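import Cfsg.Statements.S2563
import Cfsg.Agent.Lib.Classical.QuadF2
import Cfsg.Agent.Lib.Classical.ExcIso.Common

open QuadraticMap Cfsg.Agent.Lib.Classical.Quad Cfsg.Agent.Lib.Classical.QuadOmega Cfsg.Agent.Lib.Classical.QuadF2 Cfsg.Agent.Lib.Classical.ExcIso

set_option autoImplicit false
open Cfsg

namespace Cfsg.Agent.S2563

abbrev Z := ZMod 2

section
variable (N : ℕ)

/-- Points, in pairs. -/
abbrev P := Fin (N + 1) × Fin 2

/-- A pair. -/
def av (j : Fin N) : P N → Z := fun p => if p.1 = j.castSucc then 1 else 0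

/-- Its partner. -/
def bv (j : Fin N) : P N → Z := fun p =>
  (if p.1 < j.castSucc then 1 else 0) +
    (if p.2 = 0 ∧ (p.1 = j.castSucc ∨ p.1 = Fin.last N) then 1 else 0)

/-- Coordinates to even sets. -/
noncomputable def emb : (Fin N ⊕ Fin N → Z) →ₗ[Z] (P N → Z) :=
  Fintype.linearCombination Z (Sum.elim (av N) (bv N))

/-- Even sets to coordinates. -/
noncomputable def coord : (P N → Z) →ₗ[Z] (Fin N ⊕ Fin N → Z) :=
  LinearMap.pi (Sum.elim (fun j => Fintype.linearCombination Z (bv N j))
    (fun j => Fintype.linearCombination Z (av N j)))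

/-- The number of ones. -/
def wt (w : P N → Z) : ℕ := ∑ p, if w p = 1 then 1 else 0

/-- Half of it. -/
def hw2 (w : P N → Z) : Z := ((wt N w / 2 : ℕ) : Z)

variable {N}

lemma dot (u w : P N → Z) : Fintype.linearCombination Z u w = ∑ p, w p * u p := by
  simp [Fintype.linearCombination_apply]

lemma coord_inl (w : P N → Z) (j : Fin N) : coord N w (.inl j) = ∑ p, w p * bv N j p := by
  simp [coord, dot]

lemma coord_inr (w : P N → Z) (j : Fin N) : coord N w (.inr j) = ∑ p, w p * av N j p := by
  simp [coord, dot]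

lemma castSucc_lt (j : Fin N) : j.castSucc < Fin.last N := Fin.castSucc_lt_last j

lemma av_av (i j : Fin N) : ∑ p, av N i p * av N j p = 0 := by
  rw [Fintype.sum_prod_type]
  refine Finset.sum_eq_zero fun c _ => ?_
  simp only [Fin.sum_univ_two, av]
  exact CharTwo.add_self_eq_zero _

lemma bv_av (i j : Fin N) : ∑ p, bv N i p * av N j p = if i = j then 1 else 0 := by
  rw [Fintype.sum_prod_type, Finset.sum_eq_single j.castSucc (fun c _ hc => by simp [av, hc])
    (fun h => absurd (Finset.mem_univ _) h)]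
  simp only [Fin.sum_univ_two, bv, av, (castSucc_lt j).ne, Fin.castSucc_inj, or_false]
  by_cases h : j.castSucc < i.castSucc <;> by_cases h' : j = i <;>
    simp_all [eq_comm, CharTwo.add_self_eq_zero]

lemma av_bv (i j : Fin N) : ∑ p, av N i p * bv N j p = if i = j then 1 else 0 := by
  simp only [mul_comm (av N i _), bv_av, eq_comm]

lemma bv_pair (i j : Fin N) (h : i ≤ j) (c : Fin (N + 1)) :
    bv N i (c, 0) * bv N j (c, 0) + bv N i (c, 1) * bv N j (c, 1) =
      (if c = i.castSucc then 1 else 0) + if c = Fin.last N then 1 else 0 := by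
  have h1 := castSucc_lt i
  have h2 := castSucc_lt j
  have h3 : i.castSucc ≤ j.castSucc := h
  simp only [bv, Fin.isValue, one_ne_zero, false_and, if_false, add_zero, true_and]
  rcases lt_trichotomy c i.castSucc with hc | hc | hc
  · have e := hc.trans_le h3
    simp [hc, e, hc.ne, e.ne, (hc.trans h1).ne, CharTwo.add_self_eq_zero]
  · subst hc
    rcases h3.lt_or_eq with e | e
    · simp [e, e.ne, h1.ne]
    · simp [e, h2.ne]
  · rcases eq_or_ne c (Fin.last N) with rfl | hl
    · simp [h1.ne', h2.ne', not_lt.2 h1.le, not_lt.2 h2.le]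
    · simp [hc.ne', not_lt.2 hc.le, hl]

lemma bv_bv (i j : Fin N) : ∑ p, bv N i p * bv N j p = 0 := by
  wlog h : i ≤ j generalizing i j
  · simp only [mul_comm (bv N i _)]
    exact this j i (le_of_not_ge h)
  rw [Fintype.sum_prod_type]
  simp only [Fin.sum_univ_two, bv_pair i j h, Finset.sum_add_distrib, Finset.sum_ite_eq',
    Finset.mem_univ, if_true]
  exact CharTwo.add_self_eq_zero _

lemma coord_emb (v : Fin N ⊕ Fin N → Z) : coord N (emb N v) = v := by
  have h : coord N ∘ₗ emb N = LinearMap.id := (Pi.basisFun Z _).ext fun i => by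
    rw [Pi.basisFun_apply, LinearMap.comp_apply, emb, Fintype.linearCombination_apply_single,
      one_smul, LinearMap.id_apply]
    funext t
    rcases i with i | i <;> rcases t with t | t <;>
      simp [coord_inl, coord_inr, av_av, bv_av, av_bv, bv_bv, Pi.single_apply, eq_comm]
  exact LinearMap.congr_fun h v

lemma sum_emb (v : Fin N ⊕ Fin N → Z) : ∑ p, emb N v p = 0 := by
  have hv : ∀ i, ∑ p, Sum.elim (av N) (bv N) i p = 0 := fun i => by
    have hsq : ∀ x : Z, x * x = x := by decide
    rcases i with i | i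
    · simpa [hsq] using av_av i i
    · simpa [hsq] using bv_bv i i
  simp only [emb, Fintype.linearCombination_apply, Finset.sum_apply, Pi.smul_apply, smul_eq_mul]
  rw [Finset.sum_comm]
  exact Finset.sum_eq_zero fun i _ => by rw [← Finset.mul_sum, hv, mul_zero]

lemma coord_eq_zero {w : P N → Z} (hw : ∑ p, w p = 0) (h : coord N w = 0) :
    ∀ p, w p = w (Fin.last N, 0) := by
  have hpair : ∀ c, w (c, 0) = w (c, 1) := by
    intro c
    induction c using Fin.lastCases with
    | cast j =>
      have e := congrFun h (.inr j)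
      rw [coord_inr, Fintype.sum_prod_type, Finset.sum_eq_single j.castSucc
        (fun c _ hc => by simp [av, hc]) (fun h => absurd (Finset.mem_univ _) h)] at e
      simpa [av, Fin.sum_univ_two, CharTwo.add_eq_zero] using e
    | last =>
      rw [Fintype.sum_prod_type, Finset.sum_eq_single (Fin.last N) (fun c _ hc => ?_)
        (fun h => absurd (Finset.mem_univ _) h)] at hw
      · simpa [Fin.sum_univ_two, CharTwo.add_eq_zero] using hw
      · obtain ⟨j, rfl⟩ := Fin.exists_castSucc_eq.2 hc
        have e := congrFun h (.inr j)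
        rw [coord_inr, Fintype.sum_prod_type, Finset.sum_eq_single j.castSucc
          (fun c _ hc => by simp [av, hc]) (fun h => absurd (Finset.mem_univ _) h)] at e
        simpa [av, Fin.sum_univ_two] using e
  have hz : ∀ c, w (c, 0) = w (Fin.last N, 0) := by
    intro c
    induction c using Fin.lastCases with
    | last => rfl
    | cast j =>
      have e := congrFun h (.inl j)
      have key : ∀ c, w (c, 0) * bv N j (c, 0) + w (c, 1) * bv N j (c, 1) =
          (if c = j.castSucc then w (c, 0) else 0) + if c = Fin.last N then w (c, 0) else 0 := fun c => by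
        rw [← hpair]
        simp only [bv, Fin.isValue, one_ne_zero, false_and, if_false, add_zero, true_and]
        rcases lt_trichotomy c j.castSucc with hc | hc | hc
        · simp [hc, hc.ne, (hc.trans (castSucc_lt j)).ne, CharTwo.add_self_eq_zero]
        · simp [hc, (castSucc_lt j).ne]
        · rcases eq_or_ne c (Fin.last N) with rfl | hl
          · simp [(castSucc_lt j).ne', not_lt.2 (castSucc_lt j).le]
          · simp [hc.ne', not_lt.2 hc.le, hl]
      rw [coord_inl, Fintype.sum_prod_type] at e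
      simp only [Fin.sum_univ_two, key, Finset.sum_add_distrib, Finset.sum_ite_eq', Finset.mem_univ,
        if_true, Pi.zero_apply] at e
      exact CharTwo.add_eq_zero.1 e
  rintro ⟨c, t⟩
  fin_cases t
  · exact hz c
  · exact (hpair c).symm.trans (hz c)

lemma emb_coord {w : P N → Z} (hw : ∑ p, w p = 0) :
    emb N (coord N w) = w ∨ emb N (coord N w) = w + 1 := by
  have h := coord_eq_zero (w := emb N (coord N w) - w)
    (by simp only [Pi.sub_apply, Finset.sum_sub_distrib, sum_emb, hw, sub_zero])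
    (by rw [map_sub, coord_emb, sub_self])
  rcases zmod_two_cases ((emb N (coord N w) - w) (Fin.last N, 0)) with e | e
  · exact Or.inl (funext fun p => sub_eq_zero.1 (by simpa [e] using h p))
  · exact Or.inr (funext fun p => by have := h p; rw [e, Pi.sub_apply, sub_eq_iff_eq_add] at this; rw [this, add_comm]; rfl)

lemma coord_one : coord N 1 = 0 := by
  funext t
  have hsq : ∀ x : Z, x * x = x := by decide
  rcases t with j | j
  · simpa [coord_inl, hsq] using bv_bv j j
  · simpa [coord_inr, hsq] using av_av j j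

lemma cast_wt (w : P N → Z) : (wt N w : Z) = ∑ p, w p := by
  rw [wt, Nat.cast_sum]
  refine Finset.sum_congr rfl fun p _ => ?_
  rcases zmod_two_cases (w p) with h | h <;> simp [h]

lemma even_wt {w : P N → Z} (hw : ∑ p, w p = 0) : ∃ a, wt N w = 2 * a :=
  (ZMod.natCast_eq_zero_iff_even.1 ((cast_wt w).trans hw)).imp fun a ha => by omega

lemma hw2_add {u w : P N → Z} (hu : ∑ p, u p = 0) (hw : ∑ p, w p = 0) :
    hw2 N (u + w) = hw2 N u + hw2 N w + ∑ p, u p * w p := by
  set d := ∑ p, if u p = 1 ∧ w p = 1 then 1 else 0 with hd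
  have key : wt N (u + w) + 2 * d = wt N u + wt N w := by
    simp only [wt, hd, Finset.mul_sum, ← Finset.sum_add_distrib]
    refine Finset.sum_congr rfl fun p _ => ?_
    rcases zmod_two_cases (u p) with h | h <;> rcases zmod_two_cases (w p) with h' | h' <;>
      simp [h, h', CharTwo.add_self_eq_zero]
  have hd' : (d : Z) = ∑ p, u p * w p := by
    rw [hd, Nat.cast_sum]
    refine Finset.sum_congr rfl fun p _ => ?_
    rcases zmod_two_cases (u p) with h | h <;> rcases zmod_two_cases (w p) with h' | h' <;> simp [h, h']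
  obtain ⟨a, ha⟩ := even_wt hu
  obtain ⟨b, hb⟩ := even_wt hw
  obtain ⟨c, hc⟩ := even_wt (w := u + w) (by simp [Finset.sum_add_distrib, hu, hw])
  rw [hw2, hw2, hw2, ha, hb, hc, Nat.mul_div_cancel_left _ two_pos,
    Nat.mul_div_cancel_left _ two_pos, Nat.mul_div_cancel_left _ two_pos, ← hd',
    ← Nat.cast_add, show a + b = c + d by omega, Nat.cast_add, add_assoc,
    CharTwo.add_self_eq_zero, add_zero]

lemma hw2_perm (σ : Equiv.Perm (P N)) (w : P N → Z) : hw2 N (fun p => w (σ p)) = hw2 N w := by
  rw [hw2, hw2, wt, wt, Equiv.sum_comp σ (fun p => if w p = 1 then 1 else 0)]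

lemma wt_av (j : Fin N) : wt N (av N j) = 2 := by
  rw [wt, Fintype.sum_prod_type, Finset.sum_eq_single j.castSucc (fun c _ hc => by simp [av, hc])
    (fun h => absurd (Finset.mem_univ _) h)]
  simp [av]

lemma wt_bv (j : Fin N) : wt N (bv N j) = 2 * (j : ℕ) + 2 := by
  have key : ∀ c, ((if bv N j (c, 0) = 1 then 1 else 0) + if bv N j (c, 1) = 1 then 1 else 0 : ℕ) =
      2 * (if c < j.castSucc then 1 else 0) + ((if c = j.castSucc then 1 else 0) +
        if c = Fin.last N then 1 else 0) := fun c => by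
    simp only [bv, Fin.isValue, one_ne_zero, false_and, if_false, add_zero, true_and]
    rcases lt_trichotomy c j.castSucc with hc | hc | hc
    · simp [hc, hc.ne, (hc.trans (castSucc_lt j)).ne]
    · simp [hc, (castSucc_lt j).ne]
    · rcases eq_or_ne c (Fin.last N) with rfl | hl
      · simp [(castSucc_lt j).ne', not_lt.2 (castSucc_lt j).le]
      · simp [hc.ne', not_lt.2 hc.le, hl]
  rw [wt, Fintype.sum_prod_type]
  simp only [Fin.sum_univ_two, key, Finset.sum_add_distrib, ← Finset.mul_sum, Finset.sum_ite_eq',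
    Finset.mem_univ, if_true]
  rw [Finset.sum_boole, Nat.cast_id,
    show Finset.univ.filter (fun c => c < j.castSucc) = Finset.Iio j.castSucc by ext; simp,
    Fin.card_Iio]
  rfl

/-- The transported form. -/
noncomputable def qf (N : ℕ) (v : Fin N ⊕ Fin N → Z) : Z := hw2 N (emb N v)

lemma qf_pol : Pol N (qf N) := fun u v => by
  rw [qf, qf, qf, map_add, hw2_add (sum_emb u) (sum_emb v)]
  congr 1
  let β : (Fin N ⊕ Fin N → Z) →ₗ[Z] (Fin N ⊕ Fin N → Z) →ₗ[Z] Z :=
    LinearMap.mk₂ Z (fun a b => ∑ p, emb N a p * emb N b p)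
      (fun a b c => by simp [map_add, add_mul, Finset.sum_add_distrib])
      (fun c a b => by simp [map_smul, Finset.mul_sum, mul_assoc])
      (fun a b c => by simp [map_add, mul_add, Finset.sum_add_distrib])
      (fun c a b => by simp [map_smul, Finset.mul_sum, mul_left_comm])
  have h : β = polarBilin (plusQ N Z) := LinearMap.ext_basis (Pi.basisFun Z _) (Pi.basisFun Z _)
    fun i j => by
      rw [Pi.basisFun_apply, Pi.basisFun_apply]
      change (∑ p, emb N (Pi.single i 1) p * emb N (Pi.single j 1) p) = _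
      rw [emb, Fintype.linearCombination_apply_single, Fintype.linearCombination_apply_single,
        one_smul, one_smul, polarBilin_apply_apply, polar_plusQ]
      rcases i with i | i <;> rcases j with j | j <;>
        simp [av_av, bv_av, av_bv, bv_bv, Pi.single_apply, eq_comm]
  exact LinearMap.congr_fun₂ h u v

lemma qf_eq_shift (N : ℕ) : qf N =
    shift N (Cfsg.quadFormPlus N Z) (Sum.elim (fun j => ((j : ℕ) + 1 : Z)) 1) := by
  set w : Fin N ⊕ Fin N → Z := Sum.elim (fun j => ((j : ℕ) + 1 : Z)) 1 with hw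
  have hp := (pol_plus N).shift w
  have hq := qf_pol (N := N)
  let d : (Fin N ⊕ Fin N → Z) →+ Z :=
    { toFun := fun v => qf N v - shift N (Cfsg.quadFormPlus N Z) w v
      map_zero' := by rw [hq.zero, hp.zero, sub_zero]
      map_add' := fun u v => by rw [hq, hp]; ring }
  funext v
  have hd : d.toZModLinearMap 2 = 0 := (Pi.basisFun Z _).ext fun i => by
    rw [Pi.basisFun_apply]
    change qf N _ - shift N (Cfsg.quadFormPlus N Z) w _ = 0
    rw [qf, emb, Fintype.linearCombination_apply_single, one_smul]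
    rcases i with i | i
    · simp [hw2, wt_av, shift, polar_plusQ, Cfsg.quadFormPlus, hw, Pi.single_apply]
    · simp [hw2, wt_bv, shift, polar_plusQ, Cfsg.quadFormPlus, hw, Pi.single_apply,
        Nat.add_div_right]
  exact sub_eq_zero.1 (LinearMap.congr_fun hd v)

variable {ι : Type} [Fintype ι] [DecidableEq ι]

/-- A permutation in coordinates. -/
noncomputable def act (g : (Fin N ⊕ Fin N → Z) ≃ₗ[Z] (ι → Z)) (σ : Equiv.Perm (P N)) :
    (ι → Z) →ₗ[Z] (ι → Z) :=
  g.toLinearMap ∘ₗ coord N ∘ₗ LinearMap.funLeft Z Z ⇑σ⁻¹ ∘ₗ emb N ∘ₗ g.symm.toLinearMap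

omit [Fintype ι] [DecidableEq ι] in
lemma act_apply (g : (Fin N ⊕ Fin N → Z) ≃ₗ[Z] (ι → Z)) (σ : Equiv.Perm (P N)) (v : ι → Z) :
    act g σ v = g (coord N fun p => emb N (g.symm v) (σ⁻¹ p)) := rfl

lemma compat {w : P N → Z} (hw : ∑ p, w p = 0) (σ : Equiv.Perm (P N)) :
    coord N (fun p => emb N (coord N w) (σ p)) = coord N fun p => w (σ p) := by
  rcases emb_coord hw with h | h
  · rw [h]
  · rw [h, show (fun p => (w + 1) (σ p)) = (fun p => w (σ p)) + 1 from rfl, map_add, coord_one,
      add_zero]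

theorem exists_hom (hN : Odd N) (hN2 : 1 < N) (f : (ι → Z) → Z)
    (g : (Fin N ⊕ Fin N → Z) ≃ₗ[Z] (ι → Z)) (hg : ∀ v, qf N v = f (g v)) :
    ∃ φ : Equiv.Perm (P N) →* Cfsg.isometryGroup Z f, Function.Injective φ := by
  have hone : hw2 N 1 = 0 := by
    obtain ⟨t, rfl⟩ := hN
    simp only [hw2, wt, Pi.one_apply, if_true, Finset.sum_const, Finset.card_univ, Fintype.card_prod,
      Fintype.card_fin, smul_eq_mul, mul_one]
    rw [show (2 * t + 1 + 1) * 2 / 2 = 2 * (t + 1) by omega]
    exact ZMod.natCast_eq_zero_iff_even.2 (even_two_mul _)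
  have hval : ∀ w : P N → Z, ∑ p, w p = 0 → hw2 N (emb N (coord N w)) = hw2 N w := fun w hw => by
    rcases emb_coord hw with h | h
    · rw [h]
    · rw [h, hw2_add hw (by simp [show (2 : Z) = 0 from rfl]),
        hone]
      simp [hw]
  refine ⟨repHom f (act g) (fun σ τ v => ?_) (fun v => ?_) (fun σ v => ?_), ?_⟩
  · rw [act_apply, act_apply g σ, act_apply g τ, g.symm_apply_apply,
      compat (w := fun p => emb N (g.symm v) (τ⁻¹ p))
        ((Equiv.sum_comp τ⁻¹ (emb N (g.symm v))).trans (sum_emb _)) σ⁻¹]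
    simp [mul_inv_rev, Equiv.Perm.mul_apply]
  · simp [act_apply, coord_emb]
  · rw [act_apply, ← hg, qf, hval _ ((Equiv.sum_comp σ⁻¹ (emb N (g.symm v))).trans (sum_emb _)),
      hw2_perm, ← qf, hg, g.apply_symm_apply]
  refine (injective_iff_map_eq_one _).2 fun σ hσ => ?_
  have hfix := mem_ker_repHom.1 (MonoidHom.mem_ker.2 hσ)
  -- fixes every pair up to complement
  have hpair : ∀ a b : P N, a ≠ b → σ a = a ∨ σ a = b := by
    intro a b hab
    set w : P N → Z := Pi.single a 1 + Pi.single b 1 with hw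
    have hsum : ∑ p, w p = 0 := by simp [hw, Finset.sum_add_distrib, CharTwo.add_self_eq_zero]
    have h := hfix (g (coord N w))
    rw [act_apply, g.symm_apply_apply, compat hsum σ⁻¹, g.injective.eq_iff] at h
    set w' : P N → Z := fun p => w (σ⁻¹ p) with hw'
    have hsum' : ∑ p, w' p = 0 := (Equiv.sum_comp σ⁻¹ w).trans hsum
    have hd := coord_eq_zero (w := w' - w) (by simp [Finset.sum_sub_distrib, hsum, hsum'])
      (by rw [map_sub, h, sub_self])
    obtain ⟨c, hca, hcb⟩ : ∃ c : P N, c ∉ ({a, b, σ a, σ b} : Finset (P N)) ∧ True := by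
      obtain ⟨c, hc⟩ := Finset.exists_mem_notMem_of_card_lt_card
        (s := ({a, b, σ a, σ b} : Finset (P N))) (t := Finset.univ)
        (Finset.card_le_four.trans_lt (by simp; omega))
      exact ⟨c, hc.2, trivial⟩
    simp only [Finset.mem_insert, Finset.mem_singleton, not_or] at hca
    have hzero : (w' - w) (Fin.last N, 0) = 0 := by
      rw [← hd c]
      simp [hw', hw, Pi.single_apply, hca, Equiv.symm_apply_eq]
    have he : w' (σ a) = w (σ a) := by
      have := hd (σ a); rw [hzero] at this; exact sub_eq_zero.1 this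
    simp [hw', hw, hab, Pi.single_apply] at he
    by_contra hc
    push Not at hc
    simp [hc.1, hc.2] at he
  refine Equiv.ext fun a => ?_
  obtain ⟨b, hb, c, hc, hbc⟩ := Finset.one_lt_card.1 (show 1 < (Finset.univ.erase a).card by
    rw [Finset.card_erase_of_mem (Finset.mem_univ a), Finset.card_univ]; simp; omega)
  rcases hpair a b (Finset.ne_of_mem_erase hb).symm with h1 | h1
  · exact h1
  rcases hpair a c (Finset.ne_of_mem_erase hc).symm with h2 | h2
  · exact h2
  exact absurd (h1.symm.trans h2) hbc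

lemma value_eq (k : ℕ) :
    Cfsg.quadFormPlus (2 * k + 1) Z (Sum.elim (fun j => ((j : ℕ) + 1 : Z)) 1) = (k : Z) + 1 := by
  simp only [Cfsg.quadFormPlus, Sum.elim_inl, Sum.elim_inr, Pi.one_apply, mul_one]
  have h : (∑ j : Fin (2 * k + 1), ((j : ℕ) + 1)) = (2 * k + 1) * (k + 1) := by
    have := Finset.sum_range_id_mul_two (2 * k + 1)
    rw [Fin.sum_univ_eq_sum_range (fun j => j + 1), Finset.sum_add_distrib, Finset.sum_const,
      Finset.card_range, smul_eq_mul, mul_one]
    simp only [Nat.add_sub_cancel] at this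
    nlinarith
  have h' := congrArg (Nat.cast : ℕ → Z) h
  push_cast at h'
  rw [h']
  have h20 : (2 : Z) = 0 := rfl
  rw [h20]; ring

end

lemma main (k : ℕ) (hk : 1 ≤ k) :
    (Odd k → ∃ φ : Equiv.Perm (Fin (4 * k + 4)) →* ↥(Cfsg.isometryGroup Z (Cfsg.quadFormPlus (2 * k + 1) Z)), Function.Injective φ) ∧
    (Even k → ∃ φ : Equiv.Perm (Fin (4 * k + 4)) →* ↥(Cfsg.isometryGroup Z (Cfsg.quadFormMinus (2 * k) Z 1 1)), Function.Injective φ) := by
  let e : Fin (4 * k + 4) ≃ P (2 * k + 1) := Fintype.equivOfCardEq (by simp; ring)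
  have hiff : ∀ w, IsPlus (2 * k + 1) (shift _ (Cfsg.quadFormPlus (2 * k + 1) Z) w) ↔ _ = (0 : Z) :=
    fun w => (pol_plus (2 * k + 1)).exists_shift_iff (by omega) w
  have hplus : IsPlus (2 * k + 1) (qf (2 * k + 1)) ↔ (k : Z) + 1 = 0 := by
    rw [qf_eq_shift, hiff, value_eq]
  constructor
  · rintro ⟨t, rfl⟩
    obtain ⟨g, hg⟩ := hplus.2 (by push_cast; rw [show (2 : Z) = 0 from rfl]; ring_nf; rfl)
    obtain ⟨φ, hφ⟩ := exists_hom ⟨2 * t + 1, rfl⟩ (by omega) _ g hg
    exact ⟨φ.comp e.permCongrHom.toMonoidHom, hφ.comp e.permCongrHom.injective⟩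
  · rintro ⟨t, rfl⟩
    obtain ⟨g, hg⟩ := (qf_pol.isPlus_or_isMinus (m := 2 * (t + t) + 1) (by omega)).resolve_left
      fun h => one_ne_zero (α := Z) (by
        have := hplus.1 h
        push_cast at this
        rwa [CharTwo.add_self_eq_zero, zero_add] at this)
    obtain ⟨φ, hφ⟩ := exists_hom ⟨t + t, rfl⟩ (by omega) _ g hg
    exact ⟨φ.comp e.permCongrHom.toMonoidHom, hφ.comp e.permCongrHom.injective⟩

/-- For k ≥ 1 the symmetric group of degree 4k + 4 embeds in a full orthogonal group in dimension 4k + 2 over the field of two elements: in the isometry group of the plus-type form Σ xᵢyᵢ when k is odd, and in that of the minus-type form Σ xᵢyᵢ + (z₁² + z₁z₂ + z₂²) when k is even (through its action on even partitions of a (4k+4)-set, with the form 'half the size of a part, modulo 2'). -/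
theorem result (k : ℕ) (hk : 1 ≤ k) :
    (Odd k → ∃ φ : Equiv.Perm (Fin (4 * k + 4)) →* ↥(Cfsg.isometryGroup (ZMod 2) (Cfsg.quadFormPlus (2 * k + 1) (ZMod 2))), Function.Injective φ) ∧
    (Even k → ∃ φ : Equiv.Perm (Fin (4 * k + 4)) →* ↥(Cfsg.isometryGroup (ZMod 2) (Cfsg.quadFormMinus (2 * k) (ZMod 2) 1 1)), Function.Injective φ) := by
  exact main k hk

end Cfsg.Agent.S2563
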