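import Cfsg.Statements.S0247
import Cfsg.Agent.S2563
import Cfsg.Agent.Lib.Classical.SympOrder

open Matrix QuadraticMap Cfsg.Agent.Lib.Classical.QuadOmega Cfsg.Agent.Lib.Classical.QuadF2 Cfsg.Agent.S2563

set_option autoImplicit false
open Cfsg

namespace Cfsg.Agent.S0247

lemma emb_dot {N : ℕ} (u v : Fin N ⊕ Fin N → Z) :
    ∑ p, emb N u p * emb N v p = polar (plusQ N Z) u v := by
  have h := qf_pol (N := N) u v
  rw [qf, qf, qf, map_add, hw2_add (sum_emb u) (sum_emb v)] at h
  exact add_left_cancel h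

/-- The permutations of six points in coordinates. -/
noncomputable def actSix (σ : Equiv.Perm (P 2)) : (Fin 2 ⊕ Fin 2 → Z) →ₗ[Z] (Fin 2 ⊕ Fin 2 → Z) :=
  act (LinearEquiv.refl Z _) σ

lemma actSix_apply (σ : Equiv.Perm (P 2)) (v : Fin 2 ⊕ Fin 2 → Z) :
    actSix σ v = coord 2 fun p => emb 2 v (σ⁻¹ p) := act_apply _ σ v

lemma actSix_mul (σ τ : Equiv.Perm (P 2)) : actSix (σ * τ) = actSix σ ∘ₗ actSix τ := LinearMap.ext fun v => by
  rw [LinearMap.comp_apply, actSix_apply, actSix_apply σ, actSix_apply τ,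
    compat (w := fun p => emb 2 v (τ⁻¹ p)) ((Equiv.sum_comp τ⁻¹ (emb 2 v)).trans (sum_emb _)) σ⁻¹]
  simp [_root_.mul_inv_rev, Equiv.Perm.mul_apply]

lemma actSix_polar (σ : Equiv.Perm (P 2)) (u v : Fin 2 ⊕ Fin 2 → Z) :
    polar (plusQ 2 Z) (actSix σ u) (actSix σ v) = polar (plusQ 2 Z) u v := by
  rw [← emb_dot, ← emb_dot, actSix_apply, actSix_apply]
  set a : P 2 → Z := fun p => emb 2 u (σ⁻¹ p) with ha
  set b : P 2 → Z := fun p => emb 2 v (σ⁻¹ p) with hb
  have sa : ∑ p, a p = 0 := (Equiv.sum_comp σ⁻¹ (emb 2 u)).trans (sum_emb _)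
  have sb : ∑ p, b p = 0 := (Equiv.sum_comp σ⁻¹ (emb 2 v)).trans (sum_emb _)
  have h1 : ∑ p, (1 : P 2 → Z) p = 0 := by decide
  have key : ∀ c : P 2 → Z, ∑ p, c p = 0 → ∑ p, (c + 1) p = 0 := fun c hc => by
    simp only [Pi.add_apply, Finset.sum_add_distrib, hc, h1, add_zero]
  have e : ∀ c d : P 2 → Z, ∑ p, c p = 0 → ∑ p, d p = 0 →
      ∑ p, emb 2 (coord 2 c) p * d p = ∑ p, c p * d p := fun c d hc hd => by
    rcases emb_coord hc with h | h
    · rw [h]
    · simp only [h, Pi.add_apply, Pi.one_apply, add_mul, one_mul, Finset.sum_add_distrib, hd, add_zero]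
  rw [e a _ sa (sum_emb _), Finset.sum_congr rfl fun p _ => mul_comm (a p) _, e b a sb sa,
    ← Equiv.sum_comp σ⁻¹ fun p => emb 2 u p * emb 2 v p]
  exact Finset.sum_congr rfl fun p _ => mul_comm _ _

lemma mem_sp (σ : Equiv.Perm (P 2)) :
    (LinearMap.toMatrix' (actSix σ)) ∈ Matrix.symplecticGroup (Fin 2) Z := by
  rw [SymplecticGroup.mem_iff']
  ext i j
  have h := actSix_polar σ (Pi.single i 1) (Pi.single j 1)
  have neg : ∀ x : Z, -x = x := by decide
  simp only [Matrix.mul_apply, Matrix.transpose_apply, Fintype.sum_sum_type, Fin.sum_univ_two, Matrix.J,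
    Matrix.fromBlocks, Matrix.of_apply, Sum.elim_inl, Sum.elim_inr]
  simp only [polar_plusQ, ← LinearMap.toMatrix'_mulVec (actSix σ), Matrix.mulVec_single_one,
    Fin.sum_univ_two, Matrix.col_apply] at h
  rcases i with i | i <;> rcases j with j | j <;> fin_cases i <;> fin_cases j <;>
    simp [neg] at h ⊢ <;> linear_combination h

lemma faithful_pairs : ∀ a b c d : P 2, a ≠ b →
    (∀ p, (Pi.single c 1 + Pi.single d 1 - (Pi.single a 1 + Pi.single b 1) : P 2 → Z) p =
      (Pi.single c 1 + Pi.single d 1 - (Pi.single a 1 + Pi.single b 1) : P 2 → Z) (Fin.last 2, 0)) →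
    c ≠ d → c = a ∨ c = b := by
  decide +kernel

lemma faithful (σ : Equiv.Perm (P 2)) (h : ∀ v, coord 2 (fun p => emb 2 v (σ⁻¹ p)) = v) : σ = 1 := by
  have hpair : ∀ a b : P 2, a ≠ b → σ a = a ∨ σ a = b := by
    intro a b hab
    set w : P 2 → Z := Pi.single a 1 + Pi.single b 1 with hw
    have hsum : ∑ p, w p = 0 := by simp [hw, Finset.sum_add_distrib, CharTwo.add_self_eq_zero]
    have h := h (coord 2 w)
    rw [compat hsum σ⁻¹] at h
    have he : (fun p => w (σ⁻¹ p)) = Pi.single (σ a) 1 + Pi.single (σ b) 1 := funext fun p => by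
      simp [hw, Pi.single_apply, Equiv.symm_apply_eq]
    rw [he] at h
    exact faithful_pairs a b (σ a) (σ b) hab
      (coord_eq_zero (w := Pi.single (σ a) 1 + Pi.single (σ b) 1 - w)
        (by simp [Finset.sum_sub_distrib, hsum, Finset.sum_add_distrib, CharTwo.add_self_eq_zero])
        (by rw [map_sub, h, sub_self])) (σ.injective.ne hab)
  refine Equiv.ext fun a => ?_
  obtain ⟨b, hb, c, hc, hbc⟩ := Finset.one_lt_card.1 (show 1 < (Finset.univ.erase a).card by
    rw [Finset.card_erase_of_mem (Finset.mem_univ a), Finset.card_univ]; simp)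
  rcases hpair a b (Finset.ne_of_mem_erase hb).symm with h1 | h1
  · exact h1
  rcases hpair a c (Finset.ne_of_mem_erase hc).symm with h2 | h2
  · exact h2
  exact absurd (h1.symm.trans h2) hbc

lemma main {F : Type*} [Field F] [Fintype F] (hF : Fintype.card F = 2) :
    Nonempty (Matrix.symplecticGroup (Fin 2) F ≃* Equiv.Perm (Fin 6)) := by
  have e2 : Fintype.card Z = Fintype.card F := by rw [hF, ZMod.card]
  let f : Z →+* F := (FiniteField.ringEquivOfCardEq e2 : Z →+* F)
  let φ : Equiv.Perm (P 2) →* Matrix.symplecticGroup (Fin 2) F :=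
    MonoidHom.mk' (fun σ => ⟨(LinearMap.toMatrix' (actSix σ)).map f, by
      have h := congrArg (fun M => M.map f) (SymplecticGroup.mem_iff'.1 (mem_sp σ))
      have hJ : (Matrix.J (Fin 2) Z).map f = Matrix.J (Fin 2) F := by
        have hneg : ∀ x : F, -x = x := fun x => by
          have h2 : (2 : F) = 0 := by rw [← map_ofNat f 2, show (2 : Z) = 0 from rfl, map_zero]
          linear_combination (-x) * h2
        ext (i | i) (j | j) <;> simp [Matrix.J, Matrix.fromBlocks, Matrix.one_apply, apply_ite f, hneg]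
      rw [SymplecticGroup.mem_iff', ← hJ, ← Matrix.transpose_map, ← Matrix.map_mul, ← Matrix.map_mul]
      exact h⟩) fun σ τ => Subtype.ext (by
        show (LinearMap.toMatrix' (actSix (σ * τ))).map f = _ * _
        rw [actSix_mul, LinearMap.toMatrix'_comp, Matrix.map_mul])
  have hinj : Function.Injective φ := fun σ τ h => by
    have h' := Matrix.map_injective f.injective (congrArg Subtype.val h :)
    obtain ⟨g, hg⟩ : ∃ g : Equiv.Perm (P 2) →* Cfsg.isometryGroup Z (fun _ : Fin 2 ⊕ Fin 2 → Z => (0 : Z)),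
        Function.Injective g ∧ ∀ σ, ((g σ).1 : Matrix (Fin 2 ⊕ Fin 2) (Fin 2 ⊕ Fin 2) Z) =
          LinearMap.toMatrix' (actSix σ) :=
      ⟨Lib.Classical.ExcIso.repHom _ actSix (fun a b v => by rw [actSix_mul]; rfl)
        (fun v => by rw [actSix_apply]; simp [coord_emb]) (fun _ _ => rfl), by
        refine (injective_iff_map_eq_one _).2 fun σ hσ => ?_
        have hfix := Lib.Classical.ExcIso.mem_ker_repHom.1 (MonoidHom.mem_ker.2 hσ)
        exact faithful σ fun v => (actSix_apply σ v).symm.trans (hfix v), fun σ => rfl⟩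
    exact hg.1 (Subtype.ext (Units.ext (by rw [hg.2, hg.2]; exact h')))
  let e : Fin 6 ≃ P 2 := Fintype.equivOfCardEq (by simp)
  refine ⟨(MulEquiv.ofBijective φ ((Nat.bijective_iff_injective_and_card φ).2 ⟨hinj, ?_⟩)).symm.trans
    e.symm.permCongrHom⟩
  rw [Lib.Classical.card_symplecticGroup, hF, Nat.card_perm, Nat.card_eq_fintype_card]
  decide

/-- Sp_4(2) is isomorphic to the symmetric group S_6. -/
theorem result {F : Type*} [Field F] [Fintype F] (hF : Fintype.card F = 2) : Nonempty (Matrix.symplecticGroup (Fin 2) F ≃* Equiv.Perm (Fin 6)) := by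
  exact main hF

end Cfsg.Agent.S0247
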