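import Cfsg.Statements.S2426
import Cfsg.Agent.Lib.SteinbergPres.RankOne
import Cfsg.Agent.Lib.Classical.Order
import Cfsg.Agent.Lib.Classical.Simple

set_option autoImplicit false
open Cfsg

namespace Cfsg.Agent.S2426

/-- The rank-one Steinberg presentation of `SL₂` over a finite field `K`: generators `x(t)`, `y(t)` (`t ∈ K`; the two opposite root subgroups) subject to additivity `x(t)x(u) = x(t+u)`, `y(t)y(u) = y(t+u)` and, with `w(t) = x(t) y(−t⁻¹) x(t)` and `w'(t) = y(t) x(−t⁻¹) y(t)` for `t ≠ 0`, the relations `w(t) x(u) w(t)⁻¹ = y(−t⁻² u)` and `w'(t) y(u) w'(t)⁻¹ = x(−t⁻² u)`, present `SL₂(K)`, with `x(t) ↦ (1 t; 0 1)` and `y(t) ↦ (1 0; t 1)`. -/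
theorem result {K : Type*} [Field K] [Finite K] :
    ∃ e : PresentedGroup
        ({g : FreeGroup (Bool × K) | ∃ (b : Bool) (t u : K), g = FreeGroup.of (b, t) * FreeGroup.of (b, u) * (FreeGroup.of (b, t + u))⁻¹} ∪
          {g | ∃ (b : Bool) (t u : K), t ≠ 0 ∧
            g = (FreeGroup.of (b, t) * FreeGroup.of (!b, -t⁻¹) * FreeGroup.of (b, t)) * FreeGroup.of (b, u) *
                  (FreeGroup.of (b, t) * FreeGroup.of (!b, -t⁻¹) * FreeGroup.of (b, t))⁻¹ * (FreeGroup.of (!b, -(t⁻¹ ^ 2 * u)))⁻¹})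
        ≃* Matrix.SpecialLinearGroup (Fin 2) K,
      (∀ t : K, ((e (PresentedGroup.of (true, t)) : Matrix (Fin 2) (Fin 2) K)) = !![1, t; 0, 1]) ∧
      (∀ t : K, ((e (PresentedGroup.of (false, t)) : Matrix (Fin 2) (Fin 2) K)) = !![1, 0; t, 1]) := by
  classical
  haveI : Fintype K := Fintype.ofFinite K
  set rels : Set (FreeGroup (Bool × K)) :=
    ({g : FreeGroup (Bool × K) | ∃ (b : Bool) (t u : K), g = FreeGroup.of (b, t) * FreeGroup.of (b, u) * (FreeGroup.of (b, t + u))⁻¹} ∪
          {g | ∃ (b : Bool) (t u : K), t ≠ 0 ∧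
            g = (FreeGroup.of (b, t) * FreeGroup.of (!b, -t⁻¹) * FreeGroup.of (b, t)) * FreeGroup.of (b, u) *
                  (FreeGroup.of (b, t) * FreeGroup.of (!b, -t⁻¹) * FreeGroup.of (b, t))⁻¹ * (FreeGroup.of (!b, -(t⁻¹ ^ 2 * u)))⁻¹}) with hrels
  let R : Cfsg.Agent.Lib.SteinbergPres.RankOne K (PresentedGroup rels) :=
    { x := fun t => PresentedGroup.of (true, t)
      y := fun t => PresentedGroup.of (false, t)
      x_add := fun t u => by
        have h := PresentedGroup.one_of_mem (rels := rels)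
          (x := FreeGroup.of (true, t) * FreeGroup.of (true, u) * (FreeGroup.of (true, t + u))⁻¹) (Or.inl ⟨true, t, u, rfl⟩)
        rw [map_mul, map_mul, map_inv] at h
        exact mul_inv_eq_one.mp h
      y_add := fun t u => by
        have h := PresentedGroup.one_of_mem (rels := rels)
          (x := FreeGroup.of (false, t) * FreeGroup.of (false, u) * (FreeGroup.of (false, t + u))⁻¹) (Or.inl ⟨false, t, u, rfl⟩)
        rw [map_mul, map_mul, map_inv] at h
        exact mul_inv_eq_one.mp h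
      w_x := fun t u ht => by
        have h := PresentedGroup.one_of_mem (rels := rels)
          (x := (FreeGroup.of (true, t) * FreeGroup.of (!true, -t⁻¹) * FreeGroup.of (true, t)) * FreeGroup.of (true, u) *
            (FreeGroup.of (true, t) * FreeGroup.of (!true, -t⁻¹) * FreeGroup.of (true, t))⁻¹ *
            (FreeGroup.of (!true, -(t⁻¹ ^ 2 * u)))⁻¹) (Or.inr ⟨true, t, u, ht, rfl⟩)
        simp only [map_mul, map_inv, Bool.not_true] at h
        exact mul_inv_eq_one.mp h }
  let fx : K → Matrix.SpecialLinearGroup (Fin 2) K := fun t => ⟨!![1, t; 0, 1], by simp [Matrix.det_fin_two]⟩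
  let fy : K → Matrix.SpecialLinearGroup (Fin 2) K := fun t => ⟨!![1, 0; t, 1], by simp [Matrix.det_fin_two]⟩
  let f : Bool × K → Matrix.SpecialLinearGroup (Fin 2) K := fun p => if p.1 then fx p.2 else fy p.2
  have hf : ∀ r ∈ rels, FreeGroup.lift f r = 1 := by
    rintro r (⟨b, t, u, rfl⟩ | ⟨b, t, u, ht, rfl⟩)
    · simp only [map_mul, map_inv, FreeGroup.lift_apply_of]
      rw [mul_inv_eq_one]
      apply Subtype.ext
      rw [Matrix.SpecialLinearGroup.coe_mul]
      cases b <;> (ext i j; fin_cases i <;> fin_cases j <;> simp [f, fx, fy, Matrix.mul_apply, Fin.sum_univ_two, add_comm])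
    · simp only [map_mul, map_inv, FreeGroup.lift_apply_of]
      rw [mul_inv_eq_one, mul_inv_eq_iff_eq_mul]
      apply Subtype.ext
      simp only [Matrix.SpecialLinearGroup.coe_mul]
      cases b <;> (ext i j; fin_cases i <;> fin_cases j <;>
        simp [f, fx, fy, Matrix.mul_apply, Fin.sum_univ_two] <;> (try field_simp) <;> (try ring_nf) <;> simp)
  let φ := PresentedGroup.toGroup hf
  have hφx : ∀ t, φ (R.x t) = fx t := fun t => by simp [φ, R, f]
  have hφy : ∀ t, φ (R.y t) = fy t := fun t => by simp [φ, R, f]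
  -- surjectivity
  have hsurj : Function.Surjective φ := by
    intro A
    induction A using Cfsg.Agent.Lib.Classical.SL_transvection_induction with
    | h1 => exact ⟨1, map_one φ⟩
    | htransvec i j hij c =>
      fin_cases i <;> fin_cases j
      · exact absurd rfl hij
      · refine ⟨R.x c, (hφx c).trans (Subtype.ext ?_)⟩
        ext i j; fin_cases i <;> fin_cases j <;> simp [fx, Matrix.SpecialLinearGroup.transvection, Matrix.transvection, Matrix.single_apply]
      · refine ⟨R.y c, (hφy c).trans (Subtype.ext ?_)⟩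
        ext i j; fin_cases i <;> fin_cases j <;> simp [fy, Matrix.SpecialLinearGroup.transvection, Matrix.transvection, Matrix.single_apply]
      · exact absurd rfl hij
    | hmul a b ha hb =>
      obtain ⟨x, rfl⟩ := ha
      obtain ⟨y, rfl⟩ := hb
      exact ⟨x * y, map_mul φ x y⟩
  -- the bound
  let B : Option K × K × Kˣ → PresentedGroup rels := fun p =>
    match p with
    | (none, a, d) => R.x a * R.h (d : K)
    | (some c, a, d) => R.x a * R.h (d : K) * R.w 1 * R.x c
  have hw : ∀ a : K, R.w a = R.h a * R.w 1 := fun a => by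
    rw [Cfsg.Agent.Lib.SteinbergPres.RankOne.h, ← R.w_inv 1, mul_assoc, inv_mul_cancel, mul_one]
  have hm : R.w 1 * R.w 1 = R.h (-1) := by
    have h1 := R.h_mul (t := -1) (u := -1) (by simp) (by simp)
    rw [show (-1 : K) * -1 = 1 by ring, R.h_one] at h1
    have h2 : R.h (-1) = (R.w 1)⁻¹ * (R.w 1)⁻¹ := by
      rw [Cfsg.Agent.Lib.SteinbergPres.RankOne.h, R.w_inv]
    rw [show R.h (-1) = (R.h (-1))⁻¹ from eq_inv_of_mul_eq_one_left h1, h2, mul_inv_rev, inv_inv]
  have hwh : ∀ {d : K}, d ≠ 0 → R.w 1 * R.h d = R.h d⁻¹ * R.w 1 := by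
    intro d hd
    have h1 := R.w_conj one_ne_zero hd
    have h2 := R.w_conj one_ne_zero (neg_ne_zero.mpr (one_ne_zero (α := K)))
    rw [one_pow, one_mul] at h1 h2
    rw [← mul_inv_eq_iff_eq_mul, Cfsg.Agent.Lib.SteinbergPres.RankOne.h,
      show R.w 1 * (R.w d * R.w (-1)) * (R.w 1)⁻¹ = (R.w 1 * R.w d * (R.w 1)⁻¹) * (R.w 1 * R.w (-1) * (R.w 1)⁻¹) by group,
      h1, h2, inv_neg, inv_one, Cfsg.Agent.Lib.SteinbergPres.RankOne.h]
  have hmemx : ∀ p c, B p * R.x c ∈ Set.range B := by
    rintro ⟨o, a, d⟩ c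
    cases o with
    | none =>
      refine ⟨(none, a + (d : K) ^ 2 * c, d), ?_⟩
      simp only [B]
      rw [← R.x_add, ← R.h_conj_x d.ne_zero c]
      group
    | some e =>
      refine ⟨(some (e + c), a, d), ?_⟩
      simp only [B]
      rw [← R.x_add]
      group
  have hmemw : ∀ p, B p * R.w 1 ∈ Set.range B := by
    rintro ⟨o, a, d⟩
    cases o with
    | none =>
      refine ⟨(some 0, a, d), ?_⟩
      simp only [B]
      rw [R.x_zero, mul_one]
    | some e =>
      by_cases he : e = 0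
      · subst he
        refine ⟨(none, a, d * (-1)), ?_⟩
        simp only [B]
        rw [R.x_zero, mul_one, mul_assoc, hm, mul_assoc, R.h_mul d.ne_zero (by simp), Units.val_mul, Units.val_neg,
          Units.val_one]
      · have h1 : R.w 1 * R.x e = R.x (-e⁻¹) * R.h e⁻¹ * R.w 1 * R.x (-e⁻¹) * R.w 1 := by
          have h2 : R.w 1 * R.x e * (R.w 1)⁻¹ = R.y (-e) := by
            rw [R.w_conj_x one_ne_zero]; simp
          have h3 : R.y (-e) = R.x (-e⁻¹) * R.w e⁻¹ * R.x (-e⁻¹) := by
            rw [Cfsg.Agent.Lib.SteinbergPres.RankOne.w, inv_inv,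
              show R.x (-e⁻¹) * (R.x e⁻¹ * R.y (-e) * R.x e⁻¹) * R.x (-e⁻¹) =
                (R.x (-e⁻¹) * R.x e⁻¹) * R.y (-e) * (R.x e⁻¹ * R.x (-e⁻¹)) by group, R.x_add, R.x_add]
            simp [R.x_zero]
          rw [mul_inv_eq_iff_eq_mul.mp h2, h3, hw e⁻¹]
          group
        refine ⟨(some (-((-1 : K) ^ 2 * e⁻¹)), a + (d : K) ^ 2 * -e⁻¹, d * (Units.mk0 e he)⁻¹ * (-1)), ?_⟩
        simp only [B, Units.val_mul, Units.val_neg, Units.val_one, Units.val_inv_eq_inv_val, Units.val_mk0]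
        rw [mul_assoc (R.x a * R.h (d : K)) (R.w 1) (R.x e), h1, ← R.x_add, ← R.h_conj_x d.ne_zero,
          show R.x a * R.h (d : K) * (R.x (-e⁻¹) * R.h e⁻¹ * R.w 1 * R.x (-e⁻¹) * R.w 1) * R.w 1 =
            R.x a * R.h (d : K) * R.x (-e⁻¹) * R.h e⁻¹ * R.w 1 * R.x (-e⁻¹) * (R.w 1 * R.w 1) by group, hm]
        have h4 : R.x (-e⁻¹) * R.h (-1) = R.h (-1) * R.x (-e⁻¹) := by
          have := R.h_conj_x (neg_ne_zero.mpr (one_ne_zero (α := K))) (-e⁻¹)
          rw [show ((-1 : K)) ^ 2 * -e⁻¹ = -e⁻¹ by ring] at this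
          conv_lhs => rw [← this]
          group
        have h5 : R.w 1 * R.h (-1) = R.h (-1) * R.w 1 := by
          rw [hwh (by simp : (-1 : K) ≠ 0), inv_neg, inv_one]
        rw [show ((-1 : K)) ^ 2 * e⁻¹ = e⁻¹ by ring, ← R.h_mul (mul_ne_zero d.ne_zero (inv_ne_zero he)) (by simp),
          ← R.h_mul d.ne_zero (inv_ne_zero he)]
        simp only [mul_assoc, h4]
        rw [← mul_assoc (R.w 1) (R.h (-1)) (R.x (-e⁻¹)), h5]
        group
  have hmemy : ∀ p c, B p * R.y c ∈ Set.range B := by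
    intro p c
    have h1 : R.y c = (R.w 1 * R.x (-c)) * (R.w 1)⁻¹ := by
      rw [R.w_conj_x one_ne_zero]; simp
    have h2 : (R.w 1)⁻¹ = R.w 1 * R.w 1 * R.w 1 := by
      apply inv_eq_of_mul_eq_one_right
      calc R.w 1 * (R.w 1 * R.w 1 * R.w 1) = (R.w 1 * R.w 1) * (R.w 1 * R.w 1) := by group
        _ = 1 := by rw [hm, R.h_mul (by simp) (by simp), show (-1 : K) * -1 = 1 by ring, R.h_one]
    rw [h1, h2]
    simp only [← mul_assoc]
    obtain ⟨p1, e1⟩ := hmemw p
    rw [← e1]
    obtain ⟨p2, e2⟩ := hmemx p1 (-c)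
    rw [← e2]
    obtain ⟨p3, e3⟩ := hmemw p2
    rw [← e3]
    obtain ⟨p4, e4⟩ := hmemw p3
    rw [← e4]
    exact hmemw p4
  have hall : ∀ g : PresentedGroup rels, ∀ p, B p * g ∈ Set.range B := by
    intro g
    refine Subgroup.closure_induction (k := Set.range (PresentedGroup.of (rels := rels)))
      (p := fun g _ => ∀ p, B p * g ∈ Set.range B) ?_ ?_ ?_ ?_
      (by rw [PresentedGroup.closure_range_of]; trivial : g ∈ Subgroup.closure (Set.range (PresentedGroup.of (rels := rels))))
    · rintro - ⟨⟨b, c⟩, rfl⟩ p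
      cases b
      · exact hmemy p c
      · exact hmemx p c
    · intro p
      exact ⟨p, (mul_one _).symm⟩
    · intro x y _ _ hx hy p
      obtain ⟨p', e'⟩ := hx p
      rw [← mul_assoc, ← e']
      exact hy p'
    · intro x _ hx p
      -- right multiplication by `x` permutes the finite set `range B`
      have hfin : (Set.range B).Finite := Set.finite_range B
      have hmaps : Set.MapsTo (fun z => z * x) (Set.range B) (Set.range B) := by
        rintro - ⟨p', rfl⟩
        exact hx p'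
      obtain ⟨z, hz, hzx⟩ := ((Set.Finite.injOn_iff_bijOn_of_mapsTo hfin hmaps).mp (fun a _ b _ h => mul_right_cancel h)).surjOn ⟨p, rfl⟩
      rw [← hzx, mul_inv_cancel_right]
      exact hz
  have hB : Function.Surjective B := by
    intro g
    have h1 : B (none, 0, 1) = 1 := by simp [B, R.x_zero, R.h_one]
    have := hall g (none, 0, 1)
    rw [h1, one_mul] at this
    exact this
  haveI : Finite (PresentedGroup rels) := Finite.of_surjective B hB
  have hle : Nat.card (PresentedGroup rels) ≤ Nat.card (Matrix.SpecialLinearGroup (Fin 2) K) := by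
    refine (Nat.card_le_card_of_surjective B hB).trans (le_of_eq ?_)
    rw [Nat.card_prod, Nat.card_prod, Finite.card_option, Nat.card_units, Nat.card_eq_fintype_card (α := K)]
    have h := Cfsg.Agent.Lib.Classical.card_SL_two (F := K)
    have hq : 1 ≤ Fintype.card K := Fintype.card_pos
    have hq2 : 1 ≤ Fintype.card K ^ 2 := Nat.one_le_pow _ _ hq
    rw [h]
    zify [hq, hq2]
    ring
  have hbij : Function.Bijective φ :=
    (Nat.bijective_iff_surjective_and_card _).mpr ⟨hsurj, le_antisymm hle (Nat.card_le_card_of_surjective φ hsurj)⟩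
  exact ⟨MulEquiv.ofBijective φ hbij, fun t => congrArg Subtype.val (hφx t), fun t => congrArg Subtype.val (hφy t)⟩

end Cfsg.Agent.S2426
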