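import Cfsg.Statements.S3006
import Mathlib
import Cfsg.Agent.Lib.LocalP2.ChermakDelgado
-- import your own Cfsg.Agent.* helpers here

set_option autoImplicit false
open scoped Pointwise
open Cfsg Cfsg.Agent.Lib.LocalP2
open scoped Pointwise

namespace Cfsg.Agent.S3006

/-- Let P be a finite p-group, Q a centrally large subgroup of P (|Q|·|Z(Q)| maximal among subgroups of P) and A an abelian subgroup of P of largest order. Then QA = AQ is a centrally large subgroup of P, C_{QA}(Q ∩ A) = Z(Q)·A, and the subgroup generated by all centrally large subgroups of P contains C_P(Z(J(P))), where J(P) is generated by the abelian subgroups of largest order. -/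
theorem result {p : ℕ} [Fact p.Prime] (P : Type*) [Group P] [Finite P] (hP : IsPGroup p P) (Q A : Subgroup P) (hQ : Cfsg.IsCentrallyLarge Q) (hA : A ∈ Cfsg.maxAbelianSubgroups P) : ((Q ⊔ A : Subgroup P) : Set P) = (Q : Set P) * (A : Set P) ∧ Cfsg.IsCentrallyLarge (Q ⊔ A) ∧ (Q ⊔ A) ⊓ Subgroup.centralizer ((Q ⊓ A : Subgroup P) : Set P) = (Q ⊓ Subgroup.centralizer (Q : Set P)) ⊔ A ∧ (((Q ⊓ Subgroup.centralizer (Q : Set P)) ⊔ A : Subgroup P) : Set P) = ((Q ⊓ Subgroup.centralizer (Q : Set P)) : Set P) * (A : Set P) ∧ Subgroup.centralizer ((Cfsg.thompsonSubgroupA P ⊓ Subgroup.centralizer (Cfsg.thompsonSubgroupA P : Set P) : Subgroup P) : Set P) ≤ Cfsg.centrallyLargeJoin P := by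
  obtain ⟨hQ1, hQ2⟩ := centrallyLarge_iff.1 hQ
  have hQQ := (large_centralizer hQ1).2
  have hCA := centralizer_eq_self_of_maxAbelian hA
  set Z := Subgroup.centralizer (Q : Set P)
  set D := Q ⊓ A
  set E := Z ⊔ D with hEdef
  rw [inf_eq_right.2 hQ2]
  have hAA : A ≤ Subgroup.centralizer (A : Set P) := hCA.ge
  have hDD : D ≤ Subgroup.centralizer (D : Set P) :=
    inf_le_right.trans (hAA.trans (Subgroup.centralizer_le fun _ h => h.2))
  have hCE : Subgroup.centralizer (E : Set P) = Q ⊓ Subgroup.centralizer (D : Set P) := by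
    rw [hEdef, centralizer_sup, ← hQQ]
  have hZD : Z ≤ Subgroup.centralizer (D : Set P) := Subgroup.centralizer_le fun _ h => h.1
  have hE : IsMulCommutative E := by
    rw [← Subgroup.le_centralizer_iff_isMulCommutative, hCE]
    exact sup_le (le_inf hQ2 hZD) (le_inf inf_le_left hDD)
  have hEA := hA.2 E hE
  have hZA : Z ⊓ D = Z ⊓ A := le_antisymm (inf_le_inf_left _ inf_le_right)
    (le_inf inf_le_left (le_inf (inf_le_left.trans hQ2) inf_le_right))
  have i1 := card_mul_card_le Z D
  rw [hZA] at i1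
  have i2 := card_mul_card_le Q A
  have i3 := measure'_le_max (Q ⊔ A)
  simp only [measure'] at i3
  rw [centralizer_sup, hCA] at i3
  have hf : Nat.card ↥Q * Nat.card ↥Z = Cfsg.maxCentralizerProduct P := hQ1
  rw [← hf] at i3
  set q := Nat.card ↥Q
  set a := Nat.card ↥A
  set z := Nat.card ↥Z
  set d := Nat.card ↥D
  set s := Nat.card ↥(Q ⊔ A)
  set e := Nat.card ↥E
  set i := Nat.card ↥(Z ⊓ A)
  have hd : 0 < d := Nat.card_pos
  have hi : 0 < i := Nat.card_pos
  have hq : 0 < q := Nat.card_pos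
  have ha : 0 < a := Nat.card_pos
  have hz : 0 < z := Nat.card_pos
  have hzd : z * d ≤ a * i := i1.trans (Nat.mul_le_mul_right i hEA)
  have hkey : (q * z) * (a * d) ≤ (s * i) * (a * d) := by
    calc (q * z) * (a * d) = (q * a) * (z * d) := by ring
      _ ≤ (s * d) * (a * i) := Nat.mul_le_mul i2 hzd
      _ = (s * i) * (a * d) := by ring
  have hsi : q * z = s * i :=
    le_antisymm (Nat.le_of_mul_le_mul_right hkey (Nat.mul_pos ha hd)) i3
  have hai : a * i ≤ z * d := by
    by_contra hlt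
    have := Nat.mul_lt_mul_of_le_of_lt i2 (not_le.1 hlt)
      ((Nat.mul_pos hq ha).trans_le i2)
    nlinarith
  have hqa : s * d ≤ q * a := by
    by_contra hlt
    have := Nat.mul_lt_mul_of_lt_of_le (not_le.1 hlt) hzd ((Nat.mul_pos hz hd).trans_le hzd)
    nlinarith
  have hset := coe_sup_eq_mul_of_card Q A hqa
  have hQA : Cfsg.IsCentrallyLarge (Q ⊔ A) := by
    rw [centrallyLarge_iff]
    refine ⟨centralizerLarge_of_le ?_, ?_⟩
    · simp only [measure']; rw [centralizer_sup, hCA, ← hf]; exact hsi.le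
    · rw [centralizer_sup, hCA]; exact inf_le_right.trans le_sup_right
  have hea : a ≤ e := Nat.le_of_mul_le_mul_right (hai.trans i1) hi
  have hEmax : E ∈ Cfsg.maxAbelianSubgroups P := ⟨hE, fun B hB => (hA.2 B hB).trans hea⟩
  have hEC : Q ⊓ Subgroup.centralizer (D : Set P) = E :=
    hCE.symm.trans (centralizer_eq_self_of_maxAbelian hEmax)
  have hEset : (E : Set P) = (Z : Set P) * (D : Set P) :=
    coe_sup_eq_mul_of_card Z D (by rw [hZA]; exact (Nat.mul_le_mul_right i hEA).trans hai)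
  have hdec : ∀ x ∈ (Q ⊔ A) ⊓ Subgroup.centralizer (D : Set P), x ∈ (Z : Set P) * (A : Set P) := by
    rintro x ⟨hx, hxD⟩
    replace hx : x ∈ ((Q ⊔ A : Subgroup P) : Set P) := hx
    rw [hset] at hx
    obtain ⟨u, hu, v, hv, rfl⟩ := hx
    have huD : u ∈ Subgroup.centralizer (D : Set P) := by
      have hvD : v ∈ Subgroup.centralizer (D : Set P) :=
        (hAA.trans (Subgroup.centralizer_le fun _ h => h.2)) hv
      simpa using Subgroup.mul_mem _ hxD (Subgroup.inv_mem _ hvD)
    have : u ∈ (E : Set P) := hEC.le ⟨hu, huD⟩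
    rw [hEset] at this
    obtain ⟨z', hz', d', hd', rfl⟩ := this
    exact ⟨z', hz', d' * v, A.mul_mem hd'.2 hv, (mul_assoc _ _ _).symm⟩
  have hle : Z ⊔ A ≤ (Q ⊔ A) ⊓ Subgroup.centralizer (D : Set P) :=
    sup_le (le_inf (hQ2.trans le_sup_left) hZD)
      (le_inf le_sup_right (hAA.trans (Subgroup.centralizer_le fun _ h => h.2)))
  refine ⟨hset, hQA, le_antisymm (fun x hx => ?_) hle, ?_, ?_⟩
  · obtain ⟨u, hu, v, hv, rfl⟩ := hdec x hx
    exact Subgroup.mul_mem_sup hu hv
  · rw [show (Q : Set P) ⊓ (Z : Set P) = (Z : Set P) from Set.inter_eq_right.2 hQ2]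
    exact Set.Subset.antisymm (fun x hx => hdec x (hle hx))
      (Set.mul_subset_iff.2 fun u hu v hv => Subgroup.mul_mem_sup hu hv)
  · have hX : Cfsg.IsCentrallyLarge (Cfsg.centrallyLargeJoin P) :=
      centrallyLarge_sSup exists_centrallyLarge (fun R hR => hR)
    set X := Cfsg.centrallyLargeJoin P
    have hJX : Cfsg.thompsonSubgroupA P ≤ X := by
      refine sSup_le fun B hB => ?_
      obtain ⟨R, hR⟩ := exists_centrallyLarge (S := P)
      have hRB : Cfsg.IsCentrallyLarge (R ⊔ B) := by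
        exact centrallyLarge_sup_maxAbelian hR hB
      exact le_sup_right.trans (le_sSup (show R ⊔ B ∈ {R | Cfsg.IsCentrallyLarge R} from hRB))
    have hCJ : Subgroup.centralizer (Cfsg.thompsonSubgroupA P : Set P) ≤ Cfsg.thompsonSubgroupA P :=
      (Subgroup.centralizer_le (show A ≤ Cfsg.thompsonSubgroupA P from le_sSup hA)).trans
        (hCA.le.trans (le_sSup hA))
    rw [inf_eq_right.2 hCJ, (large_centralizer (centrallyLarge_iff.1 hX).1).2]
    exact Subgroup.centralizer_le (Subgroup.centralizer_le hJX)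

end Cfsg.Agent.S3006
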