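import Cfsg.Statements.S3007
import Mathlib
import Cfsg.Agent.Lib.LocalP2.ChermakDelgado
-- import your own Cfsg.Agent.* helpers here

set_option autoImplicit false
open Cfsg Cfsg.Agent.Lib.LocalP2
open scoped Pointwise commutatorElement

namespace Cfsg.Agent.S3007

/-- Let P be a finite p-group and Q, R minimal centrally large subgroups of P (centrally large: |Q|·|Z(Q)| maximal among subgroups of P; minimal among such under inclusion). Then Q = (Q ∩ R)·Z(Q), the derived subgroups [Q, Q] and [R, R] coincide, |Q| = |R| and |Z(Q)| = |Z(R)|; and if Q is abelian then the minimal centrally large subgroups of P are exactly the abelian subgroups of P of largest order. -/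
theorem result {p : ℕ} [Fact p.Prime] (P : Type*) [Group P] [Finite P] (hP : IsPGroup p P) (Q R : Subgroup P) (hQ : Cfsg.IsMinimalCentrallyLarge Q) (hR : Cfsg.IsMinimalCentrallyLarge R) : (Q ⊓ R) ⊔ (Q ⊓ Subgroup.centralizer (Q : Set P)) = Q ∧ ⁅Q, Q⁆ = ⁅R, R⁆ ∧ Nat.card ↥Q = Nat.card ↥R ∧ Nat.card ↥(Q ⊓ Subgroup.centralizer (Q : Set P)) = Nat.card ↥(R ⊓ Subgroup.centralizer (R : Set P)) ∧ (IsMulCommutative ↥Q → ∀ X : Subgroup P, Cfsg.IsMinimalCentrallyLarge X ↔ X ∈ Cfsg.maxAbelianSubgroups P) := by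
  obtain ⟨hQ1, hQ2⟩ := centrallyLarge_iff.1 hQ.1
  obtain ⟨hR1, hR2⟩ := centrallyLarge_iff.1 hR.1
  have side : ∀ Q R : Subgroup P, Cfsg.IsMinimalCentrallyLarge Q → Cfsg.IsMinimalCentrallyLarge R →
      (Q ⊓ R) ⊔ Subgroup.centralizer (Q : Set P) = Q ∧
      ((Q : Set P) = ((Q ⊓ R : Subgroup P) : Set P) * (Subgroup.centralizer (Q : Set P) : Set P)) ∧
      ⁅Q, Q⁆ = ⁅Q ⊓ R, Q ⊓ R⁆ ∧
      Nat.card ↥Q * Nat.card ↥((Q ⊓ R) ⊓ Subgroup.centralizer ((Q ⊓ R : Subgroup P) : Set P)) =
        Nat.card ↥(Q ⊓ R) * Nat.card ↥(Subgroup.centralizer (Q : Set P)) := by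
    intro Q R hQ hR
    obtain ⟨hQ1, hQ2⟩ := centrallyLarge_iff.1 hQ.1
    obtain ⟨hR1, hR2⟩ := centrallyLarge_iff.1 hR.1
    obtain ⟨hZlarge, hQQ⟩ := large_centralizer hQ1
    obtain ⟨-, -, hD, hprod, hCD⟩ := large_pair hQ1 hR1
    set D := Q ⊓ R with hDdef
    set Z := Subgroup.centralizer (Q : Set P) with hZdef
    obtain ⟨hset, hY, -⟩ := large_pair hD hZlarge
    have hYQ : D ⊔ Z ≤ Q := sup_le inf_le_left hQ2
    have hYCL : Cfsg.IsCentrallyLarge (D ⊔ Z) := by
      rw [centrallyLarge_iff]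
      refine ⟨hY, ?_⟩
      rw [centralizer_sup, ← hQQ, hCD]
      rintro x ⟨hx, hxQ⟩
      replace hx : x ∈ ((Z ⊔ Subgroup.centralizer (R : Set P) : Subgroup P) : Set P) := hx
      rw [hprod] at hx
      obtain ⟨u, hu, w, hw, rfl⟩ := hx
      exact Subgroup.mul_mem _ (Subgroup.mem_sup_right hu) (Subgroup.mem_sup_left
        ⟨by simpa using Q.mul_mem (Q.inv_mem (hQ2 hu)) hxQ, hR2 hw⟩)
    have heq : D ⊔ Z = Q := hQ.2 _ hYQ hYCL
    have hsetQ : (Q : Set P) = (D : Set P) * (Z : Set P) := by rw [← hset, heq]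
    refine ⟨heq, hsetQ, le_antisymm ?_ (Subgroup.commutator_mono inf_le_left inf_le_left), ?_⟩
    · refine Subgroup.commutator_le.2 fun x hx y hy => ?_
      rw [← SetLike.mem_coe, hsetQ] at hx hy
      obtain ⟨d, hd, z, hz, rfl⟩ := hx
      obtain ⟨d', hd', z', hz', rfl⟩ := hy
      have e : ∀ z ∈ Z, ∀ q ∈ Q, q * z = z * q := fun z hz => Subgroup.mem_centralizer_iff.1 hz
      have h1 : ⁅d * z, d' * z'⁆ = ⁅d, d'⁆ := by
        simp only [commutatorElement_def, mul_inv_rev]
        calc d * z * (d' * z') * (z⁻¹ * d⁻¹) * (z'⁻¹ * d'⁻¹)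
            = d * (z * (d' * z')) * z⁻¹ * d⁻¹ * (z'⁻¹ * d'⁻¹) := by group
          _ = d * ((d' * z') * z) * z⁻¹ * d⁻¹ * (z'⁻¹ * d'⁻¹) := by
              rw [e z hz _ (Q.mul_mem hd'.1 (hQ2 hz'))]
          _ = d * d' * (z' * d⁻¹) * (z'⁻¹ * d'⁻¹) := by group
          _ = d * d' * (d⁻¹ * z') * (z'⁻¹ * d'⁻¹) := by rw [e z' hz' _ (Q.inv_mem hd.1)]
          _ = d * d' * d⁻¹ * d'⁻¹ := by group
      change ⁅d * z, d' * z'⁆ ∈ _
      rw [h1]; exact Subgroup.commutator_mem_commutator hd hd'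
    · have hinf : D ⊓ Subgroup.centralizer (D : Set P) = D ⊓ Z := by
        refine le_antisymm (le_inf inf_le_left ?_) (inf_le_inf_left _ (Subgroup.centralizer_le inf_le_left))
        intro x hx
        rw [hZdef, ← heq, centralizer_sup]
        exact ⟨hx.2, (Subgroup.le_centralizer_iff.1 le_rfl) hx.1.1⟩
      have i1 := card_mul_card_le D Z
      rw [hinf]
      refine le_antisymm ?_ (heq ▸ i1)
      have : Nat.card ↥Q ≤ Nat.card ↥(D ⊔ Z) := by rw [heq]
      rw [show Nat.card ↥Q = Nat.card ↥D * D.relIndex Q from by rw [← heq]; exact card_sup_eq D Z]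
      rw [card_eq_card_inf_mul_relIndex D Z]
      have hrel : D.relIndex Q ≤ D.relIndex Z := by
        -- every coset of `D` in `Q = Z D` has a representative in `Z`
        refine Nat.card_le_card_of_surjective
          (Subgroup.quotientSubgroupOfEmbeddingOfLE D hQ2) ?_
        intro q
        obtain ⟨⟨x, hx⟩, rfl⟩ := QuotientGroup.mk_surjective q
        have hx' : x⁻¹ ∈ (Q : Set P) := Q.inv_mem hx
        rw [hsetQ] at hx'
        obtain ⟨u, hu, v, hv, huv⟩ := hx'
        refine ⟨QuotientGroup.mk ⟨v⁻¹, Z.inv_mem hv⟩, ?_⟩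
        change QuotientGroup.mk _ = _
        rw [QuotientGroup.eq, Subgroup.mem_subgroupOf]
        have : x = v⁻¹ * u⁻¹ := by rw [← mul_inv_rev]; exact (inv_eq_iff_eq_inv.1 huv.symm)
        simp [this, D.inv_mem hu]
      calc _ ≤ Nat.card ↥D * D.relIndex Z * Nat.card ↥(D ⊓ Z) := by gcongr
        _ = _ := by ring
  obtain ⟨a1, -, a3, a4⟩ := side Q R hQ hR
  obtain ⟨-, -, b3, b4⟩ := side R Q hR hQ
  rw [inf_comm R Q] at b3 b4
  have hf : Nat.card ↥Q * Nat.card ↥(Subgroup.centralizer (Q : Set P)) =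
      Nat.card ↥R * Nat.card ↥(Subgroup.centralizer (R : Set P)) := Eq.trans hQ1 hR1.symm
  rw [inf_eq_right.2 hQ2, inf_eq_right.2 hR2]
  have hcard : Nat.card ↥(Subgroup.centralizer (Q : Set P)) = Nat.card ↥(Subgroup.centralizer (R : Set P)) := by
    set k := Nat.card ↥((Q ⊓ R) ⊓ Subgroup.centralizer ((Q ⊓ R : Subgroup P) : Set P))
    set D := Nat.card ↥(Q ⊓ R)
    have h1 : (Nat.card ↥(Subgroup.centralizer (Q : Set P))) ^ 2 * D =
        (Nat.card ↥(Subgroup.centralizer (R : Set P))) ^ 2 * D := by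
      calc _ = (D * Nat.card ↥(Subgroup.centralizer (Q : Set P))) * Nat.card ↥(Subgroup.centralizer (Q : Set P)) := by ring
        _ = Nat.card ↥Q * Nat.card ↥(Subgroup.centralizer (Q : Set P)) * k := by rw [← a4]; ring
        _ = Nat.card ↥R * Nat.card ↥(Subgroup.centralizer (R : Set P)) * k := by rw [hf]
        _ = (D * Nat.card ↥(Subgroup.centralizer (R : Set P))) * Nat.card ↥(Subgroup.centralizer (R : Set P)) := by rw [← b4]; ring
        _ = _ := by ring
    exact Nat.pow_left_injective (by norm_num) (Nat.eq_of_mul_eq_mul_right Nat.card_pos h1)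
  refine ⟨a1, a3.trans b3.symm, ?_, hcard, fun hab X => ?_⟩
  · rw [hcard] at hf
    exact Nat.eq_of_mul_eq_mul_right Nat.card_pos hf
  · have hab' : ∀ X : Subgroup P, Cfsg.IsMinimalCentrallyLarge X → IsMulCommutative X := by
      intro X hX
      have h1 := (side Q X hQ hX).2.2.1
      have h2 := (side X Q hX hQ).2.2.1
      rw [inf_comm X Q, ← h1] at h2
      rw [← Subgroup.le_centralizer_iff_isMulCommutative, ← Subgroup.commutator_eq_bot_iff_le_centralizer,
        h2, Subgroup.commutator_eq_bot_iff_le_centralizer, Subgroup.le_centralizer_iff_isMulCommutative]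
      exact hab
    have hsq : ∀ X : Subgroup P, Cfsg.IsCentrallyLarge X → IsMulCommutative X →
        Nat.card ↥X * Nat.card ↥X = Cfsg.maxCentralizerProduct P := by
      intro X hX hXc
      obtain ⟨h1, h2⟩ := centrallyLarge_iff.1 hX
      have := le_antisymm h2 (Subgroup.le_centralizer_iff_isMulCommutative.2 hXc)
      exact (congrArg (fun T : Subgroup P => Nat.card ↥X * Nat.card ↥T) this.symm).trans h1
    constructor
    · intro hX
      refine ⟨hab' X hX, fun B hB => ?_⟩
      have h1 := measure'_le_max B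
      simp only [measure'] at h1
      have h2 : Nat.card ↥B ≤ Nat.card ↥(Subgroup.centralizer (B : Set P)) :=
        Nat.card_le_card_of_injective _ (Subgroup.inclusion_injective
          (Subgroup.le_centralizer_iff_isMulCommutative.2 hB))
      have h3 := hsq X hX.1 (hab' X hX)
      exact Nat.mul_self_le_mul_self_iff.1 ((Nat.mul_le_mul_left _ h2).trans (h3 ▸ h1))
    · intro hX
      have hCX := centralizer_eq_self_of_maxAbelian hX
      have h1 := measure'_le_max X
      simp only [measure', hCX] at h1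
      have h3 := hsq Q hQ.1 hab
      have h4 := hX.2 Q hab
      have h5 : Nat.card ↥X * Nat.card ↥X = Cfsg.maxCentralizerProduct P :=
        le_antisymm h1 (h3 ▸ Nat.mul_le_mul h4 h4)
      have hCL : Cfsg.IsCentrallyLarge X := by
        rw [centrallyLarge_iff]
        exact ⟨centralizerLarge_of_le (by simp only [measure', hCX, h5, le_refl]), hCX.le⟩
      refine ⟨hCL, fun X' hle hX' => eq_of_card hle ?_⟩
      have hX'c : IsMulCommutative X' := Subgroup.le_centralizer_iff_isMulCommutative.1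
        (hle.trans (hCX.ge.trans (Subgroup.centralizer_le hle)))
      exact Nat.mul_self_le_mul_self_iff.1 (by rw [h5, hsq X' hX' hX'c])

end Cfsg.Agent.S3007
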