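import Cfsg.Statements.S0168
import Cfsg.Agent.Lib.Char.Kernel
import Cfsg.Agent.Lib.Char.Degree

set_option autoImplicit false
open scoped ComplexConjugate
open Cfsg

namespace Cfsg.Agent.S0168

/-- The Burnside–Brauer Theorem. Let χ be the character of a faithful complex representation of a finite group, taking m distinct values. Then every irreducible character has nonzero inner product with χ ^ i for some i < m. -/
theorem result {G : Type*} [Group G] [Fintype G] {V : Type*} [AddCommGroup V] [Module ℂ V] [FiniteDimensional ℂ V] (ρ : Representation ℂ G V) (hfaithful : Function.Injective ρ) (ψ : G → ℂ) (hψ : Cfsg.IsIrrCharacter G ψ) : ∃ i : ℕ, i < Nat.card (Set.range ρ.character) ∧ Cfsg.classInner (fun g => ρ.character g ^ i) ψ ≠ 0 := by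
  classical
  by_contra hc
  push Not at hc
  set χ := ρ.character with hχ
  have hχc : Cfsg.IsCharacter G χ := Lib.Char.isCharacter_character ρ
  let V := Finset.univ.image χ
  have hV : Nat.card (Set.range χ) = V.card := by
    rw [Nat.card_eq_fintype_card, ← Set.toFinset_card, Set.toFinset_range]
  let P : Polynomial ℂ := ∏ c ∈ V.erase (χ 1), (Polynomial.X - Polynomial.C c)
  have hdeg : P.natDegree < V.card := by
    rw [Polynomial.natDegree_prod _ _ (fun c _ => Polynomial.X_sub_C_ne_zero c)]
    simp only [Polynomial.natDegree_X_sub_C, Finset.sum_const, smul_eq_mul, mul_one]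
    exact Finset.card_erase_lt_of_mem (Finset.mem_image_of_mem χ (Finset.mem_univ 1))
  have hzero : ∑ g : G, P.eval (χ g) * conj (ψ g) = 0 := by
    simp only [Polynomial.eval_eq_sum_range, Finset.sum_mul]
    rw [Finset.sum_comm]
    refine Finset.sum_eq_zero fun i hi => ?_
    have h := hc i (hV ▸ lt_of_le_of_lt (Nat.le_of_lt_succ (Finset.mem_range.mp hi)) hdeg)
    rw [Cfsg.classInner, mul_eq_zero, inv_eq_zero] at h
    simp only [mul_assoc, ← Finset.mul_sum]
    rw [h.resolve_left (Lib.Char.card_ne_zero_complex G), mul_zero]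
  rw [Finset.sum_eq_single 1] at hzero
  · rcases mul_eq_zero.mp hzero with h | h
    · simp only [P, Polynomial.eval_prod, Finset.prod_eq_zero_iff] at h
      obtain ⟨c, hc', h⟩ := h
      rw [Polynomial.eval_sub, Polynomial.eval_X, Polynomial.eval_C, sub_eq_zero] at h
      exact (Finset.mem_erase.mp hc').1 h.symm
    · exact Lib.Char.irr_degree_ne_zero hψ ((map_eq_zero _).mp h)
  · intro g _ hg
    have hne : χ g ≠ χ 1 := fun e => hg (hfaithful ((((Lib.Char.character_eq_degree_iff ρ g).mp
      (by rw [← hχ, e, hχ, Representation.char_one])).trans (map_one ρ).symm)))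
    rw [show P.eval (χ g) = 0 from ?_, zero_mul]
    simp only [P, Polynomial.eval_prod]
    exact Finset.prod_eq_zero (Finset.mem_erase.mpr ⟨hne, Finset.mem_image_of_mem χ (Finset.mem_univ g)⟩)
      (by simp)
  · simp

end Cfsg.Agent.S0168
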