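import Cfsg.Statements.S4550
import Cfsg.Agent.Lib.Char.SectionInner
import Cfsg.Agent.Lib.Block.Klein
import Cfsg.Agent.Lib.CharTools.ClassMult
import Cfsg.Agent.Lib.CharGalois
import Cfsg.Agent.Lib.Block.Principal
import Mathlib

set_option autoImplicit false
open Cfsg

namespace Cfsg.Agent.S4550

/-- Let G be a finite group of even order and M a maximal ideal of the algebraic integers containing 2. Let k be a natural number with g ^ k = g ^ 3 for every 2-element g and g ^ k = g for every element g of odd order (such k exist); an irreducible character χ is unchanged by g ↦ g ^ k exactly when it is fixed by the field automorphism that cubes the 2-power roots of unity and fixes the roots of unity of odd order. Then the number of members χ of the principal 2-block of odd degree with χ (g ^ k) = χ g for all g is even. -/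
theorem result {G : Type*} [Group G] [Finite G] (M : Ideal Cfsg.AlgInt) (hM : Cfsg.IsPModular 2 M) (hev : Even (Nat.card G)) (k : ℕ) (hk₁ : ∀ g : G, (∃ j : ℕ, orderOf g = 2 ^ j) → g ^ k = g ^ 3) (hk₂ : ∀ g : G, Odd (orderOf g) → g ^ k = g) : Even (Nat.card {χ : Cfsg.IrrCharacter G // χ ∈ Cfsg.principalBlock M G ∧ Odd (Cfsg.charDegree (χ : G → ℂ)) ∧ ∀ g : G, (χ : G → ℂ) (g ^ k) = (χ : G → ℂ) g}) := by
  classical
  haveI := Fintype.ofFinite G
  haveI := hM.2.1
  haveI : Fact (Nat.Prime 2) := ⟨Nat.prime_two⟩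
  have hcop : Nat.Coprime k (Nat.card G) := by
    refine Nat.coprime_of_dvd fun r hr hrk hrG => ?_
    haveI : Fact r.Prime := ⟨hr⟩
    obtain ⟨y, hy⟩ := exists_prime_orderOf_dvd_card' r hrG
    have hyk : y ^ k = 1 := orderOf_dvd_iff_pow_eq_one.1 (hy ▸ hrk)
    have hy1 : y ≠ 1 := fun h => hr.ne_one (by rw [← hy, h, orderOf_one])
    by_cases h2 : r = 2
    · rw [hk₁ y ⟨1, by rw [hy, h2, pow_one]⟩] at hyk
      have : orderOf y ∣ 3 := orderOf_dvd_of_pow_eq_one hyk
      rw [hy, h2] at this
      norm_num at this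
    · rw [hk₂ y (hy ▸ hr.odd_of_ne_two h2)] at hyk
      exact hy1 hyk
  set n := (Nat.card G).factorization 2 with hn
  have hper : ∀ g : G, g ^ (k ^ (2 ^ n)) = g := by
    intro g
    conv_rhs => rw [← pow_one g]
    refine pow_eq_pow_iff_modEq.2 ?_
    set o := orderOf g with ho
    have ho0 : o ≠ 0 := (orderOf_pos g).ne'
    rw [← Nat.ordProj_mul_ordCompl_eq_self o 2]
    refine (Nat.modEq_and_modEq_iff_modEq_mul
      ((Nat.coprime_ordCompl Nat.prime_two ho0).pow_left _)).1 ⟨?_, ?_⟩
    · have hle : 2 ^ o.factorization 2 ∣ 2 ^ n := pow_dvd_pow 2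
        ((Nat.factorization_le_iff_dvd ho0 Nat.card_pos.ne').2 (orderOf_dvd_natCard g) 2)
      have hk2 : Nat.Coprime k (2 ^ n) := hcop.coprime_dvd_right (Nat.ordProj_dvd _ _)
      obtain ⟨c, hc⟩ : Nat.totient (2 ^ n) ∣ 2 ^ n := by
        rcases Nat.eq_zero_or_pos n with h | h
        · rw [h]; simp
        · rw [Nat.totient_prime_pow Nat.prime_two h]
          exact ⟨2, by rw [show 2 - 1 = 1 from rfl, mul_one, ← pow_succ, Nat.sub_add_cancel h]⟩
      have he : k ^ (2 ^ n) ≡ 1 [MOD 2 ^ n] := by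
        have h := (Nat.ModEq.pow_totient hk2).pow c
        rwa [← pow_mul, ← hc, one_pow] at h
      exact he.of_dvd hle
    · have hm : orderOf (g ^ 2 ^ o.factorization 2) = o / 2 ^ o.factorization 2 := by
        rw [orderOf_pow, Nat.gcd_eq_right (Nat.ordProj_dvd _ _)]
      have hodd : Odd (orderOf (g ^ 2 ^ o.factorization 2)) := by
        rw [hm, ← Nat.not_even_iff_odd, even_iff_two_dvd]
        exact Nat.not_dvd_ordCompl Nat.prime_two ho0
      have h1 := hk₂ _ hodd
      conv_rhs at h1 => rw [← pow_one (g ^ 2 ^ o.factorization 2)]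
      rw [pow_eq_pow_iff_modEq, hm] at h1
      simpa using h1.pow (2 ^ n)
  set S := Finset.univ.filter (fun χ : Cfsg.IrrCharacter G =>
    χ ∈ Cfsg.principalBlock M G ∧ Odd (Cfsg.charDegree (χ : G → ℂ))) with hS
  -- the number of odd degree characters is even
  have hev' : Even S.card := by
    obtain ⟨t, ht⟩ := exists_prime_orderOf_dvd_card' (G := G) 2 hev.two_dvd
    have ht2 : t * t = 1 := by rw [← pow_two, ← ht, pow_orderOf_eq_one]
    have ht1 : t ≠ 1 := fun h => by rw [h, orderOf_one] at ht; norm_num at ht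
    set B := Finset.univ.filter (fun χ : Cfsg.IrrCharacter G => χ ∈ Cfsg.principalBlock M G) with hB
    have h0 := Lib.Char.sum_block_pElem_eq_zero hM (x := t) (y := 1) ⟨1, by rw [ht, pow_one]⟩
      Lib.Block.isPElem_one (fun h => ht1 ((isConj_one_left).1 h))
      (Lib.Block.isPBlock_principalBlock (M := M)) B (fun χ => by simp [hB])
    choose T hT using fun χ : Cfsg.IrrCharacter G =>
      Lib.Block.exists_int_of_sq_eq_one (Lib.Char.isCharacter_of_isIrr χ.2) ht2
    have hpar : ∀ χ : Cfsg.IrrCharacter G, (2 : ℤ) ∣ T χ + (Cfsg.charDegree (χ : G → ℂ) : ℤ) := by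
      intro χ
      obtain ⟨m, hm⟩ := Lib.CharTools.exists_nat_sum_subgroup
        (Lib.Char.isCharacter_of_isIrr χ.2) (Subgroup.zpowers t)
      have e : Finset.univ.filter (· ∈ Subgroup.zpowers t) = {1, t} := by
        refine (Finset.eq_of_subset_of_card_le ?_ ?_).symm
        · intro y hy
          simp only [Finset.mem_insert, Finset.mem_singleton] at hy
          rcases hy with rfl | rfl <;> simp [Subgroup.one_mem, Subgroup.mem_zpowers]
        · rw [← Fintype.card_subtype, ← Nat.card_eq_fintype_card, Nat.card_zpowers, ht,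
            Finset.card_pair (Ne.symm ht1)]
      rw [e, Finset.sum_pair (Ne.symm ht1), Nat.card_zpowers, ht, hT,
        Lib.Block.irr_one_eq_natCast] at hm
      refine ⟨m, ?_⟩
      have h : ((Cfsg.charDegree (χ : G → ℂ) : ℤ) : ℂ) + (T χ : ℂ) = ((2 * m : ℤ) : ℂ) := by
        push_cast; rw [hm]; norm_num
      rw [add_comm]
      exact_mod_cast h
    have hz : ∑ χ ∈ B, T χ * (Cfsg.charDegree (χ : G → ℂ) : ℤ) = 0 := by
      apply Int.cast_injective (α := ℂ)
      push_cast
      rw [← h0]
      exact Finset.sum_congr rfl fun χ _ => by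
        rw [hT, Lib.Block.irr_one_eq_natCast, map_natCast]
    have hmod : ∀ χ ∈ B, ((T χ * (Cfsg.charDegree (χ : G → ℂ) : ℤ) : ℤ) : ZMod 2) =
        if Odd (Cfsg.charDegree (χ : G → ℂ)) then 1 else 0 := by
      intro χ _
      have h1 : ((T χ + (Cfsg.charDegree (χ : G → ℂ) : ℤ) : ℤ) : ZMod 2) = 0 :=
        (ZMod.intCast_zmod_eq_zero_iff_dvd _ 2).2 (hpar χ)
      push_cast at h1 ⊢
      rw [eq_neg_of_add_eq_zero_left h1]
      split_ifs with ho
      · rw [ZMod.natCast_eq_one_iff_odd.2 ho, CharTwo.neg_eq, one_mul]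
      · rw [ZMod.natCast_eq_zero_iff_even.2 (Nat.not_odd_iff_even.1 ho)]; simp
    have h2 := congrArg (fun z : ℤ => (z : ZMod 2)) hz
    simp only [Int.cast_sum, Int.cast_zero, Finset.sum_congr rfl hmod, Finset.sum_boole] at h2
    rw [ZMod.natCast_eq_zero_iff_even] at h2
    rwa [hB, Finset.filter_filter] at h2
  have hclosed : ∀ χ : Cfsg.IrrCharacter G, χ ∈ S →
      (⟨fun g => (χ : G → ℂ) (g ^ k), Lib.CharGalois.isIrrCharacter_pow hcop χ.2⟩ :
        Cfsg.IrrCharacter G) ∈ S := by
    intro χ hχ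
    obtain ⟨hb, hd⟩ := (Finset.mem_filter.1 hχ).2
    refine Finset.mem_filter.2 ⟨Finset.mem_univ _, fun g => ?_, ?_⟩
    · have hcen : Subgroup.centralizer ({g ^ k} : Set G) = Subgroup.centralizer ({g} : Set G) := by
        ext y
        rw [Subgroup.mem_centralizer_singleton_iff, Subgroup.mem_centralizer_singleton_iff]
        refine ⟨fun h => ?_, fun h => ((show Commute y g from h).pow_right k).eq⟩
        obtain ⟨m, hm⟩ := exists_pow_eq_self_of_coprime
          (hcop.coprime_dvd_right (orderOf_dvd_natCard g))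
        rw [← hm]
        exact ((show Commute y (g ^ k) from h).pow_right m).eq
      have h := hb (g ^ k)
      simp only [Cfsg.centralChar, hcen, one_pow] at h ⊢
      exact h
    · have : Cfsg.charDegree (fun g => (χ : G → ℂ) (g ^ k)) = Cfsg.charDegree (χ : G → ℂ) := by
        simp [Cfsg.charDegree]
      rw [this]; exact hd
  set f : Function.End S := fun χ => ⟨_, hclosed χ.1 χ.2⟩ with hf
  have hit : ∀ (m : ℕ) (χ : S) (g : G),
      (((f ^ m) χ).1 : G → ℂ) g = (χ.1 : G → ℂ) (g ^ (k ^ m)) := by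
    intro m
    induction m with
    | zero => intro χ g; rw [pow_zero, pow_zero, pow_one]; rfl
    | succ m ih =>
      intro χ g
      rw [pow_succ']
      show (((f ^ m) χ).1 : G → ℂ) (g ^ k) = _
      rw [ih, ← pow_mul, pow_succ, mul_comm]
  have hf1 : f ^ 2 ^ n = 1 := by
    funext χ
    refine Subtype.ext (Subtype.ext (funext fun g => ?_))
    rw [hit, hper]
    rfl
  have hmod := Equiv.Perm.card_fixedPoints_modEq hf1
  rw [Fintype.card_coe, ← Nat.card_eq_fintype_card] at hmod
  have hc : Nat.card f.fixedPoints = Nat.card {χ : Cfsg.IrrCharacter G //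
      χ ∈ Cfsg.principalBlock M G ∧ Odd (Cfsg.charDegree (χ : G → ℂ)) ∧
        ∀ g : G, (χ : G → ℂ) (g ^ k) = (χ : G → ℂ) g} := by
    refine Nat.card_congr ⟨fun x => ⟨x.1.1, (Finset.mem_filter.1 x.1.2).2.1,
      (Finset.mem_filter.1 x.1.2).2.2, fun g =>
        congrFun (congrArg Subtype.val (congrArg Subtype.val x.2)) g⟩,
      fun x => ⟨⟨x.1, Finset.mem_filter.2 ⟨Finset.mem_univ _, x.2.1, x.2.2.1⟩⟩,
        Subtype.ext (Subtype.ext (funext x.2.2.2))⟩, fun x => rfl, fun x => rfl⟩
  rw [hc] at hmod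
  rw [Nat.even_iff] at hev' ⊢
  exact Eq.trans hmod.symm hev'

end Cfsg.Agent.S4550
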