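import Cfsg.Statements.S4127
import Cfsg.Agent.Lib.Struct4.Basic
import Cfsg.Agent.Lib.Components.AxB

set_option autoImplicit false
open Cfsg

namespace Cfsg.Agent.S4127

open scoped Pointwise

section

variable {G : Type*} [Group G] [Finite G] {p : ℕ} [Fact p.Prime]

theorem mem_of_pow_mem {H : Subgroup G} {g : G} {m n : ℕ} (h : Nat.Coprime m n) (hm : g ^ m ∈ H) (hn : g ^ n ∈ H) :
    g ∈ H := by
  have hb := Nat.gcd_eq_gcd_ab m n
  rw [h.gcd_eq_one] at hb
  rw [← zpow_one g, show (1 : ℤ) = (m : ℤ) * m.gcdA n + (n : ℤ) * m.gcdB n by simpa using hb, zpow_add, zpow_mul, zpow_mul,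
    zpow_natCast, zpow_natCast]
  exact mul_mem (zpow_mem hm _) (zpow_mem hn _)

theorem centralizer_mul_eq {x y : G} {k : ℕ} (hxy : Commute x y) (hx : x ^ p ^ k = 1) (hy : (orderOf y).Coprime p) :
    Subgroup.centralizer ({x * y} : Set G) = Subgroup.centralizer ({x} : Set G) ⊓ Subgroup.centralizer ({y} : Set G) := by
  refine le_antisymm (fun g hg => ?_) fun g hg => ?_
  · rw [Subgroup.mem_centralizer_singleton_iff] at hg
    have hc : Commute g (x * y) := hg
    have hy1 : (x * y) ^ p ^ k = y ^ p ^ k := by rw [hxy.mul_pow, hx, one_mul]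
    obtain ⟨m, hm⟩ := exists_pow_eq_self_of_coprime (x := y) (hy.symm.pow_left k)
    have hgy : Commute g y := by
      have h1 : Commute g ((y ^ p ^ k) ^ m) := by rw [← hy1]; exact (hc.pow_right _).pow_right _
      rwa [hm] at h1
    have hgx : Commute g x := by
      have h2 := hc.mul_right hgy.inv_right
      rwa [mul_inv_cancel_right] at h2
    exact ⟨Subgroup.mem_centralizer_singleton_iff.2 hgx.eq, Subgroup.mem_centralizer_singleton_iff.2 hgy.eq⟩
  · rw [Subgroup.mem_centralizer_singleton_iff]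
    exact (Commute.mul_right (Subgroup.mem_centralizer_singleton_iff.1 hg.1)
      (Subgroup.mem_centralizer_singleton_iff.1 hg.2)).eq

/-- If every element of order prime to `p` has centralizer of index prime to `p`, the group is a Sylow
subgroup times its centralizer. -/
theorem sup_centralizer_eq_top (hC : ∀ y : G, (orderOf y).Coprime p → ¬ p ∣ (Subgroup.centralizer ({y} : Set G)).index)
    (P₀ : Sylow p G) : (P₀ : Subgroup G) ⊔ Subgroup.centralizer ((P₀ : Subgroup G) : Set G) = ⊤ := by
  set H := (P₀ : Subgroup G) ⊔ Subgroup.centralizer ((P₀ : Subgroup G) : Set G)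
  by_contra hne
  obtain ⟨g, hg⟩ := Lib.Struct4.exists_not_mem_conj H hne
  obtain ⟨k, n, hn, hkn⟩ := Nat.exists_eq_pow_mul_and_not_dvd (orderOf_pos g).ne' p (Fact.out : p.Prime).ne_one
  set s := g ^ n
  set y := g ^ p ^ k
  have hnp : n.Coprime p := (((Fact.out : p.Prime).coprime_iff_not_dvd).2 hn).symm
  have hy : (orderOf y).Coprime p := Nat.Coprime.coprime_dvd_left
    (orderOf_dvd_of_pow_eq_one (by rw [← pow_mul, ← hkn, pow_orderOf_eq_one])) hnp
  have hs : IsPGroup p (Subgroup.zpowers s) := by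
    obtain ⟨i, -, hi⟩ := (Nat.dvd_prime_pow (Fact.out : p.Prime)).1
      (orderOf_dvd_of_pow_eq_one (show s ^ p ^ k = 1 by rw [← pow_mul, mul_comm, ← hkn, pow_orderOf_eq_one]))
    exact IsPGroup.of_card (n := i) (by rw [Nat.card_zpowers]; exact hi)
  set D := Subgroup.centralizer ({y} : Set G)
  have hsD : Subgroup.zpowers s ≤ D := Subgroup.zpowers_le.2
    (Subgroup.mem_centralizer_singleton_iff.2 (Commute.pow_pow_self g n (p ^ k)).eq)
  obtain ⟨R, hR⟩ := (hs.of_injective (Subgroup.subgroupOfEquivOfLe hsD).toMonoidHom (MulEquiv.injective _)).exists_le_sylow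
  have hRi : ¬ p ∣ ((R : Subgroup D).map D.subtype).index := by
    rw [Subgroup.index_map_subtype]
    exact (Fact.out : p.Prime).not_dvd_mul R.not_dvd_index (hC y hy)
  obtain ⟨c, hc⟩ := MulAction.exists_smul_eq G P₀ ((R.2.map D.subtype).toSylow hRi)
  have hval : ((R : Subgroup D).map D.subtype) = ((c • P₀ : Sylow p G) : Subgroup G) := by rw [hc]; rfl
  have hcp : ∀ m : ℕ, (c⁻¹ * g * c) ^ m = c⁻¹ * g ^ m * c := fun m => by
    simpa using (conj_pow (a := c⁻¹) (b := g) (i := m))
  refine hg c (mem_of_pow_mem (m := n) (n := p ^ k) (hnp.pow_right k) ?_ ?_)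
  · have hsR : s ∈ (R : Subgroup D).map D.subtype :=
      ⟨⟨s, hsD (Subgroup.mem_zpowers s)⟩, hR (Subgroup.mem_zpowers s), rfl⟩
    rw [hval] at hsR
    obtain ⟨z, hz, hzs⟩ := hsR
    rw [hcp]
    refine Subgroup.mem_sup_left ?_
    show c⁻¹ * s * c ∈ _
    rw [← hzs]
    show c⁻¹ * (c * z * c⁻¹) * c ∈ _
    rw [show c⁻¹ * (c * z * c⁻¹) * c = z by group]
    exact hz
  · rw [hcp]
    refine Subgroup.mem_sup_right (Subgroup.mem_centralizer_iff.2 fun z hz => ?_)
    have hmem : c * z * c⁻¹ ∈ (R : Subgroup D).map D.subtype := by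
      rw [hval]; exact ⟨z, hz, rfl⟩
    obtain ⟨w, -, hw⟩ := hmem
    have h1 : (w : G) * y = y * w := Subgroup.mem_centralizer_singleton_iff.1 w.2
    rw [show (w : G) = c * z * c⁻¹ from hw] at h1
    calc z * (c⁻¹ * y * c) = c⁻¹ * (c * z * c⁻¹ * y) * c := by group
      _ = c⁻¹ * y * c * z := by rw [h1]; group

/-- The main argument. -/
theorem normal_complement {a : ℕ} (hmax : ∀ y : G, ¬ p ^ (a + 1) ∣ (Subgroup.centralizer ({y} : Set G)).index)
    {x : G} {k : ℕ} (hxk : orderOf x = p ^ k) (hx : (Subgroup.centralizer ({x} : Set G)).index = p ^ a) :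
    Cfsg.HasNormalPComplement p G := by
  have hpr : p.Prime := Fact.out
  set C := Subgroup.centralizer ({x} : Set G) with hCdef
  have hCi : ∀ y : C, (orderOf y).Coprime p → ¬ p ∣ (Subgroup.centralizer ({y} : Set C)).index := by
    intro y hy hd
    have hcomm : Commute x (y : G) := (Subgroup.mem_centralizer_singleton_iff.1 y.2).symm
    have hEq : Subgroup.centralizer ({x * (y : G)} : Set G) = (Subgroup.centralizer ({y} : Set C)).map C.subtype := by
      rw [centralizer_mul_eq hcomm (by rw [← hxk, pow_orderOf_eq_one]) (by rwa [Subgroup.orderOf_coe])]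
      ext g
      constructor
      · intro hg
        refine ⟨⟨g, hg.1⟩, ?_, rfl⟩
        rw [SetLike.mem_coe, Subgroup.mem_centralizer_singleton_iff]
        exact Subtype.ext (Subgroup.mem_centralizer_singleton_iff.1 hg.2)
      · rintro ⟨w, hw, rfl⟩
        exact ⟨w.2, Subgroup.mem_centralizer_singleton_iff.2
          (congrArg Subtype.val (Subgroup.mem_centralizer_singleton_iff.1 hw))⟩
    refine hmax (x * (y : G)) ?_
    rw [hEq, Subgroup.index_map_subtype, hx, mul_comm (_ : ℕ) (p ^ a), pow_succ]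
    exact mul_dvd_mul_left _ hd
  obtain ⟨P₀⟩ : Nonempty (Sylow p C) := inferInstance
  have htop := sup_centralizer_eq_top hCi P₀
  have hP₀n : (P₀ : Subgroup C).Normal := by
    rw [← Subgroup.normalizer_eq_top_iff, eq_top_iff, ← htop]
    exact sup_le Subgroup.le_normalizer (fun g hg => Subgroup.mem_normalizer_iff.2 fun z => by
      have hcm : ∀ w ∈ (P₀ : Subgroup C), g * w * g⁻¹ = w := fun w hw => by
        rw [← Subgroup.mem_centralizer_iff.1 hg w hw, mul_inv_cancel_right]
      refine ⟨fun hz => by rw [hcm z hz]; exact hz, fun hz => ?_⟩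
      have h1 : z = g * z * g⁻¹ := by
        have h2 := hcm _ hz
        calc z = g⁻¹ * (g * z * g⁻¹) * g := by group
          _ = g⁻¹ * (g * (g * z * g⁻¹) * g⁻¹) * g := by rw [h2]
          _ = g * z * g⁻¹ := by group
      exact h1 ▸ hz)
  have hle0 : ∀ R : Subgroup C, IsPGroup p R → R ≤ (P₀ : Subgroup C) := fun R hR => by
    haveI := hP₀n
    exact le_sup_left.trans ((P₀.3 (hR.to_sup_of_normal_right P₀.2) le_sup_right).le)
  -- the complement in `C`
  have hcop : (Nat.card (P₀ : Subgroup C)).Coprime (P₀ : Subgroup C).index := by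
    obtain ⟨e, he⟩ := IsPGroup.iff_card.1 P₀.2
    rw [he]
    exact ((hpr.coprime_iff_not_dvd).2 P₀.not_dvd_index).pow_left e
  obtain ⟨K, hK⟩ := Subgroup.exists_right_complement'_of_coprime hcop
  have hKcard : Nat.card K = (P₀ : Subgroup C).index := hK.symm.card_left.symm ▸ rfl
  have hKp : ∀ y ∈ K, (orderOf y).Coprime p := fun y hy => by
    rw [← Subgroup.orderOf_mk y hy]
    exact Nat.Coprime.coprime_dvd_left (orderOf_dvd_natCard _)
      (hKcard ▸ ((hpr.coprime_iff_not_dvd).2 P₀.not_dvd_index).symm)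
  have hcent : ∀ y : C, (orderOf y).Coprime p → ∀ z ∈ (P₀ : Subgroup C), y * z = z * y := by
    intro y hy z hz
    set D := Subgroup.centralizer ({y} : Set C)
    obtain ⟨R⟩ : Nonempty (Sylow p D) := inferInstance
    have hRi : ¬ p ∣ ((R : Subgroup D).map D.subtype).index := by
      rw [Subgroup.index_map_subtype]
      exact hpr.not_dvd_mul R.not_dvd_index (hCi y hy)
    have hR0 : ((R : Subgroup D).map D.subtype) = (P₀ : Subgroup C) :=
      (((R.2.map D.subtype).toSylow hRi).3 P₀.2 (hle0 _ (R.2.map D.subtype))).symm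
    obtain ⟨w, -, hw⟩ := hR0.ge hz
    rw [← hw]
    exact (Subgroup.mem_centralizer_singleton_iff.1 w.2).symm
  have hKn : K.Normal := by
    refine ⟨fun y hy g => ?_⟩
    have hg : g ∈ (P₀ : Subgroup C) ⊔ K := by rw [hK.sup_eq_top]; trivial
    have : (P₀ : Subgroup C) ⊔ K ≤ Subgroup.normalizer (K : Set C) := by
      refine sup_le (fun z hz => Subgroup.mem_normalizer_iff.2 fun w => ?_) Subgroup.le_normalizer
      constructor
      · intro hw
        rw [← hcent w (hKp w hw) z hz, mul_inv_cancel_right]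
        exact hw
      · intro hw
        have h1 := hcent _ (hKp _ hw) z⁻¹ (inv_mem hz)
        have h2 : w = z * w * z⁻¹ := by
          calc w = z⁻¹ * (z * w * z⁻¹) * z := by group
            _ = z * w * z⁻¹ := by rw [← h1]; group
        exact h2 ▸ hw
    exact ((Subgroup.mem_normalizer_iff.1 (this hg)) y).1 hy
  have hKall : ∀ y : C, (orderOf y).Coprime p → y ∈ K := by
    intro y hy
    haveI := hKn
    refine (QuotientGroup.eq_one_iff y).1 (orderOf_eq_one_iff.1 ?_)
    have h1 : orderOf (y : C ⧸ K) ∣ orderOf y := orderOf_map_dvd (QuotientGroup.mk' K) y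
    have h2 : orderOf (y : C ⧸ K) ∣ Nat.card (P₀ : Subgroup C) := by
      rw [← hK.index_eq_card, Subgroup.index_eq_card]
      exact orderOf_dvd_natCard _
    obtain ⟨e, he⟩ := IsPGroup.iff_card.1 P₀.2
    exact Nat.eq_one_of_dvd_coprimes ((hy.pow_right e)) h1 (he ▸ h2)
  -- a Sylow subgroup of `G`
  obtain ⟨P, hP⟩ := (P₀.2.map C.subtype).exists_le_sylow
  set x' : C := ⟨x, Subgroup.mem_centralizer_singleton_iff.2 rfl⟩
  have hx0 : x' ∈ (P₀ : Subgroup C) := by
    refine hle0 _ (IsPGroup.of_card (n := k) ?_) (Subgroup.mem_zpowers x')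
    rw [Nat.card_zpowers, Subgroup.orderOf_mk, hxk]
  have hCP : (P : Subgroup G).subgroupOf C = (P₀ : Subgroup C) :=
    P₀.3 P.2.comap_subtype fun z hz => hP ⟨z, hz, rfl⟩
  have hPcard : Nat.card (P : Subgroup G) = p ^ a * Nat.card (P₀ : Subgroup C) := by
    obtain ⟨e, he⟩ := IsPGroup.iff_card.1 P₀.2
    refine Sylow.card_eq_multiplicity P |>.trans ?_
    have h1 : Nat.card G = p ^ (a + e) * (P₀ : Subgroup C).index := by
      rw [← C.card_mul_index, ← (P₀ : Subgroup C).card_mul_index, he, hx, pow_add]; ring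
    rw [h1, Nat.factorization_mul (pow_ne_zero _ hpr.ne_zero) Subgroup.index_ne_zero_of_finite, Finsupp.add_apply,
      hpr.factorization_pow, Finsupp.single_eq_same, Nat.factorization_eq_zero_of_not_dvd P₀.not_dvd_index, add_zero,
      pow_add, he]
  have hGPC : ∀ g : G, ∃ s ∈ (P : Subgroup G), ∃ c ∈ C, g = s * c := by
    have hidx : ((P : Subgroup G) ⊓ C).relIndex (P : Subgroup G) = p ^ a := by
      have h1 : Nat.card ((P : Subgroup G) ⊓ C : Subgroup G) = Nat.card (P₀ : Subgroup C) := by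
        rw [← hCP, Nat.card_congr ((Subgroup.equivMapOfInjective ((P : Subgroup G).subgroupOf C) C.subtype C.subtype_injective).toEquiv),
          Subgroup.subgroupOf_map_subtype]
      have h2 := Subgroup.card_mul_index (((P : Subgroup G) ⊓ C).subgroupOf (P : Subgroup G))
      rw [Nat.card_congr (Subgroup.subgroupOfEquivOfLe inf_le_left).toEquiv, h1, hPcard, mul_comm (p ^ a)] at h2
      exact Nat.eq_of_mul_eq_mul_left Nat.card_pos h2
    rw [Subgroup.inf_relIndex_left, ← hx] at hidx
    let f : (P : Subgroup G) ⧸ C.subgroupOf (P : Subgroup G) → G ⧸ C :=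
      Quotient.map' Subtype.val fun s t h => by
        rw [QuotientGroup.leftRel_apply] at h ⊢
        exact h
    have hf : Function.Injective f := by
      rintro ⟨s⟩ ⟨t⟩ h
      have h' : (s : G)⁻¹ * t ∈ C := QuotientGroup.eq.1 h
      exact QuotientGroup.eq.2 h'
    have hbij := hf.bijective_of_nat_card_le (by
      rw [← Subgroup.index_eq_card, ← Subgroup.index_eq_card]; exact hidx.ge)
    intro g
    obtain ⟨⟨s⟩, hs⟩ := hbij.2 (QuotientGroup.mk g)
    exact ⟨s, s.2, (s : G)⁻¹ * g, QuotientGroup.eq.1 hs, by group⟩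
  set M := Subgroup.normalClosure ({x} : Set G)
  have hMP : M ≤ (P : Subgroup G) := by
    refine (Subgroup.closure_le _).2 ?_
    intro z hz
    obtain ⟨u, hu, hz⟩ := Group.mem_conjugatesOfSet_iff.1 hz
    rw [Set.mem_singleton_iff] at hu
    rw [hu] at hz
    obtain ⟨g, rfl⟩ := isConj_iff.1 hz
    obtain ⟨s, hs, c, hc, rfl⟩ := hGPC g
    have h1 : c * x = x * c := Subgroup.mem_centralizer_singleton_iff.1 hc
    have h2 : s * c * x * (s * c)⁻¹ = s * x * s⁻¹ := by
      rw [mul_assoc s c x, h1]; group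
    rw [h2]
    exact mul_mem (mul_mem hs (hP ⟨x', hx0, rfl⟩)) (inv_mem hs)
  have hMn : M.Normal := Subgroup.normalClosure_normal
  have hxM : x ∈ M := Subgroup.subset_normalClosure rfl
  have hKM : ∀ y : C, (orderOf y).Coprime p → (y : G) ∈ Subgroup.centralizer (M : Set G) := by
    intro y hy
    have h := Lib.Components.axb (Q := M) (P := Subgroup.zpowers x) (p := p) (x := (y : G)) (P.2.to_le hMP)
      (IsPGroup.of_card (n := k) (by rw [Nat.card_zpowers, hxk]))
      (by rw [Subgroup.normalizer_eq_top]; exact le_top)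
      (Subgroup.mem_centralizer_iff.2 fun z hz => by
        obtain ⟨i, rfl⟩ := Subgroup.mem_zpowers_iff.1 hz
        exact (Commute.zpow_left (Subgroup.mem_centralizer_singleton_iff.1 y.2).symm i).eq)
      (by rw [Subgroup.normalizer_eq_top]; trivial) (by rwa [Subgroup.orderOf_coe]) ?_
    · exact Subgroup.mem_centralizer_iff.2 fun z hz => Subgroup.mem_centralizer_singleton_iff.1 (h hz)
    · intro q hq
      have hqC : q ∈ C := Subgroup.mem_centralizer_singleton_iff.2
        (Subgroup.mem_centralizer_iff.1 hq.2 x (Subgroup.mem_zpowers x)).symm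
      have hq0 : (⟨q, hqC⟩ : C) ∈ (P₀ : Subgroup C) := hCP ▸ (hMP hq.1 : q ∈ (P : Subgroup G))
      exact Subgroup.mem_centralizer_singleton_iff.2 (congrArg Subtype.val (hcent y hy _ hq0)).symm
  set N := K.map C.subtype
  have hNn : N.Normal := by
    refine ⟨?_⟩
    rintro _ ⟨y, hy, rfl⟩ g
    haveI := hMn
    have h1 : g * (y : G) * g⁻¹ ∈ Subgroup.centralizer (M : Set G) :=
      (inferInstance : (Subgroup.centralizer (M : Set G)).Normal).conj_mem _ (hKM y (hKp y hy)) g
    have h2 : g * (y : G) * g⁻¹ ∈ C := Subgroup.mem_centralizer_singleton_iff.2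
      (Subgroup.mem_centralizer_iff.1 h1 x hxM).symm
    refine ⟨⟨_, h2⟩, hKall _ ?_, rfl⟩
    rw [Subgroup.orderOf_mk, show g * (y : G) * g⁻¹ = MulAut.conj g (y : G) from rfl, MulEquiv.orderOf_eq,
      Subgroup.orderOf_coe]
    exact hKp y hy
  refine ⟨P, N, hNn, Subgroup.isComplement'_of_coprime ?_ ?_⟩
  · rw [Nat.card_congr (Subgroup.equivMapOfInjective K C.subtype C.subtype_injective).toEquiv.symm, hKcard, hPcard,
      ← C.card_mul_index, ← (P₀ : Subgroup C).card_mul_index, hx]
    ring
  · rw [Nat.card_congr (Subgroup.equivMapOfInjective K C.subtype C.subtype_injective).toEquiv.symm]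
    obtain ⟨e, he⟩ := IsPGroup.iff_card.1 P.2
    rw [he, hKcard]
    exact ((hpr.coprime_iff_not_dvd).2 P₀.not_dvd_index).symm.pow_right e

end


/-- Let G be a finite group, p a prime and p^a the largest power of p dividing the size of any conjugacy class of G. If some element of p-power order has a conjugacy class of size exactly p^a, then G has a normal p-complement. -/
theorem result {G : Type*} [Group G] [Finite G] (p : ℕ) [Fact p.Prime]
    (a : ℕ) (hmax : ∀ y : G, ¬ p ^ (a + 1) ∣ (Subgroup.centralizer ({y} : Set G)).index)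
    (hx : ∃ x : G, (∃ k : ℕ, orderOf x = p ^ k) ∧ (Subgroup.centralizer ({x} : Set G)).index = p ^ a) :
    Cfsg.HasNormalPComplement p G := by
  obtain ⟨x, ⟨k, hk⟩, hxi⟩ := hx
  exact normal_complement hmax hk hxi

end Cfsg.Agent.S4127
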