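import Cfsg.Statements.S5342
import Cfsg.Agent.Lib.Fusion.Lcs
import Cfsg.Agent.Lib.Fusion.Normal
import Cfsg.Agent.Lib.Fusion.Criteria
import Cfsg.Agent.Lib.Fusion.Join

set_option autoImplicit false
open Cfsg

namespace Cfsg.Agent.S5342

open Cfsg.FusionSystem Cfsg.Agent.Lib.Fusion
open scoped commutatorElement

variable {Ω : Type*} [Group Ω] {S : Subgroup Ω} [Finite S] {p : ℕ} [Fact p.Prime] {F : FusionSystem S}

/-- An automorphism of the system on `P` keeps a strongly closed subgroup. -/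
theorem aut_mem {A P : Subgroup Ω} (hA : F.StronglyClosed A) (hP : P ≤ S) {α : MulAut P} (hα : α ∈ F.autGroup P)
    {x : P} (hx : (x : Ω) ∈ A) : ((α x : P) : Ω) ∈ A :=
  map_mem_of_stronglyClosed hA ((mem_autGroup hP).1 hα) x hx

theorem isPGroup_stab {P Q R : Subgroup Ω} (hS : IsPGroup p S) (hP : P ≤ S) (hQP : Q ≤ P) (hRQ : R ≤ Q)
    (hQc : centralizerIn S Q ≤ Q) (hQn : S ≤ Subgroup.normalizer (Q : Set Ω)) (A : Subgroup (MulAut P))
    (hR : ∀ α ∈ A, ∀ x : P, (x : Ω) ∈ R → α x = x)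
    (hQ : ∀ α ∈ A, ∀ x : P, (x : Ω) ∈ Q → (x : Ω)⁻¹ * (α x : Ω) ∈ R) : IsPGroup p A := by
  have := finite_of_le hP
  obtain ⟨a, ha⟩ := IsPGroup.iff_card.1 (isPGroup_of_le hS hP)
  rintro ⟨α, hα⟩
  have hpow : ∀ (β : MulAut P) (x z : P), β x = x * z → β z = z → ∀ i : ℕ, (β ^ i) x = x * z ^ i := by
    intro β x z hx hz i
    induction i with
    | zero => simp
    | succ i ih =>
      rw [pow_succ', MulAut.mul_apply, ih, map_mul, map_pow, hx, hz, mul_assoc, ← pow_succ']
  have hone : ∀ z : P, z ^ p ^ a = 1 := fun z => by rw [← ha]; exact pow_card_eq_one'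
  set β := α ^ p ^ a with hβ
  have hβQ : ∀ x : P, (x : Ω) ∈ Q → β x = x := by
    intro x hx
    have h2 : α (x⁻¹ * α x) = x⁻¹ * α x := hR α hα _ (by rw [Subgroup.coe_mul, Subgroup.coe_inv]; exact hQ α hα x hx)
    rw [hβ, hpow α x (x⁻¹ * α x) (mul_inv_cancel_left _ _).symm h2, hone, mul_one]
  refine ⟨a + a, Subtype.ext ?_⟩
  show α ^ p ^ (a + a) = 1
  rw [pow_add, pow_mul, ← hβ]
  refine MulEquiv.ext fun x => ?_
  have hz : (((x⁻¹ * β x : P)) : Ω) ∈ Q := by
    refine hQc (mem_centralizerIn.2 ⟨hP (x⁻¹ * β x).2, fun q hq => ?_⟩)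
    have hxq : ((x * ⟨q, hQP hq⟩ * x⁻¹ : P) : Ω) ∈ Q := conj_mem_of_mem_normalizer (hQn (hP x.2)) hq
    have h1 := hβQ _ hxq
    rw [map_mul, map_mul, map_inv, hβQ ⟨q, hQP hq⟩ hq] at h1
    have h2 : (⟨q, hQP hq⟩ : P) * (x⁻¹ * β x) = x⁻¹ * β x * ⟨q, hQP hq⟩ := by
      have h3 : β x * ⟨q, hQP hq⟩ = x * ⟨q, hQP hq⟩ * x⁻¹ * β x := by rw [← h1]; group
      rw [mul_assoc x⁻¹ (β x), h3]; group
    exact congrArg Subtype.val h2
  rw [hpow β x (x⁻¹ * β x) (mul_inv_cancel_left _ _).symm (hβQ _ hz), hone, mul_one, MulAut.one_apply]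

/-- A weakly normal subsystem of a constrained system is constrained. -/
theorem weaklyNormal_constrained (hS : IsPGroup p S) (hF : F.IsConstrained p) {T : Subgroup Ω}
    {E : FusionSystem T} (hE : E.IsWeaklyNormalIn F p) : E.IsConstrained p := by
  obtain ⟨hFs, Q₀, hQ₀, hQ₀c⟩ := hF
  obtain ⟨hEs, -, hsub, hsc, -, -⟩ := hE
  have hTS := hsc.1
  have : Finite T := finite_of_le hTS
  have hTp : IsPGroup p T := isPGroup_of_le hS hTS
  have hQ : F.IsNormal F.core := isNormal_core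
  have hQsc := stronglyClosed_of_isNormal hQ
  have hQc : centralizerIn S F.core ≤ F.core := fun x hx =>
    le_core hQ₀ (hQ₀c.2 Q₀ (isConj_refl hQ₀.1)
      (mem_centralizerIn.2 ⟨(mem_centralizerIn.1 hx).1, fun q hq => (mem_centralizerIn.1 hx).2 q (le_core hQ₀ hq)⟩))
  have hQn := le_normalizer_of_stronglyClosed hQsc
  have hTn := le_normalizer_of_stronglyClosed hsc
  set R := F.core ⊓ T with hRdef
  have hRQ : R ≤ F.core := inf_le_left
  have hRT : R ≤ T := inf_le_right
  have hRsc : F.StronglyClosed R := stronglyClosed_inf hQsc hsc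
  have : Finite R := finite_of_le hRsc.1
  have hchar : ∀ U : Subgroup Ω, U ≤ R → (U.subgroupOf R).Characteristic → E.StronglyClosed U := by
    intro U hUR hU
    refine ⟨hUR.trans hRT, fun P hP φ hφ x => ?_⟩
    obtain ⟨κ, hκ, hκe⟩ := extend_of_normal hQ ((hP.trans hUR).trans hRQ) (hsub P hφ)
    obtain ⟨μ, hμ⟩ := exists_restrict_aut hRQ (β := κ) (fun z => aut_mem hRsc hQ.1 hκ z.2)
    have h1 : μ ⟨x, hUR (hP x.2)⟩ ∈ (U.subgroupOf R).map μ.toMonoidHom := ⟨⟨x, hUR (hP x.2)⟩, hP x.2, rfl⟩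
    rw [Subgroup.characteristic_iff_map_eq.1 hU μ] at h1
    have h2 : ((μ ⟨x, hUR (hP x.2)⟩ : R) : Ω) ∈ U := h1
    rw [hμ] at h2
    rw [← hκe x]
    exact h2
  obtain ⟨n, hn⟩ := exists_lcs_bot hS hRsc.1
  have hREn : E.IsNormal R := by
    refine isNormal_of_closed_chain hTp hEs ⟨hRT, fun P hP φ hφ x => hRsc.2 P hP φ (hsub P hφ) x⟩ n
      (fun i => R.lowerCentralSeries (n - i)) hn ?_ ?_ ?_
    · simp
    · exact fun i _ => hchar _ (R.lowerCentralSeries_le_self _) (lcs_characteristic R _)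
    · intro i hi g hg x hx
      have h1 := commutator_lcs hg hx
      rwa [show n - (i + 1) + 1 = n - i by omega] at h1
  set C := centralizerIn T R with hCdef
  have hCS : C ≤ S := (centralizerIn_le _ _).trans hTS
  have hCsc : F.StronglyClosed C := by
    refine ⟨hCS, fun P hP φ hφ x => mem_centralizerIn.2 ⟨?_, fun r hr => ?_⟩⟩
    · exact hsc.2 P (hP.trans (centralizerIn_le _ _)) φ hφ x
    · obtain ⟨ψ, hψ, hψP, κ, hκ, hψQ⟩ := isNormal_aut hQ hφ
      have hrQ : ((κ.symm ⟨r, hRQ hr⟩ : F.core) : Ω) ∈ R :=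
        aut_mem hRsc hQ.1 (show (κ.symm : MulAut F.core) ∈ F.autGroup F.core from inv_mem hκ) hr
      have h1 : ψ (Subgroup.inclusion le_sup_right (κ.symm ⟨r, hRQ hr⟩)) = r := by
        rw [hψQ, MulEquiv.apply_symm_apply]
      rw [← hψP x, ← h1, ← map_mul, ← map_mul]
      exact congrArg ψ (Subtype.ext ((mem_centralizerIn.1 (hP x.2)).2 _ hrQ))
  have hCnorm : F.IsNormal C := by
    refine isNormal_of_le_radical hS hFs hCsc fun P hc hr _ => ?_
    have hPS := hc.1
    have hQP : F.core ≤ P := le_of_isNormal hS hQ hc hr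
    refine le_of_centric_radical_aux hS hPS hCS (hPS.trans (le_normalizer_of_stronglyClosed hCsc)) fun g hg hgP => ?_
    let K : Subgroup (F.autGroup P) :=
      { carrier := {α | (∀ x : P, (x : Ω) ∈ R → (α : MulAut P) x = x) ∧
          ∀ x : P, (x : Ω) ∈ F.core → (x : Ω)⁻¹ * ((α : MulAut P) x : Ω) ∈ R}
        one_mem' := ⟨fun x _ => rfl, fun x _ => by simp⟩
        mul_mem' := by
          rintro α β ⟨ha1, ha2⟩ ⟨hb1, hb2⟩
          refine ⟨fun x hx => ?_, fun x hx => ?_⟩
          · show (α : MulAut P) ((β : MulAut P) x) = x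
            rw [hb1 x hx, ha1 x hx]
          · show (x : Ω)⁻¹ * ((α : MulAut P) ((β : MulAut P) x) : Ω) ∈ R
            have hβx : (((β : MulAut P) x : P) : Ω) ∈ F.core := aut_mem hQsc hPS β.2 hx
            have h := R.mul_mem (hb2 x hx) (ha2 _ hβx)
            rw [mul_assoc, mul_inv_cancel_left] at h
            exact h
        inv_mem' := by
          rintro α ⟨ha1, ha2⟩
          refine ⟨fun x hx => ?_, fun x hx => ?_⟩
          · show (α : MulAut P)⁻¹ x = x
            conv_lhs => rw [← ha1 x hx]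
            exact MulEquiv.symm_apply_apply _ x
          · show (x : Ω)⁻¹ * (((α : MulAut P)⁻¹ x : P) : Ω) ∈ R
            have hy : ((((α : MulAut P)⁻¹ x : P)) : Ω) ∈ F.core := aut_mem hQsc hPS (inv_mem α.2) hx
            have h := R.inv_mem (ha2 _ hy)
            rw [MulAut.apply_inv_self, mul_inv_rev, inv_inv] at h
            exact h }
    have hKn : K.Normal := by
      refine ⟨fun α hα β => ⟨fun x hx => ?_, fun x hx => ?_⟩⟩
      · show (β : MulAut P) ((α : MulAut P) ((β : MulAut P)⁻¹ x)) = x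
        rw [hα.1 _ (aut_mem hRsc hPS (inv_mem β.2) hx), MulAut.apply_inv_self]
      · show (x : Ω)⁻¹ * (((β : MulAut P) ((α : MulAut P) ((β : MulAut P)⁻¹ x)) : P) : Ω) ∈ R
        set y := (β : MulAut P)⁻¹ x with hy
        have hyQ : (y : Ω) ∈ F.core := aut_mem hQsc hPS (inv_mem β.2) hx
        have h1 : (((y⁻¹ * (α : MulAut P) y : P)) : Ω) ∈ R := hα.2 y hyQ
        have h2 := aut_mem hRsc hPS β.2 h1
        rw [map_mul, map_inv, hy, MulAut.apply_inv_self] at h2
        exact h2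
    have hKp : IsPGroup p K := by
      have h1 : IsPGroup p (K.map (F.autGroup P).subtype) := by
        refine isPGroup_stab hS hPS hQP hRQ hQc hQn _ ?_ ?_
        · rintro _ ⟨α, hα, rfl⟩ x hx
          exact hα.1 x hx
        · rintro _ ⟨α, hα, rfl⟩ x hx
          exact hα.2 x hx
      exact h1.of_injective ((F.autGroup P).subtype.subgroupMap K)
        (fun a b h => Subtype.ext (Subtype.ext (congrArg (fun z : ↥(K.map (F.autGroup P).subtype) => (z : MulAut P)) h)))
    have hgS : g ∈ S := hCS hg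
    have hmem : conjAut P hgP ∈ F.autGroup P :=
      autInducedBy_le_autGroup hPS (conjAut_mem_autInducedBy hgS hgP)
    have hcK : (⟨_, hmem⟩ : F.autGroup P) ∈ K := by
      refine ⟨fun x hx => Subtype.ext ?_, fun x hx => ?_⟩
      · show ((conjAut P hgP x : P) : Ω) = x
        rw [conjAut_apply, ← (mem_centralizerIn.1 hg).2 _ hx, mul_inv_cancel_right]
      · show (x : Ω)⁻¹ * ((conjAut P hgP x : P) : Ω) ∈ R
        rw [conjAut_apply]
        have hgT := (mem_centralizerIn.1 hg).1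
        refine ⟨F.core.mul_mem (F.core.inv_mem hx) (conj_mem_of_mem_normalizer (hQn hgS) hx), ?_⟩
        rw [show (x : Ω)⁻¹ * (g * x * g⁻¹) = (x : Ω)⁻¹ * g * x * g⁻¹ by group]
        refine T.mul_mem ?_ (T.inv_mem hgT)
        have h := conj_mem_of_mem_normalizer (hTn (S.inv_mem (hPS x.2))) hgT
        rwa [inv_inv] at h
    obtain ⟨z, hz⟩ := mem_inn_of_radical hr hKn hKp hcK
    have hgz : (z : Ω)⁻¹ * g ∈ centralizerIn S P := by
      refine mem_centralizerIn.2 ⟨S.mul_mem (S.inv_mem (hPS z.2)) hgS, fun y hy => ?_⟩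
      have h1 : (z : Ω) * y * (z : Ω)⁻¹ = g * y * g⁻¹ := by
        have h2 := congrArg (fun f : MulAut P => ((f ⟨y, hy⟩ : P) : Ω)) hz
        simpa [conjAut_apply] using h2
      have h3 : y * ((z : Ω)⁻¹ * g) = (z : Ω)⁻¹ * ((z : Ω) * y * (z : Ω)⁻¹) * g := by group
      rw [h3, h1]; group
    have := hc.2 P (isConj_refl hPS) hgz
    have h5 := P.mul_mem z.2 this
    rwa [mul_inv_cancel_left] at h5
  refine ⟨hEs, R, hREn, hRT, fun U hU => ?_⟩
  obtain ⟨φ, hφ, hrφ⟩ := hU
  have hUR : U = R := by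
    subst hrφ
    exact eq_of_le_of_natCard_le
      (fun y ⟨x, hx⟩ => hx ▸ hRsc.2 R le_rfl φ (hsub R hφ) x)
      (Nat.card_congr (MonoidHom.ofInjective (E.injective_of_mem hφ)).toEquiv).le
  subst hUR
  exact fun x hx => ⟨le_core hCnorm hx, (mem_centralizerIn.1 hx).1⟩

omit [Finite S] [Fact p.Prime] in
/-- Subnormal subsystems of a constrained system are constrained. -/
theorem subnormal_constrained {T : Subgroup Ω} {E : FusionSystem T} (hE : E.IsSubnormalIn F p) :
    Fact p.Prime → Finite S → IsPGroup p S → F.IsConstrained p → E.IsConstrained p := by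
  induction hE with
  | refl => exact fun _ _ _ hF => hF
  | @step U S E D F p h hD ih =>
    intro hp hfin hS hF
    have hUS : U ≤ S := hD.1.2.2.2.1.1
    exact ih hp (finite_of_le hUS) (isPGroup_of_le hS hUS) (weaklyNormal_constrained hS hF hD.1)


/-- Let F be a constrained saturated fusion system over a finite p-group S. Then every subsystem of F that is subnormal in F (reached from F by a finite chain of successive normal subsystems) is constrained. -/
theorem result {Ω : Type*} [Group Ω] {S : Subgroup Ω} [Finite S] (p : ℕ) [Fact p.Prime] (hS : IsPGroup p S) (F : Cfsg.FusionSystem S) (hF : F.IsConstrained p) {T : Subgroup Ω} (E : Cfsg.FusionSystem T) (hE : E.IsSubnormalIn F p) : E.IsConstrained p := by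
  exact subnormal_constrained hE inferInstance inferInstance hS hF

end Cfsg.Agent.S5342
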