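import Cfsg.Statements.S2638
import Cfsg.Agent.Lib.GLOrders

set_option autoImplicit false
open Cfsg

namespace Cfsg.Agent.S2638

/-- If an element x of GL_n(q), n ≥ 1, has prime order r and the multiplicative order of q modulo r is n (r is a primitive prime divisor of q^n − 1, so x acts irreducibly), then the centraliser of x in GL_n(q) is cyclic of order q^n − 1 (the multiplicative group of the field with q^n elements, a Singer cycle). -/
theorem result {F : Type*} [Field F] [Fintype F] {p q : ℕ} [Fact p.Prime] [CharP F p] (hF : Fintype.card F = q) {n r : ℕ} (hn : 1 ≤ n) (hr : r.Prime) (hrp : r ≠ p) (hi : orderOf (q : ZMod r) = n) (x : GL (Fin n) F) (hx : orderOf x = r) : IsCyclic ↥(Subgroup.centralizer ({x} : Set (GL (Fin n) F))) ∧ Nat.card ↥(Subgroup.centralizer ({x} : Set (GL (Fin n) F))) = q ^ n - 1 := by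
  classical
  haveI : Nonempty (Fin n) := ⟨⟨0, hn⟩⟩
  haveI : Fact r.Prime := ⟨hr⟩
  set M : Matrix (Fin n) (Fin n) F := (x : Matrix (Fin n) (Fin n) F) with hM
  have hMr : M ^ r = 1 := by rw [hM, ← Units.val_pow_eq_pow_val, ← hx, pow_orderOf_eq_one]; rfl
  have hrF : (r : F) ≠ 0 := by
    rw [Ne, CharP.cast_eq_zero_iff F p]
    exact fun h => hrp ((Nat.prime_dvd_prime_iff_eq Fact.out hr).1 h).symm
  have hsq : Squarefree (Polynomial.X ^ r - Polynomial.C (1 : F)) :=
    (Polynomial.separable_X_pow_sub_C (1 : F) hrF one_ne_zero).squarefree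
  set m := minpoly F M with hm
  have hmd : m ∣ Polynomial.X ^ r - Polynomial.C (1 : F) := minpoly.dvd F M (by simp [hMr])
  -- an irreducible factor other than X - 1
  obtain ⟨f, hfm, hf, hfd, hf1⟩ : ∃ f : Polynomial F, f.Monic ∧ Irreducible f ∧ f ∣ m ∧ ¬ f ∣ Polynomial.X - Polynomial.C 1 := by
    by_contra hne
    push Not at hne
    have h1 : m ∣ (Polynomial.X - Polynomial.C 1) ^ n := by
      refine Lib.GLOrders.dvd_pow_of_factors _ _ _ (minpoly.ne_zero (Algebra.IsIntegral.isIntegral M))
        (by simpa using Lib.GLOrders.natDegree_minpoly_le M) fun f hf hfd => ?_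
      have hmon := Polynomial.monic_mul_leadingCoeff_inv hf.ne_zero
      have hu : IsUnit (Polynomial.C f.leadingCoeff⁻¹) :=
        Polynomial.isUnit_C.2 (inv_ne_zero (Polynomial.leadingCoeff_ne_zero.2 hf.ne_zero)).isUnit
      exact (dvd_mul_right _ _).trans (hne _ hmon ((irreducible_mul_isUnit hu).2 hf) (hu.mul_right_dvd.2 hfd))
    have h2 : (Polynomial.aeval M) (Polynomial.X - Polynomial.C (1 : F)) = 0 := by
      have hms : Squarefree m := hsq.squarefree_of_dvd hmd
      obtain ⟨c, hc⟩ := (hms.isRadical n _ h1)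
      rw [hc, map_mul, minpoly.aeval, zero_mul]
    simp only [map_sub, Polynomial.aeval_X, Polynomial.aeval_C, map_one, sub_eq_zero] at h2
    have : x = 1 := Units.ext h2
    rw [this, orderOf_one] at hx
    exact hr.ne_one hx.symm
  have hdn : f.natDegree = n := by
    have hle : f.natDegree ≤ n := (Polynomial.natDegree_le_of_dvd hfd (minpoly.ne_zero (Algebra.IsIntegral.isIntegral M))).trans
      (by simpa using Lib.GLOrders.natDegree_minpoly_le M)
    refine le_antisymm hle (Nat.le_of_dvd hf.natDegree_pos ?_)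
    rw [← hi, orderOf_dvd_iff_pow_eq_one]
    have hX : ¬ f ∣ Polynomial.X := by
      intro h
      have h0 : f ∣ Polynomial.C (1 : F) := by
        have := dvd_sub (h.trans (dvd_pow_self _ hr.ne_zero)) (hfd.trans hmd)
        rwa [sub_sub_cancel] at this
      exact hf.not_isUnit (isUnit_of_dvd_unit h0 (by simp))
    set e := Nat.card F ^ f.natDegree - 1 with he
    have h1 : f ∣ Polynomial.X ^ e - 1 := Lib.GLOrders.pow_card_pow_sub_one f hf hX
    have h2 : f ∣ Polynomial.X ^ r - 1 := by simpa using hfd.trans hmd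
    have h3 : r ∣ e := by
      by_contra hne
      obtain ⟨a, -, ha⟩ := Nat.exists_mul_mod_eq_one_of_coprime ((hr.coprime_iff_not_dvd.2 hne).symm) hr.one_lt
      apply hf1
      have h4 : f ∣ Polynomial.X ^ (e * a) - 1 := h1.trans (by rw [pow_mul]; exact sub_one_dvd_pow_sub_one _ a)
      have h5 : f ∣ Polynomial.X ^ (e * a - 1) - 1 := by
        refine h2.trans ?_
        obtain ⟨c, hc⟩ : r ∣ e * a - 1 := ⟨e * a / r, by have := Nat.div_add_mod (e * a) r; omega⟩
        rw [hc, pow_mul]; exact sub_one_dvd_pow_sub_one _ c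
      have e1 : e * a = (e * a - 1) + 1 := by
        rcases Nat.eq_zero_or_pos (e * a) with h | h
        · rw [h] at ha; simp at ha
        · omega
      rw [e1, pow_succ] at h4
      have := dvd_sub h4 (h5.mul_right Polynomial.X)
      rw [map_one, show (Polynomial.X - 1 : Polynomial F) = Polynomial.X ^ (e * a - 1) * Polynomial.X - 1 -
        (Polynomial.X ^ (e * a - 1) - 1) * Polynomial.X by ring]
      exact this
    have hcast : ((Nat.card F ^ f.natDegree - 1 : ℕ) : ZMod r) = 0 := (ZMod.natCast_eq_zero_iff _ _).2 h3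
    rw [Nat.cast_sub (Nat.one_le_pow _ _ Nat.card_pos), sub_eq_zero] at hcast
    rw [← hF, ← Nat.card_eq_fintype_card]
    simpa using hcast
  have hmf : m = f := by
    refine (Polynomial.eq_of_monic_of_dvd_of_natDegree_le hfm (minpoly.monic (Algebra.IsIntegral.isIntegral M)) hfd ?_)
    rw [hdn]; simpa using Lib.GLOrders.natDegree_minpoly_le M
  haveI : Fact (Irreducible f) := ⟨hf⟩
  let ev : AdjoinRoot f →ₐ[F] Matrix (Fin n) (Fin n) F :=
    Ideal.Quotient.liftₐ (Ideal.span {f}) (Polynomial.aeval M) (by
      intro a ha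
      obtain ⟨c, rfl⟩ := Ideal.mem_span_singleton.1 ha
      have := minpoly.aeval F M
      rw [← hm, hmf] at this
      rw [map_mul, this, zero_mul])
  have hev : Function.Injective ev := ev.toRingHom.injective
  haveI : Module.Finite F (AdjoinRoot f) := (AdjoinRoot.powerBasis hf.ne_zero).finite
  haveI : Finite (AdjoinRoot f) := Module.finite_of_finite F
  have hroot : ev (AdjoinRoot.root f) = M := Polynomial.aeval_X (R := F) M
  have hcen : ∀ a : (AdjoinRoot f)ˣ, Units.map (ev : AdjoinRoot f →* Matrix (Fin n) (Fin n) F) a ∈ Subgroup.centralizer ({x} : Set (GL (Fin n) F)) := by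
    intro a
    rw [Subgroup.mem_centralizer_singleton_iff]
    apply Units.ext
    show ev (a : AdjoinRoot f) * M = M * ev (a : AdjoinRoot f)
    rw [← hroot, ← map_mul, ← map_mul, mul_comm]
  let φ : (AdjoinRoot f)ˣ →* ↥(Subgroup.centralizer ({x} : Set (GL (Fin n) F))) :=
    (Units.map (ev : AdjoinRoot f →* Matrix (Fin n) (Fin n) F)).codRestrict _ hcen
  let v : Fin n → F := Pi.single ⟨0, hn⟩ 1
  let L : AdjoinRoot f →ₗ[F] (Fin n → F) :=
    { toFun := fun a => (ev a).mulVec v
      map_add' := fun a b => by rw [map_add, Matrix.add_mulVec]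
      map_smul' := fun c a => by rw [map_smul, Matrix.smul_mulVec]; rfl }
  have hLi : Function.Injective L := by
    rw [← LinearMap.ker_eq_bot, eq_bot_iff]
    intro a ha
    by_contra h0
    have h := congrArg (fun w => (ev a⁻¹).mulVec w) (LinearMap.mem_ker.1 ha)
    simp only [L, LinearMap.coe_mk, AddHom.coe_mk, Matrix.mulVec_mulVec, Matrix.mulVec_zero] at h
    rw [← map_mul, inv_mul_cancel₀ (by simpa using h0), map_one, Matrix.one_mulVec] at h
    exact one_ne_zero ((by simpa [v] using congrFun h ⟨0, hn⟩ : (1 : F) = 0))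
  have hdimA : Module.finrank F (AdjoinRoot f) = n := (finrank_quotient_span_eq_natDegree (f := f)).trans hdn
  have hLs : Function.Surjective L :=
    (LinearMap.injective_iff_surjective_of_finrank_eq_finrank (by rw [hdimA, Module.finrank_fin_fun])).1 hLi
  have hbij : Function.Bijective φ := by
    constructor
    · intro a b h
      exact Units.ext (hev (congrArg (fun z : ↥(Subgroup.centralizer ({x} : Set (GL (Fin n) F))) => ((z : GL (Fin n) F) : Matrix (Fin n) (Fin n) F)) h))
    · rintro ⟨c, hc⟩
      obtain ⟨a, ha⟩ := hLs ((c : Matrix (Fin n) (Fin n) F).mulVec v)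
      have hcM : Commute (c : Matrix (Fin n) (Fin n) F) M := congrArg Units.val (Subgroup.mem_centralizer_singleton_iff.1 hc)
      have hall : ∀ b, Commute (c : Matrix (Fin n) (Fin n) F) (ev b) := by
        intro b
        induction b using AdjoinRoot.induction_on with | _ p =>
        rw [← AdjoinRoot.aeval_eq, ← Polynomial.aeval_algHom_apply, hroot]
        exact Algebra.commute_of_mem_adjoin_singleton_of_commute (Polynomial.aeval_mem_adjoin_singleton F M) hcM
      have he : ev a = (c : Matrix (Fin n) (Fin n) F) := by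
        refine Matrix.ext_of_mulVec_single fun i => ?_
        obtain ⟨b, hb⟩ := hLs (Pi.single i 1)
        rw [← hb]
        show (ev a).mulVec ((ev b).mulVec v) = (c : Matrix (Fin n) (Fin n) F).mulVec ((ev b).mulVec v)
        rw [Matrix.mulVec_mulVec, Matrix.mulVec_mulVec, (hall b).eq, ← map_mul, mul_comm a b, map_mul,
          ← Matrix.mulVec_mulVec, show (ev a).mulVec v = (c : Matrix (Fin n) (Fin n) F).mulVec v from ha, Matrix.mulVec_mulVec]
      have ha0 : a ≠ 0 := by
        intro h
        apply c.ne_zero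
        rw [← he, h, map_zero]
      exact ⟨Units.mk0 a ha0, Subtype.ext (Units.ext he)⟩
  refine ⟨isCyclic_of_surjective φ hbij.2, ?_⟩
  rw [← Nat.card_eq_of_bijective φ hbij, Nat.card_units, Module.natCard_eq_pow_finrank (K := F), hdimA,
    Nat.card_eq_fintype_card, hF]

end Cfsg.Agent.S2638
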