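import Cfsg.Agent.Lib.PSLTwo.SubfieldMax
import Cfsg.Statements.S0801

set_option linter.style.longLine false
set_option linter.style.haveILetI false

open Matrix MulAction OnePoint
open scoped MatrixGroups
open Cfsg.Agent.Lib.PSLTwo

namespace Cfsg.Agent.S0801

/-- Elements of `𝔽₃[i]`. -/
abbrev Z9 := ZMod 3 × ZMod 3

def mz (a b : Z9) : Z9 := (a.1 * b.1 - a.2 * b.2, a.1 * b.2 + a.2 * b.1)

def mq (A B : Z9 × Z9 × Z9 × Z9) : Z9 × Z9 × Z9 × Z9 :=
  (mz A.1 B.1 + mz A.2.1 B.2.2.1, mz A.1 B.2.1 + mz A.2.1 B.2.2.2,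
    mz A.2.2.1 B.1 + mz A.2.2.2 B.2.2.1, mz A.2.2.1 B.2.1 + mz A.2.2.2 B.2.2.2)

/-- The 120 elements. -/
def tbl : List (Z9 × Z9 × Z9 × Z9) :=
  [
    ((1, 0), (0, 0), (0, 0), (1, 0)), ((1, 0), (0, 0), (1, 0), (1, 0)), ((1, 0), (0, 1), (0, 0), (1, 0)),
    ((1, 0), (0, 0), (2, 0), (1, 0)), ((1, 0), (0, 1), (1, 0), (1, 1)), ((1, 1), (0, 1), (1, 0), (1, 0)),
    ((1, 0), (0, 2), (0, 0), (1, 0)), ((1, 0), (0, 1), (2, 0), (1, 2)), ((1, 1), (0, 1), (2, 1), (1, 1)),
    ((1, 0), (0, 2), (1, 0), (1, 2)), ((1, 2), (0, 1), (2, 0), (1, 0)), ((1, 1), (2, 2), (1, 0), (1, 1)),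
    ((1, 2), (0, 2), (1, 0), (1, 0)), ((1, 1), (0, 1), (0, 2), (1, 2)), ((1, 0), (0, 2), (2, 0), (1, 1)),
    ((1, 2), (0, 1), (0, 2), (1, 1)), ((1, 1), (2, 2), (2, 1), (0, 0)), ((1, 2), (0, 2), (2, 2), (1, 2)),
    ((1, 2), (1, 2), (2, 0), (1, 2)), ((0, 0), (2, 2), (2, 1), (1, 1)), ((1, 1), (1, 0), (1, 0), (1, 2)),
    ((1, 1), (0, 2), (2, 0), (1, 0)), ((1, 2), (1, 0), (1, 0), (1, 1)), ((1, 2), (0, 1), (1, 1), (1, 2)),
    ((1, 1), (2, 2), (0, 2), (2, 2)), ((1, 2), (0, 2), (0, 1), (1, 1)), ((1, 2), (1, 2), (0, 2), (2, 1)),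
    ((0, 0), (2, 2), (2, 1), (0, 0)), ((1, 1), (1, 0), (2, 1), (2, 2)), ((1, 1), (0, 2), (0, 1), (1, 2)),
    ((1, 2), (1, 0), (2, 2), (2, 1)), ((2, 1), (1, 2), (0, 2), (1, 2)), ((1, 2), (2, 0), (2, 0), (1, 1)),
    ((2, 2), (2, 2), (0, 2), (1, 1)), ((2, 1), (1, 0), (2, 2), (1, 2)), ((1, 1), (2, 0), (2, 0), (1, 2)),
    ((2, 2), (1, 0), (2, 1), (1, 1)), ((1, 2), (2, 1), (1, 0), (1, 2)), ((1, 2), (1, 2), (1, 1), (0, 0)),
    ((0, 0), (2, 2), (2, 1), (2, 2)), ((1, 1), (1, 0), (0, 2), (0, 2)), ((1, 1), (0, 2), (1, 2), (1, 1)),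
    ((1, 2), (1, 0), (0, 1), (0, 1)), ((2, 1), (1, 2), (2, 0), (2, 1)), ((1, 2), (2, 0), (0, 2), (0, 1)),
    ((2, 2), (2, 2), (2, 1), (0, 0)), ((2, 1), (1, 0), (1, 0), (2, 2)), ((1, 1), (2, 0), (0, 1), (0, 2)),
    ((2, 2), (1, 0), (1, 0), (2, 1)), ((1, 2), (2, 1), (2, 2), (0, 0)), ((0, 0), (1, 2), (1, 1), (1, 2)),
    ((2, 1), (0, 1), (0, 2), (2, 2)), ((0, 2), (2, 0), (0, 1), (1, 1)), ((2, 2), (0, 1), (0, 2), (2, 1)),
    ((0, 1), (1, 0), (0, 1), (1, 2)), ((2, 1), (0, 2), (2, 2), (2, 1)), ((0, 1), (2, 0), (0, 2), (1, 2)),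
    ((1, 1), (1, 1), (2, 0), (1, 1)), ((0, 2), (1, 0), (0, 2), (1, 1)), ((0, 0), (2, 1), (2, 2), (1, 2)),
    ((2, 1), (1, 2), (1, 1), (0, 0)), ((1, 2), (2, 0), (1, 1), (2, 1)), ((2, 2), (2, 2), (1, 0), (2, 2)),
    ((2, 1), (1, 0), (0, 1), (0, 2)), ((1, 1), (2, 0), (1, 2), (2, 2)), ((2, 2), (1, 0), (0, 2), (0, 1)),
    ((1, 2), (2, 1), (0, 1), (2, 1)), ((0, 0), (1, 2), (1, 1), (2, 1)), ((2, 1), (0, 1), (2, 0), (2, 0)),
    ((0, 2), (2, 0), (0, 0), (0, 1)), ((2, 2), (0, 1), (2, 1), (2, 2)), ((0, 1), (1, 0), (0, 2), (2, 2)),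
    ((2, 1), (0, 2), (1, 0), (2, 0)), ((0, 1), (2, 0), (0, 0), (0, 2)), ((1, 1), (1, 1), (0, 1), (2, 2)),
    ((0, 2), (1, 0), (0, 1), (2, 1)), ((0, 0), (2, 1), (2, 2), (0, 0)), ((0, 0), (1, 2), (1, 1), (0, 0)),
    ((2, 1), (2, 0), (0, 2), (0, 2)), ((2, 2), (2, 0), (1, 2), (1, 1)), ((0, 2), (0, 0), (0, 1), (0, 1)),
    ((2, 0), (0, 1), (2, 0), (2, 1)), ((0, 1), (0, 0), (0, 1), (0, 2)), ((2, 0), (0, 2), (1, 0), (2, 1)),
    ((2, 1), (2, 1), (2, 2), (0, 0)), ((2, 1), (2, 0), (1, 1), (1, 2)), ((2, 2), (1, 1), (0, 1), (1, 1)),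
    ((0, 2), (2, 0), (0, 2), (2, 1)), ((2, 1), (2, 1), (0, 1), (1, 2)), ((0, 0), (2, 1), (2, 2), (2, 1)),
    ((2, 1), (0, 1), (1, 1), (2, 1)), ((2, 2), (0, 1), (1, 0), (2, 0)), ((0, 1), (1, 0), (0, 0), (0, 2)),
    ((2, 1), (0, 2), (0, 1), (2, 2)), ((0, 1), (2, 0), (0, 1), (2, 2)), ((1, 1), (1, 1), (1, 2), (0, 0)),
    ((0, 2), (1, 0), (0, 0), (0, 1)), ((2, 1), (2, 0), (2, 0), (2, 2)), ((2, 2), (2, 0), (0, 1), (0, 1)),
    ((0, 2), (0, 0), (0, 0), (0, 1)), ((2, 0), (0, 1), (1, 0), (2, 2)), ((0, 1), (0, 0), (0, 2), (0, 2)),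
    ((2, 0), (0, 2), (0, 0), (2, 0)), ((2, 1), (2, 1), (1, 0), (2, 1)), ((2, 2), (1, 1), (2, 0), (2, 2)),
    ((2, 2), (0, 2), (1, 2), (2, 2)), ((0, 2), (0, 0), (0, 2), (0, 1)), ((2, 0), (0, 0), (2, 0), (2, 0)),
    ((0, 1), (0, 0), (0, 0), (0, 2)), ((2, 2), (0, 2), (0, 1), (2, 1)), ((0, 0), (1, 1), (1, 2), (1, 1)),
    ((2, 2), (2, 0), (2, 0), (2, 1)), ((2, 0), (0, 1), (0, 0), (2, 0)), ((2, 0), (0, 2), (2, 0), (2, 2)),
    ((2, 2), (1, 1), (1, 2), (0, 0)), ((2, 0), (0, 0), (1, 0), (2, 0)), ((2, 2), (0, 2), (2, 0), (2, 0)),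
    ((0, 0), (1, 1), (1, 2), (2, 2)), ((2, 0), (0, 0), (0, 0), (2, 0)), ((0, 0), (1, 1), (1, 2), (0, 0))
  ]

theorem tbl_closed : ∀ m ∈ tbl, mq m ((1, 0), (0, 0), (1, 0), (1, 0)) ∈ tbl ∧ mq m ((1, 0), (0, 1), (0, 0), (1, 0)) ∈ tbl := by
  decide +kernel

theorem tbl_one : ((1, 0), (0, 0), (0, 0), (1, 0)) ∈ tbl := by decide +kernel

/-- The exceptional group has at most 120 elements. -/
theorem card_le {F : Type*} [Field F] [Fintype F] [CharP F 3] (lam : F) (hl : lam ^ 2 = -1) :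
    Nat.card ↥(Subgroup.closure {g : Matrix.SpecialLinearGroup (Fin 2) F | (g : Matrix (Fin 2) (Fin 2) F) = !![1, 0; 1, 1] ∨ (g : Matrix (Fin 2) (Fin 2) F) = !![1, lam; 0, 1]}) ≤ 120 := by
  classical
  let c := ZMod.castHom (dvd_refl 3) F
  let φ : Z9 → F := fun a => c a.1 + c a.2 * lam
  let toM : Z9 × Z9 × Z9 × Z9 → Matrix (Fin 2) (Fin 2) F := fun A => !![φ A.1, φ A.2.1; φ A.2.2.1, φ A.2.2.2]
  have φm : ∀ a b, φ (mz a b) = φ a * φ b := fun a b => by
    simp only [φ, mz, map_add, map_sub, map_mul]; linear_combination (-(c a.2 * c b.2)) * hl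
  have φa : ∀ a b : Z9, φ (a + b) = φ a + φ b := fun a b => by
    simp only [φ, Prod.fst_add, Prod.snd_add, map_add]; ring
  have hmq : ∀ A B, toM (mq A B) = toM A * toM B := fun A B => by
    ext i j
    fin_cases i <;> fin_cases j <;> simp [toM, mq, φm, φa, Matrix.mul_apply, Fin.sum_univ_two]
  have hA : toM ((1, 0), (0, 0), (1, 0), (1, 0)) = !![1, 0; 1, 1] := by simp [toM, φ]
  have hB : toM ((1, 0), (0, 1), (0, 0), (1, 0)) = !![1, lam; 0, 1] := by simp [toM, φ]
  have h1 : toM ((1, 0), (0, 0), (0, 0), (1, 0)) = 1 := by simp [toM, φ, Matrix.one_fin_two]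
  set S := {g : Matrix.SpecialLinearGroup (Fin 2) F | (g : Matrix (Fin 2) (Fin 2) F) = !![1, 0; 1, 1] ∨ (g : Matrix (Fin 2) (Fin 2) F) = !![1, lam; 0, 1]}
  have hmon : ∀ g ∈ Submonoid.closure S, ∃ A ∈ tbl, toM A = (g : Matrix (Fin 2) (Fin 2) F) := by
    intro g hg
    induction hg using Submonoid.closure_induction_right with
    | one => exact ⟨_, tbl_one, by rw [h1]; rfl⟩
    | mul_right x hx y hy ih =>
      obtain ⟨A, hAm, hAx⟩ := ih
      rcases hy with e | e
      · exact ⟨_, (tbl_closed A hAm).1, by rw [hmq, hA, hAx, ← e]; rfl⟩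
      · exact ⟨_, (tbl_closed A hAm).2, by rw [hmq, hB, hAx, ← e]; rfl⟩
  have hsub : ∀ g ∈ Subgroup.closure S, g ∈ Submonoid.closure S := fun g hg => by
    rwa [← Subgroup.mem_toSubmonoid, Subgroup.closure_toSubmonoid_of_finite] at hg
  have key : ∀ g : Subgroup.closure S, ∃ i : Fin tbl.length, toM (tbl.get i) = ((g : Matrix.SpecialLinearGroup (Fin 2) F) : Matrix (Fin 2) (Fin 2) F) := fun g => by
    obtain ⟨A, hAm, hAg⟩ := hmon _ (hsub _ g.2)
    obtain ⟨i, rfl⟩ := List.mem_iff_get.mp hAm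
    exact ⟨i, hAg⟩
  choose i hi using key
  have hinj : Function.Injective i := fun a b h => Subtype.ext (Subtype.ext (by rw [← hi a, ← hi b, h]))
  have := Nat.card_le_card_of_injective i hinj
  rw [Nat.card_fin] at this
  exact this.trans (le_of_eq (by decide +kernel))

/-- The invariant `tr² / det` of an element of a subfield subgroup. -/
theorem tr_mem {F : Type*} [Field F] [Fintype F] [DecidableEq F] {K : Subfield F} {γ : PGL(2, F)}
    {g : Matrix.SpecialLinearGroup (Fin 2) F}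
    (h : γ * ProjGenLinGroup.mk (Matrix.SpecialLinearGroup.toGL g) * γ⁻¹ ∈ subPGL K) :
    (g : Matrix (Fin 2) (Fin 2) F).trace ^ 2 ∈ K := by
  induction γ using ProjGenLinGroup.induction_on with | mk m =>
  obtain ⟨k, hk⟩ := h
  induction k using ProjGenLinGroup.induction_on with | mk k =>
  rw [ProjGenLinGroup.map_mk, ← map_inv, ← map_mul, ← map_mul, ProjGenLinGroup.mk_eq_mk_iff] at hk
  obtain ⟨c, hc⟩ := hk
  set kk : Matrix (Fin 2) (Fin 2) K := (k : Matrix (Fin 2) (Fin 2) K)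
  set M : Matrix (Fin 2) (Fin 2) F := ((m * Matrix.SpecialLinearGroup.toGL g * m⁻¹ : GL (Fin 2) F) : Matrix (Fin 2) (Fin 2) F)
  have hM : ∀ i j, M i j = (kk i j : F) * c := fun i j => by
    have := congrArg (fun t : GL (Fin 2) F => (t : Matrix (Fin 2) (Fin 2) F) i j) hc
    simp only [Units.val_mul, GeneralLinearGroup.coe_scalar, Matrix.scalar_apply, Matrix.mul_diagonal] at this
    exact this.symm
  have htr : M.trace = (g : Matrix (Fin 2) (Fin 2) F).trace := by
    simp only [M, Units.val_mul]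
    rw [Matrix.trace_units_conj]
    rfl
  have hdet : M.det = 1 := by
    simp only [M, Units.val_mul]
    rw [Matrix.det_units_conj]
    exact g.2
  rw [← htr]
  rw [det_fin_two, hM, hM, hM, hM] at hdet
  rw [trace_fin_two, hM, hM]
  have hd : ((c : F)) ^ 2 * (((kk 0 0 * kk 1 1 - kk 0 1 * kk 1 0 : K)) : F) = 1 := by push_cast; linear_combination hdet
  have : (c : F) ^ 2 = ((((kk 0 0 * kk 1 1 - kk 0 1 * kk 1 0 : K)) : F))⁻¹ := eq_inv_of_mul_eq_one_left hd
  rw [show ((kk 0 0 : F) * c + (kk 1 1 : F) * c) ^ 2 = ((kk 0 0 : F) + (kk 1 1 : F)) ^ 2 * (c : F) ^ 2 by ring, this]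
  exact mul_mem (pow_mem (add_mem (kk 0 0).2 (kk 1 1).2) 2) (inv_mem (Subtype.prop _))

theorem alt_five_orders : ∀ a : alternatingGroup (Fin 5), a * a = 1 ∨ a * a * a = 1 ∨ a * a * a * a * a = 1 := by
  decide +kernel

/-- Let F be a finite field of odd characteristic and λ ≠ 0 an element generating F as a field. Then the lower and upper unitriangular matrices with off-diagonal entries 1 and λ generate SL_2(F), unless |F| = 9 and λ² = −1, in which case they generate a subgroup of order 120. -/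
theorem result {F : Type*} [Field F] [Fintype F] (h2 : (2 : F) ≠ 0) (lam : F) (hlam : lam ≠ 0) (hgen : Subfield.closure ({lam} : Set F) = ⊤) : (Subgroup.closure {g : Matrix.SpecialLinearGroup (Fin 2) F | (g : Matrix (Fin 2) (Fin 2) F) = !![1, 0; 1, 1] ∨ (g : Matrix (Fin 2) (Fin 2) F) = !![1, lam; 0, 1]} = ⊤ ∧ ¬ (Fintype.card F = 9 ∧ lam ^ 2 = -1)) ∨ (Fintype.card F = 9 ∧ lam ^ 2 = -1 ∧ Nat.card ↥(Subgroup.closure {g : Matrix.SpecialLinearGroup (Fin 2) F | (g : Matrix (Fin 2) (Fin 2) F) = !![1, 0; 1, 1] ∨ (g : Matrix (Fin 2) (Fin 2) F) = !![1, lam; 0, 1]}) = 120) := by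
  classical
  obtain ⟨p, hp⟩ := CharP.exists F
  haveI : Fact p.Prime := ⟨CharP.char_is_prime F p⟩
  have hpp : p.Prime := Fact.out
  obtain ⟨n, -, hn⟩ := FiniteField.card F p
  have hp2 : p ≠ 2 := fun e => h2 (by subst e; exact_mod_cast CharP.cast_eq_zero F 2)
  have hodd : Odd (Fintype.card F) := hn ▸ (hpp.odd_of_ne_two hp2).pow
  obtain ⟨E, _, _, _, hE⟩ := exists_quadExt F
  have P := poles (F := F) (E := E) (p := p) hE
  let π : Matrix.SpecialLinearGroup (Fin 2) F →* PGL(2, F) :=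
    Matrix.ProjGenLinGroup.mk.comp Matrix.SpecialLinearGroup.toGL
  have hπr : π.range = Lsub F := rfl
  have hπ1 : ∀ g, π g = 1 → g = 1 ∨ g = -1 := by
    intro g hg
    obtain ⟨e1, e2, e3⟩ := (mk_eq_one_iff _).mp hg
    simp only [Matrix.SpecialLinearGroup.toGL, Units.val_mk, MonoidHom.coe_mk, OneHom.coe_mk] at e1 e2 e3
    have hd := g.2
    rw [det_fin_two] at hd
    have hsq : (g : Matrix (Fin 2) (Fin 2) F) 0 0 * (g : Matrix (Fin 2) (Fin 2) F) 0 0 = 1 := by
      rw [e1, zero_mul, sub_zero, ← e3] at hd; exact hd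
    rcases mul_self_eq_one_iff.mp hsq with h | h
    · left; ext i j; fin_cases i <;> fin_cases j <;> simp [e1, e2, h, ← e3]
    · right; ext i j; fin_cases i <;> fin_cases j <;> simp [e1, e2, h, ← e3]
  have hneg : π (-1) = 1 := by
    show ProjGenLinGroup.mk (Matrix.SpecialLinearGroup.toGL (-1 : Matrix.SpecialLinearGroup (Fin 2) F)) = 1
    rw [mk_eq_one_iff]
    exact ⟨by simp, by simp, by simp⟩
  have hker : π.ker ≤ Subgroup.zpowers (-1) := fun g hg => by
    rcases hπ1 g hg with rfl | rfl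
    · exact one_mem _
    · exact Subgroup.mem_zpowers _
  set H := Subgroup.closure {g : Matrix.SpecialLinearGroup (Fin 2) F | (g : Matrix (Fin 2) (Fin 2) F) = !![1, 0; 1, 1] ∨ (g : Matrix (Fin 2) (Fin 2) F) = !![1, lam; 0, 1]} with hH
  set X := H.map π with hX
  have hXL : X ≤ Lsub F := hπr ▸ Subgroup.map_le_range _ _
  let U : Matrix.SpecialLinearGroup (Fin 2) F := ⟨!![1, 0; 1, 1], by simp [det_fin_two]⟩
  let W : Matrix.SpecialLinearGroup (Fin 2) F := ⟨!![1, lam; 0, 1], by simp [det_fin_two]⟩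
  have hU : U ∈ H := Subgroup.subset_closure (Or.inl rfl)
  have hW : W ∈ H := Subgroup.subset_closure (Or.inr rfl)
  have hneg1 : (-1 : Matrix.SpecialLinearGroup (Fin 2) F) ≠ 1 := fun h => by
    have := congrFun (congrFun (congrArg Subtype.val h) 0) 0
    simp at this
    exact h2 (by linear_combination -this)
  have hinv : ∀ g : Matrix.SpecialLinearGroup (Fin 2) F, g * g = 1 → g = 1 ∨ g = -1 := by
    intro g hg
    have e := congrArg Subtype.val hg
    have hd := g.2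
    rw [det_fin_two] at hd
    have e00 := congrFun (congrFun e 0) 0
    have e01 := congrFun (congrFun e 0) 1
    have e10 := congrFun (congrFun e 1) 0
    simp [Matrix.mul_apply, Fin.sum_univ_two] at e00 e01 e10
    set M := (g : Matrix (Fin 2) (Fin 2) F)
    have k00 : M 0 0 * (M 0 0 + M 1 1) = 2 := by linear_combination e00 + hd
    have hs : M 0 0 + M 1 1 ≠ 0 := fun h => h2 (by rw [h, mul_zero] at k00; exact k00.symm)
    have z01 : M 0 1 = 0 := (mul_eq_zero.mp (show M 0 1 * (M 0 0 + M 1 1) = 0 by linear_combination e01)).resolve_right hs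
    have z10 : M 1 0 = 0 := (mul_eq_zero.mp (show M 1 0 * (M 0 0 + M 1 1) = 0 by linear_combination e10)).resolve_right hs
    rw [z01, z10] at hd e00
    have heq : M 0 0 = M 1 1 := by
      have hne0 : M 0 0 ≠ 0 := fun h => by rw [h] at hd; simp at hd
      exact mul_left_cancel₀ hne0 (by linear_combination e00 - hd)
    refine hπ1 g ?_
    show ProjGenLinGroup.mk (Matrix.SpecialLinearGroup.toGL g) = 1
    rw [mk_eq_one_iff]; exact ⟨z01, z10, heq⟩
  -- fixed points of the generators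
  have hUi : π U • (∞ : OnePoint F) ≠ ∞ := by
    show (ProjGenLinGroup.mk (Matrix.SpecialLinearGroup.toGL U) : PGL(2, F)) • _ ≠ _
    rw [mk_smul_self, OnePoint.smul_infty_def]
    simp [U, Matrix.SpecialLinearGroup.toGL]
  have hWi : π W • (∞ : OnePoint F) = ∞ := by
    show (ProjGenLinGroup.mk (Matrix.SpecialLinearGroup.toGL W) : PGL(2, F)) • _ = _
    rw [mk_smul_self, OnePoint.smul_infty_def]
    simp [W, Matrix.SpecialLinearGroup.toGL]
  have hW1 : π W ≠ 1 := fun h => by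
    obtain ⟨e1, -, -⟩ := (mk_eq_one_iff _).mp h
    exact hlam (by simpa [W, Matrix.SpecialLinearGroup.toGL] using e1)
  have hWp : π W ^ p = 1 := by
    have : ∀ k : ℕ, ((W ^ k : Matrix.SpecialLinearGroup (Fin 2) F) : Matrix (Fin 2) (Fin 2) F) = !![1, k * lam; 0, 1] := by
      intro k
      induction k with
      | zero => simp [Matrix.one_fin_two]
      | succ k ih =>
        rw [pow_succ, Matrix.SpecialLinearGroup.coe_mul, ih]
        ext i j; fin_cases i <;> fin_cases j <;> simp [W, Matrix.mul_apply, Fin.sum_univ_two]; ring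
    rw [← map_pow, show W ^ p = 1 from Subtype.ext (by rw [this, CharP.cast_eq_zero, zero_mul]; simp [Matrix.one_fin_two]), map_one]
  have hnofix : ∀ z : OnePoint E, ¬ ∀ g ∈ X, g • z = z := by
    intro z hz
    have e := P.pElem_fix hW1 hWp (x := inc E (∞ : OnePoint F)) (by rw [← inc_smul, hWi]) (hz _ ⟨W, hW, rfl⟩)
    subst e
    exact hUi (inc_injective (E := E) (by rw [inc_smul]; exact hz _ ⟨U, hU, rfl⟩))
  have hcardX : p ∣ Nat.card X := by
    rw [← orderOf_eq_prime hWp hW1]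
    exact Subgroup.orderOf_dvd_natCard _ ⟨W, hW, rfl⟩
  -- traces
  have tU : (((U : Matrix.SpecialLinearGroup (Fin 2) F) * W : Matrix.SpecialLinearGroup (Fin 2) F) : Matrix (Fin 2) (Fin 2) F).trace = 2 + lam := by
    rw [Matrix.SpecialLinearGroup.coe_mul, trace_fin_two]
    simp [U, W, Matrix.mul_apply, Fin.sum_univ_two]; ring
  have tUU : (((U * U * W : Matrix.SpecialLinearGroup (Fin 2) F)) : Matrix (Fin 2) (Fin 2) F).trace = 2 + 2 * lam := by
    rw [Matrix.SpecialLinearGroup.coe_mul, Matrix.SpecialLinearGroup.coe_mul, trace_fin_two]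
    simp [U, W, Matrix.mul_apply, Fin.sum_univ_two]; ring
  have hfull : X = Lsub F → H = ⊤ := fun h => by
    have hkerH : (-1 : Matrix.SpecialLinearGroup (Fin 2) F) ∈ H := by
      let R : Matrix.SpecialLinearGroup (Fin 2) F := ⟨!![0, 1; -1, 0], by simp [det_fin_two]⟩
      obtain ⟨r, hr, hr'⟩ : π R ∈ X := h ▸ ⟨R, rfl⟩
      have h1 : π (r⁻¹ * R) = 1 := by rw [map_mul, map_inv, hr', inv_mul_cancel]
      have hRR : R * R = -1 := Subtype.ext (by
        rw [Matrix.SpecialLinearGroup.coe_mul]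
        ext i j; fin_cases i <;> fin_cases j <;> simp [R, Matrix.mul_apply, Fin.sum_univ_two])
      rcases hπ1 _ h1 with e | e
      · rw [inv_mul_eq_one.mp e] at hr; exact hRR ▸ mul_mem hr hr
      · have e' : R = -r := by rw [inv_mul_eq_iff_eq_mul.mp e, mul_neg, mul_one]
        have := mul_mem hr hr
        rwa [← neg_mul_neg, ← e', hRR] at this
    refine eq_top_iff.mpr fun g _ => ?_
    obtain ⟨k, hk, hk'⟩ : π g ∈ X := h ▸ ⟨g, rfl⟩
    have h1 : π (k⁻¹ * g) = 1 := by rw [map_mul, map_inv, hk', inv_mul_cancel]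
    rcases hπ1 _ h1 with e | e
    · rw [← inv_mul_eq_one.mp e]; exact hk
    · rw [inv_mul_eq_iff_eq_mul.mp e]; exact mul_mem hk hkerH
  rcases classify (p := p) hE X with ⟨a, ha⟩ | ⟨u, v, -, -, ha⟩ | ⟨u, v, huv, k, hk, hkd, -, -, hc, -⟩ |
    ⟨hp', hc, -⟩ | ⟨hp', hc, -⟩ | ⟨hp', hc, e⟩ | ⟨K, γ, -, hK⟩
  · exact absurd (fun g hg => by rw [← inc_smul, ha hg]) (hnofix (inc E a))
  · exact absurd (fun g hg => (ha hg).1) (hnofix u)
  · exfalso
    rw [hc] at hcardX
    have h1 : p ∣ k := ((hpp.dvd_mul).mp hcardX).resolve_left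
      fun h => hp2 ((Nat.prime_dvd_prime_iff_eq hpp Nat.prime_two).mp h)
    have h3 : p ∣ Fintype.card F := hn ▸ dvd_pow_self _ n.pos.ne'
    have hpt : p ∣ Nat.card (torus F u v) := h1.trans hkd
    have hq := Fintype.card_pos (α := F)
    rcases card_torus_cases hE huv with e | e <;> rw [e] at hpt
    · have := Nat.dvd_sub h3 hpt
      rw [Nat.sub_sub_self hq] at this
      exact hpp.one_lt.ne' (Nat.dvd_one.mp this)
    · have := Nat.dvd_sub hpt h3
      rw [Nat.add_sub_cancel_left] at this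
      exact hpp.one_lt.ne' (Nat.dvd_one.mp this)
  · exact absurd (hc ▸ hcardX) hp'
  · exact absurd (hc ▸ hcardX) hp'
  · have hp3 : p = 3 := hp'.resolve_left (fun h => h (hc ▸ hcardX))
    subst hp3
    obtain ⟨e⟩ := e
    have h3F : (3 : F) = 0 := by exact_mod_cast CharP.cast_eq_zero F 3
    have hroot : ∀ g : Matrix.SpecialLinearGroup (Fin 2) F, g ∈ H → (g : Matrix (Fin 2) (Fin 2) F) 1 0 ≠ 0 →
        (g : Matrix (Fin 2) (Fin 2) F).trace = 0 ∨ (g : Matrix (Fin 2) (Fin 2) F).trace ^ 2 - 1 = 0 ∨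
          (g : Matrix (Fin 2) (Fin 2) F).trace ^ 4 + 1 = 0 := by
      intro g hg hg10
      have hd := g.2
      rw [det_fin_two] at hd
      set M := (g : Matrix (Fin 2) (Fin 2) F) with hMdef
      have hrel : ∀ r, π r = 1 → (r : Matrix (Fin 2) (Fin 2) F) 1 0 = 0 := fun r hr => ((mk_eq_one_iff _).mp hr).2.1
      have hor : π (g * g) = 1 ∨ π (g * g * g) = 1 ∨ π (g * g * g * g * g) = 1 := by
        have hm : π g ∈ X := ⟨g, hg, rfl⟩
        simp only [map_mul]
        rcases alt_five_orders (e ⟨π g, hm⟩) with h | h | h <;> simp only [← map_mul] at h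
        · exact Or.inl (congrArg Subtype.val (e.map_eq_one_iff.mp h))
        · exact Or.inr (Or.inl (congrArg Subtype.val (e.map_eq_one_iff.mp h)))
        · exact Or.inr (Or.inr (congrArg Subtype.val (e.map_eq_one_iff.mp h)))
      rcases hor with h | h | h
      · have := hrel _ h
        simp [Matrix.mul_apply, Fin.sum_univ_two] at this
        refine Or.inl ((mul_eq_zero.mp (show M 1 0 * M.trace = 0 by rw [trace_fin_two]; linear_combination this)).resolve_left hg10)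
      · have := hrel _ h
        simp [Matrix.mul_apply, Fin.sum_univ_two] at this
        refine Or.inr (Or.inl ((mul_eq_zero.mp (show M 1 0 * (M.trace ^ 2 - 1) = 0 by
          rw [trace_fin_two]; linear_combination this + (M 1 0) * hd)).resolve_left hg10))
      · have := hrel _ h
        simp [Matrix.mul_apply, Fin.sum_univ_two] at this
        refine Or.inr (Or.inr ((mul_eq_zero.mp (show M 1 0 * (M.trace ^ 4 + 1) = 0 by
          rw [trace_fin_two]
          linear_combination this + M 1 0 * (M 0 0 * M 1 1 - M 0 1 * M 1 0 + 1 +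
            (-3) * (M 0 0 + M 1 1) ^ 2) * (-hd) + M 1 0 * (M 0 0 + M 1 1) ^ 2 * h3F)).resolve_left hg10))
    have hU10 : ((U * W : Matrix.SpecialLinearGroup (Fin 2) F) : Matrix (Fin 2) (Fin 2) F) 1 0 ≠ 0 := by
      rw [Matrix.SpecialLinearGroup.coe_mul]
      simp [U, W, Matrix.mul_apply, Fin.sum_univ_two]
    have hUU10 : ((U * U * W : Matrix.SpecialLinearGroup (Fin 2) F) : Matrix (Fin 2) (Fin 2) F) 1 0 ≠ 0 := by
      rw [Matrix.SpecialLinearGroup.coe_mul, Matrix.SpecialLinearGroup.coe_mul]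
      simp [U, W, Matrix.mul_apply, Fin.sum_univ_two]
      rw [one_add_one_eq_two]; exact h2
    have r1 := hroot _ (mul_mem hU hW) hU10
    have r2 := hroot _ (mul_mem (mul_mem hU hU) hW) hUU10
    rw [tU] at r1
    rw [tUU] at r2
    have hdvd : 60 ∣ Nat.card (Lsub F) := hc ▸ Subgroup.card_dvd_of_le hXL
    have hq3 : ∀ x : F, x ^ 3 = x → x = lam → False := fun x hx hxl => by
      subst hxl
      obtain ⟨K, hK⟩ := exists_subfield 3 hn (one_dvd _) one_ne_zero
      have hxK : x ∈ K := mem_iff_pow.mpr (by rw [hK, pow_one]; exact hx)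
      have htop : K = ⊤ := eq_top_iff.mpr (hgen ▸ Subfield.closure_le.mpr (Set.singleton_subset_iff.mpr hxK))
      have hF3 : Fintype.card F = 3 := by
        rw [← Nat.card_eq_fintype_card, ← pow_one 3, ← hK, htop]
        exact (Nat.card_congr (Subfield.topEquiv (K := F)).toEquiv).symm
      have hL := two_card_L hodd
      rw [hF3, show 3 * (3 ^ 2 - 1) = 24 by rfl] at hL
      have := Nat.le_of_dvd Nat.card_pos hdvd
      omega
    have hsq : (1 + lam) ^ 4 + 1 = 0 := by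
      rcases r2 with r | r | r
      · exfalso
        have : lam = -1 := (mul_eq_zero.mp (show (2 : F) * (lam + 1) = 0 by linear_combination r)).resolve_left h2 |> eq_neg_of_add_eq_zero_left
        exact hq3 (-1) (by ring) this.symm
      · exfalso
        have : (lam + 1 - 1) * (lam + 1 + 1) = 0 := by linear_combination r - (lam + 1) ^ 2 * h3F
        rcases mul_eq_zero.mp this with h | h
        · exact hlam (by linear_combination h)
        · exact hq3 1 (by ring) (by linear_combination h3F - h)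
      · linear_combination r - 5 * (1 + lam) ^ 4 * h3F
    have hsq' : (2 + lam) ^ 4 + 1 = 0 := by
      rcases r1 with r | r | r
      · exact absurd (show (1 : F) = lam by linear_combination h3F - r) (fun h => hq3 1 (by ring) h)
      · exfalso
        have : (lam + 2 - 1) * (lam + 2 + 1) = 0 := by linear_combination r
        rcases mul_eq_zero.mp this with h | h
        · exact hq3 (-1) (by ring) (by linear_combination -h)
        · exact hlam (by linear_combination h - h3F)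
      · exact r
    have hl2 : lam ^ 2 = -1 := by
      have h8 : (2 : F) * 4 * (lam * (lam ^ 2 + 1)) = 0 := by
        linear_combination hsq - hsq' + (4 * lam ^ 3 + 6 * lam ^ 2 + 12 * lam + 5 + (0 : F)) * 0 +
          (((1 + lam) ^ 4 - (lam - 1) ^ 4) - ((1 + lam) ^ 4 - (lam - 1) ^ 4)) +
          ((4 * lam ^ 3 + 6 * lam ^ 2 + 12 * lam + 5)) * h3F
      have h4 : (4 : F) = 1 := by linear_combination h3F
      rw [h4, mul_one] at h8
      exact eq_neg_of_add_eq_zero_left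
        ((mul_eq_zero.mp ((mul_eq_zero.mp h8).resolve_left h2)).resolve_left hlam)
    have hF9 : Fintype.card F = 9 := by
      have hdd : 2 ∣ (n : ℕ) := by
        by_contra hnd
        have hodd' : Odd (n : ℕ) := Nat.odd_iff.mpr (by omega)
        obtain ⟨j, hj⟩ := hodd'
        have hs : IsSquare (-1 : F) := ⟨lam, by rw [← sq, hl2]⟩
        rw [FiniteField.isSquare_neg_one_iff, hn, hj, pow_succ, pow_mul, Nat.mul_mod, Nat.pow_mod] at hs
        norm_num at hs
      obtain ⟨K, hK⟩ := exists_subfield 3 hn hdd two_ne_zero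
      have hxK : lam ∈ K := mem_iff_pow.mpr (by
        rw [hK]
        calc lam ^ 3 ^ 2 = (lam ^ 2) ^ 4 * lam := by ring
          _ = lam := by rw [hl2]; ring)
      have htop : K = ⊤ := eq_top_iff.mpr (hgen ▸ Subfield.closure_le.mpr (Set.singleton_subset_iff.mpr hxK))
      rw [← Nat.card_eq_fintype_card, show (9 : ℕ) = 3 ^ 2 by norm_num, ← hK, htop]
      exact (Nat.card_congr (Subfield.topEquiv (K := F)).toEquiv).symm
    refine Or.inr ⟨hF9, hl2, ?_⟩
    have hkerH : π.ker ≤ H := by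
      obtain ⟨t, ht⟩ : ∃ t : alternatingGroup (Fin 5), t * t = 1 ∧ t ≠ 1 :=
        ⟨⟨c[0, 1] * c[2, 3], Equiv.Perm.mem_alternatingGroup.mpr (by decide +kernel)⟩, by decide +kernel, by decide +kernel⟩
      obtain ⟨h, hh, hh'⟩ := (e.symm t).2
      have h1 : π (h * h) = 1 := by
        rw [map_mul, hh', ← Subgroup.coe_mul, ← map_mul, ht.1, map_one, Subgroup.coe_one]
      have hh1 : h * h ≠ 1 := fun hs => by
        have := (hinv h hs)
        have hpi : π h = 1 := by rcases this with rfl | rfl <;> [exact map_one π; exact hneg]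
        exact ht.2 (e.symm.injective (by rw [map_one]; exact Subtype.ext (hh'.symm.trans hpi)))
      exact hker.trans (Subgroup.zpowers_le.mpr ((hπ1 _ h1).resolve_left hh1 ▸ mul_mem hh hh))
    have h1 := Subgroup.card_mul_index (π.ker.subgroupOf H)
    have hk2 : Nat.card π.ker = 2 := by
      rw [le_antisymm hker (Subgroup.zpowers_le.mpr hneg), Nat.card_zpowers]
      exact orderOf_eq_prime (by rw [pow_two, neg_mul_neg, one_mul]) hneg1
    rw [Nat.card_congr (Subgroup.subgroupOfEquivOfLe hkerH).toEquiv, hk2, ← Subgroup.relIndex,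
      Subgroup.relIndex_ker, hc] at h1
    exact h1.symm
  · refine Or.inl ?_
    have hXF : X = Lsub F := by
      by_cases hfull' : Nat.card K = Fintype.card F
      · exact eq_Lsub_of_full hodd hXL hfull' hK
      exfalso
      have hle : X.map (MulAut.conj γ).toMonoidHom ≤ subPGL K := by
        rcases hK with h | ⟨-, h⟩
        · exact h.le
        · exact h.le.trans (subPSL_le_subPGL K)
      have t1 := tr_mem (γ := γ) (g := U * W) (hle ⟨π (U * W), ⟨_, mul_mem hU hW, rfl⟩, rfl⟩)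
      have t2 := tr_mem (γ := γ) (g := U * U * W) (hle ⟨π (U * U * W), ⟨_, mul_mem (mul_mem hU hU) hW, rfl⟩, rfl⟩)
      rw [tU] at t1
      rw [tUU] at t2
      have h8 : (8 : F) ≠ 0 := by
        rw [show (8 : F) = 2 ^ 3 by norm_num]; exact pow_ne_zero 3 h2
      have hl : lam ∈ K := by
        have e : lam = (4 * (2 + lam) ^ 2 - (2 + 2 * lam) ^ 2 - 12) / 8 := by field_simp; ring
        rw [e]
        exact div_mem (sub_mem (sub_mem (mul_mem (natCast_mem K 4) t1) t2) (natCast_mem K 12)) (natCast_mem K 8)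
      have htop : K = ⊤ := eq_top_iff.mpr (hgen ▸ Subfield.closure_le.mpr (Set.singleton_subset_iff.mpr hl))
      refine hfull' ?_
      rw [htop, Nat.card_congr (Subfield.topEquiv (K := F)).toEquiv, Nat.card_eq_fintype_card]
    refine ⟨hfull hXF, fun h => ?_⟩
    obtain ⟨h9, hl⟩ := h
    obtain rfl : p = 3 := (Nat.prime_dvd_prime_iff_eq hpp Nat.prime_three).mp
      (hpp.dvd_of_dvd_pow (n := 2) (by rw [show 3 ^ 2 = 9 by norm_num, ← h9, hn]; exact dvd_pow_self _ n.pos.ne'))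
    have h120 := card_le lam hl
    rw [← hH, hfull hXF, Subgroup.card_top] at h120
    have hge := Nat.card_le_card_of_surjective π.rangeRestrict π.rangeRestrict_surjective
    rw [hπr] at hge
    have hL := two_card_L hodd
    rw [h9, show 9 * (9 ^ 2 - 1) = 720 by rfl] at hL
    omega

end Cfsg.Agent.S0801
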