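import Cfsg.Statements.S3335
import Cfsg.Agent.Lib.Carmichael.Basic
import Cfsg.Agent.Lib.Coprime.Basic

set_option autoImplicit false
open Cfsg
open scoped Pointwise

namespace Cfsg.Agent.S3335


open Equiv

/-- adjacent transposition shifted by one, as a natural-indexed family -/
def sw (n : ℕ) (hn : 3 ≤ n) (i : ℕ) : Perm (Fin n) :=
  if h : i + 2 < n then swap ⟨i + 1, by omega⟩ ⟨i + 2, h⟩ else 1

/-- the images of the generators -/
def img (n : ℕ) (hn : 3 ≤ n) (i : ℕ) : Perm (Fin n) :=
  swap ⟨0, by omega⟩ ⟨1, by omega⟩ * sw n hn i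

theorem disjoint_commute {n : ℕ} {a b c d : Fin n} (h1 : a ≠ c) (h2 : a ≠ d) (h3 : b ≠ c) (h4 : b ≠ d) :
    Commute (swap a b) (swap c d) := by
  refine Perm.Disjoint.commute ?_
  intro x
  by_cases hx : x = a ∨ x = b
  · right
    rcases hx with rfl | rfl
    · exact swap_apply_of_ne_of_ne h1 h2
    · exact swap_apply_of_ne_of_ne h3 h4
  · left
    push Not at hx
    exact swap_apply_of_ne_of_ne hx.1 hx.2

theorem tri {n : ℕ} {a b c : Fin n} (h1 : a ≠ b) (h2 : a ≠ c) (h3 : b ≠ c) :
    (swap a b * swap a c) ^ 3 = 1 := by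
  have h := (Perm.isThreeCycle_swap_mul_swap_same h1 h2 h3).orderOf
  rw [← h]
  exact pow_orderOf_eq_one _

theorem tri' {n : ℕ} {a b c : Fin n} (h1 : a ≠ b) (h2 : a ≠ c) (h3 : b ≠ c) :
    (swap a b * swap b c) ^ 3 = 1 := by
  rw [swap_comm a b]
  exact tri h1.symm h3 h2

theorem img_rel (n : ℕ) (hn : 3 ≤ n) : Lib.Carmichael.Rel (img n hn) (n - 2) := by
  set s : Perm (Fin n) := swap ⟨0, by omega⟩ ⟨1, by omega⟩ with hs
  have hss : s * s = 1 := Equiv.swap_mul_self _ _
  have hsw : ∀ i, 1 ≤ i → Commute s (sw n hn i) := by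
    intro i hi
    unfold sw
    split_ifs with h
    · refine disjoint_commute ?_ ?_ ?_ ?_ <;> simp [Fin.ext_iff] <;> omega
    · exact Commute.one_right _
  have hcc : ∀ i j, i + 1 < j → j + 2 < n → Commute (sw n hn i) (sw n hn j) := by
    intro i j hij hj
    rw [sw, sw, dif_pos (by omega : i + 2 < n), dif_pos hj]
    refine disjoint_commute ?_ ?_ ?_ ?_ <;> simp [Fin.ext_iff] <;> omega
  have hsq : ∀ i, sw n hn i * sw n hn i = 1 := by
    intro i
    unfold sw
    split_ifs
    · exact Equiv.swap_mul_self _ _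
    · simp
  have hbr : ∀ i j, (i = 0 ∨ 1 ≤ i) → 1 ≤ j → img n hn i * img n hn j =
      if i = 0 then (s * sw n hn 0 * s) * sw n hn j else sw n hn i * sw n hn j := by
    intro i j _ hj
    split_ifs with hi
    · subst hi; simp only [img, ← hs, mul_assoc]
    · simp only [img, ← hs]
      rw [(hsw i (by omega)).eq, mul_assoc, ← mul_assoc s s, hss, one_mul]
  have hconj : s * sw n hn 0 * s = swap ⟨0, by omega⟩ ⟨2, by omega⟩ := by
    rw [sw, dif_pos (by omega), hs]
    ext x
    simp only [Perm.mul_apply, swap_apply_def, Fin.ext_iff]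
    split_ifs <;> simp_all [Fin.ext_iff] <;> omega
  refine ⟨fun _ => ?_, fun i hi him => ?_, fun i hi => ?_, fun i j hij hj => ?_⟩
  · rw [img, sw, dif_pos (by omega)]
    refine tri' ?_ ?_ ?_ <;> simp [Fin.ext_iff]
  · rw [img, (hsw i hi).mul_pow, pow_two, pow_two, hsq]
    show s * s * 1 = 1
    rw [hss, one_mul]
  · rw [hbr i (i + 1) (by omega) (by omega)]
    split_ifs with hi0
    · subst hi0
      rw [hconj, sw, dif_pos (by omega)]
      refine tri' ?_ ?_ ?_ <;> simp [Fin.ext_iff]
    · rw [sw, sw, dif_pos (by omega), dif_pos (by omega)]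
      refine tri' ?_ ?_ ?_ <;> simp [Fin.ext_iff]
  · rw [hbr i j (by omega) (by omega)]
    split_ifs with hi0
    · subst hi0
      have hc : Commute (s * sw n hn 0 * s) (sw n hn j) := by
        rw [hconj, sw, dif_pos (by omega)]
        refine disjoint_commute ?_ ?_ ?_ ?_ <;> simp [Fin.ext_iff] <;> omega
      rw [hc.mul_pow, pow_two, pow_two, hsq,
        show s * sw n hn 0 * s * (s * sw n hn 0 * s) = s * (sw n hn 0 * (s * s) * sw n hn 0) * s by group,
        hss, mul_one, mul_one, hsq, mul_one, hss]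
    · rw [(hcc i j hij (by omega)).mul_pow, pow_two, pow_two, hsq, hsq, one_mul]


/-- A presentation of the alternating group of degree n ≥ 3 on generators x_1, …, x_{n−2} (indexed here by 0, …, n−3): the first generator cubes to 1, every other generator squares to 1, the product of two consecutive generators has order dividing 3, and the product of two generators at distance at least 2 has order dividing 2. The group so presented is isomorphic to the alternating group of degree n. -/
theorem result (n : ℕ) (hn : 3 ≤ n) :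
    Nonempty (PresentedGroup
      ({g : FreeGroup (Fin (n - 2)) | ∃ i : Fin (n - 2), i.val = 0 ∧ g = FreeGroup.of i ^ 3} ∪
       {g | ∃ i : Fin (n - 2), 1 ≤ i.val ∧ g = FreeGroup.of i ^ 2} ∪
       {g | ∃ i j : Fin (n - 2), j.val = i.val + 1 ∧ g = (FreeGroup.of i * FreeGroup.of j) ^ 3} ∪
       {g | ∃ i j : Fin (n - 2), i.val + 1 < j.val ∧ g = (FreeGroup.of i * FreeGroup.of j) ^ 2})
      ≃* alternatingGroup (Fin n)) := by
  classical
  set rels : Set (FreeGroup (Fin (n - 2))) := _ with hrels
  change Nonempty (PresentedGroup rels ≃* alternatingGroup (Fin n))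
  let x : ℕ → PresentedGroup rels := fun i => if h : i < n - 2 then PresentedGroup.of ⟨i, h⟩ else 1
  have hone : ∀ r ∈ rels, (PresentedGroup.mk rels r) = 1 := fun r hr => PresentedGroup.one_of_mem hr
  have hx : ∀ i (h : i < n - 2), x i = PresentedGroup.mk rels (FreeGroup.of ⟨i, h⟩) := fun i h => dif_pos h
  have hrel : Lib.Carmichael.Rel x (n - 2) := by
    refine ⟨fun h => ?_, fun i hi him => ?_, fun i hi => ?_, fun i j hij hj => ?_⟩
    · rw [hx 0 h, ← map_pow]
      exact hone _ (Or.inl (Or.inl (Or.inl ⟨⟨0, h⟩, rfl, rfl⟩)))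
    · rw [hx i him, ← map_pow]
      exact hone _ (Or.inl (Or.inl (Or.inr ⟨⟨i, him⟩, hi, rfl⟩)))
    · rw [hx i (by omega), hx (i + 1) hi, ← map_mul, ← map_pow]
      exact hone _ (Or.inl (Or.inr ⟨⟨i, by omega⟩, ⟨i + 1, hi⟩, rfl, rfl⟩))
    · rw [hx i (by omega), hx j hj, ← map_mul, ← map_pow]
      exact hone _ (Or.inr ⟨⟨i, by omega⟩, ⟨j, hj⟩, hij, rfl⟩)
  obtain ⟨T, hT, hcov⟩ := Lib.Carmichael.exists_cover (n - 2) hrel
  have htop : Subgroup.closure (x '' Set.Iio (n - 2)) = ⊤ := by
    rw [eq_top_iff, ← PresentedGroup.closure_range_of rels]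
    refine (Subgroup.closure_le _).mpr ?_
    rintro _ ⟨⟨i, hi⟩, rfl⟩
    exact Subgroup.subset_closure ⟨i, hi, dif_pos hi⟩
  rw [htop, Subgroup.coe_top] at hcov
  haveI hfin : Finite (PresentedGroup rels) :=
    Set.finite_univ_iff.mp ((T.finite_toSet).subset hcov)
  have hcard : 2 * Nat.card (PresentedGroup rels) ≤ n.factorial := by
    have h1 : Nat.card (PresentedGroup rels) ≤ T.card := by
      rw [← Set.ncard_univ, ← Set.ncard_coe_finset]
      exact Set.ncard_le_ncard hcov T.finite_toSet
    rw [show n - 2 + 2 = n by omega] at hT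
    omega
  -- the map to permutations
  have himg := img_rel n hn
  let g : Fin (n - 2) → Equiv.Perm (Fin n) := fun i => img n hn i
  have hg : ∀ r ∈ rels, FreeGroup.lift g r = 1 := by
    rintro r (((⟨i, hi, rfl⟩ | ⟨i, hi, rfl⟩) | ⟨i, j, hij, rfl⟩) | ⟨i, j, hij, rfl⟩)
    · simp only [map_pow, FreeGroup.lift_apply_of, g, hi]
      exact himg.cube (by omega)
    · simp only [map_pow, FreeGroup.lift_apply_of]
      exact himg.sq _ hi i.2
    · simp only [map_pow, map_mul, FreeGroup.lift_apply_of, g, hij]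
      exact himg.braid _ (by omega)
    · simp only [map_pow, map_mul, FreeGroup.lift_apply_of]
      exact himg.comm _ _ hij j.2
  let f : PresentedGroup rels →* Equiv.Perm (Fin n) := PresentedGroup.toGroup hg
  have hmem : ∀ i, i < n - 2 → img n hn i ∈ f.range := fun i hi =>
    ⟨PresentedGroup.of ⟨i, hi⟩, PresentedGroup.toGroup.of hg⟩
  have hle : f.range ≤ alternatingGroup (Fin n) := by
    rw [MonoidHom.range_eq_map, ← PresentedGroup.closure_range_of rels, MonoidHom.map_closure, Subgroup.closure_le]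
    rintro _ ⟨_, ⟨i, rfl⟩, rfl⟩
    rw [SetLike.mem_coe, show f (PresentedGroup.of i) = img n hn i from PresentedGroup.toGroup.of hg,
      Equiv.Perm.mem_alternatingGroup, img, sw, dif_pos (by omega), map_mul,
      Equiv.Perm.sign_swap (by simp [Fin.ext_iff]), Equiv.Perm.sign_swap (by simp [Fin.ext_iff])]
    simp
  set s : Equiv.Perm (Fin n) := Equiv.swap ⟨0, by omega⟩ ⟨1, by omega⟩ with hs
  have hindex : f.range.index ≤ 2 := by
    have hnorm : Subgroup.zpowers s ≤ Subgroup.normalizer (f.range : Set (Equiv.Perm (Fin n))) := by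
      rw [Subgroup.zpowers_le]
      refine Lib.Coprime.mem_normalizer_of_conj_smul_eq ?_
      have key : MulAut.conj s • f.range ≤ f.range := by
        rw [MonoidHom.range_eq_map, ← PresentedGroup.closure_range_of rels, MonoidHom.map_closure,
          Subgroup.smul_closure, Subgroup.closure_le]
        rintro _ ⟨_, ⟨_, ⟨i, rfl⟩, rfl⟩, rfl⟩
        rw [show f (PresentedGroup.of i) = img n hn i from PresentedGroup.toGroup.of hg]
        rw [← MonoidHom.map_closure, PresentedGroup.closure_range_of rels, ← MonoidHom.range_eq_map]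
        have h1 : (MulAut.conj s • img n hn i : Equiv.Perm (Fin n)) = (img n hn i)⁻¹ := by
          have hsi : sw n hn i * sw n hn i = 1 := by
            unfold sw
            split_ifs
            · exact Equiv.swap_mul_self _ _
            · simp
          change s * (s * sw n hn i) * s⁻¹ = (s * sw n hn i)⁻¹
          rw [mul_inv_rev, ← mul_assoc, Equiv.swap_mul_self, one_mul, inv_eq_of_mul_eq_one_right hsi]
        show MulAut.conj s • img n hn ↑i ∈ f.range; rw [h1]
        exact inv_mem (hmem i i.2)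
      refine Subgroup.eq_of_le_of_card_ge key ?_
      rw [Lib.Coprime.card_conj_smul]
    have htop' : f.range ⊔ Subgroup.zpowers s = ⊤ := by
      obtain ⟨k, rfl⟩ : ∃ k, n = k + 1 := ⟨n - 1, by omega⟩
      rw [eq_top_iff]
      intro p _
      have hp : p ∈ Submonoid.closure (Set.range fun i : Fin k => Equiv.swap i.castSucc i.succ) := by
        rw [Equiv.Perm.mclosure_swap_castSucc_succ]; exact Submonoid.mem_top p
      refine (Submonoid.closure_le (S := (f.range ⊔ Subgroup.zpowers s).toSubmonoid)).mpr ?_ hp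
      rintro _ ⟨i, rfl⟩
      dsimp only
      by_cases hi : (i : ℕ) = 0
      · refine Subgroup.mem_sup_right ?_
        have : Equiv.swap i.castSucc i.succ = s := by
          rw [hs]; congr 1 <;> simp [Fin.ext_iff, hi]
        rw [this]; exact Subgroup.mem_zpowers s
      · obtain ⟨j, hj⟩ : ∃ j, (i : ℕ) = j + 1 := ⟨(i : ℕ) - 1, by omega⟩
        have hk := i.2
        have h1 : Equiv.swap i.castSucc i.succ = s * img (k + 1) hn j := by
          rw [img, ← mul_assoc, hs, Equiv.swap_mul_self, one_mul, sw, dif_pos (by omega)]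
          congr 1 <;> simp [Fin.ext_iff, hj]
        rw [h1]
        exact mul_mem (Subgroup.mem_sup_right (Subgroup.mem_zpowers s)) (Subgroup.mem_sup_left (hmem j (by omega)))
    haveI : f.range.Normal := by
      rw [← Subgroup.normalizer_eq_top_iff, eq_top_iff, ← htop']
      exact sup_le Subgroup.le_normalizer hnorm
    rw [Subgroup.index_eq_card]
    refine le_trans (Nat.card_le_card_of_surjective (fun z : Subgroup.zpowers s => ((z : Equiv.Perm (Fin n)) : Equiv.Perm (Fin n) ⧸ f.range)) ?_) ?_
    · intro q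
      obtain ⟨p, rfl⟩ := QuotientGroup.mk_surjective q
      have : p ∈ f.range ⊔ Subgroup.zpowers s := htop' ▸ Subgroup.mem_top p
      obtain ⟨a, ha, b, hb, rfl⟩ := Subgroup.mem_sup_of_normal_left.mp this
      refine ⟨⟨b, hb⟩, ?_⟩
      change (b : Equiv.Perm (Fin n) ⧸ f.range) = _
      rw [QuotientGroup.mk_mul, (QuotientGroup.eq_one_iff a).mpr ha, one_mul]
    · rw [Nat.card_zpowers]
      exact Nat.le_of_dvd two_pos (orderOf_dvd_of_pow_eq_one (by rw [pow_two, hs, Equiv.swap_mul_self]))
  haveI : Nontrivial (Fin n) := Fin.nontrivial_iff_two_le.mpr (by omega)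
  have hA : 2 * Nat.card (alternatingGroup (Fin n)) = n.factorial := by
    rw [two_mul_nat_card_alternatingGroup, Nat.card_perm, Nat.card_fin]
  have hN : n.factorial ≤ 2 * Nat.card f.range := by
    have := f.range.card_mul_index
    rw [Nat.card_perm, Nat.card_fin] at this
    rw [← this, Nat.mul_comm 2]
    exact Nat.mul_le_mul_left _ hindex
  have hsur : Nat.card f.range ≤ Nat.card (PresentedGroup rels) :=
    Nat.card_le_card_of_surjective f.rangeRestrict f.rangeRestrict_surjective
  have heq : f.range = alternatingGroup (Fin n) := Subgroup.eq_of_le_of_card_ge hle (by omega)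
  have hinj : Function.Injective f.rangeRestrict := by
    refine ((Nat.bijective_iff_surjective_and_card _).mpr ⟨f.rangeRestrict_surjective, ?_⟩).1
    omega
  exact ⟨(MulEquiv.ofBijective f.rangeRestrict ⟨hinj, f.rangeRestrict_surjective⟩).trans
    (MulEquiv.subgroupCongr heq)⟩

end Cfsg.Agent.S3335
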