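import Cfsg.Statements.S0560
import Cfsg.Agent.Lib.Coprime.Product

set_option autoImplicit false
open Pointwise
open scoped Pointwise commutatorElement
open Cfsg

namespace Cfsg.Agent.S0560

/-- Let the finite group G be the product HK of two subgroups and p a prime. Then there are Sylow p-subgroups P of H and Q of K and a Sylow p-subgroup R of G whose underlying set is the product set of P and Q. -/
theorem result {G : Type*} [Group G] [Finite G] (H K : Subgroup G) (hHK : ∀ g : G, ∃ h ∈ H, ∃ k ∈ K, g = h * k) (p : ℕ) [Fact p.Prime] : ∃ (P : Sylow p H) (Q : Sylow p K) (R : Sylow p G), ((R : Subgroup G) : Set G) = (((P : Subgroup H).map H.subtype : Subgroup G) : Set G) * (((Q : Subgroup K).map K.subtype : Subgroup G) : Set G) := by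
  obtain ⟨P₀⟩ := (inferInstance : Nonempty (Sylow p H))
  obtain ⟨Q₀⟩ := (inferInstance : Nonempty (Sylow p K))
  obtain ⟨R₁, hR₁⟩ := (P₀.2.map H.subtype).exists_le_sylow
  obtain ⟨R₂, hR₂⟩ := (Q₀.2.map K.subtype).exists_le_sylow
  obtain ⟨c, hc⟩ := MulAction.exists_smul_eq G R₁ R₂
  obtain ⟨h₀, hh₀, k₀, hk₀, e⟩ := hHK c⁻¹
  -- `c = k * h`
  let h := h₀⁻¹
  let k := k₀⁻¹
  have hc' : c = k * h := by rw [← inv_inv c, e, mul_inv_rev]
  let R : Sylow p G := h • R₁
  let P : Sylow p H := (⟨h, H.inv_mem hh₀⟩ : H) • P₀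
  let Q : Sylow p K := (⟨k, K.inv_mem hk₀⟩ : K)⁻¹ • Q₀
  let P' : Subgroup G := (P : Subgroup H).map H.subtype
  let Q' : Subgroup G := (Q : Subgroup K).map K.subtype
  have hP : P' ≤ R := by
    show (MulAut.conj (⟨h, H.inv_mem hh₀⟩ : H) • (P₀ : Subgroup H)).map H.subtype ≤ MulAut.conj h • (R₁ : Subgroup G)
    rw [Lib.Coprime.map_conj_smul]
    exact Subgroup.pointwise_smul_le_pointwise_smul_iff.mpr hR₁
  have hQ : Q' ≤ R := by
    show (MulAut.conj (⟨k, K.inv_mem hk₀⟩ : K)⁻¹ • (Q₀ : Subgroup K)).map K.subtype ≤ MulAut.conj h • (R₁ : Subgroup G)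
    rw [Lib.Coprime.map_conj_smul]
    refine (Subgroup.pointwise_smul_le_pointwise_smul_iff.mpr hR₂).trans ?_
    rw [← hc]
    show MulAut.conj k⁻¹ • MulAut.conj c • (R₁ : Subgroup G) ≤ _
    rw [← Lib.Coprime.conj_smul_mul, hc', inv_mul_cancel_left]
  refine ⟨P, Q, R, (Set.eq_of_subset_of_ncard_le ?_ ?_).symm⟩
  · rintro _ ⟨x, hx, y, hy, rfl⟩
    exact (R : Subgroup G).mul_mem (hP hx) (hQ hy)
  · rw [← Nat.card_coe_set_eq, ← Nat.card_coe_set_eq]
    have h1 := Lib.Coprime.card_coe_mul_mul_card_inf P' Q'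
    have h2 : Nat.card ((H : Set G) * (K : Set G) : Set G) = Nat.card G := by
      rw [show (H : Set G) * (K : Set G) = Set.univ from Set.eq_univ_of_forall fun x => by
        obtain ⟨a, ha, b, hb, rfl⟩ := hHK x; exact Set.mul_mem_mul ha hb, Nat.card_coe_set_eq, Set.ncard_univ]
    have h3 := Lib.Coprime.card_coe_mul_mul_card_inf H K
    rw [h2] at h3
    have hP' : Nat.card P' = p ^ (Nat.card H).factorization p := by
      rw [← P.card_eq_multiplicity]
      exact Nat.card_congr (Subgroup.equivMapOfInjective _ _ H.subtype_injective).toEquiv.symm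
    have hQ' : Nat.card Q' = p ^ (Nat.card K).factorization p := by
      rw [← Q.card_eq_multiplicity]
      exact Nat.card_congr (Subgroup.equivMapOfInjective _ _ K.subtype_injective).toEquiv.symm
    obtain ⟨i, hi⟩ := IsPGroup.iff_card.mp
      ((P.2.map H.subtype).to_inf_left : IsPGroup p (P' ⊓ Q' : Subgroup G))
    have hd : p ^ i ∣ Nat.card (H ⊓ K : Subgroup G) :=
      hi ▸ Subgroup.card_dvd_of_le (inf_le_inf (Subgroup.map_subtype_le _) (Subgroup.map_subtype_le _))
    have hle : i ≤ (Nat.card (H ⊓ K : Subgroup G)).factorization p :=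
      ((Fact.out : p.Prime).pow_dvd_iff_le_factorization Nat.card_pos.ne').mp hd
    have h4 := congrArg (fun n => n.factorization p) h3
    simp only [Nat.factorization_mul Nat.card_pos.ne' Nat.card_pos.ne', Finsupp.add_apply] at h4
    rw [show Nat.card ((R : Subgroup G) : Set G) = Nat.card R from rfl, R.card_eq_multiplicity]
    refine Nat.le_of_mul_le_mul_right ?_ (pow_pos (Fact.out : p.Prime).pos i)
    rw [← hi, h1, hi, hP', hQ', ← pow_add, ← pow_add]
    exact Nat.pow_le_pow_right (Fact.out : p.Prime).pos (by omega)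

end Cfsg.Agent.S0560
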