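import Cfsg.Statements.S0992
import Cfsg.Agent.Lib.SmallSimple.Basic

set_option autoImplicit false
open Cfsg

namespace Cfsg.Agent.S0992

/-- Let G be a non-abelian finite simple group of even order not divisible by 8, and T a Sylow 2-subgroup. Then T is a Klein four-group and the centralizer of T has index 3 in the normalizer of T. -/
theorem result {G : Type*} [Group G] [Finite G] [IsSimpleGroup G] (hG : ¬ IsMulCommutative G) (h2 : Even (Nat.card G)) (h8 : ¬ 8 ∣ Nat.card G) (T : Sylow 2 G) : IsKleinFour ↥(T : Subgroup G) ∧ (Subgroup.centralizer ((T : Subgroup G) : Set G)).relIndex (Subgroup.normalizer ((T : Subgroup G) : Set G)) = 3 := by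
  classical
  have : Fact (Nat.Prime 2) := ⟨Nat.prime_two⟩
  have hd : 2 ∣ Nat.card G := even_iff_two_dvd.1 h2
  obtain ⟨a, ha⟩ := T.isPGroup'.exists_card_eq
  have ha1 : 1 ≤ a := by
    by_contra h0
    refine T.ne_bot_of_dvd_card hd (Subgroup.card_eq_one.1 ?_)
    rw [ha, show a = 0 by omega, pow_zero]
  have ha2 : a ≤ 2 := by
    by_contra hgt
    refine h8 (dvd_trans ?_ (T : Subgroup G).card_subgroup_dvd_card)
    rw [ha]; exact pow_dvd_pow 2 (show 3 ≤ a by omega)
  have hab : IsMulCommutative (T : Subgroup G) := by
    interval_cases a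
    · have := isCyclic_of_prime_card (α := (T : Subgroup G)) (p := 2) (by simpa using ha)
      infer_instance
    · exact Lib.SmallSimple.isMulCommutative_of_card_prime_sq (p := 2) _ ha
  set N := Subgroup.normalizer ((T : Subgroup G) : Set G)
  set C := Subgroup.centralizer ((T : Subgroup G) : Set G)
  have hTC : (T : Subgroup G) ≤ C := Subgroup.le_centralizer _
  have hodd : ¬ 2 ∣ C.relIndex N := fun h => T.not_dvd_index
    (h.trans ((Subgroup.relIndex_dvd_of_le_left _ hTC).trans (Subgroup.relIndex_dvd_index_of_le Subgroup.le_normalizer)))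
  have hNC : C.relIndex N ≠ 1 := fun h =>
    Lib.SmallSimple.not_normalizer_le_centralizer hG T hd (Subgroup.relIndex_eq_one.1 h)
  have hker : C.relIndex N ∣ Nat.card (MulAut (T : Subgroup G)) := by
    have key := Subgroup.card_dvd_of_injective _
      (QuotientGroup.kerLift_injective (T : Subgroup G).normalizerMonoidHom)
    rwa [Subgroup.normalizerMonoidHom_ker, ← Subgroup.index, ← Subgroup.relIndex] at key
  have hcyc : ¬ IsCyclic (T : Subgroup G) := by
    intro hc
    rw [hc.card_mulAut, ha] at hker
    interval_cases a
    · exact hNC (Nat.dvd_one.1 (by simpa using hker))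
    · have h2' : Nat.totient (2 ^ 2) = 2 := rfl
      rw [h2'] at hker
      rcases (Nat.dvd_prime Nat.prime_two).1 hker with h | h
      · exact hNC h
      · exact hodd (dvd_of_eq h.symm)
  have ha' : a = 2 := by
    by_contra h
    obtain rfl : a = 1 := by omega
    exact hcyc (isCyclic_of_prime_card (p := 2) (by simpa using ha))
  subst ha'
  have hk4 : IsKleinFour (T : Subgroup G) := ⟨by simpa using ha, by
    have hdvd : Monoid.exponent (T : Subgroup G) ∣ 4 := by
      have := Group.exponent_dvd_nat_card (G := (T : Subgroup G))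
      simpa [ha] using this
    obtain ⟨j, hj, hje⟩ := (Nat.dvd_prime_pow Nat.prime_two (m := 2)).1 (by simpa using hdvd)
    interval_cases j
    · rw [pow_zero, Monoid.exp_eq_one_iff] at hje
      exact absurd (isCyclic_of_subsingleton) hcyc
    · simpa using hje
    · letI : CommGroup (T : Subgroup G) := { (inferInstance : Group (T : Subgroup G)) with mul_comm := hab.is_comm.comm }
      have := IsCyclic.iff_exponent_eq_card (α := (T : Subgroup G))
      exact absurd (this.2 (hje.trans ha.symm)) hcyc⟩
  refine ⟨hk4, ?_⟩
  have h6 : C.relIndex N ∣ 6 := by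
    refine hker.trans ?_
    let f : MulAut (T : Subgroup G) →* Equiv.Perm {t : (T : Subgroup G) // t ≠ 1} :=
      { toFun := fun s => s.toEquiv.subtypeEquiv (fun t => by simp)
        map_one' := by ext; rfl
        map_mul' := fun _ _ => by ext; rfl }
    have hf : Function.Injective f := by
      intro s t hst
      refine MulEquiv.ext fun x => ?_
      by_cases hx : x = 1
      · simp [hx]
      · exact congrArg Subtype.val (Equiv.ext_iff.1 hst ⟨x, hx⟩)
    refine (Subgroup.card_dvd_of_injective f hf).trans (dvd_of_eq ?_)
    have : Fintype (T : Subgroup G) := Fintype.ofFinite _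
    rw [Nat.card_perm, Nat.card_eq_fintype_card, Fintype.card_subtype_compl, Fintype.card_subtype_eq,
      ← Nat.card_eq_fintype_card, ha]
    rfl
  have hle := Nat.le_of_dvd (by norm_num) h6
  generalize C.relIndex N = n at *
  interval_cases n <;> omega

end Cfsg.Agent.S0992
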