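import Cfsg.Statements.S4200
import Mathlib
-- import your own Cfsg.Agent.* helpers here

set_option autoImplicit false
open Cfsg

namespace Cfsg.Agent.S4200

open scoped Classical in
lemma pairs_eq {X : Type*} [Group X] [Finite X] :
    Nat.card {p : X × X // Commute p.1 p.2} = Nat.card (ConjClasses X) * Nat.card X := card_comm_eq_card_conjClasses_mul_card X

/-- Let Y be a subgroup of the finite group X, of index m. Then the numbers of conjugacy classes satisfy k(Y) ≤ m·k(X) and k(X) ≤ m·k(Y), and the second inequality is strict unless Y is normal in X. -/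
theorem result {X : Type*} [Group X] [Finite X] (Y : Subgroup X) : Nat.card (ConjClasses Y) ≤ Y.index * Nat.card (ConjClasses X) ∧ Nat.card (ConjClasses X) ≤ Y.index * Nat.card (ConjClasses Y) ∧ (¬ Y.Normal → Nat.card (ConjClasses X) < Y.index * Nat.card (ConjClasses Y)) := by
  classical
  have hm : 0 < Y.index := Nat.pos_of_ne_zero Subgroup.FiniteIndex.index_ne_zero
  have hX : 0 < Nat.card X := Nat.card_pos
  have hY : 0 < Nat.card Y := Nat.card_pos
  set PX := Nat.card {p : X × X // Commute p.1 p.2}
  set PY := Nat.card {p : Y × Y // Commute p.1 p.2}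
  set PM := Nat.card {p : X × Y // Commute p.1 (p.2 : X)}
  -- one step: at most `index` times as many partners
  have hstep : ∀ x : X, Nat.card ↥(Subgroup.centralizer ({x} : Set X)) ≤ Y.index * Nat.card ↥(Y ⊓ Subgroup.centralizer ({x} : Set X)) ∧
      (Nat.card ↥(Subgroup.centralizer ({x} : Set X)) = Y.index * Nat.card ↥(Y ⊓ Subgroup.centralizer ({x} : Set X)) → Y.relIndex (Subgroup.centralizer ({x} : Set X)) = Y.index) := by
    intro x
    set C := Subgroup.centralizer ({x} : Set X)
    have h1 : Nat.card C = Y.relIndex C * Nat.card ↥(Y ⊓ C) := by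
      rw [Subgroup.relIndex, ← (Y.subgroupOf C).index_mul_card, ← Subgroup.inf_subgroupOf_right,
        Nat.card_congr (Subgroup.subgroupOfEquivOfLe (inf_le_right : Y ⊓ C ≤ C)).toEquiv]
    have h2 : Y.relIndex C ≤ Y.index := (Subgroup.relIndex_le_of_le_right le_top (by simp [Subgroup.FiniteIndex.index_ne_zero])).trans (le_of_eq Y.relIndex_top_right)
    refine ⟨h1 ▸ Nat.mul_le_mul_right _ h2, fun e => ?_⟩
    rw [h1] at e
    exact Nat.eq_of_mul_eq_mul_right Nat.card_pos e
  have eX : PX = ∑ᶠ x : X, Nat.card ↥(Subgroup.centralizer ({x} : Set X)) := by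
    have : Fintype X := Fintype.ofFinite X
    rw [finsum_eq_sum_of_fintype, ← Nat.card_sigma]
    exact Nat.card_congr
      { toFun := fun p => ⟨p.1.1, p.1.2, Subgroup.mem_centralizer_singleton_iff.2 p.2.eq.symm⟩
        invFun := fun s => ⟨(s.1, s.2.1), (Subgroup.mem_centralizer_singleton_iff.1 s.2.2).symm⟩
        left_inv := fun _ => rfl
        right_inv := fun _ => rfl }
  have eM : PM = ∑ᶠ x : X, Nat.card ↥(Y ⊓ Subgroup.centralizer ({x} : Set X)) := by
    have : Fintype X := Fintype.ofFinite X
    rw [finsum_eq_sum_of_fintype, ← Nat.card_sigma]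
    exact Nat.card_congr
      { toFun := fun p => ⟨p.1.1, p.1.2.1, p.1.2.2, Subgroup.mem_centralizer_singleton_iff.2 p.2.eq.symm⟩
        invFun := fun s => ⟨(s.1, ⟨s.2.1, s.2.2.1⟩), (Subgroup.mem_centralizer_singleton_iff.1 s.2.2.2).symm⟩
        left_inv := fun _ => rfl
        right_inv := fun _ => rfl }
  have eM' : PM = ∑ᶠ y : Y, Nat.card ↥(Subgroup.centralizer ({(y : X)} : Set X)) := by
    have : Fintype Y := Fintype.ofFinite Y
    rw [finsum_eq_sum_of_fintype, ← Nat.card_sigma]
    exact Nat.card_congr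
      { toFun := fun p => ⟨p.1.2, p.1.1, Subgroup.mem_centralizer_singleton_iff.2 p.2.eq⟩
        invFun := fun s => ⟨(s.2.1, s.1), Subgroup.mem_centralizer_singleton_iff.1 s.2.2⟩
        left_inv := fun _ => rfl
        right_inv := fun _ => rfl }
  have eY : PY = ∑ᶠ y : Y, Nat.card ↥(Y ⊓ Subgroup.centralizer ({(y : X)} : Set X)) := by
    have : Fintype Y := Fintype.ofFinite Y
    rw [finsum_eq_sum_of_fintype, ← Nat.card_sigma]
    exact Nat.card_congr
      { toFun := fun p => ⟨p.1.1, p.1.2, p.1.2.2, Subgroup.mem_centralizer_singleton_iff.2 (congrArg Subtype.val p.2.eq).symm⟩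
        invFun := fun s => ⟨(s.1, ⟨s.2.1, s.2.2.1⟩), Subtype.ext (Subgroup.mem_centralizer_singleton_iff.1 s.2.2.2).symm⟩
        left_inv := fun _ => rfl
        right_inv := fun _ => rfl }
  have : Fintype X := Fintype.ofFinite X
  have : Fintype Y := Fintype.ofFinite Y
  rw [finsum_eq_sum_of_fintype] at eX eM eM' eY
  have h1 : PX ≤ Y.index * PM := by rw [eX, eM, Finset.mul_sum]; exact Finset.sum_le_sum fun x _ => (hstep x).1
  have h2 : PM ≤ Y.index * PY := by rw [eM', eY, Finset.mul_sum]; exact Finset.sum_le_sum fun y _ => (hstep y).1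
  have hYX : PY ≤ PX := Nat.card_le_card_of_injective (fun p => (⟨((p.1.1 : X), (p.1.2 : X)), congrArg Subtype.val p.2.eq⟩ : {p : X × X // Commute p.1 p.2}))
    (fun p q e => by
      have := congrArg Subtype.val e
      simp only [Prod.mk.injEq] at this
      exact Subtype.ext (Prod.ext (Subtype.ext this.1) (Subtype.ext this.2)))
  have hcX : Nat.card X = Y.index * Nat.card Y := Y.index_mul_card.symm
  have kX : PX = Nat.card (ConjClasses X) * Nat.card X := pairs_eq
  have kY : PY = Nat.card (ConjClasses Y) * Nat.card Y := pairs_eq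
  refine ⟨?_, ?_, ?_⟩
  · rw [kX, kY, hcX] at hYX
    refine Nat.le_of_mul_le_mul_right ?_ hY
    linarith
  · have := h1.trans (Nat.mul_le_mul_left _ h2)
    rw [kX, kY, hcX] at this
    refine Nat.le_of_mul_le_mul_right ?_ (Nat.mul_pos hm hY)
    linarith
  · intro hn
    have h2' : PM < Y.index * PY := by
      refine lt_of_le_of_ne h2 fun e => hn ⟨fun y hy g => ?_⟩
      rw [eM', eY, Finset.mul_sum] at e
      have he := (hstep y).2 ((Finset.sum_eq_sum_iff_of_le fun (y : Y) _ => (hstep y).1).1 e ⟨y, hy⟩ (Finset.mem_univ _))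
      set C := Subgroup.centralizer ({y} : Set X)
      -- the centraliser covers every coset of Y
      let f : C ⧸ Y.subgroupOf C → X ⧸ Y := Quotient.map' (fun c => (c : X)) fun c d e => by
        rw [QuotientGroup.leftRel_apply] at e ⊢
        simpa [Subgroup.mem_subgroupOf] using e
      have hf : Function.Injective f := by
        intro u v
        refine Quotient.inductionOn₂' u v fun c d e => Quotient.sound' ?_
        have e' := Quotient.eq''.1 e
        rw [QuotientGroup.leftRel_apply] at e' ⊢
        simpa [Subgroup.mem_subgroupOf] using e'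
      obtain ⟨q, hq⟩ := ((Nat.bijective_iff_injective_and_card f).2 ⟨hf, he⟩).2 (QuotientGroup.mk g⁻¹)
      obtain ⟨c, rfl⟩ := Quotient.exists_rep q
      have e1 : (c : X)⁻¹ * g⁻¹ ∈ Y := QuotientGroup.eq.1 hq
      have hc : (c : X) * y * (c : X)⁻¹ = y := by rw [Subgroup.mem_centralizer_singleton_iff.1 c.2]; group
      set w := (c : X)⁻¹ * g⁻¹
      rw [show g * y * g⁻¹ = w⁻¹ * y * w by
        calc g * y * g⁻¹ = w⁻¹ * ((c : X)⁻¹ * y * c) * w := by simp only [w]; group
          _ = w⁻¹ * ((c : X)⁻¹ * ((c : X) * y * (c : X)⁻¹) * c) * w := by rw [hc]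
          _ = _ := by group]
      exact mul_mem (mul_mem (inv_mem e1) hy) e1
    have h3 : PX < Y.index * (Y.index * PY) := lt_of_le_of_lt h1 (Nat.mul_lt_mul_of_pos_left h2' hm)
    rw [kX, kY, hcX] at h3
    refine Nat.lt_of_mul_lt_mul_right (a := Y.index * Nat.card Y) ?_
    linarith

end Cfsg.Agent.S4200
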