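import Cfsg.Statements.S0519
import Cfsg.Agent.S0636
import Cfsg.Agent.Lib.Fusion.MetaTwoGroup
import Cfsg.Agent.Lib.Thompson.MaxClass
import Cfsg.Agent.Lib.OddLocal.SCN

set_option autoImplicit false
open Cfsg

namespace Cfsg.Agent.S0519

/-- Let P be a finite p-group in which every abelian normal subgroup is cyclic, but which has a non-cyclic abelian
subgroup. Then p = 2 and P is generalized quaternion, dihedral of order at least 16, or quasi-dihedral. -/
theorem result {P : Type*} [Group P] [Finite P] (p : ℕ) [Fact p.Prime]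
    (hP : IsPGroup p P) (hn : ∀ A : Subgroup P, A.Normal → IsMulCommutative A → IsCyclic A)
    (hm : ∃ B : Subgroup P, IsMulCommutative B ∧ ¬ IsCyclic B) :
    p = 2 ∧ ((∃ n : ℕ, Nonempty (P ≃* QuaternionGroup n)) ∨ (∃ n : ℕ, 8 ≤ n ∧ Nonempty (P ≃* DihedralGroup n)) ∨
      Cfsg.IsQuasiDihedral P) := by
  obtain ⟨B, hBc, hBn⟩ := hm
  have hnc : ¬ IsCyclic P := fun h => hBn inferInstance
  have hp : p = 2 := by
    by_contra hp
    obtain ⟨A, -, hAn, hA, hAc⟩ := S0636.result hp hP ⊤ (fun h => hnc (Subgroup.topEquiv.isCyclic.mp h))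
    have hcyc := hn A hAn hA.1
    obtain ⟨g, hg⟩ := IsCyclic.exists_ofOrder_eq_natCard (α := ↥A)
    have h1 : orderOf g ∣ p := orderOf_dvd_of_pow_eq_one (Subtype.ext (hA.2 g g.2))
    rw [hg, hAc] at h1
    have h2 := Nat.le_of_dvd (Fact.out : p.Prime).pos h1
    have h3 : p ^ 1 < p ^ 2 := Nat.pow_lt_pow_right (Fact.out : p.Prime).one_lt (by norm_num)
    rw [pow_one] at h3
    omega
  subst hp
  refine ⟨rfl, ?_⟩
  obtain ⟨A, -, hAn, hAc, hCA⟩ := Lib.OddLocal.exists_selfCentralizing_normal hP ⊥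
    (⟨⟨fun a b => Subtype.ext (by rw [Subgroup.coe_mul, Subgroup.coe_mul, Subgroup.mem_bot.mp a.2,
      Subgroup.mem_bot.mp b.2])⟩⟩)
  have hAcyc := hn A hAn hAc
  obtain ⟨a, ha⟩ := (Subgroup.isCyclic_iff_exists_zpowers_eq_top A).mp hAcyc
  obtain ⟨n, hao⟩ := IsPGroup.iff_orderOf.mp hP a
  have hd : ∀ i : ℤ, a ^ i = 1 ↔ (2 : ℤ) ^ n ∣ i := fun i => by
    rw [← orderOf_dvd_iff_zpow_eq_one, hao]; norm_num
  have hcent : ∀ g : P, g * a * g⁻¹ = a → g ∈ A := fun g hg => by
    rw [← hCA, Subgroup.mem_centralizer_iff]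
    intro y hy
    rw [SetLike.mem_coe, ← ha] at hy
    obtain ⟨i, rfl⟩ := hy
    exact ((show Commute g a from mul_inv_eq_iff_eq_mul.mp hg).zpow_right i).eq.symm
  have hr : ∀ g : P, ∃ r : ℤ, g * a * g⁻¹ = a ^ r := fun g => by
    have : g * a * g⁻¹ ∈ A := hAn.conj_mem a (ha ▸ Subgroup.mem_zpowers a) g
    rw [← ha] at this
    obtain ⟨r, hr⟩ := this
    exact ⟨r, hr.symm⟩
  have hcomp : ∀ (g h : P) (r s : ℤ), g * a * g⁻¹ = a ^ r → h * a * h⁻¹ = a ^ s →
      (g * h) * a * (g * h)⁻¹ = a ^ (r * s) := fun g h r s hg hh => by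
    rw [← Lib.Thompson.conj_zpow_of_eq hg s, ← hh]; group
  have hone : ∀ (g : P) (r : ℤ), g * a * g⁻¹ = a ^ r → (2 : ℤ) ^ n ∣ r - 1 → g ∈ A := fun g r hg h => by
    refine hcent g ?_
    rw [hg, ← mul_inv_eq_one, ← zpow_sub_one]
    exact (hd _).mpr h
  have hn2 : 2 ≤ n := by
    by_contra hlt
    have hAtop : A = ⊤ := by
      refine eq_top_iff.mpr fun g _ => hcent g ?_
      obtain ⟨r, hgr⟩ := hr g
      rcases Nat.le_one_iff_eq_zero_or_eq_one.mp (by omega : n ≤ 1) with rfl | rfl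
      · rw [pow_zero, orderOf_eq_one_iff] at hao
        simp [hao]
      · rcases Int.even_or_odd' r with ⟨t, rfl | rfl⟩
        · exfalso
          have : a ^ (2 * t) = 1 := (hd _).mpr ⟨t, by ring⟩
          rw [this, mul_inv_eq_one, mul_eq_left] at hgr
          rw [hgr, orderOf_one] at hao
          norm_num at hao
        · rw [hgr, ← mul_inv_eq_one, ← zpow_sub_one]
          exact (hd _).mpr ⟨t, by ring⟩
    exact hnc (Subgroup.topEquiv.isCyclic.mp (hAtop ▸ hAcyc))
  obtain ⟨j, rfl⟩ := Nat.exists_eq_add_of_le hn2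
  -- no element acts as the modular automorphism
  have hforb : ∀ (g : P) (r : ℤ), g * a * g⁻¹ = a ^ r → g ^ 2 ∈ A → 1 ≤ j →
      ¬ (2 : ℤ) ^ (2 + j) ∣ r - 1 - 2 ^ (j + 1) := by
    intro g r hgr hg2 hj hd'
    obtain ⟨i, rfl⟩ := Nat.exists_eq_add_of_le hj
    obtain ⟨c, hc⟩ := hd'
    rw [← ha] at hg2
    obtain ⟨s, hs⟩ := hg2
    have hs' : a ^ s = g ^ 2 := hs
    have hrs : a ^ (r * s) = a ^ s := by
      rw [← Lib.Thompson.conj_zpow_of_eq hgr s, hs']; group
    obtain ⟨t, rfl⟩ : (2 : ℤ) ∣ s := by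
      obtain ⟨d, hd''⟩ := (hd _).mp (by rw [zpow_sub, hrs, mul_inv_cancel] : a ^ (r * s - s) = 1)
      refine ⟨d - c * s, mul_left_cancel₀ (pow_ne_zero (i + 2) (two_ne_zero' ℤ)) ?_⟩
      have e1 : (2 : ℤ) ^ (2 + (1 + i)) = 2 * 2 ^ (i + 2) := by rw [← pow_succ']; ring_nf
      have e2 : (2 : ℤ) ^ (1 + i + 1) = 2 ^ (i + 2) := by ring_nf
      rw [e1] at hd'' hc
      rw [e2] at hc
      have : r * s - s = (2 ^ (i + 2) + 2 * 2 ^ (i + 2) * c) * s := by rw [← hc]; ring
      linear_combination hd'' - this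
    let z := a ^ ((2 : ℤ) ^ (2 + i))
    let u : ℤ := -t * (1 - 2 ^ (1 + i))
    let b := g * a ^ u
    have hb2 : b ^ 2 = 1 := by
      have : (g * a ^ u) ^ 2 = (g * a ^ u * g⁻¹) * g ^ 2 * a ^ u := by rw [sq, sq]; group
      show (g * a ^ u) ^ 2 = 1
      rw [this, Lib.Thompson.conj_zpow_of_eq hgr, ← hs', ← zpow_add, ← zpow_add, hd]
      refine ⟨c * u + t * 2 ^ i, ?_⟩
      rw [show r = 2 ^ (2 + (1 + i)) * c + 1 + 2 ^ (1 + i + 1) by linarith]
      simp only [u, pow_add, pow_succ]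
      ring
    have hbA : b ∉ A := fun hb => by
      have hgA : g ∈ A := by
        have := mul_mem hb (inv_mem (zpow_mem (ha ▸ Subgroup.mem_zpowers a : a ∈ A) u))
        rwa [mul_inv_cancel_right] at this
      rw [← hCA] at hgA
      have h1 : a ^ r = a := by
        rw [← hgr, mul_inv_eq_iff_eq_mul]
        exact (Subgroup.mem_centralizer_iff.mp hgA a (ha ▸ Subgroup.mem_zpowers a)).symm
      obtain ⟨q, hq⟩ := (hd _).mp (by rw [zpow_sub_one, h1, mul_inv_cancel] : a ^ (r - 1) = 1)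
      have h2 : (2 : ℤ) ^ (1 + i + 1) * 1 = 2 ^ (1 + i + 1) * (2 * (q - c)) := by
        have e1 : (2 : ℤ) ^ (2 + (1 + i)) = 2 * 2 ^ (1 + i + 1) := by rw [← pow_succ']; ring_nf
        rw [e1] at hq hc
        linear_combination hq - hc
      have := mul_left_cancel₀ (pow_ne_zero _ (two_ne_zero' ℤ)) h2
      omega
    have hbr : b * a * b⁻¹ = a ^ r := by rw [← hgr]; show g * a ^ u * a * (g * a ^ u)⁻¹ = _; group
    have hz2 : z ^ 2 = 1 := by
      show (a ^ ((2 : ℤ) ^ (2 + i))) ^ 2 = 1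
      rw [← zpow_natCast, ← zpow_mul, hd]
      exact ⟨1, by simp only [pow_add]; push_cast; ring⟩
    have hz1 : z ≠ 1 := fun h => by
      obtain ⟨q, hq⟩ := (hd _).mp h
      have : (2 : ℤ) ^ (2 + i) * 1 = 2 ^ (2 + i) * (2 * q) := by
        rw [mul_one]; refine hq.trans ?_; simp only [pow_add]; ring
      have := mul_left_cancel₀ (pow_ne_zero _ (two_ne_zero' ℤ)) this
      omega
    have hzA : z ∈ Subgroup.zpowers a := ⟨_, rfl⟩
    have hzc : ∀ x : P, x * z * x⁻¹ = z := fun x => by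
      rcases Lib.Fusion.MetaTwo.eq_of_sq_eq_one
        (y := x * z * x⁻¹) (z := z) (by rw [ha]; exact hAn.conj_mem z (ha ▸ hzA) x) hzA
        (by rw [conj_pow, hz2, mul_one, mul_inv_cancel]) hz2 hz1 with h | h
      · exact absurd (conj_eq_one_iff.mp h) hz1
      · exact h
    have hzb : z * b = b * z := (mul_inv_eq_iff_eq_mul.mp (hzc b)).symm
    let V := Subgroup.closure ({z, b} : Set P)
    have hVn : V.Normal := by
      refine ⟨fun v hv x => ?_⟩
      induction hv using Subgroup.closure_induction with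
      | mem w hw =>
        rcases hw with rfl | rfl
        · rw [hzc]; exact Subgroup.subset_closure (Or.inl rfl)
        · have hd1 : x * b * x⁻¹ * b⁻¹ ∈ A := by
            refine hcent _ ?_
            obtain ⟨q, hq⟩ := hr x
            obtain ⟨q', hq'⟩ := hr x⁻¹
            have h1 := hcomp _ _ _ _ (hcomp _ _ _ _ (hcomp _ _ _ _ hq hbr) hq')
              (show b⁻¹ * a * b⁻¹⁻¹ = a ^ r by
                rwa [show b⁻¹ = b from inv_eq_of_mul_eq_one_left (by rw [← sq]; exact hb2)])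
            have h2 : a ^ (q * q') = a := by
              rw [← hcomp _ _ _ _ hq hq', mul_inv_cancel, one_mul, inv_one, mul_one]
            have h3 : a ^ (r * r) = a := by
              rw [← hcomp _ _ _ _ hbr hbr, ← sq, hb2, one_mul, inv_one, mul_one]
            rw [h1, show q * r * q' * r = (q * q') * (r * r) by ring, zpow_mul, h2, h3]
          rw [← ha] at hd1
          obtain ⟨e, he⟩ := hd1
          have he' : a ^ e = x * b * x⁻¹ * b⁻¹ := he
          have hxb : x * b * x⁻¹ = a ^ e * b := by rw [he', inv_mul_cancel_right]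
          have h4 : (a ^ e * b) ^ 2 = 1 := by rw [← hxb, conj_pow, hb2, mul_one, mul_inv_cancel]
          have h5 : (a ^ e * b) ^ 2 = a ^ (e + r * e) := by
            rw [sq, zpow_add, ← Lib.Thompson.conj_zpow_of_eq hbr e]
            calc a ^ e * b * (a ^ e * b) = a ^ e * (b * a ^ e * b) := by group
              _ = _ := by rw [inv_eq_of_mul_eq_one_left (show b * b = 1 by rw [← sq]; exact hb2)]
          rw [h4, eq_comm, hd] at h5
          obtain ⟨q, hq⟩ := h5
          have h6 : (2 : ℤ) ^ (2 + i) * (2 * (q - c * e) - e) = 2 * e := by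
            have e1 : (2 : ℤ) ^ (2 + (1 + i)) = 2 * 2 ^ (2 + i) := by rw [← pow_succ']; ring_nf
            have e2 : (2 : ℤ) ^ (1 + i + 1) = 2 ^ (2 + i) := by ring_nf
            rw [e1] at hq hc
            rw [e2] at hc
            linear_combination hc * e - hq
          obtain ⟨f, hf⟩ : (2 : ℤ) ^ (1 + i) ∣ e := ⟨2 * (q - c * e) - e, by
            refine mul_left_cancel₀ (two_ne_zero' ℤ) ?_
            rw [← h6]; simp only [pow_add]; ring⟩
          obtain ⟨f', rfl⟩ : (2 : ℤ) ∣ f := by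
            refine ⟨(q - c * e) - 2 ^ i * f, mul_left_cancel₀ (pow_ne_zero (2 + i) (two_ne_zero' ℤ)) ?_⟩
            calc (2 : ℤ) ^ (2 + i) * f = 2 * e := by rw [hf]; simp only [pow_add]; ring
              _ = _ := by rw [← h6, hf]; simp only [pow_add]; ring
          rw [hxb, hf, show (2 : ℤ) ^ (1 + i) * (2 * f') = 2 ^ (2 + i) * f' by
            simp only [pow_add]; ring, zpow_mul]
          have hzV : z ∈ V := Subgroup.subset_closure (Or.inl rfl)
          have hbV : b ∈ V := Subgroup.subset_closure (Or.inr rfl)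
          exact mul_mem (zpow_mem hzV _) hbV
      | one => simp
      | mul u v _ _ hu hv =>
        have := mul_mem hu hv
        simpa [mul_assoc] using this
      | inv u _ hu =>
        have := inv_mem hu
        simpa [mul_assoc] using this
    have hVc : IsMulCommutative ↥V := Subgroup.isMulCommutative_closure (by
      rintro u (rfl | rfl) v (rfl | rfl) <;> first | rfl | exact hzb | exact hzb.symm)
    have hcyc := hn V hVn hVc
    obtain ⟨w, hw⟩ := (Subgroup.isCyclic_iff_exists_zpowers_eq_top V).mp hcyc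
    have hzV : z ∈ Subgroup.zpowers w := hw ▸ Subgroup.subset_closure (Or.inl rfl)
    have hbV : b ∈ Subgroup.zpowers w := hw ▸ Subgroup.subset_closure (Or.inr rfl)
    rcases Lib.Fusion.MetaTwo.eq_of_sq_eq_one hbV hzV hb2 hz2 hz1 with h | h
    · exact hbA (h ▸ one_mem A)
    · exact hbA (h ▸ ha ▸ hzA)
  classical
  have hsq : ∀ g : P, g ^ 2 ∈ A := by
    intro g
    by_contra hg
    obtain ⟨k, hk⟩ := hP g
    have hex : ∃ k, g ^ (2 ^ k) ∈ A := ⟨k, hk ▸ one_mem A⟩
    have h2 := Nat.find_spec hex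
    obtain ⟨l, hl⟩ : ∃ l, Nat.find hex = l + 2 := by
      refine ⟨Nat.find hex - 2, ?_⟩
      rcases h : Nat.find hex with _ | _ | m
      · rw [h, pow_zero, pow_one] at h2; exact absurd (pow_mem h2 2) hg
      · rw [h, pow_one] at h2; exact absurd h2 hg
      · rfl
    have hy : (g ^ 2 ^ l) ^ 2 ∉ A := fun h => by
      refine Nat.find_min hex (show l + 1 < Nat.find hex by omega) ?_
      rwa [← pow_mul, ← pow_succ] at h
    have hy4 : ((g ^ 2 ^ l) ^ 2) ^ 2 ∈ A := by
      rw [hl] at h2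
      rw [← pow_mul, ← pow_mul, show 2 ^ l * (2 * 2) = 2 ^ (l + 2) by ring]
      exact h2
    obtain ⟨r, hyr⟩ := hr (g ^ 2 ^ l)
    generalize g ^ 2 ^ l = y at hy hy4 hyr
    have hy2r : y ^ 2 * a * (y ^ 2)⁻¹ = a ^ (r * r) := by rw [sq]; exact hcomp _ _ _ _ hyr hyr
    have hne : ¬ (2 : ℤ) ^ (2 + j) ∣ r * r - 1 := fun h => hy (hone _ _ hy2r h)
    have h4 : (2 : ℤ) ^ (2 + j) ∣ (r * r) ^ 2 - 1 := by
      rw [sq, ← hd, zpow_sub_one, ← hcomp _ _ _ _ hy2r hy2r, ← sq]
      rw [← ha] at hy4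
      obtain ⟨q, hq⟩ := hy4
      rw [← (show a ^ q = (y ^ 2) ^ 2 from hq)]
      group
    have hodd : r * r % 4 = 1 := by
      rcases Int.even_or_odd' r with ⟨v, rfl | rfl⟩
      · exfalso
        obtain ⟨q, hq⟩ := h4
        have h22 : (2 : ℤ) ^ (2 + j) = 4 * 2 ^ j := by rw [pow_add]; norm_num
        rw [h22] at hq
        have : (2 * v * (2 * v)) ^ 2 = 4 * (4 * (v * v * v * v)) := by ring
        rw [this, mul_assoc (4 : ℤ) (2 ^ j) q] at hq
        omega
      · rw [show (2 * v + 1) * (2 * v + 1) = 4 * (v * v + v) + 1 by ring, Int.mul_add_emod_self_left]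
        norm_num
    have h22 : (2 : ℤ) ^ (2 + j) = 4 * 2 ^ j := by rw [pow_add]; norm_num
    rcases Lib.Thompson.sq_eq_one_mod_two_pow (by omega : 2 ≤ 2 + j) h4 with h | h | h | h
    · exact hne h
    · obtain ⟨q, hq⟩ := h; rw [h22, mul_assoc] at hq; omega
    · rcases Nat.eq_zero_or_pos j with rfl | hj
      · refine hne ?_
        norm_num
        omega
      · rw [show 2 + j - 1 = j + 1 by omega] at h
        exact hforb _ _ hy2r hy4 hj h
    · obtain ⟨q, hq⟩ := h
      rw [show 2 + j - 1 = j + 1 by omega, h22, mul_assoc] at hq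
      rcases Nat.eq_zero_or_pos j with rfl | hj
      · exact hne (by norm_num; omega)
      · rw [show j + 1 = 2 + (j - 1) by omega, pow_add] at hq
        norm_num at hq
        omega
  have hneg : ∀ (g : P) (r : ℤ), g ∉ A → g * a * g⁻¹ = a ^ r → (4 : ℤ) ∣ r + 1 := by
    intro g r hg hgr
    have h2 : (2 : ℤ) ^ (2 + j) ∣ r ^ 2 - 1 := by
      rw [sq, ← hd, zpow_sub_one, ← hcomp _ _ _ _ hgr hgr, ← sq]
      have := hsq g
      rw [← ha] at this
      obtain ⟨q, hq⟩ := this
      rw [← (show a ^ q = g ^ 2 from hq)]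
      group
    have h22 : (2 : ℤ) ^ (2 + j) = 4 * 2 ^ j := by rw [pow_add]; norm_num
    rcases Lib.Thompson.sq_eq_one_mod_two_pow (by omega : 2 ≤ 2 + j) h2 with h | h | h | h
    · exact absurd (hone g r hgr h) hg
    · exact (show (4 : ℤ) ∣ 2 ^ (2 + j) from h22 ▸ dvd_mul_right _ _).trans h
    · rcases Nat.eq_zero_or_pos j with rfl | hj
      · obtain ⟨q, hq⟩ := h; norm_num at hq; omega
      · rw [show 2 + j - 1 = j + 1 by omega] at h
        exact absurd h (hforb g r hgr (hsq g) hj)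
    · obtain ⟨q, hq⟩ := h
      rw [show 2 + j - 1 = j + 1 by omega, h22, mul_assoc] at hq
      rcases Nat.eq_zero_or_pos j with rfl | hj
      · exfalso; refine hg (hone g r hgr ?_); norm_num; omega
      · rw [show j + 1 = 2 + (j - 1) by omega, pow_add] at hq
        norm_num at hq
        omega
  have hidx : ∀ x y : P, x ∉ A → y ∉ A → x * y ∈ A := by
    intro x y hx hy
    by_contra hxy
    obtain ⟨r, hxr⟩ := hr x
    obtain ⟨s, hys⟩ := hr y
    obtain ⟨q, hq⟩ := hneg _ _ hxy (hcomp _ _ _ _ hxr hys)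
    obtain ⟨u, hu⟩ := hneg _ _ hx hxr
    obtain ⟨v, hv⟩ := hneg _ _ hy hys
    have : r * s = 4 * (4 * (u * v) - u - v) + 1 := by
      rw [show r = 4 * u - 1 by linarith, show s = 4 * v - 1 by linarith]; ring
    omega
  obtain ⟨x, hx⟩ : ∃ x, x ∉ A := by
    by_contra! h
    exact hnc (Subgroup.topEquiv.isCyclic.mp (((Subgroup.eq_top_iff' A).mpr h) ▸ hAcyc))
  obtain ⟨r, hxr⟩ := hr x
  obtain ⟨k, hk⟩ := hneg x r hx hxr
  have hab : Lib.Fusion.MetaTwo.Pair a x := by
    refine ⟨fun g => ?_, fun g => ?_⟩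
    · rw [ha]; exact hAn.conj_mem a (ha ▸ Subgroup.mem_zpowers a) g
    · by_cases hg : g ∈ A
      · rw [← ha] at hg
        obtain ⟨i, hi⟩ := hg
        exact ⟨i, 0, by rw [zpow_zero, mul_one]; exact hi.symm⟩
      · have := hidx g x⁻¹ hg (fun h => hx (inv_mem_iff.mp h))
        rw [← ha] at this
        obtain ⟨i, hi⟩ := this
        exact ⟨i, 1, by rw [zpow_one, (show a ^ i = g * x⁻¹ from hi), inv_mul_cancel_right]⟩
  have hexc := Lib.Fusion.MetaTwo.exceptional_of_inverted hP hab (x := x) (c := a ^ ((2 : ℤ) ^ j))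
    ⟨_, rfl⟩
    (by
      rw [← zpow_add, Ne, hd]
      rintro ⟨q, hq⟩
      have : (2 : ℤ) ^ j * 1 = 2 ^ j * (2 * q) := by
        refine mul_left_cancel₀ (two_ne_zero' ℤ) ?_
        rw [pow_add] at hq
        linarith
      have := mul_left_cancel₀ (pow_ne_zero _ (two_ne_zero' ℤ)) this
      omega)
    (by rw [← zpow_add, ← zpow_add, hd]; exact ⟨1, by rw [pow_add]; ring⟩)
    (by
      rw [Lib.Thompson.conj_zpow_of_eq hxr, ← zpow_neg, ← mul_inv_eq_one, ← zpow_sub, hd]
      exact ⟨k, by rw [show r = 4 * k - 1 by linarith, pow_add]; ring⟩)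
    (by rw [ha, ← sq]; exact hsq x)
  rcases hexc with ⟨m, ⟨e⟩⟩ | hq | hqd
  · refine Or.inr (Or.inl ⟨m, ?_, ⟨e⟩⟩)
    by_contra hm8
    have hcard : Nat.card P = 2 * m := (Nat.card_congr e.toEquiv).trans DihedralGroup.nat_card
    have hlt : 2 ^ (2 + j) < Nat.card P := by
      rw [← hao, ← Nat.card_zpowers, ha]
      refine (Subgroup.card_le_card_group A).lt_of_ne fun h => hx ?_
      rw [Subgroup.eq_top_of_card_eq A h]
      exact Subgroup.mem_top x
    have h4 : 4 ≤ 2 ^ (2 + j) := by rw [pow_add]; have := Nat.one_le_two_pow (n := j); omega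
    obtain ⟨l, hl⟩ := IsPGroup.iff_card.mp hP
    have hm4 : m = 4 := by
      have hl4 : l ≤ 3 := by
        by_contra h
        have := Nat.pow_le_pow_right (show 0 < 2 by norm_num) (show 4 ≤ l by omega)
        omega
      interval_cases l <;> omega
    subst hm4
    -- the dihedral group of order eight has a normal four subgroup
    let V : Subgroup (DihedralGroup 4) :=
      { carrier := {g | g = 1 ∨ g = DihedralGroup.r 2 ∨ g = DihedralGroup.sr 0 ∨ g = DihedralGroup.sr 2}
        one_mem' := Or.inl rfl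
        mul_mem' := by rintro _ _ (rfl | rfl | rfl | rfl) (rfl | rfl | rfl | rfl) <;> decide
        inv_mem' := by rintro _ (rfl | rfl | rfl | rfl) <;> decide }
    let W := V.comap e.toMonoidHom
    have hW : W.Normal := ⟨fun w hw g => by
      show e (g * w * g⁻¹) ∈ V
      rw [map_mul, map_mul, map_inv]
      have hw' : e w ∈ V := hw
      generalize e g = u
      show _ = _ ∨ _ = _ ∨ _ = _ ∨ _ = _
      rcases hw' with h | h | h | h <;> rw [h] <;>
        · rcases u with v | v <;> revert v <;> decide⟩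
    have hWc : IsMulCommutative ↥W := ⟨⟨fun u v => Subtype.ext (e.injective (by
      have hu : e u ∈ V := u.2
      have hv : e v ∈ V := v.2
      simp only [Subgroup.coe_mul, map_mul]
      rcases hu with h | h | h | h <;> rcases hv with h' | h' | h' | h' <;> rw [h, h'] <;> decide))⟩⟩
    obtain ⟨w, hw⟩ := (Subgroup.isCyclic_iff_exists_zpowers_eq_top W).mp (hn W hW hWc)
    have hu : e.symm (DihedralGroup.r 2) ∈ W := Or.inr (Or.inl (e.apply_symm_apply _))
    have hv : e.symm (DihedralGroup.sr 0) ∈ W := Or.inr (Or.inr (Or.inl (e.apply_symm_apply _)))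
    rw [← hw] at hu hv
    rcases Lib.Fusion.MetaTwo.eq_of_sq_eq_one hv hu
      (by rw [← map_pow, show (DihedralGroup.sr (0 : ZMod 4)) ^ 2 = 1 by decide, map_one])
      (by rw [← map_pow, show (DihedralGroup.r (2 : ZMod 4)) ^ 2 = 1 by decide, map_one])
      (fun h => absurd (e.symm.injective (h.trans (map_one _).symm)) (by decide)) with h | h
    · exact absurd (e.symm.injective (h.trans (map_one _).symm)) (by decide)
    · exact absurd (e.symm.injective h) (by decide)
  · exact Or.inl hq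
  · exact Or.inr (Or.inr hqd)

end Cfsg.Agent.S0519
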