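import Cfsg.Statements.S0087
import Cfsg.Agent.Lib.Transfer.Hall

set_option autoImplicit false
open Cfsg Subgroup
open scoped Pointwise commutatorElement

namespace Cfsg.Agent.S0087

/-- A Hall subgroup that is central in its normalizer has a normal complement. -/
theorem result {G : Type*} [Group G] [Finite G] (H : Subgroup G) (hHall : Nat.Coprime (Nat.card H) H.index) (h : Subgroup.normalizer (H : Set G) ≤ Subgroup.centralizer (H : Set G)) : ∃ N : Subgroup G, N.Normal ∧ N.IsComplement' H := by
  have hab : IsMulCommutative H := ⟨⟨fun a b => Subtype.ext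
    (mem_centralizer_iff.mp (h (le_normalizer b.2)) a a.2)⟩⟩
  open scoped IsMulCommutative in
  have hnil : Group.IsNilpotent H := inferInstance
  refine Lib.Transfer.exists_complement_of_nilpotent_hall H hnil hHall fun x hx g hg => ?_
  set y := g * x * g⁻¹ with hy
  let B := H.map (MulAut.conj g).toMonoidHom
  have hBy : B ≤ centralizer {y} := by
    rintro _ ⟨a, ha, rfl⟩
    rw [mem_centralizer_singleton_iff]
    have := mem_centralizer_iff.mp (H.le_centralizer ha) x hx
    calc g * a * g⁻¹ * y = g * (a * x) * g⁻¹ := by rw [hy]; group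
      _ = g * (x * a) * g⁻¹ := by rw [this]
      _ = y * (g * a * g⁻¹) := by rw [hy]; group
  have hHy : H ≤ centralizer {y} := fun a ha =>
    mem_centralizer_singleton_iff.mpr (mem_centralizer_iff.mp (H.le_centralizer ha) y hg).symm
  have hcard : Nat.card B = Nat.card H := card_map_of_injective (MulAut.conj g).injective
  have hnilB : Group.IsNilpotent B :=
    Group.nilpotent_of_mulEquiv (Subgroup.equivMapOfInjective H _ (MulAut.conj g).injective)
  obtain ⟨c, hc⟩ := Lib.Transfer.nilpotent_hall_conj
    (H := B.subgroupOf (centralizer {y})) (K := H.subgroupOf (centralizer {y}))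
    (Group.nilpotent_of_mulEquiv (subgroupOfEquivOfLe hBy).symm)
    (Group.nilpotent_of_mulEquiv (subgroupOfEquivOfLe hHy).symm)
    (by
      rw [Nat.card_congr (subgroupOfEquivOfLe hBy).toEquiv, hcard]
      refine hHall.coprime_dvd_right ((relIndex_dvd_index_of_le hBy).trans ?_)
      rw [show B.index = H.index from index_map_equiv H (MulAut.conj g)])
    (by rw [Nat.card_congr (subgroupOfEquivOfLe hBy).toEquiv,
      Nat.card_congr (subgroupOfEquivOfLe hHy).toEquiv, hcard])
  have hn : (c : G) * g ∈ normalizer (H : Set G) := by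
    rw [mem_normalizer_iff_map_conj_eq]
    refine eq_of_le_of_card_ge ?_ (card_map_of_injective (MulAut.conj _).injective).ge
    rintro _ ⟨a, ha, rfl⟩
    have := (hc ⟨g * a * g⁻¹, hBy ⟨a, ha, rfl⟩⟩).mp ⟨a, ha, rfl⟩
    simpa [mem_subgroupOf, mul_assoc] using this
  have h1 := mem_centralizer_iff.mp (h hn) x hx
  have h2 := mem_centralizer_singleton_iff.mp c.2
  refine ⟨1, one_mem H, ?_⟩
  calc (1 : G) * x * 1⁻¹ = x * ((c : G) * g) * ((c : G) * g)⁻¹ := by group
    _ = (c : G) * g * x * ((c : G) * g)⁻¹ := by rw [h1]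
    _ = (c : G) * y * (c : G)⁻¹ := by simp [y, mul_assoc]
    _ = y := by rw [h2, mul_inv_cancel_right]

end Cfsg.Agent.S0087
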