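import Cfsg.Statements.S0581
import Cfsg.Agent.Lib.Hall.Schmidt
import Cfsg.Agent.Lib.Transfer.Basic
import Cfsg.Agent.Lib.FPF.FixedPointFree
import Cfsg.Agent.Lib.Coprime.Basic

set_option autoImplicit false
open Pointwise
open Cfsg

namespace Cfsg.Agent.S0581

open Subgroup
open scoped Pointwise

universe u

theorem aux {G : Type u} [Group G] [Finite G] (H : Subgroup G) (hH : Group.IsNilpotent H)
    (hHall : (Nat.card H).Coprime H.index) : ∀ (n : ℕ) (K : Subgroup G), Nat.card K = n →
      (∀ p : ℕ, p.Prime → p ∣ Nat.card K → p ∣ Nat.card H) → ∃ x : G, K ≤ MulAut.conj x • H := by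
  have hsyl : ∀ q : ℕ, [Fact q.Prime] → q ∣ Nat.card H → ∀ P : Sylow q H,
      ∃ S : Sylow q G, (S : Subgroup G) = (P : Subgroup H).map H.subtype := by
    intro q _ hq P
    refine ⟨(P.2.map H.subtype).toSylow ?_, rfl⟩
    intro hd
    have h1 : ((P : Subgroup H).map H.subtype).index = (P : Subgroup H).index * H.index := by
      rw [index_map, range_subtype, H.ker_subtype, sup_bot_eq]
    rw [h1] at hd
    rcases (Fact.out : q.Prime).dvd_mul.mp hd with h | h
    · exact P.not_dvd_index h
    · exact (Fact.out : q.Prime).ne_one (Nat.eq_one_of_dvd_coprimes hHall hq h)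
  have hconjH : ∀ q : ℕ, [Fact q.Prime] → ∀ g : G, g ∈ H → (orderOf g).Coprime q → ∀ P : Sylow q H,
      ∀ u ∈ (P : Subgroup H).map H.subtype, u * g = g * u := by
    rintro q _ g hg hgq P _ ⟨u, hu, rfl⟩
    obtain ⟨i, hi⟩ := IsPGroup.iff_orderOf.mp P.2 ⟨u, hu⟩
    rw [Subgroup.orderOf_mk] at hi
    haveI := hH
    exact congrArg Subtype.val (Lib.Transfer.commute_of_coprime_orderOf (x := u) (y := (⟨g, hg⟩ : H))
      (by rw [hi, Subgroup.orderOf_mk]; exact (hgq.symm).pow_left i)).eq
  intro n
  induction n using Nat.strong_induction_on with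
  | _ n ih => ?_
  intro K hn hK
  have hproper : ∀ L : Subgroup G, L ≤ K → L ≠ K → ∃ x : G, L ≤ MulAut.conj x • H := fun L hL hne => by
    refine ih _ ?_ L rfl fun p hp hd => hK p hp (hd.trans (card_dvd_of_le hL))
    rw [← hn]
    exact lt_of_le_of_ne (card_le_of_le hL) fun e => hne (eq_of_le_of_card_ge hL e.ge)
  by_cases hnil : Group.IsNilpotent K
  · by_cases hK1 : Nat.card K = 1
    · exact ⟨1, by rw [eq_bot_of_card_eq K hK1]; exact bot_le⟩
    obtain ⟨q, hq, hqK⟩ := Nat.exists_prime_and_dvd hK1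
    haveI := Fact.mk hq
    obtain ⟨Q⟩ := (inferInstance : Nonempty (Sylow q K))
    let R : Subgroup G := (pResidual q K).map K.subtype
    have hnpc : HasNormalPComplement q K := Lib.FPF.npc_of_isNilpotent q
    have hRq : ¬ q ∣ Nat.card R := by
      rw [card_map_of_injective K.subtype_injective]
      exact Lib.Transfer.hasNormalPComplement_iff.mp hnpc
    have hRK : R ≠ K := fun e => hRq (e.symm ▸ hqK)
    obtain ⟨x, hx⟩ := hproper R (map_subtype_le _) hRK
    obtain ⟨P⟩ := (inferInstance : Nonempty (Sylow q H))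
    obtain ⟨S, hS⟩ := hsyl q (hK q hq hqK) P
    -- move `H` to contain `R`
    let C : Subgroup G := centralizer (R : Set G)
    have hSC : MulAut.conj x • (S : Subgroup G) ≤ C := by
      intro u hu
      rw [Lib.Coprime.mem_conj_smul, hS] at hu
      refine mem_centralizer_iff.mpr fun r hr => ?_
      have hr' := hx hr
      rw [Lib.Coprime.mem_conj_smul] at hr'
      have ho : (orderOf (x⁻¹ * r * x)).Coprime q := by
        have h1 : orderOf (x⁻¹ * r * x) = orderOf r := by
          have h2 := MulEquiv.orderOf_eq (MulAut.conj x⁻¹) r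
          simpa [mul_assoc] using h2
        rw [h1]
        exact ((hq.coprime_iff_not_dvd.mpr fun hd => hRq (hd.trans (orderOf_dvd_natCard R hr))).symm)
      have h3 := hconjH q _ hr' ho P _ hu
      calc r * u = x * (x⁻¹ * r * x * (x⁻¹ * u * x)) * x⁻¹ := by group
        _ = x * (x⁻¹ * u * x * (x⁻¹ * r * x)) * x⁻¹ := by rw [h3]
        _ = u * r := by group
    let S' : Sylow q G := x • S
    have hS' : (S' : Subgroup G) = MulAut.conj x • (S : Subgroup G) := Sylow.coe_subgroup_smul
    let T : Subgroup G := (Q : Subgroup K).map K.subtype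
    have hTC : T ≤ C := by
      rintro _ ⟨u, hu, rfl⟩
      refine mem_centralizer_iff.mpr ?_
      rintro _ ⟨r, hr, rfl⟩
      obtain ⟨i, hi⟩ := IsPGroup.iff_orderOf.mp Q.2 ⟨u, hu⟩
      rw [Subgroup.orderOf_mk] at hi
      haveI := hnil
      refine congrArg Subtype.val (Lib.Transfer.commute_of_coprime_orderOf (x := r) (y := u) ?_).eq
      rw [hi]
      refine Nat.Coprime.pow_right i (hq.coprime_iff_not_dvd.mpr fun hd => hRq ?_).symm
      rw [card_map_of_injective K.subtype_injective]
      exact hd.trans (orderOf_dvd_natCard (pResidual q K) hr)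
    obtain ⟨P₀, hP₀⟩ := ((Q.2.map K.subtype).comap_of_injective C.subtype C.subtype_injective).exists_le_sylow
    let S'' : Sylow q C := S'.subtype (hS' ▸ hSC)
    obtain ⟨c, hc⟩ := MulAction.exists_smul_eq C S'' P₀
    refine ⟨(c : G) * x, ?_⟩
    have htop : K ≤ R ⊔ T := by
      intro k hk
      have h1 : (⟨k, hk⟩ : K) ∈ pResidual q K ⊔ (Q : Subgroup K) := by
        rw [Lib.Transfer.pResidual_sup_sylow]; exact mem_top _
      have h2 := mem_map_of_mem K.subtype h1
      rwa [Subgroup.map_sup] at h2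
    refine htop.trans (sup_le (fun r hr => ?_) fun u hu => ?_)
    · rw [Lib.Coprime.conj_smul_mul, Lib.Coprime.mem_conj_smul]
      have : (c : G)⁻¹ * r * c = r := by
        rw [mul_assoc, mem_centralizer_iff.mp c.2 r hr, inv_mul_cancel_left]
      rw [this]; exact hx hr
    · have h1 : (⟨u, hTC hu⟩ : C) ∈ (P₀ : Subgroup C) := hP₀ hu
      rw [← hc, Sylow.coe_subgroup_smul, Lib.Coprime.mem_conj_smul] at h1
      have h2 : (c : G)⁻¹ * u * c ∈ (S' : Subgroup G) := h1
      rw [hS'] at h2
      rw [Lib.Coprime.conj_smul_mul, Lib.Coprime.mem_conj_smul]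
      refine (pointwise_smul_le_pointwise_smul_iff.mpr ?_) h2
      rw [hS]; exact map_subtype_le _
  exfalso
  have hmin : IsMinimalNonNilpotent K := ⟨hnil, fun L hL => by
    obtain ⟨x, hx⟩ := hproper (L.map K.subtype) (map_subtype_le _) fun e => hL (map_injective K.subtype_injective
      (e.trans (by rw [← MonoidHom.range_eq_map, range_subtype])))
    haveI : Group.IsNilpotent (MulAut.conj x • H : Subgroup G) :=
      Group.nilpotent_of_mulEquiv (Subgroup.equivSMul (MulAut.conj x) H)
    haveI : Group.IsNilpotent (L.map K.subtype) :=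
      Group.nilpotent_of_mulEquiv (subgroupOfEquivOfLe hx)
    exact Group.nilpotent_of_mulEquiv (equivMapOfInjective L K.subtype K.subtype_injective).symm⟩
  obtain ⟨p, q, hp, hq, hpq, P, Q, x, hPx, hQn, hsup, hxC⟩ := Lib.Hall.minimal_non_nilpotent_structure hmin
  haveI := Fact.mk hp
  haveI := Fact.mk hq
  have hQ1 : (Q : Subgroup K) ≠ ⊥ := fun e => hxC (mem_centralizer_iff.mpr fun u hu => by
    rw [e, SetLike.mem_coe, mem_bot] at hu; rw [hu, one_mul, mul_one])
  have hQt : (Q : Subgroup K) ≠ ⊤ := fun e => hnil (by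
    haveI : Group.IsNilpotent (Q : Subgroup K) := Q.2.isNilpotent
    exact Group.nilpotent_of_mulEquiv ((MulEquiv.subgroupCongr e).trans topEquiv))
  obtain ⟨g, hg⟩ := hproper ((Q : Subgroup K).map K.subtype) (map_subtype_le _) fun e => hQt
    (map_injective K.subtype_injective (e.trans (by rw [← MonoidHom.range_eq_map, range_subtype])))
  have hpK : p ∣ Nat.card K := by
    have h1 : orderOf x ∣ Nat.card K := _root_.orderOf_dvd_natCard x
    obtain ⟨i, hi⟩ := IsPGroup.iff_orderOf.mp P.2 ⟨x, hPx.symm ▸ mem_zpowers x⟩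
    rw [Subgroup.orderOf_mk] at hi
    rcases Nat.eq_zero_or_pos i with rfl | hi0
    · have hx1 : x = 1 := orderOf_eq_one_iff.mp (by simpa using hi)
      exact absurd (show x ∈ centralizer _ by rw [hx1]; exact one_mem _) hxC
    · exact ((dvd_pow_self p hi0.ne').trans (hi ▸ dvd_rfl)).trans h1
  obtain ⟨Ph⟩ := (inferInstance : Nonempty (Sylow p H))
  obtain ⟨S, hS⟩ := hsyl p (hK p hp hpK) Ph
  let T : Subgroup G := (Q : Subgroup K).map K.subtype
  let C : Subgroup G := centralizer (T : Set G)
  have hSC : MulAut.conj g • (S : Subgroup G) ≤ C := by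
    intro u hu
    rw [Lib.Coprime.mem_conj_smul, hS] at hu
    refine mem_centralizer_iff.mpr fun r hr => ?_
    have hr' := hg hr
    rw [Lib.Coprime.mem_conj_smul] at hr'
    have ho : (orderOf (g⁻¹ * r * g)).Coprime p := by
      obtain ⟨i, hi⟩ := IsPGroup.iff_orderOf.mp (Q.2.map K.subtype) ⟨r, hr⟩
      rw [Subgroup.orderOf_mk] at hi
      have h2 := MulEquiv.orderOf_eq (MulAut.conj g⁻¹) r
      rw [hi] at h2
      have h3 : orderOf (g⁻¹ * r * g) = q ^ i := by simpa [mul_assoc] using h2
      rw [h3]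
      exact ((Nat.coprime_primes hq hp).mpr hpq.symm).pow_left i
    have h3 := hconjH p _ hr' ho Ph _ hu
    calc r * u = g * (g⁻¹ * r * g * (g⁻¹ * u * g)) * g⁻¹ := by group
      _ = g * (g⁻¹ * u * g * (g⁻¹ * r * g)) * g⁻¹ := by rw [h3]
      _ = u * r := by group
  let N : Subgroup G := normalizer (T : Set G)
  have hxN : (x : G) ∈ N := by
    have h1 : x ∈ normalizer ((Q : Subgroup K) : Set K) := by rw [normalizer_eq_top]; exact mem_top x
    exact le_normalizer_map K.subtype (mem_map_of_mem K.subtype h1)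
  have hidx : ¬ p ∣ C.index := fun hd =>
    (g • S).not_dvd_index (hd.trans (index_dvd_of_le (Sylow.coe_subgroup_smul.le.trans hSC)))
  have hnd : ¬ p ∣ C.relIndex N := fun hd =>
    hidx (hd.trans (relIndex_dvd_index_of_le (centralizer_le_normalizer _)))
  haveI : (C.subgroupOf N).Normal := ⟨fun z hz y => by
    refine mem_centralizer_iff.mpr fun r hr => ?_
    have hr' : (y : G)⁻¹ * r * y ∈ T := (mem_normalizer_iff'.mp y.2 _).mpr (by simpa [mul_assoc] using hr)
    have h2 : (y : G)⁻¹ * r * y * (z : G) = (z : G) * ((y : G)⁻¹ * r * y) :=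
      mem_centralizer_iff.mp hz _ hr'
    show r * ((y : G) * (z : G) * (y : G)⁻¹) = (y : G) * (z : G) * (y : G)⁻¹ * r
    calc r * ((y : G) * (z : G) * (y : G)⁻¹) = y * ((y : G)⁻¹ * r * y * (z : G)) * (y : G)⁻¹ := by group
      _ = y * ((z : G) * ((y : G)⁻¹ * r * y)) * (y : G)⁻¹ := by rw [h2]
      _ = _ := by group⟩
  obtain ⟨i, hi⟩ := IsPGroup.iff_orderOf.mp P.2 ⟨x, hPx.symm ▸ mem_zpowers x⟩
  rw [Subgroup.orderOf_mk] at hi
  have h1 : (QuotientGroup.mk' (C.subgroupOf N)) ⟨x, hxN⟩ = 1 := by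
    rw [← orderOf_eq_one_iff]
    refine Nat.eq_one_of_dvd_coprimes (a := p ^ i) (b := C.relIndex N)
      ((hp.coprime_iff_not_dvd.mpr hnd).pow_left i) ?_ ?_
    · refine (orderOf_map_dvd _ _).trans ?_
      rw [Subgroup.orderOf_mk, Subgroup.orderOf_coe, hi]
    · rw [relIndex, index_eq_card]; exact _root_.orderOf_dvd_natCard _
  have h4 : (⟨(x : G), hxN⟩ : N) ∈ C.subgroupOf N := (QuotientGroup.eq_one_iff _).mp h1
  have hxc : (x : G) ∈ C := h4
  exact hxC (mem_centralizer_iff.mpr fun u hu => Subtype.ext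
    (mem_centralizer_iff.mp hxc u (mem_map_of_mem K.subtype hu)))


/-- Let H be a nilpotent subgroup of a finite group G whose order is coprime to its index, and K a subgroup every prime divisor of whose order divides the order of H. Then K lies in some conjugate of H. -/
theorem result {G : Type*} [Group G] [Finite G] (H K : Subgroup G) (hH : Group.IsNilpotent H) (hHall : (Nat.card H).Coprime H.index) (hK : ∀ p : ℕ, p.Prime → p ∣ Nat.card K → p ∣ Nat.card H) : ∃ x : G, K ≤ MulAut.conj x • H := by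
  exact aux H hH hHall _ K rfl hK

end Cfsg.Agent.S0581
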