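import Cfsg.Statements.S0675
import Cfsg.Agent.Lib.Perm.Burnside

set_option autoImplicit false
open Cfsg

namespace Cfsg.Agent.S0675

/-- Burnside's Theorem on permutation groups of prime degree: a transitive permutation group of prime degree that is not solvable is doubly transitive. -/
theorem result {α : Type*} [Fintype α] [DecidableEq α] (hα : (Fintype.card α).Prime) (G : Subgroup (Equiv.Perm α)) [MulAction.IsPretransitive G α] : Group.IsSolvable G ∨ MulAction.IsMultiplyPretransitive G α 2 := by
  classical
  by_cases hG : Group.IsSolvable G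
  · exact Or.inl hG
  have : Fact (Fintype.card α).Prime := ⟨hα⟩
  have hα' : Nat.card α = Fintype.card α := Nat.card_eq_fintype_card
  obtain ⟨P⟩ : Nonempty (Sylow (Fintype.card α) G) := inferInstance
  have hPc := Lib.Perm.card_sylow_of_prime (Ω := α) hα' P
  obtain ⟨c, hc⟩ := exists_prime_orderOf_dvd_card' (G := G) (Fintype.card α)
    (hPc ▸ (P : Subgroup G).card_subgroup_dvd_card)
  obtain ⟨e, he⟩ := Lib.Perm.exists_label_faithful (Ω := α) hα' hc
  exact Or.inr (Lib.Perm.two_transitive he fun h => hG (Lib.Perm.isSolvable_of_affine e h))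

end Cfsg.Agent.S0675
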