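import Cfsg.Statements.S3972
import Mathlib

set_option autoImplicit false
open Cfsg

namespace Cfsg.Agent.S3972

open MulAction
open scoped Pointwise

section

variable {G Ω : Type*} [Group G] [MulAction G Ω] {C : Subgroup G} {a : Ω}

/-- The functions on the regular subgroup that are constant on the suborbits. -/
def Inv (a : Ω) {R : Type*} (f : C → R) : Prop :=
  ∀ g : G, g • a = a → ∀ c d : C, g • (c : G) • a = (d : G) • a → f c = f d

variable (hreg : ∀ y : Ω, ∃! c : C, (c : G) • a = y)
include hreg

/-- The invariant kernel attached to an invariant function. -/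
theorem inv_kernel {R : Type*} {f : C → R} (hf : Inv a f) (g : G) (c d c' d' : C)
    (h1 : g • (c : G) • a = (c' : G) • a) (h2 : g • (d : G) • a = (d' : G) • a) :
    f (c⁻¹ * d) = f (c'⁻¹ * d') := by
  refine hf ((c' : G)⁻¹ * g * c) ?_ _ _ ?_
  · rw [mul_smul, mul_smul, h1, inv_smul_smul]
  · simp only [Subgroup.coe_mul, Subgroup.coe_inv, mul_smul, smul_inv_smul]
    rw [h2]

theorem inv_flip {R : Type*} {f : C → R} (hf : Inv a f) : Inv a fun c => f c⁻¹ := by
  intro g hg c d h
  have := inv_kernel hreg hf g c 1 d 1 h (by simpa using hg)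
  simpa using this

theorem inv_conv [Fintype C] {R : Type*} [CommRing R] {f f' : C → R} (hf : Inv a f)
    (hf' : Inv a f') : Inv a fun x : C => ∑ y, f y * f' (y⁻¹ * x) := by
  intro g hg c d h
  choose σ hσ huniq using fun y : C => hreg (g • (y : G) • a)
  have hinj : Function.Injective σ := fun x y e => by
    have h' := (hσ x).symm.trans ((congrArg (fun z : C => (z : G) • a) e).trans (hσ y))
    exact (hreg _).unique rfl (MulAction.injective g h').symm
  refine Fintype.sum_bijective σ ((Fintype.bijective_iff_injective_and_card σ).mpr ⟨hinj, rfl⟩) _ _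
    fun y => ?_
  rw [hf g hg y (σ y) (hσ y).symm, inv_kernel hreg hf' g y c (σ y) d (hσ y).symm h]

end

/-- A function invariant under translation by an element of order `p` sums to zero mod `p`. -/
theorem sum_eq_zero_of_translate {C : Type*} [CommGroup C] [IsCyclic C] [Fintype C] {p : ℕ}
    [hp : Fact p.Prime] (w : C) (hw : orderOf w = p) (ψ : C → ZMod p)
    (hψ : ∀ y z, z ^ p = 1 → ψ (y * z) = ψ y) : ∑ y, ψ y = 0 := by
  classical
  have hZcard : (Finset.univ.filter fun z : C => z ^ p = 1).card = p := by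
    refine le_antisymm (IsCyclic.card_pow_eq_one_le hp.out.pos) ?_
    have h : ((Finset.range p).image (w ^ ·)) ⊆ Finset.univ.filter fun z : C => z ^ p = 1 := by
      intro z hz
      obtain ⟨i, -, rfl⟩ := Finset.mem_image.mp hz
      refine Finset.mem_filter.mpr ⟨Finset.mem_univ _, ?_⟩
      rw [← pow_mul, mul_comm, pow_mul, ← hw, pow_orderOf_eq_one, one_pow]
    refine le_trans ?_ (Finset.card_le_card h)
    rw [Finset.card_image_of_injOn, Finset.card_range]
    intro i hi j hj hij
    exact pow_injOn_Iio_orderOf (by simpa [hw] using hi) (by simpa [hw] using hj) hij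
  rw [← Finset.sum_fiberwise Finset.univ (fun y : C => y ^ p) ψ]
  refine Finset.sum_eq_zero fun v _ => ?_
  rcases (Finset.univ.filter fun y : C => y ^ p = v).eq_empty_or_nonempty with h | ⟨y0, hy0⟩
  · rw [h, Finset.sum_empty]
  have hy0' : y0 ^ p = v := (Finset.mem_filter.mp hy0).2
  have he : (Finset.univ.filter fun y : C => y ^ p = v) =
      (Finset.univ.filter fun z : C => z ^ p = 1).image (y0 * ·) := by
    ext y
    simp only [Finset.mem_filter, Finset.mem_univ, true_and, Finset.mem_image]
    constructor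
    · intro hy
      exact ⟨y0⁻¹ * y, by rw [mul_pow, inv_pow, hy0', hy, inv_mul_cancel], mul_inv_cancel_left _ _⟩
    · rintro ⟨z, hz, rfl⟩
      rw [mul_pow, hy0', hz, mul_one]
  rw [he, Finset.sum_image fun a _ b _ h => mul_left_cancel h,
    Finset.sum_congr rfl fun z hz => hψ y0 z (Finset.mem_filter.mp hz).2,
    Finset.sum_const, hZcard, nsmul_eq_mul, ZMod.natCast_self, zero_mul]

/-- No nonzero element with few terms squares to zero in the group algebra of order `p`. -/
theorem no_small_square_zero {p : ℕ} [hp : Fact p.Prime] (A : Finset (ZMod p)) (h0 : (0 : ZMod p) ∉ A)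
    (hA : A.Nonempty) (hs : 2 * A.card < p)
    (hsq : ∀ k : ZMod p, k ≠ 0 → ∑ i, (if i ∈ A then (1 : ZMod p) else 0) * (if k - i ∈ A then 1 else 0)
      = 2 * (A.card : ZMod p) * (if k ∈ A then 1 else 0)) : False := by
  classical
  set s : ZMod p := (A.card : ZMod p) with hs'
  let c : ZMod p → ZMod p := fun i => (if i ∈ A then 1 else 0) - (if i = 0 then s else 0)
  have hsum : ∑ i, c i = 0 := by
    simp [c, Finset.sum_sub_distrib, hs']
  let q : ZMod p → ZMod p := fun k => ∑ i, c i * c (k - i)
  have htot : ∑ k, q k = 0 := by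
    simp only [q]
    rw [Finset.sum_comm]
    refine Finset.sum_eq_zero fun i _ => ?_
    rw [← Finset.mul_sum, show ∑ k, c (k - i) = ∑ k, c k from Equiv.sum_comp (Equiv.subRight i) c, hsum, mul_zero]
  have hq0 : ∀ k, k ≠ 0 → q k = 0 := by
    intro k hk
    simp only [q, c, sub_mul, mul_sub, Finset.sum_sub_distrib]
    rw [hsq k hk, Finset.sum_eq_single k (f := fun i => (if i ∈ A then (1 : ZMod p) else 0) * if k - i = 0 then s else 0)
        (fun i _ hi => by rw [if_neg (sub_ne_zero.mpr (Ne.symm hi)), mul_zero]) (by simp),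
      Finset.sum_eq_single (0 : ZMod p) (f := fun i => (if i = 0 then s else 0) * if k - i ∈ A then (1 : ZMod p) else 0)
        (fun i _ hi => by rw [if_neg hi, zero_mul]) (by simp),
      Finset.sum_eq_zero (f := fun i => (if i = 0 then s else 0) * if k - i = 0 then s else 0)
        (fun i _ => by
          rcases eq_or_ne i 0 with rfl | hi
          · rw [sub_zero, if_neg hk, mul_zero]
          · rw [if_neg hi, zero_mul])]
    simp only [sub_self, if_true, sub_zero]
    ring
  have hq : ∀ k, q k = 0 := by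
    intro k
    rcases eq_or_ne k 0 with rfl | hk
    · have h := htot
      rwa [Finset.sum_eq_single (0 : ZMod p) (fun k _ hk => hq0 k hk) (by simp)] at h
    · exact hq0 k hk
  let M : ℕ → ZMod p := fun j => ∑ i, c i * i ^ j
  have hexp : ∀ j, ∑ t ∈ Finset.range (j + 1), (j.choose t : ZMod p) * (M t * M (j - t)) = 0 := by
    intro j
    have h1 : ∑ k, q k * k ^ j = ∑ i, ∑ l, c i * c l * (i + l) ^ j := by
      simp only [q, Finset.sum_mul]
      rw [Finset.sum_comm]
      refine Finset.sum_congr rfl fun i _ => ?_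
      rw [← Equiv.sum_comp (Equiv.addLeft i)]
      simp
    have h2 : ∑ k, q k * k ^ j = 0 := Finset.sum_eq_zero fun k _ => by rw [hq k, zero_mul]
    rw [h2] at h1
    rw [h1]
    simp only [add_pow, Finset.mul_sum]
    rw [Finset.sum_congr rfl fun i _ => Finset.sum_comm, Finset.sum_comm]
    refine Finset.sum_congr rfl fun t _ => ?_
    simp only [M]
    rw [Finset.sum_mul_sum, Finset.mul_sum]
    refine Finset.sum_congr rfl fun i _ => ?_
    rw [Finset.mul_sum]
    exact Finset.sum_congr rfl fun l _ => by ring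
  have hM : ∀ j, 2 * j < p → M j = 0 := by
    intro j
    induction j using Nat.strong_induction_on with
    | _ j ih =>
      intro hj
      have h := hexp (2 * j)
      rw [Finset.sum_eq_single j] at h
      · rw [show 2 * j - j = j by omega] at h
        rcases mul_eq_zero.mp h with h' | h'
        · exfalso
          rw [ZMod.natCast_eq_zero_iff] at h'
          have h2 : p ∣ (2 * j).factorial :=
            h'.trans (Nat.choose_mul_factorial_mul_factorial (show j ≤ 2 * j by omega) ▸
              (dvd_mul_right _ _).trans (dvd_mul_right _ _))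
          have := hp.out.dvd_factorial.mp h2
          omega
        · exact mul_self_eq_zero.mp h'
      · intro t ht htne
        rw [Finset.mem_range] at ht
        rcases lt_or_gt_of_ne htne with h' | h'
        · rw [ih t h' (by omega), zero_mul, mul_zero]
        · rw [ih (2 * j - t) (by omega) (by omega), mul_zero, mul_zero]
      · intro h'
        exact absurd (Finset.mem_range.mpr (by omega)) h'
  let P : Polynomial (ZMod p) := ∏ a ∈ A, (Polynomial.X - Polynomial.C a)
  have hdeg : P.natDegree = A.card := Polynomial.natDegree_finsetProd_X_sub_C_eq_card A _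
  have h1 : ∑ i, c i * P.eval i = 0 := by
    simp only [Polynomial.eval_eq_sum_range, Finset.mul_sum]
    rw [Finset.sum_comm]
    refine Finset.sum_eq_zero fun j hj => ?_
    rw [Finset.mem_range, hdeg] at hj
    rw [← mul_zero (P.coeff j), ← hM j (by omega), Finset.mul_sum]
    exact Finset.sum_congr rfl fun i _ => by ring
  rw [Finset.sum_eq_single (0 : ZMod p)] at h1
  · simp only [c, if_neg h0, if_pos, zero_sub, neg_mul, neg_eq_zero, mul_eq_zero] at h1
    rcases h1 with h1 | h1
    · rw [hs', ZMod.natCast_eq_zero_iff] at h1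
      have := Nat.le_of_dvd (Finset.card_pos.mpr hA) h1
      omega
    · rw [Polynomial.eval_prod, Finset.prod_eq_zero_iff] at h1
      obtain ⟨a, ha, h⟩ := h1
      simp only [Polynomial.eval_sub, Polynomial.eval_X, Polynomial.eval_C, zero_sub, neg_eq_zero] at h
      exact h0 (h ▸ ha)
  · intro i _ hi
    by_cases hiA : i ∈ A
    · rw [show P.eval i = 0 by
        rw [Polynomial.eval_prod]; exact Finset.prod_eq_zero hiA (by simp), mul_zero]
    · simp [c, hiA, hi]
  · simp

/-- Burnside: a primitive group of degree `p ^ m`, `m ≥ 2`, with a regular cyclic subgroup is doubly transitive. -/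
theorem two_transitive {G Ω : Type*} [Group G] [Finite G] [MulAction G Ω] [FaithfulSMul G Ω] [Finite Ω]
    (htrans : MulAction.IsPretransitive G Ω) (p m : ℕ) (hp : p.Prime) (hm : 2 ≤ m) (hΩ : Nat.card Ω = p ^ m)
    (C : Subgroup G) (hcyc : IsCyclic ↥C) (hC : MulAction.IsPretransitive ↥C Ω ∧ ∀ a : Ω, MulAction.stabilizer ↥C a = ⊥)
    (hprim : MulAction.IsPreprimitive G Ω) : MulAction.IsMultiplyPretransitive G Ω 2 := by
  classical
  have hn : 2 ≤ Nat.card Ω := hΩ ▸ le_trans hp.two_le (Nat.le_self_pow (by omega) p)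
  haveI := Fintype.ofFinite Ω
  haveI := Fintype.ofFinite C
  haveI := hcyc
  letI : CommGroup C := hcyc.commGroup
  haveI : Nontrivial Ω := Finite.one_lt_card_iff_nontrivial.mp hn
  haveI := hC.1
  obtain ⟨a⟩ : Nonempty Ω := inferInstance
  have hreg : ∀ y : Ω, ∃! c : C, (c : G) • a = y := fun y => by
    obtain ⟨c, hc⟩ := exists_smul_eq C a y
    refine ⟨c, hc, fun d hd => ?_⟩
    have hm : c⁻¹ * d ∈ MulAction.stabilizer C a := by
      show (c⁻¹ * d) • a = a
      rw [mul_smul, show d • a = y from hd, ← hc, inv_smul_smul]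
    rw [hC.2, Subgroup.mem_bot, inv_mul_eq_one] at hm
    exact hm.symm
  choose κ hκ hκu using hreg
  have hreg : ∀ y : Ω, ∃! c : C, (c : G) • a = y := fun y => ⟨κ y, hκ y, hκu y⟩
  have hcard : Nat.card C = Nat.card Ω :=
    Nat.card_congr (Equiv.ofBijective (fun c : C => (c : G) • a)
      ⟨fun c d e => (hreg _).unique rfl e.symm, fun y => ⟨κ y, hκ y⟩⟩)
  have hmax := MulAction.IsPreprimitive.isCoatom_stabilizer_of_isPreprimitive (G := G) a
  -- an invariant set generates a trivial or total subgroup
  have hgen : ∀ S : Set C, (∀ g : G, g • a = a → ∀ c d : C, g • (c : G) • a = (d : G) • a →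
      (c ∈ S ↔ d ∈ S)) → Subgroup.closure S = ⊥ ∨ Subgroup.closure S = ⊤ := by
    intro S hS
    have key : ∀ x ∈ Subgroup.closure S, ∀ g : G, g • a = a →
        ∃ x' ∈ Subgroup.closure S, g • (x : G) • a = (x' : G) • a := by
      intro x hx
      rw [← Subgroup.mem_toSubmonoid, Subgroup.closure_toSubmonoid_of_finite] at hx
      induction hx using Submonoid.closure_induction_left with
      | one => exact fun g hg => ⟨1, one_mem _, by simpa using hg⟩
      | mul_left s hs y hy ih =>
        intro g hg
        obtain ⟨s', hs', -⟩ := hreg (g • (s : G) • a)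
        have hs'S : s' ∈ S := (hS g hg s s' hs'.symm).mp hs
        obtain ⟨x', hx', he⟩ := ih ((s' : G)⁻¹ * g * s) (by rw [mul_smul, mul_smul, ← hs', inv_smul_smul])
        refine ⟨s' * x', mul_mem (Subgroup.subset_closure hs'S) hx', ?_⟩
        rw [Subgroup.coe_mul, Subgroup.coe_mul, mul_smul, mul_smul, ← he]
        simp [mul_smul]
    let Δ : Set Ω := {y | ∃ x ∈ Subgroup.closure S, (x : G) • a = y}
    let K : Submonoid G :=
      { carrier := {g | g • a ∈ Δ}
        one_mem' := ⟨1, one_mem _, by simp⟩
        mul_mem' := fun {g g'} hg hg' => by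
          obtain ⟨x, hx, hxe⟩ := hg'
          obtain ⟨y, hy, hye⟩ := hg
          obtain ⟨x', hx', he⟩ := key x hx ((y : G)⁻¹ * g) (by rw [mul_smul, ← hye, inv_smul_smul])
          refine ⟨y * x', mul_mem hy hx', ?_⟩
          rw [Subgroup.coe_mul, mul_smul, ← he, mul_smul, mul_smul, smul_inv_smul, hxe] }
    let L : Subgroup G := Subgroup.closure (K : Set G)
    have hL : (L : Set G) = K := by
      show ((Subgroup.closure (K : Set G)).toSubmonoid : Set G) = K
      rw [Subgroup.closure_toSubmonoid_of_finite, Submonoid.closure_eq]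
    rcases hmax.le_iff.mp (show MulAction.stabilizer G a ≤ L from fun g hg =>
      Subgroup.subset_closure (⟨1, one_mem _, by
        rw [MulAction.mem_stabilizer_iff] at hg; simp [hg]⟩ : g ∈ K)) with h | h
    · refine Or.inr (eq_top_iff.mpr fun c _ => ?_)
      have hc : (c : G) ∈ (L : Set G) := by rw [h]; trivial
      rw [hL] at hc
      obtain ⟨x, hx, hxe⟩ := hc
      exact (hreg _).unique rfl hxe ▸ hx
    · refine Or.inl ((Subgroup.eq_bot_iff_forall _).mpr fun x hx => ?_)
      have hx' : (x : G) ∈ L := Subgroup.subset_closure (⟨x, hx, rfl⟩ : (x : G) ∈ K)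
      rw [h] at hx'
      exact (hreg a).unique hx' (by simp)
  -- suborbits
  let T : C → Set C := fun c => {d | ∃ g : G, g • a = a ∧ g • (c : G) • a = (d : G) • a}
  have hTinv : ∀ c, ∀ g : G, g • a = a → ∀ x y : C, g • (x : G) • a = (y : G) • a →
      (x ∈ T c ↔ y ∈ T c) := by
    intro c g hg x y hxy
    constructor
    · rintro ⟨h, hh, he⟩
      exact ⟨g * h, by rw [mul_smul, hh, hg], by rw [mul_smul, he, hxy]⟩
    · rintro ⟨h, hh, he⟩
      exact ⟨g⁻¹ * h, by rw [mul_smul, hh, inv_smul_eq_iff, hg],
        by rw [mul_smul, he, inv_smul_eq_iff, hxy]⟩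
  have hTself : ∀ c, c ∈ T c := fun c => ⟨1, one_smul _ _, one_smul _ _⟩
  have hTone : ∀ c, c ≠ 1 → (1 : C) ∉ T c := by
    rintro c hc ⟨g, hg, he⟩
    rw [Subgroup.coe_one, one_smul] at he
    exact hc ((hreg a).unique (MulAction.injective g (he.trans hg.symm)) (by simp))
  have hInd : ∀ (R : Type) [CommRing R] (c : C), Inv a fun x => if x ∈ T c then (1 : R) else 0 :=
    fun R _ c g hg x y hxy => if_congr (hTinv c g hg x y hxy) rfl rfl
  have hTeq : ∀ c d x, x ∈ T c → x ∈ T d → d ∈ T c := by
    rintro c d x ⟨g, hg, he⟩ ⟨g', hg', he'⟩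
    exact ⟨g'⁻¹ * g, by rw [mul_smul, hg, inv_smul_eq_iff, hg'],
      by rw [mul_smul, he, ← he', inv_smul_smul]⟩
  -- the multiplier argument
  have hfull : ∀ p : ℕ, p.Prime → p ∣ Nat.card C → ∀ c x : C, x ^ p ≠ 1 → x ∈ T c →
      ∀ z : C, z ^ p = 1 → x * z ∈ T c := by
    intro p hp hpC c x hx hxT z hz
    haveI := Fact.mk hp
    haveI : NeZero p := ⟨hp.ne_zero⟩
    let F : MonoidAlgebra (ZMod p) C :=
      ∑ t ∈ Finset.univ.filter (· ∈ T c), MonoidAlgebra.single t 1
    have hFc : ∀ t, F.coeff t = if t ∈ T c then 1 else 0 := by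
      intro t
      simp [F, MonoidAlgebra.coeff_sum, Finsupp.single_apply, Finset.sum_ite_eq']
    have hpow : ∀ k : ℕ, Inv a fun t => (F ^ k).coeff t := by
      intro k
      induction k with
      | zero =>
        intro g hg u v huv
        simp only [pow_zero, MonoidAlgebra.one_def, MonoidAlgebra.coeff_single, Finsupp.single_apply]
        refine if_congr ?_ rfl rfl
        constructor
        · rintro rfl
          rw [Subgroup.coe_one, one_smul, hg] at huv
          exact (hreg a).unique (by simp) huv.symm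
        · rintro rfl
          rw [Subgroup.coe_one, one_smul] at huv
          exact (hreg a).unique (by simp) (MulAction.injective g (huv.trans hg.symm))
      | succ k ih =>
        have e : (fun t => (F ^ (k + 1)).coeff t) =
            fun t => ∑ y : C, (F ^ k).coeff y * (if y⁻¹ * t ∈ T c then (1 : ZMod p) else 0) := by
          funext t
          rw [pow_succ, MonoidAlgebra.coeff_mul_antidiag (F ^ k) F t
            (Finset.univ.map ⟨fun y => (y, y⁻¹ * t), fun u v e => congrArg Prod.fst e⟩)]
          · refine (Finset.sum_map _ _ _).trans (Finset.sum_congr rfl fun y _ => ?_)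
            exact congrArg _ (hFc _)
          · intro q
            simp only [Finset.mem_map, Finset.mem_univ, true_and, Function.Embedding.coeFn_mk]
            constructor
            · rintro ⟨y, rfl⟩; exact mul_inv_cancel_left _ _
            · intro h
              refine ⟨q.1, Prod.ext rfl ?_⟩
              show q.1⁻¹ * t = q.2
              rw [← h, inv_mul_cancel_left]
        rw [e]
        exact inv_conv hreg ih (hInd _ c)
    haveI : CharP (MonoidAlgebra (ZMod p) C) p :=
      charP_of_injective_algebraMap (algebraMap (ZMod p) (MonoidAlgebra (ZMod p) C)).injective p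
    have hFp : ∀ t, (F ^ p).coeff t =
        ((Finset.univ.filter fun u => u ∈ T c ∧ u ^ p = t).card : ZMod p) := by
      intro t
      rw [show F ^ p = ∑ u ∈ Finset.univ.filter (· ∈ T c), MonoidAlgebra.single u (1 : ZMod p) ^ p
        from sum_pow_char p _ _]
      simp only [MonoidAlgebra.single_pow, one_pow, MonoidAlgebra.coeff_sum, Finsupp.coe_finset_sum,
        Finset.sum_apply, MonoidAlgebra.coeff_single, Finsupp.single_apply, Finset.sum_boole,
        Finset.filter_filter]
    let S : Set C := {t | t ≠ 1 ∧ (F ^ p).coeff t ≠ 0}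
    have hS : ∀ g : G, g • a = a → ∀ u v : C, g • (u : G) • a = (v : G) • a → (u ∈ S ↔ v ∈ S) := by
      intro g hg u v huv
      have h1 : (F ^ p).coeff u = (F ^ p).coeff v := hpow p g hg u v huv
      have h2 : u = 1 ↔ v = 1 := by
        constructor
        · rintro rfl
          rw [Subgroup.coe_one, one_smul, hg] at huv
          exact (hreg a).unique huv.symm (by simp)
        · rintro rfl
          rw [Subgroup.coe_one, one_smul] at huv
          exact (hreg a).unique (MulAction.injective g (huv.trans hg.symm)) (by simp)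
      simp only [S, Set.mem_ofPred_eq, h1, not_congr h2, ne_eq]
    obtain ⟨w, hw⟩ := exists_prime_orderOf_dvd_card' (G := C) p hpC
    have hle : Subgroup.closure S ≤ (powMonoidHom p : C →* C).range := by
      rw [Subgroup.closure_le]
      rintro t ⟨-, ht⟩
      rw [hFp] at ht
      obtain ⟨u, hu⟩ := Finset.card_ne_zero.mp (fun e => ht (by rw [e]; simp))
      exact ⟨u, (Finset.mem_filter.mp hu).2.2⟩
    have hSe : Subgroup.closure S = ⊥ := by
      refine (hgen S hS).resolve_right fun e => ?_
      rw [e] at hle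
      have hsurj : Function.Surjective (powMonoidHom p : C →* C) := fun t => hle (Subgroup.mem_top t)
      have hw1 : w ≠ 1 := fun h => hp.one_lt.ne (by rw [← hw, h, orderOf_one])
      exact hw1 ((Finite.injective_iff_surjective.mpr hsurj)
        (show w ^ p = (1 : C) ^ p by rw [one_pow, ← hw, pow_orderOf_eq_one]))
    have hz0 : (F ^ p).coeff (x ^ p) = 0 := by
      by_contra h
      exact hx (Subgroup.mem_bot.mp (hSe ▸ Subgroup.subset_closure (⟨hx, h⟩ : x ^ p ∈ S)))
    rw [hFp, ZMod.natCast_eq_zero_iff] at hz0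
    set B := Finset.univ.filter fun u => u ∈ T c ∧ u ^ p = x ^ p with hB
    set P := Finset.univ.filter fun u : C => u ^ p = 1 with hP
    have hBsub : B ⊆ P.image (x * ·) := fun u hu => by
      obtain ⟨-, -, hu⟩ := Finset.mem_filter.mp hu
      exact Finset.mem_image.mpr ⟨x⁻¹ * u, Finset.mem_filter.mpr ⟨Finset.mem_univ _,
        by rw [mul_pow, inv_pow, hu, inv_mul_cancel]⟩, mul_inv_cancel_left x u⟩
    have hPle : P.card ≤ p := IsCyclic.card_pow_eq_one_le hp.pos
    have hB1 : 0 < B.card := Finset.card_pos.mpr ⟨x, Finset.mem_filter.mpr ⟨Finset.mem_univ _, hxT, rfl⟩⟩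
    have hcardle : B.card ≤ (P.image (x * ·)).card := Finset.card_le_card hBsub
    have hle' : (P.image (x * ·)).card ≤ B.card := by
      refine le_trans Finset.card_image_le ?_
      have := Nat.le_of_dvd hB1 hz0
      omega
    have hm : x * z ∈ P.image (x * ·) :=
      Finset.mem_image.mpr ⟨z, Finset.mem_filter.mpr ⟨Finset.mem_univ _, hz⟩, rfl⟩
    rw [← Finset.eq_of_subset_of_card_le hBsub hle'] at hm
    exact (Finset.mem_filter.mp hm).2.1
  -- every suborbit meets every subgroup of prime order
  have hmeet : ∀ p : ℕ, p.Prime → p ∣ Nat.card C → ∀ c : C, c ≠ 1 →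
      ∃ x ∈ T c, x ^ p = 1 := by
    intro p hp hpC c hc
    haveI := Fact.mk hp
    by_contra hno
    push Not at hno
    let S : Set C := {t | ∀ x ∈ T c, x * t ∈ T c}
    have hSval : ∀ t, t ∈ S ↔ (∑ y : C, (if y ∈ T c then (1 : ℤ) else 0) *
        (fun u => if u⁻¹ ∈ T c then (1 : ℤ) else 0) (y⁻¹ * t)) =
        ((Finset.univ.filter (· ∈ T c)).card : ℤ) := by
      intro t
      have e : (∑ y : C, (if y ∈ T c then (1 : ℤ) else 0) *
          (fun u => if u⁻¹ ∈ T c then (1 : ℤ) else 0) (y⁻¹ * t)) =
          ((Finset.univ.filter fun y => y ∈ T c ∧ t⁻¹ * y ∈ T c).card : ℤ) := by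
        simp only [mul_inv_rev, inv_inv, mul_ite, mul_one, mul_zero, ← ite_and, Finset.sum_boole]
        congr 2
        exact Finset.filter_congr fun y _ => and_comm
      rw [e, Nat.cast_inj]
      constructor
      · intro ht
        congr 1
        refine Finset.filter_congr fun y _ => ⟨And.left, fun hy => ⟨hy, ?_⟩⟩
        -- right translation by `t` permutes the suborbit
        have hb : Function.Bijective (fun u : T c => (⟨u * t, ht u u.2⟩ : T c)) :=
          Finite.injective_iff_bijective.mp fun u v e =>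
            Subtype.ext (mul_right_cancel (congrArg Subtype.val e))
        obtain ⟨u, hu⟩ := hb.2 ⟨y, hy⟩
        have hu' : (u : C) * t = y := congrArg Subtype.val hu
        rw [← hu', mul_comm (u : C) t, inv_mul_cancel_left]
        exact u.2
      · intro he u hu
        have hsub : (Finset.univ.filter fun y => y ∈ T c ∧ t⁻¹ * y ∈ T c) ⊆
            (Finset.univ.filter fun y => y ∈ T c) := fun y hy => by
          simp only [Finset.mem_filter] at hy ⊢; exact ⟨hy.1, hy.2.1⟩
        have heq := Finset.eq_of_subset_of_card_le hsub he.ge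
        have hall : ∀ y, y ∈ T c → t⁻¹ * y ∈ T c := fun y hy => by
          have hy' : y ∈ (Finset.univ.filter fun y => y ∈ T c) := Finset.mem_filter.mpr ⟨Finset.mem_univ _, hy⟩
          rw [← heq] at hy'
          exact (Finset.mem_filter.mp hy').2.2
        have hb : Function.Bijective (fun u : T c => (⟨t⁻¹ * u, hall u u.2⟩ : T c)) :=
          Finite.injective_iff_bijective.mp fun u v e =>
            Subtype.ext (mul_left_cancel (congrArg Subtype.val e))
        obtain ⟨v, hv⟩ := hb.2 ⟨u, hu⟩
        have hv' : t⁻¹ * (v : C) = u := congrArg Subtype.val hv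
        rw [← hv', mul_comm _ t, mul_inv_cancel_left]
        exact v.2
    have hS : ∀ g : G, g • a = a → ∀ u v : C, g • (u : G) • a = (v : G) • a → (u ∈ S ↔ v ∈ S) := by
      intro g hg u v huv
      have h1 := inv_conv hreg (hInd ℤ c) (inv_flip hreg (hInd ℤ c)) g hg u v huv
      rw [hSval, hSval]
      exact ⟨fun h => h1.symm.trans h, fun h => h1.trans h⟩
    obtain ⟨w, hw⟩ := exists_prime_orderOf_dvd_card' (G := C) p hpC
    have hwS : w ∈ S := fun x hxT => hfull p hp hpC c x (hno x hxT) hxT w (by rw [← hw, pow_orderOf_eq_one])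
    rcases hgen S hS with h | h
    · have h1 : w = 1 := Subgroup.mem_bot.mp (h ▸ Subgroup.subset_closure hwS)
      rw [h1, orderOf_one] at hw
      exact hp.one_lt.ne hw
    · have hcl : ∀ t ∈ Subgroup.closure S, ∀ x ∈ T c, x * t ∈ T c := by
        intro t ht
        rw [← Subgroup.mem_toSubmonoid, Subgroup.closure_toSubmonoid_of_finite] at ht
        induction ht using Submonoid.closure_induction with
        | mem t ht => exact ht
        | one => simp
        | mul u v _ _ hu hv => exact fun x hx => by rw [← mul_assoc]; exact hv _ (hu x hx)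
      have := hcl c⁻¹ (h ▸ Subgroup.mem_top _) c (hTself c)
      rw [mul_inv_cancel] at this
      exact hTone c hc this
  haveI := Fact.mk hp
  have hpC : p ∣ Nat.card C := by rw [hcard, hΩ]; exact dvd_pow_self p (by omega)
  obtain ⟨w, hw⟩ := exists_prime_orderOf_dvd_card' (G := C) p hpC
  haveI : NeZero p := ⟨hp.ne_zero⟩
  let e : ZMod p → C := fun i => w ^ i.val
  have he : Function.Injective e := fun i j h => ZMod.val_injective p
    (pow_injOn_Iio_orderOf (by simp [hw, ZMod.val_lt]) (by simp [hw, ZMod.val_lt]) h)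
  have hepow : ∀ i, e i ^ p = 1 := fun i => by
    show (w ^ i.val) ^ p = 1
    rw [← pow_mul, mul_comm, pow_mul, show w ^ p = 1 from hw ▸ pow_orderOf_eq_one w, one_pow]
  have heimg : (Finset.univ.filter fun z : C => z ^ p = 1) = Finset.univ.image e := by
    refine (Finset.eq_of_subset_of_card_le ?_ ?_).symm
    · intro z hz
      obtain ⟨i, -, rfl⟩ := Finset.mem_image.mp hz
      exact Finset.mem_filter.mpr ⟨Finset.mem_univ _, hepow i⟩
    · rw [Finset.card_image_of_injective _ he, Finset.card_univ, ZMod.card]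
      exact IsCyclic.card_pow_eq_one_le hp.pos
  have he0 : e 0 = 1 := by simp [e]
  have headd : ∀ i j, e (i + j) = e i * e j := fun i j => by
    show w ^ (i + j).val = w ^ i.val * w ^ j.val
    rw [← pow_add, pow_eq_pow_iff_modEq, hw, ← ZMod.natCast_eq_natCast_iff]
    simp
  have hesub : ∀ k i, (e i)⁻¹ * e k = e (k - i) := fun k i => by
    rw [inv_mul_eq_iff_eq_mul, ← headd, add_sub_cancel]
  let A : C → Finset (ZMod p) := fun c => Finset.univ.filter fun i => e i ∈ T c
  have key : ∀ c : C, c ≠ 1 → 2 * (A c).card < p → False := by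
    intro c hc hs
    let f : C → ZMod p := fun x => if x ∈ T c then 1 else 0
    let fa : C → ZMod p := fun x => if x ^ p = 1 then f x else 0
    let fb : C → ZMod p := fun x => if x ^ p = 1 then 0 else f x
    have hsplit : ∀ x, f x = fa x + fb x := fun x => by simp only [fa, fb]; split <;> simp
    have hfb : ∀ y z, z ^ p = 1 → fb (y * z) = fb y := by
      intro y z hz
      have h1 : (y * z) ^ p = y ^ p := by rw [mul_pow, hz, mul_one]
      simp only [fb, h1]
      split
      · rfl
      · rename_i hy
        refine if_congr ⟨fun h => ?_, fun h => hfull p hp hpC c y hy h z hz⟩ rfl rfl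
        have := hfull p hp hpC c (y * z) (h1 ▸ hy) h z⁻¹ (by rw [inv_pow, hz, inv_one])
        rwa [mul_inv_cancel_right] at this
    have hsA : ∑ y, fa y = ((A c).card : ZMod p) := by
      simp only [fa, f, ← ite_and, Finset.sum_boole]
      congr 1
      rw [← Finset.card_image_of_injective (A c) he]
      congr 1
      ext x
      simp only [Finset.mem_filter, Finset.mem_univ, true_and, Finset.mem_image, A]
      constructor
      · rintro ⟨hx, hxT⟩
        have hx' : x ∈ Finset.univ.image e := heimg ▸ Finset.mem_filter.mpr ⟨Finset.mem_univ _, hx⟩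
        obtain ⟨i, -, rfl⟩ := Finset.mem_image.mp hx'
        exact ⟨i, hxT, rfl⟩
      · rintro ⟨i, hi, rfl⟩
        exact ⟨hepow i, hi⟩
    have hconv : ∀ t, ∑ y, f y * f (y⁻¹ * t) =
        (∑ y, fa y * fa (y⁻¹ * t)) + 2 * ((A c).card : ZMod p) * fb t := by
      intro t
      simp only [hsplit, add_mul, mul_add, Finset.sum_add_distrib]
      have hbb : ∑ y, fb y * fb (y⁻¹ * t) = 0 := by
        refine sum_eq_zero_of_translate w hw _ fun y z hz => ?_
        rw [hfb y z hz, mul_inv_rev, mul_comm z⁻¹, mul_right_comm,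
          hfb (y⁻¹ * t) z⁻¹ (by rw [inv_pow, hz, inv_one])]
      have hab : ∀ y, fa y * fb (y⁻¹ * t) = fa y * fb t := by
        intro y
        by_cases hy : y ^ p = 1
        · rw [mul_comm y⁻¹ t, hfb t y⁻¹ (by rw [inv_pow, hy, inv_one])]
        · simp [fa, hy]
      have hba : ∑ y, fb y * fa (y⁻¹ * t) = ∑ y, fa y * fb (y⁻¹ * t) := by
        refine Fintype.sum_equiv ((Equiv.inv C).trans (Equiv.mulRight t)) _ _ fun y => ?_
        simp [mul_comm]
      rw [hba, hbb, Finset.sum_congr rfl fun y _ => hab y, ← Finset.sum_mul, hsA]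
      ring
    let g : C → ZMod p := fun t => (∑ y, f y * f (y⁻¹ * t)) - 2 * ((A c).card : ZMod p) * f t
    have hg : Inv a g := fun h hh u v huv => by
      show _ - _ = _ - _
      have h1 : (∑ y, f y * f (y⁻¹ * u)) = ∑ y, f y * f (y⁻¹ * v) :=
        inv_conv hreg (hInd (ZMod p) c) (hInd (ZMod p) c) h hh u v huv
      have h2 : f u = f v := hInd (ZMod p) c h hh u v huv
      rw [h1, h2]
    have hgval : ∀ t, g t = (∑ y, fa y * fa (y⁻¹ * t)) - 2 * ((A c).card : ZMod p) * fa t := by
      intro t
      simp only [g]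
      rw [hconv t, hsplit t]
      ring
    let S : Set C := {t | t ≠ 1 ∧ g t ≠ 0}
    have hS : ∀ h : G, h • a = a → ∀ u v : C, h • (u : G) • a = (v : G) • a → (u ∈ S ↔ v ∈ S) := by
      intro h hh u v huv
      have h2 : u = 1 ↔ v = 1 := by
        constructor
        · rintro rfl
          rw [Subgroup.coe_one, one_smul, hh] at huv
          exact (hreg a).unique huv.symm (by simp)
        · rintro rfl
          rw [Subgroup.coe_one, one_smul] at huv
          exact (hreg a).unique (MulAction.injective h (huv.trans hh.symm)) (by simp)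
      simp only [S, Set.mem_ofPred_eq, hg h hh u v huv, not_congr h2, ne_eq]
    have hle : Subgroup.closure S ≤ (powMonoidHom p : C →* C).ker := by
      rw [Subgroup.closure_le]
      rintro t ⟨-, ht⟩
      by_contra hn'
      have hn'' : ¬ t ^ p = 1 := hn'
      refine ht ?_
      rw [hgval, show fa t = 0 from if_neg hn'', mul_zero, sub_zero]
      refine Finset.sum_eq_zero fun y _ => ?_
      by_cases hy : y ^ p = 1
      · rw [show fa (y⁻¹ * t) = 0 from if_neg (by rwa [mul_pow, inv_pow, hy, inv_one, one_mul]), mul_zero]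
      · rw [show fa y = 0 from if_neg hy, zero_mul]
    have hSe : Subgroup.closure S = ⊥ := by
      refine (hgen S hS).resolve_right fun e' => ?_
      rw [e'] at hle
      obtain ⟨x, hx⟩ := IsCyclic.exists_generator (α := C)
      have hxp : x ^ p = 1 := hle (Subgroup.mem_top x)
      have h1 : orderOf x = Nat.card C := orderOf_eq_card_of_forall_mem_zpowers hx
      have h2 := orderOf_dvd_of_pow_eq_one hxp
      rw [h1, hcard, hΩ] at h2
      have h3 := (Nat.pow_dvd_pow_iff_le_right hp.one_lt).mp (h2.trans (dvd_of_eq (pow_one p).symm))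
      omega
    refine no_small_square_zero (A c) ?_ ?_ hs fun k hk => ?_
    · simpa [A, he0] using hTone c hc
    · obtain ⟨x, hxT, hx⟩ := hmeet p hp hpC c hc
      have hx' : x ∈ Finset.univ.image e := heimg ▸ Finset.mem_filter.mpr ⟨Finset.mem_univ _, hx⟩
      obtain ⟨i, -, rfl⟩ := Finset.mem_image.mp hx'
      exact ⟨i, Finset.mem_filter.mpr ⟨Finset.mem_univ _, hxT⟩⟩
    · have h0 : g (e k) = 0 := by
        by_contra h
        have : e k = 1 := Subgroup.mem_bot.mp (hSe ▸ Subgroup.subset_closure
          (⟨fun e' => hk (he (e'.trans he0.symm)), h⟩ : e k ∈ S))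
        exact hk (he (this.trans he0.symm))
      rw [hgval, sub_eq_zero] at h0
      have hfa : ∀ i, fa (e i) = if i ∈ A c then 1 else 0 := fun i => by
        simp [fa, f, A, hepow i]
      rw [hfa k] at h0
      rw [← h0, ← Finset.sum_subset (Finset.subset_univ (Finset.univ.image e))
        (fun y _ hy => ?_), Finset.sum_image fun i _ j _ h => he h]
      · exact Finset.sum_congr rfl fun i _ => by rw [hfa, hesub, hfa]
      · rw [← heimg] at hy
        rw [show fa y = 0 from if_neg fun h => hy (Finset.mem_filter.mpr ⟨Finset.mem_univ _, h⟩), zero_mul]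
  have hsame : ∀ c d : C, c ≠ 1 → d ≠ 1 → d ∈ T c := by
    intro c d hc hd
    by_contra hno
    have hdisj : Disjoint (A c) (A d) := Finset.disjoint_left.mpr fun i hi hi' =>
      hno (hTeq c d (e i) (Finset.mem_filter.mp hi).2 (Finset.mem_filter.mp hi').2)
    have hsub : A c ∪ A d ⊆ Finset.univ.erase 0 := by
      intro i hi
      refine Finset.mem_erase.mpr ⟨?_, Finset.mem_univ _⟩
      rintro rfl
      rcases Finset.mem_union.mp hi with h | h
      · exact hTone c hc (he0 ▸ (Finset.mem_filter.mp h).2)
      · exact hTone d hd (he0 ▸ (Finset.mem_filter.mp h).2)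
    have := Finset.card_le_card hsub
    rw [Finset.card_union_of_disjoint hdisj, Finset.card_erase_of_mem (Finset.mem_univ _),
      Finset.card_univ, ZMod.card] at this
    have := hp.pos
    by_cases h : 2 * (A c).card < p
    · exact key c hc h
    · exact key d hd (by omega)
  rw [MulAction.is_two_pretransitive_iff]
  intro w x y z hwx hyz
  haveI := htrans
  obtain ⟨g₁, hg₁⟩ := exists_smul_eq G w a
  obtain ⟨g₂, hg₂⟩ := exists_smul_eq G y a
  have hne1 : κ (g₁ • x) ≠ 1 := fun e => hwx (MulAction.injective g₁ (hg₁.trans (by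
    show a = g₁ • x
    rw [← hκ (g₁ • x), e]; simp)))
  have hne2 : κ (g₂ • z) ≠ 1 := fun e => hyz (MulAction.injective g₂ (hg₂.trans (by
    show a = g₂ • z
    rw [← hκ (g₂ • z), e]; simp)))
  obtain ⟨g, hg, he⟩ := hsame _ _ hne1 hne2
  rw [hκ, hκ] at he
  refine ⟨g₂⁻¹ * g * g₁, ?_, ?_⟩
  · rw [mul_smul, mul_smul, hg₁, hg, inv_smul_eq_iff, hg₂]
  · rw [mul_smul, mul_smul, he, inv_smul_smul]



/-- Let `p` be a prime, `m ≥ 2`, and `G` a transitive but not doubly transitive permutation group on `p ^ m` points containing a permutation of order `p ^ m` (necessarily a full cycle). Then `G` is imprimitive, and the normal closure in `G` of the `p ^ (m - 1)`-th power of that permutation is an intransitive normal subgroup. -/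
theorem result {Ω : Type*} [Fintype Ω] [DecidableEq Ω] (p m : ℕ) (hp : p.Prime) (hm : 2 ≤ m) (hΩ : Fintype.card Ω = p ^ m) (G : Subgroup (Equiv.Perm Ω)) (htr : MulAction.IsPretransitive G Ω) (h2 : ¬ MulAction.IsMultiplyPretransitive G Ω 2) (g : G) (hg : orderOf g = p ^ m) : ¬ MulAction.IsPreprimitive G Ω ∧ ¬ MulAction.IsPretransitive (Subgroup.normalClosure ({g ^ (p ^ (m - 1))} : Set G)) Ω := by
  classical
  have hcard : Nat.card Ω = p ^ m := by rw [Nat.card_eq_fintype_card, hΩ]
  -- the permutation is a full cycle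
  obtain ⟨hfin, hreg⟩ : (∀ a b : Ω, ∃ i : ℕ, (g : Equiv.Perm Ω) ^ i • a = b) ∧
      ∀ (a : Ω) (i : ℕ), (g : Equiv.Perm Ω) ^ i • a = a → p ^ m ∣ i := by
    have hper : ∃ a : Ω, Function.minimalPeriod ((g : Equiv.Perm Ω) • ·) a = p ^ m := by
      by_contra h
      push Not at h
      have hpow : (g : Equiv.Perm Ω) ^ p ^ (m - 1) = 1 := by
        refine Equiv.ext fun a => ?_
        have hd : Function.minimalPeriod ((g : Equiv.Perm Ω) • ·) a ∣ p ^ m := by
          refine MulAction.pow_smul_eq_iff_minimalPeriod_dvd.mp ?_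
          rw [← Subgroup.coe_pow, ← hg, pow_orderOf_eq_one, Subgroup.coe_one, one_smul]
        obtain ⟨j, hj, hje⟩ := (Nat.dvd_prime_pow hp).mp hd
        have hjm : j ≤ m - 1 := by
          rcases hj.lt_or_eq with hj | rfl
          · omega
          · exact absurd hje (h a)
        exact MulAction.pow_smul_eq_iff_minimalPeriod_dvd.mpr (hje ▸ pow_dvd_pow p hjm)
      have h1 : orderOf g ∣ p ^ (m - 1) := orderOf_dvd_of_pow_eq_one (Subtype.ext hpow)
      rw [hg, Nat.pow_dvd_pow_iff_le_right hp.one_lt] at h1
      omega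
    obtain ⟨a0, ha0⟩ := hper
    have horb : ∀ b : Ω, ∃ i : ℕ, (g : Equiv.Perm Ω) ^ i • a0 = b := by
      have hinj : Function.Injective fun i : Fin (p ^ m) => (g : Equiv.Perm Ω) ^ (i : ℕ) • a0 := by
        intro i j hij
        refine Fin.ext ?_
        simp only [← smul_iterate_apply] at hij
        exact Function.iterate_injOn_Iio_minimalPeriod (Set.mem_Iio.mpr (i.isLt.trans_eq ha0.symm)) (Set.mem_Iio.mpr (j.isLt.trans_eq ha0.symm)) hij
      have hb : Function.Bijective fun i : Fin (p ^ m) => (g : Equiv.Perm Ω) ^ (i : ℕ) • a0 :=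
        (Fintype.bijective_iff_injective_and_card _).mpr ⟨hinj, by rw [Fintype.card_fin, hΩ]⟩
      intro b
      obtain ⟨i, hi⟩ := hb.2 b
      exact ⟨i, hi⟩
    have hfix : ∀ (a : Ω) (i : ℕ), (g : Equiv.Perm Ω) ^ i • a = a → p ^ m ∣ i := by
      intro a i hi
      obtain ⟨j, rfl⟩ := horb a
      rw [smul_smul, ← pow_add, add_comm, pow_add, ← smul_smul, smul_left_cancel_iff] at hi
      exact ha0 ▸ MulAction.pow_smul_eq_iff_minimalPeriod_dvd.mp hi
    refine ⟨fun a b => ?_, hfix⟩
    obtain ⟨i, rfl⟩ := horb a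
    obtain ⟨j, rfl⟩ := horb b
    refine ⟨p ^ m * (i + 1) - i + j, ?_⟩
    have hle : i ≤ p ^ m * (i + 1) := le_trans (Nat.le_succ i) (Nat.le_mul_of_pos_left _ (pow_pos hp.pos m))
    rw [smul_smul, ← pow_add, show p ^ m * (i + 1) - i + j + i = j + p ^ m * (i + 1) by omega, pow_add,
      pow_mul, show (g : Equiv.Perm Ω) ^ p ^ m = 1 by
        rw [← Subgroup.coe_pow, ← hg, pow_orderOf_eq_one, Subgroup.coe_one], one_pow, mul_one]
  haveI : Finite G := inferInstance
  have hC : MulAction.IsPretransitive ↥(Subgroup.zpowers g) Ω ∧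
      ∀ a : Ω, MulAction.stabilizer ↥(Subgroup.zpowers g) a = ⊥ := by
    refine ⟨⟨fun a b => ?_⟩, fun a => (Subgroup.eq_bot_iff_forall _).mpr ?_⟩
    · obtain ⟨i, hi⟩ := hfin a b
      exact ⟨⟨g ^ i, Subgroup.npow_mem_zpowers g i⟩, hi⟩
    · rintro ⟨x, hx⟩ hxa
      obtain ⟨i, rfl⟩ := mem_powers_iff_mem_zpowers.mpr hx
      refine Subtype.ext ?_
      show g ^ i = 1
      obtain ⟨k, rfl⟩ := hreg a i hxa
      rw [pow_mul, ← hg, pow_orderOf_eq_one, one_pow]
  have hnprim : ¬ MulAction.IsPreprimitive G Ω := fun hprim =>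
    h2 (two_transitive htr p m hp hm hcard (Subgroup.zpowers g) inferInstance hC hprim)
  refine ⟨hnprim, ?_⟩
  haveI := htr
  haveI : Nonempty Ω := Fintype.card_pos_iff.mp (by rw [hΩ]; exact pow_pos hp.pos m)
  obtain ⟨B, hB, hBn⟩ : ∃ B : Set Ω, MulAction.IsBlock G B ∧ ¬ MulAction.IsTrivialBlock B := by
    by_contra h
    push Not at h
    exact hnprim { isTrivialBlock_of_isBlock := fun {B} hB => h B hB }
  have hBne : B.Nonempty := by
    by_contra h
    exact hBn (Or.inl (by rw [Set.not_nonempty_iff_eq_empty.mp h]; exact Set.subsingleton_empty))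
  have hb := hB.ncard_block_mul_ncard_orbit_eq hBne
  set N := (Set.range fun x : G => x • B).ncard with hN
  have hBgt : 1 < B.ncard := Set.one_lt_ncard_iff_nontrivial.mpr (Set.not_subsingleton_iff.mp fun h => hBn (Or.inl h))
  have horbN : (MulAction.orbit G B).ncard = N := rfl
  rw [horbN, hcard] at hb
  obtain ⟨j, hj, hjN⟩ := (Nat.dvd_prime_pow hp).mp ⟨B.ncard, hb.symm.trans (mul_comm _ _)⟩
  have hjm : j ≤ m - 1 := by
    by_contra h
    have h' : j = m := by omega
    rw [hjN, h'] at hb
    have : B.ncard = 1 := mul_right_cancel₀ (pow_ne_zero m hp.ne_zero) (hb.trans (one_mul _).symm)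
    omega
  -- the small power fixes every block
  have hfixB : ∀ x : G, (g ^ p ^ (m - 1)) • (x • B) = x • B := by
    intro x
    have hper : Function.minimalPeriod (fun s : Set Ω => g • s) (x • B) ∣ p ^ m := by
      refine MulAction.pow_smul_eq_iff_minimalPeriod_dvd.mp ?_
      rw [← hg, pow_orderOf_eq_one, one_smul]
    obtain ⟨i, hi, hie⟩ := (Nat.dvd_prime_pow hp).mp hper
    have hle : p ^ i ≤ N := by
      rw [← hie, hN]
      refine le_trans (le_of_eq ?_) (Set.ncard_le_ncard (s := (fun k : ℕ => g ^ k • (x • B)) '' Set.Iio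
        (Function.minimalPeriod (fun s : Set Ω => g • s) (x • B))) ?_ (Set.toFinite _))
      · rw [Set.InjOn.ncard_image, ← Finset.coe_Iio, Set.ncard_coe_finset, Nat.card_Iio]
        intro a ha b hb hab
        simp only [← smul_iterate_apply] at hab
        exact Function.iterate_injOn_Iio_minimalPeriod ha hb hab
      · rintro _ ⟨k, -, rfl⟩
        exact ⟨g ^ k * x, by simp [mul_smul]⟩
    rw [hjN] at hle
    have hij := (Nat.pow_le_pow_iff_right hp.one_lt).mp hle
    exact MulAction.pow_smul_eq_iff_minimalPeriod_dvd.mpr (hie ▸ pow_dvd_pow p (hij.trans hjm))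
  intro hK
  have hBuniv : B = Set.univ := by
    refine Set.eq_univ_of_forall fun b => ?_
    obtain ⟨a, ha⟩ := hBne
    obtain ⟨⟨k, hk⟩, hka⟩ := hK.exists_smul_eq a b
    have hle : Subgroup.normalClosure ({g ^ (p ^ (m - 1))} : Set G) ≤ MulAction.stabilizer G B := by
      have hker : Subgroup.normalClosure ({g ^ (p ^ (m - 1))} : Set G) ≤ ⨅ x : G, MulAction.stabilizer G (x • B) := by
        have hn : (⨅ x : G, MulAction.stabilizer G (x • B)).Normal := by
          refine ⟨fun n hn y => ?_⟩
          simp only [Subgroup.mem_iInf, MulAction.mem_stabilizer_iff] at hn ⊢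
          intro x
          rw [mul_smul, mul_smul, ← mul_smul y⁻¹ x B, hn, smul_smul, mul_inv_cancel_left]
        haveI := hn
        refine Subgroup.normalClosure_le_normal ?_
        rintro _ rfl
        simp only [SetLike.mem_coe, Subgroup.mem_iInf, MulAction.mem_stabilizer_iff]
        exact hfixB
      refine hker.trans ((iInf_le _ 1).trans (le_of_eq ?_))
      rw [one_smul]
    have hkB : k • B = B := hle hk
    rw [← hka, ← hkB]
    exact Set.smul_mem_smul_set ha
  exact hBn (Or.inr hBuniv)

end Cfsg.Agent.S3972
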