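import Cfsg.Statements.S0779


set_option autoImplicit false
open Cfsg Matrix

namespace Cfsg.Agent.S0779

/-- Unitary transvections: let |F| = q², h the standard Hermitian form Σ x_i y_i^q and v ≠ 0 with h(v, v) = 0. The linear map x ↦ x + c h(x, v) v is an isometry of h if and only if c = 0 or c^(q−1) = −1. -/
theorem result {F : Type*} [Field F] [Fintype F] {q : ℕ} (hF : Fintype.card F = q ^ 2) (n : ℕ) (v : Fin n → F) (hv : v ≠ 0) (hv0 : Cfsg.hermForm n F q v v = 0) (c : F) : (∀ x y : Fin n → F, Cfsg.hermForm n F q ((Cfsg.unitaryTransvection n q v c).mulVec x) ((Cfsg.unitaryTransvection n q v c).mulVec y) = Cfsg.hermForm n F q x y) ↔ (c = 0 ∨ c ^ (q - 1) = -1) := by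
  classical
  obtain ⟨p, hp⟩ := CharP.exists F
  haveI := hp
  haveI : Fact p.Prime := ⟨CharP.char_is_prime F p⟩
  obtain ⟨⟨N, hN0⟩, -, hN⟩ := FiniteField.card F p
  change Fintype.card F = p ^ N at hN
  obtain ⟨k, -, hk⟩ := (Nat.dvd_prime_pow (Fact.out : p.Prime)).1
    (show q ∣ p ^ N by rw [← hN, hF]; exact Dvd.intro q (sq q).symm)
  have hadd : ∀ x y : F, (x + y) ^ q = x ^ q + y ^ q := fun x y => by
    rw [hk]; exact add_pow_char_pow x y p k
  have hinv : ∀ x : F, (x ^ q) ^ q = x := fun x => by
    rw [← pow_mul, ← sq, ← hF, FiniteField.pow_card]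
  have hq0 : q ≠ 0 := fun e => by
    have := Fintype.one_lt_card (α := F)
    rw [hF, e] at this
    simp at this
  set h := Cfsg.hermForm n F q
  have hsum : ∀ (s : Finset (Fin n)) (f : Fin n → F), (∑ i ∈ s, f i) ^ q = ∑ i ∈ s, f i ^ q := fun s f => by
    rw [hk]; exact sum_pow_char_pow p k s f
  have hherm : ∀ x y, h x y = h y x ^ q := fun x y => by
    simp only [h, Cfsg.hermForm, hsum, mul_pow, hinv]
    exact Finset.sum_congr rfl fun i _ => mul_comm _ _
  have hlin : ∀ x y (a : F) z, h (x + a • y) z = h x z + a * h y z := fun x y a z => by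
    simp only [h, Cfsg.hermForm, Finset.mul_sum, ← Finset.sum_add_distrib, Pi.add_apply,
      Pi.smul_apply, smul_eq_mul]
    exact Finset.sum_congr rfl fun i _ => by ring
  have hlin' : ∀ x y (a : F) z, h z (x + a • y) = h z x + a ^ q * h z y := fun x y a z => by
    rw [hherm, hlin, hadd, mul_pow, ← hherm, ← hherm]
  have hT : ∀ x, (Cfsg.unitaryTransvection n q v c).mulVec x = x + (c * h x v) • v := fun x => by
    change Cfsg.unitaryTransvection n q v c *ᵥ x = _
    rw [Cfsg.unitaryTransvection, Matrix.add_mulVec, Matrix.one_mulVec, Matrix.smul_mulVec,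
      Matrix.vecMulVec_mulVec, op_smul_eq_smul, smul_smul]
    congr 3
    exact Finset.sum_congr rfl fun i _ => mul_comm _ _
  have key : ∀ x y, h ((Cfsg.unitaryTransvection n q v c).mulVec x)
      ((Cfsg.unitaryTransvection n q v c).mulVec y) = h x y + (c + c ^ q) * h x v * h v y := by
    intro x y
    rw [hT, hT, hlin, hlin', hlin', hv0, mul_pow, ← hherm v y]
    ring
  have hc : c + c ^ q = 0 ↔ c = 0 ∨ c ^ (q - 1) = -1 := by
    rcases eq_or_ne c 0 with rfl | hc
    · simp [zero_pow hq0]
    · simp only [hc, false_or]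
      rw [show c ^ q = c * c ^ (q - 1) by rw [← pow_succ', Nat.sub_add_cancel (by omega)]]
      constructor
      · intro e
        exact mul_left_cancel₀ hc (by linear_combination e)
      · intro e
        rw [e]; ring
  rw [← hc]
  refine ⟨fun hall => ?_, fun e x y => by rw [key, e]; ring⟩
  obtain ⟨i, hi⟩ := Function.ne_iff.1 hv
  simp only [Pi.zero_apply] at hi
  have hxv : h (Pi.single i 1) v ≠ 0 := by
    simp [h, Cfsg.hermForm, Pi.single_apply, hi]
  have hvx : h v (Pi.single i 1) ≠ 0 := by
    rw [hherm]; exact pow_ne_zero q hxv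
  have := hall (Pi.single i 1) (Pi.single i 1)
  rw [key, add_eq_left] at this
  simpa [hxv, hvx] using this

end Cfsg.Agent.S0779
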