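import Cfsg.Statements.S0780
import Cfsg.Agent.Lib.Forms.UnitaryStd

set_option autoImplicit false
open Cfsg Matrix Cfsg.Agent.Lib.Forms

namespace Cfsg.Agent.S0780

/-- Generation of SU_n(q), n ≥ 3, (n, q) ≠ (3, 2), by unitary transvections: the subgroup generated by the elements whose matrix is x ↦ x + c h(x, v) v with v isotropic is all of SU_n(q). -/
theorem result {F : Type*} [Field F] [Fintype F] {q : ℕ} (hF : Fintype.card F = q ^ 2) (n : ℕ) (hn : 3 ≤ n) (h32 : ¬ (n = 3 ∧ q = 2)) : Subgroup.closure {A : ↥(Cfsg.SU n F q) | ∃ (v : Fin n → F) (c : F), Cfsg.hermForm n F q v v = 0 ∧ ((A : Matrix.SpecialLinearGroup (Fin n) F) : Matrix (Fin n) (Fin n) F) = Cfsg.unitaryTransvection n q v c} = ⊤ := by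
  have hq := Cfsg.Agent.Lib.Classical.Herm.two_le_q hF
  have hgen := utvGroup_hermForm hF (n := n) (by omega)
  let f : ↥(Cfsg.SU n F q) →* GL (Fin n) F :=
    Matrix.SpecialLinearGroup.toGL.comp (Cfsg.SU n F q).subtype
  have hval : ∀ A, ((f A : GL (Fin n) F) : Matrix (Fin n) (Fin n) F) =
      ((A : Matrix.SpecialLinearGroup (Fin n) F) : Matrix (Fin n) (Fin n) F) := fun A => rfl
  rw [eq_top_iff]
  intro A _
  set S := {A : ↥(Cfsg.SU n F q) | ∃ (v : Fin n → F) (c : F), Cfsg.hermForm n F q v v = 0 ∧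
    ((A : Matrix.SpecialLinearGroup (Fin n) F) : Matrix (Fin n) (Fin n) F) =
      Cfsg.unitaryTransvection n q v c}
  have hA : f A ∈ utvGroup (conjQ hF) (Cfsg.hermForm n F q) := by
    rw [hgen]
    exact ⟨A.2, (mem_specialLinear _).2 (A : Matrix.SpecialLinearGroup (Fin n) F).2⟩
  have hle : utvGroup (conjQ hF) (Cfsg.hermForm n F q) ≤ (Subgroup.closure S).map f := by
    rw [MonoidHom.map_closure]
    refine Subgroup.closure_mono fun g hg => ?_
    obtain ⟨v, c, hv0, hc, rfl⟩ := hg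
    have hm := utvGroup_le (isUnitary_hermForm hF n) (utv_mem_utvGroup hv0 hc)
    refine ⟨⟨⟨_, det_of_mem hm.2⟩, hm.1⟩, ⟨v, c, hv0, (unitaryTransvection_eq hF hv0 c).symm⟩, ?_⟩
    exact Units.ext rfl
  obtain ⟨B, hB, hBA⟩ := hle hA
  have e : B = A := Subtype.ext (Subtype.ext (by rw [← hval, ← hval, hBA]))
  exact e ▸ hB

end Cfsg.Agent.S0780
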