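import Cfsg.Statements.S3963
import Mathlib
import Cfsg.Agent.Lib.GS.StemDihedral

set_option autoImplicit false
open Cfsg

namespace Cfsg.Agent.S3963


/-- For every `n ≥ 1` the dicyclic (generalized quaternion) group of order `4 n` has trivial Schur multiplier. -/
theorem result (n : ℕ) [NeZero n] : Cfsg.HasCyclicSchurMultiplier (QuaternionGroup n) 1 := by
  refine Cfsg.Agent.Lib.GS.hasTrivialMultiplier fun Γ _ _ σ hσ => ?_
  obtain ⟨hs, hc, hk⟩ := hσ
  obtain ⟨A, hA⟩ := hs (QuaternionGroup.a 1)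
  obtain ⟨X, hX⟩ := hs (QuaternionGroup.xa 0)
  have hpow : Commute X (A ^ n) := by
    have h1 : A ^ n * (X ^ 2)⁻¹ ∈ σ.ker := by
      rw [MonoidHom.mem_ker, map_mul, map_inv, map_pow, map_pow, hA, hX, QuaternionGroup.xa_sq,
        QuaternionGroup.a_one_pow, mul_inv_cancel]
    have h2 : Commute X (A ^ n * (X ^ 2)⁻¹) := Subgroup.mem_center_iff.mp (hc h1) X
    have h3 := h2.mul_right ((Commute.refl X).pow_right 2)
    rwa [inv_mul_cancel_right] at h3
  have hgen : Subgroup.closure ({σ A, σ X} : Set (QuaternionGroup n)) = ⊤ := by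
    rw [hA, hX, Subgroup.eq_top_iff']
    have ha : ∀ i : ZMod (2 * n), QuaternionGroup.a i ∈
        Subgroup.closure ({QuaternionGroup.a 1, QuaternionGroup.xa 0} : Set (QuaternionGroup n)) := by
      intro i
      rw [← ZMod.natCast_zmod_val i, ← QuaternionGroup.a_one_pow]
      exact Subgroup.pow_mem _ (Subgroup.subset_closure (Set.mem_insert _ _)) _
    rintro (i | i)
    · exact ha i
    · have : QuaternionGroup.xa i = QuaternionGroup.xa 0 * QuaternionGroup.a i := by simp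
      rw [this]
      exact Subgroup.mul_mem _ (Subgroup.subset_closure (by simp)) (ha i)
  obtain ⟨c, hcn, hσc, hle⟩ := Cfsg.Agent.Lib.GS.central_ext_inverting σ hc A X hgen
    (by
      rw [map_mul, map_mul, map_inv, hA, hX, mul_inv_eq_iff_eq_mul, eq_inv_mul_iff_mul_eq]
      simp) n hpow
  rw [eq_bot_iff]
  intro z hz
  obtain ⟨j, rfl⟩ := Subgroup.mem_zpowers_iff.mp (hle (hk hz))
  rw [MonoidHom.mem_ker, map_zpow, hσc, hA] at hz
  have h1 : (QuaternionGroup.a 1 : QuaternionGroup n) ^ (-(2 * j)) = 1 := by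
    rw [zpow_neg, zpow_mul, zpow_two, ← inv_zpow, mul_inv_rev]; exact hz
  rw [← orderOf_dvd_iff_zpow_eq_one, QuaternionGroup.orderOf_a_one, dvd_neg] at h1
  push_cast at h1
  obtain ⟨d, hd⟩ := (mul_dvd_mul_iff_left (two_ne_zero : (2 : ℤ) ≠ 0)).mp h1
  rw [Subgroup.mem_bot, hd, zpow_mul, zpow_natCast, hcn, one_zpow]

end Cfsg.Agent.S3963
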