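import Cfsg.Statements.S3056
import Mathlib
import Cfsg.Agent.Lib.LocalP2.StronglyP
-- import your own Cfsg.Agent.* helpers here

set_option autoImplicit false
open Cfsg Cfsg.Agent Cfsg.Agent.Lib.LocalChar
open scoped Pointwise

namespace Cfsg.Agent.S3056

/-- Let G be a finite group and p a prime. Join two Sylow p-subgroups when they are distinct and meet nontrivially. This graph on the Sylow p-subgroups is disconnected (the Sylow p-subgroups are not chain-connected through nontrivial intersections) if and only if G has a strongly p-embedded subgroup in the classical sense: a proper subgroup H of order divisible by p such that H ∩ gHg⁻¹ has order prime to p for every g outside H. -/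
theorem result {G : Type*} [Group G] [Finite G]
    (p : ℕ) [Fact p.Prime] :
    ¬ Cfsg.IsSylowChainConnected p G ↔
      ∃ H : Subgroup G, H ≠ ⊤ ∧ p ∣ Nat.card H ∧
        ∀ g : G, g ∉ H → ¬ p ∣ Nat.card ↥(H ⊓ H.map (MulAut.conj g).toMonoidHom) := by
  set adj : Sylow p G → Sylow p G → Prop := fun S T =>
    S ≠ T ∧ (S : Subgroup G) ⊓ (T : Subgroup G) ≠ ⊥ with hadj
  have hcoe : ∀ (g : G) (S : Sylow p G),
      ((g • S : Sylow p G) : Subgroup G) = cj g (S : Subgroup G) := fun g S => rfl
  have hinf : ∀ (g : G) (A B : Subgroup G), cj g (A ⊓ B) = cj g A ⊓ cj g B := fun g A B =>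
    Subgroup.map_inf A B _ (MulEquiv.injective _)
  constructor
  · intro hnc
    unfold Cfsg.IsSylowChainConnected at hnc
    push Not at hnc
    obtain ⟨S, T, hST⟩ := hnc
    have hpG : p ∣ Nat.card G := by
      by_contra hp
      have hbot : ∀ S : Sylow p G, (S : Subgroup G) = ⊥ := fun S => by
        by_contra h
        exact hp ((Lib.LocalP2.dvd_card_of_pGroup_le S.isPGroup' h le_rfl).trans
          (Subgroup.card_subgroup_dvd_card _))
      have hST' : S = T := Sylow.ext ((hbot S).trans (hbot T).symm)
      subst hST'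
      obtain ⟨i, -⟩ := hST 0 (fun _ => S) rfl rfl (fun _ => inf_le_left)
      exact i.elim0
    have hbot : (S : Subgroup G) ⊓ (T : Subgroup G) = ⊥ := by
      by_contra h
      by_cases hST' : S = T
      · subst hST'
        obtain ⟨i, -⟩ := hST 0 (fun _ => S) rfl rfl (fun _ => inf_le_left)
        exact i.elim0
      · obtain ⟨i, hi⟩ := hST 1 ![S, T] rfl rfl (fun i => by
          fin_cases i
          · exact inf_le_left
          · exact inf_le_right)
        have : i = 0 := Subsingleton.elim _ _
        subst this
        exact h (hi hST')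
    have hreach : ∀ T' : Sylow p G, Relation.ReflTransGen adj S T' →
        ∃ (n : ℕ) (c : Fin (n + 1) → Sylow p G), c 0 = S ∧ c (Fin.last n) = T' ∧
          ∀ i : Fin n, adj (c i.castSucc) (c i.succ) := by
      intro T' h
      induction h with
      | refl => exact ⟨0, fun _ => S, rfl, rfl, fun i => i.elim0⟩
      | @tail B C _ hBC ih =>
        obtain ⟨n, c, h0, hl, hc⟩ := ih
        refine ⟨n + 1, Fin.snoc c C, ?_, by simp, fun i => ?_⟩
        · rw [← Fin.castSucc_zero, Fin.snoc_castSucc, h0]
        · induction i using Fin.lastCases with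
          | last => rw [Fin.snoc_castSucc, Fin.succ_last, Fin.snoc_last, hl]; exact hBC
          | cast j => rw [Fin.succ_castSucc, Fin.snoc_castSucc, Fin.snoc_castSucc]; exact hc j
    set R := Relation.ReflTransGen adj
    have hsymm : ∀ A B, R A B → R B A := fun A B h => by
      induction h with
      | refl => exact Relation.ReflTransGen.refl
      | tail _ hBC ih =>
        exact Relation.ReflTransGen.head ⟨hBC.1.symm, by rw [inf_comm]; exact hBC.2⟩ ih
    have hsmul : ∀ (g : G) A B, R A B → R (g • A) (g • B) := fun g A B h => by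
      induction h with
      | refl => exact Relation.ReflTransGen.refl
      | tail _ hBC ih =>
        refine ih.tail ⟨fun e => hBC.1 ((MulAction.injective g) e), fun e => hBC.2 ?_⟩
        rwa [hcoe, hcoe, ← hinf, Subgroup.map_eq_bot_iff_of_injective _ (MulEquiv.injective _)] at e
    let H : Subgroup G :=
      { carrier := {g | R S (g • S)}
        one_mem' := by show R S _; rw [one_smul]
        mul_mem' := fun {a b} ha hb => by
          show R S _; rw [mul_smul]; exact Relation.ReflTransGen.trans ha (hsmul a _ _ hb)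
        inv_mem' := fun {a} ha => by
          show R S _
          have h := hsmul a⁻¹ _ _ (hsymm _ _ ha)
          rwa [inv_smul_smul] at h }
    have hSH : (S : Subgroup G) ≤ H := fun g hg => by
      show R S (g • S)
      rw [Sylow.smul_eq_iff_mem_normalizer.2 (Subgroup.le_normalizer hg)]
    have hSne : (S : Subgroup G) ≠ ⊥ := fun h => by
      have := S.dvd_card_of_dvd_card hpG
      rw [h, Subgroup.card_bot] at this
      exact (Fact.out : p.Prime).one_lt.ne' (Nat.dvd_one.1 this)
    refine ⟨H, fun htop => ?_, Lib.LocalP2.dvd_card_of_pGroup_le S.isPGroup' hSne hSH, ?_⟩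
    · obtain ⟨g, rfl⟩ := MulAction.exists_smul_eq G S T
      obtain ⟨n, c, h0, hl, hc⟩ := hreach _ (show R S (g • S) from (htop.ge (Subgroup.mem_top g) :))
      obtain ⟨i, hi⟩ := hST n c h0 hl (fun i => hbot.le.trans bot_le)
      exact (hc i).2 (hi (hc i).1)
    · intro g hg hdvd
      obtain ⟨D, hDc⟩ := exists_prime_orderOf_dvd_card' p hdvd
      have hDp : IsPGroup p (Subgroup.zpowers (D : G)) :=
        IsPGroup.of_card (n := 1) (by rw [Nat.card_zpowers, Subgroup.orderOf_coe, hDc, pow_one])
      have hD1 : (D : G) ≠ 1 := fun h => by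
        rw [← Subgroup.orderOf_coe, h, orderOf_one] at hDc; exact (Fact.out : p.Prime).one_lt.ne hDc
      have hSin : IsSylowIn p (S : Subgroup G) H := IsSylowIn.of_le S hSH
      have hconj : ∀ Q : Subgroup G, IsPGroup p Q → Q ≤ H → ∃ h ∈ H, Q ≤ ((h • S : Sylow p G) : Subgroup G) := by
        intro Q hQ hQH
        obtain ⟨x, hx, hle⟩ := hSin.conj_le hQ hQH
        refine ⟨x⁻¹, H.inv_mem hx, ?_⟩
        rw [hcoe]
        have h := cj_mono (g := x⁻¹) hle
        rwa [cj_cj, inv_mul_cancel, show cj (1 : G) Q = Q from
          cj_eq_of_mem_nz (Subgroup.one_mem _)] at h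
      obtain ⟨h, hh, hle⟩ := hconj _ hDp (Subgroup.zpowers_le.2 D.2.1)
      obtain ⟨k, hk, hle'⟩ := hconj (cj g⁻¹ (Subgroup.zpowers (D : G))) (isPGroup_cj hDp)
        (cj_le_iff.2 fun d hd => by
          have := mem_cj.1 (Subgroup.zpowers_le.2 D.2.2 hd)
          simpa [mul_assoc] using this)
      have hle'' : Subgroup.zpowers (D : G) ≤ ((g • k • S : Sylow p G) : Subgroup G) := by
        have h2 := cj_mono (g := g) hle'
        rwa [cj_cj, mul_inv_cancel, show cj (1 : G) (Subgroup.zpowers (D : G)) = _ from
          cj_eq_of_mem_nz (Subgroup.one_mem _), ← hcoe] at h2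
      have h3 : R (h • S) (g • k • S) := by
        by_cases e : h • S = g • k • S
        · rw [e]
        · exact Relation.ReflTransGen.single ⟨e, fun eb => hD1 (Subgroup.mem_bot.1
            (eb ▸ ⟨hle (Subgroup.mem_zpowers _), hle'' (Subgroup.mem_zpowers _)⟩))⟩
      exact hg (show R S (g • S) from
        (Relation.ReflTransGen.trans hh h3).trans (hsmul g _ _ (hsymm _ _ hk)))
  · rintro ⟨H, hH, hpH, hse⟩ hconn
    obtain ⟨P, hPH, hPne⟩ := Lib.LocalP2.exists_sylow_le_of_common hse hpH
    obtain ⟨g, hg⟩ : ∃ g : G, g ∉ H := by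
      by_contra h
      push Not at h
      exact hH (eq_top_iff.2 fun g _ => h g)
    obtain ⟨n, c, h0, hl, -, hadj'⟩ := hconn P (g • P)
    have hall : ∀ i : Fin (n + 1), (c i : Subgroup G) ≤ H := by
      intro i
      induction i using Fin.induction with
      | zero => rw [h0]; exact hPH
      | succ j ih =>
        obtain ⟨x, hx⟩ := MulAction.exists_smul_eq G (c j.castSucc) (c j.succ)
        have hcx : (c j.succ : Subgroup G) = cj x (c j.castSucc : Subgroup G) := by rw [← hx]; rfl
        have hxH : x ∈ H := Lib.LocalP2.mem_of_common hse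
          ((c j.castSucc).isPGroup'.to_le inf_le_left) (hadj' j).2 (inf_le_left.trans ih)
          (inf_le_right.trans (hcx.le.trans (cj_mono ih)))
        rw [hcx]
        exact (cj_mono ih).trans (cj_eq_of_mem_nz (Subgroup.le_normalizer hxH)).le
    have hT := hall (Fin.last n)
    rw [hl, hcoe] at hT
    exact hg (Lib.LocalP2.mem_of_common hse (isPGroup_cj P.isPGroup')
      (fun e => hPne (by rwa [Subgroup.map_eq_bot_iff_of_injective _ (MulEquiv.injective _)] at e))
      hT (cj_mono hPH))

end Cfsg.Agent.S3056
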