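import Cfsg.Statements.S4066
import Mathlib
import Cfsg.Agent.Lib.GS.Sylow

set_option autoImplicit false
open Cfsg

namespace Cfsg.Agent.S4066


/-- Let G be a finite group in which the centralizer of every element meets each of its conjugates by elements outside its normalizer trivially. Then any two distinct Sylow p-subgroups of G, for any prime p, intersect trivially. -/
theorem result {G : Type*} [Group G] [Finite G] (hTI : ∀ x : G, Cfsg.IsTISubset (Subgroup.centralizer ({x} : Set G) : Set G))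
    {p : ℕ} [Fact p.Prime] (P Q : Sylow p G) (hPQ : P ≠ Q) : (P : Subgroup G) ⊓ (Q : Subgroup G) = ⊥ := by
  by_contra hne
  obtain ⟨d, hd, hd1⟩ : ∃ d ∈ (P : Subgroup G) ⊓ (Q : Subgroup G), d ≠ 1 := by
    by_contra hall
    exact hne ((Subgroup.eq_bot_iff_forall _).mpr fun a ha => by_contra fun h => hall ⟨a, ha, h⟩)
  haveI : Nontrivial (P : Subgroup G) := ⟨⟨d, hd.1⟩, 1, fun h => hd1 (congrArg Subtype.val h)⟩
  haveI := P.2.center_nontrivial
  obtain ⟨z₀, hz₀⟩ := exists_ne (1 : Subgroup.center (P : Subgroup G))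
  set z : G := ((z₀ : (P : Subgroup G)) : G) with hz
  set C := Subgroup.centralizer ({z} : Set G) with hC
  have hz1 : z ≠ 1 := fun h => hz₀ (Subtype.ext (Subtype.ext h))
  have hPC : (P : Subgroup G) ≤ C := fun a ha => by
    rw [hC, Subgroup.mem_centralizer_singleton_iff]
    exact congrArg Subtype.val (Subgroup.mem_center_iff.mp z₀.2 ⟨a, ha⟩)
  obtain ⟨g, hg⟩ := MulAction.exists_smul_eq G P Q
  have hQ : ∀ a, a ∈ (Q : Subgroup G) ↔ g⁻¹ * a * g ∈ (P : Subgroup G) := fun a => by
    rw [← hg, Sylow.coe_subgroup_smul, Subgroup.mem_pointwise_smul_iff_inv_smul_mem]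
    simp
  have hgN : g ∈ Subgroup.normalizer (C : Set G) := by
    by_contra hgn
    refine hd1 ?_
    have h1 := hTI z g hgn (g⁻¹ * d * g) (hPC ((hQ d).mp hd.2))
      (by rw [show g * (g⁻¹ * d * g) * g⁻¹ = d by group]; exact hPC hd.1)
    calc d = g * (g⁻¹ * d * g) * g⁻¹ := by group
      _ = 1 := by rw [h1]; group
  have hQC : (Q : Subgroup G) ≤ C := fun a ha => by
    have h1 := (Subgroup.mem_normalizer_iff.mp hgN _).mp (hPC ((hQ a).mp ha))
    rwa [show g * (g⁻¹ * a * g) * g⁻¹ = a by group] at h1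
  -- every element of `C` commutes with its conjugates in `C`
  have hcomm : ∀ x ∈ C, ∀ h ∈ C, Commute x (h * x * h⁻¹) := by
    intro x hx h hh
    have hN : h ∈ Subgroup.normalizer ((Subgroup.centralizer ({x} : Set G) : Subgroup G) : Set G) := by
      by_contra hn
      refine hz1 (hTI x h hn z ?_ ?_)
      · exact Subgroup.mem_centralizer_singleton_iff.mpr (Subgroup.mem_centralizer_singleton_iff.mp hx).symm
      · rw [Subgroup.mem_centralizer_singleton_iff.mp hh, mul_inv_cancel_right]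
        exact Subgroup.mem_centralizer_singleton_iff.mpr (Subgroup.mem_centralizer_singleton_iff.mp hx).symm
    have h1 := (Subgroup.mem_normalizer_iff.mp hN x).mp (Subgroup.mem_centralizer_singleton_iff.mpr rfl)
    exact (Subgroup.mem_centralizer_singleton_iff.mp h1).symm
  refine hPQ (Sylow.ext (Q.3 P.2 fun x hx => ?_))
  set S : Set G := {y | ∃ h ∈ C, h * x * h⁻¹ = y} with hS
  have hSS : ∀ a ∈ S, ∀ b ∈ S, Commute a b := by
    rintro _ ⟨h, hh, rfl⟩ _ ⟨k, hk, rfl⟩
    have h1 := (hcomm x (hQC hx) (h⁻¹ * k) (mul_mem (inv_mem hh) hk)).map (MulAut.conj h).toMonoidHom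
    simp only [MulEquiv.coe_toMonoidHom, MulAut.conj_apply] at h1
    rwa [show h * (h⁻¹ * k * x * (h⁻¹ * k)⁻¹) * h⁻¹ = k * x * k⁻¹ by group] at h1
  have hKS : ∀ a ∈ Subgroup.closure S, ∀ b ∈ Subgroup.closure S, Commute a b := by
    intro a ha b hb
    have h1 : Subgroup.closure S ≤ Subgroup.centralizer S := (Subgroup.closure_le _).mpr fun u hu =>
      Subgroup.mem_centralizer_iff.mpr fun v hv => (hSS v hv u hu).eq
    have h2 : Subgroup.closure S ≤ Subgroup.centralizer {a} := (Subgroup.closure_le _).mpr fun v hv =>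
      Subgroup.mem_centralizer_singleton_iff.mpr (Subgroup.mem_centralizer_iff.mp (h1 ha) v hv)
    exact (Subgroup.mem_centralizer_singleton_iff.mp (h2 hb)).symm
  have hKp : IsPGroup p (Subgroup.closure S) := by
    rintro ⟨a, ha⟩
    suffices h : ∃ k, a ^ p ^ k = 1 from h.imp fun k hk => Subtype.ext hk
    induction ha using Subgroup.closure_induction with
    | mem u hu =>
      obtain ⟨h, -, rfl⟩ := hu
      obtain ⟨k, hk⟩ := Q.2 ⟨x, hx⟩
      have hk' : x ^ p ^ k = 1 := congrArg Subtype.val hk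
      exact ⟨k, by rw [conj_pow, hk', mul_one, mul_inv_cancel]⟩
    | one => exact ⟨0, one_pow _⟩
    | mul u v hu hv hu' hv' =>
      obtain ⟨i, hi⟩ := hu'
      obtain ⟨j, hj⟩ := hv'
      refine ⟨i + j, ?_⟩
      rw [(hKS u hu v hv).mul_pow, pow_add, pow_mul, hi, one_pow, one_mul, mul_comm, pow_mul, hj, one_pow]
    | inv u hu hu' =>
      obtain ⟨i, hi⟩ := hu'
      exact ⟨i, by rw [inv_pow, hi, inv_one]⟩
  have hnorm : (P : Subgroup G) ≤ Subgroup.normalizer ((Subgroup.closure S : Subgroup G) : Set G) := by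
    intro a ha
    refine Cfsg.Agent.Lib.GS.mem_normalizer_of_forall fun u hu => ?_
    have h1 : (Subgroup.closure S).map (MulAut.conj a).toMonoidHom ≤ Subgroup.closure S := by
      rw [MonoidHom.map_closure, Subgroup.closure_le]
      rintro _ ⟨_, ⟨h, hh, rfl⟩, rfl⟩
      exact Subgroup.subset_closure ⟨a * h, mul_mem (hPC ha) hh, by
        simp only [MulEquiv.coe_toMonoidHom, MulAut.conj_apply]; group⟩
    exact h1 ⟨u, hu, rfl⟩
  rw [← P.3 (P.2.to_sup_of_normal_right' hKp hnorm) le_sup_left]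
  exact Subgroup.mem_sup_right (Subgroup.subset_closure ⟨1, one_mem _, by group⟩)

end Cfsg.Agent.S4066
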