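import Cfsg.Statements.S0053
import Mathlib.GroupTheory.Frattini

set_option autoImplicit false
open scoped Pointwise commutatorElement
open Cfsg

namespace Cfsg.Agent.S0053

/-- An abelian minimal normal subgroup N of a finite group is complemented exactly when N is not inside the Frattini subgroup. -/
theorem result {G : Type*} [Group G] [Finite G]
    (N : Subgroup G) [N.Normal] [IsMulCommutative N] (hN : N ≠ ⊥)
    (hmin : ∀ M : Subgroup G, M.Normal → M ≤ N → M = ⊥ ∨ M = N) :
    (∃ H : Subgroup G, Subgroup.IsComplement' N H) ↔ ¬ N ≤ frattini G := by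
  constructor
  · rintro ⟨H, hH⟩ hle
    have : H = ⊤ := frattini_nongenerating (eq_top_iff.mpr (hH.sup_eq_top.ge.trans
      (sup_le (hle.trans le_sup_right) le_sup_left)))
    subst this
    exact hN (Subgroup.isComplement'_top_right.mp hH)
  · intro hle
    have : ∃ M : Subgroup G, IsCoatom M ∧ ¬ N ≤ M := by
      by_contra! h
      exact hle (le_iInf₂ fun M hM => h M hM)
    obtain ⟨M, hM, hNM⟩ := this
    have hsup : N ⊔ M = ⊤ := hM.2 _ (lt_of_le_of_ne le_sup_right fun h => hNM (le_sup_left.trans h.ge))
    have hn : (N ⊓ M).Normal := by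
      refine Subgroup.normalizer_eq_top_iff.mp (eq_top_iff.mpr (hsup.ge.trans (sup_le ?_ ?_)))
      · intro n hn
        rw [Subgroup.mem_normalizer_iff]
        intro z
        constructor
        · intro hz
          have : n * z * n⁻¹ = z := by
            rw [show n * z = z * n from congrArg Subtype.val (mul_comm' (⟨n, hn⟩ : N) ⟨z, hz.1⟩),
              mul_inv_cancel_right]
          rwa [this]
        · intro hz
          have hzN : z ∈ N := by
            simpa [mul_assoc] using Subgroup.Normal.conj_mem ‹N.Normal› _ hz.1 n⁻¹
          have : n * z * n⁻¹ = z := by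
            rw [show n * z = z * n from congrArg Subtype.val (mul_comm' (⟨n, hn⟩ : N) ⟨z, hzN⟩),
              mul_inv_cancel_right]
          rwa [this] at hz
      · exact (le_inf Subgroup.le_normalizer_of_normal Subgroup.le_normalizer).trans
          Subgroup.inf_normalizer_le_normalizer_inf
    refine ⟨M, Subgroup.isComplement'_of_disjoint_and_mul_eq_univ ?_ ?_⟩
    · rw [disjoint_iff]
      exact (hmin _ hn inf_le_left).resolve_right fun h => hNM (inf_eq_left.mp h)
    · rw [← Subgroup.normal_mul, hsup, Subgroup.coe_top]

end Cfsg.Agent.S0053
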