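import Cfsg.Statements.S0115
import Cfsg.Agent.Lib.Thompson.MaxClassTwo

set_option autoImplicit false
open Cfsg Subgroup
open scoped Pointwise commutatorElement

namespace Cfsg.Agent.S0115

/-- A 2-group of order 2^n, n ≥ 3, is of maximal class exactly when its commutator quotient is a Klein four-group. -/
theorem result {X : Type*} [Group X] [Finite X] (n : ℕ) (hn : 3 ≤ n) (hX : Nat.card X = 2 ^ n) : Group.nilpotencyClass X = n - 1 ↔ IsKleinFour (X ⧸ commutator X) := by
  have : Fact (Nat.Prime 2) := ⟨Nat.prime_two⟩
  have hP : IsPGroup 2 X := IsPGroup.of_card hX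
  have : Group.IsNilpotent X := hP.isNilpotent
  constructor
  · intro hc
    have h := Lib.Thompson.index_lcs_of_maxClass hX hn hc (k := 1) le_rfl (by omega)
    rw [Subgroup.top_lowerCentralSeries_one, show 2 ^ (1 + 1) = 4 by norm_num] at h
    have : Nontrivial (X ⧸ commutator X) :=
      Finite.one_lt_card_iff_nontrivial.mp (by rw [← index_eq_card, h]; norm_num)
    have hsq : ∀ x : X ⧸ commutator X, x ^ 2 = 1 := by
      intro q
      obtain ⟨x, rfl⟩ := QuotientGroup.mk'_surjective _ q
      have hΦ : frattini X ≤ commutator X := by
        have hncyc : ¬ IsCyclic X := fun hc' => by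
          rw [Lib.Thompson.commutator_eq_bot_of_isCyclic, index_bot, hX] at h
          have := Nat.pow_right_injective (le_refl 2) (h.trans (by norm_num : 4 = 2 ^ 2))
          omega
        have hle := Lib.PGroupFrattini.commutator_le_frattini hP
        refine (eq_of_le_of_card_ge hle ?_).ge
        have h1 := card_mul_index (commutator X)
        have h2 := card_mul_index (frattini X)
        have h3 : 4 ≤ (frattini X).index := by
          by_contra h3
          have h4 : (frattini X).index ∣ 4 := h ▸ index_dvd_of_le hle
          have h5 : (frattini X).index ≤ 2 := by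
            by_contra h5
            have h6 : (frattini X).index = 3 := by omega
            rw [h6] at h4
            norm_num at h4
          apply hncyc
          by_cases hall : ∀ y, y ∈ frattini X
          · exfalso
            have hbot : (⊥ : Subgroup X) = ⊤ :=
              frattini_nongenerating (by rw [bot_sup_eq]; exact (eq_top_iff' _).mpr hall)
            have := congrArg (fun S : Subgroup X => Nat.card S) hbot
            simp only [card_bot, card_top, hX] at this
            exact (Nat.one_lt_pow (by omega) (by norm_num)).ne this
          push Not at hall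
          obtain ⟨y, hy⟩ := hall
          have hgt : frattini X < zpowers y ⊔ frattini X :=
            lt_of_le_of_ne le_sup_right fun e => hy (e ▸ mem_sup_left (mem_zpowers y))
          have htop : zpowers y ⊔ frattini X = ⊤ := by
            refine eq_top_of_card_eq _ (le_antisymm (Subgroup.card_le_card_group _) ?_)
            rw [← h2]
            exact (Nat.mul_le_mul_left _ h5).trans
              (by rw [mul_comm]; exact Lib.Thompson.card_mul_p_le hP hgt)
          exact isCyclic_iff_exists_zpowers_eq_top.mpr ⟨y, frattini_nongenerating htop⟩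
        rw [h, hX] at h1
        rw [hX] at h2
        by_contra hlt
        have := Nat.mul_lt_mul_of_lt_of_le (not_le.mp hlt) h3 (Nat.pos_of_ne_zero index_ne_zero_of_finite)
        omega
      rw [← map_pow]
      exact (QuotientGroup.eq_one_iff _).mpr (hΦ (Lib.PGroupFrattini.pow_mem_frattini hP x))
    refine ⟨h, Monoid.exponent_eq_prime_iff Nat.prime_two |>.mpr fun q hq => ?_⟩
    exact orderOf_eq_prime (hsq q) hq
  · intro hK
    obtain ⟨m, rfl⟩ : ∃ m, n = m + 1 := ⟨n - 1, by omega⟩
    obtain ⟨a, b, r, ha, -, -, hr, -, -, h4⟩ :=
      Lib.Thompson.maxClassTwo_structure (by omega) hX hK.card_four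
    refine le_antisymm ?_ ?_
    · rw [← Subgroup.lowerCentralSeries_eq_bot_iff_nilpotencyClass_le]
      exact Lib.Thompson.lcs_eq_bot hX (by omega) (by omega)
    · by_contra hlt
      have hbot : (⊤ : Subgroup X).lowerCentralSeries (m - 1) = ⊥ :=
        Subgroup.lowerCentralSeries_eq_bot_iff_nilpotencyClass_le.mpr (by omega)
      have := hbot ▸ Lib.Thompson.pow_mem_lcs ha hr h4 (m - 1)
      rw [mem_bot] at this
      have h2 := Nat.le_of_dvd (pow_pos (by norm_num) _) (orderOf_dvd_of_pow_eq_one this)
      rw [ha] at h2
      have h3 := (Nat.pow_le_pow_iff_right (by norm_num : 1 < 2)).mp h2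
      omega

end Cfsg.Agent.S0115
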