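import Cfsg.Statements.S0213
import Cfsg.Agent.Lib.Involution.BrauerFowler

set_option autoImplicit false
open Cfsg

namespace Cfsg.Agent.S0213

open Cfsg.Agent.Lib.Involution

/-- Thompson Order Formula, two-class case: if every involution of the finite group G is conjugate to exactly one of the non-conjugate involutions x₁, x₂, and nᵢ is the number of pairs (u, v) with u conjugate to x₁, v conjugate to x₂ and xᵢ in the cyclic group generated by uv, then |G| = |C(x₂)| n₁ + |C(x₁)| n₂. -/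
theorem result {G : Type*} [Group G] [Finite G] (x₁ x₂ : G) (h₁ : orderOf x₁ = 2) (h₂ : orderOf x₂ = 2) (hnc : ¬ IsConj x₁ x₂) (hall : ∀ t : G, orderOf t = 2 → IsConj x₁ t ∨ IsConj x₂ t) : Nat.card G = Nat.card (Subgroup.centralizer ({x₂} : Set G)) * Nat.card {p : G × G // IsConj x₁ p.1 ∧ IsConj x₂ p.2 ∧ x₁ ∈ Subgroup.zpowers (p.1 * p.2)} + Nat.card (Subgroup.centralizer ({x₁} : Set G)) * Nat.card {p : G × G // IsConj x₁ p.1 ∧ IsConj x₂ p.2 ∧ x₂ ∈ Subgroup.zpowers (p.1 * p.2)} := by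
  classical
  have hcls : ∀ x : G, Nat.card {a : G // IsConj x a} * Nat.card (Subgroup.centralizer ({x} : Set G))
      = Nat.card G := by
    intro x
    rw [← (Subgroup.centralizer ({x} : Set G)).card_mul_index, mul_comm]
    congr 1
    rw [Subgroup.centralizer_eq_comap_stabilizer x]
    refine (Eq.trans (Subgroup.index_comap_of_surjective _ ConjAct.toConjAct.surjective) ?_).symm
    rw [MulAction.index_stabilizer, ← Nat.card_coe_set_eq]
    refine Nat.card_congr (Equiv.subtypeEquivRight fun a => ?_)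
    change a ∈ MulAction.orbit (ConjAct G) x ↔ _
    rw [ConjAct.mem_orbit_conjAct]
    exact ⟨fun h => h.symm, fun h => h.symm⟩
  let fib : G → Type _ := fun w =>
    {p : G × G // IsConj x₁ p.1 ∧ IsConj x₂ p.2 ∧ w ∈ Subgroup.zpowers (p.1 * p.2)}
  have hord : ∀ p : {a : G // IsConj x₁ a} × {a : G // IsConj x₂ a},
      orderOf (p.1 : G) = 2 ∧ orderOf (p.2 : G) = 2 ∧
        Even (orderOf ((p.1 : G) * p.2)) := by
    intro p
    have hu := (isConj_orderOf p.1.2).symm.trans h₁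
    have hv := (isConj_orderOf p.2.2).symm.trans h₂
    exact ⟨hu, hv, Nat.not_odd_iff_even.mp fun h =>
      hnc (p.1.2.trans ((isConj_of_odd hu hv h).trans p.2.2.symm))⟩
  have huniq : ∀ (u v w : G), orderOf u = 2 → orderOf v = 2 → Even (orderOf (u * v)) →
      orderOf w = 2 → w ∈ Subgroup.zpowers (u * v) → w = (u * v) ^ (orderOf (u * v) / 2) := by
    intro u v w hu hv he hw hmem
    have := Fintype.ofFinite (Subgroup.zpowers (u * v))
    have h1 := IsCyclic.card_orderOf_eq_totient (α := Subgroup.zpowers (u * v)) (d := 2)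
      (by rw [← Nat.card_eq_fintype_card, Nat.card_zpowers]; exact he.two_dvd)
    rw [Nat.totient_two, Finset.card_eq_one] at h1
    obtain ⟨a, ha⟩ := h1
    have ha' : ∀ y (hy : y ∈ Subgroup.zpowers (u * v)), orderOf y = 2 → (⟨y, hy⟩ : Subgroup.zpowers (u * v)) = a := by
      intro y hy hy2
      rw [← Finset.mem_singleton, ← ha, Finset.mem_filter, ← Subgroup.orderOf_coe]
      exact ⟨Finset.mem_univ _, hy2⟩
    exact congrArg Subtype.val ((ha' w hmem hw).trans
      (ha' _ (Subgroup.npow_mem_zpowers _ _) (half_prod hu hv he (orderOf_pos _).ne').1).symm)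
  have key : Nat.card ({a : G // IsConj x₁ a} × {a : G // IsConj x₂ a}) =
      Nat.card ((Σ w : {a : G // IsConj x₁ a}, fib w) ⊕ (Σ w : {a : G // IsConj x₂ a}, fib w)) := by
    symm
    refine Nat.card_eq_of_bijective (Sum.elim (fun s => (⟨s.2.1.1, s.2.2.1⟩, ⟨s.2.1.2, s.2.2.2.1⟩))
      (fun s => (⟨s.2.1.1, s.2.2.1⟩, ⟨s.2.1.2, s.2.2.2.1⟩))) ⟨?_, ?_⟩
    · have hinj : ∀ (i j : G), orderOf i = 2 → orderOf j = 2 → ∀ (a : fib i) (b : fib j),
          (a.1.1 = b.1.1 ∧ a.1.2 = b.1.2) → i = j := by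
        intro i j hi hj a b hab
        have hu := (isConj_orderOf a.2.1).symm.trans h₁
        have hv := (isConj_orderOf a.2.2.1).symm.trans h₂
        have he : Even (orderOf (a.1.1 * a.1.2)) := (hord (⟨_, a.2.1⟩, ⟨_, a.2.2.1⟩)).2.2
        have hj' : j ∈ Subgroup.zpowers (a.1.1 * a.1.2) := by rw [hab.1, hab.2]; exact b.2.2.2
        exact (huniq _ _ i hu hv he hi a.2.2.2).trans (huniq _ _ j hu hv he hj hj').symm
      rintro (⟨⟨i, hi⟩, a⟩ | ⟨⟨i, hi⟩, a⟩) (⟨⟨j, hj⟩, b⟩ | ⟨⟨j, hj⟩, b⟩) h <;>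
        simp only [Sum.elim_inl, Sum.elim_inr, Prod.mk.injEq, Subtype.mk.injEq] at h
      · obtain rfl := hinj i j ((isConj_orderOf hi).symm.trans h₁) ((isConj_orderOf hj).symm.trans h₁) a b h
        rw [show a = b from Subtype.ext (Prod.ext h.1 h.2)]
      · obtain rfl := hinj i j ((isConj_orderOf hi).symm.trans h₁) ((isConj_orderOf hj).symm.trans h₂) a b h
        exact absurd (hi.trans hj.symm) hnc
      · obtain rfl := hinj i j ((isConj_orderOf hi).symm.trans h₂) ((isConj_orderOf hj).symm.trans h₁) a b h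
        exact absurd (hj.trans hi.symm) hnc
      · obtain rfl := hinj i j ((isConj_orderOf hi).symm.trans h₂) ((isConj_orderOf hj).symm.trans h₂) a b h
        rw [show a = b from Subtype.ext (Prod.ext h.1 h.2)]
    · rintro ⟨⟨u, hu⟩, ⟨v, hv⟩⟩
      obtain ⟨huo, hvo, he⟩ := hord (⟨u, hu⟩, ⟨v, hv⟩)
      have hz := (half_prod huo hvo he (orderOf_pos _).ne').1
      rcases hall _ hz with h | h
      · exact ⟨Sum.inl ⟨⟨_, h⟩, ⟨(u, v), hu, hv, Subgroup.npow_mem_zpowers _ _⟩⟩, rfl⟩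
      · exact ⟨Sum.inr ⟨⟨_, h⟩, ⟨(u, v), hu, hv, Subgroup.npow_mem_zpowers _ _⟩⟩, rfl⟩
  have hconst : ∀ x w : G, IsConj x w → Nat.card (fib w) = Nat.card (fib x) := by
    intro x w h
    obtain ⟨g, rfl⟩ := isConj_iff.mp h
    refine (Nat.card_congr ((Equiv.prodCongr (MulAut.conj g).toEquiv (MulAut.conj g).toEquiv).subtypeEquiv
      fun p => ?_)).symm
    have hc : ∀ y a : G, IsConj y a ↔ IsConj y (g * a * g⁻¹) := fun y a =>
      ⟨fun h => h.trans (isConj_iff.mpr ⟨g, rfl⟩), fun h => h.trans (isConj_iff.mpr ⟨g, rfl⟩ : IsConj a _).symm⟩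
    simp only [Equiv.prodCongr_apply, Prod.map_fst, Prod.map_snd, MulEquiv.toEquiv_eq_coe,
      EquivLike.coe_coe, MulAut.conj_apply]
    refine and_congr (hc _ _) (and_congr (hc _ _) ?_)
    rw [show g * p.1 * g⁻¹ * (g * p.2 * g⁻¹) = g * (p.1 * p.2) * g⁻¹ by group]
    constructor
    · rintro ⟨k, hk⟩
      exact ⟨k, by simp only at hk ⊢; rw [conj_zpow, hk]⟩
    · rintro ⟨k, hk⟩
      refine ⟨k, ?_⟩
      simp only at hk ⊢
      rw [conj_zpow] at hk
      exact mul_left_cancel (mul_right_cancel hk)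
  have := Fintype.ofFinite {a : G // IsConj x₁ a}
  have := Fintype.ofFinite {a : G // IsConj x₂ a}
  have hs₁ : ∀ w ∈ (Finset.univ : Finset {a : G // IsConj x₁ a}), Nat.card (fib w) = Nat.card (fib x₁) :=
    fun w _ => hconst x₁ w.1 w.2
  have hs₂ : ∀ w ∈ (Finset.univ : Finset {a : G // IsConj x₂ a}), Nat.card (fib w) = Nat.card (fib x₂) :=
    fun w _ => hconst x₂ w.1 w.2
  rw [Nat.card_prod, Nat.card_sum, Nat.card_sigma, Nat.card_sigma,
    Finset.sum_congr rfl hs₁, Finset.sum_congr rfl hs₂,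
    Finset.sum_const, Finset.sum_const, Finset.card_univ, Finset.card_univ, smul_eq_mul, smul_eq_mul,
    ← Nat.card_eq_fintype_card, ← Nat.card_eq_fintype_card] at key
  have e1 := hcls x₁
  have e2 := hcls x₂
  simp only [fib] at key
  set k₁ := Nat.card {a : G // IsConj x₁ a}
  set k₂ := Nat.card {a : G // IsConj x₂ a}
  set c₁ := Nat.card (Subgroup.centralizer ({x₁} : Set G))
  set c₂ := Nat.card (Subgroup.centralizer ({x₂} : Set G))
  refine Nat.eq_of_mul_eq_mul_left (Nat.card_pos (α := G)) ?_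
  set n₁ := Nat.card {p : G × G // IsConj x₁ p.1 ∧ IsConj x₂ p.2 ∧ x₁ ∈ Subgroup.zpowers (p.1 * p.2)}
  set n₂ := Nat.card {p : G × G // IsConj x₁ p.1 ∧ IsConj x₂ p.2 ∧ x₂ ∈ Subgroup.zpowers (p.1 * p.2)}
  calc Nat.card G * Nat.card G = k₁ * c₁ * (k₂ * c₂) := by rw [e1, e2]
    _ = c₁ * c₂ * (k₁ * k₂) := by ring
    _ = c₁ * c₂ * (k₁ * n₁ + k₂ * n₂) := by rw [key]
    _ = (k₁ * c₁) * (c₂ * n₁) + (k₂ * c₂) * (c₁ * n₂) := by ring
    _ = Nat.card G * (c₂ * n₁ + c₁ * n₂) := by rw [e1, e2, mul_add]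

end Cfsg.Agent.S0213
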