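import Cfsg.Statements.S0302
import Cfsg.Agent.Lib.Classical.ExcIso.Four
import Cfsg.Agent.Lib.Classical.QuadOmega.Disc
import Cfsg.Agent.Lib.Classical.Simple
import Cfsg.Agent.Lib.Classical.Order

open Matrix QuadraticMap Cfsg.Agent.Lib.Classical.Quad Cfsg.Agent.Lib.Classical.QuadOmega Cfsg.Agent.Lib.Classical.ExcIso

set_option autoImplicit false
open Cfsg

namespace Cfsg.Agent.S0302

attribute [local instance] _root_.Classical.propDecidable

/-- PΩ^+_6(q) is isomorphic to PSL_4(q). -/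
theorem result {F : Type*} [Field F] [Fintype F] : Nonempty (Cfsg.POmega F (Cfsg.quadFormPlus 3 F) ≃* Matrix.ProjectiveSpecialLinearGroup (Fin 4) F) := by
  let toX : (Fin 3 ⊕ Fin 3 → F) →ₗ[F] (Fin 6 → F) :=
    { toFun := fun v => ![v (.inl 0), v (.inl 1), v (.inl 2), v (.inr 2), -v (.inr 1), v (.inr 0)]
      map_add' := fun x y => by ext i; fin_cases i <;> simp [add_comm]
      map_smul' := fun c x => by ext i; fin_cases i <;> simp }
  let fromX : (Fin 6 → F) →ₗ[F] (Fin 3 ⊕ Fin 3 → F) :=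
    { toFun := fun x => Sum.elim ![x 0, x 1, x 2] ![x 5, -x 4, x 3]
      map_add' := fun x y => by ext (i | i) <;> fin_cases i <;> simp [add_comm]
      map_smul' := fun c x => by ext (i | i) <;> fin_cases i <;> simp }
  have h1 : ∀ x, toX (fromX x) = x := fun x => by ext i; fin_cases i <;> simp [toX, fromX]
  have h2 : ∀ v, fromX (toX v) = v := fun v => by ext (i | i) <;> fin_cases i <;> simp [toX, fromX]
  have hpf : ∀ v, Cfsg.quadFormPlus 3 F v = pf (toX v) := fun v => by
    simp [toX, pf, Cfsg.quadFormPlus, Fin.sum_univ_three]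
  let R : Matrix.SpecialLinearGroup (Fin 4) F → (Fin 3 ⊕ Fin 3 → F) →ₗ[F] (Fin 3 ⊕ Fin 3 → F) :=
    fun g => fromX ∘ₗ actLin (g : Matrix (Fin 4) (Fin 4) F) ∘ₗ toX
  let ψ : Matrix.SpecialLinearGroup (Fin 4) F →* Cfsg.isometryGroup F (Cfsg.quadFormPlus 3 F) :=
    repHom (Cfsg.quadFormPlus 3 F) R
      (fun g h x => by simp [R, actLin, h1, act_mul])
      (fun x => by simp [R, actLin, act_one, h2])
      (fun g x => by simp [R, actLin, hpf, h1, pf_act])
  have hker : ∀ g ∈ ψ.ker, ∃ c : F, c * c = 1 ∧ (g : Matrix (Fin 4) (Fin 4) F) = c • 1 := by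
    intro g hg
    refine scalar_of_act_eq _ g.det_coe fun x => ?_
    have h := congrArg toX (mem_ker_repHom.1 hg (fromX x))
    simpa [R, actLin, h1] using h
  have hp := Cfsg.Agent.Lib.Classical.SL_commutator_eq_top (ι := Fin 4) (F := F) (by simp)
  obtain ⟨Φ⟩ := pOmega_equiv (Cfsg.quadFormPlus 3 F) (ePlus 3) (plus_apply 3)
    (nd_splitQ nd_zeroQ 3) (by simp) ψ (le_omega_of_perfect _ hp ψ)
    (by
      have h := Cfsg.Agent.Lib.Classical.card_SL_mul (F := F) rfl 4 (by norm_num)
      have hq : 2 ≤ Fintype.card F := Fintype.one_lt_card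
      rw [card_O_plus]
      refine Nat.eq_of_mul_eq_mul_left (show 0 < Fintype.card F - 1 by omega) ?_
      rw [mul_left_comm (Fintype.card F - 1) 2 (Nat.card _), h]
      set q := Fintype.card F
      simp only [Finset.prod_range_succ, Finset.prod_range_zero, Fin.prod_univ_four, Fin.val_zero,
        Fin.val_one, Fin.val_two, show ((3 : Fin 4) : ℕ) = 3 from rfl, pow_zero, pow_one, one_mul]
      rw [show q ^ 4 - q = q * (q ^ 3 - 1) by rw [Nat.mul_sub, mul_one, ← pow_succ'],
        show q ^ 4 - q ^ 2 = q ^ 2 * (q ^ 2 - 1) by rw [Nat.mul_sub, mul_one, ← pow_add],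
        show q ^ 4 - q ^ 3 = q ^ 3 * (q - 1) by rw [Nat.mul_sub, mul_one, ← pow_succ]]
      ring)
    ((Nat.card_le_card_of_injective
      (fun g : ψ.ker => (⟨(hker g.1 g.2).choose, (hker g.1 g.2).choose_spec.1⟩ : {c : F // c * c = 1}))
      fun g g' h => Subtype.ext (Subtype.ext (by
        rw [(hker g.1 g.2).choose_spec.2, (hker g'.1 g'.2).choose_spec.2,
          show (hker g.1 g.2).choose = (hker g'.1 g'.2).choose from congrArg Subtype.val h]))).trans
      (card_sqrt_one_le F))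
    (fun g hg => by
      obtain ⟨c, -, e⟩ := hker g hg
      refine Subgroup.mem_center_iff.2 fun h => Subtype.ext ?_
      change (h : Matrix (Fin 4) (Fin 4) F) * (g : Matrix (Fin 4) (Fin 4) F) =
        (g : Matrix (Fin 4) (Fin 4) F) * (h : Matrix (Fin 4) (Fin 4) F)
      rw [e]; simp)
    (grun hp)
  exact ⟨Φ⟩

end Cfsg.Agent.S0302
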