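import Cfsg.Statements.S0825
import Cfsg.Agent.Lib.Classical.SmallPerm
import Cfsg.Agent.Lib.Classical.QuadOmega.SingularPlus

open QuadraticMap Cfsg.Agent.Lib.Classical.Quad Cfsg.Agent.Lib.Classical.QuadOmega Cfsg.Agent.Lib.Classical.SmallPerm

set_option autoImplicit false
open Cfsg

namespace Cfsg.Agent.S0825

abbrev Z := ZMod 2

/-- Basis vectors. -/
def embRows : Fin 3 ⊕ Fin 3 → Fin 8 → Z := Sum.elim
  ![![0, 0, 0, 1, 1, 1, 1, 0], ![0, 1, 1, 0, 0, 1, 1, 0], ![1, 0, 1, 0, 1, 0, 1, 0]]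
  ![![0, 0, 1, 1, 1, 1, 0, 0], ![0, 1, 1, 1, 0, 0, 1, 0], ![1, 1, 0, 1, 0, 1, 0, 0]]

/-- Dual vectors. -/
def decRows : Fin 3 ⊕ Fin 3 → Fin 8 → Z := Sum.elim
  ![![0, 0, 1, 1, 1, 1, 0, 0], ![0, 1, 1, 1, 0, 0, 1, 0], ![1, 1, 0, 1, 0, 1, 0, 0]]
  ![![0, 0, 0, 1, 1, 1, 1, 0], ![0, 1, 1, 0, 0, 1, 1, 0], ![1, 0, 1, 0, 1, 0, 1, 0]]

def embL : (Fin 3 ⊕ Fin 3 → Z) →ₗ[Z] (Fin 8 → Z) :=
  Matrix.mulVecLin (Matrix.of fun i j => embRows j i)

def decL : (Fin 8 → Z) →ₗ[Z] (Fin 3 ⊕ Fin 3 → Z) := Matrix.mulVecLin (Matrix.of decRows)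

lemma dec_emb : ∀ v, decL (embL v) = v := by decide +kernel

lemma sum_emb : ∀ v, ∑ i, embL v i = 0 := by decide +kernel

lemma dec_one : decL 1 = 0 := by decide +kernel

lemma emb_dec : ∀ w : Fin 8 → Z, ∑ i, w i = 0 → embL (decL w) = w ∨ embL (decL w) = w + 1 := by
  decide +kernel

lemma val_dec : ∀ w : Fin 8 → Z, ∑ i, w i = 0 →
    Cfsg.quadFormPlus 3 Z (decL w) = (((Finset.univ.filter fun i => w i = 1).card / 2 : ℕ) : Z) := by
  decide +kernel

/-- The deleted permutation module of `S₈`. -/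
noncomputable def piece : Piece Z 8 (Fin 3 ⊕ Fin 3) (Cfsg.quadFormPlus 3 Z) where
  emb := embL
  D := decL
  s := 1
  hs σ v := by simp
  left := dec_emb
  sum := sum_emb
  compat w hw σ := by
    rcases emb_dec w hw with h | h
    · rw [h]
    · rw [h, show (fun i => (w + 1) (σ i)) = (fun i => w (σ i)) + 1 from rfl, map_add, dec_one, add_zero]
  val w hw σ := by
    rw [val_dec _ ((Equiv.sum_comp σ w).trans hw), val_dec w hw]
    congr 2
    exact Finset.card_equiv σ (by simp)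

lemma pairs : ∀ a b c d : Fin 8, a ≠ b → c ≠ d →
    decL (Pi.single a 1 + Pi.single b 1) = decL (Pi.single c 1 + Pi.single d 1) → c = a ∨ c = b := by
  decide +kernel

/-- O⁺_6(2) ≅ S_8: the isometry group of the hyperbolic form x_1y_1 + x_2y_2 + x_3y_3 over the field with 2 elements is isomorphic to the symmetric group on 8 letters. -/
theorem result {F : Type*} [Field F] [Fintype F] (hF : Fintype.card F = 2) : Nonempty (↥(Cfsg.isometryGroup F (Cfsg.quadFormPlus 3 F)) ≃* Equiv.Perm (Fin 8)) := by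
  have hker : ∀ σ, (∀ v, piece.R σ v = v) → σ = 1 := fun σ hσ => by
    refine eq_one_of_pairs (by norm_num) fun a b hab => ?_
    set w : Fin 8 → Z := Pi.single a 1 + Pi.single b 1 with hw
    have hsum : ∑ i, w i = 0 := by simp [hw, Finset.sum_add_distrib]; decide
    have h := hσ (decL w)
    rw [Piece.R_apply, show piece.s σ = 1 from rfl, Units.val_one, one_smul,
      show (fun i => piece.emb (decL w) (σ⁻¹ i)) = fun i => piece.emb (piece.D w) (σ⁻¹ i) from rfl,
      piece.compat w hsum σ⁻¹] at h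
    refine pairs a b (σ a) (σ b) hab (σ.injective.ne hab) (h.symm.trans (congrArg decL ?_))
    funext i
    simp [hw, Pi.single_apply, Equiv.eq_symm_apply, eq_comm]
  have e2 : Fintype.card Z = Fintype.card F := by rw [hF, ZMod.card]
  let f : Z →+* F := (FiniteField.ringEquivOfCardEq e2 : Z →+* F)
  have hK : ∀ v : Fin 3 ⊕ Fin 3 → Z,
      plusQ 3 F (fun i => f (v i)) = f (Cfsg.quadFormPlus 3 Z v) := fun v => by
    rw [plusQ_apply]; simp [Cfsg.quadFormPlus, map_sum]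
  have e : (⇑(plusQ 3 F)) = Cfsg.quadFormPlus 3 F := funext (plusQ_apply 3)
  let ψ := ((MulEquiv.subgroupCongr (congrArg (Cfsg.isometryGroup F) e)).toMonoidHom.comp
    (extendHom f _ (plusQ 3 F) hK)).comp piece.hom
  have hinj : Function.Injective ψ := fun x y h => piece.hom_injective hker
    (extendHom_injective f _ _ hK ((MulEquiv.subgroupCongr (congrArg (Cfsg.isometryGroup F) e)).injective h))
  refine ⟨(MulEquiv.ofBijective ψ ((Nat.bijective_iff_injective_and_card ψ).2 ⟨hinj, ?_⟩)).symm⟩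
  rw [card_O_plus, hF, Nat.card_perm, Nat.card_fin]
  decide

end Cfsg.Agent.S0825
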