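import Cfsg.Statements.S0256
import Cfsg.Agent.S0302
import Cfsg.Agent.S0825
import Mathlib.GroupTheory.SpecificGroups.Alternating.Centralizer


set_option autoImplicit false
open Cfsg

namespace Cfsg.Agent.S0256

/-- PSL_4(2) is isomorphic to A_8. -/
theorem result {F : Type*} [Field F] [Fintype F] (hF : Fintype.card F = 2) : Nonempty (Matrix.ProjectiveSpecialLinearGroup (Fin 4) F ≃* alternatingGroup (Fin 8)) := by
  obtain ⟨e₀⟩ := Cfsg.Agent.S0302.result (F := F)
  obtain ⟨e⟩ := Cfsg.Agent.S0825.result hF
  have h : (Cfsg.Omega F (Cfsg.quadFormPlus 3 F)).map e.toMonoidHom = alternatingGroup (Fin 8) := by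
    rw [← alternatingGroup.commutator_perm_eq (α := Fin 8) (by simp)]
    unfold Cfsg.Omega
    rw [commutator_def, commutator_def, Subgroup.map_commutator,
      Subgroup.map_top_of_surjective _ e.surjective]
  let E := (e.subgroupMap _).trans (MulEquiv.subgroupCongr h)
  have hc : Subgroup.center (Cfsg.Omega F (Cfsg.quadFormPlus 3 F)) = ⊥ := by
    refine (Subgroup.eq_bot_iff_forall _).2 fun z hz => E.injective ?_
    rw [map_one, ← Subgroup.mem_bot, ← alternatingGroup.center_eq_bot (α := Fin 8) (by simp),
      Subgroup.mem_center_iff]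
    intro g
    obtain ⟨g, rfl⟩ := E.surjective g
    rw [← map_mul, ← map_mul, Subgroup.mem_center_iff.1 hz g]
  exact ⟨e₀.symm.trans ((QuotientGroup.quotientMulEquivOfEq hc).trans (QuotientGroup.quotientBot.trans E))⟩

end Cfsg.Agent.S0256
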