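import Cfsg.Statements.S0338
import Cfsg.Agent.Lib.Zass.OddDegree

set_option autoImplicit false
open Cfsg

namespace Cfsg.Agent.S0338

open MulAction Cfsg.Agent.Lib.Zass Cfsg.Agent.Lib.ZassFrob

/-- A Zassenhaus group of odd degree is a simple group. -/
theorem result {G Ω : Type*} [Group G] [MulAction G Ω] [Fintype Ω]
    (hZ : Cfsg.IsZassenhausGroup G Ω) (hodd : Odd (Fintype.card Ω)) : IsSimpleGroup G := by
  classical
  haveI := hZ.1
  haveI : Finite G := Finite.of_injective _ (MulAction.toPerm_injective (α := G) (β := Ω))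
  obtain ⟨g₀, hg₀, a, b, hab, -, -⟩ := hZ.2.2.2.1
  haveI : Nontrivial G := ⟨⟨g₀, 1, hg₀⟩⟩
  refine ⟨fun N hN => or_iff_not_imp_left.mpr fun hbot => ?_⟩
  obtain ⟨x, hx, hx1⟩ : ∃ x, x ∈ N ∧ x ≠ 1 := N.bot_or_exists_ne_one.resolve_left hbot
  obtain ⟨c, hc⟩ : ∃ c : Ω, x • c ≠ c := by
    by_contra h
    push Not at h
    exact hx1 (eq_of_smul_eq_smul (α := Ω) fun c => by rw [h c, one_smul])
  have hNtr : ∀ p q : Ω, ∃ y ∈ N, y • p = q := by
    intro p q
    by_cases hpq : p = q
    · exact ⟨1, one_mem N, by rw [one_smul, hpq]⟩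
    obtain ⟨g, h1, h2⟩ := exists_map_pair hZ hc.symm hpq
    exact ⟨g * x * g⁻¹, hN.conj_mem x hx g, by
      rw [mul_smul, mul_smul, inv_smul_eq_iff.mpr h1.symm, h2]⟩
  haveI hNp : MulAction.IsPretransitive N Ω := ⟨fun p q => by
    obtain ⟨y, hy, hyq⟩ := hNtr p q
    exact ⟨⟨y, hy⟩, hyq⟩⟩
  obtain ⟨K, hKle, hKn, -, hKb, hKs, hKc, hKf⟩ := exists_kernel hZ hab
  set H := MulAction.stabilizer G a ⊓ MulAction.stabilizer G b with hH
  have hsplit : ∀ y ∈ MulAction.stabilizer G a, ∃ v ∈ K, ∃ h ∈ H, y = v * h := by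
    intro y hy
    have hn : H ≤ Subgroup.normalizer (K : Set G) := fun d hd =>
      Subgroup.mem_normalizer_iff.mpr fun z => ⟨hKn d hd.1 z, fun hz => by
        simpa [mul_assoc] using hKn d⁻¹ (inv_mem hd.1) _ hz⟩
    have : y ∈ H ⊔ K := by rw [sup_comm, hKs]; exact hy
    rw [sup_comm, ← SetLike.mem_coe, Subgroup.coe_mul_of_right_le_normalizer_left _ _ hn] at this
    obtain ⟨v, hv, h, hh, e⟩ := Set.mem_mul.mp this
    exact ⟨v, hv, h, hh, e.symm⟩
  -- `N` contains the kernel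
  have hUN : K ≤ N := by
    by_cases hout : ∃ y ∈ N, y ∈ MulAction.stabilizer G a ∧ y ∉ K
    · obtain ⟨y, hyN, hya, hyK⟩ := hout
      obtain ⟨v, hv, h, hh, rfl⟩ := hsplit y hya
      have hh1 : h ≠ 1 := fun e => hyK (by rw [e, mul_one]; exact hv)
      obtain ⟨w, hw, hwe⟩ := exists_commutator_eq hZ hab K hKle hKn hKb hh hh1 hv
      have hhN : h ∈ N := by
        have : w * h * w⁻¹ ∈ N := by
          have e : w * h * w⁻¹ = v * h := by rw [← hwe]; group
          rw [e]; exact hyN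
        simpa [mul_assoc] using hN.conj_mem _ this w⁻¹
      intro u hu
      obtain ⟨w', hw', hwe'⟩ := exists_commutator_eq hZ hab K hKle hKn hKb hh hh1 hu
      rw [← hwe']
      exact mul_mem (hN.conj_mem h hhN w') (inv_mem hhN)
    push Not at hout
    exfalso
    -- then `N` is a Frobenius group
    set C : Subgroup N := MulAction.stabilizer N a with hC
    have hCne : C ≠ ⊥ := by
      obtain ⟨p, hp⟩ := hZ.2.2.2.2 N hN hNp
      obtain ⟨⟨y, hy⟩, hyne⟩ := Subgroup.ne_bot_iff_exists_ne_one.mp hp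
      obtain ⟨g, hg⟩ := exists_move hZ p a
      intro e
      have hm : (⟨g * (y : G) * g⁻¹, hN.conj_mem _ y.2 g⟩ : N) ∈ C := by
        show (g * (y : G) * g⁻¹) • a = a
        rw [mul_smul, mul_smul, inv_smul_eq_iff.mpr hg.symm, show (y : G) • p = p from hy, hg]
      rw [e, Subgroup.mem_bot] at hm
      exact hyne (Subtype.ext (Subtype.ext (conj_eq_one_iff.mp (congrArg Subtype.val hm))))
    have hFC : Cfsg.IsFrobeniusComplement C := by
      refine ⟨hCne, fun e => ?_, fun g hg => ?_⟩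
      · obtain ⟨y, hy, hyb⟩ := hNtr a b
        have : (⟨y, hy⟩ : N) ∈ C := by rw [e]; exact Subgroup.mem_top _
        exact hab ((this : y • a = a).symm.trans hyb)
      · rw [Subgroup.eq_bot_iff_forall]
        rintro z ⟨hz, hz'⟩
        by_contra hz1
        have h' := Subgroup.mem_pointwise_smul_iff_inv_smul_mem.mp hz'
        rw [← map_inv, MulAut.smul_def, MulAut.conj_apply, inv_inv] at h'
        have h'' : ((g : G)⁻¹ * z * g) • a = a := h'
        rw [mul_smul, mul_smul, inv_smul_eq_iff] at h''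
        exact hg (hKf (z : G) (hout z z.2 hz) (fun e => hz1 (Subtype.ext e)) _ h'')
    obtain ⟨F, hset, hFn, hFc, -⟩ := Lib.FPF.exists_frobenius_kernel_nilpotent hFC
    have hmemF : ∀ z : N, z ∈ F ↔ z = 1 ∨ ∀ p : Ω, z • p ≠ p := by
      intro z
      rw [← SetLike.mem_coe, hset]
      show (z = 1 ∨ _) ↔ _
      refine or_congr_right ⟨fun hall p hp => ?_, fun hall g hzg => ?_⟩
      · obtain ⟨g, hg⟩ := MulAction.exists_smul_eq N a p
        refine hall g ?_
        rw [Subgroup.mem_pointwise_smul_iff_inv_smul_mem, ← map_inv, MulAut.smul_def,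
          MulAut.conj_apply, inv_inv]
        show (g⁻¹ * z * g) • a = a
        rw [mul_smul, mul_smul, hg, hp, inv_smul_eq_iff, hg]
      · rw [Subgroup.mem_pointwise_smul_iff_inv_smul_mem, ← map_inv, MulAut.smul_def,
          MulAut.conj_apply, inv_inv] at hzg
        have h'' : (g⁻¹ * z * g) • a = a := hzg
        rw [mul_smul, mul_smul, inv_smul_eq_iff] at h''
        exact hall _ h''
    have hFsemi : ∀ z ∈ F, ∀ p : Ω, z • p = p → z = 1 := fun z hz p hp =>
      ((hmemF z).mp hz).resolve_right fun h => h p hp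
    haveI := Fintype.ofFinite F
    have hFtr : MulAction.IsPretransitive F Ω := by
      have hbij : Function.Bijective fun z : F => (z : N) • a := by
        refine (Nat.bijective_iff_injective_and_card _).mpr ⟨fun z z' e => ?_, ?_⟩
        · refine Subtype.ext (inv_mul_eq_one.mp (hFsemi _ (mul_mem (inv_mem z'.2) z.2) a ?_)).symm
          rw [mul_smul]; exact inv_smul_eq_iff.mpr e
        · rw [← hFc.index_eq_card, MulAction.index_stabilizer_of_transitive]
      refine ⟨fun x y => ?_⟩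
      obtain ⟨u, hu⟩ := hbij.2 x
      obtain ⟨w, hw⟩ := hbij.2 y
      refine ⟨w * u⁻¹, ?_⟩
      show ((w : N) * (u : N)⁻¹) • x = y
      rw [← hu, mul_smul, inv_smul_smul]
      exact hw
    have hMn : (F.map N.subtype).Normal := ⟨by
      rintro _ ⟨z, hz, rfl⟩ g
      refine ⟨⟨g * (z : G) * g⁻¹, hN.conj_mem _ z.2 g⟩, ?_, rfl⟩
      rcases (hmemF z).mp hz with rfl | h
      · exact (hmemF _).mpr (Or.inl (Subtype.ext (by simp)))
      · refine (hmemF _).mpr (Or.inr fun p hp => h (g⁻¹ • p) ?_)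
        rw [eq_inv_smul_iff]
        have hp' : (g * (z : G) * g⁻¹) • p = p := hp
        rw [mul_smul, mul_smul] at hp'
        exact hp'⟩
    obtain ⟨y, hy⟩ := hZ.2.2.2.2 _ hMn ⟨fun p q => by
      obtain ⟨⟨z, hz⟩, hzq⟩ := hFtr.exists_smul_eq p q
      exact ⟨⟨z, z, hz, rfl⟩, hzq⟩⟩
    refine hy ((Subgroup.eq_bot_iff_forall _).mpr ?_)
    rintro ⟨_, z, hz, rfl⟩ hzy
    exact Subtype.ext (show (z : G) = 1 by rw [hFsemi z hz y hzy]; rfl)
  -- the inverting involution lies in `N`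
  obtain ⟨s, hsa, hsb, hss, hinv⟩ := exists_inverting_involution hZ hodd hab
  obtain ⟨k, hk⟩ := two_point_odd hZ hodd hab
  haveI : Fact (Nat.Prime 2) := ⟨Nat.prime_two⟩
  have hsN : s ∈ N := by
    obtain ⟨c, hc⟩ := Equiv.Perm.exists_fixed_point_of_prime (p := 2) (n := 1) hodd.not_two_dvd_nat
      (σ := MulAction.toPerm s) (by
        rw [pow_one, pow_two]
        exact Equiv.ext fun x => by simp [smul_smul, hss])
    have hc' : s • c = c := hc
    obtain ⟨g, hg⟩ := exists_move hZ c a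
    have hy : g * s * g⁻¹ ∈ MulAction.stabilizer G a := by
      show (g * s * g⁻¹) • a = a
      rw [mul_smul, mul_smul, inv_smul_eq_iff.mpr hg.symm, hc', hg]
    have hyy : g * s * g⁻¹ * (g * s * g⁻¹) = 1 := by
      rw [show g * s * g⁻¹ * (g * s * g⁻¹) = g * (s * s) * g⁻¹ by group, hss, mul_one, mul_inv_cancel]
    obtain ⟨v, hv, h, hh, e⟩ := hsplit _ hy
    have h2 : h * h ∈ K := by
      have e2 : h * h = (v * (h * v * h⁻¹))⁻¹ := by
        rw [e] at hyy
        rw [show v * h * (v * h) = v * (h * v * h⁻¹) * (h * h) by group] at hyy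
        exact eq_inv_of_mul_eq_one_right hyy
      rw [e2]
      exact inv_mem (mul_mem hv (hKn h hh.1 v hv))
    have h3 : h * h = 1 :=
      Subgroup.mem_bot.mp (hKb ▸ ⟨h2, (mul_mem hh hh : h * h ∈ H).2⟩ : h * h ∈ (⊥ : Subgroup G))
    have h4 : h = 1 := by
      by_contra h1
      have hd2 := Subgroup.orderOf_dvd_natCard H hh
      rw [orderOf_eq_prime (p := 2) (by rw [pow_two, h3]) h1, show Nat.card H = 2 * k + 1 from hk] at hd2
      omega
    rw [h4, mul_one] at e
    have := hN.conj_mem _ (hUN hv) g⁻¹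
    rw [← e] at this
    simpa [mul_assoc] using this
  have hHN : H ≤ N := by
    intro h hh
    have h2 : s * h * s⁻¹ * h⁻¹ ∈ N := by
      rw [mul_assoc s h, mul_assoc s]
      exact mul_mem hsN (hN.conj_mem _ (inv_mem hsN) h)
    rw [hinv h hh] at h2
    have h3 : h ^ Nat.card H = 1 := by
      have := congrArg Subtype.val (pow_card_eq_one' (x := (⟨h, hh⟩ : H)))
      simpa only [Subgroup.coe_pow, Subgroup.coe_one] using this
    have h5 : h = (h⁻¹ * h⁻¹)⁻¹ ^ (k + 1) := by
      rw [mul_inv_rev, inv_inv, ← pow_two, ← pow_mul,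
        show 2 * (k + 1) = Nat.card H + 1 by rw [hk]; ring, pow_succ, h3, one_mul]
    rw [h5]
    exact pow_mem (inv_mem h2) _
  refine Subgroup.eq_top_iff' _ |>.mpr fun g => ?_
  obtain ⟨y, hy, hyg⟩ := hNtr a (g • a)
  have hm : y⁻¹ * g ∈ MulAction.stabilizer G a := by
    show (y⁻¹ * g) • a = a
    rw [mul_smul, inv_smul_eq_iff, hyg]
  obtain ⟨v, hv, h, hh, e⟩ := hsplit _ hm
  have : g = y * (v * h) := by rw [← e, mul_inv_cancel_left]
  rw [this]
  exact mul_mem hy (mul_mem (hUN hv) (hHN hh))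

end Cfsg.Agent.S0338
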