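import Cfsg.Statements.S0346
import Cfsg.Agent.S0345
import Cfsg.Agent.Lib.Zass.FeitCond

set_option autoImplicit false
open Cfsg

namespace Cfsg.Agent.S0346

open MulAction Cfsg.Agent.Lib.Zass Cfsg.Agent.Lib.ZassFrob

/-- The number of points of a finite simple Zassenhaus group is `p^k + 1` for some prime power `p^k` (the regular normal
subgroup of a point stabiliser is a `p`-group). -/
theorem result {G Ω : Type*} [Group G] [Finite G] [MulAction G Ω] [Fintype Ω]
    (hZ : Cfsg.IsZassenhausGroup G Ω) [IsSimpleGroup G] :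
    IsPrimePow (Fintype.card Ω - 1) := by
  classical
  haveI := hZ.1
  obtain ⟨x, -, a, b, hab, -, -⟩ := hZ.2.2.2.1
  have hF : Fintype.card Ω = Nat.card Ω := Nat.card_eq_fintype_card.symm
  obtain ⟨K, hKle, -, -, -, -, hKc, hKf⟩ := exists_kernel hZ hab
  obtain ⟨hK, hnil⟩ := isKernel_of_fix hZ hab hKle hKf hKc
  haveI := hnil
  rw [hF, ← hKc, Nat.add_sub_cancel]
  have habel : Nat.card K - 1 ≤ 2 * Nat.card ↥(stabilizer G a ⊓ stabilizer G b) →
      IsPrimePow (Nat.card K) := fun h => by
    obtain ⟨-, p, f, hp, hf, hpf⟩ := prime_pow_kernel hZ hK h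
    exact hpf ▸ hp.prime.isPrimePow.pow hf
  rcases Nat.even_or_odd (Nat.card ↥(stabilizer G a ⊓ stabilizer G b)) with he | ho
  · refine habel ?_
    have h1 := S0741.result hZ hab he
    omega
  · obtain ⟨hcyc, v, -, hva, -, hinv⟩ := S0345.odd_case hZ hab ho
    haveI := hcyc
    letI := IsCyclic.commGroup (α := ↥(stabilizer G a ⊓ stabilizer G b))
    rcases hK.feit_alternative hZ ⟨⟨hcyc.commGroup.mul_comm⟩⟩ v hva hinv rfl ho with h | ⟨p, hp, hpK, -⟩
    · exact habel h
    · haveI := Fact.mk hp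
      obtain ⟨n, hn⟩ := hpK.exists_card_eq
      rw [hn]
      refine hp.prime.isPrimePow.pow fun h0 => ?_
      have := two_lt_card hZ hab
      rw [h0, pow_zero] at hn
      omega

end Cfsg.Agent.S0346
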