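import Cfsg.Statements.S0437
import Cfsg.Agent.Lib.ThreeTrans

set_option autoImplicit false
open Cfsg

namespace Cfsg.Agent.S0437

open Cfsg.Agent.Lib.ThreeTrans in
theorem key {G : Type*} [Group G] {E : Set G} (hE : Cfsg.IsThreeTranspositionSet E) {a b c e : G}
    (ha : a ∈ E) (hb : b ∈ E) (hc : c ∈ E) (he : e ∈ E) (hab : a ≠ b) (h₂ : Commute a c)
    (h₃ : Commute b c) (h : Commute e (a * b * c)) (hec : Commute e c) :
    Commute e a ∧ Commute e b ∧ Commute e c := by
  have := centralize_product_two hE ha hb he hab
    (by simpa using h.mul_right hec.inv_right)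
  exact ⟨this.1, this.2, hec⟩

/-- For three distinct, pairwise commuting members a, b, c of a set of 3-transpositions E, a member e of E centralises a * b * c if and only if it centralises each of a, b and c. -/
theorem result {G : Type*} [Group G] {E : Set G} (hE : Cfsg.IsThreeTranspositionSet E) {a b c e : G} (ha : a ∈ E) (hb : b ∈ E) (hc : c ∈ E) (he : e ∈ E) (hab : a ≠ b) (hac : a ≠ c) (hbc : b ≠ c) (h₁ : Commute a b) (h₂ : Commute a c) (h₃ : Commute b c) : Commute e (a * b * c) ↔ (Commute e a ∧ Commute e b ∧ Commute e c) := by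
  refine ⟨fun h => ?_, fun h => (h.1.mul_right h.2.1).mul_right h.2.2⟩
  by_cases hec : Commute e c
  · exact key hE ha hb hc he hab h₂ h₃ h hec
  by_cases heb : Commute e b
  · have := key hE ha hc hb he hac h₁ h₃.symm
      (by simpa [mul_assoc, h₃.eq] using h) heb
    exact ⟨this.1, this.2.2, this.2.1⟩
  by_cases hea : Commute e a
  · have := key hE hb hc ha he hbc h₁.symm h₂.symm
      (by
        have e1 : b * c * a = a * b * c := by
          rw [mul_assoc b c a, ← h₂.eq, ← mul_assoc, ← h₁.eq]
        rwa [e1]) hea
    exact ⟨this.2.2, this.1, this.2.1⟩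
  exfalso
  have aa := Lib.ThreeTrans.mul_self_eq_one hE ha
  have bb := Lib.ThreeTrans.mul_self_eq_one hE hb
  have cc := Lib.ThreeTrans.mul_self_eq_one hE hc
  have ee := Lib.ThreeTrans.mul_self_eq_one hE he
  have ca := Lib.ThreeTrans.braid hE he ha hea
  have cb := Lib.ThreeTrans.braid hE he hb heb
  have ce := Lib.ThreeTrans.braid hE he hc hec
  have h3 : e * (a * b * c) * e = a * b * c := by rw [h.eq, mul_assoc, ee, mul_one]
  have aa' : ∀ x : G, a * (a * x) = x := fun x => by rw [← mul_assoc, aa, one_mul]
  have bb' : ∀ x : G, b * (b * x) = x := fun x => by rw [← mul_assoc, bb, one_mul]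
  have cc' : ∀ x : G, c * (c * x) = x := fun x => by rw [← mul_assoc, cc, one_mul]
  have ee' : ∀ x : G, e * (e * x) = x := fun x => by rw [← mul_assoc, ee, one_mul]
  -- e ab e = ab e c
  have h4 : e * (a * b) * e = a * b * e * c := by
    calc e * (a * b) * e = e * (a * b * c) * e * (e * c * e) := by
          simp only [mul_assoc, ee', cc']
      _ = a * b * c * (e * c * e) := by rw [h3]
      _ = a * b * c * (c * e * c) := by rw [ce]
      _ = a * b * e * c := by simp only [mul_assoc, cc']
  have h5 : a * e * a * (b * e * b) = a * b * e * c := by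
    rw [← ca, ← cb, ← h4]; simp only [mul_assoc, ee']
  -- a e = e c
  have h6 : e * a * b * e * b = b * e * c := by
    have := congrArg (a * ·) h5
    simpa only [mul_assoc, aa'] using this
  have h7 : a * b * e = b * e * c := by
    calc a * b * e = e * (e * a * b * e * b) * b := by simp only [mul_assoc, ee', bb, mul_one]
      _ = e * (b * e * c) * b := by rw [h6]
      _ = (e * b * e) * (c * b) := by simp only [mul_assoc]
      _ = (b * e * b) * (b * c) := by rw [cb, h₃.eq]
      _ = b * e * c := by simp only [mul_assoc, bb']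
  have h8 : a * e = e * c := by
    rw [h₁.eq] at h7
    have := congrArg (b * ·) h7
    simpa only [mul_assoc, bb'] using this
  have h9 : c = a * e * a := by
    rw [← ca]
    have := congrArg (e * ·) h8
    simp only [ee'] at this
    rw [mul_assoc, this]
  apply hec
  have h10 : c = e := by
    calc c = a * a * c := by rw [aa, one_mul]
      _ = a * c * a := by rw [mul_assoc, mul_assoc, h₂.eq]
      _ = a * (a * e * a) * a := by rw [← h9]
      _ = e := by simp only [mul_assoc, aa', aa, mul_one]
  rw [h10]

end Cfsg.Agent.S0437
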