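import Cfsg.Statements.S0891
import Mathlib.Tactic
import Mathlib.LinearAlgebra.Matrix.NonsingularInverse
import Mathlib.GroupTheory.SpecificGroups.Alternating
-- import your own Cfsg.Agent.* helpers here

set_option autoImplicit false
open Cfsg

namespace Cfsg.Agent.S0891

open Matrix
open scoped commutatorElement symmDiff

variable {n : ℕ}

/-- Add or remove one letter. -/
def flipAt (i : Fin n) (S : Finset (Fin n)) : Finset (Fin n) := S ∆ {i}

theorem mem_flipAt {i j : Fin n} {S : Finset (Fin n)} :
    j ∈ flipAt i S ↔ ((j ∈ S ∧ j ≠ i) ∨ (j = i ∧ j ∉ S)) := by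
  simp [flipAt, Finset.mem_symmDiff]

theorem flipAt_flipAt (i : Fin n) (S : Finset (Fin n)) : flipAt i (flipAt i S) = S :=
  symmDiff_symmDiff_cancel_right _ _

theorem flipAt_comm (i j : Fin n) (S : Finset (Fin n)) :
    flipAt i (flipAt j S) = flipAt j (flipAt i S) :=
  symmDiff_right_comm S {j} {i}

/-- The sign of a set relative to a predicate. -/
def psign (p : Fin n → Prop) [DecidablePred p] (S : Finset (Fin n)) : ℝ :=
  (-1) ^ (S.filter p).card

theorem psign_sq (p : Fin n → Prop) [DecidablePred p] (S : Finset (Fin n)) :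
    psign p S * psign p S = 1 := by
  rw [psign, ← pow_add, ← two_mul, pow_mul, neg_one_sq, one_pow]

theorem psign_flipAt_neg (p : Fin n → Prop) [DecidablePred p] {i : Fin n} (hi : ¬ p i)
    (S : Finset (Fin n)) : psign p (flipAt i S) = psign p S := by
  have : (flipAt i S).filter p = S.filter p := by
    ext j
    simp only [Finset.mem_filter, mem_flipAt]
    constructor
    · rintro ⟨⟨h, -⟩ | ⟨rfl, -⟩, hp⟩
      · exact ⟨h, hp⟩
      · exact absurd hp hi
    · rintro ⟨h, hp⟩
      exact ⟨Or.inl ⟨h, fun e => hi (e ▸ hp)⟩, hp⟩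
  rw [psign, psign, this]

theorem psign_flipAt_pos (p : Fin n → Prop) [DecidablePred p] {i : Fin n} (hi : p i)
    (S : Finset (Fin n)) : psign p (flipAt i S) = -psign p S := by
  by_cases h : i ∈ S
  · have e : S.filter p = insert i ((flipAt i S).filter p) := by
      ext j
      simp only [Finset.mem_filter, Finset.mem_insert, mem_flipAt]
      by_cases hj : j = i
      · subst hj; simp [h, hi]
      · simp [hj]
    have hn : i ∉ (flipAt i S).filter p := by simp [mem_flipAt, h]
    rw [psign, psign, e, Finset.card_insert_of_notMem hn, pow_succ]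
    ring
  · have e : (flipAt i S).filter p = insert i (S.filter p) := by
      ext j
      simp only [Finset.mem_filter, Finset.mem_insert, mem_flipAt]
      by_cases hj : j = i
      · subst hj; simp [h, hi]
      · simp [hj]
    have hn : i ∉ S.filter p := by simp [h]
    rw [psign, psign, e, Finset.card_insert_of_notMem hn, pow_succ]
    ring

/-- Square matrices indexed by the subsets of the letters. -/
abbrev Mat (n : ℕ) := Matrix (Finset (Fin n)) (Finset (Fin n)) ℝ

/-- A signed flip. -/
def signedFlip (i : Fin n) (f : Finset (Fin n) → ℝ) : Mat n :=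
  Matrix.of fun S T => if T = flipAt i S then f S else 0

theorem signedFlip_mul (i : Fin n) (f : Finset (Fin n) → ℝ) (X : Mat n) (S U : Finset (Fin n)) :
    (signedFlip i f * X) S U = f S * X (flipAt i S) U := by
  rw [Matrix.mul_apply, Finset.sum_eq_single (flipAt i S)
    (fun T _ hT => by simp [signedFlip, hT]) (fun h => absurd (Finset.mem_univ _) h)]
  simp [signedFlip]

/-- Left multiplication by the `i`-th Clifford generator. -/
def gL (i : Fin n) : Mat n := signedFlip i (psign (· < i))

/-- Right multiplication by the `i`-th Clifford generator. -/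
def gR (i : Fin n) : Mat n := signedFlip i (psign (i < ·))

/-- The parity operator. -/
def par : Mat n := Matrix.diagonal fun S => psign (fun _ => True) S

theorem gL_sq (i : Fin n) : gL i * gL i = 1 := by
  ext S U
  rw [gL, signedFlip_mul]
  simp only [signedFlip, Matrix.of_apply, flipAt_flipAt, Matrix.one_apply,
    psign_flipAt_neg (· < i) (lt_irrefl i)]
  by_cases h : S = U
  · subst h; simp [psign_sq]
  · simp [h, Ne.symm h]

theorem gL_anti {i j : Fin n} (h : i ≠ j) : gL i * gL j = -(gL j * gL i) := by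
  wlog hij : i < j generalizing i j
  · rw [this h.symm (lt_of_le_of_ne (not_lt.mp hij) h.symm), neg_neg]
  ext S U
  rw [Matrix.neg_apply, gL, gL, signedFlip_mul, signedFlip_mul]
  simp only [signedFlip, Matrix.of_apply]
  rw [flipAt_comm j i]
  rw [psign_flipAt_pos (· < j) hij, psign_flipAt_neg (· < i) (not_lt.mpr hij.le)]
  split_ifs <;> ring

theorem gL_comm_gR (i j : Fin n) : gL i * gR j = gR j * gL i := by
  ext S U
  rw [gL, gR, signedFlip_mul, signedFlip_mul]
  simp only [signedFlip, Matrix.of_apply]
  rw [flipAt_comm j i]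
  rcases lt_trichotomy i j with h | h | h
  · rw [psign_flipAt_neg (j < ·) (not_lt.mpr h.le), psign_flipAt_neg (· < i) (not_lt.mpr h.le)]
    split_ifs <;> ring
  · subst h
    rw [psign_flipAt_neg (i < ·) (lt_irrefl i), psign_flipAt_neg (· < i) (lt_irrefl i)]
    split_ifs <;> ring
  · rw [psign_flipAt_pos (j < ·) h, psign_flipAt_pos (· < i) h]
    split_ifs <;> ring

theorem gL_par (i : Fin n) : gL i * par = -(par * gL i) := by
  ext S U
  rw [Matrix.neg_apply, gL, signedFlip_mul]
  simp only [par, Matrix.diagonal_mul, Matrix.diagonal_apply, signedFlip, Matrix.of_apply]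
  by_cases h : U = flipAt i S
  · subst h
    rw [if_pos rfl, if_pos rfl, psign_flipAt_pos (fun _ => True) trivial]
    ring
  · rw [if_neg (Ne.symm h), if_neg h]; ring

theorem gL_transpose (i : Fin n) : (gL i)ᵀ = gL i := by
  ext S T
  simp only [gL, signedFlip, Matrix.transpose_apply, Matrix.of_apply]
  by_cases h : T = flipAt i S
  · subst h
    rw [flipAt_flipAt, if_pos rfl, if_pos rfl, psign_flipAt_neg (· < i) (lt_irrefl i)]
  · rw [if_neg h, if_neg fun e => h (by rw [e, flipAt_flipAt])]

theorem gL_injective : Function.Injective (gL : Fin n → Mat n) := by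
  intro i j h
  have h2 := congrFun (congrFun h ∅) (flipAt i ∅)
  simp only [gL, signedFlip, Matrix.of_apply, if_pos] at h2
  by_contra hne
  have h3 : flipAt i (∅ : Finset (Fin n)) ≠ flipAt j ∅ := fun e => hne (by
    have hi : i ∈ flipAt i (∅ : Finset (Fin n)) := by simp [mem_flipAt]
    rw [e] at hi
    simpa [mem_flipAt] using hi)
  rw [if_neg h3] at h2
  simp [psign] at h2

/-- A matrix commuting with both multiplications and with the parity is a scalar. -/
theorem scalar_of_commute (g : Mat n) (hL : ∀ i, g * gL i = gL i * g)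
    (hR : ∀ i, g * gR i = gR i * g) (hP : g * par = par * g) :
    g = g ∅ ∅ • (1 : Mat n) := by
  have hdiag : ∀ S T, S ≠ T → g S T = 0 := by
    intro S T hne
    obtain ⟨i, hi⟩ : ∃ i, ¬ (i ∈ S ↔ i ∈ T) := by
      by_contra hc
      push Not at hc
      exact hne (Finset.ext hc)
    have hcomm : g * (gL i * gR i * par) = (gL i * gR i * par) * g := by
      rw [← mul_assoc, ← mul_assoc, hL, mul_assoc (gL i) g, hR, ← mul_assoc, mul_assoc _ g, hP,
        ← mul_assoc]
    have hD : (gL i * gR i * par : Mat n) =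
        Matrix.diagonal fun X => if i ∈ X then -1 else (1 : ℝ) := by
      ext A B
      rw [mul_assoc, gL, signedFlip_mul, gR, signedFlip_mul]
      simp only [par, Matrix.diagonal_apply, flipAt_flipAt,
        psign_flipAt_neg (i < ·) (lt_irrefl i)]
      by_cases h : A = B
      · subst h
        rw [if_pos rfl, if_pos rfl]
        simp only [psign, ← pow_add]
        have e : (A.filter (· < i)).card + ((A.filter (i < ·)).card + (A.filter fun _ => True).card) =
            2 * ((A.filter (· < i)).card + (A.filter (i < ·)).card) + if i ∈ A then 1 else 0 := by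
          have h1 : A.card = (A.filter (· < i)).card + (A.filter (i < ·)).card +
              (A.filter (· = i)).card := by
            rw [← Finset.card_union_of_disjoint (Finset.disjoint_filter.mpr fun x _ a b => absurd b (asymm a)),
              ← Finset.card_union_of_disjoint ?_]
            · congr 1
              ext x
              simp only [Finset.mem_union, Finset.mem_filter]
              rcases lt_trichotomy x i with h | h | h <;> simp [h] <;> tauto
            · rw [Finset.disjoint_left]
              intro x hx hx'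
              simp only [Finset.mem_union, Finset.mem_filter] at hx hx'
              rcases hx with h | h
              · exact h.2.ne hx'.2
              · exact h.2.ne hx'.2.symm
          rw [Finset.filter_true, Finset.filter_eq'] at *
          split_ifs with hm <;> simp [hm] at h1 <;> omega
        rw [e, pow_add, pow_mul, neg_one_sq, one_pow, one_mul]
        split_ifs <;> simp
      · rw [if_neg h, if_neg h]; ring
    have := congrFun (congrFun hcomm S) T
    rw [hD, Matrix.mul_diagonal, Matrix.diagonal_mul] at this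
    by_cases h1 : i ∈ S
    · have h2 : i ∉ T := fun h => hi (iff_of_true h1 h)
      rw [if_pos h1, if_neg h2] at this
      linarith
    · have h2 : i ∈ T := by_contra fun h => hi (iff_of_false h1 h)
      rw [if_neg h1, if_pos h2] at this
      linarith
  have hconst : ∀ S, g S S = g ∅ ∅ := by
    intro S
    induction S using Finset.induction with
    | empty => rfl
    | insert i S hiS ih =>
      have e : flipAt i S = insert i S := by
        ext x
        rw [mem_flipAt, Finset.mem_insert]
        by_cases hx : x = i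
        · subst hx; simp [hiS]
        · simp [hx]
      have h := congrFun (congrFun (hL i) S) (insert i S)
      rw [gL, signedFlip_mul, e, Matrix.mul_apply, Finset.sum_eq_single S] at h
      · simp only [signedFlip, Matrix.of_apply, e, if_pos] at h
        rw [← ih]
        have h0 : psign (· < i) S ≠ 0 := left_ne_zero_of_mul_eq_one (psign_sq _ S)
        exact mul_left_cancel₀ h0 (h.symm.trans (mul_comm _ _))
      · intro T _ hT
        rw [hdiag S T (Ne.symm hT), zero_mul]
      · exact fun h => absurd (Finset.mem_univ _) h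
  ext S T
  by_cases h : S = T
  · subst h; simp [hconst]
  · simp [hdiag S T h, h]

/-- The conditions on a lift of a permutation. -/
structure IsLift (g : Mat n) (σ : Equiv.Perm (Fin n)) : Prop where
  orth : gᵀ * g = 1
  commR : ∀ i, g * gR i = gR i * g
  commP : g * par = ((Equiv.Perm.sign σ : ℤ) : ℝ) • (par * g)
  conj : ∀ i, g * gL i = ((Equiv.Perm.sign σ : ℤ) : ℝ) • (gL (σ i) * g)

theorem IsLift.mul {g h : Mat n} {σ τ : Equiv.Perm (Fin n)} (hg : IsLift g σ) (hh : IsLift h τ) :
    IsLift (g * h) (σ * τ) := by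
  refine ⟨?_, fun i => ?_, ?_, fun i => ?_⟩
  · rw [Matrix.transpose_mul, mul_assoc, ← mul_assoc gᵀ, hg.orth, one_mul, hh.orth]
  · rw [mul_assoc, hh.commR, ← mul_assoc, hg.commR, mul_assoc]
  · rw [mul_assoc, hh.commP, Matrix.mul_smul, ← mul_assoc g, hg.commP, Matrix.smul_mul, smul_smul,
      mul_assoc, map_mul, Units.val_mul, Int.cast_mul, mul_comm]
  · rw [mul_assoc, hh.conj, Matrix.mul_smul, ← mul_assoc g, hg.conj, Matrix.smul_mul, smul_smul,
      mul_assoc, map_mul, Units.val_mul, Int.cast_mul, mul_comm, Equiv.Perm.mul_apply]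

theorem IsLift.one : IsLift (1 : Mat n) 1 :=
  ⟨by simp, fun i => by simp, by simp, fun i => by simp⟩

theorem par_comm_gR (i : Fin n) : gR i * par = -(par * gR i) := by
  ext S U
  rw [Matrix.neg_apply, gR, signedFlip_mul]
  simp only [par, Matrix.diagonal_mul, Matrix.diagonal_apply, signedFlip, Matrix.of_apply]
  by_cases h : U = flipAt i S
  · subst h
    rw [if_pos rfl, if_pos rfl, psign_flipAt_pos (fun _ => True) trivial]
    ring
  · rw [if_neg (Ne.symm h), if_neg h]; ring

/-- The lift of a transposition. -/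
noncomputable def tau (a b : Fin n) : Mat n := (Real.sqrt 2)⁻¹ • (gL a - gL b)

theorem isLift_tau {a b : Fin n} (hab : a ≠ b) : IsLift (tau a b) (Equiv.swap a b) := by
  have hs : ((Real.sqrt 2)⁻¹ * (Real.sqrt 2)⁻¹ : ℝ) = 1 / 2 := by
    rw [← mul_inv, Real.mul_self_sqrt (by norm_num)]; norm_num
  have hsign : ((Equiv.Perm.sign (Equiv.swap a b) : ℤ) : ℝ) = -1 := by
    rw [Equiv.Perm.sign_swap hab]; simp
  refine ⟨?_, fun i => ?_, ?_, fun c => ?_⟩
  · rw [tau, Matrix.transpose_smul, Matrix.transpose_sub, gL_transpose, gL_transpose,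
      Matrix.smul_mul, Matrix.mul_smul, smul_smul, hs, sub_mul, mul_sub, mul_sub, gL_sq, gL_sq,
      gL_anti hab]
    rw [show (1 : Mat n) - -(gL b * gL a) - (gL b * gL a - 1) = (2 : ℝ) • (1 : Mat n) by
      rw [two_smul]; abel, smul_smul]
    norm_num
  · rw [tau, Matrix.smul_mul, Matrix.mul_smul, sub_mul, mul_sub, gL_comm_gR, gL_comm_gR]
  · rw [tau, hsign, Matrix.smul_mul, Matrix.mul_smul, sub_mul, mul_sub, gL_par, gL_par, smul_smul,
      neg_one_mul, neg_smul, ← smul_neg]
    congr 1
    abel
  · rw [tau, hsign, Matrix.smul_mul, Matrix.mul_smul, sub_mul, mul_sub, smul_smul, neg_one_mul,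
      neg_smul, ← smul_neg]
    congr 1
    by_cases hca : c = a
    · subst hca
      rw [Equiv.swap_apply_left, gL_sq, gL_sq]
      abel
    by_cases hcb : c = b
    · subst hcb
      rw [Equiv.swap_apply_right, gL_sq, gL_sq]
      abel
    rw [Equiv.swap_apply_of_ne_of_ne hca hcb, gL_anti (Ne.symm hca), gL_anti (Ne.symm hcb)]
    abel

theorem exists_lift (σ : Equiv.Perm (Fin n)) : ∃ g : Mat n, IsLift g σ := by
  induction σ using Equiv.Perm.swap_induction_on with
  | one => exact ⟨1, IsLift.one⟩
  | swap_mul f x y hxy ih =>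
    obtain ⟨g, hg⟩ := ih
    exact ⟨tau x y * g, (isLift_tau hxy).mul hg⟩

theorem IsLift.isUnit {g : Mat n} {σ : Equiv.Perm (Fin n)} (hg : IsLift g σ) : g * gᵀ = 1 :=
  mul_eq_one_comm.mp hg.orth

theorem IsLift.inv {g : Mat n} {σ : Equiv.Perm (Fin n)} (hσ : Equiv.Perm.sign σ = 1)
    (hg : IsLift g σ) : IsLift gᵀ σ⁻¹ := by
  have h1 := hg.orth
  have h2 := hg.isUnit
  have key : ∀ X Y : Mat n, g * X = Y * g → gᵀ * Y = X * gᵀ := fun X Y h => by
    calc gᵀ * Y = gᵀ * (Y * g) * gᵀ := by rw [mul_assoc, mul_assoc, h2, mul_one]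
      _ = gᵀ * (g * X) * gᵀ := by rw [h]
      _ = X * gᵀ := by rw [← mul_assoc gᵀ, h1, one_mul]
  refine ⟨by rw [Matrix.transpose_transpose]; exact h2, fun i => key _ _ (hg.commR i), ?_, fun i => ?_⟩
  · simp only [map_inv, hσ, inv_one, Units.val_one, Int.cast_one, one_smul]
    exact key _ _ (by simpa [hσ] using hg.commP)
  · simp only [map_inv, hσ, inv_one, Units.val_one, Int.cast_one, one_smul]
    exact key _ _ (by simpa [hσ] using hg.conj (σ⁻¹ i))

/-- The double cover. -/
noncomputable def cover (n : ℕ) : Subgroup (Mat n)ˣ where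
  carrier := {u | ∃ σ : Equiv.Perm (Fin n), Equiv.Perm.sign σ = 1 ∧ IsLift (u : Mat n) σ}
  one_mem' := ⟨1, by simp, IsLift.one⟩
  mul_mem' := fun {u v} ⟨σ, hσ, hu⟩ ⟨τ, hτ, hv⟩ =>
    ⟨σ * τ, by rw [map_mul, hσ, hτ, one_mul], hu.mul hv⟩
  inv_mem' := fun {u} ⟨σ, hσ, hu⟩ => ⟨σ⁻¹, by rw [map_inv, hσ, inv_one], by
    rw [show ((u⁻¹ : (Mat n)ˣ) : Mat n) = (u : Mat n)ᵀ from
      (left_inv_eq_right_inv (Units.inv_mul u) hu.isUnit)]
    exact hu.inv hσ⟩

theorem lift_unique {g : Mat n} {σ τ : Equiv.Perm (Fin n)} (hg : IsLift g σ) (hg' : IsLift g τ)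
    (h : Equiv.Perm.sign σ = Equiv.Perm.sign τ) : σ = τ := by
  refine Equiv.ext fun i => gL_injective ?_
  have h1 : (gL (σ i) : Mat n) * g = gL (τ i) * g := by
    have e := (hg.conj i).symm.trans (hg'.conj i)
    rw [h] at e
    exact smul_right_injective (Mat n) (by simp) e
  calc gL (σ i) = gL (σ i) * g * gᵀ := by rw [mul_assoc, hg.isUnit, mul_one]
    _ = gL (τ i) * g * gᵀ := by rw [h1]
    _ = gL (τ i) := by rw [mul_assoc, hg.isUnit, mul_one]

/-- The map to the alternating group. -/
noncomputable def coverHom (n : ℕ) : cover n →* alternatingGroup (Fin n) where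
  toFun u := ⟨u.2.choose, Equiv.Perm.mem_alternatingGroup.mpr u.2.choose_spec.1⟩
  map_one' := Subtype.ext (lift_unique (1 : cover n).2.choose_spec.2 IsLift.one
    ((1 : cover n).2.choose_spec.1.trans (map_one _).symm))
  map_mul' u v := Subtype.ext (lift_unique (u * v).2.choose_spec.2
    (u.2.choose_spec.2.mul v.2.choose_spec.2)
    ((u * v).2.choose_spec.1.trans (((map_mul _ _ _).trans
      (by rw [u.2.choose_spec.1, v.2.choose_spec.1, one_mul])).symm)))

theorem coverHom_surjective : Function.Surjective (coverHom n) := by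
  rintro ⟨σ, hσ⟩
  obtain ⟨g, hg⟩ := exists_lift σ
  let u : (Mat n)ˣ := ⟨g, gᵀ, hg.isUnit, hg.orth⟩
  have hu : u ∈ cover n := ⟨σ, Equiv.Perm.mem_alternatingGroup.mp hσ, hg⟩
  exact ⟨⟨u, hu⟩, Subtype.ext (lift_unique hu.choose_spec.2 hg
    (hu.choose_spec.1.trans (Equiv.Perm.mem_alternatingGroup.mp hσ).symm))⟩

/-- The central element. -/
noncomputable def negOne (n : ℕ) : cover n :=
  ⟨-1, 1, by simp, by simp, fun i => by simp, by simp, fun i => by simp⟩

theorem ker_coverHom (u : cover n) (hu : u ∈ (coverHom n).ker) : u = 1 ∨ u = negOne n := by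
  have hσ : u.2.choose = 1 := congrArg Subtype.val (MonoidHom.mem_ker.mp hu)
  have hl := u.2.choose_spec.2
  rw [hσ] at hl
  have hs := scalar_of_commute ((u : (Mat n)ˣ) : Mat n)
    (fun i => by simpa using hl.conj i) hl.commR (by simpa using hl.commP)
  set c := ((u : (Mat n)ˣ) : Mat n) ∅ ∅ with hc
  have ho := hl.orth
  rw [hs, Matrix.transpose_smul, Matrix.transpose_one, Matrix.smul_mul, Matrix.mul_smul, smul_smul,
    one_mul] at ho
  have h2 := congrFun (congrFun ho ∅) ∅
  simp only [Matrix.smul_apply, Matrix.one_apply_eq, smul_eq_mul, mul_one] at h2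
  rcases mul_self_eq_one_iff.mp h2 with h | h
  · exact Or.inl (Subtype.ext (Units.ext (by rw [hs, h, one_smul]; rfl)))
  · exact Or.inr (Subtype.ext (Units.ext (by rw [hs, h, neg_one_smul]; rfl)))

/-- For every n ≥ 4 there are a finite group Γ and a central element z of Γ of order 2 lying in the commutator subgroup of Γ such that the quotient of Γ by the (normal) subgroup generated by z is isomorphic to the alternating group on n letters. -/
theorem result (n : ℕ) (hn : 4 ≤ n) : ∃ (Γ : Type) (_ : Group Γ) (_ : Finite Γ) (z : Γ) (hz : z ∈ Subgroup.center Γ), orderOf z = 2 ∧ z ∈ commutator Γ ∧ ∃ _ : (Subgroup.zpowers z).Normal, Nonempty (Γ ⧸ Subgroup.zpowers z ≃* alternatingGroup (Fin n)) := by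
  classical
  set z := negOne n with hz
  have hval : ((z : (Mat n)ˣ) : Mat n) = -1 := rfl
  have hne : z ≠ 1 := fun h => by
    have h2 : (-1 : Mat n) = 1 := congrArg (fun x : cover n => ((x : (Mat n)ˣ) : Mat n)) h
    have := congrFun (congrFun h2 ∅) ∅
    simp only [Matrix.neg_apply, Matrix.one_apply_eq] at this
    norm_num at this
  have hzc : z ∈ Subgroup.center (cover n) := Subgroup.mem_center_iff.mpr fun g =>
    Subtype.ext (Units.ext (by
      show ((g : (Mat n)ˣ) : Mat n) * -1 = -1 * ((g : (Mat n)ˣ) : Mat n)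
      rw [mul_neg, neg_mul, mul_one, one_mul]))
  have hz2 : orderOf z = 2 := orderOf_eq_prime (Subtype.ext (Units.ext (by
    show (-1 : Mat n) ^ 2 = 1
    rw [neg_one_sq]))) hne
  have hker : Subgroup.zpowers z = (coverHom n).ker := by
    refine le_antisymm (Subgroup.zpowers_le.mpr ?_) fun u hu => ?_
    · rw [MonoidHom.mem_ker]
      exact Subtype.ext (lift_unique z.2.choose_spec.2
        (σ := z.2.choose) (τ := 1) ⟨by simp [hval], fun i => by simp [hval], by simp [hval],
          fun i => by simp [hval]⟩ (by rw [z.2.choose_spec.1, map_one]))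
    · rcases ker_coverHom u hu with rfl | rfl
      · exact one_mem _
      · exact Subgroup.mem_zpowers z
  have hfin : Finite (cover n) := by
    have h1 : Finite (coverHom n).ker := by
      refine Finite.of_surjective (fun b : Bool => if b then (⟨1, one_mem _⟩ : (coverHom n).ker)
        else ⟨z, hker ▸ Subgroup.mem_zpowers z⟩) fun u => ?_
      rcases ker_coverHom u.1 u.2 with h | h
      · exact ⟨true, Subtype.ext h.symm⟩
      · exact ⟨false, Subtype.ext h.symm⟩
    have h2 : Finite (cover n ⧸ (coverHom n).ker) :=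
      Finite.of_equiv _ (QuotientGroup.quotientKerEquivOfSurjective _ coverHom_surjective).symm.toEquiv
    exact Finite.of_subgroup_quotient (coverHom n).ker
  have hn' : (Subgroup.zpowers z).Normal := hker ▸ inferInstance
  refine ⟨cover n, inferInstance, hfin, z, hzc, hz2, ?_, hn',
    ⟨(QuotientGroup.quotientMulEquivOfEq hker).trans
      (QuotientGroup.quotientKerEquivOfSurjective _ coverHom_surjective)⟩⟩
  -- two anticommuting lifts of commuting involutions
  let a : Fin n := ⟨0, by omega⟩
  let b : Fin n := ⟨1, by omega⟩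
  let c : Fin n := ⟨2, by omega⟩
  let d : Fin n := ⟨3, by omega⟩
  have hab : a ≠ b := by simp [a, b]
  have hac : a ≠ c := by simp [a, c]
  have had : a ≠ d := by simp [a, d]
  have hbc : b ≠ c := by simp [b, c]
  have hbd : b ≠ d := by simp [b, d]
  have hcd : c ≠ d := by simp [c, d]
  have hu := (isLift_tau hab).mul (isLift_tau hcd)
  have hv := (isLift_tau hac).mul (isLift_tau hbd)
  have su : Equiv.Perm.sign (Equiv.swap a b * Equiv.swap c d) = 1 := by
    rw [map_mul, Equiv.Perm.sign_swap hab, Equiv.Perm.sign_swap hcd]; rfl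
  have sv : Equiv.Perm.sign (Equiv.swap a c * Equiv.swap b d) = 1 := by
    rw [map_mul, Equiv.Perm.sign_swap hac, Equiv.Perm.sign_swap hbd]; rfl
  let u : cover n := ⟨⟨tau a b * tau c d, (tau a b * tau c d)ᵀ, hu.isUnit, hu.orth⟩, _, su, hu⟩
  let v : cover n := ⟨⟨tau a c * tau b d, (tau a c * tau b d)ᵀ, hv.isUnit, hv.orth⟩, _, sv, hv⟩
  have hsu : ((Equiv.Perm.sign (Equiv.swap a b * Equiv.swap c d) : ℤ) : ℝ) = 1 := by rw [su]; simp
  have ea : (Equiv.swap a b * Equiv.swap c d) a = b := by
    rw [Equiv.Perm.mul_apply, Equiv.swap_apply_of_ne_of_ne hac had, Equiv.swap_apply_left]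
  have eb : (Equiv.swap a b * Equiv.swap c d) b = a := by
    rw [Equiv.Perm.mul_apply, Equiv.swap_apply_of_ne_of_ne hbc hbd, Equiv.swap_apply_right]
  have ec : (Equiv.swap a b * Equiv.swap c d) c = d := by
    rw [Equiv.Perm.mul_apply, Equiv.swap_apply_left, Equiv.swap_apply_of_ne_of_ne had.symm hbd.symm]
  have ed : (Equiv.swap a b * Equiv.swap c d) d = c := by
    rw [Equiv.Perm.mul_apply, Equiv.swap_apply_right, Equiv.swap_apply_of_ne_of_ne hac.symm hbc.symm]
  have hconj : ∀ i, (tau a b * tau c d) * gL i =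
      gL ((Equiv.swap a b * Equiv.swap c d) i) * (tau a b * tau c d) := fun i => by
    have := hu.conj i
    rwa [hsu, one_smul] at this
  set U := tau a b * tau c d with hU
  have key : U * (tau a c * tau b d) = -((tau a c * tau b d) * U) := by
    have h1 : ∀ x y : Fin n, U * tau x y =
        tau ((Equiv.swap a b * Equiv.swap c d) x) ((Equiv.swap a b * Equiv.swap c d) y) * U :=
      fun x y => by rw [tau, tau, Matrix.mul_smul, mul_sub, hconj, hconj, ← sub_mul, Matrix.smul_mul]
    rw [← mul_assoc, h1 a c, mul_assoc, h1 b d, ← mul_assoc, ea, eb, ec, ed, ← neg_mul]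
    congr 1
    simp only [tau, Matrix.smul_mul, Matrix.mul_smul, smul_smul, ← smul_neg]
    congr 1
    rw [sub_mul, mul_sub, mul_sub, sub_mul, mul_sub, mul_sub, gL_anti hab.symm, gL_anti hbc,
      gL_anti had.symm, gL_anti hcd.symm]
    abel
  have hcomm : ⁅u, v⁆ = z := by
    rw [commutatorElement_def, mul_inv_eq_iff_eq_mul, mul_inv_eq_iff_eq_mul, mul_assoc]
    refine Subtype.ext (Units.ext ?_)
    show U * (tau a c * tau b d) = -1 * ((tau a c * tau b d) * U)
    rw [key, neg_one_mul]
  rw [← hcomm]
  exact Subgroup.commutator_mem_commutator (Subgroup.mem_top u) (Subgroup.mem_top v)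

end Cfsg.Agent.S0891
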