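import Cfsg.Statements.S0447
import Cfsg.Agent.S0891
import Mathlib

set_option autoImplicit false
open Cfsg
open scoped Matrix

namespace Cfsg.Agent.S0447

/-- A central element of order two outside a subgroup whose join with it has odd index splits off. -/
theorem exists_complement {H : Type*} [Group H] [Finite H] {z : H} (hz : z ∈ Subgroup.center H)
    (hz2 : z * z = 1) {C : Subgroup H} (hzC : z ∉ C) (hodd : ¬ 2 * (2 * Nat.card C) ∣ Nat.card H) :
    ∃ L : Subgroup H, z ∉ L ∧ L.index = 2 := by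
  classical
  let S : Subgroup H :=
    { carrier := {s | s ∈ C ∨ s * z ∈ C}
      one_mem' := Or.inl (one_mem C)
      mul_mem' := fun {a b} ha hb => by
        have hc : ∀ w : H, w * z = z * w := fun w => Subgroup.mem_center_iff.1 hz w
        rcases ha with ha | ha <;> rcases hb with hb | hb
        · exact Or.inl (mul_mem ha hb)
        · exact Or.inr (by rw [mul_assoc]; exact mul_mem ha hb)
        · exact Or.inr (by rw [mul_assoc, hc b, ← mul_assoc]; exact mul_mem ha hb)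
        · exact Or.inl (by
            have := mul_mem ha hb
            rwa [show a * z * (b * z) = a * (z * b) * z by simp only [mul_assoc], ← hc b,
              show a * (b * z) * z = a * b * (z * z) by simp only [mul_assoc], hz2, mul_one] at this)
      inv_mem' := fun {a} ha => by
        rcases ha with ha | ha
        · exact Or.inl (inv_mem ha)
        · exact Or.inr (by
            have := inv_mem ha
            rwa [mul_inv_rev, inv_eq_of_mul_eq_one_right hz2,
              ← Subgroup.mem_center_iff.1 hz a⁻¹] at this) }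
  have hCS : C ≤ S := fun c hc => Or.inl hc
  have hzS : z ∈ S := Or.inr (by rw [hz2]; exact one_mem C)
  have hidx : (C.subgroupOf S).index = 2 := by
    rw [Subgroup.index_eq_two_iff]
    refine ⟨⟨z, hzS⟩, fun s => ?_⟩
    rcases s.2 with h | h
    · exact Or.inr ⟨h, fun h' => hzC (by simpa using mul_mem (inv_mem h) (show (s : H) * z ∈ C from h'))⟩
    · exact Or.inl ⟨h, fun h' => hzC (by simpa using mul_mem (inv_mem (show (s : H) ∈ C from h')) h)⟩
  let φ : S →* Multiplicative (ZMod 2) := MonoidHom.mk'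
    (fun s => Multiplicative.ofAdd (if s ∈ C.subgroupOf S then (0 : ZMod 2) else 1)) fun a b => by
      apply Multiplicative.toAdd.injective
      have := Subgroup.mul_mem_iff_of_index_two hidx (a := a) (b := b)
      by_cases ha : a ∈ C.subgroupOf S <;> by_cases hb : b ∈ C.subgroupOf S <;>
        simp [ha, hb, this, CharTwo.add_self_eq_zero]
  have hcard : Nat.card S = 2 * Nat.card C := by
    rw [← (C.subgroupOf S).card_mul_index, hidx,
      Nat.card_congr (Subgroup.subgroupOfEquivOfLe hCS).toEquiv, mul_comm]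
  have hSodd : Odd S.index := by
    rw [← Nat.not_even_iff_odd]
    rintro ⟨j, hj⟩
    exact hodd ⟨j, by rw [← S.card_mul_index, hcard, hj]; ring⟩
  haveI : S.FiniteIndex := inferInstance
  let V : H →* Multiplicative (ZMod 2) := MonoidHom.transfer φ
  have hVz : V z = Multiplicative.ofAdd 1 := by
    have key : ∀ (k : ℕ) (g₀ : H), g₀⁻¹ * z ^ k * g₀ ∈ S → g₀⁻¹ * z ^ k * g₀ = z ^ k := fun k g₀ _ => by
      rw [mul_assoc, ← Subgroup.mem_center_iff.1 (pow_mem hz k) g₀, inv_mul_cancel_left]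
    show MonoidHom.transfer φ z = _
    rw [MonoidHom.transfer_eq_pow φ z key]
    obtain ⟨j, hj⟩ := hSodd
    have hm : (⟨z ^ S.index, MonoidHom.transfer_eq_pow_aux z key⟩ : S) = ⟨z, hzS⟩ := Subtype.ext (by
      show z ^ S.index = z
      rw [hj, pow_succ, pow_mul, sq, hz2, one_pow, one_mul])
    rw [hm]
    show Multiplicative.ofAdd (if (⟨z, hzS⟩ : S) ∈ C.subgroupOf S then (0 : ZMod 2) else 1) = _
    rw [if_neg (show ¬ (⟨z, hzS⟩ : S) ∈ C.subgroupOf S from hzC)]
  refine ⟨V.ker, fun h => ?_, ?_⟩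
  · rw [MonoidHom.mem_ker, hVz] at h
    exact absurd h (by decide)
  · have hsurj : Function.Surjective V := by
      intro y
      rcases (by decide : ∀ y : Multiplicative (ZMod 2), y = 1 ∨ y = Multiplicative.ofAdd 1) y with rfl | rfl
      · exact ⟨1, map_one V⟩
      · exact ⟨z, hVz⟩
    rw [Subgroup.index_ker, MonoidHom.range_eq_top.2 hsurj, Subgroup.card_top]
    simp

theorem gens_four : ∃ (a b : alternatingGroup (Fin 4)) (m : ℕ),
    (m = 2 ∨ m = 4) ∧ orderOf a = m ∧ b * b = 1 ∧ a * b * (a * b) = 1 ∧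
      (∀ i : ℕ, a ^ i ≠ b) ∧ ¬ 2 * (2 * m) ∣ Nat.card (alternatingGroup (Fin 4)) := by
  have ho : orderOf (⟨Equiv.swap 0 1 * Equiv.swap 2 3, Equiv.Perm.mem_alternatingGroup.2 (by decide)⟩ : alternatingGroup (Fin 4)) = 2 :=
    orderOf_eq_prime (by decide) (by decide)
  refine ⟨⟨Equiv.swap 0 1 * Equiv.swap 2 3, Equiv.Perm.mem_alternatingGroup.2 (by decide)⟩, ⟨Equiv.swap 0 2 * Equiv.swap 1 3, Equiv.Perm.mem_alternatingGroup.2 (by decide)⟩, 2,
    Or.inl rfl, ho, by decide, by decide, fun i => ?_, ?_⟩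
  · rw [← pow_mod_orderOf, ho]
    exact (by decide : ∀ j : Fin 2, (⟨Equiv.swap 0 1 * Equiv.swap 2 3, Equiv.Perm.mem_alternatingGroup.2 (by decide)⟩ : alternatingGroup (Fin 4)) ^ (j : ℕ) ≠
      ⟨Equiv.swap 0 2 * Equiv.swap 1 3, Equiv.Perm.mem_alternatingGroup.2 (by decide)⟩) ⟨i % 2, Nat.mod_lt _ (by norm_num)⟩
  · rw [nat_card_alternatingGroup, Nat.card_fin]; decide

theorem gens_five : ∃ (a b : alternatingGroup (Fin 5)) (m : ℕ),
    (m = 2 ∨ m = 4) ∧ orderOf a = m ∧ b * b = 1 ∧ a * b * (a * b) = 1 ∧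
      (∀ i : ℕ, a ^ i ≠ b) ∧ ¬ 2 * (2 * m) ∣ Nat.card (alternatingGroup (Fin 5)) := by
  have ho : orderOf (⟨Equiv.swap 0 1 * Equiv.swap 2 3, Equiv.Perm.mem_alternatingGroup.2 (by decide)⟩ : alternatingGroup (Fin 5)) = 2 :=
    orderOf_eq_prime (by decide) (by decide)
  refine ⟨⟨Equiv.swap 0 1 * Equiv.swap 2 3, Equiv.Perm.mem_alternatingGroup.2 (by decide)⟩, ⟨Equiv.swap 0 2 * Equiv.swap 1 3, Equiv.Perm.mem_alternatingGroup.2 (by decide)⟩, 2,
    Or.inl rfl, ho, by decide, by decide, fun i => ?_, ?_⟩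
  · rw [← pow_mod_orderOf, ho]
    exact (by decide : ∀ j : Fin 2, (⟨Equiv.swap 0 1 * Equiv.swap 2 3, Equiv.Perm.mem_alternatingGroup.2 (by decide)⟩ : alternatingGroup (Fin 5)) ^ (j : ℕ) ≠
      ⟨Equiv.swap 0 2 * Equiv.swap 1 3, Equiv.Perm.mem_alternatingGroup.2 (by decide)⟩) ⟨i % 2, Nat.mod_lt _ (by norm_num)⟩
  · rw [nat_card_alternatingGroup, Nat.card_fin]; decide

theorem gens_six : ∃ (a b : alternatingGroup (Fin 6)) (m : ℕ),
    (m = 2 ∨ m = 4) ∧ orderOf a = m ∧ b * b = 1 ∧ a * b * (a * b) = 1 ∧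
      (∀ i : ℕ, a ^ i ≠ b) ∧ ¬ 2 * (2 * m) ∣ Nat.card (alternatingGroup (Fin 6)) := by
  have ho : orderOf (⟨Equiv.swap 0 1 * Equiv.swap 1 2 * Equiv.swap 2 3 * Equiv.swap 4 5, Equiv.Perm.mem_alternatingGroup.2 (by decide)⟩ : alternatingGroup (Fin 6)) = 4 :=
    orderOf_eq_prime_pow (p := 2) (n := 1) (by decide) (by decide)
  refine ⟨⟨Equiv.swap 0 1 * Equiv.swap 1 2 * Equiv.swap 2 3 * Equiv.swap 4 5, Equiv.Perm.mem_alternatingGroup.2 (by decide)⟩, ⟨Equiv.swap 0 2 * Equiv.swap 4 5, Equiv.Perm.mem_alternatingGroup.2 (by decide)⟩, 4,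
    Or.inr rfl, ho, by decide, by decide, fun i => ?_, ?_⟩
  · rw [← pow_mod_orderOf, ho]
    exact (by decide : ∀ j : Fin 4, (⟨Equiv.swap 0 1 * Equiv.swap 1 2 * Equiv.swap 2 3 * Equiv.swap 4 5, Equiv.Perm.mem_alternatingGroup.2 (by decide)⟩ : alternatingGroup (Fin 6)) ^ (j : ℕ) ≠
      ⟨Equiv.swap 0 2 * Equiv.swap 4 5, Equiv.Perm.mem_alternatingGroup.2 (by decide)⟩) ⟨i % 4, Nat.mod_lt _ (by norm_num)⟩
  · rw [nat_card_alternatingGroup, Nat.card_fin]; decide

theorem gens_seven : ∃ (a b : alternatingGroup (Fin 7)) (m : ℕ),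
    (m = 2 ∨ m = 4) ∧ orderOf a = m ∧ b * b = 1 ∧ a * b * (a * b) = 1 ∧
      (∀ i : ℕ, a ^ i ≠ b) ∧ ¬ 2 * (2 * m) ∣ Nat.card (alternatingGroup (Fin 7)) := by
  have ho : orderOf (⟨Equiv.swap 0 1 * Equiv.swap 1 2 * Equiv.swap 2 3 * Equiv.swap 4 5, Equiv.Perm.mem_alternatingGroup.2 (by decide)⟩ : alternatingGroup (Fin 7)) = 4 :=
    orderOf_eq_prime_pow (p := 2) (n := 1) (by decide) (by decide)
  refine ⟨⟨Equiv.swap 0 1 * Equiv.swap 1 2 * Equiv.swap 2 3 * Equiv.swap 4 5, Equiv.Perm.mem_alternatingGroup.2 (by decide)⟩, ⟨Equiv.swap 0 2 * Equiv.swap 4 5, Equiv.Perm.mem_alternatingGroup.2 (by decide)⟩, 4,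
    Or.inr rfl, ho, by decide, by decide, fun i => ?_, ?_⟩
  · rw [← pow_mod_orderOf, ho]
    exact (by decide : ∀ j : Fin 4, (⟨Equiv.swap 0 1 * Equiv.swap 1 2 * Equiv.swap 2 3 * Equiv.swap 4 5, Equiv.Perm.mem_alternatingGroup.2 (by decide)⟩ : alternatingGroup (Fin 7)) ^ (j : ℕ) ≠
      ⟨Equiv.swap 0 2 * Equiv.swap 4 5, Equiv.Perm.mem_alternatingGroup.2 (by decide)⟩) ⟨i % 4, Nat.mod_lt _ (by norm_num)⟩
  · rw [nat_card_alternatingGroup, Nat.card_fin]; decide

/-- The first conclusion. -/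
theorem unique_involution {n : ℕ} {H : Type*} [Group H] [Finite H] (hn : n ≤ 7)
    (hH : Cfsg.IsNonsplitDoubleCover H (alternatingGroup (Fin n))) {x : H} (hx : orderOf x = 2) :
    x ∈ Subgroup.center H := by
  classical
  obtain ⟨hZ, ⟨e⟩, hsplit⟩ := hH
  set Z := Subgroup.center H with hZdef
  by_contra hxZ
  let π : H →* alternatingGroup (Fin n) := e.toMonoidHom.comp (QuotientGroup.mk' Z)
  have hπ : ∀ h, π h = 1 ↔ h ∈ Z := fun h => by
    show e (h : H ⧸ Z) = 1 ↔ _
    rw [map_eq_one_iff _ e.injective, QuotientGroup.eq_one_iff]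
  have hπsurj : Function.Surjective π := e.surjective.comp (QuotientGroup.mk'_surjective Z)
  obtain ⟨z, hz, hz1, hZall⟩ : ∃ z ∈ Z, z ≠ 1 ∧ ∀ w ∈ Z, w = 1 ∨ w = z := by
    obtain ⟨z, hz1, hall⟩ := Nat.card_eq_two_iff' (1 : Z) |>.1 hZ
    exact ⟨z, z.2, fun h => hz1 (Subtype.ext h), fun w hw => (em (w = 1)).imp_right fun h =>
      congrArg Subtype.val (hall ⟨w, hw⟩ fun h' => h (congrArg Subtype.val h'))⟩
  have hz2 : z * z = 1 := (hZall _ (mul_mem hz hz)).resolve_right fun h => hz1 (mul_left_cancel (h.trans (mul_one z).symm))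
  have hcz : ∀ w : H, w * z = z * w := fun w => Subgroup.mem_center_iff.1 hz w
  have hxx : x * x = 1 := by rw [← sq, ← hx, pow_orderOf_eq_one]
  have hsec : ∀ u v : H, π u = π v → u = v ∨ u = v * z := fun u v h => by
    have : v⁻¹ * u ∈ Z := (hπ _).1 (by rw [map_mul, map_inv, h, inv_mul_cancel])
    rcases hZall _ this with r | r
    · exact Or.inl (inv_mul_eq_one.1 r).symm
    · exact Or.inr (by rw [← r, mul_inv_cancel_left])
  set a₀ := π x with ha₀
  have ha₀1 : a₀ ≠ 1 := fun h => hxZ ((hπ x).1 h)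
  have hsq0 : (a₀ : Equiv.Perm (Fin n)) * a₀ = 1 := by
    rw [← Subgroup.coe_mul, ha₀, ← map_mul, hxx, map_one, Subgroup.coe_one]
  have hct : ∀ σ : Equiv.Perm (Fin n), σ ≠ 1 → σ * σ = 1 → Equiv.Perm.sign σ = 1 →
      σ.cycleType = Multiset.replicate 2 2 := by
    intro σ h1 h2 hs
    have ho : orderOf σ = 2 := orderOf_eq_prime (by rw [sq]; exact h2) h1
    obtain ⟨k, hk⟩ := Equiv.Perm.cycleType_prime_order (σ := σ) (ho ▸ Nat.prime_two)
    rw [ho] at hk
    have hsum := Equiv.Perm.sum_cycleType σ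
    have hle : σ.support.card ≤ n := (Finset.card_le_univ _).trans (Fintype.card_fin n).le
    rw [hk, Multiset.sum_replicate, smul_eq_mul] at hsum
    rw [Equiv.Perm.sign_of_cycleType, hk, Multiset.sum_replicate, Multiset.card_replicate, smul_eq_mul] at hs
    have hk1 : k ≤ 2 := by omega
    interval_cases k
    · norm_num at hs
    · exact hk
    · norm_num at hs
  -- every lift of an involution is an involution
  have hlift : ∀ u : H, π u ≠ 1 → π u * π u = 1 → u * u = 1 := by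
    intro u h1 h2
    have c0 := hct _ (fun h => ha₀1 (Subtype.ext h)) hsq0 (Equiv.Perm.mem_alternatingGroup.1 a₀.2)
    have c1 := hct (π u : Equiv.Perm (Fin n)) (fun h => h1 (Subtype.ext h))
      (congrArg Subtype.val h2) (Equiv.Perm.mem_alternatingGroup.1 (π u).2)
    obtain ⟨τ, hτ⟩ := isConj_iff.1 ((Equiv.Perm.isConj_iff_cycleType_eq).2 (c0.trans c1.symm))
    obtain ⟨τ', hτs, hτ'⟩ : ∃ τ' : Equiv.Perm (Fin n), Equiv.Perm.sign τ' = 1 ∧
        τ' * a₀ * τ'⁻¹ = (π u : Equiv.Perm (Fin n)) := by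
      rcases Int.units_eq_one_or (Equiv.Perm.sign τ) with hs | hs
      · exact ⟨τ, hs, hτ⟩
      · obtain ⟨i, hi⟩ : ∃ i, (a₀ : Equiv.Perm (Fin n)) i ≠ i := by
          by_contra! hall
          exact ha₀1 (Subtype.ext (Equiv.ext hall))
        set g := Equiv.swap i ((a₀ : Equiv.Perm (Fin n)) i) with hg
        have hcomm : g * a₀ * g⁻¹ = (a₀ : Equiv.Perm (Fin n)) := by
          have e1 : (a₀ : Equiv.Perm (Fin n)) * g * (a₀ : Equiv.Perm (Fin n))⁻¹ = g := by
            rw [hg, ← Equiv.swap_apply_apply, ← Equiv.Perm.mul_apply (a₀ : Equiv.Perm (Fin n)), hsq0,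
              Equiv.Perm.one_apply, Equiv.swap_comm]
          rw [mul_inv_eq_iff_eq_mul]
          exact (mul_inv_eq_iff_eq_mul.1 e1).symm
        refine ⟨τ * g, ?_, ?_⟩
        · rw [map_mul, hs, hg, Equiv.Perm.sign_swap (Ne.symm hi)]; rfl
        · rw [← hτ]
          conv_rhs => rw [← hcomm]
          group
    obtain ⟨t, ht⟩ := hπsurj ⟨τ', Equiv.Perm.mem_alternatingGroup.2 hτs⟩
    have hu : π u = π (t * x * t⁻¹) := Subtype.ext (by
      rw [map_mul, map_mul, map_inv, ht]; exact hτ'.symm)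
    have hconj : t * x * t⁻¹ * (t * x * t⁻¹) = 1 := by
      rw [show t * x * t⁻¹ * (t * x * t⁻¹) = t * (x * x) * t⁻¹ by group, hxx, mul_one, mul_inv_cancel]
    rcases hsec u _ hu with r | r
    · rw [r, hconj]
    · rw [r, show t * x * t⁻¹ * z * (t * x * t⁻¹ * z) = t * x * t⁻¹ * (z * (t * x * t⁻¹)) * z by
        simp only [mul_assoc], ← hcz, ← mul_assoc (t * x * t⁻¹), hconj, one_mul, hz2]
  -- a complement inside a Sylow subgroup
  have hn4 : 4 ≤ n := by
    have c0 := hct _ (fun h => ha₀1 (Subtype.ext h)) hsq0 (Equiv.Perm.mem_alternatingGroup.1 a₀.2)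
    have hsum := Equiv.Perm.sum_cycleType (a₀ : Equiv.Perm (Fin n))
    rw [c0, Multiset.sum_replicate, smul_eq_mul] at hsum
    have hle : (a₀ : Equiv.Perm (Fin n)).support.card ≤ n := (Finset.card_le_univ _).trans (Fintype.card_fin n).le
    omega
  obtain ⟨a, b, m, hm, ha, hb, hab, hdist, hodd⟩ : ∃ (a b : alternatingGroup (Fin n)) (m : ℕ),
      (m = 2 ∨ m = 4) ∧ orderOf a = m ∧ b * b = 1 ∧ a * b * (a * b) = 1 ∧
      (∀ i : ℕ, a ^ i ≠ b) ∧ ¬ 2 * (2 * m) ∣ Nat.card (alternatingGroup (Fin n)) := by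
    haveI : Nontrivial (Fin n) := Fintype.one_lt_card_iff_nontrivial.1 (by rw [Fintype.card_fin]; omega)
    rcases (by omega : n = 4 ∨ n = 5 ∨ n = 6 ∨ n = 7) with rfl | rfl | rfl | rfl
    · exact gens_four
    · exact gens_five
    · exact gens_six
    · exact gens_seven
  obtain ⟨A, hA⟩ := hπsurj a
  obtain ⟨B, hB⟩ := hπsurj b
  have hb1 : b ≠ 1 := fun h => hdist 0 (by rw [pow_zero, h])
  have hab1 : a * b ≠ 1 := fun h => hdist (m - 1) (by
    have e1 : a ^ (m - 1) * a = 1 := by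
      rw [← pow_succ, show m - 1 + 1 = m by omega, ← ha, pow_orderOf_eq_one]
    exact (eq_inv_of_mul_eq_one_left e1).trans (eq_inv_of_mul_eq_one_right h).symm)
  have hBB : B * B = 1 := hlift B (by rw [hB]; exact hb1) (by rw [hB]; exact hb)
  have hABAB : A * B * (A * B) = 1 := hlift (A * B) (by rw [map_mul, hA, hB]; exact hab1)
    (by rw [map_mul, hA, hB]; exact hab)
  have hAm : A ^ m = 1 := by
    rcases hm with rfl | rfl
    · rw [sq]
      exact hlift A (by rw [hA]; intro h; rw [h, orderOf_one] at ha; omega)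
        (by rw [hA, ← sq, ← ha, pow_orderOf_eq_one])
    · rw [show A ^ 4 = A ^ 2 * A ^ 2 from (pow_add A 2 2)]
      exact hlift (A ^ 2) (by
        rw [map_pow, hA]; intro h
        have := orderOf_dvd_of_pow_eq_one h
        rw [ha] at this; norm_num at this)
        (by rw [map_pow, hA, ← pow_add, show 2 + 2 = orderOf a by omega, pow_orderOf_eq_one])
  have hBA : B * A = A⁻¹ * B := by
    have h : A * (B * A) * B = 1 := by simpa only [mul_assoc] using hABAB
    calc B * A = A⁻¹ * (A * (B * A) * B) * B⁻¹ := by group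
      _ = A⁻¹ * B := by rw [h, mul_one, inv_eq_of_mul_eq_one_right hBB]
  have hBk : ∀ k : ℤ, B * A ^ k = A ^ (-k) * B := fun k => by
    have hs : SemiconjBy B A A⁻¹ := hBA
    have := (hs.zpow_right k).eq
    rwa [inv_zpow, ← zpow_neg] at this
  let C : Subgroup H :=
    { carrier := {w | (∃ k : ℤ, A ^ k = w) ∨ ∃ k : ℤ, A ^ k * B = w}
      one_mem' := Or.inl ⟨0, zpow_zero A⟩
      mul_mem' := by
        rintro _ _ (⟨k, rfl⟩ | ⟨k, rfl⟩) (⟨l, rfl⟩ | ⟨l, rfl⟩)
        · exact Or.inl ⟨k + l, zpow_add A k l⟩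
        · exact Or.inr ⟨k + l, by rw [zpow_add, mul_assoc]⟩
        · exact Or.inr ⟨k + -l, by rw [zpow_add, mul_assoc (A ^ k) B, hBk, ← mul_assoc]⟩
        · exact Or.inl ⟨k + -l, by
            rw [zpow_add, mul_assoc (A ^ k) B, ← mul_assoc B, hBk, mul_assoc _ B B, hBB, mul_one]⟩
      inv_mem' := by
        rintro _ (⟨k, rfl⟩ | ⟨k, rfl⟩)
        · exact Or.inl ⟨-k, zpow_neg A k⟩
        · exact Or.inr ⟨k, by rw [mul_inv_rev, inv_eq_of_mul_eq_one_right hBB, ← zpow_neg, hBk, neg_neg]⟩ }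
  have hdistZ : ∀ k : ℤ, a ^ k ≠ b := fun k h => hdist (k % orderOf a).toNat (by
    rw [← zpow_natCast, Int.toNat_of_nonneg (Int.emod_nonneg _ (by omega)), zpow_mod_orderOf, h])
  have hzC : z ∉ C := by
    have hπz : π z = 1 := (hπ z).2 hz
    rintro (⟨k, hk⟩ | ⟨k, hk⟩) <;> rw [← hk] at hπz
    · rw [map_zpow, hA, ← orderOf_dvd_iff_zpow_eq_one, ha] at hπz
      obtain ⟨l, rfl⟩ := hπz
      rw [zpow_mul, zpow_natCast, hAm, one_zpow] at hk
      exact hz1 hk.symm
    · rw [map_mul, map_zpow, hA, hB] at hπz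
      exact hdistZ (-k) (by rw [zpow_neg]; exact inv_eq_of_mul_eq_one_right hπz)
  have hcardC : Nat.card C = 2 * m := by
    have hAo : orderOf A = m := Nat.dvd_antisymm (orderOf_dvd_of_pow_eq_one hAm)
      (by rw [← ha, ← hA]; exact orderOf_map_dvd π A)
    let f : Subgroup.zpowers A ⊕ Subgroup.zpowers A → C :=
      Sum.elim (fun w => ⟨w, Or.inl w.2⟩) (fun w => ⟨(w : H) * B, by
        obtain ⟨k, hk⟩ := w.2; exact Or.inr ⟨k, congrArg (· * B) hk⟩⟩)
    have hf : Function.Bijective f := by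
      refine ⟨?_, ?_⟩
      · have hne : ∀ u v : Subgroup.zpowers A, (u : H) ≠ (v : H) * B := fun u v h => by
          obtain ⟨k, hk⟩ := (mul_mem (inv_mem v.2) u.2 : (v : H)⁻¹ * u ∈ Subgroup.zpowers A)
          have hk' : A ^ k = B := hk.trans (by rw [h, inv_mul_cancel_left])
          exact hdistZ k (by rw [← hA, ← hB, ← map_zpow, hk'])
        rintro (u | u) (v | v) h <;> have h' := congrArg Subtype.val h <;>
          simp only [f, Sum.elim_inl, Sum.elim_inr] at h'
        · exact congrArg Sum.inl (Subtype.ext h')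
        · exact absurd h' (hne u v)
        · exact absurd h'.symm (hne v u)
        · exact congrArg Sum.inr (Subtype.ext (mul_right_cancel h'))
      · rintro ⟨w, hw⟩
        rcases hw with ⟨k, rfl⟩ | ⟨k, rfl⟩
        · exact ⟨Sum.inl ⟨A ^ k, k, rfl⟩, rfl⟩
        · exact ⟨Sum.inr ⟨A ^ k, k, rfl⟩, rfl⟩
    rw [← Nat.card_eq_of_bijective f hf, Nat.card_sum, Nat.card_zpowers, hAo, two_mul]
  have hHcard : Nat.card H = Nat.card (alternatingGroup (Fin n)) * 2 := by
    rw [Subgroup.card_eq_card_quotient_mul_card_subgroup Z, hZ, Nat.card_congr e.toEquiv]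
  obtain ⟨L, hzL, hL⟩ := exists_complement (Subgroup.mem_center_iff.2 hcz : z ∈ Subgroup.center H) hz2 hzC (by
    rw [hcardC, hHcard, show 2 * (2 * (2 * m)) = 2 * (2 * m) * 2 by ring]
    exact fun h => hodd (Nat.dvd_of_mul_dvd_mul_right (by norm_num) h))
  refine hsplit L (Subgroup.isComplement'_of_card_mul_and_disjoint ?_ ?_)
  · rw [hZ, ← hL, mul_comm]; exact L.card_mul_index
  · rw [disjoint_iff, eq_bot_iff]
    rintro w ⟨hwZ, hwL⟩
    rcases hZall w hwZ with rfl | rfl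
    · exact one_mem _
    · exact absurd hwL hzL

open Cfsg.Agent.S0891 in
/-- The second conclusion. -/
theorem eight : ∃ (H : Type) (_ : Group H) (_ : Finite H),
    Cfsg.IsNonsplitDoubleCover H (alternatingGroup (Fin 8)) ∧
      ∃ x y : H, x ≠ y ∧ orderOf x = 2 ∧ orderOf y = 2 := by
  classical
  set z := negOne 8 with hz
  have hne : z ≠ 1 := fun h => by
    have h2 : (-1 : Mat 8) = 1 := congrArg (fun u : cover 8 => ((u : (Mat 8)ˣ) : Mat 8)) h
    have := congrFun (congrFun h2 ∅) ∅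
    simp only [Matrix.neg_apply, Matrix.one_apply_eq] at this
    norm_num at this
  have hzc : z ∈ Subgroup.center (cover 8) := Subgroup.mem_center_iff.2 fun u =>
    Subtype.ext (Units.ext (show ((u : (Mat 8)ˣ) : Mat 8) * (-1) = (-1) * _ by simp))
  have hzker : z ∈ (coverHom 8).ker := MonoidHom.mem_ker.2 (Subtype.ext
    (lift_unique z.2.choose_spec.2 (⟨by simp [hz, negOne], fun i => by simp [hz, negOne], by simp [hz, negOne],
      fun i => by simp [hz, negOne]⟩ : IsLift ((z : (Mat 8)ˣ) : Mat 8) 1) (z.2.choose_spec.1.trans (map_one _).symm)))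
  haveI : IsSimpleGroup (alternatingGroup (Fin 8)) := alternatingGroup.isSimpleGroup (by simp)
  have hcenter : Subgroup.center (cover 8) = (coverHom 8).ker := by
    refine le_antisymm (fun u hu => ?_) fun u hu => ?_
    · rcases IsSimpleGroup.eq_bot_or_eq_top_of_normal
        (Subgroup.center (alternatingGroup (Fin 8))) inferInstance with h | h
      · rw [MonoidHom.mem_ker, ← Subgroup.mem_bot, ← h]
        refine Subgroup.mem_center_iff.2 fun g => ?_
        obtain ⟨v, rfl⟩ := coverHom_surjective (n := 8) g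
        rw [← map_mul, ← map_mul, Subgroup.mem_center_iff.1 hu v]
      · exfalso
        let c₁ : alternatingGroup (Fin 8) :=
          ⟨Equiv.swap 0 1 * Equiv.swap 1 2, by simp [Equiv.Perm.mem_alternatingGroup, Equiv.Perm.sign_swap]⟩
        let c₂ : alternatingGroup (Fin 8) :=
          ⟨Equiv.swap 0 1 * Equiv.swap 1 3, by simp [Equiv.Perm.mem_alternatingGroup, Equiv.Perm.sign_swap]⟩
        exact (by decide : c₂ * c₁ ≠ c₁ * c₂) (Subgroup.mem_center_iff.1 (h ▸ Subgroup.mem_top c₁) c₂)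
    · rcases ker_coverHom u hu with rfl | rfl
      · exact one_mem _
      · exact hzc
  let eK : Fin 2 → (coverHom 8).ker := ![1, ⟨z, hzker⟩]
  have hK : Function.Bijective eK := by
    refine ⟨fun i j h => ?_, fun u => ?_⟩
    · fin_cases i <;> fin_cases j <;> simp [eK, Subtype.ext_iff, hne, Ne.symm hne] at h ⊢
    · rcases ker_coverHom u.1 u.2 with h | h
      · exact ⟨0, (Subtype.ext h).symm⟩
      · exact ⟨1, (Subtype.ext h).symm⟩
  have hk2 : Nat.card (coverHom 8).ker = 2 := by rw [← Nat.card_eq_of_bijective _ hK, Nat.card_fin]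
  haveI : Finite (cover 8 ⧸ (coverHom 8).ker) :=
    Finite.of_equiv _ (QuotientGroup.quotientKerEquivOfSurjective _ coverHom_surjective).symm.toEquiv
  haveI : Finite (coverHom 8).ker := Nat.finite_of_card_ne_zero (by rw [hk2]; norm_num)
  haveI : Finite (cover 8) := Finite.of_subgroup_quotient (coverHom 8).ker
  -- lifts of transpositions
  let ab : Fin 4 → Fin 8 × Fin 8 := ![(0, 1), (2, 3), (4, 5), (6, 7)]
  have hab : ∀ i, (ab i).1 ≠ (ab i).2 := by decide
  let t : Fin 4 → Mat 8 := fun i => tau (ab i).1 (ab i).2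
  have ht2 : ∀ i, t i * t i = 1 := fun i => by
    have h := (isLift_tau (hab i)).orth
    rwa [show (tau (ab i).1 (ab i).2)ᵀ = t i by
      simp only [t, tau, Matrix.transpose_smul, Matrix.transpose_sub, gL_transpose]] at h
  have hanti : ∀ i j, i ≠ j → t i * t j = -(t j * t i) := by
    intro i j hij
    obtain ⟨h1, h2, h3, h4⟩ := (by decide : ∀ i j : Fin 4, i ≠ j → (ab i).1 ≠ (ab j).1 ∧
      (ab i).1 ≠ (ab j).2 ∧ (ab i).2 ≠ (ab j).1 ∧ (ab i).2 ≠ (ab j).2) i j hij
    simp only [t, tau, Matrix.smul_mul, Matrix.mul_smul, sub_mul, mul_sub, gL_anti h1, gL_anti h2,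
      gL_anti h3, gL_anti h4]
    module
  have hpair : t 0 * t 1 * (t 0 * t 1) = -1 := by
    rw [show t 0 * t 1 * (t 0 * t 1) = t 0 * (t 1 * t 0) * t 1 by simp only [mul_assoc],
      hanti 1 0 (by decide), mul_neg, neg_mul, ← mul_assoc, ht2, one_mul, ht2]
  have hpair' : t 2 * t 3 * (t 2 * t 3) = -1 := by
    rw [show t 2 * t 3 * (t 2 * t 3) = t 2 * (t 3 * t 2) * t 3 by simp only [mul_assoc],
      hanti 3 2 (by decide), mul_neg, neg_mul, ← mul_assoc, ht2, one_mul, ht2]
  have hsw : t 2 * t 3 * (t 0 * t 1) = t 0 * t 1 * (t 2 * t 3) := by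
    calc t 2 * t 3 * (t 0 * t 1) = t 2 * (t 3 * t 0) * t 1 := by simp only [mul_assoc]
      _ = -(t 2 * t 0 * (t 3 * t 1)) := by rw [hanti 3 0 (by decide)]; simp only [mul_neg, neg_mul, mul_assoc]
      _ = -(t 0 * (t 2 * t 1) * t 3) := by
        rw [hanti 2 0 (by decide), hanti 3 1 (by decide)]; simp only [mul_neg, neg_mul, neg_neg, mul_assoc]
      _ = _ := by rw [hanti 2 1 (by decide)]; simp only [mul_neg, neg_mul, neg_neg, mul_assoc]
  let σ : Fin 4 → Equiv.Perm (Fin 8) := fun i => Equiv.swap (ab i).1 (ab i).2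
  have hmk : ∀ i j : Fin 4, ∃ u : cover 8, ((u : (Mat 8)ˣ) : Mat 8) = t i * t j ∧
      coverHom 8 u = ⟨σ i * σ j, by simp [σ, Equiv.Perm.mem_alternatingGroup, Equiv.Perm.sign_swap (hab i),
        Equiv.Perm.sign_swap (hab j)]⟩ := by
    intro i j
    have hl := (isLift_tau (hab i)).mul (isLift_tau (hab j))
    have hs : Equiv.Perm.sign (σ i * σ j) = 1 := by
      simp [σ, Equiv.Perm.sign_swap (hab i), Equiv.Perm.sign_swap (hab j)]
    let w : (Mat 8)ˣ := ⟨t i * t j, (t i * t j)ᵀ, hl.isUnit, hl.orth⟩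
    have hw : w ∈ cover 8 := ⟨σ i * σ j, hs, hl⟩
    exact ⟨⟨w, hw⟩, rfl, Subtype.ext (lift_unique hw.choose_spec.2 hl (hw.choose_spec.1.trans hs.symm))⟩
  obtain ⟨p, hp, hpσ⟩ := hmk 0 1
  obtain ⟨r, hr, hrσ⟩ := hmk 2 3
  have hp2 : p * p = z := Subtype.ext (Units.ext (by
    show ((p : (Mat 8)ˣ) : Mat 8) * ((p : (Mat 8)ˣ) : Mat 8) = -1
    rw [hp, hpair]))
  have hr2 : r * r = z := Subtype.ext (Units.ext (by
    show ((r : (Mat 8)ˣ) : Mat 8) * ((r : (Mat 8)ˣ) : Mat 8) = -1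
    rw [hr, hpair']))
  have hpr : r * p = p * r := Subtype.ext (Units.ext (by
    show ((r : (Mat 8)ˣ) : Mat 8) * ((p : (Mat 8)ˣ) : Mat 8) = ((p : (Mat 8)ˣ) : Mat 8) * ((r : (Mat 8)ˣ) : Mat 8)
    rw [hp, hr, hsw]))
  have hzz : z * z = 1 := Subtype.ext (Units.ext (show (-1 : Mat 8) * -1 = 1 by simp))
  have hq : p * r * (p * r) = 1 := by
    rw [show p * r * (p * r) = p * (r * p) * r by simp only [mul_assoc], hpr,
      show p * (p * r) * r = p * p * (r * r) by simp only [mul_assoc], hp2, hr2, hzz]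
  have hπ : coverHom 8 (p * r) ≠ 1 := by
    rw [map_mul, hpσ, hrσ]
    intro h
    have h' := congrArg (fun u : alternatingGroup (Fin 8) => (u : Equiv.Perm (Fin 8)) 0) h
    simp [σ, ab, Equiv.swap_apply_def] at h'
  refine ⟨cover 8, inferInstance, inferInstance, ⟨?_, ?_, ?_⟩, p * r, p * r * z, ?_, ?_, ?_⟩
  · rw [hcenter, hk2]
  · exact ⟨(QuotientGroup.quotientMulEquivOfEq hcenter).trans
      (QuotientGroup.quotientKerEquivOfSurjective _ coverHom_surjective)⟩
  · intro L hL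
    have hidx : L.index = 2 := by rw [Subgroup.IsComplement'.index_eq_card hL, hcenter, hk2]
    have hzL : z ∈ L := hp2 ▸ Subgroup.mul_self_mem_of_index_two hidx p
    have : z ∈ Subgroup.center (cover 8) ⊓ L := ⟨hzc, hzL⟩
    rw [disjoint_iff.1 hL.disjoint] at this
    exact hne (Subgroup.mem_bot.1 this)
  · intro h
    exact hne (mul_left_cancel (h.symm.trans (mul_one _).symm))
  · exact orderOf_eq_prime (by rw [sq]; exact hq) fun h => hπ (by rw [h, map_one])
  · refine orderOf_eq_prime ?_ fun h => hπ ?_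
    · rw [sq, show p * r * z * (p * r * z) = p * r * (z * (p * r)) * z by simp only [mul_assoc],
        ← Subgroup.mem_center_iff.1 hzc (p * r), ← mul_assoc (p * r), hq, one_mul, hzz]
    · have := congrArg (coverHom 8) h
      rwa [map_mul _ (p * r) z, MonoidHom.mem_ker.1 hzker, mul_one, map_one] at this

/-- Involutions in double covers of alternating groups: for n ≤ 7, a finite non-split double cover of the alternating group of degree n has exactly one element of order 2 (the central one); for degree 8 there is a non-split double cover with two distinct involutions. -/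
theorem result : (∀ (n : ℕ) (H : Type) (_ : Group H) (_ : Finite H), n ≤ 7 → Cfsg.IsNonsplitDoubleCover H (alternatingGroup (Fin n)) → ∀ x y : H, orderOf x = 2 → orderOf y = 2 → x = y) ∧ ∃ (H : Type) (_ : Group H) (_ : Finite H), Cfsg.IsNonsplitDoubleCover H (alternatingGroup (Fin 8)) ∧ ∃ x y : H, x ≠ y ∧ orderOf x = 2 ∧ orderOf y = 2 := by
  refine ⟨fun n H _ _ hn hH x y hx hy => ?_, eight⟩
  have hx' := unique_involution hn hH hx
  have hy' := unique_involution hn hH hy
  obtain ⟨z, -, hall⟩ := Nat.card_eq_two_iff' (1 : Subgroup.center H) |>.1 hH.1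
  have h1 : ∀ (w : H), orderOf w = 2 → ∀ h : w ∈ Subgroup.center H, (⟨w, h⟩ : Subgroup.center H) = z :=
    fun w hw h => hall _ fun e => by
      have : w = 1 := congrArg Subtype.val e
      rw [this, orderOf_one] at hw; omega
  exact congrArg Subtype.val ((h1 x hx hx').trans (h1 y hy hy').symm)

end Cfsg.Agent.S0447
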