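import Cfsg.Statements.S1755
import Mathlib
import Cfsg.Agent.Lib.Char2.Basic
import Cfsg.Agent.Lib.Components.Basic

set_option autoImplicit false
open Cfsg

namespace Cfsg.Agent.S1755

theorem unique_involution {H : Type*} [Group H] [Finite H] [IsCyclic H] {a b : H}
    (ha : orderOf a = 2) (hb : orderOf b = 2) : a = b := by
  classical
  have := Fintype.ofFinite H
  by_contra hne
  have ha1 : a ≠ 1 := by rintro rfl; simp at ha
  have hb1 : b ≠ 1 := by rintro rfl; simp at hb
  have hsub : ({1, a, b} : Finset H) ⊆ Finset.univ.filter (fun x => x ^ 2 = 1) := by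
    intro x hx
    simp only [Finset.mem_insert, Finset.mem_singleton] at hx
    rw [Finset.mem_filter]
    refine ⟨Finset.mem_univ _, ?_⟩
    rcases hx with rfl | rfl | rfl
    · simp
    · rw [← ha, pow_orderOf_eq_one]
    · rw [← hb, pow_orderOf_eq_one]
  have h1 := (Finset.card_le_card hsub).trans (IsCyclic.card_pow_eq_one_le (α := H) (n := 2) two_pos)
  rw [Finset.card_eq_three.2 ⟨1, a, b, ha1.symm, hb1.symm, hne, rfl⟩] at h1
  omega

theorem center_nilpotent (P : Type*) [Group P] : Group.IsNilpotent ↥(Subgroup.center P) :=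
  letI : CommGroup ↥(Subgroup.center P) :=
    { (inferInstance : Group ↥(Subgroup.center P)) with mul_comm := fun a b => mul_comm' a b }
  CommGroup.isNilpotent

theorem exists_central_involution {P : Type*} [Group P] [Finite P] (hP : IsPGroup 2 P)
    (B : Subgroup P) [B.Normal] (hB : B ≠ ⊥) : ∃ w ∈ B, w ∈ Subgroup.center P ∧ orderOf w = 2 := by
  haveI : Nontrivial ↥(Subgroup.center P ⊓ B) := by
    rw [Subgroup.nontrivial_iff_ne_bot]
    intro h
    letI : MulAction P ↥B := MulAction.compHom ↥B (MulAut.conjNormal : P →* MulAut ↥B)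
    haveI : Nontrivial ↥B := Subgroup.nontrivial_iff_ne_bot _ |>.2 hB
    obtain ⟨n, hn0, hn⟩ := (hP.to_subgroup B).nontrivial_iff_card.1 inferInstance
    have h1 : (1 : ↥B) ∈ MulAction.fixedPoints P ↥B := fun g => map_one (MulAut.conjNormal g : MulAut ↥B)
    obtain ⟨q, hq, hq1⟩ := hP.exists_fixed_point_of_prime_dvd_card_of_fixed_point _
      (hn ▸ dvd_pow_self 2 hn0.ne') h1
    apply hq1
    have hmem : (q : P) ∈ Subgroup.center P ⊓ B := by
      refine ⟨Subgroup.mem_center_iff.2 fun g => ?_, q.2⟩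
      have h2 : g * (q : P) * g⁻¹ = q := congrArg Subtype.val (hq g)
      conv_rhs => rw [← h2]
      group
    rw [h, Subgroup.mem_bot] at hmem
    exact Subtype.ext hmem.symm
  obtain ⟨n, hn0, hn⟩ := (hP.to_subgroup (Subgroup.center P ⊓ B)).nontrivial_iff_card.1 inferInstance
  obtain ⟨w, hw⟩ := exists_prime_orderOf_dvd_card' 2
    (show 2 ∣ Nat.card ↥(Subgroup.center P ⊓ B) by rw [hn]; exact dvd_pow_self 2 hn0.ne')
  exact ⟨w, w.2.2, w.2.1, by rw [Subgroup.orderOf_coe, hw]⟩

theorem main {G : Type*} [Group G] [Finite G] (z : G) (hz : orderOf z = 2)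
    (C : Subgroup G) (hC : C = Subgroup.centralizer ({z} : Set G))
    (Q : Subgroup ↥C) [hQn : Q.Normal] (hQ : Cfsg.IsOfSymplecticType ↥Q)
    (hzQ' : ∀ x : ↥C, x ∈ Subgroup.center ↥C → x ∈ Q)
    (B : Subgroup ↥Q) (hBc : B.Characteristic) (hBa : IsMulCommutative ↥B) (g : G) :
    ((B.map Q.subtype).map C.subtype).map (MulAut.conj g).toMonoidHom = (B.map Q.subtype).map C.subtype ∨
      ((B.map Q.subtype).map C.subtype).map (MulAut.conj g).toMonoidHom ⊓ (B.map Q.subtype).map C.subtype = ⊥ := by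
  haveI hBn : (B.map Q.subtype).Normal := ConjAct.normal_of_characteristic_of_normal
  set D := (B.map Q.subtype).map C.subtype with hD
  let f : ↥Q →* G := C.subtype.comp Q.subtype
  have hf : Function.Injective f :=
    (Subgroup.subtype_injective C).comp (Subgroup.subtype_injective Q)
  have hDf : D = B.map f := by rw [hD, Subgroup.map_map]
  refine or_iff_not_imp_right.2 fun hne => ?_
  haveI : IsCyclic ↥B := hQ.2 B hBc hBa
  have hzC : z ∈ C := hC ▸ Subgroup.mem_centralizer_singleton_iff.2 rfl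
  have hcomm : ∀ c ∈ C, c * z = z * c := fun c hc => Subgroup.mem_centralizer_singleton_iff.1 (hC ▸ hc)
  have hzc : (⟨z, hzC⟩ : ↥C) ∈ Subgroup.center ↥C :=
    Subgroup.mem_center_iff.2 fun c => Subtype.ext (hcomm c c.2)
  have hzQ : (⟨z, hzC⟩ : ↥C) ∈ Q := hzQ' _ hzc
  have hzZ : (⟨⟨z, hzC⟩, hzQ⟩ : ↥Q) ∈ Subgroup.center ↥Q :=
    Subgroup.mem_center_iff.2 fun q => Subtype.ext (Subgroup.mem_center_iff.1 hzc q)
  have hB1 : B ≠ ⊥ := by
    intro h
    exact hne (by rw [hDf, h]; simp)
  haveI : IsCyclic ↥(Subgroup.center ↥Q) := hQ.2 _ inferInstance inferInstance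
  haveI := hBc
  have hzB : (⟨⟨z, hzC⟩, hzQ⟩ : ↥Q) ∈ B := by
    obtain ⟨w, hwB, hwZ, hw⟩ := exists_central_involution hQ.1 B hB1
    have heq := unique_involution (H := ↥(Subgroup.center ↥Q)) (a := ⟨w, hwZ⟩) (b := ⟨_, hzZ⟩)
      (by rw [Subgroup.orderOf_mk]; exact hw)
      (by rw [Subgroup.orderOf_mk, Subgroup.orderOf_mk, Subgroup.orderOf_mk]; exact hz)
    have heq' : w = (⟨⟨z, hzC⟩, hzQ⟩ : ↥Q) := congrArg Subtype.val heq
    exact heq' ▸ hwB
  have huniq : ∀ d ∈ D, orderOf d = 2 → d = z := by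
    intro d hd hd2
    rw [hDf] at hd
    obtain ⟨b, hb, rfl⟩ := hd
    have heq := unique_involution (H := ↥B) (a := ⟨b, hb⟩) (b := ⟨_, hzB⟩)
      (by rw [Subgroup.orderOf_mk]; rwa [orderOf_injective f hf] at hd2)
      (by rw [Subgroup.orderOf_mk, Subgroup.orderOf_mk, Subgroup.orderOf_mk]; exact hz)
    exact congrArg f (congrArg Subtype.val heq)
  -- the intersection contains an involution, which is `z`
  have hD2 : IsPGroup 2 ↥D := hDf ▸ (hQ.1.to_subgroup B).map f
  haveI : Nontrivial ↥(D.map (MulAut.conj g).toMonoidHom ⊓ D) := Subgroup.nontrivial_iff_ne_bot _ |>.2 hne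
  obtain ⟨n, hn0, hn⟩ := (hD2.to_le (inf_le_right : D.map (MulAut.conj g).toMonoidHom ⊓ D ≤ D)).nontrivial_iff_card.1 inferInstance
  obtain ⟨w, hw⟩ := exists_prime_orderOf_dvd_card' 2
    (show 2 ∣ Nat.card ↥(D.map (MulAut.conj g).toMonoidHom ⊓ D) by rw [hn]; exact dvd_pow_self 2 hn0.ne')
  rw [← Subgroup.orderOf_coe] at hw
  have hwz : (w : G) = z := huniq _ w.2.2 hw
  obtain ⟨v, hv, hvw⟩ := w.2.1
  have hvw' : g * v * g⁻¹ = (w : G) := hvw
  have hvz : v = z := huniq v hv (by
    rw [← hw, ← hvw']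
    exact ((MulAut.conj g).orderOf_eq v).symm)
  have hgC : g ∈ C := by
    rw [hC, Subgroup.mem_centralizer_singleton_iff]
    rw [hvz, hwz] at hvw'
    conv_rhs => rw [← hvw']
    group
  -- conjugation by an element of `C` fixes the normal subgroup `D`
  have e : (MulAut.conj g).toMonoidHom.comp C.subtype =
      C.subtype.comp (MulAut.conj (⟨g, hgC⟩ : ↥C)).toMonoidHom := by ext x; rfl
  rw [hD, Subgroup.map_map, e, ← Subgroup.map_map]
  congr 1
  exact Subgroup.Normal.map_conj_eq (H := B.map Q.subtype) _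

/-- Let G be a finite group and let z be an involution of G such that Q, the generalized Fitting subgroup of the centralizer C of z, is a 2-group of symplectic type (every characteristic abelian subgroup of Q is cyclic). Let B be a characteristic abelian subgroup of Q, viewed as a subgroup of G. Then for every g in G, the conjugate of B by g either equals B or meets B trivially. -/
theorem result {G : Type*} [Group G] [Finite G] (z : G) (hz : orderOf z = 2) (hQ : Cfsg.IsOfSymplecticType ↥(Cfsg.generalizedFittingSubgroup ↥(Subgroup.centralizer ({z} : Set G))))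
    (B : Subgroup ↥(Cfsg.generalizedFittingSubgroup ↥(Subgroup.centralizer ({z} : Set G)))) (hBc : B.Characteristic) (hBa : IsMulCommutative ↥B) (g : G) :
    ((B.map (Cfsg.generalizedFittingSubgroup ↥(Subgroup.centralizer ({z} : Set G))).subtype).map (Subgroup.centralizer ({z} : Set G)).subtype).map (MulAut.conj g).toMonoidHom =
        (B.map (Cfsg.generalizedFittingSubgroup ↥(Subgroup.centralizer ({z} : Set G))).subtype).map (Subgroup.centralizer ({z} : Set G)).subtype ∨
      ((B.map (Cfsg.generalizedFittingSubgroup ↥(Subgroup.centralizer ({z} : Set G))).subtype).map (Subgroup.centralizer ({z} : Set G)).subtype).map (MulAut.conj g).toMonoidHom ⊓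
        (B.map (Cfsg.generalizedFittingSubgroup ↥(Subgroup.centralizer ({z} : Set G))).subtype).map (Subgroup.centralizer ({z} : Set G)).subtype = ⊥ := by
  exact main z hz _ rfl _ hQ (fun x hx => (le_sup_right : fittingSubgroup _ ≤ Cfsg.generalizedFittingSubgroup _)
    (Lib.Hall.le_fittingSubgroup (center_nilpotent _) hx)) B hBc hBa g

end Cfsg.Agent.S1755
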