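import Cfsg.Statements.S0502
import Mathlib
import Cfsg.Agent.S1755

set_option autoImplicit false
open Cfsg

namespace Cfsg.Agent.S0502

/-- The four-group generated by two commuting involutions. -/
def fourGroup {P : Type*} [Group P] (z u : P) (hz : z * z = 1) (hu : u * u = 1) (h : z * u = u * z) :
    Subgroup P where
  carrier := {1, z, u, z * u}
  one_mem' := by simp
  mul_mem' := by
    have hz' : ∀ w : P, z * (z * w) = w := fun w => by rw [← mul_assoc, hz, one_mul]
    have hu' : ∀ w : P, u * (u * w) = w := fun w => by rw [← mul_assoc, hu, one_mul]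
    have hs : ∀ w : P, u * (z * w) = z * (u * w) := fun w => by rw [← mul_assoc, ← h, mul_assoc]
    intro a b ha hb
    rcases ha with rfl | rfl | rfl | rfl <;> rcases hb with rfl | rfl | rfl | rfl <;>
      simp [mul_assoc, hz, hu, hz', hu', hs, h.symm]
  inv_mem' := by
    have hzi := inv_eq_of_mul_eq_one_right hz
    have hui := inv_eq_of_mul_eq_one_right hu
    intro a ha
    rcases ha with rfl | rfl | rfl | rfl <;> simp [hzi, hui, h]

theorem fourGroup_isKleinFour {P : Type*} [Group P] (z u : P) (hz : z * z = 1) (hu : u * u = 1)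
    (h : z * u = u * z) (hz1 : z ≠ 1) (hu1 : u ≠ 1) (hne : u ≠ z) : IsKleinFour (fourGroup z u hz hu h) := by
  have hzu : z * u ≠ 1 := fun e => hne (by
    have := congrArg (z * ·) e; simpa [← mul_assoc, hz] using this)
  have hcard : Nat.card (fourGroup z u hz hu h) = 4 := by
    show Nat.card ({1, z, u, z * u} : Set P) = 4
    rw [Nat.card_coe_set_eq, Set.ncard_insert_of_notMem (by simp [hz1.symm, hu1.symm, hzu.symm]),
      Set.ncard_insert_of_notMem (by simp [hne.symm, hu1]),
      Set.ncard_pair (by simp [hz1])]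
  have hexp : Monoid.exponent (fourGroup z u hz hu h) = 2 := by
    have hdvd : Monoid.exponent (fourGroup z u hz hu h) ∣ 2 := Monoid.exponent_dvd_of_forall_pow_eq_one fun w => by
      obtain ⟨w, hw⟩ := w
      apply Subtype.ext
      show w ^ 2 = 1
      have hw' : w = 1 ∨ w = z ∨ w = u ∨ w = z * u := hw
      rcases hw' with rfl | rfl | rfl | rfl <;> rw [sq]
      · exact mul_one 1
      · exact hz
      · exact hu
      · calc z * u * (z * u) = z * (u * z) * u := by simp only [mul_assoc]
          _ = 1 := by rw [← h, ← mul_assoc, hz, one_mul, hu]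
    rcases (Nat.dvd_prime Nat.prime_two).1 hdvd with he | he
    · exfalso
      have := Monoid.exp_eq_one_iff.1 he
      rw [Nat.card_eq_one_iff_unique.2 ⟨this, ⟨1⟩⟩] at hcard
      omega
    · exact he
  exact ⟨hcard, hexp⟩

/-- If a finite 2-group has a normal elementary abelian subgroup of order at least 8, then any two of its Klein
four-subgroups are joined by a chain of Klein four-subgroups with consecutive members commuting elementwise. -/
theorem result {P : Type*} [Group P] [Finite P] (hP : IsPGroup 2 P)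
    (E : Subgroup P) [E.Normal] (hE : IsMulCommutative E) (hE2 : ∀ e ∈ E, e ^ 2 = 1) (hE8 : 8 ≤ Nat.card E) :
    Cfsg.IsFourConnected P := by
  haveI : Fact (Nat.Prime 2) := ⟨Nat.prime_two⟩
  haveI := hE
  have hE1 : E ≠ ⊥ := by rintro rfl; simp at hE8
  obtain ⟨z, hzE, hzZ, hz⟩ := S1755.exists_central_involution hP E hE1
  have hzz : z * z = 1 := by rw [← sq, ← hz, pow_orderOf_eq_one]
  have hz1 : z ≠ 1 := by rintro rfl; simp at hz
  have hzc : ∀ v : P, z * v = v * z := fun v => (Subgroup.mem_center_iff.1 hzZ v).symm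
  have hEc : ∀ a ∈ E, ∀ b ∈ E, a * b = b * a := fun a ha b hb =>
    congrArg (fun w : ↥E => (w : P)) (mul_comm' (⟨a, ha⟩ : ↥E) ⟨b, hb⟩)
  -- the fixed points of an involution on `E`
  have hfix : ∀ u : P, u * u = 1 → ∃ v ∈ E, v ≠ 1 ∧ v ≠ z ∧ v * u = u * v := by
    intro u huu
    by_contra hcon
    push Not at hcon
    have hui := inv_eq_of_mul_eq_one_right huu
    let φ : ↥E →* ↥E := MonoidHom.mk' (fun a => a * MulAut.conjNormal u a) (by
      intro a b
      rw [map_mul]
      exact Commute.mul_mul_mul_comm (mul_comm' b _) _ _)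
    have hsmall : ∀ K : Subgroup ↥E, (∀ a ∈ K, ((a : ↥E) : P) * u = u * ((a : ↥E) : P)) → Nat.card K ≤ 2 := by
      intro K hK
      have hsub : (K : Set ↥E) ⊆ {1, ⟨z, hzE⟩} := fun a ha => by
        by_contra hn
        simp only [Set.mem_insert_iff, Set.mem_singleton_iff, Subtype.ext_iff, Subgroup.coe_one] at hn
        push Not at hn
        exact hcon a a.2 hn.1 hn.2 (hK a ha)
      exact (Set.ncard_le_ncard hsub).trans ((Set.ncard_insert_le _ _).trans (by simp))
    have h1 : Nat.card φ.ker ≤ 2 := hsmall _ fun a ha => by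
      have h := congrArg Subtype.val (eq_inv_of_mul_eq_one_right (a := a) (MonoidHom.mem_ker.1 ha))
      have hinv : (a : P)⁻¹ = a := inv_eq_of_mul_eq_one_right (by rw [← sq]; exact hE2 a a.2)
      simp only [MulAut.conjNormal_apply, InvMemClass.coe_inv, hinv] at h
      conv_lhs => rw [← h]
      group
    have h2 : Nat.card φ.range ≤ 2 := hsmall _ (by
      rintro _ ⟨a, rfl⟩
      show (a : P) * ((MulAut.conjNormal u a : ↥E) : P) * u = u * ((a : P) * ((MulAut.conjNormal u a : ↥E) : P))
      have hc := hEc a a.2 _ (MulAut.conjNormal u a).2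
      simp only [MulAut.conjNormal_apply, hui] at hc ⊢
      calc (a : P) * (u * a * u) * u = a * (u * a) * (u * u) := by simp only [mul_assoc]
        _ = u * u * (a * (u * a)) := by rw [huu, one_mul, mul_one]
        _ = u * (u * (a : P) * u * a) := by simp only [mul_assoc]
        _ = _ := by rw [← hc])
    have h3 := Subgroup.card_eq_card_quotient_mul_card_subgroup φ.ker
    rw [Nat.card_congr (QuotientGroup.quotientKerEquivRange φ).toEquiv] at h3
    have : 8 ≤ 2 * 2 := hE8.trans (h3.le.trans (Nat.mul_le_mul h2 h1))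
    omega
  -- four-groups in `E` through `z`
  let R := fun A B : Subgroup P => IsKleinFour A ∧ IsKleinFour B ∧ ∀ a ∈ A, ∀ b ∈ B, a * b = b * a
  have hlink : ∀ U : Subgroup P, IsKleinFour U →
      ∃ B : Subgroup P, IsKleinFour B ∧ B ≤ E ∧ Relation.ReflTransGen R U B ∧ Relation.ReflTransGen R B U := by
    intro U hU
    obtain ⟨u, huU, hu1, huz⟩ : ∃ u ∈ U, u ≠ 1 ∧ u ≠ z := by
      by_contra hcon
      push Not at hcon
      have hsub : (U : Set P) ⊆ {1, z} := fun v hv => by
        by_cases h : v = 1
        · exact Or.inl h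
        · exact Or.inr (hcon v hv h)
      have := (Set.ncard_le_ncard hsub).trans ((Set.ncard_insert_le _ _).trans (le_of_eq (by simp : _ = 2)))
      rw [← Nat.card_coe_set_eq] at this
      have h4 : Nat.card U = 4 := hU.card_four
      simp only [SetLike.coe_sort_coe] at this
      omega
    have huu : u * u = 1 := by
      have := hU.exponent_two ▸ Monoid.pow_exponent_eq_one (⟨u, huU⟩ : U)
      rw [← sq]; exact congrArg Subtype.val this
    have hUc : ∀ a ∈ U, ∀ b ∈ U, a * b = b * a := by
      intro a ha b hb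
      have hsq : ∀ v : U, v * v = 1 := fun v => by
        rw [← sq, ← hU.exponent_two]; exact Monoid.pow_exponent_eq_one v
      have e := eq_inv_of_mul_eq_one_left (hsq (⟨a, ha⟩ * ⟨b, hb⟩))
      rw [mul_inv_rev, inv_eq_of_mul_eq_one_right (hsq ⟨a, ha⟩), inv_eq_of_mul_eq_one_right (hsq ⟨b, hb⟩)] at e
      exact congrArg Subtype.val e
    let A := fourGroup z u hzz huu (hzc u)
    have hA : IsKleinFour A := fourGroup_isKleinFour _ _ _ _ _ hz1 hu1 huz
    obtain ⟨v, hvE, hv1, hvz, hvu⟩ := hfix u huu
    have hvv : v * v = 1 := by rw [← sq]; exact hE2 v hvE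
    let B := fourGroup z v hzz hvv (hzc v)
    have hB : IsKleinFour B := fourGroup_isKleinFour _ _ _ _ _ hz1 hv1 hvz
    have hUA : ∀ a ∈ U, ∀ b ∈ A, a * b = b * a := by
      intro a ha b hb
      have hau := hUc a ha u huU
      rcases hb with rfl | rfl | rfl | rfl
      · simp
      · exact (hzc a).symm
      · exact hau
      · rw [← mul_assoc, ← hzc a, mul_assoc, hau, ← mul_assoc]
    have hAB : ∀ a ∈ A, ∀ b ∈ B, a * b = b * a := by
      intro a ha b hb
      have hua : ∀ w ∈ ({1, z, v, z * v} : Set P), u * w = w * u := by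
        rintro w (rfl | rfl | rfl | rfl)
        · simp
        · exact (hzc u).symm
        · exact hvu.symm
        · rw [← mul_assoc, ← hzc u, mul_assoc, hvu.symm, ← mul_assoc]
      rcases ha with rfl | rfl | rfl | rfl
      · simp
      · exact hzc b
      · exact hua b hb
      · rw [mul_assoc, hua b hb, ← mul_assoc, hzc b, mul_assoc]
    refine ⟨B, hB, ?_, (Relation.ReflTransGen.single ⟨hU, hA, hUA⟩).tail ⟨hA, hB, hAB⟩,
      (Relation.ReflTransGen.single ⟨hB, hA, fun b hb a ha => (hAB a ha b hb).symm⟩).tail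
        ⟨hA, hU, fun a ha c hc => (hUA c hc a ha).symm⟩⟩
    rintro w (rfl | rfl | rfl | rfl)
    · exact one_mem _
    · exact hzE
    · exact hvE
    · exact mul_mem hzE hvE
  intro U V hU hV
  obtain ⟨B, hB, hBE, hUB, -⟩ := hlink U hU
  obtain ⟨B', hB', hBE', -, hBV⟩ := hlink V hV
  exact (hUB.tail ⟨hB, hB', fun a ha b hb => hEc a (hBE ha) b (hBE' hb)⟩).trans hBV

end Cfsg.Agent.S0502
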