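import Cfsg.Statements.S0599
import Cfsg.Agent.Lib.Thompson.Replace

set_option autoImplicit false
open Cfsg Subgroup
open scoped Pointwise commutatorElement

namespace Cfsg.Agent.S0599

/-- The Timmesfeld replacement Theorem: replacing a best offender A by C_A([U, A]) gives a best offender with fixed points [U, A]C_V(A), still nontrivial on V if A was. -/
theorem result {G : Type*} [Group G] [Finite G] {p : ℕ} [Fact p.Prime] (V A : Subgroup G) (hV : Cfsg.IsElementaryAbelian p V) (hAV : A ≤ Subgroup.normalizer (V : Set G)) (hA : Cfsg.IsBestOffenderOn p V A) (U : Subgroup G) (hU : U ≤ V) : Cfsg.IsBestOffenderOn p V (A ⊓ Subgroup.centralizer ((⁅U, A⁆ : Subgroup G) : Set G)) ∧ V ⊓ Subgroup.centralizer ((A ⊓ Subgroup.centralizer ((⁅U, A⁆ : Subgroup G) : Set G) : Subgroup G) : Set G) = ⁅U, A⁆ ⊔ (V ⊓ Subgroup.centralizer (A : Set G)) ∧ (⁅V, A⁆ ≠ ⊥ → ⁅V, A ⊓ Subgroup.centralizer ((⁅U, A⁆ : Subgroup G) : Set G)⁆ ≠ ⊥) := by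
  obtain ⟨hmax, hab, hpow⟩ := hA
  have hVc : ∀ x ∈ V, ∀ y ∈ V, x * y = y * x := fun x hx y hy => Lib.Thompson.commute_of_elementary hV hx hy
  obtain ⟨h1, h2⟩ := Lib.Thompson.replacement_subgroup hVc hAV hab hmax hU
  refine ⟨⟨fun B hB => (hmax B (hB.trans inf_le_left)).trans h1.ge,
    (commutator_mono inf_le_left inf_le_left).trans hab, fun a ha => hpow a ha.1⟩, h2, fun hne h0 => hne ?_⟩
  have hle : ⁅V, A⁆ ≤ V := by
    rw [commutator_le]
    intro v hv a ha
    rw [commutatorElement_def, mul_assoc, mul_assoc, ← mul_assoc a]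
    exact mul_mem hv ((mem_normalizer_iff.mp (hAV ha) _).mp (inv_mem hv))
  have hV0 : V = ⁅V, A⁆ ⊔ (V ⊓ centralizer (A : Set G)) := by
    refine le_antisymm ?_ (sup_le hle inf_le_left)
    calc V = V ⊓ centralizer ((A ⊓ centralizer ((⁅U, A⁆ : Subgroup G) : Set G) : Subgroup G) : Set G) :=
          (inf_eq_left.mpr (commutator_eq_bot_iff_le_centralizer.mp h0)).symm
      _ = _ := h2
      _ ≤ _ := sup_le_sup_right (commutator_mono hU le_rfl) _
  refine Lib.Thompson.eq_bot_of_le_commutator (p := p)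
    (Lib.Thompson.isPGroup_of_elementary (Lib.Thompson.isElementaryAbelian_le hV hle)) ?_
    (fun a ha => ⟨1, by rw [pow_one]; exact centralizer_le (SetLike.coe_subset_coe.mpr hle) (hpow a ha)⟩) ?_
  · intro a ha
    have key : ∀ b ∈ A, ∀ x ∈ ⁅V, A⁆, b * x * b⁻¹ ∈ ⁅V, A⁆ := fun b hb x hx => by
      have : x * ⁅x⁻¹, b⁆ ∈ ⁅V, A⁆ :=
        mul_mem hx (commutator_mem_commutator (inv_mem (hle hx)) hb)
      simpa [commutatorElement_def, mul_assoc] using this
    rw [mem_normalizer_iff]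
    exact fun x => ⟨key a ha x, fun h => by
      have := key a⁻¹ (inv_mem ha) _ h; simpa [mul_assoc] using this⟩
  · refine (commutator_le.mpr fun v hv a ha => ?_)
    have hv' : v ∈ ⁅V, A⁆ ⊔ (V ⊓ centralizer (A : Set G)) := hV0 ▸ hv
    rw [← SetLike.mem_coe, coe_mul_of_right_le_normalizer_left ⁅V, A⁆ (V ⊓ centralizer (A : Set G)) (fun x hx => centralizer_le_normalizer _
      (mem_centralizer_iff.mpr fun y hy => hVc y (hle hy) x hx.1))] at hv'
    obtain ⟨w, hw, c, hc, rfl⟩ := hv'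
    have e : ⁅w * c, a⁆ = ⁅w, a⁆ := by
      have hca : Commute c a := (mem_centralizer_iff.mp hc.2 a ha).symm
      calc ⁅w * c, a⁆ = w * (c * a * c⁻¹ * a⁻¹) * a * w⁻¹ * a⁻¹ := by rw [commutatorElement_def]; group
        _ = _ := by rw [hca.eq, commutatorElement_def]; group
    show ⁅w * c, a⁆ ∈ _
    rw [e]
    exact commutator_mem_commutator hw ha

end Cfsg.Agent.S0599
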