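import Cfsg.Statements.S0721
import Cfsg.Agent.Lib.Recog.MinNormal

set_option autoImplicit false
open Cfsg

namespace Cfsg.Agent.S0721

open Lib.Recog

theorem elem_pow {A : Type*} [CommGroup A] [Finite A] [Nontrivial A] (p : ℕ) [Fact p.Prime]
    (hexp : ∀ x : A, x ^ p = 1) :
    ∃ m : ℕ, 0 < m ∧ Nonempty (A ≃* (Fin m → Multiplicative (ZMod p))) := by
  have hexp' : ∀ x : Additive A, p • x = 0 := fun x => Additive.toMul.injective (hexp x.toMul)
  let _ := AddCommGroup.zmodModule (n := p) (G := Additive A) hexp'
  have : Module.Finite (ZMod p) (Additive A) := Module.Finite.of_finite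
  have : Module.Free (ZMod p) (Additive A) := Module.Free.of_divisionRing _ _
  let b : Module.Basis (Fin (Module.finrank (ZMod p) (Additive A))) (ZMod p) (Additive A) := Module.finBasis (ZMod p) (Additive A)
  have : Nontrivial (Additive A) := inferInstance
  refine ⟨Module.finrank (ZMod p) (Additive A), Module.finrank_pos_iff.mpr this, ⟨?_⟩⟩
  exact
    { toFun := fun x i => Multiplicative.ofAdd (b.equivFun (Additive.ofMul x) i)
      invFun := fun v => Additive.toMul (b.equivFun.symm fun i => Multiplicative.toAdd (v i))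
      left_inv := fun x => by simp
      right_inv := fun v => funext fun i => by
        show Multiplicative.ofAdd (b.equivFun (Additive.ofMul (Additive.toMul (b.equivFun.symm fun i => Multiplicative.toAdd (v i)))) i) = v i
        rw [ofMul_toMul, LinearEquiv.apply_symm_apply]
        exact ofAdd_toAdd (v i)
      map_mul' := fun x y => funext fun i => by simp [ofMul_mul, ofAdd_add] }

/-- A power of a group transported to `Fin`. -/
theorem pow_to_fin {H : Type*} [Group H] (N : Subgroup H) {T : Type*} [Group T] [Finite T] (hT : IsSimpleGroup T)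
    {ι : Type*} [Fintype ι] [Nonempty ι] (e : N ≃* (ι → T)) :
    ∃ (T₀ : Type) (_ : Group T₀) (m : ℕ), IsSimpleGroup T₀ ∧ 0 < m ∧ Nonempty (N ≃* (Fin m → T₀)) := by
  let f : Shrink.{0} T ≃* T := Shrink.mulEquiv
  refine ⟨Shrink.{0} T, inferInstance, Fintype.card ι, ?_, Fintype.card_pos, ⟨e.trans ?_⟩⟩
  · have : Nontrivial (Shrink.{0} T) := f.toEquiv.nontrivial
    exact IsSimpleGroup.isSimpleGroup_of_surjective f.symm.toMonoidHom f.symm.surjective
  · exact
      { toFun := fun v i => f.symm (v ((Fintype.equivFin ι).symm i))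
        invFun := fun v i => f (v (Fintype.equivFin ι i))
        left_inv := fun v => funext fun i => by simp
        right_inv := fun v => funext fun i => by simp
        map_mul' := fun v w => funext fun i => by simp }

/-- A minimal normal subgroup of a finite group is isomorphic to a direct power `T ^ m` of a simple group `T` (possibly of prime order). -/
theorem result {H : Type*} [Group H] [Finite H] (N : Subgroup H) [N.Normal] (hN : N ≠ ⊥) (hmin : ∀ M : Subgroup H, M.Normal → M ≤ N → M = ⊥ ∨ M = N) : ∃ (T : Type) (_ : Group T) (m : ℕ), IsSimpleGroup T ∧ 0 < m ∧ Nonempty (N ≃* (Fin m → T)) := by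
  classical
  have hmn : IsMinNormal N := ⟨inferInstance, hN, hmin⟩
  by_cases hc : IsMulCommutative N
  · obtain ⟨p, hp, hexp⟩ := hmn.exists_prime_exp hc
    have := Fact.mk hp
    have hnt : Nontrivial N := N.nontrivial_iff_ne_bot.2 hN
    obtain ⟨m, hm, ⟨e⟩⟩ := @elem_pow N { (inferInstance : Group N) with mul_comm := fun a b => hc.is_comm.comm a b }
      inferInstance hnt p ⟨hp⟩ (fun x => Subtype.ext (by simpa using hexp _ x.2))
    have : Nonempty (Fin m) := ⟨⟨0, hm⟩⟩
    have hs : IsSimpleGroup (Multiplicative (ZMod p)) := isSimpleGroup_of_prime_card (p := p) (by simp)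
    exact pow_to_fin N hs (ι := Fin m) e
  · obtain ⟨T, hT⟩ := hmn.exists_factor hc
    let S : Set (Subgroup H) := Set.range fun g => cj g T
    have : Nonempty S := ⟨⟨T, 1, cj_one T⟩⟩
    have : Fintype S := Fintype.ofFinite S
    let K : S → Subgroup H := fun i => i.1
    have hcomm : Pairwise fun i j : S => ∀ x y : H, x ∈ K i → y ∈ K j → Commute x y := by
      rintro ⟨_, g, rfl⟩ ⟨_, k, rfl⟩ hne x y hx hy
      exact hT.cj_comm g k (fun e => hne (Subtype.ext e)) x hx y hy
    have hind : iSupIndep K := by
      intro i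
      rw [Subgroup.disjoint_def]
      intro x hx hx'
      have hle : (⨆ (j : S) (_ : j ≠ i), K j) ≤ Subgroup.centralizer (K i : Set H) :=
        iSup₂_le fun j hj y hy => fun z hz => (hcomm hj y z hy hz).symm
      obtain ⟨_, g, rfl⟩ := i
      have h1 := hle hx'
      have h2 : g⁻¹ * x * g ∈ T := mem_cj.1 hx
      have h3 := hT.center_trivial h2 fun t ht => by
        have h4 : g * t * g⁻¹ * x = x * (g * t * g⁻¹) := h1 _ (conj_mem_cj ht)
        calc g⁻¹ * x * g * t = g⁻¹ * (x * (g * t * g⁻¹)) * g := by group
          _ = g⁻¹ * (g * t * g⁻¹ * x) * g := by rw [h4]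
          _ = t * (g⁻¹ * x * g) := by group
      calc x = g * (g⁻¹ * x * g) * g⁻¹ := by group
        _ = 1 := by rw [h3]; group
    have hinj := Subgroup.injective_noncommPiCoprod_of_iSupIndep hind (hcomm := hcomm)
    have hrange : (Subgroup.noncommPiCoprod (H := K) hcomm).range = N := by
      rw [Subgroup.noncommPiCoprod_range, hT.gen]
      exact le_antisymm (iSup_le fun i => by
        obtain ⟨_, g, rfl⟩ := i
        exact le_iSup (fun g => cj g T) g) (iSup_le fun g => le_iSup K ⟨cj g T, g, rfl⟩)
    have he : ∀ i : S, Nonempty (K i ≃* T) := fun i => by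
      obtain ⟨_, g, rfl⟩ := i
      exact ⟨(T.equivMapOfInjective _ (MulAut.conj g).injective).symm⟩
    refine pow_to_fin N hT.simple (ι := S) ?_
    exact ((MulEquiv.subgroupCongr hrange.symm).trans
      (MonoidHom.ofInjective hinj).symm).trans (MulEquiv.piCongrRight fun i => (he i).some)

end Cfsg.Agent.S0721
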