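import Cfsg.Statements.S0742
import Cfsg.Agent.Lib.Zass.Struct

set_option autoImplicit false
open Cfsg

namespace Cfsg.Agent.S0742

open Cfsg.Agent.Lib.Zass Cfsg.Agent.Lib.ZassFrob

/-- A finite Zassenhaus group of degree `n + 1` with two-point stabilisers of even order `d` satisfying `2d ≤ n - 1` has `n = p^f` for an odd prime `p` and is isomorphic to `PSL(2, p^f)`. -/
theorem result {G Ω : Type*} [Group G] [Finite G] [MulAction G Ω] [Fintype Ω] (hZ : Cfsg.IsZassenhausGroup G Ω) {a b : Ω} (hab : a ≠ b) (heven : Even (Nat.card ↥(MulAction.stabilizer G a ⊓ MulAction.stabilizer G b))) (hd : 2 * Nat.card ↥(MulAction.stabilizer G a ⊓ MulAction.stabilizer G b) ≤ Fintype.card Ω - 2) : ∃ (p f : ℕ) (K : Type) (_ : Field K) (_ : Fintype K), p.Prime ∧ p ≠ 2 ∧ Fintype.card K = p ^ f ∧ Fintype.card Ω = p ^ f + 1 ∧ Nonempty (G ≃* Matrix.ProjectiveSpecialLinearGroup (Fin 2) K) := by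
  open MulAction in
  obtain ⟨K, hKle, hKn, -, hKb, -, hKc, -⟩ := exists_kernel hZ hab
  have hinj : ∀ u u' : K, (u : G) • b = (u' : G) • b → u = u' := fun u u' e => by
    have hm : (u' : G)⁻¹ * u ∈ K ⊓ MulAction.stabilizer G b := ⟨(mul_mem (inv_mem u'.2) u.2 : (u' : G)⁻¹ * u ∈ K),
      show ((u' : G)⁻¹ * u) • b = b by rw [mul_smul, e, inv_smul_smul]⟩
    rw [hKb, Subgroup.mem_bot] at hm
    exact Subtype.ext (inv_mul_eq_one.mp hm).symm
  have hreg : ∀ y : Ω, y ≠ a → ∃! u : K, (u : G) • b = y := by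
    classical
    haveI := Fintype.ofFinite K
    have hbij : Function.Bijective (fun u : K => (⟨(u : G) • b, fun e => hab
        (MulAction.injective (u : G) (((hKle u.2 : _)).trans e.symm))⟩ : {y : Ω // y ≠ a})) :=
      (Fintype.bijective_iff_injective_and_card _).mpr
        ⟨fun u u' e => hinj u u' (congrArg Subtype.val e), by
          rw [Fintype.card_subtype_compl, Fintype.card_subtype_eq, ← Nat.card_eq_fintype_card,
            ← Nat.card_eq_fintype_card]
          omega⟩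
    intro y hy
    obtain ⟨u, hu⟩ := hbij.2 ⟨y, hy⟩
    exact ⟨u, congrArg Subtype.val hu, fun v hv => hinj v u (hv.trans (congrArg Subtype.val hu).symm)⟩
  have hker : IsKernel K a b := ⟨hab, hKle, hKn, hreg⟩
  have h1 := S0741.result hZ hab heven
  rw [Nat.card_eq_fintype_card (α := Ω)] at hKc
  obtain ⟨hUc, -⟩ := prime_pow_kernel hZ hker (by omega)
  obtain ⟨p, f, F, iF, iT, hp, hp2, -, hpf, hFc, -, hiso⟩ := psl_of_half hZ hker hUc (by omega)
  exact ⟨p, f, F, iF, iT, hp, hp2, hFc, by omega, hiso⟩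

end Cfsg.Agent.S0742
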