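import Mathlib
import Cfsg.Statements.S0975
import Cfsg.Agent.Lib.SmallSimple.SelfCentDegrees
import Cfsg.Agent.Lib.SmallSimple.Order459648

set_option autoImplicit false

open scoped commutatorElement Pointwise

namespace Cfsg.Agent.S0975

open Subgroup

/-- No finite simple group has order 3744 = 2^5 * 3^2 * 13. -/
theorem result {G : Type*} [Group G] [Finite G] [IsSimpleGroup G] : Nat.card G ≠ 3744 := by
  intro h
  have hG := Lib.SmallSimple.not_isMulCommutative_of_card (G := G) (by rw [h]; norm_num)
  haveI : Fact (Nat.Prime 13) := ⟨by norm_num⟩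
  obtain ⟨P⟩ : Nonempty (Sylow 13 G) := inferInstance
  obtain ⟨h1, h2, -⟩ := Lib.SmallSimple.card_sylow_facts (p := 13) hG (by rw [h]; norm_num)
  have hP : Nat.card (P : Subgroup G) = 13 := by
    simpa using Lib.SmallSimple.card_sylow_subgroup P (k := 1) (m := 288) (by rw [h]; norm_num) (by norm_num)
  have hidx : (P : Subgroup G).index = 288 := by
    have := (P : Subgroup G).card_mul_index; rw [hP, h] at this; omega
  have hd : Nat.card (Sylow 13 G) ∣ 288 := hidx ▸ P.card_dvd_index
  have hcases : Nat.card (Sylow 13 G) ∈ ({1, 144} : Finset ℕ) := by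
    rw [show ({1, 144} : Finset ℕ) = (Nat.divisors 288).filter (· % 13 = 1) by decide]
    exact Finset.mem_filter.2 ⟨Nat.mem_divisors.2 ⟨hd, by norm_num⟩, by omega⟩
  simp only [Finset.mem_insert, Finset.mem_singleton] at hcases
  have hn : Nat.card (Sylow 13 G) = 144 := by omega
  have hNmul := (normalizer ((P : Subgroup G) : Set G)).card_mul_index
  rw [← Lib.SmallSimple.card_sylow_eq_index P, hn, h] at hNmul
  obtain ⟨d, f, hd', hf, hf1, hsq, hcase⟩ := Lib.SmallSimple.degrees_two hG P hP (m := 6) (by omega) rfl (by norm_num)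
  rw [h] at hd' hf hsq
  have hd24 : d < 25 := by nlinarith
  rcases hcase with ⟨rfl, hp⟩ | ⟨rfl, hp⟩
  · have : d = 11 ∨ d = 24 := by omega
    rcases this with rfl | rfl
    · norm_num at hd'
    · norm_num at hf
  · have : f = 14 := by omega
    subst this
    norm_num at hf

end Cfsg.Agent.S0975
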