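import Mathlib
import Cfsg.Statements.S1016
import Cfsg.Agent.Lib.SmallSimple.PointFix
import Cfsg.Agent.Lib.SmallSimple.Order459648

set_option autoImplicit false

open scoped commutatorElement Pointwise

namespace Cfsg.Agent.S1016

open Subgroup

variable {G : Type*} [Group G]

lemma centralizer_singleton_ne_top [IsSimpleGroup G] (hG : ¬ IsMulCommutative G) {x : G} (hx : x ≠ 1) :
    centralizer ({x} : Set G) ≠ ⊤ := by
  intro hH
  have hxc : x ∈ center G := by
    rw [mem_center_iff]
    intro g
    have : g ∈ centralizer ({x} : Set G) := hH ▸ mem_top g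
    exact mem_centralizer_singleton_iff.1 this
  rcases (inferInstance : (center G).Normal).eq_bot_or_eq_top with hz | hz
  · rw [hz, mem_bot] at hxc
    exact hx hxc
  · exact hG (center_eq_top_iff.1 hz)

lemma conj_mem_centralizer {P : Subgroup G} {x n : G} (hx : x ∈ centralizer (P : Set G))
    (hn : n ∈ normalizer (P : Set G)) : n⁻¹ * x * n ∈ centralizer (P : Set G) := by
  rw [mem_centralizer_iff]
  intro z hz
  have h1 := mem_centralizer_iff.1 hx (n * z * n⁻¹) ((mem_normalizer_iff.1 hn z).1 hz)
  calc z * (n⁻¹ * x * n) = n⁻¹ * ((n * z * n⁻¹) * x) * n := by group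
    _ = n⁻¹ * (x * (n * z * n⁻¹)) * n := by rw [h1]
    _ = (n⁻¹ * x * n) * z := by group

lemma four_dvd_moved [Finite G] [IsSimpleGroup G] (hG : ¬ IsMulCommutative G) (H : Subgroup G) {x : G}
    (hx : orderOf x = 2) (hpos : 0 < Nat.card {ω : G ⧸ H // x • ω ≠ ω}) :
    4 ∣ Nat.card {ω : G ⧸ H // x • ω ≠ ω} := by
  classical
  letI : Fintype (G ⧸ H) := Fintype.ofFinite _
  set σ := MulAction.toPermHom G (G ⧸ H) x with hσdef
  have hsign : Equiv.Perm.sign σ = 1 := Equiv.Perm.mem_alternatingGroup.1
    (Lib.SmallSimple.mem_alternating_of_perfect (Lib.SmallSimple.commutator_eq_top hG) _ x)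
  have hcard : σ.support.card = Nat.card {ω : G ⧸ H // x • ω ≠ ω} := by
    rw [Nat.card_eq_fintype_card, Fintype.card_subtype]
    refine congrArg Finset.card ?_
    ext ω
    simp [σ, Equiv.Perm.mem_support]
  have hσ1 : σ ≠ 1 := by
    intro h1
    rw [h1, Equiv.Perm.support_one, Finset.card_empty] at hcard
    omega
  haveI : Fact (Nat.Prime 2) := ⟨Nat.prime_two⟩
  have hσ2 : orderOf σ = 2 := orderOf_eq_prime (by
    rw [hσdef, ← map_pow, ← hx, pow_orderOf_eq_one, map_one]) hσ1
  obtain ⟨k, hk⟩ := Equiv.Perm.cycleType_prime_order (σ := σ) (by rw [hσ2]; exact Nat.prime_two)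
  rw [hσ2] at hk
  have hsum := σ.sum_cycleType
  rw [hk, Multiset.sum_replicate, hcard, smul_eq_mul] at hsum
  rw [Equiv.Perm.sign_of_cycleType, hk, Multiset.sum_replicate, Multiset.card_replicate, smul_eq_mul] at hsign
  rcases Nat.even_or_odd (k + 1) with ⟨j, hj⟩ | hodd
  · exact ⟨j, by omega⟩
  · rw [Odd.neg_one_pow (by rcases hodd with ⟨t, ht⟩; exact ⟨3 * t + 1, by omega⟩)] at hsign
    exact absurd hsign (by decide)

/-- No finite simple group has order 1440 = 2^5 * 3^2 * 5. -/
theorem result {G : Type*} [Group G] [Finite G] [IsSimpleGroup G] : Nat.card G ≠ 1440 := by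
  intro h
  have hG := Lib.SmallSimple.not_isMulCommutative_of_card (G := G) (by rw [h]; norm_num)
  haveI : Fact (Nat.Prime 5) := ⟨by norm_num⟩
  haveI : Fact (Nat.Prime 2) := ⟨Nat.prime_two⟩
  haveI : Fact (Nat.Prime 3) := ⟨Nat.prime_three⟩
  obtain ⟨P⟩ : Nonempty (Sylow 5 G) := inferInstance
  obtain ⟨h1, h2, h3⟩ := Lib.SmallSimple.card_sylow_facts (p := 5) hG (by rw [h]; norm_num)
  have hP : Nat.card (P : Subgroup G) = 5 := by
    simpa using Lib.SmallSimple.card_sylow_subgroup P (k := 1) (m := 288) (by rw [h]; norm_num) (by norm_num)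
  have hsq : ¬ 5 ^ 2 ∣ Nat.card G := by rw [h]; norm_num
  have hidx : (P : Subgroup G).index = 288 := by
    have := (P : Subgroup G).card_mul_index; rw [hP, h] at this; omega
  have hd : Nat.card (Sylow 5 G) ∣ 288 := hidx ▸ P.card_dvd_index
  set N := normalizer ((P : Subgroup G) : Set G) with hNdef
  set C := centralizer ((P : Subgroup G) : Set G) with hCdef
  have hNi : N.index = Nat.card (Sylow 5 G) := P.card_eq_index_normalizer.symm
  have hNmul := N.card_mul_index
  rw [h, hNi] at hNmul
  obtain ⟨i, hi4, hNC⟩ := Lib.SmallSimple.exists_normalizer_index (P : Subgroup G) hP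
  have hnle := Lib.SmallSimple.not_normalizer_le_centralizer hG P (by rw [h]; norm_num)
  change Nat.card N = Nat.card C * i at hNC
  have hCN : C ≤ N := centralizer_le_normalizer _
  have hi1 : i ≠ 1 := by
    rintro rfl
    refine hnle fun g hg => ?_
    rw [mul_one] at hNC
    exact (eq_of_le_of_card_ge hCN hNC.le).ge hg
  haveI : IsCyclic (P : Subgroup G) := isCyclic_of_prime_card hP
  have hPC : (P : Subgroup G) ≤ C := le_centralizer _
  have hC5 : 5 ∣ Nat.card C := hP ▸ card_dvd_of_le hPC
  have hcases : Nat.card (Sylow 5 G) ∈ ({1, 6, 16, 36, 96} : Finset ℕ) := by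
    rw [show ({1, 6, 16, 36, 96} : Finset ℕ) = (Nat.divisors 288).filter (· % 5 = 1) by decide]
    exact Finset.mem_filter.2 ⟨Nat.mem_divisors.2 ⟨hd, by norm_num⟩, by omega⟩
  simp only [Finset.mem_insert, Finset.mem_singleton] at hcases
  have hi' : i = 2 ∨ i = 4 := by
    have := Nat.le_of_dvd (by norm_num) hi4
    interval_cases i <;> omega
  rcases hcases with hn | hn | hn | hn | hn
  · omega
  · rw [hn, h] at h3
    norm_num [Nat.factorial] at h3
  · -- sixteen subgroups of order five
    rw [hn] at hNmul hNi
    have hC45 : Nat.card C = 45 := by rcases hi' with rfl | rfl <;> omega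
    obtain ⟨Q, hQ⟩ := Sylow.exists_subgroup_card_pow_prime (G := C) 3 (n := 2) (by rw [hC45]; norm_num)
    letI : Fintype (G ⧸ N) := Fintype.ofFinite _
    letI : Fintype Q := Fintype.ofFinite _
    letI : ∀ g : Q, Fintype (MulAction.fixedBy (G ⧸ N) ((g : C) : G)) := fun g => Fintype.ofFinite _
    let Q' : Subgroup G := Q.map C.subtype
    have hQ' : Nat.card Q' = 9 := by
      rw [Nat.card_congr (equivMapOfInjective Q _ C.subtype_injective).toEquiv.symm, hQ]; norm_num
    have hQC : Q' ≤ C := map_subtype_le Q
    have hΩ : Nat.card (G ⧸ N) = 16 := by rw [← index_eq_card, hNi]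
    have hfix1 : ∀ c : G, c ∈ Q' → c ≠ 1 → Nat.card {ω : G ⧸ N // c • ω = ω} = 1 := by
      intro c hc hc1
      have hord : orderOf c ∣ 9 := hQ' ▸ orderOf_dvd_natCard _ hc
      have hmem : ∀ d : G, d ∈ Q' → d • ((1 : G) : G ⧸ N) = ((1 : G) : G ⧸ N) := by
        intro d hd
        show ((d * 1 : G) : G ⧸ N) = _
        rw [QuotientGroup.eq]
        simpa using inv_mem (hCN (hQC hd))
      have h3 : ∀ d : G, d ∈ Q' → orderOf d = 3 → Nat.card {ω : G ⧸ N // d • ω = ω} = 1 := by
        intro d hd hd3
        obtain ⟨hdvd, hpos, hsum⟩ := Lib.SmallSimple.moved_facts hsq hP le_normalizer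
          (fun hN => by change N = ⊤ at hN; rw [hN, index_top] at hNi; omega) Nat.prime_three (by norm_num) hd3
          (hQC hd) (fun n hn => hCN (conj_mem_centralizer (hQC hd) hn))
        have hpos' : 0 < Nat.card {ω : G ⧸ N // d • ω = ω} := Nat.card_pos_iff.2 ⟨⟨⟨_, hmem d hd⟩⟩, inferInstance⟩
        have := Nat.le_of_dvd hpos hdvd
        change _ + Nat.card {ω : G ⧸ N // d • ω = ω} = N.index at hsum
        omega
      have hdvd : orderOf c ∈ ({1, 3, 9} : Finset ℕ) := by
        rw [show ({1, 3, 9} : Finset ℕ) = Nat.divisors 9 by decide]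
        exact Nat.mem_divisors.2 ⟨hord, by norm_num⟩
      simp only [Finset.mem_insert, Finset.mem_singleton] at hdvd
      rcases hdvd with hc' | hc' | hc'
      · exact absurd (orderOf_eq_one_iff.1 hc') hc1
      · exact h3 c hc hc'
      · have hle := h3 (c ^ 3) (pow_mem hc 3) (by rw [orderOf_pow' c (by norm_num), hc']; rfl)
        refine le_antisymm (hle ▸ Nat.card_le_card_of_injective
          (fun ω => ⟨ω.1, by rw [pow_succ, pow_two, mul_smul, mul_smul, ω.2, ω.2, ω.2]⟩)
          (fun a b hab => Subtype.ext (congrArg (fun z => z.1) hab))) ?_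
        exact Nat.card_pos_iff.2 ⟨⟨⟨_, hmem c hc⟩⟩, inferInstance⟩
    letI : Fintype Q' := Fintype.ofFinite _
    classical
    letI : Fintype (Quotient (MulAction.orbitRel Q' (G ⧸ N))) := Fintype.ofFinite _
    have hB := MulAction.sum_card_fixedBy_eq_card_orbits_mul_card_group Q' (G ⧸ N)
    rw [← Nat.card_eq_fintype_card (α := Q'), hQ', ← Finset.sum_erase_add _ _ (Finset.mem_univ (1 : Q'))] at hB
    have h16 : Fintype.card (MulAction.fixedBy (G ⧸ N) (1 : Q')) = 16 := by
      rw [← Nat.card_eq_fintype_card, MulAction.fixedBy_one_eq_univ, Nat.card_coe_set_eq, Set.ncard_univ, hΩ]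
    rw [h16, Finset.sum_eq_card_nsmul (b := 1) (fun g hg => by
      rw [← Nat.card_eq_fintype_card]
      exact hfix1 g g.2 (fun h' => Finset.ne_of_mem_erase hg (Subtype.ext h'))),
      Finset.card_erase_of_mem (Finset.mem_univ _), Finset.card_univ, ← Nat.card_eq_fintype_card, hQ',
      smul_eq_mul] at hB
    omega
  · rw [hn] at hNmul hNi
    have hN40 : Nat.card N = 40 := by omega
    rcases hi' with rfl | rfl
    · -- |C(P)| = 20
      have hC20 : Nat.card C = 20 := by omega
      obtain ⟨x, hxC, hx2, hCx, P', hP', hne, hP'x⟩ :=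
        Lib.SmallSimple.exists_involution_two_conjugates (by norm_num) hP (by rw [hN40]) (by rw [hC20])
          (by rw [h]; norm_num)
      set H := centralizer ({x} : Set G) with hHdef
      have hx1 : x ≠ 1 := fun h1 => by rw [h1, orderOf_one] at hx2; omega
      have hH : H ≠ ⊤ := centralizer_singleton_ne_top hG hx1
      obtain ⟨hdvd, hpos, hsum⟩ := Lib.SmallSimple.moved_facts hsq hP (hPC.trans hCx) hH
        Nat.prime_two (by norm_num) hx2 hxC (fun n hn => hCx (conj_mem_centralizer hxC hn))
      have hle := Nat.le_of_dvd hpos hdvd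
      have hxH : x ∈ H := hCx hxC
      have hbase : x • ((1 : G) : G ⧸ H) = ((1 : G) : G ⧸ H) := by
        show ((x * 1 : G) : G ⧸ H) = _
        rw [QuotientGroup.eq]
        simpa using inv_mem hxH
      have hFpos : 0 < Nat.card {ω : G ⧸ H // x • ω = ω} := Nat.card_pos_iff.2 ⟨⟨⟨_, hbase⟩⟩, inferInstance⟩
      have hHmul := H.card_mul_index
      rw [h] at hHmul
      have hge : 120 ≤ Nat.card H := by
        by_contra! hlt
        exact hne (Lib.SmallSimple.unique_of_card_lt hsq hP hP' hPC hCN hCx hP'x (by rw [hC20]; omega))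
      have hH20 : 20 ∣ Nat.card H := hC20 ▸ card_dvd_of_le hCx
      have hidx12 : H.index = 12 ∧ Nat.card H = 120 := by
        obtain ⟨k, hk⟩ := hH20
        rw [hk] at hge hHmul
        have : H.index ≤ 12 := by nlinarith
        have : 11 ≤ H.index := by omega
        have : H.index = 11 ∨ H.index = 12 := by omega
        rcases this with h' | h' <;> rw [h'] at hHmul <;> omega
      have hF2 : Nat.card {ω : G ⧸ H // x • ω = ω} = 2 := by omega
      obtain ⟨⟨ω₀, hω₀⟩, hω₀ne⟩ : ∃ ω : {ω : G ⧸ H // x • ω = ω}, ω ≠ ⟨_, hbase⟩ := by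
        haveI := Finite.one_lt_card_iff_nontrivial.1 (by omega : 1 < Nat.card {ω : G ⧸ H // x • ω = ω})
        exact exists_ne _
      obtain ⟨g, rfl⟩ := QuotientGroup.mk_surjective ω₀
      have hgH : g ∉ H := fun hg => hω₀ne (Subtype.ext (QuotientGroup.eq.2 (by simpa using inv_mem hg)))
      have hstab : ∀ k ∈ H, g⁻¹ * k * g ∈ H := by
        intro k hk
        have hkfix : x • k • (g : G ⧸ H) = k • (g : G ⧸ H) := by
          rw [← mul_smul, ← mem_centralizer_singleton_iff.1 hk, mul_smul, hω₀]
        have hk1 : k • (g : G ⧸ H) ≠ ((1 : G) : G ⧸ H) := by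
          intro h'
          have h'' := congrArg (fun ω => k⁻¹ • ω) h'
          simp only [inv_smul_smul] at h''
          refine hω₀ne (Subtype.ext (h''.trans ?_))
          show ((k⁻¹ * 1 : G) : G ⧸ H) = _
          rw [QuotientGroup.eq]
          simpa using hk
        have heq : k • (g : G ⧸ H) = g := by
          by_contra hne'
          have hinj : Function.Injective (![⟨_, hbase⟩, ⟨_, hω₀⟩, ⟨_, hkfix⟩] : Fin 3 → {ω : G ⧸ H // x • ω = ω}) := by
            intro a b hab
            fin_cases a <;> fin_cases b <;> simp at hab ⊢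
            all_goals first
              | exact hω₀ne (Subtype.ext hab.symm)
              | exact hω₀ne (Subtype.ext hab)
              | exact hk1 hab
              | exact hk1 hab.symm
              | exact hne' hab
              | exact hne' hab.symm
          have := Nat.card_le_card_of_injective _ hinj
          rw [Nat.card_fin, hF2] at this
          omega
        have := QuotientGroup.eq.1 (heq.symm : (g : G ⧸ H) = ((k * g : G) : G ⧸ H))
        simpa [mul_assoc] using this
      have hgN : g⁻¹ ∈ normalizer (H : Set G) := by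
        rw [mem_normalizer_iff_map_conj_eq]
        refine eq_of_le_of_card_ge (map_le_iff_le_comap.2 fun z hz => ?_) ?_
        · simpa [mul_assoc] using hstab z hz
        · exact (Nat.card_congr (equivMapOfInjective H _ (MulEquiv.injective _)).toEquiv).le
      have hlt : H < normalizer (H : Set G) := lt_of_le_of_ne le_normalizer fun he => hgH (by
        rw [← he] at hgN; simpa using hgN)
      have hNH : normalizer (H : Set G) ≠ ⊤ := by
        intro ht
        rcases (normalizer_eq_top_iff.1 ht).eq_bot_or_eq_top with hb | hb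
        · rw [hb, mem_bot] at hxH; exact hx1 hxH
        · exact hH hb
      have hmul := relIndex_mul_index hlt.le
      have hrel : H.relIndex (normalizer (H : Set G)) ≠ 1 := fun he => hlt.not_ge (relIndex_eq_one.1 he)
      have hrel0 : H.relIndex (normalizer (H : Set G)) ≠ 0 := fun he => by rw [he, zero_mul] at hmul; omega
      have hsmall : (normalizer (H : Set G)).index ≤ 6 := by
        rw [hidx12.1] at hmul
        have : 2 ≤ H.relIndex (normalizer (H : Set G)) := by omega
        nlinarith
      have hdiv := Lib.SmallSimple.two_mul_card_dvd_factorial hG _ hNH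
      rw [h] at hdiv
      have := Nat.le_of_dvd (Nat.factorial_pos _) hdiv
      have := Nat.factorial_le hsmall
      norm_num [Nat.factorial] at this
      omega
    · -- |C(P)| = 10
      have hC10 : Nat.card C = 10 := by omega
      obtain ⟨x', hx'⟩ := exists_prime_orderOf_dvd_card' (G := C) 2 (by rw [hC10]; norm_num)
      obtain ⟨a', ha'⟩ := exists_prime_orderOf_dvd_card' (G := (P : Subgroup G)) 5 (by rw [hP])
      have hax : Commute (⟨(a' : G), hPC a'.2⟩ : C) x' := Subtype.ext (mem_centralizer_iff.1 x'.2 a' a'.2)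
      haveI hCcyc : IsCyclic C := by
        refine isCyclic_of_orderOf_eq_card (⟨(a' : G), hPC a'.2⟩ * x') ?_
        rw [hax.orderOf_mul_eq_mul_orderOf_of_coprime]
        · rw [hx', ← Subgroup.orderOf_coe, Subgroup.orderOf_coe a', ha', hC10]
        · rw [hx', ← Subgroup.orderOf_coe, Subgroup.orderOf_coe a', ha']; norm_num
      letI : Fintype C := Fintype.ofFinite _
      classical
      have hsq2 : Nat.card {g : C // g ^ 2 = 1} ≤ 2 := by
        rw [Nat.card_eq_fintype_card, Fintype.card_subtype]
        exact IsCyclic.card_pow_eq_one_le (α := C) two_pos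
      set x : G := (x' : G) with hxdef
      have hxC : x ∈ C := x'.2
      have hx2 : orderOf x = 2 := by rw [hxdef, Subgroup.orderOf_coe, hx']
      have hx1 : x ≠ 1 := fun h1 => by rw [h1, orderOf_one] at hx2; omega
      have huniq : ∀ g ∈ C, g ^ 2 = 1 → g = 1 ∨ g = x := by
        intro g hg hg2
        by_contra! hne'
        have hinj : Function.Injective (![⟨1, one_pow 2⟩, ⟨x', by rw [← hx']; exact pow_orderOf_eq_one x'⟩,
            ⟨⟨g, hg⟩, Subtype.ext (by simpa using hg2)⟩] : Fin 3 → {g : C // g ^ 2 = 1}) := by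
          intro a b hab
          have hv := congrArg (fun z : {g : C // g ^ 2 = 1} => ((z.1 : C) : G)) hab
          clear hab
          fin_cases a <;> fin_cases b <;> simp at hv ⊢
          all_goals first
            | exact hx1 hv
            | exact hx1 hv.symm
            | exact hne'.1 hv
            | exact hne'.1 hv.symm
            | exact hne'.2 hv
            | exact hne'.2 hv.symm
            | exact hx1 (by rw [hxdef, hv]; rfl)
        have := Nat.card_le_card_of_injective _ hinj
        rw [Nat.card_fin] at this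
        omega
      set H := centralizer ({x} : Set G) with hHdef
      have hH : H ≠ ⊤ := centralizer_singleton_ne_top hG hx1
      have hNH : N ≤ H := by
        intro n hn
        rw [hHdef, mem_centralizer_singleton_iff]
        have hmem := conj_mem_centralizer hxC hn
        have hx2' : (n⁻¹ * x * n) ^ 2 = 1 := by
          rw [show n⁻¹ * x * n = n⁻¹ * x * (n⁻¹)⁻¹ by rw [inv_inv], conj_pow, ← hx2, pow_orderOf_eq_one,
            mul_one, mul_inv_cancel]
        rcases huniq _ hmem hx2' with h' | h'
        · refine absurd ?_ hx1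
          calc x = n * (n⁻¹ * x * n) * n⁻¹ := by group
            _ = 1 := by rw [h']; group
        · calc n * x = n * (n⁻¹ * x * n) := by rw [h']
            _ = x * n := by group
      obtain ⟨hdvd, hpos, hsum⟩ := Lib.SmallSimple.moved_facts hsq hP (hPC.trans (hCN.trans hNH)) hH
        Nat.prime_two (by norm_num) hx2 hxC (fun n hn => hNH (hCN (conj_mem_centralizer hxC hn)))
      have hxH : x ∈ H := hNH (hCN hxC)
      have hbase : x • ((1 : G) : G ⧸ H) = ((1 : G) : G ⧸ H) := by
        show ((x * 1 : G) : G ⧸ H) = _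
        rw [QuotientGroup.eq]
        simpa using inv_mem hxH
      have hFpos : 0 < Nat.card {ω : G ⧸ H // x • ω = ω} := Nat.card_pos_iff.2 ⟨⟨⟨_, hbase⟩⟩, inferInstance⟩
      have hle := Nat.le_of_dvd hpos hdvd
      have hHmul := H.card_mul_index
      rw [h] at hHmul
      have hH40 : 40 ∣ Nat.card H := hN40 ▸ card_dvd_of_le hNH
      have hHN : H ≤ N := by
        -- every conjugate of `P` inside `H` is `P`
        intro k hk
        rw [hNdef, mem_normalizer_iff_map_conj_eq]
        have hP'c : Nat.card ↥((P : Subgroup G).map (MulAut.conj k).toMonoidHom) = 5 := by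
          rw [Nat.card_congr (equivMapOfInjective (P : Subgroup G) _ (MulEquiv.injective _)).toEquiv.symm, hP]
        refine Lib.SmallSimple.unique_of_card_lt hsq hP hP'c (hPC.trans hCN) le_rfl hNH ?_ ?_
        · rintro _ ⟨z, hz, rfl⟩
          exact mul_mem (mul_mem hk (hNH (hCN (hPC hz)))) (inv_mem hk)
        · obtain ⟨k', hk'⟩ := hH40
          rw [hk'] at hHmul ⊢
          rw [hN40]
          have h11 : 11 ≤ H.index := by omega
          have : k' ≤ 3 := by nlinarith
          rcases (show k' = 0 ∨ k' = 1 ∨ k' = 2 ∨ k' = 3 by omega) with rfl | rfl | rfl | rfl <;> omega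
      have hHN' : H = N := le_antisymm hHN hNH
      have hidx36 : H.index = 36 := by rw [hHN', hNi]
      -- the fixed cosets give involutions of `N`
      let J := {g : G // g ∈ N ∧ g ^ 2 = 1 ∧ g ≠ 1}
      have hFJ : Nat.card {ω : G ⧸ H // x • ω = ω} ≤ Nat.card J := by
        have hmem : ∀ ω : {ω : G ⧸ H // x • ω = ω}, ω.1.out * x * (ω.1.out)⁻¹ ∈ N := by
          intro ω
          have hω := ω.2
          rw [← QuotientGroup.out_eq' ω.1] at hω
          set g := ω.1.out
          have h1 : g⁻¹ * x * g ∈ H := by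
            have := QuotientGroup.eq.1 (hω.symm : (g : G ⧸ H) = ((x * g : G) : G ⧸ H))
            simpa [mul_assoc] using this
          rw [← hHN', hHdef, mem_centralizer_singleton_iff]
          have h2 := mem_centralizer_singleton_iff.1 h1
          calc g * x * g⁻¹ * x = g * (x * (g⁻¹ * x * g)) * g⁻¹ := by group
            _ = g * ((g⁻¹ * x * g) * x) * g⁻¹ := by rw [h2]
            _ = x * (g * x * g⁻¹) := by group
        refine Nat.card_le_card_of_injective (fun ω => (⟨_, hmem ω, ?_, ?_⟩ : J)) ?_
        · rw [conj_pow, ← hx2, pow_orderOf_eq_one, mul_one, mul_inv_cancel]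
        · simpa [conj_eq_one_iff] using hx1
        · intro ω ω' hab
          have h1 : ω.1.out * x * (ω.1.out)⁻¹ = ω'.1.out * x * (ω'.1.out)⁻¹ := congrArg Subtype.val hab
          refine Subtype.ext ?_
          rw [← QuotientGroup.out_eq' ω.1, ← QuotientGroup.out_eq' ω'.1, QuotientGroup.eq]
          show _ ∈ centralizer ({x} : Set G)
          rw [mem_centralizer_singleton_iff]
          generalize ω.1.out = g at h1 ⊢
          generalize ω'.1.out = g' at h1 ⊢
          calc g⁻¹ * g' * x = g⁻¹ * (g' * x * g'⁻¹) * g' := by group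
            _ = g⁻¹ * (g * x * g⁻¹) * g' := by rw [h1]
            _ = x * (g⁻¹ * g') := by group
      have hJ : Nat.card J ≤ 11 := by
        have hinv : ∀ g : J, (g : G) ∉ C → ∀ z ∈ (P : Subgroup G), (g : G) * z * (g : G)⁻¹ = z⁻¹ := by
          intro g hgC
          have hgen : zpowers (a' : G) = (P : Subgroup G) := eq_of_le_of_card_ge (zpowers_le.2 a'.2)
            (by rw [Nat.card_zpowers, Subgroup.orderOf_coe, ha', hP])
          have hga : (g : G) * a' * (g : G)⁻¹ ∈ zpowers (a' : G) :=
            by rw [hgen]; exact (mem_normalizer_iff.1 g.2.1 _).1 a'.2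
          obtain ⟨k, hk, hka⟩ : ∃ k : ℕ, k < 5 ∧ (a' : G) ^ k = (g : G) * a' * (g : G)⁻¹ := by
            obtain ⟨k, hk⟩ := mem_powers_iff_mem_zpowers.2 hga
            refine ⟨k % 5, Nat.mod_lt _ (by norm_num), ?_⟩
            have ho : orderOf (a' : G) = 5 := by rw [Subgroup.orderOf_coe, ha']
            have h5 := pow_mod_orderOf (a' : G) k
            rw [ho] at h5
            exact h5.trans hk
          have hkk : (a' : G) ^ (k * k) = a' := by
            have hg2 : (g : G) * g = 1 := by rw [← pow_two]; exact g.2.2.1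
            rw [pow_mul, hka, conj_pow, hka]
            calc (g : G) * (g * a' * (g : G)⁻¹) * (g : G)⁻¹ = (g * g) * a' * ((g : G) * g)⁻¹ := by group
              _ = a' := by rw [hg2]; group
          have hkk' : k * k % 5 = 1 := by
            have := (pow_eq_pow_iff_modEq (x := (a' : G)) (m := k * k) (n := 1)).1 (by rw [hkk, pow_one])
            rw [Subgroup.orderOf_coe, ha'] at this
            exact this.symm
          have hk4 : k = 1 ∨ k = 4 := by interval_cases k <;> omega
          rcases hk4 with rfl | rfl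
          · refine absurd ?_ hgC
            have hcz : (P : Subgroup G) ≤ centralizer {(g : G)} := by
              rw [← hgen, zpowers_le, mem_centralizer_singleton_iff]
              rw [pow_one] at hka
              calc (a' : G) * g = (g : G) * a' * (g : G)⁻¹ * g := by rw [← hka]
                _ = g * a' := by group
            rw [hCdef, mem_centralizer_iff]
            exact fun z hz => mem_centralizer_singleton_iff.1 (hcz hz)
          · intro z hz
            rw [← hgen] at hz
            obtain ⟨j, rfl⟩ := mem_zpowers_iff.1 hz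
            have h5 : (a' : G) ^ 4 = (a' : G)⁻¹ := by
              refine eq_inv_of_mul_eq_one_left ?_
              rw [← pow_succ, show (4 + 1 : ℕ) = orderOf (a' : G) by rw [Subgroup.orderOf_coe, ha']]
              exact pow_orderOf_eq_one _
            rw [← conj_zpow, ← hka, h5, inv_zpow]
        have hsplit : Nat.card J ≤ Nat.card {g : J // (g : G) ∈ C} + Nat.card {g : J // (g : G) ∉ C} := by
          rw [← Nat.card_sum, Nat.card_congr (Equiv.sumCompl fun g : J => (g : G) ∈ C)]
        have hin : Nat.card {g : J // (g : G) ∈ C} ≤ 1 := by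
          rw [Finite.card_le_one_iff_subsingleton]
          refine ⟨fun g g' => Subtype.ext (Subtype.ext ?_)⟩
          rw [(huniq _ g.2 g.1.2.2.1).resolve_left g.1.2.2.2, (huniq _ g'.2 g'.1.2.2.1).resolve_left g'.1.2.2.2]
        have hout : Nat.card {g : J // (g : G) ∉ C} ≤ 10 := by
          rcases isEmpty_or_nonempty {g : J // (g : G) ∉ C} with he | ⟨⟨g₀, hg₀⟩⟩
          · simp
          rw [← hC10]
          refine Nat.card_le_card_of_injective
            (fun g => (⟨(g₀ : G)⁻¹ * (g.1 : G), ?_⟩ : C)) (fun g g' hgg => ?_)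
          · show _ ∈ centralizer ((P : Subgroup G) : Set G)
            rw [mem_centralizer_iff]
            intro z hz
            have h1 := hinv g.1 g.2 z hz
            have h2 := hinv g₀ hg₀ z hz
            calc z * ((g₀ : G)⁻¹ * (g.1 : G)) = (g₀ : G)⁻¹ * ((g₀ : G) * z * (g₀ : G)⁻¹) * (g.1 : G) := by group
              _ = (g₀ : G)⁻¹ * ((g.1 : G) * z * (g.1 : G)⁻¹) * (g.1 : G) := by rw [h1, h2]
              _ = (g₀ : G)⁻¹ * (g.1 : G) * z := by group
          · exact Subtype.ext (Subtype.ext (mul_left_cancel (congrArg Subtype.val hgg)))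
        omega
      have h4 := four_dvd_moved hG H hx2 hpos
      obtain ⟨u, hu⟩ := h4
      obtain ⟨v, hv⟩ := hdvd
      omega
  · rw [hn] at hNmul
    have hN15 : Nat.card N = 15 := by omega
    rcases hi' with rfl | rfl <;> omega

end Cfsg.Agent.S1016
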