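import Mathlib
import Cfsg.Statements.S0976
import Cfsg.Agent.Lib.SmallSimple.PointFix
import Cfsg.Agent.Lib.SmallSimple.Order459648
import Cfsg.Agent.Lib.SmallSimple.DegreeSquare
import Cfsg.Agent.S1016

set_option autoImplicit false

open scoped commutatorElement Pointwise

namespace Cfsg.Agent.S0976

open Subgroup

variable {G : Type*} [Group G]

/-- A stable set on which a `p`-subgroup fixes no point has cardinality divisible by `p`. -/
lemma dvd_card_set {Ω : Type*} [MulAction G Ω] [Finite Ω] {p : ℕ} [Fact p.Prime] {Q : Subgroup G}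
    (hQ : IsPGroup p Q) (S : Ω → Prop) (hst : ∀ q ∈ Q, ∀ ω, S ω → S (q • ω))
    (hfix : ∀ ω, S ω → ∃ q ∈ Q, q • ω ≠ ω) : p ∣ Nat.card {ω : Ω // S ω} := by
  let M : SubMulAction Q Ω :=
    { carrier := {ω | S ω}
      smul_mem' := fun q ω hω => hst q q.2 ω hω }
  have hempty : IsEmpty (MulAction.fixedPoints Q M) := ⟨fun ω => by
    obtain ⟨q, hq, hne⟩ := hfix _ ω.1.2
    exact hne (congrArg Subtype.val (ω.2 ⟨q, hq⟩))⟩
  have h : Nat.card M ≡ 0 [MOD p] := by
    have := hQ.card_modEq_card_fixedPoints M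
    rwa [Nat.card_of_isEmpty (α := MulAction.fixedPoints Q M)] at this
  exact Nat.modEq_zero_iff_dvd.1 h

/-- A subgroup acting freely on a stable set divides its cardinality. -/
lemma card_dvd_of_free {Ω : Type*} [MulAction G Ω] [Finite Ω] (T : Subgroup G) (S : Ω → Prop)
    (hst : ∀ q ∈ T, ∀ ω, S ω → S (q • ω)) (hfree : ∀ q ∈ T, ∀ ω, S ω → q • ω = ω → q = 1) :
    Nat.card T ∣ Nat.card {ω : Ω // S ω} := by
  let M : SubMulAction T Ω :=
    { carrier := {ω | S ω}
      smul_mem' := fun q ω hω => hst q q.2 ω hω }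
  have hstab : ∀ b : M, MulAction.stabilizer T b = ⊥ := fun b => by
    rw [eq_bot_iff]
    intro q hq
    rw [mem_bot]
    exact Subtype.ext (hfree q q.2 _ b.2 (congrArg Subtype.val (MulAction.mem_stabilizer_iff.1 hq)))
  have e := Nat.card_congr (MulAction.selfEquivOrbitsQuotientProd hstab)
  rw [Nat.card_prod] at e
  exact ⟨_, (show Nat.card {ω : Ω // S ω} = Nat.card M from rfl).trans (e.trans (mul_comm _ _))⟩

lemma commute_of_conj_inv [Finite G] {n c : G} (hn : Odd (orderOf n)) (h : n * c * n⁻¹ = c⁻¹) :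
    Commute n c := by
  have h2 : Commute (n ^ 2) c := by
    refine mul_inv_eq_iff_eq_mul.1 ?_
    calc n ^ 2 * c * (n ^ 2)⁻¹ = n * (n * c * n⁻¹) * n⁻¹ := by rw [pow_two]; group
      _ = n * c⁻¹ * n⁻¹ := by rw [h]
      _ = (n * c * n⁻¹)⁻¹ := by group
      _ = c := by rw [h, inv_inv]
  obtain ⟨j, hj⟩ := hn
  have : (n ^ 2) ^ (j + 1) = n := by
    rw [← pow_mul, show 2 * (j + 1) = orderOf n + 1 by omega, pow_succ, pow_orderOf_eq_one, one_mul]
  rw [← this]
  exact h2.pow_left _

variable [Finite G] [IsSimpleGroup G]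

lemma case36 (hG : ¬ IsMulCommutative G) [Fact (Nat.Prime 7)] {P : Subgroup G}
    (hsq : ¬ 7 ^ 2 ∣ Nat.card G) (hP : Nat.card P = 7)
    (hC : Nat.card (centralizer (P : Set G)) = 56)
    (hidx : (normalizer (P : Set G)).index = 36) : False := by
  haveI : Fact (Nat.Prime 2) := ⟨Nat.prime_two⟩
  set N := normalizer (P : Set G) with hNdef
  set C := centralizer (P : Set G) with hCdef
  have hCN : C ≤ N := centralizer_le_normalizer _
  have hNtop : N ≠ ⊤ := fun h => by rw [h, index_top] at hidx; omega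
  obtain ⟨T, hT⟩ := Sylow.exists_subgroup_card_pow_prime (G := C) 2 (n := 3) (by rw [hC]; norm_num)
  set T' : Subgroup G := T.map C.subtype with hT'def
  have hT'C : T' ≤ C := map_subtype_le T
  have hT' : Nat.card T' = 8 := by
    rw [Nat.card_congr (equivMapOfInjective T _ C.subtype_injective).toEquiv.symm, hT]; norm_num
  have hT2 : IsPGroup 2 T' := IsPGroup.of_card (n := 3) (by rw [hT']; norm_num)
  haveI : Nontrivial T' := Finite.one_lt_card_iff_nontrivial.1 (by rw [hT']; norm_num)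
  obtain ⟨x', hx'⟩ : ∃ x : center T', orderOf x = 2 := by
    refine exists_prime_orderOf_dvd_card' 2 ?_
    haveI := hT2.center_nontrivial
    rcases (hT2.to_subgroup (center T')).card_eq_or_dvd with h | h
    · have := Finite.one_lt_card (α := center T'); omega
    · exact h
  set x : G := ((x' : T') : G) with hxdef
  have hxT : x ∈ T' := (x' : T').2
  have hx2 : orderOf x = 2 := by rw [hxdef, Subgroup.orderOf_coe, Subgroup.orderOf_coe, hx']
  have hxc : ∀ q ∈ T', Commute q x := fun q hq =>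
    congrArg Subtype.val (mem_center_iff.1 x'.2 ⟨q, hq⟩)
  haveI : IsCyclic P := isCyclic_of_prime_card hP
  obtain ⟨a', ha'⟩ := exists_prime_orderOf_dvd_card' (G := P) 7 (by rw [hP])
  set a : G := (a' : G) with hadef
  have haP : a ∈ P := a'.2
  have hgen : zpowers a = P := eq_of_le_of_card_ge (zpowers_le.2 haP)
    (by rw [Nat.card_zpowers, hadef, Subgroup.orderOf_coe, ha', hP])
  have hafix : ∀ ω : G ⧸ N, a • ω = ω → ω = ((1 : G) : G ⧸ N) := by
    intro ω hω
    induction ω using QuotientGroup.induction_on with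
    | _ g =>
      have h1 : g⁻¹ * a * g ∈ N := by
        have h := QuotientGroup.eq.1 (hω.symm : (g : G ⧸ N) = ((a * g : G) : G ⧸ N))
        simpa [mul_assoc] using h
      obtain ⟨n, hn, hgn⟩ := Lib.SmallSimple.exists_normalizer_mul hsq hP le_normalizer (g := g)
        fun z hz => by
          rw [← hgen] at hz
          obtain ⟨k, rfl⟩ := mem_zpowers_iff.1 hz
          have := zpow_mem h1 k
          rwa [show g⁻¹ * a * g = g⁻¹ * a * (g⁻¹)⁻¹ by rw [inv_inv], conj_zpow, inv_inv] at this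
      refine QuotientGroup.eq.2 ?_
      rw [mul_one]
      have := mul_mem hgn (inv_mem hn)
      simpa [mul_assoc] using this
  have hbase : ∀ q ∈ T', q • ((1 : G) : G ⧸ N) = ((1 : G) : G ⧸ N) := fun q hq => by
    show ((q * 1 : G) : G ⧸ N) = _
    rw [QuotientGroup.eq]
    simpa using inv_mem (hCN (hT'C hq))
  have hcount : ∀ y ∈ T', orderOf y = 2 →
      Nat.card {ω : G ⧸ N // y • ω ≠ ω} = 28 ∧ Nat.card {ω : G ⧸ N // y • ω = ω} = 8 := by
    intro y hy hy2
    obtain ⟨hd, hpos, hsum⟩ := Lib.SmallSimple.moved_facts (H := N) hsq hP le_normalizer hNtop Nat.prime_two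
      (by norm_num) hy2 (hT'C hy)
      (fun n hn => mul_mem (mul_mem (inv_mem hn) (hCN (hT'C hy))) hn)
    have h4 := S1016.four_dvd_moved hG N hy2 hpos
    change _ + _ = N.index at hsum
    rw [hidx] at hsum
    have hF : 0 < Nat.card {ω : G ⧸ N // y • ω = ω} :=
      Nat.card_pos_iff.2 ⟨⟨⟨_, hbase y hy⟩⟩, inferInstance⟩
    omega
  have hFx := (hcount x hxT hx2).2
  have hfixx : ∀ q ∈ T', ∀ ω : G ⧸ N, x • ω = ω → q • ω = ω := by
    intro q hq
    by_contra! hne
    let S : G ⧸ N → Prop := fun ω => x • ω = ω ∧ q • ω ≠ ω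
    have hacq : Commute a q := mem_centralizer_iff.1 (hT'C hq) a haP
    have hacx : Commute a x := mem_centralizer_iff.1 (hT'C hxT) a haP
    have hstab : ∀ b : G, Commute b q → Commute b x → ∀ b' ∈ zpowers b, ∀ ω, S ω → S (b' • ω) := by
      intro b hbq hbx b' hb' ω ⟨h1, h2⟩
      obtain ⟨k, rfl⟩ := mem_zpowers_iff.1 hb'
      refine ⟨?_, fun h => h2 ?_⟩
      · rw [← mul_smul, ← (hbx.zpow_left k).eq, mul_smul, h1]
      · rw [← mul_smul, ← (hbq.zpow_left k).eq, mul_smul] at h
        exact smul_left_cancel _ h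
    have h7 : 7 ∣ Nat.card {ω : G ⧸ N // S ω} := by
      refine dvd_card_set (Q := zpowers a)
        (IsPGroup.of_card (n := 1) (by rw [hgen, hP, pow_one])) S (hstab a hacq hacx) ?_
      intro ω hω
      refine ⟨a, mem_zpowers a, fun h => hω.2 ?_⟩
      rw [hafix ω h]; exact hbase q hq
    have h2 : 2 ∣ Nat.card {ω : G ⧸ N // S ω} :=
      dvd_card_set (Q := zpowers q) (hT2.to_le (zpowers_le.2 hq)) S
        (hstab q (Commute.refl q) (hxc q hq)) fun ω hω => ⟨q, mem_zpowers q, hω.2⟩
    obtain ⟨ω₀, hω₀⟩ := hne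
    have hpos : 0 < Nat.card {ω : G ⧸ N // S ω} := Nat.card_pos_iff.2 ⟨⟨⟨ω₀, hω₀⟩⟩, inferInstance⟩
    have hlt : Nat.card {ω : G ⧸ N // S ω} < Nat.card {ω : G ⧸ N // x • ω = ω} := by
      refine lt_of_le_of_ne (Nat.card_le_card_of_injective (fun ω => ⟨ω.1, ω.2.1⟩)
        (fun u v h => Subtype.ext (congrArg Subtype.val h : _))) fun he => ?_
      obtain ⟨⟨ω, hω⟩, he'⟩ := (Function.Injective.bijective_of_nat_card_le
        (f := fun ω : {ω : G ⧸ N // S ω} => (⟨ω.1, ω.2.1⟩ : {ω : G ⧸ N // x • ω = ω}))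
        (fun u v h => Subtype.ext (congrArg Subtype.val h : _)) he.ge).2 ⟨_, hbase x hxT⟩
      have he'' : ω = ((1 : G) : G ⧸ N) := congrArg Subtype.val he'
      exact hω.2 (by rw [he'']; exact hbase q hq)
    omega
  have h8 : Nat.card T' ∣ Nat.card {ω : G ⧸ N // x • ω ≠ ω} := by
    refine card_dvd_of_free T' (fun ω => x • ω ≠ ω) (fun q hq ω hω h => hω ?_) fun q hq ω hω hqω => ?_
    · rw [← mul_smul, ← (hxc q hq).eq, mul_smul] at h
      exact smul_left_cancel _ h
    · by_contra hq1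
      obtain ⟨k, hk⟩ : ∃ k, orderOf (q ^ k) = 2 :=
        ⟨_, orderOf_pow_orderOf_div (orderOf_pos q).ne' (by
          have h8 := T'.orderOf_dvd_natCard hq
          rw [hT'] at h8
          obtain ⟨j, -, hj⟩ := (Nat.dvd_prime_pow Nat.prime_two).1 (show orderOf q ∣ 2 ^ 3 from h8)
          rcases j with _ | j
          · exact absurd (orderOf_eq_one_iff.1 (by simpa using hj)) hq1
          · rw [hj]; exact dvd_pow_self 2 (by omega))⟩
      have hy : q ^ k ∈ T' := pow_mem hq k
      have hsurj := (Function.Injective.bijective_of_nat_card_le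
        (f := fun ω : {ω : G ⧸ N // x • ω = ω} =>
          (⟨ω.1, hfixx _ hy ω.1 ω.2⟩ : {ω : G ⧸ N // q ^ k • ω = ω}))
        (fun u v h => Subtype.ext (congrArg Subtype.val h : _)) (by rw [hFx, (hcount _ hy hk).2])).2
      have hyω : q ^ k • ω = ω :=
        MulAction.mem_stabilizer_iff.1 (pow_mem (MulAction.mem_stabilizer_iff.2 hqω) k)
      obtain ⟨⟨ω', hω'⟩, he⟩ := hsurj ⟨ω, hyω⟩
      have he' : ω' = ω := congrArg Subtype.val he
      exact hω (he' ▸ hω')
  rw [hT', (hcount x hxT hx2).1] at h8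
  norm_num at h8

lemma case64 (hG : ¬ IsMulCommutative G) [Fact (Nat.Prime 7)] {P : Subgroup G}
    (hsq : ¬ 7 ^ 2 ∣ Nat.card G) (h : Nat.card G = 4032) (hP : Nat.card P = 7)
    (hN : Nat.card (normalizer (P : Set G)) = 63)
    (hC : Nat.card (centralizer (P : Set G)) = 21) : False := by
  haveI : Fact (Nat.Prime 2) := ⟨Nat.prime_two⟩
  haveI : Fact (Nat.Prime 3) := ⟨Nat.prime_three⟩
  set N := normalizer (P : Set G) with hNdef
  set C := centralizer (P : Set G) with hCdef
  have hCN : C ≤ N := centralizer_le_normalizer _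
  haveI : IsCyclic P := isCyclic_of_prime_card hP
  have hPC : P ≤ C := le_centralizer P
  obtain ⟨c', hc'⟩ := exists_prime_orderOf_dvd_card' (G := C) 3 (by rw [hC]; norm_num)
  set c : G := (c' : G) with hcdef
  have hc : orderOf c = 3 := by rw [hcdef, Subgroup.orderOf_coe, hc']
  have hcC : c ∈ C := c'.2
  have hc1 : c ≠ 1 := fun e => by rw [e, orderOf_one] at hc; omega
  set H := centralizer ({c} : Set G) with hHdef
  have hCH : C ≤ H := by
    have h1 : C = P ⊔ zpowers c := by
      refine (eq_of_le_of_card_ge (sup_le hPC (zpowers_le.2 hcC)) ?_).symm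
      refine Nat.le_of_dvd Nat.card_pos ?_
      rw [hC, show (21 : ℕ) = 7 * 3 from rfl]
      exact Nat.Coprime.mul_dvd_of_dvd_of_dvd (by norm_num) (hP ▸ card_dvd_of_le le_sup_left)
        (hc ▸ Nat.card_zpowers c ▸ card_dvd_of_le le_sup_right)
    rw [h1]
    refine sup_le (fun z hz => mem_centralizer_singleton_iff.2 ?_) (zpowers_le.2 ?_)
    · exact mem_centralizer_iff.1 hcC z hz
    · exact mem_centralizer_singleton_iff.2 rfl
  have hodd : ∀ n ∈ N, Odd (orderOf n) := fun n hn => by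
    have := N.orderOf_dvd_natCard hn
    rw [hN] at this
    exact Odd.of_dvd_nat (by decide) this
  -- `c` is central in `N`
  have hNH : N ≤ H := by
    intro n hn
    rw [hHdef, mem_centralizer_singleton_iff]
    have hmem : n * c * n⁻¹ ∈ C := by
      have := S1016.conj_mem_centralizer hcC (inv_mem hn)
      rwa [inv_inv] at this
    have ho : orderOf (n * c * n⁻¹) = 3 := hc ▸ (MulAut.conj n).orderOf_eq c
    have hK : IsPGroup 3 ↥(zpowers (n * c * n⁻¹) ⊔ zpowers c) := by
      refine IsPGroup.to_sup_of_normal_right' (IsPGroup.of_card (n := 1) (by rw [Nat.card_zpowers, ho, pow_one]))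
        (IsPGroup.of_card (n := 1) (by rw [Nat.card_zpowers, hc, pow_one])) ?_
      rw [zpowers_le]
      have hcc : Commute (n * c * n⁻¹) c := mem_centralizer_singleton_iff.1 (hCH hmem)
      refine centralizer_le_normalizer _ ?_
      rw [mem_centralizer_iff]
      intro z hz
      obtain ⟨k, rfl⟩ := mem_zpowers_iff.1 hz
      exact ((hcc.zpow_right k).symm).eq
    obtain ⟨j, hj⟩ := IsPGroup.iff_card.1 hK
    have hd := card_dvd_of_le (sup_le (zpowers_le.2 hmem) (zpowers_le.2 hcC))
    rw [hC, hj] at hd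
    have hj1 : j ≤ 1 := by
      by_contra hj1
      have := (pow_dvd_pow 3 (by omega : 2 ≤ j)).trans hd
      norm_num at this
    have heq : zpowers c = zpowers (n * c * n⁻¹) ⊔ zpowers c := eq_of_le_of_card_ge le_sup_right (by
      rw [hj, Nat.card_zpowers, hc]
      exact (Nat.pow_le_pow_right (by norm_num) hj1).trans_eq (pow_one 3))
    have h2 : n * c * n⁻¹ ∈ zpowers c := heq ▸ mem_sup_left (mem_zpowers _)
    obtain ⟨k, hk⟩ := mem_powers_iff_mem_zpowers.2 h2
    have h3 : c ^ (k % 3) = n * c * n⁻¹ := by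
      conv_lhs => rw [← hc, pow_mod_orderOf]
      exact hk
    have hk3 : k % 3 = 0 ∨ k % 3 = 1 ∨ k % 3 = 2 := by omega
    rcases hk3 with hk' | hk' | hk' <;> rw [hk'] at h3
    · rw [pow_zero] at h3
      exact absurd (conj_eq_one_iff.1 h3.symm) hc1
    · rw [pow_one] at h3
      exact mul_inv_eq_iff_eq_mul.1 h3.symm
    · refine (commute_of_conj_inv (hodd n hn) (h3.symm.trans (eq_inv_of_mul_eq_one_left ?_))).eq
      rw [← pow_succ, show 2 + 1 = orderOf c by rw [hc], pow_orderOf_eq_one]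
  have hHtop : H ≠ ⊤ := S1016.centralizer_singleton_ne_top hG hc1
  have hPN : P ≤ N := le_normalizer
  have hHN : H = N := by
    obtain ⟨hd, hpos, hsum⟩ := Lib.SmallSimple.moved_facts hsq hP (hPN.trans hNH) hHtop Nat.prime_three
      (by norm_num) hc hcC (fun n hn => by
        rw [mul_assoc, ← mem_centralizer_singleton_iff.1 (hNH hn), inv_mul_cancel_left]
        exact mem_centralizer_singleton_iff.2 rfl)
    have hFpos : 0 < Nat.card {ω : G ⧸ H // c • ω = ω} := by
      refine Nat.card_pos_iff.2 ⟨⟨⟨((1 : G) : G ⧸ H), ?_⟩⟩, inferInstance⟩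
      show ((c * 1 : G) : G ⧸ H) = _
      rw [QuotientGroup.eq]
      simpa using inv_mem (hCH hcC)
    have hle := Nat.le_of_dvd hpos hd
    have hmul := H.card_mul_index
    rw [h] at hmul
    obtain ⟨k, hk⟩ : 63 ∣ Nat.card H := hN ▸ card_dvd_of_le hNH
    refine le_antisymm (fun g hg => ?_) hNH
    rw [hNdef, mem_normalizer_iff_map_conj_eq]
    have hP'c : Nat.card ↥(P.map (MulAut.conj g).toMonoidHom) = 7 := by
      rw [Nat.card_congr (equivMapOfInjective P _ (MulEquiv.injective _)).toEquiv.symm, hP]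
    refine Lib.SmallSimple.unique_of_card_lt hsq hP hP'c hPN le_rfl hNH ?_ ?_
    · rintro _ ⟨z, hz, rfl⟩
      exact mul_mem (mul_mem hg (hNH (hPN hz))) (inv_mem hg)
    · rw [hN]
      rw [hk] at hmul ⊢
      have : k ≤ 2 := by nlinarith
      omega
  have hreal : ∀ g : G, g * c * g⁻¹ ≠ c⁻¹ := by
    intro g hg
    have hgN : g ∈ N := by
      rw [hNdef, mem_normalizer_iff_map_conj_eq]
      have hP'c : Nat.card ↥(P.map (MulAut.conj g).toMonoidHom) = 7 := by
        rw [Nat.card_congr (equivMapOfInjective P _ (MulEquiv.injective _)).toEquiv.symm, hP]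
      refine Lib.SmallSimple.unique_of_card_lt hsq hP hP'c hPN le_rfl le_rfl ?_ (by rw [hN]; norm_num)
      rintro _ ⟨z, hz, rfl⟩
      rw [← hHN, hHdef, mem_centralizer_singleton_iff]
      have h1 : Commute z c := mem_centralizer_singleton_iff.1 (hNH (hPN hz))
      have h2 : Commute (g * z * g⁻¹) (g * c * g⁻¹) := h1.map (MulAut.conj g).toMonoidHom
      rw [hg] at h2
      exact (Commute.inv_right_iff.1 h2).eq
    rw [mul_inv_eq_iff_eq_mul.2 (mem_centralizer_singleton_iff.1 (hNH hgN)), eq_inv_iff_mul_eq_one,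
      ← pow_two] at hg
    have := orderOf_dvd_of_pow_eq_one hg
    rw [hc] at this
    norm_num at this
  -- a Sylow 3-subgroup through `c`
  obtain ⟨K, hK, hcK⟩ := Sylow.exists_subgroup_card_pow_succ (G := N) (p := 3) (n := 1)
    (H := (zpowers c).subgroupOf N) (by rw [hN]; norm_num)
    (by rw [Nat.card_congr (subgroupOfEquivOfLe (zpowers_le.2 (hCN hcC))).toEquiv, Nat.card_zpowers, hc,
      pow_one])
  set Q₀ : Subgroup G := K.map N.subtype with hQ₀def
  have hQN : Q₀ ≤ N := map_subtype_le K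
  have hQ : Nat.card Q₀ = 9 := by
    rw [Nat.card_congr (equivMapOfInjective K _ N.subtype_injective).toEquiv.symm, hK]; norm_num
  have hcQ : c ∈ Q₀ := ⟨⟨c, hCN hcC⟩, hcK (mem_subgroupOf.2 (mem_zpowers c)), rfl⟩
  have hQab : IsMulCommutative Q₀ :=
    IsPGroup.isMulCommutative_of_card_eq_prime_sq (p := 3) (by rw [hQ]; norm_num)
  have hcomm : ∀ u ∈ Q₀, ∀ v ∈ Q₀, u * v = v * u := fun u hu v hv =>
    congrArg Subtype.val (hQab.is_comm.comm (⟨u, hu⟩ : Q₀) ⟨v, hv⟩)
  have hfac : Nat.card Q₀ = 3 ^ (Nat.card G).factorization 3 := by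
    rw [hQ, h, show (4032 : ℕ) = 3 ^ 2 * 448 from rfl, Nat.factorization_mul (by norm_num) (by norm_num),
      Finsupp.add_apply, Nat.prime_three.factorization_pow, Finsupp.single_eq_same,
      Nat.factorization_eq_zero_of_not_dvd (by norm_num), add_zero]
    norm_num
  let S₃ : Sylow 3 G := Sylow.ofCard Q₀ hfac
  have hS₃ : (S₃ : Subgroup G) = Q₀ := Sylow.coe_ofCard _ _
  set A := normalizer (Q₀ : Set G) with hAdef
  have hQA : Q₀ ≤ A := le_normalizer
  have hAN : A ⊓ N = Q₀ := by
    refine (eq_of_le_of_card_ge (le_inf hQA hQN) ?_).symm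
    by_contra hlt
    obtain ⟨u, hu⟩ : 9 ∣ Nat.card ↥(A ⊓ N) := hQ ▸ card_dvd_of_le (le_inf hQA hQN)
    have hd := card_dvd_of_le (inf_le_right : A ⊓ N ≤ N)
    rw [hN, hu] at hd
    rw [hQ, hu] at hlt
    have hu7 : u ∣ 7 := Nat.dvd_of_mul_dvd_mul_left (by norm_num : 0 < 9) (by simpa using hd)
    rcases (Nat.dvd_prime (by norm_num)).1 hu7 with rfl | rfl
    · omega
    have hNA : N ≤ A := (eq_of_le_of_card_ge inf_le_right (by rw [hN, hu])).ge.trans inf_le_left
    have hQC : Q₀ ≤ C := by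
      intro q hq
      rw [hCdef, mem_centralizer_iff]
      intro z hz
      replace hz : z ∈ P := hz
      have hbot : Q₀ ⊓ P = ⊥ := inf_eq_bot_of_coprime (by rw [hQ, hP]; norm_num)
      have hm : z * q * z⁻¹ * q⁻¹ ∈ Q₀ ⊓ P := by
        refine ⟨Q₀.mul_mem ((mem_normalizer_iff.1 (hNA (hPN hz)) q).1 hq) (Q₀.inv_mem hq), ?_⟩
        rw [show z * q * z⁻¹ * q⁻¹ = z * (q * z⁻¹ * q⁻¹) by group]
        exact P.mul_mem hz ((mem_normalizer_iff.1 (hQN hq) _).1 (P.inv_mem hz))
      rw [hbot, mem_bot, mul_inv_eq_one] at hm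
      exact mul_inv_eq_iff_eq_mul.1 hm
    have := card_dvd_of_le hQC
    rw [hQ, hC] at this
    norm_num at this
  have hAc : ∀ a ∈ A, a * c = c * a → a ∈ Q₀ := fun a ha hac => by
    rw [← hAN]
    exact ⟨ha, hHN ▸ mem_centralizer_singleton_iff.2 hac⟩
  let f : Option (Bool × (A ⧸ Q₀.subgroupOf A)) → Q₀ := fun o => match o with
    | none => 1
    | some (e, ω) => ⟨(ω.out : G) * (bif e then c else c⁻¹) * (ω.out : G)⁻¹,
        (mem_normalizer_iff.1 ω.out.2 _).1 (by cases e <;> simp [hcQ])⟩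
  have hf : Function.Injective f := by
    have hne : ∀ (g : G) (e : Bool), g * (bif e then c else c⁻¹) * g⁻¹ ≠ 1 := fun g e he => by
      have := conj_eq_one_iff.1 he
      cases e <;> simp_all
    rintro (_ | ⟨e, ω⟩) (_ | ⟨e', ω'⟩) heq
    · rfl
    · exact absurd (congrArg Subtype.val heq).symm (hne _ _)
    · exact absurd (congrArg Subtype.val heq) (hne _ _)
    · have heq' : (ω.out : G) * (bif e then c else c⁻¹) * (ω.out : G)⁻¹ =
          (ω'.out : G) * (bif e' then c else c⁻¹) * (ω'.out : G)⁻¹ := congrArg Subtype.val heq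
      set g : G := (ω'.out : G)⁻¹ * ω.out with hgdef
      have hg : g * (bif e then c else c⁻¹) * g⁻¹ = bif e' then c else c⁻¹ := by
        calc g * (bif e then c else c⁻¹) * g⁻¹
            = (ω'.out : G)⁻¹ * ((ω.out : G) * (bif e then c else c⁻¹) * (ω.out : G)⁻¹) * ω'.out := by
              rw [hgdef]; group
          _ = _ := by rw [heq']; group
      have hgA : g ∈ A := mul_mem (inv_mem ω'.out.2) ω.out.2
      have hω : g * c * g⁻¹ = c → ω = ω' := fun hgc => by
        rw [← QuotientGroup.out_eq' ω, ← QuotientGroup.out_eq' ω']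
        refine (QuotientGroup.eq.2 ?_).symm
        exact mem_subgroupOf.2 (hAc g hgA (mul_inv_eq_iff_eq_mul.1 hgc))
      cases e <;> cases e' <;> simp only [cond_true, cond_false] at hg
      · rw [← conj_inv, inv_inj] at hg; rw [hω hg]
      · exact absurd (by rw [← conj_inv, inv_eq_iff_eq_inv] at hg; exact hg) (hreal g)
      · exact absurd hg (hreal g)
      · rw [hω hg]
  have hfc := Nat.card_le_card_of_injective f hf
  rw [Finite.card_option, Nat.card_prod, show Nat.card Bool = 2 by simp, hQ] at hfc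
  set m := Nat.card (A ⧸ Q₀.subgroupOf A) with hmdef
  have hAm : Nat.card A = m * 9 := by
    rw [Subgroup.card_eq_card_quotient_mul_card_subgroup (Q₀.subgroupOf A),
      Nat.card_congr (subgroupOfEquivOfLe hQA).toEquiv, hQ]
  have hAidx := A.card_mul_index
  rw [hAm, h] at hAidx
  obtain ⟨h31, h33, -⟩ := Lib.SmallSimple.card_sylow_facts (p := 3) hG (by rw [h]; norm_num)
  rw [Lib.SmallSimple.card_sylow_eq_index S₃, hS₃, ← hAdef] at h31 h33
  have hm1 : m ≠ 1 := by
    intro hm1
    refine Lib.SmallSimple.not_normalizer_le_centralizer hG S₃ (by rw [h]; norm_num) ?_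
    rw [hS₃, ← hAdef]
    have : A = Q₀ := (eq_of_le_of_card_ge hQA (by rw [hAm, hm1, hQ])).symm
    rw [this]
    exact fun u hu => mem_centralizer_iff.2 fun v hv => hcomm v hv u hu
  have hm0 : 0 < m := Nat.card_pos
  have hm4 : m = 4 := by
    rcases (show m = 2 ∨ m = 3 ∨ m = 4 by omega) with hm | hm | hm <;> rw [hm] at hAidx <;> omega
  have hbij : Function.Bijective f := hf.bijective_of_nat_card_le (by
    rw [Finite.card_option, Nat.card_prod, hQ, ← hmdef, hm4]; simp)
  obtain ⟨σ', hσ'⟩ := exists_prime_orderOf_dvd_card' (G := A) 2 (by rw [hAm, hm4]; norm_num)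
  set σ : G := (σ' : G) with hσdef
  have hσ : orderOf σ = 2 := by rw [hσdef, Subgroup.orderOf_coe, hσ']
  have hσ2 : σ * σ = 1 := by rw [← pow_two, ← hσ, pow_orderOf_eq_one]
  have hdQ : σ * c * σ⁻¹ ∈ Q₀ := (mem_normalizer_iff.1 σ'.2 c).1 hcQ
  set v := c * (σ * c * σ⁻¹) with hvdef
  have hσv : σ * v * σ⁻¹ = v := by
    calc σ * v * σ⁻¹ = (σ * c * σ⁻¹) * ((σ * σ) * c * (σ * σ)⁻¹) := by rw [hvdef]; group
      _ = v := by rw [hσ2, hvdef, inv_one, one_mul, mul_one, hcomm _ hdQ _ hcQ]
  obtain ⟨o, ho⟩ := hbij.2 ⟨v, mul_mem hcQ hdQ⟩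
  rcases o with _ | ⟨e, ω⟩
  · exact hreal σ (eq_inv_of_mul_eq_one_right (congrArg Subtype.val ho).symm)
  · have ho' : (ω.out : G) * (bif e then c else c⁻¹) * (ω.out : G)⁻¹ = v := congrArg Subtype.val ho
    set g : G := (ω.out : G)⁻¹ * σ * ω.out with hgdef
    have hgb : g * (bif e then c else c⁻¹) = (bif e then c else c⁻¹) * g := by
      refine mul_inv_eq_iff_eq_mul.1 ?_
      calc g * (bif e then c else c⁻¹) * g⁻¹ = (ω.out : G)⁻¹ * (σ * v * σ⁻¹) * ω.out := by
            rw [← ho', hgdef]; group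
        _ = (bif e then c else c⁻¹) := by rw [hσv, ← ho']; group
    have hgc : g * c = c * g := by
      cases e
      · exact (Commute.inv_right_iff.1 hgb).eq
      · exact hgb
    have hgN : g ∈ N := hHN ▸ mem_centralizer_singleton_iff.2 hgc
    have hgo : orderOf g = 2 := by
      have := (MulAut.conj (ω.out : G)⁻¹).orderOf_eq σ
      simpa [hgdef, hσ] using this
    have := N.orderOf_dvd_natCard hgN
    rw [hgo, hN] at this
    norm_num at this


/-- No finite simple group has order 4032 = 2^6 * 3^2 * 7. -/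
theorem result {G : Type*} [Group G] [Finite G] [IsSimpleGroup G] : Nat.card G ≠ 4032 := by
  intro h
  haveI := Fintype.ofFinite G
  have hG := Lib.SmallSimple.not_isMulCommutative_of_card (G := G) (by rw [h]; norm_num)
  haveI : Fact (Nat.Prime 7) := ⟨by norm_num⟩
  obtain ⟨P⟩ : Nonempty (Sylow 7 G) := inferInstance
  obtain ⟨h1, h2, -⟩ := Lib.SmallSimple.card_sylow_facts (p := 7) hG (by rw [h]; norm_num)
  have hP : Nat.card (P : Subgroup G) = 7 := by
    simpa using Lib.SmallSimple.card_sylow_subgroup P (k := 1) (m := 576) (by rw [h]; norm_num) (by norm_num)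
  have hsq : ¬ 7 ^ 2 ∣ Nat.card G := by rw [h]; norm_num
  have hidx : (P : Subgroup G).index = 576 := by
    have := (P : Subgroup G).card_mul_index; rw [hP, h] at this; omega
  have hd : Nat.card (Sylow 7 G) ∣ 576 := hidx ▸ P.card_dvd_index
  set N := normalizer ((P : Subgroup G) : Set G) with hNdef
  set C := centralizer ((P : Subgroup G) : Set G) with hCdef
  have hNi : N.index = Nat.card (Sylow 7 G) := P.card_eq_index_normalizer.symm
  have hNmul := N.card_mul_index
  rw [h, hNi] at hNmul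
  obtain ⟨i, hi6, hNC⟩ := Lib.SmallSimple.exists_normalizer_index (P : Subgroup G) hP
  have hnle := Lib.SmallSimple.not_normalizer_le_centralizer hG P (by rw [h]; norm_num)
  change Nat.card N = Nat.card C * i at hNC
  have hCN : C ≤ N := centralizer_le_normalizer _
  have hi1 : i ≠ 1 := by
    rintro rfl
    refine hnle fun g hg => ?_
    rw [mul_one] at hNC
    exact (eq_of_le_of_card_ge hCN hNC.le).ge hg
  haveI : IsCyclic (P : Subgroup G) := isCyclic_of_prime_card hP
  have hPC : (P : Subgroup G) ≤ C := le_centralizer _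
  have hcases : Nat.card (Sylow 7 G) ∈ ({1, 8, 36, 64, 288} : Finset ℕ) := by
    rw [show ({1, 8, 36, 64, 288} : Finset ℕ) = (Nat.divisors 576).filter (· % 7 = 1) by decide]
    exact Finset.mem_filter.2 ⟨Nat.mem_divisors.2 ⟨hd, by norm_num⟩, by omega⟩
  simp only [Finset.mem_insert, Finset.mem_singleton] at hcases
  have hi' : i = 2 ∨ i = 3 ∨ i = 6 := by
    have := Nat.le_of_dvd (by norm_num) hi6
    interval_cases i <;> omega
  rcases hcases with hn | hn | hn | hn | hn
  · omega
  · rw [hn] at hNmul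
    haveI : Fact (Nat.Prime 3) := ⟨Nat.prime_three⟩
    obtain ⟨c, hc⟩ := exists_prime_orderOf_dvd_card' (G := C) 3 (by
      rcases hi' with rfl | rfl | rfl <;> omega)
    rw [← Subgroup.orderOf_coe] at hc
    obtain ⟨hdvd, hpos, hsum⟩ := Lib.SmallSimple.moved_facts hsq hP le_normalizer
      (fun hN => by change N = ⊤ at hN; rw [hN, index_top] at hNi; omega) Nat.prime_three (by norm_num)
      hc c.2 (fun n hn => mul_mem (mul_mem (inv_mem hn) (hCN c.2)) hn)
    have := Nat.le_of_dvd hpos hdvd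
    change _ + _ = N.index at hsum
    omega
  · rw [hn] at hNmul
    refine case36 hG hsq hP ?_ (hNi.trans hn)
    show Nat.card C = 56
    rcases hi' with rfl | rfl | rfl <;> omega
  · rw [hn] at hNmul
    refine case64 hG hsq h hP (show Nat.card N = 63 by omega) ?_
    show Nat.card C = 21
    rcases hi' with rfl | rfl | rfl <;> omega
  · rw [hn] at hNmul
    have hN14 : Nat.card N = 14 := by omega
    have hC7 : Nat.card C = 7 := by rcases hi' with rfl | rfl | rfl <;> omega
    have hC : C = (P : Subgroup G) := (eq_of_le_of_card_ge hPC (by rw [hC7, hP])).symm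
    obtain ⟨f, D, w, hf, hD, hf1, hsum, hfD, hw⟩ := Lib.SmallSimple.DegreeSquare.exists_square
      (Lib.SmallSimple.commutator_eq_top hG) P (by norm_num) hP hC hN14
    rw [h] at hf hD hsum hw
    have key : ∀ f : ℕ, f < 64 → ¬ (4032 % f = 0 ∧ 4032 % (f + 1) = 0 ∧ f % 7 = 1 ∧ 1 < f ∧
        ¬ f = 8) := by decide
    have key' : ∀ f : ℕ, f < 63 → ¬ (4032 % f = 0 ∧ 4032 % (f + 1) = 0 ∧ f % 7 = 5) := by decide
    have hf64 : f < 64 := by nlinarith
    rcases hfD with ⟨rfl, h7⟩ | ⟨rfl, h7⟩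
    · have hf8 : f = 8 := by
        by_contra h8
        exact key f hf64 ⟨Nat.mod_eq_zero_of_dvd hf, Nat.mod_eq_zero_of_dvd hD, by omega, hf1, h8⟩
      subst hf8
      have hr : IsSquare (7 * 4032 * 8 * 9 : ℕ) := by
        refine ⟨w.natAbs, ?_⟩
        have := congrArg Int.natAbs hw
        rw [Int.natAbs_natCast, Int.natAbs_pow] at this
        rw [← pow_two]; exact this
      obtain ⟨r, hr⟩ := hr
      have hr' : r < 1426 := by nlinarith
      have hr'' : 1425 ≤ r := by nlinarith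
      interval_cases r <;> omega
    · exact key' D (by omega) ⟨Nat.mod_eq_zero_of_dvd hD, Nat.mod_eq_zero_of_dvd hf, by omega⟩

end Cfsg.Agent.S0976
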