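import Cfsg.Statements.S0977
import Cfsg.Agent.S1016
import Cfsg.Agent.Lib.SmallSimple.FixCount
import Cfsg.Agent.Lib.SmallSimple.FullNormalizer
import Cfsg.Agent.Lib.SmallSimple.Degrees4320

set_option autoImplicit false
open Cfsg

namespace Cfsg.Agent.S0977

open Subgroup Cfsg.Agent.Lib.SmallSimple Cfsg.Agent.Lib.SmallSimple.FixCount

/-- In a group of order twelve at most eight elements square to one. -/
theorem card_sq_one_le {Q : Type*} [Group Q] [Finite Q] (hQ : Nat.card Q = 12) :
    Nat.card {q : Q // q * q = 1} ≤ 8 := by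
  classical
  haveI : Fact (Nat.Prime 3) := ⟨Nat.prime_three⟩
  obtain ⟨y, hy⟩ := exists_prime_orderOf_dvd_card' (G := Q) 3 (by rw [hQ]; norm_num)
  letI := Fintype.ofFinite Q
  set C := centralizer ({y} : Set Q) with hCdef
  have hy3 : y ^ 3 = 1 := by rw [← hy, pow_orderOf_eq_one]
  have hy1 : y ≠ 1 := fun h => by rw [h, orderOf_one] at hy; norm_num at hy
  have hyC : zpowers y ≤ C := zpowers_le.2 (mem_centralizer_singleton_iff.2 rfl)
  have h3C : 3 ∣ Nat.card C := by
    have h := card_dvd_of_le hyC
    rwa [Nat.card_zpowers, hy] at h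
  have hC12 : Nat.card C ∣ 12 := hQ ▸ C.card_subgroup_dvd_card
  have hsplit : Nat.card {q : Q // q * q = 1} =
      (Finset.univ.filter fun q : Q => q * q = 1).card := by
    rw [Nat.card_eq_fintype_card, Fintype.card_subtype]
  rw [hsplit]
  set T := Finset.univ.filter fun q : Q => q * q = 1 with hTdef
  set U := Finset.univ.filter fun q : Q => q ∈ C with hUdef
  have hU : U.card = Nat.card C := by
    rw [Nat.card_eq_fintype_card, hUdef]; exact (Fintype.card_subtype _).symm
  have huniv : (Finset.univ : Finset Q).card = 12 := by rw [Finset.card_univ, ← Nat.card_eq_fintype_card, hQ]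
  by_cases h6 : 6 ≤ Nat.card C
  · have hin : 3 * (T ∩ U).card ≤ U.card := by
      have h := Finset.card_le_card_of_injOn (s := (Finset.range 3) ×ˢ (T ∩ U)) (t := U)
        (fun r => y ^ r.1 * r.2) (fun r hr => by
          simp only [Finset.coe_product, Set.mem_prod, Finset.mem_coe, Finset.mem_inter] at hr
          exact Finset.mem_filter.2 ⟨Finset.mem_univ _, mul_mem (pow_mem (hyC (mem_zpowers y)) _)
            (Finset.mem_filter.1 hr.2.2).2⟩) (by
          rintro ⟨i, a⟩ hi ⟨j, b⟩ hj e
          simp only [Finset.coe_product, Set.mem_prod, Finset.mem_coe, Finset.mem_inter,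
            Finset.mem_range, hTdef, hUdef, Finset.mem_filter, Finset.mem_univ, true_and] at hi hj
          have e' : y ^ i * a = y ^ j * b := e
          have hca : Commute (y ^ i) a :=
            Commute.pow_left (show Commute y a from (mem_centralizer_singleton_iff.1 hi.2.2).symm) i
          have hcb : Commute (y ^ j) b :=
            Commute.pow_left (show Commute y b from (mem_centralizer_singleton_iff.1 hj.2.2).symm) j
          have e2 : y ^ (2 * i) = y ^ (2 * j) := by
            have h : y ^ i * a * (y ^ i * a) = y ^ j * b * (y ^ j * b) := by rw [e']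
            rwa [hca.symm.mul_mul_mul_comm, hcb.symm.mul_mul_mul_comm, hi.2.1, hj.2.1, mul_one, mul_one,
              ← pow_add, ← pow_add, ← two_mul, ← two_mul] at h
          have hij : i = j := by
            have h := pow_eq_pow_iff_modEq.1 e2
            rw [hy, Nat.ModEq] at h
            omega
          subst hij
          exact Prod.ext rfl (mul_left_cancel e'))
      rw [Finset.card_product, Finset.card_range] at h
      exact h
    have h1 := Finset.card_inter_add_card_sdiff T U
    have hC12' := Nat.le_of_dvd (by norm_num) hC12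
    have h2 : (T \ U).card ≤ 12 - U.card := by
      have hle : (T \ U).card ≤ (Finset.univ \ U).card :=
        Finset.card_le_card (Finset.sdiff_subset_sdiff (Finset.subset_univ _) le_rfl)
      rw [Finset.card_univ_diff] at hle
      rw [Finset.card_univ] at huniv
      omega
    omega
  · have hC3 : Nat.card C = 3 := by
      have := Nat.le_of_dvd (by norm_num) hC12
      obtain ⟨k, hk⟩ := h3C
      have hpos := Nat.card_pos (α := C)
      omega
    set K := Finset.univ.filter fun q : Q => IsConj q y with hKdef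
    have hK : K.card = 4 := by
      have h1 : K.card = Nat.card (MulAction.orbit (ConjAct Q) y) := by
        rw [Nat.card_eq_fintype_card, ← Set.toFinset_card]
        congr 1
        ext q
        simp [hKdef, ConjAct.mem_orbit_conjAct]
      rw [h1, Nat.card_congr (MulAction.orbitEquivQuotientStabilizer (ConjAct Q) y), ← index_eq_card]
      have h2 := (MulAction.stabilizer (ConjAct Q) y).card_mul_index
      have h4 : Nat.card (MulAction.stabilizer (ConjAct Q) y) = 3 := by
        rw [ConjAct.stabilizer_eq_centralizer, ← hC3]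
        exact Nat.card_congr (Equiv.refl _)
      rw [h4, show Nat.card (ConjAct Q) = 12 from hQ] at h2
      omega
    have hle : T.card ≤ (Finset.univ \ K).card := by
      refine Finset.card_le_card fun q hq => Finset.mem_sdiff.2 ⟨Finset.mem_univ _, fun hqK => ?_⟩
      obtain ⟨g, hg⟩ := isConj_iff.1 (Finset.mem_filter.1 hqK).2
      have h2 : y * y = 1 := by
        rw [← hg, conj_mul, (Finset.mem_filter.1 hq).2, mul_one, mul_inv_cancel]
      have h3 : orderOf y ∣ 2 := orderOf_dvd_of_pow_eq_one (by rw [pow_two, h2])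
      rw [hy] at h3
      norm_num at h3
    rw [Finset.card_univ_diff] at hle
    rw [Finset.card_univ] at huniv
    omega

set_option maxHeartbeats 1000000 in
/-- No finite simple group has order 4320 = 2^5 * 3^3 * 5. -/
theorem result {G : Type*} [Group G] [Finite G] [IsSimpleGroup G] : Nat.card G ≠ 4320 := by
  intro h
  have hG := not_isMulCommutative_of_card (G := G) (by rw [h]; norm_num)
  haveI : Fact (Nat.Prime 5) := ⟨by norm_num⟩
  haveI : Fact (Nat.Prime 2) := ⟨Nat.prime_two⟩
  haveI : Fact (Nat.Prime 3) := ⟨Nat.prime_three⟩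
  obtain ⟨Q⟩ : Nonempty (Sylow 5 G) := inferInstance
  obtain ⟨h1, h2, h3⟩ := card_sylow_facts (p := 5) hG (by rw [h]; norm_num)
  have hsq : ¬ 5 ^ 2 ∣ Nat.card G := by rw [h]; norm_num
  set P : Subgroup G := (Q : Subgroup G) with hPdef
  have hP : Nat.card P = 5 := by
    simpa using card_sylow_subgroup Q (k := 1) (m := 864) (by rw [h]; norm_num) (by norm_num)
  have hidx : P.index = 864 := by
    have := P.card_mul_index; rw [hP, h] at this; omega
  have hd : Nat.card (Sylow 5 G) ∣ 864 := hidx ▸ Q.card_dvd_index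
  set N := normalizer (P : Set G) with hNdef
  set C := centralizer (P : Set G) with hCdef
  have hNi : N.index = Nat.card (Sylow 5 G) := Q.card_eq_index_normalizer.symm
  have hNmul := N.card_mul_index
  rw [h, hNi] at hNmul
  obtain ⟨i, hi4, hNC⟩ := exists_normalizer_index P hP
  have hnle := not_normalizer_le_centralizer hG Q (by rw [h]; norm_num)
  change Nat.card N = Nat.card C * i at hNC
  have hCN : C ≤ N := centralizer_le_normalizer _
  have hi1 : i ≠ 1 := by
    rintro rfl
    refine hnle fun g hg => ?_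
    rw [mul_one] at hNC
    exact (eq_of_le_of_card_ge hCN hNC.le).ge hg
  haveI : IsCyclic P := isCyclic_of_prime_card hP
  have hPC : P ≤ C := le_centralizer _
  have hPN : P ≤ N := hPC.trans hCN
  have hi' : i = 2 ∨ i = 4 := by
    have := Nat.le_of_dvd (by norm_num) hi4
    interval_cases i <;> omega
  have hNtop : N ≠ ⊤ := fun hN => by rw [hN, index_top] at hNi; omega
  have hCnormal : ∀ n ∈ N, ∀ c ∈ C, n⁻¹ * c * n ∈ C := fun n hn c hc => S1016.conj_mem_centralizer hc hn
  -- involutions centralising `P` fix sixteen modulo twenty cosets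
  have hmove : ∀ H : Subgroup G, P ≤ H → H ≠ ⊤ → ∀ s ∈ C, orderOf s = 2 →
      (∀ n ∈ N, n⁻¹ * s * n ∈ H) →
      ∃ j, 0 < j ∧ Nat.card {ω : G ⧸ H // s • ω ≠ ω} = 20 * j ∧
        Nat.card {ω : G ⧸ H // s • ω = ω} + 20 * j = H.index ∧
        0 < Nat.card {ω : G ⧸ H // s • ω = ω} := by
    intro H hPH hH s hs ho hn
    obtain ⟨h10, hpos, hsum⟩ := moved_facts hsq hP hPH hH Nat.prime_two (by norm_num) ho hs hn
    have h4 := S1016.four_dvd_moved hG H ho hpos
    obtain ⟨j, hj⟩ : 20 ∣ Nat.card {ω : G ⧸ H // s • ω ≠ ω} := by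
      obtain ⟨a, ha⟩ := h10; obtain ⟨b, hb⟩ := h4
      exact Nat.dvd_of_mod_eq_zero (by omega)
    refine ⟨j, by omega, hj, by omega, Nat.card_pos_iff.2 ⟨⟨⟨((1 : G) : G ⧸ H), ?_⟩⟩, inferInstance⟩⟩
    show ((s * 1 : G) : G ⧸ H) = _
    rw [QuotientGroup.eq]
    have := inv_mem (hn 1 (one_mem _))
    simpa using this
  have hbound : ∀ H : Subgroup G, N ≤ H → ∀ g ∈ N, g * g = 1 → g ∉ C →
      5 * (Nat.card {ω : G ⧸ H // g • ω = ω} - 1) ≤ H.index - 1 := fun H hNH g hg hg2 hgC =>
    fixed_bound hsq (by norm_num) hP hNH fun z hz => inverts_of_not_mem hP hg hg2 hgC hz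
  have hconjsq : ∀ s g : G, orderOf s = 2 → IsConj s g → g * g = 1 ∧ g ≠ 1 := by
    intro s g ho hc
    obtain ⟨c, rfl⟩ := isConj_iff.1 hc
    have hs : s * s = 1 := by rw [← pow_two, ← ho, pow_orderOf_eq_one]
    refine ⟨by rw [conj_mul, hs, mul_one, mul_inv_cancel], ?_⟩
    rw [ne_eq, conj_eq_one_iff]
    rintro rfl
    simp at ho
  -- elements of `C` squaring to one embed into `C / P`
  have hPn : (P.subgroupOf C).Normal := ⟨fun x hx g => by
    rw [mem_subgroupOf] at hx ⊢
    simp only [Subgroup.coe_mul, Subgroup.coe_inv]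
    rwa [← mem_centralizer_iff.1 g.2 _ hx, mul_inv_cancel_right]⟩
  haveI := hPn
  have hquot : Nat.card (C ⧸ P.subgroupOf C) * 5 = Nat.card C := by
    rw [← index_eq_card, ← (P.subgroupOf C).card_mul_index,
      Nat.card_congr (subgroupOfEquivOfLe hPC).toEquiv, hP, mul_comm]
  have hinj : Nat.card {x : G // x ∈ C ∧ x * x = 1} ≤
      Nat.card {q : C ⧸ P.subgroupOf C // q * q = 1} := by
    refine Nat.card_le_card_of_injective (fun x => ⟨((⟨x.1, x.2.1⟩ : C) : C ⧸ P.subgroupOf C), ?_⟩) ?_
    · rw [← QuotientGroup.mk_mul, ← QuotientGroup.mk_one]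
      exact congrArg _ (Subtype.ext x.2.2)
    · intro x y e
      have e' := QuotientGroup.eq.1 (congrArg Subtype.val e)
      rw [mem_subgroupOf] at e'
      simp only [Subgroup.coe_mul, Subgroup.coe_inv] at e'
      set w := (x.1 : G)⁻¹ * y.1 with hw
      have hxw : Commute (x.1 : G) w := (mem_centralizer_iff.1 x.2.1 _ e').symm
      have hy : y.1 = x.1 * w := by rw [hw, mul_inv_cancel_left]
      have hw2 : w * w = 1 := by
        have h2 := y.2.2
        rwa [hy, hxw.symm.mul_mul_mul_comm, x.2.2, one_mul] at h2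
      have hw1 : w = 1 := by
        have hd1 : orderOf w ∣ 5 := hP ▸ P.orderOf_dvd_natCard e'
        have hd2 : orderOf w ∣ 2 := orderOf_dvd_of_pow_eq_one (by rw [pow_two, hw2])
        have := Nat.dvd_gcd hd1 hd2
        norm_num at this
        exact orderOf_eq_one_iff.1 (Nat.dvd_one.1 (by simpa using this))
      exact Subtype.ext (by rw [hy, hw1, mul_one])
  have hqle : Nat.card {q : C ⧸ P.subgroupOf C // q * q = 1} ≤ Nat.card (C ⧸ P.subgroupOf C) :=
    Nat.card_le_card_of_injective _ Subtype.val_injective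
  have hclass : ∀ s : G, orderOf s = 2 → (∀ g ∈ N, IsConj s g → g ∈ C) →
      Nat.card {x : G // x ∈ N ∧ IsConj s x} + 1 ≤ Nat.card {x : G // x ∈ C ∧ x * x = 1} := by
    intro s ho hsub
    rw [← Finite.card_option]
    refine Nat.card_le_card_of_injective
      (fun o => o.elim (⟨1, one_mem _, one_mul 1⟩ : {x : G // x ∈ C ∧ x * x = 1})
        fun x => ⟨x.1, hsub _ x.2.1 x.2.2, (hconjsq s _ ho x.2.2).1⟩) ?_
    rintro (_ | a) (_ | b) e
    · rfl
    · exact absurd (congrArg Subtype.val e).symm (hconjsq s _ ho b.2.2).2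
    · exact absurd (congrArg Subtype.val e) (hconjsq s _ ho a.2.2).2
    · exact congrArg some (Subtype.ext (congrArg (fun z : {x : G // x ∈ C ∧ x * x = 1} => z.1) e))
  have hcases : Nat.card (Sylow 5 G) ∈ ({1, 6, 16, 36, 96, 216} : Finset ℕ) := by
    rw [show ({1, 6, 16, 36, 96, 216} : Finset ℕ) = (Nat.divisors 864).filter (· % 5 = 1) by decide +kernel]
    exact Finset.mem_filter.2 ⟨Nat.mem_divisors.2 ⟨hd, by norm_num⟩, by omega⟩
  simp only [Finset.mem_insert, Finset.mem_singleton] at hcases
  rcases hcases with hn | hn | hn | hn | hn | hn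
  · omega
  · rw [hn, h] at h3
    norm_num [Nat.factorial] at h3
  · -- sixteen subgroups of order five
    rw [hn] at hNmul hNi
    have hC135 : Nat.card C = 135 := by rcases hi' with rfl | rfl <;> omega
    obtain ⟨R, hR⟩ := Sylow.exists_subgroup_card_pow_prime (G := C) 3 (n := 2) (by rw [hC135]; norm_num)
    let R' : Subgroup G := R.map C.subtype
    have hR' : Nat.card R' = 9 := by
      rw [Nat.card_congr (equivMapOfInjective R _ C.subtype_injective).toEquiv.symm, hR]; norm_num
    have hRC : R' ≤ C := map_subtype_le R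
    have hΩ : Nat.card (G ⧸ N) = 16 := by rw [← index_eq_card, hNi]
    have hmem : ∀ d : G, d ∈ R' → d • ((1 : G) : G ⧸ N) = ((1 : G) : G ⧸ N) := by
      intro d hd
      show ((d * 1 : G) : G ⧸ N) = _
      rw [QuotientGroup.eq]
      simpa using inv_mem (hCN (hRC hd))
    have h3' : ∀ d : G, d ∈ R' → orderOf d = 3 → Nat.card {ω : G ⧸ N // d • ω = ω} = 1 := by
      intro d hd hd3
      obtain ⟨hdvd, hpos, hsum⟩ := moved_facts hsq hP hPN hNtop Nat.prime_three (by norm_num) hd3
        (hRC hd) (fun n hn => hCN (hCnormal n hn d (hRC hd)))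
      have hpos' : 0 < Nat.card {ω : G ⧸ N // d • ω = ω} :=
        Nat.card_pos_iff.2 ⟨⟨⟨_, hmem d hd⟩⟩, inferInstance⟩
      have := Nat.le_of_dvd hpos hdvd
      omega
    have hfix1 : ∀ c : G, c ∈ R' → c ≠ 1 → Nat.card {ω : G ⧸ N // c • ω = ω} = 1 := by
      intro c hc hc1
      have hdvd : orderOf c ∈ ({1, 3, 9} : Finset ℕ) := by
        rw [show ({1, 3, 9} : Finset ℕ) = Nat.divisors 9 by decide]
        exact Nat.mem_divisors.2 ⟨hR' ▸ orderOf_dvd_natCard _ hc, by norm_num⟩
      simp only [Finset.mem_insert, Finset.mem_singleton] at hdvd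
      rcases hdvd with hc' | hc' | hc'
      · exact absurd (orderOf_eq_one_iff.1 hc') hc1
      · exact h3' c hc hc'
      · have hle := h3' (c ^ 3) (pow_mem hc 3) (by rw [orderOf_pow' c (by norm_num), hc']; rfl)
        refine le_antisymm (hle ▸ Nat.card_le_card_of_injective
          (fun ω => ⟨ω.1, by rw [pow_succ, pow_two, mul_smul, mul_smul, ω.2, ω.2, ω.2]⟩)
          (fun a b hab => Subtype.ext (congrArg (fun z => z.1) hab))) ?_
        exact Nat.card_pos_iff.2 ⟨⟨⟨_, hmem c hc⟩⟩, inferInstance⟩
    letI : Fintype (G ⧸ N) := Fintype.ofFinite _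
    letI : Fintype R' := Fintype.ofFinite _
    classical
    letI : Fintype (Quotient (MulAction.orbitRel R' (G ⧸ N))) := Fintype.ofFinite _
    have hB := MulAction.sum_card_fixedBy_eq_card_orbits_mul_card_group R' (G ⧸ N)
    rw [← Nat.card_eq_fintype_card (α := R'), hR', ← Finset.sum_erase_add _ _ (Finset.mem_univ (1 : R'))] at hB
    have h16 : Fintype.card (MulAction.fixedBy (G ⧸ N) (1 : R')) = 16 := by
      rw [← Nat.card_eq_fintype_card, MulAction.fixedBy_one_eq_univ, Nat.card_coe_set_eq, Set.ncard_univ, hΩ]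
    rw [h16, Finset.sum_eq_card_nsmul (b := 1) (fun g hg => by
      rw [← Nat.card_eq_fintype_card]
      exact hfix1 g g.2 (fun h' => Finset.ne_of_mem_erase hg (Subtype.ext h'))),
      Finset.card_erase_of_mem (Finset.mem_univ _), Finset.card_univ, ← Nat.card_eq_fintype_card, hR',
      smul_eq_mul] at hB
    omega
  · -- thirty-six
    rw [hn] at hNmul hNi
    have hN120 : Nat.card N = 120 := by omega
    obtain ⟨T, hT⟩ := Sylow.exists_subgroup_card_pow_prime (G := N) 2 (n := 3) (by rw [hN120]; norm_num)
    let T' : Subgroup G := T.map N.subtype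
    have hT' : Nat.card T' = 8 := by
      rw [Nat.card_congr (equivMapOfInjective T _ N.subtype_injective).toEquiv.symm, hT]; norm_num
    have hTN : T' ≤ N := map_subtype_le T
    have hTC : T' ≤ normalizer (C : Set G) := by
      intro n hn
      rw [mem_normalizer_iff]
      intro c
      constructor
      · intro hc
        simpa using hCnormal n⁻¹ (inv_mem (hTN hn)) c hc
      · intro hc
        simpa [mul_assoc] using hCnormal n (hTN hn) _ hc
    have h2C : 2 ∣ Nat.card C := by rcases hi' with rfl | rfl <;> omega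
    obtain ⟨s, hsC, hso, hTs⟩ := exists_central_involution (IsPGroup.of_card (n := 3) (by rw [hT']; norm_num))
      hTC h2C
    obtain ⟨j, hj0, -, hjsum, hfpos⟩ := hmove N hPN hNtop s hsC hso (fun n hn => hCN (hCnormal n hn s hsC))
    rw [hNi] at hjsum
    have hf16 : Nat.card {ω : G ⧸ N // s • ω = ω} = 16 := by omega
    have hsub : ∀ g ∈ N, IsConj s g → g ∈ C := by
      intro g hg hc
      by_contra hgC
      have hb := hbound N le_rfl g hg (hconjsq s g hso hc).1 hgC
      rw [card_fixed_eq hc, hf16, hNi] at hb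
      omega
    have hcount := card_fixed_mul N s
    rw [hf16, hN120] at hcount
    set H := centralizer ({s} : Set G) with hHdef
    set m := Nat.card {x : G // x ∈ N ∧ IsConj s x} with hm
    have hm1 : m + 1 ≤ Nat.card {x : G // x ∈ C ∧ x * x = 1} := hclass s hso hsub
    have hm8 : m ≤ 7 := by
      rcases hi' with rfl | rfl
      · have := card_sq_one_le (Q := C ⧸ P.subgroupOf C) (by omega)
        omega
      · omega
    have hPH : P ≤ H := fun z hz => mem_centralizer_singleton_iff.2 (mem_centralizer_iff.1 hsC z hz)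
    have hK40 : 40 ∣ Nat.card ↥(H ⊓ N) := by
      have a := card_dvd_of_le (le_inf hTs hTN : T' ≤ H ⊓ N)
      have b := card_dvd_of_le (le_inf hPH hPN : P ≤ H ⊓ N)
      rw [hT'] at a; rw [hP] at b
      exact Nat.Coprime.mul_dvd_of_dvd_of_dvd (by norm_num) a b
    have hK120 : Nat.card ↥(H ⊓ N) ∣ 120 := hN120 ▸ card_dvd_of_le inf_le_right
    obtain ⟨q, hq, hHq⟩ := index_normalizer_mod hsq hP hPH
    change Nat.card H = Nat.card ↥(H ⊓ N) * q at hHq
    have hH4320 : Nat.card H ∣ 4320 := h ▸ H.card_subgroup_dvd_card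
    have hH1920 : Nat.card H ∣ 1920 := ⟨m, hcount⟩
    have hH480 : Nat.card H ∣ 480 := Nat.dvd_gcd hH4320 hH1920
    obtain ⟨a, ha⟩ := hK40
    have ha3 : a = 1 ∨ a = 3 := by
      rw [ha] at hK120
      have : a ∣ 3 := (Nat.mul_dvd_mul_iff_left (by norm_num : 0 < 40)).1 (by simpa using hK120)
      exact (Nat.dvd_prime Nat.prime_three).1 this
    have hH274 : 274 < Nat.card H := by
      by_contra hlt
      have : m * Nat.card H ≤ 7 * 274 := Nat.mul_le_mul hm8 (by omega)
      rw [Nat.mul_comm m] at this
      omega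
    have hH : Nat.card H = 480 := by
      obtain ⟨k, hk⟩ := hH480
      have hk0 : k ≠ 0 := by rintro rfl; simp at hk
      by_contra hne
      have hk2 : 2 ≤ k := by
        rcases Nat.lt_or_ge k 2 with hk1 | hk1
        · have : k = 1 := by omega
          subst this; omega
        · exact hk1
      have : Nat.card H * 2 ≤ Nat.card H * k := Nat.mul_le_mul_left _ hk2
      omega
    rw [hH, ha] at hHq
    rcases ha3 with rfl | rfl <;> omega
  · rw [hn] at hNmul
    rcases hi' with rfl | rfl <;> omega
  · -- two hundred and sixteen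
    rw [hn] at hNmul hNi
    have hN20 : Nat.card N = 20 := by omega
    rcases hi' with rfl | rfl
    · have hC10 : Nat.card C = 10 := by omega
      obtain ⟨s₀, hs₀⟩ := exists_prime_orderOf_dvd_card' (G := C) 2 (by rw [hC10]; norm_num)
      set s : G := (s₀ : G) with hsdef
      have hso : orderOf s = 2 := by rw [hsdef, Subgroup.orderOf_coe, hs₀]
      have hs2 : s * s = 1 := by rw [← pow_two, ← hso, pow_orderOf_eq_one]
      have hs1 : s ≠ 1 := fun e => by rw [e, orderOf_one] at hso; norm_num at hso
      have huniq : ∀ x ∈ C, x * x = 1 → x ≠ 1 → x = s := by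
        intro x hx hx2 hx1
        by_contra hne
        have h3le : 3 ≤ Nat.card {x : G // x ∈ C ∧ x * x = 1} := by
          refine le_trans (le_of_eq (by simp)) (Nat.card_le_card_of_injective
            (fun i : Fin 3 => (![⟨1, one_mem _, one_mul 1⟩, ⟨x, hx, hx2⟩, ⟨s, s₀.2, hs2⟩] i :
              {x : G // x ∈ C ∧ x * x = 1})) ?_)
          intro a b e
          have e' := congrArg Subtype.val e
          fin_cases a <;> fin_cases b <;>
            first
              | rfl
              | exact absurd e' hx1 | exact absurd e'.symm hx1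
              | exact absurd e' hs1 | exact absurd e'.symm hs1
              | exact absurd e' hne | exact absurd e'.symm hne
        omega
      have hsN : ∀ n ∈ N, n⁻¹ * s * n = s := fun n hn => huniq _ (hCnormal n hn s s₀.2)
        (by rw [show n⁻¹ * s * n * (n⁻¹ * s * n) = n⁻¹ * (s * s) * n by group, hs2]; group)
        (fun e => hs1 (by
          calc s = n * (n⁻¹ * s * n) * n⁻¹ := by group
            _ = 1 := by rw [e]; group))
      set H := centralizer ({s} : Set G) with hHdef
      have hNH : N ≤ H := fun n hn => by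
        rw [mem_centralizer_singleton_iff]
        calc n * s = n * (n⁻¹ * s * n) := by rw [hsN n hn]
          _ = s * n := by group
      have hHtop : H ≠ ⊤ := S1016.centralizer_singleton_ne_top hG hs1
      obtain ⟨q, hq, hHq⟩ := index_normalizer_mod hsq hP (hPN.trans hNH)
      change Nat.card H = Nat.card ↥(H ⊓ N) * q at hHq
      rw [inf_eq_right.2 hNH, hN20] at hHq
      have hHmul := H.card_mul_index
      rw [h, hHq] at hHmul
      have hq216 : q ∣ 216 := ⟨H.index, by
        rw [mul_assoc] at hHmul
        omega⟩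
      have hqc : q = 1 ∨ q = 6 ∨ q = 36 ∨ q = 216 := by
        have : q ∈ ({1, 6, 36, 216} : Finset ℕ) := by
          rw [show ({1, 6, 36, 216} : Finset ℕ) = (Nat.divisors 216).filter (· % 5 = 1) by decide +kernel]
          exact Finset.mem_filter.2 ⟨Nat.mem_divisors.2 ⟨hq216, by norm_num⟩, hq⟩
        simpa using this
      have hq216' : q ≠ 216 := by
        rintro rfl
        exact hHtop (index_eq_one.1 (by omega))
      have hq36 : q ≠ 36 := by
        rintro rfl
        have h6 : H.index = 6 := by omega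
        have := two_mul_card_dvd_factorial hG H hHtop
        rw [h6, h] at this
        norm_num [Nat.factorial] at this
      set m := Nat.card {x : G // x ∈ N ∧ IsConj s x} with hm
      have hcount := card_fixed_mul N s
      change _ = Nat.card H * m at hcount
      rw [hHq, hN20] at hcount
      obtain ⟨j, hj0, -, hjsum, -⟩ := hmove N hPN hNtop s s₀.2 hso (fun n hn => by
        rw [hsN n hn]; exact hCN s₀.2)
      rw [hNi] at hjsum
      have hfqm : Nat.card {ω : G ⧸ N // s • ω = ω} = q * m := by nlinarith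
      by_cases hex : ∀ g ∈ N, IsConj s g → g ∈ C
      · have := hclass s hso hex
        rcases hqc with rfl | rfl | rfl | rfl <;> omega
      push Not at hex
      obtain ⟨g, hgN, hgc, hgC⟩ := hex
      have hm11 : m ≤ 11 := by
        have hg2 := (hconjsq s g hso hgc).1
        have hout : Nat.card {x : {x : G // x ∈ N ∧ IsConj s x} // x.1 ∉ C} ≤ Nat.card C := by
          refine Nat.card_le_card_of_injective (fun x => (⟨g⁻¹ * x.1.1, ?_⟩ : C))
            (fun x y e => Subtype.ext (Subtype.ext (mul_left_cancel (congrArg Subtype.val e))))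
          show _ ∈ centralizer (P : Set G)
          rw [mem_centralizer_iff]
          intro z hz
          have a := inverts_of_not_mem hP hgN hg2 hgC hz
          have b := inverts_of_not_mem hP x.1.2.1 (hconjsq s _ hso x.1.2.2).1 x.2 hz
          calc z * (g⁻¹ * x.1.1) = g⁻¹ * (g * z * g⁻¹) * x.1.1 := by group
            _ = g⁻¹ * (x.1.1 * z * x.1.1⁻¹) * x.1.1 := by rw [a, b]
            _ = g⁻¹ * x.1.1 * z := by group
        have hin : Nat.card {x : {x : G // x ∈ N ∧ IsConj s x} // x.1 ∈ C} ≤ 1 := by
          rw [Finite.card_le_one_iff_subsingleton]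
          refine ⟨fun x y => Subtype.ext (Subtype.ext ?_)⟩
          rw [huniq _ x.2 (hconjsq s _ hso x.1.2.2).1 (hconjsq s _ hso x.1.2.2).2,
            huniq _ y.2 (hconjsq s _ hso y.1.2.2).1 (hconjsq s _ hso y.1.2.2).2]
        have hsum : m = Nat.card {x : {x : G // x ∈ N ∧ IsConj s x} // x.1 ∈ C} +
            Nat.card {x : {x : G // x ∈ N ∧ IsConj s x} // x.1 ∉ C} := by
          classical
          rw [hm, ← Nat.card_sum, Nat.card_congr (Equiv.sumCompl fun x : {x : G // x ∈ N ∧ IsConj s x} => x.1 ∈ C)]
        omega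
      rcases hqc with rfl | rfl | rfl | rfl <;> try omega
      have h36 : H.index = 36 := by omega
      obtain ⟨j', hj0', -, hjsum', hfpos'⟩ := hmove H (hPN.trans hNH) hHtop s s₀.2 hso (fun n hn => by
        rw [hsN n hn, hHdef]; exact mem_centralizer_singleton_iff.2 rfl)
      have hb := hbound H hNH g hgN (hconjsq s g hso hgc).1 hgC
      rw [card_fixed_eq hgc, h36] at hb
      rw [h36] at hjsum'
      omega
    · -- self-centralising, normaliser of order twenty
      have hC5 : Nat.card C = 5 := by omega
      have hCP : C = P := (eq_of_le_of_card_ge hPC (by rw [hC5, hP])).symm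
      obtain ⟨t₀, ht₀⟩ := exists_prime_orderOf_dvd_card' (G := N) 2 (by rw [hN20]; norm_num)
      letI := Fintype.ofFinite G
      obtain ⟨S, f, σ, u, hS, hprop, hf, hu, hf2, hu2, hcnt⟩ :=
        FullNormalizer.exists_degrees_full (commutator_eq_top hG) Q le_rfl hP hCP hN20 (t := (t₀ : G)) t₀.2
          (by rw [Subgroup.orderOf_coe, ht₀])
      classical
      let L := S.toList.mergeSort (fun x y => decide (f x ≤ f y))
      have hperm : L.Perm S.toList := List.mergeSort_perm _ _
      have hlen : L.length = 4 := by rw [hperm.length_eq, Finset.length_toList, hS]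
      have hsorted : L.Pairwise (fun x y => f x ≤ f y) := by
        refine List.Pairwise.imp (fun h => by simpa using h) (List.pairwise_mergeSort ?_ ?_ _)
        · intro x y z h1 h2; simp only [decide_eq_true_eq] at *; omega
        · intro x y; simp only [Bool.or_eq_true, decide_eq_true_eq]; omega
      obtain ⟨a, b, c, d, habcd⟩ : ∃ a b c d, L = [a, b, c, d] := by
        rcases hL : L with _ | ⟨a, _ | ⟨b, _ | ⟨c, _ | ⟨d, _ | ⟨e, l⟩⟩⟩⟩⟩ <;>
          rw [hL] at hlen <;> simp at hlen
        exact ⟨a, b, c, d, rfl⟩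
      rw [habcd] at hsorted hperm
      have hab : f a ≤ f b := (List.pairwise_cons.1 hsorted).1 b (by simp)
      have hbc : f b ≤ f c := (List.pairwise_cons.1 (List.pairwise_cons.1 hsorted).2).1 c (by simp)
      have hcd : f c ≤ f d :=
        (List.pairwise_cons.1 (List.pairwise_cons.1 (List.pairwise_cons.1 hsorted).2).2).1 d (by simp)
      have hsumZ : ∀ F : IrrCharacter G → ℤ, ∑ χ ∈ S, F χ = F a + (F b + (F c + F d)) := fun F => by
        rw [← Finset.sum_map_toList, ← (hperm.map F).sum_eq]; simp
      have hsumN : ∀ F : IrrCharacter G → ℕ, ∑ χ ∈ S, F χ = F a + (F b + (F c + F d)) := fun F => by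
        rw [← Finset.sum_map_toList, ← (hperm.map F).sum_eq]; simp
      have hsumQ : ∀ F : IrrCharacter G → ℚ, ∑ χ ∈ S, F χ = F a + (F b + (F c + F d)) := fun F => by
        rw [← Finset.sum_map_toList, ← (hperm.map F).sum_eq]; simp
      rw [hsumZ] at hf hu hu2
      rw [hsumN] at hf2
      rw [hsumQ] at hcnt
      rw [h] at hf2 hcnt
      have hmemS : ∀ {x}, x ∈ [a, b, c, d] → x ∈ S := fun hx => Finset.mem_toList.1 (hperm.subset hx)
      have hdata : ∀ x ∈ [a, b, c, d], f x ≤ 65 → f x ∈ Degrees4320.degs ∧ σ x = Degrees4320.sg (f x) ∧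
          u x ∈ Degrees4320.vals (f x) := by
        intro x hx hle
        obtain ⟨hf1, hfd, hs, hcong, k, hk, hkle⟩ := hprop x (hmemS hx)
        refine ⟨Degrees4320.degs_complete _ (List.mem_range.2 (by omega)) (h ▸ hfd) ?_ hf1, ?_,
          List.mem_map.2 ⟨k, List.mem_range.2 (by omega), hk.symm⟩⟩
        · rcases hs with hs | hs <;> rw [hs] at hcong <;> omega
        · unfold Degrees4320.sg
          rcases hs with hs | hs <;> rw [hs] at hcong <;> split_ifs <;> omega
      have hle : ∀ x ∈ [a, b, c, d], f x ≤ 65 := by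
        intro x hx
        by_contra hgt
        have h66 : 66 ^ 2 ≤ f x ^ 2 := Nat.pow_le_pow_left (by omega) 2
        simp only [List.mem_cons, List.not_mem_nil, or_false] at hx
        rcases hx with rfl | rfl | rfl | rfl <;> omega
      obtain ⟨ha1, ha2, ha3⟩ := hdata a (by simp) (hle a (by simp))
      obtain ⟨hb1, hb2, hb3⟩ := hdata b (by simp) (hle b (by simp))
      obtain ⟨hc1, hc2, hc3⟩ := hdata c (by simp) (hle c (by simp))
      obtain ⟨hd1, hd2, hd3⟩ := hdata d (by simp) (hle d (by simp))
      have hpos : ∀ x ∈ [a, b, c, d], (f x : ℚ) ≠ 0 := fun x hx =>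
        Nat.cast_ne_zero.2 (by have := (hprop x (hmemS hx)).1; omega)
      have := hpos a (by simp); have := hpos b (by simp); have := hpos c (by simp); have := hpos d (by simp)
      rw [ha2, hb2, hc2, hd2] at hf hu hcnt
      set z := Nat.card (centralizer ({(t₀ : G)} : Set G))
      have hz : z ∣ 4320 := h ▸ Subgroup.card_subgroup_dvd_card _
      refine Degrees4320.no_solution (m := z) ha1 hb1 hc1 hd1 hab hbc hcd ha3 hb3 hc3 hd3
        (Degrees4320.divs_complete hz)
        (by linarith) (by nlinarith [hf2]) (by linarith) (by nlinarith [hu2]) ?_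
      have hq : ((4320 * ((f a * f b * f c * f d : ℕ) + Degrees4320.sg (f a) * u a * u a * (f b * f c * f d : ℕ) +
          Degrees4320.sg (f b) * u b * u b * (f a * f c * f d : ℕ) +
          Degrees4320.sg (f c) * u c * u c * (f a * f b * f d : ℕ) +
          Degrees4320.sg (f d) * u d * u d * (f a * f b * f c : ℕ)) : ℤ) : ℚ) =
          ((5 * ((z : ℤ) * z) * (f a * f b * f c * f d : ℕ) : ℤ) : ℚ) := by
        push_cast
        push_cast at hcnt
        field_simp at hcnt
        linear_combination hcnt
      exact_mod_cast hq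

end Cfsg.Agent.S0977
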