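import Cfsg.Statements.S0980
import Cfsg.Agent.S1016
import Cfsg.Agent.Lib.SmallSimple.FixCount
import Cfsg.Agent.Lib.SmallSimple.DegreeRelation
import Cfsg.Agent.Lib.SmallSimple.PlaneSixteen
import Cfsg.Agent.Lib.Char.Order7920Tools
import Cfsg.Agent.Lib.CharKernel

set_option autoImplicit false
open Cfsg

namespace Cfsg.Agent.S0980

open Subgroup Cfsg.Agent.Lib.SmallSimple Cfsg.Agent.Lib.SmallSimple.FixCount
open Cfsg.Agent.Lib

theorem card_centralizer_conj {G : Type*} [Group G] [Finite G] {s x : G} (h : IsConj s x) :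
    Nat.card (centralizer ({x} : Set G)) = Nat.card (centralizer ({s} : Set G)) := by
  obtain ⟨c, rfl⟩ := isConj_iff.1 h
  refine Nat.card_congr
    { toFun := fun z => ⟨c⁻¹ * z * c, ?_⟩
      invFun := fun z => ⟨c * z * c⁻¹, ?_⟩
      left_inv := fun z => Subtype.ext (by group)
      right_inv := fun z => Subtype.ext (by group) }
  · rw [mem_centralizer_singleton_iff]
    have h := mem_centralizer_singleton_iff.1 z.2
    calc c⁻¹ * z.1 * c * s = c⁻¹ * (z.1 * (c * s * c⁻¹)) * c := by group
      _ = c⁻¹ * (c * s * c⁻¹ * z.1) * c := by rw [h]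
      _ = s * (c⁻¹ * z.1 * c) := by group
  · rw [mem_centralizer_singleton_iff]
    have h := mem_centralizer_singleton_iff.1 z.2
    calc c * z.1 * c⁻¹ * (c * s * c⁻¹) = c * (z.1 * s) * c⁻¹ := by group
      _ = c * (s * z.1) * c⁻¹ := by rw [h]
      _ = c * s * c⁻¹ * (c * z.1 * c⁻¹) := by group

theorem degrees {f : ℕ} (h5 : f ∣ 5760) (hf : 1 < f) :
    (2 * (f + 1) ^ 2 + f ^ 2 + 1 ≤ 5760 → f + 1 ∣ 5760 → ¬ (5 : ℤ) ∣ (f : ℤ) - 1) ∧
    (2 * (f - 1) ^ 2 + f ^ 2 + 1 ≤ 5760 → f - 1 ∣ 5760 → (5 : ℤ) ∣ (f : ℤ) + 1 → f = 4 ∨ f = 9) := by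
  have key : ∀ f ∈ List.range 76, f ∣ 5760 → 1 < f →
      (f + 1 ∣ 5760 → f % 5 ≠ 1) ∧ (f - 1 ∣ 5760 → f % 5 = 4 → f = 4 ∨ f = 9) := by decide +kernel
  constructor
  · intro hle hd h
    have hlt : f < 76 := by nlinarith
    exact (key f (List.mem_range.2 hlt) h5 hf).1 hd (by omega)
  · intro hle hd h
    have hlt : f < 76 := by nlinarith
    exact (key f (List.mem_range.2 hlt) h5 hf).2 hd (by omega)

set_option maxHeartbeats 1000000 in
/-- No finite simple group has order 5760 = 2^7 * 3^2 * 5. -/
theorem result {G : Type*} [Group G] [Finite G] [IsSimpleGroup G] : Nat.card G ≠ 5760 := by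
  intro h
  have hG := not_isMulCommutative_of_card (G := G) (by rw [h]; norm_num)
  haveI : Fact (Nat.Prime 5) := ⟨by norm_num⟩
  haveI : Fact (Nat.Prime 2) := ⟨Nat.prime_two⟩
  haveI : Fact (Nat.Prime 3) := ⟨Nat.prime_three⟩
  obtain ⟨Q⟩ : Nonempty (Sylow 5 G) := inferInstance
  obtain ⟨h1, h2, h3⟩ := card_sylow_facts (p := 5) hG (by rw [h]; norm_num)
  have hsq : ¬ 5 ^ 2 ∣ Nat.card G := by rw [h]; norm_num
  set P : Subgroup G := (Q : Subgroup G) with hPdef
  have hP : Nat.card P = 5 := by
    simpa using card_sylow_subgroup Q (k := 1) (m := 1152) (by rw [h]; norm_num) (by norm_num)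
  have hidx : P.index = 1152 := by
    have := P.card_mul_index; rw [hP, h] at this; omega
  have hd : Nat.card (Sylow 5 G) ∣ 1152 := hidx ▸ Q.card_dvd_index
  set N := normalizer (P : Set G) with hNdef
  set C := centralizer (P : Set G) with hCdef
  have hNi : N.index = Nat.card (Sylow 5 G) := Q.card_eq_index_normalizer.symm
  have hNmul := N.card_mul_index
  rw [h, hNi] at hNmul
  obtain ⟨i, hi4, hNC⟩ := exists_normalizer_index P hP
  have hnle := not_normalizer_le_centralizer hG Q (by rw [h]; norm_num)
  change Nat.card N = Nat.card C * i at hNC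
  have hCN : C ≤ N := centralizer_le_normalizer _
  have hi1 : i ≠ 1 := by
    rintro rfl
    refine hnle fun g hg => ?_
    rw [mul_one] at hNC
    exact (eq_of_le_of_card_ge hCN hNC.le).ge hg
  haveI : IsCyclic P := isCyclic_of_prime_card hP
  have hPC : P ≤ C := le_centralizer _
  have hPN : P ≤ N := hPC.trans hCN
  have hi' : i = 2 ∨ i = 4 := by
    have := Nat.le_of_dvd (by norm_num) hi4
    interval_cases i <;> omega
  have hNtop : N ≠ ⊤ := fun hN => by rw [hN, index_top] at hNi; omega
  have hCnormal : ∀ n ∈ N, ∀ c ∈ C, n⁻¹ * c * n ∈ C := fun n hn c hc => S1016.conj_mem_centralizer hc hn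
  have hcases : Nat.card (Sylow 5 G) ∈ ({1, 6, 16, 36, 96, 576} : Finset ℕ) := by
    rw [show ({1, 6, 16, 36, 96, 576} : Finset ℕ) = (Nat.divisors 1152).filter (· % 5 = 1) by decide +kernel]
    exact Finset.mem_filter.2 ⟨Nat.mem_divisors.2 ⟨hd, by norm_num⟩, by omega⟩
  simp only [Finset.mem_insert, Finset.mem_singleton] at hcases
  rcases hcases with hn | hn | hn | hn | hn | hn
  · omega
  · rw [hn, h] at h3
    norm_num [Nat.factorial] at h3
  · -- sixteen subgroups of order five
    rw [hn] at hNmul hNi
    have h9C : 9 ∣ Nat.card C := by rcases hi' with rfl | rfl <;> omega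
    obtain ⟨R, hR⟩ := Sylow.exists_subgroup_card_pow_prime (G := C) 3 (n := 2) h9C
    let R' : Subgroup G := R.map C.subtype
    have hR' : Nat.card R' = 9 := by
      rw [Nat.card_congr (equivMapOfInjective R _ C.subtype_injective).toEquiv.symm, hR]; norm_num
    have hRC : R' ≤ C := map_subtype_le R
    have hΩ : Nat.card (G ⧸ N) = 16 := by rw [← index_eq_card, hNi]
    have hmem : ∀ d : G, d ∈ R' → d • ((1 : G) : G ⧸ N) = ((1 : G) : G ⧸ N) := by
      intro d hd
      show ((d * 1 : G) : G ⧸ N) = _
      rw [QuotientGroup.eq]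
      simpa using inv_mem (hCN (hRC hd))
    have h3' : ∀ d : G, d ∈ R' → orderOf d = 3 → Nat.card {ω : G ⧸ N // d • ω = ω} = 1 := by
      intro d hd hd3
      obtain ⟨hdvd, hpos, hsum⟩ := moved_facts hsq hP hPN hNtop Nat.prime_three (by norm_num) hd3
        (hRC hd) (fun n hn => hCN (hCnormal n hn d (hRC hd)))
      have hpos' : 0 < Nat.card {ω : G ⧸ N // d • ω = ω} :=
        Nat.card_pos_iff.2 ⟨⟨⟨_, hmem d hd⟩⟩, inferInstance⟩
      have := Nat.le_of_dvd hpos hdvd
      omega
    have hfix1 : ∀ c : G, c ∈ R' → c ≠ 1 → Nat.card {ω : G ⧸ N // c • ω = ω} = 1 := by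
      intro c hc hc1
      have hdvd : orderOf c ∈ ({1, 3, 9} : Finset ℕ) := by
        rw [show ({1, 3, 9} : Finset ℕ) = Nat.divisors 9 by decide]
        exact Nat.mem_divisors.2 ⟨hR' ▸ orderOf_dvd_natCard _ hc, by norm_num⟩
      simp only [Finset.mem_insert, Finset.mem_singleton] at hdvd
      rcases hdvd with hc' | hc' | hc'
      · exact absurd (orderOf_eq_one_iff.1 hc') hc1
      · exact h3' c hc hc'
      · have hle := h3' (c ^ 3) (pow_mem hc 3) (by rw [orderOf_pow' c (by norm_num), hc']; rfl)
        refine le_antisymm (hle ▸ Nat.card_le_card_of_injective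
          (fun ω => ⟨ω.1, by rw [pow_succ, pow_two, mul_smul, mul_smul, ω.2, ω.2, ω.2]⟩)
          (fun a b hab => Subtype.ext (congrArg (fun z => z.1) hab))) ?_
        exact Nat.card_pos_iff.2 ⟨⟨⟨_, hmem c hc⟩⟩, inferInstance⟩
    letI : Fintype (G ⧸ N) := Fintype.ofFinite _
    letI : Fintype R' := Fintype.ofFinite _
    classical
    letI : Fintype (Quotient (MulAction.orbitRel R' (G ⧸ N))) := Fintype.ofFinite _
    have hB := MulAction.sum_card_fixedBy_eq_card_orbits_mul_card_group R' (G ⧸ N)
    rw [← Nat.card_eq_fintype_card (α := R'), hR', ← Finset.sum_erase_add _ _ (Finset.mem_univ (1 : R'))] at hB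
    have h16 : Fintype.card (MulAction.fixedBy (G ⧸ N) (1 : R')) = 16 := by
      rw [← Nat.card_eq_fintype_card, MulAction.fixedBy_one_eq_univ, Nat.card_coe_set_eq, Set.ncard_univ, hΩ]
    rw [h16, Finset.sum_eq_card_nsmul (b := 1) (fun g hg => by
      rw [← Nat.card_eq_fintype_card]
      exact hfix1 g g.2 (fun h' => Finset.ne_of_mem_erase hg (Subtype.ext h'))),
      Finset.card_erase_of_mem (Finset.mem_univ _), Finset.card_univ, ← Nat.card_eq_fintype_card, hR',
      smul_eq_mul] at hB
    omega
  · -- thirty-six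
    rw [hn] at hNmul hNi
    have hN160 : Nat.card N = 160 := by omega
    obtain ⟨T, hT⟩ := Sylow.exists_subgroup_card_pow_prime (G := N) 2 (n := 5) (by rw [hN160]; norm_num)
    let T' : Subgroup G := T.map N.subtype
    have hT' : Nat.card T' = 32 := by
      rw [Nat.card_congr (equivMapOfInjective T _ N.subtype_injective).toEquiv.symm, hT]; norm_num
    have hTN : T' ≤ N := map_subtype_le T
    have hTC : T' ≤ normalizer (C : Set G) := by
      intro n hn
      rw [mem_normalizer_iff]
      intro c
      constructor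
      · intro hc
        simpa using hCnormal n⁻¹ (inv_mem (hTN hn)) c hc
      · intro hc
        simpa [mul_assoc] using hCnormal n (hTN hn) _ hc
    have h2C : 2 ∣ Nat.card C := by rcases hi' with rfl | rfl <;> omega
    obtain ⟨s, hsC, hso, hTs⟩ := exists_central_involution (IsPGroup.of_card (n := 5) (by rw [hT']; norm_num))
      hTC h2C
    obtain ⟨h10, hpos, hsum⟩ := moved_facts hsq hP hPN hNtop Nat.prime_two (by norm_num) hso hsC
      (fun n hn => hCN (hCnormal n hn s hsC))
    have h4 := S1016.four_dvd_moved hG N hso hpos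
    have hf16 : Nat.card {ω : G ⧸ N // s • ω = ω} = 16 := by
      rw [hNi] at hsum
      have hb : 0 < Nat.card {ω : G ⧸ N // s • ω = ω} := Nat.card_pos_iff.2 ⟨⟨⟨((1 : G) : G ⧸ N), by
        show ((s * 1 : G) : G ⧸ N) = _
        rw [QuotientGroup.eq]
        simpa using inv_mem (hCN hsC)⟩⟩, inferInstance⟩
      obtain ⟨a, ha⟩ := h10; obtain ⟨b, hb'⟩ := h4
      omega
    have hs2 : s * s = 1 := by rw [← pow_two, ← hso, pow_orderOf_eq_one]
    have hsub : ∀ g ∈ N, IsConj s g → g ∈ C ∧ g * g = 1 ∧ g ≠ 1 := by
      intro g hg hc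
      obtain ⟨k, hk⟩ := isConj_iff.1 hc
      have hg2 : g * g = 1 := by rw [← hk, conj_mul, hs2, mul_one, mul_inv_cancel]
      have hg1 : g ≠ 1 := by
        rw [← hk, ne_eq, conj_eq_one_iff]
        rintro rfl; simp at hso
      refine ⟨?_, hg2, hg1⟩
      by_contra hgC
      have hb := fixed_bound hsq (by norm_num) hP (le_refl N)
        (fun z hz => inverts_of_not_mem hP hg hg2 hgC hz)
      rw [card_fixed_eq hc, hf16, hNi] at hb
      omega
    set m := Nat.card {x : G // x ∈ N ∧ IsConj s x} with hm
    have hm1 : (m + 1) * 5 ≤ Nat.card C := by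
      have hle : Nat.card (Option {x : G // x ∈ N ∧ IsConj s x} × P) ≤ Nat.card C := by
        refine Nat.card_le_card_of_injective (fun q => (⟨(q.1.elim 1 fun x => x.1) * q.2.1, mul_mem
          (match q.1 with | none => one_mem C | some x => (hsub x.1 x.2.1 x.2.2).1) (hPC q.2.2)⟩ : C)) ?_
        rintro ⟨o, z⟩ ⟨o', z'⟩ e
        have e' : (o.elim 1 fun x => x.1) * (z : G) = (o'.elim 1 fun x => x.1) * (z' : G) :=
          congrArg Subtype.val e
        have hprop : ∀ o : Option {x : G // x ∈ N ∧ IsConj s x},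
            (o.elim 1 fun x => x.1) * (o.elim 1 fun x => x.1) = 1 ∧ (o.elim 1 fun x => x.1) ∈ C := by
          rintro (_ | x)
          · exact ⟨one_mul 1, one_mem C⟩
          · exact ⟨(hsub x.1 x.2.1 x.2.2).2.1, (hsub x.1 x.2.1 x.2.2).1⟩
        have hcm : ∀ (o : Option {x : G // x ∈ N ∧ IsConj s x}) (y : P),
            Commute (o.elim 1 fun x => x.1) (y : G) := fun o y =>
          (mem_centralizer_iff.1 (hprop o).2 y y.2).symm
        have ez : (z : G) * z = (z' : G) * z' := by
          have h2 : (o.elim 1 fun x => x.1) * (z : G) * ((o.elim 1 fun x => x.1) * (z : G)) =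
              (o'.elim 1 fun x => x.1) * (z' : G) * ((o'.elim 1 fun x => x.1) * (z' : G)) := by rw [e']
          rwa [(hcm o z).symm.mul_mul_mul_comm, (hcm o' z').symm.mul_mul_mul_comm, (hprop o).1,
            (hprop o').1, one_mul, one_mul] at h2
        have hzz : z = z' := (powCoprime (show (Nat.card P).Coprime 2 by rw [hP]; norm_num)).injective
          (by apply Subtype.ext; simpa [powCoprime_apply, pow_two] using ez)
        subst hzz
        have e2 := mul_right_cancel e'
        refine Prod.ext ?_ rfl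
        rcases o with _ | x <;> rcases o' with _ | x'
        · rfl
        · exact absurd e2.symm (hsub x'.1 x'.2.1 x'.2.2).2.2
        · exact absurd e2 (hsub x.1 x.2.1 x.2.2).2.2
        · exact congrArg some (Subtype.ext e2)
      rwa [Nat.card_prod, Finite.card_option, hP] at hle
    have hcount := card_fixed_mul N s
    rw [hf16, hN160] at hcount
    set H := centralizer ({s} : Set G) with hHdef
    have hPH : P ≤ H := fun z hz => mem_centralizer_singleton_iff.2 (mem_centralizer_iff.1 hsC z hz)
    have hK : Nat.card ↥(H ⊓ N) = 160 := by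
      have a := card_dvd_of_le (le_inf hTs hTN : T' ≤ H ⊓ N)
      have b := card_dvd_of_le (le_inf hPH hPN : P ≤ H ⊓ N)
      have c := card_dvd_of_le (inf_le_right : H ⊓ N ≤ N)
      rw [hT'] at a; rw [hP] at b; rw [hN160] at c
      exact Nat.dvd_antisymm c (Nat.Coprime.mul_dvd_of_dvd_of_dvd (by norm_num : Nat.Coprime 32 5) a b)
    obtain ⟨q, hq, hHq⟩ := index_normalizer_mod hsq hP hPH
    change Nat.card H = Nat.card ↥(H ⊓ N) * q at hHq
    rw [hK] at hHq
    change 16 * 160 = Nat.card H * m at hcount
    rw [hHq] at hcount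
    have hqm : q * m = 16 := by nlinarith
    have hq16 : q ∣ 16 := ⟨m, hqm.symm⟩
    have hH : Nat.card H ∣ 5760 := h ▸ H.card_subgroup_dvd_card
    rw [hHq] at hH
    have hqc : q = 1 ∨ q = 16 := by
      have : q ∈ ({1, 16} : Finset ℕ) := by
        rw [show ({1, 16} : Finset ℕ) = (Nat.divisors 16).filter (· % 5 = 1) by decide +kernel]
        exact Finset.mem_filter.2 ⟨Nat.mem_divisors.2 ⟨hq16, by norm_num⟩, hq⟩
      simpa using this
    rcases hqc with rfl | rfl
    · rcases hi' with rfl | rfl <;> omega
    · norm_num at hH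
  · -- ninety-six
    rw [hn] at hNmul hNi
    have hC : Nat.card C = 15 ∨ Nat.card C = 30 := by rcases hi' with rfl | rfl <;> omega
    obtain ⟨R⟩ : Nonempty (Sylow 3 C) := inferInstance
    have hR : Nat.card (R : Subgroup C) = 3 := by
      rcases hC with e | e
      · simpa using card_sylow_subgroup R (k := 1) (m := 5) (by rw [e]; norm_num) (by norm_num)
      · simpa using card_sylow_subgroup R (k := 1) (m := 10) (by rw [e]; norm_num) (by norm_num)
    obtain ⟨c₀, hc₀⟩ := exists_prime_orderOf_dvd_card' (G := (R : Subgroup C)) 3 (by rw [hR])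
    set c : G := ((c₀ : C) : G) with hcdef
    have hco : orderOf c = 3 := by rw [hcdef, Subgroup.orderOf_coe, Subgroup.orderOf_coe, hc₀]
    have hcC : c ∈ C := (c₀ : C).2
    have hsing : Nat.card (Sylow 3 C) = 1 := by
      have hidx : (R : Subgroup C).index * 3 = Nat.card C := by
        have h' := (R : Subgroup C).card_mul_index
        rw [hR] at h'; omega
      have hd3 := R.card_dvd_index
      have hmod := card_sylow_modEq_one 3 C
      unfold Nat.ModEq at hmod
      have hle : Nat.card (Sylow 3 C) ≤ (R : Subgroup C).index :=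
        Nat.le_of_dvd (Nat.pos_of_ne_zero Subgroup.index_ne_zero_of_finite) hd3
      by_contra hne
      have h10 : Nat.card (Sylow 3 C) = 10 ∧ Nat.card C = 30 := by
        have hk := Nat.mem_divisors.2 ⟨hd3, Subgroup.index_ne_zero_of_finite⟩
        rcases hC with e | e
        · rw [show (R : Subgroup C).index = 5 by omega,
            show Nat.divisors 5 = ({1, 5} : Finset ℕ) by decide] at hk
          simp at hk; omega
        · rw [show (R : Subgroup C).index = 10 by omega,
            show Nat.divisors 10 = ({1, 2, 5, 10} : Finset ℕ) by decide] at hk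
          simp at hk; omega
      have hnR : (normalizer ((R : Subgroup C) : Set C)).index = 10 :=
        R.card_eq_index_normalizer.symm.trans h10.1
      have hmulR := (normalizer ((R : Subgroup C) : Set C)).card_mul_index
      rw [hnR, h10.2] at hmulR
      have hPR : P.subgroupOf C ≤ normalizer ((R : Subgroup C) : Set C) := by
        intro z hz
        rw [mem_normalizer_iff]
        intro w
        have hcw : z * w = w * z := Subtype.ext (mem_centralizer_iff.1 w.2 _ (mem_subgroupOf.1 hz))
        rw [hcw, mul_inv_cancel_right]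
      have := card_dvd_of_le hPR
      rw [Nat.card_congr (subgroupOfEquivOfLe hPC).toEquiv, hP] at this
      rw [show Nat.card (normalizer ((R : Subgroup C) : Set C)) = 3 by omega] at this
      norm_num at this
    haveI : Subsingleton (Sylow 3 C) := (Finite.card_le_one_iff_subsingleton).1 hsing.le
    have hNM : N ≤ normalizer ((zpowers c : Subgroup G) : Set G) := by
      intro n hn
      have hRc : (R : Subgroup C).map C.subtype = zpowers c := by
        refine (eq_of_le_of_card_ge (zpowers_le.2 (mem_map.2 ⟨(c₀ : C), c₀.2, rfl⟩)) ?_).symm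
        rw [Nat.card_congr (equivMapOfInjective _ _ C.subtype_injective).toEquiv.symm, hR, Nat.card_zpowers]
        exact hco.ge
      rw [mem_normalizer_iff_map_conj_eq, MonoidHom.map_zpowers]
      show zpowers (n * c * n⁻¹) = zpowers c
      have hmem : n * c * n⁻¹ ∈ C := by simpa using hCnormal n⁻¹ (inv_mem hn) c hcC
      have ho : orderOf (⟨n * c * n⁻¹, hmem⟩ : C) = 3 := by
        rw [← Subgroup.orderOf_coe]
        show orderOf (n * c * n⁻¹) = 3
        rw [← hco, ← orderOf_injective (MulAut.conj n).toMonoidHom (MulEquiv.injective _) c]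
        rfl
      have hpg : IsPGroup 3 (zpowers (⟨n * c * n⁻¹, hmem⟩ : C)) :=
        IsPGroup.of_card (n := 1) (by rw [Nat.card_zpowers, ho]; norm_num)
      obtain ⟨R₂, hR₂⟩ := hpg.exists_le_sylow
      rw [Subsingleton.elim R₂ R] at hR₂
      refine eq_of_le_of_card_ge (zpowers_le.2 ?_) ?_
      · rw [← hRc]; exact ⟨_, hR₂ (mem_zpowers _), rfl⟩
      · rw [Nat.card_zpowers, Nat.card_zpowers, hco]
        rw [← Subgroup.orderOf_coe] at ho
        exact ho.ge
    set M := normalizer ((zpowers c : Subgroup G) : Set G) with hMdef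
    have hMtop : M ≠ ⊤ := by
      intro e
      rcases (normalizer_eq_top_iff.1 e).eq_bot_or_eq_top with e | e
      · rw [zpowers_eq_bot] at e; rw [e, orderOf_one] at hco; norm_num at hco
      · have := congrArg (fun K : Subgroup G => Nat.card K) e
        simp only [Nat.card_zpowers, card_top, hco, h] at this
        norm_num at this
    obtain ⟨q, hq, hMq⟩ := index_normalizer_mod hsq hP (hPN.trans hNM)
    change Nat.card M = Nat.card ↥(M ⊓ N) * q at hMq
    rw [inf_eq_right.2 hNM, show Nat.card N = 60 by omega] at hMq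
    have hMmul := M.card_mul_index
    rw [h, hMq] at hMmul
    have hq96 : q ∣ 96 := ⟨M.index, by rw [mul_assoc] at hMmul; omega⟩
    have h9M : 9 ∣ Nat.card M := by
      obtain ⟨T, hT, hle⟩ := Sylow.exists_subgroup_card_pow_succ (G := G) (p := 3) (n := 1) (H := zpowers c)
        (by rw [h]; norm_num) (by rw [Nat.card_zpowers, hco]; norm_num)
      have hT9 : Nat.card T = 9 := by rw [hT]; norm_num
      haveI := isMulCommutative_of_card_prime_sq (p := 3) T (by rw [hT])
      have hTM : T ≤ M := by
        refine le_trans ?_ (centralizer_le_normalizer _)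
        intro t ht
        rw [mem_centralizer_iff]
        intro z hz
        exact congrArg Subtype.val (IsMulCommutative.is_comm.comm (⟨z, hle hz⟩ : T) ⟨t, ht⟩)
      exact hT9 ▸ card_dvd_of_le hTM
    have hqc : q = 1 ∨ q = 6 ∨ q = 16 ∨ q = 96 := by
      have : q ∈ ({1, 6, 16, 96} : Finset ℕ) := by
        rw [show ({1, 6, 16, 96} : Finset ℕ) = (Nat.divisors 96).filter (· % 5 = 1) by decide +kernel]
        exact Finset.mem_filter.2 ⟨Nat.mem_divisors.2 ⟨hq96, by norm_num⟩, hq⟩
      simpa using this
    rcases hqc with rfl | rfl | rfl | rfl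
    · omega
    · refine PlaneSixteen.false_of_plane h hco hP hcC hNM ?_ (show M.index = 16 by omega)
      rintro ⟨k, hk⟩
      change Nat.card C = 9 * k at hk
      omega
    · have h6 : M.index = 6 := by omega
      have := two_mul_card_dvd_factorial hG M hMtop
      rw [h6, h] at this
      norm_num [Nat.factorial] at this
    · exact hMtop (index_eq_one.1 (by omega))
  · -- five hundred and seventy-six
    rw [hn] at hNmul hNi
    have hC5 : Nat.card C = 5 := by
      have h5C : 5 ∣ Nat.card C := hP ▸ card_dvd_of_le hPC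
      rcases hi' with rfl | rfl <;> omega
    have hCP : C = P := (eq_of_le_of_card_ge hPC (by rw [hC5, hP])).symm
    have hN10 : Nat.card N = 10 := by omega
    letI := Fintype.ofFinite G
    obtain ⟨x₀, hx₀, hx₀1⟩ := DefectOne.exists_mem_ne_one (P := Q) hP
    have hperf := commutator_eq_top hG
    obtain ⟨χ, f, D, s, ε, u, hχ, hχ1, hfd, hDd, hf1, hsum, hs, hε, hcong, hone, hall⟩ :=
      DegreeRelation.exists_relation hperf Q le_rfl hP hCP (by rw [hN10]) hx₀ hx₀1
    have hz : ∀ z : G, orderOf z = 2 → (Brauer43.pairsOf z x₀).Nonempty →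
        ∃ a : G, IsConj z a ∧ orderOf a = 2 ∧ (Brauer43.pairsOf a x₀).card = 5 := by
      intro z hzo hne
      obtain ⟨⟨a, b⟩, hab⟩ := hne
      simp only [Brauer43.pairsOf, Finset.mem_filter, Finset.mem_univ, true_and] at hab
      obtain ⟨ha, hb, habx⟩ := hab
      have hz2 : z * z = 1 := by rw [← pow_two, ← hzo, pow_orderOf_eq_one]
      have hinv : ∀ w : G, IsConj w z → w * w = 1 ∧ w ≠ 1 := by
        intro w hw
        obtain ⟨k, rfl⟩ := isConj_iff.1 hw.symm
        refine ⟨by rw [conj_mul, hz2, mul_one, mul_inv_cancel], ?_⟩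
        rw [ne_eq, conj_eq_one_iff]
        rintro rfl; simp at hzo
      obtain ⟨ha2, ha1⟩ := hinv a ha
      obtain ⟨hb2, -⟩ := hinv b hb
      have haN : a ∈ N := by
        refine Char.mem_normalizer_of_conj_mem (P := P) (Fact.out : Nat.Prime 5) hP hx₀ hx₀1 ?_
        have : a * x₀ * a⁻¹ = x₀⁻¹ := by
          rw [← habx, inv_eq_of_mul_eq_one_right ha2, mul_inv_rev, inv_eq_of_mul_eq_one_right hb2,
            inv_eq_of_mul_eq_one_right ha2, ← mul_assoc a a b, ha2, one_mul]
        rw [this]
        exact inv_mem hx₀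
      have hao : orderOf a = 2 := orderOf_eq_prime (by rw [pow_two, ha2]) ha1
      have haP : a ∉ P := fun h' => by
        have := P.orderOf_dvd_natCard h'
        rw [hao, hP] at this; norm_num at this
      exact ⟨a, ha.symm, hao, DegreeSquare.card_pairs hP (by norm_num) hCP haN haP ha2 hx₀ hx₀1⟩
    -- the sign
    obtain ⟨t₀, ht₀⟩ := exists_prime_orderOf_dvd_card' (G := N) 2 (by rw [hN10]; norm_num)
    set t : G := (t₀ : G) with htdef
    have hto : orderOf t = 2 := by rw [htdef, Subgroup.orderOf_coe, ht₀]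
    have ht2 : t * t = 1 := by rw [← pow_two, ← hto, pow_orderOf_eq_one]
    have ht1 : t ≠ 1 := fun e => by rw [e, orderOf_one] at hto; norm_num at hto
    have htP : t ∉ P := fun h' => by
      have := P.orderOf_dvd_natCard h'
      rw [hto, hP] at this; norm_num at this
    have hpairs := DegreeSquare.card_pairs hP (by norm_num) hCP t₀.2 htP ht2 hx₀ hx₀1
    have ht := (hall t ht2 ht1).2
    rw [hpairs, h] at ht
    have hD0 : 0 < D := Nat.pos_of_dvd_of_pos hDd Nat.card_pos
    have hes : ε * s = 1 := by
      rcases hε with rfl | rfl <;> rcases hs with rfl | rfl <;> try norm_num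
      all_goals
        have hpos : (0 : ℤ) < ((5760 * 5 * f * D : ℕ) : ℤ) := by
          exact_mod_cast Nat.mul_pos (Nat.mul_pos (by norm_num) (by omega)) hD0
        have := sq_nonneg (((centralizer ({t} : Set G)).index : ℤ) * ((f : ℤ) - u t))
        linarith
    rw [h] at hsum hfd hDd
    have hfD : (f = 4 ∧ D = 3) ∨ (f = 9 ∧ D = 8) := by
      rcases hs with rfl | rfl
      · have : ε = 1 := by simpa using hes
        subst this
        have hD : D = f + 1 := by omega
        subst hD
        exact absurd hcong ((degrees hfd hf1).1 (by simpa [two_mul] using hsum) hDd)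
      · have : ε = -1 := by omega
        subst this
        have hD : D = f - 1 := by omega
        subst hD
        rcases (degrees hfd hf1).2 (by simpa using hsum) hDd (by simpa using hcong) with rfl | rfl
        · exact Or.inl ⟨rfl, rfl⟩
        · exact Or.inr ⟨rfl, rfl⟩
    rcases hfD with ⟨rfl, rfl⟩ | ⟨rfl, rfl⟩
    · rw [hes, one_mul] at ht
      set w := ((centralizer ({t} : Set G)).index : ℤ) * (((4 : ℕ) : ℤ) - u t) with hw
      clear_value w
      norm_num at ht
      have h1 : w.natAbs * w.natAbs = 345600 := by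
        have := congrArg Int.natAbs ht
        simpa [pow_two, Int.natAbs_mul] using this.symm
      rcases Nat.lt_or_ge w.natAbs 588 with hlt | hge
      · have := Nat.mul_le_mul (Nat.le_of_lt_succ hlt) (Nat.le_of_lt_succ hlt); omega
      · have := Nat.mul_le_mul hge hge; omega
    obtain ⟨S, hS⟩ := Sylow.exists_subgroup_card_pow_prime (G := G) 2 (n := 7) (by rw [h]; norm_num)
    obtain ⟨z, hzS, hzo, hSz⟩ := exists_central_involution (IsPGroup.of_card (n := 7) (by rw [hS]))
      (le_normalizer (H := S)) (by rw [hS]; norm_num)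
    have hkle : (centralizer ({z} : Set G)).index ≤ 45 := by
      have h128 := card_dvd_of_le hSz
      rw [hS] at h128
      have hmul := (centralizer ({z} : Set G)).card_mul_index
      rw [h] at hmul
      obtain ⟨k, hk⟩ := h128
      rw [hk] at hmul
      norm_num at hmul
      have : k * (centralizer ({z} : Set G)).index = 45 := by nlinarith
      have hk0 : k ≠ 0 := by rintro rfl; simp at this
      exact le_of_le_of_eq (Nat.le_mul_of_pos_left _ (Nat.pos_of_ne_zero hk0)) this
    have hz2 : z * z = 1 := by rw [← pow_two, ← hzo, pow_orderOf_eq_one]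
    have hz1 : z ≠ 1 := fun e => by rw [e, orderOf_one] at hzo; norm_num at hzo
    obtain ⟨huz, hkz⟩ := hall z hz2 hz1
    by_cases hne : (Brauer43.pairsOf z x₀).Nonempty
    · obtain ⟨a, hza, hao, hcard⟩ := hz z hzo hne
      have hka : (centralizer ({a} : Set G)).index ≤ 45 := by
        have h1 := (centralizer ({a} : Set G)).card_mul_index
        have h2 := (centralizer ({z} : Set G)).card_mul_index
        rw [card_centralizer_conj hza] at h1
        rw [Nat.eq_of_mul_eq_mul_left Nat.card_pos (h1.trans h2.symm)]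
        exact hkle
      have ha2 : a * a = 1 := by rw [← pow_two, ← hao, pow_orderOf_eq_one]
      have ha1 : a ≠ 1 := fun e => by rw [e, orderOf_one] at hao; norm_num at hao
      obtain ⟨hua, hka'⟩ := hall a ha2 ha1
      rw [hcard, h, hes, one_mul] at hka'
      obtain ⟨k, hk, hkle'⟩ := Char.O7920.exists_mod_four hperf χ hao
      have hcd : charDegree (χ : G → ℂ) = 9 := by
        have h' := Char.apply_one_eq_charDegree (Char.isCharacter_of_isIrr χ.2)
        rw [hχ1] at h'
        exact_mod_cast h'.symm
      rw [hcd] at hk hkle'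
      have hu9 : u a = 9 - 4 * k := by
        rw [hua] at hk
        have h' : ((u a : ℤ) : ℂ) = (((9 - 4 * k : ℤ)) : ℂ) := by rw [hk]; push_cast; ring
        exact_mod_cast h'
      rw [hu9] at hka'
      generalize (centralizer ({a} : Set G)).index = K at hka hka'
      norm_num at hka'
      have hb : ((K : ℤ) * (4 * k)) ≤ 45 * 16 := by
        have : (k : ℤ) ≤ 4 := by omega
        have : (K : ℤ) ≤ 45 := by omega
        nlinarith
      have h0 : (0 : ℤ) ≤ (K : ℤ) * (4 * k) := by positivity
      nlinarith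
    · rw [Finset.not_nonempty_iff_eq_empty.1 hne, Finset.card_empty, mul_zero, zero_mul, zero_mul, Nat.cast_zero,
        mul_zero, eq_comm, sq_eq_zero_iff, mul_eq_zero] at hkz
      rcases hkz with hk0 | hu
      · exact Subgroup.index_ne_zero_of_finite (Nat.cast_eq_zero.1 hk0)
      norm_num at hu
      have hker : z ∈ CharKernel.kerChar (Char.isCharacter_of_isIrr χ.2) := by
        rw [CharKernel.mem_kerChar, huz, hχ1, show u z = 9 by linarith]
        norm_num
      rcases (CharKernel.kerChar_normal (Char.isCharacter_of_isIrr χ.2)).eq_bot_or_eq_top with hb | hb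
      · rw [hb, mem_bot] at hker
        exact hz1 hker
      · have hall1 : ∀ g : G, (χ : G → ℂ) g = 9 := fun g => by
          have := (CharKernel.mem_kerChar (Char.isCharacter_of_isIrr χ.2) g).1 (hb ▸ mem_top g)
          rw [this, hχ1]
          norm_num
        have h0 := Char.classInner_irr_ne χ.2 (Block.oneIrr G).2 (fun e => hχ (Subtype.ext e))
        have h1 : ∀ g : G, (χ : G → ℂ) g * starRingEnd ℂ ((Block.oneIrr G : G → ℂ) g) = 9 := fun g => by
          rw [hall1, Block.oneIrr_apply, map_one, mul_one]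
        simp [classInner, h1] at h0

end Cfsg.Agent.S0980
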