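import Cfsg.Statements.S0981
import Cfsg.Agent.Lib.PSLTwo.RecogCount

set_option autoImplicit false
open Cfsg

namespace Cfsg.Agent.S0981

/-- A simple group of order 4080 is isomorphic to the projective special linear group of dimension 2 over the field with 16 elements. -/
theorem result {G : Type*} [Group G] [Finite G] [IsSimpleGroup G] (h : Nat.card G = 4080) {F : Type*} [Field F] [Fintype F] (hF : Fintype.card F = 16) : Nonempty (G ≃* Matrix.ProjectiveSpecialLinearGroup (Fin 2) F) := by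
  classical
  haveI : Fact (Nat.Prime 2) := ⟨Nat.prime_two⟩
  haveI : Fact (Nat.Prime 3) := ⟨Nat.prime_three⟩
  haveI : Fact (Nat.Prime 5) := ⟨Nat.prime_five⟩
  haveI : Fact (Nat.Prime 17) := ⟨by norm_num⟩
  have hnc : ¬ IsMulCommutative G :=
    Lib.SmallSimple.not_isMulCommutative_of_card (by rw [h]; norm_num)
  have hp3 : ∀ P : Sylow 3 G, Nat.card (P : Subgroup G) = 3 := fun P => by
    simpa using Lib.SmallSimple.card_sylow_subgroup P (k := 1) (m := 1360) h (by norm_num)
  have hp5 : ∀ P : Sylow 5 G, Nat.card (P : Subgroup G) = 5 := fun P => by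
    simpa using Lib.SmallSimple.card_sylow_subgroup P (k := 1) (m := 816) h (by norm_num)
  have hp17 : ∀ P : Sylow 17 G, Nat.card (P : Subgroup G) = 17 := fun P => by
    simpa using Lib.SmallSimple.card_sylow_subgroup P (k := 1) (m := 240) h (by norm_num)
  -- the prime 17
  have hn17 : Nat.card (Sylow 17 G) = 120 := by
    have hnum : ∀ n < 241, n ∣ 240 → n % 17 = 1 → n = 1 ∨ n = 120 := by decide +kernel
    obtain ⟨h1, h2, -⟩ := Lib.SmallSimple.card_sylow_facts (p := 17) hnc (by rw [h]; norm_num)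
    have hd := Lib.PSLTwo.card_sylow_dvd (G := G) (p := 17) (k := 1) (m := 240) h (by norm_num)
    exact (hnum _ (Nat.lt_succ_of_le (Nat.le_of_dvd (by norm_num) hd)) hd h2).resolve_left h1.ne'
  have hc17 : ∀ P : Sylow 17 G, Nat.card (Subgroup.centralizer ((P : Subgroup G) : Set G)) = 17 := by
    intro P
    obtain ⟨e, he1, -, ⟨c, hc⟩, hm⟩ := Lib.PSLTwo.sylow_prime_data hnc P (hp17 P)
    rw [hn17, h, hc] at hm
    rw [hc]
    have hec : e * c = 2 := by linarith [hm, show 120 * (e * (17 * c)) = 2040 * (e * c) by ring]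
    have he2 : e ≤ 2 := Nat.le_of_dvd (by norm_num) ⟨c, hec.symm⟩
    interval_cases e
    omega
  have hS17 : 1920 ≤ Nat.card {g : G // 17 ∣ orderOf g} := by
    have := Lib.PSLTwo.card_singular_ge hp17 (c := 17) (fun P => (hc17 P).ge)
    rwa [hn17] at this
  -- Sylow numbers for 3 and 5
  have hbig : ∀ (p : ℕ) [Fact p.Prime], p ∣ Nat.card G → 17 ≤ Nat.card (Sylow p G) := by
    intro p _ hp
    obtain ⟨-, -, h3⟩ := Lib.SmallSimple.card_sylow_facts (p := p) hnc hp
    by_contra hlt
    exact absurd ((Nat.Prime.dvd_factorial (by norm_num : Nat.Prime 17)).1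
      ((dvd_mul_of_dvd_right (by rw [h]; norm_num : 17 ∣ Nat.card G) 2).trans h3)) hlt
  have hc3 : ∀ P : Sylow 3 G,
      Nat.card (Sylow 3 G) * (2 * Nat.card (Subgroup.centralizer ((P : Subgroup G) : Set G))) = 4080 := by
    intro P
    obtain ⟨e, he1, he, -, hm⟩ := Lib.PSLTwo.sylow_prime_data hnc P (hp3 P)
    obtain rfl : e = 2 := by have := Nat.le_of_dvd (by norm_num) he; omega
    exact hm.trans h
  have hd5 := Lib.PSLTwo.card_sylow_dvd (G := G) (p := 5) (k := 1) (m := 816) h (by norm_num)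
  have hn5 : Nat.card (Sylow 5 G) = 136 := by
    have hnum : ∀ n < 817, n ∣ 816 → n % 5 = 1 → 17 ≤ n → n = 51 ∨ n = 136 ∨ n = 816 := by
      decide +kernel
    obtain ⟨-, h2, -⟩ := Lib.SmallSimple.card_sylow_facts (p := 5) hnc (by rw [h]; norm_num)
    obtain ⟨Q⟩ : Nonempty (Sylow 5 G) := inferInstance
    rcases hnum _ (Nat.lt_succ_of_le (Nat.le_of_dvd (by norm_num) hd5)) hd5 h2
        (hbig 5 (by rw [h]; norm_num)) with h51 | h136 | h816
    · exfalso
      have hc5 : ∀ Q : Sylow 5 G,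
          20 ≤ Nat.card (Subgroup.centralizer ((Q : Subgroup G) : Set G)) ∧
          ¬ 3 ∣ Nat.card (Subgroup.centralizer ((Q : Subgroup G) : Set G)) := by
        intro Q
        obtain ⟨e, he1, he, -, hm⟩ := Lib.PSLTwo.sylow_prime_data hnc Q (hp5 Q)
        rw [h51, h] at hm
        have := Nat.le_of_dvd (by norm_num) he
        interval_cases e <;> omega
      have hS5 := Lib.PSLTwo.card_singular_ge hp5 (c := 20) (fun Q => (hc5 Q).1)
      rw [h51] at hS5
      obtain ⟨R⟩ : Nonempty (Sylow 3 G) := inferInstance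
      have hc3' : ∀ P : Sylow 3 G, Nat.card (Subgroup.centralizer ((P : Subgroup G) : Set G)) =
          2040 / Nat.card (Sylow 3 G) := fun P => by
        have := hc3 P
        rw [show 2040 = Nat.card (Sylow 3 G) *
          Nat.card (Subgroup.centralizer ((P : Subgroup G) : Set G)) by linarith,
          Nat.mul_div_cancel_left _ Nat.card_pos]
      have hS3 := Lib.PSLTwo.card_singular_ge hp3 (fun P => (hc3' P).ge)
      have h5' : ∀ g : G, 5 ∣ orderOf g → ¬ 3 ∣ orderOf g := fun g hg h3g => by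
        obtain ⟨Q, hQ⟩ := Lib.PSLTwo.exists_sylow_zpowers hp5 (orderOf_pow_orderOf_div (orderOf_pos g).ne' hg)
        have hmem : g ∈ Subgroup.centralizer ((Q : Subgroup G) : Set G) := by
          rw [Subgroup.mem_centralizer_iff, hQ]
          rintro z ⟨i, rfl⟩
          exact (((Commute.refl g).pow_left _).zpow_left i).eq
        exact (hc5 Q).2 (h3g.trans (by rw [← Subgroup.orderOf_mk g hmem]; exact orderOf_dvd_natCard _))
      have h35 := Lib.PSLTwo.card_add_le_of_disjoint (P := fun g : G => 3 ∣ orderOf g)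
        (Q := fun g => 5 ∣ orderOf g) (R := fun g => 3 ∣ orderOf g ∨ 5 ∣ orderOf g)
        (fun _ => Or.inl) (fun _ => Or.inr) (fun g a b => h5' g b a)
      have hall := Lib.PSLTwo.card_add_le_of_disjoint (P := fun g : G => 17 ∣ orderOf g)
        (Q := fun g => 3 ∣ orderOf g ∨ 5 ∣ orderOf g) (R := fun _ => True)
        (fun _ _ => trivial) (fun _ _ => trivial) (fun g a b => b.elim
          (Lib.PSLTwo.not_dvd_both hp17 hc17 (by norm_num) a)
          (Lib.PSLTwo.not_dvd_both hp17 hc17 (by norm_num) a))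
      rw [Nat.card_congr (Equiv.subtypeUnivEquiv (p := fun _ : G => True) fun _ => trivial), h] at hall
      have hn3 : Nat.card (Sylow 3 G) ∣ 2040 := ⟨_, (by have := hc3 R; linarith :
        2040 = Nat.card (Sylow 3 G) * Nat.card (Subgroup.centralizer ((R : Subgroup G) : Set G)))⟩
      have hnum3 : ∀ n < 1361, n ∣ 1360 → n % 3 = 1 → 17 ≤ n → n ∣ 2040 →
          1360 ≤ n * (2040 / n - 2040 / n / 3) := by decide +kernel
      have hd3 := Lib.PSLTwo.card_sylow_dvd (G := G) (p := 3) (k := 1) (m := 1360) h (by norm_num)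
      obtain ⟨-, h23, -⟩ := Lib.SmallSimple.card_sylow_facts (p := 3) hnc (by rw [h]; norm_num)
      have := hnum3 _ (Nat.lt_succ_of_le (Nat.le_of_dvd (by norm_num) hd3)) hd3 h23
        (hbig 3 (by rw [h]; norm_num)) hn3
      omega
    · exact h136
    · exfalso
      refine Lib.SmallSimple.card_sylow_ne_index hnc Q (by rw [h]; norm_num) ?_ ?_
      · haveI := isCyclic_of_prime_card (hp5 Q); infer_instance
      · have := (Q : Subgroup G).card_mul_index
        rw [hp5 Q, h] at this
        omega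
  have hc5 : ∀ Q : Sylow 5 G, Nat.card (Subgroup.centralizer ((Q : Subgroup G) : Set G)) = 15 := by
    intro Q
    obtain ⟨e, he1, he, -, hm⟩ := Lib.PSLTwo.sylow_prime_data hnc Q (hp5 Q)
    rw [hn5, h] at hm
    have := Nat.le_of_dvd (by norm_num) he
    interval_cases e <;> omega
  have hS5 := Lib.PSLTwo.card_singular_ge hp5 (c := 15) (fun Q => (hc5 Q).ge)
  rw [hn5] at hS5
  -- the prime 3
  have hn3 : Nat.card (Sylow 3 G) = 136 := by
    obtain ⟨Q⟩ : Nonempty (Sylow 5 G) := inferInstance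
    obtain ⟨⟨x, hxC⟩, hx⟩ := exists_prime_orderOf_dvd_card' (p := 3)
      (G := Subgroup.centralizer ((Q : Subgroup G) : Set G)) (by rw [hc5]; norm_num)
    rw [Subgroup.orderOf_mk] at hx
    obtain ⟨R, hR⟩ := Lib.PSLTwo.exists_sylow_zpowers hp3 hx
    set C := Subgroup.centralizer ((R : Subgroup G) : Set G) with hC
    have hQC : (Q : Subgroup G) ≤ C := by
      intro a ha
      rw [hC, Subgroup.mem_centralizer_iff, hR]
      rintro z ⟨i, rfl⟩
      exact ((show Commute x a from (Subgroup.mem_centralizer_iff.1 hxC a ha).symm).zpow_left i).eq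
    have h5C : 5 ∣ Nat.card C := by
      have := Subgroup.card_dvd_of_le hQC
      rwa [hp5] at this
    have hm := hc3 R
    rw [← hC] at hm
    have hd3 := Lib.PSLTwo.card_sylow_dvd (G := G) (p := 3) (k := 1) (m := 1360) h (by norm_num)
    have h408 : Nat.card (Sylow 3 G) ∣ 408 := by
      obtain ⟨c, hc⟩ := h5C
      exact ⟨c, by rw [hc] at hm; linarith⟩
    have hnum : ∀ n < 409, n ∣ 408 ∧ n ∣ 1360 ∧ n % 3 = 1 ∧ 17 ≤ n → n = 34 ∨ n = 136 := by
      decide +kernel
    obtain ⟨-, h23, -⟩ := Lib.SmallSimple.card_sylow_facts (p := 3) hnc (by rw [h]; norm_num)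
    refine (hnum _ (Nat.lt_succ_of_le (Nat.le_of_dvd (by norm_num) h408)) ⟨h408, hd3, h23,
      hbig 3 (by rw [h]; norm_num)⟩).resolve_left fun h34 => ?_
    rw [h34] at hm
    let Q' : Sylow 5 C := Q.subtype hQC
    have hN : Nat.card (Subgroup.normalizer ((Q' : Subgroup C) : Set C)) =
        Nat.card (C ⊓ Subgroup.normalizer ((Q : Subgroup G) : Set G) : Subgroup G) := by
      rw [show ((Q' : Subgroup C)) = (Q : Subgroup G).subgroupOf C from Q.coe_subtype hQC,
        ← Subgroup.subgroupOf_normalizer_eq hQC, ← Subgroup.inf_subgroupOf_left,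
        Nat.card_congr (Subgroup.subgroupOfEquivOfLe inf_le_left).toEquiv]
    set M := C ⊓ Subgroup.normalizer ((Q : Subgroup G) : Set G) with hM
    have h5M : 5 ∣ Nat.card M := by
      have := Subgroup.card_dvd_of_le (le_inf hQC Subgroup.le_normalizer : (Q : Subgroup G) ≤ M)
      rwa [hp5] at this
    have h3M : 3 ∣ Nat.card M := by
      have hxM : x ∈ M := by
        refine ⟨?_, Subgroup.centralizer_le_normalizer _ hxC⟩
        have := Lib.PSLTwo.le_centralizer_of_card_prime (p := 3) _ (hp3 R)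
        exact this (hR ▸ Subgroup.mem_zpowers x)
      rw [← hx, ← Subgroup.orderOf_mk x hxM]; exact orderOf_dvd_natCard _
    have h30 : Nat.card M ∣ 30 := by
      have h1 := Lib.SmallSimple.card_sylow_eq_index Q
      have h2 := Subgroup.card_mul_index (Subgroup.normalizer ((Q : Subgroup G) : Set G))
      rw [← h1, hn5, h] at h2
      rw [show 30 = Nat.card (Subgroup.normalizer ((Q : Subgroup G) : Set G)) by omega]
      exact Subgroup.card_dvd_of_le inf_le_right
    have h1 := Subgroup.card_mul_index (Subgroup.normalizer ((Q' : Subgroup C) : Set C))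
    rw [← Lib.SmallSimple.card_sylow_eq_index Q', hN, show Nat.card C = 60 by omega] at h1
    have h5' := card_sylow_modEq_one 5 C
    rw [Nat.ModEq] at h5'
    have h15 : 15 ∣ Nat.card M := Nat.Coprime.mul_dvd_of_dvd_of_dvd (m := 3) (n := 5) (by norm_num) h3M h5M
    have hle := Nat.le_of_dvd (by norm_num) h30
    generalize Nat.card M = m at *
    interval_cases m <;> omega
  have hc3' : ∀ P : Sylow 3 G, Nat.card (Subgroup.centralizer ((P : Subgroup G) : Set G)) = 15 :=
    fun P => by have := hc3 P; rw [hn3] at this; omega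
  refine Lib.PSLTwo.iso_psl_of_two_elements (k := 4) (q := 16) (by norm_num) (by norm_num)
    (by rw [h]) (fun t ht ht2 => ?_) ?_ hF
  · have hto : orderOf t = 2 := orderOf_eq_prime (by rw [pow_two, ht2]) ht
    have hno : ∀ r : ℕ, r.Prime → r ∣ Nat.card (Subgroup.centralizer ({t} : Set G)) →
        ∃ x : G, orderOf x = r ∧ Commute x t := fun r hr hd => by
      haveI := Fact.mk hr
      obtain ⟨⟨x, hx⟩, hxo⟩ := exists_prime_orderOf_dvd_card' r hd
      rw [Subgroup.orderOf_mk] at hxo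
      exact ⟨x, hxo, Subgroup.mem_centralizer_singleton_iff.1 hx⟩
    have hd := (Subgroup.centralizer ({t} : Set G)).card_subgroup_dvd_card
    rw [h] at hd
    refine Nat.Coprime.dvd_of_dvd_mul_right (n := 255) ?_ (by norm_num; exact hd)
    rw [show 255 = 3 * 5 * 17 by norm_num, Nat.coprime_mul_iff_right, Nat.coprime_mul_iff_right]
    refine ⟨⟨?_, ?_⟩, ?_⟩ <;> rw [Nat.coprime_comm, Nat.Prime.coprime_iff_not_dvd (by norm_num)] <;>
      intro hr <;> obtain ⟨x, hx, hxt⟩ := hno _ (by norm_num) hr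
    · have := Lib.PSLTwo.commute_dvd_centralizer hp3 hc3' hx hxt; rw [hto] at this; omega
    · have := Lib.PSLTwo.commute_dvd_centralizer hp5 hc5 hx hxt; rw [hto] at this; omega
    · have := Lib.PSLTwo.commute_dvd_centralizer hp17 hc17 hx hxt; rw [hto] at this; omega
  · have hT3 := Lib.PSLTwo.card_sylow_elements hp3 ⟨1, rfl⟩ (Lib.PSLTwo.sylow_prime_TI hp3)
    rw [hn3] at hT3
    have h2 : ∀ g : G, g ≠ 1 → g ^ 16 = 1 → ¬ 3 ∣ orderOf g ∧ ¬ 5 ∣ orderOf g ∧ ¬ 17 ∣ orderOf g :=
      fun g _ hg => by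
        have hd := orderOf_dvd_of_pow_eq_one hg
        exact ⟨fun e => absurd (e.trans hd) (by norm_num), fun e => absurd (e.trans hd) (by norm_num),
          fun e => absurd (e.trans hd) (by norm_num)⟩
    have a1 := Lib.PSLTwo.card_add_le_of_disjoint (P := fun g : G => g ≠ 1 ∧ g ^ 3 = 1)
      (Q := fun g => g ≠ 1 ∧ g ^ 16 = 1) (R := fun g => g ≠ 1 ∧ ¬ 5 ∣ orderOf g ∧ ¬ 17 ∣ orderOf g)
      (fun g hg => ⟨hg.1, fun e => absurd (e.trans (orderOf_dvd_of_pow_eq_one hg.2)) (by norm_num),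
        fun e => absurd (e.trans (orderOf_dvd_of_pow_eq_one hg.2)) (by norm_num)⟩)
      (fun g hg => ⟨hg.1, (h2 g hg.1 hg.2).2⟩)
      (fun g a b => (h2 g b.1 b.2).1 (Lib.PSLTwo.dvd_of_pow_eq_one' ⟨1, rfl⟩ a.1 a.2))
    have a2 := Lib.PSLTwo.card_add_le_of_disjoint (P := fun g : G => 5 ∣ orderOf g)
      (Q := fun g => g ≠ 1 ∧ ¬ 5 ∣ orderOf g ∧ ¬ 17 ∣ orderOf g)
      (R := fun g => g ≠ 1 ∧ ¬ 17 ∣ orderOf g)
      (fun g hg => ⟨fun e => by rw [e, orderOf_one] at hg; omega,
        Lib.PSLTwo.not_dvd_both hp5 hc5 (by norm_num) hg⟩)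
      (fun g hg => ⟨hg.1, hg.2.2⟩) (fun g a b => b.2.1 a)
    have a3 := Lib.PSLTwo.card_add_le_of_disjoint (P := fun g : G => 17 ∣ orderOf g)
      (Q := fun g => g ≠ 1 ∧ ¬ 17 ∣ orderOf g) (R := fun g => g ≠ 1)
      (fun g hg e => by rw [e, orderOf_one] at hg; omega) (fun g hg => hg.1) (fun g a b => b.2 a)
    letI : Fintype G := Fintype.ofFinite _
    rw [Nat.card_eq_fintype_card (α := {g : G // g ≠ 1}), Fintype.card_subtype_compl,
      Fintype.card_subtype_eq, ← Nat.card_eq_fintype_card, h] at a3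
    omega

end Cfsg.Agent.S0981
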