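import Cfsg.Statements.S1011
import Cfsg.Agent.Lib.PSLTwo.RecogCount

set_option autoImplicit false
open Cfsg

namespace Cfsg.Agent.S1011

/-- A simple group of order 504 is isomorphic to the projective special linear group of dimension 2 over the field with 8 elements. -/
theorem result {G : Type*} [Group G] [Finite G] [IsSimpleGroup G] (h : Nat.card G = 504) {F : Type*} [Field F] [Fintype F] (hF : Fintype.card F = 8) : Nonempty (G ≃* Matrix.ProjectiveSpecialLinearGroup (Fin 2) F) := by
  classical
  haveI : Fact (Nat.Prime 2) := ⟨Nat.prime_two⟩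
  haveI : Fact (Nat.Prime 3) := ⟨Nat.prime_three⟩
  haveI : Fact (Nat.Prime 7) := ⟨by norm_num⟩
  have hnc : ¬ IsMulCommutative G :=
    Lib.SmallSimple.not_isMulCommutative_of_card (by rw [h]; norm_num)
  have hidx : ∀ H : Subgroup G, H ≠ ⊤ → 8 ≤ H.index := by
    intro H hH
    by_contra hlt
    have h2 := Lib.SmallSimple.two_mul_card_dvd_factorial hnc H hH
    rw [h] at h2
    have h7 : H.index = 7 := by
      generalize H.index = n at *
      interval_cases n <;> first | rfl | exact absurd h2 (by norm_num [Nat.factorial])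
    obtain ⟨f, hf⟩ : ∃ f : G →* alternatingGroup (Fin 7), Function.Injective f :=
      h7 ▸ Lib.SmallSimple.exists_injective_alternating hnc H hH
    have hc : Nat.card (alternatingGroup (Fin 7)) = 2520 := by
      rw [nat_card_alternatingGroup, Nat.card_fin]; rfl
    haveI : IsSimpleGroup (alternatingGroup (Fin 7)) :=
      alternatingGroup.isSimpleGroup (by simp)
    have hA : ¬ IsMulCommutative (alternatingGroup (Fin 7)) :=
      Lib.SmallSimple.not_isMulCommutative_of_card (by rw [hc]; norm_num)
    have hr : Nat.card f.range = 504 := by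
      rw [← Nat.card_congr (MonoidHom.ofInjective hf).toEquiv, h]
    have hi := f.range.card_mul_index
    rw [hr, hc] at hi
    have h5 : f.range.index = 5 := by omega
    have h3 := Lib.SmallSimple.two_mul_card_dvd_factorial hA f.range
      (fun e => by rw [e, Subgroup.index_top] at h5; omega)
    rw [h5, hc] at h3
    exact absurd h3 (by norm_num [Nat.factorial])
  have hN9 : ∀ H : Subgroup G, H ≠ ⊤ → Nat.card H ≤ 63 := fun H hH => by
    have := H.card_mul_index
    have := hidx H hH
    nlinarith
  have hp7 : ∀ P : Sylow 7 G, Nat.card (P : Subgroup G) = 7 := fun P => by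
    simpa using Lib.SmallSimple.card_sylow_subgroup P (k := 1) (m := 72) h (by norm_num)
  have hp3 : ∀ P : Sylow 3 G, Nat.card (P : Subgroup G) = 9 := fun P => by
    simpa using Lib.SmallSimple.card_sylow_subgroup P (k := 2) (m := 56) h (by norm_num)
  -- Sylow 3-subgroups
  have hn3 : Nat.card (Sylow 3 G) = 28 := by
    obtain ⟨R⟩ : Nonempty (Sylow 3 G) := inferInstance
    have h1 := hidx _ (Lib.SmallSimple.sylow_normalizer_ne_top hnc R (by rw [h]; norm_num))
    rw [← Lib.SmallSimple.card_sylow_eq_index R] at h1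
    have hd := Lib.PSLTwo.card_sylow_dvd (G := G) (p := 3) (k := 2) (m := 56) h (by norm_num)
    obtain ⟨-, h2, -⟩ := Lib.SmallSimple.card_sylow_facts (p := 3) hnc (by rw [h]; norm_num)
    have hnum : ∀ n < 57, n ∣ 56 → n % 3 = 1 → 8 ≤ n → n = 28 := by decide +kernel
    exact hnum _ (Nat.lt_succ_of_le (Nat.le_of_dvd (by norm_num) hd)) hd h2 h1
  have hab3 : ∀ R : Sylow 3 G, IsMulCommutative (R : Subgroup G) := fun R =>
    IsPGroup.isMulCommutative_of_card_eq_prime_sq (p := 3) (by rw [hp3 R]; rfl)
  have hcR : ∀ R : Sylow 3 G, Subgroup.centralizer ((R : Subgroup G) : Set G) = (R : Subgroup G) := by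
    intro R
    have hle : (R : Subgroup G) ≤ Subgroup.centralizer ((R : Subgroup G) : Set G) := fun x hx =>
      Subgroup.mem_centralizer_iff.2 fun y hy =>
        congrArg Subtype.val ((hab3 R).is_comm.comm ⟨y, hy⟩ ⟨x, hx⟩)
    have hCN := Subgroup.centralizer_le_normalizer ((R : Subgroup G) : Set G)
    have hN : Nat.card (Subgroup.normalizer ((R : Subgroup G) : Set G)) = 18 := by
      have := Subgroup.card_mul_index (Subgroup.normalizer ((R : Subgroup G) : Set G))
      rw [← Lib.SmallSimple.card_sylow_eq_index R, hn3, h] at this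
      omega
    have h9 := Subgroup.card_dvd_of_le hle
    have h18 := Subgroup.card_dvd_of_le hCN
    rw [hp3] at h9
    rw [hN] at h18
    refine (Subgroup.eq_of_le_of_card_ge hle ?_).symm
    rw [hp3]
    by_contra hlt
    refine Lib.SmallSimple.not_normalizer_le_centralizer hnc R (by rw [h]; norm_num) ?_
    refine le_of_eq (Subgroup.eq_of_le_of_card_ge hCN ?_).symm
    obtain ⟨k, hk⟩ := h9
    have := Nat.le_of_dvd (by norm_num) h18
    omega
  -- Sylow 7-subgroups
  have hn7 : Nat.card (Sylow 7 G) = 36 := by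
    have hd := Lib.PSLTwo.card_sylow_dvd (G := G) (p := 7) (k := 1) (m := 72) h (by norm_num)
    obtain ⟨h1, h2, -⟩ := Lib.SmallSimple.card_sylow_facts (p := 7) hnc (by rw [h]; norm_num)
    have hnum : ∀ n < 73, n ∣ 72 → n % 7 = 1 → 1 < n → n = 8 ∨ n = 36 := by decide +kernel
    refine (hnum _ (Nat.lt_succ_of_le (Nat.le_of_dvd (by norm_num) hd)) hd h2 h1).resolve_left
      fun h8 => ?_
    obtain ⟨P⟩ : Nonempty (Sylow 7 G) := inferInstance
    obtain ⟨e, he1, he, -, hm⟩ := Lib.PSLTwo.sylow_prime_data hnc P (hp7 P)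
    rw [h8, h] at hm
    have h3C : 3 ∣ Nat.card (Subgroup.centralizer ((P : Subgroup G) : Set G)) := by
      have := Nat.le_of_dvd (by norm_num) he
      interval_cases e <;> omega
    obtain ⟨⟨x, hxC⟩, hx⟩ := exists_prime_orderOf_dvd_card' 3 h3C
    rw [Subgroup.orderOf_mk] at hx
    letI : Fintype (Sylow 7 G) := Fintype.ofFinite _
    -- `x` fixes `P` and a second point, hence all eight
    have hxP : x • P = P :=
      Sylow.smul_eq_iff_mem_normalizer.2 (Subgroup.centralizer_le_normalizer _ hxC)
    have hpx : IsPGroup 3 (Subgroup.zpowers x) := IsPGroup.of_card (n := 1)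
      (by rw [Nat.card_zpowers, hx, pow_one])
    obtain ⟨Q, hQP, hxQ⟩ : ∃ Q : Sylow 7 G, Q ≠ P ∧ x • Q = Q := by
      have hmod := hpx.card_modEq_card_fixedPoints (α := Sylow 7 G)
      rw [h8] at hmod
      have hfix : P ∈ MulAction.fixedPoints (Subgroup.zpowers x) (Sylow 7 G) := by
        rintro ⟨z, i, rfl⟩
        exact (MulAction.stabilizer G P).zpow_mem hxP i
      have h2le : 1 < Nat.card (MulAction.fixedPoints (Subgroup.zpowers x) (Sylow 7 G)) := by
        have h0 : 0 < Nat.card (MulAction.fixedPoints (Subgroup.zpowers x) (Sylow 7 G)) :=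
          Nat.card_pos_iff.2 ⟨⟨⟨P, hfix⟩⟩, inferInstance⟩
        rw [Nat.ModEq] at hmod
        omega
      haveI := Finite.one_lt_card_iff_nontrivial.1 h2le
      obtain ⟨⟨Q, hQ⟩, hne⟩ := exists_ne (⟨P, hfix⟩ :
        MulAction.fixedPoints (Subgroup.zpowers x) (Sylow 7 G))
      exact ⟨Q, fun e => hne (Subtype.ext e), hQ ⟨x, Subgroup.mem_zpowers x⟩⟩
    let F : ↥(P : Subgroup G) → {D : Sylow 7 G // D ≠ P} := fun a => ⟨(a : G) • Q, fun e => hQP
      (MulAction.injective (a : G) (e.trans
        (Sylow.smul_eq_iff_mem_normalizer.2 (Subgroup.le_normalizer a.2)).symm))⟩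
    have hF : Function.Bijective F := (Nat.bijective_iff_injective_and_card F).2 ⟨fun a b e => by
      have e' : (a : G) • Q = (b : G) • Q := congrArg Subtype.val e
      by_contra hab
      refine hQP (Lib.PSLTwo.sylow_prime_TI hp7 Q P ((b : G)⁻¹ * a)
        (fun e1 => hab (Subtype.ext (inv_mul_eq_one.1 e1).symm))
        (Lib.PSLTwo.sylow_mem_of_smul_eq P Q (mul_mem (inv_mem b.2) a.2)
          (by rw [mul_smul, e', inv_smul_smul])) (mul_mem (inv_mem b.2) a.2)), by
      rw [hp7, Nat.card_eq_fintype_card, Fintype.card_subtype_compl, Fintype.card_subtype_eq,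
        ← Nat.card_eq_fintype_card, h8]⟩
    have hall : x ∈ (MulAction.toPermHom G (Sylow 7 G)).ker := by
      rw [MonoidHom.mem_ker]
      refine Equiv.ext fun D => ?_
      show x • D = D
      by_cases hD : D = P
      · rw [hD, hxP]
      · obtain ⟨a, ha⟩ := hF.2 ⟨D, hD⟩
        have ha' : (a : G) • Q = D := congrArg Subtype.val ha
        have hcomm : (a : G) * x = x * a := Subgroup.mem_centralizer_iff.1 hxC a a.2
        rw [← ha', ← mul_smul, ← hcomm, mul_smul, hxQ]
    rcases (inferInstance : (MulAction.toPermHom G (Sylow 7 G)).ker.Normal).eq_bot_or_eq_top with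
      hb | ht
    · rw [hb, Subgroup.mem_bot] at hall
      rw [hall, orderOf_one] at hx
      omega
    · refine hQP ?_
      obtain ⟨g, hg⟩ := MulAction.exists_smul_eq G P Q
      rw [← hg]
      exact congrArg (fun σ : Equiv.Perm (Sylow 7 G) => σ P)
        ((MonoidHom.mem_ker).1 (ht ▸ Subgroup.mem_top g : g ∈ (MulAction.toPermHom G (Sylow 7 G)).ker))
  have hc7 : ∀ P : Sylow 7 G, Nat.card (Subgroup.centralizer ((P : Subgroup G) : Set G)) = 7 := by
    intro P
    obtain ⟨e, he1, he, ⟨c, hc⟩, hm⟩ := Lib.PSLTwo.sylow_prime_data hnc P (hp7 P)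
    rw [hn7, h, hc] at hm
    rw [hc]
    have := Nat.le_of_dvd (by norm_num) he
    interval_cases e <;> omega
  have hS7 := Lib.PSLTwo.card_singular_ge hp7 (c := 7) (fun P => (hc7 P).ge)
  rw [hn7] at hS7
  -- centralisers of elements of order 3
  have hC3 : ∀ x : G, orderOf x = 3 → ∃ R : Sylow 3 G,
      Subgroup.centralizer ({x} : Set G) ≤ Subgroup.normalizer ((R : Subgroup G) : Set G) ∧
      ∀ R' : Sylow 3 G, x ∈ (R' : Subgroup G) → R' = R := by
    intro x hx
    have hx1 : x ≠ 1 := fun e => by rw [e, orderOf_one] at hx; omega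
    set C := Subgroup.centralizer ({x} : Set G) with hC
    have hle : ∀ R : Sylow 3 G, x ∈ (R : Subgroup G) → (R : Subgroup G) ≤ C := fun R hR a ha =>
      Subgroup.mem_centralizer_singleton_iff.2
        (congrArg Subtype.val ((hab3 R).is_comm.comm ⟨a, ha⟩ ⟨x, hR⟩))
    obtain ⟨R, hR⟩ := (IsPGroup.of_card (p := 3) (n := 1)
      (show Nat.card (Subgroup.zpowers x) = 3 ^ 1 by
        rw [Nat.card_zpowers, hx, pow_one])).exists_le_sylow
    have hxR : x ∈ (R : Subgroup G) := hR (Subgroup.mem_zpowers x)
    have h9 : 9 ∣ Nat.card C := hp3 R ▸ Subgroup.card_dvd_of_le (hle R hxR)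
    have hCtop : C ≠ ⊤ := fun e => by
      rcases (inferInstance : (Subgroup.center G).Normal).eq_bot_or_eq_top with hb | ht
      · refine hx1 ?_
        rw [← Subgroup.mem_bot, ← hb, Subgroup.mem_center_iff]
        exact fun g => Subgroup.mem_centralizer_singleton_iff.1 (e ▸ Subgroup.mem_top g : g ∈ C)
      · exact hnc (Subgroup.center_eq_top_iff.1 ht)
    have h7C : ¬ 7 ∣ Nat.card C := fun hd => by
      obtain ⟨⟨a, ha⟩, hao⟩ := exists_prime_orderOf_dvd_card' 7 hd
      rw [Subgroup.orderOf_mk] at hao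
      have := Lib.PSLTwo.commute_dvd_centralizer hp7 hc7 hao
        (Subgroup.mem_centralizer_singleton_iff.1 ha)
      rw [hx] at this
      omega
    have hC504 := C.card_subgroup_dvd_card
    rw [h] at hC504
    have hC63 := hN9 C hCtop
    have hcardC : Nat.card C = 9 ∨ Nat.card C = 18 ∨ Nat.card C = 36 := by
      obtain ⟨k, hk⟩ := h9
      rw [hk] at h7C hC504 hC63 ⊢
      have hk7 : k ≤ 7 := by omega
      interval_cases k <;> omega
    have hn1 : Nat.card (Sylow 3 C) = 1 := by
      have hmod := card_sylow_modEq_one 3 C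
      rw [Nat.ModEq] at hmod
      let R₀ : Sylow 3 C := R.subtype (hle R hxR)
      have hR₀ : Nat.card (R₀ : Subgroup C) = 9 := by
        rw [show (R₀ : Subgroup C) = (R : Subgroup G).subgroupOf C from R.coe_subtype (hle R hxR),
          Nat.card_congr (Subgroup.subgroupOfEquivOfLe (hle R hxR)).toEquiv, hp3]
      have hd := R₀.card_dvd_index
      have hmul := (R₀ : Subgroup C).card_mul_index
      rw [hR₀] at hmul
      by_contra hne
      have h36 : Nat.card C = 36 := by
        rcases hcardC with e | e | e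
        · rw [show (R₀ : Subgroup C).index = 1 by omega] at hd
          exact absurd (Nat.dvd_one.1 hd) hne
        · rw [show (R₀ : Subgroup C).index = 2 by omega] at hd
          rcases (Nat.dvd_prime Nat.prime_two).1 hd with e' | e'
          · exact absurd e' hne
          · omega
        · exact e
      have hind : (R₀ : Subgroup C).index = 4 := by omega
      rw [hind] at hd
      have hn4 : Nat.card (Sylow 3 C) = 4 := by
        have := Nat.le_of_dvd (by norm_num) hd
        generalize Nat.card (Sylow 3 C) = n at *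
        interval_cases n <;> omega
      have hNR : (R₀ : Subgroup C) = Subgroup.normalizer ((R₀ : Subgroup C) : Set C) := by
        refine Subgroup.eq_of_le_of_card_ge Subgroup.le_normalizer ?_
        have h' := Subgroup.card_mul_index (Subgroup.normalizer ((R₀ : Subgroup C) : Set C))
        rw [← Lib.SmallSimple.card_sylow_eq_index R₀, hn4, h36] at h'
        omega
      haveI hR₀c : IsMulCommutative (R₀ : Subgroup C) :=
        IsPGroup.isMulCommutative_of_card_eq_prime_sq (p := 3) (by rw [hR₀]; rfl)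
      have hNC : Subgroup.normalizer (R₀ : Set C) ≤ Subgroup.centralizer (R₀ : Set C) := fun a ha =>
        Subgroup.mem_centralizer_iff.2 fun b hb => by
          have ha' : a ∈ (R₀ : Subgroup C) := by rw [hNR]; exact ha
          exact congrArg Subtype.val (hR₀c.is_comm.comm ⟨b, hb⟩ ⟨a, ha'⟩)
      have hK := MonoidHom.ker_transferSylow_isComplement' R₀ hNC
      set K : Subgroup G := (MonoidHom.transferSylow R₀ hNC).ker.map C.subtype with hKdef
      have hK4 : Nat.card K = 4 := by
        have := hK.card_mul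
        rw [hR₀, h36] at this
        rw [hKdef, Subgroup.card_map_of_injective C.subtype_injective]
        omega
      have hKtop : Subgroup.normalizer (K : Set G) ≠ ⊤ := fun e => by
        rcases (Subgroup.normalizer_eq_top_iff.1 e).eq_bot_or_eq_top with hb | ht
        · rw [hb, Subgroup.card_bot] at hK4; omega
        · rw [ht, Subgroup.card_top, h] at hK4; omega
      have hCK : C ≤ Subgroup.normalizer (K : Set G) := by
        have h' := Subgroup.le_normalizer_map (H := (MonoidHom.transferSylow R₀ hNC).ker) C.subtype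
        rw [Subgroup.normalizer_eq_top, ← MonoidHom.range_eq_map, Subgroup.range_subtype] at h'
        exact h'
      obtain ⟨S, hKS⟩ := (IsPGroup.of_card (p := 2) (n := 2)
        (show Nat.card K = 2 ^ 2 by rw [hK4]; rfl)).exists_le_sylow
      have hS8 : Nat.card (S : Subgroup G) = 8 := by
        simpa using Lib.SmallSimple.card_sylow_subgroup S (k := 3) (m := 63) h (by norm_num)
      have hSN : (S : Subgroup G) ≤ Subgroup.normalizer (K : Set G) := by
        have h2 : (K.subgroupOf (S : Subgroup G)).index = 2 := by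
          have := (K.subgroupOf (S : Subgroup G)).card_mul_index
          rw [Nat.card_congr (Subgroup.subgroupOfEquivOfLe hKS).toEquiv, hK4, hS8] at this
          omega
        haveI := Subgroup.normal_of_index_eq_two h2
        exact (Subgroup.normal_subgroupOf_iff_le_normalizer hKS).1 inferInstance
      have a9 := Subgroup.card_dvd_of_le hCK
      have a8 := Subgroup.card_dvd_of_le hSN
      rw [h36] at a9
      rw [hS8] at a8
      have := hN9 _ hKtop
      have := Nat.card_pos (α := Subgroup.normalizer (K : Set G))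
      omega
    haveI : Subsingleton (Sylow 3 C) := (Nat.card_eq_one_iff_unique.1 hn1).1
    refine ⟨R, ?_, fun R' hR' => ?_⟩
    · intro c hc
      have h1 : (⟨c, hc⟩ : C) • (R.subtype (hle R hxR)) = R.subtype (hle R hxR) :=
        Subsingleton.elim _ _
      have h2 : (⟨c, hc⟩ : C) ∈ Subgroup.normalizer
          ((R.subtype (hle R hxR) : Subgroup C) : Set C) := Sylow.smul_eq_iff_mem_normalizer.1 h1
      rw [Sylow.coe_subtype, ← Subgroup.subgroupOf_normalizer_eq (hle R hxR)] at h2
      exact h2
    · have h1 := congrArg (fun S : Sylow 3 C => (S : Subgroup C).map C.subtype)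
        (Subsingleton.elim (R'.subtype (hle R' hR')) (R.subtype (hle R hxR)))
      simp only [Sylow.coe_subtype, Subgroup.subgroupOf_map_subtype, inf_eq_left.2 (hle R' hR'),
        inf_eq_left.2 (hle R hxR)] at h1
      exact Sylow.ext h1
  have hTI : ∀ P Q : Sylow 3 G, ∀ g : G, g ≠ 1 → g ∈ (P : Subgroup G) → g ∈ (Q : Subgroup G) →
      P = Q := by
    intro P Q g hg hP hQ
    have h3 : 3 ∣ orderOf g := by
      refine Lib.PSLTwo.dvd_of_pow_eq_one' (m := 9) ⟨2, rfl⟩ hg ?_
      have h' := pow_card_eq_one' (x := (⟨g, hP⟩ : ↥(P : Subgroup G)))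
      rw [hp3] at h'
      exact congrArg Subtype.val h'
    obtain ⟨R, -, hu⟩ := hC3 _ (orderOf_pow_orderOf_div (orderOf_pos g).ne' h3)
    rw [hu P (pow_mem hP _), hu Q (pow_mem hQ _)]
  have hT3 := Lib.PSLTwo.card_sylow_elements hp3 ⟨2, rfl⟩ hTI
  rw [hn3] at hT3
  have h7both : ∀ g : G, 7 ∣ orderOf g → ¬ 3 ∣ orderOf g ∧ ¬ 2 ∣ orderOf g := fun g hg =>
    ⟨Lib.PSLTwo.not_dvd_both hp7 hc7 (by norm_num) hg,
      Lib.PSLTwo.not_dvd_both hp7 hc7 (by norm_num) hg⟩
  -- no elements of order six
  have h6 : ∀ y : G, orderOf y ≠ 6 := by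
    intro y hy
    have hx : orderOf (y ^ 2) = 3 := by
      rw [show y ^ 2 = y ^ (orderOf y / 3) by rw [hy]]
      exact orderOf_pow_orderOf_div (orderOf_pos y).ne' (by rw [hy]; norm_num)
    obtain ⟨R, hCN, hu⟩ := hC3 _ hx
    set C := Subgroup.centralizer ({y} : Set G) with hC
    have hCC : C ≤ Subgroup.centralizer ({y ^ 2} : Set G) := fun a ha => by
      rw [Subgroup.mem_centralizer_singleton_iff]
      exact (Commute.pow_right (Subgroup.mem_centralizer_singleton_iff.1 ha) 2).eq
    have hd := Subgroup.card_dvd_of_le (hCC.trans hCN)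
    have hN : Nat.card (Subgroup.normalizer ((R : Subgroup G) : Set G)) = 18 := by
      have := Subgroup.card_mul_index (Subgroup.normalizer ((R : Subgroup G) : Set G))
      rw [← Lib.SmallSimple.card_sylow_eq_index R, hn3, h] at this
      omega
    rw [hN] at hd
    have h6C : 6 ∣ Nat.card C := by
      rw [← hy, ← Subgroup.orderOf_mk y (Subgroup.mem_centralizer_singleton_iff.2 rfl : y ∈ C)]
      exact orderOf_dvd_natCard _
    have hC6 : Nat.card C = 6 := by
      have := Nat.le_of_dvd (by norm_num) hd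
      by_contra hne
      have hCeq : C = Subgroup.normalizer ((R : Subgroup G) : Set G) :=
        Subgroup.eq_of_le_of_card_ge (hCC.trans hCN) (by
          rw [hN]
          generalize Nat.card C = c at *
          interval_cases c <;> omega)
      have hyR : y ∈ Subgroup.centralizer ((R : Subgroup G) : Set G) :=
        Subgroup.mem_centralizer_iff.2 fun a ha =>
          Subgroup.mem_centralizer_singleton_iff.1 (hCeq ▸ Subgroup.le_normalizer ha : a ∈ C)
      rw [hcR] at hyR
      have h' : orderOf y ∣ 9 := by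
        rw [← hp3 R, ← Subgroup.orderOf_mk y hyR]; exact orderOf_dvd_natCard _
      rw [hy] at h'
      omega
    have hidx' : C.index = 84 := by have := C.card_mul_index; rw [hC6, h] at this; omega
    obtain ⟨hle, -⟩ := Lib.PSLTwo.index_centralizer_le_card (x := y)
      (P := fun g : G => orderOf g = 6) (fun a => by
        rw [← MulAut.conj_apply, MulEquiv.orderOf_eq, hy])
    rw [← hC, hidx'] at hle
    have a1 := Lib.PSLTwo.card_add_le_of_disjoint (P := fun g : G => g ≠ 1 ∧ g ^ 9 = 1)
      (Q := fun g => orderOf g = 6) (R := fun g => ¬ 7 ∣ orderOf g)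
      (fun g hg e => by
        have := e.trans (orderOf_dvd_of_pow_eq_one hg.2)
        omega)
      (fun g hg => by omega)
      (fun g a b => by
        have := orderOf_dvd_of_pow_eq_one a.2
        rw [b] at this
        omega)
    have a2 := Lib.PSLTwo.card_add_le_of_disjoint (P := fun g : G => 7 ∣ orderOf g)
      (Q := fun g => ¬ 7 ∣ orderOf g) (R := fun _ => True)
      (fun _ _ => trivial) (fun _ _ => trivial) (fun g a b => b a)
    rw [Nat.card_congr (Equiv.subtypeUnivEquiv (p := fun _ : G => True) fun _ => trivial), h] at a2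
    omega
  refine Lib.PSLTwo.iso_psl_of_two_elements (k := 3) (q := 8) (by norm_num) (by norm_num)
    (by rw [h]) (fun t ht ht2 => ?_) ?_ hF
  · have hto : orderOf t = 2 := orderOf_eq_prime (by rw [pow_two, ht2]) ht
    have hd := (Subgroup.centralizer ({t} : Set G)).card_subgroup_dvd_card
    rw [h] at hd
    refine Nat.Coprime.dvd_of_dvd_mul_right (n := 63) ?_ (by norm_num; exact hd)
    rw [show 63 = 3 * 3 * 7 by norm_num, Nat.coprime_mul_iff_right, Nat.coprime_mul_iff_right]
    refine ⟨⟨?_, ?_⟩, ?_⟩ <;> rw [Nat.coprime_comm, Nat.Prime.coprime_iff_not_dvd (by norm_num)] <;>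
      intro hr <;> obtain ⟨⟨x, hxC⟩, hx⟩ := exists_prime_orderOf_dvd_card' _ hr <;>
      rw [Subgroup.orderOf_mk] at hx <;>
      have hxt : Commute x t := Subgroup.mem_centralizer_singleton_iff.1 hxC
    · refine h6 (x * t) ?_
      rw [hxt.orderOf_mul_eq_mul_orderOf_of_coprime (by rw [hx, hto]; norm_num), hx, hto]
    · refine h6 (x * t) ?_
      rw [hxt.orderOf_mul_eq_mul_orderOf_of_coprime (by rw [hx, hto]; norm_num), hx, hto]
    · have := Lib.PSLTwo.commute_dvd_centralizer hp7 hc7 hx hxt
      rw [hto] at this; omega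
  · have h2 : ∀ g : G, g ≠ 1 → g ^ 8 = 1 → ¬ 3 ∣ orderOf g ∧ ¬ 7 ∣ orderOf g := fun g _ hg =>
      ⟨fun e => absurd (e.trans (orderOf_dvd_of_pow_eq_one hg)) (by norm_num),
        fun e => absurd (e.trans (orderOf_dvd_of_pow_eq_one hg)) (by norm_num)⟩
    have a1 := Lib.PSLTwo.card_add_le_of_disjoint (P := fun g : G => g ≠ 1 ∧ g ^ 9 = 1)
      (Q := fun g => g ≠ 1 ∧ g ^ 8 = 1) (R := fun g => g ≠ 1 ∧ ¬ 7 ∣ orderOf g)
      (fun g hg => ⟨hg.1,
        fun e => absurd (e.trans (orderOf_dvd_of_pow_eq_one hg.2)) (by norm_num)⟩)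
      (fun g hg => ⟨hg.1, (h2 g hg.1 hg.2).2⟩)
      (fun g a b => (h2 g b.1 b.2).1 (Lib.PSLTwo.dvd_of_pow_eq_one' ⟨2, rfl⟩ a.1 a.2))
    have a2 := Lib.PSLTwo.card_add_le_of_disjoint (P := fun g : G => 7 ∣ orderOf g)
      (Q := fun g => g ≠ 1 ∧ ¬ 7 ∣ orderOf g) (R := fun g => g ≠ 1)
      (fun g hg e => by rw [e, orderOf_one] at hg; omega) (fun g hg => hg.1) (fun g a b => b.2 a)
    letI : Fintype G := Fintype.ofFinite _
    rw [Nat.card_eq_fintype_card (α := {g : G // g ≠ 1}), Fintype.card_subtype_compl,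
      Fintype.card_subtype_eq, ← Nat.card_eq_fintype_card, h] at a2
    omega

end Cfsg.Agent.S1011
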