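import Cfsg.Statements.S1181
import Cfsg.Agent.Lib.Involution.IsolatedMore

set_option autoImplicit false
open Cfsg

namespace Cfsg.Agent.S1181

open Cfsg.Agent.Lib.Involution

/-- Let z be an isolated involution of the finite group G and N a normal subgroup with z ∉ N. Then the centralizer of zN in G/N is the image of C_G(z), and zN is an isolated involution of G/N. -/
theorem result {G : Type*} [Group G] [Finite G] (z : G) (hz : Cfsg.IsIsolatedInvolution z) (N : Subgroup G) [N.Normal] (hzN : z ∉ N) : Subgroup.centralizer ({(QuotientGroup.mk z : G ⧸ N)} : Set (G ⧸ N)) = (Subgroup.centralizer ({z} : Set G)).map (QuotientGroup.mk' N) ∧ Cfsg.IsIsolatedInvolution (QuotientGroup.mk z : G ⧸ N) := by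
  have hconj : ∀ g : G, Commute (QuotientGroup.mk z : G ⧸ N) (QuotientGroup.mk g * QuotientGroup.mk z * (QuotientGroup.mk g)⁻¹) →
      z * (g * z * g⁻¹) ∈ N := by
    intro g hg
    have ho := (orderOf_conj g z).trans hz.1
    have hodd : Odd (orderOf (QuotientGroup.mk' N (z * (g * z * g⁻¹)))) :=
      (iso_odd hz g).of_dvd_nat (orderOf_map_dvd _ _)
    rw [← QuotientGroup.eq_one_iff]
    refine eq_one_of_mul_self_of_odd hodd ?_
    simp only [QuotientGroup.mk'_apply, QuotientGroup.mk_mul, QuotientGroup.mk_inv]
    set a : G ⧸ N := QuotientGroup.mk z with ha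
    set b : G ⧸ N := QuotientGroup.mk g * a * (QuotientGroup.mk g)⁻¹ with hb
    have haa : a * a = 1 := by rw [ha, ← QuotientGroup.mk_mul, mul_self hz.1, QuotientGroup.mk_one]
    have hbb : b * b = 1 := by
      rw [hb, show ∀ c : G ⧸ N, c * a * c⁻¹ * (c * a * c⁻¹) = c * (a * a) * c⁻¹ from fun c => by group, haa, mul_one, mul_inv_cancel]
    calc a * b * (a * b) = a * (b * a) * b := by group
      _ = 1 := by rw [← hg.eq, ← mul_assoc a a b, haa, one_mul, hbb]
  constructor
  · apply le_antisymm
    · intro q hq
      induction q using QuotientGroup.induction_on with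
      | H g =>
        rw [Subgroup.mem_centralizer_singleton_iff] at hq
        have hmem := hconj g (by
          rw [hq, mul_inv_cancel_right])
        have ho := (orderOf_conj g z).trans hz.1
        obtain ⟨k, hk⟩ := conj_of_odd hz.1 ho (iso_odd hz g)
        set n := (z * (g * z * g⁻¹)) ^ k with hn
        refine ⟨n⁻¹ * g, ?_, ?_⟩
        · rw [SetLike.mem_coe, Subgroup.mem_centralizer_singleton_iff]
          calc n⁻¹ * g * z = n⁻¹ * (g * z * g⁻¹) * g := by group
            _ = z * (n⁻¹ * g) := by rw [← hk]; group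
        · have : (QuotientGroup.mk n : G ⧸ N) = 1 := (QuotientGroup.eq_one_iff _).mpr (pow_mem hmem k)
          rw [QuotientGroup.mk'_apply, QuotientGroup.mk_mul, QuotientGroup.mk_inv, this, inv_one, one_mul]
    · rintro _ ⟨c, hc, rfl⟩
      rw [Subgroup.mem_centralizer_singleton_iff, QuotientGroup.mk'_apply, ← QuotientGroup.mk_mul,
        ← QuotientGroup.mk_mul, Subgroup.mem_centralizer_singleton_iff.mp hc]
  · refine iso_of_odd (orderOf_two_of ?_ ?_) fun q => ?_
    · rw [← QuotientGroup.mk_mul, mul_self hz.1, QuotientGroup.mk_one]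
    · rw [Ne, QuotientGroup.eq_one_iff]; exact hzN
    · induction q using QuotientGroup.induction_on with
      | H g =>
        rw [← QuotientGroup.mk_inv, ← QuotientGroup.mk_mul, ← QuotientGroup.mk_mul, ← QuotientGroup.mk_mul]
        exact (iso_odd hz g).of_dvd_nat (orderOf_map_dvd (QuotientGroup.mk' N) _)

end Cfsg.Agent.S1181
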