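import Cfsg.Statements.S1313
import Cfsg.Agent.Lib.Components.Bender
-- import your own Cfsg.Agent.* helpers here

set_option autoImplicit false
open Cfsg

namespace Cfsg.Agent.S1313
open Subgroup Cfsg.Agent.Lib.Components
open scoped commutatorElement


/-- For a finite group H, |H| ≤ |F*(H)|!. -/
theorem result {H : Type*} [Group H] [Finite H] : Nat.card H ≤ Nat.factorial (Nat.card ↥(Cfsg.generalizedFittingSubgroup H)) := by
  classical
  let F := Cfsg.generalizedFittingSubgroup H
  let φ : H →* MulAut ↥F := MulAut.conjNormal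
  have hker : φ.ker ≤ F := by
    refine le_trans (fun g hg => ?_) centralizer_gfs_le
    refine mem_centralizer_iff.2 fun x hx => ?_
    have h1 : (φ g ⟨x, hx⟩ : H) = x := by
      rw [MonoidHom.mem_ker.1 hg]
      rfl
    rw [MulAut.conjNormal_apply] at h1
    change g * x * g⁻¹ = x at h1
    calc x * g = (g * x * g⁻¹) * g := by rw [h1]
      _ = g * x := by group
  let j : MulAut ↥F → Equiv.Perm {x : ↥F // x ≠ 1} := fun e =>
    e.toEquiv.subtypeEquiv fun x => by simp
  have hj : Function.Injective j := by
    intro e₁ e₂ he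
    ext x
    by_cases hx : x = 1
    · simp [hx]
    · have := congrArg (fun (p : Equiv.Perm {x : ↥F // x ≠ 1}) => ((p ⟨x, hx⟩ : ↥F) : H)) he
      exact this
  haveI := Fintype.ofFinite ↥F
  haveI : Finite (MulAut ↥F) := Finite.of_injective j hj
  have h1 : Nat.card ↥φ.range ≤ Nat.factorial (Nat.card ↥F - 1) := by
    refine (Nat.card_le_card_of_injective (fun e : ↥φ.range => (e : MulAut ↥F)) Subtype.val_injective).trans ?_
    refine (Nat.card_le_card_of_injective j hj).trans_eq ?_
    rw [Nat.card_eq_fintype_card, Fintype.card_perm, Fintype.card_subtype_compl,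
      Fintype.card_subtype_eq, Nat.card_eq_fintype_card]
  have h2 : Nat.card ↥φ.ker ≤ Nat.card ↥F :=
    Nat.le_of_dvd Nat.card_pos (card_dvd_of_le hker)
  have h3 : Nat.card H = Nat.card ↥φ.ker * Nat.card ↥φ.range := by
    rw [← Subgroup.index_ker, Subgroup.card_mul_index]
  rw [h3, ← Nat.mul_factorial_pred (Nat.card_pos (α := ↥F)).ne']
  exact Nat.mul_le_mul h2 h1

end Cfsg.Agent.S1313
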