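import Cfsg.Statements.S1327
import Cfsg.Agent.Lib.Components.AxB
-- import your own Cfsg.Agent.* helpers here

set_option autoImplicit false
open Cfsg

namespace Cfsg.Agent.S1327
open Subgroup Cfsg.Agent.Lib.Components
open scoped commutatorElement


/-- A finite group X is p-constrained if and only if its p-layer L_{p'}(X) is trivial (equivalently X / O_{p'}(X) has trivial layer). -/
theorem result {X : Type*} [Group X] [Finite X] (p : ℕ) [Fact p.Prime] : Cfsg.IsPConstrained p X ↔ Cfsg.pLayer p X = ⊥ := by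
  have hPO : ∀ P : Sylow p ↥(Cfsg.pPrimePCore p X),
      ((P : Subgroup ↥(Cfsg.pPrimePCore p X)).map (Cfsg.pPrimePCore p X).subtype).map
        (QuotientGroup.mk' (Cfsg.pPrimeCore p X)) = Cfsg.pCore p (X ⧸ Cfsg.pPrimeCore p X) := by
    intro P
    let q := (QuotientGroup.mk' (Cfsg.pPrimeCore p X)).comp (Cfsg.pPrimePCore p X).subtype
    have hr : q.range = Cfsg.pCore p (X ⧸ Cfsg.pPrimeCore p X) := by
      rw [MonoidHom.range_comp, range_subtype, Cfsg.pPrimePCore,
        map_comap_eq_self_of_surjective (QuotientGroup.mk'_surjective _)]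
    rw [Subgroup.map_map, ← hr]
    let R := (P : Subgroup ↥(Cfsg.pPrimePCore p X)).map q.rangeRestrict
    have hidx : ¬ p ∣ R.index := fun hd =>
      P.not_dvd_index (hd.trans (index_map_dvd _ q.rangeRestrict_surjective))
    have hp2 : IsPGroup p ↥q.range := hr ▸ pCore_isPGroup p
    obtain ⟨n, hn⟩ := hp2.index R
    rcases Nat.eq_zero_or_pos n with rfl | hpos
    · rw [pow_zero, index_eq_one] at hn
      have h1 := congrArg (Subgroup.map q.range.subtype) hn
      rwa [Subgroup.map_map, MonoidHom.subtype_comp_rangeRestrict, ← MonoidHom.range_eq_map q.range.subtype,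
        range_subtype] at h1
    · exact absurd (hn ▸ dvd_pow_self p hpos.ne') hidx
  have hQ : Cfsg.pPrimeCore p (X ⧸ Cfsg.pPrimeCore p X) = ⊥ := pPrimeCore_quotient p
  have hF : Cfsg.fittingSubgroup (X ⧸ Cfsg.pPrimeCore p X) = Cfsg.pCore p (X ⧸ Cfsg.pPrimeCore p X) :=
    le_antisymm ((fittingSubgroup_le_sup p).trans (by rw [hQ, sup_bot_eq])) (pCore_le_fittingSubgroup p)
  rw [pLayer_eq_bot_iff]
  constructor
  · intro hc
    rw [layer_eq_bot_iff]
    intro L hL
    obtain ⟨P⟩ : Nonempty (Sylow p ↥(Cfsg.pPrimePCore p X)) := inferInstance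
    have hLc : L ≤ centralizer (Cfsg.pCore p (X ⧸ Cfsg.pPrimeCore p X) : Set (X ⧸ Cfsg.pPrimeCore p X)) := by
      rw [← commutator_eq_bot_iff_le_centralizer, ← hF]
      exact comp_commute_normal_solvable hL fittingSubgroup_solvable
    rw [← hPO P, ← map_centralizer_pGroup (P.isPGroup'.map _) (pPrimeCore_coprime p)] at hLc
    refine comp_not_le_solvable hL fittingSubgroup_solvable ?_
    rw [hF]
    refine hLc.trans (le_trans (map_mono (hc P)) ?_)
    rw [Cfsg.pPrimePCore, map_comap_eq_self_of_surjective (QuotientGroup.mk'_surjective _)]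
  · intro h P
    have hg : Cfsg.generalizedFittingSubgroup (X ⧸ Cfsg.pPrimeCore p X) =
        Cfsg.pCore p (X ⧸ Cfsg.pPrimeCore p X) := by
      rw [Cfsg.generalizedFittingSubgroup, h, bot_sup_eq, hF]
    have h1 := centralizer_gfs_le (G := X ⧸ Cfsg.pPrimeCore p X)
    rw [hg] at h1
    change _ ≤ (Cfsg.pCore p (X ⧸ Cfsg.pPrimeCore p X)).comap (QuotientGroup.mk' (Cfsg.pPrimeCore p X))
    rw [← map_le_iff_le_comap,
      map_centralizer_pGroup (P.isPGroup'.map _) (pPrimeCore_coprime p)]
    rw [hPO P]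
    exact h1

end Cfsg.Agent.S1327
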