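import Cfsg.Statements.S1337
import Cfsg.Agent.Lib.LocalP2.IrredImprimitive

set_option autoImplicit false
open Cfsg Subgroup
open scoped commutatorElement

namespace Cfsg.Agent.S1337

variable {P : Type*} [Group P] [Finite P] {p : ℕ} [hp : Fact p.Prime]

/-- An element of order `p ^ 2` on a cyclic subgroup of small index bounds elementary subgroups. -/
theorem card_le_of_cyclic {E : Subgroup P} (hE : IsElementaryAbelian p E) (x : P)
    (hx : Nat.card P ≤ p * orderOf x) : Nat.card E ≤ p ^ 2 := by
  have h1 : Nat.card (E ⊓ zpowers x : Subgroup P) ≤ p := by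
    haveI : IsCyclic ↥(E ⊓ zpowers x : Subgroup P) := isCyclic_of_injective (Subgroup.inclusion (inf_le_right : E ⊓ zpowers x ≤ zpowers x)) (Subgroup.inclusion_injective _)
    obtain ⟨g, hg⟩ := IsCyclic.exists_generator (α := ↥(E ⊓ zpowers x : Subgroup P))
    rw [← orderOf_eq_card_of_forall_mem_zpowers hg]
    exact orderOf_le_of_pow_eq_one hp.out.pos (Subtype.ext (hE.2 g g.2.1))
  have h2 : (zpowers x).index ≤ p := by
    have h := card_mul_index (zpowers x)
    rw [Nat.card_zpowers] at h
    by_contra hlt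
    have hpos : 0 < orderOf x := orderOf_pos x
    nlinarith [not_le.mp hlt]
  have h3 : (E ⊓ zpowers x).relIndex E ≤ p := by
    rw [inf_comm, inf_relIndex_right]
    refine le_trans ?_ h2
    rw [← relIndex_top_right]
    exact relIndex_le_of_le_right le_top (by rw [relIndex_top_right]; exact index_ne_zero_of_finite)
  have h4 : Nat.card (E ⊓ zpowers x : Subgroup P) * (E ⊓ zpowers x).relIndex E = Nat.card E := by
    rw [← relIndex_bot_left, ← relIndex_bot_left, relIndex_mul_relIndex _ _ _ bot_le inf_le_left]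
  rw [← h4, pow_two]
  exact Nat.mul_le_mul h1 h3

theorem exists_normal_elem_sq (hP : IsPGroup p P) (E : Subgroup P) (hE : IsElementaryAbelian p E)
    (hE3 : p ^ 2 < Nat.card E) :
    ∃ U : Subgroup P, U.Normal ∧ IsElementaryAbelian p U ∧ Nat.card U = p ^ 2 := by
  have hno : ∀ x : P, ¬ Nat.card P ≤ p * orderOf x := fun x hx =>
    (not_le.mpr hE3) (card_le_of_cyclic hE x hx)
  have hnc : ¬ IsCyclic P := fun h => by
    obtain ⟨g, hg⟩ := h.exists_generator
    refine hno g ?_
    rw [orderOf_eq_card_of_forall_mem_zpowers hg]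
    exact Nat.le_mul_of_pos_left _ hp.out.pos
  by_cases hp2 : p = 2
  · subst hp2
    have hnq : ∀ n : ℕ, ¬ Nonempty (P ≃* QuaternionGroup n) := by
      rintro n ⟨e⟩
      rcases Nat.eq_zero_or_pos n with rfl | hn
      · have : Nat.card P = 0 := by
          rw [Nat.card_congr e.toEquiv]
          haveI : Infinite (QuaternionGroup 0) := Infinite.of_injective (fun i : ℤ => QuaternionGroup.a (n := 0) i)
            (fun a b h => QuaternionGroup.a.inj h)
          exact Nat.card_eq_zero_of_infinite
        exact Nat.card_pos.ne' this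
      · haveI : NeZero n := ⟨hn.ne'⟩
        refine hno (e.symm (QuaternionGroup.a 1)) ?_
        rw [MulEquiv.orderOf_eq, QuaternionGroup.orderOf_a_one, Nat.card_congr e.toEquiv,
          Nat.card_eq_fintype_card, QuaternionGroup.card]
        omega
    have hnd : ∀ n : ℕ, ¬ Nonempty (P ≃* DihedralGroup n) := by
      rintro n ⟨e⟩
      refine hno (e.symm (DihedralGroup.r 1)) ?_
      rw [MulEquiv.orderOf_eq, DihedralGroup.orderOf_r_one, Nat.card_congr e.toEquiv, DihedralGroup.nat_card]
    have hnsd : ¬ IsQuasiDihedral P := by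
      rintro ⟨n, -, hn, x, -, hx, -, -⟩
      refine hno x ?_
      rw [hn, hx, pow_succ']
    obtain ⟨U, hUn, hUc, hcm, hex⟩ := Lib.LocalP2.IrredImprimitive.exists_normal_sq hP hnc hnq hnd hnsd
    exact ⟨U, hUn, ⟨⟨⟨fun a b => Subtype.ext (hcm a a.2 b b.2)⟩⟩, hex⟩, hUc⟩
  · obtain ⟨U, -, hUn, hUe, hUc⟩ := Lib.Thompson.exists_elemAbelian_normal hp2 hP ⊤
      fun h => hnc (Subgroup.topEquiv.isCyclic.mp h)
    exact ⟨U, hUn, hUe, hUc⟩

omit [Finite P] hp in
theorem sup_elem {A B : Subgroup P} (hA : IsElementaryAbelian p A) (hB : IsElementaryAbelian p B)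
    (hc : ∀ a ∈ A, ∀ b ∈ B, a * b = b * a) : IsElementaryAbelian p (A ⊔ B) := by
  have hsup : A ⊔ B = closure ((A : Set P) ∪ B) := by rw [Subgroup.closure_union, closure_eq, closure_eq]
  have hcm : IsMulCommutative ↥(A ⊔ B) := by
    rw [hsup]
    refine Subgroup.isMulCommutative_closure ?_
    rintro a (ha | ha) b (hb | hb)
    · exact congrArg Subtype.val (hA.1.is_comm.comm (⟨a, ha⟩ : A) ⟨b, hb⟩)
    · exact hc a ha b hb
    · exact (hc b hb a ha).symm
    · exact congrArg Subtype.val (hB.1.is_comm.comm (⟨a, ha⟩ : B) ⟨b, hb⟩)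
  refine ⟨hcm, fun x hx => ?_⟩
  rw [hsup] at hx
  induction hx using closure_induction with
  | mem y hy => exact hy.elim (hA.2 y) (hB.2 y)
  | one => exact one_pow p
  | mul u v hu hv iu iv =>
    have : Commute u v := congrArg Subtype.val (hcm.is_comm.comm (⟨u, hsup ▸ hu⟩ : ↥(A ⊔ B)) ⟨v, hsup ▸ hv⟩)
    rw [this.mul_pow, iu, iv, one_mul]
  | inv u _ iu => rw [inv_pow, iu, inv_one]

omit [Finite P] hp in
theorem not_prankLE_of {K : Subgroup P} {E : Subgroup P} (hE : IsElementaryAbelian p E) (hEK : E ≤ K)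
    (hc : p ^ 2 < Nat.card E) : ¬ PRankLE p 2 K := by
  intro h
  refine (not_le.mpr hc) ?_
  have := h (E.subgroupOf K) ⟨⟨fun a b => Subtype.ext (Subtype.ext
    (show ((a.1 : K) : P) * (b.1 : K) = (b.1 : K) * (a.1 : K) from
      congrArg Subtype.val (hE.1.is_comm.comm (⟨(a.1 : P), a.2⟩ : E) ⟨(b.1 : P), b.2⟩)))⟩⟩
    fun a ha => Subtype.ext (hE.2 _ ha)
  rwa [Nat.card_congr (subgroupOfEquivOfLe hEK).toEquiv] at this

omit hp in
theorem exists_of_not_prankLE {K : Subgroup P} (h : ¬ PRankLE p 2 K) :
    ∃ E : Subgroup P, E ≤ K ∧ IsElementaryAbelian p E ∧ p ^ 2 < Nat.card E := by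
  unfold PRankLE at h
  push Not at h
  obtain ⟨A, hA, hpow, hcard⟩ := h
  refine ⟨A.map K.subtype, map_subtype_le A, ⟨map_isMulCommutative A _, ?_⟩, ?_⟩
  · rintro _ ⟨a, ha, rfl⟩
    rw [← map_pow, hpow a ha, map_one]
  · rwa [card_map_of_injective K.subtype_injective]

/-- Let P be a finite p-group of p-rank greater than 2. Then P has a normal elementary abelian subgroup U of order p², and for every elementary abelian X ≤ P with |X| ≥ p²: X is joined to U by a chain of pairwise commuting elementary abelian subgroups of order ≥ p² if and only if C_P(X) has p-rank greater than 2. -/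
theorem result {P : Type*} [Group P] [Finite P] (p : ℕ) [Fact p.Prime] (hP : IsPGroup p P) (hrk : ¬ Cfsg.PRankLE p 2 P) : ∃ U : Subgroup P, U.Normal ∧ Cfsg.IsElementaryAbelian p U ∧ Nat.card ↥U = p ^ 2 ∧ ∀ X : Subgroup P, Cfsg.IsElementaryAbelian p X → p ^ 2 ≤ Nat.card ↥X → (Relation.ReflTransGen (fun A B : Subgroup P => Cfsg.IsElementaryAbelian p A ∧ p ^ 2 ≤ Nat.card ↥A ∧ Cfsg.IsElementaryAbelian p B ∧ p ^ 2 ≤ Nat.card ↥B ∧ ∀ a ∈ A, ∀ b ∈ B, a * b = b * a) X U ↔ ¬ Cfsg.PRankLE p 2 ↥(Subgroup.centralizer (X : Set P))) := by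
  have hp' := (Fact.out : p.Prime)
  obtain ⟨E, hE, hE3⟩ : ∃ E : Subgroup P, IsElementaryAbelian p E ∧ p ^ 2 < Nat.card E := by
    unfold PRankLE at hrk
    push Not at hrk
    obtain ⟨A, hA, hpow, hcard⟩ := hrk
    exact ⟨A, ⟨hA, hpow⟩, hcard⟩
  obtain ⟨U, hUn, hUe, hUc⟩ := exists_normal_elem_sq hP E hE hE3
  haveI := hUn
  haveI : (centralizer (U : Set P)).Normal := inferInstance
  -- every large elementary subgroup contains a large part centralising `U`
  have hpart : ∀ A : Subgroup P, IsElementaryAbelian p A → p ^ 2 < Nat.card A →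
      p ^ 2 ≤ Nat.card (A ⊓ centralizer (U : Set P) : Subgroup P) := by
    intro A hA hA3
    -- `U` is centralised by a subgroup of index at most `p`
    obtain ⟨z, hzU, hzc, hzo⟩ := Lib.Thompson.exists_central_order_p hP (N := U)
      (fun e => by rw [e, card_bot] at hUc; have := hp'.one_lt; nlinarith)
    obtain ⟨u, huU, huz⟩ : ∃ u ∈ U, u ∉ zpowers z := by
      by_contra h
      push Not at h
      have := card_le_of_le (show U ≤ zpowers z from h)
      rw [hUc, Nat.card_zpowers, hzo] at this
      have := hp'.one_lt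
      nlinarith
    have hUgen : zpowers z ⊔ zpowers u = U := by
      have hle : zpowers z ⊔ zpowers u ≤ U := sup_le (zpowers_le.mpr hzU) (zpowers_le.mpr huU)
      refine eq_of_le_of_card_ge hle ?_
      obtain ⟨i, hi, hic⟩ := (Nat.dvd_prime_pow hp').mp (hUc ▸ card_dvd_of_le hle)
      have hlt : Nat.card (zpowers z) < Nat.card (zpowers z ⊔ zpowers u : Subgroup P) :=
        lt_of_le_of_ne (card_le_of_le le_sup_left) fun e =>
          huz ((eq_of_le_of_card_ge le_sup_left e.ge).symm ▸ mem_sup_right (mem_zpowers u))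
      rw [Nat.card_zpowers, hzo, hic] at hlt
      have : 1 < i := (Nat.pow_lt_pow_iff_right hp'.one_lt).mp (by rwa [pow_one])
      rw [hUc, hic]
      exact Nat.pow_le_pow_right hp'.pos this
    -- the commutator with `u` lands in `⟨z⟩`
    have hcomm : ∀ g : P, ⁅g, u⁆ ∈ zpowers z := by
      intro g
      by_contra hg
      have hmem : ∀ g : P, ⁅g, u⁆ ∈ U := fun g => by
        rw [commutatorElement_def]
        exact mul_mem (hUn.conj_mem u huU g) (inv_mem huU)
      have hgen' : zpowers z ⊔ zpowers ⁅g, u⁆ = U := by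
        have hle : zpowers z ⊔ zpowers ⁅g, u⁆ ≤ U := sup_le (zpowers_le.mpr hzU) (zpowers_le.mpr (hmem g))
        refine eq_of_le_of_card_ge hle ?_
        obtain ⟨i, hi, hic⟩ := (Nat.dvd_prime_pow hp').mp (hUc ▸ card_dvd_of_le hle)
        have hlt : Nat.card (zpowers z) < Nat.card (zpowers z ⊔ zpowers ⁅g, u⁆ : Subgroup P) :=
          lt_of_le_of_ne (card_le_of_le le_sup_left) fun e =>
            hg ((eq_of_le_of_card_ge le_sup_left e.ge).symm ▸ mem_sup_right (mem_zpowers _))
        rw [Nat.card_zpowers, hzo, hic] at hlt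
        have : 1 < i := (Nat.pow_lt_pow_iff_right hp'.one_lt).mp (by rwa [pow_one])
        rw [hUc, hic]
        exact Nat.pow_le_pow_right hp'.pos this
      have hle : U ≤ ⁅U, (⊤ : Subgroup P)⁆ ⊔ zpowers z := by
        conv_lhs => rw [← hgen']
        refine sup_le le_sup_right ((zpowers_le.mpr ?_).trans le_sup_left)
        rw [commutator_comm]
        exact commutator_mem_commutator (mem_top g) huU
      haveI : Group.IsNilpotent P := hP.isNilpotent
      haveI : (zpowers z).Normal := Lib.Thompson.normal_of_le_center (zpowers_le.mpr hzc)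
      haveI : Group.IsNilpotent (P ⧸ zpowers z) := (hP.to_quotient _).isNilpotent
      have h1 := map_mono (f := QuotientGroup.mk' (zpowers z)) hle
      rw [Subgroup.map_sup, QuotientGroup.map_mk'_self, sup_bot_eq, map_commutator,
        map_top_of_surjective _ (QuotientGroup.mk'_surjective _)] at h1
      haveI : (U.map (QuotientGroup.mk' (zpowers z))).Normal := hUn.map _ (QuotientGroup.mk'_surjective _)
      have h2 := Lib.Transfer.eq_bot_of_le_commutator_top h1
      rw [Subgroup.map_eq_bot_iff, QuotientGroup.ker_mk'] at h2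
      exact huz (h2 huU)
    let φ : P →* zpowers z :=
      { toFun := fun g => ⟨⁅g, u⁆, hcomm g⟩
        map_one' := Subtype.ext (commutatorElement_one_left u)
        map_mul' := fun g h => Subtype.ext (by
          show ⁅g * h, u⁆ = ⁅g, u⁆ * ⁅h, u⁆
          have hc := mem_center_iff.mp (zpowers_le.mpr hzc (hcomm h)) g
          calc ⁅g * h, u⁆ = g * ⁅h, u⁆ * g⁻¹ * ⁅g, u⁆ := by simp [commutatorElement_def, mul_assoc]
            _ = ⁅h, u⁆ * ⁅g, u⁆ := by rw [hc, mul_inv_cancel_right]
            _ = _ := (mem_center_iff.mp (zpowers_le.mpr hzc (hcomm h)) _).symm) }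
    have hker : φ.ker ≤ centralizer (U : Set P) := by
      intro g hg
      have h1 : Commute g u := commutatorElement_eq_one_iff_commute.mp (show ⁅g, u⁆ = 1 from congrArg Subtype.val (MonoidHom.mem_ker.mp hg))
      have h2 : Commute g z := mem_center_iff.mp hzc g
      rw [mem_centralizer_iff]
      intro w hw
      have hw' : w ∈ centralizer ({g} : Set P) := by
        rw [SetLike.mem_coe, ← hUgen] at hw
        exact (sup_le (zpowers_le.mpr (mem_centralizer_singleton_iff.mpr h2.symm.eq))
          (zpowers_le.mpr (mem_centralizer_singleton_iff.mpr h1.symm.eq)) :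
          zpowers z ⊔ zpowers u ≤ centralizer ({g} : Set P)) hw
      exact mem_centralizer_singleton_iff.mp hw'
    have hr : (A ⊓ centralizer (U : Set P)).relIndex A ≤ p := by
      rw [inf_comm, inf_relIndex_right]
      calc (centralizer (U : Set P)).relIndex A ≤ (centralizer (U : Set P)).index := by
            rw [← relIndex_top_right]
            exact relIndex_le_of_le_right le_top (by rw [relIndex_top_right]; exact index_ne_zero_of_finite)
        _ ≤ φ.ker.index := Nat.le_of_dvd (Nat.pos_of_ne_zero index_ne_zero_of_finite) (index_dvd_of_le hker)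
        _ ≤ p := by
            rw [index_ker]
            refine (card_le_card_group φ.range).trans ?_
            rw [Nat.card_zpowers, hzo]
    have h4 : Nat.card (A ⊓ centralizer (U : Set P) : Subgroup P) * (A ⊓ centralizer (U : Set P)).relIndex A =
        Nat.card A := by
      rw [← relIndex_bot_left, ← relIndex_bot_left, relIndex_mul_relIndex _ _ _ bot_le inf_le_left]
    obtain ⟨i, hi⟩ := IsPGroup.iff_card.mp (hP.to_subgroup (A ⊓ centralizer (U : Set P)))
    by_contra hlt
    rw [hi] at h4 hlt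
    have hi1 : i < 2 := (Nat.pow_lt_pow_iff_right hp'.one_lt).mp (not_le.mp hlt)
    have : p ^ i * (A ⊓ centralizer (U : Set P)).relIndex A ≤ p ^ 2 := by
      calc p ^ i * _ ≤ p ^ 1 * p := Nat.mul_le_mul (Nat.pow_le_pow_right hp'.pos (by omega)) hr
        _ = p ^ 2 := by ring
    omega
  refine ⟨U, hUn, hUe, hUc, fun X hX hX2 => ⟨fun hchain => ?_, fun hC => ?_⟩⟩
  · -- chain to large centraliser rank
    induction hchain using Relation.ReflTransGen.head_induction_on with
    | refl =>
      -- the centraliser of `U` has large rank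
      have hE2 := hpart E hE hE3
      let E2 := E ⊓ centralizer (U : Set P)
      have hc : ∀ a ∈ E2, ∀ b ∈ U, a * b = b * a := fun a ha b hb => (mem_centralizer_iff.mp ha.2 b hb).symm
      by_cases hle : U ≤ E
      · refine not_prankLE_of hE (fun a ha => mem_centralizer_iff.mpr fun b hb => ?_) hE3
        exact congrArg Subtype.val (hE.1.is_comm.comm (⟨b, hle hb⟩ : E) ⟨a, ha⟩)
      · have hE2e : IsElementaryAbelian p E2 :=
          ⟨⟨⟨fun a b => Subtype.ext (show (a : P) * b = b * a from congrArg Subtype.val (hE.1.is_comm.comm (⟨(a : P), a.2.1⟩ : E) ⟨(b : P), b.2.1⟩))⟩⟩,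
            fun a ha => hE.2 a ha.1⟩
        refine not_prankLE_of (sup_elem hE2e hUe hc) (sup_le inf_le_right ?_) ?_
        · exact fun a ha => mem_centralizer_iff.mpr fun b hb =>
            congrArg Subtype.val (hUe.1.is_comm.comm (⟨b, hb⟩ : U) ⟨a, ha⟩)
        · refine lt_of_le_of_lt hE2 (lt_of_le_of_ne (card_le_of_le le_sup_left) fun e => hle ?_)
          rw [show U ≤ E ↔ U ≤ E from Iff.rfl]
          exact (le_sup_right.trans (eq_of_le_of_card_ge le_sup_left e.ge).ge).trans inf_le_left
    | @head A B hAB _ ih =>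
      obtain ⟨hA, hA2', hB, hB2, hcAB⟩ := hAB
      by_cases hBA : B ≤ A
      · rcases eq_or_lt_of_le hA2' with h | h
        · have : B = A := eq_of_le_of_card_ge hBA (by rw [← h]; exact hB2)
          subst this
          exact ih hB hB2
        · exact not_prankLE_of hA (fun a ha => mem_centralizer_iff.mpr fun b hb =>
            congrArg Subtype.val (hA.1.is_comm.comm (⟨b, hb⟩ : A) ⟨a, ha⟩)) h
      · refine not_prankLE_of (sup_elem hA hB hcAB) (sup_le ?_ ?_) ?_
        · exact fun a ha => mem_centralizer_iff.mpr fun b hb =>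
            congrArg Subtype.val (hA.1.is_comm.comm (⟨b, hb⟩ : A) ⟨a, ha⟩)
        · exact fun b hb => mem_centralizer_iff.mpr fun a ha => hcAB a ha b hb
        · refine lt_of_le_of_lt hA2' (lt_of_le_of_ne (card_le_of_le le_sup_left) fun e => hBA ?_)
          exact le_sup_right.trans (eq_of_le_of_card_ge le_sup_left e.ge).ge
  · obtain ⟨A, hAC, hA, hA3⟩ := exists_of_not_prankLE hC
    have h1 := hpart A hA hA3
    have hA' : IsElementaryAbelian p (A ⊓ centralizer (U : Set P) : Subgroup P) :=
      ⟨⟨⟨fun a b => Subtype.ext (show (a : P) * b = b * a from congrArg Subtype.val (hA.1.is_comm.comm (⟨(a : P), a.2.1⟩ : A) ⟨(b : P), b.2.1⟩))⟩⟩,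
        fun a ha => hA.2 a ha.1⟩
    refine Relation.ReflTransGen.head ⟨hX, hX2, hA, hA3.le, fun a ha b hb => mem_centralizer_iff.mp (hAC hb) a ha⟩
      (Relation.ReflTransGen.head ⟨hA, hA3.le, hA', h1, fun a ha b hb =>
        congrArg Subtype.val (hA.1.is_comm.comm (⟨a, ha⟩ : A) ⟨b, hb.1⟩)⟩
        (Relation.ReflTransGen.single ⟨hA', h1, hUe, hUc.ge, fun a ha b hb => (mem_centralizer_iff.mp ha.2 b hb).symm⟩))

end Cfsg.Agent.S1337
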