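import Cfsg.Statements.S1338
import Cfsg.Agent.Lib.Thompson.RankFour
import Cfsg.Agent.S1337

set_option autoImplicit false
open Cfsg

namespace Cfsg.Agent.S1338

/-- A finite 3-group of 3-rank at least 4 is 2-connected for the prime 3: its commuting graph on elementary abelian subgroups of order ≥ 9 is connected. -/
theorem result {P : Type*} [Group P] [Finite P] (hP : IsPGroup 3 P) (hrk : ¬ Cfsg.PRankLE 3 3 P) : Cfsg.IsKConnected 3 2 P := by
  haveI : Fact (Nat.Prime 3) := ⟨Nat.prime_three⟩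
  obtain ⟨E, hEc, hEp, hE3⟩ : ∃ E : Subgroup P, IsMulCommutative E ∧ (∀ a ∈ E, a ^ 3 = 1) ∧
      3 ^ 3 < Nat.card E := by
    unfold PRankLE at hrk
    push Not at hrk
    obtain ⟨A, h1, h2, h3⟩ := hrk
    exact ⟨A, h1, h2, h3⟩
  obtain ⟨k, hk⟩ := IsPGroup.iff_card.mp (hP.to_subgroup E)
  have h4 : 3 < k := (Nat.pow_lt_pow_iff_right (by norm_num)).mp (hk ▸ hE3)
  obtain ⟨F, hFE, hFE_card⟩ := Sylow.exists_subgroup_le_card_pow_prime_of_le_card (n := 4) Nat.prime_three hP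
    (hk ▸ Nat.pow_le_pow_right (by norm_num) h4)
  obtain ⟨A, hAn, hA, hA4⟩ := Lib.Thompson.exists_normal_elem_four (p := 3) (by norm_num) hP
    (Lib.Thompson.isElementaryAbelian_le ⟨hEc, hEp⟩ hFE) hFE_card
  haveI := hAn
  have hr2 : ¬ PRankLE 3 2 P := fun h => by
    have := h A hA.1 hA.2
    rw [hA4] at this
    norm_num at this
  obtain ⟨U, -, -, -, hU⟩ := S1337.result 3 hP hr2
  intro X Y hX hX2 hY hY2
  have h : ∀ Z : Subgroup P, IsElementaryAbelian 3 Z → 3 ^ 2 ≤ Nat.card Z → _ := fun Z hZ hZ2 =>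
    (hU Z hZ hZ2).mpr (Lib.Thompson.not_pRankLE_centralizer_three hP hA hA4 Z hZ hZ2)
  haveI hs : Std.Symm (fun A B : Subgroup P => IsElementaryAbelian 3 A ∧ 3 ^ 2 ≤ Nat.card ↥A ∧ IsElementaryAbelian 3 B ∧ 3 ^ 2 ≤ Nat.card ↥B ∧ ∀ a ∈ A, ∀ b ∈ B, a * b = b * a) := ⟨by
    rintro A B ⟨a1, a2, b1, b2, hc⟩
    exact ⟨b1, b2, a1, a2, fun b hb a ha => (hc a ha b hb).symm⟩⟩
  exact (h X hX hX2).trans (Relation.ReflTransGen.symmetric.symm _ _ (h Y hY hY2))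

end Cfsg.Agent.S1338
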