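import Cfsg.Statements.S1349
import Cfsg.Agent.Lib.Components.Dihedral
-- import your own Cfsg.Agent.* helpers here

set_option autoImplicit false
open Cfsg

namespace Cfsg.Agent.S1349
open Subgroup Cfsg.Agent.Lib.Components
open scoped commutatorElement


/-- Let G be finite, L ≤ G solvable of odd order, and A an elementary abelian 2-subgroup of order 2^d (d ≥ 1) normalizing L with C_A(L) = 1. Then there are subgroups A_1, …, A_d of A of order 2 generating A and subgroups L_1, …, L_d of L such that each A_i ⊔ L_i is dihedral of order 2 n_i with n_i odd and at least 3, and A_i ⊔ L_i commutes elementwise with A_j ⊔ L_j for i ≠ j. -/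
theorem result {G : Type*} [Group G] [Finite G] (L A : Subgroup G) (hLs : Group.IsSolvable ↥L) (hLodd : Odd (Nat.card ↥L)) (hA : Cfsg.IsElementaryAbelian 2 A) (d : ℕ) (hd : 1 ≤ d) (hAd : Nat.card ↥A = 2 ^ d) (hAL : A ≤ Subgroup.normalizer (L : Set G)) (hfaith : A ⊓ Subgroup.centralizer (L : Set G) = ⊥) : ∃ (Ai : Fin d → Subgroup G) (Li : Fin d → Subgroup G) (n : Fin d → ℕ), (∀ i, Ai i ≤ A ∧ Nat.card ↥(Ai i) = 2 ∧ Li i ≤ L ∧ Odd (n i) ∧ 3 ≤ n i ∧ Nonempty (↥(Ai i ⊔ Li i) ≃* DihedralGroup (n i))) ∧ (⨆ i, Ai i) = A ∧ ∀ i j, i ≠ j → ∀ x ∈ Ai i ⊔ Li i, ∀ y ∈ Ai j ⊔ Li j, x * y = y * x := by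
  haveI : Fact (Nat.Prime 2) := ⟨Nat.prime_two⟩
  haveI := hLs
  let F : Subgroup G := (fittingSubgroup ↥L).map L.subtype
  haveI : Group.IsNilpotent ↥F := by
    haveI := fittingSubgroup_nilpotent (G := ↥L)
    exact Group.nilpotent_of_mulEquiv ((fittingSubgroup ↥L).equivMapOfInjective _ L.subtype_injective)
  have hFL : F ≤ L := map_subtype_le _
  have hodd : Odd (Nat.card ↥F) := hLodd.of_dvd_nat (card_dvd_of_le hFL)
  have hAF : A ≤ normalizer (F : Set G) := by
    refine Sig.inv_iff.1 ?_
    rintro b hb _ ⟨y, hy, rfl⟩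
    let e : ↥L ≃* ↥L := L.normalizerMonoidHom ⟨b, hAL hb⟩
    exact ⟨e y, (characteristic_iff_map_le.1 inferInstance e) (mem_map_of_mem e.toMonoidHom hy), rfl⟩
  have hLF : L ≤ normalizer (F : Set G) := by
    have h := le_normalizer_map (H := fittingSubgroup ↥L) L.subtype
    rwa [normalizer_eq_top, ← MonoidHom.range_eq_map, range_subtype] at h
  have hfaithF : A ⊓ centralizer (F : Set G) = ⊥ := by
    rw [← le_bot_iff, ← hfaith]
    rintro a ⟨ha, haF⟩
    refine ⟨ha, mem_centralizer_iff.2 fun l hl => ?_⟩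
    have hF' : ∀ f ∈ F, f * a = a * f := mem_centralizer_iff.1 haF
    have hlf : ∀ f ∈ F, (l⁻¹ * f * l) * a = a * (l⁻¹ * f * l) := fun f hf =>
      hF' _ ((mem_normalizer_iff.1 (hLF hl) _).2 (by simpa [mul_assoc] using hf))
    let c := a * l * a * l⁻¹
    have haa := Dihedral.mul_self_eq hA ha
    have hai := Dihedral.inv_eq hA ha
    have hcL : c ∈ L := by
      refine mul_mem ?_ (inv_mem hl)
      have := (mem_normalizer_iff.1 (hAL ha) l).1 hl
      rwa [hai] at this
    have hcF : c ∈ F := by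
      refine ⟨⟨c, hcL⟩, ?_, rfl⟩
      let C := centralizer (fittingSubgroup ↥L : Set ↥L)
      haveI : C.Normal := normal_centralizer
      refine solvable_normal_le_fitting (N := C) inferInstance le_rfl (mem_centralizer_iff.2 fun f hf => Subtype.ext ?_)
      show (f : G) * c = c * f
      have hfF : (f : G) ∈ F := mem_map_of_mem _ hf
      have e1 : a⁻¹ * (f : G) * a = f := by rw [mul_assoc, hF' _ hfF, inv_mul_cancel_left]
      calc (f : G) * c = a * (a⁻¹ * f * a) * l * a * l⁻¹ := by simp only [c]; group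
        _ = a * l * ((l⁻¹ * f * l) * a) * l⁻¹ := by rw [e1]; group
        _ = a * l * (a * (l⁻¹ * f * l)) * l⁻¹ := by rw [hlf _ hfF]
        _ = c * f := by simp only [c]; group
    have h1 : a * c * a = c := by rw [← hF' c hcF, mul_assoc, haa, mul_one]
    have h2 : a * c * a = c⁻¹ := by
      calc a * c * a = (a * a) * l * (a * l⁻¹ * a) := by simp only [c]; group
        _ = c⁻¹ := by
          rw [haa, one_mul]
          simp only [c, mul_inv_rev, inv_inv, hai, mul_assoc]
    have h3 : c = 1 := Dihedral.eq_of_mul_self_eq hodd hcF (one_mem F) (by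
      rw [one_mul]
      calc c * c = c⁻¹ * c := by rw [← h2, h1]
        _ = 1 := inv_mul_cancel c)
    have h4 : a * l * a = l := mul_inv_eq_one.1 h3
    calc l * a = (a * l * a) * a := by rw [h4]
      _ = a * l := by rw [mul_assoc, haa, mul_one]
  obtain ⟨m, s, hs⟩ := Dihedral.exists_final hA hodd hAF hfaithF
  have hm : m = d := by
    have h := s.hcard
    rw [hs, card_bot, one_mul, hAd] at h
    exact Nat.pow_right_injective le_rfl h
  subst hm
  have ha1 : ∀ i, s.a i ≠ 1 := fun i e => by
    have h := s.hinv i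
    rw [e, one_mul, mul_one] at h
    refine s.hx1 i (Dihedral.eq_of_mul_self_eq hodd (s.hx i) (one_mem F) ?_)
    rw [one_mul]
    calc s.x i * s.x i = (s.x i)⁻¹ * s.x i := by rw [← h]
      _ = 1 := inv_mul_cancel _
  have hao : ∀ i, orderOf (s.a i) = 2 := fun i => orderOf_eq_prime (hA.2 _ (s.ha i)) (ha1 i)
  have hxo : ∀ i, Odd (orderOf (s.x i)) := fun i =>
    hodd.of_dvd_nat (Subgroup.orderOf_dvd_natCard F (s.hx i))
  refine ⟨fun i => zpowers (s.a i), fun i => zpowers (s.x i), fun i => orderOf (s.x i), fun i => ⟨zpowers_le.2 (s.ha i),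
    (Nat.card_zpowers _).trans (hao i), zpowers_le.2 (hFL (s.hx i)), hxo i, ?_, ?_⟩, ?_, ?_⟩
  · have h0 : orderOf (s.x i) ≠ 1 := fun e => s.hx1 i (orderOf_eq_one_iff.1 e)
    have h1 := Nat.odd_iff.1 (hxo i)
    show 3 ≤ orderOf (s.x i)
    omega
  · have hax : orderOf (s.a i * s.x i) = 2 := by
      refine orderOf_eq_prime ?_ fun e => ?_
      · rw [pow_two, ← mul_assoc, s.hinv i, inv_mul_cancel]
      · have h0 : s.x i = s.a i := by
          rw [← Dihedral.inv_eq hA (s.ha i)]
          exact (inv_eq_of_mul_eq_one_right e).symm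
        have := hxo i
        rw [h0, hao i] at this
        exact absurd this (by decide)
    have hne : s.a i ≠ s.a i * s.x i := fun e => s.hx1 i (left_eq_mul.1 e)
    obtain ⟨e⟩ := Lib.Involution.closure_pair_dihedral (hao i) hax hne
    have he : s.a i * (s.a i * s.x i) = s.x i := by rw [← mul_assoc, Dihedral.mul_self_eq hA (s.ha i), one_mul]
    rw [he] at e
    refine ⟨(MulEquiv.subgroupCongr ?_).trans e⟩
    refine le_antisymm (sup_le (zpowers_le.2 (subset_closure (by simp))) (zpowers_le.2 ?_)) ((closure_le _).2 ?_)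
    · have h2 := mul_mem (subset_closure (Set.mem_insert (s.a i) {s.a i * s.x i}) : s.a i ∈ Subgroup.closure _)
        (subset_closure (Set.mem_insert_of_mem (s.a i) (Set.mem_singleton (s.a i * s.x i))))
      rwa [he] at h2
    · rintro z (rfl | rfl)
      · exact mem_sup_left (mem_zpowers _)
      · exact mul_mem (mem_sup_left (mem_zpowers _)) (mem_sup_right (mem_zpowers _))
  · refine le_antisymm (iSup_le fun i => zpowers_le.2 (s.ha i)) ?_
    have := s.hgen
    rwa [hs, sup_bot_eq] at this
  · intro i j hij x hx y hy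
    have key : zpowers (s.a i) ⊔ zpowers (s.x i) ≤
        centralizer ((zpowers (s.a j) ⊔ zpowers (s.x j) : Subgroup G) : Set G) := by
      rw [Subgroup.le_centralizer_iff]
      have hz : ∀ u v : G, u * v = v * u → zpowers u ≤ centralizer ((zpowers v : Subgroup G) : Set G) := by
        intro u v huv
        rw [zpowers_le, zpowers_eq_closure, centralizer_closure, mem_centralizer_singleton_iff]
        exact huv
      refine sup_le ?_ ?_ <;> rw [Subgroup.le_centralizer_iff] <;> refine sup_le ?_ ?_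
      · exact hz _ _ (Sig.comm_of hA (s.ha i) (s.ha j))
      · exact hz _ _ (s.hoff j i hij.symm).symm
      · exact hz _ _ (s.hoff i j hij)
      · exact hz _ _ (s.hxx i j)
    exact (mem_centralizer_iff.1 (key hx) y hy).symm

end Cfsg.Agent.S1349
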