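import Cfsg.Statements.S1633
import Cfsg.Agent.Lib.HSUnitary.Lattice
import Cfsg.Agent.Lib.HSUnitary.Unitary

set_option autoImplicit false
open Cfsg

namespace Cfsg.Agent.S1633

open Lib.Leech in
theorem dot_neg_right (a : GolayPt → ℤ) (x : ↥leechLattice) :
    dotInt a ((-x : ↥leechLattice) : GolayPt → ℤ) = -dotInt a (x : GolayPt → ℤ) := by
  simp [dotInt]

theorem dot_add_left (a b : ↥leechLattice) (x : GolayPt → ℤ) :
    dotInt ((a + b : ↥leechLattice) : GolayPt → ℤ) x = dotInt (a : GolayPt → ℤ) x + dotInt (b : GolayPt → ℤ) x := by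
  simp [dotInt, add_mul, Finset.sum_add_distrib]

theorem dot_neg_left (a : ↥leechLattice) (x : GolayPt → ℤ) :
    dotInt ((-a : ↥leechLattice) : GolayPt → ℤ) x = -dotInt (a : GolayPt → ℤ) x := by
  simp [dotInt]

theorem norm_neg (x : ↥leechLattice) :
    sqNorm ((-x : ↥leechLattice) : GolayPt → ℤ) = sqNorm (x : GolayPt → ℤ) := by
  simp [sqNorm]

/-- The 352 vectors of a standard pair. -/
theorem class_iff (x : ↥leechLattice) :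
    (sqNorm (x : GolayPt → ℤ) = 32 ∧ dotInt (Lib.Leech.vFive : GolayPt → ℤ) (x : GolayPt → ℤ) = 16 ∧
      dotInt (Lib.Leech.fivePartner : GolayPt → ℤ) (x : GolayPt → ℤ) = -24) ↔ -x ∈ Lib.Leech.hsClass (-8) := by
  have h4 : dotInt (Lib.Leech.fourNeg : GolayPt → ℤ) ((-x : ↥leechLattice) : GolayPt → ℤ) =
      dotInt (Lib.Leech.vFive : GolayPt → ℤ) (x : GolayPt → ℤ) + dotInt (Lib.Leech.fivePartner : GolayPt → ℤ) (x : GolayPt → ℤ) := by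
    rw [dot_neg_right, Lib.Leech.fourNeg_eq, dot_neg_left, dot_add_left]; ring
  have h5 := dot_neg_right (Lib.Leech.vFive : GolayPt → ℤ) x
  have hn := norm_neg x
  constructor
  · rintro ⟨a, b, c⟩
    exact ⟨⟨hn.trans a, by rw [h5, b]⟩, by rw [h4, b, c]; norm_num⟩
  · rintro ⟨⟨a, b⟩, c⟩
    rw [h5] at b
    rw [h4] at c
    exact ⟨hn.symm.trans a, by omega, by omega⟩


/-- The Higman–Sims group acts transitively on 352 vectors, a set closed under x ↦ −w − x, with vector stabiliser isomorphic to PSU(3, 5). -/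
theorem result (v w : ↥Cfsg.leechLattice) (hv : Cfsg.sqNorm (v : Cfsg.GolayPt → ℤ) = 48) (hw : Cfsg.sqNorm (w : Cfsg.GolayPt → ℤ) = 48) (hvw : Cfsg.dotInt (v : Cfsg.GolayPt → ℤ) (w : Cfsg.GolayPt → ℤ) = -32) (F : Type) [Field F] [Fintype F] (hF : Fintype.card F = 25) : {x : ↥Cfsg.leechLattice | Cfsg.sqNorm (x : Cfsg.GolayPt → ℤ) = 32 ∧ Cfsg.dotInt (v : Cfsg.GolayPt → ℤ) (x : Cfsg.GolayPt → ℤ) = 16 ∧ Cfsg.dotInt (w : Cfsg.GolayPt → ℤ) (x : Cfsg.GolayPt → ℤ) = -24}.ncard = 352 ∧ (∀ x ∈ {x : ↥Cfsg.leechLattice | Cfsg.sqNorm (x : Cfsg.GolayPt → ℤ) = 32 ∧ Cfsg.dotInt (v : Cfsg.GolayPt → ℤ) (x : Cfsg.GolayPt → ℤ) = 16 ∧ Cfsg.dotInt (w : Cfsg.GolayPt → ℤ) (x : Cfsg.GolayPt → ℤ) = -24}, -w - x ∈ {x : ↥Cfsg.leechLattice | Cfsg.sqNorm (x : Cfsg.GolayPt → ℤ) = 32 ∧ Cfsg.dotInt (v : Cfsg.GolayPt → ℤ) (x : Cfsg.GolayPt → ℤ) = 16 ∧ Cfsg.dotInt (w : Cfsg.GolayPt → ℤ) (x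 : Cfsg.GolayPt → ℤ) = -24}) ∧ (∀ x ∈ {x : ↥Cfsg.leechLattice | Cfsg.sqNorm (x : Cfsg.GolayPt → ℤ) = 32 ∧ Cfsg.dotInt (v : Cfsg.GolayPt → ℤ) (x : Cfsg.GolayPt → ℤ) = 16 ∧ Cfsg.dotInt (w : Cfsg.GolayPt → ℤ) (x : Cfsg.GolayPt → ℤ) = -24}, ∀ x' ∈ {x : ↥Cfsg.leechLattice | Cfsg.sqNorm (x : Cfsg.GolayPt → ℤ) = 32 ∧ Cfsg.dotInt (v : Cfsg.GolayPt → ℤ) (x : Cfsg.GolayPt → ℤ) = 16 ∧ Cfsg.dotInt (w : Cfsg.GolayPt → ℤ) (x : Cfsg.GolayPt → ℤ) = -24}, ∃ g : ↥Cfsg.Co0, g • v = v ∧ g • w = w ∧ g • x = x') ∧ ∀ x ∈ {x : ↥Cfsg.leechLattice | Cfsg.sqNorm (x : Cfsg.GolayPt → ℤ) = 32 ∧ Cfsg.dotInt (v : Cfsg.GolayPt → ℤ) (x : Cfsg.GolayPt → ℤ) = 16 ∧ Cfsg.dotInt (w : Cfsg.GolayPt → ℤ) (x : Cfsg.GolayPt → ℤ) = -24}, Nonempty (↥(MulAction.stabilizer ↥Cfsg.Co0 v ⊓ MulAction.stabilizer ↥Cfsg.Co0 w ⊓ MulAction.stabilizer ↥Cfsg.Co0 x) ≃* Cfsg.PSU 3 F 5) := by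
  obtain ⟨k, hkv, hkw⟩ := Lib.Leech.std_hs hv hw hvw
  set S := {x : ↥Cfsg.leechLattice | Cfsg.sqNorm (x : Cfsg.GolayPt → ℤ) = 32 ∧ Cfsg.dotInt (v : Cfsg.GolayPt → ℤ) (x : Cfsg.GolayPt → ℤ) = 16 ∧ Cfsg.dotInt (w : Cfsg.GolayPt → ℤ) (x : Cfsg.GolayPt → ℤ) = -24} with hS
  have hmem : ∀ x, x ∈ S ↔ -(k • x) ∈ Lib.Leech.hsClass (-8) := by
    intro x
    rw [← class_iff, ← hkv, ← hkw, Lib.Leech.dot_smul, Lib.Leech.dot_smul,
      Lib.Leech.Same.sqNorm_eq (x := x) ⟨k, rfl⟩]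
    rfl
  have hbase : ∀ x ∈ S, ∃ g : ↥Co0, g • v = Lib.Leech.vFive ∧ g • w = Lib.Leech.fivePartner ∧
      g • x = -Lib.Leech.hsRep0 := by
    intro x hx
    have h := (hmem x).1 hx
    rw [← Lib.Leech.hs_suborbits.1] at h
    obtain ⟨⟨g, hg⟩, e⟩ := h
    rw [Lib.Leech.pairStab_fourNeg] at hg
    refine ⟨g⁻¹ * k, ?_, ?_, ?_⟩
    · rw [mul_smul, hkv, inv_smul_eq_iff, MulAction.mem_stabilizer_iff.1 hg.1]
    · rw [mul_smul, hkw, inv_smul_eq_iff, MulAction.mem_stabilizer_iff.1 hg.2]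
    · rw [mul_smul, inv_smul_eq_iff, Lib.Leech.smul_neg']
      exact (neg_eq_iff_eq_neg.1 e.symm)
  refine ⟨?_, ?_, ?_, ?_⟩
  · have himg : (fun x => -(k • x)) '' S = Lib.Leech.hsClass (-8) := by
      ext y
      constructor
      · rintro ⟨x, hx, rfl⟩; exact (hmem x).1 hx
      · intro hy
        refine ⟨k⁻¹ • (-y), (hmem _).2 (by rwa [smul_inv_smul, neg_neg]), ?_⟩
        show -(k • k⁻¹ • (-y)) = y
        rw [smul_inv_smul, neg_neg]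
    rw [← Set.ncard_image_of_injective S
      (show Function.Injective fun x : ↥Cfsg.leechLattice => -(k • x) from fun a b e =>
        MulAction.injective k (neg_injective e)), himg, Lib.Leech.hsClass_ncard.1]
  · rintro x ⟨a, b, c⟩
    have hww : dotInt (w : GolayPt → ℤ) (w : GolayPt → ℤ) = 48 := by
      rw [← hw]; simp [dotInt, sqNorm, pow_two]
    have hxw : dotInt (x : GolayPt → ℤ) (w : GolayPt → ℤ) = -24 := by
      rw [← c]; simp [dotInt, mul_comm]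
    have e : (-w - x : ↥leechLattice) = -(w + x) := by abel
    show _ ∧ _ ∧ _
    rw [e, norm_neg, dot_neg_right, dot_neg_right, Lib.Leech.norm_add', hw, a, c]
    simp only [dotInt, AddSubgroup.coe_add, Pi.add_apply, mul_add, Finset.sum_add_distrib] at b c hvw hww ⊢
    refine ⟨by norm_num, by omega, by omega⟩
  · intro x hx x' hx'
    obtain ⟨g, g1, g2, g3⟩ := hbase x hx
    obtain ⟨g', g1', g2', g3'⟩ := hbase x' hx'
    refine ⟨g'⁻¹ * g, ?_, ?_, ?_⟩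
    · rw [mul_smul, g1, ← g1', inv_smul_smul]
    · rw [mul_smul, g2, ← g2', inv_smul_smul]
    · rw [mul_smul, g3, ← g3', inv_smul_smul]
  · intro x hx
    obtain ⟨g, g1, g2, g3⟩ := hbase x hx
    obtain ⟨e1⟩ := Lib.HSUnitary.stab_equiv
    obtain ⟨e2⟩ := Lib.HSUnitary.unitary_equiv (F := F) hF
    have hmap : (MulAction.stabilizer ↥Cfsg.Co0 v ⊓ MulAction.stabilizer ↥Cfsg.Co0 w ⊓
        MulAction.stabilizer ↥Cfsg.Co0 x).map (MulAut.conj g).toMonoidHom = Lib.HSUnitary.stab := by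
      ext y
      rw [Subgroup.mem_map_equiv, MulAut.conj_symm_apply]
      simp only [Lib.HSUnitary.stab, Lib.Leech.pairStab_fourNeg, Subgroup.mem_inf, MulAction.mem_stabilizer_iff,
        mul_smul, inv_smul_eq_iff, g1, g2, g3, Lib.Leech.smul_neg', neg_inj]
      simp only [neg_eq_iff_eq_neg, inv_smul_eq_iff, Lib.Leech.smul_neg', g3, neg_neg]
    exact ⟨((Subgroup.equivMapOfInjective _ _ (MulAut.conj g).injective).trans (MulEquiv.subgroupCongr hmap)).trans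
      (e1.trans e2.symm)⟩

end Cfsg.Agent.S1633
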