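import Cfsg.Statements.S1892
import Cfsg.Agent.Lib.LocalFusion.PSolvable
import Cfsg.Agent.Lib.Coprime.Action

set_option autoImplicit false

open scoped commutatorElement
open Cfsg

namespace Cfsg.Agent.S1892

/-- Let S be a finite p-solvable group with no nontrivial normal subgroup of order prime to p, A a p-subgroup of S, and Q a nontrivial A-invariant subgroup of order prime to p with [A, Q] = Q. Then the commutator [O_p(S), A, Q] is nontrivial. -/
theorem result {S : Type*} [Group S] [Finite S] {p : ℕ} [Fact p.Prime]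
    (hS : Cfsg.IsPSolvable p S) (hred : Cfsg.pPrimeCore p S = ⊥)
    (A Q : Subgroup S) (hA : IsPGroup p A) (hQ : ¬ p ∣ Nat.card Q) (hQ1 : Q ≠ ⊥)
    (hinv : ∀ a ∈ A, ∀ x ∈ Q, a * x * a⁻¹ ∈ Q) (hAQ : ⁅A, Q⁆ = Q) :
    ⁅⁅Cfsg.pCore p S, A⁆, Q⁆ ≠ ⊥ := by
  intro h
  set P := Cfsg.pCore p S with hP
  haveI : P.Normal := Cfsg.pCore_normal p S
  set M := ⁅P, A⁆ with hM
  have hMP : M ≤ P := Subgroup.commutator_le_left P A
  have hMQ : ∀ m ∈ M, ∀ q ∈ Q, m * q = q * m := fun m hm q hq =>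
    commutatorElement_eq_one_iff_mul_comm.1 (Subgroup.mem_bot.1 (h ▸ Subgroup.commutator_mem_commutator hm hq))
  have hQM : ∀ q ∈ Q, ∀ m ∈ M, q * m * q⁻¹ = m := fun q hq m hm => by rw [← hMQ m hm q hq]; simp
  have hAM : ∀ a ∈ A, ∀ m ∈ M, a * m * a⁻¹ ∈ M := fun a ha m hm =>
    (Subgroup.mem_normalizer_iff.1 (Lib.Coprime.right_le_normalizer_commutator P A ha) m).1 hm
  -- elements acting trivially on `P` modulo `M`
  have hA : ∀ a ∈ A, ∀ x ∈ P, ⁅a, x⁆ ∈ M := fun a ha x hx => by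
    have := M.inv_mem (Subgroup.commutator_mem_commutator hx ha)
    rwa [commutatorElement_inv] at this
  have hconj : ∀ q ∈ Q, ∀ a ∈ A, ∀ x ∈ P, ⁅q * a * q⁻¹, x⁆ ∈ M := by
    intro q hq a ha x hx
    have h1 := hA a ha (q⁻¹ * x * q) (by simpa using (inferInstance : P.Normal).conj_mem x hx q⁻¹)
    have h2 := hQM q hq _ h1
    have e : ⁅q * a * q⁻¹, x⁆ = q * ⁅a, q⁻¹ * x * q⁆ * q⁻¹ := by
      simp only [commutatorElement_def, mul_assoc, mul_inv_rev, inv_inv, mul_inv_cancel_left, mul_inv_cancel, mul_one]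
    rw [e, h2]
    exact h1
  have hcomm : ∀ g ∈ Q, ∀ x ∈ P, ⁅g, x⁆ ∈ M ∧ g ∈ Q := by
    intro g hg
    rw [← hAQ, Subgroup.commutator_def] at hg
    induction hg using Subgroup.closure_induction with
    | mem z hz =>
      obtain ⟨a, ha, q, hq, rfl⟩ := hz
      intro x hx
      refine ⟨?_, hAQ ▸ Subgroup.commutator_mem_commutator ha hq⟩
      have h1 := hconj q hq a⁻¹ (A.inv_mem ha) x hx
      have h2 := hAM a ha _ h1
      have h3 := M.mul_mem h2 (hA a ha x hx)
      have e : ⁅⁅a, q⁆, x⁆ = a * ⁅q * a⁻¹ * q⁻¹, x⁆ * a⁻¹ * ⁅a, x⁆ := by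
        simp only [commutatorElement_def, mul_assoc, mul_inv_rev, inv_inv, mul_inv_cancel_left, inv_mul_cancel_left]
      rwa [e]
    | one => exact fun x _ => ⟨by simp [commutatorElement_def], Q.one_mem⟩
    | mul y z _ _ ihy ihz =>
      intro x hx
      refine ⟨?_, Q.mul_mem (ihy x hx).2 (ihz x hx).2⟩
      have h1 := hQM y (ihy x hx).2 _ (ihz x hx).1
      have h2 := M.mul_mem (h1.symm ▸ (ihz x hx).1 : y * ⁅z, x⁆ * y⁻¹ ∈ M) (ihy x hx).1
      simpa [commutatorElement_def, mul_assoc] using h2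
    | inv y _ ihy =>
      intro x hx
      refine ⟨?_, Q.inv_mem (ihy x hx).2⟩
      have h0 := M.inv_mem (ihy x hx).1
      have h1 := hQM y⁻¹ (Q.inv_mem (ihy x hx).2) _ h0
      have h2 : y⁻¹ * ⁅y, x⁆⁻¹ * y⁻¹⁻¹ ∈ M := h1.symm ▸ h0
      simpa [commutatorElement_def, mul_assoc] using h2
  have hPQ : ⁅P, Q⁆ ≤ M := by
    rw [Subgroup.commutator_le]
    intro x hx g hg
    have := M.inv_mem (hcomm g hg x hx).1
    rwa [commutatorElement_inv] at this
  have hPp : IsPGroup p P := Lib.Components.pCore_isPGroup p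
  haveI := hPp.isNilpotent
  have hcop : (Nat.card Q).Coprime (Nat.card P) := by
    obtain ⟨a, ha⟩ := IsPGroup.iff_card.1 hPp
    rw [ha]
    exact (((Fact.out : p.Prime).coprime_iff_not_dvd.2 hQ).symm).pow_right a
  have hbot : ⁅P, Q⁆ = ⊥ := by
    rw [← Lib.Coprime.commutator_commutator Subgroup.le_normalizer_of_normal hcop (Or.inr inferInstance), eq_bot_iff]
    exact (Subgroup.commutator_mono hPQ le_rfl).trans h.le
  have hQP : Q ≤ P := le_trans
    (Subgroup.commutator_eq_bot_iff_le_centralizer.1 ((Subgroup.commutator_comm Q P).trans hbot))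
    (Lib.LocalFusion.centralizer_pCore_le_of_isPSolvable hS hred)
  apply hQ1
  apply Subgroup.eq_bot_of_card_eq
  exact Nat.eq_one_of_dvd_coprimes hcop dvd_rfl (Subgroup.card_dvd_of_le hQP)

end Cfsg.Agent.S1892
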