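import Cfsg.Statements.S1893
import Cfsg.Agent.Lib.Thompson.ActionStable
import Cfsg.Agent.Lib.HallHigman.Solvable
import Cfsg.Agent.Lib.Hall.Solvable
import Mathlib.GroupTheory.SchurZassenhaus
-- import your own Cfsg.Agent.* helpers here

set_option autoImplicit false
open Cfsg

namespace Cfsg.Agent.S1893

open Cfsg.Agent.Lib Subgroup
open scoped commutatorElement

/-- `n` is a `π`-number. -/
def Pi (π : Set ℕ) (n : ℕ) : Prop := ∀ q : ℕ, q.Prime → q ∣ n → q ∈ π

theorem Pi.dvd {π : Set ℕ} {m n : ℕ} (h : Pi π n) (hd : m ∣ n) : Pi π m := fun q hq hqm => h q hq (hqm.trans hd)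

theorem Pi.mul {π : Set ℕ} {m n : ℕ} (hm : Pi π m) (hn : Pi π n) : Pi π (m * n) := fun q hq h =>
  (hq.dvd_mul.mp h).elim (hm q hq) (hn q hq)

theorem coprime_of_pi {π : Set ℕ} {m n : ℕ} (hm : Pi π m) (hn : ∀ q : ℕ, q.Prime → q ∈ π → ¬ q ∣ n) :
    m.Coprime n := Nat.coprime_of_dvd fun q hq h1 h2 => hn q hq (hm q hq h1) h2

variable {T : Type*} [Group T] [Finite T] [Group.IsSolvable T] (π : Set ℕ)

omit [Group.IsSolvable T] in
/-- Normal `π`-subgroups lie in every Hall `π`-subgroup. -/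
theorem normal_le_hall {H N : Subgroup T} [N.Normal] (hH : IsPiHall π H) (hN : Pi π (Nat.card N)) : N ≤ H := by
  have hle : H ≤ normalizer (N : Set T) := by rw [normalizer_eq_top]; exact le_top
  have h1 := Coprime.card_sup_mul_card_inf_of_le_normalizer hle
  have hpi : Pi π (Nat.card ↥(H ⊔ N)) := (Pi.mul hH.1 hN).dvd ⟨_, h1.symm⟩
  have h2 : H.relIndex (H ⊔ N) = 1 := by
    refine Nat.eq_one_iff_not_exists_prime_dvd.mpr fun q hq hd => ?_
    exact hH.2 q hq (hpi q hq (hd.trans (relIndex_dvd_card _ _))) (hd.trans (relIndex_dvd_index_of_le le_sup_left))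
  exact le_sup_right.trans (relIndex_eq_one.mp h2)

variable (h2 : 2 ∉ π) (h3 : 3 ∉ π)

include h2 h3 in
/-- Without normal `π'`-subgroups, the `p`-elements centralising `A` lie in `A`. -/
theorem core_case (hO : ∀ N : Subgroup T, N.Normal → (∀ q : ℕ, q.Prime → q ∣ Nat.card N → q ∉ π) → N = ⊥)
    (H : Subgroup T) (hH : IsPiHall π H) (A : Subgroup T) (hA : IsSCN ((fittingSubgroup H).map H.subtype) A)
    {p : ℕ} [hp : Fact p.Prime] (hpπ : p ∈ π) {k : T} (hk : k ∈ centralizer (A : Set T)) {e : ℕ}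
    (hke : orderOf k = p ^ e) : k ∈ A := by
  set FH := (fittingSubgroup H).map H.subtype with hFH
  have hcore : ∀ q : ℕ, q.Prime → pCore q T ≤ FH := by
    intro q hq
    haveI : Fact q.Prime := ⟨hq⟩
    obtain ⟨m, hm⟩ := IsPGroup.iff_card.mp (Hall.isPGroup_pCore (G := T) q)
    have hdiv : ∀ r : ℕ, r.Prime → r ∣ Nat.card (pCore q T) → r = q := fun r hr hd => by
      rw [hm] at hd
      exact (Nat.prime_dvd_prime_iff_eq hr hq).mp (hr.dvd_of_dvd_pow hd)
    by_cases hqπ : q ∈ π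
    · have hle : pCore q T ≤ H := normal_le_hall π hH fun r hr hd => (hdiv r hr hd).symm ▸ hqπ
      haveI := (Hall.isPGroup_pCore (G := T) q).isNilpotent
      have hn : Group.IsNilpotent ((pCore q T).subgroupOf H) :=
        Group.nilpotent_of_mulEquiv (subgroupOfEquivOfLe hle).symm
      intro x hx
      exact ⟨⟨x, hle hx⟩, Hall.le_fittingSubgroup hn (mem_subgroupOf.mpr hx), rfl⟩
    · rw [hO (pCore q T) inferInstance fun r hr hd => (hdiv r hr hd).symm ▸ hqπ]
      exact bot_le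
  -- commutators with `k` fall into `A`
  have hcomm : ∀ j ∈ centralizer (A : Set T), ∀ q : ℕ, q.Prime → ∀ x ∈ pCore q T,
      ⁅j, x⁆ ∈ A ∧ ⁅j, x⁆ ∈ pCore q T := by
    intro j hj q hq x hx
    have hq' : ⁅j, x⁆ ∈ pCore q T := by
      rw [commutatorElement_def]
      exact mul_mem ((inferInstance : (pCore q T).Normal).conj_mem x hx j) (inv_mem hx)
    refine ⟨hA.2.2.le ⟨hcore q hq hq', mem_centralizer_iff.mpr fun a ha => ?_⟩, hq'⟩
    have hxa : x⁻¹ * a * x ∈ A := (mem_normalizer_iff''.mp (hA.2.1 (hcore q hq hx)) a).mp ha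
    have e1 := mem_centralizer_iff.mp hj a ha
    have e2 := mem_centralizer_iff.mp hj _ hxa
    rw [commutatorElement_def]
    calc a * (j * x * j⁻¹ * x⁻¹)
        = j * a * x * j⁻¹ * x⁻¹ := by simp only [← mul_assoc]; rw [e1]
      _ = j * x * (x⁻¹ * a * x) * j⁻¹ * x⁻¹ := by group
      _ = j * x * (j⁻¹ * (j * (x⁻¹ * a * x))) * j⁻¹ * x⁻¹ := by group
      _ = j * x * (j⁻¹ * ((x⁻¹ * a * x) * j)) * j⁻¹ * x⁻¹ := by rw [e2]
      _ = j * x * j⁻¹ * x⁻¹ * a := by group
  -- `k` centralises the other cores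
  have hfix : ∀ q : ℕ, q.Prime → q ≠ p → ∀ x ∈ pCore q T, Commute k x := by
    intro q hq hqp x hx
    haveI : Fact q.Prime := ⟨hq⟩
    obtain ⟨hcA, hcq⟩ := hcomm k hk q hq x hx
    have hc : Commute k ⁅k, x⁆ := (mem_centralizer_iff.mp hk _ hcA).symm
    have hpow : ∀ i : ℕ, k ^ i * x * (k ^ i)⁻¹ = ⁅k, x⁆ ^ i * x := by
      intro i
      induction i with
      | zero => simp
      | succ i ih =>
        calc k ^ (i + 1) * x * (k ^ (i + 1))⁻¹ = k * (k ^ i * x * (k ^ i)⁻¹) * k⁻¹ := by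
              rw [pow_succ', mul_inv_rev]; simp only [mul_assoc]
          _ = k * ⁅k, x⁆ ^ i * x * k⁻¹ := by rw [ih]; simp only [mul_assoc]
          _ = ⁅k, x⁆ ^ i * (k * x * k⁻¹) := by rw [(hc.pow_right i).eq]; simp only [mul_assoc]
          _ = ⁅k, x⁆ ^ (i + 1) * x := by rw [pow_succ, commutatorElement_def]; group
    have h1 := hpow (p ^ e)
    rw [← hke, pow_orderOf_eq_one, one_mul, inv_one, mul_one, hke] at h1
    have h2 : ⁅k, x⁆ ^ p ^ e = 1 := mul_right_cancel (b := x) (by rw [one_mul]; exact h1.symm)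
    obtain ⟨m, hm⟩ := Hall.isPGroup_pCore (G := T) q ⟨_, hcq⟩
    have h3 : ⁅k, x⁆ ^ q ^ m = 1 := congrArg Subtype.val hm
    have h4 : orderOf ⁅k, x⁆ = 1 := Nat.dvd_one.mp (((((Nat.coprime_primes hp.out hq).mpr (Ne.symm hqp)).pow e m)).gcd_eq_one ▸
      Nat.dvd_gcd (orderOf_dvd_of_pow_eq_one h2) (orderOf_dvd_of_pow_eq_one h3))
    exact commutatorElement_eq_one_iff_commute.mp (orderOf_eq_one_iff.mp h4)
  -- quadratic action on the core of `p`
  have hquad : ⁅⁅pCore p T, zpowers k⁆, zpowers k⁆ = ⊥ := by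
    have h1 : ⁅zpowers k, pCore p T⁆ ≤ A := commutator_le.mpr fun j hj x hx =>
      (hcomm j ((zpowers_le.mpr hk) hj) p hp.out x hx).1
    rw [commutator_eq_bot_iff_le_centralizer, commutator_comm]
    exact h1.trans (le_centralizer_iff.mp (zpowers_le.mpr hk))
  have h5 : 5 ≤ p := by
    have h : p ≠ 2 := fun h => h2 (h ▸ hpπ)
    have h' : p ≠ 3 := fun h => h3 (h ▸ hpπ)
    have h4 : p ≠ 4 := fun h => absurd (h ▸ hp.out) (by norm_num)
    have := hp.out.two_le
    omega
  have hst := Thompson.isPStableOn_of_noSL2 (by omega)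
    (Thompson.noSL2_of_isPSolvable h5 (HallHigman.isPSolvable_of_isSolvable (G := T) p)) (pCore p T)
    (Hall.isPGroup_pCore p) k hquad
  set ψ := QuotientGroup.mk' (centralizer ((pCore p T : Subgroup T) : Set T))
  set R := ⨆ q : {q : Nat.Primes // (q : ℕ) ≠ p}, pCore (q.1 : ℕ) T with hR
  haveI hRn : R.Normal := Subgroup.iSup_normal _
  set X := centralizer (R : Set T) ⊓ (pCore p _).comap ψ with hX
  haveI hXn : X.Normal := Subgroup.normal_inf_normal _ _
  have hkX : k ∈ X := by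
    refine ⟨?_, hst⟩
    change k ∈ centralizer (R : Set T)
    rw [← zpowers_le, le_centralizer_iff, hR, iSup_le_iff]
    intro q x hx
    exact mem_centralizer_iff.mpr fun j hj => by
      obtain ⟨i, rfl⟩ := hj
      exact ((hfix _ q.1.2 q.2 x hx).zpow_left i).eq
  have hF : fittingSubgroup T ≤ FH := by
    rw [Hall.fittingSubgroup_eq_iSup_pCore, iSup_le_iff]
    exact fun q => hcore _ q.2
  suffices hXF : X ≤ fittingSubgroup T from hA.2.2.le ⟨hF (hXF hkX), hk⟩
  refine Hall.le_fittingSubgroup ?_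
  let φ : X →* T ⧸ R := (QuotientGroup.mk' R).comp X.subtype
  have hpg : IsPGroup p φ.range := by
    rintro ⟨_, ⟨x, hx⟩, rfl⟩
    obtain ⟨m, hm⟩ := Hall.isPGroup_pCore (G := T ⧸ centralizer ((pCore p T : Subgroup T) : Set T)) p ⟨ψ x, hx.2⟩
    have hxm : x ^ p ^ m ∈ centralizer ((pCore p T : Subgroup T) : Set T) := by
      rw [← QuotientGroup.eq_one_iff, QuotientGroup.mk_pow]
      exact congrArg Subtype.val hm
    have hxF : x ^ p ^ m ∈ fittingSubgroup T := by
      refine Hall.centralizer_fittingSubgroup_le ?_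
      rw [← zpowers_le, le_centralizer_iff, Hall.fittingSubgroup_eq_iSup_pCore, iSup_le_iff]
      intro q
      rw [le_centralizer_iff, zpowers_le]
      by_cases hqp : (q : ℕ) = p
      · rw [hqp]; exact hxm
      · exact centralizer_le (s := ((pCore (q : ℕ) T : Subgroup T) : Set T))
          (le_iSup (fun q : {q : Nat.Primes // (q : ℕ) ≠ p} => pCore (q.1 : ℕ) T) ⟨q, hqp⟩) (pow_mem hx.1 _)
    have hFle : fittingSubgroup T ≤ pCore p T ⊔ R := by
      rw [Hall.fittingSubgroup_eq_iSup_pCore, iSup_le_iff]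
      intro q
      by_cases hqp : (q : ℕ) = p
      · rw [hqp]; exact le_sup_left
      · exact (le_iSup (fun q : {q : Nat.Primes // (q : ℕ) ≠ p} => pCore (q.1 : ℕ) T) ⟨q, hqp⟩).trans le_sup_right
    obtain ⟨a, ha, r, hr, hxar⟩ := Subgroup.mem_sup_of_normal_right.mp (hFle hxF)
    obtain ⟨l, hl⟩ := Hall.isPGroup_pCore (G := T) p ⟨a, ha⟩
    refine ⟨m + l, Subtype.ext ?_⟩
    change (QuotientGroup.mk' R x) ^ p ^ (m + l) = 1
    rw [pow_add, pow_mul, ← map_pow, ← hxar, map_mul, show QuotientGroup.mk' R r = 1 from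
      (QuotientGroup.eq_one_iff r).mpr hr, mul_one, ← map_pow, show a ^ p ^ l = 1 from congrArg Subtype.val hl, map_one]
  haveI := hpg.isNilpotent
  refine Subgroup.isNilpotent_of_ker_le_center φ.rangeRestrict ?_
  intro w hw
  rw [MonoidHom.ker_rangeRestrict, MonoidHom.mem_ker] at hw
  have hwR : (w : T) ∈ R := (QuotientGroup.eq_one_iff _).mp hw
  exact mem_center_iff.mpr fun x => Subtype.ext (mem_centralizer_iff.mp x.2.1 _ hwR).symm

/-- Let S be a finite solvable group, π a set of primes containing neither 2 nor 3, H a Hall π-subgroup of S, and A a self-centralizing normal subgroup of the Fitting subgroup F(H). Then C_S(A) = A × D for a normal subgroup D of C_S(A) whose order has no prime divisor in π. -/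
theorem result {S : Type*} [Group S] [Finite S] [Group.IsSolvable S]
    (π : Set ℕ) (h2 : 2 ∉ π) (h3 : 3 ∉ π) (H : Subgroup S) (hH : Cfsg.IsPiHall π H)
    (A : Subgroup S) (hA : Cfsg.IsSCN ((Cfsg.fittingSubgroup H).map H.subtype) A) :
    ∃ D : Subgroup S, D ≤ Subgroup.centralizer (A : Set S) ∧
      (∀ c ∈ Subgroup.centralizer (A : Set S), ∀ d ∈ D, c * d * c⁻¹ ∈ D) ∧
      A ⊓ D = ⊥ ∧ A ⊔ D = Subgroup.centralizer (A : Set S) ∧
      ∀ q : ℕ, q.Prime → q ∣ Nat.card D → q ∉ π := by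
  classical
  -- the largest normal subgroup of order prime to `π`
  set Bad : Set (Subgroup S) := {N | N.Normal ∧ ∀ q : ℕ, q.Prime → q ∣ Nat.card N → q ∉ π}
  have hbot : (⊥ : Subgroup S) ∈ Bad :=
    ⟨inferInstance, fun q hq hd => absurd (Nat.dvd_one.mp (card_bot (G := S) ▸ hd)) hq.one_lt.ne'⟩
  obtain ⟨M, hM, hmax⟩ := (Set.toFinite Bad).exists_maximal ⟨⊥, hbot⟩
  haveI : M.Normal := hM.1
  set f := QuotientGroup.mk' M with hf
  have hfs : Function.Surjective f := QuotientGroup.mk'_surjective M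
  have hO : ∀ N : Subgroup (S ⧸ M), N.Normal → (∀ q : ℕ, q.Prime → q ∣ Nat.card N → q ∉ π) → N = ⊥ := by
    intro N hN hq
    have hle : M ≤ N.comap f := fun x hx => by
      rw [mem_comap, show f x = 1 from (QuotientGroup.eq_one_iff x).mpr hx]; exact one_mem N
    have hb : N.comap f ∈ Bad := by
      refine ⟨hN.comap f, fun r hr hd => ?_⟩
      have e : Nat.card (N.comap f) = Nat.card N * Nat.card M := by
        refine Nat.eq_of_mul_eq_mul_right (Nat.pos_of_ne_zero N.index_ne_zero_of_finite) ?_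
        rw [mul_right_comm, card_mul_index, ← card_eq_card_quotient_mul_card_subgroup M,
          ← index_comap_of_surjective N hfs, card_mul_index]
      rw [e] at hd
      exact (hr.dvd_mul.mp hd).elim (hq r hr) (hM.2 r hr)
    rw [← map_comap_eq_self_of_surjective hfs N, Subgroup.map_eq_bot_iff, QuotientGroup.ker_mk']
    exact hmax hb hle
  -- `f` is injective on `H`
  have hHM : ∀ x ∈ H, f x = 1 → x = 1 := by
    intro x hx h
    have hxM : x ∈ M := (QuotientGroup.eq_one_iff x).mp h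
    by_contra hne
    obtain ⟨q, hq, hd⟩ := Nat.exists_prime_and_dvd (mt orderOf_eq_one_iff.mp hne)
    exact hM.2 q hq (hd.trans (Subgroup.orderOf_dvd_natCard M hxM)) (hH.1 q hq (hd.trans (Subgroup.orderOf_dvd_natCard H hx)))
  have hH' : IsPiHall π (H.map f) :=
    ⟨fun q hq hd => hH.1 q hq (hd.trans (card_dvd_of_surjective _ (f.subgroupMap_surjective H))),
      fun q hq hqπ hd => hH.2 q hq hqπ (hd.trans (index_map_dvd H hfs))⟩
  have hfsub : Function.Injective (f.subgroupMap H) := by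
    rw [injective_iff_map_eq_one]
    exact fun x hx => Subtype.ext (hHM x x.2 (congrArg Subtype.val hx))
  have hfit : (fittingSubgroup (H.map f)).map (H.map f).subtype = ((fittingSubgroup H).map H.subtype).map f := by
    let e : H ≃* H.map f := MulEquiv.ofBijective _ ⟨hfsub, f.subgroupMap_surjective H⟩
    have h1 : fittingSubgroup (H.map f) = (fittingSubgroup H).map e.toMonoidHom := by
      refine le_antisymm (fun y hy => ?_) (Hall.map_fittingSubgroup_le e.surjective)
      exact ⟨e.symm y, Hall.map_fittingSubgroup_le (f := e.symm.toMonoidHom) e.symm.surjective (mem_map_of_mem _ hy),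
        e.apply_symm_apply y⟩
    rw [h1, Subgroup.map_map, Subgroup.map_map]
    rfl
  set FH := (fittingSubgroup H).map H.subtype with hFH
  have hFHH : FH ≤ H := map_subtype_le _
  have hA' : IsSCN ((fittingSubgroup (H.map f)).map (H.map f).subtype) (A.map f) := by
    rw [hfit]
    refine ⟨Subgroup.map_mono hA.1, (Subgroup.map_mono hA.2.1).trans (le_normalizer_map f), le_antisymm ?_ ?_⟩
    · rintro _ ⟨⟨x, hx, rfl⟩, hc⟩
      refine mem_map_of_mem f (hA.2.2.le ⟨hx, mem_centralizer_iff.mpr fun a ha => ?_⟩)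
      have h1 := mem_centralizer_iff.mp hc (f a) (mem_map_of_mem f ha)
      refine mul_inv_eq_one.mp (hHM _ (mul_mem (mul_mem (hFHH (hA.1 ha)) (hFHH hx))
        (inv_mem (mul_mem (hFHH hx) (hFHH (hA.1 ha))))) ?_)
      rw [map_mul, map_inv, map_mul, map_mul, h1, mul_inv_cancel]
    · refine le_inf (Subgroup.map_mono hA.1) ?_
      rintro _ ⟨a, ha, rfl⟩
      refine mem_centralizer_iff.mpr ?_
      rintro _ ⟨b, hb, rfl⟩
      have h1 : a ∈ FH ⊓ centralizer (A : Set S) := hA.2.2.symm ▸ ha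
      rw [← map_mul, ← map_mul, mem_centralizer_iff.mp h1.2 b hb]
  set C := centralizer (A : Set S) with hC
  have hAC : A ≤ C := fun a ha => (hA.2.2.symm ▸ ha : a ∈ FH ⊓ centralizer (A : Set S)).2
  haveI hAn : (A.subgroupOf C).Normal := ⟨fun a ha c => by
    rw [mem_subgroupOf] at ha ⊢
    rw [Subgroup.coe_mul, Subgroup.coe_mul, ← mem_centralizer_iff.mp c.2 _ ha, InvMemClass.coe_inv,
      mul_inv_cancel_right]
    exact ha⟩
  have hApi : Pi π (Nat.card A) := fun q hq hd => hH.1 q hq (hd.trans (card_dvd_of_le (hA.1.trans hFHH)))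
  have hidx : ∀ q : ℕ, q.Prime → q ∈ π → ¬ q ∣ (A.subgroupOf C).index := by
    intro q hq hqπ hd
    haveI : Fact q.Prime := ⟨hq⟩
    rw [index_eq_card] at hd
    obtain ⟨x, hx⟩ := exists_prime_orderOf_dvd_card' q hd
    obtain ⟨g, rfl⟩ := QuotientGroup.mk'_surjective (A.subgroupOf C) x
    obtain ⟨e, m, hm, hgm⟩ := Nat.exists_eq_pow_mul_and_not_dvd (orderOf_pos g).ne' q hq.ne_one
    have hord : orderOf (g ^ m) = q ^ e := by
      rw [orderOf_pow_of_dvd (fun h => hm (by rw [h]; exact dvd_zero q)) (Dvd.intro_left _ hgm.symm), hgm,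
        Nat.mul_div_cancel _ (Nat.pos_of_ne_zero fun h => hm (by rw [h]; exact dvd_zero q))]
    have hnot : ((g ^ m : C) : S) ∉ A := fun h => hm (hx ▸ orderOf_dvd_of_pow_eq_one (by
      rw [← map_pow]; exact (QuotientGroup.eq_one_iff _).mpr h))
    set c : S := ((g ^ m : C) : S) with hc
    have hcC : c ∈ C := (g ^ m : C).2
    have hco : orderOf c = q ^ e := by rw [hc, Subgroup.orderOf_coe, hord]
    obtain ⟨e', he', hfc⟩ := (Nat.dvd_prime_pow hq).mp (hco ▸ orderOf_map_dvd f c)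
    obtain ⟨a, ha, hac⟩ := core_case π h2 h3 hO (H.map f) hH' (A.map f) hA' hqπ (k := f c) (by
      refine mem_centralizer_iff.mpr ?_
      rintro _ ⟨b, hb, rfl⟩
      rw [← map_mul, ← map_mul, mem_centralizer_iff.mp hcC b hb]) hfc
    have hdM : c * a⁻¹ ∈ M := (QuotientGroup.eq_one_iff _).mp (by
      change f (c * a⁻¹) = 1
      rw [map_mul, map_inv, hac, mul_inv_cancel])
    have hcomm : Commute c a⁻¹ := (mem_centralizer_iff.mp hcC _ (inv_mem ha)).symm
    refine hnot (?_ : c ∈ A)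
    suffices h : c * a⁻¹ = 1 by rwa [mul_inv_eq_one.mp h]
    by_contra hne
    obtain ⟨r, hr, hrd⟩ := Nat.exists_prime_and_dvd (mt orderOf_eq_one_iff.mp hne)
    refine hM.2 r hr (hrd.trans (Subgroup.orderOf_dvd_natCard M hdM)) ?_
    have hpi : Pi π (orderOf c * orderOf a⁻¹) := Pi.mul
      (fun s hs hd => (Nat.prime_dvd_prime_iff_eq hs hq).mp (hs.dvd_of_dvd_pow (hco ▸ hd)) ▸ hqπ)
      (hApi.dvd (Subgroup.orderOf_dvd_natCard A (inv_mem ha)))
    exact hpi r hr (hrd.trans (hcomm.orderOf_mul_dvd_mul_orderOf))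
  have hcard : Nat.card (A.subgroupOf C) = Nat.card A := Nat.card_congr (subgroupOfEquivOfLe hAC).toEquiv
  obtain ⟨D, hD⟩ := Subgroup.exists_right_complement'_of_coprime (N := A.subgroupOf C)
    (coprime_of_pi (hcard ▸ hApi) hidx)
  have hDn : ∀ c : C, ∀ d ∈ D, c * d * c⁻¹ ∈ D := by
    intro c d hd
    obtain ⟨⟨a, d'⟩, rfl⟩ := hD.2 c
    have ha : ∀ x : C, (a : C) * x = x * a := fun x => Subtype.ext (mem_centralizer_iff.mp x.2 _ (mem_subgroupOf.mp a.2))
    have e : (a : C) * d' * d * ((a : C) * d')⁻¹ = d' * d * (d' : C)⁻¹ := by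
      calc (a : C) * d' * d * ((a : C) * d')⁻¹ = ((a : C) * (d' * d * (d' : C)⁻¹)) * (a : C)⁻¹ := by group
        _ = d' * d * (d' : C)⁻¹ := by rw [ha, mul_inv_cancel_right]
    change (a : C) * d' * d * ((a : C) * d')⁻¹ ∈ D
    rw [e]
    exact mul_mem (mul_mem d'.2 hd) (inv_mem d'.2)
  refine ⟨D.map C.subtype, map_subtype_le D, ?_, ?_, ?_, fun q hq hd hqπ => hidx q hq hqπ ?_⟩
  · rintro c hc _ ⟨d, hd, rfl⟩
    exact ⟨⟨c, hc⟩ * d * ⟨c, hc⟩⁻¹, hDn _ d hd, rfl⟩
  · rw [eq_bot_iff]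
    rintro _ ⟨ha, d, hd, rfl⟩
    have := hD.disjoint.le_bot (show d ∈ A.subgroupOf C ⊓ D from ⟨mem_subgroupOf.mpr ha, hd⟩)
    rw [mem_bot] at this ⊢
    rw [this]; rfl
  · refine le_antisymm (sup_le hAC (map_subtype_le D)) fun c hc => ?_
    obtain ⟨⟨a, d⟩, had⟩ := hD.2 ⟨c, hc⟩
    rw [← show ((a : C) : S) * ((d : C) : S) = c from congrArg Subtype.val had]
    exact mul_mem_sup (mem_subgroupOf.mp a.2) (mem_map_of_mem _ d.2)
  · rw [card_map_of_injective C.subtype_injective] at hd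
    have h1 := hD.card_mul
    rw [← card_mul_index (A.subgroupOf C)] at h1
    rwa [← Nat.eq_of_mul_eq_mul_left Nat.card_pos h1]

end Cfsg.Agent.S1893
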