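import Cfsg.Statements.S1894
import Mathlib.GroupTheory.Nilpotent
import Mathlib.Order.Preorder.Finite

set_option autoImplicit false
open Cfsg

namespace Cfsg.Agent.S1894

/-- Let P be a finite p-group, A a normal subgroup of P and B an abelian subgroup of A that is normal in P. Then some subgroup C of A containing B is normal in P and is self-centralizing and normal in A (C ∈ SCN(A)). -/
theorem result {P : Type*} [Group P] [Finite P] {p : ℕ} [Fact p.Prime] (hP : IsPGroup p P)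
    (A : Subgroup P) [A.Normal] (B : Subgroup P) [B.Normal] (hBA : B ≤ A) (hB : IsMulCommutative B) :
    ∃ C : Subgroup P, C.Normal ∧ B ≤ C ∧ Cfsg.IsSCN A C := by
  haveI := hP.isNilpotent
  obtain ⟨n, hn⟩ := Group.IsNilpotent.nilpotent (G := P)
  obtain ⟨C, hBC, hC⟩ := Finite.exists_le_maximal
    (p := fun C : Subgroup P => C.Normal ∧ IsMulCommutative C ∧ C ≤ A) (a := B) ⟨inferInstance, hB, hBA⟩
  obtain ⟨hCn, hCc, hCA⟩ := hC.prop
  have hCC : C ≤ Subgroup.centralizer (C : Set P) := fun a ha b hb =>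
    congrArg Subtype.val (hCc.is_comm.comm (⟨b, hb⟩ : ↥C) ⟨a, ha⟩)
  refine ⟨C, hCn, hBC, hCA, Subgroup.le_normalizer_of_normal, le_antisymm ?_ (le_inf hCA hCC)⟩
  classical
  by_contra hne
  have hex : ∃ i, ∃ x ∈ A ⊓ Subgroup.centralizer (C : Set P), x ∉ C ∧ x ∈ Subgroup.upperCentralSeries P i := by
    obtain ⟨x, hx, hxC⟩ := SetLike.not_le_iff_exists.1 hne
    exact ⟨n, x, hx, hxC, hn ▸ Subgroup.mem_top x⟩
  obtain ⟨x, hx, hxC, hxi⟩ := Nat.find_spec hex
  obtain ⟨j, hj⟩ : ∃ j, Nat.find hex = j + 1 := by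
    refine Nat.exists_eq_succ_of_ne_zero fun h0 => ?_
    rw [h0, Subgroup.upperCentralSeries_zero, Subgroup.mem_bot] at hxi
    exact hxC (hxi ▸ C.one_mem)
  rw [hj] at hxi
  have key : ∀ k : P, x * k * x⁻¹ * k⁻¹ ∈ C := by
    intro k
    by_contra hk
    refine Nat.find_min hex (show j < Nat.find hex by omega)
      ⟨_, ?_, hk, Subgroup.mem_upperCentralSeries_succ_iff.1 hxi k⟩
    haveI : (A ⊓ Subgroup.centralizer (C : Set P)).Normal := inferInstance
    have := mul_mem hx ((inferInstance : (A ⊓ Subgroup.centralizer (C : Set P)).Normal).conj_mem _ (inv_mem hx) k)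
    simpa [mul_assoc] using this
  have hle : C ⊔ Subgroup.zpowers x ≤ Subgroup.centralizer ((C ⊔ Subgroup.zpowers x : Subgroup P) : Set P) := by
    have hz : Subgroup.zpowers x ≤ Subgroup.centralizer (C : Set P) := Subgroup.zpowers_le.2 hx.2
    have hzz : Subgroup.zpowers x ≤ Subgroup.centralizer (Subgroup.zpowers x : Set P) := by
      rintro _ ⟨i, rfl⟩ _ ⟨j, rfl⟩
      exact (Commute.zpow_zpow (Commute.refl x) j i).eq
    refine sup_le ?_ ?_ <;> rw [Subgroup.le_centralizer_iff] <;> refine sup_le ?_ ?_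
    · exact hCC
    · exact hz
    · exact Subgroup.le_centralizer_iff.1 hz
    · exact hzz
  refine hxC (hC.le_of_ge (y := C ⊔ Subgroup.zpowers x) ⟨⟨fun y hy g => ?_⟩, ⟨⟨fun a b => Subtype.ext (hle b.2 a a.2)⟩⟩,
    sup_le hCA (Subgroup.zpowers_le.2 hx.1)⟩ le_sup_left (Subgroup.mem_sup_right (Subgroup.mem_zpowers x)))
  have hgx : C ⊔ Subgroup.zpowers x ≤ (C ⊔ Subgroup.zpowers x).comap (MulAut.conj g).toMonoidHom := by
    refine sup_le (fun c hc => Subgroup.mem_sup_left (hCn.conj_mem c hc g)) (Subgroup.zpowers_le.2 ?_)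
    show g * x * g⁻¹ ∈ C ⊔ Subgroup.zpowers x
    have h1 := mul_mem (Subgroup.mem_sup_left (T := Subgroup.zpowers x) (inv_mem (key g)))
      (Subgroup.mem_sup_right (S := C) (Subgroup.mem_zpowers x))
    simpa [mul_assoc] using h1
  exact hgx hy

end Cfsg.Agent.S1894
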