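import Cfsg.Statements.S1895
import Cfsg.Agent.Lib.RankTwoSeries

set_option autoImplicit false
open Cfsg Subgroup

namespace Cfsg.Agent.S1895

/-- Let p be an odd prime and G a finite p-solvable group with no elementary abelian subgroup of order p³. Then every chief factor H/K of G (H, K normal in G with no normal subgroup of G strictly between them) whose order is a power of p has order p or p². -/
theorem result {G : Type*} [Group G] [Finite G] {p : ℕ} [Fact p.Prime] (hp : p ≠ 2)
    (hG : Cfsg.IsPSolvable p G) (hr : Cfsg.PRankLE p 2 G)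
    (H K : Subgroup G) [H.Normal] [K.Normal] (hKH : K < H) (hpow : ∃ n : ℕ, K.relIndex H = p ^ n)
    (hchief : ∀ L : Subgroup G, L.Normal → K ≤ L → L ≤ H → L = K ∨ L = H) :
    K.relIndex H = p ∨ K.relIndex H = p ^ 2 := by
  have hp' : p.Prime := Fact.out
  obtain ⟨Q0⟩ : Nonempty (Sylow p H) := inferInstance
  let Q : Subgroup G := (Q0 : Subgroup H).map H.subtype
  have hQH : Q ≤ H := map_subtype_le _
  have hQp : IsPGroup p Q := Q0.2.map _
  obtain ⟨n, hn⟩ := hpow
  -- `Q` covers the chief factor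
  have hQK : Q ⊔ K = H := by
    refine le_antisymm (sup_le hQH hKH.le) ?_
    rw [← relIndex_eq_one]
    have h1 : (Q ⊔ K).relIndex H ∣ p ^ n := hn ▸ relIndex_dvd_of_le_left H le_sup_right
    have h2 : (Q ⊔ K).relIndex H ∣ Q.relIndex H := relIndex_dvd_of_le_left H le_sup_left
    have h3 : Q.relIndex H = (Q0 : Subgroup H).index := by
      rw [relIndex, subgroupOf, comap_map_eq_self_of_injective H.subtype_injective]
    refine Nat.eq_one_of_dvd_coprimes ?_ h1 (h3 ▸ h2)
    exact Nat.Coprime.pow_left _ (hp'.coprime_iff_not_dvd.mpr Q0.not_dvd_index)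
  set N := normalizer (Q : Set G) with hN
  have hQN : Q ≤ N := le_normalizer
  have htop : N ⊔ K = ⊤ := by
    rw [eq_top_iff, ← Sylow.normalizer_sup_eq_top Q0]
    refine sup_le le_sup_left ?_
    rw [← hQK]
    exact sup_le (hQN.trans le_sup_left) le_sup_right
  let QX := Q.subgroupOf N
  let KX := (K ⊓ Q).subgroupOf N
  have hnorm : ∀ g ∈ N, ∀ x ∈ Q, g * x * g⁻¹ ∈ Q := fun g hg x hx => (mem_normalizer_iff.mp hg x).mp hx
  haveI : QX.Normal := ⟨fun x hx g => hnorm g g.2 x hx⟩
  haveI : KX.Normal := ⟨fun x hx g => ⟨Subgroup.Normal.conj_mem inferInstance (x : G) hx.1 g, hnorm g g.2 x hx.2⟩⟩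
  have hidx : KX.relIndex QX = K.relIndex H := by
    rw [relIndex_subgroupOf hQN, inf_relIndex_right, ← relIndex_sup_right, hQK]
  have hlt : KX < QX := by
    refine lt_of_le_of_ne (fun x hx => hx.2) fun h => hKH.ne (le_antisymm hKH.le ?_)
    rw [← relIndex_eq_one, ← hidx, h, relIndex_self]
  have hle := Lib.RankTwoSeries.chief_le hp QX KX (hQp.comap_of_injective N.subtype N.subtype_injective) hlt
    (fun L hL h1 h2 => by
      have hLn : ∀ g ∈ N, ∀ x ∈ L.map N.subtype, g * x * g⁻¹ ∈ L.map N.subtype := by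
        rintro g hg _ ⟨x, hx, rfl⟩
        exact ⟨⟨g, hg⟩ * x * ⟨g, hg⟩⁻¹, hL.conj_mem x hx _, rfl⟩
      have hLQ : L.map N.subtype ≤ Q := by
        rintro _ ⟨x, hx, rfl⟩
        exact h2 hx
      haveI : (L.map N.subtype ⊔ K).Normal := by
        rw [← normalizer_eq_top_iff, eq_top_iff, ← htop]
        refine sup_le (fun g hg => ?_) (le_trans le_sup_right le_normalizer)
        rw [mem_normalizer_iff_map_conj_eq, Subgroup.map_sup]
        congr 1
        · refine le_antisymm ?_ ?_
          · rintro _ ⟨x, hx, rfl⟩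
            exact hLn g hg x hx
          · intro x hx
            exact ⟨g⁻¹ * x * g, by simpa using hLn g⁻¹ (inv_mem hg) x hx, by simp [mul_assoc]⟩
        · exact Subgroup.normal_iff_map_conj_eq.mp inferInstance g
      rcases hchief (L.map N.subtype ⊔ K) inferInstance le_sup_right (sup_le (hLQ.trans hQH) hKH.le) with h | h
      · refine Or.inl (le_antisymm (fun x hx => ⟨h.le (mem_sup_left (mem_map_of_mem _ hx)), h2 hx⟩) h1)
      · refine Or.inr (le_antisymm h2 fun x hx => ?_)
        have hx' : (x : G) ∈ L.map N.subtype ⊔ K := h.symm ▸ hQH hx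
        obtain ⟨l, hl, k, hk, e⟩ := mem_sup_of_normal_right.mp hx'
        obtain ⟨l', hl', rfl⟩ := hl
        have hkQ : k ∈ Q := by
          rw [← inv_mul_cancel_left (N.subtype l') k, e]
          exact mul_mem (inv_mem (hLQ ⟨l', hl', rfl⟩)) hx
        have hk' : (⟨k, hQN hkQ⟩ : N) ∈ L := h1 ⟨hk, hkQ⟩
        have : x = l' * ⟨k, hQN hkQ⟩ := Subtype.ext e.symm
        rw [this]
        exact mul_mem hl' hk')
    (fun A hA1 hA2 => by
      haveI := hA1
      have h := hr (A.map N.subtype) (map_isMulCommutative A N.subtype)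
        (by rintro _ ⟨a, ha, rfl⟩; rw [← map_pow, hA2 a ha, map_one])
      rwa [card_map_of_injective N.subtype_injective] at h)
  rw [hidx, hn] at hle
  have hn2 := (Nat.pow_le_pow_iff_right hp'.one_lt).mp hle
  have hn0 : n ≠ 0 := by
    rintro rfl
    exact hKH.ne (le_antisymm hKH.le (relIndex_eq_one.mp (hn.trans (pow_zero p))))
  rw [hn]
  rcases (show n = 1 ∨ n = 2 by omega) with rfl | rfl
  · exact Or.inl (pow_one p)
  · exact Or.inr rfl

end Cfsg.Agent.S1895
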