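import Cfsg.Statements.S1896
import Cfsg.Agent.Lib.PGroupFrattini
import Cfsg.Agent.Lib.UniqueInvolution
import Mathlib.GroupTheory.Perm.Cycle.Type

set_option autoImplicit false
open Cfsg

namespace Cfsg.Agent.S1896

open scoped commutatorElement

section
variable {X : Type*} [Group X] [Finite X]

omit [Finite X] in
private lemma mem_pair_quot {V : Type*} [Group V] [Finite V] (hc : Nat.card V ≤ 4) (h2 : ∀ v : V, v * v = 1)
    {v w : V} (hv : v ≠ 1) (hw : w ≠ 1) (hvw : w ≠ v) (u : V) : u = 1 ∨ u = v ∨ u = w ∨ u = v * w := by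
  classical
  haveI := Fintype.ofFinite V
  by_contra hu
  simp only [not_or] at hu
  obtain ⟨u1, u2, u3, u4⟩ := hu
  have h1 : v * w ≠ 1 := fun h => hvw (mul_left_cancel (h.trans (h2 v).symm))
  have h3 : v * w ≠ v := fun h => hw (mul_left_cancel (h.trans (mul_one v).symm))
  have h4 : v * w ≠ w := fun h => hv (mul_right_cancel (h.trans (one_mul w).symm))
  have : ({1, v, w, v * w, u} : Finset V).card = 5 := by
    simp [Ne.symm hv, Ne.symm hw, Ne.symm hvw, Ne.symm h1, Ne.symm h3, Ne.symm h4, Ne.symm u1,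
      Ne.symm u2, Ne.symm u3, Ne.symm u4]
  have hle := Finset.card_le_univ ({1, v, w, v * w, u} : Finset V)
  rw [Nat.card_eq_fintype_card] at hc
  omega

private lemma sigma_no_fixed {V : Type*} [Group V] [Finite V] (hc : Nat.card V ≤ 4) (h2 : ∀ v : V, v * v = 1)
    (σ : MulAut V) {r : ℕ} (hr : Odd r) (hσr : σ ^ r = 1) (hσ : σ ≠ 1) {v : V} (hv : v ≠ 1) : σ v ≠ v := by
  intro hfix
  refine hσ ?_
  have hsq : σ ^ 2 = 1 := by
    refine MulEquiv.ext fun y => ?_
    show (σ ^ 2) y = y
    rw [pow_two, MulAut.mul_apply]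
    by_cases hy : y = 1
    · simp [hy]
    by_cases hyv : y = v
    · rw [hyv, hfix, hfix]
    rcases mem_pair_quot hc h2 hv hy hyv (σ y) with h | h | h | h
    · exact absurd (σ.map_eq_one_iff.1 h) hy
    · exact absurd (σ.injective (h.trans hfix.symm)) hyv
    · rw [h, h]
    · rw [h, map_mul, hfix, h, ← mul_assoc, h2 v, one_mul]
  obtain ⟨k, rfl⟩ := hr
  rwa [pow_succ, pow_mul, hsq, one_pow, one_mul] at hσr

private lemma sigma_orbit {V : Type*} [Group V] [Finite V] (hc : Nat.card V ≤ 4) (h2 : ∀ v : V, v * v = 1)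
    (σ : MulAut V) {r : ℕ} (hr : Odd r) (hσr : σ ^ r = 1) (hσ : σ ≠ 1) {v w : V} (hv : v ≠ 1) (hw : w ≠ 1) :
    w = v ∨ w = σ v ∨ w = σ (σ v) := by
  have hf : ∀ {u : V}, u ≠ 1 → σ u ≠ u := fun hu => sigma_no_fixed hc h2 σ hr hσr hσ hu
  have h1 : σ v ≠ 1 := fun h => hv (σ.map_eq_one_iff.1 h)
  have hne := hf hv
  have h3 : v * σ v ≠ 1 := fun h => hne (mul_left_cancel (h.trans (h2 v).symm))
  have h22 : σ (σ v) = v * σ v := by
    rcases mem_pair_quot hc h2 hv h1 hne (σ (σ v)) with h | h | h | h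
    · exact absurd (σ.map_eq_one_iff.1 h) h1
    · refine absurd ?_ (hf h3)
      rw [map_mul, h]
      calc σ v * v = v * v * (σ v * v) := by rw [h2 v, one_mul]
        _ = v * ((v * σ v) * (v * σ v)) * σ v := by simp only [mul_assoc]; rw [h2 (σ v), mul_one]
        _ = v * σ v := by rw [h2 (v * σ v), mul_one]
    · exact absurd h (hf h1)
    · exact h
  rcases mem_pair_quot hc h2 hv h1 hne w with h | h | h | h
  · exact absurd h hw
  · exact Or.inl h
  · exact Or.inr (Or.inl h)
  · exact Or.inr (Or.inr (h.trans h22.symm))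

/-- The situation: `n` generates a cyclic normal subgroup with cyclic quotient generated by the image of `b`,
and `α` has odd prime order. -/
private theorem main (hX : IsPGroup 2 X) (n b : X)
    (hgen : ∀ x : X, ∃ i j : ℕ, x = n ^ i * b ^ j) (hcomm : ∀ x y : X, x * y * x⁻¹ * y⁻¹ ∈ Subgroup.zpowers n)
    (α : MulAut X) {r : ℕ} (hrp : r.Prime) (hr2 : r ≠ 2) (hαr : α ^ r = 1) (hα : α ≠ 1) :
    Nonempty (X ≃* QuaternionGroup 2) ∨
      ∃ k : ℕ, Nonempty (X ≃* Multiplicative (ZMod (2 ^ k)) × Multiplicative (ZMod (2 ^ k))) := by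
  classical
  haveI : Fact (Nat.Prime 2) := ⟨Nat.prime_two⟩
  haveI : Fact r.Prime := ⟨hrp⟩
  have hrodd : Odd r := hrp.odd_of_ne_two hr2
  set Φ := frattini X with hΦ
  let π := QuotientGroup.mk' Φ
  have hπ1 : ∀ x, π x = 1 ↔ x ∈ Φ := fun x => QuotientGroup.eq_one_iff x
  have hsq : ∀ x : X, x ^ 2 ∈ Φ := Lib.PGroupFrattini.pow_mem_frattini hX
  have h2 : ∀ v : X ⧸ Φ, v * v = 1 := fun v => QuotientGroup.induction_on v fun x => by
    rw [← QuotientGroup.mk_mul, QuotientGroup.eq_one_iff, ← pow_two]; exact hsq x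
  have hred : ∀ (g : X) (i : ℕ), π (g ^ i) = 1 ∨ π (g ^ i) = π g := by
    intro g i
    rw [map_pow]
    rcases Nat.even_or_odd i with ⟨k, rfl⟩ | ⟨k, rfl⟩
    · left; rw [← two_mul, pow_mul, pow_two, h2, one_pow]
    · right; rw [pow_succ, pow_mul, pow_two, h2, one_pow, one_mul]
  have hc4 : Nat.card (X ⧸ Φ) ≤ 4 := by
    have hf : Function.Surjective (fun e : Bool × Bool =>
        (if e.1 then π n else 1) * (if e.2 then π b else 1)) := by
      intro v
      obtain ⟨x, rfl⟩ := QuotientGroup.mk_surjective v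
      obtain ⟨i, j, rfl⟩ := hgen x
      show ∃ e, _ = π (n ^ i * b ^ j)
      rw [map_mul]
      rcases hred n i with hi | hi <;> rcases hred b j with hj | hj
      · exact ⟨(false, false), by simp [hi, hj]⟩
      · exact ⟨(false, true), by simp [hi, hj]⟩
      · exact ⟨(true, false), by simp [hi, hj]⟩
      · exact ⟨(true, true), by simp [hi, hj]⟩
    exact (Nat.card_le_card_of_surjective _ hf).trans (by simp)
  let σ : MulAut (X ⧸ Φ) := QuotientGroup.congr Φ Φ α
    ((Subgroup.characteristic_iff_map_eq.1 frattini_characteristic) α)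
  have hσπ : ∀ x, σ (π x) = π (α x) := fun x => QuotientGroup.congr_mk' _ _ _ _ x
  have hσpow : ∀ (k : ℕ) (x : X), (σ ^ k) (π x) = π ((α ^ k) x) := by
    intro k
    induction k with
    | zero => intro x; simp
    | succ k ih => intro x; rw [pow_succ, pow_succ, MulAut.mul_apply, MulAut.mul_apply, hσπ, ih]
  have hσr : σ ^ r = 1 := by
    refine MulEquiv.ext fun v => ?_
    obtain ⟨x, rfl⟩ := QuotientGroup.mk'_surjective Φ v
    show (σ ^ r) (π x) = π x
    rw [hσpow, hαr]; rfl
  have hσ : σ ≠ 1 := by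
    intro h1
    refine hα ?_
    let C : Subgroup X :=
      { carrier := {y | α y = y}
        one_mem' := map_one α
        mul_mem' := fun {a c} (ha : α a = a) (hc : α c = c) => show α (a * c) = a * c by rw [map_mul, ha, hc]
        inv_mem' := fun {a} (ha : α a = a) => show α a⁻¹ = a⁻¹ by rw [map_inv, ha] }
    have hC : C ⊔ Φ = ⊤ := by
      refine eq_top_iff.2 fun x _ => ?_
      have hinv : ∀ y : X, (π (α y) = π x) ↔ (π y = π x) := fun y => by rw [← hσπ, h1]; rfl
      let τ : Equiv.Perm {y : X // π y = π x} := Equiv.Perm.subtypePerm (α.toEquiv : Equiv.Perm X) hinv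
      haveI := Fintype.ofFinite {y : X // π y = π x}
      have hcard : Fintype.card {y : X // π y = π x} = Nat.card Φ := by
        rw [← Nat.card_eq_fintype_card]
        refine Nat.card_congr ⟨fun y => ⟨x⁻¹ * y, QuotientGroup.eq.1 y.2.symm⟩,
          fun f => ⟨x * f, ?_⟩, fun y => by simp, fun f => by simp⟩
        rw [map_mul, (hπ1 (f : X)).2 f.2, mul_one]
      have hnd : ¬ r ∣ Fintype.card {y : X // π y = π x} := by
        rw [hcard]
        obtain ⟨k, hk⟩ := IsPGroup.iff_card.1 (hX.to_subgroup Φ)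
        rw [hk]
        intro hd
        exact hr2 ((Nat.prime_dvd_prime_iff_eq hrp Nat.prime_two).1 (hrp.dvd_of_dvd_pow hd))
      have hτ : τ ^ r ^ 1 = 1 := by
        rw [pow_one]
        refine Equiv.ext fun y => Subtype.ext ?_
        have h : ∀ (k : ℕ) (z : {y : X // π y = π x}), ((τ ^ k) z : X) = (α ^ k) z := by
          intro k
          induction k with
          | zero => intro z; simp
          | succ k ih =>
            intro z
            rw [pow_succ, pow_succ, Equiv.Perm.mul_apply, MulAut.mul_apply, ih]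
            rfl
        rw [h r y, hαr]; rfl
      obtain ⟨y, hy⟩ := Equiv.Perm.exists_fixed_point_of_prime hnd hτ
      have hyC : (y : X) ∈ C := (show α (y : X) = y from congrArg Subtype.val hy)
      have hyx : (y : X)⁻¹ * x ∈ Φ := QuotientGroup.eq.1 y.2
      have := Subgroup.mul_mem_sup hyC hyx
      rwa [mul_inv_cancel_left] at this
    have hCtop : C = ⊤ := frattini_nongenerating hC
    exact MulEquiv.ext fun x => (show x ∈ C from hCtop ▸ Subgroup.mem_top x)
  have inv_sub : ∀ U : Subgroup X, Φ ≤ U → U ≠ ⊤ → (∀ x ∈ U, α x ∈ U) → U ≤ Φ := by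
    intro U hΦU hU hinv x hx
    by_contra hxΦ
    have hv : π x ≠ 1 := fun h => hxΦ ((hπ1 x).1 h)
    refine hU (eq_top_iff.2 fun y _ => ?_)
    by_cases hy : π y = 1
    · exact hΦU ((hπ1 y).1 hy)
    have key : ∀ z ∈ U, π y = π z → y ∈ U := fun z hz h => by
      have := U.mul_mem hz (hΦU (QuotientGroup.eq.1 h.symm))
      rwa [mul_inv_cancel_left] at this
    rcases sigma_orbit hc4 h2 σ hrodd hσr hσ hv hy with h | h | h
    · exact key x hx h
    · rw [hσπ] at h; exact key _ (hinv x hx) h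
    · rw [hσπ, hσπ] at h; exact key _ (hinv _ (hinv x hx)) h
  have hnb1 : ∀ g : X, (∀ x, π x = 1 ∨ π x = π g) → False := by
    intro g hg
    by_cases hπ : π g = 1
    · exact hσ (MulEquiv.ext fun v => by
        obtain ⟨x, rfl⟩ := QuotientGroup.mk'_surjective Φ v
        rcases hg x with h | h
        · show σ (π x) = π x; rw [h, map_one]
        · show σ (π x) = π x; rw [h, hπ, map_one])
    · refine sigma_no_fixed hc4 h2 σ hrodd hσr hσ hπ ?_
      rcases hg (α g) with h | h
      · exact absurd (by rw [← hσπ] at h; exact σ.map_eq_one_iff.1 h) hπ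
      · rw [hσπ, h]
  have hnΦ : n ∉ Φ := fun h => hnb1 b fun x => by
    obtain ⟨i, j, rfl⟩ := hgen x
    rw [map_mul, map_pow, (hπ1 n).2 h, one_pow, one_mul]
    exact hred b j
  have hnbΦ : n * b ∉ Φ := fun h => hnb1 n fun x => by
    obtain ⟨i, j, rfl⟩ := hgen x
    have hb : π b = π n := by
      have h' : π n * π b = π n * π n := by
        rw [h2, ← map_mul]; exact (hπ1 _).2 h
      exact mul_left_cancel h'
    rw [map_mul, map_pow, map_pow, hb, ← pow_add, ← map_pow]
    exact hred n _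
  have hbΦ : b ∉ Φ := fun h => hnb1 n fun x => by
    obtain ⟨i, j, rfl⟩ := hgen x
    rw [map_mul, map_pow π b, (hπ1 b).2 h, one_pow, mul_one]
    exact hred n i
  -- the derived subgroup and the exponent of the abelianization
  set D := commutator X with hD
  have hDn : D ≤ Subgroup.zpowers n := by
    rw [hD, commutator_def, Subgroup.commutator_le]
    intro x _ y _
    exact hcomm x y
  have hDα : ∀ x ∈ D, α x ∈ D := by
    intro x hx
    have : D.map α.toMonoidHom = D := Subgroup.characteristic_iff_map_eq.1 inferInstance α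
    exact this ▸ ⟨x, hx, rfl⟩
  have hDΦ : D ≤ Φ := Lib.PGroupFrattini.commutator_le_frattini hX
  have hexists : ∃ m : ℕ, ∀ x : X, x ^ 2 ^ m ∈ D := by
    obtain ⟨e, he⟩ := IsPGroup.iff_card.1 hX
    exact ⟨e, fun x => by rw [← he, pow_card_eq_one']; exact D.one_mem⟩
  set m := Nat.find hexists with hm
  have hmspec : ∀ x : X, x ^ 2 ^ m ∈ D := Nat.find_spec hexists
  let ab : X →* X ⧸ D := QuotientGroup.mk' D
  have hab : ∀ x y : X, ab (x * y) = ab (y * x) := fun x y => by
    refine QuotientGroup.eq.2 ?_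
    have := Subgroup.commutator_mem_commutator (Subgroup.mem_top (y⁻¹)) (Subgroup.mem_top (x⁻¹))
    rw [hD, commutator_def]
    simpa [commutatorElement_def, mul_assoc] using this
  have habpow : ∀ (x y : X) (k : ℕ), (x * y) ^ k ∈ D ↔ x ^ k * y ^ k ∈ D := fun x y k => by
    have hco : Commute (ab x) (ab y) := by
      show ab x * ab y = ab y * ab x
      rw [← map_mul, ← map_mul, hab]
    rw [← QuotientGroup.eq_one_iff, ← QuotientGroup.eq_one_iff ((x ^ k * y ^ k : X)),
      show (((x * y) ^ k : X) : X ⧸ D) = ab ((x * y) ^ k) from rfl,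
      show ((x ^ k * y ^ k : X) : X ⧸ D) = ab (x ^ k * y ^ k) from rfl, map_pow, map_mul, hco.mul_pow,
      map_mul, map_pow, map_pow]
  have hm1 : 1 ≤ m := by
    by_contra h0
    refine hnΦ (hDΦ ?_)
    simpa [show m = 0 by omega] using hmspec n
  have hord : ∀ x : X, x ∉ Φ → x ^ 2 ^ (m - 1) ∉ D := by
    let U : Subgroup X :=
      { carrier := {y | y ^ 2 ^ (m - 1) ∈ D}
        one_mem' := by simp
        mul_mem' := fun {a c} ha hc => (habpow a c _).2 (D.mul_mem ha hc)
        inv_mem' := fun {a} ha => show a⁻¹ ^ 2 ^ (m - 1) ∈ D by rw [inv_pow]; exact D.inv_mem ha }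
    have hU : ∀ y, y ∈ U ↔ y ^ 2 ^ (m - 1) ∈ D := fun y => Iff.rfl
    have hDU : ∀ y, y ∈ D → y ∈ U := fun y hy => (hU y).2 (D.pow_mem hy _)
    have hΦU : Φ ≤ U := by
      haveI : U.Normal := ⟨fun a ha g => by
        rw [hU, conj_pow]
        exact (inferInstance : D.Normal).conj_mem _ ((hU a).1 ha) g⟩
      refine Lib.PGroupFrattini.frattini_le Nat.prime_two U hDU fun y => ?_
      rw [hU, ← pow_mul, ← pow_succ', show m - 1 + 1 = m by omega]
      exact hmspec y
    have hUtop : U ≠ ⊤ := fun h => Nat.find_min hexists (show m - 1 < m by omega) fun y =>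
      (hU y).1 (h ▸ Subgroup.mem_top y)
    intro x hx hxU
    refine hx (inv_sub U hΦU hUtop (fun y hy => ?_) hxU)
    rw [hU, ← map_pow]
    exact hDα _ hy
  have hdvd : ∀ k : ℕ, n ^ k ∈ D → 2 ^ m ∣ k := by
    intro k hk
    rcases Nat.eq_zero_or_pos k with rfl | hkpos
    · exact dvd_zero _
    obtain ⟨s, t, ht, rfl⟩ := Nat.exists_eq_two_pow_mul_odd hkpos.ne'
    by_contra hnd
    have hs : s < m := by
      by_contra hs
      exact hnd ((pow_dvd_pow 2 (not_lt.1 hs)).trans (dvd_mul_right _ _))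
    refine hord (n ^ t) ?_ ?_
    · intro h
      obtain ⟨u, rfl⟩ := ht
      rw [pow_succ, pow_mul] at h
      exact hnΦ ((Φ.mul_mem_cancel_left (Φ.pow_mem (hsq n) u)).1 h)
    · rw [← pow_mul, show t * 2 ^ (m - 1) = 2 ^ s * t * 2 ^ (m - 1 - s) by
        rw [mul_comm (2 ^ s) t, mul_assoc, ← pow_add]; congr 2; omega, pow_mul]
      exact D.pow_mem hk _
  by_cases habel : D = ⊥
  · -- abelian case: homocyclic
    right
    refine ⟨m, ?_⟩
    have hcom : ∀ x y : X, x * y = y * x := fun x y => by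
      have h : x⁻¹ * y⁻¹ * x * y ∈ D := by
        rw [hD, commutator_def]
        have := Subgroup.commutator_mem_commutator (Subgroup.mem_top (x⁻¹)) (Subgroup.mem_top (y⁻¹))
        simpa [commutatorElement_def] using this
      rw [habel, Subgroup.mem_bot] at h
      calc x * y = y * x * (x⁻¹ * y⁻¹ * x * y) := by simp [mul_assoc]
        _ = y * x := by rw [h, mul_one]
    have hone : ∀ x : X, x ^ 2 ^ m = 1 := fun x => Subgroup.mem_bot.1 (habel ▸ hmspec x)
    have hordm : ∀ g : X, g ∉ Φ → orderOf g = 2 ^ m := fun g hg => by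
      have h := orderOf_eq_prime_pow (p := 2) (n := m - 1)
        (fun h => hord g hg (by rw [h]; exact D.one_mem)) (by rw [show m - 1 + 1 = m by omega]; exact hone g)
      rwa [show m - 1 + 1 = m by omega] at h
    let f : ↥(Subgroup.zpowers n) × ↥(Subgroup.zpowers b) →* X :=
      MonoidHom.mk' (fun e => (e.1 : X) * e.2) fun e e' => by
        show (e.1 : X) * e'.1 * (e.2 * e'.2) = e.1 * e.2 * (e'.1 * e'.2)
        rw [mul_assoc, mul_assoc, ← mul_assoc (e'.1 : X), hcom (e'.1 : X) e.2, mul_assoc]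
    have hfs : Function.Surjective f := fun x => by
      obtain ⟨i, j, rfl⟩ := hgen x
      exact ⟨(⟨n ^ i, Subgroup.pow_mem _ (Subgroup.mem_zpowers n) _⟩,
        ⟨b ^ j, Subgroup.pow_mem _ (Subgroup.mem_zpowers b) _⟩), rfl⟩
    have hinv : ∀ g y : X, g ∉ Φ → y ∈ Subgroup.zpowers g → y ≠ 1 → y ^ 2 = 1 → y = g ^ 2 ^ (m - 1) := by
      intro g y hg hy hy1 hy2
      rw [← mem_powers_iff_mem_zpowers] at hy
      obtain ⟨k, rfl⟩ := hy
      have h1 : 2 ^ m ∣ k * 2 := by
        rw [← hordm g hg, orderOf_dvd_iff_pow_eq_one, pow_mul]; exact hy2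
      obtain ⟨u, hu⟩ := h1
      have hku : k = 2 ^ (m - 1) * u := by
        have : 2 ^ m = 2 ^ (m - 1) * 2 := by rw [← pow_succ]; congr 1; omega
        rw [this, mul_right_comm] at hu
        exact Nat.eq_of_mul_eq_mul_right two_pos hu
      show g ^ k = _
      rcases Nat.even_or_odd u with ⟨w, rfl⟩ | ⟨w, rfl⟩
      · exfalso
        refine hy1 ?_
        show g ^ k = 1
        rw [hku, ← two_mul, ← mul_assoc, ← pow_succ, show m - 1 + 1 = m by omega, pow_mul, hone, one_pow]
      · rw [hku, mul_add, mul_one, ← mul_assoc, ← pow_succ, show m - 1 + 1 = m by omega, pow_add, pow_mul, hone,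
          one_pow, one_mul]
    have hfi : Function.Injective f := by
      refine (injective_iff_map_eq_one f).2 ?_
      rintro ⟨⟨u, hu⟩, ⟨v, hv⟩⟩ he
      have he' : u * v = 1 := he
      suffices hu1 : u = 1 by
        subst hu1
        rw [one_mul] at he'
        subst he'
        rfl
      by_contra hu1
      have hub : u ∈ Subgroup.zpowers b := by
        rw [eq_inv_of_mul_eq_one_left he']; exact Subgroup.inv_mem _ hv
      obtain ⟨k, hk⟩ := hX u
      have hex : ∃ k, (u ^ 2 ^ k) ^ 2 = 1 := ⟨k, by rw [hk, one_pow]⟩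
      set y := u ^ 2 ^ Nat.find hex with hy
      have hy2 : y ^ 2 = 1 := Nat.find_spec hex
      have hy1 : y ≠ 1 := by
        intro h
        rcases Nat.eq_zero_or_pos (Nat.find hex) with h0 | h0
        · exact hu1 (by rw [hy, h0, pow_zero, pow_one] at h; exact h)
        · refine Nat.find_min hex (show Nat.find hex - 1 < Nat.find hex by omega) ?_
          rw [← pow_mul, ← pow_succ, show Nat.find hex - 1 + 1 = Nat.find hex by omega]
          exact h
      have e1 := hinv n y hnΦ (Subgroup.pow_mem _ hu _) hy1 hy2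
      have e2 := hinv b y hbΦ (Subgroup.pow_mem _ hub _) hy1 hy2
      refine hord (n * b) hnbΦ ?_
      rw [habpow, ← e1, ← e2, ← pow_two, hy2]
      exact D.one_mem
    have hz : ∀ g : X, g ∉ Φ → Nonempty (↥(Subgroup.zpowers g) ≃* Multiplicative (ZMod (2 ^ m))) := fun g hg => by
      have := zmodCyclicMulEquiv (G := ↥(Subgroup.zpowers g)) inferInstance
      rw [Nat.card_zpowers, hordm g hg] at this
      exact ⟨this.symm⟩
    obtain ⟨e1⟩ := hz n hnΦ
    obtain ⟨e2⟩ := hz b hbΦ
    exact ⟨(MulEquiv.ofBijective f ⟨hfi, hfs⟩).symm.trans (e1.prodCongr e2)⟩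
  · left
    set c := n ^ 2 ^ m with hc
    have hcD : c ∈ D := hmspec n
    have hDc : D ≤ Subgroup.zpowers c := by
      intro d hd
      have := hDn hd
      rw [← mem_powers_iff_mem_zpowers] at this
      obtain ⟨k, rfl⟩ := this
      obtain ⟨u, rfl⟩ := hdvd k hd
      show n ^ (2 ^ m * u) ∈ _
      rw [pow_mul]
      exact Subgroup.pow_mem _ (Subgroup.mem_zpowers c) _
    have hc1 : c ≠ 1 := fun h => habel (eq_bot_iff.2 (hDc.trans (by rw [h, Subgroup.zpowers_one_eq_bot])))
    have hDeq : D = Subgroup.zpowers c := le_antisymm hDc (Subgroup.zpowers_le.2 hcD)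
    set K := Subgroup.zpowers (c ^ 2) with hK
    have hKchar : ∀ φ : MulAut X, ∀ x ∈ K, φ x ∈ K := by
      intro φ x hx
      obtain ⟨i, rfl⟩ := Subgroup.mem_zpowers_iff.1 hx
      have hφc : φ c ∈ D := by
        have : D.map φ.toMonoidHom = D := Subgroup.characteristic_iff_map_eq.1 inferInstance φ
        exact this ▸ ⟨c, hcD, rfl⟩
      obtain ⟨l, hl⟩ := Subgroup.mem_zpowers_iff.1 (hDc hφc)
      refine Subgroup.mem_zpowers_iff.2 ⟨l * i, ?_⟩
      rw [map_zpow, map_pow, ← hl]
      simp only [← zpow_natCast, ← zpow_mul]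
      congr 1; ring
    haveI hKn : K.Normal := ⟨fun a ha g => hKchar (MulAut.conj g) a ha⟩
    have hcK : c ∉ K := by
      intro h
      obtain ⟨k, hk⟩ := Subgroup.mem_zpowers_iff.1 h
      obtain ⟨e, he⟩ := hX c
      have h1 : c ^ (2 * k - 1) = 1 := by
        rw [zpow_sub, zpow_one, mul_inv_eq_one, zpow_mul]
        exact_mod_cast hk
      have h2' : ((orderOf c : ℕ) : ℤ) ∣ 2 * k - 1 := orderOf_dvd_iff_zpow_eq_one.2 h1
      obtain ⟨s, -, hs⟩ := (Nat.dvd_prime_pow Nat.prime_two).1 (orderOf_dvd_of_pow_eq_one he)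
      rcases Nat.eq_zero_or_pos s with rfl | hs'
      · exact hc1 (orderOf_eq_one_iff.1 (by simpa using hs))
      · have : (2 : ℤ) ∣ 2 * k - 1 := dvd_trans (by rw [hs]; exact_mod_cast dvd_pow_self 2 (by omega : s ≠ 0)) h2'
        omega
    have hK2 : ∀ d ∈ D, d ^ 2 ∈ K := by
      intro d hd
      obtain ⟨i, rfl⟩ := Subgroup.mem_zpowers_iff.1 (hDc hd)
      refine Subgroup.mem_zpowers_iff.2 ⟨i, ?_⟩
      rw [← zpow_natCast, ← zpow_natCast, ← zpow_mul, ← zpow_mul, mul_comm]
    have hmeq : m = 1 := by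
      by_contra hm1'
      have hm2 : 2 ≤ m := by omega
      let q := QuotientGroup.mk' K
      have hcent : ∀ d ∈ D, ∀ y : X, q d * q y = q y * q d := by
        intro d hd y
        obtain ⟨i, rfl⟩ := Subgroup.mem_zpowers_iff.1 (hDc hd)
        rw [map_zpow]
        refine (Commute.zpow_left ?_ i).eq
        have hyc : y * c * y⁻¹ ∈ D := Subgroup.Normal.conj_mem inferInstance c hcD y
        obtain ⟨l, hl⟩ := Subgroup.mem_zpowers_iff.1 (hDc hyc)
        rcases Int.even_or_odd l with ⟨u, rfl⟩ | ⟨u, rfl⟩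
        · exfalso
          refine hcK ?_
          have h' : y * c * y⁻¹ ∈ K := Subgroup.mem_zpowers_iff.2 ⟨u, by
            rw [← hl, ← two_mul, zpow_mul]; norm_cast⟩
          have := hKn.conj_mem _ h' y⁻¹
          simpa [mul_assoc] using this
        · have h' : q (y * c * y⁻¹) = q c := by
            rw [← hl, zpow_add, zpow_one, map_mul, mul_eq_right]
            exact (QuotientGroup.eq_one_iff _).2 (Subgroup.mem_zpowers_iff.2 ⟨u, by rw [zpow_mul]; norm_cast⟩)
          show q c * q y = q y * q c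
          conv_lhs => rw [← h', ← map_mul]
          rw [← map_mul]; simp
      have hqq : ∀ d ∈ D, q d * q d = 1 := fun d hd => by
        rw [← map_mul, ← pow_two]; exact (QuotientGroup.eq_one_iff _).2 (hK2 d hd)
      have hsqc : ∀ x y : X, Commute (q (x ^ 2)) (q y) := by
        intro x y
        have hd : x * y * x⁻¹ * y⁻¹ ∈ D := by
          rw [hD, commutator_def]
          simpa [commutatorElement_def] using
            Subgroup.commutator_mem_commutator (Subgroup.mem_top x) (Subgroup.mem_top y)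
        set d := x * y * x⁻¹ * y⁻¹ with hd'
        have h1 : q x * q y = q d * (q y * q x) := by
          rw [← map_mul, ← map_mul, ← map_mul]; simp [hd', mul_assoc]
        show q (x ^ 2) * q y = q y * q (x ^ 2)
        rw [map_pow, pow_two]
        calc q x * q x * q y = q x * (q d * (q y * q x)) := by rw [mul_assoc, h1]
          _ = q d * ((q x * q y) * q x) := by rw [← mul_assoc, ← hcent d hd x]; simp [mul_assoc]
          _ = q d * q d * (q y * (q x * q x)) := by rw [h1]; simp [mul_assoc]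
          _ = q y * (q x * q x) := by rw [hqq d hd, one_mul]
      have hadd : ∀ x y : X, q ((x * y) ^ 2 ^ m) = q (x ^ 2 ^ m) * q (y ^ 2 ^ m) := by
        intro x y
        obtain ⟨k, hk⟩ : ∃ k, 2 ^ m = 2 * (2 * k) := ⟨2 ^ (m - 2), by rw [← pow_succ', ← pow_succ']; congr 1; omega⟩
        rw [hk]
        simp only [pow_mul, map_pow]
        have hd : y * x * y⁻¹ * x⁻¹ ∈ D := by
          rw [hD, commutator_def]
          simpa [commutatorElement_def] using
            Subgroup.commutator_mem_commutator (Subgroup.mem_top y) (Subgroup.mem_top x)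
        set d := y * x * y⁻¹ * x⁻¹ with hd'
        have h1 : q y * q x = q d * (q x * q y) := by
          rw [← map_mul, ← map_mul, ← map_mul]; simp [hd', mul_assoc]
        have h3 : q (x * y) ^ 2 = q d * (q x ^ 2 * q y ^ 2) := by
          rw [map_mul, pow_two, pow_two, pow_two]
          calc q x * q y * (q x * q y) = q x * (q y * q x) * q y := by simp [mul_assoc]
            _ = q x * q d * (q x * q y * q y) := by rw [h1]; simp [mul_assoc]
            _ = q d * (q x * q x * (q y * q y)) := by rw [← hcent d hd x]; simp [mul_assoc]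
        have hc1' : Commute (q d) (q x ^ 2 * q y ^ 2) := by
          rw [← map_pow, ← map_pow, ← map_mul]; exact hcent d hd _
        have hc2' : Commute (q x ^ 2) (q y ^ 2) := by
          rw [← map_pow, ← map_pow]; exact hsqc x (y ^ 2)
        rw [h3, hc1'.mul_pow, pow_two (q d), hqq d hd, one_mul, hc2'.mul_pow, (hc2'.pow_pow 2 2).mul_pow]
      let U : Subgroup X :=
        { carrier := {y | q (y ^ 2 ^ m) = 1}
          one_mem' := by simp
          mul_mem' := fun {a d} ha hd => show q ((a * d) ^ 2 ^ m) = 1 by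
            rw [hadd, show q (a ^ 2 ^ m) = 1 from ha, show q (d ^ 2 ^ m) = 1 from hd, one_mul]
          inv_mem' := fun {a} ha => show q (a⁻¹ ^ 2 ^ m) = 1 by
            rw [inv_pow, map_inv, show q (a ^ 2 ^ m) = 1 from ha, inv_one] }
      have hU : ∀ y, y ∈ U ↔ y ^ 2 ^ m ∈ K := fun y => QuotientGroup.eq_one_iff (N := K) (y ^ 2 ^ m)
      haveI : U.Normal := ⟨fun a ha g => by
        rw [hU, conj_pow]; exact hKn.conj_mem _ ((hU a).1 ha) g⟩
      have hΦU : Φ ≤ U := by
        refine Lib.PGroupFrattini.frattini_le Nat.prime_two U (fun d hd => ?_) fun y => ?_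
        · rw [hU, show 2 ^ m = 2 * 2 ^ (m - 1) by rw [← pow_succ']; congr 1; omega, pow_mul]
          exact K.pow_mem (hK2 d hd) _
        · rw [hU, ← pow_mul, mul_comm, pow_mul]
          exact hK2 _ (hmspec y)
      have hnU : n ∉ U := fun h => hcK ((hU n).1 h)
      have hUΦ : ∀ g, g ∉ Φ → g ∉ U := fun g hg hgU => hg (inv_sub U hΦU (fun h => hnU (h ▸ Subgroup.mem_top n))
        (fun y hy => by rw [hU, ← map_pow]; exact hKchar α _ ((hU y).1 hy)) hgU)
      have val : ∀ g, g ∉ U → q (g ^ 2 ^ m) = q c := by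
        intro g hg
        obtain ⟨i, hi⟩ := Subgroup.mem_zpowers_iff.1 (hDc (hmspec g))
        rcases Int.even_or_odd i with ⟨u, rfl⟩ | ⟨u, rfl⟩
        · refine absurd ((hU g).2 ?_) hg
          rw [← hi, ← two_mul, zpow_mul]
          exact Subgroup.mem_zpowers_iff.2 ⟨u, by norm_cast⟩
        · rw [← hi, zpow_add, zpow_one, map_mul, mul_eq_right]
          exact (QuotientGroup.eq_one_iff _).2 (Subgroup.mem_zpowers_iff.2 ⟨u, by rw [zpow_mul]; norm_cast⟩)
      refine hUΦ _ hnbΦ ?_
      show q ((n * b) ^ 2 ^ m) = 1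
      rw [hadd, val n hnU, val b (hUΦ b hbΦ), hqq c hcD]
    have hsqD : ∀ x : X, x ^ 2 ∈ D := fun x => by simpa [hmeq] using hmspec x
    have hΦD : Φ ≤ D := Lib.PGroupFrattini.frattini_le Nat.prime_two D le_rfl hsqD
    have hnz : ∀ x : X, x ∉ D → c ∈ Subgroup.zpowers x := by
      intro x hx
      have hv : π x ≠ 1 := fun h => hx (hΦD ((hπ1 x).1 h))
      have hw : π n ≠ 1 := fun h => hnΦ ((hπ1 n).1 h)
      obtain ⟨k, hk⟩ : ∃ k : ℕ, π n = π ((α ^ k) x) := by
        rcases sigma_orbit hc4 h2 σ hrodd hσr hσ hv hw with h | h | h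
        · exact ⟨0, by simpa using h⟩
        · exact ⟨1, by simpa [hσπ] using h⟩
        · exact ⟨2, by rw [hσπ, hσπ] at h; simpa [pow_two] using h⟩
      have hd : n⁻¹ * (α ^ k) x ∈ D := hΦD (QuotientGroup.eq.1 hk)
      obtain ⟨i, hi⟩ := Subgroup.mem_zpowers_iff.1 (hDc hd)
      have hx' : (α ^ k) x = n * c ^ i := by rw [hi, mul_inv_cancel_left]
      have hpw : (α ^ k) (x ^ 2) = c * c ^ (2 * i) := by
        have hn2 : n ^ 2 = c := by rw [hc, hmeq, pow_one]
        rw [map_pow, hx', (show Commute n (c ^ i) from ((Commute.refl n).pow_right _).zpow_right i).mul_pow,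
          hn2, pow_two (c ^ i), ← zpow_add, two_mul]
      have hgen' : Subgroup.zpowers ((α ^ k) (x ^ 2)) = Subgroup.zpowers c := by
        have hle : Subgroup.zpowers ((α ^ k) (x ^ 2)) ≤ Subgroup.zpowers c := Subgroup.zpowers_le.2 (by
          rw [hpw]; exact Subgroup.mul_mem _ (Subgroup.mem_zpowers c) (Subgroup.zpow_mem _ (Subgroup.mem_zpowers c) _))
        refine le_antisymm hle ?_
        have hco : (orderOf c).Coprime ((1 + 2 * i).natAbs) := by
          obtain ⟨e, he⟩ := hX c
          obtain ⟨s, -, hs⟩ := (Nat.dvd_prime_pow Nat.prime_two).1 (orderOf_dvd_of_pow_eq_one he)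
          rw [hs]
          refine Nat.Coprime.pow_left _ ((Nat.coprime_two_left).2 ?_)
          rw [Int.natAbs_odd]; exact ⟨i, by ring⟩
        have hz : Subgroup.zpowers (c ^ (1 + 2 * i).natAbs) = Subgroup.zpowers (c ^ (1 + 2 * i)) := by
          rcases Int.natAbs_eq (1 + 2 * i) with h | h
          · conv_rhs => rw [h, zpow_natCast]
          · conv_rhs => rw [h, zpow_neg, zpow_natCast, Subgroup.zpowers_inv]
        rw [hpw, show c * c ^ (2 * i) = c ^ (1 + 2 * i) by rw [zpow_add, zpow_one], ← hz]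
        obtain ⟨l, hl⟩ := exists_pow_eq_self_of_coprime hco.symm
        exact Subgroup.zpowers_le.2 (Subgroup.mem_zpowers_iff.2 ⟨l, by rw [zpow_natCast]; exact hl⟩)
      have hback : ((α ^ k)⁻¹ : MulAut X) c ∈ D := by
        have : D.map ((α ^ k)⁻¹ : MulAut X).toMonoidHom = D := Subgroup.characteristic_iff_map_eq.1 inferInstance _
        exact this ▸ ⟨c, hcD, rfl⟩
      have hcx : (α ^ k) c ∈ D := by
        have : D.map (α ^ k : MulAut X).toMonoidHom = D := Subgroup.characteristic_iff_map_eq.1 inferInstance _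
        exact this ▸ ⟨c, hcD, rfl⟩
      have hmem : (α ^ k) c ∈ Subgroup.zpowers ((α ^ k) (x ^ 2)) := hgen'.symm ▸ hDc hcx
      obtain ⟨l, hl⟩ := Subgroup.mem_zpowers_iff.1 hmem
      rw [← map_zpow] at hl
      rw [← (α ^ k).injective hl]
      exact Subgroup.zpow_mem _ (Subgroup.pow_mem _ (Subgroup.mem_zpowers x) _) _
    have hccen : ∀ y : X, c * y = y * c := by
      intro y
      have hcg : ∀ g, g ∉ D → c * g = g * c := fun g hg => by
        obtain ⟨i, hi⟩ := Subgroup.mem_zpowers_iff.1 (hnz g hg)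
        rw [← hi]; exact ((Commute.refl g).zpow_left i).eq
      obtain ⟨i, j, rfl⟩ := hgen y
      have cn : Commute c n := hcg n fun h => hnΦ (hDΦ h)
      have cb : Commute c b := hcg b fun h => hbΦ (hDΦ h)
      exact ((cn.pow_right i).mul_right (cb.pow_right j)).eq
    have hcomm2 : ∀ d ∈ D, d ^ 2 = 1 := by
      let S : Subgroup X :=
        { carrier := {z | z ∈ D ∧ z ^ 2 = 1}
          one_mem' := ⟨D.one_mem, one_pow 2⟩
          mul_mem' := fun {a d} ha hd => ⟨D.mul_mem ha.1 hd.1, by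
            obtain ⟨i, hi⟩ := Subgroup.mem_zpowers_iff.1 (hDc ha.1)
            have hco : Commute a d := hi ▸ (show Commute c d from hccen d).zpow_left i
            rw [hco.mul_pow, ha.2, hd.2, one_mul]⟩
          inv_mem' := fun {a} ha => ⟨D.inv_mem ha.1, by rw [inv_pow, ha.2, inv_one]⟩ }
      have hDS : D ≤ S := by
        conv_lhs => rw [hD, commutator_def]
        rw [Subgroup.commutator_le]
        intro x _ y _
        have hd : ⁅x, y⁆ ∈ D := by
          rw [hD, commutator_def]; exact Subgroup.commutator_mem_commutator (Subgroup.mem_top x) (Subgroup.mem_top y)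
        refine ⟨hd, ?_⟩
        have hxd : Commute x ⁅x, y⁆ := by
          obtain ⟨i, hi⟩ := Subgroup.mem_zpowers_iff.1 (hDc hd)
          exact (hi ▸ (show Commute c x from hccen x).zpow_left i).symm
        have hx2 : Commute (x ^ 2) y := by
          obtain ⟨i, hi⟩ := Subgroup.mem_zpowers_iff.1 (hDc (hsqD x))
          exact hi ▸ (show Commute c y from hccen y).zpow_left i
        calc ⁅x, y⁆ ^ 2 = x⁻¹ * (x * ⁅x, y⁆) * ⁅x, y⁆ := by rw [inv_mul_cancel_left, pow_two]
          _ = x⁻¹ * (⁅x, y⁆ * x) * ⁅x, y⁆ := by rw [hxd.eq]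
          _ = x⁻¹ * ⁅x, y⁆ * (x * ⁅x, y⁆) := by simp [mul_assoc]
          _ = x⁻¹ * ⁅x, y⁆ * (⁅x, y⁆ * x) := by rw [hxd.eq]
          _ = 1 := by
            rw [show x⁻¹ * ⁅x, y⁆ * (⁅x, y⁆ * x) = x⁻¹ * ⁅x, y⁆ * x * (x⁻¹ * ⁅x, y⁆ * x) by simp [mul_assoc]]
            rw [show x⁻¹ * ⁅x, y⁆ * x = ⁅x, y⁆ by rw [mul_assoc, ← hxd.eq, inv_mul_cancel_left]]
            calc ⁅x, y⁆ * ⁅x, y⁆ = x * ⁅x, y⁆ * x⁻¹ * ⁅x, y⁆ := by rw [hxd.eq, mul_inv_cancel_right]
              _ = x ^ 2 * y * (x ^ 2)⁻¹ * y⁻¹ := by simp [commutatorElement_def, pow_two, mul_assoc]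
              _ = 1 := by rw [hx2.eq]; simp
      exact fun d hd => (hDS hd).2
    have hcard2 : Nat.card ↥D = 2 := by
      rw [hDeq, Nat.card_zpowers]
      exact orderOf_eq_prime (hcomm2 c hcD) hc1
    have hcardX : Nat.card X ≤ 8 := by
      rw [Subgroup.card_eq_card_quotient_mul_card_subgroup D, hcard2]
      have : Nat.card (X ⧸ D) ≤ Nat.card (X ⧸ Φ) := by
        refine le_of_eq ?_
        rw [show D = Φ from le_antisymm hDΦ hΦD]
      omega
    have huniq : ∀ H L : Subgroup X, Nat.card H = 2 → Nat.card L = 2 → H = L := by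
      have hone : ∀ H : Subgroup X, Nat.card H = 2 → H = D := by
        intro H hH
        refine Subgroup.eq_of_le_of_card_ge ?_ (by rw [hcard2, hH])
        intro x hx
        by_contra hxD
        have hxx : x ^ 2 = 1 := by
          have := pow_card_eq_one' (x := (⟨x, hx⟩ : H))
          rw [hH] at this
          exact congrArg Subtype.val this
        have hcx := hnz x hxD
        rw [← mem_powers_iff_mem_zpowers] at hcx
        obtain ⟨i, hi⟩ := hcx
        rcases Nat.even_or_odd i with ⟨w, rfl⟩ | ⟨w, rfl⟩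
        · refine hc1 ?_
          rw [← hi]; show x ^ (w + w) = 1
          rw [← two_mul, pow_mul, hxx, one_pow]
        · refine hxD ?_
          have : c = x := by
            rw [← hi]; show x ^ (2 * w + 1) = x
            rw [pow_succ, pow_mul, hxx, one_pow, one_mul]
          exact this ▸ hcD
      intro H L hH hL
      rw [hone H hH, hone L hL]
    rcases Lib.UniqueInvolution.isCyclic_or_quaternion hX huniq with hcyc | ⟨-, k, hk, ⟨e⟩⟩
    · exfalso
      letI := hcyc.commGroup
      refine habel (eq_bot_iff.2 ?_)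
      rw [hD, commutator_def, Subgroup.commutator_le]
      intro x _ y _
      rw [Subgroup.mem_bot, commutatorElement_eq_one_iff_mul_comm]
      exact mul_comm x y
    · have hk1 : k = 1 := by
        have h := Nat.card_congr e.toEquiv
        haveI : NeZero (2 ^ k) := ⟨pow_ne_zero _ two_ne_zero⟩
        rw [Nat.card_eq_fintype_card (α := QuaternionGroup _), QuaternionGroup.card] at h
        rw [h] at hcardX
        by_contra h1
        have : 2 ^ 2 ≤ 2 ^ k := Nat.pow_le_pow_right two_pos (by omega)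
        omega
      subst hk1
      exact ⟨e⟩

end


/-- A finite metacyclic 2-group whose automorphism group is not a 2-group is isomorphic to the quaternion group of order 8 or to a homocyclic abelian group Z_{2^n} × Z_{2^n}. -/
theorem result {X : Type*} [Group X] [Finite X] (hX : IsPGroup 2 X)
    (hm : Cfsg.IsMetacyclic X) (hA : ¬ IsPGroup 2 (MulAut X)) :
    Nonempty (X ≃* QuaternionGroup 2) ∨
      ∃ n : ℕ, Nonempty (X ≃* Multiplicative (ZMod (2 ^ n)) × Multiplicative (ZMod (2 ^ n))) := by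
  haveI : Fact (Nat.Prime 2) := ⟨Nat.prime_two⟩
  haveI : Finite (MulAut X) := inferInstance
  obtain ⟨N, hN, hNc, hQc⟩ := hm
  obtain ⟨n, hn⟩ := hNc.exists_generator
  obtain ⟨bq, hbq⟩ := hQc.exists_generator
  obtain ⟨b, rfl⟩ := QuotientGroup.mk_surjective bq
  have hNn : N = Subgroup.zpowers (n : X) := by
    refine le_antisymm (fun x hx => ?_) (Subgroup.zpowers_le.2 n.2)
    obtain ⟨k, hk⟩ := Subgroup.mem_zpowers_iff.1 (hn ⟨x, hx⟩)
    exact Subgroup.mem_zpowers_iff.2 ⟨k, by rw [← Subgroup.coe_zpow, hk]⟩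
  have hgen : ∀ x : X, ∃ i j : ℕ, x = (n : X) ^ i * b ^ j := by
    intro x
    have hx := hbq (x : X ⧸ N)
    rw [← mem_powers_iff_mem_zpowers] at hx
    obtain ⟨j, hj⟩ := hx
    have hxN : x * (b ^ j)⁻¹ ∈ N := by
      rw [← QuotientGroup.eq_one_iff, QuotientGroup.mk_mul, QuotientGroup.mk_inv, QuotientGroup.mk_pow,
        mul_inv_eq_one]
      exact hj.symm
    rw [hNn, ← mem_powers_iff_mem_zpowers] at hxN
    obtain ⟨i, hi⟩ := hxN
    exact ⟨i, j, by rw [show (n : X) ^ i = x * (b ^ j)⁻¹ from hi, inv_mul_cancel_right]⟩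
  have hcomm : ∀ x y : X, x * y * x⁻¹ * y⁻¹ ∈ Subgroup.zpowers (n : X) := by
    intro x y
    rw [← hNn, ← QuotientGroup.eq_one_iff]
    letI := hQc.commGroup
    simp only [QuotientGroup.mk_mul, QuotientGroup.mk_inv]
    rw [mul_comm (x : X ⧸ N) (y : X ⧸ N), mul_inv_cancel_right, mul_inv_cancel]
  obtain ⟨r, hr, hrd, hr2⟩ : ∃ r : ℕ, r.Prime ∧ r ∣ Nat.card (MulAut X) ∧ r ≠ 2 := by
    by_contra hne
    push_neg at hne
    refine hA (IsPGroup.of_card (n := (Nat.card (MulAut X)).primeFactorsList.length) ?_)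
    refine Nat.eq_prime_pow_of_unique_prime_dvd Nat.card_pos.ne' ?_
    intro d hd hdd
    exact hne d hd hdd
  haveI : Fact r.Prime := ⟨hr⟩
  obtain ⟨α, hα⟩ := exists_prime_orderOf_dvd_card' r hrd
  refine main hX (n : X) b hgen hcomm α hr hr2 (by rw [← hα]; exact pow_orderOf_eq_one α) ?_
  intro h
  rw [h, orderOf_one] at hα
  exact hr.one_lt.ne hα

end Cfsg.Agent.S1896
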