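import Cfsg.Statements.S1898
import Mathlib.GroupTheory.PGroup
import Mathlib.GroupTheory.OrderOfElement

set_option autoImplicit false
open Cfsg

namespace Cfsg.Agent.S1898

lemma mul_pow_four {X : Type*} [Group X] (hel : Cfsg.IsElementaryAbelian 2 (commutator X))
    (hcen : commutator X ≤ Subgroup.center X) (a b : X) : (a * b) ^ 4 = a ^ 4 * b ^ 4 := by
  have hc : ∀ u v : X, u * v * u⁻¹ * v⁻¹ ∈ commutator X := fun u v =>
    Subgroup.commutator_mem_commutator (Subgroup.mem_top u) (Subgroup.mem_top v)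
  have hs : ∀ u v : X, Commute (u ^ 2) v := by
    intro u v
    have e : u ^ 2 * v * (u ^ 2)⁻¹ * v⁻¹ = u * (u * v * u⁻¹ * v⁻¹) * u⁻¹ * (u * v * u⁻¹ * v⁻¹) := by
      simp [pow_two, mul_assoc]
    have hz := Subgroup.mem_center_iff.1 (hcen (hc u v)) u
    rw [hz, mul_inv_cancel_right, ← pow_two, hel.2 _ (hc u v)] at e
    exact mul_inv_eq_iff_eq_mul.1 (by simpa [mul_inv_eq_one] using e)
  let k := b⁻¹ * a⁻¹ * b⁻¹⁻¹ * a⁻¹⁻¹
  have hk : k ∈ commutator X := hc b⁻¹ a⁻¹
  have h1 : (a * b) ^ 2 = a ^ 2 * (b ^ 2 * k) := by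
    have e : b * a = a * b * k := by simp [k, mul_assoc]
    calc (a * b) ^ 2 = a * (b * a) * b := by simp [pow_two, mul_assoc]
      _ = a * (a * b * k) * b := by rw [e]
      _ = a ^ 2 * (b ^ 2 * k) := by
        simp [pow_two, mul_assoc, ← Subgroup.mem_center_iff.1 (hcen hk) b]
  have c1 : Commute (a ^ 2) (b ^ 2 * k) := hs a _
  have c2 : Commute (b ^ 2) k := hs b _
  rw [show (4 : ℕ) = 2 * 2 from rfl, pow_mul, pow_mul, pow_mul, h1, c1.mul_pow, c2.mul_pow, hel.2 k hk, mul_one]


/-- Let X be a finite 2-group whose derived subgroup is elementary abelian and central. Then the subgroup generated by the elements of order dividing 4 has exponent dividing 4, and every automorphism of X fixing each element of order dividing 4 has 2-power order. -/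
theorem result {X : Type*} [Group X] [Finite X] (hX : IsPGroup 2 X)
    (hel : Cfsg.IsElementaryAbelian 2 (commutator X)) (hcen : commutator X ≤ Subgroup.center X) :
    (∀ x ∈ Subgroup.closure {g : X | g ^ 4 = 1}, x ^ 4 = 1) ∧
      ∀ φ : MulAut X, (∀ g : X, g ^ 4 = 1 → φ g = g) → ∃ k : ℕ, φ ^ (2 ^ k) = 1 := by
  have h4 := mul_pow_four hel hcen
  constructor
  · intro x hx
    induction hx using Subgroup.closure_induction with
    | mem y hy => exact hy
    | one => simp
    | mul a b _ _ ha hb => rw [h4, ha, hb, one_mul]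
    | inv a _ ha => rw [inv_pow, ha, inv_one]
  · intro φ hφ
    obtain ⟨k, r, hr, hord⟩ := Nat.exists_eq_two_pow_mul_odd (orderOf_pos φ).ne'
    refine ⟨k, ?_⟩
    have hψ1 : (φ ^ 2 ^ k) ^ r = 1 := by rw [← pow_mul, ← hord, pow_orderOf_eq_one]
    have hψfix : ∀ (ψ : MulAut X), (∀ g : X, g ^ 4 = 1 → ψ g = g) → ψ ^ r = 1 →
        ∀ m : ℕ, ∀ x : X, x ^ 2 ^ m = 1 → ψ x = x := by
      intro ψ hψ hpow m
      induction m with
      | zero => intro x hx; simp at hx; simp [hx]
      | succ m ih =>
        intro x hx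
        by_cases hm : m + 1 ≤ 2
        · refine hψ x ?_
          rw [show 4 = 2 ^ (m + 1) * 2 ^ (2 - (m + 1)) by rw [← pow_add]; norm_num [Nat.add_sub_cancel' hm],
            pow_mul, hx, one_pow]
        have hx2 : ψ (x ^ 2) = x ^ 2 := ih _ (by rw [← pow_mul, ← pow_succ']; exact hx)
        let c := x⁻¹ * ψ x
        have hc4 : c ^ 4 = 1 := by
          rw [h4, inv_pow, ← map_pow, show x ^ 4 = (x ^ 2) ^ 2 by rw [← pow_mul], map_pow, hx2, inv_mul_cancel]
        have hj : ∀ j : ℕ, (ψ ^ j) x = x * c ^ j := by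
          intro j
          induction j with
          | zero => simp
          | succ j ihj =>
            rw [pow_succ', MulAut.mul_apply, ihj, map_mul, map_pow, hψ c hc4, pow_succ', ← mul_assoc x c]
            simp [c]
        have := hj r
        rw [hpow, MulAut.one_apply, left_eq_mul] at this
        have hc2 : orderOf c ∣ 2 ^ 2 := orderOf_dvd_of_pow_eq_one hc4
        have hcr : orderOf c ∣ r := orderOf_dvd_of_pow_eq_one this
        have := Nat.dvd_gcd hc2 hcr
        rw [(Nat.Coprime.pow_left 2 (Nat.coprime_two_left.2 hr)).gcd_eq_one, Nat.dvd_one, orderOf_eq_one_iff] at this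
        exact (inv_mul_eq_one.1 this).symm
    apply MulEquiv.ext
    intro x
    obtain ⟨m, hm⟩ := hX x
    rw [MulAut.one_apply]
    refine hψfix _ ?_ hψ1 m x hm
    intro g hg
    generalize 2 ^ k = j
    induction j with
    | zero => simp
    | succ j ihj => rw [pow_succ', MulAut.mul_apply, ihj, hφ g hg]

end Cfsg.Agent.S1898
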