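import Cfsg.Statements.S1899
import Mathlib.GroupTheory.Index
import Mathlib.GroupTheory.OrderOfElement
import Mathlib.Algebra.Group.Commute.Units

set_option autoImplicit false
open Cfsg

namespace Cfsg.Agent.S1899

/-- Let a dihedral group of order 2n, n odd and n > 1, act on a finite abelian 2-group A through automorphisms d and t with d^n = 1, t² = 1 and t d t⁻¹ = d⁻¹, and suppose that d fixes only the identity. Then A is the internal direct product of C_A(t) and its image under d. -/
theorem result {A : Type*} [CommGroup A] [Finite A] (hA : IsPGroup 2 A)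
    {n : ℕ} (hn : Odd n) (hn1 : 1 < n) (d t : MulAut A) (hd : d ^ n = 1) (ht : t ^ 2 = 1) (hdt : t * d * t⁻¹ = d⁻¹)
    (hfix : ∀ a : A, d a = a → a = 1) :
    (MulEquiv.toMonoidHom t).eqLocus (MonoidHom.id A) ⊓ ((MulEquiv.toMonoidHom t).eqLocus (MonoidHom.id A)).map d.toMonoidHom = ⊥ ∧
      (MulEquiv.toMonoidHom t).eqLocus (MonoidHom.id A) ⊔ ((MulEquiv.toMonoidHom t).eqLocus (MonoidHom.id A)).map d.toMonoidHom = ⊤ := by
  classical
  have hti : ∀ a, t (t a) = a := fun a => by
    rw [← MulAut.mul_apply, ← pow_two, ht, MulAut.one_apply]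
  have e1 : t * d = d⁻¹ * t := mul_inv_eq_iff_eq_mul.1 hdt
  have e2 : t * d⁻¹ = d * t := by
    rw [mul_inv_eq_iff_eq_mul, mul_assoc, e1, ← mul_assoc]; simp
  have hd1 : ∀ a, t (d a) = d⁻¹ (t a) := fun a => DFunLike.congr_fun e1 a
  have hd2 : ∀ a, t (d⁻¹ a) = d (t a) := fun a => DFunLike.congr_fun e2 a
  have hff : ∀ a, d a = d⁻¹ a → a = 1 := by
    intro a h
    refine hfix a ?_
    have h2 : (d ^ 2) a = a := by rw [pow_two, MulAut.mul_apply, h]; simp
    obtain ⟨k, hk⟩ := hn
    have hpow : ∀ j : ℕ, ((d ^ 2) ^ j) a = a := by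
      intro j
      induction j with
      | zero => simp
      | succ j ih => rw [pow_succ, MulAut.mul_apply, h2, ih]
    have := hpow (k + 1)
    rwa [← pow_mul, show 2 * (k + 1) = n + 1 by omega, pow_succ, hd, one_mul] at this
  set C := (MulEquiv.toMonoidHom t).eqLocus (MonoidHom.id A) with hC
  have memC : ∀ a, a ∈ C ↔ t a = a := fun a => Iff.rfl
  let I : Set A := {a | t a = a⁻¹}
  let φ : A →* A := d.toMonoidHom / (d⁻¹ : MulAut A).toMonoidHom
  have φinj : Function.Injective φ := (injective_iff_map_eq_one φ).2 fun a ha =>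
    hff a (div_eq_one.1 ha)
  have hCI : ∀ a ∈ C, φ a ∈ I := fun a ha => by
    show t (d a / d⁻¹ a) = (d a / d⁻¹ a)⁻¹
    rw [map_div, hd1, hd2, (memC a).1 ha, inv_div]
  have hIC : ∀ a ∈ I, φ a ∈ C := fun a ha => by
    show t (d a / d⁻¹ a) = d a / d⁻¹ a
    rw [map_div, hd1, hd2, show t a = a⁻¹ from ha, map_inv, map_inv, inv_div_inv]
  let ψ : A →* A := MonoidHom.id A / t.toMonoidHom
  have hker : ψ.ker = C := by
    ext a
    rw [MonoidHom.mem_ker, memC]
    show a / t a = 1 ↔ _
    rw [div_eq_one, eq_comm]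
  have hrange : (ψ.range : Set A) ⊆ I := by
    rintro _ ⟨a, rfl⟩
    show t (a / t a) = (a / t a)⁻¹
    rw [map_div, hti, inv_div]
  have hIle : Nat.card I ≤ Nat.card C :=
    Nat.card_le_card_of_injective (fun a => (⟨φ a.1, hIC a.1 a.2⟩ : C))
      fun a b h => Subtype.ext (φinj (congrArg Subtype.val h))
  have hA : Nat.card A ≤ Nat.card C * Nat.card C := by
    rw [← ψ.ker.card_mul_index, Subgroup.index_ker, hker]
    exact Nat.mul_le_mul_left _ ((Nat.card_mono I.toFinite hrange).trans hIle)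
  have hinf : ∀ c ∈ C, d c ∈ C → c = 1 := fun c hc hdc => by
    refine hff c ?_
    have := (memC _).1 hdc
    rwa [hd1, (memC c).1 hc, eq_comm] at this
  constructor
  · rw [eq_bot_iff]
    rintro _ ⟨h1, c, hc, rfl⟩
    exact Subgroup.mem_bot.2 (by simp [hinf c hc h1])
  · let f : C × C → A := fun x => x.1.1 * d x.2.1
    have finj : Function.Injective f := by
      rintro ⟨a, b⟩ ⟨a', b'⟩ h
      have h1 : d (b.1 / b'.1) ∈ C := by
        rw [map_div, show d b.1 / d b'.1 = a'.1 / a.1 by
          rw [div_eq_div_iff_mul_eq_mul, mul_comm (d b.1), mul_comm a'.1]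
          exact h.trans (mul_comm _ _)]
        exact C.div_mem a'.2 a.2
      have hbb : b = b' := Subtype.ext (div_eq_one.1 (hinf _ (C.div_mem b.2 b'.2) h1))
      subst hbb
      exact Prod.ext (Subtype.ext (mul_right_cancel h)) rfl
    have fsurj : Function.Surjective f := by
      refine ((Nat.bijective_iff_injective_and_card f).2 ⟨finj, le_antisymm ?_ ?_⟩).2
      · exact Nat.card_le_card_of_injective f finj
      · rw [Nat.card_prod]; exact hA
    rw [eq_top_iff]
    intro x _
    obtain ⟨⟨a, b⟩, rfl⟩ := fsurj x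
    exact mul_mem (Subgroup.mem_sup_left a.2) (Subgroup.mem_sup_right ⟨b.1, b.2, rfl⟩)

end Cfsg.Agent.S1899
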