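import Cfsg.Statements.S1900
import Cfsg.Agent.Lib.Coprime.Abelian
import Cfsg.Agent.Lib.Components.Signalizer

set_option autoImplicit false
open Cfsg

namespace Cfsg.Agent.S1900

open Subgroup Lib.Components Lib.Coprime
open scoped commutatorElement

section
variable {S : Type*} [Group S] [Finite S]

/-- One half of the argument: commutators land in `N (M ∩ C(X'))`. -/
lemma half {P Q X X' N M : Subgroup S} [N.Normal] [M.Normal] (hQc : ∀ a ∈ Q, ∀ b ∈ Q, a * b = b * a)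
    (hXQ : X ≤ Q) (hX'Q : X' ≤ Q) (hMP : M ≤ P) [P.Normal]
    (hcen : ∀ s ∈ P, ∀ m ∈ M, ⁅s, m⁆ ∈ N) (hN : N ≤ M)
    (hM : M ≤ (M ⊓ centralizer (X : Set S)) ⊔ (M ⊓ centralizer (X' : Set S)))
    (hgen : P ⊓ centralizer (X' : Set S) = ⁅P ⊓ centralizer (X' : Set S), X⁆)
    (hcomm : ∀ x ∈ P ⊓ centralizer (X : Set S), ∀ y ∈ P ⊓ centralizer (X' : Set S), ⁅x, y⁆ ∈ M) :
    ∀ x ∈ P ⊓ centralizer (X : Set S), ∀ y ∈ P ⊓ centralizer (X' : Set S),
      ⁅x, y⁆ ∈ N ⊔ (M ⊓ centralizer (X' : Set S)) := by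
  intro x hx
  set L := N ⊔ (M ⊓ centralizer (X' : Set S)) with hL
  have hLM : L ≤ M := sup_le hN inf_le_left
  have hLn : ∀ s ∈ P, ∀ l ∈ L, s * l * s⁻¹ ∈ L := by
    intro s hs l hl
    have := L.mul_mem (mem_sup_left (T := M ⊓ centralizer (X' : Set S)) (hcen s hs l (hLM hl))) hl
    simpa [commutatorElement_def, mul_assoc] using this
  -- `c (a c a⁻¹)⁻¹ ∈ L` for `c ∈ M`, `a ∈ X`
  have hdiff : ∀ a ∈ X, ∀ c ∈ M, c * (a * c * a⁻¹)⁻¹ ∈ L := by
    intro a ha c hc
    have hc' := hM hc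
    clear hc
    rw [sup_eq_closure] at hc'
    induction hc' using closure_induction with
    | mem u hu =>
      rcases hu with hu | hu
      · rw [show a * u = u * a from mem_centralizer_iff.1 hu.2 a ha, mul_inv_cancel_right, mul_inv_cancel]
        exact L.one_mem
      · refine mem_sup_right (mul_mem hu (inv_mem (mem_inf.2 ⟨(inferInstance : M.Normal).conj_mem u hu.1 a, ?_⟩)))
        refine mem_centralizer_iff.2 fun b hb => ?_
        have h1 : b * a = a * b := hQc b (hX'Q hb) a (hXQ ha)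
        calc b * (a * u * a⁻¹) = a * (b * u) * a⁻¹ := by simp [← mul_assoc, h1]
          _ = a * (u * b) * a⁻¹ := by rw [mem_centralizer_iff.1 hu.2 b hb]
          _ = a * u * a⁻¹ * (a * b * a⁻¹) := by simp [mul_assoc]
          _ = a * u * a⁻¹ * b := by rw [← h1, mul_inv_cancel_right]
    | one => simp
    | mul u v hu hv ihu ihv =>
      have huP : u ∈ P := hMP ((sup_le inf_le_left inf_le_left : (M ⊓ centralizer (X : Set S)) ⊔
        (M ⊓ centralizer (X' : Set S)) ≤ M) (by rw [sup_eq_closure]; exact hu))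
      have := L.mul_mem (hLn u huP _ ihv) ihu
      simpa [mul_assoc] using this
    | inv u hu ihu =>
      have huP : u ∈ P := hMP ((sup_le inf_le_left inf_le_left : (M ⊓ centralizer (X : Set S)) ⊔
        (M ⊓ centralizer (X' : Set S)) ≤ M) (by rw [sup_eq_closure]; exact hu))
      have := hLn u⁻¹ (inv_mem huP) _ (inv_mem ihu)
      have h2 : u⁻¹ * (u * (a * u * a⁻¹)⁻¹)⁻¹ * u⁻¹⁻¹ = u⁻¹ * (a * u⁻¹ * a⁻¹)⁻¹ := by simp [mul_assoc]
      rw [h2] at this
      exact this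
  -- the elements `y` with `⁅x, y⁆ ∈ L` form a subgroup
  let T : Subgroup S :=
    { carrier := {y | y ∈ P ∧ ⁅x, y⁆ ∈ L}
      one_mem' := ⟨P.one_mem, by simp [commutatorElement_def]⟩
      mul_mem' := by
        rintro y z ⟨hy, hy'⟩ ⟨hz, hz'⟩
        refine ⟨P.mul_mem hy hz, ?_⟩
        have := L.mul_mem hy' (hLn y hy _ hz')
        simpa [commutatorElement_def, mul_assoc] using this
      inv_mem' := by
        rintro y ⟨hy, hy'⟩
        refine ⟨P.inv_mem hy, ?_⟩
        have := hLn y⁻¹ (P.inv_mem hy) _ (L.inv_mem hy')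
        simpa [commutatorElement_def, mul_assoc] using this }
  intro y hy
  suffices h : P ⊓ centralizer (X' : Set S) ≤ T from (h hy).2
  rw [hgen, commutator_le]
  intro u hu a ha
  have hax : a * x = x * a := mem_centralizer_iff.1 hx.2 a ha
  set v := a * u * a⁻¹ with hv
  have hvP : v ∈ P := (inferInstance : P.Normal).conj_mem u hu.1 a
  have hvu : ⁅u, a⁆ = u * v⁻¹ := by simp [hv, commutatorElement_def, mul_assoc]
  refine ⟨hvu ▸ P.mul_mem hu.1 (P.inv_mem hvP), ?_⟩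
  set c := ⁅x, u⁆ with hcdef
  have hcM : c ∈ M := hcomm x hx u hu
  have hcv : ⁅x, v⁆ = a * c * a⁻¹ := by
    have hxa : a⁻¹ * x = x * a⁻¹ := by
      calc a⁻¹ * x = a⁻¹ * (x * a) * a⁻¹ := by simp [mul_assoc]
        _ = x * a⁻¹ := by rw [← hax, inv_mul_cancel_left]
    have e : x = a * x * a⁻¹ := by rw [hax, mul_inv_cancel_right]
    rw [hv, hcdef]
    conv_lhs => rw [e]
    simp [commutatorElement_def, mul_assoc]
  have h1 : ⁅x, v⁻¹⁆ = v⁻¹ * (⁅x, v⁆)⁻¹ * v⁻¹⁻¹ := by simp [commutatorElement_def, mul_assoc]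
  have h2 : ⁅x, ⁅u, a⁆⁆ = c * (u * ⁅x, v⁻¹⁆ * u⁻¹) := by rw [hvu]; simp [hcdef, commutatorElement_def, mul_assoc]
  have hd := hdiff a ha c hcM
  have hw : u * v⁻¹ ∈ P := P.mul_mem hu.1 (P.inv_mem hvP)
  have hac : (a * c * a⁻¹)⁻¹ ∈ M := M.inv_mem ((inferInstance : M.Normal).conj_mem c hcM a)
  have h3 : u * ⁅x, v⁻¹⁆ * u⁻¹ = ⁅u * v⁻¹, (a * c * a⁻¹)⁻¹⁆ * (a * c * a⁻¹)⁻¹ := by
    rw [h1, hcv]; simp [commutatorElement_def, mul_assoc]
  rw [h2, h3, ← mul_assoc]
  have h4 : c * ⁅u * v⁻¹, (a * c * a⁻¹)⁻¹⁆ * c⁻¹ ∈ L :=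
    hLn c (hMP hcM) _ (mem_sup_left (hcen _ hw _ hac))
  have := L.mul_mem h4 hd
  simpa [mul_assoc] using this

end


/-- Let S = PQ be a finite group with P a normal Sylow p-subgroup and Q elementary abelian of order q², q a prime different from p. If exactly two subgroups X₁, X₂ of order q in Q have a nontrivial centralizer in P, then P is the internal direct product of C_P(X₁) and C_P(X₂): they commute elementwise, meet trivially and generate P. -/
theorem result {S : Type*} [Group S] [Finite S] {p q : ℕ} [Fact p.Prime] [Fact q.Prime] (hpq : p ≠ q)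
    (P : Sylow p S) [(P : Subgroup S).Normal] (Q : Subgroup S) (hQ : Cfsg.IsElementaryAbelian q Q) (hQc : Nat.card Q = q ^ 2)
    (hS : (P : Subgroup S) ⊔ Q = ⊤)
    (X₁ X₂ : Subgroup S) (h₁ : X₁ ≤ Q) (h₂ : X₂ ≤ Q) (h₁₂ : X₁ ≠ X₂) (hc₁ : Nat.card X₁ = q) (hc₂ : Nat.card X₂ = q)
    (hf₁ : (P : Subgroup S) ⊓ Subgroup.centralizer (X₁ : Set S) ≠ ⊥)
    (hf₂ : (P : Subgroup S) ⊓ Subgroup.centralizer (X₂ : Set S) ≠ ⊥)
    (honly : ∀ X : Subgroup S, X ≤ Q → Nat.card X = q →
      (P : Subgroup S) ⊓ Subgroup.centralizer (X : Set S) ≠ ⊥ → X = X₁ ∨ X = X₂) :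
    ⁅(P : Subgroup S) ⊓ Subgroup.centralizer (X₁ : Set S), (P : Subgroup S) ⊓ Subgroup.centralizer (X₂ : Set S)⁆ = ⊥ ∧
      ((P : Subgroup S) ⊓ Subgroup.centralizer (X₁ : Set S)) ⊓ ((P : Subgroup S) ⊓ Subgroup.centralizer (X₂ : Set S)) = ⊥ ∧
      ((P : Subgroup S) ⊓ Subgroup.centralizer (X₁ : Set S)) ⊔ ((P : Subgroup S) ⊓ Subgroup.centralizer (X₂ : Set S)) = P := by
  have hP' : (P : Subgroup S).Normal := inferInstance
  haveI := hQ.1
  set P₁ := (P : Subgroup S) ⊓ centralizer (X₁ : Set S) with hP₁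
  set P₂ := (P : Subgroup S) ⊓ centralizer (X₂ : Set S) with hP₂
  have hQab : ∀ a ∈ Q, ∀ b ∈ Q, a * b = b * a := fun a ha b hb => Sig.comm_of hQ ha hb
  have hQ2 : ¬ IsCyclic ↥Q := Sig.not_cyclic hQ (by rw [hQc])
  have hcop : (Nat.card ↥Q).Coprime (Nat.card ↥(P : Subgroup S)) := by
    obtain ⟨a, ha⟩ := IsPGroup.iff_card.1 P.isPGroup'
    rw [hQc, ha]
    exact ((Nat.coprime_primes Fact.out Fact.out).2 hpq.symm).pow 2 a
  -- fixed points of a single element
  have hfix : ∀ a ∈ Q, a ≠ 1 → (P : Subgroup S) ⊓ centralizer {a} ≤ P₁ ∨ (P : Subgroup S) ⊓ centralizer {a} ≤ P₂ := by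
    intro a ha ha1
    have hz : (P : Subgroup S) ⊓ centralizer {a} ≤ (P : Subgroup S) ⊓ centralizer (zpowers a : Set S) := by
      refine inf_le_inf_left _ fun x hx => mem_centralizer_iff.2 ?_
      rintro _ ⟨i, rfl⟩
      exact (((show Commute x a from mem_centralizer_singleton_iff.1 hx).zpow_right i).symm).eq
    by_cases hb : (P : Subgroup S) ⊓ centralizer (zpowers a : Set S) = ⊥
    · left; exact hz.trans (hb ▸ bot_le)
    · rcases honly (zpowers a) (zpowers_le.2 ha) (by rw [Nat.card_zpowers, Sig.orderOf_elem hQ ha ha1]) hb with h | h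
      · left; exact hz.trans (le_of_eq (by rw [h]))
      · right; exact hz.trans (le_of_eq (by rw [h]))
  have hdec : ∀ M : Subgroup S, M.Normal → M ≤ (P : Subgroup S) →
      M ≤ (M ⊓ centralizer (X₁ : Set S)) ⊔ (M ⊓ centralizer (X₂ : Set S)) := by
    intro M hM hMP
    conv_lhs => rw [← fixGen_eq hQ2 le_normalizer_of_normal (hcop.coprime_dvd_right (card_dvd_of_le hMP))]
    refine iSup₂_le fun a ha => ?_
    have h : M ⊓ centralizer {a} ≤ (P : Subgroup S) ⊓ centralizer {a} := inf_le_inf_right _ hMP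
    rcases hfix a ha.1 ha.2 with h' | h'
    · exact le_sup_of_le_left (le_inf inf_le_left ((h.trans h').trans inf_le_right))
    · exact le_sup_of_le_right (le_inf inf_le_left ((h.trans h').trans inf_le_right))
  have hq : q.Prime := Fact.out
  -- `Q` has a third subgroup of order `q`
  have hQgen : X₁ ⊔ X₂ = Q := by
    refine eq_of_le_of_card_ge (sup_le h₁ h₂) ?_
    have hlt : X₁ < X₁ ⊔ X₂ := lt_of_le_of_ne le_sup_left fun h => h₁₂ (eq_of_le_of_card_ge
      (le_sup_right.trans_eq h.symm) (by rw [hc₁, hc₂])).symm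
    have h1 := card_dvd_of_le (sup_le h₁ h₂)
    rw [hQc] at h1 ⊢
    obtain ⟨i, hi, he⟩ := (Nat.dvd_prime_pow hq).1 h1
    have h2 : q < q ^ i := by
      rw [← he, ← hc₁]; exact (Set.toFinite _).card_lt_card (SetLike.coe_ssubset_coe.2 hlt)
    interval_cases i
    · simp at h2; exact absurd h2 (by have := hq.one_lt; omega)
    · simp at h2
    · exact he.ge
  have hPQ : (P : Subgroup S) ⊓ centralizer (Q : Set S) = ⊥ := by
    classical
    obtain ⟨a, ha, ha1, ha2⟩ : ∃ a ∈ Q, a ∉ X₁ ∧ a ∉ X₂ := by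
      by_contra hcon
      push Not at hcon
      have hsub : (Q : Set S) ⊆ (X₁ : Set S) ∪ (X₂ : Set S) := fun a ha => (em (a ∈ X₁)).imp id (hcon a ha)
      obtain ⟨b, hb, hb1⟩ := SetLike.not_le_iff_exists.1 (show ¬ X₂ ≤ X₁ from fun h =>
        h₁₂ (eq_of_le_of_card_ge h (by rw [hc₁, hc₂])).symm)
      obtain ⟨c, hc, hc1⟩ := SetLike.not_le_iff_exists.1 (show ¬ X₁ ≤ X₂ from fun h =>
        h₁₂ (eq_of_le_of_card_ge h (by rw [hc₁, hc₂])))
      rcases hsub (Q.mul_mem (h₂ hb) (h₁ hc)) with h | h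
      · exact hb1 (by simpa using X₁.mul_mem h (X₁.inv_mem hc))
      · exact hc1 (by simpa using X₂.mul_mem (X₂.inv_mem hb) h)
    rw [eq_bot_iff]
    intro x hx
    have hbot : (P : Subgroup S) ⊓ centralizer (zpowers a : Set S) = ⊥ := by
      by_contra hne
      have ha0 : a ≠ 1 := fun h => ha1 (h ▸ X₁.one_mem)
      rcases honly (zpowers a) (zpowers_le.2 ha) (by rw [Nat.card_zpowers, Sig.orderOf_elem hQ ha ha0]) hne with h | h
      · exact ha1 (h ▸ mem_zpowers a)
      · exact ha2 (h ▸ mem_zpowers a)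
    rw [← hbot]
    exact ⟨hx.1, centralizer_le (SetLike.coe_subset_coe.2 (zpowers_le.2 ha)) hx.2⟩
  have hinf : P₁ ⊓ P₂ = ⊥ := by
    rw [eq_bot_iff, ← hPQ]
    rintro x ⟨hx1, hx2⟩
    refine ⟨hx1.1, ?_⟩
    have hxQ : Q ≤ centralizer {x} := by
      rw [← hQgen]
      refine sup_le (fun b hb => ?_) fun b hb => ?_
      · exact mem_centralizer_singleton_iff.2 (mem_centralizer_iff.1 hx1.2 b hb)
      · exact mem_centralizer_singleton_iff.2 (mem_centralizer_iff.1 hx2.2 b hb)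
    exact mem_centralizer_iff.2 fun b hb => mem_centralizer_singleton_iff.1 (hxQ hb)
  have hgen : P₁ ⊔ P₂ = P := le_antisymm (sup_le inf_le_left inf_le_left) ((hdec _ hP' le_rfl).trans le_rfl)
  refine ⟨?_, hinf, hgen⟩
  -- each factor is a commutator with the other subgroup of order `q`
  have hgen' : ∀ (X X' : Subgroup S), X ≤ Q → X' ≤ Q → X ⊔ X' = Q →
      (P : Subgroup S) ⊓ centralizer (X' : Set S) = ⁅(P : Subgroup S) ⊓ centralizer (X' : Set S), X⁆ := by
    intro X X' hX hX' hXX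
    set V := (P : Subgroup S) ⊓ centralizer (X' : Set S)
    have hV : X ≤ normalizer (V : Set S) := by
      refine (le_inf le_normalizer_of_normal ?_).trans inf_normalizer_le_normalizer_inf
      refine le_trans ?_ Subgroup.le_normalizer
      exact fun a ha => mem_centralizer_iff.2 fun b hb => hQab b (hX' hb) a (hX ha)
    have h := commutator_sup_centralizer hV
      ((hcop.coprime_dvd_left (card_dvd_of_le hX)).coprime_dvd_right (card_dvd_of_le inf_le_left))
      (Or.inl (Group.isSolvable_of_comm fun a b => Subtype.ext (hQab a (hX a.2) b (hX b.2))))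
    have hb : V ⊓ centralizer (X : Set S) = ⊥ := by
      rw [eq_bot_iff, ← hPQ]
      rintro x ⟨⟨hxP, hx'⟩, hx⟩
      refine ⟨hxP, ?_⟩
      have hxQ : Q ≤ centralizer {x} := by
        rw [← hXX]
        refine sup_le (fun b hb => ?_) fun b hb => ?_
        · exact mem_centralizer_singleton_iff.2 (mem_centralizer_iff.1 hx b hb)
        · exact mem_centralizer_singleton_iff.2 (mem_centralizer_iff.1 hx' b hb)
      exact mem_centralizer_iff.2 fun b hb => mem_centralizer_singleton_iff.1 (hxQ hb)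
    rw [hb, sup_bot_eq] at h
    exact h.symm
  have hnil : Group.IsNilpotent ↥(P : Subgroup S) := P.isPGroup'.isNilpotent
  obtain ⟨n, hn⟩ := Group.IsNilpotent.nilpotent (G := ↥(P : Subgroup S))
  let Z : ℕ → Subgroup S := fun i => (Subgroup.upperCentralSeries ↥(P : Subgroup S) i).map (P : Subgroup S).subtype
  have hZn : ∀ i, (Z i).Normal := fun i => ConjAct.normal_of_characteristic_of_normal
  have hstep : ∀ i, (∀ x ∈ P₁, ∀ y ∈ P₂, ⁅x, y⁆ ∈ Z (i + 1)) → ∀ x ∈ P₁, ∀ y ∈ P₂, ⁅x, y⁆ ∈ Z i := by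
    intro i hi x hx y hy
    haveI := hZn i
    haveI := hZn (i + 1)
    have hMP : Z (i + 1) ≤ (P : Subgroup S) := map_subtype_le _
    have hNM : Z i ≤ Z (i + 1) := Subgroup.map_mono (Subgroup.upperCentralSeries_mono _ (Nat.le_succ i))
    have hcen : ∀ s ∈ (P : Subgroup S), ∀ m ∈ Z (i + 1), ⁅s, m⁆ ∈ Z i := by
      rintro s hs _ ⟨m, hm, rfl⟩
      have h := inv_mem (Subgroup.mem_upperCentralSeries_succ_iff.1 hm ⟨s, hs⟩)
      refine ⟨_, h, ?_⟩
      simp [commutatorElement_def, mul_assoc]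
    have hd := hdec _ (hZn (i + 1)) hMP
    have e1 := half hQab h₁ h₂ hMP hcen hNM hd (hgen' X₁ X₂ h₁ h₂ hQgen) hi x hx y hy
    have e2 := half hQab h₂ h₁ hMP hcen hNM (hd.trans (sup_comm _ _).le)
      (hgen' X₂ X₁ h₂ h₁ ((sup_comm _ _).trans hQgen))
      (fun u hu v hv => by rw [← commutatorElement_inv]; exact inv_mem (hi v hv u hu)) y hy x hx
    have e2' : ⁅x, y⁆ ∈ Z i ⊔ (Z (i + 1) ⊓ centralizer (X₁ : Set S)) := by
      rw [← commutatorElement_inv]; exact inv_mem e2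
    set u := ⁅x, y⁆ with hu
    have hcopi : (Nat.card ↥Q).Coprime (Nat.card ↥(Z i)) :=
      hcop.coprime_dvd_right (card_dvd_of_le (hNM.trans hMP))
    have hfixu : ∀ a ∈ Q, u⁻¹ * (a * u * a⁻¹) ∈ Z i := by
      have hX : ∀ (X : Subgroup S), u ∈ Z i ⊔ (Z (i + 1) ⊓ centralizer (X : Set S)) → ∀ a ∈ X,
          u⁻¹ * (a * u * a⁻¹) ∈ Z i := by
        intro X hu a ha
        obtain ⟨z, hz, m, hm, he⟩ := mem_sup_of_normal_left.1 hu
        have hma : a * m = m * a := mem_centralizer_iff.1 hm.2 a ha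
        have e : u⁻¹ * (a * u * a⁻¹) = m⁻¹ * (z⁻¹ * (a * z * a⁻¹)) * m := by
          rw [← he]
          have : a * (z * m) * a⁻¹ = a * z * a⁻¹ * m := by
            calc a * (z * m) * a⁻¹ = a * z * a⁻¹ * (a * m) * a⁻¹ := by simp [mul_assoc]
              _ = _ := by rw [hma]; simp [mul_assoc]
          rw [this]; simp [mul_assoc]
        rw [e]
        have := (hZn i).conj_mem _ (mul_mem (inv_mem hz) ((hZn i).conj_mem z hz a)) m⁻¹
        rwa [inv_inv] at this
      intro a ha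
      rw [← hQgen, sup_eq_closure] at ha
      induction ha using closure_induction with
      | mem b hb => exact hb.elim (hX X₁ e2' b) (hX X₂ e1 b)
      | one => simp
      | mul b c _ _ hb hc =>
        have h1 := (hZn i).conj_mem _ hc b
        have h2 := (hZn i).conj_mem _ (mul_mem hb ((hZn i).conj_mem _ hc b)) 1
        have e : u⁻¹ * (b * c * u * (b * c)⁻¹) = (u⁻¹ * (b * u * b⁻¹)) * (b * (u⁻¹ * (c * u * c⁻¹)) * b⁻¹) := by
          simp [mul_assoc]
        rw [e]; exact mul_mem hb h1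
      | inv b _ hb =>
        have := (hZn i).conj_mem _ (inv_mem hb) b⁻¹
        simpa [mul_assoc] using this
    obtain ⟨c, hc, huc⟩ := exists_centralizer_mem_coset le_normalizer_of_normal hcopi
      (Or.inl (Sig.solvable_elem hQ)) hfixu
    have hcP : c ∈ (P : Subgroup S) := by
      have h := mul_mem (hMP (hi x hx y hy)) ((hNM.trans hMP) huc)
      rwa [← hu, mul_inv_cancel_left] at h
    have hc1 : c = 1 := mem_bot.1 (hPQ ▸ mem_inf.2 ⟨hcP, hc⟩)
    rw [hc1, mul_one] at huc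
    simpa using inv_mem huc
  have hall : ∀ d i, i + d = n → ∀ x ∈ P₁, ∀ y ∈ P₂, ⁅x, y⁆ ∈ Z i := by
    intro d
    induction d with
    | zero =>
      rintro i rfl x hx y hy
      have h : ⁅x, y⁆ ∈ (P : Subgroup S) := by
        rw [commutatorElement_def]; exact mul_mem (mul_mem (mul_mem hx.1 hy.1) (inv_mem hx.1)) (inv_mem hy.1)
      exact ⟨⟨_, h⟩, by rw [Nat.add_zero] at hn; rw [hn]; exact mem_top _, rfl⟩
    | succ d ih => exact fun i hid => hstep i (ih (i + 1) (by omega))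
  rw [eq_bot_iff, commutator_le]
  intro x hx y hy
  have := hall n 0 (Nat.zero_add n) x hx y hy
  simpa [Z, Subgroup.upperCentralSeries_zero] using this

end Cfsg.Agent.S1900
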