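import Cfsg.Statements.S1901
import Cfsg.Agent.Lib.Coprime.Action

set_option autoImplicit false
open Cfsg

namespace Cfsg.Agent.S1901

open Subgroup

variable {G : Type*} [Group G] [Finite G] {p : ℕ} [hp : Fact p.Prime]

theorem card_map_mul_inf_ker {G' : Type*} [Group G'] (f : G →* G') (H : Subgroup G) :
    Nat.card (H.map f) * Nat.card (H ⊓ f.ker : Subgroup G) = Nat.card H := by
  have h := relIndex_mul_relIndex ⊥ (H ⊓ f.ker) H bot_le inf_le_left
  simp only [relIndex_bot_left] at h
  rw [← h, mul_comm, inf_relIndex_left, relIndex_ker]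

/-- In each factor of a `p`-series, `p`-elements normalising `Q` are covered by `C_P(Q)`. -/
theorem card_le_of_series (P : Sylow p G) (Q : Subgroup G) (hQ : ¬ p ∣ Nat.card Q)
    (hQP : Q ≤ normalizer ((P : Subgroup G) : Set G)) {n : ℕ} (H : Fin (n + 1) → Subgroup G)
    (h0 : H 0 = ⊥) (hmono : Monotone H) (hnorm : ∀ i, (H i).Normal)
    (hfac : ∀ i : Fin n, (∃ m : ℕ, (H i.castSucc).relIndex (H i.succ) = p ^ m) ∨
      ((H i.castSucc).relIndex (H i.succ)).Coprime p)
    (R : Subgroup G) (hR : IsPGroup p R) (hRQ : R ≤ normalizer (Q : Set G)) :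
    ∀ i, Nat.card (R ⊓ H i : Subgroup G) ≤
      Nat.card (((P : Subgroup G) ⊓ centralizer (Q : Set G)) ⊓ H i : Subgroup G) := by
  intro i
  induction i using Fin.induction with
  | zero => simp [h0]
  | succ i ih =>
    have := hnorm i.castSucc
    have := hnorm i.succ
    have hsub : H i.castSucc ≤ H i.succ := hmono i.castSucc_le_succ
    set π := QuotientGroup.mk' (H i.castSucc) with hπ
    have hker : π.ker = H i.castSucc := QuotientGroup.ker_mk' _
    have hKR : ∀ K : Subgroup G, (K ⊓ H i.succ) ⊓ π.ker = K ⊓ H i.castSucc := fun K => by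
      rw [hker, inf_assoc, inf_eq_right.mpr hsub]
    rw [← card_map_mul_inf_ker π (R ⊓ H i.succ),
      ← card_map_mul_inf_ker π (((P : Subgroup G) ⊓ centralizer (Q : Set G)) ⊓ H i.succ), hKR, hKR]
    refine Nat.mul_le_mul ?_ ih
    have hrel : (H i.castSucc).relIndex (H i.succ) = Nat.card ((H i.succ).map π) :=
      (congrArg (fun K : Subgroup G => K.relIndex (H i.succ)) hker).symm.trans (relIndex_ker (H i.succ) π)
    rcases hfac i with ⟨m, hm⟩ | hcop
    · refine card_le_of_le ?_
      rintro _ ⟨r, ⟨hrR, hrH⟩, rfl⟩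
      have hMp : IsPGroup p ((H i.succ).map π) := by
        refine IsPGroup.of_card (n := m) ?_
        rw [← hm, hrel]
      have hMn : ((H i.succ).map π).Normal :=
        (hnorm i.succ).map π (QuotientGroup.mk'_surjective _)
      let P' : Sylow p (G ⧸ H i.castSucc) := P.mapSurjective (QuotientGroup.mk'_surjective _)
      have hMP : (H i.succ).map π ≤ (P : Subgroup G).map π := by
        have h1 : IsPGroup p ((H i.succ).map π ⊔ (P' : Subgroup (G ⧸ H i.castSucc)) :
            Subgroup (G ⧸ H i.castSucc)) := hMp.to_sup_of_normal_left P'.2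
        have h2 := P'.3 h1 le_sup_right
        exact le_sup_left.trans (le_of_eq h2)
      obtain ⟨x, hxP, hxr⟩ := hMP (mem_map_of_mem π hrH)
      have hxH : x ∈ H i.succ := by
        have h1 : r⁻¹ * x ∈ H i.castSucc := by
          rw [← QuotientGroup.eq]; exact hxr.symm
        simpa using mul_mem hrH (hsub h1)
      have hcommQ : ∀ q ∈ Q, π q * π r = π r * π q := by
        intro q hq
        have hc1 : q * r * q⁻¹ * r⁻¹ ∈ Q := by
          rw [show q * r * q⁻¹ * r⁻¹ = q * (r * q⁻¹ * r⁻¹) by group]
          exact mul_mem hq ((mem_normalizer_iff.mp (hRQ hrR) _).mp (inv_mem hq))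
        have hc2 : q * r * q⁻¹ * r⁻¹ ∈ H i.succ :=
          mul_mem ((hnorm i.succ).conj_mem r hrH q) (inv_mem hrH)
        have hone : π (q * r * q⁻¹ * r⁻¹) = 1 := by
          obtain ⟨k, hk⟩ := hMp ⟨_, mem_map_of_mem π hc2⟩
          have hk' : (π (q * r * q⁻¹ * r⁻¹)) ^ p ^ k = 1 := congrArg Subtype.val hk
          have hd : orderOf (π (q * r * q⁻¹ * r⁻¹)) ∣ Nat.card Q :=
            (orderOf_map_dvd π _).trans (Subgroup.orderOf_dvd_natCard Q hc1)
          have hcp : (p ^ k).Coprime (Nat.card Q) :=
            Nat.Coprime.pow_left k ((hp.out.coprime_iff_not_dvd).mpr hQ)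
          exact orderOf_eq_one_iff.mp
            (Nat.eq_one_of_dvd_coprimes hcp (orderOf_dvd_of_pow_eq_one hk') hd)
        rw [map_mul, map_mul, map_mul, map_inv, map_inv] at hone
        exact commutatorElement_eq_one_iff_mul_comm.mp (by simpa [commutatorElement_def] using hone)
      -- lift to a `Q`-fixed element of `P`
      have hxP' : x ∈ (P : Subgroup G) := hxP
      set N : Subgroup G := (P : Subgroup G) ⊓ H i.castSucc with hN
      have hQN : Q ≤ normalizer (N : Set G) := fun q hq => by
        rw [mem_normalizer_iff]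
        intro y
        refine and_congr (mem_normalizer_iff.mp (hQP hq) y) ⟨fun hy => ?_, fun hy => ?_⟩
        · exact (hnorm i.castSucc).conj_mem y hy q
        · have h1 : q⁻¹ * (q * y * q⁻¹) * q⁻¹⁻¹ ∈ H i.castSucc := (hnorm i.castSucc).conj_mem _ hy q⁻¹
          simpa [mul_assoc] using h1
      have hNp : IsPGroup p N := P.2.to_le inf_le_left
      have hcop' : (Nat.card Q).Coprime (Nat.card N) := by
        obtain ⟨k, hk⟩ := hNp.exists_card_eq
        rw [hk]
        exact (Nat.Coprime.pow_left k ((hp.out.coprime_iff_not_dvd).mpr hQ)).symm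
      have hNs : Group.IsSolvable N := by
        have := hNp.isNilpotent
        infer_instance
      obtain ⟨c, hc, hxc⟩ := Lib.Coprime.exists_centralizer_mem_coset hQN hcop' (Or.inr hNs)
        (k := x) (fun q hq => by
          refine mem_inf.mpr ⟨mul_mem (inv_mem hxP') ((mem_normalizer_iff.mp (hQP hq) x).mp hxP'),
            hker ▸ MonoidHom.mem_ker.mpr ?_⟩
          rw [map_mul, map_mul, map_mul, map_inv, map_inv, hxr, hcommQ q hq]
          group)
      have hcx : x⁻¹ * c ∈ H i.castSucc := hxc.2
      refine ⟨c, ⟨⟨?_, hc⟩, ?_⟩, ?_⟩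
      · have h9 := mul_mem hxP' (mem_inf.mp hxc).1
        rw [mul_inv_cancel_left] at h9
        exact h9
      · simpa using mul_mem hxH (hsub hcx)
      · rw [← hxr]
        exact (QuotientGroup.eq.mpr hcx).symm
    · have h1 : Nat.card ((R ⊓ H i.succ).map π) = 1 := by
        obtain ⟨k, hk⟩ := ((hR.to_le (inf_le_left : R ⊓ H i.succ ≤ R)).map π).exists_card_eq
        have h2 : Nat.card ((R ⊓ H i.succ).map π) ∣ (H i.castSucc).relIndex (H i.succ) := by
          have h3 := card_dvd_of_le (map_mono (f := π) (inf_le_right : R ⊓ H i.succ ≤ H i.succ))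
          exact h3.trans (dvd_of_eq hrel.symm)
        rw [hk] at h2 ⊢
        exact Nat.eq_one_of_dvd_coprimes (Nat.Coprime.pow_left k hcop.symm) dvd_rfl h2
      rw [h1]
      exact Nat.card_pos


/-- Let G be a finite p-solvable group and Q a subgroup of order prime to p such that p divides the index of C_G(Q) in N_G(Q). Then Q normalizes no Sylow p-subgroup of G. -/
theorem result {G : Type*} [Group G] [Finite G] {p : ℕ} [Fact p.Prime]
    (hG : Cfsg.IsPSolvable p G) (Q : Subgroup G) (hQ : ¬ p ∣ Nat.card Q)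
    (hA : p ∣ (Subgroup.centralizer (Q : Set G)).relIndex (Subgroup.normalizer (Q : Set G)))
    (P : Sylow p G) : ¬ Q ≤ Subgroup.normalizer ((P : Subgroup G) : Set G) := by
  intro hQP
  obtain ⟨n, H, h0, hn, hmono, hnorm, hfac⟩ := hG
  obtain ⟨R⟩ := (inferInstance : Nonempty (Sylow p ↥(normalizer (Q : Set G))))
  set C := (P : Subgroup G) ⊓ centralizer (Q : Set G) with hC
  have hle := card_le_of_series P Q hQ hQP H h0 hmono hnorm hfac
    ((R : Subgroup ↥(normalizer (Q : Set G))).map (normalizer (Q : Set G)).subtype) (R.2.map _)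
    (map_subtype_le _) (Fin.last n)
  rw [hn, inf_top_eq, inf_top_eq, card_map_of_injective (subtype_injective _),
    R.card_eq_multiplicity] at hle
  have hCp : IsPGroup p C := P.2.to_le inf_le_left
  obtain ⟨a, ha⟩ := hCp.exists_card_eq
  rw [← hC, ha] at hle
  have hva := (Nat.pow_le_pow_iff_right (Fact.out (p := p.Prime)).one_lt).mp hle
  have hCle : centralizer (Q : Set G) ≤ normalizer (Q : Set G) := centralizer_le_normalizer _
  have hmul := relIndex_mul_relIndex ⊥ (centralizer (Q : Set G)) (normalizer (Q : Set G)) bot_le hCle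
  simp only [relIndex_bot_left] at hmul
  have hd : p ^ (a + 1) ∣ Nat.card ↥(normalizer (Q : Set G)) := by
    rw [← hmul, pow_succ]
    exact mul_dvd_mul (ha ▸ card_dvd_of_le inf_le_right) hA
  have := ((Fact.out (p := p.Prime)).pow_dvd_iff_le_factorization Nat.card_pos.ne').mp hd
  omega

end Cfsg.Agent.S1901
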