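import Cfsg.Statements.S1903
import Cfsg.Agent.Lib.U3Sylow.CentralizerFour

set_option autoImplicit false
open Cfsg

namespace Cfsg.Agent.S1903

/-- A finite group of order 320 whose derived subgroup has order 64 and has centre a Klein four-group is isomorphic to the centralizer of an involution in PSU₃(4). -/
theorem result {G : Type*} [Group G] [Finite G] (hG : Nat.card G = 320) (hD : Nat.card (commutator G) = 64)
    (hZ : IsKleinFour (Subgroup.center (commutator G)))
    {F : Type*} [Field F] [Fintype F] (hF : Fintype.card F = 16) :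
    ∃ t : Cfsg.PSU 3 F 4, orderOf t = 2 ∧ Nonempty (G ≃* Subgroup.centralizer ({t} : Set (Cfsg.PSU 3 F 4))) := by
  classical
  have hF' : Fintype.card F = 4 ^ 2 := by rw [hF]; norm_num
  haveI := Cfsg.Agent.Lib.U3Sylow.charTwo (n := 2) (F := F) (by rw [hF]; norm_num)
  obtain ⟨t, ht, T, hTn, hK, ⟨H'⟩, y, hy, hyn⟩ := Cfsg.Agent.Lib.U3Sylow.exists_centralizer hF'
  obtain ⟨⟨e⟩, x, hx, hxn⟩ :=
    Cfsg.Agent.Lib.U3Sylow.exists_shape_of_structure hF' hG hD hZ H'
  exact ⟨t, ht, Cfsg.Agent.Lib.U3Sylow.nonempty_equiv_of_five hF' (commutator G) T hG hK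
    (H'.comap e) H' e hx hy hxn hyn⟩

end Cfsg.Agent.S1903
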