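import Cfsg.Statements.S1904
import Cfsg.Agent.Lib.OddAutTwo.Special
import Cfsg.Agent.Lib.OddAutTwo.Orders

set_option autoImplicit false
open Cfsg
open scoped commutatorElement

namespace Cfsg.Agent.S1904

/-- Let X be a finite nonabelian 2-group with no normal abelian subgroup that is self-centralizing and contains an elementary abelian subgroup of order 8. Suppose a group A of automorphisms of X of odd order satisfies [X, A] = X. Then X is the quaternion group of order 8, or X is special of order 64 with exactly three involutions, all central, or X is extraspecial of order 32 with exactly eleven involutions (the central product of a quaternion group and a dihedral group of order 8). -/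
theorem result {X : Type*} [Group X] [Finite X] (hX : IsPGroup 2 X) (hna : ¬ IsMulCommutative X)
    (hscn : ¬ ∃ A : Subgroup X, A.Normal ∧ Subgroup.centralizer (A : Set X) = A ∧
      ∃ E : Subgroup X, E ≤ A ∧ Cfsg.IsElementaryAbelian 2 E ∧ Nat.card E = 8)
    (A : Subgroup (MulAut X)) (hA : Odd (Nat.card A))
    (hXA : Subgroup.closure {g : X | ∃ φ ∈ A, ∃ x : X, g = x⁻¹ * φ x} = ⊤) :
    Nonempty (X ≃* QuaternionGroup 2) ∨
      (Cfsg.IsSpecial 2 X ∧ Nat.card X = 64 ∧ Nat.card {x : X // orderOf x = 2} = 3 ∧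
        ∀ x : X, orderOf x = 2 → x ∈ Subgroup.center X) ∨
      (Cfsg.IsExtraspecial 2 X ∧ Nat.card X = 32 ∧ Nat.card {x : X // orderOf x = 2} = 11) := by
  haveI : Fact (Nat.Prime 2) := ⟨Nat.prime_two⟩
  have hE : ∀ E : Subgroup X, E.Normal → Cfsg.IsElementaryAbelian 2 E → Nat.card E ≤ 4 := by
    intro E hEn hEe
    by_contra hgt
    haveI := hEn
    obtain ⟨k, hk⟩ := IsPGroup.iff_card.1 (hX.to_subgroup E)
    have hk3 : 3 ≤ k := by
      by_contra hc
      have := Nat.pow_le_pow_right (show 0 < 2 by omega) (show k ≤ 2 by omega)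
      omega
    obtain ⟨M, hEM, hMn, -, hMc⟩ := Cfsg.Agent.Lib.OddLocal.exists_selfCentralizing_normal hX E hEe.1
    obtain ⟨F, hF⟩ := Sylow.exists_subgroup_card_pow_prime (G := E) 2 (n := 3)
      (hk ▸ pow_dvd_pow 2 hk3)
    refine hscn ⟨M, hMn, hMc, F.map E.subtype, (Subgroup.map_subtype_le F).trans hEM, ⟨⟨⟨fun a b => ?_⟩⟩, ?_⟩, ?_⟩
    · have := congrArg Subtype.val (hEe.1.1.1 (⟨(a : X), Subgroup.map_subtype_le F a.2⟩ : E)
        ⟨(b : X), Subgroup.map_subtype_le F b.2⟩)
      exact Subtype.ext this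
    · exact fun a ha => hEe.2 a (Subgroup.map_subtype_le F ha)
    · rw [Subgroup.card_map_of_injective (Subgroup.subtype_injective E), hF]; rfl
  obtain ⟨hcomm, hsq, hzz, hle⟩ := Cfsg.Agent.Lib.OddAutTwo.special_structure hX hna hA hXA hE
  have hmem : ∀ x y : X, ⁅x, y⁆ ∈ Subgroup.center X := fun x y =>
    hcomm ▸ Subgroup.commutator_mem_commutator (Subgroup.mem_top x) (Subgroup.mem_top y)
  have h : Cfsg.Agent.Lib.OddAutTwo.SmallData A :=
    ⟨⟨hmem, hsq, hzz⟩, hX, hna, hA, fun y hy => Cfsg.Agent.Lib.OddAutTwo.mem_of_fix_mod hX hA hXA _ hcomm.le hy,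
      hE, hcomm⟩
  have hspec : Cfsg.IsSpecial 2 X := ⟨hX, le_antisymm
    (Cfsg.Agent.Lib.PGroupFrattini.frattini_le Nat.prime_two _ hcomm.le fun x => by rw [pow_two]; exact hsq x)
    (hcomm ▸ Cfsg.Agent.Lib.PGroupFrattini.commutator_le_frattini hX), hcomm⟩
  have hinv : ∀ x : X, orderOf x = 2 ↔ x * x = 1 ∧ x ≠ 1 := fun x => by
    rw [orderOf_eq_prime_iff, pow_two]
  obtain ⟨k, hk⟩ := IsPGroup.iff_card.1 (hX.to_subgroup (Subgroup.center X))
  have hk1 : k ≠ 0 := by
    intro h0
    rw [h0, pow_zero] at hk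
    refine hna ⟨⟨fun a b => commutatorElement_eq_one_iff_mul_comm.1 ?_⟩⟩
    have := hmem a b
    rwa [Subgroup.card_eq_one.1 hk, Subgroup.mem_bot] at this
  have hk2 : k ≤ 2 := by
    by_contra hc
    have := Nat.pow_le_pow_right (show 0 < 2 by omega) (show 3 ≤ k by omega)
    omega
  classical
  haveI : Fintype X := Fintype.ofFinite X
  rcases (show k = 1 ∨ k = 2 by omega) with rfl | rfl
  · have h2 : Nat.card (Subgroup.center X) = 2 := by simpa using hk
    rcases h.of_two h2 with hq | ⟨h32, h12⟩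
    · exact Or.inl hq
    refine Or.inr (Or.inr ⟨⟨hspec, h2⟩, h32, ?_⟩)
    rw [Nat.card_eq_fintype_card, Fintype.card_subtype] at h12 ⊢
    have e : (Finset.univ.filter fun x : X => orderOf x = 2) =
        (Finset.univ.filter fun x : X => x * x = 1).erase 1 := by
      ext x; simp [hinv, and_comm]
    rw [e, Finset.card_erase_of_mem (by simp), h12]
  · have h4 : Nat.card (Subgroup.center X) = 4 := by simpa using hk
    have hcen : ∀ x : X, orderOf x = 2 → x ∈ Subgroup.center X := fun x hx =>
      by_contra fun hne => h.sq_ne_one_of_four h4 hne ((hinv x).1 hx).1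
    refine Or.inr (Or.inl ⟨hspec, h.card_of_four h4, ?_, hcen⟩)
    rw [Nat.card_eq_fintype_card, Fintype.card_subtype] at h4 ⊢
    have e : (Finset.univ.filter fun x : X => orderOf x = 2) =
        (Finset.univ.filter fun x : X => x ∈ Subgroup.center X).erase 1 := by
      ext x
      simp only [Finset.mem_filter, Finset.mem_univ, true_and, Finset.mem_erase]
      exact ⟨fun hx => ⟨((hinv x).1 hx).2, hcen x hx⟩, fun hx => (hinv x).2 ⟨hzz x hx.2, hx.1⟩⟩
    rw [e, Finset.card_erase_of_mem (by simp), h4]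

end Cfsg.Agent.S1904
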