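import Cfsg.Statements.S1905
import Cfsg.Agent.Lib.Involution.StronglyEmbedded
import Cfsg.Agent.Lib.Involution.Isolated

set_option autoImplicit false
open Cfsg

namespace Cfsg.Agent.S1905

open Subgroup Lib.Involution


/-- Let M be a subgroup of even order of a finite group S such that M contains the centralizer in S of each of its involutions and the normal core of M in S has odd order. Then all involutions of S are conjugate. If moreover N_S(X) ≤ M for a Sylow 2-subgroup X of M and I is an involution in the centre of X, then all involutions of M are conjugate in M and M = M₀ C_M(I) for some subgroup M₀ of M of odd order. -/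
theorem result {S : Type*} [Group S] [Finite S] (M : Subgroup S) (hM : Even (Nat.card M))
    (hC : ∀ i ∈ M, orderOf i = 2 → Subgroup.centralizer ({i} : Set S) ≤ M) (hcore : Odd (Nat.card M.normalCore)) :
    (∀ x y : S, orderOf x = 2 → orderOf y = 2 → IsConj x y) ∧
      ∀ (X : Sylow 2 M) (I : M), I ∈ (Subgroup.center ↥(X : Subgroup ↥M)).map (X : Subgroup ↥M).subtype → orderOf I = 2 →
        Subgroup.normalizer (((X : Subgroup M).map M.subtype : Subgroup S) : Set S) ≤ M →
        (∀ x y : M, orderOf x = 2 → orderOf y = 2 → IsConj x y) ∧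
          ∃ M₀ : Subgroup M, Odd (Nat.card M₀) ∧
            ∀ m : M, ∃ a ∈ M₀, ∃ c ∈ Subgroup.centralizer ({I} : Set M), m = a * c := by
  classical
  -- every class of involutions meets the complement of `M`
  have hout : ∀ i : S, orderOf i = 2 → ∃ u : S, IsConj i u ∧ u ∉ M := by
    intro i hi
    by_contra hcon
    push Not at hcon
    have h1 : i ∈ M.normalCore := fun g => hcon _ (isConj_iff.2 ⟨g, rfl⟩)
    have h2 := orderOf_dvd_natCard (⟨i, h1⟩ : M.normalCore)
    rw [Subgroup.orderOf_mk, hi] at h2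
    exact Nat.not_even_iff_odd.2 hcore (even_iff_two_dvd.2 h2)
  have hio : ∀ i u : S, orderOf i = 2 → i ∈ M → orderOf u = 2 → u ∉ M → IsConj i u := by
    intro i u hi hiM hu huM
    by_contra hnc
    obtain ⟨w, hw, -, hwi, hwu⟩ := exists_involution_commute hi hu (fun h => hnc (isConj_of_odd hi hu h))
    have hwM : w ∈ M := hC i hiM hi (mem_centralizer_singleton_iff.2 hwi)
    exact huM (hC w hwM hw (mem_centralizer_singleton_iff.2 hwu.symm))
  obtain ⟨i₀, hi₀⟩ := exists_involution_of_even hM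
  have hi₀' : orderOf (i₀ : S) = 2 := by rw [orderOf_coe, hi₀]
  obtain ⟨u₀, hu₀c, hu₀⟩ := hout i₀ hi₀'
  have hu₀2 : orderOf u₀ = 2 := (isConj_orderOf hu₀c).symm.trans hi₀'
  have hconj : ∀ x y : S, orderOf x = 2 → orderOf y = 2 → IsConj x y := by
    have h : ∀ x : S, orderOf x = 2 → IsConj x (i₀ : S) := by
      intro x hx
      by_cases hxM : x ∈ M
      · exact (hio x u₀ hx hxM hu₀2 hu₀).trans (hio i₀ u₀ hi₀' i₀.2 hu₀2 hu₀).symm
      · exact (hio i₀ x hi₀' i₀.2 hx hxM).symm
    exact fun x y hx hy => (h x hx).trans (h y hy).symm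
  refine ⟨hconj, fun X I hI hI2 hN => ?_⟩
  set X' : Subgroup S := (X : Subgroup ↥M).map M.subtype with hX'
  obtain ⟨⟨I₁, hI₁X⟩, hI₁c, hI₁⟩ := hI
  have hIX : ∀ x ∈ (X : Subgroup ↥M), x * I = I * x := by
    intro x hx
    have := congrArg Subtype.val (mem_center_iff.1 hI₁c ⟨x, hx⟩)
    rw [← hI₁]
    exact this
  have hI2' : orderOf (I : S) = 2 := by rw [orderOf_coe, hI2]
  -- strong embedding
  have hse : ∀ j k : S, orderOf j = 2 → j ∈ M → k⁻¹ * j * k ∈ M → k ∈ M := by
    intro j k hj hjM hjk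
    have hjp : IsPGroup 2 ↥(zpowers (⟨j, hjM⟩ : M)) :=
      IsPGroup.of_card (n := 1) (by rw [Nat.card_zpowers, Subgroup.orderOf_mk, hj, pow_one])
    obtain ⟨Y, hY⟩ := hjp.exists_le_sylow
    obtain ⟨m, hm⟩ := MulAction.exists_smul_eq ↥M X Y
    have hYm : ∀ y : ↥M, y ∈ (Y : Subgroup ↥M) → m⁻¹ * y * m ∈ (X : Subgroup ↥M) := by
      intro y hy
      rw [← hm] at hy
      obtain ⟨x, hx, rfl⟩ := hy
      have hx' : x ∈ (X : Subgroup ↥M) := hx
      convert hx' using 1
      simp [mul_assoc]
    set z : S := (m : S) * (I : S) * (m : S)⁻¹ with hz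
    have hz2 : orderOf z = 2 := by rw [hz, orderOf_conj, hI2']
    have hzY : ∀ y : ↥M, y ∈ (Y : Subgroup ↥M) → (y : S) * z = z * (y : S) := by
      intro y hy
      have h1 := congrArg Subtype.val (hIX _ (hYm y hy))
      simp only [Subgroup.coe_mul, InvMemClass.coe_inv] at h1
      calc (y : S) * z = (m : S) * ((m : S)⁻¹ * y * m * (I : S)) * (m : S)⁻¹ := by simp [hz, mul_assoc]
        _ = (m : S) * ((I : S) * ((m : S)⁻¹ * y * m)) * (m : S)⁻¹ := by rw [h1]
        _ = z * (y : S) := by simp [hz, mul_assoc]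
    have hjz : z * j = j * z := (hzY ⟨j, hjM⟩ (hY (mem_zpowers _))).symm
    -- centralizers in the conjugate of `M`
    have hCk : ∀ w : S, orderOf w = 2 → k⁻¹ * w * k ∈ M → ∀ c : S, c * w = w * c → k⁻¹ * c * k ∈ M := by
      intro w hw hwM c hc
      refine hC _ hwM (by simpa using (orderOf_conj k⁻¹ w).trans hw) (mem_centralizer_singleton_iff.2 ?_)
      calc k⁻¹ * c * k * (k⁻¹ * w * k) = k⁻¹ * (c * w) * k := by simp [mul_assoc]
        _ = k⁻¹ * (w * c) * k := by rw [hc]
        _ = _ := by simp [mul_assoc]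
    have hzk : k⁻¹ * z * k ∈ M := hCk j hj hjk z hjz
    set X₂ : Subgroup S := (Y : Subgroup ↥M).map M.subtype
    have hXk : (X₂.map (MulAut.conj k⁻¹).toMonoidHom) ≤ M := by
      rintro _ ⟨_, ⟨y, hy, rfl⟩, rfl⟩
      simpa using hCk z hz2 hzk (y : S) (hzY y hy)
    have hp : IsPGroup 2 ↥((X₂.map (MulAut.conj k⁻¹).toMonoidHom).comap M.subtype) :=
      ((Y.isPGroup'.map M.subtype).map _).comap_of_injective _ M.subtype_injective
    obtain ⟨Y', hY'⟩ := hp.exists_le_sylow
    obtain ⟨n, hn⟩ := MulAction.exists_smul_eq ↥M Y' X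
    have hle : X₂.map (MulAut.conj ((n : S) * k⁻¹)).toMonoidHom ≤ X' := by
      rintro _ ⟨w, hw, rfl⟩
      have hwM : k⁻¹ * w * k⁻¹⁻¹ ∈ M := hXk ⟨w, hw, rfl⟩
      refine ⟨n * ⟨_, hwM⟩ * n⁻¹, ?_, ?_⟩
      · rw [← hn]
        exact smul_mem_pointwise_smul _ _ _ (hY' (show (⟨_, hwM⟩ : M) ∈ comap M.subtype _ from ⟨w, hw, rfl⟩))
      · simp [mul_assoc]
    have hmX : X'.map (MulAut.conj (m : S)).toMonoidHom = X₂ := by
      rw [hX', Subgroup.map_map]
      show _ = (Y : Subgroup ↥M).map M.subtype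
      rw [← hm]
      show _ = ((X : Subgroup ↥M).map (MulAut.conj m).toMonoidHom).map M.subtype
      rw [Subgroup.map_map]
      rfl
    rw [← hmX, Subgroup.map_map] at hle
    have hN' : (n : S) * k⁻¹ * (m : S) ∈ M := by
      apply hN
      have heq : X'.map (MulAut.conj ((n : S) * k⁻¹ * (m : S))).toMonoidHom = X' := by
        refine eq_of_le_of_card_ge ?_ ?_
        · refine le_trans (le_of_eq ?_) hle
          congr 1
          ext w
          simp [mul_assoc]
        · exact le_of_eq (Subgroup.card_map_of_injective (K := X') (MulAut.conj _).injective).symm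
      exact mem_normalizer_iff_map_conj_eq.2 heq
    have := M.mul_mem (M.mul_mem (M.inv_mem n.2) hN') (M.inv_mem m.2)
    rw [show (n : S)⁻¹ * ((n : S) * k⁻¹ * (m : S)) * (m : S)⁻¹ = k⁻¹ by simp [mul_assoc]] at this
    exact M.inv_mem_iff.1 this
  have hMconj : ∀ x y : M, orderOf x = 2 → orderOf y = 2 → IsConj x y := by
    intro x y hx hy
    have hx' : orderOf (x : S) = 2 := by rw [orderOf_coe, hx]
    have hy' : orderOf (y : S) = 2 := by rw [orderOf_coe, hy]
    obtain ⟨g, hg⟩ := isConj_iff.1 (hconj x y hx' hy')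
    have hgM : g ∈ M := hse y g hy' y.2 (by rw [← hg]; simp [mul_assoc])
    exact isConj_iff.2 ⟨⟨g, hgM⟩, Subtype.ext hg⟩
  refine ⟨hMconj, ?_⟩
  -- a coset of `M` containing at least as many involutions as `M`
  let Inv := {x : S // orderOf x = 2}
  haveI : Fintype (S ⧸ M) := Fintype.ofFinite _
  haveI : Fintype S := Fintype.ofFinite _
  let C : S ⧸ M → Finset S := fun q => Finset.univ.filter fun x => orderOf x = 2 ∧ (x : S ⧸ M) = q
  set q₀ : S ⧸ M := ((1 : S) : S ⧸ M) with hq₀
  obtain ⟨q, hq0, hq⟩ : ∃ q, q ≠ q₀ ∧ (C q₀).card ≤ (C q).card := by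
    by_contra hcon
    push Not at hcon
    have htot : (Finset.univ.filter fun x : S => orderOf x = 2).card = ∑ q : S ⧸ M, (C q).card := by
      rw [Finset.card_eq_sum_card_fiberwise (f := fun x : S => (x : S ⧸ M)) (t := Finset.univ) (fun x _ => Finset.mem_univ _)]
      refine Finset.sum_congr rfl fun q _ => ?_
      congr 1
      ext x
      simp [C]
    have hcl : (Finset.univ.filter fun x : S => orderOf x = 2).card = M.index * (C q₀).card := by
      have hC0 : C q₀ = Finset.univ.filter fun x : S => orderOf x = 2 ∧ x ∈ M := by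
        ext x
        simp [C, hq₀, QuotientGroup.eq]
      have horb : ∀ (g : S), g • (1 : S) = g • 1 := fun _ => rfl
      -- count pairs `(g, g I g⁻¹)`
      have h1 : (Finset.univ.filter fun x : S => orderOf x = 2).card * Nat.card ↥(centralizer ({(I : S)} : Set S)) = Nat.card S := by
        have key := Finset.card_eq_sum_card_fiberwise (f := fun g : S => g * (I : S) * g⁻¹)
          (s := (Finset.univ : Finset S)) (t := Finset.univ.filter fun x : S => orderOf x = 2)
          (fun g _ => by simp [orderOf_conj, hI2'])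
        rw [Nat.card_eq_fintype_card (α := S), ← Finset.card_univ, key]
        rw [Finset.sum_const_nat]
        intro x hx
        obtain ⟨g, hg⟩ := isConj_iff.1 (hconj I x hI2' (Finset.mem_filter.1 hx).2)
        rw [Nat.card_eq_fintype_card, ← Fintype.card_coe]
        refine Fintype.card_congr
          { toFun := fun w => ⟨g⁻¹ * w.1, mem_centralizer_singleton_iff.2 ?_⟩
            invFun := fun c => ⟨g * c.1, Finset.mem_filter.2 ⟨Finset.mem_univ _, ?_⟩⟩
            left_inv := fun w => Subtype.ext (by simp)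
            right_inv := fun c => Subtype.ext (by simp) }
        · have hw := (Finset.mem_filter.1 w.2).2
          have e : g⁻¹ * (w.1 * (I : S) * w.1⁻¹) * w.1 = g⁻¹ * x * w.1 := by rw [hw]
          have e2 : g⁻¹ * x = (I : S) * g⁻¹ := by rw [← hg]; simp [mul_assoc]
          simp only [mul_assoc, inv_mul_cancel, mul_one] at e
          rw [mul_assoc, e, ← mul_assoc, e2, mul_assoc]
        · show g * c.1 * (I : S) * (g * c.1)⁻¹ = x
          rw [← hg]
          have := mem_centralizer_singleton_iff.1 c.2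
          calc g * c.1 * (I : S) * (g * c.1)⁻¹ = g * (c.1 * (I : S)) * (g * c.1)⁻¹ := by simp [mul_assoc]
            _ = g * ((I : S) * c.1) * (g * c.1)⁻¹ := by rw [this]
            _ = _ := by simp [mul_assoc]
      have h2 : (C q₀).card * Nat.card ↥(centralizer ({(I : S)} : Set S)) = Nat.card ↥M := by
        have key := Finset.card_eq_sum_card_fiberwise (f := fun g : S => g * (I : S) * g⁻¹)
          (s := Finset.univ.filter fun g : S => g ∈ M) (t := C q₀)
          (fun g hg => by
            rw [hC0]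
            have hgM : g ∈ M := by simpa using hg
            simp [orderOf_conj, hI2', M.mul_mem (M.mul_mem hgM I.2) (M.inv_mem hgM)])
        rw [Nat.card_eq_fintype_card (α := ↥M), Fintype.card_subtype, key, Finset.sum_const_nat]
        intro x hx
        rw [hC0, Finset.mem_filter] at hx
        obtain ⟨g, hg⟩ := isConj_iff.1 (hMconj I ⟨x, hx.2.2⟩ hI2 (by rw [Subgroup.orderOf_mk]; exact hx.2.1))
        have hg' : (g : S) * (I : S) * (g : S)⁻¹ = x := congrArg Subtype.val hg
        rw [Nat.card_eq_fintype_card, ← Fintype.card_coe]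
        refine Fintype.card_congr
          { toFun := fun w => ⟨(g : S)⁻¹ * w.1, mem_centralizer_singleton_iff.2 ?_⟩
            invFun := fun c => ⟨(g : S) * c.1, Finset.mem_filter.2 ⟨Finset.mem_filter.2 ⟨Finset.mem_univ _, M.mul_mem g.2 (hC I I.2 hI2' c.2)⟩, ?_⟩⟩
            left_inv := fun w => Subtype.ext (by simp)
            right_inv := fun c => Subtype.ext (by simp) }
        · have hw := (Finset.mem_filter.1 w.2).2
          have e : (g : S)⁻¹ * (w.1 * (I : S) * w.1⁻¹) * w.1 = (g : S)⁻¹ * x * w.1 := by rw [hw]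
          have e2 : (g : S)⁻¹ * x = (I : S) * (g : S)⁻¹ := by rw [← hg']; simp [mul_assoc]
          simp only [mul_assoc, inv_mul_cancel, mul_one] at e
          rw [mul_assoc, e, ← mul_assoc, e2, mul_assoc]
        · show (g : S) * c.1 * (I : S) * ((g : S) * c.1)⁻¹ = x
          rw [← hg']
          have := mem_centralizer_singleton_iff.1 c.2
          calc (g : S) * c.1 * (I : S) * ((g : S) * c.1)⁻¹ = (g : S) * (c.1 * (I : S)) * ((g : S) * c.1)⁻¹ := by simp [mul_assoc]
            _ = (g : S) * ((I : S) * c.1) * ((g : S) * c.1)⁻¹ := by rw [this]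
            _ = _ := by simp [mul_assoc]
      refine Nat.eq_of_mul_eq_mul_right (show 0 < Nat.card ↥(centralizer ({(I : S)} : Set S)) from Nat.card_pos) ?_
      rw [h1, mul_assoc, h2, Subgroup.index_mul_card]
    have hlt : ∑ q : S ⧸ M, (C q).card < ∑ _q : S ⧸ M, (C q₀).card := by
      refine Finset.sum_lt_sum (fun q _ => ?_) ?_
      · by_cases h : q = q₀
        · rw [h]
        · exact (hcon q h).le
      · refine ⟨(u₀ : S ⧸ M), Finset.mem_univ _, hcon _ ?_⟩
        rw [hq₀, ne_eq, QuotientGroup.eq]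
        simpa using hu₀
    rw [Finset.sum_const, Finset.card_univ, ← Nat.card_eq_fintype_card, smul_eq_mul, ← htot, hcl] at hlt
    exact lt_irrefl _ hlt
  have hne : (C q).Nonempty := by
    rw [← Finset.card_pos]
    refine lt_of_lt_of_le ?_ hq
    exact Finset.card_pos.2 ⟨(I : S), Finset.mem_filter.2 ⟨Finset.mem_univ _, hI2', by rw [hq₀, QuotientGroup.eq]; simp⟩⟩
  obtain ⟨t, ht⟩ := hne
  obtain ⟨-, ht2, htq⟩ := Finset.mem_filter.1 ht
  have htM : t ∉ M := fun h => hq0 (by rw [← htq, hq₀, QuotientGroup.eq]; simpa using h)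
  have htt : t * t = 1 := mul_self ht2
  let M₀ : Subgroup ↥M := (M.map (MulAut.conj t).toMonoidHom).subgroupOf M
  have hM₀ : Odd (Nat.card ↥M₀) := by
    by_contra hodd
    obtain ⟨s, hs⟩ := exists_involution_of_even (Nat.not_odd_iff_even.1 hodd)
    have hs' : orderOf ((s : ↥M) : S) = 2 := by rw [orderOf_coe, orderOf_coe, hs]
    obtain ⟨w, hw, hwe⟩ := s.2
    refine htM (hse _ t hs' (s : ↥M).2 ?_)
    have : t⁻¹ * ((s : ↥M) : S) * t = w := by
      rw [show ((s : ↥M) : S) = t * w * t⁻¹ from hwe.symm]; simp [mul_assoc]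
    rw [this]; exact hw
  refine ⟨M₀, hM₀, ?_⟩
  -- the map `t m ↦ m I m⁻¹`
  have hmem : ∀ u ∈ C q, ∀ (h : t * u ∈ M), (⟨t * u, h⟩ : ↥M) ∈ M₀ := by
    intro u hu h
    obtain ⟨-, hu2, -⟩ := Finset.mem_filter.1 hu
    refine ⟨(t * u)⁻¹, M.inv_mem h, ?_⟩
    show t * (t * u)⁻¹ * t⁻¹ = t * u
    rw [mul_inv_rev, inv_self hu2, inv_self ht2]
    simp [mul_assoc, htt]
  have htu : ∀ u ∈ C q, t * u ∈ M := by
    intro u hu
    obtain ⟨-, -, huq⟩ := Finset.mem_filter.1 hu
    have := QuotientGroup.eq.1 (htq.trans huq.symm)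
    rwa [inv_self ht2] at this
  let F : ↥(C q) → ↥(C q₀) := fun u => ⟨t * u.1 * (I : S) * (t * u.1)⁻¹, Finset.mem_filter.2
    ⟨Finset.mem_univ _, by rw [orderOf_conj, hI2'], by
      rw [hq₀, QuotientGroup.eq]
      simpa [mul_assoc] using M.inv_mem (M.mul_mem (M.mul_mem (htu _ u.2) I.2) (M.inv_mem (htu _ u.2)))⟩⟩
  have hFinj : Function.Injective F := by
    rintro ⟨u, hu⟩ ⟨v, hv⟩ e
    have e' : t * u * (I : S) * (t * u)⁻¹ = t * v * (I : S) * (t * v)⁻¹ := congrArg Subtype.val e
    obtain ⟨-, hu2, -⟩ := Finset.mem_filter.1 hu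
    obtain ⟨-, hv2, -⟩ := Finset.mem_filter.1 hv
    have huM : u ∉ M := fun h => htM (by
      have := M.mul_mem (htu u hu) h
      rwa [mul_assoc, mul_self hu2, mul_one] at this)
    set c := u * v with hc
    have hcM0 : (⟨t * u, htu u hu⟩ : ↥M)⁻¹ * ⟨t * v, htu v hv⟩ ∈ M₀ := M₀.mul_mem (M₀.inv_mem (hmem u hu _)) (hmem v hv _)
    have hcval : (((⟨t * u, htu u hu⟩ : ↥M)⁻¹ * ⟨t * v, htu v hv⟩ : ↥M) : S) = c := by
      simp [hc, mul_assoc, inv_self hu2]
    have hco : Odd (orderOf c) := by
      rw [← hcval, orderOf_coe, ← orderOf_mk _ hcM0]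
      exact odd_orderOf_of_odd_card hM₀ _
    have hcI : c * (I : S) = (I : S) * c := by
      have := congrArg (fun w => (t * u)⁻¹ * w * (t * v)) e'
      simp only [mul_assoc, inv_mul_cancel_left, inv_mul_cancel, mul_one] at this
      have h2 : (I : S) * ((t * u)⁻¹ * (t * v)) = (t * u)⁻¹ * (t * v) * (I : S) := by
        simpa [mul_assoc] using this
      rw [show (t * u)⁻¹ * (t * v) = c by simp [hc, mul_assoc, inv_self hu2]] at h2
      exact h2.symm
    have huc : u * c * u⁻¹ = c⁻¹ := by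
      rw [hc, inv_self hu2, mul_inv_rev, inv_self hv2, inv_self hu2]
      simp [← mul_assoc, mul_self hu2]
    have hodd' : Odd (orderOf ((I : S) * u)) := by
      by_contra h
      obtain ⟨w, hw, -, hwi, hwu⟩ := exists_involution_commute hI2' hu2 h
      have hwM : w ∈ M := hC I I.2 hI2' (mem_centralizer_singleton_iff.2 hwi)
      exact huM (hC w hwM hw (mem_centralizer_singleton_iff.2 hwu.symm))
    set N : Subgroup S := normalizer (zpowers c : Set S) with hN'
    have hIN : (I : S) ∈ N := centralizer_le_normalizer _ (mem_centralizer_iff.2 (by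
      rintro _ ⟨i, rfl⟩; exact ((show Commute c (I : S) from hcI).zpow_left i).eq))
    have huN : u ∈ N := by
      refine mem_normalizer_iff_map_conj_eq.2 ?_
      rw [MonoidHom.map_zpowers]
      show zpowers (u * c * u⁻¹) = zpowers c
      rw [huc, zpowers_inv]
    obtain ⟨k, hdu⟩ := conj_of_odd hI2' hu2 hodd'
    set d := ((I : S) * u) ^ k with hd
    have hdN : d ∈ N := N.pow_mem (N.mul_mem hIN huN) k
    have hcd : d⁻¹ * c * d ∈ zpowers c := by
      have := (mem_normalizer_iff.1 (N.inv_mem hdN) c).1 (mem_zpowers c)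
      simpa using this
    have hucomm : u * c = c * u := by
      obtain ⟨i, hi⟩ := hcd
      have hi' : c = d * c ^ i * d⁻¹ := by
        rw [show c ^ i = d⁻¹ * c * d from hi]; simp [mul_assoc]
      rw [hi', ← hdu]
      have := ((show Commute c (I : S) from hcI).zpow_left i).eq
      calc d * (I : S) * d⁻¹ * (d * c ^ i * d⁻¹) = d * ((I : S) * c ^ i) * d⁻¹ := by simp [mul_assoc]
        _ = d * (c ^ i * (I : S)) * d⁻¹ := by rw [this]
        _ = _ := by simp [mul_assoc]
    have hc1 : c = 1 := by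
      refine eq_one_of_mul_self_of_odd hco ?_
      rw [hucomm, mul_inv_cancel_right] at huc
      conv_lhs => arg 2; rw [huc]
      exact mul_inv_cancel c
    exact Subtype.ext (by
      show u = v
      calc u = u * c := by rw [hc1, mul_one]
        _ = v := by rw [hc, ← mul_assoc, mul_self hu2, one_mul])
  have hbij : Function.Bijective F := (Fintype.bijective_iff_injective_and_card F).2
    ⟨hFinj, le_antisymm (Fintype.card_le_of_injective F hFinj) (by simpa using hq)⟩
  intro m
  have hm0 : (m : S) * (I : S) * (m : S)⁻¹ ∈ C q₀ := Finset.mem_filter.2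
    ⟨Finset.mem_univ _, by rw [orderOf_conj, hI2'], by
      rw [hq₀, QuotientGroup.eq]
      simpa [mul_assoc] using M.inv_mem (M.mul_mem (M.mul_mem m.2 I.2) (M.inv_mem m.2))⟩
  obtain ⟨u, hu⟩ := hbij.2 ⟨_, hm0⟩
  set a : ↥M := ⟨t * u.1, htu _ u.2⟩ with ha
  refine ⟨a, hmem _ u.2 _, a⁻¹ * m, mem_centralizer_singleton_iff.2 ?_, by simp⟩
  ext
  have e : (a : S) * (I : S) * (a : S)⁻¹ = (m : S) * (I : S) * (m : S)⁻¹ := congrArg Subtype.val hu
  show (a : S)⁻¹ * (m : S) * (I : S) = (I : S) * ((a : S)⁻¹ * (m : S))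
  have := congrArg (fun w => (a : S)⁻¹ * w * (m : S)) e
  simp only [mul_assoc, inv_mul_cancel_left, inv_mul_cancel, mul_one] at this
  simpa [mul_assoc] using this.symm

end Cfsg.Agent.S1905
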