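-- Proof of statement S1906 (helper24).
import Cfsg.Statements.S1906
import Mathlib
import Cfsg.Agent.Lib.TwoRank

set_option autoImplicit false
set_option linter.style.haveILetI false
open Cfsg

namespace Cfsg.Agent.S1906

variable {G : Type*} [Group G] [Finite G]

omit [Finite G] in
theorem exists_index_two {A : Type*} [CommGroup A] [Finite A] (hA : IsPGroup 2 A) (ψ : G →* A) {g : G}
    (hg : ψ g ≠ 1) : ∃ H : Subgroup G, H.index = 2 := by
  haveI : Fact (Nat.Prime 2) := ⟨Nat.prime_two⟩
  obtain ⟨n, hn⟩ := IsPGroup.iff_card.1 (hA.to_subgroup ψ.range)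
  obtain ⟨k, rfl⟩ : ∃ k, n = k + 1 := by
    refine ⟨n - 1, ?_⟩
    rcases n with _ | n
    · exact absurd ((Subgroup.card_eq_one (H := ψ.range)).1 (hn.trans (pow_zero 2))) fun h => hg (by
        have : ψ g ∈ ψ.range := ⟨g, rfl⟩
        rw [h] at this; exact Subgroup.mem_bot.1 this)
    · rfl
  obtain ⟨K, hK⟩ := Sylow.exists_subgroup_card_pow_prime (G := ↥ψ.range) 2
    (n := k) (hn ▸ pow_dvd_pow 2 (Nat.le_succ k))
  refine ⟨K.comap ψ.rangeRestrict, ?_⟩
  rw [Subgroup.index_comap_of_surjective _ ψ.rangeRestrict_surjective]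
  have h := K.card_mul_index
  rw [hn, hK, pow_succ] at h
  exact Nat.eq_of_mul_eq_mul_left (by positivity) h

/-- A central involution of a Sylow 2-subgroup centralized by its normalizer lies in the commutator
subgroup of the Sylow subgroup, unless the group has a subgroup of index two. -/
theorem mem_commutator_of_central (hG : ∀ H : Subgroup G, H.index ≠ 2) (X : Sylow 2 G)
    {z : G} (hz : z ∈ (X : Subgroup G)) (hz2 : z * z = 1) (hzc : ∀ x ∈ (X : Subgroup G), x * z = z * x)
    (hN : ∀ a : G, (∀ x ∈ (X : Subgroup G), a⁻¹ * x * a ∈ (X : Subgroup G)) → a⁻¹ * z * a = z) :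
    (⟨z, hz⟩ : ↥(X : Subgroup G)) ∈ commutator ↥(X : Subgroup G) := by
  classical
  haveI : Fact (Nat.Prime 2) := ⟨Nat.prime_two⟩
  by_contra hne
  let S := (X : Subgroup G)
  let A := Abelianization ↥S
  let φ : ↥S →* A := Abelianization.of
  have hA : IsPGroup 2 A := X.2.of_surjective φ QuotientGroup.mk_surjective
  haveI : Finite A := Finite.of_surjective φ QuotientGroup.mk_surjective
  set u := φ ⟨z, hz⟩ with hu
  have hu1 : u ≠ 1 := fun h => hne ((QuotientGroup.eq_one_iff _).1 h)
  have := Fintype.ofFinite (G ⧸ S)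
  let W : S.LeftTransversal := default
  set α := W.2.leftQuotientEquiv
  have hα : ∀ q : G ⧸ S, ((α q : G) : G ⧸ S) = q := fun q => α.symm_apply_apply q
  have hzinv : z⁻¹ = z := inv_eq_of_mul_eq_one_left hz2
  have hzz : ∀ q : G ⧸ S, z • z • q = q := fun q => by rw [← mul_smul, hz2, one_smul]
  have hmem : ∀ q : G ⧸ S, (α q : G)⁻¹ * z * (α (z • q) : G) ∈ S := by
    intro q
    have h1 : (((α (z • q) : G)) : G ⧸ S) = ((z * (α q : G) : G) : G ⧸ S) := by
      rw [hα, ← smul_eq_mul, ← MulAction.Quotient.smul_coe, hα] <;> rfl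
    have := S.inv_mem (QuotientGroup.eq.1 h1)
    have e' : ((α (z • q) : G)⁻¹ * (z * (α q : G)))⁻¹ = (α q : G)⁻¹ * z * (α (z • q) : G) := by
      simp [hzinv, mul_assoc]
    rwa [e'] at this
  let f : G ⧸ S → A := fun q => φ ⟨_, hmem q⟩
  have htr : MonoidHom.transfer φ z = ∏ q, f q := by
    rw [MonoidHom.transfer_def φ W]
    simp only [Subgroup.leftTransversals.diff]
    refine Finset.prod_congr (by ext; simp) fun q _ => congrArg φ (Subtype.ext ?_)
    show (α q : G)⁻¹ * ((z • W).2.leftQuotientEquiv q : G) = (α q : G)⁻¹ * z * (α (z • q) : G)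
    rw [Subgroup.smul_apply_eq_smul_apply_inv_smul, hzinv, smul_eq_mul, mul_assoc]
  have hpair : ∀ q, f q * f (z • q) = 1 := by
    intro q
    show φ _ * φ _ = 1
    rw [← map_mul, ← map_one φ]
    refine congrArg φ (Subtype.ext ?_)
    show (α q : G)⁻¹ * z * (α (z • q) : G) * ((α (z • q) : G)⁻¹ * z * (α (z • z • q) : G)) = 1
    rw [hzz q]
    calc _ = (α q : G)⁻¹ * (z * z) * (α q : G) := by group
      _ = 1 := by rw [hz2]; group
  set F : Finset (G ⧸ S) := Finset.univ.filter (fun q => z • q = q) with hF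
  have hrest : ∏ q ∈ Finset.univ.filter (fun q => ¬ z • q = q), f q = 1 := by
    refine Finset.prod_involution (fun q _ => z • q) (fun q _ => hpair q) (fun q hq _ => ?_)
      (fun q hq => ?_) (fun q _ => hzz q)
    · exact (Finset.mem_filter.1 hq).2
    · refine Finset.mem_filter.2 ⟨Finset.mem_univ _, ?_⟩
      rw [hzz q]
      exact fun h => (Finset.mem_filter.1 hq).2 h.symm
  have htrF : MonoidHom.transfer φ z = ∏ q ∈ F, f q := by
    have h := Finset.prod_filter_mul_prod_filter_not Finset.univ (fun q => z • q = q) f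
    rw [hrest, mul_one] at h
    rw [htr, hF, h]
  -- invariance under `S`
  have hinvF : ∀ (y : ↥S) (q : G ⧸ S), z • q = q → z • (y : G) • q = (y : G) • q := by
    intro y q hq
    rw [← mul_smul, ← hzc y y.2, mul_smul, hq]
  have hinv : ∀ (y : ↥S) (q : G ⧸ S), z • q = q → f ((y : G) • q) = f q := by
    intro y q hq
    have h1 : (((y : G) * (α q : G) : G) : G ⧸ S) = ((α ((y : G) • q) : G) : G ⧸ S) := by
      rw [hα, ← smul_eq_mul, ← MulAction.Quotient.smul_coe, hα] <;> rfl
    have hs := QuotientGroup.eq.1 h1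
    set s : ↥S := ⟨_, hs⟩ with hsdef
    have : (⟨_, hmem ((y : G) • q)⟩ : ↥S) = s⁻¹ * ⟨_, hmem q⟩ * s := by
      apply Subtype.ext
      simp only [hsdef, Subgroup.coe_mul, InvMemClass.coe_inv]
      rw [hq, hinvF y q hq]
      have hyz : (y : G)⁻¹ * z * (y : G) = z := by
        rw [mul_assoc, ← hzc y y.2, inv_mul_cancel_left]
      conv_rhs => rw [← hyz]
      group
    show φ _ = φ _
    rw [this, map_mul, map_mul, map_inv, mul_right_comm, inv_mul_cancel, one_mul]
  have hf2 : ∀ q ∈ F, f q ^ 2 = 1 := by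
    intro q hq
    have h := hpair q
    rwa [(Finset.mem_filter.1 hq).2, ← pow_two] at h
  have hfixed : ∀ q : G ⧸ S, (∀ y : ↥S, (y : G) • q = q) → z • q = q ∧ f q = u := by
    intro q hq
    refine ⟨hq ⟨z, hz⟩, congrArg φ (Subtype.ext ?_)⟩
    show (α q : G)⁻¹ * z * (α (z • q) : G) = z
    rw [show z • q = q from hq ⟨z, hz⟩]
    refine hN _ fun x hx => ?_
    have h := hq ⟨x, hx⟩
    rw [← hα q] at h
    simp only [MulAction.Quotient.smul_coe, smul_eq_mul] at h
    have h' := QuotientGroup.eq.1 h.symm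
    rwa [← mul_assoc] at h'
  -- counting
  letI : MulAction ↥S (G ⧸ S) := MulAction.compHom _ S.subtype
  have hmod : ∀ v : A, (F.filter (fun q => f q = v)).card ≡
      Nat.card {q : G ⧸ S // (∀ y : ↥S, (y : G) • q = q) ∧ f q = v} [MOD 2] := by
    intro v
    let T : SubMulAction ↥S (G ⧸ S) :=
      { carrier := {q | z • q = q ∧ f q = v}
        smul_mem' := fun y q hq => ⟨hinvF y q hq.1, (hinv y q hq.1).trans hq.2⟩ }
    have h := IsPGroup.card_modEq_card_fixedPoints (G := ↥S) X.2 ↥T
    have e1 : Nat.card ↥T = (F.filter (fun q => f q = v)).card := by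
      rw [← Nat.card_eq_finsetCard]
      exact Nat.card_congr (Equiv.subtypeEquivRight fun q => by
        simp only [hF, Finset.mem_filter, Finset.mem_univ, true_and]
        rfl)
    have e2 : Nat.card (MulAction.fixedPoints ↥S ↥T) =
        Nat.card {q : G ⧸ S // (∀ y : ↥S, (y : G) • q = q) ∧ f q = v} :=
      Nat.card_congr
        { toFun := fun q => ⟨q.1.1, fun y => congrArg Subtype.val (q.2 y), q.1.2.2⟩
          invFun := fun q => ⟨⟨q.1, (hfixed q.1 q.2.1).1, q.2.2⟩, fun y => Subtype.ext (q.2.1 y)⟩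
          left_inv := fun q => rfl
          right_inv := fun q => rfl }
    rwa [e1, e2] at h
  have hodd : Nat.card {q : G ⧸ S // (∀ y : ↥S, (y : G) • q = q) ∧ f q = u} % 2 = 1 := by
    have h := IsPGroup.card_modEq_card_fixedPoints (G := ↥S) X.2 (G ⧸ S)
    have e : Nat.card (MulAction.fixedPoints ↥S (G ⧸ S)) =
        Nat.card {q : G ⧸ S // (∀ y : ↥S, (y : G) • q = q) ∧ f q = u} :=
      Nat.card_congr (Equiv.subtypeEquivRight fun q =>
        ⟨fun hq => ⟨fun y => hq y, (hfixed q fun y => hq y).2⟩, fun hq y => hq.1 y⟩)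
    have hnd : ¬ 2 ∣ Nat.card (G ⧸ S) := X.not_dvd_index
    rw [e] at h
    have := h.symm
    rw [Nat.ModEq] at this
    omega
  have hval : ∏ q ∈ F, f q = u := by
    have hpow : ∀ v ∈ F.image f, ∏ q ∈ F.filter (fun q => f q = v), f q = if v = u then u else 1 := by
      intro v hv
      obtain ⟨q0, hq0, rfl⟩ := Finset.mem_image.1 hv
      rw [Finset.prod_congr rfl (fun q hq => (Finset.mem_filter.1 hq).2), Finset.prod_const]
      have h := hmod (f q0)
      rw [← Nat.mod_add_div (F.filter (fun q => f q = f q0)).card 2, pow_add, pow_mul,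
        hf2 q0 hq0, one_pow, mul_one, h]
      by_cases hvu : f q0 = u
      · rw [if_pos hvu, hvu, hodd, pow_one]
      · rw [if_neg hvu]
        have : IsEmpty {q : G ⧸ S // (∀ y : ↥S, (y : G) • q = q) ∧ f q = f q0} :=
          ⟨fun q => hvu (q.2.2.symm.trans (hfixed q.1 q.2.1).2)⟩
        rw [Nat.card_of_isEmpty, Nat.zero_mod, pow_zero]
    have humem : u ∈ F.image f := by
      have : Nonempty {q : G ⧸ S // (∀ y : ↥S, (y : G) • q = q) ∧ f q = u} := by
        by_contra hc
        rw [not_nonempty_iff] at hc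
        rw [Nat.card_of_isEmpty] at hodd
        omega
      obtain ⟨q⟩ := this
      exact Finset.mem_image.2 ⟨q.1, Finset.mem_filter.2 ⟨Finset.mem_univ _, (hfixed q.1 q.2.1).1⟩, q.2.2⟩
    rw [← Finset.prod_fiberwise_of_maps_to (t := F.image f) (g := f)
      (fun q hq => Finset.mem_image_of_mem f hq), Finset.prod_congr rfl hpow, Finset.prod_ite_eq', if_pos humem]
  obtain ⟨H, hH⟩ := exists_index_two hA (MonoidHom.transfer φ) (g := z) (by rw [htrF, hval]; exact hu1)
  exact hG H hH

/-- Let G be a finite group with no subgroup of index 2 whose Sylow 2-subgroup X embeds in GL₃(F) for a finite field F of odd order. If X contains an elementary abelian subgroup of order 8, then X is abelian. -/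
theorem result {G : Type*} [Group G] [Finite G] (hG : ∀ H : Subgroup G, H.index ≠ 2) (X : Sylow 2 G)
    {F : Type*} [Field F] [Fintype F] (hF : Odd (Fintype.card F))
    (f : ↥(X : Subgroup G) →* GL (Fin 3) F) (hf : Function.Injective f)
    (E : Subgroup G) (hE : E ≤ (X : Subgroup G)) (hEa : Cfsg.IsElementaryAbelian 2 E) (hE8 : Nat.card E = 8) :
    IsMulCommutative (X : Subgroup G) := by
  classical
  haveI : Fact (Nat.Prime 2) := ⟨Nat.prime_two⟩
  let S := (X : Subgroup G)
  have h2 : (2 : F) ≠ 0 := by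
    intro h
    have hd : ringChar F = 2 := CharP.ringChar_of_prime_eq_zero Nat.prime_two h
    exact (Nat.not_even_iff_odd.2 hF) (FiniteField.even_card_of_char_two hd |> Nat.even_iff.2)
  let ρ : ↥S →* Matrix (Fin 3) (Fin 3) F := (Units.coeHom _).comp f
  have hρ : Function.Injective ρ := Units.val_injective.comp hf
  have hext : ∀ (b : Module.Basis (Fin 3) F (Fin 3 → F)) (a a' : ↥S),
      (∀ i, (ρ a).mulVec (b i) = (ρ a').mulVec (b i)) → a = a' := fun b a a' h =>
    hρ (Matrix.toLin'.injective (b.ext fun i => by simpa [Matrix.toLin'_apply] using h i))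
  have hfull : ∀ (B : Subgroup ↥S), (∀ a ∈ B, ∀ a' ∈ B, a * a' = a' * a) → (∀ a ∈ B, a ^ 2 = 1) →
      8 ≤ Nat.card B → ∃ b : Module.Basis (Fin 3) F (Fin 3 → F), ∀ s : Fin 3 → Bool, ∃ a ∈ B, ∀ i,
        (ρ a).mulVec (b i) = if s i then b i else -(b i) := by
    intro B hc hsq h8
    haveI : IsMulCommutative ↥B := ⟨⟨fun a a' => Subtype.ext (hc _ a.2 _ a'.2)⟩⟩
    obtain ⟨b, hb⟩ := Cfsg.Agent.Lib.TwoRank.exists_sign_basis h2 ρ B hsq
    refine ⟨b, ?_⟩
    let sg : ↥B → (Fin 3 → Bool) := fun a i => decide ((ρ a).mulVec (b i) = b i)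
    have hval : ∀ (a : ↥B) (i : Fin 3), (ρ a).mulVec (b i) = if sg a i then b i else -(b i) := by
      intro a i
      by_cases h : (ρ a).mulVec (b i) = b i
      · simp [sg, h]
      · simp [sg, h, (hb a a.2 i).resolve_left h]
    have hinj : Function.Injective sg := fun a a' h => Subtype.ext (hext b _ _ fun i => by
      rw [hval a i, hval a' i, h])
    have hbij : Function.Bijective sg := by
      refine hinj.bijective_of_nat_card_le ?_
      simpa [Nat.card_eq_fintype_card] using h8
    intro s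
    obtain ⟨a, rfl⟩ := hbij.2 s
    exact ⟨a, a.2, hval a⟩
  -- the element mapped to minus one
  obtain ⟨hEc, hEx⟩ := hEa
  let E' : Subgroup ↥S := E.subgroupOf S
  have hE'card : Nat.card E' = 8 := by rw [← hE8]; exact Nat.card_congr (Subgroup.subgroupOfEquivOfLe hE).toEquiv
  have hE'c : ∀ a ∈ E', ∀ a' ∈ E', a * a' = a' * a := fun a ha a' ha' => by
    have h := congrArg Subtype.val (hEc.is_comm.comm (⟨(a : G), ha⟩ : ↥E) ⟨(a' : G), ha'⟩)
    exact Subtype.ext (by simpa using h)
  have hE'sq : ∀ a ∈ E', a ^ 2 = 1 := fun a ha => Subtype.ext (hEx _ ha)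
  obtain ⟨b₀, hb₀⟩ := hfull E' hE'c hE'sq hE'card.ge
  obtain ⟨z, hzE, hz⟩ := hb₀ fun _ => false
  have hzneg : ρ z = -1 := by
    apply Matrix.toLin'.injective
    refine b₀.ext fun i => ?_
    simp [Matrix.toLin'_apply, hz i]
  have hz2 : z * z = 1 := by rw [← pow_two]; exact hE'sq z hzE
  have hzc : ∀ x : ↥S, x * z = z * x := fun x => hρ (by rw [map_mul, map_mul, hzneg]; simp)
  let d : ↥S →* Fˣ := Matrix.GeneralLinearGroup.det.comp f
  have hzcomm : z ∉ commutator ↥S := by
    intro h
    have h1 : d z = 1 := Abelianization.commutator_subset_ker d h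
    have h3 : Matrix.det (ρ z) = 1 := by simpa [d, ρ] using congrArg Units.val h1
    rw [hzneg, Matrix.det_neg, Matrix.det_one, Fintype.card_fin] at h3
    apply h2
    linear_combination -h3
  by_contra hX
  -- the central involutions form a four-group
  let U : Subgroup ↥S :=
    { carrier := {x | x ∈ Subgroup.center ↥S ∧ x * x = 1}
      one_mem' := ⟨one_mem _, mul_one _⟩
      mul_mem' := fun {x y} hx hy => ⟨mul_mem hx.1 hy.1, by
        rw [mul_assoc, ← mul_assoc y, (Subgroup.mem_center_iff.1 hx.1 y), mul_assoc, hy.2, mul_one, hx.2]⟩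
      inv_mem' := fun {x} hx => ⟨inv_mem hx.1, by rw [← mul_inv_rev, hx.2, inv_one]⟩ }
  have hzU : z ∈ U := ⟨Subgroup.mem_center_iff.2 hzc, hz2⟩
  have hU8 : ¬ 8 ≤ Nat.card U := by
    intro h8
    obtain ⟨b, hb⟩ := hfull U (fun a ha a' _ => (Subgroup.mem_center_iff.1 ha.1 a').symm)
      (fun a ha => by rw [pow_two]; exact ha.2) h8
    have hdiag : ∀ x : ↥S, ∀ j, ∃ c : F, (ρ x).mulVec (b j) = c • b j := by
      intro x j
      set w := (ρ x).mulVec (b j) with hw
      refine ⟨b.repr w j, b.repr.injective (Finsupp.ext fun k => ?_)⟩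
      by_cases hk : k = j
      · subst hk; simp
      · obtain ⟨a, ha, hab⟩ := hb fun i => decide (i ≠ k)
        have hj : (ρ a).mulVec (b j) = b j := by simp [hab j, Ne.symm hk]
        have hwa : (ρ a).mulVec w = w := by
          rw [hw, Matrix.mulVec_mulVec, ← map_mul, ← Subgroup.mem_center_iff.1 ha.1 x, map_mul,
            ← Matrix.mulVec_mulVec, hj]
        have hlin : ∀ i, b.repr ((ρ a).mulVec (b i)) k = if i = k then -1 else 0 := by
          intro i
          by_cases hik : i = k
          · subst hik; simp [hab i]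
          · simp [hab i, hik, Finsupp.single_apply]
        have hcoef : b.repr ((ρ a).mulVec w) k = - b.repr w k := by
          conv_lhs => rw [← b.sum_repr w]
          rw [Matrix.mulVec_sum, map_sum, Finsupp.finsetSum_apply]
          simp only [Matrix.mulVec_smul, map_smul, Finsupp.smul_apply, hlin, smul_eq_mul, mul_ite,
            mul_neg, mul_one, mul_zero, Finset.sum_ite_eq', Finset.mem_univ, if_true]
        rw [hwa] at hcoef
        have : (2 : F) * b.repr w k = 0 := by linear_combination hcoef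
        simp [hk, (mul_eq_zero.1 this).resolve_left h2, Finsupp.single_apply, Ne.symm hk]
    exact hX ⟨⟨fun x y => hext b _ _ fun i => by
      obtain ⟨c, hc⟩ := hdiag x i
      obtain ⟨c', hc'⟩ := hdiag y i
      rw [map_mul, map_mul, ← Matrix.mulVec_mulVec, ← Matrix.mulVec_mulVec, hc, hc',
        Matrix.mulVec_smul, Matrix.mulVec_smul, hc, hc', smul_comm]⟩⟩
  -- an involution in the centre and the commutator subgroup
  have hcne : commutator ↥S ≠ ⊥ := fun h => hX ⟨⟨fun x y =>
    commutatorElement_eq_one_iff_mul_comm.1 (Subgroup.mem_bot.1 (h ▸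
      (commutator_def (↥S) ▸ Subgroup.commutator_mem_commutator (Subgroup.mem_top x) (Subgroup.mem_top y))))⟩⟩
  obtain ⟨v, hvc, hvZ, hv1⟩ : ∃ v ∈ commutator ↥S, v ∈ Subgroup.center ↥S ∧ v ≠ 1 := by
    let N := commutator ↥S
    letI : MulAction ↥S ↥N := MulAction.compHom _ (MulAut.conjNormal : ↥S →* MulAut ↥N)
    have hd : 2 ∣ Nat.card ↥N := by
      obtain ⟨n, hn⟩ := IsPGroup.iff_card.1 (X.2.to_subgroup N)
      rcases n with _ | n
      · exact absurd ((Subgroup.card_eq_one (H := N)).1 (hn.trans (pow_zero 2))) hcne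
      · exact hn ▸ dvd_pow_self 2 (Nat.succ_ne_zero n)
    have hmem : (1 : ↥N) ∈ MulAction.fixedPoints ↥S ↥N := fun g => map_one (MulAut.conjNormal g)
    obtain ⟨v, hv, hvne⟩ := X.2.exists_fixed_point_of_prime_dvd_card_of_fixed_point _ hd hmem
    refine ⟨v, v.2, Subgroup.mem_center_iff.2 fun g => ?_, fun h => hvne (Subtype.ext h.symm)⟩
    have h : g * (v : ↥S) * g⁻¹ = v := (MulAut.conjNormal_apply g v).symm.trans (congrArg Subtype.val (hv g))
    exact mul_inv_eq_iff_eq_mul.1 h
  have hd2 : 2 ∣ orderOf v := X.2.dvd_orderOf hv1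
  set w := v ^ (orderOf v / 2) with hw
  have hwc : w ∈ commutator ↥S := pow_mem hvc _
  have hw1 : w ≠ 1 := pow_ne_one_of_lt_orderOf (by have := orderOf_pos v; omega) (by have := orderOf_pos v; omega)
  have hwU : w ∈ U := ⟨pow_mem hvZ _, by rw [hw, ← pow_add, show orderOf v / 2 + orderOf v / 2 = orderOf v by omega, pow_orderOf_eq_one]⟩
  have hzw : z ≠ w := fun h => hzcomm (h ▸ hwc)
  have hz1 : z ≠ 1 := fun h => hzcomm (h ▸ one_mem _)
  have hU4 : ∀ x ∈ U, x = 1 ∨ x = z ∨ x = w ∨ x = z * w := by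
    obtain ⟨n, hn⟩ := IsPGroup.iff_card.1 (X.2.to_subgroup U)
    have hn4 : Nat.card U ≤ 4 := by
      have h2 : n ≤ 2 := by
        by_contra h
        exact hU8 (hn ▸ le_trans (by norm_num) (Nat.pow_le_pow_right (show 0 < 2 by norm_num) (show 3 ≤ n by omega)))
      rw [hn]
      exact le_trans (Nat.pow_le_pow_right (show 0 < 2 by norm_num) h2) (by norm_num)
    intro x hx
    by_contra hne
    push Not at hne
    obtain ⟨hx1, hxz, hxw, hxzw⟩ := hne
    have hsub : (↑({1, z, w, z * w, x} : Finset ↥S) : Set ↥S) ⊆ (U : Set ↥S) := by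
      intro a ha
      simp only [Finset.coe_insert, Finset.coe_singleton, Set.mem_insert_iff, Set.mem_singleton_iff] at ha
      rcases ha with rfl | rfl | rfl | rfl | rfl
      exacts [U.one_mem, hzU, hwU, U.mul_mem hzU hwU, hx]
    have hc := Set.ncard_le_ncard hsub (Set.toFinite _)
    have h5 : ({1, z, w, z * w, x} : Finset ↥S).card = 5 := by
      rw [Finset.card_insert_of_notMem, Finset.card_insert_of_notMem, Finset.card_insert_of_notMem,
        Finset.card_insert_of_notMem, Finset.card_singleton]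
      · simpa using Ne.symm hxzw
      · simp only [Finset.mem_insert, Finset.mem_singleton, not_or]
        exact ⟨fun h => hz1 (mul_eq_right.1 h.symm), Ne.symm hxw⟩
      · simp only [Finset.mem_insert, Finset.mem_singleton, not_or]
        exact ⟨hzw, fun h => hw1 (mul_eq_left.1 h.symm), Ne.symm hxz⟩
      · simp only [Finset.mem_insert, Finset.mem_singleton, not_or]
        refine ⟨Ne.symm hz1, Ne.symm hw1, fun h => hzw ?_, Ne.symm hx1⟩
        calc z = z * (z * w) := by rw [← h, mul_one]
          _ = w := by rw [← mul_assoc, hz2, one_mul]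
    rw [Set.ncard_coe_finset, h5, ← Nat.card_coe_set_eq] at hc
    exact absurd (hc.trans hn4) (by norm_num)
  refine hzcomm (mem_commutator_of_central hG X z.2 (congrArg Subtype.val hz2)
    (fun x hx => congrArg Subtype.val (hzc ⟨x, hx⟩)) fun a ha => ?_)
  -- the normalizer fixes `z`
  have hmapeq : S.map (MulAut.conj a⁻¹).toMonoidHom = S := by
    refine Subgroup.eq_of_le_of_card_ge ?_ ?_
    · rintro _ ⟨x, hx, rfl⟩
      simpa using ha x hx
    · rw [Subgroup.card_map_of_injective (MulAut.conj a⁻¹).injective]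
  have haN : a⁻¹ ∈ Subgroup.normalizer (S : Set G) := by
    rw [Subgroup.mem_normalizer_iff]
    intro h
    constructor
    · intro hh
      have := hmapeq ▸ Subgroup.mem_map_of_mem (MulAut.conj a⁻¹).toMonoidHom hh
      simpa using this
    · intro hh
      rw [← hmapeq] at hh
      obtain ⟨x, hx, hxe⟩ := hh
      simp only [MulEquiv.coe_toMonoidHom, MulAut.conj_apply] at hxe
      rwa [mul_left_cancel (mul_right_cancel hxe)] at hx
  let N := Subgroup.normalizer (S : Set G)
  let b : ↥N := ⟨a⁻¹, haN⟩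
  have hcj : ∀ c : ↥N, ∀ x ∈ S, (c : G) * x * (c : G)⁻¹ ∈ S := fun c x hx =>
    ((Subgroup.mem_normalizer_iff.1 c.2) x).1 hx
  -- the automorphisms of `S` induced by the normalizer
  let σ : ↥N → ↥S → ↥S := fun c x => ⟨(c : G) * x * (c : G)⁻¹, hcj c x x.2⟩
  have hσmul : ∀ c x y, σ c (x * y) = σ c x * σ c y := fun c x y => Subtype.ext (by simp [σ])
  have hσcomp : ∀ c c' x, σ (c * c') x = σ c (σ c' x) := fun c c' x => Subtype.ext (by simp [σ, mul_assoc])
  let θ : ↥N → (↥S →* ↥S) := fun c => MonoidHom.mk' (σ c) (hσmul c)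
  have hσsurj : ∀ c, Function.Surjective (σ c) := fun c y => ⟨σ c⁻¹ y, by
    rw [← hσcomp, mul_inv_cancel]; exact Subtype.ext (by simp [σ])⟩
  have hσinj : ∀ c, Function.Injective (σ c) := fun c x y h => Subtype.ext (by simpa [σ] using h)
  have hσU : ∀ c x, x ∈ U → σ c x ∈ U := by
    intro c x hx
    refine ⟨Subgroup.mem_center_iff.2 fun y => ?_, by rw [← hσmul, hx.2]; exact map_one (θ c)⟩
    obtain ⟨y, rfl⟩ := hσsurj c y
    rw [← hσmul, ← hσmul, Subgroup.mem_center_iff.1 hx.1 y]
  have hσcm : ∀ c x, x ∈ commutator ↥S → σ c x ∈ commutator ↥S := by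
    intro c x hx
    have : (commutator ↥S).map (θ c) ≤ commutator ↥S := by
      rw [commutator_def, Subgroup.map_commutator]
      exact Subgroup.commutator_mono le_top le_top
    exact this (Subgroup.mem_map_of_mem (θ c) hx)
  have hσz : ∀ c, σ c z = z ∨ σ c z = z * w := by
    intro c
    rcases hU4 _ (hσU c z hzU) with h | h | h | h
    · exact absurd (hσinj c (h.trans (map_one (θ c)).symm)) hz1
    · exact Or.inl h
    · exfalso
      rcases hU4 _ (hσU c w hwU) with h' | h' | h' | h'
      · exact hw1 (hσinj c (h'.trans (map_one (θ c)).symm))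
      · exact hzcomm (h' ▸ hσcm c w hwc)
      · exact hzw (hσinj c (h.trans h'.symm))
      · exact hzcomm ((mul_mem_cancel_right hwc).1 (h' ▸ hσcm c w hwc))
    · exact Or.inr h
  have hσw : ∀ c, σ c w = w := by
    intro c
    rcases hU4 _ (hσU c w hwU) with h' | h' | h' | h'
    · exact absurd (hσinj c (h'.trans (map_one (θ c)).symm)) hw1
    · exact absurd (h' ▸ hσcm c w hwc) hzcomm
    · exact h'
    · exact absurd ((mul_mem_cancel_right hwc).1 (h' ▸ hσcm c w hwc)) hzcomm
  have hsq : ∀ c, σ (c * c) z = z := by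
    intro c
    rw [hσcomp]
    rcases hσz c with h | h
    · rw [h, h]
    · rw [h, hσmul, h, hσw, mul_assoc, hwU.2, mul_one]
  haveI : (S.subgroupOf N).Normal := Subgroup.normal_in_normalizer
  have hm : ¬ 2 ∣ (S.subgroupOf N).index := fun h => X.not_dvd_index
    (h.trans (Subgroup.relIndex_dvd_index_of_le Subgroup.le_normalizer))
  obtain ⟨k, hk⟩ := Nat.odd_iff.2 (Nat.two_dvd_ne_zero.1 hm)
  have hpm := Subgroup.pow_index_mem (S.subgroupOf N) b
  have h1 : σ (b ^ (S.subgroupOf N).index) z = z := by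
    refine Subtype.ext ?_
    have := congrArg Subtype.val (hzc ⟨_, Subgroup.mem_subgroupOf.1 hpm⟩)
    simp only [Subgroup.coe_mul] at this
    simp only [σ]
    rw [this, mul_inv_cancel_right]
  have heven : ∀ j, σ ((b * b) ^ j) z = z := by
    intro j
    induction j with
    | zero => exact Subtype.ext (by simp [σ])
    | succ j ih => rw [pow_succ, hσcomp, hsq, ih]
  rw [hk, pow_succ', pow_mul, pow_two, hσcomp, heven] at h1
  have := congrArg Subtype.val h1
  simpa [σ, b] using this

end Cfsg.Agent.S1906
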