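import Cfsg.Statements.S1907
import Cfsg.Agent.Lib.LocalFusion.PPrimeP

set_option autoImplicit false
open Cfsg

namespace Cfsg.Agent.S1907

open Subgroup


/-- Let P be a Sylow p-subgroup of a finite group G, H = P ∩ O_{p',p}(G), N = N_G(H) and D = O_{p'}(G). (a) If y is an element of p-power order of N and d ∈ D with d⁻¹ y d ∈ N, then d = d₁ d₂ with d₁ ∈ C_D(y) and d₂ ∈ C_D(H). (b) Two elements of P that are conjugate in G are conjugate in N. -/
theorem result {G : Type*} [Group G] [Finite G] {p : ℕ} [Fact p.Prime] (P : Sylow p G) :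
    (∀ y ∈ Subgroup.normalizer (((P : Subgroup G) ⊓ Cfsg.pPrimePCore p G : Subgroup G) : Set G), (∃ k : ℕ, orderOf y = p ^ k) →
      ∀ d ∈ Cfsg.pPrimeCore p G, d⁻¹ * y * d ∈ Subgroup.normalizer (((P : Subgroup G) ⊓ Cfsg.pPrimePCore p G : Subgroup G) : Set G) →
        ∃ d₁ ∈ Cfsg.pPrimeCore p G ⊓ Subgroup.centralizer ({y} : Set G),
          ∃ d₂ ∈ Cfsg.pPrimeCore p G ⊓ Subgroup.centralizer (((P : Subgroup G) ⊓ Cfsg.pPrimePCore p G : Subgroup G) : Set G), d = d₁ * d₂) ∧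
    ∀ x y : G, x ∈ (P : Subgroup G) → y ∈ (P : Subgroup G) → IsConj x y →
      ∃ n ∈ Subgroup.normalizer (((P : Subgroup G) ⊓ Cfsg.pPrimePCore p G : Subgroup G) : Set G), n * x * n⁻¹ = y := by
  haveI := Cfsg.pPrimeCore_normal p G
  set H : Subgroup G := (P : Subgroup G) ⊓ Cfsg.pPrimePCore p G with hH
  set O := Cfsg.pPrimeCore p G with hO
  have hON : O ⊓ normalizer (H : Set G) ≤ centralizer (H : Set G) :=
    Lib.LocalFusion.core_inf_normalizer_le_centralizer P
  have ha : ∀ y ∈ normalizer (H : Set G), (∃ k : ℕ, orderOf y = p ^ k) →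
      ∀ d ∈ O, d⁻¹ * y * d ∈ normalizer (H : Set G) →
        ∃ d₁ ∈ O ⊓ centralizer ({y} : Set G), ∃ d₂ ∈ O ⊓ centralizer (H : Set G), d = d₁ * d₂ := by
    rintro y hy ⟨k, hk⟩ d hd hyd
    set E : Subgroup G := O ⊓ normalizer (H : Set G) with hE
    have hAE : zpowers y ≤ normalizer (E : Set G) := by
      refine (le_inf le_normalizer_of_normal ?_).trans inf_normalizer_le_normalizer_inf
      exact (zpowers_le.2 hy).trans le_normalizer
    have hcop : (Nat.card (zpowers y)).Coprime (Nat.card E) := by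
      rw [Nat.card_zpowers, hk]
      exact (((Lib.Components.pPrimeCore_coprime p).coprime_dvd_left (card_dvd_of_le inf_le_left)).pow_right k).symm
    haveI : IsMulCommutative ↥(zpowers y) := inferInstance
    have hsolv : Group.IsSolvable ↥(zpowers y) :=
      Group.isSolvable_of_comm fun a b => (IsMulCommutative.is_comm.comm a b)
    obtain ⟨c, hc, hdc⟩ := Lib.Coprime.exists_centralizer_mem_coset hAE hcop (Or.inl hsolv) (k := d) (by
      rintro _ ⟨i, rfl⟩
      refine mem_inf.2 ⟨Subgroup.mul_mem _ (Subgroup.inv_mem _ hd) ((inferInstance : O.Normal).conj_mem d hd _), ?_⟩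
      have h1 : (d⁻¹ * y * d) ^ i ∈ normalizer (H : Set G) := zpow_mem hyd i
      have h2 : (d⁻¹ * y * d) ^ i = d⁻¹ * y ^ i * d := by
        have := conj_zpow (i := i) (a := d⁻¹) (b := y)
        rwa [inv_inv] at this
      rw [h2] at h1
      have := mul_mem h1 (inv_mem (zpow_mem hy i))
      simpa [mul_assoc] using this)
    refine ⟨c, ⟨?_, mem_centralizer_singleton_iff.2 (mem_centralizer_iff.1 hc y (mem_zpowers y)).symm⟩,
      c⁻¹ * d, ?_, by simp⟩
    · have := mul_mem hd hdc.1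
      simpa using this
    · have h := inv_mem hdc
      rw [mul_inv_rev, inv_inv] at h
      exact ⟨h.1, hON h⟩
  refine ⟨ha, fun x y hx hy hxy => ?_⟩
  obtain ⟨g, hg⟩ := isConj_iff.1 hxy
  obtain ⟨d, hd, n, hn, rfl⟩ := Lib.LocalFusion.exists_core_mul_normalizer P g
  have hPN : (P : Subgroup G) ≤ normalizer (H : Set G) := by
    haveI : (Cfsg.pPrimePCore p G).Normal := by
      haveI := Cfsg.pCore_normal p (G ⧸ Cfsg.pPrimeCore p G)
      exact Normal.comap inferInstance _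
    exact (le_inf le_normalizer le_normalizer_of_normal).trans inf_normalizer_le_normalizer_inf
  have hyord : ∃ k : ℕ, orderOf y = p ^ k := by
    obtain ⟨k, hk⟩ := IsPGroup.iff_orderOf.1 P.isPGroup' ⟨y, hy⟩
    exact ⟨k, by rw [← hk]; exact (orderOf_mk y hy).symm⟩
  have hyd : d⁻¹ * y * d = n * x * n⁻¹ := by rw [← hg]; simp [mul_assoc]
  obtain ⟨d₁, hd₁, d₂, hd₂, rfl⟩ := ha y (hPN hy) hyord d hd
    (hyd ▸ mul_mem (mul_mem hn (hPN hx)) (inv_mem hn))
  refine ⟨d₂ * n, mul_mem (centralizer_le_normalizer _ hd₂.2) hn, ?_⟩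
  have h1 : d₁⁻¹ * y * d₁ = y := by
    rw [mul_assoc, ← mem_centralizer_singleton_iff.1 hd₁.2, inv_mul_cancel_left]
  calc d₂ * n * x * (d₂ * n)⁻¹ = d₂ * ((d₁ * d₂)⁻¹ * y * (d₁ * d₂)) * d₂⁻¹ := by rw [hyd]; simp [mul_assoc]
    _ = d₁⁻¹ * y * d₁ := by simp [mul_assoc]
    _ = y := h1

end Cfsg.Agent.S1907
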