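import Cfsg.Statements.S1924
import Cfsg.Agent.Lib.Transfer.Basic
import Mathlib.GroupTheory.Perm.Cycle.Type

set_option autoImplicit false
open Cfsg

namespace Cfsg.Agent.S1924

section

variable {G : Type*} [Group G] [Finite G]

attribute [local instance] _root_.Classical.propDecidable in
/-- The sign of a permutation all of whose non-trivial cycles have the same even length. -/
theorem sign_semiregular {X : Type*} {_ : Fintype X} {_ : DecidableEq X} (σ : Equiv.Perm X) {N : ℕ} (hN : Even N)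
    (h : ∀ j : ℕ, ∀ x, σ x ≠ x → ((σ ^ j) x = x ↔ N ∣ j)) :
    Equiv.Perm.sign σ = (-1) ^ (Nat.card {x // σ x ≠ x} / N) := by
  have hc : ∀ l ∈ σ.cycleType, l = N := by
    intro l hl
    rw [Equiv.Perm.cycleType_def, Multiset.mem_map] at hl
    obtain ⟨c, hc, rfl⟩ := hl
    obtain ⟨hcyc, hcs⟩ := Equiv.Perm.mem_cycleFactorsFinset_iff.1 hc
    obtain ⟨x, hx⟩ : c.support.Nonempty := Finset.nonempty_iff_ne_empty.2 fun e =>
      hcyc.ne_one (Equiv.Perm.support_eq_empty_iff.1 e)
    have hpow : ∀ (j : ℕ), (c ^ j) x = (σ ^ j) x := by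
      intro j
      induction j with
      | zero => simp
      | succ j ih =>
        rw [pow_succ', pow_succ', Equiv.Perm.mul_apply, Equiv.Perm.mul_apply, ← ih]
        exact hcs _ (Equiv.Perm.pow_apply_mem_support.2 hx)
    have hσx : σ x ≠ x := fun e => (Equiv.Perm.mem_support.1 hx) (by rw [hcs x hx, e])
    show c.support.card = N
    rw [← hcyc.orderOf]
    refine Nat.dvd_antisymm (orderOf_dvd_of_pow_eq_one ((hcyc.pow_eq_one_iff' (Equiv.Perm.mem_support.1 hx)).2 ?_)) ?_
    · rw [hpow, h _ _ hσx]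
    · rw [← h _ _ hσx, ← hpow, pow_orderOf_eq_one, Equiv.Perm.one_apply]
  rw [Equiv.Perm.sign_of_cycleType, Multiset.eq_replicate_card.2 hc]
  have hs : σ.cycleType.card * N = Nat.card {x // σ x ≠ x} := by
    have := σ.sum_cycleType
    rw [Multiset.eq_replicate_card.2 hc, Multiset.sum_replicate, smul_eq_mul] at this
    rw [this, Nat.card_eq_fintype_card, Fintype.card_subtype]
    congr 1
  rw [Multiset.sum_replicate, Multiset.card_replicate, smul_eq_mul, pow_add,
    (hN.mul_left _).neg_one_pow, one_mul]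
  rcases Nat.eq_zero_or_pos N with rfl | hN0
  · have h0 : σ.cycleType.card = 0 := Multiset.card_eq_zero.2 (Multiset.eq_zero_of_forall_notMem fun l hl => by
      have h1 := Equiv.Perm.two_le_of_mem_cycleType hl
      rw [hc l hl] at h1
      omega)
    rw [h0, Nat.div_zero]
  · rw [← hs, Nat.mul_div_cancel _ hN0]

/-- The sign of a semiregular element of two-power order on cosets. -/
lemma sign_cosets {N : Type*} [Group N] [Finite N] (M : Subgroup N) [Fintype (N ⧸ M)]
    [DecidableEq (N ⧸ M)] (c : N) (k : ℕ) (hk : orderOf c = 2 ^ (k + 1))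
    (hfix : ∀ g : N, g * c ^ 2 ^ k * g⁻¹ ∉ M) {m : ℕ} (hm : M.index = 2 ^ (k + 1) * m) (hmo : Odd m) :
    Equiv.Perm.sign (MulAction.toPermHom N (N ⧸ M) c) = -1 := by
  have hfree : ∀ (j : ℕ) (x : N ⧸ M), c ^ j • x = x → 2 ^ (k + 1) ∣ j := by
    intro j x hx
    by_contra hj
    induction x using QuotientGroup.induction_on with
    | H g =>
      rw [MulAction.Quotient.smul_mk, QuotientGroup.eq] at hx
      obtain ⟨i, hi, hg⟩ := (Nat.dvd_prime_pow Nat.prime_two).1 (Nat.gcd_dvd_right j (2 ^ (k + 1)))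
      have hik : i ≤ k := by
        by_contra h
        have : i = k + 1 := by omega
        exact hj (this ▸ hg ▸ Nat.gcd_dvd_left j (2 ^ (k + 1)))
      have h2 : g⁻¹ * c ^ j * g ∈ M := by
        rw [show g⁻¹ * c ^ j * g = (((c ^ j • g : N))⁻¹ * g)⁻¹ by rw [smul_eq_mul]; group]
        exact inv_mem hx
      have h3 : ∀ l : ℤ, g⁻¹ * (c ^ j) ^ l * g ∈ M := fun l => by
        have := zpow_mem h2 l
        rwa [show (g⁻¹ * c ^ j * g) ^ l = g⁻¹ * (c ^ j) ^ l * g by
          simpa using (map_zpow (MulAut.conj g⁻¹) (c ^ j) l).symm] at this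
      have hb := Nat.gcd_eq_gcd_ab j (2 ^ (k + 1))
      have h4 : c ^ 2 ^ i = (c ^ j) ^ Nat.gcdA j (2 ^ (k + 1)) := by
        rw [← hg, ← zpow_natCast c (Nat.gcd _ _), hb, zpow_add, zpow_mul, zpow_natCast, zpow_mul,
          zpow_natCast, ← hk, pow_orderOf_eq_one, one_zpow, mul_one]
      have h5 : g⁻¹ * c ^ 2 ^ i * g ∈ M := by rw [h4]; exact h3 _
      refine hfix g⁻¹ ?_
      rw [inv_inv]
      have h6 := pow_mem h5 (2 ^ (k - i))
      rwa [show (g⁻¹ * c ^ 2 ^ i * g) ^ 2 ^ (k - i) = g⁻¹ * (c ^ 2 ^ i) ^ 2 ^ (k - i) * g by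
        simpa using (map_pow (MulAut.conj g⁻¹) (c ^ 2 ^ i) (2 ^ (k - i))).symm, ← pow_mul, ← pow_add,
        Nat.add_sub_cancel' hik] at h6
  have hmov : ∀ x : N ⧸ M, MulAction.toPermHom N (N ⧸ M) c x ≠ x := by
    intro x h
    have h1 := hfree 1 x (by rw [pow_one]; exact h)
    have : 2 ≤ 2 ^ (k + 1) := Nat.le_self_pow (by omega) 2
    have := Nat.le_of_dvd one_pos h1
    omega
  rw [sign_semiregular (N := 2 ^ (k + 1)) _ ((Nat.even_pow).2 ⟨even_two, by omega⟩) ?_]
  · rw [Nat.card_congr (Equiv.subtypeUnivEquiv hmov), ← Subgroup.index_eq_card, hm,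
      Nat.mul_div_cancel_left _ (by positivity), hmo.neg_one_pow]
  · intro j x _
    rw [← map_pow]
    refine ⟨fun h => hfree j x h, fun h => ?_⟩
    show c ^ j • x = x
    rw [orderOf_dvd_iff_pow_eq_one.1 (hk ▸ h), one_smul]

lemma odd_sign {N : Type*} [Group N] (φ : N →* ℤˣ) {g : N} (hg : Nat.Coprime (orderOf g) 2) :
    φ g = 1 := by
  rcases Int.units_eq_one_or (φ g) with h | h
  · exact h
  · exfalso
    have h1 : φ g ^ orderOf g = 1 := by rw [← map_pow, pow_orderOf_eq_one, map_one]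
    rw [h, (Nat.coprime_two_right.1 hg).neg_one_pow] at h1
    exact absurd h1 (by decide)

/-- Iterated cyclic transfer. -/
lemma chain (T : Subgroup G) (hT : T ≤ Cfsg.pResidual 2 G) (m : ℕ) (hm : Odd m) :
    ∀ (k : ℕ) (N : Subgroup G), Cfsg.pResidual 2 G ≤ N → ∀ c ∈ N, orderOf c = 2 ^ k →
      T.relIndex N = 2 ^ k * m → (∀ (j : ℕ) (g : G), j + 1 = k → g * c ^ 2 ^ j * g⁻¹ ∉ T) →
      ¬ 2 ∣ T.relIndex (Cfsg.pResidual 2 G) := by
  intro k
  induction k with
  | zero =>
    intro N hRN c _ _ hi _ h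
    have : 2 ∣ T.relIndex N := h.trans (Subgroup.relIndex_mul_relIndex T _ N hT hRN ▸ dvd_mul_right _ _)
    rw [hi, pow_zero, one_mul] at this
    exact Nat.not_even_iff_odd.2 hm (even_iff_two_dvd.2 this)
  | succ k ih =>
    intro N hRN c hcN hck hi hfix
    classical
    haveI := Fintype.ofFinite (N ⧸ T.subgroupOf N)
    let φ : N →* ℤˣ := Equiv.Perm.sign.comp (MulAction.toPermHom N (N ⧸ T.subgroupOf N))
    have hc : φ ⟨c, hcN⟩ = -1 := by
      refine sign_cosets (T.subgroupOf N) ⟨c, hcN⟩ k ?_ (fun g h => hfix k g rfl ?_) hi hm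
      · rw [← hck, Subgroup.orderOf_mk]
      · simpa [Subgroup.mem_subgroupOf] using h
    have hR : Cfsg.pResidual 2 G ≤ φ.ker.map N.subtype := by
      refine (Subgroup.closure_le _).2 fun g hg => ?_
      have hgN : g ∈ N := hRN (Lib.Transfer.mem_pResidual hg)
      exact ⟨⟨g, hgN⟩, odd_sign φ (by rwa [Subgroup.orderOf_mk]), rfl⟩
    have hker : φ.ker.index = 2 := by
      rw [Subgroup.index_ker]
      have : φ.range = ⊤ := top_unique fun u _ => by
        rcases Int.units_eq_one_or u with rfl | rfl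
        · exact one_mem _
        · exact ⟨_, hc⟩
      rw [this, Subgroup.card_top, Nat.card_eq_fintype_card]
      rfl
    have hrel : (φ.ker.map N.subtype).relIndex N = 2 := by
      rw [Subgroup.relIndex, Subgroup.subgroupOf, Subgroup.comap_map_eq_self_of_injective N.subtype_injective, hker]
    refine ih (φ.ker.map N.subtype) hR (c ^ 2) ⟨⟨c, hcN⟩ ^ 2, ?_, rfl⟩ ?_ ?_ fun j g hj h => ?_
    · show φ (⟨c, hcN⟩ ^ 2) = 1
      rw [map_pow, hc]; rfl
    · rw [orderOf_pow' c two_ne_zero, hck, Nat.gcd_eq_right (dvd_pow_self 2 k.succ_ne_zero),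
        pow_succ, Nat.mul_div_cancel _ two_pos]
    · have h1 := Subgroup.relIndex_mul_relIndex T _ N (hT.trans hR) (Subgroup.map_subtype_le _)
      rw [hrel, hi, pow_succ] at h1
      linarith
    · refine hfix k g rfl ?_
      rwa [← pow_mul, ← pow_succ', hj] at h

lemma outside_sq {n : ℕ} (hn : 2 ≤ n) (C : Subgroup (DihedralGroup n)) [hC : IsCyclic C]
    (hi : C.index = 2) (x : DihedralGroup n) (hx : x ∉ C) : x ^ 2 = 1 := by
  haveI : NeZero n := ⟨by omega⟩
  rcases x with j | j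
  swap
  · rw [pow_two]; simp
  obtain ⟨c, hc⟩ := hC.exists_generator
  have hcard : Nat.card C = n := by
    have := C.card_mul_index
    rw [hi, DihedralGroup.nat_card] at this
    omega
  have hord : orderOf (c : DihedralGroup n) = n := by
    rw [Subgroup.orderOf_coe, orderOf_eq_card_of_forall_mem_zpowers hc, hcard]
  rcases hcv : (c : DihedralGroup n) with i | i
  · exfalso
    rw [hcv] at hord
    refine hx ?_
    have htop : AddSubgroup.zmultiples i = ⊤ := by
      apply AddSubgroup.eq_top_of_card_eq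
      rw [Nat.card_zmultiples, Nat.card_zmod]
      have h1 : addOrderOf i = n := by
        rw [DihedralGroup.orderOf_r, ] at hord
        rw [← ZMod.natCast_zmod_val i, ZMod.addOrderOf_coe _ (by omega)]
        exact hord
      exact h1
    obtain ⟨l, hl⟩ := AddSubgroup.mem_zmultiples_iff.1 (htop ▸ AddSubgroup.mem_top j : j ∈ AddSubgroup.zmultiples i)
    have : (c : DihedralGroup n) ^ l = DihedralGroup.r j := by
      rw [hcv, DihedralGroup.r_zpow, ← hl, zsmul_eq_mul, mul_comm]
    exact this ▸ zpow_mem c.2 l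
  · rw [hcv, DihedralGroup.orderOf_sr] at hord
    subst hord
    rw [pow_two, DihedralGroup.r_mul_r, DihedralGroup.one_def]
    congr 1
    rw [← two_mul, show (2 : ZMod 2) = 0 from rfl, zero_mul]

theorem main (L T S D C : Subgroup G) (hL : Cfsg.pResidual 2 ↥L = ⊤) (hTL : T ≤ L)
    (hT2 : IsPGroup 2 T) (hTsyl : ¬ 2 ∣ T.relIndex L) (hS2 : IsPGroup 2 S) (hSsyl : ¬ 2 ∣ S.index)
    (hTS : T ≤ S) (hDS : D ≤ S) (hDih : ∃ n : ℕ, 2 ≤ n ∧ Nonempty (↥D ≃* DihedralGroup n))
    (hDT : D ⊓ T = ⊥) (hTD : T ⊔ D = S) (hTDc : Nat.card T * Nat.card D = Nat.card S)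
    (hCD : C ≤ D) (hC : IsCyclic ↥C) (hCi : C.relIndex D = 2)
    (h1 : ∀ x ∈ D, x ∉ C → orderOf x = 2 → ∀ g : G, g * x * g⁻¹ ∈ T ⊔ C → False)
    (h2 : ∀ c ∈ C, orderOf c = 2 → ∀ g : G, g * c * g⁻¹ ∈ T → False) :
    ∃ K : Subgroup G, K.Normal ∧ K ⊔ D = ⊤ ∧
      ∀ T' : Subgroup G, T' ≤ L → IsPGroup 2 T' → ¬ 2 ∣ T'.relIndex L →
        T' ≤ K ∧ ¬ 2 ∣ T'.relIndex K := by
  classical
  haveI : Fact (Nat.Prime 2) := ⟨Nat.prime_two⟩
  have hLR : L ≤ Cfsg.pResidual 2 G := by
    have := Lib.Transfer.map_pResidual_subtype_le (p := 2) L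
    rwa [hL, ← MonoidHom.range_eq_map, Subgroup.range_subtype] at this
  have hTR := hTL.trans hLR
  haveI : (Cfsg.pResidual 2 G).Characteristic := Lib.Transfer.pResidual_characteristic
  -- the first step
  have hinv : ∀ x ∈ D, x ∉ C → orderOf x = 2 := by
    obtain ⟨n, hn, ⟨e⟩⟩ := hDih
    intro x hxD hxC
    haveI : IsCyclic ((C.subgroupOf D).map e.toMonoidHom) := by
      haveI : IsCyclic (C.subgroupOf D) :=
        isCyclic_of_surjective (Subgroup.subgroupOfEquivOfLe hCD).symm.toMonoidHom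
          (Subgroup.subgroupOfEquivOfLe hCD).symm.surjective
      exact isCyclic_of_surjective ((C.subgroupOf D).equivMapOfInjective e.toMonoidHom e.injective).toMonoidHom
        (MulEquiv.surjective _)
    have h := outside_sq hn ((C.subgroupOf D).map e.toMonoidHom)
      (by rw [← hCi]; exact Subgroup.index_map_equiv _ e) (e ⟨x, hxD⟩) (by
        rintro ⟨y, hy, hyx⟩
        rw [e.injective hyx] at hy
        exact hxC hy)
    rw [← map_pow] at h
    refine orderOf_eq_prime ?_ fun h0 => hxC (h0 ▸ one_mem C)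
    exact congrArg Subtype.val ((map_eq_one_iff e e.injective).1 h)
  obtain ⟨x, hxD, hxC⟩ : ∃ x ∈ D, x ∉ C := SetLike.exists_of_lt (lt_of_le_of_ne hCD fun h => by
    rw [h, Subgroup.relIndex_self] at hCi; omega)
  let M := T ⊔ C
  have hMS : M ≤ S := sup_le hTS (hCD.trans hDS)
  have hMne : M ≠ S := fun h => h1 x hxD hxC (hinv x hxD hxC) 1 (by
    rw [one_mul, inv_one, mul_one]; show x ∈ M; rw [h]; exact hDS hxD)
  have hDC : Nat.card D = 2 * Nat.card C := by
    have := (C.subgroupOf D).card_mul_index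
    rw [Nat.card_congr (Subgroup.subgroupOfEquivOfLe hCD).toEquiv] at this
    rw [← this, show (C.subgroupOf D).index = 2 from hCi, mul_comm]
  have hTCle : Nat.card T * Nat.card C ≤ Nat.card M := by
    rw [← Nat.card_prod]
    refine Nat.card_le_card_of_injective (fun p : T × C => (⟨p.1.1 * p.2.1,
      mul_mem (le_sup_left (a := T) p.1.2) (le_sup_right (b := C) p.2.2)⟩ : M)) ?_
    intro p q h
    have h' : p.1.1 * p.2.1 = q.1.1 * q.2.1 := congrArg Subtype.val h
    have h'' : q.1.1⁻¹ * p.1.1 = q.2.1 * p.2.1⁻¹ := by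
      rw [inv_mul_eq_iff_eq_mul, ← mul_assoc, ← h', mul_inv_cancel_right]
    have hb : q.1.1⁻¹ * p.1.1 ∈ D ⊓ T :=
      ⟨by rw [h'']; exact hCD (mul_mem q.2.2 (inv_mem p.2.2)), T.mul_mem (T.inv_mem q.1.2) p.1.2⟩
    rw [hDT, Subgroup.mem_bot, inv_mul_eq_one] at hb
    refine Prod.ext (Subtype.ext hb.symm) (Subtype.ext ?_)
    rw [hb] at h'
    exact mul_left_cancel h'
  have hM : Nat.card M = Nat.card T * Nat.card C := by
    obtain ⟨q, hq⟩ := Subgroup.card_dvd_of_le hMS
    have hlt : Nat.card M < Nat.card S := lt_of_le_of_ne (Subgroup.card_le_of_le hMS)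
      fun h => hMne (Subgroup.eq_of_le_of_card_ge hMS h.ge)
    have hS : Nat.card S = 2 * (Nat.card T * Nat.card C) := by rw [← hTDc, hDC]; ring
    rcases Nat.lt_or_ge q 2 with hq2 | hq2
    · interval_cases q <;> omega
    · nlinarith
  obtain ⟨s, hs⟩ := (hS2.to_le (hCD.trans hDS)).exists_card_eq
  have hSodd : Odd S.index := Nat.not_even_iff_odd.1 fun h => hSsyl (even_iff_two_dvd.1 h)
  have hMi : M.index = 2 ^ 1 * S.index := by
    refine Nat.eq_of_mul_eq_mul_left (Nat.card_pos (α := M)) ?_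
    rw [M.card_mul_index, ← S.card_mul_index, ← hTDc, hDC, hM]; ring
  haveI := Fintype.ofFinite (G ⧸ M)
  let φ : G →* ℤˣ := Equiv.Perm.sign.comp (MulAction.toPermHom G (G ⧸ M))
  have hφ : ∀ y ∈ D, y ∉ C → φ y = -1 := fun y hy hyC =>
    sign_cosets M y 0 (by rw [hinv y hy hyC]; rfl) (fun g h => h1 y hy hyC (hinv y hy hyC) g
      (by rwa [pow_zero, pow_one] at h)) hMi hSodd
  obtain ⟨⟨c, hcC⟩, hc⟩ := hC.exists_generator
  have hcN : c ∈ φ.ker := by
    rw [MonoidHom.mem_ker]
    have hxc : x * c ∉ C := fun h => hxC ((C.mul_mem_cancel_right hcC).1 h)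
    have := hφ _ (mul_mem hxD (hCD hcC)) hxc
    rw [map_mul, hφ x hxD hxC] at this
    simpa using this
  have hk : orderOf c = 2 ^ s := by
    rw [← hs, ← orderOf_eq_card_of_forall_mem_zpowers hc, Subgroup.orderOf_mk]
  have hR : Cfsg.pResidual 2 G ≤ φ.ker :=
    (Subgroup.closure_le _).2 fun g hg => odd_sign φ hg
  have hker : φ.ker.index = 2 := by
    rw [Subgroup.index_ker]
    have : φ.range = ⊤ := top_unique fun u _ => by
      rcases Int.units_eq_one_or u with rfl | rfl
      · exact one_mem _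
      · exact ⟨x, hφ x hxD hxC⟩
    rw [this, Subgroup.card_top, Nat.card_eq_fintype_card]
    rfl
  have hrel : T.relIndex φ.ker = 2 ^ s * S.index := by
    have h := Subgroup.relIndex_mul_index (hTR.trans hR)
    rw [hker] at h
    have hTi : T.index = 2 * (2 ^ s * S.index) := by
      refine Nat.eq_of_mul_eq_mul_left (Nat.card_pos (α := T)) ?_
      rw [T.card_mul_index, ← S.card_mul_index, ← hTDc, hDC, hs]; ring
    linarith
  have hfin := chain T hTR S.index hSodd s φ.ker hR c hcN hk hrel fun j g hj h => by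
    refine h2 (c ^ 2 ^ j) (pow_mem hcC _) ?_ g h
    rw [orderOf_pow' c (by positivity), hk, ← hj, Nat.gcd_eq_right (pow_dvd_pow 2 j.le_succ),
      pow_succ, Nat.mul_div_cancel_left _ (by positivity)]
  refine ⟨Cfsg.pResidual 2 G, inferInstance, ?_, fun T' hT'L hT'2 hT' => ⟨hT'L.trans hLR, ?_⟩⟩
  · obtain ⟨P, hP⟩ := hS2.exists_le_sylow
    have hSP : S = P := by
      refine le_antisymm hP ?_
      rcases eq_or_ne S (P : Subgroup G) with h | h
      · exact h.ge
      · exfalso
        have hlt : S.relIndex P ≠ 1 := fun h0 => h (le_antisymm hP (Subgroup.relIndex_eq_one.1 h0))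
        obtain ⟨a, ha⟩ := P.isPGroup'.index (S.subgroupOf P)
        have ha' : S.relIndex P = 2 ^ a := ha
        have : 2 ∣ S.index := by
          rw [← Subgroup.relIndex_mul_index hP, ha']
          refine Dvd.dvd.mul_right (dvd_pow_self 2 fun a0 => hlt ?_) _
          rw [ha', a0, pow_zero]
        exact hSsyl this
    rw [← top_le_iff, ← Lib.Transfer.pResidual_sup_sylow P, ← hSP, ← hTD]
    exact sup_le le_sup_left (sup_le (hTR.trans le_sup_left) le_sup_right)
  · have hcard : ∀ A : Subgroup G, A ≤ L → IsPGroup 2 A → ¬ 2 ∣ A.relIndex L →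
        Nat.card A = 2 ^ (Nat.card L).factorization 2 := by
      intro A hA hA2 hAi
      obtain ⟨a, ha⟩ := hA2.exists_card_eq
      have hmul := (A.subgroupOf L).card_mul_index
      rw [Nat.card_congr (Subgroup.subgroupOfEquivOfLe hA).toEquiv, ha] at hmul
      rw [ha, ← hmul, Nat.factorization_mul (by positivity) Subgroup.index_ne_zero_of_finite,
        Finsupp.add_apply, Nat.prime_two.factorization_pow, Finsupp.single_eq_same,
        Nat.factorization_eq_zero_of_not_dvd (show ¬ 2 ∣ (A.subgroupOf L).index from hAi), add_zero]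
    have e := (hcard T' hT'L hT'2 hT').trans (hcard T hTL hT2 hTsyl).symm
    have hh : T'.relIndex (Cfsg.pResidual 2 G) = T.relIndex (Cfsg.pResidual 2 G) := by
      have a := Subgroup.relIndex_mul_relIndex ⊥ T' _ bot_le (hT'L.trans hLR)
      have b := Subgroup.relIndex_mul_relIndex ⊥ T _ bot_le hTR
      rw [Subgroup.relIndex_bot_left, Subgroup.relIndex_bot_left, e] at a
      rw [Subgroup.relIndex_bot_left, Subgroup.relIndex_bot_left, ← a] at b
      exact (Nat.eq_of_mul_eq_mul_left Nat.card_pos b).symm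
    rw [hh]
    exact hfin

end

/-- A consequence of Thompson's transfer lemma. Let G be a finite group, L a subgroup with O²(L) = L, T a Sylow 2-subgroup of L and S a Sylow 2-subgroup of G containing T. Suppose D ≤ S is a dihedral subgroup of order at least 4 (the four-group counts) with D ∩ T = 1 and S = TD as a set of products (so |S| = |T|·|D|), and C ≤ D is cyclic of index 2 in D. If no involution of D outside C is G-conjugate to an involution of the subgroup generated by T and C, and the involution of C is not G-conjugate to any involution of T, then G has a normal subgroup K, containing every Sylow 2-subgroup of L as a Sylow 2-subgroup, with G = KD. -/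
theorem result {G : Type*} [Group G] [Finite G] (L T S D C : Subgroup G) (hL : Cfsg.pResidual 2 ↥L = ⊤)
    (hTL : T ≤ L) (hT2 : IsPGroup 2 T) (hTsyl : ¬ 2 ∣ T.relIndex L)
    (hS2 : IsPGroup 2 S) (hSsyl : ¬ 2 ∣ S.index) (hTS : T ≤ S)
    (hDS : D ≤ S) (hDih : ∃ n : ℕ, 2 ≤ n ∧ Nonempty (↥D ≃* DihedralGroup n)) (hDT : D ⊓ T = ⊥) (hTD : T ⊔ D = S) (hTDc : Nat.card T * Nat.card D = Nat.card S)
    (hCD : C ≤ D) (hC : IsCyclic ↥C) (hCi : C.relIndex D = 2)
    (h1 : ∀ x ∈ D, x ∉ C → orderOf x = 2 → ∀ g : G, g * x * g⁻¹ ∈ T ⊔ C → False)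
    (h2 : ∀ c ∈ C, orderOf c = 2 → ∀ g : G, g * c * g⁻¹ ∈ T → False) :
    ∃ K : Subgroup G, K.Normal ∧ K ⊔ D = ⊤ ∧
      ∀ T' : Subgroup G, T' ≤ L → IsPGroup 2 T' → ¬ 2 ∣ T'.relIndex L → T' ≤ K ∧ ¬ 2 ∣ T'.relIndex K := by
  exact main L T S D C hL hTL hT2 hTsyl hS2 hSsyl hTS hDS hDih hDT hTD hTDc hCD hC hCi h1 h2

end Cfsg.Agent.S1924
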