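import Cfsg.Statements.S1935
import Cfsg.Agent.S0599
import Cfsg.Agent.Lib.LocalP2.QuadLimit
import Cfsg.Agent.Lib.LocalP2.QuadTriple

set_option autoImplicit false
open Cfsg
open Cfsg.Agent.Lib.LocalP2
open scoped commutatorElement

namespace Cfsg.Agent.S1935

noncomputable section

/-- `|X| |ker X|`-type data: the common kernel. -/
def kerOf {M : Type*} [AddCommGroup M] (X : AddSubgroup (AddMonoid.End M)) : AddSubgroup M :=
  ⨅ x : X, AddMonoidHom.ker (x : AddMonoid.End M)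

theorem mem_kerOf {M : Type*} [AddCommGroup M] {X : AddSubgroup (AddMonoid.End M)} {m : M} :
    m ∈ kerOf X ↔ ∀ x ∈ X, x m = 0 := by
  simp only [kerOf, AddSubgroup.mem_iInf, Subtype.forall]
  rfl

section Abstract

variable {Gr : Type*} [Group Gr] [Finite Gr] {M : Type*} [AddCommGroup M] [Finite M] {p : ℕ}
  [hp : Fact p.Prime] (ρ : Gr →* AddMonoid.End M)

local notation "E" => AddMonoid.End M

/-- A quadratic offender, as a set of endomorphisms. -/
structure Good (X : AddSubgroup (AddMonoid.End M)) : Prop where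
  quad : QuadTriple.Quad X
  sub : ∀ x ∈ X, 1 + x ∈ MonoidHom.mrange ρ
  off : Nat.card M ≤ Nat.card X * Nat.card (kerOf X)
  ne : X ≠ ⊥

/-- Conjugation. -/
def cj (g : Gr) : E →+ E := (AddMonoidHom.mulLeft (ρ g)).comp (AddMonoidHom.mulRight (ρ g⁻¹))

theorem cj_apply (g : Gr) (r : E) : cj ρ g r = ρ g * (r * ρ g⁻¹) := rfl

theorem cj_mul' (g h : Gr) (r : E) : cj ρ (g * h) r = cj ρ g (cj ρ h r) := by
  simp [cj_apply, mul_assoc, mul_inv_rev]

theorem cj_one (r : E) : cj ρ 1 r = r := by simp [cj_apply]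

theorem ρ_inv_mul (g : Gr) : ρ g⁻¹ * ρ g = 1 := by rw [← map_mul, inv_mul_cancel, map_one]

theorem ρ_mul_inv (g : Gr) : ρ g * ρ g⁻¹ = 1 := by rw [← map_mul, mul_inv_cancel, map_one]

theorem cj_prod (g : Gr) (r s : E) : cj ρ g r * cj ρ g s = cj ρ g (r * s) := by
  simp only [cj_apply, mul_assoc]
  rw [← mul_assoc (ρ g⁻¹) (ρ g), ρ_inv_mul, one_mul]

theorem ρ_conj {g a : Gr} {x : E} (ha : ρ a = 1 + x) : ρ (g * a * g⁻¹) = 1 + cj ρ g x := by
  rw [map_mul, map_mul, ha, mul_add, add_mul, mul_one, ρ_mul_inv, cj_apply, mul_assoc]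

/-- The subgroup attached to a quadratic additive group. -/
def grp (X : AddSubgroup E) (hX : QuadTriple.Quad X) : Subgroup Gr where
  carrier := {g | ρ g - 1 ∈ X}
  one_mem' := by simp
  mul_mem' := by
    intro a b ha hb
    show ρ (a * b) - 1 ∈ X
    have e : ρ (a * b) - 1 = (ρ a - 1) + (ρ b - 1) + (ρ a - 1) * (ρ b - 1) := by
      rw [map_mul, sub_mul, mul_sub, one_mul, mul_one]; abel
    rw [e, hX _ ha _ hb, add_zero]
    exact X.add_mem ha hb
  inv_mem' := by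
    intro a ha
    show ρ a⁻¹ - 1 ∈ X
    have h1 : (1 + (ρ a - 1)) * (1 - (ρ a - 1)) = 1 := by
      rw [add_mul, one_mul, mul_sub, mul_one, hX _ ha _ ha]; abel
    have e : ρ a⁻¹ = 1 - (ρ a - 1) := by
      calc ρ a⁻¹ = ρ a⁻¹ * ((1 + (ρ a - 1)) * (1 - (ρ a - 1))) := by rw [h1, mul_one]
        _ = _ := by rw [← mul_assoc, add_sub_cancel, ρ_inv_mul, one_mul]
    rw [e]
    have : 1 - (ρ a - 1) - 1 = -(ρ a - 1) := by abel
    rw [this]
    exact X.neg_mem ha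

theorem mem_grp {X : AddSubgroup E} {hX : QuadTriple.Quad X} {g : Gr} :
    g ∈ grp ρ X hX ↔ ρ g - 1 ∈ X := Iff.rfl

/-- The fixed point series of the conjugation action. -/
def ser : ℕ → AddSubgroup E
  | 0 => ⊥
  | i + 1 => ⨅ g : Gr, (ser i).comap (cj ρ g - AddMonoidHom.id _)

theorem mem_ser_succ {i : ℕ} {r : E} : r ∈ ser ρ (i + 1) ↔ ∀ g, cj ρ g r - r ∈ ser ρ i := by
  simp [ser, AddSubgroup.mem_iInf]

theorem ser_stable : ∀ (i : ℕ) (r : E), r ∈ ser ρ i → ∀ g, cj ρ g r ∈ ser ρ i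
  | 0, r, hr, g => by
    have : r = 0 := hr
    rw [this, map_zero]; exact zero_mem _
  | i + 1, r, hr, g => by
    rw [mem_ser_succ] at hr ⊢
    intro h
    have := AddSubgroup.sub_mem _ (hr (h * g)) (hr g)
    rwa [cj_mul', sub_sub_sub_cancel_right] at this

theorem ser_mono (i : ℕ) : ser ρ i ≤ ser ρ (i + 1) := fun r hr =>
  (mem_ser_succ ρ).2 fun g => AddSubgroup.sub_mem _ (ser_stable ρ i r hr g) hr

theorem ser_grow (hG : IsPGroup p Gr) (hchar : ∀ r : E, p • r = 0) {i : ℕ} (h : ser ρ i ≠ ⊤) :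
    ser ρ i < ser ρ (i + 1) := by
  refine lt_of_le_of_ne (ser_mono ρ i) fun heq => ?_
  set Z := ser ρ i
  let f : Gr → (E ⧸ Z →+ E ⧸ Z) := fun g =>
    QuotientAddGroup.map Z Z (cj ρ g) (fun r hr => ser_stable ρ i r hr g)
  letI : MulAction Gr (E ⧸ Z) :=
    { smul := fun g q => f g q
      one_smul := fun q => by
        induction q using QuotientAddGroup.induction_on with
        | H r => show ((cj ρ 1 r : E) : E ⧸ Z) = r; rw [cj_one]
      mul_smul := fun g h q => by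
        induction q using QuotientAddGroup.induction_on with
        | H r => show ((cj ρ (g * h) r : E) : E ⧸ Z) = ((cj ρ g (cj ρ h r) : E) : E ⧸ Z); rw [cj_mul'] }
  haveI : Finite E := DFunLike.finite _
  have h0 : (0 : E ⧸ Z) ∈ MulAction.fixedPoints Gr (E ⧸ Z) := fun g => map_zero (f g)
  have hfix : MulAction.fixedPoints Gr (E ⧸ Z) = {0} := by
    refine Set.eq_singleton_iff_unique_mem.2 ⟨h0, fun q hq => ?_⟩
    induction q using QuotientAddGroup.induction_on with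
    | H r =>
      refine (QuotientAddGroup.eq_zero_iff r).2 ?_
      rw [heq, mem_ser_succ]
      intro g
      exact (QuotientAddGroup.eq_iff_sub_mem).1 (hq g)
  have hmod := hG.card_modEq_card_fixedPoints (E ⧸ Z)
  have h1 : Nat.card ↥({0} : Set (E ⧸ Z)) = 1 := by simp
  rw [hfix, h1] at hmod
  obtain ⟨r, hr⟩ : ∃ r, r ∉ Z := by
    by_contra hne; push Not at hne; exact h (eq_top_iff.2 fun r _ => hne r)
  have hord : addOrderOf (r : E ⧸ Z) = p := addOrderOf_eq_prime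
    (by rw [← QuotientAddGroup.mk_nsmul, hchar]; rfl) (fun e => hr ((QuotientAddGroup.eq_zero_iff r).1 e))
  have hdvd : p ∣ Nat.card (E ⧸ Z) := hord ▸ addOrderOf_dvd_natCard _
  exact Nat.Prime.not_dvd_one hp.out
    (Nat.modEq_zero_iff_dvd.1 (hmod.symm.trans (Nat.modEq_zero_iff_dvd.2 hdvd)))

theorem exists_ser_top (hG : IsPGroup p Gr) (hchar : ∀ r : E, p • r = 0) : ∃ n, ser ρ n = ⊤ := by
  haveI : Finite E := DFunLike.finite _
  by_contra hne
  push Not at hne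
  have h : StrictMono (ser ρ) := strictMono_nat_of_lt_succ fun i => ser_grow ρ hG hchar (hne i)
  exact not_injective_infinite_finite _ h.injective

variable {ρ}

theorem exists_inv (m : ℕ) (hm : m.Coprime p) (hchar : ∀ r : E, p • r = 0) :
    ∃ e : ℕ, ((m * e : ℕ) : E) = 1 := by
  obtain ⟨e, he⟩ := Nat.exists_mul_mod_eq_one_of_coprime hm hp.out.one_lt
  refine ⟨e, ?_⟩
  have h0 : (p : E) = 0 := by simpa [nsmul_eq_mul] using hchar 1
  rw [← Nat.div_add_mod (m * e) p, he.2, Nat.cast_add, Nat.cast_mul, h0, zero_mul, zero_add,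
    Nat.cast_one]

/-- The main step: some conjugate not normalising gives a strictly better candidate. -/
theorem improve (hp5 : 5 ≤ p) (hG : IsPGroup p Gr) (hchar : ∀ r : E, p • r = 0)
    (hM : ∀ m : M, p • m = 0) (n : ℕ) (hn : ser ρ n = ⊤) {X : AddSubgroup E} (hX : Good ρ X)
    (h : ¬ ∀ g : Gr, (grp ρ X hX.quad).map (MulAut.conj g).toMonoidHom ≤
      Subgroup.normalizer (grp ρ X hX.quad : Set Gr)) :
    ∃ X', Good ρ X' ∧ Nat.card X' = Nat.card X ∧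
      ∑ i ∈ Finset.range (n + 1), Nat.card (X ⊓ ser ρ i : AddSubgroup E) <
        ∑ i ∈ Finset.range (n + 1), Nat.card (X' ⊓ ser ρ i : AddSubgroup E) := by
  classical
  haveI : Finite E := DFunLike.finite _
  haveI := hG.isNilpotent
  set A := grp ρ X hX.quad with hA
  -- the conjugates normalising `A`
  let cs : Gr → Subgroup Gr → Subgroup Gr := fun g B => B.map (MulAut.conj g).toMonoidHom
  have cs_mul : ∀ g k B, cs (g * k) B = cs g (cs k B) := fun g k B => by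
    simp only [cs, Subgroup.map_map]; congr 1; ext; simp [MulAut.conj_apply, mul_assoc]
  have cs_one : ∀ B, cs 1 B = B := fun B => by
    simp only [cs]; ext; simp
  have cs_mem : ∀ g B x, x ∈ cs g B ↔ g⁻¹ * x * g ∈ B := fun g B x => by
    simp only [cs, Subgroup.mem_map]
    constructor
    · rintro ⟨y, hy, rfl⟩; simpa [MulAut.conj_apply, mul_assoc] using hy
    · intro hy; exact ⟨_, hy, by simp [MulAut.conj_apply, mul_assoc]⟩
  let Om : Set (Subgroup Gr) := {B | (∃ g, B = cs g A) ∧ B ≤ Subgroup.normalizer (A : Set Gr)}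
  let H : Subgroup Gr :=
    { carrier := {k | ∀ B, cs k B ∈ Om ↔ B ∈ Om}
      one_mem' := fun B => by rw [cs_one]
      mul_mem' := fun {a b} ha hb B => by rw [cs_mul]; exact (ha _).trans (hb B)
      inv_mem' := fun {a} ha B => by
        rw [← ha (cs a⁻¹ B), ← cs_mul, mul_inv_cancel, cs_one] }
  have hAO : A ∈ Om := ⟨⟨1, (cs_one A).symm⟩, Subgroup.le_normalizer⟩
  have hHA : ∀ b ∈ Subgroup.normalizer (A : Set Gr), ∀ B ∈ Om, cs b B ∈ Om := by
    rintro b hb B ⟨⟨g, rfl⟩, hB⟩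
    refine ⟨⟨b * g, (cs_mul _ _ _).symm⟩, fun x hx => ?_⟩
    have h1 := hB ((cs_mem _ _ _).1 hx)
    have h2 := mul_mem (mul_mem hb h1) (inv_mem hb)
    simpa [mul_assoc] using h2
  have hOH : ∀ B ∈ Om, B ≤ H := fun B hB b hb => fun B' => ⟨fun h' => by
      have := hHA b⁻¹ (inv_mem (hB.2 hb)) _ h'
      rwa [← cs_mul, inv_mul_cancel, cs_one] at this,
    fun h' => hHA b (hB.2 hb) _ h'⟩
  have hHne : H ≠ ⊤ := by
    intro e
    refine h fun g => ?_
    have hg : g ∈ H := e ▸ Subgroup.mem_top g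
    exact ((hg A).2 hAO).2
  have hlt : H < Subgroup.normalizer (H : Set Gr) :=
    Group.normalizerCondition_of_isNilpotent H (lt_top_iff_ne_top.2 hHne)
  obtain ⟨g, hg, hgH⟩ := SetLike.exists_of_lt hlt
  obtain ⟨c, hcH, ⟨g₀, hcg⟩, hcN⟩ : ∃ c ∈ H, (∃ g₀, c ∈ cs g₀ A) ∧
      c ∉ Subgroup.normalizer (A : Set Gr) := by
    have key : ∀ k ∈ Subgroup.normalizer (H : Set Gr), ∀ B ∈ Om, cs k B ∉ Om →
        ∃ c ∈ H, (∃ g₀, c ∈ cs g₀ A) ∧ c ∉ Subgroup.normalizer (A : Set Gr) := by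
      rintro k hk B hB hkB
      obtain ⟨g₁, hg₁⟩ := hB.1
      have hk' : cs k B = cs (k * g₁) A := by rw [hg₁, cs_mul]
      obtain ⟨c, hc, hcN⟩ := SetLike.not_le_iff_exists.1 fun hle => hkB ⟨⟨_, hk'⟩, hle⟩
      refine ⟨c, ?_, ⟨_, hk' ▸ hc⟩, hcN⟩
      have h1 := hOH B hB ((cs_mem _ _ _).1 hc)
      have h2 := (Subgroup.mem_normalizer_iff.1 hk _).1 h1
      simpa [mul_assoc] using h2
    have : ¬ ∀ B, cs g B ∈ Om ↔ B ∈ Om := hgH
    push Not at this
    obtain ⟨B, hB⟩ := this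
    rcases hB with ⟨h1, h2⟩ | ⟨h1, h2⟩
    · refine key g⁻¹ (inv_mem hg) _ h1 ?_
      rwa [← cs_mul, inv_mul_cancel, cs_one]
    · exact key g hg B h2 h1
  -- the quadratic element
  set z := ρ c - 1 with hzdef
  have hcz : ρ c = 1 + z := by rw [hzdef, add_sub_cancel]
  obtain ⟨x₀, hx₀, hzx⟩ : ∃ x₀ ∈ X, z = cj ρ g₀ x₀ := by
    refine ⟨_, (cs_mem _ _ _).1 hcg, ?_⟩
    have e := ρ_conj ρ (g := g₀) (a := g₀⁻¹ * c * g₀) (x := ρ (g₀⁻¹ * c * g₀) - 1)
      (by rw [add_sub_cancel])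
    rw [show g₀ * (g₀⁻¹ * c * g₀) * g₀⁻¹ = c by group] at e
    rw [hzdef, e, add_sub_cancel_left]
  have hz : z * z = 0 := by rw [hzx, cj_prod, hX.quad _ hx₀ _ hx₀, map_zero]
  have hcinv : ρ c⁻¹ = 1 - z := by
    have h1 : (1 + z) * (1 - z) = 1 := by rw [add_mul, one_mul, mul_sub, mul_one, hz]; abel
    calc ρ c⁻¹ = ρ c⁻¹ * ((1 + z) * (1 - z)) := by rw [h1, mul_one]
      _ = _ := by rw [← mul_assoc, ← hcz, ρ_inv_mul, one_mul]
  have hp1 : ∀ r, cj ρ c r = r + (z * r - r * z) - z * r * z := fun r => by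
    rw [cj_apply, hcz, hcinv]; noncomm_ring
  have hm1 : ∀ r, cj ρ c⁻¹ r = r - (z * r - r * z) - z * r * z := fun r => by
    rw [cj_apply, inv_inv, hcz, hcinv]; noncomm_ring
  -- mutual normalisation
  have hXq : ∀ k, QuadTriple.Quad (X.map (cj ρ k)) := by
    rintro k _ ⟨x, hx, rfl⟩ _ ⟨y, hy, rfl⟩
    rw [cj_prod, hX.quad _ hx _ hy, map_zero]
  have hXS : ∀ k, ∀ x ∈ X.map (cj ρ k), 1 + x ∈ MonoidHom.mrange ρ := by
    rintro k _ ⟨x, hx, rfl⟩
    obtain ⟨a, ha⟩ := hX.sub x hx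
    exact ⟨k * a * k⁻¹, ρ_conj ρ ha⟩
  have hnor : ∀ i ∈ H, ∀ j ∈ H, QuadTriple.Nor (X.map (cj ρ i)) (X.map (cj ρ j)) := by
    rintro i hi j hj _ ⟨x, hx, rfl⟩ _ ⟨y, hy, rfl⟩
    obtain ⟨a, ha⟩ := hX.sub x hx
    obtain ⟨b, hb⟩ := hX.sub y hy
    have haA : a ∈ A := (mem_grp ρ).2 (by rw [ha, add_sub_cancel_left]; exact hx)
    have hbA : b ∈ A := (mem_grp ρ).2 (by rw [hb, add_sub_cancel_left]; exact hy)
    have hk : i⁻¹ * j ∈ H := mul_mem (inv_mem hi) hj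
    have hy' : i⁻¹ * j * b * (i⁻¹ * j)⁻¹ ∈ Subgroup.normalizer (A : Set Gr) :=
      ((hk A).2 hAO).2 ((cs_mem _ _ _).2 (by simpa [mul_assoc] using hbA))
    have hmem := (Subgroup.mem_normalizer_iff.1 hy' a).1 haA
    set a' := i⁻¹ * j * b * (i⁻¹ * j)⁻¹ * a * (i⁻¹ * j * b * (i⁻¹ * j)⁻¹)⁻¹ with ha'
    refine ⟨cj ρ i (ρ a' - 1), ⟨_, hmem, rfl⟩, ?_⟩
    have ea' : ρ (i * a' * i⁻¹) = 1 + cj ρ i (ρ a' - 1) :=
      ρ_conj ρ (by rw [add_sub_cancel])
    have ea : ρ (i * a * i⁻¹) = 1 + cj ρ i x := ρ_conj ρ ha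
    have eb : ρ (j * b * j⁻¹) = 1 + cj ρ j y := ρ_conj ρ hb
    rw [← ea', ← ea, ← eb]
    have hinv : 1 - cj ρ j y = ρ (j * b * j⁻¹)⁻¹ := by
      have h1 : (1 + cj ρ j y) * (1 - cj ρ j y) = 1 := by
        rw [add_mul, one_mul, mul_sub, mul_one, cj_prod, hX.quad _ hy _ hy, map_zero]; abel
      rw [← ρ_conj ρ hb] at h1
      calc 1 - cj ρ j y = ρ (j * b * j⁻¹)⁻¹ * (ρ (j * b * j⁻¹) * (1 - cj ρ j y)) := by
            rw [← mul_assoc, ρ_inv_mul, one_mul]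
        _ = _ := by rw [h1, mul_one]
    rw [hinv, ← map_mul, ← map_mul]
    congr 1
    rw [ha']
    group
  obtain ⟨e2, he2⟩ := exists_inv 2 ((Nat.coprime_primes Nat.prime_two hp.out).2 (by omega)) hchar
  obtain ⟨e3, he3⟩ := exists_inv 3 ((Nat.coprime_primes Nat.prime_three hp.out).2 (by omega)) hchar
  have hhalf : ∀ r : E, e2 • (r + r) = r := fun r => by
    rw [← two_nsmul, ← mul_nsmul, nsmul_eq_mul, he2, one_mul]
  -- coefficients
  have hmid : ∀ b, z * b - b * z = e2 • cj ρ c b - e2 • cj ρ c⁻¹ b := fun b => by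
    rw [← nsmul_sub, hp1, hm1]
    conv_lhs => rw [← hhalf (z * b - b * z)]
    congr 1; abel
  have htop : ∀ b, z * b * z = b - e2 • cj ρ c b - e2 • cj ρ c⁻¹ b := fun b => by
    have e : cj ρ c b + cj ρ c⁻¹ b = (b + b) - (z * b * z + z * b * z) := by
      rw [hp1, hm1]; abel
    rw [sub_sub, ← nsmul_add, e, nsmul_sub, hhalf, hhalf]; abel
  have hser_mid : ∀ i r, r ∈ ser ρ i → z * r - r * z ∈ ser ρ i ∧ z * r * z ∈ ser ρ i := fun i r hr => by
    rw [hmid, htop]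
    have h1 := AddSubgroup.nsmul_mem _ (ser_stable ρ i r hr c) e2
    have h2 := AddSubgroup.nsmul_mem _ (ser_stable ρ i r hr c⁻¹) e2
    exact ⟨sub_mem h1 h2, sub_mem (sub_mem hr h1) h2⟩
  -- the limit
  set F := QuadLimit.two hz with hF
  set X' := F.lim X with hX'
  have hX'q : QuadTriple.Quad X' := fun u hu u' hu' => QuadLimit.two_mul_eq_zero hz hX.quad hu hu'
  have hX'S : ∀ u ∈ X', 1 + u ∈ MonoidHom.mrange ρ := by
    intro u hu
    obtain ⟨a, ha, b, hb, d, hd, e⟩ := QuadLimit.two_lim_form hz hu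
    set u1 := -(e2 • cj ρ c⁻¹ b) + e2 • cj ρ c⁻¹ d
    set u2 := a - d
    set u3 := e2 • cj ρ c b + e2 • cj ρ c d
    have hsum : u = u1 + u2 + u3 := by
      rw [e, hmid, htop]; simp only [u1, u2, u3]; abel
    have m1 : u1 ∈ X.map (cj ρ c⁻¹) :=
      add_mem (neg_mem (nsmul_mem (AddSubgroup.mem_map_of_mem _ hb) e2))
        (nsmul_mem (AddSubgroup.mem_map_of_mem _ hd) e2)
    have m2 : u2 ∈ X.map (cj ρ 1) := ⟨u2, sub_mem ha hd, cj_one ρ u2⟩
    have m3 : u3 ∈ X.map (cj ρ c) :=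
      add_mem (nsmul_mem (AddSubgroup.mem_map_of_mem _ hb) e2)
        (nsmul_mem (AddSubgroup.mem_map_of_mem _ hd) e2)
    rw [hsum]
    have hi := inv_mem hcH
    exact QuadTriple.triple (hXq _) (hXq _) (hXq _) (hnor _ hi _ (one_mem H)) (hnor _ (one_mem H) _ hi)
      (hnor _ hi _ hcH) (hnor _ hcH _ hi) (hnor _ (one_mem H) _ hcH) (hnor _ hcH _ (one_mem H))
      (hXS _) (hXS _) (hXS _) he3 he2 m1 m2 m3 (by rw [← hsum]; exact hX'q u hu u hu)
  have hcard : Nat.card X' = Nat.card X := F.card_lim X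
  -- fixed points
  have hker : Nat.card (kerOf X) ≤ Nat.card (kerOf X') := by
    by_cases htriv : ∀ m : M, m = 0
    · haveI : Subsingleton M := ⟨fun a b => by rw [htriv a, htriv b]⟩
      rw [Nat.card_eq_one_iff_unique.2 ⟨inferInstance, inferInstance⟩]
      exact Nat.card_pos
    push Not at htriv
    obtain ⟨m₀, hm₀⟩ := htriv
    haveI : Module (ZMod p) M := AddCommGroup.zmodModule hM
    have hk : LinearMap.ker (LinearMap.toSpanSingleton (ZMod p) M m₀) = ⊥ :=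
      LinearMap.ker_eq_bot'.2 fun (c : ZMod p) (hc : c • m₀ = 0) => by
        by_contra hc0
        exact hm₀ (by rw [← inv_smul_smul₀ hc0 m₀, hc, smul_zero])
    have hex := LinearMap.exists_leftInverse_of_injective
      (LinearMap.toSpanSingleton (ZMod p) M m₀) hk
    obtain ⟨φ₀, hφ⟩ := hex
    let φ : M →ₗ[ZMod p] ZMod p := φ₀
    have hφ' : φ.comp (LinearMap.toSpanSingleton (ZMod p) M m₀) = LinearMap.id := hφ
    have hφ0 : φ m₀ = 1 := by
      have := LinearMap.congr_fun hφ' 1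
      rwa [LinearMap.comp_apply, LinearMap.toSpanSingleton_apply, one_smul, LinearMap.id_apply] at this
    let e : M →+ E := AddMonoidHom.mk' (fun m => ((φ.smulRight m).toAddMonoidHom : M →+ M))
      (fun a b => AddMonoidHom.ext fun v => by
        show φ v • (a + b) = φ v • a + φ v • b
        rw [smul_add])
    have he0 : ∀ m, e m m₀ = m := fun m => by
      show φ m₀ • m = m
      rw [hφ0, one_smul]
    have hemul : ∀ (r : E) (m : M), r * e m = e (r m) := fun r m => by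
      ext v
      show r (φ v • m) = φ v • r m
      exact (AddMonoidHom.toZModLinearMap p (r : M →+ M)).map_smul _ m
    have heinj : Function.Injective e := fun a b h => by rw [← he0 a, h, he0]
    set Ct := (kerOf X).map e
    have h0 : ∀ x ∈ X, ∀ y ∈ Ct, x * y = 0 := by
      rintro x hx _ ⟨m, hm, rfl⟩
      rw [hemul, mem_kerOf.1 hm x hx, map_zero]
    set Cl := (QuadLimit.one hz).lim Ct
    have hc : Nat.card Cl = Nat.card (kerOf X) := by
      rw [(QuadLimit.one hz).card_lim, ← Nat.card_congr (AddSubgroup.equivMapOfInjective _ e heinj).toEquiv]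
    have hin : Cl ≤ (kerOf X').map e := by
      rintro w hw
      obtain ⟨v, ⟨q, hq, hqe⟩, rfl⟩ := hw
      have hq' : (Polynomial.X + Polynomial.C z) * q = Polynomial.X ^ 2 * v := hqe
      have hv0 : v.coeff 0 = q.coeff 1 + z * q.coeff 2 := by
        rw [← Polynomial.coeff_X_pow_mul v 2 0, ← hq', zero_add, add_mul, Polynomial.coeff_add,
          Polynomial.coeff_X_mul, Polynomial.coeff_C_mul]
      obtain ⟨m1, hm1', e1⟩ := hq 1
      obtain ⟨m2, hm2', e2'⟩ := hq 2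
      refine ⟨m1 + z m2, mem_kerOf.2 fun u hu => ?_, ?_⟩
      · have hz0 : u * (v.coeff 0) = 0 :=
          QuadLimit.two_one_mul_eq_zero hz h0 hu ⟨v, ⟨q, hq, hqe⟩, rfl⟩
        rw [hv0, ← e1, ← e2', hemul, ← map_add, hemul] at hz0
        rw [← he0 (u _), hz0]; rfl
      · show e (m1 + z m2) = v.coeff 0
        rw [hv0, ← e1, ← e2', hemul, map_add]
    rw [← hc]
    calc Nat.card Cl ≤ Nat.card ((kerOf X').map e) :=
          Nat.card_le_card_of_injective _ (AddSubgroup.inclusion_injective hin)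
      _ = _ := (Nat.card_congr (AddSubgroup.equivMapOfInjective _ e heinj).toEquiv).symm
  refine ⟨X', ⟨hX'q, hX'S, hX.off.trans ?_, fun e => ?_⟩, hcard, ?_⟩
  · rw [hcard]; exact Nat.mul_le_mul_left _ hker
  · exact hX.ne (AddSubgroup.card_eq_one.1 (by rw [← hcard, e, AddSubgroup.card_bot]))
  -- the filtration improves
  have hle : ∀ i, Nat.card (X ⊓ ser ρ i : AddSubgroup E) ≤ Nat.card (X' ⊓ ser ρ i : AddSubgroup E) := by
    intro i
    rw [← F.card_lim (X ⊓ ser ρ i)]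
    refine Nat.card_le_card_of_injective _ (AddSubgroup.inclusion_injective (le_inf
      (F.lim_mono inf_le_left) fun u hu => ?_))
    obtain ⟨a, ha, b, hb, d, hd, e⟩ := QuadLimit.two_lim_form hz hu
    rw [e]
    exact sub_mem (add_mem ha.2 (hser_mid i b hb.2).1) (hser_mid i d hd.2).2
  obtain ⟨i₁, hi₁⟩ : ∃ i, ∃ x ∈ X ⊓ ser ρ i, ¬ (z * x - x * z ∈ X ∧ z * x * z ∈ X) := by
    by_contra hne
    push Not at hne
    apply hcN
    rw [Subgroup.mem_normalizer_iff]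
    have hfix : ∀ x ∈ X, cj ρ c x ∈ X ∧ cj ρ c⁻¹ x ∈ X := fun x hx => by
      obtain ⟨h1, h2⟩ := hne n x ⟨hx, hn ▸ AddSubgroup.mem_top x⟩
      rw [hp1, hm1]
      exact ⟨sub_mem (add_mem hx h1) h2, sub_mem (sub_mem hx h1) h2⟩
    intro a
    show a ∈ A ↔ c * a * c⁻¹ ∈ A
    rw [mem_grp, mem_grp]
    constructor
    · intro ha
      rw [ρ_conj ρ (x := ρ a - 1) (by rw [add_sub_cancel]), add_sub_cancel_left]
      exact (hfix _ ha).1
    · intro ha
      have e : a = c⁻¹ * (c * a * c⁻¹) * c⁻¹⁻¹ := by group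
      rw [e, ρ_conj ρ (x := ρ (c * a * c⁻¹) - 1) (by rw [add_sub_cancel]), add_sub_cancel_left]
      exact (hfix _ ha).2
  have hi := Nat.find_spec (⟨i₁, hi₁⟩ : ∃ i, ∃ x ∈ X ⊓ ser ρ i, ¬ (z * x - x * z ∈ X ∧ z * x * z ∈ X))
  have hmin := fun j (hj : j < Nat.find (⟨i₁, hi₁⟩ : ∃ i, ∃ x ∈ X ⊓ ser ρ i,
      ¬ (z * x - x * z ∈ X ∧ z * x * z ∈ X))) => Nat.find_min _ hj
  generalize Nat.find (⟨i₁, hi₁⟩ : ∃ i, ∃ x ∈ X ⊓ ser ρ i,
      ¬ (z * x - x * z ∈ X ∧ z * x * z ∈ X)) = i at hi hmin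
  obtain ⟨x, hx, hxn⟩ := hi
  rcases i with - | i
  · refine absurd ⟨?_, ?_⟩ hxn <;>
    · rw [show x = 0 from hx.2]; simp [X.zero_mem]
  have hin : i < n + 1 := by
    by_contra hgt
    push Not at hgt
    exact hmin n (by omega) ⟨x, ⟨hx.1, hn ▸ AddSubgroup.mem_top x⟩, hxn⟩
  refine Finset.sum_lt_sum (fun j _ => hle j) ⟨i, Finset.mem_range.2 hin, ?_⟩
  have hinv : ∀ y ∈ X ⊓ ser ρ i, z * y - y * z ∈ X ⊓ ser ρ i ∧ z * y * z ∈ X ⊓ ser ρ i := fun y hy => by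
    by_contra hbad
    refine hmin i (Nat.lt_succ_self i) ⟨y, hy, fun hgood => hbad ?_⟩
    exact ⟨⟨hgood.1, (hser_mid i y hy.2).1⟩, ⟨hgood.2, (hser_mid i y hy.2).2⟩⟩
  have hsub : X ⊓ ser ρ i ≤ X' ⊓ ser ρ i := fun y hy =>
    ⟨F.lim_mono inf_le_left (QuadLimit.mem_two_lim_of_fixed hz hy (hinv y hy).1 (hinv y hy).2), hy.2⟩
  have hx1 : z * x - x * z ∈ ser ρ i ∧ z * x * z ∈ ser ρ i := by
    have h1 := (mem_ser_succ ρ).1 hx.2 c
    have h2 := (mem_ser_succ ρ).1 hx.2 c⁻¹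
    have a1 := AddSubgroup.nsmul_mem _ h1 e2
    have a2 := AddSubgroup.nsmul_mem _ h2 e2
    have hxx : x = e2 • x + e2 • x := by rw [← nsmul_add, hhalf]
    constructor
    · rw [hmid]
      have := sub_mem a1 a2
      rwa [nsmul_sub, nsmul_sub, sub_sub_sub_cancel_right] at this
    · rw [htop]
      have := neg_mem (add_mem a1 a2)
      have e : x - e2 • cj ρ c x - e2 • cj ρ c⁻¹ x =
          -(e2 • (cj ρ c x - x) + e2 • (cj ρ c⁻¹ x - x)) := by
        conv_lhs => arg 1; arg 1; rw [hxx]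
        rw [nsmul_sub, nsmul_sub]; abel
      rw [e]; exact this
  obtain ⟨w, hw', hwn⟩ : ∃ w, w ∈ X' ⊓ ser ρ i ∧ w ∉ X := by
    obtain ⟨l1, l2⟩ := QuadLimit.mem_two_lim_lead hz (Y := X) hx.1
    by_cases ht : z * x * z ∈ X
    · have hy : -(z * x * z) ∈ X ⊓ ser ρ i := neg_mem (show z * x * z ∈ X ⊓ ser ρ i from ⟨ht, hx1.2⟩)
      exact ⟨_, ⟨l2 (QuadLimit.C_mem_sat_of_fixed hz hy.1 (hinv _ hy).1.1 (hinv _ hy).2.1), hx1.1⟩,
        fun h' => hxn ⟨h', ht⟩⟩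
    · exact ⟨_, ⟨l1, (ser ρ i).neg_mem hx1.2⟩, fun h' => ht (by simpa using X.neg_mem h')⟩
  refine lt_of_le_of_ne (Nat.card_le_card_of_injective _ (AddSubgroup.inclusion_injective hsub))
    fun heq => hwn ?_
  have hfull : X ⊓ ser ρ i = X' ⊓ ser ρ i := SetLike.coe_injective
    (Set.Finite.eq_of_subset_of_card_le (Set.toFinite _) hsub heq.ge)
  exact (hfull.symm ▸ hw' : w ∈ X ⊓ ser ρ i).1

end Abstract

/-- Let p ≥ 5 be a prime and, inside an ambient finite group, let G be a p-subgroup acting faithfully by conjugation on an elementary abelian p-subgroup V that it normalizes (only the identity of G centralizes V). Suppose V is an F-module for G: some nontrivial elementary abelian subgroup E of G satisfies #E · #C_V(E) ≥ #V. Then G contains such an offender A that moreover acts quadratically on V ([V, A, A] = 1) and is normal in its normal closure in G. -/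
theorem result {Ω : Type*} [Group Ω] [Finite Ω] (p : ℕ) [Fact p.Prime] (hp : 5 ≤ p) (V G : Subgroup Ω) (hV : Cfsg.IsElementaryAbelian p V) (hG : IsPGroup p ↥G) (hGV : G ≤ Subgroup.normalizer (V : Set Ω)) (hfaith : G ⊓ Subgroup.centralizer (V : Set Ω) = ⊥) (hF : ∃ E : Subgroup Ω, E ≤ G ∧ E ≠ ⊥ ∧ Cfsg.IsElementaryAbelian p E ∧ Nat.card ↥V ≤ Nat.card ↥E * Nat.card ↥(V ⊓ Subgroup.centralizer (E : Set Ω))) : ∃ A : Subgroup Ω, A ≤ G ∧ A ≠ ⊥ ∧ Cfsg.IsElementaryAbelian p A ∧ Nat.card ↥V ≤ Nat.card ↥A * Nat.card ↥(V ⊓ Subgroup.centralizer (A : Set Ω)) ∧ ⁅⁅V, A⁆, A⁆ = ⊥ ∧ ∀ g ∈ Subgroup.closure {x : Ω | ∃ h ∈ G, ∃ a ∈ A, x = h * a * h⁻¹}, ∀ a ∈ A, g * a * g⁻¹ ∈ A := by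
  classical
  have hVc : ∀ a ∈ V, ∀ b ∈ V, a * b = b * a := fun a ha b hb =>
    Lib.Thompson.commute_of_elementary hV ha hb
  letI : CommGroup ↥V := { (inferInstance : Group ↥V) with
    mul_comm := fun a b => Subtype.ext (hVc a a.2 b b.2) }
  let cV : ↥G → AddMonoid.End (Additive ↥V) := fun g =>
    (MonoidHom.toAdditive
      { toFun := fun v : ↥V => (⟨(g : Ω) * v * (g : Ω)⁻¹,
          (Subgroup.mem_normalizer_iff.1 (hGV g.2) _).1 v.2⟩ : ↥V)
        map_one' := Subtype.ext (by simp)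
        map_mul' := fun a b => Subtype.ext (by simp [mul_assoc]) })
  let ρ : ↥G →* AddMonoid.End (Additive ↥V) :=
    { toFun := cV
      map_one' := by
        refine AddMonoidHom.ext fun v => ?_
        exact Additive.toMul.injective (Subtype.ext (by simp [cV]; rfl))
      map_mul' := fun a b => by
        refine AddMonoidHom.ext fun v => ?_
        refine Additive.toMul.injective (Subtype.ext ?_)
        show ((a * b : ↥G) : Ω) * (v.toMul : Ω) * ((a * b : ↥G) : Ω)⁻¹ =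
          (a : Ω) * ((b : Ω) * (v.toMul : Ω) * (b : Ω)⁻¹) * (a : Ω)⁻¹
        simp [mul_assoc] }
  have hρ : ∀ (g : ↥G) (v : Additive ↥V), ((ρ g v).toMul : Ω) = g * (v.toMul : Ω) * (g : Ω)⁻¹ :=
    fun g v => rfl
  have hρinj : Function.Injective ρ := by
    refine (injective_iff_map_eq_one ρ).2 fun g hg => Subtype.ext ?_
    have : (g : Ω) ∈ G ⊓ Subgroup.centralizer (V : Set Ω) := by
      refine ⟨g.2, Subgroup.mem_centralizer_iff.2 fun v hv => ?_⟩
      have h := hρ g (Additive.ofMul ⟨v, hv⟩)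
      rw [hg] at h
      exact mul_inv_eq_iff_eq_mul.1 h.symm |>.symm
    rwa [hfaith, Subgroup.mem_bot] at this
  have hM : ∀ m : Additive ↥V, p • m = 0 := fun m =>
    Additive.toMul.injective (Subtype.ext (by simpa using hV.2 _ m.toMul.2))
  have hchar : ∀ r : AddMonoid.End (Additive ↥V), p • r = 0 := fun r =>
    AddMonoidHom.ext fun m => hM (r m)
  -- the passage from endomorphisms to subgroups
  have hfix : ∀ (X : AddSubgroup (AddMonoid.End (Additive ↥V))) (A : Subgroup Ω) (hA : A ≤ G),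
      (∀ g : ↥G, (g : Ω) ∈ A ↔ ρ g - 1 ∈ X) → (∀ x ∈ X, 1 + x ∈ MonoidHom.mrange ρ) →
      Nat.card A = Nat.card X ∧
        Nat.card ↥(V ⊓ Subgroup.centralizer (A : Set Ω)) = Nat.card (kerOf X) := by
    intro X A hA hiff hS
    constructor
    · refine Nat.card_congr (Equiv.ofBijective
        (fun a : A => (⟨ρ ⟨a, hA a.2⟩ - 1, (hiff _).1 a.2⟩ : X)) ⟨fun a b hab => ?_, fun x => ?_⟩)
      · have h := hρinj (sub_left_injective (congrArg Subtype.val hab))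
        exact Subtype.ext (congrArg (fun g : ↥G => (g : Ω)) h)
      · obtain ⟨g, hg⟩ := hS x x.2
        refine ⟨⟨g, (hiff g).2 (by rw [hg, add_sub_cancel_left]; exact x.2)⟩, Subtype.ext ?_⟩
        show ρ g - 1 = x
        rw [hg, add_sub_cancel_left]
    · refine Nat.card_congr
        { toFun := fun v => ⟨Additive.ofMul ⟨v, v.2.1⟩, mem_kerOf.2 fun x hx => ?_⟩
          invFun := fun m => ⟨(m.1.toMul : Ω), m.1.toMul.2, Subgroup.mem_centralizer_iff.2 fun a ha => ?_⟩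
          left_inv := fun v => rfl
          right_inv := fun m => rfl }
      · obtain ⟨g, hg⟩ := hS x hx
        have hgA : (g : Ω) ∈ A := (hiff g).2 (by rw [hg, add_sub_cancel_left]; exact hx)
        rw [show x = ρ g - 1 by rw [hg, add_sub_cancel_left]]
        show ρ g _ - _ = 0
        rw [sub_eq_zero]
        refine Additive.toMul.injective (Subtype.ext ?_)
        rw [hρ]
        exact mul_inv_eq_iff_eq_mul.2 (Subgroup.mem_centralizer_iff.1 v.2.2 _ hgA)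
      · have h := mem_kerOf.1 m.2 _ ((hiff ⟨a, hA ha⟩).1 ha)
        have h' : ρ ⟨a, hA ha⟩ m.1 = m.1 := sub_eq_zero.1 h
        have h'' := hρ ⟨a, hA ha⟩ m.1
        rw [h'] at h''
        exact (mul_inv_eq_iff_eq_mul.1 h''.symm)
  -- a first quadratic offender
  obtain ⟨E0, hE0G, hE0ne, hE0, hE0off⟩ := hF
  haveI : Nonempty {B : Subgroup Ω // B ≤ E0} := ⟨⟨⊥, bot_le⟩⟩
  obtain ⟨B, hB⟩ := Finite.exists_max (fun B : {B : Subgroup Ω // B ≤ E0} =>
    Nat.card ↥(B : Subgroup Ω) * Nat.card ↥(V ⊓ Subgroup.centralizer ((B : Subgroup Ω) : Set Ω)))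
  obtain ⟨B₁, hB₁E, hB₁ne, hB₁max, hB₁off⟩ : ∃ B₁ ≤ E0, B₁ ≠ ⊥ ∧
      (∀ C ≤ E0, Nat.card ↥C * Nat.card ↥(V ⊓ Subgroup.centralizer (C : Set Ω)) ≤
        Nat.card ↥B₁ * Nat.card ↥(V ⊓ Subgroup.centralizer (B₁ : Set Ω))) ∧
      Nat.card ↥V ≤ Nat.card ↥B₁ * Nat.card ↥(V ⊓ Subgroup.centralizer (B₁ : Set Ω)) := by
    by_cases hb : (B : Subgroup Ω) = ⊥
    · refine ⟨E0, le_rfl, hE0ne, fun C hC => (hB ⟨C, hC⟩).trans ?_, hE0off⟩
      rw [hb, Subgroup.card_bot, one_mul]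
      exact (Subgroup.card_le_of_le inf_le_left).trans hE0off
    · exact ⟨B, B.2, hb, fun C hC => hB ⟨C, hC⟩, hE0off.trans (hB ⟨E0, le_rfl⟩)⟩
  have hB₁G : B₁ ≤ G := hB₁E.trans hE0G
  have hbest : Cfsg.IsBestOffenderOn p V B₁ := by
    refine ⟨fun C hC => hB₁max C (hC.trans hB₁E), ?_, fun a ha => ?_⟩
    · rw [Subgroup.commutator_le]
      intro a ha b hb
      rw [commutatorElement_eq_one_iff_mul_comm.2
        (Lib.Thompson.commute_of_elementary hE0 (hB₁E ha) (hB₁E hb))]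
      exact one_mem _
    · rw [hE0.2 a (hB₁E ha)]; exact one_mem _
  obtain ⟨⟨hmax2, -, -⟩, hfix2, hne2⟩ := S0599.result V B₁ hV (hB₁G.trans hGV) hbest V le_rfl
  set A₀ := B₁ ⊓ Subgroup.centralizer ((⁅V, B₁⁆ : Subgroup Ω) : Set Ω)
  have hA₀off : Nat.card ↥V ≤ Nat.card ↥A₀ * Nat.card ↥(V ⊓ Subgroup.centralizer (A₀ : Set Ω)) := by
    obtain ⟨-, hr⟩ := S0599.result V B₁ hV (hB₁G.trans hGV) hbest V le_rfl
    have := (Lib.Thompson.replacement_subgroup hVc (hB₁G.trans hGV) hbest.2.1 hbest.1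
      (le_refl V)).1
    exact hB₁off.trans this.ge
  have hA₀ne : A₀ ≠ ⊥ := by
    intro e
    refine hne2 ?_ (by rw [e, Subgroup.commutator_bot_right])
    intro h0
    refine hB₁ne (le_bot_iff.1 (le_trans ?_ hfaith.le))
    exact le_inf hB₁G (Subgroup.commutator_eq_bot_iff_le_centralizer.1
      ((Subgroup.commutator_comm _ _).trans h0))
  have hA₀quad : ∀ v ∈ V, ∀ a ∈ A₀, ∀ b ∈ A₀,
      b * (a * v * a⁻¹ * v⁻¹) * b⁻¹ = a * v * a⁻¹ * v⁻¹ := fun v hv a ha b hb => by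
    have h1 : a * v * a⁻¹ * v⁻¹ ∈ ⁅V, B₁⁆ := by
      rw [Subgroup.commutator_comm]; exact Subgroup.commutator_mem_commutator ha.1 hv
    rw [← Subgroup.mem_centralizer_iff.1 hb.2 _ h1, mul_inv_cancel_right]
  let X₀ : AddSubgroup (AddMonoid.End (Additive ↥V)) := AddSubgroup.closure
    {x | ∃ a : ↥G, (a : Ω) ∈ A₀ ∧ x = ρ a - 1}
  have hgen0 : ∀ a b : ↥G, (a : Ω) ∈ A₀ → (b : Ω) ∈ A₀ → (ρ b - 1) * (ρ a - 1) = 0 := fun a b ha hb => by
    refine AddMonoidHom.ext fun v => ?_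
    show ρ b (ρ a v - v) - (ρ a v - v) = 0
    rw [sub_eq_zero]
    refine Additive.toMul.injective (Subtype.ext ?_)
    rw [hρ]
    have h1 : ((ρ a v - v).toMul : Ω) = a * (v.toMul : Ω) * (a : Ω)⁻¹ * (v.toMul : Ω)⁻¹ := by
      rw [toMul_sub, Subgroup.coe_div, hρ, div_eq_mul_inv]
    rw [h1]
    exact hA₀quad _ v.toMul.2 _ ha _ hb
  have hX₀mem : ∀ x ∈ X₀, ∃ a : ↥G, (a : Ω) ∈ A₀ ∧ x = ρ a - 1 := by
    intro x hx
    induction hx using AddSubgroup.closure_induction with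
    | mem x hx => exact hx
    | zero => exact ⟨1, one_mem _, by simp⟩
    | add x y _ _ h1 h2 =>
      obtain ⟨a, ha, rfl⟩ := h1
      obtain ⟨b, hb, rfl⟩ := h2
      refine ⟨a * b, mul_mem ha hb, ?_⟩
      have h := hgen0 b a hb ha
      rw [map_mul]
      symm
      rw [← sub_eq_zero, ← h]
      simp only [sub_mul, mul_sub, one_mul, mul_one]
      abel
    | neg x _ h1 =>
      obtain ⟨a, ha, rfl⟩ := h1
      refine ⟨a⁻¹, inv_mem ha, ?_⟩
      have h := hgen0 a a⁻¹ ha (inv_mem ha)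
      have e : ρ a⁻¹ * ρ a = 1 := by rw [← map_mul, inv_mul_cancel, map_one]
      rw [← sub_eq_zero, ← h]
      simp only [sub_mul, mul_sub, one_mul, mul_one, e]
      abel
  have hX₀S : ∀ x ∈ X₀, 1 + x ∈ MonoidHom.mrange ρ := fun x hx => by
    obtain ⟨a, -, rfl⟩ := hX₀mem x hx
    exact ⟨a, by rw [add_sub_cancel]⟩
  obtain ⟨hc1, hc2⟩ := hfix X₀ A₀ (inf_le_left.trans hB₁G) (fun g => ⟨fun hg =>
    AddSubgroup.subset_closure ⟨g, hg, rfl⟩, fun hg => by
      obtain ⟨a, ha, e⟩ := hX₀mem _ hg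
      rwa [hρinj (sub_left_injective e)]⟩) hX₀S
  have hgood₀ : Good ρ X₀ := by
    refine ⟨fun x hx y hy => ?_, hX₀S, ?_, fun e => hA₀ne ?_⟩
    · obtain ⟨a, ha, rfl⟩ := hX₀mem x hx
      obtain ⟨b, hb, rfl⟩ := hX₀mem y hy
      exact hgen0 b a hb ha
    · rw [← hc1, ← hc2]; exact hA₀off
    · rw [e, AddSubgroup.card_bot] at hc1
      exact Subgroup.card_eq_one.1 hc1
  -- the best one
  obtain ⟨n, hn⟩ := exists_ser_top ρ hG hchar
  haveI : Finite (AddMonoid.End (Additive ↥V)) := DFunLike.finite _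
  haveI : Nonempty {X // Good ρ X ∧ Nat.card X = Nat.card X₀} := ⟨⟨X₀, hgood₀, rfl⟩⟩
  obtain ⟨⟨X, hX, hXc⟩, hXmax⟩ := Finite.exists_max
    (fun X : {X // Good ρ X ∧ Nat.card X = Nat.card X₀} =>
      ∑ i ∈ Finset.range (n + 1), Nat.card (X.1 ⊓ ser ρ i : AddSubgroup _))
  have hall : ∀ g : ↥G, (grp ρ X hX.quad).map (MulAut.conj g).toMonoidHom ≤
      Subgroup.normalizer (grp ρ X hX.quad : Set ↥G) := by
    by_contra hne
    obtain ⟨X', hX', hc', hlt⟩ := improve hp hG hchar hM n hn hX hne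
    exact absurd (hXmax ⟨X', hX', hc'.trans hXc⟩) (not_le.2 hlt)
  set A := (grp ρ X hX.quad).map G.subtype with hAdef
  have hAG : A ≤ G := Subgroup.map_subtype_le _
  have hiff : ∀ g : ↥G, (g : Ω) ∈ A ↔ ρ g - 1 ∈ X := fun g =>
    (Subgroup.mem_map_iff_mem Subtype.val_injective).trans (mem_grp ρ)
  obtain ⟨hca, hcf⟩ := hfix X A hAG hiff hX.sub
  have hmul : ∀ a b : ↥G, (a : Ω) ∈ A → (b : Ω) ∈ A → (ρ a - 1) * (ρ b - 1) = 0 := fun a b ha hb =>
    hX.quad _ ((hiff a).1 ha) _ ((hiff b).1 hb)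
  refine ⟨A, hAG, fun e => hX.ne ?_, ⟨⟨⟨fun a b => ?_⟩⟩, fun a ha => ?_⟩, by rw [hca, hcf]; exact hX.off,
    ?_, ?_⟩
  · rw [e, Subgroup.card_bot] at hca
    exact AddSubgroup.card_eq_one.1 hca.symm
  · refine Subtype.ext ?_
    have h : ρ (⟨a, hAG a.2⟩ * ⟨b, hAG b.2⟩ : ↥G) = ρ (⟨b, hAG b.2⟩ * ⟨a, hAG a.2⟩ : ↥G) := by
      have h1 := hmul ⟨a, hAG a.2⟩ ⟨b, hAG b.2⟩ a.2 b.2
      have h2 := hmul ⟨b, hAG b.2⟩ ⟨a, hAG a.2⟩ b.2 a.2
      rw [map_mul, map_mul, ← sub_eq_zero]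
      simp only [sub_mul, mul_sub, one_mul, mul_one] at h1 h2
      calc _ = (ρ ⟨a, hAG a.2⟩ * ρ ⟨b, hAG b.2⟩ - ρ ⟨b, hAG b.2⟩ - (ρ ⟨a, hAG a.2⟩ - 1)) -
            (ρ ⟨b, hAG b.2⟩ * ρ ⟨a, hAG a.2⟩ - ρ ⟨a, hAG a.2⟩ - (ρ ⟨b, hAG b.2⟩ - 1)) := by abel
        _ = 0 := by rw [h1, h2, sub_zero]
    exact (congrArg (fun g : ↥G => (g : Ω)) (hρinj h) :)
  · set g : ↥G := ⟨a, hAG ha⟩
    have hsq := hmul g g ha ha
    have hpow : ∀ k : ℕ, ρ (g ^ k) = 1 + k • (ρ g - 1) := fun k => by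
      induction k with
      | zero => simp
      | succ k ih =>
        rw [pow_succ, map_mul, ih, succ_nsmul]
        have : (k • (ρ g - 1)) * (ρ g - 1) = 0 := by rw [smul_mul_assoc, hsq, smul_zero]
        rw [mul_sub, mul_one, sub_eq_zero] at this
        rw [add_mul, one_mul, this]; abel
    have h := hpow p
    rw [hchar, add_zero, ← map_one ρ] at h
    exact congrArg Subtype.val (hρinj h)
  · rw [Subgroup.commutator_eq_bot_iff_le_centralizer, Subgroup.commutator_le]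
    intro v hv a ha
    rw [Subgroup.mem_centralizer_iff]
    intro b hb
    have h := hmul ⟨b, hAG hb⟩ ⟨a, hAG ha⟩ hb ha
    have h' := congrArg (fun r : AddMonoid.End (Additive ↥V) => r (Additive.ofMul ⟨v, hv⟩)) h
    change ρ ⟨b, hAG hb⟩ (ρ ⟨a, hAG ha⟩ _ - _) - (ρ ⟨a, hAG ha⟩ _ - _) = 0 at h'
    rw [sub_eq_zero] at h'
    have h'' := congrArg (fun q : Additive ↥V => (q.toMul : Ω)) h'
    simp only [hρ, toMul_sub, Subgroup.coe_div, toMul_ofMul, div_eq_mul_inv] at h''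
    have e : ⁅v, a⁆ = (a * v * a⁻¹ * v⁻¹)⁻¹ := by simp [commutatorElement_def, mul_assoc]
    rw [e]
    exact ((Commute.inv_right (mul_inv_eq_iff_eq_mul.1 h''))).eq
  · intro g hg a ha
    have hle : Subgroup.closure {x : Ω | ∃ h ∈ G, ∃ a ∈ A, x = h * a * h⁻¹} ≤
        G ⊓ Subgroup.normalizer (A : Set Ω) := by
      rw [Subgroup.closure_le]
      rintro _ ⟨k, hk, b, hb, rfl⟩
      rw [SetLike.mem_coe, Subgroup.mem_inf]
      refine ⟨mul_mem (mul_mem hk (hAG hb)) (inv_mem hk), ?_⟩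
      have h1 := hall ⟨k, hk⟩ (Subgroup.mem_map_of_mem _ ((hiff ⟨b, hAG hb⟩).1 hb :
        (⟨b, hAG hb⟩ : ↥G) ∈ grp ρ X hX.quad))
      rw [Subgroup.mem_normalizer_iff]
      intro x
      constructor
      · intro hx
        exact (hiff _).2 ((Subgroup.mem_normalizer_iff.1 h1 ⟨x, hAG hx⟩).1 ((hiff ⟨x, hAG hx⟩).1 hx))
      · intro hx
        have hxG : x ∈ G := by
          have hy : k * b * k⁻¹ ∈ G := mul_mem (mul_mem hk (hAG hb)) (inv_mem hk)
          have := mul_mem (mul_mem (inv_mem hy) (hAG hx)) hy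
          simpa [mul_assoc] using this
        exact (hiff ⟨x, hxG⟩).2 ((Subgroup.mem_normalizer_iff.1 h1 ⟨x, hxG⟩).2 ((hiff _).1 hx))
    exact (Subgroup.mem_normalizer_iff.1 (hle hg).2 a).1 ha

end

end Cfsg.Agent.S1935
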