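import Cfsg.Statements.S1939
import Cfsg.Agent.Lib.LocalFusion.Basic

set_option autoImplicit false
open Cfsg

namespace Cfsg.Agent.S1939

open Cfsg.Agent.Lib.LocalFusion in
lemma pow_weakly_closed {G : Type*} [Group G] [Finite G] {p : ℕ} [Fact p.Prime] (S : Sylow p G) (a : G)
    (haS : a ∈ (S : Subgroup G))
    (hwc : ∀ g : G, g * a * g⁻¹ ∈ (S : Subgroup G) → g * a * g⁻¹ = a) (n : ℕ) (g : G)
    (hg : g * a ^ n * g⁻¹ ∈ (S : Subgroup G)) : g * a ^ n * g⁻¹ = a ^ n := by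
  have hcen : ∀ s ∈ (S : Subgroup G), s * a = a * s := fun s hs => by
    have := hwc s ((S : Subgroup G).mul_mem ((S : Subgroup G).mul_mem hs haS) ((S : Subgroup G).inv_mem hs))
    exact mul_inv_eq_iff_eq_mul.1 this
  let C : Subgroup G := Subgroup.centralizer {g * a ^ n * g⁻¹}
  have ha : a ∈ C := Subgroup.mem_centralizer_singleton_iff.2 (hcen _ hg).symm
  have hga : g * a * g⁻¹ ∈ C := Subgroup.mem_centralizer_singleton_iff.2
    (by simp [mul_assoc]; rw [← mul_assoc a (a ^ n), ← mul_assoc (a ^ n) a, (Commute.self_pow a n).eq])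
  obtain ⟨c, hc, R, -, hR, hVR, hUR⟩ := exists_conj_sup_isPGroup (p := p)
    (Subgroup.zpowers_le.2 hga) (Subgroup.zpowers_le.2 ha)
    (isPGroup_zpowers (isPGroup_map_conj S.2 g)
      (mem_map_conj.2 (show g⁻¹ * (g * a * g⁻¹) * g ∈ (S : Subgroup G) from
        (show g⁻¹ * (g * a * g⁻¹) * g = a by simp [mul_assoc]).symm ▸ haS)))
    (isPGroup_zpowers S.2 haS)
  obtain ⟨h, hh⟩ := exists_sylow_conj_mem S hR
  have e1 : h⁻¹ * a * h = a := by
    simpa using hwc h⁻¹ ((inv_inv h).symm ▸ hh a (hVR (Subgroup.mem_zpowers a)) : h⁻¹ * a * h⁻¹⁻¹ ∈ (S : Subgroup G))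
  have eq : h⁻¹ * (c * (g * a * g⁻¹) * c⁻¹) * h = (h⁻¹ * c * g) * a * (h⁻¹ * c * g)⁻¹ := by simp [mul_assoc]
  have e2 := hwc (h⁻¹ * c * g) (eq ▸ hh _ (hUR _ (Subgroup.mem_zpowers _)))
  rw [← eq] at e2
  have e3 : c * (g * a * g⁻¹) * c⁻¹ = h * a * h⁻¹ := by
    conv_rhs => rw [← e2]
    simp [mul_assoc]
  have e4 : h * a * h⁻¹ = a := by
    conv_rhs => rw [show a = h * (h⁻¹ * a * h) * h⁻¹ by simp [mul_assoc], e1]
  have e5 : c * (g * a ^ n * g⁻¹) * c⁻¹ = a ^ n := by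
    rw [← conj_pow, ← conj_pow, e3, e4]
  have e6 := Subgroup.mem_centralizer_singleton_iff.1 hc
  rwa [e6, mul_inv_cancel_right] at e5


/-- Let S be a Sylow p-subgroup of the finite group G and a an element of S that is the only G-conjugate of a lying in S. Then every power of a has the same property: for every n, the only G-conjugate of a^n lying in S is a^n. -/
theorem result {G : Type*} [Group G] [Finite G] {p : ℕ} [Fact p.Prime] (S : Sylow p G) (a : G)
    (haS : a ∈ (S : Subgroup G)) (hwc : ∀ g : G, g * a * g⁻¹ ∈ (S : Subgroup G) → g * a * g⁻¹ = a) (n : ℕ) :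
    ∀ g : G, g * a ^ n * g⁻¹ ∈ (S : Subgroup G) → g * a ^ n * g⁻¹ = a ^ n := by
  exact fun g hg => pow_weakly_closed S a haS hwc n g hg

end Cfsg.Agent.S1939
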