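import Cfsg.Statements.S1940
import Mathlib.GroupTheory.Sylow
import Mathlib.GroupTheory.Index
import Mathlib.Algebra.BigOperators.GroupWithZero.Action

set_option autoImplicit false
open Cfsg

namespace Cfsg.Agent.S1940

/-- Let the finite group L act by automorphisms on the finite abelian group M, and let N be an L-invariant subgroup of M such that M/N is a p-group on which L acts trivially (every l • m lies in the coset mN). If every element of M is a product of an element of N and an element fixed by a Sylow p-subgroup T of L, then every element of M is a product of an element of N and an element fixed by all of L. -/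
theorem result {L : Type*} [Group L] [Finite L] {M : Type*} [CommGroup M] [Finite M] [MulDistribMulAction L M]
    {p : ℕ} [Fact p.Prime] (N : Subgroup M) (hN : ∀ (l : L) (m : M), m ∈ N → l • m ∈ N)
    (hquot : IsPGroup p (M ⧸ N)) (htriv : ∀ (l : L) (m : M), (l • m) * m⁻¹ ∈ N) (T : Sylow p L)
    (hT : ∀ m : M, ∃ n ∈ N, ∃ c : M, (∀ t ∈ (T : Subgroup L), t • c = c) ∧ m = n * c) :
    ∀ m : M, ∃ n ∈ N, ∃ c : M, (∀ l : L, l • c = c) ∧ m = n * c := by
  classical
  intro m
  obtain ⟨n₀, hn₀, c, hc, hm⟩ := hT m
  haveI : Fintype (L ⧸ (T : Subgroup L)) := Fintype.ofFinite _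
  let f : L ⧸ (T : Subgroup L) → M := Quotient.lift (fun l : L => l • c) (by
    intro a b h
    have h' : a⁻¹ * b ∈ (T : Subgroup L) := QuotientGroup.leftRel_apply.1 h
    show a • c = b • c
    rw [show b = a * (a⁻¹ * b) by simp, mul_smul, hc _ h'])
  let c' : M := ∏ q, f q
  have hf : ∀ (l : L) q, f (l • q) = l • f q := by
    intro l q
    induction q using Quotient.inductionOn with
    | _ a => exact mul_smul l a c
  have hfix : ∀ l : L, l • c' = c' := fun l => by
    show l • (∏ q, f q) = _
    rw [Finset.smul_prod']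
    simp only [← hf]
    exact Equiv.prod_comp (MulAction.toPerm l) f
  have hfN : ∀ q, (QuotientGroup.mk (f q) : M ⧸ N) = QuotientGroup.mk c := by
    intro q
    induction q using Quotient.inductionOn with
    | _ a =>
      refine QuotientGroup.eq_iff_div_mem.2 ?_
      rw [div_eq_mul_inv]
      exact htriv a c
  have hc' : (QuotientGroup.mk c' : M ⧸ N) = (QuotientGroup.mk c) ^ (T : Subgroup L).index := by
    show (QuotientGroup.mk' N) c' = _
    rw [map_prod]
    simp only [QuotientGroup.mk'_apply, hfN, Finset.prod_const, Finset.card_univ]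
    rw [← Nat.card_eq_fintype_card]; rfl
  obtain ⟨k, hk⟩ := hquot (QuotientGroup.mk c)
  have hcop : (T : Subgroup L).index.Coprime (p ^ k) :=
    Nat.Coprime.pow_right k (((Fact.out : p.Prime).coprime_iff_not_dvd.2 T.not_dvd_index).symm)
  have hord : orderOf (QuotientGroup.mk c : M ⧸ N) ∣ p ^ k := orderOf_dvd_of_pow_eq_one hk
  obtain ⟨j, hj⟩ := exists_pow_eq_self_of_coprime (Nat.Coprime.coprime_dvd_right hord hcop)
  rw [← hc'] at hj
  refine ⟨m / c' ^ j, ?_, c' ^ j, fun l => by rw [smul_pow', hfix], by simp⟩
  rw [← QuotientGroup.eq_iff_div_mem, QuotientGroup.mk_pow, hj, hm, QuotientGroup.mk_mul,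
    (QuotientGroup.eq_one_iff n₀).2 hn₀, one_mul]

end Cfsg.Agent.S1940
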