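import Cfsg.Statements.S1941
import Cfsg.Agent.Lib.Components.Bender

set_option autoImplicit false
open Cfsg

namespace Cfsg.Agent.S1941

open Subgroup Cfsg.Agent.Lib.Components

/-- Let G be a finite group with no nontrivial normal subgroup of order prime to p, T a Sylow p-subgroup of G and E(G) the layer of G (the subgroup generated by its components). An automorphism of G of p-power order that fixes T and E(G) elementwise is inner. -/
theorem result {G : Type*} [Group G] [Finite G] {p : ℕ} [Fact p.Prime] (hcore : Cfsg.pPrimeCore p G = ⊥)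
    (T : Sylow p G) (α : MulAut G) (hα : ∃ j : ℕ, orderOf α = p ^ j) (hfixT : ∀ x ∈ (T : Subgroup G), α x = x)
    (hfixE : ∀ x ∈ Cfsg.layer G, α x = x) : ∃ g : G, ∀ x : G, α x = g * x * g⁻¹ := by
  classical
  set F := Cfsg.generalizedFittingSubgroup G with hF
  set C := Subgroup.centralizer (F : Set G) with hC
  haveI hFn : F.Normal := inferInstance
  have hCF : C ≤ Cfsg.fittingSubgroup G := centralizer_gfs_le_fitting
  have hfit : Cfsg.fittingSubgroup G ≤ Cfsg.pCore p G := by
    refine (fittingSubgroup_le_sup p).trans ?_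
    rw [hcore, sup_bot_eq]
  have hCp : IsPGroup p ↥C := (pCore_isPGroup p).to_le (hCF.trans hfit)
  have hab : ∀ a b : ↥C, a * b = b * a := fun a b => Subtype.ext
    (mem_centralizer_iff.1 b.2 a (fitting_le_gfs (hCF a.2)))
  letI : CommGroup ↥C := { (inferInstance : Group ↥C) with mul_comm := hab }
  have hOT : Cfsg.pCore p G ≤ (T : Subgroup G) := by
    obtain ⟨R, hR⟩ := (pCore_isPGroup (G := G) p).exists_le_sylow
    obtain ⟨g, rfl⟩ := MulAction.exists_smul_eq G T R
    haveI : (Cfsg.pCore p G).Normal := inferInstance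
    intro x hx
    have h1 := hR (Subgroup.Normal.conj_mem inferInstance x hx g)
    rw [Sylow.smul_def, Sylow.pointwise_smul_def, Subgroup.mem_pointwise_smul_iff_inv_smul_mem] at h1
    simpa [MulAut.smul_def, mul_assoc] using h1
  have hαF : ∀ f ∈ F, α f = f := by
    intro f hf
    have hle : F ≤ MonoidHom.eqLocus α.toMonoidHom (MonoidHom.id G) :=
      sup_le (fun x hx => hfixE x hx) (fun x hx => hfixT x (hOT (hfit hx)))
    exact hle hf
  have hd : ∀ g : G, g⁻¹ * α g ∈ C := by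
    intro g
    refine mem_centralizer_iff.2 fun f hf => ?_
    have h1 : α (g * f * g⁻¹) = g * f * g⁻¹ := hαF _ (Subgroup.Normal.conj_mem inferInstance f hf g)
    rw [map_mul, map_mul, hαF f hf, map_inv] at h1
    calc f * (g⁻¹ * α g) = g⁻¹ * (g * f * g⁻¹) * α g := by group
      _ = g⁻¹ * (α g * f * (α g)⁻¹) * α g := by rw [h1]
      _ = _ := by group
  have hdT : ∀ t ∈ (T : Subgroup G), ∀ g : G, (t * g)⁻¹ * α (t * g) = g⁻¹ * α g := by
    intro t ht g
    rw [map_mul, hfixT t ht]; group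
  let D : G ⧸ (T : Subgroup G) → ↥C := fun q => Quotient.liftOn' q (fun g => ⟨g⁻¹⁻¹ * α g⁻¹, hd g⁻¹⟩) (by
    intro a b hab
    rw [QuotientGroup.leftRel_apply] at hab
    apply Subtype.ext
    show a⁻¹⁻¹ * α a⁻¹ = b⁻¹⁻¹ * α b⁻¹
    have := hdT _ hab b⁻¹
    rwa [show a⁻¹ * b * b⁻¹ = a⁻¹ by group] at this)
  haveI : Fintype (G ⧸ (T : Subgroup G)) := Fintype.ofFinite _
  let S : ↥C := ∏ q, D q
  have hcop : (Nat.card ↥C).Coprime (T : Subgroup G).index := by
    obtain ⟨k, hk⟩ := IsPGroup.iff_card.1 hCp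
    rw [hk]
    exact ((Nat.Prime.coprime_iff_not_dvd Fact.out).2 T.not_dvd_index).pow_left k
  let r := powCoprime hcop
  let c : ↥C := r.symm S⁻¹
  have hc : c ^ (T : Subgroup G).index = S⁻¹ := r.apply_symm_apply S⁻¹
  refine ⟨(c : G), fun h => ?_⟩
  haveI hCn : C.Normal := normal_centralizer
  let cj : ↥C →* ↥C := (MulAut.conjNormal h⁻¹).toMonoidHom
  have hcj : ∀ a : ↥C, ((cj a : ↥C) : G) = h⁻¹ * a * h := fun a => by
    simp [cj, MulAut.conjNormal_apply]
  have hstep : ∀ q, D (h⁻¹ • q) = cj (D q) * ⟨h⁻¹ * α h, hd h⟩ := by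
    intro q
    induction q using QuotientGroup.induction_on with
    | _ g =>
      apply Subtype.ext
      rw [Subgroup.coe_mul, hcj]
      show (h⁻¹ * g)⁻¹⁻¹ * α (h⁻¹ * g)⁻¹ = h⁻¹ * (g⁻¹⁻¹ * α g⁻¹) * h * (h⁻¹ * α h)
      rw [mul_inv_rev, map_mul, inv_inv, mul_inv_rev, inv_inv]; group
  have hS : S = cj S * ⟨h⁻¹ * α h, hd h⟩ ^ (T : Subgroup G).index := by
    calc S = ∏ q, D (h⁻¹ • q) := (Equiv.prod_comp (MulAction.toPerm h⁻¹) D).symm
      _ = _ := by
        rw [Finset.prod_congr rfl fun q _ => hstep q, Finset.prod_mul_distrib, ← map_prod, Finset.prod_const,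
          Finset.card_univ, ← Nat.card_eq_fintype_card, Subgroup.index_eq_card]
  have heq : (⟨h⁻¹ * α h, hd h⟩ : ↥C) = cj c * c⁻¹ := by
    apply r.injective
    show (⟨h⁻¹ * α h, hd h⟩ : ↥C) ^ (T : Subgroup G).index = (cj c * c⁻¹) ^ (T : Subgroup G).index
    rw [mul_pow, ← map_pow, inv_pow, hc, inv_inv, map_inv, eq_inv_mul_iff_mul_eq, ← hS]
  have := congrArg Subtype.val heq
  rw [Subgroup.coe_mul, hcj, Subgroup.coe_inv] at this
  calc α h = h * (h⁻¹ * α h) := by group
    _ = h * (h⁻¹ * c * h * (c : G)⁻¹) := congrArg (h * ·) this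
    _ = _ := by group

end Cfsg.Agent.S1941
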