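import Cfsg.Statements.S1944
import Cfsg.Agent.Lib.LocalFusion.PPrimeP

set_option autoImplicit false
open Cfsg

namespace Cfsg.Agent.S1944

open Subgroup


/-- Let S be a Sylow p-subgroup of the finite group G and suppose that the centre Z(S) lies in O_{p',p}(G). The elements of S each of which is its only G-conjugate in S form a subgroup W of Z(S); W is then a direct factor of Z(S): there is a subgroup K of Z(S) with W ∩ K = 1 and WK = Z(S). -/
theorem result {G : Type*} [Group G] [Finite G] {p : ℕ} [Fact p.Prime] (S : Sylow p G)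
    (hZ : ((S : Subgroup G) ⊓ Subgroup.centralizer ((S : Subgroup G) : Set G)) ≤ Cfsg.pPrimePCore p G) :
    ∃ W K : Subgroup G, (∀ x : G, x ∈ W ↔ (x ∈ (S : Subgroup G) ∧ ∀ g : G, g * x * g⁻¹ ∈ (S : Subgroup G) → g * x * g⁻¹ = x)) ∧
      K ≤ ((S : Subgroup G) ⊓ Subgroup.centralizer ((S : Subgroup G) : Set G)) ∧ W ⊓ K = ⊥ ∧ W ⊔ K = ((S : Subgroup G) ⊓ Subgroup.centralizer ((S : Subgroup G) : Set G)) := by
  haveI := Cfsg.pPrimeCore_normal p G
  haveI : (Cfsg.pPrimePCore p G).Normal := by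
    haveI := Cfsg.pCore_normal p (G ⧸ Cfsg.pPrimeCore p G)
    exact Normal.comap inferInstance _
  set ZS : Subgroup G := (S : Subgroup G) ⊓ centralizer ((S : Subgroup G) : Set G) with hZS
  set H : Subgroup G := (S : Subgroup G) ⊓ Cfsg.pPrimePCore p G with hH
  set A : Subgroup G := H ⊓ centralizer (H : Set G) with hA
  set N : Subgroup G := normalizer (H : Set G) with hN
  have hSN : (S : Subgroup G) ≤ N :=
    (le_inf le_normalizer le_normalizer_of_normal).trans inf_normalizer_le_normalizer_inf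
  have hZA : ZS ≤ A := fun z hz =>
    ⟨⟨hz.1, hZ hz⟩, centralizer_le (SetLike.coe_subset_coe.2 inf_le_left) hz.2⟩
  have hNA : N ≤ normalizer (A : Set G) := by
    refine (le_inf le_rfl ?_).trans inf_normalizer_le_normalizer_inf
    exact (normal_subgroupOf_iff_le_normalizer (centralizer_le_normalizer _)).1
      (normal_subgroupOf_centralizer_normalizer _)
  set W : Subgroup G := ZS ⊓ centralizer (N : Set G) with hW
  have hWiff : ∀ x : G, x ∈ W ↔
      (x ∈ (S : Subgroup G) ∧ ∀ g : G, g * x * g⁻¹ ∈ (S : Subgroup G) → g * x * g⁻¹ = x) := by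
    intro x
    constructor
    · rintro ⟨hx, hxN⟩
      refine ⟨hx.1, fun g hg => ?_⟩
      have hxH : x ∈ H := ⟨hx.1, hZ hx⟩
      obtain ⟨n, hn, hne⟩ := Lib.LocalFusion.conj_eq_in_normalizer S hxH g
        ⟨hg, (inferInstance : (Cfsg.pPrimePCore p G).Normal).conj_mem x (hZ hx) g⟩
      rw [← hne, show n * x = x * n from mem_centralizer_iff.1 hxN n hn, mul_inv_cancel_right]
    · rintro ⟨hxS, hx⟩
      have hxc : x ∈ centralizer ((S : Subgroup G) : Set G) := mem_centralizer_iff.2 fun s hs => by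
        have := hx s ((S : Subgroup G).mul_mem ((S : Subgroup G).mul_mem hs hxS) ((S : Subgroup G).inv_mem hs))
        calc s * x = s * x * s⁻¹ * s := by simp
          _ = x * s := by rw [this]
      have hxH : x ∈ H := ⟨hxS, hZ ⟨hxS, hxc⟩⟩
      refine ⟨⟨hxS, hxc⟩, mem_centralizer_iff.2 fun n hn => ?_⟩
      have := hx n ((mem_normalizer_iff.1 hn x).1 hxH).1
      calc n * x = n * x * n⁻¹ * n := by simp
        _ = x * n := by rw [this]
  -- the relative trace `ZS → W`
  haveI hAcomm : IsMulCommutative ↥A :=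
    le_centralizer_iff_isMulCommutative.1 (inf_le_right.trans (centralizer_le (SetLike.coe_subset_coe.2 inf_le_left)))
  letI : CommGroup ↥A := { (inferInstance : Group ↥A) with mul_comm := fun a b => IsMulCommutative.is_comm.comm a b }
  set T : Subgroup ↥N := (S : Subgroup G).subgroupOf N with hT
  letI : Fintype (↥N ⧸ T) := Fintype.ofFinite _
  have hconjA : ∀ n : ↥N, ∀ z ∈ ZS, (n : G) * z * (n : G)⁻¹ ∈ A := fun n z hz =>
    (mem_normalizer_iff.1 (hNA n.2) z).1 (hZA hz)
  let τ : ↥ZS →* ↥A :=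
    { toFun := fun z => ∏ c : ↥N ⧸ T, ⟨(c.out : G) * z * (c.out : G)⁻¹, hconjA c.out z z.2⟩
      map_one' := Finset.prod_eq_one fun c _ => by ext; simp
      map_mul' := fun z w => by
        rw [← Finset.prod_mul_distrib]
        refine Finset.prod_congr rfl fun c _ => ?_
        ext; simp [mul_assoc] }
  have hτfix : ∀ (z : ↥ZS) (n : G), n ∈ N → n * (τ z : G) * n⁻¹ = (τ z : G) := by
    intro z n hn
    let φ : ↥A →* ↥A :=
      { toFun := fun a => ⟨n * a * n⁻¹, (mem_normalizer_iff.1 (hNA hn) a).1 a.2⟩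
        map_one' := by ext; simp
        map_mul' := fun a b => by ext; simp [mul_assoc] }
    have hφ : φ (τ z) = τ z := by
      show φ (∏ c : ↥N ⧸ T, _) = ∏ c : ↥N ⧸ T, _
      rw [map_prod]
      refine Fintype.prod_equiv (MulAction.toPerm (⟨n, hn⟩ : ↥N)) _ _ fun c => ?_
      obtain ⟨s, hs⟩ := QuotientGroup.mk_out_eq_mul T ((⟨n, hn⟩ : ↥N) * c.out)
      have hc : MulAction.toPerm (⟨n, hn⟩ : ↥N) c = (((⟨n, hn⟩ : ↥N) * c.out : ↥N) : ↥N ⧸ T) := by
        conv_lhs => rw [← QuotientGroup.out_eq' c]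
        rfl
      ext
      show n * ((c.out : G) * z * (c.out : G)⁻¹) * n⁻¹ = _
      simp only [hc, hs]
      have hsz : ((s : ↥N) : G) * (z : G) = (z : G) * ((s : ↥N) : G) :=
        mem_centralizer_iff.1 z.2.2 _ s.2
      calc n * ((c.out : G) * z * (c.out : G)⁻¹) * n⁻¹
          = n * (c.out : G) * ((z : G) * ((s : ↥N) : G) * ((s : ↥N) : G)⁻¹) * (n * (c.out : G))⁻¹ := by
            simp [mul_assoc]
        _ = n * (c.out : G) * (((s : ↥N) : G) * (z : G) * ((s : ↥N) : G)⁻¹) * (n * (c.out : G))⁻¹ := by rw [hsz]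
        _ = _ := by simp [mul_assoc]
    exact congrArg Subtype.val hφ
  have hτW : ∀ z : ↥ZS, (τ z : G) ∈ W := by
    intro z
    have hc : (τ z : G) ∈ centralizer (N : Set G) := mem_centralizer_iff.2 fun n hn => by
      calc n * (τ z : G) = n * (τ z : G) * n⁻¹ * n := by simp
        _ = (τ z : G) * n := by rw [hτfix z n hn]
    exact ⟨⟨(τ z).2.1.1, centralizer_le (SetLike.coe_subset_coe.2 hSN) hc⟩, hc⟩
  set m := Fintype.card (↥N ⧸ T) with hm
  have hτw : ∀ (w : G) (hw : w ∈ W), (τ ⟨w, hw.1⟩ : G) = w ^ m := by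
    intro w hw
    have : τ ⟨w, hw.1⟩ = ⟨w, hZA hw.1⟩ ^ m := by
      show ∏ c : ↥N ⧸ T, _ = _
      rw [hm, ← Finset.card_univ]
      refine Finset.prod_eq_pow_card fun c _ => ?_
      ext
      show (c.out : G) * w * (c.out : G)⁻¹ = w
      rw [mem_centralizer_iff.1 hw.2 _ c.out.2, mul_inv_cancel_right]
    rw [this]
    rfl
  have hmcop : ∀ w : G, w ∈ ZS → m.Coprime (orderOf w) := by
    intro w hw
    obtain ⟨k, hk⟩ := IsPGroup.iff_orderOf.1 S.isPGroup' ⟨w, hw.1⟩
    rw [← orderOf_mk w hw.1, hk]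
    refine Nat.Coprime.pow_right k ?_
    rw [Nat.coprime_comm, (Fact.out : p.Prime).coprime_iff_not_dvd, hm, ← Nat.card_eq_fintype_card]
    intro hdvd
    apply S.not_dvd_index
    rw [← relIndex_top_right, ← relIndex_mul_relIndex _ _ _ hSN le_top]
    exact dvd_mul_of_dvd_left hdvd _
  refine ⟨W, τ.ker.map ZS.subtype, hWiff, map_subtype_le _, ?_, le_antisymm (sup_le inf_le_left (map_subtype_le _)) ?_⟩
  · rw [eq_bot_iff]
    rintro w ⟨hw, z, hz, rfl⟩
    obtain ⟨k, hk⟩ := exists_pow_eq_self_of_coprime (hmcop _ hw.1)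
    have h1 : ((ZS.subtype z) : G) ^ m = 1 := by
      rw [← hτw _ hw]
      exact congrArg Subtype.val (MonoidHom.mem_ker.1 hz)
    rw [h1, one_pow] at hk
    rw [mem_bot]
    exact hk.symm
  · intro z hz
    set x : G := (τ ⟨z, hz⟩ : G) with hx
    obtain ⟨k, hk⟩ := exists_pow_eq_self_of_coprime (hmcop x (hτW ⟨z, hz⟩).1)
    have hwW : x ^ k ∈ W := pow_mem (hτW _) k
    have hker : (⟨x ^ k, hwW.1⟩ : ↥ZS)⁻¹ * ⟨z, hz⟩ ∈ τ.ker := by
      rw [MonoidHom.mem_ker, map_mul, map_inv, inv_mul_eq_one]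
      ext
      rw [hτw _ hwW, ← pow_mul, mul_comm, pow_mul, hk]
    have h1 : (x ^ k)⁻¹ * z ∈ τ.ker.map ZS.subtype := ⟨_, hker, rfl⟩
    have := mul_mem (mem_sup_left (T := τ.ker.map ZS.subtype) hwW) (mem_sup_right (S := W) h1)
    simpa using this

end Cfsg.Agent.S1944
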