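import Cfsg.Statements.S1945
import Cfsg.Agent.Lib.KInf.WeakClosure
import Cfsg.Agent.Lib.KInf.KInfLocal
import Cfsg.Agent.Lib.KInf.Split
import Cfsg.Agent.Lib.KInf.Fusion
import Cfsg.Agent.Lib.Hall.Solvable
import Cfsg.Agent.Lib.OddLocal.PLengthOne
-- import your own Cfsg.Agent.* helpers here

set_option autoImplicit false
open Cfsg

namespace Cfsg.Agent.S1945

open Cfsg.Agent.Lib.KInf in
/-- Odd primes: the weakly closed elements are the elements of `Z(U)` central in `N(U)`, `U` the K-infinity subgroup. -/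
lemma odd_split {G : Type*} [Group G] [Finite G] {p : ℕ} [Fact p.Prime] (hp : p ≠ 2) (S : Sylow p G) :
    ∃ W K : Subgroup G, (∀ x : G, x ∈ W ↔ (x ∈ (S : Subgroup G) ∧ ∀ g : G, g * x * g⁻¹ ∈ (S : Subgroup G) → g * x * g⁻¹ = x)) ∧
      K ≤ ((S : Subgroup G) ⊓ Subgroup.centralizer ((S : Subgroup G) : Set G)) ∧ W ⊓ K = ⊥ ∧ W ⊔ K = ((S : Subgroup G) ⊓ Subgroup.centralizer ((S : Subgroup G) : Set G)) := by
  have hW := Cfsg.Agent.Lib.KInf.isConjugacyFunctor_induced (X := G) (isCharPFunctor_kInfLower p)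
  set U := Cfsg.inducedFunctor Cfsg.kInfLower (S : Subgroup G) with hU
  set N := Subgroup.normalizer (U : Set G) with hN
  have hSN : (S : Subgroup G) ≤ N := Cfsg.Agent.Lib.LocalFusion.le_normalizer_functor hW S.2
  have hUS : U ≤ (S : Subgroup G) := induced_le _
  have hZU : (S : Subgroup G) ⊓ Subgroup.centralizer ((S : Subgroup G) : Set G) ≤ U := kInfLower_center_le _
  have hweak : ∀ x ∈ (S : Subgroup G), (∀ k ∈ N, k * x = x * k) → ∀ g : G, g * x * g⁻¹ ∈ (S : Subgroup G) → g * x * g⁻¹ = x := by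
    intro x hx hxN g hg
    refine weakClosure_elem hW (fun P _ => kInfLower_center_le P) ?_ _ ⊤ S rfl le_top S.2
      (by rw [Subgroup.relIndex_top_right]; exact S.not_dvd_index) x hx (fun k _ hk => hxN k hk) g (Subgroup.mem_top g) hg
    intro H T hTH hTp hTi hn
    obtain ⟨e, heT, heQ, hq⟩ := kInfLower_quad hTH hTp hTi hn
    refine ⟨e, heT, heQ, fun A B hAB hAP => ?_⟩
    obtain ⟨k, hk⟩ := Nat.exists_eq_add_of_le (show 2 ≤ p - 1 by
      have := (Fact.out : p.Prime).two_le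
      omega)
    have h2 : ∀ i, Cfsg.iterCommutator (A.map H.subtype) (Subgroup.zpowers e) (2 + i) = ⊥ := by
      intro i
      induction i with
      | zero => exact le_bot_iff.1 (le_trans (Subgroup.commutator_mono (Subgroup.commutator_mono hAP le_rfl) le_rfl) hq.le)
      | succ i ih =>
        show ⁅Cfsg.iterCommutator (A.map H.subtype) (Subgroup.zpowers e) (2 + i), Subgroup.zpowers e⁆ = ⊥
        rw [ih, Subgroup.commutator_bot_left]
    rw [hk, h2]
    exact bot_le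
  set M : Subgroup ↥N := (U ⊓ Subgroup.centralizer (U : Set G)).subgroupOf N with hM
  haveI : M.Normal := by
    refine Subgroup.normal_subgroupOf_of_le_normalizer fun k hk => ?_
    exact (Cfsg.Agent.Lib.LocalChar.le_nz_inf le_rfl (Cfsg.Agent.Lib.LocalChar.le_nz_centralizer le_rfl)) hk
  have hUN : U ≤ N := hUS.trans hSN
  have hMp : IsPGroup p ↥M :=
    (S.2.to_le (inf_le_left.trans hUS)).comap_of_injective N.subtype N.subtype_injective
  obtain ⟨K, hK, h1, h2⟩ := fixed_split (S.subtype hSN) M hMp fun a ha b hb => Subtype.ext (hb.2 a ha.1)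
  have hZS : (M ⊓ Subgroup.centralizer (((S.subtype hSN : Sylow p ↥N) : Subgroup ↥N) : Set ↥N)).map N.subtype =
      (S : Subgroup G) ⊓ Subgroup.centralizer ((S : Subgroup G) : Set G) := by
    ext x
    constructor
    · rintro ⟨y, ⟨hy, hyc⟩, rfl⟩
      exact ⟨hUS hy.1, fun s hs => congrArg Subtype.val (hyc ⟨s, hSN hs⟩ hs)⟩
    · intro hx
      exact ⟨⟨x, hSN hx.1⟩, ⟨⟨hZU hx, fun u hu => hx.2 u (hUS hu)⟩, fun s hs => Subtype.ext (hx.2 s hs)⟩, rfl⟩
  refine ⟨(M ⊓ Subgroup.center ↥N).map N.subtype, K.map N.subtype, fun x => ⟨?_, ?_⟩, ?_, ?_, ?_⟩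
  · rintro ⟨y, ⟨hy, hyc⟩, rfl⟩
    exact ⟨hUS hy.1, hweak _ (hUS hy.1) fun k hk => congrArg Subtype.val (Subgroup.mem_center_iff.1 hyc ⟨k, hk⟩)⟩
  · rintro ⟨hx, hxw⟩
    have hxc : x ∈ Subgroup.centralizer ((S : Subgroup G) : Set G) := fun s hs =>
      mul_inv_eq_iff_eq_mul.1 (hxw s (mul_mem (mul_mem hs hx) (inv_mem hs)))
    have hxU : x ∈ U := hZU ⟨hx, hxc⟩
    refine ⟨⟨x, hSN hx⟩, ⟨⟨hxU, fun u hu => hxc u (hUS hu)⟩, Subgroup.mem_center_iff.2 fun k => Subtype.ext ?_⟩, rfl⟩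
    exact mul_inv_eq_iff_eq_mul.1 (hxw k (hUS ((Subgroup.mem_normalizer_iff.1 k.2 x).1 hxU)))
  · rw [← hZS]; exact Subgroup.map_mono hK
  · rw [← Subgroup.map_inf _ _ _ N.subtype_injective, h1, Subgroup.map_bot]
  · rw [← Subgroup.map_sup, h2, hZS]

open Cfsg.Agent.Lib.KInf in
/-- Solvable groups: the weakly closed elements are those central modulo the `p'`-core. -/
lemma solvable_split {G : Type*} [Group G] [Finite G] [Group.IsSolvable G] {p : ℕ} [Fact p.Prime] (S : Sylow p G) :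
    ∃ W K : Subgroup G, (∀ x : G, x ∈ W ↔ (x ∈ (S : Subgroup G) ∧ ∀ g : G, g * x * g⁻¹ ∈ (S : Subgroup G) → g * x * g⁻¹ = x)) ∧
      K ≤ ((S : Subgroup G) ⊓ Subgroup.centralizer ((S : Subgroup G) : Set G)) ∧ W ⊓ K = ⊥ ∧ W ⊔ K = ((S : Subgroup G) ⊓ Subgroup.centralizer ((S : Subgroup G) : Set G)) := by
  set O := Cfsg.pPrimeCore p G with hO
  have hOc : (Nat.card ↥O).Coprime p := Cfsg.Agent.Lib.Hall.coprime_card_pPrimeCore p
  set π := QuotientGroup.mk' O with hπ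
  have hs : Function.Surjective π := QuotientGroup.mk'_surjective O
  have hd : (S : Subgroup G) ⊓ O = ⊥ := disjoint_iff.1 (Subgroup.disjoint_of_coprime_natCard (by
    obtain ⟨k, hk⟩ := IsPGroup.iff_card.1 S.2
    rw [hk]; exact (hOc.pow_right k).symm))
  have hinj : ∀ a ∈ (S : Subgroup G), ∀ b ∈ (S : Subgroup G), π a = π b → a = b := by
    intro a ha b hb hab
    have h1 : a⁻¹ * b ∈ (S : Subgroup G) ⊓ O := ⟨(S : Subgroup G).mul_mem ((S : Subgroup G).inv_mem ha) hb, QuotientGroup.eq.1 hab⟩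
    rw [hd, Subgroup.mem_bot, inv_mul_eq_one] at h1
    exact h1
  set S' := S.mapSurjective hs with hS'
  set Q := Cfsg.pCore p (G ⧸ O) with hQ
  haveI : Q.Normal := Cfsg.Agent.Lib.LocalChar.pCore_normal
  have hQp : IsPGroup p ↥Q := Cfsg.Agent.Lib.LocalChar.pCore_isPGroup
  have hQS : Q ≤ (S' : Subgroup (G ⧸ O)) := Cfsg.Agent.Lib.LocalChar.pCore_le_sylow S'
  have hcons : Subgroup.centralizer (Q : Set (G ⧸ O)) ≤ Q :=
    Cfsg.Agent.Lib.Hall.centralizer_pCore_le p (Cfsg.Agent.Lib.OddLocal.pPrimeCore_quotient_eq_bot p)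
  set M := Q ⊓ Subgroup.centralizer (Q : Set (G ⧸ O)) with hM
  haveI : M.Normal := inferInstance
  obtain ⟨K, hK, h1, h2⟩ := fixed_split S' M (hQp.to_le inf_le_left) fun a ha b hb => hb.2 a ha.1
  have hZM : ∀ y ∈ (S' : Subgroup (G ⧸ O)), y ∈ Subgroup.centralizer ((S' : Subgroup (G ⧸ O)) : Set (G ⧸ O)) → y ∈ M :=
    fun y _ hyc => ⟨hcons fun q hq => hyc q (hQS hq), fun q hq => hyc q (hQS hq)⟩
  have hcent : ∀ x ∈ (S : Subgroup G), π x ∈ Subgroup.centralizer ((S' : Subgroup (G ⧸ O)) : Set (G ⧸ O)) ↔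
      x ∈ Subgroup.centralizer ((S : Subgroup G) : Set G) := by
    intro x hx
    constructor
    · intro h s hs
      exact hinj _ (mul_mem hs hx) _ (mul_mem hx hs) (by rw [map_mul, map_mul]; exact h _ (Subgroup.mem_map_of_mem π hs))
    · rintro h _ ⟨s, hs, rfl⟩
      rw [← map_mul, ← map_mul, h s hs]
  have hmem : ∀ y ∈ M ⊓ Subgroup.centralizer ((S' : Subgroup (G ⧸ O)) : Set (G ⧸ O)),
      ∃ x ∈ (S : Subgroup G), π x = y := fun y hy => hQS hy.1.1
  have hmapinf : ∀ L : Subgroup (G ⧸ O), L ≤ M ⊓ Subgroup.centralizer ((S' : Subgroup (G ⧸ O)) : Set (G ⧸ O)) →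
      (S : Subgroup G) ⊓ L.comap π ≤ (S : Subgroup G) ⊓ Subgroup.centralizer ((S : Subgroup G) : Set G) :=
    fun L hL x hx => ⟨hx.1, (hcent x hx.1).1 (hL hx.2).2⟩
  refine ⟨(S : Subgroup G) ⊓ (M ⊓ Subgroup.center (G ⧸ O)).comap π, (S : Subgroup G) ⊓ K.comap π,
    fun x => ⟨?_, ?_⟩, hmapinf K hK, ?_, le_antisymm (sup_le (hmapinf _ (inf_le_inf_left _ (Subgroup.center_le_centralizer _))) (hmapinf K hK)) ?_⟩
  · rintro ⟨hx, -, hc⟩
    refine ⟨hx, fun g hg => hinj _ hg _ hx ?_⟩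
    rw [map_mul, map_mul, map_inv, Subgroup.mem_center_iff.1 hc (π g), mul_inv_cancel_right]
  · rintro ⟨hx, hxw⟩
    have hxc : x ∈ Subgroup.centralizer ((S : Subgroup G) : Set G) := fun s hs =>
      mul_inv_eq_iff_eq_mul.1 (hxw s (mul_mem (mul_mem hs hx) (inv_mem hs)))
    have hxM : π x ∈ M := hZM _ (Subgroup.mem_map_of_mem π hx) ((hcent x hx).2 hxc)
    refine ⟨hx, hxM, Subgroup.mem_center_iff.2 fun y => ?_⟩
    obtain ⟨g, rfl⟩ := hs y
    -- move `g x g⁻¹` into `S` inside `O S`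
    have hgS : π (g * x * g⁻¹) ∈ (S' : Subgroup (G ⧸ O)) := by
      rw [map_mul, map_mul, map_inv]
      exact hQS ((inferInstance : Q.Normal).conj_mem _ hxM.1 _)
    have hmem' : g * x * g⁻¹ ∈ (S : Subgroup G) ⊔ O := by
      have h3 : g * x * g⁻¹ ∈ ((S : Subgroup G).map π).comap π := hgS
      rwa [Subgroup.comap_map_eq, hπ, QuotientGroup.ker_mk'] at h3
    obtain ⟨d, hd', hdS⟩ := exists_into S (H := (S : Subgroup G) ⊔ O) le_sup_left
      (Q := Subgroup.zpowers (g * x * g⁻¹)) (Subgroup.zpowers_le.2 hmem')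
      (by
        have : Subgroup.zpowers (g * x * g⁻¹) = (Subgroup.zpowers x).map (MulAut.conj g).toMonoidHom :=
          (MonoidHom.map_zpowers (MulAut.conj g).toMonoidHom x).symm
        rw [this]
        exact (S.2.to_le (Subgroup.zpowers_le.2 hx)).map _)
    obtain ⟨s, hs', o, ho, rfl⟩ := Subgroup.mem_sup_of_normal_right.1 hd'
    have h4 := hdS _ (Subgroup.mem_zpowers _)
    have h5 : o * (g * x * g⁻¹) * o⁻¹ ∈ (S : Subgroup G) := by
      have := mul_mem (mul_mem (inv_mem hs') h4) hs'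
      simpa [mul_assoc] using this
    have h6 : (o * g) * x * (o * g)⁻¹ = x := hxw _ (by simpa [mul_assoc] using h5)
    have h7 := congrArg π h6
    have hπo : π o = 1 := (QuotientGroup.eq_one_iff o).2 ho
    simp only [map_mul, map_inv, hπo, one_mul] at h7
    exact mul_inv_eq_iff_eq_mul.1 h7
  · rw [eq_bot_iff]
    rintro x ⟨⟨hx, hx1⟩, ⟨-, hx2⟩⟩
    have h3 : π x ∈ (M ⊓ Subgroup.center (G ⧸ O)) ⊓ K := ⟨hx1, hx2⟩
    rw [h1, Subgroup.mem_bot] at h3
    exact Subgroup.mem_bot.2 (hinj x hx 1 (one_mem _) (by rw [h3, map_one]))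
  · rintro x ⟨hx, hxc⟩
    have hsup : π x ∈ (M ⊓ Subgroup.center (G ⧸ O)) ⊔ K := by
      rw [h2]
      exact ⟨hZM _ (Subgroup.mem_map_of_mem π hx) ((hcent x hx).2 hxc), (hcent x hx).2 hxc⟩
    obtain ⟨a, ha, b, hb, hab⟩ := Subgroup.mem_sup_of_normal_left.1 hsup
    obtain ⟨a', ha', rfl⟩ := hmem a ⟨ha.1, Subgroup.center_le_centralizer _ ha.2⟩
    obtain ⟨b', hb', rfl⟩ := hmem b (hK hb)
    have hx' : a' * b' = x := hinj _ (mul_mem ha' hb') _ hx (by rw [map_mul]; exact hab)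
    rw [← hx']
    exact mul_mem (Subgroup.mem_sup_left ⟨ha', ha⟩) (Subgroup.mem_sup_right ⟨hb', hb⟩)

/-- Let S be a Sylow p-subgroup of the finite group G, and assume that p is odd or that G is solvable. The elements of S each of which is its only G-conjugate in S form a subgroup W of Z(S); W is then a direct factor of Z(S): there is a subgroup K of Z(S) with W ∩ K = 1 and WK = Z(S). (For p = 2 and G not solvable this can fail.) -/
theorem result {G : Type*} [Group G] [Finite G] {p : ℕ} [Fact p.Prime] (S : Sylow p G) (h : p ≠ 2 ∨ Group.IsSolvable G) :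
    ∃ W K : Subgroup G, (∀ x : G, x ∈ W ↔ (x ∈ (S : Subgroup G) ∧ ∀ g : G, g * x * g⁻¹ ∈ (S : Subgroup G) → g * x * g⁻¹ = x)) ∧
      K ≤ ((S : Subgroup G) ⊓ Subgroup.centralizer ((S : Subgroup G) : Set G)) ∧ W ⊓ K = ⊥ ∧ W ⊔ K = ((S : Subgroup G) ⊓ Subgroup.centralizer ((S : Subgroup G) : Set G)) := by
  rcases h with hp | hsol
  · exact odd_split hp S
  · haveI := hsol
    exact solvable_split S

end Cfsg.Agent.S1945
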