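import Cfsg.Statements.S1946
import Cfsg.Agent.Lib.LocalFusion.Ito
import Cfsg.Agent.Lib.Transfer.Basic
import Cfsg.Agent.Lib.Transfer.Fusion

set_option autoImplicit false
open Cfsg

namespace Cfsg.Agent.S1946

/-- Let P be a Sylow p-subgroup of the finite group G. Then G has a normal p-complement if and only if P controls the fusion of its elements of order dividing p (dividing 4 when p = 2): whenever such an element a of P has a G-conjugate g a g⁻¹ in P, that conjugate is already x a x⁻¹ for some x in P. -/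
theorem result {G : Type*} [Group G] [Finite G] {p : ℕ} [Fact p.Prime] (P : Sylow p G) :
    Cfsg.HasNormalPComplement p G ↔
      ∀ a ∈ (P : Subgroup G), (a ^ p = 1 ∨ (p = 2 ∧ a ^ 4 = 1)) → ∀ g : G, g * a * g⁻¹ ∈ (P : Subgroup G) →
        ∃ x ∈ (P : Subgroup G), g * a * g⁻¹ = x * a * x⁻¹ := by
  constructor
  · intro h a ha _ g hg
    obtain ⟨N, hN, hc⟩ := Cfsg.Agent.Lib.Transfer.hasNormalPComplement_iff_forall.1 h P
    obtain ⟨n, hn, x, hx, rfl⟩ : ∃ n ∈ N, ∃ x ∈ (P : Subgroup G), n * x = g := by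
      obtain ⟨⟨n, x⟩, hnx⟩ := hc.2 g
      exact ⟨n.1, n.2, x.1, x.2, hnx⟩
    refine ⟨x, hx, ?_⟩
    have hb : x * a * x⁻¹ ∈ (P : Subgroup G) := (P : Subgroup G).mul_mem ((P : Subgroup G).mul_mem hx ha) ((P : Subgroup G).inv_mem hx)
    set b := x * a * x⁻¹ with hbd
    have e : n * x * a * (n * x)⁻¹ = n * b * n⁻¹ := by simp [hbd, mul_assoc]
    rw [e] at hg ⊢
    have h1 : n * b * n⁻¹ * b⁻¹ ∈ N ⊓ (P : Subgroup G) := by
      refine ⟨?_, (P : Subgroup G).mul_mem hg ((P : Subgroup G).inv_mem hb)⟩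
      have := N.mul_mem hn (hN.conj_mem _ (N.inv_mem hn) b)
      simpa [mul_assoc, commutatorElement_def] using this
    rw [hc.disjoint.eq_bot, Subgroup.mem_bot, mul_inv_eq_one] at h1
    exact h1
  · intro h
    refine Cfsg.Agent.Lib.Transfer.frobenius_criterion (Cfsg.Agent.Lib.Transfer.autPGroup_of_sylow P fun Q hQP => ?_)
    haveI := P.2.isNilpotent
    obtain ⟨n, hn⟩ := Group.IsNilpotent.nilpotent (G := ↥(P : Subgroup G))
    refine Cfsg.Agent.Lib.LocalFusion.autPGroup_of_series Q (P.2.to_le hQP)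
      (fun i => (Subgroup.upperCentralSeries ↥(P : Subgroup G) i).map (P : Subgroup G).subtype) n ?_ ?_ ?_
    · simp
    · intro a ha _
      exact ⟨⟨a, hQP ha⟩, by rw [hn]; exact Subgroup.mem_top _, rfl⟩
    · rintro i a ha hsa ⟨a', ha', rfl⟩ g hg
      obtain ⟨y, hy, e⟩ := h _ (hQP ha) hsa g (hQP ((Subgroup.mem_normalizer_iff.1 hg _).1 ha))
      refine ⟨⟨y, hy⟩ * a' * ⟨y, hy⟩⁻¹ * a'⁻¹, ?_, ?_⟩
      · have := (Subgroup.upperCentralSeries _ i).inv_mem (Subgroup.mem_upperCentralSeries_succ_iff.1 ha' ⟨y, hy⟩)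
        simpa [mul_assoc, commutatorElement_def] using this
      · simp only [Subgroup.subtype_apply] at e ⊢
        rw [e]
        simp

end Cfsg.Agent.S1946
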