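import Cfsg.Statements.S1947
import Cfsg.Agent.Lib.LocalFusion.Ito
import Cfsg.Agent.Lib.Transfer.Fusion

set_option autoImplicit false
open Cfsg

namespace Cfsg.Agent.S1947

/-- Let G be a finite group and p a prime. If every element of G of order dividing p (dividing 4 when p = 2) lies in some fixed term Z_n(G) of the upper central series, then G has a normal p-complement. -/
theorem result {G : Type*} [Group G] [Finite G] {p : ℕ} [Fact p.Prime] (n : ℕ)
    (h : ∀ a : G, (a ^ p = 1 ∨ (p = 2 ∧ a ^ 4 = 1)) → a ∈ Subgroup.upperCentralSeries G n) : Cfsg.HasNormalPComplement p G := by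
  refine Cfsg.Agent.Lib.Transfer.frobenius_criterion fun Q hQ => ?_
  refine Cfsg.Agent.Lib.LocalFusion.autPGroup_of_series Q hQ (Subgroup.upperCentralSeries G) n
    (Subgroup.upperCentralSeries_zero G) (fun a _ ha => h a ha) fun i a _ _ hai g _ => ?_
  have := (Subgroup.upperCentralSeries G i).inv_mem (Subgroup.mem_upperCentralSeries_succ_iff.1 hai g)
  simpa [mul_assoc, commutatorElement_def] using this

end Cfsg.Agent.S1947
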