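import Cfsg.Statements.S1948
import Cfsg.Agent.Lib.Transfer.Basic
import Cfsg.Agent.Lib.Transfer.Fusion
import Cfsg.Agent.Lib.Hall.Basic
import Cfsg.Agent.Lib.Coprime.Basic

set_option autoImplicit false
open Cfsg

namespace Cfsg.Agent.S1948

variable {G : Type*} [Group G] [Finite G] {p : ℕ} [Fact p.Prime]

lemma pPrimeCore_inf_eq_bot {U : Subgroup G} (hU : IsPGroup p ↥U) : Cfsg.pPrimeCore p G ⊓ U = ⊥ :=
  Cfsg.Agent.Lib.Transfer.inf_eq_bot_of_not_dvd
    (Cfsg.Agent.Lib.Hall.not_dvd_card_pPrimeCore Fact.out) hU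

lemma le_pPrimePCore {U : Subgroup G} (hU : IsPGroup p ↥U) (hn : (U ⊔ Cfsg.pPrimeCore p G).Normal) :
    U ≤ Cfsg.pPrimePCore p G := by
  intro u hu
  rw [Cfsg.pPrimePCore, Subgroup.mem_comap]
  haveI := hn.map (QuotientGroup.mk' (Cfsg.pPrimeCore p G)) (QuotientGroup.mk'_surjective _)
  have he : (U ⊔ Cfsg.pPrimeCore p G).map (QuotientGroup.mk' (Cfsg.pPrimeCore p G)) =
      U.map (QuotientGroup.mk' (Cfsg.pPrimeCore p G)) := by
    rw [Subgroup.map_sup, QuotientGroup.map_mk'_self, sup_bot_eq]
  refine Cfsg.Agent.Lib.Hall.le_pCore (N := (U ⊔ Cfsg.pPrimeCore p G).map (QuotientGroup.mk' _))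
    (he ▸ hU.map _) ?_
  exact ⟨u, Subgroup.mem_sup_left hu, rfl⟩

lemma pPrimePCore_le (S : Sylow p G) :
    Cfsg.pPrimePCore p G ≤ Cfsg.pPrimeCore p G ⊔ ((S : Subgroup G) ⊓ Cfsg.pPrimePCore p G) := by
  intro x hx
  let f := QuotientGroup.mk' (Cfsg.pPrimeCore p G)
  have hsur : Function.Surjective f := QuotientGroup.mk'_surjective _
  have hle := Cfsg.Agent.Lib.Hall.pCore_le_sylow (S.mapSurjective hsur)
  rw [Sylow.coe_mapSurjective] at hle
  obtain ⟨s, hs, he⟩ := hle (Subgroup.mem_comap.1 hx)
  have hsK : s ∈ Cfsg.pPrimePCore p G := Subgroup.mem_comap.2 (show f s ∈ _ from he.symm ▸ hx)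
  have : x * s⁻¹ ∈ Cfsg.pPrimeCore p G := by
    rw [← QuotientGroup.eq_one_iff, QuotientGroup.mk_mul, QuotientGroup.mk_inv, mul_inv_eq_one]
    exact he.symm
  simpa using Subgroup.mul_mem_sup this (show s ∈ (S : Subgroup G) ⊓ Cfsg.pPrimePCore p G from ⟨hs, hsK⟩)

lemma pPrimePCore_normal : (Cfsg.pPrimePCore p G).Normal := by
  haveI := Cfsg.Agent.Lib.Hall.pCore_normal (G := G ⧸ Cfsg.pPrimeCore p G) p
  exact Subgroup.Normal.comap inferInstance _


/-- Let S be a Sylow p-subgroup of the finite group G. Then G = N_G(S)·O_{p'}(G) if and only if G is p-constrained and N_G(S) controls fusion in S, in the sense that whenever a subgroup Q of S has a conjugate g Q g⁻¹ inside S, the element g is a product n c with n normalizing S and c centralizing Q. -/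
theorem result {G : Type*} [Group G] [Finite G] {p : ℕ} [Fact p.Prime] (S : Sylow p G) :
    Subgroup.normalizer ((S : Subgroup G) : Set G) ⊔ Cfsg.pPrimeCore p G = ⊤ ↔
      (Cfsg.IsPConstrained p G ∧
        ∀ Q : Subgroup G, Q ≤ (S : Subgroup G) → ∀ g : G, Q.map (MulAut.conj g).toMonoidHom ≤ (S : Subgroup G) →
          ∃ n ∈ Subgroup.normalizer ((S : Subgroup G) : Set G), ∃ c ∈ Subgroup.centralizer (Q : Set G), g = n * c) := by
  classical
  set O := Cfsg.pPrimeCore p G with hO
  set K := Cfsg.pPrimePCore p G with hK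
  haveI : K.Normal := pPrimePCore_normal
  constructor
  · intro h
    have hdec : ∀ g : G, ∃ n ∈ Subgroup.normalizer ((S : Subgroup G) : Set G), ∃ d ∈ O, g = n * d := by
      intro g
      have hg : g ∈ ((Subgroup.normalizer ((S : Subgroup G) : Set G) ⊔ O : Subgroup G) : Set G) := by rw [h]; trivial
      rw [Subgroup.mul_normal] at hg
      obtain ⟨n, hn, d, hd, e⟩ := Set.mem_mul.1 hg
      exact ⟨n, hn, d, hd, e.symm⟩
    have hSO : ((S : Subgroup G) ⊔ O).Normal := by
      rw [← Subgroup.normalizer_eq_top_iff]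
      refine top_le_iff.1 (h ▸ sup_le ?_ (le_sup_right.trans Subgroup.le_normalizer))
      exact le_trans (le_inf le_rfl (le_top.trans (Subgroup.normalizer_eq_top (H := O)).ge))
        (Subgroup.normalizer_inf_normalizer_le_normalizer_sup _ _)
    have hSK : (S : Subgroup G) ≤ K := le_pPrimePCore S.2 hSO
    constructor
    · have hCS : Subgroup.centralizer ((S : Subgroup G) : Set G) ≤ K := by
        set C := Subgroup.centralizer ((S : Subgroup G) : Set G)
        let R : Sylow p ↥C := Classical.arbitrary _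
        have hRS : ∀ r : ↥C, r ∈ (R : Subgroup ↥C) → (r : G) ∈ (S : Subgroup G) := by
          intro r hr
          have hle : (R : Subgroup ↥C).map C.subtype ⊓ Subgroup.normalizer ((S : Subgroup G) : Set G) ≤ (S : Subgroup G) :=
            ((R.2.map C.subtype).inf_normalizer_sylow S).le.trans inf_le_right
          exact hle ⟨⟨r, hr, rfl⟩, Subgroup.centralizer_le_normalizer _ r.2⟩
        have hcomp : Cfsg.HasNormalPComplement p ↥C := by
          refine Cfsg.Agent.Lib.Transfer.hasNormalPComplement_of_normalizer_le_centralizer R ?_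
          intro x _ r hr
          exact Subtype.ext (x.2 _ (hRS r hr))
        rw [Cfsg.Agent.Lib.Transfer.hasNormalPComplement_iff] at hcomp
        set K0 := (Cfsg.pResidual p ↥C).map C.subtype
        have hK0 : K0 ≤ O := by
          have hn : (K0 ⊔ O).Normal := by
            rw [← Subgroup.normalizer_eq_top_iff]
            refine top_le_iff.1 (h ▸ sup_le ?_ (le_sup_right.trans Subgroup.le_normalizer))
            refine le_trans (le_inf ?_ (le_top.trans (Subgroup.normalizer_eq_top (H := O)).ge))
              (Subgroup.normalizer_inf_normalizer_le_normalizer_sup _ _)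
            rw [Subgroup.le_normalizer_iff]
            intro n hn k hk
            have hnC : ∀ c ∈ C, n * c * n⁻¹ ∈ C := by
              intro c hc s hs
              have h1 : n⁻¹ * s * n ∈ (S : Subgroup G) := by
                have := (Subgroup.mem_normalizer_iff.1 (inv_mem hn) s).1 hs
                simpa using this
              have h2 := congrArg (fun u => n * u * n⁻¹) (hc _ h1)
              simp [mul_assoc] at h2 ⊢
              exact h2
            have hmap : K0.map (MulAut.conj n).toMonoidHom ≤ K0 := by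
              show ((Subgroup.closure _).map C.subtype).map _ ≤ _
              rw [MonoidHom.map_closure, MonoidHom.map_closure]
              refine (Subgroup.closure_le _).2 ?_
              rintro _ ⟨_, ⟨c, hc, rfl⟩, rfl⟩
              refine ⟨⟨n * c * n⁻¹, hnC c c.2⟩, Cfsg.Agent.Lib.Transfer.mem_pResidual ?_, by simp⟩
              rw [Subgroup.orderOf_mk, show n * (c : G) * n⁻¹ = MulAut.conj n (c : G) from rfl,
                MulEquiv.orderOf_eq, Subgroup.orderOf_coe]
              exact hc
            exact hmap ⟨k, hk, by simp⟩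
          haveI := hn
          refine le_trans le_sup_left (Cfsg.Agent.Lib.Hall.le_pPrimeCore (N := K0 ⊔ O) ?_)
          have hcard := Cfsg.Agent.Lib.Coprime.card_sup_mul_card_inf O K0
          refine Nat.Coprime.coprime_dvd_left ⟨_, hcard.symm⟩ (Nat.Coprime.mul_left ?_ (Cfsg.Agent.Lib.Hall.coprime_card_pPrimeCore p))
          rw [Subgroup.card_map_of_injective C.subtype_injective]
          exact ((Fact.out : p.Prime).coprime_iff_not_dvd.2 hcomp).symm
        intro c hc
        have : (⟨c, hc⟩ : ↥C) ∈ Cfsg.pResidual p ↥C ⊔ (R : Subgroup ↥C) := by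
          rw [Cfsg.Agent.Lib.Transfer.pResidual_sup_sylow]; trivial
        have h2 := Subgroup.mem_map_of_mem C.subtype this
        rw [Subgroup.map_sup] at h2
        refine (sup_le (hK0.trans ?_) ?_) h2
        · intro x hx
          rw [hK, Cfsg.pPrimePCore, Subgroup.mem_comap, QuotientGroup.mk'_apply, (QuotientGroup.eq_one_iff x).2 hx]
          exact one_mem _
        · rintro _ ⟨r, hr, rfl⟩
          exact hSK (hRS r hr)
      intro P
      have hidx : ¬ p ∣ ((P : Subgroup ↥K).map K.subtype).index := by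
        rw [← Subgroup.relIndex_mul_index (Subgroup.map_subtype_le _), (Fact.out : p.Prime).dvd_mul, not_or]
        constructor
        · rw [Subgroup.relIndex, Subgroup.subgroupOf, Subgroup.comap_map_eq_self_of_injective K.subtype_injective]
          exact P.not_dvd_index
        · exact fun hd => S.not_dvd_index (hd.trans (Subgroup.index_dvd_of_le hSK))
      let P' : Sylow p G := (P.2.map K.subtype).toSylow hidx
      obtain ⟨g, hg⟩ := MulAction.exists_smul_eq G S P'
      intro c hc
      have hc' : g⁻¹ * c * g ∈ Subgroup.centralizer ((S : Subgroup G) : Set G) := by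
        intro s hs
        have hs' : g * s * g⁻¹ ∈ (P' : Subgroup G) := by
          rw [← hg, Cfsg.Agent.Lib.Transfer.mem_smul_sylow, show g⁻¹ * (g * s * g⁻¹) * g = s by simp [mul_assoc]]; exact hs
        have h2 := congrArg (fun u => g⁻¹ * u * g) (hc _ hs')
        simp [mul_assoc] at h2 ⊢
        exact h2
      have := Subgroup.Normal.conj_mem inferInstance _ (hCS hc') g
      simpa [mul_assoc] using this
    · intro Q hQ g hg
      obtain ⟨n, hn, d, hd, rfl⟩ := hdec g
      refine ⟨n, hn, d, ?_, rfl⟩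
      intro q hq
      have h1 : n * d * q * (n * d)⁻¹ ∈ (S : Subgroup G) := hg ⟨q, hq, rfl⟩
      have h2 : d * q * d⁻¹ ∈ (S : Subgroup G) := by
        have := (Subgroup.mem_normalizer_iff.1 hn (d * q * d⁻¹)).2 (by simpa [mul_assoc] using h1)
        exact this
      have h3 : d * q * d⁻¹ * q⁻¹ ∈ O ⊓ (S : Subgroup G) := by
        refine ⟨?_, (S : Subgroup G).mul_mem h2 ((S : Subgroup G).inv_mem (hQ hq))⟩
        have := O.mul_mem hd (Subgroup.Normal.conj_mem inferInstance _ (O.inv_mem hd) q)
        simpa [mul_assoc] using this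
      rw [hO, pPrimeCore_inf_eq_bot S.2, Subgroup.mem_bot, mul_inv_eq_one, mul_inv_eq_iff_eq_mul] at h3
      exact h3.symm
  · rintro ⟨hcon, hctl⟩
    set Q := (S : Subgroup G) ⊓ K with hQ
    obtain ⟨R, hR⟩ := Cfsg.Agent.Lib.Transfer.exists_sylow_inf S K
    have hRQ : (R : Subgroup ↥K).map K.subtype = Q := by rw [hR, Subgroup.subgroupOf_map_subtype]
    have hCQ : Subgroup.centralizer (Q : Set G) ≤ K := hRQ ▸ hcon R
    have hKle : K ≤ O ⊔ Q := pPrimePCore_le S
    have hfr : Subgroup.normalizer (Q : Set G) ⊔ K = ⊤ := hRQ ▸ Sylow.normalizer_sup_eq_top R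
    have hKN : K ≤ Subgroup.normalizer ((S : Subgroup G) : Set G) ⊔ O :=
      hKle.trans (sup_le le_sup_right ((inf_le_left.trans Subgroup.le_normalizer).trans le_sup_left))
    refine top_le_iff.1 (hfr ▸ sup_le ?_ hKN)
    intro g hg
    obtain ⟨n, hn, c, hc, rfl⟩ := hctl Q inf_le_left g (by
      rintro _ ⟨q, hq, rfl⟩
      exact ((Subgroup.mem_normalizer_iff.1 hg q).1 hq).1)
    exact mul_mem (Subgroup.mem_sup_left hn) (hKN (hCQ hc))

end Cfsg.Agent.S1948
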