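import Mathlib
import Cfsg.Statements.S1949
import Cfsg.Agent.Lib.KInf.Stable
import Cfsg.Agent.Lib.Transfer.Basic

set_option autoImplicit false

open scoped commutatorElement Pointwise

namespace Cfsg.Agent.S1949

set_option maxHeartbeats 800000
open scoped commutatorElement
open Subgroup Cfsg.Agent.Lib

/-- Let P be a finite p-group and G a group of automorphisms of P containing the inner automorphisms. Then there is a G-invariant subgroup D of P, contained in the subgroup generated by the elements x⁻¹α(x) with x in P and α in O^p(G), of exponent dividing p when p is odd and dividing 4 when p = 2, with [D, P] ≤ Z(D), such that every automorphism in G of order prime to p that fixes D elementwise is the identity; moreover every maximal abelian subgroup A of D is normal in P and every automorphism in G fixing A elementwise has p-power order. -/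
theorem result {P : Type*} [Group P] [Finite P] {p : ℕ} [Fact p.Prime] (hP : IsPGroup p P)
    (G : Subgroup (MulAut P)) (hG : Cfsg.Inn P ≤ G) :
    ∃ D : Subgroup P,
      (∀ α ∈ G, D.map α.toMonoidHom = D) ∧
      D ≤ Subgroup.closure {y : P | ∃ α ∈ Cfsg.pResidual p ↥G, ∃ x : P, y = x⁻¹ * (α : MulAut P) x} ∧
      (∀ d ∈ D, d ^ p = 1 ∨ (p = 2 ∧ d ^ 4 = 1)) ∧
      ⁅D, (⊤ : Subgroup P)⁆ ≤ D ⊓ Subgroup.centralizer (D : Set P) ∧
      (∀ α ∈ G, (orderOf α).Coprime p → (∀ d ∈ D, α d = d) → α = 1) ∧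
      ∀ A : Subgroup P, A ≤ D → IsMulCommutative ↥A →
        (∀ B : Subgroup P, A ≤ B → B ≤ D → IsMulCommutative ↥B → B = A) →
        A.Normal ∧ ∀ α ∈ G, (∀ a ∈ A, α a = a) → ∃ k : ℕ, orderOf α = p ^ k := by
  classical
  have hp : p.Prime := Fact.out
  obtain ⟨H, hHchar, hHpow, -, hHcomm, -, hHaut⟩ := KInf.exists_critical_aut hP
  set Z := H ⊓ centralizer (H : Set P) with hZ
  have hZcomm : ∀ g : P, ∀ a ∈ H, ⁅g, a⁆ ∈ Z := fun g a ha =>
    hHcomm (commutator_mem_commutator (mem_top g) ha)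
  have hZcomm' : ∀ g : P, ∀ a ∈ H, ⁅a, g⁆ ∈ Z := fun g a ha => by
    rw [← commutatorElement_inv]; exact inv_mem (hZcomm g a ha)
  have hZc : ∀ z ∈ Z, ∀ h ∈ H, Commute h z := fun z hz h hh => mem_centralizer_iff.mp hz.2 h hh
  have hcp : ∀ a ∈ H, ∀ b ∈ H, ⁅b, a⁆ ^ p = 1 := by
    intro a ha b hb
    rw [← Thompson.commutator_pow_left (hZc _ (hZcomm' a b hb) b hb).symm,
      commutatorElement_eq_one_iff_commute]
    exact (hZc _ (hHpow b hb) a ha).symm
  have hmp : ∀ a ∈ H, ∀ b ∈ H, ∀ n : ℕ, (a * b) ^ n = a ^ n * b ^ n * ⁅b⁻¹, a⁻¹⁆ ^ n.choose 2 :=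
    fun a ha b hb n => by
      have hz := hZcomm' a⁻¹ b⁻¹ (inv_mem hb)
      exact Thompson.mul_pow_class_two (Thompson.mul_comm_eq a b) (hZc _ hz a ha).symm
        (hZc _ hz b hb).symm n
  set e := if p = 2 then 4 else p with he
  have hpe : p ∣ e ∧ p ∣ e.choose 2 := by
    rw [he]; split_ifs with h
    · subst h; decide
    · exact ⟨dvd_rfl, Nat.Prime.dvd_choose_self hp two_ne_zero (lt_of_le_of_ne hp.two_le (Ne.symm h))⟩
  have hzch : ∀ a ∈ H, ∀ b ∈ H, ⁅b⁻¹, a⁻¹⁆ ^ e.choose 2 = 1 := by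
    intro a ha b hb
    obtain ⟨k, hk⟩ := hpe.2
    rw [hk, pow_mul, hcp _ (inv_mem ha) _ (inv_mem hb), one_pow]
  -- the residual commutator subgroup
  set Q := closure {y : P | ∃ α ∈ Cfsg.pResidual p ↥G, ∃ x : P, y = x⁻¹ * (α : MulAut P) x} with hQ
  have hQinv : ∀ β ∈ G, ∀ q ∈ Q, β q ∈ Q := by
    intro β hβ q hq
    induction hq using closure_induction with
    | mem y hy =>
      obtain ⟨α, hα, x, rfl⟩ := hy
      have hn : (Cfsg.pResidual p ↥G).Normal := Transfer.pResidual_normal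
      have hα' : (⟨β, hβ⟩ : G) * α * (⟨β, hβ⟩ : G)⁻¹ ∈ Cfsg.pResidual p ↥G := hn.conj_mem α hα _
      have hval : β (x⁻¹ * (α : MulAut P) x) =
          (β x)⁻¹ * (((⟨β, hβ⟩ : G) * α * (⟨β, hβ⟩ : G)⁻¹ : G) : MulAut P) (β x) := by
        rw [map_mul, map_inv, Subgroup.coe_mul, Subgroup.coe_mul, Subgroup.coe_inv,
          MulAut.mul_apply, MulAut.mul_apply, MulAut.inv_apply_self]
      rw [hQ, hval]
      exact subset_closure ⟨_, hα', β x, rfl⟩
    | one => simp [one_mem]
    | mul a b _ _ ha hb => rw [map_mul]; exact mul_mem ha hb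
    | inv a _ ha => rw [map_inv]; exact inv_mem ha
  have hHinv : ∀ β : MulAut P, ∀ a ∈ H, β a ∈ H := fun β a ha =>
    characteristic_iff_le_comap.mp hHchar β ha
  let D : Subgroup P :=
    { carrier := {d | d ∈ H ∧ d ∈ Q ∧ d ^ e = 1}
      one_mem' := ⟨one_mem _, one_mem _, one_pow e⟩
      mul_mem' := fun {a b} ha hb => ⟨mul_mem ha.1 hb.1, mul_mem ha.2.1 hb.2.1, by
        rw [hmp a ha.1 b hb.1, ha.2.2, hb.2.2, hzch a ha.1 b hb.1, one_mul, one_mul]⟩
      inv_mem' := fun {a} ha => ⟨inv_mem ha.1, inv_mem ha.2.1, by rw [inv_pow, ha.2.2, inv_one]⟩ }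
  have hDinv : ∀ β ∈ G, ∀ d ∈ D, β d ∈ D := fun β hβ d hd =>
    ⟨hHinv β d hd.1, hQinv β hβ d hd.2.1, by rw [← map_pow, hd.2.2, map_one]⟩
  have hDconj : ∀ g : P, ∀ d ∈ D, g * d * g⁻¹ ∈ D := fun g d hd => by
    have := hDinv (MulAut.conj g) (hG ⟨g, rfl⟩) d hd
    simpa using this
  have hDcomm : ⁅D, (⊤ : Subgroup P)⁆ ≤ D ⊓ centralizer (D : Set P) := by
    refine commutator_le.2 fun d hd g _ => ⟨?_, ?_⟩
    · rw [commutatorElement_def, mul_assoc, mul_assoc]
      exact mul_mem hd (by simpa [mul_assoc] using hDconj g d⁻¹ (inv_mem hd))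
    · exact centralizer_le (SetLike.coe_subset_coe.2 fun x (hx : x ∈ D) => hx.1)
        (hZcomm' g d hd.1).2
  have haut : ∀ α ∈ G, (orderOf α).Coprime p → (∀ d ∈ D, α d = d) → α = 1 := by
    intro α hα hco hfix
    have hres : (⟨α, hα⟩ : G) ∈ Cfsg.pResidual p ↥G :=
      Transfer.mem_pResidual (by rwa [← Subgroup.orderOf_coe])
    have key : ∀ n : ℕ, ∀ x ∈ H, x ∈ Q → orderOf x = n → α x = x := by
      intro n
      induction n using Nat.strongRecOn with | ind n ih => ?_
      intro x hxH hxQ hn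
      by_cases hx1 : x = 1
      · rw [hx1, map_one]
      have hpn : p ∣ orderOf x := hP.dvd_orderOf hx1
      have hxp : α (x ^ p) = x ^ p := by
        refine ih _ ?_ _ (pow_mem hxH p) (pow_mem hxQ p) rfl
        rw [← hn, orderOf_pow, Nat.gcd_eq_right hpn]
        exact Nat.div_lt_self (orderOf_pos x) hp.one_lt
      set c := x⁻¹ * α x with hc
      have hcH : c ∈ H := mul_mem (inv_mem hxH) (hHinv α x hxH)
      have hcQ : c ∈ Q := mul_mem (inv_mem hxQ) (hQinv α hα x hxQ)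
      have hcfix : α c = c := by
        refine hfix c ⟨hcH, hcQ, ?_⟩
        have h1 : c ^ p * ⁅c⁻¹, x⁻¹⁆ ^ p.choose 2 = 1 := by
          have h := hmp x hxH c hcH p
          rw [show x * c = α x by rw [hc, mul_inv_cancel_left], ← map_pow, hxp, mul_assoc] at h
          exact mul_eq_left.mp h.symm
        rw [he]; split_ifs with h
        · subst h
          rw [Nat.choose_self, pow_one] at h1
          rw [show (4 : ℕ) = 2 * 2 from rfl, pow_mul, mul_eq_one_iff_eq_inv.mp h1, inv_pow,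
            hcp _ (inv_mem hxH) _ (inv_mem hcH), inv_one]
        · obtain ⟨k, hk⟩ := Nat.Prime.dvd_choose_self hp two_ne_zero
            (lt_of_le_of_ne hp.two_le (Ne.symm h))
          rwa [hk, pow_mul, hcp _ (inv_mem hxH) _ (inv_mem hcH), one_pow, mul_one] at h1
      exact Thompson.eq_self_of_coprime hP hco hcfix
    refine hHaut α hco fun a ha => Thompson.eq_self_of_coprime hP hco ?_
    refine key _ _ (mul_mem (inv_mem ha) (hHinv α a ha)) ?_ rfl
    exact subset_closure ⟨⟨α, hα⟩, hres, a, rfl⟩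
  refine ⟨D, fun α hα => ?_, fun d hd => hd.2.1, fun d hd => ?_, hDcomm, haut, fun A hAD hA hmax => ?_⟩
  · refine le_antisymm (map_le_iff_le_comap.2 fun d hd => hDinv α hα d hd) fun d hd => ?_
    exact ⟨α⁻¹ d, hDinv α⁻¹ (inv_mem hα) d hd, by simp⟩
  · by_cases h : p = 2
    · exact Or.inr ⟨h, by have := hd.2.2; rwa [he, if_pos h] at this⟩
    · exact Or.inl (by have := hd.2.2; rwa [he, if_neg h] at this)
  -- maximal abelian subgroups of `D`
  have habs : ∀ c ∈ D, (∀ a ∈ A, Commute c a) → c ∈ A := by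
    intro c hc hca
    have hAc : ∀ x ∈ A, ∀ y ∈ A, x * y = y * x := fun x hx y hy =>
      congrArg Subtype.val (hA.is_comm.comm ⟨x, hx⟩ ⟨y, hy⟩)
    have hgen : ∀ x ∈ insert c (A : Set P), ∀ y ∈ insert c (A : Set P), x * y = y * x := by
      rintro x (rfl | hx) y (rfl | hy)
      · rfl
      · exact hca y hy
      · exact (hca x hx).eq.symm
      · exact hAc x hx y hy
    rw [← hmax (closure (insert c (A : Set P)))
      (fun a ha => subset_closure (Set.mem_insert_of_mem _ ha))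
      ((closure_le _).2 (Set.insert_subset hc hAD)) (isMulCommutative_closure hgen)]
    exact subset_closure (Set.mem_insert _ _)
  have hAn : A.Normal := ⟨fun a ha g => by
    have h : ⁅a, g⁆ ∈ D ⊓ centralizer (D : Set P) :=
      hDcomm (commutator_mem_commutator (hAD ha) (mem_top g))
    have hA' : ⁅a, g⁆ ∈ A := habs _ h.1 fun b hb => (mem_centralizer_iff.mp h.2 b (hAD hb)).symm
    have e : g * a * g⁻¹ = ⁅a, g⁆⁻¹ * a := by rw [commutatorElement_def]; group
    rw [e]; exact mul_mem (inv_mem hA') ha⟩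
  refine ⟨hAn, fun α hα hfixA => ?_⟩
  obtain ⟨v, m, hpm, hm⟩ := Nat.exists_eq_pow_mul_and_not_dvd (orderOf_pos α).ne' p hp.ne_one
  have hco : (orderOf (α ^ p ^ v)).Coprime p := by
    rw [orderOf_pow, hm, Nat.gcd_eq_right (dvd_mul_right _ _),
      Nat.mul_div_cancel_left _ (pow_pos hp.pos v)]
    exact ((hp.coprime_iff_not_dvd).mpr hpm).symm
  have hfix : ∀ n : ℕ, ∀ a ∈ A, (α ^ n) a = a := by
    intro n
    induction n with
    | zero => simp
    | succ n ih => intro a ha; rw [pow_succ, MulAut.mul_apply, hfixA a ha, ih a ha]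
  have h1 : α ^ p ^ v = 1 := by
    refine haut _ (pow_mem hα _) hco fun d hd => ?_
    have hcA : d⁻¹ * (α ^ p ^ v) d ∈ A := by
      refine habs _ (mul_mem (inv_mem hd) (hDinv _ (pow_mem hα _) d hd)) fun a ha => ?_
      set β := α ^ p ^ v with hβ
      have h := hfix (p ^ v) _ (hAn.conj_mem a ha d)
      rw [← hβ, map_mul, map_mul, map_inv, hfix (p ^ v) a ha] at h
      show d⁻¹ * β d * a = a * (d⁻¹ * β d)
      calc d⁻¹ * β d * a = d⁻¹ * (β d * a * (β d)⁻¹) * β d := by group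
        _ = d⁻¹ * (d * a * d⁻¹) * β d := by rw [h]
        _ = a * (d⁻¹ * β d) := by group
    exact Thompson.eq_self_of_coprime hP hco (hfix _ _ hcA)
  obtain ⟨k, -, hk⟩ := (Nat.dvd_prime_pow hp).mp (orderOf_dvd_of_pow_eq_one h1)
  exact ⟨k, hk⟩

end Cfsg.Agent.S1949
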