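import Cfsg.Statements.S1952
import Mathlib

set_option autoImplicit false
open Cfsg

namespace Cfsg.Agent.S1952

open Subgroup

variable {P : Type*} [Group P] {p : ℕ} [hp : Fact p.Prime]

/-- An additive subgroup of the group algebra of `Z/p` over `Z/p` stable under the shift and containing
an element of nonzero augmentation is everything. -/
theorem shiftStable_eq_top (S : AddSubgroup (AddMonoidAlgebra (ZMod p) (ZMod p)))
    (hT : ∀ z ∈ S, AddMonoidAlgebra.single (-1 : ZMod p) (1 : ZMod p) * z ∈ S) (v : ZMod p → ZMod p)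
    (hv : (∑ j, AddMonoidAlgebra.single j (v j)) ∈ S) (hs : ∑ j, v j ≠ 0) : S = ⊤ := by
  classical
  set R := AddMonoidAlgebra (ZMod p) (ZMod p)
  set u : R := ∑ j, AddMonoidAlgebra.single j (v j) with hu
  have : CharP R p := charP_of_injective_algebraMap (RingHom.injective (algebraMap (ZMod p) R)) p
  have : ExpChar R p := ExpChar.prime hp.out
  have hTn : ∀ (n : ℕ) (z : R), z ∈ S →
      AddMonoidAlgebra.single (-1 : ZMod p) (1 : ZMod p) ^ n * z ∈ S := by
    intro n
    induction n with
    | zero => intro z hz; simpa using hz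
    | succ n ih => intro z hz; rw [pow_succ, mul_assoc]; exact ih _ (hT z hz)
  have hsingle : ∀ (j c : ZMod p) (z : R), z ∈ S → AddMonoidAlgebra.single j c * z ∈ S := by
    intro j c z hz
    have h1 : AddMonoidAlgebra.single j c =
        c.val • (AddMonoidAlgebra.single (-1 : ZMod p) (1 : ZMod p) ^ (-j).val) := by
      rw [AddMonoidAlgebra.single_pow, one_pow, AddMonoidAlgebra.smul_single, nsmul_eq_mul,
        nsmul_eq_mul, mul_one, ZMod.natCast_rightInverse c, ZMod.natCast_rightInverse (-j)]
      simp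
    rw [h1, smul_mul_assoc]
    exact nsmul_mem (hTn _ z hz) _
  have hmul : ∀ r z : R, z ∈ S → r * z ∈ S := by
    intro r
    induction r using AddMonoidAlgebra.induction_linear with
    | zero => intro z _; simp
    | add a b ha hb => intro z hz; rw [add_mul]; exact add_mem (ha z hz) (hb z hz)
    | single j c => exact hsingle j c
  have hup : u ^ p = AddMonoidAlgebra.single 0 (∑ j, v j) := by
    rw [hu, sum_pow_char]
    have h1 : ∀ j : ZMod p, AddMonoidAlgebra.single j (v j) ^ p = AddMonoidAlgebra.single 0 (v j) := by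
      intro j
      rw [AddMonoidAlgebra.single_pow, ZMod.pow_card, nsmul_eq_mul, ZMod.natCast_self, zero_mul]
    simp only [h1]
    exact (map_sum (AddMonoidAlgebra.singleAddHom (0 : ZMod p)) v Finset.univ).symm
  refine eq_top_iff.mpr fun z _ => ?_
  have hz : z = (z * (u ^ (p - 1) * AddMonoidAlgebra.single 0 (∑ j, v j)⁻¹)) * u := by
    have hup' : u ^ (p - 1) * u = u ^ p := by rw [← pow_succ, Nat.sub_add_cancel hp.out.one_le]
    rw [mul_assoc, mul_assoc, mul_comm (AddMonoidAlgebra.single 0 _) u, ← mul_assoc (u ^ (p - 1)),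
      hup', hup, AddMonoidAlgebra.single_mul_single, add_zero, mul_inv_cancel₀ hs,
      ← AddMonoidAlgebra.one_def, mul_one]
  rw [hz]
  exact hmul _ _ hv

theorem card_groupAlgebra :
    Nat.card (AddMonoidAlgebra (ZMod p) (ZMod p)) = p ^ p := by
  rw [Nat.card_congr (AddMonoidAlgebra.coeffEquiv.trans Finsupp.equivFunOnFinite), Nat.card_fun,
    Nat.card_zmod]


open scoped IsMulCommutative

/-- Let P be a finite p-group with a normal elementary abelian subgroup A of index p, and let x ∈ A and y ∈ P with y outside A. If the product of the p conjugates y^(-i) x y^i (i = 0, …, p−1) is not the identity, then the wreath product Z_p ≀ Z_p, realised as a Sylow p-subgroup of the symmetric group of degree p², is a homomorphic image of P. -/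
theorem result {P : Type*} [Group P] [Finite P] {p : ℕ} [Fact p.Prime] (hP : IsPGroup p P) (A : Subgroup P) [A.Normal]
    (hA : Cfsg.IsElementaryAbelian p A) (hidx : A.index = p) (x y : P) (hx : x ∈ A) (hy : y ∉ A)
    (hprod : ((List.range p).map (fun i => (y ^ i)⁻¹ * x * y ^ i)).prod ≠ 1) :
    ∃ (Q : Sylow p (Equiv.Perm (Fin (p ^ 2)))) (f : P →* ↥(Q : Subgroup (Equiv.Perm (Fin (p ^ 2))))), Function.Surjective f := by
  classical
  have hp' : p.Prime := Fact.out
  obtain ⟨hAc, hexp⟩ := hA
  have := hAc
  have hE : ∀ a : Additive A, p • a = 0 := fun a =>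
    congrArg Additive.ofMul (Subtype.ext (hexp a.toMul a.toMul.2) : a.toMul ^ p = 1)
  haveI : Module (ZMod p) (Additive A) := AddCommGroup.zmodModule hE
  -- periodicity of the conjugation maps
  have hyp : y ^ p ∈ A := hidx ▸ A.pow_index_mem y
  let c : ℕ → A →* A := fun i =>
    { toFun := fun a => ⟨(y ^ i)⁻¹ * a * y ^ i, (inferInstance : A.Normal).conj_mem' a a.2 _⟩
      map_one' := Subtype.ext (by simp)
      map_mul' := fun a b => Subtype.ext (by simp [mul_assoc]) }
  have hcper : ∀ i a, c (i + p) a = c i a := fun i a => by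
    apply Subtype.ext
    have hc : (y ^ i)⁻¹ * (a : P) * y ^ i ∈ A := (c i a).2
    have hcomm : (y ^ p)⁻¹ * ((y ^ i)⁻¹ * (a : P) * y ^ i) =
        ((y ^ i)⁻¹ * (a : P) * y ^ i) * (y ^ p)⁻¹ :=
      congrArg Subtype.val (mul_comm (⟨_, inv_mem hyp⟩ : A) ⟨_, hc⟩)
    show (y ^ (i + p))⁻¹ * a * y ^ (i + p) = (y ^ i)⁻¹ * a * y ^ i
    calc (y ^ (i + p))⁻¹ * a * y ^ (i + p)
        = ((y ^ p)⁻¹ * ((y ^ i)⁻¹ * (a : P) * y ^ i)) * y ^ p := by rw [pow_add]; group
      _ = _ := by rw [hcomm]; group
  have hcmod : ∀ i a, c i a = c (i % p) a := fun i a => by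
    conv_lhs => rw [← Nat.mod_add_div i p]
    induction i / p with
    | zero => simp
    | succ q ih => rw [Nat.mul_succ, ← add_assoc, hcper]; exact ih
  -- the functional
  let w : A := ((List.range p).map fun i => c i ⟨x, hx⟩).prod
  have hw : Additive.ofMul w ≠ 0 := by
    intro h
    apply hprod
    have h1 : w = 1 := h
    rw [show ((List.range p).map fun i => (y ^ i)⁻¹ * x * y ^ i) =
      ((List.range p).map fun i => c i ⟨x, hx⟩).map A.subtype by rw [List.map_map]; rfl,
      ← map_list_prod,
      show ((List.range p).map fun i => c i ⟨x, hx⟩).prod = 1 from h1, map_one]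
  obtain ⟨φ, hφ⟩ : ∃ φ : Additive A →ₗ[ZMod p] ZMod p, φ (Additive.ofMul w) ≠ 0 := by
    by_contra h
    push_neg at h
    exact hw ((Module.forall_dual_apply_eq_zero_iff (ZMod p) _).mp h)
  let K : Subgroup P := (AddMonoidHom.toMultiplicativeRight φ.toAddMonoidHom).ker.map A.subtype
  -- the shift equivariant map
  let Ψ : Additive A →+ AddMonoidAlgebra (ZMod p) (ZMod p) :=
    { toFun := fun a => ∑ j : ZMod p,
        AddMonoidAlgebra.single j (φ (Additive.ofMul (c j.val a.toMul)))
      map_zero' := by
        refine Finset.sum_eq_zero fun j _ => ?_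
        rw [toMul_zero, map_one, ofMul_one, map_zero, AddMonoidAlgebra.single_zero]
      map_add' := fun a b => by
        rw [← Finset.sum_add_distrib]
        refine Finset.sum_congr rfl fun j _ => ?_
        rw [toMul_add, map_mul, ofMul_mul, map_add, AddMonoidAlgebra.single_add] }
  have hshift : ∀ a : A, AddMonoidAlgebra.single (-1 : ZMod p) (1 : ZMod p) * Ψ (Additive.ofMul a) =
      Ψ (Additive.ofMul (c 1 a)) := by
    intro a
    show _ * (∑ j : ZMod p, _) = ∑ j : ZMod p, _
    rw [Finset.mul_sum]
    refine Fintype.sum_equiv (Equiv.addLeft (-1 : ZMod p)) _ _ fun j => ?_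
    rw [AddMonoidAlgebra.single_mul_single, one_mul, Equiv.coe_addLeft, toMul_ofMul, toMul_ofMul]
    have h1 : c (-1 + j).val (c 1 a) = c (1 + (-1 + j).val) a := by
      apply Subtype.ext
      show (y ^ _)⁻¹ * ((y ^ 1)⁻¹ * a * y ^ 1) * y ^ _ = (y ^ _)⁻¹ * a * y ^ _
      rw [pow_add]; group
    rw [h1, hcmod (1 + _), ← ZMod.val_natCast, Nat.cast_add, Nat.cast_one,
      ZMod.natCast_rightInverse, add_neg_cancel_left]
  have htop : Ψ.range = ⊤ := by
    refine shiftStable_eq_top Ψ.range ?_
      (fun j => φ (Additive.ofMul (c j.val ⟨x, hx⟩))) ⟨Additive.ofMul ⟨x, hx⟩, rfl⟩ ?_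
    · rintro _ ⟨a, rfl⟩
      exact ⟨Additive.ofMul (c 1 a.toMul), (hshift a.toMul).symm⟩
    · have h1 : ∑ j : ZMod p, φ (Additive.ofMul (c j.val ⟨x, hx⟩)) = φ (Additive.ofMul w) := by
        rw [ofMul_list_prod, map_list_sum, List.map_map, List.map_map,
          show (List.range p) = (List.finRange p).map Fin.val by simp, List.map_map,
          ← List.ofFn_eq_map, List.sum_ofFn]
        refine Fintype.sum_equiv (ZMod.finEquiv p).toEquiv.symm _ _ fun j => ?_
        obtain ⟨q, rfl⟩ : ∃ q, p = q + 1 := ⟨p - 1, by have := hp'.one_le; omega⟩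
        rfl
      rw [h1]; exact hφ
  -- the permutation action
  let f := MulAction.toPermHom P (P ⧸ K)
  have hcore : ∀ a : A, (a : P) ∈ K.normalCore ↔ Ψ (Additive.ofMul a) = 0 := by
    intro a
    have hK : ∀ b : A, (b : P) ∈ K ↔ φ (Additive.ofMul b) = 0 := fun b => by
      exact (mem_map_iff_mem A.subtype_injective (x := b)).trans Iff.rfl
    have hzero : Ψ (Additive.ofMul a) = 0 ↔ ∀ j : ZMod p, φ (Additive.ofMul (c j.val a)) = 0 := by
      constructor
      · intro h j
        have := congrArg (fun z => AddMonoidAlgebra.coeff z j) h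
        simpa [Ψ, Finsupp.single_apply] using this
      · intro h
        exact Finset.sum_eq_zero fun j _ => by
          simp only [toMul_ofMul]
          rw [h j, AddMonoidAlgebra.single_zero]
    rw [hzero]
    constructor
    · intro h j
      have := h (y ^ j.val)⁻¹
      rw [inv_inv] at this
      exact (hK (c j.val a)).mp this
    · intro h g
      -- every element is `A y^i`
      have hgen : ∃ (i : ℕ) (b : A), g = (b : P) * (y ^ i)⁻¹ := by
        have hc : Nat.card (P ⧸ A) = p := hidx
        have hy' : (y : P ⧸ A)⁻¹ ≠ 1 := by simpa using hy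
        have htop' := mem_powers_of_prime_card hc hy' (g' := (g : P ⧸ A))
        obtain ⟨i, hi⟩ := htop'
        refine ⟨i, ⟨g * y ^ i, ?_⟩, by simp⟩
        rw [← QuotientGroup.eq_one_iff, QuotientGroup.mk_mul, QuotientGroup.mk_pow, ← hi]
        simp
      obtain ⟨i, b, rfl⟩ := hgen
      have h1 := h (i : ZMod p)
      rw [ZMod.val_natCast, ← hcmod, ← hK] at h1
      have h2 : ((b : P) * (y ^ i)⁻¹) * a * ((b : P) * (y ^ i)⁻¹)⁻¹ = (c i a : P) := by
        have h3 : (b : P) * (c i a : P) = (c i a : P) * b := congrArg Subtype.val (mul_comm b (c i a))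
        calc _ = (b : P) * (c i a : P) * (b : P)⁻¹ := by
              show _ = (b : P) * ((y ^ i)⁻¹ * a * y ^ i) * (b : P)⁻¹
              group
          _ = _ := by rw [h3, mul_inv_cancel_right]
      rw [h2]; exact h1
  have hKA : K.normalCore ≤ A := K.normalCore_le.trans (map_subtype_le _)
  have hcardA : Nat.card A = p ^ p * Nat.card K.normalCore := by
    have h1 := Ψ.ker.card_mul_index
    rw [AddSubgroup.index_ker] at h1
    rw [htop, AddSubgroup.card_top, card_groupAlgebra] at h1
    rw [mul_comm, show Nat.card K.normalCore = Nat.card Ψ.ker from ?_]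
    · exact h1.symm
    refine Nat.card_congr
      { toFun := fun a => ⟨Additive.ofMul ⟨a, hKA a.2⟩, (hcore ⟨a, hKA a.2⟩).mp a.2⟩
        invFun := fun a => ⟨(a.1.toMul : A), (hcore a.1.toMul).mpr a.2⟩
        left_inv := fun a => rfl
        right_inv := fun a => rfl }
  have hcardf : Nat.card f.range = p ^ (p + 1) := by
    have h1 : Nat.card f.range = f.ker.index := (index_ker f).symm
    rw [h1, show f.ker = K.normalCore from (Subgroup.normalCore_eq_ker K).symm]
    have h2 := K.normalCore.card_mul_index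
    rw [← A.card_mul_index, hidx, hcardA] at h2
    have h0 : 0 < Nat.card K.normalCore := Nat.card_pos
    apply Nat.eq_of_mul_eq_mul_left h0
    rw [h2]; ring
  have hcardK : Nat.card (P ⧸ K) = p ^ 2 := by
    show K.index = p ^ 2
    have hsurj : Function.Surjective φ := by
      refine LinearMap.surjective fun h => hφ ?_
      rw [h, LinearMap.zero_apply]
    show ((AddMonoidHom.toMultiplicativeRight φ.toAddMonoidHom).ker.map A.subtype).index = p ^ 2
    rw [index_map_subtype, index_ker, MonoidHom.range_eq_top.mpr (fun m => by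
      obtain ⟨a, ha⟩ := hsurj (Multiplicative.toAdd m)
      exact ⟨a.toMul, Multiplicative.toAdd.injective ha⟩), card_top, hidx, sq]
    simp [Nat.card_zmod]
  let e := ((Finite.equivFinOfCardEq hcardK).permCongrHom : Equiv.Perm (P ⧸ K) ≃* _)
  let f' : P →* Equiv.Perm (Fin (p ^ 2)) := e.toMonoidHom.comp f
  have hcard' : Nat.card f'.range = p ^ (p + 1) := by
    rw [← hcardf]
    show Nat.card (e.toMonoidHom.comp f).range = _
    rw [← MonoidHom.map_range]
    exact card_map_of_injective e.injective
  refine ⟨Sylow.ofCard f'.range ?_, f'.rangeRestrict, f'.rangeRestrict_surjective⟩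
  rw [hcard', Nat.card_perm, Nat.card_fin,
    ← Nat.multiplicity_eq_factorization hp' (p ^ 2).factorial_ne_zero,
    Nat.Prime.multiplicity_factorial_pow hp']
  simp [Finset.sum_range_succ, add_comm]

end Cfsg.Agent.S1952
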