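import Cfsg.Statements.S1954
import Cfsg.Agent.Lib.LocalFusion.ConjFamily
import Cfsg.Agent.Lib.LocalChar.Core

set_option autoImplicit false
open Cfsg

namespace Cfsg.Agent.S1954

open Subgroup
open Cfsg.Agent.Lib.LocalChar (cj mem_cj IsSylowIn cj_le_iff conj_mem_of_nz mem_nz_of_cj_eq card_cj isPGroup_cj exists_isSylowIn exists_isSylowIn_ge exists_ppart mem_of_coprime_of_pow mem_sup_iff_of_nz le_nz_sup le_nz_inf le_nz_centralizer mem_nz_of_cj_le cj_eq_of_mem_nz)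
open Cfsg.Agent.Lib.LocalFusion (RChain imgR alperin isCovering_fullyNormalized exists_mem_normalizer_not_mem)

variable {G : Type*} [Group G]

/-- Strong control inside `N` by the simultaneous normaliser of the conjugates of `V`. -/
theorem multi_control {N Q V : Subgroup G} [N.Normal] (hV : V ≤ Q)
    (hctrl : ∀ A : Subgroup G, A ≤ Q → ∀ n ∈ N, cj n A ≤ Q →
      ∃ h ∈ N ⊓ normalizer (V : Set G), ∃ c ∈ N ⊓ centralizer (A : Set G), n = h * c)
    (s : Finset G) : (∀ x ∈ s, x ∈ normalizer (Q : Set G)) → ∀ A : Subgroup G, A ≤ Q → ∀ n ∈ N, cj n A ≤ Q →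
      ∃ h ∈ N, (∀ x ∈ s, h ∈ normalizer ((cj x V : Subgroup G) : Set G)) ∧
        ∃ c ∈ N ⊓ centralizer (A : Set G), n = h * c := by
  classical
  induction s using Finset.induction with
  | empty => intro _ A _ n hn _; exact ⟨n, hn, by simp, 1, one_mem _, by simp⟩
  | @insert x s _ ih =>
    intro hs A hA n hn hnA
    have hx := hs x (Finset.mem_insert_self x s)
    have hs' : ∀ y ∈ s, y ∈ normalizer (Q : Set G) := fun y hy => hs y (Finset.mem_insert_of_mem hy)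
    obtain ⟨h, hh, hhs, c, hc, rfl⟩ := ih hs' A hA n hn hnA
    set A1 := A ⊔ ⨆ y ∈ s, cj y V with hA1
    have hVy : ∀ y ∈ normalizer (Q : Set G), cj y V ≤ Q := fun y hy => cj_le_iff.2 fun v hv =>
      conj_mem_of_nz hy (hV hv)
    have hA1Q : A1 ≤ Q := sup_le hA (iSup₂_le fun y hy => hVy y (hs' y hy))
    have hAh : cj h A ≤ Q := by
      refine cj_le_iff.2 fun a ha => ?_
      have := cj_le_iff.1 hnA a ha
      have e : h * c * a * (h * c)⁻¹ = h * a * h⁻¹ := by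
        rw [show h * c * a * (h * c)⁻¹ = h * (c * a) * c⁻¹ * h⁻¹ by group,
          ← mem_centralizer_iff.1 hc.2 a ha]; group
      rwa [e] at this
    have hA1h : cj h A1 ≤ Q := by
      rw [hA1, cj, Subgroup.map_sup]
      refine sup_le hAh ?_
      rw [Subgroup.map_iSup]
      refine iSup_le fun y => ?_
      rw [Subgroup.map_iSup]
      refine iSup_le fun hy => ?_
      exact (cj_eq_of_mem_nz (hhs y hy)).le.trans (hVy y (hs' y hy))
    have hn' : x⁻¹ * h * x ∈ N := by simpa using Subgroup.Normal.conj_mem inferInstance h hh x⁻¹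
    have hA' : cj x⁻¹ A1 ≤ Q := cj_le_iff.2 fun a ha => conj_mem_of_nz (inv_mem hx) (hA1Q ha)
    have hA'' : cj (x⁻¹ * h * x) (cj x⁻¹ A1) ≤ Q := by
      rw [Lib.LocalChar.cj_cj, show x⁻¹ * h * x * x⁻¹ = x⁻¹ * h by group]
      refine cj_le_iff.2 fun a ha => ?_
      have h1 := conj_mem_of_nz (inv_mem hx) (cj_le_iff.1 hA1h a ha)
      simpa [mul_assoc] using h1
    obtain ⟨h', hh', c', hc', e⟩ := hctrl _ hA' _ hn' hA''
    have hc2 : x * c' * x⁻¹ ∈ centralizer (A1 : Set G) := by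
      rw [mem_centralizer_iff]
      intro a ha
      have hm : x⁻¹ * a * x ∈ cj x⁻¹ A1 := by rw [mem_cj]; simpa [mul_assoc] using ha
      have := mem_centralizer_iff.1 hc'.2 _ hm
      calc a * (x * c' * x⁻¹) = x * (x⁻¹ * a * x * c') * x⁻¹ := by group
        _ = x * (c' * (x⁻¹ * a * x)) * x⁻¹ := by rw [this]
        _ = x * c' * x⁻¹ * a := by group
    have hh2 : x * h' * x⁻¹ ∈ normalizer ((cj x V : Subgroup G) : Set G) :=
      Lib.LocalFusion.conj_mem_normalizer hh'.2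
    have hxN : ∀ z ∈ N, x * z * x⁻¹ ∈ N := fun z hz => Subgroup.Normal.conj_mem inferInstance z hz x
    have he : h = x * h' * x⁻¹ * (x * c' * x⁻¹) := by
      calc h = x * (x⁻¹ * h * x) * x⁻¹ := by group
        _ = x * (h' * c') * x⁻¹ := by rw [e]
        _ = _ := by group
    refine ⟨x * h' * x⁻¹, hxN _ hh'.1, fun y hy => ?_, x * c' * x⁻¹ * c, ?_, ?_⟩
    · rcases Finset.mem_insert.1 hy with rfl | hy
      · exact hh2
      · have h1 : x * c' * x⁻¹ ∈ normalizer ((cj y V : Subgroup G) : Set G) := by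
          refine (centralizer_le ?_).trans (Subgroup.centralizer_le_normalizer _) hc2
          exact SetLike.coe_subset_coe.2 (le_sup_of_le_right (le_iSup₂_of_le y hy le_rfl))
        have h2 : x * h' * x⁻¹ = h * (x * c' * x⁻¹)⁻¹ := eq_mul_inv_of_mul_eq he.symm
        rw [h2]
        exact mul_mem (hhs y hy) (inv_mem h1)
    · exact ⟨mul_mem (hxN _ hc'.1) hc.1,
        mul_mem (centralizer_le (SetLike.coe_subset_coe.2 le_sup_left) hc2) hc.2⟩
    · rw [← mul_assoc, ← he]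

theorem local_step [Finite G] {p : ℕ} [Fact p.Prime] {N H : Subgroup G} [N.Normal] (P : Sylow p G)
    (hPH : (P : Subgroup G) ≤ H) (hNQ : normalizer (((P : Subgroup G) ⊓ N : Subgroup G) : Set G) ≤ H)
    (hctl : ∀ A : Subgroup G, A ≤ (P : Subgroup G) ⊓ N → ∀ n ∈ N, cj n A ≤ (P : Subgroup G) ⊓ N →
      ∃ h ∈ N ⊓ H, ∃ c ∈ N ⊓ centralizer (A : Set G), n = h * c)
    (U : Subgroup G) (hU : U ≤ (P : Subgroup G))
    (htame : ¬ p ∣ ((P : Subgroup G) ⊓ normalizer (U : Set G)).relIndex (normalizer (U : Set G)))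
    (hbig : ∀ T' : Subgroup G, T' ≤ (P : Subgroup G) → Nat.card U < Nat.card T' → ∀ g : G,
      cj g T' ≤ (P : Subgroup G) → ∃ h ∈ H, ∀ t ∈ T', g * t * g⁻¹ = h * t * h⁻¹)
    (x : G) (hx : x ∈ normalizer (U : Set G)) :
    ∃ h ∈ H, ∀ u ∈ U, x * u * x⁻¹ = h * u * h⁻¹ := by
  classical
  set Q := (P : Subgroup G) ⊓ N with hQ
  set NU := normalizer (U : Set G) with hNU
  set D := U ⊓ N with hD
  set R0 := (P : Subgroup G) ⊓ NU ⊓ N with hR0
  set L : G → Prop := fun y => ∃ h ∈ H, ∀ u ∈ U, y * u * y⁻¹ = h * u * h⁻¹ with hLdef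
  have Lmul : ∀ y z, z ∈ NU → L y → L z → L (y * z) := by
    rintro y z hz ⟨a, ha, hay⟩ ⟨b, hb, hbz⟩
    refine ⟨a * b, mul_mem ha hb, fun u hu => ?_⟩
    have hm : b * u * b⁻¹ ∈ U := hbz u hu ▸ conj_mem_of_nz hz hu
    calc y * z * u * (y * z)⁻¹ = y * (z * u * z⁻¹) * y⁻¹ := by group
      _ = y * (b * u * b⁻¹) * y⁻¹ := by rw [hbz u hu]
      _ = a * (b * u * b⁻¹) * a⁻¹ := hay _ hm
      _ = _ := by group
  have LH : ∀ y ∈ H, L y := fun y hy => ⟨y, hy, fun _ _ => rfl⟩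
  have LC : ∀ y ∈ centralizer (U : Set G), L y := fun y hy => ⟨1, one_mem _, fun u hu => by
    rw [← mem_centralizer_iff.1 hy u hu]; group⟩
  have UP : U ≤ NU := le_normalizer
  -- elements normalising a subgroup of `P` properly above `U`
  have grow : ∀ R : Subgroup G, R ≤ (P : Subgroup G) → ¬ R ≤ U → ∀ m ∈ NU,
      m ∈ normalizer (R : Set G) → L m := by
    intro R hR hne m hm hmR
    have hlt : Nat.card U < Nat.card ↥(U ⊔ R) :=
      (Set.toFinite _).card_lt_card (SetLike.coe_ssubset_coe.2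
        (lt_of_le_of_ne le_sup_left fun e => hne (le_sup_right.trans e.ge)))
    have hm' : cj m (U ⊔ R) ≤ (P : Subgroup G) := by
      rw [cj, Subgroup.map_sup]
      exact sup_le ((cj_eq_of_mem_nz hm).le.trans hU) ((cj_eq_of_mem_nz hmR).le.trans hR)
    obtain ⟨h, hh, he⟩ := hbig _ (sup_le hU hR) hlt m hm'
    exact ⟨h, hh, fun u hu => he u (mem_sup_left hu)⟩
  have hPN : (P : Subgroup G) ⊓ NU = (P : Subgroup G) ⊓ NU := rfl
  have hS : IsSylowIn p ((P : Subgroup G) ⊓ NU) NU := ⟨inf_le_right, P.2.to_le inf_le_left, htame⟩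
  have nzN : ∀ A : Subgroup G, A ≤ normalizer (N : Set G) := fun A => by
    rw [normalizer_eq_top]; exact le_top
  have nzK : NU ≤ normalizer ((NU ⊓ N : Subgroup G) : Set G) :=
    le_nz_inf le_normalizer (nzN _)
  have hSK : IsSylowIn p R0 (NU ⊓ N) := by
    have := hS.inf (inf_le_left : NU ⊓ N ≤ NU) nzK
    rwa [← inf_assoc, inf_eq_left.2 (inf_le_right : (P : Subgroup G) ⊓ NU ≤ NU)] at this
  by_cases hR0U : R0 ≤ U
  · -- then `U` contains `P ⊓ N`
    have hQU : Q ≤ U := by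
      by_contra hne
      have hUQ : U < U ⊔ Q := lt_of_le_of_ne le_sup_left fun e => hne (le_sup_right.trans e.ge)
      obtain ⟨y, hy, hyU, hyn⟩ := exists_mem_normalizer_not_mem
        ((P.2.to_le (sup_le hU inf_le_left : U ⊔ Q ≤ (P : Subgroup G))).isNilpotent) hUQ
      have hUQn : U ≤ normalizer (Q : Set G) :=
        le_nz_inf (hU.trans le_normalizer) (nzN _)
      obtain ⟨u, hu, q, hq, rfl⟩ := (mem_sup_iff_of_nz hUQn).1 hy
      have hqn : q ∈ NU := ((NU).mul_mem_cancel_left (UP hu)).1 hyn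
      exact hyU (mul_mem hu (hR0U ⟨⟨hq.1, hqn⟩, hq.2⟩))
    have hQD : D = Q := le_antisymm (le_inf (inf_le_left.trans hU) inf_le_right) (le_inf hQU inf_le_right)
    have hxD : x ∈ normalizer (D : Set G) :=
      (le_nz_inf (le_refl NU) (nzN NU)) hx
    rw [hQD] at hxD
    exact LH x (hNQ hxD)
  -- Frattini
  obtain ⟨n, hn, m, hm, rfl⟩ := hSK.frattini inf_le_left nzK hx
  refine Lmul n m hm.1 ?_ (grow R0 (inf_le_left.trans inf_le_left) hR0U m hm.1 hm.2)
  clear hm hx m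
  set C := N ⊓ centralizer (D : Set G) with hC
  set K0 := NU ⊓ N ⊓ centralizer (D : Set G) with hK0
  have hNUD : NU ≤ normalizer (D : Set G) := le_nz_inf (le_refl NU) (nzN NU)
  have nzK0 : NU ⊓ N ≤ normalizer (K0 : Set G) :=
    le_nz_inf le_normalizer (le_nz_centralizer (inf_le_left.trans hNUD))
  have hY : IsSylowIn p (R0 ⊓ K0) K0 := hSK.inf inf_le_left nzK0
  -- `K0` acts on `U` as an abelian `p`-group
  have hf : ∀ k ∈ K0, ∀ u ∈ U, k * u * k⁻¹ * u⁻¹ ∈ D ∧ ∀ e ∈ D, Commute (k * u * k⁻¹ * u⁻¹) e := by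
    intro k hk u hu
    refine ⟨⟨mul_mem (conj_mem_of_nz hk.1.1 hu) (U.inv_mem hu), ?_⟩, fun e he => ?_⟩
    · rw [show k * u * k⁻¹ * u⁻¹ = k * (u * k⁻¹ * u⁻¹) by group]
      exact mul_mem hk.1.2 (Subgroup.Normal.conj_mem inferInstance _ (inv_mem hk.1.2) u)
    · have he' : u⁻¹ * e * u ∈ D := by simpa using conj_mem_of_nz (hNUD (inv_mem (UP hu))) he
      have h1 : (u⁻¹ * e * u) * k⁻¹ = k⁻¹ * (u⁻¹ * e * u) := mem_centralizer_iff.1 (inv_mem hk.2) _ he'
      have h2 : e * k = k * e := mem_centralizer_iff.1 hk.2 e he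
      show k * u * k⁻¹ * u⁻¹ * e = e * (k * u * k⁻¹ * u⁻¹)
      calc k * u * k⁻¹ * u⁻¹ * e = k * u * (k⁻¹ * (u⁻¹ * e * u)) * u⁻¹ := by group
        _ = k * u * ((u⁻¹ * e * u) * k⁻¹) * u⁻¹ := by rw [h1]
        _ = (k * e) * u * k⁻¹ * u⁻¹ := by group
        _ = (e * k) * u * k⁻¹ * u⁻¹ := by rw [h2]
        _ = _ := by group
  have hf2 : ∀ k ∈ K0, ∀ l ∈ K0, ∀ u ∈ U,
      (k * l) * u * (k * l)⁻¹ * u⁻¹ = (l * u * l⁻¹ * u⁻¹) * (k * u * k⁻¹ * u⁻¹) := by
    intro k hk l hl u hu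
    have := mem_centralizer_iff.1 hk.2 _ (hf l hl u hu).1
    calc (k * l) * u * (k * l)⁻¹ * u⁻¹ = k * (l * u * l⁻¹ * u⁻¹) * u * k⁻¹ * u⁻¹ := by group
      _ = (l * u * l⁻¹ * u⁻¹) * k * u * k⁻¹ * u⁻¹ := by rw [this]
      _ = _ := by group
  have hK0L : ∀ k ∈ K0, L k := by
    intro k hk
    obtain ⟨a, b, ha, hb, rfl, ⟨j, hj⟩, hbo⟩ := exists_ppart (p := p) k
    have ha0 : a ∈ K0 := zpowers_le.2 hk ha
    have hb0 : b ∈ K0 := zpowers_le.2 hk hb
    have hbC : b ∈ centralizer (U : Set G) := by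
      refine mem_of_coprime_of_pow hbo ?_
      obtain ⟨i, hi⟩ := IsPGroup.iff_card.1 (P.2.to_le (inf_le_left.trans hU : D ≤ (P : Subgroup G)))
      refine ⟨i, mem_centralizer_iff.2 fun u hu => ?_⟩
      have key : ∀ e : ℕ, b ^ e * u * (b ^ e)⁻¹ * u⁻¹ = (b * u * b⁻¹ * u⁻¹) ^ e := by
        intro e
        induction e with
        | zero => simp
        | succ e ih => rw [pow_succ b e, hf2 _ (pow_mem hb0 e) b hb0 u hu, ih, pow_succ']
      have h1 : (b * u * b⁻¹ * u⁻¹) ^ p ^ i = 1 := by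
        have : (⟨_, (hf b hb0 u hu).1⟩ : ↥D) ^ p ^ i = 1 := hi ▸ pow_card_eq_one'
        simpa using congrArg Subtype.val this
      have h2 := key (p ^ i)
      rw [h1, mul_inv_eq_one, mul_inv_eq_iff_eq_mul] at h2
      exact h2.symm
    have hap : IsPGroup p ↥(zpowers a) := IsPGroup.of_card (n := j) (by rw [Nat.card_zpowers, hj])
    obtain ⟨l, hl, hle⟩ := hY.conj_le hap (zpowers_le.2 ha0)
    set y := l * a * l⁻¹ with hy
    have hyY : y ∈ R0 ⊓ K0 := cj_le_iff.1 hle a (mem_zpowers a)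
    have hdiff : y⁻¹ * a ∈ centralizer (U : Set G) := by
      refine mem_centralizer_iff.2 fun u hu => ?_
      have e1 : (y * l) * u * (y * l)⁻¹ * u⁻¹ = (l * a) * u * (l * a)⁻¹ * u⁻¹ := by
        rw [show y * l = l * a by rw [hy]; group]
      rw [hf2 y hyY.2 l hl u hu, hf2 l hl a ha0 u hu,
        ((hf a ha0 u hu).2 _ (hf l hl u hu).1).eq] at e1
      have e2 : y * u * y⁻¹ = a * u * a⁻¹ := mul_right_cancel (mul_left_cancel e1)
      calc u * (y⁻¹ * a) = y⁻¹ * (y * u * y⁻¹) * a := by group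
        _ = y⁻¹ * (a * u * a⁻¹) * a := by rw [e2]
        _ = _ := by group
    have haeq : a = y * (y⁻¹ * a) := by group
    have hyH : y ∈ H := hPH hyY.1.1.1
    refine Lmul a b hb0.1.1 ?_ (LC b hbC)
    rw [haeq]
    exact Lmul _ _ (mul_mem (inv_mem hyY.2.1.1) ha0.1.1) (LH y hyH) (LC _ hdiff)
  by_cases hYU : R0 ⊓ K0 ≤ U
  swap
  · obtain ⟨n0, hn0, m, hm, rfl⟩ := hY.frattini inf_le_left nzK0 (show n ∈ NU ⊓ N from hn)
    exact Lmul n0 m hm.1.1 (hK0L n0 hn0)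
      (grow _ (inf_le_left.trans (inf_le_left.trans inf_le_left)) hYU m hm.1.1 hm.2)
  have hDQ : D ≤ Q := le_inf (inf_le_left.trans hU) inf_le_right
  obtain ⟨h, hh, c, hc, rfl⟩ := hctl D hDQ n hn.2 ((cj_eq_of_mem_nz (hNUD hn.1)).le.trans hDQ)
  have hUnD : U ≤ normalizer (D : Set G) := UP.trans hNUD
  have hUH : U ≤ H := hU.trans hPH
  have hUC : U ≤ normalizer (C : Set G) := le_nz_inf (nzN U) (le_nz_centralizer hUnD)
  have hUC1 : U ≤ normalizer ((C ⊓ H : Subgroup G) : Set G) :=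
    le_nz_inf hUC (hUH.trans le_normalizer)
  -- `U` is a Sylow subgroup of `U (C ⊓ H)`
  have hSyl : IsSylowIn p U (U ⊔ (C ⊓ H)) := by
    obtain ⟨S', hS', hUS⟩ := exists_isSylowIn_ge (P.2.to_le hU) (le_sup_left : U ≤ U ⊔ (C ⊓ H))
    rcases eq_or_lt_of_le hUS with e | e
    · exact e ▸ hS'
    exfalso
    obtain ⟨y, hy, hyU, hyn⟩ := exists_mem_normalizer_not_mem hS'.2.1.isNilpotent e
    obtain ⟨u, hu, c1, hc1, rfl⟩ := (mem_sup_iff_of_nz hUC1).1 (hS'.1 hy)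
    have hc1U : c1 ∈ NU := (NU.mul_mem_cancel_left (UP hu)).1 hyn
    have hc1S : c1 ∈ S' := (S'.mul_mem_cancel_left (hUS hu)).1 hy
    have hc1K : c1 ∈ K0 := ⟨⟨hc1U, hc1.1.1⟩, hc1.1.2⟩
    obtain ⟨l, hl, hle⟩ := hY.conj_le (hS'.2.1.to_le (zpowers_le.2 hc1S)) (zpowers_le.2 hc1K)
    have h1 : l * c1 * l⁻¹ ∈ U := hYU (cj_le_iff.1 hle c1 (mem_zpowers c1))
    have h2 : c1 ∈ U := by
      have := conj_mem_of_nz (inv_mem hl.1.1 : l⁻¹ ∈ NU) h1
      simpa [mul_assoc] using this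
    exact hyU (mul_mem hu h2)
  have hconj : cj c U = cj h⁻¹ U := by
    have : cj (h * c) U = U := cj_eq_of_mem_nz hn.1
    conv_rhs => rw [← this, Lib.LocalChar.cj_cj, inv_mul_cancel_left]
  have hle : cj c U ≤ U ⊔ (C ⊓ H) := by
    refine cj_le_iff.2 fun u hu => ?_
    have hz : c * u * c⁻¹ ∈ H := by
      have h1 : c * u * c⁻¹ ∈ cj h⁻¹ U := hconj ▸ Lib.LocalChar.conj_mem_cj hu
      obtain ⟨u', hu', e⟩ := h1
      rw [← e]
      exact mul_mem (mul_mem (inv_mem hh.2) (hUH hu')) (inv_mem (inv_mem hh.2))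
    have hcC : u⁻¹ * (c * u * c⁻¹) ∈ C := by
      have hk : u⁻¹ * c * u ∈ C := by simpa using conj_mem_of_nz (hUC (inv_mem hu)) (show c ∈ C from hc)
      have := mul_mem hk (inv_mem (show c ∈ C from hc))
      simpa [mul_assoc] using this
    rw [show c * u * c⁻¹ = u * (u⁻¹ * (c * u * c⁻¹)) by group]
    exact mul_mem_sup hu ⟨hcC, H.mul_mem (H.inv_mem (hUH hu)) hz⟩
  obtain ⟨z, hz, hzle⟩ := hSyl.conj_le (isPGroup_cj (P.2.to_le hU)) hle
  obtain ⟨u, hu, c1, hc1, rfl⟩ := (mem_sup_iff_of_nz hUC1).1 hz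
  have hzU : c1 * c ∈ NU := by
    refine (NU.mul_mem_cancel_left (UP hu)).1 ?_
    rw [← mul_assoc]
    refine mem_nz_of_cj_le ?_
    rwa [← Lib.LocalChar.cj_cj]
  have hk0 : c1 * c ∈ K0 := ⟨⟨hzU, mul_mem hc1.1.1 hc.1⟩, mul_mem hc1.1.2 hc.2⟩
  have e : h * c = (h * c1⁻¹) * (c1 * c) := by group
  rw [e]
  exact Lmul _ _ hzU (LH _ (mul_mem hh.2 (inv_mem hc1.2))) (hK0L _ hk0)

/-- Let N be a normal subgroup of the finite group G, P a Sylow p-subgroup of G, and V a subgroup of P ∩ N normal in P ∩ N such that N_N(V) controls strong fusion in P ∩ N with respect to N (whenever a subgroup A of P ∩ N has n A n⁻¹ ≤ P ∩ N for some n in N, then n = h c with h in N_N(V) and c in C_N(A)). Let W be the subgroup generated by the conjugates of V under N_G(P ∩ N). Then N_G(W) controls strong fusion in P with respect to G. -/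
theorem result {G : Type*} [Group G] [Finite G] {p : ℕ} [Fact p.Prime] (N : Subgroup G) [N.Normal] (P : Sylow p G) (V : Subgroup G)
    (hV : V ≤ (P : Subgroup G) ⊓ N) (hVn : ∀ x ∈ (P : Subgroup G) ⊓ N, V.map (MulAut.conj x).toMonoidHom = V)
    (hctrl : ∀ A : Subgroup G, A ≤ (P : Subgroup G) ⊓ N → ∀ n ∈ N, A.map (MulAut.conj n).toMonoidHom ≤ (P : Subgroup G) ⊓ N →
      ∃ h ∈ N ⊓ Subgroup.normalizer (V : Set G), ∃ c ∈ N ⊓ Subgroup.centralizer (A : Set G), n = h * c)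
    (W : Subgroup G) (hW : W = Subgroup.closure (⋃ x ∈ Subgroup.normalizer (((P : Subgroup G) ⊓ N : Subgroup G) : Set G),
      ((V.map (MulAut.conj x).toMonoidHom : Subgroup G) : Set G))) :
    ∀ A : Subgroup G, A ≤ (P : Subgroup G) → ∀ g : G, A.map (MulAut.conj g).toMonoidHom ≤ (P : Subgroup G) →
        ∃ h ∈ Subgroup.normalizer (W : Set G), ∃ c ∈ Subgroup.centralizer (A : Set G), g = h * c := by
  classical
  intro A hA g hg
  set Q := (P : Subgroup G) ⊓ N with hQ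
  set H := normalizer (W : Set G) with hH
  have hWsup : W = ⨆ x ∈ normalizer (Q : Set G), cj x V := by
    rw [hW]
    refine le_antisymm ((Subgroup.closure_le _).2 (Set.iUnion₂_subset fun x hx => ?_)) ?_
    · exact SetLike.coe_subset_coe.2 (le_iSup₂_of_le x hx le_rfl)
    · exact iSup₂_le fun x hx y hy => Subgroup.subset_closure (Set.mem_iUnion₂.2 ⟨x, hx, hy⟩)
  have hfix : ∀ h : G, (∀ x ∈ normalizer (Q : Set G), ∃ y ∈ normalizer (Q : Set G), cj h (cj x V) = cj y V) →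
      h ∈ H := by
    intro h hh
    refine Lib.LocalChar.mem_nz_of_cj_le ?_
    rw [hWsup, cj, Subgroup.map_iSup]
    refine iSup_le fun x => ?_
    rw [Subgroup.map_iSup]
    refine iSup_le fun hx => ?_
    obtain ⟨y, hy, e⟩ := hh x hx
    exact e.le.trans (le_iSup₂_of_le y hy le_rfl)
  have hNQ : normalizer (Q : Set G) ≤ H := fun k hk => hfix k fun x hx =>
    ⟨k * x, mul_mem hk hx, Lib.LocalChar.cj_cj _ _ _⟩
  have hPQ : (P : Subgroup G) ≤ normalizer (Q : Set G) := by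
    rw [hQ]
    exact Lib.LocalChar.le_nz_inf le_normalizer (by rw [normalizer_eq_top]; exact le_top)
  have hctl : ∀ B : Subgroup G, B ≤ Q → ∀ n ∈ N, cj n B ≤ Q →
      ∃ h ∈ N ⊓ H, ∃ c ∈ N ⊓ centralizer (B : Set G), n = h * c := by
    intro B hB n hn hnB
    let s := (Set.toFinite (normalizer (Q : Set G) : Set G)).toFinset
    obtain ⟨h, hh, hhs, c, hc, e⟩ := multi_control hV hctrl s (fun x hx => (Set.Finite.mem_toFinset _).1 hx) B hB n hn hnB
    exact ⟨h, ⟨hh, hfix h fun x hx => ⟨x, hx, Lib.LocalChar.cj_eq_of_mem_nz (hhs x ((Set.Finite.mem_toFinset _).2 hx))⟩⟩, c, hc, e⟩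
  suffices main : ∀ (k : ℕ) (T : Subgroup G), Nat.card ↥(P : Subgroup G) - Nat.card T = k → T ≤ (P : Subgroup G) →
      ∀ g : G, cj g T ≤ (P : Subgroup G) → ∃ h ∈ H, ∀ t ∈ T, g * t * g⁻¹ = h * t * h⁻¹ by
    obtain ⟨h, hh, he⟩ := main _ A rfl hA g hg
    refine ⟨h, hh, h⁻¹ * g, mem_centralizer_iff.2 fun a ha => ?_, (mul_inv_cancel_left h g).symm⟩
    calc a * (h⁻¹ * g) = h⁻¹ * (h * a * h⁻¹) * g := by group
      _ = h⁻¹ * (g * a * g⁻¹) * g := by rw [he a ha]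
      _ = _ := by group
  intro k
  induction k using Nat.strong_induction_on with
  | _ k ih =>
  intro T hk hT g hg
  have hch := alperin P (isCovering_fullyNormalized P) T g⁻¹ hT (by
    rintro _ ⟨t, ht, rfl⟩
    have := Lib.LocalChar.cj_le_iff.1 hg t ht
    show g⁻¹⁻¹ * t * g⁻¹ ∈ (P : Subgroup G)
    rwa [inv_inv])
  have key : ∀ (B : Set G) (c : G), RChain {U | U ≤ (P : Subgroup G) ∧
      ¬ p ∣ ((P : Subgroup G) ⊓ normalizer (U : Set G)).relIndex (normalizer (U : Set G))} B c →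
      Nat.card T ≤ B.ncard → ∃ h ∈ H, ∀ b ∈ B, c⁻¹ * b * c = h * b * h⁻¹ := by
    intro B c hB
    induction hB with
    | one B => intro _; exact ⟨1, one_mem _, fun b _ => by simp⟩
    | @step B U x c hU hx hBU _ ih' =>
      intro hcard
      have hle : Nat.card T ≤ Nat.card U := by
        refine hcard.trans ((Set.ncard_le_ncard hBU).trans ?_)
        rw [← Nat.card_coe_set_eq]; exact le_rfl
      obtain ⟨h1, hh1, e1⟩ := local_step P (hPQ.trans hNQ) hNQ hctl U hU.1 hU.2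
        (fun T' hT' hlt g' hg' => ih _ (by
          have := Subgroup.card_le_of_le hT'
          omega) T' rfl hT' g' hg') x⁻¹ (inv_mem hx)
      obtain ⟨h2, hh2, e2⟩ := ih' (by
        rw [imgR, Set.ncard_image_of_injective _ fun a b h => mul_left_cancel (mul_right_cancel h)]
        exact hcard)
      refine ⟨h2 * h1, mul_mem hh2 hh1, fun b hb => ?_⟩
      calc (x * c)⁻¹ * b * (x * c) = c⁻¹ * (x⁻¹ * b * x) * c := by group
        _ = h2 * (x⁻¹ * b * x) * h2⁻¹ := e2 _ ⟨b, hb, rfl⟩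
        _ = h2 * (h1 * b * h1⁻¹) * h2⁻¹ := by rw [← e1 b (hBU hb), inv_inv]
        _ = _ := by group
  obtain ⟨h, hh, he⟩ := key _ _ hch (by rw [← Nat.card_coe_set_eq]; exact le_rfl)
  exact ⟨h, hh, fun t ht => by simpa using he t ht⟩

end Cfsg.Agent.S1954
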