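import Cfsg.Statements.S1956
import Cfsg.Agent.Lib.LocalFusion.Basic

set_option autoImplicit false
open Cfsg

namespace Cfsg.Agent.S1956

/-- Let P be a Sylow p-subgroup of the finite group G such that every element of P of order dividing p (dividing 4 when p = 2) is central in P. Then the fusion of these elements is controlled by N_G(P): if such an element a of P has g a g⁻¹ in P, then g = n c with n normalizing P and c commuting with a. -/
theorem result {G : Type*} [Group G] [Finite G] {p : ℕ} [Fact p.Prime] (P : Sylow p G)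
    (hcen : ∀ a ∈ (P : Subgroup G), (a ^ p = 1 ∨ (p = 2 ∧ a ^ 4 = 1)) → ∀ y ∈ (P : Subgroup G), a * y = y * a) :
    ∀ a ∈ (P : Subgroup G), (a ^ p = 1 ∨ (p = 2 ∧ a ^ 4 = 1)) → ∀ g : G, g * a * g⁻¹ ∈ (P : Subgroup G) →
      ∃ n ∈ Subgroup.normalizer ((P : Subgroup G) : Set G), ∃ c : G, c * a = a * c ∧ g = n * c := by
  intro a ha hap g hg
  have hb : (g * a * g⁻¹) ^ p = 1 ∨ (p = 2 ∧ (g * a * g⁻¹) ^ 4 = 1) := by
    rcases hap with h | ⟨h1, h⟩
    · exact Or.inl (by rw [conj_pow, h]; simp)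
    · exact Or.inr ⟨h1, by rw [conj_pow, h]; simp⟩
  let C : Subgroup G := Subgroup.centralizer {g * a * g⁻¹}
  have hP : (P : Subgroup G) ≤ C := fun y hy =>
    Subgroup.mem_centralizer_singleton_iff.2 (hcen _ hg hb y hy).symm
  have hP' : ((g • P : Sylow p G) : Subgroup G) ≤ C := by
    rw [Sylow.coe_subgroup_smul]
    intro y hy
    rw [Subgroup.mem_pointwise_smul_iff_inv_smul_mem] at hy
    have := hcen a ha hap _ hy
    simp [MulAut.smul_def, mul_assoc] at this
    apply Subgroup.mem_centralizer_singleton_iff.2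
    have := congrArg (fun t => g * t * g⁻¹) this
    simp [mul_assoc] at this ⊢
    exact this.symm
  haveI := (P.subtype hP).2
  obtain ⟨c, hc⟩ := MulAction.exists_smul_eq ↥C ((g • P).subtype hP') (P.subtype hP)
  rw [Sylow.smul_subtype] at hc
  have hfix : ((c : G) * g) • P = P := by
    rw [mul_smul]
    exact Sylow.subtype_injective hc
  refine ⟨(c : G) * g, Sylow.smul_eq_iff_mem_normalizer.1 hfix, g⁻¹ * (c : G)⁻¹ * g, ?_, by simp [mul_assoc]⟩
  have := Subgroup.mem_centralizer_singleton_iff.1 (C.inv_mem c.2)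
  calc g⁻¹ * (c : G)⁻¹ * g * a = g⁻¹ * ((c : G)⁻¹ * (g * a * g⁻¹)) * g := by simp [mul_assoc]
    _ = g⁻¹ * ((g * a * g⁻¹) * (c : G)⁻¹) * g := by rw [this]
    _ = a * (g⁻¹ * (c : G)⁻¹ * g) := by simp [mul_assoc]

end Cfsg.Agent.S1956
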