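import Cfsg.Statements.S3074
import Mathlib
import Cfsg.Agent.Lib.QdFree
import Cfsg.Agent.Lib.Classical.SylowGL
import Cfsg.Agent.Lib.PGroupFrattini
import Mathlib
-- import your own Cfsg.Agent.* helpers here

set_option autoImplicit false
open Cfsg Cfsg.Agent
open scoped Pointwise commutatorElement

namespace Cfsg.Agent.S3074

/-- Let p be an odd prime. A Sylow p-subgroup of Qd(p), the split extension of an elementary abelian group of order p² by SL₂(p) acting naturally, is extraspecial of order p³ and exponent p. -/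
theorem result (p : ℕ) [Fact p.Prime] (hp : p ≠ 2) (P : Sylow p ↥(Cfsg.qd p)) :
    Cfsg.IsExtraspecial p ↥P ∧ Nat.card P = p ^ 3 ∧ Monoid.exponent ↥P = p := by
  classical
  have hpp : p.Prime := Fact.out
  have hp3 : 3 ≤ p := by have := hpp.two_le; omega
  let A : ↥(Cfsg.qd p) → Matrix (Fin 3) (Fin 3) (ZMod p) := fun M =>
    ((M : Matrix.SpecialLinearGroup (Fin 3) (ZMod p)) : Matrix (Fin 3) (Fin 3) (ZMod p))
  have Amul : ∀ M N, A (M * N) = A M * A N := fun M N => rfl
  have Aone : A 1 = 1 := rfl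
  have Ainj : ∀ M N, A M = A N → M = N := fun M N h => Subtype.ext (Subtype.ext h)
  have hrow : ∀ M, A M 2 0 = 0 ∧ A M 2 1 = 0 ∧ A M 2 2 = 1 := fun M => Lib.QdFree.qd_shape M.2
  let S : Submonoid ↥(Cfsg.qd p) :=
    { carrier := {M | A M 1 0 = 0 ∧ A M 0 0 = 1 ∧ A M 1 1 = 1}
      one_mem' := by simp [Aone]
      mul_mem' := by
        rintro x y ⟨x1, x2, x3⟩ ⟨y1, y2, y3⟩
        obtain ⟨r1, r2, r3⟩ := hrow y
        simp [Amul, Matrix.mul_apply, Fin.sum_univ_three, x1, x2, x3, y1, y2, y3, r1, r2] }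
  let H : Subgroup ↥(Cfsg.qd p) :=
    { S with
      inv_mem' := by
        intro x hx
        have hof : IsOfFinOrder x := isOfFinOrder_of_finite x
        have : x⁻¹ ∈ Submonoid.powers x :=
          hof.mem_powers_iff_mem_zpowers.mpr (inv_mem (Subgroup.mem_zpowers x))
        exact (Submonoid.powers_le.mpr hx) this }
  have hdet : ∀ a b c : ZMod p, (!![1, a, c; 0, 1, b; 0, 0, 1] : Matrix (Fin 3) (Fin 3) (ZMod p)).det = 1 := by
    intro a b c; simp [Matrix.det_fin_three]
  let u : ZMod p → ZMod p → ZMod p → ↥(Cfsg.qd p) := fun a b c =>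
    Lib.QdFree.qdElem p !![1, a, c; 0, 1, b; 0, 0, 1] (hdet a b c) rfl rfl rfl
  have Au : ∀ a b c, A (u a b c) = !![1, a, c; 0, 1, b; 0, 0, 1] := fun a b c => rfl
  have huH : ∀ a b c, u a b c ∈ H := by
    intro a b c
    refine ⟨?_, ?_, ?_⟩ <;> rw [Au] <;> rfl
  have hHu : ∀ M ∈ H, M = u (A M 0 1) (A M 1 2) (A M 0 2) := by
    rintro M ⟨h1, h2, h3⟩
    obtain ⟨r1, r2, r3⟩ := hrow M
    refine Ainj _ _ ?_
    rw [Au]
    ext i j
    fin_cases i <;> fin_cases j <;> simp [h1, h2, h3, r1, r2, r3]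
  have hHcard : Nat.card ↥H = p ^ 3 := by
    let e : ↥H ≃ ZMod p × ZMod p × ZMod p :=
      { toFun := fun M => (A M 0 1, A M 1 2, A M 0 2)
        invFun := fun x => ⟨u x.1 x.2.1 x.2.2, huH _ _ _⟩
        left_inv := fun M => Subtype.ext (hHu M M.2).symm
        right_inv := fun x => by
          simp [Au] }
    rw [Nat.card_congr e, Nat.card_prod, Nat.card_prod, Nat.card_zmod]; ring
  have hHp : IsPGroup p ↥H := IsPGroup.of_card hHcard
  -- Sylow subgroups of qd p have order at most p^3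
  have hle : ∀ Q : Sylow p ↥(Cfsg.qd p), Nat.card ↥(Q : Subgroup ↥(Cfsg.qd p)) ≤ p ^ 3 := by
    intro Q
    let ι : ↥(Cfsg.qd p) →* GL (Fin 3) (ZMod p) :=
      Matrix.SpecialLinearGroup.toGL.comp (Cfsg.qd p).subtype
    have hι : Function.Injective ι := fun x y h => Ainj x y (congrArg Units.val h)
    obtain ⟨R, hR⟩ := (Q.2.map ι).exists_le_sylow
    calc Nat.card ↥(Q : Subgroup ↥(Cfsg.qd p))
        = Nat.card ↥((Q : Subgroup ↥(Cfsg.qd p)).map ι) :=
          Nat.card_congr ((Q : Subgroup ↥(Cfsg.qd p)).equivMapOfInjective ι hι).toEquiv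
      _ ≤ Nat.card ↥(R : Subgroup _) := Subgroup.card_le_of_le hR
      _ = p ^ 3 := by
          rw [Lib.Classical.card_sylow_GL 3 R, ZMod.card]
  obtain ⟨Q, hQ⟩ := hHp.exists_le_sylow
  have hQH : (Q : Subgroup ↥(Cfsg.qd p)) = H := by
    refine (Subgroup.eq_of_le_of_card_ge hQ ?_).symm
    rw [hHcard]; exact hle Q
  have e : ↥(P : Subgroup ↥(Cfsg.qd p)) ≃* ↥H :=
    (Sylow.equiv P Q).trans (MulEquiv.subgroupCongr hQH)
  have hPcard : Nat.card ↥P = p ^ 3 := by rw [← hHcard]; exact Nat.card_congr e.toEquiv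
  have hexp : ∀ x : ↥P, x ^ p = 1 := by
    intro x
    refine e.injective ?_
    rw [map_pow, map_one]
    refine Subtype.ext (Ainj _ _ ?_)
    have hpow : ∀ (M : ↥(Cfsg.qd p)) (n : ℕ), A (M ^ n) = A M ^ n := by
      intro M n
      induction n with
      | zero => simp [Aone]
      | succ n ih => rw [pow_succ, Amul, ih, pow_succ]
    rw [SubmonoidClass.coe_pow, OneMemClass.coe_one, hpow, Aone, hHu _ (e x).2, Au]
    generalize A _ 0 1 = a
    generalize A _ 1 2 = b
    generalize A _ 0 2 = c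
    have hc : ((!![1, a, c; 0, 1, b; 0, 0, 1] : Matrix (Fin 3) (Fin 3) (ZMod p)) - 1) ^ 3 = 0 := by
      ext i j
      fin_cases i <;> fin_cases j <;> simp [pow_succ, Matrix.mul_apply, Fin.sum_univ_three]
    rw [← sub_eq_zero, ← one_pow (M := Matrix (Fin 3) (Fin 3) (ZMod p)) p,
      ← sub_pow_char_of_commute (p := p) (h := Commute.one_right _)]
    exact pow_eq_zero_of_le hp3 hc
  have hna : ¬ ∀ x y : ↥P, x * y = y * x := by
    intro h
    have h1 := h (e.symm ⟨u 1 0 0, huH _ _ _⟩) (e.symm ⟨u 0 1 0, huH _ _ _⟩)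
    rw [← map_mul, ← map_mul] at h1
    have h2 := congrArg (fun M : ↥H => A M 0 2) (e.symm.injective h1)
    simp [Amul, Au, Matrix.mul_apply, Fin.sum_univ_three] at h2
  have hPp : IsPGroup p ↥P := P.2
  have : Finite ↥P := inferInstance
  obtain ⟨k, hk, hZ⟩ := (Nat.dvd_prime_pow hpp).mp (hPcard ▸ Subgroup.card_subgroup_dvd_card (Subgroup.center ↥P))
  have hnt : Nontrivial ↥P := by
    rw [← Finite.one_lt_card_iff_nontrivial, hPcard]
    exact Nat.one_lt_pow (by norm_num) hpp.one_lt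
  have hZnt := hPp.center_nontrivial
  have hk0 : k ≠ 0 := by
    rintro rfl
    have h1 := Finite.one_lt_card (α := ↥(Subgroup.center ↥P))
    rw [hZ, pow_zero] at h1
    exact lt_irrefl _ h1
  have hidx : (Subgroup.center ↥P).index * p ^ k = p ^ 3 := by
    rw [← hZ, Subgroup.index_mul_card, hPcard]
  have hk1 : k = 1 := by
    by_contra hk1
    have hk2 : 2 ≤ k := by omega
    have hi : (Subgroup.center ↥P).index = p ^ (3 - k) := by
      refine Nat.eq_of_mul_eq_mul_right (pow_pos hpp.pos k) ?_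
      rw [hidx, ← pow_add]; congr 1; omega
    have : IsCyclic (↥P ⧸ Subgroup.center ↥P) := by
      have hc : Nat.card (↥P ⧸ Subgroup.center ↥P) = p ^ (3 - k) := hi
      rcases (show k = 2 ∨ k = 3 by omega) with rfl | rfl
      · exact isCyclic_of_prime_card (p := p) (by simpa using hc)
      · have : Subsingleton (↥P ⧸ Subgroup.center ↥P) :=
          (Nat.card_eq_one_iff_unique.mp (by simpa using hc)).1
        infer_instance
    exact hna (commutative_of_cyclic_center_quotient (QuotientGroup.mk' (Subgroup.center ↥P))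
      (by simp))
  subst hk1
  rw [pow_one] at hZ
  have hcomm : commutator ↥P = Subgroup.center ↥P := by
    have hle : commutator ↥P ≤ Subgroup.center ↥P := by
      refine Subgroup.Normal.quotient_commutative_iff_commutator_le.mp ?_
      have hi : (Subgroup.center ↥P).index = p ^ 2 := by
        refine Nat.eq_of_mul_eq_mul_right (pow_pos hpp.pos 1) ?_
        rw [hidx]; ring
      have hc : Nat.card (↥P ⧸ Subgroup.center ↥P) = p ^ 2 := hi
      have := IsPGroup.isMulCommutative_of_card_eq_prime_sq hc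
      exact this
    have : Fact (Nat.card ↥(Subgroup.center ↥P)).Prime := ⟨by rw [hZ]; exact hpp⟩
    rcases Subgroup.eq_bot_or_eq_top_of_prime_card (commutator ↥P |>.subgroupOf (Subgroup.center ↥P)) with hb | ht
    · exfalso
      refine hna fun x y => ?_
      have hm : ⁅x, y⁆ ∈ commutator ↥P := Subgroup.commutator_mem_commutator (Subgroup.mem_top _) (Subgroup.mem_top _)
      rw [Subgroup.subgroupOf_eq_bot, disjoint_iff] at hb
      have : ⁅x, y⁆ ∈ (⊥ : Subgroup ↥P) := hb ▸ ⟨hm, hle hm⟩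
      exact commutatorElement_eq_one_iff_mul_comm.mp (Subgroup.mem_bot.mp this)
    · exact le_antisymm hle (Subgroup.subgroupOf_eq_top.mp ht)
  have hΦ : frattini ↥P = Subgroup.center ↥P := by
    refine le_antisymm ?_ ?_
    · exact Lib.PGroupFrattini.frattini_le hpp _ hcomm.le (fun x => by rw [hexp x]; exact one_mem _)
    · exact hcomm ▸ Lib.PGroupFrattini.commutator_le_frattini hPp
  refine ⟨⟨⟨hPp, hΦ, hcomm⟩, hZ⟩, hPcard, ?_⟩
  have hdvd : Monoid.exponent ↥P ∣ p := Monoid.exponent_dvd_of_forall_pow_eq_one hexp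
  refine ((Nat.dvd_prime hpp).mp hdvd).resolve_left fun h => ?_
  have h1 := Monoid.exp_eq_one_iff.mp h
  exact not_subsingleton ↥P h1

end Cfsg.Agent.S3074
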