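import Cfsg.Statements.S1989
import Cfsg.Agent.Lib.KInf.FusionK
import Cfsg.Agent.Lib.KInf.QdStable
import Cfsg.Agent.Lib.QdFree
import Cfsg.Agent.S3074
-- import your own Cfsg.Agent.* helpers here

set_option autoImplicit false
universe u
open Cfsg

namespace Cfsg.Agent.S1989

open scoped commutatorElement

open Cfsg.Agent.Lib.KInf in
/-- The lower K-infinity subgroup of a group of class at most two is the whole group. -/
lemma kInfLower_eq_top {P : Type*} [Group P] (h : ∀ a b c : P, Commute ⁅a, b⁆ c) :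
    Cfsg.kInfLower P = ⊤ := by
  have hc : ⁅(⊤ : Subgroup P), ⊤⁆ ≤ Subgroup.centralizer ((⊤ : Subgroup P) : Set P) := by
    rw [Subgroup.commutator_le]
    exact fun a _ b _ c _ => (h a b c).symm.eq
  have hmem : (⊤ : Subgroup P) ∈ Cfsg.kLowerStarFamily (Cfsg.kSeqOdd P 0) := by
    refine ⟨hc, Subgroup.le_normalizer_of_normal, fun A _ _ _ _ _ => ?_⟩
    exact le_inf le_top ((Subgroup.commutator_mono le_rfl le_top).trans hc)
  exact top_le_iff.1 ((le_sSup hmem).trans (le_iSup (Cfsg.kSeqEven P) 0))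

/-- In a section isomorphic to `Qd(p)` strong fusion is not controlled. -/
lemma not_csf {Q : Type u} [Group Q] [Finite Q] {p : ℕ} [Fact p.Prime] (hp : p ≠ 2) (e : Q ≃* ↥(Cfsg.qd p))
    (h : ∀ T : Sylow p Q, Cfsg.ControlsStrongFusion p (Cfsg.inducedFunctor Cfsg.kInfLower (T : Subgroup Q))) :
    False := by
  classical
  let I : Lib.Fusion.Lin p := 1
  let up : Lib.Fusion.Lin p := ⟨!![1, 1; 0, 1], by simp [Matrix.det_fin_two]⟩
  let rot : Lib.Fusion.Lin p := ⟨!![0, -1; 1, 0], by simp [Matrix.det_fin_two]⟩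
  let t1 := Lib.Fusion.aff I (![1, 0] : Lib.Fusion.Plane p)
  let t2 := Lib.Fusion.aff I (![0, 1] : Lib.Fusion.Plane p)
  let u := Lib.Fusion.aff up (0 : Lib.Fusion.Plane p)
  -- the unitriangular matrices form a `p`-subgroup
  let ρ : ↥(Cfsg.qd p) →* Matrix (Fin 3) (Fin 3) (ZMod p) :=
    { toFun := fun x => ((x : Matrix.SpecialLinearGroup (Fin 3) (ZMod p)) : Matrix (Fin 3) (Fin 3) (ZMod p))
      map_one' := rfl
      map_mul' := fun _ _ => rfl }
  have hρ : Function.Injective ρ := fun a b hab => Subtype.ext (Subtype.ext hab)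
  let M0 : Submonoid ↥(Cfsg.qd p) :=
    { carrier := {x | ρ x 0 0 = 1 ∧ ρ x 1 1 = 1 ∧ ρ x 1 0 = 0}
      one_mem' := by simp
      mul_mem' := by
        intro x y ⟨a0, a1, a2⟩ ⟨b0, b1, b2⟩
        obtain ⟨c0, c1, c2⟩ : ρ y 2 0 = 0 ∧ ρ y 2 1 = 0 ∧ ρ y 2 2 = 1 := Lib.Fusion.qd_rows y.2
        refine ⟨?_, ?_, ?_⟩ <;>
          simp [map_mul, Matrix.mul_apply, Fin.sum_univ_three, a0, a1, a2, b0, b1, b2, c0, c1] }
  let T0 : Subgroup ↥(Cfsg.qd p) :=
    { M0 with
      inv_mem' := fun {x} hx => by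
        have hx' : x⁻¹ = x ^ (orderOf x - 1) := by
          refine inv_eq_of_mul_eq_one_right ?_
          rw [← pow_succ', Nat.sub_add_cancel (orderOf_pos x), pow_orderOf_eq_one]
        rw [hx']
        exact M0.pow_mem hx _ }
  have hT0 : IsPGroup p ↥T0 := by
    rintro ⟨x, a0, a1, a2⟩
    obtain ⟨c0, c1, c2⟩ : ρ x 2 0 = 0 ∧ ρ x 2 1 = 0 ∧ ρ x 2 2 = 1 := Lib.Fusion.qd_rows x.2
    obtain ⟨k, hk⟩ := Lib.QdFree.pElem_of_nilpotent (p := p) ρ hρ (g := x) (j := 3) (by
      ext i j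
      fin_cases i <;> fin_cases j <;>
        simp [pow_succ, Matrix.mul_apply, Fin.sum_univ_three, Matrix.one_apply, a0, a1, a2, c0, c1, c2])
    exact ⟨k, Subtype.ext hk⟩
  obtain ⟨S, hS⟩ := (hT0.map e.symm.toMonoidHom).exists_le_sylow
  have hs : Function.Surjective e.toMonoidHom := e.surjective
  obtain ⟨hex, -, -⟩ := Cfsg.Agent.S3074.result p hp (S.mapSurjective hs)
  have h2 : ∀ a b c : ↥(S : Subgroup Q), Commute ⁅a, b⁆ c := by
    intro a b c
    have hmap : ∀ z : ↥(S : Subgroup Q), e z ∈ ((S.mapSurjective hs : Sylow p _) : Subgroup ↥(Cfsg.qd p)) :=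
      fun z => Subgroup.mem_map_of_mem _ z.2
    let T' : Subgroup ↥(Cfsg.qd p) := ((S.mapSurjective hs : Sylow p ↥(Cfsg.qd p)) : Subgroup ↥(Cfsg.qd p))
    have h1 : ⁅(⟨e a, hmap a⟩ : ↥T'), (⟨e b, hmap b⟩ : ↥T')⁆ ∈
        Subgroup.center ↥T' := by
      exact (le_of_eq hex.1.2.2) (Subgroup.commutator_mem_commutator (Subgroup.mem_top _) (Subgroup.mem_top _))
    have h3 : Commute ⁅e a, e b⁆ (e c) := by
      have := (Subgroup.mem_center_iff.1 h1 ⟨e c, hmap c⟩)
      have h4 := Commute.map (show Commute _ _ from this) T'.subtype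
      rw [map_commutatorElement] at h4
      exact h4.symm
    refine Subtype.ext (e.injective ?_)
    rw [Subgroup.coe_mul, Subgroup.coe_mul, map_mul, map_mul]
    have h5 : e ((⁅a, b⁆ : ↥(S : Subgroup Q)) : Q) = ⁅e a, e b⁆ := by
      rw [show ((⁅a, b⁆ : ↥(S : Subgroup Q)) : Q) = ⁅(a : Q), (b : Q)⁆ from map_commutatorElement (S : Subgroup Q).subtype a b,
        map_commutatorElement]
    rw [h5]
    exact h3.eq
  have hW : Cfsg.inducedFunctor Cfsg.kInfLower (S : Subgroup Q) = (S : Subgroup Q) := by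
    unfold Cfsg.inducedFunctor
    rw [kInfLower_eq_top h2, ← MonoidHom.range_eq_map, Subgroup.range_subtype]
  obtain ⟨T, hUT, hA⟩ := h S
  rw [hW] at hUT hA
  have hST : (T : Subgroup Q) = (S : Subgroup Q) := S.3 T.2 hUT
  have m1 : e.symm t1 ∈ (S : Subgroup Q) := hS (Subgroup.mem_map_of_mem _ ⟨by simp [t1, t2, ρ, I, Lib.Fusion.aff, Lib.Fusion.affMatrix], by
    simp [t1, t2, ρ, I, Lib.Fusion.aff, Lib.Fusion.affMatrix], by simp [t1, t2, ρ, I, Lib.Fusion.aff, Lib.Fusion.affMatrix]⟩)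
  have m2 : e.symm t2 ∈ (S : Subgroup Q) := hS (Subgroup.mem_map_of_mem _ ⟨by simp [t1, t2, ρ, I, Lib.Fusion.aff, Lib.Fusion.affMatrix], by
    simp [t1, t2, ρ, I, Lib.Fusion.aff, Lib.Fusion.affMatrix], by simp [t1, t2, ρ, I, Lib.Fusion.aff, Lib.Fusion.affMatrix]⟩)
  have mu : e.symm u ∈ (S : Subgroup Q) := hS (Subgroup.mem_map_of_mem _ ⟨by simp [u, ρ, up, Lib.Fusion.aff, Lib.Fusion.affMatrix], by
    simp [u, ρ, up, Lib.Fusion.aff, Lib.Fusion.affMatrix], by simp [u, ρ, up, Lib.Fusion.aff, Lib.Fusion.affMatrix]⟩)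
  have hcomm : u * t2 * u⁻¹ * t2⁻¹ = t1 := by
    rw [mul_inv_eq_iff_eq_mul, mul_inv_eq_iff_eq_mul, Lib.Fusion.aff_mul, Lib.Fusion.aff_mul, Lib.Fusion.aff_mul]
    congr 1
    · simp [I]
    · funext i; fin_cases i <;> simp [I, up, Matrix.mulVec, dotProduct, Fin.sum_univ_two, Matrix.one_apply]
  have ht1 : ∀ c ∈ (S : Subgroup Q), e.symm t1 * c = c * e.symm t1 := by
    intro c hc
    have h3 := congrArg Subtype.val (h2 ⟨_, mu⟩ ⟨_, m2⟩ ⟨c, hc⟩).eq
    rw [← hcomm]
    simpa [commutatorElement_def] using h3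
  let w := Lib.Fusion.aff rot (0 : Lib.Fusion.Plane p)
  have hw : w * t1 * w⁻¹ = t2 := by
    rw [mul_inv_eq_iff_eq_mul, Lib.Fusion.aff_mul, Lib.Fusion.aff_mul]
    congr 1
    · simp [I]
    · funext i; fin_cases i <;> simp [I, rot, Matrix.mulVec, dotProduct, Fin.sum_univ_two, Matrix.one_apply]
  have hw' : e.symm w * e.symm t1 * (e.symm w)⁻¹ = e.symm t2 := by rw [← hw]; simp
  obtain ⟨x, hx, he⟩ := (hA {e.symm t1} (by rw [hST]; exact Set.singleton_subset_iff.2 m1)).2 (e.symm w) (by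
    rw [Set.image_singleton, Set.singleton_subset_iff, hST, hw']; exact m2)
  have h4 := he _ rfl
  rw [hw'] at h4
  -- so `t2` would be central in `S`
  have hc2 : e.symm t2 * e.symm u = e.symm u * e.symm t2 := by
    rw [h4]
    have h5 := ht1 _ ((Subgroup.mem_normalizer_iff''.1 hx _).1 mu)
    calc x * e.symm t1 * x⁻¹ * e.symm u = x * (e.symm t1 * (x⁻¹ * e.symm u * x)) * x⁻¹ := by group
      _ = x * ((x⁻¹ * e.symm u * x) * e.symm t1) * x⁻¹ := by rw [h5]
      _ = _ := by group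
  rw [← map_mul, ← map_mul] at hc2
  have hc3 : t2 * u = u * t2 := e.symm.injective hc2
  rw [Lib.Fusion.aff_mul, Lib.Fusion.aff_mul] at hc3
  have h6 := congrFun (Lib.Fusion.aff_inj hc3).2 0
  simp [I, up, Matrix.mulVec, dotProduct, Fin.sum_univ_two, Matrix.one_apply] at h6

/-- Let p be an odd prime and G a finite group. Then Qd(p) (the natural semidirect product of an elementary abelian group of order p² by SL₂(p)) is not involved in G if and only if, in every section K/R of G and for every Sylow p-subgroup T of K/R, the lower K-infinity subgroup of T controls strong fusion in K/R. -/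
theorem result {G : Type u} [Group G] [Finite G] {p : ℕ} [Fact p.Prime] (hp : p ≠ 2) : ¬ Cfsg.Involves ↥(Cfsg.qd p) G ↔ ∀ (K R : Subgroup G) [hR : (R.subgroupOf K).Normal], ∀ T : Sylow p (↥K ⧸ R.subgroupOf K), Cfsg.ControlsStrongFusion p (Cfsg.inducedFunctor (G := (↥K ⧸ R.subgroupOf K)) Cfsg.kInfLower (T : Subgroup (↥K ⧸ R.subgroupOf K))) := by
  open Cfsg.Agent.Lib.KInf in
  constructor
  · intro hq K R _ T
    refine csf_of_sf (sf_kInf (fun K' R' _ => ?_) (isCharPFunctor_kInfLower p) (fun _ _ _ h => Or.inl h) _ IsSec.refl) T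
    by_contra hst
    obtain ⟨H, f, hf⟩ := Lib.Fusion.exists_surjective_of_involves (involves_qd_of_not_stable hp hst)
    obtain ⟨H', f', hf'⟩ := ((((isSec_quot K R).subgroup K').quot (R'.subgroupOf K')).subgroup H)
    exact hq (Lib.Fusion.involves_of_surjective (f.comp f') (hf.comp hf'))
  · intro h hinv
    obtain ⟨K, R, hR, ⟨e⟩⟩ := hinv
    exact not_csf hp e (h K R)

end Cfsg.Agent.S1989
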