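import Cfsg.Statements.S2001
import Cfsg.Agent.Lib.LocalFusion.PairFusion

set_option autoImplicit false
open Cfsg

namespace Cfsg.Agent.S2001

open Lib.LocalFusion in
theorem core {G : Type*} [Group G] [Finite G] {p : ℕ} [Fact p.Prime] (P : Sylow p G) (hP : (P : Subgroup G) ≠ ⊥)
    (W V : Subgroup G → Subgroup G) (hW : Cfsg.IsConjugacyFunctor p W) (hV : Cfsg.IsConjugacyFunctor p V)
    (hWZ : ∀ H : Subgroup G, IsPGroup p ↥H → H ⊓ Subgroup.centralizer ((H : Subgroup G) : Set G) ≤ W H)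
    (hVZ : ∀ H : Subgroup G, IsPGroup p ↥H → V H ≤ H ⊓ Subgroup.centralizer ((H : Subgroup G) : Set G))
    (hVmono : ∀ H K : Subgroup G, IsPGroup p ↥H → IsPGroup p ↥K → H ≠ ⊥ → K ≠ ⊥ →
      H ⊓ Subgroup.centralizer ((H : Subgroup G) : Set G) ≤ K ⊓ Subgroup.centralizer ((K : Subgroup G) : Set G) →
        V H ≤ V K)
    (hloc : ∀ H : Subgroup G, (P : Subgroup G) ⊓ Subgroup.centralizer (((P : Subgroup G) : Subgroup G) : Set G) ≤ H →
      H ≤ (P : Subgroup G) → ∃ Q : Subgroup G, Q ≤ Subgroup.normalizer ((H : Subgroup G) : Set G) ∧ IsPGroup p ↥Q ∧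
        ¬ p ∣ Q.relIndex (Subgroup.normalizer ((H : Subgroup G) : Set G)) ∧
        ∀ x ∈ Q ⊓ ⁅Subgroup.normalizer ((H : Subgroup G) : Set G), Subgroup.normalizer ((H : Subgroup G) : Set G)⁆,
          ∃ a ∈ Q ⊓ ⁅Subgroup.normalizer ((H : Subgroup G) : Set G) ⊓ Subgroup.normalizer ((W Q : Subgroup G) : Set G),
            Subgroup.normalizer ((H : Subgroup G) : Set G) ⊓ Subgroup.normalizer ((W Q : Subgroup G) : Set G)⁆,
          ∃ b ∈ Q ⊓ ⁅Subgroup.normalizer ((H : Subgroup G) : Set G) ⊓ Subgroup.centralizer ((V Q : Subgroup G) : Set G),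
            Subgroup.normalizer ((H : Subgroup G) : Set G) ⊓ Subgroup.centralizer ((V Q : Subgroup G) : Set G)⁆,
          x = a * b) :
    (P : Subgroup G) ⊓ commutator G ≤
      ((P : Subgroup G) ⊓ ⁅Subgroup.normalizer ((W (P : Subgroup G) : Subgroup G) : Set G),
          Subgroup.normalizer ((W (P : Subgroup G) : Subgroup G) : Set G)⁆) ⊔
      ((P : Subgroup G) ⊓ ⁅Subgroup.centralizer ((V (P : Subgroup G) : Subgroup G) : Set G),
          Subgroup.centralizer ((V (P : Subgroup G) : Subgroup G) : Set G)⁆) := by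
  set K := ((P : Subgroup G) ⊓ ⁅Subgroup.normalizer ((W (P : Subgroup G) : Subgroup G) : Set G),
          Subgroup.normalizer ((W (P : Subgroup G) : Subgroup G) : Set G)⁆) ⊔
      ((P : Subgroup G) ⊓ ⁅Subgroup.centralizer ((V (P : Subgroup G) : Subgroup G) : Set G),
          Subgroup.centralizer ((V (P : Subgroup G) : Subgroup G) : Set G)⁆) with hK
  have hPC : ∀ Q : Subgroup G, IsPGroup p ↥Q → Q ≤ Subgroup.centralizer ((V Q : Subgroup G) : Set G) :=
    fun Q hQ => Subgroup.le_centralizer_iff.1 ((hVZ Q hQ).trans inf_le_right)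
  have comm : ∀ {M : Subgroup G} {a m : G}, a ∈ M → m ∈ M → a⁻¹ * (m * a * m⁻¹) ∈ ⁅M, M⁆ := fun {M a m} ha hm => by
    have := Subgroup.commutator_mem_commutator (M.inv_mem ha) hm
    simpa [commutatorElement_def, mul_assoc] using this
  have main := pair_induction P hP hW hWZ hVmono (fun A g => ∀ a ∈ A, a⁻¹ * (g * a * g⁻¹) ∈ K)
    (fun A g _ h a ha => by rw [h a ha]; simp)
    (fun A x y h h' a ha => by
      have := K.mul_mem (h a ha) (h' _ ⟨a, ha, rfl⟩)
      simpa [mul_assoc] using this)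
    (fun A g g' h he a ha => by rw [he a ha]; exact h a ha) ?_ ?_ ?_
  · rw [commutator_def]
    refine inf_commutator_le le_top P.2 (by rw [Subgroup.relIndex_top_right]; exact P.not_dvd_index) ?_
    intro a ha m _ hm
    refine main {a} m (Set.singleton_subset_iff.2 ha) ?_ a rfl
    rintro _ ⟨b, rfl, rfl⟩
    exact hm
  · intro z hz B hB hzB a ha
    exact Subgroup.mem_sup_left ⟨(P : Subgroup G).mul_mem ((P : Subgroup G).inv_mem (hB ha)) (hzB ⟨a, ha, rfl⟩),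
      comm (le_normalizer_functor hW P.2 (hB ha)) hz⟩
  · intro z hz B hB hzB a ha
    exact Subgroup.mem_sup_right ⟨(P : Subgroup G).mul_mem ((P : Subgroup G).inv_mem (hB ha)) (hzB ⟨a, ha, rfl⟩), comm (hPC _ P.2 (hB ha)) hz⟩
  · intro H Q hQ hZH hHP hQi hWQ hVQ x hx A hA hxA a ha
    set N := Subgroup.normalizer (H : Set G) with hN
    have hQp : IsPGroup p ↥Q := P.2.to_le (hQ ▸ inf_le_left)
    have hQN : Q ≤ N := hQ ▸ inf_le_right
    obtain ⟨Q0, hQ0N, hQ0p, hQ0i, hctl⟩ := hloc H hZH hHP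
    obtain ⟨k, hk, hkQ⟩ := exists_map_conj_eq hQN hQp hQi hQ0N hQ0p hQ0i
    set t := a⁻¹ * (x * a * x⁻¹)
    have htQ : t ∈ Q := Q.mul_mem (Q.inv_mem (hA ha)) (hxA ⟨a, ha, rfl⟩)
    have htC : t ∈ ⁅N, N⁆ := comm (hQN (hA ha)) hx
    have ht0 : k⁻¹ * t * k ∈ Q0 ⊓ ⁅N, N⁆ := by
      refine ⟨?_, ?_⟩
      · rw [← hkQ, mem_map_conj] at htQ
        simpa using htQ
      · have := mul_mem htC (comm (hQN htQ) (N.inv_mem hk))
        simpa [mul_assoc] using this
    obtain ⟨a0, ha0, b0, hb0, he⟩ := hctl _ ht0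
    have ht : t = k * a0 * k⁻¹ * (k * b0 * k⁻¹) := by
      calc t = k * (k⁻¹ * t * k) * k⁻¹ := by simp [mul_assoc]
        _ = k * a0 * k⁻¹ * (k * b0 * k⁻¹) := by rw [he]; simp [mul_assoc]
    have piece : ∀ (M0 M : Subgroup G), (∀ m ∈ M0, k * m * k⁻¹ ∈ M) → Q ≤ M → M ≤ N →
        (∀ m ∈ M, ∀ B : Set G, B ⊆ Q → imgL m B ⊆ Q → ∀ b ∈ B, b⁻¹ * (m * b * m⁻¹) ∈ K) →
        ∀ y ∈ Q0 ⊓ ⁅M0, M0⁆, k * y * k⁻¹ ∈ K := by
      intro M0 M hM0 hQM hMN hM y hy
      have hi : ¬ p ∣ Q.relIndex M := fun hd =>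
        hQi (hd.trans (Dvd.intro _ (Subgroup.relIndex_mul_relIndex Q M N hQM hMN)))
      refine inf_commutator_le hQM hQp hi (fun b hb m hm hmb => hM m hm {b} (Set.singleton_subset_iff.2 hb)
        (by rintro _ ⟨c, rfl, rfl⟩; exact hmb) b rfl) ⟨hkQ ▸ ⟨y, hy.1, rfl⟩, ?_⟩
      have hle : M0.map (MulAut.conj k).toMonoidHom ≤ M := by
        rintro _ ⟨m, hm, rfl⟩; exact hM0 m hm
      refine Subgroup.commutator_mono hle hle ?_
      rw [← Subgroup.map_commutator]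
      exact ⟨y, hy.2, rfl⟩
    show t ∈ K
    rw [ht]
    refine K.mul_mem (piece _ (N ⊓ Subgroup.normalizer ((W Q : Subgroup G) : Set G)) ?_
        (le_inf hQN (le_normalizer_functor hW hQp)) inf_le_left (fun m hm => hWQ m hm.2) a0 ha0)
      (piece _ (N ⊓ Subgroup.centralizer ((V Q : Subgroup G) : Set G)) ?_
        (le_inf hQN (hPC Q hQp)) inf_le_left (fun m hm => hVQ m hm.2) b0 hb0)
    · intro m hm
      refine ⟨N.mul_mem (N.mul_mem hk hm.1) (N.inv_mem hk), hkQ ▸ conj_mem_normalizer_functor hW hQ0p hm.2⟩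
    · intro m hm
      refine ⟨N.mul_mem (N.mul_mem hk hm.1) (N.inv_mem hk), ?_⟩
      show k * m * k⁻¹ ∈ Subgroup.centralizer ((V Q : Subgroup G) : Set G)
      rw [Subgroup.mem_centralizer_iff, ← hkQ, functor_map_conj hV hQ0p]
      rintro _ ⟨v, hv, rfl⟩
      show k * v * k⁻¹ * (k * m * k⁻¹) = k * m * k⁻¹ * (k * v * k⁻¹)
      calc k * v * k⁻¹ * (k * m * k⁻¹) = k * (v * m) * k⁻¹ := by simp [mul_assoc]
        _ = k * (m * v) * k⁻¹ := by rw [Subgroup.mem_centralizer_iff.1 hm.2 v hv]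
        _ = k * m * k⁻¹ * (k * v * k⁻¹) := by simp [mul_assoc]


/-- Let p be a prime dividing the order of the finite group G, P a Sylow p-subgroup, W a conjugacy functor for p on G with Z(H) ≤ W(H) for every nontrivial p-subgroup H, and V a central functor: a conjugacy functor with V(H) ≤ Z(H), and V(H) ≤ V(K) whenever Z(H) ≤ Z(K), for nontrivial p-subgroups H, K. Say that W with V controls transfer in a subgroup L when some Sylow p-subgroup Q of L satisfies Q ∩ L' = (Q ∩ (N_L(W(Q)))')·(Q ∩ (C_L(V(Q)))') as a product of two subgroups. If W with V controls transfer in N_G(H) for every subgroup H with Z(P) ≤ H ≤ P, then W with V controls transfer in G. -/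
theorem result {G : Type*} [Group G] [Finite G] {p : ℕ} [Fact p.Prime] (hdiv : p ∣ Nat.card G) (P : Sylow p G) (W V : Subgroup G → Subgroup G) (hW : Cfsg.IsConjugacyFunctor p W) (hV : Cfsg.IsConjugacyFunctor p V) (hWZ : ∀ H : Subgroup G, IsPGroup p ↥H → H ⊓ Subgroup.centralizer ((H : Subgroup G) : Set G) ≤ W H) (hVZ : ∀ H : Subgroup G, IsPGroup p ↥H → V H ≤ H ⊓ Subgroup.centralizer ((H : Subgroup G) : Set G)) (hVmono : ∀ H K : Subgroup G, IsPGroup p ↥H → IsPGroup p ↥K → H ≠ ⊥ → K ≠ ⊥ → H ⊓ Subgroup.centralizer ((H : Subgroup G) : Set G) ≤ K ⊓ Subgroup.centralizer ((K : Subgroup G) : Set G) → V H ≤ V K) (hloc : ∀ H : Subgroup G, (P : Subgroup G) ⊓ Subgroup.centralizer (((P : Subgroup G) : Subgroup G) : Set G) ≤ H → H ≤ (P : Subgroup G) → ∃ Q : Subgroup G, Q ≤ Subgroup.normalizer ((H : Subgroup G) : Set G) ∧ IsPGroup p ↥Q ∧ ¬ p ∣ (Q).relIndex (Subgroup.normalizer ((H : Subgroup G) : Set G)) ∧ ∀ x : G, x ∈ Q ⊓ ⁅Subgroup.normalizer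 ((H : Subgroup G) : Set G), Subgroup.normalizer ((H : Subgroup G) : Set G)⁆ ↔ ∃ a ∈ Q ⊓ ⁅Subgroup.normalizer ((H : Subgroup G) : Set G) ⊓ Subgroup.normalizer ((W Q : Subgroup G) : Set G), Subgroup.normalizer ((H : Subgroup G) : Set G) ⊓ Subgroup.normalizer ((W Q : Subgroup G) : Set G)⁆, ∃ b ∈ Q ⊓ ⁅Subgroup.normalizer ((H : Subgroup G) : Set G) ⊓ Subgroup.centralizer ((V Q : Subgroup G) : Set G), Subgroup.normalizer ((H : Subgroup G) : Set G) ⊓ Subgroup.centralizer ((V Q : Subgroup G) : Set G)⁆, x = a * b) : ∃ Q : Subgroup G, IsPGroup p ↥Q ∧ ¬ p ∣ Q.index ∧ ∀ x : G, x ∈ Q ⊓ commutator G ↔ ∃ a ∈ Q ⊓ ⁅Subgroup.normalizer ((W Q : Subgroup G) : Set G), Subgroup.normalizer ((W Q : Subgroup G) : Set G)⁆, ∃ b ∈ Q ⊓ ⁅Subgroup.centralizer ((V Q : Subgroup G) : Set G), Subgroup.centralizer ((V Q : Subgroup G) : Set G)⁆, x = a * b := by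
  have hP : (P : Subgroup G) ≠ ⊥ := by
    intro e
    exact P.not_dvd_index (by rw [e, Subgroup.index_bot]; exact hdiv)
  have h := core P hP W V hW hV hWZ hVZ hVmono (fun H h1 h2 => by
    obtain ⟨Q, hQN, hQp, hQi, hctl⟩ := hloc H h1 h2
    exact ⟨Q, hQN, hQp, hQi, fun x hx => (hctl x).1 hx⟩)
  refine ⟨P, P.2, P.not_dvd_index, fun x => ⟨fun hx => ?_, ?_⟩⟩
  · have hx' := h hx
    rw [← SetLike.mem_coe, Subgroup.coe_mul_of_left_le_normalizer_right _ _ ?_] at hx'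
    · obtain ⟨a, ha, b, hb, hab⟩ := hx'
      exact ⟨a, ha, b, hb, hab.symm⟩
    · intro a ha
      have haC : a ∈ Subgroup.centralizer ((V (P : Subgroup G) : Subgroup G) : Set G) :=
        Subgroup.le_centralizer_iff.1 ((hVZ _ P.2).trans inf_le_right) ha.1
      apply Lib.LocalFusion.mem_normalizer_of_map_conj_eq
      rw [Subgroup.map_inf_eq _ _ _ (MulAut.conj a).injective, Subgroup.map_commutator,
        Lib.LocalFusion.map_conj_eq_of_mem_normalizer (Subgroup.le_normalizer ha.1),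
        Lib.LocalFusion.map_conj_eq_of_mem_normalizer (Subgroup.le_normalizer haC)]
  · rintro ⟨a, ha, b, hb, rfl⟩
    rw [commutator_def]
    exact ⟨mul_mem ha.1 hb.1, mul_mem (Subgroup.commutator_mono le_top le_top ha.2)
      (Subgroup.commutator_mono le_top le_top hb.2)⟩

end Cfsg.Agent.S2001
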