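import Cfsg.Statements.S2002
import Cfsg.Agent.Lib.LocalFusion.PairFusion

set_option autoImplicit false
open Cfsg

namespace Cfsg.Agent.S2002

/-- Let p be a prime dividing the order of the finite group G, P a Sylow p-subgroup, W a conjugacy functor for p on G with Z(H) ≤ W(H) for every nontrivial p-subgroup H, and V a central functor (a conjugacy functor with V(H) ≤ Z(H), and V(H) ≤ V(K) whenever Z(H) ≤ Z(K)). Say that W with V controls strong fusion in a subgroup L when some Sylow p-subgroup Q of L has the property: whenever X ⊆ Q and a ∈ L with a⁻¹Xa ⊆ Q, then a = c b with c ∈ C_L(X) and b = b₁ ⋯ bₙ a product of elements each in N_L(W(Q)) or in C_L(V(Q)) such that every partial conjugate (b₁ ⋯ bₖ)⁻¹ X (b₁ ⋯ bₖ) lies in Q. If W with V controls strong fusion in N_G(H) for every subgroup H with Z(P) ≤ H ≤ P, then W with V controls strong fusion in G. -/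
theorem result {G : Type*} [Group G] [Finite G] {p : ℕ} [Fact p.Prime] (hdiv : p ∣ Nat.card G) (P : Sylow p G) (W V : Subgroup G → Subgroup G) (hW : Cfsg.IsConjugacyFunctor p W) (hV : Cfsg.IsConjugacyFunctor p V) (hWZ : ∀ H : Subgroup G, IsPGroup p ↥H → H ⊓ Subgroup.centralizer ((H : Subgroup G) : Set G) ≤ W H) (hVZ : ∀ H : Subgroup G, IsPGroup p ↥H → V H ≤ H ⊓ Subgroup.centralizer ((H : Subgroup G) : Set G)) (hVmono : ∀ H K : Subgroup G, IsPGroup p ↥H → IsPGroup p ↥K → H ≠ ⊥ → K ≠ ⊥ → H ⊓ Subgroup.centralizer ((H : Subgroup G) : Set G) ≤ K ⊓ Subgroup.centralizer ((K : Subgroup G) : Set G) → V H ≤ V K) (hloc : ∀ H : Subgroup G, (P : Subgroup G) ⊓ Subgroup.centralizer (((P : Subgroup G) : Subgroup G) : Set G) ≤ H → H ≤ (P : Subgroup G) → ∃ Q : Subgroup G, Q ≤ Subgroup.normalizer ((H : Subgroup G) : Set G) ∧ IsPGroup p ↥Q ∧ ¬ p ∣ (Q).relIndex (Subgroup.normalizer ((H : Subgroup G) : Set G)) ∧ ∀ (X : Set G) (a : G), X ⊆ Q → a ∈ Subgroup.normalizer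 ((H : Subgroup G) : Set G) → (fun x => a⁻¹ * x * a) '' X ⊆ Q → ∃ c ∈ Subgroup.normalizer ((H : Subgroup G) : Set G) ⊓ Subgroup.centralizer X, ∃ (n : ℕ) (b : Fin n → G), (∀ i, b i ∈ Subgroup.normalizer ((H : Subgroup G) : Set G) ⊓ Subgroup.normalizer ((W Q : Subgroup G) : Set G) ∨ b i ∈ Subgroup.normalizer ((H : Subgroup G) : Set G) ⊓ Subgroup.centralizer ((V Q : Subgroup G) : Set G)) ∧ a = c * (List.ofFn b).prod ∧ ∀ k : ℕ, k ≤ n → (fun x => (((List.ofFn b).take k).prod)⁻¹ * x * ((List.ofFn b).take k).prod) '' ((fun x => c⁻¹ * x * c) '' X) ⊆ Q) : ∃ Q : Subgroup G, IsPGroup p ↥Q ∧ ¬ p ∣ Q.index ∧ ∀ (X : Set G) (a : G), X ⊆ Q → (fun x => a⁻¹ * x * a) '' X ⊆ Q → ∃ c ∈ Subgroup.centralizer X, ∃ (n : ℕ) (b : Fin n → G), (∀ i, b i ∈ ⊤ ⊓ Subgroup.normalizer ((W Q : Subgroup G) : Set G) ∨ b i ∈ ⊤ ⊓ Subgroup.centralizer ((V Q : Subgroup G) : Set G)) ∧ a = c * (List.ofFn b).prod ∧ ∀ k : ℕ, k ≤ n → (fun x => (((List.ofFn b).take k).prod)⁻¹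 * x * ((List.ofFn b).take k).prod) '' ((fun x => c⁻¹ * x * c) '' X) ⊆ Q := by
  have hP : (P : Subgroup G) ≠ ⊥ := by
    intro e
    exact P.not_dvd_index (by rw [e, Subgroup.index_bot]; exact hdiv)
  have key := Lib.LocalFusion.pair_fusion P hP hW hV hWZ hVmono ?_
  · refine ⟨P, P.2, P.not_dvd_index, fun X a hX ha => ?_⟩
    have hch := key X a⁻¹ hX (by simpa [Lib.LocalFusion.imgL] using ha)
    obtain ⟨c, hc, l, hl, he, hk⟩ := hch.to_list (fun z hz => Lib.LocalFusion.inv_mem_pairSet hz)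
    rw [inv_inv] at he
    refine ⟨c, hc, l.length, fun i => l.get i, fun i => hl _ (l.get_mem i), by rw [List.ofFn_get]; exact he, ?_⟩
    intro k _
    have hcX : (fun x => c⁻¹ * x * c) '' X = X := by
      rw [Set.image_congr (g := id) fun x hx => ?_, Set.image_id]
      show c⁻¹ * x * c = x
      rw [mul_assoc, Subgroup.mem_centralizer_iff.1 hc x hx, inv_mul_cancel_left]
    rw [List.ofFn_get, hcX]
    exact hk k
  · intro H hZH hHP
    obtain ⟨Q, hQN, hQp, hQi, hctl⟩ := hloc H hZH hHP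
    refine ⟨Q, hQN, hQp, hQi, fun A x hA hx hxA => ?_⟩
    obtain ⟨c, hc, n, b, hb, he, hk⟩ := hctl A x⁻¹ hA (inv_mem hx) (by simpa [Lib.LocalFusion.imgL] using hxA)
    have hcA : (fun y => c⁻¹ * y * c) '' A = A := by
      rw [Set.image_congr (g := id) fun y hy => ?_, Set.image_id]
      show c⁻¹ * y * c = y
      rw [mul_assoc, Subgroup.mem_centralizer_iff.1 hc.2 y hy, inv_mul_cancel_left]
    rw [hcA] at hk
    refine (Lib.LocalFusion.LChain.of_list (List.ofFn b) A ?_ ?_).congr fun y hy => ?_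
    · intro z hz
      obtain ⟨i, rfl⟩ := List.mem_ofFn.1 hz
      exact Lib.LocalFusion.inv_mem_pairSet (hb i)
    · intro j hj
      exact hk j (by simpa using hj)
    · have hy' : c⁻¹ * y * c = y := by
        rw [mul_assoc, Subgroup.mem_centralizer_iff.1 hc.2 y hy, inv_mul_cancel_left]
      rw [show x = (List.ofFn b).prod⁻¹ * c⁻¹ by rw [← mul_inv_rev, ← he, inv_inv]]
      simp only [mul_inv_rev, inv_inv]
      conv_rhs => rw [← hy']
      simp [mul_assoc]

end Cfsg.Agent.S2002
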