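import Cfsg.Statements.S2015
import Cfsg.Agent.Lib.KInf.Five
import Cfsg.Agent.Lib.KInf.Single
-- import your own Cfsg.Agent.* helpers here

set_option autoImplicit false
universe u
open Cfsg

namespace Cfsg.Agent.S2015

/-- For p ≥ 5, every finite p-group P has a characteristic subgroup K containing Z(P), depending only on P, whose normalizer controls transfer wherever P is a Sylow subgroup: for every finite group G and every embedding ι of P onto a Sylow p-subgroup of G, the intersection of ι(P) with the derived subgroup of G equals its intersection with the derived subgroup of N_G(ι(K)). -/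
theorem result (p : ℕ) [Fact p.Prime] (hp : 5 ≤ p) (P : Type u) [Group P] [Finite P] (hP : IsPGroup p P) : ∃ K : Subgroup P, K.Characteristic ∧ Subgroup.center P ≤ K ∧ ∀ (G : Type u) [Group G] [Finite G] (ι : P →* G), Function.Injective ι → (∃ T : Sylow p G, (T : Subgroup G) = ι.range) → ι.range ⊓ commutator G = ι.range ⊓ (commutator ↥(Subgroup.normalizer ((K.map ι : Subgroup G) : Set G))).map (Subgroup.normalizer ((K.map ι : Subgroup G) : Set G)).subtype := by
  open Cfsg.Agent.Lib.KInf in
  have hW := isCharPFunctor_kInfLower.{u} p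
  have hchar : (Cfsg.kInfLower P).Characteristic := Subgroup.characteristic_iff_map_eq.2 fun φ => hW.2 P P hP φ
  refine ⟨Cfsg.kInfLower P, hchar, (Cfsg.Agent.Lib.KInf.center_le_kInf P).1, ?_⟩
  intro G _ _ ι hι hT
  obtain ⟨T, hT⟩ := hT
  have e1 : Cfsg.inducedFunctor Cfsg.kInfLower ι.range = (Cfsg.kInfLower P).map ι := by
    unfold Cfsg.inducedFunctor
    rw [← hW.2 P ↥ι.range hP (MonoidHom.ofInjective hι), Subgroup.map_map]
    rfl
  have h := Cfsg.Agent.Lib.KInf.ct_kInfLower hp G T
  rw [Cfsg.Agent.Lib.KInf.T0_singleton, hT, e1] at h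
  set N := Subgroup.normalizer (((Cfsg.kInfLower P).map ι : Subgroup G) : Set G)
  have e2 : (commutator ↥N).map N.subtype = ⁅N, N⁆ := by
    rw [commutator_def, Subgroup.map_commutator, ← MonoidHom.range_eq_map, Subgroup.range_subtype]
  rw [e2]
  exact le_antisymm (le_inf inf_le_left (h.trans inf_le_right)) (inf_le_inf le_rfl (Subgroup.commutator_mono le_top le_top))

end Cfsg.Agent.S2015
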