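import Cfsg.Statements.S2133
import Cfsg.Agent.Lib.Golay.OctadTransvection
-- import your own Cfsg.Agent.* helpers here

set_option autoImplicit false
open Cfsg

namespace Cfsg.Agent.S2133

/-- The Mathieu group M₂₄ (the automorphism group of the length-24 binary code) has an involution whose centraliser is isomorphic to the centraliser of a transvection in SL(5, 2) (a group of shape 2^{1+6}:GL(3, 2)). -/
theorem result (s : Matrix.SpecialLinearGroup (Fin 5) (ZMod 2)) (hs : (s : Matrix (Fin 5) (Fin 5) (ZMod 2)) = Matrix.transvection 0 1 1) : ∃ z : ↥Cfsg.M24, orderOf z = 2 ∧ Nonempty (↥(Subgroup.centralizer ({z} : Set ↥Cfsg.M24)) ≃* ↥(Subgroup.centralizer ({s} : Set (Matrix.SpecialLinearGroup (Fin 5) (ZMod 2))))) := by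
  obtain ⟨o, ho, -⟩ := Lib.Golay.octads_steiner.2 (Finset.univ.map ⟨fun i : Fin 5 => (Lib.Golay.pt i : GolayPt), by decide +kernel⟩) (by simp)
  obtain ⟨p, hp⟩ := Lib.Golay.exists_outside ho.1
  obtain ⟨q, hq, hqp⟩ : ∃ q, q ∉ o ∧ q ≠ p := by
    have h := Lib.Golay.octads_card ho.1
    obtain ⟨q, -, hq⟩ := Finset.exists_mem_notMem_of_card_lt_card (s := insert p o) (t := Finset.univ) (by
      rw [Finset.card_insert_of_notMem hp, h, Finset.card_univ, show Fintype.card GolayPt = 24 from rfl]; norm_num)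
    exact ⟨q, fun h' => hq (Finset.mem_insert_of_mem h'), fun h' => hq (h' ▸ Finset.mem_insert_self _ _)⟩
  obtain ⟨n, hn, hnp⟩ := (Lib.Golay.octFix_facts ho.1).1 p q hp hq
  let n' : ↥(Lib.Golay.stSet o) := ⟨n, Lib.Golay.stSet_of_ptFix hn⟩
  have hn1 : n' ≠ 1 := fun h => hqp (by rw [← hnp, show n = 1 from congrArg Subtype.val h]; rfl)
  obtain ⟨D, hD, -⟩ := Lib.Golay.octad_data ho.1 (z := n') hn hn1
  obtain ⟨e⟩ := Lib.Golay.centTransvection D s hs
  refine ⟨Lib.Golay.octIncl o n', ?_, ⟨?_⟩⟩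
  · rw [orderOf_injective _ (Lib.Golay.octIncl_injective o)]
    exact orderOf_eq_prime (p := 2) (by rw [pow_two]; exact Subtype.ext ((Lib.Golay.octFix_facts ho.1).2.2 n hn)) hn1
  · have h := (MulEquiv.subgroupCongr (show Subgroup.centralizer ({D.z} : Set ↥(Lib.Golay.stSet o)) =
      Subgroup.centralizer ({n'} : Set ↥(Lib.Golay.stSet o)) by rw [hD])).symm.trans e
    exact (Lib.Golay.centEquiv ho.1 hn hn1).symm.trans h

end Cfsg.Agent.S2133
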