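import Cfsg.Statements.S2149
import Cfsg.Agent.Lib.UThreeFive.Alt
import Cfsg.Agent.Lib.UThreeFive.Bound

set_option autoImplicit false
open Cfsg
set_option maxHeartbeats 1000000

namespace Cfsg.Agent.S2149

open Cfsg.Agent.Lib.UThreeFive Cfsg.Agent.Lib.AutPSU
open scoped Pointwise

section

variable {F : Type*} [Field F] [Fintype F] (hF : Fintype.card F = 5 ^ 2) [CharP F 5]
include hF

theorem centralizer_seven {x : Cfsg.PSU 3 F 5} (hx : orderOf x = 7) {y : Cfsg.PSU 3 F 5}
    (h : Commute x y) : y ^ 7 = 1 := by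
  have h49 : ∀ g : Cfsg.PSU 3 F 5, ¬ 7 ∣ orderOf (g ^ 7) := by
    intro g hg
    obtain ⟨k, hk⟩ := hg
    have h1 : orderOf g ∣ 7 * orderOf (g ^ 7) := by
      refine orderOf_dvd_of_pow_eq_one ?_
      rw [pow_mul, pow_orderOf_eq_one]
    have h2 := orderOf_pow g (n := 7)
    rcases order_dvd hF g with h3 | h3 | h3 | h3
    all_goals have h4 : orderOf (g ^ 7) ∣ orderOf g := orderOf_pow_dvd 7
    all_goals have h5 : 7 ∣ orderOf g := (Dvd.intro k hk.symm).trans h4
    · exact absurd (h5.trans h3) (by norm_num)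
    · exact absurd (h5.trans h3) (by norm_num)
    · exact absurd (h5.trans h3) (by norm_num)
    · have h6 : orderOf g = 7 := Nat.dvd_antisymm h3 h5
      rw [orderOf_eq_one_iff.2 (by rw [← h6, pow_orderOf_eq_one])] at hk
      omega
  have hcop : Nat.Coprime 7 (orderOf (y ^ 7)) := (Nat.Prime.coprime_iff_not_dvd (by norm_num)).2 (h49 y)
  have h1 := (h.pow_right 7).orderOf_mul_eq_mul_orderOf_of_coprime (by rw [hx]; exact hcop)
  rw [hx] at h1
  rcases order_dvd hF (x * y ^ 7) with h2 | h2 | h2 | h2 <;> rw [h1] at h2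
  · exact absurd ((dvd_mul_right 7 _).trans h2) (by norm_num)
  · exact absurd ((dvd_mul_right 7 _).trans h2) (by norm_num)
  · exact absurd ((dvd_mul_right 7 _).trans h2) (by norm_num)
  · have h3 : orderOf (y ^ 7) ∣ 1 := Nat.dvd_of_mul_dvd_mul_left (by norm_num : 0 < 7) (h2.trans (by norm_num))
    exact orderOf_eq_one_iff.1 (Nat.dvd_one.1 h3)

/-- The normaliser of a subgroup of order 7 has order 21. -/
theorem card_normalizer_seven [Fact (Nat.Prime 7)] (Q : Sylow 7 (Cfsg.PSU 3 F 5)) :
    Nat.card (Subgroup.normalizer ((Q : Subgroup (Cfsg.PSU 3 F 5)) : Set (Cfsg.PSU 3 F 5))) = 21 := by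
  set N := Subgroup.normalizer ((Q : Subgroup (Cfsg.PSU 3 F 5)) : Set (Cfsg.PSU 3 F 5))
  have hG := card_eq hF
  have hQ : Nat.card (Q : Subgroup (Cfsg.PSU 3 F 5)) = 7 := by
    rw [Q.card_eq_multiplicity, hG, show (126000 : ℕ) = 7 ^ 1 * 18000 from rfl,
      Nat.factorization_mul (by norm_num) (by norm_num), Finsupp.add_apply,
      Nat.Prime.factorization_pow (by norm_num : Nat.Prime 7),
      Nat.factorization_eq_zero_of_not_dvd (show ¬ 7 ∣ 18000 by norm_num), Finsupp.single_eq_same]
    norm_num
  haveI : IsCyclic (Q : Subgroup (Cfsg.PSU 3 F 5)) := isCyclic_of_prime_card hQ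
  let φ := (Q : Subgroup (Cfsg.PSU 3 F 5)).normalizerMonoidHom
  have hker : (φ.ker.map N.subtype) = (Q : Subgroup (Cfsg.PSU 3 F 5)) := by
    rw [Subgroup.normalizerMonoidHom_ker, Subgroup.map_subgroupOf_eq_of_le
      (Subgroup.centralizer_le_normalizer _)]
    refine le_antisymm (fun y hy => ?_) (fun y hy => ?_)
    · obtain ⟨x, hx⟩ := exists_prime_orderOf_dvd_card' (G := (Q : Subgroup (Cfsg.PSU 3 F 5))) 7 (by rw [hQ])
      have hxo : orderOf (x : Cfsg.PSU 3 F 5) = 7 := by rw [Subgroup.orderOf_coe, hx]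
      have hc : Commute (x : Cfsg.PSU 3 F 5) y := Subgroup.mem_centralizer_iff.1 hy _ x.2
      have h7 := centralizer_seven hF hxo hc
      have hp : IsPGroup 7 ↥((Q : Subgroup (Cfsg.PSU 3 F 5)) ⊔ Subgroup.zpowers y) := by
        refine IsPGroup.to_sup_of_normal_left' Q.isPGroup' ?_ ?_
        · rintro ⟨z, k, rfl⟩
          refine ⟨1, Subtype.ext ?_⟩
          show (y ^ k) ^ (7 ^ 1) = 1
          rw [pow_one, ← zpow_natCast, zpow_comm, zpow_natCast, h7, one_zpow]
        · rw [Subgroup.zpowers_le]
          exact Subgroup.centralizer_le_normalizer _ hy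
      rw [← Q.3 hp le_sup_left]
      exact le_sup_right (a := (Q : Subgroup (Cfsg.PSU 3 F 5))) (Subgroup.mem_zpowers y)
    · refine Subgroup.mem_centralizer_iff.2 fun z hz => ?_
      exact congrArg Subtype.val
        (IsMulCommutative.is_comm.comm (⟨z, hz⟩ : (Q : Subgroup (Cfsg.PSU 3 F 5))) ⟨y, hy⟩)
  have hidx : Nat.card φ.range ∣ 6 := by
    have := Subgroup.card_subgroup_dvd_card φ.range
    rwa [IsCyclic.card_mulAut, hQ, Nat.totient_prime (by norm_num)] at this
  have hN : Nat.card N = 7 * Nat.card φ.range := by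
    rw [← φ.ker.card_mul_index, Subgroup.index_ker,
      ← Subgroup.card_map_of_injective (K := φ.ker) N.subtype_injective, hker, hQ]
  have hmul := N.card_mul_index
  rw [show N.index = Nat.card (Sylow 7 (Cfsg.PSU 3 F 5)) from Q.card_eq_index_normalizer.symm, hN, hG] at hmul
  have hmod : Nat.card (Sylow 7 (Cfsg.PSU 3 F 5)) % 7 = 1 := card_sylow_modEq_one 7 _
  rw [hN]
  set r := Nat.card φ.range
  set n := Nat.card (Sylow 7 (Cfsg.PSU 3 F 5))
  have hr : r = 1 ∨ r = 2 ∨ r = 3 ∨ r = 6 := by
    have := Nat.le_of_dvd (by norm_num) hidx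
    interval_cases r <;> simp_all
  rcases hr with hr | hr | hr | hr <;> rw [hr] at hmul ⊢ <;> omega

/-- Subgroups of order divisible by 7 and of small index. -/
theorem seven_case (H : Subgroup (Cfsg.PSU 3 F 5))
    (hm : Nat.card H ∈ [5040, 4200, 3500, 3150, 2800, 2625]) : Nat.card H = 2800 := by
  haveI : Fact (Nat.Prime 7) := ⟨by norm_num⟩
  have h7 : 7 ∣ Nat.card H := by
    simp only [List.mem_cons, List.not_mem_nil, or_false] at hm
    rcases hm with h | h | h | h | h | h <;> rw [h] <;> norm_num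
  obtain ⟨x, hx⟩ := exists_prime_orderOf_dvd_card' 7 h7
  obtain ⟨S, hS⟩ := (IsPGroup.of_card (p := 7) (n := 1)
    (show Nat.card ↥(Subgroup.zpowers x) = 7 ^ 1 by rw [Nat.card_zpowers, hx, pow_one])).exists_le_sylow
  obtain ⟨Q, hQ⟩ := (S.isPGroup'.map H.subtype).exists_le_sylow
  have hQN := card_normalizer_seven hF Q
  have hQ7 : Nat.card ↥((S : Subgroup H).map H.subtype) ∣ 21 := by
    rw [← hQN]
    exact Subgroup.card_dvd_of_le (hQ.trans Subgroup.le_normalizer)
  have hx7 : 7 ∣ Nat.card ↥((S : Subgroup H).map H.subtype) := by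
    rw [Subgroup.card_map_of_injective H.subtype_injective]
    have h := Subgroup.card_dvd_of_le hS
    rw [Nat.card_zpowers, hx] at h
    exact h
  have hQcard : Nat.card (Q : Subgroup (Cfsg.PSU 3 F 5)) ≤ 7 := by
    obtain ⟨k, hk⟩ := Q.isPGroup'.exists_card_eq
    have h1 : Nat.card (Q : Subgroup (Cfsg.PSU 3 F 5)) ∣ 21 := hQN ▸ Subgroup.card_dvd_of_le Subgroup.le_normalizer
    rw [hk] at h1 ⊢
    have hle := Nat.le_of_dvd (by norm_num) h1
    rcases Nat.lt_or_ge k 2 with hk2 | hk2
    · interval_cases k <;> norm_num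
    · have : (7 : ℕ) ^ 2 ≤ 7 ^ k := Nat.pow_le_pow_right (by norm_num) hk2
      omega
  have heq : (S : Subgroup H).map H.subtype = (Q : Subgroup (Cfsg.PSU 3 F 5)) :=
    Subgroup.eq_of_le_of_card_ge hQ (hQcard.trans (Nat.le_of_dvd Nat.card_pos hx7))
  set NH := Subgroup.normalizer ((S : Subgroup H) : Set H)
  have hNH : Nat.card NH ∣ 21 := by
    rw [← hQN, ← Subgroup.card_map_of_injective (K := NH) H.subtype_injective]
    refine Subgroup.card_dvd_of_le ?_
    rw [← heq]
    exact Subgroup.le_normalizer_map _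
  have hmul := NH.card_mul_index
  rw [show NH.index = Nat.card (Sylow 7 H) from S.card_eq_index_normalizer.symm] at hmul
  have hmod : Nat.card (Sylow 7 H) % 7 = 1 := card_sylow_modEq_one 7 _
  have hr : Nat.card NH = 1 ∨ Nat.card NH = 3 ∨ Nat.card NH = 7 ∨ Nat.card NH = 21 := by
    have := Nat.le_of_dvd (by norm_num) hNH
    have h0 : 0 < Nat.card NH := Nat.card_pos
    generalize Nat.card NH = r at *
    interval_cases r <;> simp_all
  have h7NH : 7 ∣ Nat.card NH :=
    hx ▸ (Nat.card_zpowers x ▸ Subgroup.card_dvd_of_le (hS.trans Subgroup.le_normalizer))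
  simp only [List.mem_cons, List.not_mem_nil, or_false] at hm
  rcases hr with hr | hr | hr | hr <;> rw [hr] at hmul h7NH <;>
    rcases hm with h | h | h | h | h | h <;> rw [h] at hmul ⊢ <;> omega

theorem sylow_five_card [Fact (Nat.Prime 5)] (P : Sylow 5 (Cfsg.PSU 3 F 5)) :
    Nat.card (P : Subgroup (Cfsg.PSU 3 F 5)) = 125 := by
  rw [P.card_eq_multiplicity, card_eq hF, show (126000 : ℕ) = 5 ^ 3 * 1008 from rfl,
    Nat.factorization_mul (by norm_num) (by norm_num), Finsupp.add_apply,
    Nat.Prime.factorization_pow (by norm_num : Nat.Prime 5),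
    Nat.factorization_eq_zero_of_not_dvd (show ¬ 5 ∣ 1008 by norm_num), Finsupp.single_eq_same]
  norm_num

theorem noncommutative [Fact (Nat.Prime 5)] (P : Sylow 5 (Cfsg.PSU 3 F 5)) :
    ∃ a ∈ (P : Subgroup (Cfsg.PSU 3 F 5)), ∃ b ∈ (P : Subgroup (Cfsg.PSU 3 F 5)), a * b ≠ b * a := by
  by_contra h
  push Not at h
  obtain ⟨v, hv, -, hc⟩ := exists_centre hF P
  have hle : (P : Subgroup (Cfsg.PSU 3 F 5)) ≤ X hF v := by
    rw [← hc]
    exact le_inf le_rfl fun a ha => Subgroup.mem_centralizer_iff.2 fun b hb => h b hb a ha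
  have h2 : Nat.card ↥(X hF v) ≤ 25 := by
    refine (Nat.card_le_card_of_surjective (fun c : {c : F // Skew 5 c} =>
      (⟨tr hF v c.1, tr_mem_X hF v c.2⟩ : X hF v)) ?_).trans ?_
    · rintro ⟨z, hz⟩
      obtain ⟨c, hc, rfl⟩ := (mem_X hF hv.2).1 hz
      exact ⟨⟨c, hc⟩, rfl⟩
    · have : Nat.card {c : F // Skew 5 c} ≤ Nat.card F :=
        Nat.card_le_card_of_injective _ Subtype.val_injective
      rw [Nat.card_eq_fintype_card (α := F), hF] at this
      omega
  have h3 := (Nat.le_of_dvd Nat.card_pos (Subgroup.card_dvd_of_le hle)).trans h2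
  rw [sylow_five_card hF P] at h3
  omega

theorem lower (H : Subgroup (Cfsg.PSU 3 F 5)) (hH : H ≠ ⊤) : 50 ≤ H.index := by
  haveI : Fact (Nat.Prime 5) := ⟨by norm_num⟩
  haveI : Fact (Nat.Prime 7) := ⟨by norm_num⟩
  haveI hsimple : IsSimpleGroup (Cfsg.PSU 3 F 5) := Cfsg.Agent.S0283.result hF 3 (le_refl 3) (by norm_num)
  obtain ⟨P₀⟩ : Nonempty (Sylow 5 (Cfsg.PSU 3 F 5)) := inferInstance
  obtain ⟨a, ha, b, hb, hab⟩ := noncommutative hF P₀
  have h25 : ∀ K : Subgroup (Cfsg.PSU 3 F 5), K ≠ ⊤ → 25 ≤ K.index := fun K hK => by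
    refine le_index_of_noncommutative K ?_ P₀.isPGroup' ha hb hab
    exact (K.normalCore_normal.eq_bot_or_eq_top).resolve_right fun h => hK (eq_top_iff.2 (h ▸ K.normalCore_le))
  by_contra hlt
  push Not at hlt
  have hmul := H.card_mul_index
  rw [card_eq hF] at hmul
  have hlo := h25 H hH
  have hlist : Nat.card H ∈ [5040, 4200, 3500, 3150, 2800, 2625] ∨ Nat.card H = 4500 ∨
      Nat.card H = 3600 ∨ Nat.card H = 3000 := by
    simp only [List.mem_cons, List.not_mem_nil, or_false]
    interval_cases h : H.index <;> omega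
  obtain ⟨S⟩ : Nonempty (Sylow 5 H) := inferInstance
  have hSm := S.card_eq_multiplicity
  have hnmod : Nat.card (Sylow 5 H) % 5 = 1 := card_sylow_modEq_one 5 _
  have hndvd := (S.card_dvd_index)
  have hSi := (S : Subgroup H).card_mul_index
  set SG := (S : Subgroup H).map H.subtype with hSG
  have hSGcard : Nat.card SG = Nat.card (S : Subgroup H) :=
    Subgroup.card_map_of_injective H.subtype_injective
  obtain ⟨P, hP⟩ := (S.isPGroup'.map H.subtype).exists_le_sylow
  -- a common element of order 5 in two Sylow subgroups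
  have common : ∀ T : Sylow 5 H, T ≠ S → ∀ y : Cfsg.PSU 3 F 5, orderOf y = 5 →
      (∀ z : H, z ∈ (S : Subgroup H) → Commute y z) → (∀ z : H, z ∈ (T : Subgroup H) → Commute y z) → False := by
    intro T hT y hy hyS hyT
    set C := Subgroup.centralizer ({y} : Set (Cfsg.PSU 3 F 5)) with hCdef
    have hCc : ∀ z ∈ C, Commute y z := fun z hz => Subgroup.mem_centralizer_iff.1 hz y rfl
    have hone := sylow_five_of_centralized hF (C ⊓ H) hy fun z hz => hCc z hz.1
    haveI : Subsingleton (Sylow 5 ↥(C ⊓ H)) := (Nat.card_eq_one_iff_unique.1 hone).1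
    let i : ↥(C ⊓ H) →* H := Subgroup.inclusion inf_le_right
    have hle : ∀ U : Sylow 5 H, (∀ z : H, z ∈ (U : Subgroup H) → Commute y z) →
        (U : Subgroup H) ≤ i.range := fun U hU z hz =>
      ⟨⟨z, Subgroup.mem_centralizer_iff.2 (fun w hw => by rw [Set.mem_singleton_iff] at hw; rw [hw]; exact hU z hz),
        z.2⟩, rfl⟩
    let S' := S.comapOfInjective i (Subgroup.inclusion_injective _) (hle S hyS)
    let T' := T.comapOfInjective i (Subgroup.inclusion_injective _) (hle T hyT)
    apply hT
    refine Sylow.ext ?_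
    rw [← Subgroup.map_comap_eq_self (hle S hyS), ← Subgroup.map_comap_eq_self (hle T hyT)]
    have he : (T' : Subgroup ↥(C ⊓ H)) = (S' : Subgroup ↥(C ⊓ H)) := by rw [Subsingleton.elim T' S']
    exact congrArg (Subgroup.map i) he
  have habel : Nat.card (S : Subgroup H) = 25 → ∀ T : Sylow 5 H, ∀ u ∈ (T : Subgroup H), ∀ w ∈ (T : Subgroup H),
      Commute u w := fun h25' T u hu w hw => by
    haveI : IsMulCommutative (T : Subgroup H) :=
      IsPGroup.isMulCommutative_of_card_eq_prime_sq (p := 5) (by rw [T.card_eq_multiplicity, ← S.card_eq_multiplicity, h25']; norm_num)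
    exact congrArg Subtype.val (IsMulCommutative.is_comm.comm (⟨u, hu⟩ : (T : Subgroup H)) ⟨w, hw⟩)
  -- with Sylow subgroups of order 25 there is only one
  have one25 : Nat.card (S : Subgroup H) = 25 → ¬ Nat.card (Sylow 5 H) ≡ 1 [MOD 5 ^ 2] → False := by
    intro h25' hn
    obtain ⟨T, hT, hTS⟩ := exists_large_inf S hn
    have h5 : 5 ∣ Nat.card ↥((S : Subgroup H) ⊓ (T : Subgroup H)) := by
      obtain ⟨k, hk⟩ := (S.isPGroup'.to_le inf_le_left).exists_card_eq
        (G := ↥((S : Subgroup H) ⊓ (T : Subgroup H)))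
      rw [hk] at hTS ⊢
      rcases Nat.eq_zero_or_pos k with rfl | hk
      · rw [h25'] at hTS; norm_num at hTS
      · exact dvd_pow_self 5 hk.ne'
    obtain ⟨y, hy⟩ := exists_prime_orderOf_dvd_card' 5 h5
    refine common T hT ((y : H) : Cfsg.PSU 3 F 5) (by rw [Subgroup.orderOf_coe, Subgroup.orderOf_coe, hy])
      (fun z hz => ?_) fun z hz => ?_
    · exact congrArg Subtype.val (habel h25' S _ y.2.1 _ hz).eq
    · exact congrArg Subtype.val (habel h25' T _ y.2.2 _ hz).eq
  rcases hlist with hl | hl | hl | hl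
  · -- order 2800
    have h2800 := seven_case hF H hl
    have hS25 : Nat.card (S : Subgroup H) = 25 := by
      rw [hSm, h2800, show (2800 : ℕ) = 5 ^ 2 * 112 from rfl,
        Nat.factorization_mul (by norm_num) (by norm_num), Finsupp.add_apply,
        Nat.Prime.factorization_pow (by norm_num : Nat.Prime 5),
        Nat.factorization_eq_zero_of_not_dvd (show ¬ 5 ∣ 112 by norm_num), Finsupp.single_eq_same]
      norm_num
    rw [hS25, h2800] at hSi
    rw [show (S : Subgroup H).index = 112 by omega] at hndvd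
    have hn1 : Nat.card (Sylow 5 H) = 1 := by
      by_contra hne
      refine one25 hS25 fun h => hne ?_
      have hle := Nat.le_of_dvd (by norm_num) hndvd
      unfold Nat.ModEq at h
      generalize Nat.card (Sylow 5 H) = n at *
      interval_cases n <;> omega
    obtain ⟨x, hx⟩ := exists_prime_orderOf_dvd_card' (G := H) 7 (by rw [h2800]; norm_num)
    haveI : Subsingleton (Sylow 5 H) := (Nat.card_eq_one_iff_unique.1 hn1).1
    haveI hSn : (S : Subgroup H).Normal := Sylow.normal_of_subsingleton S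
    let X7 := Subgroup.zpowers x
    have hp7 : IsPGroup 7 X7 := IsPGroup.of_card (n := 1) (by rw [Nat.card_zpowers, hx, pow_one])
    letI : MulAction X7 (S : Subgroup H) :=
      { smul := fun g s => ⟨(g : H) * s * (g : H)⁻¹, hSn.conj_mem _ s.2 _⟩
        one_smul := fun s => Subtype.ext (show (1 : H) * s * 1⁻¹ = s by simp)
        mul_smul := fun g g' s => Subtype.ext
          (show ((g : H) * g') * s * ((g : H) * g')⁻¹ = g * (g' * s * (g' : H)⁻¹) * (g : H)⁻¹ by group) }
    have hmod7 := hp7.card_modEq_card_fixedPoints (S : Subgroup H)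
    have hfix : Nat.card (MulAction.fixedPoints X7 (S : Subgroup H)) = 1 := by
      rw [Nat.card_eq_one_iff_unique]
      refine ⟨⟨fun u w => ?_⟩, ⟨⟨1, fun g => Subtype.ext (show (g : H) * 1 * (g : H)⁻¹ = 1 by simp)⟩⟩⟩
      suffices ∀ u : MulAction.fixedPoints X7 (S : Subgroup H), ((u : (S : Subgroup H)) : H) = 1 by
        exact Subtype.ext (Subtype.ext ((this u).trans (this w).symm))
      intro u
      have hu : x * ((u : (S : Subgroup H)) : H) * x⁻¹ = ((u : (S : Subgroup H)) : H) :=
        congrArg Subtype.val (u.2 ⟨x, Subgroup.mem_zpowers x⟩)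
      set z := ((u : (S : Subgroup H)) : H)
      have hc : Commute (x : Cfsg.PSU 3 F 5) z := congrArg Subtype.val (mul_inv_eq_iff_eq_mul.1 hu)
      have h7' := centralizer_seven hF (show orderOf (x : Cfsg.PSU 3 F 5) = 7 by rw [Subgroup.orderOf_coe, hx]) hc
      obtain ⟨k, hk⟩ := S.isPGroup' (u : (S : Subgroup H))
      have hk' : z ^ 5 ^ k = 1 := congrArg Subtype.val hk
      have h71 : z ^ 7 = 1 := Subtype.ext h7'
      exact orderOf_eq_one_iff.1 (Nat.dvd_one.1 ((Nat.Coprime.pow_left k (by norm_num : Nat.Coprime 5 7)) ▸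
        Nat.dvd_gcd (orderOf_dvd_of_pow_eq_one hk') (orderOf_dvd_of_pow_eq_one h71)))
    rw [hfix, hS25] at hmod7
    exact absurd hmod7 (by decide)
  rotate_left
  · -- order 3600
    have hS25 : Nat.card (S : Subgroup H) = 25 := by
      rw [hSm, hl, show (3600 : ℕ) = 5 ^ 2 * 144 from rfl,
        Nat.factorization_mul (by norm_num) (by norm_num), Finsupp.add_apply,
        Nat.Prime.factorization_pow (by norm_num : Nat.Prime 5),
        Nat.factorization_eq_zero_of_not_dvd (show ¬ 5 ∣ 144 by norm_num), Finsupp.single_eq_same]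
      norm_num
    rw [hS25, hl] at hSi
    rw [show (S : Subgroup H).index = 144 by omega] at hndvd
    have hn1 : Nat.card (Sylow 5 H) = 1 := by
      by_contra hne
      refine one25 hS25 fun h => hne ?_
      have hle := Nat.le_of_dvd (by norm_num) hndvd
      unfold Nat.ModEq at h
      generalize Nat.card (Sylow 5 H) = n at *
      interval_cases n <;> omega
    haveI : Subsingleton (Sylow 5 H) := (Nat.card_eq_one_iff_unique.1 hn1).1
    haveI : (S : Subgroup H).Normal := Sylow.normal_of_subsingleton S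
    set N := Subgroup.normalizer (SG : Set (Cfsg.PSU 3 F 5))
    have hHN : H ≤ N := by
      intro h hh
      have h1 : (⟨h, hh⟩ : H) ∈ Subgroup.normalizer ((S : Subgroup H) : Set H) := by
        rw [Subgroup.normalizer_eq_top_iff.2 inferInstance]; exact Subgroup.mem_top _
      exact Subgroup.le_normalizer_map _ (Subgroup.mem_map_of_mem _ h1)
    have hPN : (P : Subgroup (Cfsg.PSU 3 F 5)) ≤ N := by
      haveI : (SG.subgroupOf (P : Subgroup (Cfsg.PSU 3 F 5))).Normal := by
        refine Subgroup.normal_of_index_eq_minFac_card ?_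
        have h1 := (SG.subgroupOf (P : Subgroup (Cfsg.PSU 3 F 5))).card_mul_index
        rw [Nat.card_congr (Subgroup.subgroupOfEquivOfLe hP).toEquiv, hSGcard, hS25, sylow_five_card hF P] at h1
        rw [sylow_five_card hF P, show (125 : ℕ) = 5 ^ 3 from rfl,
          Nat.Prime.pow_minFac (by norm_num) (by norm_num)]
        omega
      exact Subgroup.normal_subgroupOf_iff_le_normalizer hP |>.1 this
    have hN : N ≠ ⊤ := by
      refine not_normal hF SG (fun h => ?_) (fun h => ?_)
      · rw [h, Subgroup.card_bot] at hSGcard; omega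
      · rw [h, Subgroup.card_top, card_eq hF] at hSGcard; omega
    have h1 : 3600 ∣ Nat.card N := hl ▸ Subgroup.card_dvd_of_le hHN
    have h2 : 125 ∣ Nat.card N := sylow_five_card hF P ▸ Subgroup.card_dvd_of_le hPN
    have h3 : 18000 ∣ Nat.card N := by
      have := Nat.lcm_dvd h1 h2
      norm_num [Nat.lcm] at this
      exact this
    have h4 := N.card_mul_index
    rw [card_eq hF] at h4
    have h5 := h25 N hN
    have h6 := Nat.le_of_dvd Nat.card_pos h3
    nlinarith
  -- orders 4500 and 3000
  all_goals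
    have hS125 : Nat.card (S : Subgroup H) = 125 := by
      rw [hSm, hl]
      first
        | rw [show (4500 : ℕ) = 5 ^ 3 * 36 from rfl,
            Nat.factorization_mul (by norm_num) (by norm_num), Finsupp.add_apply,
            Nat.Prime.factorization_pow (by norm_num : Nat.Prime 5),
            Nat.factorization_eq_zero_of_not_dvd (show ¬ 5 ∣ 36 by norm_num), Finsupp.single_eq_same]
        | rw [show (3000 : ℕ) = 5 ^ 3 * 24 from rfl,
            Nat.factorization_mul (by norm_num) (by norm_num), Finsupp.add_apply,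
            Nat.Prime.factorization_pow (by norm_num : Nat.Prime 5),
            Nat.factorization_eq_zero_of_not_dvd (show ¬ 5 ∣ 24 by norm_num), Finsupp.single_eq_same]
      norm_num
    have heqP : ∀ (T : Sylow 5 H) (Q : Sylow 5 (Cfsg.PSU 3 F 5)),
        (T : Subgroup H).map H.subtype ≤ (Q : Subgroup (Cfsg.PSU 3 F 5)) →
          (T : Subgroup H).map H.subtype = (Q : Subgroup (Cfsg.PSU 3 F 5)) := fun T Q hQ => by
      refine Subgroup.eq_of_le_of_card_ge hQ ?_
      rw [sylow_five_card hF Q, Subgroup.card_map_of_injective H.subtype_injective, T.card_eq_multiplicity,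
        ← S.card_eq_multiplicity, hS125]
    by_cases hn1 : Nat.card (Sylow 5 H) = 1
    · haveI : Subsingleton (Sylow 5 H) := (Nat.card_eq_one_iff_unique.1 hn1).1
      haveI : (S : Subgroup H).Normal := Sylow.normal_of_subsingleton S
      set N := Subgroup.normalizer ((P : Subgroup (Cfsg.PSU 3 F 5)) : Set (Cfsg.PSU 3 F 5))
      have hHN : H ≤ N := by
        intro h hh
        have h1 : (⟨h, hh⟩ : H) ∈ Subgroup.normalizer ((S : Subgroup H) : Set H) := by
          rw [Subgroup.normalizer_eq_top_iff.2 inferInstance]; exact Subgroup.mem_top _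
        show h ∈ Subgroup.normalizer ((P : Subgroup (Cfsg.PSU 3 F 5)) : Set (Cfsg.PSU 3 F 5))
        rw [← heqP S P hP]
        exact Subgroup.le_normalizer_map _ (Subgroup.mem_map_of_mem _ h1)
      have hN : N ≠ ⊤ := by
        refine not_normal hF _ (fun h => ?_) (fun h => ?_)
        · have := sylow_five_card hF P; rw [h, Subgroup.card_bot] at this; omega
        · have := sylow_five_card hF P; rw [h, Subgroup.card_top, card_eq hF] at this; omega
      have h5 := h25 N hN
      have h4 := N.card_mul_index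
      rw [card_eq hF] at h4
      have hP1 := (P : Subgroup (Cfsg.PSU 3 F 5)).card_mul_index
      rw [sylow_five_card hF P, card_eq hF] at hP1
      have hdv := P.card_dvd_index
      rw [show (P : Subgroup (Cfsg.PSU 3 F 5)).index = 1008 by omega] at hdv
      have hmd : Nat.card (Sylow 5 (Cfsg.PSU 3 F 5)) % 5 = 1 := card_sylow_modEq_one 5 _
      rw [show Nat.card (Sylow 5 (Cfsg.PSU 3 F 5)) = N.index from P.card_eq_index_normalizer] at hdv hmd
      have h7 : Nat.card N = 3500 → False := fun h => by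
        have := seven_case hF N (by simp [h])
        omega
      have hle := Nat.le_of_dvd Nat.card_pos (Subgroup.card_dvd_of_le hHN)
      have hle2 := Nat.le_of_dvd (by norm_num) hdv
      obtain ⟨c, hc⟩ := hdv
      rcases Nat.lt_or_ge N.index 56 with hsmall | hbig
      · apply h7
        interval_cases h : N.index <;> omega
      · nlinarith
    · have hn : ¬ Nat.card (Sylow 5 H) ≡ 1 [MOD 5 ^ 2] := fun h => hn1 (by
        rw [hS125, hl] at hSi
        have hle := Nat.le_of_dvd (Nat.pos_of_ne_zero (by omega)) hndvd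
        unfold Nat.ModEq at h
        have hi : (S : Subgroup H).index ≤ 36 := by omega
        have hle' := hle.trans hi
        generalize Nat.card (Sylow 5 H) = n at *
        interval_cases n <;> omega)
      obtain ⟨T, hT, hTS⟩ := exists_large_inf S hn
      rw [hS125] at hTS
      set D := (S : Subgroup H) ⊓ (T : Subgroup H) with hD
      have hD25 : Nat.card D = 25 := by
        have h1 : Nat.card D ∣ 5 ^ 3 := by
          rw [show (5 : ℕ) ^ 3 = Nat.card (S : Subgroup H) by rw [hS125]; norm_num]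
          exact Subgroup.card_dvd_of_le inf_le_left
        obtain ⟨k, hk, hk'⟩ := (Nat.dvd_prime_pow (by norm_num : Nat.Prime 5)).1 h1
        rw [hk'] at hTS ⊢
        interval_cases k
        · norm_num at hTS
        · norm_num at hTS
        · norm_num
        · exfalso
          apply hT
          have h2 : D = (S : Subgroup H) := Subgroup.eq_of_le_of_card_ge inf_le_left (by rw [hS125, hk']; norm_num)
          refine Sylow.ext (S.is_maximal' T.isPGroup' ?_)
          rw [← h2]; exact inf_le_right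
      have hDab : IsMulCommutative D :=
        IsPGroup.isMulCommutative_of_card_eq_prime_sq (p := 5) (by rw [hD25]; norm_num)
      have hcen : ∀ U : Sylow 5 H, D ≤ (U : Subgroup H) → ∃ z : H, orderOf z = 5 ∧ z ∈ D ∧
          (∀ u ∈ (U : Subgroup H), Commute z u) := fun U hDU => by
        haveI : Nontrivial (U : Subgroup H) := Finite.one_lt_card_iff_nontrivial.1 (by
          rw [U.card_eq_multiplicity, ← S.card_eq_multiplicity, hS125]; norm_num)
        haveI := U.isPGroup'.center_nontrivial
        obtain ⟨k, hk⟩ := (U.isPGroup'.to_subgroup (Subgroup.center (U : Subgroup H))).exists_card_eq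
        have hk0 : k ≠ 0 := by
          rintro rfl
          have := Finite.one_lt_card (α := Subgroup.center (U : Subgroup H))
          omega
        obtain ⟨z, hz⟩ := exists_prime_orderOf_dvd_card' (G := Subgroup.center (U : Subgroup H)) 5
          (hk ▸ dvd_pow_self 5 hk0)
        have hzc : ∀ u ∈ (U : Subgroup H), Commute (((z : (U : Subgroup H)) : H)) u := fun u hu =>
          congrArg Subtype.val (Subgroup.mem_center_iff.1 z.2 ⟨u, hu⟩).symm
        refine ⟨((z : (U : Subgroup H)) : H), by rw [Subgroup.orderOf_coe, Subgroup.orderOf_coe, hz], ?_, hzc⟩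
        by_contra hzD
        set K := Subgroup.closure ((D : Set H) ∪ {((z : (U : Subgroup H)) : H)})
        have hKU : K ≤ (U : Subgroup H) := by
          rw [Subgroup.closure_le]
          rintro w (hw | rfl)
          · exact hDU hw
          · exact (z : (U : Subgroup H)).2
        have hDK : D ≤ K := fun w hw => Subgroup.subset_closure (Or.inl hw)
        haveI hKc : IsMulCommutative K := Subgroup.isMulCommutative_closure (by
          rintro w (hw | rfl) w' (hw' | rfl)
          · exact congrArg Subtype.val (IsMulCommutative.is_comm.comm (⟨w, hw⟩ : D) ⟨w', hw'⟩)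
          · exact (hzc w (hDU hw)).eq.symm
          · exact (hzc w' (hDU hw')).eq
          · rfl)
        have hKU' : K = (U : Subgroup H) := by
          refine Subgroup.eq_of_le_of_card_ge hKU ?_
          have h1 : Nat.card K ∣ 5 ^ 3 := by
            rw [show (5 : ℕ) ^ 3 = Nat.card (U : Subgroup H) by
              rw [U.card_eq_multiplicity, ← S.card_eq_multiplicity, hS125]; norm_num]
            exact Subgroup.card_dvd_of_le hKU
          obtain ⟨k, hk, hk'⟩ := (Nat.dvd_prime_pow (by norm_num : Nat.Prime 5)).1 h1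
          rw [U.card_eq_multiplicity, ← S.card_eq_multiplicity, hS125, hk']
          have h2 : 25 < Nat.card K := by
            rw [← hD25]
            refine lt_of_le_of_ne (Subgroup.card_le_of_le hDK) fun h => hzD ?_
            rw [Subgroup.eq_of_le_of_card_ge hDK h.ge]
            exact Subgroup.subset_closure (Or.inr rfl)
          rw [hk'] at h2
          interval_cases k <;> (revert h2; norm_num)
        obtain ⟨Q, hQ⟩ := (U.isPGroup'.map H.subtype).exists_le_sylow
        obtain ⟨a', ha', b', hb', hab'⟩ := noncommutative hF Q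
        rw [← heqP U Q hQ, ← hKU'] at ha' hb'
        obtain ⟨a'', ha'', rfl⟩ := ha'
        obtain ⟨b'', hb'', rfl⟩ := hb'
        exact hab' (congrArg (fun w : H => (w : Cfsg.PSU 3 F 5))
          (congrArg Subtype.val (IsMulCommutative.is_comm.comm (⟨a'', ha''⟩ : K) ⟨b'', hb''⟩)))
      obtain ⟨y, hy5, hyD, hyS⟩ := hcen S inf_le_left
      obtain ⟨y', hy5', hyD', hyT⟩ := hcen T inf_le_right
      obtain ⟨Q, hQ⟩ := (T.isPGroup'.map H.subtype).exists_le_sylow
      have hPeq := heqP S P hP
      have hQeq := heqP T Q hQ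
      obtain ⟨v, hv, hvg, hvc⟩ := exists_centre hF P
      obtain ⟨w, hw, hwg, hwc⟩ := exists_centre hF Q
      have hyP : (y : Cfsg.PSU 3 F 5) ∈ X hF v := by
        rw [← hvc]
        refine ⟨hPeq ▸ Subgroup.mem_map_of_mem _ hyD.1, Subgroup.mem_centralizer_iff.2 fun u hu => ?_⟩
        rw [SetLike.mem_coe, ← hPeq] at hu
        obtain ⟨u', hu', rfl⟩ := hu
        exact congrArg Subtype.val (hyS u' hu').eq.symm
      have hyQ : (y' : Cfsg.PSU 3 F 5) ∈ X hF w := by
        rw [← hwc]
        refine ⟨hQeq ▸ Subgroup.mem_map_of_mem _ hyD'.2, Subgroup.mem_centralizer_iff.2 fun u hu => ?_⟩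
        rw [SetLike.mem_coe, ← hQeq] at hu
        obtain ⟨u', hu', rfl⟩ := hu
        exact congrArg Subtype.val (hyT u' hu').eq.symm
      obtain ⟨c, hc, hyc⟩ := (mem_X hF hv.2).1 hyP
      obtain ⟨d, hd, hyd⟩ := (mem_X hF hw.2).1 hyQ
      have hy1 : ∀ z : H, orderOf z = 5 → (z : Cfsg.PSU 3 F 5) ≠ 1 := fun z hz h => by
        rw [← Subgroup.orderOf_coe, h, orderOf_one] at hz; omega
      have hcomm : Commute (tr hF v c) (tr hF w d) := by
        rw [← hyc, ← hyd]
        exact congrArg Subtype.val (congrArg Subtype.val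
          (IsMulCommutative.is_comm.comm (⟨y, hyD⟩ : D) ⟨y', hyD'⟩))
      have hmem := comm_centres hF hvg hw hc hd
        (fun h => hy1 y' hy5' (by rw [hyd, h, tr_zero hF hw.2]))
        (fun h => hy1 y hy5 (by rw [hyc, h, tr_zero hF hv.2])) hcomm
      rw [← hyd, ← hvc] at hmem
      refine common T hT (y' : Cfsg.PSU 3 F 5) (by rw [Subgroup.orderOf_coe, hy5']) (fun z hz => ?_) fun z hz => ?_
      · exact (Subgroup.mem_centralizer_iff.1 hmem.2 _ (hPeq ▸ Subgroup.mem_map_of_mem _ hz)).symm
      · exact congrArg Subtype.val (hyT z hz).eq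

/-- The projective special unitary group PSU(3,5) has minimal index of a proper subgroup 50. -/
theorem bounds : (∀ H : Subgroup (Cfsg.PSU 3 F 5), H ≠ ⊤ → 50 ≤ H.index) ∧
    (∃ H : Subgroup (Cfsg.PSU 3 F 5), H.index = 50) := by
  refine ⟨lower hF, ?_⟩
  obtain ⟨H, hH⟩ := exists_alt (F := F) (by rw [hF]; norm_num)
  refine ⟨H, ?_⟩
  have h := H.card_mul_index
  rw [card_eq hF, hH] at h
  omega

end

/-- The projective special unitary group PSU(3,5) has minimal index of a proper subgroup 50: every proper subgroup has index at least 50, and some subgroup has index exactly 50. -/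
theorem result {F : Type*} [Field F] [Fintype F] (hF : Fintype.card F = 25) : (∀ H : Subgroup (Cfsg.PSU 3 F 5), H ≠ ⊤ → 50 ≤ H.index) ∧ (∃ H : Subgroup (Cfsg.PSU 3 F 5), H.index = 50) := by
  haveI : CharP F 5 := by
    obtain ⟨p, hp⟩ := CharP.exists F
    haveI := hp
    obtain ⟨n, hpp, hn⟩ := FiniteField.card F p
    rw [hF] at hn
    have h5 : (5 : ℕ) ∣ p ^ (n : ℕ) := hn ▸ (by norm_num)
    rwa [← (Nat.prime_dvd_prime_iff_eq (by norm_num) hpp).1 ((by norm_num : Nat.Prime 5).dvd_of_dvd_pow h5)] at hp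
  exact bounds (by rw [hF]; norm_num)

end Cfsg.Agent.S2149
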