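import Cfsg.Statements.S2162
import Mathlib

set_option autoImplicit false
open Cfsg

namespace Cfsg.Agent.S2162

open Module LinearMap

/-- Normal form of a square-zero map: `V ≅ W × W × K` with `(x, y, z) ↦ (0, x, 0)`. -/
theorem normal_form {F V : Type*} [Field F] [AddCommGroup V] [Module F V] [FiniteDimensional F V]
    (N : V →ₗ[F] V) (hN : ∀ v, N (N v) = 0) :
    ∃ (W K : Submodule F V) (e : (W × W × K) ≃ₗ[F] V),
      (∀ x y z, N (e (x, y, z)) = e (0, x, 0)) ∧ finrank F W = finrank F (range N) := by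
  obtain ⟨W, hW⟩ := (ker N).exists_isCompl
  obtain ⟨K₀, hK₀⟩ := (range N).exists_isCompl
  have hrk : range N ≤ ker N := by rintro _ ⟨v, rfl⟩; exact hN v
  let f : (W × W × (K₀ ⊓ ker N : Submodule F V)) →ₗ[F] V :=
    W.subtype.coprod ((N.comp W.subtype).coprod (K₀ ⊓ ker N).subtype)
  have hf : ∀ x y z, f (x, y, z) = (x : V) + (N y + (z : V)) := fun _ _ _ => rfl
  have hinW : ∀ w : W, N w = 0 → w = 0 := fun w hw =>
    Subtype.ext (Submodule.disjoint_def.mp hW.disjoint _ (LinearMap.mem_ker.mpr hw) w.2)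
  have hinj : Function.Injective f := by
    rw [injective_iff_map_eq_zero]
    rintro ⟨x, y, z⟩ h
    rw [hf] at h
    have hz : N (z : V) = 0 := LinearMap.mem_ker.mp z.2.2
    have hx : x = 0 := hinW x (by
      have h' := congrArg N h
      rw [map_add, map_add, hN, hz, add_zero, add_zero, map_zero] at h'
      exact h')
    subst hx
    rw [Submodule.coe_zero, zero_add] at h
    have hy : N y = 0 := Submodule.disjoint_def.mp hK₀.disjoint _ ⟨y, rfl⟩ (by
      rw [eq_neg_of_add_eq_zero_left h]; exact neg_mem z.2.1)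
    rw [hy, zero_add] at h
    rw [hinW y hy, show z = 0 from Subtype.ext h]
    rfl
  have hsurj : Function.Surjective f := by
    intro v
    obtain ⟨k, hk, w, hw, rfl⟩ := Submodule.mem_sup.mp
      (hW.sup_eq_top ▸ Submodule.mem_top : v ∈ ker N ⊔ W)
    obtain ⟨a, ⟨u, rfl⟩, b, hb, rfl⟩ := Submodule.mem_sup.mp
      (hK₀.sup_eq_top ▸ Submodule.mem_top : k ∈ range N ⊔ K₀)
    obtain ⟨k', hk', w', hw', rfl⟩ := Submodule.mem_sup.mp
      (hW.sup_eq_top ▸ Submodule.mem_top : u ∈ ker N ⊔ W)
    have hb' : b ∈ ker N := by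
      have := sub_mem hk (hrk ⟨k' + w', rfl⟩)
      rwa [add_sub_cancel_left] at this
    refine ⟨(⟨w, hw⟩, ⟨w', hw'⟩, ⟨b, hb, hb'⟩), ?_⟩
    rw [hf, map_add N k', LinearMap.mem_ker.mp hk', zero_add]
    abel
  refine ⟨W, _, LinearEquiv.ofBijective f ⟨hinj, hsurj⟩, fun x y z => ?_, ?_⟩
  · show N (f (x, y, z)) = f (0, x, 0)
    rw [hf, hf, map_add, map_add, hN, LinearMap.mem_ker.mp z.2.2]
    simp
  · have h1 := Submodule.finrank_add_eq_of_isCompl hW
    have h2 := finrank_range_add_finrank_ker N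
    omega

/-- Square-zero maps of equal nonzero rank over a perfect field of characteristic two are
conjugate by a map of determinant one. -/
theorem exists_conj_det_one {F V : Type*} [Field F] [AddCommGroup V] [Module F V]
    [FiniteDimensional F V] (hsq : ∀ x : F, IsSquare x) (N N' : V →ₗ[F] V) (hN : ∀ v, N (N v) = 0)
    (hN' : ∀ v, N' (N' v) = 0) (hne : N ≠ 0) (hr : finrank F (range N) = finrank F (range N')) :
    ∃ g : V →ₗ[F] V, LinearMap.det g = 1 ∧ g ∘ₗ N = N' ∘ₗ g := by
  classical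
  obtain ⟨W, K, e, he, hW⟩ := normal_form N hN
  obtain ⟨W', K', e', he', hW'⟩ := normal_form N' hN'
  obtain ⟨φ⟩ : Nonempty (W ≃ₗ[F] W') := FiniteDimensional.nonempty_linearEquiv_of_finrank_eq (by omega)
  have hK : finrank F K = finrank F K' := by
    have h1 := e.finrank_eq
    have h2 := e'.finrank_eq
    rw [finrank_prod, finrank_prod] at h1 h2
    omega
  obtain ⟨ψ⟩ : Nonempty (K ≃ₗ[F] K') := FiniteDimensional.nonempty_linearEquiv_of_finrank_eq hK
  let g₀ : V ≃ₗ[F] V := e.symm.trans ((φ.prodCongr (φ.prodCongr ψ)).trans e')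
  obtain ⟨c, hc⟩ := hsq (LinearMap.det (g₀ : V →ₗ[F] V))⁻¹
  have hd : LinearMap.det (g₀ : V →ₗ[F] V) ≠ 0 := (LinearEquiv.isUnit_det' g₀).ne_zero
  have hpos : 0 < finrank F W := by
    rw [hW]
    rcases Nat.eq_zero_or_pos (finrank F (range N)) with h | h
    · exact absurd (range_eq_bot.mp (Submodule.finrank_eq_zero.mp h)) hne
    · exact h
  let b := Module.finBasis F W
  let i : Fin (finrank F W) := ⟨0, hpos⟩
  let α : W →ₗ[F] W := Matrix.toLin b b (Matrix.diagonal (Function.update 1 i c))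
  have hα : LinearMap.det α = c := by
    rw [det_toLin, Matrix.det_diagonal, Finset.prod_update_of_mem (Finset.mem_univ i)]
    simp
  let z : V →ₗ[F] V := e.toLinearMap ∘ₗ (α.prodMap (α.prodMap LinearMap.id)) ∘ₗ e.symm.toLinearMap
  have hz : LinearMap.det z = c * c := by
    show LinearMap.det (e.toLinearMap ∘ₗ (α.prodMap (α.prodMap LinearMap.id)) ∘ₗ e.symm.toLinearMap) = _
    rw [LinearMap.det_conj, det_prodMap, det_prodMap, det_id, hα, mul_one]
  refine ⟨(g₀ : V →ₗ[F] V) ∘ₗ z, ?_, ?_⟩
  · rw [LinearMap.det_comp, hz, ← hc, mul_inv_cancel₀ hd]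
  · apply LinearMap.ext
    intro v
    obtain ⟨⟨x, y, w⟩, rfl⟩ := e.surjective v
    simp [g₀, z, he, he']

/-- Conjugacy of involutions in the special linear group over a finite field of characteristic two, in dimension at least 3: two elements of order 2 of SL_n(F) are conjugate in SL_n(F) exactly when the matrices a − 1 and b − 1 have the same rank (the rank of a − 1 is the dimension of the commutator space [V, a]). -/
theorem result {F : Type*} [Field F] [Fintype F] [CharP F 2] {n : ℕ} (hn : 3 ≤ n) (a b : Matrix.SpecialLinearGroup (Fin n) F) (ha : orderOf a = 2) (hb : orderOf b = 2) :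
    IsConj a b ↔ ((a : Matrix (Fin n) (Fin n) F) - 1).rank = ((b : Matrix (Fin n) (Fin n) F) - 1).rank := by
  have hsq : ∀ x : F, IsSquare x := FiniteField.isSquare_of_char_two (ringChar.eq F 2)
  constructor
  · intro h
    obtain ⟨c, hc⟩ := isConj_iff.mp h
    have hu : IsUnit (c : Matrix (Fin n) (Fin n) F).det := by rw [c.prop]; exact isUnit_one
    have hu' : IsUnit ((c⁻¹ : Matrix.SpecialLinearGroup (Fin n) F) : Matrix (Fin n) (Fin n) F).det := by
      rw [(c⁻¹).prop]; exact isUnit_one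
    have hm : ((b : Matrix (Fin n) (Fin n) F) - 1) = (c : Matrix (Fin n) (Fin n) F) *
        ((a : Matrix (Fin n) (Fin n) F) - 1) *
        ((c⁻¹ : Matrix.SpecialLinearGroup (Fin n) F) : Matrix (Fin n) (Fin n) F) := by
      rw [← hc, Matrix.mul_sub, Matrix.sub_mul, Matrix.mul_one, ← Matrix.SpecialLinearGroup.coe_mul,
        ← Matrix.SpecialLinearGroup.coe_mul, ← Matrix.SpecialLinearGroup.coe_mul, mul_inv_cancel,
        Matrix.SpecialLinearGroup.coe_one]
    rw [hm, Matrix.rank_mul_eq_left_of_isUnit_det _ _ hu', Matrix.rank_mul_eq_right_of_isUnit_det _ _ hu]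
  · intro h
    have key : ∀ x : Matrix.SpecialLinearGroup (Fin n) F, orderOf x = 2 →
        ((x : Matrix (Fin n) (Fin n) F) - 1) * ((x : Matrix (Fin n) (Fin n) F) - 1) = 0 := by
      intro x hx
      have h1 : (x : Matrix (Fin n) (Fin n) F) * (x : Matrix (Fin n) (Fin n) F) = 1 := by
        have := pow_orderOf_eq_one x
        rw [hx, sq] at this
        rw [← Matrix.SpecialLinearGroup.coe_mul, this, Matrix.SpecialLinearGroup.coe_one]
      haveI : CharP (Matrix (Fin n) (Fin n) F) 2 := by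
        haveI : Nonempty (Fin n) := ⟨⟨0, by omega⟩⟩
        infer_instance
      rw [sub_mul, mul_sub, mul_one, one_mul, h1, CharTwo.sub_eq_add, CharTwo.sub_eq_add,
        CharTwo.sub_eq_add, add_comm (x : Matrix (Fin n) (Fin n) F) 1, CharTwo.add_self_eq_zero]
    obtain ⟨g, hg1, hg⟩ := exists_conj_det_one hsq
      (Matrix.toLin' ((a : Matrix (Fin n) (Fin n) F) - 1))
      (Matrix.toLin' ((b : Matrix (Fin n) (Fin n) F) - 1))
      (fun v => by rw [← LinearMap.comp_apply, ← Matrix.toLin'_mul, key a ha, map_zero]; rfl)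
      (fun v => by rw [← LinearMap.comp_apply, ← Matrix.toLin'_mul, key b hb, map_zero]; rfl)
      (fun h0 => by
        rw [LinearEquiv.map_eq_zero_iff, sub_eq_zero] at h0
        have : a = 1 := Subtype.ext h0
        rw [this, orderOf_one] at ha
        omega) h
    let C : Matrix.SpecialLinearGroup (Fin n) F :=
      ⟨LinearMap.toMatrix' g, by rw [LinearMap.det_toMatrix', hg1]⟩
    refine isConj_iff.mpr ⟨C, ?_⟩
    suffices hC : C * a = b * C by rw [hC, mul_assoc, mul_inv_cancel, mul_one]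
    apply Subtype.ext
    show LinearMap.toMatrix' g * (a : Matrix (Fin n) (Fin n) F) = (b : Matrix (Fin n) (Fin n) F) * LinearMap.toMatrix' g
    have h2 := congrArg LinearMap.toMatrix' hg
    rw [LinearMap.toMatrix'_comp, LinearMap.toMatrix'_comp, LinearMap.toMatrix'_toLin',
      LinearMap.toMatrix'_toLin', Matrix.mul_sub, Matrix.sub_mul, Matrix.mul_one, Matrix.one_mul,
      sub_left_inj] at h2
    exact h2

end Cfsg.Agent.S2162
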