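import Cfsg.Statements.S2163
-- import your own Cfsg.Agent.* helpers here

set_option autoImplicit false
open Cfsg

namespace Cfsg.Agent.S2163

/-- Over a finite field of characteristic two and for n ≥ 3: for every ℓ with 1 ≤ ℓ and 2ℓ ≤ n, the matrix j_ℓ that is the identity plus the entries 1 in positions (n − ℓ + i, i) for i < ℓ (an identity block of size ℓ in the lower left corner) lies in SL_n(F), has order 2, and j_ℓ − 1 has rank ℓ. Together with the conjugacy criterion by rank, these matrices represent the conjugacy classes of involutions of SL_n(F). -/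
theorem result {F : Type*} [Field F] [Fintype F] [CharP F 2] {n : ℕ} (hn : 3 ≤ n) (ℓ : ℕ) (h1 : 1 ≤ ℓ) (h2 : 2 * ℓ ≤ n) :
    ∃ a : Matrix.SpecialLinearGroup (Fin n) F, (a : Matrix (Fin n) (Fin n) F) = 1 + Matrix.of (fun i j : Fin n => if j.val < ℓ ∧ i.val = j.val + (n - ℓ) then (1 : F) else 0) ∧ orderOf a = 2 ∧ ((a : Matrix (Fin n) (Fin n) F) - 1).rank = ℓ := by
  classical
  have : Nonempty (Fin n) := ⟨⟨0, by omega⟩⟩
  set N : Matrix (Fin n) (Fin n) F :=
    Matrix.of (fun i j : Fin n => if j.val < ℓ ∧ i.val = j.val + (n - ℓ) then (1 : F) else 0) with hN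
  have hN2 : N * N = 0 := by
    ext i k
    rw [Matrix.mul_apply, Matrix.zero_apply]
    refine Finset.sum_eq_zero (fun j _ => ?_)
    simp only [hN, Matrix.of_apply]
    split_ifs <;> first | omega | simp
  have htri : (1 + N).BlockTriangular OrderDual.toDual := by
    intro i j hij
    have hlt : i.val < j.val := hij
    have hne : i ≠ j := fun e => by subst e; exact lt_irrefl _ hlt
    simp only [Matrix.add_apply, Matrix.one_apply_ne hne, hN, Matrix.of_apply]
    rw [if_neg (by omega), add_zero]
  have hdet : (1 + N).det = 1 := by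
    rw [Matrix.det_of_lowerTriangular _ htri]
    refine Finset.prod_eq_one (fun i _ => ?_)
    simp only [Matrix.add_apply, Matrix.one_apply_eq, hN, Matrix.of_apply]
    rw [if_neg (by omega), add_zero]
  let i0 : Fin ℓ → Fin n := fun j => ⟨j.val + (n - ℓ), by omega⟩
  let j0 : Fin ℓ → Fin n := fun j => ⟨j.val, by omega⟩
  have hrank : N.rank = ℓ := by
    apply le_antisymm
    · let A : Matrix (Fin n) (Fin ℓ) F := Matrix.of fun i l => if i = i0 l then 1 else 0
      let B : Matrix (Fin ℓ) (Fin n) F := Matrix.of fun l j => if j = j0 l then 1 else 0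
      have hAB : N = A * B := by
        ext i j
        rw [Matrix.mul_apply]
        by_cases hj : j.val < ℓ
        · rw [Finset.sum_eq_single ⟨j.val, hj⟩]
          · simp [A, B, hN, i0, j0, hj, Fin.ext_iff]
          · intro b _ hb
            have : j ≠ j0 b := fun e => hb (Fin.ext (by simpa [j0] using (congrArg Fin.val e).symm))
            simp [B, this]
          · simp
        · rw [Finset.sum_eq_zero]
          · simp [hN, hj]
          · intro b _
            have : j ≠ j0 b := fun e => hj (by rw [e]; exact b.isLt)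
            simp [B, this]
      rw [hAB]
      exact (Matrix.rank_mul_le_left A B).trans ((Matrix.rank_le_card_width A).trans (by simp))
    · have h : N.submatrix i0 j0 = 1 := by
        ext a b
        simp [hN, i0, j0, Matrix.one_apply, Fin.ext_iff]
      have := Matrix.rank_submatrix_le N i0 j0
      rw [h, Matrix.rank_one, Fintype.card_fin] at this
      exact this
  refine ⟨⟨1 + N, hdet⟩, rfl, ?_, ?_⟩
  · show orderOf (show Matrix.SpecialLinearGroup (Fin n) F from ⟨1 + N, hdet⟩) = 2
    rw [orderOf_eq_prime_iff]
    refine ⟨Subtype.ext ?_, fun h => ?_⟩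
    · show ((1 + N) ^ 2 : Matrix (Fin n) (Fin n) F) = 1
      rw [pow_two, add_mul, mul_add, mul_add, hN2, one_mul, one_mul, mul_one, add_zero, add_assoc,
        CharTwo.add_self_eq_zero, add_zero]
    · have h' : (1 + N : Matrix (Fin n) (Fin n) F) = 1 := congrArg Subtype.val h
      rw [add_eq_left] at h'
      rw [h', Matrix.rank_zero] at hrank
      omega
  · show (1 + N - 1).rank = ℓ
    rw [add_sub_cancel_left]
    exact hrank

end Cfsg.Agent.S2163
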