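import Cfsg.Statements.S2579

set_option autoImplicit false
open Cfsg

namespace Cfsg.Agent.S2579

variable {F V : Type*} [Field F] [AddCommGroup V] [Module F V] [FiniteDimensional F V]

/-- A coordinate system adapted to a square-zero rank-one operator. -/
theorem exists_coord (M : Module.End F V) {k : ℕ} (hk : Module.finrank F V = k + 2)
    (h1 : Module.finrank F (LinearMap.range M) = 1) (h2 : ∀ x, M (M x) = 0) :
    ∃ Ψ : (F × (Fin k → F) × F) ≃ₗ[F] V, ∀ x, M (Ψ x) = Ψ (x.2.2, 0, 0) := by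
  obtain ⟨u, hu⟩ : ∃ u, M u ≠ 0 := by
    by_contra h
    push Not at h
    rw [show M = 0 from LinearMap.ext h, LinearMap.range_zero, finrank_bot] at h1
    omega
  have hker : Module.finrank F (LinearMap.ker M) = k + 1 := by
    have := LinearMap.finrank_range_add_finrank_ker M
    omega
  obtain ⟨W, hW⟩ := ((F ∙ M u).comap (LinearMap.ker M).subtype).exists_isCompl
  have hspan : Module.finrank F ((F ∙ M u).comap (LinearMap.ker M).subtype) = 1 := by
    rw [LinearEquiv.finrank_eq (Submodule.comapSubtypeEquivOfLe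
      (Submodule.span_le.2 (Set.singleton_subset_iff.2 (h2 u)))), finrank_span_singleton hu]
  have hWk : Module.finrank F W = k := by
    have := Submodule.finrank_add_eq_of_isCompl hW
    omega
  let e : (Fin k → F) ≃ₗ[F] W := LinearEquiv.ofFinrankEq _ _ (by rw [Module.finrank_pi, Fintype.card_fin, hWk])
  let Φ : (F × (Fin k → F) × F) →ₗ[F] V :=
    (LinearMap.toSpanSingleton F V (M u)).coprod
      (((LinearMap.ker M).subtype ∘ₗ W.subtype ∘ₗ e.toLinearMap).coprod (LinearMap.toSpanSingleton F V u))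
  have hΦ : ∀ a w b, Φ (a, w, b) = a • M u + (((e w : W) : LinearMap.ker M) : V) + b • u := by
    intro a w b; simp [Φ, add_assoc]
  have hMΦ : ∀ a w b, M (Φ (a, w, b)) = b • M u := by
    intro a w b
    rw [hΦ, map_add, map_add, map_smul, map_smul, h2, smul_zero, zero_add,
      LinearMap.mem_ker.1 ((e w : W) : LinearMap.ker M).2, zero_add]
  have hinj : Function.Injective Φ := by
    rw [injective_iff_map_eq_zero]
    rintro ⟨a, w, b⟩ h
    have hb : b = 0 := by
      have := hMΦ a w b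
      rw [h, map_zero] at this
      exact (smul_eq_zero.1 this.symm).resolve_right hu
    subst hb
    rw [hΦ, zero_smul, add_zero] at h
    have hw : ((e w : W) : LinearMap.ker M) = 0 := by
      refine (Submodule.disjoint_def.1 hW.disjoint) _ ?_ (e w).2
      show (((e w : W) : LinearMap.ker M) : V) ∈ (F ∙ M u)
      rw [eq_neg_of_add_eq_zero_right h]
      exact Submodule.neg_mem _ (Submodule.smul_mem _ _ (Submodule.mem_span_singleton_self _))
    rw [hw, Submodule.coe_zero, add_zero, smul_eq_zero] at h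
    have ha : a = 0 := h.resolve_right hu
    have hw' : w = 0 := e.map_eq_zero_iff.1 (Subtype.ext hw)
    rw [ha, hw']; rfl
  have hdim : Module.finrank F (F × (Fin k → F) × F) = Module.finrank F V := by
    simp [hk]; omega
  refine ⟨LinearEquiv.ofBijective Φ ⟨hinj, (LinearMap.injective_iff_surjective_of_finrank_eq_finrank hdim).1 hinj⟩, ?_⟩
  rintro ⟨a, w, b⟩
  show M (Φ (a, w, b)) = Φ (b, 0, 0)
  rw [hMΦ, hΦ]
  simp

/-- Two such operators are conjugate by an automorphism of determinant one. -/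
theorem exists_conj_det_one (M M' : Module.End F V) {k : ℕ} (hk : Module.finrank F V = k + 2) (hk1 : 1 ≤ k)
    (h1 : Module.finrank F (LinearMap.range M) = 1) (h2 : ∀ x, M (M x) = 0)
    (h1' : Module.finrank F (LinearMap.range M') = 1) (h2' : ∀ x, M' (M' x) = 0) :
    ∃ g : V →ₗ[F] V, LinearMap.det g = 1 ∧ g.comp M = M'.comp g := by
  obtain ⟨Ψ, hΨ⟩ := exists_coord M hk h1 h2
  obtain ⟨Ψ', hΨ'⟩ := exists_coord M' hk h1' h2'
  let T := Ψ.symm.trans Ψ'
  set d := LinearMap.det (T : V →ₗ[F] V) with hd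
  have hd0 : d ≠ 0 := (LinearEquiv.isUnit_det' T).ne_zero
  let D : (Fin k → F) →ₗ[F] (Fin k → F) := Matrix.toLin' (Matrix.diagonal (Function.update 1 (⟨0, hk1⟩ : Fin k) d⁻¹))
  let S : (F × (Fin k → F) × F) →ₗ[F] (F × (Fin k → F) × F) := LinearMap.id.prodMap (D.prodMap LinearMap.id)
  have hS : LinearMap.det S = d⁻¹ := by
    rw [LinearMap.det_prodMap, LinearMap.det_prodMap, LinearMap.det_id, one_mul, mul_one, LinearMap.det_toLin',
      Matrix.det_diagonal, Finset.prod_update_of_mem (Finset.mem_univ _)]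
    simp
  refine ⟨(T : V →ₗ[F] V) ∘ₗ ((Ψ : _ →ₗ[F] V) ∘ₗ S ∘ₗ (Ψ.symm : V →ₗ[F] _)), ?_, ?_⟩
  · rw [LinearMap.det_comp, LinearMap.det_conj, hS, ← hd, mul_inv_cancel₀ hd0]
  · refine LinearMap.ext fun x => ?_
    obtain ⟨⟨a, w, b⟩, rfl⟩ := Ψ.surjective x
    simp [T, S, hΨ, hΨ']


/-- In SL_n(F) with n ≥ 3, over a finite field F, any two transvections (matrices t with t − 1 of rank one and square zero) are conjugate by an element of SL_n(F). -/
theorem result {F : Type*} [Field F] [Finite F] {n : ℕ} (hn : 3 ≤ n) (s t : Matrix.SpecialLinearGroup (Fin n) F) (hs : Cfsg.IsTransvection (s : Matrix (Fin n) (Fin n) F)) (ht : Cfsg.IsTransvection (t : Matrix (Fin n) (Fin n) F)) : IsConj s t := by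
  have hrel : ∀ u : Matrix.SpecialLinearGroup (Fin n) F, Cfsg.IsTransvection (u : Matrix (Fin n) (Fin n) F) →
      Module.finrank F (LinearMap.range (Matrix.toLin' ((u : Matrix (Fin n) (Fin n) F) - 1))) = 1 ∧
      ∀ x, Matrix.toLin' ((u : Matrix (Fin n) (Fin n) F) - 1) (Matrix.toLin' ((u : Matrix (Fin n) (Fin n) F) - 1) x) = 0 := by
    rintro u ⟨h1, h2⟩
    refine ⟨by rw [Matrix.toLin'_apply']; exact h1, fun x => ?_⟩
    rw [← LinearMap.comp_apply, ← Matrix.toLin'_mul, h2, map_zero, LinearMap.zero_apply]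
  obtain ⟨g, hg1, hg2⟩ := exists_conj_det_one _ _ (k := n - 2) (by rw [Module.finrank_pi, Fintype.card_fin]; omega)
    (by omega) (hrel s hs).1 (hrel s hs).2 (hrel t ht).1 (hrel t ht).2
  have hdet : (LinearMap.toMatrix' g).det = 1 := by rw [LinearMap.det_toMatrix', hg1]
  rw [isConj_iff]
  refine ⟨⟨_, hdet⟩, mul_inv_eq_iff_eq_mul.2 ?_⟩
  apply Subtype.ext
  show LinearMap.toMatrix' g * (s : Matrix (Fin n) (Fin n) F) = (t : Matrix (Fin n) (Fin n) F) * LinearMap.toMatrix' g
  have h : LinearMap.toMatrix' g * ((s : Matrix (Fin n) (Fin n) F) - 1) = ((t : Matrix (Fin n) (Fin n) F) - 1) * LinearMap.toMatrix' g := by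
    apply Matrix.toLin'.injective
    rw [Matrix.toLin'_mul, Matrix.toLin'_mul, Matrix.toLin'_toMatrix']
    exact hg2
  rwa [Matrix.mul_sub, Matrix.sub_mul, Matrix.mul_one, Matrix.one_mul, sub_left_inj] at h

end Cfsg.Agent.S2579
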