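import Cfsg.Statements.S2644
import Cfsg.Agent.Lib.UnitaryUnipotent
import Cfsg.Agent.S2579

set_option autoImplicit false
open Cfsg

namespace Cfsg.Agent.S2644

open Lib.UnitaryConj Lib.UnitaryUnipotent

theorem mem_SU_iff {K : Type*} [Field K] [Fintype K] {q n : ℕ} (hK : Fintype.card K = q ^ 2)
    (s : Matrix.SpecialLinearGroup (Fin n) K) :
    s ∈ Cfsg.SU n K q ↔ tstar hK (s : Matrix (Fin n) (Fin n) K) * (s : Matrix (Fin n) (Fin n) K) = 1 :=
  (show s ∈ Cfsg.SU n K q ↔ (Matrix.SpecialLinearGroup.toGL s) ∈ Cfsg.GU n K q from Iff.rfl).trans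
    (mem_GU_iff hK (Matrix.SpecialLinearGroup.toGL s))

/-- The kernel of a rank-one operator in dimension at least 3 contains an anisotropic vector. -/
theorem exists_anisotropic {K : Type*} [Field K] [Fintype K] {q n : ℕ} (hK : Fintype.card K = q ^ 2)
    (hn : 3 ≤ n) (M : Matrix (Fin n) (Fin n) K) (hM : M.rank = 1) :
    ∃ w : Fin n → K, M.mulVec w = 0 ∧ (fun i => qHom hK (w i)) ⬝ᵥ w ≠ 0 := by
  classical
  set W := LinearMap.ker M.mulVecLin
  have hW : Module.finrank K W = n - 1 := by
    have h1 := LinearMap.finrank_range_add_finrank_ker M.mulVecLin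
    rw [Module.finrank_pi, Fintype.card_fin] at h1
    change M.rank + Module.finrank K W = n at h1
    omega
  by_contra hall
  push Not at hall
  obtain ⟨θ, hθ⟩ := exists_moved hK
  have hpol : ∀ x ∈ W, ∀ y ∈ W, (fun i => qHom hK (x i)) ⬝ᵥ y = 0 := by
    intro x hx y hy
    set b := (fun i => qHom hK (x i)) ⬝ᵥ y with hb
    have hsw : (fun i => qHom hK (y i)) ⬝ᵥ x = qHom hK b := by
      rw [hb]
      simp only [dotProduct, map_sum, map_mul, qHom_qHom]
      exact Finset.sum_congr rfl fun i _ => mul_comm _ _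
    have key : ∀ e : K, e * b + qHom hK (e * b) = 0 := by
      intro e
      have h := hall (x + e • y) (W.add_mem hx (W.smul_mem e hy))
      have hconj : (fun i => qHom hK ((x + e • y) i)) = (fun i => qHom hK (x i)) + qHom hK e • fun i => qHom hK (y i) := by
        funext i; simp [map_add, map_mul]
      rw [hconj, add_dotProduct, dotProduct_add, dotProduct_add, dotProduct_smul, smul_dotProduct,
        smul_dotProduct, dotProduct_smul, hall x hx, hall y hy, hsw, ← hb] at h
      simp only [smul_eq_mul, mul_zero, add_zero, zero_add] at h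
      rw [map_mul]
      linear_combination h
    by_contra hb0
    have h1 := key b⁻¹
    rw [inv_mul_cancel₀ hb0, map_one] at h1
    have h2 := key (θ * b⁻¹)
    rw [mul_assoc, inv_mul_cancel₀ hb0, mul_one] at h2
    exact hθ (by linear_combination h2 - θ * h1)
  obtain ⟨r, hr⟩ : ∃ i, M i ≠ 0 := by
    by_contra h
    push Not at h
    rw [show M = 0 from funext h, Matrix.rank_zero] at hM
    exact zero_ne_one hM
  let φ : (Fin n → K) →ₗ[K] K := (LinearMap.proj r).comp M.mulVecLin
  have hφ : φ ≠ 0 := by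
    intro h
    apply hr
    funext j
    have := LinearMap.congr_fun h (Pi.single j 1)
    simpa [φ] using this
  have hker : W = LinearMap.ker φ := by
    refine Submodule.eq_of_le_of_finrank_le ?_ ?_
    · intro x hx
      show M.mulVec x r = 0
      rw [show M.mulVec x = 0 from hx]; rfl
    · have h1 := LinearMap.finrank_range_add_finrank_ker φ
      rw [Module.finrank_pi, Fintype.card_fin] at h1
      have : 0 < Module.finrank K (LinearMap.range φ) :=
        Nat.pos_of_ne_zero fun h => hφ (LinearMap.range_eq_bot.1 (Submodule.finrank_eq_zero.1 h))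
      omega
  obtain ⟨z, hz⟩ : ∃ z, φ z = 1 := by
    obtain ⟨z, hz⟩ : ∃ z, φ z ≠ 0 := by
      by_contra h
      push Not at h
      exact hφ (LinearMap.ext h)
    exact ⟨(φ z)⁻¹ • z, by rw [map_smul, smul_eq_mul, inv_mul_cancel₀ hz]⟩
  let ψ : W → K := fun x => (fun i => qHom hK ((x : Fin n → K) i)) ⬝ᵥ z
  have hψ : Function.Injective ψ := by
    intro x x' h
    apply Subtype.ext
    funext i
    apply (qHom hK).injective
    have e : ∀ y : Fin n → K, ∀ x : W, (fun i => qHom hK ((x : Fin n → K) i)) ⬝ᵥ y = φ y * ψ x := by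
      intro y x
      have hy : y - φ y • z ∈ W := by rw [hker, LinearMap.mem_ker, map_sub, map_smul, hz, smul_eq_mul, mul_one, sub_self]
      have := hpol x x.2 _ hy
      rw [dotProduct_sub, dotProduct_smul, sub_eq_zero] at this
      exact this
    have h1 := e (Pi.single i 1) x
    have h2 := e (Pi.single i 1) x'
    rw [dotProduct_single, mul_one] at h1 h2
    rw [h1, h2, h]
  have hcard := Nat.card_le_card_of_injective ψ hψ
  rw [Module.natCard_eq_pow_finrank (K := K), hW] at hcard
  have h1 : 1 < Nat.card K := Finite.one_lt_card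
  have := (Nat.pow_lt_pow_right h1 (show 1 < n - 1 by omega))
  rw [pow_one] at this
  omega


/-- In the special unitary group SU_n(q) with n ≥ 3 (isometries of Σ u_i v_i^q of determinant one over the field with q² elements), any two transvections (elements t with t − 1 of rank one and square zero) are conjugate. -/
theorem result {K : Type*} [Field K] [Fintype K] {q n : ℕ} (hK : Fintype.card K = q ^ 2) (hn : 3 ≤ n) (s t : ↥(Cfsg.SU n K q)) (hs : Cfsg.IsTransvection (((s : GL (Fin n) K) : Matrix (Fin n) (Fin n) K))) (ht : Cfsg.IsTransvection (((t : GL (Fin n) K) : Matrix (Fin n) (Fin n) K))) : IsConj s t := by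
  classical
  set S : Matrix (Fin n) (Fin n) K := ((s : GL (Fin n) K) : Matrix (Fin n) (Fin n) K) with hS
  set T : Matrix (Fin n) (Fin n) K := ((t : GL (Fin n) K) : Matrix (Fin n) (Fin n) K) with hT
  have hSU : tstar hK S * S = 1 := (mem_SU_iff hK _).1 s.2
  have hTU : tstar hK T * T = 1 := (mem_SU_iff hK _).1 t.2
  obtain ⟨g, hg⟩ := isConj_iff.1 (S2579.result hn (s : Matrix.SpecialLinearGroup (Fin n) K) (t : Matrix.SpecialLinearGroup (Fin n) K) hs ht)
  obtain ⟨c, hcU, hc⟩ := conj_in_GU hK (Matrix.SpecialLinearGroup.toGL (s : Matrix.SpecialLinearGroup (Fin n) K))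
    (Matrix.SpecialLinearGroup.toGL (t : Matrix.SpecialLinearGroup (Fin n) K)) (Matrix.SpecialLinearGroup.toGL g)
    ((mem_GU_iff hK _).2 hSU) ((mem_GU_iff hK _).2 hTU)
    (by rw [← map_mul, ← map_mul, mul_inv_eq_iff_eq_mul.1 hg])
  have hc2 : (c : Matrix (Fin n) (Fin n) K) * S = T * (c : Matrix (Fin n) (Fin n) K) := congrArg Units.val hc
  have hcU' := (mem_GU_iff hK _).1 hcU
  obtain ⟨w, hw, hw0⟩ := exists_anisotropic hK hn (T - 1) ht.1
  set w' : Fin n → K := fun i => qHom hK (w i) with hw'
  set e := w' ⬝ᵥ w with he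
  have heq : qHom hK e = e := by
    rw [he, hw']
    simp only [dotProduct, map_sum, map_mul, qHom_qHom]
    exact Finset.sum_congr rfl fun i _ => mul_comm _ _
  set a : K := (c : Matrix (Fin n) (Fin n) K).det⁻¹ with ha
  have hd : qHom hK (c : Matrix (Fin n) (Fin n) K).det * (c : Matrix (Fin n) (Fin n) K).det = 1 := by
    have h := congrArg Matrix.det hcU'
    rw [Matrix.det_mul, Matrix.det_one, tstar, Matrix.det_transpose] at h
    rw [RingHom.map_det]; exact h
  have haq : qHom hK a * a = 1 := by rw [ha, map_inv₀, ← mul_inv, hd, inv_one]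
  set b := (a - 1) / e with hb
  set V : Matrix (Fin n) (Fin n) K := Matrix.vecMulVec w w' with hV
  set P : Matrix (Fin n) (Fin n) K := 1 + b • V with hP
  have hVV : V * V = e • V := by rw [hV, Matrix.vecMulVec_mul_vecMulVec, Matrix.vecMulVec_smul, ← he]
  have hVs : tstar hK V = V := by
    ext i j
    show qHom hK (Matrix.vecMulVec w w' j i) = Matrix.vecMulVec w w' i j
    rw [Matrix.vecMulVec_apply, Matrix.vecMulVec_apply, hw', map_mul, qHom_qHom, mul_comm]
  have hPU : tstar hK P * P = 1 := by
    have hcoef : qHom hK b + b + qHom hK b * b * e = 0 := by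
      rw [hb, map_div₀, map_sub, map_one, heq]
      field_simp
      linear_combination haq
    rw [hP, tstar_add, tstar_one, tstar_smul, hVs, Matrix.add_mul, Matrix.mul_add, Matrix.mul_add, one_mul,
      mul_one, one_mul, Matrix.smul_mul, Matrix.mul_smul, hVV, smul_smul, smul_smul]
    calc _ = (1 : Matrix (Fin n) (Fin n) K) + (qHom hK b + b + qHom hK b * b * e) • V := by
          rw [add_smul, add_smul]; abel
      _ = 1 := by rw [hcoef, zero_smul, add_zero]
  have hPd : P.det = a := by
    rw [hP, hV, ← Matrix.smul_vecMulVec, Matrix.vecMulVec_eq Unit, Matrix.det_one_add_replicateCol_mul_replicateRow,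
      dotProduct_smul, ← he, smul_eq_mul, hb, div_mul_cancel₀ _ hw0]
    ring
  have hMT : V * (T - 1) = 0 ∧ (T - 1) * V = 0 := by
    constructor
    · have h1 : (tstar hK (T - 1)).mulVec w = 0 := by
        have e1 : tstar hK (T - 1) = -(tstar hK T) * (T - 1) := by
          rw [Matrix.mul_sub, mul_one, neg_mul, hTU, tstar_sub, tstar_one]; abel
        rw [e1, ← Matrix.mulVec_mulVec, hw, Matrix.mulVec_zero]
      rw [hV, Matrix.vecMulVec_mul]
      have : Matrix.vecMul w' (T - 1) = 0 := by
        funext j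
        have := congrArg (qHom hK) (congrFun h1 j)
        simp only [tstar, Matrix.mulVec, dotProduct, Matrix.transpose_apply, Matrix.map_apply, map_sum, map_mul,
          qHom_qHom, Pi.zero_apply, map_zero] at this
        simp only [Matrix.vecMul, dotProduct, hw', Pi.zero_apply]
        rw [← this]
        exact Finset.sum_congr rfl fun i _ => mul_comm _ _
      rw [this, Matrix.vecMulVec_zero]
    · rw [hV, Matrix.mul_vecMulVec, hw, Matrix.zero_vecMulVec]
  have hPT : P * T = T * P := by
    have hcm : Commute V (T - 1) := hMT.1.trans hMT.2.symm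
    have h0 := hcm.add_right (Commute.one_right V)
    rw [sub_add_cancel] at h0
    exact ((Commute.one_left T).add_left (h0.smul_left b)).eq
  let val : ↥(Cfsg.SU n K q) → Matrix (Fin n) (Fin n) K := fun s => ((s : Matrix.SpecialLinearGroup (Fin n) K) : Matrix (Fin n) (Fin n) K)
  have hdet : (P * (c : Matrix (Fin n) (Fin n) K)).det = 1 := by
    rw [Matrix.det_mul, hPd, ha, inv_mul_cancel₀]
    exact fun h0 => by simp [h0] at hd
  have hXU : tstar hK (P * (c : Matrix (Fin n) (Fin n) K)) * (P * (c : Matrix (Fin n) (Fin n) K)) = 1 := by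
    rw [tstar_mul]
    calc _ = tstar hK (c : Matrix (Fin n) (Fin n) K) * (tstar hK P * P) * (c : Matrix (Fin n) (Fin n) K) := by simp only [mul_assoc]
      _ = 1 := by rw [hPU, mul_one, hcU']
  let x : ↥(Cfsg.SU n K q) := ⟨⟨_, hdet⟩, (mem_SU_iff hK _).2 hXU⟩
  refine isConj_iff.2 ⟨x, mul_inv_eq_iff_eq_mul.2 (Subtype.ext (Subtype.ext ?_))⟩
  show P * (c : Matrix (Fin n) (Fin n) K) * S = T * (P * (c : Matrix (Fin n) (Fin n) K))
  rw [mul_assoc, hc2, ← mul_assoc, hPT, mul_assoc]

end Cfsg.Agent.S2644
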