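import Cfsg.Statements.S2164
import Cfsg.Agent.Lib.Jordan.SquareZero
import Cfsg.Agent.Lib.UnitaryUnipotent
import Cfsg.Agent.S2644

set_option autoImplicit false
open Cfsg

namespace Cfsg.Agent.S2164

/-- Conjugacy of involutions in the special unitary group SU_n(q), q even, n ≥ 3, realised over the field F with q² elements as the matrices of determinant 1 preserving the form Σ u_i v_i^q: for two elements of order 2 of SU_n(q) the following are equivalent — they are conjugate in SU_n(q); they are conjugate in SL_n(F); the matrices a − 1 and b − 1 have the same rank. -/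
theorem result {F : Type*} [Field F] [Fintype F] [CharP F 2] {n q : ℕ} (hF : Fintype.card F = q ^ 2) (hn : 3 ≤ n) (a b : ↥(Cfsg.SU n F q)) (ha : orderOf a = 2) (hb : orderOf b = 2) :
    (IsConj a b ↔ IsConj (a : Matrix.SpecialLinearGroup (Fin n) F) (b : Matrix.SpecialLinearGroup (Fin n) F)) ∧
    (IsConj a b ↔ (((a : Matrix.SpecialLinearGroup (Fin n) F) : Matrix (Fin n) (Fin n) F) - 1).rank = (((b : Matrix.SpecialLinearGroup (Fin n) F) : Matrix (Fin n) (Fin n) F) - 1).rank) := by
  classical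
  let val : ↥(Cfsg.SU n F q) → Matrix (Fin n) (Fin n) F := fun s =>
    ((s : Matrix.SpecialLinearGroup (Fin n) F) : Matrix (Fin n) (Fin n) F)
  have hrank : IsConj (a : Matrix.SpecialLinearGroup (Fin n) F) (b : Matrix.SpecialLinearGroup (Fin n) F) →
      (val a - 1).rank = (val b - 1).rank := by
    intro h
    obtain ⟨g, hg⟩ := isConj_iff.1 h
    have e : (g : Matrix (Fin n) (Fin n) F) * (val a - 1) = (val b - 1) * (g : Matrix (Fin n) (Fin n) F) := by
      rw [Matrix.mul_sub, Matrix.sub_mul, Matrix.mul_one, Matrix.one_mul, sub_left_inj]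
      exact congrArg (fun z : Matrix.SpecialLinearGroup (Fin n) F => (z : Matrix (Fin n) (Fin n) F))
        (mul_inv_eq_iff_eq_mul.1 hg)
    have hu : IsUnit (g : Matrix (Fin n) (Fin n) F).det := by rw [g.2]; exact isUnit_one
    rw [← Matrix.rank_mul_eq_right_of_isUnit_det _ (val a - 1) hu, e, Matrix.rank_mul_eq_left_of_isUnit_det _ _ hu]
  suffices key : (val a - 1).rank = (val b - 1).rank → IsConj a b by
    refine ⟨⟨fun h => ?_, fun h => key (hrank h)⟩, ⟨fun h => hrank ?_, key⟩⟩ <;>
    · obtain ⟨c, hc⟩ := isConj_iff.1 h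
      exact isConj_iff.2 ⟨(c : Matrix.SpecialLinearGroup (Fin n) F),
        congrArg (fun z : ↥(Cfsg.SU n F q) => (z : Matrix.SpecialLinearGroup (Fin n) F)) hc⟩
  intro hr
  have hinv : ∀ s : ↥(Cfsg.SU n F q), orderOf s = 2 → val s * val s = 1 := by
    intro s hs
    have h := pow_orderOf_eq_one s
    rw [hs, sq] at h
    exact congrArg (fun z : ↥(Cfsg.SU n F q) => val z) h
  have hmem : ∀ s : ↥(Cfsg.SU n F q), Cfsg.Agent.Lib.UnitaryConj.tstar hF (val s) * val s = 1 :=
    fun s => (Cfsg.Agent.S2644.mem_SU_iff hF _).1 s.2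
  have hsq : ∀ s : ↥(Cfsg.SU n F q), orderOf s = 2 → (val s - 1) ^ 2 = 0 := by
    intro s hs
    have h2 : ∀ M : Matrix (Fin n) (Fin n) F, M + M = 0 := fun M => by
      ext i j; exact CharTwo.add_self_eq_zero _
    rw [sq, Matrix.sub_mul, Matrix.mul_sub, Matrix.mul_one, Matrix.one_mul, hinv s hs]
    rw [show (1 - val s - (val s - 1) : Matrix (Fin n) (Fin n) F) = (1 + 1) - (val s + val s) by abel, h2, h2, sub_zero]
  obtain ⟨g, hg⟩ := Cfsg.Agent.Lib.Jordan.conj_of_rank (hsq a ha) (hsq b hb) hr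
  rw [Matrix.mul_sub, Matrix.sub_mul, Matrix.mul_one, Matrix.one_mul, sub_left_inj] at hg
  obtain ⟨c, hcU, hc⟩ := Cfsg.Agent.Lib.UnitaryUnipotent.conj_in_GU hF
    (Matrix.SpecialLinearGroup.toGL (a : Matrix.SpecialLinearGroup (Fin n) F))
    (Matrix.SpecialLinearGroup.toGL (b : Matrix.SpecialLinearGroup (Fin n) F)) g
    ((Cfsg.Agent.Lib.UnitaryConj.mem_GU_iff hF _).2 (hmem a))
    ((Cfsg.Agent.Lib.UnitaryConj.mem_GU_iff hF _).2 (hmem b)) (Units.ext hg)
  have hc2 : (c : Matrix (Fin n) (Fin n) F) * val a = val b * (c : Matrix (Fin n) (Fin n) F) := congrArg Units.val hc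
  have hcU' := (Cfsg.Agent.Lib.UnitaryConj.mem_GU_iff hF _).1 hcU
  set σ := Cfsg.Agent.Lib.UnitaryConj.qHom hF with hσ
  have hd : σ (c : Matrix (Fin n) (Fin n) F).det * (c : Matrix (Fin n) (Fin n) F).det = 1 := by
    have h := congrArg Matrix.det hcU'
    rw [Matrix.det_mul, Matrix.det_one, Cfsg.Agent.Lib.UnitaryConj.tstar, Matrix.det_transpose] at h
    rw [RingHom.map_det]; exact h
  -- a square root of the inverse determinant
  obtain ⟨ν, hν, hν2⟩ : ∃ ν : F, σ ν * ν = 1 ∧ ν * ν = (c : Matrix (Fin n) (Fin n) F).det⁻¹ := by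
    have hsurj : ∀ x : F, ∃ y, y * y = x := fun x => by
      obtain ⟨y, hy⟩ := FiniteField.isSquare_of_char_two (ringChar.eq F 2) x
      exact ⟨y, hy.symm⟩
    obtain ⟨ν, hν⟩ := hsurj (c : Matrix (Fin n) (Fin n) F).det⁻¹
    refine ⟨ν, ?_, hν⟩
    have e : (σ ν * ν) * (σ ν * ν) = 1 := by
      rw [show (σ ν * ν) * (σ ν * ν) = σ (ν * ν) * (ν * ν) by rw [map_mul]; ring, hν, map_inv₀, ← mul_inv, hd, inv_one]
    rcases mul_self_eq_one_iff.1 e with h | h
    · exact h
    · rw [h, CharTwo.neg_eq]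
  -- the non-degenerate invariant plane
  set T := val b with hT
  set N : Matrix (Fin n) (Fin n) F := T - 1 with hN
  have hTT : T * T = 1 := hinv b hb
  have hTs : Cfsg.Agent.Lib.UnitaryConj.tstar hF T = T := by
    calc Cfsg.Agent.Lib.UnitaryConj.tstar hF T = Cfsg.Agent.Lib.UnitaryConj.tstar hF T * (T * T) := by rw [hTT, mul_one]
      _ = T := by rw [← mul_assoc, hmem b, one_mul]
  have hNs : (N.map σ).transpose = N := by
    show Cfsg.Agent.Lib.UnitaryConj.tstar hF N = N
    rw [hN, Cfsg.Agent.Lib.UnitaryUnipotent.tstar_sub, Cfsg.Agent.Lib.UnitaryConj.tstar_one, hTs]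
  have hNN : N * N = 0 := by rw [← sq, hN]; exact hsq b hb
  let h : (Fin n → F) → (Fin n → F) → F := fun u v => dotProduct (fun i => σ (u i)) v
  have hsw : ∀ u v, σ (h u v) = h v u := fun u v => by
    simp only [h, dotProduct, map_sum, map_mul]
    exact Finset.sum_congr rfl fun i _ => by rw [hσ, Cfsg.Agent.Lib.UnitaryConj.qHom_qHom, mul_comm]
  have hadj : ∀ u v, h (Matrix.mulVec N u) v = h u (Matrix.mulVec N v) := fun u v => by
    simp only [h]
    rw [show (fun i => σ (Matrix.mulVec N u i)) = Matrix.mulVec (N.map σ) (fun i => σ (u i)) from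
      funext fun i => RingHom.map_mulVec σ _ _ i, Matrix.dotProduct_mulVec, ← Matrix.mulVec_transpose]
    conv_rhs => rw [← hNs, Matrix.transpose_transpose]
  obtain ⟨w, hw⟩ : ∃ w, h w (Matrix.mulVec N w) ≠ 0 := by
    by_contra hall
    push Not at hall
    have hN0 : N ≠ 0 := fun h0 => by
      have hb1 : b = 1 := by
        refine Subtype.ext (Subtype.ext ?_)
        exact sub_eq_zero.1 h0
      rw [hb1, orderOf_one] at hb
      omega
    obtain ⟨θ, hθ⟩ := Cfsg.Agent.Lib.UnitaryConj.exists_moved hF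
    have hz : ∀ u v, h u (Matrix.mulVec N v) = 0 := by
      intro u v
      have key : ∀ e : F, e * h u (Matrix.mulVec N v) + σ e * h v (Matrix.mulVec N u) = 0 := by
        intro e
        have h1 := hall (u + e • v)
        simp only [h] at h1 ⊢
        rw [Matrix.mulVec_add, Matrix.mulVec_smul,
          show (fun i => σ ((u + e • v) i)) = (fun i => σ (u i)) + σ e • (fun i => σ (v i)) from
            funext fun i => by simp [map_add, map_mul],
          add_dotProduct, dotProduct_add, dotProduct_add, smul_dotProduct, smul_dotProduct, dotProduct_smul,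
          dotProduct_smul] at h1
        have hu := hall u
        have hv := hall v
        simp only [h] at hu hv
        rw [hu, hv] at h1
        simp only [smul_eq_mul, mul_zero, zero_add, add_zero] at h1
        exact h1
      have h1 := key 1
      have h2 := key θ
      rw [map_one, one_mul, one_mul] at h1
      have h3 : (θ - σ θ) * h u (Matrix.mulVec N v) = 0 := by linear_combination h2 - σ θ * h1
      exact (mul_eq_zero.1 h3).resolve_left (sub_ne_zero.2 (Ne.symm hθ))
    refine hN0 (Matrix.ext fun i j => ?_)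
    have := hz (Pi.single i 1) (Pi.single j 1)
    simp only [h] at this
    rw [show (fun k => σ ((Pi.single i 1 : Fin n → F) k)) = Pi.single i 1 from
      funext fun k => by by_cases hk : k = i <;> simp [Pi.single_apply, hk],
      single_dotProduct, one_mul, Matrix.mulVec_single_one] at this
    exact this
  set z := Matrix.mulVec N w with hz
  have hzz : h z z = 0 := by
    rw [hz, hadj, Matrix.mulVec_mulVec, hNN, Matrix.zero_mulVec]
    simp [h]
  have hzw : h z w = h w z := by rw [hz, hadj]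
  let X : Matrix (Fin n) (Fin 2) F := Matrix.of fun i j => if j = 0 then w i else z i
  let Xs : Matrix (Fin 2) (Fin n) F := (X.map σ).transpose
  let G : Matrix (Fin 2) (Fin 2) F := Xs * X
  have hG : G = !![h w w, h w z; h w z, 0] := by
    ext i j
    fin_cases i <;> fin_cases j
    · simp [G, Xs, X, Matrix.mul_apply, h, dotProduct]
    · simp [G, Xs, X, Matrix.mul_apply, h, dotProduct]
    · show (Xs * X) 1 0 = h w z
      rw [← hzw]; simp [Xs, X, Matrix.mul_apply, h, dotProduct]
    · show (Xs * X) 1 1 = 0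
      rw [← hzz]; simp [Xs, X, Matrix.mul_apply, h, dotProduct]
  have hGd : IsUnit G.det := by
    rw [hG, Matrix.det_fin_two_of, mul_zero, zero_sub]
    exact isUnit_iff_ne_zero.2 (neg_ne_zero.2 (mul_ne_zero hw hw))
  have hss : ∀ x, σ (σ x) = x := fun x => Cfsg.Agent.Lib.UnitaryConj.qHom_qHom hF x
  have hGs : (G.map σ).transpose = G := by
    ext i j
    simp only [G, Xs, Matrix.transpose_apply, Matrix.map_apply, Matrix.mul_apply, map_sum, map_mul, hss]
    exact Finset.sum_congr rfl fun k _ => mul_comm _ _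
  have hGis : ((G⁻¹).map σ).transpose = G⁻¹ := by
    have e1 : ((G⁻¹).map σ).transpose * G = 1 := by
      conv_lhs => arg 2; rw [← hGs]
      rw [← Matrix.transpose_mul, ← Matrix.map_mul, Matrix.mul_nonsing_inv _ hGd,
        Matrix.map_one _ (map_zero σ) (map_one σ), Matrix.transpose_one]
    calc ((G⁻¹).map σ).transpose = ((G⁻¹).map σ).transpose * G * G⁻¹ := by
          rw [mul_assoc, Matrix.mul_nonsing_inv _ hGd, mul_one]
      _ = G⁻¹ := by rw [e1, one_mul]
  let E : Matrix (Fin 2) (Fin 2) F := !![0, 0; 1, 0]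
  have hNX : N * X = X * E := by
    ext i j
    fin_cases j
    · show (N * X) i 0 = (X * E) i 0
      simp [X, E, Matrix.mul_apply, Fin.sum_univ_two, hz, Matrix.mulVec, dotProduct]
    · show (N * X) i 1 = (X * E) i 1
      have := congrFun (show Matrix.mulVec N z = 0 by rw [hz, Matrix.mulVec_mulVec, hNN, Matrix.zero_mulVec]) i
      simp [X, E, Matrix.mul_apply, Fin.sum_univ_two, Matrix.mulVec, dotProduct] at this ⊢
      exact this
  have hXN : Xs * N = (E.map σ).transpose * Xs := by
    have := congrArg (fun M => (M.map σ).transpose) hNX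
    simp only [Matrix.map_mul, Matrix.transpose_mul] at this
    rwa [hNs] at this
  set P : Matrix (Fin n) (Fin n) F := X * (G⁻¹ * Xs) with hP
  have hYX : G⁻¹ * Xs * X = 1 := by rw [Matrix.mul_assoc]; exact Matrix.nonsing_inv_mul _ hGd
  have hPP : P * P = P := by
    rw [hP, Matrix.mul_assoc X, ← Matrix.mul_assoc (G⁻¹ * Xs) X, hYX, Matrix.one_mul]
  have hPs : Cfsg.Agent.Lib.UnitaryConj.tstar hF P = P := by
    show (P.map σ).transpose = P
    rw [hP, Matrix.map_mul, Matrix.map_mul, Matrix.transpose_mul, Matrix.transpose_mul, hGis]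
    rw [show (Xs.map σ).transpose = X from Matrix.ext fun i j => by simp [Xs, hss], Matrix.mul_assoc]
  have hPN : P * N = N * P := by
    have h1 : G * E = (E.map σ).transpose * G := by
      simp only [G]
      rw [Matrix.mul_assoc Xs, ← hNX, ← Matrix.mul_assoc, hXN, Matrix.mul_assoc]
    have h2 : G⁻¹ * (E.map σ).transpose = E * G⁻¹ := by
      calc G⁻¹ * (E.map σ).transpose = G⁻¹ * ((E.map σ).transpose * G) * G⁻¹ := by
            rw [Matrix.mul_assoc, Matrix.mul_assoc, Matrix.mul_nonsing_inv _ hGd, Matrix.mul_one]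
        _ = E * G⁻¹ := by rw [← h1, ← Matrix.mul_assoc, Matrix.nonsing_inv_mul _ hGd, Matrix.one_mul]
    rw [hP, Matrix.mul_assoc X, Matrix.mul_assoc G⁻¹, hXN, ← Matrix.mul_assoc G⁻¹, h2, ← Matrix.mul_assoc N X, hNX]
    simp only [Matrix.mul_assoc]
  set D : Matrix (Fin n) (Fin n) F := 1 + (ν - 1) • P with hD
  have hDU : Cfsg.Agent.Lib.UnitaryConj.tstar hF D * D = 1 := by
    rw [hD, Cfsg.Agent.Lib.UnitaryConj.tstar_add, Cfsg.Agent.Lib.UnitaryConj.tstar_one,
      Cfsg.Agent.Lib.UnitaryConj.tstar_smul, hPs, ← hσ, Matrix.add_mul, Matrix.mul_add, Matrix.mul_add, one_mul,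
      mul_one, one_mul, Matrix.smul_mul, Matrix.mul_smul, hPP, smul_smul, map_sub, map_one]
    calc _ = (1 : Matrix (Fin n) (Fin n) F) + ((ν - 1) + (σ ν - 1) + (σ ν - 1) * (ν - 1)) • P := by
          rw [add_smul, add_smul]; abel
      _ = 1 := by rw [show (ν - 1) + (σ ν - 1) + (σ ν - 1) * (ν - 1) = 0 by linear_combination hν, zero_smul, add_zero]
  have hDd : D.det = ν * ν := by
    rw [hD, hP, ← Matrix.smul_mul, Matrix.det_one_add_mul_comm, Matrix.mul_smul, hYX,
      show (1 : Matrix (Fin 2) (Fin 2) F) + (ν - 1) • 1 = ν • 1 by rw [sub_smul, one_smul]; abel,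
      Matrix.det_smul, Matrix.det_one, mul_one, Fintype.card_fin, sq]
  have hDT : D * T = T * D := by
    have h0 : Commute P N := hPN
    have h1 : Commute P T := by
      have := h0.add_right (Commute.one_right P)
      rwa [hN, sub_add_cancel] at this
    exact ((Commute.one_left T).add_left (h1.smul_left (ν - 1))).eq
  have hdet : (D * (c : Matrix (Fin n) (Fin n) F)).det = 1 := by
    rw [Matrix.det_mul, hDd, hν2, inv_mul_cancel₀]
    exact fun h0 => by simp [h0] at hd
  have hXU : Cfsg.Agent.Lib.UnitaryConj.tstar hF (D * (c : Matrix (Fin n) (Fin n) F)) * (D * (c : Matrix (Fin n) (Fin n) F)) = 1 := by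
    rw [Cfsg.Agent.Lib.UnitaryConj.tstar_mul]
    calc _ = Cfsg.Agent.Lib.UnitaryConj.tstar hF (c : Matrix (Fin n) (Fin n) F) *
          (Cfsg.Agent.Lib.UnitaryConj.tstar hF D * D) * (c : Matrix (Fin n) (Fin n) F) := by simp only [mul_assoc]
      _ = 1 := by rw [hDU, mul_one, hcU']
  let x : ↥(Cfsg.SU n F q) := ⟨⟨_, hdet⟩, (Cfsg.Agent.S2644.mem_SU_iff hF _).2 hXU⟩
  refine isConj_iff.2 ⟨x, mul_inv_eq_iff_eq_mul.2 (Subtype.ext (Subtype.ext ?_))⟩
  show D * (c : Matrix (Fin n) (Fin n) F) * val a = val b * (D * (c : Matrix (Fin n) (Fin n) F))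
  rw [mul_assoc, hc2, ← mul_assoc, hDT, mul_assoc]

end Cfsg.Agent.S2164
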