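import Cfsg.Statements.S2165
-- import your own Cfsg.Agent.* helpers here

set_option autoImplicit false
open Cfsg

namespace Cfsg.Agent.S2165

/-- In SU_n(q), q even, n ≥ 3 (matrices of determinant 1 over the field with q² elements preserving Σ u_i v_i^q): for every ℓ with 1 ≤ ℓ and 2ℓ ≤ n, the permutation matrix of the involution of {0, …, n−1} exchanging i and n − ℓ + i for each i < ℓ lies in SU_n(q), has order 2, and differs from the identity by a matrix of rank ℓ. So every rank between 1 and n/2 occurs for involutions of SU_n(q). -/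
theorem result {F : Type*} [Field F] [Fintype F] [CharP F 2] {n q : ℕ} (hF : Fintype.card F = q ^ 2) (hn : 3 ≤ n) (ℓ : ℕ) (h1 : 1 ≤ ℓ) (h2 : 2 * ℓ ≤ n) :
    ∃ a : ↥(Cfsg.SU n F q), (((a : Matrix.SpecialLinearGroup (Fin n) F) : Matrix (Fin n) (Fin n) F) = Matrix.of (fun i j : Fin n => if (j.val < ℓ ∧ i.val = j.val + (n - ℓ)) ∨ (i.val < ℓ ∧ j.val = i.val + (n - ℓ)) ∨ (i = j ∧ ℓ ≤ i.val ∧ i.val < n - ℓ) then (1 : F) else 0)) ∧ orderOf a = 2 ∧ ((((a : Matrix.SpecialLinearGroup (Fin n) F) : Matrix (Fin n) (Fin n) F)) - 1).rank = ℓ := by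
  classical
  let f : Fin n → Fin n := fun i =>
    if h : i.val < ℓ then ⟨i.val + (n - ℓ), by omega⟩
    else if h' : n - ℓ ≤ i.val then ⟨i.val - (n - ℓ), by omega⟩ else i
  have hf : Function.Involutive f := by
    intro i
    have hval : ∀ i : Fin n, (f i).val =
        if i.val < ℓ then i.val + (n - ℓ) else if n - ℓ ≤ i.val then i.val - (n - ℓ) else i.val := by
      intro i
      simp only [f]
      split_ifs <;> rfl
    apply Fin.ext
    rw [hval, hval]
    split_ifs <;> omega
  let σ : Equiv.Perm (Fin n) := Function.Involutive.toPerm f hf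
  set M : Matrix (Fin n) (Fin n) F := Matrix.of (fun i j : Fin n =>
    if (j.val < ℓ ∧ i.val = j.val + (n - ℓ)) ∨ (i.val < ℓ ∧ j.val = i.val + (n - ℓ)) ∨
      (i = j ∧ ℓ ≤ i.val ∧ i.val < n - ℓ) then (1 : F) else 0) with hM
  have hMσ : M = σ.permMatrix F := by
    ext i j
    simp only [hM, Matrix.of_apply, Equiv.Perm.permMatrix, PEquiv.toMatrix_apply,
      Equiv.toPEquiv_apply, Option.mem_def, Option.some.injEq, σ, Function.Involutive.coe_toPerm]
    refine if_congr ?_ rfl rfl
    simp only [f]
    split_ifs <;> simp [Fin.ext_iff] <;> omega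
  have hdet : M.det = 1 := by
    rw [hMσ, Matrix.det_permutation]
    rcases Int.units_eq_one_or (Equiv.Perm.sign σ) with h | h <;> rw [h] <;> simp [CharTwo.neg_eq]
  have hmul : ∀ v : Fin n → F, M.mulVec v = fun i => v (f i) := by
    intro v
    funext i
    rw [hMσ, Matrix.mulVec, dotProduct, Finset.sum_eq_single (f i)]
    · simp [Equiv.Perm.permMatrix, PEquiv.toMatrix_apply, σ]
    · intro b _ hb
      simp [Equiv.Perm.permMatrix, PEquiv.toMatrix_apply, σ, Ne.symm hb]
    · simp
  let a₀ : Matrix.SpecialLinearGroup (Fin n) F := ⟨M, hdet⟩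
  have hmem : a₀ ∈ Cfsg.SU n F q := by
    intro u v
    show Cfsg.hermForm n F q (M.mulVec u) (M.mulVec v) = _
    rw [hmul, hmul]
    exact Equiv.sum_comp σ (fun i => u i * (v i) ^ q)
  have hsq : M * M = 1 := by
    apply Matrix.ext_of_mulVec_single
    intro i
    rw [← Matrix.mulVec_mulVec, hmul, hmul, Matrix.one_mulVec]
    funext j
    simp only [hf j]
  let i0 : Fin ℓ → Fin n := fun j => ⟨j.val + (n - ℓ), by omega⟩
  let j0 : Fin ℓ → Fin n := fun j => ⟨j.val, by omega⟩
  have hD : ∀ i j, (M - 1) i j =
      if (j.val < ℓ ∧ i.val = j.val + (n - ℓ)) ∨ (i.val < ℓ ∧ j.val = i.val + (n - ℓ)) ∨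
        (i = j ∧ (i.val < ℓ ∨ n - ℓ ≤ i.val)) then (1 : F) else 0 := by
    intro i j
    by_cases hij : i = j
    · subst hij
      simp only [Matrix.sub_apply, Matrix.one_apply_eq, hM, Matrix.of_apply, CharTwo.sub_eq_add]
      simp only [true_and]
      split_ifs <;> first | omega | simp [CharTwo.add_self_eq_zero]
    · simp only [Matrix.sub_apply, Matrix.one_apply_ne hij, hM, Matrix.of_apply, sub_zero, hij,
        false_and, or_false]
  have hrank : (M - 1).rank = ℓ := by
    apply le_antisymm
    · let A : Matrix (Fin n) (Fin ℓ) F := Matrix.of fun i l => if i = i0 l ∨ i = j0 l then 1 else 0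
      let B : Matrix (Fin ℓ) (Fin n) F := Matrix.of fun l j => if j = i0 l ∨ j = j0 l then 1 else 0
      have hAB : M - 1 = A * B := by
        ext i j
        rw [Matrix.mul_apply, hD]
        by_cases hj : j.val < ℓ ∨ n - ℓ ≤ j.val
        · let l : Fin ℓ := if h : j.val < ℓ then ⟨j.val, h⟩ else ⟨j.val - (n - ℓ), by omega⟩
          have hl : j = i0 l ∨ j = j0 l := by
            simp only [l, i0, j0]; split_ifs <;> simp [Fin.ext_iff] <;> omega
          rw [Finset.sum_eq_single l]
          · simp only [A, B, Matrix.of_apply, if_pos hl, mul_one]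
            refine if_congr ?_ rfl rfl
            simp only [l, i0, j0, Fin.ext_iff]
            split_ifs <;> simp <;> omega
          · intro b _ hb
            have : ¬ (j = i0 b ∨ j = j0 b) := fun h => hb (by
              simp only [i0, j0, Fin.ext_iff] at h hl ⊢
              omega)
            simp [B, this]
          · simp
        · rw [Finset.sum_eq_zero]
          · rw [if_neg]
            simp only [Fin.ext_iff]
            omega
          · intro b _
            have : ¬ (j = i0 b ∨ j = j0 b) := fun h => by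
              simp only [i0, j0, Fin.ext_iff] at h
              omega
            simp [B, this]
      rw [hAB]
      exact (Matrix.rank_mul_le_left A B).trans ((Matrix.rank_le_card_width A).trans (by simp))
    · have h : (M - 1).submatrix j0 i0 = 1 := by
        ext a b
        rw [Matrix.submatrix_apply, hD, Matrix.one_apply]
        refine if_congr ?_ rfl rfl
        simp only [i0, j0, Fin.ext_iff]
        omega
      have := Matrix.rank_submatrix_le (M - 1) j0 i0
      rw [h, Matrix.rank_one, Fintype.card_fin] at this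
      exact this
  refine ⟨⟨a₀, hmem⟩, rfl, ?_, hrank⟩
  rw [orderOf_eq_prime_iff]
  refine ⟨Subtype.ext (Subtype.ext ?_), fun h => ?_⟩
  · show M ^ 2 = 1
    rw [pow_two, hsq]
  · have h' : M = 1 := congrArg (fun a : ↥(Cfsg.SU n F q) =>
      ((a : Matrix.SpecialLinearGroup (Fin n) F) : Matrix (Fin n) (Fin n) F)) h
    rw [h', sub_self, Matrix.rank_zero] at hrank
    omega

end Cfsg.Agent.S2165
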