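import Cfsg.Statements.S2166
import Cfsg.Agent.Lib.Jordan.SympInvolClasses

set_option autoImplicit false
open Cfsg

namespace Cfsg.Agent.S2166

/-- Conjugacy of involutions in the symplectic group Sp_{2m}(F), F a finite field of characteristic two, m ≥ 2 (Sp taken as the matrices A with A J Aᵀ = J, acting on column vectors, with the alternating form f(u, v) = u ⬝ (J v)). For an involution t write V(t) for the set of vectors v with f(v, t v) = 0 (a subspace). Two involutions a, b are conjugate in Sp_{2m}(F) exactly when a − 1 and b − 1 have the same rank and, in case that rank is even, V(a) and V(b) have the same number of elements. -/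
theorem result {F : Type*} [Field F] [Fintype F] [CharP F 2] {m : ℕ} (hm : 2 ≤ m) (a b : ↥(Matrix.symplecticGroup (Fin m) F)) (ha : orderOf a = 2) (hb : orderOf b = 2) :
    IsConj a b ↔ ((((a : ↥(Matrix.symplecticGroup (Fin m) F)) : Matrix (Fin m ⊕ Fin m) (Fin m ⊕ Fin m) F) - 1).rank = (((b : ↥(Matrix.symplecticGroup (Fin m) F)) : Matrix (Fin m ⊕ Fin m) (Fin m ⊕ Fin m) F) - 1).rank ∧
      (Even (((a : ↥(Matrix.symplecticGroup (Fin m) F)) : Matrix (Fin m ⊕ Fin m) (Fin m ⊕ Fin m) F) - 1).rank → Nat.card {v : Fin m ⊕ Fin m → F // Cfsg.sympForm m F v (Matrix.mulVec ((a : ↥(Matrix.symplecticGroup (Fin m) F)) : Matrix (Fin m ⊕ Fin m) (Fin m ⊕ Fin m) F) v) = 0} = Nat.card {v : Fin m ⊕ Fin m → F // Cfsg.sympForm m F v (Matrix.mulVec ((b : ↥(Matrix.symplecticGroup (Fin m) F)) : Matrix (Fin m ⊕ Fin m) (Fin m ⊕ Fin m) F) v) = 0})) := by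
  classical
  set J := Matrix.J (Fin m) F with hJ
  let val : ↥(Matrix.symplecticGroup (Fin m) F) → Matrix (Fin m ⊕ Fin m) (Fin m ⊕ Fin m) F := fun g => g
  have h2 : ∀ g : ↥(Matrix.symplecticGroup (Fin m) F), orderOf g = 2 → g * g = 1 := fun g hg => by
    rw [← sq, ← hg, pow_orderOf_eq_one]
  have hcard : ∀ g : ↥(Matrix.symplecticGroup (Fin m) F), g * g = 1 →
      ((∀ v, dotProduct v (J.mulVec ((val g).mulVec v)) = 0) ↔
        Nat.card {v : Fin m ⊕ Fin m → F // Cfsg.sympForm m F v ((val g).mulVec v) = 0} =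
          Nat.card (Fin m ⊕ Fin m → F)) := by
    intro g _
    constructor
    · intro h
      exact Nat.card_congr (Equiv.subtypeUnivEquiv h)
    · intro h v
      have hs : {w : Fin m ⊕ Fin m → F | Cfsg.sympForm m F w ((val g).mulVec w) = 0} = Set.univ :=
        Set.eq_of_subset_of_ncard_le (Set.subset_univ _) (by
          rw [Set.ncard_univ, ← Nat.card_coe_set_eq]; exact h.ge) (Set.toFinite _)
      exact hs.ge (Set.mem_univ v)
  constructor
  · intro h
    obtain ⟨c, hc⟩ := isConj_iff.1 h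
    have e : val c * val a = val b * val c := congrArg Subtype.val (mul_inv_eq_iff_eq_mul.1 hc)
    have hu : IsUnit (val c).det := SymplecticGroup.symplectic_det c.2
    refine ⟨?_, fun _ => ?_⟩
    · show (val a - 1).rank = (val b - 1).rank
      have e1 : val c * (val a - 1) = (val b - 1) * val c := by
        rw [mul_sub, sub_mul, mul_one, one_mul, e]
      rw [← Matrix.rank_mul_eq_right_of_isUnit_det _ (val a - 1) hu, e1,
        Matrix.rank_mul_eq_left_of_isUnit_det _ _ hu]
    · have hform : ∀ v w, Cfsg.sympForm m F ((val c).mulVec v) ((val c).mulVec w) = Cfsg.sympForm m F v w := by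
        intro v w
        have hc' : (val c).transpose * J * val c = J := SymplecticGroup.mem_iff'.mp c.2
        unfold Cfsg.sympForm
        show dotProduct ((val c).mulVec v) (J.mulVec ((val c).mulVec w)) = dotProduct v (J.mulVec w)
        conv_rhs => rw [← hc', ← Matrix.mulVec_mulVec, ← Matrix.mulVec_mulVec, Matrix.dotProduct_mulVec v,
          Matrix.vecMul_transpose]
      have hinv : Function.Bijective (fun v => (val c).mulVec v) :=
        ⟨Matrix.mulVec_injective_iff_isUnit.mpr ((Matrix.isUnit_iff_isUnit_det _).mpr hu), Matrix.mulVec_surjective_iff_isUnit.mpr ((Matrix.isUnit_iff_isUnit_det _).mpr hu)⟩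
      refine Nat.card_congr ((Equiv.ofBijective _ hinv).subtypeEquiv fun v => ?_)
      show Cfsg.sympForm m F v ((val a).mulVec v) = 0 ↔
        Cfsg.sympForm m F ((val c).mulVec v) ((val b).mulVec ((val c).mulVec v)) = 0
      rw [Matrix.mulVec_mulVec v (val b), ← e, ← Matrix.mulVec_mulVec, hform]
  · rintro ⟨hr, hc⟩
    refine Cfsg.Agent.Lib.Jordan.SympInvol.isConj_of_same a b (h2 a ha) (h2 b hb) hr ?_
    obtain ⟨s, r, hs, -, h⟩ := Cfsg.Agent.Lib.Jordan.SympInvol.shape_cases a (h2 a ha)
    obtain ⟨s', r', hs', -, h'⟩ := Cfsg.Agent.Lib.Jordan.SympInvol.shape_cases b (h2 b hb)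
    obtain rfl : s = s' := hs.symm.trans (hr.trans hs')
    by_cases he : Even s
    · exact ((hcard a (h2 a ha)).trans ⟨fun h => (hc (hs.symm ▸ he)).symm.trans h,
        fun h => (hc (hs.symm ▸ he)).trans h⟩).trans (hcard b (h2 b hb)).symm
    · rcases h with ⟨e, -, -⟩ | ⟨-, n1, -⟩ | ⟨e, -, -⟩
      · exact absurd ⟨r, by omega⟩ he
      · rcases h' with ⟨e', -, -⟩ | ⟨-, n2, -⟩ | ⟨e', -, -⟩
        · exact absurd ⟨r', by omega⟩ he
        · exact iff_of_false n1 n2
        · exact absurd ⟨r' + 1, by omega⟩ he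
      · exact absurd ⟨r + 1, by omega⟩ he

end Cfsg.Agent.S2166
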