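import Cfsg.Statements.S2167
import Cfsg.Agent.Lib.Forms.Alternating

set_option autoImplicit false
open Cfsg

namespace Cfsg.Agent.S2167

/-- For an involution t of the symplectic group Sp_{2m}(F), m ≥ 2, F a finite field of characteristic two (matrices A with A J Aᵀ = J acting on column vectors, alternating form f(u, v) = u ⬝ (J v)): the set V(t) of vectors v with f(v, t v) = 0 has either q^{2m} or q^{2m−1} elements, q the order of F (it is a subspace of codimension at most 1), and if it is the whole space then t − 1 has even rank. -/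
theorem result {F : Type*} [Field F] [Fintype F] [CharP F 2] {m : ℕ} (hm : 2 ≤ m) (a : ↥(Matrix.symplecticGroup (Fin m) F)) (ha : orderOf a = 2) :
    (Nat.card {v : Fin m ⊕ Fin m → F // Cfsg.sympForm m F v (Matrix.mulVec ((a : ↥(Matrix.symplecticGroup (Fin m) F)) : Matrix (Fin m ⊕ Fin m) (Fin m ⊕ Fin m) F) v) = 0} = Fintype.card F ^ (2 * m) ∨ Nat.card {v : Fin m ⊕ Fin m → F // Cfsg.sympForm m F v (Matrix.mulVec ((a : ↥(Matrix.symplecticGroup (Fin m) F)) : Matrix (Fin m ⊕ Fin m) (Fin m ⊕ Fin m) F) v) = 0} * Fintype.card F = Fintype.card F ^ (2 * m)) ∧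
    ((∀ v : Fin m ⊕ Fin m → F, Cfsg.sympForm m F v (Matrix.mulVec ((a : ↥(Matrix.symplecticGroup (Fin m) F)) : Matrix (Fin m ⊕ Fin m) (Fin m ⊕ Fin m) F) v) = 0) → Even (((a : ↥(Matrix.symplecticGroup (Fin m) F)) : Matrix (Fin m ⊕ Fin m) (Fin m ⊕ Fin m) F) - 1).rank) := by
  classical
  set A : Matrix (Fin m ⊕ Fin m) (Fin m ⊕ Fin m) F :=
    ((a : ↥(Matrix.symplecticGroup (Fin m) F)) : Matrix (Fin m ⊕ Fin m) (Fin m ⊕ Fin m) F) with hAdef
  set f := Cfsg.sympForm m F with hfdef
  have hA2 : A * A = 1 := by
    have h := pow_orderOf_eq_one a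
    rw [ha, pow_two] at h
    exact congrArg Subtype.val h
  let J := Matrix.J (Fin m) F
  have hf : ∀ u v, f u v = dotProduct u (J.mulVec v) := fun _ _ => rfl
  have hsymm : ∀ u v, f u v = f v u := by
    intro u v
    rw [hf, hf, Matrix.dotProduct_mulVec, dotProduct_comm, ← Matrix.mulVec_transpose, Matrix.J_transpose,
      Matrix.neg_mulVec, dotProduct_neg, CharTwo.neg_eq]
  have hdiag : ∀ v, f v v = 0 := by
    intro v
    rw [hf]
    simp [J, Matrix.J, Matrix.fromBlocks_mulVec, dotProduct, Fintype.sum_sum_type, Matrix.neg_mulVec,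
      Matrix.one_mulVec, Matrix.zero_mulVec, mul_comm, CharTwo.neg_eq, CharTwo.add_self_eq_zero]
  have hinv : ∀ u v, f (A.mulVec u) (A.mulVec v) = f u v := by
    intro u v
    have hm := SymplecticGroup.transpose_mem a.2
    rw [SymplecticGroup.mem_iff, Matrix.transpose_transpose] at hm
    rw [hf, hf, Matrix.mulVec_mulVec, ← Matrix.vecMul_transpose A u, ← Matrix.dotProduct_mulVec,
      Matrix.mulVec_mulVec, ← mul_assoc]
    exact congrArg (fun M => dotProduct u (Matrix.mulVec M v)) hm
  have hswap : ∀ u v, f v (A.mulVec u) = f u (A.mulVec v) := by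
    intro u v
    conv_lhs => rw [← hinv, Matrix.mulVec_mulVec, hA2, Matrix.one_mulVec, hsymm]
  have fadd : ∀ u v w, f (u + v) w = f u w + f v w := fun u v w => by simp [hf, add_dotProduct]
  have fadd' : ∀ u v w, f u (v + w) = f u v + f u w := fun u v w => by
    simp [hf, Matrix.mulVec_add, dotProduct_add]
  have fsmul : ∀ (c : F) u w, f (c • u) w = c * f u w := fun c u w => by simp [hf, smul_dotProduct]
  have fsmul' : ∀ (c : F) u w, f u (c • w) = c * f u w := fun c u w => by
    simp [hf, Matrix.mulVec_smul, dotProduct_smul]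
  let Q : (Fin m ⊕ Fin m → F) → F := fun v => f v (A.mulVec v)
  have hQadd : ∀ u v, Q (u + v) = Q u + Q v := by
    intro u v
    simp only [Q, Matrix.mulVec_add, fadd, fadd']
    rw [hswap u v]
    linear_combination CharTwo.add_self_eq_zero (f u (A.mulVec v))
  have hQsmul : ∀ (c : F) v, Q (c • v) = c ^ 2 * Q v := by
    intro c v
    simp only [Q, Matrix.mulVec_smul, fsmul, fsmul']
    ring
  obtain ⟨r, hr⟩ : ∃ r : F → F, ∀ x, r x ^ 2 = x :=
    ⟨_, Function.surjInv_eq (bijective_frobenius F 2).surjective⟩
  have hinj2 : ∀ x y : F, x ^ 2 = y ^ 2 → x = y := fun x y h => (bijective_frobenius F 2).injective h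
  let L : (Fin m ⊕ Fin m → F) →ₗ[F] F :=
    { toFun := fun v => r (Q v)
      map_add' := fun u v => hinj2 _ _ (by rw [hr, CharTwo.add_sq, hr, hr, hQadd])
      map_smul' := fun c v => hinj2 _ _ (by rw [hr, RingHom.id_apply, smul_eq_mul, mul_pow, hr, hQsmul]) }
  have hmem : ∀ v, v ∈ L.ker ↔ Q v = 0 := by
    intro v
    rw [LinearMap.mem_ker]
    show r (Q v) = 0 ↔ _
    refine ⟨fun h => by rw [← hr (Q v), h]; simp, fun h => hinj2 _ _ (by rw [hr, h]; simp)⟩
  have hset : Nat.card {v : Fin m ⊕ Fin m → F // f v (A.mulVec v) = 0} = Nat.card ↥L.ker :=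
    Nat.card_congr (Equiv.subtypeEquivRight fun v => (hmem v).symm)
  constructor
  · rw [hset, Module.natCard_eq_pow_finrank (K := F) (V := ↥L.ker), Nat.card_eq_fintype_card]
    have hrn := L.finrank_range_add_finrank_ker
    have hle : Module.finrank F ↥L.range ≤ 1 := (Submodule.finrank_le _).trans (Module.finrank_self F).le
    rw [Module.finrank_pi] at hrn
    simp only [Fintype.card_sum, Fintype.card_fin] at hrn
    rcases Nat.le_one_iff_eq_zero_or_eq_one.1 hle with h | h
    · left; congr 1; omega
    · right; rw [← pow_succ]; congr 1; omega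
  · intro hall
    set T := A - 1 with hT
    let B : LinearMap.BilinForm F (Fin m ⊕ Fin m → F) := Matrix.toBilin' (J * T)
    have hB : ∀ u v, B u v = f u (T.mulVec v) := by
      intro u v
      rw [hf, Matrix.mulVec_mulVec]
      exact Matrix.toBilin'_apply' _ _ _
    have halt : B.IsAlt := by
      intro v
      rw [hB, hT, Matrix.sub_mulVec, Matrix.one_mulVec, sub_eq_add_neg, fadd',
        show f v (A.mulVec v) = 0 from hall v, ← neg_one_smul F v, fsmul', hdiag v]
      simp
    obtain ⟨k, l, b, h1, h2, h3, h4⟩ := Cfsg.Agent.Lib.Forms.exists_altBasis B halt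
    have hker : (Matrix.mulVecLin T).ker = Submodule.span F (Set.range fun j => b (Sum.inr j)) := by
      apply le_antisymm
      · intro v hv
        rw [LinearMap.mem_ker, Matrix.mulVecLin_apply] at hv
        have hz : ∀ u, B u v = 0 := fun u => by rw [hB, hv, hf]; simp
        rw [← b.sum_repr v]
        refine Submodule.sum_mem _ (fun i _ => ?_)
        have hskew : ∀ u w, B u w = -B w u := fun u w => (halt.neg_eq w u).symm
        rcases i with (i | i) | j
        · have h := hz (b (Sum.inl (Sum.inr i)))
          conv at h => lhs; rw [← b.sum_repr v]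
          rw [map_sum, Finset.sum_eq_single (Sum.inl (Sum.inl i))] at h
          · rw [map_smul, hskew, h1, if_pos rfl, smul_eq_mul, mul_neg, mul_one, neg_eq_zero] at h
            rw [h, zero_smul]; exact zero_mem _
          · rintro ((i' | i') | j) _ hne
            · rw [map_smul, hskew, h1, if_neg (fun e => hne (by rw [e])), neg_zero, smul_zero]
            · rw [map_smul, h3, smul_zero]
            · rw [map_smul, hskew, h4, neg_zero, smul_zero]
          · simp
        · have h := hz (b (Sum.inl (Sum.inl i)))
          conv at h => lhs; rw [← b.sum_repr v]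
          rw [map_sum, Finset.sum_eq_single (Sum.inl (Sum.inr i))] at h
          · rw [map_smul, h1, if_pos rfl, smul_eq_mul, mul_one] at h
            rw [h, zero_smul]; exact zero_mem _
          · rintro ((i' | i') | j) _ hne
            · rw [map_smul, h2, smul_zero]
            · rw [map_smul, h1, if_neg (fun e => hne (by rw [e])), smul_zero]
            · rw [map_smul, hskew, h4, neg_zero, smul_zero]
          · simp
        · exact Submodule.smul_mem _ _ (Submodule.subset_span ⟨j, rfl⟩)
      · rw [Submodule.span_le]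
        rintro _ ⟨j, rfl⟩
        rw [SetLike.mem_coe, LinearMap.mem_ker, Matrix.mulVecLin_apply]
        set w := T.mulVec (b (Sum.inr j)) with hw
        have hw0 : J.mulVec w = 0 := by
          funext i
          have hz : B (Pi.single i 1) (b (Sum.inr j)) = 0 := by
            rw [← halt.neg_eq, h4, neg_zero]
          rw [hB, hf] at hz
          rw [Matrix.mulVec_mulVec] at hz
          simp only [w, Matrix.mulVec_mulVec]
          simpa using hz
        have := congrArg (fun x => J.mulVec x) hw0
        simp only [J, Matrix.mulVec_mulVec, Matrix.J_squared, Matrix.neg_mulVec, Matrix.one_mulVec,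
          Matrix.mulVec_zero, neg_eq_zero] at this
        exact this
    have hli : LinearIndependent F (fun j => b (Sum.inr j)) :=
      b.linearIndependent.comp _ Sum.inr_injective
    have hk : Module.finrank F ↥(Matrix.mulVecLin T).ker = l := by
      rw [hker, finrank_span_eq_card hli, Fintype.card_fin]
    have hrn := (Matrix.mulVecLin T).finrank_range_add_finrank_ker
    have hd := Module.finrank_eq_card_basis b
    rw [hk] at hrn
    simp only [Fintype.card_sum, Fintype.card_fin] at hd
    refine ⟨k, ?_⟩
    show Module.finrank F ↥(Matrix.mulVecLin T).range = k + k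
    omega

end Cfsg.Agent.S2167
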