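import Cfsg.Statements.S2168
import Cfsg.Agent.Lib.Jordan.OrthInvolModels

set_option autoImplicit false
open Cfsg

namespace Cfsg.Agent.S2168

open Cfsg.Agent.Lib.Jordan.OrthInvol Cfsg.Agent.Lib.Classical.QuadOmega Cfsg.Agent.Lib.Classical.Quad


/-- Involutions in the full isometry group O of the hyperbolic quadratic form Σ x_i y_i in dimension 2m over a finite field F of characteristic two, m ≥ 4 (plus type): two elements of order 2 of O are conjugate in O exactly when they are conjugate under the group of all invertible matrices preserving the polar bilinear form (u, v) ↦ Q(u + v) − Q(u) − Q(v) (the symplectic group of that form). -/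
theorem result {F : Type*} [Field F] [Fintype F] [CharP F 2] {m : ℕ} (hm : 4 ≤ m) (t s : ↥(Cfsg.isometryGroup F (Cfsg.quadFormPlus m F))) (ht : orderOf t = 2) (hs : orderOf s = 2) :
    IsConj t s ↔ ∃ g ∈ Cfsg.preserving (Units.coeHom (Matrix (Fin m ⊕ Fin m) (Fin m ⊕ Fin m) F)) (fun u v => Cfsg.quadFormPlus m F (u + v) - Cfsg.quadFormPlus m F u - Cfsg.quadFormPlus m F v), g * ((t : ↥(Cfsg.isometryGroup F (Cfsg.quadFormPlus m F))) : GL (Fin m ⊕ Fin m) F) * g⁻¹ = ((s : ↥(Cfsg.isometryGroup F (Cfsg.quadFormPlus m F))) : GL (Fin m ⊕ Fin m) F) := by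
  classical
  constructor
  · intro h
    obtain ⟨c, hc⟩ := isConj_iff.1 h
    refine ⟨(c : GL _ F), fun u v => ?_, congrArg Subtype.val hc⟩
    have e1 := c.2 (u + v) (u + v)
    have e2 := c.2 u u
    have e3 := c.2 v v
    simp only [Units.coeHom_apply, Matrix.mulVec_add] at e1 e2 e3 ⊢
    rw [e1, e2, e3]
  rintro ⟨g, hg, hgc⟩
  have ht2 : t * t = 1 := by have := pow_orderOf_eq_one t; rw [ht, sq] at this; exact this
  have hs2 : s * s = 1 := by have := pow_orderOf_eq_one s; rw [hs, sq] at this; exact this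
  set T := ((t : GL (Fin m ⊕ Fin m) F) : Matrix (Fin m ⊕ Fin m) (Fin m ⊕ Fin m) F)
  set S := ((s : GL (Fin m ⊕ Fin m) F) : Matrix (Fin m ⊕ Fin m) (Fin m ⊕ Fin m) F)
  set G := (g : Matrix (Fin m ⊕ Fin m) (Fin m ⊕ Fin m) F) with hG
  have hpol : ∀ u v, Cfsg.quadFormPlus m F (u + v) - Cfsg.quadFormPlus m F u - Cfsg.quadFormPlus m F v =
      dotProduct u ((Matrix.J (Fin m) F).mulVec v) := fun u v => by
    rw [plusQ_coe]; exact plus_std m u v
  have hGsp : G ∈ Matrix.symplecticGroup (Fin m) F := by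
    refine SymplecticGroup.mem_iff'.mpr (Matrix.ext fun i j => ?_)
    have h := hg (Pi.single i 1) (Pi.single j 1)
    simp only [hpol, Units.coeHom_apply] at h
    have e : ∀ M : Matrix (Fin m ⊕ Fin m) (Fin m ⊕ Fin m) F,
        dotProduct (Pi.single i 1) (M.mulVec (Pi.single j 1)) = M i j := fun M => by
      rw [single_dotProduct, one_mul, Matrix.mulVec_single_one]; rfl
    rw [← e (Matrix.J (Fin m) F), ← h, ← e (G.transpose * (Matrix.J (Fin m) F) * G), ← Matrix.mulVec_mulVec, ← Matrix.mulVec_mulVec,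
      Matrix.dotProduct_mulVec _ G.transpose, Matrix.vecMul_transpose]
  have e : G * T = S * G := congrArg Units.val (mul_inv_eq_iff_eq_mul.1 hgc)
  obtain ⟨h1, h2⟩ := inv_of_sp_conj ⟨G, hGsp⟩ (a := T) (b := S) e
  let Φ := MulEquiv.subgroupCongr (congrArg (Cfsg.isometryGroup F) (plusQ_coe (F := F) m))
  have h := isConj_of_same (plus_std m) (Φ t) (Φ s) (by rw [← map_mul, ht2, map_one])
    (by rw [← map_mul, hs2, map_one]) h1 h2
  simpa using Φ.symm.toMonoidHom.map_isConj h

end Cfsg.Agent.S2168
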