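import Cfsg.Statements.S2170
import Cfsg.Agent.Lib.Jordan.OrthInvolModels

set_option autoImplicit false
open Cfsg

namespace Cfsg.Agent.S2170

open Cfsg.Agent.Lib.Jordan.OrthInvol Cfsg.Agent.Lib.Classical.QuadOmega Cfsg.Agent.Lib.Classical.Quad


/-- Involutions in the full isometry group O of the quadratic form Σ x_i y_i + (z₁² + c z₁ z₂ + d z₂²) in dimension 2m with anisotropic binary part over a finite field F of characteristic two, m ≥ 4 (minus type): two elements of order 2 of O are conjugate in O exactly when they are conjugate under the group of all invertible matrices preserving the polar bilinear form (u, v) ↦ Q(u + v) − Q(u) − Q(v) (the symplectic group of that form). -/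
theorem result {F : Type*} [Field F] [Fintype F] [CharP F 2] {m : ℕ} (hm : 4 ≤ m) (c d : F) (hcd : ∀ z₁ z₂ : F, z₁ ^ 2 + c * z₁ * z₂ + d * z₂ ^ 2 = 0 → z₁ = 0 ∧ z₂ = 0) (t s : ↥(Cfsg.isometryGroup F (Cfsg.quadFormMinus (m - 1) F c d))) (ht : orderOf t = 2) (hs : orderOf s = 2) :
    IsConj t s ↔ ∃ g ∈ Cfsg.preserving (Units.coeHom (Matrix ((Fin (m - 1) ⊕ Fin (m - 1)) ⊕ Fin 2) ((Fin (m - 1) ⊕ Fin (m - 1)) ⊕ Fin 2) F)) (fun u v => Cfsg.quadFormMinus (m - 1) F c d (u + v) - Cfsg.quadFormMinus (m - 1) F c d u - Cfsg.quadFormMinus (m - 1) F c d v), g * ((t : ↥(Cfsg.isometryGroup F (Cfsg.quadFormMinus (m - 1) F c d))) : GL ((Fin (m - 1) ⊕ Fin (m - 1)) ⊕ Fin 2) F) * g⁻¹ = ((s : ↥(Cfsg.isometryGroup F (Cfsg.quadFormMinus (m - 1) F c d))) : GL ((Fin (m - 1) ⊕ Fin (m - 1)) ⊕ Fin 2) F) := by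
  obtain ⟨k, rfl⟩ : ∃ k, m = k + 1 := ⟨m - 1, by omega⟩
  revert t s
  rw [Nat.add_sub_cancel]
  intro t s ht hs
  classical
  constructor
  · intro h
    obtain ⟨c, hc⟩ := isConj_iff.1 h
    refine ⟨(c : GL _ F), fun u v => ?_, congrArg Subtype.val hc⟩
    have e1 := c.2 (u + v) (u + v)
    have e2 := c.2 u u
    have e3 := c.2 v v
    simp only [Units.coeHom_apply, Matrix.mulVec_add] at e1 e2 e3 ⊢
    rw [e1, e2, e3]
  rintro ⟨g, hg, hgc⟩
  have ht2 : t * t = 1 := by have := pow_orderOf_eq_one t; rw [ht, sq] at this; exact this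
  have hs2 : s * s = 1 := by have := pow_orderOf_eq_one s; rw [hs, sq] at this; exact this
  obtain ⟨e, Q, hQ, he⟩ := exists_minus_model (k := k) (a := c) (b := d) hcd
  set Φ := transEquiv e he with hΦ
  set G := (g : Matrix ((Fin k ⊕ Fin k) ⊕ Fin 2) ((Fin k ⊕ Fin k) ⊕ Fin 2) F) with hG
  have hpolQ : ∀ u v, dotProduct u ((Matrix.J (Fin (k + 1)) F).mulVec v) = Cfsg.quadFormMinus k F c d (e u + e v) -
      Cfsg.quadFormMinus k F c d (e u) - Cfsg.quadFormMinus k F c d (e v) := fun u v => by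
    rw [← hQ u v, QuadraticMap.polar, ← he, ← he, ← he, map_add]
  let γ : (Fin (k + 1) ⊕ Fin (k + 1) → F) →ₗ[F] (Fin (k + 1) ⊕ Fin (k + 1) → F) :=
    e.symm.toLinearMap.comp ((Matrix.mulVecLin G).comp e.toLinearMap)
  set G' := LinearMap.toMatrix' γ with hG'
  have hG'v : ∀ v, e (G'.mulVec v) = G.mulVec (e v) := fun v => by
    rw [hG', LinearMap.toMatrix'_mulVec]
    simp [γ]
  have hGsp : G' ∈ Matrix.symplecticGroup (Fin (k + 1)) F := by
    refine SymplecticGroup.mem_iff'.mpr (Matrix.ext fun i j => ?_)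
    have h : dotProduct (G'.mulVec (Pi.single i 1)) ((Matrix.J (Fin (k + 1)) F).mulVec (G'.mulVec (Pi.single j 1))) =
        dotProduct (Pi.single i 1) ((Matrix.J (Fin (k + 1)) F).mulVec (Pi.single j 1)) := by
      rw [hpolQ, hpolQ, hG'v, hG'v]
      exact hg (e (Pi.single i 1)) (e (Pi.single j 1))
    have e' : ∀ M : Matrix (Fin (k + 1) ⊕ Fin (k + 1)) (Fin (k + 1) ⊕ Fin (k + 1)) F,
        dotProduct (Pi.single i 1) (M.mulVec (Pi.single j 1)) = M i j := fun M => by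
      rw [single_dotProduct, one_mul, Matrix.mulVec_single_one]; rfl
    rw [← e' (Matrix.J (Fin (k + 1)) F), ← h, ← e' (G'.transpose * (Matrix.J (Fin (k + 1)) F) * G'), ← Matrix.mulVec_mulVec, ← Matrix.mulVec_mulVec,
      Matrix.dotProduct_mulVec _ G'.transpose, Matrix.vecMul_transpose]
  set T := ((t : GL ((Fin k ⊕ Fin k) ⊕ Fin 2) F) : Matrix ((Fin k ⊕ Fin k) ⊕ Fin 2) ((Fin k ⊕ Fin k) ⊕ Fin 2) F)
  set S := ((s : GL ((Fin k ⊕ Fin k) ⊕ Fin 2) F) : Matrix ((Fin k ⊕ Fin k) ⊕ Fin 2) ((Fin k ⊕ Fin k) ⊕ Fin 2) F)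
  set T' := (((Φ t : Cfsg.isometryGroup F ⇑Q) : GL (Fin (k + 1) ⊕ Fin (k + 1)) F) : Matrix (Fin (k + 1) ⊕ Fin (k + 1)) (Fin (k + 1) ⊕ Fin (k + 1)) F) with hT'
  set S' := (((Φ s : Cfsg.isometryGroup F ⇑Q) : GL (Fin (k + 1) ⊕ Fin (k + 1)) F) : Matrix (Fin (k + 1) ⊕ Fin (k + 1)) (Fin (k + 1) ⊕ Fin (k + 1)) F) with hS'
  have eGT : G * T = S * G := congrArg Units.val (mul_inv_eq_iff_eq_mul.1 hgc)
  have e2 : G' * T' = S' * G' := Matrix.ext_of_mulVec_single fun i => by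
    apply e.injective
    rw [← Matrix.mulVec_mulVec, ← Matrix.mulVec_mulVec, hG'v, hT', hS', transEquiv_mulVec, transEquiv_mulVec,
      hG'v, Matrix.mulVec_mulVec, Matrix.mulVec_mulVec]
    exact congrArg (fun M => Matrix.mulVec M _) eGT
  obtain ⟨h1, h2⟩ := inv_of_sp_conj ⟨G', hGsp⟩ (a := T') (b := S') e2
  have h := isConj_of_same hQ (Φ t) (Φ s) (by rw [← map_mul, ht2, map_one])
    (by rw [← map_mul, hs2, map_one]) h1 h2
  simpa using Φ.symm.toMonoidHom.map_isConj h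

end Cfsg.Agent.S2170
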