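import Cfsg.Statements.S2172
import Cfsg.Agent.Lib.Jordan.OrthInvolInstances

set_option autoImplicit false
open Cfsg

namespace Cfsg.Agent.S2172

open Cfsg.Agent.Lib.Jordan.OrthInvol Cfsg.Agent.Lib.Classical.QuadOmega Cfsg.Agent.Lib.Classical.Quad


/-- Splitting of involution classes from O to Ω for the hyperbolic quadratic form Q = Σ x_i y_i in dimension 2m over a finite field F of characteristic two, m ≥ 4. Let t, s be involutions of the commutator subgroup Ω that are conjugate in the full isometry group O. If it is not the case that t − 1 has rank m and Q(v + t v) = 0 for every vector v, then t and s are conjugate by an element of Ω. If t − 1 has rank m and Q(v + t v) = 0 for all v, then t and s are conjugate by an element of Ω exactly when the intersection of the images of t − 1 and s − 1 has even dimension (so the class of t in O meets at most two classes of Ω). -/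
theorem result {F : Type*} [Field F] [Fintype F] [CharP F 2] {m : ℕ} (hm : 4 ≤ m) (t s : ↥(Cfsg.isometryGroup F (Cfsg.quadFormPlus m F))) (ht : orderOf t = 2) (hs : orderOf s = 2) (htO : t ∈ Cfsg.Omega F (Cfsg.quadFormPlus m F)) (hsO : s ∈ Cfsg.Omega F (Cfsg.quadFormPlus m F)) (hconj : IsConj t s) :
    (¬ (((((t : ↥(Cfsg.isometryGroup F (Cfsg.quadFormPlus m F))) : GL (Fin m ⊕ Fin m) F) : Matrix (Fin m ⊕ Fin m) (Fin m ⊕ Fin m) F) - 1).rank = m ∧ ∀ v : Fin m ⊕ Fin m → F, Cfsg.quadFormPlus m F (v + Matrix.mulVec (((t : ↥(Cfsg.isometryGroup F (Cfsg.quadFormPlus m F))) : GL (Fin m ⊕ Fin m) F) : Matrix (Fin m ⊕ Fin m) (Fin m ⊕ Fin m) F) v) = 0) →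
      ∃ g ∈ Cfsg.Omega F (Cfsg.quadFormPlus m F), g * t * g⁻¹ = s) ∧
    ((((((t : ↥(Cfsg.isometryGroup F (Cfsg.quadFormPlus m F))) : GL (Fin m ⊕ Fin m) F) : Matrix (Fin m ⊕ Fin m) (Fin m ⊕ Fin m) F) - 1).rank = m ∧ ∀ v : Fin m ⊕ Fin m → F, Cfsg.quadFormPlus m F (v + Matrix.mulVec (((t : ↥(Cfsg.isometryGroup F (Cfsg.quadFormPlus m F))) : GL (Fin m ⊕ Fin m) F) : Matrix (Fin m ⊕ Fin m) (Fin m ⊕ Fin m) F) v) = 0) →
      ((∃ g ∈ Cfsg.Omega F (Cfsg.quadFormPlus m F), g * t * g⁻¹ = s) ↔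
        Even (Module.finrank F ↥(LinearMap.range (Matrix.toLin' ((((t : ↥(Cfsg.isometryGroup F (Cfsg.quadFormPlus m F))) : GL (Fin m ⊕ Fin m) F) : Matrix (Fin m ⊕ Fin m) (Fin m ⊕ Fin m) F) - 1)) ⊓ LinearMap.range (Matrix.toLin' ((((s : ↥(Cfsg.isometryGroup F (Cfsg.quadFormPlus m F))) : GL (Fin m ⊕ Fin m) F) : Matrix (Fin m ⊕ Fin m) (Fin m ⊕ Fin m) F) - 1)))))) := by
  classical
  set Φ := transEquiv (Q := plusQ m F) (LinearEquiv.refl F (Fin m ⊕ Fin m → F)) (plus_he m) with hΦ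
  have hreg : Reg F (Fin m ⊕ Fin m → F) := reg_plus (Or.inr (by omega))
  have hmem := fun g => mem_omega_iff_dickO (plus_std (F := F) m) hreg (LinearEquiv.refl F (Fin m ⊕ Fin m → F)) (plus_he m) g
  have hfam := families_plus (F := F) m
  have hval : ∀ g : ↥(Cfsg.isometryGroup F (Cfsg.quadFormPlus m F)),
      (((Φ g : Cfsg.isometryGroup F ⇑(plusQ m F)) : GL (Fin m ⊕ Fin m) F) : Matrix (Fin m ⊕ Fin m) (Fin m ⊕ Fin m) F) =
      ((g : GL (Fin m ⊕ Fin m) F) : Matrix (Fin m ⊕ Fin m) (Fin m ⊕ Fin m) F) := fun g =>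
    Matrix.ext_of_mulVec_single fun i => by
      simpa using transEquiv_mulVec (LinearEquiv.refl F (Fin m ⊕ Fin m → F)) (plus_he m) g (Pi.single i 1)
  have ht2 : t * t = 1 := by have := pow_orderOf_eq_one t; rw [ht, sq] at this; exact this
  have hT : Φ t * Φ t = 1 := by rw [← map_mul, ht2, map_one]
  set T := ((t : GL (Fin m ⊕ Fin m) F) : Matrix (Fin m ⊕ Fin m) (Fin m ⊕ Fin m) F) with hTdef
  set S := ((s : GL (Fin m ⊕ Fin m) F) : Matrix (Fin m ⊕ Fin m) (Fin m ⊕ Fin m) F) with hSdef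
  have hQv : ∀ v, Cfsg.quadFormPlus m F (v + T.mulVec v) = plusQ m F ((T - 1).mulVec v) := fun v => by
    rw [← plusQ_apply, Matrix.sub_mulVec, Matrix.one_mulVec, sub_eq_add_neg, add_comm v]
    congr 2
    funext a
    exact (CharTwo.neg_eq _).symm
  refine ⟨fun hns => ?_, fun ⟨hrk, hsing⟩ => ?_⟩
  · rcases odd_or_split (plus_std m) hfam.le hfam.sing (Φ t) hT with hr | ⟨-, h1, -, h2⟩
    · obtain ⟨g, hg1, hg2⟩ := conj_even (plus_std m) hr (Φ.toMonoidHom.map_isConj hconj)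
      refine ⟨Φ.symm g, (hmem _).2 (by rw [← hΦ, MulEquiv.apply_symm_apply]; exact hg1), Φ.injective ?_⟩
      rw [map_mul, map_mul, map_inv, MulEquiv.apply_symm_apply]
      exact hg2
    · rw [hval] at h1 h2
      exact absurd ⟨h1, fun v => (hQv v).trans (h2 _ ⟨v, rfl⟩)⟩ hns
  · have hXs : ∀ v ∈ LinearMap.range (T - 1).mulVecLin, plusQ m F v = 0 := by
      rintro _ ⟨v, rfl⟩
      exact (hQv v).symm.trans (hsing v)
    have hd : ∀ g : ↥(Cfsg.isometryGroup F (Cfsg.quadFormPlus m F)), g * t * g⁻¹ = s →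
        dickO (plus_std m) (Φ g) = (-1) ^ m *
          (-1) ^ Module.finrank F ↥(LinearMap.range (T - 1).mulVecLin ⊓ LinearMap.range (S - 1).mulVecLin) := by
      intro g hg
      refine dick_of_image hreg T S hrk hXs (Φ g) ?_
      rw [hval]
      exact congrArg (fun z : ↥(Cfsg.isometryGroup F (Cfsg.quadFormPlus m F)) =>
        ((z : GL (Fin m ⊕ Fin m) F) : Matrix (Fin m ⊕ Fin m) (Fin m ⊕ Fin m) F)) (mul_inv_eq_iff_eq_mul.1 hg)
    have hme : Even m := by
      have := (dickO_eq_one_iff (plus_std m) (Φ t)).1 ((hmem t).1 htO)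
      rwa [hval, ← hTdef, hrk] at this
    simp only [Matrix.toLin'_apply']
    constructor
    · rintro ⟨g, hg, hgs⟩
      have h := hd g hgs
      rw [(hmem g).1 hg, hme.neg_one_pow, one_mul] at h
      by_contra hne
      exact absurd (h.trans (Odd.neg_one_pow (Nat.not_even_iff_odd.1 hne))) (by decide)
    · intro hev
      obtain ⟨g, hg⟩ := isConj_iff.1 hconj
      refine ⟨g, (hmem g).2 ?_, hg⟩
      rw [← hΦ, hd g hg, hme.neg_one_pow, one_mul]
      exact Even.neg_one_pow hev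

end Cfsg.Agent.S2172
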