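import Cfsg.Statements.S2173
import Cfsg.Agent.Lib.Jordan.OrthInvolInstances

set_option autoImplicit false
open Cfsg

namespace Cfsg.Agent.S2173

open Cfsg.Agent.Lib.Jordan.OrthInvol Cfsg.Agent.Lib.Classical.QuadOmega Cfsg.Agent.Lib.Classical.Quad


/-- For the quadratic form Σ x_i y_i + (z₁² + c z₁ z₂ + d z₂²) in dimension 2m with anisotropic binary part over a finite field F of characteristic two, m ≥ 4 (minus type): two involutions of the commutator subgroup Ω that are conjugate in the full isometry group O are conjugate by an element of Ω (no class of involutions of O inside Ω splits). -/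
theorem result {F : Type*} [Field F] [Fintype F] [CharP F 2] {m : ℕ} (hm : 4 ≤ m) (c d : F) (hcd : ∀ z₁ z₂ : F, z₁ ^ 2 + c * z₁ * z₂ + d * z₂ ^ 2 = 0 → z₁ = 0 ∧ z₂ = 0) (t s : ↥(Cfsg.isometryGroup F (Cfsg.quadFormMinus (m - 1) F c d))) (ht : orderOf t = 2) (hs : orderOf s = 2) (htO : t ∈ Cfsg.Omega F (Cfsg.quadFormMinus (m - 1) F c d)) (hsO : s ∈ Cfsg.Omega F (Cfsg.quadFormMinus (m - 1) F c d)) (hconj : IsConj t s) :
    ∃ g ∈ Cfsg.Omega F (Cfsg.quadFormMinus (m - 1) F c d), g * t * g⁻¹ = s := by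
  classical
  obtain ⟨k, rfl⟩ : ∃ k, m = k + 1 := ⟨m - 1, by omega⟩
  revert t s
  rw [Nat.add_sub_cancel]
  intro t s ht hs htO hsO hconj
  obtain ⟨e, Q, hQ, he⟩ := exists_minus_model (k := k) (a := c) (b := d) hcd
  set Φ := transEquiv e he with hΦ
  have hfam := families_minus (a := c) (b := d) hcd e he
  have ht2 : t * t = 1 := by have := pow_orderOf_eq_one t; rw [ht, sq] at this; exact this
  rcases odd_or_split hQ hfam.le hfam.sing (Φ t) (by rw [← map_mul, ht2, map_one]) with hr | ⟨hk, -⟩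
  · obtain ⟨g, hg1, hg2⟩ := conj_even hQ hr (Φ.toMonoidHom.map_isConj hconj)
    refine ⟨Φ.symm g, (mem_omega_minus (a := c) (b := d) hcd hQ e he _).2 (by
      rw [← hΦ, MulEquiv.apply_symm_apply]; exact hg1), Φ.injective ?_⟩
    rw [map_mul, map_mul, map_inv, MulEquiv.apply_symm_apply]
    exact hg2
  · omega

end Cfsg.Agent.S2173
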