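import Cfsg.Statements.S2174

import Cfsg.Agent.Lib.Chev.InvolOrthF4
import Cfsg.Agent.Lib.Chev.InvolOrthIdeal
set_option autoImplicit false
open Cfsg

namespace Cfsg.Agent.S2174


open Cfsg.Agent.Lib.Chev

theorem mat_mem {F : Type*} [Field F] (M : Matrix Cfsg.Lie.chevF4.Idx Cfsg.Lie.chevF4.Idx F) :
    M ∈ [Cfsg.Lie.chevF4.x F 47 1, Cfsg.Lie.chevF4.x F 44 1,
        Cfsg.Lie.chevF4.x F 47 1 * Cfsg.Lie.chevF4.x F 44 1,
        Cfsg.Lie.chevF4.x F 39 1 * Cfsg.Lie.chevF4.x F 45 1] ↔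
      ∃ i < InvolOrthF4.targets.length,
        M = (InvolOrthF4.slData.X F (InvolOrthF4.targets.getD i []) : Matrix _ _ F) := by
  constructor
  · intro h
    simp only [List.mem_cons, List.not_mem_nil, or_false] at h
    rcases h with rfl | rfl | rfl | rfl
    exacts [⟨0, by decide, by simp [InvolOrthF4.targets, SLData.X, wordMat_cons, wordMat_nil]⟩,
      ⟨1, by decide, by simp [InvolOrthF4.targets, SLData.X, wordMat_cons, wordMat_nil]⟩,
      ⟨2, by decide, by simp [InvolOrthF4.targets, SLData.X, wordMat_cons, wordMat_nil]⟩,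
      ⟨3, by decide, by simp [InvolOrthF4.targets, SLData.X, wordMat_cons, wordMat_nil]⟩]
  · rintro ⟨i, hi, rfl⟩
    match i, (show i < 4 from hi) with
    | 0, _ => simp [InvolOrthF4.targets, SLData.X, wordMat_cons, wordMat_nil]
    | 1, _ => simp [InvolOrthF4.targets, SLData.X, wordMat_cons, wordMat_nil]
    | 2, _ => simp [InvolOrthF4.targets, SLData.X, wordMat_cons, wordMat_nil]
    | 3, _ => simp [InvolOrthF4.targets, SLData.X, wordMat_cons, wordMat_nil]
    | n + 4, h => omega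

theorem keys_inj : ∀ i < InvolOrthF4.targets.length, ∀ j < InvolOrthF4.targets.length,
    [16, 16, 21, 24].getD i 0 = [16, 16, 21, 24].getD j 0 →
    [6, 10, 10, 12].getD i 0 = [6, 10, 10, 12].getD j 0 → i = j := by decide


/-- Conjugacy classes of involutions in the Chevalley group of type F₄ over a finite field F of characteristic two (the matrix group generated by the root elements x_r(t)). In this problem's root numbering for type F₄ (the Chevalley data module; fundamental roots p₁, p₂ short and p₃, p₄ long; roots indexed by their coefficient vectors in increasing order) let r = 47 be the highest root (2,4,3,2), s = 44 the highest short root (2,3,2,1), and α = 39 = (1,2,2,1), β = 45 = (2,4,2,1), an orthogonal short/long pair; consider the four elements x_r(1), x_s(1), x_r(1)x_s(1), x_α(1)x_β(1). Then: each invertible matrix equal to one of these four products lies in the group and has order 2; every element of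 order 2 of the group is conjugate in the group to one of them; and no two of them are conjugate in the group (so, the four matrices being distinct, the group has exactly four conjugacy classes of involutions). -/
theorem result {F : Type*} [Field F] [Fintype F] [CharP F 2] :
    (∀ y : GL Cfsg.Lie.chevF4.Idx F, ((y : GL Cfsg.Lie.chevF4.Idx F) : Matrix Cfsg.Lie.chevF4.Idx Cfsg.Lie.chevF4.Idx F) ∈ [Cfsg.Lie.chevF4.x F 47 1, Cfsg.Lie.chevF4.x F 44 1, Cfsg.Lie.chevF4.x F 47 1 * Cfsg.Lie.chevF4.x F 44 1, Cfsg.Lie.chevF4.x F 39 1 * Cfsg.Lie.chevF4.x F 45 1] → y ∈ Cfsg.Lie.chevF4.group F ∧ orderOf y = 2) ∧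
    (∀ g ∈ Cfsg.Lie.chevF4.group F, orderOf g = 2 → ∃ y ∈ Cfsg.Lie.chevF4.group F, ((y : GL Cfsg.Lie.chevF4.Idx F) : Matrix Cfsg.Lie.chevF4.Idx Cfsg.Lie.chevF4.Idx F) ∈ [Cfsg.Lie.chevF4.x F 47 1, Cfsg.Lie.chevF4.x F 44 1, Cfsg.Lie.chevF4.x F 47 1 * Cfsg.Lie.chevF4.x F 44 1, Cfsg.Lie.chevF4.x F 39 1 * Cfsg.Lie.chevF4.x F 45 1] ∧ ∃ h ∈ Cfsg.Lie.chevF4.group F, h * g * h⁻¹ = y) ∧
    (∀ y₁ ∈ Cfsg.Lie.chevF4.group F, ∀ y₂ ∈ Cfsg.Lie.chevF4.group F, ((y₁ : GL Cfsg.Lie.chevF4.Idx F) : Matrix Cfsg.Lie.chevF4.Idx Cfsg.Lie.chevF4.Idx F) ∈ [Cfsg.Lie.chevF4.x F 47 1, Cfsg.Lie.chevF4.x F 44 1, Cfsg.Lie.chevF4.x F 47 1 * Cfsg.Lie.chevF4.x F 44 1, Cfsg.Lie.chevF4.x F 39 1 * Cfsg.Lie.chevF4.x F 45 1] → ((y₂ : GL Cfsg.Lie.chevF4.Idx F) : Matrix Cfsg.Lie.chevF4.Idx Cfsg.Lie.chevF4.Idx F) ∈ [Cfsg.Lie.chevF4.x F 47 1, Cfsg.Lie.chevF4.x F 44 1, Cfsg.Lie.chevF4.x F 47 1 * Cfsg.Lie.chevF4.x F 44 1, Cfsg.Lie.chevF4.x F 39 1 * Cfsg.Lie.chevF4.x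 F 45 1] →
      (∃ h ∈ Cfsg.Lie.chevF4.group F, h * y₁ * h⁻¹ = y₂) → ((y₁ : GL Cfsg.Lie.chevF4.Idx F) : Matrix Cfsg.Lie.chevF4.Idx Cfsg.Lie.chevF4.Idx F) = ((y₂ : GL Cfsg.Lie.chevF4.Idx F) : Matrix Cfsg.Lie.chevF4.Idx Cfsg.Lie.chevF4.Idx F)) := by
  have : Finite F := Finite.of_fintype F
  have hc := InvolOrthF4.comm_ok
  simp only [Bool.and_eq_true, List.all_eq_true] at hc
  have hget : ∀ (L : List (List ℕ)) (i : ℕ), i < L.length → L.getD i [] ∈ L := fun L i hi => by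
    rw [List.getD_eq_getElem _ _ hi]; exact List.getElem_mem hi
  refine ⟨fun y hy => ?_, fun g hg hg2 => ?_, fun y₁ _ y₂ _ hy₁ hy₂ h => ?_⟩
  · obtain ⟨i, hi, e⟩ := (mat_mem _).1 hy
    rw [show y = InvolOrthF4.slData.X F (InvolOrthF4.targets.getD i []) from Units.ext e]
    exact (InvolOrthF4.rank_ok F i hi).1
  · have h22 : g * g = 1 := by rw [← pow_two, ← hg2]; exact pow_orderOf_eq_one g
    have h1 : g ≠ 1 := by rintro rfl; rw [orderOf_one] at hg2; omega
    obtain ⟨t, ht, k, hk, e⟩ := InvolOrthF4.slData.classify (F := F) rfl (by decide) InvolOrthF4.steps_ok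
      (fun j hj => hc.1 _ (hget _ j hj)) InvolOrthF4.red_ok (fun i hi => hc.2 _ (hget _ i hi)) hg h22 h1
    obtain ⟨i, hi, ei⟩ := List.getElem_of_mem ht
    have ei' : InvolOrthF4.targets.getD i [] = t := by rw [List.getD_eq_getElem _ _ hi, ei]
    refine ⟨_, ?_, (mat_mem _).2 ⟨i, hi, by rw [ei']⟩, k, hk, e⟩
    rw [← ei']
    exact (InvolOrthF4.rank_ok F i hi).1.1
  · obtain ⟨i, hi, e₁⟩ := (mat_mem _).1 hy₁
    obtain ⟨j, hj, e₂⟩ := (mat_mem _).1 hy₂
    obtain ⟨k, hkG, hk⟩ := h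
    rw [Units.ext e₁, Units.ext e₂] at hk ⊢
    have r1 := InvolOrthF4.slData.rank_conj (F := F)
      (g := InvolOrthF4.slData.X F (InvolOrthF4.targets.getD i [])) (h := k)
    rw [hk, (InvolOrthF4.rank_ok F i hi).2, (InvolOrthF4.rank_ok F j hj).2] at r1
    have r2 := InvolOrthF4.slData.ideal_rank_conj InvolOrthF4.ideal_ok hkG hk
    rw [InvolOrthF4.irank_ok F i hi, InvolOrthF4.irank_ok F j hj] at r2
    rw [keys_inj i hi j hj r1.symm r2.symm]

end Cfsg.Agent.S2174
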