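import Cfsg.Statements.S2175

import Cfsg.Agent.Lib.Chev.InvolOrthE6
import Cfsg.Agent.Lib.Chev.InvolOrthClasses
set_option autoImplicit false
open Cfsg

namespace Cfsg.Agent.S2175


open Cfsg.Agent.Lib.Chev

theorem mat_mem {F : Type*} [Field F] (M : Matrix Cfsg.Lie.chevE6.Idx Cfsg.Lie.chevE6.Idx F) :
    M ∈ [Cfsg.Lie.chevE6.x F 71 1, Cfsg.Lie.chevE6.x F 68 1 * Cfsg.Lie.chevE6.x F 66 1, Cfsg.Lie.chevE6.x F 55 1 * Cfsg.Lie.chevE6.x F 65 1 * Cfsg.Lie.chevE6.x F 67 1] ↔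
      ∃ t ∈ InvolOrthE6.targets, M = (InvolOrthE6.slData.X F t : Matrix _ _ F) := by
  simp [InvolOrthE6.targets, SLData.X, wordMat_cons, wordMat_nil, mul_assoc]


/-- Conjugacy classes of involutions in the Chevalley group of type E₆ over a finite field F of characteristic two (the matrix group generated by the root elements x_r(t)). In this problem's root numbering for type E₆ (the Chevalley data module; fundamental roots numbered so that p₁–p₃–p₄–p₅–p₆ is the long chain of the diagram and p₂ is joined to p₄; roots indexed by their coefficient vectors in increasing order) let r = 71 be the highest root (1,2,2,3,2,1), α = 68 = (1,1,2,2,1,1), β = 66 = (1,1,1,2,2,1), γ = 55 = (0,1,1,2,2,1), δ = 65 = (1,1,1,2,1,1), ε = 67 = (1,1,2,2,1,0) (α ⊥ β and γ, δ, ε pairwise orthogonal); consider x_r(1), x_α(1)x_β(1) and x_γ(1)x_δ(1)x_ε(1). Then: each invertible matrix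 equal to one of these three products lies in the group and has order 2; every element of order 2 of the group is conjugate in the group to one of them; and no two of them are conjugate in the group (so, the three matrices being distinct, the group has exactly three conjugacy classes of involutions). -/
theorem result {F : Type*} [Field F] [Fintype F] [CharP F 2] :
    (∀ y : GL Cfsg.Lie.chevE6.Idx F, ((y : GL Cfsg.Lie.chevE6.Idx F) : Matrix Cfsg.Lie.chevE6.Idx Cfsg.Lie.chevE6.Idx F) ∈ [Cfsg.Lie.chevE6.x F 71 1, Cfsg.Lie.chevE6.x F 68 1 * Cfsg.Lie.chevE6.x F 66 1, Cfsg.Lie.chevE6.x F 55 1 * Cfsg.Lie.chevE6.x F 65 1 * Cfsg.Lie.chevE6.x F 67 1] → y ∈ Cfsg.Lie.chevE6.group F ∧ orderOf y = 2) ∧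
    (∀ g ∈ Cfsg.Lie.chevE6.group F, orderOf g = 2 → ∃ y ∈ Cfsg.Lie.chevE6.group F, ((y : GL Cfsg.Lie.chevE6.Idx F) : Matrix Cfsg.Lie.chevE6.Idx Cfsg.Lie.chevE6.Idx F) ∈ [Cfsg.Lie.chevE6.x F 71 1, Cfsg.Lie.chevE6.x F 68 1 * Cfsg.Lie.chevE6.x F 66 1, Cfsg.Lie.chevE6.x F 55 1 * Cfsg.Lie.chevE6.x F 65 1 * Cfsg.Lie.chevE6.x F 67 1] ∧ ∃ h ∈ Cfsg.Lie.chevE6.group F, h * g * h⁻¹ = y) ∧
    (∀ y₁ ∈ Cfsg.Lie.chevE6.group F, ∀ y₂ ∈ Cfsg.Lie.chevE6.group F, ((y₁ : GL Cfsg.Lie.chevE6.Idx F) : Matrix Cfsg.Lie.chevE6.Idx Cfsg.Lie.chevE6.Idx F) ∈ [Cfsg.Lie.chevE6.x F 71 1, Cfsg.Lie.chevE6.x F 68 1 * Cfsg.Lie.chevE6.x F 66 1, Cfsg.Lie.chevE6.x F 55 1 * Cfsg.Lie.chevE6.x F 65 1 * Cfsg.Lie.chevE6.x F 67 1] → ((y₂ : GL Cfsg.Lie.chevE6.Idx F) : Matrix Cfsg.Lie.chevE6.Idx Cfsg.Lie.chevE6.Idx F) ∈ [Cfsg.Lie.chevE6.x F 71 1, Cfsg.Lie.chevE6.x F 68 1 * Cfsg.Lie.chevE6.x F 66 1, Cfsg.Lie.chevE6.x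 F 55 1 * Cfsg.Lie.chevE6.x F 65 1 * Cfsg.Lie.chevE6.x F 67 1] →
      (∃ h ∈ Cfsg.Lie.chevE6.group F, h * y₁ * h⁻¹ = y₂) → ((y₁ : GL Cfsg.Lie.chevE6.Idx F) : Matrix Cfsg.Lie.chevE6.Idx Cfsg.Lie.chevE6.Idx F) = ((y₂ : GL Cfsg.Lie.chevE6.Idx F) : Matrix Cfsg.Lie.chevE6.Idx Cfsg.Lie.chevE6.Idx F)) := by
  have : Finite F := Finite.of_fintype F
  obtain ⟨h1, h2, h3⟩ := InvolOrthE6.slData.classes (F := F) (ks := [22, 32, 38]) rfl (by decide)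
    InvolOrthE6.steps_ok InvolOrthE6.comm_ok InvolOrthE6.red_ok (InvolOrthE6.rank_ok F)
    (by decide)
  refine ⟨fun y hy => ?_, fun g hg hg2 => ?_, fun y₁ _ y₂ _ hy₁ hy₂ h => ?_⟩
  · obtain ⟨t, ht, e⟩ := (mat_mem _).1 hy
    rw [show y = InvolOrthE6.slData.X F t from Units.ext e]
    exact h1 t ht
  · obtain ⟨t, ht, k, hk, e⟩ := h2 g hg hg2
    exact ⟨_, (h1 t ht).1, (mat_mem _).2 ⟨t, ht, rfl⟩, k, hk, e⟩
  · obtain ⟨t₁, ht₁, e₁⟩ := (mat_mem _).1 hy₁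
    obtain ⟨t₂, ht₂, e₂⟩ := (mat_mem _).1 hy₂
    obtain ⟨k, -, hk⟩ := h
    rw [Units.ext e₁, Units.ext e₂] at hk ⊢
    rw [h3 t₁ ht₁ t₂ ht₂ k hk]

end Cfsg.Agent.S2175
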