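import Cfsg.Statements.S2180

import Cfsg.Agent.Lib.Chev.RootCent
import Cfsg.Agent.Lib.Chev.Data.G2
set_option autoImplicit false
open Cfsg

namespace Cfsg.Agent.S2180

open Cfsg.Lie Cfsg.Agent.Lib.Chev

theorem chkW : (G2.fast.abCheck [11] && G2.fast.fixCheck [11] [11] &&
    G2.fast.stabCheck [(11, 1)] [0] &&
    G2.fast.torCheck [11] [0] [[], [1]] &&
    G2.fast.centCheck [11] [0]) = true := by
  decide +kernel

/-- the roots of the support of the conjugates of `x_9(1)` -/
def three : List ℕ := [9, 10, 11]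

theorem chkT : (G2.fast.abCheck three && G2.fast.fixCheck [9] three &&
    G2.fast.stabCheck [(9, 1)] [1] && G2.fast.torCheck [9] [1] [[1], []] &&
    G2.fast.evenC 11 9 && G2.fast.evenC 10 9 && G2.fast.evenC 6 9 && G2.fast.evenC 5 9 &&
    G2.fast.evenC 7 11 && G2.fast.evenC 6 11 &&
    G2.fast.oneC 8 9 11 && G2.fast.oneC 7 9 10 && G2.fast.oneC 6 10 11) = true := by
  decide +kernel

theorem levi_roots : ∀ r < 12, chevG2.IsPosRoot r → G2.fast.cf r 0 = 0 → r = 6 := by
  decide +kernel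

theorem pos_roots : chevG2.posRoots = [6, 7, 8, 9, 10, 11] := by decide +kernel

section
variable {F : Type*} [Field F] [CharP F 2] (C : Checked chevG2 G2.fast)

/-- the elements of the orbit of `x_9(1)` under `U` -/
def orb (a b : F) : GL chevG2.Idx F := C.xg 9 1 * C.xg 10 a * C.xg 11 b

theorem conj_orbit {u : GL chevG2.Idx F} (hu : u ∈ chevG2.posUnipotent F) :
    ∃ t : ℕ → F, u = C.wg ([6, 7, 8, 9, 10, 11].map fun r => (r, t r)) ∧
      u * C.xg 9 1 * u⁻¹ = orb C (t 7) (t 6 * t 7 + t 8) := by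
  rw [posUnipotent_eq] at hu
  obtain ⟨t, hut⟩ := C.exists_ordered C.closedSet_pos hu
  rw [← C.posRoots_eq, pos_roots] at hut
  refine ⟨t, hut, ?_⟩
  have h := chkT
  simp only [Bool.and_eq_true] at h
  obtain ⟨⟨⟨⟨⟨⟨⟨⟨⟨⟨⟨⟨-, -⟩, -⟩, -⟩, e119⟩, e109⟩, e69⟩, -⟩, e711⟩, e611⟩, o8⟩, o7⟩, o6⟩ := h
  have cE : ∀ (r s : ℕ) (x y : F), G2.fast.evenC r s = true → r < 12 → s < 12 → s ≠ chevG2.neg r →
      MulAut.conj (C.xg r x) (C.xg s y) = C.xg s y := by
    intro r s x y h hr hs hne
    rw [MulAut.conj_apply, (C.comm_of_even hr hs hne h x y).eq, mul_inv_cancel_right]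
  have cO : ∀ (r s c : ℕ) (x y : F), G2.fast.oneC r s c = true → r < 12 → s < 12 → s ≠ r →
      s ≠ chevG2.neg r → MulAut.conj (C.xg r x) (C.xg s y) = C.xg s y * C.xg c (x * y) := by
    intro r s c x y h hr hs hne hneg
    rw [MulAut.conj_apply, C.conj_of_one hr hs hne hneg h x y]
  have hsplit : u = C.xg 6 (t 6) * C.xg 7 (t 7) * C.xg 8 (t 8) * C.xg 9 (t 9) * C.xg 10 (t 10) *
      C.xg 11 (t 11) := by
    rw [hut]
    simp only [List.map_cons, List.map_nil, C.wg_cons, C.wg_nil, mul_one, mul_assoc]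
  have h12 : chevG2.nroots = 12 := C.tables.nroots
  have s1 : MulAut.conj (C.xg 11 (t 11)) (C.xg 9 1) = C.xg 9 1 :=
    cE 11 9 _ _ e119 (by omega) (by omega) (by decide +kernel)
  have s2 : MulAut.conj (C.xg 10 (t 10)) (C.xg 9 1) = C.xg 9 1 :=
    cE 10 9 _ _ e109 (by omega) (by omega) (by decide +kernel)
  have s3 : MulAut.conj (C.xg 9 (t 9)) (C.xg 9 1) = C.xg 9 1 := by
    rw [MulAut.conj_apply, C.xg_add (show 9 < chevG2.nroots by omega), add_comm,
      ← C.xg_add (show 9 < chevG2.nroots by omega), mul_inv_cancel_right]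
  have s4 : MulAut.conj (C.xg 8 (t 8)) (C.xg 9 1) = C.xg 9 1 * C.xg 11 (t 8) := by
    rw [cO 8 9 11 _ _ o8 (by omega) (by omega) (by omega) (by decide +kernel), mul_one]
  have s5 : MulAut.conj (C.xg 7 (t 7)) (C.xg 9 1 * C.xg 11 (t 8)) =
      C.xg 9 1 * C.xg 10 (t 7) * C.xg 11 (t 8) := by
    rw [map_mul, cO 7 9 10 _ _ o7 (by omega) (by omega) (by omega) (by decide +kernel),
      cE 7 11 _ _ e711 (by omega) (by omega) (by decide +kernel), mul_one]
  have s6 : MulAut.conj (C.xg 6 (t 6)) (C.xg 9 1 * C.xg 10 (t 7) * C.xg 11 (t 8)) =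
      orb C (t 7) (t 6 * t 7 + t 8) := by
    rw [map_mul, map_mul, cE 6 9 _ _ e69 (by omega) (by omega) (by decide +kernel),
      cE 6 11 _ _ e611 (by omega) (by omega) (by decide +kernel),
      cO 6 10 11 _ _ o6 (by omega) (by omega) (by omega) (by decide +kernel), orb,
      ← C.xg_add (show 11 < chevG2.nroots by omega)]
    simp only [mul_assoc]
  rw [← MulAut.conj_apply]
  conv_lhs => rw [hsplit]
  simp only [map_mul (MulAut.conj (G := GL chevG2.Idx F)), MulAut.mul_apply]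
  rw [s1, s2, s3, s4, s5, s6]

theorem orb_eq (a b : F) : orb C a b = C.wg (three.map fun r => (r,
    if r = 10 then a else if r = 11 then b else 1)) := by
  simp [orb, three, C.wg_cons, C.wg_nil, mul_assoc]

theorem fix_mem {K : Subgroup (GL chevG2.Idx F)} (hK : ∀ r ∈ [6, 5, 9, 10, 11], ∀ x : F, C.xg r x ∈ K)
    {u : GL chevG2.Idx F} (hu : u ∈ chevG2.posUnipotent F)
    (h : u * C.xg 9 1 * u⁻¹ = C.xg 9 1) : u ∈ K := by
  obtain ⟨t, hut, e⟩ := conj_orbit C hu
  rw [e, orb_eq] at h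
  have hv : C.xg 9 1 = C.wg (three.map fun r => (r,
      if r = 10 then (0 : F) else if r = 11 then 0 else 1)) := by
    simp [three, C.wg_cons, C.wg_nil, C.xg_zero]
  rw [hv] at h
  have hpos : ∀ r ∈ three, chevG2.IsPosRoot r := by decide +kernel
  have hco := C.ordered_inj three (by simp [three]) hpos _ _ h
  have h7 : t 7 = 0 := by simpa using hco 10 (by simp [three])
  have h8 : t 8 = 0 := by simpa [h7] using hco 11 (by simp [three])
  rw [hut]
  refine Subgroup.list_prod_mem _ fun x hx => ?_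
  obtain ⟨p, hp, rfl⟩ := List.mem_map.1 hx
  obtain ⟨r, hr, rfl⟩ := List.mem_map.1 hp
  simp only [List.mem_cons, List.not_mem_nil, or_false] at hr
  rcases hr with rfl | rfl | rfl | rfl | rfl | rfl
  · exact hK 6 (by simp) _
  · simp [h7, C.xg_zero]
  · simp [h8, C.xg_zero]
  all_goals exact hK _ (by simp) _

end

/-- Centralizers of involutions in the Chevalley group G of type G₂ over a finite field F of characteristic two with at least four elements (this problem's root numbering for type G₂, from the Chevalley data module: a = p₁ short with index 7, b = p₂ long with index 6, −a = 4, −b = 5, 2a + b = 9, 3a + b = 10, 3a + 2b = 11; U generated by the positive root subgroups). For an element z of G with matrix x_{3a+2b}(1): the centralizer of z in G is generated by U and X_{−a}. For an element t of G with matrix x_{2a+b}(1): the centralizer of t in G is generated by X_{2a+b}, X_{3a+b}, X_{3a+2b}, X_b and X_{−b}. -/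
theorem result {F : Type*} [Field F] [Fintype F] [CharP F 2] (hF : 4 ≤ Fintype.card F) (z t : GL Cfsg.Lie.chevG2.Idx F) (hz : (z : Matrix Cfsg.Lie.chevG2.Idx Cfsg.Lie.chevG2.Idx F) = Cfsg.Lie.chevG2.x F 11 1) (ht : (t : Matrix Cfsg.Lie.chevG2.Idx Cfsg.Lie.chevG2.Idx F) = Cfsg.Lie.chevG2.x F 9 1) :
    Cfsg.Lie.chevG2.group F ⊓ Subgroup.centralizer {z} = Cfsg.Lie.chevG2.posUnipotent F ⊔ Cfsg.Lie.chevG2.rootSubgroup F 4 ∧
    Cfsg.Lie.chevG2.group F ⊓ Subgroup.centralizer {t} = Cfsg.Lie.chevG2.rootSubgroup F 9 ⊔ Cfsg.Lie.chevG2.rootSubgroup F 10 ⊔ Cfsg.Lie.chevG2.rootSubgroup F 11 ⊔ Cfsg.Lie.chevG2.rootSubgroup F 6 ⊔ Cfsg.Lie.chevG2.rootSubgroup F 5 := by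
  have C : Checked chevG2 G2.fast := G2.checked
  refine ⟨?_, ?_⟩
  · have h := chkW
    simp only [Bool.and_eq_true] at h
    obtain ⟨⟨⟨⟨hab, hfix⟩, hst⟩, hM⟩, hc⟩ := h
    have hy : C.wg ([11].map fun r => (r, (1 : F))) = z := by
      simp only [List.map_cons, List.map_nil, C.wg_cons, C.wg_nil, mul_one]
      exact Units.ext (by rw [hz, C.val_xg])
    rw [← hy, rootSubgroup_eq]
    refine C.central_cent (by simp) hab hfix hst hM hc (by simp) ?_
    congr 1
    refine le_antisymm (grp_mono ?_) (C.grp_le ?_)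
    · rintro s rfl; exact ⟨0, by simp, rfl⟩
    · rintro s ⟨j, hj, rfl⟩ x
      simp only [List.mem_cons, List.not_mem_nil, or_false] at hj
      subst hj
      exact C.xg_mem (S := {4}) rfl x
  have ht' : t = C.xg 9 1 := Units.ext (by rw [ht, C.val_xg])
  set K := chevG2.rootSubgroup F 9 ⊔ chevG2.rootSubgroup F 10 ⊔ chevG2.rootSubgroup F 11 ⊔
    chevG2.rootSubgroup F 6 ⊔ chevG2.rootSubgroup F 5 with hKdef
  have hK : ∀ r ∈ [6, 5, 9, 10, 11], ∀ x : F, C.xg r x ∈ K := by
    intro r hr x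
    have hx : C.xg r x ∈ chevG2.rootSubgroup F r := Subgroup.subset_closure ⟨x, rfl⟩
    simp only [List.mem_cons, List.not_mem_nil, or_false] at hr
    rcases hr with rfl | rfl | rfl | rfl | rfl
    · exact Subgroup.mem_sup_left (Subgroup.mem_sup_right hx)
    · exact Subgroup.mem_sup_right hx
    · exact Subgroup.mem_sup_left (Subgroup.mem_sup_left (Subgroup.mem_sup_left (Subgroup.mem_sup_left hx)))
    · exact Subgroup.mem_sup_left (Subgroup.mem_sup_left (Subgroup.mem_sup_left (Subgroup.mem_sup_right hx)))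
    · exact Subgroup.mem_sup_left (Subgroup.mem_sup_left (Subgroup.mem_sup_right hx))
  have hKle : K ≤ chevG2.group F ⊓ Subgroup.centralizer {t} := by
    have hmem : ∀ r ∈ [6, 5, 9, 10, 11], ∀ x : F, C.xg r x ∈ chevG2.group F ⊓ Subgroup.centralizer {t} := by
      intro r hr x
      have hb : ∀ r ∈ [6, 5, 10, 11], r < 12 ∧ 9 ≠ chevG2.neg r ∧ G2.fast.evenC r 9 = true := by
        decide +kernel
      have h12 : chevG2.nroots = 12 := C.tables.nroots
      have hr12 : r < chevG2.nroots := by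
        simp only [List.mem_cons, List.not_mem_nil, or_false] at hr
        rcases hr with rfl | rfl | rfl | rfl | rfl <;> omega
      refine Subgroup.mem_inf.2 ⟨C.xg_mem_group hr12 x, Subgroup.mem_centralizer_singleton_iff.2 ?_⟩
      rw [ht']
      by_cases h9 : r = 9
      · subst h9
        rw [C.xg_add hr12, C.xg_add hr12, add_comm]
      · obtain ⟨h1, h2, h3⟩ := hb r (by
          simp only [List.mem_cons, List.not_mem_nil, or_false] at hr ⊢
          tauto)
        exact (C.comm_of_even (by omega) (show 9 < chevG2.nroots by omega) h2 h3 x 1).eq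
    rw [hKdef, rootSubgroup_eq, rootSubgroup_eq, rootSubgroup_eq, rootSubgroup_eq, rootSubgroup_eq]
    refine sup_le (sup_le (sup_le (sup_le ?_ ?_) ?_) ?_) ?_
    all_goals exact C.grp_le fun r hr x => hmem r (by rw [Set.mem_singleton_iff] at hr; simp [hr]) x
  refine le_antisymm (fun g hg => ?_) hKle
  obtain ⟨hgG, hgc⟩ := Subgroup.mem_inf.1 hg
  rw [Subgroup.mem_centralizer_singleton_iff] at hgc
  obtain ⟨b, hb, n, hn, u, hu, rfl⟩ := C.exists_bnu hgG
  obtain ⟨v₀, hv₀, h, hh, rfl⟩ := C.mem_borel.1 hb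
  have huU : u ∈ chevG2.posUnipotent F := by
    rw [posUnipotent_eq]; exact grp_mem_mono hu fun r hr => hr.1
  have hc := chkT
  simp only [Bool.and_eq_true] at hc
  obtain ⟨⟨⟨⟨⟨⟨⟨⟨⟨⟨⟨⟨hab, hfix⟩, hst⟩, hM⟩, -⟩, -⟩, -⟩, -⟩, -⟩, -⟩, -⟩, -⟩, -⟩ := hc
  obtain ⟨a, -, et⟩ := conj_orbit C huU
  obtain ⟨s, -, es⟩ := conj_orbit C (inv_mem hv₀)
  rw [← ht', orb_eq] at et es
  rw [inv_inv] at es
  obtain ⟨χ, hχ, eh⟩ := C.exists_chr (inv_mem hh)
  have hthree : ∀ r ∈ three, chevG2.IsPosRoot r := by decide +kernel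
  have hlt : ∀ w : ℕ → F, ∀ p ∈ three.map (fun r => (r, w r)), p.1 < chevG2.nroots := by
    intro w p hp
    obtain ⟨r, hr, rfl⟩ := List.mem_map.1 hp
    exact (hthree r hr).1
  have hmid : n * (u * t * u⁻¹) * n⁻¹ = h⁻¹ * (v₀⁻¹ * t * v₀) * h⁻¹⁻¹ := by
    calc n * (u * t * u⁻¹) * n⁻¹
        = (v₀ * h)⁻¹ * (v₀ * h * n * u * t) * (v₀ * h * n * u)⁻¹ * (v₀ * h) := by group
      _ = (v₀ * h)⁻¹ * (t * (v₀ * h * n * u)) * (v₀ * h * n * u)⁻¹ * (v₀ * h) := by rw [hgc]
      _ = _ := by group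
  rw [et, es, C.diag_conj_wg hχ eh _ (hlt _), List.map_map] at hmid
  have himg := C.coords_image (by simp [three]) hab hn _ _ hmid
  have hfix' := C.fix_of_check (R := [9]) (by decide +kernel) hfix hn fun r hr => by
    simp only [List.mem_cons, List.not_mem_nil, or_false] at hr
    subst hr
    exact (himg _ (by simp [three]) (by simp)).1
  obtain ⟨⟨h', hh', w', hw', rfl⟩, hcoef⟩ := C.mem_of_stab (R := [(9, (1 : ℤ))]) (J := [1])
    (by decide +kernel) hst hn (by
      intro p hp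
      simp only [List.mem_cons, List.not_mem_nil, or_false] at hp
      subst hp
      exact hfix' 9 (by simp))
  have huK : u ∈ K := by
    have hle : grp chevG2 F (C.inv (h' * w')) ≤ K := C.grp_le fun r hr x => by
      obtain ⟨hp, hneg⟩ := hr
      have h2 : chevG2.rank = 2 := C.tables.rank
      have hz : G2.fast.cf r 0 = 0 := by
        have h1 := C.coef_nonneg hp (j := 0) (by omega)
        have h3 := C.coef_nonneg ((C.neg_pos_iff (C.sg_lt hn hp.1)).2 hneg) (j := 0) (by omega)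
        rw [C.root.coef_neg (C.sg_lt hn hp.1) (by omega), hcoef r hp.1 0 (by omega) (by simp)] at h3
        simp only [Fast.aux] at h1 h3
        omega
      have h12 : chevG2.nroots = 12 := C.tables.nroots
      obtain rfl := levi_roots r (h12 ▸ hp.1) hp hz
      exact hK 6 (by simp) x
    exact hle hu
  have hKj : ∀ j ∈ ([1] : List ℕ), ∀ x : F, C.xg (chevG2.simple j) x ∈ K ∧
      C.xg (chevG2.neg (chevG2.simple j)) x ∈ K := by
    intro j hj x
    have hs : ∀ j ∈ ([1] : List ℕ), chevG2.simple j ∈ [6, 5, 9, 10, 11] ∧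
        chevG2.neg (chevG2.simple j) ∈ [6, 5, 9, 10, 11] := by decide +kernel
    exact ⟨hK _ (hs j hj).1 x, hK _ (hs j hj).2 x⟩
  have hwK := C.closure_ng_le hKj hw'
  set d := h * h' with hd
  have hdv : v₀ * d ∈ Subgroup.centralizer {t} := by
    have := mul_mem (mul_mem (Subgroup.mem_centralizer_singleton_iff.2 hgc)
      (inv_mem (Subgroup.mem_inf.1 (hKle huK)).2)) (inv_mem (Subgroup.mem_inf.1 (hKle hwK)).2)
    convert this using 1
    rw [hd]; group
  have hdd : d ∈ chevG2.diagonalSubgroup F := mul_mem hh hh'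
  obtain ⟨ψ, hψ, eψ⟩ := C.exists_chr hdd
  have hconj : d * t * d⁻¹ = v₀⁻¹ * t * v₀ := by
    have := Subgroup.mem_centralizer_singleton_iff.1 hdv
    calc d * t * d⁻¹ = v₀⁻¹ * (v₀ * d * t) * d⁻¹ := by group
      _ = v₀⁻¹ * (t * (v₀ * d)) * d⁻¹ := by rw [this]
      _ = _ := by group
  have ht3 : t = C.wg (three.map fun r => (r,
      if r = 10 then (0 : F) else if r = 11 then 0 else 1)) := by
    rw [ht']; simp [three, C.wg_cons, C.wg_nil, C.xg_zero]
  have hψ1 : ψ 9 = 1 := by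
    have h1 := hconj
    rw [es] at h1
    rw [ht3, C.diag_conj_wg hψ eψ _ (hlt _), List.map_map] at h1
    have hco := C.ordered_inj three (by simp [three]) hthree _ _ h1
    simpa using hco 9 (by simp [three])
  have hdK : d ∈ K := C.diag_mem_of hKj (by decide +kernel) hM hdd fun r hr => by
    simp only [List.mem_cons, List.not_mem_nil, or_false] at hr
    subst hr
    rw [C.diag_xg hψ eψ (by decide +kernel)]
    simp [hψ1]
  have hvK : v₀ ∈ K := by
    refine fix_mem C hK hv₀ ?_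
    rw [← ht']
    have h1 : v₀ ∈ Subgroup.centralizer {t} := by
      simpa using mul_mem hdv (inv_mem (Subgroup.mem_inf.1 (hKle hdK)).2)
    rw [Subgroup.mem_centralizer_singleton_iff.1 h1, mul_inv_cancel_right]
  have := mul_mem (mul_mem (mul_mem hvK hdK) hwK) huK
  convert this using 1
  rw [hd]; group

end Cfsg.Agent.S2180
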