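import Cfsg.Statements.S2177

import Cfsg.Agent.Lib.Chev.G2EvenInvol
import Cfsg.Agent.S2180
set_option autoImplicit false
open Cfsg

namespace Cfsg.Agent.S2177

open Cfsg.Lie Cfsg.Agent.Lib.Chev

theorem not_conj {F : Type*} [Field F] [CharP F 2] {h : GL chevG2.Idx F} (hh : h ∈ chevG2.group F) :
    h * G2Even.C.xg 9 (1 : F) * h⁻¹ ≠ G2Even.C.xg 11 1 := by
  intro heq
  set C := G2Even.C
  obtain ⟨b, hb, n, hn, u, hu, rfl⟩ := C.exists_bnu hh
  obtain ⟨v₀, hv₀, d, hd, rfl⟩ := C.mem_borel.1 hb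
  have huU : u ∈ chevG2.posUnipotent F := by
    rw [posUnipotent_eq]; exact grp_mem_mono hu fun r hr => hr.1
  have hc := Cfsg.Agent.S2180.chkT
  simp only [Bool.and_eq_true] at hc
  obtain ⟨⟨⟨⟨⟨⟨⟨⟨⟨⟨⟨⟨hab, -⟩, -⟩, -⟩, -⟩, -⟩, -⟩, -⟩, -⟩, -⟩, -⟩, -⟩, -⟩ := hc
  obtain ⟨a, -, et⟩ := Cfsg.Agent.S2180.conj_orbit C huU
  -- the top root element commutes with `U`
  have hv : v₀⁻¹ * C.xg 11 (1 : F) * v₀ = C.xg 11 1 := by
    have key : ∀ v ∈ chevG2.posUnipotent F, C.xg 11 (1 : F) * v = v * C.xg 11 1 := by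
      intro v hv
      rw [posUnipotent_eq] at hv
      have hle : grp chevG2 F {r | chevG2.IsPosRoot r} ≤ Subgroup.centralizer {C.xg 11 (1 : F)} := by
        refine C.grp_le fun r hr t => Subgroup.mem_centralizer_singleton_iff.2 ?_
        have hpos : ∀ r < 12, chevG2.IsPosRoot r → r = 11 ∨ r ∈ [6, 7, 8, 9, 10] := by decide +kernel
        have hr12 : r < 12 := by rw [← G2Odd.nroots_eq]; exact hr.1
        rcases hpos r hr12 hr with rfl | h
        · rw [C.xg_add hr.1, C.xg_add hr.1, add_comm]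
        · exact G2Even.central_eleven h t 1
      exact (Subgroup.mem_centralizer_singleton_iff.1 (hle hv)).symm
    rw [mul_assoc, key v₀ hv₀, inv_mul_cancel_left]
  have hmid : n * (u * C.xg 9 1 * u⁻¹) * n⁻¹ = d⁻¹ * C.xg 11 1 * d⁻¹⁻¹ := by
    calc n * (u * C.xg 9 1 * u⁻¹) * n⁻¹
        = d⁻¹ * (v₀⁻¹ * (v₀ * d * n * u * C.xg 9 1 * (v₀ * d * n * u)⁻¹) * v₀) * d := by group
      _ = _ := by rw [heq, hv, inv_inv]
  obtain ⟨χ, hχ, eχ⟩ := C.exists_chr (inv_mem hd)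
  rw [et, Cfsg.Agent.S2180.orb_eq, C.conj_xg_of_dg hχ eχ (G2Even.lt_nroots (by omega)),
    show C.xg 11 (χ 11 * 1) = C.wg (Cfsg.Agent.S2180.three.map fun r => (r,
      if r = 11 then χ 11 * 1 else 0)) by
        simp [Cfsg.Agent.S2180.three, C.wg_cons, C.wg_nil, C.xg_zero]] at hmid
  have himg := C.coords_image (by simp [Cfsg.Agent.S2180.three]) hab hn _ _ hmid 9
    (by simp [Cfsg.Agent.S2180.three]) (by simp)
  have hsg : C.sg n 9 = 11 := by
    by_contra hne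
    exact himg.2 (if_neg hne)
  -- a short root does not go to a long one
  have h9 : 9 < chevG2.nroots := G2Even.lt_nroots (by omega)
  have h10 : 10 < chevG2.nroots := G2Even.lt_nroots (by omega)
  have hp : pair chevG2 (C.sg n 9) (C.sg n 10) = pair chevG2 9 10 := C.pair_sg hn h9 h10
  rw [hsg, ← C.pr_eq h9 h10, ← C.pr_eq (G2Even.lt_nroots (show 11 < 12 by omega)) (C.sg_lt hn h10)] at hp
  have hq : pair chevG2 (C.sg n 10) (C.sg n 9) = pair chevG2 10 9 := C.pair_sg hn h10 h9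
  rw [hsg, ← C.pr_eq h10 h9, ← C.pr_eq (C.sg_lt hn h10) (G2Even.lt_nroots (show 11 < 12 by omega))] at hq
  have hno : ∀ y < 12, ¬(G2.fast.pr 11 y = G2.fast.pr 9 10 ∧ G2.fast.pr y 11 = G2.fast.pr 10 9) := by
    decide +kernel
  exact hno _ (by rw [← G2Odd.nroots_eq]; exact C.sg_lt hn h10) ⟨hp, hq⟩

/-- Conjugacy classes of involutions in the Chevalley group of type G₂ over a finite field F of characteristic two with at least four elements (the matrix group generated by the root elements x_r(t)). In this problem's root numbering for type G₂ (the Chevalley data module; p₁ = a short, p₂ = b long; roots indexed by coefficient vectors in increasing order) let 11 be the highest root 3a + 2b (long) and 9 the short root 2a + b; consider x_{3a+2b}(1) and x_{2a+b}(1). Then: each invertible matrix equal to one of these two products lies in the group and has order 2; every element of order 2 of the group is conjugate in the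 group to one of them; and no two of them are conjugate in the group (so, the two matrices being distinct, the group has exactly two conjugacy classes of involutions). -/
theorem result {F : Type*} [Field F] [Fintype F] [CharP F 2] (hF : 4 ≤ Fintype.card F) :
    (∀ y : GL Cfsg.Lie.chevG2.Idx F, ((y : GL Cfsg.Lie.chevG2.Idx F) : Matrix Cfsg.Lie.chevG2.Idx Cfsg.Lie.chevG2.Idx F) ∈ [Cfsg.Lie.chevG2.x F 11 1, Cfsg.Lie.chevG2.x F 9 1] → y ∈ Cfsg.Lie.chevG2.group F ∧ orderOf y = 2) ∧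
    (∀ g ∈ Cfsg.Lie.chevG2.group F, orderOf g = 2 → ∃ y ∈ Cfsg.Lie.chevG2.group F, ((y : GL Cfsg.Lie.chevG2.Idx F) : Matrix Cfsg.Lie.chevG2.Idx Cfsg.Lie.chevG2.Idx F) ∈ [Cfsg.Lie.chevG2.x F 11 1, Cfsg.Lie.chevG2.x F 9 1] ∧ ∃ h ∈ Cfsg.Lie.chevG2.group F, h * g * h⁻¹ = y) ∧
    (∀ y₁ ∈ Cfsg.Lie.chevG2.group F, ∀ y₂ ∈ Cfsg.Lie.chevG2.group F, ((y₁ : GL Cfsg.Lie.chevG2.Idx F) : Matrix Cfsg.Lie.chevG2.Idx Cfsg.Lie.chevG2.Idx F) ∈ [Cfsg.Lie.chevG2.x F 11 1, Cfsg.Lie.chevG2.x F 9 1] → ((y₂ : GL Cfsg.Lie.chevG2.Idx F) : Matrix Cfsg.Lie.chevG2.Idx Cfsg.Lie.chevG2.Idx F) ∈ [Cfsg.Lie.chevG2.x F 11 1, Cfsg.Lie.chevG2.x F 9 1] →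
      (∃ h ∈ Cfsg.Lie.chevG2.group F, h * y₁ * h⁻¹ = y₂) → ((y₁ : GL Cfsg.Lie.chevG2.Idx F) : Matrix Cfsg.Lie.chevG2.Idx Cfsg.Lie.chevG2.Idx F) = ((y₂ : GL Cfsg.Lie.chevG2.Idx F) : Matrix Cfsg.Lie.chevG2.Idx Cfsg.Lie.chevG2.Idx F)) := by
  set C := G2Even.C
  have hv : ∀ r, chevG2.x F r 1 = ((C.xg r (1 : F) : GL chevG2.Idx F) : Matrix chevG2.Idx chevG2.Idx F) :=
    fun r => (C.val_xg r 1).symm
  have hy : ∀ y : GL chevG2.Idx F, ((y : GL chevG2.Idx F) : Matrix chevG2.Idx chevG2.Idx F) ∈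
      [chevG2.x F 11 1, chevG2.x F 9 1] → y = C.xg 11 1 ∨ y = C.xg 9 1 := by
    intro y hy
    simp only [List.mem_cons, List.not_mem_nil, or_false, hv] at hy
    exact hy.imp (fun h => Units.ext h) fun h => Units.ext h
  refine ⟨fun y hy' => ?_, fun g hg ho => ?_, fun y₁ h₁ y₂ h₂ hy₁ hy₂ hc => ?_⟩
  · have hne : ∀ r, r < 12 → C.xg r (1 : F) ≠ 1 := fun r hr e =>
      one_ne_zero (C.xg_eq_one (G2Even.lt_nroots hr) e)
    rcases hy y hy' with rfl | rfl
    · exact ⟨G2Even.xg_mem' (by omega) 1, orderOf_eq_prime (by rw [pow_two]; exact G2Even.xg_sq (by omega) 1) (hne 11 (by omega))⟩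
    · exact ⟨G2Even.xg_mem' (by omega) 1, orderOf_eq_prime (by rw [pow_two]; exact G2Even.xg_sq (by omega) 1) (hne 9 (by omega))⟩
  · have h2 : g * g = 1 := by
      have := pow_orderOf_eq_one g
      rwa [ho, pow_two] at this
    have hne : g ≠ 1 := fun e => by rw [e, orderOf_one] at ho; omega
    obtain ⟨h, hh, e | e⟩ := G2Even.cls_of_group hg h2 hne
    · exact ⟨_, G2Even.xg_mem' (show 11 < 12 by omega) 1, by rw [← hv]; simp, h, hh, e⟩
    · exact ⟨_, G2Even.xg_mem' (show 9 < 12 by omega) 1, by rw [← hv]; simp, h, hh, e⟩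
  · obtain ⟨h, hh, e⟩ := hc
    rcases hy y₁ hy₁ with rfl | rfl <;> rcases hy y₂ hy₂ with rfl | rfl
    · rfl
    · refine absurd ?_ (not_conj (inv_mem hh))
      rw [← e]; group
    · exact absurd e (not_conj hh)
    · rfl

end Cfsg.Agent.S2177
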