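import Cfsg.Statements.S2178

import Cfsg.Agent.Lib.Chev.RootCent
import Cfsg.Agent.Lib.Chev.Data.F4
set_option autoImplicit false
open Cfsg

namespace Cfsg.Agent.S2178

open Cfsg.Lie Cfsg.Agent.Lib.Chev

theorem chkT : (F4.fast.abCheck [47] && F4.fast.fixCheck [47] [47] && F4.fast.stabCheck [(47, 1)] [0, 1, 2] &&
    F4.fast.torCheck [47] [0, 1, 2] [[], [], [], [1]] && F4.fast.centCheck [47] [0, 1, 2]) = true := by
  decide +kernel

theorem chkU : (F4.fast.abCheck [44] && F4.fast.fixCheck [44] [44] && F4.fast.stabCheck [(44, 1)] [1, 2, 3] &&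
    F4.fast.torCheck [44] [1, 2, 3] [[1], [], [], []] && F4.fast.centCheck [44] [1, 2, 3]) = true := by
  decide +kernel

theorem grp_three {F : Type*} [Field F] (D : ChevalleyDatum) (a b c : ℕ) :
    D.rootSubgroup F a ⊔ D.rootSubgroup F b ⊔ D.rootSubgroup F c =
      grp D F {s | s = a ∨ s = b ∨ s = c} := by
  rw [rootSubgroup_eq, rootSubgroup_eq, rootSubgroup_eq]
  refine le_antisymm (sup_le (sup_le (grp_mono ?_) (grp_mono ?_)) (grp_mono ?_)) ?_
  · intro s hs; exact Or.inl hs
  · intro s hs; exact Or.inr (Or.inl hs)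
  · intro s hs; exact Or.inr (Or.inr hs)
  · refine (Subgroup.closure_le _).2 ?_
    rintro g ⟨s, hs, t, ht⟩
    rcases hs with rfl | rfl | rfl
    · exact Subgroup.mem_sup_left (Subgroup.mem_sup_left (Subgroup.subset_closure ⟨s, rfl, t, ht⟩))
    · exact Subgroup.mem_sup_left (Subgroup.mem_sup_right (Subgroup.subset_closure ⟨s, rfl, t, ht⟩))
    · exact Subgroup.mem_sup_right (Subgroup.subset_closure ⟨s, rfl, t, ht⟩)

/-- Centralizers of the long and the short root involutions in the Chevalley group G of type F₄ over a finite field F of characteristic two (this problem's root numbering for type F₄, from the Chevalley data module: fundamental roots p₁, p₂ short, p₃, p₄ long, with indices 33, 27, 25, 24, their negatives 14, 20, 22, 23; highest root 47, highest short root 44; U the subgroup generated by the positive root subgroups). For an element t of G with matrix x_47(1): the centralizer of t in G is the subgroup generated by U and the root subgroups X_{−p₁}, X_{−p₂}, X_{−p₃} (the unipotent radical of the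 maximal parabolic subgroup whose Levi factor has fundamental roots p₁, p₂, p₃, together with that Levi factor's root subgroups; the Levi factor is of type C₃). For an element u of G with matrix x_44(1): the centralizer of u in G is generated by U and X_{−p₂}, X_{−p₃}, X_{−p₄} (the same construction for the Levi factor with fundamental roots p₂, p₃, p₄, of type B₃). -/
theorem result {F : Type*} [Field F] [Fintype F] [CharP F 2] (t u : GL Cfsg.Lie.chevF4.Idx F) (ht : (t : Matrix Cfsg.Lie.chevF4.Idx Cfsg.Lie.chevF4.Idx F) = Cfsg.Lie.chevF4.x F 47 1) (hu : (u : Matrix Cfsg.Lie.chevF4.Idx Cfsg.Lie.chevF4.Idx F) = Cfsg.Lie.chevF4.x F 44 1) :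
    Cfsg.Lie.chevF4.group F ⊓ Subgroup.centralizer {t} = Cfsg.Lie.chevF4.posUnipotent F ⊔ Cfsg.Lie.chevF4.rootSubgroup F 14 ⊔ Cfsg.Lie.chevF4.rootSubgroup F 20 ⊔ Cfsg.Lie.chevF4.rootSubgroup F 22 ∧
    Cfsg.Lie.chevF4.group F ⊓ Subgroup.centralizer {u} = Cfsg.Lie.chevF4.posUnipotent F ⊔ Cfsg.Lie.chevF4.rootSubgroup F 20 ⊔ Cfsg.Lie.chevF4.rootSubgroup F 22 ⊔ Cfsg.Lie.chevF4.rootSubgroup F 23 := by
  have C : Checked chevF4 F4.fast := F4.checked
  refine ⟨?_, ?_⟩
  · have h := chkT
    simp only [Bool.and_eq_true] at h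
    obtain ⟨⟨⟨⟨hab, hfix⟩, hst⟩, hM⟩, hc⟩ := h
    have hy : C.wg ([47].map fun r => (r, (1 : F))) = t :=
      Units.ext (by rw [ht]; simp [C.wg_cons, C.wg_nil])
    rw [← hy, sup_assoc, sup_assoc, ← sup_assoc (chevF4.rootSubgroup F 14), grp_three]
    refine C.central_cent (by simp) hab hfix hst hM hc (by simp) ?_
    congr 2
    ext s
    simp only [List.mem_cons, List.not_mem_nil, or_false, exists_eq_or_imp, exists_eq_left]
    rfl
  · have h := chkU
    simp only [Bool.and_eq_true] at h
    obtain ⟨⟨⟨⟨hab, hfix⟩, hst⟩, hM⟩, hc⟩ := h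
    have hy : C.wg ([44].map fun r => (r, (1 : F))) = u :=
      Units.ext (by rw [hu]; simp [C.wg_cons, C.wg_nil])
    rw [← hy, sup_assoc, sup_assoc, ← sup_assoc (chevF4.rootSubgroup F 20), grp_three]
    refine C.central_cent (by simp) hab hfix hst hM hc (by simp) ?_
    congr 2
    ext s
    simp only [List.mem_cons, List.not_mem_nil, or_false, exists_eq_or_imp, exists_eq_left]
    rfl

end Cfsg.Agent.S2178
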