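import Cfsg.Statements.S2181

import Cfsg.Agent.Lib.Chev.InvolOrthE7
import Cfsg.Agent.Lib.Chev.InvolOrthClasses
set_option autoImplicit false
open Cfsg

namespace Cfsg.Agent.S2181


open Cfsg.Agent.Lib.Chev


/-- The Chevalley group of type E₇ over a finite field of characteristic two (the matrix group generated by the root elements) has exactly five conjugacy classes of elements of order 2. -/
theorem result {F : Type*} [Field F] [Fintype F] [CharP F 2] :
    (ConjClasses.mk '' {g : ↥(Cfsg.Lie.chevE7.group F) | orderOf g = 2}).ncard = 5 := by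
  have : Finite F := Finite.of_fintype F
  obtain ⟨h1, h2, h3⟩ := InvolOrthE7.slData.classes (F := F) (ks := [34, 52, 62, 53, 63]) rfl (by decide)
    InvolOrthE7.steps_ok InvolOrthE7.comm_ok InvolOrthE7.red_ok (InvolOrthE7.rank_ok F) (by decide)
  rw [InvolOrthE7.slData.ncard_classes (by decide) h1 h2 h3]
  rfl

end Cfsg.Agent.S2181
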