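import Cfsg.Statements.S2182
import Cfsg.Agent.Lib.Chev.InvolOrthTwistE6
import Cfsg.Agent.Lib.Chev.InvolOrthClasses
import Cfsg.Agent.Lib.Chev.TwistOrder

set_option autoImplicit false
set_option maxRecDepth 100000
open Cfsg

namespace Cfsg.Agent.S2182

open Cfsg.Lie Cfsg.Agent.Lib Cfsg.Agent.Lib.Chev

theorem sym_facts : (∀ r < 72, E6.sym.r (E6.sym.r r) = r) ∧ (∀ i < 6, E6.sym.p (E6.sym.p i) = i) ∧
    chevE6.nroots = 72 := by
  decide +kernel

theorem node_orth : ∀ j < 6, E6.sym.p j = j ∨ chevE6.cartan j (chevE6.simple (E6.sym.p j)) = 0 := by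
  decide +kernel

theorem node_side : ∀ j < 6, E6.sym.p j = j ∨ decide (E6.sym.p j < 3) ≠ decide (j < 3) := by
  decide +kernel

theorem node_side_orth : ∀ i < 6, ∀ j < 6,
    (E6.sym.p i = i ∨ E6.sym.p j = j ∨ decide (i < 3) = decide (j < 3)) ∨
      chevE6.cartan i (chevE6.simple j) = 0 := by
  decide +kernel

variable {K : Type*} [Field K] [Fintype K] [CharP K 2] {q : ℕ} (φ : K ≃+* K)

theorem two_twist (hφ : ∀ t, φ t = t ^ q) (hq : 2 ≤ q) (hK : Fintype.card K = q ^ 2) :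
    TwoTwist InvolOrthE6.slData (E6.tw φ) φ (fun i => decide (i < 3)) := by
  obtain ⟨hr, hp, hn⟩ := sym_facts
  refine
    { ρ_ρ := fun r hr' => hr r (hn ▸ hr')
      p_p := fun i hi => hp i (E6.rank_eq ▸ hi)
      f_eq := fun _ _ => rfl
      φ_φ := fun t => frob_per hφ hK t
      φ_ne := ?_
      node_orth := fun j hj hne => (node_orth j (E6.rank_eq ▸ hj)).resolve_left hne
      side_p := fun j hj hne => (node_side j (E6.rank_eq ▸ hj)).resolve_left hne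
      side_orth := fun i hi j hj hne hne' hs =>
        (node_side_orth i (E6.rank_eq ▸ hi) j (E6.rank_eq ▸ hj)).resolve_left fun h =>
          h.elim hne fun h => h.elim hne' hs }
  by_contra hcon
  push Not at hcon
  have h : Nat.card {t : K // t ^ q = t} = q := card_frob_fixed (by omega) hK
  rw [Nat.card_congr (Equiv.subtypeUnivEquiv fun t : K => (hφ t).symm.trans (hcon t)),
    Nat.card_eq_fintype_card, hK] at h
  nlinarith

theorem trace_facts :
    (E6.fast.commT 21 5 = [(0, -1, 1, 1)] ∧ E6.fast.commT 23 3 = [(0, -1, 1, 1)]) ∧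
    (E6.sym.r 21 = 23 ∧ E6.sym.r 23 = 21 ∧ chevE6.neg 21 ≠ 5 ∧ chevE6.neg 23 ≠ 3) ∧
    (E6.fast.evenC 21 3 = true ∧ chevE6.neg 21 ≠ 3 ∧ E6.fast.evenC 23 5 = true ∧ chevE6.neg 23 ≠ 5) ∧
    (E6.fast.evenC 21 23 = true ∧ chevE6.neg 21 ≠ 23 ∧ E6.fast.evenC 21 0 = true ∧ chevE6.neg 21 ≠ 0) ∧
    (E6.fast.evenC 23 0 = true ∧ chevE6.neg 23 ≠ 0 ∧ E6.fast.evenC 5 0 = true ∧ chevE6.neg 5 ≠ 0) := by
  decide +kernel

/-- a paired orbit acquires a fixed root -/
theorem trace_move (hφ : ∀ t, φ t = t ^ q) (hq : 2 ≤ q) (hK : Fintype.card K = q ^ 2) :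
    ∃ z ∈ (E6.tw φ).fixed, z * InvolOrthE6.slData.X K [3, 5] * z⁻¹ =
      InvolOrthE6.slData.X K [3, 5, 0] := by
  have W := two_twist φ hφ hq hK
  obtain ⟨-, -, hn⟩ := sym_facts
  have lt : ∀ r, r < 72 → r < chevE6.nroots := fun r hr => hn ▸ hr
  obtain ⟨⟨t215, t233⟩, ⟨hr21, hr23, n215, n233⟩, ⟨e213, n213, e235, n235⟩,
    ⟨e2123, n2123, e210, n210⟩, ⟨e230, n230, e50, n50⟩⟩ := trace_facts
  obtain ⟨u, hu⟩ := W.φ_ne
  have hd : u + φ u ≠ 0 := fun h => hu (by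
    rw [← neg_eq_of_add_eq_zero_right h, CharTwo.neg_eq])
  set t := u / (u + φ u) with htdef
  have ht : t + φ t = 1 := by
    have e : φ t = φ u / (u + φ u) := by rw [htdef, map_div₀, map_add, W.φ_φ, add_comm (φ u) u]
    rw [e, htdef, ← add_div, div_self hd]
  let C := InvolOrthE6.slData.chk
  have l0 := lt 0 (by norm_num)
  have l3 := lt 3 (by norm_num)
  have l5 := lt 5 (by norm_num)
  have l21 := lt 21 (by norm_num)
  have l23 := lt 23 (by norm_num)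
  have c1 : ∀ v : K, C.xg 21 v * C.xg 5 1 * C.xg 21 v = C.xg 5 1 * C.xg 0 v := fun v => by
    have e := C.xg_conj_eq (F := K) l21 l5 (by norm_num) n215.symm v 1
    rw [ChevalleyDatum.commWord, ← C.commT_eq l21 l5, t215] at e
    simpa [CharTwo.neg_eq, C.wg_cons, C.wg_nil] using e
  have c2 : ∀ v : K, C.xg 23 v * C.xg 3 1 * C.xg 23 v = C.xg 3 1 * C.xg 0 v := fun v => by
    have e := C.xg_conj_eq (F := K) l23 l3 (by norm_num) n233.symm v 1
    rw [ChevalleyDatum.commWord, ← C.commT_eq l23 l3, t233] at e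
    simpa [CharTwo.neg_eq, C.wg_cons, C.wg_nil] using e
  have k213 := C.comm_of_even (F := K) l21 l3 n213.symm e213
  have k235 := C.comm_of_even (F := K) l23 l5 n235.symm e235
  have k2123 := C.comm_of_even (F := K) l21 l23 n2123.symm e2123
  have k210 := C.comm_of_even (F := K) l21 l0 n210.symm e210
  have k50 := C.comm_of_even (F := K) l5 l0 n50.symm e50
  have hinv : ∀ (r : ℕ) (v : K), (C.xg r v)⁻¹ = C.xg r v := InvolOrthE6.slData.xg_inv_two
  refine ⟨C.xg 21 t * C.xg 23 (φ t), ⟨mul_mem (C.xg_mem_group l21 _) (C.xg_mem_group l23 _), ?_⟩, ?_⟩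
  · rw [(E6.tw φ).act_mul (C.xg_mem_group l21 _) (C.xg_mem_group l23 _), W.act_xg l21, W.act_xg l23,
      W.φ_φ, show (E6.tw φ).ρ 21 = 23 from hr21, show (E6.tw φ).ρ 23 = 21 from hr23]
    exact (k2123 _ _).eq.symm
  · show C.xg 21 t * C.xg 23 (φ t) * (C.xg 3 1 * (C.xg 5 1 * 1)) * (C.xg 21 t * C.xg 23 (φ t))⁻¹ =
      C.xg 3 1 * (C.xg 5 1 * (C.xg 0 1 * 1))
    simp only [mul_one]
    rw [mul_inv_rev, hinv, hinv]
    calc C.xg 21 t * C.xg 23 (φ t) * (C.xg 3 1 * C.xg 5 1) * (C.xg 23 (φ t) * C.xg 21 t) =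
          C.xg 21 t * (C.xg 23 (φ t) * C.xg 3 1 * (C.xg 5 1 * C.xg 23 (φ t))) * C.xg 21 t := by
            simp only [mul_assoc]
      _ = C.xg 21 t * (C.xg 23 (φ t) * C.xg 3 1 * C.xg 23 (φ t) * C.xg 5 1) * C.xg 21 t := by
            rw [← (k235 (φ t) 1).eq]; simp only [mul_assoc]
      _ = C.xg 21 t * C.xg 3 1 * C.xg 0 (φ t) * C.xg 5 1 * C.xg 21 t := by
            rw [c2]; simp only [mul_assoc]
      _ = C.xg 3 1 * (C.xg 21 t * C.xg 5 1 * C.xg 21 t * C.xg 0 (φ t)) := by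
            rw [(k213 t 1).eq, mul_assoc (C.xg 3 1) (C.xg 21 t), mul_assoc (C.xg 3 1),
              mul_assoc (C.xg 3 1)]
            congr 1
            simp only [mul_assoc]
            congr 1
            rw [← mul_assoc (C.xg 0 (φ t)), ← (k50 1 (φ t)).eq, mul_assoc, (k210 t (φ t)).symm.eq]
      _ = C.xg 3 1 * (C.xg 5 1 * (C.xg 0 t * C.xg 0 (φ t))) := by rw [c1]; simp only [mul_assoc]
      _ = _ := by rw [C.xg_add l0, ht]

theorem target_facts : (∀ p ∈ [([0], [71], [1, 3, 2, 0, 4, 3, 1, 2, 3, 4, 5, 4, 3, 1, 2, 0, 3, 2, 4, 3, 1]),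
      ([0, 11], [68, 66], [0, 1, 2, 3, 1, 2, 0, 4, 3, 2, 0, 5, 4, 3, 1, 2, 0, 3, 2, 4, 3, 1, 5, 4, 3, 2, 0]),
      ([0, 11, 27], [55, 65, 67], [0, 2, 0, 3, 1, 2, 3, 4, 3, 1, 2, 0, 3, 2, 4, 3, 5, 4, 3, 1, 2, 0, 3, 2, 4, 3, 1, 5, 4, 3])],
    ((p.1.map (E6.fast.actW p.2.2)).isPerm p.2.1 && p.1.all (fun r => Nat.blt r 72) &&
      p.2.2.all (fun i => Nat.blt i 6) && (p.1.map E6.sym.r == p.1) && E6.fast.commList p.2.1) = true) := by
  decide +kernel

/-- The twisted group ²E₆(q), q even, realised inside the Chevalley group of type E₆ over the field K with q² elements, has exactly three conjugacy classes of elements of order 2. -/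
theorem result {K : Type*} [Field K] [Fintype K] [CharP K 2] (q : ℕ) (hK : Fintype.card K = q ^ 2) :
    (ConjClasses.mk '' {g : ↥(Cfsg.Lie.twistedE6 K q) | orderOf g = 2}).ncard = 3 := by
  classical
  have hqp : IsPrimePow q := by
    have h := FiniteField.isPrimePow_card K
    rw [hK] at h
    exact (isPrimePow_pow_iff (by norm_num)).1 h
  have hq := hqp.two_le
  obtain ⟨φ, hφ⟩ := exists_frob hqp (by norm_num) hK
  have W := two_twist φ hφ hq hK
  rw [E6.eq_fixed φ hφ hK]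
  set H := InvolOrthE6.slData with hH
  obtain ⟨hm, -, hinj⟩ := H.classes (F := K) (ks := [22, 32, 38]) rfl (by decide)
    InvolOrthE6.steps_ok InvolOrthE6.comm_ok InvolOrthE6.red_ok (InvolOrthE6.rank_ok K) (by decide)
  let ts : List (List ℕ) := [[0], [0, 11], [0, 11, 27]]
  obtain ⟨-, -, hn⟩ := sym_facts
  have hts : ∀ S ∈ ts, ∃ S' ∈ InvolOrthE6.targets, (∀ r ∈ S, r < chevE6.nroots) ∧ S.map E6.sym.r = S ∧
      (∃ c ∈ chevE6.group K, c * H.X K S * c⁻¹ = H.X K S') ∧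
      (S' = [71] ↔ S = [0]) ∧ (S' = [68, 66] ↔ S = [0, 11]) := by
    intro S hS
    have key : ∀ (S S' wd : List ℕ), ((S.map (E6.fast.actW wd)).isPerm S' && S.all (fun r => Nat.blt r 72) &&
        wd.all (fun i => Nat.blt i 6) && (S.map E6.sym.r == S) && E6.fast.commList S') = true →
        (∀ r ∈ S, r < chevE6.nroots) ∧ S.map E6.sym.r = S ∧
          ∃ c ∈ chevE6.group K, c * H.X K S * c⁻¹ = H.X K S' := by
      intro S S' wd h
      simp only [Bool.and_eq_true, List.all_eq_true, Nat.blt_eq, List.isPerm_iff, beq_iff_eq] at h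
      obtain ⟨⟨⟨⟨h1, h2⟩, h3⟩, h4⟩, h5⟩ := h
      have hlt : ∀ r ∈ S, r < chevE6.nroots := fun r hr => hn ▸ h2 r hr
      obtain ⟨c, hc, e⟩ := H.actW_conj (F := K) wd (fun i hi => E6.rank_eq ▸ h3 i hi) S hlt
      exact ⟨hlt, h4, c, hc, by rw [H.X_perm h1.symm (H.commute_of_commList h5).2, e]⟩
    have T := target_facts
    simp only [List.mem_cons, List.not_mem_nil, or_false] at T
    simp only [ts, List.mem_cons, List.not_mem_nil, or_false] at hS
    rcases hS with rfl | rfl | rfl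
    · obtain ⟨a, b, c⟩ := key _ _ _ (T _ (Or.inl rfl))
      exact ⟨_, by simp [InvolOrthE6.targets], a, b, c, by decide, by decide⟩
    · obtain ⟨a, b, c⟩ := key _ _ _ (T _ (Or.inr (Or.inl rfl)))
      exact ⟨_, by simp [InvolOrthE6.targets], a, b, c, by decide, by decide⟩
    · obtain ⟨a, b, c⟩ := key _ _ _ (T _ (Or.inr (Or.inr rfl)))
      exact ⟨_, by simp [InvolOrthE6.targets], a, b, c, by decide, by decide⟩
  have hmem : ∀ S ∈ ts, H.X K S ∈ (E6.tw φ).fixed ∧ orderOf (H.X K S) = 2 := by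
    intro S hS
    obtain ⟨S', hS', hlt, hmap, ⟨c, -, e⟩, -, -⟩ := hts S hS
    refine ⟨⟨H.X_mem hlt, by rw [W.act_X hlt]; exact congrArg _ hmap⟩, ?_⟩
    rw [← (hm S' hS').2, ← e, ← MulAut.conj_apply, MulEquiv.orderOf_eq]
  have hclass : ∀ g ∈ (E6.tw φ).fixed, orderOf g = 2 →
      ∃ S ∈ ts, ∃ k ∈ (E6.tw φ).fixed, k * g * k⁻¹ = H.X K S := by
    intro g hg h2
    have h22 : g * g = 1 := by rw [← pow_two, ← h2]; exact pow_orderOf_eq_one g
    have h1 : g ≠ 1 := by rintro rfl; rw [orderOf_one] at h2; omega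
    obtain ⟨j, hj0, hj, k, hk, e⟩ := W.exists_rep (rf := E6.sym.r) (pf := E6.sym.p) rfl rfl
      (reps := InvolOrthTE6.reps) rfl (by decide) InvolOrthTE6.steps_ok InvolOrthTE6.comm_ok hg h22 h1
    have comp : ∀ {a b c : List ℕ}, (∃ k ∈ (E6.tw φ).fixed, k * H.X K a * k⁻¹ = H.X K b) →
        (∃ k ∈ (E6.tw φ).fixed, k * H.X K b * k⁻¹ = H.X K c) →
        ∃ k ∈ (E6.tw φ).fixed, k * H.X K a * k⁻¹ = H.X K c := by
      rintro a b c ⟨k, hk, ek⟩ ⟨k', hk', ek'⟩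
      exact ⟨k' * k, mul_mem hk' hk, by rw [← ek', ← ek]; group⟩
    have r2 := comp (trace_move φ hφ hq hK) (W.red_sound rfl rfl InvolOrthTE6.red2_ok)
    have r4 := W.red_sound rfl rfl InvolOrthTE6.red4_ok
    have r6 := comp (W.red_sound rfl rfl InvolOrthTE6.red6_ok) r4
    have r7 := comp (W.red_sound rfl rfl InvolOrthTE6.red7_ok) r6
    have rid : ∀ a, ∃ k ∈ (E6.tw φ).fixed, k * H.X K a * k⁻¹ = H.X K a :=
      fun a => ⟨1, one_mem _, by group⟩
    obtain ⟨S, hS, k', hk', e'⟩ : ∃ S ∈ ts, ∃ k' ∈ (E6.tw φ).fixed,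
        k' * H.X K (InvolOrthTE6.reps.getD j []) * k'⁻¹ = H.X K S := by
      match j, (show j < 8 from hj) with
      | 0, _ => omega
      | 1, _ => exact ⟨_, by simp [ts], rid [0]⟩
      | 2, _ => exact ⟨_, by simp [ts], r2⟩
      | 3, _ => exact ⟨_, by simp [ts], rid [0, 11]⟩
      | 4, _ => exact ⟨_, by simp [ts], r4⟩
      | 5, _ => exact ⟨_, by simp [ts], rid [0, 11, 27]⟩
      | 6, _ => exact ⟨_, by simp [ts], r6⟩
      | 7, _ => exact ⟨_, by simp [ts], r7⟩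
      | n + 8, h => omega
    exact ⟨S, hS, k' * k, mul_mem hk' hk, by rw [← e', ← e]; group⟩
  have hne : ∀ S ∈ ts, ∀ S₂ ∈ ts, ∀ k : GL chevE6.Idx K, k * H.X K S * k⁻¹ = H.X K S₂ → S = S₂ := by
    intro S hS S₂ hS₂ k e
    obtain ⟨a, ha, -, -, ⟨c, -, ec⟩, ha1, ha2⟩ := hts S hS
    obtain ⟨b, hb, -, -, ⟨c', -, ec'⟩, hb1, hb2⟩ := hts S₂ hS₂
    have := hinj a ha b hb (c' * k * c⁻¹) (by rw [← ec', ← e, ← ec]; group)
    subst this
    simp only [ts, List.mem_cons, List.not_mem_nil, or_false] at hS hS₂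
    rcases hS with rfl | rfl | rfl <;> rcases hS₂ with rfl | rfl | rfl <;> simp_all
  let f : {S // S ∈ ts.toFinset} → ConjClasses ↥(E6.tw φ).fixed := fun S =>
    ConjClasses.mk ⟨H.X K S.1, (hmem S.1 (List.mem_toFinset.1 S.2)).1⟩
  have himg : ConjClasses.mk '' {g : ↥(E6.tw φ).fixed | orderOf g = 2} = Set.range f := by
    ext x
    constructor
    · rintro ⟨g, hg, rfl⟩
      obtain ⟨S, hS, k, hk, e⟩ := hclass g g.2 (by rw [Subgroup.orderOf_coe]; exact hg)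
      exact ⟨⟨S, List.mem_toFinset.2 hS⟩,
        (ConjClasses.mk_eq_mk_iff_isConj.2 (isConj_iff.2 ⟨⟨k, hk⟩, Subtype.ext e⟩)).symm⟩
    · rintro ⟨⟨S, hS⟩, rfl⟩
      refine ⟨⟨H.X K S, (hmem S (List.mem_toFinset.1 hS)).1⟩, ?_, rfl⟩
      show orderOf _ = 2
      rw [Subgroup.orderOf_mk]
      exact (hmem S (List.mem_toFinset.1 hS)).2
  have hf : Function.Injective f := by
    rintro ⟨S, hS⟩ ⟨S₂, hS₂⟩ h
    obtain ⟨k, hk⟩ := isConj_iff.1 (ConjClasses.mk_eq_mk_iff_isConj.1 h)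
    exact Subtype.ext (hne S (List.mem_toFinset.1 hS) S₂ (List.mem_toFinset.1 hS₂) k
      (congrArg Subtype.val hk))
  rw [himg, ← Set.image_univ, Set.ncard_image_of_injective _ hf, Set.ncard_univ,
    Nat.card_eq_fintype_card, Fintype.card_coe, List.toFinset_card_of_nodup (by decide)]
  rfl

end Cfsg.Agent.S2182
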