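import Cfsg.Statements.S2183

import Cfsg.Agent.Lib.Chev.D4EvenInvol
set_option autoImplicit false
open Cfsg

namespace Cfsg.Agent.S2183

open Cfsg.Lie Cfsg.Agent.Lib.Chev

/-- The twisted group ³D₄(q), q even, realised inside the Chevalley group of type D₄ over the field K with q³ elements, has exactly two conjugacy classes of elements of order 2. -/
theorem result {K : Type*} [Field K] [Fintype K] [CharP K 2] (q : ℕ) (hK : Fintype.card K = q ^ 3) :
    (ConjClasses.mk '' {g : ↥(Cfsg.Lie.twistedD4 K q) | orderOf g = 2}).ncard = 2 := by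
  classical
  have hq : IsPrimePow q := by
    obtain ⟨n, hp, hn⟩ := FiniteField.card K 2
    obtain ⟨m, hm⟩ : ∃ m, q = 2 ^ m := by
      obtain ⟨m, -, hm⟩ := (Nat.dvd_prime_pow Nat.prime_two).1
        (show q ∣ 2 ^ (n : ℕ) by rw [← hn, hK]; exact dvd_pow_self q (by norm_num))
      exact ⟨m, hm⟩
    refine hm ▸ Nat.prime_two.isPrimePow.pow ?_
    rintro rfl
    have := Fintype.one_lt_card (α := K)
    rw [hK, hm] at this
    simp at this
  obtain ⟨φ, hφ⟩ := exists_frob hq (by norm_num) hK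
  have hX : D4Even.R φ (0 : K) 0 0 0 1 ∈ twistedD4 K q := by
    rw [← D4Even.n1_twentytwo φ]
    exact D4Even.conj_G φ hφ hK (D4Even.n1_G φ hφ hK) (D4Even.D_G φ hφ hK 1 (map_one φ))
  have hY : D4Even.R φ (0 : K) 1 0 0 0 ∈ twistedD4 K q := D4Even.B_G φ hφ hK 1
  have hord : ∀ (a b c d e : K) (h : D4Even.R φ a b c d e ∈ twistedD4 K q),
      D4Even.R φ a b c d e * D4Even.R φ a b c d e = 1 → D4Even.R φ a b c d e ≠ 1 →
      orderOf (⟨_, h⟩ : ↥(twistedD4 K q)) = 2 := fun a b c d e h h2 hne =>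
    orderOf_eq_prime (Subtype.ext (by simp [pow_two, h2])) (fun e => hne (congrArg Subtype.val e))
  have oX : orderOf (⟨_, hX⟩ : ↥(twistedD4 K q)) = 2 := hord _ _ _ _ _ hX
    (by simp [D4Even.R_mul, D4Even.Tr, CharTwo.add_self_eq_zero, D4Even.R_zero])
    (fun e => one_ne_zero (D4Even.R_eq_one φ e).2.2.2.2)
  have oY : orderOf (⟨_, hY⟩ : ↥(twistedD4 K q)) = 2 := hord _ _ _ _ _ hY
    (by simp [D4Even.R_mul, D4Even.Tr, CharTwo.add_self_eq_zero, D4Even.R_zero])
    (fun e => one_ne_zero (D4Even.R_eq_one φ e).2.1)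
  have key : ConjClasses.mk '' {g : ↥(twistedD4 K q) | orderOf g = 2} =
      {ConjClasses.mk ⟨_, hX⟩, ConjClasses.mk ⟨_, hY⟩} := by
    ext c
    constructor
    · rintro ⟨⟨g, hg⟩, ho, rfl⟩
      have h2 : g * g = 1 := by
        have := congrArg Subtype.val (pow_orderOf_eq_one (⟨g, hg⟩ : ↥(twistedD4 K q)))
        rw [ho] at this
        simpa [pow_two] using this
      have hne : g ≠ 1 := by
        rintro rfl
        have : (⟨1, hg⟩ : ↥(twistedD4 K q)) = 1 := rfl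
        rw [Set.mem_setOf_eq, this, orderOf_one] at ho
        omega
      obtain ⟨h, hh, e | e⟩ := D4Even.cls_of_group φ hφ hK hg h2 hne
      · exact Or.inl (ConjClasses.mk_eq_mk_iff_isConj.2 (isConj_iff.2 ⟨⟨h, hh⟩, Subtype.ext e⟩))
      · exact Or.inr (ConjClasses.mk_eq_mk_iff_isConj.2 (isConj_iff.2 ⟨⟨h, hh⟩, Subtype.ext e⟩))
    · rintro (rfl | rfl)
      · exact ⟨_, oX, rfl⟩
      · exact ⟨_, oY, rfl⟩
  rw [key]
  refine Set.ncard_pair fun e => ?_
  obtain ⟨⟨h, hh⟩, he⟩ := isConj_iff.1 (ConjClasses.mk_eq_mk_iff_isConj.1 e)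
  refine D4Even.not_conj φ ?_ (congrArg Subtype.val he)
  exact (D4.eq_fixed φ hφ hK ▸ hh : h ∈ (D4.tw φ).fixed).1

end Cfsg.Agent.S2183
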