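import Cfsg.Statements.S2186

import Cfsg.Agent.Lib.Chev.Cent
import Cfsg.Agent.Lib.Chev.All
set_option autoImplicit false
open Cfsg

namespace Cfsg.Agent.S2186

open Cfsg.Lie Cfsg.Agent.Lib.Chev

/-- `s` is the only root with pairing at least two against `s` -/
def longB (T : Fast) (s : ℕ) : Bool :=
  allBelow T.n fun x => Nat.beq x s || Fast.ltI (T.pr s x) 2

/-- the commutator of `r` and `s` is trivial or a single central root -/
def pairOK (T : Fast) (r s : ℕ) : Bool :=
  match (T.commT r s).map Prod.fst with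
  | [] => true
  | [m] => !(Nat.beq m r) && !(Nat.beq m s) && !(Nat.beq m (T.ng r)) && !(Nat.beq m (T.ng s)) &&
      T.evenC r m && T.evenC s m
  | _ => false

/-- the facts about the highest root -/
def topCheck (T : Fast) : Bool :=
  Nat.beq (T.ng (T.n - 1)) 0 && Fast.ltI 0 (T.key (T.n - 1)) && longB T (T.n - 1) &&
    (allBelow T.n fun s => !(Fast.ltI 0 (T.key s)) || Nat.beq s (T.n - 1) || T.evenC (T.n - 1) s) &&
    allBelow T.n fun s => Nat.beq s 0 || Nat.beq s (T.n - 1) || !(longB T s) || pairOK T (T.n - 1) s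

theorem topG2 : topCheck G2.fast = true := by decide +kernel
theorem topD4 : topCheck D4.fast = true := by decide +kernel
theorem topE6 : topCheck E6.fast = true := by decide +kernel
theorem topE7 : topCheck E7.fast = true := by decide +kernel
theorem topE8 : topCheck E8.fast = true := by decide +kernel

theorem exists_top {D : ChevalleyDatum} (hD : D ∈ [chevG2, chevD4, chevE6, chevE7, chevE8]) :
    ∃ T : Fast, Checked D T ∧ topCheck T = true := by
  simp only [List.mem_cons, List.not_mem_nil, or_false] at hD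
  rcases hD with rfl | rfl | rfl | rfl | rfl
  exacts [⟨_, G2.checked, topG2⟩, ⟨_, D4.checked, topD4⟩, ⟨_, E6.checked, topE6⟩,
    ⟨_, E7.checked, topE7⟩, ⟨_, E8.checked, topE8⟩]

theorem two_group {F : Type*} [Field F] [CharP F 2] {D : ChevalleyDatum} {T : Fast} (C : Checked D T)
    {r s : ℕ} (hr : r < D.nroots) (hs : s < D.nroots) (hne : s ≠ r) (hneg : s ≠ D.neg r)
    (h : pairOK T r s = true) :
    IsPGroup 2 ↥(D.rootSubgroup F r ⊔ D.rootSubgroup F s) := by
  have hcommW : ∀ a b : F, C.xg s b * C.xg r a = C.xg r a * C.xg s b * C.wg (D.commWord F r s a b) :=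
    fun a b => C.comm hr hs hne hneg a b
  -- a root `m` commuting with both, carrying all commutators
  obtain ⟨m, hmr, hms, hW⟩ : ∃ m, (∀ a c : F, Commute (C.xg r a) (C.xg m c)) ∧
      (∀ b c : F, Commute (C.xg s b) (C.xg m c)) ∧
      ∀ a b : F, ∃ c, C.wg (D.commWord F r s a b) = C.xg m c := by
    unfold pairOK at h
    rw [C.commT_eq hr hs] at h
    unfold ChevalleyDatum.commWord
    split at h
    · next e =>
      rw [List.map_eq_nil_iff] at e
      refine ⟨D.nroots, fun a c => ?_, fun b c => ?_, fun a b => ⟨0, ?_⟩⟩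
      · rw [show C.xg D.nroots c = 1 from Units.ext (x_of_ge (lt_irrefl _) c)]; exact Commute.one_right _
      · rw [show C.xg D.nroots c = 1 from Units.ext (x_of_ge (lt_irrefl _) c)]; exact Commute.one_right _
      · rw [e, List.map_nil, C.wg_nil, C.xg_zero]
    · next m e =>
      obtain ⟨q, hq, hqm⟩ := List.map_eq_singleton_iff.1 e
      subst hqm
      have hm : q.1 < D.nroots := C.commTerms_lt hr hs q (by rw [hq]; simp)
      simp only [Bool.and_eq_true, Bool.not_eq_true', Bool.eq_false_iff, ne_eq, Nat.beq_eq,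
        ← C.tables.neg r hr, ← C.tables.neg s hs] at h
      exact ⟨q.1, fun a c => C.comm_of_even hr hm h.1.1.1.2 h.1.2 a c,
        fun b c => C.comm_of_even hs hm h.1.1.2 h.2 b c,
        fun a b => ⟨_, by rw [hq, List.map_singleton, C.wg_cons, C.wg_nil, mul_one]⟩⟩
    · exact absurd h (by simp)
  choose f hf using hW
  have hadd : ∀ c c' : F, C.xg m c * C.xg m c' = C.xg m (c + c') := by
    intro c c'
    by_cases hm : m < D.nroots
    · exact C.xg_add hm c c'
    · rw [show C.xg m c = 1 from Units.ext (x_of_ge hm c), show C.xg m c' = 1 from Units.ext (x_of_ge hm c'),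
        show C.xg m (c + c') = 1 from Units.ext (x_of_ge hm _), one_mul]
  have hmul : ∀ a b c a' b' c' : F, ∃ c'', C.xg r a * C.xg s b * C.xg m c *
      (C.xg r a' * C.xg s b' * C.xg m c') = C.xg r (a + a') * C.xg s (b + b') * C.xg m c'' := by
    intro a b c a' b' c'
    refine ⟨f a' b + (c + c'), ?_⟩
    calc C.xg r a * C.xg s b * C.xg m c * (C.xg r a' * C.xg s b' * C.xg m c')
        = C.xg r a * C.xg s b * (C.xg m c * C.xg r a') * C.xg s b' * C.xg m c' := by group
      _ = C.xg r a * (C.xg s b * C.xg r a') * (C.xg m c * C.xg s b') * C.xg m c' := by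
          rw [((hmr a' c).eq).symm]; group
      _ = C.xg r a * C.xg r a' * C.xg s b * (C.xg m (f a' b) * C.xg s b') * C.xg m c * C.xg m c' := by
          rw [hcommW, hf, ((hms b' c).eq).symm]; group
      _ = C.xg r a * C.xg r a' * (C.xg s b * C.xg s b') * (C.xg m (f a' b) * (C.xg m c * C.xg m c')) := by
          rw [((hms b' (f a' b)).eq).symm]; group
      _ = _ := by rw [C.xg_add hr, C.xg_add hs, hadd, hadd]
  let K : Subgroup (GL D.Idx F) :=
    { carrier := {g | ∃ a b c, g = C.xg r a * C.xg s b * C.xg m c}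
      one_mem' := ⟨0, 0, 0, by simp [C.xg_zero]⟩
      mul_mem' := by
        rintro x y ⟨a, b, c, rfl⟩ ⟨a', b', c', rfl⟩
        obtain ⟨c'', e⟩ := hmul a b c a' b' c'
        exact ⟨_, _, _, e⟩
      inv_mem' := by
        rintro x ⟨a, b, c, rfl⟩
        obtain ⟨c'', e⟩ := hmul a b c (-a) (-b) 0
        rw [add_neg_cancel, add_neg_cancel, C.xg_zero r, C.xg_zero s, one_mul, one_mul] at e
        refine ⟨-a, -b, 0 + -c'', ?_⟩
        rw [← hadd, C.xg_zero, one_mul, inv_eq_iff_mul_eq_one]
        rw [C.xg_zero, mul_one] at e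
        rw [← mul_assoc, e, ← C.xg_inv, mul_inv_cancel] }
  have hle : D.rootSubgroup F r ⊔ D.rootSubgroup F s ≤ K := by
    rw [rootSubgroup_eq, rootSubgroup_eq]
    refine sup_le (C.grp_le fun x hx t => ?_) (C.grp_le fun x hx t => ?_) <;>
      rw [Set.mem_singleton_iff.1 hx]
    · exact ⟨t, 0, 0, by simp [C.xg_zero]⟩
    · exact ⟨0, t, 0, by simp [C.xg_zero]⟩
  refine (?_ : IsPGroup 2 ↥K).to_le hle
  rintro ⟨g, a, b, c, rfl⟩
  refine ⟨2, Subtype.ext ?_⟩
  obtain ⟨c', e⟩ := hmul a b c a b c
  show (C.xg r a * C.xg s b * C.xg m c) ^ (2 ^ 2) = 1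
  rw [show (2 : ℕ) ^ 2 = 2 * 2 from rfl, pow_mul, pow_two (C.xg r a * C.xg s b * C.xg m c), e,
    CharTwo.add_self_eq_zero, CharTwo.add_self_eq_zero, C.xg_zero, C.xg_zero, one_mul, one_mul, pow_two,
    hadd, CharTwo.add_self_eq_zero, C.xg_zero]

/-- Let G be the Chevalley group of type G₂ (over a field with at least four elements), D₄, E₆, E₇ or E₈ over a finite field F of characteristic two, and let X be the root subgroup of the highest root (the last root index) — a long root subgroup, of order |F|. For every g in G, the subgroup generated by X and its conjugate g X g⁻¹ is either a 2-group or is conjugate by an element of G to the subgroup generated by X and the root subgroup of the lowest root (index 0, the negative of the highest root), which is a copy of SL₂(F). -/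
theorem result {F : Type*} [Field F] [Fintype F] [CharP F 2] (D : Cfsg.Lie.ChevalleyDatum) (hD : D ∈ [Cfsg.Lie.chevG2, Cfsg.Lie.chevD4, Cfsg.Lie.chevE6, Cfsg.Lie.chevE7, Cfsg.Lie.chevE8]) (hF : D = Cfsg.Lie.chevG2 → 4 ≤ Fintype.card F) (g : GL D.Idx F) (hg : g ∈ D.group F) :
    IsPGroup 2 ↥(D.rootSubgroup F (D.nroots - 1) ⊔ (D.rootSubgroup F (D.nroots - 1)).map (MulAut.conj g).toMonoidHom) ∨
    ∃ h ∈ D.group F, (D.rootSubgroup F (D.nroots - 1) ⊔ (D.rootSubgroup F (D.nroots - 1)).map (MulAut.conj g).toMonoidHom).map (MulAut.conj h).toMonoidHom = D.rootSubgroup F (D.nroots - 1) ⊔ D.rootSubgroup F 0 := by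
  obtain ⟨T, C, hT⟩ := exists_top hD
  simp only [topCheck, Bool.and_eq_true, allBelow_iff, Bool.or_eq_true, Bool.not_eq_true',
    Nat.beq_eq, ltI_iff] at hT
  obtain ⟨⟨⟨⟨hneg0, hkey⟩, hlong⟩, hcent⟩, hpairs⟩ := hT
  rw [← C.tables.nroots] at hneg0 hkey hlong hcent hpairs
  set r := D.nroots - 1 with hrdef
  have hr : r < D.nroots := by
    have := C.root.simple_lt 0 C.root.rank_pos
    omega
  have hrpos : D.IsPosRoot r := (C.root.pos_iff r).2 ⟨hr, hkey⟩
  have hneg : D.neg r = 0 := (C.tables.neg r hr).trans hneg0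
  -- `B` normalises `X`
  have hBX : ∀ b ∈ D.borelSubgroup F, (D.rootSubgroup F r).map (MulAut.conj b).toMonoidHom =
      D.rootSubgroup F r := by
    have hle : ∀ b ∈ D.borelSubgroup F, ∀ x ∈ D.rootSubgroup F r, b * x * b⁻¹ ∈ D.rootSubgroup F r := by
      intro b hb x hx
      obtain ⟨u, hu, h, hh, rfl⟩ := C.mem_borel.1 hb
      rw [rootSubgroup_eq] at hx ⊢
      have h1 := C.diag_normalizes (S := {r}) (by simp [hr]) hh hx
      have h2 : ∀ y ∈ grp D F {r}, ∀ v ∈ D.posUnipotent F, Commute v y := by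
        intro y hy v hv
        have : D.posUnipotent F ≤ Subgroup.centralizer (grp D F {r} : Set (GL D.Idx F)) := by
          rw [posUnipotent_eq]
          refine C.grp_le fun s hs t => ?_
          have : grp D F {r} ≤ Subgroup.centralizer {C.xg s t} := C.grp_le fun q hq a => by
            rw [Set.mem_singleton_iff.1 hq, Subgroup.mem_centralizer_singleton_iff]
            by_cases hsr : s = r
            · subst hsr; rw [C.xg_add hr, C.xg_add hr, add_comm]
            · have hev : T.evenC r s = true := by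
                rcases hcent s hs.1 with (h' | h') | h'
                · have h'' := ((C.root.pos_iff s).1 hs).2
                  simp only [Fast.aux] at h''
                  rw [Bool.eq_false_iff, ne_eq, ltI_iff] at h'
                  omega
                · exact absurd h' hsr
                · exact h'
              exact (C.comm_of_even hr hs.1 (C.ne_neg_of_pos hrpos hs) hev a t).eq
          rw [Subgroup.mem_centralizer_iff]
          intro y hy
          exact Subgroup.mem_centralizer_singleton_iff.1 (this hy)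
        exact (Subgroup.mem_centralizer_iff.1 (this hv) y hy).symm
      have h3 := h2 _ h1 u hu
      rwa [show u * h * x * (u * h)⁻¹ = u * (h * x * h⁻¹) * u⁻¹ by group, h3.eq, mul_inv_cancel_right]
    intro b hb
    refine le_antisymm (by rintro _ ⟨x, hx, rfl⟩; exact hle b hb x hx) fun x hx => ?_
    exact ⟨b⁻¹ * x * b, by simpa using hle b⁻¹ (inv_mem hb) x hx, by simp [mul_assoc]⟩
  obtain ⟨b, hb, n, hn, u, hu, rfl⟩ := C.exists_bnu hg
  set s := C.sg n r with hsdef
  have hs : s < D.nroots := C.sg_lt hn hr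
  have hnX : (D.rootSubgroup F r).map (MulAut.conj n).toMonoidHom = D.rootSubgroup F s := by
    obtain ⟨c, hc0, hc⟩ := C.sg_conj hn hr
    rw [rootSubgroup_eq, rootSubgroup_eq]
    refine le_antisymm ?_ (C.grp_le fun q hq t => ?_)
    · rintro _ ⟨x, hx, rfl⟩
      exact C.conj_mem_of_image hn (by simp [hr]) (by simp [← hsdef]) hx
    · rw [Set.mem_singleton_iff.1 hq]
      refine ⟨C.xg r (c⁻¹ * t), C.xg_mem (S := {r}) rfl _, ?_⟩
      show n * C.xg r (c⁻¹ * t) * n⁻¹ = _
      rw [hc, mul_inv_cancel_left₀ hc0]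
  have hcomp : ∀ (H : Subgroup (GL D.Idx F)) (x y : GL D.Idx F),
      H.map (MulAut.conj (x * y)).toMonoidHom =
        (H.map (MulAut.conj y).toMonoidHom).map (MulAut.conj x).toMonoidHom := by
    intro H x y
    rw [Subgroup.map_map]
    congr 1
    ext z
    simp [mul_assoc]
  have hu' : u ∈ D.borelSubgroup F := Subgroup.mem_sup_left (by
    rw [posUnipotent_eq]; exact grp_mem_mono hu fun q hq => hq.1)
  have hK : (D.rootSubgroup F r) ⊔ (D.rootSubgroup F r).map (MulAut.conj (b * n * u)).toMonoidHom =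
      (D.rootSubgroup F r ⊔ D.rootSubgroup F s).map (MulAut.conj b).toMonoidHom := by
    rw [Subgroup.map_sup, hBX b hb, hcomp, hcomp, hBX u hu', hnX]
  rw [hK]
  by_cases hs0 : s = 0
  · refine Or.inr ⟨b⁻¹, inv_mem (C.borel_le_group hb), ?_⟩
    rw [← hcomp, inv_mul_cancel, hs0]
    ext z
    simp
  left
  refine (?_ : IsPGroup 2 ↥(D.rootSubgroup F r ⊔ D.rootSubgroup F s)).map _
  by_cases hsr : s = r
  · rw [hsr, sup_idem]
    rintro ⟨g, hg⟩
    refine ⟨1, Subtype.ext ?_⟩
    rw [rootSubgroup_eq] at hg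
    show g ^ 2 ^ 1 = 1
    have hle : ∀ g ∈ grp D F {r}, ∃ t, g = C.xg r t := by
      let K : Subgroup (GL D.Idx F) :=
        { carrier := {g | ∃ t, g = C.xg r t}
          one_mem' := ⟨0, (C.xg_zero r).symm⟩
          mul_mem' := by rintro x y ⟨t, rfl⟩ ⟨t', rfl⟩; exact ⟨_, C.xg_add hr t t'⟩
          inv_mem' := by rintro x ⟨t, rfl⟩; exact ⟨_, C.xg_inv r t⟩ }
      exact fun g hg => (C.grp_le (H := K) fun q hq t => ⟨t, by rw [Set.mem_singleton_iff.1 hq]⟩) hg
    obtain ⟨t, rfl⟩ := hle g hg
    rw [pow_one, pow_two, C.xg_add hr, CharTwo.add_self_eq_zero, C.xg_zero]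
  refine two_group C hr hs hsr (by rw [hneg]; exact hs0) ?_
  have hlongs : longB T s = true := by
    rw [longB, allBelow_iff]
    intro x hx
    rw [← C.tables.nroots] at hx
    simp only [Bool.or_eq_true, Nat.beq_eq, ltI_iff]
    have hx' := C.sg_lt (inv_mem hn) hx
    have e : T.pr s x = T.pr r (C.sg n⁻¹ x) := by
      rw [C.pr_eq hs hx, C.pr_eq hr hx', hsdef]
      conv_lhs => rw [← C.sg_sg_inv hn hx, C.pair_sg hn hr hx']
    have h4 := hlong
    rw [longB, allBelow_iff] at h4
    have h5 := h4 _ (by rw [← C.tables.nroots]; exact hx')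
    simp only [Bool.or_eq_true, Nat.beq_eq, ltI_iff] at h5
    rcases h5 with h5 | h5
    · left
      rw [← C.sg_sg_inv hn hx, h5]
    · right
      rw [e]; exact h5
  rcases hpairs s hs with ((h | h) | h) | h
  · exact absurd h hs0
  · exact absurd h hsr
  · rw [hlongs] at h; exact absurd h (by simp)
  · exact h

end Cfsg.Agent.S2186
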