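import Cfsg.Statements.S2192
import Cfsg.Agent.Lib.MinDegChev.TriD4Sub
import Cfsg.Agent.Lib.MinDegChev.TriD4Main
-- import your own Cfsg.Agent.* helpers here

set_option autoImplicit false
open Cfsg Cfsg.Agent Cfsg.Agent.Lib Cfsg.Agent.Lib.Chev

namespace Cfsg.Agent.S2192

/-- In the twisted group ³D₄(q), realised inside the Chevalley group of type D₄ over the field K with q³ elements (q a power of the characteristic) as the subgroup generated by the root elements, and products of root elements, that the twisting map fixes, the subgroup of matrices all of whose entries lie in the subfield with q elements (it contains the subgroup of type G₂ over that subfield) is a proper maximal subgroup. -/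
theorem result {K : Type*} [Field K] [Fintype K] (p : ℕ) [Fact p.Prime] [CharP K p] (q : ℕ) (hq : ∃ a : ℕ, 1 ≤ a ∧ q = p ^ a) (hK : Fintype.card K = q ^ 3) (M : Subgroup (GL Cfsg.Lie.chevD4.Idx K))
    (hM : ∀ g : GL Cfsg.Lie.chevD4.Idx K, g ∈ M ↔ g ∈ Cfsg.Lie.twistedD4 K q ∧ ∀ i j : Cfsg.Lie.chevD4.Idx, ((g : Matrix Cfsg.Lie.chevD4.Idx Cfsg.Lie.chevD4.Idx K) i j) ^ q = (g : Matrix Cfsg.Lie.chevD4.Idx Cfsg.Lie.chevD4.Idx K) i j) :
    M ≠ Cfsg.Lie.twistedD4 K q ∧ ∀ H : Subgroup (GL Cfsg.Lie.chevD4.Idx K), M ≤ H → H ≤ Cfsg.Lie.twistedD4 K q → H = M ∨ H = Cfsg.Lie.twistedD4 K q := by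
  obtain ⟨a, ha, rfl⟩ := hq
  have hpp : IsPrimePow (p ^ a) := ⟨p, a, (Fact.out : p.Prime).prime, ha, rfl⟩
  obtain ⟨φ, hφ⟩ := exists_frob hpp (by norm_num) hK
  have h2 : 2 ≤ p ^ a := hpp.two_le
  have hMeq : M = Lib.MinDegChev.fixG (p ^ a) φ := by
    ext g
    rw [hM, Lib.MinDegChev.mem_fixG]
    refine and_congr Iff.rfl ⟨fun h => Units.ext ?_, fun h i j => ?_⟩
    · funext i j
      show φ ((g : Matrix Cfsg.Lie.chevD4.Idx Cfsg.Lie.chevD4.Idx K) i j) = _
      rw [hφ, h i j]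
    · have := congrFun (congrFun (congrArg (fun x : GL Cfsg.Lie.chevD4.Idx K => (x : Matrix Cfsg.Lie.chevD4.Idx Cfsg.Lie.chevD4.Idx K)) h) i) j
      rw [← hφ]
      exact this
  rw [hMeq]
  exact Lib.MinDegChev.fixG_maximal φ hφ hK h2

end Cfsg.Agent.S2192
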