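import Cfsg.Statements.S2205
import Cfsg.Agent.Lib.DoublyPrimSq.Even

set_option autoImplicit false
open Cfsg

namespace Cfsg.Agent.S2205

open MulAction Cfsg.Agent.Lib.DoublyPrimSq

theorem order_twenty {G Ω : Type*} [Group G] [Finite G] [Fintype Ω] [MulAction G Ω] [FaithfulSMul G Ω]
    (hΩ : Fintype.card Ω = 2 ^ 2 + 1) (h2 : IsMultiplyPretransitive G Ω 2) (a : Ω)
    (hnp : ¬ IsPreprimitive ↥(stabilizer G a) ↥(SubMulAction.ofStabilizer G a)) : Nat.card G = 20 := by
  classical
  obtain ⟨N, β, b, hS⟩ := exists_setup Nat.prime_two hΩ h2 a hnp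
  have := stab_faithful (G := G) a
  have hH : Nat.card (stabilizer ↥(stabilizer G a) b) = 1 := by
    rw [Nat.card_eq_one_iff_unique]
    refine ⟨⟨fun x y => ?_⟩, ⟨1⟩⟩
    suffices h : ∀ z : stabilizer ↥(stabilizer G a) b, z = 1 by rw [h x, h y]
    intro z
    have hodd : Nat.Coprime (orderOf z) 2 := by
      rw [Nat.coprime_comm, Nat.prime_two.coprime_iff_not_dvd]
      exact fun hd => hS.cop (hd.trans (orderOf_dvd_natCard z))
    have h2z : z ^ 2 = 1 := by
      refine Subtype.ext (eq_of_smul_eq_smul (α := ↥(SubMulAction.ofStabilizer G a)) fun y => ?_)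
      rw [Subgroup.coe_pow, Subgroup.coe_one, one_smul, pow_two, mul_smul]
      set m : ↥(stabilizer G a) := (z : ↥(stabilizer G a)) with hm
      have hmb : m • b = b := z.2
      have hw : ∀ w : ↥(stabilizer G a) ⧸ N, m • w = w := by
        intro w
        by_cases h : w = β b
        · rw [h, ← hS.equiv, hmb]
        · by_contra hne
          have := Fintype.ofFinite (↥(stabilizer G a) ⧸ N)
          have h1 : m • w ≠ β b := fun e => h (MulAction.injective m
            (show m • w = m • β b by rw [e, ← hS.equiv, hmb]))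
          have h3 : ({β b, w, m • w} : Finset (↥(stabilizer G a) ⧸ N)).card = 3 := by
            rw [Finset.card_insert_of_notMem, Finset.card_insert_of_notMem, Finset.card_singleton]
            · simp [Ne.symm hne]
            · simp [Ne.symm h, Ne.symm h1]
          have h4 := Finset.card_le_univ ({β b, w, m • w} : Finset (↥(stabilizer G a) ⧸ N))
          rw [h3, ← Nat.card_eq_fintype_card, hS.cardW] at h4
          omega
      by_contra hne
      have h1 : m • y ≠ y := fun e => hne (by rw [e, e])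
      have h2' : m • m • y ≠ m • y := fun e => h1 (MulAction.injective m e)
      have h3 : ({y, m • y, m • m • y} : Set ↥(SubMulAction.ofStabilizer G a)).ncard = 3 := by
        rw [Set.ncard_insert_of_notMem, Set.ncard_insert_of_notMem, Set.ncard_singleton]
        · simp [Ne.symm h2']
        · simp [Ne.symm h1, Ne.symm hne]
      have h4 := Set.ncard_le_ncard (t := {u | β u = β y})
        (show ({y, m • y, m • m • y} : Set ↥(SubMulAction.ofStabilizer G a)) ⊆ {u | β u = β y} by
          rintro u (rfl | rfl | rfl) <;> simp [hS.equiv, hw]) (Set.toFinite _)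
      rw [h3, ← Nat.card_coe_set_eq] at h4
      have h5 : Nat.card {u : ↥(SubMulAction.ofStabilizer G a) | β u = β y} = 2 := hS.fib (β y)
      omega
    have h1 := Nat.eq_one_of_dvd_coprimes hodd dvd_rfl (orderOf_dvd_of_pow_eq_one h2z)
    exact orderOf_eq_one_iff.mp h1
  have htr : IsPretransitive G Ω := by
    refine ⟨fun x y => ?_⟩
    by_cases hxy : x = y
    · exact ⟨1, by rw [one_smul, hxy]⟩
    · obtain ⟨g, hg, -⟩ := MulAction.is_two_pretransitive_iff.mp h2 hxy (Ne.symm hxy)
      exact ⟨g, hg⟩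
  rw [← Subgroup.index_mul_card (stabilizer G a), index_stabilizer_of_transitive,
    Nat.card_eq_fintype_card (α := Ω), hΩ, hS.card_group b, hH]
  norm_num

/-- A finite group acting faithfully and 2-transitively on a set with p² + 1 points, p a prime, is doubly primitive — a point stabilizer acts primitively on the remaining p² points — unless p = 2 and the group is the Frobenius group of order 20. -/
theorem result {G Ω : Type*} [Group G] [Finite G] [Fintype Ω] [MulAction G Ω] [FaithfulSMul G Ω] (p : ℕ) (hp : p.Prime) (hΩ : Fintype.card Ω = p ^ 2 + 1) (h2 : MulAction.IsMultiplyPretransitive G Ω 2) (a : Ω) :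
    MulAction.IsPreprimitive ↥(MulAction.stabilizer G a) ↥(SubMulAction.ofStabilizer G a) ∨ (p = 2 ∧ Nat.card G = 20) := by
  classical
  by_cases hprim : IsPreprimitive ↥(stabilizer G a) ↥(SubMulAction.ofStabilizer G a)
  · exact Or.inl hprim
  refine Or.inr ?_
  by_cases hp2 : p = 2
  · subst hp2
    exact ⟨rfl, order_twenty hΩ h2 a hprim⟩
  exfalso
  -- the subgroup of even permutations
  let sg : G →* ℤˣ := Equiv.Perm.sign.comp (MulAction.toPermHom G Ω)
  have hodd : ∀ (g : G) (k : ℕ), g ^ (p ^ k) = 1 → g ∈ sg.ker := by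
    intro g k hg
    rw [MonoidHom.mem_ker]
    have h1 : sg g ^ (p ^ k) = 1 := by rw [← map_pow, hg, map_one]
    rcases Int.units_eq_one_or (sg g) with h | h
    · exact h
    · rw [h, ((hp.odd_of_ne_two hp2).pow).neg_one_pow] at h1
      exact absurd h1 (by decide)
  -- the regular subgroups move points transitively
  have hmove : ∀ c x y : Ω, x ≠ c → y ≠ c → ∃ g ∈ sg.ker, g • c = c ∧ g • x = y := by
    intro c x y hx hy
    have hnpc : ¬ IsPreprimitive ↥(stabilizer G c) ↥(SubMulAction.ofStabilizer G c) → ∃ g ∈ sg.ker, g • c = c ∧ g • x = y := by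
      intro h
      obtain ⟨N, β, b, hS⟩ := exists_setup hp hΩ h2 c h
      have := stab_faithful (G := G) c
      obtain ⟨P, q, hD⟩ := hS.exists_syl
      obtain ⟨z, hz, hzxy⟩ := hD.transP hS ⟨x, hx⟩ ⟨y, hy⟩
      exact ⟨z, hodd _ 2 (congrArg Subtype.val (hD.pow_sq hz)), z.2, congrArg Subtype.val hzxy⟩
    have hca : ∃ g : G, g • a = c := by
      by_cases h : a = c
      · exact ⟨1, by rw [one_smul, h]⟩
      · obtain ⟨g, hg, -⟩ := MulAction.is_two_pretransitive_iff.mp h2 h (Ne.symm h)
        exact ⟨g, hg⟩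
    obtain ⟨g, hg⟩ := hca
    -- transport from `a`
    obtain ⟨N, β, b, hS⟩ := exists_setup hp hΩ h2 a hprim
    have := stab_faithful (G := G) a
    obtain ⟨P, q, hD⟩ := hS.exists_syl
    have hx' : g⁻¹ • x ≠ a := fun e => hx (by rw [← hg, ← e, smul_inv_smul])
    have hy' : g⁻¹ • y ≠ a := fun e => hy (by rw [← hg, ← e, smul_inv_smul])
    obtain ⟨z, hz, hzxy⟩ := hD.transP hS ⟨g⁻¹ • x, hx'⟩ ⟨g⁻¹ • y, hy'⟩
    refine ⟨g * (z : G) * g⁻¹, ?_, ?_, ?_⟩
    · exact (MonoidHom.normal_ker sg).conj_mem _ (hodd _ 2 (congrArg Subtype.val (hD.pow_sq hz))) g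
    · rw [mul_smul, mul_smul, inv_smul_eq_iff.mpr hg.symm, mem_stabilizer_iff.mp z.2, hg]
    · rw [mul_smul, mul_smul, show (z : G) • g⁻¹ • x = g⁻¹ • y from congrArg Subtype.val hzxy,
        smul_inv_smul]
  have hthird : ∀ x y : Ω, ∃ z, z ≠ x ∧ z ≠ y := by
    intro x y
    by_contra hno
    push Not at hno
    have h : (Finset.univ : Finset Ω) ⊆ {x, y} := fun z _ => by
      by_cases hz : z = x
      · simp [hz]
      · simp [hno z hz]
    have h1 := (Finset.card_le_card h).trans Finset.card_le_two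
    rw [Finset.card_univ, hΩ] at h1
    have := Nat.one_lt_pow two_ne_zero hp.one_lt
    omega
  have h2K : IsMultiplyPretransitive sg.ker Ω 2 := by
    rw [MulAction.is_two_pretransitive_iff]
    intro x y u v hxy huv
    have hto : ∀ x u : Ω, ∃ g ∈ sg.ker, g • x = u := by
      intro x u
      obtain ⟨c, hcx, hcu⟩ := hthird x u
      obtain ⟨g, hg, -, hgxu⟩ := hmove c x u (Ne.symm hcx) (Ne.symm hcu)
      exact ⟨g, hg, hgxu⟩
    obtain ⟨g, hg, hgx⟩ := hto x u
    have hgy : g • y ≠ u := fun e => hxy (MulAction.injective g (hgx.trans e.symm))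
    obtain ⟨k, hk, hku, hky⟩ := hmove u (g • y) v hgy (Ne.symm huv)
    refine ⟨⟨k * g, mul_mem hk hg⟩, ?_, ?_⟩
    · show (k * g) • x = u
      rw [mul_smul, hgx, hku]
    · show (k * g) • y = v
      rw [mul_smul, hky]
  have hnpK : ¬ IsPreprimitive ↥(stabilizer sg.ker a) ↥(SubMulAction.ofStabilizer sg.ker a) := by
    intro h
    let φ : ↥(stabilizer sg.ker a) → ↥(stabilizer G a) := fun m => ⟨((m : sg.ker) : G), m.2⟩
    let f : ↥(SubMulAction.ofStabilizer sg.ker a) →ₑ[φ] ↥(SubMulAction.ofStabilizer G a) :=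
      { toFun := fun y => ⟨(y : Ω), y.2⟩
        map_smul' := fun m y => rfl }
    exact hprim (IsPreprimitive.of_surjective (f := f) fun y => ⟨⟨(y : Ω), y.2⟩, rfl⟩)
  exact even_case hp hp2 hΩ h2K a hnpK fun g => g.2

end Cfsg.Agent.S2205
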