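import Cfsg.Statements.S2209

import Cfsg.Agent.Lib.Chev.RootCent
import Cfsg.Agent.Lib.Chev.All
set_option autoImplicit false
open Cfsg

namespace Cfsg.Agent.S2209

open Cfsg.Lie Cfsg.Agent.Lib.Chev

/-- all table checks for the centraliser of `x_r(1)` -/
def allChecks (T : Fast) (r : ℕ) (J : List ℕ) (M : List (List ℤ)) (negs : List ℕ) : Bool :=
  T.abCheck [r] && T.fixCheck [r] [r] && T.stabCheck [(r, 1)] J && T.torCheck [r] J M &&
    T.centCheck [r] J && beqC (negs.map fun s => (s, (0 : ℤ))) (J.map fun j => (T.ng (T.sp j), (0 : ℤ))) &&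
    Nat.beq (r + 1) T.n

theorem chkE6 : allChecks E6.fast 71 [0, 2, 3, 4, 5] [[], [1], [], [], [], []]
    [15, 29, 32, 34, 35] = true := by decide +kernel
theorem chkE7 : allChecks E7.fast 125 [1, 2, 3, 4, 5, 6] [[1], [], [], [], [], [], []]
    [47, 52, 56, 59, 61, 62] = true := by decide +kernel
theorem chkE8 : allChecks E8.fast 239 [0, 1, 2, 3, 4, 5, 6] [[], [], [], [], [], [], [], [1]]
    [77, 98, 104, 109, 113, 116, 118] = true := by decide +kernel

theorem main {F : Type*} [Field F] [CharP F 2] {D : ChevalleyDatum} {T : Fast} (C : Checked D T)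
    {r : ℕ} {J : List ℕ} {M : List (List ℤ)} {negs : List ℕ} (hchk : allChecks T r J M negs = true)
    (t : GL D.Idx F) (ht : (t : Matrix D.Idx D.Idx F) = D.x F (D.nroots - 1) 1) :
    D.group F ⊓ Subgroup.centralizer {t} = D.posUnipotent F ⊔
      Subgroup.closure {g : GL D.Idx F | ∃ s ∈ negs, ∃ c : F, (g : Matrix D.Idx D.Idx F) = D.x F s c} := by
  simp only [allChecks, Bool.and_eq_true, Nat.beq_eq] at hchk
  obtain ⟨⟨⟨⟨⟨⟨hab, hfix⟩, hst⟩, hM⟩, hc⟩, hnegs⟩, hn⟩ := hchk
  have hjl : ∀ j ∈ J, j < T.l := by
    intro j hj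
    simp only [Fast.centCheck, List.all_eq_true, Bool.and_eq_true, Nat.blt_eq] at hc
    exact ((hc r (by simp)).2 j hj).1.1
  have hnegs' : negs = J.map fun j => T.ng (T.sp j) := by
    have := congrArg (List.map Prod.fst) (beqC_eq hnegs)
    simpa [List.map_map, Function.comp_def] using this
  have hy : C.wg ([r].map fun r => (r, (1 : F))) = t := by
    refine Units.ext ?_
    rw [ht, show D.nroots - 1 = r by rw [C.tables.nroots, ← hn]; omega]
    simp [C.wg_cons, C.wg_nil]
  rw [← hy]
  refine C.central_cent (by simp) hab hfix hst hM hc (by simp) ?_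
  congr 1
  show grp D F {s | s ∈ negs} = _
  congr 1
  ext s
  rw [Set.mem_setOf_eq, Set.mem_setOf_eq, hnegs', List.mem_map]
  have key : ∀ j ∈ J, D.neg (D.simple j) = T.ng (T.sp j) := fun j hj => by
    have hj' : j < D.rank := C.tables.rank ▸ hjl j hj
    rw [C.tables.neg _ (C.root.simple_lt j hj'), C.tables.simple j hj']
  exact ⟨fun ⟨j, hj, h⟩ => ⟨j, hj, by rw [key j hj]; exact h.symm⟩,
    fun ⟨j, hj, h⟩ => ⟨j, hj, by rw [h, key j hj]⟩⟩

/-- Centralizer of a long root involution in the Chevalley groups of type E₆, E₇, E₈ over a finite field F of characteristic two. Let G be the group generated by the root elements, U the subgroup generated by the positive root subgroups, r the highest root (the last root index: 71, 125, 239 respectively), and t the element of G with matrix x_r(1). Then the centralizer of t in G is the subgroup generated by U together with the root subgroups X_{−p} for the fundamental roots p orthogonal to r — all fundamental roots except p₂ for E₆, except p₁ for E₇, except p₈ for E₈ (numbering with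 p₁–p₃–p₄–…–p_l the long chain and p₂ joined to p₄); the indices of these negative fundamental roots are 15, 29, 32, 34, 35 (E₆), 47, 52, 56, 59, 61, 62 (E₇), 77, 98, 104, 109, 113, 116, 118 (E₈). (This is the unipotent radical of the corresponding maximal parabolic subgroup extended by the root subgroups of its Levi factor, of type A₅, D₆, E₇ respectively.) -/
theorem result {F : Type*} [Field F] [Fintype F] [CharP F 2] (d : Cfsg.Lie.ChevalleyDatum × List ℕ)
    (hd : d ∈ [(Cfsg.Lie.chevE6, [15, 29, 32, 34, 35]), (Cfsg.Lie.chevE7, [47, 52, 56, 59, 61, 62]), (Cfsg.Lie.chevE8, [77, 98, 104, 109, 113, 116, 118])])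
    (t : GL d.1.Idx F) (ht : (t : Matrix d.1.Idx d.1.Idx F) = d.1.x F (d.1.nroots - 1) 1) :
    d.1.group F ⊓ Subgroup.centralizer {t} = d.1.posUnipotent F ⊔ Subgroup.closure {g : GL d.1.Idx F | ∃ s ∈ d.2, ∃ c : F, (g : Matrix d.1.Idx d.1.Idx F) = d.1.x F s c} := by
  simp only [List.mem_cons, List.not_mem_nil, or_false] at hd
  rcases hd with rfl | rfl | rfl
  · exact main E6.checked chkE6 t ht
  · exact main E7.checked chkE7 t ht
  · exact main E8.checked chkE8 t ht

end Cfsg.Agent.S2209
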