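import Cfsg.Statements.S2214

import Cfsg.Agent.Lib.Chev.Extra
import Cfsg.Agent.Lib.Chev.FieldAut
import Cfsg.Agent.Lib.Chev.All
set_option autoImplicit false
open Cfsg

namespace Cfsg.Agent.S2214

open Cfsg.Lie Cfsg.Agent.Lib.Chev

section
variable {k : Type*} [Field k]

/-- The subgroup generated by the root elements with parameters fixed by `φ`. -/
def ratGroup (D : ChevalleyDatum) (φ : k →+* k) : Subgroup (GL D.Idx k) :=
  Subgroup.closure {g | ∃ (s : ℕ) (t : k), φ t = t ∧ (g : Matrix D.Idx D.Idx k) = D.x k s t}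

variable {D : ChevalleyDatum} {T : Fast} (C : Checked D T) {φ : k →+* k}
include C

theorem xg_mem_rat (s : ℕ) {t : k} (ht : φ t = t) : C.xg s t ∈ ratGroup D φ :=
  Subgroup.subset_closure ⟨s, t, ht, rfl⟩

theorem fixed_unipotent_mem {S : Set ℕ} (hS : ClosedSet D S) {u : GL D.Idx k}
    (hu : u ∈ grp D k S) (hf : gmap D φ u = u) : u ∈ ratGroup D φ := by
  obtain ⟨t, rfl⟩ := C.exists_ordered hS hu
  have hlt : ∀ p ∈ (C.rootList S).map (fun r => (r, t r)), p.1 < D.nroots := by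
    intro p hp
    obtain ⟨r, hr, rfl⟩ := List.mem_map.1 hp
    exact (C.mem_rootList.1 hr).1
  rw [C.gmap_wg _ _ hlt, List.map_map] at hf
  have hco := C.ordered_inj _ (C.rootList_sorted S)
    (fun r hr => hS.pos r (C.mem_rootList.1 hr).2) (fun r => φ (t r)) t hf
  refine Subgroup.list_prod_mem _ fun x hx => ?_
  obtain ⟨q, hq, rfl⟩ := List.mem_map.1 hx
  obtain ⟨r, hr, rfl⟩ := List.mem_map.1 hq
  exact xg_mem_rat C r (hco r hr)

theorem diag_conj_rat {h : GL D.Idx k} (hh : h ∈ D.diagonalSubgroup k) (hf : gmap D φ h = h)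
    {e : GL D.Idx k} (he : e ∈ ratGroup D φ) : h * e * h⁻¹ ∈ ratGroup D φ := by
  have hle : ratGroup D φ ≤ (ratGroup D φ).comap (MulAut.conj h).toMonoidHom := by
    refine (Subgroup.closure_le _).2 ?_
    rintro g ⟨s, t, ht, hg⟩
    rw [C.eq_xg hg]
    show h * C.xg s t * h⁻¹ ∈ ratGroup D φ
    by_cases hs : s < D.nroots
    · obtain ⟨χ, hχ, e⟩ := C.exists_chr hh
      have hfix : φ (χ s) = χ s := by
        have h2 := congrArg Units.val hf
        rw [val_gmap, e] at h2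
        have h3 : dg D (fun v => φ (χ v)) = dg D χ := by
          rw [← h2, dg, dg, Matrix.diagonal_map (map_zero φ)]
          congr 1
          funext a
          rcases a with i | u <;> simp
        exact dg_inj h3 s hs
      rw [show h * C.xg s t * h⁻¹ = C.xg s (χ s * t) by
        rw [mul_inv_eq_iff_eq_mul]
        exact Units.ext (by simp only [Units.val_mul, e, Checked.val_xg]; exact C.dg_x hχ hs t)]
      exact xg_mem_rat C s (by rw [map_mul, hfix, ht])
    · rw [show C.xg s t = 1 from Units.ext (x_of_ge hs t), mul_one, mul_inv_cancel]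
      exact one_mem _
  exact hle he


theorem exists_rep {K₀ : Type*} [Field K₀] (ι : K₀ →+* k) (hι : ∀ c, φ (ι c) = ι c)
    {n : GL D.Idx k} (hn : n ∈ D.monomialSubgroup k) :
    ∃ m ∈ D.monomialSubgroup k, m ∈ ratGroup D φ ∧ gmap D φ m = m ∧
      n⁻¹ * m ∈ D.diagonalSubgroup k := by
  obtain ⟨m, hm, hd⟩ := C.exists_rep_base ι hn
  refine ⟨gmap D ι m, C.gmap_monomial ι hm, ?_, ?_, hd⟩
  · have hle : D.group K₀ ≤ (ratGroup D φ).comap (gmap D ι) := C.group_le fun r hr t => by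
      show gmap D ι (C.xg r t) ∈ ratGroup D φ
      rw [C.gmap_xg ι hr]
      exact xg_mem_rat C r (hι t)
    exact hle (C.monomial_le_group hm)
  · rw [gmap_gmap, show φ.comp ι = ι from RingHom.ext hι]

theorem exists_eh {K₀ : Type*} [Field K₀] (ι : K₀ →+* k) (hι : ∀ c, φ (ι c) = ι c)
    {g : GL D.Idx k} (hg : g ∈ D.group k) (hfix : gmap D φ g = g) :
    ∃ e ∈ ratGroup D φ, ∃ h ∈ D.diagonalSubgroup k, gmap D φ h = h ∧ g = e * h := by
  obtain ⟨b₀, hb₀, n₀, hn₀, u, hu₀, rfl⟩ := C.exists_bnu hg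
  obtain ⟨n, hnm, hnE, hnfix, hd⟩ := exists_rep C ι hι hn₀
  have hinv : C.inv n₀ = C.inv n := C.inv_congr fun r hr => by
    have := C.sg_mul hn₀ (C.diag_le_monomial hd) hr
    rw [mul_inv_cancel_left, C.sg_diag hd hr] at this
    exact this.symm
  set b := b₀ * (n₀ * n⁻¹) with hbdef
  have hb : b ∈ D.borelSubgroup k := by
    refine mul_mem hb₀ (Subgroup.mem_sup_right ?_)
    have h3 := C.mono_conj_diag hnm _ (inv_mem hd)
    convert h3 using 1
    group
  have hu : u ∈ grp D k (C.inv n) := hinv ▸ hu₀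
  have e0 : b₀ * n₀ * u = b * n * u := by rw [hbdef]; group
  rw [e0] at hfix ⊢
  rw [map_mul, map_mul, hnfix] at hfix
  obtain ⟨hbfix, hufix⟩ := (C.bnu_unique (C.gmap_borel _ hb) hb hnm hnm
    (C.gmap_grp φ (fun r hr => hr.1.1) hu) hu hfix).2 rfl
  obtain ⟨v, hv, h, hh, hbv⟩ := C.mem_borel.1 hb
  rw [hbv, map_mul] at hbfix
  have hσv : gmap D φ v ∈ D.posUnipotent k := by
    rw [posUnipotent_eq] at hv ⊢; exact C.gmap_grp _ (fun r hr => hr.1) hv
  have h1 : v⁻¹ * gmap D φ v = h * (gmap D φ h)⁻¹ := by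
    rw [eq_mul_inv_iff_mul_eq, mul_assoc, hbfix, inv_mul_cancel_left]
  have h3 : v⁻¹ * gmap D φ v = 1 :=
    C.eq_one_of_uni_mono (mul_mem (inv_mem hv) hσv)
      (h1 ▸ C.diag_le_monomial (mul_mem hh (inv_mem (C.gmap_diag _ hh))))
  have hvfix : gmap D φ v = v := (inv_mul_eq_one.1 h3).symm
  have hhfix : gmap D φ h = h := (mul_inv_eq_one.1 (h1.symm.trans h3)).symm
  have hvE : v ∈ ratGroup D φ := by
    rw [posUnipotent_eq] at hv; exact fixed_unipotent_mem C C.closedSet_pos hv hvfix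
  have huE := fixed_unipotent_mem C (C.closedSet_inv hnm) hu hufix
  refine ⟨v * (h * (n * u) * h⁻¹), mul_mem hvE (diag_conj_rat C hh hhfix (mul_mem hnE huE)), h, hh,
    hhfix, ?_⟩
  rw [hbv]; group

theorem centralizer_trivial {K₀ : Type*} [Field K₀] (ι : K₀ →+* k) (hι : ∀ c, φ (ι c) = ι c)
    {g : GL D.Idx k} (hg : g ∈ D.group k) (hc : ∀ x ∈ ratGroup D φ, x * g = g * x) : g = 1 := by
  have hx1 : ∀ r, C.xg r (1 : k) ∈ ratGroup D φ := fun r => xg_mem_rat C r (map_one φ)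
  have hgx : ∀ x ∈ ratGroup D φ, g * x * g⁻¹ = x := fun x hx => by
    rw [← hc x hx, mul_inv_cancel_right]
  have hB : g ∈ D.borelSubgroup k := C.mem_borel_of_simple hg fun i hi => by
    rw [hgx _ (hx1 _)]; exact C.xg_mem_pos (C.root.pos_simple hi) 1
  obtain ⟨n₀, hn₀, hlong, -⟩ := C.exists_pos_to_neg k
  obtain ⟨m, hm, hmE, -, hd⟩ := exists_rep C ι hι hn₀
  have hsg : ∀ r < D.nroots, C.sg m r = C.sg n₀ r := fun r hr => by
    have := C.sg_mul hn₀ (C.diag_le_monomial hd) hr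
    rw [mul_inv_cancel_left, C.sg_diag hd hr] at this
    exact this
  have hV : g ∈ D.negUnipotent k ⊔ D.diagonalSubgroup k := by
    obtain ⟨v, hv, h, hh, hgv⟩ := C.mem_borel.1 hB
    have e : g = (m * v * m⁻¹) * (m * h * m⁻¹) := by
      conv_lhs => rw [← mul_inv_cancel_right g m, ← hc m hmE, hgv]
      group
    rw [e]
    refine mul_mem (Subgroup.mem_sup_left ?_) (Subgroup.mem_sup_right (C.mono_conj_diag hm h hh))
    rw [negUnipotent_eq]
    rw [posUnipotent_eq] at hv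
    exact C.conj_mem_of_image hm (fun r hr => hr.1) (fun r hr => by
      show D.IsNegRoot _
      rw [hsg r hr.1]; exact hlong r hr) hv
  have hH : g ∈ D.diagonalSubgroup k := by
    rw [← C.borel_inf_opp]; exact Subgroup.mem_inf.2 ⟨hB, hV⟩
  obtain ⟨χ, hχ, e⟩ := C.exists_chr hH
  refine Units.ext ?_
  rw [e, Units.val_one, ← dg_one]
  refine dg_congr fun r hr => ?_
  have h1 := hgx _ (hx1 r)
  rw [show g * C.xg r 1 * g⁻¹ = C.xg r (χ r * 1) by
    rw [mul_inv_eq_iff_eq_mul]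
    exact Units.ext (by simp only [Units.val_mul, e, Checked.val_xg]; exact C.dg_x hχ hr 1),
    mul_one] at h1
  exact C.xg_inj hr h1

theorem conj_mem_of_fixed {K₀ : Type*} [Field K₀] (ι : K₀ →+* k) (hι : ∀ c, φ (ι c) = ι c)
    {K : Subgroup (GL D.Idx k)} (hE : ratGroup D φ ≤ K) (hK : ∀ x ∈ K, x ∈ D.group k)
    (hKf : ∀ x ∈ K, gmap D φ x = x) {g : GL D.Idx k} (hg : g ∈ D.group k) (hf : gmap D φ g = g)
    {x : GL D.Idx k} (hx : x ∈ K) : g * x * g⁻¹ ∈ K := by
  obtain ⟨e, he, h, hh, hhf, rfl⟩ := exists_eh C ι hι hg hf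
  obtain ⟨e', he', h', hh', hhf', rfl⟩ := exists_eh C ι hι (hK x hx) (hKf x hx)
  have hcm : h * h' = h' * h := C.diag_comm hh hh'
  have key : e * h * (e' * h') * (e * h)⁻¹ =
      (e * (h * e' * h⁻¹) * (h' * e⁻¹ * h'⁻¹) * e'⁻¹) * (e' * h') := by
    calc e * h * (e' * h') * (e * h)⁻¹ = e * (h * e' * h⁻¹) * (h * h') * h⁻¹ * e⁻¹ := by group
      _ = e * (h * e' * h⁻¹) * (h' * h) * h⁻¹ * e⁻¹ := by rw [hcm]
      _ = _ := by group
  rw [key]
  exact mul_mem (hE (mul_mem (mul_mem (mul_mem he (diag_conj_rat C hh hhf he'))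
    (diag_conj_rat C hh' hhf' (inv_mem he))) (inv_mem he'))) hx

end

/-- Let k be an algebraically closed field of prime characteristic p, G the adjoint Chevalley group of type G₂, B₂, D₄, F₄, E₆, E₇ or E₈ over k (the matrix group generated by the root elements x_s(t), t ∈ k, acting on the Lie algebra), q = p^a with a ≥ 1, and K a subgroup of G containing every root element x_s(t) with t^q = t and consisting of matrices all of whose entries c satisfy c^q = c. Then the centralizer of K in G is trivial, and the normalizer of K in G is exactly the set of elements of G all of whose entries c satisfy c^q = c. -/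
theorem result {k : Type*} [Field k] [IsAlgClosed k] (p : ℕ) [Fact p.Prime] [CharP k p] (D : Cfsg.Lie.ChevalleyDatum) (hD : D ∈ [Cfsg.Lie.chevG2, Cfsg.Lie.chevB2, Cfsg.Lie.chevD4, Cfsg.Lie.chevF4, Cfsg.Lie.chevE6, Cfsg.Lie.chevE7, Cfsg.Lie.chevE8]) (a : ℕ) (ha : 1 ≤ a) (K : Subgroup (GL D.Idx k)) (hKG : K ≤ D.group k)
    (hLK : Subgroup.closure {g : GL D.Idx k | ∃ (s : ℕ) (t : k), t ^ (p ^ a) = t ∧ (g : Matrix D.Idx D.Idx k) = D.x k s t} ≤ K)
    (hKfix : ∀ g ∈ K, ∀ i j : D.Idx, ((g : Matrix D.Idx D.Idx k) i j) ^ (p ^ a) = (g : Matrix D.Idx D.Idx k) i j) :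
    D.group k ⊓ Subgroup.centralizer (K : Set (GL D.Idx k)) = ⊥ ∧
    ∀ g : GL D.Idx k, g ∈ D.group k → (g ∈ Subgroup.normalizer (K : Set (GL D.Idx k)) ↔ ∀ i j : D.Idx, ((g : Matrix D.Idx D.Idx k) i j) ^ (p ^ a) = (g : Matrix D.Idx D.Idx k) i j) := by
  obtain ⟨T, C⟩ := exists_checked hD
  set φ : k →+* k := iterateFrobenius k p a with hφ
  have hφd : ∀ c, φ c = c ^ (p ^ a) := fun c => iterateFrobenius_def p a c
  have hι : ∀ c : ZMod p, φ (ZMod.castHom dvd_rfl k c) = ZMod.castHom dvd_rfl k c := fun c => by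
    rw [hφd, ← map_pow, ZMod.pow_card_pow]
  have hfix : ∀ g : GL D.Idx k, gmap D φ g = g ↔
      ∀ i j, ((g : Matrix D.Idx D.Idx k) i j) ^ (p ^ a) = (g : Matrix D.Idx D.Idx k) i j := by
    intro g
    constructor
    · intro h i j
      rw [← hφd]
      exact congrArg (fun x : GL D.Idx k => (x : Matrix D.Idx D.Idx k) i j) h
    · intro h
      refine Units.ext ?_
      funext i j
      show φ _ = _
      rw [hφd]
      exact h i j
  have hE : ratGroup D φ ≤ K := by
    refine le_trans (Subgroup.closure_mono ?_) hLK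
    rintro g ⟨s, t, ht, hg⟩
    exact ⟨s, t, hφd t ▸ ht, hg⟩
  have hcent : D.group k ⊓ Subgroup.centralizer (K : Set (GL D.Idx k)) = ⊥ := by
    refine eq_bot_iff.2 fun g hg => Subgroup.mem_bot.2 ?_
    obtain ⟨h1, h2⟩ := Subgroup.mem_inf.1 hg
    exact centralizer_trivial C _ hι h1 fun x hx => Subgroup.mem_centralizer_iff.1 h2 x (hE hx)
  refine ⟨hcent, fun g hg => ?_⟩
  rw [← hfix]
  constructor
  · intro hn
    have hmem : g⁻¹ * gmap D φ g ∈ D.group k ⊓ Subgroup.centralizer (K : Set (GL D.Idx k)) := by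
      refine Subgroup.mem_inf.2 ⟨mul_mem (inv_mem hg) (C.gmap_group φ hg), ?_⟩
      rw [Subgroup.mem_centralizer_iff]
      intro x hx
      have hy : g * x * g⁻¹ ∈ K := (Subgroup.mem_normalizer_iff.1 hn x).1 hx
      have h1 : gmap D φ g * x * (gmap D φ g)⁻¹ = g * x * g⁻¹ := by
        have := (hfix _).2 (hKfix _ hy)
        rwa [map_mul, map_mul, map_inv, (hfix x).2 (hKfix x hx)] at this
      calc x * (g⁻¹ * gmap D φ g) = g⁻¹ * (g * x * g⁻¹) * gmap D φ g := by group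
        _ = g⁻¹ * (gmap D φ g * x * (gmap D φ g)⁻¹) * gmap D φ g := by rw [h1]
        _ = g⁻¹ * gmap D φ g * x := by group
    rw [hcent, Subgroup.mem_bot, inv_mul_eq_one] at hmem
    exact hmem.symm
  · intro hf
    have hK : ∀ x ∈ K, x ∈ D.group k := fun x hx => hKG hx
    have hKf : ∀ x ∈ K, gmap D φ x = x := fun x hx => (hfix x).2 (hKfix x hx)
    refine C.mem_normalizer_of_conj
      (fun x hx => conj_mem_of_fixed C _ hι hE hK hKf hg hf hx) fun x hx => ?_
    have := conj_mem_of_fixed C _ hι hE hK hKf (inv_mem hg) (by rw [map_inv, hf]) hx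
    rwa [inv_inv] at this

end Cfsg.Agent.S2214
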