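import Cfsg.Statements.S2221
import Cfsg.Agent.Lib.Alt.Decomp
import Cfsg.Agent.Lib.Alt.NilEq

set_option autoImplicit false
open Cfsg

namespace Cfsg.Agent.S2221

open Cfsg.Agent.Lib.Alt in
/-- Degrees four and five: a Sylow 2-subgroup is elementary abelian of order four. -/
theorem small {n : ℕ} (hn : n = 4 ∨ n = 5) (P : Sylow 2 (alternatingGroup (Fin n))) :
    ∃ S₁ S₂ : Subgroup (alternatingGroup (Fin n)), S₁ ≠ ⊥ ∧ S₂ ≠ ⊥ ∧
      Cfsg.IsInternalDirectProduct S₁ S₂ (P : Subgroup (alternatingGroup (Fin n))) := by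
  haveI : Fact (Nat.Prime 2) := ⟨Nat.prime_two⟩
  have hP : Nat.card (P : Subgroup (alternatingGroup (Fin n))) = 4 := by
    have h := Nil.two_mul_sylow_card_alt (by rw [Nat.card_fin]; omega) P
    rw [Nat.card_fin] at h
    obtain ⟨-, -, n4, n5, -⟩ := Nil.nilNu_small
    rcases hn with rfl | rfl <;> simp [n4, n5] at h <;> omega
  have hexp : ∀ g : alternatingGroup (Fin n), g * g * (g * g) = 1 → g * g = 1 := by
    rcases hn with rfl | rfl <;> decide +kernel
  have hsq : ∀ g ∈ (P : Subgroup (alternatingGroup (Fin n))), g * g = 1 := by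
    intro g hg
    refine hexp g ?_
    have h := congrArg Subtype.val (pow_card_eq_one' (x := (⟨g, hg⟩ : ↥(P : Subgroup _))))
    rw [hP] at h
    simpa [pow_succ, mul_assoc] using h
  haveI : Nontrivial ↥(P : Subgroup (alternatingGroup (Fin n))) :=
    Finite.one_lt_card_iff_nontrivial.mp (by omega)
  obtain ⟨⟨a, ha⟩, ha1⟩ := exists_ne (1 : ↥(P : Subgroup (alternatingGroup (Fin n))))
  have ha1' : a ≠ 1 := fun h => ha1 (Subtype.ext h)
  have hca : Nat.card (Subgroup.zpowers a) = 2 := by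
    rw [Nat.card_zpowers]
    exact orderOf_eq_prime (by rw [pow_two]; exact hsq a ha) ha1'
  obtain ⟨b, hb, hba⟩ : ∃ b ∈ (P : Subgroup (alternatingGroup (Fin n))), b ∉ Subgroup.zpowers a := by
    by_contra h
    push Not at h
    have := Subgroup.card_le_of_le (show (P : Subgroup (alternatingGroup (Fin n))) ≤ Subgroup.zpowers a from h)
    omega
  have hb1 : b ≠ 1 := fun h => hba (h ▸ one_mem _)
  have hcb : Nat.card (Subgroup.zpowers b) = 2 := by
    rw [Nat.card_zpowers]
    exact orderOf_eq_prime (by rw [pow_two]; exact hsq b hb) hb1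
  have hlea : Subgroup.zpowers a ≤ P := Subgroup.zpowers_le.mpr ha
  have hleb : Subgroup.zpowers b ≤ P := Subgroup.zpowers_le.mpr hb
  refine ⟨_, _, (Subgroup.zpowers_ne_bot.mpr ha1'), (Subgroup.zpowers_ne_bot.mpr hb1), hlea, hleb,
    fun x hx y hy => ?_, ?_, ?_⟩
  · have h1 := hsq (x * y) (mul_mem (hlea hx) (hleb hy))
    have h2 : x⁻¹ = x := inv_eq_of_mul_eq_one_right (hsq x (hlea hx))
    have h3 : y⁻¹ = y := inv_eq_of_mul_eq_one_right (hsq y (hleb hy))
    calc x * y = (x * y)⁻¹ := (inv_eq_of_mul_eq_one_right h1).symm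
      _ = y * x := by rw [mul_inv_rev, h2, h3]
  · rw [Subgroup.eq_bot_iff_forall]
    rintro x ⟨hxa, hxb⟩
    by_contra hx1
    apply hba
    have heq : Subgroup.zpowers x = Subgroup.zpowers b :=
      Subgroup.eq_of_le_of_card_ge (Subgroup.zpowers_le.mpr hxb) (by
        rw [hcb, Nat.card_zpowers,
          orderOf_eq_prime (by rw [pow_two]; exact hsq x (hleb hxb)) hx1])
    exact (heq ▸ Subgroup.zpowers_le.mpr hxa : Subgroup.zpowers b ≤ Subgroup.zpowers a)
      (Subgroup.mem_zpowers b)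
  · refine Subgroup.eq_of_le_of_card_ge (sup_le hlea hleb) ?_
    have h1 := Subgroup.card_dvd_of_le (le_sup_left : Subgroup.zpowers a ≤ Subgroup.zpowers a ⊔ Subgroup.zpowers b)
    have h2 := Subgroup.card_dvd_of_le (sup_le hlea hleb)
    rw [hca] at h1
    rw [hP] at h2 ⊢
    have h3 : Nat.card ↥(Subgroup.zpowers a ⊔ Subgroup.zpowers b) ≠ 2 := by
      intro h
      apply hba
      rw [Subgroup.eq_of_le_of_card_ge (le_sup_left : Subgroup.zpowers a ≤ Subgroup.zpowers a ⊔ Subgroup.zpowers b) (by rw [h, hca])]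
      exact Subgroup.mem_sup_right (Subgroup.mem_zpowers b)
    have := Nat.le_of_dvd (by norm_num) h2
    interval_cases hx : Nat.card ↥(Subgroup.zpowers a ⊔ Subgroup.zpowers b) <;> omega

/-- Direct decomposability of the Sylow 2-subgroups of the alternating groups. Let n ≥ 4 and let P be a Sylow 2-subgroup of the alternating group of degree n. Then P is the internal direct product of two nontrivial subgroups if and only if n = 4, n = 5, or n ≡ 2, 3 (mod 4) with 4⌊n/4⌋ not a power of 2. In the remaining cases (n ≡ 0, 1 (mod 4) with n ≥ 8, or n ≡ 2, 3 (mod 4) with 4⌊n/4⌋ a power of 2) P is directly indecomposable. -/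
theorem result (n : ℕ) (hn : 4 ≤ n)
    (P : Sylow 2 (alternatingGroup (Fin n))) :
    (∃ S₁ S₂ : Subgroup (alternatingGroup (Fin n)), S₁ ≠ ⊥ ∧ S₂ ≠ ⊥ ∧
        Cfsg.IsInternalDirectProduct S₁ S₂ (P : Subgroup (alternatingGroup (Fin n)))) ↔
      (n = 4 ∨ n = 5 ∨ ((n % 4 = 2 ∨ n % 4 = 3) ∧ ∀ r : ℕ, 4 * (n / 4) ≠ 2 ^ r)) := by
  classical
  rcases (show n = 4 ∨ n = 5 ∨ 6 ≤ n by omega) with h | h | h6
  · exact iff_of_true (small (Or.inl h) P) (Or.inl h)
  · exact iff_of_true (small (Or.inr h) P) (Or.inr (Or.inl h))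
  have hcard : 6 ≤ Fintype.card (Fin n) := by rw [Fintype.card_fin]; exact h6
  obtain ⟨R, hR⟩ := Cfsg.Agent.Lib.Alt.exists_sylow_eq_subgroupOf P
  have hinj := Subgroup.subtype_injective (alternatingGroup (Fin n))
  constructor
  · rintro ⟨S₁, S₂, h1, h2, hle1, hle2, hcomm, hdisj, hsup⟩
    right; right
    have hd : Cfsg.Agent.Lib.Alt.Decomp.IsDec R (S₁.map (alternatingGroup (Fin n)).subtype)
        (S₂.map (alternatingGroup (Fin n)).subtype) := by
      refine ⟨?_, ?_, ?_, ?_, ?_⟩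
      · rintro _ ⟨x, hx, rfl⟩; exact ⟨(hR x).1 (hle1 hx), x.2⟩
      · rintro _ ⟨x, hx, rfl⟩; exact ⟨(hR x).1 (hle2 hx), x.2⟩
      · rintro _ ⟨x, hx, rfl⟩ _ ⟨y, hy, rfl⟩
        rw [← map_mul, ← map_mul, hcomm x hx y hy]
      · rw [← Subgroup.map_inf _ _ _ hinj, hdisj, Subgroup.map_bot]
      · intro g hg hg1
        have hmem : (⟨g, Equiv.Perm.mem_alternatingGroup.2 hg1⟩ : alternatingGroup (Fin n)) ∈ S₁ ⊔ S₂ := by
          rw [hsup]; exact (hR _).2 hg
        have hnorm : S₂ ≤ Subgroup.normalizer (S₁ : Set (alternatingGroup (Fin n))) :=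
          (fun b hb => Subgroup.centralizer_le_normalizer _
            (Subgroup.mem_centralizer_iff.2 fun a ha => hcomm a ha b hb))
        rw [← SetLike.mem_coe, Subgroup.coe_mul_of_right_le_normalizer_left S₁ S₂ hnorm] at hmem
        obtain ⟨x, hx, y, hy, hxy⟩ := hmem
        exact ⟨_, ⟨x, hx, rfl⟩, _, ⟨y, hy, rfl⟩, congrArg Subtype.val hxy⟩
    have hne1 : S₁.map (alternatingGroup (Fin n)).subtype ≠ ⊥ := fun h =>
      h1 ((Subgroup.map_eq_bot_iff_of_injective _ hinj).1 h)
    have hne2 : S₂.map (alternatingGroup (Fin n)).subtype ≠ ⊥ := fun h =>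
      h2 ((Subgroup.map_eq_bot_iff_of_injective _ hinj).1 h)
    open Cfsg.Agent.Lib.Alt.Decomp in
    have key : ∀ r, 4 * (n / 4) = 2 ^ r → False := by
      intro r hr
      obtain ⟨a, ha⟩ := (exists_oexp_iff R r).2 (by
        rw [Fintype.card_fin]
        have hr2 : 2 ≤ r := by
          by_contra hlt
          have : 2 ^ r ≤ 2 ^ 1 := Nat.pow_le_pow_right (by norm_num) (by omega)
          omega
        obtain ⟨f, rfl⟩ := Nat.exists_eq_add_of_le' hr2
        have h4 : n / 4 = 2 ^ f := by rw [pow_add] at hr; omega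
        rw [show f + 2 = 2 + f by omega, ← Nat.testBit_shiftRight, Nat.shiftRight_eq_div_pow,
          show (2 : ℕ) ^ 2 = 4 from rfl, h4, Nat.testBit_two_pow_self])
      have hr2 : 2 ≤ r := by
        by_contra hlt
        have : 2 ^ r ≤ 2 ^ 1 := Nat.pow_le_pow_right (by norm_num) (by omega)
        omega
      rcases not_dec_single hcard (by rw [ha]; exact hr2) (fun x hx => by
        rw [ha]
        exact testBit_high hr hx (by
          have := (exists_oexp_iff R _).1 ⟨x, rfl⟩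
          rwa [Fintype.card_fin] at this)) hd with h | h
      · exact hne1 h
      · exact hne2 h
    refine ⟨?_, fun r hr => key r hr⟩
    by_contra hmod
    open Cfsg.Agent.Lib.Alt.Decomp in
    have : False := by
      obtain ⟨e, f, he, hf, hef, hbe, hbf⟩ := exists_two_high hn key
      obtain ⟨a, ha⟩ := (exists_oexp_iff R e).2 (by rw [Fintype.card_fin]; exact hbe)
      obtain ⟨b, hb⟩ := (exists_oexp_iff R f).2 (by rw [Fintype.card_fin]; exact hbf)
      rcases not_dec_multi hcard (fun x hx => hmod (by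
          have := (exists_oexp_iff R 1).1 ⟨x, hx⟩
          rw [Fintype.card_fin] at this
          exact (testBit_one n).1 this))
        (a := a) (b := b) (by omega) (by omega) (by omega) hd with h | h
      · exact hne1 h
      · exact hne2 h
    exact this
  · rintro (h | h | ⟨hmod, hpow⟩)
    · omega
    · omega
    open Cfsg.Agent.Lib.Alt.Decomp in
    obtain ⟨t, ht⟩ := (exists_oexp_iff R 1).2 (by
      rw [Fintype.card_fin]; exact (testBit_one n).2 hmod)
    obtain ⟨e, f, he, hf, hef, hbe, hbf⟩ :=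
      Cfsg.Agent.Lib.Alt.Decomp.exists_two_high hn hpow
    obtain ⟨a, ha⟩ := (Cfsg.Agent.Lib.Alt.Decomp.exists_oexp_iff R e).2
      (by rw [Fintype.card_fin]; exact hbe)
    obtain ⟨b, hb⟩ := (Cfsg.Agent.Lib.Alt.Decomp.exists_oexp_iff R f).2
      (by rw [Fintype.card_fin]; exact hbf)
    obtain ⟨T₁, T₂, hd, hne1, hne2⟩ := Cfsg.Agent.Lib.Alt.Decomp.exists_dec ht (a := a) (b := b)
      (by omega) (by omega) (by omega)
    have e1 : (T₁.subgroupOf (alternatingGroup (Fin n))).map (alternatingGroup (Fin n)).subtype = T₁ :=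
      Subgroup.map_subgroupOf_eq_of_le (hd.le₁.trans inf_le_right)
    have e2 : (T₂.subgroupOf (alternatingGroup (Fin n))).map (alternatingGroup (Fin n)).subtype = T₂ :=
      Subgroup.map_subgroupOf_eq_of_le (hd.le₂.trans inf_le_right)
    refine ⟨T₁.subgroupOf _, T₂.subgroupOf _, fun h => hne1 (by rw [← e1, h, Subgroup.map_bot]),
      fun h => hne2 (by rw [← e2, h, Subgroup.map_bot]), fun x hx => (hR x).2 (hd.le₁ hx).1,
      fun x hx => (hR x).2 (hd.le₂ hx).1, fun x hx y hy => Subtype.ext (hd.comm x hx y hy), ?_, ?_⟩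
    · rw [Subgroup.eq_bot_iff_forall]
      rintro x ⟨h1, h2⟩
      have : (x : Equiv.Perm (Fin n)) ∈ T₁ ⊓ T₂ := ⟨h1, h2⟩
      rw [hd.disj, Subgroup.mem_bot] at this
      exact Subtype.ext this
    · refine le_antisymm (sup_le (fun x hx => (hR x).2 (hd.le₁ hx).1) fun x hx => (hR x).2 (hd.le₂ hx).1) ?_
      intro x hx
      obtain ⟨u, hu, v, hv, huv⟩ := hd.mem x ((hR x).1 hx) (Equiv.Perm.mem_alternatingGroup.1 x.2)
      have : x = (⟨u, (hd.le₁ hu).2⟩ : alternatingGroup (Fin n)) * ⟨v, (hd.le₂ hv).2⟩ :=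
        Subtype.ext huv.symm
      rw [this]
      exact Subgroup.mul_mem_sup hu hv

end Cfsg.Agent.S2221
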