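import Cfsg.Statements.S2225
import Cfsg.Agent.Lib.Pronormal2.Overgroup
import Cfsg.Agent.Lib.Pronormal2.Power
import Cfsg.Agent.Lib.Alt.Pronormal

set_option autoImplicit false
open Cfsg

namespace Cfsg.Agent.S2225

/-- Let F be a finite field and d = 2^w ≥ 2 a power of 2 such that PSL_d(F) is simple. Then every subgroup H of PSL_d(F) of odd index is pronormal: for every g, H and gHg⁻¹ are conjugate by an element of the subgroup they generate. -/
theorem result {F : Type*} [Field F] [Fintype F]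
    (w : ℕ) (hw : 1 ≤ w) (hs : IsSimpleGroup (Matrix.ProjectiveSpecialLinearGroup (Fin (2 ^ w)) F))
    (H : Subgroup (Matrix.ProjectiveSpecialLinearGroup (Fin (2 ^ w)) F)) (hH : Odd H.index) : Cfsg.IsPronormal H := by
  haveI : Fact (Nat.Prime 2) := ⟨Nat.prime_two⟩
  rcases Nat.even_or_odd (Fintype.card F) with hF | hF
  · have h2 : CharP F 2 := by
      have := FiniteField.even_card_iff_char_two.2 (Nat.even_iff.1 hF)
      exact this ▸ ringChar.charP F
    refine Cfsg.Agent.Lib.Pronormal2.pronormal_psl (p := 2) ?_ ?_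
    · calc 2 = 2 ^ 1 := rfl
        _ ≤ 2 ^ w := Nat.pow_le_pow_right (by norm_num) hw
    · exact fun h => Nat.not_even_iff_odd.2 hH (even_iff_two_dvd.2 h)
  · obtain ⟨S, hS⟩ := Cfsg.Agent.Lib.Alt.exists_sylow_le_of_odd_index H hH
    rcases (show w = 1 ∨ 2 ≤ w by omega) with rfl | hw2
    · exact Cfsg.Agent.Lib.Pronormal2.pronormal_psl_two hF hS
    · exact Cfsg.Agent.Lib.Pronormal2.pronormal_power hF hw2 hS

end Cfsg.Agent.S2225
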