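import Cfsg.Statements.S2226
import Cfsg.Agent.Lib.Pronormal2.Unitary.Power
import Cfsg.Agent.Lib.Pronormal2.Unitary.Char
import Cfsg.Agent.Lib.Alt.Pronormal

set_option autoImplicit false
open Cfsg

namespace Cfsg.Agent.S2226

/-- Let F be a finite field with q² elements and d = 2^w ≥ 4 a power of 2 such that the unitary group PSU_d(q) (realised over F) is simple. Then every subgroup H of PSU_d(q) of odd index is pronormal: for every g, H and gHg⁻¹ are conjugate by an element of the subgroup they generate. -/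
theorem result {F : Type*} [Field F] [Fintype F] (q : ℕ)
    (hF : Fintype.card F = q ^ 2) (w : ℕ) (hw : 2 ≤ w) (hs : IsSimpleGroup (Cfsg.PSU (2 ^ w) F q))
    (H : Subgroup (Cfsg.PSU (2 ^ w) F q)) (hH : Odd H.index) : Cfsg.IsPronormal H := by
  haveI : Fact (Nat.Prime 2) := ⟨Nat.prime_two⟩
  rcases Nat.even_or_odd q with hq | hq
  · have h2 : CharP F 2 := by
      have hF2 : Even (Fintype.card F) := by rw [hF]; exact hq.pow_of_ne_zero two_ne_zero
      exact FiniteField.even_card_iff_char_two.2 (Nat.even_iff.1 hF2) ▸ ringChar.charP F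
    refine Cfsg.Agent.Lib.Pronormal2.Unitary.pronormal_psu_char (p := 2) ?_ ?_ hF ?_
    · calc 4 = 2 ^ 2 := rfl
        _ ≤ 2 ^ w := Nat.pow_le_pow_right (by norm_num) hw
    · exact Nat.even_pow.2 ⟨even_two, by omega⟩
    · exact fun h => Nat.not_even_iff_odd.2 hH (even_iff_two_dvd.2 h)
  · obtain ⟨S, hS⟩ := Cfsg.Agent.Lib.Alt.exists_sylow_le_of_odd_index H hH
    exact Cfsg.Agent.Lib.Pronormal2.Unitary.pronormal_psu_odd hF hq hw hS

end Cfsg.Agent.S2226
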