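import Cfsg.Statements.S2231
import Cfsg.Agent.Lib.QdFree

set_option autoImplicit false
open Cfsg

namespace Cfsg.Agent.S2231

open Cfsg.Agent.Lib.QdFree in
theorem sl2_p_closed {p : ℕ} [Fact p.Prime] {K : Type*} [Field K] [Fintype K] [CharP K p]
    (P : Subgroup (Matrix.SpecialLinearGroup (Fin 2) K)) (hP : IsPGroup p ↥P) (hne : P ≠ ⊥)
    (x y : Matrix.SpecialLinearGroup (Fin 2) K) (hx : x ∈ Subgroup.normalizer (P : Set _))
    (hy : y ∈ Subgroup.normalizer (P : Set _)) (hxp : IsPElem p x) (hyp : IsPElem p y) :
    IsPElem p (x * y) := by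
  set ρ := Cfsg.slToMat 2 K
  have hρ : Function.Injective ρ := fun a b h => Subtype.ext h
  obtain ⟨v, -, hv0, hvfix⟩ := exists_fixed ρ P hP ⊤ (by simp) (fun _ _ _ _ => Submodule.mem_top)
  set W := fixSpace ρ P with hW
  have hline : W = Submodule.span K {v} := by
    have hle : Submodule.span K {v} ≤ W := by
      rw [Submodule.span_le, Set.singleton_subset_iff]; exact hvfix
    refine (Submodule.eq_of_le_of_finrank_le hle ?_).symm
    rw [finrank_span_singleton hv0]
    by_contra hlt
    apply hne
    have htop : W = ⊤ := by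
      apply Submodule.eq_top_of_finrank_eq
      have := Submodule.finrank_le W
      rw [Module.finrank_pi, Fintype.card_fin] at this ⊢
      omega
    rw [eq_bot_iff]
    intro g hg
    rw [Subgroup.mem_bot]
    apply hρ
    rw [map_one]
    apply Matrix.ext_of_mulVec_single
    intro i
    rw [Matrix.one_mulVec]
    exact (htop ▸ Submodule.mem_top : Pi.single i (1 : K) ∈ W) g hg
  have key : ∀ z, z ∈ Subgroup.normalizer (P : Set (Matrix.SpecialLinearGroup (Fin 2) K)) →
      IsPElem p z → (ρ z).mulVec v = v := by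
    intro z hz hzp
    have h1 : (ρ z).mulVec v ∈ W := fixSpace_normalizer ρ hz hvfix
    rw [hline, Submodule.mem_span_singleton] at h1
    obtain ⟨c, hc⟩ := h1
    exact fix_of_line ρ hv0 hc.symm hzp
  have hxy : (ρ (x * y)).mulVec v = v := by
    rw [map_mul, ← Matrix.mulVec_mulVec, key y hy hyp, key x hx hxp]
  refine pElem_of_nilpotent ρ hρ (j := 2) ?_
  set A := ρ (x * y) with hA
  have hdet : A.det = 1 := (x * y).2
  have h0 : (A - 1).det = 0 := by
    rw [← Matrix.exists_mulVec_eq_zero_iff]
    exact ⟨v, hv0, by rw [Matrix.sub_mulVec, Matrix.one_mulVec, hxy, sub_self]⟩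
  rw [Matrix.det_fin_two] at hdet h0
  simp only [Matrix.sub_apply, Matrix.one_apply_eq, ne_eq, Fin.reduceEq, not_false_eq_true,
    Matrix.one_apply_ne, sub_zero] at h0
  have htr : A 0 0 + A 1 1 = 2 := by linear_combination hdet - h0
  ext i j
  rw [pow_two, Matrix.mul_apply, Fin.sum_univ_two]
  fin_cases i <;> fin_cases j <;> simp
  · linear_combination -hdet + A 0 0 * htr
  · linear_combination A 0 1 * htr
  · linear_combination A 1 0 * htr
  · linear_combination -hdet + A 1 1 * htr

/-- Let p be an odd prime and K a finite field of characteristic p. Then Qd(p) (the natural semidirect product of an elementary abelian group of order p² by SL₂(p)) is not involved in the projective special linear group PSL₂(K). -/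
theorem result {p : ℕ} [Fact p.Prime] (hp : p ≠ 2) {K : Type*} [Field K] [Fintype K] [CharP K p] : ¬ Cfsg.Involves ↥(Cfsg.qd p) (Matrix.ProjectiveSpecialLinearGroup (Fin 2) K) := by
  exact Cfsg.Agent.Lib.QdFree.not_involves_qd sl2_p_closed _

end Cfsg.Agent.S2231
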