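import Cfsg.Statements.S2232
import Cfsg.Agent.Lib.QdFree

set_option autoImplicit false
open Cfsg

namespace Cfsg.Agent.S2232

open Cfsg.Agent.Lib.QdFree in
theorem su3_p_closed {p : ℕ} [Fact p.Prime] {K : Type*} [Field K] [Fintype K] [CharP K p]
    (n : ℕ) (P : Subgroup ↥(Cfsg.SU 3 K (p ^ n))) (hP : IsPGroup p ↥P) (hne : P ≠ ⊥)
    (x y : ↥(Cfsg.SU 3 K (p ^ n))) (hx : x ∈ Subgroup.normalizer (P : Set _))
    (hy : y ∈ Subgroup.normalizer (P : Set _)) (hxp : IsPElem p x) (hyp : IsPElem p y) :
    IsPElem p (x * y) := by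
  classical
  set ρ := (Cfsg.slToMat 3 K).comp (Cfsg.SU 3 K (p ^ n)).subtype with hρdef
  have hρ : Function.Injective ρ := fun a b h => Subtype.ext (Subtype.ext h)
  have hform : ∀ (g : ↥(Cfsg.SU 3 K (p ^ n))) u w,
      Cfsg.hermForm 3 K (p ^ n) ((ρ g).mulVec u) ((ρ g).mulVec w) = Cfsg.hermForm 3 K (p ^ n) u w :=
    fun g u w => g.2 u w
  let φ : (Fin 3 → K) → ((Fin 3 → K) →ₗ[K] K) := fun w =>
    { toFun := fun u => Cfsg.hermForm 3 K (p ^ n) u w
      map_add' := fun a b => by simp [Cfsg.hermForm, add_mul, Finset.sum_add_distrib]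
      map_smul' := fun c a => by simp [Cfsg.hermForm, Finset.mul_sum, mul_assoc] }
  have hφ : ∀ u w, φ w u = Cfsg.hermForm 3 K (p ^ n) u w := fun _ _ => rfl
  have hφne : ∀ w, w ≠ 0 → φ w ≠ 0 := by
    intro w hw h
    obtain ⟨i, hi⟩ := Function.ne_iff.1 hw
    have h1 : φ w (Pi.single i 1) = 0 := by rw [h]; rfl
    rw [hφ, Cfsg.hermForm, Finset.sum_eq_single i (fun j _ hj => by simp [hj]) (by simp)] at h1
    simp only [Pi.single_eq_same, one_mul] at h1
    exact hi (pow_eq_zero_iff (pow_ne_zero n (Fact.out : p.Prime).ne_zero) |>.1 h1)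
  set W := fixSpace ρ P with hW
  let Wperp : Submodule K (Fin 3 → K) :=
    { carrier := {u | ∀ w ∈ W, φ w u = 0}
      add_mem' := fun {a b} ha hb w hw => by rw [map_add, ha w hw, hb w hw, add_zero]
      zero_mem' := fun w _ => map_zero _
      smul_mem' := fun c {a} ha w hw => by rw [map_smul, ha w hw, smul_zero] }
  set R := W ⊓ Wperp with hR
  have hWperp : Wperp ≠ ⊥ := by
    intro hb
    apply hne
    let b := Module.finBasis K ↥W
    let T : (Fin 3 → K) →ₗ[K] (Fin (Module.finrank K ↥W) → K) := LinearMap.pi fun j => φ (b j).1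
    have hker : T.ker = ⊥ := by
      rw [eq_bot_iff, ← hb]
      intro u hu w hw
      have hrepr := congrArg Subtype.val (b.sum_repr ⟨w, hw⟩)
      have hu' : ∀ j, φ (b j).1 u = 0 := fun j => congrFun (LinearMap.mem_ker.1 hu) j
      simp only [Submodule.coe_sum, Submodule.coe_smul] at hrepr
      rw [hφ, ← hrepr, Cfsg.hermForm]
      simp only [Finset.sum_apply, Pi.smul_apply, smul_eq_mul]
      simp only [sum_pow_char_pow, mul_pow, Finset.mul_sum]
      rw [Finset.sum_comm]
      apply Finset.sum_eq_zero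
      intro j _
      rw [Finset.sum_congr rfl (fun i _ => mul_left_comm (u i) _ _), ← Finset.mul_sum]
      have h := hu' j
      rw [hφ, Cfsg.hermForm] at h
      rw [h, mul_zero]
    have htop : W = ⊤ := by
      apply Submodule.eq_top_of_finrank_eq
      have h1 := LinearMap.finrank_le_finrank_of_injective (LinearMap.ker_eq_bot.1 hker)
      have h2 := Submodule.finrank_le W
      rw [Module.finrank_pi, Fintype.card_fin] at h1 h2 ⊢
      rw [Module.finrank_pi, Fintype.card_fin] at h1
      omega
    rw [eq_bot_iff]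
    intro g hg
    rw [Subgroup.mem_bot]
    apply hρ
    rw [map_one]
    apply Matrix.ext_of_mulVec_single
    intro i
    rw [Matrix.one_mulVec]
    exact (htop ▸ Submodule.mem_top : Pi.single i (1 : K) ∈ W) g hg
  obtain ⟨v, hvperp, hv0, hvfix⟩ := exists_fixed ρ P hP Wperp hWperp (fun g hg u hu w hw => by
    have h := hform g u w
    rw [hw g hg] at h
    rw [hφ, h]
    exact hu w hw)
  have hvW : v ∈ W := hvfix
  have hvv : φ v v = 0 := hvperp v hvW
  have hphi_prop : ∀ w ∈ R, ∃ c : K, w = c • v := by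
    intro w hw
    have hS : ∀ z ∈ Submodule.span K ({v, w} : Set (Fin 3 → K)), φ v z = 0 ∧ φ w z = 0 := by
      intro z hz
      rw [Submodule.mem_span_pair] at hz
      obtain ⟨a, b, rfl⟩ := hz
      simp [map_add, hvv, hw.2 v hvW, hvperp w hw.1, hw.2 w hw.1]
    by_contra hno
    push Not at hno
    have hind : LinearIndependent K ![v, w] := by
      rw [LinearIndependent.pair_iff' hv0]
      exact fun c => (hno c).symm
    set S := Submodule.span K ({v, w} : Set (Fin 3 → K)) with hSdef
    have hS2 : Module.finrank K ↥S = 2 := by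
      have := finrank_span_eq_card hind
      rw [Matrix.range_cons_cons_empty] at this
      simpa [hSdef] using this
    have hA : Module.finrank K ↥S.dualAnnihilator = 1 := by
      have := Subspace.finrank_add_finrank_dualAnnihilator_eq S
      rw [hS2, Module.finrank_pi, Fintype.card_fin] at this
      omega
    have hv' : φ v ∈ S.dualAnnihilator := (Submodule.mem_dualAnnihilator _).2 (fun z hz => (hS z hz).1)
    have hw' : φ w ∈ S.dualAnnihilator := (Submodule.mem_dualAnnihilator _).2 (fun z hz => (hS z hz).2)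
    obtain ⟨d, hd⟩ := exists_smul_eq_of_finrank_eq_one hA
      (x := ⟨φ v, hv'⟩) (fun h => hφne v hv0 (congrArg Subtype.val h)) ⟨φ w, hw'⟩
    have hd' : d • φ v = φ w := congrArg Subtype.val hd
    obtain ⟨c, hc⟩ := (bijective_iterateFrobenius K p n).surjective d
    apply hno c
    funext i
    have hi := LinearMap.congr_fun hd' (Pi.single i 1)
    rw [LinearMap.smul_apply, hφ, hφ, Cfsg.hermForm, Cfsg.hermForm,
      Finset.sum_eq_single i (fun j _ hj => by simp [hj]) (by simp),
      Finset.sum_eq_single i (fun j _ hj => by simp [hj]) (by simp)] at hi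
    simp only [Pi.single_eq_same, one_mul, smul_eq_mul] at hi
    apply (bijective_iterateFrobenius K p n).injective
    rw [Pi.smul_apply, smul_eq_mul, map_mul, hc, iterateFrobenius_def, iterateFrobenius_def]
    exact hi.symm
  let U : (z : ↥(Cfsg.SU 3 K (p ^ n))) → Prop := fun z => (ρ z).mulVec v = v ∧
    ∀ u, φ v u = 0 → (ρ z).mulVec u - u ∈ Submodule.span K {v}
  have key : ∀ z, z ∈ Subgroup.normalizer (P : Set ↥(Cfsg.SU 3 K (p ^ n))) → IsPElem p z → U z := by
    intro z hz hzp
    have hzR : (ρ z).mulVec v ∈ R := by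
      refine ⟨fixSpace_normalizer ρ hz hvW, fun w hw => ?_⟩
      have hzi : z⁻¹ ∈ Subgroup.normalizer (P : Set ↥(Cfsg.SU 3 K (p ^ n))) := Subgroup.inv_mem _ hz
      have h := hform z v ((ρ z⁻¹).mulVec w)
      rw [Matrix.mulVec_mulVec w, ← map_mul, mul_inv_cancel, map_one, Matrix.one_mulVec] at h
      rw [hφ, h]
      exact hvperp _ (fixSpace_normalizer ρ hzi hw)
    obtain ⟨c, hc⟩ := hphi_prop _ hzR
    have hfix := fix_of_line ρ hv0 hc hzp
    refine ⟨hfix, fun u hu => ?_⟩
    by_cases hus : u ∈ Submodule.span K {v}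
    · obtain ⟨a, rfl⟩ := Submodule.mem_span_singleton.1 hus
      rw [Matrix.mulVec_smul, hfix, sub_self]; exact zero_mem _
    · set S := Submodule.span K ({v, u} : Set (Fin 3 → K)) with hSdef
      have hle : S ≤ (φ v).ker := by
        rw [hSdef, Submodule.span_le]
        rintro a (rfl | rfl)
        · exact hvv
        · exact hu
      have hind : LinearIndependent K ![v, u] := by
        rw [LinearIndependent.pair_iff' hv0]
        exact fun a ha => hus (Submodule.mem_span_singleton.2 ⟨a, ha⟩)
      have hS2 : Module.finrank K ↥S = 2 := by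
        have := finrank_span_eq_card hind
        rw [Matrix.range_cons_cons_empty] at this
        simpa [hSdef] using this
      have hker : Module.finrank K ↥((φ v).ker) ≤ 2 := by
        have h1 := Submodule.finrank_lt (show (φ v).ker ≠ ⊤ from fun h => hφne v hv0 (LinearMap.ker_eq_top.1 h))
        rw [Module.finrank_pi, Fintype.card_fin] at h1
        omega
      have hSeq : S = (φ v).ker := Submodule.eq_of_le_of_finrank_le hle (by omega)
      have hzu : (ρ z).mulVec u ∈ S := by
        rw [hSeq, LinearMap.mem_ker, hφ]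
        have h := hform z u v
        rw [hfix] at h
        rw [h]; exact hu
      obtain ⟨a, b, hab⟩ := Submodule.mem_span_pair.1 hzu
      have hpow : ∀ m : ℕ, (ρ z ^ m).mulVec u - b ^ m • u ∈ Submodule.span K {v} := by
        intro m
        induction m with
        | zero => simp
        | succ m ih =>
          obtain ⟨e, he⟩ := Submodule.mem_span_singleton.1 ih
          refine Submodule.mem_span_singleton.2 ⟨e + b ^ m * a, ?_⟩
          have he' : (ρ z ^ m).mulVec u = b ^ m • u + e • v := by rw [he]; abel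
          rw [pow_succ', ← Matrix.mulVec_mulVec, he', Matrix.mulVec_add, Matrix.mulVec_smul,
            Matrix.mulVec_smul, hfix, ← hab]
          module
      obtain ⟨k, hk⟩ := hzp
      have hb := hpow (p ^ k)
      rw [← map_pow, hk, map_one, Matrix.one_mulVec] at hb
      have hb1 : b ^ p ^ k = 1 := by
        by_contra hne1
        apply hus
        have hh : (1 - b ^ p ^ k) • u ∈ Submodule.span K {v} := by rwa [sub_smul, one_smul]
        exact (Submodule.smul_mem_iff _ (sub_ne_zero.2 (Ne.symm hne1))).1 hh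
      rw [eq_one_of_pow_char hb1, one_smul] at hab
      refine Submodule.mem_span_singleton.2 ⟨a, ?_⟩
      rw [← hab]; abel
  have hx' := key x hx hxp
  have hy' := key y hy hyp
  have hxyv : (ρ (x * y)).mulVec v = v := by
    rw [map_mul, ← Matrix.mulVec_mulVec, hy'.1, hx'.1]
  have hxy : ∀ u, φ v u = 0 → (ρ (x * y)).mulVec u - u ∈ Submodule.span K {v} := by
    intro u hu
    obtain ⟨a, ha⟩ := Submodule.mem_span_singleton.1 (hy'.2 u hu)
    obtain ⟨b, hb⟩ := Submodule.mem_span_singleton.1 (hx'.2 u hu)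
    refine Submodule.mem_span_singleton.2 ⟨a + b, ?_⟩
    have hy2 : (ρ y).mulVec u = u + a • v := by rw [ha]; abel
    rw [map_mul, ← Matrix.mulVec_mulVec, hy2, Matrix.mulVec_add, Matrix.mulVec_smul, hx'.1, add_smul, hb]
    abel
  refine pElem_of_nilpotent ρ hρ (j := 3) ?_
  apply Matrix.ext_of_mulVec_single
  intro i
  rw [Matrix.zero_mulVec, pow_succ', pow_two, ← Matrix.mulVec_mulVec, ← Matrix.mulVec_mulVec]
  set e : Fin 3 → K := Pi.single i 1
  have h1 : φ v ((ρ (x * y) - 1).mulVec e) = 0 := by
    rw [Matrix.sub_mulVec, Matrix.one_mulVec, map_sub, sub_eq_zero, hφ, hφ]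
    have h := hform (x * y) e v
    rwa [hxyv] at h
  obtain ⟨a, ha⟩ := Submodule.mem_span_singleton.1 (hxy _ h1)
  have h2 : (ρ (x * y) - 1).mulVec ((ρ (x * y) - 1).mulVec e) = a • v := by
    rw [Matrix.sub_mulVec (ρ (x * y)) 1 ((ρ (x * y) - 1).mulVec e), Matrix.one_mulVec, ha]
  rw [h2, Matrix.mulVec_smul, Matrix.sub_mulVec, Matrix.one_mulVec, hxyv, sub_self, smul_zero]

/-- Let p be an odd prime, q a power of p and K a finite field with q² elements. Then Qd(p) (the natural semidirect product of an elementary abelian group of order p² by SL₂(p)) is not involved in the projective special unitary group PSU₃(q) realised over K. -/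
theorem result {p : ℕ} [Fact p.Prime] (hp : p ≠ 2) {K : Type*} [Field K] [Fintype K] [CharP K p] (n : ℕ) (hn : 1 ≤ n) (hK : Fintype.card K = (p ^ n) ^ 2) : ¬ Cfsg.Involves ↥(Cfsg.qd p) (Cfsg.PSU 3 K (p ^ n)) := by
  exact Cfsg.Agent.Lib.QdFree.not_involves_qd (su3_p_closed n) _

end Cfsg.Agent.S2232
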