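import Cfsg.Statements.S2239
import Cfsg.Agent.Lib.Suz.Subfield

set_option autoImplicit false
open Cfsg

namespace Cfsg.Agent.S2239

/-- Subfield subgroups of the Suzuki group: let q = 2^(2m+1) and s = 2^(2k+1) with m, k ≥ 1 and 2k+1 dividing 2m+1 (so q is a power of s), both groups realised as stabilisers in SL₄ of the Suzuki–Tits ovoid. Then Sz(q) has a subgroup isomorphic to Sz(s), and any two subgroups of Sz(q) isomorphic to Sz(s) are conjugate. -/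
theorem result {F : Type*} [Field F] [Fintype F] {m : ℕ} (hm : 1 ≤ m) (hF : Fintype.card F = 2 ^ (2 * m + 1)) {K : Type*} [Field K] [Fintype K] {k : ℕ} (hk : 1 ≤ k) (hK : Fintype.card K = 2 ^ (2 * k + 1)) (hdiv : 2 * k + 1 ∣ 2 * m + 1) :
    (∃ S : Subgroup ↥(Cfsg.Sz F m), Nonempty (↥S ≃* ↥(Cfsg.Sz K k))) ∧
    ∀ S₁ S₂ : Subgroup ↥(Cfsg.Sz F m), Nonempty (↥S₁ ≃* ↥(Cfsg.Sz K k)) → Nonempty (↥S₂ ≃* ↥(Cfsg.Sz K k)) →
      ∃ g : ↥(Cfsg.Sz F m), S₂ = S₁.map (MulAut.conj g).toMonoidHom := by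
  classical
  have c : Cfsg.Agent.Lib.Suz.Ctx F m := ⟨hm, hF⟩
  have cK : Cfsg.Agent.Lib.Suz.Ctx K k := ⟨hk, hK⟩
  haveI := Cfsg.Agent.Lib.Suz.charP_two c
  haveI := Cfsg.Agent.Lib.Suz.charP_two cK
  obtain ⟨ι⟩ := Cfsg.Agent.Lib.Suz.exists_field_hom hF hK hdiv
  have hθ := Cfsg.Agent.Lib.Suz.th_compat (F := F) (m := m) ι hdiv hK
  have hinj := Cfsg.Agent.Lib.Suz.embSz_injective c cK ι hθ
  refine ⟨⟨_, ⟨(MonoidHom.ofInjective hinj).symm⟩⟩, ?_⟩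
  rintro S₁ S₂ ⟨e₁⟩ ⟨e₂⟩
  have key : ∀ (S : Subgroup ↥(Cfsg.Sz F m)) (e : ↥S ≃* ↥(Cfsg.Sz K k)), ∃ g : ↥(Cfsg.Sz F m),
      S.map (MulAut.conj g).toMonoidHom = (Cfsg.Agent.Lib.Suz.embSz ι c cK hθ).range := by
    intro S e
    obtain ⟨g, hg⟩ := Cfsg.Agent.Lib.Suz.conj_of_iso c cK ι hθ (S.subtype.comp e.symm.toMonoidHom)
      (S.subtype_injective.comp e.symm.injective)
    refine ⟨g, ?_⟩
    rwa [show (S.subtype.comp e.symm.toMonoidHom).range = S by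
      rw [MonoidHom.range_comp, MonoidHom.range_eq_top.2 e.symm.surjective, ← MonoidHom.range_eq_map,
        Subgroup.range_subtype]] at hg
  obtain ⟨g₁, h₁⟩ := key S₁ e₁
  obtain ⟨g₂, h₂⟩ := key S₂ e₂
  refine ⟨g₂⁻¹ * g₁, ?_⟩
  have h3 : S₂ = ((Cfsg.Agent.Lib.Suz.embSz ι c cK hθ).range).map (MulAut.conj g₂⁻¹).toMonoidHom := by
    rw [← h₂, Subgroup.map_map]
    conv_lhs => rw [← Subgroup.map_id S₂]
    congr 1
    ext x
    simp [MulAut.conj_apply, mul_assoc]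
  rw [h3, ← h₁, Subgroup.map_map]
  congr 1
  ext x
  simp [MulAut.conj_apply, mul_assoc]

end Cfsg.Agent.S2239
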