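import Cfsg.Statements.S2244

import Cfsg.Agent.Lib.Chev.Ideals
import Cfsg.Agent.Lib.Chev.All
set_option autoImplicit false
open Cfsg

namespace Cfsg.Agent.S2244

open Cfsg.Lie Cfsg.Agent.Lib.Chev

/-- the kept commutator terms end in `(s, ±1, i, 1)` after the lower powers -/
def testPair (T : Fast) (maxI a b s : ℕ) : Bool :=
  !(Nat.beq a b) && Fast.ltI 0 (T.key a) && Fast.ltI 0 (T.key b) &&
    (match (T.commT a b).filter (fun c => Nat.ble c.1 s) with
    | [(u, c, i, j)] => Nat.beq u s && Nat.beq c.natAbs 1 && Nat.beq i 1 && Nat.beq j 1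
    | [(_, _, i₁, j₁), (u, c, i, j)] => Nat.ble 2 maxI && Nat.beq u s && Nat.beq c.natAbs 1 &&
        Nat.beq i₁ 1 && Nat.beq j₁ 1 && Nat.beq i 2 && Nat.beq j 1
    | [(_, _, i₁, j₁), (_, _, i₂, j₂), (u, c, i, j)] => Nat.ble 3 maxI && Nat.beq u s &&
        Nat.beq c.natAbs 1 && Nat.beq i₁ 1 && Nat.beq j₁ 1 && Nat.beq i₂ 2 && Nat.beq j₂ 1 &&
        Nat.beq i 3 && Nat.beq j 1
    | _ => false)

/-- a pair for the root `s` exists -/
def certRoot (T : Fast) (maxI s : ℕ) : Bool :=
  ((List.range T.l).any fun k =>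
    match T.chRoot (T.ng (T.sp k)) s 1 with
    | some b => Nat.blt (T.sp k) T.n && Nat.blt b T.n && testPair T maxI (T.sp k) b s
    | none => false) ||
  (List.range T.n).any fun a => (List.range T.n).any fun b =>
    (beqI (T.key a + T.key b) (T.key s) || beqI (2 * T.key a + T.key b) (T.key s) ||
      beqI (3 * T.key a + T.key b) (T.key s)) && testPair T maxI a b s

/-- a minor separating the columns of `k` and `l` modulo `n` -/
def minorB (T : Fast) (k l : ℕ) (f : ℕ → Bool) : Bool :=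
  (List.range T.l).any fun i => (List.range T.l).any fun j =>
    f (T.A i (T.sp k) * T.A j (T.sp l) - T.A j (T.sp k) * T.A i (T.sp l)).natAbs

/-- separation of the fundamental roots on the torus -/
def sepCheck (T : Fast) (ns : List ℕ) : Bool :=
  allBelow T.l fun k => allBelow T.l fun l => Nat.beq k l ||
    (minorB T k l (fun d => !(Nat.beq d 0) && Nat.ble d 4) &&
      ns.all fun n => minorB T k l fun d => !(Nat.beq (d % n) 0))

/-- coroot and root coefficients have equal supports -/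
def suppCheck (T : Fast) : Bool :=
  allBelow T.n fun r => allBelow T.l fun i =>
    cond (beqI (T.co r i) 0) (beqI (T.cf r i) 0) (!(beqI (T.cf r i) 0))

/-- all the table facts -/
def wcCheck (T : Fast) (maxI : ℕ) (ns : List ℕ) : Bool :=
  suppCheck T && sepCheck T ns &&
    allBelow T.n fun s => !(Fast.ltI 0 (T.key s)) || (List.range T.l).any (fun k => Nat.beq (T.sp k) s) ||
      certRoot T maxI s

theorem wcG2 : wcCheck G2.fast 3 [3, 4] = true := by decide +kernel
theorem wcB2 : wcCheck B2.fast 2 [3, 4] = true := by decide +kernel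
theorem wcD4 : wcCheck D4.fast 1 [3, 4] = true := by decide +kernel
theorem wcF4 : wcCheck F4.fast 2 [3, 4] = true := by decide +kernel
theorem wcE6 : wcCheck E6.fast 1 [2, 3, 4] = true := by decide +kernel
theorem wcE7 : wcCheck E7.fast 1 [2, 3, 4] = true := by decide +kernel
theorem wcE8 : wcCheck E8.fast 1 [2, 3, 4] = true := by decide +kernel

theorem exists_wc {D : ChevalleyDatum} {q : ℕ}
    (hD : D ∈ [chevG2, chevB2, chevD4, chevF4, chevE6, chevE7, chevE8])
    (h2 : 3 ≤ q) (h3 : D ∈ [chevG2, chevB2, chevD4, chevF4] → 4 ≤ q) :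
    ∃ (T : Fast) (maxI : ℕ) (ns : List ℕ), Checked D T ∧ wcCheck T maxI ns = true ∧
      (3 ≤ maxI → 4 ≤ q) ∧ (∀ n, n + 1 = q → n ≤ 4 → n ∈ ns) := by
  simp only [List.mem_cons, List.not_mem_nil, or_false] at hD
  have hbig : 4 ≤ q → ∀ n, n + 1 = q → n ≤ 4 → n ∈ [3, 4] := by
    intro h n hn hn4
    have h' : n = 3 ∨ n = 4 := by omega
    rcases h' with rfl | rfl <;> simp
  have hall : ∀ n, n + 1 = q → n ≤ 4 → n ∈ [2, 3, 4] := by
    intro n hn hn4
    have h' : n = 2 ∨ n = 3 ∨ n = 4 := by omega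
    rcases h' with rfl | rfl | rfl <;> simp
  rcases hD with rfl | rfl | rfl | rfl | rfl | rfl | rfl
  · exact ⟨_, 3, _, G2.checked, wcG2, fun _ => h3 (by simp), hbig (h3 (by simp))⟩
  · exact ⟨_, 2, _, B2.checked, wcB2, by omega, hbig (h3 (by simp))⟩
  · exact ⟨_, 1, _, D4.checked, wcD4, by omega, hbig (h3 (by simp))⟩
  · exact ⟨_, 2, _, F4.checked, wcF4, by omega, hbig (h3 (by simp))⟩
  · exact ⟨_, 1, _, E6.checked, wcE6, by omega, hall⟩
  · exact ⟨_, 1, _, E7.checked, wcE7, by omega, hall⟩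
  · exact ⟨_, 1, _, E8.checked, wcE8, by omega, hall⟩

section
variable {D : ChevalleyDatum} {T : Fast} {F : Type*} [Field F] (C : Checked D T)
include C

theorem noninv_closed {n : GL D.Idx F} (hn : n ∈ D.monomialSubgroup F) :
    ClosedSet D {r | D.IsPosRoot r ∧ D.IsPosRoot (C.sg n r)} := by
  refine ⟨fun r hr => hr.1, fun r hr s hs _ c hc => ?_⟩
  obtain ⟨τ, h⟩ := C.sg_spec hn
  obtain ⟨h0, -, -⟩ := C.commTerms_gt hr.1 hs.1 c hc
  refine ⟨h0, (C.root.pos_iff _).2 ⟨h.lt _ h0.1, ?_⟩⟩
  obtain ⟨a, b, ha, hb, -, hco⟩ := C.commTerms_comb hr.1.1 hs.1.1 c hc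
  have hsum : T.key (C.sg n c.1) = a * T.key (C.sg n r) + b * T.key (C.sg n s) := by
    rw [C.key_sigma h h0.1, C.key_sigma h hr.1.1, C.key_sigma h hs.1.1, Finset.mul_sum,
      Finset.mul_sum, ← Finset.sum_add_distrib]
    refine Finset.sum_congr rfl fun k hk => ?_
    have := hco k (Finset.mem_range.1 hk)
    rw [show T.aux.coef c.1 k = _ from this]
    show (a * T.aux.coef r k + b * T.aux.coef s k) * _ = _
    ring
  have h1 : 0 < T.key (C.sg n r) := ((C.root.pos_iff _).1 hr.2).2
  have h2 : 0 < T.key (C.sg n s) := ((C.root.pos_iff _).1 hs.2).2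
  show 0 < T.key (C.sg n c.1)
  rw [hsum]
  exact add_pos (mul_pos ha h1) (mul_pos hb h2)

/-- A subgroup of `U` normalised by a monomial element only involves roots it keeps positive. -/
theorem le_noninv {X : Subgroup (GL D.Idx F)} (hXU : X ≤ D.posUnipotent F)
    {n : GL D.Idx F} (hn : n ∈ D.monomialSubgroup F) (hnX : ∀ x ∈ X, n * x * n⁻¹ ∈ X) :
    X ≤ grp D F {r | D.IsPosRoot r ∧ D.IsPosRoot (C.sg n r)} := by
  intro x hx
  have hx' : x ∈ grp D F {r | D.IsPosRoot r ∧ 0 ≤ r} := by
    have := hXU hx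
    rw [posUnipotent_eq] at this
    exact grp_mem_mono this fun r hr => ⟨hr, Nat.zero_le r⟩
  obtain ⟨t, ht, s, hs, rfl⟩ := C.grp_split 0 (C.inv n) hx'
  have ht' := C.conj_noninv hn (grp_mem_mono ht fun r hr => ⟨hr.1.1, hr.2⟩)
  have hsB : n * s * n⁻¹ ∈ D.borelSubgroup F := by
    rw [show n * s * n⁻¹ = (n * t * n⁻¹)⁻¹ * (n * (t * s) * n⁻¹) by group]
    exact Subgroup.mem_sup_left (mul_mem (inv_mem ht') (hXU (hnX _ hx)))
  obtain ⟨τ, hm⟩ := C.sg_spec hn
  have hs1 := C.eq_one_of_conj_mem_borel (C.closedSet_inv hn) hm (fun r hr => hr.2)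
    (grp_mem_mono hs fun r hr => hr.2) hsB
  rw [hs1, mul_one]
  exact grp_mem_mono ht fun r hr => ⟨hr.1.1,
    (C.key_trichotomy (C.sg_lt hn hr.1.1.1)).resolve_right fun h => hr.2 ⟨hr.1.1, h⟩⟩

/-- positive roots of a Levi subsystem are made negative by its monomial group -/
theorem exists_levi_neg {J : Set ℕ} {N : Subgroup (GL D.Idx F)}
    (hN : ∀ j < D.rank, j ∈ J → C.ng j ∈ N) :
    ∀ r, D.IsPosRoot r → (∀ k < D.rank, k ∉ J → T.aux.coef r k = 0) →
      ∃ n, n ∈ D.monomialSubgroup F ∧ n ∈ N ∧ D.IsNegRoot (C.sg n r) := by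
  intro r
  induction r using Nat.strong_induction_on with
  | _ r ih =>
  intro hr hJ
  have R := C.root
  rcases C.exists_descent hr.1 ((R.pos_iff r).1 hr).2 with ⟨i, hi, rfl⟩ | ⟨i, hi, hA, hk⟩
  · have hiJ : i ∈ J := by
      by_contra h
      have := hJ i hi h
      rw [R.coef_simple i hi i hi, if_pos rfl] at this
      exact one_ne_zero this
    refine ⟨C.ng i, C.ng_mem hi, hN i hi hiJ, ?_⟩
    rw [C.sg_ng hi hr.1, R.refl_simple hi]
    exact (C.neg_neg_iff hr.1).2 hr
  · have hw := R.refl_lt i hi r hr.1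
    have hwpos : D.IsPosRoot (D.reflectRoot i r) := (R.pos_iff _).2 ⟨hw, hk⟩
    have hiJ : i ∈ J := by
      by_contra h
      have h1 := C.coef_nonneg hwpos hi
      rw [R.coef_refl hi hr.1 hi, hJ i hi h, if_pos rfl] at h1
      omega
    have hlt : D.reflectRoot i r < r := by
      rw [R.lt_iff_key hw hr.1, R.refl_key i hi r hr.1]
      have := mul_pos hA (R.key_simple_pos hi)
      linarith
    obtain ⟨n, hn, hnN, hneg⟩ := ih _ hlt hwpos fun k hk hkJ => by
      rw [R.coef_refl hi hr.1 hk, hJ k hk hkJ, if_neg (fun h : k = i => hkJ (h ▸ hiJ))]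
      ring
    refine ⟨n * C.ng i, mul_mem hn (C.ng_mem hi), mul_mem hnN (hN i hi hiJ), ?_⟩
    rwa [C.sg_mul hn (C.ng_mem hi) hr.1, C.sg_ng hi hr.1]

/-- commutator terms of positive roots are not fundamental -/
theorem comm_not_simple {r s : ℕ} (hr : D.IsPosRoot r) (hs : D.IsPosRoot s) (hne : s ≠ r)
    {c : ℕ × ℤ × ℕ × ℕ} (hc : c ∈ D.commTerms r s) {i : ℕ} (hi : i < D.rank) : c.1 ≠ D.simple i := by
  intro he
  obtain ⟨a, b, ha, hb, -, hco⟩ := C.commTerms_comb hr.1 hs.1 c hc
  have h0 : ∀ j < D.rank, j ≠ i → T.aux.coef r j = 0 ∧ T.aux.coef s j = 0 := by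
    intro j hj hji
    have h := hco j hj
    rw [he, show T.cf (D.simple i) j = _ from C.root.coef_simple i hi j hj, if_neg hji] at h
    have h1 := mul_nonneg ha.le (C.coef_nonneg hr hj)
    have h2 := mul_nonneg hb.le (C.coef_nonneg hs hj)
    simp only [Fast.aux] at h1 h2 ⊢
    exact ⟨(mul_eq_zero.1 (by omega : a * T.cf r j = 0)).resolve_left ha.ne',
      (mul_eq_zero.1 (by omega : b * T.cf s j = 0)).resolve_left hb.ne'⟩
  exact hne ((C.eq_simple_of_coef hi hs fun j hj h => (h0 j hj h).2).trans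
    (C.eq_simple_of_coef hi hr fun j hj h => (h0 j hj h).1).symm)

theorem xg_not_posBut {k : ℕ} (hk : k < D.rank) {a : F} (ha : a ≠ 0) :
    C.xg (D.simple k) a ∉ grp D F (C.posBut k) := by
  intro h
  have h1 := C.posBut_le_borel k (C.ng_conj_posBut hk h)
  have hp := C.root.simple_lt k hk
  rw [C.ng_xg hk hp, mul_inv_cancel_right, C.root.refl_simple hk] at h1
  exact C.neg_xg_not_mem ((C.neg_neg_iff hp).2 (C.root.pos_simple hk))
    (mul_ne_zero (eta_ne_zero _ _) ha) h1

/-- Extraction of `X_s` from commutator words lying in a normalised subgroup. -/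
theorem extract {maxI a b s : ℕ} (ha : a < D.nroots) (hb : b < D.nroots) {Q : Subgroup (GL D.Idx F)}
    (hQ : ∀ v ∈ D.posUnipotent F, ∀ y ∈ Q, v * y * v⁻¹ ∈ Q)
    (hhigh : ∀ c ∈ D.commTerms a b, s < c.1 → ∀ x : F, C.xg c.1 x ∈ Q)
    (hW : ∀ t u : F, C.wg (D.commWord F a b t u) ∈ Q)
    (htest : testPair T maxI a b s = true)
    (hq2 : ∃ l : F, l ≠ 0 ∧ l ≠ 1)
    (hq3 : 3 ≤ maxI → ∃ l m : F, l ≠ 0 ∧ l ≠ 1 ∧ m ≠ 0 ∧ m ≠ 1 ∧ l ≠ m) :
    ∀ x : F, C.xg s x ∈ Q := by
  simp only [testPair, Bool.and_eq_true, Bool.not_eq_true', ltI_iff] at htest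
  obtain ⟨⟨⟨-, hka⟩, hkb⟩, hm⟩ := htest
  have hap : D.IsPosRoot a := (C.root.pos_iff a).2 ⟨ha, hka⟩
  have hbp : D.IsPosRoot b := (C.root.pos_iff b).2 ⟨hb, hkb⟩
  rw [C.commT_eq ha hb] at hm
  set f : ℕ × ℤ × ℕ × ℕ → Bool := fun c => Nat.ble c.1 s with hf
  -- only the low terms matter
  have hlow : ∀ t u : F, C.wg (((D.commTerms a b).filter f).map fun c =>
      (c.1, (c.2.1 : F) * (-t) ^ c.2.2.1 * u ^ c.2.2.2)) ∈ Q := by
    intro t u
    obtain ⟨y, hy, e⟩ := C.drop_letters hQ (fun q => Nat.ble q.1 s) (D.commWord F a b t u)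
      (fun q hq => by
        obtain ⟨c, hc, rfl⟩ := List.mem_map.1 hq
        exact (C.commTerms_gt hap hbp c hc).1)
      (fun q hq hf' => by
        obtain ⟨c, hc, rfl⟩ := List.mem_map.1 hq
        refine hhigh c hc ?_ _
        rw [Bool.eq_false_iff, ne_eq, Nat.ble_eq] at hf'
        omega)
    have := hW t u
    rw [e] at this
    have h2 := mul_mem this (inv_mem hy)
    rw [mul_inv_cancel_right, ChevalleyDatum.commWord, List.filter_map] at h2
    exact h2
  have hlist : ∀ L, (D.commTerms a b).filter f = L → ∀ c ∈ L, D.IsPosRoot c.1 := by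
    intro L hL c hc
    exact (C.commTerms_gt hap hbp c (List.mem_filter.1 (hL ▸ hc)).1).1
  split at hm
  · next u c i j e =>
    simp only [Bool.and_eq_true, Nat.beq_eq] at hm
    obtain ⟨⟨⟨rfl, hc⟩, rfl⟩, rfl⟩ := hm
    have hc0 : (c : F) ≠ 0 := by
      rcases Int.natAbs_eq c with h | h <;> rw [h, hc] <;> simp
    intro x
    have := hlow (-1) (x / (c : F))
    rw [e] at this
    simpa [C.wg_cons, C.wg_nil, mul_div_cancel₀ _ hc0] using this
  · next u₁ c₁ i₁ j₁ u c i j e =>
    simp only [Bool.and_eq_true, Nat.beq_eq] at hm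
    obtain ⟨⟨⟨⟨⟨⟨-, rfl⟩, hc⟩, rfl⟩, rfl⟩, rfl⟩, rfl⟩ := hm
    have hc0 : (c : F) ≠ 0 := by
      rcases Int.natAbs_eq c with h | h <;> rw [h, hc] <;> simp
    have hs := (hlist _ e (u, c, 2, 1) (by simp)).1
    have hW' : ∀ τ v : F, τ ≠ 0 → C.xg u₁ ((c₁ : F) * v) * C.xg u ((c : F) * (τ * v)) ∈ Q := by
      intro τ v hτ
      have := hlow (-τ) (v / τ)
      rw [e] at this
      simp only [List.map_cons, List.map_nil, C.wg_cons, C.wg_nil, mul_one, neg_neg, pow_one] at this
      convert this using 2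
      · congr 1; field_simp
      · congr 1; field_simp
    obtain ⟨l, hl0, hl1⟩ := hq2
    have hl : l - 1 ≠ 0 := sub_ne_zero.2 hl1
    intro x
    set v := x / ((c : F) * (l - 1)) with hv
    have h3 := mul_mem (inv_mem (hW' 1 v one_ne_zero)) (hW' l v hl0)
    rw [mul_inv_rev, ← mul_assoc, mul_assoc (C.xg u ((c : F) * (1 * v)))⁻¹, inv_mul_cancel, mul_one,
      C.xg_inv, C.xg_add hs] at h3
    convert h3 using 2
    rw [hv]; field_simp; ring
  · next u₁ c₁ i₁ j₁ u₂ c₂ i₂ j₂ u c i j e =>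
    simp only [Bool.and_eq_true, Nat.beq_eq, Nat.ble_eq] at hm
    obtain ⟨⟨⟨⟨⟨⟨⟨⟨h3I, rfl⟩, hc⟩, rfl⟩, rfl⟩, rfl⟩, rfl⟩, rfl⟩, rfl⟩ := hm
    have hc0 : (c : F) ≠ 0 := by
      rcases Int.natAbs_eq c with h | h <;> rw [h, hc] <;> simp
    have hsp := hlist _ e (u, c, 3, 1) (by simp)
    have h2p := hlist _ e (u₂, c₂, 2, 1) (by simp)
    have hW' : ∀ τ v : F, τ ≠ 0 →
        C.xg u₁ ((c₁ : F) * v) * C.xg u₂ ((c₂ : F) * (τ * v)) * C.xg u ((c : F) * (τ ^ 2 * v)) ∈ Q := by
      intro τ v hτ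
      have := hlow (-τ) (v / τ)
      rw [e] at this
      simp only [List.map_cons, List.map_nil, C.wg_cons, C.wg_nil, mul_one, neg_neg, pow_one,
        ← mul_assoc] at this
      convert this using 3
      · congr 1; field_simp
      · congr 1; field_simp
      · field_simp
    obtain ⟨l, m, hl0, hl1, hm0, hm1, hlm⟩ := hq3 h3I
    have hstep : ∀ τ : F, τ ≠ 0 → τ ≠ 1 → ∀ w : F,
        C.xg u₂ ((c₂ : F) * w) * C.xg u ((c : F) * ((τ + 1) * w)) ∈ Q := by
      intro τ hτ0 hτ1 w
      have hd : τ - 1 ≠ 0 := sub_ne_zero.2 hτ1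
      set v := w / (τ - 1) with hv
      have h3 := mul_mem (inv_mem (hW' 1 v one_ne_zero)) (hW' τ v hτ0)
      have h4 := hQ _ (C.xg_mem_pos hsp ((c : F) * (1 ^ 2 * v))) _ h3
      have e' : C.xg u ((c : F) * (1 ^ 2 * v)) *
          ((C.xg u₁ ((c₁ : F) * v) * C.xg u₂ ((c₂ : F) * (1 * v)) * C.xg u ((c : F) * (1 ^ 2 * v)))⁻¹ *
          (C.xg u₁ ((c₁ : F) * v) * C.xg u₂ ((c₂ : F) * (τ * v)) * C.xg u ((c : F) * (τ ^ 2 * v)))) *
          (C.xg u ((c : F) * (1 ^ 2 * v)))⁻¹ =
          ((C.xg u₂ ((c₂ : F) * (1 * v)))⁻¹ * C.xg u₂ ((c₂ : F) * (τ * v))) *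
          (C.xg u ((c : F) * (τ ^ 2 * v)) * (C.xg u ((c : F) * (1 ^ 2 * v)))⁻¹) := by group
      rw [e', C.xg_inv, C.xg_inv, C.xg_add h2p.1, C.xg_add hsp.1] at h4
      convert h4 using 3 <;> (rw [hv]; field_simp; ring)
    intro x
    set w := x / ((c : F) * (m - l)) with hw
    have h3 := mul_mem (inv_mem (hstep l hl0 hl1 w)) (hstep m hm0 hm1 w)
    rw [mul_inv_rev, ← mul_assoc, mul_assoc (C.xg u ((c : F) * ((l + 1) * w)))⁻¹, inv_mul_cancel, mul_one,
      C.xg_inv, C.xg_add hsp.1] at h3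
    convert h3 using 2
    have : m - l ≠ 0 := sub_ne_zero.2 hlm.symm
    rw [hw]; field_simp; ring
  · exact absurd hm (by simp)

/-- the elements of `U` commuting with `U` modulo a normalised subgroup -/
theorem central_mod {Q : Subgroup (GL D.Idx F)}
    (hQ : ∀ v ∈ D.posUnipotent F, ∀ y ∈ Q, v * y * v⁻¹ ∈ Q) {S : Set ℕ}
    (hS : ∀ r ∈ S, D.IsPosRoot r)
    (hgen : ∀ r ∈ S, ∀ m, D.IsPosRoot m → m ≠ r → ∀ c ∈ D.commTerms m r, ∀ x : F, C.xg c.1 x ∈ Q)
    {g : GL D.Idx F} (hg : g ∈ grp D F S ⊔ Q ⊓ D.posUnipotent F) {v : GL D.Idx F}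
    (hv : v ∈ D.posUnipotent F) : g * v * g⁻¹ * v⁻¹ ∈ Q := by
  let Z : Subgroup (GL D.Idx F) :=
    { carrier := {g | g ∈ D.posUnipotent F ∧ ∀ v ∈ D.posUnipotent F, g * v * g⁻¹ * v⁻¹ ∈ Q}
      one_mem' := ⟨one_mem _, fun v _ => by simp [one_mem]⟩
      mul_mem' := by
        rintro x y ⟨hx, hx'⟩ ⟨hy, hy'⟩
        refine ⟨mul_mem hx hy, fun v hv => ?_⟩
        have := mul_mem (hQ x hx _ (hy' v hv)) (hx' v hv)
        convert this using 1
        group
      inv_mem' := by
        rintro x ⟨hx, hx'⟩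
        refine ⟨inv_mem hx, fun v hv => ?_⟩
        have := hQ x⁻¹ (inv_mem hx) _ (inv_mem (hx' v hv))
        convert this using 1
        group }
  have hle : grp D F S ⊔ Q ⊓ D.posUnipotent F ≤ Z := by
    refine sup_le (C.grp_le fun r hr t => ⟨C.xg_mem_pos (hS r hr) t, ?_⟩) fun q hq => ?_
    · intro v hv
      let Z' : Subgroup (GL D.Idx F) :=
        { carrier := {v | v ∈ D.posUnipotent F ∧ C.xg r t * v * (C.xg r t)⁻¹ * v⁻¹ ∈ Q}
          one_mem' := ⟨one_mem _, by simp [one_mem]⟩
          mul_mem' := by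
            rintro x y ⟨hx, hx'⟩ ⟨hy, hy'⟩
            refine ⟨mul_mem hx hy, ?_⟩
            have := mul_mem hx' (hQ x hx _ hy')
            convert this using 1
            group
          inv_mem' := by
            rintro x ⟨hx, hx'⟩
            refine ⟨inv_mem hx, ?_⟩
            have := hQ x⁻¹ (inv_mem hx) _ (inv_mem hx')
            convert this using 1
            group }
      have hle' : D.posUnipotent F ≤ Z' := by
        rw [posUnipotent_eq]
        refine C.grp_le fun m hm u => ⟨C.xg_mem_pos hm u, ?_⟩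
        by_cases hmr : m = r
        · subst hmr
          rw [C.xg_add hm.1, C.xg_inv, C.xg_add hm.1, C.xg_inv, C.xg_add hm.1,
            show t + u + -t + -u = 0 by ring, C.xg_zero]
          exact one_mem _
        have h1 := C.comm hm.1 (hS r hr).1 (Ne.symm hmr) (C.ne_neg_of_pos hm (hS r hr)) u t
        have hWQ : C.wg (D.commWord F m r u t) ∈ Q := by
          refine Subgroup.list_prod_mem _ fun x hx => ?_
          obtain ⟨p, hp, rfl⟩ := List.mem_map.1 hx
          obtain ⟨c, hc, rfl⟩ := List.mem_map.1 hp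
          exact hgen r hr m hm hmr c hc _
        rw [h1]
        have := hQ _ (mul_mem (C.xg_mem_pos hm u) (C.xg_mem_pos (hS r hr) t)) _ hWQ
        convert this using 1
        group
      exact (hle' hv).2
    · obtain ⟨hqQ, hqU⟩ := Subgroup.mem_inf.1 hq
      refine ⟨hqU, fun v hv => ?_⟩
      have := mul_mem hqQ (hQ v hv _ (inv_mem hqQ))
      convert this using 1
      group
  exact (hle hg).2 v hv

theorem square_span [Fintype F] (z : F) : ∃ t t' : F, z = t ^ 2 - t' ^ 2 := by
  by_cases h2 : (2 : F) = 0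
  · have hc : ringChar F = 2 := CharP.ringChar_of_prime_eq_zero Nat.prime_two (by exact_mod_cast h2)
    obtain ⟨r, hr⟩ := FiniteField.isSquare_of_char_two hc z
    exact ⟨r, 0, by rw [hr]; ring⟩
  · refine ⟨(z + 1) / 2, (z - 1) / 2, ?_⟩
    field_simp
    ring

omit C in
theorem exists_zpow_ne_one [Fintype F] {d : ℤ} (h : ¬ (Fintype.card F - 1) ∣ d.natAbs) :
    ∃ t : F, t ≠ 0 ∧ t ^ d ≠ 1 := by
  classical
  obtain ⟨g, hg⟩ := IsCyclic.exists_ofOrder_eq_natCard (α := Fˣ)
  refine ⟨(g : F), g.ne_zero, fun he => h ?_⟩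
  have he' : g ^ d = 1 := Units.ext (by simpa using he)
  have := orderOf_dvd_iff_zpow_eq_one.2 he'
  rw [hg, Nat.card_eq_fintype_card, Fintype.card_units] at this
  exact Int.natCast_dvd.1 this

omit C in
theorem exists_two [Fintype F] (h : 4 ≤ Fintype.card F) :
    ∃ l m : F, l ≠ 0 ∧ l ≠ 1 ∧ m ≠ 0 ∧ m ≠ 1 ∧ l ≠ m := by
  classical
  have h1 : 1 < (Finset.univ \ ({0, 1} : Finset F)).card := by
    rw [Finset.card_sdiff_of_subset (Finset.subset_univ _), Finset.card_univ]
    have := Finset.card_le_two (a := (0 : F)) (b := 1)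
    omega
  obtain ⟨l, hl, m, hm, hlm⟩ := Finset.one_lt_card.1 h1
  simp only [Finset.mem_sdiff, Finset.mem_insert, Finset.mem_singleton, not_or] at hl hm
  exact ⟨l, m, hl.2.1, hl.2.2, hm.2.1, hm.2.2, hlm⟩

end

/-- Weakly closed unipotent subgroups of Chevalley groups: let G be the Chevalley group of type G₂, B₂, D₄, F₄, E₆, E₇ or E₈ over a finite field F (the matrix group generated by the root elements), with |F| ≠ 2, and |F| ≠ 3 as well for the types G₂, B₂, D₄, F₄. Let U be the subgroup generated by the positive root subgroups. If X ≤ U is weakly closed in U with respect to G (every G-conjugate of X lying in U equals X), then X is the unipotent radical U_J of a standard parabolic subgroup for some set J of fundamental roots. -/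
theorem result {F : Type*} [Field F] [Fintype F] (D : Cfsg.Lie.ChevalleyDatum) (hD : D ∈ [Cfsg.Lie.chevG2, Cfsg.Lie.chevB2, Cfsg.Lie.chevD4, Cfsg.Lie.chevF4, Cfsg.Lie.chevE6, Cfsg.Lie.chevE7, Cfsg.Lie.chevE8])
    (h2 : Fintype.card F ≠ 2) (h3 : D ∈ [Cfsg.Lie.chevG2, Cfsg.Lie.chevB2, Cfsg.Lie.chevD4, Cfsg.Lie.chevF4] → Fintype.card F ≠ 3)
    (X : Subgroup (GL D.Idx F)) (hXU : X ≤ D.posUnipotent F)
    (hwc : ∀ g ∈ D.group F, X.map (MulAut.conj g).toMonoidHom ≤ D.posUnipotent F → X.map (MulAut.conj g).toMonoidHom = X) :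
    ∃ J : Set ℕ, (∀ j ∈ J, j < D.rank) ∧ X = D.unipotentRadical F J := by
  classical
  have hq1 : 1 < Fintype.card F := Fintype.one_lt_card
  have hq : 3 ≤ Fintype.card F := by omega
  have h4 : D ∈ [Cfsg.Lie.chevG2, Cfsg.Lie.chevB2, Cfsg.Lie.chevD4, Cfsg.Lie.chevF4] →
      4 ≤ Fintype.card F := fun h => by have := h3 h; omega
  obtain ⟨T, maxI, ns, C, hchk, hmax, hns⟩ := exists_wc hD hq h4
  simp only [wcCheck, Bool.and_eq_true] at hchk
  obtain ⟨⟨hsupp, hsep⟩, hcert⟩ := hchk
  have R := C.root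
  -- `B` normalises `X`
  have hBX : ∀ g ∈ D.borelSubgroup F, ∀ x ∈ X, g * x * g⁻¹ ∈ X := by
    intro g hg x hx
    have hle : X.map (MulAut.conj g).toMonoidHom ≤ D.posUnipotent F := by
      rintro _ ⟨y, hy, rfl⟩
      obtain ⟨u, hu, h, hh, rfl⟩ := C.mem_borel.1 hg
      show u * h * y * (u * h)⁻¹ ∈ D.posUnipotent F
      have := mul_mem (mul_mem hu (C.diag_normalizes_pos hh (hXU hy))) (inv_mem hu)
      convert this using 1
      group
    rw [← hwc g (C.borel_le_group hg) hle]
    exact ⟨x, hx, rfl⟩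
  set J : Set ℕ := {j | j < D.rank ∧ C.ng j ∈ Subgroup.normalizer (X : Set (GL D.Idx F))} with hJdef
  refine ⟨J, fun j hj => hj.1, ?_⟩
  set M : Set ℕ := {r | D.IsPosRoot r ∧ ∃ k < D.rank, k ∉ J ∧ T.aux.coef r k ≠ 0} with hMdef
  have hMU : D.unipotentRadical F J = grp D F M := by
    have hset : ∀ r, D.IsPosRoot r → (¬ D.InRootSub J r ↔ ∃ k < D.rank, k ∉ J ∧ T.aux.coef r k ≠ 0) := by
      intro r hr
      have hs : ∀ i < D.rank, ((D.coroot.getD r #[]).getD i 0 = 0 ↔ T.aux.coef r i = 0) := by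
        intro i hi
        simp only [suppCheck, allBelow_iff] at hsupp
        have h := hsupp r (C.tables.nroots ▸ hr.1) i (C.tables.rank ▸ hi)
        rw [C.tables.coroot r hr.1 i hi]
        show _ ↔ T.cf r i = 0
        cases hb : beqI (T.co r i) 0
        · rw [hb] at h
          simp only [cond_false, Bool.not_eq_true'] at h
          constructor
          · intro h0; rw [h0, beqI_self] at hb; exact absurd hb (by simp)
          · intro h0; rw [h0, beqI_self] at h; exact absurd h (by simp)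
        · rw [hb] at h
          simp only [cond_true] at h
          exact ⟨fun _ => beqI_eq h, fun _ => beqI_eq hb⟩
      constructor
      · intro h
        by_contra h'
        push Not at h'
        exact h ⟨hr.1, fun i hi hiJ => (hs i hi).2 (h' i hi hiJ)⟩
      · rintro ⟨k, hk, hkJ, hne⟩ h
        exact hne ((hs k hk).1 (h.2 k hk hkJ))
    unfold ChevalleyDatum.unipotentRadical grp
    congr 1
    ext g
    exact ⟨fun ⟨r, t, h1, h2, e⟩ => ⟨r, ⟨h1, (hset r h1).1 h2⟩, t, e⟩,
      fun ⟨r, ⟨h1, h2⟩, t, e⟩ => ⟨r, t, h1, (hset r h1).2 h2, e⟩⟩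
  -- `X ≤ U_J`
  have hXM : X ≤ grp D F M := by
    intro x hx
    have hxU := hXU hx
    rw [posUnipotent_eq] at hxU
    obtain ⟨t, rfl⟩ := C.exists_ordered C.closedSet_pos hxU
    refine C.wg_mem_of_zero _ t fun r hr hrM => ?_
    have hrp := (C.mem_rootList.1 hr).2
    have hJ0 : ∀ k < D.rank, k ∉ J → T.aux.coef r k = 0 := fun k hk hkJ => by
      by_contra h
      exact hrM ⟨hrp, k, hk, hkJ, h⟩
    obtain ⟨n, hn, hnN, hneg⟩ := exists_levi_neg C (J := J)
      (N := Subgroup.normalizer (X : Set (GL D.Idx F))) (fun j _ hj => hj.2) r hrp hJ0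
    refine C.coord_zero (noninv_closed C hn) t
      (le_noninv C hXU hn (fun y hy => (Subgroup.mem_normalizer_iff.1 hnN y).1 hy) hx) r hrp
      fun h => C.not_pos_and_neg h.2 hneg
  -- for `k ∉ J` some element of `X` is outside `U_k`
  have hout : ∀ k < D.rank, k ∉ J → ¬ X ≤ grp D F (C.posBut k) := by
    intro k hk hkJ hle
    refine hkJ ⟨hk, ?_⟩
    have h1 := hwc (C.ng k) (C.ng_mem_group hk) (by
      rintro _ ⟨y, hy, rfl⟩
      rw [posUnipotent_eq]
      exact grp_mem_mono (C.ng_conj_posBut hk (hle hy)) fun r hr => hr.1)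
    refine C.mem_normalizer_of_conj (fun y hy => h1 ▸ ⟨y, hy, rfl⟩) fun y hy => ?_
    rw [← h1] at hy
    obtain ⟨z, hz, rfl⟩ := hy
    simpa [mul_assoc] using hz
  set S : ℕ → Set ℕ := fun m => {r | r ∈ M ∧ (∀ i < D.rank, r ≠ D.simple i) ∧ m ≤ r} with hSdef
  have hMideal : ∀ m, D.IsPosRoot m → ∀ r, D.IsPosRoot r → m ∈ M ∨ r ∈ M → ∀ c ∈ D.commTerms m r,
      c.1 ∈ M := by
    intro m hm r hr hor c hc
    refine ⟨(C.commTerms_gt hm hr c hc).1, ?_⟩
    obtain ⟨a, b, ha, hb, -, hco⟩ := C.commTerms_comb hm.1 hr.1 c hc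
    have hk : ∀ k < D.rank, T.aux.coef m k ≠ 0 ∨ T.aux.coef r k ≠ 0 → T.aux.coef c.1 k ≠ 0 := by
      intro k hk hne h0
      have h := hco k hk
      simp only [Fast.aux] at h0 hne
      have h1 := mul_nonneg ha.le (show 0 ≤ T.cf m k from C.coef_nonneg hm hk)
      have h2 := mul_nonneg hb.le (show 0 ≤ T.cf r k from C.coef_nonneg hr hk)
      rcases hne with hne | hne
      · have := mul_ne_zero ha.ne' hne; omega
      · have := mul_ne_zero hb.ne' hne; omega
    rcases hor with ⟨-, k, hk', hkJ, hne⟩ | ⟨-, k, hk', hkJ, hne⟩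
    · exact ⟨k, hk', hkJ, hk k hk' (Or.inl hne)⟩
    · exact ⟨k, hk', hkJ, hk k hk' (Or.inr hne)⟩
  have hSgen : ∀ i, ∀ m, D.IsPosRoot m → ∀ r ∈ S i, r ≠ m → ∀ c ∈ D.commTerms m r, c.1 ∈ S i := by
    intro i m hm r hr hne c hc
    exact ⟨hMideal m hm r hr.1.1 (Or.inr hr.1) c hc, fun j hj => comm_not_simple C hm hr.1.1 hne hc hj,
      hr.2.2.trans (C.commTerms_gt hm hr.1.1 c hc).2.2.le⟩
  have hQnorm : ∀ i, ∀ v ∈ D.posUnipotent F, ∀ y ∈ X ⊔ grp D F (S i), v * y * v⁻¹ ∈ X ⊔ grp D F (S i) := by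
    intro i v hv y hy
    have hle : X ⊔ grp D F (S i) ≤ (X ⊔ grp D F (S i)).comap (MulAut.conj v).toMonoidHom :=
      sup_le (fun x hx => Subgroup.mem_sup_left (hBX v (Subgroup.mem_sup_left hv) x hx))
        (fun x hx => Subgroup.mem_sup_right
          (C.pos_normalizes (fun r hr => hr.1.1) (hSgen i) hv hx))
    exact hle hy
  -- the fundamental roots outside `J`
  have hbase : ∀ k < D.rank, k ∉ J → ∀ z : F, C.xg (D.simple k) z ∈ X ⊔ grp D F (S 0) := by
    intro k hk hkJ
    -- an element of `X` with the only fundamental coordinate at `k`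
    have hL : ∀ L : List ℕ, (∀ l ∈ L, l < D.rank ∧ l ≠ k) →
        ∃ x ∈ X, (∀ l ∈ L, x ∈ grp D F (C.posBut l)) ∧ x ∉ grp D F (C.posBut k) := by
      intro L
      induction L with
      | nil =>
        intro _
        obtain ⟨x, hx, hne⟩ := SetLike.not_le_iff_exists.1 (hout k hk hkJ)
        exact ⟨x, hx, by simp, hne⟩
      | cons l L ih =>
        intro hLk
        obtain ⟨hl, hlk⟩ := hLk l (by simp)
        obtain ⟨x, hx, hxL, hxk⟩ := ih fun l' hl' => hLk l' (by simp [hl'])
        simp only [sepCheck, allBelow_iff, Bool.or_eq_true, Bool.and_eq_true, Nat.beq_eq,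
          List.all_eq_true] at hsep
        obtain ⟨hsmall, hall⟩ := (hsep k (C.tables.rank ▸ hk) l (C.tables.rank ▸ hl)).resolve_left
          (Ne.symm hlk)
        obtain ⟨i, hi, j, hj, hd⟩ : ∃ i < D.rank, ∃ j < D.rank, ¬ (Fintype.card F - 1) ∣
            (D.cartan i (D.simple k) * D.cartan j (D.simple l) -
              D.cartan j (D.simple k) * D.cartan i (D.simple l)).natAbs := by
          have hget : ∀ f : ℕ → Bool, minorB T k l f = true → ∃ i < D.rank, ∃ j < D.rank,
              f (D.cartan i (D.simple k) * D.cartan j (D.simple l) -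
                D.cartan j (D.simple k) * D.cartan i (D.simple l)).natAbs = true := by
            intro f hf
            simp only [minorB, List.any_eq_true, List.mem_range] at hf
            obtain ⟨i, hi, j, hj, hf⟩ := hf
            rw [← C.tables.rank] at hi hj
            refine ⟨i, hi, j, hj, ?_⟩
            rwa [C.tables.cartan i hi _ (R.simple_lt k hk), C.tables.cartan j hj _ (R.simple_lt l hl),
              C.tables.cartan j hj _ (R.simple_lt k hk), C.tables.cartan i hi _ (R.simple_lt l hl),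
              C.tables.simple k hk, C.tables.simple l hl]
          by_cases hn : Fintype.card F - 1 ≤ 4
          · obtain ⟨i, hi, j, hj, h⟩ := hget _ (hall _ (hns _ (by omega) hn))
            simp only [Bool.not_eq_true', Bool.eq_false_iff, ne_eq, Nat.beq_eq] at h
            exact ⟨i, hi, j, hj, fun hd => h (Nat.mod_eq_zero_of_dvd hd)⟩
          · obtain ⟨i, hi, j, hj, h⟩ := hget _ hsmall
            simp only [Bool.and_eq_true, Bool.not_eq_true', Bool.eq_false_iff, ne_eq, Nat.beq_eq,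
              Nat.ble_eq] at h
            exact ⟨i, hi, j, hj, fun hd => by have := Nat.le_of_dvd (Nat.pos_of_ne_zero h.1) hd; omega⟩
        obtain ⟨t, ht0, ht1⟩ := exists_zpow_ne_one hd
        set s₁ := t ^ D.cartan j (D.simple l) with hs₁
        set s₂ := t ^ (- D.cartan i (D.simple l)) with hs₂
        have hs₁0 : s₁ ≠ 0 := zpow_ne_zero _ ht0
        have hs₂0 : s₂ ≠ 0 := zpow_ne_zero _ ht0
        set h := C.hg (D.simple i) s₁ * C.hg (D.simple j) s₂ with hh'
        have hh : h ∈ D.diagonalSubgroup F :=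
          mul_mem (C.hg_mem (R.simple_lt i hi) hs₁0) (C.hg_mem (R.simple_lt j hj) hs₂0)
        set χ : ℕ → F := fun v => s₁ ^ D.cartan i v * s₂ ^ D.cartan j v with hχdef
        have hχ : IsChr D χ := C.isChr_mul (C.isChr_cartan hi hs₁0) (C.isChr_cartan hj hs₂0)
        have eh : (h : Matrix D.Idx D.Idx F) = dg D χ := by
          rw [hh', Units.val_mul, C.val_hg, C.val_hg, C.hMat_simple hi hs₁0, C.hMat_simple hj hs₂0,
            dg_mul]
        have hχl : χ (D.simple l) = 1 := by
          simp only [hχdef, hs₁, hs₂, ← zpow_mul, ← zpow_add₀ ht0]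
          convert zpow_zero t using 2
          ring
        have hχk : χ (D.simple k) ≠ 1 := by
          simp only [hχdef, hs₁, hs₂, ← zpow_mul, ← zpow_add₀ ht0]
          convert ht1 using 3
          ring
        have hnorm : ∀ m, ∀ y ∈ grp D F (C.posBut m), h * y * h⁻¹ ∈ grp D F (C.posBut m) :=
          fun m y hy => C.diag_normalizes (fun r hr => hr.1.1) hh hy
        have hconj : ∀ m, m < D.rank → ∀ z : GL D.Idx F, ∀ y ∈ grp D F (C.posBut m), ∀ b : F,
            z = y * C.xg (D.simple m) b →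
            h * z * h⁻¹ * z⁻¹ = (h * y * h⁻¹) * C.xg (D.simple m) ((χ (D.simple m) - 1) * b) * y⁻¹ := by
          intro m hm z y hy b hz
          have hmid : h * C.xg (D.simple m) b * h⁻¹ * (C.xg (D.simple m) b)⁻¹ =
              C.xg (D.simple m) ((χ (D.simple m) - 1) * b) := by
            rw [mul_inv_eq_iff_eq_mul, C.xg_add (R.simple_lt m hm), mul_inv_eq_iff_eq_mul]
            refine Units.ext ?_
            simp only [Units.val_mul, eh, C.val_xg]
            rw [C.dg_x hχ (R.simple_lt m hm), show (χ (D.simple m) - 1) * b + b = χ (D.simple m) * b by ring]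
          rw [← hmid, hz]
          group
        have hxl : ∀ l' ∈ L, h * x * h⁻¹ * x⁻¹ ∈ grp D F (C.posBut l') := fun l' hl' =>
          mul_mem (hnorm l' x (hxL l' hl')) (inv_mem (hxL l' hl'))
        refine ⟨h * x * h⁻¹ * x⁻¹, mul_mem (hBX h (Subgroup.mem_sup_right hh) x hx) (inv_mem hx),
          fun l' hl' => ?_, fun hmem => hxk ?_⟩
        · rcases List.mem_cons.1 hl' with rfl | hl'
          · obtain ⟨y, hy, b, hxe⟩ := C.exists_posBut_mul hl (hXU hx)
            rw [hconj l' hl x y hy b hxe, hχl, sub_self, zero_mul, C.xg_zero, mul_one]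
            exact mul_mem (hnorm l' y hy) (inv_mem hy)
          · exact hxl l' hl'
        · obtain ⟨y, hy, b, hxe⟩ := C.exists_posBut_mul hk (hXU hx)
          by_cases hb : b = 0
          · rw [hxe, hb, C.xg_zero, mul_one]; exact hy
          exfalso
          rw [hconj k hk x y hy b hxe] at hmem
          refine xg_not_posBut C hk (mul_ne_zero (sub_ne_zero.2 hχk) hb) ?_
          have := mul_mem (mul_mem (inv_mem (hnorm k y hy)) hmem) hy
          convert this using 1
          group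
    obtain ⟨x, hx, hxL, hxk⟩ := hL ((List.range D.rank).filter fun l => decide (l ≠ k))
      fun l hl => by simpa using hl
    -- split off the coordinate at `k`
    have hxU := hXU hx
    rw [posUnipotent_eq] at hxU
    obtain ⟨tx, hxe⟩ := C.exists_ordered C.closedSet_pos hxU
    have hM2 : ∀ r ∈ C.rootList {r | D.IsPosRoot r}, r ∉ insert (D.simple k) (S 0) → tx r = 0 := by
      intro r hr hnot
      have hrp := (C.mem_rootList.1 hr).2
      rw [Set.mem_insert_iff, not_or] at hnot
      by_cases hsim : ∃ l < D.rank, r = D.simple l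
      · obtain ⟨l, hl, rfl⟩ := hsim
        have hlk : l ≠ k := fun h => hnot.1 (by rw [h])
        refine C.coord_zero (C.closedSet_ne_simple hl) tx ?_ _ hrp fun h => h.2 rfl
        rw [← hxe]
        exact hxL l (by simp [hl, hlk])
      · have hrM : r ∉ M := fun h => hnot.2 ⟨h, fun i hi he => hsim ⟨i, hi, he⟩, Nat.zero_le r⟩
        have hJ0 : ∀ m < D.rank, m ∉ J → T.aux.coef r m = 0 := fun m hm hmJ => by
          by_contra h
          exact hrM ⟨hrp, m, hm, hmJ, h⟩
        obtain ⟨n, hn, hnN, hneg⟩ := exists_levi_neg C (J := J)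
          (N := Subgroup.normalizer (X : Set (GL D.Idx F))) (fun j _ hj => hj.2) r hrp hJ0
        refine C.coord_zero (noninv_closed C hn) tx ?_ r hrp fun h => C.not_pos_and_neg h.2 hneg
        rw [← hxe]
        exact le_noninv C hXU hn (fun y hy => (Subgroup.mem_normalizer_iff.1 hnN y).1 hy) hx
    have hkp := R.pos_simple hk
    have hsplit : ∀ l : List ℕ, (∀ r ∈ l, r ∈ C.rootList {r | D.IsPosRoot r}) →
        ∃ a : F, ∃ y ∈ grp D F (S 0), C.wg (l.map fun r => (r, tx r)) = C.xg (D.simple k) a * y := by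
      intro l
      induction l with
      | nil => intro _; exact ⟨0, 1, one_mem _, by simp [C.wg_nil, C.xg_zero]⟩
      | cons r l ih =>
        intro hl
        obtain ⟨a, y, hy, e⟩ := ih fun r' hr' => hl r' (by simp [hr'])
        rw [List.map_cons, C.wg_cons, e]
        by_cases hrk : r = D.simple k
        · subst hrk
          exact ⟨tx (D.simple k) + a, y, hy, by rw [← C.xg_add hkp.1, mul_assoc]⟩
        by_cases hrS : r ∈ S 0
        · refine ⟨a, (C.xg (D.simple k) a)⁻¹ * C.xg r (tx r) * C.xg (D.simple k) a * y,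
            mul_mem ?_ hy, by group⟩
          have := C.pos_normalizes (fun q hq => hq.1.1) (hSgen 0)
            (inv_mem (C.xg_mem_pos hkp a)) (C.xg_mem hrS (tx r))
          rwa [inv_inv] at this
        · refine ⟨a, y, hy, ?_⟩
          rw [hM2 r (hl r (by simp)) (by simp [hrk, hrS]), C.xg_zero, one_mul]
    obtain ⟨a, y, hy, e⟩ := hsplit _ fun r hr => hr
    rw [← hxe] at e
    have hS0k : ∀ y ∈ grp D F (S 0), y ∈ grp D F (C.posBut k) := fun y hy =>
      grp_mem_mono hy fun r hr => ⟨hr.1.1, hr.2.1 k hk⟩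
    have ha : a ≠ 0 := fun h => hxk (by rw [e, h, C.xg_zero, one_mul]; exact hS0k y hy)
    have haQ : C.xg (D.simple k) a ∈ X ⊔ grp D F (S 0) := by
      have := mul_mem (Subgroup.mem_sup_left hx : x ∈ X ⊔ grp D F (S 0))
        (inv_mem (Subgroup.mem_sup_right hy))
      rwa [e, mul_inv_cancel_right] at this
    have hsq : ∀ t : F, C.xg (D.simple k) (t ^ 2 * a) ∈ X ⊔ grp D F (S 0) := by
      intro t
      by_cases ht : t = 0
      · rw [ht, zero_pow two_ne_zero, zero_mul, C.xg_zero]; exact one_mem _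
      set h := C.hg (D.simple k) t with hhdef
      have hh : h ∈ D.diagonalSubgroup F := C.hg_mem (R.simple_lt k hk) ht
      have hle : X ⊔ grp D F (S 0) ≤ (X ⊔ grp D F (S 0)).comap (MulAut.conj h).toMonoidHom :=
        sup_le (fun x hx => Subgroup.mem_sup_left (hBX h (Subgroup.mem_sup_right hh) x hx))
          (fun x hx => Subgroup.mem_sup_right (C.diag_normalizes (fun r hr => hr.1.1.1) hh hx))
      have h1 : h * C.xg (D.simple k) a * h⁻¹ ∈ X ⊔ grp D F (S 0) := hle haQ
      have h2 : h * C.xg (D.simple k) a * h⁻¹ = C.xg (D.simple k) (t ^ 2 * a) := by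
        rw [mul_inv_eq_iff_eq_mul]
        refine Units.ext ?_
        simp only [Units.val_mul, hhdef, C.val_hg, C.hMat_simple hk ht, C.val_xg]
        rw [C.dg_x (C.isChr_cartan hk ht) (R.simple_lt k hk), R.cartan_self k hk]
        norm_cast
      rwa [h2] at h1
    intro z
    obtain ⟨t, t', hz⟩ := square_span C (z / a)
    have := mul_mem (hsq t) (inv_mem (hsq t'))
    rw [C.xg_inv, C.xg_add hkp.1] at this
    convert this using 2
    rw [← sub_eq_add_neg, ← sub_mul, ← hz, div_mul_cancel₀ _ ha]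
  -- climbing
  have hclimb : ∀ m, grp D F M ≤ X ⊔ grp D F (S m) := by
    intro m
    induction m with
    | zero =>
      refine C.grp_le fun r hr t => ?_
      by_cases hsim : ∃ k < D.rank, r = D.simple k
      · obtain ⟨k, hk, rfl⟩ := hsim
        refine hbase k hk ?_ t
        obtain ⟨-, l, hl, hlJ, hne⟩ := hr
        rw [R.coef_simple k hk l hl] at hne
        split_ifs at hne with h
        · exact h ▸ hlJ
        · exact absurd rfl hne
      · exact Subgroup.mem_sup_right (C.xg_mem (S := S 0) ⟨hr, fun i hi he => hsim ⟨i, hi, he⟩,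
          Nat.zero_le r⟩ t)
    | succ m ih =>
      by_cases hm : m ∈ M ∧ ∀ i < D.rank, m ≠ D.simple i
      · set Q := X ⊔ grp D F (S (m + 1)) with hQdef
        have hQU : Q ≤ D.posUnipotent F := by
          refine sup_le hXU ?_
          rw [posUnipotent_eq]
          exact grp_mono fun r hr => hr.1.1
        have hle : grp D F M ≤ grp D F {m} ⊔ Q ⊓ D.posUnipotent F := by
          refine le_trans ih (sup_le (fun x hx => Subgroup.mem_sup_right
            (Subgroup.mem_inf.2 ⟨Subgroup.mem_sup_left hx, hXU hx⟩)) (C.grp_le fun r hr t => ?_))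
          by_cases hrm : r = m
          · subst hrm; exact Subgroup.mem_sup_left (C.xg_mem (S := {r}) rfl t)
          · have hr' : r ∈ S (m + 1) := ⟨hr.1, hr.2.1, by have := hr.2.2; omega⟩
            refine Subgroup.mem_sup_right (Subgroup.mem_inf.2 ⟨Subgroup.mem_sup_right
              (C.xg_mem hr' t), C.xg_mem_pos hr.1.1 t⟩)
        have hcentral : ∀ g ∈ grp D F M, ∀ v ∈ D.posUnipotent F, g * v * g⁻¹ * v⁻¹ ∈ Q := by
          intro g hg v hv
          refine central_mod C (hQnorm (m + 1)) (S := {m}) (by rintro r rfl; exact hm.1.1) ?_ (hle hg) hv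
          rintro r rfl p hp hpm c hc x
          refine Subgroup.mem_sup_right (C.xg_mem (S := S (r + 1)) ⟨hMideal p hp r hm.1.1 (Or.inr hm.1) c hc,
            fun j hj => comm_not_simple C hp hm.1.1 (Ne.symm hpm) hc hj, ?_⟩ x)
          have := (C.commTerms_gt hp hm.1.1 c hc).2.2
          omega
        -- the certificate of `m`
        simp only [allBelow_iff, Bool.or_eq_true, Bool.not_eq_true', List.any_eq_true, List.mem_range,
          Nat.beq_eq] at hcert
        obtain ⟨a, ha, b, hb, htest⟩ : ∃ a < D.nroots, ∃ b < D.nroots, testPair T maxI a b m = true := by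
          rcases hcert m (C.tables.nroots ▸ hm.1.1.1) with (h | ⟨k, hk, h⟩) | h
          · have h' := ((R.pos_iff m).1 hm.1.1).2
            simp only [Fast.aux] at h'
            rw [Bool.eq_false_iff, ne_eq, ltI_iff] at h
            omega
          · rw [← C.tables.rank] at hk
            exact absurd ((C.tables.simple k hk).trans h).symm (hm.2 k hk)
          · simp only [certRoot, Bool.or_eq_true, List.any_eq_true, List.mem_range, Bool.and_eq_true] at h
            rw [C.tables.nroots]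
            rcases h with ⟨k, -, h⟩ | ⟨a, ha, b, hb, -, h⟩
            · split at h
              · next b _ =>
                simp only [Bool.and_eq_true, Nat.blt_eq] at h
                exact ⟨_, h.1.1, b, h.1.2, h.2⟩
              · exact absurd h (by simp)
            · exact ⟨a, ha, b, hb, h⟩
        have ht' := htest
        simp only [testPair, Bool.and_eq_true, Bool.not_eq_true', ltI_iff] at ht'
        obtain ⟨⟨⟨hab, hka⟩, hkb⟩, hmatch⟩ := ht'
        have hap : D.IsPosRoot a := (R.pos_iff a).2 ⟨ha, hka⟩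
        have hbp : D.IsPosRoot b := (R.pos_iff b).2 ⟨hb, hkb⟩
        have hba : b ≠ a := fun h => by simp [h] at hab
        have hmem : ∃ c ∈ D.commTerms a b, c.1 = m := by
          rw [C.commT_eq ha hb] at hmatch
          split at hmatch
          · next u c i j e =>
            simp only [Bool.and_eq_true, Nat.beq_eq] at hmatch
            exact ⟨_, (List.mem_filter.1 (e ▸ List.mem_singleton_self _)).1, hmatch.1.1.1⟩
          · next q₁ q₂ q₃ q₄ u c i j e =>
            simp only [Bool.and_eq_true, Nat.beq_eq] at hmatch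
            exact ⟨(u, c, i, j), (List.mem_filter.1 (e ▸ (by simp : (u, c, i, j) ∈ [(q₁, q₂, q₃, q₄), (u, c, i, j)]))).1,
              hmatch.1.1.1.1.1.2⟩
          · next p₁ p₂ p₃ p₄ q₁ q₂ q₃ q₄ u c i j e =>
            simp only [Bool.and_eq_true, Nat.beq_eq] at hmatch
            exact ⟨(u, c, i, j), (List.mem_filter.1 (e ▸ (by simp :
              (u, c, i, j) ∈ [(p₁, p₂, p₃, p₄), (q₁, q₂, q₃, q₄), (u, c, i, j)]))).1,
              hmatch.1.1.1.1.1.1.1.2⟩
          · exact absurd hmatch (by simp)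
        have hor : a ∈ M ∨ b ∈ M := by
          obtain ⟨c, hc, rfl⟩ := hmem
          obtain ⟨-, k, hk, hkJ, hne⟩ := hm.1
          obtain ⟨α, β, -, -, -, hco⟩ := C.commTerms_comb ha hb c hc
          by_cases h1 : T.aux.coef a k = 0
          · refine Or.inr ⟨hbp, k, hk, hkJ, fun h2 => hne ?_⟩
            show T.cf c.1 k = 0
            simp only [Fast.aux] at h1 h2
            rw [hco k hk, h1, h2]; ring
          · exact Or.inl ⟨hap, k, hk, hkJ, h1⟩
        have hW : ∀ t u : F, C.wg (D.commWord F a b t u) ∈ Q := by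
          intro t u
          have h1 := C.comm ha hb hba (C.ne_neg_of_pos hap hbp) t u
          rcases hor with hor | hor
          · have h2 := hcentral _ (C.xg_mem hor (-t)) _ (C.xg_mem_pos hbp u)
            have h3 := hQnorm (m + 1) _ (C.xg_mem_pos hbp (-u)) _ h2
            convert h3 using 1
            rw [← C.xg_inv a, ← C.xg_inv b, inv_inv, inv_inv,
              show C.wg (D.commWord F a b t u) = (C.xg a t * C.xg b u)⁻¹ * (C.xg b u * C.xg a t) by
                rw [h1]; group]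
            group
          · have h2 := hcentral _ (C.xg_mem hor (-u)) _ (C.xg_mem_pos hap (-t))
            convert h2 using 1
            rw [← C.xg_inv a, ← C.xg_inv b, inv_inv, inv_inv,
              show C.wg (D.commWord F a b t u) = (C.xg a t * C.xg b u)⁻¹ * (C.xg b u * C.xg a t) by
                rw [h1]; group]
            group
        have hX := extract C ha hb (hQnorm (m + 1)) (fun c hc hlt x => Subgroup.mem_sup_right
            (C.xg_mem (S := S (m + 1)) ⟨hMideal a hap b hbp hor c hc,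
              fun j hj => comm_not_simple C hap hbp hba hc hj, hlt⟩ x)) hW htest
          (by
            obtain ⟨l, hl⟩ := Fintype.exists_ne_of_one_lt_card (α := Fˣ)
              (by rw [Fintype.card_units]; omega) 1
            exact ⟨(l : F), l.ne_zero, fun h => hl (Units.ext h)⟩)
          (fun h => exists_two (hmax h))
        refine le_trans hle (sup_le (C.grp_le fun r hr t => ?_) inf_le_left)
        rw [Set.mem_singleton_iff.1 hr]; exact hX t
      · refine le_trans ih (sup_le le_sup_left (le_trans (grp_mono fun r hr => ?_) le_sup_right))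
        refine ⟨hr.1, hr.2.1, ?_⟩
        have hne : r ≠ m := fun h => hm ⟨h ▸ hr.1, h ▸ hr.2.1⟩
        have := hr.2.2
        omega
  rw [hMU]
  refine le_antisymm hXM (le_trans (hclimb D.nroots) (sup_le le_rfl (C.grp_le fun r hr t => ?_)))
  have := hr.1.1.1
  have := hr.2.2
  omega

end Cfsg.Agent.S2244
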