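import Cfsg.Statements.S2245
import Cfsg.Agent.Lib.Alt.Overgroups

set_option autoImplicit false
open Cfsg

namespace Cfsg.Agent.S2245

open Cfsg.Agent.Lib.Alt in
theorem sym_iff (n : ℕ) (hn : 5 ≤ n) (h6 : n ≠ 6) (R : Sylow 2 (Equiv.Perm (Fin n))) :
    (∃! M : Subgroup (Equiv.Perm (Fin n)), IsCoatom M ∧ (R : Subgroup (Equiv.Perm (Fin n))) ≤ M) ↔
      ∃ k : ℕ, 2 ≤ k ∧ n = 2 ^ k + 1 := by
  have hcard : Fintype.card (Fin n) = n := Fintype.card_fin n
  have hge : ∀ k : ℕ, n = 2 ^ k + 1 → 2 ≤ k := by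
    intro k hk
    by_contra h
    have : 2 ^ k ≤ 2 ^ 1 := Nat.pow_le_pow_right (by norm_num) (by omega)
    omega
  -- an odd element of R
  have hodd : ∃ t ∈ R, t ∉ alternatingGroup (Fin n) := by
    obtain ⟨u, v, huv, hsw, -, -⟩ := exists_pair_avoiding R ∅ (by simp; omega) (by simp)
    exact ⟨_, hsw, by simp [huv.symm]⟩
  obtain ⟨t, ht, htA⟩ := hodd
  have htop : ∀ M : Subgroup (Equiv.Perm (Fin n)), (R : Subgroup (Equiv.Perm (Fin n))) ≤ M →
      alternatingGroup (Fin n) ≤ M → M = ⊤ := by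
    intro M hR hA
    rw [Subgroup.eq_top_iff']
    intro g
    by_cases hg : g ∈ alternatingGroup (Fin n)
    · exact hA hg
    · have h2 : g * t ∈ alternatingGroup (Fin n) := by
        rw [Equiv.Perm.mem_alternatingGroup] at hg htA ⊢
        rw [map_mul, (Int.units_eq_one_or _).resolve_left hg, (Int.units_eq_one_or _).resolve_left htA]
        rfl
      simpa using M.mul_mem (hA h2) (M.inv_mem (hR ht))
  constructor
  · intro huniq
    by_contra hne
    obtain ⟨A, B, hA, hB, hAt, hBt, hgen⟩ := twoOvergroups R (by omega) (by omega)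
      (fun k hk => hne ⟨k, hge k (hcard ▸ hk), hcard ▸ hk⟩)
    obtain ⟨MA, hMA, hAle⟩ := (eq_top_or_exists_le_coatom A).resolve_left hAt
    obtain ⟨MB, hMB, hBle⟩ := (eq_top_or_exists_le_coatom B).resolve_left hBt
    have heq := huniq.unique ⟨hMA, hA.trans hAle⟩ ⟨hMB, hB.trans hBle⟩
    subst heq
    exact hMA.1 (htop _ (hA.trans hAle) (hgen _ (inf_le_left.trans hAle) (inf_le_left.trans hBle)))
  · rintro ⟨k, hk2, hk⟩
    obtain ⟨a, hfix, hover⟩ := overgroup_of_fixed R hk2 (hcard.trans hk)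
    set St := MulAction.stabilizer (Equiv.Perm (Fin n)) a
    have hRSt : (R : Subgroup (Equiv.Perm (Fin n))) ≤ St := fun p hp => hfix p hp
    have key : ∀ M : Subgroup (Equiv.Perm (Fin n)), (R : Subgroup (Equiv.Perm (Fin n))) ≤ M → M ≠ ⊤ →
        M ≤ St := by
      intro M hR hM g hg
      by_contra hga
      exact hM (htop M hR (hover M (inf_le_left.trans hR) ⟨g, hg, hga⟩))
    obtain ⟨u, hu⟩ := Fintype.exists_ne_of_one_lt_card (by omega) a
    have hSt : St ≠ ⊤ := by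
      intro h
      have : Equiv.swap a u ∈ St := h ▸ Subgroup.mem_top _
      rw [MulAction.mem_stabilizer_iff, Equiv.Perm.smul_def, Equiv.swap_apply_left] at this
      exact hu this
    obtain ⟨M0, hM0, hle⟩ := (eq_top_or_exists_le_coatom St).resolve_left hSt
    have h0 : M0 = St := le_antisymm (key M0 (hRSt.trans hle) hM0.1) hle
    refine ⟨M0, ⟨hM0, hRSt.trans hle⟩, ?_⟩
    rintro M ⟨hM, hRM⟩
    rw [h0]
    exact ((hM.le_iff).1 (key M hRM hM.1)).resolve_left hSt |>.symm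

open Cfsg.Agent.Lib.Alt in
theorem alt_iff (n : ℕ) (hn : 5 ≤ n) (h6 : n ≠ 6) (R : Sylow 2 ↥(alternatingGroup (Fin n))) :
    (∃! M : Subgroup ↥(alternatingGroup (Fin n)), IsCoatom M ∧
      (R : Subgroup ↥(alternatingGroup (Fin n))) ≤ M) ↔ ∃ k : ℕ, 2 ≤ k ∧ n = 2 ^ k + 1 := by
  have hcard : Fintype.card (Fin n) = n := Fintype.card_fin n
  have hge : ∀ k : ℕ, n = 2 ^ k + 1 → 2 ≤ k := by
    intro k hk
    by_contra h
    have : 2 ^ k ≤ 2 ^ 1 := Nat.pow_le_pow_right (by norm_num) (by omega)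
    omega
  obtain ⟨P, hP⟩ := exists_sylow_eq_subgroupOf R
  obtain ⟨t, ht, htA⟩ : ∃ t ∈ P, t ∉ alternatingGroup (Fin n) := by
    obtain ⟨u, v, huv, hsw, -, -⟩ := exists_pair_avoiding P ∅ (by simp; omega) (by simp)
    exact ⟨_, hsw, by simp [huv.symm]⟩
  constructor
  · intro huniq
    by_contra hne
    obtain ⟨A, B, hA, hB, hAt, hBt, hgen⟩ := twoOvergroups P (by omega) (by omega)
      (fun k hk => hne ⟨k, hge k (hcard ▸ hk), hcard ▸ hk⟩)
    have proper : ∀ C : Subgroup (Equiv.Perm (Fin n)), (P : Subgroup (Equiv.Perm (Fin n))) ≤ C → C ≠ ⊤ →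
        C.subgroupOf (alternatingGroup (Fin n)) ≠ ⊤ := by
      intro C hC hCt h
      apply hCt
      rw [Subgroup.eq_top_iff']
      intro g
      have hA' : alternatingGroup (Fin n) ≤ C := Subgroup.subgroupOf_eq_top.1 h
      by_cases hg : g ∈ alternatingGroup (Fin n)
      · exact hA' hg
      · have h2 : g * t ∈ alternatingGroup (Fin n) := by
          rw [Equiv.Perm.mem_alternatingGroup] at hg htA ⊢
          rw [map_mul, (Int.units_eq_one_or _).resolve_left hg, (Int.units_eq_one_or _).resolve_left htA]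
          rfl
        simpa using C.mul_mem (hA' h2) (C.inv_mem (hC ht))
    obtain ⟨MA, hMA, hAle⟩ := (eq_top_or_exists_le_coatom _).resolve_left (proper A hA hAt)
    obtain ⟨MB, hMB, hBle⟩ := (eq_top_or_exists_le_coatom _).resolve_left (proper B hB hBt)
    have hRA : (R : Subgroup ↥(alternatingGroup (Fin n))) ≤ MA :=
      fun x hx => hAle (hA ((hP x).1 hx))
    have hRB : (R : Subgroup ↥(alternatingGroup (Fin n))) ≤ MB :=
      fun x hx => hBle (hB ((hP x).1 hx))
    have heq := huniq.unique ⟨hMA, hRA⟩ ⟨hMB, hRB⟩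
    subst heq
    apply hMA.1
    have hall := hgen (MA.map (alternatingGroup (Fin n)).subtype)
      (fun x hx => ⟨⟨x, hx.2⟩, hAle hx.1, rfl⟩) (fun x hx => ⟨⟨x, hx.2⟩, hBle hx.1, rfl⟩)
    rw [Subgroup.eq_top_iff']
    intro x
    obtain ⟨y, hy, hyx⟩ := hall x.2
    rwa [Subtype.ext hyx] at hy
  · rintro ⟨k, hk2, hk⟩
    obtain ⟨a, hfix, hover⟩ := overgroup_of_fixed P hk2 (hcard.trans hk)
    set St := (MulAction.stabilizer (Equiv.Perm (Fin n)) a).subgroupOf (alternatingGroup (Fin n))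
    have hRSt : (R : Subgroup ↥(alternatingGroup (Fin n))) ≤ St := fun p hp => hfix p ((hP p).1 hp)
    have key : ∀ M : Subgroup ↥(alternatingGroup (Fin n)),
        (R : Subgroup ↥(alternatingGroup (Fin n))) ≤ M → M ≠ ⊤ → M ≤ St := by
      intro M hR hM g hg
      by_contra hga
      apply hM
      have hall := hover (M.map (alternatingGroup (Fin n)).subtype)
        (fun x hx => ⟨⟨x, hx.2⟩, hR ((hP ⟨x, hx.2⟩).2 hx.1), rfl⟩) ⟨g, ⟨g, hg, rfl⟩, hga⟩
      rw [Subgroup.eq_top_iff']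
      intro x
      obtain ⟨y, hy, hyx⟩ := hall x.2
      rwa [Subtype.ext hyx] at hy
    have hSt : St ≠ ⊤ := by
      intro h
      obtain ⟨u, -, hua, -⟩ := exists_third (U := (Set.univ : Set (Fin n))) (by simp; omega) a a
      obtain ⟨v, -, hva, hvu⟩ := exists_third (U := (Set.univ : Set (Fin n))) (by simp; omega) a u
      have := Subgroup.subgroupOf_eq_top.1 h
        (sign_swap_mul_swap hua.symm hva.symm :
          Equiv.swap a u * Equiv.swap a v ∈ alternatingGroup (Fin n))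
      rw [MulAction.mem_stabilizer_iff, Equiv.Perm.smul_def, threeCycle_apply hva.symm hvu.symm] at this
      exact hva this
    obtain ⟨M0, hM0, hle⟩ := (eq_top_or_exists_le_coatom St).resolve_left hSt
    have h0 : M0 = St := le_antisymm (key M0 (hRSt.trans hle) hM0.1) hle
    refine ⟨M0, ⟨hM0, hRSt.trans hle⟩, ?_⟩
    rintro M ⟨hM, hRM⟩
    rw [h0]
    exact ((hM.le_iff).1 (key M hRM hM.1)).resolve_left hSt |>.symm

/-- For n ≥ 5 with n ≠ 6, a Sylow 2-subgroup of the alternating group A_n lies in exactly one maximal subgroup of A_n if and only if n = 2^k + 1 for some k ≥ 2; the same holds for the symmetric group S_n. -/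
theorem result (n : ℕ) (hn : 5 ≤ n) (h6 : n ≠ 6) :
    ((∀ R : Sylow 2 ↥(alternatingGroup (Fin n)), (∃! M : Subgroup ↥(alternatingGroup (Fin n)), IsCoatom M ∧ (R : Subgroup ↥(alternatingGroup (Fin n))) ≤ M) ↔ ∃ k : ℕ, 2 ≤ k ∧ n = 2 ^ k + 1) ∧
    (∀ R : Sylow 2 (Equiv.Perm (Fin n)), (∃! M : Subgroup (Equiv.Perm (Fin n)), IsCoatom M ∧ (R : Subgroup (Equiv.Perm (Fin n))) ≤ M) ↔ ∃ k : ℕ, 2 ≤ k ∧ n = 2 ^ k + 1)) := by
  exact ⟨fun R => alt_iff n hn h6 R, fun R => sym_iff n hn h6 R⟩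

end Cfsg.Agent.S2245
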