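import Cfsg.Statements.S2254
import Cfsg.Agent.Lib.Alt.NilEq

set_option autoImplicit false
open Cfsg Cfsg.Agent.Lib.Alt.Nil

namespace Cfsg.Agent.S2254

/-- Let n ≡ 3 (mod 4). Then every nilpotent subgroup of the symmetric group on n letters has order at most 3 times the order of a Sylow 2-subgroup of the symmetric group on n − 3 letters; the bound is attained by a nilpotent subgroup isomorphic to the direct product of such a Sylow 2-subgroup with a cyclic group of order 3; and any two nilpotent subgroups attaining the bound are conjugate. -/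
theorem result  (n : ℕ) (hn : n % 4 = 3)
    (P : Sylow 2 (Equiv.Perm (Fin (n - 3)))) :
    (∀ N : Subgroup (Equiv.Perm (Fin n)), Group.IsNilpotent N → Nat.card N ≤ 3 * Nat.card P) ∧
    (∃ M : Subgroup (Equiv.Perm (Fin n)), Group.IsNilpotent M ∧ Nat.card M = 3 * Nat.card P ∧
      Nonempty (M ≃* (↥(P : Subgroup (Equiv.Perm (Fin (n - 3)))) × Multiplicative (ZMod 3)))) ∧
    (∀ N₁ N₂ : Subgroup (Equiv.Perm (Fin n)), Group.IsNilpotent N₁ → Group.IsNilpotent N₂ →
      Nat.card N₁ = 3 * Nat.card P → Nat.card N₂ = 3 * Nat.card P →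
      ∃ g : Equiv.Perm (Fin n), N₂ = N₁.map (MulAut.conj g).toMonoidHom) := by
  haveI : Fact (Nat.Prime 2) := ⟨Nat.prime_two⟩
  have hP : Nat.card P = 2 ^ nilNu (n - 3) := by rw [sylow_card_perm P, Nat.card_fin]
  refine ⟨fun N hN => ?_, ?_, fun N₁ N₂ hN₁ hN₂ h₁ h₂ => ?_⟩
  · have h := card_le_nilH n (Nat.card_fin n) N hN
    rw [hP]
    rwa [nilH, if_pos hn] at h
  · have h3 := card_lastThree (n := n) (by omega)
    set Q := (P : Subgroup (Equiv.Perm (Fin (n - 3)))).map (restEquiv n).permCongrHom.toMonoidHom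
    let eQ := (P : Subgroup (Equiv.Perm (Fin (n - 3)))).equivMapOfInjective (restEquiv n).permCongrHom.toMonoidHom
      (restEquiv n).permCongrHom.injective
    let eM := (stdEquiv (lastThree n) h3 Q).trans (eQ.symm.prodCongr (MulEquiv.refl _))
    refine ⟨stdGroup (lastThree n) Q, ?_, ?_, ⟨eM⟩⟩
    · haveI := (P.isPGroup').isNilpotent
      exact Group.nilpotent_of_mulEquiv eM.symm
    · rw [card_stdGroup _ h3, Nat.card_congr eQ.symm.toEquiv]
  · rw [hP] at h₁ h₂
    have hf : Nat.card (Fin n) = n := Nat.card_fin n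
    obtain ⟨p, _, Q, h3, hQ, rfl⟩ := eq_stdGroup N₁ hN₁ (by rw [hf]; exact hn) (by rw [hf]; exact h₁)
    obtain ⟨p', _, Q', h3', hQ', rfl⟩ :=
      eq_stdGroup N₂ hN₂ (by rw [hf]; exact hn) (by rw [hf]; exact h₂)
    have hr : Nat.card {x // ¬p' x} = n - 3 := by
      have := card_add_not p'; rw [hf] at this; omega
    have hr0 : Nat.card {x // ¬p x} = n - 3 := by
      have := card_add_not p; rw [hf] at this; omega
    obtain ⟨e₀⟩ : Nonempty ({x // ¬p x} ≃ {x // ¬p' x}) := Finite.card_eq.mp (hr0.trans hr.symm)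
    obtain ⟨q, -, hq⟩ := exists_conj_of_card ⊤ (Q.map e₀.permCongrHom.toMonoidHom) Q' le_top
      le_top (nilNu (n - 3))
      (by rw [Nat.card_congr Subgroup.topEquiv.toEquiv, factorization_card_perm, hr])
      (by rw [← Nat.card_congr (Q.equivMapOfInjective e₀.permCongrHom.toMonoidHom e₀.permCongrHom.injective).toEquiv, hQ, hf])
      (by rw [hQ', hf])
    obtain ⟨g, -, hg⟩ := stdGroup_conj h3 h3' Q Q' (e₀.trans q) (by
      rw [← hq, Subgroup.map_map]; rfl)
    exact ⟨g, hg⟩

end Cfsg.Agent.S2254
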