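import Cfsg.Statements.S2255
import Cfsg.Agent.Lib.Alt.NilEq

set_option autoImplicit false
open Cfsg Cfsg.Agent.Lib.Alt.Nil

namespace Cfsg.Agent.S2255

/-- Let n be a natural number not congruent to 3 modulo 4, with n ∉ {5, 6, 9}. Then every nilpotent subgroup of the alternating group on n letters has order at most the order of a Sylow 2-subgroup of the alternating group (so the nilpotent subgroups of largest order are exactly the Sylow 2-subgroups). -/
theorem result  (n : ℕ) (hn : n % 4 ≠ 3)
    (h5 : n ≠ 5) (h6 : n ≠ 6) (h9 : n ≠ 9)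
    (N : Subgroup (alternatingGroup (Fin n))) (hN : Group.IsNilpotent N)
    (P : Sylow 2 (alternatingGroup (Fin n))) :
    Nat.card N ≤ Nat.card P := by
  have hN' : Group.IsNilpotent (N.map (alternatingGroup (Fin n)).subtype) := by
    haveI := hN
    exact Group.nilpotent_of_mulEquiv
      (N.equivMapOfInjective _ (Subgroup.subtype_injective _))
  have h := card_le_nilK n (Nat.card_fin n) _ hN' (by
    rintro _ ⟨g, -, rfl⟩
    exact Equiv.Perm.mem_alternatingGroup.mp g.2)
  rw [← Nat.card_congr (N.equivMapOfInjective _ (Subgroup.subtype_injective _)).toEquiv] at h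
  rcases lt_or_ge n 2 with h2 | h2
  · have : nilK n = 2 := by simp [nilK, show n ≤ 1 by omega]
    have := Nat.card_pos (α := P)
    omega
  · have hP := two_mul_sylow_card_alt (by rw [Nat.card_fin]; exact h2) P
    rw [nilK, if_neg (by omega), if_neg (by omega), if_neg h5, if_neg h6, if_neg h9, nilH,
      if_neg hn] at h
    rw [Nat.card_fin] at hP
    omega

end Cfsg.Agent.S2255
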