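import Cfsg.Statements.S2256
import Cfsg.Agent.Lib.Alt.NilEq

set_option autoImplicit false
open Cfsg Cfsg.Agent.Lib.Alt.Nil

namespace Cfsg.Agent.S2256

/-- Let n ≡ 3 (mod 4) with n ≥ 7. Then every nilpotent subgroup of the alternating group on n letters has order at most 3 times the order of a Sylow 2-subgroup of the alternating group on n − 3 letters; the bound is attained by a nilpotent subgroup isomorphic to the direct product of such a Sylow 2-subgroup with a cyclic group of order 3; and any two nilpotent subgroups of the alternating group attaining the bound are conjugate in it. -/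
theorem result  (n : ℕ) (hn : n % 4 = 3) (h7 : 7 ≤ n)
    (P : Sylow 2 (alternatingGroup (Fin (n - 3)))) :
    (∀ N : Subgroup (alternatingGroup (Fin n)), Group.IsNilpotent N → Nat.card N ≤ 3 * Nat.card P) ∧
    (∃ M : Subgroup (alternatingGroup (Fin n)), Group.IsNilpotent M ∧ Nat.card M = 3 * Nat.card P ∧
      Nonempty (M ≃* (↥(P : Subgroup (alternatingGroup (Fin (n - 3)))) × Multiplicative (ZMod 3)))) ∧
    (∀ N₁ N₂ : Subgroup (alternatingGroup (Fin n)), Group.IsNilpotent N₁ → Group.IsNilpotent N₂ →
      Nat.card N₁ = 3 * Nat.card P → Nat.card N₂ = 3 * Nat.card P →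
      ∃ g : alternatingGroup (Fin n), N₂ = N₁.map (MulAut.conj g).toMonoidHom) := by
  haveI : Fact (Nat.Prime 2) := ⟨Nat.prime_two⟩
  have hP : 2 * Nat.card P = 2 ^ nilNu (n - 3) := by
    rw [two_mul_sylow_card_alt (by rw [Nat.card_fin]; omega) P, Nat.card_fin]
  have hf : Nat.card (Fin n) = n := Nat.card_fin n
  have hinj := Subgroup.subtype_injective (alternatingGroup (Fin n))
  have hcard : ∀ N : Subgroup (alternatingGroup (Fin n)),
      Nat.card (N.map (alternatingGroup (Fin n)).subtype) = Nat.card N := fun N =>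
    (Nat.card_congr (N.equivMapOfInjective _ hinj).toEquiv).symm
  have hev : ∀ N : Subgroup (alternatingGroup (Fin n)),
      ∀ g ∈ N.map (alternatingGroup (Fin n)).subtype, Equiv.Perm.sign g = 1 := by
    rintro N _ ⟨g, -, rfl⟩
    exact Equiv.Perm.mem_alternatingGroup.mp g.2
  have hnil : ∀ N : Subgroup (alternatingGroup (Fin n)), Group.IsNilpotent N →
      Group.IsNilpotent (N.map (alternatingGroup (Fin n)).subtype) := fun N hN => by
    haveI := hN
    exact Group.nilpotent_of_mulEquiv (N.equivMapOfInjective _ hinj)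
  refine ⟨fun N hN => ?_, ?_, fun N₁ N₂ hN₁ hN₂ h₁ h₂ => ?_⟩
  · have h := card_le_nilK n hf _ (hnil N hN) (hev N)
    rw [hcard, nilK, if_neg (by omega), if_neg (by omega), if_neg (by omega), if_neg (by omega),
      if_neg (by omega), nilH, if_pos hn] at h
    omega
  · have h3 := card_lastThree (n := n) (by omega)
    set Q := (((P : Subgroup (alternatingGroup (Fin (n - 3)))).map
      (alternatingGroup (Fin (n - 3))).subtype).map (restEquiv n).permCongrHom.toMonoidHom)
    let eQ := ((P : Subgroup (alternatingGroup (Fin (n - 3)))).equivMapOfInjective _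
      (Subgroup.subtype_injective _)).trans
      (((P : Subgroup (alternatingGroup (Fin (n - 3)))).map
        (alternatingGroup (Fin (n - 3))).subtype).equivMapOfInjective (restEquiv n).permCongrHom.toMonoidHom
          (restEquiv n).permCongrHom.injective)
    have hsg : ∀ g ∈ stdGroup (lastThree n) Q, Equiv.Perm.sign g = 1 := by
      refine stdGroup_sign _ Q ?_
      rintro _ ⟨_, ⟨x, -, rfl⟩, rfl⟩
      show Equiv.Perm.sign ((restEquiv n).permCongr (x : Equiv.Perm (Fin (n - 3)))) = 1
      rw [Equiv.Perm.sign_permCongr]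
      exact Equiv.Perm.mem_alternatingGroup.mp x.2
    have hle : stdGroup (lastThree n) Q ≤ alternatingGroup (Fin n) := fun g hg =>
      Equiv.Perm.mem_alternatingGroup.mpr (hsg g hg)
    let eM := (Subgroup.subgroupOfEquivOfLe hle).trans
      ((stdEquiv (lastThree n) h3 Q).trans (eQ.symm.prodCongr (MulEquiv.refl _)))
    refine ⟨(stdGroup (lastThree n) Q).subgroupOf _, ?_, ?_, ⟨eM⟩⟩
    · haveI := (P.isPGroup').isNilpotent
      exact Group.nilpotent_of_mulEquiv eM.symm
    · rw [Nat.card_congr (Subgroup.subgroupOfEquivOfLe hle).toEquiv, card_stdGroup _ h3,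
        Nat.card_congr eQ.symm.toEquiv]
  · obtain ⟨p, _, Q, h3, hQs, hQ, he₁⟩ := eq_stdGroup_alt _ (hnil N₁ hN₁) (hev N₁)
      (by rw [hf]; exact hn) (by rw [hf]; exact h7) (by rw [hcard, h₁, hf, ← hP]; ring)
    obtain ⟨p', _, Q', h3', hQs', hQ', he₂⟩ := eq_stdGroup_alt _ (hnil N₂ hN₂) (hev N₂)
      (by rw [hf]; exact hn) (by rw [hf]; exact h7) (by rw [hcard, h₂, hf, ← hP]; ring)
    have hr : Nat.card {x // ¬p' x} = n - 3 := by
      have := card_add_not p'; rw [hf] at this; omega
    have hr0 : Nat.card {x // ¬p x} = n - 3 := by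
      have := card_add_not p; rw [hf] at this; omega
    obtain ⟨e₀⟩ : Nonempty ({x // ¬p x} ≃ {x // ¬p' x}) := Finite.card_eq.mp (hr0.trans hr.symm)
    have hfac := factorization_card_alt (β := {x // ¬p' x}) (by omega)
    rw [hr] at hfac
    rw [hf, ← hfac, pow_succ] at hQ hQ'
    obtain ⟨q, -, hq⟩ := exists_conj_of_card (alternatingGroup {x // ¬p' x})
      (Q.map e₀.permCongrHom.toMonoidHom) Q' (by
        rintro _ ⟨y, hy, rfl⟩
        show e₀.permCongr y ∈ alternatingGroup _
        rw [Equiv.Perm.mem_alternatingGroup, Equiv.Perm.sign_permCongr]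
        exact hQs y hy)
      (fun y hy => Equiv.Perm.mem_alternatingGroup.mpr (hQs' y hy)) _ rfl
      (by rw [← Nat.card_congr (Q.equivMapOfInjective e₀.permCongrHom.toMonoidHom e₀.permCongrHom.injective).toEquiv]; omega)
      (by omega)
    obtain ⟨g, hg1, hg⟩ := stdGroup_conj h3 h3' Q Q' (e₀.trans q) (by
      rw [← hq, Subgroup.map_map]; rfl)
    refine ⟨⟨g, Equiv.Perm.mem_alternatingGroup.mpr hg1⟩, Subgroup.map_injective hinj ?_⟩
    rw [he₂, hg, ← he₁, Subgroup.map_map, Subgroup.map_map]
    rfl

end Cfsg.Agent.S2256
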