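import Cfsg.Statements.S2257
import Cfsg.Agent.Lib.PSLTwo.Solubilizer
import Cfsg.Agent.Lib.PSLTwo.Centralizers
import Cfsg.Agent.Lib.PSLTwo.MaxTools

set_option autoImplicit false
open Cfsg
open Matrix MulAction OnePoint Cfsg.Agent.Lib.PSLTwo
open scoped MatrixGroups

namespace Cfsg.Agent.S2257

section
variable {F E : Type*} [Field F] [Fintype F] [DecidableEq F] [Field E] [DecidableEq E] [Finite E]
  [Algebra F E] (hE : Nat.card E = Fintype.card F ^ 2) {n : ℕ} (hn : n.Prime) (hF : Fintype.card F = 2 ^ n)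
  [CharP F 2]

include hE hn hF

theorem solvable_cases {H : Subgroup PGL(2, F)} (hs : Group.IsSolvable H) :
    (∃ a : OnePoint F, H ≤ stabilizer PGL(2, F) a) ∨
      ∃ z w : OnePoint E, IsTorusPair F z w ∧ H ≤ pairStab F z w := by
  haveI : Fact (Nat.Prime 2) := ⟨Nat.prime_two⟩
  rcases classify (p := 2) hE H with ⟨a, h⟩ | ⟨z, w, hp, hz, h⟩ | ⟨z, w, hp, k, hk, hd, hT, h, -, -⟩ |
    ⟨hp, -, -⟩ | ⟨hp, -, -⟩ | ⟨hp, -, -⟩ | ⟨K, γ, hq, h⟩
  · exact Or.inl ⟨a, h⟩
  · exact Or.inr ⟨z, w, hp, h.trans (torus_le_pairStab z w)⟩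
  · exact Or.inr ⟨z, w, hp, h⟩
  · exact absurd (by norm_num : 2 ∣ 12) hp
  · exact absurd (by norm_num : 2 ∣ 24) hp
  · rcases hp with h | h
    · exact absurd (by norm_num : 2 ∣ 60) h
    · norm_num at h
  exfalso
  obtain ⟨a, ha, hKa⟩ := card_subfield_eq_pow 2 K
  obtain ⟨m, -, hm⟩ := exists_card_pow K
  have hdvd : a ∣ n := ⟨m, Nat.pow_right_injective (le_refl 2) (show (2:ℕ) ^ n = 2 ^ (a * m) by rw [← hF, hm, hKa, ← pow_mul])⟩
  have han : a = n := (hn.eq_one_or_self_of_dvd a hdvd).resolve_left fun h1 => by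
    rw [hKa, h1] at hq; norm_num at hq
  have hK : Nat.card K = Fintype.card F := by rw [hKa, han, hF]
  have hpgl : subPGL K = ⊤ := Subgroup.eq_top_of_card_eq _ (by rw [card_subPGL, hK, card_pgl])
  have htop : H.map (MulAut.conj γ).toMonoidHom = ⊤ := by
    rcases h with h | ⟨ho, -⟩
    · rw [h, hpgl]
    · rw [hK, hF] at ho
      exact absurd ho (Nat.not_odd_iff_even.2 (Nat.even_pow.2 ⟨even_two, hn.ne_zero⟩))
  have hH : H = ⊤ := Subgroup.eq_top_of_card_eq _ (by
    rw [← Subgroup.card_map_of_injective (f := (MulAut.conj γ).toMonoidHom) (MulAut.conj γ).injective, htop,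
      Subgroup.card_top])
  subst hH
  haveI hs' : Group.IsSolvable PGL(2, F) :=
    solvable_of_solvable_injective (f := (Subgroup.topEquiv (G := PGL(2, F))).symm.toMonoidHom)
      (Subgroup.topEquiv (G := PGL(2, F))).symm.injective
  haveI : Group.IsSolvable (Matrix.ProjectiveSpecialLinearGroup (Fin 2) F) :=
    solvable_of_solvable_injective toP_injective
  haveI : IsSimpleGroup (Matrix.ProjectiveSpecialLinearGroup (Fin 2) F) :=
    Matrix.ProjectiveSpecialLinearGroup.rank_two_simple (by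
      rw [Nat.card_eq_fintype_card, hF]
      calc 4 = 2 ^ 2 := by norm_num
        _ ≤ 2 ^ n := Nat.pow_le_pow_right two_pos hn.two_le)
  have hcomm := IsSimpleGroup.comm_iff_isSolvable.2 ‹Group.IsSolvable (Matrix.ProjectiveSpecialLinearGroup (Fin 2) F)›
  have h1 := isSolvable_stab hE (F := F) (inc E (∞ : OnePoint F))
  have hne : ∀ g h : PGL(2, F), g * h = h * g := by
    intro g h
    have hL : Lsub F = ⊤ := Lsub_eq_top_of_even (by rw [hF]; exact Nat.even_pow.2 ⟨even_two, hn.ne_zero⟩)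
    have e : ∀ g : PGL(2, F), ∃ a, toP F a = g := fun g => by
      have := map_comap_toP (X := (⊤ : Subgroup PGL(2, F))) hL.ge
      obtain ⟨a, -, ha⟩ := this.ge (Subgroup.mem_top g)
      exact ⟨a, ha⟩
    obtain ⟨a, rfl⟩ := e g
    obtain ⟨b, rfl⟩ := e h
    rw [← map_mul, ← map_mul, hcomm]
  -- the group is abelian, so every element fixes every fixed point of a translation
  obtain ⟨g, hg⟩ : ∃ g : PGL(2, F), g • (∞ : OnePoint F) = ((0 : F) : OnePoint F) :=
    (exists_pgl_map (x := (∞ : OnePoint F)) (y := ((0 : F) : OnePoint F)) (x' := ((0 : F) : OnePoint F))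
      (y' := (∞ : OnePoint F)) (OnePoint.infty_ne_coe 0) (OnePoint.coe_ne_infty 0)).imp fun g hg => hg.1
  have := congrArg (fun k : PGL(2, F) => k • (∞ : OnePoint F)) (hne g (trans' 1))
  simp only [mul_smul, trans'_inf, hg, trans'_smul, zero_add] at this
  exact zero_ne_one (OnePoint.coe_injective this)

theorem sol_iff_invol {x : PGL(2, F)} (hx1 : x ≠ 1) (hx : x * x = 1) {a : OnePoint F} (ha : x • a = a)
    (y : PGL(2, F)) :
    Group.IsSolvable (Subgroup.closure {x, y}) ↔ y • a = a ∨ y * y = 1 ∨ x * y * (x * y) = 1 := by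
  haveI : Fact (Nat.Prime 2) := ⟨Nat.prime_two⟩
  have P := poles (E := E) (p := 2) hE
  have hx2 : x ^ 2 = 1 := by rw [sq, hx]
  constructor
  · intro h
    rcases solvable_cases hE hn hF h with ⟨b, hb⟩ | ⟨z, w, hp, hP⟩
    · obtain ⟨hxb, hyb⟩ := closure_pair_le_iff.1 hb
      left
      rw [← inc_injective (E := E) (P.pElem_fix hx1 hx2 (x := inc E a) (y := inc E b)
        (by rw [← inc_smul, ha]) (by rw [← inc_smul, mem_stabilizer_iff.1 hxb]))]
      exact hyb
    · obtain ⟨hxP, hyP⟩ := closure_pair_le_iff.1 hP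
      right
      rcases hxP with ⟨h1, h2⟩ | ⟨h1, h2⟩
      · exact absurd (P.pElem_fix hx1 hx2 h2 h1) hp.1
      rcases hyP with ⟨h3, h4⟩ | ⟨h3, h4⟩
      · exact Or.inr (P.swap_sq hp.1 (by rw [mul_smul, h3, h1]) (by rw [mul_smul, h4, h2]))
      · exact Or.inl (P.swap_sq hp.1 h3 h4)
  · rintro (h | h)
    · haveI := isSolvable_stab hE (F := F) (inc E a)
      exact isSolvable_closure (H := stabilizer PGL(2, F) (inc E a))
        (by rw [mem_stabilizer_iff, ← inc_smul, ha]) (by rw [mem_stabilizer_iff, ← inc_smul, h])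
    · exact closure_dihedral hE hx h

theorem card_invol_off (a : OnePoint F) :
    Nat.card {y : PGL(2, F) // y * y = 1 ∧ y • a ≠ a} = Fintype.card F * (Fintype.card F - 1) := by
  classical
  haveI : Fact (Nat.Prime 2) := ⟨Nat.prime_two⟩
  have P := poles (E := E) (p := 2) hE
  let U := fun b : OnePoint F => {u : P.unip (inc E b) // u ≠ 1}
  have hU : ∀ b, Nat.card (U b) = Fintype.card F - 1 := fun b => by
    haveI := Fintype.ofFinite (P.unip (inc E b))
    rw [Nat.card_eq_fintype_card, Fintype.card_subtype_compl, Fintype.card_subtype_eq,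
      ← Nat.card_eq_fintype_card, card_unip hE]
  let φ : (Σ b : {b : OnePoint F // b ≠ a}, U b.1) → {y : PGL(2, F) // y * y = 1 ∧ y • a ≠ a} :=
    fun s => ⟨s.2.1.1, by rw [← sq]; exact s.2.1.2.2, fun h => s.1.2 (inc_injective (E := E)
      (P.pElem_fix (fun h1 => s.2.2 (Subtype.ext h1)) s.2.1.2.2 (x := inc E a) (y := inc E s.1.1)
        (by rw [← inc_smul, h]) s.2.1.2.1))⟩
  have hbij : Function.Bijective φ := by
    constructor
    · rintro ⟨⟨b, hb⟩, ⟨⟨u, hu⟩, hu1⟩⟩ ⟨⟨b', hb'⟩, ⟨⟨u', hu'⟩, hu1'⟩⟩ h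
      have e : u = u' := congrArg Subtype.val h
      subst e
      obtain rfl : b = b' := inc_injective (E := E)
        (P.pElem_fix (fun h1 => hu1 (Subtype.ext h1)) hu.2 hu'.1 hu.1)
      rfl
    · rintro ⟨y, hy, hya⟩
      have hy2 : y ^ 2 = 1 := by rw [sq, hy]
      have hy1 : y ≠ 1 := fun h => hya (by rw [h, one_smul])
      obtain ⟨z, hz⟩ := P.exists_fix y
      obtain ⟨b, rfl⟩ := pElem_isRat hE hy1 hy2 hz
      exact ⟨⟨⟨b, fun h => hya (inc_injective (E := E) (by rw [inc_smul, ← h, hz]))⟩,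
        ⟨⟨y, hz, hy2⟩, fun h => hy1 (congrArg Subtype.val h)⟩⟩, rfl⟩
  rw [← Nat.card_congr (Equiv.ofBijective φ hbij), Nat.card_sigma]
  simp only [hU, Finset.sum_const, Finset.card_univ, smul_eq_mul]
  congr 1
  rw [Fintype.card_subtype_compl, Fintype.card_subtype_eq, ← Nat.card_eq_fintype_card, card_onePoint,
    Nat.add_sub_cancel]

theorem card_invol {x : PGL(2, F)} (hx1 : x ≠ 1) (hx : x * x = 1) :
    Nat.card {y : PGL(2, F) // Group.IsSolvable (Subgroup.closure {x, y})} =
      3 * Fintype.card F * (Fintype.card F - 1) := by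
  classical
  haveI : Fact (Nat.Prime 2) := ⟨Nat.prime_two⟩
  have P := poles (E := E) (p := 2) hE
  obtain ⟨z, hz⟩ := P.exists_fix x
  obtain ⟨a, rfl⟩ := pElem_isRat hE hx1 (by rw [sq, hx] : x ^ 2 = 1) hz
  have ha : x • a = a := inc_injective (E := E) (by rw [inc_smul, hz])
  let S : Set PGL(2, F) := (stabilizer PGL(2, F) a : Set PGL(2, F))
  let A : Set PGL(2, F) := {y | y * y = 1 ∧ y • a ≠ a}
  let B : Set PGL(2, F) := (fun y => x * y) '' A
  have hxS : ∀ y : PGL(2, F), (x * y) • a = a ↔ y • a = a := fun y => by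
    rw [mul_smul]
    exact ⟨fun h => smul_left_cancel x (h.trans ha.symm), fun h => by rw [h, ha]⟩
  have hset : {y | Group.IsSolvable (Subgroup.closure {x, y})} = S ∪ A ∪ B := by
    ext y
    simp only [Set.mem_setOf_eq, sol_iff_invol hE hn hF hx1 hx ha, Set.mem_union, S, A, B, SetLike.mem_coe,
      mem_stabilizer_iff, Set.mem_image]
    constructor
    · intro h
      by_cases hya : y • a = a
      · exact Or.inl (Or.inl hya)
      rcases h with h | h | h
      · exact absurd h hya
      · exact Or.inl (Or.inr ⟨h, hya⟩)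
      · exact Or.inr ⟨x * y, ⟨h, fun e => hya ((hxS y).1 e)⟩, by rw [← mul_assoc, hx, one_mul]⟩
    · rintro ((h | h) | ⟨u, ⟨hu, -⟩, rfl⟩)
      · exact Or.inl h
      · exact Or.inr (Or.inl h.1)
      · exact Or.inr (Or.inr (by rw [← mul_assoc x x, hx, one_mul, hu]))
  have h1 : Disjoint S A := Set.disjoint_left.2 fun y hy hyA => hyA.2 hy
  have h2 : Disjoint (S ∪ A) B := by
    rw [Set.disjoint_left]
    rintro y (hy | ⟨hy, hya⟩) ⟨u, ⟨hu, hua⟩, rfl⟩
    · exact hua ((hxS u).1 hy)
    · have hcomm : x * u = u * x := by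
        calc x * u = x * (x * u * (x * u)) * u := by rw [hy, mul_one]
          _ = x * x * (u * x) * (u * u) := by simp only [mul_assoc]
          _ = u * x := by rw [hx, hu, one_mul, mul_one]
      refine hua (inc_injective (E := E) ?_)
      refine P.pElem_fix hx1 (by rw [sq, hx]) (x := inc E a) hz ?_
      rw [inc_smul, ← mul_smul, hcomm, mul_smul, hz]
  change Nat.card ({y | Group.IsSolvable (Subgroup.closure {x, y})} : Set PGL(2, F)) = _
  rw [hset, Nat.card_coe_set_eq, Set.ncard_union_eq h2, Set.ncard_union_eq h1,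
    Set.ncard_image_of_injective _ (mul_right_injective x), ← Nat.card_coe_set_eq, ← Nat.card_coe_set_eq]
  rw [show Nat.card S = Fintype.card F * (Fintype.card F - 1) from card_stab_point a,
    show Nat.card A = Fintype.card F * (Fintype.card F - 1) from card_invol_off hE hn hF a]
  ring

theorem card_torus_elt {x : PGL(2, F)} (hx1 : x ≠ 1) (ho : Odd (orderOf x)) :
    (orderOf x ∣ Fintype.card F - 1 → Nat.card {y : PGL(2, F) // Group.IsSolvable (Subgroup.closure {x, y})} =
      2 * Fintype.card F * (Fintype.card F - 1)) ∧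
    (orderOf x ∣ Fintype.card F + 1 → Nat.card {y : PGL(2, F) // Group.IsSolvable (Subgroup.closure {x, y})} =
      2 * (Fintype.card F + 1)) := by
  classical
  haveI : Fact (Nat.Prime 2) := ⟨Nat.prime_two⟩
  have hx2 : x ^ 2 ≠ 1 := fun h => by
    have hd := orderOf_dvd_of_pow_eq_one h
    rcases (Nat.dvd_prime Nat.prime_two).1 hd with e | e
    · exact hx1 (orderOf_eq_one_iff.1 e)
    · rw [e] at ho; exact Nat.not_odd_iff_even.2 even_two ho
  obtain ⟨z, w, hp, hz, hw⟩ := exists_fixed_torus_pair hE hx2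
  have P := poles (E := E) (p := 2) hE
  have hmemT : x ∈ torus F z w := ⟨hz, hw⟩
  have hdvdT : orderOf x ∣ Nat.card (torus F z w) := by
    rw [← Subgroup.orderOf_mk x hmemT]; exact orderOf_dvd_natCard _
  have hexcl : orderOf x ∣ Fintype.card F - 1 → orderOf x ∣ Fintype.card F + 1 → False := fun h h' => by
    have h2 : orderOf x ∣ 2 := by
      have := Nat.dvd_sub h' h
      rwa [show Fintype.card F + 1 - (Fintype.card F - 1) = 2 by
        have := Fintype.one_lt_card (α := F); omega] at this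
    exact hx2 (orderOf_dvd_iff_pow_eq_one.1 h2)
  have hpairs : ∀ {u v : OnePoint E}, IsTorusPair F u v → x ∈ pairStab F u v →
      pairStab F u v = pairStab F z w := fun {u v} huv h => by
    rcases h with ⟨h1, h2⟩ | ⟨h1, h2⟩
    · exact pairStab_eq_of_fix hE hx1 hp.1 huv.1 hz hw h1 h2
    · exact absurd (by rw [sq]; exact P.swap_sq huv.1 h1 h2) hx2
  have hsolP : ∀ {y}, y ∈ pairStab F z w → Group.IsSolvable (Subgroup.closure {x, y}) := fun {y} hy => by
    haveI := isSolvable_pairStab hE (F := F) hp.1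
    exact isSolvable_closure (torus_le_pairStab z w hmemT) hy
  constructor
  · intro hd
    obtain ⟨⟨a, ha⟩, ⟨b, hb⟩⟩ : IsRat F z ∧ IsRat F w := by
      rcases hp.2 with h | ⟨h1, -, -⟩
      · exact h
      · rw [(card_torus hE hp).2 h1] at hdvdT
        exact (hexcl hd hdvdT).elim
    subst ha hb
    have hab : a ≠ b := fun h => hp.1 (by rw [h])
    let Sa : Set PGL(2, F) := (stabilizer PGL(2, F) a : Set PGL(2, F))
    let Sb : Set PGL(2, F) := (stabilizer PGL(2, F) b : Set PGL(2, F))
    let W : Set PGL(2, F) := {y | y • a = b ∧ y • b = a}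
    have hmem : ∀ (g : PGL(2, F)) (c d : OnePoint F), g • inc E c = inc E d ↔ g • c = d := fun g c d => by
      rw [← inc_smul, inc_injective.eq_iff]
    have hset : {y | Group.IsSolvable (Subgroup.closure {x, y})} = Sa ∪ Sb ∪ W := by
      ext y
      constructor
      · intro h
        rcases solvable_cases hE hn hF h with ⟨c, hc⟩ | ⟨u, v, huv, hP⟩
        · obtain ⟨hxc, hyc⟩ := closure_pair_le_iff.1 hc
          rcases fix_cases hE hx1 hp.1 hz hw ((hmem _ _ _).2 hxc) with e | e <;>
            rw [inc_injective.eq_iff] at e <;> subst e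
          · exact Or.inl (Or.inl hyc)
          · exact Or.inl (Or.inr hyc)
        · obtain ⟨hxP, hyP⟩ := closure_pair_le_iff.1 hP
          rw [hpairs huv hxP] at hyP
          rcases hyP with ⟨h1, -⟩ | ⟨h1, h2⟩
          · exact Or.inl (Or.inl ((hmem _ _ _).1 h1))
          · exact Or.inr ⟨(hmem _ _ _).1 h1, (hmem _ _ _).1 h2⟩
      · rintro ((h | h) | ⟨h1, h2⟩)
        · haveI := isSolvable_stab hE (F := F) (inc E a)
          exact isSolvable_closure (H := stabilizer PGL(2, F) (inc E a)) hz ((hmem _ _ _).2 h)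
        · haveI := isSolvable_stab hE (F := F) (inc E b)
          exact isSolvable_closure (H := stabilizer PGL(2, F) (inc E b)) hw ((hmem _ _ _).2 h)
        · exact hsolP (Or.inr ⟨(hmem _ _ _).2 h1, (hmem _ _ _).2 h2⟩)
    have hd1 : Disjoint (Sa ∪ Sb) W := by
      rw [Set.disjoint_left]
      rintro y (h | h) ⟨h1, h2⟩
      · exact hab ((mem_stabilizer_iff.1 h).symm.trans h1)
      · exact hab (h2.symm.trans (mem_stabilizer_iff.1 h))
    have hinter : (Sa ∩ Sb).ncard = Fintype.card F - 1 := by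
      have := (card_torus hE hp).1 ⟨a, rfl⟩
      rw [← Nat.card_coe_set_eq]
      refine Eq.trans (Nat.card_congr (Equiv.subtypeEquivRight fun g => ?_)) this
      exact ⟨fun h => ⟨(hmem _ _ _).2 h.1, (hmem _ _ _).2 h.2⟩,
        fun h => ⟨(hmem _ _ _).1 h.1, (hmem _ _ _).1 h.2⟩⟩
    obtain ⟨s, hs1, hs2⟩ := exists_pgl_map hab hab.symm
    have hW : W.ncard = Fintype.card F - 1 := by
      rw [← hinter, ← Set.ncard_image_of_injective (Sa ∩ Sb) (mul_right_injective s)]
      congr 1
      ext y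
      constructor
      · rintro ⟨h1, h2⟩
        refine ⟨s⁻¹ * y, ⟨?_, ?_⟩, by simp⟩
        · rw [SetLike.mem_coe, mem_stabilizer_iff, mul_smul, h1, inv_smul_eq_iff, hs1]
        · rw [SetLike.mem_coe, mem_stabilizer_iff, mul_smul, h2, inv_smul_eq_iff, hs2]
      · rintro ⟨u, ⟨hu1, hu2⟩, rfl⟩
        exact ⟨by rw [mul_smul, mem_stabilizer_iff.1 hu1, hs1], by rw [mul_smul, mem_stabilizer_iff.1 hu2, hs2]⟩
    have hu := Set.ncard_union_add_ncard_inter Sa Sb
    rw [hinter, ← Nat.card_coe_set_eq Sa, ← Nat.card_coe_set_eq Sb,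
      show Nat.card Sa = _ from card_stab_point a, show Nat.card Sb = _ from card_stab_point b] at hu
    change Nat.card ({y | Group.IsSolvable (Subgroup.closure {x, y})} : Set PGL(2, F)) = _
    rw [hset, Nat.card_coe_set_eq, Set.ncard_union_eq hd1, hW]
    linarith
  · intro hd
    have hzr : ¬ IsRat F z := fun hr => by
      rw [(card_torus hE hp).1 hr] at hdvdT
      exact hexcl hdvdT hd
    have hwr : ¬ IsRat F w := by
      rcases hp.2 with h | h
      exacts [absurd h.1 hzr, h.2.1]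
    have hset : ∀ y, Group.IsSolvable (Subgroup.closure {x, y}) ↔ y ∈ pairStab F z w := fun y => by
      refine ⟨fun h => ?_, hsolP⟩
      rcases solvable_cases hE hn hF h with ⟨c, hc⟩ | ⟨u, v, huv, hP⟩
      · obtain ⟨hxc, -⟩ := closure_pair_le_iff.1 hc
        rcases fix_cases hE hx1 hp.1 hz hw (u := inc E c) (by rw [← inc_smul, mem_stabilizer_iff.1 hxc]) with
          e | e
        · exact absurd ⟨c, e⟩ hzr
        · exact absurd ⟨c, e⟩ hwr
      · obtain ⟨hxP, hyP⟩ := closure_pair_le_iff.1 hP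
        rwa [hpairs huv hxP] at hyP
    rw [Nat.card_congr (Equiv.subtypeEquivRight hset), (pairStab_spec hE hp).1, (card_torus hE hp).2 hzr]

end

theorem transfer {G H : Type*} [Group G] [Group H] (e : G ≃* H) (x : G) :
    Nat.card {y : G // Group.IsSolvable (Subgroup.closure ({x, y} : Set G))} =
      Nat.card {y : H // Group.IsSolvable (Subgroup.closure ({e x, y} : Set H))} := by
  refine Nat.card_congr (Equiv.subtypeEquiv e.toEquiv fun y => ?_)
  have h : (Subgroup.closure ({x, y} : Set G)).map e.toMonoidHom = Subgroup.closure {e x, e y} := by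
    rw [MonoidHom.map_closure]; simp [Set.image_pair]
  have f := (Subgroup.closure ({x, y} : Set G)).equivMapOfInjective e.toMonoidHom e.injective
  show _ ↔ Group.IsSolvable (Subgroup.closure {e x, e y})
  rw [← h]
  exact ⟨fun _ => solvable_of_surjective (f := f.toMonoidHom) f.surjective,
    fun _ => solvable_of_surjective (f := f.symm.toMonoidHom) f.symm.surjective⟩


/-- Let G = PSL_2(F) with F a field of order q = 2^p, p prime, and for x ∈ G call the solubilizer of x the set of y ∈ G such that x and y generate a solvable subgroup. Then the solubilizer of an involution has 3q(q − 1) elements; that of a non-identity element of order dividing q − 1 has 2q(q − 1) elements; and that of a non-identity element of order dividing q + 1 has 2(q + 1) elements. -/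
theorem result (p : ℕ) (hp : p.Prime) {F : Type*} [Field F] [Fintype F]
    (hF : Fintype.card F = 2 ^ p) (x : Matrix.ProjectiveSpecialLinearGroup (Fin 2) F) :
    (orderOf x = 2 → Nat.card {y : Matrix.ProjectiveSpecialLinearGroup (Fin 2) F // Group.IsSolvable ↥(Subgroup.closure ({x, y} : Set (Matrix.ProjectiveSpecialLinearGroup (Fin 2) F)))} = 3 * 2 ^ p * (2 ^ p - 1)) ∧
    (x ≠ 1 → orderOf x ∣ 2 ^ p - 1 → Nat.card {y : Matrix.ProjectiveSpecialLinearGroup (Fin 2) F // Group.IsSolvable ↥(Subgroup.closure ({x, y} : Set (Matrix.ProjectiveSpecialLinearGroup (Fin 2) F)))} = 2 * 2 ^ p * (2 ^ p - 1)) ∧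
    (x ≠ 1 → orderOf x ∣ 2 ^ p + 1 → Nat.card {y : Matrix.ProjectiveSpecialLinearGroup (Fin 2) F // Group.IsSolvable ↥(Subgroup.closure ({x, y} : Set (Matrix.ProjectiveSpecialLinearGroup (Fin 2) F)))} = 2 * (2 ^ p + 1)) := by
  classical
  haveI : Fact (Nat.Prime 2) := ⟨Nat.prime_two⟩
  haveI : CharP F 2 := by
    obtain ⟨r, hr⟩ := CharP.exists F
    haveI : Fact r.Prime := ⟨CharP.char_is_prime F r⟩
    obtain ⟨k, hk, hk'⟩ := FiniteField.card F r
    have : r ∣ 2 := hk.dvd_of_dvd_pow (hF ▸ hk' ▸ dvd_pow_self r k.pos.ne')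
    rwa [← (Nat.prime_dvd_prime_iff_eq hk Nat.prime_two).1 this]
  have heven : Even (Fintype.card F) := by rw [hF]; exact Nat.even_pow.2 ⟨even_two, hp.ne_zero⟩
  obtain ⟨E, _, _, _, hE⟩ := exists_quadExt F
  let e : Matrix.ProjectiveSpecialLinearGroup (Fin 2) F ≃* PGL(2, F) :=
    (pslEquiv).trans ((MulEquiv.subgroupCongr (Lsub_eq_top_of_even heven)).trans Subgroup.topEquiv)
  have ho : orderOf (e x) = orderOf x := e.orderOf_eq x
  rw [← ho, transfer e x, ← hF]
  refine ⟨fun h => ?_, fun h hd => ?_, fun h hd => ?_⟩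
  · have h1 : e x ≠ 1 := fun h1 => by rw [h1, orderOf_one] at h; omega
    exact card_invol hE hp hF h1 (by have := pow_orderOf_eq_one (e x); rwa [h, sq] at this)
  · have h1 : e x ≠ 1 := fun h1 => h (e.injective (h1.trans (map_one e).symm))
    refine (card_torus_elt hE hp hF h1 (Odd.of_dvd_nat ?_ hd)).1 hd
    exact Nat.Even.sub_odd Fintype.card_pos heven odd_one
  · have h1 : e x ≠ 1 := fun h1 => h (e.injective (h1.trans (map_one e).symm))
    exact (card_torus_elt hE hp hF h1 (Odd.of_dvd_nat heven.add_one hd)).2 hd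

end Cfsg.Agent.S2257
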