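import Cfsg.Statements.S2258
import Cfsg.Agent.Lib.PSLTwo.Solubilizer
import Cfsg.Agent.Lib.PSLTwo.Centralizers
import Cfsg.Agent.Lib.PSLTwo.MaxTools
import Cfsg.Agent.Lib.PSLTwo.ClassSizes

set_option autoImplicit false
open Cfsg
open Matrix MulAction OnePoint Cfsg.Agent.Lib.PSLTwo
open scoped MatrixGroups

namespace Cfsg.Agent.S2258

section
variable {F E : Type*} [Field F] [Fintype F] [DecidableEq F] [Field E] [DecidableEq E] [Finite E]
  [Algebra F E] (hE : Nat.card E = Fintype.card F ^ 2) {n : ℕ} (hn : n.Prime) (hno : Odd n)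
  (hF : Fintype.card F = 3 ^ n) [CharP F 3]

include hn hno hF

theorem q_facts : Odd (Fintype.card F) ∧ Fintype.card F % 8 = 3 ∧ Fintype.card F % 3 = 0 ∧
    27 ≤ Fintype.card F ∧ ¬ 5 ∣ Fintype.card F ^ 2 - 1 := by
  obtain ⟨j, hj⟩ := hno
  have h9 : 1 ≤ j := by
    rcases Nat.eq_zero_or_pos j with rfl | h
    · rw [hj] at hn; exact absurd hn Nat.not_prime_one
    · exact h
  have e : Fintype.card F = 3 * 9 ^ j := by rw [hF, hj, pow_succ, pow_mul, mul_comm]; norm_num
  refine ⟨?_, ?_, ?_, ?_, ?_⟩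
  · rw [hF]; exact Odd.pow (by decide)
  · rw [e, Nat.mul_mod, Nat.pow_mod]; norm_num
  · rw [e]; simp
  · rw [e]
    calc 27 = 3 * 9 ^ 1 := by norm_num
      _ ≤ 3 * 9 ^ j := Nat.mul_le_mul_left 3 (Nat.pow_le_pow_right (by norm_num) h9)
  · intro h
    have h1 : 1 ≤ Fintype.card F ^ 2 := Nat.one_le_pow _ _ Fintype.card_pos
    have h2 : Fintype.card F ^ 2 % 5 = 4 := by
      rw [e, mul_pow, ← pow_mul, mul_comm j 2, pow_mul, Nat.mul_mod, Nat.pow_mod (9 ^ 2)]
      norm_num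
    omega

include hE

theorem two_card_L' : 2 * Nat.card (Lsub F) = Fintype.card F * (Fintype.card F ^ 2 - 1) := by
  rw [two_mul_card_Lsub (q_facts hn hno hF).1, card_pgl]

theorem cases_L {H : Subgroup PGL(2, F)} (hL : H ≤ Lsub F) (hs : Group.IsSolvable H) :
    (∃ a : OnePoint F, H ≤ stabilizer PGL(2, F) a) ∨
      (∃ z w : OnePoint E, IsTorusPair F z w ∧ H ≤ pairStab F z w) ∨ Nat.card H = 12 := by
  classical
  haveI : Fact (Nat.Prime 3) := ⟨Nat.prime_three⟩
  obtain ⟨hodd, h8, h3, h27, h5⟩ := q_facts hn hno hF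
  rcases classify (p := 3) hE H with ⟨a, h⟩ | ⟨z, w, hp, hz, h⟩ | ⟨z, w, hp, k, hk, hd, hT, h, -, -⟩ |
    ⟨hp, -, -⟩ | ⟨hp, -, -⟩ | ⟨-, hc, -⟩ | ⟨K, γ, hq, h⟩
  · exact Or.inl ⟨a, h⟩
  · exact Or.inr (Or.inl ⟨z, w, hp, h.trans (torus_le_pairStab z w)⟩)
  · exact Or.inr (Or.inl ⟨z, w, hp, h⟩)
  · exact absurd (by norm_num : 3 ∣ 12) hp
  · exact absurd (by norm_num : 3 ∣ 24) hp
  · exfalso
    have h60 : 5 ∣ Fintype.card F * (Fintype.card F ^ 2 - 1) := by
      rw [← two_card_L' hE hn hno hF]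
      exact Dvd.dvd.mul_left ((by norm_num : 5 ∣ 60).trans (hc ▸ Subgroup.card_dvd_of_le hL)) 2
    rcases (Nat.Prime.dvd_mul (by norm_num : Nat.Prime 5)).1 h60 with h | h
    · rw [hF] at h
      have := (Nat.prime_dvd_prime_iff_eq (by norm_num) Nat.prime_three).1
        ((by norm_num : Nat.Prime 5).dvd_of_dvd_pow h)
      omega
    · exact h5 h
  obtain ⟨a, ha, hKa⟩ := card_subfield_eq_pow 3 K
  obtain ⟨m, -, hm⟩ := exists_card_pow K
  have ham : a * m = n := Nat.pow_right_injective (show 2 ≤ 3 by norm_num)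
    (show (3:ℕ) ^ (a * m) = 3 ^ n by rw [← hF, hm, hKa, ← pow_mul])
  have hdvd : a ∣ n := ⟨m, ham.symm⟩
  have hmod : Odd m := Odd.of_dvd_nat hno ⟨a, by rw [← ham, mul_comm]⟩
  have hnle : ¬ subPGL K ≤ Lsub F := by
    rw [subPGL_le_Lsub_iff, forall_square_iff hodd K hm, Nat.not_even_iff_odd]
    exact hmod
  have hmapL : H.map (MulAut.conj γ).toMonoidHom ≤ Lsub F := by
    haveI := Lsub_normal (F := F)
    exact le_of_le_of_eq (Subgroup.map_mono hL) (map_conj_normal γ)
  have hK : H.map (MulAut.conj γ).toMonoidHom = subPSL K := by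
    rcases h with h | ⟨-, h⟩
    · exact absurd (h ▸ hmapL) hnle
    · exact h
  have hcard : Nat.card H = Nat.card (subPSL K) := by
    rw [← hK, Subgroup.card_map_of_injective (f := (MulAut.conj γ).toMonoidHom) (MulAut.conj γ).injective]
  have h2 := two_mul_card_subPSL K (odd_card_subfield hodd K)
  rcases hn.eq_one_or_self_of_dvd a hdvd with rfl | rfl
  · rw [hKa] at h2
    norm_num at h2
    exact Or.inr (Or.inr (by omega))
  · exfalso
    have hKF : Nat.card K = Fintype.card F := by rw [hKa, hF]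
    have hHL : H = Lsub F := Subgroup.eq_of_le_of_card_ge hL (by
      have := two_card_L' hE hn hno hF
      rw [hKF] at h2
      omega)
    subst hHL
    haveI : IsSimpleGroup (Matrix.ProjectiveSpecialLinearGroup (Fin 2) F) :=
      Matrix.ProjectiveSpecialLinearGroup.rank_two_simple (by rw [Nat.card_eq_fintype_card]; omega)
    have hsol : Group.IsSolvable (Matrix.ProjectiveSpecialLinearGroup (Fin 2) F) :=
      solvable_of_solvable_injective (f := (pslEquiv (F := F)).toMonoidHom) pslEquiv.injective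
    have hcomm := IsSimpleGroup.comm_iff_isSolvable.2 hsol
    have hcommL : ∀ g ∈ Lsub F, ∀ h ∈ Lsub F, g * h = h * g := fun g hg h hh => by
      obtain ⟨a, ha⟩ := (pslEquiv (F := F)).surjective ⟨g, hg⟩
      obtain ⟨b, hb⟩ := (pslEquiv (F := F)).surjective ⟨h, hh⟩
      have := congrArg (fun c => ((pslEquiv c : Lsub F) : PGL(2, F))) (hcomm a b)
      simpa [ha, hb] using this
    obtain ⟨g, hg, hgi⟩ := exists_Lsub_map (∞ : OnePoint F) ((0 : F) : OnePoint F)
    have htL : trans' (1 : F) ∈ Lsub F := by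
      refine mem_Lsub_of_pow hodd 3 ?_
      rw [pow_succ, pow_two, ← trans'_add, ← trans'_add]
      convert trans'_zero (F := F)
      exact_mod_cast CharP.cast_eq_zero F 3
    have := congrArg (fun k : PGL(2, F) => k • (∞ : OnePoint F)) (hcommL g hg _ htL)
    simp only [mul_smul, trans'_inf, hgi, trans'_smul, zero_add] at this
    exact zero_ne_one (OnePoint.coe_injective this)

omit hn hno hF in
theorem pow_three_or_pair {g : PGL(2, F)} :
    g ^ 3 = 1 ∨ ∃ z w : OnePoint E, IsTorusPair F z w ∧ g • z = z ∧ g • w = w := by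
  haveI : Fact (Nat.Prime 3) := ⟨Nat.prime_three⟩
  by_cases h : g ^ 3 = 1
  · exact Or.inl h
  · exact Or.inr (exists_fixed_torus_pair hE h)

theorem torus_pow {g : PGL(2, F)} (hgL : g ∈ Lsub F) {z w : OnePoint E} (hp : IsTorusPair F z w)
    (hz : g • z = z) (hw : g • w = w) :
    (IsRat F z → g ^ ((Fintype.card F - 1) / 2) = 1) ∧
      (¬ IsRat F z → g ^ ((Fintype.card F + 1) / 2) = 1) := by
  obtain ⟨hodd, h8, h3, h27, h5⟩ := q_facts hn hno hF
  have hc := card_inf_Lsub hodd (exists_torus_not_Lsub hE hodd hp)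
  have hpow : g ^ Nat.card (torus F z w ⊓ Lsub F : Subgroup PGL(2, F)) = 1 :=
    congrArg Subtype.val (pow_card_eq_one' (x := (⟨g, ⟨hz, hw⟩, hgL⟩ : (torus F z w ⊓ Lsub F : Subgroup PGL(2, F)))))
  constructor <;> intro hr
  · rw [(card_torus hE hp).1 hr] at hc
    rwa [show (Fintype.card F - 1) / 2 = Nat.card (torus F z w ⊓ Lsub F : Subgroup PGL(2, F)) by omega]
  · rw [(card_torus hE hp).2 hr] at hc
    rwa [show (Fintype.card F + 1) / 2 = Nat.card (torus F z w ⊓ Lsub F : Subgroup PGL(2, F)) by omega]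

/-- Elements of `L` whose order divides twelve. -/
theorem sq_or_cube {g : PGL(2, F)} (hgL : g ∈ Lsub F) (h12 : g ^ 12 = 1) : g * g = 1 ∨ g ^ 3 = 1 := by
  obtain ⟨hodd, h8, h3, h27, h5⟩ := q_facts hn hno hF
  rcases pow_three_or_pair hE (g := g) with h | ⟨z, w, hp, hz, hw⟩
  · exact Or.inr h
  left
  obtain ⟨h1, h2⟩ := torus_pow hE hn hno hF hgL hp hz hw
  rw [← sq]
  by_cases hr : IsRat F z
  · have := pow_gcd_eq_one.2 ⟨h12, h1 hr⟩
    have hcop : Nat.gcd 12 ((Fintype.card F - 1) / 2) = 1 := by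
      rw [show (12 : ℕ) = 4 * 3 by norm_num]
      exact Nat.Coprime.mul_left ((Nat.Coprime.pow_left 2 (Nat.coprime_two_left.2 (Nat.odd_iff.2 (by omega)))))
        ((Nat.Prime.coprime_iff_not_dvd Nat.prime_three).2 (by omega))
    rw [hcop, pow_one] at this
    rw [this, one_pow]
  · have := pow_gcd_eq_one.2 ⟨h12, h2 hr⟩
    have hgcd : Nat.gcd 12 ((Fintype.card F + 1) / 2) ∣ 2 := by
      have hA : Nat.gcd 12 ((Fintype.card F + 1) / 2) ∣ 12 := Nat.gcd_dvd_left _ _
      have hB : Nat.gcd 12 ((Fintype.card F + 1) / 2) ∣ (Fintype.card F + 1) / 2 := Nat.gcd_dvd_right _ _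
      have := Nat.le_of_dvd (by norm_num) hA
      interval_cases Nat.gcd 12 ((Fintype.card F + 1) / 2) <;> omega
    obtain ⟨c, hc⟩ := hgcd
    refine (congrArg (g ^ ·) hc).trans ?_
    show g ^ (_ * c) = 1
    rw [pow_mul, this, one_pow]

theorem invol_pair {v : PGL(2, F)} (hvL : v ∈ Lsub F) (hv1 : v ≠ 1) (hv : v * v = 1) :
    (∀ a : OnePoint F, v • a ≠ a) ∧
      ∃ z w : OnePoint E, IsTorusPair F z w ∧ ¬ IsRat F z ∧ ¬ IsRat F w ∧ v • z = z ∧ v • w = w := by
  haveI : Fact (Nat.Prime 3) := ⟨Nat.prime_three⟩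
  obtain ⟨hodd, h8, h3, h27, h5⟩ := q_facts hn hno hF
  have h3' : v ^ 3 ≠ 1 := fun h => hv1 (by rwa [pow_succ, pow_two, hv, one_mul] at h)
  obtain ⟨z, w, hp, hz, hw⟩ := exists_fixed_torus_pair hE h3'
  have hnr : ¬ IsRat F z := fun hr => by
    have := pow_gcd_eq_one.2 ⟨(show v ^ 2 = 1 by rw [sq, hv]), (torus_pow hE hn hno hF hvL hp hz hw).1 hr⟩
    rw [(Nat.coprime_two_left.2 (Nat.odd_iff.2 (by omega)) : Nat.Coprime 2 ((Fintype.card F - 1) / 2)),
      pow_one] at this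
    exact hv1 this
  have hwr : ¬ IsRat F w := by
    rcases hp.2 with h | h
    exacts [absurd h.1 hnr, h.2.1]
  refine ⟨fun a ha => ?_, z, w, hp, hnr, hwr, hz, hw⟩
  rcases fix_cases hE hv1 hp.1 hz hw (u := inc E a) (by rw [← inc_smul, ha]) with e | e
  · exact hnr ⟨a, e⟩
  · exact hwr ⟨a, e⟩

theorem invol_unique {u v : PGL(2, F)} (huL : u ∈ Lsub F) (hu1 : u ≠ 1) (hu : u * u = 1)
    (hvL : v ∈ Lsub F) (hv1 : v ≠ 1) (hv : v * v = 1) {z w : OnePoint E} (hzw : z ≠ w)
    (huz : u • z = z) (huw : u • w = w) (hvz : v • z = z) (hvw : v • w = w) : u = v := by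
  classical
  haveI : Fact (Nat.Prime 3) := ⟨Nat.prime_three⟩
  haveI := (poles (E := E) (p := 3) hE).cyc z w hzw
  haveI := Fintype.ofFinite (torus F z w)
  by_contra hne
  have hle : (Finset.univ.filter fun a : torus F z w => a ^ 2 = 1).card ≤ 2 :=
    IsCyclic.card_pow_eq_one_le two_pos
  let s : Finset (torus F z w) := {1, ⟨u, huz, huw⟩, ⟨v, hvz, hvw⟩}
  have hsub : s ⊆ Finset.univ.filter fun a : torus F z w => a ^ 2 = 1 := by
    intro a ha
    simp only [s, Finset.mem_insert, Finset.mem_singleton] at ha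
    rcases ha with rfl | rfl | rfl <;> simp [sq, Subtype.ext_iff, hu, hv]
  have h3 : s.card = 3 := by
    simp [s, Subtype.ext_iff, Ne.symm hu1, Ne.symm hv1, hne]
  have := (Finset.card_le_card hsub).trans hle
  omega

theorem card_torus_L {z w : OnePoint E} (hp : IsTorusPair F z w) :
    2 * Nat.card (torus F z w ⊓ Lsub F : Subgroup PGL(2, F)) = Nat.card (torus F z w) ∧
      Nat.card (pairStab F z w ⊓ Lsub F : Subgroup PGL(2, F)) = Nat.card (torus F z w) := by
  obtain ⟨hodd, -⟩ := q_facts hn hno hF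
  obtain ⟨g, hgT, hg⟩ := exists_torus_not_Lsub hE hodd hp
  refine ⟨card_inf_Lsub hodd ⟨g, hgT, hg⟩, ?_⟩
  have := card_inf_Lsub hodd (T := pairStab F z w) ⟨g, torus_le_pairStab z w hgT, hg⟩
  rw [(pairStab_spec hE hp).1] at this
  omega

theorem card_swaps {z w : OnePoint E} (hp : IsTorusPair F z w) :
    2 * Nat.card {y : PGL(2, F) // y ∈ Lsub F ∧ y • z = w ∧ y • w = z} = Nat.card (torus F z w) := by
  classical
  obtain ⟨h1, h2⟩ := card_torus_L hE hn hno hF hp
  let P : Set PGL(2, F) := ((pairStab F z w ⊓ Lsub F : Subgroup PGL(2, F)) : Set PGL(2, F))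
  let T : Set PGL(2, F) := ((torus F z w ⊓ Lsub F : Subgroup PGL(2, F)) : Set PGL(2, F))
  have hTP : T ⊆ P := fun y hy => ⟨torus_le_pairStab z w hy.1, hy.2⟩
  have e : {y : PGL(2, F) | y ∈ Lsub F ∧ y • z = w ∧ y • w = z} = P \ T := by
    ext y
    constructor
    · rintro ⟨hL, a, b⟩
      exact ⟨⟨Or.inr ⟨a, b⟩, hL⟩, fun h => hp.1 ((mem_stabilizer_iff.1 h.1.1).symm.trans a)⟩
    · rintro ⟨⟨⟨a, b⟩ | ⟨a, b⟩, hL⟩, hnT⟩
      · exact absurd ⟨⟨a, b⟩, hL⟩ hnT
      · exact ⟨hL, a, b⟩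
  change 2 * Nat.card ({y : PGL(2, F) | y ∈ Lsub F ∧ y • z = w ∧ y • w = z} : Set PGL(2, F)) = _
  rw [e, Nat.card_coe_set_eq, Set.ncard_diff hTP, ← Nat.card_coe_set_eq, ← Nat.card_coe_set_eq,
    show Nat.card P = _ from h2]
  have : Nat.card T = Nat.card (torus F z w ⊓ Lsub F : Subgroup PGL(2, F)) := rfl
  omega

theorem card_all_invol :
    2 * Nat.card {v : PGL(2, F) // v ∈ Lsub F ∧ v ≠ 1 ∧ v * v = 1} =
      Fintype.card F ^ 2 - Fintype.card F := by
  classical
  obtain ⟨hodd, h8, h3, h27, h5⟩ := q_facts hn hno hF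
  let I := {v : PGL(2, F) // v ∈ Lsub F ∧ v ≠ 1 ∧ v * v = 1}
  let N := {z : OnePoint E // ¬ IsRat F z}
  have hN : Nat.card N = Fintype.card F ^ 2 - Fintype.card F := by
    haveI := Fintype.ofFinite (OnePoint E)
    rw [Nat.card_eq_fintype_card, Fintype.card_subtype_compl, ← Nat.card_eq_fintype_card,
      card_onePoint', hE]
    have : Fintype.card {z : OnePoint E // IsRat F z} = Fintype.card F + 1 := by
      rw [← Nat.card_eq_fintype_card, ← card_onePoint (F := F)]
      exact (Nat.card_congr (Equiv.ofBijective (fun a : OnePoint F => (⟨inc E a, a, rfl⟩ : {z // IsRat F z}))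
        ⟨fun a b h => inc_injective (E := E) (congrArg Subtype.val h), fun ⟨z, a, ha⟩ => ⟨a, Subtype.ext ha⟩⟩)).symm
    omega
  have hex : ∀ z : N, ∃ v : I, v.1 • z.1 = z.1 := by
    intro z
    obtain ⟨w, hw1, hw2, hw3⟩ := exists_partner hE z.2
    have hp : IsTorusPair F z.1 w := ⟨hw1.symm, Or.inr ⟨z.2, hw2, hw3⟩⟩
    have hc := (card_torus_L hE hn hno hF hp).1
    rw [(card_torus hE hp).2 z.2] at hc
    haveI := Fintype.ofFinite (torus F z.1 w ⊓ Lsub F : Subgroup PGL(2, F))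
    obtain ⟨v, hv⟩ := exists_prime_orderOf_dvd_card (G := (torus F z.1 w ⊓ Lsub F : Subgroup PGL(2, F))) 2
      (by rw [← Nat.card_eq_fintype_card]; omega)
    rw [← orderOf_injective (torus F z.1 w ⊓ Lsub F : Subgroup PGL(2, F)).subtype (Subgroup.subtype_injective _)] at hv
    refine ⟨⟨v.1, v.2.2, fun h => ?_, ?_⟩, v.2.1.1⟩
    · simp [h] at hv
    · have := pow_orderOf_eq_one ((Subgroup.subtype _) v)
      rwa [hv, sq] at this
  choose f hf using hex
  have hfib : ∀ v : I, Nat.card {z : N // f z = v} = 2 := by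
    intro v
    obtain ⟨-, z, w, hp, hz, hw, hvz, hvw⟩ := invol_pair hE hn hno hF v.2.1 v.2.2.1 v.2.2.2
    rw [Nat.card_eq_two_iff]
    have key : ∀ u : N, v.1 • u.1 = u.1 → f u = v := by
      intro u hu
      obtain ⟨u', hu1, hu2, hu3⟩ := exists_partner hE u.2
      have hfix : ∀ g : PGL(2, F), g • u.1 = u.1 → g • u' = u' := fun g hg =>
        mem_stabilizer_iff.1 (hu3 ▸ mem_stabilizer_iff.2 hg)
      exact Subtype.ext (invol_unique hE hn hno hF (f u).2.1 (f u).2.2.1 (f u).2.2.2 v.2.1 v.2.2.1 v.2.2.2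
        hu1.symm (hf u) (hfix _ (hf u)) hu (hfix _ hu))
    refine ⟨⟨⟨z, hz⟩, key _ hvz⟩, ⟨⟨w, hw⟩, key _ hvw⟩, fun h => hp.1 (congrArg (fun a => a.1.1) h), ?_⟩
    refine Set.eq_univ_of_forall fun ⟨⟨u, hu⟩, hfu⟩ => ?_
    have : v.1 • u = u := by rw [← hfu]; exact hf _
    rcases fix_cases hE v.2.2.1 hp.1 hvz hvw this with rfl | rfl
    · exact Or.inl rfl
    · exact Or.inr rfl
  haveI : Fintype I := Fintype.ofFinite I
  rw [← hN, ← Nat.card_congr (Equiv.sigmaFiberEquiv f), Nat.card_sigma]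
  simp only [hfib, Finset.sum_const, Finset.card_univ, smul_eq_mul, ← Nat.card_eq_fintype_card (α := I)]
  ring

omit hn hno hF in
theorem card_cube :
    Nat.card {y : PGL(2, F) // y ≠ 1 ∧ y ^ 3 = 1} = Fintype.card F ^ 2 - 1 := by
  classical
  haveI : Fact (Nat.Prime 3) := ⟨Nat.prime_three⟩
  have P := poles (E := E) (p := 3) hE
  let U := fun b : OnePoint F => {u : P.unip (inc E b) // u ≠ 1}
  have hU : ∀ b, Nat.card (U b) = Fintype.card F - 1 := fun b => by
    haveI := Fintype.ofFinite (P.unip (inc E b))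
    rw [Nat.card_eq_fintype_card, Fintype.card_subtype_compl, Fintype.card_subtype_eq,
      ← Nat.card_eq_fintype_card, card_unip hE]
  let φ : (Σ b : OnePoint F, U b) → {y : PGL(2, F) // y ≠ 1 ∧ y ^ 3 = 1} :=
    fun s => ⟨s.2.1.1, fun h1 => s.2.2 (Subtype.ext h1), s.2.1.2.2⟩
  have hbij : Function.Bijective φ := by
    constructor
    · rintro ⟨b, ⟨⟨u, hu⟩, hu1⟩⟩ ⟨b', ⟨⟨u', hu'⟩, hu1'⟩⟩ h
      have e : u = u' := congrArg Subtype.val h
      subst e
      obtain rfl : b = b' := inc_injective (E := E)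
        (P.pElem_fix (fun h1 => hu1 (Subtype.ext h1)) hu.2 hu'.1 hu.1)
      rfl
    · rintro ⟨y, hy1, hy3⟩
      obtain ⟨z, hz⟩ := P.exists_fix y
      obtain ⟨b, rfl⟩ := pElem_isRat hE hy1 hy3 hz
      exact ⟨⟨b, ⟨⟨y, hz, hy3⟩, fun h => hy1 (congrArg Subtype.val h)⟩⟩, rfl⟩
  rw [← Nat.card_congr (Equiv.ofBijective φ hbij), Nat.card_sigma]
  simp only [hU, Finset.sum_const, Finset.card_univ, smul_eq_mul]
  rw [← Nat.card_eq_fintype_card, card_onePoint]
  obtain ⟨k, hk⟩ : ∃ k, Fintype.card F = k + 1 := ⟨Fintype.card F - 1, (Nat.sub_add_cancel Fintype.card_pos).symm⟩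
  simp only [hk, Nat.add_sub_cancel]
  ring_nf
  omega

omit hE hn hno hF [Fintype F] [DecidableEq F] [CharP F 3] [Field E] [DecidableEq E] [Finite E] [Algebra F E] in
theorem conj_facts {G : Type*} [Group G] {x y : G} (hx : x * x = 1) (hy : y ^ 3 = 1) (hxy : (x * y) ^ 3 = 1) :
    x * (y * x * y⁻¹) * (y * (y * x * y⁻¹) * y⁻¹) = 1 ∧
      x * (y * x * y⁻¹) = (y * x * y⁻¹) * x ∧
      y * (y * x * y⁻¹) * y⁻¹ = x * (y * x * y⁻¹) := by
  have h1 : x * (y * x * y⁻¹) * (y * (y * x * y⁻¹) * y⁻¹) = 1 := by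
    have e : y⁻¹ * y⁻¹ = y := by
      rw [← _root_.mul_inv_rev]
      exact inv_eq_of_mul_eq_one_right (by rw [← pow_two, ← pow_succ, hy])
    calc x * (y * x * y⁻¹) * (y * (y * x * y⁻¹) * y⁻¹)
        = x * y * x * y * x * (y⁻¹ * y⁻¹) := by group
      _ = (x * y) ^ 3 := by rw [e, pow_succ, pow_two]; simp only [mul_assoc]
      _ = 1 := hxy
  have hsq : (y * x * y⁻¹) * (y * x * y⁻¹) = 1 := by
    calc (y * x * y⁻¹) * (y * x * y⁻¹) = y * (x * x) * y⁻¹ := by group
      _ = 1 := by rw [hx, mul_one, mul_inv_cancel]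
  have hsq2 : (y * (y * x * y⁻¹) * y⁻¹) * (y * (y * x * y⁻¹) * y⁻¹) = 1 := by
    calc (y * (y * x * y⁻¹) * y⁻¹) * (y * (y * x * y⁻¹) * y⁻¹)
        = y * ((y * x * y⁻¹) * (y * x * y⁻¹)) * y⁻¹ := by group
      _ = 1 := by rw [hsq, mul_one, mul_inv_cancel]
  have h2 : y * (y * x * y⁻¹) * y⁻¹ = x * (y * x * y⁻¹) := by
    have := inv_eq_of_mul_eq_one_left h1
    rw [← this]
    exact (inv_eq_of_mul_eq_one_right hsq2).symm
  refine ⟨h1, ?_, h2⟩
  have h3 : x * (y * x * y⁻¹) * (x * (y * x * y⁻¹)) = 1 := by rw [← h2]; exact hsq2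
  have := inv_eq_of_mul_eq_one_right h3
  rw [_root_.mul_inv_rev, inv_eq_of_mul_eq_one_right hx, inv_eq_of_mul_eq_one_right hsq] at this
  exact this.symm

omit hE hn hno hF [Fintype F] [DecidableEq F] [CharP F 3] [Field E] [DecidableEq E] [Finite E] [Algebra F E] in
/-- A `(2,3,3)` generated group is solvable. -/
theorem solvable_tri {G : Type*} [Group G] {x y : G} (hx : x * x = 1) (hy : y ^ 3 = 1)
    (hxy : (x * y) ^ 3 = 1) : Group.IsSolvable (Subgroup.closure ({x, y} : Set G)) := by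
  classical
  obtain ⟨-, hc, hy2⟩ := conj_facts hx hy hxy
  set x1 := y * x * y⁻¹ with hx1
  have hx11 : x1 * x1 = 1 := by
    rw [hx1]
    calc (y * x * y⁻¹) * (y * x * y⁻¹) = y * (x * x) * y⁻¹ := by group
      _ = 1 := by rw [hx, mul_one, mul_inv_cancel]
  let N := Subgroup.closure ({x, x1} : Set G)
  have hNc : ∀ a ∈ N, ∀ b ∈ N, a * b = b * a := by
    have hle : N ≤ Subgroup.centralizer (({x, x1} : Set G)) := by
      rw [Subgroup.closure_le]
      intro a ha
      rw [SetLike.mem_coe, Subgroup.mem_centralizer_iff]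
      intro b hb
      rcases ha with rfl | rfl <;> rcases hb with rfl | rfl <;> first | rfl | exact hc | exact hc.symm
    intro a ha b hb
    have : N ≤ Subgroup.centralizer ((N : Set G)) := by
      rw [Subgroup.centralizer_closure]; exact hle
    exact (Subgroup.mem_centralizer_iff.1 (this ha) b hb).symm
  have hxN : x ∈ N := Subgroup.subset_closure (by simp)
  have hx1N : x1 ∈ N := Subgroup.subset_closure (by simp)
  have hynorm : y ∈ Subgroup.normalizer (N : Set G) := by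
    have hmap : N.map (MulAut.conj y).toMonoidHom ≤ N := by
      rw [MonoidHom.map_closure, Subgroup.closure_le]
      rintro _ ⟨a, ha, rfl⟩
      rcases ha with rfl | rfl
      · exact hx1N
      · show y * x1 * y⁻¹ ∈ N
        rw [hy2]
        exact mul_mem hxN hx1N
    rw [Subgroup.mem_normalizer_iff]
    intro a
    refine ⟨fun ha => hmap ⟨a, ha, rfl⟩, fun ha => ?_⟩
    have h1 := hmap ⟨_, hmap ⟨_, ha, rfl⟩, rfl⟩
    simp only [MulEquiv.toMonoidHom_eq_coe, MonoidHom.coe_coe, MulAut.conj_apply] at h1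
    have e : y * (y * (y * a * y⁻¹) * y⁻¹) * y⁻¹ = (y ^ 3) * a * (y ^ 3)⁻¹ := by
      rw [pow_succ, pow_two]; simp only [_root_.mul_inv_rev, mul_assoc]
    rwa [e, hy, one_mul, inv_one, mul_one] at h1
  let H := N ⊔ Subgroup.zpowers y
  have hle : Subgroup.closure ({x, y} : Set G) ≤ H :=
    closure_pair_le_iff.2 ⟨Subgroup.mem_sup_left hxN, Subgroup.mem_sup_right (Subgroup.mem_zpowers y)⟩
  have hnorm : Subgroup.zpowers y ≤ Subgroup.normalizer (N : Set G) := by
    rwa [Subgroup.zpowers_le]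
  haveI : Group.IsSolvable H := by
    refine isSolvable_of_comm H N (fun g hg h hh => ?_) hNc
    have hmul := Subgroup.coe_mul_of_right_le_normalizer_left N (Subgroup.zpowers y) hnorm
    obtain ⟨a, ha, s, hs, rfl⟩ := hmul.le hg
    obtain ⟨b, hb, t, ht, rfl⟩ := hmul.le hh
    have hst : s * t = t * s := by
      obtain ⟨i, rfl⟩ := hs; obtain ⟨j, rfl⟩ := ht
      exact (Commute.zpow_zpow_self y i j).eq
    have e : a * s * (b * t) * (a * s)⁻¹ * (b * t)⁻¹ =
        a * (s * b * s⁻¹) * (t * a⁻¹ * t⁻¹) * b⁻¹ := by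
      simp only [_root_.mul_inv_rev, mul_assoc]
      congr 3
      rw [← mul_assoc s⁻¹ a⁻¹, ← mul_assoc t]
      have : t * s⁻¹ = s⁻¹ * t := by
        rw [eq_inv_mul_iff_mul_eq, ← mul_assoc, hst, mul_assoc, mul_inv_cancel, mul_one]
      rw [← mul_assoc t s⁻¹, this]
      simp only [mul_assoc]
    rw [e]
    exact mul_mem (mul_mem (mul_mem ha ((Subgroup.mem_normalizer_iff.1 (hnorm hs) b).1 hb))
      ((Subgroup.mem_normalizer_iff.1 (hnorm ht) _).1 (inv_mem ha))) (inv_mem hb)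
  exact solvable_of_solvable_injective (Subgroup.inclusion_injective hle)

omit hn hno hF in
theorem mem_pair_of_comm {x g : PGL(2, F)} (hx1 : x ≠ 1) {z w : OnePoint E} (hzw : z ≠ w)
    (hz : x • z = z) (hw : x • w = w) (h : x * g = g * x) : g ∈ pairStab F z w := by
  have hfix : ∀ u : OnePoint E, x • u = u → x • (g • u) = g • u := fun u hu => by
    rw [← mul_smul, h, mul_smul, hu]
  rcases fix_cases hE hx1 hzw hz hw (hfix z hz) with a | a <;>
    rcases fix_cases hE hx1 hzw hz hw (hfix w hw) with b | b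
  · exact absurd (smul_left_cancel g (a.trans b.symm)) hzw
  · exact Or.inl ⟨a, b⟩
  · exact Or.inr ⟨a, b⟩
  · exact absurd (smul_left_cancel g (a.trans b.symm)) hzw

theorem exists_three_cycle {x x1 : PGL(2, F)} (hxL : x ∈ Lsub F) (hx0 : x ≠ 1) (hx : x * x = 1)
    {z w : OnePoint E} (hp : IsTorusPair F z w) (hz : x • z = z) (hw : x • w = w)
    (hs : x1 ∈ Lsub F ∧ x1 • z = w ∧ x1 • w = z) :
    ∃ y ∈ Lsub F, y * x * y⁻¹ = x1 ∧ y * x1 * y⁻¹ = x * x1 ∧
      (∀ c ∈ Lsub F, c * x = x * c → c * x1 = x1 * c → c = 1 ∨ c = x ∨ c = x1 ∨ c = x * x1) := by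
  classical
  haveI : Fact (Nat.Prime 3) := ⟨Nat.prime_three⟩
  haveI : Fact (Nat.Prime 2) := ⟨Nat.prime_two⟩
  obtain ⟨hodd, h8, h3, h27, h5⟩ := q_facts hn hno hF
  have P := poles (E := E) (p := 3) hE
  have hx11 : x1 * x1 = 1 := P.swap_sq hp.1 hs.2.1 hs.2.2
  have hx10 : x1 ≠ 1 := fun h => hp.1 (by simpa [h] using hs.2.1)
  have hne : x ≠ x1 := fun h => hp.1 (by rw [← hs.2.1, ← h, hz])
  have hxx : (x * x1) * (x * x1) = 1 :=
    P.swap_sq hp.1 (by rw [mul_smul, hs.2.1, hw]) (by rw [mul_smul, hs.2.2, hz])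
  have hcomm : x * x1 = x1 * x := by
    have := inv_eq_of_mul_eq_one_right hxx
    rw [_root_.mul_inv_rev, inv_eq_of_mul_eq_one_right hx, inv_eq_of_mul_eq_one_right hx11] at this
    exact this.symm
  have hcent : ∀ c ∈ Lsub F, c * x = x * c → c * x1 = x1 * c →
      c = 1 ∨ c = x ∨ c = x1 ∨ c = x * x1 := by
    have tor : ∀ c ∈ Lsub F, c • z = z → c • w = w → c * x1 = x1 * c → c = 1 ∨ c = x := by
      intro c hc hcz hcw hc1
      by_cases hc0 : c = 1
      · exact Or.inl hc0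
      right
      have hsw : (x1 * c) * (x1 * c) = 1 :=
        P.swap_sq hp.1 (by rw [mul_smul, hcz, hs.2.1]) (by rw [mul_smul, hcw, hs.2.2])
      have hcc : c * c = 1 := by
        rw [← hsw, show x1 * c * (x1 * c) = x1 * (c * x1) * c by simp only [mul_assoc], hc1,
          ← mul_assoc, hx11, one_mul]
      exact invol_unique hE hn hno hF hc hc0 hcc hxL hx0 hx hp.1 hcz hcw hz hw
    intro c hc hcx hcx1
    rcases mem_pair_of_comm hE hx0 hp.1 hz hw hcx.symm with ⟨a, b⟩ | ⟨a, b⟩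
    · rcases tor c hc a b hcx1 with h | h
      · exact Or.inl h
      · exact Or.inr (Or.inl h)
    · rcases tor (c * x1) (mul_mem hc hs.1) (by rw [mul_smul, hs.2.1, b]) (by rw [mul_smul, hs.2.2, a])
        (by rw [hcx1, mul_assoc, hcx1]) with h | h
      · right; right; left
        rw [eq_inv_of_mul_eq_one_left h, inv_eq_of_mul_eq_one_right hx11]
      · right; right; right
        rw [← h, mul_assoc, hx11, mul_one]
  -- the four group is a Sylow subgroup of `L`
  let X : Lsub F := ⟨x, hxL⟩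
  let X1 : Lsub F := ⟨x1, hs.1⟩
  let V : Subgroup (Lsub F) := Subgroup.centralizer {X, X1}
  have hmemV : ∀ c : Lsub F, c ∈ V ↔ c.1 * x = x * c.1 ∧ c.1 * x1 = x1 * c.1 := fun c => by
    rw [Subgroup.mem_centralizer_iff]
    constructor
    · intro h
      exact ⟨(congrArg Subtype.val (h X (Or.inl rfl))).symm, (congrArg Subtype.val (h X1 (Or.inr rfl))).symm⟩
    · rintro ⟨h1, h2⟩ b (rfl | rfl)
      · exact Subtype.ext h1.symm
      · exact Subtype.ext h2.symm
  have hVset : (V : Set (Lsub F)) = {1, X, X1, X * X1} := by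
    ext c
    rw [SetLike.mem_coe, hmemV]
    constructor
    · rintro ⟨a, b⟩
      rcases hcent c c.2 a b with h | h | h | h
      · exact Or.inl (Subtype.ext h)
      · exact Or.inr (Or.inl (Subtype.ext h))
      · exact Or.inr (Or.inr (Or.inl (Subtype.ext h)))
      · exact Or.inr (Or.inr (Or.inr (Subtype.ext h)))
    · rintro (rfl | rfl | rfl | rfl)
      · simp
      · exact ⟨rfl, hcomm⟩
      · exact ⟨hcomm.symm, rfl⟩
      · constructor
        · show x * x1 * x = x * (x * x1)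
          rw [mul_assoc, ← hcomm]
        · show x * x1 * x1 = x1 * (x * x1)
          rw [← mul_assoc x1, ← hcomm]
  have hV4 : Nat.card V = 4 := by
    change Nat.card (V : Set (Lsub F)) = 4
    rw [hVset, Nat.card_coe_set_eq]
    have e1 : (1 : Lsub F) ∉ ({X, X1, X * X1} : Set (Lsub F)) := by
      simp only [Set.mem_insert_iff, Set.mem_singleton_iff, Subtype.ext_iff, Subgroup.coe_mul, X, X1,
        OneMemClass.coe_one]
      push Not
      exact ⟨hx0.symm, hx10.symm, fun h => hne (by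
        rw [← inv_eq_of_mul_eq_one_right h.symm]; exact (inv_eq_of_mul_eq_one_right hx).symm)⟩
    have e2 : X ∉ ({X1, X * X1} : Set (Lsub F)) := by
      simp only [Set.mem_insert_iff, Set.mem_singleton_iff, Subtype.ext_iff, Subgroup.coe_mul, X, X1]
      push Not
      exact ⟨hne, fun h => hx10 (left_eq_mul.1 h)⟩
    have e3 : X1 ≠ X * X1 := fun h => hx0 (congrArg Subtype.val (right_eq_mul.1 h))
    rw [Set.ncard_insert_of_notMem e1, Set.ncard_insert_of_notMem e2, Set.ncard_pair e3]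
  have hcardL := two_card_L' hE hn hno hF
  have hfac : (Nat.card (Lsub F)).factorization 2 = 2 := by
    obtain ⟨j, hj⟩ : ∃ j, Fintype.card F = 8 * j + 3 := ⟨Fintype.card F / 8, by omega⟩
    have e : Nat.card (Lsub F) = 2 ^ 2 * ((8 * j + 3) * (8 * j * j + 6 * j + 1)) := by
      rw [hj] at hcardL
      have e' : (8 * j + 3) ^ 2 - 1 = 8 * (8 * j * j + 6 * j + 1) := by
        rw [show (8 * j + 3) ^ 2 = 8 * (8 * j * j + 6 * j + 1) + 1 by ring]; omega
      rw [e'] at hcardL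
      linarith
    have hodd' : ¬ 2 ∣ (8 * j + 3) * (8 * j * j + 6 * j + 1) := by
      rw [Nat.two_dvd_ne_zero, Nat.mul_mod, show (8 * j + 3) % 2 = 1 by omega]
      have : (8 * j * j + 6 * j + 1) % 2 = 1 := by
        rw [show 8 * j * j + 6 * j + 1 = 2 * (4 * j * j + 3 * j) + 1 by ring]; omega
      rw [this]
    rw [e, Nat.factorization_mul (by norm_num) (fun h => hodd' (by rw [h]; exact dvd_zero 2)), Finsupp.add_apply,
      Nat.prime_two.factorization_pow, Nat.factorization_eq_zero_of_not_dvd hodd']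
    simp
  let S : Sylow 2 (Lsub F) := Sylow.ofCard V (by rw [hV4, hfac]; norm_num)
  have hnotle : ¬ Subgroup.normalizer ((S : Subgroup (Lsub F)) : Set (Lsub F)) ≤
      Subgroup.centralizer ((S : Subgroup (Lsub F)) : Set (Lsub F)) := fun hle => by
    have hcompl := MonoidHom.ker_transferSylow_isComplement' S hle
    haveI : IsSimpleGroup (Lsub F) := by
      haveI : IsSimpleGroup (Matrix.ProjectiveSpecialLinearGroup (Fin 2) F) :=
        Matrix.ProjectiveSpecialLinearGroup.rank_two_simple (by rw [Nat.card_eq_fintype_card]; omega)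
      haveI : Nontrivial (Lsub F) := pslEquiv.symm.toEquiv.nontrivial
      exact pslEquiv.symm.isSimpleGroup
    have hVc : Nat.card (S : Subgroup (Lsub F)) = 4 := hV4
    have hmul := hcompl.card_mul
    rw [hVc] at hmul
    rcases (MonoidHom.normal_ker (MonoidHom.transferSylow S hle)).eq_bot_or_eq_top with h | h <;>
      rw [h] at hmul <;> simp only [Subgroup.card_bot, Subgroup.card_top, one_mul] at hmul
    all_goals
      have hbig : 27 * 728 ≤ 2 * Nat.card (Lsub F) := by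
        rw [hcardL]
        exact Nat.mul_le_mul h27 (Nat.le_sub_one_of_lt
          (lt_of_lt_of_le (by norm_num) (Nat.pow_le_pow_left h27 2)))
      omega
  obtain ⟨g, hgN, hgC⟩ := SetLike.not_le_iff_exists.1 hnotle
  have hS : (S : Subgroup (Lsub F)) = V := rfl
  rw [hS] at hgN hgC
  -- the conjugation action on the three involutions
  have hact : ∀ g : Lsub F, g ∈ Subgroup.normalizer (V : Set (Lsub F)) → ∀ a ∈ ({X, X1, X * X1} : Set (Lsub F)),
      g * a * g⁻¹ ∈ ({X, X1, X * X1} : Set (Lsub F)) := by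
    intro g hg a ha
    have haV : a ∈ V := by rw [← SetLike.mem_coe, hVset]; exact Or.inr ha
    have := (Subgroup.mem_normalizer_iff.1 hg a).1 haV
    rw [← SetLike.mem_coe, hVset] at this
    refine this.resolve_left fun h => ?_
    rw [conj_eq_one_iff] at h
    subst h
    simp only [Set.mem_insert_iff, Set.mem_singleton_iff, Subtype.ext_iff, Subgroup.coe_mul, X, X1,
      OneMemClass.coe_one] at ha
    rcases ha with h | h | h
    · exact hx0 h.symm
    · exact hx10 h.symm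
    · exact hne (by rw [← inv_eq_of_mul_eq_one_right h.symm]; exact (inv_eq_of_mul_eq_one_right hx).symm)
  -- an element fixing one of them by conjugation centralises the group
  have hfix : ∀ g : Lsub F, g ∈ Subgroup.normalizer (V : Set (Lsub F)) → ∀ a ∈ ({X, X1, X * X1} : Set (Lsub F)),
      g * a * g⁻¹ = a → g * g ∈ V → g ∈ V := by
    intro g hg a ha hga hgg
    let N := Subgroup.normalizer (V : Set (Lsub F))
    by_contra hgV
    have hM : IsPGroup 2 (V ⊔ Subgroup.zpowers g : Subgroup (Lsub F)) := by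
      have hz : IsPGroup 2 (Subgroup.zpowers g) := by
        rintro ⟨_, i, rfl⟩
        refine ⟨2, Subtype.ext ?_⟩
        simp only [SubgroupClass.coe_pow, OneMemClass.coe_one]
        have h4 : (g * g) * (g * g) = 1 := by
          have hgm : g * g ∈ ({1, X, X1, X * X1} : Set (Lsub F)) := by rw [← hVset]; exact hgg
          rcases hgm with h | h | h | h <;> rw [h] <;>
            simp [X, X1, Subtype.ext_iff, hx, hx11, hxx]
        rw [← zpow_natCast, ← _root_.zpow_mul, mul_comm, _root_.zpow_mul, zpow_natCast,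
          show g ^ (2 ^ 2) = (g * g) * (g * g) by simp only [show (2 : ℕ) ^ 2 = 4 from rfl, pow_succ, pow_zero, one_mul, mul_assoc], h4, _root_.one_zpow]
      exact IsPGroup.to_sup_of_normal_left' S.2 hz (by rwa [Subgroup.zpowers_le])
    have := S.3 hM le_sup_left
    exact hgV (this ▸ Subgroup.mem_sup_right (Subgroup.mem_zpowers g) : g ∈ (S : Subgroup (Lsub F)))
  have key : ∃ y : Lsub F, y * X * y⁻¹ = X1 ∧ y * X1 * y⁻¹ = X * X1 := by
    have hgV : g ∉ V := fun h => hgC (by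
      rw [Subgroup.mem_centralizer_iff]
      intro b hb
      rw [hVset] at hb
      obtain ⟨h1, h2⟩ := (hmemV g).1 h
      rcases hb with rfl | rfl | rfl | rfl
      · simp
      · exact Subtype.ext h1.symm
      · exact Subtype.ext h2.symm
      · exact Subtype.ext (show x * x1 * g.1 = g.1 * (x * x1) by rw [mul_assoc, ← h2, ← mul_assoc, ← h1, mul_assoc]))
    have hg2 : g * g ∈ Subgroup.normalizer (V : Set (Lsub F)) := mul_mem hgN hgN
    -- no involution class is fixed by `g`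
    have hnofix : ∀ a ∈ ({X, X1, X * X1} : Set (Lsub F)), g * a * g⁻¹ ≠ a := by
      intro a ha h
      refine hgV (hfix g hgN a ha h ?_)
      have three : ∀ {a b c d : Lsub F}, a ∈ ({X, X1, X * X1} : Set (Lsub F)) → b ∈ ({X, X1, X * X1} : Set (Lsub F)) →
          c ∈ ({X, X1, X * X1} : Set (Lsub F)) → d ∈ ({X, X1, X * X1} : Set (Lsub F)) →
          b ≠ a → c ≠ a → d ≠ a → b ≠ c → d = b ∨ d = c := by
        rintro a b c d (rfl | rfl | rfl) (rfl | rfl | rfl) (rfl | rfl | rfl) (rfl | rfl | rfl) <;>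
          intros <;> first | exact Or.inl rfl | exact Or.inr rfl | contradiction
      have haux : ∀ b ∈ ({X, X1, X * X1} : Set (Lsub F)), g * g * b * (g * g)⁻¹ = b := by
        intro b hb
        have e : g * g * b * (g * g)⁻¹ = g * (g * b * g⁻¹) * g⁻¹ := by group
        rw [e]
        by_cases hba : b = a
        · rw [hba, h, h]
        by_cases hbb : g * b * g⁻¹ = b
        · rw [hbb, hbb]
        have hb1 := hact g hgN b hb
        have hb2 := hact g hgN _ hb1
        have hcan : ∀ {u v : Lsub F}, g * u * g⁻¹ = g * v * g⁻¹ → u = v := fun e' =>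
          mul_left_cancel (mul_right_cancel e')
        have hne1 : g * b * g⁻¹ ≠ a := fun e' => hba (hcan (e'.trans h.symm))
        have hne2 : g * (g * b * g⁻¹) * g⁻¹ ≠ a := fun e' => hne1 (hcan (e'.trans h.symm))
        exact (three ha hb hb1 hb2 hba hne1 hne2 (Ne.symm hbb)).resolve_right fun e' => hbb (hcan e')
      rw [hmemV]
      have h1 := congrArg Subtype.val (mul_inv_eq_iff_eq_mul.1 (haux X (Or.inl rfl)))
      have h2 := congrArg Subtype.val (mul_inv_eq_iff_eq_mul.1 (haux X1 (Or.inr (Or.inl rfl))))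
      exact ⟨h1, h2⟩
    have hn1 := hnofix X (Or.inl rfl)
    have hn2 := hnofix X1 (Or.inr (Or.inl rfl))
    have hn3 := hnofix (X * X1) (Or.inr (Or.inr rfl))
    have hc1 := hact g hgN X (Or.inl rfl)
    have hc2 := hact g hgN X1 (Or.inr (Or.inl rfl))
    have hinj : g * X * g⁻¹ ≠ g * X1 * g⁻¹ := fun h => hne (congrArg Subtype.val (mul_left_cancel (mul_right_cancel h)))
    simp only [Set.mem_insert_iff, Set.mem_singleton_iff] at hc1 hc2
    have hhom : g * (X * X1) * g⁻¹ = (g * X * g⁻¹) * (g * X1 * g⁻¹) := by group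
    rcases hc1 with a | a | a
    · exact absurd a hn1
    · rcases hc2 with b | b | b
      · exfalso
        refine hn3 ?_
        rw [hhom, a, b]
        exact Subtype.ext hcomm.symm
      · exact absurd b hn2
      · exact ⟨g, a, b⟩
    · rcases hc2 with b | b | b
      · refine ⟨g⁻¹, ?_, ?_⟩
        · rw [inv_inv]; nth_rw 1 [← b]; group
        · rw [inv_inv]
          have hb : g⁻¹ * X * g = X1 := by nth_rw 1 [← b]; group
          have ha : g⁻¹ * (X * X1) * g = X := by nth_rw 1 [← a]; group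
          have : g⁻¹ * (X * X1) * g = (g⁻¹ * X * g) * (g⁻¹ * X1 * g) := by group
          rw [hb, ha] at this
          have hX1 : X1⁻¹ = X1 := inv_eq_of_mul_eq_one_right (Subtype.ext hx11)
          rw [← inv_mul_eq_iff_eq_mul.2 this, hX1]
          exact Subtype.ext hcomm.symm
      · exact absurd b hn2
      · exact absurd (a.trans b.symm) hinj
  obtain ⟨y, h1, h2⟩ := key
  exact ⟨y.1, y.2, congrArg Subtype.val h1, congrArg Subtype.val h2, hcent⟩

theorem card_tri {x : PGL(2, F)} (hxL : x ∈ Lsub F) (hx0 : x ≠ 1) (hx : x * x = 1) :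
    Nat.card {y : PGL(2, F) // y ∈ Lsub F ∧ y ≠ 1 ∧ y ^ 3 = 1 ∧ (x * y) ^ 3 = 1} =
      2 * (Fintype.card F + 1) := by
  classical
  haveI : Fact (Nat.Prime 3) := ⟨Nat.prime_three⟩
  have P := poles (E := E) (p := 3) hE
  obtain ⟨-, z, w, hp, hzr, hwr, hz, hw⟩ := invol_pair hE hn hno hF hxL hx0 hx
  let W := {s : PGL(2, F) // s ∈ Lsub F ∧ s • z = w ∧ s • w = z}
  let C := {y : PGL(2, F) // y ∈ Lsub F ∧ y ≠ 1 ∧ y ^ 3 = 1 ∧ (x * y) ^ 3 = 1}
  have hW : 2 * Nat.card W = Fintype.card F + 1 := by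
    rw [card_swaps hE hn hno hF hp, (card_torus hE hp).2 hzr]
  have hmap : ∀ y : C, y.1 * x * y.1⁻¹ ∈ Lsub F ∧ (y.1 * x * y.1⁻¹) • z = w ∧ (y.1 * x * y.1⁻¹) • w = z := by
    rintro ⟨y, hyL, hy0, hy3, hxy⟩
    obtain ⟨-, hcm, -⟩ := conj_facts hx hy3 hxy
    have hL : y * x * y⁻¹ ∈ Lsub F := mul_mem (mul_mem hyL hxL) (inv_mem hyL)
    refine ⟨hL, ?_⟩
    rcases mem_pair_of_comm hE hx0 hp.1 hz hw hcm with ⟨a, b⟩ | h
    · exfalso
      have h0 : y * x * y⁻¹ ≠ 1 := fun h => hx0 (conj_eq_one_iff.1 h)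
      have hsq : (y * x * y⁻¹) * (y * x * y⁻¹) = 1 := by
        calc (y * x * y⁻¹) * (y * x * y⁻¹) = y * (x * x) * y⁻¹ := by group
          _ = 1 := by rw [hx, mul_one, mul_inv_cancel]
      have e := invol_unique hE hn hno hF hL h0 hsq hxL hx0 hx hp.1 a b hz hw
      have hc : Commute x y := (mul_inv_eq_iff_eq_mul.1 e).symm
      rw [hc.mul_pow, hy3, mul_one, pow_succ, pow_two, hx, one_mul] at hxy
      exact hx0 hxy
    · exact h
  let f : C → W := fun y => ⟨_, hmap y⟩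
  have hfib : ∀ s : W, Nat.card {y : C // f y = s} = 4 := by
    intro s
    obtain ⟨y0, hy0L, hy1, hy2, hcent⟩ := exists_three_cycle hE hn hno hF hxL hx0 hx hp hz hw s.2
    have hs0 : s.1 ≠ 1 := fun h => hp.1 (by simpa [h] using s.2.2.1)
    have hsx : x * s.1 ≠ 1 := fun h => hp.1 (by
      have := s.2.2.1
      rw [← inv_eq_of_mul_eq_one_right h, inv_eq_of_mul_eq_one_right hx, hz] at this
      exact this)
    have hss : s.1 * s.1 = 1 := P.swap_sq hp.1 s.2.2.1 s.2.2.2
    have hxs : (x * s.1) * (x * s.1) = 1 :=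
      P.swap_sq hp.1 (by rw [mul_smul, s.2.2.1, hw]) (by rw [mul_smul, s.2.2.2, hz])
    have hcomm : x * s.1 = s.1 * x := by
      have := inv_eq_of_mul_eq_one_right hxs
      rw [_root_.mul_inv_rev, inv_eq_of_mul_eq_one_right hx, inv_eq_of_mul_eq_one_right hss] at this
      exact this.symm
    let S : Set PGL(2, F) := {1, x, s.1, x * s.1}
    have hSc : ∀ v ∈ S, v ∈ Lsub F ∧ v * x = x * v ∧ v * s.1 = s.1 * v := by
      rintro v (rfl | rfl | rfl | rfl)
      · simp
      · exact ⟨hxL, rfl, hcomm⟩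
      · exact ⟨s.2.1, hcomm.symm, rfl⟩
      · exact ⟨mul_mem hxL s.2.1, by rw [mul_assoc, ← hcomm], by rw [← mul_assoc s.1, ← hcomm]⟩
    have hS : S.ncard = 4 := by
      have e1 : (1 : PGL(2, F)) ∉ ({x, s.1, x * s.1} : Set PGL(2, F)) := by
        simp only [Set.mem_insert_iff, Set.mem_singleton_iff]
        push Not
        exact ⟨hx0.symm, hs0.symm, hsx.symm⟩
      have e2 : x ∉ ({s.1, x * s.1} : Set PGL(2, F)) := by
        simp only [Set.mem_insert_iff, Set.mem_singleton_iff]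
        push Not
        exact ⟨fun h => hp.1 (by rw [← s.2.2.1, ← h, hz]), fun h => hs0 (left_eq_mul.1 h)⟩
      have e3 : s.1 ≠ x * s.1 := fun h => hx0 (right_eq_mul.1 h)
      rw [Set.ncard_insert_of_notMem e1, Set.ncard_insert_of_notMem e2, Set.ncard_pair e3]
    have hy0v : ∀ v ∈ S, y0 * v ∈ Lsub F ∧ y0 * v ≠ 1 ∧ (y0 * v) ^ 3 = 1 ∧ (x * (y0 * v)) ^ 3 = 1 ∧
        (y0 * v) * x * (y0 * v)⁻¹ = s.1 := by
      intro v hv
      obtain ⟨hvL, hvx, hvs⟩ := hSc v hv
      have a1 : (y0 * v) * x * (y0 * v)⁻¹ = s.1 := by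
        rw [← hy1, _root_.mul_inv_rev]
        calc y0 * v * x * (v⁻¹ * y0⁻¹) = y0 * (v * x) * v⁻¹ * y0⁻¹ := by simp only [mul_assoc]
          _ = y0 * x * y0⁻¹ := by rw [hvx]; group
      have a2 : (y0 * v) * s.1 * (y0 * v)⁻¹ = x * s.1 := by
        rw [← hy2, _root_.mul_inv_rev]
        calc y0 * v * s.1 * (v⁻¹ * y0⁻¹) = y0 * (v * s.1) * v⁻¹ * y0⁻¹ := by simp only [mul_assoc]
          _ = y0 * s.1 * y0⁻¹ := by rw [hvs]; group
      have hne1 : y0 * v ≠ 1 := fun h => by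
        rw [h] at a1
        exact hp.1 (by rw [← s.2.2.1, ← a1]; simp [hz])
      have a3 : (y0 * v) * (x * s.1) * (y0 * v)⁻¹ = x := by
        calc (y0 * v) * (x * s.1) * (y0 * v)⁻¹
            = ((y0 * v) * x * (y0 * v)⁻¹) * ((y0 * v) * s.1 * (y0 * v)⁻¹) := by group
          _ = x := by rw [a1, a2, hcomm, ← mul_assoc, hss, one_mul]
      set y := y0 * v with hy
      have c1 : y ^ 3 * x = x * y ^ 3 := by
        rw [← mul_inv_eq_iff_eq_mul]
        calc y ^ 3 * x * (y ^ 3)⁻¹ = y * (y * (y * x * y⁻¹) * y⁻¹) * y⁻¹ := by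
              rw [pow_succ, pow_two]; simp only [_root_.mul_inv_rev, mul_assoc]
          _ = x := by rw [a1, a2, a3]
      have c2 : y ^ 3 * s.1 = s.1 * y ^ 3 := by
        rw [← mul_inv_eq_iff_eq_mul]
        calc y ^ 3 * s.1 * (y ^ 3)⁻¹ = y * (y * (y * s.1 * y⁻¹) * y⁻¹) * y⁻¹ := by
              rw [pow_succ, pow_two]; simp only [_root_.mul_inv_rev, mul_assoc]
          _ = s.1 := by rw [a2, a3, a1]
      have hyL : y ∈ Lsub F := mul_mem hy0L hvL
      have hy3 : y ^ 3 = 1 := by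
        have hfix : y * y ^ 3 * y⁻¹ = y ^ 3 := by group
        rcases hcent _ (pow_mem hyL 3) c1 c2 with h | h | h | h
        · exact h
        · rw [h, a1] at hfix; exact absurd hfix.symm fun e => hp.1 (by rw [← s.2.2.1, ← e, hz])
        · rw [h, a2] at hfix; exact absurd (right_eq_mul.1 hfix.symm) hx0
        · rw [h, a3] at hfix; exact absurd (left_eq_mul.1 hfix) hs0
      refine ⟨hyL, hne1, hy3, ?_, a1⟩
      calc (x * y) ^ 3 = x * (y * x * y⁻¹) * (y * (y * x * y⁻¹) * y⁻¹) * y ^ 3 := by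
              rw [pow_succ, pow_two, pow_succ, pow_two]; group
        _ = 1 := by rw [a1, a2, hy3, hxs, one_mul]
    let g : S → {y : C // f y = s} := fun v =>
      ⟨⟨y0 * v.1, (hy0v _ v.2).1, (hy0v _ v.2).2.1, (hy0v _ v.2).2.2.1, (hy0v _ v.2).2.2.2.1⟩,
        Subtype.ext (hy0v _ v.2).2.2.2.2⟩
    rw [← hS, ← Nat.card_coe_set_eq]
    refine (Nat.card_congr (Equiv.ofBijective g ⟨fun a b h => Subtype.ext (mul_left_cancel
      (congrArg (fun t => t.1.1) h)), ?_⟩)).symm
    rintro ⟨⟨y, hyL, hyne, hy3, hxy⟩, hfy⟩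
    have e1 : y * x * y⁻¹ = s.1 := congrArg Subtype.val hfy
    obtain ⟨-, -, e2⟩ := conj_facts hx hy3 hxy
    rw [e1] at e2
    have hc1 : y0⁻¹ * y * x = x * (y0⁻¹ * y) := by
      rw [← mul_inv_eq_iff_eq_mul]
      calc y0⁻¹ * y * x * (y0⁻¹ * y)⁻¹ = y0⁻¹ * (y * x * y⁻¹) * y0 := by group
        _ = y0⁻¹ * (y0 * x * y0⁻¹) * y0 := by rw [e1, hy1]
        _ = x := by group
    have hc2 : y0⁻¹ * y * s.1 = s.1 * (y0⁻¹ * y) := by
      rw [← mul_inv_eq_iff_eq_mul]
      calc y0⁻¹ * y * s.1 * (y0⁻¹ * y)⁻¹ = y0⁻¹ * (y * s.1 * y⁻¹) * y0 := by group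
        _ = y0⁻¹ * (y0 * s.1 * y0⁻¹) * y0 := by rw [e2, hy2]
        _ = s.1 := by group
    exact ⟨⟨y0⁻¹ * y, hcent _ (mul_mem (inv_mem hy0L) hyL) hc1 hc2⟩,
      Subtype.ext (Subtype.ext (mul_inv_cancel_left y0 y))⟩
  haveI : Fintype W := Fintype.ofFinite W
  rw [← Nat.card_congr (Equiv.sigmaFiberEquiv f), Nat.card_sigma]
  simp only [hfib, Finset.sum_const, Finset.card_univ, smul_eq_mul, ← Nat.card_eq_fintype_card (α := W)]
  omega

theorem card_invol_tri {x : PGL(2, F)} (hx0 : x ≠ 1) (hx : x ^ 3 = 1) :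
    Nat.card {v : PGL(2, F) // v ∈ Lsub F ∧ v ≠ 1 ∧ v * v = 1 ∧ (v * x) ^ 3 = 1} = Fintype.card F := by
  classical
  haveI : Fact (Nat.Prime 3) := ⟨Nat.prime_three⟩
  haveI := Lsub_normal (F := F)
  obtain ⟨hodd, h8, h3, h27, h5⟩ := q_facts hn hno hF
  have P := poles (E := E) (p := 3) hE
  let I := {v : PGL(2, F) // v ∈ Lsub F ∧ v ≠ 1 ∧ v * v = 1}
  let C := {y : PGL(2, F) // y ≠ 1 ∧ y ^ 3 = 1}
  let R : I → C → Prop := fun v y => (v.1 * y.1) ^ 3 = 1
  have hrow : ∀ v : I, Nat.card {y : C // R v y} = 2 * (Fintype.card F + 1) := by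
    intro v
    rw [← card_tri hE hn hno hF v.2.1 v.2.2.1 v.2.2.2]
    exact Nat.card_congr
      ⟨fun y => ⟨y.1.1, mem_Lsub_of_pow hodd 3 y.1.2.2, y.1.2.1, y.1.2.2, y.2⟩,
        fun y => ⟨⟨y.1, y.2.2.1, y.2.2.2.1⟩, y.2.2.2.2⟩, fun _ => rfl, fun _ => rfl⟩
  have hconj : ∀ y : C, ∃ g : PGL(2, F), g * y.1 * g⁻¹ = trans' 1 := by
    rintro ⟨y, hy0, hy3⟩
    obtain ⟨u, hu⟩ := P.exists_fix y
    obtain ⟨a, rfl⟩ := pElem_isRat hE hy0 hy3 hu
    obtain ⟨b, hb⟩ : ∃ b : OnePoint F, a ≠ b := by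
      by_contra h
      push Not at h
      exact OnePoint.coe_ne_infty (0 : F) ((h _).symm.trans (h _))
    obtain ⟨γ, hγ, -⟩ := exists_pgl_pair hb
    have hya : y • a = a := inc_injective (E := E) (by rw [inc_smul, hu])
    have hfix : (γ * y * γ⁻¹) • (∞ : OnePoint F) = ∞ := by
      rw [← hγ, mul_smul, mul_smul, inv_smul_smul, hya]
    obtain ⟨c, r, hr, he, -, hr'⟩ := fix_inf_form hfix
    obtain rfl : r = 1 := (hr' 3).1 (by rw [conj_pow, hy3, mul_one, mul_inv_cancel])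
    have hd1 : dil (1 : F) hr = 1 := by rw [dil, mk_eq_one_iff]; exact ⟨by simp, by simp, by simp⟩
    rw [hd1, mul_one] at he
    have hc : c ≠ 0 := fun h => hy0 (by rw [h, trans'_zero, conj_eq_one_iff] at he; exact he)
    refine ⟨dil c⁻¹ (inv_ne_zero hc) * γ, ?_⟩
    rw [_root_.mul_inv_rev, show dil c⁻¹ (inv_ne_zero hc) * γ * y * (γ⁻¹ * (dil c⁻¹ (inv_ne_zero hc))⁻¹) =
      dil c⁻¹ (inv_ne_zero hc) * (γ * y * γ⁻¹) * (dil c⁻¹ (inv_ne_zero hc))⁻¹ by group, he, dil_trans',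
      inv_mul_cancel₀ hc]
  have hcol : ∀ y : C, Nat.card {v : I // R v y} = Nat.card {v : I // R v ⟨x, hx0, hx⟩} := by
    intro y
    obtain ⟨g, hg⟩ := hconj y
    obtain ⟨g', hg'⟩ := hconj ⟨x, hx0, hx⟩
    set k := g'⁻¹ * g with hk
    have hky : k * y.1 * k⁻¹ = x := by
      calc k * y.1 * k⁻¹ = g'⁻¹ * (g * y.1 * g⁻¹) * g' := by rw [hk]; group
        _ = g'⁻¹ * (g' * x * g'⁻¹) * g' := by rw [hg, hg']
        _ = x := by group
    let e : I ≃ I :=
      { toFun := fun v => ⟨k * v.1 * k⁻¹, Subgroup.Normal.conj_mem inferInstance _ v.2.1 k,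
          fun h => v.2.2.1 (conj_eq_one_iff.1 h), by
            calc k * v.1 * k⁻¹ * (k * v.1 * k⁻¹) = k * (v.1 * v.1) * k⁻¹ := by group
              _ = 1 := by rw [v.2.2.2, mul_one, mul_inv_cancel]⟩
        invFun := fun v => ⟨k⁻¹ * v.1 * k, by
            have := Subgroup.Normal.conj_mem (H := Lsub F) inferInstance _ v.2.1 k⁻¹
            rwa [inv_inv] at this,
          fun h => v.2.2.1 (by
            have := congrArg (fun t => k * t * k⁻¹) h
            simpa [mul_assoc] using this), by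
            calc k⁻¹ * v.1 * k * (k⁻¹ * v.1 * k) = k⁻¹ * (v.1 * v.1) * k := by group
              _ = 1 := by rw [v.2.2.2, mul_one, inv_mul_cancel]⟩
        left_inv := fun v => Subtype.ext (by group)
        right_inv := fun v => Subtype.ext (by group) }
    refine Nat.card_congr (e.subtypeEquiv fun v => ?_)
    show (v.1 * y.1) ^ 3 = 1 ↔ (k * v.1 * k⁻¹ * x) ^ 3 = 1
    rw [← hky, show k * v.1 * k⁻¹ * (k * y.1 * k⁻¹) = k * (v.1 * y.1) * k⁻¹ by group, conj_pow, conj_eq_one_iff]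
  have hcomm : Nat.card {p : I × C // R p.1 p.2} = Nat.card {p : C × I // R p.2 p.1} :=
    Nat.card_congr ((Equiv.prodComm I C).subtypeEquiv fun p => Iff.rfl)
  haveI : Fintype I := Fintype.ofFinite I
  haveI : Fintype C := Fintype.ofFinite C
  rw [Nat.card_congr (Equiv.subtypeProdEquivSigmaSubtype (fun (v : I) (y : C) => R v y)),
    Nat.card_congr (Equiv.subtypeProdEquivSigmaSubtype (fun (y : C) (v : I) => R v y)),
    Nat.card_sigma, Nat.card_sigma] at hcomm
  simp only [hrow, hcol, Finset.sum_const, Finset.card_univ, smul_eq_mul, ← Nat.card_eq_fintype_card (α := I), ← Nat.card_eq_fintype_card (α := C)] at hcomm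
  have hI : 2 * Nat.card I = _ := card_all_invol hE hn hno hF
  have hC : Nat.card C = _ := card_cube (F := F) hE
  rw [hC] at hcomm
  have hres : Nat.card {v : I // R v ⟨x, hx0, hx⟩} = Fintype.card F := by
    refine Nat.eq_of_mul_eq_mul_left (show 0 < Fintype.card F ^ 2 - 1 from Nat.sub_pos_of_lt
      (Nat.one_lt_pow two_ne_zero (by omega))) ?_
    rw [← hcomm, show Nat.card I * (2 * (Fintype.card F + 1)) = (2 * Nat.card I) * (Fintype.card F + 1) by ring, hI,
      show Fintype.card F ^ 2 - Fintype.card F = Fintype.card F * (Fintype.card F - 1) by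
        rw [Nat.mul_sub_one, sq],
      show Fintype.card F ^ 2 - 1 = (Fintype.card F + 1) * (Fintype.card F - 1) by
        rw [← Nat.sq_sub_sq, one_pow]]
    ring
  rw [← hres]
  exact Nat.card_congr ⟨fun v => ⟨⟨v.1, v.2.1, v.2.2.1, v.2.2.2.1⟩, v.2.2.2.2⟩,
    fun v => ⟨v.1.1, v.1.2.1, v.1.2.2.1, v.1.2.2.2, v.2⟩, fun _ => rfl, fun _ => rfl⟩

theorem sol_invol {x : PGL(2, F)} (hxL : x ∈ Lsub F) (hx0 : x ≠ 1) (hx : x * x = 1) :
    Nat.card {y : PGL(2, F) // y ∈ Lsub F ∧ Group.IsSolvable (Subgroup.closure {x, y})} =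
      Fintype.card F * (Fintype.card F + 1) := by
  classical
  haveI : Fact (Nat.Prime 3) := ⟨Nat.prime_three⟩
  obtain ⟨hodd, h8, h3, h27, h5⟩ := q_facts hn hno hF
  have P := poles (E := E) (p := 3) hE
  obtain ⟨hxr, z, w, hp, hzr, hwr, hz, hw⟩ := invol_pair hE hn hno hF hxL hx0 hx
  let S : Set PGL(2, F) := {y | y ∈ Lsub F ∧ y ∈ pairStab F z w}
  let A : Set PGL(2, F) := {y | y ∈ Lsub F ∧ y * y = 1 ∧ y ∉ pairStab F z w}
  let B : Set PGL(2, F) := (fun y => x * y) '' A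
  let C : Set PGL(2, F) := {y | y ∈ Lsub F ∧ y ≠ 1 ∧ y ^ 3 = 1 ∧ (x * y) ^ 3 = 1}
  have hxP : x ∈ pairStab F z w := Or.inl ⟨hz, hw⟩
  have hCP : ∀ y ∈ C, y ∉ pairStab F z w := by
    rintro y ⟨hyL, hy0, hy3, -⟩ (⟨a, b⟩ | ⟨a, b⟩)
    · exact hp.1 (P.pElem_fix hy0 hy3 a b).symm
    · have h2 := P.swap_sq hp.1 a b
      rw [pow_succ, pow_two, h2, one_mul] at hy3
      exact hy0 hy3
  have hset : {y | y ∈ Lsub F ∧ Group.IsSolvable (Subgroup.closure {x, y})} = S ∪ A ∪ B ∪ C := by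
    ext y
    constructor
    · rintro ⟨hyL, hs⟩
      by_cases hyP : y ∈ pairStab F z w
      · exact Or.inl (Or.inl (Or.inl ⟨hyL, hyP⟩))
      rcases cases_L hE hn hno hF (closure_pair_le_iff.2 ⟨hxL, hyL⟩) hs with
        ⟨a, ha⟩ | ⟨u, v, huv, hP⟩ | hc
      · exact absurd (closure_pair_le_iff.1 ha).1 (hxr a)
      · obtain ⟨hxU, hyU⟩ := closure_pair_le_iff.1 hP
        rcases hxU with ⟨a, b⟩ | ⟨a, b⟩
        · rw [pairStab_eq_of_fix hE hx0 hp.1 huv.1 hz hw a b] at hyU
          exact absurd hyU hyP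
        rcases hyU with ⟨c, d⟩ | ⟨c, d⟩
        · refine Or.inl (Or.inr ⟨x * y, ⟨mul_mem hxL hyL, ?_, ?_⟩, ?_⟩)
          · exact P.swap_sq huv.1 (by rw [mul_smul, c, a]) (by rw [mul_smul, d, b])
          · exact fun h => hyP (by simpa [← mul_assoc, hx] using mul_mem hxP h)
          · show x * (x * y) = y
            rw [← mul_assoc, hx, one_mul]
        · exact Or.inl (Or.inl (Or.inr ⟨hyL, P.swap_sq huv.1 c d, hyP⟩))
      · have hpow : ∀ g ∈ Subgroup.closure {x, y}, g ^ 12 = 1 := fun g hg => by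
          have := congrArg Subtype.val (pow_card_eq_one' (x := (⟨g, hg⟩ : Subgroup.closure {x, y})))
          rwa [hc] at this
        rcases sq_or_cube hE hn hno hF hyL (hpow y (Subgroup.subset_closure (by simp))) with h | h
        · exact Or.inl (Or.inl (Or.inr ⟨hyL, h, hyP⟩))
        rcases sq_or_cube hE hn hno hF (mul_mem hxL hyL) (hpow (x * y) (mul_mem
          (Subgroup.subset_closure (by simp)) (Subgroup.subset_closure (by simp)))) with h' | h'
        · refine Or.inl (Or.inr ⟨x * y, ⟨mul_mem hxL hyL, h', ?_⟩, ?_⟩)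
          · exact fun hh => hyP (by simpa [← mul_assoc, hx] using mul_mem hxP hh)
          · show x * (x * y) = y
            rw [← mul_assoc, hx, one_mul]
        · exact Or.inr ⟨hyL, fun e => hyP (e ▸ one_mem _), h, h'⟩
    · rintro (((⟨hL, h⟩ | ⟨hL, h, -⟩) | ⟨u, ⟨hL, hu, -⟩, rfl⟩) | ⟨hL, -, h, h'⟩)
      · haveI := isSolvable_pairStab hE (F := F) hp.1
        exact ⟨hL, isSolvable_closure hxP h⟩
      · exact ⟨hL, closure_dihedral hE hx (Or.inl h)⟩
      · exact ⟨mul_mem hxL hL, closure_dihedral hE hx (Or.inr (by rw [← mul_assoc x x, hx, one_mul, hu]))⟩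
      · exact ⟨hL, solvable_tri hx h h'⟩
  have h1 : Disjoint S A := Set.disjoint_left.2 fun y hy hyA => hyA.2.2 hy.2
  have h2 : Disjoint (S ∪ A) B := by
    rw [Set.disjoint_left]
    rintro y (hy | ⟨-, hy, hyP⟩) ⟨u, ⟨-, hu, huP⟩, rfl⟩
    · exact huP (by simpa [← mul_assoc, hx] using mul_mem hxP hy.2)
    · refine huP (mem_pair_of_comm hE hx0 hp.1 hz hw ?_)
      calc x * u = x * (x * u * (x * u)) * u := by rw [hy, mul_one]
        _ = x * x * (u * x) * (u * u) := by simp only [mul_assoc]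
        _ = u * x := by rw [hx, hu, one_mul, mul_one]
  have h3' : Disjoint (S ∪ A ∪ B) C := by
    rw [Set.disjoint_left]
    rintro y hy ⟨hyL, hy0, hy3, hxy⟩
    rcases hy with (hy | ⟨-, hy, -⟩) | ⟨u, ⟨-, hu, -⟩, rfl⟩
    · exact hCP y ⟨hyL, hy0, hy3, hxy⟩ hy.2
    · rw [pow_succ, pow_two, hy, one_mul] at hy3; exact hy0 hy3
    · change (x * (x * u)) ^ 3 = 1 at hxy
      change (x * u) ^ 3 = 1 at hy3
      rw [← mul_assoc, hx, one_mul, pow_succ, pow_two, hu, one_mul] at hxy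
      rw [hxy, mul_one, pow_succ, pow_two, hx, one_mul] at hy3
      exact hx0 hy3
  change Nat.card ({y | y ∈ Lsub F ∧ Group.IsSolvable (Subgroup.closure {x, y})} : Set PGL(2, F)) = _
  rw [hset, Nat.card_coe_set_eq, Set.ncard_union_eq h3', Set.ncard_union_eq h2, Set.ncard_union_eq h1,
    Set.ncard_image_of_injective _ (mul_right_injective x), ← Nat.card_coe_set_eq C,
    show Nat.card C = _ from card_tri hE hn hno hF hxL hx0 hx]
  have hT := (card_torus hE hp).2 hzr
  have hS : S.ncard = Fintype.card F + 1 := by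
    rw [← hT, ← (card_torus_L hE hn hno hF hp).2, ← Nat.card_coe_set_eq]
    exact Nat.card_congr (Equiv.subtypeEquivRight fun y => ⟨fun h => ⟨h.2, h.1⟩, fun h => ⟨h.2, h.1⟩⟩)
  let W : Set PGL(2, F) := {y | y ∈ Lsub F ∧ y • z = w ∧ y • w = z}
  have hW : 2 * W.ncard = Fintype.card F + 1 := by
    rw [← Nat.card_coe_set_eq, ← hT]; exact card_swaps hE hn hno hF hp
  let I : Set PGL(2, F) := {v | v ∈ Lsub F ∧ v ≠ 1 ∧ v * v = 1}
  have hI : 2 * I.ncard = Fintype.card F ^ 2 - Fintype.card F := by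
    rw [← Nat.card_coe_set_eq]; exact card_all_invol hE hn hno hF
  have hIeq : I = A ∪ ({x} ∪ W) := by
    ext v
    constructor
    · rintro ⟨hL, h0, h2⟩
      by_cases hv : v ∈ pairStab F z w
      · rcases hv with ⟨a, b⟩ | ⟨a, b⟩
        · exact Or.inr (Or.inl (invol_unique hE hn hno hF hL h0 h2 hxL hx0 hx hp.1 a b hz hw))
        · exact Or.inr (Or.inr ⟨hL, a, b⟩)
      · exact Or.inl ⟨hL, h2, hv⟩
    · rintro (⟨hL, h, hP⟩ | rfl | ⟨hL, a, b⟩)
      · exact ⟨hL, fun e => hP (e ▸ one_mem _), h⟩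
      · exact ⟨hxL, hx0, hx⟩
      · exact ⟨hL, fun e => hp.1 (by simpa [e] using a), P.swap_sq hp.1 a b⟩
  have hd : Disjoint A ({x} ∪ W) := by
    rw [Set.disjoint_left]
    rintro v ⟨-, -, hP⟩ (rfl | ⟨-, a, b⟩)
    · exact hP hxP
    · exact hP (Or.inr ⟨a, b⟩)
  have hd2 : Disjoint ({x} : Set PGL(2, F)) W := by
    rw [Set.disjoint_singleton_left]
    exact fun h => hp.1 (hz.symm.trans h.2.1)
  rw [hIeq, Set.ncard_union_eq hd, Set.ncard_union_eq hd2, Set.ncard_singleton] at hI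
  have hq2 : Fintype.card F ≤ Fintype.card F ^ 2 := Nat.le_self_pow two_ne_zero _
  rw [hS, mul_add (Fintype.card F) _ 1, mul_one, ← sq]
  omega

theorem sol_three {x : PGL(2, F)} (hxL : x ∈ Lsub F) (hx0 : x ≠ 1) (hx : x ^ 3 = 1) :
    2 * Nat.card {y : PGL(2, F) // y ∈ Lsub F ∧ Group.IsSolvable (Subgroup.closure {x, y})} =
      Fintype.card F * (Fintype.card F + 5) := by
  classical
  haveI : Fact (Nat.Prime 3) := ⟨Nat.prime_three⟩
  obtain ⟨hodd, h8, h3, h27, h5⟩ := q_facts hn hno hF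
  have P := poles (E := E) (p := 3) hE
  obtain ⟨u, hu⟩ := P.exists_fix x
  obtain ⟨a, rfl⟩ := pElem_isRat hE hx0 hx hu
  have ha : x • a = a := inc_injective (E := E) (by rw [inc_smul, hu])
  let T : Set PGL(2, F) := {v | v ∈ Lsub F ∧ v ≠ 1 ∧ v * v = 1 ∧ (v * x) ^ 3 = 1}
  let S : Set PGL(2, F) := {y | y ∈ Lsub F ∧ y • a = a}
  let B : Set PGL(2, F) := T ∪ (fun v => v * x) '' T ∪ (fun v => v * (x * x)) '' T
  have hxx : x * (x * x) = 1 := by rw [← hx, pow_succ, pow_two, mul_assoc]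
  have hxc : Subgroup.zpowers x ≤ stabilizer PGL(2, F) a := by rw [Subgroup.zpowers_le]; exact ha
  have hxi : ∀ g : PGL(2, F), g ∈ Subgroup.zpowers x → g = 1 ∨ g = x ∨ g = x * x := by
    rintro g ⟨i, rfl⟩
    have h1 : x ^ i = x ^ (i % 3) := by
      conv_lhs => rw [← Int.emod_add_mul_ediv i 3]
      rw [_root_.zpow_add, _root_.zpow_mul, show (x ^ (3 : ℤ)) = 1 from (zpow_natCast x 3).trans hx, _root_.one_zpow, mul_one]
    show x ^ i = 1 ∨ x ^ i = x ∨ x ^ i = x * x
    rw [h1]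
    rcases (show i % 3 = 0 ∨ i % 3 = 1 ∨ i % 3 = 2 by omega) with h | h | h <;> rw [h]
    · exact Or.inl (zpow_zero x)
    · exact Or.inr (Or.inl (zpow_one x))
    · exact Or.inr (Or.inr ((zpow_natCast x 2).trans (pow_two x)))
  have hBmem : ∀ y, y ∈ B ↔ ∃ v ∈ T, ∃ t ∈ Subgroup.zpowers x, y = v * t := by
    intro y
    constructor
    · rintro ((h | ⟨v, hv, rfl⟩) | ⟨v, hv, rfl⟩)
      · exact ⟨y, h, 1, one_mem _, (mul_one _).symm⟩
      · exact ⟨v, hv, x, Subgroup.mem_zpowers x, rfl⟩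
      · exact ⟨v, hv, x * x, mul_mem (Subgroup.mem_zpowers x) (Subgroup.mem_zpowers x), rfl⟩
    · rintro ⟨v, hv, t, ht, rfl⟩
      rcases hxi t ht with rfl | rfl | rfl
      · rw [mul_one]; exact Or.inl (Or.inl hv)
      · exact Or.inl (Or.inr ⟨v, hv, rfl⟩)
      · exact Or.inr ⟨v, hv, rfl⟩
  have hset : {y | y ∈ Lsub F ∧ Group.IsSolvable (Subgroup.closure {x, y})} = S ∪ B := by
    ext y
    constructor
    · rintro ⟨hyL, hs⟩
      by_cases hya : y • a = a
      · exact Or.inl ⟨hyL, hya⟩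
      rcases cases_L hE hn hno hF (closure_pair_le_iff.2 ⟨hxL, hyL⟩) hs with
        ⟨b, hb⟩ | ⟨s, t, hst, hP⟩ | hc
      · obtain ⟨hxb, hyb⟩ := closure_pair_le_iff.1 hb
        have : b = a := inc_injective (E := E) (P.pElem_fix hx0 hx hu (by rw [← inc_smul, mem_stabilizer_iff.1 hxb]))
        subst this
        exact absurd hyb hya
      · exfalso
        rcases (closure_pair_le_iff.1 hP).1 with ⟨c, d⟩ | ⟨c, d⟩
        · exact hst.1 (P.pElem_fix hx0 hx c d).symm
        · have := P.swap_sq hst.1 c d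
          rw [pow_succ, pow_two, this, one_mul] at hx
          exact hx0 hx
      right
      set H := Subgroup.closure ({x, y} : Set PGL(2, F)) with hH
      have hxH : x ∈ H := Subgroup.subset_closure (by simp)
      have hyH : y ∈ H := Subgroup.subset_closure (by simp)
      obtain ⟨V⟩ : Nonempty (Sylow 2 H) := inferInstance
      haveI : Fact (Nat.Prime 2) := ⟨Nat.prime_two⟩
      have hV : Nat.card (V : Subgroup H) = 4 := by
        rw [V.card_eq_multiplicity, hc, show (12 : ℕ) = 2 ^ 2 * 3 by norm_num,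
          Nat.factorization_mul (by norm_num) (by norm_num), Finsupp.add_apply,
          Nat.prime_two.factorization_pow, Nat.factorization_eq_zero_of_not_dvd (show ¬ 2 ∣ 3 by norm_num)]
        simp
      let X : H := ⟨x, hxH⟩
      have hX : orderOf X = 3 := orderOf_eq_prime (Subtype.ext hx) fun h => hx0 (congrArg Subtype.val h)
      have hdisj : Disjoint (V : Subgroup H) (Subgroup.zpowers X) := by
        rw [disjoint_iff, ← Subgroup.card_eq_one]
        have h1 := Subgroup.card_dvd_of_le (inf_le_left : (V : Subgroup H) ⊓ Subgroup.zpowers X ≤ V)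
        have h2 := Subgroup.card_dvd_of_le (inf_le_right : (V : Subgroup H) ⊓ Subgroup.zpowers X ≤ _)
        rw [hV] at h1
        rw [Nat.card_zpowers, hX] at h2
        exact Nat.eq_one_of_dvd_coprimes (by norm_num) h1 h2
      have hcompl : Subgroup.IsComplement' (V : Subgroup H) (Subgroup.zpowers X) :=
        Subgroup.isComplement'_of_disjoint_and_mul_eq_univ hdisj (by
          have hinj : Function.Injective (fun p : ↥(V : Subgroup H) × ↥(Subgroup.zpowers X) => (p.1 : H) * p.2) := by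
              intro p p' e
              have h' : (p'.1 : H)⁻¹ * p.1 = (p'.2 : H) * (p.2 : H)⁻¹ := by
                rw [eq_mul_inv_iff_mul_eq, mul_assoc, inv_mul_eq_iff_eq_mul]; exact e
              have hmem : (p'.1 : H)⁻¹ * p.1 ∈ (V : Subgroup H) ⊓ Subgroup.zpowers X :=
                Subgroup.mem_inf.2 ⟨(V : Subgroup H).mul_mem ((V : Subgroup H).inv_mem p'.1.2) p.1.2, h' ▸ (Subgroup.zpowers X).mul_mem p'.2.2 ((Subgroup.zpowers X).inv_mem p.2.2)⟩
              rw [disjoint_iff.1 hdisj, Subgroup.mem_bot] at hmem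
              refine Prod.ext (Subtype.ext (inv_mul_eq_one.1 hmem).symm) (Subtype.ext ?_)
              rw [hmem] at h'
              exact (mul_inv_eq_one.1 h'.symm).symm
          have hsurj := (Nat.bijective_iff_injective_and_card _).2 ⟨hinj, by
            rw [Nat.card_prod, hV, Nat.card_zpowers, hX, hc]⟩
          rw [Set.eq_univ_iff_forall]
          intro h
          obtain ⟨⟨v, t⟩, e⟩ := hsurj.2 h
          exact ⟨v, v.2, t, t.2, e⟩)
      obtain ⟨⟨⟨v, hv⟩, ⟨t, ht⟩⟩, hvt⟩ := hcompl.2 ⟨y, hyH⟩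
      have hyv : y = v.1 * t.1 := (congrArg Subtype.val hvt).symm
      have htx : t.1 ∈ Subgroup.zpowers x := by
        obtain ⟨i, rfl⟩ := ht; exact ⟨i, by simp [X]⟩
      have hvL : v.1 ∈ Lsub F := by
        have : v.1 = y * (t.1)⁻¹ := by rw [hyv, mul_inv_cancel_right]
        rw [this]; exact mul_mem hyL (inv_mem ((Subgroup.zpowers_le.2 hxL) htx))
      have h12 : ∀ g : H, g.1 ^ 12 = 1 := fun g => by
        have := congrArg Subtype.val (pow_card_eq_one' (x := g))
        rwa [hc] at this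
      have hv4 : v.1 ^ 4 = 1 := by
        have := congrArg (fun g : (V : Subgroup H) => g.1.1) (pow_card_eq_one' (x := (⟨v, hv⟩ : (V : Subgroup H))))
        rwa [hV] at this
      have hv0 : v.1 ≠ 1 := fun h => hya (by
        rw [hyv, h, one_mul]
        exact hxc htx)
      have hv2 : v.1 * v.1 = 1 := by
        rcases sq_or_cube hE hn hno hF hvL (h12 v) with h | h
        · exact h
        · rw [pow_succ, h, one_mul] at hv4; exact absurd hv4 hv0
      have hva : v.1 • a ≠ a := (invol_pair hE hn hno hF hvL hv0 hv2).1 a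
      refine (hBmem y).2 ⟨v.1, ⟨hvL, hv0, hv2, ?_⟩, t.1, htx, hyv⟩
      rcases sq_or_cube hE hn hno hF (mul_mem hvL hxL) (h12 (v * X)) with h | h
      · exfalso
        apply hva
        have hinv : v.1 * x * v.1 = x⁻¹ :=
          eq_inv_of_mul_eq_one_left (by rw [mul_assoc _ v.1 x]; exact h)
        have h1 : x • (v.1 • a) = v.1 • a := by
          have e : x * v.1 = v.1 * x⁻¹ := by
            rw [← hinv, ← mul_assoc, ← mul_assoc, hv2, one_mul]
          rw [← mul_smul, e, mul_smul, inv_smul_eq_iff.2 ha.symm]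
        exact inc_injective (E := E) (P.pElem_fix hx0 hx hu (by rw [← inc_smul, h1]))
      · exact h
    · rintro (⟨hL, h⟩ | h)
      · haveI := isSolvable_stab hE (F := F) (inc E a)
        exact ⟨hL, isSolvable_closure (H := stabilizer PGL(2, F) (inc E a)) hu (by rw [mem_stabilizer_iff, ← inc_smul, h])⟩
      · obtain ⟨v, ⟨hvL, -, hv2, hvx⟩, t, ht, rfl⟩ := (hBmem _).1 h
        refine ⟨mul_mem hvL ((Subgroup.zpowers_le.2 hxL) ht), ?_⟩
        haveI := solvable_tri hv2 hx hvx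
        refine isSolvable_closure (H := Subgroup.closure {v, x}) (Subgroup.subset_closure (by simp)) ?_
        exact mul_mem (Subgroup.subset_closure (by simp))
          ((Subgroup.zpowers_le.2 (Subgroup.subset_closure (by simp : x ∈ ({v, x} : Set PGL(2, F))))) ht)
  have hTa : ∀ v ∈ T, v • a ≠ a := fun v hv => (invol_pair hE hn hno hF hv.1 hv.2.1 hv.2.2.1).1 a
  have huniq : ∀ v ∈ T, ∀ v' ∈ T, ∀ t ∈ Subgroup.zpowers x, v' = v * t → t = 1 := by
    intro v hv v' hv' t ht e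
    by_contra ht0
    have h1 : t • (v • a) = v • a := by
      have h2 := hv'.2.2.1
      rw [e] at h2
      have e' : t * v = v * t⁻¹ := by
        have h3 : v * t * v = t⁻¹ := eq_inv_of_mul_eq_one_left (by rw [mul_assoc _ v t]; exact h2)
        rw [← h3, ← mul_assoc, ← mul_assoc, hv.2.2.1, one_mul]
      rw [← mul_smul, e', mul_smul, inv_smul_eq_iff.2 (mem_stabilizer_iff.1 (hxc ht)).symm]
    have ht3 : t ^ 3 = 1 := by
      obtain ⟨i, rfl⟩ := ht
      show (x ^ i) ^ 3 = 1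
      rw [← zpow_natCast, ← _root_.zpow_mul, mul_comm, _root_.zpow_mul, zpow_natCast, hx, _root_.one_zpow]
    exact hTa v hv (inc_injective (E := E) (P.pElem_fix ht0 ht3
      (by rw [← inc_smul, mem_stabilizer_iff.1 (hxc ht)]) (by rw [← inc_smul, h1])))
  have hd0 : Disjoint T ((fun v => v * x) '' T) := by
    rw [Set.disjoint_left]
    rintro _ hv ⟨v, hv', rfl⟩
    exact hx0 (huniq v hv' _ hv x (Subgroup.mem_zpowers x) rfl)
  have hd1 : Disjoint (T ∪ (fun v => v * x) '' T) ((fun v => v * (x * x)) '' T) := by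
    rw [Set.disjoint_left]
    rintro y hy ⟨v, hv, rfl⟩
    have hxx0 : x * x ≠ 1 := fun h => hx0 (by rw [h, mul_one] at hxx; exact hxx)
    rcases hy with h | ⟨v', hv', e⟩
    · exact hxx0 (huniq v hv _ h (x * x) (mul_mem (Subgroup.mem_zpowers x) (Subgroup.mem_zpowers x)) rfl)
    · refine hx0 (huniq v hv v' hv' x (Subgroup.mem_zpowers x) ?_)
      exact mul_right_cancel (b := x) (e.trans (mul_assoc v x x).symm)
  have hdS : Disjoint S B := by
    rw [Set.disjoint_left]
    rintro y ⟨-, hy⟩ hB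
    obtain ⟨v, hv, t, ht, rfl⟩ := (hBmem y).1 hB
    rw [mul_smul, mem_stabilizer_iff.1 (hxc ht)] at hy
    exact hTa v hv hy
  have hT : T.ncard = Fintype.card F := by
    rw [← Nat.card_coe_set_eq]; exact card_invol_tri hE hn hno hF hx0 hx
  have hS : 2 * S.ncard = Fintype.card F * (Fintype.card F - 1) := by
    rw [← two_mul_card_stab_Lsub hodd a, ← Nat.card_coe_set_eq]
    congr 1
    exact Nat.card_congr (Equiv.subtypeEquivRight fun y => ⟨fun h => ⟨h.2, h.1⟩, fun h => ⟨h.2, h.1⟩⟩)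
  change 2 * Nat.card ({y | y ∈ Lsub F ∧ Group.IsSolvable (Subgroup.closure {x, y})} : Set PGL(2, F)) = _
  rw [hset, Nat.card_coe_set_eq, Set.ncard_union_eq hdS, Set.ncard_union_eq hd1, Set.ncard_union_eq hd0,
    Set.ncard_image_of_injective _ (mul_left_injective x), Set.ncard_image_of_injective _ (mul_left_injective (x * x)),
    hT, mul_add, hS]
  obtain ⟨k, hk⟩ : ∃ k, Fintype.card F = k + 1 := ⟨Fintype.card F - 1, (Nat.sub_add_cancel Fintype.card_pos).symm⟩
  simp only [hk, Nat.add_sub_cancel]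
  ring

theorem sol_torus {x : PGL(2, F)} (hxL : x ∈ Lsub F) (hx0 : x ≠ 1) (hx2 : x * x ≠ 1) :
    (orderOf x ∣ Fintype.card F - 1 →
      Nat.card {y : PGL(2, F) // y ∈ Lsub F ∧ Group.IsSolvable (Subgroup.closure {x, y})} =
        Fintype.card F * (Fintype.card F - 1)) ∧
    (orderOf x ∣ Fintype.card F + 1 →
      Nat.card {y : PGL(2, F) // y ∈ Lsub F ∧ Group.IsSolvable (Subgroup.closure {x, y})} =
        Fintype.card F + 1) := by
  classical
  haveI : Fact (Nat.Prime 3) := ⟨Nat.prime_three⟩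
  obtain ⟨hodd, h8, h3, h27, h5⟩ := q_facts hn hno hF
  have P := poles (E := E) (p := 3) hE
  have hne3 : ∀ {m : ℕ}, orderOf x ∣ m → ¬ 3 ∣ m → x ^ 3 ≠ 1 := fun {m} hd hm h => by
    rcases (Nat.dvd_prime Nat.prime_three).1 (orderOf_dvd_of_pow_eq_one h) with e | e
    · exact hx0 (orderOf_eq_one_iff.1 e)
    · rw [e] at hd; exact hm hd
  have main : x ^ 3 ≠ 1 → ∃ z w : OnePoint E, IsTorusPair F z w ∧ x • z = z ∧ x • w = w ∧
      orderOf x ∣ Nat.card (torus F z w) ∧
      ∀ y ∈ Lsub F, Group.IsSolvable (Subgroup.closure {x, y}) →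
        y ∈ pairStab F z w ∨ ∃ c : OnePoint F, (inc E c = z ∨ inc E c = w) ∧ y • c = c := by
    intro hx3
    obtain ⟨z, w, hp, hz, hw⟩ := exists_fixed_torus_pair hE hx3
    refine ⟨z, w, hp, hz, hw, ?_, fun y hyL hs => ?_⟩
    · rw [← Subgroup.orderOf_mk x (Subgroup.mem_inf.2 ⟨hz, hw⟩ : x ∈ torus F z w)]; exact orderOf_dvd_natCard _
    rcases cases_L hE hn hno hF (closure_pair_le_iff.2 ⟨hxL, hyL⟩) hs with ⟨c, hc⟩ | ⟨u, v, huv, hP⟩ | hc
    · obtain ⟨hxc, hyc⟩ := closure_pair_le_iff.1 hc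
      exact Or.inr ⟨c, fix_cases hE hx0 hp.1 hz hw (by rw [← inc_smul, mem_stabilizer_iff.1 hxc]), hyc⟩
    · obtain ⟨hxP, hyP⟩ := closure_pair_le_iff.1 hP
      rcases hxP with ⟨h1, h2⟩ | ⟨h1, h2⟩
      · rw [pairStab_eq_of_fix hE hx0 hp.1 huv.1 hz hw h1 h2] at hyP; exact Or.inl hyP
      · exact absurd (P.swap_sq huv.1 h1 h2) hx2
    · have := congrArg Subtype.val (pow_card_eq_one'
        (x := (⟨x, Subgroup.subset_closure (Set.mem_insert _ _)⟩ : Subgroup.closure ({x, y} : Set PGL(2, F)))))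
      rw [hc] at this
      rcases sq_or_cube hE hn hno hF hxL this with h | h
      · exact absurd h hx2
      · exact absurd h hx3
  have hexcl : orderOf x ∣ Fintype.card F - 1 → orderOf x ∣ Fintype.card F + 1 → False := fun h h' => by
    have h2 : orderOf x ∣ 2 := by
      have := Nat.dvd_sub h' h
      rwa [show Fintype.card F + 1 - (Fintype.card F - 1) = 2 by omega] at this
    exact hx2 (by rw [← sq]; exact orderOf_dvd_iff_pow_eq_one.1 h2)
  constructor
  · intro hd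
    obtain ⟨z, w, hp, hz, hw, hdT, hcl⟩ := main (hne3 hd (by omega))
    have hzr : IsRat F z := by
      by_contra h
      rw [(card_torus hE hp).2 h] at hdT
      exact hexcl hd hdT
    obtain ⟨⟨a, ha⟩, ⟨b, hb⟩⟩ : IsRat F z ∧ IsRat F w := by
      rcases hp.2 with h | h
      · exact h
      · exact absurd hzr h.1
    subst ha hb
    have hab : a ≠ b := fun h => hp.1 (by rw [h])
    have hmem : ∀ (g : PGL(2, F)) (c d : OnePoint F), g • inc E c = inc E d ↔ g • c = d := fun g c d => by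
      rw [← inc_smul, inc_injective.eq_iff]
    let Sa : Set PGL(2, F) := {y | y ∈ Lsub F ∧ y • a = a}
    let Sb : Set PGL(2, F) := {y | y ∈ Lsub F ∧ y • b = b}
    let W : Set PGL(2, F) := {y | y ∈ Lsub F ∧ y • inc E a = inc E b ∧ y • inc E b = inc E a}
    have hset : {y | y ∈ Lsub F ∧ Group.IsSolvable (Subgroup.closure {x, y})} = Sa ∪ Sb ∪ W := by
      ext y
      constructor
      · rintro ⟨hyL, hs⟩
        rcases hcl y hyL hs with (⟨h1, -⟩ | ⟨h1, h2⟩) | ⟨c, e, hc⟩
        · exact Or.inl (Or.inl ⟨hyL, (hmem _ _ _).1 h1⟩)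
        · exact Or.inr ⟨hyL, h1, h2⟩
        · rcases e with e | e <;> rw [inc_injective.eq_iff] at e <;> subst e
          · exact Or.inl (Or.inl ⟨hyL, hc⟩)
          · exact Or.inl (Or.inr ⟨hyL, hc⟩)
      · rintro ((⟨hL, h⟩ | ⟨hL, h⟩) | ⟨hL, h1, h2⟩)
        · haveI := isSolvable_stab hE (F := F) (inc E a)
          exact ⟨hL, isSolvable_closure (H := stabilizer PGL(2, F) (inc E a)) hz ((hmem _ _ _).2 h)⟩
        · haveI := isSolvable_stab hE (F := F) (inc E b)
          exact ⟨hL, isSolvable_closure (H := stabilizer PGL(2, F) (inc E b)) hw ((hmem _ _ _).2 h)⟩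
        · haveI := isSolvable_pairStab hE (F := F) hp.1
          exact ⟨hL, isSolvable_closure (H := pairStab F (inc E a) (inc E b)) (Or.inl ⟨hz, hw⟩) (Or.inr ⟨h1, h2⟩)⟩
    have hd1 : Disjoint (Sa ∪ Sb) W := by
      rw [Set.disjoint_left]
      rintro y (⟨-, h⟩ | ⟨-, h⟩) ⟨-, h1, h2⟩
      · exact hab (h.symm.trans ((hmem _ _ _).1 h1))
      · exact hab (((hmem _ _ _).1 h2).symm.trans h)
    have hT := (card_torus hE hp).1 hzr
    have hW : 2 * W.ncard = Fintype.card F - 1 := by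
      rw [← Nat.card_coe_set_eq, ← hT]; exact card_swaps hE hn hno hF hp
    have hI : 2 * (Sa ∩ Sb).ncard = Fintype.card F - 1 := by
      rw [← hT, ← (card_torus_L hE hn hno hF hp).1, ← Nat.card_coe_set_eq]
      congr 1
      refine Nat.card_congr (Equiv.subtypeEquivRight fun y => ?_)
      exact ⟨fun h => ⟨⟨(hmem _ _ _).2 h.1.2, (hmem _ _ _).2 h.2.2⟩, h.1.1⟩,
        fun h => ⟨⟨h.2, (hmem _ _ _).1 h.1.1⟩, ⟨h.2, (hmem _ _ _).1 h.1.2⟩⟩⟩
    have hS : ∀ c : OnePoint F, 2 * ({y | y ∈ Lsub F ∧ y • c = c} : Set PGL(2, F)).ncard =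
        Fintype.card F * (Fintype.card F - 1) := fun c => by
      rw [← two_mul_card_stab_Lsub hodd c, ← Nat.card_coe_set_eq]
      congr 1
      exact Nat.card_congr (Equiv.subtypeEquivRight fun y => ⟨fun h => ⟨h.2, h.1⟩, fun h => ⟨h.2, h.1⟩⟩)
    have hu := Set.ncard_union_add_ncard_inter Sa Sb
    have h1 : 2 * Sa.ncard = _ := hS a
    have h2 : 2 * Sb.ncard = _ := hS b
    change Nat.card ({y | y ∈ Lsub F ∧ Group.IsSolvable (Subgroup.closure {x, y})} : Set PGL(2, F)) = _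
    rw [hset, Nat.card_coe_set_eq, Set.ncard_union_eq hd1]
    omega
  · intro hd
    obtain ⟨z, w, hp, hz, hw, hdT, hcl⟩ := main (hne3 hd (by omega))
    have hzr : ¬ IsRat F z := fun h => by
      rw [(card_torus hE hp).1 h] at hdT
      exact hexcl hdT hd
    have hwr : ¬ IsRat F w := by
      rcases hp.2 with h | h
      exacts [absurd h.1 hzr, h.2.1]
    rw [← (card_torus hE hp).2 hzr, ← (card_torus_L hE hn hno hF hp).2]
    refine Nat.card_congr (Equiv.subtypeEquivRight fun y => ⟨fun ⟨hyL, hs⟩ => ⟨?_, hyL⟩, fun h => ⟨h.2, ?_⟩⟩)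
    · rcases hcl y hyL hs with h | ⟨c, e | e, -⟩
      · exact h
      · exact absurd ⟨c, e⟩ hzr
      · exact absurd ⟨c, e⟩ hwr
    · haveI := isSolvable_pairStab hE (F := F) hp.1
      exact isSolvable_closure (H := pairStab F z w) (Or.inl ⟨hz, hw⟩) h.1

end

theorem transfer {G H : Type*} [Group G] [Group H] (L : Subgroup H) (e : G ≃* L) (x : G) :
    Nat.card {y : G // Group.IsSolvable (Subgroup.closure ({x, y} : Set G))} =
      Nat.card {y : H // y ∈ L ∧ Group.IsSolvable (Subgroup.closure ({(e x : H), y} : Set H))} := by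
  let φ : G →* H := L.subtype.comp e.toMonoidHom
  have hφ : Function.Injective φ := L.subtype_injective.comp e.injective
  have hiff : ∀ y : G, Group.IsSolvable (Subgroup.closure ({x, y} : Set G)) ↔
      Group.IsSolvable (Subgroup.closure ({φ x, φ y} : Set H)) := fun y => by
    have h : (Subgroup.closure ({x, y} : Set G)).map φ = Subgroup.closure {φ x, φ y} := by
      rw [MonoidHom.map_closure]; simp [Set.image_pair]
    have f := (Subgroup.closure ({x, y} : Set G)).equivMapOfInjective φ hφ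
    rw [← h]
    exact ⟨fun _ => solvable_of_surjective (f := f.toMonoidHom) f.surjective,
      fun _ => solvable_of_surjective (f := f.symm.toMonoidHom) f.symm.surjective⟩
  exact Nat.card_congr
    ⟨fun y => ⟨φ y.1, (e y.1).2, (hiff y.1).1 y.2⟩,
      fun y => ⟨e.symm ⟨y.1, y.2.1⟩, (hiff _).2 (by
        show Group.IsSolvable (Subgroup.closure ({(e x : H), (e (e.symm ⟨y.1, y.2.1⟩) : H)} : Set H))
        rw [e.apply_symm_apply]; exact y.2.2)⟩,
      fun y => Subtype.ext (by simp [φ]), fun y => Subtype.ext (by simp [φ])⟩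


/-- Let G = PSL_2(F) with F a field of order q = 3^p, p an odd prime, and for x ∈ G call the solubilizer of x the set of y ∈ G such that x and y generate a solvable subgroup. Then the solubilizer of an involution has q(q + 1) elements; that of an element of order 3 has q(q + 5)/2 elements; that of an element of order neither 1 nor 2 dividing q − 1 has q(q − 1) elements; and that of an element of order neither 1 nor 2 dividing q + 1 has q + 1 elements. -/
theorem result (p : ℕ) (hp : p.Prime) (hodd : Odd p) {F : Type*} [Field F] [Fintype F]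
    (hF : Fintype.card F = 3 ^ p) (x : Matrix.ProjectiveSpecialLinearGroup (Fin 2) F) :
    (orderOf x = 2 → Nat.card {y : Matrix.ProjectiveSpecialLinearGroup (Fin 2) F // Group.IsSolvable ↥(Subgroup.closure ({x, y} : Set (Matrix.ProjectiveSpecialLinearGroup (Fin 2) F)))} = 3 ^ p * (3 ^ p + 1)) ∧
    (orderOf x = 3 → 2 * Nat.card {y : Matrix.ProjectiveSpecialLinearGroup (Fin 2) F // Group.IsSolvable ↥(Subgroup.closure ({x, y} : Set (Matrix.ProjectiveSpecialLinearGroup (Fin 2) F)))} = 3 ^ p * (3 ^ p + 5)) ∧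
    (x ≠ 1 → orderOf x ≠ 2 → orderOf x ∣ 3 ^ p - 1 → Nat.card {y : Matrix.ProjectiveSpecialLinearGroup (Fin 2) F // Group.IsSolvable ↥(Subgroup.closure ({x, y} : Set (Matrix.ProjectiveSpecialLinearGroup (Fin 2) F)))} = 3 ^ p * (3 ^ p - 1)) ∧
    (x ≠ 1 → orderOf x ≠ 2 → orderOf x ∣ 3 ^ p + 1 → Nat.card {y : Matrix.ProjectiveSpecialLinearGroup (Fin 2) F // Group.IsSolvable ↥(Subgroup.closure ({x, y} : Set (Matrix.ProjectiveSpecialLinearGroup (Fin 2) F)))} = 3 ^ p + 1) := by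
  classical
  haveI : Fact (Nat.Prime 3) := ⟨Nat.prime_three⟩
  haveI : CharP F 3 := by
    obtain ⟨r, hr⟩ := CharP.exists F
    haveI : Fact r.Prime := ⟨CharP.char_is_prime F r⟩
    obtain ⟨k, hk, hk'⟩ := FiniteField.card F r
    have : r ∣ 3 := hk.dvd_of_dvd_pow (hF ▸ hk' ▸ dvd_pow_self r k.pos.ne')
    rwa [← (Nat.prime_dvd_prime_iff_eq hk Nat.prime_three).1 this]
  obtain ⟨E, _, _, _, hE⟩ := exists_quadExt F
  have ho : orderOf ((pslEquiv x : Lsub F) : PGL(2, F)) = orderOf x :=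
    (Subgroup.orderOf_coe _).trans (pslEquiv.orderOf_eq x)
  rw [transfer (Lsub F) pslEquiv x, ← hF, ← ho]
  have hne : x ≠ 1 → ((pslEquiv x : Lsub F) : PGL(2, F)) ≠ 1 := fun h h1 =>
    h ((map_eq_one_iff pslEquiv pslEquiv.injective).1 (Subtype.ext h1))
  set X := ((pslEquiv x : Lsub F) : PGL(2, F)) with hX
  have hXL : X ∈ Lsub F := (pslEquiv x).2
  have hX2 : x ≠ 1 → orderOf X ≠ 2 → X * X ≠ 1 := fun h h2 e => h2
    (orderOf_eq_prime (by rw [sq]; exact e) (hne h))
  refine ⟨fun h => ?_, fun h => ?_, fun h h2 hd => ?_, fun h h2 hd => ?_⟩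
  · have h1 : X ≠ 1 := fun h1 => by rw [h1, orderOf_one] at h; omega
    exact sol_invol hE hp hodd hF hXL h1 (by have := pow_orderOf_eq_one X; rwa [h, sq] at this)
  · have h1 : X ≠ 1 := fun h1 => by rw [h1, orderOf_one] at h; omega
    exact sol_three hE hp hodd hF hXL h1 (by have := pow_orderOf_eq_one X; rwa [h] at this)
  · exact (sol_torus hE hp hodd hF hXL (hne h) (hX2 h h2)).1 hd
  · exact (sol_torus hE hp hodd hF hXL (hne h) (hX2 h h2)).2 hd

end Cfsg.Agent.S2258
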