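import Cfsg.Statements.S2268


set_option autoImplicit false
open Cfsg

namespace Cfsg.Agent.S2268

/-- Let G be a finite group with an abelian Sylow p-subgroup P and let Q ≤ P. Then N_G(Q) = (N_G(Q) ∩ N_G(P))·C_G(Q), so that N_G(Q)/C_G(Q) is a homomorphic image of the subgroup (N_G(Q) ∩ N_G(P))/C_G(P) of N_G(P)/C_G(P); in particular the order of N_G(Q)/C_G(Q) divides the order of N_G(P)/C_G(P). -/
theorem result {G : Type*} [Group G] [Finite G] {p : ℕ} [Fact p.Prime]
    (P : Sylow p G) (hP : IsMulCommutative (P : Subgroup G)) (Q : Subgroup G) (hQ : Q ≤ (P : Subgroup G)) :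
    Subgroup.normalizer (Q : Set G) =
      (Subgroup.normalizer (Q : Set G) ⊓ Subgroup.normalizer ((P : Subgroup G) : Set G)) ⊔ Subgroup.centralizer (Q : Set G) ∧
    ((Subgroup.centralizer (Q : Set G)).subgroupOf (Subgroup.normalizer (Q : Set G))).index ∣ ((Subgroup.centralizer ((P : Subgroup G) : Set G)).subgroupOf (Subgroup.normalizer ((P : Subgroup G) : Set G))).index := by
  classical
  set N := Subgroup.normalizer (Q : Set G) with hN
  set NP := Subgroup.normalizer ((P : Subgroup G) : Set G) with hNP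
  set C := Subgroup.centralizer (Q : Set G) with hC
  set CP := Subgroup.centralizer ((P : Subgroup G) : Set G) with hCP
  set M := N ⊓ NP with hM
  have hCN : C ≤ N := fun c hc => Subgroup.mem_normalizer_iff.mpr fun q => by
    constructor
    · intro hq
      rw [← Subgroup.mem_centralizer_iff.mp hc q hq, mul_inv_cancel_right]
      exact hq
    · intro hq
      have e : q = c * q * c⁻¹ := by
        have e1 := Subgroup.mem_centralizer_iff.mp hc _ hq
        calc q = c⁻¹ * (c * q * c⁻¹ * c) := by group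
          _ = c⁻¹ * (c * (c * q * c⁻¹)) := by rw [← e1]
          _ = c * q * c⁻¹ := by group
      rw [e]
      exact hq
  have hPC : (P : Subgroup G) ≤ C := fun x hx => Subgroup.mem_centralizer_iff.mpr fun q hq => by
    have := hP.is_comm.comm (⟨q, hQ hq⟩ : (P : Subgroup G)) ⟨x, hx⟩
    exact congrArg Subtype.val this
  have heq : N = M ⊔ C := by
    refine le_antisymm (fun g hg => ?_) (sup_le inf_le_left hCN)
    have hgP : ((g • P : Sylow p G) : Subgroup G) ≤ C := fun z hz => by
      rw [Sylow.coe_subgroup_smul, Subgroup.mem_smul_pointwise_iff_exists] at hz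
      obtain ⟨s, hs, rfl⟩ := hz
      change g * s * g⁻¹ ∈ C
      refine Subgroup.mem_centralizer_iff.mpr fun q hq => ?_
      have hq' : g⁻¹ * q * g ∈ Q := by
        have := (Subgroup.mem_normalizer_iff.mp (inv_mem hg) q).1 hq
        rwa [inv_inv] at this
      have e := Subgroup.mem_centralizer_iff.mp (hPC hs) _ hq'
      calc q * (g * s * g⁻¹) = g * (g⁻¹ * q * g * s) * g⁻¹ := by group
        _ = g * (s * (g⁻¹ * q * g)) * g⁻¹ := by rw [e]
        _ = g * s * g⁻¹ * q := by group
    obtain ⟨c, hc⟩ := MulAction.exists_smul_eq C ((g • P).subtype hgP) (P.subtype hPC)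
    rw [Sylow.smul_subtype] at hc
    have hc' : (c : G) • (g • P) = P := Sylow.subtype_injective hc
    rw [← mul_smul] at hc'
    have hcg : (c : G) * g ∈ M := ⟨mul_mem (hCN c.2) hg, Sylow.smul_eq_iff_mem_normalizer.1 hc'⟩
    rw [show g = (c : G)⁻¹ * ((c : G) * g) by group]
    exact mul_mem (Subgroup.mem_sup_right (inv_mem c.2)) (Subgroup.mem_sup_left hcg)
  refine ⟨heq, ?_⟩
  change C.relIndex N ∣ CP.relIndex NP
  haveI : (C.subgroupOf N).Normal := ⟨fun c hc n => Subgroup.mem_centralizer_iff.mpr fun q hq => by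
    have hq' : (n : G)⁻¹ * q * n ∈ Q := by
      have := (Subgroup.mem_normalizer_iff.mp (inv_mem n.2) q).1 hq
      rwa [inv_inv] at this
    have e : (n : G)⁻¹ * q * n * (c : G) = c * ((n : G)⁻¹ * q * n) := Subgroup.mem_centralizer_iff.mp hc _ hq'
    change q * ((n : G) * c * (n : G)⁻¹) = (n : G) * c * (n : G)⁻¹ * q
    calc q * ((n : G) * c * (n : G)⁻¹) = n * ((n : G)⁻¹ * q * n * c) * (n : G)⁻¹ := by group
      _ = n * (c * ((n : G)⁻¹ * q * n)) * (n : G)⁻¹ := by rw [e]
      _ = (n : G) * c * (n : G)⁻¹ * q := by group⟩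
  have hCP_C : CP ≤ C := Subgroup.centralizer_le hQ
  have hCPM : CP ≤ M := le_inf (hCP_C.trans hCN) (fun c hc => Subgroup.mem_normalizer_iff.mpr fun x => by
    constructor
    · intro hx
      rw [← Subgroup.mem_centralizer_iff.mp hc x hx, mul_inv_cancel_right]
      exact hx
    · intro hx
      have e1 := Subgroup.mem_centralizer_iff.mp hc _ hx
      have e : x = c * x * c⁻¹ := by
        calc x = c⁻¹ * (c * x * c⁻¹ * c) := by group
          _ = c⁻¹ * (c * (c * x * c⁻¹)) := by rw [← e1]
          _ = c * x * c⁻¹ := by group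
      rw [e]
      exact hx)
  have h1 : C.relIndex N = C.relIndex M := by
    have hMN : M ≤ N := inf_le_left
    have htop : M.subgroupOf N ⊔ C.subgroupOf N = ⊤ := by
      rw [← Subgroup.subgroupOf_sup hMN hCN, ← heq, Subgroup.subgroupOf_self]
    calc C.relIndex N = (C.subgroupOf N).index := rfl
      _ = (C.subgroupOf N).relIndex (M.subgroupOf N ⊔ C.subgroupOf N) := by rw [htop, Subgroup.relIndex_top_right]
      _ = (C.subgroupOf N).relIndex (M.subgroupOf N) := Subgroup.relIndex_sup_right _ _
      _ = C.relIndex M := Subgroup.relIndex_subgroupOf hMN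
  rw [h1]
  exact (Subgroup.relIndex_dvd_of_le_left (L := M) hCP_C).trans
    (Dvd.intro (M.relIndex NP) (Subgroup.relIndex_mul_relIndex _ _ _ hCPM inf_le_right))

end Cfsg.Agent.S2268
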