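import Cfsg.Statements.S2281
import Cfsg.Agent.Lib.SpRegGen.Two

set_option autoImplicit false
open Cfsg

namespace Cfsg.Agent.S2281

/-- Let F be a finite field and n ≥ 2, excluding the case n = 2 with F of two elements (where the group is not quasisimple). Then the symplectic group Sp_2n(F) is generated by three conjugate regular unipotent elements: there are u ∈ Sp_2n(F) with u − 1 nilpotent and (u − 1)^(2n−1) ≠ 0, and g, h ∈ Sp_2n(F), such that u, g u g⁻¹ and h u h⁻¹ generate Sp_2n(F). -/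
theorem result {F : Type*} [Field F] [Fintype F] (n : ℕ) (hn : 2 ≤ n) (h22 : ¬ (n = 2 ∧ Fintype.card F = 2)) :
    ∃ u g h : Matrix.symplecticGroup (Fin n) F,
      IsNilpotent ((u : Matrix (Fin n ⊕ Fin n) (Fin n ⊕ Fin n) F) - 1) ∧
      ((u : Matrix (Fin n ⊕ Fin n) (Fin n ⊕ Fin n) F) - 1) ^ (2 * n - 1) ≠ 0 ∧
      Subgroup.closure ({u, g * u * g⁻¹, h * u * h⁻¹} : Set (Matrix.symplecticGroup (Fin n) F)) = ⊤ := by
  have hreg := Cfsg.Agent.Lib.SpRegGen.uu_regular (F := F) (n := n) (by omega)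
  obtain ⟨g, w, hg, hw, h⟩ : ∃ g w : Cfsg.Agent.Lib.SpRegGen.GG n F,
      g ∈ Cfsg.Agent.Lib.Forms.isoGroup (Cfsg.Agent.Lib.Forms.stdB n F) ∧
      w ∈ Cfsg.Agent.Lib.Forms.isoGroup (Cfsg.Agent.Lib.Forms.stdB n F) ∧
      ∀ M : Subgroup (Cfsg.Agent.Lib.SpRegGen.GG n F), Cfsg.Agent.Lib.SpRegGen.uu n F ∈ M →
        g * Cfsg.Agent.Lib.SpRegGen.uu n F * g⁻¹ ∈ M → w * Cfsg.Agent.Lib.SpRegGen.uu n F * w⁻¹ ∈ M →
        Cfsg.Agent.Lib.Forms.isoGroup (Cfsg.Agent.Lib.Forms.stdB n F) ≤ M := by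
    rcases Nat.lt_or_ge n 3 with h3 | h3
    · obtain rfl : n = 2 := by omega
      by_cases h2 : (2 : F) = 0
      · exact Cfsg.Agent.Lib.SpRegGen.gen_two_even h2 (fun h => h22 ⟨rfl, h⟩)
      · exact Cfsg.Agent.Lib.SpRegGen.gen_two_odd h2
    · exact Cfsg.Agent.Lib.SpRegGen.gen_big h3
  exact Cfsg.Agent.Lib.SpRegGen.package Cfsg.Agent.Lib.SpRegGen.uu_iso hg hw hreg.1 hreg.2 h

end Cfsg.Agent.S2281
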