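import Cfsg.Statements.S2402
import Cfsg.Agent.Lib.GLn.CycleGen

set_option autoImplicit false
open Cfsg

namespace Cfsg.Agent.S2402

/-- Explicit two-element generation of `PSL_{n+1}(K)` for a finite field `K` with more than three elements: let `k` generate the multiplicative group of `K`, `h = diag(k, k⁻¹, 1, …, 1)`, `x = 1 + E₁₂` (the elementary transvection) and `w` the monomial matrix with entries `1` in positions `(i, i+1)` and `(−1)^n` in position `(n+1, 1)`. Then `h` and `x·w` generate `SL_{n+1}(K)` modulo its centre: the subgroup they generate together with the centre is everything. -/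
theorem result {K : Type*} [Field K] [Fintype K] (hK : 3 < Fintype.card K) (n : ℕ) (hn : 1 ≤ n)
    (k : Kˣ) (hk : ∀ u : Kˣ, u ∈ Subgroup.zpowers k)
    (h x w : Matrix.SpecialLinearGroup (Fin (n + 1)) K)
    (hh : (h : Matrix (Fin (n + 1)) (Fin (n + 1)) K) =
      Matrix.diagonal (fun i => if i.val = 0 then (k : K) else if i.val = 1 then ((k⁻¹ : Kˣ) : K) else 1))
    (hx : (x : Matrix (Fin (n + 1)) (Fin (n + 1)) K) = Matrix.transvection (0 : Fin (n + 1)) (1 : Fin (n + 1)) 1)
    (hw : (w : Matrix (Fin (n + 1)) (Fin (n + 1)) K) =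
      Matrix.of (fun i j => if j.val = i.val + 1 then 1 else if i.val = n ∧ j.val = 0 then (-1) ^ n else 0)) :
    Subgroup.closure ({h, x * w} : Set (Matrix.SpecialLinearGroup (Fin (n + 1)) K)) ⊔
      Subgroup.center (Matrix.SpecialLinearGroup (Fin (n + 1)) K) = ⊤ := by
  classical
  suffices htop : Subgroup.closure ({h, x * w} : Set (Matrix.SpecialLinearGroup (Fin (n + 1)) K)) = ⊤ by
    rw [htop, top_sup_eq]
  set H := Subgroup.closure ({h, x * w} : Set (Matrix.SpecialLinearGroup (Fin (n + 1)) K)) with hH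
  have hhH : h ∈ H := Subgroup.subset_closure (by simp)
  have hyH : x * w ∈ H := Subgroup.subset_closure (by simp)
  set h01 := Cfsg.Agent.Lib.GLn.CycleGen.succ_ne (n := n) hn 0
  set L := Cfsg.Agent.Lib.GLn.CycleGen.rootParams H h01 with hL
  set d : Fin (n + 1) → K := fun i => if i.val = 0 then (k : K) else if i.val = 1 then ((k⁻¹ : Kˣ) : K) else 1
    with hd
  have e1 : (0 : Fin (n + 1)) + 1 = 1 := zero_add 1
  have hone : (1 : Fin (n + 1)).val = 1 := by simp [Nat.mod_eq_of_lt (by omega : 1 < n + 1)]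
  have hne : (0 : Fin (n + 1)) ≠ 1 := fun e => by have := congrArg Fin.val e; rw [hone] at this; simp at this
  have hk2 : (k : K) ^ 2 ≠ 1 := fun e => by
    have h1 : orderOf k ∣ 2 := orderOf_dvd_of_pow_eq_one (Units.ext (by simpa using e))
    have h2 : orderOf k = Nat.card Kˣ := orderOf_eq_card_of_forall_mem_zpowers hk
    have h3 := Nat.le_of_dvd two_pos h1
    rw [h2, Nat.card_units, Nat.card_eq_fintype_card] at h3
    omega
  have hk0 : (k : K) ≠ 0 := k.ne_zero
  have hk1 : (k : K) ≠ 1 := fun e => hk2 (by rw [e, one_pow])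
  have hd0 : d 0 = k := by simp [hd]
  have hd1 : d 1 = (k : K)⁻¹ := by
    change (if (1 : Fin (n + 1)).val = 0 then (k : K) else if (1 : Fin (n + 1)).val = 1 then ((k⁻¹ : Kˣ) : K) else 1) = _
    rw [if_neg (by rw [hone]; omega), if_pos hone, Units.val_inv_eq_inv_val]
  have hdn : ∀ i, d i ≠ 0 := fun i => by simp only [hd]; split_ifs <;> simp
  have hT : ∀ c : K, h * Matrix.SpecialLinearGroup.transvection h01 c * h⁻¹ =
      Matrix.SpecialLinearGroup.transvection h01 ((k : K) ^ 2 * c) := fun c => by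
    rw [mul_inv_eq_iff_eq_mul]
    apply Subtype.ext
    change (h : Matrix (Fin (n + 1)) (Fin (n + 1)) K) * Matrix.transvection 0 (0 + 1) c =
      Matrix.transvection 0 (0 + 1) ((k : K) ^ 2 * c) * (h : Matrix (Fin (n + 1)) (Fin (n + 1)) K)
    rw [hh, e1, Matrix.transvection, Matrix.transvection, mul_add, add_mul, mul_one, one_mul,
      Cfsg.Agent.Lib.GLn.CycleGen.diag_mul_single, Cfsg.Agent.Lib.GLn.CycleGen.single_mul_diag, hd0, hd1]
    congr 2
    field_simp
  -- the rotated torus element
  have hwd : ∀ i : Fin (n + 1), (w * h * w⁻¹ : Matrix.SpecialLinearGroup (Fin (n + 1)) K) =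
      ⟨Matrix.diagonal fun i => d (i + 1), by
        rw [Matrix.det_diagonal]
        have := h.2
        rw [hh, Matrix.det_diagonal] at this
        exact (Equiv.prod_comp (Equiv.addRight (1 : Fin (n + 1))) d).trans this⟩ := fun _ => by
    refine mul_inv_eq_of_eq_mul ?_
    apply Subtype.ext
    change (w : Matrix (Fin (n + 1)) (Fin (n + 1)) K) * (h : Matrix (Fin (n + 1)) (Fin (n + 1)) K) =
      Matrix.diagonal (fun i => d (i + 1)) * (w : Matrix (Fin (n + 1)) (Fin (n + 1)) K)
    ext i j
    rw [hh, Matrix.mul_diagonal, Matrix.diagonal_mul, Cfsg.Agent.Lib.GLn.CycleGen.w_apply hw]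
    split_ifs with e
    · subst e; ring
    · simp
  set h' : Matrix.SpecialLinearGroup (Fin (n + 1)) K := w * h * w⁻¹ with hh'
  have hh'm : (h' : Matrix (Fin (n + 1)) (Fin (n + 1)) K) = Matrix.diagonal fun i => d (i + 1) := by
    rw [hwd 0]
  have hxT : x = Matrix.SpecialLinearGroup.transvection h01 (1 : K) := Subtype.ext (hx.trans (by
    change Matrix.transvection (0 : Fin (n + 1)) 1 (1 : K) = Matrix.transvection (0 : Fin (n + 1)) (0 + 1) 1
    rw [e1]))
  have hcomm : h * h' = h' * h := Subtype.ext (by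
    simp only [Matrix.SpecialLinearGroup.coe_mul, hh'm]
    rw [hh, Matrix.diagonal_mul_diagonal, Matrix.diagonal_mul_diagonal]
    simp [mul_comm])
  set c0 : K := d (1 + 1) / d 1 - 1 with hc0
  have hc0ne : c0 ≠ 0 := by
    intro e
    rw [hc0, sub_eq_zero, div_eq_one_iff_eq (hdn 1), hd1] at e
    simp only [hd] at e
    split_ifs at e with a b
    · exact hk2 (by rw [sq]; nth_rewrite 2 [e]; exact mul_inv_cancel₀ hk0)
    · have h2 := congrArg Fin.val (show (1 : Fin (n + 1)) + 1 = 1 + 0 by rw [add_zero]; exact Fin.ext (b.trans hone.symm))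
      have := add_left_cancel (show (1 : Fin (n + 1)) + 1 = 1 + 0 from Fin.ext h2)
      exact hne this.symm
    · exact hk1 (inv_eq_one.1 e.symm)
  have hconj : x * h' * x⁻¹ = h' * Matrix.SpecialLinearGroup.transvection h01 c0 := by
    rw [mul_inv_eq_iff_eq_mul, mul_assoc, hxT]
    apply Subtype.ext
    change Matrix.transvection 0 (0 + 1) (1 : K) * (h' : Matrix (Fin (n + 1)) (Fin (n + 1)) K) =
      (h' : Matrix (Fin (n + 1)) (Fin (n + 1)) K) * (Matrix.transvection 0 (0 + 1) c0 * Matrix.transvection 0 (0 + 1) 1)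
    rw [Matrix.transvection_mul_transvection_same _ _ h01, hh'm, Matrix.transvection, Matrix.transvection, mul_add,
      add_mul, mul_one, one_mul, Cfsg.Agent.Lib.GLn.CycleGen.diag_mul_single, Cfsg.Agent.Lib.GLn.CycleGen.single_mul_diag, e1, hc0]
    congr 2
    have := hdn 1
    field_simp
    ring
  have hzH : x * h' * x⁻¹ ∈ H := by
    have e : x * h' * x⁻¹ = x * w * h * (x * w)⁻¹ := by rw [hh']; group
    rw [e]
    exact mul_mem (mul_mem hyH hhH) (inv_mem hyH)
  have hc : ((k : K) ^ 2 - 1) * c0 ∈ L := by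
    have h1 := mul_mem (inv_mem hzH) (mul_mem (mul_mem hhH hzH) (inv_mem hhH))
    rw [hconj] at h1
    have e : (h' * Matrix.SpecialLinearGroup.transvection h01 c0)⁻¹ *
        (h * (h' * Matrix.SpecialLinearGroup.transvection h01 c0) * h⁻¹) =
        Matrix.SpecialLinearGroup.transvection h01 (((k : K) ^ 2 - 1) * c0) := by
      rw [show h * (h' * Matrix.SpecialLinearGroup.transvection h01 c0) * h⁻¹ =
          h' * (h * Matrix.SpecialLinearGroup.transvection h01 c0 * h⁻¹) by
        rw [← mul_assoc h, hcomm]; group, hT, _root_.mul_inv_rev, mul_assoc, inv_mul_cancel_left,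
        Matrix.SpecialLinearGroup.transvection_inv]
      apply Subtype.ext
      change Matrix.transvection 0 (0 + 1) (-c0) * Matrix.transvection 0 (0 + 1) ((k : K) ^ 2 * c0) =
        Matrix.transvection 0 (0 + 1) (((k : K) ^ 2 - 1) * c0)
      rw [Matrix.transvection_mul_transvection_same _ _ h01]
      congr 1
      ring
    rw [e] at h1
    exact h1
  have hsq : ∀ (s c : K), c ∈ L → s ^ 2 * c ∈ L := fun s c hcL => by
    by_cases hs : s = 0
    · simp [hs, zero_mem]
    obtain ⟨i, hi⟩ := (Submonoid.mem_powers_iff _ _).1 (mem_powers_iff_mem_zpowers.2 (hk (Units.mk0 s hs)))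
    have hs' : s = (k : K) ^ i := by
      have := congrArg Units.val hi
      simpa using this.symm
    subst hs'
    clear hi hs
    induction i with
    | zero => simpa using hcL
    | succ i ih =>
      have h1 : Matrix.SpecialLinearGroup.transvection h01 (((k : K) ^ i) ^ 2 * c) ∈ H := ih
      have h2 := mul_mem (mul_mem hhH h1) (inv_mem hhH)
      rw [hT, show (k : K) ^ 2 * (((k : K) ^ i) ^ 2 * c) = ((k : K) ^ (i + 1)) ^ 2 * c by ring] at h2
      exact h2
  have hall : ∀ t : K, Matrix.SpecialLinearGroup.transvection h01 t ∈ H := fun t => by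
    set c := ((k : K) ^ 2 - 1) * c0 with hcdef
    have hcne : c ≠ 0 := mul_ne_zero (sub_ne_zero.2 hk2) hc0ne
    obtain ⟨s, r, hsr⟩ := Cfsg.Agent.Lib.GLn.CycleGen.exists_sq_add_sq (t / c)
    have h1 := add_mem (hsq s c hc) (hsq r c hc)
    rw [← add_mul, ← hsr, div_mul_cancel₀ _ hcne] at h1
    exact h1
  refine Cfsg.Agent.Lib.GLn.CycleGen.eq_top_of_root hw hn H ?_ hall
  have := mul_mem (inv_mem (hall 1)) hyH
  rwa [← hxT, inv_mul_cancel_left] at this

end Cfsg.Agent.S2402
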