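import Cfsg.Statements.S2403
import Cfsg.Agent.Lib.GLn.CycleGen

set_option autoImplicit false
open Cfsg

namespace Cfsg.Agent.S2403

/-- Explicit two-element generation of `PSL_{n+1}(K)` over the fields with two or three elements: with `x = 1 + E₁₂` and `w` the monomial matrix with entries `1` in positions `(i, i+1)` and `(−1)^n` in position `(n+1, 1)`, the elements `x` and `w` generate `SL_{n+1}(K)` modulo its centre. -/
theorem result {K : Type*} [Field K] [Fintype K] (hK : Fintype.card K ≤ 3) (n : ℕ) (hn : 1 ≤ n)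
    (x w : Matrix.SpecialLinearGroup (Fin (n + 1)) K)
    (hx : (x : Matrix (Fin (n + 1)) (Fin (n + 1)) K) = Matrix.transvection (0 : Fin (n + 1)) (1 : Fin (n + 1)) 1)
    (hw : (w : Matrix (Fin (n + 1)) (Fin (n + 1)) K) =
      Matrix.of (fun i j => if j.val = i.val + 1 then 1 else if i.val = n ∧ j.val = 0 then (-1) ^ n else 0)) :
    Subgroup.closure ({x, w} : Set (Matrix.SpecialLinearGroup (Fin (n + 1)) K)) ⊔
      Subgroup.center (Matrix.SpecialLinearGroup (Fin (n + 1)) K) = ⊤ := by
  classical

  suffices h : Subgroup.closure ({x, w} : Set (Matrix.SpecialLinearGroup (Fin (n + 1)) K)) = ⊤ by rw [h, top_sup_eq]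
  refine Cfsg.Agent.Lib.GLn.CycleGen.eq_top_of_root hw hn _ (Subgroup.subset_closure (Set.mem_insert_of_mem _ (Set.mem_singleton w))) fun t => ?_
  set H := Subgroup.closure ({x, w} : Set (Matrix.SpecialLinearGroup (Fin (n + 1)) K))
  set L := Cfsg.Agent.Lib.GLn.CycleGen.rootParams H (Cfsg.Agent.Lib.GLn.CycleGen.succ_ne hn 0) with hL
  have h01 : (0 : Fin (n + 1)) + 1 = 1 := zero_add 1
  have h1 : (1 : K) ∈ L := by
    have e : x = Matrix.SpecialLinearGroup.transvection (Cfsg.Agent.Lib.GLn.CycleGen.succ_ne hn 0) (1 : K) :=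
      Subtype.ext (hx.trans (by
        change Matrix.transvection (0 : Fin (n + 1)) 1 (1 : K) = Matrix.transvection (0 : Fin (n + 1)) (0 + 1) 1
        rw [h01]))
    change Matrix.SpecialLinearGroup.transvection _ (1 : K) ∈ H
    rw [← e]
    exact Subgroup.subset_closure (by simp)
  haveI : Fact (Nat.card K).Prime := ⟨by
    have h2 := Fintype.one_lt_card (α := K)
    rw [Nat.card_eq_fintype_card]
    interval_cases h : Fintype.card K <;> norm_num⟩
  rcases L.eq_bot_or_eq_top_of_prime_card with e | e
  · rw [e] at h1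
    exact absurd (AddSubgroup.mem_bot.1 h1) one_ne_zero
  · change t ∈ L
    rw [e]
    trivial

end Cfsg.Agent.S2403
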