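import Cfsg.Statements.S2290
import Cfsg.Agent.Lib.BoundedPres.SLnMain
import Cfsg.Agent.S2402
import Cfsg.Agent.S2403

set_option autoImplicit false
open Cfsg

namespace Cfsg.Agent.S2290

/-- Two elements generate modulo the centre. -/
theorem exists_two_gen {F : Type*} [Field F] [Fintype F] (n : ℕ) (hn : 1 ≤ n) :
    ∃ a b : Matrix.SpecialLinearGroup (Fin (n + 1)) F,
      Subgroup.closure ({a, b} : Set (Matrix.SpecialLinearGroup (Fin (n + 1)) F)) ⊔
        Subgroup.center (Matrix.SpecialLinearGroup (Fin (n + 1)) F) = ⊤ := by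
  classical
  have h01 : (0 : Fin (n + 1)) ≠ 1 := fun e => by
    have := congrArg Fin.val e
    simp [Nat.mod_eq_of_lt (by omega : 1 < n + 1)] at this
  let x : Matrix.SpecialLinearGroup (Fin (n + 1)) F := Matrix.SpecialLinearGroup.transvection h01 1
  let d : Fin (n + 1) → F := fun i => if i.val = n then (-1) ^ n else 1
  have hd : ∏ i, d i = (-1) ^ n := by
    rw [Finset.prod_eq_single (Fin.last n)]
    · simp [d]
    · intro b _ hb
      have : b.val ≠ n := fun e => hb (Fin.ext e)
      simp [d, this]
    · simp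
  let w : Matrix.SpecialLinearGroup (Fin (n + 1)) F :=
    ⟨Matrix.diagonal d * Equiv.Perm.permMatrix F (finRotate (n + 1)), by
      rw [Matrix.det_mul, Matrix.det_diagonal, hd, Matrix.det_permutation, sign_finRotate]
      push_cast
      rw [← mul_pow]; simp⟩
  have hw : (w : Matrix (Fin (n + 1)) (Fin (n + 1)) F) =
      Matrix.of (fun i j => if j.val = i.val + 1 then 1 else if i.val = n ∧ j.val = 0 then (-1) ^ n else 0) := by
    ext i j
    show (Matrix.diagonal d * Equiv.Perm.permMatrix F (finRotate (n + 1))) i j = _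
    rw [Matrix.diagonal_mul, Matrix.of_apply]
    simp only [d, Equiv.toPEquiv_apply, PEquiv.toMatrix_apply, Option.mem_def, Option.some.injEq, Fin.ext_iff,
      coe_finRotate, Fin.val_last]
    have hi := i.isLt
    have hj := j.isLt
    split_ifs <;> first | (exfalso; omega) | simp
  by_cases hK : Fintype.card F ≤ 3
  · exact ⟨x, w, Cfsg.Agent.S2403.result hK n hn x w rfl hw⟩
  · obtain ⟨k, hk⟩ := IsCyclic.exists_generator (α := Fˣ)
    let d' : Fin (n + 1) → F := fun i => if i.val = 0 then (k : F) else if i.val = 1 then ((k⁻¹ : Fˣ) : F) else 1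
    have hd' : ∏ i, d' i = 1 := by
      rw [← Finset.prod_subset (Finset.subset_univ ({0, 1} : Finset (Fin (n + 1)))), Finset.prod_pair h01]
      · have h1 : (1 : Fin (n + 1)).val = 1 := by simp [Nat.mod_eq_of_lt (by omega : 1 < n + 1)]
        simp only [d']
        rw [if_pos (Fin.val_zero _), if_neg (by omega), if_pos h1, Units.mul_inv]
      · intro i _ hi
        simp only [Finset.mem_insert, Finset.mem_singleton, not_or] at hi
        have h1 : i.val ≠ 0 := fun e => hi.1 (Fin.ext e)
        have h2 : i.val ≠ 1 := fun e => hi.2 (Fin.ext (by simp [e, Nat.mod_eq_of_lt (by omega : 1 < n + 1)]))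
        simp only [d']
        rw [if_neg h1, if_neg h2]
    let h : Matrix.SpecialLinearGroup (Fin (n + 1)) F := ⟨Matrix.diagonal d', by rw [Matrix.det_diagonal, hd']⟩
    exact ⟨h, x * w, Cfsg.Agent.S2402.result (by omega) n hn k hk h x w rfl rfl hw⟩

/-- A cyclic normal subgroup is the normal closure of one element. -/
theorem exists_normalClosure {G : Type*} [Group G] (Z : Subgroup G) [Z.Normal] [IsCyclic Z] :
    ∃ z : G, Z = Subgroup.normalClosure {z} := by
  obtain ⟨z, hz⟩ := IsCyclic.exists_generator (α := Z)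
  refine ⟨z, le_antisymm (fun c hc => ?_) (Subgroup.normalClosure_le_normal (Set.singleton_subset_iff.2 z.2))⟩
  obtain ⟨j, hj⟩ := Subgroup.mem_zpowers_iff.1 (hz ⟨c, hc⟩)
  have e : (z : G) ^ j = c := congrArg Subtype.val hj
  rw [← e]
  exact zpow_mem (Subgroup.subset_normalClosure (Set.mem_singleton (z : G))) j

/-- For every finite field F with q elements and n ≥ 2, with q ≥ 4 when n = 2, the simple group PSL_n(F) has a presentation with 2 generators and at most 80 relations. -/
theorem result {F : Type*} [Field F] [Fintype F] (n : ℕ) (hn : 2 ≤ n) (h2 : n = 2 → 4 ≤ Fintype.card F) :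
    ∃ rels : Finset (FreeGroup (Fin 2)), rels.card ≤ 80 ∧ Nonempty (PresentedGroup (↑rels : Set (FreeGroup (Fin 2))) ≃* Matrix.ProjectiveSpecialLinearGroup (Fin n) F) := by
  classical
  obtain ⟨k, rfl⟩ : ∃ k, n = k + 1 := ⟨n - 1, by omega⟩
  let π := QuotientGroup.mk' (Subgroup.center (Matrix.SpecialLinearGroup (Fin (k + 1)) F))
  haveI : IsCyclic (Subgroup.center (Matrix.SpecialLinearGroup (Fin (k + 1)) F)) := by
    let e := Matrix.SpecialLinearGroup.center_equiv_rootsOfUnity (n := Fin (k + 1)) (R := F)
    exact isCyclic_of_surjective e.symm.toMonoidHom e.symm.surjective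
  obtain ⟨z, hz⟩ := exists_normalClosure (Subgroup.center (Matrix.SpecialLinearGroup (Fin (k + 1)) F))
  have hker : π.ker = Subgroup.normalClosure {z} := (QuotientGroup.ker_mk' _).trans hz
  have hP := ((Lib.BoundedPres.SLn.sl_pres (F := F) (k + 1) hn).quotient π (QuotientGroup.mk'_surjective _) _ hker)
  obtain ⟨a, b, hab⟩ := exists_two_gen (F := F) k (by omega)
  obtain ⟨rels, hcard, e, -, -⟩ := hP.two_gen (π a) (π b) (by
    have h1 := congrArg (Subgroup.map π) hab
    rw [Subgroup.map_sup, MonoidHom.map_closure, Set.image_pair, Subgroup.map_top_of_surjective π (QuotientGroup.mk'_surjective _),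
      (Subgroup.map_eq_bot_iff _).2 (le_of_eq (QuotientGroup.ker_mk' _).symm), sup_bot_eq] at h1
    exact h1)
  exact ⟨rels, hcard.trans (by norm_num), ⟨e⟩⟩

end Cfsg.Agent.S2290
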