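import Cfsg.Statements.S2292
import Cfsg.Agent.Lib.BoundedPres.SpTwoGen

set_option autoImplicit false
open Cfsg

namespace Cfsg.Agent.S2292

/-- Let F be a finite field with q elements and m ≥ 2 with (m, q) ≠ (2, 2). Then the simple group PSp_2m(F) has a presentation with 2 generators and at most 80 relations. -/
theorem result {F : Type*} [Field F] [Fintype F] (m : ℕ) (hm : 2 ≤ m) (h22 : ¬ (m = 2 ∧ Fintype.card F = 2)) :
    ∃ rels : Finset (FreeGroup (Fin 2)), rels.card ≤ 80 ∧ Nonempty (PresentedGroup (↑rels : Set (FreeGroup (Fin 2))) ≃* Cfsg.PSp m F) := by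
  classical
  obtain ⟨a, b, hab⟩ := Agent.Lib.BoundedPres.Sp.two_gen_psp (F := F) m hm (fun e => by
    have h1 := Fintype.one_lt_card (α := F)
    have h2 : Fintype.card F ≠ 2 := fun h => h22 ⟨e, h⟩
    omega)
  have key : Agent.Lib.BoundedPres.HasPres (Cfsg.PSp m F) 59 := by
    rcases Nat.lt_or_ge m 3 with h | h
    · obtain rfl : m = 2 := by omega
      obtain ⟨-, R, hR, ⟨e⟩⟩ := Agent.Lib.SpFourPres.Main.main F
      exact (Agent.Lib.BoundedPres.HasPres.mk' R hR e).mono (by norm_num)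
    · obtain ⟨d, R, hR, he⟩ : ∃ d, Agent.Lib.BoundedPres.HasPresD (Cfsg.PSp m F) d 59 := by
        rcases Nat.lt_or_ge m 4 with h' | h'
        · obtain rfl : m = 3 := by omega
          exact ⟨_, Agent.Lib.BoundedPres.Sp.monoD
            (Agent.Lib.BoundedPres.Sp.psp_presD (by norm_num) Agent.Lib.BoundedPres.Sp.sp_three) (by norm_num)⟩
        · exact ⟨_, Agent.Lib.BoundedPres.Sp.psp_presD (by omega) (Agent.Lib.BoundedPres.Sp.sp_ten m h')⟩
      exact ⟨d, R, hR, he⟩
  obtain ⟨rels, hr, e, -, -⟩ := key.two_gen a b hab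
  exact ⟨rels, hr.trans (by norm_num), ⟨e⟩⟩

end Cfsg.Agent.S2292
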