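import Cfsg.Statements.S2332
import Cfsg.Agent.Lib.MinDegSL.Perm

set_option autoImplicit false
open Cfsg

namespace Cfsg.Agent.S2332

/-- Smallest degree of a non-linear irreducible complex representation of SL_n over a finite field with q elements, for n ≥ 3 and (n, q) not one of (3, 2), (3, 4), (4, 2), (4, 3): every irreducible complex representation of SL_n(F) of degree at least 2 has degree at least (q^n − q)/(q − 1), and there is an irreducible complex representation of exactly that degree. -/
theorem result {F : Type*} [Field F] [Fintype F] [DecidableEq F] (n : ℕ) (hn : 3 ≤ n)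
    (hex : (n, Fintype.card F) ≠ (3, 2) ∧ (n, Fintype.card F) ≠ (3, 4) ∧ (n, Fintype.card F) ≠ (4, 2) ∧ (n, Fintype.card F) ≠ (4, 3)) :
    (∀ (k : ℕ) (ρ : Representation ℂ (Matrix.SpecialLinearGroup (Fin n) F) (Fin k → ℂ)), ρ.IsIrreducible → 2 ≤ k → (Fintype.card F ^ n - Fintype.card F) / (Fintype.card F - 1) ≤ k) ∧
    (∃ ρ : Representation ℂ (Matrix.SpecialLinearGroup (Fin n) F) (Fin ((Fintype.card F ^ n - Fintype.card F) / (Fintype.card F - 1)) → ℂ), ρ.IsIrreducible) := by
  have hq : 2 ≤ Fintype.card F := Fintype.one_lt_card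
  rw [Lib.MinDegSL.target_eq_div _ n (by omega) hq]
  refine ⟨fun k ρ hirr hk => ?_, Lib.MinDegSL.exists_target n hn hex⟩
  have hne : ∃ g, ρ g ≠ 1 := by
    by_contra hc
    push Not at hc
    -- a trivial irreducible representation has dimension one
    let v : Fin k → ℂ := Pi.single ⟨0, by omega⟩ 1
    let U : Subrepresentation ρ :=
      { toSubmodule := Submodule.span ℂ {v}
        apply_mem_toSubmodule := fun g w hw => by rw [hc g]; exact hw }
    have hv : v ≠ 0 := by simp [v]
    rcases hirr.eq_bot_or_eq_top U with h | h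
    · apply hv
      have hm : v ∈ U.toSubmodule := Submodule.mem_span_singleton_self v
      rw [h] at hm
      exact (Submodule.mem_bot ℂ).1 hm
    · have h1 : Module.finrank ℂ U.toSubmodule = 1 := finrank_span_singleton hv
      rw [h, show (⊤ : Subrepresentation ρ).toSubmodule = ⊤ from rfl, finrank_top,
        Module.finrank_pi, Fintype.card_fin] at h1
      omega
  have := Lib.MinDegSL.bound n hn hex (Fin k → ℂ) ρ hne
  rwa [Module.finrank_pi, Fintype.card_fin] at this

end Cfsg.Agent.S2332
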