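import Cfsg.Statements.S2333
import Cfsg.Agent.Lib.MinDegForms.SpEven

set_option autoImplicit false
open Cfsg

namespace Cfsg.Agent.S2333

/-- For a finite field F of even order q and n ≥ 2 with (n, q) ≠ (2, 2), every irreducible complex representation of the symplectic group Sp_{2n}(F) of degree at least 2 has degree at least (q^n − 1)(q^n − q)/(2(q + 1)). -/
theorem result {F : Type*} [Field F] [Fintype F] [DecidableEq F] (n : ℕ) (hn : 2 ≤ n) (heven : Even (Fintype.card F)) (hex : (n, Fintype.card F) ≠ (2, 2)) :
    (∀ (k : ℕ) (ρ : Representation ℂ (Matrix.symplecticGroup (Fin n) F) (Fin k → ℂ)), ρ.IsIrreducible → 2 ≤ k → (Fintype.card F ^ n - 1) * (Fintype.card F ^ n - Fintype.card F) / (2 * (Fintype.card F + 1)) ≤ k) := by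
  intro k ρ hirr hk
  haveI : CharP F 2 := ringChar.of_eq (by
    rw [FiniteField.even_card_iff_char_two]
    exact Nat.even_iff.1 heven)
  have hne : ∃ g, ρ g ≠ 1 := by
    by_contra hc
    push Not at hc
    let v : Fin k → ℂ := Pi.single ⟨0, by omega⟩ 1
    let U : Subrepresentation ρ :=
      { toSubmodule := Submodule.span ℂ {v}
        apply_mem_toSubmodule := fun g w hw => by rw [hc g]; exact hw }
    have hv : v ≠ 0 := by simp [v]
    rcases hirr.eq_bot_or_eq_top U with h | h
    · apply hv
      have hm : v ∈ U.toSubmodule := Submodule.mem_span_singleton_self v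
      rw [h] at hm
      exact (Submodule.mem_bot ℂ).1 hm
    · have h1 : Module.finrank ℂ U.toSubmodule = 1 := finrank_span_singleton hv
      rw [h, show (⊤ : Subrepresentation ρ).toSubmodule = ⊤ from rfl, finrank_top,
        Module.finrank_pi, Fintype.card_fin] at h1
      omega
  have := Lib.MinDegForms.SpEven.degree_bound n ρ hne
  rw [Module.finrank_pi, Fintype.card_fin] at this
  exact Nat.div_le_of_le_mul this

end Cfsg.Agent.S2333
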