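import Cfsg.Statements.S2343
import Cfsg.Agent.Lib.ReeTori.Inst
import Cfsg.Agent.Lib.ReeMinDeg.Basic
import Cfsg.Agent.S1073

set_option autoImplicit false
open Cfsg Cfsg.Lie Cfsg.Agent.Lib Cfsg.Agent.Lib.Chev

namespace Cfsg.Agent.S2343

/-- An irreducible representation of degree at least two is not trivial. -/
theorem exists_ne_one {G : Type*} [Group G] {k : ℕ} (ρ : Representation ℂ G (Fin k → ℂ))
    (hρ : ρ.IsIrreducible) (hk : 2 ≤ k) : ∃ g, ρ g ≠ 1 := by
  by_contra! h
  haveI : IsSimpleOrder (Subrepresentation ρ) := hρ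
  have : NeZero k := ⟨by omega⟩
  let v : Fin k → ℂ := Pi.single 0 1
  let W : Subrepresentation ρ := ⟨ℂ ∙ v, fun g w hw => by simpa [h g] using hw⟩
  rcases IsSimpleOrder.eq_bot_or_eq_top W with hW | hW
  · have hv : v = 0 := by
      have h1 : (ℂ ∙ v) = ⊥ := congrArg Subrepresentation.toSubmodule hW
      rwa [Submodule.span_singleton_eq_bot] at h1
    have := congrFun hv 0
    simp [v] at this
  · have h1 : (ℂ ∙ v) = ⊤ := congrArg Subrepresentation.toSubmodule hW
    have h2 : Module.finrank ℂ (ℂ ∙ v) ≤ 1 := by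
      have := finrank_span_le_card (R := ℂ) ({v} : Set (Fin k → ℂ))
      simpa using this
    rw [h1, finrank_top, Module.finrank_fin_fun] at h2
    omega

/-- For the Ree group ²G₂(q), q = 3^(2m+1) with m ≥ 1 (realised over the field with q elements), every irreducible complex representation of degree at least 2 has degree at least q² − q + 1. -/
theorem result {K : Type*} [Field K] [Fintype K] (m : ℕ) (hm : 1 ≤ m) (hK : Fintype.card K = 3 ^ (2 * m + 1)) :
    (∀ (k : ℕ) (ρ : Representation ℂ (Cfsg.Lie.twistedG2 K (3 ^ m)) (Fin k → ℂ)), ρ.IsIrreducible → 2 ≤ k → (3 ^ (2 * m + 1)) ^ 2 - 3 ^ (2 * m + 1) + 1 ≤ k) := by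
  classical
  obtain ⟨hc, θ, hθ⟩ := G2.exists_theta hK
  haveI := hc
  obtain ⟨c, hcq, -, -⟩ := ReeTori.exists_data θ hθ hK hm
  have hsimple := (Cfsg.Agent.S1073.result hm hK).1
  obtain ⟨φ, hφ, hconj⟩ := G2.exists_torusHom θ hθ hK
  rw [G2.eq_fixed θ hθ hK] at hsimple ⊢
  haveI := hsimple
  intro k ρ hρ hk
  set e := 3 ^ m with he
  have he0 : e ≠ 0 := by positivity
  have h3 : (3 : K) = 0 := CharP.ofNat_eq_zero K 3
  haveI : Fact (Nat.Prime 3) := ⟨Nat.prime_three⟩
  let W : K → K → K → GL chevG2.Idx K := fun t u v => G2.checked.wg (reeWordU e t u v)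
  have hmem : ∀ t u v, W t u v ∈ (G2.reeTwist θ).fixed := fun t u v =>
    (Subgroup.mem_inf.1 ((G2.mem_unip_iff θ hθ hK _).2 ⟨t, u, v, rfl⟩)).2
  have hW0 : ∀ u v, W 0 u v = G2.six 0 0 (u ^ e) (v ^ e) u v := fun u v => by
    simp only [W, G2.reeWord_eq_six]; simp [zero_pow he0]
  have hW1 : ∀ t, W t 0 0 = G2.six (t ^ e) t (t ^ (e + 1)) (t ^ (2 * e + 1)) 0 0 := fun t => by
    simp only [W, G2.reeWord_eq_six]; simp [zero_pow he0]
  have hadd : ∀ x y : K, (x + y) ^ e = x ^ e + y ^ e := fun x y => add_pow_char_pow x y 3 m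
  have hmul : ∀ u v u' v', W 0 u v * W 0 u' v' = W 0 (u + u') (v + v') := fun u v u' v' => by
    rw [hW0, hW0, hW0, G2.six_mul, hadd, hadd]
    congr 1 <;> ring
  have htau : ∀ t u v, W t 0 0 * W 0 u v = W 0 u (v + t * u) * W t 0 0 := fun t u v => by
    rw [hW1, hW0, hW0, G2.six_mul, G2.six_mul, hadd, mul_pow]
    congr 1 <;> ring
  have hbij : Function.Bijective (powMonoidHom (3 * e + 2) : Kˣ →* Kˣ) :=
    Finite.injective_iff_bijective.1 ((injective_iff_map_eq_one _).2 fun z hz =>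
      G2.units_eq_one hK z (by simpa [he] using congrArg Units.val hz))
  choose root hroot using fun z : Kˣ => hbij.2 z
  choose tor htor using fun z : Kˣ => hφ.2 z
  have hconj' : ∀ (z : Kˣ) (v : K),
      (tor z : GL chevG2.Idx K) * W 0 0 v = W 0 0 ((z : K) ^ (3 * e + 2) * v) * (tor z : GL chevG2.Idx K) := by
    intro z v
    have := hconj (tor z) 0 0 v
    simp only [htor, mul_zero] at this
    rw [mul_inv_eq_iff_eq_mul] at this
    exact this
  let liftT : Kˣ → ↥(G2.reeTwist θ).fixed := fun z => ⟨_, (Subgroup.mem_inf.1 (tor z).2).2⟩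
  have hj2 : liftT (-1) * liftT (-1) = 1 := by
    have h1 : tor (-1) * tor (-1) = 1 := hφ.1 (by rw [map_mul, htor, map_one, neg_one_mul, neg_neg])
    exact Subtype.ext (congrArg Subtype.val h1 :)
  have hj1 : liftT (-1) ≠ 1 := by
    intro h
    have h1 : tor (-1) = 1 := Subtype.ext (congrArg Subtype.val h :)
    have h2 := htor (-1)
    rw [h1, map_one] at h2
    have h' : (1 : K) = -1 := by simpa using congrArg Units.val h2
    exact one_ne_zero (by linear_combination -h' + h3 : (1 : K) = 0)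
  obtain ⟨k0, hk0⟩ := c.invol _ hj2 hj1
  haveI : Fact (Nat.Prime 2) := ⟨Nat.prime_two⟩
  obtain ⟨P⟩ : Nonempty (Sylow 2 ↥(G2.reeTwist θ).fixed) := inferInstance
  have hodd : Odd (3 * e + 2) :=
    ((by decide : Odd 3).mul ((by decide : Odd 3).pow)).add_even (by decide)
  have h := ReeMinDeg.min_degree ρ (exists_ne_one ρ hρ hk)
    (fun u v => ⟨W 0 u v, hmem _ _ _⟩) (Subtype.ext (G2.reeWord_zero he0))
    (fun u v u' v' => Subtype.ext (hmul u v u' v'))
    (fun h => by
      have h1 : W 0 0 1 = 1 := congrArg Subtype.val h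
      rw [← G2.reeWord_zero (K := K) he0] at h1
      exact one_ne_zero (G2.reeWord_inj h1).2.2)
    (fun t => ⟨W t 0 0, hmem _ _ _⟩) (fun t u v => Subtype.ext (htau t u v))
    (fun z => liftT (root z)) (fun z v => Subtype.ext (by
      have h1 : ((root z : Kˣ) : K) ^ (3 * e + 2) = z := by simpa using congrArg Units.val (hroot z)
      have := hconj' (root z) v
      rw [h1] at this
      exact this))
    (liftT (-1)) (fun v => Subtype.ext (by
      have := hconj' (-1) v
      rw [Units.val_neg, Units.val_one, hodd.neg_one_pow, neg_one_mul] at this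
      exact this))
    (fun h2 => one_ne_zero (by linear_combination -h2 + h3 : (1 : K) = 0))
    (fun x hx hx1 => by
      obtain ⟨l, hl⟩ := c.invol x hx hx1
      exact ⟨l * k0⁻¹, by rw [← hl, ← hk0]; group⟩)
    (P : Subgroup ↥(G2.reeTwist θ).fixed) (c.syl2 P).1 (c.syl2 P).2 (by rw [hK, ← hcq]; exact c.hq8)
  rwa [Module.finrank_fin_fun, hK] at h

end Cfsg.Agent.S2343
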