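import Cfsg.Statements.S2347
import Cfsg.Agent.Lib.MinDegForms.Weil
import Mathlib.RepresentationTheory.Maschke

set_option autoImplicit false
open Cfsg

namespace Cfsg.Agent.S2347

/-- Smallest degree of a non-linear irreducible complex representation of the symplectic group Sp_{2n} over a finite field of odd order q, n ≥ 2: every irreducible complex representation of degree at least 2 has degree at least (q^n − 1)/2, and there is an irreducible complex representation of exactly that degree (a Weil representation). -/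
theorem result {F : Type*} [Field F] [Fintype F] [DecidableEq F] (n : ℕ) (hn : 2 ≤ n) (hodd : Odd (Fintype.card F)) :
    (∀ (k : ℕ) (ρ : Representation ℂ (Matrix.symplecticGroup (Fin n) F) (Fin k → ℂ)), ρ.IsIrreducible → 2 ≤ k → (Fintype.card F ^ n - 1) / 2 ≤ k) ∧
    (∃ ρ : Representation ℂ (Matrix.symplecticGroup (Fin n) F) (Fin ((Fintype.card F ^ n - 1) / 2) → ℂ), ρ.IsIrreducible) := by
  classical
  have h2 : (2 : F) ≠ 0 := Ring.two_ne_zero (by
    intro h
    rw [FiniteField.even_card_iff_char_two] at h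
    exact Nat.not_even_iff_odd.2 hodd (Nat.even_iff.2 h))
  set q := Fintype.card F with hq
  refine ⟨fun k ρ hirr hk => ?_, ?_⟩
  · have := Lib.MinDegForms.sp_odd_bound hn hodd ρ hirr hk
    rw [← hq] at this
    omega
  have hψ : AddChar.FiniteField.primitiveChar_to_Complex F ≠ 1 := fun h =>
    (AddChar.FiniteField.primitiveChar_to_Complex_isPrimitive F) (one_ne_zero (α := F))
      (by rw [h]; ext; simp)
  obtain ⟨σ, hσ⟩ := Lib.MinDegForms.Weil.exists_odd_rep (n := n) h2 hψ
  obtain ⟨m, hm⟩ : Odd (q ^ n) := hodd.pow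
  set N := (q ^ n - 1) / 2 with hN
  have hdim : Module.finrank ℂ (Lib.MinDegForms.Weil.half F n (-1 : ℂ)) = N := by
    have h := Lib.MinDegForms.Weil.finrank_half (F := F) (n := n) h2 (s := -1) (by ring)
    have h' : ((2 * Module.finrank ℂ (Lib.MinDegForms.Weil.half F n (-1 : ℂ)) + 1 : ℕ) : ℂ) =
        ((q ^ n : ℕ) : ℂ) := by
      push_cast
      linear_combination h
    have := Nat.cast_injective h'
    omega
  let e := (Module.finBasisOfFinrankEq ℂ (Lib.MinDegForms.Weil.half F n (-1 : ℂ)) hdim).equivFun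
  let τ : Representation ℂ (Matrix.symplecticGroup (Fin n) F) (Fin N → ℂ) :=
    (LinearEquiv.conjAlgEquiv ℂ e).toAlgHom.toRingHom.toMonoidHom.comp σ
  have hτ : ∃ g, τ g ≠ 1 := by
    obtain ⟨g, hg⟩ := hσ hn
    refine ⟨g, fun h => hg ?_⟩
    apply (LinearEquiv.conjAlgEquiv ℂ e).injective
    rw [map_one]
    exact h
  refine ⟨τ, ?_⟩
  obtain ⟨g, hg⟩ := hτ
  haveI : Fintype (Matrix.symplecticGroup (Fin n) F) := Fintype.ofFinite _
  haveI : NeZero (Nat.card (Matrix.symplecticGroup (Fin n) F) : ℂ) :=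
    ⟨Nat.cast_ne_zero.2 Nat.card_pos.ne'⟩
  have hne : (⊥ : Subrepresentation τ) ≠ ⊤ := by
    intro e'
    apply hg
    apply LinearMap.ext
    intro v
    have hv : v ∈ (⊤ : Subrepresentation τ).toSubmodule := trivial
    rw [← e'] at hv
    have : v = 0 := (Submodule.mem_bot ℂ).1 hv
    simp [this]
  refine { exists_pair_ne := ⟨⊥, ⊤, hne⟩, eq_bot_or_eq_top := fun U => ?_ }
  by_contra hc
  push Not at hc
  obtain ⟨U', hU'⟩ := exists_isCompl U
  have hco : IsCompl U.toSubmodule U'.toSubmodule :=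
    ⟨disjoint_iff.2 (congrArg Subrepresentation.toSubmodule hU'.1.eq_bot),
      codisjoint_iff.2 (congrArg Subrepresentation.toSubmodule hU'.2.eq_top)⟩
  have hpos : ∀ {W : Subrepresentation τ}, W ≠ ⊥ → 0 < Module.finrank ℂ W.toSubmodule := fun {W} hW => by
    rw [Nat.pos_iff_ne_zero]
    intro h0
    exact hW (Subrepresentation.toSubmodule_injective (Submodule.finrank_eq_zero.1 h0))
  have hU'0 : U' ≠ ⊥ := fun e' => hc.2 (by simpa [e'] using hU'.sup_eq_top)
  have hsum := Submodule.finrank_add_eq_of_isCompl hco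
  rw [Module.finrank_pi, Fintype.card_fin] at hsum
  have h0 := hpos hc.1
  have h1 := hpos hU'0
  have htriv : ∀ {W : Subrepresentation τ}, Module.finrank ℂ W.toSubmodule < N →
      ∀ a, W.toRepresentation a = 1 := fun {W} hW => by
    by_contra h
    push Not at h
    have := Lib.MinDegForms.sp_odd_bound_of_nontrivial hn hodd W.toRepresentation h
    rw [← hq] at this
    omega
  apply hg
  apply LinearMap.ext
  intro v
  obtain ⟨a, ha', b, hb', rfl⟩ : ∃ a ∈ U.toSubmodule, ∃ b ∈ U'.toSubmodule, a + b = v :=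
    Submodule.mem_sup.1 (by rw [hco.sup_eq_top]; trivial)
  have e1 : τ g a = a :=
    congrArg Subtype.val (LinearMap.congr_fun (htriv (W := U) (by omega) g) ⟨a, ha'⟩)
  have e2 : τ g b = b :=
    congrArg Subtype.val (LinearMap.congr_fun (htriv (W := U') (by omega) g) ⟨b, hb'⟩)
  simp [e1, e2]

end Cfsg.Agent.S2347
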