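import Cfsg.Statements.S2371

import Cfsg.Agent.Lib.G2.LongSL3
set_option autoImplicit false
open Cfsg

namespace Cfsg.Agent.S2371


open Cfsg.Lie Cfsg.Agent.Lib.Chev Cfsg.Agent.Lib

noncomputable section

/-- the exponent of a root reduced modulo `q ^ 2 + q + 1` -/
def expo (q : ℕ) : ℕ → ℕ
  | 0 => q * q - 1
  | 1 => q * q - q
  | 2 => q * q
  | 3 => q * q + q
  | 4 => q * q + 1
  | 5 => q - 1
  | 6 => q * q + 2
  | 7 => q
  | 8 => 1
  | 9 => q + 1
  | 10 => 2 * q + 1
  | _ => q + 2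

theorem expo_spec {q : ℕ} (hq : 3 ≤ q) :
    (∀ r < 12, 0 < expo q r ∧ expo q r < q ^ 2 + q + 1 ∧
      ((q ^ 2 + q + 1 : ℕ) : ℤ) ∣ ((G2.wt r 0 + q * G2.wt r 1 + q * q * G2.wt r 2) - expo q r)) ∧
    ∀ r < 12, ∀ s < 12, expo q r = expo q s → r = s := by
  rcases eq_or_lt_of_le hq with rfl | h4
  · decide +kernel
  have hQ : 4 * q ≤ q * q := Nat.mul_le_mul_right q h4
  constructor
  · intro r hr
    have h2 : q ^ 2 = q * q := by ring
    interval_cases r <;> refine ⟨by simp only [expo]; omega, by simp only [expo]; omega, ?_⟩ <;>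
      simp only [expo, G2.wt, G2.rootPos] <;>
      (try rw [Nat.cast_sub (by omega)]) <;> push_cast <;> simp <;>
      first
        | (refine ⟨0, ?_⟩; ring1)
        | (refine ⟨-1, ?_⟩; ring1)
        | (refine ⟨1, ?_⟩; ring1)
  · intro r hr s hs h
    interval_cases r <;> interval_cases s <;> first | rfl | (simp only [expo] at h; omega)

section
variable {F : Type*} [Field F] [Finite F] {L : Type*} [Field L] [Algebra F L]

/-- the matrix of conjugates of a basis -/
def conjMat (q : ℕ) (b : Module.Basis (Fin 3) F L) : Matrix (Fin 3) (Fin 3) L :=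
  fun i j => b j ^ (q ^ (i : ℕ))

variable {q : ℕ} {σ : L ≃ₐ[F] L} (hσ : ∀ i : ℕ, ∀ x, (σ ^ i) x = x ^ (q ^ i))
include hσ

theorem conjMat_mul (b : Module.Basis (Fin 3) F L) (l : L) :
    conjMat q b * (Algebra.leftMulMatrix b l).map (algebraMap F L) =
      Matrix.diagonal (fun i : Fin 3 => l ^ (q ^ (i : ℕ))) * conjMat q b := by
  ext i j
  rw [Matrix.diagonal_mul, Matrix.mul_apply]
  calc ∑ k, conjMat q b i k * ((Algebra.leftMulMatrix b l).map (algebraMap F L)) k j
      = ∑ k, (σ ^ (i : ℕ)) (b.repr (l * b j) k • b k) := by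
        refine Finset.sum_congr rfl fun k _ => ?_
        rw [Algebra.smul_def, map_mul, AlgEquiv.commutes, hσ, Matrix.map_apply,
          Algebra.leftMulMatrix_eq_repr_mul, conjMat, mul_comm]
    _ = (σ ^ (i : ℕ)) (l * b j) := by rw [← map_sum, b.sum_repr]
    _ = _ := by rw [hσ, mul_pow]; rfl

theorem conjMat_det (b : Module.Basis (Fin 3) F L)
    (hd : ∀ i j : Fin 3, (∀ x : L, x ^ (q ^ (i : ℕ)) = x ^ (q ^ (j : ℕ))) → i = j) :
    (conjMat q b).det ≠ 0 := by
  intro h0
  obtain ⟨v, hv0, hv⟩ := Matrix.exists_vecMul_eq_zero_iff.2 h0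
  refine hv0 ?_
  let f : Fin 3 → (L →* L) := fun i => ((σ ^ (i : ℕ) : L ≃ₐ[F] L) : L →* L)
  have hf : Function.Injective f := fun i j e => hd i j fun x => by
    rw [← hσ, ← hσ]; exact DFunLike.congr_fun e x
  have hli := Fintype.linearIndependent_iff.1 ((linearIndependent_monoidHom L L).comp f hf) v
  let T : L →ₗ[F] L := ∑ i : Fin 3, (LinearMap.mulLeft F (v i)).comp (σ ^ (i : ℕ) : L ≃ₐ[F] L).toLinearMap
  have hT : T = 0 := b.ext fun j => by
    simp only [T, LinearMap.sum_apply, LinearMap.comp_apply, LinearMap.mulLeft_apply,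
      AlgEquiv.toLinearMap_apply, hσ, LinearMap.zero_apply]
    exact congrFun hv j
  funext i
  refine hli ?_ i
  funext x
  have e := DFunLike.congr_fun hT x
  simp only [T, LinearMap.sum_apply, LinearMap.comp_apply, LinearMap.mulLeft_apply,
    AlgEquiv.toLinearMap_apply, LinearMap.zero_apply] at e
  simp only [Finset.sum_apply, Pi.smul_apply, smul_eq_mul, Pi.zero_apply]
  exact e

end

end

/-- The group G₂(q), q ≥ 3, contains a cyclic subgroup of order q² + q + 1 which is its own centralizer. -/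
theorem result {F : Type*} [Field F] [Fintype F] (q : ℕ) (hF : Fintype.card F = q) (hq : 3 ≤ q) :
    ∃ H : Subgroup ↥(Cfsg.Lie.chevG2.group F), IsCyclic ↥H ∧ Nat.card ↥H = q ^ 2 + q + 1 ∧
      Subgroup.centralizer (H : Set ↥(Cfsg.Lie.chevG2.group F)) = H := by
  classical
  obtain ⟨p, hp⟩ := CharP.exists F
  haveI : Fact p.Prime := ⟨CharP.char_is_prime F p⟩
  let L := FiniteField.Extension F p 3
  haveI : Fintype L := Fintype.ofFinite L
  let C := G2.checked
  let n := q ^ 2 + q + 1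
  have hFq : Nat.card F = q := by rw [Nat.card_eq_fintype_card, hF]
  have hLq : Fintype.card L = q ^ 3 := by
    rw [← Nat.card_eq_fintype_card, FiniteField.natCard_extension, hFq]
  have hq3 : ∀ x : L, x ^ q ^ 3 = x := fun x => by rw [← hLq]; exact FiniteField.pow_card x
  let σ := FiniteField.Extension.frob F p 3
  have hσ : ∀ i : ℕ, ∀ x, (σ ^ i) x = x ^ (q ^ i) := fun i x => by
    rw [← hFq]; exact FiniteField.Extension.frob_iterate_apply F p 3 i
  let b : Module.Basis (Fin 3) F L :=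
    Module.finBasisOfFinrankEq F L (FiniteField.finrank_extension F p 3)
  have hcardu : Nat.card Lˣ = (q - 1) * n := by
    rw [Nat.card_units, Nat.card_eq_fintype_card, hLq]
    obtain ⟨a, rfl⟩ : ∃ a, q = a + 1 := ⟨q - 1, by omega⟩
    rw [Nat.add_sub_cancel]
    refine Nat.sub_eq_of_eq_add ?_
    simp only [n]; ring
  -- the conjugate matrix
  have hd : ∀ i j : Fin 3, (∀ x : L, x ^ (q ^ (i : ℕ)) = x ^ (q ^ (j : ℕ))) → i = j := by
    intro i j h
    obtain ⟨z, hz⟩ := IsCyclic.exists_generator (α := Lˣ)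
    have ho := orderOf_eq_card_of_forall_mem_zpowers hz
    rw [hcardu] at ho
    have hlt : ∀ i : Fin 3, q ^ (i : ℕ) < (q - 1) * n := fun i => by
      have h1 : q ^ (i : ℕ) ≤ q ^ 2 := Nat.pow_le_pow_right (by omega) (by omega)
      have h2 : 2 * n ≤ (q - 1) * n := Nat.mul_le_mul_right n (by omega)
      simp only [n] at h2 ⊢; omega
    have he : z ^ q ^ (i : ℕ) = z ^ q ^ (j : ℕ) := Units.ext (by simpa using h (z : L))
    have := pow_injOn_Iio_orderOf (x := z) (by rw [Set.mem_Iio, ho]; exact hlt i)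
      (by rw [Set.mem_Iio, ho]; exact hlt j) he
    exact Fin.ext (Nat.pow_right_injective (by omega) this)
  let P := conjMat q b
  let c : Fin 3 → L := ![P.det⁻¹, 1, 1]
  let P' := Matrix.diagonal c * P
  have hP0 : P.det ≠ 0 := conjMat_det hσ b hd
  have hP' : P'.det = 1 := by
    simp [P', Matrix.det_mul, Matrix.det_diagonal, Fin.prod_univ_three, c]
    exact inv_mul_cancel₀ hP0
  obtain ⟨Pu, hPu⟩ : IsUnit P' := (Matrix.isUnit_iff_isUnit_det _).2 (by rw [hP']; exact isUnit_one)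
  have hrel : ∀ l : L, P' * (Algebra.leftMulMatrix b l).map (algebraMap F L) =
      Matrix.diagonal (fun i : Fin 3 => l ^ (q ^ (i : ℕ))) * P' := fun l => by
    rw [Matrix.mul_assoc, conjMat_mul hσ, ← Matrix.mul_assoc, ← Matrix.mul_assoc,
      (Matrix.commute_diagonal c _).eq]
  have hdet : ∀ l : L, algebraMap F L (Algebra.leftMulMatrix b l).det = l ^ n := fun l => by
    have h := congrArg Matrix.det (hrel l)
    rw [Matrix.det_mul P', Matrix.det_mul _ P', hP', one_mul, mul_one, Matrix.det_diagonal,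
      Fin.prod_univ_three] at h
    rw [RingHom.map_det, RingHom.mapMatrix_apply, h]
    simp only [n, Fin.val_zero, Fin.val_one, Fin.val_two]
    ring
  -- the subgroup
  let U : Subgroup Lˣ := (powMonoidHom n).ker
  let ψ : Lˣ →* GL (Fin 3) F := Units.map (Algebra.leftMulMatrix b).toMonoidHom
  have hmem : ∀ u : U, ((G2.phi F).comp (ψ.comp U.subtype)) u ∈ chevG2.group F := fun u => by
    refine G2.phi_sl_mem_group C ((algebraMap F L).injective ?_)
    rw [map_one]
    refine (hdet ((u : Lˣ) : L)).trans ?_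
    rw [← Units.val_pow_eq_pow_val, show (u : Lˣ) ^ n = 1 from u.2, Units.val_one]
  let Θ : U →* chevG2.group F := ((G2.phi F).comp (ψ.comp U.subtype)).codRestrict _ hmem
  have hψ : Function.Injective ψ := fun a a' e => Units.ext
    (Algebra.leftMulMatrix_injective b (congrArg Units.val e))
  have hΘ : Function.Injective Θ := fun a a' e => Subtype.ext (hψ (G2.phi_injective F
    (congrArg Subtype.val e)))
  have hcardU : Nat.card U = n := by
    show Nat.card (powMonoidHom n : Lˣ →* Lˣ).ker = n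
    rw [IsCyclic.card_powMonoidHom_ker, hcardu, Nat.gcd_mul_left_left]
  haveI : IsCyclic U := Subgroup.isCyclic U
  refine ⟨Θ.range, isCyclic_of_surjective _ Θ.rangeRestrict_surjective,
    (Nat.card_congr (MonoidHom.ofInjective hΘ).toEquiv).symm.trans hcardU,
    le_antisymm (fun g hg => ?_) ?_⟩
  swap
  · rintro _ ⟨u, rfl⟩
    rw [Subgroup.mem_centralizer_iff]
    rintro _ ⟨u', rfl⟩
    rw [← map_mul, ← map_mul, mul_comm]
  obtain ⟨z, hz⟩ := IsCyclic.exists_generator (α := U)
  have hoz : orderOf (z : Lˣ) = n := by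
    rw [Subgroup.orderOf_coe, orderOf_eq_card_of_forall_mem_zpowers hz, hcardU]
  let f := algebraMap F L
  let dd : Fin 3 → Lˣ := fun i => (z : Lˣ) ^ (q ^ (i : ℕ))
  have hprod : dd 0 * dd 1 * dd 2 = 1 := by
    simp only [dd, ← pow_add, Fin.val_zero, Fin.val_one, Fin.val_two]
    rw [show q ^ 0 + q ^ 1 + q ^ 2 = n by simp only [n]; ring]
    exact z.2
  let gh : GL chevG2.Idx L := gmap chevG2 f ((Θ z).1)
  let gg : GL chevG2.Idx L := gmap chevG2 f g.1
  let φP := G2.phi L Pu
  have hφP : φP ∈ chevG2.group L := G2.phi_sl_mem_group C (by rw [hPu]; exact hP')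
  have hconj : φP * gh = G2.phi L (G2.dGL dd) * φP := by
    show G2.phi L Pu * gmap chevG2 f (G2.phi F (ψ z)) = _
    rw [G2.phi_map, ← map_mul, ← map_mul]
    congr 1
    refine Units.ext ?_
    rw [Units.val_mul, Units.val_mul, hPu]
    refine (hrel ((z : Lˣ) : L)).trans ?_
    simp [G2.dGL, dd]
  have hcomm : gh * gg = gg * gh := by
    rw [← map_mul, ← map_mul]
    exact congrArg (gmap chevG2 f) (congrArg Subtype.val
      ((Subgroup.mem_centralizer_iff.1 hg) (Θ z) ⟨z, rfl⟩))
  let g' := φP * gg * φP⁻¹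
  have hg' : g' ∈ chevG2.group L := mul_mem (mul_mem hφP (C.gmap_group f g.2)) (inv_mem hφP)
  have hgc : G2.phi L (G2.dGL dd) * g' = g' * G2.phi L (G2.dGL dd) := by
    rw [show G2.phi L (G2.dGL dd) = φP * gh * φP⁻¹ by rw [hconj, mul_inv_cancel_right]]
    calc φP * gh * φP⁻¹ * (φP * gg * φP⁻¹) = φP * (gh * gg) * φP⁻¹ := by group
      _ = φP * (gg * gh) * φP⁻¹ := by rw [hcomm]
      _ = _ := by simp only [g']; group
  have hdiag : G2.phi L (G2.dGL dd) ∈ chevG2.diagonalSubgroup L :=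
    (G2.diag_iff C _).2 ⟨dd, hprod, rfl⟩
  obtain ⟨χ, hχ, eχ⟩ := C.exists_chr hdiag
  have hn12 : chevG2.nroots = 12 := by decide +kernel
  have hχv : ∀ v < 12, χ v = G2.dChr dd v := by
    intro v hv
    have e := congrFun (congrFun (eχ.symm.trans (G2.phi_diag dd)) (.inr ⟨v, by omega⟩)) (.inr ⟨v, by omega⟩)
    simpa [dg] using e
  obtain ⟨hex1, hex2⟩ := expo_spec hq
  have hchi : ∀ v < 12, χ v = (((z : Lˣ) ^ expo q v : Lˣ) : L) := by
    intro v hv
    rw [hχv v hv, G2.dChr]
    congr 1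
    simp only [dd, Fin.prod_univ_three, Fin.val_zero, Fin.val_one, Fin.val_two, ← zpow_natCast,
      ← zpow_mul, ← zpow_add]
    rw [← orderOf_dvd_sub_iff_zpow_eq_zpow, hoz]
    convert (hex1 v hv).2.2 using 1
    push_cast
    ring
  have hlt : ∀ v < 12, expo q v < orderOf (z : Lˣ) := fun v hv => by
    rw [hoz]; exact (hex1 v hv).2.1
  have hg'd := G2.cent_regular C hg' hdiag hχ eχ
    (fun r hr h1 => by
      rw [hn12] at hr
      rw [hchi r hr, Units.val_eq_one] at h1
      exact pow_ne_one_of_lt_orderOf (hex1 r hr).1.ne' (hlt r hr) h1)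
    (fun r hr s hs e => by
      rw [hn12] at hr hs
      rw [hchi r hr, hchi s hs] at e
      exact hex2 r hr s hs (pow_injOn_Iio_orderOf (hlt r hr) (hlt s hs) (Units.ext e)))
    hgc
  obtain ⟨d, hdp, hdg⟩ := (G2.diag_iff C _).1 hg'd
  -- descend
  let S : GL (Fin 3) L := Pu⁻¹ * G2.dGL d * Pu
  have hS : G2.phi L S = gg := by
    rw [map_mul, map_mul, map_inv, hdg]
    simp only [g', φP]; group
  let s : Matrix (Fin 3) (Fin 3) F := fun i j =>
    ((g.1 : GL chevG2.Idx F) : Matrix chevG2.Idx chevG2.Idx F) (G2.vRow i) (G2.vRow j)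
  have hs : (S : Matrix (Fin 3) (Fin 3) L) = s.map f := by
    ext i j
    rw [← G2.phi_vRow L S i j, hS, val_gmap]
    rfl
  have hPs : P' * s.map f = Matrix.diagonal (fun i => (d i : L)) * P' := by
    rw [← hs, ← hPu]
    rw [← Units.val_mul, show Pu * S = G2.dGL d * Pu by simp only [S]; group]
    rfl
  have hPs' : P * s.map f = Matrix.diagonal (fun i => (d i : L)) * P := by
    have hc : IsUnit (Matrix.diagonal c) := by
      rw [Matrix.isUnit_iff_isUnit_det, Matrix.det_diagonal, Fin.prod_univ_three]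
      simp [c]
      exact isUnit_iff_ne_zero.2 (inv_ne_zero hP0)
    refine hc.mul_left_cancel ?_
    rw [← Matrix.mul_assoc, ← Matrix.mul_assoc, hPs, (Matrix.commute_diagonal c _).eq, Matrix.mul_assoc]
  have hrow : ∀ i j : Fin 3, ∑ k, b k ^ q ^ (i : ℕ) * f (s k j) = (d i : L) * b j ^ q ^ (i : ℕ) := by
    intro i j
    have e := congrFun (congrFun hPs' i) j
    rw [Matrix.diagonal_mul, Matrix.mul_apply] at e
    exact e
  have hd0 : ∀ i : Fin 3, (d i : L) = (d 0 : L) ^ q ^ (i : ℕ) := by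
    intro i
    have hb : b 0 ^ q ^ (i : ℕ) ≠ 0 := pow_ne_zero _ (b.ne_zero 0)
    refine mul_right_cancel₀ hb ?_
    rw [← hrow i 0, ← hσ, ← hσ, ← map_mul]
    have e0 := hrow 0 0
    simp only [Fin.val_zero, pow_zero, pow_one] at e0
    rw [← e0, map_sum]
    refine Finset.sum_congr rfl fun k _ => ?_
    rw [map_mul, AlgEquiv.commutes, hσ]
  have hsM : s = Algebra.leftMulMatrix b (d 0 : L) := by
    ext i j
    have e : (d 0 : L) * b j = ∑ k, s k j • b k := by
      have e0 := hrow 0 j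
      simp only [Fin.val_zero, pow_zero, pow_one] at e0
      rw [← e0]
      exact Finset.sum_congr rfl fun k _ => by rw [Algebra.smul_def, mul_comm]
    rw [Algebra.leftMulMatrix_eq_repr_mul, e, b.repr_sum_self]
  have hu : d 0 ∈ U := by
    show d 0 ^ n = 1
    rw [← hdp]
    have e1 : ∀ i : Fin 3, d i = d 0 ^ q ^ (i : ℕ) := fun i => Units.ext (by rw [hd0 i]; simp)
    rw [e1 1, e1 2, ← pow_succ', ← pow_add]
    congr 1
    simp only [n, Fin.val_one, Fin.val_two]
    ring
  refine ⟨⟨d 0, hu⟩, Subtype.ext (gmap_injective f ?_)⟩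
  show gmap chevG2 f (G2.phi F (ψ (d 0))) = gg
  rw [G2.phi_map, ← hS]
  congr 1
  refine Units.ext ?_
  rw [hs, hsM]
  rfl

end Cfsg.Agent.S2371
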