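import Cfsg.Statements.S2589
import Cfsg.Agent.Lib.SemisimpleConj
import Cfsg.Agent.Lib.Forms.Alternating
import Mathlib.LinearAlgebra.SymplecticGroup

set_option autoImplicit false
open Cfsg

namespace Cfsg.Agent.S2589

open Matrix

theorem alt_conj {F V : Type*} [Field F] [Finite F] [AddCommGroup V] [Module F V] [FiniteDimensional F V]
    [Finite V] (β : LinearMap.BilinForm F V) (hβ : β.Nondegenerate) (halt : β.IsAlt) (o : ℕ)
    (ho : (o : F) ≠ 0) (A B g : V ≃ₗ[F] V) (hA : ∀ x y, β (A x) (A y) = β x y)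
    (hB : ∀ x y, β (B x) (B y) = β x y) (hAo : A ^ o = 1) (hg : ∀ x, g (A x) = B (g x)) :
    ∃ γ : V ≃ₗ[F] V, (∀ x y, β (γ x) (γ y) = β x y) ∧ ∀ x, γ (A x) = B (γ x) := by
  classical
  have hs : ∀ x y, β x y = (-1) * β y x := fun x y => by rw [neg_one_mul, halt.neg_eq]
  obtain ⟨g₁, e, -, hg₁, hee, heA, hadj, hgi, -, -, hA2⟩ :=
    Lib.SemisimpleConj.exists_iso_part β hβ hs A B hA hB o ho hAo g hg
  -- reduce to an idempotent outside of which `A` is a scalar
  suffices H : ∀ (g₂ : V ≃ₗ[F] V) (e' : Module.End F V) (ε : F), (∀ x, g₂ (A x) = B (g₂ x)) →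
      (∀ x, e' (e' x) = e' x) → (∀ x, e' (A x) = A (e' x)) → (∀ x y, β (e' x) y = β x (e' y)) →
      (∀ x y, β (g₂ x) (g₂ (e' y)) = β x (e' y)) → (∀ x, A (x - e' x) = ε • (x - e' x)) →
      ∃ γ : V ≃ₗ[F] V, (∀ x y, β (γ x) (γ y) = β x y) ∧ ∀ x, γ (A x) = B (γ x) by
    by_cases h2 : (2 : F) = 0
    · refine H g₁ e 1 hg₁ hee heA hadj hgi fun x => ?_
      rw [one_smul]
      obtain ⟨k, hk⟩ : Odd o := by
        rcases Nat.even_or_odd o with ⟨k, hk⟩ | h
        · exact absurd (by rw [hk]; push_cast; linear_combination (k : F) * h2) ho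
        · exact h
      set z := x - e x
      have h2 : ∀ j, (A ^ (2 * j)) z = z := by
        intro j
        induction j with
        | zero => rfl
        | succ j ih =>
          rw [show 2 * (j + 1) = 2 + 2 * j by ring, pow_add, LinearEquiv.mul_apply, ih, pow_two, LinearEquiv.mul_apply]
          exact hA2 x
      have h3 : (A ^ o) z = z := by rw [hAo]; rfl
      rw [hk, pow_succ', LinearEquiv.mul_apply, h2] at h3
      exact h3
    -- characteristic not two: treat the two eigenvalues separately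
    let am : Module.End F V := (A : V →ₗ[F] V)
    let p : Module.End F V := (2 : F)⁻¹ • ((1 - e) + am * (1 - e))
    have hp : ∀ x, p x = (2 : F)⁻¹ • ((x - e x) + A (x - e x)) := fun x => rfl
    have hep : ∀ x, e (p x) = 0 := fun x => by
      rw [hp, map_smul, map_add, heA, map_sub, hee, sub_self, map_zero, add_zero, smul_zero]
    have hAp : ∀ x, A (p x) = p x := fun x => by
      rw [hp, map_smul, map_add, hA2, add_comm]
    have hpp : ∀ x, p (p x) = p x := fun x => by
      conv_lhs => rw [hp, hep, sub_zero, hAp, ← two_smul F (p x), smul_smul, inv_mul_cancel₀ h2, one_smul]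
    have hpe : ∀ x, p (e x) = 0 := fun x => by rw [hp, hee, sub_self, map_zero, add_zero, smul_zero]
    have hpA : ∀ x, p (A x) = A (p x) := fun x => by
      rw [hp, hp, heA, ← map_sub, map_smul, map_add]
    have hadjA : ∀ x y, β (A (x - e x)) y = β (x - e x) (A (y - e y)) := fun x y => by
      have h1 : ∀ w, β (x - e x) w = β x (w - e w) := fun w => by
        rw [map_sub, LinearMap.sub_apply, hadj, map_sub (β x)]
      calc β (A (x - e x)) y = β (A (A (x - e x))) (A y) := (hA _ _).symm
        _ = β (x - e x) (A y) := by rw [hA2]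
        _ = β x (A y - e (A y)) := h1 _
        _ = β x (A (y - e y) - e (A (y - e y))) := by
            have h0 : e (A (y - e y)) = 0 := by rw [heA, map_sub, hee, sub_self, map_zero]
            rw [h0, sub_zero, heA, ← map_sub]
        _ = _ := (h1 _).symm
    have hpadj : ∀ x y, β (p x) y = β x (p y) := fun x y => by
      have h1 : ∀ w, β (x - e x) w = β x (w - e w) := fun w => by
        rw [map_sub, LinearMap.sub_apply, hadj, map_sub (β x)]
      have h0 : e (A (y - e y)) = 0 := by rw [heA, map_sub, hee, sub_self, map_zero]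
      rw [hp, hp, map_smul, LinearMap.smul_apply, map_smul, map_add, LinearMap.add_apply, map_add, hadjA, h1,
        h1, h0, sub_zero]
    -- the pieces of `g₁`
    have hoe : ∀ x y, β (g₁ (p x)) (g₁ (e y)) = 0 := fun x y => by
      rw [hgi, ← hadj, hep, map_zero, LinearMap.zero_apply]
    have hom : ∀ x v, e v = 0 → A v = -v → β (g₁ (p x)) (g₁ v) = 0 := fun x v _ hv => by
      have h := hB (g₁ (p x)) (g₁ v)
      rw [← hg₁, ← hg₁, hAp, hv, map_neg, map_neg] at h
      have : (2 : F) * β (g₁ (p x)) (g₁ v) = 0 := by linear_combination -h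
      exact (mul_eq_zero.1 this).resolve_left h2
    have hmdec : ∀ y, e (y - e y - p y) = 0 ∧ A (y - e y - p y) = -(y - e y - p y) := fun y => by
      refine ⟨by rw [map_sub, map_sub, hee, hep, sub_self, sub_zero], ?_⟩
      rw [map_sub, hAp]
      set z := y - e y with hz
      have h2p : p y + p y = z + A z := by
        rw [hp, ← add_smul, show (2 : F)⁻¹ + (2 : F)⁻¹ = 1 by field_simp; ring, one_smul]
      rw [show A z = (p y + p y) - z by rw [h2p]; abel]
      abel
    set W := LinearMap.range p with hW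
    set W' := W.map (g₁ : V →ₗ[F] V) with hW'
    have hndW : (β.restrict W).SeparatingLeft := by
      rintro ⟨_, x, rfl⟩ h
      refine Subtype.ext (hβ.1 _ fun y => ?_)
      show β (p x) y = 0
      rw [← hpp x, hpadj]
      exact h ⟨p y, y, rfl⟩
    have hndW' : (β.restrict W').SeparatingLeft := by
      rintro ⟨_, _, ⟨x, rfl⟩, rfl⟩ h
      refine Subtype.ext (hβ.1 _ fun y => ?_)
      obtain ⟨w, rfl⟩ := g₁.surjective y
      show β (g₁ (p x)) (g₁ w) = 0
      have hw : w = e w + p w + (w - e w - p w) := by abel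
      rw [hw, map_add, map_add, map_add, map_add, hoe, hom x _ (hmdec w).1 (hmdec w).2,
        show β (g₁ (p x)) (g₁ (p w)) = 0 from h ⟨_, _, ⟨w, rfl⟩, rfl⟩, add_zero, add_zero]
    obtain ⟨ι, hι⟩ := Lib.Forms.exists_alt_isometry (β.restrict W) (fun x => halt x) hndW (β.restrict W')
      (fun x => halt x) hndW' (W.equivMapOfInjective (g₁ : V →ₗ[F] V) g₁.injective).finrank_eq
    let ι' : V →ₗ[F] V := g₁.symm.toLinearMap ∘ₗ W'.subtype ∘ₗ ι.toLinearMap ∘ₗ LinearMap.rangeRestrict p
    have hι' : ∀ x, g₁ (ι' x) = (ι (LinearMap.rangeRestrict p x) : V) := fun x => g₁.apply_symm_apply _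
    have hι'W : ∀ x, p (ι' x) = ι' x := fun x => by
      obtain ⟨w, ⟨u, rfl⟩, hw⟩ := (ι (LinearMap.rangeRestrict p x)).2
      have : ι' x = p u := g₁.injective ((hι' x).trans hw.symm)
      rw [this, hpp]
    let k : V →ₗ[F] V := e + ι' + (1 - e - p)
    have hk : ∀ x, k x = e x + ι' x + (x - e x - p x) := fun x => rfl
    have hpm : ∀ x, p (x - e x - p x) = 0 := fun x => by rw [map_sub, map_sub, hpp, hpe, sub_zero, sub_self]
    have hkinj : Function.Injective k := by
      rw [injective_iff_map_eq_zero]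
      intro x hx
      rw [hk] at hx
      have h1 := congrArg p hx
      rw [map_add, map_add, hpe, hι'W, hpm, zero_add, add_zero, map_zero] at h1
      have h2' := congrArg e hx
      rw [map_add, map_add, hee, (hmdec x).1, ← hι'W x, hep, add_zero, add_zero, map_zero] at h2'
      rw [h1, h2', zero_add, zero_add, sub_zero] at hx
      have h3 : ι (LinearMap.rangeRestrict p x) = 0 := Subtype.ext (by rw [← hι', h1, map_zero]; rfl)
      have h4 : p x = 0 := congrArg Subtype.val (ι.map_eq_zero_iff.1 h3)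
      rwa [h4, sub_zero] at hx
    let K : V ≃ₗ[F] V := LinearEquiv.ofBijective k ⟨hkinj, LinearMap.injective_iff_surjective.1 hkinj⟩
    have hK : ∀ x, K x = k x := fun x => rfl
    have hg2 : ∀ x, g₁ (K x) = g₁ (e x) + (ι (LinearMap.rangeRestrict p x) : V) + g₁ (x - e x - p x) := fun x => by
      rw [hK, hk, map_add, map_add, hι']
    refine H (K.trans g₁) (e + p) (-1) ?_ ?_ ?_ ?_ ?_ ?_
    · intro x
      show g₁ (K (A x)) = B (g₁ (K x))
      rw [← hg₁]
      congr 1
      rw [hK, hK, hk, hk, map_add, map_add, heA, hpA, hAp]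
      have : ι' (A x) = A (ι' x) := by
        conv_rhs => rw [← hι'W x, hAp, hι'W x]
        show g₁.symm (ι (LinearMap.rangeRestrict p (A x)) : V) = g₁.symm (ι (LinearMap.rangeRestrict p x) : V)
        rw [show LinearMap.rangeRestrict p (A x) = LinearMap.rangeRestrict p x from Subtype.ext ((hpA x).trans (hAp x))]
      rw [this]
      conv_rhs => rw [map_sub, map_sub, hAp]
    · intro x
      show e (e x + p x) + p (e x + p x) = e x + p x
      rw [map_add, map_add, hee, hep, hpe, hpp, add_zero, zero_add]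
    · intro x
      show e (A x) + p (A x) = A (e x + p x)
      rw [map_add, heA, hpA]
    · intro x y
      show β (e x + p x) y = β x (e y + p y)
      rw [map_add, LinearMap.add_apply, map_add, hadj, hpadj]
    · intro x y
      show β (g₁ (K x)) (g₁ (K (e y + p y))) = β x (e y + p y)
      have hy : g₁ (K (e y + p y)) = g₁ (e y) + (ι (LinearMap.rangeRestrict p y) : V) := by
        rw [hg2, show e (e y + p y) = e y by rw [map_add, hee, hep, add_zero],
          show LinearMap.rangeRestrict p (e y + p y) = LinearMap.rangeRestrict p y from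
            Subtype.ext (by show p (e y + p y) = p y; rw [map_add, hpe, hpp, zero_add]),
          show p (e y + p y) = p y by rw [map_add, hpe, hpp, zero_add],
          show e y + p y - e y - p y = 0 by abel, map_zero, add_zero]
      rw [hy, hg2]
      have hswap : ∀ u v, β u v = 0 → β v u = 0 := fun u v h => by rw [hs, h, mul_zero]
      obtain ⟨_, ⟨u, rfl⟩, hu⟩ := (ι (LinearMap.rangeRestrict p x)).2
      obtain ⟨_, ⟨v, rfl⟩, hv⟩ := (ι (LinearMap.rangeRestrict p y)).2
      have hu' : (ι (LinearMap.rangeRestrict p x) : V) = g₁ (p u) := hu.symm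
      have hv' : (ι (LinearMap.rangeRestrict p y) : V) = g₁ (p v) := hv.symm
      have hpp' : β (g₁ (p u)) (g₁ (p v)) = β (p x) (p y) := by
        rw [← hu', ← hv']; exact hι _ _
      rw [hu', hv']
      simp only [map_add, LinearMap.add_apply]
      rw [hgi (e x) y, hoe u y, hswap _ _ (hoe v x), hpp', hswap _ _ (hom v _ (hmdec x).1 (hmdec x).2),
        show β (g₁ (x - e x - p x)) (g₁ (e y)) = 0 by rw [hgi, ← hadj, (hmdec x).1, map_zero, LinearMap.zero_apply],
        show β (e x) (e y) = β x (e y) by rw [hadj, hee], show β (p x) (p y) = β x (p y) by rw [hpadj, hpp]]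
      ring
    · intro x
      show A (x - (e x + p x)) = (-1 : F) • (x - (e x + p x))
      rw [neg_smul, one_smul, ← sub_sub]
      exact (hmdec x).2
  intro g₂ e' ε hg₂ hee' heA' hadj' hgi' hker'
  obtain ⟨γ, hγ, hγP⟩ := Lib.Forms.witt_alt β hβ halt
    (Module.finrank F V - Module.finrank F (LinearMap.range e')) (LinearMap.range e')
    ((g₂ : V →ₗ[F] V).comp (LinearMap.range e').subtype)
    (by have := Submodule.finrank_le (LinearMap.range e'); omega)
    (g₂.injective.comp Subtype.val_injective)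
    (by
      rintro ⟨_, x, rfl⟩ ⟨_, y, rfl⟩
      exact hgi' _ _)
  exact ⟨γ, hγ, Lib.SemisimpleConj.finish β hβ A B g₂ γ hg₂ e' ε hee' heA' hadj' hgi' hker' hγ
    (fun x => hγP ⟨e' x, x, rfl⟩)⟩

/-- Matrices as linear equivalences. -/
def toEq {F : Type*} [Field F] {ι : Type} [Fintype ι] [DecidableEq ι] (g : GL ι F) : (ι → F) ≃ₗ[F] (ι → F) :=
  LinearEquiv.ofLinear (Matrix.toLin' (g : Matrix ι ι F))
    (Matrix.toLin' ((g⁻¹ : GL ι F) : Matrix ι ι F))
    (by rw [← Matrix.toLin'_mul, Units.mul_inv, Matrix.toLin'_one])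
    (by rw [← Matrix.toLin'_mul, Units.inv_mul, Matrix.toLin'_one])

theorem toEq_apply {F : Type*} [Field F] {ι : Type} [Fintype ι] [DecidableEq ι] (g : GL ι F) (x : ι → F) :
    toEq g x = (g : Matrix ι ι F).mulVec x := Matrix.toLin'_apply _ _

theorem toEq_pow {F : Type*} [Field F] {ι : Type} [Fintype ι] [DecidableEq ι] (g : GL ι F) (k : ℕ) :
    toEq g ^ k = toEq (g ^ k) := by
  induction k with
  | zero => exact LinearEquiv.ext fun x => by rw [pow_zero, pow_zero, toEq_apply, Units.val_one, Matrix.one_mulVec]; rfl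
  | succ k ih =>
    refine LinearEquiv.ext fun x => ?_
    rw [pow_succ, pow_succ, LinearEquiv.mul_apply, ih, toEq_apply, toEq_apply, toEq_apply, Units.val_mul,
      Matrix.mulVec_mulVec]


/-- Two semisimple elements of the finite symplectic group Sp_2m(F) (elements of order prime to the characteristic) are conjugate in Sp_2m(F) if and only if they are conjugate in GL_2m(F). -/
theorem result {F : Type*} [Field F] [Fintype F] {p : ℕ} [Fact p.Prime] [CharP F p] {m : ℕ} (A B : Matrix.symplecticGroup (Fin m) F) (hA : (orderOf A).Coprime p) : IsConj A B ↔ IsConj (A : Matrix (Fin m ⊕ Fin m) (Fin m ⊕ Fin m) F) (B : Matrix (Fin m ⊕ Fin m) (Fin m ⊕ Fin m) F) := by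
  classical
  let ι := Fin m ⊕ Fin m
  let β : LinearMap.BilinForm F (ι → F) := Matrix.toBilin' (Matrix.J (Fin m) F)
  have hβv : ∀ x y, β x y = x ⬝ᵥ (Matrix.J (Fin m) F *ᵥ y) := fun x y => Matrix.toBilin'_apply' _ _ _
  have hnd : β.Nondegenerate :=
    LinearMap.BilinForm.nondegenerate_toBilin'_of_det_ne_zero' _ (Matrix.isUnit_det_J (Fin m) F).ne_zero
  have halt : β.IsAlt := by
    intro x
    rw [hβv, Matrix.J, Matrix.fromBlocks_mulVec, dotProduct, Fintype.sum_sum_type]
    simp only [Sum.elim_inl, Sum.elim_inr, Matrix.zero_mulVec, Matrix.neg_mulVec, Matrix.one_mulVec, zero_add,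
      add_zero, Pi.neg_apply, Function.comp_apply, mul_neg, Finset.sum_neg_distrib]
    rw [neg_add_eq_zero]
    exact Finset.sum_congr rfl fun i _ => mul_comm _ _
  let lift : ↥(Matrix.symplecticGroup (Fin m) F) →* GL ι F := (Matrix.symplecticGroup (Fin m) F).subtype.toHomUnits
  have hiso : ∀ (X : GL ι F), (X : Matrix ι ι F) ∈ Matrix.symplecticGroup (Fin m) F ↔
      ∀ x y, β (toEq X x) (toEq X y) = β x y := by
    intro X
    rw [SymplecticGroup.mem_iff']
    have key : ∀ x y, β (toEq X x) (toEq X y) = x ⬝ᵥ (((X : Matrix ι ι F)ᵀ * Matrix.J (Fin m) F * (X : Matrix ι ι F)) *ᵥ y) := fun x y => by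
      rw [hβv, toEq_apply, toEq_apply, ← Matrix.mulVec_mulVec, ← Matrix.mulVec_mulVec, Matrix.dotProduct_mulVec x, Matrix.vecMul_transpose]
    constructor
    · intro h x y; rw [key, h, hβv]
    · intro h
      apply Matrix.toBilin'.injective
      refine LinearMap.ext fun x => LinearMap.ext fun y => ?_
      rw [Matrix.toBilin'_apply', ← key, h]
  constructor
  · intro h
    exact (Matrix.symplecticGroup (Fin m) F).subtype.map_isConj h
  · intro h
    obtain ⟨c, hc⟩ := h
    have ho : ((orderOf A : ℕ) : F) ≠ 0 := by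
      rw [Ne, CharP.cast_eq_zero_iff F p]
      exact fun h => (Fact.out : p.Prime).not_dvd_one (hA.gcd_eq_one ▸ Nat.dvd_gcd h dvd_rfl)
    have hAo : toEq (lift A) ^ orderOf A = 1 := by
      rw [toEq_pow, ← map_pow, pow_orderOf_eq_one, map_one]
      exact LinearEquiv.ext fun x => by rw [toEq_apply, Units.val_one, Matrix.one_mulVec]; rfl
    obtain ⟨γ, hγ, hγc⟩ := alt_conj β hnd halt (orderOf A) ho (toEq (lift A)) (toEq (lift B)) (toEq c)
      ((hiso _).1 A.2) ((hiso _).1 B.2) hAo
      (fun x => by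
        rw [toEq_apply, toEq_apply, toEq_apply, toEq_apply, Matrix.mulVec_mulVec, Matrix.mulVec_mulVec]
        exact congrFun (congrArg Matrix.mulVec hc.eq) x)
    let G : GL ι F :=
      ⟨LinearMap.toMatrix' (γ : (ι → F) →ₗ[F] (ι → F)), LinearMap.toMatrix' (γ.symm : (ι → F) →ₗ[F] (ι → F)),
        by rw [← LinearMap.toMatrix'_comp, LinearEquiv.comp_symm, LinearMap.toMatrix'_id],
        by rw [← LinearMap.toMatrix'_comp, LinearEquiv.symm_comp, LinearMap.toMatrix'_id]⟩
    have hG : ∀ x, (G : Matrix ι ι F).mulVec x = γ x := fun x => LinearMap.toMatrix'_mulVec _ _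
    have hGe : ∀ x, toEq G x = γ x := fun x => (toEq_apply G x).trans (hG x)
    have hGmem : (G : Matrix ι ι F) ∈ Matrix.symplecticGroup (Fin m) F :=
      (hiso G).2 fun x y => by rw [hGe, hGe, hγ]
    refine isConj_iff.2 ⟨⟨(G : Matrix ι ι F), hGmem⟩, mul_inv_eq_iff_eq_mul.2 (Subtype.ext ?_)⟩
    show (G : Matrix ι ι F) * (A : Matrix ι ι F) = (B : Matrix ι ι F) * (G : Matrix ι ι F)
    refine Matrix.ext_of_mulVec_single fun i => ?_
    rw [← Matrix.mulVec_mulVec, ← Matrix.mulVec_mulVec, hG, hG]
    have := hγc (Pi.single i 1)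
    rw [toEq_apply, toEq_apply] at this
    exact this

end Cfsg.Agent.S2589
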