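import Cfsg.Statements.S2389
import Cfsg.Agent.S2589
import Cfsg.Agent.Lib.GLn.SemisimpleCharpoly

set_option autoImplicit false
open Cfsg

namespace Cfsg.Agent.S2389

/-- In the symplectic group `Sp_{2n}(q)`, `q` a power of the prime `p`, two elements of order prime to `p` with the same characteristic polynomial are conjugate in `Sp_{2n}(q)`. -/
theorem result {F : Type*} [Field F] [Fintype F] (p : ℕ) [Fact p.Prime] [CharP F p] (n : ℕ)
    (g h : ↥(Matrix.symplecticGroup (Fin n) F)) (hg : (orderOf g).Coprime p) (hh : (orderOf h).Coprime p)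
    (hc : (g : Matrix (Fin n ⊕ Fin n) (Fin n ⊕ Fin n) F).charpoly = (h : Matrix (Fin n ⊕ Fin n) (Fin n ⊕ Fin n) F).charpoly) :
    IsConj g h := by
  classical
  rw [Cfsg.Agent.S2589.result (p := p) g h hg]
  set lift : ↥(Matrix.symplecticGroup (Fin n) F) →* GL (Fin n ⊕ Fin n) F :=
    (Matrix.symplecticGroup (Fin n) F).subtype.toHomUnits
  have hinj : Function.Injective lift := fun a b e => Subtype.ext (congrArg Units.val e)
  have := Cfsg.Agent.Lib.GLn.SemisimpleCharpoly.isConj_gl p (lift g) (lift h)
    (by rwa [orderOf_injective lift hinj]) (by rwa [orderOf_injective lift hinj]) hc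
  exact (Units.coeHom _).map_isConj this

end Cfsg.Agent.S2389
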