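import Cfsg.Statements.S2444
import Cfsg.Agent.Lib.SLComm.Main
import Cfsg.Agent.Lib.SLComm.Scalar

set_option autoImplicit false
open Cfsg

namespace Cfsg.Agent.S2444

open Cfsg.Agent.Lib.SLComm in
/-- In the special linear group SL(n,F) over a finite field F, with n ≥ 2 and (n, |F|) not (2,2) or (2,3), every element is a commutator a·b·a⁻¹·b⁻¹ of two elements of SL(n,F). -/
theorem result {F : Type*} [Field F] [Fintype F] (n : ℕ) (hn : 2 ≤ n) (hex : n = 2 → 4 ≤ Fintype.card F) :
    ∀ g : Matrix.SpecialLinearGroup (Fin n) F, ∃ a b : Matrix.SpecialLinearGroup (Fin n) F, g = a * b * a⁻¹ * b⁻¹ := by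
  intro g
  obtain ⟨A, T, hA, hT, h⟩ : ∃ A T : Matrix (Fin n) (Fin n) F,
      A.det = 1 ∧ T.det = 1 ∧ A * T = g.1 * (T * A) := by
    by_cases hs : ∃ c : F, g.1 = c • 1
    · obtain ⟨c, hc⟩ := hs
      haveI : NeZero n := ⟨by omega⟩
      have hd : c ^ n = 1 := by
        have := g.2
        rw [hc] at this
        simpa [Matrix.det_smul] using this
      obtain ⟨A, T, hA, hT, h⟩ := scalar n hd
      exact ⟨A, T, hA, hT, by rw [hc, Matrix.smul_mul, one_mul]; exact h⟩
    · obtain ⟨m, rfl⟩ : ∃ m, n = m + 1 := ⟨n - 1, by omega⟩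
      haveI : NeZero m := ⟨by omega⟩
      let e := Matrix.SpecialLinearGroup.toLin' g
      have he : e.toLinearMap = Matrix.toLin' g.1 := rfl
      have hdet : LinearMap.det e.toLinearMap = 1 := by
        rw [he, LinearMap.det_toLin']; exact g.2
      have hns : ∀ c : F, ∃ v, e v ≠ c • v := by
        intro c
        by_contra hc
        push Not at hc
        refine hs ⟨c, Matrix.toLin'.injective (LinearMap.ext fun v => ?_)⟩
        rw [← he, map_smul, Matrix.toLin'_one]
        exact hc v
      obtain ⟨a, t, ha, ht, h⟩ := nonscalar m (by simp) (fun h1 => hex (by omega)) e hdet hns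
      refine ⟨LinearMap.toMatrix' a, LinearMap.toMatrix' t, ?_, ?_, ?_⟩
      · rw [LinearMap.det_toMatrix']; exact ha
      · rw [LinearMap.det_toMatrix']; exact ht
      · apply Matrix.toLin'.injective
        rw [Matrix.toLin'_mul, Matrix.toLin'_mul, Matrix.toLin'_mul, Matrix.toLin'_toMatrix',
          Matrix.toLin'_toMatrix', ← he]
        exact h
  let a : Matrix.SpecialLinearGroup (Fin n) F := ⟨A, hA⟩
  let b : Matrix.SpecialLinearGroup (Fin n) F := ⟨T, hT⟩
  refine ⟨a, b, ?_⟩
  have hab : a * b = g * (b * a) := Subtype.ext h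
  rw [hab]
  group

end Cfsg.Agent.S2444
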