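import Cfsg.Statements.S2459
import Cfsg.Agent.Lib.SL3Cover.Three

set_option autoImplicit false
open Cfsg

namespace Cfsg.Agent.S2459

/-- A form of Thompson's conjecture for PSL(3,q), q > 2 (covering the non-identity elements), with a semisimple class: for F a finite field of characteristic p with more than 2 elements there is an element x of PSL(3,F) of order prime to p such that every non-identity element of PSL(3,F) is a product of two conjugates of x. -/
theorem result {F : Type*} [Field F] [Fintype F] (p : ℕ) [Fact p.Prime] [CharP F p] (h3 : 3 ≤ Fintype.card F) :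
    ∃ x : Matrix.ProjectiveSpecialLinearGroup (Fin 3) F, ¬ p ∣ orderOf x ∧ ∀ g : Matrix.ProjectiveSpecialLinearGroup (Fin 3) F, g ≠ 1 → ∃ u v : Matrix.ProjectiveSpecialLinearGroup (Fin 3) F, g = (u * x * u⁻¹) * (v * x * v⁻¹) := by
  classical
  suffices h : ∃ x : Matrix.SpecialLinearGroup (Fin 3) F, ¬ p ∣ orderOf x ∧
      ∀ g : Matrix.SpecialLinearGroup (Fin 3) F, g ∉ Subgroup.center (Matrix.SpecialLinearGroup (Fin 3) F) →
        ∃ u v : Matrix.SpecialLinearGroup (Fin 3) F, g = (u * x * u⁻¹) * (v * x * v⁻¹) by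
    obtain ⟨x, hx, hcov⟩ := h
    let π := QuotientGroup.mk' (Subgroup.center (Matrix.SpecialLinearGroup (Fin 3) F))
    refine ⟨π x, fun hd => hx (dvd_trans hd (orderOf_map_dvd π x)), fun g hg => ?_⟩
    obtain ⟨g', rfl⟩ := QuotientGroup.mk'_surjective (Subgroup.center (Matrix.SpecialLinearGroup (Fin 3) F)) g
    obtain ⟨u, v, huv⟩ := hcov g' (fun hc => hg ((QuotientGroup.eq_one_iff g').mpr hc))
    exact ⟨π u, π v, (congrArg π huv).trans (by simp only [map_mul, map_inv])⟩
  rcases lt_or_eq_of_le h3 with h4 | h4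
  · obtain ⟨a, -, ha⟩ : ∃ a ∈ (Finset.univ : Finset F), a ∉ ({0, 1, -1} : Finset F) := by
      refine Finset.exists_mem_notMem_of_card_lt_card (lt_of_le_of_lt ?_ h4)
      exact Finset.card_le_three
    simp only [Finset.mem_insert, Finset.mem_singleton, not_or] at ha
    obtain ⟨ha0, ha1, ha2⟩ := ha
    have haa : a * a ≠ 1 := fun h => by
      rcases mul_self_eq_one_iff.mp h with h | h
      · exact ha1 h
      · exact ha2 h
    refine ⟨Cfsg.Agent.Lib.SL3Cover.diag3 a ha0, fun hd => ?_,
      fun g hg => Cfsg.Agent.Lib.SL3Cover.square_class_covers ha0 ha1 haa hg⟩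
    have hd' : Cfsg.Agent.Lib.SL3Cover.diag3 a ha0 ^ (Fintype.card F - 1) = 1 := by
      refine Subtype.ext ?_
      have e : ((Cfsg.Agent.Lib.SL3Cover.diag3 a ha0 : Matrix.SpecialLinearGroup (Fin 3) F) :
          Matrix (Fin 3) (Fin 3) F) = Matrix.diagonal ![a, a⁻¹, 1] := by
        ext i j
        fin_cases i <;> fin_cases j <;> simp [Cfsg.Agent.Lib.SL3Cover.diag3, Matrix.diagonal]
      rw [Matrix.SpecialLinearGroup.coe_pow, e, Matrix.diagonal_pow, Matrix.SpecialLinearGroup.coe_one,
        ← Matrix.diagonal_one]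
      congr 1
      funext i
      fin_cases i <;> simp [FiniteField.pow_card_sub_one_eq_one a ha0]
    have hdiv : p ∣ Fintype.card F - 1 := dvd_trans hd (orderOf_dvd_of_pow_eq_one hd')
    obtain ⟨n, hp, hn⟩ := FiniteField.card F p
    have hpq : p ∣ Fintype.card F := hn ▸ dvd_pow_self p n.ne_zero
    have h1 := Nat.dvd_sub hpq hdiv
    rw [Nat.sub_sub_self (Nat.one_le_of_lt h4)] at h1
    exact hp.not_dvd_one h1
  · obtain ⟨n, hp, hn⟩ := FiniteField.card F p
    have hp3 : p = 3 := by
      have h1 : p ∣ 3 := h4 ▸ hn ▸ dvd_pow_self p n.ne_zero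
      exact (Nat.prime_dvd_prime_iff_eq hp Nat.prime_three).mp h1
    haveI : Fact (Nat.Prime 3) := ⟨Nat.prime_three⟩
    let e : F ≃+* ZMod 3 := FiniteField.ringEquivOfCardEq (by rw [← h4, ZMod.card])
    let E := Matrix.SpecialLinearGroup.map (n := Fin 3) (e.symm : ZMod 3 →+* F)
    have hEs : Function.Surjective E := fun g =>
      ⟨Matrix.SpecialLinearGroup.map (n := Fin 3) (e : F →+* ZMod 3) g, by ext i j; simp [E]⟩
    refine ⟨E Cfsg.Agent.Lib.SL3Cover.x4, fun hd => ?_, fun g hg => ?_⟩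
    · subst hp3
      exact Cfsg.Agent.Lib.SL3Cover.three_not_dvd_orderOf (dvd_trans hd (orderOf_map_dvd E _))
    · obtain ⟨g', rfl⟩ := hEs g
      obtain ⟨u, v, huv⟩ := Cfsg.Agent.Lib.SL3Cover.covers_three (g := g')
        (fun h => hg (by rw [h, map_one]; exact one_mem _))
      exact ⟨E u, E v, by rw [huv]; simp only [map_mul, map_inv]⟩

end Cfsg.Agent.S2459
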