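import Cfsg.Statements.S2466
import Cfsg.Agent.Lib.Recog.AltSpecPrimes

set_option autoImplicit false
open Cfsg

namespace Cfsg.Agent.S2466

/-- Adjacency of odd primes in the prime graph of the alternating groups: let r ≠ s be odd primes at most n. The alternating group of degree n has an element of order r·s if and only if r + s ≤ n. -/
theorem result (n r s : ℕ) (hr : r.Prime) (hs : s.Prime) (hr2 : r ≠ 2) (hs2 : s ≠ 2) (hrs : r ≠ s) (hrn : r ≤ n) (hsn : s ≤ n) :
    (r * s ∈ Set.range (orderOf : alternatingGroup (Fin n) → ℕ)) ↔ r + s ≤ n := by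
  classical
  constructor
  · rintro ⟨g, hg⟩
    exact Cfsg.Agent.Lib.Recog.add_le_of_orderOf_eq hr hs hrs (x := g.1) (by rw [Subgroup.orderOf_coe, hg])
  · intro h
    obtain ⟨g, hg⟩ := (Equiv.Perm.exists_with_cycleType_iff (α := Fin n) (m := ({r, s} : Multiset ℕ))).2
      ⟨by simpa using h, by intro a ha; simp at ha; rcases ha with rfl | rfl; exacts [hr.two_le, hs.two_le]⟩
    have hrodd := hr.odd_of_ne_two hr2
    have hsodd := hs.odd_of_ne_two hs2
    refine ⟨⟨g, Equiv.Perm.mem_alternatingGroup.2 ?_⟩, ?_⟩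
    · rw [Equiv.Perm.sign_of_cycleType, hg]
      refine Even.neg_one_pow ?_
      simp [parity_simps, hrodd, hsodd, Nat.not_even_iff_odd.2 hrodd, Nat.not_even_iff_odd.2 hsodd]
    · rw [Subgroup.orderOf_mk, ← Equiv.Perm.lcm_cycleType, hg]
      simp only [Multiset.insert_eq_cons, Multiset.lcm_cons, Multiset.lcm_singleton, normalize_eq]
      exact Nat.Coprime.lcm_eq_mul ((Nat.coprime_primes hr hs).2 hrs)

end Cfsg.Agent.S2466
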