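import Cfsg.Statements.S2467
import Cfsg.Agent.Lib.Recog.AltSpecPrimes


set_option autoImplicit false
open Cfsg

namespace Cfsg.Agent.S2467

/-- Adjacency of 2 and an odd prime in the prime graph of the alternating groups: let r be an odd prime at most n, with n ≥ 4. The alternating group of degree n has an element of order 2r if and only if r + 4 ≤ n. -/
theorem result (n r : ℕ) (hn : 4 ≤ n) (hr : r.Prime) (hr2 : r ≠ 2) (hrn : r ≤ n) :
    (2 * r ∈ Set.range (orderOf : alternatingGroup (Fin n) → ℕ)) ↔ r + 4 ≤ n := by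
  classical
  have hrodd := hr.odd_of_ne_two hr2
  have hr3 : 3 ≤ r := by have := hr.two_le; omega
  constructor
  · rintro ⟨g, hg⟩
    rw [← Subgroup.orderOf_coe, ← Equiv.Perm.lcm_cycleType] at hg
    have hsum : (g : Equiv.Perm (Fin n)).cycleType.sum ≤ n := by simpa using Equiv.Perm.sum_cycleType_le (g : Equiv.Perm (Fin n))
    have hpar : Even ((g : Equiv.Perm (Fin n)).cycleType.sum + Multiset.card (g : Equiv.Perm (Fin n)).cycleType) := by
      have h1 : Equiv.Perm.sign (g : Equiv.Perm (Fin n)) = 1 := Equiv.Perm.mem_alternatingGroup.1 g.2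
      rw [Equiv.Perm.sign_of_cycleType] at h1
      exact (neg_one_pow_eq_one_iff_even (R := ℤˣ) (by decide)).1 h1
    set m := (g : Equiv.Perm (Fin n)).cycleType with hm
    have hmem : ∀ x ∈ m, x = 2 ∨ x = r ∨ x = 2 * r := by
      intro x hx
      have h2 := Equiv.Perm.two_le_of_mem_cycleType hx
      have h3 : x ∣ 2 * r := hg ▸ Multiset.dvd_lcm hx
      obtain ⟨⟨a, b⟩, rfl, ha, hb⟩ : ∃ p : ℕ × ℕ, x = p.1 * p.2 ∧ p.1 ∣ 2 ∧ p.2 ∣ r := by
        obtain ⟨y, z, hy, hz, e⟩ := Nat.dvd_mul.1 h3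
        exact ⟨(y, z), e.symm, hy, hz⟩
      rcases (Nat.dvd_prime Nat.prime_two).1 ha with rfl | rfl <;>
        rcases (Nat.dvd_prime hr).1 hb with rfl | rfl <;> simp at h2 ⊢
    have hne : (2 : ℕ) ≠ r := Ne.symm hr2
    have hne2 : (2 : ℕ) ≠ 2 * r := by omega
    have hne3 : r ≠ 2 * r := by omega
    have hsub : m.toFinset ⊆ {2, r, 2 * r} := fun x hx => by
      simpa using hmem x (Multiset.mem_toFinset.1 hx)
    have e1 := Multiset.sum_count_eq_card (s := ({2, r, 2 * r} : Finset ℕ)) (m := m)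
      (fun x hx => hsub (Multiset.mem_toFinset.2 hx))
    have e2 := Finset.sum_multiset_count_of_subset m _ hsub
    rw [Finset.sum_insert (by simp [hne, hne2]), Finset.sum_insert (by simp [hne3]), Finset.sum_singleton] at e1 e2
    simp only [smul_eq_mul] at e2
    have hpos : ∀ q, q.Prime → q ∣ 2 * r → ∃ x ∈ m, q ∣ x := fun q hq hd =>
      Prime.exists_mem_multiset_dvd hq.prime ((hg ▸ hd : q ∣ m.lcm).trans (Multiset.lcm_dvd.2 fun a ha => Multiset.dvd_prod ha))
    have hev : 1 ≤ m.count 2 + m.count (2 * r) := by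
      obtain ⟨x, hx, h2x⟩ := hpos 2 Nat.prime_two (dvd_mul_right 2 r)
      have := Multiset.one_le_count_iff_mem.2 hx
      rcases hmem x hx with rfl | rfl | rfl
      · omega
      · exact absurd h2x (by rw [← even_iff_two_dvd]; exact Nat.not_even_iff_odd.2 hrodd)
      · omega
    have hod : 1 ≤ m.count r + m.count (2 * r) := by
      obtain ⟨x, hx, hrx⟩ := hpos r hr (dvd_mul_left r 2)
      have := Multiset.one_le_count_iff_mem.2 hx
      rcases hmem x hx with rfl | rfl | rfl
      · exact absurd ((Nat.prime_dvd_prime_iff_eq hr Nat.prime_two).1 hrx) hr2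
      · omega
      · omega
    rw [← e1, e2, Nat.even_iff] at hpar
    rw [e2] at hsum
    obtain ⟨j, hj⟩ := hrodd
    set a := m.count 2
    set b := m.count r
    set c := m.count (2 * r)
    have h1 : (b * r) % 2 = b % 2 := by rw [hj, Nat.mul_mod, show (2 * j + 1) % 2 = 1 by omega, mul_one, Nat.mod_mod]
    have h2 : (c * (2 * r)) % 2 = 0 := by rw [mul_left_comm]; exact Nat.mul_mod_right 2 _
    have hac : 2 ≤ a + c := by omega
    rcases Nat.lt_or_ge c 1 with hc | hc
    · have : 1 * r ≤ b * r := Nat.mul_le_mul_right r (by omega)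
      omega
    · rcases Nat.lt_or_ge c 2 with hc' | hc'
      · have : 1 * (2 * r) ≤ c * (2 * r) := Nat.mul_le_mul_right _ hc
        omega
      · have : 2 * (2 * r) ≤ c * (2 * r) := Nat.mul_le_mul_right _ hc'
        omega
  · intro h
    obtain ⟨g, hg⟩ := (Equiv.Perm.exists_with_cycleType_iff (α := Fin n) (m := ({2, 2, r} : Multiset ℕ))).2
      ⟨by simp; omega, by intro a ha; simp at ha; rcases ha with rfl | rfl <;> omega⟩
    refine ⟨⟨g, Equiv.Perm.mem_alternatingGroup.2 ?_⟩, ?_⟩
    · rw [Equiv.Perm.sign_of_cycleType, hg]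
      refine Even.neg_one_pow ?_
      obtain ⟨j, hj⟩ := hrodd
      rw [Nat.even_iff]
      simp
      omega
    · rw [Subgroup.orderOf_mk, ← Equiv.Perm.lcm_cycleType, hg]
      simp only [Multiset.insert_eq_cons, Multiset.lcm_cons, Multiset.lcm_singleton, normalize_eq]
      rw [show lcm 2 (lcm 2 r) = lcm 2 r by rw [← lcm_assoc, lcm_same, normalize_eq]]
      exact Nat.Coprime.lcm_eq_mul ((Nat.coprime_primes Nat.prime_two hr).2 (Ne.symm hr2))

end Cfsg.Agent.S2467
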