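import Cfsg.Statements.S2471
import Cfsg.Agent.Lib.Two.PSL

set_option autoImplicit false
open Cfsg

namespace Cfsg.Agent.S2471

/-- In PSL(2,q) with q odd, the characteristic p is isolated from 2 in the prime graph: for F a finite field of odd characteristic p with at least 5 elements, PSL(2,F) has no element of order 2p. -/
theorem result {F : Type*} [Field F] [Fintype F] (p : ℕ) [Fact p.Prime] [CharP F p] (hp : p ≠ 2) (h5 : 5 ≤ Fintype.card F) (g : Matrix.ProjectiveSpecialLinearGroup (Fin 2) F) :
    orderOf g ≠ 2 * p := by
  exact Cfsg.Agent.Lib.Two.psl_two_no_order_two_p p hp g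

end Cfsg.Agent.S2471
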