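import Cfsg.Statements.S2474
import Cfsg.Agent.Lib.Recog.OddOrthAdjacency

set_option autoImplicit false
open Cfsg

namespace Cfsg.Agent.S2474

/-- For q odd and n ≥ 3 the simple groups PΩ(2n+1,q) and PSp(2n,q) (which have the same order but different sets of element orders) have the same prime graph: for all distinct primes r, s, one of them has an element of order r·s if and only if the other does. -/
theorem result {F : Type*} [Field F] [Fintype F] (hodd : Odd (Fintype.card F)) (n : ℕ) (hn : 3 ≤ n) (r s : ℕ) (hr : r.Prime) (hs : s.Prime) (hrs : r ≠ s) :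
    (r * s ∈ Set.range (orderOf : Cfsg.POmega F (Cfsg.quadFormOdd n F) → ℕ)) ↔ (r * s ∈ Set.range (orderOf : Cfsg.PSp n F → ℕ)) := by
  classical
  obtain ⟨p, hcp⟩ := CharP.exists F
  haveI hpF : Fact p.Prime := ⟨CharP.char_is_prime F p⟩
  have hp2 : p ≠ 2 := by
    rintro rfl
    exact Lib.Classical.QuadOmega.two_ne_zero_of_odd hodd (CharP.cast_eq_zero F 2)
  have eta : ∀ k : ℕ, ∃ η, Lib.Recog.SympPrimeGraph.IsEta k η := fun k => by
    rcases Nat.even_or_odd k with ⟨a, ha⟩ | h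
    · exact ⟨a, Or.inr ⟨⟨a, ha⟩, by omega⟩⟩
    · exact ⟨k, Or.inl ⟨h, rfl⟩⟩
  have two : ∀ t : ℕ, t.Prime → t ≠ 2 →
      ((2 * t ∈ Set.range (orderOf : Cfsg.POmega F (Cfsg.quadFormOdd n F) → ℕ)) ↔
        (2 * t ∈ Set.range (orderOf : Cfsg.PSp n F → ℕ))) := by
    intro t ht ht2
    by_cases htp : t = p
    · subst htp
      exact iff_of_true (Lib.Recog.OddOrthPrimeGraph.two_char t ht2 (by omega))
        (Lib.Recog.SympPrimeGraph.two_char t ht2 (by omega))
    · obtain ⟨η, hη⟩ := eta (orderOf ((Fintype.card F : ℕ) : ZMod t))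
      exact (Lib.Recog.OddOrthPrimeGraph.two_iff' p hp2 (by omega) ht ht2 htp rfl hη).trans
        (Lib.Recog.SympPrimeGraph.two_iff' p hp2 (by omega) ht ht2 htp rfl hη).symm
  have chr : ∀ t : ℕ, t.Prime → t ≠ 2 → t ≠ p →
      ((t * p ∈ Set.range (orderOf : Cfsg.POmega F (Cfsg.quadFormOdd n F) → ℕ)) ↔
        (t * p ∈ Set.range (orderOf : Cfsg.PSp n F → ℕ))) := by
    intro t ht ht2 htp
    obtain ⟨η, hη⟩ := eta (orderOf ((Fintype.card F : ℕ) : ZMod t))
    exact (Lib.Recog.OddOrthPrimeGraph.char_iff' p hp2 (by omega) ht ht2 htp rfl hη).trans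
      (Lib.Recog.SympPrimeGraph.char_iff p (by omega) ht ht2 htp rfl hη).symm
  by_cases hr2 : r = 2
  · subst hr2; exact two s hs (Ne.symm hrs)
  by_cases hs2 : s = 2
  · subst hs2; rw [mul_comm r 2]; exact two r hr hr2
  by_cases hrp : r = p
  · subst hrp; rw [mul_comm r s]; exact chr s hs hs2 (Ne.symm hrs)
  by_cases hsp : s = p
  · subst hsp; exact chr r hr hr2 hrs
  obtain ⟨η, hη⟩ := eta (orderOf ((Fintype.card F : ℕ) : ZMod r))
  obtain ⟨θ, hθ⟩ := eta (orderOf ((Fintype.card F : ℕ) : ZMod s))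
  exact (Lib.Recog.OddOrthPrimeGraph.pair_iff' p hp2 (by omega) hr hs hr2 hs2 hrp hsp hrs rfl rfl hη hθ).trans
    (Lib.Recog.SympPrimeGraph.pair_iff' p (by omega) hr hs hr2 hs2 hrp hsp hrs rfl rfl hη hθ).symm

end Cfsg.Agent.S2474
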