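import Cfsg.Statements.S2476
import Cfsg.Agent.Lib.Classical.SLThreeSpectrum

set_option autoImplicit false
open Cfsg

namespace Cfsg.Agent.S2476

open Matrix Lib.Classical

variable {F : Type*} [Field F] [Fintype F]

theorem pow_mk_eq_one_iff (g : SpecialLinearGroup (Fin 3) F) (k : ℕ) :
    (QuotientGroup.mk g : ProjectiveSpecialLinearGroup (Fin 3) F) ^ k = 1 ↔
      ∃ e : F, (g : Matrix (Fin 3) (Fin 3) F) ^ k = e • 1 := by
  rw [← QuotientGroup.mk_pow, QuotientGroup.eq_one_iff, Matrix.SpecialLinearGroup.mem_center_iff]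
  constructor
  · rintro ⟨r, -, hr⟩
    exact ⟨r, by rw [← SLThree.coe_pow', ← hr, Matrix.smul_one_eq_diagonal, Matrix.scalar_apply]⟩
  · rintro ⟨e, he⟩
    refine ⟨e, ?_, ?_⟩
    · have h := congrArg Matrix.det he
      rw [det_pow, g.2, one_pow, det_smul, det_one, mul_one] at h
      exact h.symm
    · rw [SLThree.coe_pow', he, Matrix.smul_one_eq_diagonal, Matrix.scalar_apply]

theorem mem_range_of {B s : ℕ}
    (h : ∃ g : SpecialLinearGroup (Fin 3) F, ∀ k : ℕ,
      (∃ e : F, (g : Matrix (Fin 3) (Fin 3) F) ^ k = e • 1) → B ∣ k) (hs : s ∣ B) :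
    s ∈ Set.range (orderOf : ProjectiveSpecialLinearGroup (Fin 3) F → ℕ) := by
  obtain ⟨g, hg⟩ := h
  set x := (QuotientGroup.mk g : ProjectiveSpecialLinearGroup (Fin 3) F)
  have hd : s ∣ orderOf x := hs.trans (hg _ ((pow_mk_eq_one_iff g _).1 (pow_orderOf_eq_one x)))
  exact ⟨x ^ (orderOf x / s), orderOf_pow_orderOf_div (orderOf_pos x).ne' hd⟩

/-- The set of element orders of PSL(3,q): let F be a finite field of characteristic p with q elements and d = gcd(3, q − 1). The orders of elements of PSL(3,F) are exactly the divisors of (q² + q + 1)/d, of (q² − 1)/d, of q − 1, of p(q − 1)/d, and, when p = 2, of 4. -/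
theorem result {F : Type*} [Field F] [Fintype F] (p : ℕ) [Fact p.Prime] [CharP F p] :
    Set.range (orderOf : Matrix.ProjectiveSpecialLinearGroup (Fin 3) F → ℕ) =
      {m : ℕ | m ∣ (Fintype.card F ^ 2 + Fintype.card F + 1) / Nat.gcd 3 (Fintype.card F - 1) ∨
        m ∣ (Fintype.card F ^ 2 - 1) / Nat.gcd 3 (Fintype.card F - 1) ∨ m ∣ Fintype.card F - 1 ∨
        m ∣ p * (Fintype.card F - 1) / Nat.gcd 3 (Fintype.card F - 1) ∨ (p = 2 ∧ m ∣ 4)} := by
  refine Set.Subset.antisymm ?_ ?_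
  · rintro _ ⟨x, rfl⟩
    induction x using QuotientGroup.induction_on with
    | H g =>
      obtain ⟨B, hB, he⟩ := SLThree.scalar_power p g
      have hd : orderOf (QuotientGroup.mk g : ProjectiveSpecialLinearGroup (Fin 3) F) ∣ B :=
        orderOf_dvd_of_pow_eq_one ((pow_mk_eq_one_iff g B).2 he)
      rcases hB with rfl | rfl | rfl | rfl | ⟨hp, rfl⟩
      exacts [Or.inl hd, Or.inr (Or.inl hd), Or.inr (Or.inr (Or.inl hd)),
        Or.inr (Or.inr (Or.inr (Or.inl hd))), Or.inr (Or.inr (Or.inr (Or.inr ⟨hp, hd⟩)))]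
  · rintro s (hs | hs | hs | hs | ⟨hp, hs⟩)
    exacts [mem_range_of (SLThree.lower_singer p) hs, mem_range_of (SLThree.lower_split p) hs,
      mem_range_of SLThree.lower_cyclic hs, mem_range_of (SLThree.lower_mixed p) hs,
      mem_range_of (SLThree.lower_four p hp) hs]

end Cfsg.Agent.S2476
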