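import Cfsg.Statements.S2479
import Cfsg.Agent.Lib.GLn.SLClassBounds

set_option autoImplicit false
open Cfsg

namespace Cfsg.Agent.S2479

/-- The number of conjugacy classes of SL(n,q): for F a finite field with q elements, the number k of conjugacy classes of SL(n,F) satisfies q^(n−1) < k and k ≤ (5/2)·q^(n−1) for n ≥ 2, and k ≤ q^(n−1) + 3q^(n−2) for n ≥ 3. -/
theorem result {F : Type*} [Field F] [Fintype F] (n : ℕ) (hn : 2 ≤ n) :
    Fintype.card F ^ (n - 1) < Nat.card (ConjClasses (Matrix.SpecialLinearGroup (Fin n) F)) ∧ 2 * Nat.card (ConjClasses (Matrix.SpecialLinearGroup (Fin n) F)) ≤ 5 * Fintype.card F ^ (n - 1) ∧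
      (3 ≤ n → Nat.card (ConjClasses (Matrix.SpecialLinearGroup (Fin n) F)) ≤ Fintype.card F ^ (n - 1) + 3 * Fintype.card F ^ (n - 2)) := by
  refine ⟨Cfsg.Agent.Lib.GLn.SLClassCount.lt_card_sl hn, ?_, fun h => Cfsg.Agent.Lib.GLn.SLClassBounds.sl_ge_three F n h⟩
  have hq : 2 ≤ Fintype.card F := Fintype.one_lt_card
  rcases eq_or_lt_of_le hn with rfl | hn3
  · obtain ⟨h1, h2⟩ := Cfsg.Agent.Lib.GLn.SLClassBounds.sl_two F
    show 2 * _ ≤ 5 * Fintype.card F ^ 1
    rw [pow_one]
    by_cases he : 2 ∣ Fintype.card F - 1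
    · omega
    · have := h2 he
      omega
  · have h := Cfsg.Agent.Lib.GLn.SLClassBounds.sl_ge_three F n (by omega)
    have e : Fintype.card F ^ (n - 1) = Fintype.card F * Fintype.card F ^ (n - 2) := by
      rw [← pow_succ']; congr 1; omega
    have : 2 * Fintype.card F ^ (n - 2) ≤ Fintype.card F * Fintype.card F ^ (n - 2) := Nat.mul_le_mul_right _ hq
    omega

end Cfsg.Agent.S2479
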