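import Cfsg.Statements.S2482
import Cfsg.Agent.Lib.IsoClassCount.Upper
import Cfsg.Agent.Lib.IsoClassCount.Bridge

set_option autoImplicit false
open Cfsg
open scoped Matrix

namespace Cfsg.Agent.S2482

/-- The number of conjugacy classes of Sp(2n,q), q odd: for F a finite field of odd order q and n ≥ 1, the number k of conjugacy classes of Sp(2n,F) satisfies q^n ≤ k ≤ 10.8·q^n. -/
theorem result {F : Type*} [Field F] [Fintype F] (hodd : Odd (Fintype.card F)) (n : ℕ) (hn : 1 ≤ n) :
    Fintype.card F ^ n ≤ Nat.card (ConjClasses (Matrix.symplecticGroup (Fin n) F)) ∧ 5 * Nat.card (ConjClasses (Matrix.symplecticGroup (Fin n) F)) ≤ 54 * Fintype.card F ^ n := by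
  classical
  have h2 : (2 : F) ≠ 0 := Ring.two_ne_zero fun h => by
    have hev := FiniteField.even_card_of_char_two h
    rw [Nat.odd_iff] at hodd
    omega
  have hJd : (Matrix.reindex finSumFinEquiv finSumFinEquiv (Matrix.J (Fin n) F)).det ≠ 0 := by
    rw [Matrix.det_reindex_self]; exact (Matrix.isUnit_det_J (Fin n) F).ne_zero
  have hJT : (Matrix.reindex finSumFinEquiv finSumFinEquiv (Matrix.J (Fin n) F))ᵀ =
      (-1 : F) • Matrix.reindex finSumFinEquiv finSumFinEquiv (Matrix.J (Fin n) F) := by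
    rw [Matrix.transpose_reindex, Matrix.J_transpose]; ext i j; simp
  refine ⟨?_, ?_⟩
  · let cp : ConjClasses ↥(Matrix.symplecticGroup (Fin n) F) → Polynomial F :=
      Quotient.lift (fun A => (A : Matrix (Fin n ⊕ Fin n) (Fin n ⊕ Fin n) F).charpoly)
        fun A B h => Agent.Lib.Classical.SympSemisimpleClasses.charpoly_isConj h
    haveI : Fintype (ConjClasses ↥(Matrix.symplecticGroup (Fin n) F)) := Fintype.ofFinite _
    rw [← Agent.Lib.IsoClassCount.card_palF (F := F) n, Nat.card_eq_fintype_card, ← Finset.card_univ]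
    refine Finset.card_le_card_of_surjOn cp fun P hP => ?_
    have hP' := Agent.Lib.IsoClassCount.mem_palF.1 (Finset.mem_coe.1 hP)
    obtain ⟨A, hA⟩ := Agent.Lib.Classical.SympSemisimpleClasses.exists_symplectic hP'.1 hP'.2.1 hP'.2.2
    exact ⟨ConjClasses.mk A, Finset.mem_coe.2 (Finset.mem_univ _), hA⟩
  · rw [Agent.Lib.IsoClassCount.card_classes_congr (Agent.Lib.IsoClassCount.spEquiv finSumFinEquiv)]
    exact Agent.Lib.IsoClassCount.symp_upper h2 hn _ hJd hJT

end Cfsg.Agent.S2482
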