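import Cfsg.Statements.S2485
import Cfsg.Agent.Lib.GLn.PGLTwoSylow
import Cfsg.Agent.Lib.Classical.Order

set_option autoImplicit false
open scoped Pointwise
open Cfsg

namespace Cfsg.Agent.S2485

/-- Let q = 2^k − 1 ≥ 7 be a prime and let G = PGL(2,q), the general linear group of degree 2 over the field with q elements modulo its centre. Then any two Sylow 2-subgroups of G have a non-trivial intersection: for a Sylow 2-subgroup H and every x ∈ G, H ∩ H^x ≠ 1. -/
theorem result {q k : ℕ} [Fact q.Prime] (hk : q + 1 = 2 ^ k) (hq : 7 ≤ q)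
    (H : Sylow 2 (GL (Fin 2) (ZMod q) ⧸ Subgroup.center (GL (Fin 2) (ZMod q))))
    (x : GL (Fin 2) (ZMod q) ⧸ Subgroup.center (GL (Fin 2) (ZMod q))) :
    (H : Subgroup (GL (Fin 2) (ZMod q) ⧸ Subgroup.center (GL (Fin 2) (ZMod q)))) ⊓ MulAut.conj x • (H : Subgroup _) ≠ ⊥ := by
  have h2 : (2 : ZMod q) ≠ 0 := by
    intro h
    have h' : ((2 : ℕ) : ZMod q) = 0 := by exact_mod_cast h
    rw [ZMod.natCast_eq_zero_iff] at h'
    have := Nat.le_of_dvd (by norm_num) h'
    omega
  obtain ⟨w, h1, hw, hw'⟩ := Lib.GLn.PGLTwoSylow.sylow_meet (F := ZMod q) (k := k) (by rw [ZMod.card]; exact hk)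
    (by rw [ZMod.card]; exact hq) h2 Lib.Classical.card_PGL_two H x
  intro h
  refine h1 ((Subgroup.eq_bot_iff_forall _).1 h w ⟨hw, ?_⟩)
  change w ∈ MulAut.conj x • (H : Subgroup _)
  rw [Subgroup.mem_pointwise_smul_iff_inv_smul_mem, ← map_inv, MulAut.smul_def,
    MulAut.conj_apply, inv_inv]
  exact hw'

end Cfsg.Agent.S2485
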