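import Cfsg.Statements.S2486
import Cfsg.Agent.Lib.GLFlag.Bruhat
import Cfsg.Agent.Lib.Transfer.Basic
import Mathlib.LinearAlgebra.Matrix.Charpoly.Basic
import Mathlib.LinearAlgebra.Matrix.Charpoly.Coeff
import Mathlib.Algebra.CharP.Lemmas

set_option autoImplicit false
open scoped Pointwise
open Cfsg

namespace Cfsg.Agent.S2486

open Cfsg.Agent.Lib

variable {n : ℕ}

local notation "GLtwo" => GL (Fin n) (ZMod 2)
local notation "Ut" => upperTriangularGL n (ZMod 2)

theorem zmod_two_eq_one : ∀ b : ZMod 2, b ≠ 0 → b = 1 := by decide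

theorem diag_one {g : GLtwo} (hg : g ∈ Ut) (i : Fin n) : (g : Matrix (Fin n) (Fin n) (ZMod 2)) i i = 1 := by
  have h : ((g : Matrix (Fin n) (Fin n) (ZMod 2))).det ≠ 0 := by
    intro h0
    have : IsUnit (g : Matrix (Fin n) (Fin n) (ZMod 2)) := g.isUnit
    rw [Matrix.isUnit_iff_isUnit_det, h0] at this
    exact not_isUnit_zero this
  rw [Matrix.det_of_upperTriangular hg, Finset.prod_ne_zero_iff] at h
  have := h i (Finset.mem_univ i)
  revert this
  generalize (g : Matrix (Fin n) (Fin n) (ZMod 2)) i i = a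
  revert a
  decide

theorem isPGroup_upper : IsPGroup 2 (Ut : Subgroup GLtwo) := by
  haveI : Fact (Nat.Prime 2) := ⟨Nat.prime_two⟩
  rintro ⟨g, hg⟩
  refine ⟨n, Subtype.ext (Units.ext ?_)⟩
  set M : Matrix (Fin n) (Fin n) (ZMod 2) := (g : Matrix (Fin n) (Fin n) (ZMod 2)) with hM
  show ((g ^ 2 ^ n : GLtwo) : Matrix (Fin n) (Fin n) (ZMod 2)) = 1
  rw [Units.val_pow_eq_pow_val, ← hM]
  have hnil : (M - 1) ^ n = 0 := by
    have hchar := Matrix.aeval_self_charpoly M
    rw [Matrix.charpoly_of_upperTriangular M hg] at hchar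
    simp only [hM, diag_one hg] at hchar
    simpa [Finset.prod_const] using hchar
  rcases isEmpty_or_nonempty (Fin n) with h | h
  · exact Subsingleton.elim _ _
  have h2 : (M - 1) ^ 2 ^ n = M ^ 2 ^ n - 1 ^ 2 ^ n := sub_pow_char_pow_of_commute (p := 2) (n := n) (Commute.one_right M)
  rw [pow_eq_zero_of_le (Nat.lt_two_pow_self).le hnil, one_pow] at h2
  exact sub_eq_zero.mp h2.symm

/-- Elementary transvection. -/
def tv (i j : Fin n) (h : i ≠ j) : GLtwo :=
  ⟨Matrix.transvection i j 1, Matrix.transvection i j 1,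
    by rw [Matrix.transvection_mul_transvection_same _ _ h, show (1 : ZMod 2) + 1 = 0 from rfl, Matrix.transvection_zero],
    by rw [Matrix.transvection_mul_transvection_same _ _ h, show (1 : ZMod 2) + 1 = 0 from rfl, Matrix.transvection_zero]⟩

theorem tv_mem {i j : Fin n} (hlt : i < j) : tv i j hlt.ne ∈ Ut := by
  show Matrix.BlockTriangular (Matrix.transvection i j (1 : ZMod 2)) id
  exact Matrix.blockTriangular_transvection (b := id) hlt.le 1

theorem tv_not_mem {i j : Fin n} (h : i ≠ j) (hlt : j < i) : tv i j h ∉ Ut := by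
  intro hm
  have h0 := hm (show id j < id i from hlt)
  simp [tv, Matrix.transvection, Matrix.one_apply, h] at h0

theorem tv_ne_one {i j : Fin n} (h : i ≠ j) : tv i j h ≠ 1 := by
  intro e
  have := congrArg (fun M : GLtwo => (M : Matrix (Fin n) (Fin n) (ZMod 2)) i j) e
  simp [tv, Matrix.transvection, Matrix.one_apply, h] at this

theorem conj_tv (w : Equiv.Perm (Fin n)) {i j : Fin n} (h : i ≠ j) :
    GLFlag.permGL w * tv i j h * (GLFlag.permGL w)⁻¹ = tv (w i) (w j) (w.injective.ne h) := by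
  rw [mul_inv_eq_iff_eq_mul]
  refine Units.ext (Matrix.ext fun a b => ?_)
  have hL : ∀ M : Matrix (Fin n) (Fin n) (ZMod 2), ((GLFlag.pmat w : Matrix (Fin n) (Fin n) (ZMod 2)) * M) a b = M (w⁻¹ a) b := by
    intro M
    rw [Matrix.mul_apply, Finset.sum_eq_single (w⁻¹ a)]
    · simp [GLFlag.pmat]
    · intro k _ hk
      have : a ≠ w k := fun e => hk (by simp [e])
      simp [GLFlag.pmat, this]
    · simp
  have hR : ∀ M : Matrix (Fin n) (Fin n) (ZMod 2), (M * (GLFlag.pmat w : Matrix (Fin n) (Fin n) (ZMod 2))) a b = M a (w b) := by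
    intro M
    rw [Matrix.mul_apply, Finset.sum_eq_single (w b)]
    · simp [GLFlag.pmat]
    · intro k _ hk
      simp [GLFlag.pmat, hk]
    · simp
  rw [Units.val_mul, Units.val_mul, GLFlag.permGL_coe, hL, hR]
  obtain ⟨c, rfl⟩ := w.surjective a
  simp [tv, Matrix.transvection, Matrix.one_apply, Matrix.single_apply]

theorem conj_upper {b : GLtwo} (hb : b ∈ Ut) {u : GLtwo} : b * u * b⁻¹ ∈ Ut ↔ u ∈ Ut := by
  refine ⟨fun h => ?_, fun h => mul_mem (mul_mem hb h) (inv_mem hb)⟩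
  have := mul_mem (mul_mem (inv_mem hb) h) hb
  simpa [mul_assoc] using this

theorem self_normalizing (g : GLtwo) (hg : ∀ u ∈ Ut, g * u * g⁻¹ ∈ Ut) : g ∈ Ut := by
  obtain ⟨b, b', hb, hb', w, rfl⟩ := GLFlag.bruhat g
  have hw : ∀ u ∈ Ut, GLFlag.permGL w * u * (GLFlag.permGL w)⁻¹ ∈ Ut := by
    intro u hu
    have := hg (b'⁻¹ * u * b') (mul_mem (mul_mem (inv_mem hb') hu) hb')
    rw [show b * GLFlag.permGL w * b' * (b'⁻¹ * u * b') * (b * GLFlag.permGL w * b')⁻¹ =
      b * (GLFlag.permGL w * u * (GLFlag.permGL w)⁻¹) * b⁻¹ by group] at this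
    exact (conj_upper hb).mp this
  have hmono : StrictMono w := by
    intro i j hij
    have h1 := hw _ (tv_mem hij)
    rw [conj_tv] at h1
    rcases lt_trichotomy (w i) (w j) with h | h | h
    · exact h
    · exact absurd (w.injective h) hij.ne
    · exact absurd h1 (tv_not_mem _ h)
  have hw1 : w = 1 := Equiv.ext fun i => congrFun (StrictMono.eq_id hmono) i
  subst hw1
  rw [map_one, mul_one]
  exact mul_mem hb hb'

theorem opposite (g h : GLtwo) (hg : ∀ u ∈ Ut, g * u * g⁻¹ ∈ Ut → u = 1) (hh : ∀ u ∈ Ut, h * u * h⁻¹ ∈ Ut → u = 1) :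
    ∃ b ∈ Ut, ∀ u ∈ Ut, ∃ v ∈ Ut, h * u * h⁻¹ = b * (g * v * g⁻¹) * b⁻¹ := by
  obtain ⟨b₁, b₁', hb₁, hb₁', w₁, rfl⟩ := GLFlag.bruhat g
  obtain ⟨b₂, b₂', hb₂, hb₂', w₂, rfl⟩ := GLFlag.bruhat h
  have anti : ∀ (b b' : GLtwo) (w : Equiv.Perm (Fin n)), b ∈ Ut → b' ∈ Ut →
      (∀ u ∈ Ut, b * GLFlag.permGL w * b' * u * (b * GLFlag.permGL w * b')⁻¹ ∈ Ut → u = 1) → StrictAnti w := by
    intro b b' w hb hb' hyp i j hij
    rcases lt_trichotomy (w i) (w j) with h | h | h
    · exfalso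
      have h1 := hyp (b'⁻¹ * tv i j hij.ne * b') (mul_mem (mul_mem (inv_mem hb') (tv_mem hij)) hb') (by
        rw [show b * GLFlag.permGL w * b' * (b'⁻¹ * tv i j hij.ne * b') * (b * GLFlag.permGL w * b')⁻¹ =
          b * (GLFlag.permGL w * tv i j hij.ne * (GLFlag.permGL w)⁻¹) * b⁻¹ by group, conj_tv]
        exact (conj_upper hb).mpr (tv_mem h))
      refine tv_ne_one hij.ne ?_
      calc tv i j hij.ne = b' * (b'⁻¹ * tv i j hij.ne * b') * b'⁻¹ := by group
        _ = 1 := by rw [h1]; group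
    · exact absurd (w.injective h) hij.ne
    · exact h
  have h1 := anti b₁ b₁' w₁ hb₁ hb₁' hg
  have h2 := anti b₂ b₂' w₂ hb₂ hb₂' hh
  have hw : w₁ = w₂ := by
    have hm : StrictMono (w₁⁻¹.trans w₂) := by
      intro i j hij
      show w₂ (w₁⁻¹ i) < w₂ (w₁⁻¹ j)
      apply h2
      rcases lt_trichotomy (w₁⁻¹ j) (w₁⁻¹ i) with h | h | h
      · exact h
      · exact absurd (w₁⁻¹.injective h) hij.ne'
      · have := h1 h
        simp at this
        exact absurd this hij.not_gt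
    refine Equiv.ext fun i => ?_
    have := congrFun (StrictMono.eq_id hm) (w₁ i)
    simpa using this.symm
  subst hw
  refine ⟨b₂ * b₁⁻¹, mul_mem hb₂ (inv_mem hb₁), fun u hu =>
    ⟨b₁'⁻¹ * (b₂' * u * b₂'⁻¹) * b₁', mul_mem (mul_mem (inv_mem hb₁') (mul_mem (mul_mem hb₂' hu) (inv_mem hb₂'))) hb₁', ?_⟩⟩
  group

/-- Let n ≥ 4 and let G be a finite group with a normal subgroup N of index 2 isomorphic to SL(n,2) and with trivial centralizer in G (so G is the extension of the simple group L_n(2) by its inverse-transpose automorphism, its full automorphism group). Then any two Sylow 2-subgroups of G have a non-trivial intersection: for a Sylow 2-subgroup H and every x ∈ G, H ∩ H^x ≠ 1. -/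
theorem result {G : Type*} [Group G] [Finite G] {n : ℕ} (hn : 4 ≤ n) (N : Subgroup G) [N.Normal]
    (e : N ≃* Matrix.SpecialLinearGroup (Fin n) (ZMod 2)) (hidx : N.index = 2)
    (hC : Subgroup.centralizer (N : Set G) = ⊥)
    (H : Sylow 2 G) (x : G) :
    (H : Subgroup G) ⊓ MulAut.conj x • (H : Subgroup G) ≠ ⊥ := by
  classical
  haveI : Fact (Nat.Prime 2) := ⟨Nat.prime_two⟩
  let tg : Matrix.SpecialLinearGroup (Fin n) (ZMod 2) →* GL (Fin n) (ZMod 2) := Matrix.SpecialLinearGroup.toGL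
  have htg : Function.Bijective tg := by
    refine ⟨fun a b h => Subtype.ext (congrArg (fun u : GL (Fin n) (ZMod 2) => (u : Matrix (Fin n) (Fin n) (ZMod 2))) h), fun g => ?_⟩
    refine ⟨⟨(g : Matrix (Fin n) (Fin n) (ZMod 2)), ?_⟩, Units.ext rfl⟩
    have h : IsUnit ((g : Matrix (Fin n) (Fin n) (ZMod 2))).det := (Matrix.isUnit_iff_isUnit_det _).mp g.isUnit
    revert h
    generalize ((g : Matrix (Fin n) (Fin n) (ZMod 2))).det = a
    intro h
    exact zmod_two_eq_one a h.ne_zero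
  let e₀ : N ≃* GL (Fin n) (ZMod 2) := e.trans (MulEquiv.ofBijective tg htg)
  obtain ⟨S, hS⟩ := Lib.Transfer.exists_sylow_inf H N
  -- move `S` onto the triangular group
  have hP : IsPGroup 2 ((upperTriangularGL n (ZMod 2)).comap e₀.toMonoidHom) :=
    (isPGroup_upper (n := n)).comap_of_injective _ e₀.injective
  obtain ⟨T, hT⟩ := hP.exists_le_sylow
  obtain ⟨c, hc⟩ := MulAction.exists_smul_eq N S T
  let e₁ : N ≃* GL (Fin n) (ZMod 2) := (MulAut.conj c).trans e₀
  have hmemT : ∀ z : N, z ∈ (S : Subgroup N) ↔ c * z * c⁻¹ ∈ (T : Subgroup N) := by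
    intro z
    rw [← hc, Sylow.coe_subgroup_smul, Subgroup.mem_pointwise_smul_iff_inv_smul_mem, ← map_inv, MulAut.smul_def,
      MulAut.conj_apply, inv_inv, show c⁻¹ * (c * z * c⁻¹) * c = z by group]
  -- the triangular group is a Sylow subgroup
  have hTeq : ∀ z : N, z ∈ (T : Subgroup N) → e₀ z ∈ upperTriangularGL n (ZMod 2) := by
    intro z hz
    have hle : Subgroup.normalizer ((((upperTriangularGL n (ZMod 2)).comap e₀.toMonoidHom).subgroupOf (T : Subgroup N) : Subgroup (T : Subgroup N)) : Set (T : Subgroup N)) ≤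
        ((upperTriangularGL n (ZMod 2)).comap e₀.toMonoidHom).subgroupOf (T : Subgroup N) := by
      intro t ht
      rw [Subgroup.mem_subgroupOf, Subgroup.mem_comap]
      refine self_normalizing _ fun u hu => ?_
      obtain ⟨v, rfl⟩ := e₀.surjective u
      have h1 := (Subgroup.mem_normalizer_iff.mp ht ⟨v, hT hu⟩).mp (show _ ∈ _ from hu)
      rw [Subgroup.mem_subgroupOf, Subgroup.mem_comap] at h1
      show e₀ (t : N) * e₀ v * (e₀ (t : N))⁻¹ ∈ _
      rw [← map_mul, ← map_inv, ← map_mul]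
      exact h1
    haveI : Group.IsNilpotent (T : Subgroup N) := T.2.isNilpotent
    have htop : ((upperTriangularGL n (ZMod 2)).comap e₀.toMonoidHom).subgroupOf (T : Subgroup N) = ⊤ := by
      by_contra hne
      exact (Group.normalizerCondition_of_isNilpotent _ (lt_top_iff_ne_top.mpr hne)).not_ge hle
    exact Subgroup.mem_subgroupOf.mp (htop.ge (Subgroup.mem_top (⟨z, hz⟩ : (T : Subgroup N))))
  have hSU : ∀ z : N, z ∈ (S : Subgroup N) ↔ e₁ z ∈ upperTriangularGL n (ZMod 2) := by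
    intro z
    rw [hmemT]
    exact ⟨hTeq _, fun h => hT h⟩
  have hSelf : ∀ g : N, (∀ s ∈ (S : Subgroup N), g * s * g⁻¹ ∈ (S : Subgroup N)) → g ∈ (S : Subgroup N) := by
    intro g hg
    rw [hSU]
    refine self_normalizing _ fun u hu => ?_
    obtain ⟨v, rfl⟩ := e₁.surjective u
    rw [← map_mul, ← map_inv, ← map_mul, ← hSU]
    exact hg v ((hSU v).mpr hu)
  -- an element of the Sylow subgroup outside `N`
  intro hbot
  have hH : ¬ (H : Subgroup G) ≤ N := fun hle => H.not_dvd_index (by have := Subgroup.index_dvd_of_le hle; rwa [hidx] at this)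
  obtain ⟨h, hhH, hhN⟩ := SetLike.not_le_iff_exists.mp hH
  have hmeet : ∀ y : G, y ∈ (H : Subgroup G) → x⁻¹ * y * x ∈ (H : Subgroup G) → y = 1 := by
    intro y h1 h2
    have : y ∈ (H : Subgroup G) ⊓ MulAut.conj x • (H : Subgroup G) := by
      refine ⟨h1, ?_⟩
      show y ∈ MulAut.conj x • (H : Subgroup G)
      rw [Subgroup.mem_pointwise_smul_iff_inv_smul_mem, ← map_inv, MulAut.smul_def, MulAut.conj_apply, inv_inv]
      exact h2
    rwa [hbot, Subgroup.mem_bot] at this
  have hmemS : ∀ z : N, z ∈ (S : Subgroup N) ↔ (z : G) ∈ (H : Subgroup G) := by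
    intro z; rw [hS, Subgroup.mem_subgroupOf]
  -- the other Sylow subgroup is a conjugate of `S` inside `N`
  obtain ⟨d, m, hm, rfl⟩ : ∃ (d : N) (m : G), m ∈ (H : Subgroup G) ∧ x = d * m := by
    by_cases hx : x ∈ N
    · exact ⟨⟨x, hx⟩, 1, one_mem _, (mul_one x).symm⟩
    · refine ⟨⟨x * h, ?_⟩, h⁻¹, inv_mem hhH, (mul_inv_cancel_right x h).symm⟩
      exact (Subgroup.mul_mem_iff_of_index_two hidx).mpr (iff_of_false hx hhN)
  have hmeet' : ∀ y : G, y ∈ (H : Subgroup G) → (d : G)⁻¹ * y * d ∈ (H : Subgroup G) → y = 1 := by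
    intro y h1 h2
    refine hmeet y h1 ?_
    rw [show ((d : G) * m)⁻¹ * y * ((d : G) * m) = m⁻¹ * ((d : G)⁻¹ * y * d) * m by group]
    exact mul_mem (mul_mem (inv_mem hm) h2) hm
  let φ : N ≃* N := MulAut.conjNormal h
  have hφ : ∀ z : N, ((φ z : N) : G) = h * z * h⁻¹ := fun z => MulAut.conjNormal_apply h z
  -- both `d` and `φ d` are opposite to `S`
  have hop : ∀ g : N, (g = d ∨ g = φ d) → ∀ u ∈ upperTriangularGL n (ZMod 2),
      e₁ g * u * (e₁ g)⁻¹ ∈ upperTriangularGL n (ZMod 2) → u = 1 := by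
    intro g hg u hu hu'
    obtain ⟨v, rfl⟩ := e₁.surjective u
    rw [← map_mul, ← map_inv, ← map_mul, ← hSU, hmemS] at hu'
    rw [← hSU, hmemS] at hu
    suffices v = 1 by rw [this, map_one]
    rcases hg with rfl | rfl
    · have := hmeet' _ hu' (by simpa [mul_assoc] using hu)
      have h1 : (g : G) * v * (g : G)⁻¹ = 1 := by simpa using this
      exact Subtype.ext (by simpa using conj_eq_one_iff.mp h1)
    · have h2 : h⁻¹ * v * h ∈ (H : Subgroup G) := mul_mem (mul_mem (inv_mem hhH) hu) hhH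
      have h3 : (d : G) * (h⁻¹ * v * h) * (d : G)⁻¹ ∈ (H : Subgroup G) := by
        have := mul_mem (mul_mem (inv_mem hhH) hu') hhH
        simpa [hφ, mul_assoc] using this
      have h4 := hmeet' _ h3 (by simpa [mul_assoc] using h2)
      have h5 : h⁻¹ * (v : G) * h = 1 := conj_eq_one_iff.mp h4
      exact Subtype.ext (by
        calc (v : G) = h * (h⁻¹ * (v : G) * h) * h⁻¹ := by group
          _ = 1 := by rw [h5]; group)
  obtain ⟨b, hb, hbuv⟩ := opposite (e₁ d) (e₁ (φ d)) (hop d (Or.inl rfl)) (hop (φ d) (Or.inr rfl))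
  obtain ⟨b₀, rfl⟩ := e₁.surjective b
  rw [← hSU, hmemS] at hb
  -- the required element
  let y : G := (b₀ : G)⁻¹ * h
  have hyH : y ∈ (H : Subgroup G) := mul_mem (inv_mem hb) hhH
  have hyN : y ∉ N := fun hy => hhN (by simpa [y] using mul_mem b₀.2 hy)
  have hnorm : ∀ s : N, (s : G) ∈ (H : Subgroup G) → (d : G)⁻¹ * (y * ((d : G) * s * (d : G)⁻¹) * y⁻¹) * d ∈ (H : Subgroup G) := by
    intro s hs
    have hs' : h * (s : G) * h⁻¹ ∈ (H : Subgroup G) := mul_mem (mul_mem hhH hs) (inv_mem hhH)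
    obtain ⟨v, hv, hve⟩ := hbuv (e₁ (φ s)) (by rw [← hSU, hmemS, hφ]; exact hs')
    obtain ⟨v₀, rfl⟩ := e₁.surjective v
    rw [← hSU, hmemS] at hv
    simp only [← map_mul, ← map_inv] at hve
    have h6 : ((φ (d * s * d⁻¹) : N) : G) = ((b₀ * (d * v₀ * d⁻¹) * b₀⁻¹ : N) : G) :=
      congrArg Subtype.val (e₁.injective hve)
    rw [hφ] at h6
    simp only [Subgroup.coe_mul, Subgroup.coe_inv] at h6
    have h7 : (d : G)⁻¹ * (y * ((d : G) * s * (d : G)⁻¹) * y⁻¹) * d = v₀ := by
      calc (d : G)⁻¹ * (y * ((d : G) * s * (d : G)⁻¹) * y⁻¹) * d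
          = (d : G)⁻¹ * ((b₀ : G)⁻¹ * (h * ((d : G) * s * (d : G)⁻¹) * h⁻¹) * b₀) * d := by simp [y, mul_assoc]
        _ = v₀ := by rw [h6]; group
    rw [h7]; exact hv
  have hyy : (d : G)⁻¹ * y * d * h⁻¹ ∈ N :=
    (Subgroup.mul_mem_iff_of_index_two hidx).mpr (iff_of_false (fun hd => hyN (by
      have := (inferInstance : N.Normal).conj_mem _ hd d
      simpa [mul_assoc] using this)) fun hh' => hhN (by simpa using inv_mem hh'))
  have hin := hSelf ⟨_, hyy⟩ fun s hs => by
    rw [hmemS] at hs ⊢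
    have := hnorm (φ.symm s) (by
      have e : ((φ.symm s : N) : G) = h⁻¹ * s * h := by
        have h8 := hφ (φ.symm s)
        rw [MulEquiv.apply_symm_apply] at h8
        rw [h8]; group
      rw [e]; exact mul_mem (mul_mem (inv_mem hhH) hs) hhH)
    have e : ((φ.symm s : N) : G) = h⁻¹ * s * h := by
      have h8 := hφ (φ.symm s)
      rw [MulEquiv.apply_symm_apply] at h8
      rw [h8]; group
    rw [e] at this
    simpa [mul_assoc] using this
  rw [hmemS] at hin
  have hfin : (d : G)⁻¹ * y * d ∈ (H : Subgroup G) := by simpa using mul_mem hin hhH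
  exact hyN (hmeet' y hyH hfin ▸ one_mem N)

end Cfsg.Agent.S2486
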