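import Cfsg.Statements.S2487
import Cfsg.Agent.Lib.Classical.QuadOmega.Std

set_option autoImplicit false
open scoped Pointwise
open QuadraticMap

namespace Cfsg.Agent.S2487

open Cfsg.Agent.Lib.Classical Cfsg.Agent.Lib.Classical.Quad Cfsg.Agent.Lib.Classical.QuadOmega

variable (F : Type*) [Field F] (m : ℕ)

/-- The hyperbolic form on coordinates. -/
def hyp : QuadraticForm F (Fin m ⊕ Fin m → F) :=
  ∑ i : Fin m, QuadraticMap.linMulLin (LinearMap.proj (Sum.inl i)) (LinearMap.proj (Sum.inr i))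

theorem hyp_apply (v : Fin m ⊕ Fin m → F) : hyp F m v = ∑ i : Fin m, v (.inl i) * v (.inr i) := by
  simp [hyp]

theorem polar_hyp (u v : Fin m ⊕ Fin m → F) :
    polar (hyp F m) u v = ∑ i : Fin m, (u (.inl i) * v (.inr i) + v (.inl i) * u (.inr i)) := by
  simp only [polar, hyp_apply, Pi.add_apply]
  rw [← Finset.sum_sub_distrib, ← Finset.sum_sub_distrib]
  exact Finset.sum_congr rfl fun i _ => by ring

theorem nd_hyp (v : Fin m ⊕ Fin m → F) (hv : v ≠ 0) : ∃ t, polar (hyp F m) t v ≠ 0 := by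
  classical
  by_contra h
  push Not at h
  refine hv (funext fun s => ?_)
  rcases s with i | i
  · have := h (Pi.single (Sum.inr i) 1)
    rw [polar_hyp] at this
    simpa [Pi.single_apply] using this
  · have := h (Pi.single (Sum.inl i) 1)
    rw [polar_hyp] at this
    simpa [Pi.single_apply] using this

variable {F m} (i₀ : Fin m)

/-- The standard totally singular subspace of dimension `m - 1`. -/
def InW (v : Fin m ⊕ Fin m → F) : Prop := (∀ i, v (.inr i) = 0) ∧ v (.inl i₀) = 0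

/-- Its pointwise stabiliser. -/
def fixW : Subgroup (isoG (hyp F m)) where
  carrier := {g | ∀ w, InW i₀ w → g.1 w = w}
  one_mem' := fun _ _ => rfl
  mul_mem' := fun {a b} ha hb w hw => by
    show a.1 (b.1 w) = w
    rw [hb w hw, ha w hw]
  inv_mem' := fun {a} ha w hw => by
    show a.1.symm w = w
    rw [LinearEquiv.symm_apply_eq, ha w hw]

theorem fixW_pow (h01 : ∀ a : F, a = 0 ∨ a = 1) (h2 : (2 : F) = 0) (g : isoG (hyp F m))
    (hg : g ∈ fixW i₀) : g ^ 8 = 1 := by
  classical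
  let e : Fin m ⊕ Fin m → F := Pi.single (Sum.inl i₀) 1
  let f : Fin m ⊕ Fin m → F := Pi.single (Sum.inr i₀) 1
  let inP : (Fin m ⊕ Fin m → F) → Prop := fun v => ∀ i, i ≠ i₀ → v (.inr i) = 0
  have hperp : ∀ v, ∀ i, i ≠ i₀ → (g.1 v) (.inr i) = v (.inr i) := by
    intro v i hi
    have hw : InW i₀ (Pi.single (Sum.inl i) (1 : F) : Fin m ⊕ Fin m → F) :=
      ⟨fun j => by simp, by simp [hi, Ne.symm hi]⟩
    have h := iso_B g v (Pi.single (Sum.inl i) 1)
    rw [hg _ hw, polar_hyp, polar_hyp] at h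
    simpa [Pi.single_apply] using h
  have hdec : ∀ v, inP v → InW i₀ (v - v (.inl i₀) • e - v (.inr i₀) • f) := by
    intro v hv
    refine ⟨fun i => ?_, by simp [e, f]⟩
    rcases eq_or_ne i i₀ with rfl | hi
    · simp [e, f]
    · simp [e, f, hi, hv i hi]
  have hWadd : ∀ {a b : Fin m ⊕ Fin m → F}, InW i₀ a → InW i₀ b → InW i₀ (a + b) := fun ha hb =>
    ⟨fun i => by simp [ha.1 i, hb.1 i], by simp [ha.2, hb.2]⟩
  have hWsmul : ∀ (c : F) {a : Fin m ⊕ Fin m → F}, InW i₀ a → InW i₀ (c • a) := fun c a ha =>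
    ⟨fun i => by simp [ha.1 i], by simp [ha.2]⟩
  have hgW : ∀ a, InW i₀ a → InW i₀ (g.1 a) := fun a ha => by rw [hg a ha]; exact ha
  have hPe : inP e := fun i hi => by simp [e]
  have hPf : inP f := fun i hi => by simp [f, hi]
  have hPg : ∀ v, inP v → inP (g.1 v) := fun v hv i hi => by rw [hperp v i hi]; exact hv i hi
  -- the action on the plane
  have hQP : ∀ v, inP v → hyp F m v = v (.inl i₀) * v (.inr i₀) := by
    intro v hv
    rw [hyp_apply]
    refine Finset.sum_eq_single i₀ (fun i _ hi => by rw [hv i hi, mul_zero]) (by simp)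
  have hBP : ∀ u v, inP u → inP v → polar (hyp F m) u v =
      u (.inl i₀) * v (.inr i₀) + v (.inl i₀) * u (.inr i₀) := by
    intro u v hu hv
    rw [polar_hyp]
    refine Finset.sum_eq_single i₀ (fun i _ hi => by rw [hu i hi, hv i hi]; simp) (by simp)
  have hge := hdec _ (hPg e hPe)
  have hgf := hdec _ (hPg f hPf)
  have q1 : (g.1 e) (.inl i₀) * (g.1 e) (.inr i₀) = 0 := by
    rw [← hQP _ (hPg e hPe), iso_Q, hQP e hPe]; simp [e]
  have q2 : (g.1 f) (.inl i₀) * (g.1 f) (.inr i₀) = 0 := by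
    rw [← hQP _ (hPg f hPf), iso_Q, hQP f hPf]; simp [f]
  have q3 : (g.1 e) (.inl i₀) * (g.1 f) (.inr i₀) + (g.1 f) (.inl i₀) * (g.1 e) (.inr i₀) = 1 := by
    rw [← hBP _ _ (hPg e hPe) (hPg f hPf), iso_B, hBP e f hPe hPf]; simp [e, f]
  have hsq : InW i₀ (g.1 (g.1 e) - e) ∧ InW i₀ (g.1 (g.1 f) - f) := by
    rcases h01 ((g.1 e) (.inl i₀)) with hx | hx
    · rw [hx] at q3
      rw [zero_mul, zero_add] at q3
      have hy : (g.1 e) (.inr i₀) = 1 := (h01 _).resolve_left fun h => by simp [h] at q3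
      have hx' : (g.1 f) (.inl i₀) = 1 := (h01 _).resolve_left fun h => by simp [h] at q3
      have hy' : (g.1 f) (.inr i₀) = 0 := by simpa [hx'] using q2
      rw [hx, hy, zero_smul, sub_zero, one_smul] at hge
      rw [hx', hy', one_smul, zero_smul, sub_zero] at hgf
      constructor
      · have : g.1 (g.1 e) - e = g.1 (g.1 e - f) + (g.1 f - e) := by rw [map_sub]; abel
        rw [this]
        exact hWadd (hgW _ hge) hgf
      · have : g.1 (g.1 f) - f = g.1 (g.1 f - e) + (g.1 e - f) := by rw [map_sub]; abel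
        rw [this]
        exact hWadd (hgW _ hgf) hge
    · have hy : (g.1 e) (.inr i₀) = 0 := by simpa [hx] using q1
      rw [hx, hy, mul_zero, add_zero, one_mul] at q3
      have hx' : (g.1 f) (.inl i₀) = 0 := by simpa [q3] using q2
      rw [hx, hy, one_smul, zero_smul, sub_zero] at hge
      rw [hx', q3, zero_smul, sub_zero, one_smul] at hgf
      constructor
      · have : g.1 (g.1 e) - e = g.1 (g.1 e - e) + (g.1 e - e) := by rw [map_sub]; abel
        rw [this]
        exact hWadd (hgW _ hge) hge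
      · have : g.1 (g.1 f) - f = g.1 (g.1 f - f) + (g.1 f - f) := by rw [map_sub]; abel
        rw [this]
        exact hWadd (hgW _ hgf) hgf
  let D : (Fin m ⊕ Fin m → F) → (Fin m ⊕ Fin m → F) := fun v => g.1 (g.1 v) - v
  have hD1 : ∀ v, inP (D v) := fun v i hi => by simp [D, hperp _ i hi]
  have hD2 : ∀ v, inP v → InW i₀ (D v) := by
    intro v hv
    have hw := hdec v hv
    have e1 : D v = v (.inl i₀) • (g.1 (g.1 e) - e) + v (.inr i₀) • (g.1 (g.1 f) - f) := by
      have h' : g.1 (g.1 (v - v (.inl i₀) • e - v (.inr i₀) • f)) = v - v (.inl i₀) • e - v (.inr i₀) • f := by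
        rw [hg _ hw, hg _ hw]
      simp only [map_sub, map_smul] at h'
      simp only [D, smul_sub]
      linear_combination (norm := module) h'
    rw [e1]
    exact hWadd (hWsmul _ hsq.1) (hWsmul _ hsq.2)
  have hD3 : ∀ w, InW i₀ w → D w = 0 := fun w hw => by simp [D, hg w hw]
  have hDD : ∀ v, g.1 (g.1 (g.1 (g.1 v))) = v + D (D v) := by
    intro v
    simp only [D, map_sub]
    have h3 : (2 : F) • (g.1 (g.1 v) - v) = 0 := by rw [h2, zero_smul]
    linear_combination (norm := module) h3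
  refine Subtype.ext (LinearEquiv.ext fun v => ?_)
  show g.1 (g.1 (g.1 (g.1 (g.1 (g.1 (g.1 (g.1 v))))))) = v
  rw [hDD v, hDD]
  have hz : D (D (D (D v))) = 0 := by
    rw [hD3 _ (hD2 _ (hD1 (D v)))]
  have hlin : D (D (v + D (D v))) = D (D v) + D (D (D (D v))) := by
    simp only [D, map_add, map_sub]; abel
  rw [hlin, hz, add_zero, add_assoc, ← two_smul F, h2, zero_smul, add_zero]

variable [Fintype F]

theorem exists_common (h01 : ∀ a : F, a = 0 ∨ a = 1) (hm : 2 ≤ m) (g₁ g₂ : isoG (hyp F m)) :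
    ∃ y : isoG (hyp F m), y ≠ 1 ∧ g₁⁻¹ * y * g₁ ∈ fixW i₀ ∧ g₂⁻¹ * y * g₂ ∈ fixW i₀ := by
  classical
  let Φ : (Fin m ⊕ Fin m → F) →ₗ[F] (({i : Fin m // i ≠ i₀} → F) × ({i : Fin m // i ≠ i₀} → F)) :=
    { toFun := fun v => (fun i => g₁.1.symm v (.inr i.1), fun i => g₂.1.symm v (.inr i.1))
      map_add' := fun u v => by ext i <;> simp
      map_smul' := fun c v => by ext i <;> simp }
  have hrk : 2 ≤ Module.finrank F (LinearMap.ker Φ) := by
    have h := LinearMap.finrank_range_add_finrank_ker Φ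
    have hr := Submodule.finrank_le (LinearMap.range Φ)
    simp only [Module.finrank_prod, Module.finrank_fintype_fun_eq_card, Fintype.card_sum, Fintype.card_fin,
      Fintype.card_subtype_compl, Fintype.card_subtype_eq] at h hr
    omega
  have hperp : ∀ v ∈ LinearMap.ker Φ, ∀ w, InW i₀ w →
      polar (hyp F m) (g₁.1 w) v = 0 ∧ polar (hyp F m) (g₂.1 w) v = 0 := by
    intro v hv w hw
    rw [LinearMap.mem_ker] at hv
    have key : ∀ g : isoG (hyp F m), (∀ i, i ≠ i₀ → g.1.symm v (.inr i) = 0) →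
        polar (hyp F m) (g.1 w) v = 0 := by
      intro g hg
      rw [← g.1.apply_symm_apply v, iso_B, polar_hyp]
      refine Finset.sum_eq_zero fun i _ => ?_
      rcases eq_or_ne i i₀ with rfl | hi
      · rw [hw.1, hw.2]; simp
      · rw [hw.1, hg i hi]; simp
    exact ⟨key g₁ fun i hi => congrFun (congrArg Prod.fst hv) ⟨i, hi⟩,
      key g₂ fun i hi => congrFun (congrArg Prod.snd hv) ⟨i, hi⟩⟩
  have finish : ∀ y : isoG (hyp F m), y ≠ 1 →
      (∀ g : isoG (hyp F m), g = g₁ ∨ g = g₂ → ∀ w, InW i₀ w → y.1 (g.1 w) = g.1 w) →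
      ∃ y : isoG (hyp F m), y ≠ 1 ∧ g₁⁻¹ * y * g₁ ∈ fixW i₀ ∧ g₂⁻¹ * y * g₂ ∈ fixW i₀ := by
    intro y hy h
    refine ⟨y, hy, fun w hw => ?_, fun w hw => ?_⟩
    · show g₁.1.symm (y.1 (g₁.1 w)) = w
      rw [h g₁ (Or.inl rfl) w hw, LinearEquiv.symm_apply_apply]
    · show g₂.1.symm (y.1 (g₂.1 w)) = w
      rw [h g₂ (Or.inr rfl) w hw, LinearEquiv.symm_apply_apply]
  have hB : ∀ v ∈ LinearMap.ker Φ, ∀ g : isoG (hyp F m), g = g₁ ∨ g = g₂ → ∀ w, InW i₀ w →
      polar (hyp F m) (g.1 w) v = 0 := by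
    intro v hv g hg w hw
    rcases hg with rfl | rfl
    exacts [(hperp v hv w hw).1, (hperp v hv w hw).2]
  by_cases hns : ∃ v ∈ LinearMap.ker Φ, hyp F m v ≠ 0
  · obtain ⟨v, hv, hQ⟩ := hns
    refine finish (refl (hyp F m) v) (fun h => ?_) fun g hg w hw => ?_
    · obtain ⟨t, ht⟩ := nd_hyp F m v (fun e => hQ (by rw [e, map_zero]))
      have h' := refl_apply hQ t
      rw [h] at h'
      have : (polar (hyp F m) t v / hyp F m v) • v = 0 := by
        exact sub_eq_self.mp (show t - (polar (hyp F m) t v / hyp F m v) • v = t from h'.symm)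
      rcases smul_eq_zero.mp this with h'' | h''
      · exact ht ((div_eq_zero_iff.mp h'').resolve_right hQ)
      · exact hQ (by rw [h'', map_zero])
    · rw [refl_apply hQ, hB v hv g hg w hw]
      simp
  · push Not at hns
    obtain ⟨a₀, ha, ha0⟩ : ∃ a ∈ LinearMap.ker Φ, a ≠ 0 := by
      by_contra h
      push Not at h
      rw [(Submodule.eq_bot_iff _).mpr h, finrank_bot] at hrk
      omega
    obtain ⟨c₀, hc, hac⟩ : ∃ c ∈ LinearMap.ker Φ, c ∉ Submodule.span F {a₀} := by
      by_contra h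
      push Not at h
      have := Submodule.finrank_mono (R := F) (M := Fin m ⊕ Fin m → F) (show LinearMap.ker Φ ≤ Submodule.span F {a₀} from h)
      rw [finrank_span_singleton ha0] at this
      omega
    have hc0 : c₀ ≠ 0 := fun e => hac (e ▸ zero_mem _)
    let a : LinearMap.ker Φ := ⟨a₀, ha⟩
    let c : LinearMap.ker Φ := ⟨c₀, hc⟩
    have hac' : polar (hyp F m) (a : Fin m ⊕ Fin m → F) c = 0 := by
      rw [polar, ← Submodule.coe_add, hns _ (a + c).2, hns _ a.2, hns _ c.2]; simp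
    have hQa := hns _ a.2
    refine finish (sie (hyp F m) a c) (fun h => ?_) fun g hg w hw =>
      sie_fix hQa hac' (hB a a.2 g hg w hw) (hB c c.2 g hg w hw)
    obtain ⟨t, ht⟩ := nd_hyp F m (a : Fin m ⊕ Fin m → F) ha0
    have h' := sie_apply hQa hac' t
    rw [h, hns _ c.2, zero_mul, zero_smul, sub_zero, (h01 _).resolve_left ht, one_smul] at h'
    change t = t + (c : Fin m ⊕ Fin m → F) - _ at h'
    rcases h01 (polar (hyp F m) t c) with h0 | h0 <;> rw [h0] at h'
    · exact hc0 (show (c : Fin m ⊕ Fin m → F) = 0 by simpa using h')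
    · rw [one_smul, add_sub_assoc] at h'
      refine hac ?_
      rw [show c₀ = a₀ from sub_eq_zero.mp (left_eq_add.mp h')]
      exact Submodule.mem_span_singleton_self a₀

/-- Let m ≥ 4 and let G be the full isometry group of the hyperbolic quadratic form x₁y₁ + ⋯ + x_m y_m on the 2m-dimensional space over the field with 2 elements (the orthogonal group O⁺(2m,2), which contains Ω⁺(2m,2) with index 2). Then any two Sylow 2-subgroups of G have a non-trivial intersection: for a Sylow 2-subgroup H and every x ∈ G, H ∩ H^x ≠ 1. -/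
theorem result {F : Type*} [Field F] [Fintype F] (hF : Fintype.card F = 2) {m : ℕ} (hm : 4 ≤ m)
    (H : Sylow 2 (Cfsg.isometryGroup F (Cfsg.quadFormPlus m F)))
    (x : Cfsg.isometryGroup F (Cfsg.quadFormPlus m F)) :
    (H : Subgroup (Cfsg.isometryGroup F (Cfsg.quadFormPlus m F))) ⊓ MulAut.conj x • (H : Subgroup _) ≠ ⊥ := by
  classical
  haveI : Fact (Nat.Prime 2) := ⟨Nat.prime_two⟩
  have h01 : ∀ a : F, a = 0 ∨ a = 1 := fun a => by
    by_contra h
    push Not at h
    have h3 : ({0, 1, a} : Finset F).card = 3 := Finset.card_eq_three.mpr ⟨0, 1, a, zero_ne_one, h.1.symm, h.2.symm, rfl⟩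
    have := Finset.card_le_univ ({0, 1, a} : Finset F)
    omega
  have h2 : (2 : F) = 0 := by
    rcases h01 2 with h | h
    · exact h
    · exact absurd (by linear_combination h : (1 : F) = 0) one_ne_zero
  let i₀ : Fin m := ⟨0, by omega⟩
  let E : Cfsg.isometryGroup F (Cfsg.quadFormPlus m F) ≃* isoG (hyp F m) :=
    isoEquiv (Cfsg.quadFormPlus m F) (LinearEquiv.refl F (Fin m ⊕ Fin m → F))
      fun v => by rw [hyp_apply]; rfl
  haveI : Finite (isoG (hyp F m)) := Finite.of_equiv _ E.toEquiv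
  let H' : Sylow 2 (isoG (hyp F m)) := H.mapSurjective (f := E.toMonoidHom) E.surjective
  have hP : IsPGroup 2 (fixW (F := F) i₀) := fun g => ⟨3, Subtype.ext (fixW_pow i₀ h01 h2 g g.2)⟩
  obtain ⟨T, hT⟩ := hP.exists_le_sylow
  obtain ⟨g, hg⟩ := MulAction.exists_smul_eq (isoG (hyp F m)) T H'
  have hmem : ∀ y : isoG (hyp F m), g⁻¹ * y * g ∈ fixW (F := F) i₀ → E.symm y ∈ (H : Subgroup _) := by
    intro y hy
    have hy' : y ∈ (H' : Subgroup (isoG (hyp F m))) := by
      rw [← hg, Sylow.coe_subgroup_smul, Subgroup.mem_pointwise_smul_iff_inv_smul_mem, ← map_inv, MulAut.smul_def,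
        MulAut.conj_apply, inv_inv]
      exact hT hy
    obtain ⟨z, hz, hzy⟩ := hy'
    rw [← hzy, show E.symm (E.toMonoidHom z) = z from E.symm_apply_apply z]
    exact hz
  obtain ⟨y, hy1, hy2, hy3⟩ := exists_common i₀ h01 (by omega) g (E x * g)
  intro hbot
  have hmem' : E.symm y ∈ (H : Subgroup _) ⊓ MulAut.conj x • (H : Subgroup _) := by
    refine ⟨hmem y hy2, ?_⟩
    show E.symm y ∈ MulAut.conj x • (H : Subgroup (Cfsg.isometryGroup F (Cfsg.quadFormPlus m F)))
    rw [Subgroup.mem_pointwise_smul_iff_inv_smul_mem, ← map_inv, MulAut.smul_def, MulAut.conj_apply, inv_inv]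
    have := hmem ((E x)⁻¹ * y * E x) (by
      rw [show g⁻¹ * ((E x)⁻¹ * y * E x) * g = (E x * g)⁻¹ * y * (E x * g) by group]
      exact hy3)
    simpa using this
  rw [hbot, Subgroup.mem_bot] at hmem'
  exact hy1 (by simpa using congrArg E hmem')

end Cfsg.Agent.S2487
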