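import Cfsg.Statements.S2488
import Mathlib

set_option autoImplicit false
open scoped Pointwise
open Cfsg

namespace Cfsg.Agent.S2488

open Equiv

/-- the double transposition -/
def z0 : Perm (Fin 6) := swap 0 1 * swap 2 3

/-- the involutions of the alternating group of degree 6 -/
def inv4 : Finset (Perm (Fin 6)) :=
  Finset.univ.filter (fun w => w * w = 1 ∧ (Finset.univ.filter fun i => w i ≠ i).card = 4)

theorem cent_card : (Finset.univ.filter (fun g : Perm (Fin 6) => g * z0 = z0 * g ∧ Perm.sign g = 1)).card = 8 := by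
  decide +kernel

theorem checks : (∀ w ∈ inv4, (z0 * w) ^ 1 = 1 ∨ (z0 * w) ^ 2 = 1 ∨ (z0 * w) ^ 3 = 1 ∨ (z0 * w) ^ 4 = 1 ∨ (z0 * w) ^ 5 = 1) ∧
    ∀ k : Fin 5, (inv4.filter fun w => (z0 * w) ^ (k.1 + 1) = 1).card < 32 := by
  decide +kernel

theorem mem_inv4 (w : alternatingGroup (Fin 6)) (h : orderOf w = 2) : (w : Perm (Fin 6)) ∈ inv4 ∧
    (w : Perm (Fin 6)).cycleType = {2, 2} := by
  have h2 : orderOf (w : Perm (Fin 6)) = 2 := by rw [orderOf_submonoid]; exact h
  obtain ⟨k, hk⟩ := Perm.cycleType_prime_order (σ := (w : Perm (Fin 6))) (h2 ▸ Nat.prime_two)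
  rw [h2] at hk
  have hs : (w : Perm (Fin 6)).cycleType.sum ≤ 6 :=
    (Perm.sum_cycleType _).trans_le ((Finset.card_le_univ _).trans_eq (Fintype.card_fin 6))
  have hev := Perm.sign_of_cycleType (w : Perm (Fin 6))
  rw [show Perm.sign (w : Perm (Fin 6)) = 1 from w.2, hk] at hev
  rw [hk, Multiset.sum_replicate, smul_eq_mul] at hs
  have hk1 : k = 1 := by
    have : k ≤ 2 := by omega
    interval_cases k
    · revert hev; decide +kernel
    · rfl
    · revert hev; decide +kernel
  subst hk1
  refine ⟨?_, hk⟩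
  refine Finset.mem_filter.2 ⟨Finset.mem_univ _, by rw [← sq, ← h2, pow_orderOf_eq_one], ?_⟩
  have := Perm.sum_cycleType (w : Perm (Fin 6))
  rw [hk] at this
  exact this.symm

/-- The conjugation of the alternating group by a permutation. -/
theorem std (z : alternatingGroup (Fin 6)) (hz : orderOf z = 2) :
    ∃ φ : alternatingGroup (Fin 6) ≃* alternatingGroup (Fin 6), (φ z : Perm (Fin 6)) = z0 := by
  have h : IsConj (z : Perm (Fin 6)) z0 := by
    rw [Perm.isConj_iff_cycleType_eq, (mem_inv4 z hz).2]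
    decide +kernel
  obtain ⟨c, hc⟩ := isConj_iff.1 h
  exact ⟨MulAut.conjNormal c, by rw [MulAut.conjNormal_apply]; exact hc⟩

/-- Let G be a finite group with a normal subgroup N of index 4 isomorphic to the alternating group of degree 6 and with trivial centralizer in G (so G is the full automorphism group of A₆). Then any two Sylow 2-subgroups of G have a non-trivial intersection: for a Sylow 2-subgroup H and every x ∈ G, H ∩ H^x ≠ 1. -/
theorem result {G : Type*} [Group G] [Finite G] (N : Subgroup G) [N.Normal]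
    (e : N ≃* alternatingGroup (Fin 6)) (hidx : N.index = 4)
    (hC : Subgroup.centralizer (N : Set G) = ⊥)
    (H : Sylow 2 G) (x : G) :
    (H : Subgroup G) ⊓ MulAut.conj x • (H : Subgroup G) ≠ ⊥ := by
  classical
  haveI : Fact (Nat.Prime 2) := ⟨Nat.prime_two⟩
  have hA : Nat.card (alternatingGroup (Fin 6)) = 360 := by
    rw [nat_card_alternatingGroup, Nat.card_fin]; rfl
  have hG : Nat.card G = 1440 := by
    rw [← N.card_mul_index, Nat.card_congr e.toEquiv, hA, hidx]
  have hH : Nat.card H = 32 := by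
    rw [H.card_eq_multiplicity, hG, show (1440 : ℕ) = 2 ^ 5 * 45 by norm_num,
      Nat.factorization_mul (by norm_num) (by norm_num), Finsupp.add_apply,
      Nat.Prime.factorization_pow Nat.prime_two, Finsupp.single_eq_same,
      Nat.factorization_eq_zero_of_not_dvd (by norm_num)]
    rfl
  -- a central element of H in N
  haveI : Fintype G := Fintype.ofFinite G
  obtain ⟨z, hzN, hzH, hz2, hzc⟩ : ∃ z : G, z ∈ N ∧ z ∈ (H : Subgroup G) ∧ orderOf z = 2 ∧
      ∀ h ∈ (H : Subgroup G), h * z = z * h := by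
    let K : Subgroup H := N.subgroupOf (H : Subgroup G)
    have hdvd : Nat.card H ∣ Nat.card K * 4 := by
      rw [← K.card_mul_index]
      refine mul_dvd_mul_left _ ?_
      rw [← hidx, show K.index = N.relIndex (H : Subgroup G) from rfl]
      exact Subgroup.relIndex_dvd_index_of_normal N _
    rw [hH] at hdvd
    have h2K : 2 ∣ Nat.card K := by
      have : 8 ∣ Nat.card K := by omega
      exact dvd_trans (by norm_num) this
    have hfix : (1 : K) ∈ MulAction.fixedPoints (ConjAct H) K := fun a => smul_one a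
    obtain ⟨b, hb, hb1⟩ := IsPGroup.exists_fixed_point_of_prime_dvd_card_of_fixed_point
      (show IsPGroup 2 (ConjAct H) from H.isPGroup') (α := K) h2K hfix
    obtain ⟨j, hj⟩ := H.isPGroup' (b : H)
    have hbne : (b : H) ≠ 1 := fun h => hb1 (Subtype.ext h.symm)
    have hb0 : orderOf (b : H) ≠ 1 := fun h => hbne (orderOf_eq_one_iff.1 h)
    have hd : 2 ∣ orderOf (b : H) := by
      obtain ⟨i, -, hi⟩ := (Nat.dvd_prime_pow Nat.prime_two).1 (orderOf_dvd_of_pow_eq_one hj)
      rw [hi] at hb0 ⊢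
      exact dvd_pow_self 2 (by rintro rfl; simp at hb0)
    set m := orderOf (b : H) / 2 with hm
    refine ⟨(((b : H) ^ m : H) : G), ?_, ((b : H) ^ m).2, ?_, ?_⟩
    · rw [SubmonoidClass.coe_pow]; exact pow_mem b.2 m
    · rw [orderOf_submonoid, orderOf_pow' _ (by have := orderOf_pos (b : H); omega)]
      rw [Nat.gcd_eq_right (Nat.div_dvd_of_dvd hd)]
      exact Nat.div_div_self hd (orderOf_pos (b : H)).ne'
    · intro h hh
      have hc : Commute (⟨h, hh⟩ : H) (b : H) := by
        have := congrArg Subtype.val (hb (ConjAct.toConjAct ⟨h, hh⟩))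
        rw [ConjAct.Subgroup.val_conj_smul, ConjAct.toConjAct_smul] at this
        exact mul_inv_eq_iff_eq_mul.1 this
      exact congrArg Subtype.val (hc.pow_right m).eq
  obtain ⟨φ, hφ⟩ := std (e ⟨z, hzN⟩) (by
    rw [MulEquiv.orderOf_eq, Subgroup.orderOf_mk]; exact hz2)
  set f : N ≃* alternatingGroup (Fin 6) := e.trans φ
  have hfz : (f ⟨z, hzN⟩ : Perm (Fin 6)) = z0 := hφ
  -- the centralizer of z is H
  let C : Subgroup G := Subgroup.centralizer {z}
  have hHC : (H : Subgroup G) ≤ C := fun h hh => Subgroup.mem_centralizer_singleton_iff.2 (hzc h hh)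
  have hCH : C = (H : Subgroup G) := by
    refine (Subgroup.eq_of_le_of_card_ge hHC ?_).symm
    have h8 : Nat.card (N.subgroupOf C) ≤ 8 := by
      let S := Finset.univ.filter (fun g : Perm (Fin 6) => g * z0 = z0 * g ∧ Perm.sign g = 1)
      have : ∀ c : N.subgroupOf C, (f ⟨((c : C) : G), c.2⟩ : Perm (Fin 6)) ∈ S := fun c => by
        refine Finset.mem_filter.2 ⟨Finset.mem_univ _, ?_, (f _).2⟩
        rw [← hfz, ← Subgroup.coe_mul, ← Subgroup.coe_mul, ← map_mul, ← map_mul]
        exact congrArg (fun a => (f a : Perm (Fin 6))) (Subtype.ext (Subgroup.mem_centralizer_singleton_iff.1 (c : C).2))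
      calc Nat.card (N.subgroupOf C) ≤ Nat.card S := Nat.card_le_card_of_injective (fun c => ⟨_, this c⟩) (by
            intro a b hab
            have := congrArg Subtype.val hab
            simp only at this
            have h := f.injective (Subtype.ext this)
            exact Subtype.ext (Subtype.ext (Subtype.mk.inj h)))
        _ = 8 := by rw [Nat.card_eq_fintype_card, Fintype.card_coe]; exact cent_card
    have hle : N.relIndex C ≤ 4 := hidx ▸ Nat.le_of_dvd (by omega) (Subgroup.relIndex_dvd_index_of_normal N C)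
    rw [hH, ← (N.subgroupOf C).card_mul_index]
    exact Nat.mul_le_mul h8 hle
  -- the orbit of w
  intro hbot
  have hwN : x * z * x⁻¹ ∈ N := Subgroup.Normal.conj_mem inferInstance z hzN x
  let cz : G → N := fun h => ⟨h * (x * z * x⁻¹) * h⁻¹, Subgroup.Normal.conj_mem inferInstance _ hwN h⟩
  have hord : ∀ h, (f (cz h) : Perm (Fin 6)) ∈ inv4 := fun h => (mem_inv4 _ (by
    have : orderOf (h * (x * z * x⁻¹) * h⁻¹) = 2 := by
      rw [← hz2, ← MulEquiv.orderOf_eq (MulAut.conj (h * x)) z]
      congr 1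
      simp [MulAut.conj_apply, mul_assoc]
    rw [MulEquiv.orderOf_eq, Subgroup.orderOf_mk]; exact this)).1
  obtain ⟨k, hk⟩ : ∃ k : Fin 5, (z0 * (f (cz 1) : Perm (Fin 6))) ^ (k.1 + 1) = 1 := by
    rcases checks.1 _ (hord 1) with h | h | h | h | h
    exacts [⟨0, h⟩, ⟨1, h⟩, ⟨2, h⟩, ⟨3, h⟩, ⟨4, h⟩]
  have hmem : ∀ h : H, (f (cz h) : Perm (Fin 6)) ∈ inv4.filter fun w => (z0 * w) ^ (k.1 + 1) = 1 := by
    intro h
    refine Finset.mem_filter.2 ⟨hord _, ?_⟩
    have h1 : ((⟨z, hzN⟩ : N) * cz 1) ^ (k.1 + 1) = 1 := by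
      apply f.injective
      apply Subtype.ext
      rw [map_pow, map_mul, map_one, SubmonoidClass.coe_pow, Subgroup.coe_mul, hfz]
      exact hk
    have h2 : ((⟨z, hzN⟩ : N) * cz h) ^ (k.1 + 1) = 1 := by
      apply Subtype.ext
      have := congrArg (fun a : N => (h : G) * (a : G) * (h : G)⁻¹) h1
      simp only [SubmonoidClass.coe_pow, Subgroup.coe_mul, OneMemClass.coe_one, mul_one, mul_inv_cancel, ← conj_pow] at this ⊢
      refine Eq.trans ?_ this
      congr 1
      simp only [cz, one_mul, inv_one, mul_one]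
      rw [← mul_assoc ((h : G)) z, hzc _ h.2]
      group
    rw [← hfz, ← Subgroup.coe_mul, ← map_mul, ← SubmonoidClass.coe_pow, ← map_pow, h2, map_one]
    rfl
  have hinj : Function.Injective (fun h : H => (⟨_, hmem h⟩ : (inv4.filter fun w => (z0 * w) ^ (k.1 + 1) = 1))) := by
    intro a b hab
    have h1 : cz a = cz b := f.injective (Subtype.ext (Subtype.ext_iff.1 hab :))
    have h2 : (a : G) * (x * z * x⁻¹) * (a : G)⁻¹ = (b : G) * (x * z * x⁻¹) * (b : G)⁻¹ := congrArg Subtype.val h1
    have h3 : x⁻¹ * ((b : G)⁻¹ * a) * x ∈ C := by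
      rw [Subgroup.mem_centralizer_singleton_iff]
      have := congrArg (fun y => x⁻¹ * (b : G)⁻¹ * y * a * x) h2
      simpa [mul_assoc] using this
    rw [hCH] at h3
    have h4 : (b : G)⁻¹ * a ∈ (H : Subgroup G) ⊓ MulAut.conj x • (H : Subgroup G) := by
      refine Subgroup.mem_inf.2 ⟨mul_mem (inv_mem b.2) a.2, ?_⟩
      rw [Subgroup.mem_pointwise_smul_iff_inv_smul_mem]
      rw [MulAut.smul_def, ← map_inv, MulAut.conj_apply, inv_inv]
      exact h3
    rw [hbot, Subgroup.mem_bot, inv_mul_eq_one] at h4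
    exact Subtype.ext h4.symm
  have hle := Nat.card_le_card_of_injective _ hinj
  have := checks.2 k
  have hle' := hH.symm.trans_le hle
  rw [Nat.card_eq_fintype_card, Fintype.card_coe] at hle'
  omega

end Cfsg.Agent.S2488
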