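import Cfsg.Statements.S2493
import Cfsg.Agent.Lib.SchurAlt.ThreeCycle

set_option autoImplicit false
open Cfsg

namespace Cfsg.Agent.S2493

open Equiv Equiv.Perm
open Cfsg.Agent.Lib.SchurAlt

section Perms

variable {α : Type*} [Fintype α] [DecidableEq α]

/-- A pair of involutions with product `g`, nearly balanced. -/
def Pair (g : Perm α) : Prop :=
  ∃ x y : Perm α, x * x = 1 ∧ y * y = 1 ∧ g = x * y ∧ x.support ⊆ g.support ∧ y.support ⊆ g.support ∧
    x.support.card ≤ y.support.card + 2 ∧ y.support.card ≤ x.support.card + 2 ∧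
    (g = 1 ∨ x.support ≠ y.support)

theorem Pair.flip {g x y : Perm α} (hx : x * x = 1) (hy : y * y = 1) (hg : g = x * y)
    (hxs : x.support ⊆ g.support) (hys : y.support ⊆ g.support)
    (hne : g = 1 ∨ x.support ≠ y.support) :
    ∃ x' y' : Perm α, x' * x' = 1 ∧ y' * y' = 1 ∧ g = x' * y' ∧ x'.support ⊆ g.support ∧
      y'.support ⊆ g.support ∧ x'.support.card = y.support.card ∧
      y'.support.card = x.support.card ∧ (g = 1 ∨ x'.support ≠ y'.support) := by
  have hxi : x⁻¹ = x := inv_eq_of_mul_eq_one_right hx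
  have hinv : ∀ u, x (x u) = u := fun u => by
    simpa [Perm.mul_apply] using congrArg (fun p : Perm α => p u) hx
  have hmem : ∀ v, v ∈ (x * y * x).support ↔ x v ∈ y.support := by
    intro v
    simp only [mem_support, Perm.mul_apply, ne_eq]
    constructor
    · intro h h'; exact h (by rw [h', hinv])
    · intro h h'; exact h (by
        have := congrArg x h'
        rwa [hinv] at this)
  have hxmem : ∀ v, v ∈ x.support ↔ x v ∈ x.support := fun v => apply_mem_support.symm
  refine ⟨x * y * x, x, ?_, hx, ?_, ?_, hxs, ?_, rfl, ?_⟩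
  · calc x * y * x * (x * y * x) = x * y * (x * x) * y * x := by group
      _ = x * (y * y) * x := by rw [hx]; group
      _ = 1 := by rw [hy, mul_one, hx]
  · rw [mul_assoc _ x x, hx, mul_one, hg]
  · intro v hv
    by_cases hvx : v ∈ x.support
    · exact hxs hvx
    · refine hys ?_
      have := (hmem v).mp hv
      rwa [notMem_support.mp hvx] at this
  · rw [show x * y * x = x * y * x⁻¹ by rw [hxi], card_support_conj]
  · rcases hne with h | h
    · exact Or.inl h
    · refine Or.inr fun he => h (Finset.ext fun v => ?_)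
      have h1 := hmem (x v)
      rw [hinv, he] at h1
      rw [hxmem v, h1]

theorem pair_cycle {σ : Perm α} (hσ : σ.IsCycle) : Pair σ := by
  classical
  obtain ⟨a, ha⟩ := hσ.nonempty_support
  have ha' : σ a ≠ a := mem_support.mp ha
  have hwell : ∀ i j : ℤ, (σ ^ i) a = (σ ^ j) a → (σ ^ (-i)) a = (σ ^ (-j)) a := by
    intro i j h
    have h1 := congrArg (σ ^ (-i - j)) h
    simp only [← Perm.mul_apply, ← zpow_add] at h1
    rw [show -i - j + i = -j by ring, show -i - j + j = -i by ring] at h1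
    exact h1.symm
  set f : α → α := fun b => if h : σ.SameCycle a b then (σ ^ (-h.choose)) a else b with hf
  have hfi : ∀ i : ℤ, f ((σ ^ i) a) = (σ ^ (-i)) a := by
    intro i
    have h : σ.SameCycle a ((σ ^ i) a) := ⟨i, rfl⟩
    rw [hf]
    simp only [dif_pos h]
    exact hwell _ _ h.choose_spec
  have hfo : ∀ b, ¬ σ.SameCycle a b → f b = b := fun b h => by simp only [hf, dif_neg h]
  have hinv : Function.Involutive f := by
    intro b
    by_cases h : σ.SameCycle a b
    · obtain ⟨i, rfl⟩ := h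
      rw [hfi, hfi, neg_neg]
    · rw [hfo b h, hfo b h]
  set x : Perm α := hinv.toPerm f with hxdef
  have hxa : ∀ b, x b = f b := fun _ => rfl
  have hxx : x * x = 1 := Equiv.ext fun b => hinv b
  have hout : ∀ b, ¬ σ.SameCycle a b → σ b = b := fun b h => by
    by_contra hb
    exact h (hσ.sameCycle ha' hb)
  have hyy : x * σ * (x * σ) = 1 := by
    refine Equiv.ext fun b => ?_
    simp only [Perm.mul_apply, Perm.one_apply, hxa]
    by_cases h : σ.SameCycle a b
    · obtain ⟨i, rfl⟩ := h
      rw [← Perm.mul_apply, ← zpow_one_add, hfi, ← Perm.mul_apply, ← zpow_one_add, hfi]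
      congr 2
      ring
    · rw [hout b h, hfo b h, hout b h, hfo b h]
  have hxs : x.support ⊆ σ.support := by
    intro b hb
    rw [mem_support] at hb ⊢
    exact fun hb' => hb (by
      rw [hxa]
      exact hfo b fun h => ha' (h.apply_eq_self_iff.mpr hb'))
  have hys : (x * σ).support ⊆ σ.support := by
    intro b hb
    rw [mem_support] at hb ⊢
    exact fun hb' => hb (by
      rw [Perm.mul_apply, hb', hxa]
      exact hfo b fun h => ha' (h.apply_eq_self_iff.mpr hb'))
  set k := σ.support.card with hk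
  have hk2 : 2 ≤ k := hσ.two_le_card_support
  have hpow : ∀ m : ℤ, (σ ^ m) a = a → (k : ℤ) ∣ m := by
    intro m hm
    rw [hk, ← hσ.orderOf]
    apply orderOf_dvd_iff_zpow_eq_one.mpr
    refine Equiv.ext fun b => ?_
    rw [Perm.one_apply]
    by_cases h : σ.SameCycle a b
    · obtain ⟨i, rfl⟩ := h
      rw [← Perm.mul_apply, ← zpow_add, add_comm, zpow_add, Perm.mul_apply, hm]
    · exact zpow_apply_eq_self_of_apply_eq_self (hout b h) m
  have hrep : ∀ b ∈ σ.support, ∃ i : ℕ, i < k ∧ b = (σ ^ (i : ℤ)) a := by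
    intro b hb
    obtain ⟨i, hi, he⟩ := (hσ.sameCycle ha' (mem_support.mp hb)).exists_pow_eq' 
    refine ⟨i, ?_, by rw [zpow_natCast, he]⟩
    rwa [hσ.orderOf] at hi
  have hcardx : k ≤ x.support.card + 2 := by
    have hsub : σ.support \ x.support ⊆ {a, (σ ^ ((k / 2 : ℕ) : ℤ)) a} := by
      intro b hb
      rw [Finset.mem_sdiff, notMem_support] at hb
      obtain ⟨i, hi, rfl⟩ := hrep b hb.1
      have h1 := hb.2
      rw [hxa, hfi] at h1
      have h2 : (k : ℤ) ∣ 2 * i := hpow _ (by
        have := congrArg (σ ^ (i : ℤ)) h1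
        rw [← Perm.mul_apply, ← zpow_add, add_neg_cancel, zpow_zero, Perm.one_apply,
          ← Perm.mul_apply, ← zpow_add, ← two_mul] at this
        exact this.symm)
      obtain ⟨m, hm⟩ := Int.natCast_dvd_natCast.mp (by exact_mod_cast h2 : ((k : ℕ) : ℤ) ∣ ((2 * i : ℕ) : ℤ))
      have hmlt : m < 2 := by
        by_contra hcon
        push Not at hcon
        have : k * 2 ≤ k * m := Nat.mul_le_mul_left k hcon
        omega
      rw [Finset.mem_insert, Finset.mem_singleton]
      interval_cases m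
      · left; rw [show i = 0 by omega]; simp
      · right; rw [show i = k / 2 by omega]
    have h1 := Finset.card_le_card hsub
    have h2 := Finset.card_le_two (a := a) (b := (σ ^ ((k / 2 : ℕ) : ℤ)) a)
    have h3 := Finset.card_sdiff_add_card_eq_card hxs
    omega
  have hcardy : k ≤ (x * σ).support.card + 2 := by
    have hsub : σ.support \ (x * σ).support ⊆ {(σ ^ (((k - 1) / 2 : ℕ) : ℤ)) a} := by
      intro b hb
      rw [Finset.mem_sdiff, notMem_support] at hb
      obtain ⟨i, hi, rfl⟩ := hrep b hb.1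
      have h1 := hb.2
      rw [Perm.mul_apply, ← Perm.mul_apply σ, ← zpow_one_add, hxa, hfi] at h1
      have h2 : (k : ℤ) ∣ ((2 * i + 1 : ℕ) : ℤ) := hpow _ (by
        have := congrArg (σ ^ (1 + (i : ℤ))) h1
        rw [← Perm.mul_apply, ← zpow_add, add_neg_cancel, zpow_zero, Perm.one_apply,
          ← Perm.mul_apply, ← zpow_add] at this
        rw [show ((2 * i + 1 : ℕ) : ℤ) = 1 + (i : ℤ) + i by push_cast; ring]
        exact this.symm)
      obtain ⟨m, hm⟩ := Int.natCast_dvd_natCast.mp h2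
      have hmlt : m < 2 := by
        by_contra hcon
        push Not at hcon
        have : k * 2 ≤ k * m := Nat.mul_le_mul_left k hcon
        omega
      rw [Finset.mem_singleton]
      interval_cases m
      · omega
      · rw [show i = (k - 1) / 2 by omega]
    have h1 := Finset.card_le_card hsub
    rw [Finset.card_singleton] at h1
    have h3 := Finset.card_sdiff_add_card_eq_card hys
    omega
  have hx1 := Finset.card_le_card hxs
  have hy1 := Finset.card_le_card hys
  refine ⟨x, x * σ, hxx, hyy, by rw [← mul_assoc, hxx, one_mul], hxs, hys, by omega, by omega,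
    Or.inr fun he => ?_⟩
  have h0 : a ∉ x.support := by
    rw [notMem_support, hxa]
    simpa using hfi 0
  have h1 : a ∈ (x * σ).support := by
    rw [mem_support, Perm.mul_apply, hxa, show σ a = (σ ^ (1 : ℤ)) a by simp, hfi, zpow_neg_one]
    intro h
    exact ha' (inv_eq_iff_eq.mp h).symm
  exact h0 (he ▸ h1)

theorem pair_all (g : Perm α) : Pair g := by
  induction g using cycle_induction_on with
  | base_one => exact ⟨1, 1, mul_one 1, mul_one 1, (mul_one 1).symm, by simp, by simp, by simp, by simp, Or.inl rfl⟩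
  | base_cycles σ hσ => exact pair_cycle hσ
  | induction_disjoint σ τ hd hσ hσp hτp =>
    obtain ⟨x₁, y₁, hx₁, hy₁, he₁, hxs₁, hys₁, hl₁, hr₁, hn₁⟩ := hσp
    obtain ⟨x₂', y₂', hx₂', hy₂', he₂', hxs₂', hys₂', hl₂', hr₂', hn₂'⟩ := hτp
    obtain ⟨x₂, y₂, hx₂, hy₂, he₂, hxs₂, hys₂, hl, hr⟩ : ∃ x₂ y₂ : Perm α, x₂ * x₂ = 1 ∧
        y₂ * y₂ = 1 ∧ τ = x₂ * y₂ ∧ x₂.support ⊆ τ.support ∧ y₂.support ⊆ τ.support ∧
        x₁.support.card + x₂.support.card ≤ y₁.support.card + y₂.support.card + 2 ∧
        y₁.support.card + y₂.support.card ≤ x₁.support.card + x₂.support.card + 2 := by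
      obtain ⟨x₃, y₃, hx₃, hy₃, he₃, hxs₃, hys₃, hc₃, hd₃, -⟩ :=
        Pair.flip hx₂' hy₂' he₂' hxs₂' hys₂' hn₂'
      by_cases h : (y₁.support.card ≤ x₁.support.card ∧ x₂'.support.card ≤ y₂'.support.card) ∨
          (x₁.support.card ≤ y₁.support.card ∧ y₂'.support.card ≤ x₂'.support.card)
      · exact ⟨x₂', y₂', hx₂', hy₂', he₂', hxs₂', hys₂', by omega, by omega⟩
      · exact ⟨x₃, y₃, hx₃, hy₃, he₃, hxs₃, hys₃, by omega, by omega⟩
    have hst := hd.disjoint_support
    have dxy : ∀ {u v : Perm α}, u.support ⊆ σ.support → v.support ⊆ τ.support → Perm.Disjoint u v :=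
      fun hu hv => disjoint_iff_disjoint_support.mpr (Finset.disjoint_of_subset_left hu
        (Finset.disjoint_of_subset_right hv hst))
    have dxx := dxy hxs₁ hxs₂
    have dyy := dxy hys₁ hys₂
    refine ⟨x₁ * x₂, y₁ * y₂, ?_, ?_, ?_, ?_, ?_, ?_, ?_, Or.inr ?_⟩
    · rw [mul_assoc, ← mul_assoc x₂, ← dxx.commute.eq, mul_assoc x₁ x₂, hx₂, mul_one, hx₁]
    · rw [mul_assoc, ← mul_assoc y₂, ← dyy.commute.eq, mul_assoc y₁ y₂, hy₂, mul_one, hy₁]
    · rw [he₁, he₂, mul_assoc x₁ x₂, ← mul_assoc x₂, ← (dxy hys₁ hxs₂).commute.eq]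
      group
    · rw [dxx.support_mul, hd.support_mul]; exact Finset.union_subset_union hxs₁ hxs₂
    · rw [dyy.support_mul, hd.support_mul]; exact Finset.union_subset_union hys₁ hys₂
    · rw [dxx.card_support_mul, dyy.card_support_mul]; exact hl
    · rw [dxx.card_support_mul, dyy.card_support_mul]; exact hr
    · intro he
      rw [dxx.support_mul, dyy.support_mul] at he
      refine (hn₁.resolve_left hσ.ne_one) (Finset.ext fun v => ?_)
      have hv := Finset.ext_iff.mp he v
      simp only [Finset.mem_union] at hv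
      constructor
      · exact fun h => (hv.mp (Or.inl h)).resolve_right fun h' =>
          Finset.disjoint_left.mp hst (hxs₁ h) (hys₂ h')
      · exact fun h => (hv.mpr (Or.inl h)).resolve_right fun h' =>
          Finset.disjoint_left.mp hst (hys₁ h) (hxs₂ h')

theorem invol_type {x : Perm α} (hx : x * x = 1) : ∃ T : ℕ, x.cycleType = Multiset.replicate T 2 ∧
    x.support.card = 2 * T ∧ sign x = (-1) ^ T := by
  have h2 : ∀ m ∈ x.cycleType, m = 2 := by
    intro m hm
    have h1 := two_le_of_mem_cycleType hm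
    have h3 : m ∣ 2 := (dvd_of_mem_cycleType hm).trans
      (orderOf_dvd_of_pow_eq_one (by rw [pow_two, hx]))
    exact le_antisymm (Nat.le_of_dvd two_pos h3) h1
  have he := Multiset.eq_replicate_card.mpr h2
  have hs : x.cycleType.sum = 2 * Multiset.card x.cycleType := by
    conv_lhs => rw [he]
    rw [Multiset.sum_replicate, smul_eq_mul, mul_comm]
  refine ⟨Multiset.card x.cycleType, he, by rw [← sum_cycleType, hs], ?_⟩
  rw [sign_of_cycleType, hs, pow_add, pow_mul, neg_one_sq, one_pow, one_mul]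

/-- Four points forming two swapped pairs. -/
def Four (x : Perm α) : Prop :=
  ∃ a b c d, a ≠ b ∧ a ≠ c ∧ a ≠ d ∧ b ≠ c ∧ b ≠ d ∧ c ≠ d ∧
    x a = b ∧ x b = a ∧ x c = d ∧ x d = c

theorem four_of_invol {x : Perm α} (hx : x * x = 1) (h : 4 ≤ x.support.card) :
    ∃ a b c d, a ≠ b ∧ a ≠ c ∧ a ≠ d ∧ b ≠ c ∧ b ≠ d ∧ c ≠ d ∧
      x a = b ∧ x b = a ∧ x c = d ∧ x d = c := by
  have hinv : ∀ u, x (x u) = u := fun u => by
    simpa [Perm.mul_apply] using congrArg (fun p : Perm α => p u) hx
  obtain ⟨a, ha⟩ := Finset.card_pos.mp (show 0 < x.support.card by omega)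
  obtain ⟨c, hc, hc'⟩ := Finset.exists_mem_notMem_of_card_lt_card
    (show ({a, x a} : Finset α).card < x.support.card from lt_of_le_of_lt Finset.card_le_two (by omega))
  simp only [Finset.mem_insert, Finset.mem_singleton, not_or] at hc'
  refine ⟨a, x a, c, x c, (mem_support.mp ha).symm, Ne.symm hc'.1, ?_, Ne.symm hc'.2, ?_,
    (mem_support.mp hc).symm, rfl, hinv a, rfl, hinv c⟩
  · intro e; exact hc'.2 (by rw [e, hinv])
  · intro e; exact hc'.1 (x.injective e).symm

theorem sq_mul_swap {x : Perm α} (hx : x * x = 1) {p q : α} (hc : x * swap p q = swap p q * x) :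
    x * swap p q * (x * swap p q) = 1 := by
  rw [mul_assoc, ← mul_assoc (swap p q), ← hc, mul_assoc x (swap p q), swap_mul_self, mul_one, hx]

theorem triple_type {x : Perm α} (hx : x * x = 1) {p q : α} (hp : x p = p) (hq : x q ≠ q)
    {T : ℕ} (hT : x.support.card = 2 * T) :
    (x * swap p q).cycleType = 3 ::ₘ Multiset.replicate (T - 1) 2 ∧
      (3 ≤ T → Four (x * swap p q)) := by
  have hinv : ∀ u, x (x u) = u := fun u => by
    simpa [Perm.mul_apply] using congrArg (fun p : Perm α => p u) hx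
  have hpq : p ≠ q := fun e => hq (by rw [← e, hp])
  set r := x q with hr
  have hrp : r ≠ p := fun e => hpq (x.injective (hp.trans e.symm))
  set x₀ := x * swap q r with hx₀
  have hx₀q : x₀ q = q := by rw [hx₀, Perm.mul_apply, swap_apply_left, hr, hinv]
  have hx₀r : x₀ r = r := by rw [hx₀, Perm.mul_apply, swap_apply_right]
  have hx₀o : ∀ u, u ≠ q → u ≠ r → x₀ u = x u := fun u h1 h2 => by
    rw [hx₀, Perm.mul_apply, swap_apply_of_ne_of_ne h1 h2]
  have hsupp : x₀.support = x.support \ {q, r} := by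
    ext u
    simp only [Finset.mem_sdiff, mem_support, Finset.mem_insert, Finset.mem_singleton]
    by_cases h1 : u = q
    · subst h1; simp [hx₀q]
    by_cases h2 : u = r
    · subst h2; simp [hx₀r]
    simp [hx₀o u h1 h2, h1, h2]
  have hcomm : x * swap q r = swap q r * x := by
    have := swap_apply_apply x q r
    rw [← hr, show x r = q by rw [hr, hinv], swap_comm] at this
    calc x * swap q r = (x * swap q r * x⁻¹) * x := by group
      _ = _ := by rw [← this]
  have hx₀sq : x₀ * x₀ = 1 := sq_mul_swap hx hcomm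
  have hcard : x₀.support.card = 2 * (T - 1) := by
    rw [hsupp, Finset.card_sdiff_of_subset, Finset.card_pair (Ne.symm hq), hT]
    · omega
    · simp only [Finset.insert_subset_iff, Finset.singleton_subset_iff, mem_support]
      exact ⟨hq, by rw [hr, hinv]; exact Ne.symm hq⟩
  obtain ⟨T₀, hct, hc₀, -⟩ := invol_type hx₀sq
  have hT₀ : T₀ = T - 1 := by omega
  subst hT₀
  have h3 : IsThreeCycle (swap q r * swap p q) := by
    rw [swap_comm p q]
    exact isThreeCycle_swap_mul_swap_same (Ne.symm hq) hpq.symm hrp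
  have hd : Perm.Disjoint (swap q r * swap p q) x₀ := fun u => by
    by_cases h1 : u = q
    · right; rw [h1, hx₀q]
    by_cases h2 : u = r
    · right; rw [h2, hx₀r]
    by_cases h4 : u = p
    · right; rw [h4, hx₀o p hpq (Ne.symm hrp), hp]
    left
    rw [Perm.mul_apply, swap_apply_of_ne_of_ne h4 h1, swap_apply_of_ne_of_ne h1 h2]
  have he : x * swap p q = swap q r * swap p q * x₀ := by
    rw [hd.commute.eq, hx₀, mul_assoc, ← mul_assoc (swap q r), swap_mul_self, one_mul]
  refine ⟨?_, fun h3T => ?_⟩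
  · rw [he, hd.cycleType_mul, h3.cycleType, hct, Multiset.singleton_add]
  · obtain ⟨a, b, c, d, hab, hac, had, hbc, hbd, hcd, ea, eb, ec, ed⟩ :=
      four_of_invol hx₀sq (by rw [hcard]; omega)
    refine ⟨a, b, c, d, hab, hac, had, hbc, hbd, hcd, ?_⟩
    have key : ∀ u v, x₀ u = v → u ≠ v → (x * swap p q) u = v := fun u v huv hne => by
      rw [he, Perm.mul_apply, huv]
      rcases hd v with h | h
      · exact h
      · exact absurd (x₀.injective (huv.trans h.symm)) hne
    exact ⟨key a b ea hab, key b a eb hab.symm, key c d ec hcd, key d c ed hcd.symm⟩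

theorem dbl_facts {a b c d : α} (hab : a ≠ b) (hac : a ≠ c) (had : a ≠ d) (hbc : b ≠ c)
    (hbd : b ≠ d) (hcd : c ≠ d) :
    swap a b * swap c d * (swap a b * swap c d) = 1 ∧
    (swap a b * swap c d).cycleType = {2, 2} ∧ sign (swap a b * swap c d) = 1 ∧
    ((swap a b * swap c d) a = b ∧ (swap a b * swap c d) b = a ∧
      (swap a b * swap c d) c = d ∧ (swap a b * swap c d) d = c) := by
  have hd : Perm.Disjoint (swap a b) (swap c d) := fun u => by
    by_cases h1 : u = a
    · right; exact swap_apply_of_ne_of_ne (h1 ▸ hac) (h1 ▸ had)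
    by_cases h2 : u = b
    · right; exact swap_apply_of_ne_of_ne (h2 ▸ hbc) (h2 ▸ hbd)
    left; exact swap_apply_of_ne_of_ne h1 h2
  refine ⟨?_, ?_, ?_, ?_⟩
  · rw [mul_assoc, ← mul_assoc (swap c d), ← hd.commute.eq, mul_assoc (swap a b) (swap c d),
      swap_mul_self, mul_one, swap_mul_self]
  · rw [hd.cycleType_mul, (swap_isSwap_iff.mpr hab).isCycle.cycleType,
      (swap_isSwap_iff.mpr hcd).isCycle.cycleType, support_swap hab, support_swap hcd,
      Finset.card_pair hab, Finset.card_pair hcd]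
    rfl
  · rw [map_mul, sign_swap hab, sign_swap hcd]; rfl
  · simp [Perm.mul_apply, swap_apply_of_ne_of_ne, hab, hac, had, hbc, hbd, hcd, hac.symm, had.symm,
      hbc.symm, hbd.symm]

/-- An even permutation is a product of two conjugate permutations with two swapped pairs. -/
theorem exists_two (h5 : 5 ≤ Fintype.card α) {g : Perm α} (hg : sign g = 1) :
    ∃ x y : Perm α, g = x * y ∧ x.cycleType = y.cycleType ∧ sign x = 1 ∧ Four x := by
  obtain ⟨x, y, hx, hy, hgxy, hxs, -, hl, hr, hne⟩ := pair_all g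
  obtain ⟨T, hct, hcx, hsx⟩ := invol_type hx
  obtain ⟨U, hcu, hcy, hsy⟩ := invol_type hy
  have hTU : T = U := by
    have h := hg
    rw [hgxy, map_mul, hsx, hsy, ← pow_add] at h
    have he : Even (T + U) := by
      rcases Nat.even_or_odd (T + U) with h' | h'
      · exact h'
      · rw [h'.neg_one_pow] at h; exact absurd h (by decide)
    obtain ⟨m, hm⟩ := he
    omega
  subst hTU
  rcases Nat.even_or_odd T with hev | hodd
  · by_cases hT : T = 0
    · subst hT
      have hx1 : x = 1 := cycleType_eq_zero.mp (by simpa using hct)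
      have hy1 : y = 1 := cycleType_eq_zero.mp (by simpa using hcu)
      obtain ⟨s, hs⟩ := Finset.exists_subset_card_eq (s := (Finset.univ : Finset α)) (n := 4)
        (by rw [Finset.card_univ]; omega)
      obtain ⟨a, b, c, d, hab, hac, had, hbc, hbd, hcd, -⟩ := Finset.card_eq_four.mp hs.2
      obtain ⟨f1, -, f3, f4⟩ := dbl_facts hab hac had hbc hbd hcd
      exact ⟨_, _, by rw [hgxy, hx1, hy1, mul_one, f1], rfl, f3,
        a, b, c, d, hab, hac, had, hbc, hbd, hcd, f4⟩
    · refine ⟨x, y, hgxy, hct.trans hcu.symm, by rw [hsx, hev.neg_one_pow], ?_⟩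
      obtain ⟨m, hm⟩ := hev
      exact four_of_invol hx (by omega)
  · have hT1 : 1 ≤ T := hodd.pos
    have hg1 : g ≠ 1 := by
      intro h
      have := Finset.card_le_card hxs
      rw [h, support_one, Finset.card_empty] at this
      omega
    have hsne : x.support ≠ y.support := hne.resolve_left hg1
    obtain ⟨p, hpy, hpx⟩ : ∃ p ∈ y.support, p ∉ x.support := by
      by_contra hcon
      push Not at hcon
      exact hsne (Finset.eq_of_subset_of_card_le hcon (by omega)).symm
    obtain ⟨q, hqx, hqy⟩ : ∃ q ∈ x.support, q ∉ y.support := by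
      by_contra hcon
      push Not at hcon
      exact hsne (Finset.eq_of_subset_of_card_le hcon (by omega))
    by_cases h3 : 3 ≤ T
    · obtain ⟨t1, f1⟩ := triple_type hx (notMem_support.mp hpx) (mem_support.mp hqx) hcx
      obtain ⟨t2, -⟩ := triple_type hy (notMem_support.mp hqy) (mem_support.mp hpy) hcy
      refine ⟨x * swap p q, swap p q * y, ?_, ?_, ?_, f1 h3⟩
      · rw [hgxy, mul_assoc x, ← mul_assoc (swap p q), swap_mul_self, one_mul]
      · rw [t1, ← cycleType_inv (swap p q * y), mul_inv_rev, inv_eq_of_mul_eq_one_right hy, swap_inv,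
          swap_comm p q, t2]
      · rw [map_mul, hsx, sign_swap (show p ≠ q from fun e => hpx (by rw [e]; exact hqx)), hodd.neg_one_pow]; rfl
    · have hT : T = 1 := by
        rcases hodd with ⟨m, rfl⟩
        omega
      subst hT
      have hxs2 : x.support.card = 2 := by omega
      have hys2 : y.support.card = 2 := by omega
      obtain ⟨a, b, hab, hxeq⟩ := card_support_eq_two.mp hxs2
      obtain ⟨c, d, hcd, hyeq⟩ := card_support_eq_two.mp hys2
      rw [hxeq, support_swap hab] at hxs2
      by_cases hdis : Disjoint ({a, b} : Finset α) {c, d}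
      · simp only [Finset.disjoint_insert_left, Finset.disjoint_singleton_left, Finset.mem_insert,
          Finset.mem_singleton, not_or] at hdis
        obtain ⟨⟨hac, had⟩, hbc, hbd⟩ := hdis
        obtain ⟨-, f2, f3, f4⟩ := dbl_facts hac hab had (Ne.symm hbc) hcd hbd
        obtain ⟨-, g2, -, -⟩ := dbl_facts had hab hac (Ne.symm hbd) hcd.symm hbc
        refine ⟨swap a c * swap b d, swap a d * swap b c, ?_, f2.trans g2.symm, f3,
          a, c, b, d, hac, hab, had, Ne.symm hbc, hcd, hbd, f4⟩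
        rw [hgxy, hxeq, hyeq]
        refine Equiv.ext fun u => ?_
        by_cases h1 : u = a
        · subst h1
          simp [Perm.mul_apply, swap_apply_of_ne_of_ne, hab, hac, had, hbc, hbd, hcd, Ne.symm hab, Ne.symm hac,
            Ne.symm had, Ne.symm hbc, Ne.symm hbd, hcd.symm]
        by_cases h2 : u = b
        · subst h2
          simp [Perm.mul_apply, swap_apply_of_ne_of_ne, hab, hac, had, hbc, hbd, hcd, Ne.symm hab, Ne.symm hac,
            Ne.symm had, Ne.symm hbc, Ne.symm hbd, hcd.symm]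
        by_cases h4 : u = c
        · subst h4
          simp [Perm.mul_apply, swap_apply_of_ne_of_ne, hab, hac, had, hbc, hbd, hcd, Ne.symm hab, Ne.symm hac,
            Ne.symm had, Ne.symm hbc, Ne.symm hbd, hcd.symm]
        by_cases h5 : u = d
        · subst h5
          simp [Perm.mul_apply, swap_apply_of_ne_of_ne, hab, hac, had, hbc, hbd, hcd, Ne.symm hab, Ne.symm hac,
            Ne.symm had, Ne.symm hbc, Ne.symm hbd, hcd.symm]
        simp [Perm.mul_apply, swap_apply_of_ne_of_ne, h1, h2, h4, h5]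
      · set S := ({a, b} : Finset α) ∪ {c, d} with hS
        have hSc : S.card ≤ 3 := by
          have := Finset.card_union_add_card_inter ({a, b} : Finset α) {c, d}
          rw [Finset.card_pair hab, Finset.card_pair hcd, ← hS] at this
          have : 0 < (({a, b} : Finset α) ∩ {c, d}).card := by
            rw [Finset.card_pos, Finset.nonempty_iff_ne_empty]
            exact fun h => hdis (Finset.disjoint_iff_inter_eq_empty.mpr h)
          omega
        obtain ⟨s, hs, t, ht, hst⟩ : ∃ s ∈ Sᶜ, ∃ t ∈ Sᶜ, s ≠ t :=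
          Finset.one_lt_card.mp (by rw [Finset.card_compl]; omega)
        simp only [hS, Finset.mem_compl, Finset.mem_union, Finset.mem_insert, Finset.mem_singleton,
          not_or] at hs ht
        obtain ⟨⟨hsa, hsb⟩, hsc, hsd⟩ := hs
        obtain ⟨⟨hta, htb⟩, htc, htd⟩ := ht
        obtain ⟨-, f2, f3, f4⟩ := dbl_facts hab (Ne.symm hsa) (Ne.symm hta) (Ne.symm hsb) (Ne.symm htb) hst
        obtain ⟨-, g2, -, -⟩ := dbl_facts hst hsc hsd htc htd hcd
        refine ⟨swap a b * swap s t, swap s t * swap c d, ?_, f2.trans g2.symm, f3,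
          a, b, s, t, hab, Ne.symm hsa, Ne.symm hta, Ne.symm hsb, Ne.symm htb, hst, f4⟩
        rw [hgxy, hxeq, hyeq, mul_assoc (swap a b) (swap s t), ← mul_assoc (swap s t),
          swap_mul_self, one_mul]

end Perms

section Lifts

variable {G : Type*} [Group G] {n : ℕ} {π : G →* Perm (Fin n)} {z : G}

theorem lift_unique (hker : ∀ v, π v = 1 → v = 1 ∨ v = z) (hz : ∀ v, z * v = v * z) (hz2 : z * z = 1)
    {v w : G} (he : π v = π w) (hv : v ^ 3 = 1) (hw : w ^ 3 = 1) : v = w := by
  rcases hker (v * w⁻¹) (by rw [map_mul, map_inv, he, mul_inv_cancel]) with h | h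
  · exact mul_inv_eq_one.mp h
  · have hvw : v = z * w := mul_inv_eq_iff_eq_mul.mp h
    rw [hvw, (show Commute z w from hz w).mul_pow, hw, mul_one, pow_succ, pow_two, hz2, one_mul] at hv
    rw [hvw, hv, one_mul]

theorem exists_cube (hker : ∀ v, π v = 1 → v = 1 ∨ v = z) (hz2 : z * z = 1)
    (hrange : π.range = alternatingGroup (Fin n)) {t : Perm (Fin n)} (ht : IsThreeCycle t) :
    ∃ v, π v = t ∧ v ^ 3 = 1 := by
  obtain ⟨U, hU⟩ := MonoidHom.mem_range.mp (show t ∈ π.range from hrange ▸ ht.mem_alternatingGroup)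
  have h3 : t ^ 3 = 1 := ht.orderOf ▸ pow_orderOf_eq_one t
  refine ⟨U ^ 4, ?_, ?_⟩
  · rw [map_pow, hU, show (4 : ℕ) = 3 + 1 from rfl, pow_succ, h3, one_mul]
  · have h : U ^ 6 = 1 := by
      rw [show (6 : ℕ) = 3 * 2 from rfl, pow_mul]
      rcases hker (U ^ 3) (by rw [map_pow, hU, h3]) with e | e <;> simp [e, pow_two, hz2]
    rw [← pow_mul, show 4 * 3 = 6 * 2 from rfl, pow_mul, h, one_pow]

/-- Some lift of a double transposition has order four. -/
theorem exists_sq_ne (hperf : commutator G = ⊤) (hker : ∀ v, π v = 1 → v = 1 ∨ v = z)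
    (hz : ∀ v, z * v = v * z) (hz2 : z * z = 1) (hz1 : z ≠ 1) (hπz : π z = 1)
    (hrange : π.range = alternatingGroup (Fin n)) :
    ∃ a b c d : Fin n, a ≠ b ∧ a ≠ c ∧ a ≠ d ∧ b ≠ c ∧ b ≠ d ∧ c ≠ d ∧
      ∃ u, π u = swap a b * swap c d ∧ u * u ≠ 1 := by
  by_contra hcon
  push Not at hcon
  classical
  choose! l hl hl3 using fun (t : Perm (Fin n)) (ht : IsThreeCycle t) =>
    exists_cube hker hz2 hrange ht
  have uniq := @lift_unique G _ n π z hker hz hz2
  let S : TriLift π :=
    { lift := l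
      map_lift := fun ht => hl _ ht
      conj_lift := fun {t} ht h => by
        have hc : IsThreeCycle (π h * t * (π h)⁻¹) := cycleType_conj.trans ht
        refine uniq ?_ ?_ (hl3 _ hc)
        · rw [map_mul, map_mul, map_inv, hl _ ht, hl _ hc]
        · rw [conj_pow, hl3 _ ht, mul_one, mul_inv_cancel]
      pow_lift := fun ht => hl3 _ ht
      inv_lift := fun {t} ht => by
        refine uniq ?_ (hl3 _ ht.inv) (by rw [inv_pow, hl3 _ ht, inv_one])
        rw [map_inv, hl _ ht, hl _ ht.inv]
      edge := fun {k a c d} hka hkc hkd hac had hcd => by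
        have t1 := isThreeCycle_tri hka hkc hac
        have t2 := isThreeCycle_tri hka hkd had
        have t3 := isThreeCycle_tri hkd hkc hcd.symm
        have e1 : tri k a c * tri k a d = swap k c * swap a d := by
          refine Equiv.ext fun u => ?_
          by_cases h1 : u = k
          · subst h1; simp [tri, Perm.mul_apply, swap_apply_of_ne_of_ne, hka, hkc, hkd, hac, had, hcd,
              hka.symm, hkc.symm, hkd.symm, hac.symm, had.symm, hcd.symm]
          by_cases h2 : u = a
          · subst h2; simp [tri, Perm.mul_apply, swap_apply_of_ne_of_ne, hka, hkc, hkd, hac, had, hcd,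
              hka.symm, hkc.symm, hkd.symm, hac.symm, had.symm, hcd.symm]
          by_cases h3 : u = c
          · subst h3; simp [tri, Perm.mul_apply, swap_apply_of_ne_of_ne, hka, hkc, hkd, hac, had, hcd,
              hka.symm, hkc.symm, hkd.symm, hac.symm, had.symm, hcd.symm]
          by_cases h4 : u = d
          · subst h4; simp [tri, Perm.mul_apply, swap_apply_of_ne_of_ne, hka, hkc, hkd, hac, had, hcd,
              hka.symm, hkc.symm, hkd.symm, hac.symm, had.symm, hcd.symm]
          simp [tri, Perm.mul_apply, swap_apply_of_ne_of_ne, h1, h2, h3, h4]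
        have e2 : tri k a c = tri k d c * tri k a d := by
          refine Equiv.ext fun u => ?_
          by_cases h1 : u = k
          · subst h1; simp [tri, Perm.mul_apply, swap_apply_of_ne_of_ne, hka, hkc, hkd, hac, had, hcd,
              hka.symm, hkc.symm, hkd.symm, hac.symm, had.symm, hcd.symm]
          by_cases h2 : u = a
          · subst h2; simp [tri, Perm.mul_apply, swap_apply_of_ne_of_ne, hka, hkc, hkd, hac, had, hcd,
              hka.symm, hkc.symm, hkd.symm, hac.symm, had.symm, hcd.symm]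
          by_cases h3 : u = c
          · subst h3; simp [tri, Perm.mul_apply, swap_apply_of_ne_of_ne, hka, hkc, hkd, hac, had, hcd,
              hka.symm, hkc.symm, hkd.symm, hac.symm, had.symm, hcd.symm]
          by_cases h4 : u = d
          · subst h4; simp [tri, Perm.mul_apply, swap_apply_of_ne_of_ne, hka, hkc, hkd, hac, had, hcd,
              hka.symm, hkc.symm, hkd.symm, hac.symm, had.symm, hcd.symm]
          simp [tri, Perm.mul_apply, swap_apply_of_ne_of_ne, h1, h2, h3, h4]
        set X := l (tri k a c) with hX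
        set Y := l (tri k a d) with hY
        have hX3 : X ^ 3 = 1 := hl3 _ t1
        have hY3 : Y ^ 3 = 1 := hl3 _ t2
        have hXY : X * Y * (X * Y) = 1 := hcon k c a d hkc hka hkd (Ne.symm hac) hcd had (X * Y)
          (by rw [map_mul, hl _ t1, hl _ t2, e1])
        have hY' : Y⁻¹ = X * Y * X := inv_eq_of_mul_eq_one_left (by rw [← hXY]; group)
        refine uniq ?_ ?_ (hl3 _ t3)
        · rw [map_mul, map_inv, hl _ t1, hl _ t2, hl _ t3, e2, mul_inv_cancel_right]
        · rw [hY', pow_succ, pow_two]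
          calc X * (X * Y * X) * (X * (X * Y * X)) * (X * (X * Y * X))
              = X ^ 2 * (Y * X ^ 3 * Y * X ^ 3 * Y) * X := by simp only [pow_succ, pow_zero, one_mul, mul_assoc]
            _ = X ^ 2 * (Y ^ 3) * X := by rw [hX3]; simp only [pow_succ, pow_zero, one_mul, mul_one, mul_assoc]
            _ = 1 := by rw [hY3, mul_one, ← pow_succ, hX3] }
  refine hz1 (S.ker_inf_commutator_eq_bot hrange.le ?_ hπz (hperf ▸ Subgroup.mem_top z))
  intro v hv
  rcases hker v hv with rfl | rfl
  · exact Subgroup.one_mem _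
  · exact Subgroup.mem_center_iff.mpr fun g => (hz g).symm

theorem sq_eq (h5 : 5 ≤ n) (hperf : commutator G = ⊤) (hker : ∀ v, π v = 1 → v = 1 ∨ v = z)
    (hz : ∀ v, z * v = v * z) (hz2 : z * z = 1) (hz1 : z ≠ 1) (hπz : π z = 1)
    (hrange : π.range = alternatingGroup (Fin n)) {a b c d : Fin n} (hab : a ≠ b) (hac : a ≠ c)
    (had : a ≠ d) (hbc : b ≠ c) (hbd : b ≠ d) (hcd : c ≠ d) {u : G}
    (hu : π u = swap a b * swap c d) : u * u = z := by
  obtain ⟨a', b', c', d', h1, h2, h3, h4, h5', h6, u', hu', hne⟩ :=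
    exists_sq_ne hperf hker hz hz2 hz1 hπz hrange
  obtain ⟨f1, f2, -, -⟩ := dbl_facts h1 h2 h3 h4 h5' h6
  obtain ⟨g1, g2, -, -⟩ := dbl_facts hab hac had hbc hbd hcd
  have hu'z : u' * u' = z := (hker _ (by rw [map_mul, hu', f1])).resolve_left hne
  obtain ⟨h, hh⟩ := isConj_iff.mp (isConj_iff_cycleType_eq.mpr (f2.trans g2.symm))
  obtain ⟨h', hh', hs⟩ : ∃ h' : Perm (Fin n),
      h' * (swap a' b' * swap c' d') * h'⁻¹ = swap a b * swap c d ∧ sign h' = 1 := by
    rcases Int.units_eq_one_or (sign h) with hs | hs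
    · exact ⟨h, hh, hs⟩
    · refine ⟨h * swap a' b', ?_, by rw [map_mul, hs, sign_swap h1]; rfl⟩
      rw [← hh]
      have hd : Perm.Disjoint (swap a' b') (swap c' d') := fun u => by
        by_cases e1 : u = a'
        · right; exact swap_apply_of_ne_of_ne (e1 ▸ h2) (e1 ▸ h3)
        by_cases e2 : u = b'
        · right; exact swap_apply_of_ne_of_ne (e2 ▸ h4) (e2 ▸ h5')
        left; exact swap_apply_of_ne_of_ne e1 e2
      rw [mul_inv_rev, swap_inv, mul_assoc h, ← mul_assoc (swap a' b') (swap a' b'), swap_mul_self,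
        one_mul, mul_assoc h, ← mul_assoc (swap c' d'), ← hd.commute.eq, ← mul_assoc]
  obtain ⟨H, hH⟩ := MonoidHom.mem_range.mp (show h' ∈ π.range from
    hrange ▸ mem_alternatingGroup.mpr hs)
  have hH' : π (H * u' * H⁻¹) = π u := by rw [map_mul, map_mul, map_inv, hH, hu', hh', hu]
  have hsq : H * u' * H⁻¹ * (H * u' * H⁻¹) = z := by
    calc H * u' * H⁻¹ * (H * u' * H⁻¹) = H * (u' * u') * H⁻¹ := by group
      _ = z := by rw [hu'z, ← hz H, mul_inv_cancel_right]
  rcases hker (u * (H * u' * H⁻¹)⁻¹) (by rw [map_mul, map_inv, hH', mul_inv_cancel]) with e | e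
  · rw [mul_inv_eq_one.mp e, hsq]
  · rw [mul_inv_eq_iff_eq_mul.mp e]
    calc z * (H * u' * H⁻¹) * (z * (H * u' * H⁻¹))
        = z * z * (H * u' * H⁻¹ * (H * u' * H⁻¹)) := by
          rw [mul_assoc z, ← mul_assoc _ z, ← hz]; group
      _ = z := by rw [hz2, one_mul, hsq]

theorem exists_anti (h5 : 5 ≤ n) (hperf : commutator G = ⊤) (hker : ∀ v, π v = 1 → v = 1 ∨ v = z)
    (hz : ∀ v, z * v = v * z) (hz2 : z * z = 1) (hz1 : z ≠ 1) (hπz : π z = 1)
    (hrange : π.range = alternatingGroup (Fin n)) {x : Perm (Fin n)} (hx : Four x)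
    (hsx : sign x = 1) {X : G} (hX : π X = x) :
    ∃ w, π w * x = x * π w ∧ X * w = z * (w * X) := by
  classical
  obtain ⟨a, b, c, d, hab, hac, had, hbc, hbd, hcd, ea, eb, ec, ed⟩ := hx
  obtain ⟨-, -, f3, f4⟩ := dbl_facts hab hac had hbc hbd hcd
  obtain ⟨-, -, g3, g4⟩ := dbl_facts hac hab had hbc.symm hcd hbd
  set v₁ := swap a b * swap c d with hv₁
  set v₂ := swap a c * swap b d with hv₂
  obtain ⟨u, hu⟩ := MonoidHom.mem_range.mp (show v₁ ∈ π.range from hrange ▸ mem_alternatingGroup.mpr f3)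
  obtain ⟨w, hw⟩ := MonoidHom.mem_range.mp (show v₂ ∈ π.range from hrange ▸ mem_alternatingGroup.mpr g3)
  obtain ⟨f4a, f4b, f4c, f4d⟩ := f4
  obtain ⟨g4a, g4c, g4b, g4d⟩ := g4
  have out₁ : ∀ p, p ≠ a → p ≠ b → p ≠ c → p ≠ d → v₁ p = p := fun p h1 h2 h3 h4 => by
    simp [hv₁, Perm.mul_apply, swap_apply_of_ne_of_ne, h1, h2, h3, h4]
  have out₂ : ∀ p, p ≠ a → p ≠ b → p ≠ c → p ≠ d → v₂ p = p := fun p h1 h2 h3 h4 => by
    simp [hv₂, Perm.mul_apply, swap_apply_of_ne_of_ne, h1, h2, h3, h4]
  have hprod : v₁ * v₂ = swap a d * swap b c := by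
    refine Equiv.ext fun p => ?_
    by_cases h1 : p = a
    · subst h1
      simp [hv₁, hv₂, Perm.mul_apply, swap_apply_of_ne_of_ne, hab, hac, had, hbc, hbd, hcd, hab.symm, hac.symm, had.symm, hbc.symm, hbd.symm, hcd.symm]
    by_cases h2 : p = b
    · subst h2
      simp [hv₁, hv₂, Perm.mul_apply, swap_apply_of_ne_of_ne, hab, hac, had, hbc, hbd, hcd, hab.symm, hac.symm, had.symm, hbc.symm, hbd.symm, hcd.symm]
    by_cases h3 : p = c
    · subst h3
      simp [hv₁, hv₂, Perm.mul_apply, swap_apply_of_ne_of_ne, hab, hac, had, hbc, hbd, hcd, hab.symm, hac.symm, had.symm, hbc.symm, hbd.symm, hcd.symm]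
    by_cases h4 : p = d
    · subst h4
      simp [hv₁, hv₂, Perm.mul_apply, swap_apply_of_ne_of_ne, hab, hac, had, hbc, hbd, hcd, hab.symm, hac.symm, had.symm, hbc.symm, hbd.symm, hcd.symm]
    rw [Perm.mul_apply, out₂ p h1 h2 h3 h4, out₁ p h1 h2 h3 h4]
    simp [Perm.mul_apply, swap_apply_of_ne_of_ne, h1, h2, h3, h4]
  have huu := sq_eq h5 hperf hker hz hz2 hz1 hπz hrange hab hac had hbc hbd hcd hu
  have hww := sq_eq h5 hperf hker hz hz2 hz1 hπz hrange hac hab had hbc.symm hcd hbd hw
  have huw := sq_eq h5 hperf hker hz hz2 hz1 hπz hrange had hab hac (Ne.symm hbd) hcd.symm hbc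
    (u := u * w) (by rw [map_mul, hu, hw, hprod])
  have hanti : u * w = z * (w * u) := by
    have hw' : w⁻¹ = z * w := inv_eq_of_mul_eq_one_left (by rw [mul_assoc, hww, hz2])
    have hu' : u⁻¹ = z * u := inv_eq_of_mul_eq_one_left (by rw [mul_assoc, huu, hz2])
    have hrev : w⁻¹ * u⁻¹ = w * u := by
      calc w⁻¹ * u⁻¹ = z * w * (z * u) := by rw [hw', hu']
        _ = z * (z * w) * u := by rw [mul_assoc z w, ← mul_assoc w z, ← hz w]; group
        _ = w * u := by rw [← mul_assoc z, hz2, one_mul]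
    calc u * w = (u * w * (u * w)) * (w⁻¹ * u⁻¹) := by group
      _ = z * (w * u) := by rw [huw, hrev]
  have hv₂x : v₂ * x = x * v₂ := by
    refine Equiv.ext fun p => ?_
    simp only [Perm.mul_apply]
    by_cases h1 : p = a
    · subst h1; rw [ea, g4a, g4b, ec]
    by_cases h2 : p = b
    · subst h2; rw [eb, g4a, g4b, ed]
    by_cases h3 : p = c
    · subst h3; rw [ec, g4c, g4d, ea]
    by_cases h4 : p = d
    · subst h4; rw [ed, g4c, g4d, eb]
    rw [out₂ p h1 h2 h3 h4, out₂ (x p) (fun e => h2 (x.injective (e.trans eb.symm)))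
      (fun e => h1 (x.injective (e.trans ea.symm))) (fun e => h4 (x.injective (e.trans ed.symm)))
      (fun e => h3 (x.injective (e.trans ec.symm)))]
  refine ⟨w, by rw [hw]; exact hv₂x, ?_⟩
  set r := v₁⁻¹ * x with hr
  have hra : r a = a := by rw [hr, Perm.mul_apply, inv_eq_iff_eq, ea, f4a]
  have hrb : r b = b := by rw [hr, Perm.mul_apply, inv_eq_iff_eq, eb, f4b]
  have hrc : r c = c := by rw [hr, Perm.mul_apply, inv_eq_iff_eq, ec, f4c]
  have hrd : r d = d := by rw [hr, Perm.mul_apply, inv_eq_iff_eq, ed, f4d]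
  have hrs : sign r = 1 := by rw [hr, map_mul, map_inv, f3, hsx]; rfl
  let P : Fin n → Prop := fun p => p ≠ a ∧ p ≠ b ∧ p ≠ c ∧ p ≠ d
  have hP : ∀ p, P (r p) ↔ P p := fun p => by
    simp only [P, ← r.injective.ne_iff (x := p), hra, hrb, hrc, hrd]
  have hsub : ∀ p, r p ≠ p → P p := fun p hp =>
    ⟨fun e => hp (e ▸ hra), fun e => hp (e ▸ hrb), fun e => hp (e ▸ hrc), fun e => hp (e ▸ hrd)⟩
  have hr' : r.subtypePerm hP ∈ alternatingGroup {p // P p} := by
    rw [mem_alternatingGroup, ← sign_ofSubtype, ofSubtype_subtypePerm hP hsub, hrs]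
  rw [← closure_three_cycles_eq_alternating] at hr'
  have hle : (Subgroup.closure {σ : Perm {p // P p} | IsThreeCycle σ}).map
      (ofSubtype : Perm {p // P p} →* Perm (Fin n)) ≤ (Subgroup.centralizer ({w} : Set G)).map π := by
    rw [MonoidHom.map_closure, Subgroup.closure_le]
    rintro t ⟨σ, hσ, rfl⟩
    have ht : IsThreeCycle (ofSubtype σ) := cycleType_ofSubtype.trans hσ
    obtain ⟨T, hT, hT3⟩ := exists_cube hker hz2 hrange ht
    refine ⟨T, Subgroup.mem_centralizer_singleton_iff.mpr ?_, hT⟩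
    have hfix : ∀ p, p = a ∨ p = b ∨ p = c ∨ p = d → ofSubtype σ p = p := fun p hp =>
      ofSubtype_apply_of_not_mem σ (by rcases hp with rfl | rfl | rfl | rfl <;> simp [P])
    have hcm : Perm.Disjoint (ofSubtype σ) v₂ := fun p => by
      by_cases h : p = a ∨ p = b ∨ p = c ∨ p = d
      · exact Or.inl (hfix p h)
      · push Not at h
        exact Or.inr (out₂ p h.1 h.2.1 h.2.2.1 h.2.2.2)
    have := lift_unique hker hz hz2 (v := w * T * w⁻¹) (w := T)
      (by rw [map_mul, map_mul, map_inv, hT, hw, ← hcm.commute.eq, mul_inv_cancel_right])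
      (by rw [conj_pow, hT3, mul_one, mul_inv_cancel]) hT3
    exact (mul_inv_eq_iff_eq_mul.mp this).symm
  obtain ⟨v, hv, hvr⟩ := hle (Subgroup.mem_map_of_mem _ hr')
  rw [ofSubtype_subtypePerm hP hsub] at hvr
  have hvw : v * w = w * v := Subgroup.mem_centralizer_singleton_iff.mp hv
  have hvx : π (u * v) = π X := by rw [map_mul, hu, hvr, hX, hr, mul_inv_cancel_left]
  have main : u * v * w = z * (w * (u * v)) := by
    rw [mul_assoc u, hvw, ← mul_assoc u, hanti]; group
  rcases hker (X * (u * v)⁻¹) (by rw [map_mul, map_inv, hvx, mul_inv_cancel]) with e | e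
  · rw [mul_inv_eq_one.mp e]; exact main
  · rw [mul_inv_eq_iff_eq_mul.mp e, mul_assoc z, main, ← mul_assoc w z, ← hz w, mul_assoc z w]

end Lifts

/-- Let n ≥ 5 and let G be a finite perfect group whose centre has order 2 with G/Z(G) isomorphic to the alternating group of degree n (the double cover of the alternating group). Then every element of G is a commutator. -/
theorem result {G : Type*} [Group G] [Finite G] (hperf : commutator G = ⊤) {n : ℕ} (hn : 5 ≤ n)
    (hZ : Nat.card (Subgroup.center G) = 2) (e : G ⧸ Subgroup.center G ≃* alternatingGroup (Fin n))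
    (g : G) :
    ∃ a b : G, a * b * a⁻¹ * b⁻¹ = g := by
  classical
  haveI : Nontrivial (Subgroup.center G) :=
    Finite.one_lt_card_iff_nontrivial.mp (show 1 < Nat.card (Subgroup.center G) by omega)
  obtain ⟨⟨z, hzmem⟩, hzne⟩ := exists_ne (1 : Subgroup.center G)
  have hz1 : z ≠ 1 := fun h => hzne (Subtype.ext h)
  have hpair : ∀ v ∈ Subgroup.center G, v = 1 ∨ v = z := by
    intro v hv
    by_contra hcon
    push Not at hcon
    haveI : Fintype (Subgroup.center G) := Fintype.ofFinite _
    let f : Fin 3 → Subgroup.center G := ![1, ⟨z, hzmem⟩, ⟨v, hv⟩]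
    have hf : Function.Injective f := by
      intro i j hij
      fin_cases i <;> fin_cases j <;>
        simp [f, Subtype.ext_iff, hz1, Ne.symm hz1, hcon.1, Ne.symm hcon.1, hcon.2, Ne.symm hcon.2] at hij ⊢
    have h2 := Fintype.card_le_of_injective f hf
    rw [Fintype.card_fin, ← Nat.card_eq_fintype_card, hZ] at h2
    omega
  have hz : ∀ v, z * v = v * z := fun v => (Subgroup.mem_center_iff.mp hzmem v).symm
  have hz2 : z * z = 1 := (hpair _ (Subgroup.mul_mem _ hzmem hzmem)).resolve_right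
    fun h => hz1 (mul_left_cancel (h.trans (mul_one z).symm))
  set π : G →* Perm (Fin n) :=
    (alternatingGroup (Fin n)).subtype.comp (e.toMonoidHom.comp (QuotientGroup.mk' _)) with hπ
  have hπker : ∀ v, π v = 1 ↔ v ∈ Subgroup.center G := fun v => by
    simp [hπ]
  have hker : ∀ v, π v = 1 → v = 1 ∨ v = z := fun v hv => hpair v ((hπker v).mp hv)
  have hrange : π.range = alternatingGroup (Fin n) := by
    ext p
    constructor
    · rintro ⟨v, rfl⟩; exact SetLike.coe_mem _
    · intro hp
      obtain ⟨v, hv⟩ := QuotientGroup.mk'_surjective (Subgroup.center G) (e.symm ⟨p, hp⟩)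
      exact ⟨v, by simp only [hπ, MonoidHom.comp_apply, hv]; simp⟩
  have hπz := (hπker z).mpr hzmem
  have hpg : sign (π g) = 1 := mem_alternatingGroup.mp (hrange ▸ ⟨g, rfl⟩)
  obtain ⟨x, y, hxy, hct, hsx, hfour⟩ := exists_two (by simpa using hn) hpg
  obtain ⟨b₀, hb₀⟩ := isConj_iff.mp (isConj_iff_cycleType_eq.mpr
    ((cycleType_inv x).trans hct) : IsConj x⁻¹ y)
  obtain ⟨b, hb, hsb⟩ : ∃ b : Perm (Fin n), b * x⁻¹ * b⁻¹ = y ∧ sign b = 1 := by
    rcases Int.units_eq_one_or (sign b₀) with hs | hs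
    · exact ⟨b₀, hb₀, hs⟩
    · obtain ⟨a, a', -, -, hne, -, -, -, -, -, ea, ea', -, -⟩ := hfour
      refine ⟨b₀ * swap a a', ?_, by rw [map_mul, hs, sign_swap hne]; rfl⟩
      have hconj : x * swap a a' * x⁻¹ = swap a a' := by
        rw [← swap_apply_apply, ea, ea', swap_comm]
      have hcomm : swap a a' * x⁻¹ = x⁻¹ * swap a a' := by
        conv_rhs => rw [← hconj]
        group
      rw [mul_inv_rev, swap_inv, mul_assoc b₀, hcomm, ← hb₀]
      simp only [mul_assoc, ← mul_assoc (swap a a'), swap_mul_self, one_mul]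
  obtain ⟨X, hX⟩ := MonoidHom.mem_range.mp (show x ∈ π.range from hrange ▸ mem_alternatingGroup.mpr hsx)
  obtain ⟨B, hB⟩ := MonoidHom.mem_range.mp (show b ∈ π.range from hrange ▸ mem_alternatingGroup.mpr hsb)
  have himg : π (X * B * X⁻¹ * B⁻¹) = π g := by
    rw [hxy, ← hb, map_mul, map_mul, map_mul, map_inv, map_inv, hX, hB]; group
  rcases hker (g * (X * B * X⁻¹ * B⁻¹)⁻¹) (by rw [map_mul, map_inv, himg, mul_inv_cancel]) with h | h
  · exact ⟨X, B, (mul_inv_eq_one.mp h).symm⟩
  · obtain ⟨w, -, hw⟩ := exists_anti hn hperf hker hz hz2 hz1 hπz hrange hfour hsx hX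
    refine ⟨X, B * w, ?_⟩
    have h1 : w * X⁻¹ * w⁻¹ = z * X⁻¹ := by
      calc w * X⁻¹ * w⁻¹ = X⁻¹ * (X * w) * X⁻¹ * w⁻¹ := by group
        _ = X⁻¹ * (z * (w * X)) * X⁻¹ * w⁻¹ := by rw [hw]
        _ = X⁻¹ * z := by group
        _ = z * X⁻¹ := (hz _).symm
    calc X * (B * w) * X⁻¹ * (B * w)⁻¹ = X * B * (w * X⁻¹ * w⁻¹) * B⁻¹ := by group
      _ = z * (X * B * X⁻¹ * B⁻¹) := by rw [h1, ← mul_assoc (X * B) z, ← hz (X * B)]; group
      _ = g := (mul_inv_eq_iff_eq_mul.mp h).symm

end Cfsg.Agent.S2493
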