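import Cfsg.Statements.S2495
import Cfsg.Agent.Lib.GLn.PSLHalfTorus

set_option autoImplicit false
open Cfsg

namespace Cfsg.Agent.S2495

/-- Let q be an odd prime power, n ≥ 4 even, and L = PSL(n,q). Then L has an element of order q^(n/2) + 1 if and only if the 2-part of n exceeds the 2-part of q − 1. -/
theorem result {F : Type*} [Field F] [Fintype F] {q : ℕ} (hF : Fintype.card F = q) (hodd : Odd q)
    {n : ℕ} (hn : 4 ≤ n) (heven : Even n) :
    (∃ g : Matrix.ProjectiveSpecialLinearGroup (Fin n) F, orderOf g = q ^ (n / 2) + 1) ↔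
      padicValNat 2 (q - 1) < padicValNat 2 n := by
  classical
  subst hF
  obtain ⟨p, hp⟩ := CharP.exists F
  haveI : Fact p.Prime := ⟨CharP.char_is_prime F p⟩
  have hq : 1 < Fintype.card F := Fintype.one_lt_card
  have hn2 : n = 2 * (n / 2) := by
    obtain ⟨h, rfl⟩ := heven
    omega
  rw [← Cfsg.Agent.Lib.GLn.HalfTorus.gcd_dvd_half_iff (by omega) heven (by omega)]
  exact ⟨fun ⟨g, hg⟩ => Cfsg.Agent.Lib.GLn.HalfTorus.no_half p hn2 (by omega) hodd hg,
    fun hd => Cfsg.Agent.Lib.GLn.HalfTorus.exists_half p hn2 (by omega) hd⟩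

end Cfsg.Agent.S2495
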