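import Cfsg.Statements.S2503
import Mathlib

set_option autoImplicit false
open Cfsg

namespace Cfsg.Agent.S2503

open QuadraticAlgebra

variable {F : Type*} [Field F]

/-- Left multiplication on the quadratic algebra in the basis `1, ω` (char 2: `ω² = ζ + ω`). -/
def mulMat (ζ : F) (z : QuadraticAlgebra F ζ 1) : Matrix (Fin 2) (Fin 2) F :=
  !![z.re, ζ * z.im; z.im, z.re + z.im]

theorem mulMat_mul (ζ : F) (y z : QuadraticAlgebra F ζ 1) : mulMat ζ (y * z) = mulMat ζ y * mulMat ζ z := by
  ext i j; fin_cases i <;> fin_cases j <;>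
    simp [mulMat, Matrix.mul_apply, Fin.sum_univ_two] <;> ring

theorem mulMat_one (ζ : F) : mulMat ζ 1 = 1 := by
  ext i j; fin_cases i <;> fin_cases j <;> simp [mulMat]

theorem mulMat_det (ζ : F) (z : QuadraticAlgebra F ζ 1) [CharP F 2] :
    (mulMat ζ z).det = z.norm := by
  simp [mulMat, Matrix.det_fin_two, QuadraticAlgebra.norm_def]; ring

theorem mulMat_injective (ζ : F) : Function.Injective (mulMat ζ) := by
  intro y z h
  ext
  · simpa [mulMat] using congrFun (congrFun h 0) 0
  · simpa [mulMat] using congrFun (congrFun h 1) 0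

theorem exists_sq [Finite F] [CharP F 2] (c : F) : ∃ y : F, y * y = c :=
  (FiniteField.isSquare_of_char_two (ringChar.eq F 2) c).imp fun _ h => h.symm


/-- Let F be a finite field with q = 2^t ≥ 4 elements and L = PSL(2,F). Then L has a cyclic subgroup A of order q + 1 and an elementary abelian 2-subgroup B of order q such that L = ABA: every element of L is a product a·b·a' with a, a' ∈ A and b ∈ B. -/
theorem result {F : Type*} [Field F] [Fintype F]
    (h2 : 2 ∣ Fintype.card F) (h4 : 4 ≤ Fintype.card F) :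
    ∃ A B : Subgroup (Matrix.ProjectiveSpecialLinearGroup (Fin 2) F),
      IsCyclic A ∧ Nat.card A = Fintype.card F + 1 ∧ IsMulCommutative B ∧ (∀ b ∈ B, b * b = 1) ∧
        Nat.card B = Fintype.card F ∧
        ∀ g : Matrix.ProjectiveSpecialLinearGroup (Fin 2) F, ∃ a ∈ A, ∃ b ∈ B, ∃ c ∈ A, g = a * b * c := by
  classical
  haveI : CharP F 2 := by
    obtain ⟨p, hp⟩ := CharP.exists F
    obtain ⟨n, hpp, hq⟩ := FiniteField.card F p
    have h2' : p = 2 := ((Nat.prime_dvd_prime_iff_eq Nat.prime_two hpp).1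
      (Nat.prime_two.dvd_of_dvd_pow (hq ▸ h2))).symm
    exact h2' ▸ hp
  have h20 : (2 : F) = 0 := CharTwo.two_eq_zero
  obtain ⟨ζ, hζ⟩ : ∃ ζ : F, ∀ t, t * t + t ≠ ζ := by
    have : ¬ Function.Surjective (fun t : F => t * t + t) := fun h => by
      have := (Finite.injective_iff_surjective.2 h) (show (fun t : F => t * t + t) 1 = (fun t : F => t * t + t) 0 by
        simp [CharTwo.add_self_eq_zero])
      exact one_ne_zero this
    simpa [Function.Surjective] using this
  haveI hirr : Fact (∀ t : F, t ^ 2 ≠ ζ + 1 * t) := ⟨fun t h => hζ t (by linear_combination h + t * h20)⟩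
  set K := QuadraticAlgebra F ζ 1
  have : Fintype K := Fintype.ofEquiv _ (QuadraticAlgebra.equivProd ζ (1 : F)).symm
  have hK : Fintype.card K = Fintype.card F * Fintype.card F := by
    rw [Fintype.card_congr (QuadraticAlgebra.equivProd ζ (1 : F)), Fintype.card_prod]
  let N : Kˣ →* Fˣ := Units.map (QuadraticAlgebra.norm : K →* F)
  have hNs : Function.Surjective N := by
    intro c
    obtain ⟨y, hy⟩ := exists_sq (c : F)
    have hy0 : (⟨y, 0⟩ : K) ≠ 0 := by
      intro h
      have : y = 0 := congrArg QuadraticAlgebra.re h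
      rw [this, zero_mul] at hy
      exact c.ne_zero hy.symm
    refine ⟨Units.mk0 _ hy0, Units.ext ?_⟩
    show QuadraticAlgebra.norm (⟨y, 0⟩ : K) = (c : F)
    rw [QuadraticAlgebra.norm_def]
    linear_combination hy
  have hker : Nat.card N.ker = Fintype.card F + 1 := by
    have h := N.ker.card_mul_index
    rw [Subgroup.index_ker, MonoidHom.range_eq_top.2 hNs, Nat.card_congr Subgroup.topEquiv.toEquiv,
      Nat.card_units, Nat.card_units, Nat.card_eq_fintype_card (α := F), Nat.card_eq_fintype_card (α := K), hK] at h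
    obtain ⟨q', hq'⟩ : ∃ q', Fintype.card F = q' + 1 := ⟨Fintype.card F - 1, by omega⟩
    rw [hq'] at h h4 ⊢
    have e : (q' + 1) * (q' + 1) - 1 = (q' + 2) * q' := by
      rw [show (q' + 1) * (q' + 1) = (q' + 2) * q' + 1 by ring, Nat.add_sub_cancel]
    rw [e, Nat.add_sub_cancel] at h
    rw [show q' + 1 + 1 = q' + 2 from rfl]
    exact Nat.eq_of_mul_eq_mul_right (by omega) h
  let π : Matrix.SpecialLinearGroup (Fin 2) F →* Matrix.ProjectiveSpecialLinearGroup (Fin 2) F :=
    QuotientGroup.mk' _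
  have hπs : Function.Surjective π := QuotientGroup.mk'_surjective _
  have hπ : Function.Injective π := by
    rw [← MonoidHom.ker_eq_bot_iff, QuotientGroup.ker_mk', Subgroup.eq_bot_iff_forall]
    intro z hz
    obtain ⟨r, hr, hrz⟩ := Matrix.SpecialLinearGroup.mem_center_iff.1 hz
    rw [Fintype.card_fin] at hr
    have h1 : (r + 1) * (r + 1) = 0 := by linear_combination hr + (r + 1) * h20
    have hr1 : r = 1 := by linear_combination mul_self_eq_zero.1 h1 - h20
    apply Subtype.ext
    rw [← hrz, hr1, map_one]; rfl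
  let φ : N.ker →* Matrix.SpecialLinearGroup (Fin 2) F :=
    { toFun := fun x => ⟨mulMat ζ ((x : Kˣ) : K), by
        rw [mulMat_det]; exact congrArg Units.val (MonoidHom.mem_ker.1 x.2)⟩
      map_one' := Subtype.ext (mulMat_one ζ)
      map_mul' := fun x y => Subtype.ext (mulMat_mul ζ _ _) }
  have hφ : Function.Injective φ := fun x y h =>
    Subtype.ext (Units.ext (mulMat_injective ζ (congrArg Subtype.val h)))
  let ub : Multiplicative F →* Matrix.SpecialLinearGroup (Fin 2) F :=
    { toFun := fun b => ⟨!![1, b.toAdd; 0, 1], by simp [Matrix.det_fin_two]⟩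
      map_one' := Subtype.ext (by ext i j; fin_cases i <;> fin_cases j <;> simp)
      map_mul' := fun b c => Subtype.ext (show !![(1 : F), (b * c).toAdd; 0, 1] = !![1, b.toAdd; 0, 1] * !![1, c.toAdd; 0, 1] by
        ext i j; fin_cases i <;> fin_cases j <;> simp [Matrix.mul_apply, Fin.sum_univ_two, add_comm]) }
  have hub : Function.Injective ub := fun b c h => Multiplicative.toAdd.injective
    (congrFun (congrFun (congrArg Subtype.val h) 0) 1)
  refine ⟨(π.comp φ).range, (π.comp ub).range, ?_, ?_, ⟨⟨fun a b => ?_⟩⟩, ?_, ?_, ?_⟩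
  · haveI : IsCyclic N.ker := inferInstance
    exact isCyclic_of_surjective _ (MonoidHom.rangeRestrict_surjective (π.comp φ))
  · rw [← Nat.card_congr (MonoidHom.ofInjective (f := π.comp φ) (hπ.comp hφ)).toEquiv, hker]
  · obtain ⟨_, s, rfl⟩ := a
    obtain ⟨_, d, rfl⟩ := b
    apply Subtype.ext
    show (π.comp ub) s * (π.comp ub) d = (π.comp ub) d * (π.comp ub) s
    rw [← map_mul, ← map_mul, mul_comm]
  · rintro _ ⟨b, rfl⟩
    rw [← map_mul, ← map_one (π.comp ub)]
    congr 1
    exact Multiplicative.toAdd.injective (CharTwo.add_self_eq_zero b.toAdd)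
  · rw [← Nat.card_congr (MonoidHom.ofInjective (f := π.comp ub) (hπ.comp hub)).toEquiv,
      Nat.card_congr (Multiplicative.toAdd), Nat.card_eq_fintype_card]
  · intro gq
    obtain ⟨g, rfl⟩ := hπs gq
    set g00 := g.1 0 0
    set g01 := g.1 0 1
    set g10 := g.1 1 0
    set g11 := g.1 1 1
    have hdet : g00 * g11 - g01 * g10 = 1 := by
      have := g.2; rwa [Matrix.det_fin_two] at this
    let Q : F → F → F := fun x y => x * x + x * y + ζ * (y * y)
    obtain ⟨sα, hsα⟩ := exists_sq (Q g00 g10 + 1)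
    obtain ⟨sβ, hsβ⟩ := exists_sq (Q g01 g11 + ζ)
    have hD : ∀ x y, Q (g00 * x + g01 * y) (g10 * x + g11 * y) + Q x y = (sα * x + sβ * y) * (sα * x + sβ * y) := by
      intro x y
      simp only [Q] at hsα hsβ ⊢
      linear_combination (-(x * x)) * hsα - (y * y) * hsβ +
        (x * y) * hdet + (g00 * g01 * x * y + ζ * g10 * g11 * x * y + g01 * g10 * x * y + x * y
          - sα * sβ * x * y) * h20
    obtain ⟨x, y, hxy, hker2⟩ : ∃ x y : F, ¬ (x = 0 ∧ y = 0) ∧ sα * x + sβ * y = 0 := by
      by_cases h : sα = 0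
      · exact ⟨1, 0, by simp, by simp [h]⟩
      · exact ⟨sβ, sα, by simp [h], by linear_combination (sα * sβ) * h20⟩
    have hc : Q x y ≠ 0 := by
      intro h
      have h0 : (⟨x, y⟩ : K) = 0 := by
        rw [← QuadraticAlgebra.norm_eq_zero_iff_eq_zero, QuadraticAlgebra.norm_def]
        simp only [Q] at h
        linear_combination h - (ζ * y * y) * h20
      exact hxy ⟨congrArg QuadraticAlgebra.re h0, congrArg QuadraticAlgebra.im h0⟩
    obtain ⟨w, hw⟩ := exists_sq (Q x y)⁻¹
    set X := w * x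
    set Y := w * y
    have h1 : Q X Y = 1 := by
      simp only [Q, X, Y] at hc ⊢
      calc _ = (w * w) * (x * x + x * y + ζ * (y * y)) := by ring
        _ = 1 := by rw [hw]; exact inv_mul_cancel₀ hc
    have h2' : Q (g00 * X + g01 * Y) (g10 * X + g11 * Y) = 1 := by
      have := hD X Y
      rw [h1, show sα * X + sβ * Y = 0 by simp only [X, Y]; linear_combination w * hker2, zero_mul] at this
      linear_combination this - h20
    have mk : ∀ u v : F, Q u v = 1 → ∃ a : N.ker, (φ a : Matrix (Fin 2) (Fin 2) F) = mulMat ζ ⟨u, v⟩ := by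
      intro u v huv
      have hn : QuadraticAlgebra.norm (⟨u, v⟩ : K) = 1 := by
        rw [QuadraticAlgebra.norm_def]; simp only [Q] at huv
        linear_combination huv - (ζ * v * v) * h20
      have h0 : (⟨u, v⟩ : K) ≠ 0 := fun h => one_ne_zero (hn.symm.trans (QuadraticAlgebra.norm_eq_zero_iff_eq_zero.2 h))
      exact ⟨⟨Units.mk0 _ h0, MonoidHom.mem_ker.2 (Units.ext hn)⟩, rfl⟩
    obtain ⟨a2, ha2⟩ := mk X Y h1
    obtain ⟨a1, ha1⟩ := mk _ _ h2'
    set M := (φ a1)⁻¹ * g * φ a2 with hM
    have hcol : ∀ i, (M : Matrix (Fin 2) (Fin 2) F) i 0 = (1 : Matrix (Fin 2) (Fin 2) F) i 0 := by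
      have hA : ((g * φ a2 : Matrix.SpecialLinearGroup (Fin 2) F) : Matrix (Fin 2) (Fin 2) F).mulVec ![1, 0]
          = ((φ a1 : Matrix.SpecialLinearGroup (Fin 2) F) : Matrix (Fin 2) (Fin 2) F).mulVec ![1, 0] := by
        rw [Matrix.SpecialLinearGroup.coe_mul, ha2, ha1]
        ext i; fin_cases i <;> simp [mulMat, Matrix.mulVec, Matrix.vecHead, Matrix.vecTail, Matrix.mul_apply,
          Fin.sum_univ_two, dotProduct, g00, g01, g10, g11]
      intro i
      have hi : (φ a1)⁻¹ * φ a1 = 1 := inv_mul_cancel _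
      have := congrArg (fun v => (((φ a1)⁻¹ : Matrix.SpecialLinearGroup (Fin 2) F) : Matrix (Fin 2) (Fin 2) F).mulVec v) hA
      simp only [Matrix.mulVec_mulVec, ← Matrix.SpecialLinearGroup.coe_mul, hi, ← mul_assoc,
        Matrix.SpecialLinearGroup.coe_one, ← hM] at this
      simpa [Matrix.mulVec, dotProduct, Fin.sum_univ_two] using congrFun this i
    have hMb : M = ub (Multiplicative.ofAdd ((M : Matrix (Fin 2) (Fin 2) F) 0 1)) := by
      have hd := M.2
      rw [Matrix.det_fin_two, hcol 0, hcol 1] at hd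
      apply Subtype.ext
      ext i j; fin_cases i <;> fin_cases j
      · show _ = (1 : F); simpa using hcol 0
      · rfl
      · show _ = (0 : F); simpa using hcol 1
      · show _ = (1 : F); simpa using hd
    refine ⟨π (φ a1), ⟨a1, rfl⟩, π M, ⟨Multiplicative.ofAdd ((M : Matrix (Fin 2) (Fin 2) F) 0 1), by rw [MonoidHom.comp_apply, ← hMb]⟩,
      π (φ a2)⁻¹, ⟨a2⁻¹, by rw [MonoidHom.comp_apply, map_inv φ]⟩, ?_⟩
    rw [← map_mul, ← map_mul, hM]; congr 1; group

end Cfsg.Agent.S2503
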