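import Cfsg.Statements.S2504
import Cfsg.Agent.Lib.AbelianPerm

set_option autoImplicit false
open Cfsg

namespace Cfsg.Agent.S2504

open Cfsg.Agent.Lib.AbelianPerm

/-- The largest order of an abelian subgroup of the alternating group of degree n is 3^k when n = 3k, 4·3^(k−1) when n = 3k + 1, and 16·3^(k−2) when n = 3k + 2, for every k ≥ 2 (so for all degrees n ≥ 6). -/
theorem result (k : ℕ) (hk : 2 ≤ k) :
    IsGreatest {c : ℕ | ∃ A : Subgroup (alternatingGroup (Fin (3 * k))), IsMulCommutative A ∧ Nat.card A = c} (3 ^ k) ∧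
    IsGreatest {c : ℕ | ∃ A : Subgroup (alternatingGroup (Fin (3 * k + 1))), IsMulCommutative A ∧ Nat.card A = c}
      (4 * 3 ^ (k - 1)) ∧
    IsGreatest {c : ℕ | ∃ A : Subgroup (alternatingGroup (Fin (3 * k + 2))), IsMulCommutative A ∧ Nat.card A = c}
      (16 * 3 ^ (k - 2)) := by
  obtain ⟨j, rfl⟩ : ∃ j, k = j + 2 := ⟨k - 2, by omega⟩
  have key : ∀ n c, gA n = c → n ≠ 2 → n ≠ 5 →
      IsGreatest {c : ℕ | ∃ A : Subgroup (alternatingGroup (Fin n)), IsMulCommutative A ∧ Nat.card A = c} c := by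
    rintro n c rfl h2 h5
    refine ⟨to_alternating (ex_gA n h2 h5), ?_⟩
    rintro d ⟨A, hA, rfl⟩
    exact card_alt_le A hA
  refine ⟨key _ _ (gA_three_mul _) (by omega) (by omega),
    key _ _ ?_ (by omega) (by omega), key _ _ ?_ (by omega) (by omega)⟩
  · rw [show j + 2 - 1 = j + 1 by omega, ← gA_one_mod]
  · rw [show j + 2 - 2 = j by omega, ← gA_two_mod]

end Cfsg.Agent.S2504
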