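import Cfsg.Statements.S2505
import Cfsg.Agent.Lib.AbelianPerm

set_option autoImplicit false
open Cfsg

namespace Cfsg.Agent.S2505

open Cfsg.Agent.Lib.AbelianPerm

/-- The largest order of an abelian subgroup of the symmetric group of degree n is 3^k when n = 3k, 4·3^(k−1) when n = 3k + 1, and 2·3^k when n = 3k + 2, for every k ≥ 1. -/
theorem result (k : ℕ) (hk : 1 ≤ k) :
    IsGreatest {c : ℕ | ∃ A : Subgroup (Equiv.Perm (Fin (3 * k))), IsMulCommutative A ∧ Nat.card A = c} (3 ^ k) ∧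
    IsGreatest {c : ℕ | ∃ A : Subgroup (Equiv.Perm (Fin (3 * k + 1))), IsMulCommutative A ∧ Nat.card A = c}
      (4 * 3 ^ (k - 1)) ∧
    IsGreatest {c : ℕ | ∃ A : Subgroup (Equiv.Perm (Fin (3 * k + 2))), IsMulCommutative A ∧ Nat.card A = c}
      (2 * 3 ^ k) := by
  obtain ⟨j, rfl⟩ : ∃ j, k = j + 1 := ⟨k - 1, by omega⟩
  have hle : ∀ n, ∀ c ∈ {c : ℕ | ∃ A : Subgroup (Equiv.Perm (Fin n)), IsMulCommutative A ∧ Nat.card A = c}, c ≤ fS n := by
    rintro n c ⟨A, hA, rfl⟩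
    have := card_le_fS A
    rwa [Fintype.card_fin] at this
  have hex : ∀ n c, Ex false n c → ∃ A : Subgroup (Equiv.Perm (Fin n)), IsMulCommutative A ∧ Nat.card A = c := by
    rintro n c ⟨A, hA, hc, -⟩
    exact ⟨A, hA, hc⟩
  refine ⟨⟨hex _ _ (ex_pow false _), ?_⟩, ⟨hex _ _ ?_, ?_⟩, ⟨hex _ _ ?_, ?_⟩⟩
  · rw [← fS_three_mul]; exact hle _
  · rw [mul_comm 4, show 3 * (j + 1) + 1 = 3 * j + 4 by ring, Nat.add_sub_cancel]
    exact ex_prod (ex_pow false j) (ex_four false)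
  · rw [Nat.add_sub_cancel, ← fS_one_mod]; exact hle _
  · rw [mul_comm 2]
    exact ex_prod (ex_pow false (j + 1)) ex_two
  · rw [← fS_two_mod]; exact hle _

end Cfsg.Agent.S2505
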