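import Cfsg.Statements.S2506
import Cfsg.Agent.Lib.AbelianPerm

set_option autoImplicit false
open scoped Pointwise
open Cfsg

namespace Cfsg.Agent.S2506

open Cfsg.Agent.Lib.AbelianPerm

/-- In the alternating group of any degree, any two abelian subgroups of the largest possible order (among abelian subgroups) are conjugate. -/
theorem result (n : ℕ)
    (A B : Subgroup (alternatingGroup (Fin n))) (hA : IsMulCommutative A) (hB : IsMulCommutative B)
    (hAmax : ∀ C : Subgroup (alternatingGroup (Fin n)), IsMulCommutative C → Nat.card C ≤ Nat.card A)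
    (hBmax : ∀ C : Subgroup (alternatingGroup (Fin n)), IsMulCommutative C → Nat.card C ≤ Nat.card B) :
    ∃ g : alternatingGroup (Fin n), B = MulAut.conj g • A := by
  have hAB : Nat.card A = Nat.card B := le_antisymm (hBmax A hA) (hAmax B hB)
  by_cases hn : n ≤ 2
  · have : Subsingleton (alternatingGroup (Fin n)) := by
      refine ⟨fun u v => ?_⟩
      apply Subtype.ext
      have hu := u.2
      have hv := v.2
      revert hu hv
      generalize (u : Equiv.Perm (Fin n)) = a
      generalize (v : Equiv.Perm (Fin n)) = b
      interval_cases n <;> (simp only [Equiv.Perm.mem_alternatingGroup]; revert a b; decide)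
    exact ⟨1, Subgroup.ext fun x => by simp [Subsingleton.elim x 1]⟩
  by_cases h5 : n = 5
  · subst h5
    have hc5 : ∀ C : Subgroup (alternatingGroup (Fin 5)), IsMulCommutative C →
        (∀ D : Subgroup (alternatingGroup (Fin 5)), IsMulCommutative D → Nat.card D ≤ Nat.card C) →
        Nat.card C = 5 := by
      intro C hC hmax
      refine le_antisymm (card_alt_le C hC) ?_
      have hdvd : 5 ∣ Nat.card (alternatingGroup (Fin 5)) := by
        rw [nat_card_alternatingGroup, Nat.card_fin]; decide
      obtain ⟨x, hx⟩ := exists_prime_orderOf_dvd_card' (hp := ⟨by norm_num⟩) 5 hdvd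
      have := hmax (Subgroup.zpowers x) inferInstance
      rwa [Nat.card_zpowers, hx] at this
    have hcard : Nat.card (alternatingGroup (Fin 5)) = 60 := by
      rw [nat_card_alternatingGroup, Nat.card_fin]; decide
    have h60 : 5 ^ (60 : ℕ).factorization 5 = 5 := by
      have : (60 : ℕ).factorization 5 = 1 := by
        rw [Nat.factorization_def _ (by norm_num : Nat.Prime 5), show (60 : ℕ) = 5 * 12 by norm_num]
        haveI : Fact (Nat.Prime 5) := ⟨by norm_num⟩
        rw [padicValNat.mul (by norm_num) (by norm_num), padicValNat_self,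
          padicValNat.eq_zero_of_not_dvd (by norm_num : ¬ 5 ∣ 12)]
      rw [this, pow_one]
    haveI : Fact (Nat.Prime 5) := ⟨by norm_num⟩
    let P := Sylow.ofCard A (p := 5) (by rw [hc5 A hA hAmax, hcard, h60])
    let R := Sylow.ofCard B (p := 5) (by rw [hc5 B hB hBmax, hcard, h60])
    obtain ⟨g, hg⟩ := MulAction.exists_smul_eq (alternatingGroup (Fin 5)) P R
    refine ⟨g, ?_⟩
    have := congrArg Sylow.toSubgroup hg
    exact this.symm
  have h3 : 3 ≤ Fintype.card (Fin n) := by simp; omega
  have hmax : Nat.card A = gA n := by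
    refine le_antisymm (card_alt_le A hA) ?_
    obtain ⟨C, hC, hc⟩ := to_alternating (ex_gA n (by omega) h5)
    exact hc ▸ hAmax C hC
  have iA := map_subtype A hA
  have iB := map_subtype B hB
  obtain ⟨τ, hτ, hBeq⟩ := conj_of_max (A.map (alternatingGroup (Fin n)).subtype)
    (B.map (alternatingGroup (Fin n)).subtype) (Subgroup.map_subtype_le A) (Subgroup.map_subtype_le B)
    (by rw [Subgroup.card_subtype, hmax, Fintype.card_fin])
    (by rw [Subgroup.card_subtype, ← hAB, hmax, Fintype.card_fin]) h3 (by simpa using h5)
  refine ⟨⟨τ, hτ⟩, Subgroup.map_injective (alternatingGroup (Fin n)).subtype_injective ?_⟩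
  rw [hBeq]
  show _ = (A.map ((MulAut.conj (⟨τ, hτ⟩ : alternatingGroup (Fin n))).toMonoidHom)).map _
  rw [Subgroup.map_map, Subgroup.map_map]
  rfl

end Cfsg.Agent.S2506
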