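import Cfsg.Statements.S2507
import Cfsg.Agent.Lib.PSLTwo.ClassSizes

set_option autoImplicit false
open Cfsg

namespace Cfsg.Agent.S2507

/-- Let F be a finite field with q = 2^f ≥ 4 elements. The conjugacy class sizes of PSL(2,F) are exactly 1, q(q − 1), q² − 1 and q(q + 1). -/
theorem result {F : Type*} [Field F] [Fintype F]
    (h2 : 2 ∣ Fintype.card F) (h4 : 4 ≤ Fintype.card F) :
    Set.range (fun g : (Matrix.ProjectiveSpecialLinearGroup (Fin 2) F) => (Subgroup.centralizer ({g} : Set (Matrix.ProjectiveSpecialLinearGroup (Fin 2) F))).index) =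
      {1, Fintype.card F * (Fintype.card F - 1), Fintype.card F ^ 2 - 1, Fintype.card F * (Fintype.card F + 1)} := by
  classical
  have heven : Even (Fintype.card F) := even_iff_two_dvd.mpr h2
  have hLc : Nat.card (Cfsg.Agent.Lib.PSLTwo.Lsub F) = Fintype.card F * (Fintype.card F ^ 2 - 1) := by
    rw [Cfsg.Agent.Lib.PSLTwo.card_Lsub, Cfsg.Agent.Lib.Classical.card_PSL_two_of_even heven]
  obtain ⟨r, hr⟩ : ∃ r, Fintype.card F = r + 2 := ⟨Fintype.card F - 2, by omega⟩
  have e0 : Fintype.card F ^ 2 - 1 = (r + 1) * (r + 3) := by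
    rw [hr, show (r + 2) ^ 2 = (r + 1) * (r + 3) + 1 by ring, Nat.add_sub_cancel]
  have e1 : Fintype.card F - 1 = r + 1 := by omega
  ext k
  rw [Cfsg.Agent.Lib.PSLTwo.mem_range_iff, hLc]
  simp only [Set.mem_insert_iff, Set.mem_singleton_iff, e0, e1]
  have hce := Cfsg.Agent.Lib.PSLTwo.cent_even heven h4
  constructor
  · rintro ⟨a, haL, hk⟩
    by_cases ha : a = 1
    · rw [ha, Cfsg.Agent.Lib.PSLTwo.cent_one, hLc, e0] at hk
      exact Or.inl (Nat.eq_of_mul_eq_mul_right (by rw [hr]; positivity) (hk.trans (one_mul _).symm))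
    · refine Or.inr ?_
      rcases (hce _).mp ⟨a, haL, ha, rfl⟩ with hc | hc | hc <;> rw [hc] at hk <;>
        simp only [e1, hr] at hk ⊢
      · exact Or.inr (Or.inl (Nat.eq_of_mul_eq_mul_right (show 0 < r + 2 by omega) (hk.trans (by ring))))
      · exact Or.inr (Or.inr (Nat.eq_of_mul_eq_mul_right (show 0 < r + 1 by omega) (hk.trans (by ring))))
      · exact Or.inl (Nat.eq_of_mul_eq_mul_right (show 0 < r + 2 + 1 by omega) (hk.trans (by ring)))
  · rintro (rfl | rfl | rfl | rfl)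
    · exact ⟨1, one_mem _, by rw [Cfsg.Agent.Lib.PSLTwo.cent_one, hLc, e0, one_mul]⟩
    · obtain ⟨a, haL, -, hc⟩ := (hce _).mpr (Or.inr (Or.inr rfl))
      exact ⟨a, haL, by rw [hc, hr]; ring⟩
    · obtain ⟨a, haL, -, hc⟩ := (hce _).mpr (Or.inl rfl)
      exact ⟨a, haL, by rw [hc, hr]; ring⟩
    · obtain ⟨a, haL, -, hc⟩ := (hce _).mpr (Or.inr (Or.inl rfl))
      exact ⟨a, haL, by rw [hc, e1, hr]; ring⟩

end Cfsg.Agent.S2507
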