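import Cfsg.Statements.S2508
import Cfsg.Agent.Lib.PSLTwo.ClassSizes

set_option autoImplicit false
open Cfsg

namespace Cfsg.Agent.S2508

/-- Let F be a finite field with q elements, q odd and q ≥ 7. If q ≡ 1 (mod 4) the conjugacy class sizes of PSL(2,F) are exactly 1, (q² − 1)/2, q(q + 1)/2, q(q − 1) and q(q + 1); if q ≡ 3 (mod 4) they are exactly 1, (q² − 1)/2, q(q − 1)/2, q(q + 1) and q(q − 1). -/
theorem result {F : Type*} [Field F] [Fintype F]
    (hodd : ¬ 2 ∣ Fintype.card F) (h7 : 7 ≤ Fintype.card F) :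
    (Fintype.card F % 4 = 1 →
      Set.range (fun g : (Matrix.ProjectiveSpecialLinearGroup (Fin 2) F) => (Subgroup.centralizer ({g} : Set (Matrix.ProjectiveSpecialLinearGroup (Fin 2) F))).index) =
        {1, (Fintype.card F ^ 2 - 1) / 2, Fintype.card F * (Fintype.card F + 1) / 2,
          Fintype.card F * (Fintype.card F - 1), Fintype.card F * (Fintype.card F + 1)}) ∧
    (Fintype.card F % 4 = 3 →
      Set.range (fun g : (Matrix.ProjectiveSpecialLinearGroup (Fin 2) F) => (Subgroup.centralizer ({g} : Set (Matrix.ProjectiveSpecialLinearGroup (Fin 2) F))).index) =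
        {1, (Fintype.card F ^ 2 - 1) / 2, Fintype.card F * (Fintype.card F - 1) / 2,
          Fintype.card F * (Fintype.card F + 1), Fintype.card F * (Fintype.card F - 1)}) := by
  classical
  have ho : Odd (Fintype.card F) := Nat.odd_iff.mpr (by omega)
  obtain ⟨m, hm⟩ : ∃ m, Fintype.card F = 2 * m + 1 := ⟨Fintype.card F / 2, by omega⟩
  have hL2 : 2 * Nat.card (Cfsg.Agent.Lib.PSLTwo.Lsub F) = (2 * m + 1) * (4 * (m * (m + 1))) := by
    rw [Cfsg.Agent.Lib.PSLTwo.card_Lsub, Cfsg.Agent.Lib.Classical.two_mul_card_PSL_two_of_odd ho, hm,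
      show (2 * m + 1) ^ 2 = 4 * (m * (m + 1)) + 1 by ring, Nat.add_sub_cancel]
  have hLc : Nat.card (Cfsg.Agent.Lib.PSLTwo.Lsub F) = (2 * m + 1) * (2 * (m * (m + 1))) := by
    have : (2 * m + 1) * (4 * (m * (m + 1))) = 2 * ((2 * m + 1) * (2 * (m * (m + 1)))) := by ring
    omega
  have hm3 : 3 ≤ m := by omega
  have e1 : (Fintype.card F ^ 2 - 1) / 2 = 2 * (m * (m + 1)) := by
    rw [hm, show (2 * m + 1) ^ 2 = 2 * (2 * (m * (m + 1))) + 1 by ring, Nat.add_sub_cancel,
      Nat.mul_div_cancel_left _ two_pos]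
  have e2 : Fintype.card F * (Fintype.card F + 1) / 2 = (2 * m + 1) * (m + 1) := by
    rw [hm, show (2 * m + 1) * (2 * m + 1 + 1) = 2 * ((2 * m + 1) * (m + 1)) by ring,
      Nat.mul_div_cancel_left _ two_pos]
  have e3 : Fintype.card F * (Fintype.card F - 1) / 2 = (2 * m + 1) * m := by
    rw [hm, Nat.add_sub_cancel, show (2 * m + 1) * (2 * m) = 2 * ((2 * m + 1) * m) by ring,
      Nat.mul_div_cancel_left _ two_pos]
  have e4 : Fintype.card F * (Fintype.card F - 1) = (2 * m + 1) * (2 * m) := by rw [hm, Nat.add_sub_cancel]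
  have e5 : Fintype.card F * (Fintype.card F + 1) = (2 * m + 1) * (2 * (m + 1)) := by rw [hm]; ring
  have hcases : ∀ k : ℕ, (∃ a ∈ Cfsg.Agent.Lib.PSLTwo.Lsub F, k * Nat.card
      (Subgroup.centralizer {a} ⊓ Cfsg.Agent.Lib.PSLTwo.Lsub F : Subgroup _) =
        Nat.card (Cfsg.Agent.Lib.PSLTwo.Lsub F)) ↔
      k = 1 ∨ k = 2 * (m * (m + 1)) ∨ k = (2 * m + 1) * (2 * m) ∨ k = (2 * m + 1) * (2 * (m + 1)) ∨
        (2 ∣ m ∧ k = (2 * m + 1) * (m + 1)) ∨ (¬ 2 ∣ m ∧ k = (2 * m + 1) * m) := by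
    intro k
    constructor
    · rintro ⟨a, haL, hk⟩
      by_cases ha : a = 1
      · rw [ha, Cfsg.Agent.Lib.PSLTwo.cent_one] at hk
        exact Or.inl (Nat.eq_of_mul_eq_mul_right Nat.card_pos (hk.trans (one_mul _).symm))
      · refine Or.inr ?_
        rcases Cfsg.Agent.Lib.PSLTwo.cent_cases_odd ho haL ha with hc | ⟨n, hn, h | ⟨h, h4⟩⟩
        · rw [hc, hm, hLc] at hk
          exact Or.inl (Nat.eq_of_mul_eq_mul_right (show 0 < 2 * m + 1 by omega) (hk.trans (by ring)))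
        · rcases hn with hn | hn
          · rw [show Nat.card (Subgroup.centralizer {a} ⊓ Cfsg.Agent.Lib.PSLTwo.Lsub F : Subgroup _) = m by omega,
              hLc] at hk
            exact Or.inr (Or.inr (Or.inl
              (Nat.eq_of_mul_eq_mul_right (show 0 < m by omega) (hk.trans (by ring)))))
          · rw [show Nat.card (Subgroup.centralizer {a} ⊓ Cfsg.Agent.Lib.PSLTwo.Lsub F : Subgroup _) = m + 1 by omega,
              hLc] at hk
            exact Or.inr (Or.inl (Nat.eq_of_mul_eq_mul_right (show 0 < m + 1 by omega) (hk.trans (by ring))))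
        · rcases hn with hn | hn
          · rw [show Nat.card (Subgroup.centralizer {a} ⊓ Cfsg.Agent.Lib.PSLTwo.Lsub F : Subgroup _) = 2 * m by omega,
              hLc] at hk
            exact Or.inr (Or.inr (Or.inr (Or.inl ⟨by omega,
              Nat.eq_of_mul_eq_mul_right (show 0 < 2 * m by omega) (hk.trans (by ring))⟩)))
          · rw [show Nat.card (Subgroup.centralizer {a} ⊓ Cfsg.Agent.Lib.PSLTwo.Lsub F : Subgroup _) = 2 * (m + 1) by omega,
              hLc] at hk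
            exact Or.inr (Or.inr (Or.inr (Or.inr ⟨by omega,
              Nat.eq_of_mul_eq_mul_right (show 0 < 2 * (m + 1) by omega) (hk.trans (by ring))⟩)))
    · intro h
      obtain ⟨⟨a, haL, ha⟩, ha4⟩ := Cfsg.Agent.Lib.PSLTwo.cent_exists_torus ho h7 (Or.inl rfl)
      obtain ⟨⟨b, hbL, hb⟩, hb4⟩ := Cfsg.Agent.Lib.PSLTwo.cent_exists_torus ho h7 (Or.inr rfl)
      rcases h with rfl | rfl | rfl | rfl | ⟨hpar, rfl⟩ | ⟨hpar, rfl⟩
      · exact ⟨1, one_mem _, by rw [Cfsg.Agent.Lib.PSLTwo.cent_one, one_mul]⟩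
      · obtain ⟨c, hcL, hc⟩ := Cfsg.Agent.Lib.PSLTwo.cent_exists_unip ho
        exact ⟨c, hcL, by rw [hc, hLc, hm]; ring⟩
      · refine ⟨b, hbL, ?_⟩
        rw [show Nat.card (Subgroup.centralizer {b} ⊓ Cfsg.Agent.Lib.PSLTwo.Lsub F : Subgroup _) = m + 1 by omega,
          hLc]
        ring
      · refine ⟨a, haL, ?_⟩
        clear ha4 hb4 hb e1 e2 e3 e4 e5
        rw [show Nat.card (Subgroup.centralizer {a} ⊓ Cfsg.Agent.Lib.PSLTwo.Lsub F : Subgroup _) = m by omega, hLc]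
        ring
      · obtain ⟨c, hcL, hc⟩ := ha4 (by omega)
        exact ⟨c, hcL, by rw [hc, hLc, hm, Nat.add_sub_cancel]; ring⟩
      · obtain ⟨c, hcL, hc⟩ := hb4 (by omega)
        exact ⟨c, hcL, by rw [hc, hLc, hm]; ring⟩
  constructor <;> intro h4 <;> ext k <;>
    rw [Cfsg.Agent.Lib.PSLTwo.mem_range_iff, hcases] <;>
    simp only [Set.mem_insert_iff, Set.mem_singleton_iff] <;> rw [e1]
  · rw [e2, e4, e5]
    have : 2 ∣ m := by omega
    tauto
  · rw [e3, e4, e5]
    have : ¬ 2 ∣ m := by omega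
    tauto

end Cfsg.Agent.S2508
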