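import Cfsg.Statements.S2510
import Cfsg.Agent.Lib.GLSplit
import Cfsg.Agent.Lib.GLTorus

set_option autoImplicit false
open Cfsg

namespace Cfsg.Agent.S2510

open Polynomial

variable {F : Type*} [Field F] {n : ℕ}

/-- The class of `s` in `PSL`. -/
abbrev proj (n : ℕ) (F : Type*) [Field F] :
    Matrix.SpecialLinearGroup (Fin n) F →* Matrix.ProjectiveSpecialLinearGroup (Fin n) F :=
  QuotientGroup.mk' _

theorem proj_eq_one_iff (s : Matrix.SpecialLinearGroup (Fin n) F) (hn : 1 ≤ n) :
    proj n F s = 1 ↔ ∃ c : F, (s : Matrix (Fin n) (Fin n) F) = c • (1 : Matrix (Fin n) (Fin n) F) := by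
  rw [proj, QuotientGroup.mk'_apply, QuotientGroup.eq_one_iff, Matrix.SpecialLinearGroup.mem_center_iff]
  constructor
  · rintro ⟨r, -, hr⟩; exact ⟨r, by rw [← hr, Matrix.scalar_apply, Matrix.smul_one_eq_diagonal]⟩
  · rintro ⟨c, hc⟩
    refine ⟨c, ?_, by rw [hc, Matrix.scalar_apply, Matrix.smul_one_eq_diagonal]⟩
    have := s.2
    rwa [hc, Matrix.det_smul, Matrix.det_one, mul_one] at this

/-- A commuting element of order `r` in `PSL` from an idempotent. -/
theorem exists_h (hn : 1 ≤ n) (r : ℕ) (hr : r.Prime) (hrn : ¬ r ∣ n) (ζ : F) (hζ : orderOf ζ = r)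
    (P : Matrix (Fin n) (Fin n) F) (hP : P * P = P) (hP0 : P ≠ 0) (hP1 : P ≠ 1) :
    ∃ h : Matrix.SpecialLinearGroup (Fin n) F, orderOf (proj n F h) = r ∧
      ∀ s : Matrix.SpecialLinearGroup (Fin n) F, Commute P (s : Matrix (Fin n) (Fin n) F) → Commute s h := by
  obtain ⟨r1, hdet⟩ := Lib.GLSplit.det_one_add_smul_idem P hP
  set a : F := ζ ^ (r1 * (r - 1)) with ha
  set H : Matrix (Fin n) (Fin n) F := a • (1 + (ζ ^ n - 1) • P) with hH
  have hζr : ζ ^ r = 1 := hζ ▸ pow_orderOf_eq_one ζ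
  have hd : H.det = 1 := by
    rw [hH, Matrix.det_smul, Fintype.card_fin, hdet, add_sub_cancel, ha, ← pow_mul, ← pow_mul, ← pow_add]
    have e : r1 * (r - 1) * n + n * r1 = r * (r1 * n) := by
      obtain ⟨r', rfl⟩ : ∃ r', r = r' + 1 := ⟨r - 1, by have := hr.pos; omega⟩
      rw [Nat.add_sub_cancel]; ring
    rw [e, pow_mul, hζr, one_pow]
  have hne : ζ ^ n - 1 ≠ 0 := by
    intro h
    exact hrn (hζ ▸ orderOf_dvd_of_pow_eq_one (sub_eq_zero.1 h))
  obtain ⟨Hs, hHs⟩ : ∃ Hs : Matrix.SpecialLinearGroup (Fin n) F, (Hs : Matrix (Fin n) (Fin n) F) = H :=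
    ⟨⟨H, hd⟩, rfl⟩
  refine ⟨Hs, ?_, fun s hs => ?_⟩
  · refine (Nat.Prime.eq_one_or_self_of_dvd hr _ (orderOf_dvd_of_pow_eq_one ?_)).resolve_left ?_
    · rw [← map_pow, proj_eq_one_iff _ hn]
      refine ⟨1, ?_⟩
      rw [Matrix.SpecialLinearGroup.coe_pow, hHs, hH, _root_.smul_pow, Lib.GLSplit.pow_one_add_smul_idem P hP, add_sub_cancel,
        ← pow_mul, ← pow_mul, mul_comm n r, pow_mul ζ r n, hζr, one_pow, sub_self, zero_smul, add_zero,
        mul_comm (r1 * (r - 1)) r, pow_mul, hζr, one_pow]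
    · rw [orderOf_eq_one_iff, proj_eq_one_iff _ hn]
      rintro ⟨c, hc⟩
      rw [hHs] at hc
      have ha0 : a ≠ 0 := pow_ne_zero _ (by rintro rfl; rw [zero_pow hr.ne_zero] at hζr; exact zero_ne_one hζr)
      have hc' : (ζ ^ n - 1) • P = (a⁻¹ * c - 1) • (1 : Matrix (Fin n) (Fin n) F) := by
        have := congrArg (fun A => a⁻¹ • A) (show H = c • (1 : Matrix (Fin n) (Fin n) F) from hc)
        simp only [hH, smul_smul, inv_mul_cancel₀ ha0, one_smul] at this
        rw [sub_smul (a⁻¹ * c), one_smul, ← this, add_sub_cancel_left]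
      have hPs : P = ((ζ ^ n - 1)⁻¹ * (a⁻¹ * c - 1)) • (1 : Matrix (Fin n) (Fin n) F) := by
        rw [← smul_smul, ← hc', smul_smul, inv_mul_cancel₀ hne, one_smul]
      set d := (ζ ^ n - 1)⁻¹ * (a⁻¹ * c - 1)
      rw [hPs, smul_mul_smul_comm, one_mul] at hP
      have : d * d = d := by
        have := congrFun (congrFun hP ⟨0, hn⟩) ⟨0, hn⟩
        simpa using this
      rcases mul_eq_zero.1 (show d * (d - 1) = 0 by linear_combination this) with h | h
      · exact hP0 (by rw [hPs, h, zero_smul])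
      · exact hP1 (by rw [hPs, sub_eq_zero.1 h, one_smul])
  · apply Subtype.ext
    show (s : Matrix (Fin n) (Fin n) F) * (Hs : Matrix (Fin n) (Fin n) F) = (Hs : Matrix (Fin n) (Fin n) F) * (s : Matrix (Fin n) (Fin n) F)
    rw [hHs]
    exact (((Commute.one_right _).add_right (hs.symm.smul_right _)).smul_right _).eq

/-- The torus element: a norm one generator of the extension of degree `n`. -/
theorem exists_torus [Fintype F] (p : ℕ) [Fact p.Prime] [CharP F p] (hn : 1 ≤ n) :
    ∃ s : Matrix.SpecialLinearGroup (Fin n) F, Nat.Coprime (orderOf (proj n F s)) p ∧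
      ∀ (M : Matrix (Fin n) (Fin n) F) (f : F[X]) (e : ℕ), f.Monic → Irreducible f → minpoly F M ∣ f ^ e →
        M.det = 1 → ∃ c : F, M ^ (orderOf (proj n F s) * p ^ Nat.clog p n) = c • (1 : Matrix (Fin n) (Fin n) F) := by
  classical
  have : NeZero n := ⟨by omega⟩
  set K := FiniteField.Extension F p n
  have : Fintype K := Fintype.ofFinite K
  let b : Module.Basis (Fin n) F K := Module.finBasisOfFinrankEq F K (FiniteField.finrank_extension F p n)
  let N : Kˣ →* Fˣ := Units.map (Algebra.norm F : K →* F)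
  obtain ⟨u, hu⟩ := IsCyclic.exists_generator (α := N.ker)
  let S : N.ker →* Matrix.SpecialLinearGroup (Fin n) F :=
    { toFun := fun x => ⟨Algebra.leftMulMatrix b ((x : Kˣ) : K), by
        rw [← Algebra.norm_eq_matrix_det]
        exact congrArg Units.val (MonoidHom.mem_ker.1 x.2)⟩
      map_one' := Subtype.ext (by simp)
      map_mul' := fun x y => Subtype.ext (map_mul (Algebra.leftMulMatrix b) ((x : Kˣ) : K) ((y : Kˣ) : K)) }
  refine ⟨S u, ?_, ?_⟩
  · have h1 : orderOf (proj n F (S u)) ∣ Fintype.card Kˣ :=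
      ((orderOf_map_dvd _ _).trans (orderOf_map_dvd S u)).trans
        ((Subgroup.orderOf_coe u) ▸ orderOf_dvd_card)
    refine Nat.Coprime.coprime_dvd_left h1 ?_
    rw [Fintype.card_units]
    refine (Nat.coprime_comm.1 (((Fact.out : p.Prime).coprime_iff_not_dvd).2 ?_))
    have hc : p ∣ Fintype.card K := by
      rw [← Nat.card_eq_fintype_card, FiniteField.natCard_extension, Nat.card_eq_fintype_card]
      obtain ⟨a, ha, hq⟩ := FiniteField.card F p
      rw [hq]; exact dvd_pow (dvd_pow_self p a.ne_zero) (by omega)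
    intro hd
    have := Nat.dvd_sub hc hd
    rw [Nat.sub_sub_self Fintype.card_pos] at this
    exact (Fact.out : p.Prime).not_dvd_one this
  · intro M f e hfm hf hdvd hdet
    obtain ⟨j, hj, hdeg⟩ := Lib.GLSplit.charpoly_eq_pow M f hfm hf e hdvd
    rw [Fintype.card_fin] at hdeg
    have : Fact (Irreducible f) := ⟨hf⟩
    have : Module.Finite F (AdjoinRoot f) := (AdjoinRoot.powerBasis hf.ne_zero).finite
    obtain ⟨φ⟩ : Nonempty (AdjoinRoot f →ₐ[F] K) := FiniteField.nonempty_algHom_of_finrank_dvd (by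
      rw [show Module.finrank F (AdjoinRoot f) = f.natDegree from finrank_quotient_span_eq_natDegree (f := f),
        FiniteField.finrank_extension]
      exact Dvd.intro j hdeg)
    set α := φ (AdjoinRoot.root f)
    have hαf : aeval α f = 0 := by rw [aeval_algHom_apply, AdjoinRoot.aeval_eq, AdjoinRoot.mk_self, map_zero]
    have hmin : minpoly F α = f := (minpoly.eq_of_irreducible_of_monic hf hαf hfm).symm
    set A := Algebra.leftMulMatrix b α with hA
    have hminA : minpoly F A = f := by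
      rw [hA, minpoly.algHom_eq _ (Algebra.leftMulMatrix_injective b), hmin]
    obtain ⟨j', hj', hdeg'⟩ := Lib.GLSplit.charpoly_eq_pow A f hfm hf 1 (by rw [pow_one, hminA])
    rw [Fintype.card_fin] at hdeg'
    have hjj : j' = j := Nat.eq_of_mul_eq_mul_left hf.natDegree_pos (hdeg'.trans hdeg.symm)
    have hN : Algebra.norm F α = 1 := by
      rw [Algebra.norm_eq_matrix_det b, ← hA, Matrix.det_eq_sign_charpoly_coeff, hj', hjj, ← hj,
        ← Matrix.det_eq_sign_charpoly_coeff, hdet]
    have hα0 : α ≠ 0 := by intro h; rw [h, Algebra.norm_zero] at hN; exact zero_ne_one hN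
    set x : N.ker := ⟨Units.mk0 α hα0, MonoidHom.mem_ker.2 (Units.ext (by simpa [N] using hN))⟩
    obtain ⟨k, hk⟩ := mem_powers_iff_mem_zpowers.2 (hu x)
    have hx : proj n F (S x) ^ orderOf (proj n F (S u)) = 1 := by
      rw [← show u ^ k = x from hk, map_pow, map_pow, ← pow_mul, mul_comm, pow_mul, pow_orderOf_eq_one, one_pow]
    rw [← map_pow, proj_eq_one_iff _ hn] at hx
    obtain ⟨c, hc⟩ := hx
    set o := orderOf (proj n F (S u))
    have hc' : Algebra.leftMulMatrix b (α ^ o) = Algebra.leftMulMatrix b (algebraMap F K c) := by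
      rw [map_pow, AlgHom.commutes, ← hA, Algebra.algebraMap_eq_smul_one, ← hc, Matrix.SpecialLinearGroup.coe_pow]
      rfl
    have hfd : f ∣ X ^ o - C c := by
      rw [← hmin]
      exact minpoly.dvd F α (by simp [Algebra.leftMulMatrix_injective b hc'])
    have hchar : (X ^ o - C c) ^ j = (X ^ o - C c) ^ j := rfl
    have h0 : (M ^ o - algebraMap F _ c) ^ j = 0 := by
      obtain ⟨d, hd⟩ := pow_dvd_pow_of_dvd hfd j
      have := congrArg (aeval M) hd
      rw [map_mul, ← hj, Matrix.aeval_self_charpoly, zero_mul] at this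
      simpa using this
    have hjn : j ≤ n := hdeg ▸ Nat.le_mul_of_pos_left j hf.natDegree_pos
    have h1 : (M ^ o - algebraMap F _ c) ^ (p ^ Nat.clog p n) = 0 :=
      pow_eq_zero_of_le (hjn.trans (Nat.le_pow_clog (Fact.out : p.Prime).one_lt n)) h0
    rw [sub_pow_char_pow_of_commute _ _ (Algebra.commute_algebraMap_right c _), sub_eq_zero, ← pow_mul, ← map_pow,
      Algebra.algebraMap_eq_smul_one] at h1
    exact ⟨_, h1⟩

/-- The unipotent element with one block of size `m`. -/
theorem exists_unipotent [Fintype F] (p : ℕ) [Fact p.Prime] [CharP F p] (m : ℕ) (hn : 1 ≤ n) (hm : m ≤ n)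
    (k : ℕ) (hk : p ^ k < m) :
    p ^ (k + 1) ∣ orderOf (proj n F (Lib.GLOrders.unipotent n m)) := by
  have : NeZero n := ⟨by omega⟩
  have h1 : (1 : ℕ) ≤ m := by omega
  have hpow : proj n F (Lib.GLOrders.unipotent n m) ^ (p ^ Nat.clog p n) = 1 := by
    rw [← map_pow, proj_eq_one_iff _ hn]
    refine ⟨1, ?_⟩
    rw [Matrix.SpecialLinearGroup.coe_pow, one_smul]
    show ((1 : Matrix (Fin n) (Fin n) F) + Lib.GLOrders.shiftMat n m) ^ _ = 1
    rw [add_pow_char_pow_of_commute _ _ (Commute.one_left _), one_pow,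
      pow_eq_zero_of_le (hm.trans (Nat.le_pow_clog (Fact.out : p.Prime).one_lt n))
        (Lib.GLOrders.shiftMat_pow_eq_zero n m h1), add_zero]
  obtain ⟨i, -, hi⟩ := (Nat.dvd_prime_pow (Fact.out : p.Prime)).1 (orderOf_dvd_of_pow_eq_one hpow)
  rw [hi]
  refine pow_dvd_pow p ?_
  by_contra h
  have h2 : proj n F (Lib.GLOrders.unipotent n m) ^ (p ^ k) = 1 :=
    orderOf_dvd_iff_pow_eq_one.1 (hi ▸ pow_dvd_pow p (by omega))
  rw [← map_pow, proj_eq_one_iff _ hn] at h2
  obtain ⟨c, hc⟩ := h2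
  exact Lib.GLOrders.not_scalar_unipotent_pow (F := F) p n m k hm hk c (by rw [← hc]; rfl)

/-- The diagonal idempotent of the last coordinate. -/
def lastP (n : ℕ) (F : Type*) [Field F] : Matrix (Fin n) (Fin n) F :=
  Matrix.diagonal fun i => if (i : ℕ) + 1 = n then 1 else 0

theorem lastP_spec (hn : 2 ≤ n) : lastP n F * lastP n F = lastP n F ∧ lastP n F ≠ 0 ∧ lastP n F ≠ 1 ∧
    Commute (lastP n F) (((Lib.GLOrders.unipotent n (n - 1) : Matrix.SpecialLinearGroup (Fin n) F)) : Matrix (Fin n) (Fin n) F) := by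
  refine ⟨?_, ?_, ?_, ?_⟩
  · rw [lastP, Matrix.diagonal_mul_diagonal]; congr 1; ext i; split <;> simp
  · intro h
    have := congrFun (congrFun h ⟨n - 1, by omega⟩) ⟨n - 1, by omega⟩
    simp [lastP, show n - 1 + 1 = n from by omega] at this
  · intro h
    have := congrFun (congrFun h ⟨0, by omega⟩) ⟨0, by omega⟩
    simp [lastP, show (1 : ℕ) ≠ n from by omega] at this
  · show _ * ((1 : Matrix (Fin n) (Fin n) F) + Lib.GLOrders.shiftMat n (n - 1)) = _
    refine ((Commute.one_right _).add_right ?_).eq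
    ext i j
    simp only [lastP, Matrix.diagonal_mul, Matrix.mul_diagonal, Lib.GLOrders.shiftMat, Matrix.of_apply]
    split_ifs <;> first | rfl | (exfalso; omega) | simp

theorem lcm_mono {a b c d : ℕ} (h1 : a ∣ c) (h2 : b ∣ d) : a.lcm b ∣ c.lcm d :=
  Nat.lcm_dvd (h1.trans (Nat.dvd_lcm_left c d)) (h2.trans (Nat.dvd_lcm_right c d))

theorem range_eq_of_forall {X Y : Type*} [Group X] [Finite X] [Group Y] [Finite Y] (r : ℕ) (hr : r.Prime)
    (hY : ∀ y : Y, y ^ r = 1) (hup : ∀ x : X, ∃ x' : X, r * orderOf x ∣ orderOf x' ∨ (r ∣ orderOf x)) :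
    Set.range (orderOf : X × Y → ℕ) = Set.range (orderOf : X → ℕ) := by
  apply Set.Subset.antisymm
  · rintro _ ⟨⟨x, y⟩, rfl⟩
    rw [Prod.orderOf_mk]
    have hy := orderOf_dvd_of_pow_eq_one (hY y)
    obtain ⟨x', hx'⟩ := hup x
    have : ∃ z : X, Nat.lcm (orderOf x) (orderOf y) ∣ orderOf z := by
      rcases hx' with h | h
      · exact ⟨x', Nat.lcm_dvd ((dvd_mul_left _ r).trans h) (hy.trans ((dvd_mul_right r _).trans h))⟩
      · exact ⟨x, Nat.lcm_dvd dvd_rfl (hy.trans h)⟩
    obtain ⟨z, c, hc⟩ := this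
    have hzpos := orderOf_pos z
    have hc0 : c ≠ 0 := by rintro rfl; rw [mul_zero] at hc; omega
    exact ⟨z ^ c, by rw [orderOf_pow' z hc0, hc, Nat.gcd_mul_left_left, Nat.mul_div_cancel _ (Nat.pos_of_ne_zero hc0)]⟩
  · rintro _ ⟨x, rfl⟩
    exact ⟨(x, 1), by rw [Prod.orderOf_mk, orderOf_one, Nat.lcm_one_right]⟩


/-- Let F be a finite field with q = p^a elements, n ≥ 2 (with q ≥ 4 when n = 2), L = PSL(n, F), and let r be a prime dividing q − 1 and not dividing n. Then for every m the direct product L × L × L × (ℤ/r)^m has the same set of element orders as L × L × L; and if n − 1 ≠ p^j for every j ≥ 0 (so never when n = 2, since 1 = p^0), then already L × L × (ℤ/r)^m has the same set of element orders as L × L. -/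
theorem result {F : Type*} [Field F] [Fintype F] (p a n r m : ℕ) (hp : p.Prime) (ha : 1 ≤ a) (hF : Fintype.card F = p ^ a)
    (hn : 2 ≤ n) (hn2 : n = 2 → 4 ≤ Fintype.card F) (hr : r.Prime) (hrq : r ∣ Fintype.card F - 1) (hrn : ¬ r ∣ n) :
    Set.range (orderOf : Matrix.ProjectiveSpecialLinearGroup (Fin n) F × Matrix.ProjectiveSpecialLinearGroup (Fin n) F × Matrix.ProjectiveSpecialLinearGroup (Fin n) F × Multiplicative (Fin m → ZMod r) → ℕ) =
      Set.range (orderOf : Matrix.ProjectiveSpecialLinearGroup (Fin n) F × Matrix.ProjectiveSpecialLinearGroup (Fin n) F × Matrix.ProjectiveSpecialLinearGroup (Fin n) F → ℕ) ∧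
    ((¬ ∃ j : ℕ, n - 1 = p ^ j) →
      Set.range (orderOf : Matrix.ProjectiveSpecialLinearGroup (Fin n) F × Matrix.ProjectiveSpecialLinearGroup (Fin n) F × Multiplicative (Fin m → ZMod r) → ℕ) =
        Set.range (orderOf : Matrix.ProjectiveSpecialLinearGroup (Fin n) F × Matrix.ProjectiveSpecialLinearGroup (Fin n) F → ℕ)) := by
  classical
  haveI : Fact p.Prime := ⟨hp⟩
  haveI : Fact r.Prime := ⟨hr⟩
  haveI : CharP F p := charP_of_card_eq_prime_pow hF
  haveI : Nonempty (Fin n) := ⟨⟨0, by omega⟩⟩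
  obtain ⟨ζu, hζu⟩ : ∃ ζ : Fˣ, orderOf ζ = r :=
    exists_prime_orderOf_dvd_card r (by rw [Fintype.card_units]; exact hrq)
  have hζ : orderOf (ζu : F) = r := by rw [orderOf_units, hζu]
  obtain ⟨s, hsp, hs⟩ := exists_torus (F := F) (n := n) p (by omega)
  set S0 := orderOf (proj n F s) with hS0
  set pk := p ^ Nat.clog p n with hpk
  -- dichotomy for a single element
  have dich : ∀ x : Matrix.ProjectiveSpecialLinearGroup (Fin n) F,
      orderOf x ∣ S0 * pk ∨ (¬ r ∣ orderOf x → ∃ y : Matrix.ProjectiveSpecialLinearGroup (Fin n) F, orderOf y = r * orderOf x) := by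
    intro x
    obtain ⟨g, rfl⟩ := QuotientGroup.mk'_surjective _ x
    rcases Lib.GLSplit.split_or_primary (g : Matrix (Fin n) (Fin n) F) with ⟨P, hP, hP0, hP1, hPg⟩ | ⟨f, e, hfm, hf, hdvd, -⟩
    · right
      intro hrx
      obtain ⟨h, hh, hcomm⟩ := exists_h (by omega) r hr hrn _ hζ P hP hP0 hP1
      refine ⟨proj n F g * proj n F h, ?_⟩
      rw [((hcomm g hPg).map (proj n F)).orderOf_mul_eq_mul_orderOf_of_coprime
        (by rw [hh]; exact (hr.coprime_iff_not_dvd.2 hrx).symm), hh, mul_comm]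
    · left
      obtain ⟨c, hc⟩ := hs _ f e hfm hf hdvd g.2
      refine orderOf_dvd_of_pow_eq_one ?_
      rw [← map_pow, proj_eq_one_iff _ (by omega)]
      exact ⟨c, by rw [Matrix.SpecialLinearGroup.coe_pow]; exact hc⟩
  -- the unipotent and the element of order r
  obtain ⟨E', hE'⟩ : ∃ E', Nat.clog p n = E' + 1 := ⟨Nat.clog p n - 1, by
    have : 0 < Nat.clog p n := Nat.clog_pos hp.one_lt hn
    omega⟩
  have hlt : p ^ E' < n := Nat.pow_lt_of_lt_clog (by omega)
  have hu : pk ∣ orderOf (proj n F (Lib.GLOrders.unipotent n n)) := by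
    rw [hpk, hE']; exact exists_unipotent p n (by omega) le_rfl E' hlt
  obtain ⟨hP, hP0, hP1, hPu⟩ := lastP_spec (F := F) hn
  obtain ⟨h, hh, hcomm⟩ := exists_h (by omega) r hr hrn _ hζ _ hP hP0 hP1
  have hM : ∀ x : Matrix.ProjectiveSpecialLinearGroup (Fin n) F, orderOf x ∣ S0 * pk → orderOf x ∣ Nat.lcm S0 pk := by
    intro x hx
    rwa [Nat.Coprime.lcm_eq_mul (Nat.Coprime.pow_right _ hsp)]
  constructor
  · -- three factors
    let e : Matrix.ProjectiveSpecialLinearGroup (Fin n) F × Matrix.ProjectiveSpecialLinearGroup (Fin n) F × Matrix.ProjectiveSpecialLinearGroup (Fin n) F × Multiplicative (Fin m → ZMod r) ≃*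
        (Matrix.ProjectiveSpecialLinearGroup (Fin n) F × Matrix.ProjectiveSpecialLinearGroup (Fin n) F × Matrix.ProjectiveSpecialLinearGroup (Fin n) F) × Multiplicative (Fin m → ZMod r) :=
      { toFun := fun x => ((x.1, x.2.1, x.2.2.1), x.2.2.2)
        invFun := fun x => (x.1.1, x.1.2.1, x.1.2.2, x.2)
        left_inv := fun _ => rfl
        right_inv := fun _ => rfl
        map_mul' := fun _ _ => rfl }
    have hr' : Set.range (orderOf : Matrix.ProjectiveSpecialLinearGroup (Fin n) F × Matrix.ProjectiveSpecialLinearGroup (Fin n) F × Matrix.ProjectiveSpecialLinearGroup (Fin n) F × Multiplicative (Fin m → ZMod r) → ℕ) = Set.range (orderOf ∘ e) := by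
      congr 1; funext x; exact (MulEquiv.orderOf_eq e x).symm
    rw [hr', e.surjective.range_comp]
    refine range_eq_of_forall r hr ?_ ?_
    · intro y; apply Multiplicative.toAdd.injective; funext i; simp
    rintro ⟨a, b, c⟩
    simp only [Prod.orderOf_mk]
    by_cases hrN : r ∣ (orderOf a).lcm ((orderOf b).lcm (orderOf c))
    · exact ⟨1, Or.inr hrN⟩
    have hra : ¬ r ∣ orderOf a := fun h => hrN (h.trans (Nat.dvd_lcm_left _ _))
    have hrb : ¬ r ∣ orderOf b := fun h => hrN (h.trans ((Nat.dvd_lcm_left _ _).trans (Nat.dvd_lcm_right _ _)))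
    have hrc : ¬ r ∣ orderOf c := fun h => hrN (h.trans ((Nat.dvd_lcm_right _ _).trans (Nat.dvd_lcm_right _ _)))
    have hcop : Nat.Coprime r ((orderOf a).lcm ((orderOf b).lcm (orderOf c))) := hr.coprime_iff_not_dvd.2 hrN
    suffices H : ∃ x y z : Matrix.ProjectiveSpecialLinearGroup (Fin n) F,
        (orderOf a).lcm ((orderOf b).lcm (orderOf c)) ∣ (orderOf x).lcm ((orderOf y).lcm (orderOf z)) ∧
        r ∣ (orderOf x).lcm ((orderOf y).lcm (orderOf z)) by
      obtain ⟨x, y, z, h1, h2⟩ := H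
      exact ⟨(x, y, z), Or.inl (by simp only [Prod.orderOf_mk]; exact hcop.mul_dvd_of_dvd_of_dvd h2 h1)⟩
    rcases dich a with ha | ha
    · rcases dich b with hb | hb
      · rcases dich c with hc | hc
        · refine ⟨proj n F s, proj n F (Lib.GLOrders.unipotent n n), proj n F h, ?_, ?_⟩
          · have : Nat.lcm S0 pk ∣ (orderOf (proj n F s)).lcm ((orderOf (proj n F (Lib.GLOrders.unipotent n n))).lcm (orderOf (proj n F h))) :=
              Nat.lcm_dvd (Nat.dvd_lcm_left _ _) (hu.trans ((Nat.dvd_lcm_left _ _).trans (Nat.dvd_lcm_right _ _)))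
            exact (Nat.lcm_dvd (hM a ha) (Nat.lcm_dvd (hM b hb) (hM c hc))).trans this
          · exact (dvd_of_eq hh.symm).trans ((Nat.dvd_lcm_right _ _).trans (Nat.dvd_lcm_right _ _))
        · obtain ⟨c', hc'⟩ := hc hrc
          refine ⟨a, b, c', ?_, ?_⟩
          · rw [hc']; exact lcm_mono dvd_rfl (lcm_mono dvd_rfl (dvd_mul_left _ r))
          · rw [hc']; exact (dvd_mul_right r _).trans ((Nat.dvd_lcm_right _ _).trans (Nat.dvd_lcm_right _ _))
      · obtain ⟨b', hb'⟩ := hb hrb
        refine ⟨a, b', c, ?_, ?_⟩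
        · rw [hb']; exact lcm_mono dvd_rfl (lcm_mono (dvd_mul_left _ r) dvd_rfl)
        · rw [hb']; exact (dvd_mul_right r _).trans ((Nat.dvd_lcm_left _ _).trans (Nat.dvd_lcm_right _ _))
    · obtain ⟨a', ha'⟩ := ha hra
      refine ⟨a', b, c, ?_, ?_⟩
      · rw [ha']; exact lcm_mono (dvd_mul_left _ r) dvd_rfl
      · rw [ha']; exact (dvd_mul_right r _).trans (Nat.dvd_lcm_left _ _)
  · intro hnp
    have hn1 : p ^ E' < n - 1 := by
      rcases lt_or_eq_of_le (show p ^ E' ≤ n - 1 by omega) with h | h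
      · exact h
      · exact absurd ⟨E', h.symm⟩ hnp
    have hu' : pk ∣ orderOf (proj n F (Lib.GLOrders.unipotent n (n - 1))) := by
      rw [hpk, hE']; exact exists_unipotent p (n - 1) (by omega) (by omega) E' hn1
    let e : Matrix.ProjectiveSpecialLinearGroup (Fin n) F × Matrix.ProjectiveSpecialLinearGroup (Fin n) F × Multiplicative (Fin m → ZMod r) ≃*
        (Matrix.ProjectiveSpecialLinearGroup (Fin n) F × Matrix.ProjectiveSpecialLinearGroup (Fin n) F) × Multiplicative (Fin m → ZMod r) :=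
      MulEquiv.prodAssoc.symm
    have hr' : Set.range (orderOf : Matrix.ProjectiveSpecialLinearGroup (Fin n) F × Matrix.ProjectiveSpecialLinearGroup (Fin n) F × Multiplicative (Fin m → ZMod r) → ℕ) = Set.range (orderOf ∘ e) := by
      congr 1; funext x; exact (MulEquiv.orderOf_eq e x).symm
    rw [hr', e.surjective.range_comp]
    refine range_eq_of_forall r hr ?_ ?_
    · intro y; apply Multiplicative.toAdd.injective; funext i; simp
    rintro ⟨a, b⟩
    simp only [Prod.orderOf_mk]
    by_cases hrN : r ∣ (orderOf a).lcm (orderOf b)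
    · exact ⟨1, Or.inr hrN⟩
    have hra : ¬ r ∣ orderOf a := fun h => hrN (h.trans (Nat.dvd_lcm_left _ _))
    have hrb : ¬ r ∣ orderOf b := fun h => hrN (h.trans (Nat.dvd_lcm_right _ _))
    have hcop : Nat.Coprime r ((orderOf a).lcm (orderOf b)) := hr.coprime_iff_not_dvd.2 hrN
    suffices H : ∃ x y : Matrix.ProjectiveSpecialLinearGroup (Fin n) F,
        (orderOf a).lcm (orderOf b) ∣ (orderOf x).lcm (orderOf y) ∧ r ∣ (orderOf x).lcm (orderOf y) by
      obtain ⟨x, y, h1, h2⟩ := H
      exact ⟨(x, y), Or.inl (by simp only [Prod.orderOf_mk]; exact hcop.mul_dvd_of_dvd_of_dvd h2 h1)⟩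
    rcases dich a with ha | ha
    · rcases dich b with hb | hb
      · have hrp : ¬ r ∣ orderOf (proj n F (Lib.GLOrders.unipotent n (n - 1))) := by
          intro hd
          have hpow : proj n F (Lib.GLOrders.unipotent n (n - 1)) ^ pk = 1 := by
            haveI : NeZero n := ⟨by omega⟩
            rw [← map_pow, proj_eq_one_iff _ (by omega)]
            refine ⟨1, ?_⟩
            rw [Matrix.SpecialLinearGroup.coe_pow, one_smul]
            show ((1 : Matrix (Fin n) (Fin n) F) + Lib.GLOrders.shiftMat n (n - 1)) ^ _ = 1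
            rw [hpk, add_pow_char_pow_of_commute _ _ (Commute.one_left _), one_pow,
              pow_eq_zero_of_le ((Nat.sub_le n 1).trans (Nat.le_pow_clog hp.one_lt n))
                (Lib.GLOrders.shiftMat_pow_eq_zero n (n - 1) (by omega)), add_zero]
          have h1 := hr.dvd_of_dvd_pow (hd.trans (orderOf_dvd_of_pow_eq_one hpow))
          rw [Nat.prime_dvd_prime_iff_eq hr hp] at h1
          subst h1
          have h2 : r ∣ Fintype.card F := hF ▸ dvd_pow_self r (by omega)
          have h3 := Nat.dvd_sub h2 hrq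
          rw [Nat.sub_sub_self Fintype.card_pos] at h3
          exact hr.not_dvd_one h3
        refine ⟨proj n F s, proj n F (Lib.GLOrders.unipotent n (n - 1)) * proj n F h, ?_, ?_⟩
        all_goals rw [((hcomm _ hPu).map (proj n F)).orderOf_mul_eq_mul_orderOf_of_coprime
            (by rw [hh]; exact (hr.coprime_iff_not_dvd.2 hrp).symm), hh]
        · exact (Nat.lcm_dvd (hM a ha) (hM b hb)).trans
            (lcm_mono dvd_rfl (hu'.trans (dvd_mul_right _ r)))
        · exact (dvd_mul_left r _).trans (Nat.dvd_lcm_right _ _)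
      · obtain ⟨b', hb'⟩ := hb hrb
        refine ⟨a, b', ?_, ?_⟩
        · rw [hb']; exact lcm_mono dvd_rfl (dvd_mul_left _ r)
        · rw [hb']; exact (dvd_mul_right r _).trans (Nat.dvd_lcm_right _ _)
    · obtain ⟨a', ha'⟩ := ha hra
      refine ⟨a', b, ?_, ?_⟩
      · rw [ha']; exact lcm_mono (dvd_mul_left _ r) dvd_rfl
      · rw [ha']; exact (dvd_mul_right r _).trans (Nat.dvd_lcm_left _ _)

end Cfsg.Agent.S2510
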