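import Cfsg.Statements.S2511
import Cfsg.Agent.Lib.Recog.UnitSpec

set_option autoImplicit false
open Cfsg

namespace Cfsg.Agent.S2511

open Cfsg.Agent.Lib.Recog.UnitSpec

theorem range_eq_of_forall {X Y : Type*} [Group X] [Finite X] [Group Y] [Finite Y] (r : ℕ) (hr : r.Prime)
    (hY : ∀ y : Y, y ^ r = 1) (hup : ∀ x : X, ¬ r ∣ orderOf x → ∃ x' : X, r * orderOf x ∣ orderOf x') :
    Set.range (orderOf : X × Y → ℕ) = Set.range (orderOf : X → ℕ) := by
  apply Set.Subset.antisymm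
  · rintro _ ⟨⟨x, y⟩, rfl⟩
    rw [Prod.orderOf_mk]
    have hy := orderOf_dvd_of_pow_eq_one (hY y)
    obtain ⟨z, c, hc⟩ : ∃ z : X, Nat.lcm (orderOf x) (orderOf y) ∣ orderOf z := by
      by_cases h : r ∣ orderOf x
      · exact ⟨x, Nat.lcm_dvd dvd_rfl (hy.trans h)⟩
      · obtain ⟨x', hx'⟩ := hup x h
        exact ⟨x', Nat.lcm_dvd ((dvd_mul_left _ r).trans hx') (hy.trans ((dvd_mul_right r _).trans hx'))⟩
    have hzpos := orderOf_pos z
    have hc0 : c ≠ 0 := by rintro rfl; rw [mul_zero] at hc; omega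
    exact ⟨z ^ c, by rw [orderOf_pow' z hc0, hc, Nat.gcd_mul_left_left, Nat.mul_div_cancel _ (Nat.pos_of_ne_zero hc0)]⟩
  · rintro _ ⟨x, rfl⟩
    exact ⟨(x, 1), by rw [Prod.orderOf_mk, orderOf_one, Nat.lcm_one_right]⟩

theorem lcm_mono {a b c d : ℕ} (h1 : a ∣ c) (h2 : b ∣ d) : a.lcm b ∣ c.lcm d :=
  Nat.lcm_dvd (h1.trans (Nat.dvd_lcm_left c d)) (h2.trans (Nat.dvd_lcm_right c d))

/-- Let F be a finite field with q² elements, q = p^a, n ≥ 3 with (n, q) ≠ (3, 2), L = PSU(n, q) realised over F, and let r be a prime dividing q + 1 and not dividing n. Then for every m the direct product L × L × L × (ℤ/r)^m has the same set of element orders as L × L × L; and if n − 1 is not a power of p, then already L × L × (ℤ/r)^m has the same set of element orders as L × L. -/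
theorem result {F : Type*} [Field F] [Fintype F] (p a n q r m : ℕ) (hp : p.Prime) (ha : 1 ≤ a) (hq : q = p ^ a) (hF : Fintype.card F = q ^ 2)
    (hn : 3 ≤ n) (hn3 : ¬ (n = 3 ∧ q = 2)) (hr : r.Prime) (hrq : r ∣ q + 1) (hrn : ¬ r ∣ n) :
    Set.range (orderOf : Cfsg.PSU n F q × Cfsg.PSU n F q × Cfsg.PSU n F q × Multiplicative (Fin m → ZMod r) → ℕ) = Set.range (orderOf : Cfsg.PSU n F q × Cfsg.PSU n F q × Cfsg.PSU n F q → ℕ) ∧
    ((¬ ∃ j : ℕ, n - 1 = p ^ j) →
      Set.range (orderOf : Cfsg.PSU n F q × Cfsg.PSU n F q × Multiplicative (Fin m → ZMod r) → ℕ) = Set.range (orderOf : Cfsg.PSU n F q × Cfsg.PSU n F q → ℕ)) := by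
  classical
  haveI : Fact p.Prime := ⟨hp⟩
  haveI : Fact r.Prime := ⟨hr⟩
  haveI : CharP F p := charP_of_card_eq_prime_pow (f := a * 2) (by rw [hF, hq, ← pow_mul])
  haveI : Finite ↥(Cfsg.SU n F q) := Subtype.finite
  have hrp : r ≠ p := by
    rintro rfl
    exact hr.not_dvd_one ((Nat.dvd_add_right (hq ▸ dvd_pow_self r (by omega))).1 hrq)
  obtain ⟨ζu, hζu⟩ : ∃ ζ : Fˣ, orderOf ζ = r := exists_prime_orderOf_dvd_card r (by
    rw [Fintype.card_units, hF, show q ^ 2 - 1 = (q + 1) * (q - 1) by simpa using Nat.sq_sub_sq q 1]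
    exact hrq.trans (dvd_mul_right _ _))
  have hζ : orderOf (ζu : F) = r := by rw [orderOf_units, hζu]
  have hζq : (ζu : F) ^ (q + 1) = 1 := orderOf_dvd_iff_pow_eq_one.1 (hζ ▸ hrq)
  obtain ⟨t, ht⟩ := exists_cox (n := n) hF p (by omega)
  set K := p ^ Nat.clog p n with hK'
  obtain ⟨U, hU, hUd, hUo⟩ := exists_unip hF p (m := n) (by omega)
  obtain ⟨u, hu⟩ := mkSU hF hU hUd
  have huP : K ∣ orderOf (pr u) := by
    refine dvd_orderOf_pr (by omega) u (fun k c hk => ?_) hF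
    rw [hu] at hk
    have hc := scalar_unip (by omega) p hUo hk
    rw [hc, one_smul] at hk
    exact (dvd_of_eq hUo.symm).trans (orderOf_dvd_of_pow_eq_one hk)
  obtain ⟨v, hv⟩ := good_twist (n := n) hF p hr hrn _ hζ hζq (D := 1) (m := n - 1) le_rfl (by omega) (by omega)
    (1 : Matrix (Fin 1) (Fin 1) F) (by rw [Lib.UnitaryConj.tstar_one, mul_one]) Matrix.det_one
    (by rw [orderOf_one]; exact Nat.coprime_one_left r) hrp
  rw [orderOf_one, Nat.lcm_one_left] at hv
  have hrv : r ∣ orderOf (pr v) := (dvd_mul_right r _).trans hv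
  have dich := dichotomy hF p hr hn hrn hrq hrp _ hζ hζq
  constructor
  · let e : Cfsg.PSU n F q × Cfsg.PSU n F q × Cfsg.PSU n F q × Multiplicative (Fin m → ZMod r) ≃*
        (Cfsg.PSU n F q × Cfsg.PSU n F q × Cfsg.PSU n F q) × Multiplicative (Fin m → ZMod r) :=
      { toFun := fun x => ((x.1, x.2.1, x.2.2.1), x.2.2.2)
        invFun := fun x => (x.1.1, x.1.2.1, x.1.2.2, x.2)
        left_inv := fun _ => rfl
        right_inv := fun _ => rfl
        map_mul' := fun _ _ => rfl }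
    have hr' : Set.range (orderOf : Cfsg.PSU n F q × Cfsg.PSU n F q × Cfsg.PSU n F q × Multiplicative (Fin m → ZMod r) → ℕ) = Set.range (orderOf ∘ e) := by
      congr 1; funext x; exact (MulEquiv.orderOf_eq e x).symm
    rw [hr', e.surjective.range_comp]
    refine range_eq_of_forall r hr ?_ ?_
    · intro y; apply Multiplicative.toAdd.injective; funext i; simp
    rintro ⟨x, y, z⟩ hxyz
    simp only [Prod.orderOf_mk] at hxyz ⊢
    set L := (orderOf x).lcm ((orderOf y).lcm (orderOf z)) with hL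
    have hcop : Nat.Coprime r L := hr.coprime_iff_not_dvd.2 hxyz
    suffices H : ∃ x' y' z' : Cfsg.PSU n F q, L ∣ (orderOf x').lcm ((orderOf y').lcm (orderOf z')) ∧
        r ∣ (orderOf x').lcm ((orderOf y').lcm (orderOf z')) by
      obtain ⟨x', y', z', h1, h3⟩ := H
      exact ⟨(x', y', z'), by simp only [Prod.orderOf_mk]; exact hcop.mul_dvd_of_dvd_of_dvd h3 h1⟩
    have hox : ¬ r ∣ orderOf x := fun h => hxyz (h.trans (Nat.dvd_lcm_left _ _))
    have hoy : ¬ r ∣ orderOf y := fun h => hxyz (h.trans ((Nat.dvd_lcm_left _ _).trans (Nat.dvd_lcm_right _ _)))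
    have hoz : ¬ r ∣ orderOf z := fun h => hxyz (h.trans ((Nat.dvd_lcm_right _ _).trans (Nat.dvd_lcm_right _ _)))
    rcases dich x hox with ⟨x', hx'⟩ | hx
    · exact ⟨x', y, z, lcm_mono ((dvd_mul_left _ r).trans hx') dvd_rfl,
        ((dvd_mul_right r _).trans hx').trans (Nat.dvd_lcm_left _ _)⟩
    rcases dich y hoy with ⟨y', hy'⟩ | hy
    · exact ⟨x, y', z, lcm_mono dvd_rfl (lcm_mono ((dvd_mul_left _ r).trans hy') dvd_rfl),
        ((dvd_mul_right r _).trans hy').trans ((Nat.dvd_lcm_left _ _).trans (Nat.dvd_lcm_right _ _))⟩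
    rcases dich z hoz with ⟨z', hz'⟩ | hz
    · exact ⟨x, y, z', lcm_mono dvd_rfl (lcm_mono dvd_rfl ((dvd_mul_left _ r).trans hz')),
        ((dvd_mul_right r _).trans hz').trans ((Nat.dvd_lcm_right _ _).trans (Nat.dvd_lcm_right _ _))⟩
    have slot : ∀ w : Cfsg.PSU n F q,
        (orderOf w ∣ K ∨ ∀ T : ℕ, cox q n ∣ Nat.gcd n (q + 1) * T → orderOf w ∣ T) →
        orderOf w ∣ (orderOf (pr t)).lcm ((orderOf (pr u)).lcm (orderOf (pr v))) := by
      intro w h
      rcases h with h | h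
      · exact (h.trans huP).trans ((Nat.dvd_lcm_left _ _).trans (Nat.dvd_lcm_right _ _))
      · exact (h _ ht).trans (Nat.dvd_lcm_left _ _)
    exact ⟨pr t, pr u, pr v, Nat.lcm_dvd (slot x hx) (Nat.lcm_dvd (slot y hy) (slot z hz)),
      hrv.trans ((Nat.dvd_lcm_right _ _).trans (Nat.dvd_lcm_right _ _))⟩
  · intro hnp
    let e : Cfsg.PSU n F q × Cfsg.PSU n F q × Multiplicative (Fin m → ZMod r) ≃*
        (Cfsg.PSU n F q × Cfsg.PSU n F q) × Multiplicative (Fin m → ZMod r) :=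
      MulEquiv.prodAssoc.symm
    have hr' : Set.range (orderOf : Cfsg.PSU n F q × Cfsg.PSU n F q × Multiplicative (Fin m → ZMod r) → ℕ) = Set.range (orderOf ∘ e) := by
      congr 1; funext x; exact (MulEquiv.orderOf_eq e x).symm
    rw [hr', e.surjective.range_comp]
    refine range_eq_of_forall r hr ?_ ?_
    · intro y; apply Multiplicative.toAdd.injective; funext i; simp
    have hcl : Nat.clog p (n - 1) = Nat.clog p n := by
      refine le_antisymm (Nat.clog_mono_right _ (by omega)) (Nat.clog_le_of_le_pow ?_)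
      have h1 : n - 1 ≤ p ^ Nat.clog p (n - 1) := Nat.le_pow_clog hp.one_lt _
      rcases lt_or_eq_of_le h1 with h | h
      · omega
      · exact absurd ⟨_, h⟩ hnp
    rw [hcl] at hv
    rintro ⟨x, y⟩ hxy
    simp only [Prod.orderOf_mk] at hxy ⊢
    have hcop : Nat.Coprime r ((orderOf x).lcm (orderOf y)) := hr.coprime_iff_not_dvd.2 hxy
    suffices H : ∃ x' y' : Cfsg.PSU n F q, (orderOf x).lcm (orderOf y) ∣ (orderOf x').lcm (orderOf y') ∧
        r ∣ (orderOf x').lcm (orderOf y') by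
      obtain ⟨x', y', h1, h3⟩ := H
      exact ⟨(x', y'), by simp only [Prod.orderOf_mk]; exact hcop.mul_dvd_of_dvd_of_dvd h3 h1⟩
    rcases dich x (fun h => hxy (h.trans (Nat.dvd_lcm_left _ _))) with ⟨x', hx'⟩ | hx
    · exact ⟨x', y, lcm_mono ((dvd_mul_left _ r).trans hx') dvd_rfl,
        ((dvd_mul_right r _).trans hx').trans (Nat.dvd_lcm_left _ _)⟩
    rcases dich y (fun h => hxy (h.trans (Nat.dvd_lcm_right _ _))) with ⟨y', hy'⟩ | hy
    · exact ⟨x, y', lcm_mono dvd_rfl ((dvd_mul_left _ r).trans hy'),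
        ((dvd_mul_right r _).trans hy').trans (Nat.dvd_lcm_right _ _)⟩
    have slot : ∀ w : Cfsg.PSU n F q,
        (orderOf w ∣ K ∨ ∀ T : ℕ, cox q n ∣ Nat.gcd n (q + 1) * T → orderOf w ∣ T) →
        orderOf w ∣ (orderOf (pr t)).lcm (orderOf (pr v)) := by
      intro w h
      rcases h with h | h
      · exact ((h.trans (dvd_mul_left _ r)).trans hv).trans (Nat.dvd_lcm_right _ _)
      · exact (h _ ht).trans (Nat.dvd_lcm_left _ _)
    exact ⟨pr t, pr v, Nat.lcm_dvd (slot x hx) (slot y hy), hrv.trans (Nat.dvd_lcm_right _ _)⟩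

end Cfsg.Agent.S2511
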