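import Cfsg.Statements.S2512
import Cfsg.Agent.Lib.Recog.SympSpec

set_option autoImplicit false
open Cfsg

namespace Cfsg.Agent.S2512

open Cfsg.Agent.Lib.Recog.SympSpec

theorem range_eq_of_forall {X Y : Type*} [Group X] [Finite X] [Group Y] [Finite Y]
    (hY : ∀ y : Y, y ^ 2 = 1) (hup : ∀ x : X, Odd (orderOf x) → ∃ x' : X, 2 * orderOf x ∣ orderOf x') :
    Set.range (orderOf : X × Y → ℕ) = Set.range (orderOf : X → ℕ) := by
  apply Set.Subset.antisymm
  · rintro _ ⟨⟨x, y⟩, rfl⟩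
    rw [Prod.orderOf_mk]
    have hy := orderOf_dvd_of_pow_eq_one (hY y)
    obtain ⟨z, c, hc⟩ : ∃ z : X, Nat.lcm (orderOf x) (orderOf y) ∣ orderOf z := by
      rcases Nat.even_or_odd (orderOf x) with h | h
      · exact ⟨x, Nat.lcm_dvd dvd_rfl (hy.trans (even_iff_two_dvd.1 h))⟩
      · obtain ⟨x', hx'⟩ := hup x h
        exact ⟨x', Nat.lcm_dvd ((dvd_mul_left _ 2).trans hx') (hy.trans ((dvd_mul_right 2 _).trans hx'))⟩
    have hzpos := orderOf_pos z
    have hc0 : c ≠ 0 := by rintro rfl; rw [mul_zero] at hc; omega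
    exact ⟨z ^ c, by rw [orderOf_pow' z hc0, hc, Nat.gcd_mul_left_left, Nat.mul_div_cancel _ (Nat.pos_of_ne_zero hc0)]⟩
  · rintro _ ⟨x, rfl⟩
    exact ⟨(x, 1), by rw [Prod.orderOf_mk, orderOf_one, Nat.lcm_one_right]⟩

theorem lcm_mono {a b c d : ℕ} (h1 : a ∣ c) (h2 : b ∣ d) : a.lcm b ∣ c.lcm d :=
  Nat.lcm_dvd (h1.trans (Nat.dvd_lcm_left c d)) (h2.trans (Nat.dvd_lcm_right c d))

theorem dvd_half {o N : ℕ} (ho : Odd o) (h : o ∣ N) (hN : 2 ∣ N) : o ∣ N / 2 := by
  refine (Nat.coprime_two_right.2 ho).dvd_of_dvd_mul_left ?_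
  rwa [Nat.mul_div_cancel' hN]

/-- Let F be a finite field of odd order q = p^a, n ≥ 2 (with q ≥ 3 automatic), and L = PSp(2n, F). Then for every m the direct product L × L × L × (ℤ/2)^m has the same set of element orders as L × L × L; and if 2n − 1 is not a power of p, then already L × L × (ℤ/2)^m has the same set of element orders as L × L. -/
theorem result {F : Type*} [Field F] [Fintype F] (p a n m : ℕ) (hp : p.Prime) (ha : 1 ≤ a) (hF : Fintype.card F = p ^ a) (hodd : Odd (Fintype.card F))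
    (hn : 2 ≤ n) :
    Set.range (orderOf : Cfsg.PSp n F × Cfsg.PSp n F × Cfsg.PSp n F × Multiplicative (Fin m → ZMod 2) → ℕ) = Set.range (orderOf : Cfsg.PSp n F × Cfsg.PSp n F × Cfsg.PSp n F → ℕ) ∧
    ((¬ ∃ j : ℕ, 2 * n - 1 = p ^ j) →
      Set.range (orderOf : Cfsg.PSp n F × Cfsg.PSp n F × Multiplicative (Fin m → ZMod 2) → ℕ) = Set.range (orderOf : Cfsg.PSp n F × Cfsg.PSp n F → ℕ)) := by
  classical
  haveI : Fact p.Prime := ⟨hp⟩
  haveI : CharP F p := charP_of_card_eq_prime_pow hF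
  have hp2 : p ≠ 2 := by
    rintro rfl
    rw [hF, Nat.odd_pow_iff (by omega)] at hodd
    exact absurd hodd (by decide)
  have h2 : (2 : F) ≠ 0 := by
    intro h
    have := (CharP.cast_eq_zero_iff F p 2).1 (by exact_mod_cast h)
    exact hp2 ((Nat.prime_dvd_prime_iff_eq hp Nat.prime_two).1 this)
  have hpodd : Odd p := hp.odd_of_ne_two hp2
  set q := Nat.card F with hq
  have hqodd : Odd (q ^ n) := by rw [hq, Nat.card_eq_fintype_card]; exact hodd.pow
  obtain ⟨tp, htp⟩ := exists_torus_plus (F := F) p n (by omega)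
  obtain ⟨tm, htm⟩ := exists_torus_minus (F := F) p n (by omega)
  obtain ⟨k, hk⟩ := hqodd
  have hP : (q ^ n + 1) / 2 ∣ orderOf (pr tp) := by
    refine Nat.dvd_of_mul_dvd_mul_left two_pos ?_
    rw [Nat.mul_div_cancel' (by omega : 2 ∣ q ^ n + 1), ← htp]
    exact orderOf_dvd_two_mul (by omega) tp
  have hM : (q ^ n - 1) / 2 ∣ orderOf (pr tm) := by
    refine Nat.dvd_of_mul_dvd_mul_left two_pos ?_
    rw [Nat.mul_div_cancel' (by omega : 2 ∣ q ^ n - 1), ← htm]
    exact orderOf_dvd_two_mul (by omega) tm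
  have heven : 2 ∣ (orderOf (pr tp)).lcm (orderOf (pr tm)) := by
    have : 2 ∣ (q ^ n + 1) / 2 ∨ 2 ∣ (q ^ n - 1) / 2 := by omega
    rcases this with h | h
    · exact (h.trans hP).trans (Nat.dvd_lcm_left _ _)
    · exact (h.trans hM).trans (Nat.dvd_lcm_right _ _)
  set K := p ^ Nat.clog p (2 * n) with hK
  obtain ⟨u, hu⟩ := exists_unip (F := F) p h2 (m := n) (by omega)
  have huP : K ∣ orderOf (pr u) := by
    refine (Nat.coprime_two_right.2 ?_).dvd_of_dvd_mul_left ((dvd_of_eq hu.symm).trans (orderOf_dvd_two_mul (by omega) u))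
    exact hpodd.pow
  constructor
  · let e : Cfsg.PSp n F × Cfsg.PSp n F × Cfsg.PSp n F × Multiplicative (Fin m → ZMod 2) ≃*
        (Cfsg.PSp n F × Cfsg.PSp n F × Cfsg.PSp n F) × Multiplicative (Fin m → ZMod 2) :=
      { toFun := fun x => ((x.1, x.2.1, x.2.2.1), x.2.2.2)
        invFun := fun x => (x.1.1, x.1.2.1, x.1.2.2, x.2)
        left_inv := fun _ => rfl
        right_inv := fun _ => rfl
        map_mul' := fun _ _ => rfl }
    have hr' : Set.range (orderOf : Cfsg.PSp n F × Cfsg.PSp n F × Cfsg.PSp n F × Multiplicative (Fin m → ZMod 2) → ℕ) = Set.range (orderOf ∘ e) := by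
      congr 1; funext x; exact (MulEquiv.orderOf_eq e x).symm
    rw [hr', e.surjective.range_comp]
    refine range_eq_of_forall ?_ ?_
    · intro y; apply Multiplicative.toAdd.injective; funext i; simp; exact Or.inl (by decide)
    rintro ⟨x, y, z⟩ hxyz
    simp only [Prod.orderOf_mk] at hxyz ⊢
    set L := (orderOf x).lcm ((orderOf y).lcm (orderOf z)) with hL
    have hcop : Nat.Coprime 2 L := Nat.coprime_two_left.2 hxyz
    suffices H : ∃ x' y' z' : Cfsg.PSp n F, L ∣ (orderOf x').lcm ((orderOf y').lcm (orderOf z')) ∧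
        2 ∣ (orderOf x').lcm ((orderOf y').lcm (orderOf z')) by
      obtain ⟨x', y', z', h1, h3⟩ := H
      exact ⟨(x', y', z'), by simp only [Prod.orderOf_mk]; exact hcop.mul_dvd_of_dvd_of_dvd h3 h1⟩
    have hox : Odd (orderOf x) := hxyz.of_dvd_nat (Nat.dvd_lcm_left _ _)
    have hoy : Odd (orderOf y) := hxyz.of_dvd_nat ((Nat.dvd_lcm_left _ _).trans (Nat.dvd_lcm_right _ _))
    have hoz : Odd (orderOf z) := hxyz.of_dvd_nat ((Nat.dvd_lcm_right _ _).trans (Nat.dvd_lcm_right _ _))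
    -- a doubled slot settles it
    rcases dichotomy p hp2 (by omega) x hox with ⟨x', hx'⟩ | hx
    · exact ⟨x', y, z, lcm_mono ((dvd_mul_left _ 2).trans hx') dvd_rfl,
        ((dvd_mul_right 2 _).trans hx').trans (Nat.dvd_lcm_left _ _)⟩
    rcases dichotomy p hp2 (by omega) y hoy with ⟨y', hy'⟩ | hy
    · exact ⟨x, y', z, lcm_mono dvd_rfl (lcm_mono ((dvd_mul_left _ 2).trans hy') dvd_rfl),
        ((dvd_mul_right 2 _).trans hy').trans ((Nat.dvd_lcm_left _ _).trans (Nat.dvd_lcm_right _ _))⟩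
    rcases dichotomy p hp2 (by omega) z hoz with ⟨z', hz'⟩ | hz
    · exact ⟨x, y, z', lcm_mono dvd_rfl (lcm_mono dvd_rfl ((dvd_mul_left _ 2).trans hz')),
        ((dvd_mul_right 2 _).trans hz').trans ((Nat.dvd_lcm_right _ _).trans (Nat.dvd_lcm_right _ _))⟩
    have slot : ∀ w : Cfsg.PSp n F, Odd (orderOf w) →
        (orderOf w ∣ K ∨ orderOf w ∣ q ^ n + 1 ∨ orderOf w ∣ q ^ n - 1) →
        orderOf w ∣ (orderOf (pr tp)).lcm ((orderOf (pr tm)).lcm (orderOf (pr u))) := by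
      intro w hw h
      rcases h with h | h | h
      · exact (h.trans huP).trans ((Nat.dvd_lcm_right _ _).trans (Nat.dvd_lcm_right _ _))
      · exact ((dvd_half hw h (by omega)).trans hP).trans (Nat.dvd_lcm_left _ _)
      · exact ((dvd_half hw h (by omega)).trans hM).trans ((Nat.dvd_lcm_left _ _).trans (Nat.dvd_lcm_right _ _))
    exact ⟨pr tp, pr tm, pr u, Nat.lcm_dvd (slot x hox hx) (Nat.lcm_dvd (slot y hoy hy) (slot z hoz hz)),
      heven.trans (lcm_mono dvd_rfl (Nat.dvd_lcm_left _ _))⟩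
  · intro hnp
    let e : Cfsg.PSp n F × Cfsg.PSp n F × Multiplicative (Fin m → ZMod 2) ≃*
        (Cfsg.PSp n F × Cfsg.PSp n F) × Multiplicative (Fin m → ZMod 2) :=
      MulEquiv.prodAssoc.symm
    have hr' : Set.range (orderOf : Cfsg.PSp n F × Cfsg.PSp n F × Multiplicative (Fin m → ZMod 2) → ℕ) = Set.range (orderOf ∘ e) := by
      congr 1; funext x; exact (MulEquiv.orderOf_eq e x).symm
    rw [hr', e.surjective.range_comp]
    refine range_eq_of_forall ?_ ?_
    · intro y; apply Multiplicative.toAdd.injective; funext i; simp; exact Or.inl (by decide)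
    -- a doubled unipotent
    obtain ⟨yu, hyu⟩ : ∃ y : Cfsg.PSp n F, 2 * K ∣ orderOf y := by
      obtain ⟨t, ht⟩ := exists_torus_plus (F := F) p 1 le_rfl
      obtain ⟨v, hv⟩ := exists_unip (F := F) p h2 (m := n - 1) (by omega)
      have hcl : Nat.clog p (2 * (n - 1)) = Nat.clog p (2 * n) := by
        refine le_antisymm (Nat.clog_mono_right _ (by omega)) (Nat.clog_le_of_le_pow ?_)
        set c := Nat.clog p (2 * (n - 1)) with hc
        have h1 : 2 * (n - 1) ≤ p ^ c := Nat.le_pow_clog hp.one_lt _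
        have h3 : p ^ c ≠ 2 * n - 1 := fun h => hnp ⟨c, h.symm⟩
        obtain ⟨d, hd⟩ := (hpodd.pow : Odd (p ^ c))
        omega
      have hvodd : Odd (orderOf v) := by rw [hv]; exact hpodd.pow
      obtain ⟨y, hy⟩ := exists_block h2 (by omega) (show 1 + (n - 1) = n by omega) t v hvodd
      refine ⟨y, dvd_trans ?_ hy⟩
      rw [ht, hv, hcl, pow_one]
      refine (Nat.coprime_two_left.2 hpodd.pow).mul_dvd_of_dvd_of_dvd ?_ (Nat.dvd_lcm_right _ _)
      refine dvd_trans ?_ (Nat.dvd_lcm_left _ _)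
      rw [Nat.card_eq_fintype_card]
      exact even_iff_two_dvd.1 hodd.add_one
    have dich : ∀ w : Cfsg.PSp n F, Odd (orderOf w) → (∃ y : Cfsg.PSp n F, 2 * orderOf w ∣ orderOf y) ∨
        (orderOf w ∣ (orderOf (pr tp)).lcm (orderOf (pr tm))) := by
      intro w hw
      rcases dichotomy p hp2 (by omega) w hw with h | h | h | h
      · exact Or.inl h
      · exact Or.inl ⟨yu, (Nat.mul_dvd_mul_left 2 h).trans hyu⟩
      · exact Or.inr (((dvd_half hw h (by rw [← hq]; omega)).trans hP).trans (Nat.dvd_lcm_left _ _))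
      · exact Or.inr (((dvd_half hw h (by rw [← hq]; omega)).trans hM).trans (Nat.dvd_lcm_right _ _))
    rintro ⟨x, y⟩ hxy
    simp only [Prod.orderOf_mk] at hxy ⊢
    have hcop : Nat.Coprime 2 ((orderOf x).lcm (orderOf y)) := Nat.coprime_two_left.2 hxy
    suffices H : ∃ x' y' : Cfsg.PSp n F, (orderOf x).lcm (orderOf y) ∣ (orderOf x').lcm (orderOf y') ∧
        2 ∣ (orderOf x').lcm (orderOf y') by
      obtain ⟨x', y', h1, h3⟩ := H
      exact ⟨(x', y'), by simp only [Prod.orderOf_mk]; exact hcop.mul_dvd_of_dvd_of_dvd h3 h1⟩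
    rcases dich x (hxy.of_dvd_nat (Nat.dvd_lcm_left _ _)) with ⟨x', hx'⟩ | hx
    · exact ⟨x', y, lcm_mono ((dvd_mul_left _ 2).trans hx') dvd_rfl,
        ((dvd_mul_right 2 _).trans hx').trans (Nat.dvd_lcm_left _ _)⟩
    rcases dich y (hxy.of_dvd_nat (Nat.dvd_lcm_right _ _)) with ⟨y', hy'⟩ | hy
    · exact ⟨x, y', lcm_mono dvd_rfl ((dvd_mul_left _ 2).trans hy'),
        ((dvd_mul_right 2 _).trans hy').trans (Nat.dvd_lcm_right _ _)⟩
    exact ⟨pr tp, pr tm, Nat.lcm_dvd hx hy, heven⟩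

end Cfsg.Agent.S2512
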