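import Cfsg.Statements.S2513
import Cfsg.Agent.Lib.GLTorus

set_option autoImplicit false
open Cfsg

namespace Cfsg.Agent.S2513

/-- Let F be the field with two elements, n ≥ 2, L = PSL(n, F) and k₀ = ⌊(n + 3)/2⌋. Then for every k ≥ k₀ the direct product of k copies of L has the same set of element orders as the direct product of k₀ copies of L. -/
theorem result {F : Type*} [Field F] [Fintype F] (hF : Fintype.card F = 2) (n k : ℕ) (hn : 2 ≤ n) (hk : (n + 3) / 2 ≤ k) :
    Set.range (orderOf : (Fin k → Matrix.ProjectiveSpecialLinearGroup (Fin n) F) → ℕ) = Set.range (orderOf : (Fin ((n + 3) / 2) → Matrix.ProjectiveSpecialLinearGroup (Fin n) F) → ℕ) := by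
  classical
  haveI : Fact (Nat.Prime 2) := ⟨Nat.prime_two⟩
  haveI : CharP F 2 := charP_of_card_eq_prime hF
  haveI : NeZero n := ⟨by omega⟩
  have hNF : Nat.card F = 2 := by rw [Nat.card_eq_fintype_card, hF]
  have hone : ∀ x : F, x ≠ 0 → x = 1 := by
    intro x hx
    have := FiniteField.pow_card_sub_one_eq_one x hx
    rwa [hF, pow_one] at this
  have hbot : Subgroup.center (Matrix.SpecialLinearGroup (Fin n) F) = ⊥ := by
    rw [Subgroup.eq_bot_iff_forall]
    intro z hz
    obtain ⟨r, hr, hrz⟩ := Matrix.SpecialLinearGroup.mem_center_iff.1 hz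
    have hr0 : r ≠ 0 := by
      rintro rfl
      rw [zero_pow (by simp; omega)] at hr
      exact zero_ne_one hr
    apply Subtype.ext
    rw [← hrz, hone r hr0, map_one]; rfl
  let π : Matrix.SpecialLinearGroup (Fin n) F →* Matrix.ProjectiveSpecialLinearGroup (Fin n) F :=
    QuotientGroup.mk' _
  have hπ : Function.Injective π := by
    rw [← MonoidHom.ker_eq_bot_iff, QuotientGroup.ker_mk']; exact hbot
  have hπs : Function.Surjective π := QuotientGroup.mk'_surjective _
  have htoGL : Function.Injective (Matrix.SpecialLinearGroup.toGL : Matrix.SpecialLinearGroup (Fin n) F →* GL (Fin n) F) := by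
    intro a b h; apply Subtype.ext; exact congrArg Units.val h
  have toSL : ∀ g : GL (Fin n) F, ∃ s : Matrix.SpecialLinearGroup (Fin n) F, orderOf (π s) = orderOf g := by
    intro g
    have hd : (g : Matrix (Fin n) (Fin n) F).det = 1 :=
      hone _ (by rw [← Matrix.GeneralLinearGroup.val_det_apply]; exact Units.ne_zero _)
    obtain ⟨s, hs⟩ : ∃ s : Matrix.SpecialLinearGroup (Fin n) F, Matrix.SpecialLinearGroup.toGL s = g :=
      ⟨⟨g, hd⟩, Units.ext rfl⟩
    exact ⟨s, by rw [orderOf_injective π hπ, ← orderOf_injective _ htoGL, hs]⟩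
  set E := Nat.clog 2 n with hE
  let e : Fin ((n + 3) / 2) → Matrix.ProjectiveSpecialLinearGroup (Fin n) F := fun i =>
    if h : (i : ℕ) < (n + 1) / 2 then
      π (Classical.choose (toSL (Classical.choose (Lib.GLTorus.exists_orderOf (F := F) 2 n (n - (i : ℕ))
        (by omega) (by omega)))))
    else π (Lib.GLOrders.unipotent n n)
  have heT : ∀ (i : Fin ((n + 3) / 2)), (i : ℕ) < (n + 1) / 2 → orderOf (e i) = 2 ^ (n - (i : ℕ)) - 1 := by
    intro i hi
    simp only [e, dif_pos hi]
    exact (Classical.choose_spec (toSL _)).trans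
      ((Classical.choose_spec (Lib.GLTorus.exists_orderOf (F := F) 2 n (n - (i : ℕ)) (by omega) (by omega))).trans (by rw [hNF]))
  have hU : 2 ^ E ∣ orderOf (π (Lib.GLOrders.unipotent (F := F) n n)) := by
    rw [orderOf_injective π hπ]
    obtain ⟨E', hE'⟩ : ∃ E', E = E' + 1 := ⟨E - 1, by
      have : 0 < Nat.clog 2 n := Nat.clog_pos one_lt_two hn
      omega⟩
    have hlt : 2 ^ E' < n := Nat.pow_lt_of_lt_clog (by omega)
    have hnil : (Lib.GLOrders.unipotent (F := F) n n) ^ (2 ^ E) = 1 := by
      have h := Lib.GLOrders.pow_eq_one_of_dvd (F := F) 2 (by omega : 1 ≤ n)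
        (Matrix.SpecialLinearGroup.toGL (Lib.GLOrders.unipotent n n))
      apply Subtype.ext
      show ((1 : Matrix (Fin n) (Fin n) F) + Lib.GLOrders.shiftMat n n) ^ (2 ^ E) = 1
      have hs : (Lib.GLOrders.shiftMat n n : Matrix (Fin n) (Fin n) F) ^ n = 0 :=
        Lib.GLOrders.shiftMat_pow_eq_zero n n (by omega)
      rw [add_pow_char_pow_of_commute _ _ (Commute.one_left _), one_pow,
        pow_eq_zero_of_le (Nat.le_pow_clog one_lt_two n) hs, add_zero]
    rw [hE'] at hnil ⊢
    rw [orderOf_eq_prime_pow ?_ hnil]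
    intro hh
    refine Lib.GLOrders.not_scalar_unipotent_pow (F := F) 2 n n E' le_rfl hlt 1 ?_
    rw [one_smul]
    exact congrArg Subtype.val hh
  -- every order divides the order of `e`
  have hmax : ∀ x : Matrix.ProjectiveSpecialLinearGroup (Fin n) F, orderOf x ∣ orderOf e := by
    intro x
    obtain ⟨s, rfl⟩ := hπs x
    rw [orderOf_injective π hπ, ← orderOf_injective _ htoGL]
    set L := Finset.univ.lcm (fun i : Fin ((n + 1) / 2) => 2 ^ (n - (i : ℕ)) - 1) with hL
    have hdiv : ∀ d, 1 ≤ d → d ≤ n → Nat.card F ^ d - 1 ∣ L := by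
      intro d hd hdn
      rw [hNF]
      -- some multiple of d lies in (n/2, n]
      have hm : ∃ c, n / 2 < d * c ∧ d * c ≤ n := by
        refine ⟨n / d, ?_, Nat.mul_div_le n d⟩
        have h1 := Nat.div_add_mod n d
        have h2 := Nat.mod_lt n (by omega : d > 0)
        have h3 : 1 ≤ n / d := Nat.div_pos hdn (by omega)
        have h4 : d ≤ d * (n / d) := Nat.le_mul_of_pos_right d h3
        omega
      obtain ⟨c, hc1, hc2⟩ := hm
      refine (Nat.pow_sub_one_dvd_pow_sub_one 2 (dvd_mul_right d c)).trans ?_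
      have hi : n - d * c < (n + 1) / 2 := by omega
      have := Finset.dvd_lcm (f := fun i : Fin ((n + 1) / 2) => 2 ^ (n - (i : ℕ)) - 1)
        (Finset.mem_univ (⟨n - d * c, hi⟩ : Fin ((n + 1) / 2)))
      simp only at this
      rwa [show n - (n - d * c) = d * c from by omega] at this
    have h1 := orderOf_dvd_of_pow_eq_one (Lib.GLOrders.pow_eq_one_of_dvd 2 (by omega : 1 ≤ n)
      (Matrix.SpecialLinearGroup.toGL s) L hdiv)
    refine h1.trans ?_
    have hodd : ∀ d, 1 ≤ d → Odd (2 ^ d - 1) := fun d hd =>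
      Nat.Even.sub_odd Nat.one_le_two_pow (Nat.even_pow.2 ⟨even_two, by omega⟩) odd_one
    refine Nat.Coprime.mul_dvd_of_dvd_of_dvd (Nat.Coprime.pow_right _ ?_) (Finset.lcm_dvd fun i _ => ?_) ?_
    · refine Nat.Coprime.coprime_dvd_left (Finset.lcm_dvd_prod _ _) (Nat.Coprime.prod_left fun i _ => ?_)
      exact Nat.coprime_two_right.2 (hodd _ (by omega))
    · have hi : (i : ℕ) < (n + 3) / 2 := by omega
      rw [← heT ⟨i, hi⟩ (by simp)]
      exact orderOf_apply_dvd_orderOf _
    · have hi : (n + 1) / 2 < (n + 3) / 2 := by omega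
      have := orderOf_apply_dvd_orderOf (x := e) (⟨(n + 1) / 2, hi⟩ : Fin ((n + 3) / 2))
      refine hU.trans (Eq.subst (motive := fun z => orderOf z ∣ orderOf e) ?_ this)
      simp [e]
  -- hence both sets consist of the divisors of that order
  have key : ∀ j, (n + 3) / 2 ≤ j →
      Set.range (orderOf : (Fin j → Matrix.ProjectiveSpecialLinearGroup (Fin n) F) → ℕ) = {d | d ∣ orderOf e} := by
    intro j hj
    apply Set.Subset.antisymm
    · rintro _ ⟨f, rfl⟩
      rw [Set.mem_setOf_eq, Pi.orderOf f]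
      exact Finset.lcm_dvd fun i _ => hmax _
    · intro d hd
      obtain ⟨c, hc⟩ := hd
      have hepos := orderOf_pos e
      have hc0 : c ≠ 0 := by rintro rfl; rw [mul_zero] at hc; omega
      let f : Fin j → Matrix.ProjectiveSpecialLinearGroup (Fin n) F :=
        fun i => if h : (i : ℕ) < (n + 3) / 2 then e ⟨i, h⟩ else 1
      have hf : orderOf f = orderOf e := by
        refine Nat.dvd_antisymm ?_ ?_
        · rw [Pi.orderOf f]
          refine Finset.lcm_dvd fun i _ => ?_
          simp only [f]; split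
          · exact orderOf_apply_dvd_orderOf _
          · simp
        · rw [Pi.orderOf e]
          refine Finset.lcm_dvd fun i _ => ?_
          have := orderOf_apply_dvd_orderOf (x := f) (Fin.castLE hj i)
          simpa [f] using this
      refine ⟨f ^ c, ?_⟩
      rw [orderOf_pow' f hc0, hf, hc, Nat.gcd_mul_left_left, Nat.mul_div_cancel _ (Nat.pos_of_ne_zero hc0)]
  rw [key k hk, key _ le_rfl]

end Cfsg.Agent.S2513
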