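import Cfsg.Statements.S2514

set_option autoImplicit false
open Cfsg

namespace Cfsg.Agent.S2514

theorem exists_maximal {G : Type*} [Group G] [Finite G] (g : G) :
    ∃ m, (m ∈ Set.range (orderOf : G → ℕ) ∧ ∀ m' ∈ Set.range (orderOf : G → ℕ), m ∣ m' → m' = m) ∧
      orderOf g ∣ m := by
  classical
  have := Fintype.ofFinite G
  obtain ⟨a, ha, hmax⟩ := Finset.exists_max_image
    (Finset.univ.filter fun a : G => orderOf g ∣ orderOf a) orderOf
    ⟨g, by simp⟩
  simp only [Finset.mem_filter, Finset.mem_univ, true_and] at ha hmax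
  refine ⟨orderOf a, ⟨⟨a, rfl⟩, ?_⟩, ha⟩
  rintro _ ⟨b, rfl⟩ hb
  exact le_antisymm (hmax b (ha.trans hb)) (Nat.le_of_dvd (orderOf_pos b) hb)

theorem mem_range_of_dvd {M : Type*} [Group M] [Finite M] {d : ℕ} (x : M) (h : d ∣ orderOf x) :
    d ∈ Set.range (orderOf : M → ℕ) := by
  obtain ⟨e, he⟩ := h
  have hx := orderOf_pos x
  have he0 : e ≠ 0 := by rintro rfl; rw [mul_zero] at he; omega
  refine ⟨x ^ e, ?_⟩
  rw [orderOf_pow' x he0, he, Nat.gcd_mul_left_left, Nat.mul_div_cancel _ (Nat.pos_of_ne_zero he0)]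


/-- For a finite group X write μ(X) for the set of element orders of X that are maximal under divisibility. Let G and H be finite groups and k ≥ 1 such that μ(H) ⊆ μ(G) and μ(G) has fewer than k elements outside μ(H). Then the direct product of k copies of G has the same set of element orders as the direct product of k − 1 copies of G with H. -/
theorem result {G H : Type*} [Group G] [Finite G] [Group H] [Finite H] (k : ℕ) (hk : 1 ≤ k)
    (hsub : {n : ℕ | n ∈ Set.range (orderOf : H → ℕ) ∧ ∀ m ∈ Set.range (orderOf : H → ℕ), n ∣ m → m = n} ⊆ {n : ℕ | n ∈ Set.range (orderOf : G → ℕ) ∧ ∀ m ∈ Set.range (orderOf : G → ℕ), n ∣ m → m = n})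
    (hfew : ({n : ℕ | n ∈ Set.range (orderOf : G → ℕ) ∧ ∀ m ∈ Set.range (orderOf : G → ℕ), n ∣ m → m = n} \ {n : ℕ | n ∈ Set.range (orderOf : H → ℕ) ∧ ∀ m ∈ Set.range (orderOf : H → ℕ), n ∣ m → m = n}).ncard < k) :
    Set.range (orderOf : (Fin k → G) → ℕ) = Set.range (orderOf : (Fin (k - 1) → G) × H → ℕ) := by
  classical
  obtain ⟨k, rfl⟩ : ∃ j, k = j + 1 := ⟨k - 1, by omega⟩
  show _ = Set.range (orderOf : (Fin k → G) × H → ℕ)
  apply Set.Subset.antisymm
  · rintro _ ⟨f, rfl⟩
    choose mx hmx hdvd using fun i => exists_maximal (f i)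
    have key : ∃ (f' : Fin k → G) (h : H), orderOf f ∣ Nat.lcm (Finset.univ.lcm fun l => orderOf (f' l)) (orderOf h) := by
      by_cases hA : ∃ i, mx i ∈ {n : ℕ | n ∈ Set.range (orderOf : H → ℕ) ∧ ∀ m ∈ Set.range (orderOf : H → ℕ), n ∣ m → m = n}
      · obtain ⟨i, ⟨h, hh⟩, -⟩ := hA
        refine ⟨f ∘ i.succAbove, h, ?_⟩
        rw [Pi.orderOf]
        refine Finset.lcm_dvd fun j _ => ?_
        rcases Fin.eq_self_or_eq_succAbove i j with rfl | ⟨l, rfl⟩
        · exact ((hdvd j).trans (dvd_of_eq hh.symm)).trans (Nat.dvd_lcm_right _ _)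
        · exact (Finset.dvd_lcm (f := fun l => orderOf ((f ∘ i.succAbove) l)) (Finset.mem_univ l)).trans (Nat.dvd_lcm_left _ _)
      · push Not at hA
        -- two coordinates share a maximal order, so one of them is redundant
        set S := ({n : ℕ | n ∈ Set.range (orderOf : G → ℕ) ∧ ∀ m ∈ Set.range (orderOf : G → ℕ), n ∣ m → m = n} \ {n : ℕ | n ∈ Set.range (orderOf : H → ℕ) ∧ ∀ m ∈ Set.range (orderOf : H → ℕ), n ∣ m → m = n}) with hS
        have hmS : ∀ i, mx i ∈ S := fun i => ⟨hmx i, hA i⟩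
        have hfin : S.Finite := (Set.finite_range (orderOf : G → ℕ)).subset fun n hn => hn.1.1
        obtain ⟨i, j, hij, hm⟩ : ∃ i j, i ≠ j ∧ mx i = mx j := by
          by_contra hne
          push Not at hne
          have hinj : Function.Injective mx := fun a b hab => by_contra fun h => hne a b h hab
          have := Set.ncard_le_ncard (s := Set.range mx) (t := S) (by rintro _ ⟨i, rfl⟩; exact hmS i) hfin
          rw [Set.ncard_range_of_injective hinj, Nat.card_eq_fintype_card, Fintype.card_fin] at this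
          omega
        choose w hw using fun l => (hmx l).1
        -- replace every coordinate by an element of maximal order, then drop one
        obtain ⟨l0, rfl⟩ := Fin.exists_succAbove_eq hij.symm
        refine ⟨w ∘ i.succAbove, 1, ?_⟩
        rw [Pi.orderOf]
        refine Finset.lcm_dvd fun l _ => ?_
        have hd : ∀ l', orderOf (f l') ∣ orderOf (w l') := fun l' => (hdvd l').trans (dvd_of_eq (hw l').symm)
        rcases Fin.eq_self_or_eq_succAbove i l with rfl | ⟨l', rfl⟩
        · refine ((hdvd l).trans (dvd_of_eq ?_)).trans ((Finset.dvd_lcm (f := fun l' => orderOf ((w ∘ l.succAbove) l')) (Finset.mem_univ l0)).trans (Nat.dvd_lcm_left _ _))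
          simp only [Function.comp_apply]
          rw [hw, hm]
        · exact (hd _).trans ((Finset.dvd_lcm (f := fun l => orderOf ((w ∘ i.succAbove) l)) (Finset.mem_univ l')).trans (Nat.dvd_lcm_left _ _))
    obtain ⟨f', h, hd⟩ := key
    refine mem_range_of_dvd (f', h) ?_
    rw [Prod.orderOf_mk, Pi.orderOf f']
    exact hd
  · rintro _ ⟨⟨f, h⟩, rfl⟩
    obtain ⟨m, hm, hd⟩ := exists_maximal h
    obtain ⟨g, hg⟩ := (hsub hm).1
    refine mem_range_of_dvd (Fin.cons g f : Fin (k + 1) → G) ?_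
    rw [Prod.orderOf_mk, Pi.orderOf f, Pi.orderOf]
    refine Nat.lcm_dvd (Finset.lcm_dvd fun l _ => ?_) ?_
    · simpa using Finset.dvd_lcm (f := fun i => orderOf ((Fin.cons g f : Fin (k + 1) → G) i)) (Finset.mem_univ l.succ)
    · exact hd.trans ((dvd_of_eq hg.symm).trans (by simpa using Finset.dvd_lcm (f := fun i => orderOf ((Fin.cons g f : Fin (k + 1) → G) i)) (Finset.mem_univ 0)))

end Cfsg.Agent.S2514
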