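import Cfsg.Statements.S2515
import Mathlib

set_option autoImplicit false
open Cfsg

namespace Cfsg.Agent.S2515


open Matrix

variable {F : Type} [Field F] [CharP F 3]

local notation "M2" => Matrix (Fin 2) (Fin 2) F

/-- Transpose of the Frobenius image. -/
noncomputable def tw (g : M2) : M2 := (g.map (frobenius F 3))ᵀ

lemma tw_mul (g h : M2) : tw (g * h) = tw h * tw g := by
  rw [tw, tw, tw, Matrix.map_mul, transpose_mul]

lemma tw_one : tw (1 : M2) = 1 := by
  rw [tw, Matrix.map_one _ (map_zero _) (map_one _), transpose_one]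

lemma tw_neg (g : M2) : tw (-g) = -tw g := by
  ext i j; simp [tw]

lemma tw_det (g : M2) : (tw g).det = g.det ^ 3 := by
  simp [tw, det_fin_two, mul_pow, sub_pow_char, ← frobenius_def]

lemma tw_trace (g : M2) : (tw g).trace = g.trace ^ 3 := by
  simp [tw, trace_fin_two, add_pow_char, ← frobenius_def]

lemma three_zero : (3 : F) = 0 := by exact_mod_cast CharP.cast_eq_zero F 3

lemma neg_one_ne_one : (-1 : F) ≠ 1 := fun h => by
  have h2 : (2 : F) = 0 := by linear_combination -h
  exact one_ne_zero (α := F) (by linear_combination (three_zero (F := F)) - h2)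

omit [CharP F 3] in
lemma cayley (g : M2) (hg : g.det = 1) : g * g = g.trace • g - 1 := by
  rw [det_fin_two] at hg
  ext i j
  fin_cases i <;> fin_cases j <;> simp [mul_apply, trace_fin_two, Fin.sum_univ_two] <;>
    first | linear_combination -hg | linear_combination hg | ring

/-- The linear part. -/
noncomputable def lin (g : M2) (e : F) (X : M2) : M2 := e • (g * X * tw g)

lemma lin_lin (g h : M2) (e d : F) (X : M2) :
    lin g e (lin h d X) = lin (g * h) (e * d) X := by
  simp only [lin, tw_mul, Matrix.mul_smul, Matrix.smul_mul, smul_smul, mul_assoc]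

lemma lin_pm (g : M2) (hg : g = 1 ∨ g = -1) (X : M2) : lin g 1 X = X := by
  rcases hg with rfl | rfl <;> simp [lin, tw_neg, tw_one]

/-- Kernel of the linear action. -/
lemma lin_kernel (g : M2) (e : F) (hd : g.det = 1) (h : ∀ X, lin g e X = X) :
    (g = 1 ∨ g = -1) ∧ e = 1 := by
  have h1 : g * (e • tw g) = 1 := by simpa [lin, Matrix.mul_smul] using h 1
  have h2 : (e • tw g) * g = 1 := mul_eq_one_comm.1 h1
  have hc : ∀ X, g * X = X * g := fun X => by
    conv_rhs => rw [← h X]
    rw [lin, ← Matrix.mul_smul, mul_assoc, mul_assoc, h2, mul_one]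
  have a := congrFun (congrFun (hc !![1, 0; 0, 0]) 0) 1
  have b := congrFun (congrFun (hc !![0, 1; 0, 0]) 0) 1
  have c := congrFun (congrFun (hc !![0, 1; 0, 0]) 0) 0
  simp [mul_apply, Fin.sum_univ_two] at a b c
  have hg : g = g 0 0 • (1 : M2) := by
    ext i j
    fin_cases i <;> fin_cases j <;> simp [← a, b, ← c]
  have hgg : g = 1 ∨ g = -1 := by
    rw [hg, det_smul, det_one, mul_one, Fintype.card_fin, sq] at hd
    rcases mul_self_eq_one_iff.1 hd with h' | h'
    · exact Or.inl (by rw [hg, h', one_smul])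
    · exact Or.inr (by rw [hg, h', neg_one_smul])
  refine ⟨hgg, ?_⟩
  have h3 := h 1
  have h4 := lin_pm g hgg (1 : M2)
  simp only [lin, one_smul] at h3 h4
  rw [h4] at h3
  simpa using congrFun (congrFun h3 0) 0

/-- Membership in the affine group. -/
def Good (f : Equiv.Perm M2) : Prop :=
  ∃ (g : M2) (e : F) (v : M2), g.det = 1 ∧ (e = 1 ∨ e = -1) ∧ ∀ X, f X = lin g e X + v

noncomputable def aff (F : Type) [Field F] [CharP F 3] :
    Subgroup (Equiv.Perm (Matrix (Fin 2) (Fin 2) F)) where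
  carrier := {f | Good f}
  one_mem' := ⟨1, 1, 0, det_one, Or.inl rfl, fun X => by simp [lin, tw_one]⟩
  mul_mem' := by
    rintro f f' ⟨g, e, v, hg, he, hf⟩ ⟨g', e', v', hg', he', hf'⟩
    refine ⟨g * g', e * e', lin g e v' + v, by rw [det_mul, hg, hg', one_mul], ?_, fun X => ?_⟩
    · rcases he with rfl | rfl <;> rcases he' with rfl | rfl <;> simp
    · rw [Equiv.Perm.mul_apply, hf, hf', ← lin_lin]
      simp only [lin, mul_add, add_mul, smul_add, add_assoc]
  inv_mem' := by
    rintro f ⟨g, e, v, hg, he, hf⟩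
    refine ⟨g.adjugate, e, -lin g.adjugate e v, ?_, he, fun X => ?_⟩
    · rw [det_adjugate, hg, one_pow]
    · apply f.injective
      rw [Equiv.Perm.coe_inv, f.apply_symm_apply, hf]
      have : lin g.adjugate e X + -lin g.adjugate e v = lin g.adjugate e (X - v) := by
        simp only [lin, mul_sub, sub_mul, smul_sub]; abel
      rw [this, lin_lin, mul_adjugate, hg, one_smul,
        show e * e = 1 by rcases he with rfl | rfl <;> simp, lin_pm _ (Or.inl rfl),
        sub_add_cancel]

omit [CharP F 3] in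
lemma det_pow_one {g : M2} (hg : g.det = 1) (n : ℕ) : (g ^ n).det = 1 := by
  rw [det_pow, hg, one_pow]

lemma pow_apply (f : Equiv.Perm M2) (g : M2) (e : F) (v : M2) (hf : ∀ X, f X = lin g e X + v)
    (n : ℕ) (X : M2) : (f ^ n) X = lin (g ^ n) (e ^ n) X + (f ^ n) 0 := by
  induction n with
  | zero => simp [lin, tw_one]
  | succ n ih =>
    have h0 : lin g e (0 : M2) = 0 := by simp [lin]
    simp only [pow_succ' f, Equiv.Perm.mul_apply, hf]
    rw [ih]
    simp only [pow_succ', ← lin_lin]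
    simp only [lin, mul_add, add_mul, smul_add, add_assoc]

lemma pow_three_of (f : Equiv.Perm M2) (g : M2) (e : F) (v : M2)
    (hf : ∀ X, f X = lin g e X + v) (n : ℕ) (hid : ∀ X, lin (g ^ n) (e ^ n) X = X) :
    f ^ (3 * n) = 1 := by
  ext1 X
  have h : ∀ Y, (f ^ n) Y = Y + (f ^ n) 0 := fun Y => by rw [pow_apply f g e v hf, hid]
  rw [mul_comm, pow_mul, show (f ^ n) ^ 3 = f ^ n * f ^ n * f ^ n by rw [pow_succ, pow_two]]
  rw [Equiv.Perm.mul_apply, Equiv.Perm.mul_apply, h, h (_ : M2), h X, Equiv.Perm.one_apply,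
    add_assoc, add_assoc]
  have : (3 : F) • (f ^ n) 0 = 0 := by rw [three_zero, zero_smul]
  rw [show (3 : F) = 1 + 1 + 1 by norm_num, add_smul, add_smul, one_smul, add_assoc] at this
  rw [this, add_zero]

lemma pow_of_fpf (f : Equiv.Perm M2) (g : M2) (e : F) (v : M2)
    (hf : ∀ X, f X = lin g e X + v) (n : ℕ) (hid : ∀ X, lin (g ^ n) (e ^ n) X = X)
    (hfix : ∀ X, lin g e X = X → X = 0) : f ^ n = 1 := by
  have h : ∀ Y, (f ^ n) Y = Y + (f ^ n) 0 := fun Y => by rw [pow_apply f g e v hf, hid]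
  have h1 : (f ^ n) (f 0) = f ((f ^ n) 0) := by
    rw [← Equiv.Perm.mul_apply, ← Equiv.Perm.mul_apply, ← pow_succ, ← pow_succ']
  rw [h, hf, hf, show lin g e (0 : M2) = 0 by simp [lin], zero_add, add_comm v] at h1
  have hw := hfix _ (add_right_cancel h1).symm
  ext1 X
  rw [h, hw, add_zero, Equiv.Perm.one_apply]

lemma fixed_trace (A X : M2) (hA : A.det = 1) (hX : X ≠ 0) (h : A * X * tw A = X) :
    A.trace ^ 3 = A.trace := by
  set a := A.trace
  set A' := a • (1 : M2) - A with hA'
  have hAA' : A' * A = 1 := by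
    rw [hA', sub_mul, smul_mul_assoc, one_mul, cayley A hA]; abel
  have hB : tw A * tw A = a ^ 3 • tw A - 1 := by
    rw [← tw_trace]; exact cayley _ (by rw [tw_det, hA, one_pow])
  have hC : A' * A' = a • A' - 1 := by
    rw [hA', sub_mul, smul_mul_assoc, one_mul, mul_sub, mul_smul_comm, mul_one, cayley A hA]
    abel
  clear_value A'
  clear hA'
  have h1 : X * tw A = A' * X := by
    conv_rhs => rw [← h]
    rw [← mul_assoc, ← mul_assoc, hAA', one_mul]
  have h2 : X * (tw A * tw A) = A' * A' * X := by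
    rw [← mul_assoc, h1, mul_assoc, h1, mul_assoc]
  rw [hB, hC, mul_sub, mul_smul_comm, h1, mul_one, sub_mul, smul_mul_assoc, one_mul,
    sub_left_inj, ← sub_eq_zero, ← sub_smul, smul_eq_zero, sub_eq_zero] at h2
  rcases h2 with h2 | h2
  · exact h2
  · refine absurd ?_ hX
    rw [← one_mul X, ← mul_eq_one_comm.1 hAA', mul_assoc, h2, mul_zero]

omit [CharP F 3] in
lemma sq_one (y : M2) (hy : y.det = 1) (h : y * y = 1) (h2 : (2 : F) ≠ 0) : y = 1 ∨ y = -1 := by
  have h1 := cayley y hy
  rw [h] at h1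
  have h3 : y.trace • y = (2 : F) • (1 : M2) := by rw [two_smul]; exact eq_add_of_sub_eq h1.symm
  have hne : y.trace ≠ 0 := fun h0 => by
    rw [h0, zero_smul] at h3
    exact h2 (by simpa using (congrFun (congrFun h3 0) 0).symm)
  have h4 : y = (y.trace⁻¹ * 2) • (1 : M2) := by
    rw [← smul_smul, ← h3, smul_smul, inv_mul_cancel₀ hne, one_smul]
  rw [h4, smul_mul_smul_comm, one_mul] at h
  have h5 : (y.trace⁻¹ * 2) * (y.trace⁻¹ * 2) = 1 := by
    simpa using congrFun (congrFun h 0) 0
  rcases mul_self_eq_one_iff.1 h5 with h' | h'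
  · exact Or.inl (by rw [h4, h', one_smul])
  · exact Or.inr (by rw [h4, h', neg_one_smul])

/-- The element orders of the group. -/
lemma orders [Fintype F] (q : ℕ) (hq : Fintype.card F = q) (h8 : q % 8 = 3) (h3 : q % 3 = 0)
    (f : Equiv.Perm M2) (hf : Good f) :
    f ^ 6 = 1 ∨ f ^ 9 = 1 ∨ f ^ (q - 1) = 1 ∨ f ^ ((q + 1) / 2) = 1 := by
  obtain ⟨g, e, v, hg, he, hf⟩ := hf
  have h2 : (2 : F) ≠ 0 := fun h => neg_one_ne_one (F := F) (by linear_combination -h)
  have he2 : e ^ 2 = 1 := by rcases he with rfl | rfl <;> simp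
  have hee : ∀ n, Even n → e ^ n = 1 := fun n ⟨k, hk⟩ => by rw [hk, ← two_mul, pow_mul, he2, one_pow]
  have hch := cayley g hg
  set t := g.trace
  by_cases ht : t * t = 1
  · have hg3 : g ^ 3 = 1 ∨ g ^ 3 = -1 := by
      have h' : g ^ 3 = (t * t - 1) • g - t • (1 : M2) := by
        rw [pow_succ, pow_two, hch, sub_mul, smul_mul_assoc, hch, one_mul, smul_sub, smul_smul,
          sub_smul, one_smul]
        abel
      rw [ht, sub_self, zero_smul, zero_sub] at h'
      rcases mul_self_eq_one_iff.1 ht with h'' | h''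
      · exact Or.inr (by rw [h', h'', one_smul])
      · exact Or.inl (by rw [h', h'', neg_one_smul, neg_neg])
    rcases he with rfl | rfl
    · refine Or.inr (Or.inl (pow_three_of f g 1 v hf 3 fun X => ?_))
      rw [one_pow]; exact lin_pm _ hg3 X
    · refine Or.inl (pow_of_fpf f g _ v hf 6 (fun X => ?_) fun X hX => ?_)
      · rw [show ((-1 : F)) ^ 6 = 1 by norm_num]
        refine lin_pm _ (Or.inl ?_) X
        rw [show 6 = 3 * 2 by rfl, pow_mul]
        rcases hg3 with h | h <;> simp [h]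
      · have h3' : lin (g ^ 3) ((-1 : F) ^ 3) X = X := by
          rw [pow_succ, pow_two, pow_succ (-1 : F), pow_two, ← lin_lin, hX, ← lin_lin, hX, hX]
        have h1 : lin (g ^ 3) 1 X = X := lin_pm _ hg3 X
        simp only [lin, one_smul] at h1 h3'
        rw [h1, show ((-1 : F)) ^ 3 = -1 by norm_num, neg_one_smul] at h3'
        ext i j
        have h5 := congrFun (congrFun h3' i) j
        have h6 : (2 : F) * X i j = 0 := by simp at h5; linear_combination -h5
        simpa [h2] using h6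
  -- semisimple case
  have hgu : g * g.adjugate = 1 := by rw [mul_adjugate, hg, one_smul]
  have hinv : g.adjugate = t • (1 : M2) - g := by
    have : g * (t • (1 : M2) - g) = 1 := by rw [mul_sub, mul_smul_comm, mul_one, hch]; abel
    calc g.adjugate = g.adjugate * (g * (t • (1 : M2) - g)) := by rw [this, mul_one]
      _ = _ := by rw [← mul_assoc, mul_eq_one_comm.1 hgu, one_mul]
  have : Fact (Nat.Prime 3) := ⟨Nat.prime_three⟩
  obtain ⟨α, -, hα⟩ := FiniteField.card F 3
  rw [hq] at hα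
  have hfrob : g ^ q = g ∨ g ^ q = g.adjugate := by
    set D := (2 : F) • g - t • (1 : M2) with hD
    have hgD : g = -(D + t • (1 : M2)) := by
      rw [hD, sub_add_cancel, ← neg_smul]
      nth_rewrite 1 [← one_smul F g]
      congr 1
      linear_combination (three_zero (F := F))
    have hD2 : D * D = (t * t - 1) • (1 : M2) := by
      have h1 : (t * t - 1 : F) = t * t - 4 := by linear_combination (three_zero (F := F))
      rw [h1, hD, sub_mul, mul_sub, mul_sub, smul_mul_smul_comm, smul_mul_smul_comm,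
        smul_mul_smul_comm, smul_mul_smul_comm, hch, one_mul, mul_one, mul_one]
      module
    have hodd : q = 2 * (q / 2) + 1 := by omega
    have hDq : D ^ q = (t * t - 1) ^ (q / 2) • D := by
      conv_lhs => rw [hodd, pow_succ, pow_mul, pow_two, hD2, smul_pow, one_pow, smul_mul_assoc, one_mul]
    have htq : (t • (1 : M2)) ^ q = t • (1 : M2) := by
      rw [smul_pow, one_pow, ← hq, FiniteField.pow_card]
    have hcom : Commute D (t • (1 : M2)) := (Commute.one_right D).smul_right t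
    have hgq : g ^ q = -((t * t - 1) ^ (q / 2) • D + t • (1 : M2)) := by
      conv_lhs => rw [hgD, (show Odd q from ⟨q / 2, hodd⟩).neg_pow, hα,
        add_pow_char_pow_of_commute 3 (α : ℕ) hcom, ← hα, hDq, htq]
    have hdich := FiniteField.pow_dichotomy (F := F)
      (by rw [ringChar.eq F 3]; norm_num) (a := t * t - 1) (sub_ne_zero.2 ht)
    rw [hq] at hdich
    rcases hdich with h | h
    · left; rw [hgq, h, one_smul, ← hgD]
    · right
      rw [hgq, h, hinv, neg_one_smul]
      have hDv : D = -g - t • (1 : M2) := by rw [hgD]; abel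
      rw [hDv]
      nth_rewrite 3 [show t = -(2 * t) by linear_combination t * (three_zero (F := F))]
      module
  have hq1 : g ^ (q - 1) = 1 ∨ g ^ (q + 1) = 1 := by
    rcases hfrob with h | h
    · left
      calc g ^ (q - 1) = g ^ (q - 1) * (g * g.adjugate) := by rw [hgu, mul_one]
        _ = g ^ q * g.adjugate := by rw [← mul_assoc, ← pow_succ]; congr 2; omega
        _ = 1 := by rw [h, hgu]
    · right; rw [pow_succ', h, hgu]
  by_cases hfix : ∀ X, lin g e X = X → X = 0
  · rcases hq1 with h | h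
    · refine Or.inr (Or.inr (Or.inl (pow_of_fpf f g e v hf _ (fun X => ?_) hfix)))
      rw [h, hee _ ⟨(q - 1) / 2, by omega⟩]; exact lin_pm _ (Or.inl rfl) X
    · refine Or.inr (Or.inr (Or.inr (pow_of_fpf f g e v hf _ (fun X => ?_) hfix)))
      rw [hee _ ⟨(q + 1) / 4, by omega⟩]
      refine lin_pm _ (sq_one _ (det_pow_one hg _) ?_ h2) X
      rw [← pow_add, show (q + 1) / 2 + (q + 1) / 2 = q + 1 by omega, h]
  · push_neg at hfix
    obtain ⟨X, hX, hX0⟩ := hfix
    set A := g * g with hA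
    have hAd : A.det = 1 := by rw [hA, det_mul, hg, one_mul]
    have hAX : A * X * tw A = X := by
      have h1 : lin g e (lin g e X) = X := by rw [hX, hX]
      rw [lin_lin, ← pow_two e, he2] at h1
      simpa [lin] using h1
    have ha := fixed_trace A X hAd hX0 hAX
    have hAA := cayley A hAd
    set a := A.trace
    have h4 : g ^ 4 = 1 → f ^ 6 = 1 := fun h4 => by
      refine pow_three_of f g e v hf 2 fun Y => ?_
      rw [he2]
      refine lin_pm _ (sq_one _ (det_pow_one hg 2) ?_ h2) Y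
      rw [← pow_add]; exact h4
    have hgcd : ∀ n, g ^ n = 1 → (∀ m, m = q - 1 ∨ m = q + 1 → Nat.gcd n m ∣ 4) → g ^ 4 = 1 := by
      intro n hn hd
      obtain ⟨m, hm, hgm⟩ : ∃ m, (m = q - 1 ∨ m = q + 1) ∧ g ^ m = 1 := by
        rcases hq1 with h | h
        · exact ⟨_, Or.inl rfl, h⟩
        · exact ⟨_, Or.inr rfl, h⟩
      obtain ⟨k, hk⟩ := hd m hm
      rw [hk, pow_mul, pow_gcd_eq_one.2 ⟨hn, hgm⟩, one_pow]
    by_cases ha0 : a = 0
    · exfalso
      rw [ha0, zero_smul, zero_sub] at hAA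
      have hg4 : g ^ 4 = -1 := by
        rw [← hAA, hA]; simp only [pow_succ, pow_zero, one_mul, mul_assoc]
      have := hgcd 8 (by rw [show 8 = 4 * 2 by rfl, pow_mul, hg4]; simp) (by
        intro m hm
        have h1 := (Nat.dvd_prime_pow Nat.prime_two (m := 3)).1 (Nat.gcd_dvd_left 8 m)
        obtain ⟨i, hi, hi'⟩ := h1
        rw [hi']
        have : i ≤ 2 := by
          by_contra hc
          have h5 := Nat.gcd_dvd_right 8 m
          rw [hi', show i = 3 by omega] at h5
          omega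
        exact (pow_dvd_pow 2 this))
      rw [this] at hg4
      exact neg_one_ne_one (F := F) (by simpa using (congrFun (congrFun hg4 0) 0).symm)
    · refine Or.inl (h4 (hgcd 12 ?_ ?_))
      · have hA3 : A ^ 3 = (a * a - 1) • A - a • (1 : M2) := by
          rw [pow_succ, pow_two, hAA, sub_mul, smul_mul_assoc, hAA, one_mul, smul_sub, smul_smul,
            sub_smul, one_smul]
          abel
        have haa : a * a = 1 := mul_left_cancel₀ ha0 (by linear_combination ha)
        rw [haa, sub_self, zero_smul, zero_sub] at hA3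
        rw [show g ^ 12 = (A ^ 3) ^ 2 by rw [hA, ← pow_two, ← pow_mul, ← pow_mul], hA3, neg_sq,
          smul_pow, one_pow, pow_two, haa, one_smul]
      · intro m hm
        have h1 : Nat.gcd 12 m ∣ 12 := Nat.gcd_dvd_left 12 m
        have h2 := Nat.gcd_dvd_right 12 m
        have h5 : Nat.gcd 12 m ≤ 12 := Nat.le_of_dvd (by norm_num) h1
        generalize Nat.gcd 12 m = d at *
        interval_cases d <;> omega

lemma order_lin_dvd (f : Equiv.Perm M2) (g : M2) (e : F) (hg : g.det = 1)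
    (hf : ∀ X, f X = lin g e X + 0) (k : ℕ) :
    f ^ k = 1 ↔ (g ^ k = 1 ∨ g ^ k = -1) ∧ e ^ k = 1 := by
  have h0 : (f ^ k) 0 = 0 := by
    induction k with
    | zero => simp
    | succ k ih => rw [pow_succ, Equiv.Perm.mul_apply, hf]; simp [lin, ih]
  constructor
  · intro h
    refine lin_kernel _ _ (det_pow_one hg k) fun X => ?_
    have h1 := pow_apply f g e 0 hf k X
    rw [h0, add_zero, h, Equiv.Perm.one_apply] at h1
    exact h1.symm
  · rintro ⟨h1, h2⟩
    ext1 X
    rw [pow_apply f g e 0 hf, h0, add_zero, h2, lin_pm _ h1, Equiv.Perm.one_apply]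

lemma exists_perm [Finite F] (g : M2) (e : F) (v : M2) (hg : g.det = 1) (he : e = 1 ∨ e = -1) :
    ∃ f : Equiv.Perm M2, Good f ∧ ∀ X, f X = lin g e X + v := by
  have hinj : Function.Injective (fun X => lin g e X + v) := fun X Y h => by
    have h1 := congrArg (lin g.adjugate e) (add_right_cancel h)
    rw [lin_lin, lin_lin, adjugate_mul, hg, one_smul,
      show e * e = 1 by rcases he with rfl | rfl <;> simp, lin_pm _ (Or.inl rfl),
      lin_pm _ (Or.inl rfl)] at h1
    exact h1
  exact ⟨Equiv.ofBijective _ (Finite.injective_iff_bijective.1 hinj),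
    ⟨g, e, v, hg, he, fun X => rfl⟩, fun X => rfl⟩

omit [CharP F 3] in
lemma unip_pow (k : ℕ) : (!![1, 1; 0, 1] : M2) ^ k = !![1, (k : F); 0, 1] := by
  induction k with
  | zero => ext i j; fin_cases i <;> fin_cases j <;> simp
  | succ k ih =>
    rw [pow_succ, ih]
    ext i j; fin_cases i <;> fin_cases j <;> simp [mul_apply, Fin.sum_univ_two, add_comm]

omit [CharP F 3] in
lemma diag_pow (a b : F) (k : ℕ) : (!![a, 0; 0, b] : M2) ^ k = !![a ^ k, 0; 0, b ^ k] := by
  induction k with
  | zero => ext i j; fin_cases i <;> fin_cases j <;> simp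
  | succ k ih =>
    rw [pow_succ, ih]
    ext i j; fin_cases i <;> fin_cases j <;> simp [mul_apply, Fin.sum_univ_two, pow_succ]

lemma attained [Fintype F] (q : ℕ) (hq : Fintype.card F = q) (h8 : q % 8 = 3) :
    ∀ n ∈ ({6, 9, q - 1, (q + 1) / 2} : Set ℕ), ∃ f : Equiv.Perm M2, Good f ∧ orderOf f = n := by
  have h2 : (-1 : F) ≠ 1 := neg_one_ne_one
  have : Fact (Nat.Prime 3) := ⟨Nat.prime_three⟩
  have hcast : ∀ k : ℕ, (k : F) = 0 ↔ 3 ∣ k := CharP.cast_eq_zero_iff F 3
  rintro n (rfl | rfl | rfl | rfl)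
  · have hd : (!![1, 1; 0, 1] : M2).det = 1 := by simp [det_fin_two]
    obtain ⟨f, hf, hfv⟩ := exists_perm _ (-1 : F) 0 hd (Or.inr rfl)
    have key := order_lin_dvd f _ _ hd hfv
    refine ⟨f, hf, Nat.dvd_antisymm (orderOf_dvd_of_pow_eq_one ((key 6).2 ⟨Or.inl ?_, by norm_num⟩)) ?_⟩
    · rw [unip_pow, (hcast 6).2 (by norm_num)]; ext i j; fin_cases i <;> fin_cases j <;> simp
    · obtain ⟨h1, h3⟩ := (key _).1 (pow_orderOf_eq_one f)
      have hev : Even (orderOf f) := (neg_one_pow_eq_one_iff_even h2).1 h3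
      have h4 : 3 ∣ orderOf f := by
        rw [← hcast]
        rcases h1 with h1 | h1 <;> rw [unip_pow] at h1 <;>
          simpa using congrFun (congrFun h1 0) 1
      exact (show 6 = 2 * 3 by rfl) ▸ Nat.Coprime.mul_dvd_of_dvd_of_dvd (by norm_num) hev.two_dvd h4
  · have hd : (!![1, 1; 0, 1] : M2).det = 1 := by simp [det_fin_two]
    obtain ⟨f, hf, hfv⟩ := exists_perm _ (1 : F) !![0, 0; 0, 1] hd (Or.inl rfl)
    refine ⟨f, hf, ?_⟩
    rw [show 9 = 3 ^ (1 + 1) by rfl]
    refine orderOf_eq_prime_pow ?_ ?_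
    · rw [pow_one, show f ^ 3 = f * f * f by rw [pow_succ, pow_two]]
      intro h
      have h1 := congrArg (fun p : Equiv.Perm M2 => p 0 0 0) h
      have htw : tw (!![1, 1; 0, 1] : M2) = !![1, 0; 1, 1] := by
        ext i j; fin_cases i <;> fin_cases j <;> simp [tw]
      simp [hfv, lin, htw, mul_apply, Fin.sum_univ_two] at h1
      exact h2 (by linear_combination -h1 + three_zero (F := F))
    · rw [show 3 ^ (1 + 1) = 3 * 3 by rfl]
      refine pow_three_of f _ _ _ hfv 3 fun X => ?_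
      rw [one_pow]
      refine lin_pm _ (Or.inl ?_) X
      rw [unip_pow, (hcast 3).2 dvd_rfl]; ext i j; fin_cases i <;> fin_cases j <;> simp
  · obtain ⟨w, hw⟩ := IsCyclic.exists_ofOrder_eq_natCard (α := Fˣ)
    rw [Nat.card_units, Nat.card_eq_fintype_card, hq] at hw
    have hd : (!![(w : F), 0; 0, ((w⁻¹ : Fˣ) : F)] : M2).det = 1 := by simp [det_fin_two]
    obtain ⟨f, hf, hfv⟩ := exists_perm _ (-1 : F) 0 hd (Or.inr rfl)
    have key := order_lin_dvd f _ _ hd hfv
    refine ⟨f, hf, Nat.dvd_antisymm (orderOf_dvd_of_pow_eq_one ((key _).2 ⟨Or.inl ?_, ?_⟩)) ?_⟩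
    · rw [diag_pow, ← Units.val_pow_eq_pow_val, ← Units.val_pow_eq_pow_val, inv_pow,
        ← hw, pow_orderOf_eq_one]
      ext i j; fin_cases i <;> fin_cases j <;> simp
    · exact Even.neg_one_pow ⟨(q - 1) / 2, by omega⟩
    · obtain ⟨h1, h3⟩ := (key _).1 (pow_orderOf_eq_one f)
      have hev : Even (orderOf f) := (neg_one_pow_eq_one_iff_even h2).1 h3
      have h4 : orderOf w ∣ orderOf f * 2 := by
        refine orderOf_dvd_of_pow_eq_one (Units.ext ?_)
        rw [pow_mul, Units.val_pow_eq_pow_val, Units.val_pow_eq_pow_val]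
        rcases h1 with h1 | h1 <;> rw [diag_pow] at h1 <;>
          have := congrFun (congrFun h1 0) 0 <;> simp at this <;> simp [this]
      rw [hw] at h4
      have h5 : (q - 1) / 2 ∣ orderOf f := by
        rw [show q - 1 = (q - 1) / 2 * 2 by omega] at h4
        exact Nat.dvd_of_mul_dvd_mul_right (by norm_num) h4
      have h6 := Nat.Coprime.mul_dvd_of_dvd_of_dvd
        ((Nat.prime_two.coprime_iff_not_dvd (n := (q - 1) / 2)).2 (by omega)) hev.two_dvd h5
      rwa [show 2 * ((q - 1) / 2) = q - 1 by omega] at h6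
  · let E := FiniteField.Extension F 3 2
    have hE : Nat.card E = q ^ 2 := by
      rw [FiniteField.natCard_extension, Nat.card_eq_fintype_card, hq]
    obtain ⟨z, hz⟩ := IsCyclic.exists_ofOrder_eq_natCard (α := Eˣ)
    rw [Nat.card_units, hE] at hz
    have hq3 : 3 ≤ q := by omega
    have hsq : q ^ 2 - 1 = (q - 1) * (q + 1) := by
      zify [show 1 ≤ q ^ 2 by nlinarith, show 1 ≤ q by omega]; ring
    have hw : orderOf ((z ^ (q - 1) : Eˣ) : E) = q + 1 := by
      rw [orderOf_units, orderOf_pow' _ (by omega), hz, hsq, Nat.gcd_eq_right (dvd_mul_right _ _),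
        Nat.mul_div_cancel_left _ (by omega)]
    set w : E := ((z ^ (q - 1) : Eˣ) : E)
    let b := Module.finBasisOfFinrankEq F E (FiniteField.finrank_extension F 3 2)
    let L : E →ₐ[F] M2 := Algebra.leftMulMatrix b
    have hL : Function.Injective L := Algebra.leftMulMatrix_injective b
    have hd : (L w).det = 1 := by
      rw [← Algebra.norm_eq_matrix_det]
      apply (algebraMap F E).injective
      rw [FiniteField.algebraMap_norm_eq_pow, map_one, hE, Nat.card_eq_fintype_card, hq, hsq,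
        Nat.mul_div_cancel_left _ (by omega), ← hw, pow_orderOf_eq_one]
    obtain ⟨f, hf, hfv⟩ := exists_perm _ (1 : F) 0 hd (Or.inl rfl)
    have key := order_lin_dvd f _ _ hd hfv
    refine ⟨f, hf, Nat.dvd_antisymm (orderOf_dvd_of_pow_eq_one ((key _).2 ⟨?_, one_pow _⟩)) ?_⟩
    · refine sq_one _ (det_pow_one hd _) ?_ (fun h => h2 (by linear_combination -h))
      rw [← pow_add, ← map_pow, show (q + 1) / 2 + (q + 1) / 2 = q + 1 by omega, ← hw,
        pow_orderOf_eq_one, map_one]
    · obtain ⟨h1, -⟩ := (key _).1 (pow_orderOf_eq_one f)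
      have h4 : orderOf w ∣ orderOf f * 2 := by
        refine orderOf_dvd_of_pow_eq_one (hL ?_)
        rw [map_pow, map_one, pow_mul]
        rcases h1 with h1 | h1 <;> simp [h1]
      rw [hw, show q + 1 = (q + 1) / 2 * 2 by omega] at h4
      exact Nat.dvd_of_mul_dvd_mul_right (by norm_num) h4

lemma q_mods (α : ℕ) (hα : 3 ≤ α) (hodd : Odd α) :
    3 ^ α % 8 = 3 ∧ 3 ^ α % 3 = 0 ∧ 27 ≤ 3 ^ α := by
  obtain ⟨k, rfl⟩ := hodd
  refine ⟨?_, ?_, (show 27 = 3 ^ 3 by rfl) ▸ Nat.pow_le_pow_right (by norm_num) hα⟩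
  · rw [pow_succ, pow_mul, Nat.mul_mod, Nat.pow_mod]; norm_num
  · rw [pow_succ]; simp

lemma antichain (q : ℕ) (hq : 27 ≤ q) (h8 : q % 8 = 3) (h3 : q % 3 = 0) :
    ∀ a ∈ ({6, 9, q - 1, (q + 1) / 2} : Set ℕ), ∀ b ∈ ({6, 9, q - 1, (q + 1) / 2} : Set ℕ),
      a ∣ b → a = b := by
  intro a ha b hb hab
  have hb0 : 0 < b := by rcases hb with rfl | rfl | rfl | rfl <;> omega
  have hle := Nat.le_of_dvd hb0 hab
  have h63 : ¬ 3 ∣ a ∨ 3 ∣ b := or_iff_not_imp_left.2 fun h => (not_not.1 h).trans hab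
  rcases ha with rfl | rfl | rfl | rfl <;> rcases hb with rfl | rfl | rfl | rfl <;>
    first
      | rfl
      | omega
      | (obtain ⟨c, hc⟩ := hab
         rcases c with _ | _ | c <;> first | omega | (rw [Nat.mul_add, Nat.mul_add] at hc; omega))

/-- Let q = 3^α with α ≥ 3 odd. There is a finite group H having a non-trivial normal 3-subgroup and whose element orders maximal under divisibility are exactly 6, 9, q − 1 and (q + 1)/2. -/
theorem result (α : ℕ) (hα : 3 ≤ α) (hodd : Odd α) :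
    ∃ (H : Type) (_ : Group H) (_ : Fintype H), (∃ P : Subgroup H, P.Normal ∧ P ≠ ⊥ ∧ IsPGroup 3 ↥P) ∧
      {n : ℕ | n ∈ Set.range (orderOf : H → ℕ) ∧ ∀ m ∈ Set.range (orderOf : H → ℕ), n ∣ m → m = n} = ({6, 9, 3 ^ α - 1, (3 ^ α + 1) / 2} : Set ℕ) := by
  classical
  have : Fact (Nat.Prime 3) := ⟨Nat.prime_three⟩
  let F := GaloisField 3 α
  let : Fintype F := Fintype.ofFinite F
  have hcard : Fintype.card F = 3 ^ α := by
    rw [← Nat.card_eq_fintype_card, GaloisField.card 3 α (by omega)]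
  obtain ⟨h8, h3, h27⟩ := q_mods α hα hodd
  refine ⟨↥(aff F), inferInstance, Fintype.ofFinite _, ?_, ?_⟩
  · let P : Subgroup ↥(aff F) :=
      { carrier := {f | ∃ w : Matrix (Fin 2) (Fin 2) F, ∀ X, f.1 X = X + w}
        one_mem' := ⟨0, fun X => by simp⟩
        mul_mem' := by
          rintro f f' ⟨w, hw⟩ ⟨w', hw'⟩
          exact ⟨w' + w, fun X => by simp [Equiv.Perm.mul_apply, hw, hw', add_assoc]⟩
        inv_mem' := by
          rintro f ⟨w, hw⟩
          refine ⟨-w, fun X => ?_⟩
          apply f.1.injective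
          rw [hw (X + -w)]
          simp; abel }
    refine ⟨P, ⟨?_⟩, ?_, ?_⟩
    · rintro f ⟨w, hw⟩ c
      obtain ⟨g, e, v, -, -, hc⟩ := c.2
      refine ⟨lin g e w, fun X => ?_⟩
      obtain ⟨Y, rfl⟩ := c.1.surjective X
      show c.1 (f.1 ((c.1)⁻¹ (c.1 Y))) = c.1 Y + lin g e w
      rw [Equiv.Perm.coe_inv, Equiv.symm_apply_apply, hw, hc, hc]
      simp [lin, mul_add, add_mul, smul_add]; abel
    · intro hbot
      let t : Equiv.Perm (Matrix (Fin 2) (Fin 2) F) := Equiv.addRight (1 : Matrix (Fin 2) (Fin 2) F)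
      have ht : t ∈ aff F := ⟨1, 1, 1, Matrix.det_one, Or.inl rfl, fun X => by
        rw [lin_pm _ (Or.inl rfl)]; rfl⟩
      have h1 : (⟨t, ht⟩ : ↥(aff F)) ∈ P := ⟨1, fun X => rfl⟩
      rw [hbot, Subgroup.mem_bot, Subtype.ext_iff] at h1
      have h2 := congrArg (fun p : Equiv.Perm (Matrix (Fin 2) (Fin 2) F) => p 0) h1
      simp [t] at h2
    · rintro ⟨f, w, hw⟩
      refine ⟨1, Subtype.ext (Subtype.ext ?_)⟩
      have := pow_three_of f.1 1 1 w (fun X => by rw [lin_pm _ (Or.inl rfl), hw]) 1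
        (fun X => by rw [one_pow, one_pow, lin_pm _ (Or.inl rfl)])
      simpa using this
  set B : Set ℕ := {6, 9, 3 ^ α - 1, (3 ^ α + 1) / 2} with hB
  have hub : ∀ n ∈ Set.range (orderOf : ↥(aff F) → ℕ), ∃ b ∈ B, n ∣ b := by
    rintro _ ⟨f, rfl⟩
    rw [← Subgroup.orderOf_coe]
    rcases orders (3 ^ α) hcard h8 h3 f.1 f.2 with h | h | h | h <;>
      exact ⟨_, by simp [hB], orderOf_dvd_of_pow_eq_one h⟩
  have hatt : ∀ b ∈ B, b ∈ Set.range (orderOf : ↥(aff F) → ℕ) := by
    intro b hb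
    obtain ⟨f, hf, rfl⟩ := attained (F := F) (3 ^ α) hcard h8 b hb
    exact ⟨⟨f, hf⟩, by rw [← Subgroup.orderOf_coe]⟩
  have hanti := antichain (3 ^ α) h27 h8 h3
  ext n
  constructor
  · rintro ⟨hn, hmax⟩
    obtain ⟨b, hb, hd⟩ := hub n hn
    rw [← hmax b (hatt b hb) hd]; exact hb
  · intro hn
    refine ⟨hatt n hn, fun m hm hnm => ?_⟩
    obtain ⟨b, hb, hd⟩ := hub m hm
    have := hanti n hn b hb (hnm.trans hd)
    exact Nat.dvd_antisymm (this ▸ hd) hnm

end Cfsg.Agent.S2515
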