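import Cfsg.Statements.S2516

set_option autoImplicit false
open Cfsg

namespace Cfsg.Agent.S2516

/-- Let F be a field of characteristic p > 0, V a non-zero finite-dimensional F-vector space, G a finite group and ρ a representation of G on V; form the semidirect product V ⋊ G. For g ∈ G of order k, the coset Vg contains an element of order pk if and only if the minimal polynomial of ρ(g) does not divide 1 + X + ⋯ + X^(k−1). -/
theorem result {F : Type*} [Field F] (p : ℕ) [Fact p.Prime] [CharP F p] {V : Type*} [AddCommGroup V] [Module F V] [FiniteDimensional F V] [Nontrivial V]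
    {G : Type*} [Group G] [Finite G] (ρ : Representation F G V) (g : G) :
    (∃ x : Multiplicative V ⋊[(MulAutMultiplicative V).symm.toMonoidHom.comp
        ((DistribMulAction.toAddAut ((V →ₗ[F] V)ˣ) V).comp ρ.asGroupHom)] G,
        x.right = g ∧ orderOf x = p * orderOf g) ↔
      ¬ (minpoly F (ρ g) ∣ ∑ i ∈ Finset.range (orderOf g), (Polynomial.X : Polynomial F) ^ i) := by
  classical
  set k := orderOf g with hk
  have hk0 : 0 < k := orderOf_pos g
  let φ := (MulAutMultiplicative V).symm.toMonoidHom.comp
        ((DistribMulAction.toAddAut ((V →ₗ[F] V)ˣ) V).comp ρ.asGroupHom)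
  set A : Module.End F V := ∑ i ∈ Finset.range k, (ρ g) ^ i with hA
  have haev : Polynomial.aeval (ρ g) (∑ i ∈ Finset.range k, (Polynomial.X : Polynomial F) ^ i) = A := by
    simp [hA]
  have hpow : ∀ (x : Multiplicative V ⋊[φ] G) (j : ℕ), x.right = g →
      (x ^ j).right = g ^ j ∧ (x ^ j).left.toAdd = (∑ i ∈ Finset.range j, (ρ g) ^ i) x.left.toAdd := by
    intro x j hx
    induction j with
    | zero => simp
    | succ j ih =>
      obtain ⟨h1, h2⟩ := ih
      refine ⟨by rw [pow_succ, SemidirectProduct.mul_right, h1, hx, pow_succ], ?_⟩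
      rw [pow_succ, SemidirectProduct.mul_left, toAdd_mul, h1, h2, Finset.sum_range_succ, LinearMap.add_apply]
      congr 1
      rw [← map_pow]; rfl
  have hord : ∀ x : Multiplicative V ⋊[φ] G, x.right = g →
      (orderOf x = p * k ↔ A x.left.toAdd ≠ 0) := by
    intro x hx
    obtain ⟨h1, h2⟩ := hpow x k hx
    rw [hk, pow_orderOf_eq_one] at h1
    have hdvd : k ∣ orderOf x := by
      have := orderOf_map_dvd (SemidirectProduct.rightHom (φ := φ)) x
      rwa [SemidirectProduct.rightHom_eq_right, hx] at this
    have hp : (x ^ k) ^ p = 1 := by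
      have e : x ^ k = SemidirectProduct.inl (x ^ k).left := by
        refine SemidirectProduct.ext ?_ ?_
        · simp
        · simpa [hk] using h1
      rw [e, ← map_pow, ← map_one (SemidirectProduct.inl (φ := φ))]
      congr 1
      apply Multiplicative.toAdd.injective
      rw [toAdd_pow, ← Nat.cast_smul_eq_nsmul F, CharP.cast_eq_zero, zero_smul]; rfl
    have hxk : x ^ k = 1 ↔ A x.left.toAdd = 0 := by
      rw [hA, ← h2]
      constructor
      · intro h; rw [h]; rfl
      · intro h
        refine SemidirectProduct.ext (Multiplicative.toAdd.injective (by simpa using h)) (by simpa [hk] using h1)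
    rw [Ne, ← hxk]
    constructor
    · intro h he
      have := Nat.le_of_dvd hk0 (h ▸ orderOf_dvd_of_pow_eq_one he)
      have := (Fact.out : p.Prime).two_le
      nlinarith
    · intro he
      have h3 : orderOf (x ^ k) = p := orderOf_eq_prime hp he
      rw [orderOf_pow' x hk0.ne', Nat.gcd_eq_right hdvd] at h3
      rw [← h3, Nat.div_mul_cancel hdvd]
  constructor
  · rintro ⟨x, hx, ho⟩ hdvd
    refine (hord x hx).1 ho ?_
    obtain ⟨c, hc⟩ := hdvd
    rw [← haev, hc, map_mul, minpoly.aeval, zero_mul, LinearMap.zero_apply]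
  · intro hnd
    have hA0 : A ≠ 0 := fun h => hnd (minpoly.dvd F _ (haev.trans h))
    obtain ⟨v, hv⟩ : ∃ v, A v ≠ 0 := by
      by_contra h
      push Not at h
      exact hA0 (LinearMap.ext h)
    exact ⟨⟨Multiplicative.ofAdd v, g⟩, rfl, (hord _ rfl).2 hv⟩

end Cfsg.Agent.S2516
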