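import Cfsg.Statements.S2517
import Cfsg.Agent.Lib.Recog.OrthNineMain
import Cfsg.Agent.Lib.Classical.QuadOmega.Apply

set_option autoImplicit false
open Cfsg
open Cfsg.Agent.Lib.Classical.Quad Cfsg.Agent.Lib.Classical.QuadOmega Cfsg.Agent.Lib.Classical.OrthTorsion Cfsg.Agent.Lib.Classical.QuadF2
open Cfsg.Agent.Lib.Recog.OddOrthPrimeGraph

namespace Cfsg.Agent.S2517

/-- Let F be a finite field of odd order q, let Ω₉ be the simple orthogonal group PΩ(9, F), and let Ω₈⁻ be the commutator subgroup of the isometry group of a minus-type non-singular quadratic form on V = F⁸ (the simple group PΩ⁻(8, F), acting on its natural module V). Then Ω₉ and the semidirect product V ⋊ Ω₈⁻ have exactly the same set of element orders. -/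
theorem result {F : Type*} [Field F] [Fintype F] (hF : Odd (Fintype.card F)) (a b : F)
    (hab : ∀ z₁ z₂ : F, z₁ ^ 2 + a * z₁ * z₂ + b * z₂ ^ 2 = 0 → z₁ = 0 ∧ z₂ = 0) :
    Set.range (orderOf : Cfsg.POmega F (Cfsg.quadFormOdd 4 F) → ℕ) =
      Set.range (orderOf :
        (Multiplicative (((Fin 3 ⊕ Fin 3) ⊕ Fin 2) → F)) ⋊[
          (MulAutMultiplicative (((Fin 3 ⊕ Fin 3) ⊕ Fin 2) → F)).symm.toMonoidHom.comp
           ((DistribMulAction.toAddAut (LinearMap.GeneralLinearGroup F (((Fin 3 ⊕ Fin 3) ⊕ Fin 2) → F))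
              (((Fin 3 ⊕ Fin 3) ⊕ Fin 2) → F)).comp
            (Matrix.GeneralLinearGroup.toLin.toMonoidHom.comp
              ((Cfsg.isometryGroup F (Cfsg.quadFormMinus 3 F a b)).subtype.comp
                (Cfsg.Omega F (Cfsg.quadFormMinus 3 F a b)).subtype)))]
          ↥(Cfsg.Omega F (Cfsg.quadFormMinus 3 F a b)) → ℕ) := by
  classical
  obtain ⟨f, hf⟩ := CharP.exists F
  have : Fact f.Prime := ⟨CharP.char_is_prime F f⟩
  have h2 : (2 : F) ≠ 0 := fun h => by
    have : CharP F 2 := CharTwo.of_one_ne_zero_of_two_eq_zero one_ne_zero h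
    have h' := (FiniteField.even_card_iff_char_two (F := F)).1 (ringChar.eq F 2)
    have := Nat.odd_iff.1 hF
    omega
  have hab' : Aniso a b := hab
  let E := isoEquiv (Cfsg.quadFormMinus 3 F a b) (Q := minusQ 3 a b) (LinearEquiv.refl F _)
    fun v => (minusQ_apply 3 a b v).symm
  let π : ↥(Cfsg.Omega F (Cfsg.quadFormMinus 3 F a b)) →* isoG (minusQ 3 a b) :=
    E.toMonoidHom.comp (Cfsg.Omega F (Cfsg.quadFormMinus 3 F a b)).subtype
  have hrange : π.range = commutator (isoG (minusQ 3 a b)) := by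
    rw [MonoidHom.range_comp, Subgroup.range_subtype]
    unfold Cfsg.Omega
    rw [commutator_def, commutator_def, Subgroup.map_commutator, Subgroup.map_top_of_surjective _ E.surjective]
  refine Eq.trans (Set.ext fun n => ?_)
    (Lib.Recog.OrthNine.range_sd (p := f) _ π (fun h v => ?_) (fun x y h => Subtype.ext (E.injective h)) hrange).symm
  · rw [range_iff h2 (by norm_num) n]
    exact (Lib.Recog.OrthNine.inL_iff (p := f) h2 hab' n).symm
  · rfl

end Cfsg.Agent.S2517
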