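import Cfsg.Statements.S2522
import Mathlib

set_option autoImplicit false
open Cfsg

namespace Cfsg.Agent.S2522

open Matrix Module
open scoped MatrixGroups

universe u v

variable {K : Type u} [Field K]

theorem exists_four (hK : 4 ≤ Cardinal.mk K) : ∃ T : Finset K, T.card = 4 := by
  rcases finite_or_infinite K with h | h
  · haveI := Fintype.ofFinite K
    rw [Cardinal.mk_fintype] at hK
    have : 4 ≤ Fintype.card K := by exact_mod_cast hK
    obtain ⟨T, -, hT⟩ := Finset.exists_subset_card_eq (s := (Finset.univ : Finset K)) (n := 4)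
      (by rw [Finset.card_univ]; exact this)
    exact ⟨T, hT⟩
  · exact Infinite.exists_subset_card_eq K 4

theorem avoid {V : Type v} [AddCommGroup V] [Module K V] (hK : 4 ≤ Cardinal.mk K) (D : Submodule K V) :
    ∀ L : List (Submodule K V), L.length ≤ 4 → (∀ W ∈ L, ¬ D ≤ W) → ∃ x ∈ D, ∀ W ∈ L, x ∉ W
  | [], _, _ => ⟨0, D.zero_mem, by simp⟩
  | W :: L, hlen, hL => by
    classical
    obtain ⟨x, hxD, hx⟩ := avoid hK D L (by simp at hlen; omega) fun Z hZ => hL Z (List.mem_cons_of_mem _ hZ)
    by_cases hxW : x ∈ W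
    · obtain ⟨y, hyD, hy⟩ := SetLike.not_le_iff_exists.1 (hL W List.mem_cons_self)
      obtain ⟨T, hT⟩ := exists_four hK
      by_contra hno
      push Not at hno
      have hbad : ∀ t : T, ∃ i : Fin L.length, y + (t : K) • x ∈ L.get i := by
        intro t
        obtain ⟨Z, hZ, hmem⟩ := hno (y + (t : K) • x) (D.add_mem hyD (D.smul_mem _ hxD))
        rcases List.mem_cons.1 hZ with hZ | hZ
        · rw [hZ] at hmem
          exact absurd ((Submodule.add_mem_iff_left _ (W.smul_mem _ hxW)).1 hmem) hy
        · obtain ⟨i, rfl⟩ := List.mem_iff_get.1 hZ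
          exact ⟨i, hmem⟩
      choose f hf using hbad
      have hinj : Function.Injective f := by
        intro s t hst
        by_contra hne
        have h1 := (L.get (f s)).sub_mem (hf s) (by rw [hst]; exact hf t)
        have h2 : ((s : K) - t) • x ∈ L.get (f s) := by rw [sub_smul]; simpa using h1
        refine hx _ (List.get_mem L (f s)) ?_
        rwa [Submodule.smul_mem_iff _ (sub_ne_zero.2 fun h => hne (Subtype.ext h))] at h2
      have := Fintype.card_le_of_injective f hinj
      rw [Fintype.card_coe, hT, Fintype.card_fin] at this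
      simp at hlen
      omega
    · exact ⟨x, hxD, fun Z hZ => (List.mem_cons.1 hZ).elim (fun h => h ▸ hxW) (hx Z)⟩

/-- regular unitriangular -/
def IsUp {n : ℕ} (U : Matrix (Fin n) (Fin n) K) : Prop :=
  (∀ i, U i i = 1) ∧ (∀ i j, j < i → U i j = 0) ∧ ∀ i j : Fin n, j.val = i.val + 1 → U i j ≠ 0

/-- add a first row -/
def ucons {m : ℕ} (w : Fin m → K) (U : Matrix (Fin m) (Fin m) K) : Matrix (Fin (m + 1)) (Fin (m + 1)) K :=
  Matrix.of (Fin.cons (Fin.cons 1 w) fun i => Fin.cons 0 (U i))

theorem ucons_apply {m : ℕ} (w : Fin m → K) (U : Matrix (Fin m) (Fin m) K) :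
    ucons w U 0 0 = 1 ∧ (∀ j, ucons w U 0 (Fin.succ j) = w j) ∧ (∀ i, ucons w U (Fin.succ i) 0 = 0) ∧
      ∀ i j, ucons w U (Fin.succ i) (Fin.succ j) = U i j := by
  simp [ucons]

theorem isUp_ucons {m : ℕ} (w : Fin (m + 1) → K) (U : Matrix (Fin (m + 1)) (Fin (m + 1)) K) (hU : IsUp U)
    (hw : w 0 ≠ 0) : IsUp (ucons w U) := by
  obtain ⟨a, b, c, d⟩ := ucons_apply w U
  refine ⟨fun i => ?_, fun i j => ?_, fun i j => ?_⟩
  · cases i using Fin.cases with
    | zero => exact a
    | succ i => rw [d]; exact hU.1 i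
  · cases i using Fin.cases with
    | zero => intro h; exact absurd h (Fin.not_lt_zero j)
    | succ i => cases j using Fin.cases with
      | zero => intro _; exact c i
      | succ j => intro h; rw [d]; exact hU.2.1 i j (Fin.succ_lt_succ_iff.1 h)
  · cases j using Fin.cases with
    | zero => intro h; simp at h
    | succ j => cases i using Fin.cases with
      | zero => intro h; rw [b]; rw [show j = 0 from Fin.ext (by simpa using h)]; exact hw
      | succ i => intro h; rw [d]; exact hU.2.2 i j (by simpa using h)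

theorem ucons_mul {m : ℕ} (l w : Fin m → K) (L U : Matrix (Fin m) (Fin m) K) :
    let M := (ucons l Lᵀ)ᵀ * ucons w U
    M 0 0 = 1 ∧ (∀ j, M 0 (Fin.succ j) = w j) ∧ (∀ i, M (Fin.succ i) 0 = l i) ∧
      ∀ i j, M (Fin.succ i) (Fin.succ j) = (L * U) i j + l i * w j := by
  obtain ⟨a, b, c, d⟩ := ucons_apply w U
  obtain ⟨a', b', c', d'⟩ := ucons_apply l Lᵀ
  simp [Matrix.mul_apply, Fin.sum_univ_succ, a, b, c, d, a', b', c', d', add_comm]

theorem det_ucons {m : ℕ} (w : Fin m → K) (U : Matrix (Fin m) (Fin m) K) : (ucons w U).det = U.det := by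
  obtain ⟨a, -, c, d⟩ := ucons_apply w U
  rw [Matrix.det_succ_column_zero, Fin.sum_univ_succ, Finset.sum_eq_zero fun i _ => by rw [c]; ring]
  have : (ucons w U).submatrix (Fin.succAbove 0) Fin.succ = U := by
    ext i j; simp [d]
  rw [a, this]; simp

section Lin

theorem span1 {V : Type v} [AddCommGroup V] [Module K V] (x : V) : finrank K (Submodule.span K ({x} : Set V)) ≤ 1 := by
  have := finrank_span_le_card (R := K) ({x} : Set V)
  simpa using this

variable {V : Type v} [AddCommGroup V] [Module K V] [FiniteDimensional K V]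

theorem ker_decomp (φ : Dual K V) {v : V} (hv : φ v = 1) (z : V) : z - φ z • v ∈ LinearMap.ker φ := by
  simp [hv]

/-- basis adapted to a splitting -/
noncomputable def cbasis {m : ℕ} (φ : Dual K V) {v : V} (hv : φ v = 1) (b : Basis (Fin m) K (LinearMap.ker φ)) :
    Basis (Fin (m + 1)) K V :=
  Basis.mkFinCons v b
    (fun c x hx h => by
      have := congrArg φ h
      rw [map_add, map_smul, hv, LinearMap.mem_ker.1 hx, map_zero, add_zero, smul_eq_mul, mul_one] at this
      exact this)
    (fun z => ⟨-φ z, by simp [hv]⟩)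

theorem cbasis_apply {m : ℕ} (φ : Dual K V) {v : V} (hv : φ v = 1) (b : Basis (Fin m) K (LinearMap.ker φ)) :
    cbasis φ hv b 0 = v ∧ ∀ i, cbasis φ hv b (Fin.succ i) = (b i : V) := by
  have h : (cbasis φ hv b : Fin (m + 1) → V) = Fin.cons v ((↑) ∘ b) := Basis.coe_mkFinCons ..
  constructor
  · rw [h]; rfl
  · intro i; rw [h]; simp

theorem cbasis_repr {m : ℕ} (φ : Dual K V) {v : V} (hv : φ v = 1) (b : Basis (Fin m) K (LinearMap.ker φ)) (z : V) :
    (cbasis φ hv b).repr z 0 = φ z ∧
      ∀ i, (cbasis φ hv b).repr z (Fin.succ i) = b.repr ⟨z - φ z • v, ker_decomp φ hv z⟩ i := by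
  obtain ⟨h0, hs⟩ := cbasis_apply φ hv b
  have key : (cbasis φ hv b).equivFun z =
      Fin.cons (φ z) (b.equivFun ⟨z - φ z • v, ker_decomp φ hv z⟩) := by
    apply (cbasis φ hv b).equivFun.symm.injective
    rw [LinearEquiv.symm_apply_apply, Basis.equivFun_symm_apply, Fin.sum_univ_succ]
    simp only [Fin.cons_zero, Fin.cons_succ, h0, hs]
    have h2 := congrArg Subtype.val (b.sum_equivFun ⟨z - φ z • v, ker_decomp φ hv z⟩)
    rw [Submodule.coe_sum] at h2
    simp only [Submodule.coe_smul] at h2
    rw [h2]; abel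
  exact ⟨congrFun key 0, fun i => congrFun key (Fin.succ i)⟩

/-- Schur complement -/
def schur (A : V →ₗ[K] V) (φ : Dual K V) (v : V) (hAv : φ (A v) = 1) : LinearMap.ker φ →ₗ[K] LinearMap.ker φ :=
  LinearMap.codRestrict _ ((A - (φ.comp A).smulRight (A v)).comp (LinearMap.ker φ).subtype) fun w => by
    simp [hAv]

theorem schur_apply (A : V →ₗ[K] V) (φ : Dual K V) (v : V) (hAv : φ (A v) = 1) (w : LinearMap.ker φ) :
    (schur A φ v hAv w : V) = A w - φ (A w) • A v := rfl

theorem schur_matrix (A : V →ₗ[K] V) (φ : Dual K V) {v : V} (hv : φ v = 1) (hAv : φ (A v) = 1) {m : ℕ}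
    (b : Basis (Fin m) K (LinearMap.ker φ)) (L U : Matrix (Fin m) (Fin m) K)
    (h : LinearMap.toMatrix b b (schur A φ v hAv) = L * U) :
    LinearMap.toMatrix (cbasis φ hv b) (cbasis φ hv b) A =
      (ucons (fun i => b.repr ⟨A v - v, by simp [hv, hAv]⟩ i) Lᵀ)ᵀ * ucons (fun j => φ (A (b j))) U := by
  obtain ⟨a, r, c, d⟩ := ucons_mul (fun i => b.repr ⟨A v - v, by simp [hv, hAv]⟩ i) (fun j => φ (A (b j))) L U
  obtain ⟨h0, hs⟩ := cbasis_apply φ hv b
  ext i j
  rw [LinearMap.toMatrix_apply]
  cases j using Fin.cases with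
  | zero =>
    rw [h0]
    cases i using Fin.cases with
    | zero => rw [(cbasis_repr φ hv b _).1]; exact hAv.trans a.symm
    | succ i =>
      rw [(cbasis_repr φ hv b _).2, c]
      congr 2
      apply Subtype.ext
      simp [hAv]
  | succ j =>
    rw [hs]
    cases i using Fin.cases with
    | zero => rw [(cbasis_repr φ hv b _).1, r]
    | succ i =>
      rw [(cbasis_repr φ hv b _).2, d, ← h, LinearMap.toMatrix_apply]
      have : (⟨A (b j : V) - φ (A (b j : V)) • v, ker_decomp φ hv _⟩ : LinearMap.ker φ) =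
          schur A φ v hAv (b j) + φ (A (b j : V)) • ⟨A v - v, by simp [hv, hAv]⟩ := by
        apply Subtype.ext
        simp only [Submodule.coe_add, Submodule.coe_smul, schur_apply, smul_sub]
        abel
      rw [this, map_add, map_smul, Finsupp.add_apply, Finsupp.smul_apply, smul_eq_mul]
      ring

theorem finrank_ker_dual {φ : Dual K V} {v : V} (hv : φ v = 1) {k : ℕ} (hk : finrank K V = k + 1) :
    finrank K (LinearMap.ker φ) = k := by
  have h := LinearMap.finrank_range_add_finrank_ker φ
  have hr : LinearMap.range φ = ⊤ := LinearMap.range_eq_top.2 fun c => ⟨c • v, by simp [hv]⟩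
  rw [hr, finrank_top, Module.finrank_self, hk] at h
  omega

theorem det_schur (A : V →ₗ[K] V) (φ : Dual K V) {v : V} (hv : φ v = 1) (hAv : φ (A v) = 1)
    (hdet : LinearMap.det A = 1) : LinearMap.det (schur A φ v hAv) = 1 := by
  obtain ⟨k, hk⟩ : ∃ k, finrank K V = k + 1 := by
    refine ⟨finrank K V - 1, ?_⟩
    have : 0 < finrank K V := Module.finrank_pos_iff_exists_ne_zero.2 ⟨v, fun h => by simp [h] at hv⟩
    omega
  let b := Module.finBasisOfFinrankEq K (LinearMap.ker φ) (finrank_ker_dual hv hk)
  have hM := schur_matrix A φ hv hAv b 1 (LinearMap.toMatrix b b (schur A φ v hAv)) (one_mul _).symm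
  have := congrArg Matrix.det hM
  rw [LinearMap.det_toMatrix, hdet, Matrix.det_mul, Matrix.det_transpose, det_ucons, det_ucons, Matrix.transpose_one,
    Matrix.det_one, one_mul, LinearMap.det_toMatrix] at this
  exact this.symm

theorem third (hdim : finrank K V = 3) (A : V →ₗ[K] V) (hdet : LinearMap.det A = 1) {p q : V} {a b c d : K}
    (hli : LinearIndependent K ![p, q]) (hp : A p = a • p + b • q) (hq : A q = c • p + d • q)
    (hd : a * d - b * c = 1) : LinearMap.range (A - LinearMap.id) ≤ Submodule.span K {p, q} := by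
  set P := Submodule.span K ({p, q} : Set V) with hPdef
  have hpP : p ∈ P := Submodule.subset_span (by simp)
  have hqP : q ∈ P := Submodule.subset_span (by simp)
  rintro _ ⟨z, rfl⟩
  rw [LinearMap.sub_apply, LinearMap.id_apply]
  by_cases hz : z ∈ P
  · obtain ⟨s, t, rfl⟩ := Submodule.mem_span_pair.1 hz
    rw [map_add, map_smul, map_smul, hp, hq]
    exact P.sub_mem (P.add_mem (P.smul_mem _ (P.add_mem (P.smul_mem _ hpP) (P.smul_mem _ hqP)))
      (P.smul_mem _ (P.add_mem (P.smul_mem _ hpP) (P.smul_mem _ hqP)))) (P.add_mem (P.smul_mem _ hpP) (P.smul_mem _ hqP))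
  have hli3 : LinearIndependent K ![p, q, z] := by
    rw [Fintype.linearIndependent_iff]
    intro g hg
    rw [Fin.sum_univ_three] at hg
    simp at hg
    have h2 : g 2 = 0 := by
      by_contra h
      refine hz ?_
      have : z = (g 2)⁻¹ • -(g 0 • p + g 1 • q) := by
        rw [show -(g 0 • p + g 1 • q) = g 2 • z from neg_eq_of_add_eq_zero_right hg, smul_smul, inv_mul_cancel₀ h,
          one_smul]
      rw [this]
      exact P.smul_mem _ (P.neg_mem (P.add_mem (P.smul_mem _ hpP) (P.smul_mem _ hqP)))
    rw [h2, zero_smul, add_zero] at hg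
    obtain ⟨h0, h1⟩ := LinearIndependent.pair_iff.1 hli _ _ hg
    intro i
    fin_cases i
    exacts [h0, h1, h2]
  let B := basisOfLinearIndependentOfCardEqFinrank hli3 (by simp [hdim])
  have hB : (B : Fin 3 → V) = ![p, q, z] := coe_basisOfLinearIndependentOfCardEqFinrank _ _
  have hz' : A z = B.repr (A z) 0 • p + B.repr (A z) 1 • q + B.repr (A z) 2 • z := by
    conv_lhs => rw [← B.sum_repr (A z)]
    rw [Fin.sum_univ_three, hB]; simp
  have h00 : B.repr (A p) = a • Finsupp.single 0 1 + b • Finsupp.single 1 1 := by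
    rw [hp, show p = B 0 by rw [hB]; rfl, show q = B 1 by rw [hB]; rfl]; simp
  have h11 : B.repr (A q) = c • Finsupp.single 0 1 + d • Finsupp.single 1 1 := by
    rw [hq, show p = B 0 by rw [hB]; rfl, show q = B 1 by rw [hB]; rfl]; simp
  have hγ := LinearMap.det_toMatrix B A
  rw [hdet, Matrix.det_fin_three] at hγ
  simp only [LinearMap.toMatrix_apply, hB, Matrix.cons_val_zero, Matrix.cons_val_one] at hγ
  simp [h00, h11] at hγ
  have hγ1 : B.repr (A z) 2 = 1 := by linear_combination hγ - B.repr (A z) 2 * hd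
  rw [hz', hγ1, one_smul, add_sub_cancel_right]
  exact P.add_mem (P.smul_mem _ hpP) (P.smul_mem _ hqP)

/-- a functional witnessing a scalar Schur complement -/
def Bad (A : V →ₗ[K] V) (v : V) (c : K) (ν : Dual K V) : Prop :=
  ν v = 1 ∧ ∀ h, ν h = 0 → A h - c • h ∈ Submodule.span K {v}

theorem bad_unique {A : V →ₗ[K] V} {v : V} {c : K} {ν μ : Dual K V} (hneig : ∀ c : K, A v ≠ c • v)
    (h1 : Bad A v c ν) (h2 : Bad A v c μ) : μ = ν := by
  have key : ∀ h, ν h = 0 → μ h = 0 := by
    intro h hh
    by_contra hs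
    have e1 := h1.2 h hh
    have e2 := h2.2 (μ h • v - h) (by simp [h2.1])
    have e3 : μ h • (A v - c • v) ∈ Submodule.span K {v} := by
      have : μ h • (A v - c • v) = (A (μ h • v - h) - c • (μ h • v - h)) + (A h - c • h) := by
        rw [map_sub, map_smul, smul_sub, smul_sub, smul_comm (μ h) c v]; abel
      rw [this]; exact Submodule.add_mem _ e2 e1
    rw [Submodule.smul_mem_iff _ hs] at e3
    obtain ⟨t, ht⟩ := Submodule.mem_span_singleton.1 e3
    exact hneig (t + c) (by rw [add_smul, ht, sub_add_cancel])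
  ext z
  have := key (z - ν z • v) (by simp [h1.1])
  rwa [map_sub, map_smul, h2.1, smul_eq_mul, mul_one, sub_eq_zero] at this

theorem exists_v (hK : 4 ≤ Cardinal.mk K) (k : ℕ) (hdim : finrank K V = k + 2) (A : V →ₗ[K] V)
    (hns : ∀ c : K, A ≠ c • LinearMap.id) (hr : 2 ≤ finrank K (LinearMap.range (A - LinearMap.id))) (l : V)
    (u : Dual K V) (hu : u ≠ 0) :
    ∃ v : V, u v ≠ 0 ∧ (∀ c : K, A v ≠ c • v) ∧ A v - v ∉ Submodule.span K {l} ∧
      (finrank K (LinearMap.range (A - LinearMap.id)) < k + 2 → v ∉ LinearMap.range (A - LinearMap.id)) ∧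
      (finrank K (LinearMap.range (A - LinearMap.id)) < k + 2 → k = 1 →
        LinearMap.range (A + LinearMap.id) ≠ ⊤ → v ∉ LinearMap.range (A + LinearMap.id)) := by
  classical
  set N := A - LinearMap.id with hN
  let S := (Submodule.span K {l}).comap N
  have hS : ¬ (⊤ : Submodule K V) ≤ S := by
    intro h
    have : LinearMap.range N ≤ Submodule.span K {l} := by
      rintro _ ⟨z, rfl⟩; exact h (Submodule.mem_top)
    have h1 := (Submodule.finrank_mono this).trans (span1 (l))
    omega
  have hU : ¬ (⊤ : Submodule K V) ≤ LinearMap.ker u := fun h =>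
    hu (LinearMap.ext fun z => LinearMap.mem_ker.1 (h Submodule.mem_top))
  have hprop : ∀ W : Submodule K V, W ≠ ⊤ → ¬ (⊤ : Submodule K V) ≤ W := fun W hW h => hW (top_le_iff.1 h)
  by_cases hlt : finrank K (LinearMap.range N) < k + 2
  · let X : Submodule K V := if LinearMap.range (A + LinearMap.id) ≠ ⊤ then LinearMap.range (A + LinearMap.id) else ⊥
    obtain ⟨v, -, hv⟩ := avoid hK ⊤ [LinearMap.ker u, S, LinearMap.range N, X] (by simp) (by
      intro W hW
      simp only [List.mem_cons, List.not_mem_nil, or_false] at hW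
      rcases hW with rfl | rfl | rfl | rfl
      · exact hU
      · exact hS
      · refine hprop _ fun h => ?_
        rw [h, finrank_top, hdim] at hlt; omega
      · refine hprop _ ?_
        simp only [X]
        split_ifs with h
        · exact h
        · intro h'
          have := congrArg (fun W : Submodule K V => finrank K W) h'
          simp [hdim] at this)
    have h1 := hv _ List.mem_cons_self
    have h2 := hv S (by simp)
    have h3 := hv (LinearMap.range N) (by simp)
    refine ⟨v, h1, fun c hc => ?_, h2, fun _ => h3, fun _ _ hX => ?_⟩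
    · by_cases hc1 : c = 1
      · refine h2 ?_
        show N v ∈ Submodule.span K {l}
        simp [hN, hc, hc1]
      · refine h3 ⟨(c - 1)⁻¹ • v, ?_⟩
        rw [map_smul, hN, LinearMap.sub_apply, LinearMap.id_apply, hc]
        nth_rw 2 [← one_smul K v]
        rw [← sub_smul, smul_smul, inv_mul_cancel₀ (sub_ne_zero.2 hc1), one_smul]
    · have := hv X (by simp)
      simp only [X, if_pos hX] at this
      exact this
  · by_cases he : ∃ c : K, ∃ z : V, z ≠ 0 ∧ A z = c • z
    · obtain ⟨c0, z, hz, hzc⟩ := he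
      set M := A - c0 • LinearMap.id with hM
      have hMk : LinearMap.ker M ≠ ⊤ := fun h => hns c0 (LinearMap.ext fun w => by
        have := LinearMap.mem_ker.1 (h ▸ Submodule.mem_top : w ∈ LinearMap.ker M)
        rw [hM, LinearMap.sub_apply, sub_eq_zero] at this
        exact this)
      have hMr : LinearMap.range M ≠ ⊤ := fun h => hz (by
        have hinj : Function.Injective M := LinearMap.injective_iff_surjective.2 (LinearMap.range_eq_top.1 h)
        exact hinj (by simp [hM, hzc]))
      obtain ⟨v, -, hv⟩ := avoid hK ⊤ [LinearMap.ker u, S, LinearMap.ker M, LinearMap.range M] (by simp) (by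
        intro W hW
        simp only [List.mem_cons, List.not_mem_nil, or_false] at hW
        rcases hW with rfl | rfl | rfl | rfl
        exacts [hU, hS, hprop _ hMk, hprop _ hMr])
      refine ⟨v, hv _ List.mem_cons_self, fun c hc => ?_, hv S (by simp), fun h => absurd h hlt,
        fun h => absurd h hlt⟩
      by_cases hcc : c = c0
      · exact hv (LinearMap.ker M) (by simp) (by simp [hM, hc, hcc])
      · refine hv (LinearMap.range M) (by simp) ⟨(c - c0)⁻¹ • v, ?_⟩
        rw [map_smul, hM, LinearMap.sub_apply, LinearMap.smul_apply, LinearMap.id_apply, hc, ← sub_smul, smul_smul,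
          inv_mul_cancel₀ (sub_ne_zero.2 hcc), one_smul]
    · push Not at he
      obtain ⟨v, -, hv⟩ := avoid hK ⊤ [LinearMap.ker u, S] (by simp) (by
        intro W hW
        simp only [List.mem_cons, List.not_mem_nil, or_false] at hW
        rcases hW with rfl | rfl
        exacts [hU, hS])
      refine ⟨v, hv _ List.mem_cons_self, fun c hc => ?_, hv S (by simp), fun h => absurd h hlt,
        fun h => absurd h hlt⟩
      exact he c v (fun h => hv _ List.mem_cons_self (by simp [h])) hc

theorem step (hK : 4 ≤ Cardinal.mk K) (k : ℕ) (hdim : finrank K V = k + 2) (A : V →ₗ[K] V)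
    (hdet : LinearMap.det A = 1) (hns : ∀ c : K, A ≠ c • LinearMap.id)
    (hr : 2 ≤ finrank K (LinearMap.range (A - LinearMap.id))) (l : V) (hl : l ≠ 0) (u : Dual K V) (hu : u ≠ 0) :
    ∃ (v : V) (φ : Dual K V) (_ : φ v = 1) (hAv : φ (A v) = 1),
      u v ≠ 0 ∧ φ l ≠ 0 ∧ A v - v ≠ 0 ∧ (φ.comp A).comp (LinearMap.ker φ).subtype ≠ 0 ∧
      (1 ≤ k → (∀ c : K, schur A φ v hAv ≠ c • LinearMap.id) ∧
        2 ≤ finrank K (LinearMap.range (schur A φ v hAv - LinearMap.id))) := by
  classical
  obtain ⟨v, huv, hneig, hS, hvR, hvX⟩ := exists_v hK k hdim A hns hr l u hu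
  set N := A - LinearMap.id with hN
  set r := finrank K (LinearMap.range N) with hrdef
  have hv0 : v ≠ 0 := fun h => huv (by simp [h])
  have hinjA : Function.Injective A := by
    have hu' : IsUnit (LinearMap.det A) := by rw [hdet]; exact isUnit_one
    rw [← LinearMap.ker_eq_bot]
    by_contra h
    exact hu'.ne_zero (LinearMap.det_eq_zero_iff_ker_ne_bot.2 h)
  let e := LinearEquiv.ofInjectiveEndo A hinjA
  have he : ∀ z, A (e.symm z) = z := fun z => e.apply_symm_apply z
  have he' : ∀ z, e.symm (A z) = z := fun z => e.symm_apply_apply z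
  have hrk := LinearMap.finrank_range_add_finrank_ker N
  rw [hdim, ← hrdef] at hrk
  set y := e.symm v with hy
  have hAy : A y = v := he v
  set D := (Submodule.span K {v - y}).dualAnnihilator with hD
  have hD' : ∀ W : Submodule K V, ¬ W ≤ Submodule.span K {v - y} → ¬ D ≤ W.dualAnnihilator := fun W hW h =>
    hW (Subspace.dualAnnihilator_le_dualAnnihilator_iff.1 h)
  have hvy : ∀ t : K, v ≠ t • (v - y) := by
    intro t ht
    have := congrArg A ht
    rw [map_smul, map_sub, hAy] at this
    by_cases ht1 : 1 - t = 0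
    · rw [sub_eq_zero] at ht1
      rw [← ht1, one_smul] at this
      exact hv0 (sub_eq_self.1 this.symm)
    · refine hneig (-t / (1 - t)) ?_
      have h' : (1 - t) • A v = (-t) • v := by
        rw [sub_smul, one_smul, neg_smul]; nth_rw 1 [this]; rw [smul_sub]; abel
      rw [← inv_smul_smul₀ ht1 (A v), h', smul_smul, div_eq_inv_mul]
  have hNy : N y = v - y := by simp [hN, hAy]
  -- the obstruction subspaces of the dual
  let C : Finset K := (Polynomial.nthRootsFinset (k + 1) (1 : K)).erase 1
  let f : K → Dual K V := fun c => if h : ∃ ν, Bad A v c ν then h.choose else 0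
  let Ws : Submodule K (Dual K V) := Submodule.span K ↑(C.image f)
  have hWs : ¬ D ≤ Ws := by
    intro h
    have h1 := Submodule.finrank_mono h
    have h2 : finrank K Ws ≤ C.card := (finrank_span_finset_le_card (C.image f)).trans Finset.card_image_le
    have h3 : C.card ≤ k := by
      have hone : (1 : K) ∈ Polynomial.nthRootsFinset (k + 1) (1 : K) :=
        (Polynomial.mem_nthRootsFinset (Nat.succ_pos k) 1).2 (one_pow _)
      have : (Polynomial.nthRootsFinset (k + 1) (1 : K)).card ≤ k + 1 := by
        rw [Polynomial.nthRootsFinset_def]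
        exact (Multiset.toFinset_card_le _).trans (Polynomial.card_nthRoots _ _)
      simp only [C, Finset.card_erase_of_mem hone]
      omega
    have h4 := Subspace.finrank_add_finrank_dualAnnihilator_eq (Submodule.span K {v - y})
    rw [← hD, finrank_span_singleton (sub_ne_zero.2 fun h => hneig 1 (by rw [one_smul]; nth_rw 1 [h]; exact hAy)),
      hdim] at h4
    omega
  let L3 : Submodule K (Dual K V) :=
    if r < k + 2 then (LinearMap.range N).dualAnnihilator
    else if k = 1 then ((Submodule.span K {v}).comap N).dualAnnihilator else ⊥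
  let L4 : Submodule K (Dual K V) := if r = 2 ∧ r < k + 2 then (LinearMap.ker N).dualAnnihilator else Ws
  have hL3 : ¬ D ≤ L3 := by
    simp only [L3]
    split_ifs with h1 h2
    · refine hD' _ fun h => ?_
      have := (Submodule.finrank_mono h).trans (span1 (v - y))
      omega
    · refine hD' _ fun h => ?_
      have hker : LinearMap.ker N = ⊥ := Submodule.finrank_eq_zero.1 (by omega)
      obtain ⟨x, hx⟩ := LinearMap.range_eq_top.1 (Submodule.eq_top_of_finrank_eq (S := LinearMap.range N) (by omega)) v
      obtain ⟨t, ht⟩ := Submodule.mem_span_singleton.1 (h (show x ∈ (Submodule.span K {v}).comap N from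
        Submodule.mem_comap.2 (by rw [hx]; exact Submodule.mem_span_singleton_self v)))
      have e1 : v = t • (A v - v - (v - y)) := by
        nth_rw 1 [← hx]
        rw [← ht, map_smul, map_sub, hNy]; simp [hN]
      have ht0 : t ≠ 0 := fun h0 => hv0 (by rw [e1, h0, zero_smul])
      have hAv : A v = (-1 : K) • y + (t⁻¹ + 2) • v := by
        have e2 : t⁻¹ • v = A v - v - (v - y) := by
          nth_rw 1 [e1]; rw [smul_smul, inv_mul_cancel₀ ht0, one_smul]
        rw [add_smul, e2, two_smul, neg_one_smul]; abel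
      have hli : LinearIndependent K ![y, v] := by
        rw [LinearIndependent.pair_iff]
        intro a b hab
        have h' := congrArg A hab
        rw [map_add, map_smul, map_smul, hAy, map_zero] at h'
        by_cases hb : b = 0
        · rw [hb, zero_smul, add_zero] at h'
          exact ⟨(smul_eq_zero.1 h').resolve_right hv0, hb⟩
        · refine absurd ?_ (hneig (-(a / b)))
          rw [← one_smul K (A v), ← inv_mul_cancel₀ hb, mul_smul, eq_neg_of_add_eq_zero_right h', smul_neg, smul_smul,
            neg_smul, div_eq_inv_mul]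
      have := third (by omega) A hdet hli (a := 0) (b := 1) (c := -1) (d := t⁻¹ + 2)
        (by rw [hAy]; simp) hAv (by ring)
      have h5 := Submodule.finrank_mono (show LinearMap.range N ≤ _ from this)
      have h6 := finrank_span_le_card (R := K) ({y, v} : Set V)
      have h7 : ({y, v} : Set V).toFinset.card ≤ 2 := by simp; exact Finset.card_le_two
      omega
    · intro h
      have h0 := Submodule.finrank_mono h
      have h4 := Subspace.finrank_add_finrank_dualAnnihilator_eq (Submodule.span K {v - y})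
      have h5 := finrank_span_le_card (R := K) ({v - y} : Set V)
      rw [← hD, hdim] at h4
      simp at h5
      rw [finrank_bot] at h0
      omega
  have hL4 : ¬ D ≤ L4 := by
    simp only [L4]
    split_ifs with h1
    · refine hD' _ fun h => ?_
      have hle := Submodule.finrank_mono h
      have hs1 := (finrank_span_le_card (R := K) ({v - y} : Set V))
      simp at hs1
      have heq := Submodule.eq_of_le_of_finrank_le h (by omega)
      have hk0 : N (v - y) = 0 := LinearMap.mem_ker.1 (heq ▸ Submodule.mem_span_singleton_self (v - y))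
      rw [map_sub, hNy, sub_eq_zero] at hk0
      have hq : N (N v) = 0 := by rw [hk0, map_sub, hk0, hNy, sub_self]
      have hli : LinearIndependent K ![v, N v] := by
        rw [LinearIndependent.pair_iff]
        intro a b hab
        by_cases hb : b = 0
        · rw [hb, zero_smul, add_zero] at hab
          exact ⟨(smul_eq_zero.1 hab).resolve_right hv0, hb⟩
        · refine absurd ?_ (hneig (1 - a / b))
          have : N v = -((a / b) • v) := by
            rw [← one_smul K (N v), ← inv_mul_cancel₀ hb, mul_smul, eq_neg_of_add_eq_zero_right hab, smul_neg,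
              smul_smul, div_eq_inv_mul]
          rw [hN, LinearMap.sub_apply, LinearMap.id_apply, sub_eq_iff_eq_add] at this
          rw [this, sub_smul, one_smul]; abel
      have hle2 : LinearMap.range N ≤ Submodule.span K {v, N v} := third (by omega) A hdet hli (a := 1) (b := 1) (c := 0) (d := 1)
        (by simp [hN]) (by
          rw [hN, LinearMap.sub_apply, LinearMap.id_apply, sub_eq_zero] at hq
          rw [zero_smul, zero_add, one_smul]
          exact hq) (by ring)
      have h6 := finrank_span_le_card (R := K) ({v, N v} : Set V)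
      have h7 : ({v, N v} : Set V).toFinset.card ≤ 2 := by simp; exact Finset.card_le_two
      have := Submodule.eq_of_le_of_finrank_le hle2 (by omega)
      exact hvR h1.2 (this ▸ Submodule.subset_span (by simp : v ∈ ({v, N v} : Set V)))
    · exact hWs
  obtain ⟨ν0, hν0D, hν0⟩ := avoid hK D
    [(Submodule.span K {v}).dualAnnihilator, (Submodule.span K {e.symm l}).dualAnnihilator, L3, L4] (by simp) (by
    intro W hW
    simp only [List.mem_cons, List.not_mem_nil, or_false] at hW
    rcases hW with rfl | rfl | rfl | rfl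
    · refine hD' _ fun h => ?_
      obtain ⟨t, ht⟩ := Submodule.mem_span_singleton.1 (h (Submodule.mem_span_singleton_self v))
      exact hvy t ht.symm
    · refine hD' _ fun h => ?_
      obtain ⟨t, ht⟩ := Submodule.mem_span_singleton.1 (h (Submodule.mem_span_singleton_self (e.symm l)))
      have h' := congrArg A ht
      rw [map_smul, map_sub, hAy, he] at h'
      have ht0 : t ≠ 0 := fun h0 => hl (by rw [← h', h0, zero_smul])
      exact hS (Submodule.mem_span_singleton.2 ⟨t⁻¹, by rw [← h', smul_smul, inv_mul_cancel₀ ht0, one_smul]⟩)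
    · exact hL3
    · exact hL4)
  have hs : ν0 v ≠ 0 := by
    intro h
    refine hν0 _ List.mem_cons_self ((Submodule.mem_dualAnnihilator _).2 fun w hw => ?_)
    obtain ⟨t, rfl⟩ := Submodule.mem_span_singleton.1 hw
    rw [map_smul, h, smul_zero]
  set ν := (ν0 v)⁻¹ • ν0 with hνdef
  have hνv : ν v = 1 := by simp [hνdef, hs]
  have hνnot : ∀ W ∈ [(Submodule.span K {v}).dualAnnihilator, (Submodule.span K {e.symm l}).dualAnnihilator, L3, L4],
      ν ∉ W := fun W hW h => hν0 W hW (by rwa [hνdef, Submodule.smul_mem_iff _ (inv_ne_zero hs)] at h)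
  have hνy : ν y = 1 := by
    have := (Submodule.mem_dualAnnihilator _).1 hν0D _ (Submodule.mem_span_singleton_self (v - y))
    rw [map_sub, sub_eq_zero] at this
    rw [← hνv]; simp [hνdef, this]
  let φ : Dual K V := ν.comp e.symm.toLinearMap
  have hφA : ∀ z, φ (A z) = ν z := fun z => by show ν (e.symm (A z)) = ν z; rw [he']
  have hφv : φ v = 1 := hνy
  have hAv : φ (A v) = 1 := by rw [hφA, hνv]
  have hφl : φ l ≠ 0 := fun h => hνnot (Submodule.span K {e.symm l}).dualAnnihilator (by simp) ((Submodule.mem_dualAnnihilator _).2 fun w hw => by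
    obtain ⟨t, rfl⟩ := Submodule.mem_span_singleton.1 hw
    show ν (t • e.symm l) = 0
    rw [map_smul, show ν (e.symm l) = 0 from h, smul_zero])
  have hνR : ¬ (∀ z, ν (N z) = 0) := by
    intro h
    by_cases h1 : r < k + 2
    · refine hνnot L3 (by simp) ?_
      simp only [L3, if_pos h1]
      exact (Submodule.mem_dualAnnihilator _).2 (by rintro _ ⟨z, rfl⟩; exact h z)
    · obtain ⟨z, hz⟩ := LinearMap.range_eq_top.1 (Submodule.eq_top_of_finrank_eq (S := LinearMap.range N) (by omega)) v
      exact one_ne_zero (hνv.symm.trans (hz ▸ h z))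
  refine ⟨v, φ, hφv, hAv, huv, hφl, sub_ne_zero.2 fun h => hneig 1 (by rw [one_smul]; exact h), fun h => hνR ?_, ?_⟩
  · intro z
    have key : ∀ z, ν z = φ z := fun z => by
      have := LinearMap.congr_fun h ⟨z - φ z • v, ker_decomp φ hφv z⟩
      simp [hφA, hνv, sub_eq_zero] at this
      exact this
    rw [hN, LinearMap.sub_apply, LinearMap.id_apply, map_sub, key (A z), hφA, sub_self]
  intro hk
  have hH : ∀ h, ν h = 0 → ∃ w : LinearMap.ker φ, (w : V) = h - φ h • v ∧
      (schur A φ v hAv w : V) = A h := by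
    intro h hh
    refine ⟨⟨h - φ h • v, ker_decomp φ hφv h⟩, rfl, ?_⟩
    rw [schur_apply]
    simp [hφA, hh, hνv]
  have hrank : 2 ≤ finrank K (LinearMap.range (schur A φ v hAv - LinearMap.id)) := by
    by_contra hlt
    set R := (LinearMap.range (schur A φ v hAv - LinearMap.id)).map (LinearMap.ker φ).subtype with hR
    have hRd : finrank K R ≤ 1 := by
      rw [hR, Submodule.finrank_map_subtype_eq]; omega
    set Q := R ⊔ Submodule.span K {v} with hQ
    have hQd : finrank K Q ≤ 2 := by
      refine (Submodule.finrank_add_le_finrank_add_finrank R (Submodule.span K {v})).trans ?_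
      rw [finrank_span_singleton hv0]; omega
    set Z := (LinearMap.ker ν).map N with hZ
    have hZQ : Z ≤ Q := by
      rintro _ ⟨h, hh, rfl⟩
      obtain ⟨w, hw, hAw⟩ := hH h hh
      have : N h = ((schur A φ v hAv - LinearMap.id : LinearMap.ker φ →ₗ[K] LinearMap.ker φ) w : V) + (-φ h) • v := by
        simp [hN, hAw, hw]; abel
      rw [this]
      exact Submodule.add_mem_sup (Submodule.mem_map_of_mem (LinearMap.mem_range_self _ w))
        (Submodule.mem_span_singleton.2 ⟨_, rfl⟩)
    have hZR : Z ≤ LinearMap.range N := LinearMap.map_le_range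
    by_cases h1 : r < k + 2
    · have hvZ : v ∉ Z := fun h => hvR h1 (hZR h)
      have hlt' : Z < Q := lt_of_le_of_ne hZQ fun h => hvZ (h ▸ Submodule.mem_sup_right (Submodule.mem_span_singleton_self v))
      have hZ1 := (Submodule.finrank_lt_finrank_of_lt hlt').trans_le hQd
      by_cases h2 : r = 2
      · obtain ⟨h0, hh0, hh0'⟩ : ∃ h0 ∈ LinearMap.ker N, ν h0 ≠ 0 := by
          by_contra hno
          push Not at hno
          refine hνnot L4 (by simp) ?_
          simp only [L4, if_pos (And.intro h2 h1)]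
          exact (Submodule.mem_dualAnnihilator _).2 hno
        have : LinearMap.range N ≤ Z := by
          rintro _ ⟨z, rfl⟩
          refine ⟨z - (ν z / ν h0) • h0, ?_, ?_⟩
          · simp [hh0']
          · rw [map_sub, map_smul, LinearMap.mem_ker.1 hh0, smul_zero, sub_zero]
        have := Submodule.finrank_mono this
        omega
      · have : LinearMap.range N ≤ Z ⊔ Submodule.span K {N v} := by
          rintro _ ⟨z, rfl⟩
          rw [show N z = N (z - ν z • v) + ν z • N v by rw [map_sub, map_smul, sub_add_cancel]]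
          exact Submodule.add_mem_sup (Submodule.mem_map_of_mem (by simp [hνv]))
            (Submodule.mem_span_singleton.2 ⟨_, rfl⟩)
        have h3 := (Submodule.finrank_mono this).trans (Submodule.finrank_add_le_finrank_add_finrank _ _)
        have h4 := finrank_span_le_card (R := K) ({N v} : Set V)
        simp at h4
        omega
    · have hker : LinearMap.ker N = ⊥ := Submodule.finrank_eq_zero.1 (by omega)
      have hZd : finrank K Z = k + 1 := by
        rw [hZ, LinearEquiv.finrank_eq (Submodule.equivMapOfInjective N (LinearMap.ker_eq_bot.1 hker) _).symm]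
        exact finrank_ker_dual hνv hdim
      have hk1 : k = 1 := by have := Submodule.finrank_mono hZQ; omega
      have hZeq := Submodule.eq_of_le_of_finrank_le hZQ (by omega)
      obtain ⟨h, hh, hNh⟩ : v ∈ Z := hZeq ▸ Submodule.mem_sup_right (Submodule.mem_span_singleton_self v)
      refine hνnot L3 (by simp) ?_
      simp only [L3, if_neg h1, if_pos hk1]
      refine (Submodule.mem_dualAnnihilator _).2 fun x hx => ?_
      obtain ⟨t, ht⟩ := Submodule.mem_span_singleton.1 (Submodule.mem_comap.1 hx)
      have : x = t • h := LinearMap.ker_eq_bot.1 hker (by rw [map_smul, hNh, ht])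
      rw [this, map_smul, LinearMap.mem_ker.1 hh, smul_zero]
  refine ⟨fun c hc => ?_, hrank⟩
  have hc1 : c ≠ 1 := by
    rintro rfl
    rw [hc, one_smul, sub_self, LinearMap.range_zero, finrank_bot] at hrank
    omega
  have hcp : c ^ (k + 1) = 1 := by
    have := det_schur A φ hφv hAv hdet
    rw [hc, LinearMap.det_smul, LinearMap.det_id, mul_one, finrank_ker_dual hφv hdim] at this
    exact this
  have hbad : ∀ h, ν h = 0 → A h - c • h ∈ Submodule.span K {v} := by
    intro h hh
    obtain ⟨w, hw, hAw⟩ := hH h hh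
    rw [← hAw, hc]
    simp [hw, smul_sub]
    exact Submodule.mem_span_singleton.2 ⟨c * φ h, by simp [smul_smul]⟩
  by_cases h12 : r = 2 ∧ r < k + 2
  · obtain ⟨h2, h1⟩ := h12
    have hinj : Function.Injective (ν.comp (LinearMap.ker N).subtype) := by
      rw [← LinearMap.ker_eq_bot, Submodule.eq_bot_iff]
      rintro ⟨h, hhN⟩ hh
      have hh' : ν h = 0 := hh
      have hA : A h = h := by simpa [hN, sub_eq_zero] using LinearMap.mem_ker.1 hhN
      have := hbad h hh'
      rw [hA, show h - c • h = (1 - c) • h by rw [sub_smul, one_smul],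
        Submodule.smul_mem_iff _ (sub_ne_zero.2 (Ne.symm hc1))] at this
      obtain ⟨t, ht⟩ := Submodule.mem_span_singleton.1 this
      rw [← ht, map_smul, hνv, smul_eq_mul, mul_one] at hh'
      apply Subtype.ext
      show h = 0
      rw [← ht, hh', zero_smul]
    have hk1 : k = 1 := by
      have := LinearMap.finrank_le_finrank_of_injective hinj
      rw [Module.finrank_self] at this
      omega
    subst hk1
    have hcm : c = -1 := (sq_eq_one_iff.1 hcp).resolve_left hc1
    subst hcm
    have hplus : ∀ z, A z - (-1 : K) • z = (A + LinearMap.id : V →ₗ[K] V) z := fun z => by simp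
    have hHd : finrank K (LinearMap.ker ν) = 2 := finrank_ker_dual hνv hdim
    have htop : LinearMap.range (A + LinearMap.id) ≠ ⊤ := by
      intro h
      have hi : Function.Injective (A + LinearMap.id : V →ₗ[K] V) :=
        LinearMap.injective_iff_surjective.2 (LinearMap.range_eq_top.1 h)
      have : (LinearMap.ker ν).map (A + LinearMap.id) ≤ Submodule.span K {v} := by
        rintro _ ⟨z, hz, rfl⟩; rw [← hplus]; exact hbad z hz
      have := Submodule.finrank_mono this
      rw [← LinearEquiv.finrank_eq (Submodule.equivMapOfInjective _ hi _), hHd, finrank_span_singleton hv0] at this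
      omega
    have hHR : LinearMap.ker ν ≤ LinearMap.range N := by
      intro z hz
      obtain ⟨t, ht⟩ := Submodule.mem_span_singleton.1 (hbad z hz)
      have ht0 : t = 0 := by
        by_contra ht0
        refine hvX h1 rfl htop ⟨t⁻¹ • z, ?_⟩
        rw [map_smul, ← hplus, ← ht, smul_smul, inv_mul_cancel₀ ht0, one_smul]
      rw [ht0, zero_smul] at ht
      have h20 : (-1 : K) - 1 ≠ 0 := sub_ne_zero.2 hc1
      refine ⟨((-1 : K) - 1)⁻¹ • z, ?_⟩
      rw [map_smul, hN, LinearMap.sub_apply, LinearMap.id_apply, sub_eq_zero.1 ht.symm]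
      nth_rw 2 [← one_smul K z]
      rw [← sub_smul, smul_smul, inv_mul_cancel₀ h20, one_smul]
    have := Submodule.eq_of_le_of_finrank_le hHR (by omega)
    exact hνR fun z => LinearMap.mem_ker.1 (this ▸ LinearMap.mem_range_self N z)
  · refine hνnot L4 (by simp) ?_
    simp only [L4, if_neg h12]
    have hex : ∃ μ, Bad A v c μ := ⟨ν, hνv, hbad⟩
    have : f c = ν := by
      simp only [f, dif_pos hex]
      exact bad_unique hneig ⟨hνv, hbad⟩ hex.choose_spec
    rw [← this]
    refine Submodule.subset_span (Finset.mem_coe.2 (Finset.mem_image_of_mem f ?_))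
    exact Finset.mem_erase.2 ⟨hc1, (Polynomial.mem_nthRootsFinset (Nat.succ_pos k) 1).2 hcp⟩

end Lin

theorem factor (hK : 4 ≤ Cardinal.mk K) : ∀ (k : ℕ) (V : Type v) [AddCommGroup V] [Module K V] [FiniteDimensional K V],
    finrank K V = k + 1 → ∀ A : V →ₗ[K] V, LinearMap.det A = 1 →
    (1 ≤ k → (∀ c : K, A ≠ c • LinearMap.id) ∧ 2 ≤ finrank K (LinearMap.range (A - LinearMap.id))) →
    ∀ (l : V), l ≠ 0 → ∀ (u : Dual K V), u ≠ 0 →
    ∃ (b : Basis (Fin (k + 1)) K V) (L U : Matrix (Fin (k + 1)) (Fin (k + 1)) K),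
      IsUp Lᵀ ∧ IsUp U ∧ LinearMap.toMatrix b b A = L * U ∧ b.repr l 0 ≠ 0 ∧ u (b 0) ≠ 0 := by
  intro k
  induction k with
  | zero =>
    intro V _ _ _ hdim A hdet _ l hl u hu
    let b := Module.finBasisOfFinrankEq K V hdim
    have h1 : IsUp (1 : Matrix (Fin 1) (Fin 1) K) :=
      ⟨fun i => Matrix.one_apply_eq i, fun i j h => absurd h (by simp [Subsingleton.elim i j]),
        fun i j h => absurd h (by omega)⟩
    refine ⟨b, 1, 1, by rwa [Matrix.transpose_one], h1, ?_, fun h => hl ?_, fun h => hu (b.ext fun i => ?_)⟩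
    · rw [one_mul]
      ext i j
      obtain rfl : i = 0 := Fin.ext (by omega)
      obtain rfl : j = 0 := Fin.ext (by omega)
      rw [← Matrix.det_fin_one (LinearMap.toMatrix b b A), LinearMap.det_toMatrix, hdet, Matrix.one_apply_eq]
    · refine b.repr.injective (Finsupp.ext fun i => ?_)
      obtain rfl : i = 0 := Fin.ext (by omega)
      simpa using h
    · obtain rfl : i = 0 := Fin.ext (by omega)
      simpa using h
  | succ k ih =>
    intro V _ _ _ hdim A hdet hgood l hl u hu
    obtain ⟨hns, hr⟩ := hgood (Nat.succ_pos k)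
    obtain ⟨v, φ, hφv, hAv, huv, hφl, hl', hu', hgood'⟩ := step hK k hdim A hdet hns hr l hl u hu
    have hdimW := finrank_ker_dual hφv hdim
    obtain ⟨b, L, U, hL, hU, hM, hb1, hb2⟩ := ih (LinearMap.ker φ) hdimW (schur A φ v hAv)
      (det_schur A φ hφv hAv hdet) hgood' ⟨A v - v, by simp [hφv, hAv]⟩ (fun h => hl' (congrArg Subtype.val h))
      ((φ.comp A).comp (LinearMap.ker φ).subtype) hu'
    refine ⟨cbasis φ hφv b, _, _, ?_, isUp_ucons _ U hU hb2, schur_matrix A φ hφv hAv b L U hM, ?_, ?_⟩
    · rw [Matrix.transpose_transpose]; exact isUp_ucons _ _ hL hb1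
    · rw [(cbasis_repr φ hφv b l).1]; exact hφl
    · rw [(cbasis_apply φ hφv b).1]; exact huv

theorem conj_of_isUp {n : ℕ} (M : Matrix (Fin n) (Fin n) K) (hM : IsUp M) (J : Matrix (Fin n) (Fin n) K)
    (hJ : ∀ i j : Fin n, J i j = if i = j then 1 else if j.val = i.val + 1 then 1 else 0) :
    ∃ x : GL (Fin n) K, M * x = (x : Matrix (Fin n) (Fin n) K) * J := by
  classical
  rcases Nat.eq_zero_or_pos n with rfl | hn
  · exact ⟨1, Subsingleton.elim _ _⟩
  let N := M - 1
  let last : Fin n := ⟨n - 1, by omega⟩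
  let w : ℕ → Fin n → K := fun d => (N ^ d) *ᵥ Pi.single last 1
  have hN : ∀ i j : Fin n, j ≤ i → N i j = 0 := by
    intro i j h
    rcases h.eq_or_lt with rfl | h
    · simp [N, hM.1]
    · simp [N, hM.2.1 i j h, h.ne']
  have hN' : ∀ i j : Fin n, j.val = i.val + 1 → N i j ≠ 0 := by
    intro i j h
    have : i ≠ j := fun e => by subst e; omega
    simp [N, this, hM.2.2 i j h]
  have key : ∀ d (i : Fin n), (n - 1 < i.val + d → w d i = 0) ∧ (i.val + d = n - 1 → w d i ≠ 0) := by
    intro d
    induction d with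
    | zero =>
      intro i
      simp only [w, pow_zero, Matrix.one_mulVec]
      refine ⟨fun h => absurd h (by omega), fun h => ?_⟩
      rw [show i = last from Fin.ext (by simpa [last] using h), Pi.single_eq_same]
      exact one_ne_zero
    | succ d ihd =>
      intro i
      have hs : w (d + 1) i = ∑ j, N i j * w d j := by
        simp only [w, pow_succ', ← Matrix.mulVec_mulVec]; rfl
      constructor
      · intro h
        rw [hs]
        refine Finset.sum_eq_zero fun j _ => ?_
        by_cases hj : j ≤ i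
        · rw [hN i j hj, zero_mul]
        · rw [(ihd j).1 (by rw [Fin.not_le, Fin.lt_def] at hj; omega), mul_zero]
      · intro h
        rw [hs, Finset.sum_eq_single ⟨i.val + 1, by omega⟩]
        · exact mul_ne_zero (hN' _ _ rfl) ((ihd _).2 (by simp; omega))
        · intro j _ hj
          by_cases hj' : j ≤ i
          · rw [hN i j hj', zero_mul]
          · rw [(ihd j).1 (by
              rw [Fin.not_le, Fin.lt_def] at hj'
              have : j.val ≠ i.val + 1 := fun e => hj (Fin.ext e)
              omega), mul_zero]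
        · simp
  let P : Matrix (Fin n) (Fin n) K := Matrix.of fun i j => w (n - 1 - j.val) i
  have hPdet : P.det ≠ 0 := by
    rw [Matrix.det_of_upperTriangular (M := P) (fun i j h => (key (n - 1 - j.val) i).1 (by
      have : j.val < i.val := h
      omega))]
    exact Finset.prod_ne_zero_iff.2 fun i _ => (key _ i).2 (by omega)
  refine ⟨Matrix.GeneralLinearGroup.mkOfDetNeZero P hPdet, ?_⟩
  show M * P = P * J
  have hNP : N * P = P * (J - 1) := by
    ext i j
    have h1 : (N * P) i j = w (n - 1 - j.val + 1) i := by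
      simp only [w, pow_succ', ← Matrix.mulVec_mulVec]; rfl
    have h2 : ∀ k : Fin n, (J - 1) k j = if j.val = k.val + 1 then 1 else 0 := by
      intro k
      rw [Matrix.sub_apply, hJ, Matrix.one_apply]
      by_cases hkj : k = j
      · subst hkj; simp
      · simp [hkj]
    rw [h1, Matrix.mul_apply]
    simp only [h2]
    by_cases hj0 : j.val = 0
    · rw [Finset.sum_eq_zero fun k _ => by rw [if_neg (by omega), mul_zero]]
      exact (key _ i).1 (by omega)
    · rw [Finset.sum_eq_single ⟨j.val - 1, by omega⟩]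
      · rw [if_pos (by simp; omega), mul_one]
        show w _ i = w _ i
        congr 2
        simp; omega
      · intro k _ hk
        rw [if_neg (fun e => hk (Fin.ext (by simp; omega))), mul_zero]
      · simp
  rw [Matrix.sub_mul, Matrix.mul_sub, one_mul, mul_one] at hNP
  exact sub_left_injective hNP

theorem conj_of_isLo {n : ℕ} (L : Matrix (Fin n) (Fin n) K) (hL : IsUp Lᵀ) (J : Matrix (Fin n) (Fin n) K)
    (hJ : ∀ i j : Fin n, J i j = if i = j then 1 else if j.val = i.val + 1 then 1 else 0) :
    ∃ x : GL (Fin n) K, L * x = (x : Matrix (Fin n) (Fin n) K) * J := by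
  let σ : Equiv.Perm (Fin n) := Fin.revPerm
  let M : Matrix (Fin n) (Fin n) K := Matrix.of fun i j => L (Fin.rev i) (Fin.rev j)
  have hM : IsUp M := by
    refine ⟨fun i => hL.1 (Fin.rev i), fun i j h => hL.2.1 (Fin.rev j) (Fin.rev i) (Fin.rev_lt_rev.2 h), fun i j h => ?_⟩
    exact hL.2.2 (Fin.rev j) (Fin.rev i) (by simp [Fin.val_rev]; omega)
  obtain ⟨x, hx⟩ := conj_of_isUp M hM J hJ
  let P : GL (Fin n) K := Matrix.GeneralLinearGroup.mkOfDetNeZero (Equiv.Perm.permMatrix K σ) (by
    rw [Matrix.det_permutation]; rcases Int.units_eq_one_or σ.sign with h | h <;> simp [h])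
  refine ⟨P * x, ?_⟩
  have h1 : L * (P : Matrix (Fin n) (Fin n) K) = (P : Matrix (Fin n) (Fin n) K) * M := by
    ext i j
    show (L * Equiv.Perm.permMatrix K σ) i j = (Equiv.Perm.permMatrix K σ * M) i j
    rw [Equiv.Perm.permMatrix, PEquiv.mul_toMatrix_toPEquiv, PEquiv.toMatrix_toPEquiv_mul]
    show L i (Fin.rev j) = L (Fin.rev (Fin.rev i)) (Fin.rev j)
    rw [Fin.rev_rev]
  rw [Units.val_mul, ← mul_assoc, h1, mul_assoc, hx, ← mul_assoc]

theorem two_factor {n : ℕ} (J g : GL (Fin n) K)
    (hJ : ∀ i j : Fin n, (J : Matrix (Fin n) (Fin n) K) i j = if i = j then 1 else if j.val = i.val + 1 then 1 else 0)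
    (b : Basis (Fin n) K (Fin n → K)) (M₁ M₂ : Matrix (Fin n) (Fin n) K)
    (h1 : ∃ x : GL (Fin n) K, M₁ * x = (x : Matrix (Fin n) (Fin n) K) * J)
    (h2 : ∃ x : GL (Fin n) K, M₂ * x = (x : Matrix (Fin n) (Fin n) K) * J)
    (h : LinearMap.toMatrix b b (Matrix.toLin' (g : Matrix (Fin n) (Fin n) K)) = M₁ * M₂) :
    ∃ x y : GL (Fin n) K, g = (x * J * x⁻¹) * (y * J * y⁻¹) := by
  obtain ⟨x1, hx1⟩ := h1
  obtain ⟨x2, hx2⟩ := h2
  let c := Pi.basisFun K (Fin n)
  let P : GL (Fin n) K := ⟨c.toMatrix b, b.toMatrix c, Basis.toMatrix_mul_toMatrix_flip _ _,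
    Basis.toMatrix_mul_toMatrix_flip _ _⟩
  refine ⟨P * x1, P * x2, Units.ext ?_⟩
  have hg : (g : Matrix (Fin n) (Fin n) K) = (P : Matrix (Fin n) (Fin n) K) * (M₁ * M₂) * ((P⁻¹ : GL (Fin n) K) : Matrix (Fin n) (Fin n) K) := by
    rw [← h]
    show _ = c.toMatrix b * _ * b.toMatrix c
    rw [basis_toMatrix_mul_linearMap_toMatrix_mul_basis_toMatrix, LinearMap.toMatrix_eq_toMatrix',
      LinearMap.toMatrix'_toLin']
  have e1 : M₁ = (x1 : Matrix (Fin n) (Fin n) K) * J * ((x1⁻¹ : GL (Fin n) K) : Matrix (Fin n) (Fin n) K) := by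
    rw [← hx1, mul_assoc, Units.mul_inv, mul_one]
  have e2 : M₂ = (x2 : Matrix (Fin n) (Fin n) K) * J * ((x2⁻¹ : GL (Fin n) K) : Matrix (Fin n) (Fin n) K) := by
    rw [← hx2, mul_assoc, Units.mul_inv, mul_one]
  rw [hg, e1, e2]
  simp only [Units.val_mul, _root_.mul_inv_rev, mul_assoc, Units.inv_mul_cancel_left]

theorem transvection_case {n : ℕ} (hn : 3 ≤ n) (J g : GL (Fin n) K)
    (hJ : ∀ i j : Fin n, (J : Matrix (Fin n) (Fin n) K) i j = if i = j then 1 else if j.val = i.val + 1 then 1 else 0)
    (hdet : (g : Matrix (Fin n) (Fin n) K).det = 1)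
    (hg1 : (g : Matrix (Fin n) (Fin n) K) ≠ 1)
    (hr : finrank K (LinearMap.range (Matrix.toLin' (g : Matrix (Fin n) (Fin n) K) - LinearMap.id)) < 2) :
    ∃ x y : GL (Fin n) K, g = (x * J * x⁻¹) * (y * J * y⁻¹) := by
  classical
  obtain ⟨m, rfl⟩ : ∃ m, n = m + 3 := ⟨n - 3, by omega⟩
  set V := Fin (m + 3) → K
  set A := Matrix.toLin' (g : Matrix (Fin (m + 3)) (Fin (m + 3)) K)
  set N := A - LinearMap.id with hN
  have hdetA : LinearMap.det A = 1 := by
    simp only [A]; rw [LinearMap.det_toLin']; exact hdet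
  have hN0 : N ≠ 0 := fun h => hg1 (Matrix.toLin'.injective (by
    rw [Matrix.toLin'_one]; exact sub_eq_zero.1 h))
  have hr1 : finrank K (LinearMap.range N) = 1 := by
    have : finrank K (LinearMap.range N) ≠ 0 := fun h => hN0 (LinearMap.range_eq_bot.1 (Submodule.finrank_eq_zero.1 h))
    omega
  obtain ⟨⟨a, ⟨z, rfl⟩⟩, ha0, hspan⟩ := finrank_eq_one_iff'.1 hr1
  have ha : N z ≠ 0 := fun h => ha0 (Subtype.ext h)
  have hrange : ∀ w, ∃ t : K, N w = t • N z := fun w => by
    obtain ⟨t, ht⟩ := hspan ⟨N w, LinearMap.mem_range_self N w⟩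
    exact ⟨t, (congrArg Subtype.val ht).symm⟩
  have hkd : finrank K (LinearMap.ker N) = m + 2 := by
    have := LinearMap.finrank_range_add_finrank_ker N
    rw [hr1, Module.finrank_fin_fun] at this
    omega
  have haker : N z ∈ LinearMap.ker N := by
    rw [LinearMap.mem_ker]
    by_contra hne
    obtain ⟨t, ht⟩ := hrange (N z)
    have ht0 : t ≠ 0 := fun h => hne (by rw [ht, h, zero_smul])
    let bk := Module.finBasisOfFinrankEq K (LinearMap.ker N) hkd
    let B := Basis.mkFinCons (N z) bk
      (fun c x hx h => by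
        have h' := congrArg N h
        rw [map_add, map_smul, LinearMap.mem_ker.1 hx, add_zero, map_zero] at h'
        exact (smul_eq_zero.1 h').resolve_right hne)
      (fun w => by
        obtain ⟨s, hs⟩ := hrange w
        refine ⟨-(s / t), ?_⟩
        rw [LinearMap.mem_ker, map_add, map_smul, hs, ht, smul_smul, ← add_smul]
        simp [ht0])
    have hB : (B : Fin (m + 3) → V) = Fin.cons (N z) ((↑) ∘ bk) := Basis.coe_mkFinCons ..
    have hM : LinearMap.toMatrix B B A = Matrix.diagonal (Fin.cons (1 + t) 1) := by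
      ext i j
      rw [LinearMap.toMatrix_apply]
      have hA : A (B j) = (Fin.cons (1 + t) (1 : Fin (m + 2) → K) : Fin (m + 3) → K) j • B j := by
        cases j using Fin.cases with
        | zero =>
          rw [hB]
          simp only [Fin.cons_zero]
          rw [add_smul, one_smul, ← ht]; simp [hN]
        | succ j =>
          rw [hB]
          simp only [Fin.cons_succ, Function.comp_apply, Pi.one_apply, one_smul]
          exact sub_eq_zero.1 (show N (bk j : V) = 0 from LinearMap.mem_ker.1 (bk j).2)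
      rw [hA, map_smul, Basis.repr_self, Finsupp.smul_apply, Matrix.diagonal_apply, smul_eq_mul]
      by_cases hij : i = j
      · subst hij; simp
      · simp [hij, Finsupp.single_apply, Ne.symm hij]
    have := congrArg Matrix.det hM
    rw [LinearMap.det_toMatrix, hdetA, Matrix.det_diagonal, Fin.prod_univ_succ] at this
    simp at this
    exact ht0 this
  let S := Submodule.span K ({⟨N z, haker⟩} : Set (LinearMap.ker N))
  obtain ⟨C, hC⟩ := Submodule.exists_isCompl S
  haveI hfree : Module.Free K C := Module.Free.of_divisionRing K C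
  have hCd : finrank K C = m + 1 := by
    have := Submodule.finrank_add_eq_of_isCompl hC
    rw [hkd, finrank_span_singleton (fun h => ha (congrArg Subtype.val h))] at this
    omega
  let b2 := Basis.mkFinCons (⟨N z, haker⟩ : LinearMap.ker N) (Module.finBasisOfFinrankEq K C hCd)
    (fun c x hx h => by
      have h1 : x ∈ S := by
        rw [eq_neg_of_add_eq_zero_right h]
        exact S.neg_mem (S.smul_mem _ (Submodule.mem_span_singleton_self _))
      have hx0 : x = 0 := Submodule.disjoint_def.1 hC.disjoint x h1 hx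
      rw [hx0, add_zero] at h
      exact (smul_eq_zero.1 h).resolve_right (fun h => ha (congrArg Subtype.val h)))
    (fun w => by
      obtain ⟨p, hp, q, hq, rfl⟩ := Submodule.mem_sup.1 (show w ∈ S ⊔ C from hC.codisjoint.eq_top ▸ Submodule.mem_top)
      obtain ⟨t, rfl⟩ := Submodule.mem_span_singleton.1 hp
      exact ⟨-t, by simpa using hq⟩)
  let B := Basis.mkFinCons z b2
    (fun c x hx h => by
      have h' := congrArg N h
      rw [map_add, map_smul, LinearMap.mem_ker.1 hx, add_zero, map_zero] at h'
      exact (smul_eq_zero.1 h').resolve_right ha)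
    (fun w => by
      obtain ⟨s, hs⟩ := hrange w
      exact ⟨-s, by rw [LinearMap.mem_ker, map_add, map_smul, hs, neg_smul, add_neg_cancel]⟩)
  have hB : (B : Fin (m + 3) → V) = Fin.cons z ((↑) ∘ b2) := Basis.coe_mkFinCons ..
  have hb2 : (b2 : Fin (m + 2) → LinearMap.ker N) =
      Fin.cons ⟨N z, haker⟩ ((↑) ∘ Module.finBasisOfFinrankEq K C hCd) := Basis.coe_mkFinCons ..
  have hB1 : B 1 = N z := by
    rw [hB, show (1 : Fin (m + 3)) = Fin.succ 0 from rfl, Fin.cons_succ, Function.comp_apply, hb2, Fin.cons_zero]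
  have hAB : ∀ j, A (B j) = B j + (if j = 0 then B 1 else 0) := by
    intro j
    cases j using Fin.cases with
    | zero => rw [if_pos rfl, hB1, hB]; simp [hN]
    | succ j =>
      rw [if_neg (Fin.succ_ne_zero j), add_zero, hB]
      simp only [Fin.cons_succ, Function.comp_apply]
      exact sub_eq_zero.1 (show N (b2 j : V) = 0 from LinearMap.mem_ker.1 (b2 j).2)
  let σ : Equiv.Perm (Fin (m + 3)) := Equiv.swap 1 2 * Equiv.swap 0 1
  have h01 : (0 : Fin (m + 3)) ≠ 1 := by simp [Fin.ext_iff]
  have h02 : (0 : Fin (m + 3)) ≠ 2 := by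
    rw [Ne, Fin.ext_iff, Fin.val_zero, show ((2 : Fin (m + 3)) : ℕ) = 2 from Nat.mod_eq_of_lt (show 2 < m + 3 by linarith [Nat.zero_le m])]
    exact Nat.zero_ne_add_one 1
  have hσ0 : σ 0 = 2 := by simp [σ]
  have hσ1 : σ 1 = 0 := by simp [σ, Equiv.swap_apply_of_ne_of_ne h01 h02]
  let T : Matrix (Fin (m + 3)) (Fin (m + 3)) K := Matrix.of fun i j =>
    (if i = j then 1 else 0) + (if i = 0 ∧ j = 2 then 1 else 0)
  have hT : LinearMap.toMatrix (B.reindex σ) (B.reindex σ) A = T := by
    ext i j
    rw [LinearMap.toMatrix_apply, Basis.reindex_apply, hAB]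
    have e1 : σ.symm j = 0 ↔ j = 2 := by rw [Equiv.symm_apply_eq, hσ0]
    rw [map_add, Finsupp.add_apply]
    simp only [T, Matrix.of_apply, e1]
    congr 1
    · rw [← Basis.reindex_apply, Basis.repr_self, Finsupp.single_apply]
      simp [eq_comm]
    · by_cases hj : j = 2
      · rw [if_pos hj, show (1 : Fin (m + 3)) = σ.symm 0 by rw [Equiv.eq_symm_apply, hσ1], ← Basis.reindex_apply,
          Basis.repr_self, Finsupp.single_apply]
        simp [hj, eq_comm]
      · rw [if_neg hj]; simp [hj]
  let M := ((J⁻¹ : GL (Fin (m + 3)) K) : Matrix (Fin (m + 3)) (Fin (m + 3)) K) * T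
  have hJup : (J : Matrix (Fin (m + 3)) (Fin (m + 3)) K).BlockTriangular id := fun i j h => by
    have h' : j < i := h
    rw [hJ, if_neg h'.ne', if_neg (by rw [Fin.lt_def] at h'; omega)]
  have hTup : T.BlockTriangular id := fun i j h => by
    have h' : j < i := h
    simp only [T, Matrix.of_apply, if_neg h'.ne', zero_add]
    exact if_neg fun hh => by rw [hh.1] at h'; exact Fin.not_lt_zero j h'
  have hMup : M.BlockTriangular id := by
    haveI : Invertible (J : Matrix (Fin (m + 3)) (Fin (m + 3)) K) := Units.invertible J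
    refine Matrix.BlockTriangular.mul ?_ hTup
    have hi := Matrix.blockTriangular_inv_of_blockTriangular hJup
    rwa [← Matrix.coe_units_inv] at hi
  have hJM : (J : Matrix (Fin (m + 3)) (Fin (m + 3)) K) * M = T := by
    simp only [M]; rw [← mul_assoc, Units.mul_inv, one_mul]
  have hrow : ∀ i j : Fin (m + 3), T i j = M i j + if h : i.val + 1 < m + 3 then M ⟨i.val + 1, h⟩ j else 0 := by
    intro i j
    rw [← hJM, Matrix.mul_apply]
    have hterm : ∀ k : Fin (m + 3), (J : Matrix (Fin (m + 3)) (Fin (m + 3)) K) i k * M k j =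
        (if i = k then M k j else 0) + (if k.val = i.val + 1 then M k j else 0) := by
      intro k
      rw [hJ]
      by_cases h1 : i = k
      · subst h1; simp
      · by_cases h2 : k.val = i.val + 1 <;> simp [h1, h2]
    simp only [hterm, Finset.sum_add_distrib, Finset.sum_ite_eq, Finset.mem_univ, if_true]
    congr 1
    split_ifs with h
    · rw [Finset.sum_eq_single ⟨i.val + 1, h⟩]
      · simp
      · intro k _ hk; rw [if_neg fun e => hk (Fin.ext e)]
      · simp
    · exact Finset.sum_eq_zero fun k _ => by rw [if_neg fun (e : k.val = i.val + 1) => h (e ▸ k.isLt)]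
  have hdiag : ∀ i, M i i = 1 := by
    intro i
    have := hrow i i
    simp only [T, Matrix.of_apply, if_pos] at this
    rw [if_neg fun hh => h02 (hh.1.symm.trans hh.2)] at this
    split_ifs at this with h
    · rw [hMup (show id i < id (⟨i.val + 1, h⟩ : Fin (m + 3)) from Fin.lt_def.2 (Nat.lt_succ_self _))] at this
      simpa using this.symm
    · simpa using this.symm
  have hMIsUp : IsUp M := by
    refine ⟨hdiag, fun i j h => hMup h, fun i j hij h0 => ?_⟩
    have := hrow i j
    have hne : i ≠ j := fun e => by subst e; omega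
    simp only [T, Matrix.of_apply, if_neg hne, zero_add] at this
    rw [if_neg fun hh => by rw [hh.1, hh.2, Fin.val_two] at hij; simp at hij,
      dif_pos (show i.val + 1 < m + 3 by omega), show (⟨i.val + 1, by omega⟩ : Fin (m + 3)) = j from Fin.ext hij.symm,
      hdiag, h0, zero_add] at this
    exact zero_ne_one this
  refine two_factor J g hJ (B.reindex σ) (J : Matrix (Fin (m + 3)) (Fin (m + 3)) K) M ?_ (conj_of_isUp M hMIsUp _ hJ) ?_
  · exact ⟨1, by simp⟩
  · rw [hJM]; exact hT

/-- Let K be a field with at least four elements (finite or infinite), n ≥ 3, and J ∈ GL(n, K) the regular unipotent matrix (ones on the diagonal and the superdiagonal, zeros elsewhere). Then every non-scalar g ∈ GL(n, K) with det g = 1 is a product of two GL(n, K)-conjugates of J. -/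
theorem result {K : Type*} [Field K] (hK : 4 ≤ Cardinal.mk K) (n : ℕ) (hn : 3 ≤ n) (J g : GL (Fin n) K)
    (hJ : ∀ i j : Fin n, (J : Matrix (Fin n) (Fin n) K) i j = if i = j then 1 else if j.val = i.val + 1 then 1 else 0)
    (hg : ¬ ∃ c : K, (g : Matrix (Fin n) (Fin n) K) = c • (1 : Matrix (Fin n) (Fin n) K))
    (hdet : (g : Matrix (Fin n) (Fin n) K).det = 1) :
    ∃ x y : GL (Fin n) K, g = (x * J * x⁻¹) * (y * J * y⁻¹) := by
  by_cases hr : finrank K (LinearMap.range (Matrix.toLin' (g : Matrix (Fin n) (Fin n) K) - LinearMap.id)) < 2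
  · exact transvection_case hn J g hJ hdet (fun h => hg ⟨1, by rw [h, one_smul]⟩) hr
  obtain ⟨m, rfl⟩ : ∃ m, n = m + 1 := ⟨n - 1, by omega⟩
  have hns : ∀ c : K, Matrix.toLin' (g : Matrix (Fin (m + 1)) (Fin (m + 1)) K) ≠ c • LinearMap.id := fun c h =>
    hg ⟨c, Matrix.toLin'.injective (by rw [h, map_smul, Matrix.toLin'_one])⟩
  obtain ⟨b, L, U, hL, hU, hM, -, -⟩ := factor hK m (Fin (m + 1) → K) (Module.finrank_fin_fun K)
    (Matrix.toLin' (g : Matrix (Fin (m + 1)) (Fin (m + 1)) K)) (by rw [LinearMap.det_toLin']; exact hdet)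
    (fun _ => ⟨hns, by omega⟩) (Pi.single 0 1) (fun h => by simpa using congrFun h 0)
    (LinearMap.proj 0) (fun h => by simpa using LinearMap.congr_fun h (Pi.single 0 1))
  exact two_factor J g hJ b L U (conj_of_isLo L hL _ hJ) (conj_of_isUp U hU _ hJ) hM

end Cfsg.Agent.S2522
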