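import Cfsg.Statements.S2553
import Cfsg.Agent.S0256
import Cfsg.Agent.Lib.SmallSimple.SubgroupsAltEight
import Cfsg.Agent.Lib.SmallSimple.Order168
import Cfsg.Agent.Lib.Classical.Order
import Cfsg.Agent.Lib.Classical.Simple
-- import your own Cfsg.Agent.* helpers here

set_option autoImplicit false
open Cfsg

namespace Cfsg.Agent.S2553

open Matrix MulAction Cfsg.Agent.Lib Cfsg.Agent.Lib.SmallSimple

theorem units_zmod_two : Subsingleton (ZMod 2)ˣ := ⟨by decide⟩

/-- Over two elements the linear group is the projective special one. -/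
theorem gl_equiv_psl (n : ℕ) [NeZero n] :
    Nonempty (GL (Fin n) (ZMod 2) ≃* ProjectiveSpecialLinearGroup (Fin n) (ZMod 2)) := by
  haveI := units_zmod_two
  have h1 : Nat.card (ZMod 2)ˣ = 1 := Nat.card_of_subsingleton 1
  have hb : Function.Bijective (SpecialLinearGroup.toGL : SpecialLinearGroup (Fin n) (ZMod 2) →* GL (Fin n) (ZMod 2)) :=
    (Nat.bijective_iff_injective_and_card _).2 ⟨Classical.toGL_injective, by
      rw [Classical.card_GL_eq_units_mul_card_SL, h1, one_mul]⟩
  have hc : Subgroup.center (SpecialLinearGroup (Fin n) (ZMod 2)) = ⊥ := by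
    refine Subgroup.eq_bot_of_card_eq _ (le_antisymm ?_ Nat.card_pos)
    rw [Classical.card_center_SL, ZMod.card]
    simp
  exact ⟨(MulEquiv.ofBijective _ hb).symm.trans
    ((QuotientGroup.quotientBot).symm.trans (QuotientGroup.quotientMulEquivOfEq hc.symm))⟩

/-- No simple group of order `1344` is linear of degree four over two elements. -/
theorem no_1344 (M : Subgroup (GL (Fin 4) (ZMod 2))) [IsSimpleGroup M] : Nat.card M ≠ 1344 := by
  intro hc
  have hM : ¬ IsMulCommutative M := not_isMulCommutative_of_card (by rw [hc]; norm_num)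
  haveI : Fact (Nat.Prime 2) := ⟨Nat.prime_two⟩
  have small : ∀ {X : Type} [MulAction M X] [Finite X] (x : X),
      Nat.card (orbit M x) ≤ 7 → ∀ g : M, g • x = x := by
    intro X _ _ x hle g
    by_cases htop : stabilizer M x = ⊤
    · exact mem_stabilizer_iff.1 (htop ▸ Subgroup.mem_top g)
    · exfalso
      have h := two_mul_card_dvd_factorial hM _ htop
      rw [MulAction.index_stabilizer, ← Nat.card_coe_set_eq, hc] at h
      have := h.trans (Nat.factorial_dvd_factorial hle)
      norm_num [Nat.factorial] at this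
  letI act : MulAction M (Fin 4 → ZMod 2) :=
    { smul := fun g u => ((g : GL (Fin 4) (ZMod 2)) : Matrix (Fin 4) (Fin 4) (ZMod 2)) *ᵥ u
      one_smul := fun u => Matrix.one_mulVec u
      mul_smul := fun g h u => (Matrix.mulVec_mulVec u _ _).symm }
  have hsmul : ∀ (g : M) (u : Fin 4 → ZMod 2),
      g • u = ((g : GL (Fin 4) (ZMod 2)) : Matrix (Fin 4) (Fin 4) (ZMod 2)) *ᵥ u := fun _ _ => rfl
  have hV : Nat.card (Fin 4 → ZMod 2) = 16 := by
    rw [Nat.card_eq_fintype_card]; rfl
  obtain ⟨T⟩ : Nonempty (Sylow 2 M) := inferInstance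
  have hTi : (T : Subgroup M).index = 21 := by
    have h1 := Subgroup.card_mul_index (T : Subgroup M)
    rw [card_sylow_subgroup T (k := 6) (m := 21) (by rw [hc]; norm_num) (by norm_num), hc] at h1
    omega
  obtain ⟨v, hv, hv0⟩ : ∃ v : Fin 4 → ZMod 2, v ∈ fixedPoints (T : Subgroup M) (Fin 4 → ZMod 2) ∧ v ≠ 0 := by
    obtain ⟨v, hv⟩ := T.isPGroup'.exists_fixed_point_of_prime_dvd_card_of_fixed_point (Fin 4 → ZMod 2)
      (by rw [hV]; norm_num) (a := 0) (fun g => Matrix.mulVec_zero _)
    exact ⟨v, hv.1, hv.2.symm⟩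
  have hfixv : ∀ g : M, g • v = v := by
    refine small v ?_
    have hle : (T : Subgroup M) ≤ stabilizer M v := fun g hg => hv ⟨g, hg⟩
    have hd : (stabilizer M v).index ∣ 21 := hTi ▸ Subgroup.index_dvd_of_le hle
    rw [MulAction.index_stabilizer, ← Nat.card_coe_set_eq] at hd
    have h16 : Nat.card (orbit M v) ≤ 16 := hV ▸ Nat.card_le_card_of_injective _ Subtype.val_injective
    have hmem : Nat.card (orbit M v) ∈ Nat.divisors 21 := Nat.mem_divisors.2 ⟨hd, by norm_num⟩
    rw [show Nat.divisors 21 = {1, 3, 7, 21} from by decide] at hmem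
    simp only [Finset.mem_insert, Finset.mem_singleton] at hmem
    omega
  set W := Submodule.span (ZMod 2) {v}
  have hW : ∀ g : M, W ≤ W.comap (Matrix.mulVecLin ((g : GL (Fin 4) (ZMod 2)) : Matrix (Fin 4) (Fin 4) (ZMod 2))) := by
    intro g
    rw [Submodule.span_le, Set.singleton_subset_iff, SetLike.mem_coe, Submodule.mem_comap,
      Matrix.mulVecLin_apply, ← hsmul, hfixv]
    exact Submodule.mem_span_singleton_self v
  letI actQ : MulAction M ((Fin 4 → ZMod 2) ⧸ W) :=
    { smul := fun g => W.mapQ W _ (hW g)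
      one_smul := fun q => by
        induction q using Submodule.Quotient.induction_on with
        | _ u => exact congrArg Submodule.Quotient.mk (Matrix.one_mulVec u)
      mul_smul := fun g h q => by
        induction q using Submodule.Quotient.induction_on with
        | _ u => exact congrArg Submodule.Quotient.mk (Matrix.mulVec_mulVec u _ _).symm }
  have hQ : Nat.card ((Fin 4 → ZMod 2) ⧸ W) = 8 := by
    have h1 := Submodule.card_eq_card_quotient_mul_card W
    rw [hV, Module.natCard_eq_pow_finrank (K := ZMod 2) (V := W), finrank_span_singleton hv0,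
      Nat.card_zmod, pow_one] at h1
    omega
  have hfixQ : ∀ (g : M) (u : Fin 4 → ZMod 2), g • u - u ∈ W := by
    intro g u
    by_cases hu : u ∈ W
    · exact W.sub_mem (by rw [hsmul, ← Matrix.mulVecLin_apply]; exact hW g hu) hu
    have h := small (X := (Fin 4 → ZMod 2) ⧸ W) (Submodule.Quotient.mk u) ?_ g
    · exact (Submodule.Quotient.eq W).1 h
    · have hne : orbit M (Submodule.Quotient.mk (p := W) u) ≠ Set.univ := by
        intro h
        obtain ⟨g, hg⟩ := h.ge (Set.mem_univ (0 : (Fin 4 → ZMod 2) ⧸ W))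
        have h0 : g⁻¹ • (0 : (Fin 4 → ZMod 2) ⧸ W) = 0 := map_zero (W.mapQ W _ (hW g⁻¹))
        simp only at hg
        rw [← hg, inv_smul_smul] at h0
        rw [hg] at h0
        exact hu ((Submodule.Quotient.mk_eq_zero W).1 h0)
      have h8 : (orbit M (Submodule.Quotient.mk (p := W) u)).ncard <
          (Set.univ : Set ((Fin 4 → ZMod 2) ⧸ W)).ncard :=
        Set.ncard_lt_ncard (Set.ssubset_univ_iff.2 hne) (Set.toFinite _)
      rw [Set.ncard_univ, hQ] at h8
      rw [Nat.card_coe_set_eq]
      omega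
  apply hM
  have hsq : ∀ g : M, g * g = 1 := by
    intro g
    refine Subtype.ext (Units.ext (Matrix.toLin'.injective (LinearMap.ext fun u => ?_)))
    show Matrix.toLin' _ u = Matrix.toLin' _ u
    rw [Matrix.toLin'_apply, Matrix.toLin'_apply]
    show (g * g) • u = _
    obtain ⟨a, ha⟩ := Submodule.mem_span_singleton.1 (hfixQ g u)
    have hgu : g • u = u + a • v := by rw [ha]; abel
    rw [mul_smul, hgu, hsmul, Matrix.mulVec_add, Matrix.mulVec_smul, ← hsmul, ← hsmul, hgu, hfixv,
      add_assoc, ← add_smul, show a + a = 0 from CharTwo.add_self_eq_zero a, zero_smul, add_zero]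
    show u = (1 : Matrix (Fin 4) (Fin 4) (ZMod 2)) *ᵥ u
    rw [Matrix.one_mulVec]
  refine ⟨⟨fun a b => ?_⟩⟩
  have hi : ∀ g : M, g⁻¹ = g := fun g => inv_eq_of_mul_eq_one_right (hsq g)
  calc a * b = (a * b)⁻¹ := (hi _).symm
    _ = b * a := by rw [_root_.mul_inv_rev, hi, hi]


/-- Let H be a nontrivial subgroup of GL(4,2) (a group isomorphic to the alternating group of degree 8) whose largest normal 2-subgroup and largest normal subgroup of odd order are both trivial. Then H is isomorphic to an alternating group of degree n for some 5 ≤ n ≤ 8, to the symmetric group of degree 5 or 6, or to GL(3,2). -/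
theorem result (H : Subgroup (GL (Fin 4) (ZMod 2))) (hH : H ≠ ⊥) (hO : Cfsg.pPrimeCore 2 ↥H = ⊥) (hO2 : Cfsg.pCore 2 ↥H = ⊥) :
    (∃ n : ℕ, 5 ≤ n ∧ n ≤ 8 ∧ Nonempty (↥H ≃* alternatingGroup (Fin n))) ∨
    Nonempty (↥H ≃* Equiv.Perm (Fin 5)) ∨ Nonempty (↥H ≃* Equiv.Perm (Fin 6)) ∨ Nonempty (↥H ≃* GL (Fin 3) (ZMod 2)) := by
  classical
  haveI := Fact.mk Nat.prime_two
  obtain ⟨e1⟩ := gl_equiv_psl 4
  obtain ⟨e2⟩ := Cfsg.Agent.S0256.result (F := ZMod 2) (ZMod.card 2)
  set e : GL (Fin 4) (ZMod 2) →* Equiv.Perm (Fin 8) :=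
    (alternatingGroup (Fin 8)).subtype.comp (e1.trans e2).toMonoidHom with he
  have hinj : Function.Injective e := Subtype.val_injective.comp (e1.trans e2).injective
  set H' := H.map e
  let eH : H ≃* H' := H.equivMapOfInjective e hinj
  have hA : H' ≤ alternatingGroup (Fin 8) := by
    rintro _ ⟨x, -, rfl⟩; exact ((e1.trans e2) x).2
  have hne : H' ≠ ⊥ := fun h => hH ((Subgroup.map_eq_bot_iff_of_injective _ hinj).1 h)
  have hlist := SmallSimple.AltEight.classification (Fintype.card_fin 8) H' hA hne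
    (SmallSimple.AltEight.radical_congr eH (SmallSimple.AltEight.radical_of_cores hO hO2)) (fun M hM => by
      set M' := M.map (e1.trans e2).symm.toMonoidHom
      let eM : M ≃* M' := M.equivMapOfInjective _ (e1.trans e2).symm.injective
      haveI := hM
      haveI : Nontrivial M' := eM.symm.toEquiv.nontrivial
      haveI : IsSimpleGroup M' := IsSimpleGroup.isSimpleGroup_of_surjective eM.toMonoidHom eM.surjective
      rw [Nat.card_congr eM.toEquiv]
      exact no_1344 M')
  rcases SmallSimple.AltEight.Listed.congr eH hlist with h | h | h | ⟨hs, hc⟩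
  · exact Or.inl h
  · exact Or.inr (Or.inl h)
  · exact Or.inr (Or.inr (Or.inl h))
  · refine Or.inr (Or.inr (Or.inr ?_))
    haveI := hs
    obtain ⟨e3⟩ := gl_equiv_psl 3
    haveI : IsSimpleGroup (GL (Fin 3) (ZMod 2)) := by
      haveI := Classical.isSimpleGroup_PSL (ι := Fin 3) (F := ZMod 2) (by simp)
      haveI : Nontrivial (GL (Fin 3) (ZMod 2)) := e3.toEquiv.nontrivial
      exact IsSimpleGroup.isSimpleGroup_of_surjective e3.symm.toMonoidHom e3.symm.surjective
    have h168 : Nat.card (GL (Fin 3) (ZMod 2)) = 168 := by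
      rw [Matrix.card_GL_field]
      decide
    obtain ⟨f1⟩ := equiv_lineGroup (G := H) hc
    obtain ⟨f2⟩ := equiv_lineGroup (G := GL (Fin 3) (ZMod 2)) h168
    exact ⟨f1.trans f2.symm⟩

end Cfsg.Agent.S2553
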