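import Cfsg.Statements.S2556
import Cfsg.Agent.Lib.Suz.Facts
import Cfsg.Agent.Lib.Suz.Bridge

set_option autoImplicit false
open Cfsg

namespace Cfsg.Agent.S2556

open Cfsg.Agent.Lib.Suz
open scoped Polynomial

/-- Sums of two distinct powers of two determine the exponents. -/
theorem two_pow_pair {a b c d : ℕ} (hab : a < b) (hcd : c < d) (h : 2 ^ a + 2 ^ b = 2 ^ c + 2 ^ d) :
    a = c ∧ b = d := by
  have key : ∀ {a b c d : ℕ}, a < b → c < d → a < c → 2 ^ a + 2 ^ b = 2 ^ c + 2 ^ d → False := by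
    intro a b c d hab hcd hac h
    have h1 : 2 ^ (a + 1) ∣ 2 ^ a := by
      have h2 : 2 ^ (a + 1) ∣ 2 ^ a + 2 ^ b := by
        rw [h]
        exact dvd_add (pow_dvd_pow 2 (by omega)) (pow_dvd_pow 2 (by omega))
      exact (Nat.dvd_add_left (pow_dvd_pow 2 (by omega))).mp h2
    have := (Nat.pow_dvd_pow_iff_le_right Nat.one_lt_two).mp h1
    omega
  rcases lt_trichotomy a c with h' | rfl | h'
  · exact (key hab hcd h' h).elim
  · exact ⟨rfl, Nat.pow_right_injective le_rfl (Nat.add_left_cancel h)⟩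
  · exact (key hcd hab h' h.symm).elim

/-- A sum of two distinct powers of two is not a power of two. -/
theorem two_pow_pair_ne {a b c : ℕ} (hab : a < b) : 2 ^ a + 2 ^ b ≠ 2 ^ c := by
  intro h
  have hac : a < c := by
    by_contra h'
    have h1 := Nat.pow_le_pow_right (show 0 < 2 by norm_num) (show c ≤ a by omega)
    have h2 := Nat.two_pow_pos b
    omega
  have h2 : 2 ^ (a + 1) ∣ 2 ^ a :=
    (Nat.dvd_add_left (pow_dvd_pow 2 (show a + 1 ≤ b by omega))).mp (h ▸ pow_dvd_pow 2 (by omega))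
  have := (Nat.pow_dvd_pow_iff_le_right Nat.one_lt_two).mp h2
  omega

/-- The exponent of a product of two Frobenius powers, reduced into `1 .. 2 ^ N - 2`. -/
def expo {N : ℕ} (u v : Fin N) : ℕ :=
  if u = v then 2 ^ (((u : ℕ) + 1) % N) else 2 ^ (u : ℕ) + 2 ^ (v : ℕ)

theorem expo_symm {N : ℕ} (u v : Fin N) : expo u v = expo v u := by
  unfold expo
  by_cases h : u = v
  · subst h; rfl
  · rw [if_neg h, if_neg (Ne.symm h), add_comm]

theorem expo_eq_iff {N : ℕ} (u v u' v' : Fin N) (h : expo u v = expo u' v') :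
    (u' = u ∧ v' = v) ∨ (u' = v ∧ v' = u) := by
  unfold expo at h
  split_ifs at h with h1 h2 h2
  · subst h1 h2
    have h3 := Nat.pow_right_injective le_rfl h
    have hN := u.pos
    have h4 : (u : ℕ) = u' := by
      by_cases a : (u : ℕ) + 1 < N <;> by_cases b : (u' : ℕ) + 1 < N
      · rw [Nat.mod_eq_of_lt a, Nat.mod_eq_of_lt b] at h3; omega
      · have := u'.isLt; rw [Nat.mod_eq_of_lt a, show (u' : ℕ) + 1 = N by omega, Nat.mod_self] at h3; omega
      · have := u.isLt; rw [Nat.mod_eq_of_lt b, show (u : ℕ) + 1 = N by omega, Nat.mod_self] at h3; omega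
      · have := u.isLt; have := u'.isLt; omega
    exact Or.inl ⟨Fin.ext h4.symm, Fin.ext h4.symm⟩
  · rcases lt_or_gt_of_ne (fun e => h2 (Fin.ext e) : (u' : ℕ) ≠ v') with h3 | h3
    · exact absurd h.symm (two_pow_pair_ne h3)
    · exact absurd (h.trans (add_comm _ _)).symm (two_pow_pair_ne h3)
  · rcases lt_or_gt_of_ne (fun e => h1 (Fin.ext e) : (u : ℕ) ≠ v) with h3 | h3
    · exact absurd h (two_pow_pair_ne h3)
    · exact absurd ((add_comm _ _).trans h) (two_pow_pair_ne h3)
  · rcases lt_or_gt_of_ne (fun e => h1 (Fin.ext e) : (u : ℕ) ≠ v) with h3 | h3 <;>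
      rcases lt_or_gt_of_ne (fun e => h2 (Fin.ext e) : (u' : ℕ) ≠ v') with h4 | h4
    · obtain ⟨e1, e2⟩ := two_pow_pair h3 h4 h
      exact Or.inl ⟨Fin.ext e1.symm, Fin.ext e2.symm⟩
    · obtain ⟨e1, e2⟩ := two_pow_pair h3 h4 (h.trans (add_comm _ _))
      exact Or.inr ⟨Fin.ext e2.symm, Fin.ext e1.symm⟩
    · obtain ⟨e1, e2⟩ := two_pow_pair h3 h4 ((add_comm _ _).trans h)
      exact Or.inr ⟨Fin.ext e1.symm, Fin.ext e2.symm⟩
    · obtain ⟨e1, e2⟩ := two_pow_pair h3 h4 ((add_comm _ _).trans (h.trans (add_comm _ _)))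
      exact Or.inl ⟨Fin.ext e2.symm, Fin.ext e1.symm⟩

section

variable {F : Type*} [Field F] [Fintype F] [CharP F 2] {N : ℕ}

/-- Coefficient extraction for quadratic functions written with Frobenius powers. -/
theorem coeff_pair (hN : 3 ≤ N) (hF : Fintype.card F = 2 ^ N) (d : Fin N → Fin N → F)
    (h : ∀ x : F, ∑ u, ∑ v, d u v * (x ^ 2 ^ (u : ℕ) * x ^ 2 ^ (v : ℕ)) = 0) :
    (∀ u, d u u = 0) ∧ ∀ u v, u ≠ v → d u v + d v u = 0 := by
  classical
  have hlt : ∀ u v : Fin N, expo u v + 1 < 2 ^ N := by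
    intro u v
    unfold expo
    have h8 : 2 ^ 3 ≤ 2 ^ N := Nat.pow_le_pow_right (by norm_num) hN
    have hsplit : 2 ^ N = 4 * 2 ^ (N - 2) := by
      rw [show (4 : ℕ) = 2 ^ 2 by norm_num, ← pow_add, show 2 + (N - 2) = N by omega]
    split_ifs with huv
    · have h1 := Nat.pow_le_pow_right (show 0 < 2 by norm_num)
        (show ((u : ℕ) + 1) % N ≤ N - 1 by have := Nat.mod_lt ((u : ℕ) + 1) (show 0 < N by omega); omega)
      rw [show N - 1 = (N - 2) + 1 by omega, pow_succ] at h1
      omega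
    · have hne : (u : ℕ) ≠ v := fun e => huv (Fin.ext e)
      have hu := u.isLt; have hv := v.isLt
      have hb : ∀ a b : ℕ, a < b → b < N → 2 ^ a + 2 ^ b ≤ 3 * 2 ^ (N - 2) := by
        intro a b hab hbN
        have h1 := Nat.pow_le_pow_right (show 0 < 2 by norm_num) (show a ≤ N - 2 by omega)
        have h2 := Nat.pow_le_pow_right (show 0 < 2 by norm_num) (show b ≤ (N - 2) + 1 by omega)
        rw [pow_succ] at h2
        omega
      rcases lt_or_gt_of_ne hne with h' | h'
      · have := hb u v h' hv; omega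
      · have := hb v u h' hu; omega
  have hpow : ∀ (u v : Fin N) (x : F), x ^ 2 ^ (u : ℕ) * x ^ 2 ^ (v : ℕ) = x ^ expo u v := by
    intro u v x
    rw [← pow_add]
    unfold expo
    split_ifs with huv
    · subst huv
      rw [show 2 ^ (u : ℕ) + 2 ^ (u : ℕ) = 2 ^ ((u : ℕ) + 1) by rw [pow_succ]; ring]
      by_cases a : (u : ℕ) + 1 < N
      · rw [Nat.mod_eq_of_lt a]
      · have := u.isLt
        rw [show (u : ℕ) + 1 = N by omega, Nat.mod_self, pow_zero, pow_one, ← hF, FiniteField.pow_card]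
    · rfl
  let P : F[X] := ∑ u, ∑ v, Polynomial.monomial (expo u v) (d u v)
  have hdeg : P.degree < (Finset.univ.erase (0 : F)).card := by
    rw [Finset.card_erase_of_mem (Finset.mem_univ _), Finset.card_univ, hF]
    refine Polynomial.degree_lt_iff_coeff_zero _ _ |>.mpr fun k hk => ?_
    simp only [P, Polynomial.finset_sum_coeff, Polynomial.coeff_monomial]
    refine Finset.sum_eq_zero fun u _ => Finset.sum_eq_zero fun v _ => if_neg ?_
    have := hlt u v
    have hk' : 2 ^ N - 1 ≤ k := by exact_mod_cast hk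
    omega
  have hP : P = 0 := by
    refine Polynomial.eq_zero_of_degree_lt_of_eval_finset_eq_zero _ hdeg fun x _ => ?_
    rw [← h x]
    simp only [P, Polynomial.eval_finsetSum, Polynomial.eval_monomial, hpow]
  have hcoef : ∀ u0 v0 : Fin N, ∑ u, ∑ v, (if expo u v = expo u0 v0 then d u v else 0) = 0 := by
    intro u0 v0
    have := congrArg (fun Q : F[X] => Q.coeff (expo u0 v0)) hP
    simpa [P, Polynomial.finset_sum_coeff, Polynomial.coeff_monomial] using this
  refine ⟨fun u0 => ?_, fun u0 v0 hne => ?_⟩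
  · have h0 := hcoef u0 u0
    rw [← Finset.sum_product', Finset.univ_product_univ,
      Finset.sum_eq_single (u0, u0)] at h0
    · simpa using h0
    · rintro ⟨u, v⟩ - hne
      refine if_neg fun e => hne ?_
      rcases expo_eq_iff _ _ _ _ e with ⟨e1, e2⟩ | ⟨e1, e2⟩
      · exact Prod.ext e1.symm e2.symm
      · exact Prod.ext e2.symm e1.symm
    · simp
  · have h0 := hcoef u0 v0
    rw [← Finset.sum_product', Finset.univ_product_univ,
      Finset.sum_eq_add (u0, v0) (v0, u0)] at h0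
    · simpa [expo_symm v0 u0] using h0
    · exact fun e => hne (congrArg Prod.fst e)
    · rintro ⟨u, v⟩ - ⟨hne1, hne2⟩
      refine if_neg fun e => ?_
      rcases expo_eq_iff _ _ _ _ e with ⟨e1, e2⟩ | ⟨e1, e2⟩
      · exact hne1 (Prod.ext e1.symm e2.symm)
      · exact hne2 (Prod.ext e2.symm e1.symm)
    · simp
    · simp

/-- Every additive map is a linearized polynomial. -/
theorem exists_linearized (hN : 3 ≤ N) (hF : Fintype.card F = 2 ^ N) (L : F →+ F) :
    ∃ a : Fin N → F, ∀ x, L x = ∑ i, a i * x ^ 2 ^ (i : ℕ) := by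
  classical
  haveI : Fact (Nat.Prime 2) := ⟨Nat.prime_two⟩
  haveI : ExpChar F 2 := ExpChar.prime Nat.prime_two
  let Φ : (Fin N → F) → (F →+ F) := fun a =>
    AddMonoidHom.mk' (fun x => ∑ i, a i * x ^ 2 ^ (i : ℕ)) fun x y => by
      simp only [add_pow_char_pow, mul_add, Finset.sum_add_distrib]
  have hinj : Function.Injective Φ := by
    intro a b hab
    have h : ∀ x, ∑ i, (a i - b i) * x ^ 2 ^ (i : ℕ) = 0 := fun x => by
      have : ∑ i, a i * x ^ 2 ^ (i : ℕ) = ∑ i, b i * x ^ 2 ^ (i : ℕ) := DFunLike.congr_fun hab x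
      simp only [sub_mul, Finset.sum_sub_distrib, this, sub_self]
    let z : Fin N := ⟨0, by omega⟩
    have h2 := coeff_pair hN hF (fun u v => if v = z then a u - b u else 0) fun x => by
      have : ∀ u : Fin N, ∑ v, (if v = z then a u - b u else 0) * (x ^ 2 ^ (u : ℕ) * x ^ 2 ^ (v : ℕ)) =
          (a u - b u) * x ^ 2 ^ (u : ℕ) * x := by
        intro u
        rw [Finset.sum_eq_single z (fun v _ hv => by rw [if_neg hv, zero_mul]) (by simp), if_pos rfl]
        simp [z, mul_assoc]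
      simp only [this, ← Finset.sum_mul, h, zero_mul]
    funext i
    refine sub_eq_zero.mp ?_
    by_cases hi : i = z
    · have := h2.1 z
      simpa [hi] using this
    · have := h2.2 i z hi
      simpa [hi, eq_comm] using this
  letI : Algebra (ZMod 2) F := ZMod.algebra F 2
  have hrank : Module.finrank (ZMod 2) F = N := by
    have := Module.card_eq_pow_finrank (K := ZMod 2) (V := F)
    rw [hF, ZMod.card] at this
    exact (Nat.pow_right_injective le_rfl this).symm
  let e : (Fin N → F) ≃ (F →+ F) :=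
    ((Module.finBasisOfFinrankEq (ZMod 2) F hrank).constr (ZMod 2)).toEquiv.trans
      { toFun := fun f => f.toAddMonoidHom
        invFun := fun f => AddMonoidHom.toZModLinearMap 2 f
        left_inv := fun f => LinearMap.ext fun _ => rfl
        right_inv := fun f => AddMonoidHom.ext fun _ => rfl }
  haveI : Finite (F →+ F) := Finite.of_equiv _ e
  have hbij := hinj.bijective_of_nat_card_le (le_of_eq (Nat.card_congr e).symm)
  obtain ⟨a, ha⟩ := hbij.2 L
  exact ⟨a, fun x => by rw [← ha]; rfl⟩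

end

section

variable {F : Type*} [Field F] [Fintype F] [CharP F 2] {m : ℕ} (c : Ctx F m)

/-- An automorphism of the root group, in coordinates. -/
structure Coord (φ : MulAut ↥(uSub c)) where
  L : F →+ F
  M : F →+ F
  N : F → F
  eq : ∀ a b, ((φ ⟨uG c a b, uG_mem_uSub c a b⟩ : ↥(uSub c)) : ↥(Cfsg.Sz F m)) = uG c (L a) (N a + M b)
  rel : ∀ a a', N (a + a') + M (a' * th F m a) = N a + N a' + L a' * th F m (L a)

theorem exists_coord (φ : MulAut ↥(uSub c)) : Nonempty (Coord c φ) := by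
  let u : F → F → ↥(uSub c) := fun a b => ⟨uG c a b, uG_mem_uSub c a b⟩
  have hu : ∀ x : ↥(uSub c), ∃ a b, x = u a b := fun x => by
    obtain ⟨a, b, e⟩ := (mem_uSub c).1 x.2
    exact ⟨a, b, Subtype.ext e⟩
  choose A B hAB using hu
  have hmul : ∀ a b a' b', u a b * u a' b' = u (a + a') (b + b' + a' * th F m a) := fun a b a' b' =>
    Subtype.ext (uG_mul c a b a' b')
  have huinj : ∀ a b a' b', u a b = u a' b' → a = a' ∧ b = b' := fun a b a' b' h =>
    uG_inj c (congrArg Subtype.val h)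
  have hcen : ∀ b, A (φ (u 0 b)) = 0 := by
    intro b
    have h1 : u 0 b ∈ Subgroup.center ↥(uSub c) := (center_uSub c _).2 ⟨b, rfl⟩
    have h2 : φ (u 0 b) ∈ Subgroup.center ↥(uSub c) := by
      rw [Subgroup.mem_center_iff] at h1 ⊢
      intro g
      obtain ⟨g', rfl⟩ := φ.surjective g
      rw [← map_mul, ← map_mul, h1]
    obtain ⟨b', hb'⟩ := (center_uSub c _).1 h2
    exact (huinj _ _ 0 b' ((hAB _).symm.trans (Subtype.ext hb'))).1
  let L : F → F := fun a => A (φ (u a 0))
  let N : F → F := fun a => B (φ (u a 0))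
  let M : F → F := fun b => B (φ (u 0 b))
  have heq : ∀ a b, φ (u a b) = u (L a) (N a + M b) := by
    intro a b
    have h : u a b = u a 0 * u 0 b := by rw [hmul, add_zero, zero_mul, zero_add, add_zero]
    rw [h, map_mul, hAB (φ (u a 0)), hAB (φ (u 0 b)), hcen, hmul, add_zero, zero_mul, add_zero]
  have hall : ∀ a b a' b', L (a + a') = L a + L a' ∧
      N (a + a') + M (b + b' + a' * th F m a) = N a + M b + (N a' + M b') + L a' * th F m (L a) := by
    intro a b a' b'
    have h := congrArg φ (hmul a b a' b')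
    rw [map_mul, heq, heq, heq, hmul] at h
    obtain ⟨h1, h2⟩ := huinj _ _ _ _ h
    exact ⟨h1.symm, h2.symm⟩
  have hN0 : N 0 = 0 ∧ M 0 = 0 := by
    have h1 : u 0 0 = 1 := Subtype.ext (uG_zero c)
    have h2 := hAB (φ (u 0 0))
    rw [h1, map_one] at h2
    have h3 := (huinj (A 1) (B 1) 0 0 (h2.symm.trans h1.symm)).2
    exact ⟨by show B (φ (u 0 0)) = 0; rw [h1, map_one, h3], by show B (φ (u 0 0)) = 0; rw [h1, map_one, h3]⟩
  have hMadd : ∀ b b', M (b + b') = M b + M b' := by
    intro b b'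
    have := (hall 0 b 0 b').2
    rw [hcen 0 |> fun _ => zero_mul (th F m 0), add_zero, add_zero, hN0.1, zero_add, zero_add, zero_add,
      show L 0 = 0 from hcen 0, zero_mul, add_zero] at this
    exact this
  refine ⟨⟨AddMonoidHom.mk' L fun a a' => (hall a 0 a' 0).1, AddMonoidHom.mk' M hMadd, N,
    fun a b => congrArg Subtype.val (heq a b), fun a a' => ?_⟩⟩
  have := (hall a 0 a' 0).2
  rw [zero_add, zero_add, hN0.2, add_zero, add_zero] at this
  exact this

/-- The data of a coordinate form determine the automorphism. -/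
theorem Coord.polar {φ : MulAut ↥(uSub c)} (D : Coord c φ) (a a' : F) :
    D.M (a' * th F m a + a * th F m a') = D.L a' * th F m (D.L a) + D.L a * th F m (D.L a') := by
  have h1 := D.rel a a'
  have h2 := D.rel a' a
  rw [add_comm a' a] at h2
  rw [map_add]
  linear_combination h1 + h2 + (-(D.N (a + a'))) * (CharTwo.two_eq_zero (R := F)) +
    (D.N a + D.N a') * (CharTwo.two_eq_zero (R := F))

theorem Coord.square {φ : MulAut ↥(uSub c)} (D : Coord c φ) (a : F) :
    D.M (a * th F m a) = D.L a * th F m (D.L a) := by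
  have h1 := D.rel a a
  have h2 := D.rel 0 0
  rw [CharTwo.add_self_eq_zero] at h1
  simp only [add_zero, map_zero, zero_mul, mul_zero] at h2
  linear_combination h1 - h2 + (D.N a - D.N 0) * (CharTwo.two_eq_zero (R := F))

/-- The linear part is a semilinear scalar map. -/
theorem Coord.semilinear {φ : MulAut ↥(uSub c)} (D : Coord c φ) :
    ∃ (k : Fˣ) (i : Fin (2 * m + 1)), ∀ x, D.L x = k * x ^ 2 ^ (i : ℕ) := by
  classical
  haveI : ExpChar F 2 := ExpChar.prime Nat.prime_two
  have hN : 3 ≤ 2 * m + 1 := by have := c.hm; omega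
  obtain ⟨a, ha⟩ := exists_linearized hN c.hF D.L
  obtain ⟨b, hb⟩ := exists_linearized hN c.hF D.M
  let s : Fin (2 * m + 1) := ⟨m + 1, by have := c.hm; omega⟩
  have hth : ∀ (x : F) (j : Fin (2 * m + 1)),
      th F m (x ^ 2 ^ (j : ℕ)) = x ^ 2 ^ ((j + s : Fin (2 * m + 1)) : ℕ) := by
    intro x j
    rw [th_apply, ← pow_mul, ← pow_add, Fin.val_add, show (s : ℕ) = m + 1 from rfl]
    by_cases hlt : (j : ℕ) + (m + 1) < 2 * m + 1
    · rw [Nat.mod_eq_of_lt hlt]
    · have := j.isLt
      rw [Nat.mod_eq_sub_mod (by omega), Nat.mod_eq_of_lt (by omega)]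
      conv_lhs => rw [show (j : ℕ) + (m + 1) = ((j : ℕ) + (m + 1) - (2 * m + 1)) + (2 * m + 1) by omega,
        pow_add, mul_comm, pow_mul, ← c.hF, FiniteField.pow_card]
  obtain ⟨hdiag, hoff⟩ := coeff_pair hN c.hF
    (fun u v => a u * th F m (a (v - s)) - if v = u + s then b u else 0) fun x => by
      have h1 : ∀ u : Fin (2 * m + 1), ∑ v, (if v = u + s then b u else 0) * (x ^ 2 ^ (u : ℕ) * x ^ 2 ^ (v : ℕ)) =
          b u * (x * th F m x) ^ 2 ^ (u : ℕ) := by
        intro u
        rw [Finset.sum_eq_single (u + s) (fun v _ hv => by rw [if_neg hv, zero_mul]) (by simp), if_pos rfl,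
          mul_pow, ← hth, ← map_pow]
      have h2 : ∑ u, ∑ v, a u * th F m (a (v - s)) * (x ^ 2 ^ (u : ℕ) * x ^ 2 ^ (v : ℕ)) =
          D.L x * th F m (D.L x) := by
        rw [ha, map_sum, Finset.sum_mul_sum]
        refine Finset.sum_congr rfl fun u _ => ?_
        rw [← Equiv.sum_comp (Equiv.addRight s)]
        refine Finset.sum_congr rfl fun j _ => ?_
        rw [Equiv.coe_addRight, add_sub_cancel_right, map_mul, hth]
        ring
      simp only [sub_mul, Finset.sum_sub_distrib, h1, h2]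
      rw [← hb, D.square, sub_self]
  have hs0 : s ≠ 0 := fun e => by simpa [s] using congrArg Fin.val e
  -- no two nonzero coefficients at distance `s`
  have hdist : ∀ j, a j = 0 ∨ a (j - s) = 0 := by
    intro j
    have h := hdiag j
    rw [if_neg (fun e => hs0 (by simpa using e.symm)), sub_zero, mul_eq_zero] at h
    exact h.imp id fun h => (map_eq_zero _).mp h
  have hclose : ∀ i j, a i ≠ 0 → a j ≠ 0 → j = i ∨ j = i - 1 := by
    intro i j hi hj
    by_contra hcon
    push Not at hcon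
    have hne : i ≠ j + s := by
      rintro rfl
      rcases hdist (j + s) with h | h
      · exact hi h
      · exact hj (by simpa using h)
    have h := hoff i (j + s) hne
    have h2 : s + s = 1 := Fin.ext (by
      rw [Fin.val_add, show (s : ℕ) = m + 1 from rfl, show m + 1 + (m + 1) = 1 + (2 * m + 1) by omega,
        Nat.add_mod_right, Fin.val_one'])
    have e1 : ¬ j + s = i + s := fun e => hcon.1 (add_right_cancel e)
    have e2 : ¬ i = j + s + s := fun e => hcon.2 (by rw [e, add_assoc, h2, add_sub_cancel_right])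
    rw [if_neg e1, if_neg e2, sub_zero, sub_zero, add_sub_cancel_right] at h
    have h3 : a (j + s) ≠ 0 := by
      intro h4
      rw [h4, zero_mul, add_zero, mul_eq_zero, map_eq_zero] at h
      exact h.elim hi hj
    rcases hdist (j + s) with h' | h'
    · exact h3 h'
    · exact hj (by simpa using h')
  obtain ⟨i, hi⟩ : ∃ i, a i ≠ 0 := by
    by_contra h
    push Not at h
    obtain ⟨x, hx⟩ : ∃ x : ↥(uSub c), ∃ a' b', ((φ x : ↥(uSub c)) : ↥(Cfsg.Sz F m)) = uG c a' b' ∧ a' ≠ 0 :=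
      ⟨φ.symm ⟨uG c 1 0, uG_mem_uSub c 1 0⟩, 1, 0, by rw [MulEquiv.apply_symm_apply], one_ne_zero⟩
    obtain ⟨a', b', e, ha'⟩ := hx
    obtain ⟨p, q, hpq⟩ := (mem_uSub c).1 x.2
    rw [show x = ⟨uG c p q, uG_mem_uSub c p q⟩ from Subtype.ext hpq, D.eq] at e
    refine ha' ?_
    rw [← (uG_inj c e).1, ha]
    exact Finset.sum_eq_zero fun j _ => by rw [h j, zero_mul]
  refine ⟨Units.mk0 (a i) hi, i, fun x => ?_⟩
  rw [ha, Finset.sum_eq_single i]
  · rfl
  · intro j _ hji
    by_contra hj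
    have hj' : a j ≠ 0 := fun h => hj (by rw [h, zero_mul])
    have h1 := (hclose i j hi hj').resolve_left hji
    have h2 := (hclose j i hj' hi).resolve_left (Ne.symm hji)
    rw [h1, sub_sub, eq_comm, sub_eq_self] at h2
    have := congrArg Fin.val h2
    rw [Fin.val_add, Fin.val_one', Fin.val_zero, Nat.mod_eq_of_lt (show 1 < 2 * m + 1 by omega),
      Nat.mod_eq_of_lt (show 2 < 2 * m + 1 by omega)] at this
    omega
  · simp

/-- Coordinates of an element of the root group. -/
noncomputable def co (x : ↥(uSub c)) : F × F :=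
  ⟨Classical.choose ((mem_uSub c).1 x.2), Classical.choose (Classical.choose_spec ((mem_uSub c).1 x.2))⟩

theorem co_spec (x : ↥(uSub c)) : (x : ↥(Cfsg.Sz F m)) = uG c (co c x).1 (co c x).2 :=
  Classical.choose_spec (Classical.choose_spec ((mem_uSub c).1 x.2))

theorem co_mk (a b : F) : co c ⟨uG c a b, uG_mem_uSub c a b⟩ = (a, b) := by
  obtain ⟨e1, e2⟩ := uG_inj c (co_spec c ⟨uG c a b, uG_mem_uSub c a b⟩)
  exact Prod.ext e1.symm e2.symm

theorem co_mul (x y : ↥(uSub c)) :
    co c (x * y) = ((co c x).1 + (co c y).1, (co c x).2 + (co c y).2 + (co c y).1 * th F m (co c x).1) := by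
  rw [← co_mk c ((co c x).1 + (co c y).1) ((co c x).2 + (co c y).2 + (co c y).1 * th F m (co c x).1)]
  congr 1
  refine Subtype.ext ?_
  rw [Subgroup.coe_mul, co_spec c x, co_spec c y, uG_mul]

/-- A semilinear automorphism. -/
noncomputable def semi (k : Fˣ) (i : ℕ) : MulAut ↥(uSub c) :=
  haveI : ExpChar F 2 := ExpChar.prime Nat.prime_two
  MulEquiv.ofBijective
    (MonoidHom.mk'
      (fun x => (⟨uG c ((k : F) * (co c x).1 ^ 2 ^ i) ((k : F) * th F m k * (co c x).2 ^ 2 ^ i),
        uG_mem_uSub c _ _⟩ : ↥(uSub c)))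
      (fun x y => by
        apply Subtype.ext
        rw [Subgroup.coe_mul, co_mul]
        show uG c _ _ = uG c _ _ * uG c _ _
        rw [uG_mul, add_pow_char_pow, add_pow_char_pow, add_pow_char_pow, mul_pow, map_mul, map_pow]
        congr 1 <;> ring))
    (Finite.injective_iff_bijective.mp fun x y h => by
      obtain ⟨e1, e2⟩ := uG_inj c (congrArg Subtype.val h)
      have hk : (k : F) * th F m k ≠ 0 := mul_ne_zero k.ne_zero ((map_ne_zero _).mpr k.ne_zero)
      refine Subtype.ext ?_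
      rw [co_spec c x, co_spec c y, iterateFrobenius_inj F 2 i (mul_left_cancel₀ k.ne_zero e1),
        iterateFrobenius_inj F 2 i (mul_left_cancel₀ hk e2)])

theorem semi_apply (k : Fˣ) (i : ℕ) (a b : F) :
    ((semi c k i ⟨uG c a b, uG_mem_uSub c a b⟩ : ↥(uSub c)) : ↥(Cfsg.Sz F m)) =
      uG c ((k : F) * a ^ 2 ^ i) ((k : F) * th F m k * b ^ 2 ^ i) := by
  show uG c _ _ = _
  rw [co_mk]

/-- The action on the quotient by the centre. -/
noncomputable def quotPerm : MulAut ↥(uSub c) →* Equiv.Perm F :=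
  let L : MulAut ↥(uSub c) → F → F := fun φ => (Classical.choice (exists_coord c φ)).L
  have key : ∀ φ (a b : F), ∃ b', ((φ ⟨uG c a b, uG_mem_uSub c a b⟩ : ↥(uSub c)) : ↥(Cfsg.Sz F m)) =
      uG c (L φ a) b' := fun φ a b => ⟨_, (Classical.choice (exists_coord c φ)).eq a b⟩
  have hmul : ∀ φ ψ (a : F), L (φ * ψ) a = L φ (L ψ a) := fun φ ψ a => by
    obtain ⟨b1, h1⟩ := key (φ * ψ) a 0
    obtain ⟨b2, h2⟩ := key ψ a 0
    obtain ⟨b3, h3⟩ := key φ (L ψ a) b2
    rw [MulAut.mul_apply, show ψ ⟨uG c a 0, uG_mem_uSub c a 0⟩ =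
      ⟨uG c (L ψ a) b2, uG_mem_uSub c _ _⟩ from Subtype.ext h2, h3] at h1
    exact (uG_inj c h1).1.symm
  have hone : ∀ a : F, L 1 a = a := fun a => by
    obtain ⟨b1, h1⟩ := key 1 a 0
    exact (uG_inj c h1).1.symm
  { toFun := fun φ =>
      { toFun := L φ
        invFun := L φ⁻¹
        left_inv := fun a => by rw [← hmul, inv_mul_cancel, hone]
        right_inv := fun a => by rw [← hmul, mul_inv_cancel, hone] }
    map_one' := Equiv.ext hone
    map_mul' := fun φ ψ => Equiv.ext (hmul φ ψ) }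

theorem quotPerm_eq (φ : MulAut ↥(uSub c)) (a b a' b' : F)
    (h : ((φ ⟨uG c a b, uG_mem_uSub c a b⟩ : ↥(uSub c)) : ↥(Cfsg.Sz F m)) = uG c a' b') :
    quotPerm c φ a = a' := by
  have h1 := (Classical.choice (exists_coord c φ)).eq a b
  rw [h] at h1
  exact (uG_inj c h1).1.symm

theorem quotPerm_coord (φ : MulAut ↥(uSub c)) (D : Coord c φ) (a : F) : quotPerm c φ a = D.L a :=
  quotPerm_eq c φ a 0 _ _ (D.eq a 0)

theorem card_range : Nat.card (quotPerm c).range = (2 * m + 1) * (2 ^ (2 * m + 1) - 1) := by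
  haveI : ExpChar F 2 := ExpChar.prime Nat.prime_two
  have hN : 3 ≤ 2 * m + 1 := by have := c.hm; omega
  have hval : ∀ (k : Fˣ) (i : ℕ) (x : F), quotPerm c (semi c k i) x = k * x ^ 2 ^ i := fun k i x =>
    quotPerm_eq c _ x 0 _ _ (semi_apply c k i x 0)
  let f : Fˣ × Fin (2 * m + 1) → (quotPerm c).range := fun p =>
    ⟨quotPerm c (semi c p.1 p.2), ⟨_, rfl⟩⟩
  have hf : Function.Bijective f := by
    constructor
    · rintro ⟨k, i⟩ ⟨k', i'⟩ h
      have h' : ∀ x : F, (k : F) * x ^ 2 ^ (i : ℕ) = k' * x ^ 2 ^ (i' : ℕ) := fun x => by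
        rw [← hval, ← hval]
        exact congrArg (fun σ : Equiv.Perm F => σ x) (congrArg Subtype.val h)
      have hk : k = k' := Units.ext (by simpa using h' 1)
      subst hk
      by_contra hne
      have hii : i ≠ i' := fun e => hne (by rw [e])
      let z : Fin (2 * m + 1) := 0
      have h2 := coeff_pair hN c.hF
        (fun u v => (if v = z then (if u = i then 1 else 0) - (if u = i' then 1 else 0) else 0 : F)) fun x => by
        have h3 := mul_left_cancel₀ k.ne_zero (h' x)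
        have : ∀ u : Fin (2 * m + 1),
            ∑ v, (if v = z then (if u = i then (1 : F) else 0) - (if u = i' then 1 else 0) else 0) *
              (x ^ 2 ^ (u : ℕ) * x ^ 2 ^ (v : ℕ)) =
            ((if u = i then 1 else 0) - (if u = i' then 1 else 0)) * x ^ 2 ^ (u : ℕ) * x := by
          intro u
          rw [Finset.sum_eq_single z (fun v _ hv => by rw [if_neg hv, zero_mul]) (by simp), if_pos rfl]
          simp [z, mul_assoc]
        simp only [this, sub_mul, Finset.sum_sub_distrib, ite_mul, one_mul, zero_mul, Finset.sum_ite_eq',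
          Finset.mem_univ, if_true, h3, sub_self]
      by_cases hi : i = z
      · have h4 := h2.1 z
        rw [if_pos rfl, if_pos hi.symm, if_neg (fun e => hii (hi.trans e)), sub_zero] at h4
        exact one_ne_zero h4
      · have h4 := h2.2 i z hi
        rw [if_pos rfl, if_pos rfl, if_neg hii, if_neg hi, sub_zero, add_zero] at h4
        exact one_ne_zero h4
    · rintro ⟨σ, φ, rfl⟩
      obtain ⟨D⟩ := exists_coord c φ
      obtain ⟨k, i, hL⟩ := D.semilinear
      refine ⟨(k, i), Subtype.ext (Equiv.ext fun x => ?_)⟩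
      show quotPerm c (semi c k i) x = quotPerm c φ x
      rw [hval, quotPerm_coord c φ D, hL]
  rw [← Nat.card_congr (Equiv.ofBijective f hf), Nat.card_prod, Nat.card_units, Nat.card_eq_fintype_card,
    c.hF, Nat.card_fin, mul_comm]

theorem ker_form (φ : MulAut ↥(uSub c)) (hφ : φ ∈ (quotPerm c).ker) :
    ∃ N : F →+ F, ∀ a b, ((φ ⟨uG c a b, uG_mem_uSub c a b⟩ : ↥(uSub c)) : ↥(Cfsg.Sz F m)) =
      uG c a (N a + b) := by
  obtain ⟨D⟩ := exists_coord c φ
  have hL : ∀ a, D.L a = a := fun a => by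
    rw [← quotPerm_coord c φ D, MonoidHom.mem_ker.mp hφ, Equiv.Perm.one_apply]
  have hM : ∀ b, D.M b = b := fun b => by
    rcases eq_or_ne b 0 with rfl | hb
    · exact map_zero _
    obtain ⟨h, hh⟩ := (theta_units_surj c b hb).2.2
    rw [← hh, D.square, hL]
  refine ⟨AddMonoidHom.mk' D.N fun a a' => ?_, fun a b => ?_⟩
  · have := D.rel a a'
    rw [hM, hL, hL] at this
    exact add_right_cancel this
  · show _ = uG c a (D.N a + b)
    rw [D.eq, hL, hM]

theorem card_ker : Nat.card (quotPerm c).ker = 2 ^ ((2 * m + 1) ^ 2) := by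
  classical
  haveI : Fact (Nat.Prime 2) := ⟨Nat.prime_two⟩
  let u : F → F → ↥(uSub c) := fun a b => ⟨uG c a b, uG_mem_uSub c a b⟩
  have hu : ∀ x : ↥(uSub c), ∃ a b, x = u a b := fun x => by
    obtain ⟨a, b, e⟩ := (mem_uSub c).1 x.2
    exact ⟨a, b, Subtype.ext e⟩
  choose A B hAB using hu
  have hA : ∀ a b, A (u a b) = a ∧ B (u a b) = b := fun a b => by
    obtain ⟨e1, e2⟩ := uG_inj c (congrArg Subtype.val (hAB (u a b)))
    exact ⟨e1.symm, e2.symm⟩
  have hmul : ∀ x y, A (x * y) = A x + A y ∧ B (x * y) = B x + B y + A y * th F m (A x) := fun x y => by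
    have h : x * y = u (A x + A y) (B x + B y + A y * th F m (A x)) := by
      conv_lhs => rw [hAB x, hAB y]
      exact Subtype.ext (uG_mul c _ _ _ _)
    rw [h]; exact hA _ _
  let g : (F →+ F) → MulAut ↥(uSub c) := fun N =>
    MulEquiv.ofBijective (MonoidHom.mk' (fun x => u (A x) (N (A x) + B x)) fun x y => by
        rw [(hmul x y).1, (hmul x y).2, map_add]
        refine Subtype.ext ?_
        rw [Subgroup.coe_mul]
        show uG c _ _ = uG c _ _ * uG c _ _
        rw [uG_mul]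
        congr 1
        ring)
      (Finite.injective_iff_bijective.mp fun x y h => by
        obtain ⟨e1, e2⟩ := uG_inj c (congrArg Subtype.val h)
        rw [hAB x, hAB y, e1]
        rw [e1] at e2
        rw [add_left_cancel e2])
  have hg : ∀ N a b, g N (u a b) = u a (N a + b) := fun N a b => by
    show u _ _ = _
    rw [(hA a b).1, (hA a b).2]
  let f : (F →+ F) → (quotPerm c).ker := fun N => ⟨g N, MonoidHom.mem_ker.mpr (Equiv.ext fun a =>
    quotPerm_eq c _ a 0 _ _ (congrArg Subtype.val (hg N a 0)))⟩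
  have hf : Function.Bijective f := by
    constructor
    · intro N N' h
      refine AddMonoidHom.ext fun a => ?_
      have h1 : g N (u a 0) = g N' (u a 0) :=
        DFunLike.congr_fun (congrArg Subtype.val h) (u a 0)
      rw [hg, hg] at h1
      simpa using (uG_inj c (congrArg Subtype.val h1)).2
    · rintro ⟨φ, hφ⟩
      obtain ⟨N, hN⟩ := ker_form c φ hφ
      refine ⟨N, Subtype.ext (MulEquiv.ext fun x => ?_)⟩
      rw [hAB x]
      show g N _ = φ _
      rw [hg]
      exact Subtype.ext (hN _ _).symm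
  rw [← Nat.card_congr (Equiv.ofBijective f hf)]
  letI : Algebra (ZMod 2) F := ZMod.algebra F 2
  have hrank : Module.finrank (ZMod 2) F = 2 * m + 1 := by
    have := Module.card_eq_pow_finrank (K := ZMod 2) (V := F)
    rw [c.hF, ZMod.card] at this
    exact (Nat.pow_right_injective le_rfl this).symm
  let e : (Fin (2 * m + 1) → F) ≃ (F →+ F) :=
    ((Module.finBasisOfFinrankEq (ZMod 2) F hrank).constr (ZMod 2)).toEquiv.trans
      { toFun := fun f => f.toAddMonoidHom
        invFun := fun f => AddMonoidHom.toZModLinearMap 2 f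
        left_inv := fun f => LinearMap.ext fun _ => rfl
        right_inv := fun f => AddMonoidHom.ext fun _ => rfl }
  rw [← Nat.card_congr e, Nat.card_fun, Nat.card_fin, Nat.card_eq_fintype_card, c.hF, ← pow_mul, sq]

theorem ker_elementary : Cfsg.IsElementaryAbelian 2 (quotPerm c).ker := by
  have key : ∀ φ ψ : MulAut ↥(uSub c), φ ∈ (quotPerm c).ker → ψ ∈ (quotPerm c).ker →
      φ * ψ = ψ * φ ∧ φ * φ = 1 := by
    intro φ ψ hφ hψ
    obtain ⟨N, hN⟩ := ker_form c φ hφ
    obtain ⟨N', hN'⟩ := ker_form c ψ hψ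
    have e : ∀ a b, φ ⟨uG c a b, uG_mem_uSub c a b⟩ = ⟨uG c a (N a + b), uG_mem_uSub c _ _⟩ :=
      fun a b => Subtype.ext (hN a b)
    have e' : ∀ a b, ψ ⟨uG c a b, uG_mem_uSub c a b⟩ = ⟨uG c a (N' a + b), uG_mem_uSub c _ _⟩ :=
      fun a b => Subtype.ext (hN' a b)
    refine ⟨MulEquiv.ext fun x => ?_, MulEquiv.ext fun x => ?_⟩ <;> obtain ⟨a, b, hx⟩ := (mem_uSub c).1 x.2 <;>
      rw [show x = ⟨uG c a b, uG_mem_uSub c a b⟩ from Subtype.ext hx]
    · simp only [MulAut.mul_apply, e, e', add_left_comm]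
    · simp only [MulAut.mul_apply, e, ← add_assoc, CharTwo.add_self_eq_zero, zero_add, MulAut.one_apply]
  exact ⟨⟨⟨fun x y => Subtype.ext (key x y x.2 y.2).1⟩⟩, fun x hx => by rw [sq]; exact (key x x hx hx).2⟩

theorem pCore_eq : Cfsg.pCore 2 (MulAut ↥(uSub c)) = (quotPerm c).ker := by
  haveI : Fact (Nat.Prime 2) := ⟨Nat.prime_two⟩
  refine le_antisymm (sSup_le ?_) (le_sSup ⟨inferInstance, IsPGroup.of_card (card_ker c)⟩)
  rintro N ⟨-, hN⟩ x hx
  obtain ⟨j, hj⟩ := hN ⟨x, hx⟩
  have hj' : x ^ 2 ^ j = 1 := by simpa using congrArg Subtype.val hj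
  have h1 : orderOf (quotPerm c x) ∣ 2 ^ j := orderOf_dvd_of_pow_eq_one (by rw [← map_pow, hj', map_one])
  have h2 : orderOf (quotPerm c x) ∣ (2 * m + 1) * (2 ^ (2 * m + 1) - 1) := by
    rw [← card_range c, ← Subgroup.orderOf_mk (quotPerm c x) (show quotPerm c x ∈ (quotPerm c).range from ⟨x, rfl⟩)]
    exact orderOf_dvd_natCard _
  have hodd : Nat.Coprime (2 ^ j) ((2 * m + 1) * (2 ^ (2 * m + 1) - 1)) := by
    refine Nat.Coprime.pow_left _ ((Nat.coprime_two_left).mpr ?_)
    refine (odd_two_mul_add_one m).mul ?_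
    rw [Nat.odd_sub (Nat.one_le_two_pow)]
    simp [Nat.even_pow]
  exact MonoidHom.mem_ker.mpr (orderOf_eq_one_iff.mp (Nat.eq_one_of_dvd_coprimes hodd h1 h2))

theorem card_aut : Nat.card (MulAut ↥(uSub c)) =
    2 ^ ((2 * m + 1) ^ 2) * ((2 * m + 1) * (2 ^ (2 * m + 1) - 1)) := by
  rw [← card_ker c, ← card_range c, ← Subgroup.index_ker, Subgroup.card_mul_index]

end

/-- Transport of the automorphism group. -/
theorem transport {A B : Type*} [Group A] [Group B] (e : A ≃* B) (K : ℕ)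
    (h1 : Cfsg.IsElementaryAbelian 2 (Cfsg.pCore 2 A)) (h2 : Nat.card ↥(Cfsg.pCore 2 A) = K) :
    Cfsg.IsElementaryAbelian 2 (Cfsg.pCore 2 B) ∧ Nat.card ↥(Cfsg.pCore 2 B) = K := by
  have hle : ∀ {A B : Type _} [Group A] [Group B] (e : A ≃* B),
      (Cfsg.pCore 2 A).map e.toMonoidHom ≤ Cfsg.pCore 2 B := by
    intro A B _ _ e
    unfold Cfsg.pCore
    rw [Subgroup.map_le_iff_le_comap]
    refine sSup_le fun N hN => Subgroup.map_le_iff_le_comap.mp (le_sSup ⟨hN.1.map _ e.surjective, hN.2.map _⟩)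
  have heq : Cfsg.pCore 2 B = (Cfsg.pCore 2 A).map e.toMonoidHom := by
    refine le_antisymm (fun x hx => ?_) (hle e)
    have : e.symm x ∈ Cfsg.pCore 2 A := by
      obtain ⟨j⟩ : Nonempty Unit := ⟨()⟩
      have hmap : (Cfsg.pCore 2 B).map e.symm.toMonoidHom ≤ Cfsg.pCore 2 A := by
        unfold Cfsg.pCore
        rw [Subgroup.map_le_iff_le_comap]
        exact sSup_le fun N hN =>
          Subgroup.map_le_iff_le_comap.mp (le_sSup ⟨hN.1.map _ e.symm.surjective, hN.2.map _⟩)
      exact hmap ⟨x, hx, rfl⟩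
    exact ⟨e.symm x, this, e.apply_symm_apply x⟩
  refine ⟨⟨⟨⟨?_⟩⟩, ?_⟩, ?_⟩
  · rintro ⟨x, hx⟩ ⟨y, hy⟩
    rw [heq] at hx hy
    obtain ⟨x', hx', rfl⟩ := hx
    obtain ⟨y', hy', rfl⟩ := hy
    refine Subtype.ext ?_
    show e x' * e y' = e y' * e x'
    rw [← map_mul, ← map_mul]
    exact congrArg e (congrArg Subtype.val (h1.1.is_comm.comm ⟨x', hx'⟩ ⟨y', hy'⟩))
  · intro x hx
    rw [heq] at hx
    obtain ⟨x', hx', rfl⟩ := hx
    show e x' ^ 2 = 1
    rw [← map_pow, h1.2 x' hx', map_one]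
  · rw [heq, Subgroup.card_map_of_injective e.injective, h2]

/-- Let S be a Sylow 2-subgroup of the Suzuki group Sz(q), q = 2ⁿ with n = 2m + 1 ≥ 3 (realised as 4 × 4 matrices over the field with q elements). Then the largest normal 2-subgroup of the automorphism group of S is elementary abelian of order 2^(n²), and the automorphism group of S has order 2^(n²) · n · (q − 1). -/
theorem result {S : Type*} [Group S] [Finite S] (m : ℕ) (hm : 1 ≤ m)
    {F : Type*} [Field F] [Fintype F] (hF : Fintype.card F = 2 ^ (2 * m + 1))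
    (P : Sylow 2 ↥(Cfsg.Lie.Sz F (2 ^ (m + 1)))) (hS : Nonempty (S ≃* ↥(P : Subgroup ↥(Cfsg.Lie.Sz F (2 ^ (m + 1)))))) :
    Cfsg.IsElementaryAbelian 2 (Cfsg.pCore 2 (MulAut S)) ∧ Nat.card ↥(Cfsg.pCore 2 (MulAut S)) = 2 ^ ((2 * m + 1) ^ 2) ∧
      Nat.card (MulAut S) = 2 ^ ((2 * m + 1) ^ 2) * ((2 * m + 1) * (2 ^ (2 * m + 1) - 1)) := by
  have c : Ctx F m := ⟨hm, hF⟩
  haveI := charP_two c
  obtain ⟨e0⟩ := hS
  haveI : Fact (Nat.Prime 2) := ⟨Nat.prime_two⟩
  let l := lieEquiv c
  obtain ⟨Q, hQ⟩ := exists_sylow c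
  have hQP : Nonempty (↥(uSub c) ≃* ↥(P : Subgroup ↥(Cfsg.Lie.Sz F (2 ^ (m + 1))))) := by
    let Q' := Q.mapSurjective (f := l.toMonoidHom) l.surjective
    exact ⟨((MulEquiv.subgroupCongr hQ.symm).trans
      ((Q : Subgroup ↥(Cfsg.Sz F m)).equivMapOfInjective l.toMonoidHom l.injective)).trans (Q'.equiv P)⟩
  obtain ⟨e1⟩ := hQP
  let e : MulAut ↥(uSub c) ≃* MulAut S := MulAut.congr (e1.trans e0.symm)
  obtain ⟨r1, r2⟩ := transport e _ ((pCore_eq c).symm ▸ ker_elementary c)
    ((congrArg (fun K : Subgroup (MulAut ↥(uSub c)) => Nat.card K) (pCore_eq c)).trans (card_ker c))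
  exact ⟨r1, r2, (Nat.card_congr e.toEquiv).symm.trans (card_aut c)⟩

end Cfsg.Agent.S2556
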