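import Cfsg.Statements.S2558
import Cfsg.Agent.Lib.IsoClassCount.Upper
import Cfsg.Agent.Lib.IsoClassCount.Lower
import Cfsg.Agent.Lib.IsoClassCount.Bridge

set_option autoImplicit false
open Cfsg
open scoped Matrix

namespace Cfsg.Agent.S2558

/-- The number of conjugacy classes of the full orthogonal groups O⁺(2n,q) and O⁻(2n,q), q odd, 2n ≥ 4: for F a finite field of odd order q and n ≥ 2, the number k of conjugacy classes of the isometry group of the hyperbolic quadratic form Σ xᵢyᵢ on F^{2n}, and likewise of the elliptic form Σ xᵢyᵢ + (z₁² + a z₁z₂ + b z₂²) with anisotropic binary part, satisfies q^n/2 ≤ k ≤ 9.5·q^n. -/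
theorem result {F : Type*} [Field F] [Fintype F] (hodd : Odd (Fintype.card F)) (n : ℕ) (hn : 2 ≤ n) (a b : F) (hab : ∀ z₁ z₂ : F, z₁ ^ 2 + a * z₁ * z₂ + b * z₂ ^ 2 = 0 → z₁ = 0 ∧ z₂ = 0) :
    (Fintype.card F ^ n ≤ 2 * Nat.card (ConjClasses ↥(Cfsg.isometryGroup F (Cfsg.quadFormPlus n F))) ∧
      2 * Nat.card (ConjClasses ↥(Cfsg.isometryGroup F (Cfsg.quadFormPlus n F))) ≤ 19 * Fintype.card F ^ n) ∧
    (Fintype.card F ^ n ≤ 2 * Nat.card (ConjClasses ↥(Cfsg.isometryGroup F (Cfsg.quadFormMinus (n - 1) F a b))) ∧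
      2 * Nat.card (ConjClasses ↥(Cfsg.isometryGroup F (Cfsg.quadFormMinus (n - 1) F a b))) ≤ 19 * Fintype.card F ^ n) := by
  classical
  have h2 : (2 : F) ≠ 0 := Ring.two_ne_zero fun h => by
    have hev := FiniteField.even_card_of_char_two h
    rw [Nat.odd_iff] at hodd
    omega
  have both : ∀ G : Matrix (Fin (n + n)) (Fin (n + n)) F, G.det ≠ 0 → Gᵀ = G →
      Fintype.card F ^ n ≤ 2 * Nat.card (ConjClasses ↥(Agent.Lib.IsoClassCount.Iso G)) ∧
        2 * Nat.card (ConjClasses ↥(Agent.Lib.IsoClassCount.Iso G)) ≤ 19 * Fintype.card F ^ n := fun G hd hs =>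
    ⟨Agent.Lib.IsoClassCount.orth_lower h2 hn G hd hs,
      Agent.Lib.IsoClassCount.orth_upper h2 (by omega) G hd (by rw [one_smul]; exact hs)⟩
  obtain ⟨k, rfl⟩ : ∃ k, n = k + 1 := ⟨n - 1, by omega⟩
  refine ⟨?_, ?_⟩
  · let M : Matrix (Fin (k + 1) ⊕ Fin (k + 1)) (Fin (k + 1) ⊕ Fin (k + 1)) F := Matrix.fromBlocks 0 1 1 0
    have hM : Mᵀ = M := by simp [M, Matrix.fromBlocks_transpose]
    have hMd : M.det ≠ 0 := by
      intro h
      have h1 : M * M = 1 := by simp [M, Matrix.fromBlocks_multiply, Matrix.fromBlocks_one]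
      have := congrArg Matrix.det h1
      simp [Matrix.det_mul, h] at this
    have hQ : ∀ v, 2 * Cfsg.quadFormPlus (k + 1) F v = v ⬝ᵥ M *ᵥ v := by
      intro v
      simp only [M, Matrix.mulVec, dotProduct, Fintype.sum_sum_type, Cfsg.quadFormPlus, Matrix.fromBlocks_apply₁₁,
        Matrix.fromBlocks_apply₁₂, Matrix.fromBlocks_apply₂₁, Matrix.fromBlocks_apply₂₂, Matrix.zero_apply,
        Matrix.one_apply, zero_mul, ite_mul, one_mul, Finset.sum_const_zero, zero_add, add_zero, Finset.sum_ite_eq,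
        Finset.mem_univ, if_true]
      rw [Finset.mul_sum, ← Finset.sum_add_distrib]
      exact Finset.sum_congr rfl fun i _ => by ring
    rw [Agent.Lib.IsoClassCount.card_iso_classes h2 _ M hM hQ finSumFinEquiv]
    exact both _ (by rw [Matrix.det_reindex_self]; exact hMd) (by rw [Matrix.transpose_reindex, hM])
  · rw [Nat.add_sub_cancel]
    let M0 : Matrix (Fin k ⊕ Fin k) (Fin k ⊕ Fin k) F := Matrix.fromBlocks 0 1 1 0
    let M : Matrix ((Fin k ⊕ Fin k) ⊕ Fin 2) ((Fin k ⊕ Fin k) ⊕ Fin 2) F := Matrix.fromBlocks M0 0 0 !![2, a; a, 2 * b]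
    have hM : Mᵀ = M := by
      simp only [M, M0, Matrix.fromBlocks_transpose, Matrix.transpose_zero, Matrix.transpose_one]
      congr 1
      ext i j
      fin_cases i <;> fin_cases j <;> rfl
    have hMd : M.det ≠ 0 := by
      rw [Matrix.det_fromBlocks_zero₂₁, Matrix.det_fin_two_of]
      refine mul_ne_zero ?_ ?_
      · intro h
        have h1 : M0 * M0 = 1 := by simp [M0, Matrix.fromBlocks_multiply, Matrix.fromBlocks_one]
        have := congrArg Matrix.det h1
        simp [Matrix.det_mul, h] at this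
      · intro h
        obtain ⟨-, h1⟩ := hab (-a / 2) 1 (by field_simp; linear_combination h)
        exact one_ne_zero h1
    have hQ : ∀ v, 2 * Cfsg.quadFormMinus k F a b v = v ⬝ᵥ M *ᵥ v := by
      intro v
      simp only [M, M0, Matrix.mulVec, dotProduct, Fintype.sum_sum_type, Cfsg.quadFormMinus, Matrix.fromBlocks_apply₁₁,
        Matrix.fromBlocks_apply₁₂, Matrix.fromBlocks_apply₂₁, Matrix.fromBlocks_apply₂₂, Matrix.zero_apply,
        Matrix.one_apply, zero_mul, ite_mul, one_mul, Finset.sum_const_zero, zero_add, add_zero, Finset.sum_ite_eq,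
        Finset.mem_univ, if_true, Fin.sum_univ_two, Matrix.of_apply, Matrix.cons_val', Matrix.cons_val_zero,
        Matrix.cons_val_one, Matrix.cons_val_fin_one]
      rw [mul_add, Finset.mul_sum, ← Finset.sum_add_distrib]
      congr 1
      · exact Finset.sum_congr rfl fun i _ => by ring
      · ring
    rw [Agent.Lib.IsoClassCount.card_iso_classes h2 _ M hM hQ
      ((finSumFinEquiv.sumCongr (Equiv.refl (Fin 2))).trans
        (finSumFinEquiv.trans (finCongr (show k + k + 2 = k + 1 + (k + 1) by omega))))]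
    exact both _ (by rw [Matrix.det_reindex_self]; exact hMd) (by rw [Matrix.transpose_reindex, hM])

end Cfsg.Agent.S2558
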