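import Cfsg.Statements.S2560
import Cfsg.Agent.Lib.IsoClassCount.OddUpper
import Cfsg.Agent.Lib.IsoClassCount.OddLower

set_option autoImplicit false
open Cfsg
open scoped Matrix

namespace Cfsg.Agent.S2560

/-- The number of conjugacy classes of Ω(2n+1,q), q odd, n ≥ 2: for F a finite field of odd order q, the number k of conjugacy classes of the commutator subgroup of the isometry group of the quadratic form x₀² + Σ xᵢyᵢ on F^{2n+1} satisfies q^n/2 ≤ k ≤ 7.3·q^n. -/
theorem result {F : Type*} [Field F] [Fintype F] (hodd : Odd (Fintype.card F)) (n : ℕ) (hn : 2 ≤ n) :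
    Fintype.card F ^ n ≤ 2 * Nat.card (ConjClasses ↥(Cfsg.Omega F (Cfsg.quadFormOdd n F))) ∧
      10 * Nat.card (ConjClasses ↥(Cfsg.Omega F (Cfsg.quadFormOdd n F))) ≤ 73 * Fintype.card F ^ n := by
  classical
  have h2 : (2 : F) ≠ 0 := Ring.two_ne_zero fun h => by
    have hev := FiniteField.even_card_of_char_two h
    rw [Nat.odd_iff] at hodd
    omega
  let M0 : Matrix (Fin n ⊕ Fin n) (Fin n ⊕ Fin n) F := Matrix.fromBlocks 0 1 1 0
  let M : Matrix (Unit ⊕ (Fin n ⊕ Fin n)) (Unit ⊕ (Fin n ⊕ Fin n)) F := Matrix.fromBlocks ((2 : F) • 1) 0 0 M0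
  have hM : Mᵀ = M := by simp [M, M0, Matrix.fromBlocks_transpose]
  have hMd : M.det ≠ 0 := by
    rw [Matrix.det_fromBlocks_zero₂₁]
    refine mul_ne_zero (by simp [h2]) fun h => ?_
    have h1 : M0 * M0 = 1 := by simp [M0, Matrix.fromBlocks_multiply, Matrix.fromBlocks_one]
    have := congrArg Matrix.det h1
    simp [Matrix.det_mul, h] at this
  have hQ : ∀ v, 2 * Cfsg.quadFormOdd n F v = v ⬝ᵥ M *ᵥ v := by
    intro v
    simp only [M, M0, Matrix.mulVec, dotProduct, Fintype.sum_sum_type, Cfsg.quadFormOdd, Matrix.fromBlocks_apply₁₁,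
      Matrix.fromBlocks_apply₁₂, Matrix.fromBlocks_apply₂₁, Matrix.fromBlocks_apply₂₂, Matrix.zero_apply,
      Matrix.smul_apply, Matrix.one_apply, zero_mul, ite_mul, one_mul, Finset.sum_const_zero, zero_add, add_zero,
      Finset.sum_ite_eq, Finset.mem_univ, if_true, Finset.univ_unique, Finset.sum_singleton, smul_eq_mul, mul_one]
    rw [mul_add, Finset.mul_sum, ← Finset.sum_add_distrib]
    congr 1
    · simp [PUnit.default_eq_unit]; ring
    · exact Finset.sum_congr rfl fun i _ => by ring
  let e : Unit ⊕ (Fin n ⊕ Fin n) ≃ Fin (n + n + 1) :=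
    (Equiv.sumComm _ _).trans ((Equiv.sumCongr finSumFinEquiv finOneEquiv.symm).trans finSumFinEquiv)
  set G := Matrix.reindex e e M
  have hG : G.det ≠ 0 := by rw [Matrix.det_reindex_self]; exact hMd
  have hGs : Gᵀ = G := by rw [Matrix.transpose_reindex, hM]
  have hN : Odd (n + n + 1) := ⟨n, by omega⟩
  let E : ↥(Cfsg.isometryGroup F (Cfsg.quadFormOdd n F)) ≃* ↥(Agent.Lib.IsoClassCount.Iso G) :=
    (Subgroup.equivMapOfInjective _ (Agent.Lib.IsoClassCount.glE e).toMonoidHom
      (Agent.Lib.IsoClassCount.glE e).injective).trans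
      (MulEquiv.subgroupCongr (Agent.Lib.IsoClassCount.iso_map h2 _ M hM hQ e))
  have hE : (Cfsg.Omega F (Cfsg.quadFormOdd n F)).map E.toMonoidHom = commutator ↥(Agent.Lib.IsoClassCount.Iso G) := by
    rw [Cfsg.Omega, commutator_def, commutator_def, Subgroup.map_commutator,
      Subgroup.map_top_of_surjective _ E.surjective]
  rw [Agent.Lib.IsoClassCount.card_classes_congr ((E.subgroupMap _).trans (MulEquiv.subgroupCongr hE))]
  constructor
  · have h1 := Agent.Lib.IsoClassCount.orth_lower_odd h2 G hG hGs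
    have h3 := (Agent.S4200.result (commutator ↥(Agent.Lib.IsoClassCount.Iso G))).2.1
    have h4 := (Agent.Lib.IsoClassCount.index_omega h2 hN hGs hG).2
    have h5 := h1.trans (h3.trans (Nat.mul_le_mul_right _ h4))
    omega
  · have h1 := Agent.Lib.IsoClassCount.omega_classes_le h2 hN (by omega) hGs hG
    have h3 := Agent.Lib.IsoClassCount.three_le_card h2
    by_cases hq : Fintype.card F = 3
    · have h4 := Agent.Lib.IsoClassCount.upper_three (F := F) h2 hq (m := n)
      omega
    · have h4 := Agent.Lib.IsoClassCount.upper_five (F := F) h2 (by rw [Nat.odd_iff] at hodd; omega) (m := n)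
      omega

end Cfsg.Agent.S2560
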