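import Mathlib
import Cfsg.Statements.S2758
import Cfsg.Agent.Lib.LocalChar.Dihedral
import Cfsg.Agent.Lib.LocalChar.Core

set_option autoImplicit false

open scoped commutatorElement Pointwise

open Cfsg.Agent.Lib.LocalChar

namespace Cfsg.Agent.S2758

open Cfsg.Agent.Lib.LocalChar

lemma two_part {G : Type*} [Group G] [Finite G] (g : G) :
    ∃ m : ℕ, Odd m ∧ ∃ k : ℕ, orderOf (g ^ m) = 2 ^ k := by
  obtain ⟨k, m, hm, hkm⟩ := Nat.exists_eq_pow_mul_and_not_dvd (orderOf_pos g).ne' 2 (by norm_num)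
  refine ⟨m, Nat.not_even_iff_odd.1 fun h => hm (even_iff_two_dvd.1 h), k, ?_⟩
  rw [orderOf_pow_of_dvd (fun h => hm (by simp [h])) ⟨2 ^ k, by rw [hkm, mul_comm]⟩, hkm,
    Nat.mul_div_cancel _ (Nat.pos_of_ne_zero fun h => hm (by simp [h]))]

variable {G : Type*} [Group G] [Finite G] {p : ℕ} [Fact p.Prime]

lemma exists_normalizing (hp : p ≠ 2) (h : Cfsg.Involves (DihedralGroup p) G) :
    ∃ (x : G) (P : Subgroup G), (∃ k : ℕ, orderOf x = 2 ^ k) ∧ IsPGroup p ↥P ∧
      x ∈ Subgroup.normalizer (P : Set G) ∧ x ∉ Subgroup.centralizer (P : Set G) := by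
  obtain ⟨K, R, hR, ⟨e⟩⟩ := h
  set f : ↥K →* DihedralGroup p := e.toMonoidHom.comp (QuotientGroup.mk' (R.subgroupOf K)) with hfdef
  have hf : Function.Surjective f := e.surjective.comp (QuotientGroup.mk'_surjective _)
  set C : Subgroup (DihedralGroup p) := Subgroup.zpowers (DihedralGroup.r 1) with hC
  have hCcard : Nat.card C = p := by rw [Nat.card_zpowers, DihedralGroup.orderOf_r_one]
  have hCidx : C.index = 2 := by
    have h1 := C.card_mul_index
    rw [hCcard, DihedralGroup.nat_card] at h1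
    exact Nat.eq_of_mul_eq_mul_left (Fact.out : p.Prime).pos (by rw [h1, mul_comm])
  have hCn : C.Normal := Subgroup.normal_of_index_eq_two hCidx
  set L := C.comap f with hL
  have hLn : L.Normal := hCn.comap f
  obtain ⟨P⟩ : Nonempty (Sylow p ↥L) := inferInstance
  set P' := (P : Subgroup ↥L).map L.subtype with hP'
  -- the rotations are the image of the Sylow subgroup
  have hr : ∃ u ∈ P', f u = DihedralGroup.r 1 := by
    let g : ↥L →* ↥C := f.subgroupComap C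
    have hg : Function.Surjective g := MonoidHom.subgroupComap_surjective_of_surjective f C hf
    have htop : ((P.mapSurjective hg : Sylow p ↥C) : Subgroup ↥C) = ⊤ :=
      ((P.mapSurjective hg).is_maximal' ((IsPGroup.of_card (n := 1) (by rw [hCcard, pow_one])).to_subgroup ⊤)
        le_top).symm
    have : (⟨DihedralGroup.r 1, Subgroup.mem_zpowers _⟩ : ↥C) ∈ ((P.mapSurjective hg : Sylow p ↥C) : Subgroup ↥C) :=
      htop ▸ Subgroup.mem_top _
    obtain ⟨u, hu, huv⟩ := this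
    exact ⟨u, ⟨u, hu, rfl⟩, congrArg Subtype.val huv⟩
  obtain ⟨u, huP, hu⟩ := hr
  obtain ⟨t, ht⟩ := hf (DihedralGroup.sr 0)
  have htop := Sylow.normalizer_sup_eq_top P
  obtain ⟨n, hn, l, hl, hnl⟩ := Subgroup.mem_sup_of_normal_right.1 (htop ▸ Subgroup.mem_top t)
  obtain ⟨m, hm, k, hk⟩ := two_part (n : G)
  refine ⟨(n : G) ^ m, P'.map K.subtype, ⟨k, hk⟩, (P.isPGroup'.map _).map _, ?_, ?_⟩
  · exact Subgroup.le_normalizer_map K.subtype ⟨n ^ m, pow_mem hn m, by simp⟩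
  · intro hc
    have hcomm : n ^ m * u = u * n ^ m :=
      Subtype.ext (by simpa using ((hc (u : G) ⟨u, huP, rfl⟩).symm : (n : G) ^ m * (u : G) = (u : G) * (n : G) ^ m))
    have hfn : ∃ i, f n = DihedralGroup.sr i := by
      rcases hfi : f n with i | i
      · exfalso
        have h1 : f n ∈ C := by
          rw [hfi]
          exact ⟨(i.cast : ℤ), by simp [DihedralGroup.r_one_zpow]⟩
        have h2 : f t ∈ C := by rw [← hnl, map_mul]; exact mul_mem h1 hl
        rw [ht] at h2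
        obtain ⟨j, hj⟩ := h2
        simp [DihedralGroup.r_one_zpow] at hj
      · exact ⟨i, rfl⟩
    obtain ⟨i, hi⟩ := hfn
    obtain ⟨j, rfl⟩ := hm
    have h3 := congrArg f hcomm
    rw [map_mul, map_mul, map_pow, hi, hu, pow_add, pow_one, pow_mul, pow_two, DihedralGroup.sr_mul_self, one_pow,
      one_mul, DihedralGroup.sr_mul_r, DihedralGroup.r_mul_sr, DihedralGroup.sr.injEq] at h3
    have h4 : ((2 : ℕ) : ZMod p) = 0 := by push_cast; linear_combination h3
    exact hp ((Nat.prime_dvd_prime_iff_eq (Fact.out : p.Prime) Nat.prime_two).1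
      ((CharP.cast_eq_zero_iff (ZMod p) p 2).1 h4))

lemma exists_inverting {x : G} {P : Subgroup G} (hx : ∃ k : ℕ, orderOf x = 2 ^ k) (hP : IsPGroup p ↥P)
    (hn : x ∈ Subgroup.normalizer (P : Set G)) (hc : x ∉ Subgroup.centralizer (P : Set G)) :
    ∃ z y : G, (∃ k : ℕ, orderOf z = 2 ^ k) ∧ (∃ k : ℕ, orderOf y = p ^ k) ∧ y ≠ 1 ∧ z * y * z⁻¹ = y⁻¹ := by
  obtain ⟨k, hk⟩ := hx
  have hex : ∃ j, x ^ 2 ^ j ∈ Subgroup.centralizer (P : Set G) :=
    ⟨k, by rw [← hk, pow_orderOf_eq_one]; exact one_mem _⟩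
  classical
  have hj0 : Nat.find hex ≠ 0 := fun h => hc (by simpa [h] using Nat.find_spec hex)
  obtain ⟨j, hj⟩ := Nat.exists_eq_succ_of_ne_zero hj0
  have hz2 : x ^ 2 ^ (j + 1) ∈ Subgroup.centralizer (P : Set G) := by
    have := Nat.find_spec hex; rwa [hj] at this
  have hz1 : x ^ 2 ^ j ∉ Subgroup.centralizer (P : Set G) := Nat.find_min hex (by omega)
  set z := x ^ 2 ^ j with hz
  have hzz : z * z ∈ Subgroup.centralizer (P : Set G) := by rw [hz, ← pow_add, ← two_mul, ← pow_succ']; exact hz2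
  have hzn : z ∈ Subgroup.normalizer (P : Set G) := pow_mem hn _
  rw [Subgroup.mem_centralizer_iff] at hz1
  push Not at hz1
  obtain ⟨u, hu, hzu⟩ := hz1
  have hy : u⁻¹ * (z * u * z⁻¹) ∈ P := mul_mem (inv_mem hu) (conj_mem_of_nz hzn hu)
  refine ⟨z, u⁻¹ * (z * u * z⁻¹), ?_, ?_, ?_, ?_⟩
  · obtain ⟨i, -, hi⟩ := (Nat.dvd_prime_pow Nat.prime_two).1 ((orderOf_pow_dvd (2 ^ j)).trans hk.dvd)
    exact ⟨i, hi⟩
  · obtain ⟨i, hi⟩ := (IsPGroup.iff_orderOf.1 hP) ⟨_, hy⟩
    exact ⟨i, by simpa using hi⟩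
  · intro h
    apply hzu
    have h1 : z * u * z⁻¹ = u := (inv_mul_eq_one.1 h).symm
    exact (mul_inv_eq_iff_eq_mul.1 h1).symm
  · have h1 : z * (z * u * z⁻¹) * z⁻¹ = u := by
      rw [show z * (z * u * z⁻¹) * z⁻¹ = z * z * u * (z * z)⁻¹ by group,
        ← hzz u hu, mul_inv_cancel_right]
    calc z * (u⁻¹ * (z * u * z⁻¹)) * z⁻¹ = (z * u * z⁻¹)⁻¹ * (z * (z * u * z⁻¹) * z⁻¹) := by group
      _ = (z * u * z⁻¹)⁻¹ * u := by rw [h1]
      _ = _ := by group

omit [Finite G] in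
lemma involves_of_inverting (hp : p ≠ 2) {x y : G} (hx : ∃ k : ℕ, orderOf x = 2 ^ k)
    (hy : ∃ k : ℕ, orderOf y = p ^ k) (hy1 : y ≠ 1) (hxy : x * y * x⁻¹ = y⁻¹) :
    Cfsg.Involves (DihedralGroup p) G := by
  obtain ⟨k, hk⟩ := hx
  obtain ⟨l, hl⟩ := hy
  have hl0 : l ≠ 0 := fun h => hy1 (orderOf_eq_one_iff.1 (by simp [hl, h]))
  set a := y ^ p ^ (l - 1) with ha
  have hao : orderOf a = p := by
    obtain ⟨l', rfl⟩ := Nat.exists_eq_succ_of_ne_zero hl0
    rw [ha, orderOf_pow_of_dvd (pow_ne_zero _ (Fact.out : p.Prime).ne_zero) (hl ▸ pow_dvd_pow p (by omega)), hl,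
      Nat.pow_div (by omega) (Fact.out : p.Prime).pos, show l' + 1 - (l' + 1 - 1) = 1 by omega, pow_one]
  have hxa : x * a * x⁻¹ = a⁻¹ := by rw [ha, ← conj_pow, hxy, inv_pow]
  set K := Subgroup.zpowers a ⊔ Subgroup.zpowers x with hK
  set w : G := x ^ 2 with hw
  have hwa : Commute w a := by
    show w * a = a * w
    rw [hw, pow_two]
    calc x * x * a = x * (x * a * x⁻¹) * x := by group
      _ = x * a⁻¹ * x⁻¹ * (x * x) := by rw [hxa]; group
      _ = (x * a * x⁻¹)⁻¹ * (x * x) := by group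
      _ = a * (x * x) := by rw [hxa, inv_inv]
  have hwK : Subgroup.zpowers w ≤ K := (Subgroup.zpowers_le.2 (pow_mem (Subgroup.mem_sup_right (Subgroup.mem_zpowers x)) 2))
  have hcen : K ≤ Subgroup.centralizer ({w} : Set G) := by
    refine sup_le (Subgroup.zpowers_le.2 ?_) (Subgroup.zpowers_le.2 ?_)
    · rintro _ (rfl : _ = w); exact hwa.eq
    · rintro _ (rfl : _ = w); exact ((Commute.refl x).pow_left 2).eq
  have hn : ((Subgroup.zpowers w).subgroupOf K).Normal := by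
    refine normal_subgroupOf (le_nz_iff.2 ?_)
    rintro g hg _ ⟨i, rfl⟩
    have hcg : Commute g w := (hcen hg w rfl).symm
    exact ⟨i, by rw [(hcg.zpow_right i).eq, mul_inv_cancel_right]⟩
  set π := QuotientGroup.mk' ((Subgroup.zpowers w).subgroupOf K) with hπ
  set a' : ↥K := ⟨a, Subgroup.mem_sup_left (Subgroup.mem_zpowers a)⟩ with ha'
  set b' : ↥K := ⟨x, Subgroup.mem_sup_right (Subgroup.mem_zpowers x)⟩ with hb'
  have e1 : π a' ^ p = 1 := by
    rw [← map_pow, show a' ^ p = 1 from Subtype.ext (by simp [a', ← hao, pow_orderOf_eq_one]), map_one]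
  have e2 : π b' ^ 2 = 1 := by
    rw [← map_pow]
    exact (QuotientGroup.eq_one_iff _).2 (Subgroup.mem_zpowers w)
  have e3 : π b' * π a' * (π b')⁻¹ = (π a')⁻¹ := by
    rw [← map_mul, ← map_inv, ← map_mul, ← map_inv]
    exact congrArg π (Subtype.ext hxa)
  have hwo : ∀ g ∈ Subgroup.zpowers w, g ^ 2 ^ k = 1 := by
    rintro _ ⟨i, rfl⟩
    have : w ^ 2 ^ k = 1 := by rw [hw, ← pow_mul, mul_comm, pow_mul, ← hk, pow_orderOf_eq_one, one_pow]
    show (w ^ i) ^ 2 ^ k = 1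
    rw [← zpow_natCast, ← zpow_mul, mul_comm, zpow_mul, zpow_natCast, this, one_zpow]
  have hcop : (2 ^ k).Coprime p := Nat.Coprime.pow_left k ((Nat.coprime_primes Nat.prime_two Fact.out).2 (Ne.symm hp))
  have e4 : π a' ≠ 1 := by
    intro h
    have h1 : a ^ 2 ^ k = 1 := hwo a ((QuotientGroup.eq_one_iff a').1 h)
    have h2 : p ∣ 2 ^ k := hao ▸ orderOf_dvd_of_pow_eq_one h1
    exact (Fact.out : p.Prime).one_lt.ne' (Nat.eq_one_of_dvd_coprimes hcop h2 dvd_rfl)
  have e5 : π b' ∉ Subgroup.zpowers (π a') := by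
    rintro ⟨i, hi⟩
    have h2 : (π b') * π a' * (π b')⁻¹ = π a' := by
      rw [← hi]; show π a' ^ i * π a' * (π a' ^ i)⁻¹ = π a'
      group
    rw [e3] at h2
    have h3 : π a' ^ 2 = 1 := by rw [pow_two]; exact mul_eq_one_iff_eq_inv.2 h2.symm
    have h4 : orderOf (π a') ∣ Nat.gcd p 2 := Nat.dvd_gcd (orderOf_dvd_of_pow_eq_one e1) (orderOf_dvd_of_pow_eq_one h3)
    rw [(Nat.coprime_primes Fact.out Nat.prime_two).2 hp, Nat.dvd_one, orderOf_eq_one_iff] at h4
    exact e4 h4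
  have e6 : Subgroup.zpowers (π a') ⊔ Subgroup.zpowers (π b') = ⊤ := by
    rw [← MonoidHom.map_zpowers, ← MonoidHom.map_zpowers, ← Subgroup.map_sup,
      ← Subgroup.map_top_of_surjective π (QuotientGroup.mk'_surjective _)]
    congr 1
    apply Subgroup.map_injective K.subtype_injective
    rw [Subgroup.map_sup, MonoidHom.map_zpowers, MonoidHom.map_zpowers, ← MonoidHom.range_eq_map, Subgroup.range_subtype]
    rfl
  exact ⟨K, Subgroup.zpowers w, hn,
    ⟨(MulEquiv.ofBijective _ (Dihedral.lift_bijective _ _ e1 e2 e3 e4 e5 e6)).symm⟩⟩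


/-- For an odd prime p and a finite group G the following are equivalent: the dihedral group of order 2p is involved in G; some element of 2-power order normalizes but does not centralize some p-subgroup of G; some element of 2-power order inverts some nonidentity element of p-power order. -/
theorem result {G : Type*} [Group G] [Finite G] {p : ℕ} [Fact p.Prime] (hp : p ≠ 2) : (Cfsg.Involves (DihedralGroup p) G ↔ ∃ (x : G) (P : Subgroup G), (∃ k : ℕ, orderOf x = 2 ^ k) ∧ IsPGroup p ↥P ∧ x ∈ Subgroup.normalizer (P : Set G) ∧ x ∉ Subgroup.centralizer (P : Set G)) ∧ (Cfsg.Involves (DihedralGroup p) G ↔ ∃ x y : G, (∃ k : ℕ, orderOf x = 2 ^ k) ∧ (∃ k : ℕ, orderOf y = p ^ k) ∧ y ≠ 1 ∧ x * y * x⁻¹ = y⁻¹) := by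
  have iii_ii : (∃ x y : G, (∃ k : ℕ, orderOf x = 2 ^ k) ∧ (∃ k : ℕ, orderOf y = p ^ k) ∧ y ≠ 1 ∧
      x * y * x⁻¹ = y⁻¹) → Cfsg.Involves (DihedralGroup p) G := fun ⟨x, y, hx, hy, hy1, hxy⟩ =>
    involves_of_inverting hp hx hy hy1 hxy
  refine ⟨⟨exists_normalizing hp, fun ⟨x, P, hx, hP, hn, hc⟩ => iii_ii (exists_inverting hx hP hn hc)⟩,
    ⟨fun h => ?_, iii_ii⟩⟩
  obtain ⟨x, P, hx, hP, hn, hc⟩ := exists_normalizing hp h
  exact exists_inverting hx hP hn hc

end Cfsg.Agent.S2758
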