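import Mathlib
import Cfsg.Statements.S2759
import Cfsg.Agent.Lib.LocalChar.Dihedral
import Cfsg.Agent.Lib.LocalChar.Core
import Cfsg.Agent.Lib.PGroupFrattini
import Cfsg.Agent.S2758

set_option autoImplicit false

open scoped commutatorElement Pointwise

open Cfsg.Agent.Lib.LocalChar

namespace Cfsg.Agent.S2759

open Cfsg.Agent.Lib.LocalChar

lemma involves_of_surj {G W : Type*} [Group G] [Group W] {K : Subgroup G} (f : ↥K →* W)
    (hf : Function.Surjective f) : Cfsg.Involves W G := by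
  have h : (f.ker.map K.subtype).subgroupOf K = f.ker :=
    Subgroup.comap_map_eq_self_of_injective K.subtype_injective _
  refine ⟨K, f.ker.map K.subtype, h.symm ▸ MonoidHom.normal_ker f, ?_⟩
  have : f.ker.Normal := MonoidHom.normal_ker f
  have : ((f.ker.map K.subtype).subgroupOf K).Normal := h.symm ▸ MonoidHom.normal_ker f
  exact ⟨(QuotientGroup.quotientMulEquivOfEq h).trans (QuotientGroup.quotientKerEquivOfSurjective f hf)⟩

lemma involves_equiv {G W W' : Type*} [Group G] [Group W] [Group W'] (e : W ≃* W') (h : Cfsg.Involves W G) :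
    Cfsg.Involves W' G := by
  obtain ⟨K, R, hR, ⟨i⟩⟩ := h
  exact ⟨K, R, hR, ⟨i.trans e⟩⟩

lemma dihedral_three : Nonempty (DihedralGroup 3 ≃* Equiv.Perm (Fin 3)) := by
  have : Fact (Nat.Prime 3) := ⟨Nat.prime_three⟩
  set a : Equiv.Perm (Fin 3) := finRotate 3 with ha
  set b : Equiv.Perm (Fin 3) := Equiv.swap 0 1 with hb
  have h1 : a ^ 3 = 1 := by decide
  have h2 : b ^ 2 = 1 := by decide
  have h3 : b * a * b⁻¹ = a⁻¹ := by decide
  have h4 : a ≠ 1 := by decide
  have hca : Nat.card ↥(Subgroup.zpowers a) = 3 := by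
    rw [Nat.card_zpowers]; exact orderOf_eq_prime h1 h4
  have h5 : b ∉ Subgroup.zpowers a := by
    intro h
    have hd := Subgroup.orderOf_dvd_natCard _ h
    rw [hca, orderOf_eq_prime h2 (by decide)] at hd
    omega
  refine ⟨MulEquiv.ofBijective _ (Dihedral.lift_bijective a b h1 h2 h3 h4 h5 ?_)⟩
  apply Subgroup.eq_top_of_le_card
  have e : Nat.card (Equiv.Perm (Fin 3)) = 6 := by rw [Nat.card_perm, Nat.card_fin]; rfl
  rw [e]
  have d1 : 3 ∣ Nat.card ↥(Subgroup.zpowers a ⊔ Subgroup.zpowers b) := by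
    have := Subgroup.card_dvd_of_le (le_sup_left : Subgroup.zpowers a ≤ Subgroup.zpowers a ⊔ Subgroup.zpowers b)
    rwa [hca] at this
  have d2 : 2 ∣ Nat.card ↥(Subgroup.zpowers a ⊔ Subgroup.zpowers b) := by
    have := Subgroup.card_dvd_of_le (le_sup_right : Subgroup.zpowers b ≤ Subgroup.zpowers a ⊔ Subgroup.zpowers b)
    rwa [Nat.card_zpowers, orderOf_eq_prime h2 (by decide)] at this
  exact Nat.le_of_dvd Nat.card_pos (Nat.Coprime.mul_dvd_of_dvd_of_dvd (by norm_num) d2 d1)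

/-- The double transpositions. -/
def dt : Fin 3 → Equiv.Perm (Fin 4) :=
  ![Equiv.swap 0 1 * Equiv.swap 2 3, Equiv.swap 0 2 * Equiv.swap 1 3, Equiv.swap 0 3 * Equiv.swap 1 2]

/-- Position of a double transposition. -/
def dtIdx (x : Equiv.Perm (Fin 4)) : Fin 3 := if x = dt 0 then 0 else if x = dt 1 then 1 else 2

/-- The action of `S₄` on its double transpositions. -/
def toS3 : Equiv.Perm (Fin 4) →* Equiv.Perm (Fin 3) where
  toFun g :=
    { toFun := fun i => dtIdx (g * dt i * g⁻¹)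
      invFun := fun i => dtIdx (g⁻¹ * dt i * g)
      left_inv := by revert g; decide +kernel
      right_inv := by revert g; decide +kernel }
  map_one' := by decide +kernel
  map_mul' := by decide +kernel

lemma toS3_surjective : Function.Surjective toS3 := by decide +kernel

/-- The normal four-group. -/
def V4 : Subgroup (Equiv.Perm (Fin 4)) := toS3.ker

lemma v4_mem : ∀ g : Equiv.Perm (Fin 4), g ∈ V4 ↔ (g = 1 ∨ ∃ i, g = dt i) := by
  intro g
  rw [V4, MonoidHom.mem_ker]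
  revert g
  decide +kernel

lemma v4_self_centralizing : ∀ g : Equiv.Perm (Fin 4), (∀ i, g * dt i = dt i * g) → g ∈ V4 := by
  intro g
  rw [v4_mem]
  revert g
  decide +kernel

lemma card_v4 : Nat.card V4 = 4 := by
  have h := V4.card_mul_index
  rw [V4, Subgroup.index_ker, MonoidHom.range_eq_top.2 toS3_surjective, Subgroup.card_top] at h
  rw [Nat.card_perm, Nat.card_perm, Nat.card_fin, Nat.card_fin] at h
  show Nat.card toS3.ker = 4
  simp only [show Nat.factorial 3 = 6 from rfl, show Nat.factorial 4 = 24 from rfl] at h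
  omega

variable {G : Type*} [Group G] [Finite G]

/-- A four-group section with elements inducing a three-cycle and a transposition, and a complement. -/
lemma s4_of_data (U U0 H0 : Subgroup G) (hle : U0 ≤ U) (hUn : U ≤ Subgroup.normalizer (U0 : Set G))
    (hHU : H0 ≤ Subgroup.normalizer (U : Set G)) (hHU0 : H0 ≤ Subgroup.normalizer (U0 : Set G))
    (hidx : U0.relIndex U = 4) (hint : U ⊓ H0 ≤ U0)
    {y n : G} (hy : y ∈ H0) (hn : n ∈ H0) (hn2 : ∃ k : ℕ, orderOf n = 2 ^ k)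
    (hy3 : ∀ u ∈ U, u⁻¹ * (y ^ 3 * u * (y ^ 3)⁻¹) ∈ U0)
    (hymove : ∃ u ∈ U, u⁻¹ * (y * u * y⁻¹) ∉ U0) (hnmove : ∃ u ∈ U, u⁻¹ * (n * u * n⁻¹) ∉ U0) :
    Cfsg.Involves (Equiv.Perm (Fin 4)) G := by
  classical
  set K := U ⊔ H0 with hK
  set H := (U0 ⊔ H0).subgroupOf K with hH
  have hKmem : ∀ g ∈ K, ∃ u ∈ U, ∃ h ∈ H0, g = u * h := fun g hg =>
    (mem_sup_iff_of_nz' hHU).1 hg
  have hUH : ∀ u ∈ U, u ∈ U0 ⊔ H0 → u ∈ U0 := by
    intro u hu h
    obtain ⟨a, ha, b, hb, rfl⟩ := (mem_sup_iff_of_nz' hHU0).1 h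
    exact mul_mem ha (hint ⟨by simpa using U.mul_mem (U.inv_mem (hle ha)) hu, hb⟩)
  let q : U → ↥K ⧸ H := fun u => QuotientGroup.mk ⟨u, Subgroup.mem_sup_left u.2⟩
  have hq : ∀ u u' : U, q u = q u' ↔ (u : G)⁻¹ * u' ∈ U0 := by
    intro u u'
    rw [QuotientGroup.eq]
    show (u : G)⁻¹ * u' ∈ U0 ⊔ H0 ↔ _
    exact ⟨hUH _ (U.mul_mem (U.inv_mem u.2) u'.2), fun h => Subgroup.mem_sup_left h⟩
  have hqs : Function.Surjective q := by
    intro z
    obtain ⟨⟨g, hg⟩, rfl⟩ := QuotientGroup.mk_surjective z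
    obtain ⟨u, hu, h, hh, rfl⟩ := hKmem g hg
    refine ⟨⟨u, hu⟩, QuotientGroup.eq.2 ?_⟩
    show u⁻¹ * (u * h) ∈ U0 ⊔ H0
    rw [inv_mul_cancel_left]
    exact Subgroup.mem_sup_right hh
  have hcard : Nat.card (↥K ⧸ H) = 4 := by
    rw [← hidx, Subgroup.relIndex, Subgroup.index]
    refine (Nat.card_congr (Equiv.ofBijective (Quotient.lift q fun a b hab => ?_) ⟨?_, ?_⟩)).symm
    · rw [hq]
      exact Subgroup.mem_subgroupOf.1 (QuotientGroup.leftRel_apply.1 hab)
    · rintro ⟨a⟩ ⟨b⟩ h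
      exact QuotientGroup.eq.2 ((hq a b).1 h)
    · intro z
      obtain ⟨u, rfl⟩ := hqs z
      exact ⟨Quotient.mk'' u, rfl⟩
  set φ := MulAction.toPermHom ↥K (↥K ⧸ H) with hφ
  have hact : ∀ (h : G) (hh : h ∈ H0) (u : U), φ ⟨h, Subgroup.mem_sup_right hh⟩ (q u) =
      q ⟨h * u * h⁻¹, conj_mem_of_nz (hHU hh) u.2⟩ := by
    intro h hh u
    refine QuotientGroup.eq.2 ?_
    show (h * (u : G))⁻¹ * (h * u * h⁻¹) ∈ U0 ⊔ H0
    rw [show (h * (u : G))⁻¹ * (h * u * h⁻¹) = h⁻¹ by group]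
    exact inv_mem (Subgroup.mem_sup_right hh)
  set y' := φ ⟨y, Subgroup.mem_sup_right hy⟩ with hy'
  set n' := φ ⟨n, Subgroup.mem_sup_right hn⟩ with hn'
  have hne : ∀ (h : G) (hh : h ∈ H0), (∃ u ∈ U, u⁻¹ * (h * u * h⁻¹) ∉ U0) →
      φ ⟨h, Subgroup.mem_sup_right hh⟩ ≠ 1 := by
    rintro h hh ⟨u, hu, hmove⟩ e
    apply hmove
    rw [← hq ⟨u, hu⟩ ⟨_, conj_mem_of_nz (hHU hh) hu⟩, ← hact h hh ⟨u, hu⟩, e]
    rfl
  have hy'3 : orderOf y' = 3 := by
    have : Fact (Nat.Prime 3) := ⟨Nat.prime_three⟩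
    refine orderOf_eq_prime ?_ (hne y hy hymove)
    rw [hy', ← map_pow]
    ext z
    obtain ⟨u, rfl⟩ := hqs z
    have := hact (y ^ 3) (pow_mem hy 3) u
    rw [Equiv.Perm.one_apply, show (⟨y, Subgroup.mem_sup_right hy⟩ : ↥K) ^ 3 =
      ⟨y ^ 3, Subgroup.mem_sup_right (pow_mem hy 3)⟩ from Subtype.ext (by simp), this]
    exact ((hq u ⟨y ^ 3 * u * (y ^ 3)⁻¹, conj_mem_of_nz (hHU (pow_mem hy 3)) u.2⟩).2 (hy3 u u.2)).symm
  obtain ⟨k, hk⟩ := hn2
  have hn'2 : 2 ∣ orderOf n' := by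
    have h1 : orderOf n' ∣ 2 ^ k := (orderOf_map_dvd φ _).trans (by rw [Subgroup.orderOf_mk, hk])
    obtain ⟨j, -, hj⟩ := (Nat.dvd_prime_pow Nat.prime_two).1 h1
    rw [hj]
    exact dvd_pow_self 2 (fun h => hne n hn hnmove (orderOf_eq_one_iff.1 (by rw [hj, h, pow_zero])))
  set P := φ.range with hP
  set z0 : ↥K ⧸ H := q 1 with hz0
  have hfix : ∀ (h : G) (hh : h ∈ H0), φ ⟨h, Subgroup.mem_sup_right hh⟩ z0 = z0 := by
    intro h hh
    rw [hz0, hact h hh]
    congr 1
    exact Subtype.ext (by simp)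
  have htrans : MulAction.IsPretransitive ↥P (↥K ⧸ H) := by
    refine ⟨fun a b => ?_⟩
    obtain ⟨g, hg⟩ := MulAction.exists_smul_eq ↥K a b
    exact ⟨⟨φ g, g, rfl⟩, hg⟩
  have hstab : 6 ∣ Nat.card ↥(MulAction.stabilizer ↥P z0) := by
    refine Nat.Coprime.mul_dvd_of_dvd_of_dvd (by norm_num : Nat.Coprime 2 3) (hn'2.trans ?_) ?_
    · rw [← Subgroup.orderOf_mk (H := P) n' ⟨_, rfl⟩]
      exact Subgroup.orderOf_dvd_natCard _ (show (⟨n', _, rfl⟩ : ↥P) ∈ MulAction.stabilizer ↥P z0 from hfix n hn)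
    · rw [← hy'3, ← Subgroup.orderOf_mk (H := P) y' ⟨_, rfl⟩]
      exact Subgroup.orderOf_dvd_natCard _ (show (⟨y', _, rfl⟩ : ↥P) ∈ MulAction.stabilizer ↥P z0 from hfix y hy)
  have htop : φ.range = ⊤ := by
    refine Subgroup.eq_top_of_le_card _ ?_
    have h1 := (MulAction.stabilizer ↥P z0).card_mul_index
    rw [MulAction.index_stabilizer_of_transitive ↥P z0, hcard] at h1
    have h24 : Nat.card (Equiv.Perm (↥K ⧸ H)) = 24 := by
      rw [Nat.card_perm, hcard]; rfl
    rw [h24, show Nat.card ↥φ.range = Nat.card ↥P from rfl, ← h1]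
    have := Nat.le_of_dvd Nat.card_pos hstab
    omega
  let e : (↥K ⧸ H) ≃ Fin 4 := (Finite.equivFin _).trans (finCongr hcard)
  exact involves_equiv e.permCongrHom (involves_of_surj φ (MonoidHom.range_eq_top.1 htop))

/-- The action of the normalizer on the Frattini quotient. -/
def act (U : Subgroup G) (g : ↥(Subgroup.normalizer (U : Set G))) : (↥U ⧸ frattini ↥U) →* (↥U ⧸ frattini ↥U) :=
  QuotientGroup.map _ _ (U.normalizerMonoidHom g).toMonoidHom
    ((frattini_characteristic (G := ↥U)).fixed (U.normalizerMonoidHom g)).ge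

lemma act_mul (U : Subgroup G) (g h : ↥(Subgroup.normalizer (U : Set G))) (v : ↥U ⧸ frattini ↥U) :
    act U (g * h) v = act U g (act U h v) := by
  obtain ⟨u, rfl⟩ := QuotientGroup.mk_surjective v
  refine congrArg QuotientGroup.mk (Subtype.ext ?_)
  show (g : G) * h * u * ((g : G) * h)⁻¹ = (g : G) * ((h : G) * u * (h : G)⁻¹) * (g : G)⁻¹
  group

lemma act_of_centralize (U : Subgroup G) (g : ↥(Subgroup.normalizer (U : Set G)))
    (hg : (g : G) ∈ Subgroup.centralizer (U : Set G)) (v : ↥U ⧸ frattini ↥U) : act U g v = v := by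
  obtain ⟨u, rfl⟩ := QuotientGroup.mk_surjective v
  refine congrArg QuotientGroup.mk (Subtype.ext ?_)
  show (g : G) * u * (g : G)⁻¹ = u
  rw [← hg u u.2, mul_inv_cancel_right]

theorem s4_of_action (T : Subgroup G) (hT : IsPGroup 2 ↥T) (Y : Subgroup G) (hY : IsPGroup 3 ↥Y) {y n : G}
    (hyY : y ∈ Y) (hnY : n ∈ Subgroup.normalizer (Y : Set G)) (hn2 : ∃ k : ℕ, orderOf n = 2 ^ k)
    (hYT : Y ≤ Subgroup.normalizer (T : Set G)) (hnT : n ∈ Subgroup.normalizer (T : Set G))
    (hy3 : y ^ 3 ∈ Subgroup.centralizer (T : Set G)) (hyc : y ∉ Subgroup.centralizer (T : Set G))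
    (hinv : n * y * n⁻¹ * y ∈ Subgroup.centralizer (T : Set G))
    (hYy : ∀ a ∈ Y, ∃ i : ℕ, (y ^ i)⁻¹ * a ∈ Subgroup.centralizer (T : Set G)) :
    Cfsg.Involves (Equiv.Perm (Fin 4)) G := by
  classical
  have : Fact (Nat.Prime 2) := ⟨Nat.prime_two⟩
  set H0 := Y ⊔ Subgroup.zpowers n with hH0
  have hH0T : H0 ≤ Subgroup.normalizer (T : Set G) := sup_le hYT (Subgroup.zpowers_le.2 hnT)
  obtain ⟨U, ⟨hUT, hHU, hUc⟩, hmin⟩ := (Set.toFinite {U : Subgroup G | U ≤ T ∧
    H0 ≤ Subgroup.normalizer (U : Set G) ∧ y ∉ Subgroup.centralizer (U : Set G)}).exists_minimal ⟨T, le_rfl, hH0T, hyc⟩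
  have hcT : Subgroup.centralizer (T : Set G) ≤ Subgroup.centralizer (U : Set G) := Subgroup.centralizer_le hUT
  have hyH : y ∈ H0 := Subgroup.mem_sup_left hyY
  have hnH : n ∈ H0 := Subgroup.mem_sup_right (Subgroup.mem_zpowers n)
  have hU2 : IsPGroup 2 ↥U := hT.to_le hUT
  have hycop : (orderOf y).Coprime 2 := by
    obtain ⟨k, hk⟩ := (IsPGroup.iff_orderOf.1 hY) ⟨y, hyY⟩
    rw [Subgroup.orderOf_mk] at hk
    rw [hk]; exact Nat.Coprime.pow_left k (by norm_num)
  set F := (frattini ↥U).map U.subtype with hF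
  have hFU : F ≤ U := Subgroup.map_subtype_le _
  have hFn : Subgroup.normalizer (U : Set G) ≤ Subgroup.normalizer (F : Set G) := by
    rw [le_nz_iff]
    rintro g hg _ ⟨u, hu, rfl⟩
    exact ⟨U.normalizerMonoidHom ⟨g, hg⟩ u,
      ((frattini_characteristic (G := ↥U)).fixed (U.normalizerMonoidHom ⟨g, hg⟩)).ge hu, rfl⟩
  have hyn : ∀ g ∈ H0, g ∈ Subgroup.normalizer (U : Set G) := fun g hg => hHU hg
  set σ := act U ⟨y, hyn y hyH⟩ with hσ
  set τ := act U ⟨n, hyn n hnH⟩ with hτ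
  set V := ↥U ⧸ frattini ↥U
  have hcomm : ∀ a b : V, a * b = b * a := by
    intro a b
    obtain ⟨a, rfl⟩ := QuotientGroup.mk_surjective a
    obtain ⟨b, rfl⟩ := QuotientGroup.mk_surjective b
    refine QuotientGroup.eq.2 ?_
    have h := Cfsg.Agent.Lib.PGroupFrattini.commutator_le_frattini hU2
      (Subgroup.commutator_mem_commutator (Subgroup.mem_top b⁻¹) (Subgroup.mem_top a⁻¹))
    simpa [commutatorElement_def, mul_assoc] using h
  have hsq : ∀ a : V, a * a = 1 := by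
    intro a
    obtain ⟨a, rfl⟩ := QuotientGroup.mk_surjective a
    refine (QuotientGroup.eq_one_iff _).2 ?_
    simpa [pow_two] using Cfsg.Agent.Lib.PGroupFrattini.pow_mem_frattini hU2 a
  have hmove : ∃ a : V, σ a ≠ a := by
    by_contra hall
    push Not at hall
    have hFc : y ∈ Subgroup.centralizer (F : Set G) := by
      by_contra hFc
      have hUne : ¬ F = U := by
        intro h
        have h2 : frattini ↥U = ⊤ := Subgroup.map_injective U.subtype_injective
          (by rw [← hF, h, ← MonoidHom.range_eq_map, Subgroup.range_subtype])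
        have h3 : (⊥ : Subgroup ↥U) = ⊤ := frattini_nongenerating (by rw [h2, sup_top_eq])
        refine hUc fun u hu => ?_
        have h1 : (⟨u, hu⟩ : ↥U) = 1 := Subgroup.mem_bot.1 (h3 ▸ Subgroup.mem_top _)
        rw [show u = 1 from congrArg Subtype.val h1, one_mul, mul_one]
      exact hUne (le_antisymm hFU (hmin ⟨hFU.trans hUT, hHU.trans hFn, hFc⟩ hFU))
    apply hUc
    intro u hu
    refine ((commute_of_chain hU2 (fun a ha => conj_mem_of_nz (hyn y hyH) ha) hycop
      (fun b hb => (hFc b hb).symm) (fun a ha => ?_)) u hu).eq.symm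
    have h1 := (hall (QuotientGroup.mk ⟨a, ha⟩)).symm
    exact ⟨_, QuotientGroup.eq.1 h1, rfl⟩
  have hσ3 : ∀ a : V, σ (σ (σ a)) = a := by
    intro a
    rw [hσ, ← act_mul, ← act_mul]
    refine act_of_centralize U _ (hcT ?_) a
    simpa [pow_succ, mul_assoc] using hy3
  have hτσ : ∀ a : V, τ (σ a) = σ (σ (τ a)) := by
    intro a
    have h1 : σ (τ (σ a)) = τ a := by
      rw [hσ, hτ, ← act_mul, ← act_mul]
      set g : ↥(Subgroup.normalizer (U : Set G)) := ⟨y, hyn y hyH⟩ * ⟨n, hyn n hnH⟩ * ⟨y, hyn y hyH⟩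
      set c : ↥(Subgroup.normalizer (U : Set G)) := g * (⟨n, hyn n hnH⟩)⁻¹
      have hc : (c : G) ∈ Subgroup.centralizer (U : Set G) := by
        refine hcT ?_
        have hyT : y ∈ Subgroup.normalizer (T : Set G) := hYT hyY
        have h2 := conj_mem_of_nz (le_nz_centralizer (le_refl (Subgroup.normalizer (T : Set G))) hyT) hinv
        show y * n * y * n⁻¹ ∈ _
        simpa [mul_assoc] using h2
      rw [show g = c * ⟨n, hyn n hnH⟩ by simp [c], act_mul, act_of_centralize U c hc]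
    rw [← h1, hσ3]
  obtain ⟨k, hk⟩ := hn2
  have hτk : ∀ a : V, (fun b => τ b)^[2 ^ k] a = a := by
    intro a
    have h : ∀ j : ℕ, (fun b => τ b)^[j] a = act U (⟨n, hyn n hnH⟩ ^ j) a := by
      intro j
      induction j with
      | zero =>
        rw [pow_zero, Function.iterate_zero_apply]
        exact (act_of_centralize U 1 (one_mem _) a).symm
      | succ j ih => rw [Function.iterate_succ_apply', ih, pow_succ', act_mul]
    rw [h]
    refine act_of_centralize U _ ?_ a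
    simp [← hk, pow_orderOf_eq_one]
  have : Std.Commutative (α := V) (· * ·) := ⟨hcomm⟩
  have : Std.Associative (α := V) (· * ·) := ⟨mul_assoc⟩
  -- moved elements
  set B : Set V := {b | b ≠ 1 ∧ b * σ b * σ (σ b) = 1}
  have hB : ∃ b, b ∈ B := by
    obtain ⟨a, ha⟩ := hmove
    refine ⟨a * σ a, fun h => ha ?_, ?_⟩
    · rw [eq_inv_of_mul_eq_one_right h]; exact inv_eq_of_mul_eq_one_left (hsq a)
    · simp only [map_mul, hσ3]
      calc a * σ a * (σ a * σ (σ a)) * (σ (σ a) * a) = a * a * (σ a * σ a) * (σ (σ a) * σ (σ a)) := by ac_rfl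
        _ = 1 := by simp [hsq]
  have hτB : ∀ b ∈ B, τ b ≠ b → b * τ b ∈ B := by
    rintro b ⟨hb1, hb⟩ hne
    refine ⟨fun h => hne ?_, ?_⟩
    · rw [eq_inv_of_mul_eq_one_right h]; exact inv_eq_of_mul_eq_one_left (hsq b)
    · have h1 : τ b * σ (τ b) * σ (σ (τ b)) = 1 := by
        have h2 : τ (b * σ b * σ (σ b)) = 1 := by rw [hb, map_one]
        rw [map_mul, map_mul, hτσ, hτσ, hτσ, hσ3] at h2
        calc τ b * σ (τ b) * σ (σ (τ b)) = τ b * σ (σ (τ b)) * σ (τ b) := by ac_rfl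
          _ = 1 := h2
      simp only [map_mul]
      calc b * τ b * (σ b * σ (τ b)) * (σ (σ b) * σ (σ (τ b))) =
          b * σ b * σ (σ b) * (τ b * σ (τ b) * σ (σ (τ b))) := by ac_rfl
        _ = 1 := by rw [hb, h1, one_mul]
  obtain ⟨v, ⟨hv1, hv⟩, hvτ⟩ : ∃ b ∈ B, τ b = b := by
    by_contra hno
    push Not at hno
    obtain ⟨b, hb⟩ := hB
    set f : V → V := fun c => c * τ c
    have hf : ∀ j, f^[j] b ∈ B := by
      intro j
      induction j with
      | zero => exact hb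
      | succ j ih =>
        rw [Function.iterate_succ_apply']
        exact hτB _ ih (hno _ ih)
    have hpow : ∀ j c, f^[2 ^ j] c = c * (fun d => τ d)^[2 ^ j] c := by
      intro j
      induction j with
      | zero => intro c; rfl
      | succ j ih =>
        intro c
        have hhom : ∀ i (p q : V), (fun d => τ d)^[i] (p * q) = (fun d => τ d)^[i] p * (fun d => τ d)^[i] q := by
          intro i
          induction i with
          | zero => intro p q; rfl
          | succ i ihi =>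
            intro p q
            simp only [Function.iterate_succ_apply', ihi, map_mul]
        rw [pow_succ, mul_two, Function.iterate_add_apply, ih, ih, hhom, Function.iterate_add_apply]
        set u := (fun d => τ d)^[2 ^ j] c
        set w := (fun d => τ d)^[2 ^ j] u
        calc c * u * (u * w) = c * w * (u * u) := by ac_rfl
          _ = c * w := by rw [hsq, mul_one]
    exact (hf (2 ^ k)).1 (by rw [hpow, hτk, hsq])
  -- the four-group
  set w1 := σ v with hw1
  set w2 := σ (σ v) with hw2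
  have hw : v * w1 = w2 := by
    calc v * w1 = v * w1 * (w2 * w2) := by rw [hsq, mul_one]
      _ = v * w1 * w2 * w2 := by ac_rfl
      _ = w2 := by rw [hv, one_mul]
  let W : Subgroup V :=
    { carrier := {1, v, w1, v * w1}
      one_mem' := Or.inl rfl
      mul_mem' := by
        intro p q hp hq
        simp only [Set.mem_insert_iff, Set.mem_singleton_iff] at hp hq ⊢
        have e1 : w1 * v = v * w1 := hcomm _ _
        have e2 : v * (v * w1) = w1 := by rw [← mul_assoc, hsq, one_mul]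
        have e3 : v * w1 * v = w1 := by rw [hcomm v w1, mul_assoc, hsq, mul_one]
        have e4 : v * w1 * w1 = v := by rw [mul_assoc, hsq, mul_one]
        have e5 : w1 * (v * w1) = v := by rw [hcomm w1, e4]
        rcases hp with h | h | h | h <;> rcases hq with h' | h' | h' | h' <;>
          simp only [h, h', one_mul, mul_one, hsq, e1, e2, e3, e4, e5, true_or, or_true]
      inv_mem' := by
        intro p hp
        rwa [inv_eq_of_mul_eq_one_right (hsq p)] }
  have hWσ : W ≤ W.comap σ := by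
    intro p hp
    show σ p ∈ ({1, v, w1, v * w1} : Set V)
    rcases hp with rfl | rfl | rfl | rfl
    · exact Or.inl (map_one σ)
    · exact Or.inr (Or.inr (Or.inl rfl))
    · exact Or.inr (Or.inr (Or.inr hw.symm))
    · refine Or.inr (Or.inl ?_)
      rw [hw, hw2, hσ3]
  have hWτ : W ≤ W.comap τ := by
    intro p hp
    show τ p ∈ ({1, v, w1, v * w1} : Set V)
    have e : τ w1 = v * w1 := by rw [hw1, hτσ, hvτ, ← hw2, hw, hw2]
    rcases hp with rfl | rfl | rfl | rfl
    · exact Or.inl (map_one τ)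
    · exact Or.inr (Or.inl hvτ)
    · exact Or.inr (Or.inr (Or.inr e))
    · exact Or.inr (Or.inr (Or.inl (by rw [map_mul, hvτ, e, ← mul_assoc, hsq, one_mul])))
  have hσiter : ∀ i : ℕ, ∀ p ∈ W, act U (⟨y, hyn y hyH⟩ ^ i) p ∈ W := by
    intro i
    induction i with
    | zero => intro p hp; rw [pow_zero, act_of_centralize U 1 (one_mem _)]; exact hp
    | succ i ih => intro p hp; rw [pow_succ', act_mul]; exact hWσ (ih p hp)
  set U' := (W.comap (QuotientGroup.mk' (frattini ↥U))).map U.subtype with hU'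
  have hinv : ∀ g : ↥(Subgroup.normalizer (U : Set G)), (∀ p ∈ W, act U g p ∈ W) →
      (g : G) ∈ Subgroup.normalizer (U' : Set G) := by
    intro g hg
    refine mem_nz_of_cj_le (cj_le_iff.2 ?_)
    rintro _ ⟨u, hu, rfl⟩
    exact ⟨U.normalizerMonoidHom g u, hg _ hu, rfl⟩
  have hH0U' : H0 ≤ Subgroup.normalizer (U' : Set G) := by
    refine sup_le (fun a ha => ?_) (Subgroup.zpowers_le.2 (hinv ⟨n, hyn n hnH⟩ fun p hp => hWτ hp))
    obtain ⟨i, hi⟩ := hYy a ha
    have hi' : y ^ i ∈ H0 := pow_mem hyH i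
    refine hinv ⟨a, hyn a (Subgroup.mem_sup_left ha)⟩ fun p hp => ?_
    have e : (⟨a, hyn a (Subgroup.mem_sup_left ha)⟩ : ↥(Subgroup.normalizer (U : Set G))) =
        ⟨y, hyn y hyH⟩ ^ i * ((⟨y, hyn y hyH⟩ ^ i)⁻¹ * ⟨a, hyn a (Subgroup.mem_sup_left ha)⟩) := by group
    rw [e, act_mul, act_of_centralize U _ (hcT (by simpa using hi)) p]
    exact hσiter i p hp
  obtain ⟨v0, hv0⟩ := QuotientGroup.mk_surjective v
  have hv0U : v0.1 ∈ U' := ⟨v0, Or.inr (Or.inl hv0), rfl⟩
  have hσv : σ v ≠ v := by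
    intro h
    apply hv1
    have e2 : w2 = v := by rw [hw2, show σ v = v from h, h]
    rwa [show w1 = v from h, e2, hsq, one_mul] at hv
  have hUU : U' = U := by
    refine le_antisymm (Subgroup.map_subtype_le _) (hmin ⟨(Subgroup.map_subtype_le _).trans hUT, hH0U', fun h => hσv ?_⟩
      (Subgroup.map_subtype_le _))
    rw [← hv0]
    refine congrArg QuotientGroup.mk (Subtype.ext ?_)
    show y * (v0 : G) * y⁻¹ = v0
    rw [← h v0 hv0U, mul_inv_cancel_right]
  have hWtop : W = ⊤ := by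
    rw [eq_top_iff]
    intro p _
    obtain ⟨u, rfl⟩ := QuotientGroup.mk_surjective p
    obtain ⟨u', hu', he⟩ := hUU.ge u.2
    obtain rfl : u' = u := Subtype.ext he
    exact hu'
  have hw1v : w1 ≠ v := hσv
  have hw11 : w1 ≠ 1 := fun h => hv1 (by
    have := congrArg (fun p => σ (σ p)) h
    simpa [hw1, hσ3] using this)
  have hvw : v * w1 ≠ 1 := fun h => hw1v (by rw [eq_inv_of_mul_eq_one_right h, inv_eq_of_mul_eq_one_right (hsq v)])
  have hcard : Nat.card V = 4 := by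
    rw [← Subgroup.card_top (G := V), ← hWtop]
    show Nat.card ({1, v, w1, v * w1} : Set V) = 4
    rw [Nat.card_coe_set_eq, Set.ncard_insert_of_notMem (by simp [Ne.symm hv1, Ne.symm hw11, Ne.symm hvw]),
      Set.ncard_insert_of_notMem (by simp [Ne.symm hw1v, hw11]),
      Set.ncard_pair (by simpa using hv1)]
  have hY0 : ∀ t ∈ U, t ∈ H0 → t ∈ F := by
    intro t ht htH
    have htN : t ∈ Subgroup.normalizer (Y : Set G) :=
      sup_le Subgroup.le_normalizer (Subgroup.zpowers_le.2 hnY) htH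
    have h1 : y⁻¹ * (t * y * t⁻¹) = 1 := by
      have a1 : y⁻¹ * (t * y * t⁻¹) ∈ Y := mul_mem (inv_mem hyY) (conj_mem_of_nz htN hyY)
      have a2 : y⁻¹ * (t * y * t⁻¹) ∈ U := by
        have e : y⁻¹ * (t * y * t⁻¹) = (y⁻¹ * t * y⁻¹⁻¹) * t⁻¹ := by group
        rw [e]; exact mul_mem (conj_mem_of_nz (inv_mem (hyn y hyH)) ht) (inv_mem ht)
      obtain ⟨i, hi⟩ := (IsPGroup.iff_orderOf.1 hY) ⟨_, a1⟩
      obtain ⟨j, hj⟩ := (IsPGroup.iff_orderOf.1 hU2) ⟨_, a2⟩
      rw [Subgroup.orderOf_mk] at hi hj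
      exact orderOf_eq_one_iff.1 (Nat.eq_one_of_dvd_coprimes
        (Nat.Coprime.pow i j (by norm_num : Nat.Coprime 3 2)) hi.dvd hj.dvd)
    have hfix : σ (QuotientGroup.mk ⟨t, ht⟩) = QuotientGroup.mk ⟨t, ht⟩ := by
      refine congrArg QuotientGroup.mk (Subtype.ext ?_)
      show y * t * y⁻¹ = t
      rw [inv_mul_eq_one] at h1
      calc y * t * y⁻¹ = t * y * t⁻¹ * t * y⁻¹ := by rw [← h1]
        _ = t := by group
    have h2 : (QuotientGroup.mk ⟨t, ht⟩ : V) = 1 := by
      have hmem : (QuotientGroup.mk ⟨t, ht⟩ : V) ∈ ({1, v, w1, v * w1} : Set V) :=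
        (hWtop ▸ Subgroup.mem_top _ : (QuotientGroup.mk ⟨t, ht⟩ : V) ∈ W)
      rcases hmem with h | h | h | h
      · exact h
      · rw [h] at hfix; exact absurd hfix hσv
      · rw [h, hw1] at hfix
        exact absurd (by have := congrArg (fun p => σ (σ p)) hfix; simpa [hσ3] using this) hσv
      · rw [h, hw, hw2, hσ3] at hfix
        exact absurd (by have := congrArg σ hfix; simpa [hσ3] using this) hσv
    exact ⟨⟨t, ht⟩, (QuotientGroup.eq_one_iff _).1 h2, rfl⟩
  have hUF : U ≤ Subgroup.normalizer (F : Set G) := Subgroup.le_normalizer.trans hFn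
  have hidx : F.relIndex U = 4 := by
    rw [Subgroup.relIndex, hF, Subgroup.subgroupOf, Subgroup.comap_map_eq_self_of_injective U.subtype_injective]
    exact hcard
  have hnotF : ∀ (g : G) (hg : g ∈ Subgroup.normalizer (U : Set G)) (u : ↥U), act U ⟨g, hg⟩ u ≠ u →
      (u : G)⁻¹ * (g * u * g⁻¹) ∉ F := by
    rintro g hg u hne ⟨z, hz, hze⟩
    refine hne (QuotientGroup.eq.2 ?_).symm
    have : z = u⁻¹ * U.normalizerMonoidHom ⟨g, hg⟩ u := Subtype.ext hze
    exact this ▸ hz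
  refine s4_of_data U F H0 hFU hUF hHU (hHU.trans hFn) hidx (fun t ht => hY0 t ht.1 ht.2) hyH hnH ⟨k, hk⟩
    (fun u hu => ?_) ⟨v0, v0.2, hnotF y (hyn y hyH) v0 (by rw [hv0]; exact hσv)⟩ ?_
  · rw [← hcT hy3 u hu, mul_inv_cancel_right, inv_mul_cancel]
    exact one_mem _
  · obtain ⟨u1, hu1⟩ := QuotientGroup.mk_surjective w1
    refine ⟨u1, u1.2, hnotF n (hyn n hnH) u1 ?_⟩
    rw [hu1, show act U ⟨n, _⟩ w1 = τ (σ v) from rfl, hτσ, hvτ]
    show w2 ≠ w1
    rw [← hw]
    intro e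
    exact hv1 (mul_eq_right.1 e)


/-- For a finite group G, the symmetric group of degree 4 is involved in G if and only if there is a 2-subgroup T of G such that the symmetric group of degree 3 is involved in N(T)/C(T). -/
theorem result {G : Type*} [Group G] [Finite G] : Cfsg.Involves (Equiv.Perm (Fin 4)) G ↔ ∃ T : Subgroup G, IsPGroup 2 ↥T ∧ Cfsg.Involves (Equiv.Perm (Fin 3)) (↥(Subgroup.normalizer (T : Set G)) ⧸ (Subgroup.centralizer (T : Set G)).subgroupOf (Subgroup.normalizer (T : Set G))) := by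
  constructor
  · rintro ⟨K, R, hR, ⟨e⟩⟩
    have : Fact (Nat.Prime 2) := ⟨Nat.prime_two⟩
    set f : ↥K →* Equiv.Perm (Fin 4) := e.toMonoidHom.comp (QuotientGroup.mk' (R.subgroupOf K))
    have hf : Function.Surjective f := e.surjective.comp (QuotientGroup.mk'_surjective _)
    set L := V4.comap f with hL
    have hLn : L.Normal := (MonoidHom.normal_ker toS3).comap f
    obtain ⟨P⟩ : Nonempty (Sylow 2 ↥L) := inferInstance
    set P' := (P : Subgroup ↥L).map L.subtype with hP'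
    have himg : ∀ i, ∃ u ∈ P', f u = dt i := by
      intro i
      let g : ↥L →* ↥V4 := f.subgroupComap V4
      have hg : Function.Surjective g := MonoidHom.subgroupComap_surjective_of_surjective f V4 hf
      have htop : ((P.mapSurjective hg : Sylow 2 ↥V4) : Subgroup ↥V4) = ⊤ :=
        ((P.mapSurjective hg).is_maximal' ((IsPGroup.of_card (n := 2) (by rw [card_v4]; rfl)).to_subgroup ⊤)
          le_top).symm
      obtain ⟨u, hu, huv⟩ : (⟨dt i, (v4_mem _).2 (Or.inr ⟨i, rfl⟩)⟩ : ↥V4) ∈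
          ((P.mapSurjective hg : Sylow 2 ↥V4) : Subgroup ↥V4) := htop ▸ Subgroup.mem_top _
      exact ⟨u, ⟨u, hu, rfl⟩, congrArg Subtype.val huv⟩
    set T := P'.map K.subtype with hT
    refine ⟨T, (P.isPGroup'.map _).map _, ?_⟩
    set NK := Subgroup.normalizer (P' : Set ↥K)
    set N := Subgroup.normalizer (T : Set G)
    let ι : ↥NK →* ↥N := (K.subtype.comp NK.subtype).codRestrict N
      (fun x => Subgroup.le_normalizer_map K.subtype ⟨x.1, x.2, rfl⟩)
    set θ : ↥NK →* ↥N ⧸ (Subgroup.centralizer (T : Set G)).subgroupOf N := (QuotientGroup.mk' _).comp ι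
    set η : ↥NK →* Equiv.Perm (Fin 3) := toS3.comp (f.comp NK.subtype)
    have hηs : Function.Surjective η := by
      intro π
      obtain ⟨s, hs⟩ := toS3_surjective π
      obtain ⟨k, hk⟩ := hf s
      have htop := Sylow.normalizer_sup_eq_top P
      obtain ⟨a, ha, b, hb, hab⟩ := Subgroup.mem_sup_of_normal_right.1 (htop ▸ Subgroup.mem_top k)
      refine ⟨⟨a, ha⟩, ?_⟩
      show toS3 (f a) = π
      rw [← hs, ← hk, ← hab, map_mul, map_mul, show toS3 (f b) = 1 from hb, mul_one]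
    have hker : θ.ker ≤ η.ker := by
      intro x hx
      have hc0 : ι x ∈ (Subgroup.centralizer (T : Set G)).subgroupOf N := (QuotientGroup.eq_one_iff (ι x)).1 hx
      have hc : ((ι x : ↥N) : G) ∈ Subgroup.centralizer (T : Set G) := hc0
      show toS3 (f x.1) = 1
      refine v4_self_centralizing _ fun i => ?_
      obtain ⟨u, hu, hfu⟩ := himg i
      rw [← hfu, ← map_mul, ← map_mul]
      exact congrArg f (Subtype.ext (hc _ ⟨u, hu, rfl⟩).symm)
    have hθs : Function.Surjective θ.rangeRestrict := MonoidHom.rangeRestrict_surjective θ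
    refine involves_of_surj (θ.rangeRestrict.liftOfSurjective hθs ⟨η, by rwa [MonoidHom.ker_rangeRestrict]⟩) ?_
    intro π
    obtain ⟨x, hx⟩ := hηs π
    exact ⟨θ.rangeRestrict x, by rw [MonoidHom.liftOfRightInverse_comp_apply]; exact hx⟩
  · rintro ⟨T, hT, h⟩
    obtain ⟨e0⟩ := dihedral_three
    set N := Subgroup.normalizer (T : Set G)
    set C := (Subgroup.centralizer (T : Set G)).subgroupOf N with hC
    have : Fact (Nat.Prime 3) := ⟨Nat.prime_three⟩
    have hCn : C.Normal := normal_subgroupOf (le_nz_centralizer le_rfl)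
    obtain ⟨xb, y1, ⟨kx, hxo⟩, ⟨l, hl⟩, hy1, hxy⟩ :=
      (Cfsg.Agent.S2758.result (p := 3) (by norm_num)).2.1 (involves_equiv e0.symm h)
    set yb := y1 ^ 3 ^ (l - 1) with hyb
    have hl0 : l ≠ 0 := fun h => hy1 (orderOf_eq_one_iff.1 (by simp [hl, h]))
    have hybo : orderOf yb = 3 := by
      obtain ⟨l', rfl⟩ := Nat.exists_eq_succ_of_ne_zero hl0
      rw [hyb, orderOf_pow_of_dvd (pow_ne_zero _ (by norm_num)) (hl ▸ pow_dvd_pow 3 (by omega)), hl,
        Nat.pow_div (by omega) (by norm_num), show l' + 1 - (l' + 1 - 1) = 1 by omega, pow_one]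
    have hxyb : xb * yb * xb⁻¹ = yb⁻¹ := by rw [hyb, ← conj_pow, hxy, inv_pow]
    set π := QuotientGroup.mk' C with hπ
    have hπs : Function.Surjective π := QuotientGroup.mk'_surjective C
    set M := (Subgroup.zpowers yb).comap π with hM
    obtain ⟨Ys⟩ : Nonempty (Sylow 3 ↥M) := inferInstance
    set Y' := (Ys : Subgroup ↥M).map M.subtype with hY'
    obtain ⟨t, ht⟩ := hπs xb
    have htM : t ∈ Subgroup.normalizer (M : Set ↥N) := by
      have hxn : xb ∈ Subgroup.normalizer (Subgroup.zpowers yb : Set _) := by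
        refine mem_nz_of_cj_eq ?_
        show (Subgroup.zpowers yb).map (MulAut.conj xb).toMonoidHom = _
        rw [MonoidHom.map_zpowers]
        show Subgroup.zpowers (xb * yb * xb⁻¹) = _
        rw [hxyb, Subgroup.zpowers_inv]
      exact Subgroup.le_normalizer_comap π (show π t ∈ _ from ht ▸ hxn)
    obtain ⟨m, hm, n, hn, htmn⟩ := (IsSylowIn.ofSylow Ys).frattini Subgroup.le_normalizer le_rfl htM
    obtain ⟨yl, hylY, hyl⟩ : ∃ u ∈ Y', π u = yb := by
      let g : ↥M →* ↥(Subgroup.zpowers yb) := π.subgroupComap _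
      have hg : Function.Surjective g := MonoidHom.subgroupComap_surjective_of_surjective π _ hπs
      have htop : ((Ys.mapSurjective hg : Sylow 3 _) : Subgroup ↥(Subgroup.zpowers yb)) = ⊤ :=
        ((Ys.mapSurjective hg).is_maximal' ((IsPGroup.of_card (n := 1) (by rw [Nat.card_zpowers, hybo]; rfl)).to_subgroup ⊤)
          le_top).symm
      obtain ⟨u, hu, huv⟩ : (⟨yb, Subgroup.mem_zpowers yb⟩ : ↥(Subgroup.zpowers yb)) ∈
          ((Ys.mapSurjective hg : Sylow 3 _) : Subgroup ↥(Subgroup.zpowers yb)) := htop ▸ Subgroup.mem_top _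
      exact ⟨u, ⟨u, hu, rfl⟩, congrArg Subtype.val huv⟩
    obtain ⟨i, hi⟩ := (show π m ∈ Subgroup.zpowers yb from hm)
    have hπn : π n = (yb ^ i)⁻¹ * xb := by
      rw [show yb ^ i = π m from hi, ← ht, htmn, map_mul, inv_mul_cancel_left]
    have hninv : π n * yb * (π n)⁻¹ = yb⁻¹ := by
      rw [hπn, show (yb ^ i)⁻¹ * xb * yb * ((yb ^ i)⁻¹ * xb)⁻¹ = (yb ^ i)⁻¹ * (xb * yb * xb⁻¹) * yb ^ i by group, hxyb]
      group
    obtain ⟨j, hj, kn, hkn⟩ := Cfsg.Agent.S2758.two_part (n : G)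
    obtain ⟨j', rfl⟩ := hj
    have hsqc : π n * π n * yb * (π n * π n)⁻¹ = yb := by
      calc π n * π n * yb * (π n * π n)⁻¹ = π n * (π n * yb * (π n)⁻¹) * (π n)⁻¹ := by group
        _ = π n * yb⁻¹ * (π n)⁻¹ := by rw [hninv]
        _ = (π n * yb * (π n)⁻¹)⁻¹ := by group
        _ = yb := by rw [hninv, inv_inv]
    have hninv' : π (n ^ (2 * j' + 1)) * yb * (π (n ^ (2 * j' + 1)))⁻¹ = yb⁻¹ := by
      have hcom : Commute ((π n * π n) ^ j') yb :=
        Commute.pow_left (mul_inv_eq_iff_eq_mul.1 hsqc) j'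
      rw [map_pow, pow_succ', pow_mul, pow_two,
        show π n * (π n * π n) ^ j' * yb * (π n * (π n * π n) ^ j')⁻¹ =
          π n * ((π n * π n) ^ j' * yb * ((π n * π n) ^ j')⁻¹) * (π n)⁻¹ by group,
        hcom.eq, mul_inv_cancel_right, hninv]
    refine s4_of_action T hT (Y'.map N.subtype) ((Ys.isPGroup'.map _).map _) (y := (yl : G))
      (n := (n : G) ^ (2 * j' + 1)) ⟨yl, hylY, rfl⟩ ?_ ⟨kn, hkn⟩ ?_ ?_ ?_ ?_ ?_ ?_
    · exact Subgroup.le_normalizer_map N.subtype ⟨n ^ (2 * j' + 1), pow_mem hn.2 _, by simp⟩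
    · rintro _ ⟨a, -, rfl⟩
      exact a.2
    · exact pow_mem n.2 _
    · have h1 : π (yl ^ 3) = 1 := by rw [map_pow, hyl, ← hybo, pow_orderOf_eq_one]
      exact (QuotientGroup.eq_one_iff (yl ^ 3)).1 h1
    · intro hc
      have h1 : π yl = 1 := (QuotientGroup.eq_one_iff yl).2 hc
      rw [hyl] at h1
      rw [h1, orderOf_one] at hybo
      omega
    · have h1 : π (n ^ (2 * j' + 1) * yl * (n ^ (2 * j' + 1))⁻¹ * yl) = 1 := by
        rw [map_mul, map_mul, map_mul, map_inv, hyl, hninv', inv_mul_cancel]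
      have h2 : (n ^ (2 * j' + 1) * yl * (n ^ (2 * j' + 1))⁻¹ * yl : ↥N) ∈ C :=
        (QuotientGroup.eq_one_iff _).1 h1
      exact h2
    · rintro _ ⟨a, ha, rfl⟩
      obtain ⟨b, hb, rfl⟩ := ha
      obtain ⟨q, hq⟩ := mem_powers_iff_mem_zpowers.2 (show π (b : ↥N) ∈ Subgroup.zpowers yb from b.2)
      suffices h2 : (yl ^ q)⁻¹ * (b : ↥N) ∈ C from ⟨q, h2⟩
      refine (QuotientGroup.eq_one_iff _).1 ?_
      show π ((yl ^ q)⁻¹ * (b : ↥N)) = 1
      rw [map_mul, map_inv, map_pow, hyl, show yb ^ q = π (b : ↥N) from hq, inv_mul_cancel]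

end Cfsg.Agent.S2759
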