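import Mathlib
import Cfsg.Statements.S2896
import Cfsg.Agent.Lib.LocalChar.CharPLocal

set_option autoImplicit false

open scoped commutatorElement Pointwise

open Cfsg.Agent.Lib.LocalChar

namespace Cfsg.Agent.S2896

/-- Let p be a prime dividing the order of the finite group G, S a Sylow p-subgroup of G and X a subgroup of S. (i) If some nontrivial element z of the centre of X has F*(C_G(z)) = O_p(C_G(z)), then F*(N_G(X)) = O_p(N_G(X)). (ii) G has parabolic characteristic p if and only if F*(C_G(z)) = O_p(C_G(z)) for every nontrivial z ∈ Ω₁(Z(S)). (iii) If F*(C_G(z)) = O_p(C_G(z)) for every element z of S of order p, then G has local characteristic p. -/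
theorem result {G : Type*} [Group G] [Finite G] {p : ℕ} [Fact p.Prime] (hdiv : p ∣ Nat.card G) (S : Sylow p G) (X : Subgroup G) (hX : X ≤ (S : Subgroup G)) : (∀ z : G, z ≠ 1 → z ∈ X → (∀ x ∈ X, x * z = z * x) → Cfsg.generalizedFittingSubgroup ↥(Subgroup.centralizer ({z} : Set G)) = Cfsg.pCore p ↥(Subgroup.centralizer ({z} : Set G)) → Cfsg.generalizedFittingSubgroup ↥(Subgroup.normalizer (X : Set G)) = Cfsg.pCore p ↥(Subgroup.normalizer (X : Set G))) ∧ (Cfsg.IsOfParabolicCharacteristic p G ↔ ∀ z : G, z ≠ 1 → z ∈ Cfsg.omegaOne p ((S : Subgroup G) ⊓ Subgroup.centralizer ((S : Subgroup G) : Set G)) → Cfsg.generalizedFittingSubgroup ↥(Subgroup.centralizer ({z} : Set G)) = Cfsg.pCore p ↥(Subgroup.centralizer ({z} : Set G))) ∧ ((∀ z : G, z ∈ (S : Subgroup G) → orderOf z = p → Cfsg.generalizedFittingSubgroup ↥(Subgroup.centralizer ({z} : Set G)) = Cfsg.pCore p ↥(Subgroup.centralizer ({z} : Set G))) → Cfsg.IsOfLocalCharacteristic p G) := by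
  refine ⟨fun z hz1 hzX _ h => Cfsg.Agent.Lib.Components.gfs_eq_pCore_iff.2
    (Cfsg.Agent.Lib.Char2.charP_iff.1 (charP_normalizer_of_central (S.isPGroup'.to_le hX) hzX
      (gfs_centralizer_iff.1 h))), ?_, ?_⟩
  · rw [parabolicCharP_iff S]
    constructor
    · intro h z hz1 hz
      rw [mem_omegaCenter_iff] at hz
      exact gfs_centralizer_iff.2 (h z hz1 hz.1 (Subgroup.mem_centralizer_iff.2 hz.2.1) hz.2.2)
    · intro h z hz1 hzS hzc hzp
      exact gfs_centralizer_iff.1 (h z hz1 (Subgroup.subset_closure ⟨⟨hzS, hzc⟩, hzp⟩))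
  · intro h
    refine ⟨hdiv, fun T hT hne => ?_⟩
    obtain ⟨z, hzT, hzo, -⟩ := exists_orderP_fixed hT hT Subgroup.le_normalizer hne
    obtain ⟨g, hg⟩ : ∃ g : G, cj g T ≤ (S : Subgroup G) := by
      obtain ⟨P, hP⟩ := hT.exists_le_sylow
      obtain ⟨g, rfl⟩ := MulAction.exists_smul_eq G P S
      exact ⟨g, cj_mono hP⟩
    have h2 := charP_centralizer_conj g⁻¹ (gfs_centralizer_iff.1
      (h (g * z * g⁻¹) (cj_le_iff.1 hg z hzT) ((orderOf_conj' g z).trans hzo)))
    rw [show g⁻¹ * (g * z * g⁻¹) * g⁻¹⁻¹ = z by group] at h2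
    exact Cfsg.Agent.Lib.Char2.charP_iff.1 (charP_normalizer_of_central hT hzT h2)

end Cfsg.Agent.S2896
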