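import Mathlib
import Cfsg.Statements.S2897
import Cfsg.Agent.Lib.LocalChar.CharPLocal

set_option autoImplicit false

open scoped commutatorElement Pointwise

open Cfsg.Agent.Lib.LocalChar

namespace Cfsg.Agent.S2897

/-- Let p be a prime dividing the order of the finite group G, suppose G has parabolic characteristic p, let S be a Sylow p-subgroup of G and G₁ a normal subgroup of G. If Ω₁(Z(S ∩ G₁)) is nontrivial and contained in Ω₁(Z(S)), then G₁ has parabolic characteristic p. -/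
theorem result {G : Type*} [Group G] [Finite G] {p : ℕ} [Fact p.Prime] (hdiv : p ∣ Nat.card G) (hG : Cfsg.IsOfParabolicCharacteristic p G) (S : Sylow p G) (G₁ : Subgroup G) [G₁.Normal] (hne : Cfsg.omegaOne p (((S : Subgroup G) ⊓ G₁) ⊓ Subgroup.centralizer (((S : Subgroup G) ⊓ G₁ : Subgroup G) : Set G)) ≠ ⊥) (hle : Cfsg.omegaOne p (((S : Subgroup G) ⊓ G₁) ⊓ Subgroup.centralizer (((S : Subgroup G) ⊓ G₁ : Subgroup G) : Set G)) ≤ Cfsg.omegaOne p ((S : Subgroup G) ⊓ Subgroup.centralizer ((S : Subgroup G) : Set G))) : Cfsg.IsOfParabolicCharacteristic p ↥G₁ := by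
  have hS : IsSylowIn p ((S : Subgroup G) ⊓ G₁) G₁ := by
    obtain ⟨P, hP, hle⟩ := exists_isSylowIn_ge (p := p) (S.isPGroup'.to_le inf_le_left)
      (inf_le_right : (S : Subgroup G) ⊓ G₁ ≤ G₁)
    obtain ⟨R, hR⟩ := hP.2.1.exists_le_sylow
    obtain ⟨g, rfl⟩ := MulAction.exists_smul_eq G S R
    have h1 : cj g⁻¹ P ≤ (S : Subgroup G) ⊓ G₁ := cj_le_iff.2 fun x hx => by
      refine ⟨?_, (inferInstance : G₁.Normal).conj_mem x (hP.1 hx) _⟩
      have := mem_cj.1 (show x ∈ cj g (S : Subgroup G) from hR hx)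
      rwa [inv_inv]
    have h2 := Subgroup.card_le_of_le h1
    rw [card_cj] at h2
    rw [Subgroup.eq_of_le_of_card_ge hle h2]
    exact hP
  rw [parabolicCharP_iff hS.sylow]
  intro z hz1 hzS hzc hzp
  rw [IsSylowIn.sylow_coe hS] at hzS hzc
  have hzS' : (z : G) ∈ (S : Subgroup G) ⊓ G₁ := hzS
  have hzc' : (z : G) ∈ Subgroup.centralizer (((S : Subgroup G) ⊓ G₁ : Subgroup G) : Set G) :=
    Subgroup.mem_centralizer_iff.2 fun s hs =>
      congrArg Subtype.val (Subgroup.mem_centralizer_iff.1 hzc ⟨s, hs.2⟩ hs)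
  have hz := hle (Subgroup.subset_closure ⟨⟨hzS', hzc'⟩, by simpa using congrArg Subtype.val hzp⟩)
  rw [mem_omegaCenter_iff] at hz
  have h := (parabolicCharP_iff S).1 hG (z : G) (fun e => hz1 (Subtype.ext e)) hz.1
    (Subgroup.mem_centralizer_iff.2 hz.2.1) hz.2.2
  set C := Subgroup.centralizer ({(z : G)} : Set G)
  have hN : ((C ⊓ G₁).subgroupOf C).Normal :=
    normal_subgroupOf (le_nz_inf Subgroup.le_normalizer Subgroup.le_normalizer_of_normal)
  have h1 := Cfsg.Agent.Lib.Char2.charP_of_equiv (Subgroup.subgroupOfEquivOfLe (inf_le_left : C ⊓ G₁ ≤ C))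
    (Cfsg.Agent.Lib.Char2.charP_subnormal h hN.isSubnormal)
  refine Cfsg.Agent.Lib.Char2.charP_of_equiv ?_ h1
  refine ((Subgroup.centralizer ({z} : Set G₁)).equivMapOfInjective G₁.subtype G₁.subtype_injective).trans
    (MulEquiv.subgroupCongr ?_) |>.symm
  ext x
  constructor
  · rintro ⟨y, hy, rfl⟩
    exact ⟨Subgroup.mem_centralizer_singleton_iff.2
      (congrArg Subtype.val (Subgroup.mem_centralizer_singleton_iff.1 hy)), y.2⟩
  · rintro ⟨h1, h2⟩
    exact ⟨⟨x, h2⟩, Subgroup.mem_centralizer_singleton_iff.2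
      (Subtype.ext (Subgroup.mem_centralizer_singleton_iff.1 h1)), rfl⟩

end Cfsg.Agent.S2897
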