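import Mathlib
import Cfsg.Statements.S2898
import Cfsg.Agent.Lib.LocalChar.CharPLocal
import Cfsg.Agent.Lib.Hall.Basic

set_option autoImplicit false

open scoped commutatorElement Pointwise

open Cfsg.Agent.Lib.LocalChar

namespace Cfsg.Agent.S2898

/-- Let G be a finite group of even order with parabolic characteristic 2. If the centre of G ⧸ O(G) is trivial, then O(G) = 1. -/
theorem result {G : Type*} [Group G] [Finite G] (h2 : 2 ∣ Nat.card G) (hG : Cfsg.IsOfParabolicCharacteristic 2 G) [hN : (Cfsg.oddCore G).Normal] (hZ : Subgroup.center (G ⧸ Cfsg.oddCore G) = ⊥) : Cfsg.oddCore G = ⊥ := by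
  obtain ⟨S⟩ : Nonempty (Sylow 2 G) := inferInstance
  set O := Cfsg.oddCore G with hOd
  have hOodd : ¬ 2 ∣ Nat.card O := Cfsg.Agent.Lib.Hall.not_dvd_card_pPrimeCore Nat.prime_two
  have hSne : (S : Subgroup G) ≠ ⊥ := fun e => by
    have := S.not_dvd_index
    rw [e, Subgroup.index_bot] at this
    exact this h2
  -- central involutions of `S` have trivial centralizer in `O`
  have hfree : ∀ z ∈ (S : Subgroup G), orderOf z = 2 → z ∈ Subgroup.centralizer ((S : Subgroup G) : Set G) →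
      ∀ x ∈ O, x * z = z * x → x = 1 := by
    intro z hzS hzo hzc x hx hxz
    have h := (parabolicCharP_iff S).1 hG z (fun e => by rw [e, orderOf_one] at hzo; omega) hzS hzc
      (orderOf_dvd_iff_pow_eq_one.1 hzo.dvd)
    set C := Subgroup.centralizer ({z} : Set G)
    have hn : (O.subgroupOf C).Normal := inferInstance
    have hcop : (Nat.card (O.subgroupOf C)).Coprime 2 := by
      refine coprime_of_not_dvd fun hd => hOodd (hd.trans ?_)
      exact Subgroup.card_comap_dvd_of_injective O C.subtype C.subtype_injective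
    have h1 : O.subgroupOf C ≤ ⊥ := h.2 ▸ Cfsg.Agent.Lib.Hall.le_pPrimeCore hcop
    exact congrArg Subtype.val (Subgroup.mem_bot.1
      (h1 (x := ⟨x, Subgroup.mem_centralizer_singleton_iff.2 hxz⟩) hx))
  obtain ⟨z, hzS, hzo, hzc⟩ := exists_orderP_fixed S.isPGroup' S.isPGroup' Subgroup.le_normalizer hSne
  have hzz : z * z = 1 := by rw [← sq]; exact orderOf_dvd_iff_pow_eq_one.1 hzo.dvd
  have hzi : z⁻¹ = z := inv_eq_of_mul_eq_one_left hzz
  have hon : ∀ g : G, ∀ x ∈ O, g * x * g⁻¹ ∈ O := fun g x hx => hN.conj_mem x hx g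
  -- `z` inverts `O`
  have hinv : ∀ y ∈ O, z * y * z⁻¹ = y⁻¹ := by
    have hinj : Function.Injective (fun x : O => (⟨(x : G)⁻¹ * (z * x * z⁻¹), O.mul_mem (O.inv_mem x.2) (hon z x x.2)⟩ : O)) := by
      intro a b h
      have h' : (a : G)⁻¹ * (z * a * z⁻¹) = (b : G)⁻¹ * (z * b * z⁻¹) := congrArg Subtype.val h
      have h3 : ((b : G) * (a : G)⁻¹) * z = z * ((b : G) * (a : G)⁻¹) := by
        calc ((b : G) * (a : G)⁻¹) * z = (b : G) * ((a : G)⁻¹ * (z * a * z⁻¹)) * (z * (a : G)⁻¹) := by group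
          _ = (b : G) * ((b : G)⁻¹ * (z * b * z⁻¹)) * (z * (a : G)⁻¹) := by rw [h']
          _ = _ := by group
      exact Subtype.ext (mul_inv_eq_one.1 (hfree z hzS hzo hzc _ (O.mul_mem b.2 (O.inv_mem a.2)) h3)).symm
    intro y hy
    obtain ⟨x, hx⟩ := (Finite.injective_iff_surjective.1 hinj) ⟨y, hy⟩
    have hx' : (x : G)⁻¹ * (z * x * z⁻¹) = y := congrArg Subtype.val hx
    rw [← hx']
    calc z * ((x : G)⁻¹ * (z * (x : G) * z⁻¹)) * z⁻¹ = z * (x : G)⁻¹ * z * (x : G) * (z⁻¹ * z⁻¹) := by group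
      _ = z * (x : G)⁻¹ * z⁻¹ * x := by rw [← mul_inv_rev, hzz, inv_one, mul_one, hzi]
      _ = _ := by group
  set C := Subgroup.centralizer (O : Set G)
  by_cases hCeven : 2 ∣ Nat.card C
  · have hCn : C.Normal := inferInstance
    have hCS : C ⊓ (S : Subgroup G) ≠ ⊥ := by
      intro e
      obtain ⟨t, ht⟩ := exists_prime_orderOf_dvd_card' 2 hCeven
      have hto : orderOf (t : G) = 2 := by rwa [Subgroup.orderOf_coe]
      obtain ⟨R, hR⟩ := (isPGroup_zpowers_of_orderOf hto).1.exists_le_sylow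
      obtain ⟨g, rfl⟩ := MulAction.exists_smul_eq G S R
      have h1 : g⁻¹ * (t : G) * g ∈ C ⊓ (S : Subgroup G) :=
        ⟨by simpa using hCn.conj_mem _ t.2 g⁻¹,
          mem_cj.1 (show (t : G) ∈ cj g (S : Subgroup G) from hR (Subgroup.mem_zpowers _))⟩
      rw [e, Subgroup.mem_bot] at h1
      have h2 : (t : G) = 1 := by
        calc (t : G) = g * (g⁻¹ * (t : G) * g) * g⁻¹ := by group
          _ = 1 := by rw [h1]; group
      rw [h2, orderOf_one] at hto
      omega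
    obtain ⟨w, hw, hwo, hwc⟩ := exists_orderP_fixed (S.isPGroup'.to_le inf_le_right) S.isPGroup'
      (le_nz_inf Subgroup.le_normalizer_of_normal Subgroup.le_normalizer) hCS
    refine (Subgroup.eq_bot_iff_forall _).2 fun x hx => hfree w hw.2 hwo hwc x hx ?_
    exact (Subgroup.mem_centralizer_iff.1 hw.1 x hx)
  · exfalso
    have hCO : C ≤ O := Cfsg.Agent.Lib.Hall.le_pPrimeCore (coprime_of_not_dvd hCeven)
    have hzc : QuotientGroup.mk' O z ∈ Subgroup.center (G ⧸ O) := by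
      rw [Subgroup.mem_center_iff]
      intro gq
      obtain ⟨g, rfl⟩ := QuotientGroup.mk'_surjective O gq
      rw [← map_mul, ← map_mul]
      refine (QuotientGroup.eq.2 ?_)
      refine hCO (Subgroup.mem_centralizer_iff.2 fun y hy => ?_)
      have h1 : ∀ y ∈ O, (g⁻¹ * z * g) * y * (g⁻¹ * z * g)⁻¹ = y⁻¹ := fun y hy => by
        calc (g⁻¹ * z * g) * y * (g⁻¹ * z * g)⁻¹ = g⁻¹ * (z * (g * y * g⁻¹) * z⁻¹) * g := by group
          _ = y⁻¹ := by rw [hinv _ (hon g y hy)]; group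
      have e : (g * z)⁻¹ * (z * g) = z⁻¹ * (g⁻¹ * z * g) := by group
      rw [e]
      symm
      calc z⁻¹ * (g⁻¹ * z * g) * y = z⁻¹ * ((g⁻¹ * z * g) * y * (g⁻¹ * z * g)⁻¹) * (g⁻¹ * z * g) := by group
        _ = (z⁻¹ * y⁻¹ * z⁻¹⁻¹) * (z⁻¹ * (g⁻¹ * z * g)) := by rw [h1 y hy]; group
        _ = y * (z⁻¹ * (g⁻¹ * z * g)) := by
          rw [show z⁻¹ * y⁻¹ * z⁻¹⁻¹ = z * y⁻¹ * z⁻¹ by rw [inv_inv, hzi], hinv _ (O.inv_mem hy), inv_inv]
    rw [hZ, Subgroup.mem_bot] at hzc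
    have hzO : z ∈ O := (QuotientGroup.eq_one_iff z).1 hzc
    exact hOodd (hzo ▸ Subgroup.orderOf_dvd_natCard O hzO)

end Cfsg.Agent.S2898
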