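import Mathlib
import Cfsg.Statements.S2905
import Cfsg.Agent.Lib.LocalChar.PMinimal

set_option autoImplicit false

open scoped commutatorElement Pointwise

open Cfsg.Agent.Lib.LocalChar

namespace Cfsg.Agent.S2905

open Subgroup Cfsg.Agent.Lib.LocalChar

/-- Let P be a finite p-minimal group (a Sylow p-subgroup S is not normal and lies in a unique maximal subgroup M of P) and let F be the normal core of M. Then: every subnormal subgroup N of P contained in M satisfies N ∩ S ≤ O_p(P); if O^p(P) has a normal Sylow p-subgroup then the order of P has at most two prime divisors; every normal subgroup N of P either contains O^p(P) or is contained in F; and O^p(P)F ⧸ F is a minimal normal subgroup of P ⧸ F. -/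
theorem result {P : Type*} [Group P] [Finite P] {p : ℕ} [Fact p.Prime] (hP : Cfsg.IsPMinimal p P) (S : Sylow p P) (M : Subgroup P) (hM : IsCoatom M) (hSM : (S : Subgroup P) ≤ M) [hF : M.normalCore.Normal] : (∀ N : Subgroup P, N.IsSubnormal → N ≤ M → N ⊓ (S : Subgroup P) ≤ Cfsg.pCore p P) ∧ ((∀ T : Sylow p ↥(Cfsg.pResidual p P), (T : Subgroup ↥(Cfsg.pResidual p P)).Normal) → (Nat.card P).primeFactors.card ≤ 2) ∧ (∀ N : Subgroup P, N.Normal → Cfsg.pResidual p P ≤ N ∨ N ≤ M.normalCore) ∧ (∀ N : Subgroup P, N.Normal → M.normalCore ≤ N → N ≤ Cfsg.pResidual p P ⊔ M.normalCore → N = M.normalCore ∨ N = Cfsg.pResidual p P ⊔ M.normalCore) ∧ M.normalCore < Cfsg.pResidual p P ⊔ M.normalCore := by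
  classical
  have hpp : p.Prime := Fact.out
  refine ⟨fun N hN hNM => pmin_subnormal_inf_le hP S hM hSM hN hNM, fun hcl => ?_,
    fun N hN => pmin_res_le_or hP S hM hSM hN, fun N hN hFN hNle => ?_, ?_⟩
  · set K := Cfsg.pResidual p P with hK
    haveI : K.Normal := pResidual_normal
    obtain ⟨T₀⟩ : Nonempty (Sylow p ↥K) := inferInstance
    haveI := hcl T₀
    haveI := T₀.characteristic_of_normal (hcl T₀)
    set T := (T₀ : Subgroup ↥K).map K.subtype with hT
    haveI : T.Normal := inferInstance
    have hTp : IsPGroup p ↥T := T₀.isPGroup'.map _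
    have hTK : T ≤ K := map_subtype_le _
    have hTi : ¬ p ∣ T.relIndex K := by
      rw [relIndex, subgroupOf, hT, comap_map_eq_self_of_injective K.subtype_injective]
      exact T₀.not_dvd_index
    have hTM : T ≤ M := (le_pCore inferInstance hTp).trans ((pCore_le_sylow S).trans hSM)
    by_contra hcard
    push Not at hcard
    apply pmin_res_not_le hP S hM hSM
    refine inf_eq_right.1 (le_antisymm inf_le_right (relIndex_eq_one.1 ?_))
    by_contra hne
    obtain ⟨q, hq, hqd⟩ := Nat.exists_prime_and_dvd hne
    haveI := Fact.mk hq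
    by_cases hqp : q = p
    · subst hqp
      exact hTi (hqd.trans (relIndex_dvd_of_le_left _ (le_inf hTM hTK)))
    obtain ⟨Q, hQ, hS, -⟩ := pmin_exists_nz (q := q) hP S hM hSM (N := K) hTK hTi
    set W := T ⊔ Q
    by_cases htop : (S : Subgroup P) ⊔ W = ⊤
    · -- then only two primes divide the order
      exfalso
      haveI : W.Normal := by
        rw [← normalizer_eq_top_iff, eq_top_iff, ← htop]
        exact sup_le hS le_normalizer
      have h1 : W.index = W.relIndex (S : Subgroup P) := by
        rw [← relIndex_top_right, ← htop, relIndex_sup_right]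
      have h2 : T.relIndex W = T.relIndex Q := by
        show T.relIndex (T ⊔ Q) = _
        rw [sup_comm, relIndex_sup_right]
      have h3 : Nat.card P = Nat.card ↥T * T.relIndex W * W.index := by
        rw [← Nat.card_congr (subgroupOfEquivOfLe (le_sup_left : T ≤ W)).toEquiv, relIndex,
          card_mul_index, card_mul_index]
      have hdvd : Nat.card P ∣ Nat.card ↥T * Nat.card ↥Q * Nat.card ↥(S : Subgroup P) := by
        rw [h3, h1, h2]
        exact mul_dvd_mul (mul_dvd_mul dvd_rfl (relIndex_dvd_card _ _)) (relIndex_dvd_card _ _)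
      obtain ⟨a, ha⟩ := IsPGroup.iff_card.1 hTp
      obtain ⟨b, hb⟩ := IsPGroup.iff_card.1 hQ.2.1
      obtain ⟨c, hc⟩ := IsPGroup.iff_card.1 S.isPGroup'
      rw [ha, hb, hc] at hdvd
      have hsub : (Nat.card P).primeFactors ⊆ {p, q} := by
        intro r hr
        have hr1 := Nat.prime_of_mem_primeFactors hr
        have := (Nat.dvd_of_mem_primeFactors hr).trans hdvd
        simp only [Finset.mem_insert, Finset.mem_singleton]
        rcases (Nat.Prime.dvd_mul hr1).1 this with h | h
        · rcases (Nat.Prime.dvd_mul hr1).1 h with h | h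
          · exact Or.inl ((Nat.prime_dvd_prime_iff_eq hr1 hpp).1 (hr1.dvd_of_dvd_pow h))
          · exact Or.inr ((Nat.prime_dvd_prime_iff_eq hr1 hq).1 (hr1.dvd_of_dvd_pow h))
        · exact Or.inl ((Nat.prime_dvd_prime_iff_eq hr1 hpp).1 (hr1.dvd_of_dvd_pow h))
      have := (Finset.card_le_card hsub).trans Finset.card_le_two
      omega
    · have hQM : Q ≤ M := (le_sup_right.trans le_sup_right).trans (pmin_le hP S hM hSM (le_sup_left : (S : Subgroup P) ≤ (S : Subgroup P) ⊔ W) htop)
      exact hQ.2.2 (hqd.trans (relIndex_dvd_of_le_left _ (le_inf hQM hQ.1)))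
  · rcases pmin_res_le_or hP S hM hSM hN with h | h
    · exact Or.inr (le_antisymm hNle (sup_le h hFN))
    · exact Or.inl (le_antisymm h hFN)
  · refine lt_of_le_of_ne le_sup_right fun h => pmin_res_not_le hP S hM hSM ?_
    exact le_sup_left.trans (h.symm.le.trans M.normalCore_le)

end Cfsg.Agent.S2905
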