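import Mathlib
import Cfsg.Statements.S2906
import Cfsg.Agent.Lib.LocalChar.PMinimal
import Cfsg.Agent.Lib.Components.Cores

set_option autoImplicit false

open scoped commutatorElement Pointwise

open Cfsg.Agent.Lib.LocalChar

namespace Cfsg.Agent.S2906

open Subgroup Cfsg.Agent.Lib.Components Cfsg.Agent.Lib.LocalChar
open scoped commutatorElement

theorem pmin_of_one {X : Type*} [Group X] [Finite X] {p : ℕ} [Fact p.Prime] (S₀ : Sylow p X)
    (hn : ¬ (S₀ : Subgroup X).Normal) {M₀ : Subgroup X} (hSM : (S₀ : Subgroup X) ≤ M₀) (hM : M₀ ≠ ⊤)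
    (hmax : ∀ Y : Subgroup X, (S₀ : Subgroup X) ≤ Y → Y ≠ ⊤ → Y ≤ M₀) : Cfsg.IsPMinimal p X := by
  have hM₀ : IsCoatom M₀ := ⟨hM, fun Y hY => by
    by_contra hne
    exact not_le_of_gt hY (hmax Y (hSM.trans hY.le) hne)⟩
  intro S
  obtain ⟨x, rfl⟩ := MulAction.exists_smul_eq X S₀ S
  refine ⟨fun h => hn ?_, cj x M₀, ⟨?_, ?_⟩, ?_⟩
  · haveI := h
    have : ((x⁻¹ • x • S₀ : Sylow p X)) = x • S₀ := Sylow.smul_eq_of_normal
    rw [inv_smul_smul] at this
    rw [this]; exact h
  · exact (OrderIso.isCoatom_iff (MulEquiv.mapSubgroup (MulAut.conj x)) M₀).2 hM₀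
  · rw [Sylow.coe_subgroup_smul]
    exact map_mono hSM
  · rintro Y ⟨hY, hle⟩
    rw [Sylow.coe_subgroup_smul] at hle
    have h1 : (S₀ : Subgroup X) ≤ cj x⁻¹ Y := fun s hs => by
      refine ⟨x * s * x⁻¹, hle ⟨s, hs, rfl⟩, ?_⟩
      simp [mul_assoc]
    have hY' : IsCoatom (cj x⁻¹ Y) := (OrderIso.isCoatom_iff (MulEquiv.mapSubgroup (MulAut.conj x⁻¹)) Y).2 hY
    have h2 := hmax _ h1 hY'.1
    have h3 : cj x⁻¹ Y = M₀ := h2.eq_or_lt.resolve_right (fun h => hM (hY'.2 _ h))
    rw [← h3, cj_cj, mul_inv_cancel, cj_one]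

/-- Let P be a finite p-minimal group with O_p(P) = 1, S a Sylow p-subgroup of P and K a component of P. Then O^p(P) = F*(P) = E(P) is generated by the S-conjugates of K, and the subgroup K·N_S(K) is again p-minimal. -/
theorem result {P : Type*} [Group P] [Finite P] {p : ℕ} [Fact p.Prime] (hP : Cfsg.IsPMinimal p P) (hOp : Cfsg.pCore p P = ⊥) (S : Sylow p P) (K : Subgroup P) (hK : Cfsg.IsComponent K) : Cfsg.pResidual p P = Cfsg.generalizedFittingSubgroup P ∧ Cfsg.generalizedFittingSubgroup P = Cfsg.layer P ∧ Cfsg.layer P = ⨆ s : ↥(S : Subgroup P), K.map (MulAut.conj (s : P)).toMonoidHom ∧ Cfsg.IsPMinimal p ↥(K ⊔ ((S : Subgroup P) ⊓ Subgroup.normalizer (K : Set P))) := by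
  classical
  obtain ⟨-, M, ⟨hM, hSM⟩, -⟩ := hP S
  have hno : ∀ Q : Subgroup P, Group.IsNilpotent ↥Q → ¬ K ≤ Q := fun Q hQ h => by
    haveI := hQ
    exact comp_not_le_solvable hK inferInstance h
  have hKres : K ≤ Cfsg.pResidual p P := perfect_le_pResidual (comp_perfect hK)
  have hp'N : ∀ N : Subgroup P, N.Normal → ¬ p ∣ Nat.card ↥N → ¬ K ≤ N := by
    intro N hN hNp hKN
    haveI := hN
    rcases pmin_normal_p' hP S hM hSM hNp with ⟨-, h⟩ | ⟨Q, hQ, h⟩
    · exact hno N h hKN
    · exact hno Q hQ (hKres.trans h)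
  have hKp : ¬ ((Nat.card ↥K).Coprime p) := fun h =>
    hp'N (Cfsg.pPrimeCore p P) (pPrimeCore_normal p P) (pPrimeCore_not_dvd p) (le_pPrimeCore_of_subnormal hK.1 h)
  have hsubp' : ∀ L : Subgroup P, L.IsSubnormal → L ≤ M → ¬ p ∣ Nat.card ↥L := by
    intro L hL hLM hd
    have h1 := pmin_subnormal_inf_le hP S hM hSM hL hLM
    rw [hOp, le_bot_iff, inf_comm] at h1
    have h2 := (IsSylowIn.inf_subnormal S hL).2.2
    rw [h1, relIndex_bot_left] at h2
    exact h2 hd
  have hKM : ¬ K ≤ M := fun h => hKp (coprime_of_not_dvd (hsubp' K hK.1 h))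
  have hE1 : Cfsg.pResidual p P = Cfsg.layer P := le_antisymm
    (pmin_res_le_of_not_le hP S hM hSM fun h => hKM ((comp_le_layer hK).trans h))
    (layer_le_iff.2 fun L hL => perfect_le_pResidual (comp_perfect hL))
  have hF : Cfsg.fittingSubgroup P ≤ Cfsg.pResidual p P := fun x hx => mem_pResidual
    (coprime_of_not_dvd fun hd => fitting_p' hOp (hd.trans ((Cfsg.fittingSubgroup P).orderOf_dvd_natCard hx)))
  have hgfs : Cfsg.generalizedFittingSubgroup P = Cfsg.layer P :=
    le_antisymm (sup_le le_rfl (hE1 ▸ hF)) le_sup_left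
  set J := orbitJoin (S : Subgroup P) K with hJ
  have hJn : J.Normal := by
    rw [← normalizer_eq_top_iff, eq_top_iff, ← resOf_sup_sylow S, hE1]
    refine sup_le ?_ (le_nz_orbitJoin _ _)
    exact le_nz_iSup fun y => comp_normal_in_layer (isComponent_map_equiv hK (MulAut.conj (y : P)))
  have hJle : J ≤ Cfsg.layer P := iSup_le fun y => comp_le_layer (isComponent_map_equiv hK (MulAut.conj (y : P)))
  have hlayJ : Cfsg.layer P = J := le_antisymm
    (hE1 ▸ pmin_res_le_of_not_le hP S hM hSM fun h => hKM ((le_orbitJoin _ _).trans h)) hJle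
  refine ⟨hE1.trans hgfs.symm, hgfs, hlayJ, ?_⟩
  set R := (S : Subgroup P) ⊓ normalizer (K : Set P) with hR
  set X := K ⊔ R with hX
  set T := (S : Subgroup P) ⊓ K with hTdef
  have hT : IsSylowIn p T K := IsSylowIn.inf_subnormal S hK.1
  have hRn : R ≤ normalizer (K : Set P) := inf_le_right
  haveI hK' : (K.subgroupOf X).Normal := normal_subgroupOf (sup_le le_normalizer hRn)
  have hTR : T ≤ R := le_inf inf_le_left (inf_le_right.trans le_normalizer)
  have hRX : IsSylowIn p R X := by
    refine ⟨le_sup_right, S.isPGroup'.to_le inf_le_left, fun hd => hT.2.2 (hd.trans ?_)⟩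
    have h := index_dvd_of_sup (N := K.subgroupOf X) (H := R.subgroupOf X) (T := T.subgroupOf X)
      (by rw [← subgroupOf_sup (le_sup_left : K ≤ X) (le_sup_right : R ≤ X), subgroupOf_self])
      (comap_mono inf_le_right) (comap_mono hTR)
    rw [relIndex_subgroupOf (le_sup_left : K ≤ X)] at h
    exact h
  refine pmin_of_one hRX.sylow ?_ (M₀ := M.subgroupOf X) ?_ ?_ ?_
  · intro hn
    rw [hRX.sylow_coe] at hn
    haveI := hn
    have hXR : X ≤ normalizer (R : Set P) := le_nz_pointwise le_sup_right hn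
    have hKT : K ≤ normalizer (T : Set P) := by
      have : T = R ⊓ K := le_antisymm (le_inf hTR inf_le_right) (inf_le_inf_right _ inf_le_left)
      rw [this]
      exact le_nz_inf (le_sup_left.trans hXR) le_normalizer
    have hTsn : T.IsSubnormal := by
      have h := (normal_subgroupOf hKT).isSubnormal.trans' hK.1
      rwa [map_subgroupOf_eq_of_le (inf_le_right : T ≤ K)] at h
    have hT1 : T ≤ ⊥ := hOp ▸ Cfsg.Agent.Lib.LocalChar.le_pCore_of_subnormal hTsn hT.2.1
    have h2 := hT.2.2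
    rw [le_bot_iff.1 hT1, relIndex_bot_left] at h2
    exact hKp (coprime_of_not_dvd h2)
  · rw [hRX.sylow_coe]
    exact comap_mono (inf_le_left.trans hSM)
  · rw [Ne, subgroupOf_eq_top]
    exact fun h => hKM (le_sup_left.trans h)
  · intro Y' hRY' hne
    rw [hRX.sylow_coe] at hRY'
    set Y := Y'.map X.subtype with hY
    have hYX : Y ≤ X := map_subtype_le _
    have hRY : R ≤ Y := fun r hr => ⟨⟨r, mem_sup_right hr⟩, hRY' hr, rfl⟩
    suffices hUM : Y ⊓ K ≤ M by
      intro y hy
      obtain ⟨k, hk, r, hr, he⟩ := (mem_sup_iff_of_nz' hRn).1 y.2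
      have hy' : (y : P) ∈ Y := ⟨y, hy, rfl⟩
      have hkY : k ∈ Y := by
        rw [show k = (y : P) * r⁻¹ by rw [he]; group]
        exact mul_mem hy' (inv_mem (hRY hr))
      show (y : P) ∈ M
      rw [he]
      exact mul_mem (hUM ⟨hkY, hk⟩) (hSM hr.1)
    set U := Y ⊓ K with hU
    by_contra hUM
    set Ut := orbitJoin (S : Subgroup P) U with hUt
    have htop : (S : Subgroup P) ⊔ Ut = ⊤ := by
      by_contra h
      exact hUM (((le_orbitJoin _ _).trans le_sup_right).trans (pmin_le hP S hM hSM le_sup_left h))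
    have hres : K ≤ Ut := hKres.trans (pResidual_le_of_sup S.isPGroup' (le_nz_orbitJoin _ _) htop)
    have hle : Ut ≤ U ⊔ centralizer (K : Set P) := by
      refine iSup_le fun s => ?_
      by_cases hs : (s : P) ∈ normalizer (K : Set P)
      · refine le_sup_of_le_left (le_of_eq (cj_eq_of_mem_nz ?_))
        exact le_nz_inf (N := R) (hRY.trans le_normalizer) hRn ⟨s.2, hs⟩
      · refine le_sup_of_le_right ((map_mono inf_le_right).trans ?_)
        rw [← commutator_eq_bot_iff_le_centralizer]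
        exact comp_commute (isComponent_map_equiv hK (MulAut.conj (s : P))) hK (fun h => hs (mem_nz_of_cj_eq h))
    have hUC : U ≤ normalizer (centralizer (K : Set P) : Set P) := le_nz_centralizer (inf_le_right.trans le_normalizer)
    have hKU : K ≤ U := by
      have htopK : U.subgroupOf K ⊔ center ↥K = ⊤ := by
        rw [eq_top_iff]
        intro k _
        obtain ⟨u, hu, c, hc, he⟩ := (mem_sup_iff_of_nz hUC).1 (hle (hres k.2))
        have hcK : c ∈ K := by
          rw [show c = u⁻¹ * (k : P) by rw [he]; group]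
          exact mul_mem (inv_mem hu.2) k.2
        rw [show k = (⟨u, hu.2⟩ : ↥K) * ⟨c, hcK⟩ from Subtype.ext he]
        exact mul_mem_sup (show (⟨u, hu.2⟩ : ↥K) ∈ U.subgroupOf K from hu)
          (mem_center_iff.2 fun x => Subtype.ext (mem_centralizer_iff.1 hc x x.2))
      have h1 := commutator_sup_center_eq (le_refl (center ↥K)) (U.subgroupOf K) (U.subgroupOf K)
      rw [htopK] at h1
      have h2 := congrArg (Subgroup.map K.subtype) h1
      rw [map_commutator, map_commutator, ← MonoidHom.range_eq_map, range_subtype, comp_perfect hK,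
        map_subgroupOf_eq_of_le (inf_le_right : U ≤ K)] at h2
      rw [h2]
      exact commutator_le_self U
    apply hne
    apply map_injective X.subtype_injective
    rw [← MonoidHom.range_eq_map, range_subtype]
    exact le_antisymm hYX (sup_le (hKU.trans inf_le_left) hRY)

end Cfsg.Agent.S2906
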