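import Mathlib
import Cfsg.Statements.S2907


set_option autoImplicit false

open scoped commutatorElement Pointwise

namespace Cfsg.Agent.S2907

/-- Let X be a finite semi-extraspecial p-group and x an element of X outside the centre. Then the index of C_X(x) in X equals the order of Z(X), and the commutators [x, y], y ∈ X, form exactly the centre Z(X). -/
theorem result {X : Type*} [Group X] [Finite X] {p : ℕ} [Fact p.Prime] (hX : Cfsg.IsSemiExtraspecial p X) (x : X) (hx : x ∉ Subgroup.center X) : (Subgroup.centralizer ({x} : Set X)).index = Nat.card ↥(Subgroup.center X) ∧ {z : X | ∃ y : X, z = x * y * x⁻¹ * y⁻¹} = (Subgroup.center X : Set X) := by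
  classical
  obtain ⟨⟨hXp, hfr, hcm⟩, hext⟩ := hX
  set Z := Subgroup.center X with hZ
  have hcomm : ∀ y : X, x * y * x⁻¹ * y⁻¹ ∈ Z := fun y => by
    rw [← hcm]; exact Subgroup.commutator_mem_commutator (Subgroup.mem_top x) (Subgroup.mem_top y)
  let φ : X →* ↥Z :=
    { toFun := fun y => ⟨x * y * x⁻¹ * y⁻¹, hcomm y⟩
      map_one' := by apply Subtype.ext; simp
      map_mul' := fun a b => by
        apply Subtype.ext
        show x * (a * b) * x⁻¹ * (a * b)⁻¹ = (x * a * x⁻¹ * a⁻¹) * (x * b * x⁻¹ * b⁻¹)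
        have hc := Subgroup.mem_center_iff.mp (hcomm b) a
        calc x * (a * b) * x⁻¹ * (a * b)⁻¹ = x * a * x⁻¹ * (x * b * x⁻¹ * b⁻¹) * a⁻¹ := by group
          _ = (x * a * x⁻¹ * a⁻¹) * (a * (x * b * x⁻¹ * b⁻¹)) * a⁻¹ := by group
          _ = (x * a * x⁻¹ * a⁻¹) * ((x * b * x⁻¹ * b⁻¹) * a) * a⁻¹ := by rw [hc]
          _ = _ := by group }
  have hker : φ.ker = Subgroup.centralizer ({x} : Set X) := by
    ext y
    rw [MonoidHom.mem_ker, Subgroup.mem_centralizer_singleton_iff]
    constructor
    · intro h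
      have : x * y * x⁻¹ * y⁻¹ = 1 := congrArg Subtype.val h
      exact (commutatorElement_eq_one_iff_mul_comm.mp this).symm
    · intro h
      apply Subtype.ext
      exact commutatorElement_eq_one_iff_mul_comm.mpr h.symm
  have hsur : Function.Surjective φ := by
    rw [← MonoidHom.range_eq_top]
    rcases eq_top_or_exists_le_coatom φ.range with h | ⟨Y₀, hY₀, hle⟩
    · exact h
    exfalso
    have hY₀' : (Y₀.map Z.subtype).subgroupOf Z = Y₀ :=
      Subgroup.comap_map_eq_self_of_injective Subtype.val_injective Y₀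
    obtain ⟨hn, hE⟩ := hext (Y₀.map Z.subtype) (Subgroup.map_subtype_le Y₀) (by rw [hY₀']; exact hY₀)
    obtain ⟨⟨hp', -, hcm'⟩, hcard⟩ := hE
    have hin : (QuotientGroup.mk x : X ⧸ Y₀.map Z.subtype) ∈ Subgroup.center _ := by
      rw [Subgroup.mem_center_iff]
      intro q
      induction q using QuotientGroup.induction_on with
      | H y =>
        rw [← QuotientGroup.mk_mul, ← QuotientGroup.mk_mul, eq_comm, QuotientGroup.eq]
        have : x * y * x⁻¹ * y⁻¹ ∈ Y₀.map Z.subtype := ⟨φ y, hle ⟨y, rfl⟩, rfl⟩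
        have h2 := hn.conj_mem _ (Subgroup.inv_mem _ this) (y⁻¹ * x⁻¹)
        convert h2 using 1
        group
    rw [← hcm', commutator_eq_closure] at hin
    -- lift: x lies in Z * Y = Z
    have hle' : (commutator (X ⧸ Y₀.map Z.subtype)).comap (QuotientGroup.mk' _) ≤ Z := by
      have hs : (commutator X).map (QuotientGroup.mk' (Y₀.map Z.subtype)) =
          commutator (X ⧸ Y₀.map Z.subtype) := by
        rw [commutator_def, commutator_def, Subgroup.map_commutator,
          Subgroup.map_top_of_surjective _ (QuotientGroup.mk'_surjective _)]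
      rw [← hs, Subgroup.comap_map_eq, hcm, QuotientGroup.ker_mk']
      exact sup_le le_rfl (Subgroup.map_subtype_le Y₀)
    exact hx (hle' (by rw [Subgroup.mem_comap, commutator_eq_closure]; exact hin))
  refine ⟨?_, ?_⟩
  · rw [← hker, Subgroup.index_ker, MonoidHom.range_eq_top.mpr hsur, Subgroup.card_top]
  · ext z
    constructor
    · rintro ⟨y, rfl⟩; exact hcomm y
    · intro hz
      obtain ⟨y, hy⟩ := hsur ⟨z, hz⟩
      exact ⟨y, (congrArg Subtype.val hy).symm⟩

end Cfsg.Agent.S2907
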