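import Mathlib
import Cfsg.Statements.S2908
import Cfsg.Agent.Lib.LocalChar.ThreeSub

set_option autoImplicit false

open scoped commutatorElement Pointwise

open Cfsg.Agent.Lib.LocalChar

namespace Cfsg.Agent.S2908

/-- Let P be a p-subgroup of a finite group, normalized by a p-subgroup A and by a subgroup B of order prime to p that commutes elementwise with A. If [P, B] ≤ [P, A], then B centralizes P. -/
theorem result {G : Type*} [Group G] [Finite G] {p : ℕ} [Fact p.Prime] (P A B : Subgroup G) (hP : IsPGroup p ↥P) (hA : IsPGroup p ↥A) (hB : ¬ p ∣ Nat.card ↥B) (hnA : A ≤ Subgroup.normalizer (P : Set G)) (hnB : B ≤ Subgroup.normalizer (P : Set G)) (hAB : ⁅A, B⁆ = ⊥) (hcomm : ⁅P, B⁆ ≤ ⁅P, A⁆) : ⁅P, B⁆ = ⊥ := by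
  set K := P ⊔ A with hKd
  have hKp : IsPGroup p K := hP.to_sup_of_normal_left' hA hnA
  have hPK : K ≤ Subgroup.normalizer (P : Set G) := sup_le Subgroup.le_normalizer hnA
  have hBA : B ≤ Subgroup.centralizer (A : Set G) :=
    Subgroup.commutator_eq_bot_iff_le_centralizer.1 (by rw [Subgroup.commutator_comm]; exact hAB)
  have hBK : B ≤ Subgroup.normalizer (K : Set G) :=
    le_nz_sup hnB (hBA.trans (Subgroup.centralizer_le_normalizer _))
  set D := Cfsg.iterCommutator P K
  have hK : ∀ n, K ≤ Subgroup.normalizer (D n : Set G) := le_nz_iterCommutator hPK Subgroup.le_normalizer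
  have hBn : ∀ n, B ≤ Subgroup.normalizer (D n : Set G) := le_nz_iterCommutator hnB hBK
  have hDK : ∀ n, D n ≤ K := by
    intro n
    induction n with
    | zero => exact le_sup_left
    | succ n ih => exact (iterCommutator_succ_le hPK n).trans ih
  have hPB : ⁅P, B⁆ ≤ D 1 := hcomm.trans (Subgroup.commutator_mono le_rfl le_sup_right)
  have hKB : ⁅K, B⁆ ≤ D 1 := by
    rw [Subgroup.commutator_le]
    intro k hk b hb
    obtain ⟨u, hu, a, ha, rfl⟩ := (mem_sup_iff_of_nz' hnA).1 hk
    have e : a * b = b * a := Subgroup.mem_centralizer_iff.1 (hBA hb) a ha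
    have : ⁅u * a, b⁆ = ⁅u, b⁆ := by
      calc ⁅u * a, b⁆ = u * (a * b) * a⁻¹ * u⁻¹ * b⁻¹ := by rw [commutatorElement_def]; group
        _ = ⁅u, b⁆ := by rw [e, commutatorElement_def]; group
    rw [this]; exact hPB (Subgroup.commutator_mem_commutator hu hb)
  have h2 : ∀ n, ⁅D 1, D n⁆ ≤ D (n + 2) := by
    intro n
    refine (Subgroup.commutator_mono (Subgroup.commutator_mono (le_sup_left : P ≤ K) le_rfl) le_rfl).trans ?_
    refine three_subgroup_le (hK _) (hK _) ((hDK n).trans (hK _)) ?_ le_rfl
    rw [Subgroup.commutator_comm K (D n)]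
    exact le_rfl
  have h3 : ∀ n, ⁅D n, B⁆ ≤ D (n + 1) := by
    intro n
    induction n with
    | zero => exact hPB
    | succ n ih =>
      refine three_subgroup_le ((hDK n).trans (hK _)) (hK _) (hBn _) ?_ ?_
      · exact (Subgroup.commutator_mono hKB le_rfl).trans (h2 n)
      · rw [Subgroup.commutator_comm B (D n)]
        exact Subgroup.commutator_mono ih le_rfl
  have hcop : (Nat.card B).Coprime (Nat.card P) := by
    obtain ⟨k, hk⟩ := hP.exists_card_eq
    rw [hk]
    exact (((Nat.Prime.coprime_iff_not_dvd Fact.out).2 hB).symm).pow_right k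
  have : Group.IsNilpotent P := hP.isNilpotent
  have hPBB := Cfsg.Agent.Lib.Coprime.commutator_commutator hnB hcop (Or.inr inferInstance)
  have hall : ∀ n, ⁅P, B⁆ ≤ D n := by
    intro n
    induction n with
    | zero => exact commutator_le_left_of_nz hnB
    | succ n ih => exact hPBB.ge.trans ((Subgroup.commutator_mono ih le_rfl).trans (h3 n))
  obtain ⟨n, hn⟩ := exists_iter_eq_bot (N := P) (A := K) hKp le_sup_left le_rfl
  exact le_bot_iff.1 ((hall n).trans hn.le)

end Cfsg.Agent.S2908
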