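import Mathlib
import Cfsg.Statements.S2909
import Cfsg.Agent.Lib.LocalChar.ThreeSub
import Cfsg.Agent.Lib.Coprime.Abelian
import Cfsg.Agent.S2908

set_option autoImplicit false

open scoped commutatorElement Pointwise

open Cfsg.Agent.Lib.LocalChar

namespace Cfsg.Agent.S2909

/-- Let p be a prime, E a normal p-subgroup of the finite group G, and U a non-cyclic elementary abelian p-subgroup of G such that either C_E(U) = C_E(u) for every nontrivial u ∈ U, or [E, U] = [E, ⟨u⟩] for every nontrivial u ∈ U. If R is a subgroup of order prime to p normalized by U, then [R, U] centralizes E. -/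
theorem result {G : Type*} [Group G] [Finite G] {p : ℕ} [Fact p.Prime] (E : Subgroup G) [E.Normal] (hE : IsPGroup p ↥E) (U : Subgroup G) (hU : Cfsg.IsElementaryAbelian p U) (hnc : ¬ IsCyclic ↥U) (hcond : (∀ u ∈ U, u ≠ 1 → E ⊓ Subgroup.centralizer (U : Set G) = E ⊓ Subgroup.centralizer ({u} : Set G)) ∨ (∀ u ∈ U, u ≠ 1 → ⁅E, U⁆ = ⁅E, Subgroup.zpowers u⁆)) (R : Subgroup G) (hR : ¬ p ∣ Nat.card ↥R) (hRU : U ≤ Subgroup.normalizer (R : Set G)) : ⁅R, U⁆ ≤ Subgroup.centralizer (E : Set G) := by
  classical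
  have := hU.1
  have hEn : ∀ g : G, ∀ e ∈ E, g * e * g⁻¹ ∈ E := fun g e he => (inferInstance : E.Normal).conj_mem e he g
  have hCn : (Subgroup.centralizer (E : Set G)).Normal := inferInstance
  have hUp : IsPGroup p U := fun a => ⟨1, by
    rw [pow_one]; exact Subtype.ext (by simpa using hU.2 a.1 a.2)⟩
  have hcop : (Nat.card U).Coprime (Nat.card R) := by
    obtain ⟨k, hk⟩ := hUp.exists_card_eq
    rw [hk]
    exact ((Nat.Prime.coprime_iff_not_dvd Fact.out).2 hR).pow_left k
  let X : Subgroup G :=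
    { carrier := {x | x ∈ R ∧ ∀ v ∈ U, ⁅x, v⁆ ∈ Subgroup.centralizer (E : Set G)}
      one_mem' := ⟨R.one_mem, fun v _ => by simp⟩
      mul_mem' := by
        rintro a b ⟨ha, ha'⟩ ⟨hb, hb'⟩
        refine ⟨R.mul_mem ha hb, fun v hv => ?_⟩
        have : ⁅a * b, v⁆ = (a * ⁅b, v⁆ * a⁻¹) * ⁅a, v⁆ := by simp [commutatorElement_def, mul_assoc]
        rw [this]
        exact Subgroup.mul_mem _ (hCn.conj_mem _ (hb' v hv) a) (ha' v hv)
      inv_mem' := by
        rintro a ⟨ha, ha'⟩
        refine ⟨R.inv_mem ha, fun v hv => ?_⟩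
        have : ⁅a⁻¹, v⁆ = a⁻¹ * ⁅a, v⁆⁻¹ * a⁻¹⁻¹ := by simp [commutatorElement_def, mul_assoc]
        rw [this]
        exact hCn.conj_mem _ (Subgroup.inv_mem _ (ha' v hv)) _ }
  suffices hX : R ≤ X by
    rw [Subgroup.commutator_le]
    exact fun x hx v hv => (hX hx).2 v hv
  rw [← Cfsg.Agent.Lib.Coprime.fixGen_eq hnc hRU hcop]
  refine iSup₂_le fun u hu => ?_
  obtain ⟨huU, hu1⟩ := hu
  intro x hx
  obtain ⟨hxR, hxu⟩ := hx
  have hxu' : Commute x u := Subgroup.mem_centralizer_singleton_iff.1 hxu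
  refine ⟨hxR, fun v hv => ?_⟩
  have huv : Commute u v := comm_of_isMulCommutative hU.1 huU hv
  set c := ⁅x, v⁆ with hcd
  have hcu : Commute c u := by
    rw [hcd, commutatorElement_def]
    exact (((hxu'.mul_left huv.symm).mul_left hxu'.inv_left).mul_left huv.symm.inv_left)
  have hcR : c ∈ R := by
    have := conj_mem_of_nz (hRU hv) (R.inv_mem hxR)
    rw [hcd, show ⁅x, v⁆ = x * (v * x⁻¹ * v⁻¹) by simp [commutatorElement_def, mul_assoc]]
    exact R.mul_mem hxR this
  have hco : (orderOf c).Coprime p := by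
    refine coprime_of_not_dvd fun h => hR (h.trans ?_)
    have := orderOf_dvd_natCard (⟨c, hcR⟩ : R)
    rwa [Subgroup.orderOf_mk] at this
  rcases hcond with hcond | hcond
  · -- centralizers
    refine Subgroup.mem_centralizer_iff.2 fun e he => ?_
    refine ((thompson_AxB hE (hUp.to_le (Subgroup.zpowers_le.2 huU))
      Subgroup.le_normalizer_of_normal (fun e he => hEn c e he) hco
      (fun a ha => by obtain ⟨i, rfl⟩ := Subgroup.mem_zpowers_iff.1 ha; exact hcu.zpow_right i)
      (fun f hf => ?_)) e he).symm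
    have hfu : f ∈ E ⊓ Subgroup.centralizer ({u} : Set G) :=
      ⟨hf.1, Subgroup.mem_centralizer_singleton_iff.2
        (Subgroup.mem_centralizer_iff.1 hf.2 u (Subgroup.mem_zpowers u)).symm⟩
    have hfx : x⁻¹ * f * x ∈ E ⊓ Subgroup.centralizer ({u} : Set G) :=
      ⟨by simpa using hEn x⁻¹ f hf.1, Subgroup.mul_mem _ (Subgroup.mul_mem _ (Subgroup.inv_mem _ hxu) hfu.2) hxu⟩
    rw [← hcond u huU hu1] at hfu hfx
    have h1 : v * f = f * v := Subgroup.mem_centralizer_iff.1 hfu.2 v hv
    have h2 : v * (x⁻¹ * f * x) = x⁻¹ * f * x * v := Subgroup.mem_centralizer_iff.1 hfx.2 v hv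
    show c * f = f * c
    rw [← mul_inv_eq_iff_eq_mul]
    calc c * f * c⁻¹ = x * (v * (x⁻¹ * (v⁻¹ * (f * v)) * x) * v⁻¹) * x⁻¹ := by
          rw [hcd, commutatorElement_def]; group
      _ = x * (v * (x⁻¹ * f * x) * v⁻¹) * x⁻¹ := by rw [← h1]; group
      _ = f := by rw [h2]; group
  · -- commutators
    set W := ⁅E, U⁆
    have hWu : W = ⁅E, Subgroup.zpowers u⁆ := hcond u huU hu1
    have hxW : x ∈ Subgroup.normalizer (W : Set G) := by
      rw [hWu]
      refine le_nz_commutator (N := Subgroup.centralizer ({u} : Set G)) Subgroup.le_normalizer_of_normal ?_ hxu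
      rw [Subgroup.zpowers_eq_closure]
      refine le_nz_closure fun g hg y hy => ?_
      rw [Set.mem_singleton_iff.1 hy]
      refine Subgroup.subset_closure (Set.mem_singleton_iff.2 ?_)
      rw [Subgroup.mem_centralizer_singleton_iff.1 hg]; group
    have hUW : U ≤ Subgroup.normalizer (W : Set G) :=
      le_nz_commutator Subgroup.le_normalizer_of_normal Subgroup.le_normalizer
    have hEW : E ≤ Subgroup.normalizer (W : Set G) := Cfsg.Agent.Lib.Coprime.left_le_normalizer_commutator E U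
    let S : Subgroup G :=
      { carrier := {g | g ∈ Subgroup.normalizer (W : Set G) ∧ ∀ e ∈ E, ⁅e, g⁆ ∈ W}
        one_mem' := ⟨Subgroup.one_mem _, fun e _ => by simp⟩
        mul_mem' := by
          rintro a b ⟨ha, ha'⟩ ⟨hb, hb'⟩
          refine ⟨Subgroup.mul_mem _ ha hb, fun e he => ?_⟩
          have : ⁅e, a * b⁆ = ⁅e, a⁆ * (a * ⁅e, b⁆ * a⁻¹) := by simp [commutatorElement_def, mul_assoc]
          rw [this]
          exact W.mul_mem (ha' e he) (conj_mem_of_nz ha (hb' e he))
        inv_mem' := by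
          rintro a ⟨ha, ha'⟩
          refine ⟨Subgroup.inv_mem _ ha, fun e he => ?_⟩
          have : ⁅e, a⁻¹⁆ = a⁻¹ * ⁅e, a⁆⁻¹ * a⁻¹⁻¹ := by simp [commutatorElement_def, mul_assoc]
          rw [this]
          exact conj_mem_of_nz (Subgroup.inv_mem _ ha) (W.inv_mem (ha' e he)) }
    have hvn := hUW hv
    have hcS : c ∈ S := by
      refine ⟨?_, fun e he => ?_⟩
      · rw [hcd, commutatorElement_def]
        exact Subgroup.mul_mem _ (Subgroup.mul_mem _ (Subgroup.mul_mem _ hxW hvn)
          (Subgroup.inv_mem _ hxW)) (Subgroup.inv_mem _ hvn)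
      · have hw1 : (v⁻¹ * e * v) * e⁻¹ ∈ W := by
          have := W.inv_mem (Subgroup.commutator_mem_commutator he (U.inv_mem hv))
          simpa [commutatorElement_def, mul_assoc] using this
        have hw2 : (v * (x⁻¹ * e * x) * v⁻¹) * (x⁻¹ * e * x)⁻¹ ∈ W := by
          have := W.inv_mem (Subgroup.commutator_mem_commutator (show x⁻¹ * e * x ∈ E by simpa using hEn x⁻¹ e he) hv)
          simpa [commutatorElement_def, mul_assoc] using this
        have hw3 := conj_mem_of_nz (Subgroup.inv_mem _ hxW) hw1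
        have hw4 := conj_mem_of_nz hxW (W.mul_mem (conj_mem_of_nz hvn hw3) hw2)
        have := W.inv_mem hw4
        convert this using 1
        rw [hcd]; simp only [commutatorElement_def]; group
    have hB : Subgroup.zpowers c ≤ S := Subgroup.zpowers_le.2 hcS
    have h := Cfsg.Agent.S2908.result E (Subgroup.zpowers u) (Subgroup.zpowers c) hE
      (hUp.to_le (Subgroup.zpowers_le.2 huU)) (fun h => ?_) Subgroup.le_normalizer_of_normal
      Subgroup.le_normalizer_of_normal ?_ ?_
    · refine Subgroup.mem_centralizer_iff.2 fun e he => ?_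
      exact Subgroup.mem_centralizer_iff.1 ((Subgroup.commutator_eq_bot_iff_le_centralizer.1
        (by rw [Subgroup.commutator_comm]; exact h)) (Subgroup.mem_zpowers c)) e he
    · rw [Nat.card_zpowers] at h
      exact (Nat.Prime.coprime_iff_not_dvd (Fact.out : p.Prime)).1 hco.symm h
    · rw [Subgroup.commutator_eq_bot_iff_le_centralizer, Subgroup.zpowers_le]
      refine Subgroup.mem_centralizer_iff.2 fun y hy => ?_
      obtain ⟨i, rfl⟩ := Subgroup.mem_zpowers_iff.1 hy
      exact (hcu.zpow_left i).eq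
    · rw [← hWu, Subgroup.commutator_le]
      exact fun e he g hg => (hB hg).2 e he

end Cfsg.Agent.S2909
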