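import Mathlib
import Cfsg.Statements.S2910
import Cfsg.Agent.Lib.LocalChar.OmegaFix
import Cfsg.Agent.S0071

set_option autoImplicit false

open scoped commutatorElement Pointwise

open Cfsg.Agent.Lib.LocalChar

namespace Cfsg.Agent.S2910

/-- Let p be an odd prime dividing the order of the finite group G and P a Sylow p-subgroup of G. If Ω₁(P) (generated by the elements of order dividing p) is contained in the centre of G, then G has a normal p-complement. In particular, if G is quasisimple then Ω₁(P) is not central in G. -/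
theorem result {G : Type*} [Group G] [Finite G] {p : ℕ} [Fact p.Prime] (hp : p ≠ 2) (hdiv : p ∣ Nat.card G) (P : Sylow p G) (hZ : Cfsg.omegaOne p (P : Subgroup G) ≤ Subgroup.center G) : Cfsg.HasNormalPComplement p G ∧ ¬ Cfsg.IsQuasisimple G := by
  have hnc : Cfsg.HasNormalPComplement p G := by
    obtain ⟨N, hN, hc⟩ := (Cfsg.Agent.S0071.result P).2 fun Q hQ g hg hgp =>
      Subgroup.mem_centralizer_iff.2 fun q hq => (commute_of_fixed_orderP hp hgp Q (P.isPGroup'.to_le hQ) hg
        (fun u hu hup => Subgroup.mem_center_iff.1 (hZ (Subgroup.subset_closure ⟨hQ hu, hup⟩)) g) q hq).symm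
    exact ⟨P, N, hN, hc⟩
  refine ⟨hnc, fun hq => ?_⟩
  obtain ⟨P', N, hN, hc⟩ := hnc
  have hperf : commutator G = ⊤ := Group.isPerfect_def.1 hq.1
  have hnp : IsPGroup p (G ⧸ N) :=
    IsPGroup.of_equiv P'.isPGroup' hc.symm.QuotientMulEquiv.symm
  haveI : Group.IsNilpotent (G ⧸ N) := hnp.isNilpotent
  have htop : commutator (G ⧸ N) = ⊤ := by
    rw [commutator_def, ← Subgroup.map_top_of_surjective _ (QuotientGroup.mk'_surjective N),
      ← Subgroup.map_commutator, ← commutator_def, hperf]
  have hNtop : N = ⊤ := by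
    by_contra hne
    have : Nontrivial (G ⧸ N) := QuotientGroup.nontrivial_iff.2 hne
    exact absurd htop (Group.IsSolvable.commutator_lt_top_of_nontrivial (G ⧸ N)).ne
  have hcard : Nat.card (P' : Subgroup G) = 1 := by
    have := hc.card_mul_card
    rw [hNtop, Subgroup.card_top] at this
    exact (Nat.mul_eq_left Nat.card_pos.ne').1 this
  have h1 := P'.not_dvd_index
  rw [Subgroup.eq_bot_of_card_eq _ hcard, Subgroup.index_bot] at h1
  exact h1 hdiv

end Cfsg.Agent.S2910
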