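import Mathlib
import Cfsg.Statements.S2911
import Cfsg.Agent.Lib.LocalChar.CentralTransfer
import Cfsg.Agent.Lib.Involution.IndexTwo

set_option autoImplicit false

open scoped commutatorElement Pointwise

open Cfsg.Agent.Lib.LocalChar

namespace Cfsg.Agent.S2911

theorem model_facts :
    (∀ x : Multiplicative (ZMod 2) × DihedralGroup 4,
      x * x = 1 ∨ x * x = (1, DihedralGroup.r 2)) ∧
    (∀ x : Multiplicative (ZMod 2) × DihedralGroup 4, (∀ y, x * y = y * x) →
      x = 1 ∨ x = (Multiplicative.ofAdd 1, 1) ∨ x = (1, DihedralGroup.r 2) ∨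
        x = (Multiplicative.ofAdd 1, DihedralGroup.r 2)) ∧
    ((1 : Multiplicative (ZMod 2)), DihedralGroup.r (1 : ZMod 4)) * (1, DihedralGroup.r 1) =
      (1, DihedralGroup.r 2) := by
  refine ⟨by decide +kernel, by decide +kernel, by decide +kernel⟩


/-- A finite group whose Sylow 2-subgroups are isomorphic to the direct product of a group of order 2 and a dihedral group of order 8 has a subgroup of index two. -/
theorem result {G : Type*} [Group G] [Finite G] (S : Sylow 2 G) (hS : Nonempty (↥(S : Subgroup G) ≃* Multiplicative (ZMod 2) × DihedralGroup 4)) : ∃ H : Subgroup G, H.index = 2 := by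
  obtain ⟨e⟩ := hS
  obtain ⟨hsq, hcen, hr⟩ := model_facts
  set z0 : Multiplicative (ZMod 2) × DihedralGroup 4 := (Multiplicative.ofAdd 1, 1) with hz0
  set u0 : Multiplicative (ZMod 2) × DihedralGroup 4 := (1, DihedralGroup.r 2) with hu0
  set w0 : Multiplicative (ZMod 2) × DihedralGroup 4 := (Multiplicative.ofAdd 1, DihedralGroup.r 2) with hw0
  have hzc : ∀ y, z0 * y = y * z0 := by decide +kernel
  have hz2 : z0 * z0 = 1 := by decide +kernel
  have hw : z0 * u0 = w0 := by decide +kernel
  have hwu : w0 * u0 = z0 := by decide +kernel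
  have hzne : z0 ≠ 1 ∧ z0 ≠ u0 ∧ u0 ≠ 1 ∧ z0 ≠ w0 := by decide +kernel
  set φ : (S : Subgroup G) →* Multiplicative (ZMod 2) :=
    (MonoidHom.fst _ _).comp e.toMonoidHom
  set z : (S : Subgroup G) := e.symm z0
  have hzS : ∀ s ∈ (S : Subgroup G), (z : G) * s = s * z := fun s hs => by
    have : z * ⟨s, hs⟩ = ⟨s, hs⟩ * z := e.injective (by simp [z, hzc])
    exact congrArg Subtype.val this
  have hstep : ∀ n ∈ Subgroup.normalizer ((S : Subgroup G) : Set G),
      n * (z : G) * n⁻¹ = z ∨ (n * (z : G) * n⁻¹ = (e.symm w0 : G) ∧ n * (e.symm w0 : G) * n⁻¹ = z) := by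
    intro n hn
    let c : (S : Subgroup G) ≃* (S : Subgroup G) :=
      { toFun := fun s => ⟨n * s * n⁻¹, conj_mem_of_nz hn s.2⟩
        invFun := fun s => ⟨n⁻¹ * s * n, by
          have := conj_mem_of_nz (Subgroup.inv_mem _ hn) s.2
          rwa [inv_inv] at this⟩
        left_inv := fun s => Subtype.ext (by simp [mul_assoc])
        right_inv := fun s => Subtype.ext (by simp [mul_assoc])
        map_mul' := fun a b => Subtype.ext (by simp [mul_assoc]) }
    set ψ := (e.symm.trans c).trans e with hψ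
    have hu : ψ u0 = u0 := by
      rcases hsq (ψ (1, DihedralGroup.r 1)) with h | h <;> rw [← map_mul, hr] at h
      · exact absurd (ψ.map_eq_one_iff.1 h) hzne.2.2.1
      · exact h
    have hz : ψ z0 = z0 ∨ ψ z0 = w0 := by
      rcases hcen (ψ z0) (fun y => by
          obtain ⟨y, rfl⟩ := ψ.surjective y
          rw [← map_mul, hzc, map_mul]) with h | h | h | h
      · exact absurd (ψ.map_eq_one_iff.1 h) hzne.1
      · exact Or.inl h
      · exact absurd (ψ.injective (h.trans hu.symm)) hzne.2.1
      · exact Or.inr h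
    have key : ∀ a b, ψ a = b → n * (e.symm a : G) * n⁻¹ = (e.symm b : G) := by
      intro a b h
      rw [← h]
      simp [hψ, c]
    rcases hz with h | h
    · exact Or.inl (key _ _ h)
    · refine Or.inr ⟨key _ _ h, key _ _ ?_⟩
      rw [← hw, map_mul, h, hu, hwu]
  have hN : ∀ n ∈ Subgroup.normalizer ((S : Subgroup G) : Set G), n * (z : G) * n⁻¹ = z := by
    intro n hn
    rcases hstep n hn with h | ⟨h1, h2⟩
    · exact h
    exfalso
    have heven : ∀ i : ℕ, n ^ (2 * i) * (z : G) * (n ^ (2 * i))⁻¹ = z := by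
      intro i
      induction i with
      | zero => simp
      | succ i ih =>
        rw [show 2 * (i + 1) = 2 + 2 * i by ring, pow_add]
        calc n ^ 2 * n ^ (2 * i) * (z : G) * (n ^ 2 * n ^ (2 * i))⁻¹
            = n * (n * (n ^ (2 * i) * (z : G) * (n ^ (2 * i))⁻¹) * n⁻¹) * n⁻¹ := by
              rw [sq]; group
          _ = z := by rw [ih, h1, h2]
    obtain ⟨k, m, hm, hkm⟩ := Nat.exists_eq_pow_mul_and_not_dvd (orderOf_pos n).ne' 2 (by norm_num)
    obtain ⟨i, hi⟩ : ∃ i, m = 2 * i + 1 := ⟨m / 2, by omega⟩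
    have hmS : n ^ m ∈ (S : Subgroup G) := by
      have hp : IsPGroup 2 (Subgroup.zpowers (n ^ m)) := IsPGroup.of_card (n := k) (by
        rw [Nat.card_zpowers, orderOf_pow' _ (by omega), hkm, Nat.gcd_eq_right (Dvd.intro_left _ rfl),
          Nat.mul_div_cancel _ (by omega)])
      exact (S.is_maximal' (hp.to_sup_of_normal_right' S.isPGroup'
        (Subgroup.zpowers_le.2 (Subgroup.pow_mem _ hn m))) le_sup_right).le
          (Subgroup.mem_sup_left (Subgroup.mem_zpowers _))
    have h3 : n ^ m * (z : G) * (n ^ m)⁻¹ = z := by rw [← hzS _ hmS]; group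
    rw [hi, pow_succ'] at h3
    have : n * (z : G) * n⁻¹ = z := by
      calc n * (z : G) * n⁻¹ = n * (n ^ (2 * i) * (z : G) * (n ^ (2 * i))⁻¹) * n⁻¹ := by rw [heven i]
        _ = n * n ^ (2 * i) * (z : G) * (n * n ^ (2 * i))⁻¹ := by group
        _ = z := h3
    rw [h1] at this
    exact hzne.2.2.2 (e.symm.injective (Subtype.ext this.symm))
  have hne := transfer_central_involution_ne_one (A := Multiplicative (ZMod 2)) (by simp) S φ z.2
    (by
      have : z * z = 1 := e.injective (by simp [z, hz2])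
      exact congrArg Subtype.val this) hzS hN (by simp [φ, z, hz0])
  exact Cfsg.Agent.Lib.Involution.exists_index_two_of_hom
    (IsPGroup.of_card (n := 1) (by simp)) _ hne

end Cfsg.Agent.S2911
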