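import Cfsg.Statements.S2922
import Mathlib
import Cfsg.Agent.Lib.LocalChar.PReduced
import Cfsg.Agent.Lib.Components.Local
-- import your own Cfsg.Agent.* helpers here

set_option autoImplicit false
open Cfsg Cfsg.Agent Cfsg.Agent.Lib.LocalChar

namespace Cfsg.Agent.S2922

/-- Let p be a prime, X a finite group, B a p-subgroup of X and C a normal subgroup of B. If N_X(C) has characteristic p (its generalized Fitting subgroup is O_p(N_X(C))), then N_X(B) and C_X(B) have characteristic p. -/
theorem result {X : Type*} [Group X] [Finite X] {p : ℕ} [Fact p.Prime] (B C : Subgroup X) (hB : IsPGroup p ↥B) (hCB : C ≤ B) (hCn : (C.subgroupOf B).Normal) (hC : Cfsg.generalizedFittingSubgroup ↥(Subgroup.normalizer (C : Set X)) = Cfsg.pCore p ↥(Subgroup.normalizer (C : Set X))) : Cfsg.generalizedFittingSubgroup ↥(Subgroup.normalizer (B : Set X)) = Cfsg.pCore p ↥(Subgroup.normalizer (B : Set X)) ∧ Cfsg.generalizedFittingSubgroup ↥(Subgroup.centralizer (B : Set X)) = Cfsg.pCore p ↥(Subgroup.centralizer (B : Set X)) := by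
  set N := Subgroup.normalizer (C : Set X)
  have hN : IsCharPOf p N := charP_iff.1 (Lib.Components.gfs_eq_pCore_iff.1 hC)
  have hBN : B ≤ N := le_nz_pointwise hCB hCn
  have hZN : Subgroup.centralizer (B : Set X) ≤ N :=
    (Subgroup.centralizer_le hCB).trans (Subgroup.centralizer_le_normalizer _)
  have hcent : IsCharPOf p (Subgroup.centralizer (B : Set X)) :=
    (hN.inf_normalizer hB hBN).of_normal (le_inf hZN (Subgroup.centralizer_le_normalizer _))
      (inf_le_right.trans (le_nz_centralizer le_rfl))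
  refine ⟨Lib.Components.gfs_eq_pCore_iff.2 (charP_iff.2 ?_),
    Lib.Components.gfs_eq_pCore_iff.2 (charP_iff.2 hcent)⟩
  refine isCharPOf_of_forall fun x hx ho hc => ?_
  have hBc : B ≤ pCoreOf p (Subgroup.normalizer (B : Set X)) :=
    le_pCoreOf Subgroup.le_normalizer le_rfl hB
  refine hcent.eq_one (Subgroup.mem_centralizer_iff.2 fun b hb => (hc b (hBc hb)).eq.symm) ho
    fun a ha => hc a ?_
  exact le_pCoreOf ((pCoreOf_le _).trans (Subgroup.centralizer_le_normalizer _))
    ((le_nz_centralizer le_rfl).trans (nz_le_nz_pCoreOf _)) (isPGroup_pCoreOf _) ha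

end Cfsg.Agent.S2922
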