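import Cfsg.Statements.S2924
import Cfsg.Agent.Lib.Components.Local
import Cfsg.Agent.Lib.Components.Signalizer
import Cfsg.Agent.Lib.Components.Extended
import Cfsg.Agent.Lib.Components.Orbit

set_option autoImplicit false
set_option linter.style.haveILetI false
open Cfsg Subgroup Cfsg.Agent.Lib.Components
open scoped commutatorElement

namespace Cfsg.Agent.S2924

variable {G : Type*} [Group G] [Finite G]

lemma pLayer_bot_of_charp {p : ℕ} [Fact p.Prime]
    (h : centralizer (pCore p G : Set G) ≤ pCore p G) : pLayer p G = ⊥ := by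
  rw [pLayer_eq_bot_iff, layer_eq_bot_iff]
  intro L hL
  have hO := charp_pPrimeCore h
  let f := QuotientGroup.mk' (pPrimeCore p G)
  have hf : Function.Bijective f := ⟨by
    rw [← MonoidHom.ker_eq_bot_iff, QuotientGroup.ker_mk', hO],
    QuotientGroup.mk'_surjective _⟩
  exact layer_eq_bot_iff.1 (charp_layer h) _
    (isComponent_map_equiv hL (MulEquiv.ofBijective f hf).symm)

/-- If an involution `z` inverts `O_{p'}(G)` and `C(z)` has no components, then a group without
components has trivial `p`-layer. -/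
lemma pLayer_bot_of_inverted {p : ℕ} [Fact p.Prime] (hE : layer G = ⊥) {z : G}
    (hz : IsPGroup p ↥(zpowers z))
    (hinv : ∀ x ∈ pPrimeCore p G, z * x * z⁻¹ = x⁻¹)
    (hfix : pPrimeCore p G ⊓ centralizer (zpowers z : Set G) = ⊥)
    (hCz : layer ↥(centralizer (zpowers z : Set G)) = ⊥) : pLayer p G = ⊥ := by
  rw [pLayer_eq_bot_iff, layer_eq_bot_iff]
  intro L hL
  let q := QuotientGroup.mk' (pPrimeCore p G)
  let O := pPrimeCore p G
  have hab : O ≤ centralizer (O : Set G) := fun a ha => mem_centralizer_iff.2 fun b hb => by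
    have h1 := hinv _ (mul_mem hb ha)
    have h2 : (z * b * z⁻¹) * (z * a * z⁻¹) = z * (b * a) * z⁻¹ := by group
    rw [hinv b hb, hinv a ha, h1, ← mul_inv_rev, inv_inj] at h2
    exact h2.symm
  have hzbar : L ≤ centralizer ((zpowers z).map q : Set (G ⧸ O)) → False := by
    intro hLc
    rw [← map_centralizer_pGroup hz (pPrimeCore_coprime p)] at hLc
    let C := centralizer (zpowers z : Set G)
    let g : ↥C →* G ⧸ O := q.comp C.subtype
    have hrange : g.range = C.map q := by
      rw [MonoidHom.range_eq_map, ← Subgroup.map_map, ← MonoidHom.range_eq_map, range_subtype]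
    have hg : Function.Injective g := by
      rw [← MonoidHom.ker_eq_bot_iff, eq_bot_iff]
      intro x hx
      have : (x : G) ∈ O ⊓ C := ⟨(QuotientGroup.eq_one_iff _).1 hx, x.2⟩
      rw [hfix, Subgroup.mem_bot] at this
      exact (Subgroup.mem_bot).2 (Subtype.ext this)
    let e := (MonoidHom.ofInjective hg).symm
    exact layer_eq_bot_iff.1 hCz _
      (isComponent_map_equiv (isComponent_subgroupOf hL (hrange ▸ hLc)) e)
  have hK := isPComponent_pcompOf hL
  let C := centralizer (O : Set G)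
  haveI hCn : C.Normal := by
    rw [← normalizer_eq_top_iff]
    exact top_le_iff.1 ((normalizer_eq_top (H := O)).ge.trans
      (normalizer_le_normalizer_centralizer' O))
  have hcomm : ⁅(⊤ : Subgroup G), zpowers z⁆ ≤ C := by
    rw [commutator_le]
    intro g _ w hw
    obtain ⟨k, rfl⟩ := mem_zpowers_iff.1 hw
    have hgz : ∀ g : G, ⁅g, z⁆ ∈ C := fun g => mem_centralizer_iff.2 fun x hx => by
      have hxn : g⁻¹ * x * g ∈ O := by
        simpa using (inferInstance : (pPrimeCore p G).Normal).conj_mem x hx g⁻¹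
      have h1 := hinv _ hxn
      have h2 := hinv _ hx
      rw [commutatorElement_def]
      have hzi : ∀ y ∈ O, z⁻¹ * y * z = y⁻¹ := fun y hy => by
        have := hinv y⁻¹ (inv_mem hy)
        rw [inv_inv] at this
        calc z⁻¹ * y * z = z⁻¹ * (z * y⁻¹ * z⁻¹) * z := by rw [this]
          _ = y⁻¹ := by group
      calc x * (g * z * g⁻¹ * z⁻¹) = g * ((g⁻¹ * x * g) * z) * g⁻¹ * z⁻¹ := by group
        _ = g * (z * (z⁻¹ * (g⁻¹ * x * g) * z)) * g⁻¹ * z⁻¹ := by group
        _ = g * z * g⁻¹ * x⁻¹ * z⁻¹ := by rw [hzi _ hxn]; group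
        _ = g * z * g⁻¹ * z⁻¹ * (z * x⁻¹ * z⁻¹) := by group
        _ = g * z * g⁻¹ * z⁻¹ * x := by rw [hinv _ (inv_mem hx), inv_inv]
    induction k using Int.induction_on with
    | zero => simp
    | succ n ih =>
      rw [zpow_add_one]
      have e : ⁅g, z ^ (n : ℤ) * z⁆ =
          ⁅g, z ^ (n : ℤ)⁆ * (z ^ (n : ℤ) * ⁅g, z⁆ * (z ^ (n : ℤ))⁻¹) := by
        simp only [commutatorElement_def]; group
      rw [e]
      exact mul_mem (ih (mem_zpowers_iff.2 ⟨_, rfl⟩)) (hCn.conj_mem _ (hgz g) _)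
    | pred n ih =>
      rw [zpow_sub_one]
      have e : ⁅g, z ^ (-(n : ℤ)) * z⁻¹⁆ = ⁅g, z ^ (-(n : ℤ))⁆ *
          (z ^ (-(n : ℤ)) * z⁻¹ * ⁅g, z⁆⁻¹ * (z ^ (-(n : ℤ)) * z⁻¹)⁻¹) := by
        simp only [commutatorElement_def]; group
      rw [e]
      exact mul_mem (ih (mem_zpowers_iff.2 ⟨_, rfl⟩)) (hCn.conj_mem _ (inv_mem (hgz g)) _)
  haveI : (C.map q).Normal := hCn.map q (QuotientGroup.mk'_surjective _)
  rcases comp_normal_dichotomy (M := C.map q) hL with h | h
  · have hle : pcompOf p L ≤ C := pcompOf_le_of_subnormal hCn.isSubnormal h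
    exact layer_eq_bot_iff.1 hE _ ⟨hK.1, (pcomp_quasisimple_iff hK).2
      (commutator_eq_bot_iff_le_centralizer.2 hle)⟩
  · refine hzbar (commutator_eq_bot_iff_le_centralizer.1 (commutator_eq_bot_of_perfect
      (comp_perfect hL) ?_))
    rw [commutator_comm ⁅_, L⁆]
    refine commutator_eq_bot_mono h le_rfl ?_
    rw [commutator_comm]
    refine le_trans (commutator_mono (K₁ := ((⊤ : Subgroup G).map q)) ?_ le_rfl) ?_
    · rw [map_top_of_surjective _ (QuotientGroup.mk'_surjective _)]; exact le_top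
    · rw [← map_commutator]; exact map_mono hcomm

lemma sup_odd {ι : Type*} [Finite ι] (D : ι → Subgroup G) (hodd : ∀ i, Odd (Nat.card ↥(D i)))
    (hcomm : ∀ i j, D i ≤ centralizer (D j : Set G)) : Odd (Nat.card ↥(⨆ i, D i)) := by
  haveI : Fintype ι := Fintype.ofFinite ι
  let W := ⨆ i, D i
  let m := ∏ i, Nat.card ↥(D i)
  have hm : Odd m :=
    Finset.prod_induction _ Odd (fun a b => Odd.mul) odd_one fun i _ => hodd i
  have hWc : W ≤ centralizer (W : Set G) := iSup_le fun i =>
    le_centralizer_iff.1 (iSup_le fun j => le_centralizer_iff.1 (hcomm i j))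
  have hall : ∀ x ∈ W, x ^ m = 1 := by
    intro x hx
    suffices h : x ∈ W ∧ x ^ m = 1 from h.2
    refine Subgroup.iSup_induction D (C := fun x => x ∈ W ∧ x ^ m = 1) hx
      (fun i a ha => ⟨le_iSup D i ha, ?_⟩) ⟨one_mem _, one_pow _⟩ ?_
    · exact orderOf_dvd_iff_pow_eq_one.1 ((Subgroup.orderOf_dvd_natCard _ ha).trans
        (Finset.dvd_prod_of_mem _ (Finset.mem_univ i)))
    · rintro a b ⟨ha, ha'⟩ ⟨hb, hb'⟩
      have hc : Commute a b := (mem_centralizer_iff.1 (hWc hb) a ha)
      exact ⟨mul_mem ha hb, by rw [hc.mul_pow, ha', hb', mul_one]⟩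
  by_contra h
  rw [Nat.not_odd_iff_even, even_iff_two_dvd] at h
  obtain ⟨t, ht⟩ := exists_prime_orderOf_dvd_card' (G := ↥W) 2 h
  have h2 : orderOf (t : G) ∣ m := orderOf_dvd_of_pow_eq_one (hall _ t.2)
  rw [orderOf_coe, ht] at h2
  exact hm.not_two_dvd_nat h2

lemma map_conj_cppc (p : ℕ) [Fact p.Prime] (g a : G) :
    (centralizerPPrimeCore p a).map (MulAut.conj g).toMonoidHom ≤
      centralizerPPrimeCore p (g * a * g⁻¹) := by
  refine le_cppc ?_ ?_ ?_
  · rw [card_map_of_injective (MulAut.conj g).injective]; exact cppc_coprime a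
  · rintro _ ⟨x, hx, rfl⟩
    have h := mem_centralizer_singleton_iff.1 (cppc_le_centralizer a hx)
    refine mem_centralizer_singleton_iff.2 ?_
    change g * x * g⁻¹ * (g * a * g⁻¹) = g * a * g⁻¹ * (g * x * g⁻¹)
    calc g * x * g⁻¹ * (g * a * g⁻¹) = g * (x * a) * g⁻¹ := by group
      _ = g * (a * x) * g⁻¹ := by rw [h]
      _ = _ := by group
  · intro c hc
    have hc' : g⁻¹ * c * g ∈ centralizer {a} := by
      have h := mem_centralizer_singleton_iff.1 hc
      refine mem_centralizer_singleton_iff.2 ?_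
      calc g⁻¹ * c * g * a = g⁻¹ * (c * (g * a * g⁻¹)) * g := by group
        _ = g⁻¹ * ((g * a * g⁻¹) * c) * g := by rw [h]
        _ = _ := by group
    have := mem_normalizer_map_conj g (centralizer_le_normalizer_cppc (p := p) a hc')
    simpa [mul_assoc] using this

theorem result {X : Type*} [Group X] [Finite X] (Y : Subgroup X) (hY : Cfsg.IsElementaryAbelian 2 Y) (h8 : 8 ≤ Nat.card ↥Y) (hE : ∀ x ∈ Y, x ≠ 1 → Cfsg.layer ↥(Subgroup.centralizer ({x} : Set X)) = ⊥) (hz : ∃ z ∈ Y, z ≠ 1 ∧ Cfsg.generalizedFittingSubgroup ↥(Subgroup.centralizer ({z} : Set X)) = Cfsg.pCore 2 ↥(Subgroup.centralizer ({z} : Set X))) : Odd (Nat.card ↥(⨆ y : {y : X // y ∈ Y ∧ y ≠ 1}, (Cfsg.oddCore ↥(Subgroup.centralizer ({(y : X)} : Set X))).map (Subgroup.centralizer ({(y : X)} : Set X)).subtype)) ∧ Subgroup.normalizer (Y : Set X) ≤ Subgroup.normalizer ((⨆ y : {y : X // y ∈ Y ∧ y ≠ 1}, (Cfsg.oddCore ↥(Subgroup.centralizer ({(y : X)} : Set X))).map (Subgroup.centralizer ({(y : X)} : Set X)).subtype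 : Subgroup X) : Set X) := by
  haveI : Fact (Nat.Prime 2) := ⟨Nat.prime_two⟩
  obtain ⟨z, hzY, hz1, hzF⟩ := hz
  have hpY : ∀ a ∈ Y, IsPGroup 2 ↥(zpowers a) := fun a ha =>
    (Sig.elem_pGroup hY).to_le (zpowers_le.2 ha)
  have hcp := gfs_eq_pCore_iff.1 hzF
  have hz0 : centralizerPPrimeCore 2 z = ⊥ := by
    rw [centralizerPPrimeCore, charp_pPrimeCore hcp, Subgroup.map_bot]
  have hzz : z⁻¹ = z := inv_eq_of_mul_eq_one_right (by rw [← pow_two]; exact hY.2 z hzY)
  -- z inverts every core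
  have hfix : ∀ a ∈ Y, centralizerPPrimeCore 2 a ⊓ centralizer {z} = ⊥ := fun a ha =>
    le_bot_iff.1 (hz0 ▸ cppc_balance a z (Sig.comm_of hY ha hzY) (hpY a ha)
      (pLayer_bot_of_charp hcp))
  have hinv : ∀ a ∈ Y, ∀ x ∈ centralizerPPrimeCore 2 a, z * x * z⁻¹ = x⁻¹ := by
    intro a ha
    let D := centralizerPPrimeCore 2 a
    have hzD : z ∈ normalizer (D : Set X) :=
      centralizer_le_normalizer_cppc a (mem_centralizer_singleton_iff.2 (Sig.comm_of hY hzY ha))
    let φ : ↥D →* ↥D := (D.normalizerMonoidHom ⟨z, hzD⟩).toMonoidHom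
    have hφ : ∀ x : ↥D, (φ x : X) = z * x * z⁻¹ := fun x => rfl
    have hff : MonoidHom.FixedPointFree φ := fun x hx => by
      have h1 : (x : X) ∈ D ⊓ centralizer {z} := ⟨x.2, mem_centralizer_singleton_iff.2
        (mul_inv_eq_iff_eq_mul.1 ((hφ x).symm.trans (congrArg Subtype.val hx))).symm⟩
      rw [hfix a ha, Subgroup.mem_bot] at h1
      exact Subtype.ext h1
    have hi : Function.Involutive φ := fun x => Subtype.ext (by
      rw [hφ, hφ]
      have : z * z = 1 := by rw [← pow_two]; exact hY.2 z hzY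
      calc z * (z * (x : X) * z⁻¹) * z⁻¹ = (z * z) * x * (z * z)⁻¹ := by group
        _ = x := by rw [this]; group)
    intro x hx
    have := congrFun (hff.coe_eq_inv_of_involutive hi) ⟨x, hx⟩
    exact (hφ ⟨x, hx⟩).symm.trans (congrArg Subtype.val this)
  have hDab : ∀ a ∈ Y, centralizerPPrimeCore 2 a ≤ centralizer (centralizerPPrimeCore 2 a : Set X) :=
    fun a ha u hu => mem_centralizer_iff.2 fun v hv => by
      have h1 := hinv a ha _ (mul_mem hv hu)
      have h2 : (z * v * z⁻¹) * (z * u * z⁻¹) = z * (v * u) * z⁻¹ := by group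
      rw [hinv a ha v hv, hinv a ha u hu, h1, ← mul_inv_rev, inv_inj] at h2
      exact h2.symm
  -- no 2-components
  have hL : ∀ b ∈ Y, b ≠ 1 → pLayer 2 ↥(centralizer ({b} : Set X)) = ⊥ := by
    intro b hb hb1
    let H := centralizer ({b} : Set X)
    have hzH : z ∈ H := mem_centralizer_singleton_iff.2 (Sig.comm_of hY hzY hb)
    let z' : ↥H := ⟨z, hzH⟩
    have hmem : ∀ x : ↥H, x ∈ centralizer (zpowers z' : Set ↥H) ↔ (x : X) ∈ centralizer {z} := by
      intro x
      rw [zpowers_eq_closure, centralizer_closure, mem_centralizer_singleton_iff,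
        mem_centralizer_singleton_iff, Subtype.ext_iff]
      rfl
    refine pLayer_bot_of_inverted (hE b hb hb1) (z := z') ?_ ?_ ?_ ?_
    · exact IsPGroup.of_card (n := 1) (by
        rw [Nat.card_zpowers, ← orderOf_coe, pow_one]; exact Sig.orderOf_elem hY hzY hz1)
    · exact fun x hx => Subtype.ext (hinv b hb _ (mem_map_of_mem H.subtype hx))
    · refine eq_bot_iff.2 fun x hx => ?_
      have h1 : (x : X) ∈ centralizerPPrimeCore 2 b ⊓ centralizer {z} :=
        ⟨mem_map_of_mem H.subtype hx.1, (hmem x).1 hx.2⟩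
      rw [hfix b hb, Subgroup.mem_bot] at h1
      exact Subgroup.mem_bot.2 (Subtype.ext h1)
    · let Cz := centralizer ({z} : Set X)
      have hbC : b ∈ Cz := mem_centralizer_singleton_iff.2 (Sig.comm_of hY hb hzY)
      let b' : ↥Cz := ⟨b, hbC⟩
      have hP : IsPGroup 2 ↥(zpowers b') := IsPGroup.of_card (n := 1) (by
        rw [Nat.card_zpowers, ← orderOf_coe, pow_one]; exact Sig.orderOf_elem hY hb hb1)
      have hbb : ∀ x : ↥Cz, x ∈ normalizer (zpowers b' : Set ↥Cz) ↔ (x : X) ∈ H := by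
        intro x
        constructor
        · intro hx
          have h1 := (mem_normalizer_iff.1 hx b').1 (mem_zpowers b')
          obtain ⟨k, hk⟩ := mem_zpowers_iff.1 h1
          have hk' : b ^ k = (x : X) * b * (x : X)⁻¹ := by simpa using congrArg Subtype.val hk
          have hb2 : b ^ (2 : ℤ) = 1 := by rw [zpow_ofNat]; exact hY.2 b hb
          rcases Int.emod_two_eq_zero_or_one k with h | h
          · exfalso
            rw [zpow_eq_zpow_emod k hb2, h, zpow_zero] at hk'
            exact hb1 (by simpa using hk'.symm)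
          · rw [zpow_eq_zpow_emod k hb2, h, zpow_one] at hk'
            exact mem_centralizer_singleton_iff.2 (eq_mul_inv_iff_mul_eq.1 hk').symm
        · intro hx
          refine Subgroup.centralizer_le_normalizer _ ?_
          rw [zpowers_eq_closure, centralizer_closure]
          exact mem_centralizer_singleton_iff.2 (Subtype.ext (mem_centralizer_singleton_iff.1 hx))
      let e : ↥(normalizer (zpowers b' : Set ↥Cz)) ≃* ↥(centralizer (zpowers z' : Set ↥H)) :=
        { toFun := fun x => ⟨⟨((x : ↥Cz) : X), (hbb x).1 x.2⟩, (hmem _).2 (x : ↥Cz).2⟩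
          invFun := fun y => ⟨⟨((y : ↥H) : X), (hmem y).1 y.2⟩, (hbb _).2 (y : ↥H).2⟩
          left_inv := fun x => rfl
          right_inv := fun y => rfl
          map_mul' := fun x y => rfl }
      rw [layer_eq_bot_iff]
      exact fun L hL => layer_eq_bot_iff.1 (charp_layer (charp_normalizer hcp hP)) _
        (isComponent_map_equiv hL e.symm)
  have hbal : ∀ a ∈ Y, ∀ b ∈ Y, b ≠ 1 →
      centralizerPPrimeCore 2 a ⊓ centralizer {b} ≤ centralizerPPrimeCore 2 b :=
    fun a ha b hb hb1 => cppc_balance a b (Sig.comm_of hY ha hb) (hpY a ha) (hL b hb hb1)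
  have hgen : ∀ a ∈ Y, centralizerPPrimeCore 2 a ≤
      ⨆ B : {B : Subgroup X // B ≤ Y ∧ B.relIndex Y ≤ 2},
        centralizerPPrimeCore 2 a ⊓ centralizer ((B : Subgroup X) : Set X) := fun a ha =>
    Sig.gen_hyperplane hY (by omega) (Sig.coprime_elem hY
      ((Nat.Prime.coprime_iff_not_dvd Nat.prime_two).1 (cppc_coprime a).symm))
      (fun y hy => centralizer_le_normalizer_cppc a
        (mem_centralizer_singleton_iff.2 (Sig.comm_of hY hy ha)))
  have hcommute : ∀ a ∈ Y, ∀ b ∈ Y,
      centralizerPPrimeCore 2 a ≤ centralizer (centralizerPPrimeCore 2 b : Set X) := by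
    intro a ha b hb
    refine (hgen a ha).trans (iSup_le fun B => le_centralizer_iff.1
      ((hgen b hb).trans (iSup_le fun B' => le_centralizer_iff.1 ?_)))
    obtain ⟨B, hBY, hBi⟩ := B
    obtain ⟨B', hB'Y, hB'i⟩ := B'
    obtain ⟨e, heB, he1⟩ : ∃ e ∈ B ⊓ B', e ≠ 1 := by
      refine (bot_or_exists_ne_one _).resolve_left fun h => ?_
      have h1 : (B ⊓ B').relIndex Y ≤ 4 :=
        (relIndex_inf_le).trans ((Nat.mul_le_mul hBi hB'i).trans (by norm_num))
      rw [h, relIndex_bot_left] at h1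
      omega
    intro u hu
    refine mem_centralizer_iff.2 fun v hv => ?_
    have key : ∀ (c : X) (_ : c ∈ Y) (C : Subgroup X), e ∈ C →
        centralizerPPrimeCore 2 c ⊓ centralizer (C : Set X) ≤ centralizerPPrimeCore 2 e :=
      fun c hc C heC => le_trans (inf_le_inf_left _ (centralizer_le (by simpa using heC)))
        (hbal c hc e (hBY heB.1) he1)
    exact mem_centralizer_iff.1 (hDab e (hBY heB.1) (key a ha B heB.1 hu)) v (key b hb B' heB.2 hv)
  refine ⟨sup_odd _ (fun y => ?_) (fun y y' => hcommute y y.2.1 y' y'.2.1), fun g hg => ?_⟩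
  · exact Nat.odd_iff.2 (Nat.mod_two_ne_zero.1 fun h => (Nat.Prime.coprime_iff_not_dvd
      Nat.prime_two).1 (cppc_coprime (p := 2) (y : X)).symm (Nat.dvd_of_mod_eq_zero h))
  · refine mem_normalizer_of_map_conj_eq (eq_of_le_of_card_ge ?_
      (card_map_of_injective (MulAut.conj g).injective).ge)
    rw [Subgroup.map_iSup]
    refine iSup_le fun y => (map_conj_cppc 2 g y).trans ?_
    exact le_iSup (fun y : {y : X // y ∈ Y ∧ y ≠ 1} => centralizerPPrimeCore 2 (y : X))
      ⟨g * y * g⁻¹, (mem_normalizer_iff.1 hg _).1 y.2.1, fun h => y.2.2 (conj_eq_one_iff.1 h)⟩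

end Cfsg.Agent.S2924
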