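import Cfsg.Statements.S2925
import Mathlib
import Cfsg.Agent.Lib.LocalChar.YL
import Cfsg.Agent.Lib.Components.Basic
-- import your own Cfsg.Agent.* helpers here

set_option autoImplicit false
open Cfsg Cfsg.Agent Cfsg.Agent.Lib.LocalChar
open scoped Pointwise commutatorElement

namespace Cfsg.Agent.S2925

/-- Let K be a component of the finite group X and T a Sylow 2-subgroup of X. If some abelian normal subgroup Y of T does not normalize K, then K ⧸ Z(K) has abelian Sylow 2-subgroups. -/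
theorem result {X : Type*} [Group X] [Finite X] (K : Subgroup X) (hK : Cfsg.IsComponent K) (T : Sylow 2 X) (Y : Subgroup X) (hYT : Y ≤ (T : Subgroup X)) (hYn : (Y.subgroupOf (T : Subgroup X)).Normal) (hYab : IsMulCommutative ↥Y) (hnot : ¬ Y ≤ Subgroup.normalizer (K : Set X)) (P : Sylow 2 (↥K ⧸ Subgroup.center ↥K)) : IsMulCommutative ↥(P : Subgroup (↥K ⧸ Subgroup.center ↥K)) := by
  obtain ⟨y, hy, hyK⟩ := SetLike.not_le_iff_exists.1 hnot
  have hS : IsSylowIn 2 ((T : Subgroup X) ⊓ K) K := IsSylowIn.inf_subnormal T hK.1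
  set K' := K.map (MulAut.conj y).toMonoidHom with hK'
  have hK'c : IsComponent K' := Lib.Components.isComponent_map_equiv hK (MulAut.conj y)
  have hne : K ≠ K' := fun e => hyK (mem_nz_of_cj_eq e.symm)
  have hcomm : ∀ a ∈ K, ∀ b ∈ K', Commute a b := fun a ha b hb =>
    commutatorElement_eq_one_iff_commute.1 (Subgroup.mem_bot.1
      ((Lib.Components.comp_commute hK hK'c hne).le (Subgroup.commutator_mem_commutator ha hb)))
  have hTY : (T : Subgroup X) ≤ Subgroup.normalizer (Y : Set X) := le_nz_pointwise hYT hYn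
  set Q := hS.sylow
  let Q' : Sylow 2 (↥K ⧸ Subgroup.center ↥K) := Q.mapSurjective (QuotientGroup.mk'_surjective _)
  have hab : ∀ u ∈ (Q' : Subgroup (↥K ⧸ Subgroup.center ↥K)), ∀ v ∈ (Q' : Subgroup (↥K ⧸ Subgroup.center ↥K)),
      u * v = v * u := by
    rintro _ ⟨a, ha, rfl⟩ _ ⟨b, hb, rfl⟩
    rw [SetLike.mem_coe, hS.sylow_coe] at ha hb
    rw [← commutatorElement_eq_one_iff_mul_comm, ← map_commutatorElement, QuotientGroup.mk'_apply,
      QuotientGroup.eq_one_iff, Subgroup.mem_center_iff]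
    intro k
    have hmem : ∀ c : ↥K, (c : X) ∈ (T : Subgroup X) →
        (c : X) * (y * (c : X)⁻¹ * y⁻¹) ∈ Y := fun c hc => by
      have := Y.mul_mem (conj_mem_of_nz (hTY hc) hy) (Y.inv_mem hy)
      simpa [mul_assoc] using this
    set a' := y * (a : X)⁻¹ * y⁻¹
    set b' := y * (b : X)⁻¹ * y⁻¹
    have ha' : a' ∈ K' := ⟨_, K.inv_mem a.2, rfl⟩
    have hb' : b' ∈ K' := ⟨_, K.inv_mem b.2, rfl⟩
    have h1 : ((a : X) * a') * ((b : X) * b') = ((b : X) * b') * ((a : X) * a') :=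
      comm_of_isMulCommutative hYab (hmem a ha.1) (hmem b hb.1)
    have h2 : ((a : X) * b) * (a' * b') = ((b : X) * a) * (b' * a') := by
      rw [mul_assoc (a : X) a', ← mul_assoc a' (b : X), ← (hcomm b b.2 a' ha').eq] at h1
      rw [mul_assoc (b : X) b', ← mul_assoc b' (a : X), ← (hcomm a a.2 b' hb').eq] at h1
      simpa [mul_assoc] using h1
    have hz : ((⁅a, b⁆ : ↥K) : X) ∈ K' := by
      have h3 : ((b : X) * a)⁻¹ * ((a : X) * b) ∈ K' := by
        have : ((b : X) * a)⁻¹ * ((a : X) * b) = b' * a' * (a' * b')⁻¹ := by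
          rw [eq_mul_inv_iff_mul_eq, mul_assoc, h2, inv_mul_cancel_left]
        rw [this]
        exact K'.mul_mem (K'.mul_mem hb' ha') (K'.inv_mem (K'.mul_mem ha' hb'))
      have hba : (b : X) * a ∈ K := K.mul_mem b.2 a.2
      have h4 := hcomm _ hba _ h3
      have e : ((⁅a, b⁆ : ↥K) : X) = ((b : X) * a) * (((b : X) * a)⁻¹ * ((a : X) * b)) * ((b : X) * a)⁻¹ := by
        simp [commutatorElement_def, mul_assoc]
      rw [e, h4.eq, mul_inv_cancel_right]
      exact h3
    exact Subtype.ext (hcomm k k.2 _ hz).eq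
  haveI hQ' : IsMulCommutative ↥(Q' : Subgroup (↥K ⧸ Subgroup.center ↥K)) :=
    ⟨⟨fun u v => Subtype.ext (hab u u.2 v v.2)⟩⟩
  refine ⟨⟨fun u v => (P.equiv Q').injective ?_⟩⟩
  rw [map_mul, map_mul, mul_comm']

end Cfsg.Agent.S2925
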