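import Cfsg.Statements.S2929
import Cfsg.Agent.Lib.Components.Basic
import Cfsg.Agent.Lib.Components.Bender
-- import your own Cfsg.Agent.* helpers here

set_option autoImplicit false
open Cfsg

namespace Cfsg.Agent.S2929


open Equiv Equiv.Perm Subgroup
open scoped commutatorElement

variable {α : Type*} [Fintype α] [DecidableEq α] (H : Subgroup (Perm α))

/-- The three-cycle `a ↦ b ↦ c ↦ a`. -/
def cyc (a b c : α) : Perm α := swap a b * swap b c

/-- `H` contains the three-cycle on the distinct points `a`, `b`, `c`. -/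
def R (a b c : α) : Prop := a ≠ b ∧ b ≠ c ∧ a ≠ c ∧ cyc a b c ∈ H

/-- The equivalence relation of lying in a common three-cycle of `H`. -/
def Rel (a b : α) : Prop := a = b ∨ ∃ c, R H a b c

variable {H} {a b c d e : α}

theorem cyc_fst (hab : a ≠ b) (hac : a ≠ c) : cyc a b c a = b := by
  simp [cyc, Perm.mul_apply, swap_apply_of_ne_of_ne hab hac]

theorem cyc_snd (hac : a ≠ c) (hbc : b ≠ c) : cyc a b c b = c := by
  simp [cyc, Perm.mul_apply, swap_apply_of_ne_of_ne hac.symm hbc.symm]

theorem cyc_trd : cyc a b c c = a := by simp [cyc, Perm.mul_apply]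

theorem cyc_other (ha : d ≠ a) (hb : d ≠ b) (hc : d ≠ c) : cyc a b c d = d := by
  simp [cyc, Perm.mul_apply, swap_apply_of_ne_of_ne hb hc, swap_apply_of_ne_of_ne ha hb]

theorem cyc_moves {x : α} (h : cyc a b c x ≠ x) : x = a ∨ x = b ∨ x = c := by
  by_contra hx
  push Not at hx
  exact h (cyc_other hx.1 hx.2.1 hx.2.2)

theorem cyc_rot (hab : a ≠ b) (hac : a ≠ c) (hbc : b ≠ c) : cyc b c a = cyc a b c := by
  ext x
  rcases eq_or_ne x a with rfl | hxa
  · rw [cyc_trd, cyc_fst hab hac]
  rcases eq_or_ne x b with rfl | hxb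
  · rw [cyc_fst hbc hab.symm, cyc_snd hac hbc]
  rcases eq_or_ne x c with rfl | hxc
  · rw [cyc_snd hab.symm hac.symm, cyc_trd]
  rw [cyc_other hxb hxc hxa, cyc_other hxa hxb hxc]

theorem cyc_inv : (cyc a b c)⁻¹ = cyc c b a := by
  rw [cyc, cyc, mul_inv_rev, swap_inv, swap_inv, swap_comm b c, swap_comm a b]

theorem R.rot (h : R H a b c) : R H b c a :=
  ⟨h.2.1, h.2.2.1.symm, h.1.symm, by rw [cyc_rot h.1 h.2.2.1 h.2.1]; exact h.2.2.2⟩

theorem R.rev (h : R H a b c) : R H c b a :=
  ⟨h.2.1.symm, h.1.symm, h.2.2.1.symm, by rw [← cyc_inv]; exact inv_mem h.2.2.2⟩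

theorem R.swap12 (h : R H a b c) : R H b a c := h.rev.rot

theorem R.conj (h : R H a b c) {s : Perm α} (hs : s ∈ H) : R H (s a) (s b) (s c) := by
  refine ⟨fun e => h.1 (s.injective e), fun e => h.2.1 (s.injective e), fun e => h.2.2.1 (s.injective e), ?_⟩
  have e : cyc (s a) (s b) (s c) = s * cyc a b c * s⁻¹ := by
    rw [cyc, cyc, swap_apply_apply, swap_apply_apply]
    group
  rw [e]
  exact mul_mem (mul_mem hs h.2.2.2) (inv_mem hs)

theorem Rel.symm (h : Rel H a b) : Rel H b a := by
  rcases h with rfl | ⟨c, h⟩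
  · exact Or.inl rfl
  · exact Or.inr ⟨c, h.swap12⟩

theorem Rel.trans (h1 : Rel H a b) (h2 : Rel H b d) : Rel H a d := by
  rcases h1 with rfl | ⟨c, hg⟩
  · exact h2
  rcases h2 with rfl | ⟨e, hh⟩
  · exact Or.inr ⟨c, hg⟩
  rcases eq_or_ne d a with rfl | hda
  · exact Or.inl rfl
  rcases eq_or_ne d c with rfl | hdc
  · exact Or.inr ⟨b, hg.rot.rot.swap12⟩
  have := hh.conj (hg.swap12.2.2.2)
  rw [cyc_fst hg.1.symm hg.2.1, cyc_other hh.1.symm hda hdc] at this
  exact Or.inr ⟨_, this⟩

theorem Rel.conj (h : Rel H a b) {s : Perm α} (hs : s ∈ H) : Rel H (s a) (s b) := by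
  rcases h with rfl | ⟨c, h⟩
  · exact Or.inl rfl
  · exact Or.inr ⟨s c, h.conj hs⟩

theorem triangle (hab : Rel H a b) (hac : Rel H a c) (h1 : a ≠ b) (h2 : a ≠ c) (h3 : b ≠ c) :
    R H a b c := by
  obtain ⟨d, hd⟩ := hab.resolve_left h1
  rcases eq_or_ne d c with rfl | hdc
  · exact hd
  obtain ⟨e, he⟩ := ((Rel.symm (Or.inr ⟨b, hd.rot.rot.swap12⟩ : Rel H a d)).trans hac).resolve_left hdc
  have key : ∀ a b : α, a ≠ b → R H a b d → R H d c a → b ≠ c → R H a b c := by
    intro a b hab hd he hbc
    have h5 := hd.conj he.2.2.2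
    rw [cyc_trd, cyc_other hd.2.1 hbc hab.symm, cyc_fst he.1 he.2.2.1] at h5
    -- now the triple `(d, b, c)`
    have h6 := h5.conj hd.rev.2.2.2
    rw [cyc_fst hd.2.1.symm hd.2.2.1.symm, cyc_snd hd.2.2.1.symm hab.symm,
      cyc_other h5.2.2.1.symm hbc.symm he.2.1] at h6
    exact h6.swap12
  rcases eq_or_ne e a with rfl | hea
  · exact key e b h1 hd he h3
  rcases eq_or_ne e b with rfl | heb
  · exact (key e a h1.symm hd.swap12 he h2).swap12
  have := hd.conj he.2.2.2
  rw [cyc_other hd.2.2.1 h2 hea.symm, cyc_other hd.2.1 h3 heb.symm, cyc_fst hdc he.2.2.1] at this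
  exact this

variable (H) in
/-- The class of `a`. -/
noncomputable def cls (a : α) : Finset α := by classical exact Finset.univ.filter (Rel H a)

theorem mem_cls : b ∈ cls H a ↔ Rel H a b := by classical simp [cls]

variable (H) in
/-- The group generated by the three-cycles of `H` on the class of `a`. -/
def Aa (a : α) : Subgroup (Perm α) :=
  closure {σ | ∃ x y z, R H x y z ∧ Rel H a x ∧ σ = cyc x y z}

variable (H) in
/-- The group generated by all three-cycles of `H`. -/
def W : Subgroup (Perm α) := closure {σ | ∃ x y z, R H x y z ∧ σ = cyc x y z}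

theorem Aa_le (a : α) : Aa H a ≤ W H :=
  closure_mono fun _ ⟨x, y, z, h, _, e⟩ => ⟨x, y, z, h, e⟩

theorem W_le : W H ≤ H := (closure_le _).2 fun _ ⟨_, _, _, h, e⟩ => e ▸ h.2.2.2

theorem conj_cyc (w : Perm α) (x y z : α) : w * cyc x y z * w⁻¹ = cyc (w x) (w y) (w z) := by
  rw [cyc, cyc, swap_apply_apply, swap_apply_apply]
  group

theorem mem_normalizer_closure {S : Set (Perm α)} {w : Perm α} (h : ∀ s ∈ S, w * s * w⁻¹ ∈ closure S) :
    w ∈ normalizer ((closure S : Subgroup (Perm α)) : Set (Perm α)) := by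
  refine mem_normalizer_fintype fun n hn => ?_
  induction hn using closure_induction with
  | mem s hs => exact h s hs
  | one => simp
  | mul p q _ _ hp hq =>
    rw [show w * (p * q) * w⁻¹ = (w * p * w⁻¹) * (w * q * w⁻¹) by group]
    exact mul_mem hp hq
  | inv p _ hp =>
    rw [show w * p⁻¹ * w⁻¹ = (w * p * w⁻¹)⁻¹ by group]
    exact inv_mem hp

theorem H_le_normalizer_W : H ≤ normalizer (W H : Set (Perm α)) := fun w hw =>
  mem_normalizer_closure fun _ ⟨x, y, z, h, e⟩ =>
    subset_closure ⟨w x, w y, w z, h.conj hw, by rw [e, conj_cyc]⟩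

theorem normalizes_Aa {w : Perm α} (hw : w ∈ H) (hcls : ∀ x, Rel H x (w x)) (a : α) :
    w ∈ normalizer (Aa H a : Set (Perm α)) :=
  mem_normalizer_closure fun _ ⟨x, y, z, h, hx, e⟩ =>
    subset_closure ⟨w x, w y, w z, h.conj hw, hx.trans (hcls x), by rw [e, conj_cyc]⟩

theorem W_class {w : Perm α} (hw : w ∈ W H) : ∀ x, Rel H x (w x) := by
  induction hw using closure_induction with
  | mem s hs =>
    obtain ⟨x, y, z, h, rfl⟩ := hs
    intro u
    by_cases hu : cyc x y z u = u
    · exact Or.inl hu.symm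
    rcases cyc_moves hu with rfl | rfl | rfl
    · rw [cyc_fst h.1 h.2.2.1]; exact Or.inr ⟨z, h⟩
    · rw [cyc_snd h.2.2.1 h.2.1]; exact Or.inr ⟨x, h.rot⟩
    · rw [cyc_trd]; exact Or.inr ⟨y, h.rot.rot⟩
  | one => exact fun u => Or.inl rfl
  | mul p q _ _ hp hq => exact fun u => (hq u).trans (hp (q u))
  | inv p _ hp => exact fun u => by simpa using (hp (p⁻¹ u)).symm

theorem eq_cyc {β : Type*} [Fintype β] [DecidableEq β] {σ : Perm β} (h : IsThreeCycle σ) :
    ∃ a b c, a ≠ b ∧ b ≠ c ∧ a ≠ c ∧ σ = cyc a b c := by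
  obtain ⟨a, ha⟩ := Finset.card_pos.1 (show 0 < σ.support.card by rw [h.card_support]; norm_num)
  have hab : σ a ≠ a := mem_support.1 ha
  have h3 : σ (σ (σ a)) = a := by
    have := pow_orderOf_eq_one σ
    rw [h.orderOf] at this
    simpa [pow_succ, Perm.mul_apply] using congrArg (fun t : Perm β => t a) this
  have hac : σ (σ a) ≠ a := fun e => hab (by rw [e] at h3; exact h3)
  have hbc : σ a ≠ σ (σ a) := fun e => hab (σ.injective e).symm
  refine ⟨a, σ a, σ (σ a), hab.symm, hbc, hac.symm, Equiv.ext fun x => ?_⟩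
  rcases eq_or_ne x a with rfl | hxa
  · rw [cyc_fst hab.symm hac.symm]
  rcases eq_or_ne x (σ a) with rfl | hxb
  · rw [cyc_snd hac.symm hbc]
  rcases eq_or_ne x (σ (σ a)) with rfl | hxc
  · rw [cyc_trd, h3]
  rw [cyc_other hxa hxb hxc]
  by_contra hx
  have hsub : ({x, a, σ a, σ (σ a)} : Finset β) ⊆ σ.support := by
    intro u hu
    simp only [Finset.mem_insert, Finset.mem_singleton] at hu
    rcases hu with rfl | rfl | rfl | rfl
    · exact mem_support.2 hx
    · exact ha
    · exact apply_mem_support.2 ha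
    · exact apply_mem_support.2 (apply_mem_support.2 ha)
  have := Finset.card_le_card hsub
  rw [h.card_support, Finset.card_insert_of_notMem (by simp [hxa, hxb, hxc]),
    Finset.card_insert_of_notMem (by simp [hab.symm, hac.symm]),
    Finset.card_insert_of_notMem (by simp [hbc]), Finset.card_singleton] at this
  omega

theorem map_alt (a : α) :
    (alternatingGroup ↥(cls H a)).map (ofSubtype (p := (· ∈ cls H a))) = Aa H a := by
  refine le_antisymm ?_ ((closure_le _).2 ?_)
  · rw [← closure_three_cycles_eq_alternating, MonoidHom.map_closure, closure_le]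
    rintro _ ⟨σ, hσ, rfl⟩
    obtain ⟨x, y, z, hxy, hyz, hxz, rfl⟩ := eq_cyc hσ
    have hx := mem_cls.1 x.2
    refine subset_closure ⟨x, y, z, triangle (hx.symm.trans (mem_cls.1 y.2))
      (hx.symm.trans (mem_cls.1 z.2)) (fun e => hxy (Subtype.ext e)) (fun e => hxz (Subtype.ext e))
      (fun e => hyz (Subtype.ext e)), hx, ?_⟩
    simp [cyc, ofSubtype_swap_eq]
  · rintro _ ⟨x, y, z, h, hx, rfl⟩
    have hy : Rel H a y := hx.trans (Or.inr ⟨z, h⟩)
    have hz : Rel H a z := hy.trans (Or.inr ⟨x, h.rot⟩)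
    refine ⟨cyc ⟨x, mem_cls.2 hx⟩ ⟨y, mem_cls.2 hy⟩ ⟨z, mem_cls.2 hz⟩, ?_, by simp [cyc, ofSubtype_swap_eq]⟩
    rw [SetLike.mem_coe, mem_alternatingGroup, cyc, Perm.sign_mul, sign_swap, sign_swap]
    · rfl
    · simpa using h.2.1
    · simpa using h.1

theorem dicho {E M : Subgroup (Perm α)} (hE : Cfsg.IsQuasisimple ↥E)
    (h1 : E ≤ normalizer (M : Set (Perm α))) (h2 : M ≤ normalizer (E : Set (Perm α))) :
    E ≤ M ∨ ⁅E, M⁆ = ⊥ := by
  have hn : (M.subgroupOf E).Normal := normal_subgroupOf_of_le_normalizer h1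
  rcases Cfsg.Agent.Lib.Components.qs_inter_subnormal hE hn.isSubnormal with h | h
  · exact Or.inl h
  refine Or.inr (Cfsg.Agent.Lib.Components.commutator_eq_bot_of_perfect
    (Cfsg.Agent.Lib.Components.isQuasisimple_perfect hE)
    (Cfsg.Agent.Lib.Components.commutator_eq_bot_mono h (le_inf ?_ ?_) le_rfl))
  · rw [commutator_comm]; exact le_normalizer_iff_commutator_le_right.1 h1
  · exact le_normalizer_iff_commutator_le_right.1 h2

theorem isSolvable_alt_small {β : Type*} [Fintype β] [DecidableEq β] (h : Nat.card β ≤ 4) :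
    Group.IsSolvable (alternatingGroup β) := by
  rcases lt_or_eq_of_le h with h | h
  · rcases subsingleton_or_nontrivial β with hs | hs
    · exact Group.isSolvable_of_comm fun a b => Subtype.ext (Subsingleton.elim _ _)
    · have hc : 2 * Nat.card (alternatingGroup β) = Nat.factorial (Nat.card β) := by
        rw [two_mul_nat_card_alternatingGroup, Nat.card_perm]
      have h2 : Nat.card (alternatingGroup β) ≤ 3 := by
        have := Nat.factorial_le (show Nat.card β ≤ 3 by omega)
        rw [show Nat.factorial 3 = 6 from rfl] at this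
        omega
      have h1 := Nat.card_pos (α := alternatingGroup β)
      haveI : IsCyclic (alternatingGroup β) := by
        interval_cases hh : Nat.card (alternatingGroup β)
        · haveI : Subsingleton (alternatingGroup β) := (Nat.card_eq_one_iff_unique.1 hh).1
          infer_instance
        · haveI := Fact.mk Nat.prime_two
          exact isCyclic_of_prime_card hh
        · haveI := Fact.mk Nat.prime_three
          exact isCyclic_of_prime_card hh
      exact Group.isSolvable_of_comm fun a b => IsCyclic.commGroup.mul_comm a b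
  · have hk := alternatingGroup.kleinFour_isKleinFour h
    haveI := alternatingGroup.normal_kleinFour h
    haveI : Group.IsSolvable (alternatingGroup.kleinFour β) :=
      Group.isSolvable_of_comm fun a b =>
        mul_comm_of_exponent_two (IsKleinFour.exponent_two) a b
    haveI : Group.IsSolvable (alternatingGroup β ⧸ alternatingGroup.kleinFour β) := by
      have hc := (Subgroup.Normal.quotient_commutative_iff_commutator_le (N := alternatingGroup.kleinFour β)).2
        (alternatingGroup.kleinFour_eq_commutator h).ge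
      exact Group.isSolvable_of_comm fun a b => hc.is_comm.comm a b
    exact Group.isSolvable_of_ker_le_range (alternatingGroup.kleinFour β).subtype
      (QuotientGroup.mk' (alternatingGroup.kleinFour β)) (by simp)

theorem disjoint_cycles (n : ℕ) (P : Sylow 3 (Perm (Fin n))) :
    ∃ f : Fin (n / 3) × Fin 3 ↪ Fin n,
      ∀ i, cyc (f (i, 0)) (f (i, 1)) (f (i, 2)) ∈ (P : Subgroup (Perm (Fin n))) := by
  classical
  let e : Fin (n / 3) × Fin 3 ↪ Fin n :=
    finProdFinEquiv.toEmbedding.trans (Fin.castLEEmb (Nat.div_mul_le_self n 3))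
  let ψ : (Fin (n / 3) → alternatingGroup (Fin 3)) →* Perm (Fin (n / 3) × Fin 3) :=
    { toFun := fun s => Equiv.prodCongrRight fun i => (s i : Perm (Fin 3))
      map_one' := by ext ⟨i, j⟩ <;> simp
      map_mul' := fun s t => by ext ⟨i, j⟩ <;> simp }
  have hp : IsPGroup 3 ↥((viaEmbeddingHom e).comp ψ).range := by
    have : IsPGroup 3 (Fin (n / 3) → alternatingGroup (Fin 3)) := by
      refine IsPGroup.of_card (n := n / 3) ?_
      rw [Nat.card_fun, Nat.card_fin, nat_card_alternatingGroup, Nat.card_fin]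
      rfl
    exact this.of_surjective _ (MonoidHom.rangeRestrict_surjective _)
  obtain ⟨Q, hQ⟩ := hp.exists_le_sylow
  obtain ⟨g, hg⟩ := MulAction.exists_smul_eq (Perm (Fin n)) Q P
  refine ⟨e.trans g.toEmbedding, fun i => ?_⟩
  have hc : (cyc (0 : Fin 3) 1 2) ∈ alternatingGroup (Fin 3) := by
    rw [mem_alternatingGroup]; decide
  have hkey : ((viaEmbeddingHom e).comp ψ) (Pi.mulSingle i ⟨_, hc⟩) = cyc (e (i, 0)) (e (i, 1)) (e (i, 2)) := by
    have hne : ∀ j k : Fin 3, j ≠ k → e (i, j) ≠ e (i, k) := fun j k h h' =>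
      h (congrArg Prod.snd (e.injective h'))
    ext x
    congr 1
    show Perm.viaEmbedding (ψ _) e x = _
    by_cases hx : x ∈ Set.range e
    · obtain ⟨⟨k, j⟩, rfl⟩ := hx
      rw [viaEmbedding_apply]
      by_cases hk : k = i
      · subst hk
        have hv : ψ (Pi.mulSingle k ⟨_, hc⟩) (k, j) = (k, cyc (0 : Fin 3) 1 2 j) := by simp [ψ]
        rw [hv]
        obtain rfl | rfl | rfl : j = 0 ∨ j = 1 ∨ j = 2 := by clear hv; revert j; decide
        · rw [show cyc (0 : Fin 3) 1 2 0 = 1 by decide, cyc_fst (hne 0 1 (by decide)) (hne 0 2 (by decide))]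
        · rw [show cyc (0 : Fin 3) 1 2 1 = 2 by decide]
          exact (cyc_snd (hne 0 2 (by decide)) (hne 1 2 (by decide))).symm
        · rw [show cyc (0 : Fin 3) 1 2 2 = 0 by decide]; exact (cyc_trd).symm
      · have hv : ψ (Pi.mulSingle i ⟨_, hc⟩) (k, j) = (k, j) := by simp [ψ, hk]
        have hne' : ∀ l, e (k, j) ≠ e (i, l) := fun l h' => hk (congrArg Prod.fst (e.injective h'))
        rw [hv, cyc_other (hne' 0) (hne' 1) (hne' 2)]
    · rw [viaEmbedding_apply_of_notMem _ _ _ hx]
      exact (cyc_other (fun h => hx ⟨_, h.symm⟩) (fun h => hx ⟨_, h.symm⟩) fun h => hx ⟨_, h.symm⟩).symm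
  show cyc (g (e (i, 0))) (g (e (i, 1))) (g (e (i, 2))) ∈ (P : Subgroup (Perm (Fin n)))
  rw [← conj_cyc, ← hg, Sylow.coe_subgroup_smul, mem_pointwise_smul_iff_inv_smul_mem, ← hkey]
  exact hQ (by simp [MulAut.conj_apply, mul_assoc])

/-- Let n ≥ 5 and let H be a subgroup of the symmetric group of degree n whose generalized Fitting subgroup F*(H) is quasisimple. If H contains a Sylow 3-subgroup of the symmetric group, then F*(H) is isomorphic to an alternating group of degree m for some m ∈ {n − 2, n − 1, n}. -/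
theorem result (n : ℕ) (hn : 5 ≤ n) (H : Subgroup (Equiv.Perm (Fin n))) (hF : Cfsg.IsQuasisimple ↥(Cfsg.generalizedFittingSubgroup ↥H)) (hS : ∃ P : Sylow 3 (Equiv.Perm (Fin n)), (P : Subgroup (Equiv.Perm (Fin n))) ≤ H) : ∃ m : ℕ, (m = n - 2 ∨ m = n - 1 ∨ m = n) ∧ Nonempty (↥(Cfsg.generalizedFittingSubgroup ↥H) ≃* ↥(alternatingGroup (Fin m))) := by
  classical
  obtain ⟨P, hP⟩ := hS
  obtain ⟨f, hf⟩ := disjoint_cycles n P
  let E : Subgroup (Perm (Fin n)) := (Cfsg.generalizedFittingSubgroup ↥H).map H.subtype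
  let ι := (Cfsg.generalizedFittingSubgroup ↥H).equivMapOfInjective H.subtype H.subtype_injective
  have hE : Cfsg.IsQuasisimple ↥E := (Cfsg.Agent.Lib.Components.qs_congr ι).1 hF
  have hperf := Cfsg.Agent.Lib.Components.isQuasisimple_perfect hE
  have hEH : E ≤ H := map_subtype_le _
  have hnorm : H ≤ normalizer (E : Set (Perm (Fin n))) := fun h hh => by
    refine mem_normalizer_fintype fun x hx => ?_
    obtain ⟨y, hy, rfl⟩ := hx
    exact ⟨⟨h, hh⟩ * y * ⟨h, hh⟩⁻¹, Subgroup.Normal.conj_mem inferInstance _ hy _, rfl⟩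
  have hcen : ∀ x ∈ H, x ∈ centralizer (E : Set (Perm (Fin n))) → x ∈ E := fun x hx hc => by
    refine ⟨⟨x, hx⟩, Cfsg.Agent.Lib.Components.centralizer_gfs_le (mem_centralizer_iff.2 ?_), rfl⟩
    exact fun y hy => Subtype.ext (mem_centralizer_iff.1 hc _ ⟨y, hy, rfl⟩)
  have hcov : ∀ i j, ∃ b, Rel H (f (i, j)) b ∧ b ≠ f (i, j) := by
    intro i j
    have h : R H (f (i, 0)) (f (i, 1)) (f (i, 2)) :=
      ⟨f.injective.ne (by simp), f.injective.ne (by simp), f.injective.ne (by simp), hP (hf i)⟩
    fin_cases j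
    · exact ⟨_, Or.inr ⟨_, h⟩, h.1.symm⟩
    · exact ⟨_, Or.inr ⟨_, h.rot⟩, h.2.1.symm⟩
    · exact ⟨_, Or.inr ⟨_, h.rot.rot⟩, h.2.2.1⟩
  let U : Finset (Fin n) := Finset.univ.filter fun x => ∀ b, Rel H x b → b = x
  have hU : U.card + 3 * (n / 3) ≤ n := by
    have hd : Disjoint U (Finset.univ.map f) := Finset.disjoint_left.2 fun x hx hx' => by
      obtain ⟨⟨i, j⟩, -, rfl⟩ := Finset.mem_map.1 hx'
      obtain ⟨b, hb, hne⟩ := hcov i j
      exact hne ((Finset.mem_filter.1 hx).2 b hb)
    have := Finset.card_le_univ (U ∪ Finset.univ.map f)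
    rw [Finset.card_union_of_disjoint hd, Finset.card_map, Finset.card_univ, Fintype.card_prod,
      Fintype.card_fin, Fintype.card_fin, Fintype.card_fin] at this
    omega
  rcases dicho hE (hEH.trans H_le_normalizer_W) (W_le.trans hnorm) with hEW | hEW
  · -- `E` lies in `W`
    have hex : ∃ a, E ≤ Aa H a := by
      by_contra hno
      push Not at hno
      have hWc : W H ≤ centralizer (E : Set (Perm (Fin n))) := (closure_le _).2 fun s hs => by
        obtain ⟨x, y, z, h, rfl⟩ := hs
        have hx := (dicho hE (fun w hw => normalizes_Aa (hEH hw) (W_class (hEW hw)) x)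
          (((Aa_le x).trans W_le).trans hnorm)).resolve_left (hno x)
        rw [commutator_comm, commutator_eq_bot_iff_le_centralizer] at hx
        exact hx (subset_closure ⟨x, y, z, h, Or.inl rfl, rfl⟩)
      exact Cfsg.Agent.Lib.Components.qs_commutator_ne_bot hE
        (commutator_eq_bot_iff_le_centralizer.2 (hEW.trans hWc))
    obtain ⟨a, ha⟩ := hex
    let π := ofSubtype (p := (· ∈ cls H a))
    let A := alternatingGroup ↥(cls H a)
    let κ : ↥A ≃* ↥(Aa H a) := (A.equivMapOfInjective π ofSubtype_injective).trans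
      (MulEquiv.subgroupCongr (map_alt a))
    have h5 : 5 ≤ Nat.card ↥(cls H a) := by
      by_contra h5
      haveI := isSolvable_alt_small (β := ↥(cls H a)) (by omega)
      haveI : Group.IsSolvable ↥(Aa H a) := Group.isSolvable_of_surjective (f := κ.toMonoidHom) κ.surjective
      exact Cfsg.Agent.Lib.Components.qs_not_isSolvable hE
        (Group.isSolvable_of_isSolvable_injective (f := inclusion ha) (inclusion_injective _))
    haveI := alternatingGroup.isSimpleGroup (α := ↥(cls H a)) h5
    haveI : IsSimpleGroup ↥(Aa H a) := κ.symm.isSimpleGroup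
    haveI hn' : (E.subgroupOf (Aa H a)).Normal :=
      normal_subgroupOf_of_le_normalizer (((Aa_le a).trans W_le).trans hnorm)
    have hEA : Aa H a = E := by
      refine le_antisymm ?_ ha
      rcases hn'.eq_bot_or_eq_top with h | h
      · exact absurd (le_bot_iff.1 fun x hx => (subgroupOf_eq_bot.1 h) le_rfl ha hx)
          (Cfsg.Agent.Lib.Components.qs_ne_bot hE)
      · exact subgroupOf_eq_top.1 h
    have hall : ∀ x y z, R H x y z → Rel H a x := by
      intro x y z h
      by_contra hax
      have hc : cyc x y z ∈ E := by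
        refine hcen _ h.2.2.2 ?_
        have hAc : E ≤ centralizer ({cyc x y z} : Set (Perm (Fin n))) := by
          rw [← hEA]
          refine (closure_le _).2 fun s hs => ?_
          obtain ⟨u, v, w, huvw, hu, rfl⟩ := hs
          refine mem_centralizer_singleton_iff.2 ?_
          have hne : ∀ t, Rel H a t → cyc x y z t = t := by
            intro t ht
            by_contra hmv
            rcases cyc_moves hmv with rfl | rfl | rfl
            · exact hax ht
            · exact hax (ht.trans (Rel.symm (Or.inr ⟨z, h⟩)))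
            · exact hax (ht.trans (Or.inr ⟨y, h.rot.rot⟩))
          have h1 : cyc x y z * cyc u v w * (cyc x y z)⁻¹ = cyc u v w := by
            rw [conj_cyc, hne u hu, hne v (hu.trans (Or.inr ⟨w, huvw⟩)),
              hne w ((hu.trans (Or.inr ⟨w, huvw⟩)).trans (Or.inr ⟨u, huvw.rot⟩))]
          exact (mul_inv_eq_iff_eq_mul.1 h1).symm
        exact mem_centralizer_iff.2 fun e he => mem_centralizer_singleton_iff.1 (hAc he)
      rw [← hEA, ← map_alt] at hc
      obtain ⟨s, -, hs⟩ := hc
      have h1 : (ofSubtype s : Perm (Fin n)) x = x :=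
        ofSubtype_apply_of_not_mem s (fun hm => hax (mem_cls.1 hm))
      rw [hs, cyc_fst h.1 h.2.2.1] at h1
      exact h.1 h1.symm
    have hm : n - 2 ≤ Nat.card ↥(cls H a) := by
      have : (Finset.univ \ cls H a) ⊆ U := by
        intro x hx
        refine Finset.mem_filter.2 ⟨Finset.mem_univ _, fun b hb => ?_⟩
        by_contra hne
        obtain ⟨c, hc⟩ := hb.resolve_left (Ne.symm hne)
        exact (Finset.mem_sdiff.1 hx).2 (mem_cls.2 (hall x b c hc))
      have := Finset.card_le_card this
      rw [Finset.card_sdiff_of_subset (Finset.subset_univ _), Finset.card_univ, Fintype.card_fin] at this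
      rw [Nat.card_eq_fintype_card, Fintype.card_coe]
      omega
    have hm' : Nat.card ↥(cls H a) ≤ n := by
      rw [Nat.card_eq_fintype_card, Fintype.card_coe]
      exact (Finset.card_le_univ _).trans (by simp)
    refine ⟨Nat.card ↥(cls H a), by omega, ⟨ι.trans ((MulEquiv.subgroupCongr hEA.symm).trans (κ.symm.trans
      (Equiv.altCongrHom ((Fintype.equivFinOfCardEq (Nat.card_eq_fintype_card.symm))))))⟩⟩
  · -- otherwise the three-cycles of `H` commute pairwise and are centralized by `E`
    exfalso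
    rw [commutator_comm, commutator_eq_bot_iff_le_centralizer] at hEW
    refine Cfsg.Agent.Lib.Components.qs_commutator_ne_bot hE (le_bot_iff.1 (commutator_le.2 fun e he e' he' => ?_))
    rw [mem_bot, commutatorElement_eq_one_iff_mul_comm]
    ext x
    congr 1
    simp only [Perm.mul_apply]
    by_cases hx : x ∈ U
    · have hmem : ∀ s ∈ E, s x ∈ U := fun s hs => Finset.mem_filter.2 ⟨Finset.mem_univ _, fun b hb => by
        have h1 := hb.conj (inv_mem (hEH hs))
        rw [Perm.coe_inv, Equiv.symm_apply_apply] at h1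
        rw [← (Finset.mem_filter.1 hx).2 _ h1, Equiv.apply_symm_apply]⟩
      have h2 : U.card ≤ 2 := by omega
      have key : ∀ y ∈ U, ∀ y' ∈ U, y ≠ x → y' ≠ x → y = y' := fun y hy y' hy' h h' => by
        by_contra hne
        have := Finset.card_le_card (show ({x, y, y'} : Finset (Fin n)) ⊆ U by
          simp [Finset.insert_subset_iff, hx, hy, hy'])
        rw [Finset.card_insert_of_notMem (by simp [Ne.symm h, Ne.symm h']),
          Finset.card_insert_of_notMem (by simp [hne]), Finset.card_singleton] at this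
        omega
      have h3 : ∀ s ∈ E, ∀ t ∈ E, s (t x) = if (s x = x ↔ t x = x) then x else (if s x = x then t x else s x) := by
        intro s hs t ht
        have hu := hmem _ (mul_mem hs ht)
        simp only [Perm.mul_apply] at hu
        by_cases hs' : s x = x <;> by_cases ht' : t x = x
        · simp [hs', ht']
        · simp only [hs', ht', iff_false, not_true, if_false, if_true]
          exact key _ hu _ (hmem t ht) (fun h => ht' (s.injective (h.trans hs'.symm))) ht'
        · simp [hs', ht']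
        · simp only [hs', ht', iff_self, if_true]
          by_contra h
          exact ht' (s.injective ((key _ hu _ (hmem s hs) h hs')))
      rw [h3 e he e' he', h3 e' he' e he]
      by_cases hs' : e x = x <;> by_cases ht' : e' x = x <;> simp [hs', ht']
    · obtain ⟨y, hy, hne⟩ : ∃ y, Rel H x y ∧ y ≠ x := by
        simpa [U] using hx
      obtain ⟨z, h⟩ := hy.resolve_left (Ne.symm hne)
      have hcomm : ∀ s ∈ E, ∀ w, s (cyc x y z w) = cyc x y z (s w) := fun s hs w => by
        have := congrArg (fun t : Perm (Fin n) => t w) (mem_centralizer_iff.1 (hEW (subset_closure ⟨_, _, _, h, rfl⟩)) s hs)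
        simpa using this
      have hcases : ∀ s ∈ E, s x = x ∨ s x = cyc x y z x ∨ s x = cyc x y z (cyc x y z x) := fun s hs => by
        rw [cyc_fst h.1 h.2.2.1, cyc_snd h.2.2.1 h.2.1]
        have hmv : cyc x y z (s x) ≠ s x := by
          rw [← hcomm s hs, cyc_fst h.1 h.2.2.1]
          exact fun e => h.1 (s.injective e).symm
        rcases cyc_moves hmv with r | r | r
        · exact Or.inl r
        · exact Or.inr (Or.inl r)
        · exact Or.inr (Or.inr r)
      rcases hcases e he with r | r | r <;> rcases hcases e' he' with r' | r' | r' <;>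
        simp only [r, r', hcomm e he, hcomm e' he']

end Cfsg.Agent.S2929
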