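import Cfsg.Statements.S2928
import Cfsg.Agent.S2929
-- import your own Cfsg.Agent.* helpers here

set_option autoImplicit false
open Cfsg

namespace Cfsg.Agent.S2928


open Equiv Equiv.Perm Subgroup Cfsg.Agent.S2929
open scoped commutatorElement

/-- A group containing a three-cycle, with quasisimple generalized Fitting subgroup, has an
alternating generalized Fitting subgroup. -/
theorem structure_of_cyc {n : ℕ} (H : Subgroup (Perm (Fin n)))
    (hF : Cfsg.IsQuasisimple ↥(Cfsg.generalizedFittingSubgroup ↥H)) {x₀ y₀ z₀ : Fin n} (h₀ : R H x₀ y₀ z₀) :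
    ∃ a, 5 ≤ Nat.card ↥(cls H a) ∧ (∀ x y z, R H x y z → Rel H a x) ∧
      (∀ t ∈ H, (∀ x, Rel H a x → t x = x) → t = 1) ∧
      Nonempty (↥(Cfsg.generalizedFittingSubgroup ↥H) ≃* ↥(alternatingGroup (Fin (Nat.card ↥(cls H a))))) := by
  classical
  let E : Subgroup (Perm (Fin n)) := (Cfsg.generalizedFittingSubgroup ↥H).map H.subtype
  let ι := (Cfsg.generalizedFittingSubgroup ↥H).equivMapOfInjective H.subtype H.subtype_injective
  have hE : Cfsg.IsQuasisimple ↥E := (Cfsg.Agent.Lib.Components.qs_congr ι).1 hF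
  have hperf := Cfsg.Agent.Lib.Components.isQuasisimple_perfect hE
  have hEH : E ≤ H := map_subtype_le _
  have hnorm : H ≤ normalizer (E : Set (Perm (Fin n))) := fun h hh => by
    refine mem_normalizer_fintype fun x hx => ?_
    obtain ⟨y, hy, rfl⟩ := hx
    exact ⟨⟨h, hh⟩ * y * ⟨h, hh⟩⁻¹, Subgroup.Normal.conj_mem inferInstance _ hy _, rfl⟩
  have hcen : ∀ x ∈ H, x ∈ centralizer (E : Set (Perm (Fin n))) → x ∈ E := fun x hx hc => by
    refine ⟨⟨x, hx⟩, Cfsg.Agent.Lib.Components.centralizer_gfs_le (mem_centralizer_iff.2 ?_), rfl⟩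
    exact fun y hy => Subtype.ext (mem_centralizer_iff.1 hc _ ⟨y, hy, rfl⟩)
  have hEW : E ≤ W H := by
    refine (dicho hE (hEH.trans H_le_normalizer_W) (W_le.trans hnorm)).resolve_right fun hEW => ?_
    rw [commutator_comm, commutator_eq_bot_iff_le_centralizer] at hEW
    have hc := hcen _ h₀.2.2.2 (hEW (subset_closure ⟨_, _, _, h₀, rfl⟩))
    have hcomm : ∀ s ∈ E, ∀ w, s (cyc x₀ y₀ z₀ w) = cyc x₀ y₀ z₀ (s w) := fun s hs w => by
      have := congrArg (fun t : Perm (Fin n) => t w) (mem_centralizer_iff.1 (hEW (subset_closure ⟨_, _, _, h₀, rfl⟩)) s hs)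
      simpa using this
    have hcases : ∀ s ∈ E, s x₀ = x₀ ∨ s x₀ = cyc x₀ y₀ z₀ x₀ ∨ s x₀ = cyc x₀ y₀ z₀ (cyc x₀ y₀ z₀ x₀) := fun s hs => by
      rw [cyc_fst h₀.1 h₀.2.2.1, cyc_snd h₀.2.2.1 h₀.2.1]
      have hmv : cyc x₀ y₀ z₀ (s x₀) ≠ s x₀ := by
        rw [← hcomm s hs, cyc_fst h₀.1 h₀.2.2.1]
        exact fun e => h₀.1 (s.injective e).symm
      rcases cyc_moves hmv with r | r | r
      · exact Or.inl r
      · exact Or.inr (Or.inl r)
      · exact Or.inr (Or.inr r)
    have h1 : ∀ e ∈ E, ∀ e' ∈ E, e (e' x₀) = e' (e x₀) := fun e he e' he' => by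
      rcases hcases e he with r | r | r <;> rcases hcases e' he' with r' | r' | r' <;>
        simp only [r, r', hcomm e he, hcomm e' he']
    have hfix : ⁅E, E⁆ ≤ MulAction.stabilizer (Perm (Fin n)) x₀ := commutator_le.2 fun e he e' he' => by
      rw [MulAction.mem_stabilizer_iff, Perm.smul_def]
      show e (e' (e⁻¹ (e'⁻¹ x₀))) = x₀
      rw [h1 _ (inv_mem he) _ (inv_mem he')]
      simp
    have h3 := hfix (hperf.ge hc)
    rw [MulAction.mem_stabilizer_iff, Perm.smul_def, cyc_fst h₀.1 h₀.2.2.1] at h3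
    exact h₀.1 h3.symm
  have hex : ∃ a, E ≤ Aa H a := by
    by_contra hno
    push Not at hno
    have hWc : W H ≤ centralizer (E : Set (Perm (Fin n))) := (closure_le _).2 fun s hs => by
      obtain ⟨x, y, z, h, rfl⟩ := hs
      have hx := (dicho hE (fun w hw => normalizes_Aa (hEH hw) (W_class (hEW hw)) x)
        (((Aa_le x).trans W_le).trans hnorm)).resolve_left (hno x)
      rw [commutator_comm, commutator_eq_bot_iff_le_centralizer] at hx
      exact hx (subset_closure ⟨x, y, z, h, Or.inl rfl, rfl⟩)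
    exact Cfsg.Agent.Lib.Components.qs_commutator_ne_bot hE
      (commutator_eq_bot_iff_le_centralizer.2 (hEW.trans hWc))
  obtain ⟨a, ha⟩ := hex
  let π := ofSubtype (p := (· ∈ cls H a))
  let A := alternatingGroup ↥(cls H a)
  let κ : ↥A ≃* ↥(Aa H a) := (A.equivMapOfInjective π ofSubtype_injective).trans
    (MulEquiv.subgroupCongr (map_alt a))
  have h5 : 5 ≤ Nat.card ↥(cls H a) := by
    by_contra h5
    haveI := isSolvable_alt_small (β := ↥(cls H a)) (by omega)
    haveI : Group.IsSolvable ↥(Aa H a) := Group.isSolvable_of_surjective (f := κ.toMonoidHom) κ.surjective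
    exact Cfsg.Agent.Lib.Components.qs_not_isSolvable hE
      (Group.isSolvable_of_isSolvable_injective (f := inclusion ha) (inclusion_injective _))
  haveI := alternatingGroup.isSimpleGroup (α := ↥(cls H a)) h5
  haveI : IsSimpleGroup ↥(Aa H a) := κ.symm.isSimpleGroup
  haveI hn' : (E.subgroupOf (Aa H a)).Normal :=
    normal_subgroupOf_of_le_normalizer (((Aa_le a).trans W_le).trans hnorm)
  have hEA : Aa H a = E := by
    refine le_antisymm ?_ ha
    rcases hn'.eq_bot_or_eq_top with h | h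
    · exact absurd (le_bot_iff.1 fun x hx => (subgroupOf_eq_bot.1 h) le_rfl ha hx)
        (Cfsg.Agent.Lib.Components.qs_ne_bot hE)
    · exact subgroupOf_eq_top.1 h
  have hall : ∀ x y z, R H x y z → Rel H a x := by
    intro x y z h
    by_contra hax
    have hc : cyc x y z ∈ E := by
      refine hcen _ h.2.2.2 ?_
      have hAc : E ≤ centralizer ({cyc x y z} : Set (Perm (Fin n))) := by
        rw [← hEA]
        refine (closure_le _).2 fun s hs => ?_
        obtain ⟨u, v, w, huvw, hu, rfl⟩ := hs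
        refine mem_centralizer_singleton_iff.2 ?_
        have hne : ∀ t, Rel H a t → cyc x y z t = t := by
          intro t ht
          by_contra hmv
          rcases cyc_moves hmv with rfl | rfl | rfl
          · exact hax ht
          · exact hax (ht.trans (Rel.symm (Or.inr ⟨z, h⟩)))
          · exact hax (ht.trans (Or.inr ⟨y, h.rot.rot⟩))
        have h1 : cyc x y z * cyc u v w * (cyc x y z)⁻¹ = cyc u v w := by
          rw [conj_cyc, hne u hu, hne v (hu.trans (Or.inr ⟨w, huvw⟩)),
            hne w ((hu.trans (Or.inr ⟨w, huvw⟩)).trans (Or.inr ⟨u, huvw.rot⟩))]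
        exact (mul_inv_eq_iff_eq_mul.1 h1).symm
      exact mem_centralizer_iff.2 fun e he => mem_centralizer_singleton_iff.1 (hAc he)
    rw [← hEA, ← map_alt] at hc
    obtain ⟨s, -, hs⟩ := hc
    have h1 : (ofSubtype s : Perm (Fin n)) x = x :=
      ofSubtype_apply_of_not_mem s (fun hm => hax (mem_cls.1 hm))
    rw [hs, cyc_fst h.1 h.2.2.1] at h1
    exact h.1 h1.symm
  refine ⟨a, h5, hall, fun t ht hfix => ?_, ⟨ι.trans ((MulEquiv.subgroupCongr hEA.symm).trans (κ.symm.trans
      (Equiv.altCongrHom ((Fintype.equivFinOfCardEq (Nat.card_eq_fintype_card.symm))))))⟩⟩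
  have htE : t ∈ Aa H a := by
    rw [hEA]
    refine hcen t ht ?_
    rw [← hEA]
    have hle : Aa H a ≤ centralizer ({t} : Set (Perm (Fin n))) := by
      refine (closure_le _).2 fun s hs => ?_
      obtain ⟨u, v, w, huvw, hu, rfl⟩ := hs
      have h1 : t * cyc u v w * t⁻¹ = cyc u v w := by
        rw [conj_cyc, hfix u hu, hfix v (hu.trans (Or.inr ⟨w, huvw⟩)),
          hfix w ((hu.trans (Or.inr ⟨w, huvw⟩)).trans (Or.inr ⟨u, huvw.rot⟩))]
      exact mem_centralizer_singleton_iff.2 (mul_inv_eq_iff_eq_mul.1 h1).symm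
    exact mem_centralizer_iff.2 fun e he => mem_centralizer_singleton_iff.1 (hle he)
  rw [← map_alt] at htE
  obtain ⟨s, -, rfl⟩ := htE
  ext x
  by_cases hx : x ∈ cls H a
  · simp [hfix x (mem_cls.1 hx)]
  · simp [ofSubtype_apply_of_not_mem s hx]

/-- Commuting double transpositions on a system of pairs in a Sylow `2`-subgroup. -/
theorem disjoint_pairs (n : ℕ) (P : Sylow 2 ↥(alternatingGroup (Fin n))) :
    ∃ f : Fin (n / 2) × Fin 2 ↪ Fin n, ∀ i j, i ≠ j →
      swap (f (i, 0)) (f (i, 1)) * swap (f (j, 0)) (f (j, 1)) ∈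
        (P : Subgroup ↥(alternatingGroup (Fin n))).map (alternatingGroup (Fin n)).subtype := by
  classical
  let e : Fin (n / 2) × Fin 2 ↪ Fin n :=
    finProdFinEquiv.toEmbedding.trans (Fin.castLEEmb (Nat.div_mul_le_self n 2))
  let ψ : (Fin (n / 2) → Perm (Fin 2)) →* Perm (Fin (n / 2) × Fin 2) :=
    { toFun := fun s => Equiv.prodCongrRight fun i => s i
      map_one' := by ext ⟨i, j⟩ <;> simp
      map_mul' := fun s t => by ext ⟨i, j⟩ <;> simp }
  have hp : IsPGroup 2 ↥(((viaEmbeddingHom e).comp ψ).range.subgroupOf (alternatingGroup (Fin n))) := by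
    have : IsPGroup 2 (Fin (n / 2) → Perm (Fin 2)) := by
      refine IsPGroup.of_card (n := n / 2) ?_
      rw [Nat.card_fun, Nat.card_fin, Nat.card_perm, Nat.card_fin]
      rfl
    exact (this.of_surjective _ (MonoidHom.rangeRestrict_surjective _)).comap_of_injective _
      (alternatingGroup (Fin n)).subtype_injective
  obtain ⟨Q, hQ⟩ := hp.exists_le_sylow
  obtain ⟨g, hg⟩ := MulAction.exists_smul_eq ↥(alternatingGroup (Fin n)) Q P
  refine ⟨e.trans (g : Perm (Fin n)).toEmbedding, fun i j hij => ?_⟩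
  have hkey : ∀ i, ((viaEmbeddingHom e).comp ψ) (Pi.mulSingle i (swap 0 1)) = swap (e (i, 0)) (e (i, 1)) := by
    intro i
    ext x
    congr 1
    show Perm.viaEmbedding (ψ _) e x = _
    by_cases hx : x ∈ Set.range e
    · obtain ⟨⟨k, b⟩, rfl⟩ := hx
      rw [viaEmbedding_apply]
      by_cases hk : k = i
      · subst hk
        have hv : ψ (Pi.mulSingle k (swap 0 1)) (k, b) = (k, swap (0 : Fin 2) 1 b) := by simp [ψ]
        rw [hv]
        obtain rfl | rfl : b = 0 ∨ b = 1 := by clear hv; revert b; decide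
        · simp
        · simp
      · have hv : ψ (Pi.mulSingle i (swap 0 1)) (k, b) = (k, b) := by simp [ψ, hk]
        rw [hv, swap_apply_of_ne_of_ne (fun h => hk (congrArg Prod.fst (e.injective h)))
          (fun h => hk (congrArg Prod.fst (e.injective h)))]
    · rw [viaEmbedding_apply_of_notMem _ _ _ hx]
      exact (swap_apply_of_ne_of_ne (fun h => hx ⟨_, h.symm⟩) fun h => hx ⟨_, h.symm⟩).symm
  have hmem : swap (e (i, 0)) (e (i, 1)) * swap (e (j, 0)) (e (j, 1)) ∈ alternatingGroup (Fin n) := by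
    rw [mem_alternatingGroup, Perm.sign_mul, sign_swap, sign_swap]
    · rfl
    · exact e.injective.ne (by simp)
    · exact e.injective.ne (by simp)
  have hQ' : (⟨_, hmem⟩ : ↥(alternatingGroup (Fin n))) ∈ (Q : Subgroup ↥(alternatingGroup (Fin n))) :=
    hQ (by
      rw [mem_subgroupOf]
      show swap (e (i, 0)) (e (i, 1)) * swap (e (j, 0)) (e (j, 1)) ∈ _
      rw [← hkey, ← hkey, ← map_mul]
      exact ⟨_, rfl⟩)
  refine ⟨g * ⟨_, hmem⟩ * g⁻¹, ?_, ?_⟩
  · rw [← hg, Sylow.coe_subgroup_smul, SetLike.mem_coe, mem_pointwise_smul_iff_inv_smul_mem]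
    simpa [MulAut.conj_apply, mul_assoc] using hQ'
  · show (g : Perm (Fin n)) * _ * (g : Perm (Fin n))⁻¹ = _
    simp only [Function.Embedding.trans_apply, Equiv.coe_toEmbedding]
    rw [swap_apply_apply, swap_apply_apply]
    group

/-- A double transposition of `H`. -/
structure DT {n : ℕ} (H : Subgroup (Perm (Fin n))) (a b c d : Fin n) : Prop where
  hab : a ≠ b
  hac : a ≠ c
  had : a ≠ d
  hbc : b ≠ c
  hbd : b ≠ d
  hcd : c ≠ d
  mem : swap a b * swap c d ∈ H

set_option maxHeartbeats 1600000 in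
theorem no_cyc_false {n : ℕ} (hn : 8 ≤ n) (H : Subgroup (Perm (Fin n)))
    (hF : Cfsg.IsQuasisimple ↥(Cfsg.generalizedFittingSubgroup ↥H))
    (p : Fin (n / 2) × Fin 2 ↪ Fin n)
    (hp : ∀ i j, i ≠ j → swap (p (i, 0)) (p (i, 1)) * swap (p (j, 0)) (p (j, 1)) ∈ H)
    (hno : ∀ x y z, ¬ R H x y z) : False := by
  classical
  let E : Subgroup (Perm (Fin n)) := (Cfsg.generalizedFittingSubgroup ↥H).map H.subtype
  let ι := (Cfsg.generalizedFittingSubgroup ↥H).equivMapOfInjective H.subtype H.subtype_injective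
  have hE : Cfsg.IsQuasisimple ↥E := (Cfsg.Agent.Lib.Components.qs_congr ι).1 hF
  have hperf := Cfsg.Agent.Lib.Components.isQuasisimple_perfect hE
  have hEH : E ≤ H := map_subtype_le _
  have hnorm : H ≤ normalizer (E : Set (Perm (Fin n))) := fun h hh => by
    refine mem_normalizer_fintype fun x hx => ?_
    obtain ⟨y, hy, rfl⟩ := hx
    exact ⟨⟨h, hh⟩ * y * ⟨h, hh⟩⁻¹, Subgroup.Normal.conj_mem inferInstance _ hy _, rfl⟩
  have hcen : ∀ x ∈ H, x ∈ centralizer (E : Set (Perm (Fin n))) → x ∈ E := fun x hx hc => by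
    refine ⟨⟨x, hx⟩, Cfsg.Agent.Lib.Components.centralizer_gfs_le (mem_centralizer_iff.2 ?_), rfl⟩
    exact fun y hy => Subtype.ext (mem_centralizer_iff.1 hc _ ⟨y, hy, rfl⟩)
  let F : Set (Finset (Fin n)) := {Q | ∃ a b c d, DT H a b c d ∧ Q = {a, b, c, d}}
  have hpne : ∀ (i j : Fin (n / 2)) (b c : Fin 2), i ≠ j → p (i, b) ≠ p (j, c) := fun i j b c h =>
    p.injective.ne (fun e => h (congrArg Prod.fst e))
  have hp01 : ∀ i, p (i, 0) ≠ p (i, 1) := fun i => p.injective.ne (by simp)
  have hfin2 : ∀ b : Fin 2, b = 0 ∨ b = 1 := by decide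
  have hQij : ∀ i j, i ≠ j → ({p (i, 0), p (i, 1), p (j, 0), p (j, 1)} : Finset (Fin n)) ∈ F := fun i j h =>
    ⟨_, _, _, _, ⟨hp01 i, hpne _ _ _ _ h, hpne _ _ _ _ h, hpne _ _ _ _ h, hpne _ _ _ _ h, hp01 j, hp i j h⟩, rfl⟩
  have hFconj : ∀ h ∈ H, ∀ Q ∈ F, Q.image h ∈ F := by
    rintro h hh Q ⟨a, b, c, d, D, rfl⟩
    refine ⟨h a, h b, h c, h d, ⟨h.injective.ne D.hab, h.injective.ne D.hac, h.injective.ne D.had,
      h.injective.ne D.hbc, h.injective.ne D.hbd, h.injective.ne D.hcd, ?_⟩, by simp [Finset.image_insert]⟩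
    have : swap (h a) (h b) * swap (h c) (h d) = h * (swap a b * swap c d) * h⁻¹ := by
      rw [swap_apply_apply, swap_apply_apply]; group
    rw [this]
    exact mul_mem (mul_mem hh D.mem) (inv_mem hh)
  have hfirst : ∀ Q ∈ F, ∀ x ∈ Q, ∃ b c d, DT H x b c d ∧ Q = {x, b, c, d} := by
    rintro Q ⟨a, b, c, d, D, rfl⟩ x hx
    have hm : swap c d * swap a b ∈ H := by
      have e : swap c d * swap a b = (swap a b * swap c d)⁻¹ := by rw [mul_inv_rev, swap_inv, swap_inv]
      rw [e]; exact inv_mem D.mem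
    simp only [Finset.mem_insert, Finset.mem_singleton] at hx
    rcases hx with rfl | rfl | rfl | rfl
    · exact ⟨b, c, d, D, rfl⟩
    · exact ⟨a, c, d, ⟨D.hab.symm, D.hbc, D.hbd, D.hac, D.had, D.hcd, by rw [swap_comm]; exact D.mem⟩,
        by ext u; simp only [Finset.mem_insert, Finset.mem_singleton]; tauto⟩
    · exact ⟨d, a, b, ⟨D.hcd, D.hac.symm, D.hbc.symm, D.had.symm, D.hbd.symm, D.hab, hm⟩,
        by ext u; simp only [Finset.mem_insert, Finset.mem_singleton]; tauto⟩
    · exact ⟨c, a, b, ⟨D.hcd.symm, D.had.symm, D.hbd.symm, D.hac.symm, D.hbc.symm, D.hab, by rw [swap_comm x c]; exact hm⟩,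
        by ext u; simp only [Finset.mem_insert, Finset.mem_singleton]; tauto⟩
  have hone : ∀ Q ∈ F, ∀ Q' ∈ F, ∀ x, Q ∩ Q' ≠ {x} := by
    intro Q hQ Q' hQ' x hx
    have hxm := Finset.eq_singleton_iff_unique_mem.1 hx
    obtain ⟨b, c, d, D, rfl⟩ := hfirst Q hQ x (Finset.mem_inter.1 hxm.1).1
    obtain ⟨e, f, g, D', rfl⟩ := hfirst Q' hQ' x (Finset.mem_inter.1 hxm.1).2
    have hne : ∀ u ∈ ({b, c, d} : Finset (Fin n)), u ≠ e ∧ u ≠ f ∧ u ≠ g := by
      intro u hu
      have hux : u ≠ x := by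
        simp only [Finset.mem_insert, Finset.mem_singleton] at hu
        rcases hu with rfl | rfl | rfl
        exacts [D.hab.symm, D.hac.symm, D.had.symm]
      refine ⟨fun h => hux (hxm.2 u ?_), fun h => hux (hxm.2 u ?_), fun h => hux (hxm.2 u ?_)⟩ <;>
        (refine Finset.mem_inter.2 ⟨Finset.mem_insert_of_mem hu, ?_⟩; subst h; simp)
    obtain ⟨hbe, hbf, hbg⟩ := hne b (by simp)
    obtain ⟨hce, hcf, hcg⟩ := hne c (by simp)
    obtain ⟨hde, hdf, hdg⟩ := hne d (by simp)
    refine hno x b e ⟨D.hab, hbe, D'.hab, ?_⟩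
    have e1 : ((swap x b * swap c d) * (swap x e * swap f g)) * ((swap x b * swap c d) * (swap x e * swap f g))
        = cyc x b e := by
      have c1 : Commute (swap c d) (swap x e) :=
        (Perm.Disjoint.commute (fun u => by
          by_cases h1 : u = c
          · subst h1; exact Or.inr (swap_apply_of_ne_of_ne D.hac.symm hce)
          by_cases h2 : u = d
          · subst h2; exact Or.inr (swap_apply_of_ne_of_ne D.had.symm hde)
          exact Or.inl (swap_apply_of_ne_of_ne h1 h2)))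
      have c2 : Commute (swap c d) (swap f g) :=
        (Perm.Disjoint.commute (fun u => by
          by_cases h1 : u = c
          · subst h1; exact Or.inr (swap_apply_of_ne_of_ne hcf hcg)
          by_cases h2 : u = d
          · subst h2; exact Or.inr (swap_apply_of_ne_of_ne hdf hdg)
          exact Or.inl (swap_apply_of_ne_of_ne h1 h2)))
      have c3 : Commute (swap f g) (swap x b) :=
        (Perm.Disjoint.commute (fun u => by
          by_cases h1 : u = x
          · subst h1; exact Or.inl (swap_apply_of_ne_of_ne D'.hac D'.had)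
          by_cases h2 : u = b
          · subst h2; exact Or.inl (swap_apply_of_ne_of_ne hbf hbg)
          exact Or.inr (swap_apply_of_ne_of_ne h1 h2)))
      have c4 : Commute (swap f g) (swap x e) :=
        (Perm.Disjoint.commute (fun u => by
          by_cases h1 : u = x
          · subst h1; exact Or.inl (swap_apply_of_ne_of_ne D'.hac D'.had)
          by_cases h2 : u = e
          · subst h2; exact Or.inl (swap_apply_of_ne_of_ne D'.hbc D'.hbd)
          exact Or.inr (swap_apply_of_ne_of_ne h1 h2)))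
      have c5 : Commute (swap c d) (swap x b) :=
        (Perm.Disjoint.commute (fun u => by
          by_cases h1 : u = c
          · subst h1; exact Or.inr (swap_apply_of_ne_of_ne D.hac.symm D.hbc.symm)
          by_cases h2 : u = d
          · subst h2; exact Or.inr (swap_apply_of_ne_of_ne D.had.symm D.hbd.symm)
          exact Or.inl (swap_apply_of_ne_of_ne h1 h2)))
      have hsplit : (swap x b * swap c d) * (swap x e * swap f g) = (swap x b * swap x e) * (swap c d * swap f g) :=
        c1.mul_mul_mul_comm _ _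
      have hcomm : Commute (swap c d * swap f g) (swap x b * swap x e) :=
        (c5.mul_right c1).mul_left (c3.mul_right c4)
      rw [hsplit, hcomm.mul_mul_mul_comm, c2.symm.mul_mul_mul_comm, swap_mul_self, swap_mul_self, one_mul, mul_one]
      ext u
      congr 1
      simp only [cyc, Perm.mul_apply]
      by_cases h1 : u = x
      · subst h1
        simp [swap_apply_of_ne_of_ne, D.hab, D'.hab, hbe, D.hab.symm, D'.hab.symm, hbe.symm]
      by_cases h2 : u = b
      · subst h2
        simp [swap_apply_of_ne_of_ne, D.hab, D'.hab, hbe, D.hab.symm, D'.hab.symm, hbe.symm]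
      by_cases h3 : u = e
      · subst h3
        simp [swap_apply_of_ne_of_ne, D.hab, D'.hab, hbe, D.hab.symm, D'.hab.symm, hbe.symm]
      simp [swap_apply_of_ne_of_ne, h1, h2, h3]
    rw [← e1]
    exact mul_mem (mul_mem D.mem D'.mem) (mul_mem D.mem D'.mem)
  -- each support is a union of two pairs or meets four pairs once
  let U : Finset (Fin n) := Finset.univ.map p
  have hUc : (Finset.univ \ U).card ≤ 1 := by
    rw [Finset.card_sdiff_of_subset (Finset.subset_univ _)]
    simp [U]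
    omega
  have hshape : ∀ Q ∈ F, Q ⊆ U ∧ ((∀ i, p (i, 0) ∈ Q ↔ p (i, 1) ∈ Q) ∨
      (n / 2 = 4 ∧ ∀ i, p (i, 0) ∈ Q ↔ p (i, 1) ∉ Q)) := by
    intro Q hQ
    have hQc : Q.card = 4 := by
      obtain ⟨a, b, c, d, D, rfl⟩ := hQ
      simp [D.hab, D.hac, D.had, D.hbc, D.hbd, D.hcd]
    by_cases hA : ∀ i, p (i, 0) ∈ Q ↔ p (i, 1) ∈ Q
    · refine ⟨?_, Or.inl hA⟩
      let S : Finset (Fin (n / 2)) := Finset.univ.filter fun i => p (i, 0) ∈ Q
      have hQU : Q ∩ U = (S ×ˢ (Finset.univ : Finset (Fin 2))).map p := by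
        ext u
        simp only [U, S, Finset.mem_inter, Finset.mem_map, Finset.mem_univ, true_and, Finset.mem_product, and_true,
          Finset.mem_filter]
        constructor
        · rintro ⟨hu, ⟨i, b⟩, rfl⟩
          refine ⟨(i, b), ?_, rfl⟩
          rcases hfin2 b with rfl | rfl
          exacts [hu, (hA i).2 hu]
        · rintro ⟨⟨i, b⟩, hi, rfl⟩
          refine ⟨?_, ⟨_, rfl⟩⟩
          rcases hfin2 b with rfl | rfl
          exacts [hi, (hA i).1 hi]
      have h1 : (Q ∩ U).card = S.card * 2 := by rw [hQU, Finset.card_map, Finset.card_product]; rfl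
      have h2 := Finset.card_inter_add_card_sdiff Q U
      have h3 : (Q \ U).card ≤ 1 := (Finset.card_le_card (Finset.sdiff_subset_sdiff (Finset.subset_univ _) le_rfl)).trans hUc
      exact Finset.sdiff_eq_empty_iff_subset.1 (Finset.card_eq_zero.1 (by omega))
    · push Not at hA
      obtain ⟨j, hj⟩ := hA
      have hall : ∀ i, ∃ b, p (i, b) ∈ Q := by
        intro i
        by_contra hi
        push Not at hi
        have hij : i ≠ j := by
          rintro rfl
          rcases hj with ⟨h, -⟩ | ⟨-, h⟩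
          exacts [hi 0 h, hi 1 h]
        rcases hj with ⟨h0, h1⟩ | ⟨h0, h1⟩
        · refine hone _ hQ _ (hQij i j hij) (p (j, 0)) ?_
          ext u; simp only [Finset.mem_inter, Finset.mem_insert, Finset.mem_singleton]
          constructor
          · rintro ⟨hu, rfl | rfl | rfl | rfl⟩
            exacts [absurd hu (hi 0), absurd hu (hi 1), rfl, absurd hu h1]
          · rintro rfl; exact ⟨h0, by tauto⟩
        · refine hone _ hQ _ (hQij i j hij) (p (j, 1)) ?_
          ext u; simp only [Finset.mem_inter, Finset.mem_insert, Finset.mem_singleton]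
          constructor
          · rintro ⟨hu, rfl | rfl | rfl | rfl⟩
            exacts [absurd hu (hi 0), absurd hu (hi 1), absurd hu h0, rfl]
          · rintro rfl; exact ⟨h1, by tauto⟩
      choose b hb using hall
      let c : Fin (n / 2) ↪ Fin n := ⟨fun i => p (i, b i), fun i k h => congrArg Prod.fst (p.injective h)⟩
      have hcQ : Finset.univ.map c ⊆ Q := fun u hu => by
        obtain ⟨i, -, rfl⟩ := Finset.mem_map.1 hu
        exact hb i
      have h1 := Finset.card_le_card hcQ
      rw [Finset.card_map, Finset.card_univ, Fintype.card_fin] at h1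
      have heq : Finset.univ.map c = Q := Finset.eq_of_subset_of_card_le hcQ (by
        rw [Finset.card_map, Finset.card_univ, Fintype.card_fin]; omega)
      refine ⟨fun u hu => ?_, Or.inr ⟨by omega, fun i => ?_⟩⟩
      · rw [← heq] at hu
        obtain ⟨i, -, rfl⟩ := Finset.mem_map.1 hu
        exact Finset.mem_map.2 ⟨_, Finset.mem_univ _, rfl⟩
      · have hmemQ : ∀ k d, p (k, d) ∈ Q ↔ b k = d := fun k d => by
          constructor
          · intro h
            rw [← heq] at h
            obtain ⟨i', -, hi'⟩ := Finset.mem_map.1 h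
            have := p.injective hi'
            simp only [Prod.mk.injEq] at this
            exact this.1 ▸ this.2
          · rintro rfl; exact hb k
        rw [hmemQ, hmemQ]
        revert hfin2
        generalize b i = v
        revert v; decide
  have hHU : ∀ h ∈ H, ∀ u, u ∈ U → h u ∈ U := by
    intro h hh u hu
    obtain ⟨⟨i, b⟩, -, rfl⟩ := Finset.mem_map.1 hu
    haveI : Nontrivial (Fin (n / 2)) := Fin.nontrivial_iff_two_le.2 (by omega)
    obtain ⟨j, hji⟩ := exists_ne i
    refine (hshape _ (hFconj h hh _ (hQij i j hji.symm))).1 (Finset.mem_image_of_mem _ ?_)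
    rcases hfin2 b with rfl | rfl <;> simp
  have hout : ∀ h ∈ H, ∀ u, u ∉ U → h u = u := by
    intro h hh u hu
    have h1 : h u ∉ U := fun h' => hu (by simpa using hHU _ (inv_mem hh) _ h')
    exact Finset.card_le_one.1 hUc _ (by simpa using h1) _ (by simpa using hu)
  -- elements stabilizing every pair are involutions
  have hsq : ∀ h ∈ H, (∀ i b, h (p (i, b)) = p (i, 0) ∨ h (p (i, b)) = p (i, 1)) → h * h = 1 := by
    intro h hh hpres
    ext u
    congr 1
    by_cases hu : u ∈ U
    · obtain ⟨⟨i, b⟩, -, rfl⟩ := Finset.mem_map.1 hu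
      show h (h (p (i, b))) = p (i, b)
      have k1 := hpres i 0; have k2 := hpres i 1
      have k3 : h (p (i, 0)) ≠ h (p (i, 1)) := h.injective.ne (hp01 i)
      rcases hfin2 b with rfl | rfl <;> rcases k1 with k1 | k1 <;> rcases k2 with k2 | k2 <;> simp_all
    · show h (h u) = u
      rw [hout h hh u hu, hout h hh u hu]
  have hab : ∀ (K : Subgroup (Perm (Fin n))), (∀ k ∈ K, k * k = 1) → ∀ a ∈ K, ∀ b ∈ K, a * b = b * a := by
    intro K hK a ha b hb
    have hi : ∀ k ∈ K, k⁻¹ = k := fun k hk => inv_eq_of_mul_eq_one_right (hK k hk)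
    calc a * b = (a * b)⁻¹ := (hi _ (mul_mem ha hb)).symm
      _ = b * a := by rw [mul_inv_rev, hi a ha, hi b hb]
  have hcommN : ∀ N : Subgroup (Perm (Fin n)), N ≤ H → H ≤ normalizer (N : Set (Perm (Fin n))) →
      (∀ a ∈ N, ∀ b ∈ N, a * b = b * a) → ∀ e ∈ E, ∀ t ∈ N, ∀ u, t (e u) = e (t u) := by
    intro N hNH hN hc e he t ht u
    have h1 : ⁅E, N⁆ = ⊥ := (dicho hE (hEH.trans hN) (hNH.trans hnorm)).resolve_left fun h =>
      Cfsg.Agent.Lib.Components.qs_commutator_ne_bot hE (le_bot_iff.1 (commutator_le.2 fun a ha b hb => by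
        rw [mem_bot, commutatorElement_eq_one_iff_mul_comm]; exact hc a (h ha) b (h hb)))
    have h2 := mem_centralizer_iff.1 (commutator_eq_bot_iff_le_centralizer.1 h1 he) t ht
    exact congrArg (fun s : Perm (Fin n) => s u) h2
  have hpres_of : ∀ h : Perm (Fin n), (∀ i j, i ≠ j → ∀ b, h (p (i, b)) ∈ ({p (i, 0), p (i, 1), p (j, 0), p (j, 1)} : Finset (Fin n))) →
      ∀ i b, h (p (i, b)) = p (i, 0) ∨ h (p (i, b)) = p (i, 1) := by
    intro h hh i b
    obtain ⟨j, hj, k, hk, hjk⟩ : ∃ j, j ≠ i ∧ ∃ k, k ≠ i ∧ j ≠ k := by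
      have h3 : 1 < (Finset.univ.erase i).card := by simp; omega
      obtain ⟨j, hj, k, hk, hjk⟩ := Finset.one_lt_card.1 h3
      exact ⟨j, (Finset.mem_erase.1 hj).1, k, (Finset.mem_erase.1 hk).1, hjk⟩
    have h1 := hh i j hj.symm b
    have h2 := hh i k hk.symm b
    simp only [Finset.mem_insert, Finset.mem_singleton] at h1 h2
    rcases h1 with h1 | h1 | h1 | h1
    · exact Or.inl h1
    · exact Or.inr h1
    all_goals
      rw [h1] at h2
      simp [hpne _ _ _ _ hj, hpne _ _ _ _ hjk] at h2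
  by_cases hA : ∃ Q ∈ F, ¬ ∀ i, p (i, 0) ∈ Q ↔ p (i, 1) ∈ Q
  · -- four pairs, with a support meeting each pair once
    obtain ⟨Q₀, hQ₀, hQ₀'⟩ := hA
    obtain ⟨hl, hcross⟩ := (hshape Q₀ hQ₀).2.resolve_left hQ₀'
    let N : Subgroup (Perm (Fin n)) :=
      { carrier := {h | h ∈ H ∧ ∀ Q ∈ F, (∀ u ∈ U, h u ∈ Q ↔ u ∈ Q) ∨ ∀ u ∈ U, h u ∈ Q ↔ u ∉ Q}
        one_mem' := ⟨one_mem _, fun Q _ => Or.inl fun u _ => Iff.rfl⟩
        mul_mem' := fun {a b} ha hb => ⟨mul_mem ha.1 hb.1, fun Q hQ => by
          rcases ha.2 Q hQ with h1 | h1 <;> rcases hb.2 Q hQ with h2 | h2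
          · exact Or.inl fun u hu => (h1 _ (hHU b hb.1 u hu)).trans (h2 u hu)
          · exact Or.inr fun u hu => (h1 _ (hHU b hb.1 u hu)).trans (h2 u hu)
          · exact Or.inr fun u hu => (h1 _ (hHU b hb.1 u hu)).trans (not_congr (h2 u hu))
          · exact Or.inl fun u hu => (h1 _ (hHU b hb.1 u hu)).trans ((not_congr (h2 u hu)).trans not_not)⟩
        inv_mem' := fun {a} ha => ⟨inv_mem ha.1, fun Q hQ => by
          rcases ha.2 Q hQ with h1 | h1
          · exact Or.inl fun u hu => by simpa using (h1 _ (hHU _ (inv_mem ha.1) u hu)).symm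
          · refine Or.inr fun u hu => ?_
            have := h1 _ (hHU _ (inv_mem ha.1) u hu)
            simp only [Perm.coe_inv, Equiv.apply_symm_apply] at this ⊢
            tauto⟩ }
    have hNn : H ≤ normalizer (N : Set (Perm (Fin n))) := fun h hh => by
      refine mem_normalizer_fintype fun k hk => ⟨mul_mem (mul_mem hh hk.1) (inv_mem hh), fun Q hQ => ?_⟩
      have hiff : ∀ w, h w ∈ Q ↔ w ∈ Q.image ⇑(h⁻¹) := fun w => by
        simp [Finset.mem_image, Equiv.symm_apply_eq]
      rcases hk.2 _ (hFconj _ (inv_mem hh) Q hQ) with h1 | h1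
      · refine Or.inl fun u hu => ?_
        have := ((hiff _).trans (h1 _ (hHU _ (inv_mem hh) u hu))).trans (hiff _).symm
        simpa using this
      · refine Or.inr fun u hu => ?_
        have := ((hiff _).trans (h1 _ (hHU _ (inv_mem hh) u hu))).trans (not_congr (hiff _).symm)
        simpa using this
    have hNc : ∀ a ∈ N, ∀ b ∈ N, a * b = b * a := by
      intro a ha b hb
      have hfix : ∀ Q ∈ F, ∀ u ∈ U, (a * b * a⁻¹ * b⁻¹) u ∈ Q ↔ u ∈ Q := by
        intro Q hQ u hu
        have m1 := hHU _ (inv_mem hb.1) u hu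
        have m2 := hHU _ (inv_mem ha.1) _ m1
        have m3 := hHU _ hb.1 _ m2
        rcases ha.2 Q hQ with hha | hha <;> rcases hb.2 Q hQ with hhb | hhb <;>
        · have e1 := hha _ m3
          have e2 := hhb _ m2
          have e3 := hha _ m2
          have e4 := hhb _ m1
          simp only [Perm.mul_apply, Perm.coe_inv, Equiv.apply_symm_apply] at e1 e2 e3 e4 ⊢
          rw [e1, e2, e4, ← not_iff_not]
          try rw [e3]
          try simp only [not_not]
      apply commutatorElement_eq_one_iff_mul_comm.1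
      show a * b * a⁻¹ * b⁻¹ = 1
      set c := a * b * a⁻¹ * b⁻¹ with hc
      have hcH : c ∈ H := mul_mem (mul_mem (mul_mem ha.1 hb.1) (inv_mem ha.1)) (inv_mem hb.1)
      have hp' := hpres_of c fun i j hij b' => by
        refine (hfix _ (hQij i j hij) _ (Finset.mem_map.2 ⟨(i, b'), Finset.mem_univ _, rfl⟩)).2 ?_
        rcases hfin2 b' with rfl | rfl <;> simp
      ext u
      congr 1
      show c u = u
      by_cases hu : u ∈ U
      · have h4 := hfix Q₀ hQ₀ u hu
        obtain ⟨⟨i, b'⟩, -, rfl⟩ := Finset.mem_map.1 hu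
        have := hcross i
        rcases hfin2 b' with rfl | rfl <;> rcases hp' i _ with h5 | h5
        all_goals first
          | exact h5
          | (rw [h5] at h4; tauto)
      · exact hout c hcH u hu
    -- the product of the four transpositions
    obtain ⟨z, hz, hzU⟩ : ∃ z ∈ H, ∀ i, z (p (i, 0)) = p (i, 1) ∧ z (p (i, 1)) = p (i, 0) := by
      let i₀ : Fin (n / 2) := ⟨0, by omega⟩
      let i₁ : Fin (n / 2) := ⟨1, by omega⟩
      let i₂ : Fin (n / 2) := ⟨2, by omega⟩
      let i₃ : Fin (n / 2) := ⟨3, by omega⟩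
      have n01 : i₀ ≠ i₁ := by simp [i₀, i₁]
      have n23 : i₂ ≠ i₃ := by simp [i₂, i₃]
      refine ⟨_, mul_mem (hp i₀ i₁ n01) (hp i₂ i₃ n23), fun i => ?_⟩
      have hi : i = i₀ ∨ i = i₁ ∨ i = i₂ ∨ i = i₃ := by
        have := i.isLt
        simp only [Fin.ext_iff, i₀, i₁, i₂, i₃]; omega
      rcases hi with rfl | rfl | rfl | rfl <;>
        simp [swap_apply_of_ne_of_ne, p.injective.eq_iff, i₀, i₁, i₂, i₃, Fin.ext_iff]
    have hzN : z ∈ N := ⟨hz, fun Q hQ => by
      rcases (hshape Q hQ).2 with h1 | ⟨-, h1⟩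
      · refine Or.inl fun u hu => ?_
        obtain ⟨⟨i, b⟩, -, rfl⟩ := Finset.mem_map.1 hu
        rcases hfin2 b with rfl | rfl
        · rw [(hzU i).1]; exact (h1 i).symm
        · rw [(hzU i).2]; exact h1 i
      · refine Or.inr fun u hu => ?_
        obtain ⟨⟨i, b⟩, -, rfl⟩ := Finset.mem_map.1 hu
        rcases hfin2 b with rfl | rfl
        · rw [(hzU i).1]; have := h1 i; tauto
        · rw [(hzU i).2]; exact h1 i⟩
    have hez := hcommN N (fun h hh => hh.1) hNn hNc
    have hidx : ∀ (e : ↥E) i, ∃ k, ∀ b, (e : Perm (Fin n)) (p (i, b)) = p (k, 0) ∨ (e : Perm (Fin n)) (p (i, b)) = p (k, 1) := by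
      intro e i
      obtain ⟨⟨k, c⟩, -, hk⟩ := Finset.mem_map.1 (hHU _ (hEH e.2) _ (Finset.mem_map.2 ⟨(i, 0), Finset.mem_univ _, rfl⟩))
      have h2 := hez e e.2 z hzN (p (i, 0))
      rw [(hzU i).1, ← hk] at h2
      refine ⟨k, fun b => ?_⟩
      rcases hfin2 b with rfl | rfl <;> rcases hfin2 c with rfl | rfl
      · exact Or.inl hk.symm
      · exact Or.inr hk.symm
      · rw [(hzU k).1] at h2; exact Or.inr h2.symm
      · rw [(hzU k).2] at h2; exact Or.inl h2.symm
    choose π hπ using hidx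
    have huniq : ∀ (i k k' : Fin (n / 2)) (u : Fin n), (u = p (k, 0) ∨ u = p (k, 1)) → (u = p (k', 0) ∨ u = p (k', 1)) → k = k' := by
      intro i k k' u h h'
      rcases h with h | h <;> rcases h' with h' | h' <;> exact congrArg Prod.fst (p.injective (h.symm.trans h'))
    have hπ1 : ∀ i, π 1 i = i := fun i => huniq i _ _ _ (hπ 1 i 0) (Or.inl rfl)
    have hπm : ∀ e e' i, π (e * e') i = π e (π e' i) := fun e e' i => by
      refine huniq i _ _ _ (hπ (e * e') i 0) ?_
      show (e : Perm (Fin n)) ((e' : Perm (Fin n)) (p (i, 0))) = _ ∨ (e : Perm (Fin n)) ((e' : Perm (Fin n)) (p (i, 0))) = _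
      rcases hπ e' i 0 with h | h <;> rw [h]
      · exact hπ e _ 0
      · exact hπ e _ 1
    let φ : ↥E →* Perm (Fin (n / 2)) := MonoidHom.mk'
      (fun e => ⟨π e, π e⁻¹, fun i => by rw [← hπm, inv_mul_cancel, hπ1], fun i => by rw [← hπm, mul_inv_cancel, hπ1]⟩)
      (fun e e' => Equiv.ext fun i => hπm e e' i)
    haveI : Group.IsSolvable φ.ker := Group.isSolvable_of_comm fun a b => by
      have hk : ∀ k : φ.ker, ∀ i b, ((k : ↥E) : Perm (Fin n)) (p (i, b)) = p (i, 0) ∨ ((k : ↥E) : Perm (Fin n)) (p (i, b)) = p (i, 1) := fun k i b => by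
        have h1 : π (k : ↥E) i = i := congrArg (fun s : Perm (Fin (n / 2)) => s i) (MonoidHom.mem_ker.1 k.2)
        have := hπ (k : ↥E) i b
        rwa [h1] at this
      have h2 : ∀ k : φ.ker, k * k = 1 := fun k => Subtype.ext (Subtype.ext (hsq _ (hEH (k : ↥E).2) (hk k)))
      calc a * b = (a * b)⁻¹ := (inv_eq_of_mul_eq_one_right (h2 _)).symm
        _ = b * a := by rw [mul_inv_rev, inv_eq_of_mul_eq_one_right (h2 a), inv_eq_of_mul_eq_one_right (h2 b)]
    haveI : Group.IsSolvable (Perm (Fin (n / 2))) := by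
      haveI := isSolvable_alt_small (β := Fin (n / 2)) (by simp; omega)
      exact Group.isSolvable_of_ker_le_range (alternatingGroup (Fin (n / 2))).subtype Perm.sign
        (by rw [range_subtype]; rfl)
    exact Cfsg.Agent.Lib.Components.qs_not_isSolvable hE
      (Group.isSolvable_of_ker_le_range φ.ker.subtype φ (by rw [range_subtype]))
  · -- the pairs form a system preserved by `H`
    push Not at hA
    let N : Subgroup (Perm (Fin n)) :=
      { carrier := {h | h ∈ H ∧ ∀ Q ∈ F, ∀ u, h u ∈ Q ↔ u ∈ Q}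
        one_mem' := ⟨one_mem _, fun Q _ u => Iff.rfl⟩
        mul_mem' := fun {a b} ha hb => ⟨mul_mem ha.1 hb.1, fun Q hQ u => (ha.2 Q hQ _).trans (hb.2 Q hQ u)⟩
        inv_mem' := fun {a} ha => ⟨inv_mem ha.1, fun Q hQ u => by simpa using (ha.2 Q hQ (a⁻¹ u)).symm⟩ }
    have hNn : H ≤ normalizer (N : Set (Perm (Fin n))) := fun h hh => by
      refine mem_normalizer_fintype fun k hk => ⟨mul_mem (mul_mem hh hk.1) (inv_mem hh), fun Q hQ u => ?_⟩
      have hiff : ∀ w, h w ∈ Q ↔ w ∈ Q.image ⇑(h⁻¹) := fun w => by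
        simp [Finset.mem_image, Equiv.symm_apply_eq]
      have := ((hiff _).trans (hk.2 _ (hFconj _ (inv_mem hh) Q hQ) ((h⁻¹ : Perm (Fin n)) u))).trans (hiff _).symm
      simpa using this
    have hNpres : ∀ h ∈ N, ∀ i b, h (p (i, b)) = p (i, 0) ∨ h (p (i, b)) = p (i, 1) := fun h hh =>
      hpres_of h fun i j hij b => by
        refine (hh.2 _ (hQij i j hij) _).2 ?_
        rcases hfin2 b with rfl | rfl <;> simp
    have hez := hcommN N (fun h hh => hh.1) hNn (hab N fun h hh => hsq h hh.1 (hNpres h hh))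
    have htN : ∀ i j, i ≠ j → swap (p (i, 0)) (p (i, 1)) * swap (p (j, 0)) (p (j, 1)) ∈ N := fun i j hij =>
      ⟨hp i j hij, fun Q hQ u => by
        have hsw : ∀ k u, swap (p (k, 0)) (p (k, 1)) u ∈ Q ↔ u ∈ Q := by
          intro k u
          rcases eq_or_ne u (p (k, 0)) with rfl | h1
          · rw [swap_apply_left]; exact (hA Q hQ k).symm
          rcases eq_or_ne u (p (k, 1)) with rfl | h2
          · rw [swap_apply_right]; exact hA Q hQ k
          rw [swap_apply_of_ne_of_ne h1 h2]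
        exact (hsw i _).trans (hsw j u)⟩
    have hE2 : ∀ e ∈ E, e * e = 1 := fun e he => hsq e (hEH he) (hpres_of e fun i j hij b => by
      have h1 := hez e he _ (htN i j hij) (p (i, b))
      simp only [Finset.mem_insert, Finset.mem_singleton]
      by_contra hn'
      push Not at hn'
      rw [Perm.mul_apply, Perm.mul_apply, swap_apply_of_ne_of_ne hn'.2.2.1 hn'.2.2.2,
        swap_apply_of_ne_of_ne hn'.1 hn'.2.1, e.injective.eq_iff,
        swap_apply_of_ne_of_ne (hpne _ _ _ _ hij) (hpne _ _ _ _ hij)] at h1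
      rcases hfin2 b with rfl | rfl <;> simp [hp01 i, (hp01 i).symm] at h1)
    refine Cfsg.Agent.Lib.Components.qs_commutator_ne_bot hE (le_bot_iff.1 (commutator_le.2 fun a ha b hb => ?_))
    rw [mem_bot, commutatorElement_eq_one_iff_mul_comm]
    exact hab E hE2 a ha b hb

/-- Let n ≥ 8 and let H be a subgroup of the symmetric group of degree n whose generalized Fitting subgroup F*(H) is quasisimple. If H contains a Sylow 2-subgroup of the alternating group of degree n, then F*(H) is isomorphic to an alternating group of degree m for some m ∈ {n − 3, n − 2, n − 1, n}. -/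
theorem result (n : ℕ) (hn : 8 ≤ n) (H : Subgroup (Equiv.Perm (Fin n))) (hF : Cfsg.IsQuasisimple ↥(Cfsg.generalizedFittingSubgroup ↥H)) (hS : ∃ P : Sylow 2 ↥(alternatingGroup (Fin n)), ((P : Subgroup ↥(alternatingGroup (Fin n))).map (alternatingGroup (Fin n)).subtype) ≤ H) : ∃ m : ℕ, (m = n - 3 ∨ m = n - 2 ∨ m = n - 1 ∨ m = n) ∧ Nonempty (↥(Cfsg.generalizedFittingSubgroup ↥H) ≃* ↥(alternatingGroup (Fin m))) := by
  classical
  obtain ⟨P, hP⟩ := hS
  obtain ⟨p, hp⟩ := disjoint_pairs n P
  have hp' : ∀ i j, i ≠ j → swap (p (i, 0)) (p (i, 1)) * swap (p (j, 0)) (p (j, 1)) ∈ H := fun i j h => hP (hp i j h)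
  by_cases hex : ∃ x y z, R H x y z
  swap
  · push Not at hex
    exact (no_cyc_false hn H hF p hp' hex).elim
  obtain ⟨x₀, y₀, z₀, h₀⟩ := hex
  obtain ⟨a, h5, hall, hfix, ⟨θ⟩⟩ := structure_of_cyc H hF h₀
  have hinv : ∀ h ∈ H, ∀ b, Rel H a b → Rel H a (h b) := by
    intro h hh b hb
    rcases hb with rfl | ⟨c, hc⟩
    · haveI : Nontrivial ↥(cls H a) := Finite.one_lt_card_iff_nontrivial.1 (by omega)
      obtain ⟨⟨b, hb⟩, hne⟩ := exists_ne (⟨a, mem_cls.2 (Or.inl rfl)⟩ : ↥(cls H a))
      obtain ⟨c, hc⟩ := (mem_cls.1 hb).resolve_left (fun e => hne (Subtype.ext e.symm))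
      exact hall _ _ _ (hc.conj hh)
    · exact hall _ _ _ ((hc.rot).conj hh)
  have hpair : ∀ i, (Rel H a (p (i, 0)) ↔ Rel H a (p (i, 1))) := by
    intro i
    haveI : Nontrivial (Fin (n / 2)) := Fin.nontrivial_iff_two_le.2 (by omega)
    obtain ⟨j, hji⟩ := exists_ne i
    have e : (swap (p (i, 0)) (p (i, 1)) * swap (p (j, 0)) (p (j, 1))) (p (i, 0)) = p (i, 1) ∧
        (swap (p (i, 0)) (p (i, 1)) * swap (p (j, 0)) (p (j, 1))) (p (i, 1)) = p (i, 0) := by
      simp [swap_apply_of_ne_of_ne, p.injective.eq_iff, hji.symm]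
    exact ⟨fun h => e.1 ▸ hinv _ (hp' i j hji.symm) _ h, fun h => e.2 ▸ hinv _ (hp' i j hji.symm) _ h⟩
  let S : Finset (Fin (n / 2)) := Finset.univ.filter fun i => ¬ Rel H a (p (i, 0))
  have hS1 : S.card ≤ 1 := Finset.card_le_one.2 fun i hi j hj => by
    by_contra hij
    have hi' := (Finset.mem_filter.1 hi).2
    have hj' := (Finset.mem_filter.1 hj).2
    have h1 := hfix _ (hp' i j hij) fun x hx => by
      have n1 : x ≠ p (i, 0) := fun e => hi' (e ▸ hx)
      have n2 : x ≠ p (i, 1) := fun e => hi' ((hpair i).2 (e ▸ hx))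
      have n3 : x ≠ p (j, 0) := fun e => hj' (e ▸ hx)
      have n4 : x ≠ p (j, 1) := fun e => hj' ((hpair j).2 (e ▸ hx))
      simp [swap_apply_of_ne_of_ne, n1, n2, n3, n4]
    have h2 := congrArg (fun t : Perm (Fin n) => t (p (i, 0))) h1
    simp [swap_apply_of_ne_of_ne, p.injective.eq_iff, hij] at h2
  have hsub : Finset.univ \ cls H a ⊆ (Finset.univ \ Finset.univ.map p) ∪ (S ×ˢ Finset.univ).map p := by
    intro u hu
    have hu' : ¬ Rel H a u := fun h => (Finset.mem_sdiff.1 hu).2 (mem_cls.2 h)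
    by_cases hm : u ∈ Finset.univ.map p
    · obtain ⟨⟨i, b⟩, -, rfl⟩ := Finset.mem_map.1 hm
      refine Finset.mem_union_right _ (Finset.mem_map.2 ⟨(i, b), ?_, rfl⟩)
      simp only [S, Finset.mem_product, Finset.mem_filter, Finset.mem_univ, true_and, and_true]
      intro h
      obtain rfl | rfl : b = 0 ∨ b = 1 := by clear hu hu' hm; revert b; decide
      exacts [hu' h, hu' ((hpair i).1 h)]
    · exact Finset.mem_union_left _ (Finset.mem_sdiff.2 ⟨Finset.mem_univ _, hm⟩)
  have h1 := (Finset.card_le_card hsub).trans (Finset.card_union_le _ _)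
  rw [Finset.card_sdiff_of_subset (Finset.subset_univ _), Finset.card_sdiff_of_subset (Finset.subset_univ _),
    Finset.card_map, Finset.card_map, Finset.card_product, Finset.card_univ, Fintype.card_fin, Finset.card_univ,
    Fintype.card_prod, Fintype.card_fin, Fintype.card_fin, Finset.card_univ, Fintype.card_fin] at h1
  have h2 : (cls H a).card ≤ n := (Finset.card_le_univ _).trans (by simp)
  have h3 : Nat.card ↥(cls H a) = (cls H a).card := by rw [Nat.card_eq_fintype_card, Fintype.card_coe]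
  exact ⟨_, by omega, ⟨θ⟩⟩

end Cfsg.Agent.S2928
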