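import Cfsg.Statements.S2930
import Cfsg.Agent.S2929
import Cfsg.Agent.Lib.Alt.Aut
import Cfsg.Agent.Lib.PGroupFrattini
-- import your own Cfsg.Agent.* helpers here

set_option autoImplicit false
open Cfsg

namespace Cfsg.Agent.S2930


open Equiv Equiv.Perm Subgroup Cfsg.Agent.S2929
open scoped commutatorElement

/-- The square of an automorphism of an alternating group is conjugation by a permutation. -/
theorem aut_sq_conj {n : ℕ} (hn : 5 ≤ n) (φ : MulAut ↥(alternatingGroup (Fin n))) :
    ∃ σ : Perm (Fin n), ∀ a : ↥(alternatingGroup (Fin n)),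
      ((φ (φ a) : ↥(alternatingGroup (Fin n))) : Perm (Fin n)) = σ * (a : Perm (Fin n)) * σ⁻¹ := by
  classical
  have h4 : 4 ≤ Fintype.card (Fin n) := by rw [Fintype.card_fin]; omega
  refine Cfsg.Agent.Lib.Alt.Aut.exists_conj_of_maps h4 (φ * φ) fun x hx => ?_
  by_cases h6 : Fintype.card (Fin n) = 6
  swap
  · exact Cfsg.Agent.Lib.Alt.Aut.maps_threeCycle h4 h6 φ (Cfsg.Agent.Lib.Alt.Aut.maps_threeCycle h4 h6 φ hx)
  show ((φ (φ x) : ↥(alternatingGroup (Fin n))) : Perm (Fin n)).IsThreeCycle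
  have h5 : 5 ≤ Nat.card (Fin n) := by rw [Nat.card_eq_fintype_card]; omega
  have hord : ∀ y : ↥(alternatingGroup (Fin n)), orderOf y = 3 →
      (y : Perm (Fin n)).IsThreeCycle ∨ (y : Perm (Fin n)).cycleType = Multiset.replicate 2 3 := by
    intro y hy
    obtain ⟨k, hk⟩ := Perm.cycleType_prime_order (σ := (y : Perm (Fin n))) (by rw [Subgroup.orderOf_coe, hy]; exact Nat.prime_three)
    rw [Subgroup.orderOf_coe, hy] at hk
    have h := Perm.sum_cycleType (y : Perm (Fin n))
    rw [hk, Multiset.sum_replicate, smul_eq_mul] at h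
    have := Finset.card_le_univ (y : Perm (Fin n)).support
    obtain rfl | rfl : k = 0 ∨ k = 1 := by omega
    · exact Or.inl hk
    · exact Or.inr hk
  have hconj : ∀ y z : ↥(alternatingGroup (Fin n)), (y : Perm (Fin n)).cycleType = Multiset.replicate 2 3 →
      (z : Perm (Fin n)).cycleType = Multiset.replicate 2 3 → ∃ c, c * y * c⁻¹ = z := by
    intro y z hk hg
    obtain ⟨c, hc⟩ := isConj_iff.1 (Perm.isConj_iff_cycleType_eq.2 (hk.trans hg.symm))
    by_cases hcA : c ∈ alternatingGroup (Fin n)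
    · exact ⟨⟨c, hcA⟩, Subtype.ext hc⟩
    obtain ⟨w, hwA, hwy⟩ : ∃ w, w ∉ alternatingGroup (Fin n) ∧ w * (y : Perm (Fin n)) = (y : Perm (Fin n)) * w := by
      by_contra hh
      push Not at hh
      have hle : Subgroup.centralizer ({(y : Perm (Fin n))} : Set (Perm (Fin n))) ≤ alternatingGroup (Fin n) := by
        intro w hw
        by_contra hw'
        exact hh w hw' (Subgroup.mem_centralizer_singleton_iff.1 hw)
      have hnd := Equiv.Perm.count_le_one_of_centralizer_le_alternating hle 3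
      rw [hk, Multiset.count_replicate_self] at hnd
      omega
    refine ⟨⟨c * w, ?_⟩, Subtype.ext ?_⟩
    · rw [Perm.mem_alternatingGroup] at hcA hwA ⊢
      rw [map_mul, (Int.units_eq_one_or _).resolve_left hcA, (Int.units_eq_one_or _).resolve_left hwA]
      rfl
    · show c * w * (y : Perm (Fin n)) * (c * w)⁻¹ = (z : Perm (Fin n))
      rw [← hc, mul_assoc c w, hwy]
      group
  have hx3 : orderOf x = 3 := by rw [← Subgroup.orderOf_coe]; exact hx.orderOf
  have h3c : ∀ d : ↥(alternatingGroup (Fin n)),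
      ((d * x * d⁻¹ : ↥(alternatingGroup (Fin n))) : Perm (Fin n)).IsThreeCycle := fun d => by
    show ((d : Perm (Fin n)) * (x : Perm (Fin n)) * (d : Perm (Fin n))⁻¹).cycleType = {3}
    rw [Perm.cycleType_conj]; exact hx
  rcases hord (φ x) (by rw [MulEquiv.orderOf_eq, hx3]) with h1 | h1
  · obtain ⟨c, hc⟩ := isConj_iff.1 (alternatingGroup.isThreeCycle_isConj h5 hx h1)
    rw [← hc, map_mul, map_mul, map_inv, ← hc]
    show ((φ c : Perm (Fin n)) * ((c : Perm (Fin n)) * (x : Perm (Fin n)) * (c : Perm (Fin n))⁻¹) * (φ c : Perm (Fin n))⁻¹).cycleType = {3}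
    rw [Perm.cycleType_conj, Perm.cycleType_conj]; exact hx
  · rcases hord (φ (φ x)) (by rw [MulEquiv.orderOf_eq, MulEquiv.orderOf_eq, hx3]) with h2 | h2
    · exact h2
    exfalso
    obtain ⟨c, hc⟩ := hconj _ _ h2 h1
    have e2 : φ.symm c * φ x * (φ.symm c)⁻¹ = x := φ.injective (by
      rw [map_mul, map_mul, map_inv, MulEquiv.apply_symm_apply, hc])
    have e3 := h3c (φ.symm c)⁻¹
    have e4 : (φ.symm c)⁻¹ * x * ((φ.symm c)⁻¹)⁻¹ = φ x := by
      generalize φ x = w at e2 ⊢
      subst e2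
      group
    rw [e4, Perm.IsThreeCycle, h1] at e3
    exact absurd (congrArg Multiset.card e3) (by simp)

variable {n : ℕ}

/-- The subgroup of the alternating group preserving a relation. -/
def presv (r : Fin n → Fin n → Prop) : Subgroup (Perm (Fin n)) where
  carrier := {g | g ∈ alternatingGroup (Fin n) ∧ ∀ a b, r (g a) (g b) ↔ r a b}
  one_mem' := ⟨one_mem _, fun _ _ => Iff.rfl⟩
  mul_mem' := fun {g h} hg hh => ⟨mul_mem hg.1 hh.1, fun a b => (hg.2 _ _).trans (hh.2 a b)⟩
  inv_mem' := fun {g} hg => ⟨inv_mem hg.1, fun a b => by simpa using (hg.2 (g⁻¹ a) (g⁻¹ b)).symm⟩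

theorem cyc_mem_alt {a b c : Fin n} (hab : a ≠ b) (hbc : b ≠ c) : cyc a b c ∈ alternatingGroup (Fin n) := by
  rw [mem_alternatingGroup, cyc, Perm.sign_mul, sign_swap hab, sign_swap hbc]; rfl

theorem presv_ne (hn : 5 ≤ n) {r : Fin n → Fin n → Prop} {a b c : Fin n} (hab : a ≠ b) (hr : r a b)
    (hac : ¬ r a c) (hca : c ≠ a) : presv r ≠ alternatingGroup (Fin n) := by
  intro h
  have hbc : b ≠ c := fun e => hac (e ▸ hr)
  obtain ⟨d, hd⟩ : ∃ d, d ∉ ({a, b, c} : Finset (Fin n)) := by
    by_contra hd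
    push Not at hd
    have h1 := Finset.card_le_card (fun x _ => hd x : (Finset.univ : Finset (Fin n)) ⊆ {a, b, c})
    have h2 := Finset.card_le_three (a := a) (b := b) (c := c)
    rw [Finset.card_univ, Fintype.card_fin] at h1
    omega
  simp only [Finset.mem_insert, Finset.mem_singleton, not_or] at hd
  have hg : cyc b c d ∈ presv r := h.ge (cyc_mem_alt hbc (Ne.symm hd.2.2))
  have := hg.2 a b
  rw [cyc_other hab hca.symm (Ne.symm hd.1), cyc_fst hbc (Ne.symm hd.2.1)] at this
  exact hac (this.2 hr)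

/-- If `M` contains every proper overgroup of `P` in the alternating group, then three-cycles inside
the classes of a `P`-invariant equivalence relation lie in `M`. -/
theorem connect (hn : 5 ≤ n) {P M : Subgroup (Perm (Fin n))} (hPA : P ≤ alternatingGroup (Fin n))
    (hmax : ∀ K : Subgroup (Perm (Fin n)), P ≤ K → K ≤ alternatingGroup (Fin n) →
      K ≠ alternatingGroup (Fin n) → K ≤ M)
    (r : Fin n → Fin n → Prop) (hr : Equivalence r) (hP : ∀ g ∈ P, ∀ a b, r (g a) (g b) ↔ r a b)
    (hne : ∃ a b c, a ≠ b ∧ r a b ∧ ¬ r a c)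
    {x y z : Fin n} (hxy : x ≠ y) (hyz : y ≠ z) (hxz : x ≠ z) (h1 : r x y) (h2 : r x z) : R M x y z := by
  obtain ⟨a, b, c, hab, hrab, hac⟩ := hne
  have hK : presv r ≤ M := hmax _ (fun g hg => ⟨hPA hg, hP g hg⟩) (fun g hg => hg.1)
    (presv_ne hn hab hrab hac fun e => hac (e ▸ hr.refl a))
  refine ⟨hxy, hyz, hxz, hK ⟨cyc_mem_alt hxy hyz, ?_⟩⟩
  have hsame : ∀ u, r (cyc x y z u) u := by
    intro u
    by_cases hu : cyc x y z u = u
    · rw [hu]; exact hr.refl u
    rcases cyc_moves hu with rfl | rfl | rfl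
    · rw [cyc_fst hxy hxz]; exact hr.symm h1
    · rw [cyc_snd hxz hyz]; exact hr.trans (hr.symm h2) h1
    · rw [cyc_trd]; exact h2
  exact fun a b => ⟨fun h => hr.trans (hr.symm (hsame a)) (hr.trans h (hsame b)),
    fun h => hr.trans (hsame a) (hr.trans h (hr.symm (hsame b)))⟩

/-- In a group of odd order, the classes of three-cycles have size three. -/
theorem class_three {P : Subgroup (Perm (Fin n))} (hP : IsPGroup 3 ↥P) {a b c d : Fin n}
    (h : R P a b c) (hd : Rel P a d) : d = a ∨ d = b ∨ d = c := by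
  by_contra hn
  push Not at hn
  have h2 : R P d a b := triangle hd.symm (hd.symm.trans (Or.inr ⟨c, h⟩)) hn.1 hn.2.1 h.1
  have h3 := h2.rot
  have hsq : (cyc a b c * cyc a b d) * (cyc a b c * cyc a b d) = 1 := by
    ext u
    congr 1
    simp only [Perm.mul_apply, Perm.one_apply]
    have i1 := cyc_fst (a := a) (b := b) (c := c) h.1 h.2.2.1
    have i2 := cyc_snd (a := a) (b := b) (c := c) h.2.2.1 h.2.1
    have i3 := cyc_trd (a := a) (b := b) (c := c)
    have i4 : cyc a b c d = d := cyc_other hn.1 hn.2.1 hn.2.2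
    have j1 := cyc_fst (a := a) (b := b) (c := d) h3.1 h3.2.2.1
    have j2 := cyc_snd (a := a) (b := b) (c := d) h3.2.2.1 h3.2.1
    have j3 := cyc_trd (a := a) (b := b) (c := d)
    have j4 : cyc a b d c = c := cyc_other h.2.2.1.symm h.2.1.symm hn.2.2.symm
    by_cases u1 : u = a
    · subst u1; rw [j1, i2, j4, i3]
    by_cases u2 : u = b
    · subst u2; rw [j2, i4, j3, i1]
    by_cases u3 : u = c
    · subst u3; rw [j4, i3, j1, i2]
    by_cases u4 : u = d
    · subst u4; rw [j3, i1, j2, i4]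
    rw [cyc_other u1 u2 u4, cyc_other u1 u2 u3, cyc_other u1 u2 u4, cyc_other u1 u2 u3]
  have hmem : cyc a b c * cyc a b d ∈ P := mul_mem h.2.2.2 h3.2.2.2
  obtain ⟨k, hk⟩ := hP ⟨_, hmem⟩
  have hk' : (cyc a b c * cyc a b d) ^ 3 ^ k = 1 := congrArg Subtype.val hk
  obtain ⟨j, hj⟩ := (Odd.pow (by decide : Odd 3) : Odd (3 ^ k))
  rw [hj, pow_succ, pow_mul, pow_two, hsq, one_pow, one_mul] at hk'
  have := congrArg (fun t : Perm (Fin n) => t b) hk'
  simp only [Perm.mul_apply, Perm.one_apply, cyc_snd h3.2.2.1 h3.2.1, cyc_other hn.1 hn.2.1 hn.2.2] at this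
  exact hn.2.1 this

/-- The degrees for which a Sylow three-subgroup may lie in a unique maximal subgroup. -/
theorem degrees (hn : 5 ≤ n) (P : Sylow 3 (Perm (Fin n))) (hPA : (P : Subgroup (Perm (Fin n))) ≤ alternatingGroup (Fin n))
    (M : Subgroup (Perm (Fin n))) (hPM : (P : Subgroup (Perm (Fin n))) ≤ M) (hM : ¬ alternatingGroup (Fin n) ≤ M)
    (hmax : ∀ K : Subgroup (Perm (Fin n)), (P : Subgroup (Perm (Fin n))) ≤ K → K ≤ alternatingGroup (Fin n) →
      K ≠ alternatingGroup (Fin n) → K ≤ M) :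
    n = 6 ∨ n = 9 ∨ ∃ a : ℕ, 2 ≤ a ∧ n = 3 ^ a + 1 := by
  classical
  obtain ⟨f, hf⟩ := disjoint_cycles n P
  set P₀ := (P : Subgroup (Perm (Fin n))) with hP₀
  have hp3 : IsPGroup 3 ↥P₀ := P.2
  by_contra hgoal
  push Not at hgoal
  obtain ⟨hn6, hn9, hn3⟩ := hgoal
  suffices hall : ∀ x y, Rel M x y by
    apply hM
    rw [← closure_three_cycles_eq_alternating, closure_le]
    intro σ hσ
    obtain ⟨a, b, c, hab, hbc, hac, rfl⟩ := eq_cyc hσ
    exact (triangle (hall a b) (hall a c) hab hac hbc).2.2.2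
  have hblockR : ∀ i, R P₀ (f (i, 0)) (f (i, 1)) (f (i, 2)) := fun i =>
    ⟨f.injective.ne (by simp), f.injective.ne (by simp), f.injective.ne (by simp), hf i⟩
  have hfin : ∀ j : Fin 3, j = 0 ∨ j = 1 ∨ j = 2 := by decide
  have hblock : ∀ i j k, Rel P₀ (f (i, j)) (f (i, k)) := by
    intro i j k
    have h0 : ∀ j, Rel P₀ (f (i, 0)) (f (i, j)) := fun j => by
      rcases hfin j with rfl | rfl | rfl
      · exact Or.inl rfl
      · exact Or.inr ⟨_, hblockR i⟩
      · exact Or.inr ⟨_, (hblockR i).rev.rot.rot⟩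
    exact (h0 j).symm.trans (h0 k)
  have hsame : ∀ i i' j j', Rel P₀ (f (i, j)) (f (i', j')) → i = i' := by
    intro i i' j j' h
    have h1 := class_three hp3 (hblockR i) ((hblock i 0 j).trans h)
    rcases h1 with h1 | h1 | h1 <;> exact (congrArg Prod.fst (f.injective h1)).symm
  have hPMR : ∀ {x y}, Rel P₀ x y → Rel M x y := fun h => by
    rcases h with h | ⟨z, hz⟩
    · exact Or.inl h
    · exact Or.inr ⟨z, hz.1, hz.2.1, hz.2.2.1, hPM hz.2.2.2⟩
  let U : Finset (Fin n) := Finset.univ \ Finset.univ.map f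
  have hU : U.card = n % 3 := by
    rw [Finset.card_sdiff_of_subset (Finset.subset_univ _)]
    simp only [Finset.card_univ, Fintype.card_fin, Finset.card_map, Fintype.card_prod]
    omega
  have hcov : ∀ x, x ∉ U → ∃ i j, x = f (i, j) := fun x hx => by
    simp only [U, Finset.mem_sdiff, Finset.mem_univ, true_and, not_not, Finset.mem_map] at hx
    obtain ⟨⟨i, j⟩, h⟩ := hx
    exact ⟨i, j, h.symm⟩
  have hUfix : ∀ g ∈ P₀, ∀ x, x ∈ U → g x = x := by
    intro g hg x hx
    have hnoR : ∀ y ∈ U, ∀ b c, ¬ R P₀ y b c := by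
      intro y hy b c h
      have hcU : ∀ u, Rel P₀ y u → u ∈ U := fun u hu => by
        by_contra hu'
        obtain ⟨i, j, rfl⟩ := hcov _ hu'
        have h1 := class_three hp3 (hblockR i) ((hblock i 0 j).trans hu.symm)
        simp only [U, Finset.mem_sdiff, Finset.mem_map, Finset.mem_univ, true_and, not_exists] at hy
        rcases h1 with h1 | h1 | h1 <;> exact hy _ h1.symm
      have h3 := Finset.card_le_card (show ({y, b, c} : Finset (Fin n)) ⊆ U by
        simp [Finset.insert_subset_iff, hy, hcU b (Or.inr ⟨c, h⟩), hcU c (Or.inr ⟨b, h.rev.rot.rot⟩)])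
      rw [Finset.card_insert_of_notMem (by simp [h.1, h.2.2.1]),
        Finset.card_insert_of_notMem (by simp [h.2.1]), Finset.card_singleton, hU] at h3
      omega
    have hinv : ∀ h ∈ P₀, ∀ y, y ∈ U → h y ∈ U := by
      intro h hh y hy
      by_contra hy'
      obtain ⟨i, j, hij⟩ := hcov _ hy'
      have h1 := (hblockR i).conj (inv_mem hh)
      have h2 : (h⁻¹ : Perm (Fin n)) (f (i, j)) = y := by rw [← hij]; simp
      rcases hfin j with rfl | rfl | rfl
      · exact hnoR y hy _ _ (h2 ▸ h1)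
      · exact hnoR y hy _ _ (h2 ▸ h1.rot)
      · exact hnoR y hy _ _ (h2 ▸ h1.rot.rot)
    obtain ⟨k, hk⟩ := (hp3.to_subgroup (⊤ : Subgroup ↥P₀)).card_orbit x
    have hle : Nat.card (MulAction.orbit (↥(⊤ : Subgroup ↥P₀)) x) ≤ U.card := by
      rw [← Nat.card_coe_set_eq (U : Set (Fin n)) |>.trans (Set.ncard_coe_finset U)]
      refine Nat.card_mono (Finset.finite_toSet U) ?_
      rintro _ ⟨⟨⟨h, hh⟩, -⟩, rfl⟩
      exact hinv h hh x hx
    have h1 : Nat.card (MulAction.orbit (↥(⊤ : Subgroup ↥P₀)) x) = 1 := by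
      have := Nat.mod_lt n (show 3 > 0 by norm_num)
      rcases Nat.eq_zero_or_pos k with rfl | hk'
      · simpa using hk
      · have := Nat.le_self_pow hk'.ne' 3
        omega
    obtain ⟨hs, -⟩ := Nat.card_eq_one_iff_unique.1 h1
    exact congrArg Subtype.val (Subsingleton.elim (⟨g x, ⟨⟨⟨g, hg⟩, mem_top _⟩, rfl⟩⟩ : MulAction.orbit (↥(⊤ : Subgroup ↥P₀)) x) ⟨x, MulAction.mem_orbit_self x⟩)
  have hMb : ∀ i j k, Rel M (f (i, j)) (f (i, k)) := fun i j k => hPMR (hblock i j k)
  by_cases hr0 : n % 3 = 0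
  · -- no fixed points
    have hU0 : ∀ u, u ∉ U := fun u hu => by
      have := Finset.card_pos.2 ⟨u, hu⟩
      omega
    have hl : 3 ≤ n / 3 := by omega
    have hK : presv (Rel P₀) ≤ M := by
      let i₀ : Fin (n / 3) := ⟨0, by omega⟩
      let i₁ : Fin (n / 3) := ⟨1, by omega⟩
      refine hmax _ (fun g hg => ⟨hPA hg, fun a b => ⟨fun h => by simpa using h.conj (inv_mem hg), fun h => h.conj hg⟩⟩)
        (fun g hg => hg.1) (presv_ne hn (f.injective.ne (by simp : (i₀, (0 : Fin 3)) ≠ (i₀, 1))) (hblock i₀ 0 1)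
          (fun h => ?_) (f.injective.ne (by simp [i₀, i₁] : (i₁, (0 : Fin 3)) ≠ (i₀, 0))))
      exact absurd (hsame i₀ i₁ 0 0 h) (by simp [i₀, i₁])
    have key : ∀ a b, Rel M a b → ¬ Rel P₀ a b → ∀ x y, Rel M x y := by
      intro a b hab hnab
      obtain ⟨i, ja, rfl⟩ := hcov a (hU0 a)
      obtain ⟨i', jb, rfl⟩ := hcov b (hU0 b)
      have hii : i ≠ i' := fun e => hnab (e ▸ hblock i ja jb)
      have hto : ∀ u, Rel M (f (i, 2)) u := by
        intro u
        obtain ⟨k, jk, rfl⟩ := hcov u (hU0 u)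
        refine Rel.trans ?_ (hMb k 0 jk)
        rcases eq_or_ne k i with rfl | hki
        · exact hMb k 2 0
        have h2 : Rel M (f (i, 2)) (f (i', 0)) := ((hMb i 2 ja).trans hab).trans (hMb i' jb 0)
        rcases eq_or_ne k i' with rfl | hki'
        · exact h2
        let e : Fin (n / 3) × Fin 3 ≃ Fin n := Equiv.ofBijective f ⟨f.injective, fun u => by
          obtain ⟨i, j, h⟩ := hcov u (hU0 u); exact ⟨(i, j), h.symm⟩⟩
        let W : Perm (Fin n) := e.permCongr (Equiv.prodCongr (swap i' k) (Equiv.refl (Fin 3)))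
        have hW : ∀ l j, W (f (l, j)) = f (swap i' k l, j) := fun l j => by
          show e ((Equiv.prodCongr (swap i' k) (Equiv.refl (Fin 3))) (e.symm (e (l, j)))) = _
          rw [Equiv.symm_apply_apply]; rfl
        have hsw : ∀ l j, ∃ j', swap (f (i, 0)) (f (i, 1)) (f (l, j)) = f (l, j') := fun l j => by
          rcases eq_or_ne (f (l, j)) (f (i, 0)) with h | h
          · rw [h, swap_apply_left]
            obtain rfl : l = i := congrArg Prod.fst (f.injective h)
            exact ⟨_, rfl⟩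
          rcases eq_or_ne (f (l, j)) (f (i, 1)) with h' | h'
          · rw [h', swap_apply_right]
            obtain rfl : l = i := congrArg Prod.fst (f.injective h')
            exact ⟨_, rfl⟩
          exact ⟨j, swap_apply_of_ne_of_ne h h'⟩
        have hfix0 : swap i' k i = i := swap_apply_of_ne_of_ne hii hki.symm
        have hn01 : f (i, 0) ≠ f (i, 1) := f.injective.ne (by simp)
        let g : Perm (Fin n) := if sign W = 1 then W else W * swap (f (i, 0)) (f (i, 1))
        have hgA : g ∈ alternatingGroup (Fin n) := by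
          rw [mem_alternatingGroup]
          by_cases h : sign W = 1
          · simp only [g, if_pos h]; exact h
          · simp only [g, if_neg h]
            rw [Perm.sign_mul, sign_swap hn01, (Int.units_eq_one_or _).resolve_left h]; rfl
        have hgblk : ∀ l j, ∃ j', g (f (l, j)) = f (swap i' k l, j') := fun l j => by
          by_cases h : sign W = 1
          · simp only [g, if_pos h]; exact ⟨j, hW l j⟩
          · simp only [g, if_neg h, Perm.mul_apply]
            obtain ⟨j', hj'⟩ := hsw l j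
            exact ⟨j', by rw [hj', hW]⟩
        have hg2 : g (f (i, 2)) = f (i, 2) := by
          have h' : swap (f (i, 0)) (f (i, 1)) (f (i, 2)) = f (i, 2) :=
            swap_apply_of_ne_of_ne (f.injective.ne (by simp)) (f.injective.ne (by simp))
          by_cases h : sign W = 1
          · simp only [g, if_pos h]; rw [hW, hfix0]
          · simp only [g, if_neg h, Perm.mul_apply]; rw [h', hW, hfix0]
        have hgK : g ∈ presv (Rel P₀) := by
          refine ⟨hgA, fun a b => ?_⟩
          obtain ⟨la, pa, rfl⟩ := hcov a (hU0 a)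
          obtain ⟨lb, pb, rfl⟩ := hcov b (hU0 b)
          obtain ⟨qa, ea⟩ := hgblk la pa
          obtain ⟨qb, eb⟩ := hgblk lb pb
          rw [ea, eb]
          constructor
          · intro h
            obtain rfl := (swap i' k).injective (hsame _ _ _ _ h)
            exact hblock _ _ _
          · intro h
            obtain rfl := hsame _ _ _ _ h
            exact hblock _ _ _
        have h3 := h2.conj (hK hgK)
        obtain ⟨j', hj'⟩ := hgblk i' 0
        rw [hg2, hj', swap_apply_left] at h3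
        exact h3.trans (hMb k j' 0)
      exact fun x y => (hto x).symm.trans (hto y)
    let z₀ : Fin n := f (⟨0, by omega⟩, 0)
    let O : Finset (Fin n) := Finset.univ.filter fun u => ∃ g ∈ P₀, g z₀ = u
    have hOinv : ∀ g ∈ P₀, ∀ u, g u ∈ O ↔ u ∈ O := by
      intro g hg u
      simp only [O, Finset.mem_filter, Finset.mem_univ, true_and]
      exact ⟨fun ⟨h, hh, e⟩ => ⟨g⁻¹ * h, mul_mem (inv_mem hg) hh, by simp [e]⟩,
        fun ⟨h, hh, e⟩ => ⟨g * h, mul_mem hg hh, by simp [e]⟩⟩
    have hOblk : ∀ i j, f (i, j) ∈ O → ∀ k, f (i, k) ∈ O := by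
      intro i j hj k
      have h1 := (hOinv _ (hf i) (f (i, j))).2 hj
      have h2 := (hOinv _ (hf i) _).2 h1
      rcases hfin j with rfl | rfl | rfl
      · rw [cyc_fst (hblockR i).1 (hblockR i).2.2.1] at h1 h2
        rw [cyc_snd (hblockR i).2.2.1 (hblockR i).2.1] at h2
        rcases hfin k with rfl | rfl | rfl <;> assumption
      · rw [cyc_snd (hblockR i).2.2.1 (hblockR i).2.1] at h1 h2
        rw [cyc_trd] at h2
        rcases hfin k with rfl | rfl | rfl <;> assumption
      · rw [cyc_trd] at h1 h2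
        rw [cyc_fst (hblockR i).1 (hblockR i).2.2.1] at h2
        rcases hfin k with rfl | rfl | rfl <;> assumption
    by_cases htr : ∀ u, u ∈ O
    · -- a transitive Sylow subgroup: a second system of imprimitivity
      let S : Subgroup ↥P₀ := MulAction.stabilizer ↥P₀ z₀
      have hSidx : S.index = n := by
        rw [MulAction.index_stabilizer, show MulAction.orbit ↥P₀ z₀ = Set.univ from Set.eq_univ_of_forall fun u => by
          obtain ⟨g, hg, e⟩ := (Finset.mem_filter.1 (htr u)).2
          exact ⟨⟨g, hg⟩, e⟩, Set.ncard_univ, Nat.card_fin]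
      obtain ⟨Q, hQ, hSQ⟩ := (eq_top_or_exists_le_coatom S).resolve_left (fun h => by
        rw [h, index_top] at hSidx; omega)
      obtain ⟨hQn, hQi⟩ := Cfsg.Agent.Lib.PGroupFrattini.coatom_index hp3 hQ
      have h27 : 27 ≤ n := by
        obtain ⟨k, hk⟩ := hp3.index S
        rw [hSidx] at hk
        rcases k with _ | _ | _ | k
        · simp at hk; omega
        · omega
        · omega
        · rw [hk, show 3 ^ (k + 3) = 3 ^ k * 27 by ring]
          exact Nat.le_mul_of_pos_left _ (by positivity)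
      have hrel : S.relIndex Q * 3 = n := by
        have := relIndex_mul_index hSQ
        rw [hQi] at this
        exact this.trans hSidx
      let r : Fin n → Fin n → Prop := fun a b => ∃ q ∈ Q, (q : Perm (Fin n)) a = b
      have hr : Equivalence r :=
        ⟨fun a => ⟨1, one_mem _, rfl⟩, fun ⟨q, hq, e⟩ => ⟨q⁻¹, inv_mem hq, by simp [← e]⟩,
          fun ⟨q, hq, e⟩ ⟨q', hq', e'⟩ => ⟨q' * q, mul_mem hq' hq, by simp [e, e']⟩⟩
      let C : Finset (Fin n) := Finset.univ.filter fun u => r z₀ u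
      have hC : C.card * 3 = n := by
        refine Eq.trans ?_ hrel
        congr 1
        rw [relIndex, show S.subgroupOf Q = MulAction.stabilizer ↥Q z₀ from rfl, MulAction.index_stabilizer]
        rw [← Set.ncard_coe_finset]
        congr 1
        ext u
        simp only [C, Finset.coe_filter, Finset.mem_univ, true_and, Set.mem_setOf_eq, r, MulAction.mem_orbit_iff]
        exact ⟨fun ⟨q, hq, e⟩ => ⟨⟨q, hq⟩, e⟩, fun ⟨q, e⟩ => ⟨q.1, q.2, e⟩⟩
      have hrP : ∀ g ∈ P₀, ∀ a b, r (g a) (g b) ↔ r a b := by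
        intro g hg a b
        constructor
        · rintro ⟨q, hq, e⟩
          refine ⟨_, hQn.conj_mem q hq (⟨g, hg⟩ : ↥P₀)⁻¹, ?_⟩
          simp [e]
        · rintro ⟨q, hq, e⟩
          refine ⟨_, hQn.conj_mem q hq (⟨g, hg⟩ : ↥P₀), ?_⟩
          simp [e]
      obtain ⟨v, hv⟩ : ∃ v, v ∉ C := by
        by_contra h
        push Not at h
        rw [Finset.eq_univ_of_forall h, Finset.card_univ, Fintype.card_fin] at hC
        omega
      have hz : z₀ ∈ C := by simp [C, hr.refl]
      obtain ⟨b, hb, hbz⟩ : ∃ b ∈ C, ¬ Rel P₀ z₀ b := by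
        by_contra h
        push Not at h
        have := Finset.card_le_card (show C ⊆ (Finset.univ : Finset (Fin 3)).image (fun j => f (⟨0, by omega⟩, j)) by
          intro u hu
          obtain ⟨i, j, rfl⟩ := hcov u (hU0 u)
          have hi := hsame _ _ _ _ (h _ hu)
          subst hi
          exact Finset.mem_image_of_mem _ (Finset.mem_univ _))
        have := Finset.card_image_le (s := (Finset.univ : Finset (Fin 3))) (f := fun j => f ((⟨0, by omega⟩ : Fin (n / 3)), j))
        simp at this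
        omega
      have hb0 : b ≠ z₀ := fun e => hbz (Or.inl e.symm)
      obtain ⟨c, hc, hcz⟩ : ∃ c ∈ C, c ∉ ({z₀, b} : Finset (Fin n)) := by
        by_contra h
        push Not at h
        have h1 := Finset.card_le_card (show C ⊆ {z₀, b} from h)
        have h2 := Finset.card_le_two (a := z₀) (b := b)
        omega
      simp only [Finset.mem_insert, Finset.mem_singleton, not_or] at hcz
      simp only [C, Finset.mem_filter, Finset.mem_univ, true_and] at hb hc hv
      exact key z₀ b (Or.inr ⟨c, connect hn hPA hmax r hr hrP ⟨z₀, b, v, hb0.symm, hb, hv⟩ hb0.symm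
        (Ne.symm hcz.2) (Ne.symm hcz.1) hb hc⟩) hbz
    · push Not at htr
      obtain ⟨v, hv⟩ := htr
      have hz : z₀ ∈ O := by simp [O]; exact ⟨1, one_mem _, rfl⟩
      let r : Fin n → Fin n → Prop := fun a b => (a ∈ O ↔ b ∈ O)
      have hr : Equivalence r := ⟨fun a => Iff.rfl, fun h => h.symm, fun h h' => h.trans h'⟩
      have hrP : ∀ g ∈ P₀, ∀ a b, r (g a) (g b) ↔ r a b := fun g hg a b => by
        simp only [r, hOinv g hg]
      let i₀ : Fin (n / 3) := ⟨0, by omega⟩
      have hb1 : f (i₀, 1) ∈ O := hOblk i₀ 0 hz 1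
      have hne : ∃ a b c, a ≠ b ∧ r a b ∧ ¬ r a c :=
        ⟨z₀, f (i₀, 1), v, f.injective.ne (by simp [i₀]), iff_of_true hz hb1, fun h => hv (h.1 hz)⟩
      by_cases hbig : ∃ u ∈ O, ¬ Rel P₀ z₀ u
      · obtain ⟨u, hu, hzu⟩ := hbig
        refine key z₀ u (Or.inr ⟨f (i₀, 1), connect hn hPA hmax r hr hrP hne (fun e => hzu (Or.inl e))
          (fun e => hzu (e ▸ hblock _ _ _)) (f.injective.ne (by simp [i₀])) (iff_of_true hz hu) (iff_of_true hz hb1)⟩) hzu
      · push Not at hbig
        let i₁ : Fin (n / 3) := ⟨1, by omega⟩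
        let i₂ : Fin (n / 3) := ⟨2, by omega⟩
        have hout : ∀ l j, l ≠ i₀ → f (l, j) ∉ O := fun l j hl h => hl (hsame _ _ _ _ (hbig _ h)).symm
        have n12 : i₁ ≠ i₂ := by simp [i₁, i₂]
        have n10 : i₁ ≠ i₀ := by simp [i₁, i₀]
        have n20 : i₂ ≠ i₀ := by simp [i₂, i₀]
        exact key (f (i₁, 0)) (f (i₂, 0)) (Or.inr ⟨f (i₁, 1), connect hn hPA hmax r hr hrP hne
          (f.injective.ne (by simp [n12])) (f.injective.ne (by simp [n12.symm])) (f.injective.ne (by simp))
          (iff_of_false (hout _ _ n10) (hout _ _ n20)) (iff_of_false (hout _ _ n10) (hout _ _ n10))⟩)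
          fun h => n12 (hsame _ _ _ _ h)
  · -- fixed points
    obtain ⟨x, hx⟩ : ∃ x, x ∈ U := Finset.card_pos.1 (by omega)
    have hthird : ∀ a b c : Fin n, ∃ d, d ≠ a ∧ d ≠ b ∧ d ≠ c := by
      intro a b c
      by_contra hd
      push Not at hd
      have h1 := Finset.card_le_card (show (Finset.univ : Finset (Fin n)) ⊆ {a, b, c} from fun u _ => by
        simp only [Finset.mem_insert, Finset.mem_singleton]
        by_cases h1 : u = a
        · exact Or.inl h1
        by_cases h2 : u = b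
        · exact Or.inr (Or.inl h2)
        exact Or.inr (Or.inr (hd u h1 h2)))
      have h2 := Finset.card_le_three (a := a) (b := b) (c := c)
      rw [Finset.card_univ, Fintype.card_fin] at h1
      omega
    have hdel : ∀ p, p ∈ U → ∀ a b, a ≠ p → b ≠ p → Rel M a b := by
      intro p hp a b ha hb
      rcases eq_or_ne a b with rfl | hab
      · exact Or.inl rfl
      obtain ⟨c, hca, hcb, hcp⟩ := hthird a b p
      refine Or.inr ⟨c, connect hn hPA hmax (fun u v => u = p ↔ v = p)
        ⟨fun _ => Iff.rfl, fun h => h.symm, fun h h' => h.trans h'⟩ (fun g hg u v => ?_)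
        ⟨a, b, p, hab, iff_of_false ha hb, fun h => ha (h.2 rfl)⟩ hab hcb.symm hca.symm
        (iff_of_false ha hb) (iff_of_false ha hcp)⟩
      have hg' := hUfix g hg p hp
      constructor <;> intro h <;> constructor <;> intro e
      all_goals first
        | exact g.injective (by rw [hg']; exact h.1 (by rw [e, hg']))
        | exact g.injective (by rw [hg']; exact h.2 (by rw [e, hg']))
        | (have := h.1 (g.injective (e.trans hg'.symm)); rw [this, hg'])
        | (have := h.2 (g.injective (e.trans hg'.symm)); rw [this, hg'])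
    have hconn : ∃ z, z ≠ x ∧ Rel M x z := by
      by_cases h2 : n % 3 = 2
      · obtain ⟨y, hy, hyx⟩ : ∃ y ∈ U, y ≠ x := Finset.exists_mem_ne (by omega) x
        obtain ⟨z, hzx, hzy, -⟩ := hthird x y x
        exact ⟨z, hzx, hdel y hy x z hyx.symm hzy⟩
      let i₀ : Fin (n / 3) := ⟨0, by omega⟩
      let z := f (i₀, 0)
      let O : Finset (Fin n) := Finset.univ.filter fun u => u = x ∨ ∃ g ∈ P₀, g z = u
      have hOinv : ∀ g ∈ P₀, ∀ u, g u ∈ O ↔ u ∈ O := by
        intro g hg u
        have hg' := hUfix g hg x hx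
        simp only [O, Finset.mem_filter, Finset.mem_univ, true_and]
        exact ⟨fun h => h.elim (fun e => Or.inl (g.injective (e.trans hg'.symm)))
            fun ⟨h, hh, e⟩ => Or.inr ⟨g⁻¹ * h, mul_mem (inv_mem hg) hh, by simp [e]⟩,
          fun h => h.elim (fun e => Or.inl (by rw [e, hg']))
            fun ⟨h, hh, e⟩ => Or.inr ⟨g * h, mul_mem hg hh, by simp [e]⟩⟩
      have hzU : z ∉ U := by simp [U, z]
      have hzx : z ≠ x := fun e => hzU (e ▸ hx)
      have hb : f (i₀, 1) ∈ O := by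
        simp only [O, Finset.mem_filter, Finset.mem_univ, true_and]
        exact Or.inr ⟨_, hf i₀, cyc_fst (hblockR i₀).1 (hblockR i₀).2.2.1⟩
      have hbx : f (i₀, 1) ≠ x := fun e => by
        have : f (i₀, 1) ∉ U := by simp [U]
        exact this (e ▸ hx)
      obtain ⟨v, hv⟩ : ∃ v, v ∉ O := by
        by_contra h
        push Not at h
        obtain ⟨k, hk⟩ := hp3.card_orbit (α := Fin n) z
        have h1 : MulAction.orbit ↥P₀ z = ((Finset.univ.erase x : Finset (Fin n)) : Set (Fin n)) := by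
          ext u
          simp only [Finset.coe_erase, Finset.coe_univ, Set.mem_diff, Set.mem_univ, true_and, Set.mem_singleton_iff]
          refine ⟨?_, fun hu => ?_⟩
          · rintro ⟨⟨g, hg⟩, rfl⟩ e
            exact hzx (g.injective (e.trans (hUfix g hg x hx).symm))
          · obtain ⟨g, hg, e⟩ := (Finset.mem_filter.1 (h u)).2.resolve_left hu
            exact ⟨⟨g, hg⟩, e⟩
        rw [h1, Nat.card_coe_set_eq, Set.ncard_coe_finset, Finset.card_erase_of_mem (Finset.mem_univ _),
          Finset.card_univ, Fintype.card_fin] at hk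
        rcases k with _ | _ | k
        · simp at hk; omega
        · simp at hk; omega
        · exact hn3 (k + 1 + 1) (by omega) (by omega)
      refine ⟨z, hzx, Or.inr ⟨f (i₀, 1), connect hn hPA hmax (fun u w => u ∈ O ↔ w ∈ O)
        ⟨fun _ => Iff.rfl, fun h => h.symm, fun h h' => h.trans h'⟩ (fun g hg u w => by simp only [hOinv g hg])
        ⟨x, z, v, hzx.symm, iff_of_true (by simp [O]) (by simp [O]; exact Or.inr ⟨1, one_mem _, rfl⟩),
          fun h => hv (h.1 (by simp [O]))⟩ hzx.symm (f.injective.ne (by simp)) hbx.symm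
        (iff_of_true (by simp [O]) (by simp [O]; exact Or.inr ⟨1, one_mem _, rfl⟩)) (iff_of_true (by simp [O]) hb)⟩⟩
    obtain ⟨z, hzx, hxz⟩ := hconn
    have hto : ∀ u, Rel M x u := fun u => by
      rcases eq_or_ne u x with rfl | hu
      · exact Or.inl rfl
      · exact hxz.trans (hdel x hx z u hzx hu)
    exact fun a b => (hto a).symm.trans (hto b)

/-- Let X be a finite 3-minimal group (a Sylow 3-subgroup is not normal and lies in a unique maximal subgroup) whose generalized Fitting subgroup is isomorphic to an alternating group of degree n ≥ 5. Then X = F*(X), and n = 6, n = 9, or n = 3ᵃ + 1 for some a ≥ 2. -/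
theorem result {X : Type*} [Group X] [Finite X] (hX : Cfsg.IsPMinimal 3 X) (n : ℕ) (hn : 5 ≤ n) (hF : Nonempty (↥(Cfsg.generalizedFittingSubgroup X) ≃* ↥(alternatingGroup (Fin n)))) : Cfsg.generalizedFittingSubgroup X = ⊤ ∧ (n = 6 ∨ n = 9 ∨ ∃ a : ℕ, 2 ≤ a ∧ n = 3 ^ a + 1) := by
  classical
  obtain ⟨ι⟩ := hF
  set E := Cfsg.generalizedFittingSubgroup X with hEdef
  haveI := alternatingGroup.isSimpleGroup (α := Fin n) (by rw [Nat.card_fin]; exact hn)
  let ψ : X →* MulAut ↥(alternatingGroup (Fin n)) :=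
    (MulAut.congr ι).toMonoidHom.comp MulAut.conjNormal
  have hψ : ∀ x (y : ↥E), ψ x (ι y) = ι (MulAut.conjNormal x y) := fun x y => by
    show ι ((MulAut.conjNormal x) (ι.symm (ι y))) = _
    rw [ι.symm_apply_apply]
  have h4E : ∀ x : X, x ^ 4 ∈ E := by
    intro x
    obtain ⟨σ, hσ⟩ := aut_sq_conj hn (ψ x)
    have hσA : σ * σ ∈ alternatingGroup (Fin n) := by
      rw [mem_alternatingGroup, map_mul, Int.units_mul_self]
    let e := ι.symm ⟨σ * σ, hσA⟩
    have hcen : (e : X)⁻¹ * x ^ 4 ∈ centralizer (E : Set X) := by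
      refine mem_centralizer_iff.2 fun y hy => ?_
      have h1 : ψ (x ^ 4) (ι ⟨y, hy⟩) = ι (MulAut.conjNormal (e : X) ⟨y, hy⟩) := by
        have h2 : MulAut.conjNormal (e : X) ⟨y, hy⟩ = e * ⟨y, hy⟩ * e⁻¹ := Subtype.ext rfl
        rw [h2, map_mul, map_mul, map_inv, ι.apply_symm_apply, map_pow]
        apply Subtype.ext
        show ((ψ x (ψ x (ψ x (ψ x (ι ⟨y, hy⟩)))) : ↥(alternatingGroup (Fin n))) : Perm (Fin n)) = _
        rw [hσ, hσ]
        simp [mul_assoc]
      rw [hψ] at h1
      have h3 : x ^ 4 * y * (x ^ 4)⁻¹ = (e : X) * y * (e : X)⁻¹ := congrArg Subtype.val (ι.injective h1)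
      calc y * ((e : X)⁻¹ * x ^ 4) = (e : X)⁻¹ * ((e : X) * y * (e : X)⁻¹) * x ^ 4 := by group
        _ = (e : X)⁻¹ * x ^ 4 * y := by rw [← h3]; group
    have := mul_mem (e.2 : (e : X) ∈ E) (Cfsg.Agent.Lib.Components.centralizer_gfs_le hcen)
    simpa using this
  obtain ⟨P⟩ : Nonempty (Sylow 3 X) := inferInstance
  have hPE : (P : Subgroup X) ≤ E := by
    intro x hx
    obtain ⟨k, hk⟩ := P.2 ⟨x, hx⟩
    have hk' : x ^ 3 ^ k = 1 := congrArg Subtype.val hk
    obtain ⟨m, hm⟩ := exists_pow_eq_self_of_coprime (x := x) (n := 4)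
      (Nat.Coprime.coprime_dvd_right (orderOf_dvd_of_pow_eq_one hk') (Nat.Coprime.pow_right k (by norm_num)))
    exact hm ▸ pow_mem (h4E x) m
  obtain ⟨hPn, M₀, ⟨hM₀, hPM₀⟩, huniq⟩ := hX P
  have hle : ∀ K : Subgroup X, K ≠ ⊤ → (P : Subgroup X) ≤ K → K ≤ M₀ := fun K hK hPK => by
    obtain ⟨L, hL, hKL⟩ := (eq_top_or_exists_le_coatom K).resolve_left hK
    exact hKL.trans (huniq L ⟨hL, hPK.trans hKL⟩).le
  have hEtop : E = ⊤ := by
    by_contra hne
    have h1 : normalizer ((P : Subgroup X) : Set X) ≠ ⊤ := fun h => hPn (normalizer_eq_top_iff.1 h)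
    have h2 := Sylow.normalizer_sup_eq_top' P hPE
    exact hM₀.1 (top_le_iff.1 (h2 ▸ sup_le (hle _ h1 le_normalizer) (hle _ hne hPE)))
  refine ⟨hEtop, ?_⟩
  let e : X ≃* ↥(alternatingGroup (Fin n)) :=
    (Subgroup.topEquiv.symm.trans (MulEquiv.subgroupCongr hEtop.symm)).trans ι
  let j : X →* Perm (Fin n) := (alternatingGroup (Fin n)).subtype.comp e.toMonoidHom
  have hj : Function.Injective j := (alternatingGroup (Fin n)).subtype_injective.comp e.injective
  have hjr : (⊤ : Subgroup X).map j = alternatingGroup (Fin n) := by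
    rw [← Subgroup.map_map, map_top_of_surjective _ e.surjective, ← MonoidHom.range_eq_map, range_subtype]
  haveI : Nontrivial (Fin n) := Fin.nontrivial_iff_two_le.2 (by omega)
  have hcard : Nat.card ↥((P : Subgroup X).map j) = 3 ^ (Nat.card (Perm (Fin n))).factorization 3 := by
    rw [card_map_of_injective hj, P.card_eq_multiplicity, Nat.card_congr e.toEquiv,
      ← two_mul_nat_card_alternatingGroup, Nat.factorization_mul (by norm_num) Nat.card_pos.ne',
      Finsupp.add_apply, Nat.Prime.factorization Nat.prime_two]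
    simp
  refine degrees hn (Sylow.ofCard _ hcard) ?_ (M₀.map j) ?_ ?_ ?_
  · rw [Sylow.coe_ofCard, ← hjr]; exact map_mono le_top
  · rw [Sylow.coe_ofCard]; exact map_mono hPM₀
  · rw [← hjr, map_le_map_iff_of_injective hj]
    exact fun h => hM₀.1 (top_le_iff.1 h)
  · intro K hPK hKA hne
    rw [Sylow.coe_ofCard] at hPK
    have hK : (K.comap j).map j = K := map_comap_eq_self (by rw [MonoidHom.range_eq_map, hjr]; exact hKA)
    rw [← hK]
    refine map_mono (hle _ (fun h => hne ?_) (fun x hx => hPK ⟨x, hx, rfl⟩))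
    rw [← hK, h, hjr]

end Cfsg.Agent.S2930
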