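import Cfsg.Statements.S2931
import Cfsg.Agent.Lib.Recog.TableIso
import Cfsg.Agent.Lib.Recog.SylowS8Inj
import Cfsg.Agent.Lib.Classical.Symplectic
import Cfsg.Agent.Lib.Classical.SympOrder
import Cfsg.Agent.Lib.Classical.QuadStd

set_option autoImplicit false
open Cfsg

namespace Cfsg.Agent.S2931

open Matrix Cfsg.Agent.Lib Cfsg.Agent.Lib.Recog.SylowS8

section

variable {p : ℕ} {R : Type} [Field R] {n : ℕ} {ι : Type} [Fintype ι] [DecidableEq ι]

/-- Transport of a matrix. -/
def tr [NeZero p] (φ : ZMod p ≃+* R) (e : Fin n ≃ ι) (A : Matrix (Fin n) (Fin n) (ZMod p)) :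
    Matrix ι ι R :=
  (A.submatrix e.symm e.symm).map φ

variable [NeZero p] (φ : ZMod p ≃+* R) (e : Fin n ≃ ι)

lemma tr_mul (A B : Matrix (Fin n) (Fin n) (ZMod p)) : tr φ e (A * B) = tr φ e A * tr φ e B := by
  unfold tr
  rw [← Matrix.submatrix_mul_equiv A B e.symm e.symm e.symm, Matrix.map_mul]

lemma tr_one : tr φ e 1 = 1 := by
  unfold tr
  rw [Matrix.submatrix_one_equiv, Matrix.map_one _ (map_zero φ) (map_one φ)]

lemma tr_neg (A : Matrix (Fin n) (Fin n) (ZMod p)) : tr φ e (-A) = -tr φ e A := by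
  ext i j
  simp [tr]

lemma tr_transpose (A : Matrix (Fin n) (Fin n) (ZMod p)) : (tr φ e A)ᵀ = tr φ e Aᵀ := rfl

lemma tr_inj : Function.Injective (tr φ e) := by
  intro A B h
  ext i j
  have := congrFun (congrFun h (e i)) (e j)
  simpa [tr] using this

lemma tr_mulVec (A : Matrix (Fin n) (Fin n) (ZMod p)) (w : Fin n → ZMod p) :
    tr φ e A *ᵥ (φ ∘ w ∘ e.symm) = φ ∘ (A *ᵥ w) ∘ e.symm := by
  ext i
  simp only [tr, Matrix.mulVec, dotProduct, Matrix.map_apply, Matrix.submatrix_apply,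
    Function.comp_apply, map_sum, map_mul]
  exact Fintype.sum_equiv e.symm _ _ fun _ => rfl

end

lemma fact_two {N k r : ℕ} (h : N = 2 ^ k * r) (hr : ¬ 2 ∣ r) : N.factorization 2 = k := by
  subst h
  rw [Nat.factorization_mul (by positivity) (fun h0 => hr (by rw [h0]; exact dvd_zero 2)),
    Finsupp.add_apply, Nat.prime_two.factorization_pow, Finsupp.single_eq_same,
    Nat.factorization_eq_zero_of_not_dvd hr, add_zero]

lemma sylow_iso {G H : Type} [Group G] [Group H] [Finite G] [Finite H] {A : Subgroup G}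
    {B : Subgroup H} (e : A ≃* B) (hA : Nat.card A = 2 ^ (Nat.card G).factorization 2)
    (hB : Nat.card B = 2 ^ (Nat.card H).factorization 2) (P : Sylow 2 G) (Q : Sylow 2 H) :
    Nonempty (P ≃* Q) :=
  ⟨((P.equiv (Sylow.ofCard A hA)).trans e).trans (Sylow.equiv (Sylow.ofCard B hB) Q)⟩

lemma jm_eq : jm.submatrix (finSumFinEquiv (m := 2) (n := 2)) (finSumFinEquiv (m := 2) (n := 2)) =
    Matrix.J (Fin 2) (ZMod 3) := by decide +kernel

/-- Generators in the alternating group. -/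
def gA (s : Fin 3) : alternatingGroup (Fin 8) :=
  ⟨permA s, Equiv.Perm.mem_alternatingGroup.2 (permA_even s)⟩

lemma elA_mem (i : Fin 64) : elA i ∈ alternatingGroup (Fin 8) :=
  list_prod_mem fun x hx => by
    obtain ⟨s, -, rfl⟩ := List.mem_map.1 hx
    exact (gA s).2

/-- Elements in the alternating group. -/
def tA (i : Fin 64) : alternatingGroup (Fin 8) := ⟨elA i, elA_mem i⟩

lemma alt_side (F : Type) [Field F] [Fintype F] (hF : Fintype.card F = 3)
    (P : Sylow 2 ↥(alternatingGroup (Fin 8))) (Q : Sylow 2 (Cfsg.PSp 2 F)) :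
    Nonempty (↥(P : Subgroup ↥(alternatingGroup (Fin 8))) ≃* ↥(Q : Subgroup (Cfsg.PSp 2 F))) := by
  classical
  let φ : ZMod 3 ≃+* F := ZMod.ringEquivOfPrime F Nat.prime_three hF
  let e : Fin 4 ≃ Fin 2 ⊕ Fin 2 := (finSumFinEquiv (m := 2) (n := 2)).symm
  have hJ : tr φ e jm = Matrix.J (Fin 2) F := by
    have h0 : jm.submatrix e.symm e.symm = Matrix.J (Fin 2) (ZMod 3) := jm_eq
    unfold tr
    rw [h0, Matrix.J, Matrix.J, Matrix.fromBlocks_map]
    congr 1 <;> ext i j <;> simp [Matrix.one_apply, apply_ite φ]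
  have hmem : ∀ A, A * jm * A.transpose = jm → tr φ e A ∈ Matrix.symplecticGroup (Fin 2) F := by
    intro A hA
    rw [SymplecticGroup.mem_iff, ← hJ, tr_transpose, ← tr_mul, ← tr_mul, hA]
  let S : Fin 64 → Matrix.symplecticGroup (Fin 2) F := fun i => ⟨_, hmem _ (matA_sympl.2.1 i)⟩
  let G : Fin 3 → Matrix.symplecticGroup (Fin 2) F := fun s => ⟨_, hmem _ (matA_sympl.2.2 s)⟩
  let z : Matrix.symplecticGroup (Fin 2) F := ⟨-1, by rw [SymplecticGroup.mem_iff]; simp⟩
  have hz : z ∈ Subgroup.center (Matrix.symplecticGroup (Fin 2) F) :=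
    Subgroup.mem_center_iff.2 fun g => Subtype.ext (by simp [z])
  obtain ⟨c1, c2, ⟨iso⟩⟩ := Recog.TableIso.iso_of_tables (0 : Fin 64) tA
    (fun i => QuotientGroup.mk' (Subgroup.center (Matrix.symplecticGroup (Fin 2) F)) (S i)) gA
    (fun s => QuotientGroup.mk' (Subgroup.center (Matrix.symplecticGroup (Fin 2) F)) (G s)) nxA parA
    (Subtype.ext elA_zero)
    (by
      rw [show S 0 = 1 from Subtype.ext (by simp [S, matA_sympl.1, tr_one]), map_one])
    (fun s i => Subtype.ext (elA_step s i))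
    (by
      intro s i
      rw [← map_mul]
      rcases matA_step s i with h | h
      · congr 1
        exact Subtype.ext (by
          show tr φ e (matA i) * tr φ e (genA s) = tr φ e (matA (nxA s i))
          rw [← tr_mul, h])
      · rw [show S i * G s = z * S (nxA s i) from Subtype.ext (by
          show tr φ e (matA i) * tr φ e (genA s) = -1 * tr φ e (matA (nxA s i))
          rw [← tr_mul, h, tr_neg, neg_one_mul]), map_mul,
          QuotientGroup.mk'_apply, (QuotientGroup.eq_one_iff z).2 hz, one_mul])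
    (fun i j h => elA_inj i j fun x => Equiv.congr_fun (congrArg Subtype.val h) x)
    (fun i j h => by
      obtain ⟨c, hc, hcS⟩ := (QuotientGroup.mk'_eq_mk' _).1 h
      obtain ⟨a, ha, hx⟩ := Classical.exists_scalar_of_mem_center 2 (by norm_num) hc
      have hcv : (c : Matrix (Fin 2 ⊕ Fin 2) (Fin 2 ⊕ Fin 2) F) = a • 1 :=
        Matrix.ext_of_mulVec_single fun k => by rw [hx, Matrix.smul_mulVec, Matrix.one_mulVec]
      have hv : tr φ e (matA i) * (a • 1) = tr φ e (matA j) := by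
        rw [← hcv]; exact congrArg Subtype.val hcS
      rw [Matrix.mul_smul, mul_one] at hv
      refine matA_inj i j ?_
      rcases mul_self_eq_one_iff.1 ha with rfl | rfl
      · exact Or.inl (tr_inj φ e (by rw [← hv, one_smul]))
      · exact Or.inr (tr_inj φ e (by rw [tr_neg, ← hv]; simp)))
    parA_ok
  refine sylow_iso iso ?_ ?_ P Q
  · have h8 : Nat.card (alternatingGroup (Fin 8)) = 2 ^ 6 * 315 := by
      have := two_mul_card_alternatingGroup (α := Fin 8)
      rw [Fintype.card_perm, Fintype.card_fin] at this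
      rw [Nat.card_eq_fintype_card]
      norm_num [Nat.factorial] at this ⊢
      omega
    rw [c1, fact_two h8 (by norm_num)]
    rfl
  · have h1 : Nat.card (Cfsg.PSp 2 F) * 2 = 2 ^ 7 * 405 := by
      have hl := Subgroup.card_eq_card_quotient_mul_card_subgroup
        (Subgroup.center (Matrix.symplecticGroup (Fin 2) F))
      rw [Classical.card_symplecticGroup, Classical.card_center_sp 2 (by norm_num), hF] at hl
      norm_num [Finset.prod_range_succ, -Nat.card_eq_fintype_card] at hl ⊢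
      exact hl.symm
    rw [c2, fact_two (show Nat.card (Cfsg.PSp 2 F) = 2 ^ 6 * 405 by omega) (by norm_num)]
    rfl

lemma orth_side (K : Type) [Field K] [Fintype K] (hK : Fintype.card K = 2) (a b : K)
    (hab : ∀ z₁ z₂ : K, z₁ ^ 2 + a * z₁ * z₂ + b * z₂ ^ 2 = 0 → z₁ = 0 ∧ z₂ = 0)
    (P' : Sylow 2 (Equiv.Perm (Fin 8)))
    (Q' : Sylow 2 ↥(Cfsg.isometryGroup K (Cfsg.quadFormMinus 2 K a b))) :
    Nonempty (↥(P' : Subgroup (Equiv.Perm (Fin 8))) ≃*
      ↥(Q' : Subgroup ↥(Cfsg.isometryGroup K (Cfsg.quadFormMinus 2 K a b)))) := by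
  classical
  let φ : ZMod 2 ≃+* K := ZMod.ringEquivOfPrime K Nat.prime_two hK
  have h01 : ∀ x : K, x = 0 ∨ x = 1 := by
    intro x
    obtain ⟨y, rfl⟩ := φ.surjective x
    fin_cases y
    · exact Or.inl (map_zero φ)
    · exact Or.inr (map_one φ)
  obtain rfl : b = 1 := (h01 b).resolve_left fun h => one_ne_zero (hab 0 1 (by simp [h])).2
  obtain rfl : a = 1 := (h01 a).resolve_left fun h => one_ne_zero (hab 1 1 (by
    rcases h01 ((1 : K) + 1) with h2 | h2
    · simp [h, h2]
    · exact absurd h2 (by simp))).2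
  let e : Fin 6 ≃ (Fin 2 ⊕ Fin 2) ⊕ Fin 2 :=
    (finSumFinEquiv (m := 4) (n := 2)).symm.trans
      (Equiv.sumCongr (finSumFinEquiv (m := 2) (n := 2)).symm (Equiv.refl _))
  have hq : ∀ w : Fin 6 → ZMod 2,
      Cfsg.quadFormMinus 2 K 1 1 (φ ∘ w ∘ e.symm) = φ (qf w) := by
    intro w
    simp only [Cfsg.quadFormMinus, qf, Fin.sum_univ_two, Function.comp_apply, one_mul, map_add,
      map_mul, map_pow]
    rfl
  let G : Fin 3 → Cfsg.isometryGroup K (Cfsg.quadFormMinus 2 K 1 1) := fun s =>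
    ⟨⟨tr φ e (genS s), tr φ e (genS s * (genS s * genS s)),
      by rw [← tr_mul, genS_inv s, tr_one],
      by rw [← tr_mul, mul_assoc, mul_assoc, genS_inv s, tr_one]⟩, by
      intro u v
      obtain ⟨w, rfl⟩ : ∃ w, φ ∘ w ∘ e.symm = u :=
        ⟨φ.symm ∘ u ∘ e, by ext i; simp⟩
      show Cfsg.quadFormMinus 2 K 1 1 (tr φ e (genS s) *ᵥ (φ ∘ w ∘ e.symm)) = _
      rw [tr_mulVec, hq, genS_eq.2 s w]
      exact (hq w).symm⟩
  have hex : ∀ i, ∃ g : Cfsg.isometryGroup K (Cfsg.quadFormMinus 2 K 1 1),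
      (g.1.1 : Matrix _ _ K) = tr φ e (matS i) := by
    intro i
    induction i using WellFoundedLT.induction with
    | _ i ih =>
      by_cases hi : i = 0
      · exact ⟨1, by rw [hi, genS_eq.1, tr_one]; rfl⟩
      · obtain ⟨hlt, hnx⟩ := parS_ok i hi
        obtain ⟨g, hg⟩ := ih _ hlt
        refine ⟨g * G (parS i).2, ?_⟩
        conv_rhs => rw [← hnx, ← matS_step, tr_mul, ← hg]
        rfl
  choose T hT using hex
  obtain ⟨c1, c2, ⟨iso⟩⟩ := Recog.TableIso.iso_of_tables (0 : Fin 128) elS T permS G nxS parS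
    elS_zero
    (Subtype.ext (Units.ext (by rw [hT, genS_eq.1, tr_one]; rfl)))
    elS_step
    (fun s i => Subtype.ext (Units.ext (by
      show (T i).1.1 * tr φ e (genS s) = (T (nxS s i)).1.1
      rw [hT, hT, ← tr_mul, matS_step])))
    (fun i j h => elS_inj i j fun x => Equiv.congr_fun h x)
    (fun i j h => matS_inj i j (tr_inj φ e (by rw [← hT, ← hT, h])))
    parS_ok
  refine sylow_iso iso ?_ ?_ P' Q'
  · have h8 : Nat.card (Equiv.Perm (Fin 8)) = 2 ^ 7 * 315 := by
      rw [Nat.card_perm, Nat.card_fin]; norm_num [Nat.factorial]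
    rw [c1, fact_two h8 (by norm_num)]
    rfl
  · have h6 : Nat.card (Cfsg.isometryGroup K (Cfsg.quadFormMinus 2 K 1 1)) = 2 ^ 7 * 405 := by
      rw [Classical.Quad.card_O_minus hab 2, hK]
      norm_num [Finset.prod_range_succ]
    rw [c2, fact_two h6 (by norm_num)]
    rfl

/-- The Sylow 2-subgroups of the alternating group of degree 8 and of PSp₄(3) are isomorphic, and so are the Sylow 2-subgroups of the symmetric group of degree 8 and of the full isometry group of a non-degenerate quadratic form of minus type in dimension 6 over the field with 2 elements. -/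
theorem result (F : Type) [Field F] [Fintype F] (hF : Fintype.card F = 3) (K : Type) [Field K] [Fintype K] (hK : Fintype.card K = 2) (a b : K) (hab : ∀ z₁ z₂ : K, z₁ ^ 2 + a * z₁ * z₂ + b * z₂ ^ 2 = 0 → z₁ = 0 ∧ z₂ = 0) (P : Sylow 2 ↥(alternatingGroup (Fin 8))) (Q : Sylow 2 (Cfsg.PSp 2 F)) (P' : Sylow 2 (Equiv.Perm (Fin 8))) (Q' : Sylow 2 ↥(Cfsg.isometryGroup K (Cfsg.quadFormMinus 2 K a b))) : Nonempty (↥(P : Subgroup ↥(alternatingGroup (Fin 8))) ≃* ↥(Q : Subgroup (Cfsg.PSp 2 F))) ∧ Nonempty (↥(P' : Subgroup (Equiv.Perm (Fin 8))) ≃* ↥(Q' : Subgroup ↥(Cfsg.isometryGroup K (Cfsg.quadFormMinus 2 K a b)))) := by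
  exact ⟨alt_side F hF P Q, orth_side K hK a b hab P' Q'⟩

end Cfsg.Agent.S2931
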