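import Cfsg.Statements.S2939
import Mathlib
import Cfsg.Agent.Lib.LocalChar.Core
-- import your own Cfsg.Agent.* helpers here

set_option autoImplicit false
open Cfsg Cfsg.Agent Cfsg.Agent.Lib.LocalChar
open scoped Pointwise

namespace Cfsg.Agent.S2939

/-- Let p be a prime dividing the order of the finite group G and 𝓕 a family of subgroups of G closed under conjugation, with conjugates taken as X^g = g⁻¹Xg. Then 𝓕 controls Sylow p-intersections in G (any two distinct Sylow p-subgroups S and T with S ∩ T ≠ 1 are joined by a chain S = S₀, S₁, …, Sₙ = T of Sylow p-subgroups where, for each i, some member Xᵢ of 𝓕 meets both S_{i-1} and Sᵢ in Sylow p-subgroups of Xᵢ, satisfies S ∩ T ≤ Sᵢ ∩ Xᵢ, and contains an element xᵢ with Sᵢ^{xᵢ} = S_{i-1}) if and only if 𝓕 strongly controls p-fusion in G (whenever A is a subset of a Sylow p-subgroup S, A contains an element other than 1, and A^g ⊆ S, the element g factorises as g = y₁⋯yₙy with y ∈ N_G(S) and each yᵢ in a member Yᵢ of 𝓕 that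 meets S in a Sylow p-subgroup of Yᵢ, with A^{y₁⋯yᵢ} ⊆ S ∩ Yᵢ for each i). -/
theorem result {G : Type*} [Group G] [Finite G] {p : ℕ} [Fact p.Prime] (hdiv : p ∣ Nat.card G) (𝓕 : Set (Subgroup G)) (h𝓕 : Cfsg.IsNormalSet 𝓕) : Cfsg.ControlsSylowIntersections p 𝓕 ↔ Cfsg.FamilyStronglyControlsFusion p 𝓕 := by
  have hcj : ∀ (v : G) (X : Subgroup G), subgroupConjRight v X = cj v⁻¹ X := fun _ _ => rfl
  have hset : ∀ (v : G) (A : Set G) (a : G), a ∈ conjRight v A → v * a * v⁻¹ ∈ A := by
    rintro v A _ ⟨b, hb, rfl⟩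
    simpa [mul_assoc] using hb
  have hmem : ∀ (S X : Subgroup G) (v : G), X ∈ sylowMembers p 𝓕 S →
      cj v X ∈ sylowMembers p 𝓕 (cj v S) := by
    rintro S X v ⟨hX, P, hP⟩
    refine ⟨by simpa [hcj] using h𝓕 X hX v⁻¹, ?_⟩
    have h1 : IsSylowIn p (S ⊓ X) X := hP ▸ IsSylowIn.ofSylow P
    have h2 : IsSylowIn p (cj v S ⊓ cj v X) (cj v X) := by
      rw [show cj v S ⊓ cj v X = cj v (S ⊓ X) from (Subgroup.map_inf S X _ (MulEquiv.injective _)).symm]
      refine ⟨cj_mono h1.1, isPGroup_cj h1.2.1, fun hd => h1.2.2 ?_⟩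
      rwa [Subgroup.relIndex_map_map_of_injective _ _ (MulEquiv.injective _)] at hd
    exact ⟨h2.sylow, by rw [h2.sylow_coe, Subgroup.map_subgroupOf_eq_of_le h2.1]⟩
  constructor
  · intro hc S A g hA hA1 hAg
    obtain ⟨a₁, ha₁, ha₁1⟩ := hA1
    set T := g • S with hT
    have hTc : (T : Subgroup G) = cj g (S : Subgroup G) := rfl
    have hAT : ∀ a ∈ A, a ∈ (T : Subgroup G) := fun a ha => by
      rw [hTc, mem_cj]
      exact hAg ⟨a, ha, rfl⟩
    by_cases hST : S = T
    · exact ⟨0, fun i => i.elim0, fun i => i.elim0, g, Sylow.smul_eq_iff_mem_normalizer.1 hST.symm,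
        fun i => i.elim0, by simp, fun i => i.elim0⟩
    obtain ⟨n, c, X, x, h0, hl, hstep⟩ := hc S T hST fun e => ha₁1 (Subgroup.mem_bot.1
      (show a₁ ∈ (⊥ : Subgroup G) from e ▸ ⟨hA ha₁, hAT a₁ ha₁⟩))
    let w : ℕ → G := fun j => Nat.rec 1 (fun k r => if h : k < n then x ⟨k, h⟩ * r else r) j
    have hw : ∀ i : Fin n, w (i.val + 1) = x i * w i.val := fun i => dif_pos i.2
    have hcS : ∀ j (h : j < n + 1), cj (w j)⁻¹ (c ⟨j, h⟩ : Subgroup G) = (S : Subgroup G) := by
      intro j
      induction j with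
      | zero => intro h; rw [show (⟨0, h⟩ : Fin (n + 1)) = 0 from rfl, h0]; simp [w]
      | succ j ih =>
        intro h
        obtain ⟨-, -, -, hx, -⟩ := hstep ⟨j, by omega⟩
        rw [hw ⟨j, by omega⟩, mul_inv_rev, ← cj_cj]
        rw [hcj] at hx
        exact (congrArg _ hx).trans (ih (by omega))
    let y : Fin n → G := fun i => (w i.val)⁻¹ * x i * w i.val
    have hprod : ∀ j, j ≤ n → ((List.ofFn y).take j).prod = w j := by
      intro j
      induction j with
      | zero => intro _; rfl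
      | succ j ih =>
        intro hj
        rw [List.prod_take_succ _ _ (by simpa using hj), ih (by omega), List.getElem_ofFn,
          hw ⟨j, by omega⟩]
        simp only [y]
        group
    refine ⟨n, fun i => cj (w i.val)⁻¹ (X i), y, (w n)⁻¹ * g, ?_, fun i => ⟨?_, ?_⟩, ?_, ?_⟩
    · have h1 := hcS n (by omega)
      rw [show (⟨n, _⟩ : Fin (n + 1)) = Fin.last n from rfl, hl, hTc, cj_cj] at h1
      exact mem_nz_of_cj_eq h1
    · have h1 := hmem _ _ (w i.val)⁻¹ (hstep i).1
      rwa [show i.castSucc = (⟨i.val, by omega⟩ : Fin (n + 1)) from rfl, hcS] at h1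
    · rw [mem_cj]
      convert (hstep i).2.2.1 using 1
      simp only [y]
      group
    · have := hprod n le_rfl
      rw [List.take_of_length_le (by simp)] at this
      rw [this]; group
    · intro i
      obtain ⟨-, -, hxX, -, hD⟩ := hstep i
      rw [hprod _ i.2]
      rintro _ ⟨a, ha, rfl⟩
      have ha' := hD ⟨hA ha, hAT a ha⟩
      refine ⟨?_, ?_⟩
      · show (w (i.val + 1))⁻¹ * a * w (i.val + 1) ∈ (S : Subgroup G)
        rw [← hcS (i.val + 1) (by omega), mem_cj]
        have hm : a ∈ (c ⟨i.val + 1, by omega⟩ : Subgroup G) := ha'.1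
        simpa [mul_assoc] using hm
      · show (w (i.val + 1))⁻¹ * a * w (i.val + 1) ∈ cj (w i.val)⁻¹ (X i)
        rw [mem_cj, hw i]
        have h1 := (X i).mul_mem ((X i).mul_mem ((X i).inv_mem hxX) ha'.2) hxX
        convert h1 using 1
        group
  · intro hf S T hST hne
    obtain ⟨g, hg⟩ := MulAction.exists_smul_eq G S T
    have hTc : (T : Subgroup G) = cj g (S : Subgroup G) := by rw [← hg]; rfl
    obtain ⟨a, ha, ha1⟩ := (Subgroup.bot_or_exists_ne_one _).resolve_left hne
    obtain ⟨n, Y, y, y₀, hy₀, hY, hgy, hA⟩ := hf S (((S : Subgroup G) ⊓ (T : Subgroup G) : Subgroup G) : Set G) g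
      (fun u hu => hu.1) ⟨a, ha, ha1⟩ (by
        rintro _ ⟨u, hu, rfl⟩
        have := hu.2
        rw [hTc] at this
        exact mem_cj.1 this)
    set w : ℕ → G := fun j => ((List.ofFn y).take j).prod with hwdef
    have hw : ∀ i : Fin n, w (i.val + 1) = w i.val * y i := fun i => by
      simp only [hwdef]
      rw [List.prod_take_succ _ _ (by simp), List.getElem_ofFn]
    refine ⟨n, fun j => w j.val • S, fun i => cj (w i.val) (Y i),
      fun i => w (i.val + 1) * (w i.val)⁻¹, ?_, ?_, fun i => ⟨?_, ?_, ?_, ?_, ?_⟩⟩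
    · simp [hwdef]
    · show w n • S = T
      rw [← hg, hgy, mul_smul, Sylow.smul_eq_iff_mem_normalizer.2 hy₀]
      simp only [hwdef]
      rw [List.take_of_length_le (by simp)]
    · exact hmem _ _ _ (hY i).1
    · show cj (w i.val) (Y i) ∈ sylowMembers p 𝓕 (cj (w (i.val + 1)) (S : Subgroup G))
      rw [hw i, show cj (w i.val) (Y i) = cj (w i.val * y i) (Y i) by
        rw [← cj_cj, cj_eq_of_mem_nz (Subgroup.le_normalizer (hY i).2)]]
      exact hmem _ _ _ (hY i).1
    · show w (i.val + 1) * (w i.val)⁻¹ ∈ cj (w i.val) (Y i)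
      rw [hw i, mem_cj]
      convert (hY i).2 using 1
      group
    · show cj _ (cj (w (i.val + 1)) (S : Subgroup G)) = cj (w i.val) (S : Subgroup G)
      rw [cj_cj]
      congr 1
      group
    · intro u hu
      have h1 := hA i ⟨u, hu, rfl⟩
      refine ⟨?_, ?_⟩
      · show u ∈ cj (w (i.val + 1)) (S : Subgroup G)
        rw [mem_cj]; exact h1.1
      · show u ∈ cj (w i.val) (Y i)
        rw [mem_cj]
        have h2 : (w i.val * y i)⁻¹ * u * (w i.val * y i) ∈ Y i := by rw [← hw i]; exact h1.2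
        have h3 := (Y i).mul_mem ((Y i).mul_mem (hY i).2 h2) ((Y i).inv_mem (hY i).2)
        convert h3 using 1
        group

end Cfsg.Agent.S2939
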