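import Cfsg.Statements.S2940
-- import your own Cfsg.Agent.* helpers here

set_option autoImplicit false
open Cfsg

namespace Cfsg.Agent.S2940

/-- Let S be a Sylow p-subgroup of the finite group G and G₁, G₂ subgroups containing S with G = G₁G₂. Then for every g ∈ G there is a Sylow p-subgroup U of G with S ∩ S^g ≤ U ≤ G₁ ∩ G₂^g (conjugates taken as X^g = g⁻¹Xg). -/
theorem result {G : Type*} [Group G] [Finite G] {p : ℕ} [Fact p.Prime] (S : Sylow p G) (G₁ G₂ : Subgroup G) (h1 : (S : Subgroup G) ≤ G₁) (h2 : (S : Subgroup G) ≤ G₂) (hfact : ∀ g : G, ∃ g₁ ∈ G₁, ∃ g₂ ∈ G₂, g = g₁ * g₂) (g : G) : ∃ U : Sylow p G, (S : Subgroup G) ⊓ Cfsg.subgroupConjRight g (S : Subgroup G) ≤ (U : Subgroup G) ∧ (U : Subgroup G) ≤ G₁ ⊓ Cfsg.subgroupConjRight g G₂ := by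
  obtain ⟨a, ha, b, hb, hab⟩ := hfact g⁻¹
  set I := G₁ ⊓ Cfsg.subgroupConjRight g G₂ with hI
  have hconj : Cfsg.subgroupConjRight g G₂ = G₂.map (MulAut.conj a).toMonoidHom := by
    ext z
    simp only [Cfsg.subgroupConjRight, Subgroup.mem_map]
    constructor
    · rintro ⟨y, hy, rfl⟩
      refine ⟨b * y * b⁻¹, G₂.mul_mem (G₂.mul_mem hb hy) (G₂.inv_mem hb), ?_⟩
      simp [hab, mul_assoc]
    · rintro ⟨y, hy, rfl⟩
      refine ⟨b⁻¹ * y * b, G₂.mul_mem (G₂.mul_mem (G₂.inv_mem hb) hy) hb, ?_⟩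
      simp [hab, mul_assoc]
  have hS' : ((a • S : Sylow p G) : Subgroup G) ≤ I := by
    rw [Sylow.coe_subgroup_smul]
    rintro _ ⟨s, hs, rfl⟩
    refine ⟨?_, ?_⟩
    · exact G₁.mul_mem (G₁.mul_mem ha (h1 hs)) (G₁.inv_mem ha)
    · rw [hconj]; exact ⟨s, h2 hs, rfl⟩
  have hDI : (S : Subgroup G) ⊓ Cfsg.subgroupConjRight g (S : Subgroup G) ≤ I :=
    inf_le_inf h1 (Subgroup.map_mono h2)
  have hDp : IsPGroup p (((S : Subgroup G) ⊓ Cfsg.subgroupConjRight g (S : Subgroup G)).subgroupOf I) :=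
    (S.2.to_inf_left).comap_subtype
  obtain ⟨Q, hQ⟩ := hDp.exists_le_sylow
  obtain ⟨i, hi⟩ := MulAction.exists_smul_eq I ((a • S).subtype hS') Q
  refine ⟨(i : G) • (a • S), ?_, ?_⟩
  · intro d hd
    have hdQ : (⟨d, hDI hd⟩ : I) ∈ (Q : Subgroup I) := hQ hd
    rw [← hi, Sylow.coe_subgroup_smul] at hdQ
    obtain ⟨s, hs, hsd⟩ := hdQ
    rw [Sylow.coe_subgroup_smul]
    exact ⟨(s : G), hs, congrArg Subtype.val hsd⟩
  · exact Sylow.smul_le hS' i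

end Cfsg.Agent.S2940
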