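import Cfsg.Statements.S2955
import Mathlib
import Cfsg.Agent.Lib.LocalChar.Core
import Cfsg.Agent.S2939
-- import your own Cfsg.Agent.* helpers here

set_option autoImplicit false
open Cfsg Cfsg.Agent Cfsg.Agent.Lib.LocalChar
open scoped Pointwise

namespace Cfsg.Agent.S2955

/-- Let p be a prime dividing the order of the finite group G and 𝓕 a conjugation-closed family of subgroups that controls Sylow p-intersections in G. Suppose the Sylow p-subgroups of G are chain-connected: any two of them are joined by a chain of Sylow p-subgroups, consecutive ones distinct with nontrivial intersection, all containing the intersection of the two ends (equivalently, the graph on the Sylow p-subgroups whose edges are the distinct pairs meeting nontrivially is connected). Then for every Sylow p-subgroup S, G is generated by N_G(S) together with the members of 𝓕 that meet S in a Sylow p-subgroup of themselves. -/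
theorem result {G : Type*} [Group G] [Finite G] (p : ℕ) [Fact p.Prime] (hdiv : p ∣ Nat.card G)
    (𝓕 : Set (Subgroup G)) (h𝓕 : Cfsg.IsNormalSet 𝓕) (hc : Cfsg.ControlsSylowIntersections p 𝓕)
    (hconn : Cfsg.IsSylowChainConnected p G) (S : Sylow p G) :
    (⨆ X ∈ Cfsg.sylowMembers p 𝓕 (S : Subgroup G), X) ⊔ Subgroup.normalizer ((S : Subgroup G) : Set G) = ⊤ := by
  have hf := (Cfsg.Agent.S2939.result hdiv 𝓕 h𝓕).1 hc
  set L := (⨆ X ∈ Cfsg.sylowMembers p 𝓕 (S : Subgroup G), X) ⊔
    Subgroup.normalizer ((S : Subgroup G) : Set G) with hL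
  have hstep : ∀ h : G, (S : Subgroup G) ⊓ ((h • S : Sylow p G) : Subgroup G) ≠ ⊥ → h ∈ L := by
    intro h hne
    obtain ⟨a, ha, ha1⟩ := (Subgroup.bot_or_exists_ne_one _).resolve_left hne
    obtain ⟨n, Y, y, y₀, hy₀, hY, hgy, -⟩ := hf S
      (((S : Subgroup G) ⊓ ((h • S : Sylow p G) : Subgroup G) : Subgroup G) : Set G) h
      (fun u hu => hu.1) ⟨a, ha, ha1⟩ (by
        rintro _ ⟨u, hu, rfl⟩
        exact mem_cj.1 (show u ∈ cj h (S : Subgroup G) from hu.2))
    rw [hgy]
    refine L.mul_mem (L.list_prod_mem fun z hz => ?_) (Subgroup.mem_sup_right hy₀)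
    obtain ⟨i, rfl⟩ := List.mem_ofFn.1 hz
    exact Subgroup.mem_sup_left (le_iSup₂ (f := fun X _ => X) (Y i) (hY i).1 (hY i).2)
  rw [eq_top_iff]
  intro g _
  obtain ⟨n, c, h0, hl, -, hadj⟩ := hconn S (g • S)
  have hall : ∀ i : Fin (n + 1), ∃ l ∈ L, l • S = c i := by
    intro i
    induction i using Fin.induction with
    | zero => exact ⟨1, L.one_mem, by rw [one_smul, h0]⟩
    | succ j ih =>
      obtain ⟨l, hl', hlc⟩ := ih
      obtain ⟨h, hh⟩ := MulAction.exists_smul_eq G S (c j.succ)
      refine ⟨h, ?_, hh⟩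
      have := hstep (l⁻¹ * h) fun e => (hadj j).2 ?_
      · simpa using L.mul_mem hl' this
      have e2 := congrArg (cj l) e
      rw [show cj l ((S : Subgroup G) ⊓ ((l⁻¹ * h) • S : Sylow p G)) =
          cj l (S : Subgroup G) ⊓ cj l (cj (l⁻¹ * h) (S : Subgroup G)) from
        Subgroup.map_inf _ _ _ (MulEquiv.injective _), cj_cj, mul_inv_cancel_left] at e2
      rw [← hlc, ← hh]
      exact e2.trans (Subgroup.map_bot _)
  obtain ⟨l, hl', hle⟩ := hall (Fin.last n)
  rw [hl] at hle
  have : l⁻¹ * g ∈ Subgroup.normalizer ((S : Subgroup G) : Set G) :=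
    Sylow.smul_eq_iff_mem_normalizer.1 (by rw [mul_smul, ← hle, inv_smul_smul])
  show g ∈ L
  simpa using L.mul_mem hl' (Subgroup.mem_sup_right this : l⁻¹ * g ∈ L)

end Cfsg.Agent.S2955
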