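import Cfsg.Statements.S2958
-- import your own Cfsg.Agent.* helpers here

set_option autoImplicit false
open Cfsg

namespace Cfsg.Agent.S2958

/-- Let X, A, B be subgroups of a group G such that G is generated by the conjugates of X and every conjugate of X is contained in A or in B. Then A = G or B = G. -/
theorem result {G : Type*} [Group G] (X A B : Subgroup G) (hgen : (⨆ g : G, X.map (MulAut.conj g).toMonoidHom) = ⊤) (hcover : ∀ g : G, X.map (MulAut.conj g).toMonoidHom ≤ A ∨ X.map (MulAut.conj g).toMonoidHom ≤ B) : A = ⊤ ∨ B = ⊤ := by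
  -- members lying in `A` but not in `B`
  let 𝒜 : Set G := {g | X.map (MulAut.conj g).toMonoidHom ≤ A ∧ ¬ X.map (MulAut.conj g).toMonoidHom ≤ B}
  by_cases hne : 𝒜.Nonempty
  swap
  · right
    rw [eq_top_iff, ← hgen]
    refine iSup_le fun g => (hcover g).elim (fun h => ?_) id
    by_contra hB
    exact hne ⟨g, h, hB⟩
  left
  have hmapconj : ∀ a g : G, (X.map (MulAut.conj g).toMonoidHom).map (MulAut.conj a).toMonoidHom
      = X.map (MulAut.conj (a * g)).toMonoidHom := by
    intro a g
    rw [Subgroup.map_map]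
    congr 1
    ext x
    simp [mul_assoc]
  -- conjugation by an element of a member not in `𝒜` preserves `𝒜`
  have hinv : ∀ h : G, h ∉ 𝒜 → ∀ y ∈ X.map (MulAut.conj h).toMonoidHom, ∀ g ∈ 𝒜, y * g ∈ 𝒜 := by
    intro h hh y hy g hg
    have hhB : X.map (MulAut.conj h).toMonoidHom ≤ B := (hcover h).elim
      (fun hA => by
        by_contra hB
        exact hh ⟨hA, hB⟩) id
    have hyB : y ∈ B := hhB hy
    have hnB : ¬ X.map (MulAut.conj (y * g)).toMonoidHom ≤ B := by
      intro hle
      apply hg.2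
      intro x hx
      have hm : y * x * y⁻¹ ∈ X.map (MulAut.conj (y * g)).toMonoidHom := by
        rw [← hmapconj]
        exact ⟨x, hx, by simp⟩
      have := B.mul_mem (B.mul_mem (B.inv_mem hyB) (hle hm)) hyB
      simpa [mul_assoc] using this
    exact ⟨(hcover (y * g)).resolve_right hnB, hnB⟩
  set U : Subgroup G := ⨆ g ∈ 𝒜, X.map (MulAut.conj g).toMonoidHom with hUdef
  have hUA : U ≤ A := iSup₂_le fun g hg => hg.1
  have hmem : ∀ g ∈ 𝒜, X.map (MulAut.conj g).toMonoidHom ≤ U := fun g hg =>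
    le_iSup₂ (f := fun g (_ : g ∈ 𝒜) => X.map (MulAut.conj g).toMonoidHom) g hg
  have hnorm : ∀ h : G, X.map (MulAut.conj h).toMonoidHom ≤ Subgroup.normalizer (U : Set G) := by
    intro h
    by_cases hh : h ∈ 𝒜
    · exact (hmem h hh).trans Subgroup.le_normalizer
    intro y hy
    have hmap : ∀ z ∈ X.map (MulAut.conj h).toMonoidHom, U.map (MulAut.conj z).toMonoidHom ≤ U := by
      intro z hz
      rw [hUdef, Subgroup.map_iSup]
      refine iSup_le fun g => ?_
      rw [Subgroup.map_iSup]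
      refine iSup_le fun hg => ?_
      rw [hmapconj]
      exact hmem _ (hinv h hh z hz g hg)
    rw [Subgroup.mem_normalizer_iff]
    intro u
    constructor
    · intro hu
      exact hmap y hy ⟨u, hu, by simp⟩
    · intro hu
      exact hmap y⁻¹ (Subgroup.inv_mem _ hy) ⟨y * u * y⁻¹, hu, by simp [mul_assoc]⟩
  have hNtop : Subgroup.normalizer (U : Set G) = ⊤ := by
    rw [eq_top_iff, ← hgen]; exact iSup_le hnorm
  obtain ⟨g₀, hg₀⟩ := hne
  rw [eq_top_iff, ← hgen]
  refine iSup_le fun g => le_trans ?_ hUA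
  have hU : U.Normal := Subgroup.normalizer_eq_top_iff.1 hNtop
  intro x hx
  obtain ⟨x₀, hx₀, rfl⟩ := hx
  have h1 : g₀ * x₀ * g₀⁻¹ ∈ U := hmem g₀ hg₀ ⟨x₀, hx₀, by simp⟩
  have := hU.conj_mem _ h1 (g * g₀⁻¹)
  simpa [mul_assoc] using this

end Cfsg.Agent.S2958
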