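import Cfsg.Statements.S2959
import Mathlib
import Cfsg.Agent.Lib.LocalChar.PReduced
-- import your own Cfsg.Agent.* helpers here

set_option autoImplicit false
open Cfsg Cfsg.Agent Cfsg.Agent.Lib.LocalChar

namespace Cfsg.Agent.S2959

/-- Let G be a finite group of characteristic p, that is C_G(O_p(G)) ≤ O_p(G), with p prime, and let L be a subgroup of G normalized by O_p(G). Then L has characteristic p: C_L(O_p(L)) ≤ O_p(L). -/
theorem result {G : Type*} [Group G] [Finite G] {p : ℕ} [Fact p.Prime] (hG : Subgroup.centralizer (Cfsg.pCore p G : Set G) ≤ Cfsg.pCore p G) (L : Subgroup G) (hL : Cfsg.pCore p G ≤ Subgroup.normalizer (L : Set G)) : Subgroup.centralizer (Cfsg.pCore p ↥L : Set ↥L) ≤ Cfsg.pCore p ↥L := by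
  have hQn : (pCore p G).Normal := Lib.LocalChar.pCore_normal
  have hQ : IsPGroup p (pCore p G) := Lib.LocalChar.pCore_isPGroup
  refine charP_iff.2 (isCharPOf_of_forall fun x hx ho hc => ?_)
  have h : ∀ q ∈ pCore p G, Commute x q := by
    refine commute_of_chain (B := pCore p G ⊓ L) hQ (fun a ha => hQn.conj_mem a ha x) ho
      (fun b hb => hc b ?_) ?_
    · refine le_pCoreOf inf_le_right (le_nz_inf ?_ Subgroup.le_normalizer)
        (hQ.to_le inf_le_left) hb
      rw [Subgroup.normalizer_eq_top]; exact le_top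
    · intro a ha
      refine ⟨(pCore p G).mul_mem (inv_mem ha) (hQn.conj_mem a ha x), ?_⟩
      have := L.mul_mem (conj_mem_of_nz (hL (inv_mem ha)) hx) (L.inv_mem hx)
      simpa [mul_assoc] using this
  exact eq_one_of_isPGroup_of_coprime hQ
    (hG (Subgroup.mem_centralizer_iff.2 fun a ha => (h a ha).eq.symm)) ho

end Cfsg.Agent.S2959
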