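import Cfsg.Statements.S2960
import Mathlib
import Cfsg.Agent.Lib.LocalChar.PReduced
-- import your own Cfsg.Agent.* helpers here

set_option autoImplicit false
open Cfsg Cfsg.Agent Cfsg.Agent.Lib.LocalChar

namespace Cfsg.Agent.S2960

/-- Let G be a finite group of characteristic p (C_G(O_p(G)) ≤ O_p(G)), p prime, T a Sylow p-subgroup of G and Q a normal subgroup of T with C_T(Q) ≤ Q. Then C_G(Q) ≤ Q. -/
theorem result {G : Type*} [Group G] [Finite G] {p : ℕ} [Fact p.Prime] (hG : Subgroup.centralizer (Cfsg.pCore p G : Set G) ≤ Cfsg.pCore p G) (T : Sylow p G) (Q : Subgroup G) (hQT : Q ≤ (T : Subgroup G)) (hQn : (T : Subgroup G) ≤ Subgroup.normalizer (Q : Set G)) (hC : (T : Subgroup G) ⊓ Subgroup.centralizer (Q : Set G) ≤ Q) : Subgroup.centralizer (Q : Set G) ≤ Q := by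
  have hQp : IsPGroup p Q := T.isPGroup'.to_le hQT
  have hP : IsPGroup p (pCore p G) := Lib.LocalChar.pCore_isPGroup
  have hPn : (pCore p G).Normal := Lib.LocalChar.pCore_normal
  have hCp : IsPGroup p (Subgroup.centralizer (Q : Set G)) := by
    rw [isPGroup_iff_forall_coprime]
    intro x hx ho
    have hxQ : ∀ a ∈ Q, Commute x a := fun a ha => (Subgroup.mem_centralizer_iff.1 hx a ha).symm
    have h := thompson_AxB hP hQp (by rw [Subgroup.normalizer_eq_top]; exact le_top)
      (fun u hu => hPn.conj_mem u hu x) ho hxQ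
      (fun u hu => hxQ u (hC ⟨Lib.LocalChar.pCore_le_sylow T hu.1, hu.2⟩))
    exact eq_one_of_isPGroup_of_coprime hP
      (hG (Subgroup.mem_centralizer_iff.2 fun a ha => (h a ha).eq.symm)) ho
  have hTN : (T : Subgroup G) ≤ Subgroup.normalizer ((Subgroup.centralizer (Q : Set G) : Subgroup G) : Set G) :=
    le_nz_centralizer hQn
  have := T.is_maximal' (hCp.to_sup_of_normal_left' T.isPGroup' hTN) le_sup_right
  exact fun c hc => hC ⟨this ▸ Subgroup.mem_sup_left hc, hc⟩

end Cfsg.Agent.S2960
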