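import Cfsg.Statements.S2961
import Mathlib
import Cfsg.Agent.Lib.LocalChar.PReduced
import Cfsg.Agent.S2960
-- import your own Cfsg.Agent.* helpers here

set_option autoImplicit false
open Cfsg Cfsg.Agent Cfsg.Agent.Lib.LocalChar

namespace Cfsg.Agent.S2961

/-- Let G be a finite group of characteristic p (C_G(O_p(G)) ≤ O_p(G)), p prime, T a Sylow p-subgroup of G and Q a normal subgroup of T with C_T(Q) ≤ Q. Then every subgroup L of G containing Q has characteristic p: C_L(O_p(L)) ≤ O_p(L). -/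
theorem result {G : Type*} [Group G] [Finite G] {p : ℕ} [Fact p.Prime] (hG : Subgroup.centralizer (Cfsg.pCore p G : Set G) ≤ Cfsg.pCore p G) (T : Sylow p G) (Q : Subgroup G) (hQT : Q ≤ (T : Subgroup G)) (hQn : (T : Subgroup G) ≤ Subgroup.normalizer (Q : Set G)) (hC : (T : Subgroup G) ⊓ Subgroup.centralizer (Q : Set G) ≤ Q) (L : Subgroup G) (hQL : Q ≤ L) : Subgroup.centralizer (Cfsg.pCore p ↥L : Set ↥L) ≤ Cfsg.pCore p ↥L := by
  have hQp : IsPGroup p Q := T.isPGroup'.to_le hQT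
  have hCQ : Subgroup.centralizer (Q : Set G) ≤ Q :=
    Cfsg.Agent.S2960.result hG T Q hQT hQn hC
  have hPp : IsPGroup p (pCore p G) := Lib.LocalChar.pCore_isPGroup
  have hPn : (pCore p G).Normal := Lib.LocalChar.pCore_normal
  have hPT : pCore p G ≤ (T : Subgroup G) := Lib.LocalChar.pCore_le_sylow T
  set P := pCore p G
  set R := P ⊓ L with hR
  have hLR : L ≤ Subgroup.normalizer (R : Set G) :=
    le_nz_inf (by rw [Subgroup.normalizer_eq_top]; exact le_top) Subgroup.le_normalizer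
  have hRcore : R ≤ pCoreOf p L := le_pCoreOf inf_le_right hLR (hPp.to_le inf_le_left)
  let M : Subgroup G :=
    { carrier := {m | m ∈ L ∧ ∀ a ∈ P, a⁻¹ * (m * a * m⁻¹) ∈ R}
      one_mem' := ⟨L.one_mem, fun a _ => by simp [R.one_mem]⟩
      mul_mem' := fun {m n} hm hn => ⟨L.mul_mem hm.1 hn.1, fun a ha => by
        have h1 := R.mul_mem (hm.2 a ha) (conj_mem_of_nz (hLR hm.1) (hn.2 a ha))
        convert h1 using 1; group⟩
      inv_mem' := fun {m} hm => ⟨L.inv_mem hm.1, fun a ha => by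
        have h0 := hm.2 _ (hPn.conj_mem a ha m⁻¹)
        have h1 := R.inv_mem h0
        convert h1 using 1; group⟩ }
  have hMn : ∀ l ∈ L, ∀ m ∈ M, l * m * l⁻¹ ∈ M := fun l hl m hm =>
    ⟨L.mul_mem (L.mul_mem hl hm.1) (L.inv_mem hl), fun a ha => by
      have h1 := conj_mem_of_nz (hLR hl) (hm.2 _ (hPn.conj_mem a ha l⁻¹))
      convert h1 using 1; group⟩
  have hQM : ∀ q ∈ Q, q ∈ M := fun q hq => ⟨hQL hq, fun a ha => by
    refine ⟨P.mul_mem (P.inv_mem ha) (hPn.conj_mem a ha q), ?_⟩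
    have h1 : a⁻¹ * q * a ∈ Q := by
      simpa using conj_mem_of_nz (hQn (hPT (P.inv_mem ha))) hq
    have h2 := L.mul_mem (hQL h1) (L.inv_mem (hQL hq))
    show _ ∈ L
    convert h2 using 1; group⟩
  set K := L ⊓ Subgroup.centralizer (pCoreOf p L : Set G) with hK
  have hKn : L ≤ Subgroup.normalizer (K : Set G) :=
    le_nz_inf Subgroup.le_normalizer (le_nz_centralizer (le_nz_pCoreOf L))
  have hMK : M ⊓ K ≤ pCoreOf p L := by
    refine le_pCoreOf (inf_le_right.trans inf_le_left)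
      (le_nz_inf (le_nz_of_cj fun l hl => ?_) hKn) ?_
    · exact cj_eq_of_mem_nz (mem_nz_of_cj_le (cj_le_iff.2 (hMn l hl)))
    rw [isPGroup_iff_forall_coprime]
    intro y hy ho
    have h := commute_of_chain (B := R) hPp (fun a ha => hPn.conj_mem a ha y) ho
      (fun b hb => (Subgroup.mem_centralizer_iff.1 hy.2.2 b (hRcore hb)).symm) hy.1.2
    exact eq_one_of_isPGroup_of_coprime hPp
      (hG (Subgroup.mem_centralizer_iff.2 fun a ha => (h a ha).eq.symm)) ho
  refine charP_iff.2 (isCharPOf_of_forall fun x hx ho hc => ?_)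
  have hxK : x ∈ K := ⟨hx, Subgroup.mem_centralizer_iff.2 fun a ha => (hc a ha).eq.symm⟩
  refine eq_one_of_isPGroup_of_coprime hQp (hCQ (Subgroup.mem_centralizer_iff.2 fun q hq => ?_)) ho
  have hmem : q⁻¹ * (x * q * x⁻¹) ∈ pCoreOf p L := by
    refine hMK ⟨M.mul_mem (M.inv_mem (hQM q hq)) (hMn x hx q (hQM q hq)), ?_⟩
    have h1 := K.mul_mem (conj_mem_of_nz (hKn (L.inv_mem (hQL hq))) hxK) (K.inv_mem hxK)
    show _ ∈ K
    convert h1 using 1; group
  obtain ⟨k, hk⟩ := isPGroup_pCoreOf L ⟨_, hmem⟩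
  exact (commute_of_two_step ho (hc _ hmem) ⟨k, by simpa using congrArg Subtype.val hk⟩).eq.symm

end Cfsg.Agent.S2961
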