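import Cfsg.Statements.S2963
import Mathlib

set_option autoImplicit false
open Cfsg
open scoped Pointwise

namespace Cfsg.Agent.S2963

/-- Let n be odd. If the symmetric group of degree n is a minimal parabolic group for the prime 2, that is, a Sylow 2-subgroup is not normal and lies in exactly one maximal subgroup, then n = 2^m + 1 for some natural number m. -/
theorem result (n : ℕ) (hn : Odd n) (h : Cfsg.IsPMinimal 2 (Equiv.Perm (Fin n))) : ∃ m : ℕ, n = 2 ^ m + 1 := by
  classical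
  obtain ⟨S⟩ : Nonempty (Sylow 2 (Equiv.Perm (Fin n))) := inferInstance
  obtain ⟨hnn, M, -, huniq⟩ := h S
  have hn1 : n ≠ 1 := by
    rintro rfl
    exact hnn ⟨fun x _ g => by
      rw [Subsingleton.elim (g * x * g⁻¹) x]; assumption⟩
  let orb : Fin n → Set (Fin n) := fun i => MulAction.orbit (S : Subgroup (Equiv.Perm (Fin n))) i
  have hcard : ∀ i, ∃ k, (orb i).ncard = 2 ^ k := fun i => by
    obtain ⟨k, hk⟩ := S.isPGroup'.card_orbit i
    exact ⟨k, by rw [← hk, Nat.card_coe_set_eq]⟩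
  have hdisj : ∀ i j, j ∉ orb i → ∀ z ∈ orb j, z ∉ orb i := by
    intro i j hj z hz hz'
    apply hj
    rw [← MulAction.orbit_eq_iff] at hz hz' ⊢
    rw [← hz, hz']
  have hn0 : 0 < n := by obtain ⟨k, hk⟩ := hn; omega
  let x : Fin n := ⟨0, hn0⟩
  -- the first orbit is not everything
  obtain ⟨y, hy⟩ : ∃ y, y ∉ orb x := by
    by_contra! hh
    obtain ⟨k, hk⟩ := hcard x
    rw [Set.eq_univ_iff_forall.2 hh, Set.ncard_univ, Nat.card_fin] at hk
    rcases Nat.eq_zero_or_pos k with rfl | hk0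
    · exact hn1 (by simpa using hk)
    · rw [hk] at hn
      exact absurd (Nat.even_pow.2 ⟨even_two, hk0.ne'⟩) (Nat.not_even_iff_odd.2 hn)
  by_cases hz : ∀ z, z ∈ orb x ∨ z ∈ orb y
  · have hu : (orb x ∪ orb y) = Set.univ := Set.eq_univ_iff_forall.2 hz
    have hd : Disjoint (orb x) (orb y) := Set.disjoint_left.2 fun z hzx hzy => hdisj x y hy z hzy hzx
    have := Set.ncard_union_eq hd
    rw [hu, Set.ncard_univ, Nat.card_fin] at this
    obtain ⟨a, ha⟩ := hcard x
    obtain ⟨b, hb⟩ := hcard y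
    rw [ha, hb] at this
    rcases Nat.eq_zero_or_pos a with rfl | ha0
    · exact ⟨b, by rw [this]; simp [add_comm]⟩
    rcases Nat.eq_zero_or_pos b with rfl | hb0
    · exact ⟨a, by rw [this]; simp⟩
    rw [this] at hn
    exact absurd ((Nat.even_pow.2 ⟨even_two, ha0.ne'⟩).add (Nat.even_pow.2 ⟨even_two, hb0.ne'⟩))
      (Nat.not_even_iff_odd.2 hn)
  exfalso
  push Not at hz
  obtain ⟨z, hzx, hzy⟩ := hz
  have hmax : ∀ i w, w ∉ orb i → IsCoatom (MulAction.stabilizer (Equiv.Perm (Fin n)) (orb i)) ∧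
      (S : Subgroup (Equiv.Perm (Fin n))) ≤ MulAction.stabilizer (Equiv.Perm (Fin n)) (orb i) := by
    intro i w hw
    refine ⟨Equiv.Perm.isCoatom_stabilizer ⟨i, MulAction.mem_orbit_self i⟩ ⟨w, hw⟩ ?_, fun g hg => ?_⟩
    · rw [Nat.card_fin]
      obtain ⟨k, hk⟩ := hn
      omega
    · rw [MulAction.mem_stabilizer_iff]
      exact MulAction.smul_orbit (⟨g, hg⟩ : (S : Subgroup (Equiv.Perm (Fin n)))) i
  have e1 := huniq _ (hmax x y hy)
  have e2 := huniq _ (hmax y z hzy)
  have hmem : Equiv.swap y z ∈ MulAction.stabilizer (Equiv.Perm (Fin n)) (orb x) := by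
    rw [MulAction.mem_stabilizer_iff]
    ext w
    rw [Set.mem_smul_set_iff_inv_smul_mem, Equiv.swap_inv, Equiv.Perm.smul_def]
    by_cases h1 : w = y
    · subst h1; simp [hy, hzx]
    by_cases h2 : w = z
    · subst h2; simp [hy, hzx]
    rw [Equiv.swap_apply_of_ne_of_ne h1 h2]
  rw [e1, ← e2, MulAction.mem_stabilizer_iff] at hmem
  have : z ∈ Equiv.swap y z • orb y := ⟨y, MulAction.mem_orbit_self y, by simp⟩
  rw [hmem] at this
  exact hzy this

end Cfsg.Agent.S2963
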