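import Cfsg.Statements.S2998
import Mathlib
import Cfsg.Agent.Lib.LocalChar.Core
-- import your own Cfsg.Agent.* helpers here

set_option autoImplicit false
open Cfsg Cfsg.Agent Cfsg.Agent.Lib.LocalChar
open scoped Pointwise

namespace Cfsg.Agent.S2998

/-- Let G be a finite group, p a prime, P a Sylow p-subgroup of G and x ∈ P an element such that N_G(R) ≤ C_G(x) for every nontrivial subgroup R of P. Then P ≤ C_G(x); every G-conjugate of x lying in P equals x (so g ∈ C_G(x) whenever g x g⁻¹ ∈ P); and for every normal subgroup N of G, the image of x in G ⧸ N has the same property with respect to the image of P: the normalizer of every nontrivial subgroup of the image of P centralizes the image of x. -/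
theorem result {G : Type*} [Group G] [Finite G] {p : ℕ} [Fact p.Prime] (P : Sylow p G) (x : G) (hxP : x ∈ (P : Subgroup G)) (hlc : ∀ R : Subgroup G, R ≤ (P : Subgroup G) → R ≠ ⊥ → Subgroup.normalizer (R : Set G) ≤ Subgroup.centralizer ({x} : Set G)) : (P : Subgroup G) ≤ Subgroup.centralizer ({x} : Set G) ∧ (∀ g : G, g * x * g⁻¹ ∈ (P : Subgroup G) → g * x * g⁻¹ = x) ∧ ∀ (N : Subgroup G) [N.Normal], ∀ R : Subgroup (G ⧸ N), R ≤ (P : Subgroup G).map (QuotientGroup.mk' N) → R ≠ ⊥ → Subgroup.normalizer (R : Set (G ⧸ N)) ≤ Subgroup.centralizer ({(QuotientGroup.mk x : G ⧸ N)} : Set (G ⧸ N)) := by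
  have hPC : (P : Subgroup G) ≤ Subgroup.centralizer ({x} : Set G) := by
    by_cases h : (P : Subgroup G) = ⊥
    · rw [h]; exact bot_le
    · exact Subgroup.le_normalizer.trans (hlc _ le_rfl h)
  refine ⟨hPC, fun g hg => ?_, ?_⟩
  · by_cases hx1 : x = 1
    · subst hx1; simp
    set y := g * x * g⁻¹ with hy
    have hy1 : y ≠ 1 := fun h => hx1 (conj_eq_one_iff.1 h)
    have hCy : Subgroup.centralizer ({y} : Set G) ≤ Subgroup.centralizer ({x} : Set G) := by
      refine le_trans ?_ (hlc (Subgroup.zpowers y) (Subgroup.zpowers_le.2 hg)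
        (by rwa [Ne, Subgroup.zpowers_eq_bot]))
      rw [← Subgroup.centralizer_closure, ← Subgroup.zpowers_eq_closure]
      exact Subgroup.centralizer_le_normalizer _
    have hgP : cj g (P : Subgroup G) ≤ Subgroup.centralizer ({x} : Set G) := by
      refine le_trans (fun u hu => Subgroup.mem_centralizer_singleton_iff.2 ?_) hCy
      obtain ⟨v, hv, rfl⟩ := hu
      have h := Subgroup.mem_centralizer_singleton_iff.1 (hPC hv)
      simp only [MulEquiv.coe_toMonoidHom, MulAut.conj_apply, hy]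
      calc g * v * g⁻¹ * (g * x * g⁻¹) = g * (v * x) * g⁻¹ := by group
        _ = g * (x * v) * g⁻¹ := by rw [h]
        _ = g * x * g⁻¹ * (g * v * g⁻¹) := by group
    obtain ⟨c, hc, hce⟩ := (IsSylowIn.of_le P hPC).conj_eq
      (IsSylowIn.of_le (g • P) (show ((g • P : Sylow p G) : Subgroup G) ≤ _ from hgP))
    rw [show ((g • P : Sylow p G) : Subgroup G) = cj g (P : Subgroup G) from rfl, cj_cj] at hce
    have hgC : g ∈ Subgroup.centralizer ({x} : Set G) := by
      by_cases h : (P : Subgroup G) = ⊥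
      · exact absurd (Subgroup.mem_bot.1 (h ▸ hxP)) hx1
      · have := Subgroup.mul_mem _ (Subgroup.inv_mem _ hc) (hlc _ le_rfl h (mem_nz_of_cj_eq hce))
        rwa [inv_mul_cancel_left] at this
    rw [hy, Subgroup.mem_centralizer_singleton_iff.1 hgC, mul_inv_cancel_right]
  · intro N _ R hR hRne n hn
    set f := QuotientGroup.mk' N
    set K := R.comap f with hK
    set R' := (P : Subgroup G) ⊓ K with hR'
    have hNK : N ≤ K := (QuotientGroup.ker_mk' N).ge.trans (Subgroup.ker_le_comap f R)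
    have hPN : IsSylowIn p ((P : Subgroup G) ⊓ N) N :=
      (IsSylowIn.of_le P le_top).inf le_top (by rw [Subgroup.normalizer_eq_top])
    have hdec : ∀ k ∈ K, ∃ r ∈ R', ∃ m ∈ N, k = r * m := by
      intro k hk
      obtain ⟨r, hr, hre⟩ := hR (Subgroup.mem_comap.1 hk)
      refine ⟨r, ⟨hr, ?_⟩, r⁻¹ * k, QuotientGroup.eq.1 hre, by group⟩
      show f r ∈ R
      rw [hre]; exact hk
    have hsyl : IsSylowIn p R' K := by
      obtain ⟨Q, hQ, hle⟩ : ∃ Q, IsSylowIn p Q K ∧ R' ≤ Q := by
        obtain ⟨Q, hQ2, hQ1⟩ := exists_isSylowIn_ge (P.isPGroup'.to_le inf_le_left) (inf_le_right : R' ≤ K)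
        exact ⟨Q, hQ2, hQ1⟩
      convert hQ using 1
      refine le_antisymm hle fun q hq => ?_
      obtain ⟨r, hr, m, hm, rfl⟩ := hdec q (hQ.1 hq)
      have hmQ : m ∈ Q := by
        have := Q.mul_mem (Q.inv_mem (hle hr)) hq
        rwa [inv_mul_cancel_left] at this
      have := hPN.eq_of_le (hQ.2.1.to_le (inf_le_left (b := N))) inf_le_right
        (le_inf ((inf_le_inf_left _ hNK).trans hle) inf_le_right)
      exact R'.mul_mem hr ((inf_le_inf_left (P : Subgroup G) hNK) (this.le ⟨hmQ, hm⟩))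
    have hR'ne : R' ≠ ⊥ := by
      intro h
      apply hRne
      rw [eq_bot_iff]
      intro r hr
      obtain ⟨k, rfl⟩ := QuotientGroup.mk'_surjective N r
      obtain ⟨a, ha, m, hm, rfl⟩ := hdec k hr
      have ha1 : a = 1 := Subgroup.mem_bot.1 (show a ∈ (⊥ : Subgroup G) from h ▸ ha)
      rw [ha1, one_mul, Subgroup.mem_bot]
      exact (QuotientGroup.eq_one_iff m).2 hm
    obtain ⟨g, rfl⟩ := QuotientGroup.mk'_surjective N n
    have hgK : g ∈ Subgroup.normalizer (K : Set G) := by
      refine mem_nz_of_cj_le (cj_le_iff.2 fun k hk => ?_)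
      rw [Subgroup.mem_comap, map_mul, map_mul, map_inv]
      exact conj_mem_of_nz hn hk
    obtain ⟨k, hk, m, hm, rfl⟩ := hsyl.frattini Subgroup.le_normalizer le_rfl hgK
    obtain ⟨r, hr, u, hu, rfl⟩ := hdec k hk
    have hmx := Subgroup.mem_centralizer_singleton_iff.1 (hlc R' inf_le_left hR'ne hm.2)
    have hrx := Subgroup.mem_centralizer_singleton_iff.1 (hPC hr.1)
    have hu1 : f u = 1 := (QuotientGroup.eq_one_iff u).2 hu
    rw [map_mul, map_mul, hu1, mul_one, Subgroup.mem_centralizer_singleton_iff]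
    show f r * f m * f x = f x * (f r * f m)
    rw [← map_mul, ← map_mul, ← map_mul, mul_assoc r m x, hmx, ← mul_assoc, hrx, mul_assoc]

end Cfsg.Agent.S2998
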