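import Cfsg.Statements.S3003
import Mathlib
import Cfsg.Agent.Lib.LocalP2.CoatomFixed
-- import your own Cfsg.Agent.* helpers here

set_option autoImplicit false
open Cfsg Cfsg.Agent Cfsg.Agent.Lib.LocalChar
open scoped commutatorElement

namespace Cfsg.Agent.S3003

/-- Let G be a finite group, p a prime and Q a large p-subgroup of G: C_G(Q) ≤ Q and N_G(U) ≤ N_G(Q) for every nontrivial subgroup U of C_G(Q). Let Q ≤ G₁ ≤ G, let R be a subgroup of order prime to p normalized by G₁, and let U ≤ G₁ be a p-subgroup. If U contains a nontrivial element which is G₁-conjugate to an element of Z(Q), then C_R(U) = 1. In particular, if U is elementary abelian of order at least p² and every maximal subgroup of U contains a nontrivial element G₁-conjugate into Z(Q), then R = 1. -/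
theorem result {G : Type*} [Group G] [Finite G] {p : ℕ} [Fact p.Prime] (Q : Subgroup G) (hQp : IsPGroup p ↥Q) (hlarge : Cfsg.IsLarge Q) (G₁ : Subgroup G) (hQG : Q ≤ G₁) (R : Subgroup G) (hR : (Nat.card ↥R).Coprime p) (hGR : G₁ ≤ Subgroup.normalizer (R : Set G)) (U : Subgroup G) (hUG : U ≤ G₁) (hUp : IsPGroup p ↥U) : ((∃ x ∈ U, x ≠ 1 ∧ ∃ g ∈ G₁, g * x * g⁻¹ ∈ Q ⊓ Subgroup.centralizer (Q : Set G)) → R ⊓ Subgroup.centralizer (U : Set G) = ⊥) ∧ (Cfsg.IsElementaryAbelian p U → p ^ 2 ≤ Nat.card ↥U → (∀ U₀ : Subgroup G, U₀ ≤ U → IsCoatom (U₀.subgroupOf U) → ∃ x ∈ U₀, x ≠ 1 ∧ ∃ g ∈ G₁, g * x * g⁻¹ ∈ Q ⊓ Subgroup.centralizer (Q : Set G)) → R = ⊥) := by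
  have key : ∀ W : Subgroup G, (∃ x ∈ W, x ≠ 1 ∧ ∃ g ∈ G₁, g * x * g⁻¹ ∈ Q ⊓ Subgroup.centralizer (Q : Set G)) →
      R ⊓ Subgroup.centralizer (W : Set G) = ⊥ := by
    rintro W ⟨x, hxW, hx1, g, hg, hgx⟩
    rw [eq_bot_iff]
    intro r hr
    set r' := g * r * g⁻¹ with hr'
    have hr'R : r' ∈ R := conj_mem_of_nz (hGR hg) hr.1
    have hcom : Commute r' (g * x * g⁻¹) :=
      Commute.map (f := (MulAut.conj g).toMonoidHom) (Subgroup.mem_centralizer_iff.1 hr.2 x hxW).symm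
    have hrN : r' ∈ Subgroup.normalizer (Q : Set G) := by
      refine hlarge.2 (Subgroup.zpowers (g * x * g⁻¹)) (Subgroup.zpowers_le.2 hgx.2)
        (by simpa [Subgroup.zpowers_eq_bot] using hx1) (mem_nz_of_cj_le (cj_le_iff.2 ?_))
      rintro _ ⟨m, rfl⟩
      exact ⟨m, by rw [(hcom.zpow_right m).eq, mul_inv_cancel_right]⟩
    have hQR : Q ⊓ R = ⊥ := by
      obtain ⟨k, hk⟩ := IsPGroup.iff_card.1 hQp
      exact Subgroup.inf_eq_bot_of_coprime (hk ▸ (hR.symm.pow_left k))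
    have hrC : r' ∈ Subgroup.centralizer (Q : Set G) := by
      refine Subgroup.mem_centralizer_iff.2 fun q hq => ?_
      have h1 : r' * q * r'⁻¹ * q⁻¹ ∈ Q ⊓ R := by
        refine ⟨Q.mul_mem (conj_mem_of_nz hrN hq) (Q.inv_mem hq), ?_⟩
        have := R.mul_mem hr'R (conj_mem_of_nz (hGR (hQG hq)) (R.inv_mem hr'R))
        simpa [mul_assoc] using this
      rw [hQR, Subgroup.mem_bot] at h1
      exact (mul_inv_eq_iff_eq_mul.1 (mul_inv_eq_one.1 h1)).symm
    have : r' ∈ Q ⊓ R := ⟨hlarge.1 hrC, hr'R⟩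
    rw [hQR, Subgroup.mem_bot] at this
    exact Subgroup.mem_bot.2 (conj_eq_one_iff.1 this)
  refine ⟨key U, fun hE hU2 hcoat => ?_⟩
  exact Lib.LocalP2.eq_bot_of_coatom_fixed hE hU2 (hUG.trans hGR) hR
    fun U₀ hU₀ hc => key U₀ (hcoat U₀ hU₀ hc)

end Cfsg.Agent.S3003
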