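import Cfsg.Statements.S3008
import Cfsg.Agent.Lib.CLNormal.Main

set_option autoImplicit false
open Cfsg Cfsg.Agent.Lib.LocalP2
open scoped Pointwise commutatorElement

namespace Cfsg.Agent.S3008

open Cfsg.Agent.Lib.CLNormal in
/-- Let P be a finite p-group, with J(P) generated by its abelian subgroups of largest order and J̃(P) = C_P(Z(J(P))); call R ≤ P centrally large if |R|·|Z(R)| is as large as possible, and let P_MCL be generated by the minimal centrally large subgroups. Then: for every centrally large Q, Q·J(P) ⊇ J̃(P); some minimal centrally large subgroup of P is normalized by both J(P) and P_MCL; if P = J(P) and d(P)² = |P|·|Z(P)|, where d(P) is the largest order of an abelian subgroup, then every minimal centrally large subgroup of P is abelian; and if every minimal centrally large subgroup is abelian then J̃(P) = J(P). -/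
theorem result {p : ℕ} [Fact p.Prime] (P : Type*) [Group P] [Finite P] (hP : IsPGroup p P) : (∀ Q : Subgroup P, Cfsg.IsCentrallyLarge Q → Subgroup.centralizer ((Cfsg.thompsonSubgroupA P ⊓ Subgroup.centralizer (Cfsg.thompsonSubgroupA P : Set P) : Subgroup P) : Set P) ≤ Q ⊔ Cfsg.thompsonSubgroupA P) ∧ (∃ Q : Subgroup P, Cfsg.IsMinimalCentrallyLarge Q ∧ Cfsg.thompsonSubgroupA P ≤ Subgroup.normalizer (Q : Set P) ∧ Cfsg.minimalCentrallyLargeJoin P ≤ Subgroup.normalizer (Q : Set P)) ∧ (Cfsg.thompsonSubgroupA P = ⊤ → (∀ A ∈ Cfsg.maxAbelianSubgroups P, Nat.card ↥A ^ 2 = Nat.card P * Nat.card ↥(Subgroup.center P)) → ∀ Q : Subgroup P, Cfsg.IsMinimalCentrallyLarge Q → IsMulCommutative ↥Q) ∧ ((∀ Q : Subgroup P, Cfsg.IsMinimalCentrallyLarge Q → IsMulCommutative ↥Q) → Subgroup.centralizer ((Cfsg.thompsonSubgroupA P ⊓ Subgroup.centralizer (Cfsg.thompsonSubgroupA P : Set P) : Subgroup P) : Set P) = Cfsg.thompsonSubgroupA P) := by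
  obtain ⟨A₀, hA₀⟩ := exists_maxAbelian (S := P)
  have hCJ : Subgroup.centralizer (Cfsg.thompsonSubgroupA P : Set P) ≤ Cfsg.thompsonSubgroupA P :=
    (Subgroup.centralizer_le (show A₀ ≤ Cfsg.thompsonSubgroupA P from le_sSup hA₀)).trans
      ((centralizer_eq_self_of_maxAbelian hA₀).le.trans (le_sSup hA₀))
  rw [inf_eq_right.2 hCJ]
  refine ⟨fun Q hQ => ?_, ?_, fun htop hd Q hQ => ?_, fun hall => ?_⟩
  · have hX : Cfsg.IsCentrallyLarge (Q ⊔ Cfsg.thompsonSubgroupA P) := by
      have : sSup ((fun A => Q ⊔ A) '' Cfsg.maxAbelianSubgroups P) = Q ⊔ Cfsg.thompsonSubgroupA P := by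
        refine le_antisymm (sSup_le ?_) (sup_le ?_ (sSup_le fun A hA => ?_))
        · rintro _ ⟨A, hA, rfl⟩
          exact sup_le_sup_left (le_sSup hA) _
        · exact le_trans le_sup_left (le_sSup ⟨A₀, hA₀, rfl⟩)
        · exact le_trans le_sup_right (le_sSup ⟨A, hA, rfl⟩)
      rw [← this]
      exact centrallyLarge_sSup ⟨_, A₀, hA₀, rfl⟩ (by rintro _ ⟨A, hA, rfl⟩; exact centrallyLarge_sup_maxAbelian hQ hA)
    refine le_trans (Subgroup.centralizer_le ?_) (large_centralizer (centrallyLarge_iff.1 hX).1).2.ge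
    exact Subgroup.centralizer_le (SetLike.coe_subset_coe.2 le_sup_right)
  · obtain ⟨Q, hQ, hJQ⟩ := exists_minimal_normalized hP
    refine ⟨Q, hQ, hJQ, sSup_le fun R hR => ?_⟩
    obtain ⟨hR1, hR2⟩ := centrallyLarge_iff.1 hR.1
    have h := (S3007.result P hP R Q hR hQ).1
    rw [inf_eq_right.2 hR2] at h
    rw [← h]
    refine sup_le (inf_le_right.trans Q.le_normalizer) (le_trans ?_ hJQ)
    -- the centre of `R` lies in a largest abelian subgroup
    obtain ⟨hset, hRA, -, -, -⟩ := S3006.result P hP R A₀ hR.1 hA₀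
    set Z := Subgroup.centralizer (R : Set P) with hZ
    have hE : IsMulCommutative ↥(Z ⊔ (R ⊓ A₀)) := by
      rw [← Subgroup.le_centralizer_iff_isMulCommutative, centralizer_sup, hZ, ← (large_centralizer hR1).2]
      refine sup_le (le_inf hR2 (Subgroup.centralizer_le fun _ h => h.1)) (le_inf inf_le_left ?_)
      exact inf_le_right.trans ((centralizer_eq_self_of_maxAbelian hA₀).ge.trans (Subgroup.centralizer_le fun _ h => h.2))
    refine le_trans le_sup_left (le_sSup (show Z ⊔ (R ⊓ A₀) ∈ Cfsg.maxAbelianSubgroups P from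
      ⟨hE, fun B hB => (hA₀.2 B hB).trans ?_⟩))
    have e1 : Nat.card R * Nat.card Z = Nat.card ↥(R ⊔ A₀) * Nat.card ↥(Z ⊓ A₀) := by
      have h2 := (centrallyLarge_iff.1 hRA).1
      unfold Cfsg.IsCentralizerLarge at h2 hR1
      rw [centralizer_sup, centralizer_eq_self_of_maxAbelian hA₀] at h2
      exact hR1.trans h2.symm
    have e2 := card_mul_card_le R A₀
    have e3 := card_mul_card_le Z (R ⊓ A₀)
    have e4 : Z ⊓ (R ⊓ A₀) = Z ⊓ A₀ := le_antisymm (inf_le_inf_left _ inf_le_right)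
      (le_inf inf_le_left (le_inf (inf_le_left.trans hR2) inf_le_right))
    rw [e4] at e3
    refine Nat.le_of_mul_le_mul_right ?_ (Nat.mul_pos (Nat.card_pos (α := ↥(R ⊔ A₀))) (Nat.card_pos (α := ↥(Z ⊓ A₀))))
    calc Nat.card A₀ * (Nat.card ↥(R ⊔ A₀) * Nat.card ↥(Z ⊓ A₀)) = (Nat.card R * Nat.card A₀) * Nat.card Z := by
          rw [← e1]; ring
      _ ≤ Nat.card ↥(R ⊔ A₀) * Nat.card ↥(R ⊓ A₀) * Nat.card Z := Nat.mul_le_mul_right _ e2
      _ = Nat.card ↥(R ⊔ A₀) * (Nat.card Z * Nat.card ↥(R ⊓ A₀)) := by ring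
      _ ≤ Nat.card ↥(R ⊔ A₀) * (Nat.card ↥(Z ⊔ (R ⊓ A₀)) * Nat.card ↥(Z ⊓ A₀)) := Nat.mul_le_mul_left _ e3
      _ = _ := by ring
  · have hX : Cfsg.IsCentrallyLarge (⊤ : Subgroup P) := by
      obtain ⟨R, hR⟩ := exists_centrallyLarge (S := P)
      have : sSup ((fun A => R ⊔ A) '' Cfsg.maxAbelianSubgroups P) = ⊤ := by
        refine top_le_iff.1 (htop.ge.trans (sSup_le fun A hA => le_trans le_sup_right (le_sSup ⟨A, hA, rfl⟩)))
      rw [← this]
      exact centrallyLarge_sSup ⟨_, A₀, hA₀, rfl⟩ (by rintro _ ⟨A, hA, rfl⟩; exact centrallyLarge_sup_maxAbelian hR hA)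
    have hf := (centrallyLarge_iff.1 hX).1
    unfold Cfsg.IsCentralizerLarge at hf
    rw [Subgroup.coe_top, Subgroup.centralizer_univ, Subgroup.card_top, ← hd A₀ hA₀, pow_two] at hf
    have hAcl : Cfsg.IsCentrallyLarge A₀ := centrallyLarge_iff.2
      ⟨by unfold Cfsg.IsCentralizerLarge; rw [centralizer_eq_self_of_maxAbelian hA₀, hf],
        (centralizer_eq_self_of_maxAbelian hA₀).le⟩
    have hAmin : Cfsg.IsMinimalCentrallyLarge A₀ := by
      refine ⟨hAcl, fun R hle hR => eq_of_card hle ?_⟩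
      obtain ⟨hR1, hR2⟩ := centrallyLarge_iff.1 hR
      have hRc := (Subgroup.centralizer_le hle : Subgroup.centralizer (A₀ : Set P) ≤ Subgroup.centralizer (R : Set P))
      rw [centralizer_eq_self_of_maxAbelian hA₀] at hRc
      exact Subgroup.card_le_of_le (hRc.trans hR2)
    exact ((S3007.result P hP A₀ Q hAmin hQ).2.2.2.2 hA₀.1 Q).1 hQ |>.1
  · obtain ⟨R, hR⟩ := exists_centrallyLarge (S := P)
    obtain ⟨Q, -, hQ⟩ := exists_minimal_le hR
    have hiff := (S3007.result P hP Q Q hQ hQ).2.2.2.2 (hall Q hQ)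
    have hJ : Cfsg.thompsonSubgroupA P = Cfsg.minimalCentrallyLargeJoin P := by
      unfold Cfsg.thompsonSubgroupA Cfsg.minimalCentrallyLargeJoin
      congr 1
      ext X
      exact (hiff X).symm
    have hM : Cfsg.IsCentrallyLarge (Cfsg.thompsonSubgroupA P) := by
      rw [hJ]
      exact centrallyLarge_sSup ⟨Q, hQ⟩ fun R hR => hR.1
    exact ((large_centralizer (centrallyLarge_iff.1 hM).1).2).symm

end Cfsg.Agent.S3008
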