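import Cfsg.Statements.S3009
import Cfsg.Agent.Lib.LocalChar.NaturalSLTwo

set_option autoImplicit false
open Cfsg
open Cfsg.Agent.Lib.LocalChar.NaturalSLTwo Cfsg.Agent.Lib.PStab
open scoped commutatorElement

namespace Cfsg.Agent.S3009

/-- Let p be a prime and let G and V be subgroups of a finite group with V elementary abelian and normalized by G, and G isomorphic to SL₂(F) for a finite field F with pⁿ elements. Suppose G acts irreducibly and nontrivially on V by conjugation (no G-invariant subgroups of V other than 1 and V, and [V, G] ≠ 1), and let S be a Sylow p-subgroup of G and V₀ = C_V(S). If [V, S, S] = 1 or |V| ≤ |V₀|², then G acts on V as SL₂(F) on its natural two-dimensional module; in particular |V| = |F|². -/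
theorem result {X : Type*} [Group X] [Finite X] {p : ℕ} [Fact p.Prime] (G V : Subgroup X) (hV : Cfsg.IsElementaryAbelian p V) (hGV : G ≤ Subgroup.normalizer (V : Set X)) (F : Type) [Field F] [Fintype F] (n : ℕ) (hF : Fintype.card F = p ^ n) (hG : Nonempty (↥G ≃* Matrix.SpecialLinearGroup (Fin 2) F)) (hirr : ∀ U : Subgroup X, U ≤ V → G ≤ Subgroup.normalizer (U : Set X) → U = ⊥ ∨ U = V) (hnt : ⁅V, G⁆ ≠ ⊥) (S : Sylow p ↥G) (hyp : ⁅⁅V, (S : Subgroup ↥G).map G.subtype⁆, (S : Subgroup ↥G).map G.subtype⁆ = ⊥ ∨ Nat.card ↥V ≤ Nat.card ↥(V ⊓ Subgroup.centralizer (((S : Subgroup ↥G).map G.subtype : Subgroup X) : Set X)) ^ 2) : Cfsg.ActsAsSL2OnSection F ⊤ G V ⊥ := by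
  classical
  obtain ⟨e₀⟩ := hG
  obtain ⟨hVc, hVp⟩ := hV
  have hn0 : n ≠ 0 := fun h => by
    have := Fintype.one_lt_card (α := F)
    rw [hF, h, pow_zero] at this
    omega
  haveI : CharP F p := charP_of_card_eq_prime_pow hF
  let S' : Sylow p (Matrix.SpecialLinearGroup (Fin 2) F) :=
    S.comapOfInjective e₀.symm.toMonoidHom e₀.symm.injective (fun x _ => MonoidHom.mem_range.2 ⟨e₀ x, e₀.symm_apply_apply x⟩)
  obtain ⟨h, hS⟩ := sylow_upper S'
  let e : ↥G ≃* Matrix.SpecialLinearGroup (Fin 2) F := e₀.trans (MulAut.conj h)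
  have heS : ∀ g : ↥G, g ∈ (S : Subgroup ↥G) ↔ ∃ a, e g = ux a := fun g => by
    have := hS (e₀ g)
    rw [show e₀ g ∈ (S' : Subgroup _) ↔ g ∈ (S : Subgroup ↥G) by simp [S']] at this
    exact this
  have hmem : ∀ (x : Matrix.SpecialLinearGroup (Fin 2) F) (v : V), (e.symm x : X) * v * (e.symm x : X)⁻¹ ∈ V := fun x v =>
    (Subgroup.mem_normalizer_iff.1 (hGV (e.symm x).2) v).1 v.2
  let r : Matrix.SpecialLinearGroup (Fin 2) F →* AddMonoid.End (Additive V) :=
    { toFun := fun x => (MonoidHom.toAdditive
        { toFun := fun v : V => (⟨(e.symm x : X) * v * (e.symm x : X)⁻¹, hmem x v⟩ : V)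
          map_one' := Subtype.ext (by simp)
          map_mul' := fun a b => Subtype.ext (by simp [mul_assoc]) } : Additive V →+ Additive V)
      map_one' := AddMonoidHom.ext fun v => Additive.toMul.injective (Subtype.ext
        (show (e.symm 1 : X) * ((Additive.toMul v : V) : X) * (e.symm 1 : X)⁻¹ = ((Additive.toMul v : V) : X) by simp))
      map_mul' := fun x y => AddMonoidHom.ext fun v => Additive.toMul.injective (Subtype.ext
        (show (e.symm (x * y) : X) * ((Additive.toMul v : V) : X) * (e.symm (x * y) : X)⁻¹ =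
          (e.symm x : X) * ((e.symm y : X) * ((Additive.toMul v : V) : X) * (e.symm y : X)⁻¹) * (e.symm x : X)⁻¹ by
          simp [mul_assoc])) }
  have rv : ∀ (x : Matrix.SpecialLinearGroup (Fin 2) F) (v : Additive V),
      ((Additive.toMul (r x v) : V) : X) = (e.symm x : X) * (Additive.toMul v : V) * (e.symm x : X)⁻¹ := fun x v => rfl
  letI : AddCommGroup (Additive V) := @Additive.addCommGroup V { (inferInstance : Group V) with mul_comm := hVc.is_comm.comm }
  have hM : ∀ v : Additive V, p • v = 0 := fun v => Additive.toMul.injective (Subtype.ext (by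
    show ((Additive.toMul v : V) : X) ^ p = 1
    exact hVp _ (Additive.toMul v).2))
  have hirr' : ∀ U : AddSubgroup (Additive V), (∀ g, ∀ v ∈ U, r g v ∈ U) → U = ⊥ ∨ U = ⊤ := by
    intro U hU
    let U₀ : Subgroup X := U.toSubgroup'.map V.subtype
    have hN : G ≤ Subgroup.normalizer (U₀ : Set X) := by
      intro g hg
      have hfwd : ∀ k : ↥G, ∀ w ∈ U₀, (k : X) * w * (k : X)⁻¹ ∈ U₀ := by
        rintro k _ ⟨v, hv, rfl⟩
        refine ⟨Additive.toMul (r (e k) (Additive.ofMul v)), hU _ _ hv, ?_⟩
        show ((Additive.toMul (r (e k) (Additive.ofMul v)) : V) : X) = _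
        rw [rv, e.symm_apply_apply]
        rfl
      refine Subgroup.mem_normalizer_iff.2 fun w => ⟨hfwd ⟨g, hg⟩ w, fun hw => ?_⟩
      have := hfwd ⟨g⁻¹, inv_mem hg⟩ _ hw
      simpa [mul_assoc] using this
    rcases hirr U₀ (Subgroup.map_subtype_le _) hN with h | h
    · left
      refine (AddSubgroup.eq_bot_iff_forall _).2 fun v hv => ?_
      have : ((Additive.toMul v : V) : X) ∈ U₀ := ⟨Additive.toMul v, hv, rfl⟩
      rw [h, Subgroup.mem_bot] at this
      exact Additive.toMul.injective (Subtype.ext this)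
    · right
      refine (AddSubgroup.eq_top_iff' _).2 fun v => ?_
      have : ((Additive.toMul v : V) : X) ∈ U₀ := h.symm ▸ (Additive.toMul v).2
      obtain ⟨w, hw, he⟩ := this
      have e' : w = Additive.toMul v := Subtype.ext he
      rw [e'] at hw
      exact hw
  have hnt' : ∃ g v, r g v ≠ v := by
    by_contra hall
    push Not at hall
    refine hnt (Subgroup.commutator_eq_bot_iff_le_centralizer.2 fun v hv => Subgroup.mem_centralizer_iff.2 fun g hg => ?_)
    have := congrArg (fun w : Additive V => ((Additive.toMul w : V) : X)) (hall (e ⟨g, hg⟩) (Additive.ofMul ⟨v, hv⟩))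
    simp only [rv, MulEquiv.symm_apply_apply] at this
    exact (mul_inv_eq_iff_eq_mul.1 this)
  have hyp' : (∀ a b v, r (ux a) (r (ux b) v - v) = r (ux b) v - v) ∨
      Nat.card (Additive V) ≤ Nat.card (fixed r ux) ^ 2 := by
    have hsS : ∀ a : F, (e.symm (ux a) : X) ∈ (S : Subgroup ↥G).map G.subtype := fun a =>
      ⟨e.symm (ux a), (heS _).2 ⟨a, e.apply_symm_apply _⟩, rfl⟩
    refine hyp.imp (fun hq a b v => Additive.toMul.injective (Subtype.ext ?_)) fun hc => ?_
    · set s := (e.symm (ux a) : X)
      set w : X := ((Additive.toMul (r (ux b) v - v) : V) : X) with hw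
      have hwc : w ∈ ⁅V, (S : Subgroup ↥G).map G.subtype⁆ := by
        have hw' : w = (⁅((Additive.toMul v : V) : X), (e.symm (ux b) : X)⁆)⁻¹ := by
          rw [hw, commutatorElement_def, mul_inv_rev, mul_inv_rev, mul_inv_rev]
          show ((Additive.toMul (r (ux b) v) : V) : X) / ((Additive.toMul v : V) : X) = _
          rw [rv, div_eq_mul_inv]
          group
        rw [hw']
        exact inv_mem (Subgroup.commutator_mem_commutator (Additive.toMul v).2 (hsS b))
      have h1 := Subgroup.commutator_mem_commutator hwc (hsS a)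
      rw [hq, Subgroup.mem_bot, commutatorElement_eq_one_iff_mul_comm] at h1
      show ((Additive.toMul (r (ux a) (r (ux b) v - v)) : V) : X) = w
      rw [rv, ← hw, ← h1, mul_inv_cancel_right]
    · refine le_of_le_of_eq ((Nat.card_congr Additive.toMul).trans_le hc) (congrArg (· ^ 2) (Nat.card_congr ?_))
      exact
        { toFun := fun v => ⟨Additive.ofMul (⟨v.1, v.2.1⟩ : V), fun a => Additive.toMul.injective (Subtype.ext (by
            rw [rv]
            show (e.symm (ux a) : X) * v.1 * (e.symm (ux a) : X)⁻¹ = v.1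
            rw [Subgroup.mem_centralizer_iff.1 v.2.2 _ (hsS a), mul_inv_cancel_right]))⟩
          invFun := fun w => ⟨((Additive.toMul w.1 : V) : X), (Additive.toMul w.1).2,
            Subgroup.mem_centralizer_iff.2 (by
              rintro _ ⟨g, hg, rfl⟩
              obtain ⟨a, ha⟩ := (heS g).1 hg
              have := congrArg (fun z : Additive V => ((Additive.toMul z : V) : X)) (w.2 a)
              simp only [rv, ← ha, MulEquiv.symm_apply_apply] at this
              exact mul_inv_eq_iff_eq_mul.1 this)⟩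
          left_inv := fun v => rfl
          right_inv := fun w => rfl }
  obtain ⟨ψ, hψ, hequiv⟩ := natural hM r hirr' hnt' hyp'
  refine ⟨hGV, bot_le, e.toMonoidHom,
    { toFun := fun u => Multiplicative.ofAdd (ψ (Additive.ofMul u))
      map_one' := by simp
      map_mul' := fun a b => by simp }, ?_, ?_, ?_, ?_⟩
  · exact MonoidHom.range_eq_top.2 e.surjective
  · intro c
    obtain ⟨v, hv⟩ := hψ.2 (Multiplicative.toAdd c)
    exact ⟨Additive.toMul v, by simp [hv]⟩
  · intro u
    rw [Subgroup.mem_bot]
    refine ⟨fun h => ?_, fun h => ?_⟩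
    · have : Additive.ofMul u = 0 := hψ.1 (by rw [map_zero]; exact h)
      exact congrArg Subtype.val (congrArg Additive.toMul this)
    · obtain rfl : u = 1 := Subtype.ext h
      simp
  · intro g u
    refine ⟨Additive.toMul (r (e g) (Additive.ofMul u)), ?_, ?_⟩
    · rw [rv, e.symm_apply_apply]; rfl
    · exact hequiv (e g) (Additive.ofMul u)

end Cfsg.Agent.S3009
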