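import Cfsg.Statements.S3012
-- import your own Cfsg.Agent.* helpers here

set_option autoImplicit false
open Cfsg

namespace Cfsg.Agent.S3012

/-- Let G be a finite group, V a nontrivial elementary abelian 2-subgroup of G satisfying the Sidki pair condition (every odd-order element inverted by an element of V commutes with a nontrivial element of V), and K a normal subgroup of G with V ∩ K = 1. Then the image of V in G/K satisfies the Sidki pair condition in G/K. -/
theorem result {G : Type*} [Group G] [Finite G] (V K : Subgroup G) [K.Normal] (hV : Cfsg.IsElementaryAbelian 2 V) (hV1 : V ≠ ⊥) (hS : Cfsg.IsSidkiPair V) (hVK : V ⊓ K = ⊥) : Cfsg.IsSidkiPair (V.map (QuotientGroup.mk' K)) := by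
  intro hb vb hvb hodd hinv
  obtain ⟨v, hv, rfl⟩ := hvb
  obtain ⟨g, rfl⟩ := QuotientGroup.mk'_surjective K hb
  set f := QuotientGroup.mk' K with hf
  have hv2 : v * v = 1 := by rw [← sq]; exact hV.2 v hv
  have hvinv : v⁻¹ = v := inv_eq_of_mul_eq_one_right hv2
  set c := v * g * v * g⁻¹ with hc
  have hcinv : v * c * v⁻¹ = c⁻¹ := by
    simp only [hc, mul_inv_rev, inv_inv, hvinv, ← mul_assoc, hv2, one_mul]
  have hfc : f c = (f g ^ 2)⁻¹ := by
    have h1 : f v * f g * f v = (f g)⁻¹ := by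
      rw [show f v * f g * f v = f v * f g * (f v)⁻¹ by rw [← map_inv, hvinv]]; exact hinv
    calc f c = f v * f g * f v * (f g)⁻¹ := by simp [hc]
      _ = (f g ^ 2)⁻¹ := by rw [h1, sq, mul_inv_rev]
  obtain ⟨a, m, hm, hord⟩ := Nat.exists_eq_two_pow_mul_odd (orderOf_pos c).ne'
  have hodd' : Odd (orderOf (c ^ 2 ^ a)) :=
    hm.of_dvd_nat (orderOf_dvd_of_pow_eq_one (by rw [← pow_mul, ← hord, pow_orderOf_eq_one]))
  obtain ⟨w, hwV, hw1, hwc⟩ := hS (c ^ 2 ^ a) v hv hodd' (by rw [← conj_pow, hcinv, inv_pow])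
  refine ⟨f w, ⟨w, hwV, rfl⟩, ?_, ?_⟩
  · intro h
    have : w ∈ V ⊓ K := ⟨hwV, (QuotientGroup.eq_one_iff w).1 h⟩
    rw [hVK] at this; exact hw1 (by simpa using this)
  · have h1 : Commute (f w) (f g ^ 2 ^ (a + 1)) := by
      have h0 : Commute (f w) (f c ^ 2 ^ a) := by rw [← map_pow]; exact (show Commute w _ from hwc).map f
      rw [hfc, inv_pow, ← pow_mul, ← pow_succ'] at h0
      exact Commute.inv_right_iff.1 h0
    obtain ⟨j, hj⟩ := exists_pow_eq_self_of_coprime (x := f g) (n := 2 ^ (a + 1))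
      (Nat.Coprime.pow_left _ (Nat.coprime_two_left.2 hodd))
    rw [← hj]; exact (h1.pow_right j).eq

end Cfsg.Agent.S3012
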