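import Cfsg.Statements.S3013
import Mathlib
-- import your own Cfsg.Agent.* helpers here

set_option autoImplicit false
open Cfsg

namespace Cfsg.Agent.S3013

/-- Let G be a finite group and V a nontrivial elementary abelian 2-subgroup of G satisfying the Sidki pair condition. Let v ∈ V and let x be an element of odd order inverted by v, and put C = C_G(v) ∩ C_G(x), the centralizer of the dihedral subgroup generated by v and x. Then C ∩ V is nontrivial and satisfies the Sidki pair condition inside C: every odd-order element of C inverted by an element of C ∩ V commutes with a nontrivial element of C ∩ V. -/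
theorem result {G : Type*} [Group G] [Finite G] (V : Subgroup G) (hV : Cfsg.IsElementaryAbelian 2 V) (hV1 : V ≠ ⊥) (hS : Cfsg.IsSidkiPair V) (v x : G) (hv : v ∈ V) (hx : Odd (orderOf x)) (hinv : v * x * v⁻¹ = x⁻¹) (C : Subgroup G) (hC : C = Subgroup.centralizer ({v} : Set G) ⊓ Subgroup.centralizer ({x} : Set G)) : C ⊓ V ≠ ⊥ ∧ Cfsg.IsSidkiPair ((C ⊓ V).subgroupOf C) := by
  have hcomm : ∀ a ∈ V, ∀ b ∈ V, a * b = b * a := fun a ha b hb =>
    congrArg Subtype.val (hV.1.is_comm.comm (⟨a, ha⟩ : V) ⟨b, hb⟩)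
  constructor
  · obtain ⟨w, hw, hw1, hwx⟩ := hS x v hv hx hinv
    intro h
    have : w ∈ C ⊓ V := by
      refine ⟨?_, hw⟩
      rw [hC]
      exact ⟨Subgroup.mem_centralizer_singleton_iff.2 (hcomm w hw v hv),
        Subgroup.mem_centralizer_singleton_iff.2 hwx⟩
    rw [h] at this; exact hw1 (by simpa using this)
  · rintro ⟨h, hh⟩ ⟨u, hu⟩ huV hodd hinv'
    have huV' : u ∈ V := (Subgroup.mem_subgroupOf.1 huV).2
    have hodd1 : Odd (orderOf h) := by simpa using hodd
    have hinv1 : u * h * u⁻¹ = h⁻¹ := by simpa using congrArg Subtype.val hinv'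
    have hmem : ∀ z : G, z ∈ C ↔ z * v = v * z ∧ z * x = x * z := by
      intro z; rw [hC, Subgroup.mem_inf]
      exact and_congr Subgroup.mem_centralizer_singleton_iff Subgroup.mem_centralizer_singleton_iff
    obtain ⟨huv, hux⟩ := (hmem u).1 hu
    obtain ⟨hhv, hhx⟩ := (hmem h).1 hh
    have hxh : Commute x h := hhx.symm
    have hvh : v * h * v⁻¹ = h := by rw [← hhv, mul_inv_cancel_right]
    have hux' : u * x * u⁻¹ = x := by rw [hux, mul_inv_cancel_right]
    have hinvy : (u * v) * (x * h) * (u * v)⁻¹ = (x * h)⁻¹ := by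
      calc (u * v) * (x * h) * (u * v)⁻¹
          = (u * (v * x * v⁻¹) * u⁻¹) * (u * (v * h * v⁻¹) * u⁻¹) := by group
        _ = (u * x * u⁻¹)⁻¹ * h⁻¹ := by rw [hinv, hvh, hinv1, conj_inv]
        _ = (x * h)⁻¹ := by rw [hux', mul_inv_rev, ← hxh.inv_inv.eq]
    have hoddy : Odd (orderOf (x * h)) :=
      (hx.mul hodd1).of_dvd_nat hxh.orderOf_mul_dvd_mul_orderOf
    obtain ⟨w, hw, hw1, hwy⟩ := hS (x * h) (u * v) (V.mul_mem huV' hv) hoddy hinvy
    have hwv : Commute w v := hcomm w hw v hv
    have hwy' : Commute w (x⁻¹ * h) := by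
      have : Commute w (v * (x * h) * v⁻¹) :=
        ((hwv.mul_right hwy).mul_right hwv.inv_right)
      rwa [show v * (x * h) * v⁻¹ = (v * x * v⁻¹) * (v * h * v⁻¹) by group, hinv, hvh] at this
    have hwx2 : Commute w (x ^ 2) := by
      have := Commute.mul_right (show Commute w (x * h) from hwy) hwy'.inv_right
      rwa [show x * h * (x⁻¹ * h)⁻¹ = x * x by group, ← sq] at this
    have hwx : Commute w x := by
      obtain ⟨j, hj⟩ := exists_pow_eq_self_of_coprime (x := x) (n := 2) (Nat.coprime_two_left.2 hx)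
      rw [← hj]; exact hwx2.pow_right j
    have hwh : Commute w h := by
      have := hwx.inv_right.mul_right (show Commute w (x * h) from hwy)
      rwa [inv_mul_cancel_left] at this
    have hwC : w ∈ C := (hmem w).2 ⟨hwv, hwx⟩
    exact ⟨⟨w, hwC⟩, Subgroup.mem_subgroupOf.2 ⟨hwC, hw⟩, by simpa [Subtype.ext_iff] using hw1,
      Subtype.ext hwh.eq⟩

end Cfsg.Agent.S3013
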