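import Cfsg.Statements.S3014
import Mathlib
import Cfsg.Agent.Lib.LocalP2.TransferNormal
import Cfsg.Agent.Lib.LocalP2.ChermakDelgado
-- import your own Cfsg.Agent.* helpers here

set_option autoImplicit false
open Cfsg Cfsg.Agent.Lib.LocalP2

namespace Cfsg.Agent.S3014

/-- Let G be a finite group and H ≤ M ≤ G subgroups such that for every g ∈ G the subgroup generated by H and g H g⁻¹ meets M exactly in H. If H is a maximal subgroup of M and M is a maximal subgroup of G, then the normal closure of H in G meets M exactly in H. -/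
theorem result {G : Type*} [Group G] [Finite G] (H M : Subgroup G) (hHM : H ≤ M) (hcl : ∀ g : G, (H ⊔ H.map (MulAut.conj g).toMonoidHom) ⊓ M = H) (hmaxH : IsCoatom (H.subgroupOf M)) (hmaxM : IsCoatom M) : Subgroup.normalClosure (H : Set G) ⊓ M = H := by
  have hle : ∀ g : G, H ≤ H ⊔ H.map (MulAut.conj g).toMonoidHom := fun g => le_sup_left
  have hconjH : ∀ g : G, ∀ h ∈ H, g * h * g⁻¹ ∈ M → g * h * g⁻¹ ∈ H := by
    intro g h hh hM
    rw [← hcl g]
    exact ⟨Subgroup.mem_sup_right ⟨h, hh, rfl⟩, hM⟩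
  have hHn : M ≤ Subgroup.normalizer (H : Set G) := by
    intro m hm
    rw [Subgroup.mem_normalizer_iff]
    refine fun h => ⟨fun hh => hconjH m h hh (M.mul_mem (M.mul_mem hm (hHM hh)) (M.inv_mem hm)), fun hh => ?_⟩
    have := hconjH m⁻¹ _ hh (M.mul_mem (M.mul_mem (M.inv_mem hm) (hHM hh)) (M.inv_mem (M.inv_mem hm)))
    simpa [mul_assoc] using this
  have hHnormal : H.Normal → Subgroup.normalClosure (H : Set G) ⊓ M = H := fun hn => by
    rw [Subgroup.normalClosure_eq_self, inf_eq_left.2 hHM]
  by_cases hNH : H.Normal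
  · exact hHnormal hNH
  have hNHM : Subgroup.normalizer (H : Set G) = M := by
    by_contra hne
    exact hNH (Subgroup.normalizer_eq_top_iff.1 (hmaxM.2 _ (lt_of_le_of_ne hHn (Ne.symm hne))))
  -- some `T = ⟨H, gHg⁻¹⟩` is normal, or conjugates outside `M` contribute to `H` only
  by_cases hcase : ∀ g : G, g ∉ M → ∀ m ∈ M, g * m * g⁻¹ ∈ M → g * m * g⁻¹ ∈ H
  · have : (H.subgroupOf M).Normal := Subgroup.normal_subgroupOf_of_le_normalizer hHn
    have hcyc := isCyclic_quotient_of_coatom hmaxH
    letI : CommGroup (↥M ⧸ H.subgroupOf M) := IsCyclic.commGroup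
    set φ : ↥M →* ↥M ⧸ H.subgroupOf M := QuotientGroup.mk' _
    set t := MonoidHom.transfer φ
    have ht : ∀ (m : G) (hm : m ∈ M), t m = φ ⟨m, hm⟩ := fun m hm =>
      transfer_eq_self M φ m hm fun r x hx hxm => by
        apply (QuotientGroup.eq_one_iff _).2
        have hxi : x⁻¹ ∉ M := fun h => hx (M.inv_mem_iff.1 h)
        show x⁻¹ * m ^ r * x ∈ H
        simpa using hcase x⁻¹ hxi (m ^ r) (M.pow_mem hm r) (by simpa using hxm)
    have hH : H ≤ t.ker := fun h hh => by
      rw [MonoidHom.mem_ker, ht h (hHM hh)]; exact (QuotientGroup.eq_one_iff _).2 hh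
    refine le_antisymm ?_ (le_inf Subgroup.le_normalClosure hHM)
    rintro x ⟨hx, hxM⟩
    have h1 : t x = 1 := Subgroup.normalClosure_le_normal hH hx
    rw [ht x hxM] at h1
    exact ((QuotientGroup.eq_one_iff _).1 h1 : _)
  · push Not at hcase
    obtain ⟨g, hg, m, hm, hy, hyH⟩ := hcase
    set T := H ⊔ H.map (MulAut.conj g).toMonoidHom with hT
    have hyN : g * m * g⁻¹ ∈ Subgroup.normalizer (T : Set G) :=
      normalizer_sup_of_common hHn hy (by simpa [mul_assoc] using hm)
    have hTM : ¬ T ≤ M := by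
      intro hTM
      have : T = H := by rw [← hcl g, inf_eq_left.2 hTM]
      apply hg
      rw [← hNHM, Subgroup.mem_normalizer_iff_map_conj_eq]
      exact eq_of_card (le_sup_right.trans this.le)
        (Subgroup.card_map_of_injective (MulAut.conj g).injective).ge
    have hHT : H ≤ Subgroup.normalizer (T : Set G) := le_sup_left.trans Subgroup.le_normalizer
    have hMT : M ≤ Subgroup.normalizer (T : Set G) := by
      rcases eq_or_eq_of_coatom hmaxH hHM (le_inf hHM hHT) (inf_le_left : M ⊓ _ ≤ M) with h | h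
      · exact absurd (h.le ⟨hy, hyN⟩) hyH
      · exact inf_eq_left.1 h
    have htop : Subgroup.normalizer (T : Set G) = ⊤ :=
      hmaxM.2 _ (lt_of_le_of_ne hMT fun h => hTM (Subgroup.le_normalizer.trans h.ge))
    have hTn : T.Normal := Subgroup.normalizer_eq_top_iff.1 htop
    refine le_antisymm ?_ (le_inf Subgroup.le_normalClosure hHM)
    exact (inf_le_inf_right M (Subgroup.normalClosure_le_normal (le_sup_left : H ≤ T))).trans (hcl g).le

end Cfsg.Agent.S3014
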