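import Cfsg.Statements.S3015
import Mathlib
import Cfsg.Agent.Lib.LocalP2.TransferNormal
import Cfsg.Agent.Lib.LocalP2.ChermakDelgado
-- import your own Cfsg.Agent.* helpers here

set_option autoImplicit false
open Cfsg Cfsg.Agent.Lib.LocalP2

namespace Cfsg.Agent.S3015

/-- Let G be a finite non-abelian simple group, M a maximal subgroup of G and H a normal subgroup of M of prime index in M. Then G is generated by H together with one of its conjugates. -/
theorem result {G : Type*} [Group G] [Finite G] [IsSimpleGroup G] (hG : ¬ IsMulCommutative G) (M H : Subgroup G) (hmaxM : IsCoatom M) (hHM : H ≤ M) (hHn : (H.subgroupOf M).Normal) (hidx : (H.relIndex M).Prime) : ∃ g : G, H ⊔ H.map (MulAut.conj g).toMonoidHom = ⊤ := by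
  classical
  by_contra hall
  push Not at hall
  have hHn' : M ≤ Subgroup.normalizer (H : Set G) := (Subgroup.normal_subgroupOf_iff_le_normalizer hHM).1 hHn
  have hmaxH : IsCoatom (H.subgroupOf M) := by
    refine ⟨fun h => hidx.ne_one (Subgroup.relIndex_eq_one.2 (Subgroup.subgroupOf_eq_top.1 h)), fun K hK => ?_⟩
    have h1 := Subgroup.relIndex_mul_index hK.le
    have h2 : (H.subgroupOf M).index = H.relIndex M := rfl
    rw [h2] at h1
    rcases hidx.eq_one_or_self_of_dvd K.index (h1 ▸ dvd_mul_left _ _) with h | h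
    · exact Subgroup.index_eq_one.1 h
    · rw [h] at h1
      have : (H.subgroupOf M).relIndex K = 1 := by
        have hp := hidx.pos
        exact Nat.eq_of_mul_eq_mul_right hp (by simpa using h1)
      exact absurd (Subgroup.relIndex_eq_one.1 this) (not_le_of_gt hK)
  have hNM : Subgroup.normalizer (M : Set G) = M := by
    by_contra hne
    have hn : M.Normal := Subgroup.normalizer_eq_top_iff.1
      (hmaxM.2 _ (lt_of_le_of_ne Subgroup.le_normalizer (Ne.symm hne)))
    rcases hn.eq_bot_or_eq_top with h | h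
    · rw [h, le_bot_iff] at hHM
      rw [h, hHM, Subgroup.relIndex_self] at hidx
      exact Nat.not_prime_one hidx
    · exact hmaxM.1 h
  -- conjugates of elements outside `H` that return to `M` fall into `H`
  have hstep : ∀ g : G, g ∉ M → ∀ m ∈ M, m ∉ H → g * m * g⁻¹ ∈ M → g * m * g⁻¹ ∈ H := by
    intro g hg m hm hmH hy
    by_contra hyH
    set T := H ⊔ H.map (MulAut.conj g).toMonoidHom with hT
    by_cases hgM : H.map (MulAut.conj g).toMonoidHom ≤ M
    · set K := M.map (MulAut.conj g⁻¹).toMonoidHom ⊓ M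
      have hHK : H ≤ K := fun h hh => ⟨⟨g * h * g⁻¹, hgM ⟨h, hh, rfl⟩, by simp [mul_assoc]⟩, hHM hh⟩
      rcases eq_or_eq_of_coatom hmaxH hHM hHK inf_le_right with h | h
      · exact hmH (h.le ⟨⟨g * m * g⁻¹, hy, by simp [mul_assoc]⟩, hm⟩)
      · apply hg
        have hle : M ≤ M.map (MulAut.conj g⁻¹).toMonoidHom := h.ge.trans inf_le_left
        have heq := eq_of_card hle (Subgroup.card_map_of_injective (MulAut.conj g⁻¹).injective).le
        have : g⁻¹ ∈ Subgroup.normalizer (M : Set G) :=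
          Subgroup.mem_normalizer_iff_map_conj_eq.2 heq.symm
        rw [hNM] at this
        exact M.inv_mem_iff.1 this
    · have hyN : g * m * g⁻¹ ∈ Subgroup.normalizer (T : Set G) :=
        normalizer_sup_of_common hHn' hy (by simpa [mul_assoc] using hm)
      have hMT : M ≤ Subgroup.normalizer (T : Set G) := by
        rcases eq_or_eq_of_coatom hmaxH hHM (le_inf hHM (le_sup_left.trans Subgroup.le_normalizer))
          (inf_le_left : M ⊓ Subgroup.normalizer (T : Set G) ≤ M) with h | h
        · exact absurd (h.le ⟨hy, hyN⟩) hyH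
        · exact inf_eq_left.1 h
      have htop : Subgroup.normalizer (T : Set G) = ⊤ :=
        hmaxM.2 _ (lt_of_le_of_ne hMT fun h => hgM (le_sup_right.trans (Subgroup.le_normalizer.trans h.ge)))
      rcases (Subgroup.normalizer_eq_top_iff.1 htop).eq_bot_or_eq_top with h | h
      · exact hgM ((le_sup_right.trans h.le).trans bot_le)
      · exact hall g h
  -- an element of least order outside `H`
  obtain ⟨m, ⟨hm, hmH⟩, hmin⟩ : ∃ m, (m ∈ M ∧ m ∉ H) ∧ ∀ z, z ∈ M ∧ z ∉ H → orderOf m ≤ orderOf z := by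
    have hne : {z : G | z ∈ M ∧ z ∉ H}.Nonempty := by
      by_contra hh
      rw [Set.not_nonempty_iff_eq_empty] at hh
      apply hidx.ne_one (Subgroup.relIndex_eq_one.2 ?_)
      intro z hz
      by_contra hzH
      exact (hh.le ⟨hz, hzH⟩ : z ∈ (∅ : Set G))
    obtain ⟨m, hm, hmin⟩ := (Set.toFinite {z : G | z ∈ M ∧ z ∉ H}).exists_minimalFor orderOf _ hne
    exact ⟨m, hm, fun z hz => le_of_not_gt fun h => (h.not_ge (hmin hz h.le))⟩
  have : (H.subgroupOf M).Normal := hHn
  have hcyc := isCyclic_quotient_of_coatom hmaxH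
  letI : CommGroup (↥M ⧸ H.subgroupOf M) := IsCyclic.commGroup
  set φ : ↥M →* ↥M ⧸ H.subgroupOf M := QuotientGroup.mk' _
  set t := MonoidHom.transfer φ
  have ht : t m = φ ⟨m, hm⟩ := transfer_eq_self M φ m hm fun r x hx hxm => by
    apply (QuotientGroup.eq_one_iff _).2
    show x⁻¹ * m ^ r * x ∈ H
    by_contra hH
    have h1 : orderOf m ≤ orderOf (m ^ r) := by
      have := hmin _ ⟨hxm, hH⟩
      rwa [show x⁻¹ * m ^ r * x = MulAut.conj x⁻¹ (m ^ r) by simp, MulEquiv.orderOf_eq] at this
    have h2 : Subgroup.zpowers (m ^ r) = Subgroup.zpowers m :=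
      eq_of_card (Subgroup.zpowers_le.2 ⟨r, by simp⟩) (by simpa [Nat.card_zpowers] using h1)
    obtain ⟨j, hj⟩ := Subgroup.mem_zpowers_iff.1 (h2 ▸ Subgroup.mem_zpowers m)
    have hxM : x⁻¹ * m * x ∈ M := by
      rw [← hj, show x⁻¹ * (m ^ r) ^ j * x = (x⁻¹ * m ^ r * x) ^ j by
        simpa using (conj_zpow (a := x⁻¹) (b := m ^ r) (i := j)).symm]
      exact M.zpow_mem hxm j
    have hxi : x⁻¹ ∉ M := fun h => hx (M.inv_mem_iff.1 h)
    have hmem : x⁻¹ * m * x ∈ H := by simpa using hstep x⁻¹ hxi m hm hmH (by simpa using hxM)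
    apply hH
    rw [show x⁻¹ * m ^ r * x = (x⁻¹ * m * x) ^ r by simpa using (conj_pow (a := x⁻¹) (b := m) (i := r)).symm]
    exact H.pow_mem hmem r
  have hne1 : φ ⟨m, hm⟩ ≠ 1 := fun h => hmH ((QuotientGroup.eq_one_iff _).1 h : _)
  rcases (MonoidHom.normal_ker t).eq_bot_or_eq_top with h | h
  · apply hG
    refine ⟨⟨fun a b => (MonoidHom.ker_eq_bot_iff t).1 h ?_⟩⟩
    rw [map_mul, map_mul, mul_comm]
  · exact hne1 (ht.symm.trans (h.ge (Subgroup.mem_top m) : _))

end Cfsg.Agent.S3015
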