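import Cfsg.Statements.S3020
import Mathlib
import Cfsg.Agent.Lib.LocalChar.Norm
import Cfsg.Agent.Lib.Hall.Basic
-- import your own Cfsg.Agent.* helpers here

set_option autoImplicit false
open Cfsg Cfsg.Agent Cfsg.Agent.Lib.LocalChar
open scoped commutatorElement

namespace Cfsg.Agent.S3020

/-- Let G be a finite group, p a prime and H an abelian p-subgroup of G that is extremely closed (for every g, the subgroup generated by H and g H g⁻¹ meets N_G(H) exactly in H). Then for every g ∈ G, the subgroup T generated by H and g H g⁻¹ is the product of H with O_{p'}(T), and H meets O_{p'}(T) trivially; that is, O_{p'}(T) is a normal p-complement of H in T. -/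
theorem result {G : Type*} [Group G] [Finite G] {p : ℕ} [Fact p.Prime] (H : Subgroup G) (hHp : IsPGroup p H) (hHab : IsMulCommutative H) (hcl : Cfsg.IsExtremelyClosed H) (g : G) (T : Subgroup G) (hT : T = H ⊔ H.map (MulAut.conj g).toMonoidHom) : H ⊔ (Cfsg.pPrimeCore p ↥T).map T.subtype = T ∧ H ⊓ (Cfsg.pPrimeCore p ↥T).map T.subtype = ⊥ := by
  have hH : H ≤ T := hT ▸ le_sup_left
  have hsyl : IsSylowIn p H T := by
    obtain ⟨Q, hQ, hle⟩ := exists_isSylowIn_ge hHp hH
    convert hQ using 1
    by_contra hne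
    obtain ⟨u, hu, huH, hun⟩ := exists_mem_nz_of_lt hQ.2.1 (lt_of_le_of_ne hle hne)
    exact huH ((hcl g).le ⟨hT ▸ hQ.1 hu, hun⟩)
  set P := hsyl.sylow
  have hPc : (P : Subgroup ↥T) = H.subgroupOf T := hsyl.sylow_coe
  have hN : Subgroup.normalizer ((P : Subgroup ↥T) : Set ↥T) ≤
      Subgroup.centralizer ((P : Subgroup ↥T) : Set ↥T) := by
    intro x hx
    rw [hPc] at hx ⊢
    have hxH : (x : G) ∈ H := by
      refine (hcl g).le ⟨hT ▸ x.2, mem_nz_of_cj_le (cj_le_iff.2 fun h hh => ?_)⟩
      have := conj_mem_of_nz hx (show (⟨h, hH hh⟩ : ↥T) ∈ H.subgroupOf T from hh)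
      exact this
    exact Subgroup.mem_centralizer_iff.2 fun y hy => Subtype.ext (comm_of_isMulCommutative hHab hy hxH)
  set K := (MonoidHom.transferSylow P hN).ker
  have hcomp := MonoidHom.ker_transferSylow_isComplement' P hN
  have hKn : K.Normal := MonoidHom.normal_ker _
  have hKO : K ≤ pPrimeCore p ↥T := Lib.Hall.le_pPrimeCore
    ((Nat.Prime.coprime_iff_not_dvd Fact.out).2 (MonoidHom.not_dvd_card_ker_transferSylow P hN)).symm
  have hHe : H = (P : Subgroup ↥T).map T.subtype := by
    rw [hPc, Subgroup.map_subgroupOf_eq_of_le hH]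
  constructor
  · refine le_antisymm (sup_le hH (Subgroup.map_subtype_le _)) ?_
    calc T = (⊤ : Subgroup ↥T).map T.subtype := by rw [← MonoidHom.range_eq_map, Subgroup.range_subtype]
      _ = ((P : Subgroup ↥T) ⊔ K).map T.subtype := by rw [sup_comm, hcomp.sup_eq_top]
      _ ≤ _ := by rw [Subgroup.map_sup, ← hHe]; exact sup_le_sup_left (Subgroup.map_mono hKO) _
  · rw [hHe, ← Subgroup.map_inf _ _ _ T.subtype_injective, Subgroup.map_eq_bot_iff_of_injective _ T.subtype_injective]
    obtain ⟨k, hk⟩ := IsPGroup.iff_card.1 P.isPGroup'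
    exact Subgroup.inf_eq_bot_of_coprime (hk ▸ ((Lib.Hall.coprime_card_pPrimeCore p).symm.pow_left k))

end Cfsg.Agent.S3020
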