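import Cfsg.Statements.S3021
import Mathlib
-- import your own Cfsg.Agent.* helpers here

set_option autoImplicit false
open Cfsg

namespace Cfsg.Agent.S3021

/-- Let G be a finite group, p a prime and H a p-subgroup of G that is extremely closed (for every g, the subgroup generated by H and g H g⁻¹ meets N_G(H) exactly in H). Then every p-subgroup Q of G containing H has N_G(Q) ≤ N_G(H); in particular every Sylow p-subgroup P of G containing H normalizes H, and H is strongly closed in P with respect to G. -/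
theorem result {G : Type*} [Group G] [Finite G] {p : ℕ} [Fact p.Prime] (H : Subgroup G) (hHp : IsPGroup p H) (hcl : Cfsg.IsExtremelyClosed H) : (∀ Q : Subgroup G, IsPGroup p Q → H ≤ Q → Subgroup.normalizer (Q : Set G) ≤ Subgroup.normalizer (H : Set G)) ∧ ∀ P : Sylow p G, H ≤ (P : Subgroup G) → (P : Subgroup G) ≤ Subgroup.normalizer (H : Set G) ∧ Cfsg.IsStronglyClosed H (P : Subgroup G) := by
  have key : ∀ Q : Subgroup G, IsPGroup p Q → H ≤ Q → ∀ g : G,
      H.map (MulAut.conj g).toMonoidHom ≤ Q → H.map (MulAut.conj g).toMonoidHom ≤ H := by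
    intro Q hQ hHQ g hgQ
    set T := H ⊔ H.map (MulAut.conj g).toMonoidHom with hT
    have hTp : IsPGroup p T := hQ.to_le (sup_le hHQ hgQ)
    have hnil : Group.IsNilpotent T := hTp.isNilpotent
    by_contra hne
    have htop : H.subgroupOf T ≠ ⊤ := by
      rw [ne_eq, Subgroup.subgroupOf_eq_top]
      exact fun h => hne (le_sup_right.trans h)
    obtain ⟨t, ht, htH⟩ := SetLike.exists_of_lt
      (Group.normalizerCondition_of_isNilpotent (H.subgroupOf T) (lt_top_iff_ne_top.2 htop))
    apply htH
    show (t : G) ∈ H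
    rw [← hcl g]
    refine ⟨t.2, ?_⟩
    refine Subgroup.mem_normalizer_iff.2 ?_
    intro h
    constructor
    · intro hh
      exact (Subgroup.mem_normalizer_iff.1 ht ⟨h, (le_sup_left : H ≤ T) hh⟩).1 hh
    · intro hh
      have h1 : h ∈ T := by
        have := T.mul_mem (T.mul_mem (T.inv_mem t.2) ((le_sup_left : H ≤ T) hh)) t.2
        simpa [mul_assoc] using this
      exact (Subgroup.mem_normalizer_iff.1 ht ⟨h, h1⟩).2 hh
  have hnorm : ∀ Q : Subgroup G, IsPGroup p Q → H ≤ Q →
      Subgroup.normalizer (Q : Set G) ≤ Subgroup.normalizer (H : Set G) := by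
    intro Q hQ hHQ
    have hin : ∀ n ∈ Subgroup.normalizer (Q : Set G), H.map (MulAut.conj n).toMonoidHom ≤ H := by
      intro n hn
      apply key Q hQ hHQ
      rintro _ ⟨h, hh, rfl⟩
      exact (Subgroup.mem_normalizer_iff.1 hn h).1 (hHQ hh)
    intro n hn
    rw [Subgroup.mem_normalizer_iff]
    intro h
    constructor
    · intro hh; exact hin n hn ⟨h, hh, rfl⟩
    · intro hh
      exact hin n⁻¹ (Subgroup.inv_mem _ hn) ⟨n * h * n⁻¹, hh, by simp [mul_assoc]⟩
  refine ⟨hnorm, fun P hHP => ?_⟩
  have hPN : (P : Subgroup G) ≤ Subgroup.normalizer (H : Set G) :=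
    Subgroup.le_normalizer.trans (hnorm P P.2 hHP)
  refine ⟨hPN, hHP, ?_⟩
  intro x hx g hgx
  rw [← hcl g]
  exact ⟨Subgroup.mem_sup_right ⟨x, hx, rfl⟩, hPN hgx⟩

end Cfsg.Agent.S3021
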