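import Cfsg.Statements.S3023
import Mathlib
import Cfsg.Agent.Lib.LocalP2.CharP
-- import your own Cfsg.Agent.* helpers here

set_option autoImplicit false
open Cfsg Cfsg.Agent Cfsg.Agent.Lib.LocalChar
open scoped Pointwise

namespace Cfsg.Agent.S3023

/-- Let p be a prime, G a finite group of parabolic characteristic p (every p-local subgroup containing a Sylow p-subgroup of G has characteristic p), S a Sylow p-subgroup of G and G₁ a subnormal subgroup of G. If the centre of S ∩ G₁ is nontrivial and contained in the centre of S, then G₁ has parabolic characteristic p. -/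
theorem result {G : Type*} [Group G] [Finite G] {p : ℕ} [Fact p.Prime] (hG : Cfsg.IsOfParabolicCharacteristic p G) (S : Sylow p G) (G₁ : Subgroup G) (hsn : G₁.IsSubnormal) (hne : ((S : Subgroup G) ⊓ G₁) ⊓ Subgroup.centralizer (((S : Subgroup G) ⊓ G₁ : Subgroup G) : Set G) ≠ ⊥) (hle : ((S : Subgroup G) ⊓ G₁) ⊓ Subgroup.centralizer (((S : Subgroup G) ⊓ G₁ : Subgroup G) : Set G) ≤ (S : Subgroup G) ⊓ Subgroup.centralizer ((S : Subgroup G) : Set G)) : Cfsg.IsOfParabolicCharacteristic p ↥G₁ := by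
  intro R₀ hR₀ hR₀ne hpar
  obtain ⟨T₀, hT₀⟩ := hpar
  refine charP_iff.2 (Lib.LocalP2.isCharPOf_of_map G₁.subtype_injective ?_)
  set R := R₀.map G₁.subtype with hRdef
  have hRG : R ≤ G₁ := Subgroup.map_subtype_le _
  have hRp : IsPGroup p R := hR₀.map _
  have hRne : R ≠ ⊥ := fun h => hR₀ne (by
    rwa [Subgroup.map_eq_bot_iff_of_injective _ G₁.subtype_injective] at h)
  have hmap : (Subgroup.normalizer (R₀ : Set G₁)).map G₁.subtype
      = G₁ ⊓ Subgroup.normalizer (R : Set G) := by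
    have hc : R₀ = R.subgroupOf G₁ := by
      rw [hRdef, Subgroup.subgroupOf, Subgroup.comap_map_eq_self_of_injective G₁.subtype_injective]
    ext x
    constructor
    · rintro ⟨y, hy, rfl⟩
      refine ⟨y.2, mem_nz_of_cj_le (cj_le_iff.2 ?_)⟩
      rintro _ ⟨r, hr, rfl⟩
      exact ⟨y * r * y⁻¹, conj_mem_of_nz hy hr, by simp⟩
    · rintro ⟨hx, hxn⟩
      refine ⟨⟨x, hx⟩, mem_nz_of_cj_le (cj_le_iff.2 fun r hr => ?_), rfl⟩
      rw [hc, Subgroup.mem_subgroupOf] at hr ⊢
      exact conj_mem_of_nz hxn hr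
  rw [hmap]
  -- a Sylow `p`-subgroup of `G₁` in the normalizer, extended to one of `G`
  have hT₁ : (T₀ : Subgroup G₁).map G₁.subtype ≤ Subgroup.normalizer (R : Set G) :=
    ((Subgroup.map_mono hT₀).trans hmap.le).trans inf_le_right
  obtain ⟨g, hg, hgT⟩ := (IsSylowIn.ofSylow T₀).conj_eq (IsSylowIn.inf_subnormal S hsn)
  have hG₁ : cj g G₁ = G₁ := cj_eq_of_mem_nz (Subgroup.le_normalizer hg)
  have hinf : ∀ A B : Subgroup G, cj g (A ⊓ B) = cj g A ⊓ cj g B := fun A B =>
    Subgroup.map_inf A B _ (MulEquiv.injective _)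
  set S' := g • S
  have hS' : (S' : Subgroup G) = cj g (S : Subgroup G) := rfl
  have hST : (S' : Subgroup G) ⊓ G₁ = (T₀ : Subgroup G₁).map G₁.subtype := by
    rw [hS']; nth_rw 1 [← hG₁]; rw [← hinf]; exact hgT
  set S₁ := (S' : Subgroup G) ⊓ G₁ with hS₁
  have hle' : S₁ ⊓ Subgroup.centralizer (S₁ : Set G) ≤
      Subgroup.centralizer ((S' : Subgroup G) : Set G) := by
    have h := cj_mono (g := g) (hle.trans inf_le_right)
    rw [hinf, cj_centralizer, cj_centralizer, hinf, hG₁, ← hS'] at h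
    exact h
  have hS₁n : S₁ ≤ Subgroup.normalizer (R : Set G) := hST.le.trans hT₁
  have hS₁S : IsSylowIn p S₁ G₁ := IsSylowIn.inf_subnormal S' hsn
  have hRS : R ≤ S₁ := by
    have h1 : IsPGroup p (R ⊔ S₁ : Subgroup G) := hRp.to_sup_of_normal_left' hS₁S.2.1 hS₁n
    rw [← hS₁S.eq_of_le h1 (sup_le hRG hS₁S.1) le_sup_right]
    exact le_sup_left
  set Z := R ⊓ Subgroup.centralizer (S₁ : Set G) with hZdef
  have hZne : Z ≠ ⊥ := by
    obtain ⟨u, hu, hu1, huc⟩ := Lib.LocalChar.exists_fixed hRp hS₁S.2.1 hS₁n hRne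
    exact fun h => hu1 (Subgroup.mem_bot.1 (h ▸ ⟨hu, Subgroup.mem_centralizer_iff.2 fun a ha => (huc a ha).eq⟩))
  have hZS : Z ≤ Subgroup.centralizer ((S' : Subgroup G) : Set G) :=
    (inf_le_inf_right _ hRS).trans hle'
  have hSC : (S' : Subgroup G) ≤ Subgroup.centralizer (Z : Set G) :=
    Subgroup.le_centralizer_iff.1 hZS
  have hN := hG Z (hRp.to_le inf_le_left) hZne
    ⟨S', hSC.trans (Subgroup.centralizer_le_normalizer _)⟩
  have hC : IsCharPOf p (Subgroup.centralizer (Z : Set G)) :=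
    (charP_iff.1 hN).of_normal (Subgroup.centralizer_le_normalizer _) (le_nz_centralizer le_rfl)
  have hD := Lib.LocalP2.isCharPOf_inf_subnormal hC hsn
  have hRC : R ≤ Subgroup.centralizer (Z : Set G) := by
    refine hRS.trans (Subgroup.le_centralizer_iff.1 inf_le_right)
  set M := G₁ ⊓ Subgroup.normalizer (R : Set G)
  have hRN : R ≤ pCoreOf p M := le_pCoreOf (le_inf hRG Subgroup.le_normalizer) inf_le_right hRp
  have hDR := hD.inf_normalizer hRp (le_inf hRG hRC)
  have hE : IsCharPOf p (G₁ ⊓ Subgroup.centralizer (R : Set G)) := by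
    refine hDR.of_normal ?_ ?_
    · refine le_inf (le_inf inf_le_left ?_) (inf_le_right.trans (Subgroup.centralizer_le_normalizer _))
      exact inf_le_right.trans (Subgroup.centralizer_le (inf_le_left : Z ≤ R))
    · exact le_nz_inf ((inf_le_left.trans inf_le_left).trans Subgroup.le_normalizer)
        (inf_le_right.trans (le_nz_centralizer le_rfl))
  exact Lib.LocalP2.eq_one_of_centralizer_normal hE hRN
    (inf_le_inf_left _ (Subgroup.centralizer_le_normalizer _))
    (le_nz_inf (inf_le_left.trans Subgroup.le_normalizer)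
      (inf_le_right.trans (le_nz_centralizer le_rfl)))
    (inf_le_inf_right _ inf_le_left)

end Cfsg.Agent.S3023
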