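import Cfsg.Statements.S3025
import Mathlib
import Cfsg.Agent.Lib.LocalChar.YL
import Cfsg.Agent.Lib.LocalP2.CoatomFixed
import Cfsg.Agent.Lib.UniqueInvolution
-- import your own Cfsg.Agent.* helpers here

set_option autoImplicit false
open Cfsg Cfsg.Agent Cfsg.Agent.Lib.LocalChar

namespace Cfsg.Agent.S3025

/-- Let F be a finite group and H a nontrivial subgroup of F that is contained in every nontrivial subgroup of F which H normalizes. Then F has a nontrivial normal subgroup N contained in every nontrivial normal subgroup of F (a unique minimal normal subgroup), N is simple, and one of the following holds: C_F(N) = 1; or H = N has prime order p, C_F(N) is cyclic of order a power of p, and F/C_F(N) is cyclic of order dividing p − 1; or H = N has order 2, N is central in F, and F is a generalized quaternion group. -/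
theorem result {F : Type*} [Group F] [Finite F] (H : Subgroup F) (hH : H ≠ ⊥)
    (hmin : ∀ R : Subgroup F, R ≠ ⊥ → H ≤ Subgroup.normalizer (R : Set F) → H ≤ R) :
    ∃ N : Subgroup F, N.Normal ∧ N ≠ ⊥ ∧ (∀ M : Subgroup F, M.Normal → M ≠ ⊥ → N ≤ M) ∧ IsSimpleGroup ↥N ∧
      (Subgroup.centralizer (N : Set F) = ⊥ ∨
       (H = N ∧ (Nat.card N).Prime ∧ IsCyclic ↥(Subgroup.centralizer (N : Set F)) ∧
          (∃ k : ℕ, 1 ≤ k ∧ Nat.card ↥(Subgroup.centralizer (N : Set F)) = Nat.card N ^ k) ∧
          (∃ g : F, Subgroup.centralizer (N : Set F) ⊔ Subgroup.zpowers g = ⊤) ∧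
          (Subgroup.centralizer (N : Set F)).index ∣ Nat.card N - 1) ∨
       (H = N ∧ Nat.card N = 2 ∧ Subgroup.centralizer (N : Set F) = ⊤ ∧
          ∃ k : ℕ, 1 ≤ k ∧ Nonempty (F ≃* QuaternionGroup (2 ^ k)))) := by
  classical
  set N := Subgroup.normalClosure (H : Set F)
  have hNn : N.Normal := Subgroup.normalClosure_normal
  have hHN : H ≤ N := Subgroup.le_normalClosure
  have hNne : N ≠ ⊥ := fun h => hH (le_bot_iff.1 (h ▸ hHN))
  have hNmin : ∀ M : Subgroup F, M.Normal → M ≠ ⊥ → N ≤ M := fun M hM hne => by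
    haveI := hM
    exact Subgroup.normalClosure_le_normal (hmin M hne (by rw [Subgroup.normalizer_eq_top]; exact le_top))
  have hsimple : IsSimpleGroup ↥N := by
    haveI : Nontrivial ↥N := (Subgroup.nontrivial_iff_ne_bot N).2 hNne
    refine ⟨fun X hX => or_iff_not_imp_left.2 fun hXne => ?_⟩
    set Y := X.map N.subtype
    have hYne : Y ≠ ⊥ := fun h => hXne (by
      rwa [Subgroup.map_eq_bot_iff_of_injective _ N.subtype_injective] at h)
    have hYN : N ≤ Subgroup.normalizer (Y : Set F) := fun n hn => mem_nz_of_cj_le (cj_le_iff.2 (by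
      rintro _ ⟨y, hy, rfl⟩
      exact ⟨_, hX.conj_mem y hy ⟨n, hn⟩, rfl⟩))
    have hall : ∀ g : F, H ≤ cj g Y := fun g => by
      refine hmin _ (fun e => hYne ?_) (le_nz_of_cj fun h hh => ?_)
      · rwa [Subgroup.map_eq_bot_iff_of_injective _ (MulEquiv.injective _)] at e
      · have hm : g⁻¹ * h * g ∈ N := by simpa using hNn.conj_mem h (hHN hh) g⁻¹
        rw [cj_cj, show h * g = g * (g⁻¹ * h * g) by group, ← cj_cj, cj_eq_of_mem_nz (hYN hm)]
    have hne : (⨅ g : F, cj g Y) ≠ ⊥ := fun e => hH (le_bot_iff.1 (e ▸ le_iInf hall))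
    have hn : (⨅ g : F, cj g Y).Normal := by
      refine ⟨fun x hx g => ?_⟩
      rw [Subgroup.mem_iInf] at hx ⊢
      intro k
      have := hx (g⁻¹ * k)
      rw [mem_cj] at this ⊢
      simpa [mul_assoc] using this
    have hNY : N ≤ Y := ((hNmin _ hn hne).trans (iInf_le _ 1)).trans
      (cj_eq_of_mem_nz (Subgroup.one_mem _)).le
    rw [eq_top_iff]
    intro y _
    obtain ⟨z, hz, hze⟩ := hNY y.2
    rwa [← N.subtype_injective hze]
  refine ⟨N, hNn, hNne, hNmin, hsimple, ?_⟩
  by_cases hC : Subgroup.centralizer (N : Set F) = ⊥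
  · exact Or.inl hC
  right
  set C := Subgroup.centralizer (N : Set F) with hCdef
  have hCn : C.Normal := by
    rw [hCdef]; exact Subgroup.normalizer_eq_top_iff.1 (top_le_iff.1
      (le_nz_centralizer (by rw [Subgroup.normalizer_eq_top])))
  have hNC : N ≤ C := hNmin C hCn hC
  have hNcomm : ∀ a ∈ N, ∀ b ∈ N, a * b = b * a := fun a ha b hb =>
    (Subgroup.mem_centralizer_iff.1 (hNC hb) a ha)
  haveI : IsMulCommutative ↥N := ⟨⟨fun a b => Subtype.ext (hNcomm a a.2 b b.2)⟩⟩
  letI : CommGroup ↥N := { N.toGroup with mul_comm := fun a b => Subtype.ext (hNcomm a a.2 b b.2) }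
  have hq : (Nat.card ↥N).Prime := IsSimpleGroup.prime_card
  set q := Nat.card ↥N with hqdef
  haveI : Fact q.Prime := ⟨hq⟩
  have hHeq : H = N := (Lib.LocalP2.eq_bot_or_eq_of_prime_card hq hHN).resolve_left hH
  have huniq : ∀ R : Subgroup F, R ≤ C → R ≠ ⊥ → N ≤ R := by
    intro R hR hne
    rw [← hHeq]
    refine hmin R hne ((hHN.trans ?_).trans (Subgroup.centralizer_le_normalizer _))
    exact Subgroup.le_centralizer_iff.1 hR
  have hCq : IsPGroup q ↥C := by
    refine IsPGroup.of_card (n := (Nat.card ↥C).primeFactorsList.length) ?_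
    refine Nat.eq_prime_pow_of_unique_prime_dvd Nat.card_pos.ne' fun {r} hr hd => ?_
    haveI : Fact r.Prime := ⟨hr⟩
    obtain ⟨c, hc⟩ := exists_prime_orderOf_dvd_card' r hd
    have h1 : N ≤ Subgroup.zpowers (c : F) := huniq _ (Subgroup.zpowers_le.2 c.2) (fun e => by
      rw [Subgroup.zpowers_eq_bot] at e
      rw [← Subgroup.orderOf_coe, e, orderOf_one] at hc
      exact hr.one_lt.ne hc)
    have h2 := Subgroup.card_dvd_of_le h1
    rw [Nat.card_zpowers, Subgroup.orderOf_coe, hc] at h2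
    exact ((Nat.prime_dvd_prime_iff_eq hq hr).1 h2).symm
  obtain ⟨k, hk⟩ := IsPGroup.iff_card.1 hCq
  have hk1 : 1 ≤ k := by
    by_contra h
    rw [show k = 0 by omega, pow_zero] at hk
    exact hC (Subgroup.eq_bot_of_card_eq _ hk)
  have hstruct := Lib.UniqueInvolution.isCyclic_or_quaternion hCq fun X Y hX hY => by
    have hm : ∀ Z : Subgroup ↥C, Nat.card Z = q → Z.map C.subtype = N := fun Z hZ => by
      have hne : Z.map C.subtype ≠ ⊥ := fun e => by
        rw [Subgroup.map_eq_bot_iff_of_injective _ C.subtype_injective] at e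
        rw [e, Subgroup.card_bot] at hZ
        exact hq.one_lt.ne hZ
      exact (Subgroup.eq_of_le_of_card_ge (huniq _ (Subgroup.map_subtype_le Z) hne)
        (by rw [Subgroup.card_map_of_injective C.subtype_injective, hZ])).symm
    exact Subgroup.map_injective C.subtype_injective ((hm X hX).trans (hm Y hY).symm)
  -- the automiser of `N`
  let φ : F →* MulAut ↥N := MulAut.conjNormal
  have hker : φ.ker = C := by
    ext g
    rw [MonoidHom.mem_ker, hCdef, Subgroup.mem_centralizer_iff]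
    constructor
    · intro h n hn
      have := congrArg Subtype.val (DFunLike.congr_fun h (⟨n, hn⟩ : ↥N))
      rw [MulAut.conjNormal_apply] at this
      exact (mul_inv_eq_iff_eq_mul.1 this).symm
    · intro h
      ext n
      rw [MulAut.conjNormal_apply, ← h n n.2, mul_inv_cancel_right]
      rfl
  haveI : IsCyclic ↥N := isCyclic_of_prime_card hqdef.symm
  haveI hautc : IsCyclic (MulAut ↥N) := by
    haveI : IsCyclic (ZMod (Nat.card ↥N))ˣ := ZMod.isCyclic_units_prime hq
    exact isCyclic_of_surjective _ (IsCyclic.mulAutMulEquiv ↥N).symm.surjective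
  have hidx : C.index ∣ q - 1 := by
    rw [← hker, Subgroup.index_ker, ← Nat.totient_prime hq, hqdef, ← IsCyclic.card_mulAut ↥N]
    exact Subgroup.card_subgroup_dvd_card _
  obtain ⟨g, hg⟩ : ∃ g : F, C ⊔ Subgroup.zpowers g = ⊤ := by
    obtain ⟨a, ha⟩ := IsCyclic.exists_generator (α := φ.range)
    obtain ⟨g, hg⟩ := a.2
    refine ⟨g, eq_top_iff.2 fun x _ => ?_⟩
    obtain ⟨i, hi⟩ := Subgroup.mem_zpowers_iff.1 (ha ⟨φ x, x, rfl⟩)
    have hi' : φ (g ^ i) = φ x := by
      have := congrArg Subtype.val hi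
      simpa [map_zpow, hg] using this
    rw [show x = (x * (g ^ i)⁻¹) * g ^ i by group]
    refine Subgroup.mul_mem_sup ?_ ⟨i, rfl⟩
    rw [← hker, MonoidHom.mem_ker, map_mul, map_inv, hi', mul_inv_cancel]
  rcases hstruct with hcyc | ⟨hq2, n, hn, ⟨e⟩⟩
  · exact Or.inl ⟨hHeq, hq, hcyc, ⟨k, hk1, hk⟩, ⟨g, hg⟩, hidx⟩
  · have hidx1 : C.index = 1 := by
      rw [hq2] at hidx
      exact Nat.dvd_one.1 (by simpa using hidx)
    have hCtop : C = ⊤ := Subgroup.index_eq_one.1 hidx1
    exact Or.inr ⟨hHeq, hq2, hCtop, n, hn,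
      ⟨((Subgroup.topEquiv).symm.trans (MulEquiv.subgroupCongr hCtop.symm)).trans e⟩⟩

end Cfsg.Agent.S3025
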