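import Cfsg.Statements.S3027
import Mathlib
import Cfsg.Agent.Lib.LocalChar.Core
-- import your own Cfsg.Agent.* helpers here

set_option autoImplicit false
open Cfsg Cfsg.Agent Cfsg.Agent.Lib.LocalChar
open scoped commutatorElement

namespace Cfsg.Agent.S3027

/-- Let G be a finite group and D a normal subgroup of G such that G/D is perfect (that is, G = G′D). Then among the subnormal subgroups B of G with BD = G there is a least one, and it is normal in G. -/
theorem result {G : Type*} [Group G] [Finite G] (D : Subgroup G) [D.Normal] (hperf : ⁅(⊤ : Subgroup G), (⊤ : Subgroup G)⁆ ⊔ D = ⊤) :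
    ∃ B : Subgroup G, B.Normal ∧ B ⊔ D = ⊤ ∧ ∀ B' : Subgroup G, B'.IsSubnormal → B' ⊔ D = ⊤ → B ≤ B' := by
  classical
  set f := QuotientGroup.mk' D
  have hsup : ∀ X : Subgroup G, X ⊔ D = ⊤ ↔ X.map f = ⊤ := fun X => by
    constructor
    · intro h
      rw [← Subgroup.map_top_of_surjective f (QuotientGroup.mk'_surjective D), ← h, Subgroup.map_sup,
        QuotientGroup.map_mk'_self, sup_bot_eq]
    · intro h
      have := congrArg (Subgroup.comap f) h
      rwa [Subgroup.comap_map_eq, QuotientGroup.ker_mk', Subgroup.comap_top] at this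
  have htop : (⊤ : Subgroup G).map f = ⊤ :=
    Subgroup.map_top_of_surjective _ (QuotientGroup.mk'_surjective D)
  have hcomm : ∀ X Y Z : Subgroup G, X.map f = ⊤ → Y.map f = ⊤ → ⁅X, Y⁆ ≤ Z → Z.map f = ⊤ := by
    intro X Y Z hX hY hle
    rw [hsup] at hperf
    rw [eq_top_iff]
    refine le_trans (le_of_eq ?_) (Subgroup.map_mono hle)
    rw [Subgroup.map_commutator, hX, hY]
    exact hperf.symm.trans (by rw [Subgroup.map_commutator, htop])
  obtain ⟨B, ⟨hBn, hB⟩, hmin⟩ := (Set.toFinite {B : Subgroup G | B.Normal ∧ B.map f = ⊤}).exists_minimal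
    ⟨⊤, inferInstance, htop⟩
  refine ⟨B, hBn, (hsup B).2 hB, fun B' hsn hB' => ?_⟩
  rw [hsup] at hB'
  have hBN : ∀ g, g ∈ Subgroup.normalizer (B : Set G) := fun g => by
    rw [Subgroup.normalizer_eq_top]; exact Subgroup.mem_top g
  induction hsn with
  | top => exact le_top
  | step A K hle _ hn ih =>
    have hBK : B ≤ K := ih (top_le_iff.1 (hB'.ge.trans (Subgroup.map_mono hle)))
    have hBA : B ≤ Subgroup.normalizer (A : Set G) := hBK.trans (le_nz_pointwise hle hn)
    set 𝒮 : Set (Subgroup G) :=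
      {X | X ≤ A ∧ X ≤ B ∧ B ≤ Subgroup.normalizer (X : Set G) ∧ X.map f = ⊤}
    have h0 : A ⊓ B ∈ 𝒮 :=
      ⟨inf_le_left, inf_le_right, le_nz_inf hBA Subgroup.le_normalizer, hcomm A B _ hB' hB
        (le_inf (commutator_le_left_of_nz hBA) (commutator_le_right_of_nz fun a _ => hBN a))⟩
    obtain ⟨X, hX, hXmin⟩ := (Set.toFinite 𝒮).exists_minimal ⟨_, h0⟩
    have hnorm : ∀ g : G, cj g X ≤ X := by
      intro g
      have hcB : cj g X ≤ B := (cj_mono hX.2.1).trans (cj_eq_of_mem_nz (hBN g)).le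
      have hcn : B ≤ Subgroup.normalizer (cj g X : Set G) := by
        intro b hb
        refine mem_nz_of_cj_le (cj_le_iff.2 fun y hy => ?_)
        rw [mem_cj] at hy ⊢
        have := conj_mem_of_nz (hX.2.2.1 (conj_mem_of_nz (hBN g⁻¹) hb)) hy
        convert this using 1
        group
      have hmem : X ⊓ cj g X ∈ 𝒮 := by
        refine ⟨inf_le_left.trans hX.1, inf_le_left.trans hX.2.1, le_nz_inf hX.2.2.1 hcn, ?_⟩
        refine hcomm X (cj g X) _ hX.2.2.2 ?_ (le_inf
          (commutator_le_left_of_nz (hcB.trans hX.2.2.1)) (commutator_le_right_of_nz (hX.2.1.trans hcn)))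
        rw [eq_top_iff]
        intro y _
        obtain ⟨z, hz, hze⟩ := hX.2.2.2.ge (Subgroup.mem_top ((f g)⁻¹ * y * f g))
        refine ⟨g * z * g⁻¹, conj_mem_cj hz, ?_⟩
        rw [map_mul, map_mul, map_inv, hze]
        group
      exact (Subgroup.eq_of_le_of_card_ge ((hXmin hmem inf_le_left).trans inf_le_right) (card_cj g X).le).ge
    have hXn : X.Normal := ⟨fun x hx g => hnorm g (conj_mem_cj hx)⟩
    exact (hmin ⟨hXn, hX.2.2.2⟩ hX.2.1).trans hX.1

end Cfsg.Agent.S3027
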