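import Cfsg.Statements.S3031
import Mathlib
import Cfsg.Agent.Lib.LocalP2.HSubgroup
import Mathlib
-- import your own Cfsg.Agent.* helpers here

set_option autoImplicit false
open Cfsg Cfsg.Agent

namespace Cfsg.Agent.S3031

/-- Let G be a finite group, p the smallest prime dividing |G| and P a Sylow p-subgroup. Suppose that P is cyclic, or that P has a subgroup D with 1 < |D| < |P| such that every subgroup E of P of order |D|, and also every subgroup E of P of order 4 when |D| = 2, satisfies g E g⁻¹ ∩ N_G(E) ≤ E for all g ∈ G (E is strongly closed in its normalizer with respect to G). Then G has a normal p-complement. -/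
theorem result {G : Type*} [Group G] [Finite G] {p : ℕ} [Fact p.Prime] (hdiv : p ∣ Nat.card G)
    (hmin : ∀ q : ℕ, q.Prime → q ∣ Nat.card G → p ≤ q) (P : Sylow p G)
    (h : IsCyclic ↥(P : Subgroup G) ∨ ∃ D : Subgroup G, D ≤ (P : Subgroup G) ∧ 1 < Nat.card D ∧ Nat.card D < Nat.card (P : Subgroup G) ∧
      ∀ E : Subgroup G, E ≤ (P : Subgroup G) → (Nat.card E = Nat.card D ∨ (Nat.card D = 2 ∧ Nat.card E = 4)) →
        ∀ g : G, E.map (MulAut.conj g).toMonoidHom ⊓ Subgroup.normalizer (E : Set G) ≤ E) :
    Cfsg.HasNormalPComplement p G := by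
  classical
  have hp : p.Prime := Fact.out
  rcases h with hcyc | ⟨D, hDP, hD1, hDlt, hH⟩
  · haveI := hcyc
    exact Lib.LocalP2.hasNormalPComplement_of_cyclic_smallest P hmin
  · obtain ⟨d, hd⟩ := IsPGroup.iff_card.1 (P.2.to_le hDP)
    obtain ⟨n, hn⟩ := IsPGroup.iff_card.1 P.2
    rw [hd] at hD1 hDlt hH
    rw [hn] at hDlt
    have hd1 : 1 ≤ d := by
      rcases d with _ | d
      · simp at hD1
      · omega
    by_cases hsp : p = 2 ∧ d = 1 ∧ 3 ≤ n
    · obtain ⟨h2, rfl, h3⟩ := hsp
      subst h2
      refine Lib.LocalP2.hasNormalPComplement_of_hsub P hmin (d := 2) ?_ (fun _ => Or.inl le_rfl) one_le_two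
        fun E hE hc => hH E hE (Or.inr ⟨by norm_num, by rw [hc]; norm_num⟩)
      rw [hn]
      exact Nat.pow_lt_pow_right one_lt_two h3
    · refine Lib.LocalP2.hasNormalPComplement_of_hsub P hmin (d := d) (by rw [hn]; exact hDlt) (fun h2 => ?_) hd1
        fun E hE hc => hH E hE (Or.inl hc)
      subst h2
      have hdn := (Nat.pow_lt_pow_iff_right one_lt_two).1 hDlt
      by_cases hd2 : 2 ≤ d
      · exact Or.inl hd2
      · right
        have hn2 : n = 2 := by
          by_contra hne
          exact hsp ⟨rfl, by omega, by omega⟩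
        rw [hn, hn2]; norm_num

end Cfsg.Agent.S3031
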