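import Cfsg.Statements.S3032
import Mathlib
import Cfsg.Agent.S3031
import Cfsg.Agent.Lib.LocalP2.HSubSupersolvable
import Cfsg.Agent.Lib.Components.Cores
import Mathlib
-- import your own Cfsg.Agent.* helpers here

set_option autoImplicit false
open Cfsg Cfsg.Agent

namespace Cfsg.Agent.S3032

open Subgroup Cfsg.Agent.Lib.LocalChar

universe v

/-- The hypothesis on the noncyclic Sylow subgroups. -/
def Cond {G : Type v} [Group G] (E : Subgroup G) : Prop :=
  ∀ (p : ℕ), p.Prime → ∀ P : Subgroup G, P ≤ E → IsPGroup p P → ¬ p ∣ P.relIndex E → ¬ IsCyclic ↥P →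
      ∃ D : Subgroup G, D ≤ P ∧ 1 < Nat.card D ∧ Nat.card D < Nat.card P ∧
        ∀ F : Subgroup G, F ≤ P → (Nat.card F = Nat.card D ∨ (Nat.card D = 2 ∧ Nat.card F = 4)) →
          ∀ g : G, F.map (MulAut.conj g).toMonoidHom ⊓ Subgroup.normalizer (F : Set G) ≤ F

theorem exists_sylow_invariant {G : Type v} [Group G] [Finite G] : ∀ (n : ℕ) (E : Subgroup G), Nat.card E = n →
    Cond E → E ≠ ⊥ → ∃ (q : ℕ) (Q : Subgroup G), q.Prime ∧ Q ≤ E ∧ IsPGroup q Q ∧ ¬ q ∣ Q.relIndex E ∧ Q ≠ ⊥ ∧
      normalizer (E : Set G) ≤ normalizer (Q : Set G) := by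
  intro n
  induction n using Nat.strong_induction_on with
  | _ n ih => ?_
  intro E hn hcond hE
  have hc1 : Nat.card E ≠ 1 := fun h => hE (card_eq_one.1 h)
  set p := (Nat.card E).minFac with hpdef
  haveI : Fact p.Prime := ⟨Nat.minFac_prime hc1⟩
  have hp : p.Prime := Fact.out
  have hmin : ∀ r : ℕ, r.Prime → r ∣ Nat.card E → p ≤ r := fun r hr hd => Nat.minFac_le_of_dvd hr.two_le hd
  obtain ⟨S⟩ := (inferInstance : Nonempty (Sylow p E))
  set P := (S : Subgroup E).map E.subtype with hP
  have hPS : IsSylowIn p P E := IsSylowIn.ofSylow S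
  have hnc : Cfsg.HasNormalPComplement p E := by
    by_cases hcyc : IsCyclic (S : Subgroup E)
    · haveI := hcyc
      exact Lib.LocalP2.hasNormalPComplement_of_cyclic_smallest S hmin
    · obtain ⟨D, hDP, hD1, hD2, hH⟩ := hcond p hp P hPS.1 hPS.2.1 hPS.2.2 (fun h => hcyc (by
        haveI := h
        exact isCyclic_of_surjective ((S : Subgroup E).equivMapOfInjective E.subtype E.subtype_injective).symm
          ((S : Subgroup E).equivMapOfInjective E.subtype E.subtype_injective).symm.surjective))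
      have hDc : Nat.card (D.subgroupOf E) = Nat.card D :=
        Nat.card_congr (subgroupOfEquivOfLe (hDP.trans hPS.1)).toEquiv
      have hPc : Nat.card P = Nat.card (S : Subgroup E) := card_map_of_injective E.subtype_injective
      refine S3031.result (Nat.minFac_dvd _) hmin S (Or.inr ⟨D.subgroupOf E, ?_, by rwa [hDc], by
        rw [hDc, ← hPc]; exact hD2, fun F hF hFc g => ?_⟩)
      · intro x hx
        obtain ⟨s, hs, hse⟩ := hDP hx
        exact (E.subtype_injective hse) ▸ hs
      · rw [hDc, ← card_map_of_injective (K := F) E.subtype_injective] at hFc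
        have hmain := hH (F.map E.subtype) (map_mono hF) hFc g
        rintro z ⟨⟨f, hf, rfl⟩, hz⟩
        have hzG : (g : G) * f * (g : G)⁻¹ ∈ normalizer (F.map E.subtype : Set G) := by
          rw [Subgroup.mem_normalizer_iff]
          intro w
          constructor
          · rintro ⟨w0, hw0, rfl⟩
            exact ⟨_, (Subgroup.mem_normalizer_iff.1 hz w0).1 hw0, by simp [mul_assoc]⟩
          · rintro ⟨w0, hw0, hwe⟩
            refine ⟨_, (Subgroup.mem_normalizer_iff.1 (inv_mem hz) w0).1 hw0, ?_⟩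
            have hwe' : (w0 : G) = g * f * (g : G)⁻¹ * w * ((g : G) * f * (g : G)⁻¹)⁻¹ := hwe
            simp [hwe', mul_assoc]
        obtain ⟨z0, hz0, hz0e⟩ := hmain ⟨⟨(f : G), mem_map_of_mem _ hf, rfl⟩, hzG⟩
        have : z0 = g * f * g⁻¹ := E.subtype_injective (by rw [hz0e]; simp)
        show g * f * g⁻¹ ∈ F
        exact this ▸ hz0
  set K := (Cfsg.pResidual p E).map E.subtype with hK
  have hKE : K ≤ E := map_subtype_le _
  have hKp : ¬ p ∣ Nat.card K := by
    rw [hK, card_map_of_injective E.subtype_injective]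
    exact Lib.Transfer.hasNormalPComplement_iff.1 hnc
  have hNK : normalizer (E : Set G) ≤ normalizer (K : Set G) := by
    refine fun g hg => mem_nz_of_cj_le ?_
    rw [cj_le_iff]
    rintro _ ⟨k, hk, rfl⟩
    have := Lib.Transfer.pResidual_characteristic (G := E) (p := p)
    have h2 : normalizerMonoidHom E ⟨g, hg⟩ k ∈ Cfsg.pResidual p E := by
      have h3 := characteristic_iff_map_le.1 this (normalizerMonoidHom E ⟨g, hg⟩)
      exact h3 ⟨k, hk, rfl⟩
    exact ⟨_, h2, by simp⟩
  by_cases hK1 : K = ⊥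
  · refine ⟨p, E, hp, le_rfl, ?_, by rw [relIndex_self]; exact hp.not_dvd_one, hE, le_rfl⟩
    rw [hK, map_eq_bot_iff_of_injective _ E.subtype_injective] at hK1
    have h1 := Lib.Transfer.pResidual_sup_sylow S
    rw [hK1, bot_sup_eq] at h1
    exact S.2.of_equiv ((MulEquiv.subgroupCongr h1).trans topEquiv)
  · have hlt : Nat.card K < n := by
      rw [← hn]
      refine lt_of_le_of_ne (card_le_of_le hKE) fun h => hKp (h ▸ Nat.minFac_dvd _)
    have hcondK : Cond K := by
      intro r hr R hRK hRp hRidx hRnc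
      refine hcond r hr R (hRK.trans hKE) hRp ?_ hRnc
      rw [← relIndex_mul_relIndex R K E hRK hKE]
      intro hd
      rcases hr.dvd_mul.1 hd with h | h
      · exact hRidx h
      · haveI : Fact r.Prime := ⟨hr⟩
        obtain ⟨k, hk⟩ := IsPGroup.iff_card.1 (Lib.Transfer.isPGroup_quotient_pResidual (G := E) (p := p))
        have hrel : K.relIndex E = p ^ k := by
          rw [← hk, hK, relIndex, subgroupOf, comap_map_eq_self_of_injective E.subtype_injective, index_eq_card]
        rw [hrel] at h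
        have hrp : r = p := (Nat.prime_dvd_prime_iff_eq hr hp).1 (hr.dvd_of_dvd_pow h)
        subst hrp
        rcases hRp.card_eq_or_dvd with h1 | h1
        · exact hRnc (by
            haveI : Subsingleton R := (Nat.card_eq_one_iff_unique.1 h1).1
            infer_instance)
        · exact hKp (h1.trans (card_dvd_of_le hRK))
    obtain ⟨q, Q, hq, hQK, hQp, hQidx, hQ1, hNQ⟩ := ih _ hlt K rfl hcondK hK1
    refine ⟨q, Q, hq, hQK.trans hKE, hQp, ?_, hQ1, hNK.trans hNQ⟩
    rw [← relIndex_mul_relIndex Q K E hQK hKE]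
    intro hd
    rcases hq.dvd_mul.1 hd with h | h
    · exact hQidx h
    · obtain ⟨k, hk⟩ := IsPGroup.iff_card.1 (Lib.Transfer.isPGroup_quotient_pResidual (G := E) (p := p))
      have hrel : K.relIndex E = p ^ k := by
        rw [← hk, hK, relIndex, subgroupOf, comap_map_eq_self_of_injective E.subtype_injective, index_eq_card]
      rw [hrel] at h
      have hqp : q = p := (Nat.prime_dvd_prime_iff_eq hq hp).1 (hq.dvd_of_dvd_pow h)
      subst hqp
      rcases hQp.card_eq_or_dvd with h1 | h1
      · exact hQ1 (card_eq_one.1 h1)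
      · exact hKp (h1.trans (card_dvd_of_le hQK))

theorem ss_main : ∀ (n : ℕ) (G : Type v) [Group G] [Finite G], Nat.card G = n →
    ∀ (E : Subgroup G) [E.Normal], Cfsg.IsSupersolvable (G ⧸ E) → Cond E → Cfsg.IsSupersolvable G := by
  intro n
  induction n using Nat.strong_induction_on with
  | _ n ih => ?_
  intro G _ _ hn E _ hss hcond
  by_cases hE : E = ⊥
  · subst hE
    exact Lib.Hall.ss_of_surjective QuotientGroup.quotientBot.toMonoidHom QuotientGroup.quotientBot.surjective hss
  obtain ⟨q, Q, hq, hQE, hQp, hQidx, hQ1, hNQ⟩ := exists_sylow_invariant _ E rfl hcond hE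
  haveI : Q.Normal := normalizer_eq_top_iff.1 (top_le_iff.1 (by rw [normalizer_eq_top] at hNQ; exact hNQ))
  haveI : Fact q.Prime := ⟨hq⟩
  have hqQ : q ∣ Nat.card Q := (hQp.card_eq_or_dvd).resolve_left fun h => hQ1 (card_eq_one.1 h)
  let f := QuotientGroup.mk' Q
  have hf : Function.Surjective f := QuotientGroup.mk'_surjective Q
  haveI : (E.map f).Normal := Subgroup.Normal.map inferInstance f hf
  have hlt : Nat.card (G ⧸ Q) < n := by
    rw [← hn, ← index_eq_card, ← index_mul_card Q]
    exact lt_mul_of_one_lt_right (Nat.pos_of_ne_zero index_ne_zero_of_finite)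
      (hq.one_lt.trans_le (Nat.le_of_dvd Nat.card_pos hqQ))
  have hcomapE : (E.map f).comap f = E := comap_map_eq_self (by rw [QuotientGroup.ker_mk']; exact hQE)
  have hQss : Cfsg.IsSupersolvable (G ⧸ Q) := by
    refine ih _ hlt (G ⧸ Q) rfl (E.map f) ?_ ?_
    · exact Lib.Hall.ss_of_surjective (QuotientGroup.quotientQuotientEquivQuotient Q E hQE).symm.toMonoidHom
        (QuotientGroup.quotientQuotientEquivQuotient Q E hQE).symm.surjective hss
    intro r hr Pb hPb hPp hPidx hPnc
    haveI : Fact r.Prime := ⟨hr⟩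
    set R := Pb.comap f with hR
    have hQR : Q ≤ R := fun x hx => by
      rw [hR, mem_comap, show f x = 1 from (QuotientGroup.eq_one_iff x).2 hx]; exact one_mem _
    have hRE : R ≤ E := hcomapE ▸ comap_mono hPb
    have hRE' : R.relIndex E = Pb.relIndex (E.map f) := by
      rw [hR, relIndex_comap]
    have hQE' : Nat.card (E.map f) = Q.relIndex E := by
      rw [show E.map f = (f.comp E.subtype).range by rw [MonoidHom.range_comp, range_subtype], ← index_ker]
      congr 1
      ext x
      simp [f, mem_subgroupOf, QuotientGroup.eq_one_iff]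
    have hrq : r ≠ q := by
      rintro rfl
      rcases hPp.card_eq_or_dvd with h1 | h1
      · exact hPnc (by
          haveI : Subsingleton Pb := (Nat.card_eq_one_iff_unique.1 h1).1
          infer_instance)
      · exact hQidx (hQE' ▸ h1.trans (card_dvd_of_le hPb))
    obtain ⟨P, hPS⟩ := exists_isSylowIn (p := r) R
    have hdisj : ∀ x ∈ P, x ∈ Q → x = 1 := by
      intro x hx hxQ
      obtain ⟨a, ha⟩ := hPS.2.1 ⟨x, hx⟩
      obtain ⟨b, hb⟩ := hQp ⟨x, hxQ⟩
      have h1 : orderOf x ∣ r ^ a := orderOf_dvd_of_pow_eq_one (congrArg Subtype.val ha)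
      have h2 : orderOf x ∣ q ^ b := orderOf_dvd_of_pow_eq_one (congrArg Subtype.val hb)
      exact orderOf_eq_one_iff.1 (Nat.eq_one_of_dvd_coprimes
        (Nat.coprime_pow_primes a b hr hq hrq) h1 h2)
    have hinj : Function.Injective (f.comp P.subtype) := by
      rw [← MonoidHom.ker_eq_bot_iff, eq_bot_iff]
      intro x hx
      exact mem_bot.2 (Subtype.ext (hdisj x x.2 ((QuotientGroup.eq_one_iff _).1 hx)))
    have hPmap : P.map f = Pb := by
      have hle : P.map f ≤ Pb := map_le_iff_le_comap.2 hPS.1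
      refine le_antisymm hle fun z hz => ?_
      obtain ⟨z0, rfl⟩ := hf z
      -- the index is prime to r and a power of r
      have h1 : (P.map f).relIndex Pb ∣ P.relIndex R := by
        conv_lhs => rw [← map_comap_eq_self_of_surjective hf Pb, ← hR, ← relIndex_comap]
        exact relIndex_dvd_of_le_left R (le_comap_map f P)
      obtain ⟨k, hk⟩ := IsPGroup.iff_card.1 hPp
      have h2 : (P.map f).relIndex Pb ∣ r ^ k := hk ▸ relIndex_dvd_card _ _
      have h3 : (P.map f).relIndex Pb = 1 :=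
        Nat.eq_one_of_dvd_coprimes ((hr.coprime_iff_not_dvd.2 hPS.2.2).pow_left k) h2 h1
      exact relIndex_eq_one.1 h3 hz
    have hPnc' : ¬ IsCyclic P := fun h => hPnc (by
      haveI := h
      subst hPmap
      exact isCyclic_of_surjective ((f.comp P.subtype).rangeRestrict) (MonoidHom.rangeRestrict_surjective _) |> fun h' => by
        rwa [MonoidHom.range_comp, range_subtype] at h')
    have hPidx' : ¬ r ∣ P.relIndex E := by
      rw [← relIndex_mul_relIndex P R E hPS.1 hRE, hRE']
      exact fun hd => (hr.dvd_mul.1 hd).elim hPS.2.2 hPidx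
    have hcardm : ∀ F : Subgroup G, F ≤ P → Nat.card (F.map f) = Nat.card F := by
      intro F hF
      have : F.map f = (F.subgroupOf P).map (f.comp P.subtype) := by
        rw [← Subgroup.map_map, map_subgroupOf_eq_of_le hF]
      rw [this, card_map_of_injective hinj]
      exact Nat.card_congr (subgroupOfEquivOfLe hF).toEquiv
    obtain ⟨D, hDP, hD1, hD2, hH⟩ := hcond r hr P (hPS.1.trans hRE) hPS.2.1 hPidx' hPnc'
    refine ⟨D.map f, hPmap ▸ map_mono hDP, by rwa [hcardm D hDP], by rw [hcardm D hDP, ← hPmap, hcardm P le_rfl]; exact hD2,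
      fun Fb hFb hFc gb => ?_⟩
    set F := P ⊓ Fb.comap f with hF
    have hFP : F ≤ P := inf_le_left
    have hFm : F.map f = Fb := by
      refine le_antisymm (map_le_iff_le_comap.2 inf_le_right) fun z hz => ?_
      obtain ⟨x, hx, hxz⟩ := (hPmap.symm ▸ hFb hz : z ∈ P.map f)
      exact ⟨x, ⟨hx, show f x ∈ Fb by rw [hxz]; exact hz⟩, hxz⟩
    have hFc' : Nat.card F = Nat.card D ∨ (Nat.card D = 2 ∧ Nat.card F = 4) := by
      rw [← hcardm F hFP, hFm, ← hcardm D hDP]; exact hFc
    obtain ⟨g, rfl⟩ := hf gb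
    rintro _ ⟨⟨fb, hfb, rfl⟩, hzN⟩
    obtain ⟨x, hxF, rfl⟩ := (hFm.symm ▸ hfb : fb ∈ F.map f)
    set y := g * x * g⁻¹ with hy
    have hyval : (MulAut.conj (f g)).toMonoidHom (f x) = f y := by simp [hy]
    rw [hyval] at hzN ⊢
    set M := Fb.comap f with hM
    have hyM : y ∈ normalizer (M : Set G) := by
      rw [Subgroup.mem_normalizer_iff]
      intro w
      rw [hM, mem_comap, mem_comap, map_mul, map_mul, map_inv]
      exact Subgroup.mem_normalizer_iff.1 hzN (f w)
    have hQM : Q ≤ M := fun z hz => by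
      rw [hM, mem_comap, show f z = 1 from (QuotientGroup.eq_one_iff z).2 hz]; exact one_mem _
    have hFr : IsPGroup r F := hPS.2.1.to_le hFP
    have hMsup : ∀ w ∈ M, ∃ u ∈ Q, ∃ x' ∈ F, w = u * x' := by
      intro w hw
      obtain ⟨x', hx', he⟩ := (hFm.symm ▸ hw : f w ∈ F.map f)
      refine ⟨w * x'⁻¹, (QuotientGroup.eq_one_iff _).1 ?_, x', hx', by group⟩
      show f (w * x'⁻¹) = 1
      rw [map_mul, map_inv, he, mul_inv_cancel]
    have hFSyl : IsSylowIn r F M := by
      refine ⟨inf_le_right, hFr, ?_⟩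
      intro hd
      have h1 : F.relIndex M * Nat.card F = Nat.card M := by
        rw [relIndex, ← Nat.card_congr (subgroupOfEquivOfLe (inf_le_right : F ≤ M)).toEquiv, mul_comm]
        exact card_mul_index _
      have h2 : Nat.card M = Nat.card Fb * Nat.card Q := by
        rw [← card_mul_index (Q.subgroupOf M), Nat.card_congr (subgroupOfEquivOfLe hQM).toEquiv, mul_comm]
        congr 1
        rw [show Fb = (f.comp M.subtype).range by
          rw [MonoidHom.range_comp, range_subtype, hM, map_comap_eq_self_of_surjective hf], ← index_ker]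
        congr 1
        ext x
        simp [f, mem_subgroupOf, QuotientGroup.eq_one_iff]
      rw [← h1, ← hFm, hcardm F hFP, mul_comm (Nat.card F)] at h2
      have h3 := Nat.eq_of_mul_eq_mul_right Nat.card_pos h2
      obtain ⟨b, hb⟩ := IsPGroup.iff_card.1 hQp
      rw [h3, hb] at hd
      exact hrq ((Nat.prime_dvd_prime_iff_eq hr hq).1 (hr.dvd_of_dvd_pow hd))
    -- move y into N(F) by an element of Q
    set L := zpowers y ⊔ Q with hLdef
    have hLN : L ≤ normalizer (M : Set G) :=
      sup_le (zpowers_le.2 hyM) (hQM.trans le_normalizer)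
    set L₀ := L ⊓ normalizer (F : Set G) with hL₀
    have hLdec : ∀ l ∈ L, ∃ u ∈ Q, ∃ n ∈ L₀, l = u * n := by
      intro l hl
      obtain ⟨c, hc, hce⟩ := hFSyl.conj_eq (hFSyl.conj (hLN hl))
      rw [cj_cj] at hce
      obtain ⟨u, hu, x', hx', rfl⟩ := hMsup c hc
      have hn : u⁻¹ * (u * x' * l) ∈ normalizer (F : Set G) ∨ True := Or.inr trivial
      have hnz : x'⁻¹ * u * x' * l ∈ normalizer (F : Set G) := by
        have h1 := mem_nz_of_cj_eq hce
        have h2 := mul_mem (inv_mem (le_normalizer hx')) h1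
        simpa [mul_assoc] using h2
      have huQ : (x'⁻¹ * u * x')⁻¹ ∈ Q := inv_mem (by
        have := (inferInstance : Q.Normal).conj_mem u hu x'⁻¹
        simpa using this)
      refine ⟨_, huQ, x'⁻¹ * u * x' * l, ⟨mul_mem (mem_sup_right (inv_mem_iff.1 huQ)) hl, hnz⟩, by group⟩
    obtain ⟨S, hS⟩ := exists_isSylowIn (p := r) L₀
    have hSL : IsSylowIn r S L := by
      refine ⟨hS.1.trans inf_le_left, hS.2.1, ?_⟩
      rw [← relIndex_mul_relIndex S L₀ L hS.1 inf_le_left]
      intro hd
      rcases hr.dvd_mul.1 hd with h | h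
      · exact hS.2.2 h
      · -- L = Q L₀
        obtain ⟨b, hb⟩ := IsPGroup.iff_card.1 hQp
        have hdvd : L₀.relIndex L ∣ Nat.card Q := by
          have hsup : L₀ ⊔ Q = L := by
            refine le_antisymm (sup_le inf_le_left le_sup_right) fun l hl => ?_
            obtain ⟨u, hu, n', hn', rfl⟩ := hLdec l hl
            exact mul_mem (mem_sup_right hu) (mem_sup_left hn')
          have h5 : L₀.relIndex L * Nat.card L₀ = Nat.card L := by
            rw [relIndex, ← Nat.card_congr (subgroupOfEquivOfLe (inf_le_left : L₀ ≤ L)).toEquiv, mul_comm]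
            exact card_mul_index _
          have h6 := Lib.Components.card_sup_mul_card_inf_eq (N := Q) (M := L₀) (by rw [normalizer_eq_top]; exact le_top)
          rw [sup_comm Q L₀, hsup, ← h5] at h6
          refine ⟨Nat.card ↥(Q ⊓ L₀), Nat.eq_of_mul_eq_mul_right (Nat.card_pos (α := L₀)) ?_⟩
          rw [← h6]; ring
        rw [hb] at hdvd
        exact hrq ((Nat.prime_dvd_prime_iff_eq hr hq).1 (hr.dvd_of_dvd_pow (h.trans hdvd)))
    have hyp : IsPGroup r (zpowers y) := by
      exact (hFr.map (MulAut.conj g).toMonoidHom).to_le (zpowers_le.2 ⟨x, hxF, rfl⟩)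
    obtain ⟨l, hl, hle⟩ := hSL.conj_le hyp le_sup_left
    rw [cj_le_iff] at hle
    obtain ⟨u, hu, n', hn', hlun⟩ := hLdec l⁻¹ (inv_mem hl)
    rw [inv_eq_iff_eq_inv] at hlun
    subst hlun
    have hyS := hS.1 (hle y (mem_zpowers y))
    have hu' : u⁻¹ * y * u ∈ normalizer (F : Set G) := by
      have hn2 : n' ∈ normalizer (F : Set G) := hn'.2
      have hy2 : (u * n')⁻¹ * y * ((u * n')⁻¹)⁻¹ ∈ normalizer (F : Set G) := hyS.2
      have h1 := mul_mem (mul_mem hn2 hy2) (inv_mem hn2)
      simpa [mul_assoc] using h1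
    have hmem : u⁻¹ * y * u ∈ F := hH F hFP hFc' (u⁻¹ * g) ⟨⟨x, hxF, by simp [hy, mul_assoc]⟩, hu'⟩
    have := mem_map_of_mem f hmem
    rw [hFm, map_mul, map_mul, show f u = 1 from (QuotientGroup.eq_one_iff u).2 hu,
      show f u⁻¹ = 1 from (QuotientGroup.eq_one_iff _).2 (inv_mem hu), one_mul, mul_one] at this
    exact this
  by_cases hcyc : IsCyclic Q
  · haveI := hcyc
    exact Lib.Hall.ss_of_cyclic_normal Q hQss
  obtain ⟨D, hDQ, hD1, hD2, hH⟩ := hcond q hq Q hQE hQp hQidx hcyc
  obtain ⟨d, hd⟩ := IsPGroup.iff_card.1 (hQp.to_le hDQ)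
  obtain ⟨m, hm⟩ := IsPGroup.iff_card.1 hQp
  have hd1 : 1 ≤ d := by
    rcases d with _ | d
    · rw [hd] at hD1; simp at hD1
    · omega
  have hnorm : ∀ F : Subgroup G, F ≤ Q → (Nat.card F = Nat.card D ∨ (Nat.card D = 2 ∧ Nat.card F = 4)) → F.Normal := by
    intro F hF hFc
    refine ⟨fun x hx g => ?_⟩
    exact hH F hF hFc g ⟨⟨x, hx, rfl⟩, Lib.LocalP2.hsub_le_normalizer hQp hF (hH F hF hFc)
      ((inferInstance : Q.Normal).conj_mem x (hF hx) g)⟩
  refine Lib.LocalP2.ss_of_pgroup_cond _ G rfl Q hQp ?_ hQss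
  have hdm : d < m := by rw [hd, hm] at hD2; exact (Nat.pow_lt_pow_iff_right hq.one_lt).1 hD2
  by_cases hsp : q = 2 ∧ d = 1 ∧ 3 ≤ m
  · obtain ⟨h2, rfl, h3⟩ := hsp
    subst h2
    refine Lib.LocalP2.cond_of_fixed_order hQp (d := 2) ?_ (fun _ => Or.inl le_rfl) one_le_two hcyc
      fun F hF hFc => hnorm F hF (Or.inr ⟨by rw [hd]; norm_num, by rw [hFc]; norm_num⟩)
    rw [hm]; exact Nat.pow_lt_pow_right one_lt_two h3
  · refine Lib.LocalP2.cond_of_fixed_order hQp (d := d) (by rw [hm]; exact Nat.pow_lt_pow_right hq.one_lt hdm)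
      (fun h2 => ?_) hd1 hcyc fun F hF hFc => hnorm F hF (Or.inl (hFc.trans hd.symm))
    subst h2
    by_cases hd2 : 2 ≤ d
    · exact Or.inl hd2
    · right
      have hm2 : m = 2 := by
        by_contra hne
        exact hsp ⟨rfl, by omega, by omega⟩
      rw [hm, hm2]; norm_num


/-- Let G be a finite group and E a normal subgroup with G/E supersolvable. Suppose that for every prime p and every non-cyclic Sylow p-subgroup P of E there is a subgroup D of P with 1 < |D| < |P| such that every subgroup F of P of order |D|, and also every subgroup F of P of order 4 when |D| = 2, satisfies g F g⁻¹ ∩ N_G(F) ≤ F for all g ∈ G. Then G is supersolvable. -/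
theorem result {G : Type*} [Group G] [Finite G] (E : Subgroup G) [E.Normal] (hGE : Cfsg.IsSupersolvable (G ⧸ E))
    (h : ∀ (p : ℕ), p.Prime → ∀ P : Subgroup G, P ≤ E → IsPGroup p P → ¬ p ∣ P.relIndex E → ¬ IsCyclic ↥P →
      ∃ D : Subgroup G, D ≤ P ∧ 1 < Nat.card D ∧ Nat.card D < Nat.card P ∧
        ∀ F : Subgroup G, F ≤ P → (Nat.card F = Nat.card D ∨ (Nat.card D = 2 ∧ Nat.card F = 4)) →
          ∀ g : G, F.map (MulAut.conj g).toMonoidHom ⊓ Subgroup.normalizer (F : Set G) ≤ F) :
    Cfsg.IsSupersolvable G := by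
  exact ss_main _ G rfl E hGE h

end Cfsg.Agent.S3032
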