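import Cfsg.Statements.S3048
import Cfsg.Agent.S3012
import Cfsg.Agent.Lib.Components.Bender
import Cfsg.Agent.Lib.Hall.Solvable

set_option autoImplicit false
universe u
open Cfsg

namespace Cfsg.Agent.S3048

open Subgroup Cfsg.Agent.Lib
open scoped commutatorElement

variable {G : Type u} [Group G]

/-- The pair condition of `W` relative to `H`. -/
def PairRel (W H : Subgroup G) : Prop :=
  ∀ (h v : G), h ∈ H → v ∈ W → Odd (orderOf h) → v * h * v⁻¹ = h⁻¹ →
    ∃ w ∈ W, w ≠ 1 ∧ w * h = h * w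

theorem le_normalizer_of_conj {H F : Subgroup G} (h : ∀ g ∈ H, ∀ x ∈ F, g * x * g⁻¹ ∈ F) :
    H ≤ normalizer (F : Set G) := by
  intro g hg
  rw [mem_normalizer_iff]
  intro x
  refine ⟨h g hg x, fun hx => ?_⟩
  have := h g⁻¹ (inv_mem hg) _ hx
  group at this
  simpa using this

theorem mem_of_pow_two_pow {N : Subgroup G} {x : G} (ho : Odd (orderOf x)) {k : ℕ}
    (h : x ^ 2 ^ k ∈ N) : x ∈ N := by
  obtain ⟨j, hj⟩ := exists_pow_eq_self_of_coprime (x := x) (n := 2 ^ k)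
    (Nat.Coprime.pow_left _ (Nat.coprime_two_left.2 ho))
  exact hj ▸ N.pow_mem h j

theorem eq_one_of_odd_sq {x : G} (ho : Odd (orderOf x)) (h : x * x = 1) : x = 1 :=
  mem_bot.1 (mem_of_pow_two_pow (k := 1) ho (by simpa [pow_one, pow_two] using h))

theorem odd_mem_sup {N U : Subgroup G} [N.Normal] (hU : ∀ v ∈ U, v * v = 1) {h : G}
    (hh : h ∈ U ⊔ N) (ho : Odd (orderOf h)) : h ∈ N := by
  obtain ⟨a, ha, n, hn, rfl⟩ := mem_sup_of_normal_right.1 hh
  refine mem_of_pow_two_pow (k := 1) ho ?_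
  have hai : a⁻¹ = a := inv_eq_of_mul_eq_one_right (hU a ha)
  have : (a * n) ^ 2 ^ 1 = (a * n * a⁻¹) * n := by
    rw [pow_one, pow_two, hai]; simp only [mul_assoc]
  rw [this]
  exact mul_mem (Subgroup.Normal.conj_mem inferInstance n hn a) hn

theorem odd_mem_sup' {D U : Subgroup G} (hn : U ≤ normalizer (D : Set G))
    (hU : ∀ v ∈ U, v * v = 1) {h : G} (hh : h ∈ U ⊔ D) (ho : Odd (orderOf h)) : h ∈ D := by
  obtain ⟨a, ha, n, hn', rfl⟩ := (Coprime.mem_sup_of_le_normalizer hn).1 hh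
  refine mem_of_pow_two_pow (k := 1) ho ?_
  have hai : a⁻¹ = a := inv_eq_of_mul_eq_one_right (hU a ha)
  have : (a * n) ^ 2 ^ 1 = (a * n * a⁻¹) * n := by
    rw [pow_one, pow_two, hai]; simp only [mul_assoc]
  rw [this]
  exact mul_mem ((mem_normalizer_iff.1 (hn ha) n).1 hn') hn'

theorem card_lt_of_lt [Finite G] {H K : Subgroup G} (h : H < K) : Nat.card H < Nat.card K := by
  by_contra! hc
  exact h.ne (Subgroup.eq_of_le_of_card_ge h.le hc)

theorem conj_mem_core {H : Subgroup G} {h x : G} (hh : h ∈ H)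
    (hx : x ∈ (pCore 2 ↥H).map H.subtype) : h * x * h⁻¹ ∈ (pCore 2 ↥H).map H.subtype := by
  obtain ⟨y, hy, rfl⟩ := hx
  exact ⟨⟨h, hh⟩ * y * ⟨h, hh⟩⁻¹, Subgroup.Normal.conj_mem inferInstance y hy _, by simp⟩

/-- The elements of the 2-core of `H` centralize a subnormal `N` which `H` contains and normalizes. -/
theorem cent_of_mem_core [Finite G] (hO2 : pCore 2 G = ⊥) {N H : Subgroup G} (hN : N.IsSubnormal)
    (hNH : N ≤ H) (hHN : H ≤ normalizer (N : Set G)) {u : G}
    (hu : u ∈ (pCore 2 ↥H).map H.subtype) : u ∈ centralizer (N : Set G) := by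
  set P := (pCore 2 ↥H).map H.subtype with hP
  have hS : (N ⊓ P).IsSubnormal := by
    refine Subgroup.IsSubnormal.step _ N inf_le_left hN ⟨fun x hx n => ?_⟩
    obtain ⟨h1, h2⟩ := mem_subgroupOf.1 hx
    exact mem_subgroupOf.2 (Subgroup.mem_inf.2 ⟨(n * x * n⁻¹).2, conj_mem_core (hNH n.2) h2⟩)
  have hbot : N ⊓ P ≤ ⊥ := hO2 ▸ Components.le_pCore_of_subnormal hS
    (((Hall.isPGroup_pCore 2).map H.subtype).to_le inf_le_right)
  rw [mem_centralizer_iff]
  intro n hn
  have huH : u ∈ H := map_subtype_le _ hu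
  have h1 : u * n * u⁻¹ * n⁻¹ ∈ N ⊓ P := by
    refine Subgroup.mem_inf.2 ⟨mul_mem ((mem_normalizer_iff.1 (hHN huH) n).1 hn) (inv_mem hn), ?_⟩
    have := P.mul_mem hu (conj_mem_core (hNH hn) (inv_mem hu))
    simpa [mul_assoc] using this
  have := mem_bot.1 (hbot h1)
  rw [mul_inv_eq_one, mul_inv_eq_iff_eq_mul] at this
  exact this.symm

/-- Images of a pair in a smaller quotient meet its 2-core. -/
theorem exists_mem_quot_core [Finite G] {V : Subgroup G} (hV : IsElementaryAbelian 2 V)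
    (hV1 : V ≠ ⊥) (hS : IsSidkiPair V)
    (hminG : ∀ (H : Type u) [Group H] [Finite H] (W : Subgroup H), Nat.card H < Nat.card G →
      IsElementaryAbelian 2 W → W ≠ ⊥ → IsSidkiPair W → W ⊓ pCore 2 H ≠ ⊥)
    (K : Subgroup G) [K.Normal] (hK : K ≠ ⊥) (hVK : V ⊓ K = ⊥) :
    ∃ v ∈ V, v ≠ 1 ∧ (v : G ⧸ K) ∈ pCore 2 (G ⧸ K) := by
  set f := QuotientGroup.mk' K with hf
  have hcard : Nat.card (G ⧸ K) < Nat.card G := by
    rw [Subgroup.card_eq_card_quotient_mul_card_subgroup K]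
    exact lt_mul_of_one_lt_right Nat.card_pos (K.one_lt_card_iff_ne_bot.2 hK)
  have hcm := fun a (ha : a ∈ V) b (hb : b ∈ V) =>
    congrArg Subtype.val (hV.1.is_comm.comm (⟨a, ha⟩ : V) ⟨b, hb⟩)
  have he : IsElementaryAbelian 2 (V.map f) := by
    refine ⟨⟨⟨?_⟩⟩, ?_⟩
    · rintro ⟨a, va, hva, rfl⟩ ⟨b, vb, hvb, rfl⟩
      exact Subtype.ext (by simpa using congrArg f (hcm va hva vb hvb))
    · rintro a ⟨va, hva, rfl⟩
      rw [← map_pow, hV.2 va hva, map_one]
  have hne : V.map f ≠ ⊥ := fun h => hV1 (by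
    rw [Subgroup.map_eq_bot_iff, QuotientGroup.ker_mk'] at h
    rw [← inf_eq_left.2 h, hVK])
  have := hminG (G ⧸ K) (V.map f) hcard he hne (Cfsg.Agent.S3012.result V K hV hV1 hS hVK)
  obtain ⟨⟨x, hx⟩, hx1⟩ := Subgroup.ne_bot_iff_exists_ne_one.1 this
  obtain ⟨v, hv, rfl⟩ := hx.1
  exact ⟨v, hv, fun e => hx1 (Subtype.ext (by simp [e])), hx.2⟩

structure Ctx (V : Subgroup G) : Prop where
  elem : IsElementaryAbelian 2 V
  ne : V ≠ ⊥
  pair : IsSidkiPair V
  O2 : pCore 2 G = ⊥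
  minG : ∀ (H : Type u) [Group H] [Finite H] (W : Subgroup H), Nat.card H < Nat.card G →
      IsElementaryAbelian 2 W → W ≠ ⊥ → IsSidkiPair W → W ⊓ pCore 2 H ≠ ⊥
  minV : ∀ W : Subgroup G, Nat.card W < Nat.card V → IsElementaryAbelian 2 W → W ≠ ⊥ →
      IsSidkiPair W → W ⊓ pCore 2 G ≠ ⊥

variable {V : Subgroup G}

theorem Ctx.comm (c : Ctx V) {a b : G} (ha : a ∈ V) (hb : b ∈ V) : a * b = b * a :=
  congrArg Subtype.val (c.elem.1.is_comm.comm (⟨a, ha⟩ : V) ⟨b, hb⟩)

theorem Ctx.sq (c : Ctx V) {a : G} (ha : a ∈ V) : a * a = 1 := by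
  rw [← pow_two]; exact c.elem.2 a ha

theorem Ctx.inv (c : Ctx V) {a : G} (ha : a ∈ V) : a⁻¹ = a := inv_eq_of_mul_eq_one_right (c.sq ha)

theorem Ctx.odd_nilpotent [Finite G] (c : Ctx V) {M : Subgroup G} [M.Normal]
    (h : Group.IsNilpotent M) : Odd (Nat.card M) := by
  haveI := Fact.mk Nat.prime_two
  haveI := h
  obtain ⟨P⟩ : Nonempty (Sylow 2 M) := inferInstance
  by_contra hodd
  rw [Nat.not_odd_iff_even, even_iff_two_dvd] at hodd
  have hP := Components.le_pCore_of_subnormal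
    (Components.sylow_map_normal_isSubnormal (Subgroup.Normal.isSubnormal inferInstance) P)
    (P.isPGroup'.map M.subtype)
  rw [c.O2, le_bot_iff, Subgroup.map_eq_bot_iff_of_injective _ M.subtype_injective] at hP
  exact P.ne_bot_of_dvd_card hodd hP

theorem Ctx.getu [Finite G] (c : Ctx V) {W H : Subgroup G} (hWV : W ≤ V) (hWH : W ≤ H)
    (hW : W ≠ ⊥) (hlt : Nat.card W < Nat.card V ∨ H ≠ ⊤) (hp : PairRel W H) :
    ∃ u ∈ W, u ≠ 1 ∧ u ∈ (pCore 2 ↥H).map H.subtype := by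
  by_cases hH : H = ⊤
  · subst hH
    refine absurd ?_ (c.minV W (hlt.resolve_right (fun h => h rfl))
      ⟨⟨⟨fun a b => Subtype.ext (c.comm (hWV a.2) (hWV b.2))⟩⟩, fun a ha => c.elem.2 a (hWV ha)⟩
      hW fun h v hv => hp h v (mem_top h) hv)
    rw [c.O2, inf_bot_eq]
  have hcard : Nat.card H < Nat.card G := by
    have := card_lt_of_lt (lt_top_iff_ne_top.2 hH)
    rwa [card_top] at this
  have hne : W.subgroupOf H ≠ ⊥ := fun h => hW (by
    rw [← map_subgroupOf_eq_of_le hWH, h, Subgroup.map_bot])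
  have hpair : IsSidkiPair (W.subgroupOf H) := by
    intro h v hv ho hinv
    obtain ⟨w, hw, hw1, hwh⟩ := hp h v h.2 (mem_subgroupOf.1 hv) (by simpa using ho)
      (by simpa using congrArg Subtype.val hinv)
    exact ⟨⟨w, hWH hw⟩, mem_subgroupOf.2 hw, fun e => hw1 (congrArg Subtype.val e), Subtype.ext hwh⟩
  have := c.minG H (W.subgroupOf H) hcard
    ⟨⟨⟨fun a b => Subtype.ext (Subtype.ext (c.comm (hWV (mem_subgroupOf.1 a.2))
      (hWV (mem_subgroupOf.1 b.2))))⟩⟩,
      fun a ha => Subtype.ext (by simpa using c.elem.2 a (hWV (mem_subgroupOf.1 ha)))⟩ hne hpair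
  obtain ⟨⟨x, hx⟩, hx1⟩ := Subgroup.ne_bot_iff_exists_ne_one.1 this
  exact ⟨x, mem_subgroupOf.1 hx.1, fun e => hx1 (Subtype.ext (Subtype.ext e)),
    mem_map_of_mem _ hx.2⟩

/-- There is no abelian minimal normal subgroup. -/
theorem Ctx.no_abelian [Finite G] (c : Ctx V) (N : Subgroup G) [hNn : N.Normal] (hN : N ≠ ⊥)
    (hab : ∀ a ∈ N, ∀ b ∈ N, a * b = b * a)
    (hmin : ∀ K : Subgroup G, K.Normal → K ≤ N → K = ⊥ ∨ K = N) : False := by
  haveI := Fact.mk Nat.prime_two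
  have hNN : ⁅N, N⁆ = ⊥ := commutator_eq_bot_iff_le_centralizer.2 fun a ha =>
    mem_centralizer_iff.2 fun b hb => hab b hb a ha
  have hNodd : Odd (Nat.card N) := c.odd_nilpotent
    (Components.isNilpotent_of_commutator_commutator_eq_bot (by rw [hNN, commutator_bot_left]))
  have hoddN : ∀ x ∈ N, Odd (orderOf x) := fun x hx =>
    hNodd.of_dvd_nat (Subgroup.orderOf_dvd_natCard N hx)
  have hVN : V ⊓ N = ⊥ := by
    refine (eq_bot_iff_forall _).2 fun x hx => eq_one_of_odd_sq (hoddN x hx.2) (c.sq hx.1)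
  set π := QuotientGroup.mk' N with hπ
  have hπ1 : ∀ x : G, π x = 1 ↔ x ∈ N := fun x => QuotientGroup.eq_one_iff x
  set C := centralizer (N : Set G) with hC
  haveI hCn : C.Normal := Subgroup.normal_centralizer
  have hNC : N ≤ C := commutator_eq_bot_iff_le_centralizer.1 hNN
  set R := (pCore 2 (G ⧸ N)).comap π with hR
  -- `R ∩ C = N`
  have hRC : R ⊓ C ≤ N := by
    have hnil : Group.IsNilpotent ↥(R ⊓ C) := by
      haveI : Group.IsNilpotent ↥(pCore 2 (G ⧸ N)) := (Hall.isPGroup_pCore 2).isNilpotent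
      refine Subgroup.isNilpotent_of_ker_le_center
        ((π.comp (R ⊓ C).subtype).codRestrict (pCore 2 (G ⧸ N)) fun x => x.2.1) ?_
      intro x hx
      have hxN : (x : G) ∈ N := (hπ1 _).1 (congrArg Subtype.val hx)
      exact mem_center_iff.2 fun y => Subtype.ext (mem_centralizer_iff.1 y.2.2 _ hxN).symm
    intro x hx
    have hodd := c.odd_nilpotent hnil
    obtain ⟨k, hk⟩ := Hall.isPGroup_pCore 2 (⟨π x, hx.1⟩ : pCore 2 (G ⧸ N))
    refine mem_of_pow_two_pow (hodd.of_dvd_nat (Subgroup.orderOf_dvd_natCard _ hx)) (k := k)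
      ((hπ1 _).1 ?_)
    rw [map_pow]; simpa using congrArg Subtype.val hk
  haveI : (C.map π).Normal := hCn.map _ (QuotientGroup.mk'_surjective N)
  haveI : (centralizer ((C.map π : Subgroup (G ⧸ N)) : Set (G ⧸ N))).Normal :=
    Subgroup.normal_centralizer
  set K := (centralizer ((C.map π : Subgroup (G ⧸ N)) : Set (G ⧸ N))).comap π with hK
  have hKmem : ∀ u : G, u ∈ K ↔ ∀ x ∈ C, u * x * u⁻¹ * x⁻¹ ∈ N := by
    intro u
    simp only [hK, mem_comap, mem_centralizer_iff, SetLike.mem_coe, mem_map, forall_exists_index,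
      and_imp, forall_apply_eq_imp_iff₂]
    refine forall₂_congr fun x _ => ?_
    rw [← hπ1, map_mul, map_mul, map_mul, map_inv, map_inv, mul_inv_eq_one, mul_inv_eq_iff_eq_mul]
    exact eq_comm
  have hRK : R ≤ K := fun u hu => (hKmem u).2 fun x hx => hRC
    (Subgroup.commutator_le_inf R C (commutator_mem_commutator hu hx))
  set U := V ⊓ K with hU
  have hUne : U ≠ ⊥ := by
    obtain ⟨v, hv, hv1, hvR⟩ := exists_mem_quot_core c.elem c.ne c.pair c.minG N hN hVN
    exact fun h => hv1 ((eq_bot_iff_forall _).1 h v ⟨hv, hRK hvR⟩)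
  have hUC : ∀ u ∈ U, u ∈ C → u = 1 := by
    have hnil : Group.IsNilpotent ↥(C ⊓ K) := by
      apply Components.isNilpotent_of_commutator_commutator_eq_bot
      rw [commutator_eq_bot_iff_le_centralizer]
      refine le_trans (commutator_le.2 fun a ha b hb => (hKmem a).1 ha.2 b hb.1) ?_
      intro n hn
      exact mem_centralizer_iff.2 fun m hm => (mem_centralizer_iff.1 hm.1 n hn).symm
    intro u hu huC
    exact eq_one_of_odd_sq ((c.odd_nilpotent hnil).of_dvd_nat
      (Subgroup.orderOf_dvd_natCard _ ⟨huC, hu.2⟩)) (c.sq hu.1)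
  by_cases hcase : U = V ∧ V ⊔ N = ⊤
  · -- every involution of `V` inverts `N`
    have hF : ∀ w ∈ V, w ≠ 1 → ∀ n ∈ N, w * n = n * w → n = 1 := by
      intro w hw hw1
      set F := N ⊓ centralizer ({w} : Set G) with hF
      haveI : F.Normal := by
        refine normalizer_eq_top_iff.1 (top_le_iff.1 ?_)
        rw [← hcase.2]
        refine sup_le (le_normalizer_of_conj fun g hg x hx => ⟨hNn.conj_mem x hx.1 g, ?_⟩)
          (le_normalizer_of_conj fun g hg x hx => ?_)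
        · have hxw : x * w = w * x := mem_centralizer_singleton_iff.1 hx.2
          refine mem_centralizer_singleton_iff.2 ?_
          calc g * x * g⁻¹ * w = g * x * (g⁻¹ * w) := by group
            _ = g * x * (w * g⁻¹) := by rw [c.comm (inv_mem hg) hw]
            _ = g * (x * w) * g⁻¹ := by group
            _ = g * w * x * g⁻¹ := by rw [hxw]; group
            _ = w * g * x * g⁻¹ := by rw [c.comm hg hw]
            _ = w * (g * x * g⁻¹) := by group
        · rwa [hab g hg x hx.1, mul_inv_cancel_right]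
      intro n hn hwn
      rcases hmin F inferInstance inf_le_left with h | h
      · exact (eq_bot_iff_forall _).1 h n ⟨hn, mem_centralizer_singleton_iff.2 hwn.symm⟩
      · exfalso
        refine hw1 (hUC w (hcase.1.symm ▸ hw) (mem_centralizer_iff.2 fun x hx => ?_))
        exact mem_centralizer_singleton_iff.1 (h.symm ▸ hx : x ∈ F).2
    obtain ⟨⟨v, hv⟩, hv'⟩ := Subgroup.ne_bot_iff_exists_ne_one.1 c.ne
    obtain ⟨⟨n, hn⟩, hn'⟩ := Subgroup.ne_bot_iff_exists_ne_one.1 hN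
    have hn1 : n ≠ 1 := fun e => hn' (Subtype.ext e)
    have hv1 : v ≠ 1 := fun e => hv' (Subtype.ext e)
    have hvn : v * n * v⁻¹ ∈ N := hNn.conj_mem n hn v
    have hinv : v * n * v⁻¹ = n⁻¹ := by
      refine eq_inv_of_mul_eq_one_left (hF v hv hv1 _ (mul_mem hvn hn) ?_)
      calc v * (v * n * v⁻¹ * n) = (v * v) * n * (v⁻¹ * n) := by group
        _ = n * (v * n) := by rw [c.sq hv, one_mul, c.inv hv]
        _ = n * (v * n * v⁻¹) * v := by group
        _ = v * n * v⁻¹ * n * v := by rw [hab n hn _ hvn]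
    obtain ⟨w, hw, hw1, hwn⟩ := c.pair n v hv (hoddN n hn) hinv
    exact hn1 (hF w hw hw1 n hn hwn)
  · have hlt : Nat.card U < Nat.card V ∨ U ⊔ N ≠ ⊤ := by
      by_cases h : U = V
      · right; rw [h]; exact fun h' => hcase ⟨h, h'⟩
      · exact Or.inl (card_lt_of_lt (lt_of_le_of_ne inf_le_left h))
    by_cases hp : PairRel U (U ⊔ N)
    · obtain ⟨u, hu, hu1, huP⟩ := c.getu inf_le_left le_sup_left hUne hlt hp
      exact hu1 (hUC u hu (cent_of_mem_core c.O2 hNn.isSubnormal le_sup_right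
        (by rw [normalizer_eq_top_iff.2 hNn]; exact le_top) huP))
    obtain ⟨h₁, v₁, hh₁, hv₁, ho₁, hinv₁, hno⟩ :
        ∃ h v, h ∈ U ⊔ N ∧ v ∈ U ∧ Odd (orderOf h) ∧ v * h * v⁻¹ = h⁻¹ ∧
          ∀ w ∈ U, w * h = h * w → w = 1 := by
      simp only [PairRel] at hp
      push Not at hp
      obtain ⟨h, v, h1, h2, h3, h4, h5⟩ := hp
      exact ⟨h, v, h1, h2, h3, h4, fun w hw e => by_contra fun hw1 => h5 w hw hw1 e⟩
    have hh₁N : h₁ ∈ N := odd_mem_sup (U := U) (fun v hv => c.sq hv.1) hh₁ ho₁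
    set D := C ⊓ centralizer (U : Set G) with hD
    have hVD : V ≤ normalizer (D : Set G) := by
      refine le_normalizer_of_conj fun g hg x hx => ⟨hCn.conj_mem x hx.1 g, ?_⟩
      refine mem_centralizer_iff.2 fun u hu => ?_
      have hxu : u * x = x * u := mem_centralizer_iff.1 hx.2 u hu
      calc u * (g * x * g⁻¹) = (u * g) * x * g⁻¹ := by group
        _ = g * (u * x) * g⁻¹ := by rw [c.comm hu.1 hg]; group
        _ = g * x * (u * g⁻¹) := by rw [hxu]; group
        _ = g * x * g⁻¹ * u := by rw [c.comm hu.1 (inv_mem hg)]; group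
    set V₀ := V ⊓ centralizer ({h₁} : Set G) with hV₀
    have hv₁V₀ : v₁ ∉ V₀ := by
      intro h
      have e1 : v₁ = 1 := hno v₁ hv₁ (mem_centralizer_singleton_iff.1 h.2)
      rw [e1, one_mul, inv_one, mul_one] at hinv₁
      have : h₁ = 1 := eq_one_of_odd_sq ho₁ (by nth_rw 2 [hinv₁]; exact mul_inv_cancel h₁)
      obtain ⟨⟨x, hx⟩, hx1⟩ := Subgroup.ne_bot_iff_exists_ne_one.1 hUne
      exact hx1 (Subtype.ext (hno x hx (by simp [this])))
    have hV₀ne : V₀ ≠ ⊥ := by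
      obtain ⟨w, hw, hw1, hwh⟩ := c.pair h₁ v₁ hv₁.1 ho₁ hinv₁
      exact fun h => hw1 ((eq_bot_iff_forall _).1 h w ⟨hw, mem_centralizer_singleton_iff.2 hwh⟩)
    have hV₀lt : Nat.card V₀ < Nat.card V :=
      card_lt_of_lt (lt_of_le_of_ne inf_le_left fun h => hv₁V₀ (h.symm ▸ hv₁.1))
    have hV₀D : V₀ ≤ normalizer (D : Set G) := inf_le_left.trans hVD
    have hp₀ : PairRel V₀ (V₀ ⊔ D) := by
      intro h v hh hv ho hinv
      have hhD : h ∈ D := odd_mem_sup' hV₀D (fun v hv => c.sq hv.1) hh ho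
      have hvh₁ : v * h₁ * v⁻¹ = h₁ := by
        rw [(mem_centralizer_singleton_iff.1 hv.2), mul_inv_cancel_right]
      have hv₁h : v₁ * h * v₁⁻¹ = h := by
        rw [mem_centralizer_iff.1 hhD.2 v₁ hv₁, mul_inv_cancel_right]
      have hc : Commute h h₁ := (mem_centralizer_iff.1 hhD.1 h₁ hh₁N).symm
      have hinv' : (v * v₁) * (h * h₁) * (v * v₁)⁻¹ = (h * h₁)⁻¹ := by
        calc (v * v₁) * (h * h₁) * (v * v₁)⁻¹
            = (v * (v₁ * h * v₁⁻¹) * v⁻¹) * (v * (v₁ * h₁ * v₁⁻¹) * v⁻¹) := by group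
          _ = h⁻¹ * (v * h₁ * v⁻¹)⁻¹ := by rw [hv₁h, hinv₁, hinv, ← conj_inv]
          _ = (h * h₁)⁻¹ := by rw [hvh₁, mul_inv_rev]; exact hc.inv_inv.eq
      obtain ⟨w, hw, hw1, hwc⟩ := c.pair (h * h₁) (v * v₁) (mul_mem hv.1 hv₁.1)
        ((ho.mul ho₁).of_dvd_nat hc.orderOf_mul_dvd_mul_orderOf) hinv'
      set x := h⁻¹ * (w * h * w⁻¹) with hx
      have hxeq : x = h₁ * (w * h₁ * w⁻¹)⁻¹ := by
        rw [eq_mul_inv_iff_mul_eq, hx]
        calc h⁻¹ * (w * h * w⁻¹) * (w * h₁ * w⁻¹) = h⁻¹ * (w * (h * h₁) * w⁻¹) := by group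
          _ = h₁ := by rw [hwc, mul_inv_cancel_right, inv_mul_cancel_left]
      have hwh₁ : w * h₁ * w⁻¹ ∈ N := hNn.conj_mem h₁ hh₁N w
      have hxD : x ∈ D := mul_mem (inv_mem hhD) ((mem_normalizer_iff.1 (hVD hw) h).1 hhD)
      have hxN : x ∈ N := hxeq ▸ mul_mem hh₁N (inv_mem hwh₁)
      have hx1 : x = 1 := by
        have e1 : v₁ * x * v₁⁻¹ = x := by
          rw [mem_centralizer_iff.1 hxD.2 v₁ hv₁, mul_inv_cancel_right]
        have e2 : v₁ * (w * h₁ * w⁻¹) * v₁⁻¹ = (w * h₁ * w⁻¹)⁻¹ := by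
          calc v₁ * (w * h₁ * w⁻¹) * v₁⁻¹ = (v₁ * w) * h₁ * (v₁ * w)⁻¹ := by group
            _ = w * (v₁ * h₁ * v₁⁻¹) * w⁻¹ := by rw [c.comm hv₁.1 hw]; group
            _ = (w * h₁ * w⁻¹)⁻¹ := by rw [hinv₁, conj_inv]
        have e3 : v₁ * x * v₁⁻¹ = x⁻¹ := by
          rw [hxeq]
          calc v₁ * (h₁ * (w * h₁ * w⁻¹)⁻¹) * v₁⁻¹
              = (v₁ * h₁ * v₁⁻¹) * (v₁ * (w * h₁ * w⁻¹) * v₁⁻¹)⁻¹ := by group
            _ = h₁⁻¹ * (w * h₁ * w⁻¹) := by rw [hinv₁, e2, inv_inv]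
            _ = (w * h₁ * w⁻¹) * h₁⁻¹ := hab _ (inv_mem hh₁N) _ hwh₁
            _ = (h₁ * (w * h₁ * w⁻¹)⁻¹)⁻¹ := by group
        exact eq_one_of_odd_sq (hoddN x hxN) (by
          nth_rw 1 [e1.symm.trans e3]; exact inv_mul_cancel x)
      have hw₁ : w * h₁ = h₁ * w := by
        rw [hx1] at hxeq
        exact mul_inv_eq_iff_eq_mul.1 (mul_inv_eq_one.1 hxeq.symm).symm
      refine ⟨w, ⟨hw, mem_centralizer_singleton_iff.2 hw₁⟩, hw1, ?_⟩
      rw [hx, inv_mul_eq_one] at hx1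
      exact mul_inv_eq_iff_eq_mul.1 hx1.symm
    obtain ⟨u, hu, hu1, huP⟩ := c.getu inf_le_left le_sup_left hV₀ne (Or.inl hV₀lt) hp₀
    set H₀ := V₀ ⊔ D with hH₀
    set P := (pCore 2 ↥H₀).map H₀.subtype with hP
    -- `D` covers `C` modulo `N`
    have hcov : ∀ x ∈ C, ∃ d ∈ D, π d = π x := by
      intro x hx
      have hcop : (Nat.card U).Coprime (Nat.card N) := by
        obtain ⟨k, hk⟩ := IsPGroup.iff_card.1 (show IsPGroup 2 U from fun g =>
          ⟨1, Subtype.ext (by simpa using c.elem.2 _ g.2.1)⟩)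
        rw [hk]
        exact Nat.Coprime.pow_left _ (Nat.coprime_two_left.2 hNodd)
      obtain ⟨d, hd, hdx⟩ := Coprime.exists_centralizer_mem_coset (A := U) (N := N) (k := x)
        (by rw [normalizer_eq_top_iff.2 hNn]; exact le_top) hcop
        (Or.inr (by
          refine ⟨⟨1, ?_⟩⟩
          rw [derivedSeries_one, _root_.commutator_eq_bot_iff]
          exact ⟨⟨fun a b => Subtype.ext (hab _ a.2 _ b.2)⟩⟩))
        (fun a ha => by
          have := hNn.conj_mem _ ((hKmem a).1 ha.2 x hx) x⁻¹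
          simpa [mul_assoc] using this)
      refine ⟨d, ⟨?_, hd⟩, (QuotientGroup.eq.2 hdx).symm⟩
      have := mul_mem hx (hNC hdx)
      rwa [mul_inv_cancel_left] at this
    have hS : D ⊓ P ≤ N := by
      have hsn : ((D ⊓ P).map π).IsSubnormal := by
        refine Subgroup.IsSubnormal.step _ (C.map π) (map_mono (inf_le_left.trans inf_le_left))
          (Subgroup.Normal.isSubnormal inferInstance) ⟨?_⟩
        rintro ⟨_, _⟩ hs ⟨_, y, hy, rfl⟩
        obtain ⟨s, hs', hse⟩ := mem_subgroupOf.1 hs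
        obtain ⟨d, hd, hde⟩ := hcov y hy
        refine mem_subgroupOf.2 ⟨d * s * d⁻¹, Subgroup.mem_inf.2 ⟨mul_mem (mul_mem hd hs'.1) (inv_mem hd),
          conj_mem_core (mem_sup_right hd) hs'.2⟩, ?_⟩
        simp only at hse
        simp [hde, hse]
      have hle := Components.le_pCore_of_subnormal hsn
        ((((Hall.isPGroup_pCore 2).map H₀.subtype).to_le inf_le_right).map π)
      exact fun s hs => hRC ⟨hle (mem_map_of_mem π hs), hs.1.1⟩
    have huK : u ∈ K := by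
      rw [hKmem]
      intro x hx
      obtain ⟨d, hd, hde⟩ := hcov x hx
      have h1 : u * d * u⁻¹ * d⁻¹ ∈ N := by
        refine hS (Subgroup.mem_inf.2 ⟨mul_mem ((mem_normalizer_iff.1 (hV₀D hu) d).1 hd) (inv_mem hd), ?_⟩)
        have := P.mul_mem huP (conj_mem_core (H := H₀) (mem_sup_right hd) (inv_mem huP))
        simpa [mul_assoc] using this
      rw [← hπ1] at h1 ⊢
      simpa [hde] using h1
    exact hu1 (hno u ⟨hu.1, huK⟩ (mem_centralizer_singleton_iff.1 hu.2))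

theorem Ctx.solvable_bot [Finite G] (c : Ctx V) (N : Subgroup G) [N.Normal]
    (hs : Group.IsSolvable N) : N = ⊥ := by
  by_contra hN
  obtain ⟨M, hMn, hM, hMN, hmin⟩ := Hall.exists_minimal_normal_le hN
  haveI : Group.IsSolvable M := Group.isSolvable_of_isSolvable_injective (inclusion_injective hMN)
  obtain ⟨hc, -⟩ := Hall.minimal_normal_solvable M hM hmin
  exact c.no_abelian M hM (fun a ha b hb =>
    congrArg Subtype.val (hc.is_comm.comm (⟨a, ha⟩ : M) ⟨b, hb⟩)) hmin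

theorem Ctx.inf_cent_bot [Finite G] (c : Ctx V) (N : Subgroup G) [N.Normal] :
    N ⊓ centralizer (N : Set G) = ⊥ := by
  refine c.solvable_bot _ ⟨⟨1, ?_⟩⟩
  rw [derivedSeries_one, _root_.commutator_eq_bot_iff]
  exact ⟨⟨fun a b => Subtype.ext (mem_centralizer_iff.1 b.2.2 _ a.2.1)⟩⟩

/-- A minimal normal subgroup has trivial centralizer. -/
theorem Ctx.centralizer_bot [Finite G] (c : Ctx V) (N : Subgroup G) [hNn : N.Normal] (hN : N ≠ ⊥) :
    centralizer (N : Set G) = ⊥ := by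
  haveI : (centralizer (N : Set G)).Normal := Subgroup.normal_centralizer
  by_contra hC
  set A := centralizer ((centralizer (N : Set G) : Subgroup G) : Set G) with hA
  haveI hAn : A.Normal := Subgroup.normal_centralizer
  set B := centralizer (N : Set G) with hB
  have hNA : N ≤ A := fun n hn => mem_centralizer_iff.2 fun b hb =>
    (mem_centralizer_iff.1 hb n hn).symm
  have hBA : centralizer (A : Set G) = B := le_antisymm (centralizer_le hNA) fun b hb =>
    mem_centralizer_iff.2 fun a ha => (mem_centralizer_iff.1 ha b hb).symm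
  have hAB : A ⊓ B = ⊥ := hBA ▸ c.inf_cent_bot A
  have hAne : A ≠ ⊥ := fun h => hN (le_bot_iff.1 (h ▸ hNA))
  -- `V` meets `A`
  have hW : V ⊓ A ≠ ⊥ := by
    intro hVA
    obtain ⟨v, hv, hv1, hvR⟩ := exists_mem_quot_core c.elem c.ne c.pair c.minG A hAne hVA
    set R := (pCore 2 (G ⧸ A)).comap (QuotientGroup.mk' A) with hR
    have hRB : R ⊓ B ≤ ⊥ := by
      rw [← c.O2]
      refine Components.le_pCore fun x => ?_
      obtain ⟨k, hk⟩ := Hall.isPGroup_pCore 2 (⟨_, x.2.1⟩ : pCore 2 (G ⧸ A))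
      refine ⟨k, Subtype.ext ?_⟩
      have h1 : ((x : G) ^ 2 ^ k) ∈ A ⊓ B := ⟨(QuotientGroup.eq_one_iff _).1 (by
        have := congrArg Subtype.val hk
        simpa using this), pow_mem x.2.2 _⟩
      rw [hAB, mem_bot] at h1
      simpa using h1
    have hvA : v ∈ A := mem_centralizer_iff.2 fun b hb => by
      have := mem_bot.1 (hRB (Subgroup.commutator_le_inf R B
        (commutator_mem_commutator (show v ∈ R from hvR) hb)))
      exact (commutatorElement_eq_one_iff_mul_comm.1 this).symm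
    exact hv1 ((eq_bot_iff_forall _).1 hVA v ⟨hv, hvA⟩)
  have hAtop : A ≠ ⊤ := fun h => hC (by
    have := hAB
    rwa [h, top_inf_eq] at this)
  set W := V ⊓ A with hWdef
  by_cases hp : PairRel W A
  · obtain ⟨u, hu, hu1, huP⟩ := c.getu inf_le_left inf_le_right hW (Or.inr hAtop) hp
    have := Components.le_pCore_of_subnormal
      ((Subgroup.Normal.isSubnormal (H := pCore 2 ↥A) inferInstance).trans' hAn.isSubnormal)
      ((Hall.isPGroup_pCore 2).map A.subtype) huP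
    rw [c.O2] at this
    exact hu1 (mem_bot.1 this)
  obtain ⟨h₁, v₁, hh₁, hv₁, ho₁, hinv₁, hno⟩ :
      ∃ h v, h ∈ A ∧ v ∈ W ∧ Odd (orderOf h) ∧ v * h * v⁻¹ = h⁻¹ ∧
        ∀ w ∈ W, w * h = h * w → w = 1 := by
    simp only [PairRel] at hp
    push Not at hp
    obtain ⟨h, v, h1, h2, h3, h4, h5⟩ := hp
    exact ⟨h, v, h1, h2, h3, h4, fun w hw e => by_contra fun hw1 => h5 w hw hw1 e⟩
  set V₀ := V ⊓ centralizer ({h₁} : Set G) with hV₀
  have hv₁V₀ : v₁ ∉ V₀ := by
    intro h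
    have e1 : v₁ = 1 := hno v₁ hv₁ (mem_centralizer_singleton_iff.1 h.2)
    rw [e1, one_mul, inv_one, mul_one] at hinv₁
    have : h₁ = 1 := eq_one_of_odd_sq ho₁ (by nth_rw 2 [hinv₁]; exact mul_inv_cancel h₁)
    obtain ⟨⟨x, hx⟩, hx1⟩ := Subgroup.ne_bot_iff_exists_ne_one.1 hW
    exact hx1 (Subtype.ext (hno x hx (by simp [this])))
  have hV₀ne : V₀ ≠ ⊥ := by
    obtain ⟨w, hw, hw1, hwh⟩ := c.pair h₁ v₁ hv₁.1 ho₁ hinv₁
    exact fun h => hw1 ((eq_bot_iff_forall _).1 h w ⟨hw, mem_centralizer_singleton_iff.2 hwh⟩)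
  have hV₀lt : Nat.card V₀ < Nat.card V :=
    card_lt_of_lt (lt_of_le_of_ne inf_le_left fun h => hv₁V₀ (h.symm ▸ hv₁.1))
  have hp₀ : PairRel V₀ (V₀ ⊔ B) := by
    intro h v hh hv ho hinv
    have hhB : h ∈ B := odd_mem_sup (U := V₀) (fun v hv => c.sq hv.1) hh ho
    have hvh₁ : v * h₁ * v⁻¹ = h₁ := by
      rw [(mem_centralizer_singleton_iff.1 hv.2), mul_inv_cancel_right]
    have hv₁h : v₁ * h * v₁⁻¹ = h := by
      rw [(mem_centralizer_iff.1 hv₁.2 h hhB).symm, mul_inv_cancel_right]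
    have hc : Commute h h₁ := mem_centralizer_iff.1 hh₁ h hhB
    have hinv' : (v * v₁) * (h * h₁) * (v * v₁)⁻¹ = (h * h₁)⁻¹ := by
      calc (v * v₁) * (h * h₁) * (v * v₁)⁻¹
          = (v * (v₁ * h * v₁⁻¹) * v⁻¹) * (v * (v₁ * h₁ * v₁⁻¹) * v⁻¹) := by group
        _ = h⁻¹ * (v * h₁ * v⁻¹)⁻¹ := by rw [hv₁h, hinv₁, hinv, ← conj_inv]
        _ = (h * h₁)⁻¹ := by rw [hvh₁, mul_inv_rev]; exact hc.inv_inv.eq
    obtain ⟨w, hw, hw1, hwc⟩ := c.pair (h * h₁) (v * v₁) (mul_mem hv.1 hv₁.1)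
      ((ho.mul ho₁).of_dvd_nat hc.orderOf_mul_dvd_mul_orderOf) hinv'
    have hx : h⁻¹ * (w * h * w⁻¹) = h₁ * (w * h₁ * w⁻¹)⁻¹ := by
      rw [eq_mul_inv_iff_mul_eq]
      calc h⁻¹ * (w * h * w⁻¹) * (w * h₁ * w⁻¹) = h⁻¹ * (w * (h * h₁) * w⁻¹) := by group
        _ = h₁ := by rw [hwc, mul_inv_cancel_right, inv_mul_cancel_left]
    have hx1 : h⁻¹ * (w * h * w⁻¹) = 1 := by
      refine (eq_bot_iff_forall _).1 hAB _ (Subgroup.mem_inf.2 ⟨?_, mul_mem (inv_mem hhB)
        (Subgroup.Normal.conj_mem inferInstance h hhB w)⟩)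
      rw [hx]
      exact mul_mem hh₁ (inv_mem (hAn.conj_mem h₁ hh₁ w))
    have hw₁ : w * h₁ = h₁ * w := by
      rw [hx1] at hx
      exact mul_inv_eq_iff_eq_mul.1 (mul_inv_eq_one.1 hx.symm).symm
    refine ⟨w, ⟨hw, mem_centralizer_singleton_iff.2 hw₁⟩, hw1, ?_⟩
    rw [inv_mul_eq_one] at hx1
    exact mul_inv_eq_iff_eq_mul.1 hx1.symm
  obtain ⟨u, hu, hu1, huP⟩ := c.getu inf_le_left le_sup_left hV₀ne (Or.inl hV₀lt) hp₀
  have huA : u ∈ A := cent_of_mem_core c.O2 (Subgroup.Normal.isSubnormal inferInstance) le_sup_right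
    (by rw [normalizer_eq_top_iff.2 (inferInstance : B.Normal)]; exact le_top) huP
  exact hu1 (hno u ⟨hu.1, huA⟩ (mem_centralizer_singleton_iff.1 hu.2))

theorem mem_map_conj_iff {L : Subgroup G} {g x : G} :
    x ∈ L.map (MulAut.conj g).toMonoidHom ↔ g⁻¹ * x * g ∈ L := by
  refine ⟨?_, fun h => ⟨g⁻¹ * x * g, h, by simp [mul_assoc]⟩⟩
  rintro ⟨y, hy, rfl⟩
  simpa [mul_assoc] using hy

theorem conclusion [Finite G] (c : Ctx V) :
    IsSimpleGroup ↥(generalizedFittingSubgroup G) ∧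
      ¬ IsMulCommutative ↥(generalizedFittingSubgroup G) ∧
      V ⊔ generalizedFittingSubgroup G = ⊤ := by
  haveI := Fact.mk Nat.prime_two
  have hfit : fittingSubgroup G = ⊥ := by
    exact c.solvable_bot _ Components.fittingSubgroup_solvable
  have hgfs : generalizedFittingSubgroup G = layer G := by
    rw [generalizedFittingSubgroup, hfit, sup_bot_eq]
  have hFne : generalizedFittingSubgroup G ≠ ⊥ := by
    intro h
    have h1 := Components.centralizer_gfs_le (G := G)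
    rw [h, coe_bot] at h1
    refine c.ne (le_bot_iff.1 (le_trans ?_ h1))
    intro x _
    exact mem_centralizer_singleton_iff.2 (by simp)
  obtain ⟨N, hNn, hN, hNF, hmin⟩ := Hall.exists_minimal_normal_le hFne
  haveI := hNn
  have hCN : centralizer (N : Set G) = ⊥ := c.centralizer_bot N hN
  have hcompN : ∀ L : Subgroup G, IsComponent L → L ≤ N := fun L hL =>
    (Components.comp_normal_dichotomy hL).resolve_right fun h => Components.comp_ne_bot hL
      (le_bot_iff.1 (hCN ▸ commutator_eq_bot_iff_le_centralizer.1 h))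
  have hFN : generalizedFittingSubgroup G = N :=
    le_antisymm (by rw [hgfs]; exact sSup_le hcompN) hNF
  rw [hFN]
  have hVN : V ⊔ N = ⊤ := by
    by_contra hne
    obtain ⟨u, hu, hu1, huP⟩ := c.getu le_rfl le_sup_left c.ne (Or.inr hne)
      (fun h v _ hv => c.pair h v hv)
    have := cent_of_mem_core c.O2 hNn.isSubnormal le_sup_right
      (by rw [normalizer_eq_top_iff.2 hNn]; exact le_top) huP
    rw [hCN] at this
    exact hu1 (mem_bot.1 this)
  obtain ⟨L, hL⟩ : ∃ L : Subgroup G, IsComponent L := by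
    by_contra! h
    apply hFne
    rw [hgfs, layer, eq_bot_iff]
    exact sSup_le fun K hK => absurd hK (h K)
  have hLc : L ⊓ centralizer (L : Set G) = ⊥ := by
    have hz : Group.IsNilpotent ↥((center ↥L).map L.subtype) :=
      Components.isNilpotent_of_commutator_commutator_eq_bot (by
        rw [← map_commutator, ← map_commutator,
          commutator_eq_bot_iff_le_centralizer.2 (show center ↥L ≤ centralizer (center ↥L : Set ↥L)
            from fun x hx => mem_centralizer_iff.2 fun y _ => mem_center_iff.1 hx y),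
          commutator_bot_left, Subgroup.map_bot])
    have := Components.le_fittingSubgroup_of_subnormal
      ((Subgroup.Normal.isSubnormal (H := center ↥L) inferInstance).trans' hL.1) hz
    rwa [hfit, Components.map_center_eq, le_bot_iff] at this
  have hNnorm : ∀ {M : Subgroup G}, IsComponent M → N ≤ normalizer (M : Set G) := by
    intro M hM
    rw [← hFN, hgfs]
    refine sSup_le fun K hK => ?_
    rcases eq_or_ne K M with rfl | hne
    · exact le_normalizer
    · exact (commutator_eq_bot_iff_le_centralizer.1 (Components.comp_commute hK hM hne)).trans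
        (Components.centralizer_le_normalizer M)
  have hfinish : L = N → IsSimpleGroup ↥N ∧ ¬ IsMulCommutative ↥N ∧ V ⊔ N = ⊤ := by
    rintro rfl
    have hz : center ↥L = ⊥ := by
      rw [← Subgroup.map_eq_bot_iff_of_injective _ L.subtype_injective, Components.map_center_eq]
      exact hLc
    haveI := hL.2.2
    refine ⟨((QuotientGroup.quotientMulEquivOfEq hz).trans
      QuotientGroup.quotientBot).symm.isSimpleGroup, fun h => ?_, hVN⟩
    exact Components.qs_center_ne_top hL.2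
      ((commutator_eq_bot_iff_center_eq_top _).1 ((_root_.commutator_eq_bot_iff _).2 h))
  by_cases hall : V ≤ normalizer (L : Set G)
  · apply hfinish
    haveI : L.Normal := normalizer_eq_top_iff.1 (top_le_iff.1 (hVN ▸ sup_le hall (hNnorm hL)))
    exact (hmin L inferInstance (hcompN L hL)).resolve_left (Components.comp_ne_bot hL)
  exfalso
  obtain ⟨v, hv, hvL⟩ : ∃ v ∈ V, v ∉ normalizer (L : Set G) := SetLike.not_le_iff_exists.1 hall
  have hcc : ∀ g : G, g ∉ normalizer (L : Set G) →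
      L.map (MulAut.conj g).toMonoidHom ≤ centralizer (L : Set G) := fun g hg =>
    commutator_eq_bot_iff_le_centralizer.1 (Components.comp_commute
      (Components.isComponent_map_equiv hL (MulAut.conj g)) hL
      (fun e => hg (Components.mem_normalizer_of_map_conj_eq e)))
  set V₁ := V ⊓ normalizer (L : Set G) with hV₁
  have hfaith : ∀ w ∈ V₁, w ∈ centralizer (L : Set G) → w = 1 := by
    intro w hw hwL
    have hle : normalClosure (L : Set G) ≤ centralizer ({w} : Set G) := by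
      rw [normalClosure, closure_le]
      intro x hx
      obtain ⟨l, hl, hlx⟩ := Group.mem_conjugatesOfSet_iff.1 hx
      obtain ⟨g, rfl⟩ := isConj_iff.1 hlx
      obtain ⟨y, hy, n, hn, rfl⟩ := mem_sup_of_normal_right.1 (hVN ▸ mem_top g : g ∈ V ⊔ N)
      have h1 : n * l * n⁻¹ ∈ L := (mem_normalizer_iff.1 (hNnorm hL hn) l).1 hl
      refine mem_centralizer_singleton_iff.2 ?_
      have h2 : (n * l * n⁻¹) * w = w * (n * l * n⁻¹) := mem_centralizer_iff.1 hwL _ h1
      calc y * n * l * (y * n)⁻¹ * w = y * (n * l * n⁻¹) * (y⁻¹ * w) := by group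
        _ = y * ((n * l * n⁻¹) * w) * y⁻¹ := by rw [c.comm (inv_mem hy) hw.1]; group
        _ = y * w * (n * l * n⁻¹) * y⁻¹ := by rw [h2]; group
        _ = w * (y * n * l * (y * n)⁻¹) := by rw [c.comm hy hw.1]; group
    have hNle : N ≤ normalClosure (L : Set G) := by
      rcases hmin _ normalClosure_normal (normalClosure_le_normal (hcompN L hL)) with h | h
      · exact absurd (le_bot_iff.1 (h ▸ le_normalClosure)) (Components.comp_ne_bot hL)
      · exact h.ge
    have : w ∈ centralizer (N : Set G) := mem_centralizer_iff.2 fun x hx =>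
      mem_centralizer_singleton_iff.1 (hle (hNle hx))
    rwa [hCN, mem_bot] at this
  obtain ⟨a, ha, ha1, hao, hano⟩ : ∃ a ∈ L, a ≠ 1 ∧ Odd (orderOf a) ∧
      ∀ w ∈ V₁, w * a = a * w → w = 1 := by
    by_cases hV₁ne : V₁ = ⊥
    · by_contra! h
      refine Components.qs_not_isSolvable hL.2 ?_
      haveI : Group.IsNilpotent L := (show IsPGroup 2 L from fun x => ?_).isNilpotent
      · infer_instance
      obtain ⟨k, m, hm, hord⟩ := Nat.exists_eq_two_pow_mul_odd (orderOf_pos (x : G)).ne'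
      refine ⟨k, Subtype.ext ?_⟩
      by_contra hne
      obtain ⟨w, hw, -, hw1⟩ := h _ (pow_mem x.2 (2 ^ k)) (by simpa using hne)
        (hm.of_dvd_nat (orderOf_dvd_of_pow_eq_one (by rw [← pow_mul, ← hord, pow_orderOf_eq_one])))
      rw [hV₁ne, mem_bot] at hw
      exact hw1 hw
    · by_contra! h
      have hlt : Nat.card V₁ < Nat.card V :=
        card_lt_of_lt (lt_of_le_of_ne inf_le_left fun e => hall (inf_eq_left.1 e))
      have hp : PairRel V₁ (V₁ ⊔ L) := by
        intro x u hx hu ho hinv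
        have hxL : x ∈ L := odd_mem_sup' inf_le_right (fun v hv => c.sq hv.1) hx ho
        by_cases hx1 : x = 1
        · obtain ⟨⟨y, hy⟩, hy1⟩ := Subgroup.ne_bot_iff_exists_ne_one.1 hV₁ne
          exact ⟨y, hy, fun e => hy1 (Subtype.ext e), by simp [hx1]⟩
        · obtain ⟨w, hw, hwx, hw1⟩ := h x hxL hx1 ho
          exact ⟨w, hw, hw1, hwx⟩
      obtain ⟨u, hu, hu1, huP⟩ := c.getu inf_le_left le_sup_left hV₁ne (Or.inl hlt) hp
      exact hu1 (hfaith u hu (cent_of_mem_core c.O2 hL.1 le_sup_right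
        (sup_le inf_le_right le_normalizer) huP))
  set b := v * a * v⁻¹ with hb
  have hbL : b ∈ centralizer (L : Set G) := hcc v hvL (mem_map_of_mem _ ha)
  have hab : Commute a b := mem_centralizer_iff.1 hbL a ha
  have hbo : Odd (orderOf b) := by
    rw [hb, show v * a * v⁻¹ = MulAut.conj v a from rfl, MulEquiv.orderOf_eq]; exact hao
  have hho : Odd (orderOf (a * b⁻¹)) := (hao.mul (by rwa [orderOf_inv])).of_dvd_nat
    hab.inv_right.orderOf_mul_dvd_mul_orderOf
  have hhinv : v * (a * b⁻¹) * v⁻¹ = (a * b⁻¹)⁻¹ := by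
    calc v * (a * b⁻¹) * v⁻¹ = b * ((v * v) * a * (v * v)⁻¹)⁻¹ := by rw [hb]; group
      _ = (a * b⁻¹)⁻¹ := by rw [c.sq hv]; group
  obtain ⟨w, hw, hw1, hwc⟩ := c.pair (a * b⁻¹) v hv hho hhinv
  have key : (w * a * w⁻¹) * (w * b * w⁻¹)⁻¹ = a * b⁻¹ := by
    calc (w * a * w⁻¹) * (w * b * w⁻¹)⁻¹ = w * (a * b⁻¹) * w⁻¹ := by group
      _ = a * b⁻¹ := by rw [hwc, mul_inv_cancel_right]
  have hwb : w * b * w⁻¹ = v * (w * a * w⁻¹) * v⁻¹ := by
    calc w * b * w⁻¹ = (w * v) * a * (w * v)⁻¹ := by rw [hb]; group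
      _ = v * (w * a * w⁻¹) * v⁻¹ := by rw [c.comm hw hv]; group
  by_cases hwn : w ∈ normalizer (L : Set G)
  · have h1 : w * a * w⁻¹ ∈ L := (mem_normalizer_iff.1 hwn a).1 ha
    have h2 : w * b * w⁻¹ ∈ centralizer (L : Set G) := hwb ▸ hcc v hvL (mem_map_of_mem _ h1)
    have h3 : a⁻¹ * (w * a * w⁻¹) = b⁻¹ * (w * b * w⁻¹) := by
      rw [inv_mul_eq_iff_eq_mul, ← mul_assoc, ← mul_inv_eq_iff_eq_mul]
      exact key
    have h4 : a⁻¹ * (w * a * w⁻¹) ∈ L ⊓ centralizer (L : Set G) :=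
      Subgroup.mem_inf.2 ⟨mul_mem (inv_mem ha) h1, h3 ▸ mul_mem (inv_mem hbL) h2⟩
    rw [hLc, mem_bot, inv_mul_eq_one] at h4
    exact hw1 (hano w ⟨hw, hwn⟩ (mul_inv_eq_iff_eq_mul.1 h4.symm))
  by_cases hun : v * w ∈ normalizer (L : Set G)
  · set u := v * w with hu
    have huV : u ∈ V := mul_mem hv hw
    have hwe : w = v * u := by rw [hu, ← mul_assoc, c.sq hv, one_mul]
    set a' := u * a * u⁻¹ with ha'
    have ha'L : a' ∈ L := (mem_normalizer_iff.1 hun a).1 ha
    have h1 : w * a * w⁻¹ = v * a' * v⁻¹ := by rw [hwe, ha']; group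
    have h2 : w * b * w⁻¹ = a' := by
      rw [hwb, h1]
      calc v * (v * a' * v⁻¹) * v⁻¹ = (v * v) * a' * (v * v)⁻¹ := by group
        _ = a' := by rw [c.sq hv]; group
    rw [h1, h2] at key
    have hb' : v * a' * v⁻¹ ∈ centralizer (L : Set G) := hcc v hvL (mem_map_of_mem _ ha'L)
    have hc' : Commute b a' := (mem_centralizer_iff.1 hbL a' ha'L).symm
    have h3 : a * a' = (v * a' * v⁻¹) * b := by
      rw [mul_inv_eq_iff_eq_mul] at key
      rw [key, mul_assoc a b⁻¹ a', hc'.inv_left.eq, mul_assoc a (a' * b⁻¹) b, inv_mul_cancel_right]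
    have h4 : a * a' ∈ L ⊓ centralizer (L : Set G) :=
      Subgroup.mem_inf.2 ⟨mul_mem ha ha'L, h3 ▸ mul_mem hb' hbL⟩
    rw [hLc, mem_bot] at h4
    have hinv : u * a * u⁻¹ = a⁻¹ := eq_inv_of_mul_eq_one_right h4
    obtain ⟨z, hz, hz1, hza⟩ := c.pair a u huV hao hinv
    by_cases hzn : z ∈ normalizer (L : Set G)
    · exact hz1 (hano z ⟨hz, hzn⟩ hza)
    · refine ha1 ((eq_bot_iff_forall _).1 hLc a (Subgroup.mem_inf.2 ⟨ha, ?_⟩))
      have := hcc z hzn (mem_map_of_mem _ ha)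
      simpa [hza] using this
  · refine ha1 ((eq_bot_iff_forall _).1 hLc a (Subgroup.mem_inf.2 ⟨ha, ?_⟩))
    have h1 : w * a * w⁻¹ ∈ centralizer (L : Set G) := hcc w hwn (mem_map_of_mem _ ha)
    have h2 : w * b * w⁻¹ ∈ centralizer (L : Set G) := by
      have := hcc (v * w) hun (mem_map_of_mem _ ha)
      have e : w * b * w⁻¹ = v * w * a * (v * w)⁻¹ := by rw [hwb]; group
      rw [e]; exact this
    have e : a = (w * a * w⁻¹) * (w * b * w⁻¹)⁻¹ * b := by rw [key, inv_mul_cancel_right]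
    rw [e]
    exact mul_mem (mul_mem h1 (inv_mem h2)) hbL


/-- Minimal counterexample reduction for the Sidki pair problem. Let G be a finite group and V a nontrivial elementary abelian 2-subgroup satisfying the Sidki pair condition with V ∩ O₂(G) = 1. Suppose that for every finite group H of smaller order, every nontrivial elementary abelian 2-subgroup W of H satisfying the Sidki pair condition meets O₂(H) nontrivially, and that the same holds in G for every such subgroup W of order smaller than that of V. Then the generalized Fitting subgroup F*(G) is a non-abelian simple group and G = V F*(G). -/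
theorem result {G : Type u} [Group G] [Finite G] (V : Subgroup G) (hV : Cfsg.IsElementaryAbelian 2 V) (hV1 : V ≠ ⊥) (hS : Cfsg.IsSidkiPair V) (hVO : V ⊓ Cfsg.pCore 2 G = ⊥) (hminG : ∀ (H : Type u) [Group H] [Finite H] (W : Subgroup H), Nat.card H < Nat.card G → Cfsg.IsElementaryAbelian 2 W → W ≠ ⊥ → Cfsg.IsSidkiPair W → W ⊓ Cfsg.pCore 2 H ≠ ⊥) (hminV : ∀ W : Subgroup G, Nat.card W < Nat.card V → Cfsg.IsElementaryAbelian 2 W → W ≠ ⊥ → Cfsg.IsSidkiPair W → W ⊓ Cfsg.pCore 2 G ≠ ⊥) : IsSimpleGroup ↥(Cfsg.generalizedFittingSubgroup G) ∧ ¬ IsMulCommutative ↥(Cfsg.generalizedFittingSubgroup G) ∧ V ⊔ Cfsg.generalizedFittingSubgroup G = ⊤ := by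
  have hO : Cfsg.pCore 2 G = ⊥ := by
    haveI := Fact.mk Nat.prime_two
    by_contra hne
    obtain ⟨v, hv, hv1, hvR⟩ := exists_mem_quot_core hV hV1 hS hminG _ hne hVO
    have hle := Components.le_pCore (N := (Cfsg.pCore 2 (G ⧸ Cfsg.pCore 2 G)).comap
      (QuotientGroup.mk' (Cfsg.pCore 2 G))) ((Hall.isPGroup_pCore 2).comap_of_ker_isPGroup _ (by
        rw [QuotientGroup.ker_mk']; exact Hall.isPGroup_pCore 2))
    exact hv1 ((eq_bot_iff_forall _).1 hVO v ⟨hv, hle hvR⟩)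
  exact conclusion ⟨hV, hV1, hS, hO, hminG, hminV⟩

end Cfsg.Agent.S3048
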