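import Cfsg.Statements.S3049
import Mathlib
import Cfsg.Agent.Lib.LocalP2.OmegaFrobenius
import Cfsg.Agent.Lib.LocalP2.Isolated
import Cfsg.Agent.S0065
import Cfsg.Agent.Lib.Components.Bender
import Cfsg.Agent.Lib.Components.PComponent
import Cfsg.Agent.Lib.LocalChar.Core
import Mathlib
-- import your own Cfsg.Agent.* helpers here

set_option autoImplicit false
open Cfsg Cfsg.Agent Cfsg.Agent.Lib.LocalChar
open scoped Pointwise commutatorElement

namespace Cfsg.Agent.S3049

/-- Let G be a finite group and p an odd prime with O_{p'}(G) = 1. Suppose that G has p-rank at most 2 (no elementary abelian subgroup of order p³) and that some element x of order p is isolated in G (no G-conjugate of x other than x commutes with x) and not central. Then the generalized Fitting subgroup F*(G) is a non-abelian simple group. Since O_{p'}(G) = 1, such an x is not central modulo O_{p'}(G): the hypotheses describe a counterexample to the Z*_p statement in p-rank at most 2. -/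
theorem result {G : Type*} [Group G] [Finite G] {p : ℕ} [Fact p.Prime] (hp : p ≠ 2) (hcore : Cfsg.pPrimeCore p G = ⊥)
    (hrank : Cfsg.PRankLE p 2 G) (x : G) (hx : orderOf x = p) (hiso : Cfsg.IsIsolated x) (hnc : x ∉ Subgroup.center G) :
    IsSimpleGroup ↥(Cfsg.generalizedFittingSubgroup G) ∧ ¬ IsMulCommutative ↥(Cfsg.generalizedFittingSubgroup G) := by
  classical
  have hpp : p.Prime := Fact.out
  -- an element of order p lies in every subgroup containing a nontrivial power of it
  have hroot : ∀ (H : Subgroup G) (c : G) (i : ℤ), c ^ p = 1 → c ^ i ≠ 1 → c ^ i ∈ H → c ∈ H := by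
    intro H c i hcp hci hmem
    have hc1 : c ≠ 1 := fun h => hci (by rw [h, one_zpow])
    have hcip : (c ^ i) ^ p = 1 := by
      rw [← zpow_natCast, ← zpow_mul, mul_comm, zpow_mul, zpow_natCast, hcp, one_zpow]
    have hz : Subgroup.zpowers (c ^ i) = Subgroup.zpowers c := by
      refine Subgroup.eq_of_le_of_card_ge (Subgroup.zpowers_le.2 (zpow_mem (Subgroup.mem_zpowers c) i)) ?_
      rw [Nat.card_zpowers, Nat.card_zpowers, orderOf_eq_prime hcp hc1, orderOf_eq_prime hcip hci]
    exact (Subgroup.zpowers_le.2 hmem) (hz ▸ Subgroup.mem_zpowers c)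
  obtain ⟨P, hP⟩ := (Lib.LocalP2.isPGroup_zpowers_of_orderOf (p := p) ⟨1, by rw [hx, pow_one]⟩).exists_le_sylow
  have hxP : x ∈ (P : Subgroup G) := hP (Subgroup.mem_zpowers x)
  have hxc : ∀ r ∈ (P : Subgroup G), Commute r x := fun r hr =>
    mul_inv_eq_iff_eq_mul.1 (Lib.LocalP2.isolated_comm_of_pGroup hiso P.2 hxP hr)
  have huniq : ∀ g : G, g * x * g⁻¹ ∈ (P : Subgroup G) → g * x * g⁻¹ = x := fun g hg =>
    Lib.LocalP2.isolated_unique hiso P.2 hxP hg
  have hxp : x ^ p = 1 := hx ▸ pow_orderOf_eq_one x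
  have hx1 : x ≠ 1 := fun h => hnc (h ▸ one_mem _)
  -- (a) two commuting independent elements of order p centralised by every z give all of them
  have hspan : ∀ u v z : G, u ^ p = 1 → v ^ p = 1 → z ^ p = 1 → u ≠ 1 → v ∉ Subgroup.zpowers u →
      Commute u v → Commute u z → Commute v z → ∃ i j : ℤ, z = u ^ i * v ^ j := by
    intro u v z hu hv hz hu1 hvu huv huz hvz
    let A := Subgroup.closure ({u, v, z} : Set G)
    let B := Subgroup.closure ({u, v} : Set G)
    have hcl : ∀ s : Set G, (∀ a ∈ s, ∀ b ∈ s, a * b = b * a) → (∀ a ∈ s, a ^ p = 1) →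
        IsMulCommutative (Subgroup.closure s) ∧ ∀ a ∈ Subgroup.closure s, a ^ p = 1 := by
      intro s hs hsp
      have hcomm : IsMulCommutative (Subgroup.closure s) := Subgroup.isMulCommutative_closure hs
      refine ⟨hcomm, fun a ha => ?_⟩
      induction ha using Subgroup.closure_induction with
      | mem a ha => exact hsp a ha
      | one => exact one_pow p
      | mul a b ha hb iha ihb =>
        have hab : Commute a b := congrArg Subtype.val (hcomm.is_comm.comm (⟨a, ha⟩ : ↥(Subgroup.closure s)) ⟨b, hb⟩)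
        rw [hab.mul_pow, iha, ihb, one_mul]
      | inv a ha iha => rw [inv_pow, iha, inv_one]
    obtain ⟨hAc, hAp⟩ := hcl {u, v, z}
      (by rintro a (rfl | rfl | rfl) b (rfl | rfl | rfl) <;>
        first | rfl | exact huv | exact huv.symm | exact huz | exact huz.symm | exact hvz | exact hvz.symm)
      (by rintro a (rfl | rfl | rfl) <;> assumption)
    obtain ⟨hBc, hBp⟩ := hcl {u, v}
      (by rintro a (rfl | rfl) b (rfl | rfl) <;> first | rfl | exact huv | exact huv.symm)
      (by rintro a (rfl | rfl) <;> assumption)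
    have hmemB : ∀ w ∈ B, ∃ i j : ℤ, w = u ^ i * v ^ j := by
      intro w hw
      induction hw using Subgroup.closure_induction with
      | mem w hw =>
        rcases hw with rfl | rfl
        · exact ⟨1, 0, by simp⟩
        · exact ⟨0, 1, by simp⟩
      | one => exact ⟨0, 0, by simp⟩
      | mul a b _ _ iha ihb =>
        obtain ⟨i, j, rfl⟩ := iha
        obtain ⟨i', j', rfl⟩ := ihb
        refine ⟨i + i', j + j', ?_⟩
        rw [mul_assoc, ← mul_assoc (v ^ j), ← (huv.zpow_zpow i' j).eq, mul_assoc, ← zpow_add, ← mul_assoc, ← zpow_add]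
      | inv a _ iha =>
        obtain ⟨i, j, rfl⟩ := iha
        refine ⟨-i, -j, ?_⟩
        rw [mul_inv_rev, ← zpow_neg, ← zpow_neg, (huv.zpow_zpow (-i) (-j)).eq]
    have hBA : B ≤ A := Subgroup.closure_mono (by intro a; simp; tauto)
    have hBcard : p ^ 2 ≤ Nat.card B := by
      have hBP : IsPGroup p B := fun a => ⟨1, Subtype.ext (by simpa using hBp a a.2)⟩
      obtain ⟨k, hk⟩ := IsPGroup.iff_card.1 hBP
      rw [hk]
      refine Nat.pow_le_pow_right hpp.pos ?_
      have huB : Subgroup.zpowers u ≤ B := Subgroup.zpowers_le.2 (Subgroup.subset_closure (by simp))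
      have hlt : Subgroup.zpowers u < B :=
        SetLike.lt_iff_le_and_exists.2 ⟨huB, v, Subgroup.subset_closure (by simp), hvu⟩
      have h1 : Nat.card (Subgroup.zpowers u) < Nat.card B :=
        Set.ncard_lt_ncard (SetLike.coe_ssubset_coe.mpr hlt) (Set.toFinite _)
      rw [Nat.card_zpowers, orderOf_eq_prime hu hu1, hk] at h1
      nth_rewrite 1 [← pow_one p] at h1
      exact (Nat.pow_lt_pow_iff_right hpp.one_lt).1 h1
    have hAB : B = A := Subgroup.eq_of_le_of_card_ge hBA ((hrank A hAc hAp).trans hBcard)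
    have hzB : z ∈ B := hAB ▸ Subgroup.subset_closure (by simp)
    obtain ⟨i, j, hij⟩ := hmemB z hzB
    exact ⟨i, j, hij⟩
  -- O_p(G) = 1
  have hQP : Cfsg.pCore p G ≤ (P : Subgroup G) := by
    obtain ⟨T, hT⟩ := (Lib.Components.pCore_isPGroup (G := G) p).exists_le_sylow
    obtain ⟨t, ht⟩ := MulAction.exists_smul_eq G T P
    intro z hz
    rw [← ht]
    refine Lib.Transfer.mem_smul_sylow.2 (hT ?_)
    have := (inferInstance : (Cfsg.pCore p G).Normal).conj_mem z hz t⁻¹
    simpa using this
  have hxQ : x ∉ Cfsg.pCore p G := by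
    intro h
    refine hnc (Subgroup.mem_center_iff.2 fun g => ?_)
    have := huniq g (hQP ((inferInstance : (Cfsg.pCore p G).Normal).conj_mem x h g))
    exact mul_inv_eq_iff_eq_mul.1 this
  have hQ : Cfsg.pCore p G = ⊥ := by
    by_contra hQ
    set Q := Cfsg.pCore p G with hQdef
    have hPn : Group.IsNilpotent ↥(P : Subgroup G) := P.2.isNilpotent
    have hm := S0065.inf_center_ne_bot (G := ↥(P : Subgroup G)) (N := Q.subgroupOf P) inferInstance
      (by rw [Ne, Subgroup.subgroupOf_eq_bot, disjoint_iff, inf_eq_left.2 hQP]; exact hQ)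
    obtain ⟨y0, hy0, hy0p⟩ : ∃ y0 : ↥(P : Subgroup G), y0 ∈ Q.subgroupOf P ⊓ Subgroup.center _ ∧
        orderOf y0 = p := by
      have hdvd : p ∣ Nat.card ↥(Q.subgroupOf (P : Subgroup G) ⊓ Subgroup.center ↥(P : Subgroup G)) := by
        rcases (P.2.to_subgroup (Q.subgroupOf (P : Subgroup G) ⊓ Subgroup.center _)).card_eq_or_dvd with h | h
        · exact absurd (Subgroup.card_eq_one.1 h) hm
        · exact h
      obtain ⟨y0, hy0⟩ := exists_prime_orderOf_dvd_card' p hdvd
      exact ⟨y0, y0.2, by rw [Subgroup.orderOf_coe]; exact hy0⟩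
    obtain ⟨y, hyP⟩ := y0
    have hyQ : y ∈ Q := hy0.1
    have hyc : ∀ r ∈ (P : Subgroup G), Commute r y := fun r hr =>
      congrArg Subtype.val (Subgroup.mem_center_iff.1 hy0.2 ⟨r, hr⟩)
    have hyo : orderOf y = p := by rw [← Subgroup.orderOf_mk]; exact hy0p
    have hyp : y ^ p = 1 := hyo ▸ pow_orderOf_eq_one y
    have hy1 : y ≠ 1 := fun h => hpp.one_lt.ne' (by rw [← hyo, h, orderOf_one])
    have hxi : ∀ i : ℤ, x ^ i ∈ Q → x ^ i = 1 := fun i hi =>
      by_contra fun hne => hxQ (hroot Q x i hxp hne hi)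
    have hxy : x ∉ Subgroup.zpowers y := fun h => hxQ (Subgroup.zpowers_le.2 hyQ h)
    have hΩ : ∀ z ∈ (P : Subgroup G), z ^ p = 1 → ∃ i j : ℤ, z = y ^ j * x ^ i := by
      intro z hz hzp
      obtain ⟨j, i, h⟩ := hspan y x z hyp hxp hzp hy1 hxy (hyc x hxP).symm (hyc z hz).symm (hxc z hz).symm
      exact ⟨i, j, h⟩
    have hYn : (Subgroup.zpowers y).Normal := by
      refine ⟨fun n hn g => ?_⟩
      have hnQ : g * n * g⁻¹ ∈ Q :=
        (inferInstance : Q.Normal).conj_mem n (Subgroup.zpowers_le.2 hyQ hn) g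
      have hnp : n ^ p = 1 := by
        obtain ⟨k, rfl⟩ := Subgroup.mem_zpowers_iff.1 hn
        rw [← zpow_natCast, ← zpow_mul, mul_comm, zpow_mul, zpow_natCast, hyp, one_zpow]
      obtain ⟨i, j, h⟩ := hΩ _ (hQP hnQ) (by rw [conj_pow, hnp]; group)
      have hxiQ : x ^ i ∈ Q := by
        have h1 := Q.mul_mem (Q.inv_mem (zpow_mem hyQ j)) hnQ
        rwa [h, inv_mul_cancel_left] at h1
      rw [h, hxi i hxiQ, mul_one]
      exact zpow_mem (Subgroup.mem_zpowers y) j
    set C := Subgroup.centralizer ((Subgroup.zpowers y : Subgroup G) : Set G) with hC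
    have hCn : C.Normal := Subgroup.normal_centralizer
    have hCy : ∀ g ∈ C, Commute y g := fun g hg =>
      Subgroup.mem_centralizer_iff.1 hg y (Subgroup.mem_zpowers y)
    have hxC : x ∈ C := by
      rw [hC, Subgroup.mem_centralizer_iff]
      rintro n hn
      obtain ⟨k, rfl⟩ := Subgroup.mem_zpowers_iff.1 hn
      exact ((hyc x hxP).zpow_right k).symm
    have hNC : HasNormalPComplement p ↥C := by
      refine Lib.LocalP2.hasNormalPComplement_of_omega_fixed hp fun R hR g hg _ r hr hrp => ?_
      obtain ⟨T, hT⟩ := (hR.map C.subtype).exists_le_sylow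
      obtain ⟨h, hh⟩ := MulAction.exists_smul_eq G T P
      have hconj : ∀ t ∈ R.map C.subtype, h * t * h⁻¹ ∈ (P : Subgroup G) := by
        intro t ht
        rw [← hh]
        exact Lib.Transfer.mem_smul_sylow.2 (by simpa [mul_assoc] using hT ht)
      have hrP := hconj r ⟨r, hr, rfl⟩
      have hgr : g * r * g⁻¹ ∈ R := (Subgroup.mem_normalizer_iff.1 hg r).1 hr
      have hgrP := hconj _ ⟨_, hgr, rfl⟩
      have hrp' : (r : G) ^ p = 1 := by simpa using congrArg Subtype.val hrp
      obtain ⟨i, j, hij⟩ := hΩ _ hrP (by rw [conj_pow, hrp']; group)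
      set g' := h * (g : G) * h⁻¹ with hg'
      have hg'C : g' ∈ C := hCn.conj_mem _ g.2 h
      have he : h * ((g * r * g⁻¹ : ↥C) : G) * h⁻¹ = y ^ j * (g' * x * g'⁻¹) ^ i := by
        have : h * ((g * r * g⁻¹ : ↥C) : G) * h⁻¹ = g' * (h * r * h⁻¹) * g'⁻¹ := by
          simp [hg', mul_assoc]
        rw [this, hij, conj_zpow]
        have hc : g' * y ^ j = y ^ j * g' := ((hCy g' hg'C).zpow_left j).symm
        simp only [← mul_assoc, hc]
      have hmem : (g' * x * g'⁻¹) ^ i ∈ (P : Subgroup G) := by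
        have h1 := mul_mem ((P : Subgroup G).inv_mem (zpow_mem hyP j)) hgrP
        have h2 : (y ^ j)⁻¹ * (h * (Subgroup.subtype C) (g * r * g⁻¹) * h⁻¹) = (g' * x * g'⁻¹) ^ i := by
          change (y ^ j)⁻¹ * (h * ((g * r * g⁻¹ : ↥C) : G) * h⁻¹) = _
          rw [he, inv_mul_cancel_left]
        rwa [h2] at h1
      have hfix : (g' * x * g'⁻¹) ^ i = x ^ i := by
        by_cases hi : x ^ i = 1
        · rw [hi, conj_zpow, hi]; group
        · have hcp : (g' * x * g'⁻¹) ^ p = 1 := by rw [conj_pow, hxp]; group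
          rw [huniq g' (hroot _ _ i hcp ?_ hmem)]
          rw [conj_zpow]
          intro h0
          have h1 : g' * x ^ i = g' := by
            have := mul_inv_eq_one.1 h0
            exact this
          exact hi (mul_eq_left.1 h1)
      rw [hfix, ← hij] at he
      exact Subtype.ext (mul_left_cancel (mul_right_cancel he))
    have hK : Cfsg.pResidual p ↥C = ⊥ := by
      have h1 := Lib.Transfer.hasNormalPComplement_iff.1 hNC
      have := Lib.Transfer.pResidual_characteristic (G := ↥C) (p := p)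
      haveI hKn : ((Cfsg.pResidual p ↥C).map C.subtype).Normal := ConjAct.normal_of_characteristic_of_normal
      have h2 : (Cfsg.pResidual p ↥C).map C.subtype ≤ ⊥ := hcore ▸ Lib.Components.le_pPrimeCore (p := p)
        (Nat.Coprime.symm (hpp.coprime_iff_not_dvd.2
          (by rwa [Subgroup.card_map_of_injective C.subtype_injective])))
      rwa [le_bot_iff, Subgroup.map_eq_bot_iff_of_injective _ C.subtype_injective] at h2
    have hCp : IsPGroup p ↥C := by
      obtain ⟨S⟩ := (inferInstance : Nonempty (Sylow p ↥C))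
      have h1 := Lib.Transfer.pResidual_sup_sylow S
      rw [hK, bot_sup_eq] at h1
      exact S.2.of_equiv ((MulEquiv.subgroupCongr h1).trans Subgroup.topEquiv)
    exact hxQ (Lib.Components.le_pCore (hN := hCn) hCp hxC)
  -- the Fitting subgroup is trivial
  have hF : Cfsg.fittingSubgroup G = ⊥ := by
    rw [Lib.Components.fittingSubgroup_eq_iSup, iSup_eq_bot]
    rintro ⟨q, hq⟩
    by_cases hqp : q = p
    · subst hqp; exact hQ
    · haveI := Fact.mk hq
      refine le_bot_iff.1 (hcore ▸ Lib.Components.le_pPrimeCore (hN := inferInstance) ?_)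
      obtain ⟨k, hk⟩ := IsPGroup.iff_card.1 (Lib.Components.pCore_isPGroup (G := G) q)
      rw [hk]
      exact Nat.Coprime.pow_left k ((Nat.coprime_primes hq hpp).2 hqp)
  have hgfs : Cfsg.generalizedFittingSubgroup G = Cfsg.layer G := by
    rw [Cfsg.generalizedFittingSubgroup, hF, sup_bot_eq]
  obtain ⟨L, hL⟩ : ∃ L : Subgroup G, IsComponent L := by
    by_contra hno
    push Not at hno
    have h1 := Lib.Components.le_fitting_of_centralize (H := (⊤ : Subgroup G)) (fun L hL => absurd hL (hno L))
      (by rw [hF, Subgroup.commutator_bot_left])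
    rw [hF] at h1
    exact hx1 (Subgroup.mem_bot.1 (h1 (Subgroup.mem_top x)))
  have hZ : ∀ M : Subgroup G, IsComponent M → Subgroup.center ↥M = ⊥ := by
    intro M hM
    have h1 : (Subgroup.center ↥M).map M.subtype ≤ Cfsg.fittingSubgroup G := by
      haveI : Group.IsNilpotent ↥((Subgroup.center ↥M).map M.subtype) := by
        refine Lib.Components.isNilpotent_of_commutator_commutator_eq_bot ?_
        have h0 : ⁅Subgroup.center ↥M, Subgroup.center ↥M⁆ = ⊥ :=
          Subgroup.commutator_eq_bot_iff_le_centralizer.2 (Subgroup.center_le_centralizer _)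
        rw [← Subgroup.map_commutator, h0, Subgroup.map_bot, Subgroup.commutator_bot_left]
      exact Lib.Components.le_fittingSubgroup_of_subnormal
        ((inferInstance : (Subgroup.center ↥M).Normal).isSubnormal.trans' hM.1) inferInstance
    rwa [hF, le_bot_iff, Subgroup.map_eq_bot_iff_of_injective _ M.subtype_injective] at h1
  have hsimp : ∀ M : Subgroup G, IsComponent M → IsSimpleGroup ↥M := by
    intro M hM
    haveI := hM.2.2
    exact (((QuotientGroup.quotientMulEquivOfEq (hZ M hM)).trans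
      QuotientGroup.quotientBot).symm.isSimpleGroup_congr).2 inferInstance
  -- there is only one component
  have hone : ∀ K : Subgroup G, IsComponent K → K = L := by
    intro K hK
    by_contra hne
    have hKL : ∀ k ∈ K, ∀ l ∈ L, Commute k l := fun k hk l hl =>
      (Subgroup.mem_centralizer_iff.1
        (Subgroup.commutator_eq_bot_iff_le_centralizer.1 (Lib.Components.comp_commute hK hL hne) hk) l hl).symm
    have hdis : ∀ z ∈ K, z ∈ L → z = 1 := by
      intro z hzK hzL
      have : (⟨z, hzL⟩ : ↥L) ∈ Subgroup.center ↥L :=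
        Subgroup.mem_center_iff.2 fun l => Subtype.ext (hKL z hzK l l.2).symm
      rw [hZ L hL, Subgroup.mem_bot] at this
      exact congrArg Subtype.val this
    have hget : ∀ M : Subgroup G, IsComponent M → ∃ a ∈ M, a ∈ (P : Subgroup G) ∧ a ^ p = 1 ∧ a ≠ 1 := by
      intro M hM
      have hS := IsSylowIn.inf_subnormal P hM.1
      have hd : p ∣ Nat.card ↥((P : Subgroup G) ⊓ M) := by
        by_contra hd
        have hmul := Subgroup.card_mul_index (((P : Subgroup G) ⊓ M).subgroupOf M)
        have h2 := Lib.Components.comp_dvd_card hcore hM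
        rw [← hmul] at h2
        rcases hpp.dvd_mul.1 h2 with h3 | h3
        · rw [Nat.card_congr (Subgroup.subgroupOfEquivOfLe inf_le_right).toEquiv] at h3
          exact hd h3
        · exact hS.2.2 h3
      obtain ⟨a, ha⟩ := exists_prime_orderOf_dvd_card' p hd
      have ha' : orderOf (a : G) = p := (Subgroup.orderOf_coe a).trans ha
      refine ⟨a, a.2.2, a.2.1, orderOf_dvd_iff_pow_eq_one.1 ha'.dvd, fun h => ?_⟩
      rw [h, orderOf_one] at ha'
      exact hpp.one_lt.ne ha'
    obtain ⟨a, haL, haP, hap, ha1⟩ := hget L hL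
    obtain ⟨b, hbK, hbP, hbp, hb1⟩ := hget K hK
    have hba : b ∉ Subgroup.zpowers a := fun h => hb1 (hdis b hbK (Subgroup.zpowers_le.2 haL h))
    obtain ⟨i, j, hij⟩ := hspan a b x hap hbp hxp ha1 hba (hKL b hbK a haL).symm (hxc a haP) (hxc b hbP)
    -- whichever factor of x is nontrivial gives a component with a normal p-complement
    suffices key : ∀ M N : Subgroup G, IsComponent M → (∀ m ∈ M, ∀ n ∈ N, Commute m n) →
        (∀ z ∈ M, z ∈ N → z = 1) → ∀ c ∈ M, ∀ d ∈ N, c ∈ (P : Subgroup G) → d ∈ (P : Subgroup G) →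
          c ^ p = 1 → d ^ p = 1 → c ≠ 1 → d ≠ 1 → ∀ i j : ℤ, x = c ^ i * d ^ j → c ^ i ≠ 1 → False by
      by_cases hai : a ^ i = 1
      · refine key K L hK hKL hdis b hbK a haL hbP haP hbp hap hb1 ha1 j i ?_ ?_
        · rw [hij, ((hKL b hbK a haL).zpow_zpow j i).eq]
        · intro hbj
          rw [hai, hbj, one_mul] at hij
          exact hx1 hij
      · exact key L K hL (fun l hl k hk => (hKL k hk l hl).symm) (fun z h1 h2 => hdis z h2 h1)
          a haL b hbK haP hbP hap hbp ha1 hb1 i j hij hai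
    intro M N hM hMN hMNd c hcM d hdN hcP hdP hcp hdp hc1 hd1 i j hxe hci
    have hcd : d ∉ Subgroup.zpowers c := fun h => hd1 (hMNd d (Subgroup.zpowers_le.2 hcM h) hdN)
    have hS := IsSylowIn.inf_subnormal P hM.1
    have hNM : HasNormalPComplement p ↥M := by
      refine Lib.LocalP2.hasNormalPComplement_of_omega_fixed hp fun R hR g hg _ r hr hrp => ?_
      obtain ⟨m, hm, hmle⟩ := hS.conj_le (hR.map M.subtype) (Subgroup.map_subtype_le R)
      rw [cj_le_iff] at hmle
      have hrS := hmle r ⟨r, hr, rfl⟩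
      have hgrS := hmle _ ⟨g * r * g⁻¹, (Subgroup.mem_normalizer_iff.1 hg r).1 hr, rfl⟩
      have hrp' : (r : G) ^ p = 1 := by simpa using congrArg Subtype.val hrp
      have hzp : (m * (r : G) * m⁻¹) ^ p = 1 := by rw [conj_pow, hrp']; group
      have hzd : Commute (m * (r : G) * m⁻¹) d := hMN _ hrS.2 d hdN
      have hcz : Commute c (m * (r : G) * m⁻¹) := by
        have h1 : Commute (m * (r : G) * m⁻¹) (c ^ i) := by
          rw [show c ^ i = x * (d ^ j)⁻¹ by rw [hxe, mul_inv_cancel_right]]
          exact (hxc _ hrS.1).mul_right (hzd.zpow_right j).inv_right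
        have h2 := hroot (Subgroup.centralizer {m * (r : G) * m⁻¹}) c i hcp hci
          (Subgroup.mem_centralizer_singleton_iff.2 h1.symm.eq)
        exact Subgroup.mem_centralizer_singleton_iff.1 h2
      obtain ⟨k, l, hkl⟩ := hspan c d _ hcp hdp hzp hc1 hcd (hMN c hcM d hdN) hcz hzd.symm
      have hdl : d ^ l = 1 := by
        refine hMNd _ ?_ (zpow_mem hdN l)
        have h1 := M.mul_mem (M.inv_mem (zpow_mem hcM k)) hrS.2
        rwa [hkl, inv_mul_cancel_left] at h1
      rw [hdl, mul_one] at hkl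
      set g' := m * (g : G) * m⁻¹ with hg'
      have hg'M : g' ∈ M := M.mul_mem (M.mul_mem hm g.2) (M.inv_mem hm)
      have he : m * ((g * r * g⁻¹ : ↥M) : G) * m⁻¹ = g' * (m * (r : G) * m⁻¹) * g'⁻¹ := by
        simp [hg', mul_assoc]
      suffices hfix : g' * c ^ k * g'⁻¹ = c ^ k by
        rw [← hkl, ← he] at hfix
        exact Subtype.ext (mul_left_cancel (mul_right_cancel hfix))
      by_cases hck : c ^ k = 1
      · rw [hck]; group
      · have hcp' : (g' * c * g'⁻¹) ^ p = 1 := by rw [conj_pow, hcp]; group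
        have hmem : (g' * c * g'⁻¹) ^ k ∈ (P : Subgroup G) := by
          rw [conj_zpow, ← hkl, ← he]
          exact hgrS.1
        have hne : (g' * c * g'⁻¹) ^ k ≠ 1 := by
          rw [conj_zpow]
          intro h0
          exact hck (mul_eq_left.1 (mul_inv_eq_one.1 h0))
        have hgcP := hroot _ _ k hcp' hne hmem
        have hgx : g' * x * g'⁻¹ = (g' * c * g'⁻¹) ^ i * d ^ j := by
          rw [conj_zpow, hxe]
          have h3 : g' * d ^ j = d ^ j * g' := ((hMN g' hg'M d hdN).zpow_right j).eq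
          calc g' * (c ^ i * d ^ j) * g'⁻¹ = g' * c ^ i * (d ^ j * g'⁻¹) := by group
            _ = g' * c ^ i * (g'⁻¹ * (g' * d ^ j) * g'⁻¹) := by group
            _ = g' * c ^ i * g'⁻¹ * d ^ j := by rw [h3]; group
        have hx' := huniq g' (hgx ▸ mul_mem (zpow_mem hgcP i) (zpow_mem hdP j))
        rw [hgx, hxe, conj_zpow] at hx'
        have h4 : g' * c ^ i = c ^ i * g' := mul_inv_eq_iff_eq_mul.1 (mul_right_cancel hx')
        have h5 : c ∈ Subgroup.centralizer {g'} :=
          hroot _ c i hcp hci (Subgroup.mem_centralizer_singleton_iff.2 h4.symm)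
        have h6 : Commute g' c := (Subgroup.mem_centralizer_singleton_iff.1 h5).symm
        rw [(h6.zpow_right k).eq, mul_inv_cancel_right]
    have hK : Cfsg.pResidual p ↥M = ⊥ ∨ Cfsg.pResidual p ↥M = ⊤ :=
      (haveI := hsimp M hM; (inferInstance : (Cfsg.pResidual p ↥M).Normal).eq_bot_or_eq_top)
    rcases hK with hK | hK
    · obtain ⟨S⟩ := (inferInstance : Nonempty (Sylow p ↥M))
      have h1 := Lib.Transfer.pResidual_sup_sylow S
      rw [hK, bot_sup_eq] at h1
      have hMp : IsPGroup p ↥M := S.2.of_equiv ((MulEquiv.subgroupCongr h1).trans Subgroup.topEquiv)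
      haveI := hMp.isNilpotent
      exact Lib.Components.qs_not_isSolvable hM.2 inferInstance
    · have h1 := Lib.Transfer.hasNormalPComplement_iff.1 hNM
      rw [hK, Subgroup.card_top] at h1
      exact h1 (Lib.Components.comp_dvd_card hcore hM)
  have hlay : Cfsg.layer G = L :=
    le_antisymm (Lib.Components.layer_le_iff.2 fun K hK => (hone K hK).le) (Lib.Components.comp_le_layer hL)
  rw [hgfs, hlay]
  exact ⟨hsimp L hL, fun hc => Lib.Components.qs_not_isSolvable hL.2 (Group.isSolvable_of_comm fun a b => hc.is_comm.comm a b)⟩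

end Cfsg.Agent.S3049
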