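import Cfsg.Statements.S3050
import Cfsg.Agent.Lib.LocalChar.FpfSLTwo
import Mathlib.Algebra.CharP.CharAndCard

set_option autoImplicit false
open Cfsg

namespace Cfsg.Agent.S3050

/-- Let G be a finite group with a normal 2-subgroup Q such that G/Q is isomorphic to SL(2, 2ⁿ) with n ≥ 2, and suppose some element of G of order 3 fixes no nonidentity element of Q under conjugation. Then Q is elementary abelian and is the direct product of normal subgroups of G on each of which G acts as SL(2, 2ⁿ) acts on its natural two-dimensional module (a Galois twist of the natural action allowed). -/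
theorem result {G : Type*} [Group G] [Finite G]
    (Q : Subgroup G) [Q.Normal] (hQ : IsPGroup 2 ↥Q) (n : ℕ) (hn : 2 ≤ n)
    (K : Type*) [Field K] [Fintype K] (hK : Fintype.card K = 2 ^ n)
    (e : G ⧸ Q ≃* Matrix.SpecialLinearGroup (Fin 2) K)
    (x : G) (hx : orderOf x = 3) (hfpf : ∀ q ∈ Q, x * q * x⁻¹ = q → q = 1) :
    Cfsg.IsElementaryAbelian 2 Q ∧
      ∃ (k : ℕ) (V : Fin k → Subgroup G), (∀ i, V i ≤ Q ∧ (V i).Normal ∧
        Cfsg.ActsAsSL2OnSection K ⊤ ⊤ (V i) ⊥) ∧ iSupIndep V ∧ ⨆ i, V i = Q := by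
  haveI : CharP K 2 := by
    haveI : Fact (Nat.Prime 2) := ⟨Nat.prime_two⟩
    exact charP_of_card_eq_prime_pow hK
  refine Cfsg.Agent.Lib.LocalChar.FpfSLTwo.higman hQ ?_ e x hx hfpf
  classical
  have h4 : 2 < Fintype.card K := by
    rw [hK]
    calc 2 < 2 ^ 2 := by norm_num
      _ ≤ 2 ^ n := Nat.pow_le_pow_right (by norm_num) hn
  by_contra hc
  push Not at hc
  have : (Finset.univ : Finset K) ⊆ {0, 1} := fun a _ => by
    rcases eq_or_ne a 0 with h | h
    · simp [h]
    · simp [hc a h]
  have := (Finset.card_le_card this).trans Finset.card_le_two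
  rw [Finset.card_univ] at this
  omega

end Cfsg.Agent.S3050
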