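import Cfsg.Statements.S3053
import Mathlib
import Cfsg.Agent.Lib.LocalChar.YL
import Cfsg.Agent.Lib.Thompson.PGroup
import Cfsg.Agent.Lib.PGroupFrattini
import Cfsg.Agent.Lib.LocalP2.CoatomFixed
-- import your own Cfsg.Agent.* helpers here

set_option autoImplicit false
open Cfsg Cfsg.Agent Cfsg.Agent.Lib.LocalChar
open scoped commutatorElement Pointwise

namespace Cfsg.Agent.S3053

/-- Let p be an odd prime and G a finite group with a Sylow p-subgroup P that is extraspecial of order p³ and exponent p². Then the centre of P is strongly closed in P with respect to G: a G-conjugate of an element of Z(P) that lies in P already lies in Z(P). In particular a nontrivial central element of P is conjugate in G to no noncentral element of P. -/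
theorem result {G : Type*} [Group G] [Finite G]
    {p : ℕ} [Fact p.Prime] (hp : p ≠ 2) (P : Sylow p G) (hE : Cfsg.IsExtraspecial p ↥P)
    (hcard : Nat.card P = p ^ 3) (hexp : Monoid.exponent ↥P = p ^ 2) :
    Cfsg.IsStronglyClosed ((Subgroup.center ↥P).map (P : Subgroup G).subtype) (P : Subgroup G) := by
  classical
  have hp' : p.Prime := Fact.out
  obtain ⟨⟨-, hfr, hcomm⟩, hZcard⟩ := hE
  set S := (P : Subgroup G)
  set Z := (Subgroup.center ↥S).map S.subtype with hZ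
  refine ⟨Subgroup.map_subtype_le _, fun x hxZ g hy => ?_⟩
  set y := g * x * g⁻¹ with hydef
  by_contra hyZ
  clear_value y
  have hZS : Z ≤ S := Subgroup.map_subtype_le _
  have hZc : ∀ z ∈ Z, ∀ q ∈ S, Commute z q := by
    rintro _ ⟨z, hz, rfl⟩ q hq
    exact (congrArg Subtype.val (Subgroup.mem_center_iff.1 hz ⟨q, hq⟩)).symm
  have hcZ : ∀ a ∈ S, ∀ b ∈ S, ⁅a, b⁆ ∈ Z := by
    intro a ha b hb
    exact ⟨⁅⟨a, ha⟩, ⟨b, hb⟩⁆, hcomm.le
      (Subgroup.commutator_mem_commutator (Subgroup.mem_top _) (Subgroup.mem_top _)), rfl⟩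
  have hZp : Nat.card Z = p := (Subgroup.card_map_of_injective S.subtype_injective).trans hZcard
  have hZpow : ∀ z ∈ Z, z ^ p = 1 := fun z hz => by
    have := pow_card_eq_one' (x := (⟨z, hz⟩ : Z))
    rw [hZp] at this
    exact congrArg Subtype.val this
  have hmul : ∀ a ∈ S, ∀ b ∈ S, (a * b) ^ p = a ^ p * b ^ p := by
    intro a ha b hb
    have hz := hcZ _ (S.inv_mem hb) _ (S.inv_mem ha)
    rw [Lib.Thompson.mul_pow_class_two (Lib.Thompson.mul_comm_eq a b) (hZc _ hz a ha) (hZc _ hz b hb),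
      Lib.Thompson.pow_choose_two_eq_one hp (hZpow _ hz), mul_one]
  have hpowZ : ∀ a ∈ S, a ^ p ∈ Z := by
    intro a ha
    refine ⟨(⟨a, ha⟩ : S) ^ p, ?_, rfl⟩
    exact hfr.le (Lib.PGroupFrattini.pow_mem_frattini P.isPGroup' _)
  -- `E = Ω₁(P)`
  let E : Subgroup G :=
    { carrier := {a | a ∈ S ∧ a ^ p = 1}
      one_mem' := ⟨S.one_mem, one_pow _⟩
      mul_mem' := fun {a b} ha hb => ⟨S.mul_mem ha.1 hb.1, by rw [hmul a ha.1 b hb.1, ha.2, hb.2, one_mul]⟩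
      inv_mem' := fun {a} ha => ⟨S.inv_mem ha.1, by rw [inv_pow, ha.2, inv_one]⟩ }
  have hZE : Z ≤ E := fun z hz => ⟨hZS hz, hZpow z hz⟩
  obtain ⟨w₀, hw₀, hw₀1⟩ : ∃ w ∈ S, w ^ p ≠ 1 := by
    by_contra hne
    push Not at hne
    have : Monoid.exponent ↥S ∣ p :=
      Monoid.exponent_dvd_of_forall_pow_eq_one fun w => Subtype.ext (by simpa using hne w w.2)
    rw [show Monoid.exponent ↥S = p ^ 2 from hexp] at this
    have := Nat.le_of_dvd hp'.pos this
    nlinarith [hp'.two_le]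
  have hEcard : Nat.card E = p ^ 2 := by
    let π : S →* Z :=
      { toFun := fun a => ⟨(a : G) ^ p, hpowZ a a.2⟩
        map_one' := Subtype.ext (one_pow _)
        map_mul' := fun a b => Subtype.ext (hmul a a.2 b b.2) }
    have hsur : Function.Surjective π := by
      rw [← MonoidHom.range_eq_top]
      refine (hp'.eq_one_or_self_of_dvd _ (hZp ▸ Subgroup.card_subgroup_dvd_card π.range)).elim
        (fun h => absurd ?_ hw₀1) fun h => Subgroup.eq_top_of_card_eq _ (h.trans hZp.symm)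
      have := Subgroup.mem_bot.1 (Subgroup.eq_bot_of_card_eq _ h ▸ ⟨⟨w₀, hw₀⟩, rfl⟩ : π ⟨w₀, hw₀⟩ ∈ (⊥ : Subgroup Z))
      exact congrArg Subtype.val this
    have hker : π.ker = E.subgroupOf S := by
      ext a
      rw [MonoidHom.mem_ker, Subgroup.mem_subgroupOf]
      exact ⟨fun h => ⟨a.2, congrArg Subtype.val h⟩, fun h => Subtype.ext h.2⟩
    have h1 := Subgroup.card_mul_index π.ker
    rw [Subgroup.index_ker, MonoidHom.range_eq_top.2 hsur, Subgroup.card_top, hZp, hker,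
      Nat.card_congr (Subgroup.subgroupOfEquivOfLe (fun a (ha : a ∈ E) => ha.1)).toEquiv, hcard] at h1
    exact Nat.eq_of_mul_eq_mul_right hp'.pos (by linarith [h1, pow_succ p 2])
  have hxS : x ∈ S := hZS hxZ
  have hx1 : x ≠ 1 := fun h => hyZ (by rw [hydef, h, mul_one, mul_inv_cancel]; exact Z.one_mem)
  have hyE : y ∈ E := ⟨hy, by rw [hydef, conj_pow, hZpow x hxZ, mul_one, mul_inv_cancel]⟩
  have hxE : x ∈ E := hZE hxZ
  have hZx : Z = Subgroup.zpowers x := by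
    refine (Subgroup.eq_of_le_of_card_ge (Subgroup.zpowers_le.2 hxZ) ?_).symm
    rw [Nat.card_zpowers, orderOf_eq_prime (hZpow x hxZ) hx1]; exact hZp.le
  have hgen : ∀ a ∈ E, ∃ i j : ℤ, a = x ^ i * y ^ j := by
    intro a ha
    have hy1 : y ≠ 1 := fun h => hyZ (h ▸ Z.one_mem)
    have hc : ∀ u ∈ Z, ∀ v ∈ Subgroup.zpowers y, u * v = v * u := fun u hu v hv =>
      hZc u hu v (Subgroup.zpowers_le.2 hy hv)
    have hbot : Z ⊓ Subgroup.zpowers y = ⊥ := by
      refine (Lib.LocalP2.eq_bot_or_eq_of_prime_card (K := Subgroup.zpowers y) ?_ inf_le_right).resolve_right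
        fun e => hyZ (e.ge (Subgroup.mem_zpowers y)).1
      rw [Nat.card_zpowers, orderOf_eq_prime hyE.2 hy1]; exact hp'
    have hE' : Z ⊔ Subgroup.zpowers y = E := Subgroup.eq_of_le_of_card_ge
      (sup_le hZE (Subgroup.zpowers_le.2 hyE))
      (by rw [Lib.LocalP2.card_sup_of_inf_bot _ _ hc hbot, hZp, Nat.card_zpowers,
        orderOf_eq_prime hyE.2 hy1, hEcard, sq])
    obtain ⟨u, hu, v, ⟨j, rfl⟩, rfl⟩ := (mem_sup_iff_of_nz' (A := Z) (B := Subgroup.zpowers y)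
      (fun v hv => mem_nz_of_cj_le (cj_le_iff.2 fun u hu => by
        rw [← hc u hu v hv, mul_inv_cancel_right]; exact hu))).1 (hE'.ge ha)
    obtain ⟨i, rfl⟩ := hZx.le hu
    exact ⟨i, j, rfl⟩
  have hEc : ∀ a ∈ E, ∀ b ∈ E, Commute a b := by
    intro a ha b hb
    obtain ⟨i, j, rfl⟩ := hgen a ha
    obtain ⟨k, l, rfl⟩ := hgen b hb
    have hxy : Commute x y := hZc x hxZ y hy
    exact (((Commute.refl x).zpow_zpow i k).mul_right (hxy.zpow_zpow i l)).mul_left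
      ((hxy.symm.zpow_zpow j k).mul_right ((Commute.refl y).zpow_zpow j l))
  have hSE : S ≤ Subgroup.normalizer (E : Set G) := fun q hq =>
    mem_nz_of_cj_le (cj_le_iff.2 fun a ha =>
      ⟨S.mul_mem (S.mul_mem hq ha.1) (S.inv_mem hq), by rw [conj_pow, ha.2, mul_one, mul_inv_cancel]⟩)
  have hEp : IsPGroup p E := IsPGroup.of_card (n := 2) hEcard
  -- some `h` normalising `E` maps `x` to `y`
  obtain ⟨h, hhE, hhxy⟩ : ∃ h ∈ Subgroup.normalizer (E : Set G), h * x * h⁻¹ = y := by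
    set C := Subgroup.centralizer ({y} : Set G)
    have hgC : ((g • P : Sylow p G) : Subgroup G) ≤ C := by
      rintro _ ⟨q, hq, rfl⟩
      refine Subgroup.mem_centralizer_singleton_iff.2 ?_
      rw [hydef]
      exact ((hZc x hxZ q hq).symm.map (MulAut.conj g).toMonoidHom).eq
    obtain ⟨c, hc, hle⟩ := (IsSylowIn.of_le (g • P) hgC).conj_le hEp
      (fun a ha => Subgroup.mem_centralizer_singleton_iff.2 (hEc a ha y hyE).eq)
    have hle2 : cj (g⁻¹ * c) E ≤ S := cj_le_iff.2 fun a ha => by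
      obtain ⟨q, hq, hqe⟩ := hle (conj_mem_cj (g := c) ha)
      have hqe' : g * q * g⁻¹ = c * a * c⁻¹ := hqe
      rw [show g⁻¹ * c * a * (g⁻¹ * c)⁻¹ = g⁻¹ * (c * a * c⁻¹) * g by group, ← hqe']
      rw [show g⁻¹ * (g * q * g⁻¹) * g = q by group]; exact hq
    have hcE : cj (g⁻¹ * c) E = E := by
      refine Subgroup.eq_of_le_of_card_ge (fun a ha => ⟨hle2 ha, ?_⟩) (card_cj _ E).ge
      obtain ⟨b, hb, rfl⟩ := ha
      show ((g⁻¹ * c) * b * (g⁻¹ * c)⁻¹) ^ p = 1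
      rw [conj_pow, hb.2, mul_one, mul_inv_cancel]
    refine ⟨c⁻¹ * g, ?_, ?_⟩
    · have := Subgroup.inv_mem _ (mem_nz_of_cj_eq hcE)
      simpa using this
    · have hcy := Subgroup.mem_centralizer_singleton_iff.1 hc
      calc c⁻¹ * g * x * (c⁻¹ * g)⁻¹ = c⁻¹ * y * c := by rw [hydef]; group
        _ = c⁻¹ * (c * y) := by rw [mul_assoc, hcy]
        _ = y := by rw [inv_mul_cancel_left]
  -- transvection fixing `x`, moving `y`
  have htrans : ∀ a ∈ E, a ∉ Z → ∃ u ∈ S, u * a * u⁻¹ = a * x := by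
    intro a ha haZ
    obtain ⟨u, hu, hua⟩ : ∃ u ∈ S, ¬ Commute u a := by
      by_contra hne
      push Not at hne
      exact haZ ⟨⟨a, ha.1⟩, Subgroup.mem_center_iff.2 fun q => Subtype.ext (hne q q.2).eq, rfl⟩
    set z := a⁻¹ * (u * a * u⁻¹) with hz
    have hzZ : z ∈ Z := by
      have := hcZ a⁻¹ (S.inv_mem ha.1) u hu
      simpa [hz, commutatorElement_def, mul_assoc] using this
    have hz1 : z ≠ 1 := fun e => hua (show u * a = a * u by
      rw [← mul_inv_eq_iff_eq_mul, ← inv_mul_eq_one.1 (e : a⁻¹ * (u * a * u⁻¹) = 1)])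
    have hzgen : Subgroup.zpowers z = Z := by
      refine Subgroup.eq_of_le_of_card_ge (Subgroup.zpowers_le.2 hzZ) ?_
      rw [hZp, Nat.card_zpowers, orderOf_eq_prime (hZpow z hzZ) hz1]
    obtain ⟨n, hn⟩ := mem_powers_iff_mem_zpowers.2 (hzgen.ge hxZ)
    exact ⟨u ^ n, S.pow_mem hu n, by
      rw [conj_pow_of_commute (hZc z hzZ u hu).symm (by rw [hz]; group) n]; exact congrArg (a * ·) hn⟩
  obtain ⟨U, hUS, hUy⟩ := htrans y hyE hyZ
  have hUx : U * x * U⁻¹ = x := by rw [← (hZc x hxZ U hUS).eq, mul_inv_cancel_right]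
  -- transvection fixing `y`, moving `x`
  set a₀ := h⁻¹ * x * h with ha₀
  have ha₀E : a₀ ∈ E := by
    have := conj_mem_of_nz (Subgroup.inv_mem _ hhE) hxE
    simpa [ha₀] using this
  have ha₀Z : a₀ ∉ Z := by
    intro hmem
    obtain ⟨i, hi⟩ := hZx.le hmem
    have hx' : x = y ^ i := by
      rw [← hhxy, conj_zpow, show x ^ i = a₀ from hi, ha₀]; group
    have hbot : Subgroup.zpowers x = Subgroup.zpowers y :=
      Subgroup.eq_of_le_of_card_ge (Subgroup.zpowers_le.2 ⟨i, hx'.symm⟩) (by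
        rw [Nat.card_zpowers, Nat.card_zpowers, hydef, show g * x * g⁻¹ = MulAut.conj g x from rfl,
          (MulAut.conj g).orderOf_eq])
    exact hyZ (hZx.ge (hbot.ge (Subgroup.mem_zpowers y)))
  obtain ⟨V₀, hV₀S, hV₀⟩ := htrans a₀ ha₀E ha₀Z
  set L := (h * V₀ * h⁻¹)⁻¹ with hLdef
  have hLy : L * y * L⁻¹ = y := by
    have h1 := ((hZc x hxZ V₀ hV₀S).symm.map (MulAut.conj h).toMonoidHom)
    have h2 : Commute (h * V₀ * h⁻¹) y := hhxy ▸ h1
    rw [hLdef, h2.inv_left.eq, mul_inv_cancel_right]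
  have hLx : L * x * L⁻¹ = y⁻¹ * x := by
    have h1 : h * V₀ * h⁻¹ * x * (h * V₀ * h⁻¹)⁻¹ = x * y := by
      rw [show h * V₀ * h⁻¹ * x * (h * V₀ * h⁻¹)⁻¹ = h * (V₀ * a₀ * V₀⁻¹) * h⁻¹ by rw [ha₀]; group, hV₀,
        show h * (a₀ * x) * h⁻¹ = x * (h * x * h⁻¹) by rw [ha₀]; group, hhxy]
    have hxy : Commute x y := hEc x hxE y hyE
    have h2 : L * (x * y) * L⁻¹ = x := by rw [← h1, hLdef]; group
    have h3 : L * x * L⁻¹ * (L * y * L⁻¹) = x := by
      rw [show L * x * L⁻¹ * (L * y * L⁻¹) = L * (x * y) * L⁻¹ by group]; exact h2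
    rw [hLy] at h3
    rw [eq_mul_inv_of_mul_eq h3, hxy.inv_right.eq]
  set W := U * L * U with hW
  have hxy : Commute x y := hEc x hxE y hyE
  have hWx : W * x * W⁻¹ = y⁻¹ := by
    rw [show W * x * W⁻¹ = U * (L * (U * x * U⁻¹) * L⁻¹) * U⁻¹ by rw [hW]; group, hUx, hLx,
      show U * (y⁻¹ * x) * U⁻¹ = (U * y * U⁻¹)⁻¹ * (U * x * U⁻¹) by group, hUx, hUy, mul_inv_rev]
    rw [mul_assoc, ((hxy.inv_right).symm.eq : y⁻¹ * x = x * y⁻¹), inv_mul_cancel_left]
  have hWy : W * y * W⁻¹ = x := by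
    rw [show W * y * W⁻¹ = U * (L * (U * y * U⁻¹) * L⁻¹) * U⁻¹ by rw [hW]; group, hUy,
      show L * (y * x) * L⁻¹ = (L * y * L⁻¹) * (L * x * L⁻¹) by group, hLy, hLx, mul_inv_cancel_left, hUx]
  have ht : ∀ a ∈ E, W * W * a * (W * W)⁻¹ = a⁻¹ := by
    intro a ha
    obtain ⟨i, j, rfl⟩ := hgen a ha
    have h1 : W * W * x * (W * W)⁻¹ = x⁻¹ := by
      rw [show W * W * x * (W * W)⁻¹ = W * (W * x * W⁻¹) * W⁻¹ by group, hWx,
        show W * y⁻¹ * W⁻¹ = (W * y * W⁻¹)⁻¹ by group, hWy]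
    have h2 : W * W * y * (W * W)⁻¹ = y⁻¹ := by
      rw [show W * W * y * (W * W)⁻¹ = W * (W * y * W⁻¹) * W⁻¹ by group, hWy, hWx]
    rw [show W * W * (x ^ i * y ^ j) * (W * W)⁻¹ =
        (W * W * x ^ i * (W * W)⁻¹) * (W * W * y ^ j * (W * W)⁻¹) by group,
      ← conj_zpow, ← conj_zpow, h1, h2, mul_inv_rev, inv_zpow, inv_zpow,
      ((hxy.zpow_zpow i j).inv_inv).eq]
  have hUn : U ∈ Subgroup.normalizer (E : Set G) := hSE hUS
  have hLn : L ∈ Subgroup.normalizer (E : Set G) :=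
    Subgroup.inv_mem _ (Subgroup.mul_mem _ (Subgroup.mul_mem _ hhE (hSE hV₀S)) (Subgroup.inv_mem _ hhE))
  set t := W * W
  have htn : t ∈ Subgroup.normalizer (E : Set G) :=
    Subgroup.mul_mem _ (Subgroup.mul_mem _ (Subgroup.mul_mem _ hUn hLn) hUn)
      (Subgroup.mul_mem _ (Subgroup.mul_mem _ hUn hLn) hUn)
  -- Frattini: some element normalising `P` inverts `E`
  obtain ⟨r, hrP, hr⟩ : ∃ r ∈ Subgroup.normalizer (S : Set G), ∀ a ∈ E, r * a * r⁻¹ = a⁻¹ := by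
    set CE := Subgroup.centralizer (E : Set G)
    have hSCE : S ≤ Subgroup.normalizer (CE : Set G) := le_nz_centralizer hSE
    have htS : cj t S ≤ S ⊔ CE := cj_le_iff.2 fun q hq => by
      have hq' : t * q * t⁻¹ * q⁻¹ ∈ CE := by
        refine Subgroup.mem_centralizer_iff.2 fun a ha => ?_
        have h1 : q⁻¹ * a * q ∈ E := by simpa using conj_mem_of_nz (hSE (S.inv_mem hq)) ha
        have h2 := ht _ h1
        have h3 := ht _ ha
        have h4 : t⁻¹ * (q⁻¹ * a * q) * t = (q⁻¹ * a * q)⁻¹ := by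
          have h5 := ht _ (E.inv_mem h1)
          rw [inv_inv] at h5
          conv_lhs => rw [← h5]
          group
        have key : t * q * t⁻¹ * q⁻¹ * a * (t * q * t⁻¹ * q⁻¹)⁻¹ = a := by
          calc t * q * t⁻¹ * q⁻¹ * a * (t * q * t⁻¹ * q⁻¹)⁻¹
              = t * q * (t⁻¹ * (q⁻¹ * a * q) * t) * q⁻¹ * t⁻¹ := by group
            _ = t * q * ((q⁻¹ * a * q)⁻¹) * q⁻¹ * t⁻¹ := by rw [h4]
            _ = (t * a * t⁻¹)⁻¹ := by group
            _ = a := by rw [h3, inv_inv]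
        exact (mul_inv_eq_iff_eq_mul.1 key).symm
      rw [show t * q * t⁻¹ = (t * q * t⁻¹ * q⁻¹) * q by group]
      exact Subgroup.mul_mem _ (Subgroup.mem_sup_right hq') (Subgroup.mem_sup_left hq)
    obtain ⟨m, hm, hle⟩ := (IsSylowIn.of_le P (le_sup_left : S ≤ S ⊔ CE)).conj_le
      (isPGroup_cj (g := t) P.isPGroup') htS
    rw [cj_cj] at hle
    obtain ⟨q, hq, c, hc, rfl⟩ := (mem_sup_iff_of_nz hSCE).1 hm
    refine ⟨c * t, ?_, fun a ha => ?_⟩
    · have := Subgroup.mul_mem _ (Subgroup.inv_mem _ (Subgroup.le_normalizer hq)) (mem_nz_of_cj_le hle)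
      simpa [mul_assoc] using this
    · rw [show c * t * a * (c * t)⁻¹ = c * (t * a * t⁻¹) * c⁻¹ by group, ht a ha,
        ← Subgroup.mem_centralizer_iff.1 hc a⁻¹ (E.inv_mem ha), mul_inv_cancel_right]
  -- contradiction
  have hwE : w₀ ∉ E := fun hw => hw₀1 hw.2
  have hwy : ¬ Commute w₀ y := by
    intro hc
    apply hyZ
    have hCy : S ≤ Subgroup.centralizer ({y} : Set G) := by
      set T := S ⊓ Subgroup.centralizer ({y} : Set G) with hT
      have hET : E < T := lt_of_le_of_ne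
        (le_inf (fun a ha => ha.1) fun a ha => Subgroup.mem_centralizer_singleton_iff.2 (hEc a ha y hyE).eq)
        fun e => hwE (e.ge ⟨hw₀, Subgroup.mem_centralizer_singleton_iff.2 hc.eq⟩)
      have h1 := Set.Finite.card_lt_card (Set.toFinite _) hET
      obtain ⟨k, hk, hk'⟩ := (Nat.dvd_prime_pow hp').1 (hcard ▸ Subgroup.card_dvd_of_le (inf_le_left : T ≤ S))
      change Nat.card E < Nat.card T at h1
      rw [hEcard, hk'] at h1
      have hk3 : k = 3 := by have := (Nat.pow_lt_pow_iff_right hp'.one_lt).1 h1; omega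
      exact fun a ha => ((Subgroup.eq_of_le_of_card_ge (inf_le_left : T ≤ S)
        (by rw [hk', hk3]; exact hcard.le)).ge ha).2
    exact ⟨⟨y, hy⟩, Subgroup.mem_center_iff.2 fun q =>
      Subtype.ext (Subgroup.mem_centralizer_singleton_iff.1 (hCy q.2)), rfl⟩
  set w' := r * w₀ * r⁻¹ with hw'
  have hw'S : w' ∈ S := conj_mem_of_nz hrP hw₀
  have he : w' * w₀ ∈ E := ⟨S.mul_mem hw'S hw₀, by
    rw [hmul _ hw'S _ hw₀, hw', conj_pow, hr _ (hZE (hpowZ _ hw₀)), inv_mul_cancel]⟩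
  set c := ⁅w₀, y⁆ with hcdef
  have hcZ' : c ∈ Z := hcZ _ hw₀ _ hy
  have hc1 : c ≠ 1 := fun e => hwy (commutatorElement_eq_one_iff_commute.1 e)
  have e1 : r * c * r⁻¹ = ⁅w', y⁻¹⁆ := by
    rw [hcdef, show r * ⁅w₀, y⁆ * r⁻¹ = ⁅r * w₀ * r⁻¹, r * y * r⁻¹⁆ by simp [commutatorElement_def]; group,
      hr y hyE, hw']
  have e2 : ⁅w', y⁻¹⁆ = c := by
    have hy' : Commute (w' * w₀) y⁻¹ := hEc _ he _ (E.inv_mem hyE)
    have hcw : Commute c w₀⁻¹ := (hZc c hcZ' w₀ hw₀).inv_right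
    have hcy : Commute c y := hZc c hcZ' y hy
    have h1 : ⁅w₀⁻¹, y⁻¹⁆ = c := by
      have : y⁻¹ * w₀⁻¹ * c * w₀ * y = ⁅y⁻¹, w₀⁻¹⁆⁻¹ * 1 := by rw [hcdef, commutatorElement_def, commutatorElement_def]; group
      rw [commutatorElement_inv, mul_one] at this
      rw [← this]
      calc y⁻¹ * w₀⁻¹ * c * w₀ * y = y⁻¹ * (c * w₀⁻¹) * w₀ * y := by rw [hcw.eq]; group
        _ = y⁻¹ * c * y := by group
        _ = c := by rw [mul_assoc, hcy.eq, inv_mul_cancel_left]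
    have h2 : ⁅(w' * w₀) * w₀⁻¹, y⁻¹⁆ = (w' * w₀) * ⁅w₀⁻¹, y⁻¹⁆ * (w' * w₀)⁻¹ := by
      have := hy'.eq
      calc ⁅(w' * w₀) * w₀⁻¹, y⁻¹⁆ = (w' * w₀) * ⁅w₀⁻¹, y⁻¹⁆ * (y⁻¹ * (w' * w₀)⁻¹ * y) := by
            rw [commutatorElement_def, commutatorElement_def]; group
        _ = _ := by
            rw [show y⁻¹ * (w' * w₀)⁻¹ * y = (w' * w₀)⁻¹ by
              rw [hy'.inv_left.symm.eq, inv_mul_cancel_right]]
    rw [mul_inv_cancel_right] at h2
    rw [h2, h1, ← (hZc c hcZ' _ he.1).eq, mul_inv_cancel_right]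
  have h := hr c (hZE hcZ')
  rw [e1, e2] at h
  exact hc1 (eq_one_of_pow_coprime (p := p) (n := 2) (Nat.coprime_two_left.2 (hp'.odd_of_ne_two hp))
    ⟨1, by rw [pow_one]; exact hZpow c hcZ'⟩ (by rw [sq]; nth_rw 2 [h]; rw [mul_inv_cancel]))

end Cfsg.Agent.S3053
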