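import Cfsg.Statements.S3054
import Cfsg.Agent.Lib.LocalP2.ExtraPlanesBound
-- import your own Cfsg.Agent.* helpers here

set_option autoImplicit false
open Cfsg
open Cfsg.Agent.Lib.LocalP2.ExtraPlanes

namespace Cfsg.Agent.S3054

/-- Let p be an odd prime and G a finite group with a Sylow p-subgroup P that is extraspecial of order p³ and exponent p. Suppose P contains three distinct subgroups A of order p² (each is elementary abelian of rank 2) such that every automorphism of A of order p is induced by conjugation by an element of G; equivalently the automorphism group induced on A by its normalizer contains the special linear group of A. Then p ≤ 13. -/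
theorem result {G : Type*} [Group G] [Finite G]
    {p : ℕ} [Fact p.Prime] (hp : p ≠ 2) (P : Sylow p G) (hE : Cfsg.IsExtraspecial p ↥P)
    (hcard : Nat.card P = p ^ 3) (hexp : Monoid.exponent ↥P = p)
    (A : Fin 3 → Subgroup G) (hA : Function.Injective A) (hAP : ∀ i, A i ≤ (P : Subgroup G))
    (hAcard : ∀ i, Nat.card ↥(A i) = p ^ 2)
    (hSL : ∀ i, ∀ φ : MulAut ↥(A i), orderOf φ = p → ∃ g : G, ∀ a : ↥(A i), (φ a : G) = g * (a : G) * g⁻¹) :
    p ≤ 13 := by
  by_contra hlarge
  obtain ⟨D⟩ := exists_frame P hE hcard hexp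
  have hk1 : D.k 1 = 0 := (D.k_eq _ (one_mem _)).2 (one_mem _)
  have hkz : D.k D.z = 0 := (D.k_eq _ D.z_mem).2 (Subgroup.mem_zpowers _)
  have hkpow : ∀ q ∈ P, ∀ n : ℕ, D.k (q ^ n) = n • D.k q := fun q hq n => by
    induction n with
    | zero => rw [pow_zero, zero_smul, hk1]
    | succ n ih => rw [pow_succ, D.k_mul _ (pow_mem hq n) _ hq, ih, succ_nsmul]
  have hzA : ∀ i, D.z ∈ A i := fun i => by
    by_contra hz
    have hinj : Function.Injective fun q : A i => D.k q := fun q r h => by
      have hq := hAP i q.2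
      have hr := hAP i r.2
      have h1 := D.k_mul (r : G) hr ((r : G)⁻¹ * q) (mul_mem (inv_mem hr) hq)
      rw [mul_inv_cancel_left, show D.k (q : G) = D.k (r : G) from h, left_eq_add] at h1
      obtain ⟨j, hj⟩ := Subgroup.mem_zpowers_iff.1 ((D.k_eq _ (mul_mem (inv_mem hr) hq)).1 h1)
      have hmem : D.z ^ j ∈ A i := hj ▸ (A i).mul_mem ((A i).inv_mem r.2) q.2
      by_cases hd : (p : ℤ) ∣ j
      · obtain ⟨e, rfl⟩ := hd
        rw [zpow_mul, zpow_natCast, D.z_pow, one_zpow, eq_comm, inv_mul_eq_one] at hj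
        exact Subtype.ext hj.symm
      · refine absurd ?_ hz
        have hcop : IsCoprime (p : ℤ) j := (Nat.prime_iff_prime_int.1 Fact.out).coprime_iff_not_dvd.2 hd
        obtain ⟨u, w, huw⟩ := hcop
        have h2 : D.z = (D.z ^ j) ^ w := by
          conv_lhs => rw [← zpow_one D.z, ← huw, zpow_add, mul_comm u, zpow_mul, zpow_natCast, D.z_pow, one_zpow, one_mul]
          rw [← zpow_mul, mul_comm]
        exact h2 ▸ zpow_mem hmem w
    have hsurj := (hinj.bijective_of_nat_card_le (by rw [hAcard i, Nat.card_fun, Nat.card_zmod, Nat.card_fin])).surjective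
    obtain ⟨q, hq⟩ := hsurj ![1, 0]
    obtain ⟨r, hr⟩ := hsurj ![0, 1]
    have h := D.k_comm _ (hAP i q.2) _ (hAP i r.2)
    rw [show D.k (q : G) = ![1, 0] from hq, show D.k (r : G) = ![0, 1] from hr] at h
    refine hz ?_
    simp [ZMod.val_one] at h
    rw [← h, commutatorElement_def]
    exact mul_mem (mul_mem (mul_mem q.2 r.2) (inv_mem q.2)) (inv_mem r.2)
  have hx : ∀ i, ∃ x ∈ A i, D.k x ≠ 0 := fun i => by
    by_contra h
    push Not at h
    have hle : A i ≤ Subgroup.zpowers D.z := fun q hq => (D.k_eq _ (hAP i hq)).1 (h q hq)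
    have hc := Subgroup.card_le_of_le hle
    rw [hAcard i, Nat.card_zpowers, orderOf_eq_prime D.z_pow D.z_ne] at hc
    have := (Fact.out : p.Prime).two_le
    nlinarith
  choose x hxA hxne using hx
  have hxP : ∀ i, x i ∈ P := fun i => hAP i (hxA i)
  have hkem : ∀ (i : Fin 3) (v : ZMod p × ZMod p), D.k (emap D.z (x i) v) = v.2 • D.k (x i) := fun i v => by
    rw [emap, D.k_mul _ (pow_mem D.z_mem _) _ (pow_mem (hxP i) _), hkpow _ D.z_mem, hkz, smul_zero, zero_add,
      hkpow _ (hxP i), ← Nat.cast_smul_eq_nsmul (ZMod p), ZMod.natCast_zmod_val]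
  have hem : ∀ (i : Fin 3) (v : ZMod p × ZMod p), emap D.z (x i) v ∈ A i := fun i v =>
    mul_mem (pow_mem (hzA i) _) (pow_mem (hxA i) _)
  let E : ∀ i, Multiplicative (ZMod p × ZMod p) →* A i := fun i => MonoidHom.mk'
    (fun v => ⟨emap D.z (x i) v.toAdd, hem i _⟩)
    fun v w => Subtype.ext (emap_add D.z_pow (D.k_pow _ (hxP i)) (D.z_comm _ (hxP i)) _ _)
  have hEb : ∀ i, Function.Bijective (E i) := fun i => by
    refine Function.Injective.bijective_of_nat_card_le ((injective_iff_map_eq_one (E i)).2 fun v hv => ?_)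
      (by rw [hAcard i, Nat.card_congr Multiplicative.toAdd, Nat.card_prod, Nat.card_zmod, sq])
    have hv' : emap D.z (x i) v.toAdd = 1 := congrArg Subtype.val hv
    have h2 := hkem i v.toAdd
    rw [hv', hk1, eq_comm, smul_eq_zero] at h2
    have h2' := h2.resolve_right (hxne i)
    rw [emap, h2', ZMod.val_zero, pow_zero, mul_one] at hv'
    have h1 : (v.toAdd.1).val = 0 := by
      have hd := orderOf_dvd_of_pow_eq_one hv'
      rw [orderOf_eq_prime D.z_pow D.z_ne] at hd
      exact Nat.eq_zero_of_dvd_of_lt hd (ZMod.val_lt _)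
    exact Multiplicative.toAdd.injective (Prod.ext ((ZMod.val_eq_zero _).1 h1) h2')
  have hind : ∀ i j, i ≠ j → D.k (x i) 0 * D.k (x j) 1 - D.k (x i) 1 * D.k (x j) 0 ≠ 0 := by
    intro i j hij h
    obtain ⟨c, hc⟩ : ∃ c : ZMod p, D.k (x j) = c • D.k (x i) := by
      by_cases h0 : D.k (x i) 0 = 0
      · have h1 : D.k (x i) 1 ≠ 0 := fun h1 => hxne i (funext fun l => by fin_cases l <;> simp [h0, h1])
        have h0' : D.k (x j) 0 = 0 := by
          rw [h0, zero_mul, zero_sub, neg_eq_zero, mul_eq_zero] at h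
          exact h.resolve_left h1
        exact ⟨D.k (x j) 1 / D.k (x i) 1, funext fun l => by fin_cases l <;> simp [h0, h0', h1]⟩
      · refine ⟨D.k (x j) 0 / D.k (x i) 0, funext (Fin.forall_fin_two.2 ⟨?_, ?_⟩)⟩
        · simp [h0]
        · simp only [Pi.smul_apply, smul_eq_mul]
          field_simp
          linear_combination h
    have hmem : x j ∈ A i := by
      have hq := pow_mem (hxP i) c.val
      have h1 := D.k_mul _ hq _ (mul_mem (inv_mem hq) (hxP j))
      rw [mul_inv_cancel_left, hkpow _ (hxP i), ← Nat.cast_smul_eq_nsmul (ZMod p), ZMod.natCast_zmod_val, hc,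
        left_eq_add] at h1
      have h2 := (D.k_eq _ (mul_mem (inv_mem hq) (hxP j))).1 h1
      have h3 := mul_mem (pow_mem (hxA i) c.val) ((Subgroup.zpowers_le.2 (hzA i)) h2)
      rwa [mul_inv_cancel_left] at h3
    refine hij (hA (Eq.symm ?_))
    have hle : A j ≤ A i := fun q hq => by
      obtain ⟨v, hv⟩ := (hEb j).2 ⟨q, hq⟩
      rw [show q = emap D.z (x j) v.toAdd from (congrArg Subtype.val hv).symm]
      exact mul_mem (pow_mem (hzA i) _) (pow_mem hmem _)
    exact Subgroup.eq_of_le_of_card_ge hle (by rw [hAcard, hAcard])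
  have hg : ∀ i, ∃ (g : G) (s : ZMod p), s ≠ 0 ∧ g * x i * g⁻¹ = x i ∧ g * D.z * g⁻¹ = D.z * x i ^ s.val := by
    intro i
    let e : Multiplicative (ZMod p × ZMod p) ≃* A i := MulEquiv.ofBijective (E i) (hEb i)
    let sh : ZMod p × ZMod p ≃+ ZMod p × ZMod p :=
      { toFun := fun v => (v.1, v.2 + v.1)
        invFun := fun v => (v.1, v.2 - v.1)
        left_inv := fun v => Prod.ext rfl (by ring)
        right_inv := fun v => Prod.ext rfl (by ring)
        map_add' := fun v w => Prod.ext rfl (by show v.2 + w.2 + (v.1 + w.1) = _; simp only [Prod.snd_add]; ring) }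
    let φ : MulAut (A i) := e.symm.trans ((AddEquiv.toMultiplicative sh).trans e)
    have hφ : ∀ (n : ℕ) (v : ZMod p × ZMod p),
        (φ ^ n) (e (Multiplicative.ofAdd v)) = e (Multiplicative.ofAdd (v.1, v.2 + (n : ZMod p) * v.1)) := by
      intro n
      induction n with
      | zero => intro v; simp
      | succ n ih =>
        intro v
        rw [pow_succ', MulAut.mul_apply, ih]
        show e ((AddEquiv.toMultiplicative sh) (e.symm (e _))) = _
        rw [e.symm_apply_apply]
        refine congrArg e ?_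
        show Multiplicative.ofAdd (sh _) = _
        refine congrArg Multiplicative.ofAdd (Prod.ext rfl ?_)
        show v.2 + (n : ZMod p) * v.1 + v.1 = _
        push_cast
        ring
    have hord : orderOf φ = p := by
      refine orderOf_eq_prime (MulEquiv.ext fun q => ?_) fun h => ?_
      · obtain ⟨w, rfl⟩ := e.surjective q
        have := hφ p w.toAdd
        simpa using this
      · have h1 := hφ 1 ((1 : ZMod p), (0 : ZMod p))
        rw [pow_one, h] at h1
        have h2 := congrArg (fun w : Multiplicative (ZMod p × ZMod p) => w.toAdd.2) (e.injective h1)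
        simp at h2
    obtain ⟨g, hg⟩ := hSL i φ hord
    refine ⟨g, 1, one_ne_zero, ?_, ?_⟩
    · have h := hg (e (Multiplicative.ofAdd ((0 : ZMod p), (1 : ZMod p))))
      have h1 := hφ 1 ((0 : ZMod p), (1 : ZMod p))
      rw [pow_one] at h1
      rw [h1] at h
      simp only [Nat.cast_one, mul_zero, add_zero] at h
      rw [show ((e (Multiplicative.ofAdd ((0 : ZMod p), (1 : ZMod p))) : A i) : G) = x i from emap_x D.z (x i)] at h
      exact h.symm
    · have h := hg (e (Multiplicative.ofAdd ((1 : ZMod p), (0 : ZMod p))))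
      have h1 := hφ 1 ((1 : ZMod p), (0 : ZMod p))
      rw [pow_one] at h1
      rw [h1] at h
      simp only [Nat.cast_one, mul_one, zero_add] at h
      rw [show ((e (Multiplicative.ofAdd ((1 : ZMod p), (0 : ZMod p))) : A i) : G) = D.z from emap_z D.z (x i)] at h
      rw [← h]
      show emap D.z (x i) ((1 : ZMod p), (1 : ZMod p)) = _
      simp [emap, ZMod.val_one]
  obtain ⟨h13, -⟩ := bound (by omega) D x hxP hind hg hxne
    ⟨0, 1, 2, by decide, by decide, by decide⟩
  omega

end Cfsg.Agent.S3054
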