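import Cfsg.Statements.S3055
import Cfsg.Agent.Lib.LocalP2.ExtraPlanesBound
-- import your own Cfsg.Agent.* helpers here

set_option autoImplicit false
open Cfsg
open Cfsg.Agent.Lib.LocalP2.ExtraPlanes

namespace Cfsg.Agent.S3055

/-- Let p be an odd prime and G a finite group with a Sylow p-subgroup P that is extraspecial of order p³ and exponent p. If all nonidentity elements of P are conjugate in G, then p ≤ 7. -/
theorem result {G : Type*} [Group G] [Finite G]
    {p : ℕ} [Fact p.Prime] (hp : p ≠ 2) (P : Sylow p G) (hE : Cfsg.IsExtraspecial p ↥P)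
    (hcard : Nat.card P = p ^ 3) (hexp : Monoid.exponent ↥P = p)
    (hconj : ∀ x y : ↥P, x ≠ 1 → y ≠ 1 → ∃ g : G, g * (x : G) * g⁻¹ = (y : G)) :
    p ≤ 7 := by
  classical
  by_contra hlarge
  obtain ⟨D⟩ := exists_frame P hE hcard hexp
  let vec : OnePoint (ZMod p) → (Fin 2 → ZMod p) := fun o => o.elim ![1, 0] fun c => ![c, 1]
  choose x hxP hkx using fun o => D.k_surj (vec o)
  have hne : ∀ o, D.k (x o) ≠ 0 := fun o h => by
    rw [hkx] at h
    cases o with
    | infty => simpa [vec] using congrFun h 0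
    | coe c => simpa [vec] using congrFun h 1
  have hind : ∀ i j, i ≠ j → D.k (x i) 0 * D.k (x j) 1 - D.k (x i) 1 * D.k (x j) 0 ≠ 0 := by
    intro i j hij h
    rw [hkx, hkx] at h
    cases i with
    | infty => cases j with
      | infty => exact hij rfl
      | coe c => simp [vec] at h
    | coe b => cases j with
      | infty => simp [vec] at h
      | coe c =>
        simp [vec] at h
        exact hij (congrArg _ (sub_eq_zero.1 h))
  have hg : ∀ i, ∃ (g : G) (s : ZMod p), s ≠ 0 ∧ g * x i * g⁻¹ = x i ∧ g * D.z * g⁻¹ = D.z * x i ^ s.val := by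
    intro i
    set w := x i with hw
    have hwz : w ∉ Subgroup.zpowers D.z := fun h => hne i ((D.k_eq _ (hxP i)).2 h)
    have hw1 : w ≠ 1 := fun h => hwz (h ▸ one_mem _)
    obtain ⟨g₀, hg₀⟩ := hconj ⟨D.z, D.z_mem⟩ ⟨w, hxP i⟩ (fun h => D.z_ne (congrArg Subtype.val h))
      (fun h => hw1 (congrArg Subtype.val h))
    change g₀ * D.z * g₀⁻¹ = w at hg₀
    set C := Subgroup.centralizer ({w} : Set G)
    have hle : (P : Subgroup G).map (MulAut.conj g₀).toMonoidHom ≤ C := by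
      rintro _ ⟨q, hq, rfl⟩
      refine Subgroup.mem_centralizer_singleton_iff.2 ?_
      show g₀ * q * g₀⁻¹ * w = w * (g₀ * q * g₀⁻¹)
      rw [← hg₀]
      have hc := (D.z_comm q hq).eq
      calc g₀ * q * g₀⁻¹ * (g₀ * D.z * g₀⁻¹) = g₀ * (q * D.z) * g₀⁻¹ := by group
        _ = g₀ * (D.z * q) * g₀⁻¹ := by rw [hc]
        _ = _ := by group
    have hsyl : Agent.Lib.Fusion.IsSylowIn p ((P : Subgroup G).map (MulAut.conj g₀).toMonoidHom) C :=
      (Agent.Lib.Fusion.isSylowIn_top (P.mapSurjective (f := (MulAut.conj g₀).toMonoidHom) (MulAut.conj g₀).surjective)).mono_right hle le_top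
    obtain ⟨c, hc, hcz⟩ := hsyl.exists_conj_le (R := Subgroup.zpowers D.z)
      (Subgroup.zpowers_le.2 (Subgroup.mem_centralizer_singleton_iff.2 (D.z_comm w (hxP i)).eq))
      (P.isPGroup'.to_le (Subgroup.zpowers_le.2 D.z_mem))
    obtain ⟨q, hq, hqz⟩ := hcz D.z (Subgroup.mem_zpowers _)
    set g₁ := c⁻¹ * g₀ with hg₁
    have hcw : c⁻¹ * w * c = w := by
      rw [mul_assoc, ← Subgroup.mem_centralizer_singleton_iff.1 hc, inv_mul_cancel_left]
    have hg1w : g₁ * D.z * g₁⁻¹ = w := by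
      rw [hg₁, show c⁻¹ * g₀ * D.z * (c⁻¹ * g₀)⁻¹ = c⁻¹ * (g₀ * D.z * g₀⁻¹) * c by group, hg₀, hcw]
    have hg1z : g₁ * q * g₁⁻¹ = D.z := by
      change g₀ * q * g₀⁻¹ = c * D.z * c⁻¹ at hqz
      rw [hg₁, show c⁻¹ * g₀ * q * (c⁻¹ * g₀)⁻¹ = c⁻¹ * (g₀ * q * g₀⁻¹) * c by group, hqz]
      group
    have hqne : D.k q ≠ 0 := fun h => by
      obtain ⟨j, hj⟩ := Subgroup.mem_zpowers_iff.1 ((D.k_eq q hq).1 h)
      rw [← hj, ← conj_zpow, hg1w] at hg1z
      have hwj : (w ^ j) ∈ Subgroup.zpowers D.z := hg1z ▸ Subgroup.mem_zpowers _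
      by_cases hd : (p : ℤ) ∣ j
      · obtain ⟨e, rfl⟩ := hd
        rw [zpow_mul, zpow_natCast, D.k_pow w (hxP i), one_zpow] at hg1z
        exact D.z_ne hg1z.symm
      · obtain ⟨u, v, huv⟩ := (Nat.prime_iff_prime_int.1 (Fact.out : p.Prime)).coprime_iff_not_dvd.2 hd
        refine hwz ?_
        have h2 : w = (w ^ j) ^ v := by
          conv_lhs => rw [← zpow_one w, ← huv, zpow_add, mul_comm u, zpow_mul, zpow_natCast, D.k_pow w (hxP i), one_zpow, one_mul]
          rw [← zpow_mul, mul_comm]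
        exact h2 ▸ zpow_mem hwj v
    obtain ⟨y, hy, hyq⟩ : ∃ y ∈ P, D.k y 0 * D.k q 1 - D.k y 1 * D.k q 0 ≠ 0 := by
      by_contra h
      push Not at h
      obtain ⟨y1, hy1, hk1⟩ := D.k_surj ![1, 0]
      obtain ⟨y2, hy2, hk2⟩ := D.k_surj ![0, 1]
      have e1 := h y1 hy1
      have e2 := h y2 hy2
      rw [hk1] at e1
      rw [hk2] at e2
      refine hqne (funext fun l => ?_)
      fin_cases l
      · simpa using e2
      · simpa using e1
    refine ⟨g₁ * y * g₁⁻¹, _, hyq, ?_, ?_⟩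
    · rw [show g₁ * y * g₁⁻¹ * w * (g₁ * y * g₁⁻¹)⁻¹ = g₁ * (y * (g₁⁻¹ * w * g₁) * y⁻¹) * g₁⁻¹ by group,
        show g₁⁻¹ * w * g₁ = D.z by rw [← hg1w]; group, ← (D.z_comm y hy).eq, mul_inv_cancel_right, hg1w]
    · have h := D.k_comm y hy q hq
      rw [commutatorElement_def, mul_inv_eq_iff_eq_mul] at h
      rw [show g₁ * y * g₁⁻¹ * D.z * (g₁ * y * g₁⁻¹)⁻¹ = g₁ * (y * (g₁⁻¹ * D.z * g₁) * y⁻¹) * g₁⁻¹ by group,
        show g₁⁻¹ * D.z * g₁ = q by rw [← hg1z]; group, h, ← conj_mul, ← conj_pow, hg1w, hg1z]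
      exact (((D.z_comm w (hxP i)).symm.pow_left _).eq)
  obtain ⟨h13, hcard'⟩ := bound (by omega) D x hxP hind hg hne
    ⟨OnePoint.infty, ((0 : ZMod p) : OnePoint (ZMod p)), ((1 : ZMod p) : OnePoint (ZMod p)), by simp, by simp,
      fun h => zero_ne_one (OnePoint.coe_injective h)⟩
  have := Fintype.ofFinite (OnePoint (ZMod p))
  have h1 : Fintype.card (OnePoint (ZMod p)) = p + 1 := by
    rw [← Nat.card_eq_fintype_card, Agent.Lib.PSLTwo.card_onePoint', Nat.card_zmod]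
  have h2 := @hcard' _
  omega

end Cfsg.Agent.S3055
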