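import Cfsg.Statements.S3057
import Mathlib
import Cfsg.Agent.S3056
import Cfsg.Agent.Lib.LocalP2.StronglyP
import Cfsg.Agent.Lib.LocalP2.UniqueOrderP
import Cfsg.Agent.Lib.UniqueInvolution
import Cfsg.Agent.Lib.LocalFusion.PSolvable
import Cfsg.Agent.Lib.PLength.Basic
import Cfsg.Agent.Lib.Char2.Basic
import Cfsg.Agent.Lib.LocalChar.YL
-- import your own Cfsg.Agent.* helpers here

set_option autoImplicit false
open Cfsg Cfsg.Agent Cfsg.Agent.Lib.LocalChar
open scoped Pointwise

namespace Cfsg.Agent.S3057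

/-- Let p be a prime and G a finite p-solvable group of order divisible by p, with Sylow p-subgroup P. Then the Sylow p-subgroups of G fail to be chain-connected through nontrivial intersections (equivalently, G has a strongly p-embedded subgroup) if and only if O_p(G) = 1 and P is cyclic or, for p = 2, generalized quaternion. -/
theorem result {G : Type*} [Group G] [Finite G]
    (p : ℕ) [Fact p.Prime] (hdiv : p ∣ Nat.card G) (hsol : Cfsg.IsPSolvable p G) (P : Sylow p G) :
    ¬ Cfsg.IsSylowChainConnected p G ↔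
      Cfsg.pCore p G = ⊥ ∧ (IsCyclic ↥P ∨ (p = 2 ∧ ∃ n : ℕ, Nonempty (↥P ≃* QuaternionGroup (2 ^ n)))) := by
  have hp' : p.Prime := Fact.out
  constructor
  · intro hnc
    obtain ⟨H, hH, hpH, hse⟩ := (Cfsg.Agent.S3056.result p).1 hnc
    obtain ⟨S, hSH, hSne⟩ := Lib.LocalP2.exists_sylow_le_of_common hse hpH
    have hO : Cfsg.pCore p G = ⊥ := by
      by_contra hne
      have hn : (Cfsg.pCore p G).Normal := Lib.LocalChar.pCore_normal
      refine hH (eq_top_iff.2 ?_)
      have h := Lib.LocalP2.normalizer_le_of_common hse Lib.LocalChar.pCore_isPGroup hne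
        ((Lib.LocalChar.pCore_le_sylow S).trans hSH)
      rwa [Subgroup.normalizer_eq_top] at h
    refine ⟨hO, ?_⟩
    suffices huniq : ∀ X Y : Subgroup ↥(S : Subgroup G), Nat.card X = p → Nat.card Y = p → X = Y by
      let e : ↥(P : Subgroup G) ≃* ↥(S : Subgroup G) := P.equiv S
      rcases Lib.UniqueInvolution.isCyclic_or_quaternion S.isPGroup' huniq with h | ⟨h, n, -, ⟨f⟩⟩
      · exact Or.inl (isCyclic_of_surjective e.symm e.symm.surjective)
      · exact Or.inr ⟨h, n, ⟨e.trans f⟩⟩
    by_contra hnu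
    obtain ⟨E, hEc, hEp, hEcard⟩ := Lib.LocalP2.exists_elem_sq_of_not_unique S.isPGroup' hnu
    set E' := E.map (S : Subgroup G).subtype with hE'
    have hE'S : E' ≤ (S : Subgroup G) := Subgroup.map_subtype_le _
    set K := Cfsg.pPrimeCore p G with hKdef
    have hKcop : (Nat.card ↥K).Coprime p := Lib.Hall.coprime_card_pPrimeCore p
    have hE'card : Nat.card ↥E' = p ^ 2 := by
      rw [hE', Subgroup.card_map_of_injective (S : Subgroup G).subtype_injective, hEcard]
    have hKH : K ≤ H := by
      rw [← Lib.Coprime.fixGen_eq_of_elementary (B := E') (K := K) hp'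
        (by rintro _ ⟨a, ha, rfl⟩ _ ⟨b, hb, rfl⟩; exact congrArg Subtype.val (hEc a ha b hb))
        (by rintro _ ⟨a, ha, rfl⟩; rw [← map_pow, hEp a ha, map_one]) hE'card
        (by rw [Subgroup.normalizer_eq_top]; exact le_top) (hE'card ▸ hKcop.symm.pow_left 2)]
      refine iSup₂_le fun e he => inf_le_right.trans ?_
      rw [← Subgroup.centralizer_closure, ← Subgroup.zpowers_eq_closure]
      exact (Subgroup.centralizer_le_normalizer _).trans
        (Lib.LocalP2.normalizer_le_of_common hse (S.isPGroup'.to_le (Subgroup.zpowers_le.2 (hE'S he.1)))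
          (by simpa [Subgroup.zpowers_eq_bot] using he.2) (Subgroup.zpowers_le.2 (hSH (hE'S he.1))))
    set f := QuotientGroup.mk' K
    set X := (Cfsg.pCore p (G ⧸ K)).comap f with hX
    haveI hXn : X.Normal := Subgroup.Normal.comap Lib.LocalChar.pCore_normal f
    have hSX : IsSylowIn p ((S : Subgroup G) ⊓ X) X :=
      (IsSylowIn.of_le S le_top).inf le_top (by rw [Subgroup.normalizer_eq_top])
    have hQne : (S : Subgroup G) ⊓ X ≠ ⊥ := by
      intro hbot
      have hpc : Cfsg.pCore p (G ⧸ K) = ⊥ := by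
        by_contra hne
        obtain ⟨y, hy⟩ := exists_prime_orderOf_dvd_card' p
          ((Lib.LocalChar.pCore_isPGroup.card_eq_or_dvd).resolve_left
            (fun h => hne (Subgroup.eq_bot_of_card_eq _ h)))
        have hpX : p ∣ Nat.card ↥X := by
          have h1 : p ∣ Nat.card ↥(X.map f) := by
            rw [hX, Subgroup.map_comap_eq_self_of_surjective (QuotientGroup.mk'_surjective K)]
            have h3 := orderOf_dvd_natCard y
            rwa [hy] at h3
          exact h1.trans (Subgroup.card_map_dvd X f)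
        apply hSX.2.2
        rwa [hbot, Subgroup.relIndex_bot_left]
      have htop := Lib.LocalFusion.centralizer_pCore_le_of_isPSolvable
        (Lib.PLength.isPSolvable_map (QuotientGroup.mk'_surjective K) hsol)
        (Lib.Char2.pPrimeCore_quotient_eq_bot p)
      rw [hpc, Subgroup.coe_bot] at htop
      have hKtop : K = ⊤ := eq_top_iff.2 fun g _ => (QuotientGroup.eq_one_iff g).1
        (Subgroup.mem_bot.1 (htop (Subgroup.mem_centralizer_iff.2 fun h hh => by
          rw [Set.mem_singleton_iff.1 hh, one_mul, mul_one])))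
      apply (Nat.Prime.coprime_iff_not_dvd hp').1 hKcop.symm
      rw [hKtop, Subgroup.card_top]
      exact hdiv
    refine hH (eq_top_iff.2 fun g _ => ?_)
    obtain ⟨n, hn, m, hm, rfl⟩ := hSX.frattini (H := ⊤) le_top
      (by rw [Subgroup.normalizer_eq_top]) (Subgroup.mem_top g)
    refine H.mul_mem ?_ (Lib.LocalP2.normalizer_le_of_common hse hSX.2.1 hQne (inf_le_left.trans hSH) hm.2)
    -- `X = K (S ∩ X)`
    obtain ⟨a, b, ha, hb, rfl, ⟨k, hk⟩, hbo⟩ := exists_ppart (p := p) n
    have hzX : Subgroup.zpowers (a * b) ≤ X := Subgroup.zpowers_le.2 hn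
    refine H.mul_mem ?_ (hKH ?_)
    · have hap : IsPGroup p (Subgroup.zpowers a) :=
        IsPGroup.of_card (n := k) (by rw [Nat.card_zpowers, hk])
      obtain ⟨y, hy, hyle⟩ := hSX.conj_le hap (Subgroup.zpowers_le.2 (hzX ha))
      obtain ⟨u, hu, v, hv, rfl⟩ : ∃ u ∈ K, ∃ v ∈ (S : Subgroup G) ⊓ X, y = u * v := by
        have hXle : X ≤ K ⊔ ((S : Subgroup G) ⊓ X) := by
          rw [← Subgroup.relIndex_eq_one]
          obtain ⟨j, hj⟩ := IsPGroup.iff_card.1 (Lib.LocalChar.pCore_isPGroup (p := p) (G := G ⧸ K))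
          refine Nat.eq_one_of_dvd_coprimes ((coprime_of_not_dvd hSX.2.2).pow_right j)
            (Subgroup.relIndex_dvd_of_le_left X le_sup_right) ?_
          have h1 : K.relIndex X = p ^ j := by
            have h2 := Subgroup.relIndex_ker (K := X) f
            rw [QuotientGroup.ker_mk'] at h2
            rw [h2, hX, Subgroup.map_comap_eq_self_of_surjective (QuotientGroup.mk'_surjective K), hj]
          exact (Subgroup.relIndex_dvd_of_le_left X le_sup_left).trans h1.dvd
        exact (mem_sup_iff_of_nz' (A := K) (B := (S : Subgroup G) ⊓ X)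
          (by rw [Subgroup.normalizer_eq_top]; exact le_top)).1 (hXle hy)
      have h2 := hyle (conj_mem_cj (g := u * v) (Subgroup.mem_zpowers a))
      have huv : u * v ∈ H := H.mul_mem (hKH hu) (hSH hv.1)
      have h3 := H.mul_mem (H.mul_mem (H.inv_mem huv) (hSH h2.1)) huv
      simpa [mul_assoc] using h3
    · have hbX : b ∈ X := hzX hb
      refine mem_of_coprime_of_pow hbo ?_
      obtain ⟨j, hj⟩ := Lib.LocalChar.pCore_isPGroup ⟨f b, hbX⟩
      have h1 := congrArg Subtype.val hj
      simp only [SubgroupClass.coe_pow, OneMemClass.coe_one, ← map_pow] at h1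
      exact ⟨j, (QuotientGroup.eq_one_iff _).1 h1⟩
  · rintro ⟨hO, hstr⟩
    refine (Cfsg.Agent.S3056.result p).2 ?_
    have hu := Lib.LocalP2.unique_of_cyclic_or_quaternion (P := ↥(P : Subgroup G)) hstr
    obtain ⟨a, ha⟩ := exists_prime_orderOf_dvd_card' (G := ↥(P : Subgroup G)) p (P.dvd_card_of_dvd_card hdiv)
    set Ω := Subgroup.zpowers (a : G) with hΩ
    have hΩcard : Nat.card ↥Ω = p := by rw [hΩ, Nat.card_zpowers, Subgroup.orderOf_coe, ha]
    have hΩP : Ω ≤ (P : Subgroup G) := Subgroup.zpowers_le.2 a.2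
    have huniqP : ∀ D : Subgroup G, D ≤ (P : Subgroup G) → Nat.card ↥D = p → D = Ω := by
      intro D hD hc
      have := hu (D.subgroupOf P) (Ω.subgroupOf P)
        (by rw [Nat.card_congr (Subgroup.subgroupOfEquivOfLe hD).toEquiv, hc])
        (by rw [Nat.card_congr (Subgroup.subgroupOfEquivOfLe hΩP).toEquiv, hΩcard])
      have e := Subgroup.subgroupOf_inj.1 this
      rwa [inf_eq_left.2 hD, inf_eq_left.2 hΩP] at e
    set H := Subgroup.normalizer (Ω : Set G) with hHdef
    have hΩp : IsPGroup p ↥Ω := IsPGroup.of_card (n := 1) (by rw [hΩcard, pow_one])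
    have huniqH : ∀ D : Subgroup G, D ≤ H → Nat.card ↥D = p → D = Ω := by
      intro D hD hc
      have hR : IsPGroup p ↥(Ω ⊔ D) := hΩp.to_sup_of_normal_left'
        (IsPGroup.of_card (n := 1) (by rw [hc, pow_one])) hD
      obtain ⟨T, hT⟩ := hR.exists_le_sylow
      obtain ⟨g, hg⟩ := MulAction.exists_smul_eq G T P
      have hle : ∀ X : Subgroup G, X ≤ (T : Subgroup G) → cj g X ≤ (P : Subgroup G) := fun X hX => by
        rw [← hg]; exact cj_mono hX
      have h1 := huniqP _ (hle D (le_sup_right.trans hT)) (by rw [card_cj, hc])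
      have h2 := huniqP _ (hle Ω (le_sup_left.trans hT)) (by rw [card_cj, hΩcard])
      exact Subgroup.map_injective (MulEquiv.injective (MulAut.conj g)) (h1.trans h2.symm)
    refine ⟨H, fun h => ?_, hΩcard ▸ Subgroup.card_dvd_of_le Subgroup.le_normalizer, fun g hg hd => ?_⟩
    · have hn : Ω.Normal := Subgroup.normalizer_eq_top_iff.1 h
      have := Lib.LocalChar.le_pCore hn hΩp
      rw [hO, le_bot_iff] at this
      rw [this, Subgroup.card_bot] at hΩcard
      exact hp'.one_lt.ne hΩcard
    · obtain ⟨d, hdp⟩ := exists_prime_orderOf_dvd_card' p hd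
      have hDc : Nat.card ↥(Subgroup.zpowers (d : G)) = p := by
        rw [Nat.card_zpowers, Subgroup.orderOf_coe, hdp]
      have h1 := huniqH _ (Subgroup.zpowers_le.2 d.2.1) hDc
      have h2 := huniqH (cj g⁻¹ (Subgroup.zpowers (d : G))) (cj_le_iff.2 fun x hx => by
        simpa [mul_assoc] using mem_cj.1 ((Subgroup.zpowers_le.2 d.2.2 : _ ≤ cj g H) hx))
        (by rw [card_cj, hDc])
      rw [h1] at h2
      have := Subgroup.inv_mem _ (mem_nz_of_cj_eq h2)
      rw [inv_inv] at this
      exact hg this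

end Cfsg.Agent.S3057
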