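import Cfsg.Statements.S3059
import Mathlib
import Cfsg.Agent.Lib.LocalP2.StronglyP
-- import your own Cfsg.Agent.* helpers here

set_option autoImplicit false
open Cfsg Cfsg.Agent Cfsg.Agent.Lib.LocalChar
open scoped Pointwise

namespace Cfsg.Agent.S3059

/-- Let p be a prime and H a strongly p-embedded subgroup of the finite group G in the classical sense: H is proper, p divides the order of H, and H ∩ gHg⁻¹ has order prime to p for every g outside H. Then for every normal subgroup N of G of order divisible by p, G = H · O^p(N), where O^p(N) is the subgroup generated by the elements of N of order prime to p. -/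
theorem result {G : Type*} [Group G] [Finite G]
    (p : ℕ) [Fact p.Prime] (H : Subgroup G) (hH : H ≠ ⊤) (hpH : p ∣ Nat.card H)
    (hse : ∀ g : G, g ∉ H → ¬ p ∣ Nat.card ↥(H ⊓ H.map (MulAut.conj g).toMonoidHom))
    (N : Subgroup G) [N.Normal] (hN : p ∣ Nat.card N) :
    H ⊔ Subgroup.closure {g : G | g ∈ N ∧ (orderOf g).Coprime p} = ⊤ := by
  obtain ⟨P, hPH, -⟩ := Lib.LocalP2.exists_sylow_le_of_common hse hpH
  have hD : IsSylowIn p ((P : Subgroup G) ⊓ N) N :=
    (IsSylowIn.of_le P le_top).inf le_top (by rw [Subgroup.normalizer_eq_top])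
  have hDne : (P : Subgroup G) ⊓ N ≠ ⊥ := fun h => hD.2.2 (by rwa [h, Subgroup.relIndex_bot_left])
  have hND := Lib.LocalP2.normalizer_le_of_common hse hD.2.1 hDne (inf_le_left.trans hPH)
  rw [← resOf_eq_closure (p := p) N, eq_top_iff]
  intro g _
  obtain ⟨n, hn, m, hm, rfl⟩ := hD.frattini (H := ⊤) le_top
    (by rw [Subgroup.normalizer_eq_top]) (Subgroup.mem_top g)
  refine Subgroup.mul_mem _ ?_ (Subgroup.mem_sup_left (hND hm.2))
  rw [← hD.resOf_sup] at hn
  exact sup_le (le_sup_right) ((inf_le_left.trans hPH).trans le_sup_left) hn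

end Cfsg.Agent.S3059
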