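import Cfsg.Statements.S3058
import Mathlib
import Cfsg.Agent.S3056
import Cfsg.Agent.S3059
import Cfsg.Agent.Lib.LocalP2.CoatomFixed
import Cfsg.Agent.Lib.LocalChar.YFactor
-- import your own Cfsg.Agent.* helpers here

set_option autoImplicit false
open Cfsg Cfsg.Agent Cfsg.Agent.Lib.LocalChar
open scoped commutatorElement

namespace Cfsg.Agent.S3058

/-- Let p be a prime and G a finite group whose Sylow p-subgroups are not chain-connected through nontrivial intersections (so G has a strongly p-embedded subgroup). If N and M are normal subgroups of G whose orders are both divisible by p, then the order of N ∩ M is divisible by p. Consequently, among the normal subgroups of G whose order is divisible by p there is a smallest one (the intersection of all of them). -/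
theorem result {G : Type*} [Group G] [Finite G]
    (p : ℕ) [Fact p.Prime] (hG : ¬ Cfsg.IsSylowChainConnected p G)
    (N M : Subgroup G) [N.Normal] [M.Normal] (hN : p ∣ Nat.card N) (hM : p ∣ Nat.card M) :
    p ∣ Nat.card ↥(N ⊓ M) := by
  by_contra hcon
  obtain ⟨H, hH, hpH, hse⟩ := (Cfsg.Agent.S3056.result p).1 hG
  obtain ⟨P, hPH, -⟩ := Lib.LocalP2.exists_sylow_le_of_common hse hpH
  set K := N ⊓ M with hK
  have hKp : (Nat.card K).Coprime p := coprime_of_not_dvd hcon
  have hNMK : ⁅N, M⁆ ≤ K :=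
    le_inf (Subgroup.commutator_le_left N M) (Subgroup.commutator_le_right N M)
  have hKP : ∀ x ∈ K, x ∈ (P : Subgroup G) → x = 1 := fun x hx hxP =>
    eq_one_of_isPGroup_of_coprime P.isPGroup' hxP
      (hKp.coprime_dvd_left (Subgroup.orderOf_dvd_natCard K hx))
  have hpt : ∀ L : Subgroup G, L.Normal → p ∣ Nat.card L →
      IsSylowIn p ((P : Subgroup G) ⊓ L) L ∧ ∃ a ∈ (P : Subgroup G) ⊓ L, orderOf a = p := by
    intro L hL hpL
    have hs : IsSylowIn p ((P : Subgroup G) ⊓ L) L :=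
      (IsSylowIn.of_le P le_top).inf le_top (by rw [Subgroup.normalizer_eq_top])
    refine ⟨hs, ?_⟩
    have hd : p ∣ Nat.card ↥((P : Subgroup G) ⊓ L) := by
      rcases hs.2.1.card_eq_or_dvd with h | h
      · exact absurd (by rwa [Subgroup.eq_bot_of_card_eq _ h, Subgroup.relIndex_bot_left]) hs.2.2
      · exact h
    obtain ⟨a, ha⟩ := exists_prime_orderOf_dvd_card' p hd
    exact ⟨a, a.2, by rwa [Subgroup.orderOf_coe]⟩
  obtain ⟨-, a, ha, hap⟩ := hpt N inferInstance hN
  obtain ⟨hD, b, hb, hbp⟩ := hpt M inferInstance hM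
  have hcomm : ∀ x ∈ (P : Subgroup G) ⊓ N, ∀ y ∈ (P : Subgroup G) ⊓ M, x * y = y * x := by
    intro x hx y hy
    have h1 := hKP ⁅x, y⁆ (hNMK (Subgroup.commutator_mem_commutator hx.2 hy.2))
      ((P : Subgroup G).mul_mem ((P : Subgroup G).mul_mem ((P : Subgroup G).mul_mem hx.1 hy.1)
        ((P : Subgroup G).inv_mem hx.1)) ((P : Subgroup G).inv_mem hy.1))
    rwa [commutatorElement_def, mul_inv_eq_one, mul_inv_eq_iff_eq_mul] at h1
  -- `K` is generated by centralisers of elements of order `p`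
  set A := Subgroup.zpowers a
  set B := Subgroup.zpowers b
  have hab : A ⊓ B = ⊥ := by
    rw [eq_bot_iff]
    intro x hx
    exact Subgroup.mem_bot.2 (hKP x ⟨Subgroup.zpowers_le.2 ha.2 hx.1, Subgroup.zpowers_le.2 hb.2 hx.2⟩
      (Subgroup.zpowers_le.2 ha.1 hx.1))
  have hc : ∀ x ∈ A, ∀ y ∈ B, x * y = y * x := fun x hx y hy =>
    hcomm x (Subgroup.zpowers_le.2 ha hx) y (Subgroup.zpowers_le.2 hb hy)
  have hEcard : Nat.card ↥(A ⊔ B) = p ^ 2 := by
    rw [Lib.LocalP2.card_sup_of_inf_bot A B hc hab, Nat.card_zpowers, Nat.card_zpowers, hap, hbp, sq]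
  have hEP : A ⊔ B ≤ (P : Subgroup G) := sup_le (Subgroup.zpowers_le.2 ha.1) (Subgroup.zpowers_le.2 hb.1)
  have hab' : Commute a b := hc a (Subgroup.mem_zpowers _) b (Subgroup.mem_zpowers _)
  have hEform : ∀ x ∈ A ⊔ B, ∃ i j : ℤ, x = a ^ i * b ^ j := by
    intro x hx
    obtain ⟨u, ⟨i, rfl⟩, v, ⟨j, rfl⟩, rfl⟩ :=
      (mem_sup_iff_of_nz' (A := A) (B := B) (fun y hy => mem_nz_of_cj_le (cj_le_iff.2 fun x hx => by
        rw [← hc x hx y hy, mul_inv_cancel_right]; exact hx))).1 hx
    exact ⟨i, j, rfl⟩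
  have hEc : ∀ x ∈ A ⊔ B, ∀ y ∈ A ⊔ B, x * y = y * x := by
    intro x hx y hy
    obtain ⟨i, j, rfl⟩ := hEform x hx
    obtain ⟨k, l, rfl⟩ := hEform y hy
    exact ((((Commute.refl a).zpow_zpow i k).mul_right (hab'.zpow_zpow i l)).mul_left
      ((hab'.symm.zpow_zpow j k).mul_right ((Commute.refl b).zpow_zpow j l))).eq
  have hEexp : ∀ x ∈ A ⊔ B, x ^ p = 1 := by
    intro x hx
    obtain ⟨i, j, rfl⟩ := hEform x hx
    have h1 : a ^ p = 1 := hap ▸ pow_orderOf_eq_one a
    have h2 : b ^ p = 1 := hbp ▸ pow_orderOf_eq_one b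
    rw [(hab'.zpow_zpow i j).mul_pow, ← zpow_natCast, ← zpow_natCast, ← zpow_mul, ← zpow_mul,
      mul_comm i, mul_comm j, zpow_mul, zpow_mul, zpow_natCast, zpow_natCast, h1, h2]
    simp
  have hKH : K ≤ H := by
    rw [← Lib.Coprime.fixGen_eq_of_elementary (B := A ⊔ B) (K := K) Fact.out hEc hEexp hEcard
      (by rw [hK, Subgroup.normalizer_eq_top]; exact le_top) (hEcard ▸ hKp.symm.pow_left 2)]
    refine iSup₂_le fun e he => inf_le_right.trans ?_
    rw [← Subgroup.centralizer_closure, ← Subgroup.zpowers_eq_closure]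
    exact (Subgroup.centralizer_le_normalizer _).trans
      (Lib.LocalP2.normalizer_le_of_common hse (P.isPGroup'.to_le (Subgroup.zpowers_le.2 (hEP he.1)))
        (by simpa [Subgroup.zpowers_eq_bot] using he.2) (Subgroup.zpowers_le.2 (hPH (hEP he.1))))
  set D := (P : Subgroup G) ⊓ M with hDdef
  have hDne : D ≠ ⊥ := fun h => by
    have hb1 : b = 1 := Subgroup.mem_bot.1 (h ▸ hb)
    rw [hb1, orderOf_one] at hbp
    exact (Fact.out : p.Prime).one_lt.ne hbp
  have hNH : N ≤ H := by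
    intro n hn
    have hKn : K ⊔ D ≤ M := sup_le inf_le_right inf_le_right
    have hDn : cj n D ≤ K ⊔ D := cj_le_iff.2 fun d hd => by
      rw [show n * d * n⁻¹ = ⁅n, d⁆ * d by rw [commutatorElement_def]; group]
      exact Subgroup.mul_mem_sup (hNMK (Subgroup.commutator_mem_commutator hn hd.2)) hd
    have hDs : IsSylowIn p D (K ⊔ D) := hD.mono le_sup_right hKn
    obtain ⟨x, hx, hle⟩ := hDs.conj_le (isPGroup_cj (g := n) hD.2.1) hDn
    rw [cj_cj] at hle
    have hxn : x * n ∈ H := Lib.LocalP2.normalizer_le_of_common hse hD.2.1 hDne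
      (inf_le_left.trans hPH) (mem_nz_of_cj_le hle)
    have hxH : x ∈ H := sup_le hKH (inf_le_left.trans hPH) hx
    simpa using H.mul_mem (H.inv_mem hxH) hxn
  have htop := Cfsg.Agent.S3059.result p H hH hpH hse N hN
  exact hH (eq_top_iff.2 (htop.ge.trans (sup_le le_rfl ((Subgroup.closure_le _).2 fun g hg => hNH hg.1))))

end Cfsg.Agent.S3058
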