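import Cfsg.Statements.S3060
import Mathlib
import Cfsg.Agent.Lib.LocalP2.DStar
import Cfsg.Agent.Lib.LocalP2.ChermakDelgado
import Cfsg.Agent.Lib.LocalChar.Core
-- import your own Cfsg.Agent.* helpers here

set_option autoImplicit false
open Cfsg Cfsg.Agent.Lib.LocalP2 Cfsg.Agent.Lib.LocalChar
open scoped commutatorElement Pointwise

namespace Cfsg.Agent.S3060

/-- The D*-Theorem. For a finite p-group S let D*(S) be the subgroup generated by the abelian subgroups A of S such that every x ∈ S with ⟨A, x⟩ of nilpotency class at most two centralizes A. Let p be an odd prime and H a finite p-stable group with Sylow p-subgroup S. Here H is p-stable in the following sense: the largest normal p-subgroup O_p(H) contains its centralizer in H, and for every normal p-subgroup P of H, every element acting quadratically on P has image in O_p(H/C_H(P)). Then D*(S) is a normal subgroup of H. -/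
theorem result {G : Type*} [Group G] [Finite G] {p : ℕ} [Fact p.Prime] (hp : p ≠ 2)
    (hc : Subgroup.centralizer (Cfsg.pCore p G : Set G) ≤ Cfsg.pCore p G)
    (hst : ∀ (P : Subgroup G) [P.Normal], IsPGroup p P → Cfsg.IsPStableOn p P) (S : Sylow p G) :
    (Cfsg.dStarOf (S : Subgroup G)).Normal := by
  set Q := Cfsg.pCore p G with hQdef
  have hQn : Q.Normal := pCore_normal p G
  have hQp : IsPGroup p Q := pCore_isPGroup
  have hQS : Q ≤ (S : Subgroup G) := pCore_le_sylow S
  set D := Cfsg.dStarOf (S : Subgroup G) with hDdef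
  have hDS : D ≤ (S : Subgroup G) := Subgroup.map_subtype_le _
  have hDmem := dStar_mem (S := ↥(S : Subgroup G)) S.2
  have hDsub : D.subgroupOf (S : Subgroup G) = Cfsg.dStar ↥(S : Subgroup G) :=
    Subgroup.comap_map_eq_self_of_injective (S : Subgroup G).subtype_injective _
  have hDc : ∀ a ∈ D, ∀ b ∈ D, a * b = b * a := by
    rintro _ ⟨a, ha, rfl⟩ _ ⟨b, hb, rfl⟩
    exact congrArg (fun t : Cfsg.dStar ↥(S : Subgroup G) => ((t : ↥(S : Subgroup G)) : G))
      (hDmem.1.is_comm.comm (⟨a, ha⟩ : Cfsg.dStar ↥(S : Subgroup G)) ⟨b, hb⟩)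
  have hDn : ∀ s ∈ (S : Subgroup G), ∀ d ∈ D, s * d * s⁻¹ ∈ D := by
    rintro s hs _ ⟨d, hd, rfl⟩
    exact ⟨_, (dStar_normal (S := ↥(S : Subgroup G))).conj_mem d hd ⟨s, hs⟩, rfl⟩
  -- quadratic action, elementwise
  have toQuad : ∀ (V : Subgroup G), V.Normal → ∀ a : G,
      (∀ v ∈ V, a * (a * v * a⁻¹ * v⁻¹) = (a * v * a⁻¹ * v⁻¹) * a) →
      ⁅⁅V, Subgroup.zpowers a⁆, Subgroup.zpowers a⁆ = ⊥ := by
    intro V hV a h
    rw [Subgroup.commutator_eq_bot_iff_le_centralizer, Subgroup.le_centralizer_iff, Subgroup.zpowers_le]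
    set W := V ⊓ Subgroup.centralizer {a} with hW
    have hW' : ⁅V, Subgroup.zpowers a⁆ ≤ W := by
      refine Subgroup.commutator_le.2 fun v hv y hy => ?_
      have hmem : ∀ y ∈ Subgroup.zpowers a, y * v * y⁻¹ * v⁻¹ ∈ W := by
        intro y hy
        rw [Subgroup.zpowers_eq_closure] at hy
        induction hy using Subgroup.closure_induction with
        | mem y hy =>
          rw [Set.mem_singleton_iff] at hy; subst hy
          exact ⟨V.mul_mem (hV.conj_mem v hv _) (V.inv_mem hv),
            Subgroup.mem_centralizer_singleton_iff.2 (h v hv).symm⟩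
        | one => simp
        | mul y z hy hz ihy ihz =>
          rw [← Subgroup.zpowers_eq_closure] at hy
          have hyW : Commute y (z * v * z⁻¹ * v⁻¹) := by
            obtain ⟨k, rfl⟩ := Subgroup.mem_zpowers_iff.1 hy
            exact (Commute.zpow_right (Subgroup.mem_centralizer_singleton_iff.1 ihz.2) k).symm
          have : y * z * v * (y * z)⁻¹ * v⁻¹ = (z * v * z⁻¹ * v⁻¹) * (y * v * y⁻¹ * v⁻¹) := by
            calc y * z * v * (y * z)⁻¹ * v⁻¹
                = (y * (z * v * z⁻¹ * v⁻¹) * y⁻¹) * (y * v * y⁻¹ * v⁻¹) := by group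
              _ = _ := by rw [hyW.eq, mul_inv_cancel_right]
          rw [this]; exact W.mul_mem ihz ihy
        | inv y hy ihy =>
          rw [← Subgroup.zpowers_eq_closure] at hy
          have hyW : Commute y (y * v * y⁻¹ * v⁻¹)⁻¹ := by
            obtain ⟨k, rfl⟩ := Subgroup.mem_zpowers_iff.1 hy
            exact ((Commute.zpow_right (Subgroup.mem_centralizer_singleton_iff.1 ihy.2) k).symm).inv_right
          have : y⁻¹ * v * y⁻¹⁻¹ * v⁻¹ = y⁻¹ * (y * v * y⁻¹ * v⁻¹)⁻¹ * y := by group
          rw [this, mul_assoc, ← hyW.eq, inv_mul_cancel_left]; exact W.inv_mem ihy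
      have := W.inv_mem (hmem y hy)
      simpa [commutatorElement_def, mul_assoc] using this
    exact Subgroup.mem_centralizer_iff.2 fun w hw =>
      Subgroup.mem_centralizer_singleton_iff.1 (hW' hw).2
  -- `D` lies in the p-core
  have hDQ : D ≤ Q := by
    intro a ha
    have hq := toQuad Q hQn a fun q hq => by
      have h1 : a * q * a⁻¹ * q⁻¹ ∈ D := by
        have := D.mul_mem ha (hDn q (hQS hq) a⁻¹ (D.inv_mem ha))
        simpa [mul_assoc] using this
      exact hDc a ha _ h1
    have h := hst Q hQp a hq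
    have hR : (Subgroup.comap (QuotientGroup.mk' (Subgroup.centralizer (Q : Set G)))
        (Cfsg.pCore p (G ⧸ Subgroup.centralizer (Q : Set G)))) ≤ Q := by
      refine le_pCore ((pCore_normal p _).comap _) ?_
      exact pCore_isPGroup.comap_of_ker_isPGroup _ (by rw [QuotientGroup.ker_mk']; exact hQp.to_le hc)
    exact hR h
  -- all conjugates of `D` lie in `D*(Q)`
  have hDQ' : D.subgroupOf Q ≤ Cfsg.dStar ↥Q := by
    have h1 := member_subgroupOf (M := Q.subgroupOf (S : Subgroup G)) hDmem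
      (hDsub ▸ Subgroup.comap_mono hDQ)
    have h2 := member_map (Subgroup.subgroupOfEquivOfLe hQS) h1
    intro d hd
    exact le_sSup h2 ⟨⟨⟨(d : G), hQS d.2⟩, d.2⟩, by rw [← hDsub]; exact hd, rfl⟩
  set W := Subgroup.normalClosure (D : Set G) with hWdef
  have hWn : W.Normal := Subgroup.normalClosure_normal
  have hWQ : W ≤ (Cfsg.dStar ↥Q).map Q.subtype := by
    have : (Cfsg.dStar ↥Q).Characteristic := Subgroup.characteristic_iff_map_le.2 fun e => dStar_map_le e
    exact Subgroup.normalClosure_le_normal fun d hd => ⟨⟨d, hDQ hd⟩, hDQ' hd, rfl⟩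
  have hWc : ∀ a ∈ W, ∀ b ∈ W, a * b = b * a := by
    intro a ha b hb
    obtain ⟨x, hx, rfl⟩ := hWQ ha
    obtain ⟨y, hy, rfl⟩ := hWQ hb
    exact congrArg (fun t : Cfsg.dStar ↥Q => ((t : ↥Q) : G))
      ((dStar_commutative (S := ↥Q) hQp).is_comm.comm (⟨x, hx⟩ : Cfsg.dStar ↥Q) ⟨y, hy⟩)
  have hWp : IsPGroup p W := hQp.to_le (hWQ.trans (Subgroup.map_subtype_le _))
  have hWS : W ≤ (S : Subgroup G) := (hWQ.trans (Subgroup.map_subtype_le _)).trans hQS
  have hDW : D ≤ W := Subgroup.le_normalClosure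
  -- an element acting quadratically on `W` centralizes `W`
  have hkey : ∀ x ∈ (S : Subgroup G), (∀ w ∈ W, x * (x * w * x⁻¹ * w⁻¹) = (x * w * x⁻¹ * w⁻¹) * x) →
      ∀ w ∈ W, w * x = x * w := by
    intro x hxS hxq
    set C := Subgroup.centralizer (W : Set G) with hCdef
    have hCn : C.Normal := Subgroup.normal_centralizer
    have hx := hst W hWp x (toQuad W hWn x hxq)
    set R := Subgroup.comap (QuotientGroup.mk' C) (Cfsg.pCore p (G ⧸ C)) with hRdef
    have hRn : R.Normal := (pCore_normal p _).comap _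
    have hCR : C ≤ R := fun c hc => by
      rw [hRdef, Subgroup.mem_comap, show (QuotientGroup.mk' C) c = 1 from (QuotientGroup.eq_one_iff c).2 hc]
      exact one_mem _
    set SR := (S : Subgroup G) ⊓ R with hSR
    have hdec : R ≤ SR ⊔ C := by
      rw [← Subgroup.relIndex_eq_one]
      have h1 : ¬ p ∣ SR.relIndex R := by
        rw [hSR, Subgroup.inf_relIndex_right]
        intro hd
        have hcard := card_eq_card_inf_mul_relIndex (S : Subgroup G) R
        have hsup := card_sup_eq (S : Subgroup G) R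
        have hle := Subgroup.relIndex_sup_right (H := (S : Subgroup G)) (K := R)
        have e1 : Nat.card ↥((S : Subgroup G) ⊔ R) = Nat.card ↥R * R.relIndex ((S : Subgroup G) ⊔ R) := by
          rw [sup_comm]; exact card_sup_eq R (S : Subgroup G)
        have e2 := card_eq_card_inf_mul_relIndex R (S : Subgroup G)
        rw [inf_comm] at e2
        have e3 : (S : Subgroup G).relIndex ((S : Subgroup G) ⊔ R) = (S : Subgroup G).relIndex R := by
          rw [hle] at e1
          have h5 : Nat.card ↥((S : Subgroup G) ⊓ R) * R.relIndex (S : Subgroup G) *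
              (S : Subgroup G).relIndex ((S : Subgroup G) ⊔ R) =
            Nat.card ↥((S : Subgroup G) ⊓ R) * R.relIndex (S : Subgroup G) * (S : Subgroup G).relIndex R := by
            calc _ = Nat.card ↥(S : Subgroup G) * (S : Subgroup G).relIndex ((S : Subgroup G) ⊔ R) := by rw [← e2]
              _ = Nat.card ↥R * R.relIndex (S : Subgroup G) := by rw [← hsup, e1]
              _ = _ := by rw [hcard]; ring
          exact Nat.eq_of_mul_eq_mul_left (e2 ▸ Nat.card_pos) h5
        exact S.not_dvd_index (hd.trans (e3 ▸ Subgroup.relIndex_dvd_index_of_le le_sup_left))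
      have h2 : ∃ k, C.relIndex R = p ^ k := by
        obtain ⟨k, hk⟩ := IsPGroup.iff_card.1 (pCore_isPGroup (p := p) (G := G ⧸ C))
        refine ⟨k, ?_⟩
        rw [← hk, ← Subgroup.map_comap_eq_self_of_surjective (QuotientGroup.mk'_surjective C)
          (Cfsg.pCore p (G ⧸ C)), ← hRdef, ← Subgroup.relIndex_ker, QuotientGroup.ker_mk']
      obtain ⟨k, hk⟩ := h2
      have d1 : (SR ⊔ C).relIndex R ∣ p ^ k := hk ▸ Subgroup.relIndex_dvd_of_le_left R le_sup_right
      have d2 : (SR ⊔ C).relIndex R ∣ SR.relIndex R := Subgroup.relIndex_dvd_of_le_left R le_sup_left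
      exact Nat.eq_one_of_dvd_coprimes
        (Nat.Coprime.pow_left k ((Nat.Prime.coprime_iff_not_dvd Fact.out).2 h1)) d1 d2
    have hCmem : ∀ c ∈ C, ∀ u ∈ W, c * u * c⁻¹ = u := fun c hc u hu => by
      rw [← Subgroup.mem_centralizer_iff.1 hc u hu, mul_inv_cancel_right]
    suffices hD' : D ≤ Subgroup.centralizer (Set.range fun g : G => g * x * g⁻¹) by
      have hN : (Subgroup.centralizer (Set.range fun g : G => g * x * g⁻¹)).Normal := by
        refine ⟨fun c hc h => Subgroup.mem_centralizer_iff.2 ?_⟩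
        rintro _ ⟨g, rfl⟩
        have := Subgroup.mem_centralizer_iff.1 hc _ ⟨h⁻¹ * g, rfl⟩
        calc (g * x * g⁻¹) * (h * c * h⁻¹) = h * (((h⁻¹ * g) * x * (h⁻¹ * g)⁻¹) * c) * h⁻¹ := by group
          _ = h * (c * ((h⁻¹ * g) * x * (h⁻¹ * g)⁻¹)) * h⁻¹ := by rw [this]
          _ = _ := by group
      intro w hw
      have := Subgroup.mem_centralizer_iff.1 (Subgroup.normalClosure_le_normal hD' hw) x ⟨1, by simp⟩
      exact this.symm
    intro d hd
    refine Subgroup.mem_centralizer_iff.2 ?_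
    rintro _ ⟨g, rfl⟩
    have hyR : g * x * g⁻¹ ∈ R := hRn.conj_mem x hx g
    have hyq : ∀ w ∈ W, (g * x * g⁻¹) * ((g * x * g⁻¹) * w * (g * x * g⁻¹)⁻¹ * w⁻¹) =
        ((g * x * g⁻¹) * w * (g * x * g⁻¹)⁻¹ * w⁻¹) * (g * x * g⁻¹) := by
      intro w hw
      have h := hxq _ (hWn.conj_mem w hw g⁻¹)
      have h' := congrArg (fun t => g * t * g⁻¹) h
      simp only [inv_inv] at h'
      calc _ = g * (x * (x * (g⁻¹ * w * g) * x⁻¹ * (g⁻¹ * w * g)⁻¹)) * g⁻¹ := by group
        _ = _ := h'
        _ = _ := by group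
    have hmem := hdec hyR
    rw [← SetLike.mem_coe, Subgroup.coe_mul_of_left_le_normalizer_right SR C
      (by rw [Subgroup.normalizer_eq_top]; exact le_top)] at hmem
    obtain ⟨s, hs, c, hc', hsc⟩ := hmem
    have hact : ∀ u ∈ W, (g * x * g⁻¹) * u * (g * x * g⁻¹)⁻¹ = s * u * s⁻¹ := by
      intro u hu
      rw [← hsc]
      calc s * c * u * (s * c)⁻¹ = s * (c * u * c⁻¹) * s⁻¹ := by group
        _ = _ := by rw [hCmem c hc' u hu]
    have hsd : d * s = s * d := by
      have h := member_apply hDmem (x := (⟨s, hs.1⟩ : ↥(S : Subgroup G)))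
        (Z := (W ⊓ Subgroup.centralizer {s}).subgroupOf (S : Subgroup G)) ?_ ?_ ?_ ⟨d, hDS hd⟩
        (by rw [← hDsub]; exact hd)
      · exact congrArg Subtype.val h
      · intro a ha
        rw [← hDsub] at ha
        have haW : (a : G) ∈ W := hDW ha
        refine ⟨W.mul_mem (hWn.conj_mem _ haW _) (W.inv_mem haW), Subgroup.mem_centralizer_singleton_iff.2 ?_⟩
        have h := hyq _ haW
        rw [hact _ haW] at h
        have hu : s * (a : G) * s⁻¹ * (a : G)⁻¹ ∈ W := W.mul_mem (hWn.conj_mem _ haW _) (W.inv_mem haW)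
        have h2 : (g * x * g⁻¹) * (s * (a : G) * s⁻¹ * (a : G)⁻¹) * (g * x * g⁻¹)⁻¹ =
            s * (a : G) * s⁻¹ * (a : G)⁻¹ := by
          rw [h, mul_inv_cancel_right]
        rw [hact _ hu] at h2
        exact (mul_inv_eq_iff_eq_mul.1 h2).symm
      · intro z hz
        exact Subtype.ext (Subgroup.mem_centralizer_singleton_iff.1 hz.2).symm
      · intro a ha z hz
        rw [← hDsub] at ha
        exact Subtype.ext (hWc _ (hDW ha) _ hz.1)
    have h3 : (g * x * g⁻¹) * d * (g * x * g⁻¹)⁻¹ = d := by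
      rw [hact d (hDW hd), ← hsd, mul_inv_cancel_right]
    exact mul_inv_eq_iff_eq_mul.1 h3
  have hWD : W ≤ D := by
    have hmem : W.subgroupOf (S : Subgroup G) ∈ Cfsg.dStarFamily ↥(S : Subgroup G) := by
      refine ⟨⟨⟨fun a b => Subtype.ext (Subtype.ext (hWc _ a.2 _ b.2))⟩⟩, ?_⟩
      rintro ⟨x, hxS⟩ hcl ⟨w, hwS⟩ hw
      apply Subtype.ext
      refine hkey x hxS (fun u hu => ?_) w hw
      set X := W.subgroupOf (S : Subgroup G) ⊔ Subgroup.zpowers (⟨x, hxS⟩ : ↥(S : Subgroup G))
      have hxX : (⟨x, hxS⟩ : ↥(S : Subgroup G)) ∈ X := Subgroup.mem_sup_right (Subgroup.mem_zpowers _)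
      have huX : (⟨u, hWS hu⟩ : ↥(S : Subgroup G)) ∈ X := Subgroup.mem_sup_left hu
      rw [Subgroup.commutator_eq_bot_iff_le_centralizer] at hcl
      have := Subgroup.mem_centralizer_iff.1 (hcl (Subgroup.commutator_mem_commutator hxX huX)) _ hxX
      simpa [commutatorElement_def] using congrArg Subtype.val this
    intro w hw
    exact ⟨⟨w, hWS hw⟩, le_sSup hmem (show w ∈ W from hw), rfl⟩
  exact (le_antisymm hWD hDW) ▸ hWn

end Cfsg.Agent.S3060
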