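import Cfsg.Statements.S3062
import Mathlib
import Cfsg.Agent.Lib.LocalP2.DStar
import Cfsg.Agent.Lib.LocalP2.ChermakDelgado
-- import your own Cfsg.Agent.* helpers here

set_option autoImplicit false
open Cfsg Cfsg.Agent.Lib.LocalP2

namespace Cfsg.Agent.S3062

/-- Let S be a finite p-group, J(S) the subgroup generated by the abelian subgroups of S of largest order and Z(J(S)) its centre. Then Z(S) ≤ D*(S) ≤ Z(J(S)), and every maximal normal abelian subgroup of S contains D*(S). -/
theorem result {S : Type*} [Group S] [Finite S] {p : ℕ} [Fact p.Prime]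
    (hS : IsPGroup p S) :
    Subgroup.center S ≤ Cfsg.dStar S ∧
    Cfsg.dStar S ≤ Cfsg.thompsonSubgroupA S ⊓ Subgroup.centralizer (Cfsg.thompsonSubgroupA S : Set S) ∧
    ∀ A : Subgroup S, A.Normal → IsMulCommutative A →
      (∀ B : Subgroup S, B.Normal → IsMulCommutative B → A ≤ B → B = A) → Cfsg.dStar S ≤ A := by
  have hD := dStar_mem hS
  have hDn : (Cfsg.dStar S).Normal := dStar_normal
  have hnorm : ∀ H : Subgroup S, H ≤ Subgroup.normalizer (Cfsg.dStar S : Set S) := fun H => by
    rw [Subgroup.normalizer_eq_top]; exact le_top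
  have hmaxA : ∀ A ∈ Cfsg.maxAbelianSubgroups S, Cfsg.dStar S ≤ A := by
    suffices h : ∀ (n : ℕ), ∀ A ∈ Cfsg.maxAbelianSubgroups S,
        Nat.card ↥(Cfsg.dStar S) ≤ Nat.card ↥(A ⊓ Cfsg.dStar S) + n → Cfsg.dStar S ≤ A from
      fun A hA => h _ A hA (Nat.le_add_left _ _)
    intro n
    induction n using Nat.strong_induction_on with
    | _ n ih =>
      intro A hA hn
      by_cases hDA : Cfsg.dStar S ≤ Subgroup.normalizer (A : Set S)
      · have h := member_commute_of_normalizes hS hD hA.1 hDA
        intro d hd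
        rw [← centralizer_eq_self_of_maxAbelian hA]
        exact Subgroup.mem_centralizer_iff.2 fun a ha => (h d hd a ha).symm
      · obtain ⟨A', hA'c, hcard, hlt, hA'N, -⟩ :=
          thompson_replacement hS hA.1 (dStar_commutative hS) (hnorm A) hDA
        have hA' : A' ∈ Cfsg.maxAbelianSubgroups S := ⟨hA'c, fun B hB => (hA.2 B hB).trans hcard⟩
        have h1 : Nat.card ↥(A ⊓ Cfsg.dStar S) < Nat.card ↥(A' ⊓ Cfsg.dStar S) := by
          by_contra hge
          exact hlt.ne (eq_of_card hlt.le (not_lt.1 hge))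
        have h2 : Nat.card ↥(A' ⊓ Cfsg.dStar S) ≤ Nat.card ↥(Cfsg.dStar S) :=
          Nat.card_le_card_of_injective _ (Subgroup.inclusion_injective inf_le_right)
        have h3 : Cfsg.dStar S ≤ A' :=
          ih (Nat.card ↥(Cfsg.dStar S) - Nat.card ↥(A' ⊓ Cfsg.dStar S)) (by omega) A' hA' (by omega)
        exact absurd (h3.trans hA'N) hDA
  refine ⟨le_sSup ?_, ?_, ?_⟩
  · refine ⟨inferInstance, fun x _ a ha => ?_⟩
    exact (Subgroup.mem_center_iff.1 ha x).symm
  · refine le_inf ?_ ?_
    · obtain ⟨A, hA⟩ := exists_maxAbelian (S := S)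
      exact (hmaxA A hA).trans (le_sSup hA)
    · rw [Subgroup.le_centralizer_iff]
      refine sSup_le fun A hA => ?_
      rw [Subgroup.le_centralizer_iff]
      exact (hmaxA A hA).trans ((centralizer_eq_self_of_maxAbelian hA).ge)
  · intro A hAn hAc hAmax
    have h := member_commute_of_normalizes hS hD hAc (by rw [Subgroup.normalizer_eq_top]; exact le_top)
    have hc : IsMulCommutative ↥(A ⊔ Cfsg.dStar S) := by
      rw [← Subgroup.le_centralizer_iff_isMulCommutative, centralizer_sup]
      have h' : Cfsg.dStar S ≤ Subgroup.centralizer (A : Set S) := fun d hd =>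
        Subgroup.mem_centralizer_iff.2 fun a ha => (h d hd a ha).symm
      exact sup_le (le_inf (Subgroup.le_centralizer_iff_isMulCommutative.2 hAc)
        (Subgroup.le_centralizer_iff.1 h'))
        (le_inf h' (Subgroup.le_centralizer_iff_isMulCommutative.2 (dStar_commutative hS)))
    have := hAmax _ (Subgroup.sup_normal A (Cfsg.dStar S)) hc le_sup_left
    exact this ▸ le_sup_right

end Cfsg.Agent.S3062
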