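import Cfsg.Statements.S3063
import Mathlib

set_option autoImplicit false
open Cfsg

namespace Cfsg.Agent.S3063


/-- A weak replacement Theorem for metabelian p-groups: let S be a finite p-group whose derived subgroup is abelian and A an abelian subgroup of S of largest possible order. Then the normal closure of A in S contains an abelian subgroup B of the same order as A that is normal in S. -/
theorem result {S : Type*} [Group S] [Finite S] {p : ℕ} [Fact p.Prime]
    (hS : IsPGroup p S) (hmeta : IsMulCommutative ↥(commutator S))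
    (A : Subgroup S) (hA : A ∈ Cfsg.maxAbelianSubgroups S) :
    ∃ B ∈ Cfsg.maxAbelianSubgroups S, B.Normal ∧ B ≤ Subgroup.normalClosure (A : Set S) := by
  classical
  set M := Subgroup.normalClosure (A : Set S) with hM
  obtain ⟨B, ⟨hB, hBM⟩, hBmax⟩ := (Set.toFinite {B : Subgroup S | B ∈ Cfsg.maxAbelianSubgroups S ∧ B ≤ M}).exists_maximalFor
    (fun B : Subgroup S => Nat.card (B ⊓ commutator S : Subgroup S)) _ ⟨A, hA, Subgroup.le_normalClosure⟩
  refine ⟨B, hB, ?_, hBM⟩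
  rw [← Subgroup.normalizer_eq_top_iff]
  by_contra hne
  haveI := hS.isNilpotent
  set N := Subgroup.normalizer (B : Set S) with hN
  obtain ⟨x, hxN, hx⟩ := SetLike.exists_of_lt (Group.normalizerCondition_of_isNilpotent N (lt_top_iff_ne_top.2 hne))
  have hconjN : ∀ n ∈ N, x * n * x⁻¹ ∈ N := fun n hn => (Subgroup.mem_normalizer_iff.1 hxN n).1 hn
  have hconjN' : ∀ n ∈ N, x⁻¹ * n * x ∈ N := fun n hn => (Subgroup.mem_normalizer_iff''.1 hxN n).1 hn
  set B' := B.map (MulAut.conj x).toMonoidHom with hB'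
  have hBcomm : ∀ a ∈ B, ∀ b ∈ B, a * b = b * a := fun a ha b hb => by
    haveI := hB.1
    exact congrArg Subtype.val (mul_comm' (⟨a, ha⟩ : B) ⟨b, hb⟩)
  have hB'comm : ∀ a ∈ B', ∀ b ∈ B', a * b = b * a := by
    rintro _ ⟨a, ha, rfl⟩ _ ⟨b, hb, rfl⟩
    rw [← map_mul, hBcomm a ha b hb, map_mul]
  set D := B ⊓ B' with hD
  -- `D` is central in the product
  set c : S → S := fun a => x * a * x⁻¹ * a⁻¹ with hc
  set T : Set S := ((B ⊓ commutator S : Subgroup S) : Set S) ∪ (D : Set S) ∪ c '' (B : Set S) with hT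
  have hcS : ∀ a, c a ∈ commutator S := fun a => by
    have := Subgroup.commutator_mem_commutator (Subgroup.mem_top x) (Subgroup.mem_top a)
    rw [← commutator_def] at this
    exact this
  have hDc : ∀ d ∈ D, ∀ a ∈ B, d * c a = c a * d := by
    intro d hd a ha
    have h1 : d * (x * a * x⁻¹) = (x * a * x⁻¹) * d := hB'comm d hd.2 _ ⟨a, ha, rfl⟩
    have h2 : d * a⁻¹ = a⁻¹ * d := hBcomm d hd.1 _ (B.inv_mem ha)
    show d * (x * a * x⁻¹ * a⁻¹) = x * a * x⁻¹ * a⁻¹ * d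
    calc d * (x * a * x⁻¹ * a⁻¹) = (d * (x * a * x⁻¹)) * a⁻¹ := by group
      _ = (x * a * x⁻¹) * (d * a⁻¹) := by rw [h1]; group
      _ = _ := by rw [h2]; group
  have hScomm : ∀ a ∈ commutator S, ∀ b ∈ commutator S, a * b = b * a := fun a ha b hb => by
    haveI := hmeta
    exact congrArg Subtype.val (mul_comm' (⟨a, ha⟩ : commutator S) ⟨b, hb⟩)
  have hTcomm : ∀ s ∈ T, ∀ t ∈ T, s * t = t * s := by
    rintro s ((hs | hs) | ⟨a, ha, rfl⟩) t ((ht | ht) | ⟨b, hb, rfl⟩)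
    · exact hBcomm s hs.1 t ht.1
    · exact hBcomm s hs.1 t ht.1
    · exact hScomm s hs.2 _ (hcS b)
    · exact hBcomm s hs.1 t ht.1
    · exact hBcomm s hs.1 t ht.1
    · exact hDc s hs b hb
    · exact hScomm _ (hcS a) t ht.2
    · exact (hDc t ht a ha).symm
    · exact hScomm _ (hcS a) _ (hcS b)
  set E := Subgroup.closure T with hE
  have hEcomm : IsMulCommutative ↥E := Subgroup.isMulCommutative_closure hTcomm
  have hDE : ∀ d ∈ D, d ∈ E := fun d hd => Subgroup.subset_closure (Or.inl (Or.inr hd))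
  have hcE : ∀ a ∈ B, c a ∈ E := fun a ha => Subgroup.subset_closure (Or.inr ⟨a, ha, rfl⟩)
  have hcard : Nat.card B ≤ Nat.card E := by
    have e := Subgroup.card_eq_card_quotient_mul_card_subgroup (D.subgroupOf B)
    rw [Nat.card_congr (Subgroup.subgroupOfEquivOfLe (inf_le_left : D ≤ B)).toEquiv, ← Nat.card_prod] at e
    rw [e]
    let f : (↥B ⧸ D.subgroupOf B) × ↥D → ↥E := fun q => ⟨c ((Quotient.out q.1 : ↥B) : S) * q.2,
      E.mul_mem (hcE _ (Quotient.out q.1 : ↥B).2) (hDE _ q.2.2)⟩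
    refine Nat.card_le_card_of_injective f fun q q' h => ?_
    have h' : c ((Quotient.out q.1 : ↥B) : S) * q.2 = c ((Quotient.out q'.1 : ↥B) : S) * q'.2 := congrArg Subtype.val h
    set a := ((Quotient.out q.1 : ↥B) : S) with ha
    set a₂ := ((Quotient.out q'.1 : ↥B) : S) with ha₂
    have haB : a ∈ B := (Quotient.out q.1 : ↥B).2
    have ha₂B : a₂ ∈ B := (Quotient.out q'.1 : ↥B).2
    have hD2 : a₂⁻¹ * a ∈ D := by
      refine ⟨B.mul_mem (B.inv_mem ha₂B) haB, ?_⟩
      set u := x * a * x⁻¹ with hu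
      set u₂ := x * a₂ * x⁻¹ with hu₂
      have hd : (q.2 : S) * (q'.2 : S)⁻¹ ∈ D := D.mul_mem q.2.2 (D.inv_mem q'.2.2)
      have h1 : u * a⁻¹ * ((q.2 : S) * (q'.2 : S)⁻¹) = u₂ * a₂⁻¹ := by
        rw [← mul_assoc, show u * a⁻¹ * (q.2 : S) = u₂ * a₂⁻¹ * q'.2 from h', mul_inv_cancel_right]
      set e := (q.2 : S) * (q'.2 : S)⁻¹
      have h2 : a⁻¹ * e = e * a⁻¹ := hBcomm _ (B.inv_mem haB) _ hd.1
      have h4 : u₂⁻¹ * u * e = a₂⁻¹ * a := by
        calc u₂⁻¹ * u * e = u₂⁻¹ * (u * (e * a⁻¹)) * a := by group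
          _ = u₂⁻¹ * (u * a⁻¹ * e) * a := by rw [← h2]; group
          _ = _ := by rw [h1]; group
      rw [← h4]
      exact B'.mul_mem (B'.mul_mem (B'.inv_mem ⟨a₂, ha₂B, rfl⟩) ⟨a, haB, rfl⟩) hd.2
    have hq : q.1 = q'.1 := by
      rw [← QuotientGroup.out_eq' q.1, ← QuotientGroup.out_eq' q'.1]
      exact (QuotientGroup.eq.2 (Subgroup.mem_subgroupOf.2 hD2)).symm
    refine Prod.ext hq (Subtype.ext ?_)
    rw [ha, ha₂, hq] at h'
    exact mul_left_cancel h'
  have hEmax : E ∈ Cfsg.maxAbelianSubgroups S := ⟨hEcomm, fun C hC => (hB.2 C hC).trans hcard⟩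
  have hB'M : B' ≤ M := by
    rintro _ ⟨a, ha, rfl⟩
    exact Subgroup.normalClosure_normal.conj_mem a (hBM ha) x
  have hEM : E ≤ M := (Subgroup.closure_le M).2 (by
    rintro s ((hs | hs) | ⟨a, ha, rfl⟩)
    · exact hBM hs.1
    · exact hBM hs.1
    · exact M.mul_mem (hB'M ⟨a, ha, rfl⟩) (M.inv_mem (hBM ha)))
  obtain ⟨a, ha, hxa⟩ : ∃ a ∈ B, x * a * x⁻¹ ∉ B := by
    by_contra hall
    push Not at hall
    exact hx (Subgroup.mem_normalizer_fintype hall)
  have hle : B ⊓ commutator S ≤ E ⊓ commutator S := le_inf (fun s hs => Subgroup.subset_closure (Or.inl (Or.inl hs))) inf_le_right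
  have hlt : Nat.card (B ⊓ commutator S : Subgroup S) < Nat.card (E ⊓ commutator S : Subgroup S) := by
    refine lt_of_le_of_ne (Subgroup.card_le_of_le hle) fun h => hxa ?_
    have := (Subgroup.eq_of_le_of_card_ge hle h.ge).ge (show c a ∈ E ⊓ commutator S from ⟨hcE a ha, hcS a⟩)
    have h2 := B.mul_mem this.1 ha
    simpa [hc, mul_assoc] using h2
  exact absurd (hBmax ⟨hEmax, hEM⟩ hlt.le) (not_le.2 hlt)

end Cfsg.Agent.S3063
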