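import Cfsg.Statements.S3064
import Mathlib
import Cfsg.Agent.Lib.LocalP2.IsolatedCentral
-- import your own Cfsg.Agent.* helpers here

set_option autoImplicit false
open Cfsg Cfsg.Agent Cfsg.Agent.Lib.LocalChar
open scoped Pointwise

namespace Cfsg.Agent.S3064

/-- Let S be a Sylow p-subgroup of the finite group G and x an element of S such that (i) x is the only G-conjugate of x lying in S, and (ii) x centralizes every subgroup of order prime to p that it normalizes. Then x lies in the centre of G. -/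
theorem result {G : Type*} [Group G] [Finite G] {p : ℕ} [Fact p.Prime]
    (S : Sylow p G) (x : G) (hx : x ∈ S)
    (hU : ∀ g : G, g⁻¹ * x * g ∈ S → g⁻¹ * x * g = x)
    (hb : ∀ H : Subgroup G, (Nat.card H).Coprime p → (∀ h ∈ H, x * h * x⁻¹ ∈ H) → ∀ h ∈ H, x * h = h * x) :
    x ∈ Subgroup.center G := by
  obtain ⟨k, hk⟩ := IsPGroup.iff_orderOf.1 S.isPGroup' ⟨x, hx⟩
  rw [Subgroup.orderOf_mk] at hk
  have hxp : ∃ k : ℕ, orderOf x = p ^ k := ⟨k, hk⟩
  refine Lib.LocalP2.central_of_isolated _ G rfl p x hxp (fun g hc => ?_) hb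
  set y := g * x * g⁻¹ with hy
  have hyp : IsPGroup p (Subgroup.zpowers y) := Lib.LocalP2.isPGroup_zpowers_of_orderOf
    ⟨k, by rw [hy, show g * x * g⁻¹ = MulAut.conj g x from rfl, MulEquiv.orderOf_eq, hk]⟩
  have hR : IsPGroup p ↥(Subgroup.zpowers y ⊔ Subgroup.zpowers x) :=
    hyp.to_sup_of_normal_left' (Lib.LocalP2.isPGroup_zpowers_of_orderOf hxp) (by
      rw [Subgroup.zpowers_le]
      refine mem_nz_of_cj_le (cj_le_iff.2 ?_)
      rintro _ ⟨m, rfl⟩
      exact ⟨m, by rw [(hc.zpow_right m).eq, mul_inv_cancel_right]⟩)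
  obtain ⟨T, hT⟩ := hR.exists_le_sylow
  obtain ⟨c, hc'⟩ := MulAction.exists_smul_eq G T S
  have hmem : ∀ u, u ∈ Subgroup.zpowers y ⊔ Subgroup.zpowers x → c * u * c⁻¹ ∈ S :=
    fun u hu => by
      show c * u * c⁻¹ ∈ (S : Subgroup G)
      rw [← hc']; exact ⟨u, hT hu, rfl⟩
  have h1 := hU c⁻¹ (by simpa using hmem x (Subgroup.mem_sup_right (Subgroup.mem_zpowers x)))
  have h2 := hU (g⁻¹ * c⁻¹) (by
    have := hmem y (Subgroup.mem_sup_left (Subgroup.mem_zpowers y))
    simpa [hy, mul_assoc] using this)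
  rw [inv_inv] at h1
  calc y = c⁻¹ * (c * y * c⁻¹) * c := by group
    _ = c⁻¹ * ((g⁻¹ * c⁻¹)⁻¹ * x * (g⁻¹ * c⁻¹)) * c := by rw [hy]; group
    _ = c⁻¹ * (c * x * c⁻¹) * c := by rw [h2, h1]
    _ = x := by group

end Cfsg.Agent.S3064
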