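import Cfsg.Statements.S3069
import Cfsg.Agent.Lib.KInf.Five
import Cfsg.Agent.Lib.KInf.Single
import Cfsg.Agent.Lib.Transfer.Fusion
import Cfsg.Agent.Lib.OddLocal.PStable

set_option autoImplicit false
open Cfsg

namespace Cfsg.Agent.S3069


open scoped commutatorElement in
open Subgroup in
theorem not_le_commutator.{u} {p : ℕ} [Fact p.Prime] (hp : 5 ≤ p) : ∀ (n : ℕ) (G : Type u) [Group G] [Finite G],
    Nat.card G = n → ∀ S : Sylow p G, (S : Subgroup G) ≠ ⊥ →
    (∀ g ∈ normalizer ((S : Subgroup G) : Set G), (orderOf g).Coprime p → g ∈ centralizer ((S : Subgroup G) : Set G)) →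
    ¬ (S : Subgroup G) ≤ commutator G := by
  intro n
  induction n using Nat.strong_induction_on with
  | _ n ih =>
  intro G _ _ hn S hS hN hle
  have hW := Lib.KInf.isCharPFunctor_kInfLower (p := p)
  set K := Cfsg.inducedFunctor Cfsg.kInfLower (S : Subgroup G) with hK
  have hKS : K ≤ (S : Subgroup G) := Lib.KInf.induced_le _
  have hK0 : K ≠ ⊥ := Lib.KInf.induced_ne_bot hW S.2 hS
  set M := normalizer (K : Set G) with hM
  have hSM : (S : Subgroup G) ≤ M :=
    Lib.LocalFusion.le_normalizer_functor (Lib.KInf.isConjugacyFunctor_induced hW) S.2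
  -- quotients by normal subgroups inside `S`
  have quot : ∀ N : Subgroup G, N.Normal → N ≤ (S : Subgroup G) → N ≠ ⊥ → N ≠ (S : Subgroup G) → False := by
    intro N hNn hNS hN0 hNe
    set π := QuotientGroup.mk' N with hπ
    have hπs : Function.Surjective π := QuotientGroup.mk'_surjective N
    have hcm : ((S : Subgroup G).map π).comap π = (S : Subgroup G) := by
      rw [comap_map_eq_self]; rw [hπ, QuotientGroup.ker_mk']; exact hNS
    refine ih (Nat.card (G ⧸ N)) ?_ (G ⧸ N) rfl (S.mapSurjective hπs) ?_ ?_ ?_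
    · rw [← hn, card_eq_card_quotient_mul_card_subgroup N]
      exact lt_mul_of_one_lt_right Nat.card_pos ((one_lt_card_iff_ne_bot N).2 hN0)
    · rw [Sylow.coe_mapSurjective, Ne, Subgroup.map_eq_bot_iff, hπ, QuotientGroup.ker_mk']
      exact fun h => hNe (le_antisymm hNS h)
    · intro y hy hyo
      rw [Sylow.coe_mapSurjective] at hy ⊢
      obtain ⟨g, rfl⟩ := hπs y
      have hg : g ∈ normalizer ((S : Subgroup G) : Set G) := mem_normalizer_iff.2 fun x => by
        have h := mem_normalizer_iff.1 hy (π x)
        simp only [← map_inv, ← map_mul, ← mem_comap, hcm] at h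
        exact h
      obtain ⟨k, hk⟩ := Lib.OddLocal.exists_pow_coprime_orderOf p g (orderOf_pos g).ne'
      obtain ⟨m, hm⟩ := exists_pow_eq_self_of_coprime (x := π g) (n := p ^ k) ((hyo.pow_right k).symm)
      have hc := hN _ (pow_mem hg _) hk
      rw [← hm, ← map_pow, ← map_pow]
      rintro _ ⟨x, hx, rfl⟩
      rw [← map_mul, ← map_mul, pow_mem hc m x hx]
    · rw [Sylow.coe_mapSurjective]
      refine (map_mono hle).trans ?_
      rw [_root_.commutator_def, Subgroup.map_commutator, map_top_of_surjective π hπs, ← _root_.commutator_def]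
  by_cases hMtop : M = ⊤
  · have hKn : K.Normal := normalizer_eq_top_iff.1 hMtop
    by_cases hKe : K = (S : Subgroup G)
    swap
    · exact quot K hKn hKS hK0 hKe
    have hSn : (S : Subgroup G).Normal := hKe ▸ hKn
    by_cases hab : ⁅(S : Subgroup G), (S : Subgroup G)⁆ = ⊥
    · have hSS : (S : Subgroup G) ≤ centralizer ((S : Subgroup G) : Set G) := commutator_eq_bot_iff_le_centralizer.1 hab
      have hC : centralizer ((S : Subgroup G) : Set G) = ⊤ := by
        rw [eq_top_iff, ← Lib.Transfer.pResidual_sup_sylow (p := p) S]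
        refine sup_le ((closure_le _).2 fun g hg => hN g ?_ hg) hSS
        rw [normalizer_eq_top]
        trivial
      obtain ⟨R, hR, hRS⟩ := Lib.Transfer.hasNormalPComplement_of_not_dvd
        (Lib.Transfer.hasNormalPComplement_iff.1
          (Lib.Transfer.hasNormalPComplement_of_normalizer_le_centralizer S (hC ▸ le_top))) S
      have h1 : commutator G ≤ R := by
        rw [_root_.commutator_def, commutator_le]
        intro a _ b _
        obtain ⟨⟨⟨r, hr⟩, ⟨s, hs⟩⟩, rfl⟩ := hRS.2 a
        obtain ⟨⟨⟨r', hr'⟩, ⟨s', hs'⟩⟩, rfl⟩ := hRS.2 b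
        refine (QuotientGroup.eq_one_iff (N := R) _).1 ?_
        show QuotientGroup.mk' R ⁅r * s, r' * s'⁆ = 1
        rw [map_commutatorElement, map_mul, map_mul, show QuotientGroup.mk' R r = 1 from (QuotientGroup.eq_one_iff r).2 hr,
          show QuotientGroup.mk' R r' = 1 from (QuotientGroup.eq_one_iff r').2 hr', one_mul, one_mul,
          ← map_commutatorElement, commutatorElement_eq_one_iff_mul_comm.2 (mem_centralizer_iff.1 (hSS hs') s hs),
          map_one]
      exact hS (le_bot_iff.1 (hRS.disjoint.eq_bot ▸ le_inf (hle.trans h1) le_rfl))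
    · haveI := hSn
      refine quot _ inferInstance ((commutator_le).2 fun a ha b hb =>
        mul_mem (mul_mem (mul_mem ha hb) (inv_mem ha)) (inv_mem hb)) hab fun h => ?_
      haveI : Group.IsNilpotent (S : Subgroup G) := S.2.isNilpotent
      haveI : Nontrivial (S : Subgroup G) := (nontrivial_iff_ne_bot _).2 hS
      refine (Group.IsSolvable.commutator_lt_top_of_nontrivial ↥(S : Subgroup G)).ne ?_
      rw [← map_subtype_commutator] at h
      apply map_injective (S : Subgroup G).subtype_injective
      rw [h, ← MonoidHom.range_eq_map, range_subtype]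
  · have hlt : Nat.card M < n := by
      rw [← hn]
      exact lt_of_le_of_ne (card_le_card_group M) fun e => hMtop (eq_top_of_card_eq _ e)
    refine ih _ hlt M rfl (S.subtype hSM) ?_ ?_ ?_
    · rw [Sylow.coe_subtype, Ne, subgroupOf_eq_bot, disjoint_iff, inf_eq_left.2 hSM]
      exact hS
    · intro g hg hgo x hx
      have hgG : (g : G) ∈ normalizer ((S : Subgroup G) : Set G) := mem_normalizer_fintype fun y hy =>
        (mem_normalizer_iff.1 hg ⟨y, hSM hy⟩).1 hy
      exact Subtype.ext (hN g hgG (by rwa [Subgroup.orderOf_coe]) x hx)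
    · intro x hx
      have h1 := Lib.KInf.ct_kInfLower hp G S (mem_inf.2 ⟨hx, hle hx⟩)
      rw [Lib.KInf.T0_singleton, ← map_subtype_commutator] at h1
      obtain ⟨z, hz, e⟩ := (mem_inf.1 h1).2
      rwa [show x = z from Subtype.ext e.symm]


/-- Let p ≥ 7 be a prime and S a nontrivial Sylow p-subgroup of the finite group G. If N_G(S)/C_G(S) is a p-group (every element of N_G(S) of order prime to p centralizes S), then O^p(G) < G, i.e. G has a nontrivial p-factor group. -/
theorem result {G : Type*} [Group G] [Finite G] {p : ℕ} [Fact p.Prime]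
    (hp : 7 ≤ p) (S : Sylow p G) (hS : (S : Subgroup G) ≠ ⊥)
    (hN : ∀ g ∈ Subgroup.normalizer ((S : Subgroup G) : Set G), (orderOf g).Coprime p →
      g ∈ Subgroup.centralizer ((S : Subgroup G) : Set G)) :
    Cfsg.pResidual p G ≠ ⊤ := by
  intro htop
  refine not_le_commutator (by omega) _ G rfl S hS hN ?_
  have h := Lib.Transfer.pResidual_inf_le_focal S
  rw [htop, top_inf_eq] at h
  exact h.trans (by
    refine (Subgroup.closure_le _).2 ?_
    rintro x hx
    obtain ⟨hx', g, hg, y, rfl⟩ := hx
    exact Subgroup.commutator_mem_commutator (Subgroup.mem_top _) (Subgroup.mem_top _))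

end Cfsg.Agent.S3069
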