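import Cfsg.Statements.S3072
import Cfsg.Agent.Lib.StrongAG.Main

set_option autoImplicit false
open Cfsg Cfsg.Agent.Lib.LocalFusion Cfsg.Agent.Lib.LocalChar Cfsg.Agent.Lib.StrongAG
open scoped commutatorElement

namespace Cfsg.Agent.S3072

/-- A strong form of the Alperin–Goldschmidt fusion Theorem. Let P be a Sylow p-subgroup of the finite group G, A a subset of P containing a nonidentity element, and g an element with g⁻¹Ag ⊆ P. Then g = c·x₁⋯xₙ·y with c ∈ C_G(A), y ∈ N_G(P) and, for each i, an element xᵢ and a subgroup Hᵢ ≤ P such that: N_P(Hᵢ) is a Sylow p-subgroup of N_G(Hᵢ); C_P(Hᵢ) ≤ Hᵢ; O_{p',p}(N_G(Hᵢ)) = Hᵢ·C_G(Hᵢ); the Sylow p-subgroups of N_G(Hᵢ)/Hᵢ are not chain-connected through nontrivial intersections (the quotient has a strongly p-embedded subgroup); xᵢ lies in O^p(Xᵢ), where Xᵢ/Hᵢ is the smallest normal subgroup of N_G(Hᵢ)/Hᵢ of order divisible by p; and (x₁⋯xᵢ₋₁)⁻¹A(x₁⋯xᵢ₋₁) ⊆ Hᵢ. -/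
theorem result {G : Type*} [Group G] [Finite G] {p : ℕ} [Fact p.Prime]
    (P : Sylow p G) (A : Set G) (hA : A ⊆ (P : Set G)) (hA1 : ∃ a ∈ A, a ≠ 1)
    (g : G) (hAg : (fun a => g⁻¹ * a * g) '' A ⊆ (P : Set G)) :
    ∃ (n : ℕ) (H X : Fin n → Subgroup G) (x : Fin n → G) (c y : G),
      c ∈ Subgroup.centralizer A ∧ y ∈ Subgroup.normalizer ((P : Subgroup G) : Set G) ∧
      g = c * (List.ofFn x).prod * y ∧
      ∀ i : Fin n,
        H i ≤ (P : Subgroup G) ∧
        ¬ p ∣ ((P : Subgroup G) ⊓ Subgroup.normalizer (H i : Set G)).relIndex (Subgroup.normalizer (H i : Set G)) ∧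
        (P : Subgroup G) ⊓ Subgroup.centralizer (H i : Set G) ≤ H i ∧
        (Cfsg.pPrimePCore p ↥(Subgroup.normalizer (H i : Set G))).map (Subgroup.normalizer (H i : Set G)).subtype =
          H i ⊔ Subgroup.centralizer (H i : Set G) ∧
        ¬ Cfsg.IsSylowChainConnected p
            (↥(Subgroup.normalizer (H i : Set G)) ⧸ (H i).subgroupOf (Subgroup.normalizer (H i : Set G))) ∧
        (H i ≤ X i ∧ X i ≤ Subgroup.normalizer (H i : Set G) ∧
          ((X i).subgroupOf (Subgroup.normalizer (H i : Set G))).Normal ∧ p ∣ (H i).relIndex (X i) ∧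
          ∀ Y : Subgroup G, H i ≤ Y → Y ≤ Subgroup.normalizer (H i : Set G) →
            (Y.subgroupOf (Subgroup.normalizer (H i : Set G))).Normal → p ∣ (H i).relIndex Y → X i ≤ Y) ∧
        x i ∈ (Cfsg.pResidual p ↥(X i)).map (X i).subtype ∧
        (fun a => (((List.ofFn x).take i.val).prod)⁻¹ * a * ((List.ofFn x).take i.val).prod) '' A ⊆ (H i : Set G) := by
  obtain ⟨c, w, y, hc, hw, hy, rfl⟩ := (decomp_all P (Subgroup.closure A) g
    ((Subgroup.closure_le _).2 hA) (by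
      rw [imgR_eq_imgL, imgL_subgroup, closure_imgL, ← imgR_eq_imgL]
      exact (Subgroup.closure_le _).2 hAg)).mono Subgroup.subset_closure
  obtain ⟨n, H, x, hprod, hG, hsub⟩ := hw.toData
  have hset : ∀ i, Setup P (H i) := fun i => ⟨(hG i).le, (hG i).ne, (hG i).fn⟩
  choose X hX hmin using fun i => (hset i).exists_least (hG i).notGen
  refine ⟨n, H, X, x, c, y, hc, hy, by rw [hprod], fun i => ⟨(hG i).le, (hG i).fn,
    (hset i).centralizer_inf_le (hG i).notGen, (hset i).pPrimePCore_eq (hG i).notGen,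
    (hset i).not_connected (hG i).notGen,
    ⟨(hX i).1, (hX i).2.1, normal_subgroupOf (hX i).2.2.1, (hX i).2.2.2,
      fun Y h1 h2 h3 h4 => hmin i Y ⟨h1, h2, le_nz_pointwise h2 h3, h4⟩⟩,
    mem_resOf ((hG i).mem_big _ (hX i)) (hG i).coprime, hsub i⟩⟩

end Cfsg.Agent.S3072
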