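import Cfsg.Statements.S3075
import Mathlib
import Cfsg.Agent.Lib.LocalChar.Norm
import Cfsg.Agent.Lib.LocalP2.ChermakDelgado
-- import your own Cfsg.Agent.* helpers here

set_option autoImplicit false
open Cfsg Cfsg.Agent Cfsg.Agent.Lib.LocalChar
open scoped commutatorElement

namespace Cfsg.Agent.S3075

/-- Let p be an odd prime and N a finite group with a normal elementary abelian subgroup A of order p² that is its own centralizer in N, such that N/A is isomorphic to SL₂(p) (over any field F with p elements). Then N splits over A: some subgroup U of N satisfies A ∩ U = 1 and AU = N. -/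
theorem result {N : Type*} [Group N] [Finite N] {p : ℕ} [Fact p.Prime] (hp : p ≠ 2)
    (A : Subgroup N) [A.Normal] (hAcomm : IsMulCommutative A) (hAcard : Nat.card A = p ^ 2) (hAexp : Monoid.exponent ↥A = p)
    (hAself : Subgroup.centralizer (A : Set N) = A)
    {F : Type*} [Field F] [Fintype F] (hF : Fintype.card F = p) (e : N ⧸ A ≃* Matrix.SpecialLinearGroup (Fin 2) F) :
    ∃ U : Subgroup N, A ⊓ U = ⊥ ∧ A ⊔ U = ⊤ := by
  have hp' : p.Prime := Fact.out
  have hodd : Odd p := hp'.odd_of_ne_two hp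
  have hAp : ∀ a ∈ A, a ^ p = 1 := fun a ha => by
    simpa using congrArg Subtype.val (show (⟨a, ha⟩ : A) ^ p = 1 from hAexp ▸ Monoid.pow_exponent_eq_one _)
  have hAc : ∀ a ∈ A, ∀ b ∈ A, a * b = b * a := fun a ha b hb => comm_of_isMulCommutative hAcomm ha hb
  have hchar : ((2 : ℕ) : F) ≠ 0 := by
    intro h
    have h2 := CharP.cast_eq_zero_iff F (ringChar F) 2
    haveI := CharP.char_is_prime F (ringChar F)
    obtain ⟨n, hq, hn⟩ := FiniteField.card F (ringChar F)
    have h3 : ringChar F = 2 := (Nat.prime_dvd_prime_iff_eq hq Nat.prime_two).1 (h2.1 h)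
    rw [hF, h3] at hn
    exact hp ((Nat.prime_dvd_prime_iff_eq Nat.prime_two hp').1 (hn ▸ dvd_pow_self 2 n.ne_zero)).symm
  set z : Matrix.SpecialLinearGroup (Fin 2) F := -1
  have hz1 : z ≠ 1 := by
    intro h
    have h' := congrArg (fun g : Matrix.SpecialLinearGroup (Fin 2) F => (g : Matrix (Fin 2) (Fin 2) F) 0 0) h
    simp [z] at h'
    exact hchar (by push_cast; linear_combination -h')
  obtain ⟨t0, ht0⟩ := QuotientGroup.mk'_surjective A (e.symm z)
  set t := t0 ^ p with htdef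
  have hzz : z ^ 2 = 1 := by simp [z]
  have htz : e (QuotientGroup.mk' A t) = z := by
    obtain ⟨k, hk⟩ := hodd
    rw [htdef, map_pow, map_pow, ht0, MulEquiv.apply_symm_apply, hk, pow_succ, pow_mul, hzz, one_pow, one_mul]
  have ht2 : t * t = 1 := by
    have h1 : t0 ^ 2 ∈ A := by
      rw [← QuotientGroup.eq_one_iff]
      apply e.injective
      show e (QuotientGroup.mk' A (t0 ^ 2)) = e 1
      rw [map_pow, map_pow, ht0, MulEquiv.apply_symm_apply, hzz, map_one]
    rw [← sq, htdef, ← pow_mul, mul_comm, pow_mul]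
    exact hAp _ h1
  have htA : t ∉ A := fun h => hz1 (by
    rw [← htz, QuotientGroup.mk'_apply, (QuotientGroup.eq_one_iff t).2 h, map_one])
  have hconj : ∀ n : N, n * t * n⁻¹ * t⁻¹ ∈ A := by
    intro n
    rw [← QuotientGroup.eq_one_iff]
    apply e.injective
    show e (QuotientGroup.mk' A (n * t * n⁻¹ * t⁻¹)) = e 1
    simp only [map_mul, map_inv, htz, map_one]
    simp [z]
  have hAn : ∀ a ∈ A, ∀ g : N, g * a * g⁻¹ ∈ A := fun a ha g => Subgroup.Normal.conj_mem inferInstance a ha g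
  have hfix : ∀ a ∈ A, t * a * t⁻¹ = a → a = 1 := by
    intro a ha hat
    by_contra ha1
    set C := A ⊓ Subgroup.centralizer ({t} : Set N) with hC
    let D : Subgroup N :=
      { carrier := {d | d ∈ A ∧ t * d * t⁻¹ = d⁻¹}
        one_mem' := ⟨A.one_mem, by simp⟩
        mul_mem' := fun {x y} hx hy => ⟨A.mul_mem hx.1 hy.1, by
          rw [mul_inv_rev, show t * (x * y) * t⁻¹ = (t * x * t⁻¹) * (t * y * t⁻¹) by group, hx.2, hy.2,
            hAc _ (A.inv_mem hx.1) _ (A.inv_mem hy.1)]⟩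
        inv_mem' := fun {x} hx => ⟨A.inv_mem hx.1, by
          rw [show t * x⁻¹ * t⁻¹ = (t * x * t⁻¹)⁻¹ by group, hx.2]⟩ }
    have hCD : C ⊓ D = ⊥ := by
      rw [eq_bot_iff]
      intro x hx
      have h1 := hx.2.2
      rw [← Subgroup.mem_centralizer_singleton_iff.1 hx.1.2, mul_inv_cancel_right] at h1
      refine Subgroup.mem_bot.2 (eq_one_of_pow_coprime (p := p) (n := 2)
        (Nat.coprime_two_left.2 hodd) ⟨1, by rw [pow_one]; exact hAp x hx.1.1⟩ ?_)
      rw [sq]; nth_rw 2 [h1]; rw [mul_inv_cancel]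
    have haC : a ∈ C := ⟨ha, Subgroup.mem_centralizer_singleton_iff.2
      (mul_inv_eq_iff_eq_mul.1 hat).symm⟩
    have htt : ∀ x : N, t * (t * x * t⁻¹) * t⁻¹ = x := fun x => by
      rw [show t * (t * x * t⁻¹) * t⁻¹ = (t * t) * x * (t * t)⁻¹ by group, ht2]; simp
    have htinv : ∀ {x : N}, x ∈ A → t * x * t⁻¹ ∈ A := fun hx => hAn _ hx t
    have hDne : D ≠ ⊥ := by
      intro hD
      refine htA (hAself.le (Subgroup.mem_centralizer_iff.2 fun x hx => ?_))
      have h1 : x * (t * x⁻¹ * t⁻¹) ∈ D := ⟨A.mul_mem hx (htinv (A.inv_mem hx)), by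
        rw [show t * (x * (t * x⁻¹ * t⁻¹)) * t⁻¹ = t * x * t⁻¹ * (t * (t * x⁻¹ * t⁻¹) * t⁻¹) by group, htt]
        group⟩
      rw [hD, Subgroup.mem_bot, mul_eq_one_iff_eq_inv] at h1
      have e1 : x = t * x * t⁻¹ := h1.trans (by group)
      exact (mul_inv_eq_iff_eq_mul.1 e1.symm).symm
    have hCle : C ≤ A := inf_le_left
    have hDle : D ≤ A := fun x hx => hx.1
    have hcards : Nat.card C = p ∧ Nat.card D = p := by
      have hp2 : ∀ X : Subgroup N, X ≤ A → X ≠ ⊥ → X ≠ A → Nat.card X = p := by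
        intro X hX h1 h2
        obtain ⟨k, hk, hk'⟩ := (Nat.dvd_prime_pow hp').1 (hAcard ▸ Subgroup.card_dvd_of_le hX)
        interval_cases k
        · exact absurd (Subgroup.eq_bot_of_card_eq X (by simpa using hk')) h1
        · simpa using hk'
        · exact absurd (Subgroup.eq_of_le_of_card_ge hX (by rw [hk', hAcard])) h2
      refine ⟨hp2 C hCle (fun h => ha1 (Subgroup.mem_bot.1 (h ▸ haC))) fun h => hDne ?_,
        hp2 D hDle hDne fun h => ha1 (Subgroup.mem_bot.1 (hCD ▸ ⟨haC, h.symm ▸ ha⟩))⟩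
      rw [← hCD, h, inf_eq_right.2 hDle]
    -- both lines are invariant, so `N / A` would be abelian
    have hinvC : ∀ n : N, ∀ x ∈ C, n * x * n⁻¹ ∈ C := by
      intro n x hx
      refine ⟨hAn x hx.1 n, Subgroup.mem_centralizer_singleton_iff.2 ?_⟩
      have h1 : Commute (n * x * n⁻¹) (n * t * n⁻¹) :=
        Commute.map (f := (MulAut.conj n).toMonoidHom) (Subgroup.mem_centralizer_singleton_iff.1 hx.2)
      have h2 : Commute (n * x * n⁻¹) (n * t * n⁻¹ * t⁻¹) := hAc _ (hAn x hx.1 n) _ (hconj n)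
      have h3 := h2.inv_right.mul_right h1
      simpa [mul_assoc] using h3.eq
    have hinvD : ∀ n : N, ∀ x ∈ D, n * x * n⁻¹ ∈ D := by
      intro n x hx
      refine ⟨hAn x hx.1 n, ?_⟩
      have h2 : Commute (n * x * n⁻¹) (n * t * n⁻¹ * t⁻¹) := hAc _ (hAn x hx.1 n) _ (hconj n)
      set w := n * t * n⁻¹ * t⁻¹
      calc t * (n * x * n⁻¹) * t⁻¹ = w⁻¹ * (n * (t * x * t⁻¹) * n⁻¹) * w := by simp only [w]; group
        _ = w⁻¹ * (n * x * n⁻¹)⁻¹ * w := by rw [hx.2]; group
        _ = (n * x * n⁻¹)⁻¹ := by rw [mul_assoc, h2.inv_left.eq, inv_mul_cancel_left]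
    have hkey : ∀ X : Subgroup N, Nat.card X = p → (∀ n : N, ∀ x ∈ X, n * x * n⁻¹ ∈ X) →
        ∀ n m : N, ∀ x ∈ X, Commute ⁅n, m⁆ x := by
      intro X hX hXn n m x hx
      haveI : IsCyclic X := isCyclic_of_prime_card hX
      let φ : N → (↥X →* ↥X) := fun g =>
        { toFun := fun y => ⟨g * y * g⁻¹, hXn g y y.2⟩
          map_one' := Subtype.ext (by simp)
          map_mul' := fun y y' => Subtype.ext (by simp [mul_assoc]) }
      obtain ⟨i, hi⟩ := MonoidHom.map_cyclic (φ n)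
      obtain ⟨j, hj⟩ := MonoidHom.map_cyclic (φ m)
      have hcn : ∀ y ∈ X, n * y * n⁻¹ = y ^ i := fun y hy =>
        (congrArg Subtype.val (hi ⟨y, hy⟩) :)
      have hcm : ∀ y ∈ X, m * y * m⁻¹ = y ^ j := fun y hy =>
        (congrArg Subtype.val (hj ⟨y, hy⟩) :)
      set u := m⁻¹ * (n⁻¹ * x * n) * m
      have hu : u ∈ X := by
        have := hXn m⁻¹ _ (hXn n⁻¹ x hx)
        simpa [u] using this
      have e1 : n * m * u * (n * m)⁻¹ = x := by simp only [u]; group
      have e2 : m * n * u * (m * n)⁻¹ = n * m * u * (n * m)⁻¹ := by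
        rw [show m * n * u * (m * n)⁻¹ = m * (n * u * n⁻¹) * m⁻¹ by group,
          show n * m * u * (n * m)⁻¹ = n * (m * u * m⁻¹) * n⁻¹ by group,
          hcn u hu, hcm _ (X.zpow_mem hu i), hcm u hu, hcn _ (X.zpow_mem hu j),
          ← zpow_mul, ← zpow_mul, mul_comm]
      rw [e1] at e2
      show ⁅n, m⁆ * x = x * ⁅n, m⁆
      calc ⁅n, m⁆ * x = ⁅n, m⁆ * (m * n * u * (m * n)⁻¹) := by rw [e2]
        _ = (n * m * u * (n * m)⁻¹) * ⁅n, m⁆ := by rw [commutatorElement_def]; group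
        _ = x * ⁅n, m⁆ := by rw [e1]
    have hCDA : C ⊔ D = A := Subgroup.eq_of_le_of_card_ge (sup_le hCle hDle) (by
      have := Lib.LocalP2.card_mul_card_le C D
      rwa [hcards.1, hcards.2, hCD, Subgroup.card_bot, mul_one, ← sq, ← hAcard] at this)
    have hcomm : ∀ n m : N, ⁅n, m⁆ ∈ A := by
      intro n m
      refine hAself.le (Subgroup.mem_centralizer_iff.2 fun x hx => ?_)
      have hle : C ⊔ D ≤ Subgroup.centralizer ({⁅n, m⁆} : Set N) := sup_le
        (fun y hy => Subgroup.mem_centralizer_singleton_iff.2 (hkey C hcards.1 hinvC n m y hy).eq.symm)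
        (fun y hy => Subgroup.mem_centralizer_singleton_iff.2 (hkey D hcards.2 hinvD n m y hy).eq.symm)
      exact Subgroup.mem_centralizer_singleton_iff.1 (hle (hCDA.ge hx))
    obtain ⟨u₁, hu₁⟩ : ∃ u : Matrix.SpecialLinearGroup (Fin 2) F,
        (u : Matrix (Fin 2) (Fin 2) F) = !![1, 1; 0, 1] := ⟨⟨_, by simp⟩, rfl⟩
    obtain ⟨u₂, hu₂⟩ : ∃ u : Matrix.SpecialLinearGroup (Fin 2) F,
        (u : Matrix (Fin 2) (Fin 2) F) = !![1, 0; 1, 1] := ⟨⟨_, by simp⟩, rfl⟩
    obtain ⟨n, hn⟩ := QuotientGroup.mk'_surjective A (e.symm u₁)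
    obtain ⟨m, hm⟩ := QuotientGroup.mk'_surjective A (e.symm u₂)
    have h1 : e (QuotientGroup.mk' A ⁅n, m⁆) = 1 := by
      rw [QuotientGroup.mk'_apply, (QuotientGroup.eq_one_iff _).2 (hcomm n m), map_one]
    rw [map_commutatorElement, map_commutatorElement, hn, hm, MulEquiv.apply_symm_apply,
      MulEquiv.apply_symm_apply, commutatorElement_eq_one_iff_mul_comm] at h1
    have h2 := congrArg (fun g : Matrix.SpecialLinearGroup (Fin 2) F => (g : Matrix (Fin 2) (Fin 2) F) 0 0) h1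
    simp [hu₁, hu₂, Matrix.mul_apply] at h2
  have hinv : ∀ a ∈ A, t * a⁻¹ = a * t := by
    intro a ha
    have h := hfix _ (A.mul_mem ha (hAn a ha t)) (by
      rw [show t * (a * (t * a * t⁻¹)) * t⁻¹ = (t * a * t⁻¹) * ((t * t) * a * (t * t)⁻¹) by group, ht2]
      simpa using (hAc a ha _ (hAn a ha t)).symm)
    have ht' : t⁻¹ = t := inv_eq_of_mul_eq_one_right ht2
    calc t * a⁻¹ = t * (t * a * t⁻¹) := by rw [eq_inv_of_mul_eq_one_right h]
      _ = (t * t) * a * t⁻¹ := by group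
      _ = a * t := by rw [ht2, one_mul, ht']
  refine ⟨Subgroup.centralizer ({t} : Set N), ?_, ?_⟩
  · rw [eq_bot_iff]
    intro a ha
    exact Subgroup.mem_bot.2 (hfix a ha.1 (by
      rw [← Subgroup.mem_centralizer_singleton_iff.1 ha.2, mul_inv_cancel_right]))
  · rw [eq_top_iff]
    intro n _
    set b := n * t * n⁻¹ * t⁻¹ with hb
    set a := b ^ ((p + 1) / 2)
    have haA : a ∈ A := A.pow_mem (hconj n) _
    have ha2 : a * a = b := by
      obtain ⟨k, hk⟩ := hodd
      rw [← pow_add, show (p + 1) / 2 + (p + 1) / 2 = p + 1 by omega, pow_succ, hAp b (hconj n), one_mul]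
    rw [show n = a * (a⁻¹ * n) by group]
    refine Subgroup.mul_mem_sup haA (Subgroup.mem_centralizer_singleton_iff.2 ?_)
    have h1 : n * t = b * t * n := by rw [hb]; group
    calc a⁻¹ * n * t = a⁻¹ * (a * a * t * n) := by rw [mul_assoc, h1, ha2]
      _ = a * t * n := by group
      _ = t * (a⁻¹ * n) := by rw [← hinv a haA, mul_assoc]

end Cfsg.Agent.S3075
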