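import Cfsg.Statements.S3076
import Mathlib
import Cfsg.Agent.Lib.LocalChar.Core
import Cfsg.Agent.Lib.Hall.Basic
-- import your own Cfsg.Agent.* helpers here

set_option autoImplicit false
open Cfsg Cfsg.Agent Cfsg.Agent.Lib.LocalChar

namespace Cfsg.Agent.S3076

/-- Let P be a Sylow p-subgroup of the finite group G and H ≤ P a subgroup with N_P(H) a Sylow p-subgroup of N_G(H). Let N be the preimage in N_G(H) of O_p(N_G(H)/C_G(H)). Then H is a Sylow p-subgroup of N if and only if C_P(H) ≤ H and O_{p',p}(N_G(H)) = H·C_G(H). -/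
theorem result {G : Type*} [Group G] [Finite G] {p : ℕ} [Fact p.Prime]
    (P : Sylow p G) (H : Subgroup G) (hHP : H ≤ (P : Subgroup G))
    (hSyl : ¬ p ∣ ((P : Subgroup G) ⊓ Subgroup.normalizer (H : Set G)).relIndex (Subgroup.normalizer (H : Set G)))
    [hC : ((Subgroup.centralizer (H : Set G)).subgroupOf (Subgroup.normalizer (H : Set G))).Normal] :
    (H ≤ ((Cfsg.pCore p (↥(Subgroup.normalizer (H : Set G)) ⧸
              (Subgroup.centralizer (H : Set G)).subgroupOf (Subgroup.normalizer (H : Set G)))).comap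
            (QuotientGroup.mk' _)).map (Subgroup.normalizer (H : Set G)).subtype ∧
      ¬ p ∣ H.relIndex (((Cfsg.pCore p (↥(Subgroup.normalizer (H : Set G)) ⧸
              (Subgroup.centralizer (H : Set G)).subgroupOf (Subgroup.normalizer (H : Set G)))).comap
            (QuotientGroup.mk' _)).map (Subgroup.normalizer (H : Set G)).subtype)) ↔
    ((P : Subgroup G) ⊓ Subgroup.centralizer (H : Set G) ≤ H ∧
      (Cfsg.pPrimePCore p ↥(Subgroup.normalizer (H : Set G))).map (Subgroup.normalizer (H : Set G)).subtype =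
        H ⊔ Subgroup.centralizer (H : Set G)) := by
  set N := Subgroup.normalizer (H : Set G) with hN
  set C := Subgroup.centralizer (H : Set G) with hCdef
  set f := QuotientGroup.mk' (C.subgroupOf N)
  set X := (Cfsg.pCore p (↥N ⧸ C.subgroupOf N)).comap f with hXdef
  set K := Cfsg.pPrimeCore p ↥N with hKdef
  set Y := Cfsg.pPrimePCore p ↥N with hYdef
  have hp' : p.Prime := Fact.out
  have hHN : H ≤ N := Subgroup.le_normalizer
  have hCN : C ≤ N := Subgroup.centralizer_le_normalizer _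
  have hHp : IsPGroup p H := P.isPGroup'.to_le hHP
  set H' := H.subgroupOf N with hH'
  haveI hH'n : H'.Normal := Subgroup.normal_in_normalizer
  have hH'map : H'.map N.subtype = H := Subgroup.map_subgroupOf_eq_of_le hHN
  have hH'X : H' ≤ X := by
    refine Subgroup.map_le_iff_le_comap.1 (le_pCore (hH'n.map _ (QuotientGroup.mk'_surjective _)) ?_)
    exact ((isPGroup_subgroupOf hHp)).map _
  have hPN : IsSylowIn p ((P : Subgroup G) ⊓ N) N := ⟨inf_le_right, P.isPGroup'.to_le inf_le_left, hSyl⟩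
  have hPC : IsSylowIn p ((P : Subgroup G) ⊓ C) C := by
    have h := hPN.inf hCN (le_nz_centralizer le_rfl)
    rwa [inf_assoc, inf_eq_right.2 hCN] at h
  have hXpow : ∀ x ∈ X, ∃ k : ℕ, x ^ p ^ k ∈ C.subgroupOf N := fun x hx => by
    obtain ⟨k, hk⟩ := Lib.LocalChar.pCore_isPGroup ⟨f x, hx⟩
    have h := congrArg Subtype.val hk
    simp only [SubgroupClass.coe_pow, OneMemClass.coe_one, ← map_pow] at h
    exact ⟨k, (QuotientGroup.eq_one_iff _).1 h⟩
  -- the core of the argument
  have key : (P : Subgroup G) ⊓ C ≤ H → Y.map N.subtype = X.map N.subtype := by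
    intro hle
    have hKC : K ≤ C.subgroupOf N := by
      intro x hx
      refine Subgroup.mem_centralizer_iff.2 fun h hh => ?_
      have h1 : (⟨h, hHN hh⟩ : ↥N) * x * (⟨h, hHN hh⟩ : ↥N)⁻¹ * x⁻¹ ∈ H' ⊓ K := by
        refine ⟨?_, K.mul_mem (Subgroup.Normal.conj_mem inferInstance x hx _) (K.inv_mem hx)⟩
        have := H'.mul_mem (show (⟨h, hHN hh⟩ : ↥N) ∈ H' from hh) (hH'n.conj_mem _ (H'.inv_mem (show (⟨h, hHN hh⟩ : ↥N) ∈ H' from hh)) x)
        simpa [mul_assoc] using this
      have hbot : H' ⊓ K = ⊥ := by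
        obtain ⟨k, hk⟩ := IsPGroup.iff_card.1 (isPGroup_subgroupOf (H := N) hHp)
        exact Subgroup.inf_eq_bot_of_coprime (hk ▸ (Lib.Hall.coprime_card_pPrimeCore p).symm.pow_left k)
      rw [hbot, Subgroup.mem_bot, mul_inv_eq_one, mul_inv_eq_iff_eq_mul] at h1
      exact congrArg Subtype.val h1
    -- `p'`-elements of `C` form a normal `p'`-subgroup
    set P₀ := hPC.sylow
    have hP₀ : Subgroup.normalizer ((P₀ : Subgroup ↥C) : Set ↥C) ≤
        Subgroup.centralizer ((P₀ : Subgroup ↥C) : Set ↥C) := fun c _ => by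
      refine Subgroup.mem_centralizer_iff.2 fun z hz => ?_
      have hz' : (z : G) ∈ H := hle (hPC.sylow_coe ▸ hz :)
      exact Subtype.ext (Subgroup.mem_centralizer_iff.1 c.2 z hz')
    set K₀ := (MonoidHom.transferSylow P₀ hP₀).ker
    have hK₀ : ∀ c : ↥C, (orderOf c).Coprime p → c ∈ K₀ := fun c hc => by
      rw [MonoidHom.mem_ker]
      refine Subtype.ext (eq_one_of_isPGroup_of_coprime P₀.isPGroup' (SetLike.coe_mem _) ?_)
      rw [Subgroup.orderOf_coe]
      exact hc.coprime_dvd_left (orderOf_map_dvd _ c)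
    have hres : (Nat.card ↥(resOf p C)).Coprime p := by
      have h1 : resOf p C ≤ K₀.map C.subtype := resOf_le_iff.2 fun x hx ho =>
        ⟨⟨x, hx⟩, hK₀ _ (by rwa [Subgroup.orderOf_mk]), rfl⟩
      refine Nat.Coprime.coprime_dvd_left (Subgroup.card_dvd_of_le h1) ?_
      rw [Subgroup.card_map_of_injective C.subtype_injective]
      exact ((Nat.Prime.coprime_iff_not_dvd hp').2 (MonoidHom.not_dvd_card_ker_transferSylow P₀ hP₀)).symm
    have hresK : (resOf p C).subgroupOf N ≤ K := by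
      haveI : ((resOf p C).subgroupOf N).Normal :=
        normal_subgroupOf ((le_nz_centralizer le_rfl).trans (nz_le_nz_resOf C))
      refine Lib.Hall.le_pPrimeCore ?_
      rwa [Nat.card_congr (Subgroup.subgroupOfEquivOfLe ((resOf_le C).trans hCN)).toEquiv]
    congr 1
    haveI hYn : Y.Normal := (Lib.LocalChar.pCore_normal (p := p) (G := ↥N ⧸ K)).comap _
    apply le_antisymm
    · intro y hy
      refine le_pCore ((inferInstance : Y.Normal).map f (QuotientGroup.mk'_surjective _)) ?_ ⟨y, hy, rfl⟩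
      rintro ⟨_, z, hz, rfl⟩
      obtain ⟨k, hk⟩ := Lib.LocalChar.pCore_isPGroup ⟨QuotientGroup.mk' K z, hz⟩
      have hzK : z ^ p ^ k ∈ K := (QuotientGroup.eq_one_iff _).1 (by simpa using congrArg Subtype.val hk)
      exact ⟨k, Subtype.ext (by
        show (f z) ^ p ^ k = 1
        rw [← map_pow]
        exact (QuotientGroup.eq_one_iff _).2 (hKC hzK))⟩
    · intro x hx
      refine le_pCore (((inferInstance : (Cfsg.pCore p (↥N ⧸ C.subgroupOf N)).Normal).comap f).map _
        (QuotientGroup.mk'_surjective K)) ?_ ⟨x, hx, rfl⟩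
      rintro ⟨_, z, hz, rfl⟩
      obtain ⟨k, hk⟩ := hXpow z hz
      obtain ⟨j, hj⟩ := pow_mem_resOf (p := p) (H := C) (g := ((z ^ p ^ k : ↥N) : G)) hk
      refine ⟨k + j, Subtype.ext ?_⟩
      show (QuotientGroup.mk' K z) ^ p ^ (k + j) = 1
      rw [← map_pow]
      refine (QuotientGroup.eq_one_iff _).2 (hresK ?_)
      rw [pow_add, pow_mul]
      exact hj
  constructor
  · rintro ⟨-, h2⟩
    have hXs : IsSylowIn p H (X.map N.subtype) := ⟨hH'map.ge.trans (Subgroup.map_mono hH'X), hHp, h2⟩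
    have hCX : C ≤ X.map N.subtype := fun c hc =>
      ⟨⟨c, hCN hc⟩, show f _ ∈ Cfsg.pCore p _ by
        rw [show f ⟨c, hCN hc⟩ = 1 from (QuotientGroup.eq_one_iff _).2 hc]; exact Subgroup.one_mem _, rfl⟩
    have hPCH : (P : Subgroup G) ⊓ C ≤ H := by
      rw [← hXs.eq_of_le (P.isPGroup'.to_le (inf_le_left (b := X.map N.subtype))) inf_le_right
        (le_inf hHP hXs.1)]
      exact inf_le_inf_left _ hCX
    refine ⟨hPCH, (key hPCH).trans (le_antisymm ?_ (sup_le hXs.1 hCX))⟩
    rintro _ ⟨x, hx, rfl⟩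
    obtain ⟨u, v, hu, hv, huv, ⟨k, hk⟩, hvo⟩ := exists_ppart (p := p) x
    have hzX : Subgroup.zpowers x ≤ X := Subgroup.zpowers_le.2 hx
    rw [huv, map_mul]
    refine Subgroup.mul_mem_sup ?_ ?_
    · have hup : IsPGroup p (Subgroup.zpowers (N.subtype u)) := by
        refine IsPGroup.of_card (n := k) ?_
        rw [Nat.card_zpowers, orderOf_injective N.subtype N.subtype_injective, hk]
      obtain ⟨y, hy, hyle⟩ := hXs.conj_le hup (Subgroup.zpowers_le.2 ⟨u, hzX hu, rfl⟩)
      have hyN : y ∈ N := Subgroup.map_subtype_le X hy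
      have h2 := cj_mono (g := y⁻¹) hyle
      rw [cj_cj, inv_mul_cancel, cj_eq_of_mem_nz (Subgroup.one_mem _),
        cj_eq_of_mem_nz (N.inv_mem hyN)] at h2
      exact h2 (Subgroup.mem_zpowers _)
    · exact mem_of_coprime_of_pow (B := C.subgroupOf N) hvo (hXpow v (hzX hv))
  · rintro ⟨hle, heq⟩
    refine ⟨hH'map.ge.trans (Subgroup.map_mono hH'X), ?_⟩
    rw [← key hle, heq, ← Subgroup.relIndex_subgroupOf (sup_le hHN hCN), Subgroup.subgroupOf_sup hHN hCN,
      sup_comm, Subgroup.relIndex_sup_right, Subgroup.relIndex_subgroupOf hCN]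
    intro hd
    exact hPC.2.2 (hd.trans (Subgroup.relIndex_dvd_of_le_left C hle))

end Cfsg.Agent.S3076
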