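import Cfsg.Statements.S3078
import Cfsg.Agent.Lib.Thompson.GlaubermanReplacement

set_option autoImplicit false
open Cfsg

namespace Cfsg.Agent.S3078

open scoped commutatorElement in
/-- The replacement of `A` contains at least as many elements of order dividing `p`. -/
theorem omega_le {G : Type*} [Group G] [Finite G] {p : ℕ} [hp : Fact p.Prime] (hp2 : p ≠ 2) (A : Subgroup G)
    (hA : IsMulCommutative A) (b : G) (hbN : b ∈ Subgroup.normalizer ((Subgroup.normalizer (A : Set G)) : Set G))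
    (hab : IsMulCommutative (Lib.Thompson.replStar A b)) :
    Nat.card (Cfsg.omegaOne p A) ≤ Nat.card (Cfsg.omegaOne p (Lib.Thompson.replStar A b)) := by
  set A' := A.map (MulAut.conj b⁻¹).toMonoidHom with hA'
  set D := A ⊓ A' with hD
  have hAcomm : ∀ x ∈ A, ∀ y ∈ A, x * y = y * x := fun x hx y hy => by
    haveI := hA
    exact congrArg Subtype.val (mul_comm' (⟨x, hx⟩ : A) ⟨y, hy⟩)
  have hA'comm : ∀ x ∈ A', ∀ y ∈ A', x * y = y * x := by
    rintro _ ⟨x, hx, rfl⟩ _ ⟨y, hy, rfl⟩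
    rw [← map_mul, hAcomm x hx y hy, map_mul]
  have hbinv : b⁻¹ ∈ Subgroup.normalizer ((Subgroup.normalizer (A : Set G)) : Set G) := Subgroup.inv_mem _ hbN
  -- `A` and `A'` normalize each other
  have hA'N : ∀ y ∈ A', ∀ x ∈ A, y * x * y⁻¹ ∈ A := by
    rintro _ ⟨a, ha, rfl⟩ x hx
    exact (Subgroup.mem_normalizer_iff.1 ((Subgroup.mem_normalizer_iff.1 hbinv a).1 (Subgroup.le_normalizer ha)) x).1 hx
  have hAN' : ∀ x ∈ A, ∀ y ∈ A', x * y * x⁻¹ ∈ A' := by
    rintro x hx _ ⟨a, ha, rfl⟩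
    have h1 : b * x * b⁻¹ ∈ Subgroup.normalizer (A : Set G) := (Subgroup.mem_normalizer_iff.1 hbN x).1 (Subgroup.le_normalizer hx)
    refine ⟨b * x * b⁻¹ * a * (b * x * b⁻¹)⁻¹, (Subgroup.mem_normalizer_iff.1 h1 a).1 ha, ?_⟩
    simp [mul_assoc]
  have hmix : ∀ x ∈ A, ∀ y ∈ A', ⁅y, x⁆ ∈ D := fun x hx y hy => by
    refine ⟨?_, ?_⟩
    · rw [commutatorElement_def]; exact A.mul_mem (hA'N y hy x hx) (A.inv_mem hx)
    · rw [commutatorElement_def, show y * x * y⁻¹ * x⁻¹ = y * (x * y⁻¹ * x⁻¹) by group]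
      exact A'.mul_mem hy (hAN' x hx _ (A'.inv_mem hy))
  -- the power formula
  have hpow : ∀ x ∈ A, ∀ y ∈ A', x ^ p = 1 → y ^ p = 1 → (x * y) ^ p = 1 := by
    intro x hx y hy hxp hyp
    set c := ⁅y, x⁆ with hc
    have hcD := hmix x hx y hy
    have hcx : c * x = x * c := hAcomm c hcD.1 x hx
    have hcy : c * y = y * c := hA'comm c hcD.2 y hy
    have hyx : y * x = x * y * c := by
      calc y * x = c * (x * y) := by rw [hc, commutatorElement_def]; group
        _ = _ := by rw [← mul_assoc, hcx, mul_assoc, hcy, mul_assoc]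
    have hyk : ∀ k : ℕ, y ^ k * x = x * y ^ k * c ^ k := by
      intro k
      induction k with
      | zero => simp
      | succ k ih =>
        have hck : c ^ k * y = y * c ^ k := (Commute.pow_left hcy k).eq
        calc y ^ (k + 1) * x = y ^ k * (y * x) := by rw [pow_succ, mul_assoc]
          _ = (y ^ k * x) * (y * c) := by rw [hyx]; group
          _ = x * y ^ k * (c ^ k * y) * c := by rw [ih]; group
          _ = x * y ^ (k + 1) * c ^ (k + 1) := by rw [hck, pow_succ y, pow_succ c]; group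
    have hk : ∀ k : ℕ, (x * y) ^ k = x ^ k * y ^ k * c ^ (k.choose 2) := by
      intro k
      induction k with
      | zero => simp
      | succ k ih =>
        have h1 : c ^ k.choose 2 * (x * y) = x * y * c ^ k.choose 2 :=
          ((Commute.pow_left hcx _).mul_right (Commute.pow_left hcy _)).eq
        have h2 : c ^ k * y = y * c ^ k := (Commute.pow_left hcy k).eq
        calc (x * y) ^ (k + 1) = x ^ k * y ^ k * (c ^ k.choose 2 * (x * y)) := by rw [pow_succ, ih, mul_assoc]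
          _ = x ^ k * (y ^ k * x) * y * c ^ k.choose 2 := by rw [h1]; group
          _ = x ^ k * x * y ^ k * (c ^ k * y) * c ^ k.choose 2 := by rw [hyk]; group
          _ = x ^ k * x * (y ^ k * y) * (c ^ k * c ^ k.choose 2) := by rw [h2]; group
          _ = _ := by rw [← pow_succ, ← pow_succ, ← pow_add, Nat.choose_succ_succ', Nat.choose_one_right]
    have hcp : c ^ p = 1 := by
      have h := hyk p
      rw [hyp, one_mul, mul_one] at h
      exact mul_eq_left.1 h.symm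
    obtain ⟨t, ht⟩ := hp.out.dvd_choose_self two_ne_zero (lt_of_le_of_ne hp.out.two_le (Ne.symm hp2))
    rw [hk, hxp, hyp, ht, pow_mul, hcp, one_pow, one_mul, mul_one]
  -- the elements of order dividing `p`
  let Ω : Subgroup G :=
    { carrier := {x | x ∈ A ∧ x ^ p = 1}
      one_mem' := ⟨one_mem _, one_pow p⟩
      mul_mem' := fun {x y} hx hy => ⟨mul_mem hx.1 hy.1, by
        rw [(show Commute x y from hAcomm x hx.1 y hy.1).mul_pow, hx.2, hy.2, one_mul]⟩
      inv_mem' := fun {x} hx => ⟨inv_mem hx.1, by rw [inv_pow, hx.2, inv_one]⟩ }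
  have hΩ : Cfsg.omegaOne p A = Ω := le_antisymm ((Subgroup.closure_le Ω).2 fun x hx => hx) Subgroup.subset_closure
  rw [hΩ]
  have e := Subgroup.card_eq_card_quotient_mul_card_subgroup ((Ω ⊓ A').subgroupOf Ω)
  rw [Nat.card_congr (Subgroup.subgroupOfEquivOfLe (inf_le_left : Ω ⊓ A' ≤ Ω)).toEquiv, ← Nat.card_prod] at e
  rw [e]
  have hf : ∀ a ∈ Ω, ∀ d ∈ Ω ⊓ A', a * (b⁻¹ * a⁻¹ * b) * d ∈ Cfsg.omegaOne p (Lib.Thompson.replStar A b) := by
    intro a ha d hd
    refine Subgroup.mul_mem _ (Subgroup.subset_closure ⟨?_, ?_⟩)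
      (Subgroup.subset_closure ⟨Subgroup.mem_sup_left ⟨hd.1.1, hd.2⟩, hd.1.2⟩)
    · exact Subgroup.mem_sup_right (Subgroup.subset_closure ⟨a, ha.1, by group⟩)
    · refine hpow a ha.1 _ ⟨a⁻¹, A.inv_mem ha.1, by simp [mul_assoc]⟩ ha.2 ?_
      rw [show b⁻¹ * a⁻¹ * b = b⁻¹ * a⁻¹ * (b⁻¹)⁻¹ by group, conj_pow, inv_pow, ha.2]; simp
  let f : (↥Ω ⧸ (Ω ⊓ A').subgroupOf Ω) × ↥(Ω ⊓ A') → ↥(Cfsg.omegaOne p (Lib.Thompson.replStar A b)) :=
    fun q => ⟨_, hf _ (Quotient.out q.1 : ↥Ω).2 _ q.2.2⟩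
  refine Nat.card_le_card_of_injective f fun q q' h => ?_
  have h' : ((Quotient.out q.1 : ↥Ω) : G) * (b⁻¹ * ((Quotient.out q.1 : ↥Ω) : G)⁻¹ * b) * q.2 =
      ((Quotient.out q'.1 : ↥Ω) : G) * (b⁻¹ * ((Quotient.out q'.1 : ↥Ω) : G)⁻¹ * b) * q'.2 := congrArg Subtype.val h
  set a := ((Quotient.out q.1 : ↥Ω) : G) with ha
  set a₂ := ((Quotient.out q'.1 : ↥Ω) : G) with ha₂
  have haΩ : a ∈ Ω := (Quotient.out q.1 : ↥Ω).2
  have ha₂Ω : a₂ ∈ Ω := (Quotient.out q'.1 : ↥Ω).2
  have hD2 : a₂⁻¹ * a ∈ Ω ⊓ A' := by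
    refine ⟨Ω.mul_mem (Ω.inv_mem ha₂Ω) haΩ, ?_⟩
    rw [show a₂⁻¹ * a = (b⁻¹ * a₂⁻¹ * b) * (q'.2 : G) * (q.2 : G)⁻¹ * (b⁻¹ * a⁻¹ * b)⁻¹ from ?_]
    · exact A'.mul_mem (A'.mul_mem (A'.mul_mem ⟨a₂⁻¹, A.inv_mem ha₂Ω.1, by simp [mul_assoc]⟩ q'.2.2.2)
        (A'.inv_mem q.2.2.2)) (A'.inv_mem ⟨a⁻¹, A.inv_mem haΩ.1, by simp [mul_assoc]⟩)
    · calc a₂⁻¹ * a = a₂⁻¹ * (a * (b⁻¹ * a⁻¹ * b) * q.2) * (q.2 : G)⁻¹ * (b⁻¹ * a⁻¹ * b)⁻¹ := by group
        _ = _ := by rw [h']; group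
  have hq : q.1 = q'.1 := by
    rw [← QuotientGroup.out_eq' q.1, ← QuotientGroup.out_eq' q'.1]
    exact (QuotientGroup.eq.2 (Subgroup.mem_subgroupOf.2 hD2)).symm
  refine Prod.ext hq (Subtype.ext ?_)
  rw [ha, ha₂, hq] at h'
  exact mul_left_cancel h'


/-- A replacement Theorem for abelian subgroups of p-groups, p odd. Let G be a finite p-group with p odd, A an abelian subgroup of G, and B a subgroup of nilpotency class at most 2 with [B, B] ≤ A, such that A normalizes B but B does not normalize A. Then there is an abelian subgroup A* of G of the same order as A with A ∩ B strictly contained in A* ∩ B, A* contained in N_G(A) and in the normal closure of A, the exponent of A* dividing the exponent of A, and with the subgroup generated by the elements of order dividing p in A of order at most that of the corresponding subgroup of A* (the rank of A is at most the rank of A*). -/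
theorem result {G : Type*} [Group G] [Finite G] {p : ℕ} [Fact p.Prime] (hp : p ≠ 2) (hG : IsPGroup p G) (A B : Subgroup G) (hA : IsMulCommutative A) (hB2 : ⁅⁅B, B⁆, B⁆ = ⊥) (hBA : ⁅B, B⁆ ≤ A) (hAB : A ≤ Subgroup.normalizer (B : Set G)) (hBnA : ¬ B ≤ Subgroup.normalizer (A : Set G)) : ∃ Astar : Subgroup G, IsMulCommutative Astar ∧ Nat.card Astar = Nat.card A ∧ A ⊓ B < Astar ⊓ B ∧ Astar ≤ Subgroup.normalizer (A : Set G) ∧ Astar ≤ Subgroup.normalClosure (A : Set G) ∧ Monoid.exponent Astar ∣ Monoid.exponent A ∧ Nat.card (Cfsg.omegaOne p A) ≤ Nat.card (Cfsg.omegaOne p Astar) := by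
  set H := A ⊔ B with hH
  set AH := A.subgroupOf H
  set BH := B.subgroupOf H
  haveI : BH.Normal := (Subgroup.normal_subgroupOf_iff_le_normalizer le_sup_right).2 (sup_le hAB Subgroup.le_normalizer)
  have hAH : IsMulCommutative AH := by
    haveI := hA
    exact ⟨⟨fun x y => Subtype.ext (Subtype.ext (show ((x : ↥H) : G) * ((y : ↥H) : G) = ((y : ↥H) : G) * ((x : ↥H) : G) from
      congrArg Subtype.val (mul_comm' (⟨((x : ↥H) : G), x.2⟩ : A) ⟨((y : ↥H) : G), y.2⟩)))⟩⟩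
  have hmap : ∀ K : Subgroup ↥H, K.map H.subtype ≤ H := fun K => Subgroup.map_subtype_le K
  have hAm : AH.map H.subtype = A := Subgroup.map_subgroupOf_eq_of_le le_sup_left
  have hBm : BH.map H.subtype = B := Subgroup.map_subgroupOf_eq_of_le le_sup_right
  have hnot : ¬ BH ≤ Subgroup.normalizer (AH : Set ↥H) := fun h => hBnA fun x hx =>
    Subgroup.mem_normalizer_fintype fun y hy =>
      Subgroup.mem_subgroupOf.1 ((Subgroup.mem_normalizer_iff.1
        (h (show (⟨x, Subgroup.mem_sup_right hx⟩ : ↥H) ∈ BH from hx)) ⟨y, Subgroup.mem_sup_left hy⟩).1 hy)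
  obtain ⟨b, hb, hbN, hbA⟩ := Lib.Thompson.exists_normalizer_moving (hG.to_subgroup H) BH AH hnot
  obtain ⟨hcard, hab, -, hlt, -, -, hN, -, -, hexp⟩ := Lib.Thompson.glauberman_replacement (hG.to_subgroup H) BH
    (fun h => absurd h hp) AH hAH (by
      refine Subgroup.commutator_le.2 fun x hx y hy => ?_
      exact hBA (Subgroup.commutator_mem_commutator (H₁ := B) (H₂ := B) hx hy)) hb hbN hbA
  set As := Lib.Thompson.replStar AH b with hAs
  have hinj := H.subtype_injective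
  have hcm : ∀ K : Subgroup ↥H, Nat.card (K.map H.subtype) = Nat.card K := fun K =>
    Subgroup.card_map_of_injective hinj
  have hom : ∀ K : Subgroup ↥H, Cfsg.omegaOne p (K.map H.subtype) = (Cfsg.omegaOne p K).map H.subtype := by
    intro K
    rw [Cfsg.omegaOne, Cfsg.omegaOne, MonoidHom.map_closure]
    congr 1
    ext x
    constructor
    · rintro ⟨⟨k, hk, rfl⟩, hx⟩
      exact ⟨k, ⟨hk, hinj (by rw [map_pow, hx, map_one])⟩, rfl⟩
    · rintro ⟨k, ⟨hk, hkp⟩, rfl⟩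
      exact ⟨⟨k, hk, rfl⟩, by rw [← map_pow, hkp, map_one]⟩
  have hexpm : ∀ K : Subgroup ↥H, Monoid.exponent (K.map H.subtype) = Monoid.exponent K := fun K =>
    (Monoid.exponent_eq_of_mulEquiv (K.equivMapOfInjective _ hinj)).symm
  haveI := hab
  refine ⟨As.map H.subtype, Subgroup.map_isMulCommutative As H.subtype, ?_, ?_, ?_, ?_, ?_, ?_⟩
  · rw [hcm, hcard, ← hcm AH, hAm]
  · rw [← hAm, ← hBm, ← Subgroup.map_inf _ _ _ hinj, ← Subgroup.map_inf _ _ _ hinj]
    exact (Subgroup.map_lt_map_iff_of_injective hinj).2 hlt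
  · rintro _ ⟨x, hx, rfl⟩
    exact Subgroup.mem_normalizer_fintype fun y hy =>
      (Subgroup.mem_normalizer_iff.1 (hN hx) ⟨y, Subgroup.mem_sup_left hy⟩).1 hy
  · rw [hAs, Lib.Thompson.replStar, Subgroup.map_sup, MonoidHom.map_closure]
    refine sup_le ((Subgroup.map_mono inf_le_left).trans (hAm.le.trans Subgroup.le_normalClosure)) ((Subgroup.closure_le _).2 ?_)
    rintro _ ⟨_, ⟨a, ha, rfl⟩, rfl⟩
    have h1 : (a : G) ∈ Subgroup.normalClosure (A : Set G) := Subgroup.le_normalClosure ha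
    have h2 := Subgroup.mul_mem _ h1 (Subgroup.normalClosure_normal.conj_mem _ (Subgroup.inv_mem _ h1) ((b : G)⁻¹))
    simpa [mul_assoc] using h2
  · rw [hexpm]; exact (hexp hp).trans (by rw [← hexpm AH, hAm])
  · rw [← hAm, hom, hom, hcm, hcm]; exact omega_le hp AH hAH b hbN hab

end Cfsg.Agent.S3078
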