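import Cfsg.Statements.S3087
import Mathlib
-- import your own Cfsg.Agent.* helpers here

set_option autoImplicit false
open Cfsg

namespace Cfsg.Agent.S3087

/-- Let p be a prime, G a finite group acting linearly on a finite vector space V over the field with p elements, W a G-invariant subspace, and A a subgroup of G with |A|·|C_V(A)| ≥ |B|·|C_V(B)| for every subgroup B of A. Then |A|·|C_W(A)| ≥ |B|·|C_W(B)| for every subgroup B of A that contains C_A(W); that is, the image of A in the group induced on W satisfies the same maximality condition. -/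
theorem result {G V : Type*} [Group G] [Finite G] [AddCommGroup V] [Finite V] (p : ℕ) [Fact p.Prime] [Module (ZMod p) V]
    (ρ : Representation (ZMod p) G V) (W : Submodule (ZMod p) V) (hW : ∀ g : G, ∀ w ∈ W, ρ g w ∈ W)
    (A : Subgroup G)
    (hP : ∀ B : Subgroup G, B ≤ A →
      Nat.card ↥B * Nat.card {v : V // ∀ b ∈ B, ρ b v = v} ≤ Nat.card ↥A * Nat.card {v : V // ∀ a ∈ A, ρ a v = v})
    (B : Subgroup G) (hBA : B ≤ A) (hCB : ∀ a ∈ A, (∀ w ∈ W, ρ a w = w) → a ∈ B) :
    Nat.card ↥B * Nat.card {w : W // ∀ b ∈ B, ρ b w = w} ≤ Nat.card ↥A * Nat.card {w : W // ∀ a ∈ A, ρ a w = w} := by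
  let fix' : Subgroup G → AddSubgroup V := fun C =>
    { carrier := {v | ∀ c ∈ C, ρ c v = v}
      zero_mem' := fun c _ => map_zero _
      add_mem' := fun {x y} hx hy c hc => by rw [map_add, hx c hc, hy c hc]
      neg_mem' := fun {x} hx c hc => by rw [map_neg, hx c hc] }
  have e1 : ∀ C : Subgroup G, Nat.card {v : V // ∀ c ∈ C, ρ c v = v} = Nat.card (fix' C) := fun C => rfl
  have e2 : ∀ C : Subgroup G, Nat.card {w : W // ∀ c ∈ C, ρ c w = w} =
      Nat.card ↥(fix' C ⊓ W.toAddSubgroup) := by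
    intro C
    refine Nat.card_congr
      { toFun := fun w => ⟨(w.1 : V), w.2, w.1.2⟩
        invFun := fun w => ⟨⟨w.1, w.2.2⟩, w.2.1⟩
        left_inv := fun w => rfl
        right_inv := fun w => rfl }
  rw [e2, e2]
  have hAB := hP B hBA
  rw [e1, e1] at hAB
  set X := fix' A with hX
  set Y := fix' B ⊓ W.toAddSubgroup with hY
  set Z := fix' B with hZ
  have hXZ : X ≤ Z := fun v hv c hc => hv c (hBA hc)
  have hXY : fix' A ⊓ W.toAddSubgroup = X ⊓ Y := by
    apply le_antisymm
    · exact le_inf inf_le_left (le_inf (inf_le_left.trans hXZ) inf_le_right)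
    · exact le_inf inf_le_left (inf_le_right.trans inf_le_right)
  rw [hXY]
  have h1 : Nat.card ↥Y = Nat.card ↥(X ⊓ Y) * X.relIndex Y := by
    rw [← AddSubgroup.inf_relIndex_right, AddSubgroup.relIndex,
      ← Nat.card_congr (AddSubgroup.addSubgroupOfEquivOfLe (inf_le_right : X ⊓ Y ≤ Y)).toEquiv,
      AddSubgroup.card_mul_index]
  have h2 : Nat.card ↥Z = Nat.card ↥X * X.relIndex Z := by
    rw [AddSubgroup.relIndex, ← Nat.card_congr (AddSubgroup.addSubgroupOfEquivOfLe hXZ).toEquiv,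
      AddSubgroup.card_mul_index]
  have h3 : X.relIndex Y ≤ X.relIndex Z :=
    AddSubgroup.relIndex_le_of_le_right (inf_le_left : Y ≤ Z) Nat.card_pos.ne'
  have h4 : Nat.card ↥X * Nat.card ↥Y ≤ Nat.card ↥Z * Nat.card ↥(X ⊓ Y) := by
    rw [h1, h2]
    calc Nat.card ↥X * (Nat.card ↥(X ⊓ Y) * X.relIndex Y)
        ≤ Nat.card ↥X * (Nat.card ↥(X ⊓ Y) * X.relIndex Z) := by gcongr
      _ = Nat.card ↥X * X.relIndex Z * Nat.card ↥(X ⊓ Y) := by ring
  have hpos : 0 < Nat.card ↥X := Nat.card_pos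
  nlinarith

end Cfsg.Agent.S3087
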