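import Cfsg.Statements.S3116
import Mathlib

set_option autoImplicit false
open Cfsg

namespace Cfsg.Agent.S3116

theorem isPGroup_mulAut {X : Type*} [Group X] [Finite X] (a : X) (m : ℕ) (hm : 1 ≤ m) (ha : orderOf a = 2 ^ m)
    (hidx : (Subgroup.zpowers a).index = 2)
    (huniq : ∀ x : X, orderOf x = 2 ^ m → x ∈ Subgroup.zpowers a) : IsPGroup 2 (MulAut X) := by
  intro α
  obtain ⟨j, hj⟩ := Subgroup.mem_zpowers_iff.1 (huniq (α a) (by rw [MulEquiv.orderOf_eq, ha]))
  -- `β = α ^ (2^(m-1))` fixes `a`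
  set β := α ^ (2 ^ (m - 1)) with hβ
  have hpow : ∀ k : ℕ, (α ^ k) a = a ^ (j ^ k) := by
    intro k
    induction k with
    | zero => simp
    | succ k ih => rw [pow_succ' α, MulAut.mul_apply, ih, map_zpow, ← hj, ← zpow_mul, ← pow_succ' j]
  have hodd : ¬ (2 : ℤ) ∣ j := by
    rintro ⟨i, rfl⟩
    have h1 : orderOf (α a) ∣ 2 ^ (m - 1) := by
      apply orderOf_dvd_of_pow_eq_one
      rw [← hj, ← zpow_natCast, ← zpow_mul, show 2 * i * ((2 ^ (m - 1) : ℕ) : ℤ) = ((2 ^ m : ℕ) : ℤ) * i by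
        obtain ⟨k, rfl⟩ : ∃ k, m = k + 1 := ⟨m - 1, by omega⟩
        rw [Nat.add_sub_cancel, pow_succ]; push_cast; ring, zpow_mul, zpow_natCast, ← ha,
        pow_orderOf_eq_one, one_zpow]
    rw [MulEquiv.orderOf_eq, ha, Nat.pow_dvd_pow_iff_le_right one_lt_two] at h1
    omega
  have hβa : β a = a := by
    rw [hβ, hpow]
    have hd : ((2 ^ m : ℕ) : ℤ) ∣ j ^ (2 ^ (m - 1)) - 1 := by
      have hu : IsUnit (j : ZMod (2 ^ m)) := by
        rw [ZMod.coe_int_isUnit_iff_isCoprime]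
        push_cast
        exact IsCoprime.pow_left ((Int.prime_two.coprime_iff_not_dvd).2 hodd)
      rw [← ZMod.intCast_zmod_eq_zero_iff_dvd]
      push_cast
      have h3 := ZMod.pow_totient hu.unit
      rw [Nat.totient_prime_pow Nat.prime_two hm, show (2 : ℕ) - 1 = 1 from rfl, mul_one] at h3
      have h4 := congrArg Units.val h3
      rw [Units.val_pow_eq_pow_val, IsUnit.unit_spec, Units.val_one] at h4
      rw [h4, sub_self]
    obtain ⟨t, ht⟩ := hd
    rw [sub_eq_iff_eq_add] at ht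
    rw [ht, zpow_add, zpow_mul, zpow_natCast, ← ha, pow_orderOf_eq_one, one_zpow, one_mul, zpow_one]
  refine ⟨m - 1 + m, ?_⟩
  rw [pow_add, pow_mul, ← hβ]
  ext x
  rw [MulAut.one_apply]
  have hmem : ∀ v ∈ Subgroup.zpowers a, β v = v := by
    rintro v hv
    obtain ⟨i, rfl⟩ := Subgroup.mem_zpowers_iff.1 hv
    rw [map_zpow, hβa]
  obtain ⟨d, hd, hdx⟩ : ∃ d ∈ Subgroup.zpowers a, β x = d * x := by
    refine ⟨β x * x⁻¹, ?_, by group⟩
    by_cases hx : x ∈ Subgroup.zpowers a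
    · rw [hmem x hx, mul_inv_cancel]; exact one_mem _
    · rw [Subgroup.mul_mem_iff_of_index_two hidx]
      refine iff_of_false (fun h => hx ?_) (fun h => hx (inv_mem_iff.1 h))
      have h2 := hmem _ h
      rwa [β.injective h2] at h
  have hiter : ∀ k : ℕ, (β ^ k) x = d ^ k * x := by
    intro k
    induction k with
    | zero => simp
    | succ k ih =>
      rw [pow_succ' β, MulAut.mul_apply, ih, map_mul, map_pow, hmem d hd, hdx, pow_succ, mul_assoc]
  rw [hiter]
  have : d ^ (2 ^ m) = 1 := by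
    obtain ⟨i, rfl⟩ := Subgroup.mem_zpowers_iff.1 hd
    rw [← zpow_natCast, ← zpow_mul, mul_comm, zpow_mul, zpow_natCast, ← ha, pow_orderOf_eq_one, one_zpow]
  rw [this, one_mul]

/-- The automorphism group of a dihedral 2-group of order at least 8, or of a quasi-dihedral (semidihedral) 2-group of order at least 16, is a 2-group. -/
theorem result {X : Type*} [Group X] [Finite X] (h2 : IsPGroup 2 X)
    (h : (∃ n : ℕ, 4 ≤ n ∧ Nonempty (X ≃* DihedralGroup n)) ∨ Cfsg.IsQuasiDihedral X) : IsPGroup 2 (MulAut X) := by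
  haveI : Fact (Nat.Prime 2) := ⟨Nat.prime_two⟩
  rcases h with ⟨n, hn, ⟨e⟩⟩ | ⟨n, hn, hcard, x, y, hx, hy, hrel⟩
  · haveI : NeZero n := ⟨by omega⟩
    obtain ⟨k, hk⟩ := h2.exists_card_eq
    rw [Nat.card_congr e.toEquiv, DihedralGroup.nat_card] at hk
    obtain ⟨m, rfl⟩ : ∃ m, n = 2 ^ m := by
      obtain ⟨k', rfl⟩ : ∃ k', k = k' + 1 := ⟨k - 1, by rcases k with _ | k <;> simp_all⟩
      exact ⟨k', by rw [pow_succ'] at hk; omega⟩
    have ha : orderOf (e.symm (DihedralGroup.r 1)) = 2 ^ m := by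
      rw [MulEquiv.orderOf_eq, DihedralGroup.orderOf_r_one]
    refine isPGroup_mulAut _ m (by by_contra h; rw [show m = 0 by omega] at hn; simp at hn) ha ?_ ?_
    · have hc := (Subgroup.zpowers (e.symm (DihedralGroup.r (1 : ZMod (2 ^ m))))).card_mul_index
      rw [Nat.card_zpowers, ha, Nat.card_congr e.toEquiv, DihedralGroup.nat_card, mul_comm 2] at hc
      exact Nat.eq_of_mul_eq_mul_left (by positivity) hc
    · intro v hv
      obtain ⟨w, rfl⟩ := e.symm.surjective v
      rw [MulEquiv.orderOf_eq] at hv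
      rcases w with i | i
      · refine ⟨(i.val : ℤ), ?_⟩
        simp [← map_zpow]
      · rw [DihedralGroup.orderOf_sr] at hv
        omega
  · have hidx : (Subgroup.zpowers x).index = 2 := by
      have hc := (Subgroup.zpowers x).card_mul_index
      rw [Nat.card_zpowers, hx, hcard, pow_succ] at hc
      exact Nat.eq_of_mul_eq_mul_left (by positivity) hc
    refine isPGroup_mulAut x n (by omega) hx hidx fun v hv => ?_
    by_contra hvx
    have hyn : y ∉ Subgroup.zpowers x := by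
      intro hy'
      obtain ⟨i, rfl⟩ := Subgroup.mem_zpowers_iff.1 hy'
      have h1 : x ^ i * x * (x ^ i)⁻¹ = x := by group
      rw [h1] at hrel
      have h2 : x ^ (2 ^ (n - 1) - 1 - 1) * x = x := by
        rw [← pow_succ]
        conv_rhs => rw [hrel]
        congr 1
        have : 4 ≤ 2 ^ (n - 1) := by
          calc 4 = 2 ^ 2 := rfl
            _ ≤ _ := Nat.pow_le_pow_right two_pos (by omega)
        omega
      have h3 : orderOf x ∣ 2 ^ (n - 1) - 1 - 1 := orderOf_dvd_of_pow_eq_one (by simpa using h2)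
      rw [hx] at h3
      have h4 : 4 ≤ 2 ^ (n - 1) := by
        calc 4 = 2 ^ 2 := rfl
          _ ≤ _ := Nat.pow_le_pow_right two_pos (by omega)
      have h5 := Nat.le_of_dvd (by omega) h3
      have h6 : 2 ^ (n - 1) ≤ 2 ^ n := Nat.pow_le_pow_right two_pos (by omega)
      omega
    have hv2 : v * y ∈ Subgroup.zpowers x := (Subgroup.mul_mem_iff_of_index_two hidx).2 (iff_of_false hvx hyn)
    obtain ⟨i, hi⟩ := Subgroup.mem_zpowers_iff.1 hv2
    have hyy : y * y = 1 := by rw [← sq, ← hy, pow_orderOf_eq_one]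
    have hv' : v = x ^ i * y := by rw [hi, mul_assoc, hyy, mul_one]
    have hconj : y * x ^ i * y⁻¹ = x ^ (((2 ^ (n - 1) - 1 : ℕ) : ℤ) * i) := by
      rw [← conj_zpow, hrel, ← zpow_natCast, ← zpow_mul]
    have hsq : v ^ 2 = x ^ (((2 ^ (n - 1) : ℕ) : ℤ) * i) := by
      rw [hv', sq]
      calc x ^ i * y * (x ^ i * y) = x ^ i * (y * x ^ i * y⁻¹) * (y * y) := by group
        _ = x ^ i * x ^ (((2 ^ (n - 1) - 1 : ℕ) : ℤ) * i) := by rw [hconj, hyy, mul_one]
        _ = _ := by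
          rw [← zpow_add]
          congr 1
          rw [Nat.cast_sub Nat.one_le_two_pow]
          push_cast
          ring
    have h4 : v ^ 4 = 1 := by
      rw [show (4 : ℕ) = 2 * 2 from rfl, pow_mul, hsq, ← zpow_natCast, ← zpow_mul,
        show ((2 ^ (n - 1) : ℕ) : ℤ) * i * ((2 : ℕ) : ℤ) = ((2 ^ n : ℕ) : ℤ) * i by
          obtain ⟨k, rfl⟩ : ∃ k, n = k + 1 := ⟨n - 1, by omega⟩
          rw [Nat.add_sub_cancel, pow_succ]; push_cast; ring,
        zpow_mul, zpow_natCast, ← hx, pow_orderOf_eq_one, one_zpow]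
    have h5 := Nat.le_of_dvd (by norm_num) (hv ▸ orderOf_dvd_of_pow_eq_one h4)
    have h6 : 8 ≤ 2 ^ n := by
      calc 8 = 2 ^ 3 := rfl
        _ ≤ _ := Nat.pow_le_pow_right two_pos hn
    omega

end Cfsg.Agent.S3116
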