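import Cfsg.Statements.S3154
import Cfsg.Agent.Lib.Hall.Gaschutz
import Cfsg.Agent.Lib.Classical.Order

set_option autoImplicit false
open Cfsg

namespace Cfsg.Agent.S3154

open Matrix

universe u v

variable {F : Type v} [Field F]

/-- unitriangular matrices -/
def uT (p : F × F × F) : Matrix.SpecialLinearGroup (Fin 3) F :=
  ⟨!![1, p.1, p.2.2; 0, 1, p.2.1; 0, 0, 1], by simp [Matrix.det_fin_three]⟩

theorem uT_mul (p q : F × F × F) :
    uT p * uT q = uT (p.1 + q.1, p.2.1 + q.2.1, p.2.2 + q.2.2 + p.1 * q.2.1) := by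
  apply Subtype.ext
  show (!![1, p.1, p.2.2; 0, 1, p.2.1; 0, 0, 1] : Matrix (Fin 3) (Fin 3) F) *
    !![1, q.1, q.2.2; 0, 1, q.2.1; 0, 0, 1] = !![1, p.1 + q.1, p.2.2 + q.2.2 + p.1 * q.2.1; 0, 1, p.2.1 + q.2.1; 0, 0, 1]
  ext i j
  fin_cases i <;> fin_cases j <;> simp [Matrix.mul_apply, Fin.sum_univ_three] <;> ring

theorem uT_zero : uT ((0, 0, 0) : F × F × F) = 1 := by
  apply Subtype.ext
  show (!![1, 0, 0; 0, 1, 0; 0, 0, 1] : Matrix (Fin 3) (Fin 3) F) = 1
  ext i j
  fin_cases i <;> fin_cases j <;> simp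

/-- the projection to PSL -/
def pr : Matrix.SpecialLinearGroup (Fin 3) F →* Matrix.ProjectiveSpecialLinearGroup (Fin 3) F :=
  QuotientGroup.mk' _

theorem pr_surjective : Function.Surjective (pr : Matrix.SpecialLinearGroup (Fin 3) F → _) :=
  QuotientGroup.mk'_surjective _

/-- upper left block -/
def blkA (g : Matrix.SpecialLinearGroup (Fin 3) F) : Matrix (Fin 2) (Fin 2) F :=
  !![g.1 0 0, g.1 0 1; g.1 1 0, g.1 1 1]

/-- lower right block -/
def blkB (g : Matrix.SpecialLinearGroup (Fin 3) F) : Matrix (Fin 2) (Fin 2) F :=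
  !![g.1 1 1, g.1 1 2; g.1 2 1, g.1 2 2]

/-- the image of a unitriangular matrix -/
def uP (p : F × F × F) : Matrix.ProjectiveSpecialLinearGroup (Fin 3) F := pr (uT p)

theorem uP_mul (p q : F × F × F) :
    uP p * uP q = uP (p.1 + q.1, p.2.1 + q.2.1, p.2.2 + q.2.2 + p.1 * q.2.1) := by
  rw [uP, uP, ← map_mul, uT_mul, uP]

theorem uP_zero : uP ((0, 0, 0) : F × F × F) = 1 := by
  rw [uP, uT_zero, map_one]

theorem pr_eq {g h : Matrix.SpecialLinearGroup (Fin 3) F} (e : pr g = pr h) :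
    ∃ r : F, r ^ 3 = 1 ∧ h.1 = r • g.1 := by
  rw [pr, QuotientGroup.mk'_eq_mk'] at e
  obtain ⟨z, hz, hgz⟩ := e
  obtain ⟨r, hr, hrz⟩ := Matrix.SpecialLinearGroup.mem_center_iff.1 hz
  refine ⟨r, by simpa using hr, ?_⟩
  rw [← hgz]
  show g.1 * z.1 = _
  rw [← hrz]
  ext i j
  simp [Matrix.scalar_apply, Matrix.mul_diagonal, mul_comm]

theorem pr_of {g h : Matrix.SpecialLinearGroup (Fin 3) F} {r : F} (hr : r ^ 3 = 1) (e : h.1 = r • g.1) :
    pr g = pr h := by
  rw [pr, QuotientGroup.mk'_eq_mk']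
  have hd : (Matrix.scalar (Fin 3) r).det = 1 := by
    simp [Matrix.scalar_apply, Matrix.det_diagonal, hr]
  let z : Matrix.SpecialLinearGroup (Fin 3) F := ⟨Matrix.scalar (Fin 3) r, hd⟩
  refine ⟨z, Matrix.SpecialLinearGroup.mem_center_iff.2 ⟨r, by simpa using hr, rfl⟩, ?_⟩
  apply Subtype.ext
  show g.1 * Matrix.scalar (Fin 3) r = h.1
  rw [e]
  ext i j
  simp [Matrix.scalar_apply, Matrix.mul_diagonal, mul_comm]

theorem uP_inj {p q : F × F × F} (e : uP p = uP q) : p = q := by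
  obtain ⟨r, -, hr⟩ := pr_eq e
  have h1 : r = 1 := by
    have := congrFun (congrFun hr 0) 0
    simpa [uT] using this.symm
  subst h1
  rw [one_smul] at hr
  refine Prod.ext ?_ (Prod.ext ?_ ?_)
  · simpa [uT] using (congrFun (congrFun hr 0) 1).symm
  · simpa [uT] using (congrFun (congrFun hr 1) 2).symm
  · simpa [uT] using (congrFun (congrFun hr 0) 2).symm

section four

variable [Fintype F]

theorem add_self (hF : Fintype.card F = 4) (x : F) : x + x = 0 := by
  haveI : CharP F 2 := by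
    obtain ⟨p, hp⟩ := CharP.exists F
    obtain ⟨d, hpp, hd⟩ := FiniteField.card F p
    have : p ∣ 2 := hpp.dvd_of_dvd_pow (n := 2) (by
      rw [show (2 : ℕ) ^ 2 = p ^ (d : ℕ) by rw [← hd, hF]; norm_num]
      exact dvd_pow_self p d.pos.ne')
    rwa [(Nat.prime_dvd_prime_iff_eq hpp Nat.prime_two).1 this] at hp
  exact CharTwo.add_self_eq_zero x

theorem cube (hF : Fintype.card F = 4) {x : F} (hx : x ≠ 0) : x ^ 3 = 1 := by
  have := FiniteField.pow_card_sub_one_eq_one x hx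
  rwa [hF] at this

theorem exists_omega (hF : Fintype.card F = 4) : ∃ w : F, w ≠ 0 ∧ 1 + w ≠ 0 := by
  classical
  by_contra! hall
  have := Finset.card_le_card (show (Finset.univ : Finset F) ⊆ {0, 1} from fun x _ => by
    by_cases h : x = 0
    · simp [h]
    · have h1 := hall x h
      have h2 := add_self hF (1 : F)
      have : x = 1 := by linear_combination h1 - h2
      simp [this])
  rw [Finset.card_univ, hF] at this
  have := this.trans Finset.card_le_two
  omega

theorem uP_inv (hF : Fintype.card F = 4) (p : F × F × F) :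
    (uP p)⁻¹ = uP (p.1, p.2.1, p.2.2 + p.1 * p.2.1) := by
  refine inv_eq_of_mul_eq_one_right ?_
  rw [uP_mul, ← uP_zero]
  refine congrArg uP (Prod.ext (add_self hF _) (Prod.ext (add_self hF _) ?_))
  have := add_self hF p.2.2
  have := add_self hF (p.1 * p.2.1)
  linear_combination add_self hF p.2.2 + add_self hF (p.1 * p.2.1)

/-- the Sylow subgroup -/
def U (hF : Fintype.card F = 4) : Subgroup (Matrix.ProjectiveSpecialLinearGroup (Fin 3) F) where
  carrier := Set.range uP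
  mul_mem' := by rintro _ _ ⟨p, rfl⟩ ⟨q, rfl⟩; exact ⟨_, (uP_mul p q).symm⟩
  one_mem' := ⟨_, uP_zero⟩
  inv_mem' := by rintro _ ⟨p, rfl⟩; exact ⟨_, (uP_inv hF p).symm⟩

/-- the first elementary abelian subgroup of order 16 -/
def A1 (hF : Fintype.card F = 4) : Subgroup (Matrix.ProjectiveSpecialLinearGroup (Fin 3) F) where
  carrier := Set.range fun q : F × F => uP (0, q.1, q.2)
  mul_mem' := by
    rintro _ _ ⟨p, rfl⟩ ⟨q, rfl⟩
    exact ⟨(p.1 + q.1, p.2 + q.2), by simp [uP_mul]⟩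
  one_mem' := ⟨(0, 0), uP_zero⟩
  inv_mem' := by rintro _ ⟨p, rfl⟩; exact ⟨p, by simp [uP_inv hF]⟩

/-- the second elementary abelian subgroup of order 16 -/
def A2 (hF : Fintype.card F = 4) : Subgroup (Matrix.ProjectiveSpecialLinearGroup (Fin 3) F) where
  carrier := Set.range fun q : F × F => uP (q.1, 0, q.2)
  mul_mem' := by
    rintro _ _ ⟨p, rfl⟩ ⟨q, rfl⟩
    exact ⟨(p.1 + q.1, p.2 + q.2), by simp [uP_mul]⟩
  one_mem' := ⟨(0, 0), uP_zero⟩
  inv_mem' := by rintro _ ⟨p, rfl⟩; exact ⟨p, by simp [uP_inv hF]⟩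

variable (hF : Fintype.card F = 4)

include hF

theorem card_U : Nat.card (U hF) = 64 := by
  have h : Nat.card (Set.range (uP : F × F × F → _)) = Nat.card (F × F × F) :=
    Nat.card_range_of_injective fun p q h => uP_inj h
  rw [Nat.card_prod, Nat.card_prod, show Nat.card F = 4 by rw [Nat.card_eq_fintype_card, hF]] at h
  exact h

theorem card_A1 : Nat.card (A1 hF) = 16 := by
  have h : Nat.card (Set.range fun q : F × F => uP (0, q.1, q.2)) = Nat.card (F × F) :=
    Nat.card_range_of_injective fun p q h => by simpa [Prod.ext_iff] using uP_inj h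
  rw [Nat.card_prod, show Nat.card F = 4 by rw [Nat.card_eq_fintype_card, hF]] at h
  exact h

theorem card_A2 : Nat.card (A2 hF) = 16 := by
  have h : Nat.card (Set.range fun q : F × F => uP (q.1, 0, q.2)) = Nat.card (F × F) :=
    Nat.card_range_of_injective fun p q h => by simpa [Prod.ext_iff] using uP_inj h
  rw [Nat.card_prod, show Nat.card F = 4 by rw [Nat.card_eq_fintype_card, hF]] at h
  exact h

theorem card_P : Nat.card (Matrix.ProjectiveSpecialLinearGroup (Fin 3) F) = 20160 := by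
  have h := Lib.Classical.card_SL_mul (F := F) hF 3 (by norm_num)
  rw [Lib.Classical.card_SL_eq_gcd_mul_card_PSL, Fintype.card_fin, hF, Fin.prod_univ_three] at h
  norm_num at h
  omega

theorem A1_le : A1 hF ≤ U hF := by rintro _ ⟨q, rfl⟩; exact ⟨_, rfl⟩

theorem A2_le : A2 hF ≤ U hF := by rintro _ ⟨q, rfl⟩; exact ⟨_, rfl⟩

/-- An elementary abelian subgroup of order 16 of `U` is `A1` or `A2`. -/
theorem e16 (E : Subgroup (Matrix.ProjectiveSpecialLinearGroup (Fin 3) F)) (hE : E ≤ U hF)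
    (h2 : ∀ x ∈ E, x ^ 2 = 1) (hc : Nat.card E = 16) : E = A1 hF ∨ E = A2 hF := by
  haveI : Finite (Matrix.ProjectiveSpecialLinearGroup (Fin 3) F) :=
    Nat.finite_of_card_ne_zero (by rw [card_P hF]; norm_num)
  have hu : ∀ x ∈ E, x ∈ A1 hF ∨ x ∈ A2 hF := by
    intro x hx
    obtain ⟨⟨a, b, c⟩, rfl⟩ := hE hx
    have h := h2 _ hx
    rw [pow_two, uP_mul, ← uP_zero] at h
    have h' := uP_inj h
    simp only [Prod.mk.injEq] at h'
    have hab : a * b = 0 := by linear_combination h'.2.2 - add_self hF c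
    rcases mul_eq_zero.1 hab with rfl | rfl
    · exact Or.inl ⟨(b, c), rfl⟩
    · exact Or.inr ⟨(a, c), rfl⟩
  by_cases h1 : E ≤ A1 hF
  · exact Or.inl (Subgroup.eq_of_le_of_card_ge h1 (by rw [card_A1, hc]))
  · obtain ⟨x, hx, hx1⟩ := SetLike.not_le_iff_exists.1 h1
    refine Or.inr (Subgroup.eq_of_le_of_card_ge (fun y hy => ?_) (by rw [card_A2, hc]))
    rcases hu y hy with hy1 | hy2
    · rcases hu _ (mul_mem hx hy) with h | h
      · exact absurd (by simpa using mul_mem h (inv_mem hy1)) hx1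
      · simpa using mul_mem (inv_mem ((hu x hx).resolve_left hx1)) h
    · exact hy2

theorem root1 (x : Matrix.ProjectiveSpecialLinearGroup (Fin 3) F) (hx : x ∈ A1 hF) (hx1 : x ≠ 1) :
    ∃ g, x = g * uP (0, 0, 1) * g⁻¹ := by
  obtain ⟨⟨b, c⟩, rfl⟩ := hx
  have hbc : b ≠ 0 ∨ c ≠ 0 := by
    by_contra! h
    exact hx1 (by simp [h.1, h.2, uP_zero])
  obtain ⟨s, t, hd⟩ : ∃ s t : F, c * t - s * b = 1 := by
    by_cases hc : c = 0
    · have hb := hbc.resolve_right (not_not.2 hc)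
      exact ⟨-b⁻¹, 0, by field_simp; ring⟩
    · exact ⟨0, c⁻¹, by field_simp; ring⟩
  let g : Matrix.SpecialLinearGroup (Fin 3) F := ⟨!![c, s, 0; b, t, 0; 0, 0, 1], by
    simp [Matrix.det_fin_three]; linear_combination hd⟩
  refine ⟨pr g, ?_⟩
  simp only [eq_mul_inv_iff_mul_eq, uP, ← map_mul]
  refine congrArg pr (Subtype.ext ?_)
  show (!![1, 0, c; 0, 1, b; 0, 0, 1] : Matrix (Fin 3) (Fin 3) F) * !![c, s, 0; b, t, 0; 0, 0, 1] =
    !![c, s, 0; b, t, 0; 0, 0, 1] * !![1, 0, 1; 0, 1, 0; 0, 0, 1]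
  ext i j
  fin_cases i <;> fin_cases j <;> simp [Matrix.mul_apply, Fin.sum_univ_three]

theorem root2 (x : Matrix.ProjectiveSpecialLinearGroup (Fin 3) F) (hx : x ∈ A2 hF) (hx1 : x ≠ 1) :
    ∃ g, x = g * uP (0, 0, 1) * g⁻¹ := by
  obtain ⟨⟨a, c⟩, rfl⟩ := hx
  have hac : a ≠ 0 ∨ c ≠ 0 := by
    by_contra! h
    exact hx1 (by simp [h.1, h.2, uP_zero])
  obtain ⟨t, w, hd⟩ : ∃ t w : F, a * t + c * w = 1 := by
    by_cases hc : c = 0
    · have ha := hac.resolve_right (not_not.2 hc)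
      exact ⟨a⁻¹, 0, by field_simp; ring⟩
    · exact ⟨0, c⁻¹, by field_simp; ring⟩
  let g : Matrix.SpecialLinearGroup (Fin 3) F := ⟨!![1, 0, 0; 0, c, t; 0, -a, w], by
    simp [Matrix.det_fin_three]; linear_combination hd⟩
  refine ⟨pr g, ?_⟩
  simp only [eq_mul_inv_iff_mul_eq, uP, ← map_mul]
  refine congrArg pr (Subtype.ext ?_)
  show (!![1, a, c; 0, 1, 0; 0, 0, 1] : Matrix (Fin 3) (Fin 3) F) * !![1, 0, 0; 0, c, t; 0, -a, w] =
    !![1, 0, 0; 0, c, t; 0, -a, w] * !![1, 0, 1; 0, 1, 0; 0, 0, 1]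
  ext i j
  fin_cases i <;> fin_cases j <;> simp [Matrix.mul_apply, Fin.sum_univ_three] <;>
    first | exact hd | ring

omit hF [Fintype F] in
/-- the product of a matrix with a parabolic one -/
theorem block1 (g h : Matrix.SpecialLinearGroup (Fin 3) F) (hh : h.1 2 0 = 0 ∧ h.1 2 1 = 0) :
    blkA (g * h) = blkA g * blkA h := by
  ext i j
  fin_cases i <;> fin_cases j <;> simp [blkA, Matrix.SpecialLinearGroup.coe_mul, Matrix.mul_apply, Fin.sum_univ_three, hh.1, hh.2]

omit hF [Fintype F] in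
theorem block2 (g h : Matrix.SpecialLinearGroup (Fin 3) F) (hg : g.1 1 0 = 0 ∧ g.1 2 0 = 0) :
    blkB (g * h) = blkB g * blkB h := by
  ext i j
  fin_cases i <;> fin_cases j <;> simp [blkB, Matrix.SpecialLinearGroup.coe_mul, Matrix.mul_apply, Fin.sum_univ_three, hg.1, hg.2]

/-- The data describing the normaliser of an elementary abelian subgroup. -/
def HasNorm (A : Subgroup (Matrix.ProjectiveSpecialLinearGroup (Fin 3) F)) : Prop :=
  ∃ (ψ : Matrix.SpecialLinearGroup (Fin 3) F → Matrix.SpecialLinearGroup (Fin 2) F) (Par : Set (Matrix.SpecialLinearGroup (Fin 3) F)),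
    (∀ g ∈ Par, ∀ h ∈ Par, g * h ∈ Par ∧ ψ (g * h) = ψ g * ψ h) ∧
    (∀ g, g ∈ Par ↔ pr g ∈ Subgroup.normalizer (A : Set (Matrix.ProjectiveSpecialLinearGroup (Fin 3) F))) ∧
    (∀ g ∈ Par, ψ g = 1 ↔ pr g ∈ A) ∧
    (∀ B, ∃ g ∈ Par, ψ g = B)

theorem norm_mk (A : Subgroup (Matrix.ProjectiveSpecialLinearGroup (Fin 3) F))
    (ψ : Matrix.SpecialLinearGroup (Fin 3) F → Matrix.SpecialLinearGroup (Fin 2) F) (Par : Set (Matrix.SpecialLinearGroup (Fin 3) F))
    (hone : (1 : Matrix.SpecialLinearGroup (Fin 3) F) ∈ Par)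
    (hm : ∀ g ∈ Par, ∀ h ∈ Par, g * h ∈ Par ∧ ψ (g * h) = ψ g * ψ h)
    (hk : ∀ g ∈ Par, ψ g = 1 ↔ pr g ∈ A)
    (hA : ∀ g, pr g ∈ A → g ∈ Par)
    (hN : ∀ g, pr g ∈ Subgroup.normalizer (A : Set (Matrix.ProjectiveSpecialLinearGroup (Fin 3) F)) → g ∈ Par)
    (hs : ∀ B, ∃ g ∈ Par, ψ g = B) : HasNorm A := by
  haveI : Finite (Matrix.SpecialLinearGroup (Fin 3) F) := inferInstance
  refine ⟨ψ, Par, hm, fun g => ⟨fun hg => ?_, hN g⟩, hk, hs⟩
  have hpow : ∀ n : ℕ, g ^ n ∈ Par := fun n => by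
    induction n with
    | zero => simpa using hone
    | succ n ih => rw [pow_succ]; exact (hm _ ih _ hg).1
  have hinv : g⁻¹ ∈ Par := by
    obtain ⟨n, hn⟩ : ∃ n, orderOf g = n + 1 := ⟨orderOf g - 1, by have := orderOf_pos g; omega⟩
    have : g⁻¹ = g ^ n := by
      refine inv_eq_of_mul_eq_one_right ?_
      rw [← pow_succ', ← hn, pow_orderOf_eq_one]
    rw [this]; exact hpow n
  have h1 : ψ (1 : Matrix.SpecialLinearGroup (Fin 3) F) = 1 := by
    have := (hm 1 hone 1 hone).2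
    rw [mul_one] at this
    exact mul_eq_left.1 this.symm
  have key : ∀ k ∈ Par, k⁻¹ ∈ Par → ∀ a ∈ A, pr k * a * (pr k)⁻¹ ∈ A := by
    intro k hk1 hk2 a ha
    obtain ⟨a0, rfl⟩ := pr_surjective a
    rw [← map_inv, ← map_mul, ← map_mul]
    have ha1 := hA a0 ha
    obtain ⟨e1, e2⟩ := hm k hk1 a0 ha1
    obtain ⟨e3, e4⟩ := hm _ e1 _ hk2
    refine (hk _ e3).1 ?_
    rw [e4, e2, (hk a0 ha1).2 ha, mul_one, ← (hm k hk1 _ hk2).2, mul_inv_cancel, h1]
  rw [Subgroup.mem_normalizer_iff]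
  intro a
  refine ⟨key g hg hinv a, fun ha => ?_⟩
  have := key g⁻¹ hinv (by rw [inv_inv]; exact hg) _ ha
  simpa [map_inv, mul_assoc] using this

theorem detblock (g : Matrix.SpecialLinearGroup (Fin 3) F) (hg : g.1 2 0 = 0 ∧ g.1 2 1 = 0) :
    g.1 2 2 * (blkA g).det = 1 := by
  have h : g.1.det = 1 := g.2
  rw [Matrix.det_fin_three, hg.1, hg.2] at h
  rw [Matrix.det_fin_two]
  simp [blkA, blkB]
  linear_combination h

theorem detblock2 (g : Matrix.SpecialLinearGroup (Fin 3) F) (hg : g.1 1 0 = 0 ∧ g.1 2 0 = 0) :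
    g.1 0 0 * (blkB g).det = 1 := by
  have h : g.1.det = 1 := g.2
  rw [Matrix.det_fin_three, hg.1, hg.2] at h
  rw [Matrix.det_fin_two]
  simp [blkA, blkB]
  linear_combination h

open Classical in
/-- normalise a `2 × 2` matrix to determinant one -/
noncomputable def toSL2 (B : Matrix (Fin 2) (Fin 2) F) : Matrix.SpecialLinearGroup (Fin 2) F :=
  if h : (B.det • B).det = 1 then ⟨B.det • B, h⟩ else 1

theorem toSL2_val {B : Matrix (Fin 2) (Fin 2) F} (hB : B.det ≠ 0) : (toSL2 B).1 = B.det • B := by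
  have h : (B.det • B).det = 1 := by
    rw [det_smul, Fintype.card_fin, ← pow_succ]; exact cube hF hB
  unfold toSL2
  exact congrArg Subtype.val (dif_pos h)

theorem toSL2_mul {B C : Matrix (Fin 2) (Fin 2) F} (hB : B.det ≠ 0) (hC : C.det ≠ 0) :
    toSL2 (B * C) = toSL2 B * toSL2 C := by
  apply Subtype.ext
  show (toSL2 (B * C)).1 = (toSL2 B).1 * (toSL2 C).1
  rw [toSL2_val hF (by rw [det_mul]; exact mul_ne_zero hB hC), toSL2_val hF hB, toSL2_val hF hC,
    det_mul, smul_mul_smul_comm]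

theorem toSL2_self (B : Matrix.SpecialLinearGroup (Fin 2) F) : toSL2 B.1 = B := by
  apply Subtype.ext
  rw [toSL2_val hF (by rw [B.2]; exact one_ne_zero), B.2, one_smul]

theorem norm1 : HasNorm (A1 hF) := by
  refine norm_mk hF _ (fun g => toSL2 (blkA g)) {g | g.1 2 0 = 0 ∧ g.1 2 1 = 0}
    ⟨by simp, by simp⟩ ?_ ?_ ?_ ?_ ?_
  · intro g hg h hh
    have hd := fun (k : Matrix.SpecialLinearGroup (Fin 3) F) (hk : k.1 2 0 = 0 ∧ k.1 2 1 = 0) =>
      right_ne_zero_of_mul_eq_one (detblock hF k hk)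
    refine ⟨⟨?_, ?_⟩, ?_⟩
    · show (g.1 * h.1) 2 0 = 0
      simp [Matrix.mul_apply, Fin.sum_univ_three, hg.1, hg.2, hh.1]
    · show (g.1 * h.1) 2 1 = 0
      simp [Matrix.mul_apply, Fin.sum_univ_three, hg.1, hg.2, hh.2]
    · show toSL2 (blkA (g * h)) = _
      rw [block1 g h hh, toSL2_mul hF (hd g hg) (hd h hh)]
  · intro g hg
    have hd := detblock hF g hg
    have hd0 := right_ne_zero_of_mul_eq_one hd
    constructor
    · intro h
      have h' : (toSL2 (blkA g)).1 = 1 := congrArg Subtype.val h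
      rw [toSL2_val hF hd0] at h'
      set d := (blkA g).det with hddef
      have e00 : d * g.1 0 0 = 1 := by simpa [blkA, blkB] using congrFun (congrFun h' 0) 0
      have e01 : g.1 0 1 = 0 := by simpa [blkA, blkB, hd0] using congrFun (congrFun h' 0) 1
      have e10 : g.1 1 0 = 0 := by simpa [blkA, blkB, hd0] using congrFun (congrFun h' 1) 0
      have e11 : d * g.1 1 1 = 1 := by simpa [blkA, blkB] using congrFun (congrFun h' 1) 1
      refine ⟨(g.1 1 2 * d, g.1 0 2 * d), pr_of (r := d⁻¹) (by rw [inv_pow, cube hF hd0, inv_one]) ?_⟩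
      have i00 : g.1 0 0 = d⁻¹ := eq_inv_of_mul_eq_one_right e00
      have i11 : g.1 1 1 = d⁻¹ := eq_inv_of_mul_eq_one_right e11
      have i22 : g.1 2 2 = d⁻¹ := eq_inv_of_mul_eq_one_left hd
      show g.1 = d⁻¹ • (!![1, 0, g.1 0 2 * d; 0, 1, g.1 1 2 * d; 0, 0, 1] : Matrix (Fin 3) (Fin 3) F)
      ext i j
      fin_cases i <;> fin_cases j <;> simp [i00, i11, i22, e01, e10, hg.1, hg.2] <;> field_simp
    · rintro ⟨⟨b, c⟩, hbc⟩
      obtain ⟨r, hr, e⟩ := pr_eq hbc
      apply Subtype.ext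
      show (toSL2 (blkA g)).1 = 1
      rw [toSL2_val hF hd0, Matrix.det_fin_two]
      simp only [blkA, blkB, e]
      ext i j
      fin_cases i <;> fin_cases j <;> simp [uT] <;> linear_combination hr
  · rintro g ⟨⟨b, c⟩, hbc⟩
    obtain ⟨r, -, e⟩ := pr_eq hbc
    refine ⟨?_, ?_⟩ <;> rw [e] <;> simp [uT]
  · intro g hg
    have key : ∀ p : F × F, ∃ q : F × F, g.1 * (uT (0, p.1, p.2)).1 = (uT (0, q.1, q.2)).1 * g.1 := by
      intro p
      have hp : uP (0, p.1, p.2) ∈ A1 hF := ⟨p, rfl⟩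
      obtain ⟨q, hq⟩ := (Subgroup.mem_normalizer_iff.1 hg _).1 hp
      change uP (0, q.1, q.2) = pr g * uP (0, p.1, p.2) * (pr g)⁻¹ at hq
      rw [eq_mul_inv_iff_mul_eq, uP, uP, ← map_mul, ← map_mul] at hq
      obtain ⟨r, hr, e⟩ := pr_eq hq.symm
      refine ⟨q, ?_⟩
      have e' : (uT (0, q.1, q.2)).1 * g.1 = r • (g.1 * (uT (0, p.1, p.2)).1) := e
      -- compare squares
      have sq : ∀ p : F × F, (uT (0, p.1, p.2)).1 * (uT (0, p.1, p.2)).1 = 1 := fun p => by
        show (uT (0, p.1, p.2) * uT (0, p.1, p.2)).1 = 1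
        rw [uT_mul]
        simp only [add_self hF, zero_mul, add_zero]
        rw [uT_zero]; rfl
      have : g.1 = (r * r) • g.1 := by
        calc g.1 = (uT (0, q.1, q.2)).1 * ((uT (0, q.1, q.2)).1 * g.1) := by rw [← mul_assoc, sq, one_mul]
          _ = r • ((uT (0, q.1, q.2)).1 * g.1 * (uT (0, p.1, p.2)).1) := by
            nth_rewrite 1 [e']
            rw [Matrix.mul_smul, ← mul_assoc]
          _ = (r * r) • g.1 := by rw [e', Matrix.smul_mul, mul_assoc, sq, mul_one, smul_smul]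
      have hr2 : r * r = 1 := by
        by_contra hne
        have hg0 : g.1 = 0 := by
          ext i j
          have := congrFun (congrFun this i) j
          simp only [Matrix.smul_apply, smul_eq_mul] at this
          by_contra h0
          exact hne (mul_right_cancel₀ h0 (by rw [one_mul]; exact this.symm))
        have h1 := g.2
        rw [hg0, det_zero] at h1
        exact zero_ne_one h1
      have hr1 : r = 1 := by linear_combination hr - r * hr2
      rw [e', hr1, one_smul]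
    obtain ⟨q, hq⟩ := key (0, 1)
    obtain ⟨q', hq'⟩ := key (1, 0)
    have h1 := congrFun (congrFun hq 2) 2
    have h2 := congrFun (congrFun hq' 2) 2
    simp [uT, Matrix.mul_apply, Fin.sum_univ_three] at h1 h2
    exact ⟨h1, h2⟩
  · intro B
    obtain ⟨g, h1, h2⟩ : ∃ g : Matrix.SpecialLinearGroup (Fin 3) F, (g.1 2 0 = 0 ∧ g.1 2 1 = 0) ∧
        blkA g = B.1 := by
      refine ⟨⟨!![B.1 0 0, B.1 0 1, 0; B.1 1 0, B.1 1 1, 0; 0, 0, 1], ?_⟩, ⟨by simp, by simp⟩, ?_⟩
      · have h := B.2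
        rw [Matrix.det_fin_two] at h
        simp [Matrix.det_fin_three]
        linear_combination h
      · ext i j
        fin_cases i <;> fin_cases j <;> simp [blkA, blkB]
    exact ⟨g, h1, by show toSL2 _ = B; rw [h2, toSL2_self hF]⟩

theorem norm2 : HasNorm (A2 hF) := by
  refine norm_mk hF _ (fun g => toSL2 (blkB g)) {g | g.1 1 0 = 0 ∧ g.1 2 0 = 0}
    ⟨by simp, by simp⟩ ?_ ?_ ?_ ?_ ?_
  · intro g hg h hh
    have hd := fun (k : Matrix.SpecialLinearGroup (Fin 3) F) (hk : k.1 1 0 = 0 ∧ k.1 2 0 = 0) =>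
      right_ne_zero_of_mul_eq_one (detblock2 hF k hk)
    refine ⟨⟨?_, ?_⟩, ?_⟩
    · show (g.1 * h.1) 1 0 = 0
      simp [Matrix.mul_apply, Fin.sum_univ_three, hg.1, hh.1, hh.2]
    · show (g.1 * h.1) 2 0 = 0
      simp [Matrix.mul_apply, Fin.sum_univ_three, hg.2, hh.1, hh.2]
    · show toSL2 (blkB (g * h)) = _
      rw [block2 g h hg, toSL2_mul hF (hd g hg) (hd h hh)]
  · intro g hg
    have hd := detblock2 hF g hg
    have hd0 := right_ne_zero_of_mul_eq_one hd
    constructor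
    · intro h
      have h' : (toSL2 (blkB g)).1 = 1 := congrArg Subtype.val h
      rw [toSL2_val hF hd0] at h'
      set d := (blkB g).det with hddef
      have e11 : d * g.1 1 1 = 1 := by simpa [blkA, blkB] using congrFun (congrFun h' 0) 0
      have e12 : g.1 1 2 = 0 := by simpa [blkA, blkB, hd0] using congrFun (congrFun h' 0) 1
      have e21 : g.1 2 1 = 0 := by simpa [blkA, blkB, hd0] using congrFun (congrFun h' 1) 0
      have e22 : d * g.1 2 2 = 1 := by simpa [blkA, blkB] using congrFun (congrFun h' 1) 1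
      refine ⟨(g.1 0 1 * d, g.1 0 2 * d), pr_of (r := d⁻¹) (by rw [inv_pow, cube hF hd0, inv_one]) ?_⟩
      have i22 : g.1 2 2 = d⁻¹ := eq_inv_of_mul_eq_one_right e22
      have i11 : g.1 1 1 = d⁻¹ := eq_inv_of_mul_eq_one_right e11
      have i00 : g.1 0 0 = d⁻¹ := eq_inv_of_mul_eq_one_left hd
      show g.1 = d⁻¹ • (!![1, g.1 0 1 * d, g.1 0 2 * d; 0, 1, 0; 0, 0, 1] : Matrix (Fin 3) (Fin 3) F)
      ext i j
      fin_cases i <;> fin_cases j <;> simp [i00, i11, i22, e12, e21, hg.1, hg.2] <;> field_simp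
    · rintro ⟨⟨a, c⟩, hac⟩
      obtain ⟨r, hr, e⟩ := pr_eq hac
      apply Subtype.ext
      show (toSL2 (blkB g)).1 = 1
      rw [toSL2_val hF hd0, Matrix.det_fin_two]
      simp only [blkA, blkB, e]
      ext i j
      fin_cases i <;> fin_cases j <;> simp [uT] <;> linear_combination hr
  · rintro g ⟨⟨a, c⟩, hac⟩
    obtain ⟨r, -, e⟩ := pr_eq hac
    refine ⟨?_, ?_⟩ <;> rw [e] <;> simp [uT]
  · intro g hg
    have key : ∀ p : F × F, ∃ q : F × F, g.1 * (uT (p.1, 0, p.2)).1 = (uT (q.1, 0, q.2)).1 * g.1 := by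
      intro p
      have hp : uP (p.1, 0, p.2) ∈ A2 hF := ⟨p, rfl⟩
      obtain ⟨q, hq⟩ := (Subgroup.mem_normalizer_iff.1 hg _).1 hp
      change uP (q.1, 0, q.2) = pr g * uP (p.1, 0, p.2) * (pr g)⁻¹ at hq
      rw [eq_mul_inv_iff_mul_eq, uP, uP, ← map_mul, ← map_mul] at hq
      obtain ⟨r, hr, e⟩ := pr_eq hq.symm
      refine ⟨q, ?_⟩
      have e' : (uT (q.1, 0, q.2)).1 * g.1 = r • (g.1 * (uT (p.1, 0, p.2)).1) := e
      have sq : ∀ p : F × F, (uT (p.1, 0, p.2)).1 * (uT (p.1, 0, p.2)).1 = 1 := fun p => by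
        show (uT (p.1, 0, p.2) * uT (p.1, 0, p.2)).1 = 1
        rw [uT_mul]
        simp only [add_self hF, mul_zero, add_zero]
        rw [uT_zero]; rfl
      have : g.1 = (r * r) • g.1 := by
        calc g.1 = (uT (q.1, 0, q.2)).1 * ((uT (q.1, 0, q.2)).1 * g.1) := by rw [← mul_assoc, sq, one_mul]
          _ = r • ((uT (q.1, 0, q.2)).1 * g.1 * (uT (p.1, 0, p.2)).1) := by
            nth_rewrite 1 [e']
            rw [Matrix.mul_smul, ← mul_assoc]
          _ = (r * r) • g.1 := by rw [e', Matrix.smul_mul, mul_assoc, sq, mul_one, smul_smul]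
      have hr2 : r * r = 1 := by
        by_contra hne
        have hg0 : g.1 = 0 := by
          ext i j
          have := congrFun (congrFun this i) j
          simp only [Matrix.smul_apply, smul_eq_mul] at this
          by_contra h0
          exact hne (mul_right_cancel₀ h0 (by rw [one_mul]; exact this.symm))
        have h1 := g.2
        rw [hg0, det_zero] at h1
        exact zero_ne_one h1
      have hr1 : r = 1 := by linear_combination hr - r * hr2
      rw [e', hr1, one_smul]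
    obtain ⟨q, hq⟩ := key (0, 1)
    have h1 := congrFun (congrFun hq 1) 2
    have h2 := congrFun (congrFun hq 2) 2
    simp [uT, Matrix.mul_apply, Fin.sum_univ_three] at h1 h2
    exact ⟨h1, h2⟩
  · intro B
    obtain ⟨g, h1, h2⟩ : ∃ g : Matrix.SpecialLinearGroup (Fin 3) F, (g.1 1 0 = 0 ∧ g.1 2 0 = 0) ∧
        blkB g = B.1 := by
      refine ⟨⟨!![1, 0, 0; 0, B.1 0 0, B.1 0 1; 0, B.1 1 0, B.1 1 1], ?_⟩, ⟨by simp, by simp⟩, ?_⟩
      · have h := B.2
        rw [Matrix.det_fin_two] at h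
        simp [Matrix.det_fin_three]
        linear_combination h
      · ext i j
        fin_cases i <;> fin_cases j <;> simp [blkA, blkB]
    exact ⟨g, h1, by show toSL2 _ = B; rw [h2, toSL2_self hF]⟩

omit hF in
theorem nonempty_psl2 (hF : Fintype.card F = 4) :
    Nonempty (Matrix.SpecialLinearGroup (Fin 2) F ≃* Matrix.ProjectiveSpecialLinearGroup (Fin 2) F) := by
  have h := Lib.Classical.card_center_SL (F := F) (ι := Fin 2)
  rw [hF, Fintype.card_fin] at h
  have hb : Subgroup.center (Matrix.SpecialLinearGroup (Fin 2) F) = ⊥ := Subgroup.card_eq_one.1 (h.trans (by norm_num))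
  exact ⟨(QuotientGroup.quotientBot.symm.trans (QuotientGroup.quotientMulEquivOfEq hb.symm))⟩

omit hF in
/-- Gaschütz for a 2-group. -/
theorem compl {N : Type u} [Group N] [Finite N] (H V R : Subgroup N) [H.Normal] [IsMulCommutative H]
    (hH2 : IsPGroup 2 H) (hHV : H ≤ V) (hodd : ¬ 2 ∣ V.index) (hRV : R ≤ V) (hd : H ⊓ R = ⊥)
    (hc : Nat.card V ≤ Nat.card H * Nat.card R) : ∃ L : Subgroup N, Subgroup.IsComplement' H L := by
  haveI : Fact (Nat.Prime 2) := ⟨Nat.prime_two⟩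
  obtain ⟨k, hk⟩ := hH2.exists_card_eq
  refine Lib.Hall.exists_complement_of_relative H hHV ?_ (A := R) ?_
  · rw [hk]; exact Nat.Coprime.pow_left k ((Nat.Prime.coprime_iff_not_dvd Nat.prime_two).2 hodd)
  · have hinj : Function.Injective (fun p : (H.subgroupOf V) × (R.subgroupOf V) => (p.1 : V) * p.2) := by
      refine Subgroup.mul_injective_of_disjoint ?_
      rw [disjoint_iff]
      show Subgroup.comap V.subtype H ⊓ Subgroup.comap V.subtype R = ⊥
      rw [← Subgroup.comap_inf, hd, MonoidHom.comap_bot, Subgroup.ker_subtype]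
    refine (Nat.bijective_iff_injective_and_card _).2 ⟨hinj, ?_⟩
    refine le_antisymm (Nat.card_le_card_of_injective _ hinj) ?_
    show Nat.card V ≤ Nat.card ((H.subgroupOf V) × (R.subgroupOf V))
    rw [Nat.card_prod, Nat.card_congr (Subgroup.subgroupOfEquivOfLe hHV).toEquiv,
      Nat.card_congr (Subgroup.subgroupOfEquivOfLe hRV).toEquiv]
    exact hc

variable {X : Type u} [Group X] [Finite X]

/-- Complement in the normaliser. -/
theorem split (f : X →* Matrix.ProjectiveSpecialLinearGroup (Fin 3) F) (hf : Function.Surjective f)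
    (A B : Subgroup (Matrix.ProjectiveSpecialLinearGroup (Fin 3) F)) (hn : HasNorm A)
    (hH : IsElementaryAbelian 2 (A.comap f)) (hK : IsElementaryAbelian 2 (B.comap f))
    (hAU : A ≤ U hF) (hBU : B ≤ U hF) (hodd : ¬ 2 ∣ ((U hF).comap f).index)
    (hcA : Nat.card A = 16)
    (k₁ k₂ : Matrix.ProjectiveSpecialLinearGroup (Fin 3) F) (h₁ : k₁ ∈ B) (h₂ : k₂ ∈ B)
    (hU : ∀ p, uP p ∈ Subgroup.normalizer (A : Set (Matrix.ProjectiveSpecialLinearGroup (Fin 3) F)))
    (hk : k₁ ∉ A ∧ k₂ ∉ A ∧ k₁ * k₂ ∉ A) :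
    ∃ C : Subgroup X, C ≤ Subgroup.normalizer ((A.comap f : Subgroup X) : Set X) ∧ C ⊓ A.comap f = ⊥ ∧
      A.comap f ⊔ C = Subgroup.normalizer ((A.comap f : Subgroup X) : Set X) ∧
        Nonempty (↥C ≃* Matrix.ProjectiveSpecialLinearGroup (Fin 2) F) := by
  haveI : Finite (Matrix.ProjectiveSpecialLinearGroup (Fin 3) F) :=
    Nat.finite_of_card_ne_zero (by rw [card_P hF]; norm_num)
  haveI : Fact (Nat.Prime 2) := ⟨Nat.prime_two⟩
  set H := A.comap f with hHdef
  set V := (U hF).comap f with hVdef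
  set N := Subgroup.normalizer ((H : Subgroup X) : Set X) with hNdef
  have hNeq : N = (Subgroup.normalizer (A : Set (Matrix.ProjectiveSpecialLinearGroup (Fin 3) F))).comap f :=
    (Subgroup.comap_normalizer_eq_of_surjective A hf).symm
  have hVN : V ≤ N := by
    intro x hx
    obtain ⟨p, hp⟩ := hx
    rw [hNeq, Subgroup.mem_comap, ← hp]
    exact hU p
  have hHV : H ≤ V := Subgroup.comap_mono hAU
  have hHN : H ≤ N := Subgroup.le_normalizer
  -- the small complement
  obtain ⟨x₁, rfl⟩ := hf k₁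
  obtain ⟨x₂, rfl⟩ := hf k₂
  have hx1 : x₁ ∈ B.comap f := h₁
  have hx2 : x₂ ∈ B.comap f := h₂
  have e1 : x₁ * x₁ = 1 := by rw [← pow_two]; exact hK.2 x₁ hx1
  have e2 : x₂ * x₂ = 1 := by rw [← pow_two]; exact hK.2 x₂ hx2
  have e12 : x₂ * x₁ = x₁ * x₂ := congrArg Subtype.val (hK.1.is_comm.comm ⟨x₂, hx2⟩ ⟨x₁, hx1⟩)
  have e21 : ∀ y, x₂ * (x₁ * y) = x₁ * (x₂ * y) := fun y => by rw [← mul_assoc, e12, mul_assoc]
  have e11 : ∀ y, x₁ * (x₁ * y) = y := fun y => by rw [← mul_assoc, e1, one_mul]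
  have e22 : ∀ y, x₂ * (x₂ * y) = y := fun y => by rw [← mul_assoc, e2, one_mul]
  let R : Subgroup X :=
    { carrier := {1, x₁, x₂, x₁ * x₂}
      one_mem' := by simp
      mul_mem' := by
        intro a b ha hb
        simp only [Set.mem_insert_iff, Set.mem_singleton_iff] at ha hb ⊢
        rcases ha with rfl | rfl | rfl | rfl <;> rcases hb with rfl | rfl | rfl | rfl <;>
          simp [mul_assoc, e1, e2, e12, e21, e11, e22]
      inv_mem' := by
        intro a ha
        simp only [Set.mem_insert_iff, Set.mem_singleton_iff] at ha ⊢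
        rcases ha with rfl | rfl | rfl | rfl
        · simp
        · exact Or.inr (Or.inl (inv_eq_of_mul_eq_one_right e1))
        · exact Or.inr (Or.inr (Or.inl (inv_eq_of_mul_eq_one_right e2)))
        · refine Or.inr (Or.inr (Or.inr (inv_eq_of_mul_eq_one_right ?_)))
          simp [mul_assoc, e2, e21, e1] }
  have hRK : R ≤ B.comap f := by
    intro a ha
    rcases ha with rfl | rfl | rfl | rfl
    · exact one_mem _
    · exact hx1
    · exact hx2
    · exact mul_mem hx1 hx2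
  have hdisj : H ⊓ R = ⊥ := by
    rw [eq_bot_iff]
    rintro a ⟨haH, ha⟩
    rcases ha with rfl | rfl | rfl | rfl
    · exact one_mem _
    · exact absurd haH hk.1
    · exact absurd haH hk.2.1
    · exact absurd (show f (x₁ * x₂) ∈ A from haH) (by rw [map_mul]; exact hk.2.2)
  have hR4 : 4 ≤ Nat.card R := by
    have hm : ∀ i : Fin 4, ![1, x₁, x₂, x₁ * x₂] i ∈ R := fun i => by fin_cases i <;> simp [R]
    have hinj : Function.Injective (fun i : Fin 4 => (⟨_, hm i⟩ : R)) := by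
      have n1 : x₁ ≠ 1 := fun h => hk.1 (by simp [h])
      have n2 : x₂ ≠ 1 := fun h => hk.2.1 (by simp [h])
      have n12 : x₁ * x₂ ≠ 1 := fun h => hk.2.2 (by rw [← map_mul, h, map_one]; exact one_mem _)
      have n3 : x₁ ≠ x₂ := fun h => n12 (by rw [h, e2])
      intro i j h
      have h' := congrArg Subtype.val h
      fin_cases i <;> fin_cases j <;>
        simp [n1, n2, n12, n3, Ne.symm n1, Ne.symm n2, Ne.symm n12, Ne.symm n3] at h' ⊢
    simpa using Nat.card_le_card_of_injective _ hinj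
  have hcardV : Nat.card V ≤ Nat.card H * Nat.card R := by
    have h1 : ∀ S : Subgroup (Matrix.ProjectiveSpecialLinearGroup (Fin 3) F), Nat.card (S.comap f) = Nat.card f.ker * Nat.card S := by
      intro S
      have e1 := (S.comap f).card_mul_index
      rw [Subgroup.index_comap_of_surjective _ hf, ← f.ker.card_mul_index,
        Subgroup.index_ker f, MonoidHom.range_eq_top.2 hf, Subgroup.card_top, ← S.card_mul_index,
        ← mul_assoc] at e1
      exact Nat.eq_of_mul_eq_mul_right (Nat.pos_of_ne_zero Subgroup.index_ne_zero_of_finite) e1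
    have := Nat.mul_le_mul_left (Nat.card H) hR4
    rw [hHdef, hVdef] at *
    rw [h1, h1, card_U hF, hcA] at *
    omega
  -- work inside the normaliser
  haveI : (H.subgroupOf N).Normal := Subgroup.normal_in_normalizer
  haveI : IsMulCommutative (H.subgroupOf N) := by
    exact ⟨⟨fun a b => Subtype.ext (Subtype.ext (congrArg Subtype.val (hH.1.is_comm.comm (⟨((a : N) : X), a.2⟩ : H) ⟨((b : N) : X), b.2⟩) :))⟩⟩
  have hH2 : IsPGroup 2 (H.subgroupOf N) := fun a => ⟨1, Subtype.ext (Subtype.ext (by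
    simpa using hH.2 _ a.2))⟩
  have hVodd : ¬ 2 ∣ (V.subgroupOf N).index := fun h => hodd (h.trans (by
    rw [← Subgroup.relIndex]; exact Subgroup.relIndex_dvd_index_of_le hVN))
  have hRN : R ≤ N := (hRK.trans (Subgroup.comap_mono hBU)).trans hVN
  obtain ⟨L, hL⟩ := compl (H.subgroupOf N) (V.subgroupOf N) (R.subgroupOf N) hH2
    (fun x hx => hHV hx) hVodd
    (fun x hx => (hRK.trans (Subgroup.comap_mono hBU)) hx)
    (by
      show Subgroup.comap N.subtype H ⊓ Subgroup.comap N.subtype R = ⊥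
      rw [← Subgroup.comap_inf, hdisj, MonoidHom.comap_bot, Subgroup.ker_subtype])
    (by rw [Nat.card_congr (Subgroup.subgroupOfEquivOfLe hVN).toEquiv,
      Nat.card_congr (Subgroup.subgroupOfEquivOfLe hHN).toEquiv,
      Nat.card_congr (Subgroup.subgroupOfEquivOfLe hRN).toEquiv]; exact hcardV)
  set C := L.map N.subtype with hCdef
  have hCN : C ≤ N := Subgroup.map_subtype_le L
  have hHmap : (H.subgroupOf N).map N.subtype = H := Subgroup.map_subgroupOf_eq_of_le hHN
  refine ⟨C, hCN, ?_, ?_, ?_⟩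
  · rw [eq_bot_iff]
    rintro _ ⟨⟨l, hl, rfl⟩, hx⟩
    have : l ∈ H.subgroupOf N ⊓ L := ⟨hx, hl⟩
    rw [hL.disjoint.eq_bot] at this
    rw [Subgroup.mem_bot] at this
    simp [this]
  · rw [← hHmap, hCdef, ← Subgroup.map_sup, hL.sup_eq_top, ← MonoidHom.range_eq_map, Subgroup.range_subtype]
  · obtain ⟨ψ, Par, hm, hP, hker, hs⟩ := hn
    have hwell : ∀ g ∈ Par, ∀ h ∈ Par, pr g = pr h → ψ g = ψ h := by
      intro g hg h hh e
      have h2 : pr (h⁻¹ * g) ∈ A := by rw [map_mul, map_inv, ← e, inv_mul_cancel]; exact one_mem _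
      have h3 : h⁻¹ * g ∈ Par := (hP _).2 (Subgroup.le_normalizer h2)
      have := (hm h hh _ h3).2
      rw [mul_inv_cancel_left, (hker _ h3).2 h2, mul_one] at this
      exact this
    have hex : ∀ c : C, ∃ g ∈ Par, pr g = f c := fun c => by
      obtain ⟨g, hg⟩ := pr_surjective (f (c : X))
      refine ⟨g, (hP g).2 ?_, hg⟩
      rw [hg]
      have := hCN c.2
      rw [hNeq] at this
      exact this
    choose s hsP hsf using hex
    let Φ : C →* Matrix.SpecialLinearGroup (Fin 2) F := MonoidHom.mk' (fun c => ψ (s c)) fun a b => by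
      rw [← (hm _ (hsP a) _ (hsP b)).2]
      refine hwell _ (hsP _) _ (hm _ (hsP a) _ (hsP b)).1 ?_
      rw [map_mul, hsf, hsf, hsf, Subgroup.coe_mul, map_mul]
    have hbij : Function.Bijective Φ := by
      refine ⟨(injective_iff_map_eq_one Φ).2 fun c hc => ?_, fun Q => ?_⟩
      · have h2 : f c ∈ A := by rw [← hsf]; exact (hker _ (hsP c)).1 hc
        obtain ⟨l, hl, hlc⟩ := c.2
        have : l ∈ H.subgroupOf N ⊓ L := ⟨by show f (N.subtype l) ∈ A; rw [hlc]; exact h2, hl⟩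
        rw [hL.disjoint.eq_bot, Subgroup.mem_bot] at this
        exact Subtype.ext (by rw [← hlc, this]; rfl)
      · obtain ⟨g, hg, rfl⟩ := hs Q
        obtain ⟨n, hn⟩ := hf (pr g)
        have hnN : n ∈ N := by rw [hNeq, Subgroup.mem_comap, hn]; exact (hP g).1 hg
        obtain ⟨⟨a, c⟩, hac⟩ := hL.2 ⟨n, hnN⟩
        refine ⟨⟨_, Subgroup.mem_map_of_mem _ c.2⟩, ?_⟩
        show ψ (s _) = ψ g
        set cc : C := ⟨N.subtype c, Subgroup.mem_map_of_mem _ c.2⟩
        have hval : ((a : N) : X) * (cc : X) = n := congrArg Subtype.val hac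
        have hA' : pr (g * (s cc)⁻¹) ∈ A := by
          rw [map_mul, map_inv, hsf, ← hn, ← hval, map_mul, mul_inv_cancel_right]
          exact a.2
        have hPar' : g * (s cc)⁻¹ ∈ Par := (hP _).2 (Subgroup.le_normalizer hA')
        have := (hm _ hPar' _ (hsP cc)).2
        rw [inv_mul_cancel_right, (hker _ hPar').2 hA', one_mul] at this
        exact this.symm
    obtain ⟨e⟩ := nonempty_psl2 hF
    exact ⟨(MulEquiv.ofBijective Φ hbij).trans e⟩

theorem elem (f : X →* Matrix.ProjectiveSpecialLinearGroup (Fin 3) F) (hf : Function.Surjective f)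
    (hker : f.ker = Subgroup.center X) (hZ : IsElementaryAbelian 2 (Subgroup.center X)) :
    IsElementaryAbelian 2 ((A1 hF).comap f) ∧ IsElementaryAbelian 2 ((A2 hF).comap f) := by
  obtain ⟨x₀, hx₀⟩ := hf (uP (0, 0, 1))
  set q := x₀ * x₀ with hq
  have hqZ : q ∈ Subgroup.center X := by
    rw [← hker, MonoidHom.mem_ker, hq, map_mul, hx₀, uP_mul, ← uP_zero]
    simp [add_self hF]
  have hsqq : ∀ x : X, f x ≠ 1 → (∃ g, f x = g * uP (0, 0, 1) * g⁻¹) → x * x = q := by
    rintro x - ⟨g, hg⟩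
    obtain ⟨y, rfl⟩ := hf g
    set z := (y * x₀ * y⁻¹)⁻¹ * x with hz
    have hzZ : z ∈ Subgroup.center X := by
      rw [← hker, MonoidHom.mem_ker, hz]
      simp only [map_mul, map_inv, hg, hx₀]
      group
    have hc : ∀ w, w * z = z * w := Subgroup.mem_center_iff.1 hzZ
    have hzz : z * z = 1 := by rw [← pow_two]; exact hZ.2 z hzZ
    have hx : x = y * x₀ * y⁻¹ * z := by rw [hz]; group
    rw [hx, mul_assoc (y * x₀ * y⁻¹) z, ← mul_assoc z (y * x₀ * y⁻¹) z, ← hc, mul_assoc (y * x₀ * y⁻¹) z z,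
      hzz, mul_one]
    calc y * x₀ * y⁻¹ * (y * x₀ * y⁻¹) = y * q * y⁻¹ := by rw [hq]; group
      _ = q := by rw [Subgroup.mem_center_iff.1 hqZ y, mul_inv_cancel_right]
  have h1 : ∀ x : X, f x ∈ A1 hF → f x ≠ 1 → x * x = q := fun x h h' => hsqq x h' (root1 hF _ h h')
  have h2 : ∀ x : X, f x ∈ A2 hF → f x ≠ 1 → x * x = q := fun x h h' => hsqq x h' (root2 hF _ h h')
  have hqc : ∀ w, w * q = q * w := Subgroup.mem_center_iff.1 hqZ
  -- pairs
  have pair : ∀ a b : X, a * a = q → b * b = q → a * b * (a * b) = q → a * b = q⁻¹ * (b * a) := by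
    intro a b ha hb hab
    have hb' : b⁻¹ = q⁻¹ * b := by
      rw [← hb]; group
    have ha' : a⁻¹ = q⁻¹ * a := by
      rw [← ha]; group
    have hqc' : ∀ w, w * q⁻¹ = q⁻¹ * w := Subgroup.mem_center_iff.1 (inv_mem hqZ)
    calc a * b = q * (b⁻¹ * a⁻¹) := by rw [← hab]; group
      _ = q * (q⁻¹ * b * (q⁻¹ * a)) := by rw [hb', ha']
      _ = q⁻¹ * (b * a) := by
        rw [mul_assoc q⁻¹ b, ← mul_assoc b q⁻¹ a, hqc' b, mul_inv_cancel_left, mul_assoc]
  obtain ⟨w, hw0, hw1⟩ := exists_omega hF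
  obtain ⟨a, ha⟩ := hf (uP (0, 0, 1))
  obtain ⟨b, hb⟩ := hf (uP (0, 1, 0))
  obtain ⟨c, hc⟩ := hf (uP (0, w, 0))
  have hm : ∀ (x : X) (p : F × F), f x = uP (0, p.1, p.2) → p ≠ 0 → x * x = q := by
    intro x p hx hp
    refine h1 x ⟨p, hx.symm⟩ fun h => hp ?_
    rw [hx, ← uP_zero] at h
    simpa [Prod.ext_iff] using uP_inj h
  have hq1 : q = 1 := by
    have sa := hm a (0, 1) ha (by simp)
    have sb := hm b (1, 0) hb (by simp)
    have sc := hm c (w, 0) hc (by simp [hw0])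
    have sab := hm (a * b) (1, 1) (by rw [map_mul, ha, hb, uP_mul]; simp) (by simp)
    have sac := hm (a * c) (w, 1) (by rw [map_mul, ha, hc, uP_mul]; simp) (by simp)
    have sbc := hm (b * c) (1 + w, 0) (by rw [map_mul, hb, hc, uP_mul]; simp) (by simp [hw1])
    have sabc := hm (a * (b * c)) (1 + w, 1) (by rw [map_mul, map_mul, ha, hb, hc, uP_mul, uP_mul]; simp)
      (by simp)
    have e1 := pair a (b * c) sa sbc sabc
    have e2 := pair a b sa sb sab
    have e3 := pair a c sa sc sac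
    have hqc' : ∀ v, v * q⁻¹ = q⁻¹ * v := Subgroup.mem_center_iff.1 (inv_mem hqZ)
    rw [← mul_assoc a b c, e2, mul_assoc, mul_assoc b a c, e3, ← mul_assoc b q⁻¹, hqc' b, mul_assoc,
      mul_assoc b c a] at e1
    have := mul_left_cancel e1
    exact inv_eq_one.1 (mul_eq_right.1 this)
  have fin : ∀ A : Subgroup (Matrix.ProjectiveSpecialLinearGroup (Fin 3) F),
      (∀ x : X, f x ∈ A → f x ≠ 1 → x * x = q) → IsElementaryAbelian 2 (A.comap f) := by
    intro A hA
    have hsq : ∀ x ∈ A.comap f, x * x = 1 := by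
      intro x hx
      by_cases h : f x = 1
      · have : x ∈ Subgroup.center X := by rw [← hker]; exact h
        rw [← pow_two]; exact hZ.2 x this
      · rw [hA x hx h, hq1]
    refine ⟨⟨⟨fun x y => Subtype.ext ?_⟩⟩, fun x hx => by rw [pow_two]; exact hsq x hx⟩
    have e := hsq _ (mul_mem x.2 y.2)
    show (x : X) * y = y * x
    have i1 := inv_eq_of_mul_eq_one_right (hsq _ x.2)
    have i2 := inv_eq_of_mul_eq_one_right (hsq _ y.2)
    rw [← inv_eq_of_mul_eq_one_right e, _root_.mul_inv_rev, i1, i2]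
  exact ⟨fin _ h1, fin _ h2⟩

theorem centre (f : X →* Matrix.ProjectiveSpecialLinearGroup (Fin 3) F) (hf : Function.Surjective f)
    (h1 : IsElementaryAbelian 2 ((A1 hF).comap f)) (h2 : IsElementaryAbelian 2 ((A2 hF).comap f)) :
    (A1 hF).comap f ⊓ (A2 hF).comap f =
      (Subgroup.center ↥((A1 hF).comap f ⊔ (A2 hF).comap f)).map ((A1 hF).comap f ⊔ (A2 hF).comap f).subtype := by
  set H := (A1 hF).comap f
  set K := (A2 hF).comap f
  refine le_antisymm ?_ ?_
  · rintro x ⟨hx1, hx2⟩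
    refine ⟨⟨x, Subgroup.mem_sup_left hx1⟩, Subgroup.mem_center_iff.2 fun y => Subtype.ext ?_, rfl⟩
    have hle : H ⊔ K ≤ Subgroup.centralizer ({x} : Set X) := sup_le
      (fun h hh => Subgroup.mem_centralizer_singleton_iff.2
        (congrArg Subtype.val (h1.1.is_comm.comm ⟨h, hh⟩ ⟨x, hx1⟩)))
      (fun h hh => Subgroup.mem_centralizer_singleton_iff.2
        (congrArg Subtype.val (h2.1.is_comm.comm ⟨h, hh⟩ ⟨x, hx2⟩)))
    exact Subgroup.mem_centralizer_singleton_iff.1 (hle y.2)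
  · rintro _ ⟨x, hx, rfl⟩
    have hcm : ∀ y ∈ H ⊔ K, y * (x : X) = x * y := fun y hy =>
      congrArg Subtype.val (Subgroup.mem_center_iff.1 hx ⟨y, hy⟩)
    obtain ⟨⟨a, b, c⟩, hp⟩ : f (x : X) ∈ U hF :=
      (sup_le (Subgroup.comap_mono (A1_le hF)) (Subgroup.comap_mono (A2_le hF))) x.2
    obtain ⟨h, hh⟩ := hf (uP (0, 1, 0))
    obtain ⟨k, hk⟩ := hf (uP (1, 0, 0))
    have ea := congrArg f (hcm h (Subgroup.mem_sup_left (show f h ∈ A1 hF from ⟨(1, 0), hh.symm⟩)))
    have eb := congrArg f (hcm k (Subgroup.mem_sup_right (show f k ∈ A2 hF from ⟨(1, 0), hk.symm⟩)))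
    rw [map_mul, map_mul, hh, ← hp, uP_mul, uP_mul] at ea
    rw [map_mul, map_mul, hk, ← hp, uP_mul, uP_mul] at eb
    have ea' := uP_inj ea
    have eb' := uP_inj eb
    simp [add_comm] at ea' eb'
    obtain ⟨rfl, rfl⟩ : a = 0 ∧ b = 0 := ⟨ea', eb'⟩
    exact ⟨show f (x : X) ∈ A1 hF from ⟨(0, c), hp⟩, show f (x : X) ∈ A2 hF from ⟨(0, c), hp⟩⟩

omit hF in
/-- the conclusion -/
def Concl (F : Type v) [Field F] {X : Type u} [Group X] (H K : Subgroup X) : Prop :=
  Cfsg.IsElementaryAbelian 2 H ∧ Cfsg.IsElementaryAbelian 2 K ∧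
      H ⊓ K = (Subgroup.center ↥(H ⊔ K)).map (H ⊔ K).subtype ∧
      (∃ C : Subgroup X, C ≤ Subgroup.normalizer (H : Set X) ∧ C ⊓ H = ⊥ ∧ H ⊔ C = Subgroup.normalizer (H : Set X) ∧
        Nonempty (↥C ≃* Matrix.ProjectiveSpecialLinearGroup (Fin 2) F)) ∧
      (∃ C : Subgroup X, C ≤ Subgroup.normalizer (K : Set X) ∧ C ⊓ K = ⊥ ∧ K ⊔ C = Subgroup.normalizer (K : Set X) ∧
        Nonempty (↥C ≃* Matrix.ProjectiveSpecialLinearGroup (Fin 2) F))

theorem main (f : X →* Matrix.ProjectiveSpecialLinearGroup (Fin 3) F) (hf : Function.Surjective f)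
    (hker : f.ker = Subgroup.center X) (hZ : IsElementaryAbelian 2 (Subgroup.center X))
    (hodd : ¬ 2 ∣ ((U hF).comap f).index) :
    Concl F ((A1 hF).comap f) ((A2 hF).comap f) := by
  obtain ⟨h1, h2⟩ := elem hF f hf hker hZ
  obtain ⟨w, hw0, hw1⟩ := exists_omega hF
  have hU1 : ∀ p, uP p ∈ Subgroup.normalizer (A1 hF : Set (Matrix.ProjectiveSpecialLinearGroup (Fin 3) F)) := by
    intro p
    rw [Subgroup.mem_normalizer_iff]
    intro x
    have key : ∀ p : F × F × F, ∀ x ∈ A1 hF, uP p * x * (uP p)⁻¹ ∈ A1 hF := by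
      rintro p _ ⟨q, rfl⟩
      refine ⟨(q.1, q.2 + p.1 * q.1), ?_⟩
      rw [eq_mul_inv_iff_mul_eq, uP_mul, uP_mul]
      simp [add_comm, add_left_comm, add_assoc]
    refine ⟨key p x, fun h => ?_⟩
    have := key (p.1, p.2.1, p.2.2 + p.1 * p.2.1) _ h
    rw [← uP_inv hF] at this
    simpa [mul_assoc] using this
  have hU2 : ∀ p, uP p ∈ Subgroup.normalizer (A2 hF : Set (Matrix.ProjectiveSpecialLinearGroup (Fin 3) F)) := by
    intro p
    rw [Subgroup.mem_normalizer_iff]
    intro x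
    have key : ∀ p : F × F × F, ∀ x ∈ A2 hF, uP p * x * (uP p)⁻¹ ∈ A2 hF := by
      rintro p _ ⟨q, rfl⟩
      refine ⟨(q.1, q.2 - q.1 * p.2.1), ?_⟩
      rw [eq_mul_inv_iff_mul_eq, uP_mul, uP_mul]
      refine congrArg uP (Prod.ext (add_comm _ _) (Prod.ext (by simp) ?_))
      simp; ring
    refine ⟨key p x, fun h => ?_⟩
    have := key (p.1, p.2.1, p.2.2 + p.1 * p.2.1) _ h
    rw [← uP_inv hF] at this
    simpa [mul_assoc] using this
  refine ⟨h1, h2, centre hF f hf h1 h2, ?_, ?_⟩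
  · refine split hF f hf _ _ (norm1 hF) h1 h2 (A1_le hF) (A2_le hF) hodd (card_A1 hF)
      (uP (1, 0, 0)) (uP (w, 0, 0)) ⟨(1, 0), rfl⟩ ⟨(w, 0), rfl⟩ hU1 ⟨?_, ?_, ?_⟩
    all_goals
      rintro ⟨q, hq⟩
      simp only [uP_mul] at hq
      have := uP_inj hq
      simp [Prod.ext_iff, hw0, Ne.symm hw0, hw1, Ne.symm hw1] at this
  · refine split hF f hf _ _ (norm2 hF) h2 h1 (A2_le hF) (A1_le hF) hodd (card_A2 hF)
      (uP (0, 1, 0)) (uP (0, w, 0)) ⟨(1, 0), rfl⟩ ⟨(w, 0), rfl⟩ hU2 ⟨?_, ?_, ?_⟩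
    all_goals
      rintro ⟨q, hq⟩
      simp only [uP_mul] at hq
      have := uP_inj hq
      simp [Prod.ext_iff, hw0, Ne.symm hw0, hw1, Ne.symm hw1] at this

end four

/-- Let X be a finite quasisimple group whose centre is an elementary abelian 2-group and whose central quotient is isomorphic to the projective special linear group of dimension 3 over the field with 4 elements. Let T be a Sylow 2-subgroup of X and H ≠ K subgroups of T containing the centre Z(X) whose images in X/Z(X) are elementary abelian of order 16 (the two such subgroups of a Sylow 2-subgroup of the quotient). Then H and K are elementary abelian, H ∩ K is the centre of the subgroup they generate, and each of N_X(H), N_X(K) is a split extension of H, respectively K, by the projective special linear group of dimension 2 over the field with 4 elements (there is a complement isomorphic to that group). -/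
theorem result {X : Type*} [Group X] [Finite X] (hq : Cfsg.IsQuasisimple X) (hZ : Cfsg.IsElementaryAbelian 2 (Subgroup.center X))
    {F : Type*} [Field F] [Fintype F] (hF : Fintype.card F = 4) (hXL : Nonempty ((X ⧸ Subgroup.center X) ≃* Matrix.ProjectiveSpecialLinearGroup (Fin 3) F))
    (T : Sylow 2 X) (H K : Subgroup X) (hHK : H ≠ K) (hHT : H ≤ T) (hKT : K ≤ T) (hZH : Subgroup.center X ≤ H) (hZK : Subgroup.center X ≤ K)
    (hH : Cfsg.IsElementaryAbelian 2 (H.map (QuotientGroup.mk' (Subgroup.center X))) ∧ Nat.card ↥(H.map (QuotientGroup.mk' (Subgroup.center X))) = 16)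
    (hK : Cfsg.IsElementaryAbelian 2 (K.map (QuotientGroup.mk' (Subgroup.center X))) ∧ Nat.card ↥(K.map (QuotientGroup.mk' (Subgroup.center X))) = 16) :
    Cfsg.IsElementaryAbelian 2 H ∧ Cfsg.IsElementaryAbelian 2 K ∧
      H ⊓ K = (Subgroup.center ↥(H ⊔ K)).map (H ⊔ K).subtype ∧
      (∃ C : Subgroup X, C ≤ Subgroup.normalizer (H : Set X) ∧ C ⊓ H = ⊥ ∧ H ⊔ C = Subgroup.normalizer (H : Set X) ∧
        Nonempty (↥C ≃* Matrix.ProjectiveSpecialLinearGroup (Fin 2) F)) ∧
      (∃ C : Subgroup X, C ≤ Subgroup.normalizer (K : Set X) ∧ C ⊓ K = ⊥ ∧ K ⊔ C = Subgroup.normalizer (K : Set X) ∧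
        Nonempty (↥C ≃* Matrix.ProjectiveSpecialLinearGroup (Fin 2) F)) := by
  obtain ⟨e⟩ := hXL
  haveI : Fact (Nat.Prime 2) := ⟨Nat.prime_two⟩
  haveI : Finite (Matrix.ProjectiveSpecialLinearGroup (Fin 3) F) := Nat.finite_of_card_ne_zero (by rw [card_P hF]; norm_num)
  let f₀ : X →* Matrix.ProjectiveSpecialLinearGroup (Fin 3) F := e.toMonoidHom.comp (QuotientGroup.mk' _)
  have hf₀ : Function.Surjective f₀ := e.surjective.comp (QuotientGroup.mk'_surjective _)
  -- a Sylow subgroup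
  have hUp : IsPGroup 2 (U hF) := IsPGroup.of_card (n := 6) (by rw [card_U hF]; norm_num)
  have hUi : ¬ 2 ∣ (U hF).index := by
    have := (U hF).card_mul_index
    rw [card_U hF, card_P hF] at this
    omega
  obtain ⟨g, hg⟩ := MulAction.exists_smul_eq (Matrix.ProjectiveSpecialLinearGroup (Fin 3) F)
    (T.mapSurjective hf₀) (hUp.toSylow hUi)
  let f : X →* Matrix.ProjectiveSpecialLinearGroup (Fin 3) F := (MulAut.conj g).toMonoidHom.comp f₀
  have hf : Function.Surjective f := (MulAut.conj g).surjective.comp hf₀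
  have hker : f.ker = Subgroup.center X := by
    ext x
    simp [f, f₀, MonoidHom.mem_ker]
  have hfT : (T : Subgroup X).map f = U hF := by
    have h := congrArg Sylow.toSubgroup hg
    rw [Sylow.coe_subgroup_smul, Sylow.coe_mapSurjective] at h
    rw [show f = (MulAut.conj g).toMonoidHom.comp f₀ from rfl, ← Subgroup.map_map]
    exact h
  have hT : (T : Subgroup X) = (U hF).comap f := by
    rw [← hfT, Subgroup.comap_map_eq_self]
    rw [hker]; exact hZH.trans hHT
  have himg : ∀ S : Subgroup X, Cfsg.IsElementaryAbelian 2 (S.map (QuotientGroup.mk' (Subgroup.center X))) →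
      Nat.card ↥(S.map (QuotientGroup.mk' (Subgroup.center X))) = 16 → S ≤ T → Subgroup.center X ≤ S →
      S = (A1 hF).comap f ∨ S = (A2 hF).comap f := by
    intro S hS hc hST hZS
    have hmap : S.map f = ((S.map (QuotientGroup.mk' (Subgroup.center X))).map e.toMonoidHom).map
        (MulAut.conj g).toMonoidHom := by
      rw [Subgroup.map_map, Subgroup.map_map]
      rfl
    have hS' : S.map f = A1 hF ∨ S.map f = A2 hF := by
      refine e16 hF _ (hfT ▸ Subgroup.map_mono hST) ?_ ?_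
      · rintro _ ⟨x, hx, rfl⟩
        have := hS.2 _ ⟨x, hx, rfl⟩
        show f x ^ 2 = 1
        simp only [f, f₀, MonoidHom.comp_apply]
        rw [← map_pow, ← map_pow, this, map_one, map_one]
      · rw [hmap, Subgroup.card_map_of_injective (MulAut.conj g).injective,
          Subgroup.card_map_of_injective e.injective, hc]
    rcases hS' with h | h
    · left; rw [← h, Subgroup.comap_map_eq_self]; rw [hker]; exact hZS
    · right; rw [← h, Subgroup.comap_map_eq_self]; rw [hker]; exact hZS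
  have hodd : ¬ 2 ∣ ((U hF).comap f).index := hT ▸ T.not_dvd_index
  have hM := main hF f hf hker hZ hodd
  rcases himg H hH.1 hH.2 hHT hZH with h | h <;> rcases himg K hK.1 hK.2 hKT hZK with k | k
  · exact absurd (h.trans k.symm) hHK
  · rw [h, k]; exact hM
  · obtain ⟨a, b, c, d, e'⟩ := hM
    rw [h, k]
    refine ⟨b, a, ?_, e', d⟩
    rw [inf_comm]
    convert c using 1
    rw [sup_comm]
  · exact absurd (h.trans k.symm) hHK

end Cfsg.Agent.S3154
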