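import Cfsg.Statements.S3155
import Mathlib

set_option autoImplicit false
open Cfsg

namespace Cfsg.Agent.S3155

theorem four {M : Type*} [AddCommGroup M] [Module (ZMod 4) M] [Module.Free (ZMod 4) M]
    [Module.Finite (ZMod 4) M] (h : Module.finrank (ZMod 4) M = 3) (f : M →ₗ[ZMod 4] M) :
    f ∘ₗ f ≠ (-1 : ZMod 4) • LinearMap.id := by
  intro he
  have h1 := congrArg LinearMap.det he
  rw [LinearMap.det_comp, LinearMap.det_smul, h, LinearMap.det_id] at h1
  generalize LinearMap.det f = d at h1
  revert h1 d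
  decide

/-- Let B be the direct product of three cyclic groups of order 4. Then the automorphism of B inverting every element is not the square of any automorphism of B. -/
theorem result {B : Type*} [CommGroup B] [Finite B] (hB : Nonempty (B ≃* Multiplicative (ZMod 4 × ZMod 4 × ZMod 4)))
    (τ : B ≃* B) : τ.trans τ ≠ MulEquiv.inv B := by
  obtain ⟨e⟩ := hB
  intro h
  haveI : Fact (1 < 4) := ⟨by norm_num⟩
  let σ : Multiplicative (ZMod 4 × ZMod 4 × ZMod 4) ≃* Multiplicative (ZMod 4 × ZMod 4 × ZMod 4) :=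
    e.symm.trans (τ.trans e)
  let f : (ZMod 4 × ZMod 4 × ZMod 4) →+ (ZMod 4 × ZMod 4 × ZMod 4) :=
    MonoidHom.toAdditive σ.toMonoidHom
  apply four (M := ZMod 4 × ZMod 4 × ZMod 4) (by simp) (f.toZModLinearMap 4)
  refine LinearMap.ext fun v => ?_
  have h1 : τ (τ (e.symm (Multiplicative.ofAdd v))) = (e.symm (Multiplicative.ofAdd v))⁻¹ := by
    have := congrArg (fun q : B ≃* B => q (e.symm (Multiplicative.ofAdd v))) h
    simpa using this
  have h2 : σ (σ (Multiplicative.ofAdd v)) = (Multiplicative.ofAdd v)⁻¹ := by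
    simp only [σ, MulEquiv.trans_apply, MulEquiv.symm_apply_apply]
    rw [h1, map_inv, MulEquiv.apply_symm_apply]
  simp only [LinearMap.coe_comp, Function.comp_apply, LinearMap.smul_apply, LinearMap.id_coe, id_eq,
    neg_smul, one_smul]
  exact congrArg Multiplicative.toAdd h2

end Cfsg.Agent.S3155
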