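import Cfsg.Statements.S3157
import Cfsg.Agent.Lib.FpfThree.Main

set_option autoImplicit false
open Cfsg

namespace Cfsg.Agent.S3157

/-- Let T be a non-abelian group of order 64 admitting automorphisms ρ of order 3 and x of order 2 with x ρ x⁻¹ = ρ⁻¹ (so they generate a symmetric group of degree 3), where ρ fixes only the identity. Then T is isomorphic to a Sylow 2-subgroup of the projective special linear group of dimension 3 over the field with 4 elements, and the subgroup of fixed points of x is dihedral of order 8 or quaternion of order 8. -/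
theorem result {T : Type*} [Group T] [Finite T] (hT : Nat.card T = 64) (hna : ¬ IsMulCommutative T) (ρ x : MulAut T) (hρ : orderOf ρ = 3) (hx : orderOf x = 2)
    (hxr : x * ρ * x⁻¹ = ρ⁻¹) (hfp : ∀ y : T, ρ y = y → y = 1) (C : Subgroup T) (hC : ∀ y : T, y ∈ C ↔ x y = y) :
    (∃ (F : Type) (_ : Field F) (_ : Fintype F), Fintype.card F = 4 ∧
        ∃ S : Sylow 2 (Matrix.ProjectiveSpecialLinearGroup (Fin 3) F), Nonempty (T ≃* ↥(S : Subgroup (Matrix.ProjectiveSpecialLinearGroup (Fin 3) F)))) ∧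
      (Nonempty (↥C ≃* DihedralGroup 4) ∨ Nonempty (↥C ≃* QuaternionGroup 2)) := by
  have hne : ∃ a b : T, a * b ≠ b * a := by
    by_contra! h
    exact hna ⟨⟨h⟩⟩
  have h3 : ∀ y, ρ (ρ (ρ y)) = y := fun y => by
    show (ρ * ρ * ρ) y = y
    rw [show ρ * ρ * ρ = ρ ^ 3 by rw [pow_succ, pow_succ, pow_one], ← hρ, pow_orderOf_eq_one, MulAut.one_apply]
  have hx2 : ∀ y, x (x y) = y := fun y => by
    show (x * x) y = y
    rw [show x * x = x ^ 2 from (sq x).symm, ← hx, pow_orderOf_eq_one, MulAut.one_apply]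
  refine Cfsg.Agent.Lib.FpfThree.main64 hT hne ⟨h3, hfp⟩ x hx2 (fun y => ?_) C hC
  have he : x * ρ = ρ⁻¹ * x := by rw [← hxr, inv_mul_cancel_right]
  have hinv : ρ⁻¹ = ρ * ρ := inv_eq_of_mul_eq_one_right (by
    rw [show ρ * (ρ * ρ) = ρ ^ 3 by rw [pow_succ, pow_succ, pow_one, mul_assoc], ← hρ, pow_orderOf_eq_one])
  show (x * ρ) y = (ρ * ρ) (x y)
  rw [he, hinv]; rfl

end Cfsg.Agent.S3157
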