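import Cfsg.Statements.S3161
import Cfsg.Agent.Lib.PairTwo.Form
import Cfsg.Agent.Lib.PairTwo.Induction

set_option autoImplicit false
open Cfsg

namespace Cfsg.Agent.S3161

open scoped commutatorElement
open Cfsg.Agent.Lib.PairTwo

universe u

/-- The field acting on the fixed point group. -/
theorem exists_field {Q : Type u} [Group Q] [Finite Q] (n : ℕ) (hn : 2 ≤ n) (e : MulAut Q) (C : Subgroup Q)
    (hC : ∀ x ∈ C, e x ∈ C) (hC2 : ∀ x ∈ C, x * x = 1) (hcard : Nat.card C = 2 ^ n)
    (hper : e ^ (2 ^ n - 1) = 1)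
    (htr : ∀ x y : Q, x ∈ C → y ∈ C → x ≠ 1 → y ≠ 1 → ∃ k : ℕ, (e ^ k) x = y) :
    ∃ (K : Type) (_ : Field K) (_ : Fintype K) (_ : CharP K 2) (g : K), Gen g n ∧ Lin g e C ⊥ := by
  classical
  have hq : 4 ≤ 2 ^ n := by
    calc 4 = 2 ^ 2 := by norm_num
      _ ≤ 2 ^ n := Nat.pow_le_pow_right (by norm_num) hn
  letI : CommGroup C :=
    { (inferInstance : Group C) with mul_comm := fun a b => Subtype.ext (comm_of_sq hC2 a.2 b.2) }
  let er : AddMonoid.End (Additive C) :=
    { toFun := fun v => Additive.ofMul ⟨e (Additive.toMul v : C), hC _ (Additive.toMul v : C).2⟩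
      map_zero' := congrArg Additive.ofMul (Subtype.ext (map_one e))
      map_add' := fun a b => congrArg Additive.ofMul (Subtype.ext (map_mul e _ _)) }
  have herpow : ∀ (k : ℕ) (v : Additive C), ((Additive.toMul ((er ^ k) v) : C) : Q) = (e ^ k) (Additive.toMul v : C) := by
    intro k
    induction k with
    | zero => intro v; rfl
    | succ k ih =>
      intro v
      show ((Additive.toMul ((er ^ (k + 1)) v) : C) : Q) = _
      rw [pow_succ, pow_succ]
      exact ih (er v)
  obtain ⟨c0, hc0, hc01⟩ : ∃ c ∈ C, c ≠ 1 := by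
    by_contra! h
    rw [(Subgroup.eq_bot_iff_forall C).2 h, Subgroup.card_bot] at hcard
    omega
  let v0 : Additive C := Additive.ofMul ⟨c0, hc0⟩
  have hgen : ∀ v : Additive C, v ≠ 0 → ∃ k : ℕ, (er ^ k) v0 = v := by
    intro v hv
    obtain ⟨k, hk⟩ := htr c0 (Additive.toMul v : C) hc0 (Additive.toMul v : C).2 hc01 (fun h => hv (by
      exact (Subtype.ext h : (Additive.toMul v : C) = 1)))
    exact ⟨k, Additive.toMul.injective (Subtype.ext (by rw [herpow]; exact hk))⟩
  let S : Subring (AddMonoid.End (Additive C)) := Subring.centralizer {er}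
  have hmemS : ∀ k : ℕ, er ^ k ∈ S := fun k => Subring.mem_centralizer_iff.2 fun x hx => by
    rw [Set.mem_singleton_iff.1 hx]; exact ((Commute.refl er).pow_right k).eq
  have hcl : ∀ f ∈ S, f = 0 ∨ ∃ k : ℕ, f = er ^ k := by
    intro f hf
    have hfc : ∀ (k : ℕ) v, f ((er ^ k) v) = (er ^ k) (f v) := fun k v => by
      have h : Commute er f := Subring.mem_centralizer_iff.1 hf er rfl
      exact (congrArg (fun φ : AddMonoid.End (Additive C) => φ v) (h.pow_left k).eq).symm
    by_cases h0 : f v0 = 0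
    · refine Or.inl (DFunLike.ext _ _ fun v => ?_)
      by_cases hv : v = 0
      · rw [hv]; exact map_zero f
      · obtain ⟨k, rfl⟩ := hgen v hv
        rw [hfc, h0, map_zero]; rfl
    · obtain ⟨m, hm⟩ := hgen (f v0) h0
      refine Or.inr ⟨m, DFunLike.ext _ _ fun v => ?_⟩
      by_cases hv : v = 0
      · rw [hv]; exact (map_zero f).trans (map_zero _).symm
      · obtain ⟨k, rfl⟩ := hgen v hv
        rw [hfc, ← hm]
        exact congrArg (fun φ : AddMonoid.End (Additive C) => φ v0) ((Commute.refl er).pow_pow k m).eq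
  have hv0 : v0 ≠ 0 := fun h => hc01 (congrArg (fun v : Additive C => ((Additive.toMul v : C) : Q)) h)
  let ev : S → Additive C := fun f => (f : AddMonoid.End (Additive C)) v0
  have hev : Function.Bijective ev := by
    constructor
    · intro f g h
      have hsub : ((f : AddMonoid.End (Additive C)) - g) v0 = 0 := by
        show (f : AddMonoid.End (Additive C)) v0 - (g : AddMonoid.End (Additive C)) v0 = 0
        exact sub_eq_zero.2 h
      rcases hcl _ (S.sub_mem f.2 g.2) with h' | ⟨k, hk⟩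
      · exact Subtype.ext (sub_eq_zero.1 h')
      · exfalso
        rw [hk] at hsub
        have := congrArg (fun v : Additive C => ((Additive.toMul v : C) : Q)) hsub
        simp only [herpow] at this
        exact hc01 ((e ^ k).injective (this.trans (map_one _).symm))
    · intro v
      by_cases hv : v = 0
      · exact ⟨0, hv ▸ rfl⟩
      · obtain ⟨k, hk⟩ := hgen v hv
        exact ⟨⟨er ^ k, hmemS k⟩, hk⟩
  haveI : Finite S := Finite.of_injective ev hev.1
  have hperr : er ^ (2 ^ n - 1) = 1 := DFunLike.ext _ _ fun v => Additive.toMul.injective (Subtype.ext (by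
    rw [herpow, hper]; rfl))
  have hfield : IsField S := by
    refine ⟨⟨0, 1, fun h => hv0 ?_⟩, fun a b => ?_, fun {a} ha => ?_⟩
    · exact (congrArg ev h.symm : (1 : AddMonoid.End (Additive C)) v0 = 0)
    · rcases hcl a a.2 with h | ⟨k, hk⟩
      · rw [show a = 0 from Subtype.ext h, zero_mul, mul_zero]
      · rcases hcl b b.2 with h | ⟨l, hl⟩
        · rw [show b = 0 from Subtype.ext h, zero_mul, mul_zero]
        · refine Subtype.ext ?_
          show (a : AddMonoid.End (Additive C)) * b = b * a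
          rw [hk, hl, ← pow_add, ← pow_add, add_comm]
    · rcases hcl a a.2 with h | ⟨k, hk⟩
      · exact absurd (Subtype.ext h) ha
      · refine ⟨⟨er ^ ((2 ^ n - 1) * k - k), hmemS _⟩, Subtype.ext ?_⟩
        show (a : AddMonoid.End (Additive C)) * er ^ ((2 ^ n - 1) * k - k) = 1
        rw [hk, ← pow_add, Nat.add_sub_cancel' (Nat.le_mul_of_pos_left k (by omega)), pow_mul, hperr, one_pow]
  letI : Field S := hfield.toField
  letI : Fintype S := Fintype.ofFinite S
  let K := GaloisField 2 n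
  letI : Fintype K := Fintype.ofFinite K
  have hK : Fintype.card K = 2 ^ n := by
    rw [← Nat.card_eq_fintype_card, GaloisField.card 2 n (by omega)]
  have hS : Fintype.card S = Fintype.card K := by
    rw [hK, ← Nat.card_eq_fintype_card, Nat.card_eq_of_bijective ev hev,
      Nat.card_congr Additive.toMul, hcard]
  let φ : S ≃+* K := FiniteField.ringEquivOfCardEq hS
  let gS : S := ⟨er, by simpa using hmemS 1⟩
  have hgS : ∀ k : ℕ, ((gS ^ k : S) : AddMonoid.End (Additive C)) = er ^ k := fun k => SubmonoidClass.coe_pow gS k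
  refine ⟨K, inferInstance, inferInstance, inferInstance, φ gS, ⟨hn, hK, fun t ht => ?_⟩, ?_⟩
  · rcases hcl (φ.symm t) (φ.symm t).2 with h | ⟨k, hk⟩
    · exact absurd (φ.symm.injective ((Subtype.ext h : φ.symm t = 0).trans (map_zero φ.symm).symm)) ht
    · refine ⟨k, φ.symm.injective ?_⟩
      rw [map_pow, RingEquiv.symm_apply_apply]
      exact Subtype.ext ((hgS k).trans hk.symm)
  · refine ⟨hC, fun x hx => ?_, fun x hx => Subgroup.mem_bot.2 (hC2 x hx), ?_, ?_⟩
    · rw [Subgroup.mem_bot] at hx ⊢; rw [hx, map_one]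
    · intro k l h x hx
      rw [← map_pow, ← map_pow] at h
      have h1 := congrArg (fun f : S => ((Additive.toMul ((f : AddMonoid.End (Additive C)) (Additive.ofMul ⟨x, hx⟩)) : C) : Q))
        (φ.injective h)
      simp only [hgS, herpow] at h1
      exact Subgroup.mem_bot.2 (inv_mul_eq_one.2 h1)
    · intro k l m h x hx
      rw [← map_pow, ← map_pow, ← map_pow, ← map_add] at h
      have h1 := congrArg (fun f : S => ((Additive.toMul ((f : AddMonoid.End (Additive C)) (Additive.ofMul ⟨x, hx⟩)) : C) : Q))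
        (φ.injective h)
      change ((Additive.toMul (((gS ^ k : S) : AddMonoid.End (Additive C)) (Additive.ofMul ⟨x, hx⟩)) : C) : Q) *
        ((Additive.toMul (((gS ^ l : S) : AddMonoid.End (Additive C)) (Additive.ofMul ⟨x, hx⟩)) : C) : Q) =
        ((Additive.toMul (((gS ^ m : S) : AddMonoid.End (Additive C)) (Additive.ofMul ⟨x, hx⟩)) : C) : Q) at h1
      simp only [hgS, herpow] at h1
      exact Subgroup.mem_bot.2 (inv_mul_eq_one.2 h1)

section coords

variable {K : Type} [Field K] [Fintype K] [CharP K 2] {g : K} {n : ℕ}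

/-- The scalar action. -/
noncomputable def sc (hg : Gen g n) {Q : Type u} [Group Q] (e : MulAut Q) (t : K) (x : Q) : Q :=
  open scoped Classical in if h : t = 0 then 1 else (e ^ (hg.gen t h).choose) x

variable {Q : Type u} [Group Q] (hg : Gen g n) {e : MulAut Q} {M T : Subgroup Q}

omit [Fintype K] [CharP K 2] in
theorem sc_zero (x : Q) [Fintype K] (hg : Gen g n) : sc hg e 0 x = 1 := by simp [sc]

theorem sc_mem (hL : Lin g e M T) (t : K) {x : Q} (hx : x ∈ M) : sc hg e t x ∈ M := by
  rw [sc]; split_ifs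
  · exact one_mem M
  · exact pow_mem_of hL.mem _ x hx

theorem sc_eq (hL : Lin g e M T) {t : K} {k : ℕ} (h : g ^ k = t) {x : Q} (hx : x ∈ M) :
    ((e ^ k) x)⁻¹ * sc hg e t x ∈ T := by
  have ht : t ≠ 0 := h ▸ pow_ne_zero k hg.ne_zero
  rw [sc, dif_neg ht]
  exact hL.eqv _ _ (h.trans (hg.gen t ht).choose_spec.symm) x hx

theorem sc_add (hL : Lin g e M T) [T.Normal] (s t : K) {x : Q} (hx : x ∈ M) :
    (sc hg e s x * sc hg e t x)⁻¹ * sc hg e (s + t) x ∈ T := by
  by_cases hs : s = 0
  · subst hs; rw [sc_zero x hg, one_mul, zero_add, inv_mul_cancel]; exact one_mem T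
  by_cases ht : t = 0
  · subst ht; rw [sc_zero x hg, mul_one, add_zero, inv_mul_cancel]; exact one_mem T
  by_cases hst : s + t = 0
  · obtain rfl : s = t := CharTwo.add_eq_zero.1 hst
    rw [hst, sc_zero x hg, mul_one]
    exact inv_mem (hL.sq _ (sc_mem hg hL s hx))
  obtain ⟨k, hk⟩ := hg.gen s hs
  obtain ⟨l, hl⟩ := hg.gen t ht
  obtain ⟨m, hm⟩ := hg.gen (s + t) hst
  have h1 := hL.tri k l m (by rw [hk, hl, hm]) x hx
  have a1 := (QuotientGroup.eq.2 (sc_eq hg hL hk hx) : ((e ^ k) x : Q ⧸ T) = sc hg e s x)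
  have a2 := (QuotientGroup.eq.2 (sc_eq hg hL hl hx) : ((e ^ l) x : Q ⧸ T) = sc hg e t x)
  have a3 := (QuotientGroup.eq.2 (sc_eq hg hL hm hx) : ((e ^ m) x : Q ⧸ T) = sc hg e (s + t) x)
  have h1' := (QuotientGroup.eq.2 h1 : (((e ^ k) x * (e ^ l) x : Q) : Q ⧸ T) = ((e ^ m) x : Q))
  refine QuotientGroup.eq.1 ?_
  rw [QuotientGroup.mk_mul, ← a1, ← a2, ← a3, ← QuotientGroup.mk_mul, h1']

include hg in
/-- The form of a group satisfying the hypotheses. -/
theorem exists_form [Finite Q] {α : MulAut Q} {C : Subgroup Q} (S : Setup g n α e C)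
    (hne : ¬ ∀ a b : Q, a * b = b * a) : ∃ A B D : K, B ≠ 0 ∧ Nonempty (Form Q K A B D) := by
  classical
  obtain ⟨hZ, hcard, hcom, hsq, hLQ⟩ := Setup.structure_thm hg S hne
  have hcz : ∀ {z : Q}, z ∈ C → ∀ y, y * z = z * y := fun hz => Subgroup.mem_center_iff.1 (hZ ▸ hz)
  haveI hCn : C.Normal := ⟨fun c hc y => by rw [hcz hc y, mul_inv_cancel_right]; exact hc⟩
  have hCsq : ∀ c ∈ C, c * c = 1 := fun c hc => Subgroup.mem_bot.1 (S.lin.sq c hc)
  have hP : Pairing g e e e (⊤ : Subgroup Q) C ⊤ C C (fun x y => ⁅x, y⁆) :=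
    { left := hLQ
      right := hLQ
      value := S.lin
      mem := fun x _ y _ => hcom x y
      add_left := fun x _ x' _ y _ => comm_mul_left (hZ ▸ hcom x' y)
      add_right := fun x _ y _ y' _ => comm_mul_right (hZ ▸ hcom x y')
      ker_left := fun t ht _ y _ => commutatorElement_eq_one_iff_mul_comm.2 (hcz ht y).symm
      ker_right := fun x _ t ht _ => commutatorElement_eq_one_iff_mul_comm.2 (hcz ht x)
      equiv := fun x _ y _ => (map_commutatorElement e x y).symm }
  obtain ⟨a, b, hab⟩ : ∃ a b : Q, a * b ≠ b * a := by push Not at hne; exact hne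
  set w := ⁅a, b⁆ with hw
  have hwC : w ∈ C := hcom a b
  have hw1 : w ≠ 1 := fun h => hab (commutatorElement_eq_one_iff_mul_comm.1 h)
  -- the identification of `C` with `K`
  let j : K → C := fun t => ⟨sc hg e t w, sc_mem hg S.lin t hwC⟩
  have hjadd : ∀ s t, j (s + t) = j s * j t := fun s t => Subtype.ext (by
    have := sc_add hg S.lin s t hwC
    rw [Subgroup.mem_bot, inv_mul_eq_one] at this
    exact this.symm)
  have hj0 : ∀ t, j t = 1 → t = 0 := by
    intro t ht
    by_contra h0
    have h : sc hg e t w = 1 := congrArg Subtype.val ht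
    rw [sc, dif_neg h0] at h
    exact hw1 ((e ^ _).injective (h.trans (map_one _).symm))
  have hjz : j 0 = 1 := Subtype.ext (sc_zero w hg)
  have hjb : Function.Bijective j := by
    refine (Nat.bijective_iff_injective_and_card j).2 ⟨fun s t h => ?_, by
      rw [S.card, Nat.card_eq_fintype_card, hg.card]⟩
    refine CharTwo.add_eq_zero.1 (hj0 _ ?_)
    rw [hjadd, h]; exact Subtype.ext (hCsq _ (j t).2)
  let ji := (Equiv.ofBijective j hjb).symm
  let ka : Q → K := fun x => if h : x ∈ C then (ji ⟨x, h⟩) ^ 2 else 0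
  have hka : ∀ t, ka (sc hg e t w) = t ^ 2 := fun t => by
    simp only [ka, dif_pos (sc_mem hg S.lin t hwC)]
    rw [show ji ⟨sc hg e t w, _⟩ = t from (Equiv.ofBijective j hjb).symm_apply_apply t]
  have hkmul : ∀ x ∈ C, ∀ y ∈ C, ka (x * y) = ka x + ka y := by
    intro x hx y hy
    obtain ⟨s, hs⟩ := hjb.2 ⟨x, hx⟩
    obtain ⟨t, ht⟩ := hjb.2 ⟨y, hy⟩
    have hxy : sc hg e (s + t) w = x * y := by
      have := congrArg Subtype.val (hjadd s t)
      rw [hs, ht] at this
      exact this
    rw [← hxy, hka, show x = sc hg e s w from (congrArg Subtype.val hs).symm,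
      show y = sc hg e t w from (congrArg Subtype.val ht).symm, hka, hka, CharTwo.add_sq]
  have hkinj : ∀ x ∈ C, ka x = 0 → x = 1 := by
    intro x hx h
    obtain ⟨s, hs⟩ := hjb.2 ⟨x, hx⟩
    have hx' : x = sc hg e s w := (congrArg Subtype.val hs).symm
    rw [hx', hka] at h
    rw [hx', eq_zero_of_pow_eq_zero h, sc_zero w hg]
  have hkscale : ∀ (k : ℕ), ∀ x ∈ C, ka ((e ^ k) x) = (g ^ k) ^ 2 * ka x := by
    intro k x hx
    obtain ⟨s, hs⟩ := hjb.2 ⟨x, hx⟩
    have hx' : x = sc hg e s w := (congrArg Subtype.val hs).symm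
    by_cases hs0 : s = 0
    · rw [hx', hs0, sc_zero w hg, map_one, ← sc_zero (e := e) w hg, hka]; ring
    obtain ⟨l, hl⟩ := hg.gen s hs0
    have h1 := sc_eq hg S.lin hl hwC
    rw [Subgroup.mem_bot, inv_mul_eq_one] at h1
    have h2 := sc_eq hg S.lin (show g ^ (k + l) = g ^ k * s by rw [pow_add, hl]) hwC
    rw [Subgroup.mem_bot, inv_mul_eq_one] at h2
    rw [hx', hka, ← h1, ← pow_add_apply, h2, hka]; ring
  have hka1 : ka 1 = 0 := by rw [← sc_zero (e := e) w hg, hka]; ring
  -- squares and commutators of scalar multiples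
  have hsqs : ∀ (s : K) (x : Q), ka (sc hg e s x * sc hg e s x) = s ^ 2 * ka (x * x) := by
    intro s x
    by_cases hs : s = 0
    · subst hs; rw [sc_zero x hg, one_mul, hka1]; ring
    rw [sc, dif_neg hs, ← map_mul, hkscale _ _ (hsq x), (hg.gen s hs).choose_spec]
  have hcoms : ∀ (s t : K) (x y : Q), ka ⁅sc hg e s x, sc hg e t y⁆ = s * t * ka ⁅x, y⁆ := by
    intro s t x y
    by_cases hs : s = 0
    · subst hs; rw [sc_zero x hg, commutatorElement_one_left, hka1]; ring
    by_cases ht : t = 0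
    · subst ht; rw [sc_zero y hg, commutatorElement_one_right, hka1]; ring
    obtain ⟨k, hk⟩ := hg.gen s hs
    obtain ⟨l, hl⟩ := hg.gen t ht
    obtain ⟨r, hr, -⟩ := hg.exists_half (l + k)
    rw [hP.congr_left trivial trivial (sc_eq hg hLQ hk (x := x) trivial) trivial,
      hP.congr_right trivial trivial trivial (sc_eq hg hLQ hl (x := y) trivial),
      ← hP.swap hg l trivial trivial, ← pow_add_apply,
      hP.congr_left trivial trivial (hLQ.eqv _ _ hr x trivial) trivial,
      hP.dbl hg r trivial trivial, hkscale _ _ (hcom x y)]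
    rw [← pow_mul, mul_two, hr, pow_add, hk, hl]; ring
  have hkw : ka w ≠ 0 := fun h => hw1 (hkinj w hwC h)
  -- coordinates of `Q / C`
  let Φ : K × K → Q ⧸ C := fun p => ((sc hg e p.1 a * sc hg e p.2 b : Q) : Q ⧸ C)
  have hqc : ∀ u v : Q ⧸ C, u * v = v * u := fun u v => QuotientGroup.induction_on u fun u =>
    QuotientGroup.induction_on v fun v => commutatorElement_eq_one_iff_mul_comm.1
      ((QuotientGroup.eq_one_iff ⁅u, v⁆).2 (hcom u v))
  have hΦadd : ∀ p r, Φ (p + r) = Φ p * Φ r := by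
    intro p r
    have h1 := QuotientGroup.eq.2 (sc_add hg hLQ p.1 r.1 (x := a) trivial)
    have h2 := QuotientGroup.eq.2 (sc_add hg hLQ p.2 r.2 (x := b) trivial)
    simp only [Φ, Prod.fst_add, Prod.snd_add, QuotientGroup.mk_mul]
    rw [← h1, ← h2, QuotientGroup.mk_mul, QuotientGroup.mk_mul, mul_assoc, mul_assoc, ← mul_assoc _ _ ((sc hg e r.2 b : Q) : Q ⧸ C),
      hqc ((sc hg e r.1 a : Q) : Q ⧸ C) (sc hg e p.2 b : Q), mul_assoc]
  have hscone : ∀ x : Q, (((sc hg e 1 x : Q)) : Q ⧸ C) = x := fun x => by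
    have := sc_eq hg hLQ (k := 0) (pow_zero g) (x := x) trivial
    rw [pow_zero, MulAut.one_apply] at this
    exact (QuotientGroup.eq.2 this).symm
  have hΦ0 : ∀ p, Φ p = 1 → p = 0 := by
    intro p hp
    have hm : sc hg e p.1 a * sc hg e p.2 b ∈ C := (QuotientGroup.eq_one_iff _).1 hp
    have key : ∀ s y, ⁅sc hg e p.1 a * sc hg e p.2 b, sc hg e s y⁆ = 1 := fun s y =>
      commutatorElement_eq_one_iff_mul_comm.2 (hcz hm _).symm
    have hsplit : ∀ s y, ka ⁅sc hg e p.1 a, sc hg e s y⁆ + ka ⁅sc hg e p.2 b, sc hg e s y⁆ = 0 := fun s y => by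
      rw [← hkmul _ (hcom _ _) _ (hcom _ _), ← comm_mul_left (hZ ▸ hcom _ _), key, hka1]
    have h1 := hsplit 1 b
    have h2 := hsplit 1 a
    simp only [hcoms, commutatorElement_self, hka1, mul_zero, mul_one, add_zero, zero_add] at h1 h2
    have hba : ka ⁅b, a⁆ = ka w := by
      rw [← commutatorElement_inv a b, inv_eq_of_mul_eq_one_right (hCsq _ hwC)]
    rw [hba] at h2
    exact Prod.ext ((mul_eq_zero.1 h1).resolve_right hkw) ((mul_eq_zero.1 h2).resolve_right hkw)
  have hΦb : Function.Bijective Φ := by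
    refine (Nat.bijective_iff_injective_and_card Φ).2 ⟨fun p r h => ?_, ?_⟩
    · refine sub_eq_zero.1 (hΦ0 _ ?_)
      rw [CharTwo.sub_eq_add, hΦadd, h, ← hΦadd,
        show r + r = 0 from Prod.ext (CharTwo.add_self_eq_zero _) (CharTwo.add_self_eq_zero _)]
      exact (QuotientGroup.eq_one_iff _).2 (by rw [show ((0 : K × K)).1 = 0 from rfl,
        show ((0 : K × K)).2 = 0 from rfl, sc_zero a hg, sc_zero b hg, mul_one]; exact one_mem C)
    · have h := C.card_mul_index
      rw [S.card, hcard, Subgroup.index_eq_card, show (2 ^ n) ^ 3 = 2 ^ n * (2 ^ n * 2 ^ n) by ring] at h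
      rw [Nat.card_prod, Nat.card_eq_fintype_card, hg.card]
      exact (Nat.eq_of_mul_eq_mul_left (by positivity) h).symm
  let Φi := (Equiv.ofBijective Φ hΦb).symm
  have hΦi : ∀ u, Φ (Φi u) = u := fun u => (Equiv.ofBijective Φ hΦb).apply_symm_apply u
  have hpi0 : ∀ x : Q, Φi (x : Q ⧸ C) = 0 ↔ x ∈ C := by
    intro x
    rw [← QuotientGroup.eq_one_iff (N := C) x]
    constructor
    · intro h
      rw [← hΦi (x : Q ⧸ C), h]
      simp [Φ, sc_zero a hg, sc_zero b hg]
    · intro h
      exact hΦ0 _ ((hΦi _).trans h)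
  refine ⟨ka (a * a), ka w, ka (b * b), hkw, ⟨?_⟩⟩
  exact
    { pi := fun x => Φi (x : Q ⧸ C)
      ka := ka
      pi_mul := fun x y => hΦb.1 (by rw [hΦadd, hΦi, hΦi, hΦi, QuotientGroup.mk_mul])
      pi_surj := fun p => by
        obtain ⟨x, hx⟩ := QuotientGroup.mk_surjective (Φ p)
        exact ⟨x, by simp only; rw [hx]; exact (Equiv.ofBijective Φ hΦb).symm_apply_apply p⟩
      ka_mul := fun x y hx hy => hkmul x ((hpi0 x).1 hx) y ((hpi0 y).1 hy)
      ka_inj := fun x hx h => hkinj x ((hpi0 x).1 hx) h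
      ka_surj := fun c => by
        obtain ⟨t, ht⟩ := Finite.injective_iff_surjective.1 (frobenius_inj K 2) c
        refine ⟨sc hg e t w, (hpi0 _).2 (sc_mem hg S.lin t hwC), ?_⟩
        rw [hka]; exact ht
      central := fun x hx => hcz ((hpi0 x).1 hx)
      sq := fun x => by
        set p := Φi (x : Q ⧸ C) with hp
        set s := sc hg e p.1 a with hs
        set t := sc hg e p.2 b with ht
        have hx' : (s * t)⁻¹ * x ∈ C := QuotientGroup.eq.1 (hΦi _)
        have hxx : x * x = (s * t) * (s * t) := by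
          conv_lhs => rw [← mul_inv_cancel_left (s * t) x]
          rw [mul_assoc (s * t), ← mul_assoc _ (s * t), ← hcz hx' (s * t), mul_assoc (s * t) _ ((s * t)⁻¹ * x),
            hCsq _ hx', mul_one]
        have hst : s * t * (s * t) = (s * s) * ⁅s⁻¹, t⁆ * (t * t) := by
          simp only [commutatorElement_def]; group
        have hci : ⁅s⁻¹, t⁆ = ⁅s, t⁆ := by
          have h : ⁅s⁻¹, t⁆ * ⁅s, t⁆ = 1 := by
            rw [← comm_mul_left (hZ ▸ hcom s t), inv_mul_cancel, commutatorElement_one_left]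
          rw [eq_inv_of_mul_eq_one_left h, inv_eq_of_mul_eq_one_right (hCsq _ (hcom s t))]
        rw [hxx, hst, hci, hkmul _ (C.mul_mem (hsq s) (hcom s t)) _ (hsq t), hkmul _ (hsq s) _ (hcom s t),
          hs, ht, hsqs, hsqs, hcoms]
        ring }

end coords


/-- Let Q be a non-abelian finite 2-group admitting commuting automorphisms α of order 2 and ρ of order 2^n − 1, where n ≥ 2, such that the fixed points of α form an elementary abelian subgroup of order 2^n on whose nonidentity elements the group generated by ρ acts transitively. Then Q is isomorphic to a Sylow 2-subgroup of the projective special unitary group of dimension 3 with parameter 2^n (realised over the field with 4^n elements) or of the projective special linear group of dimension 3 over the field with 2^n elements. -/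
theorem result {Q : Type*} [Group Q] [Finite Q] (hQ : IsPGroup 2 Q) (hna : ¬ IsMulCommutative Q) (n : ℕ) (hn : 2 ≤ n)
    (α ρ : MulAut Q) (hα : orderOf α = 2) (hρ : orderOf ρ = 2 ^ n - 1) (hc : Commute α ρ)
    (C : Subgroup Q) (hC : ∀ x : Q, x ∈ C ↔ α x = x) (hCE : Cfsg.IsElementaryAbelian 2 C ∧ Nat.card ↥C = 2 ^ n)
    (htr : ∀ x y : Q, x ∈ C → y ∈ C → x ≠ 1 → y ≠ 1 → ∃ k : ℕ, (ρ ^ k) x = y) :
    (∃ (F : Type) (_ : Field F) (_ : Fintype F), Fintype.card F = 4 ^ n ∧
        ∃ S : Sylow 2 (Cfsg.PSU 3 F (2 ^ n)), Nonempty (Q ≃* ↥(S : Subgroup (Cfsg.PSU 3 F (2 ^ n))))) ∨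
      (∃ (F : Type) (_ : Field F) (_ : Fintype F), Fintype.card F = 2 ^ n ∧
        ∃ S : Sylow 2 (Matrix.ProjectiveSpecialLinearGroup (Fin 3) F), Nonempty (Q ≃* ↥(S : Subgroup (Matrix.ProjectiveSpecialLinearGroup (Fin 3) F)))) := by
  classical
  haveI : Fact (Nat.Prime 2) := ⟨Nat.prime_two⟩
  have hne : ¬ ∀ a b : Q, a * b = b * a := fun h => hna ⟨⟨h⟩⟩
  have hC2 : ∀ x ∈ C, x * x = 1 := fun x hx => by rw [← pow_two]; exact hCE.1.2 x hx
  have hper : ρ ^ (2 ^ n - 1) = 1 := by rw [← hρ]; exact pow_orderOf_eq_one ρ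
  have hcomm : ∀ x, α (ρ x) = ρ (α x) := fun x => by
    show (α * ρ) x = (ρ * α) x
    rw [hc.eq]
  have hinv : ∀ x, α (α x) = x := fun x => by
    show (α * α) x = x
    rw [show α * α = α ^ 2 from (sq α).symm, ← hα, pow_orderOf_eq_one]; rfl
  have heC : ∀ x ∈ C, ρ x ∈ C := fun x hx => by
    rw [hC, hcomm, (hC x).1 hx]
  obtain ⟨K, _, _, _, g, hg, hlin⟩ := exists_field n hn ρ C heC hC2 hCE.2 hper htr
  have S : Setup g n α ρ C := ⟨hC, hinv, hcomm, hper, hQ, hCE.2, hlin⟩
  obtain ⟨A, B, D, hB, ⟨P⟩⟩ := exists_form hg S hne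
  by_cases hzero : ∃ s t : K, (s, t) ≠ (0, 0) ∧ A * s ^ 2 + B * s * t + D * t ^ 2 = 0
  · -- isotropic: `PSL(3, q)`
    right
    obtain ⟨T, ⟨M⟩⟩ := psl_model (K := K) (by omega : 1 ≤ n) hg.card
    have hiso : Nonempty (Form Q K 0 1 0) := by
      obtain ⟨s, t, hst, h0⟩ := hzero
      by_cases hA : A = 0
      · subst hA
        let L : K × K → K × K := fun p => (B * p.1 + D * p.2, p.2)
        refine ⟨P.change L (fun p r => Prod.ext (by simp [L]; ring) rfl)
          ((Fintype.bijective_iff_injective_and_card L).2 ⟨fun p r h => ?_, rfl⟩) 1 one_ne_zero (fun p => by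
            simp only [L]; ring)⟩
        obtain ⟨h1, h2⟩ := Prod.mk.injEq _ _ _ _ ▸ h
        exact Prod.ext (mul_left_cancel₀ hB (by rw [h2] at h1; linear_combination h1)) h2
      · have ht : t ≠ 0 := by
          rintro rfl
          have : s ≠ 0 := fun h => hst (by rw [h])
          exact mul_ne_zero hA (pow_ne_zero 2 this) (by linear_combination h0)
        set r := s / t with hr
        have hr0 : A * r ^ 2 + B * r + D = 0 := by
          rw [hr]; field_simp; linear_combination h0
        let L : K × K → K × K := fun p => (p.1 - r * p.2, A * p.1 + (A * r + B) * p.2)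
        refine ⟨P.change L (fun p r => Prod.ext (by simp [L]; ring) (by simp [L]; ring))
          ((Fintype.bijective_iff_injective_and_card L).2 ⟨fun p p' h => ?_, rfl⟩) 1 one_ne_zero (fun p => by
            simp only [L]; linear_combination -(p.2 ^ 2) * hr0)⟩
        obtain ⟨h1, h2⟩ := Prod.mk.injEq _ _ _ _ ▸ h
        have h3 : B * (p.2 - p'.2) = 0 := by
          linear_combination h2 - A * h1 - A * r * (p.2 - p'.2) * CharTwo.two_eq_zero (R := K)
        have h4 := sub_eq_zero.1 ((mul_eq_zero.1 h3).resolve_left hB)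
        exact Prod.ext (by linear_combination h1 + r * h4) h4
    obtain ⟨P'⟩ := hiso
    exact ⟨K, inferInstance, inferInstance, hg.card, T, Form.iso P' M⟩
  · -- anisotropic: `PSU(3, q)`
    left
    push Not at hzero
    have hA : A ≠ 0 := fun h => hzero 1 0 (by simp) (by simp [h])
    obtain ⟨L, _, _, hLc, T, _, ⟨M⟩⟩ := psu_model (by omega : 1 ≤ n) hg.card (B / A) (D / A) (fun r hr =>
      hzero r 1 (by simp) (by field_simp at hr; linear_combination hr))
    refine ⟨L, inferInstance, inferInstance, hLc, T, Form.iso (P.change id (fun _ _ => rfl) Function.bijective_id A⁻¹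
      (inv_ne_zero hA) (fun p => ?_)) M⟩
    simp only [id]
    field_simp

end Cfsg.Agent.S3161
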