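import Cfsg.Statements.S3171
import Cfsg.Agent.Lib.Golay.SylTwoModCenter

set_option autoImplicit false
open Cfsg

namespace Cfsg.Agent.S3171

/-- Let P be a Sylow 2-subgroup of the Mathieu group of degree 24 and S the quotient of P by its centre. Then the centre of every maximal subgroup of S has order at most 8; S has an elementary abelian subgroup of order 64; and S has only one abelian subgroup of order 64. -/
theorem result (P : Sylow 2 ↥Cfsg.M24) :
    (∀ M : Subgroup (↥(P : Subgroup ↥Cfsg.M24) ⧸ Subgroup.center ↥(P : Subgroup ↥Cfsg.M24)), IsCoatom M →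
        Nat.card ↥(Subgroup.center ↥M) ≤ 8) ∧
      (∃ A : Subgroup (↥(P : Subgroup ↥Cfsg.M24) ⧸ Subgroup.center ↥(P : Subgroup ↥Cfsg.M24)),
        Cfsg.IsElementaryAbelian 2 A ∧ Nat.card ↥A = 64) ∧
      ∀ A B : Subgroup (↥(P : Subgroup ↥Cfsg.M24) ⧸ Subgroup.center ↥(P : Subgroup ↥Cfsg.M24)),
        IsMulCommutative ↥A → Nat.card ↥A = 64 → IsMulCommutative ↥B → Nat.card ↥B = 64 → A = B := by
  classical
  have : Fact (Nat.Prime 2) := ⟨Nat.prime_two⟩
  have hle : Cfsg.Agent.Lib.Golay.sylP ≤ M24 := (Subgroup.closure_le M24).2 (by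
    rintro _ ⟨x, hx, rfl⟩; exact Cfsg.Agent.Lib.Golay.syl2_cert.sub x hx)
  have hfac : (Nat.card M24).factorization 2 = 10 := by
    have h1 := (Nat.prime_two.pow_dvd_iff_le_factorization Nat.card_pos.ne').1
      Cfsg.Agent.Lib.Golay.syl2_cert.dvd
    have h2 := mt (Nat.prime_two.pow_dvd_iff_le_factorization Nat.card_pos.ne').2
      Cfsg.Agent.Lib.Golay.syl2_cert.ndvd
    omega
  let Q : Sylow 2 M24 := Sylow.ofCard (Cfsg.Agent.Lib.Golay.sylP.subgroupOf M24) (by
    rw [Nat.card_congr (Subgroup.subgroupOfEquivOfLe hle).toEquiv,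
      Cfsg.Agent.Lib.Golay.card_sylP, hfac]; norm_num)
  let e : ↥Cfsg.Agent.Lib.Golay.sylP ≃* ↥(P : Subgroup ↥M24) :=
    (Subgroup.subgroupOfEquivOfLe hle).symm.trans (Q.equiv P)
  refine Cfsg.Agent.Lib.Golay.sylTwo_mod_center
    ((QuotientGroup.mk' (Subgroup.center ↥(P : Subgroup ↥M24))).comp e.toMonoidHom)
    ((QuotientGroup.mk'_surjective _).comp e.surjective) ?_
  ext x
  rw [MonoidHom.mem_ker, MonoidHom.comp_apply, MulEquiv.coe_toMonoidHom, ← MonoidHom.mem_ker,
    QuotientGroup.ker_mk', Subgroup.mem_center_iff, Subgroup.mem_center_iff]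
  constructor
  · intro h g
    have := h (e g)
    rw [← map_mul, ← map_mul] at this
    exact e.injective this
  · intro h g
    obtain ⟨y, rfl⟩ := e.surjective g
    rw [← map_mul, ← map_mul, h y]

end Cfsg.Agent.S3171
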