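import Cfsg.Statements.S3179
import Cfsg.Agent.Lib.Classical.Order
import Cfsg.Agent.Lib.Suz.Bridge
import Cfsg.Agent.Lib.U3Sylow.Basic

set_option autoImplicit false
open Cfsg

namespace Cfsg.Agent.S3179

theorem card_gl_five : Nat.card (GL (Fin 5) (ZMod 2)) = 9999360 := by
  rw [Matrix.card_GL_field, ZMod.card, Fin.prod_univ_five]
  norm_num

/-- `GL(5,2)` has no element of order nine. -/
theorem no_nine (g : GL (Fin 5) (ZMod 2)) : orderOf g ≠ 9 := by
  classical
  intro h9
  let A : Matrix (Fin 5) (Fin 5) (ZMod 2) := g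
  let e : (Fin 5 → ZMod 2) ≃ (Fin 5 → ZMod 2) :=
    { toFun := fun v => (g : Matrix (Fin 5) (Fin 5) (ZMod 2)).mulVec v
      invFun := fun v => ((g⁻¹ : GL (Fin 5) (ZMod 2)) : Matrix (Fin 5) (Fin 5) (ZMod 2)).mulVec v
      left_inv := fun v => by
        simp only [Matrix.mulVec_mulVec, ← Units.val_mul, inv_mul_cancel, Units.val_one, Matrix.one_mulVec]
      right_inv := fun v => by
        simp only [Matrix.mulVec_mulVec, ← Units.val_mul, mul_inv_cancel, Units.val_one, Matrix.one_mulVec] }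
  have hpow : ∀ k : ℕ, ∀ v, (e ^ k) v = ((g ^ k : GL (Fin 5) (ZMod 2)) : Matrix (Fin 5) (Fin 5) (ZMod 2)).mulVec v := by
    intro k
    induction k with
    | zero => intro v; simp
    | succ k ih =>
      intro v
      rw [pow_succ, Equiv.Perm.mul_apply, ih, pow_succ, Units.val_mul, ← Matrix.mulVec_mulVec]
      rfl
  have he9 : ∀ v, (e ^ 9) v = v := fun v => by
    rw [hpow, ← h9, pow_orderOf_eq_one, Units.val_one, Matrix.one_mulVec]
  -- the fixed space of the cube
  let W : AddSubgroup (Fin 5 → ZMod 2) :=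
    { carrier := {v | (e ^ 3) v = v}
      zero_mem' := by simp [hpow]
      add_mem' := fun {a b} ha hb => by
        show (e ^ 3) (a + b) = a + b
        rw [hpow, Matrix.mulVec_add, ← hpow, ← hpow, ha, hb]
      neg_mem' := fun {a} ha => by
        show (e ^ 3) (-a) = -a
        rw [hpow, Matrix.mulVec_neg, ← hpow, ha] }
  have hne : W ≠ ⊤ := fun hW => by
    have h3 : g ^ 3 = 1 := by
      refine Units.ext (Matrix.ext_of_mulVec_single fun i => ?_)
      rw [← hpow, Units.val_one, Matrix.one_mulVec]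
      exact (hW ▸ AddSubgroup.mem_top _ : (Pi.single i (1 : ZMod 2) : Fin 5 → ZMod 2) ∈ W)
    have := orderOf_dvd_of_pow_eq_one h3
    rw [h9] at this
    norm_num at this
  -- the moved vectors come in orbits of size nine
  let M := {v : Fin 5 → ZMod 2 // v ∉ W}
  have hinv : ∀ v, v ∉ W ↔ e v ∉ W := fun v => by
    refine not_congr ?_
    show (e ^ 3) v = v ↔ (e ^ 3) (e v) = e v
    rw [← Equiv.Perm.mul_apply (e ^ 3) e, ← pow_succ,
      show (e ^ (3 + 1)) v = e ((e ^ 3) v) by rw [pow_succ', Equiv.Perm.mul_apply], e.injective.eq_iff]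
  let σ : Equiv.Perm M := e.subtypeEquiv hinv
  have hσ : ∀ k : ℕ, ∀ v : M, ((σ ^ k) v : Fin 5 → ZMod 2) = (e ^ k) v := by
    intro k
    induction k with
    | zero => intro v; rfl
    | succ k ih =>
      intro v
      rw [pow_succ, Equiv.Perm.mul_apply, ih, pow_succ, Equiv.Perm.mul_apply]
      rfl
  have hdvd : 9 ∣ Nat.card M := by
    have hs : σ ^ 9 = 1 := Equiv.ext fun v => Subtype.ext (by rw [hσ, he9]; rfl)
    have key : ∀ v : M, MulAction.stabilizer (Subgroup.zpowers σ) v = ⊥ := by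
      intro v
      rw [eq_bot_iff]
      rintro ⟨_, k, rfl⟩ hk
      have hv : (σ ^ 3) v ≠ v := fun h => v.2 (by
        show (e ^ 3) v.1 = v.1
        rw [← hσ, h])
      have hk' : (σ ^ k) v = v := hk
      rw [Subgroup.mem_bot]
      refine Subtype.ext ?_
      show σ ^ k = 1
      have hzero : σ ^ (k % 9).toNat = σ ^ k := by
        rw [← zpow_natCast, Int.toNat_of_nonneg (Int.emod_nonneg _ (by norm_num)), Int.emod_def,
          zpow_sub, zpow_mul, show σ ^ (9 : ℤ) = 1 by exact_mod_cast hs, one_zpow, inv_one, mul_one]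
      rw [← hzero] at hk' ⊢
      generalize hj : (k % 9).toNat = j at hk' ⊢
      have hj9 : j < 9 := by omega
      -- a multiple of `j` which is three
      have hmul : ∀ i : ℕ, (σ ^ (j * i)) v = v := fun i => by
        induction i with
        | zero => rfl
        | succ i ih => rw [mul_add, mul_one, pow_add, Equiv.Perm.mul_apply, hk', ih]
      have hred : ∀ i : ℕ, (σ ^ (i % 9)) = σ ^ i := fun i => by
        conv_rhs => rw [← Nat.mod_add_div i 9, pow_add, pow_mul, hs, one_pow, mul_one]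
      rcases Nat.eq_zero_or_pos j with rfl | hpos
      · rw [pow_zero]
      · exfalso
        obtain ⟨i, hi⟩ := (by decide : ∀ j : Fin 9, j.1 ≠ 0 → ∃ i : Fin 9, j.1 * i.1 % 9 = 3) ⟨j, hj9⟩
          (by simp only; omega)
        exact hv (by rw [← hi, hred]; exact hmul _)
    have hcard := Nat.card_congr (MulAction.selfEquivSigmaOrbits (Subgroup.zpowers σ) M)
    rw [hcard, Nat.card_sigma]
    refine Finset.dvd_sum fun ω _ => ?_
    rw [Nat.card_congr (MulAction.orbitEquivQuotientStabilizer (Subgroup.zpowers σ) ω.out),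
      key, Nat.card_congr (QuotientGroup.quotientBot).toEquiv, Nat.card_zpowers]
    have ho : orderOf σ ∣ 9 := orderOf_dvd_of_pow_eq_one hs
    rcases (Nat.dvd_prime_pow Nat.prime_three (m := 2)).1 ho with ⟨k, hk, hk'⟩
    rw [hk']
    obtain ⟨v₀, hv₀⟩ : ∃ v, v ∉ W := by
      by_contra! h
      exact hne (eq_top_iff.2 fun v _ => h v)
    have h3 : σ ^ 3 ≠ 1 := fun h => hv₀ (by
      show (e ^ 3) v₀ = v₀
      rw [← hσ 3 ⟨v₀, hv₀⟩, h]; rfl)
    interval_cases k
    · exact absurd (orderOf_dvd_iff_pow_eq_one.1 (hk' ▸ one_dvd 3)) h3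
    · exact absurd (orderOf_dvd_iff_pow_eq_one.1 (hk' ▸ dvd_refl 3)) h3
    · exact dvd_refl 9
  -- arithmetic
  have hW : ∃ f ≤ 4, Nat.card W = 2 ^ f := by
    have hd := W.card_addSubgroup_dvd_card
    have h32 : Nat.card (Fin 5 → ZMod 2) = 2 ^ 5 := by simp
    rw [h32] at hd
    obtain ⟨f, hf, hf'⟩ := (Nat.dvd_prime_pow Nat.prime_two).1 hd
    refine ⟨f, ?_, hf'⟩
    rcases Nat.lt_or_ge f 5 with h | h
    · omega
    · exact absurd (AddSubgroup.eq_top_of_card_eq W (by rw [hf', h32, show f = 5 by omega])) hne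
  obtain ⟨f, hf, hf'⟩ := hW
  have hsum : Nat.card W + Nat.card M = 32 := by
    show Nat.card {v // v ∈ W} + Nat.card {v // v ∉ W} = 32
    rw [← Nat.card_sum, Nat.card_congr (Equiv.sumCompl fun v => v ∈ W)]
    simp
  rw [hf'] at hsum
  interval_cases f <;> omega

/-- `PSL(2,8)` has an element of order nine. -/
theorem exists_nine {F : Type} [Field F] [Fintype F] (hF : Fintype.card F = 8) :
    ∃ x : Matrix.ProjectiveSpecialLinearGroup (Fin 2) F, orderOf x = 9 := by
  classical
  haveI : Fact (Nat.Prime 2) := ⟨Nat.prime_two⟩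
  haveI : CharP F 2 := by
    obtain ⟨p, hp⟩ := CharP.exists F
    obtain ⟨d, hpp, hd⟩ := FiniteField.card F p
    have : p ∣ 2 := hpp.dvd_of_dvd_pow (n := 3) (by
      rw [show (2 : ℕ) ^ 3 = p ^ (d : ℕ) by rw [← hd, hF]; norm_num]
      exact dvd_pow_self p d.pos.ne')
    rwa [(Nat.prime_dvd_prime_iff_eq hpp Nat.prime_two).1 this] at hp
  have h2 : (2 : F) = 0 := CharTwo.two_eq_zero
  obtain ⟨t, ht⟩ : ∃ t : F, t ^ 3 + t + 1 = 0 := by
    obtain ⟨x, hx, hx1⟩ : ∃ x : F, x ≠ 0 ∧ x ≠ 1 := by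
      by_contra! hall
      have := Finset.card_le_card (show (Finset.univ : Finset F) ⊆ {0, 1} from fun x _ => by
        by_cases h : x = 0 <;> simp [h, hall x])
      rw [Finset.card_univ, hF] at this
      have := this.trans Finset.card_le_two
      omega
    have h7 : x ^ 7 = 1 := by
      have := FiniteField.pow_card_sub_one_eq_one x hx
      rwa [hF] at this
    have hprod : (x - 1) * ((x ^ 3 + x + 1) * (x ^ 3 + x ^ 2 + 1)) = 0 := by
      linear_combination h7 + (x ^ 4 - x ^ 3) * h2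
    rcases mul_eq_zero.1 ((mul_eq_zero.1 hprod).resolve_left (sub_ne_zero.2 hx1)) with h | h
    · exact ⟨x, h⟩
    · exact ⟨x⁻¹, by field_simp; linear_combination h⟩
  have ht1 : t ^ 2 + 1 ≠ 0 := fun h => by
    have : (t + 1) * (t + 1) = 0 := by linear_combination h + t * h2
    have h1 : t = 1 := by
      have := mul_self_eq_zero.1 this
      linear_combination this - h2
    rw [h1] at ht
    exact one_ne_zero (α := F) (by linear_combination ht - h2)
  let M : Matrix.SpecialLinearGroup (Fin 2) F :=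
    ⟨!![0, 1; 1, t], by rw [Matrix.det_fin_two_of]; linear_combination -h2⟩
  have hM3 : ((M ^ 3 : Matrix.SpecialLinearGroup (Fin 2) F) : Matrix (Fin 2) (Fin 2) F) =
      !![t, t ^ 2 + 1; t ^ 2 + 1, t ^ 3 + 2 * t] := by
    rw [Matrix.SpecialLinearGroup.coe_pow, pow_succ, pow_succ, pow_one]
    simp only [M, Matrix.mul_fin_two]
    ext i j
    fin_cases i <;> fin_cases j <;> simp <;> ring
  have hM9 : M ^ 9 = 1 := Subtype.ext (by
    rw [show 9 = 3 * 3 from rfl, pow_mul, Matrix.SpecialLinearGroup.coe_pow, hM3, pow_succ, pow_succ, pow_one,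
      Matrix.mul_fin_two, Matrix.mul_fin_two, Matrix.SpecialLinearGroup.coe_one, Matrix.one_fin_two]
    ext i j
    fin_cases i <;> fin_cases j <;> simp <;> grobner)
  refine ⟨QuotientGroup.mk' _ M, orderOf_eq_prime_pow (p := 3) (n := 1) ?_ ?_⟩
  · rw [pow_one, ← map_pow, QuotientGroup.mk'_apply, QuotientGroup.eq_one_iff]
    intro h
    rw [Matrix.SpecialLinearGroup.mem_center_iff] at h
    obtain ⟨r, -, hr⟩ := h
    have h01 := congrFun (congrFun (hM3.symm.trans hr.symm) 0) 1
    simp at h01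
    exact ht1 (by linear_combination h01)
  · rw [← map_pow, show 3 ^ (1 + 1) = 9 from rfl, hM9, map_one]

/-- Let X be a section of the general linear group GL(5, 2), that is, a quotient of a subgroup of it. If X is isomorphic to PSL(2, 2^n) for some n ≥ 2, to a Suzuki group over the field with 2^(2m+1) elements for some m ≥ 1, or to PSU(3, 2^n) for some n ≥ 2, then X is isomorphic to PSL(2, 4). -/
theorem result {H : Subgroup (GL (Fin 5) (ZMod 2))}
    {K : Subgroup ↥H} [K.Normal]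
    (hX : (∃ (n : ℕ) (F : Type) (_ : Field F) (_ : Fintype F), 2 ≤ n ∧ Fintype.card F = 2 ^ n ∧
        Nonempty (↥H ⧸ K ≃* Matrix.ProjectiveSpecialLinearGroup (Fin 2) F)) ∨
      (∃ (m : ℕ) (F : Type) (_ : Field F) (_ : Fintype F), 1 ≤ m ∧ Fintype.card F = 2 ^ (2 * m + 1) ∧
        Nonempty (↥H ⧸ K ≃* ↥(Cfsg.Lie.Sz F (2 ^ (m + 1))))) ∨
      (∃ (n : ℕ) (F : Type) (_ : Field F) (_ : Fintype F), 2 ≤ n ∧ Fintype.card F = 4 ^ n ∧
        Nonempty (↥H ⧸ K ≃* Cfsg.PSU 3 F (2 ^ n)))) :
    ∃ (F : Type) (_ : Field F) (_ : Fintype F), Fintype.card F = 4 ∧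
      Nonempty (↥H ⧸ K ≃* Matrix.ProjectiveSpecialLinearGroup (Fin 2) F) := by
  classical
  have hcard : Nat.card (↥H ⧸ K) ∣ 9999360 := by
    rw [← card_gl_five]
    refine dvd_trans ?_ (Subgroup.card_subgroup_dvd_card H)
    exact ⟨Nat.card K, Subgroup.card_eq_card_quotient_mul_card_subgroup K⟩
  rcases hX with ⟨n, F, iF, iFF, hn, hF, ⟨e⟩⟩ | ⟨m, F, iF, iFF, hm, hF, ⟨e⟩⟩ | ⟨n, F, iF, iFF, hn, hF, ⟨e⟩⟩
  · rw [Nat.card_congr e.toEquiv, Cfsg.Agent.Lib.Classical.card_PSL_two_of_even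
      (by rw [hF]; exact Nat.even_pow.2 ⟨even_two, by omega⟩), hF] at hcard
    have hle : n ≤ 24 := by
      by_contra h
      have h1 := Nat.le_of_dvd (by norm_num) hcard
      have h2 : 2 ^ 25 ≤ 2 ^ n := Nat.pow_le_pow_right (by norm_num) (by omega)
      have h3 : 1 ≤ (2 ^ n) ^ 2 - 1 := by
        have : 2 * 2 ≤ (2 ^ n) ^ 2 := by rw [sq]; exact Nat.mul_le_mul (by omega) (by omega)
        omega
      have := (Nat.le_mul_of_pos_right (2 ^ n) h3).trans h1
      omega
    have h23 : n = 2 ∨ n = 3 := by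
      interval_cases n
      all_goals first | omega | (norm_num at hcard)
    rcases h23 with rfl | rfl
    · exact ⟨F, iF, iFF, by rw [hF]; norm_num, ⟨e⟩⟩
    · exfalso
      obtain ⟨x, hx⟩ := exists_nine (F := F) (by rw [hF]; norm_num)
      obtain ⟨g, hg⟩ := QuotientGroup.mk'_surjective K (e.symm x)
      have hd : 9 ∣ orderOf (g : GL (Fin 5) (ZMod 2)) := by
        rw [Subgroup.orderOf_coe, ← hx, ← e.symm.orderOf_eq x, ← hg]
        exact orderOf_map_dvd _ g
      obtain ⟨k, hk⟩ := hd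
      have hpos := orderOf_pos (g : GL (Fin 5) (ZMod 2))
      refine no_nine ((g : GL (Fin 5) (ZMod 2)) ^ k) ?_
      rw [orderOf_pow' _ (by rintro rfl; rw [Nat.mul_zero] at hk; omega), hk, Nat.gcd_eq_right (Dvd.intro_left 9 rfl),
        Nat.mul_div_cancel _ (by
          rcases Nat.eq_zero_or_pos k with rfl | h
          · rw [Nat.mul_zero] at hk; omega
          · exact h)]
  · exfalso
    haveI : CharP F 2 := by
      obtain ⟨p, hp⟩ := CharP.exists F
      obtain ⟨d, hpp, hd⟩ := FiniteField.card F p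
      have : p ∣ 2 := hpp.dvd_of_dvd_pow (n := 2 * m + 1) (by
        rw [show (2 : ℕ) ^ (2 * m + 1) = p ^ (d : ℕ) by rw [← hd, hF]]
        exact dvd_pow_self p d.pos.ne')
      rwa [(Nat.prime_dvd_prime_iff_eq hpp Nat.prime_two).1 this] at hp
    have c : Cfsg.Agent.Lib.Suz.Ctx F m := ⟨hm, hF⟩
    rw [Nat.card_congr e.toEquiv, (Cfsg.Agent.Lib.Suz.lie_two_trans c).1, hF] at hcard
    have hle : m ≤ 12 := by
      by_contra h
      have h1 := Nat.le_of_dvd (by norm_num) hcard
      have h2 : 2 ^ 27 ≤ 2 ^ (2 * m + 1) := Nat.pow_le_pow_right (by norm_num) (by omega)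
      generalize 2 ^ (2 * m + 1) = q at h1 h2
      have h3 : q ≤ q ^ 2 * (q - 1) * (q ^ 2 + 1) :=
        ((Nat.le_self_pow (by norm_num) q).trans (Nat.le_mul_of_pos_right _ (by omega))).trans
          (Nat.le_mul_of_pos_right _ (by positivity))
      omega
    interval_cases m <;> norm_num at hcard
  · exfalso
    have hF' : Fintype.card F = (2 ^ n) ^ 2 := by rw [hF, ← pow_mul, mul_comm, pow_mul]; norm_num
    have h := Cfsg.Agent.Lib.Classical.Herm.card_PSU hF' (n := 3) (by norm_num)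
    rw [Cfsg.Agent.Lib.Classical.Herm.card_GU hF' 3] at h
    simp only [Finset.prod_range_succ, Finset.prod_range_zero, one_mul] at h
    norm_num at h
    simp only [← Nat.card_eq_fintype_card] at h
    rw [Nat.card_congr e.toEquiv] at hcard
    have hd := mul_dvd_mul (Nat.gcd_dvd_left 3 (2 ^ n + 1)) (mul_dvd_mul (dvd_refl (2 ^ n + 1)) hcard)
    rw [h] at hd
    set q := 2 ^ n with hq
    have hd' : q ^ 3 * ((q ^ 2 - 1) * (q ^ 3 + 1)) ∣ 3 * 9999360 := by
      refine Nat.dvd_of_mul_dvd_mul_left (Nat.add_pos_right q Nat.one_pos : 0 < q + 1) ?_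
      refine dvd_trans (dvd_of_eq ?_) (hd.trans (dvd_of_eq (by ring)))
      ring
    have hq3 : q ^ 3 ≤ 3 * 9999360 := Nat.le_of_dvd (by norm_num) ((Dvd.intro _ rfl).trans hd')
    have hle : n ≤ 8 := by
      by_contra h'
      have h2 : 2 ^ 9 ≤ 2 ^ n := Nat.pow_le_pow_right (by norm_num) (by omega)
      have := Nat.pow_le_pow_left h2 3
      rw [← hq] at this
      norm_num at this
      omega
    rw [hq] at hd'
    interval_cases n <;> norm_num at hd'

end Cfsg.Agent.S3179
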