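import Cfsg.Statements.S3180
import Mathlib

set_option autoImplicit false
open Cfsg

namespace Cfsg.Agent.S3180

/-- Let P be a Sylow p-subgroup of a finite group J and P₁ a subgroup of P that is weakly closed in P with respect to J. If J acts on a set and two points, each fixed by every element of P₁, lie in one J-orbit, then they lie in one orbit of the normalizer of P₁ in J. -/
theorem result {J : Type*} [Group J] [Finite J]
    {p : ℕ} [Fact p.Prime] (P : Sylow p J) (P₁ : Subgroup J) (hW : Cfsg.IsWeaklyClosed P₁ (P : Subgroup J))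
    {Ω : Type*} [MulAction J Ω] (x y : Ω) (hx : ∀ g ∈ P₁, g • x = x) (hy : ∀ g ∈ P₁, g • y = y)
    (hc : ∃ g : J, g • x = y) :
    ∃ g ∈ Subgroup.normalizer (P₁ : Set J), g • x = y := by
  obtain ⟨g, hg⟩ := hc
  set K := MulAction.stabilizer J y with hK
  have h1 : P₁ ≤ K := hy
  have h2 : P₁.map (MulAut.conj g).toMonoidHom ≤ K := by
    rintro _ ⟨a, ha, rfl⟩
    show (g * a * g⁻¹) • y = y
    rw [← hg, mul_smul, mul_smul, inv_smul_smul, hx a ha]
  have hp : IsPGroup p ↥P₁ := P.2.to_le hW.1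
  obtain ⟨Q, hQ⟩ := (hp.comap_of_injective K.subtype (Subgroup.subtype_injective K)).exists_le_sylow
  obtain ⟨Q', hQ'⟩ := ((hp.map (MulAut.conj g).toMonoidHom).comap_of_injective K.subtype
    (Subgroup.subtype_injective K)).exists_le_sylow
  obtain ⟨h, hh⟩ := MulAction.exists_smul_eq K Q' Q
  obtain ⟨j, hj⟩ : ∃ j : J, ∀ q ∈ (Q : Subgroup K), j * (q : J) * j⁻¹ ∈ P := by
    obtain ⟨R, hR⟩ := (Q.2.map K.subtype).exists_le_sylow
    obtain ⟨j, hj⟩ := MulAction.exists_smul_eq J R P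
    refine ⟨j, fun q hq => ?_⟩
    show j * (q : J) * j⁻¹ ∈ (P : Subgroup J)
    rw [← hj, Sylow.coe_subgroup_smul]
    exact ⟨_, hR ⟨q, hq, rfl⟩, rfl⟩
  have e1 : P₁.map (MulAut.conj j).toMonoidHom = P₁ := by
    refine hW.2 j ?_
    rintro _ ⟨a, ha, rfl⟩
    exact hj ⟨a, h1 ha⟩ (hQ ha)
  have e2 : P₁.map (MulAut.conj (j * h * g)).toMonoidHom = P₁ := by
    refine hW.2 _ ?_
    rintro _ ⟨a, ha, rfl⟩
    have hq' : (⟨g * a * g⁻¹, h2 ⟨a, ha, rfl⟩⟩ : K) ∈ (Q' : Subgroup K) := hQ' ⟨a, ha, rfl⟩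
    have hq : h * ⟨g * a * g⁻¹, h2 ⟨a, ha, rfl⟩⟩ * h⁻¹ ∈ (Q : Subgroup K) := by
      rw [← hh, Sylow.coe_subgroup_smul]
      exact ⟨_, hq', rfl⟩
    have := hj _ hq
    show (j * h * g) * a * (j * h * g)⁻¹ ∈ P
    simpa [mul_assoc] using this
  refine ⟨(h : J) * g, ?_, ?_⟩
  · have e : ∀ k : J, P₁.map (MulAut.conj k).toMonoidHom = P₁ → k ∈ Subgroup.normalizer (P₁ : Set J) := by
      intro k hk
      rw [Subgroup.mem_normalizer_iff]
      intro a
      refine ⟨fun ha => hk ▸ ⟨a, ha, rfl⟩, fun ha => ?_⟩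
      rw [← hk] at ha
      obtain ⟨b, hb, hba⟩ := ha
      have : b = a := by simpa using hba
      exact this ▸ hb
    have := mul_mem (inv_mem (e _ e1)) (e _ e2)
    simpa [mul_assoc] using this
  · rw [mul_smul, hg]
    exact h.2

end Cfsg.Agent.S3180
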