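import Cfsg.Statements.S3183
import Mathlib

set_option autoImplicit false
open Cfsg

namespace Cfsg.Agent.S3183

theorem card_center {G : Type*} [Group G] [Finite G] (U S : Sylow 2 G) :
    Nat.card ↥((Subgroup.center ↥(U : Subgroup G)).map (U : Subgroup G).subtype) =
      Nat.card ↥((Subgroup.center ↥(S : Subgroup G)).map (S : Subgroup G).subtype) := by
  rw [Subgroup.card_map_of_injective (Subgroup.subtype_injective _),
    Subgroup.card_map_of_injective (Subgroup.subtype_injective _)]
  exact Nat.card_congr (Subgroup.centerCongr (U.equiv S)).toEquiv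

theorem mem_center_map {G : Type*} [Group G] (S : Subgroup G) (x : G) :
    x ∈ (Subgroup.center ↥S).map S.subtype ↔ x ∈ S ∧ ∀ s ∈ S, s * x = x * s := by
  constructor
  · rintro ⟨v, hv, rfl⟩
    exact ⟨v.2, fun s hs => congrArg Subtype.val (Subgroup.mem_center_iff.1 hv ⟨s, hs⟩)⟩
  · rintro ⟨hx, h⟩
    exact ⟨⟨x, hx⟩, Subgroup.mem_center_iff.2 fun s => Subtype.ext (h s s.2), rfl⟩

/-- Let G be a finite group in which the intersection of any two distinct Sylow 2-subgroups is contained in the centre of some Sylow 2-subgroup, and let S be a Sylow 2-subgroup. Then for every x in S the centralizer of x in S is a Sylow 2-subgroup of the centralizer of x in G (no 2-subgroup centralizing x is larger), and for every other Sylow 2-subgroup T the intersection S ∩ T lies in both the centre of S and the centre of T. -/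
theorem result {G : Type*} [Group G] [Finite G]
    (hCI : ∀ S T : Sylow 2 G, S ≠ T → ∃ U : Sylow 2 G,
      (S : Subgroup G) ⊓ (T : Subgroup G) ≤ (Subgroup.center ↥(U : Subgroup G)).map (U : Subgroup G).subtype)
    (S : Sylow 2 G) :
    (∀ x ∈ (S : Subgroup G), ∀ P : Subgroup G, IsPGroup 2 ↥P → P ≤ Subgroup.centralizer ({x} : Set G) →
        Nat.card ↥P ≤ Nat.card ↥((S : Subgroup G) ⊓ Subgroup.centralizer ({x} : Set G))) ∧
    (∀ T : Sylow 2 G, T ≠ S →
        (S : Subgroup G) ⊓ (T : Subgroup G) ≤
          (Subgroup.center ↥(S : Subgroup G)).map (S : Subgroup G).subtype ⊓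
            (Subgroup.center ↥(T : Subgroup G)).map (T : Subgroup G).subtype) := by
  haveI : Fact (Nat.Prime 2) := ⟨Nat.prime_two⟩
  have part1 : ∀ (S : Sylow 2 G), ∀ x ∈ (S : Subgroup G), ∀ P : Subgroup G, IsPGroup 2 ↥P →
      P ≤ Subgroup.centralizer ({x} : Set G) →
        Nat.card ↥P ≤ Nat.card ↥((S : Subgroup G) ⊓ Subgroup.centralizer ({x} : Set G)) := by
    intro S x hx P hP hPC
    set C := Subgroup.centralizer ({x} : Set G) with hC
    obtain ⟨W, hW⟩ := ((S.2.to_le (inf_le_left : (S : Subgroup G) ⊓ C ≤ S)).comap_of_injective C.subtype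
      (Subgroup.subtype_injective C)).exists_le_sylow
    obtain ⟨W', hW'⟩ := (hP.comap_of_injective C.subtype (Subgroup.subtype_injective C)).exists_le_sylow
    have hle : Nat.card ↥P ≤ Nat.card ↥((W : Subgroup ↥C).map C.subtype) := by
      rw [Subgroup.card_map_of_injective (Subgroup.subtype_injective C)]
      have h1 : Nat.card ↥(W' : Subgroup ↥C) = Nat.card ↥(W : Subgroup ↥C) := Nat.card_congr (W'.equiv W).toEquiv
      rw [← h1, ← Nat.card_congr (Subgroup.subgroupOfEquivOfLe hPC).toEquiv]
      exact Subgroup.card_le_of_le hW'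
    obtain ⟨T, hT⟩ := (W.2.map C.subtype).exists_le_sylow
    have hSW : (S : Subgroup G) ⊓ C ≤ (W : Subgroup ↥C).map C.subtype := by
      intro v hv
      exact ⟨⟨v, hv.2⟩, hW hv, rfl⟩
    refine hle.trans ?_
    by_cases hTS : T = S
    · subst hTS
      exact Subgroup.card_le_of_le (le_inf hT (Subgroup.map_subtype_le _))
    · exfalso
      obtain ⟨U, hU⟩ := hCI S T (Ne.symm hTS)
      have h1 : (S : Subgroup G) ⊓ C ≤ (Subgroup.center ↥(U : Subgroup G)).map (U : Subgroup G).subtype :=
        (le_inf inf_le_left (hSW.trans hT)).trans hU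
      have h2 : (Subgroup.center ↥(S : Subgroup G)).map (S : Subgroup G).subtype ≤ (S : Subgroup G) ⊓ C := by
        intro v hv
        rw [mem_center_map] at hv
        exact ⟨hv.1, Subgroup.mem_centralizer_singleton_iff.2 (hv.2 x hx).symm⟩
      have h3 := Subgroup.eq_of_le_of_card_ge (h2.trans h1) (card_center U S).le
      have hxZ : x ∈ (Subgroup.center ↥(S : Subgroup G)).map (S : Subgroup G).subtype := by
        rw [h3]; exact h1 ⟨hx, Subgroup.mem_centralizer_singleton_iff.2 rfl⟩
      rw [mem_center_map] at hxZ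
      have hSC : (S : Subgroup G) ≤ C := fun v hv => Subgroup.mem_centralizer_singleton_iff.2 (hxZ.2 v hv)
      exact hTS (Sylow.ext (S.3 T.2 ((le_inf le_rfl hSC).trans (hSW.trans hT))))
  refine ⟨part1 S, fun T hT => ?_⟩
  have main : ∀ (S T : Sylow 2 G), S ≠ T →
      (S : Subgroup G) ⊓ (T : Subgroup G) ≤ (Subgroup.center ↥(S : Subgroup G)).map (S : Subgroup G).subtype := by
    intro S T hne v hv
    obtain ⟨U, hU⟩ := hCI S T hne
    have hvU := (mem_center_map _ _).1 (hU hv)
    have h1 := part1 S v hv.1 (U : Subgroup G) U.2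
      (fun s hs => Subgroup.mem_centralizer_singleton_iff.2 (hvU.2 s hs))
    have h2 : Nat.card ↥(U : Subgroup G) = Nat.card ↥(S : Subgroup G) := Nat.card_congr (U.equiv S).toEquiv
    rw [h2] at h1
    have h3 := Subgroup.eq_of_le_of_card_ge (inf_le_left : (S : Subgroup G) ⊓ _ ≤ S) h1
    rw [mem_center_map]
    refine ⟨hv.1, fun s hs => ?_⟩
    rw [← h3] at hs
    exact Subgroup.mem_centralizer_singleton_iff.1 hs.2
  exact le_inf (main S T (Ne.symm hT)) ((le_of_eq (inf_comm _ _)).trans (main T S hT))

end Cfsg.Agent.S3183
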