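import Cfsg.Statements.S3184
import Cfsg.Agent.Lib.Involution.ZStar
import Cfsg.Agent.Lib.Coprime.Basic

set_option autoImplicit false
open Cfsg

namespace Cfsg.Agent.S3184

open Cfsg.Agent.Lib.Involution

/-- Let G be a finite group in which the intersection of any two distinct Sylow 2-subgroups is contained in the centre of some Sylow 2-subgroup, and let S be a Sylow 2-subgroup. If C is a nontrivial cyclic characteristic subgroup of S, then the involution of C is central modulo the largest normal subgroup of odd order of G: each of its conjugates has the same image in G/O(G). -/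
theorem result {G : Type*} [Group G] [Finite G]
    (hCI : ∀ S T : Sylow 2 G, S ≠ T → ∃ U : Sylow 2 G,
      (S : Subgroup G) ⊓ (T : Subgroup G) ≤ (Subgroup.center ↥(U : Subgroup G)).map (U : Subgroup G).subtype)
    (S : Sylow 2 G) (C : Subgroup ↥(S : Subgroup G)) (hC : C ≠ ⊥) (hCc : IsCyclic ↥C) (hCh : C.Characteristic)
    (c : ↥(S : Subgroup G)) (hc : c ∈ C) (hc2 : orderOf c = 2) :
    ∀ g : G, (QuotientGroup.mk (s := Cfsg.oddCore G) (g * (c : G) * g⁻¹)) =
      QuotientGroup.mk (s := Cfsg.oddCore G) (c : G) := by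
  classical
  haveI : Fact (Nat.Prime 2) := ⟨Nat.prime_two⟩
  haveI := oddCore_normal (G := G)
  haveI := hCc
  haveI := hCh
  letI : Fintype C := Fintype.ofFinite C
  have huniq : ∀ d ∈ C, orderOf d = 2 → d = c := by
    intro d hd ho
    by_contra hne
    have hle := IsCyclic.card_pow_eq_one_le (α := C) two_pos
    have hsub : ({1, ⟨c, hc⟩, ⟨d, hd⟩} : Finset C) ⊆ Finset.univ.filter (fun a : C => a ^ 2 = 1) := by
      intro a ha
      simp only [Finset.mem_insert, Finset.mem_singleton] at ha
      simp only [Finset.mem_filter, Finset.mem_univ, true_and]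
      rcases ha with rfl | rfl | rfl
      · exact one_pow 2
      · exact Subtype.ext ((pow_two c).trans (mul_self hc2))
      · exact Subtype.ext ((pow_two d).trans (mul_self ho))
    have h3 := (Finset.card_le_card hsub).trans hle
    rw [Finset.card_insert_of_notMem (by
        simp only [Finset.mem_insert, Finset.mem_singleton, not_or]
        exact ⟨fun h => ne_one hc2 (congrArg Subtype.val h).symm, fun h => ne_one ho (congrArg Subtype.val h).symm⟩),
      Finset.card_insert_of_notMem (by
        simp only [Finset.mem_singleton]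
        exact fun h => hne (congrArg Subtype.val h).symm), Finset.card_singleton] at h3
    omega
  have hfix : ∀ α : MulAut (S : Subgroup G), α c = c := by
    intro α
    have hmem : α c ∈ C := by
      have h := Subgroup.Characteristic.fixed (H := C) inferInstance α
      rw [← h] at hc
      exact hc
    exact huniq _ hmem (by rw [MulEquiv.orderOf_eq, hc2])
  have hcS : ∀ s : G, s ∈ (S : Subgroup G) → s * c = c * s := by
    intro s hs
    have h := hfix (MulAut.conj ⟨s, hs⟩)
    exact congrArg Subtype.val (mul_inv_eq_iff_eq_mul.mp h)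
  have hco : orderOf (c : G) = 2 := by rw [Subgroup.orderOf_coe]; exact hc2
  have hburn : ∀ g : G, g * c * g⁻¹ ∈ Subgroup.centralizer ((S : Subgroup G) : Set G) → g * c * g⁻¹ = c := by
    intro g hg
    obtain ⟨k, hk, hkg⟩ := S.conj_eq_normalizer_conj_of_mem_centralizer (c : G) g⁻¹
      (Subgroup.mem_centralizer_iff.mpr hcS) (by rwa [inv_inv])
    rw [inv_inv] at hkg
    rw [hkg]
    have h := congrArg Subtype.val (hfix ((S : Subgroup G).normalizerMonoidHom ⟨k⁻¹, inv_mem hk⟩))
    have h' : k⁻¹ * (c : G) * k⁻¹⁻¹ = c := h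
    rwa [inv_inv] at h'
  have hiso : Cfsg.IsIsolatedInvolution (c : G) := by
    refine iso_of_sylow S hco c.2 fun g hg => ?_
    set c' := g * (c : G) * g⁻¹ with hc'
    by_cases hcen : c' ∈ Subgroup.centralizer ((S : Subgroup G) : Set G)
    · exact hburn g hcen
    exfalso
    set D := Subgroup.centralizer ({c'} : Set G) with hD
    have hTD : ((g • S : Sylow 2 G) : Subgroup G) ≤ D := by
      intro w hw
      have hw' : g⁻¹ * w * g ∈ (S : Subgroup G) := Cfsg.Agent.Lib.Coprime.mem_conj_smul.mp hw
      rw [hD, Subgroup.mem_centralizer_singleton_iff, hc']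
      calc w * (g * c * g⁻¹) = g * (g⁻¹ * w * g * c) * g⁻¹ := by group
        _ = g * c * g⁻¹ * w := by rw [hcS _ hw']; group
    have hcD : (c : G) ∈ D := Subgroup.mem_centralizer_singleton_iff.mpr (hcS c' hg).symm
    have hp : IsPGroup 2 (Subgroup.zpowers (⟨c, hcD⟩ : D)) :=
      IsPGroup.of_card (n := 1) (by rw [Nat.card_zpowers, Subgroup.orderOf_mk, hco, pow_one])
    obtain ⟨T, hT⟩ := hp.exists_le_sylow
    obtain ⟨e, he⟩ := MulAction.exists_smul_eq D ((g • S : Sylow 2 G).subtype hTD) T
    let T' : Sylow 2 G := ((e : G) * g) • S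
    have hcT : (c : G) ∈ (T' : Subgroup G) := by
      have h1 : (⟨c, hcD⟩ : D) ∈ (T : Subgroup D) := hT (Subgroup.mem_zpowers _)
      rw [← he] at h1
      have h2 := Cfsg.Agent.Lib.Coprime.mem_conj_smul.mp h1
      show (c : G) ∈ ((((e : G) * g) • S : Sylow 2 G) : Subgroup G)
      rw [mul_smul]
      exact Cfsg.Agent.Lib.Coprime.mem_conj_smul.mpr h2
    have hcT' : c' ∈ (T' : Subgroup G) := by
      refine Cfsg.Agent.Lib.Coprime.mem_conj_smul.mpr ?_
      have h1 := Subgroup.mem_centralizer_singleton_iff.mp e.2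
      have h2 : ((e : G) * g)⁻¹ * c' * ((e : G) * g) = c := by
        calc ((e : G) * g)⁻¹ * c' * ((e : G) * g) = g⁻¹ * (e : G)⁻¹ * (c' * (e : G)) * g := by group
          _ = c := by rw [← h1, hc']; group
      rw [h2]; exact c.2
    have hcT'cent : ∀ w ∈ (T' : Subgroup G), w * c' = c' * w := by
      intro w hw
      have hw' := Cfsg.Agent.Lib.Coprime.mem_conj_smul.mp hw
      have h1 := Subgroup.mem_centralizer_singleton_iff.mp e.2
      have hce : (e : G) * g * c * ((e : G) * g)⁻¹ = c' := by
        calc (e : G) * g * c * ((e : G) * g)⁻¹ = (e : G) * c' * (e : G)⁻¹ := by rw [hc']; group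
          _ = c' := by rw [h1, mul_inv_cancel_right]
      rw [← hce]
      generalize (e : G) * g = m at hw' ⊢
      calc w * (m * c * m⁻¹) = m * (m⁻¹ * w * m * c) * m⁻¹ := by group
        _ = m * c * m⁻¹ * w := by rw [hcS _ hw']; group
    have hne : S ≠ T' := fun h => hcen (Subgroup.mem_centralizer_iff.mpr fun w hw => hcT'cent w (h ▸ hw))
    obtain ⟨U, hU⟩ := hCI S T' hne
    obtain ⟨k, hk⟩ := MulAction.exists_smul_eq G U S
    have key : ∀ v : G, v ∈ (S : Subgroup G) → v ∈ (T' : Subgroup G) →
        k * v * k⁻¹ ∈ Subgroup.centralizer ((S : Subgroup G) : Set G) := by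
      intro v h1 h2
      obtain ⟨u, hu, huv⟩ := hU (Subgroup.mem_inf.mpr ⟨h1, h2⟩)
      rw [Subgroup.mem_centralizer_iff]
      intro s hs
      rw [SetLike.mem_coe, ← hk] at hs
      have hs' : k⁻¹ * s * k ∈ (U : Subgroup G) := Cfsg.Agent.Lib.Coprime.mem_conj_smul.mp hs
      have := congrArg Subtype.val (Subgroup.mem_center_iff.mp hu ⟨_, hs'⟩)
      simp only [Subgroup.coe_mul] at this
      rw [← huv, Subgroup.coe_subtype]
      calc s * (k * (u : G) * k⁻¹) = k * (k⁻¹ * s * k * u) * k⁻¹ := by group
        _ = k * (u : G) * k⁻¹ * s := by rw [this]; group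
    have e1 := hburn k (key c c.2 hcT)
    have e2 := key c' hg hcT'
    rw [hc', show k * (g * (c : G) * g⁻¹) * k⁻¹ = k * g * c * (k * g)⁻¹ by group] at e2
    have e3 := hburn (k * g) e2
    have : c' = c := by
      have h5 : k * c' * k⁻¹ = k * (c : G) * k⁻¹ := by
        rw [e1, hc', show k * (g * (c : G) * g⁻¹) * k⁻¹ = k * g * c * (k * g)⁻¹ by group, e3]
      exact mul_left_cancel (mul_right_cancel h5)
    exact hcen (this ▸ Subgroup.mem_centralizer_iff.mpr hcS)
  intro g
  rw [QuotientGroup.eq]
  have h := zstar hiso g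
  have h2 := (oddCore_normal (G := G)).conj_mem _ h (c : G)⁻¹
  rw [show (g * (c : G) * g⁻¹)⁻¹ * (c : G) = (c : G)⁻¹ * ((c : G) * g * (c : G)⁻¹ * g⁻¹) * (c : G)⁻¹⁻¹ by group]
  exact h2

end Cfsg.Agent.S3184
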