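import Cfsg.Statements.S3190
import Mathlib
import Cfsg.Agent.Lib.Coprime.Abelian
import Cfsg.Agent.Lib.GenStruct.Basic

set_option autoImplicit false
open Cfsg

namespace Cfsg.Agent.S3190

open Subgroup

/-- Let p be an odd prime and, inside a finite group, let P be a p-subgroup normalized by a Klein four-group T. Let R be a subgroup of P, normal in P and normalized by T, such that P is the product of R with the centralizer of T in P. If T centralizes the centre of P, then T centralizes the centre of R. -/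
theorem result {X : Type*} [Group X] [Finite X]
    {p : ℕ} (hp : p.Prime) (hodd : Odd p) (P T R : Subgroup X) (hP : IsPGroup p ↥P) (hT : IsKleinFour ↥T)
    (hTP : T ≤ Subgroup.normalizer (P : Set X)) (hRP : R ≤ P) (hRn : (R.subgroupOf P).Normal)
    (hTR : T ≤ Subgroup.normalizer (R : Set X)) (hfac : R ⊔ (P ⊓ Subgroup.centralizer (T : Set X)) = P)
    (hZ : T ≤ Subgroup.centralizer (((Subgroup.center ↥P).map P.subtype : Subgroup X) : Set X)) :
    T ≤ Subgroup.centralizer (((Subgroup.center ↥R).map R.subtype : Subgroup X) : Set X) := by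
  classical
  haveI : Fact p.Prime := ⟨hp⟩
  set W : Subgroup X := (Subgroup.center ↥R).map R.subtype with hWdef
  have hWR : W ≤ R := map_subtype_le _
  have hWmem : ∀ {w : X}, w ∈ W ↔ w ∈ R ∧ ∀ r ∈ R, r * w = w * r := by
    intro w
    constructor
    · rintro ⟨v, hv, rfl⟩
      exact ⟨v.2, fun r hr => congrArg Subtype.val (mem_center_iff.mp hv ⟨r, hr⟩)⟩
    · rintro ⟨hw, h⟩
      exact ⟨⟨w, hw⟩, mem_center_iff.mpr fun r => Subtype.ext (h r r.2), rfl⟩
  haveI hWc : IsMulCommutative W :=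
    ⟨⟨fun a b => Subtype.ext ((hWmem.mp b.2).2 a (hWR a.2))⟩⟩
  -- anything normalising `R` normalises `W`
  have hnorm : ∀ g : X, (∀ r ∈ R, g * r * g⁻¹ ∈ R) → ∀ w ∈ W, g * w * g⁻¹ ∈ W := by
    intro g hg w hw
    obtain ⟨hwR, hwc⟩ := hWmem.mp hw
    refine hWmem.mpr ⟨hg w hwR, fun r hr => ?_⟩
    have hinj : ∀ r ∈ R, ∃ r' ∈ R, g * r' * g⁻¹ = r := by
      let F : R → R := fun x => ⟨g * x * g⁻¹, hg x x.2⟩
      have hF : Function.Injective F := fun x y h =>
        Subtype.ext (mul_left_cancel (mul_right_cancel (congrArg Subtype.val h)))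
      intro r hr
      obtain ⟨x, hx⟩ := (Finite.injective_iff_surjective.mp hF) ⟨r, hr⟩
      exact ⟨x, x.2, congrArg Subtype.val hx⟩
    obtain ⟨r', hr', rfl⟩ := hinj r hr
    calc g * r' * g⁻¹ * (g * w * g⁻¹) = g * (r' * w) * g⁻¹ := by group
      _ = g * w * g⁻¹ * (g * r' * g⁻¹) := by rw [hwc r' hr']; group
  have hTW : T ≤ normalizer (W : Set X) := by
    intro τ hτ
    refine mem_normalizer_iff.mpr fun w => ⟨hnorm τ (fun r hr => ((mem_normalizer_iff.mp (hTR hτ)) r).mp hr) w, fun h => ?_⟩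
    have := hnorm τ⁻¹ (fun r hr => ((mem_normalizer_iff.mp (hTR (inv_mem hτ))) r).mp hr) _ h
    simpa [mul_assoc] using this
  have hTcop : (Nat.card T).Coprime (Nat.card W) := by
    obtain ⟨n, hn⟩ := IsPGroup.iff_card.mp (hP.to_le (hWR.trans hRP))
    rw [hT.card_four, hn]
    have : Nat.Coprime 4 p := by
      rw [show 4 = 2 ^ 2 from rfl]
      exact Nat.Coprime.pow_left 2 (Nat.coprime_two_left.mpr hodd)
    exact this.pow_right n
  set M := ⁅W, T⁆ with hM
  have hMW : M ≤ W := Lib.Coprime.commutator_le_of_le_normalizer' hTW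
  -- `P` normalises `M`
  have hPM : ∀ g ∈ P, ∀ m ∈ M, g * m * g⁻¹ ∈ M := by
    suffices hle : P ≤ normalizer (M : Set X) from fun g hg m hm =>
      (mem_normalizer_iff.mp (hle hg) m).mp hm
    rw [← hfac]
    refine sup_le ?_ ?_
    · intro r hr
      refine mem_normalizer_iff.mpr fun m => ?_
      have key : ∀ m ∈ M, r * m * r⁻¹ = m := fun m hm => by
        rw [(hWmem.mp (hMW hm)).2 r hr, mul_inv_cancel_right]
      refine ⟨fun hm => by rw [key m hm]; exact hm, fun hm => ?_⟩
      have h2 := (hWmem.mp (hMW hm)).2 r⁻¹ (inv_mem hr)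
      have : m = r * m * r⁻¹ := by
        calc m = r⁻¹ * (r * m * r⁻¹) * r := by group
          _ = r * m * r⁻¹ := by rw [h2]; group
      rwa [← this] at hm
    · rintro c ⟨hcP, hcT⟩
      have hcR : ∀ g ∈ P, ∀ r ∈ R, g * r * g⁻¹ ∈ R := fun g hg r hr =>
        hRn.conj_mem ⟨r, hRP hr⟩ hr ⟨g, hg⟩
      have hc : ∀ c : X, c ∈ P → c ∈ centralizer (T : Set X) → ∀ m ∈ M, c * m * c⁻¹ ∈ M := by
        intro c hcP hcT m hm
        have hle : (M.map (MulAut.conj c).toMonoidHom) ≤ M := by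
          rw [hM, map_commutator, commutator_le]
          rintro _ ⟨w, hw, rfl⟩ _ ⟨τ, hτ, rfl⟩
          refine commutator_mem_commutator (hnorm c (hcR c hcP) w hw) ?_
          show c * τ * c⁻¹ ∈ T
          rw [← mem_centralizer_iff.mp hcT τ hτ, mul_inv_cancel_right]; exact hτ
        exact hle ⟨m, hm, rfl⟩
      refine mem_normalizer_iff.mpr fun m => ⟨hc c hcP hcT m, fun h => ?_⟩
      have := hc c⁻¹ (inv_mem hcP) (inv_mem hcT) _ h
      simpa [mul_assoc] using this
  have hbot : M = ⊥ := by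
    by_contra hne
    haveI : (M.subgroupOf P).Normal := ⟨fun m hm g => hPM g g.2 m hm⟩
    have hMP : M ≤ P := hMW.trans (hWR.trans hRP)
    obtain ⟨z, hzM, hzc, hz1⟩ := Lib.GenStruct.exists_mem_center hP (M.subgroupOf P) (by
      rw [Ne, subgroupOf_eq_bot]
      exact fun h => hne (by rwa [disjoint_iff, inf_eq_left.mpr hMP] at h))
    have hfix : (z : X) ∈ (W ⊓ centralizer (T : Set X)) ⊓ M := by
      refine ⟨⟨hMW hzM, mem_centralizer_iff.mpr fun τ hτ => ?_⟩, hzM⟩
      exact (mem_centralizer_iff.mp (hZ hτ) z ⟨z, hzc, rfl⟩).symm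
    rw [Lib.Coprime.inf_centralizer_inf_commutator hTW hTcop, mem_bot] at hfix
    exact hz1 (Subtype.ext hfix)
  rw [hM, commutator_eq_bot_iff_le_centralizer] at hbot
  intro τ hτ
  exact mem_centralizer_iff.mpr fun w hw => (mem_centralizer_iff.mp (hbot hw) τ hτ).symm

end Cfsg.Agent.S3190
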