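import Cfsg.Statements.S3196
import Cfsg.Agent.Lib.Thompson.Elementary
import Cfsg.Agent.Lib.Hall.Basic
import Mathlib

set_option autoImplicit false
open Cfsg

namespace Cfsg.Agent.S3196

section
variable {G : Type*} [Group G]

/-- The data carried by the nontrivial elements of the members of `K`. -/
structure Setting (p : ℕ) (S : Set G) : Prop where
  hp : p.Prime
  pow : ∀ x ∈ S, x ^ p = 1
  one : (1 : G) ∉ S
  conj : ∀ x ∈ S, ∀ g : G, g * x * g⁻¹ ∈ S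
  mul : ∀ x ∈ S, ∀ y ∈ S, Commute x y → x * y ≠ 1 → x * y ∈ S
  meet : ∀ x ∈ S, ∀ y ∈ S, Commute x y → y ∉ Subgroup.zpowers x → ∀ w ∈ S,
    ∃ i j : ℤ, x ^ i * y ^ j ≠ 1 ∧ Commute (x ^ i * y ^ j) w

theorem zpow_dvd {p : ℕ} {a : G} (ha : a ^ p = 1) {k : ℤ} (hk : (p : ℤ) ∣ k) : a ^ k = 1 := by
  obtain ⟨t, rfl⟩ := hk
  rw [zpow_mul, zpow_natCast, ha, one_zpow]

theorem exists_inv_exp {p : ℕ} (hp : p.Prime) {a : G} (ha : a ^ p = 1) {j : ℤ} (hj : ¬ (p : ℤ) ∣ j) :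
    ∃ u : ℤ, (a ^ j) ^ u = a := by
  obtain ⟨u, v, huv⟩ := ((Nat.prime_iff_prime_int.1 hp).coprime_iff_not_dvd.2 hj)
  refine ⟨v, ?_⟩
  have e : a ^ (u * (p : ℤ)) = 1 := zpow_dvd ha (dvd_mul_left _ _)
  rw [← zpow_mul]
  calc a ^ (j * v) = a ^ (u * (p : ℤ)) * a ^ (v * j) := by rw [e, one_mul, mul_comm]
    _ = a := by rw [← zpow_add, huv, zpow_one]

theorem mem_adj (A : Subgroup G) (x y : G) (hA : ∀ m ∈ A, Commute x m) :
    y ∈ A ⊔ Subgroup.zpowers x ↔ ∃ m ∈ A, ∃ k : ℤ, y = m * x ^ k := by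
  constructor
  · intro h
    let B : Subgroup G :=
      { carrier := {y | ∃ m ∈ A, ∃ k : ℤ, y = m * x ^ k}
        one_mem' := ⟨1, A.one_mem, 0, by simp⟩
        mul_mem' := by
          rintro _ _ ⟨m, hm, k, rfl⟩ ⟨n, hn, l, rfl⟩
          refine ⟨m * n, A.mul_mem hm hn, k + l, ?_⟩
          rw [zpow_add, mul_assoc, ← mul_assoc (x ^ k), ((hA n hn).zpow_left k).eq, mul_assoc, ← mul_assoc]
        inv_mem' := by
          rintro _ ⟨m, hm, k, rfl⟩
          refine ⟨m⁻¹, A.inv_mem hm, -k, ?_⟩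
          rw [mul_inv_rev, zpow_neg, ((hA m hm).inv_right.zpow_left k).inv_left.eq] }
    exact (sup_le (c := B) (fun m hm => ⟨m, hm, 0, by simp⟩)
      (Subgroup.zpowers_le.2 ⟨1, A.one_mem, 1, by simp⟩) : A ⊔ Subgroup.zpowers x ≤ B) h
  · rintro ⟨m, hm, k, rfl⟩
    exact Subgroup.mul_mem _ (Subgroup.mem_sup_left hm) (Subgroup.mem_sup_right (zpow_mem (Subgroup.mem_zpowers x) k))

/-- abelian subgroup with all nontrivial elements in `S` -/
def Flat (S : Set G) (A : Subgroup G) : Prop :=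
  (∀ a ∈ A, ∀ b ∈ A, Commute a b) ∧ ∀ a ∈ A, a ≠ 1 → a ∈ S

variable {p : ℕ} {S : Set G}

theorem Setting.ord (hS : Setting p S) {x : G} (hx : x ∈ S) : orderOf x = p := by
  have : Fact p.Prime := ⟨hS.hp⟩
  exact orderOf_eq_prime (hS.pow x hx) fun e => hS.one (e ▸ hx)

theorem Setting.flat_pow (hS : Setting p S) {A : Subgroup G} (hA : Flat S A) {a : G} (ha : a ∈ A) :
    a ^ p = 1 := by
  by_cases h : a = 1
  · rw [h, one_pow]
  · exact hS.pow a (hA.2 a ha h)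

theorem Setting.not_dvd (hS : Setting p S) {a : G} (ha : a ^ p = 1) {P : G → Prop} (h1 : P 1)
    {k : ℤ} (h : ¬ P (a ^ k)) : ¬ (p : ℤ) ∣ k := fun hd => h (by rw [zpow_dvd ha hd]; exact h1)

theorem Setting.zpowS_mem (hS : Setting p S) {x : G} (hx : x ∈ S) {k : ℤ} (h : x ^ k ≠ 1) : x ^ k ∈ S := by
  have key : ∀ n : ℕ, x ^ n ≠ 1 → x ^ n ∈ S := by
    intro n
    induction n with
    | zero => simp
    | succ n ih =>
      intro hne
      by_cases h0 : x ^ n = 1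
      · rwa [pow_succ, h0, one_mul]
      · rw [pow_succ] at hne ⊢
        exact hS.mul _ (ih h0) x hx ((Commute.refl x).pow_left n) hne
  have hpz : 0 ≤ k % (p : ℤ) := Int.emod_nonneg k (by exact_mod_cast hS.hp.ne_zero)
  have e : x ^ k = x ^ (k % (p : ℤ)).toNat := by
    rw [← zpow_natCast x (k % (p : ℤ)).toNat, Int.toNat_of_nonneg hpz, Int.emod_def, zpow_sub,
      zpow_dvd (hS.pow x hx) (dvd_mul_right _ _), inv_one, mul_one]
  rw [e] at h ⊢
  exact key _ h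

theorem Setting.flat_adj (hS : Setting p S) {A : Subgroup G} (hA : Flat S A) {x : G} (hx : x ∈ S)
    (hc : ∀ m ∈ A, Commute x m) : Flat S (A ⊔ Subgroup.zpowers x) := by
  refine ⟨fun a ha b hb => ?_, fun a ha h1 => ?_⟩
  · obtain ⟨m, hm, k, rfl⟩ := (mem_adj A x a hc).1 ha
    obtain ⟨n, hn, l, rfl⟩ := (mem_adj A x b hc).1 hb
    exact ((hA.1 m hm n hn).mul_right ((hc m hm).symm.zpow_right l)).mul_left
      (((hc n hn).zpow_left k).mul_right (Commute.zpow_zpow_self x k l))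
  · obtain ⟨m, hm, k, rfl⟩ := (mem_adj A x a hc).1 ha
    by_cases hk : x ^ k = 1
    · rw [hk, mul_one] at h1 ⊢
      exact hA.2 m hm h1
    by_cases hm1 : m = 1
    · rw [hm1, one_mul]; exact hS.zpowS_mem hx hk
    · exact hS.mul m (hA.2 m hm hm1) _ (hS.zpowS_mem hx hk) ((hc m hm).symm.zpow_right k) h1

theorem Setting.card_adj (hS : Setting p S) [Finite G] {A : Subgroup G} {x : G} (hx : x ∈ S) (hxA : x ∉ A)
    (hc : ∀ m ∈ A, Commute x m) : Nat.card (A ⊔ Subgroup.zpowers x : Subgroup G) = Nat.card A * p := by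
  let f : A × Subgroup.zpowers x → (A ⊔ Subgroup.zpowers x : Subgroup G) := fun mk =>
    ⟨mk.1.1 * mk.2.1, Subgroup.mul_mem _ (Subgroup.mem_sup_left mk.1.2) (Subgroup.mem_sup_right mk.2.2)⟩
  have hf : Function.Bijective f := by
    constructor
    · rintro ⟨⟨m, hm⟩, ⟨a, ha⟩⟩ ⟨⟨n, hn⟩, ⟨b, hb⟩⟩ e
      have e' : m * a = n * b := congrArg Subtype.val e
      obtain ⟨k, rfl⟩ := Subgroup.mem_zpowers_iff.1 ha
      obtain ⟨l, rfl⟩ := Subgroup.mem_zpowers_iff.1 hb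
      have hkl : x ^ (k - l) ∈ A := by
        have : x ^ (k - l) = m⁻¹ * n := by
          rw [zpow_sub, eq_inv_mul_iff_mul_eq, ← mul_assoc, e', mul_inv_cancel_right]
        rw [this]; exact A.mul_mem (A.inv_mem hm) hn
      have hd : (p : ℤ) ∣ k - l := by
        by_contra hd
        obtain ⟨u, hu⟩ := exists_inv_exp hS.hp (hS.pow x hx) hd
        exact hxA (hu ▸ A.zpow_mem hkl u)
      have hxx : x ^ k = x ^ l := by
        have := zpow_dvd (hS.pow x hx) hd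
        rwa [zpow_sub, mul_inv_eq_one] at this
      have hmn : m = n := mul_right_cancel (e'.trans (by rw [hxx]))
      subst hmn
      simp [hxx]
    · rintro ⟨y, hy⟩
      obtain ⟨m, hm, k, rfl⟩ := (mem_adj A x y hc).1 hy
      exact ⟨(⟨m, hm⟩, ⟨x ^ k, Subgroup.mem_zpowers_iff.2 ⟨k, rfl⟩⟩), rfl⟩
  rw [← Nat.card_congr (Equiv.ofBijective f hf), Nat.card_prod, Nat.card_zpowers, hS.ord hx]

/-- the centraliser in a flat subgroup has codimension at most one -/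
theorem Setting.codim (hS : Setting p S) {A : Subgroup G} (hA : Flat S A) {w : G} (hw : w ∈ S)
    {a : G} (ha : a ∈ A) (haw : ¬ Commute a w) {e : G} (he : e ∈ A) :
    ∃ c ∈ A, Commute c w ∧ ∃ k : ℤ, e = c * a ^ k := by
  by_cases hea : e ∈ Subgroup.zpowers a
  · obtain ⟨k, hk⟩ := Subgroup.mem_zpowers_iff.1 hea
    exact ⟨1, A.one_mem, Commute.one_left w, k, by rw [one_mul, hk]⟩
  have ha1 : a ≠ 1 := fun h => haw (h ▸ Commute.one_left w)
  have he1 : e ≠ 1 := fun h => hea (h ▸ Subgroup.one_mem _)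
  obtain ⟨i, j, hij, hc⟩ := hS.meet a (hA.2 a ha ha1) e (hA.2 e he he1) (hA.1 a ha e he) hea w hw
  have hj : ¬ (p : ℤ) ∣ j := by
    intro hd
    rw [zpow_dvd (hS.flat_pow hA he) hd, mul_one] at hij hc
    obtain ⟨u, hu⟩ := exists_inv_exp hS.hp (hS.flat_pow hA ha) (fun hd' => hij (zpow_dvd (hS.flat_pow hA ha) hd'))
    exact haw (hu ▸ hc.zpow_left u)
  obtain ⟨u, hu⟩ := exists_inv_exp hS.hp (hS.flat_pow hA he) hj
  refine ⟨(a ^ i * e ^ j) ^ u, A.zpow_mem (A.mul_mem (A.zpow_mem ha i) (A.zpow_mem he j)) u, hc.zpow_left u, -(i * u), ?_⟩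
  rw [((hA.1 a ha e he).zpow_zpow i j).mul_zpow, hu, ← zpow_mul, ((hA.1 a ha e he).zpow_left (i * u)).eq,
    mul_assoc, ← zpow_add, add_neg_cancel, zpow_zero, mul_one]

/-- Some element of `S` commutes with all of `S`. -/
theorem Setting.exists_universal (hS : Setting p S) [Finite G] {x₀ y₀ : G} (hx₀ : x₀ ∈ S) (hy₀ : y₀ ∈ S)
    (hxy : Commute x₀ y₀) (hne : y₀ ∉ Subgroup.zpowers x₀) :
    ∃ v ∈ S, ∀ w ∈ S, Commute v w := by
  classical
  by_contra! hno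
  have hbot : Flat S (⊥ : Subgroup G) :=
    ⟨fun a ha b _ => by rw [Subgroup.mem_bot.1 ha]; exact Commute.one_left b,
      fun a ha h => absurd (Subgroup.mem_bot.1 ha) h⟩
  obtain ⟨E, hE, hEmax⟩ := Set.Finite.exists_maximalFor (fun A : Subgroup G => Nat.card A)
    {A | Flat S A} (Set.toFinite _) ⟨⊥, hbot⟩
  replace hEmax : ∀ A : Subgroup G, Flat S A → Nat.card A ≤ Nat.card E := fun A hA =>
    (le_total (Nat.card A) (Nat.card E)).elim id fun h => hEmax hA h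
  -- a flat subgroup of maximal order contains what commutes with it
  have habs : ∀ A : Subgroup G, Flat S A → Nat.card A = Nat.card E → ∀ x ∈ S,
      (∀ m ∈ A, Commute x m) → x ∈ A := by
    intro A hA hcard x hx hc
    by_contra hxA
    have h1 := hEmax _ (hS.flat_adj hA hx hc)
    rw [hS.card_adj hx hxA hc, hcard] at h1
    have := Nat.card_pos (α := E)
    have := hS.hp.two_le
    nlinarith
  -- `E` has rank at least two
  have hEbig : p * p ≤ Nat.card E := by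
    have h1 : Flat S ((⊥ : Subgroup G) ⊔ Subgroup.zpowers x₀) := hS.flat_adj hbot hx₀
      (fun m hm => by rw [Subgroup.mem_bot.1 hm]; exact Commute.one_right _)
    have hc1 := hS.card_adj (A := (⊥ : Subgroup G)) hx₀ (fun e => hS.one (Subgroup.mem_bot.1 e ▸ hx₀))
      (fun m hm => by rw [Subgroup.mem_bot.1 hm]; exact Commute.one_right _)
    rw [bot_sup_eq] at h1 hc1
    rw [Subgroup.card_bot, one_mul] at hc1
    have hcy : ∀ m ∈ Subgroup.zpowers x₀, Commute y₀ m := fun m hm => by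
      obtain ⟨k, rfl⟩ := Subgroup.mem_zpowers_iff.1 hm
      exact hxy.symm.zpow_right k
    have := hEmax _ (hS.flat_adj h1 hy₀ hcy)
    rwa [hS.card_adj hy₀ hne hcy, hc1] at this
  -- the centralisers in `E`
  let C : G → Subgroup G := fun w => E ⊓ Subgroup.centralizer ({w} : Set G)
  have hC : ∀ w x, x ∈ C w ↔ x ∈ E ∧ Commute x w := fun w x => by
    simp only [C, Subgroup.mem_inf, Subgroup.mem_centralizer_singleton_iff]; exact Iff.rfl
  have hexa : ∀ w ∈ S, w ∉ E → ∃ a ∈ E, ¬ Commute a w := fun w hw hwE => by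
    by_contra! hh
    exact hwE (habs E hE rfl w hw fun m hm => (hh m hm).symm)
  -- hyperplanes
  let Hyp : Subgroup G → Prop := fun L => L ≤ E ∧ ∃ a ∈ E, a ∉ L ∧ ∀ e ∈ E, ∃ m ∈ L, ∃ k : ℤ, e = m * a ^ k
  have hdec : ∀ L, Hyp L → ∀ a ∈ E, a ∉ L → ∀ e ∈ E, ∃ m ∈ L, ∃ k : ℤ, e = m * a ^ k := by
    rintro L ⟨hLE, a₀, ha₀E, ha₀L, hh⟩ a haE haL e heE
    obtain ⟨m, hm, k, hk⟩ := hh a haE
    obtain ⟨n, hn, l, hl⟩ := hh e heE
    have hnd : ¬ (p : ℤ) ∣ k := fun hd => haL (by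
      rw [hk, zpow_dvd (hS.flat_pow hE ha₀E) hd, mul_one]; exact hm)
    obtain ⟨u, hu⟩ := exists_inv_exp hS.hp (hS.flat_pow hE ha₀E) hnd
    -- `a₀ = (m⁻¹ * a) ^ u`
    have e1 : a₀ = (m⁻¹ * a) ^ u := by rw [hk, inv_mul_cancel_left, hu]
    rw [e1, ← zpow_mul, ((hE.1 _ (E.inv_mem (hLE hm)) a haE)).mul_zpow, ← mul_assoc] at hl
    exact ⟨n * m⁻¹ ^ (u * l), L.mul_mem hn (L.zpow_mem (L.inv_mem hm) _), u * l, hl⟩
  have hsub : ∀ L L', Hyp L → Hyp L' → L ≤ L' → L = L' := by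
    intro L L' hL hL' hle
    refine le_antisymm hle fun x hx => ?_
    by_contra hxL
    obtain ⟨a, haE, haL', -⟩ := hL'.2
    obtain ⟨m, hm, k, hk⟩ := hdec L hL x (hL'.1 hx) hxL a haE
    exact haL' (hk ▸ L'.mul_mem (hle hm) (L'.zpow_mem hx k))
  have hCH : ∀ w ∈ S, w ∉ E → Hyp (C w) := by
    intro w hw hwE
    obtain ⟨a, haE, haw⟩ := hexa w hw hwE
    refine ⟨inf_le_left, a, haE, fun h => haw ((hC w a).1 h).2, fun e he => ?_⟩
    obtain ⟨c, hcE, hcw, k, hk⟩ := hS.codim hE hw haE haw he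
    exact ⟨c, (hC w c).2 ⟨hcE, hcw⟩, k, hk⟩
  let 𝓛 : Set (Subgroup G) := {L | ∃ w ∈ S, w ∉ E ∧ C w = L}
  -- the pencil property
  have hpencil : ∀ L₁ ∈ 𝓛, ∀ L₂ ∈ 𝓛, ∀ L, Hyp L → L₁ ⊓ L₂ ≤ L → L ∈ 𝓛 := by
    rintro L₁ ⟨w₁, hw₁, hw₁E, rfl⟩ L₂ ⟨w₂, hw₂, hw₂E, rfl⟩ L hL hle
    have hH1 := hCH w₁ hw₁ hw₁E
    have hH2 := hCH w₂ hw₂ hw₂E
    by_cases h12 : C w₁ = C w₂
    · rw [← h12, inf_idem] at hle
      exact ⟨w₁, hw₁, hw₁E, hsub _ _ hH1 hL hle⟩
    obtain ⟨l, hl1, hl2⟩ : ∃ l ∈ C w₁, l ∉ C w₂ := Set.not_subset.1 fun h => h12 (hsub _ _ hH1 hH2 h)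
    have hcl : ∀ m ∈ C w₁, Commute w₁ m := fun m hm => (((hC w₁ m).1 hm).2).symm
    have hF : Flat S (C w₁ ⊔ Subgroup.zpowers w₁) := hS.flat_adj
      ⟨fun a ha b hb => hE.1 a (inf_le_left (b := Subgroup.centralizer ({w₁} : Set G)) ha) b
        (inf_le_left (b := Subgroup.centralizer ({w₁} : Set G)) hb),
        fun a ha h => hE.2 a ((hC w₁ a).1 ha).1 h⟩ hw₁ hcl
    have hlw : ¬ Commute l w₂ := fun h => hl2 ((hC w₂ l).2 ⟨((hC w₁ l).1 hl1).1, h⟩)
    obtain ⟨c, hcF, hcw, k, hk⟩ := hS.codim hF hw₂ (Subgroup.mem_sup_left hl1) hlw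
      (Subgroup.mem_sup_right (Subgroup.mem_zpowers w₁))
    -- `c = w₁ * l ^ (-k)`
    have hce : c = w₁ * l ^ (-k) := by rw [hk, mul_assoc, ← zpow_add, add_neg_cancel, zpow_zero, mul_one]
    have hlE : l ∈ E := ((hC w₁ l).1 hl1).1
    have hw1E : ∀ e ∈ E, (Commute e c ↔ Commute e w₁) := by
      intro e he
      constructor
      · intro h
        rw [hk]; exact h.mul_right ((hE.1 e he l hlE).zpow_right k)
      · intro h
        rw [hce]; exact h.mul_right ((hE.1 e he l hlE).zpow_right (-k))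
    have hcE : c ∉ E := fun h => hw₁E (hk ▸ E.mul_mem h (E.zpow_mem hlE k))
    have hc1 : c ≠ 1 := fun e => hcE (e ▸ E.one_mem)
    have hcS : c ∈ S := hF.2 c hcF hc1
    have hw2c : w₂ ∉ Subgroup.zpowers c := fun h => by
      obtain ⟨i, hi⟩ := Subgroup.mem_zpowers_iff.1 h
      exact hlw (hi ▸ ((hw1E l hlE).2 ((hC w₁ l).1 hl1).2).zpow_right i)
    by_cases hLL : L ≤ C w₁ ⊓ C w₂
    · exact ⟨w₁, hw₁, hw₁E, (hsub _ _ hL hH1 (hLL.trans inf_le_left)).symm⟩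
    obtain ⟨e, heL, hen⟩ := Set.not_subset.1 hLL
    have heE : e ∈ E := hL.1 heL
    have he1 : e ≠ 1 := fun h => hen (h ▸ Subgroup.one_mem _)
    obtain ⟨i, j, hij, hcomm⟩ := hS.meet c hcS w₂ hw₂ hcw hw2c e (hE.2 e heE he1)
    set d := c ^ i * w₂ ^ j with hd
    have hdS : d ∈ S := by
      by_cases a : c ^ i = 1
      · rw [hd, a, one_mul] at hij ⊢; exact hS.zpowS_mem hw₂ hij
      by_cases b : w₂ ^ j = 1
      · rw [hd, b, mul_one]; exact hS.zpowS_mem hcS a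
      exact hS.mul _ (hS.zpowS_mem hcS a) _ (hS.zpowS_mem hw₂ b) (hcw.zpow_zpow i j) hij
    have hdE : d ∉ E := by
      intro hdE
      have hl_d : Commute l d := hE.1 l hlE d hdE
      have hlc : Commute l c := (hw1E l hlE).2 ((hC w₁ l).1 hl1).2
      have hlwj : Commute l (w₂ ^ j) := by
        have e2 : w₂ ^ j = (c ^ i)⁻¹ * d := by rw [hd, inv_mul_cancel_left]
        rw [e2]; exact ((hlc.zpow_right i).inv_right).mul_right hl_d
      by_cases hj : (p : ℤ) ∣ j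
      · rw [hd, zpow_dvd (hS.pow w₂ hw₂) hj, mul_one] at hdE hij
        by_cases hi : (p : ℤ) ∣ i
        · exact hij (zpow_dvd (hS.pow c hcS) hi)
        · obtain ⟨u, hu⟩ := exists_inv_exp hS.hp (hS.pow c hcS) hi
          exact hcE (hu ▸ E.zpow_mem hdE u)
      · obtain ⟨u, hu⟩ := exists_inv_exp hS.hp (hS.pow w₂ hw₂) hj
        exact hlw (hu ▸ hlwj.zpow_right u)
    refine ⟨d, hdS, hdE, ?_⟩
    refine (hsub _ _ hL (hCH d hdS hdE) fun t ht => (hC d t).2 ⟨hL.1 ht, ?_⟩).symm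
    -- every element of `L` commutes with `d`
    have hbase : ∀ m, m ∈ C w₁ → m ∈ C w₂ → Commute m d := by
      intro m h1 h2
      rw [hd]
      exact (((hw1E m ((hC w₁ m).1 h1).1).2 ((hC w₁ m).1 h1).2).zpow_right i).mul_right
        (((hC w₂ m).1 h2).2.zpow_right j)
    have htE : t ∈ E := hL.1 ht
    by_cases hew : e ∈ C w₁
    · -- then `e ∉ C w₂`
      have he2 : e ∉ C w₂ := fun h => hen ⟨hew, h⟩
      obtain ⟨m, hm, k', rfl⟩ := hdec _ hH2 e heE he2 t htE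
      have hmL : m ∈ L := by
        have := L.mul_mem ht (L.inv_mem (L.zpow_mem heL k'))
        rwa [mul_inv_cancel_right] at this
      by_cases hm1 : m ∈ C w₁
      · exact (hbase m hm1 hm).mul_left (hcomm.symm.zpow_left k')
      · exfalso
        -- `L` would be everything
        obtain ⟨a, haE, haL, -⟩ := hL.2
        obtain ⟨m₁, hm₁, k₁, ha⟩ := hdec _ hH1 m (hL.1 hmL) hm1 a haE
        obtain ⟨m₂, hm₂, k₂, hm₁'⟩ := hdec _ hH2 e heE he2 m₁ ((hC w₁ _).1 hm₁).1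
        have hm₂1 : m₂ ∈ C w₁ := by
          have := (C w₁).mul_mem hm₁ ((C w₁).inv_mem ((C w₁).zpow_mem hew k₂))
          rwa [hm₁', mul_inv_cancel_right] at this
        exact haL (ha ▸ L.mul_mem (hm₁' ▸ L.mul_mem (hle ⟨hm₂1, hm₂⟩) (L.zpow_mem heL k₂)) (L.zpow_mem hmL k₁))
    · obtain ⟨m, hm, k', rfl⟩ := hdec _ hH1 e heE hew t htE
      have hmL : m ∈ L := by
        have := L.mul_mem ht (L.inv_mem (L.zpow_mem heL k'))
        rwa [mul_inv_cancel_right] at this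
      by_cases hm2 : m ∈ C w₂
      · exact (hbase m hm hm2).mul_left (hcomm.symm.zpow_left k')
      · exfalso
        obtain ⟨a, haE, haL, -⟩ := hL.2
        obtain ⟨m₁, hm₁, k₁, ha⟩ := hdec _ hH1 e heE hew a haE
        obtain ⟨m₂, hm₂, k₂, hm₁'⟩ := hdec _ hH2 m (hL.1 hmL) hm2 m₁ ((hC w₁ _).1 hm₁).1
        have hm₂1 : m₂ ∈ C w₁ := by
          have := (C w₁).mul_mem hm₁ ((C w₁).inv_mem ((C w₁).zpow_mem hm k₂))
          rwa [hm₁', mul_inv_cancel_right] at this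
        exact haL (ha ▸ L.mul_mem (hm₁' ▸ L.mul_mem (hle ⟨hm₂1, hm₂⟩) (L.zpow_mem hmL k₂)) (L.zpow_mem heL k₁))
  -- all hyperplanes occur
  have hout : ∀ x ∈ E, x ≠ 1 → ∃ w ∈ S, w ∉ E ∧ x ∉ C w := by
    intro x hx hx1
    obtain ⟨w, hw, hxw⟩ := hno x (hE.2 x hx hx1)
    exact ⟨w, hw, fun h => hxw (hE.1 x hx w h), fun h => hxw ((hC w x).1 h).2⟩
  have hall : ∀ L, Hyp L → L ∈ 𝓛 := by
    suffices ∀ F : Finset G, (↑F : Set G) ⊆ S \ (E : Set G) → ∀ L, Hyp L →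
        (⨅ w ∈ F, C w) ⊓ E ≤ L → L ∈ 𝓛 by
      intro L hL
      have hfin : Fintype G := Fintype.ofFinite G
      refine this ((Finset.univ : Finset G).filter fun w => w ∈ S ∧ w ∉ E) (fun w hw => by simpa using hw) L hL
        fun x hx => ?_
      by_cases hx1 : x = 1
      · exact hx1 ▸ L.one_mem
      obtain ⟨w, hw, hwE, hxw⟩ := hout x hx.2 hx1
      exfalso
      have hx1' : x ∈ ⨅ w' ∈ ((Finset.univ : Finset G).filter fun w' => w' ∈ S ∧ w' ∉ E), C w' := hx.1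
      exact hxw (Subgroup.mem_iInf.1 (Subgroup.mem_iInf.1 hx1' w) (by simp [hw, hwE]))
    intro F
    induction F using Finset.induction_on with
    | empty =>
      intro _ L hL hle
      exfalso
      obtain ⟨a, haE, haL, -⟩ := hL.2
      exact haL (hle ⟨by simp, haE⟩)
    | @insert v F _ ih =>
      intro hFS L hL hle
      rw [Finset.coe_insert, Set.insert_subset_iff] at hFS
      obtain ⟨⟨hvS, hvE⟩, hFS⟩ := hFS
      rw [Finset.iInf_insert] at hle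
      by_cases hI : (⨅ w ∈ F, C w) ⊓ E ≤ L
      · exact ih hFS L hL hI
      obtain ⟨i, hiI, hiL⟩ := Set.not_subset.1 hI
      have hiE : i ∈ E := hiI.2
      by_cases hiv : i ∈ C v
      · exact absurd (hle ⟨⟨hiv, hiI.1⟩, hiE⟩) hiL
      have hH := hCH v hvS hvE
      by_cases hLv : L = C v
      · exact ⟨v, hvS, hvE, hLv.symm⟩
      obtain ⟨a₀, ha₀L, ha₀v⟩ := Set.not_subset.1 (fun h : (L : Set G) ⊆ C v => hLv (hsub _ _ hL hH h))
      let L₁ := L ⊓ C v ⊔ Subgroup.zpowers i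
      have hc : ∀ m ∈ L ⊓ C v, Commute i m := fun m hm => hE.1 i hiE m (hL.1 hm.1)
      have hL₁ : Hyp L₁ := by
        refine ⟨sup_le (inf_le_left.trans hL.1) (Subgroup.zpowers_le.2 hiE), a₀, hL.1 ha₀L, ?_, ?_⟩
        · intro h
          obtain ⟨m, hm, k, hk⟩ := (mem_adj _ _ _ hc).1 h
          have hik : i ^ k ∈ L := by
            have : i ^ k = m⁻¹ * a₀ := by rw [hk, inv_mul_cancel_left]
            rw [this]; exact L.mul_mem (L.inv_mem hm.1) ha₀L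
          by_cases hd : (p : ℤ) ∣ k
          · rw [zpow_dvd (hS.flat_pow hE hiE) hd, mul_one] at hk
            exact ha₀v (hk ▸ hm.2)
          · obtain ⟨u, hu⟩ := exists_inv_exp hS.hp (hS.flat_pow hE hiE) hd
            exact hiL (hu ▸ L.zpow_mem hik u)
        · intro e he
          obtain ⟨l, hl, k, rfl⟩ := hdec L hL i hiE hiL e he
          obtain ⟨n, hn, j, rfl⟩ := hdec _ hH a₀ (hL.1 ha₀L) ha₀v l (hL.1 hl)
          refine ⟨n * i ^ k, (mem_adj _ _ _ hc).2 ⟨n, ⟨?_, hn⟩, k, rfl⟩, j, ?_⟩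
          · have := L.mul_mem hl (L.inv_mem (L.zpow_mem ha₀L j))
            rwa [mul_inv_cancel_right] at this
          · rw [mul_assoc, mul_assoc, ((hE.1 a₀ (hL.1 ha₀L) i hiE).zpow_zpow j k).eq]
      have hI₁ : (⨅ w ∈ F, C w) ⊓ E ≤ L₁ := by
        intro x hx
        obtain ⟨m, hm, k, rfl⟩ := hdec _ hH i hiE hiv x hx.2
        have hm' : m ∈ (⨅ w ∈ F, C w) ⊓ E := by
          have := ((⨅ w ∈ F, C w) ⊓ E).mul_mem hx (Subgroup.inv_mem _ (Subgroup.zpow_mem _ hiI k))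
          rwa [mul_inv_cancel_right] at this
        exact (mem_adj _ _ _ hc).2 ⟨m, ⟨hle ⟨⟨hm, hm'.1⟩, hm'.2⟩, hm⟩, k, rfl⟩
      refine hpencil L₁ (ih hFS L₁ hL₁ hI₁) (C v) ⟨v, hvS, hvE, rfl⟩ L hL fun x hx => ?_
      obtain ⟨m, hm, k, hk⟩ := (mem_adj _ _ _ hc).1 hx.1
      have hik : i ^ k ∈ C v := by
        have : i ^ k = m⁻¹ * x := by rw [hk, inv_mul_cancel_left]
        rw [this]; exact (C v).mul_mem ((C v).inv_mem hm.2) hx.2
      by_cases hd : (p : ℤ) ∣ k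
      · rw [hk, zpow_dvd (hS.flat_pow hE hiE) hd, mul_one]; exact hm.1
      · obtain ⟨u, hu⟩ := exists_inv_exp hS.hp (hS.flat_pow hE hiE) hd
        exact absurd (hu ▸ (C v).zpow_mem hik u) hiv
  -- a vector outside `E`
  obtain ⟨e₀, he₀E, he₀1⟩ : ∃ x ∈ E, x ≠ 1 := by
    by_contra! hh
    rw [(Subgroup.eq_bot_iff_forall _).2 hh, Subgroup.card_bot] at hEbig
    nlinarith [hS.hp.two_le]
  obtain ⟨y, hy, hyE, -⟩ := hout e₀ he₀E he₀1
  obtain ⟨u, huE, huy⟩ := hexa y hy hyE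
  have hH := hCH y hy hyE
  set H := C y with hHdef
  have huH : u ∉ H := fun h => huy ((hC y u).1 h).2
  have hHdec := hdec H hH u huE huH
  set d := u * y * u⁻¹ * y⁻¹ with hddef
  have hup : u ^ p = 1 := hS.flat_pow hE huE
  have hsteps : ∀ D : Subgroup G, D ≤ H → ∀ z ∈ H, z ∉ D →
      (∀ h ∈ H, ∃ m ∈ D, ∃ k : ℤ, h = m * z ^ k) → d ∈ D := by
    intro D hDH z hz hzD hDdec
    have hDE : D ≤ E := hDH.trans hH.1
    have hzE : z ∈ E := hH.1 hz
    have hzp : z ^ p = 1 := hS.flat_pow hE hzE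
    have hcu : ∀ m ∈ D, Commute u m := fun m hm => hE.1 u huE m (hDE hm)
    let L := D ⊔ Subgroup.zpowers u
    have hzL : z ∉ L := by
      intro h
      obtain ⟨m, hm, k, hk⟩ := (mem_adj _ _ _ hcu).1 h
      have huk : u ^ k ∈ H := by
        have : u ^ k = m⁻¹ * z := by rw [hk, inv_mul_cancel_left]
        rw [this]; exact H.mul_mem (H.inv_mem (hDH hm)) hz
      by_cases hd' : (p : ℤ) ∣ k
      · rw [zpow_dvd hup hd', mul_one] at hk; exact hzD (hk ▸ hm)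
      · obtain ⟨v, hv⟩ := exists_inv_exp hS.hp hup hd'
        exact huH (hv ▸ H.zpow_mem huk v)
    have hL : Hyp L := by
      refine ⟨sup_le hDE (Subgroup.zpowers_le.2 huE), z, hzE, hzL, fun e he => ?_⟩
      obtain ⟨h, hh, k, rfl⟩ := hHdec e he
      obtain ⟨m, hm, j, rfl⟩ := hDdec h hh
      exact ⟨m * u ^ k, (mem_adj _ _ _ hcu).2 ⟨m, hm, k, rfl⟩, j,
        by rw [mul_assoc, mul_assoc, ((hE.1 z hzE u huE).zpow_zpow j k).eq]⟩
    obtain ⟨q, hq, hqE, hqL⟩ := hall L hL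
    have hqu : Commute u q := ((hC q u).1 (hqL.symm ▸ Subgroup.mem_sup_right (Subgroup.mem_zpowers u))).2
    have hqD : ∀ m ∈ D, Commute m q := fun m hm => ((hC q m).1 (hqL.symm ▸ Subgroup.mem_sup_left hm)).2
    have hqz : ¬ Commute z q := fun h => hzL (hqL ▸ (hC q z).2 ⟨hzE, h⟩)
    have hcy : ∀ m ∈ H, Commute y m := fun m hm => (((hC y m).1 hm).2).symm
    have hHflat : Flat S H :=
      ⟨fun a ha b hb => hE.1 a (hH.1 ha) b (hH.1 hb), fun a ha h => hE.2 a (hH.1 ha) h⟩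
    -- adjust `y` so that it commutes with `q`
    have hF' : Flat S (H ⊔ Subgroup.zpowers y) := hS.flat_adj hHflat hy hcy
    obtain ⟨y₁, hy₁F, hy₁q, k₀, hyk⟩ := hS.codim hF' hq (Subgroup.mem_sup_left hz) hqz
      (Subgroup.mem_sup_right (Subgroup.mem_zpowers y))
    have hy₁eq : y₁ = y * z ^ (-k₀) := by
      rw [hyk, mul_assoc, ← zpow_add, add_neg_cancel, zpow_zero, mul_one]
    have hy₁E : y₁ ∉ E := fun h => hyE (hyk ▸ E.mul_mem h (E.zpow_mem hzE k₀))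
    have hy₁1 : y₁ ≠ 1 := fun e => hy₁E (e ▸ E.one_mem)
    have hy₁S : y₁ ∈ S := hF'.2 _ hy₁F hy₁1
    have hy₁H : ∀ m ∈ H, Commute y₁ m := fun m hm => by
      rw [hy₁eq]; exact (hcy m hm).mul_left ((hE.1 z hzE m (hH.1 hm)).zpow_left _)
    have hdy₁ : d = u * y₁ * u⁻¹ * y₁⁻¹ := by
      have hz' : u * z ^ (-k₀) = z ^ (-k₀) * u := ((hE.1 u huE z hzE).zpow_right _).eq
      rw [hy₁eq, hddef]
      calc u * y * u⁻¹ * y⁻¹ = u * y * (z ^ (-k₀) * u * u⁻¹ * (z ^ (-k₀))⁻¹) * u⁻¹ * y⁻¹ := by group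
        _ = u * y * (z ^ (-k₀) * u⁻¹ * (z ^ (-k₀))⁻¹ * u) * u⁻¹ * y⁻¹ := by
            rw [((hE.1 u huE z hzE).zpow_right (-k₀)).inv_left.eq.symm]; group
        _ = u * (y * z ^ (-k₀)) * u⁻¹ * (y * z ^ (-k₀))⁻¹ := by group
    have hy₁u : ¬ Commute u y₁ := by
      intro h
      apply huy
      rw [hyk]; exact h.mul_right ((hE.1 u huE z hzE).zpow_right k₀)
    -- the second maximal subgroup
    have hDflat : Flat S D :=
      ⟨fun a ha b hb => hE.1 a (hDE ha) b (hDE hb), fun a ha h => hE.2 a (hDE ha) h⟩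
    have hqD' : ∀ m ∈ D, Commute q m := fun m hm => (hqD m hm).symm
    have hF₁ : Flat S (D ⊔ Subgroup.zpowers q) := hS.flat_adj hDflat hq hqD'
    have hy₁c : ∀ m ∈ D ⊔ Subgroup.zpowers q, Commute y₁ m := fun m hm => by
      obtain ⟨n, hn, j, rfl⟩ := (mem_adj _ _ _ hqD').1 hm
      exact (hy₁H n (hDH hn)).mul_right (hy₁q.zpow_right j)
    have hqpow : ∀ j : ℤ, Commute z (q ^ j) → (p : ℤ) ∣ j := by
      intro j h
      by_contra hj
      obtain ⟨v, hv⟩ := exists_inv_exp hS.hp (hS.pow q hq) hj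
      exact hqz (hv ▸ h.zpow_right v)
    have hy₁F₁ : y₁ ∉ D ⊔ Subgroup.zpowers q := fun h => by
      obtain ⟨n, hn, j, hj⟩ := (mem_adj _ _ _ hqD').1 h
      have : Commute z (q ^ j) := by
        have e : q ^ j = n⁻¹ * y₁ := by rw [hj, inv_mul_cancel_left]
        rw [e]; exact (hE.1 z hzE n (hDE hn)).inv_right.mul_right (hy₁H z hz).symm
      rw [zpow_dvd (hS.pow q hq) (hqpow j this), mul_one] at hj
      exact hy₁E (hj ▸ hDE hn)
    let E'' := D ⊔ Subgroup.zpowers q ⊔ Subgroup.zpowers y₁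
    have hF'' : Flat S E'' := hS.flat_adj hF₁ hy₁S hy₁c
    have hHu : H ⊔ Subgroup.zpowers u = E := le_antisymm (sup_le hH.1 (Subgroup.zpowers_le.2 huE))
      fun e he => (mem_adj _ _ _ fun m hm => hE.1 u huE m (hH.1 hm)).2 (hHdec e he)
    have hDz : D ⊔ Subgroup.zpowers z = H := le_antisymm (sup_le hDH (Subgroup.zpowers_le.2 hz))
      fun e he => (mem_adj _ _ _ fun m hm => hE.1 z hzE m (hDE hm)).2 (hDdec e he)
    have hz1 : z ≠ 1 := fun e => hzD (e ▸ D.one_mem)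
    have hu1 : u ≠ 1 := fun e => huH (e ▸ H.one_mem)
    have hcardE : Nat.card E = Nat.card D * p * p := by
      have a := hS.card_adj (A := H) (hE.2 u huE hu1) huH fun m hm => hE.1 u huE m (hH.1 hm)
      have b := hS.card_adj (A := D) (hE.2 z hzE hz1) hzD fun m hm => hE.1 z hzE m (hDE hm)
      rw [hHu] at a
      rw [hDz] at b
      rw [a, b]
    have hcard'' : Nat.card E'' = Nat.card E := by
      rw [hS.card_adj hy₁S hy₁F₁ hy₁c, hS.card_adj hq (fun h => hqE (hDE h)) hqD', hcardE]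
    have hcardH : Nat.card (H ⊔ Subgroup.zpowers y₁ : Subgroup G) = Nat.card E := by
      have b := hS.card_adj (A := D) (hE.2 z hzE hz1) hzD fun m hm => hE.1 z hzE m (hDE hm)
      rw [hDz] at b
      rw [hS.card_adj hy₁S (fun h => hy₁E (hH.1 h)) hy₁H, b, hcardE]
    -- the conjugate
    set y₂ := u * y₁ * u⁻¹ with hy₂
    have hy₂S : y₂ ∈ S := hS.conj y₁ hy₁S u
    have hconj : ∀ c, Commute c y₁ → Commute c u → Commute c y₂ := fun c h1 h2 =>
      (h2.mul_right h1).mul_right h2.inv_right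
    have hy₂uz : y₂ = (u * z) * y₁ * (u * z)⁻¹ := by
      rw [hy₂]
      calc u * y₁ * u⁻¹ = u * (y₁ * z * z⁻¹) * u⁻¹ := by group
        _ = (u * z) * y₁ * (u * z)⁻¹ := by rw [(hy₁H z hz).eq]; group
    have hH₂ : ∀ m ∈ H, Commute m y₂ := fun m hm => hconj m (hy₁H m hm).symm (hE.1 m (hH.1 hm) u huE)
    have hq₂ : Commute q y₂ := hconj q hy₁q.symm hqu.symm
    have huzS : u * z ∈ S := hE.2 _ (E.mul_mem huE hzE) fun e => huH (by
      rw [eq_inv_of_mul_eq_one_left e]; exact H.inv_mem hz)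
    have hy₁uz : ¬ Commute y₁ (u * z) := fun h => hy₁u (by
      have := h.mul_right (hy₁H z hz).inv_right
      rw [mul_inv_cancel_right] at this
      exact this.symm)
    obtain ⟨c, hcF, hcuz, k₁, hqk⟩ := hS.codim hF'' huzS (Subgroup.mem_sup_right (Subgroup.mem_zpowers y₁))
      hy₁uz (Subgroup.mem_sup_left (Subgroup.mem_sup_right (Subgroup.mem_zpowers q)))
    have hk₁ : ¬ (p : ℤ) ∣ k₁ := fun hd' => hqz (by
      rw [zpow_dvd (hS.pow y₁ hy₁S) hd', mul_one] at hqk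
      rw [← hqk] at hcuz
      have := hqu.inv_left.mul_left hcuz.symm
      rw [inv_mul_cancel_left] at this
      exact this)
    have hc₂ : Commute c y₂ := by
      rw [hy₂uz]
      exact (hcuz.mul_right (hF''.1 c hcF y₁ (Subgroup.mem_sup_right (Subgroup.mem_zpowers y₁)))).mul_right
        hcuz.inv_right
    have h12 : Commute y₁ y₂ := by
      obtain ⟨v, hv⟩ := exists_inv_exp hS.hp (hS.pow y₁ hy₁S) hk₁
      have e : y₁ ^ k₁ = c⁻¹ * q := by rw [hqk, inv_mul_cancel_left]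
      have : Commute (y₁ ^ k₁) y₂ := e ▸ hc₂.inv_left.mul_left hq₂
      exact hv ▸ this.zpow_left v
    have hin' : y₂ ∈ H ⊔ Subgroup.zpowers y₁ := habs _ (hS.flat_adj hHflat hy₁S hy₁H) hcardH y₂ hy₂S
      fun m hm => by
        obtain ⟨n, hn, j, rfl⟩ := (mem_adj _ _ _ hy₁H).1 hm
        exact (hH₂ n hn).symm.mul_right (h12.symm.zpow_right j)
    have hin'' : y₂ ∈ E'' := habs _ hF'' hcard'' y₂ hy₂S fun m hm => by
        obtain ⟨n, hn, j, rfl⟩ := (mem_adj _ _ _ hy₁c).1 hm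
        obtain ⟨n', hn', j', rfl⟩ := (mem_adj _ _ _ hqD').1 hn
        exact ((hH₂ n' (hDH hn')).symm.mul_right (hq₂.symm.zpow_right j')).mul_right (h12.symm.zpow_right j)
    obtain ⟨h, hh, i, hi⟩ := (mem_adj _ _ _ hy₁H).1 hin'
    obtain ⟨m', hm', l, hl⟩ := (mem_adj _ _ _ hy₁c).1 hin''
    obtain ⟨m, hm, j, rfl⟩ := (mem_adj _ _ _ hqD').1 hm'
    have hj0 : q ^ j = 1 := zpow_dvd (hS.pow q hq) (hqpow j (by
      have e : q ^ j = m⁻¹ * h * y₁ ^ (i - l) := by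
        rw [zpow_sub]
        calc q ^ j = m⁻¹ * (m * q ^ j * y₁ ^ l) * (y₁ ^ l)⁻¹ := by group
          _ = m⁻¹ * (h * y₁ ^ i) * (y₁ ^ l)⁻¹ := by rw [← hl, hi]
          _ = m⁻¹ * h * (y₁ ^ i * (y₁ ^ l)⁻¹) := by group
      rw [e]
      exact ((hE.1 z hzE m (hDE hm)).inv_right.mul_right (hE.1 z hzE h (hH.1 hh))).mul_right
        ((hy₁H z hz).symm.zpow_right _)))
    rw [hj0, mul_one] at hl
    -- `l ≡ 1`
    have hiter : ∀ n : ℕ, ∃ m₀ ∈ D, u ^ n * y₁ * (u ^ n)⁻¹ = m₀ * y₁ ^ (l ^ n) := by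
      intro n
      induction n with
      | zero => exact ⟨1, D.one_mem, by simp⟩
      | succ n ih =>
        obtain ⟨m₀, hm₀, e⟩ := ih
        refine ⟨m₀ * m ^ (l ^ n), D.mul_mem hm₀ (D.zpow_mem hm _), ?_⟩
        have e2 : u * y₁ ^ (l ^ n) * u⁻¹ = (m * y₁ ^ l) ^ (l ^ n) := by rw [← conj_zpow, ← hy₂, hl]
        calc u ^ (n + 1) * y₁ * (u ^ (n + 1))⁻¹ = u * (u ^ n * y₁ * (u ^ n)⁻¹) * u⁻¹ := by
              rw [pow_succ']; group
          _ = (u * m₀ * u⁻¹) * (u * y₁ ^ (l ^ n) * u⁻¹) := by rw [e]; group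
          _ = m₀ * (m * y₁ ^ l) ^ (l ^ n) := by rw [e2, (hcu m₀ hm₀).eq, mul_inv_cancel_right]
          _ = m₀ * m ^ (l ^ n) * y₁ ^ (l ^ (n + 1)) := by
              rw [((hy₁H m (hDH hm)).symm.zpow_right l).mul_zpow, ← zpow_mul, pow_succ', mul_assoc]
    obtain ⟨m₀, hm₀, e⟩ := hiter p
    rw [hup, one_mul, inv_one, mul_one] at e
    have hl1 : (p : ℤ) ∣ l - 1 := by
      have h1 : (p : ℤ) ∣ l ^ p - 1 := by
        by_contra hnd
        have : y₁ ^ (l ^ p - 1) ∈ E := by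
          have e3 : y₁ ^ (l ^ p - 1) = m₀⁻¹ := by
            rw [zpow_sub, zpow_one]
            nth_rw 2 [e]
            group
          rw [e3]; exact E.inv_mem (hDE hm₀)
        obtain ⟨v, hv⟩ := exists_inv_exp hS.hp (hS.pow y₁ hy₁S) hnd
        exact hy₁E (hv ▸ E.zpow_mem this v)
      have : Fact p.Prime := ⟨hS.hp⟩
      rw [← ZMod.intCast_zmod_eq_zero_iff_dvd] at h1 ⊢
      push_cast at h1 ⊢
      rwa [ZMod.pow_card] at h1
    have hl' : y₁ ^ l = y₁ := by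
      have := zpow_dvd (hS.pow y₁ hy₁S) hl1
      rwa [zpow_sub, zpow_one, mul_inv_eq_one] at this
    rw [hl'] at hl
    rw [hdy₁, hl, mul_inv_cancel_right]
    exact hm
  -- complements in `H`
  have hcomp : ∀ z ∈ H, z ≠ 1 → ∃ D : Subgroup G, D ≤ H ∧ z ∉ D ∧
      ∀ h ∈ H, ∃ m ∈ D, ∃ k : ℤ, h = m * z ^ k := by
    intro z hz hz1
    obtain ⟨D, hD⟩ := Set.Finite.exists_maximal (s := {D : Subgroup G | D ≤ H ∧ z ∉ D}) (Set.toFinite _)
      ⟨⊥, bot_le, fun h => hz1 (Subgroup.mem_bot.1 h)⟩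
    obtain ⟨hDH, hzD⟩ := hD.prop
    refine ⟨D, hDH, hzD, fun h hh => ?_⟩
    by_cases hhD : h ∈ D
    · exact ⟨h, hhD, 0, by simp⟩
    have hc : ∀ m ∈ D, Commute h m := fun m hm => hE.1 h (hH.1 hh) m (hH.1 (hDH hm))
    have hzmem : z ∈ D ⊔ Subgroup.zpowers h := by
      by_contra hz'
      exact hhD ((hD.le_of_ge ⟨sup_le hDH (Subgroup.zpowers_le.2 hh), hz'⟩ le_sup_left)
        (Subgroup.mem_sup_right (Subgroup.mem_zpowers h)))
    obtain ⟨m, hm, k, hk⟩ := (mem_adj _ _ _ hc).1 hzmem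
    have hnd : ¬ (p : ℤ) ∣ k := fun hd' => hzD (by
      rw [hk, zpow_dvd (hS.flat_pow hE (hH.1 hh)) hd', mul_one]; exact hm)
    obtain ⟨v, hv⟩ := exists_inv_exp hS.hp (hS.flat_pow hE (hH.1 hh)) hnd
    refine ⟨m⁻¹ ^ v, D.zpow_mem (D.inv_mem hm) v, v, ?_⟩
    rw [← (hE.1 _ (E.inv_mem (hH.1 (hDH hm))) z (hH.1 hz)).mul_zpow, hk, inv_mul_cancel_left, hv]
  obtain ⟨z₀, hz₀, hz₀1⟩ : ∃ x ∈ H, x ≠ 1 := by
    by_contra! hh
    obtain ⟨a, haE, -, hdd⟩ := hH.2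
    have hle : E ≤ Subgroup.zpowers a := fun e he => by
      obtain ⟨m, hm, k, rfl⟩ := hdd e he
      rw [hh m hm, one_mul]; exact zpow_mem (Subgroup.mem_zpowers a) k
    have := Subgroup.card_le_of_le hle
    rw [Nat.card_zpowers] at this
    have ha : orderOf a ≤ p := Nat.le_of_dvd hS.hp.pos (orderOf_dvd_of_pow_eq_one (hS.flat_pow hE haE))
    nlinarith [hS.hp.two_le]
  obtain ⟨D₀, hD₀, hz₀D, hD₀dec⟩ := hcomp z₀ hz₀ hz₀1
  have hdH : d ∈ H := hD₀ (hsteps D₀ hD₀ z₀ hz₀ hz₀D hD₀dec)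
  have hd1 : d ≠ 1 := fun e => huy (by
    rw [hddef, mul_inv_eq_one, mul_inv_eq_iff_eq_mul] at e
    exact e)
  obtain ⟨D, hD, hdD, hDdec⟩ := hcomp d hdH hd1
  exact hdD (hsteps D hD d hdH hdD hDdec)

end


/-- Let p be a prime and K a set of subgroups of order p of a finite group G, closed under conjugation, such that at least two distinct members of K commute elementwise, and whenever two distinct members X, Y of K commute: every subgroup of order p of the group XY they generate belongs to K, and every member W of K has centralizer meeting XY nontrivially. Then some member V of K commutes elementwise with every member of K and lies in O_p(G); in particular G is not simple. -/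
theorem result {G : Type*} [Group G] [Finite G]
    {p : ℕ} (hp : p.Prime) (K : Set (Subgroup G)) (hK : ∀ X ∈ K, Nat.card ↥X = p)
    (hKc : ∀ X ∈ K, ∀ g : G, X.map (MulAut.conj g).toMonoidHom ∈ K)
    (hex : ∃ X ∈ K, ∃ Y ∈ K, X ≠ Y ∧ ∀ x ∈ X, ∀ y ∈ Y, x * y = y * x)
    (ha : ∀ X ∈ K, ∀ Y ∈ K, X ≠ Y → (∀ x ∈ X, ∀ y ∈ Y, x * y = y * x) →
      ∀ Z : Subgroup G, Z ≤ X ⊔ Y → Nat.card ↥Z = p → Z ∈ K)
    (hb : ∀ X ∈ K, ∀ Y ∈ K, X ≠ Y → (∀ x ∈ X, ∀ y ∈ Y, x * y = y * x) →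
      ∀ W ∈ K, (X ⊔ Y) ⊓ Subgroup.centralizer (W : Set G) ≠ ⊥) :
    (∃ V ∈ K, (∀ W ∈ K, ∀ v ∈ V, ∀ w ∈ W, v * w = w * v) ∧ V ≤ Cfsg.pCore p G) ∧ ¬ IsSimpleGroup G := by
  classical
  have : Fact p.Prime := ⟨hp⟩
  let S : Set G := {x | x ≠ 1 ∧ ∃ X ∈ K, x ∈ X}
  have hpow : ∀ x ∈ S, x ^ p = 1 := by
    rintro x ⟨-, X, hX, hxX⟩
    have h1 : (⟨x, hxX⟩ : X) ^ Nat.card X = 1 := pow_card_eq_one'
    rw [hK X hX] at h1
    exact congrArg Subtype.val h1
  have hcyc : ∀ X ∈ K, ∀ x ∈ X, x ≠ 1 → X = Subgroup.zpowers x := fun X hX x hx hx1 => by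
    have ho : orderOf x = p := orderOf_eq_prime (hpow x ⟨hx1, X, hX, hx⟩) hx1
    exact (Subgroup.eq_of_le_of_card_ge (Subgroup.zpowers_le.2 hx)
      (by rw [Nat.card_zpowers, ho, hK X hX])).symm
  have hzK : ∀ x ∈ S, Subgroup.zpowers x ∈ K := by
    rintro x ⟨hx1, X, hX, hx⟩
    exact hcyc X hX x hx hx1 ▸ hX
  have hcommLines : ∀ x y : G, Commute x y → ∀ a ∈ Subgroup.zpowers x, ∀ b ∈ Subgroup.zpowers y, a * b = b * a := by
    intro x y h a ha b hb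
    obtain ⟨i, rfl⟩ := Subgroup.mem_zpowers_iff.1 ha
    obtain ⟨j, rfl⟩ := Subgroup.mem_zpowers_iff.1 hb
    exact (h.zpow_zpow i j).eq
  have hS : Setting p S := by
    refine ⟨hp, hpow, fun h => h.1 rfl, ?_, ?_, ?_⟩
    · rintro x ⟨hx1, X, hX, hx⟩ g
      exact ⟨fun e => hx1 (conj_eq_one_iff.1 e), X.map (MulAut.conj g).toMonoidHom, hKc X hX g, x, hx, rfl⟩
    · rintro x hx y hy hxy hne
      by_cases hl : y ∈ Subgroup.zpowers x
      · exact ⟨hne, _, hzK x hx, Subgroup.mul_mem _ (Subgroup.mem_zpowers x) hl⟩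
      · have hne' : Subgroup.zpowers x ≠ Subgroup.zpowers y := fun e => hl (e ▸ Subgroup.mem_zpowers y)
        refine ⟨hne, _, ha _ (hzK x hx) _ (hzK y hy) hne' (hcommLines x y hxy) (Subgroup.zpowers (x * y)) ?_ ?_,
          Subgroup.mem_zpowers _⟩
        · exact Subgroup.zpowers_le.2 (Subgroup.mul_mem _ (Subgroup.mem_sup_left (Subgroup.mem_zpowers x))
            (Subgroup.mem_sup_right (Subgroup.mem_zpowers y)))
        · rw [Nat.card_zpowers]
          exact orderOf_eq_prime (by rw [hxy.mul_pow, hpow x hx, hpow y hy, one_mul]) hne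
    · intro x hx y hy hxy hl w hw
      have hne' : Subgroup.zpowers x ≠ Subgroup.zpowers y := fun e => hl (e ▸ Subgroup.mem_zpowers y)
      obtain ⟨⟨c, hc1, hc2⟩, hc⟩ := Subgroup.ne_bot_iff_exists_ne_one.1
        (hb _ (hzK x hx) _ (hzK y hy) hne' (hcommLines x y hxy) _ (hzK w hw))
      have hcx : ∀ m ∈ Subgroup.zpowers x, Commute y m := fun m hm =>
        (hcommLines x y hxy m hm y (Subgroup.mem_zpowers y)).symm
      obtain ⟨m, hm, j, rfl⟩ := (mem_adj _ _ _ hcx).1 hc1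
      obtain ⟨i, rfl⟩ := Subgroup.mem_zpowers_iff.1 hm
      exact ⟨i, j, fun e => hc (Subtype.ext e),
        (Subgroup.mem_centralizer_iff.1 hc2 w (Subgroup.mem_zpowers w)).symm⟩
  obtain ⟨X, hX, Y, hY, hXY, hXYc⟩ := hex
  have hne : ∀ Z ∈ K, ∃ z ∈ Z, z ≠ 1 := fun Z hZ => by
    by_contra! hh
    have := hK Z hZ
    rw [(Subgroup.eq_bot_iff_forall _).2 hh, Subgroup.card_bot] at this
    exact hp.ne_one this.symm
  obtain ⟨x₀, hx₀, hx₀1⟩ := hne X hX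
  obtain ⟨y₀, hy₀, hy₀1⟩ := hne Y hY
  obtain ⟨v, hvS, hv⟩ := hS.exists_universal (x₀ := x₀) (y₀ := y₀) ⟨hx₀1, X, hX, hx₀⟩ ⟨hy₀1, Y, hY, hy₀⟩
    (hXYc x₀ hx₀ y₀ hy₀) (fun h => hXY (by
      rw [hcyc Y hY y₀ hy₀ hy₀1]
      exact (Subgroup.eq_of_le_of_card_ge (Subgroup.zpowers_le.2 ((hcyc X hX x₀ hx₀ hx₀1).symm ▸ h))
        (by rw [hK X hX, Nat.card_zpowers, hS.ord ⟨hy₀1, Y, hY, hy₀⟩])).symm))
  have hV : ∀ W ∈ K, ∀ a ∈ Subgroup.zpowers v, ∀ w ∈ W, a * w = w * a := by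
    intro W hW a ha w hw
    by_cases hw1 : w = 1
    · rw [hw1, mul_one, one_mul]
    · exact hcommLines v w (hv w ⟨hw1, W, hW, hw⟩) a ha w (Subgroup.mem_zpowers w)
  have hconjS : ∀ a ∈ Group.conjugatesOfSet ({v} : Set G), a ∈ S ∧ ∀ b ∈ S, Commute a b := by
    intro a ha
    obtain ⟨_, rfl, hc⟩ := Group.mem_conjugatesOfSet_iff.1 ha
    obtain ⟨g, rfl⟩ := isConj_iff.1 hc
    refine ⟨hS.conj _ hvS g, fun b hb => ?_⟩
    have h1 := hv _ (hS.conj b hb g⁻¹)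
    have h2 := h1.map (MulAut.conj g).toMonoidHom
    simp only [MulEquiv.coe_toMonoidHom, MulAut.conj_apply, inv_inv] at h2
    rwa [show g * (g⁻¹ * b * g) * g⁻¹ = b by group] at h2
  have hel : Cfsg.IsElementaryAbelian p (Subgroup.normalClosure ({v} : Set G)) :=
    Cfsg.Agent.Lib.Thompson.isElementaryAbelian_closure
      (fun a ha b hb => ((hconjS a ha).2 b (hconjS b hb).1).eq) (fun a ha => hpow a (hconjS a ha).1)
  have hvO : Subgroup.zpowers v ≤ Cfsg.pCore p G :=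
    (Subgroup.zpowers_le.2 (Subgroup.subset_normalClosure (Set.mem_singleton v))).trans
      (Cfsg.Agent.Lib.Hall.le_pCore (Cfsg.Agent.Lib.Thompson.isPGroup_of_elementary hel))
  refine ⟨⟨Subgroup.zpowers v, hzK v hvS, hV, hvO⟩, ?_⟩
  intro hsimp
  have hcl := Cfsg.Agent.Lib.Thompson.isPGroup_of_elementary hel
  rcases (inferInstance : (Subgroup.normalClosure ({v} : Set G)).Normal).eq_bot_or_eq_top with e | e
  · exact hvS.1 (Subgroup.mem_bot.1 (e ▸ Subgroup.subset_normalClosure (Set.mem_singleton v)))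
  · have hcomm : ∀ a b : G, a * b = b * a := fun a b =>
      Cfsg.Agent.Lib.Thompson.commute_of_elementary hel (e ▸ Subgroup.mem_top a) (e ▸ Subgroup.mem_top b)
    have hn : ∀ Z ∈ K, Z = ⊤ := by
      intro Z hZ
      have hZn : Z.Normal := ⟨fun z hz g => by rw [hcomm g z, mul_inv_cancel_right]; exact hz⟩
      refine hZn.eq_bot_or_eq_top.resolve_left fun h => ?_
      obtain ⟨z, hz, hz1⟩ := hne Z hZ
      rw [h] at hz
      exact hz1 (Subgroup.mem_bot.1 hz)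
    exact hXY ((hn X hX).trans (hn Y hY).symm)

end Cfsg.Agent.S3196
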