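import Cfsg.Statements.S3200
import Cfsg.Agent.Lib.Hall.KegelWielandt
import Cfsg.Agent.Lib.Hall.Solvable

set_option autoImplicit false
open Cfsg

namespace Cfsg.Agent.S3200

/-- Let H be a finite group in which a Sylow 2-subgroup has an abelian complement (an abelian subgroup meeting it trivially whose product with it is all of H). Then H is solvable, and every subgroup and every quotient group of H again has a Sylow 2-subgroup with an abelian complement. -/
theorem result {H : Type*} [Group H] [Finite H]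
    (S : Sylow 2 H) (C : Subgroup H) (hC : IsMulCommutative ↥C) (hSC : Subgroup.IsComplement' (S : Subgroup H) C) :
    Group.IsSolvable H ∧
    (∀ L : Subgroup H, ∃ (P : Sylow 2 ↥L) (D : Subgroup ↥L), IsMulCommutative ↥D ∧ Subgroup.IsComplement' (P : Subgroup ↥L) D) ∧
    (∀ (N : Subgroup H) [N.Normal], ∃ (P : Sylow 2 (H ⧸ N)) (D : Subgroup (H ⧸ N)),
      IsMulCommutative ↥D ∧ Subgroup.IsComplement' (P : Subgroup (H ⧸ N)) D) := by
  classical
  haveI := hC
  haveI hSnil : Group.IsNilpotent (S : Subgroup H) := S.isPGroup'.isNilpotent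
  have hsol : Group.IsSolvable H := by
    refine Cfsg.Agent.Lib.Hall.KegelWielandt.isSolvable (S : Subgroup H) C hSnil
      (letI : CommGroup C := { (inferInstance : Group C) with mul_comm := fun a b => mul_comm' a b }
      CommGroup.isNilpotent) ?_
    intro g
    obtain ⟨⟨⟨a, ha⟩, ⟨b, hb⟩⟩, hab⟩ := hSC.2 g
    exact ⟨a, ha, b, hb, hab.symm⟩
  obtain ⟨k, hk⟩ := IsPGroup.iff_card.mp S.isPGroup'
  have hCi : C.index = 2 ^ k := by rw [hSC.index_eq_card, hk]
  have hCcard : Nat.card C = (S : Subgroup H).index := hSC.symm.index_eq_card.symm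
  have hC2 : (Nat.card C).Coprime 2 := by
    rw [hCcard]
    exact ((Nat.Prime.coprime_iff_not_dvd Nat.prime_two).mpr S.not_dvd_index).symm
  have hCcop : (Nat.card C).Coprime C.index := by rw [hCi]; exact hC2.pow_right k
  refine ⟨hsol, fun L => ?_, fun N hN => ?_⟩
  · haveI := hsol
    set P : Sylow 2 L := default
    have hcopP : (P : Subgroup L).index.Coprime (Nat.card (P : Subgroup L)) :=
      P.card_coprime_index.symm
    obtain ⟨D, hD⟩ := Cfsg.Agent.Lib.Hall.exists_subgroup_card_eq (G := L)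
      (m := (P : Subgroup L).index) (n := Nat.card (P : Subgroup L))
      (by rw [mul_comm, Subgroup.card_mul_index]) hcopP
    have hDcop : (Nat.card (D.map L.subtype)).Coprime C.index := by
      rw [Subgroup.card_map_of_injective L.subtype_injective, hD, hCi]
      exact (((Nat.Prime.coprime_iff_not_dvd Nat.prime_two).mpr P.not_dvd_index).symm).pow_right k
    obtain ⟨g, hg⟩ := Cfsg.Agent.Lib.Hall.exists_le_conj hCcop hDcop
    refine ⟨P, D, ⟨⟨fun a b => Subtype.ext (Subtype.ext ?_)⟩⟩, ?_⟩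
    · have h1 := hg ⟨(a : L), a.2, rfl⟩
      have h2 := hg ⟨(b : L), b.2, rfl⟩
      rw [Cfsg.Agent.Lib.Coprime.mem_conj_smul] at h1 h2
      have h3 : (⟨_, h1⟩ : C) * ⟨_, h2⟩ = ⟨_, h2⟩ * ⟨_, h1⟩ := mul_comm' _ _
      have h4 := congrArg Subtype.val h3
      simp only [Subgroup.coe_mul, Subgroup.coe_subtype] at h4
      show ((a : L) : H) * ((b : L) : H) = ((b : L) : H) * ((a : L) : H)
      calc ((a : L) : H) * ((b : L) : H)
          = g * (g⁻¹ * ((a : L) : H) * g * (g⁻¹ * ((b : L) : H) * g)) * g⁻¹ := by group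
        _ = g * (g⁻¹ * ((b : L) : H) * g * (g⁻¹ * ((a : L) : H) * g)) * g⁻¹ := by rw [h4]
        _ = _ := by group
    · refine Subgroup.isComplement'_of_coprime ?_ (hD ▸ hcopP.symm)
      rw [hD, Subgroup.card_mul_index]
  · haveI := hN
    set π := QuotientGroup.mk' N
    have hπ : Function.Surjective π := QuotientGroup.mk'_surjective N
    refine ⟨S.mapSurjective hπ, C.map π, Subgroup.map_isMulCommutative C π, ?_⟩
    refine Subgroup.isComplement'_of_disjoint_and_mul_eq_univ ?_ ?_
    · rw [disjoint_iff, ← Subgroup.card_eq_one]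
      obtain ⟨j, hj⟩ := IsPGroup.iff_card.mp (S.mapSurjective hπ).isPGroup'
      exact Nat.eq_one_of_dvd_coprimes ((hC2.coprime_dvd_left (Subgroup.card_map_dvd C π)).pow_right j).symm
        (hj ▸ Subgroup.card_dvd_of_le inf_le_left) (Subgroup.card_dvd_of_le inf_le_right)
    · refine Set.eq_univ_of_forall fun y => ?_
      obtain ⟨x, rfl⟩ := hπ y
      obtain ⟨⟨⟨a, ha⟩, ⟨b, hb⟩⟩, hab⟩ := hSC.2 x
      exact ⟨π a, ⟨a, ha, rfl⟩, π b, ⟨b, hb, rfl⟩, by rw [← hab, map_mul]⟩

end Cfsg.Agent.S3200
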