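import Cfsg.Statements.S3201
import Cfsg.Agent.Lib.UniqueInvolution

set_option autoImplicit false
open Cfsg

namespace Cfsg.Agent.S3201

open Subgroup

theorem sq_mem_of_coatom {Z : Type*} [CommGroup Z] (hZ : IsPGroup 2 Z) {C : Subgroup Z} (hC : IsCoatom C)
    (X : Z) : X ^ 2 ∈ C := by
  by_contra hX
  have hlt : C < C ⊔ zpowers (X ^ 2) := by
    refine lt_of_le_of_ne le_sup_left ?_
    intro e
    apply hX
    rw [e]
    exact mem_sup_right (mem_zpowers _)
  have htop : X ∈ C ⊔ zpowers (X ^ 2) := by rw [hC.2 _ hlt]; exact mem_top X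
  obtain ⟨c, hc, w, hw, hcw⟩ := Subgroup.mem_sup.1 htop
  obtain ⟨j, rfl⟩ := mem_zpowers_iff.1 hw
  have hodd : X ^ (1 - 2 * j) ∈ C := by
    have : c = X ^ (1 - 2 * j) := by
      rw [zpow_sub, zpow_one, zpow_mul, zpow_two, ← pow_two]
      exact eq_mul_inv_of_mul_eq hcw
    rwa [this] at hc
  obtain ⟨k, hk⟩ := hZ X
  have hcop : IsCoprime (1 - 2 * j) ((2 : ℤ) ^ k) := by
    refine IsCoprime.pow_right ⟨1, j, ?_⟩
    ring
  obtain ⟨u, v, huv⟩ := hcop
  apply hX
  have h2 : X ^ ((2 : ℤ) ^ k) = 1 := by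
    rw [show ((2 : ℤ) ^ k) = (((2 : ℕ) ^ k : ℕ) : ℤ) by push_cast; rfl, zpow_natCast]
    exact hk
  have : X = (X ^ (1 - 2 * j)) ^ u := by
    conv_lhs => rw [← zpow_one X, ← huv, zpow_add, mul_comm v, zpow_mul X ((2 : ℤ) ^ k)]
    rw [h2, one_zpow, mul_one, mul_comm u, zpow_mul]
  rw [this]
  exact pow_mem (zpow_mem hodd u) 2


/-- Let S be a finite 2-group whose centre Z(S) has n ≥ 2 distinct maximal subgroups C₁, …, Cₙ with trivial intersection such that each quotient S/Cᵢ is a non-abelian group with exactly one involution (a generalized quaternion group). Then S is the internal direct product of an elementary abelian subgroup and a non-abelian subgroup with exactly one involution. -/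
theorem result {S : Type*} [Group S] [Finite S]
    (hS : IsPGroup 2 S) (n : ℕ) (hn : 2 ≤ n) (C : Fin n → Subgroup ↥(Subgroup.center S))
    (hCmax : ∀ i, IsCoatom (C i)) (hCinj : Function.Injective C) (hCint : ⨅ i, C i = ⊥)
    (hCq : ∀ i, ∃ (_ : ((C i).map (Subgroup.center S).subtype).Normal),
      ¬ IsMulCommutative (S ⧸ (C i).map (Subgroup.center S).subtype) ∧
      ∃! x : S ⧸ (C i).map (Subgroup.center S).subtype, orderOf x = 2) :
    ∃ E Q : Subgroup S, Cfsg.IsInternalDirectProduct E Q ⊤ ∧ Cfsg.IsElementaryAbelian 2 E ∧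
      ¬ IsMulCommutative ↥Q ∧ ∃! x : ↥Q, orderOf x = 2 := by
  classical
  haveI : Fact (Nat.Prime 2) := ⟨Nat.prime_two⟩
  let D : Fin n → Subgroup S := fun i => (C i).map (Subgroup.center S).subtype
  have hDZ : ∀ i, D i ≤ (Subgroup.center S) := fun i => map_subtype_le _
  have hcomm : ∀ z ∈ (Subgroup.center S), ∀ s : S, s * z = z * s := fun z hz s => Subgroup.mem_center_iff.1 hz s
  -- squares of central elements
  have hsqC : ∀ (i : Fin n) (x : S), x ∈ (Subgroup.center S) → x ^ 2 ∈ D i := by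
    intro i x hx
    letI : CommGroup ↥(Subgroup.center S) := { (inferInstance : Group ↥(Subgroup.center S)) with
      mul_comm := fun a b => Subtype.ext (hcomm b b.2 a) }
    exact ⟨_, sq_mem_of_coatom (hS.to_subgroup (Subgroup.center S)) (hCmax i) ⟨x, hx⟩, rfl⟩
  have hinf : ∀ x : S, (∀ i, x ∈ D i) → x = 1 := by
    intro x hx
    haveI : Nonempty (Fin n) := ⟨⟨0, by omega⟩⟩
    have hxZ : x ∈ (Subgroup.center S) := hDZ ⟨0, by omega⟩ (hx _)
    have : (⟨x, hxZ⟩ : ↥(Subgroup.center S)) ∈ ⨅ i, C i := mem_iInf.2 fun i => by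
      obtain ⟨c, hc, hcx⟩ := hx i
      have : c = ⟨x, hxZ⟩ := Subtype.ext hcx
      exact this ▸ hc
    rw [hCint, mem_bot] at this
    exact congrArg Subtype.val this
  -- the quotient by `D i`
  have key : ∀ (i : Fin n) (y : S), y ∉ (Subgroup.center S) → y ^ 2 ∈ (Subgroup.center S) → y ^ 2 ∉ D i := by
    intro i y hy hy2 hy2D
    obtain ⟨hn', -, u, hu, huniq⟩ := hCq i
    haveI : (D i).Normal := hn'
    obtain ⟨x, hxZ, hxC⟩ : ∃ x, x ∈ (Subgroup.center S) ∧ x ∉ D i := by
      by_contra hall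
      push Not at hall
      refine (hCmax i).1 (eq_top_iff.2 fun c _ => ?_)
      obtain ⟨c', hc', hcc⟩ := hall c c.2
      have : c' = c := Subtype.ext hcc
      exact this ▸ hc'
    have h1 : (QuotientGroup.mk x : S ⧸ D i) = u := huniq _ (orderOf_eq_prime
      (by rw [← QuotientGroup.mk_pow, QuotientGroup.eq_one_iff]; exact hsqC i x hxZ)
      (fun e => hxC ((QuotientGroup.eq_one_iff x).1 e)))
    have h2 : (QuotientGroup.mk y : S ⧸ D i) = u := huniq _ (orderOf_eq_prime
      (by rw [← QuotientGroup.mk_pow, QuotientGroup.eq_one_iff]; exact hy2D)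
      (fun e => hy (hDZ i ((QuotientGroup.eq_one_iff y).1 e))))
    have h3 : y⁻¹ * x ∈ (Subgroup.center S) := hDZ i (QuotientGroup.eq.1 (h2.trans h1.symm))
    exact hy (inv_mem_iff.1 ((Subgroup.mul_mem_cancel_right (Subgroup.center S) hxZ).1 h3))
  have heq : ∀ x y : S, x ∈ (Subgroup.center S) → y ∈ (Subgroup.center S) → (∀ i, x ∉ D i) → (∀ i, y ∉ D i) → x = y := by
    intro x y hx hy hxi hyi
    refine (inv_mul_eq_one.1 (hinf _ fun i => ?_))
    obtain ⟨hn', -, u, hu, huniq⟩ := hCq i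
    haveI : (D i).Normal := hn'
    refine QuotientGroup.eq.1 ((huniq _ (orderOf_eq_prime
      (by rw [← QuotientGroup.mk_pow, QuotientGroup.eq_one_iff]; exact hsqC i x hx)
      (fun e => hxi i ((QuotientGroup.eq_one_iff x).1 e)))).trans (huniq _ (orderOf_eq_prime
      (by rw [← QuotientGroup.mk_pow, QuotientGroup.eq_one_iff]; exact hsqC i y hy)
      (fun e => hyi i ((QuotientGroup.eq_one_iff y).1 e)))).symm)
  -- the first quotient
  let i₀ : Fin n := ⟨0, by omega⟩
  obtain ⟨hn₀, hna, u, hu, huniq⟩ := hCq i₀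
  haveI : (D i₀).Normal := hn₀
  set f := QuotientGroup.mk' (D i₀) with hf
  have hfs := QuotientGroup.mk'_surjective (D i₀)
  have huniq2 : ∀ H K : Subgroup (S ⧸ D i₀), Nat.card H = 2 → Nat.card K = 2 → H = K := by
    have h : ∀ H : Subgroup (S ⧸ D i₀), Nat.card H = 2 → H = zpowers u := by
      intro H hH
      obtain ⟨⟨x, hx⟩, hx1, -⟩ := (Nat.card_eq_two_iff' (1 : H)).1 hH
      have hxo : orderOf x = 2 := by
        refine orderOf_eq_prime ?_ (fun e => hx1 (Subtype.ext e))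
        have := pow_card_eq_one' (x := (⟨x, hx⟩ : H))
        rw [hH] at this
        exact congrArg Subtype.val this
      rw [← huniq x hxo]
      exact (eq_of_le_of_card_ge (zpowers_le.2 hx) (by rw [Nat.card_zpowers, hxo, hH])).symm
    exact fun H K hH hK => (h H hH).trans (h K hK).symm
  rcases Cfsg.Agent.Lib.UniqueInvolution.isCyclic_or_quaternion (hS.to_quotient (D i₀)) huniq2 with hc | ⟨-, m, hm, ⟨e⟩⟩
  · haveI := hc
    exact absurd IsCyclic.isMulCommutative hna
  set N : ℕ := 2 ^ m with hN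
  haveI : NeZero N := ⟨by rw [hN]; positivity⟩
  have hN2 : 2 * (N / 2) = N := Nat.mul_div_cancel' (dvd_pow_self 2 (by omega))
  have hN2' : 0 < N / 2 := by have : 0 < N := Nat.pos_of_ne_zero (NeZero.ne N); omega
  obtain ⟨a, ha⟩ := hfs (e.symm (QuaternionGroup.a 1))
  obtain ⟨b, hb⟩ := hfs (e.symm (QuaternionGroup.xa 0))
  replace ha : e (f a) = QuaternionGroup.a 1 := by rw [ha, e.apply_symm_apply]
  replace hb : e (f b) = QuaternionGroup.xa 0 := by rw [hb, e.apply_symm_apply]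
  have haN : (QuaternionGroup.a (N : ZMod (2 * N)) : QuaternionGroup N) ≠ 1 := by
    rw [QuaternionGroup.one_def]
    intro h
    have := (ZMod.natCast_eq_zero_iff N (2 * N)).1 (QuaternionGroup.a.inj h)
    have h0 : 0 < N := Nat.pos_of_ne_zero (NeZero.ne N)
    exact absurd (Nat.le_of_dvd h0 this) (by omega)
  -- elements of `S` mapping to the involution are central
  have hZmem : ∀ y : S, e (f y) = QuaternionGroup.a (N : ZMod (2 * N)) → y ∈ (Subgroup.center S) := by
    intro y hy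
    obtain ⟨x, hxZ, hxC⟩ : ∃ x, x ∈ (Subgroup.center S) ∧ x ∉ D i₀ := by
      by_contra hall
      push Not at hall
      refine (hCmax i₀).1 (eq_top_iff.2 fun c _ => ?_)
      obtain ⟨c', hc', hcc⟩ := hall c c.2
      have : c' = c := Subtype.ext hcc
      exact this ▸ hc'
    have h1 : f x = u := huniq _ (orderOf_eq_prime
      (by rw [← map_pow]; exact (QuotientGroup.eq_one_iff _).2 (hsqC i₀ x hxZ))
      (fun e => hxC ((QuotientGroup.eq_one_iff x).1 e)))
    have h2 : f y = u := huniq _ (orderOf_eq_prime (e.injective (by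
        rw [map_pow, map_one, hy, pow_two, QuaternionGroup.a_mul_a, QuaternionGroup.one_def, ← Nat.cast_add,
          ← two_mul, ZMod.natCast_self]))
      (fun h => haN (by rw [← hy, h, map_one])))
    have h3 : y⁻¹ * x ∈ (Subgroup.center S) := hDZ i₀ (QuotientGroup.eq.1 (h2.trans h1.symm))
    exact inv_mem_iff.1 ((Subgroup.mul_mem_cancel_right (Subgroup.center S) hxZ).1 h3)
  have hnotZ : ∀ y : S, e (f (y ^ 2)) ≠ 1 → y ∉ (Subgroup.center S) := fun y hy hyZ =>
    hy (by rw [show f (y ^ 2) = 1 from (QuotientGroup.eq_one_iff _).2 (hsqC i₀ y hyZ), map_one])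
  have hsqc : ∀ y : S, e (f (y ^ 2)) = QuaternionGroup.a (N : ZMod (2 * N)) →
      y ^ 2 ∈ (Subgroup.center S) ∧ ∀ i, y ^ 2 ∉ D i := fun y hy =>
    ⟨hZmem _ hy, fun i => key i y (hnotZ y (hy ▸ haN)) (hZmem _ hy)⟩
  set c := b ^ 2 with hc
  have hcb := hsqc b (by rw [map_pow, map_pow, hb, QuaternionGroup.xa_sq])
  have hac : a ^ N = c := by
    have h := hsqc (a ^ (N / 2)) (by
      rw [← pow_mul, mul_comm, hN2, map_pow, map_pow, ha, QuaternionGroup.a_one_pow])
    rw [← pow_mul, mul_comm, hN2] at h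
    exact heq _ _ h.1 hcb.1 h.2 hcb.2
  have hbac : (b * a) ^ 2 = c := by
    have h := hsqc (b * a) (by
      rw [map_pow, map_pow, map_mul, map_mul, ha, hb, QuaternionGroup.xa_mul_a, QuaternionGroup.xa_sq])
    exact heq _ _ h.1 hcb.1 h.2 hcb.2
  have hconj : b * a * b⁻¹ = a⁻¹ := by
    have h1 : a * b * a = b := by
      have : b * (a * b * a) = b * b := by
        rw [← pow_two b, ← hc, ← hbac, pow_two]; group
      exact mul_left_cancel this
    calc b * a * b⁻¹ = a⁻¹ * (a * b * a) * b⁻¹ := by group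
      _ = a⁻¹ := by rw [h1, mul_inv_cancel_right]
  have hbj : ∀ j : ℤ, b * a ^ j = a ^ (-j) * b := by
    intro j
    have : (b * a * b⁻¹) ^ j = b * a ^ j * b⁻¹ := conj_zpow
    rw [hconj, inv_zpow', ] at this
    rw [this, inv_mul_cancel_right]
  have hbb : b * b = a ^ (N : ℤ) := by rw [zpow_natCast, hac, hc, pow_two]
  have haa : a ^ (2 * N) = 1 := by
    rw [mul_comm, pow_mul, hac]
    exact hinf _ fun i => hsqC i c hcb.1
  -- the quaternion complement
  let Q : Subgroup S :=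
    { carrier := {x | ∃ i : ℤ, x = a ^ i ∨ x = a ^ i * b}
      one_mem' := ⟨0, Or.inl (by simp)⟩
      mul_mem' := by
        rintro x y ⟨i, hi⟩ ⟨j, hj⟩
        rcases hi with rfl | rfl <;> rcases hj with rfl | rfl
        · exact ⟨i + j, Or.inl (zpow_add a i j).symm⟩
        · exact ⟨i + j, Or.inr (by rw [zpow_add, mul_assoc])⟩
        · exact ⟨i + -j, Or.inr (by rw [mul_assoc, hbj, zpow_add, mul_assoc])⟩
        · exact ⟨i + -j + N, Or.inl (by
            rw [mul_assoc, ← mul_assoc b, hbj, mul_assoc (a ^ (-j)), hbb, zpow_add, zpow_add, mul_assoc])⟩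
      inv_mem' := by
        rintro x ⟨i, hi⟩
        rcases hi with rfl | rfl
        · exact ⟨-i, Or.inl (zpow_neg a i).symm⟩
        · refine ⟨i + N, Or.inr ?_⟩
          refine inv_eq_of_mul_eq_one_right ?_
          rw [mul_assoc, ← mul_assoc b, hbj, mul_assoc (a ^ (-(i + N))), hbb, ← zpow_add, ← zpow_add]
          simp }
  have hfa : ∀ i : ℤ, e (f (a ^ i)) = (QuaternionGroup.a 1) ^ i := fun i => by rw [map_zpow, map_zpow, ha]
  have hbot : D i₀ ⊓ Q = ⊥ := by
    rw [eq_bot_iff]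
    rintro x ⟨hxD, i, hx | hx⟩
    · have h1 : e (f x) = 1 := by
        rw [show f x = 1 from (QuotientGroup.eq_one_iff x).2 hxD, map_one]
      rw [hx, hfa, ← orderOf_dvd_iff_zpow_eq_one, QuaternionGroup.orderOf_a_one] at h1
      rw [mem_bot, hx, ← orderOf_dvd_iff_zpow_eq_one]
      exact (Int.natCast_dvd_natCast.2 (orderOf_dvd_of_pow_eq_one haa)).trans h1
    · exfalso
      have h1 : e (f x) = 1 := by
        rw [show f x = 1 from (QuotientGroup.eq_one_iff x).2 hxD, map_one]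
      rw [hx, map_mul, map_mul, hfa, hb] at h1
      have h2 : QuaternionGroup.xa (0 : ZMod (2 * N)) ∈ zpowers (QuaternionGroup.a 1) := by
        rw [eq_inv_of_mul_eq_one_right h1]
        exact inv_mem (zpow_mem (mem_zpowers _) i)
      obtain ⟨k, hk⟩ := (mem_powers_iff_mem_zpowers).2 h2
      rw [show (fun x => QuaternionGroup.a 1 ^ x) k = QuaternionGroup.a 1 ^ k from rfl, QuaternionGroup.a_one_pow] at hk
      exact nomatch hk
  have hsurj : ∀ s : S, ∃ q ∈ Q, f q = f s := by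
    intro s
    rcases hq : e (f s) with k | k
    · refine ⟨a ^ (k.val : ℤ), ⟨_, Or.inl rfl⟩, e.injective ?_⟩
      rw [hfa, hq, zpow_natCast, QuaternionGroup.a_one_pow, ZMod.natCast_zmod_val]
    · refine ⟨b * a ^ (k.val : ℤ), ⟨_, Or.inr (hbj _)⟩, e.injective ?_⟩
      rw [map_mul, map_mul, hfa, hb, hq, zpow_natCast, QuaternionGroup.a_one_pow, ZMod.natCast_zmod_val,
        QuaternionGroup.xa_mul_a, zero_add]
  have hQbij : Function.Bijective (f.comp Q.subtype) := by
    refine ⟨?_, fun v => ?_⟩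
    · rw [← MonoidHom.ker_eq_bot_iff, eq_bot_iff]
      intro x hx
      have : (x : S) ∈ D i₀ ⊓ Q := ⟨(QuotientGroup.eq_one_iff _).1 hx, x.2⟩
      rw [hbot, mem_bot] at this
      exact mem_bot.2 (Subtype.ext this)
    · obtain ⟨s, rfl⟩ := hfs v
      obtain ⟨q, hq, hqs⟩ := hsurj s
      exact ⟨⟨q, hq⟩, hqs⟩
  let φ : ↥Q ≃* S ⧸ D i₀ := MulEquiv.ofBijective _ hQbij
  refine ⟨D i₀, Q, ⟨le_top, le_top, fun x hx y _ => (hcomm x (hDZ _ hx) y).symm, hbot, ?_⟩, ⟨⟨⟨fun x y =>
    Subtype.ext (hcomm y (hDZ _ y.2) x)⟩⟩, fun x hx => ?_⟩, fun h => hna ?_, φ.symm u, ?_, fun y hy => ?_⟩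
  · refine eq_top_iff.2 fun s _ => ?_
    obtain ⟨q, hq, hqs⟩ := hsurj s
    have h1 : q⁻¹ * s ∈ D i₀ := QuotientGroup.eq.1 hqs
    have := mul_mem (mem_sup_right (S := D i₀) hq) (mem_sup_left (T := Q) h1)
    rwa [mul_inv_cancel_left] at this
  · exact hinf _ fun i => hsqC i x (hDZ _ hx)
  · haveI := h
    exact ⟨⟨fun x y => φ.symm.injective (by rw [map_mul, map_mul]; exact mul_comm' _ _)⟩⟩
  · show orderOf (φ.symm u) = 2
    rw [MulEquiv.orderOf_eq, hu]
  · apply φ.injective
    rw [φ.apply_symm_apply]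
    exact huniq _ ((MulEquiv.orderOf_eq φ y).trans hy)

end Cfsg.Agent.S3201
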