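import Cfsg.Statements.S3202
import Cfsg.Agent.Lib.UniqueInvolution
import Mathlib

set_option autoImplicit false
open Cfsg
open scoped commutatorElement

namespace Cfsg.Agent.S3202

open Subgroup

/-- A 2-group S of 2-rank 2 with a maximal subgroup D of Z(S) such that S/D is generalized quaternion has a nontrivial cyclic characteristic subgroup. -/
theorem result {S : Type*} [Group S]
    [Finite S] (hS : IsPGroup 2 S) (hr2 : Cfsg.PRankLE 2 2 S) (hr1 : ¬ Cfsg.PRankLE 2 1 S)
    (D : Subgroup ↥(Subgroup.center S)) (hD : IsCoatom D)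
    (hq : ∃ (_ : (D.map (Subgroup.center S).subtype).Normal),
      ¬ IsMulCommutative (S ⧸ D.map (Subgroup.center S).subtype) ∧
      ∃! x : S ⧸ D.map (Subgroup.center S).subtype, orderOf x = 2) :
    ∃ C : Subgroup S, C ≠ ⊥ ∧ IsCyclic ↥C ∧ C.Characteristic := by
  classical
  haveI : Fact (Nat.Prime 2) := ⟨Nat.prime_two⟩
  obtain ⟨hn, hna, huq⟩ := hq
  haveI := hn
  set D' := D.map (Subgroup.center S).subtype
  have hD'Z : D' ≤ center S := map_subtype_le D
  have hgen : ∀ (H : Subgroup (S ⧸ D')), Nat.card H = 2 → ∃ h, orderOf h = 2 ∧ H = zpowers h := fun H hH => by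
    obtain ⟨h, hh⟩ := exists_prime_orderOf_dvd_card' (G := H) 2 (by rw [hH])
    refine ⟨h, by rw [orderOf_coe]; exact hh, (eq_of_le_of_card_ge (zpowers_le.2 h.2) ?_).symm⟩
    rw [hH, Nat.card_zpowers, orderOf_coe, hh]
  have huniq : ∀ H K : Subgroup (S ⧸ D'), Nat.card H = 2 → Nat.card K = 2 → H = K := fun H K hH hK => by
    obtain ⟨h, hh, rfl⟩ := hgen H hH
    obtain ⟨k, hk, rfl⟩ := hgen K hK
    rw [huq.unique hh hk]
  rcases Lib.UniqueInvolution.isCyclic_or_quaternion (hS.to_quotient D') huniq with hc | ⟨-, m, -, ⟨e⟩⟩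
  · exfalso
    haveI := hc
    letI := IsCyclic.commGroup (α := S ⧸ D')
    exact hna ⟨⟨mul_comm⟩⟩
  let π : S →* QuaternionGroup (2 ^ m) := e.toMonoidHom.comp (QuotientGroup.mk' D')
  have hπ : Function.Surjective π := e.surjective.comp (QuotientGroup.mk'_surjective D')
  have hπD : ∀ d, π d = 1 → d ∈ center S := fun d hd => hD'Z ((QuotientGroup.eq_one_iff d).1 (e.injective (hd.trans e.map_one.symm)))
  obtain ⟨x, hx⟩ := hπ (QuaternionGroup.a 1)
  obtain ⟨y, hy⟩ := hπ (QuaternionGroup.xa 0)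
  have hpow : ∀ i : ZMod (2 * 2 ^ m), ∃ k : ℕ, π (x ^ k) = QuaternionGroup.a i := fun i => by
    haveI : NeZero (2 * 2 ^ m) := ⟨by positivity⟩
    exact ⟨i.val, by rw [map_pow, hx, QuaternionGroup.a_one_pow, ZMod.natCast_zmod_val]⟩
  let A : Subgroup S := zpowers x ⊔ center S
  have hAcomm : ∀ u ∈ A, ∀ v ∈ A, u * v = v * u := by
    have h1 : A ≤ centralizer (A : Set S) := by
      refine sup_le (zpowers_le.2 (mem_centralizer_iff.2 fun v hv => ?_)) (center_le_centralizer _)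
      have h2 : A ≤ centralizer {x} := sup_le (zpowers_le.2 (mem_centralizer_singleton_iff.2 rfl)) (center_le_centralizer _)
      exact mem_centralizer_singleton_iff.1 (h2 hv)
    exact fun u hu v hv => (mem_centralizer_iff.1 (h1 hu) v hv).symm
  have hdec : ∀ g : S, g ∈ A ∨ ∃ u ∈ A, g = y * u := by
    intro g
    rcases hg : π g with i | i
    · left
      obtain ⟨k, hk⟩ := hpow i
      have h1 : (x ^ k)⁻¹ * g ∈ center S := hπD _ (by rw [map_mul, map_inv, hk, hg, inv_mul_cancel])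
      simpa using mul_mem (mem_sup_left (pow_mem (mem_zpowers x) k) : x ^ k ∈ A) (mem_sup_right h1)
    · right
      obtain ⟨k, hk⟩ := hpow i
      have h0 : π (y * x ^ k) = π g := by rw [map_mul, hy, hk, hg, QuaternionGroup.xa_mul_a, zero_add]
      have h1 : (x ^ k)⁻¹ * (y⁻¹ * g) ∈ center S := hπD _ (by
        rw [show (x ^ k)⁻¹ * (y⁻¹ * g) = (y * x ^ k)⁻¹ * g by group, map_mul, map_inv, h0, inv_mul_cancel])
      refine ⟨y⁻¹ * g, ?_, (mul_inv_cancel_left y g).symm⟩
      have h2 := mul_mem (mem_sup_left (pow_mem (mem_zpowers x) k) : x ^ k ∈ A) (mem_sup_right h1)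
      rwa [mul_inv_cancel_left] at h2
  have hyconj : ∀ u ∈ A, y * u * y⁻¹ ∈ A := by
    intro u hu
    rcases hdec (y * u * y⁻¹) with h | ⟨v, hv, h⟩
    · exact h
    · have h2 : u * y⁻¹ = v := by
        rw [mul_assoc] at h; exact mul_left_cancel h
      have h3 : y ∈ A := by
        have : y = v⁻¹ * u := by rw [← h2]; group
        rw [this]; exact mul_mem (inv_mem hv) hu
      exact mul_mem (mul_mem h3 hu) (inv_mem h3)
  have hxA : x ∈ A := mem_sup_left (mem_zpowers x)
  have hfA : ∀ u ∈ A, ⁅u, y⁆ ∈ A := fun u hu => by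
    rw [commutatorElement_def, mul_assoc u, mul_assoc u]; exact mul_mem hu (hyconj _ (inv_mem hu))
  let f : A →* S := MonoidHom.mk' (fun u => ⁅(u : S), y⁆) fun u v => by
    show ⁅(u : S) * v, y⁆ = ⁅(u : S), y⁆ * ⁅(v : S), y⁆
    have h1 : ⁅(u : S) * v, y⁆ = u * ⁅(v : S), y⁆ * (u : S)⁻¹ * ⁅(u : S), y⁆ := by
      simp only [commutatorElement_def]; group
    rw [h1, hAcomm u u.2 _ (hfA v v.2), mul_inv_cancel_right, hAcomm _ (hfA v v.2) _ (hfA u u.2)]
  set c := ⁅x, y⁆ with hc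
  set K := zpowers c
  have hfK : ∀ u ∈ A, ⁅u, y⁆ ∈ K := by
    intro u hu
    have hrange : f.range ≤ K := by
      rintro _ ⟨⟨w, hw⟩, rfl⟩
      obtain ⟨a, ha, b, hb, rfl⟩ := mem_sup_of_normal_right.1 hw
      obtain ⟨i, rfl⟩ := mem_zpowers_iff.1 ha
      have h1 : (⟨x ^ i * b, hw⟩ : A) = (⟨x, hxA⟩ : A) ^ i * ⟨b, mem_sup_right hb⟩ := Subtype.ext (by simp)
      have h2 : f ⟨b, mem_sup_right hb⟩ = 1 := commutatorElement_eq_one_iff_mul_comm.2 (mem_center_iff.1 hb y).symm
      rw [h1, map_mul, map_zpow, h2, mul_one]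
      exact zpow_mem (mem_zpowers c) i
    exact hrange ⟨⟨u, hu⟩, rfl⟩
  have hKA : K ≤ A := zpowers_le.2 (hfA x hxA)
  have hKn : K.Normal := by
    refine ⟨fun z hz g => ?_⟩
    have hA' : ∀ u ∈ A, ∀ z ∈ K, u * z * u⁻¹ = z := fun u hu z hz => by rw [hAcomm u hu z (hKA hz), mul_inv_cancel_right]
    have hyK : ∀ z ∈ K, y * z * y⁻¹ ∈ K := by
      intro z hz
      obtain ⟨i, rfl⟩ := mem_zpowers_iff.1 hz
      rw [← conj_zpow]
      refine zpow_mem ?_ i
      have : y * c * y⁻¹ = ⁅y * x * y⁻¹, y⁆ := by simp only [hc, commutatorElement_def]; group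
      rw [this]; exact hfK _ (hyconj x hxA)
    rcases hdec g with h | ⟨u, hu, rfl⟩
    · rwa [hA' g h z hz]
    · rw [show y * u * z * (y * u)⁻¹ = y * (u * z * u⁻¹) * y⁻¹ by group, hA' u hu z hz]
      exact hyK z hz
  haveI := hKn
  let q := QuotientGroup.mk' K
  have h1 : ∀ u ∈ A, q u * q y = q y * q u := fun u hu => by
    rw [← commutatorElement_eq_one_iff_mul_comm, ← map_commutatorElement]
    exact (QuotientGroup.eq_one_iff _).2 (hfK u hu)
  have hcomm : commutator S ≤ K := by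
    rw [_root_.commutator_def, commutator_le]
    intro a _ b _
    apply (QuotientGroup.eq_one_iff _).1
    show q ⁅a, b⁆ = 1
    rw [map_commutatorElement, commutatorElement_eq_one_iff_mul_comm]
    have h2 : ∀ u ∈ A, ∀ v ∈ A, Commute (q u) (q v) := fun u hu v hv => by
      show q u * q v = q v * q u
      rw [← map_mul, ← map_mul, hAcomm u hu v hv]
    rcases hdec a with ha | ⟨u, hu, rfl⟩ <;> rcases hdec b with hb | ⟨v, hv, rfl⟩
    · exact h2 a ha b hb
    · rw [map_mul]; exact (Commute.mul_right (h1 a ha) (h2 a ha v hv)).eq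
    · rw [map_mul]; exact (Commute.mul_left (h1 b hb).symm (h2 u hu b hb)).eq
    · rw [map_mul, map_mul]
      exact (Commute.mul_left (Commute.mul_right (Commute.refl (q y)) (h1 v hv).symm)
        (Commute.mul_right (h1 u hu) (h2 u hu v hv))).eq
  refine ⟨commutator S, fun h => hna ?_, isCyclic_of_le hcomm, inferInstance⟩
  refine ⟨⟨fun a b => ?_⟩⟩
  obtain ⟨u, rfl⟩ := QuotientGroup.mk'_surjective D' a
  obtain ⟨v, rfl⟩ := QuotientGroup.mk'_surjective D' b
  have h3 : ⁅u, v⁆ ∈ commutator S := commutator_mem_commutator (mem_top u) (mem_top v)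
  rw [h, mem_bot, commutatorElement_eq_one_iff_mul_comm] at h3
  rw [← map_mul, ← map_mul, h3]

end Cfsg.Agent.S3202
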