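import Cfsg.Statements.S3208
import Mathlib

set_option autoImplicit false
open Cfsg

namespace Cfsg.Agent.S3208

/-- Let j be an involution of a finite group G, H a subgroup of G, and T a Sylow 2-subgroup of H ∩ C_G(j) containing j such that ⟨j⟩ is a characteristic subgroup of T. Then T is a Sylow 2-subgroup of H. -/
theorem result {G : Type*} [Group G] [Finite G]
    (j : G) (hj : orderOf j = 2) (H T : Subgroup G) (hT : T ≤ H ⊓ Subgroup.centralizer ({j} : Set G)) (h2 : IsPGroup 2 ↥T)
    (hSyl : ¬ 2 ∣ T.relIndex (H ⊓ Subgroup.centralizer ({j} : Set G))) (hjT : j ∈ T)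
    (hchar : ((Subgroup.zpowers j).subgroupOf T).Characteristic) :
    ¬ 2 ∣ T.relIndex H := by
  classical
  haveI : Fact (Nat.Prime 2) := ⟨Nat.prime_two⟩
  set C := Subgroup.centralizer ({j} : Set G)
  have hmax : ∀ U : Subgroup G, IsPGroup 2 ↥U → T ≤ U → U ≤ H ⊓ C → U = T := by
    intro U hU hTU hUH
    refine le_antisymm ?_ hTU
    rw [← Subgroup.relIndex_eq_one]
    have hd : T.relIndex U ∣ T.relIndex (H ⊓ C) := by
      rw [← Subgroup.relIndex_mul_relIndex T U (H ⊓ C) hTU hUH]
      exact dvd_mul_right _ _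
    obtain ⟨k, hk⟩ := hU.index (T.subgroupOf U)
    rcases Nat.eq_zero_or_pos k with rfl | hk0
    · simpa using hk
    · exact absurd ((show 2 ∣ T.relIndex U by rw [Subgroup.relIndex, hk]; exact dvd_pow_self 2 hk0.ne').trans hd) hSyl
  have hTH : T ≤ H := hT.trans inf_le_left
  obtain ⟨W, hW⟩ := (h2.comap_of_injective H.subtype (Subgroup.subtype_injective H)).exists_le_sylow
  set V : Subgroup G := (W : Subgroup ↥H).map H.subtype with hV
  have hV2 : IsPGroup 2 ↥V := W.2.map _
  have hVH : V ≤ H := Subgroup.map_subtype_le _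
  have hTV : T ≤ V := by
    rw [← Subgroup.map_subgroupOf_eq_of_le hTH]
    exact Subgroup.map_mono hW
  suffices hVT : V = T by
    have : T.subgroupOf H = (W : Subgroup ↥H) := by
      rw [← hVT, hV, Subgroup.subgroupOf, Subgroup.comap_map_eq_self_of_injective (Subgroup.subtype_injective H)]
    rw [Subgroup.relIndex, this]
    exact W.not_dvd_index
  by_contra hne
  haveI : Group.IsNilpotent ↥V := hV2.isNilpotent
  have hlt : T.subgroupOf V < ⊤ := lt_top_iff_ne_top.2 fun h =>
    hne (le_antisymm (Subgroup.subgroupOf_eq_top.1 h) hTV)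
  obtain ⟨u, huN, huT⟩ := SetLike.exists_of_lt (Group.normalizerCondition_of_isNilpotent (T.subgroupOf V) hlt)
  have hun : (u : G) ∈ Subgroup.normalizer (T : Set G) := by
    rw [Subgroup.mem_normalizer_iff]
    intro x
    constructor
    · intro hx
      exact (Subgroup.mem_normalizer_iff.1 huN ⟨x, hTV hx⟩).1 hx
    · intro hx
      have hxV : x ∈ V := by
        have := V.mul_mem (V.mul_mem (V.inv_mem u.2) (hTV hx)) u.2
        simpa [mul_assoc] using this
      exact (Subgroup.mem_normalizer_iff.1 huN ⟨x, hxV⟩).2 hx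
  -- conjugation by `u` fixes `j`
  let φ : ↥T ≃* ↥T :=
    { toFun := fun t => ⟨(u : G) * t * (u : G)⁻¹, (Subgroup.mem_normalizer_iff.1 hun t).1 t.2⟩
      invFun := fun t => ⟨(u : G)⁻¹ * t * u, by
        simpa using (Subgroup.mem_normalizer_iff.1 (inv_mem hun) t).1 t.2⟩
      left_inv := fun t => Subtype.ext (by simp [mul_assoc])
      right_inv := fun t => Subtype.ext (by simp [mul_assoc])
      map_mul' := fun a b => Subtype.ext (by simp [mul_assoc]) }
  have hjm : φ ⟨j, hjT⟩ ∈ (Subgroup.zpowers j).subgroupOf T := by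
    have h := hchar.fixed φ
    have : (⟨j, hjT⟩ : ↥T) ∈ ((Subgroup.zpowers j).subgroupOf T).comap φ.toMonoidHom := by
      rw [h]; exact Subgroup.mem_zpowers j
    exact this
  have hju : (u : G) ∈ C := by
    have hm : (u : G) * j * (u : G)⁻¹ ∈ Subgroup.zpowers j := hjm
    have ho : orderOf ((u : G) * j * (u : G)⁻¹) = 2 := by
      rw [← hj]; exact (MulAut.conj (u : G)).orderOf_eq j
    rw [mem_zpowers_iff_mem_range_orderOf, hj] at hm
    obtain ⟨i, hi, he⟩ := Finset.mem_image.1 hm
    rw [Finset.mem_range] at hi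
    interval_cases i
    · rw [← he, pow_zero, orderOf_one] at ho; omega
    · rw [pow_one] at he
      rw [Subgroup.mem_centralizer_singleton_iff]
      conv_rhs => rw [he]
      group
  have hU := hmax (T ⊔ Subgroup.zpowers (u : G)) (hV2.to_le (sup_le hTV (Subgroup.zpowers_le.2 u.2))) le_sup_left
    (sup_le hT (Subgroup.zpowers_le.2 ⟨hVH u.2, hju⟩))
  exact huT (show (u : G) ∈ T from hU ▸ Subgroup.mem_sup_right (Subgroup.mem_zpowers _))

end Cfsg.Agent.S3208
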