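import Cfsg.Statements.S3210
import Mathlib
import Cfsg.Agent.Lib.Classical.Order

set_option autoImplicit false
open Cfsg

namespace Cfsg.Agent.S3210

open Matrix Subgroup
open scoped Pointwise

section SL
variable {F : Type*} [Field F]

local notation "M2" => Matrix (Fin 2) (Fin 2) F
local notation "SL2" => Matrix.SpecialLinearGroup (Fin 2) F

def upper : SL2 := ⟨!![1, 1; 0, 1], by simp⟩
def lower : SL2 := ⟨!![1, 0; 1, 1], by simp⟩

theorem scalar_pm (A : SL2) (h : (A : M2) 0 1 = 0) (h' : (A : M2) 1 0 = 0) (h'' : (A : M2) 0 0 = (A : M2) 1 1) :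
    A = 1 ∨ A = -1 := by
  have hd := A.2
  rw [det_fin_two, h, h'] at hd
  rcases sq_eq_one_iff.1 (show (A : M2) 0 0 ^ 2 = 1 by rw [h''] at hd ⊢; linear_combination hd) with e | e
  · left
    apply Subtype.ext
    rw [Matrix.SpecialLinearGroup.coe_one]
    ext i k; fin_cases i <;> fin_cases k <;> simp [h, h', e, ← h'']
  · right
    apply Subtype.ext
    rw [Matrix.SpecialLinearGroup.coe_neg, Matrix.SpecialLinearGroup.coe_one]
    ext i k; fin_cases i <;> fin_cases k <;> simp [h, h', e, ← h'']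

theorem involution_eq (h2 : (2 : F) ≠ 0) (A : SL2) (hA : A * A = 1) : A = 1 ∨ A = -1 := by
  have hi : A⁻¹ = A := inv_eq_of_mul_eq_one_right hA
  have e : ∀ i k, ((A⁻¹ : SL2) : M2) i k = (A : M2) i k := fun i k => by rw [hi]
  have e00 := e 0 0; have e01 := e 0 1; have e10 := e 1 0
  simp [Matrix.SpecialLinearGroup.coe_inv, adjugate_fin_two] at e00 e01 e10
  have hz : ∀ z : F, -z = z → z = 0 := fun z hz =>
    (mul_eq_zero.1 (show 2 * z = 0 by linear_combination -hz)).resolve_left h2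
  exact scalar_pm A (hz _ e01) (hz _ e10) e00.symm

theorem almost_central (h2 : (2 : F) ≠ 0) (y : SL2)
    (h : ∀ g : SL2, y * g * y⁻¹ * g⁻¹ = 1 ∨ y * g * y⁻¹ * g⁻¹ = -1) : y = 1 ∨ y = -1 := by
  have key : ∀ g : SL2, (g : M2).trace = 2 → (y : M2) * g = (g : M2) * y := by
    intro g hg
    rcases h g with e | e
    · have : y * g = g * y := by
        rw [mul_inv_eq_one, mul_inv_eq_iff_eq_mul] at e; exact e
      simpa using congrArg (fun A : SL2 => (A : M2)) this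
    · exfalso
      rw [mul_inv_eq_iff_eq_mul] at e
      have := congrArg (fun A : SL2 => (A : M2).trace) e
      simp only [Matrix.SpecialLinearGroup.coe_mul, Matrix.SpecialLinearGroup.coe_neg,
        Matrix.SpecialLinearGroup.coe_one, neg_mul, one_mul, trace_neg, hg] at this
      rw [trace_mul_comm, ← mul_assoc, ← Matrix.SpecialLinearGroup.coe_mul, inv_mul_cancel,
        Matrix.SpecialLinearGroup.coe_one, one_mul, hg] at this
      exact h2 ((mul_eq_zero.1 (show (2 : F) * 2 = 0 by linear_combination this)).elim id id)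
  have hU := key upper (by simp [upper, trace_fin_two]; norm_num)
  have hL := key lower (by simp [lower, trace_fin_two]; norm_num)
  have e1 := congrFun (congrFun hU 0) 0
  have e2 := congrFun (congrFun hL 0) 0
  have e3 := congrFun (congrFun hU 0) 1
  simp [upper, lower, Matrix.mul_apply, Fin.sum_univ_two] at e1 e2 e3
  exact scalar_pm y e2 e1 (by linear_combination e3)

theorem scalar_of_commute_conj (h2 : (2 : F) ≠ 0) (x c : SL2) (h : ∀ g : SL2, c * (g * x * g⁻¹) = g * x * g⁻¹ * c) :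
    (x = 1 ∨ x = -1) ∨ (c = 1 ∨ c = -1) := by
  by_contra hno
  push Not at hno
  obtain ⟨⟨hx1, hx2⟩, hc1, hc2⟩ := hno
  have eu : ((upper * x * upper⁻¹ : SL2) : M2) = !![1, 1; 0, 1] * (x : M2) * !![1, -1; 0, 1] := by
    rw [Matrix.SpecialLinearGroup.coe_mul, Matrix.SpecialLinearGroup.coe_mul, Matrix.SpecialLinearGroup.coe_inv]
    show _ * _ * adjugate !![1, 1; 0, 1] = _
    rw [adjugate_fin_two_of, neg_zero]
    rfl
  have el : ((lower * x * lower⁻¹ : SL2) : M2) = !![1, 0; 1, 1] * (x : M2) * !![1, 0; -1, 1] := by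
    rw [Matrix.SpecialLinearGroup.coe_mul, Matrix.SpecialLinearGroup.coe_mul, Matrix.SpecialLinearGroup.coe_inv]
    show _ * _ * adjugate !![1, 0; 1, 1] = _
    rw [adjugate_fin_two_of, neg_zero]
    rfl
  have H : ∀ g : SL2, (c : M2) * ((g * x * g⁻¹ : SL2) : M2) = ((g * x * g⁻¹ : SL2) : M2) * c := fun g => by
    rw [← Matrix.SpecialLinearGroup.coe_mul, h g, Matrix.SpecialLinearGroup.coe_mul]
  have h0 := H 1
  have hu := H upper
  have hl := H lower
  rw [eu] at hu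
  rw [el] at hl
  simp only [one_mul, inv_one, mul_one] at h0
  have p1 := congrFun (congrFun h0 0) 0
  have p2 := congrFun (congrFun h0 0) 1
  have p3 := congrFun (congrFun h0 1) 0
  have u1 := congrFun (congrFun hu 0) 0
  have u2 := congrFun (congrFun hu 0) 1
  have u3 := congrFun (congrFun hu 1) 0
  have l1 := congrFun (congrFun hl 0) 0
  have l2 := congrFun (congrFun hl 0) 1
  have l3 := congrFun (congrFun hl 1) 0
  simp only [Matrix.mul_apply, Fin.sum_univ_two] at p1 p2 p3 u1 u2 u3 l1 l2 l3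
  simp at p1 p2 p3 u1 u2 u3 l1 l2 l3
  have hcne : ¬ ((c : M2) 0 1 = 0 ∧ (c : M2) 1 0 = 0 ∧ (c : M2) 1 1 - (c : M2) 0 0 = 0) := fun hh =>
    (scalar_pm c hh.1 hh.2.1 (by linear_combination -hh.2.2)).elim hc1 hc2
  set a := (x : M2) 0 0
  set b := (x : M2) 0 1
  set d := (x : M2) 1 0
  set f := (x : M2) 1 1
  set a' := (c : M2) 0 0
  set b' := (c : M2) 0 1
  set d' := (c : M2) 1 0
  set f' := (c : M2) 1 1
  have hd : d = 0 := by
    by_contra hd
    refine hcne ?_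
    have k : d' * (2 * d) = 0 := by linear_combination u3 - p3
    have hd' : d' = 0 := (mul_eq_zero.1 k).resolve_right (mul_ne_zero h2 hd)
    have k1 : b' * d = 0 := by rw [hd'] at p1; linear_combination p1
    have k2 : (f' - a') * d = 0 := by rw [hd'] at p3; linear_combination p3
    exact ⟨(mul_eq_zero.1 k1).resolve_right hd, hd', (mul_eq_zero.1 k2).resolve_right hd⟩
  have hb : b = 0 := by
    by_contra hb
    refine hcne ?_
    have k : b' * (2 * b) = 0 := by linear_combination l2 - p2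
    have hb' : b' = 0 := (mul_eq_zero.1 k).resolve_right (mul_ne_zero h2 hb)
    have k1 : d' * b = 0 := by rw [hb'] at p1; linear_combination -p1
    have k2 : (f' - a') * b = 0 := by rw [hb'] at p2; linear_combination -p2
    exact ⟨hb', (mul_eq_zero.1 k1).resolve_right hb, (mul_eq_zero.1 k2).resolve_right hb⟩
  have hf : f - a = 0 := by
    by_contra hf
    simp only [hd, hb] at p2 p3 u2
    refine hcne ?_
    have k1 : b' * (f - a) = 0 := by first | linear_combination p2 | linear_combination -p2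
    have k2 : d' * (f - a) = 0 := by first | linear_combination p3 | linear_combination -p3
    have hb' := (mul_eq_zero.1 k1).resolve_right hf
    have hd' := (mul_eq_zero.1 k2).resolve_right hf
    have k3 : (f' - a') * (f - a) = 0 := by rw [hb'] at u2; first | linear_combination u2 | linear_combination -u2
    exact ⟨hb', hd', (mul_eq_zero.1 k3).resolve_right hf⟩
  exact (scalar_pm x hb hd (by linear_combination -hf)).elim hx1 hx2

end SL

section Main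
theorem noncomm {L : Type*} [Group L] {K : Type*} [Field K] (e : L ≃* Matrix.SpecialLinearGroup (Fin 2) K) :
    ∃ a b : L, a * b ≠ b * a := by
  refine ⟨e.symm upper, e.symm lower, fun hh => ?_⟩
  rw [← map_mul, ← map_mul] at hh
  have h11 := congrArg (fun A : Matrix.SpecialLinearGroup (Fin 2) K => (A : Matrix (Fin 2) (Fin 2) K) 0 0) (e.symm.injective hh)
  simp only [Matrix.SpecialLinearGroup.coe_mul] at h11
  change ((!![1, 1; 0, 1] : Matrix (Fin 2) (Fin 2) K) * (!![1, 0; 1, 1] : Matrix (Fin 2) (Fin 2) K)) 0 0 = ((!![1, 0; 1, 1] : Matrix (Fin 2) (Fin 2) K) * (!![1, 1; 0, 1] : Matrix (Fin 2) (Fin 2) K)) 0 0 at h11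
  simp [Matrix.mul_apply, Fin.sum_univ_two] at h11

variable {G : Type*} [Group G] {F : Type*} [Field F]

theorem pm_mem (h2 : (2 : F) ≠ 0) {L : Subgroup G} (e : ↥L ≃* Matrix.SpecialLinearGroup (Fin 2) F) {j : G}
    (hj : orderOf j = 2) (hjL : j ∈ L) (x : L) : (x : G) ∈ zpowers j ↔ (e x = 1 ∨ e x = -1) := by
  have hjj : j * j = 1 := by rw [← sq, ← hj]; exact pow_orderOf_eq_one j
  have hej : e ⟨j, hjL⟩ = -1 := by
    refine (involution_eq h2 _ (by rw [← map_mul]; exact (congrArg e (Subtype.ext hjj)).trans (map_one e))).resolve_left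
      fun h => ?_
    have h1 : j = 1 := congrArg Subtype.val ((map_eq_one_iff e e.injective).1 h)
    rw [h1, orderOf_one] at hj
    exact absurd hj (by norm_num)
  constructor
  · intro hx
    obtain ⟨k, hk⟩ := mem_zpowers_iff.1 hx
    have : x = ⟨j, hjL⟩ ^ k := Subtype.ext (by rw [coe_zpow]; exact hk.symm)
    rw [this, map_zpow, hej]
    rcases Int.even_or_odd k with h | h
    · exact Or.inl h.neg_one_zpow
    · exact Or.inr h.neg_one_zpow
  · rintro (h | h)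
    · rw [(map_eq_one_iff e e.injective).1 h]; exact one_mem _
    · rw [e.injective (h.trans hej.symm)]; exact mem_zpowers j

theorem central_of_commutators (h2 : (2 : F) ≠ 0) {L : Subgroup G} (e : ↥L ≃* Matrix.SpecialLinearGroup (Fin 2) F)
    {j : G} (hj : orderOf j = 2) (hjL : j ∈ L) {y : G} (hy : y ∈ L)
    (h : ∀ g ∈ L, y * g * y⁻¹ * g⁻¹ ∈ zpowers j) : y ∈ zpowers j := by
  refine (pm_mem h2 e hj hjL ⟨y, hy⟩).2 (almost_central h2 _ fun g => ?_)
  have := (pm_mem h2 e hj hjL (⟨y, hy⟩ * e.symm g * ⟨y, hy⟩⁻¹ * (e.symm g)⁻¹)).1 (by simpa using h _ (e.symm g).2)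
  simpa using this

theorem central_of_centralizes (h2 : (2 : F) ≠ 0) {L : Subgroup G} (e : ↥L ≃* Matrix.SpecialLinearGroup (Fin 2) F)
    {j : G} (hj : orderOf j = 2) (hjL : j ∈ L) {x c : G} (hx : x ∈ L) (hxj : x ∉ zpowers j) (hc : c ∈ L)
    (h : ∀ g ∈ L, c * (g * x * g⁻¹) = g * x * g⁻¹ * c) : c ∈ zpowers j := by
  rcases scalar_of_commute_conj h2 (e ⟨x, hx⟩) (e ⟨c, hc⟩) fun g => by
    have := congrArg e (Subtype.ext (h _ (e.symm g).2) :
      (⟨c, hc⟩ : L) * (e.symm g * ⟨x, hx⟩ * (e.symm g)⁻¹) = e.symm g * ⟨x, hx⟩ * (e.symm g)⁻¹ * ⟨c, hc⟩)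
    simpa using this with h' | h'
  · exact absurd ((pm_mem h2 e hj hjL _).2 h') hxj
  · exact (pm_mem h2 e hj hjL _).2 h'

theorem exists_decomp {L₁ L₂ : Subgroup G} (hc : ∀ x ∈ L₁, ∀ y ∈ L₂, x * y = y * x) {g : G} (hg : g ∈ L₁ ⊔ L₂) :
    ∃ x ∈ L₁, ∃ y ∈ L₂, g = x * y := by
  have h : L₁ ≤ normalizer (L₂ : Set G) := by
    intro x hx
    refine mem_normalizer_iff.2 fun y => ⟨fun hy => ?_, fun hy => ?_⟩
    · rwa [hc x hx y hy, mul_inv_cancel_right]
    · have := hc x⁻¹ (inv_mem hx) _ hy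
      have e : x⁻¹ * (x * y * x⁻¹) * x = y := by group
      rwa [← e, this, inv_mul_cancel_right]
  obtain ⟨x, hx, y, hy, e⟩ := Set.mem_mul.1 ((Subgroup.coe_mul_of_left_le_normalizer_right L₁ L₂ h) ▸ hg : g ∈ (L₁ : Set G) * (L₂ : Set G))
  exact ⟨x, hx, y, hy, e.symm⟩

theorem normalizes_inf {L M : Subgroup G} (hLM : ∀ g ∈ L, ∀ m ∈ M, g * m * g⁻¹ ∈ M) {g x : G} (hg : g ∈ L) (hx : x ∈ M ⊓ L) :
    g * x * g⁻¹ ∈ M := hLM g hg x hx.1

/-- the image of the first factor is one of the factors -/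
theorem image_le {F₂ : Type*} [Field F₂] (h2 : (2 : F) ≠ 0) (h2' : (2 : F₂) ≠ 0) {L₁ L₂ M M' : Subgroup G}
    (e₁ : ↥L₁ ≃* Matrix.SpecialLinearGroup (Fin 2) F) (e₂ : ↥L₂ ≃* Matrix.SpecialLinearGroup (Fin 2) F₂)
    {j : G} (hj : orderOf j = 2) (hjc : ∀ x ∈ L₁ ⊔ L₂, x * j = j * x)
    (hj1 : j ∈ L₁) (hj2 : j ∈ L₂) (hc : ∀ x ∈ L₁, ∀ y ∈ L₂, x * y = y * x) (hM : M ≤ L₁ ⊔ L₂)
    (hM' : M' ≤ L₁ ⊔ L₂) (hMn : ∀ g ∈ L₁ ⊔ L₂, ∀ m ∈ M, g * m * g⁻¹ ∈ M)
    (hMc : ∀ m ∈ M, ∀ m' ∈ M', m * m' = m' * m) (hM'j : ¬ M' ≤ zpowers j) :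
    M ≤ L₁ ∨ M ≤ L₂ := by
  have hjmem : ∀ {L : Subgroup G}, j ∈ L → zpowers j ≤ L := fun h => zpowers_le.2 h
  by_cases h2m : M ⊓ L₂ ≤ zpowers j
  · left
    intro m hm
    obtain ⟨x, hx, y, hy, rfl⟩ := exists_decomp hc (hM hm)
    refine mul_mem hx (hjmem hj1 (central_of_commutators h2' e₂ hj hj2 hy fun g hg => ?_))
    refine h2m (show _ ∈ M ∧ _ ∈ L₂ from ⟨?_, mul_mem (mul_mem (mul_mem hy hg) (inv_mem hy)) (inv_mem hg)⟩)
    have h1 : (x * y) * (g * (x * y)⁻¹ * g⁻¹) ∈ M := mul_mem hm (hMn g (mem_sup_right hg) _ (inv_mem hm))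
    have e : x * y * (g * (x * y)⁻¹ * g⁻¹) = y * g * y⁻¹ * g⁻¹ := by
      have hyg : y * g * y⁻¹ ∈ L₂ := mul_mem (mul_mem hy hg) (inv_mem hy)
      rw [show x * y * (g * (x * y)⁻¹ * g⁻¹) = x * (y * g * y⁻¹) * x⁻¹ * g⁻¹ by group, hc x hx _ hyg,
        mul_inv_cancel_right]
    rwa [e] at h1
  by_cases h1m : M ⊓ L₁ ≤ zpowers j
  · right
    intro m hm
    obtain ⟨x, hx, y, hy, rfl⟩ := exists_decomp hc (hM hm)
    refine mul_mem (hjmem hj2 (central_of_commutators h2 e₁ hj hj1 hx fun g hg => ?_)) hy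
    refine h1m (show _ ∈ M ∧ _ ∈ L₁ from ⟨?_, mul_mem (mul_mem (mul_mem hx hg) (inv_mem hx)) (inv_mem hg)⟩)
    have h1 : (x * y) * (g * (x * y)⁻¹ * g⁻¹) ∈ M := mul_mem hm (hMn g (mem_sup_left hg) _ (inv_mem hm))
    have e : x * y * (g * (x * y)⁻¹ * g⁻¹) = x * g * x⁻¹ * g⁻¹ := by
      have hyg : y * g = g * y := (hc g hg y hy).symm
      rw [show x * y * (g * (x * y)⁻¹ * g⁻¹) = x * (y * g) * y⁻¹ * x⁻¹ * g⁻¹ by group, hyg]
      group
    rwa [e] at h1
  exfalso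
  obtain ⟨a, ha, haj⟩ := SetLike.not_le_iff_exists.1 h1m
  obtain ⟨b, hb, hbj⟩ := SetLike.not_le_iff_exists.1 h2m
  refine hM'j fun m hm => ?_
  obtain ⟨x, hx, y, hy, rfl⟩ := exists_decomp hc (hM' hm)
  refine mul_mem (central_of_centralizes h2 e₁ hj hj1 ha.2 haj hx fun g hg => ?_)
    (central_of_centralizes h2' e₂ hj hj2 hb.2 hbj hy fun g hg => ?_)
  · have h := hMc _ (hMn g (mem_sup_left hg) a ha.1) _ hm
    have hA : g * a * g⁻¹ ∈ L₁ := mul_mem (mul_mem hg ha.2) (inv_mem hg)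
    rw [← mul_assoc, mul_assoc x y, ← hc _ hA y hy, ← mul_assoc] at h
    exact (mul_right_cancel h).symm
  · have h := hMc _ (hMn g (mem_sup_right hg) b hb.1) _ hm
    have hA : g * b * g⁻¹ ∈ L₂ := mul_mem (mul_mem hg hb.2) (inv_mem hg)
    rw [← mul_assoc, ← hc x hx _ hA, mul_assoc x, mul_assoc x] at h
    exact (mul_left_cancel h).symm

end Main


/-- Let G be a finite group with subgroups L₁ ≅ SL₂(q₁) and L₂ ≅ SL₂(q₂), q₁ and q₂ odd prime powers, which commute elementwise and meet in ⟨j⟩ for an involution j, and suppose L₁L₂ has index 2 in C_G(j). Then every element n of C_G(j) outside L₁L₂ either normalizes both L₁ and L₂, or conjugates L₁ onto L₂; in the second case q₁ = q₂ and there is an element n′ of C_G(j) outside L₁L₂ conjugating L₁ onto L₂ with n′² ∈ ⟨j⟩. -/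
theorem result {G : Type*} [Group G] [Finite G]
    {F₁ : Type*} [Field F₁] [Fintype F₁] {F₂ : Type*} [Field F₂] [Fintype F₂]
    (hF₁ : Odd (Fintype.card F₁)) (hF₂ : Odd (Fintype.card F₂)) (L₁ L₂ : Subgroup G)
    (e₁ : ↥L₁ ≃* Matrix.SpecialLinearGroup (Fin 2) F₁) (e₂ : ↥L₂ ≃* Matrix.SpecialLinearGroup (Fin 2) F₂)
    (hc : ∀ x ∈ L₁, ∀ y ∈ L₂, x * y = y * x) (j : G) (hj : orderOf j = 2) (hm : L₁ ⊓ L₂ = Subgroup.zpowers j)
    (hle : L₁ ⊔ L₂ ≤ Subgroup.centralizer ({j} : Set G)) (hi : (L₁ ⊔ L₂).relIndex (Subgroup.centralizer ({j} : Set G)) = 2) (n : G) (hn : n ∈ Subgroup.centralizer ({j} : Set G)) (hn' : n ∉ L₁ ⊔ L₂) :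
    (L₁.map (MulAut.conj n).toMonoidHom = L₁ ∧ L₂.map (MulAut.conj n).toMonoidHom = L₂) ∨
      (L₁.map (MulAut.conj n).toMonoidHom = L₂ ∧ Fintype.card F₁ = Fintype.card F₂ ∧
        ∃ n' ∈ Subgroup.centralizer ({j} : Set G), n' ∉ L₁ ⊔ L₂ ∧ L₁.map (MulAut.conj n').toMonoidHom = L₂ ∧ n' ^ 2 ∈ Subgroup.zpowers j) := by
  classical
  have h2₁ : (2 : F₁) ≠ 0 := Ring.two_ne_zero fun h => by
    have := FiniteField.even_card_iff_char_two.1 h; rw [Nat.odd_iff] at hF₁; omega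
  have h2₂ : (2 : F₂) ≠ 0 := Ring.two_ne_zero fun h => by
    have := FiniteField.even_card_iff_char_two.1 h; rw [Nat.odd_iff] at hF₂; omega
  have hj1 : j ∈ L₁ := (hm ▸ mem_zpowers j : j ∈ L₁ ⊓ L₂).1
  have hj2 : j ∈ L₂ := (hm ▸ mem_zpowers j : j ∈ L₁ ⊓ L₂).2
  have hjc : ∀ x ∈ L₁ ⊔ L₂, x * j = j * x := fun x hx => (mem_centralizer_singleton_iff.1 (hle hx))
  have hN : ((L₁ ⊔ L₂).subgroupOf (centralizer ({j} : Set G))).Normal :=
    Subgroup.normal_of_index_eq_two hi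
  have hnorm : ∀ x, x ∈ L₁ ⊔ L₂ → n * x * n⁻¹ ∈ L₁ ⊔ L₂ := fun x hx =>
    hN.conj_mem ⟨x, hle hx⟩ hx ⟨n, hn⟩
  have hnorm' : ∀ x, x ∈ L₁ ⊔ L₂ → n⁻¹ * x * n ∈ L₁ ⊔ L₂ := fun x hx => by
    simpa [Subgroup.mem_subgroupOf] using hN.conj_mem ⟨x, hle hx⟩ hx ⟨n⁻¹, inv_mem hn⟩
  have hLn : ∀ L, L = L₁ ∨ L = L₂ → ∀ g ∈ L₁ ⊔ L₂, ∀ m ∈ L, g * m * g⁻¹ ∈ L := by
    intro L hL g hg m hmL
    obtain ⟨x, hx, y, hy, rfl⟩ := exists_decomp hc hg
    rcases hL with rfl | rfl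
    · rw [show x * y * m * (x * y)⁻¹ = x * (y * m) * y⁻¹ * x⁻¹ by group, ← hc m hmL y hy]
      simpa [mul_assoc] using mul_mem (mul_mem hx hmL) (inv_mem hx)
    · rw [show x * y * m * (x * y)⁻¹ = x * (y * m * y⁻¹) * x⁻¹ by group,
        hc x hx _ (mul_mem (mul_mem hy hmL) (inv_mem hy)), mul_inv_cancel_right]
      exact mul_mem (mul_mem hy hmL) (inv_mem hy)
  set φ := (MulAut.conj n).toMonoidHom with hφ
  have hφa : ∀ x, φ x = n * x * n⁻¹ := fun x => rfl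
  have hMn : ∀ L, L = L₁ ∨ L = L₂ → ∀ g ∈ L₁ ⊔ L₂, ∀ m ∈ L.map φ, g * m * g⁻¹ ∈ L.map φ := by
    rintro L hL g hg _ ⟨m, hm, rfl⟩
    refine ⟨(n⁻¹ * g * n) * m * (n⁻¹ * g * n)⁻¹, hLn L hL _ (hnorm' g hg) m hm, ?_⟩
    rw [hφa, hφa]; group
  have hle1 : ∀ L, L = L₁ ∨ L = L₂ → L.map φ ≤ L₁ ⊔ L₂ := by
    rintro L hL _ ⟨m, hm, rfl⟩
    exact hnorm m (hL.elim (fun h => mem_sup_left (h ▸ hm)) fun h => mem_sup_right (h ▸ hm))
  have hcard : ∀ L : Subgroup G, Nat.card (L.map φ) = Nat.card L := fun L =>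
    Subgroup.card_map_of_injective (MulAut.conj n).injective
  have hbig : ∀ L : Subgroup G, (∃ a b : L, a * b ≠ b * a) → ¬ L.map φ ≤ zpowers j := by
    rintro L ⟨a, b, hab⟩ h
    refine hab (Subtype.ext <| (MulAut.conj n).injective ?_)
    show φ ((a : G) * b) = φ ((b : G) * a)
    obtain ⟨r, hr⟩ := mem_zpowers_iff.1 (h ⟨a, a.2, rfl⟩)
    obtain ⟨s, hs⟩ := mem_zpowers_iff.1 (h ⟨b, b.2, rfl⟩)
    rw [map_mul, map_mul, ← hr, ← hs, ← _root_.zpow_add, ← _root_.zpow_add, add_comm]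
  have hcc : ∀ x ∈ L₁.map φ, ∀ y ∈ L₂.map φ, x * y = y * x := by
    rintro _ ⟨x, hx, rfl⟩ _ ⟨y, hy, rfl⟩
    rw [← map_mul, hc x hx y hy, map_mul]
  have c1 := image_le h2₁ h2₂ e₁ e₂ hj hjc hj1 hj2 hc (hle1 L₁ (Or.inl rfl)) (hle1 L₂ (Or.inr rfl))
    (hMn L₁ (Or.inl rfl)) hcc (hbig L₂ (noncomm e₂))
  have c2 := image_le h2₁ h2₂ e₁ e₂ hj hjc hj1 hj2 hc (hle1 L₂ (Or.inr rfl)) (hle1 L₁ (Or.inl rfl))
    (hMn L₂ (Or.inr rfl)) (fun x hx y hy => (hcc y hy x hx).symm) (hbig L₁ (noncomm e₁))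
  have hkey : ∀ L : Subgroup G, L₁.map φ ≤ L → L₂.map φ ≤ L → L₁ ⊔ L₂ ≤ L := fun L h1 h2 g hg => by
    have h : n⁻¹ * g * n ∈ L₁ ⊔ L₂ := hnorm' g hg
    obtain ⟨x, hx, y, hy, e⟩ := exists_decomp hc h
    have : g = φ x * φ y := by rw [← map_mul, ← e, hφa]; group
    rw [this]
    exact mul_mem (h1 ⟨x, hx, rfl⟩) (h2 ⟨y, hy, rfl⟩)
  have hnot : ¬ L₂ ≤ L₁ ∧ ¬ L₁ ≤ L₂ := by
    constructor <;> intro h
    · refine hbig L₂ (noncomm e₂) ?_
      rw [inf_eq_right.2 h] at hm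
      rintro _ ⟨x, hx, rfl⟩
      obtain ⟨r, hr⟩ := mem_zpowers_iff.1 (hm ▸ hx : x ∈ zpowers j)
      rw [← hr, map_zpow, hφa, mem_centralizer_singleton_iff.1 hn, mul_inv_cancel_right]
      exact zpow_mem (mem_zpowers j) r
    · refine hbig L₁ (noncomm e₁) ?_
      rw [inf_eq_left.2 h] at hm
      rintro _ ⟨x, hx, rfl⟩
      obtain ⟨r, hr⟩ := mem_zpowers_iff.1 (hm ▸ hx : x ∈ zpowers j)
      rw [← hr, map_zpow, hφa, mem_centralizer_singleton_iff.1 hn, mul_inv_cancel_right]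
      exact zpow_mem (mem_zpowers j) r
  rcases c1 with a1 | a1 <;> rcases c2 with a2 | a2
  · exact absurd (le_sup_right.trans (hkey L₁ a1 a2)) hnot.1
  · exact Or.inl ⟨Subgroup.eq_of_le_of_card_ge a1 (hcard L₁).ge, Subgroup.eq_of_le_of_card_ge a2 (hcard L₂).ge⟩
  · have e1 : L₁.map φ = L₂ := Subgroup.eq_of_le_of_card_ge a1
      (by have h := Subgroup.card_le_of_le a2; rw [hcard] at h ⊢; exact h)
    right
    have hce : Nat.card L₁ = Nat.card L₂ := by rw [← hcard L₁, e1]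
    refine ⟨e1, ?_, ?_⟩
    · rw [Nat.card_congr e₁.toEquiv, Nat.card_congr e₂.toEquiv, Lib.Classical.card_SL_two,
        Lib.Classical.card_SL_two] at hce
      have mono : StrictMono fun q : ℕ => (q + 1) * ((q + 1) ^ 2 - 1) := by
        refine strictMono_nat_of_lt_succ fun q => ?_
        have : (q + 1) ^ 2 < (q + 1 + 1) ^ 2 := Nat.pow_lt_pow_left (by omega) two_ne_zero
        have h4 : 1 ≤ (q + 1) ^ 2 := Nat.one_le_pow _ _ (by omega)
        have hlt : (q + 1) ^ 2 - 1 < (q + 1 + 1) ^ 2 - 1 := by omega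
        exact Nat.mul_lt_mul_of_le_of_lt (by omega) hlt (by omega)
      obtain ⟨u, hu⟩ : ∃ u, Fintype.card F₁ = u + 1 := ⟨_, (Nat.succ_pred Fintype.card_ne_zero).symm⟩
      obtain ⟨v, hv⟩ : ∃ v, Fintype.card F₂ = v + 1 := ⟨_, (Nat.succ_pred Fintype.card_ne_zero).symm⟩
      rw [hu, hv] at hce ⊢
      rw [mono.injective hce]
    · have hidx : n * n ∈ L₁ ⊔ L₂ :=
        (Subgroup.mul_mem_iff_of_index_two hi (a := (⟨n, hn⟩ : ↥(centralizer ({j} : Set G)))) (b := ⟨n, hn⟩)).2 Iff.rfl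
      obtain ⟨a, ha, b, hb, hab⟩ := exists_decomp hc hidx
      have hna : φ a ∈ L₂ := e1 ▸ ⟨a, ha, rfl⟩
      have hnb : φ b ∈ L₁ := a2 ⟨b, hb, rfl⟩
      have hfix : φ a * φ b = a * b := by rw [← map_mul, ← hab, hφa]; group
      have hε : b⁻¹ * φ a ∈ zpowers j := by
        rw [← hm]
        refine show _ ∈ L₁ ∧ _ ∈ L₂ from ⟨?_, mul_mem (inv_mem hb) hna⟩
        have e : b⁻¹ * φ a = (φ b)⁻¹ * a := by
          have h2 : φ a = (φ b)⁻¹ * a * b := by
            rw [mul_assoc, ← hfix, ← hc _ hnb _ hna, inv_mul_cancel_left]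
          rw [h2, ← mul_assoc, ← hc _ (mul_mem (inv_mem hnb) ha) _ (inv_mem hb), inv_mul_cancel_right]
        rw [e]; exact mul_mem (inv_mem hnb) ha
      obtain ⟨r, hr⟩ := mem_zpowers_iff.1 hε
      have hfixj : φ (j ^ r) = j ^ r := by
        rw [map_zpow, hφa, mem_centralizer_singleton_iff.1 hn, mul_inv_cancel_right]
      have hb2 : n * (n * a * n⁻¹) * n⁻¹ = a := by
        have h3 : n * (n * a * n⁻¹) * n⁻¹ = (a * b) * a * (a * b)⁻¹ := by rw [← hab]; group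
        have h4 : b * a = a * b := (hc a ha b hb).symm
        rw [h3, mul_assoc a b a, h4]; group
      refine ⟨n * a⁻¹, mul_mem hn (inv_mem (hle (mem_sup_left ha))), fun h => hn' ?_, ?_, ?_⟩
      · simpa using mul_mem h (mem_sup_left ha)
      · refine Subgroup.ext fun z => ?_
        constructor
        · rintro ⟨w, hw, rfl⟩
          rw [← e1]
          exact ⟨a⁻¹ * w * a, mul_mem (mul_mem (inv_mem ha) hw) ha, by rw [hφa]; simp [mul_assoc]⟩
        · intro hz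
          rw [← e1] at hz
          obtain ⟨w, hw, rfl⟩ := hz
          exact ⟨a * w * a⁻¹, mul_mem (mul_mem ha hw) (inv_mem ha), by rw [hφa]; simp [mul_assoc]⟩
      · -- (n a⁻¹)² ∈ ⟨j⟩
        have hφb : φ b = a * (j ^ r)⁻¹ := by
          have h1 : φ a = b * j ^ r := by rw [hr, mul_inv_cancel_left]
          have h2 : φ (φ a) = φ b * j ^ r := by rw [h1, map_mul, hfixj]
          rw [show φ (φ a) = a from hb2] at h2
          rw [eq_mul_inv_iff_mul_eq]; exact h2.symm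
        have hninv : n⁻¹ * a * n = b * j ^ r := by
          have h1 : φ (b * j ^ r) = a := by rw [map_mul, hfixj, hφb, inv_mul_cancel_right]
          conv_lhs => rw [← h1, hφa]
          group
        have e : (n * a⁻¹) ^ 2 = n * n * (n⁻¹ * a * n)⁻¹ * a⁻¹ := by rw [sq]; group
        rw [e, hninv, hab, _root_.mul_inv_rev]
        have hjr : ∀ z, z ∈ L₁ ⊔ L₂ → Commute z (j ^ r) := fun z hz => (show Commute z j from hjc z hz).zpow_right r
        have hjrb : b⁻¹ * (j ^ r)⁻¹ = (j ^ r)⁻¹ * b⁻¹ := ((hjr b (mem_sup_right hb)).inv_inv).eq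
        rw [← hjrb, ← mul_assoc, mul_inv_cancel_right, mul_assoc, ((hjr a (mem_sup_left ha)).inv_inv.symm).eq,
          mul_inv_cancel_left]
        exact inv_mem (zpow_mem (mem_zpowers j) r)
  · exact absurd (le_sup_left.trans (hkey L₂ a1 a2)) hnot.2

end Cfsg.Agent.S3210
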