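import Cfsg.Statements.S3211
import Cfsg.Agent.Lib.Involution.PairCount
import Cfsg.Agent.Lib.Involution.IsolatedMore
import Cfsg.Agent.Lib.Involution.QEightMain

set_option autoImplicit false
open Cfsg

namespace Cfsg.Agent.S3211

open Cfsg.Agent.Lib.Involution Cfsg.Agent.Lib.Involution.SLTwoPair

universe u

theorem sup_oddCore {G : Type u} [Group G] [Finite G] {z : G} (hz : Cfsg.IsIsolatedInvolution z) :
    Subgroup.centralizer ({z} : Set G) ⊔ Cfsg.oddCore G = ⊤ := by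
  rw [eq_top_iff]
  intro g _
  have hm : z * (g * z * g⁻¹) ∈ Cfsg.oddCore G := by
    have h := zstar hz g
    rw [inv_self hz.1] at h
    simpa [mul_assoc] using h
  have hodd : Odd (orderOf (z * (g * z * g⁻¹))) := by
    rw [← Subgroup.orderOf_mk _ hm]
    exact odd_card_oddCore.of_dvd_nat (orderOf_dvd_natCard _)
  obtain ⟨i, hi⟩ := conj_of_odd hz.1 ((orderOf_conj g z).trans hz.1) hodd
  set o := (z * (g * z * g⁻¹)) ^ i with ho
  have hc : o⁻¹ * g ∈ Subgroup.centralizer ({z} : Set G) := by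
    have h := inv_mem (mem_centralizer_of_conj (z := z) (g := g) (k := o) hi)
    rwa [mul_inv_rev, inv_inv] at h
  rw [show g = o * (o⁻¹ * g) by group]
  exact mul_mem (Subgroup.mem_sup_right (pow_mem hm i)) (Subgroup.mem_sup_left hc)


/-- Let G be a finite group with subgroups L₁ ≅ SL₂(q₁) and L₂ ≅ SL₂(q₂), q₁ and q₂ odd prime powers, which commute elementwise and meet in ⟨j⟩ for an involution j, and suppose L₁L₂ has index 2 in C_G(j). If some n ∈ C_G(j) with n² = j interchanges L₁ and L₂ under conjugation (so that C_G(j) = L₁L₂⟨n⟩), then G = C_G(j)O(G). -/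
theorem result {G : Type*} [Group G] [Finite G]
    {F₁ : Type*} [Field F₁] [Fintype F₁] {F₂ : Type*} [Field F₂] [Fintype F₂]
    (hF₁ : Odd (Fintype.card F₁)) (hF₂ : Odd (Fintype.card F₂)) (L₁ L₂ : Subgroup G)
    (e₁ : ↥L₁ ≃* Matrix.SpecialLinearGroup (Fin 2) F₁) (e₂ : ↥L₂ ≃* Matrix.SpecialLinearGroup (Fin 2) F₂)
    (hc : ∀ x ∈ L₁, ∀ y ∈ L₂, x * y = y * x) (j : G) (hj : orderOf j = 2) (hm : L₁ ⊓ L₂ = Subgroup.zpowers j)
    (hle : L₁ ⊔ L₂ ≤ Subgroup.centralizer ({j} : Set G)) (hi : (L₁ ⊔ L₂).relIndex (Subgroup.centralizer ({j} : Set G)) = 2) (n : G) (hn : n ∈ Subgroup.centralizer ({j} : Set G))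
    (hn2 : n ^ 2 = j) (hswap : L₁.map (MulAut.conj n).toMonoidHom = L₂) :
    Subgroup.centralizer ({j} : Set G) ⊔ Cfsg.oddCore G = ⊤ := by
  have hjm : j ∈ L₁ ⊓ L₂ := hm ▸ Subgroup.mem_zpowers j
  exact sup_oddCore (isolated_of_swap (pairFacts hF₁ e₁ hj (Subgroup.mem_inf.mp hjm).1)
    (pairFacts hF₂ e₂ hj (Subgroup.mem_inf.mp hjm).2) hj hc hm hle hi hn (by rw [← pow_two, hn2]) hswap)

end Cfsg.Agent.S3211
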