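import Cfsg.Statements.S3213
import Mathlib

set_option autoImplicit false
open Cfsg

namespace Cfsg.Agent.S3213

open Matrix

abbrev V (F : Type*) := Fin 2 ⊕ Fin 2 → F

/-- The fixed points of an element of prime order on a finite space. -/
theorem card_fixed {U : Type*} [Finite U] {r : ℕ} [Fact r.Prime] (f : Function.End U) (hf : f ^ r = 1) :
    Nat.card U ≡ Nat.card (Function.fixedPoints f) [MOD r] := by
  classical
  haveI := Fintype.ofFinite U
  have h := Equiv.Perm.card_fixedPoints_modEq (p := r) (n := 1) (f := f) (by rwa [pow_one])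
  simp only [← Nat.card_eq_fintype_card] at h
  exact h

/-- A transformation squaring to `-1` over a field in which `-1` is no square lives in even dimension. -/
theorem even_finrank {F U : Type*} [Field F] [AddCommGroup U] [Module F U] [FiniteDimensional F U]
    (hns : ∀ c : F, c * c ≠ -1) (w : U →ₗ[F] U) (hw : w ∘ₗ w = -LinearMap.id) : Even (Module.finrank F U) := by
  by_contra h
  rw [Nat.not_even_iff_odd] at h
  refine hns (LinearMap.det w) ?_
  rw [← LinearMap.det_comp, hw, show (-LinearMap.id : U →ₗ[F] U) = (-1 : F) • LinearMap.id from (neg_one_smul F _).symm,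
    LinearMap.det_smul, LinearMap.det_id, mul_one, h.neg_one_pow]

theorem three_nsq : ∀ d : ZMod 3, d * d ≠ -1 := by decide

theorem exists_anti : ∀ p q r s : ZMod 5, p * s - q * r = 1 →
    ∃ a b c : ZMod 5, -(a * a) - b * c = 1 ∧ (p - s) * a + q * c + r * b = 0 := by decide +kernel

/-- Let F be the field with 3 elements and φ an injective homomorphism of SL(2,5) into the symplectic group Sp(4,3). For an element x of order 3, the fixed space of φ(x) has dimension 2 and is totally isotropic. -/
theorem result {F : Type*} [Field F] [Fintype F] (hF : Fintype.card F = 3)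
    {K : Type*} [Field K] [Fintype K] (hK : Fintype.card K = 5)
    (φ : Matrix.SpecialLinearGroup (Fin 2) K →* ↥(Matrix.symplecticGroup (Fin 2) F)) (hφ : Function.Injective φ)
    (x : Matrix.SpecialLinearGroup (Fin 2) K) (hx : orderOf x = 3) :
    Module.finrank F ↥(LinearMap.ker (Matrix.toLin' ((φ x : Matrix (Fin 2 ⊕ Fin 2) (Fin 2 ⊕ Fin 2) F)) - LinearMap.id)) = 2 ∧
      ∀ v w : Fin 2 ⊕ Fin 2 → F, (φ x : Matrix (Fin 2 ⊕ Fin 2) (Fin 2 ⊕ Fin 2) F).mulVec v = v →
        (φ x : Matrix (Fin 2 ⊕ Fin 2) (Fin 2 ⊕ Fin 2) F).mulVec w = w →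
          dotProduct v ((Matrix.J (Fin 2) F).mulVec w) = 0 := by
  classical
  haveI : Fact (Nat.Prime 3) := ⟨Nat.prime_three⟩
  haveI : Fact (Nat.Prime 5) := ⟨by norm_num⟩
  let e : ZMod 5 ≃+* K := ZMod.ringEquivOfPrime K (by norm_num) hK
  let eF : ZMod 3 ≃+* F := ZMod.ringEquivOfPrime F Nat.prime_three hF
  have hns : ∀ c : F, c * c ≠ -1 := by
    intro c h
    exact three_nsq (eF.symm c) (by rw [← map_mul, h, map_neg, map_one])
  let M : Matrix.SpecialLinearGroup (Fin 2) K → Matrix (Fin 2 ⊕ Fin 2) (Fin 2 ⊕ Fin 2) F := fun g => (φ g : Matrix _ _ F)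
  let L : Matrix.SpecialLinearGroup (Fin 2) K → (V F →ₗ[F] V F) := fun g => Matrix.toLin' (M g)
  have hLa : ∀ g v, L g v = (M g).mulVec v := fun g v => Matrix.toLin'_apply _ _
  have hL1 : ∀ v, L 1 v = v := fun v => by
    rw [hLa]; simp only [M, map_one]; exact Matrix.one_mulVec v
  have hLm : ∀ g h v, L (g * h) v = L g (L h v) := fun g h v => by
    rw [hLa, hLa, hLa, Matrix.mulVec_mulVec]; simp only [M, map_mul]; rfl
  have hLinj : ∀ g, (∀ v, L g v = v) → g = 1 := fun g hg => hφ (by
    rw [map_one]
    refine Subtype.ext (Matrix.ext_of_mulVec_single fun i => ?_)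
    rw [show ((1 : ↥(Matrix.symplecticGroup (Fin 2) F)) : Matrix (Fin 2 ⊕ Fin 2) (Fin 2 ⊕ Fin 2) F) = 1 from rfl, Matrix.one_mulVec]
    exact (hLa g _).symm.trans (hg _))
  have hLpow : ∀ (g : Matrix.SpecialLinearGroup (Fin 2) K) (k : ℕ) (v : V F), ((L g)^[k]) v = L (g ^ k) v := by
    intro g k
    induction k with
    | zero => intro v; rw [pow_zero, hL1]; rfl
    | succ k ih => intro v; rw [Function.iterate_succ_apply', ih, pow_succ', hLm]
  have hV : Nat.card (V F) = 81 := by
    rw [Nat.card_eq_fintype_card, Fintype.card_fun, hF, Fintype.card_sum, Fintype.card_fin]; rfl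
  have hdim : ∀ W : Submodule F (V F), Nat.card W = 3 ^ Module.finrank F W := fun W => by
    rw [Module.natCard_eq_pow_finrank (K := F), Nat.card_eq_fintype_card, hF]
  have hdim4 : ∀ W : Submodule F (V F), Module.finrank F W ≤ 4 := fun W => by
    refine (Submodule.finrank_le W).trans ?_
    simp [Module.finrank_fintype_fun_eq_card]
  have htop : ∀ W : Submodule F (V F), Module.finrank F W = 4 → W = ⊤ := fun W hW =>
    Submodule.eq_top_of_finrank_eq (by rw [hW]; simp [Module.finrank_fintype_fun_eq_card])
  -- invariant subspaces of an element of prime order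
  have hinv : ∀ (r : ℕ) [Fact r.Prime] (g : Matrix.SpecialLinearGroup (Fin 2) K), g ^ r = 1 →
      ∀ W : Submodule F (V F), (∀ v ∈ W, L g v ∈ W) →
        Nat.card W ≡ Nat.card (W ⊓ LinearMap.ker (L g - LinearMap.id) : Submodule F (V F)) [MOD r] := by
    intro r _ g hg W hW
    let f : Function.End W := fun v => ⟨L g v, hW v v.2⟩
    have hval : ∀ (k : ℕ) (v : W), (((f ^ k : Function.End W) v : W) : V F) = L (g ^ k) v := by
      intro k
      induction k with
      | zero => intro v; rw [pow_zero, pow_zero, hL1]; rfl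
      | succ k ih => intro v; rw [pow_succ', pow_succ', hLm, ← ih]; rfl
    have hf : f ^ r = 1 := by
      funext v
      refine Subtype.ext ?_
      rw [hval, hg, hL1]; rfl
    refine (card_fixed f hf).trans (congrArg (· % r) (Nat.card_congr ?_))
    exact
      { toFun := fun v => ⟨v.1.1, v.1.2, by
          rw [SetLike.mem_coe, LinearMap.mem_ker, LinearMap.sub_apply, sub_eq_zero]; exact congrArg Subtype.val v.2⟩
        invFun := fun v => ⟨⟨v.1, v.2.1⟩, Subtype.ext (by
          have := v.2.2
          rw [SetLike.mem_coe, LinearMap.mem_ker, LinearMap.sub_apply, sub_eq_zero] at this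
          exact this)⟩
        left_inv := fun v => rfl
        right_inv := fun v => rfl }
  -- the central involution goes to minus one
  let t : Matrix.SpecialLinearGroup (Fin 2) K := -1
  have ht2 : t * t = 1 := by simp [t]
  have h5 : (5 : K) = 0 := by
    rw [← Nat.cast_ofNat, ← map_natCast e, ZMod.natCast_self, map_zero]
  have htne : t ≠ 1 := by
    intro h
    have h' := congrArg (fun g : Matrix.SpecialLinearGroup (Fin 2) K => (g : Matrix (Fin 2) (Fin 2) K) 0 0) h
    simp [t] at h'
    exact one_ne_zero (show (1 : K) = 0 by linear_combination 2 * h' + h5)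
  have htc : ∀ g, g * t = t * g := fun g => by simp [t]
  have h2 : (2 : F) ≠ 0 := fun h => hns 1 (by linear_combination h)
  let Pl := LinearMap.ker (L t - LinearMap.id)
  let Mi := LinearMap.ker (L t + LinearMap.id)
  have hPl : ∀ v, v ∈ Pl ↔ L t v = v := fun v => by rw [LinearMap.mem_ker, LinearMap.sub_apply, sub_eq_zero]; rfl
  have hMi : ∀ v, v ∈ Mi ↔ L t v = -v := fun v => by rw [LinearMap.mem_ker, LinearMap.add_apply, add_eq_zero_iff_eq_neg]; rfl
  have htneg : ∀ v, L t v = -v := by
    by_contra hcon
    push Not at hcon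
    obtain ⟨v₀, hv₀⟩ := hcon
    have hP4 : Module.finrank F Pl ≠ 4 := fun h => htne (hLinj t fun v => (hPl v).1 (htop Pl h ▸ Submodule.mem_top))
    have hM4 : Module.finrank F Mi ≠ 4 := fun h => hv₀ ((hMi v₀).1 (htop Mi h ▸ Submodule.mem_top))
    let y : Matrix.SpecialLinearGroup (Fin 2) K := ⟨!![1, 1; 0, 1], by simp [Matrix.det_fin_two]⟩
    have hy5 : y ^ 5 = 1 := by
      apply Subtype.ext
      show (!![1, 1; 0, 1] : Matrix (Fin 2) (Fin 2) K) ^ 5 = 1
      simp only [pow_succ, pow_zero, one_mul, Matrix.mul_fin_two]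
      rw [Matrix.one_fin_two]
      ext i j; fin_cases i <;> fin_cases j <;> simp
      linear_combination h5
    have hy1 : y ≠ 1 := fun h => by
      have h' := congrArg (fun g : Matrix.SpecialLinearGroup (Fin 2) K => (g : Matrix (Fin 2) (Fin 2) K) 0 1) h
      simp [y] at h'
    have htriv : ∀ W : Submodule F (V F), (∀ v ∈ W, L y v ∈ W) → Module.finrank F W ≠ 4 → ∀ v ∈ W, L y v = v := by
      intro W hW h4 v hv
      have hc := hinv 5 y hy5 W hW
      rw [hdim, hdim] at hc
      set Z := (W ⊓ LinearMap.ker (L y - LinearMap.id) : Submodule F (V F))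
      have hle : Module.finrank F Z ≤ Module.finrank F W := Submodule.finrank_mono inf_le_left
      have := hdim4 W
      have hd : Module.finrank F W < 4 := by omega
      have heq : Module.finrank F Z = Module.finrank F W := by
        revert hc hle hd
        generalize Module.finrank F W = a
        generalize Module.finrank F Z = b
        intro hc hle hd
        interval_cases a <;> interval_cases b <;> simp_all [Nat.ModEq]
      have hZW : Z = W := Submodule.eq_of_le_of_finrank_eq inf_le_left heq
      have h1 : v ∈ LinearMap.ker (L y - LinearMap.id) := (hZW.symm ▸ hv : v ∈ Z).2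
      rwa [LinearMap.mem_ker, LinearMap.sub_apply, sub_eq_zero] at h1
    refine hy1 (hLinj y fun v => ?_)
    have hPy := htriv Pl (fun v hv => (hPl _).2 (by rw [← hLm, ← htc, hLm, (hPl v).1 hv])) hP4
    have hMy := htriv Mi (fun v hv => (hMi _).2 (by rw [← hLm, ← htc, hLm, (hMi v).1 hv, map_neg])) hM4
    have h1 : v + L t v ∈ Pl := (hPl _).2 (by rw [map_add, ← hLm, ht2, hL1, add_comm])
    have h2' : v - L t v ∈ Mi := (hMi _).2 (by rw [map_sub, ← hLm, ht2, hL1, neg_sub])
    have h3 := congrArg₂ (· + ·) (hPy _ h1) (hMy _ h2')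
    beta_reduce at h3
    rw [← map_add, show v + L t v + (v - L t v) = (2 : F) • v by rw [two_smul]; abel, map_smul] at h3
    exact smul_right_injective (V F) h2 h3
  -- an element inverting x
  have hx3 : x ^ 3 = 1 := hx ▸ pow_orderOf_eq_one x
  obtain ⟨w, hw2, hxw⟩ : ∃ w : Matrix.SpecialLinearGroup (Fin 2) K, w * w = t ∧ x * w * x = w := by
    obtain ⟨a, b, c, h1, h2'⟩ := exists_anti (e.symm (x.1 0 0)) (e.symm (x.1 0 1)) (e.symm (x.1 1 0)) (e.symm (x.1 1 1))
      (by rw [← map_mul, ← map_mul, ← map_sub]
          have := x.2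
          rw [Matrix.det_fin_two] at this
          rw [this, map_one])
    have h1' := congrArg e h1
    have h2'' := congrArg e h2'
    simp only [map_sub, map_neg, map_mul, map_one, map_add, map_zero, RingEquiv.apply_symm_apply] at h1' h2''
    have hd : x.1 0 0 * x.1 1 1 - x.1 0 1 * x.1 1 0 = 1 := by rw [← Matrix.det_fin_two]; exact x.2
    refine ⟨⟨!![e a, e b; e c, -e a], by rw [Matrix.det_fin_two]; simp; linear_combination h1'⟩, ?_, ?_⟩
    · apply Subtype.ext
      show (!![e a, e b; e c, -e a] : Matrix (Fin 2) (Fin 2) K) * !![e a, e b; e c, -e a] = _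
      rw [Matrix.mul_fin_two]
      simp only [t, Matrix.SpecialLinearGroup.coe_neg, Matrix.SpecialLinearGroup.coe_one]
      ext i j; fin_cases i <;> fin_cases j <;> simp
      · linear_combination -h1'
      · ring
      · ring
      · linear_combination -h1'
    · apply Subtype.ext
      show x.1 * !![e a, e b; e c, -e a] * x.1 = !![e a, e b; e c, -e a]
      ext i j
      fin_cases i <;> fin_cases j <;> simp [Matrix.mul_apply, Fin.sum_univ_two]
      · linear_combination x.1 0 0 * h2'' + e a * hd
      · linear_combination x.1 0 1 * h2'' + e b * hd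
      · linear_combination x.1 1 0 * h2'' + e c * hd
      · linear_combination x.1 1 1 * h2'' - e a * hd
  set W := LinearMap.ker (L x - LinearMap.id) with hWdef
  have hW : ∀ v, v ∈ W ↔ L x v = v := fun v => by rw [hWdef, LinearMap.mem_ker, LinearMap.sub_apply, sub_eq_zero]; rfl
  have hWw : ∀ v ∈ W, L w v ∈ W := fun v hv => (hW _).2 (by
    conv_rhs => rw [← hxw, hLm, hLm, (hW v).1 hv])
  have heven : ∀ U : Submodule F (V F), (∀ v ∈ U, L w v ∈ U) → Even (Module.finrank F U) := fun U hU =>
    even_finrank hns ((L w).restrict hU) (LinearMap.ext fun v => Subtype.ext (by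
      show L w (L w v) = -(v : V F)
      rw [← hLm, hw2, htneg]))
  have hrank : Module.finrank F W = 2 := by
    have h0 : Module.finrank F W ≠ 0 := by
      intro h
      have hc := hinv 3 x hx3 ⊤ (fun v _ => Submodule.mem_top)
      rw [top_inf_eq, ← hWdef, hdim W, h, hdim, finrank_top, Module.finrank_fintype_fun_eq_card] at hc
      simp [Nat.ModEq] at hc
    have h4 : Module.finrank F W ≠ 4 := fun h => by
      have := hLinj x fun v => (hW v).1 (htop W h ▸ Submodule.mem_top)
      rw [this, orderOf_one] at hx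
      omega
    obtain ⟨k, hk⟩ := heven W hWw
    have := hdim4 W
    omega
  refine ⟨hrank, ?_⟩
  -- the form
  let B : V F → V F → F := fun v u => dotProduct v ((Matrix.J (Fin 2) F).mulVec u)
  have hB : ∀ g v u, B (L g v) (L g u) = B v u := fun g v u => by
    have h := SymplecticGroup.mem_iff'.1 (φ g).2
    show dotProduct (L g v) ((Matrix.J (Fin 2) F).mulVec (L g u)) = _
    rw [hLa, hLa, Matrix.mulVec_mulVec, Matrix.dotProduct_mulVec, ← Matrix.vecMul_transpose, Matrix.vecMul_vecMul,
      ← Matrix.mul_assoc, show (M g)ᵀ * Matrix.J (Fin 2) F * M g = Matrix.J (Fin 2) F from h, ← Matrix.dotProduct_mulVec]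
  let P : Submodule F (V F) :=
    { carrier := {u | ∀ v ∈ W, B v u = 0}
      zero_mem' := fun v _ => by simp [B]
      add_mem' := fun {a b} ha hb v hv => by
        show dotProduct v ((Matrix.J (Fin 2) F).mulVec (a + b)) = 0
        rw [Matrix.mulVec_add, dotProduct_add]
        have := ha v hv; have := hb v hv
        simp_all [B]
      smul_mem' := fun c a ha v hv => by
        show dotProduct v ((Matrix.J (Fin 2) F).mulVec (c • a)) = 0
        rw [Matrix.mulVec_smul, dotProduct_smul]
        have := ha v hv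
        simp_all [B] }
  have hPinv : ∀ u ∈ P, L x u ∈ P := fun u hu v hv => by
    conv_lhs => rw [← (hW v).1 hv]
    rw [hB]; exact hu v hv
  -- a fixed vector orthogonal to all fixed vectors
  have hP2 : 2 ≤ Module.finrank F P := by
    let b := Module.finBasisOfFinrankEq F W hrank
    let g : V F →ₗ[F] (Fin 2 → F) := LinearMap.pi fun i =>
      { toFun := fun u => B (b i) u
        map_add' := fun a c => by simp [B, Matrix.mulVec_add, dotProduct_add]
        map_smul' := fun r a => by simp [B, Matrix.mulVec_smul, dotProduct_smul] }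
    have hle : LinearMap.ker g ≤ P := by
      intro u hu v hv
      have hv' : (⟨v, hv⟩ : W) = ∑ i, b.repr ⟨v, hv⟩ i • b i := (b.sum_repr _).symm
      have hcoe : v = ∑ i, b.repr ⟨v, hv⟩ i • ((b i : W) : V F) := by
        have := congrArg Subtype.val hv'
        rw [Submodule.coe_sum] at this
        simpa using this
      have hz : ∀ i, B (b i) u = 0 := fun i => congrFun (LinearMap.mem_ker.1 hu) i
      show dotProduct v _ = 0
      rw [hcoe, sum_dotProduct]
      exact Finset.sum_eq_zero fun i _ => by rw [smul_dotProduct]; simp [show dotProduct ((b i : W) : V F) ((Matrix.J (Fin 2) F).mulVec u) = 0 from hz i]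
    have h1 := LinearMap.finrank_range_add_finrank_ker g
    have h2 := Submodule.finrank_le (LinearMap.range g)
    have h3 := Submodule.finrank_mono hle
    simp only [Module.finrank_fintype_fun_eq_card, Fintype.card_sum, Fintype.card_fin] at h1 h2
    omega
  have hPW : W ≤ P := by
    have hR0 : Module.finrank F (P ⊓ W : Submodule F (V F)) ≠ 0 := by
      intro h
      have hc := hinv 3 x hx3 P hPinv
      rw [← hWdef, hdim, hdim, h] at hc
      obtain ⟨k, hk⟩ : 3 ∣ 3 ^ Module.finrank F P := dvd_pow_self 3 (by omega)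
      rw [Nat.ModEq, hk] at hc
      simp at hc
    obtain ⟨k, hk⟩ := heven (P ⊓ W) fun u hu => ⟨fun v hv => by
      have h1 : L w (L t (L w v)) = v := by
        rw [← hLm, ← hLm, htc w, mul_assoc, hw2, ht2, hL1]
      rw [← h1, hB]
      exact hu.1 _ ((hW _).2 (by rw [htneg, map_neg, (hW _).1 (hWw v hv)])), hWw u hu.2⟩
    have h1 : Module.finrank F (P ⊓ W : Submodule F (V F)) ≤ Module.finrank F W := Submodule.finrank_mono inf_le_right
    have h2 : (P ⊓ W : Submodule F (V F)) = W := Submodule.eq_of_le_of_finrank_eq inf_le_right (by omega)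
    exact h2 ▸ inf_le_left
  intro v u hv hu
  exact hPW ((hW u).2 ((hLa x u).trans hu)) v ((hW v).2 ((hLa x v).trans hv))

end Cfsg.Agent.S3213
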