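import Cfsg.Statements.S3215
import Mathlib
import Cfsg.Agent.Lib.Hall.Solvable
import Cfsg.Agent.Lib.Components.Signalizer
import Cfsg.Agent.Lib.UniqueInvolution
import Cfsg.Agent.Lib.LocalP2.UniqueOrderP

set_option autoImplicit false
open Cfsg

namespace Cfsg.Agent.S3215

set_option linter.style.haveILetI false
open Subgroup
open scoped commutatorElement

/-- An element of order prime to two lies in every normal 2-complement. -/
theorem mem_complement {C : Type*} [Group C] [Finite C] {N : Subgroup C} [N.Normal] (k : ℕ)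
    (hN : N.index = 2 ^ k) {x : C} (hx : Odd (orderOf x)) : x ∈ N := by
  rw [← QuotientGroup.eq_one_iff, ← orderOf_eq_one_iff]
  have h1 : orderOf (QuotientGroup.mk x : C ⧸ N) ∣ orderOf x := orderOf_map_dvd (QuotientGroup.mk' N) x
  have h2 : orderOf (QuotientGroup.mk x : C ⧸ N) ∣ 2 ^ k := by
    rw [← hN, index_eq_card]; exact orderOf_dvd_natCard _
  exact Nat.eq_one_of_dvd_coprimes (Nat.Coprime.pow_right k (Nat.coprime_two_right.2 hx)) h1 h2

theorem odd_orderOf {H : Type*} [Group H] {X : Subgroup H} (hX : Odd (Nat.card X)) {x : H} (hx : x ∈ X) :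
    Odd (orderOf x) := by
  have : orderOf x ∣ Nat.card X := orderOf_mk x hx ▸ orderOf_dvd_natCard _
  exact hX.of_dvd_nat this

/-- The rewriting of a centralizer hypothesis: odd order elements centralizing an involution `t`
centralize the elements of `O₂` commuting with `t`. -/
theorem commute_core {H : Type*} [Group H] [Finite H]
    (hI : ∀ t : H, orderOf t = 2 → Cfsg.HasNormalPComplement 2 ↥(centralizer ({t} : Set H)))
    {t x c : H} (ht : orderOf t = 2) (hx : Odd (orderOf x)) (hc : c ∈ Cfsg.pCore 2 H)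
    (hxt : Commute x t) (hct : Commute c t) : Commute x c := by
  haveI : Fact (Nat.Prime 2) := ⟨Nat.prime_two⟩
  set C := centralizer ({t} : Set H) with hC
  obtain ⟨P, N, hNn, hNP⟩ := (hI t ht : Cfsg.HasNormalPComplement 2 ↥C)
  haveI := hNn
  obtain ⟨k, hk⟩ := IsPGroup.iff_card.1 P.isPGroup'
  have hidx : N.index = 2 ^ k := hk ▸ hNP.symm.index_eq_card
  have hN2 : (Nat.card N).Coprime 2 := by
    rw [← hNP.index_eq_card, Nat.coprime_comm, Nat.Prime.coprime_iff_not_dvd Nat.prime_two]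
    exact P.not_dvd_index
  set X' : C := ⟨x, mem_centralizer_singleton_iff.2 hxt.eq⟩
  set C' : C := ⟨c, mem_centralizer_singleton_iff.2 hct.eq⟩
  have hX' : X' ∈ N := mem_complement k hidx (by rwa [← orderOf_coe])
  have h1 : ⁅X', C'⁆ ∈ N := by
    rw [show ⁅X', C'⁆ = X' * (C' * X'⁻¹ * C'⁻¹) by rw [commutatorElement_def]; group]
    exact mul_mem hX' (hNn.conj_mem _ (inv_mem hX') C')
  have h2 : ((⁅X', C'⁆ : C) : H) ∈ Cfsg.pCore 2 H := by
    show x * c * x⁻¹ * c⁻¹ ∈ _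
    exact mul_mem ((inferInstance : (Cfsg.pCore 2 H).Normal).conj_mem c hc x) (inv_mem hc)
  have h3 : orderOf (⁅X', C'⁆ : C) ∣ Nat.card N := orderOf_mk (⁅X', C'⁆ : C) h1 ▸ orderOf_dvd_natCard _
  obtain ⟨m, hm⟩ := IsPGroup.iff_card.1 (Lib.Hall.isPGroup_pCore (G := H) 2)
  have h4 : orderOf (⁅X', C'⁆ : C) ∣ 2 ^ m := by
    rw [← orderOf_coe, ← hm]
    exact orderOf_mk _ h2 ▸ orderOf_dvd_natCard _
  have h5 := orderOf_eq_one_iff.1 (Nat.eq_one_of_dvd_coprimes (Nat.Coprime.pow_right m hN2) h3 h4)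
  exact congrArg Subtype.val (commutatorElement_eq_one_iff_mul_comm.1 h5)

/-- Let H be a finite solvable group with no nontrivial normal subgroup of odd order in which the centralizer of every involution has a normal 2-complement. Let X be a Hall 2'-subgroup of H (odd order, index a power of 2) and Y = O₂(H). Then no non-identity element of X commutes with a non-identity element of Y (so for X ≠ 1 the group XY is a Frobenius group with kernel Y), every Sylow subgroup of X is cyclic, XY is normal in H, and H/XY is a cyclic 2-group. -/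
theorem result {H : Type*} [Group H] [Finite H] (hsol : Group.IsSolvable H)
    (hO : Cfsg.oddCore H = ⊥)
    (hI : ∀ t : H, orderOf t = 2 → Cfsg.HasNormalPComplement 2 ↥(Subgroup.centralizer ({t} : Set H)))
    (X : Subgroup H) (hXodd : Odd (Nat.card X)) (hXidx : ∃ k : ℕ, X.index = 2 ^ k) :
    (∀ x ∈ X, x ≠ 1 → ∀ y ∈ Cfsg.pCore 2 H, y ≠ 1 → x * y ≠ y * x) ∧
      (∀ (p : ℕ) [Fact p.Prime] (P : Sylow p ↥X), IsCyclic ↥(P : Subgroup ↥X)) ∧
      (X ⊔ Cfsg.pCore 2 H).Normal ∧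
      ∀ hN : (X ⊔ Cfsg.pCore 2 H).Normal, IsCyclic (H ⧸ (X ⊔ Cfsg.pCore 2 H)) ∧ IsPGroup 2 (H ⧸ (X ⊔ Cfsg.pCore 2 H)) := by
  classical
  haveI : Fact (Nat.Prime 2) := ⟨Nat.prime_two⟩
  haveI := hsol
  set Y := Cfsg.pCore 2 H
  have hY2 : IsPGroup 2 Y := Lib.Hall.isPGroup_pCore 2
  have hCY : centralizer (Y : Set H) ≤ Y := Lib.Hall.centralizer_pCore_le 2 hO
  obtain ⟨m, hm⟩ := IsPGroup.iff_card.1 hY2
  have hcop : (Nat.card X).Coprime (Nat.card Y) := by
    rw [hm]; exact Nat.Coprime.pow_right m (Nat.coprime_two_right.2 hXodd)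
  have hXY : X ⊓ Y = ⊥ := inf_eq_bot_of_coprime hcop
  have hXY1 : ∀ x ∈ X, x ∈ Y → x = 1 := fun x h1 h2 => (mem_bot).1 (hXY ▸ ⟨h1, h2⟩)
  have hinvol : ∀ u : H, u ≠ 1 → u ∈ Y → ∃ j : ℕ, orderOf (u ^ j) = 2 := fun u hu huY => by
    have h1 : orderOf u ∣ Nat.card Y := orderOf_mk u huY ▸ orderOf_dvd_natCard _
    rw [hm] at h1
    obtain ⟨i, -, hi⟩ := (Nat.dvd_prime_pow Nat.prime_two).1 h1
    refine ⟨orderOf u / 2, ?_⟩
    refine orderOf_pow_orderOf_div (orderOf_pos u).ne' ?_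
    rw [hi]
    refine dvd_pow_self 2 fun e => hu ?_
    rw [← orderOf_eq_one_iff, hi, e, pow_zero]
  -- a central involution of `Y`
  have hz : Y ≠ ⊥ → ∃ z ∈ Y, orderOf z = 2 ∧ ∀ y ∈ Y, Commute y z := fun hne => by
    haveI : Nontrivial Y := (Subgroup.nontrivial_iff_ne_bot _).2 hne
    haveI := hY2.center_nontrivial
    obtain ⟨c, hc⟩ := exists_ne (1 : center Y)
    obtain ⟨j, hj⟩ := hinvol ((c : Y) : H) (fun e => hc (Subtype.ext (Subtype.ext e))) (c : Y).2
    exact ⟨_, pow_mem (c : Y).2 j, hj, fun y hy =>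
      (show Commute y ((c : Y) : H) from congrArg Subtype.val (mem_center_iff.1 c.2 ⟨y, hy⟩)).pow_right j⟩
  have hne : ∀ x ∈ X, x ≠ 1 → Y ≠ ⊥ := fun x hx hx1 hbot => hx1 (hXY1 x hx (hCY (by
    rw [hbot, mem_centralizer_iff]
    intro y hy
    rw [SetLike.mem_coe, mem_bot] at hy
    simp [hy])))
  have hfpf : ∀ x ∈ X, x ≠ 1 → ∀ y ∈ Y, y ≠ 1 → x * y ≠ y * x := by
    intro x hx hx1 y hy hy1 hcom
    obtain ⟨j, hj⟩ := hinvol y hy1 hy
    obtain ⟨z, hzY, hz2, hzc⟩ := hz (hne x hx hx1)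
    have hxz : Commute x z := commute_core hI hj (odd_orderOf hXodd hx) hzY ((show Commute x y from hcom).pow_right j)
      (((hzc y hy).pow_left j).symm)
    refine hx1 (hXY1 x hx (hCY (mem_centralizer_iff.2 fun c hc => ?_)))
    exact (commute_core hI hz2 (odd_orderOf hXodd hx) hc hxz (hzc c hc)).symm.eq
  have hnoinv : ∀ x ∈ X, x ≠ 1 → ∀ t : H, orderOf t = 2 → ¬ Commute t x := by
    intro x hx hx1 t ht hcom
    obtain ⟨z, hzY, hz2, hzc⟩ := hz (hne x hx hx1)
    have htz : t * z * t⁻¹ ∈ Y := (inferInstance : Y.Normal).conj_mem z hzY t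
    have hz22 : z * z = 1 := by rw [← pow_two, ← hz2, pow_orderOf_eq_one]
    have htt : t * t = 1 := by rw [← pow_two, ← ht, pow_orderOf_eq_one]
    obtain ⟨c, hcY, hc1, hct⟩ : ∃ c ∈ Y, c ≠ 1 ∧ Commute c t := by
      by_cases h : t * z * t⁻¹ = z
      · exact ⟨z, hzY, fun e => by rw [e, orderOf_one] at hz2; norm_num at hz2, (mul_inv_eq_iff_eq_mul.1 h).symm⟩
      · refine ⟨z * (t * z * t⁻¹), mul_mem hzY htz, fun e => h ?_, ?_⟩
        · exact (eq_inv_of_mul_eq_one_right e).trans (eq_inv_of_mul_eq_one_right hz22).symm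
        · refine (mul_inv_eq_iff_eq_mul.1 ?_).symm
          calc t * (z * (t * z * t⁻¹)) * t⁻¹ = (t * z * t⁻¹) * ((t * t) * z * (t * t)⁻¹) := by group
            _ = z * (t * z * t⁻¹) := by rw [htt]; simpa using (hzc _ htz).eq
    exact hfpf x hx hx1 c hcY hc1 (commute_core hI ht (odd_orderOf hXodd hx) hcY hcom.symm hct).eq
  have hcyc : ∀ (p : ℕ) [Fact p.Prime] (P : Sylow p ↥X), IsCyclic ↥(P : Subgroup ↥X) := by
    intro p hp P
    by_cases hpX : p ∣ Nat.card X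
    swap
    · have : Nat.card (P : Subgroup ↥X) = 1 := by
        obtain ⟨i, hi⟩ := IsPGroup.iff_card.1 P.isPGroup'
        have h1 := card_subgroup_dvd_card (P : Subgroup ↥X)
        rw [hi] at h1 ⊢
        rcases Nat.eq_zero_or_pos i with rfl | h0
        · exact pow_zero p
        · exact absurd ((dvd_pow_self p h0.ne').trans h1) hpX
      haveI := (Nat.card_eq_one_iff_unique.1 this).1
      exact isCyclic_of_subsingleton
    have hp2 : p ≠ 2 := fun e => Nat.not_even_iff_odd.2 hXodd (even_iff_two_dvd.2 (e ▸ hpX))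
    by_cases huniq : ∀ A B : Subgroup ↥(P : Subgroup ↥X), Nat.card A = p → Nat.card B = p → A = B
    · rcases Lib.UniqueInvolution.isCyclic_or_quaternion P.isPGroup' huniq with h | ⟨h, -⟩
      · exact h
      · exact absurd h hp2
    exfalso
    obtain ⟨E, hEc, hEp, hEcard⟩ := Lib.LocalP2.exists_elem_sq_of_not_unique P.isPGroup' huniq
    let f : ↥(P : Subgroup ↥X) →* H := X.subtype.comp (P : Subgroup ↥X).subtype
    have hf : Function.Injective f := X.subtype_injective.comp (P : Subgroup ↥X).subtype_injective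
    set A := E.map f
    have hA : Cfsg.IsElementaryAbelian p A := by
      refine ⟨⟨⟨fun a b => ?_⟩⟩, ?_⟩
      · obtain ⟨_, a', ha', rfl⟩ := a
        obtain ⟨_, b', hb', rfl⟩ := b
        exact Subtype.ext (by show f a' * f b' = f b' * f a'; rw [← map_mul, ← map_mul, hEc a' ha' b' hb'])
      · rintro _ ⟨a, ha, rfl⟩
        rw [← map_pow, hEp a ha, map_one]
    have hAcard : Nat.card A = p ^ 2 := (card_map_of_injective hf).trans hEcard
    have hAX : A ≤ X := by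
      rintro _ ⟨a, -, rfl⟩
      exact ((a : ↥(P : Subgroup ↥X)) : ↥X).2
    have hcopA : (Nat.card A).Coprime (Nat.card Y) := hcop.coprime_dvd_left (card_dvd_of_le hAX)
    have hgen := Lib.Components.Sig.gen_hyperplane (p := p) hA hAcard.ge hcopA
      (by rw [normalizer_eq_top]; exact le_top)
    have hbot : Y ≤ (⊥ : Subgroup H) := hgen.trans (iSup_le fun B => fun y hy => by
      rw [mem_bot]
      by_contra hy1
      have hB : ((B : {B : Subgroup H // B ≤ A ∧ B.relIndex A ≤ p}) : Subgroup H) ≠ ⊥ := fun e => by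
        have h1 := B.2.2
        rw [e, relIndex_bot_left, hAcard, pow_two] at h1
        nlinarith [hp.out.two_le]
      obtain ⟨⟨b, hb⟩, hb1⟩ := (nontrivial_iff_exists_ne (1 : ((B : {B : Subgroup H // B ≤ A ∧ B.relIndex A ≤ p}) : Subgroup H))).1
        ((Subgroup.nontrivial_iff_ne_bot _).2 hB)
      exact hfpf b (hAX (B.2.1 hb)) (fun e => hb1 (Subtype.ext e)) y hy.1 hy1
        (mem_centralizer_iff.1 hy.2 b hb))
    obtain ⟨a, ha, ha1⟩ : ∃ a ∈ A, a ≠ 1 := by
      by_contra hh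
      push Not at hh
      have : A = ⊥ := (eq_bot_iff_forall _).2 hh
      rw [this, card_bot] at hAcard
      nlinarith [hp.out.two_le]
    exact hne a (hAX ha) ha1 (le_bot_iff.1 hbot)
  -- the quotient by `Y`
  set π := QuotientGroup.mk' Y
  have hker : ∀ h, π h = 1 ↔ h ∈ Y := fun h => QuotientGroup.eq_one_iff h
  set Xb := X.map π
  have hinjX : Function.Injective (π.comp X.subtype) := by
    refine (injective_iff_map_eq_one _).2 fun x hx => Subtype.ext ?_
    exact hXY1 x x.2 ((hker _).1 hx)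
  have hXb_odd : Odd (Nat.card Xb) := hXodd.of_dvd_nat (card_map_dvd X π)
  obtain ⟨k, hk⟩ := hXidx
  have hXb_idx : Xb.index ∣ 2 ^ k := hk ▸ index_map_dvd X (QuotientGroup.mk'_surjective Y)
  have hoddle : ∀ K : Subgroup (H ⧸ Y), K.Normal → Odd (Nat.card K) → K ≤ Xb := by
    intro K hKn hK
    haveI := hKn
    have h1 : Odd (Nat.card (Xb ⊔ K : Subgroup (H ⧸ Y))) := by
      have h := Lib.Coprime.card_sup_mul_card_inf K Xb
      exact (hXb_odd.mul hK).of_dvd_nat ⟨_, h.symm⟩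
    have h2 : Xb.relIndex (Xb ⊔ K) = 1 := by
      have ha : Xb.relIndex (Xb ⊔ K) ∣ 2 ^ k := (relIndex_dvd_index_of_le le_sup_left).trans hXb_idx
      have hb : Xb.relIndex (Xb ⊔ K) ∣ Nat.card (Xb ⊔ K : Subgroup (H ⧸ Y)) := relIndex_dvd_card _ _
      exact Nat.eq_one_of_dvd_coprimes (Nat.Coprime.pow_right k (Nat.coprime_two_right.2 h1)) hb ha
    exact le_sup_right.trans (relIndex_eq_one.1 h2)
  have hO2 : Cfsg.pCore 2 (H ⧸ Y) = ⊥ := by
    have h1 : IsPGroup 2 ((Cfsg.pCore 2 (H ⧸ Y)).comap π) :=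
      (Lib.Hall.isPGroup_pCore 2).comap_of_ker_isPGroup π (by rw [QuotientGroup.ker_mk']; exact hY2)
    rw [eq_bot_iff]
    intro q hq
    obtain ⟨h, rfl⟩ := QuotientGroup.mk'_surjective Y q
    exact (mem_bot).2 ((hker h).2 (Lib.Hall.le_pCore h1 hq))
  set F := Cfsg.fittingSubgroup (H ⧸ Y)
  have hFodd : F ≤ Cfsg.pPrimeCore 2 (H ⧸ Y) := by
    rw [show F = _ from Lib.Hall.fittingSubgroup_eq_iSup_pCore]
    refine iSup_le fun q => ?_
    by_cases hq : (q : ℕ) = 2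
    · rw [hq, hO2]; exact bot_le
    · haveI : Fact (q : ℕ).Prime := ⟨q.2⟩
      obtain ⟨i, hi⟩ := IsPGroup.iff_card.1 (Lib.Hall.isPGroup_pCore (G := H ⧸ Y) (q : ℕ))
      refine Lib.Hall.le_pPrimeCore ?_
      rw [hi]
      exact Nat.Coprime.pow_left i ((Nat.coprime_primes q.2 Nat.prime_two).2 hq)
  have hFX : F ≤ Xb := hFodd.trans (hoddle _ inferInstance
    (Nat.coprime_two_right.1 (Lib.Hall.coprime_card_pPrimeCore 2)))
  have hZX : IsZGroup ↥X := ⟨fun p hp P => @hcyc p ⟨hp⟩ P⟩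
  have hXeq : Xb = (π.comp X.subtype).range := by rw [MonoidHom.range_comp, range_subtype]
  haveI : IsZGroup ↥Xb := by
    haveI := hZX
    rw [hXeq]
    exact IsZGroup.of_surjective (MonoidHom.rangeRestrict_surjective _)
  haveI : IsZGroup ↥F := IsZGroup.of_injective (inclusion_injective hFX)
  haveI : Group.IsNilpotent ↥F := Lib.Hall.fittingSubgroup_isNilpotent
  haveI hFn : F.Normal := Lib.Hall.fittingSubgroup_normal
  obtain ⟨f0, hf0⟩ := IsCyclic.exists_generator (α := ↥F)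
  have hpowconj : ∀ g : H ⧸ Y, ∃ i : ℤ, g * (f0 : H ⧸ Y) * g⁻¹ = (f0 : H ⧸ Y) ^ i := fun g => by
    obtain ⟨i, hi⟩ := mem_zpowers_iff.1 (hf0 ⟨_, hFn.conj_mem _ f0.2 g⟩)
    exact ⟨i, (congrArg Subtype.val hi).symm⟩
  have hcomm : commutator (H ⧸ Y) ≤ F := by
    refine le_trans ?_ Lib.Hall.centralizer_fittingSubgroup_le
    rw [_root_.commutator_def, commutator_le]
    intro g _ h _
    rw [mem_centralizer_iff]
    intro f hf
    obtain ⟨i, hi⟩ := hpowconj g
    obtain ⟨j, hj⟩ := hpowconj h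
    have e1 : (g * h) * (f0 : H ⧸ Y) * (g * h)⁻¹ = (f0 : H ⧸ Y) ^ (i * j) := by
      calc (g * h) * (f0 : H ⧸ Y) * (g * h)⁻¹ = g * (h * f0 * h⁻¹) * g⁻¹ := by group
        _ = _ := by rw [hj, ← conj_zpow, hi, ← zpow_mul]
    have e2 : (h * g) * (f0 : H ⧸ Y) * (h * g)⁻¹ = (f0 : H ⧸ Y) ^ (i * j) := by
      calc (h * g) * (f0 : H ⧸ Y) * (h * g)⁻¹ = h * (g * f0 * g⁻¹) * h⁻¹ := by group
        _ = _ := by rw [hi, ← conj_zpow, hj, ← zpow_mul, mul_comm]
    have e3 : ∀ z : ℤ, (g * h) * (f0 : H ⧸ Y) ^ z * (g * h)⁻¹ = (h * g) * (f0 : H ⧸ Y) ^ z * (h * g)⁻¹ := fun z => by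
      rw [← conj_zpow, e1, ← conj_zpow, e2]
    have hf0' : Commute ⁅g, h⁆ (f0 : H ⧸ Y) := by
      obtain ⟨z, hz'⟩ := mem_zpowers_iff.1 (hf0 ⟨_, hFn.conj_mem _ f0.2 (h * g)⁻¹⟩)
      have hz'' : (f0 : H ⧸ Y) ^ z = (h * g)⁻¹ * f0 * ((h * g)⁻¹)⁻¹ := congrArg Subtype.val hz'
      have h4 := e3 z
      rw [hz''] at h4
      refine mul_inv_eq_iff_eq_mul.1 ?_
      calc ⁅g, h⁆ * (f0 : H ⧸ Y) * ⁅g, h⁆⁻¹
          = (g * h) * ((h * g)⁻¹ * f0 * ((h * g)⁻¹)⁻¹) * (g * h)⁻¹ := by rw [commutatorElement_def]; group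
        _ = (h * g) * ((h * g)⁻¹ * f0 * ((h * g)⁻¹)⁻¹) * (h * g)⁻¹ := h4
        _ = f0 := by group
    obtain ⟨i', rfl⟩ : ∃ i' : ℤ, (f0 : H ⧸ Y) ^ i' = f := by
      obtain ⟨i', hi'⟩ := mem_zpowers_iff.1 (hf0 ⟨f, hf⟩)
      exact ⟨i', congrArg Subtype.val hi'⟩
    exact (hf0'.zpow_right i').eq.symm
  have hXbn : Xb.Normal := ⟨fun x hx g => by
    have : g * x * g⁻¹ = ⁅g, x⁆ * x := by rw [commutatorElement_def]; group
    rw [this]
    exact mul_mem (hFX (hcomm (_root_.commutator_def (H ⧸ Y) ▸ commutator_mem_commutator (mem_top g) (mem_top x)))) hx⟩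
  have hcomap : X ⊔ Y = Xb.comap π := by rw [comap_map_eq, QuotientGroup.ker_mk']
  refine ⟨hfpf, hcyc, hcomap ▸ hXbn.comap π, fun hN => ?_⟩
  haveI := hN
  have hP : IsPGroup 2 (H ⧸ (X ⊔ Y)) := by
    obtain ⟨i, -, hi⟩ := (Nat.dvd_prime_pow Nat.prime_two).1 (hk ▸ index_dvd_of_le (le_sup_left : X ≤ X ⊔ Y))
    exact IsPGroup.of_card (n := i) ((index_eq_card (X ⊔ Y)).symm.trans hi)
  refine ⟨?_, hP⟩
  by_cases hFbot : F = ⊥
  · have : Subsingleton (H ⧸ Y) := by
      refine ⟨fun a b => ?_⟩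
      have hall : ∀ q : H ⧸ Y, q = 1 := fun q => by
        have h1 := Lib.Hall.centralizer_fittingSubgroup_le (G := H ⧸ Y)
          (show q ∈ centralizer (F : Set (H ⧸ Y)) by
            rw [hFbot, mem_centralizer_iff]; intro c hc; rw [SetLike.mem_coe, mem_bot] at hc; simp [hc])
        change q ∈ F at h1
        rw [hFbot, mem_bot] at h1
        exact h1
      rw [hall a, hall b]
    exact isCyclic_of_surjective (QuotientGroup.map Y (X ⊔ Y) (MonoidHom.id H) (fun y hy => mem_sup_right hy))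
      (fun q => by obtain ⟨h, rfl⟩ := QuotientGroup.mk'_surjective _ q; exact ⟨π h, rfl⟩)
  -- a subgroup of prime order of `F`
  obtain ⟨q, hq, hqd⟩ := Nat.exists_prime_and_dvd (show Nat.card F ≠ 1 from fun e => hFbot (Subgroup.card_eq_one.1 e))
  haveI : Fact q.Prime := ⟨hq⟩
  obtain ⟨a, ha⟩ := exists_prime_orderOf_dvd_card' q hqd
  obtain ⟨x, hx, hxa⟩ := hFX a.2
  have hx1 : x ≠ 1 := fun e => by
    rw [e, map_one] at hxa
    rw [← orderOf_coe, ← hxa, orderOf_one] at ha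
    exact hq.one_lt.ne ha
  set Q := zpowers (a : H ⧸ Y)
  haveI hQn : Q.Normal := ⟨fun y hy g => by
    obtain ⟨i, rfl⟩ := mem_zpowers_iff.1 hy
    obtain ⟨j, hj⟩ := mem_zpowers_iff.1 (hf0 a)
    obtain ⟨l, hl⟩ := hpowconj g
    refine mem_zpowers_iff.2 ⟨l * i, ?_⟩
    rw [← congrArg Subtype.val hj, Subgroup.coe_zpow, ← zpow_mul, ← zpow_mul, ← conj_zpow, hl, ← zpow_mul]
    congr 1; ring⟩
  set ρ : H ⧸ Y →* MulAut Q := MulAut.conjNormal
  have hQcard : Nat.card Q = q := by rw [Nat.card_zpowers, orderOf_coe, ha]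
  have hkodd : Odd (Nat.card ρ.ker) := by
    rw [← Nat.not_even_iff_odd, even_iff_two_dvd]
    intro h2
    obtain ⟨v, hv⟩ := exists_prime_orderOf_dvd_card' 2 h2
    obtain ⟨g, hg⟩ := QuotientGroup.mk'_surjective Y (v : H ⧸ Y)
    have hva : (v : H ⧸ Y) * a * (v : H ⧸ Y)⁻¹ = a := by
      have h1 := DFunLike.congr_fun (show ρ (v : H ⧸ Y) = 1 from v.2) (⟨a, mem_zpowers _⟩ : Q)
      have h3 := congrArg Subtype.val h1
      rw [MulAut.conjNormal_apply] at h3
      exact h3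
    -- all of `x Y` is conjugate to `x` under `Y`
    have hsurj : ∀ c ∈ Y, ∃ y ∈ Y, y * x * y⁻¹ = x * c := by
      let φ : Y → Y := fun y => ⟨x⁻¹ * (y * x * (y : H)⁻¹), by
        rw [← mul_assoc, ← mul_assoc]
        refine mul_mem ?_ (inv_mem y.2)
        simpa using (inferInstance : Y.Normal).conj_mem y y.2 x⁻¹⟩
      have hφ : Function.Injective φ := fun y y' e => by
        have e' : (y : H) * x * (y : H)⁻¹ = y' * x * (y' : H)⁻¹ := mul_left_cancel (congrArg Subtype.val e)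
        by_contra hne'
        refine hfpf x hx hx1 ((y' : H)⁻¹ * y) (mul_mem (inv_mem y'.2) y.2) (fun h0 => hne' (Subtype.ext (inv_mul_eq_one.1 h0).symm)) ?_
        calc x * ((y' : H)⁻¹ * y) = (y' : H)⁻¹ * (y' * x * (y' : H)⁻¹) * y := by group
          _ = (y' : H)⁻¹ * ((y : H) * x * (y : H)⁻¹) * y := by rw [e']
          _ = (y' : H)⁻¹ * y * x := by group
      intro c hc
      obtain ⟨y, hy⟩ := (Finite.injective_iff_surjective.1 hφ) ⟨c, hc⟩
      refine ⟨y, y.2, ?_⟩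
      rw [show c = x⁻¹ * ((y : H) * x * (y : H)⁻¹) from (congrArg Subtype.val hy).symm, mul_inv_cancel_left]
    have hgx : x⁻¹ * (g * x * g⁻¹) ∈ Y := by
      rw [← hker, map_mul, map_mul, map_mul, map_inv, map_inv]
      show (π x)⁻¹ * (π g * π x * (π g)⁻¹) = 1
      rw [hg, hxa]
      show ((a : H ⧸ Y))⁻¹ * _ = 1
      rw [hva, inv_mul_cancel]
    obtain ⟨y, hyY, hy⟩ := hsurj _ hgx
    rw [mul_inv_cancel_left] at hy
    set w := y⁻¹ * g
    have hwx : Commute w x := by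
      show y⁻¹ * g * x = x * (y⁻¹ * g)
      calc y⁻¹ * g * x = y⁻¹ * (g * x * g⁻¹) * g := by group
        _ = y⁻¹ * (y * x * y⁻¹) * g := by rw [hy]
        _ = x * (y⁻¹ * g) := by group
    have hwv : orderOf (π w) = 2 := by
      rw [map_mul, map_inv, (hker y).2 hyY, inv_one, one_mul, hg, orderOf_coe, hv]
    have h2w : 2 ∣ orderOf w := hwv ▸ orderOf_map_dvd π w
    exact hnoinv x hx hx1 (w ^ (orderOf w / 2)) (orderOf_pow_orderOf_div (orderOf_pos w).ne' h2w) (hwx.pow_left _)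
  have hkerX : ρ.ker ≤ Xb := hoddle _ inferInstance hkodd
  haveI : IsCyclic (MulAut Q) := by
    rw [(IsCyclic.mulAutMulEquiv Q).isCyclic, hQcard]
    infer_instance
  haveI : IsCyclic ((H ⧸ Y) ⧸ ρ.ker) := (QuotientGroup.quotientKerEquivRange ρ).isCyclic.2 inferInstance
  refine isCyclic_of_surjective (QuotientGroup.lift ρ.ker
    (QuotientGroup.map Y (X ⊔ Y) (MonoidHom.id H) (fun y hy => mem_sup_right hy)) ?_) ?_
  · intro u hu
    obtain ⟨h, rfl⟩ := QuotientGroup.mk'_surjective Y u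
    rw [MonoidHom.mem_ker]
    exact (QuotientGroup.eq_one_iff h).2 (hcomap ▸ hkerX hu : h ∈ X ⊔ Y)
  · intro u
    obtain ⟨h, rfl⟩ := QuotientGroup.mk'_surjective _ u
    exact ⟨QuotientGroup.mk (π h), rfl⟩

end Cfsg.Agent.S3215
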