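import Cfsg.Statements.S3246
import Mathlib
import Cfsg.Agent.Lib.Char2.Constrained
import Cfsg.Agent.S1327
import Cfsg.Agent.S1755
import Cfsg.Agent.S0502
import Cfsg.Agent.Lib.Coprime.Abelian

set_option autoImplicit false
open Cfsg

namespace Cfsg.Agent.S3246

open Lib in
theorem charP_of_constrained {H : Type*} [Group H] [Finite H] (h1 : Cfsg.IsPConstrained 2 H)
    (h2 : Cfsg.oddCore H = ⊥) : Char2.CharP 2 H := by
  haveI : Fact (Nat.Prime 2) := ⟨Nat.prime_two⟩
  have h := Char2.charP_quotient_iff.1 ((S1327.result 2).1 h1)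
  exact Char2.charP_of_equiv ((QuotientGroup.quotientMulEquivOfEq (show Cfsg.pPrimeCore 2 H = ⊥ from h2)).trans
    QuotientGroup.quotientBot) h

theorem isPConstrained_of_charP {H : Type*} [Group H] [Finite H] (h : Lib.Char2.CharP 2 H) :
    Cfsg.IsPConstrained 2 H := by
  haveI : Fact (Nat.Prime 2) := ⟨Nat.prime_two⟩
  rw [S1327.result, Lib.Char2.charP_quotient_iff]
  exact Lib.Char2.charP_of_equiv ((QuotientGroup.quotientMulEquivOfEq h.2).trans QuotientGroup.quotientBot).symm h

/-- An odd subgroup normalized by a Sylow subgroup meets the centralizer of an element trivially,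
if this centralizer has characteristic 2 and contains a subgroup of index at most 2 of the Sylow subgroup. -/
theorem inf_centralizer_eq_bot {G : Type*} [Group G] [Finite G] (S : Sylow 2 G) (X : Subgroup G)
    (hX : Odd (Nat.card ↥X)) (hSX : (S : Subgroup G) ≤ Subgroup.normalizer (X : Set G)) (C : Subgroup G)
    (hC : Lib.Char2.CharP 2 ↥C)
    (hcard : Nat.card ↥(S : Subgroup G) ≤ 2 * Nat.card ↥((S : Subgroup G) ⊓ C)) :
    X ⊓ C = ⊥ := by
  haveI : Fact (Nat.Prime 2) := ⟨Nat.prime_two⟩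
  set Q := (Cfsg.pCore 2 ↥C).map C.subtype with hQdef
  have hQC : Q ≤ C := Subgroup.map_subtype_le _
  have hQ2 : IsPGroup 2 ↥Q := (Lib.Components.pCore_isPGroup 2).map _
  have hCQ : C ≤ Subgroup.normalizer (Q : Set G) := by
    have := Subgroup.le_normalizer_map (H := Cfsg.pCore 2 ↥C) C.subtype
    rwa [Subgroup.normalizer_eq_top, ← MonoidHom.range_eq_map, Subgroup.range_subtype] at this
  set S1 := (S : Subgroup G) ⊓ C with hS1
  have hS1Q : S1 ≤ Subgroup.normalizer (Q : Set G) := inf_le_right.trans hCQ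
  have hsup : IsPGroup 2 ↥(S1 ⊔ Q) := (S.2.to_le inf_le_left).to_sup_of_normal_right' hQ2 hS1Q
  have hsupcard : Nat.card ↥(S1 ⊔ Q) ≤ Nat.card ↥(S : Subgroup G) := by
    obtain ⟨T, hT⟩ := hsup.exists_le_sylow
    exact (Subgroup.card_le_of_le hT).trans (Nat.card_congr (T.equiv S).toEquiv).le
  have hR : Nat.card ↥Q ≤ 2 * Nat.card ↥(S1 ⊓ Q) := by
    have h := Lib.Coprime.card_sup_mul_card_inf_of_le_normalizer hS1Q
    have h1 : 0 < Nat.card ↥S1 := Nat.card_pos
    nlinarith
  rw [eq_bot_iff]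
  rintro d ⟨hdX, hdC⟩
  have hdo : Odd (orderOf d) := Odd.of_dvd_nat hX (X.orderOf_dvd_natCard hdX)
  have hfix : ∀ r ∈ S1 ⊓ Q, Commute d r := by
    rintro r ⟨⟨hrS, hrC⟩, hrQ⟩
    have h1 : d * r * d⁻¹ * r⁻¹ ∈ X ⊓ Q := by
      refine ⟨?_, Q.mul_mem ((Subgroup.mem_normalizer_iff.1 (hCQ hdC) r).1 hrQ) (Q.inv_mem hrQ)⟩
      have h := X.mul_mem hdX ((Subgroup.mem_normalizer_iff.1 (hSX hrS) d⁻¹).1 (X.inv_mem hdX))
      simpa [mul_assoc] using h
    have hco : X ⊓ Q = ⊥ := by
      refine Subgroup.inf_eq_bot_of_coprime ?_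
      obtain ⟨k, hk⟩ := hQ2.exists_card_eq
      rw [hk]
      exact Nat.Coprime.pow_right k (Nat.coprime_two_right.2 hX)
    rw [hco, Subgroup.mem_bot, mul_inv_eq_one] at h1
    show d * r = r * d
    conv_rhs => rw [← h1]
    group
  have hcomm : ∀ y ∈ Q, Commute d y := by
    intro y hy
    by_cases hyR : y ∈ S1 ⊓ Q
    · exact hfix y hyR
    have hidx : ((S1 ⊓ Q).subgroupOf Q).index = 2 := by
      have hc := ((S1 ⊓ Q).subgroupOf Q).card_mul_index
      rw [Nat.card_congr (Subgroup.subgroupOfEquivOfLe (inf_le_right : S1 ⊓ Q ≤ Q)).toEquiv] at hc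
      have hne : ((S1 ⊓ Q).subgroupOf Q).index ≠ 1 := fun h =>
        hyR ((Subgroup.subgroupOf_eq_top.1 (Subgroup.index_eq_one.1 h)) hy)
      have h0 : ((S1 ⊓ Q).subgroupOf Q).index ≠ 0 := Subgroup.index_ne_zero_of_finite
      have hp : 0 < Nat.card ↥(S1 ⊓ Q) := Nat.card_pos
      have hle : ((S1 ⊓ Q).subgroupOf Q).index ≤ 2 := by nlinarith
      omega
    have hy' : d * y * d⁻¹ ∈ Q := (Subgroup.mem_normalizer_iff.1 (hCQ hdC) y).1 hy
    have hy'R : d * y * d⁻¹ ∉ S1 ⊓ Q := by
      intro h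
      apply hyR
      have hh := hfix _ h
      have : d * y * d⁻¹ = y := by
        have := congrArg (fun v => d⁻¹ * v) hh.eq
        simpa [mul_assoc] using this
      exact this ▸ h
    have hr : (⟨y, hy⟩ : ↥Q)⁻¹ * ⟨d * y * d⁻¹, hy'⟩ ∈ (S1 ⊓ Q).subgroupOf Q :=
      (Subgroup.mul_mem_iff_of_index_two hidx).2 (iff_of_false (fun h => hyR (inv_mem_iff.1 h)) hy'R)
    have hrfix := hfix _ hr
    set r : G := y⁻¹ * (d * y * d⁻¹) with hrdef
    have hiter : ∀ k : ℕ, d ^ k * y * (d ^ k)⁻¹ = y * r ^ k := by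
      intro k
      induction k with
      | zero => simp
      | succ k ih =>
        have e : d ^ (k + 1) * y * (d ^ (k + 1))⁻¹ = d * (d ^ k * y * (d ^ k)⁻¹) * d⁻¹ := by
          rw [pow_succ']; group
        rw [e, ih]
        have hc : Commute d (r ^ k) := (show Commute d r from hrfix).pow_right k
        calc d * (y * r ^ k) * d⁻¹ = d * y * (r ^ k * d⁻¹) := by group
          _ = d * y * (d⁻¹ * r ^ k) := by rw [hc.inv_left.eq]
          _ = y * r * r ^ k := by rw [hrdef]; group
          _ = _ := by rw [pow_succ' r k]; group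
    have h1 := hiter (orderOf d)
    rw [pow_orderOf_eq_one, one_mul, inv_one, mul_one, left_eq_mul] at h1
    obtain ⟨k, hk⟩ := hQ2 ⟨r, hr.2⟩
    have hk' : r ^ 2 ^ k = 1 := congrArg Subtype.val hk
    have h2 : r = 1 := orderOf_eq_one_iff.1 (Nat.eq_one_of_dvd_coprimes
      (Nat.Coprime.pow_right k (Nat.coprime_two_right.2 hdo)) (orderOf_dvd_of_pow_eq_one h1)
      (orderOf_dvd_of_pow_eq_one hk'))
    rw [hrdef, inv_mul_eq_one] at h2
    show d * y = y * d
    conv_rhs => rw [h2]
    group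
  have hdQ : (⟨d, hdC⟩ : ↥C) ∈ Cfsg.pCore 2 ↥C := by
    refine Lib.Char2.charP_iff.1 hC ?_
    rw [Subgroup.mem_centralizer_iff]
    intro w hw
    exact Subtype.ext (hcomm (w : G) ⟨w, hw, rfl⟩).eq.symm
  obtain ⟨k, hk⟩ := hQ2 ⟨d, ⟨_, hdQ, rfl⟩⟩
  rw [Subgroup.mem_bot]
  exact orderOf_eq_one_iff.1 (Nat.eq_one_of_dvd_coprimes
    (Nat.Coprime.pow_right k (Nat.coprime_two_right.2 hdo)) dvd_rfl
    (orderOf_dvd_of_pow_eq_one (congrArg Subtype.val hk)))

/-- Let G be a finite group whose Sylow 2-subgroup S has a self-centralizing normal subgroup of rank at least 3. Suppose that either every maximal 2-local subgroup of G is 2-constrained with no nontrivial normal subgroup of odd order, or the centralizer of every involution of G is 2-constrained with no nontrivial normal subgroup of odd order. Then S normalizes no nontrivial subgroup of G of odd order and every 2-local subgroup of G is 2-constrained. -/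
theorem result {G : Type*} [Group G] [Finite G]
    (S : Sylow 2 G) (A : Subgroup G) (hA : Cfsg.IsSCN (S : Subgroup G) A) (hA3 : ¬ Cfsg.PRankLE 2 2 ↥A)
    (h : (∀ M : Subgroup G, Cfsg.IsMaximalTwoLocal M → Cfsg.IsPConstrained 2 ↥M ∧ Cfsg.oddCore ↥M = ⊥) ∨
      (∀ t : G, orderOf t = 2 → Cfsg.IsPConstrained 2 ↥(Subgroup.centralizer ({t} : Set G)) ∧
        Cfsg.oddCore ↥(Subgroup.centralizer ({t} : Set G)) = ⊥)) :
    (∀ X : Subgroup G, Odd (Nat.card ↥X) → (S : Subgroup G) ≤ Subgroup.normalizer (X : Set G) → X = ⊥) ∧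
      (∀ T : Subgroup G, IsPGroup 2 ↥T → T ≠ ⊥ → Cfsg.IsPConstrained 2 ↥(Subgroup.normalizer (T : Set G))) := by
  haveI : Fact (Nat.Prime 2) := ⟨Nat.prime_two⟩
  have hlocal : ∀ T : Subgroup G, IsPGroup 2 ↥T → T ≠ ⊥ →
      Lib.Char2.CharP 2 ↥(Subgroup.normalizer (T : Set G)) := by
    intro T hT hT1
    rcases h with hmax | hcen
    · obtain ⟨M, hle, hM⟩ := Finite.exists_le_maximal (p := fun M : Subgroup G => Cfsg.IsTwoLocal M)
        (a := Subgroup.normalizer (T : Set G)) ⟨T, hT, hT1, rfl⟩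
      have hc := hmax M ⟨hM.1, fun N hN hMN => le_antisymm (hM.2 hN hMN) hMN⟩
      have hMc : Lib.Char2.CharP 2 ↥M := charP_of_constrained hc.1 hc.2
      obtain ⟨V, hV, hV1, rfl⟩ := hM.1
      have hTV : T ≤ Subgroup.normalizer (V : Set G) := Subgroup.le_normalizer.trans hle
      have hV' : Lib.Char2.CharP 2 ↥(Subgroup.normalizer ((T ⊔ V : Subgroup G) : Set G)) :=
        Lib.Char2.charP_normalizer_of_le (hT.to_sup_of_normal_right' hV hTV) le_sup_right hMc
      set M := Subgroup.normalizer (V : Set G)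
      have e : Subgroup.normalizer ((T.subgroupOf M : Subgroup ↥M) : Set ↥M) =
          (Subgroup.normalizer (T : Set G)).subgroupOf M := by
        ext g
        rw [Subgroup.mem_subgroupOf, Subgroup.mem_normalizer_iff, Subgroup.mem_normalizer_iff]
        constructor
        · intro hg x
          constructor
          · intro hx
            exact (hg ⟨x, hTV hx⟩).1 hx
          · intro hx
            have hxM : x ∈ M := by
              have := M.mul_mem (M.mul_mem (M.inv_mem g.2) (hTV hx)) g.2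
              simpa [mul_assoc] using this
            exact (hg ⟨x, hxM⟩).2 hx
        · intro hg x
          exact hg x
      have hn := Lib.Components.charp_normalizer (P := T.subgroupOf M) (Lib.Char2.charP_iff.1 hMc) hT.comap_subtype
      rw [← Lib.Char2.charP_iff] at hn
      exact Lib.Char2.charP_of_equiv ((MulEquiv.subgroupCongr e).trans (Subgroup.subgroupOfEquivOfLe hle)) hn
    · exact Lib.Char2.charP_two_local (fun t ht => charP_of_constrained (hcen t ht).1 (hcen t ht).2) hT hT1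
  refine ⟨fun X hX hSX => ?_, fun T hT hT1 => isPConstrained_of_charP (hlocal T hT hT1)⟩
  set P : Subgroup G := (S : Subgroup G) with hP
  obtain ⟨hAP, hPA, hAC⟩ := hA
  have hAc : ∀ u ∈ A, ∀ v ∈ A, u * v = v * u := fun u hu v hv =>
    (Subgroup.mem_centralizer_iff.1 (hAC.symm ▸ hv : v ∈ P ⊓ Subgroup.centralizer (A : Set G)).2 u hu)
  let W : Subgroup G :=
    { carrier := {a | a ∈ A ∧ a ^ 2 = 1}
      one_mem' := ⟨one_mem _, one_pow 2⟩
      mul_mem' := fun {a b} ha hb => ⟨mul_mem ha.1 hb.1, by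
        rw [Commute.mul_pow (hAc a ha.1 b hb.1), ha.2, hb.2, one_mul]⟩
      inv_mem' := fun {a} ha => ⟨inv_mem ha.1, by rw [inv_pow, ha.2, inv_one]⟩ }
  have hWP : W ≤ P := fun a ha => hAP ha.1
  have hW8 : 4 < Nat.card ↥W := by
    unfold Cfsg.PRankLE at hA3
    push Not at hA3
    obtain ⟨B, -, hB2, hcard⟩ := hA3
    refine lt_of_lt_of_le hcard ?_
    rw [← Subgroup.card_map_of_injective A.subtype_injective]
    refine Subgroup.card_le_of_le ?_
    rintro _ ⟨b, hb, rfl⟩
    exact ⟨b.2, by rw [← map_pow, hB2 b hb, map_one]⟩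
  set W' := W.subgroupOf P with hW'
  haveI : W'.Normal := by
    refine Subgroup.normal_subgroupOf_of_le_normalizer fun s hs => ?_
    rw [Subgroup.mem_normalizer_iff]
    intro a
    have hn := Subgroup.mem_normalizer_iff.1 (hPA hs) a
    show a ∈ A ∧ a ^ 2 = 1 ↔ s * a * s⁻¹ ∈ A ∧ (s * a * s⁻¹) ^ 2 = 1
    rw [conj_pow, conj_eq_one_iff, hn]
  have hW'card : Nat.card ↥W' = Nat.card ↥W := Nat.card_congr (Subgroup.subgroupOfEquivOfLe hWP).toEquiv
  have hW'1 : W' ≠ ⊥ := by
    intro h
    rw [h, Subgroup.card_bot] at hW'card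
    omega
  obtain ⟨z, hzW, hzZ, hz⟩ := S1755.exists_central_involution S.2 W' hW'1
  haveI hzn : (Subgroup.zpowers z).Normal := ⟨fun v hv g => by
    have hvc : v ∈ Subgroup.center ↥P := (Subgroup.zpowers_le.2 hzZ) hv
    rwa [Subgroup.mem_center_iff.1 hvc g, mul_inv_cancel_right]⟩
  set π := QuotientGroup.mk' (Subgroup.zpowers z) with hπ
  haveI : (W'.map π).Normal := (inferInstance : W'.Normal).map _ (QuotientGroup.mk'_surjective _)
  have hWbar : W'.map π ≠ ⊥ := by
    rw [Ne, Subgroup.map_eq_bot_iff, QuotientGroup.ker_mk']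
    intro h
    have := Subgroup.card_le_of_le h
    rw [Nat.card_zpowers, hz] at this
    omega
  obtain ⟨wb, hwb, hwbZ, hwbo⟩ := S1755.exists_central_involution (S.2.to_quotient _) (W'.map π) hWbar
  obtain ⟨w, hwW, rfl⟩ := hwb
  have hw1 : w ∉ Subgroup.zpowers z := fun h => by
    rw [show π w = 1 from (QuotientGroup.eq_one_iff w).2 h, orderOf_one] at hwbo
    omega
  -- the four-group
  have hzz : (z : G) * z = 1 := by rw [← sq]; exact (hzW : (z : G) ∈ W).2
  have hww : (w : G) * w = 1 := by rw [← sq]; exact (hwW : (w : G) ∈ W).2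
  have hzw : (z : G) * w = w * z := hAc _ (hzW : (z : G) ∈ W).1 _ (hwW : (w : G) ∈ W).1
  have hz1 : (z : G) ≠ 1 := by
    intro h
    rw [← Subgroup.orderOf_coe, h, orderOf_one] at hz
    omega
  have hw1' : (w : G) ≠ 1 := fun h => hw1 (by rw [show w = 1 from Subtype.ext h]; exact one_mem _)
  have hwz : (w : G) ≠ z := fun h => hw1 (by rw [Subtype.ext h]; exact Subgroup.mem_zpowers z)
  let E := S0502.fourGroup (z : G) (w : G) hzz hww hzw
  have hE4 : Nat.card ↥E = 2 ^ 2 := (S0502.fourGroup_isKleinFour _ _ hzz hww hzw hz1 hw1' hwz).card_four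
  have hEW : E ≤ W := by
    rintro e (rfl | rfl | rfl | rfl)
    · exact one_mem _
    · exact hzW
    · exact hwW
    · exact mul_mem (hzW : (z : G) ∈ W) hwW
  have hEA : ∀ e ∈ E, e ∈ A := fun e he => (hEW he).1
  have hEc : ∀ u ∈ E, ∀ v ∈ E, u * v = v * u := fun u hu v hv => hAc u (hEA u hu) v (hEA v hv)
  have hE2 : ∀ e ∈ E, e ^ 2 = 1 := fun e he => (hEW he).2
  have hcop : (Nat.card ↥E).Coprime (Nat.card ↥X) := by
    rw [hE4]; exact Nat.Coprime.pow_left 2 (Nat.coprime_two_left.2 hX)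
  have hgen := Lib.Coprime.fixGen_eq_of_elementary (K := X) Nat.prime_two hEc hE2 hE4
    (fun e he => hSX (hWP (hEW he))) hcop
  rw [← hgen, Lib.Coprime.fixGen, eq_bot_iff]
  refine iSup₂_le fun e he => ?_
  obtain ⟨heE, he1⟩ := he
  have heo : orderOf e = 2 := orderOf_eq_prime (hE2 e heE) he1
  have hC : Lib.Char2.CharP 2 ↥(Subgroup.centralizer ({e} : Set G)) := by
    rw [← Lib.Char2.normalizer_zpowers_involution heo]
    exact hlocal _ (IsPGroup.of_card (n := 1) (by rw [Nat.card_zpowers, heo, pow_one]))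
      (Subgroup.zpowers_ne_bot.2 he1)
  refine le_of_eq (inf_centralizer_eq_bot S X hX hSX _ hC ?_)
  -- the orbit of `e` under `S` has at most two members
  have horb : ∀ s : ↥P, (s : G) * e * (s : G)⁻¹ = e ∨ (s : G) * e * (s : G)⁻¹ = z * e := by
    intro s
    have hzs : (s : G) * z * (s : G)⁻¹ = z := by
      rw [show (s : G) * z = z * s from congrArg Subtype.val (Subgroup.mem_center_iff.1 hzZ s), mul_inv_cancel_right]
    have hws : (s : G) * w * (s : G)⁻¹ = w ∨ (s : G) * w * (s : G)⁻¹ = z * w := by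
      have h1 : π (s * w * s⁻¹) = π w := by
        rw [map_mul, map_mul, map_inv, Subgroup.mem_center_iff.1 hwbZ (π s), mul_inv_cancel_right]
      have h2 : s * w * s⁻¹ * w⁻¹ ∈ Subgroup.zpowers z := by
        rw [← QuotientGroup.eq_one_iff]
        show π (s * w * s⁻¹ * w⁻¹) = 1
        rw [map_mul, h1, map_inv, mul_inv_cancel]
      classical
      rw [mem_zpowers_iff_mem_range_orderOf, hz] at h2
      obtain ⟨i, hi, hie⟩ := Finset.mem_image.1 h2
      rw [Finset.mem_range] at hi
      have hv := congrArg (fun v : ↥P => (v : G) * (w : G)) hie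
      simp only [Subgroup.coe_mul, InvMemClass.coe_inv, inv_mul_cancel_right] at hv
      interval_cases i
      · left; simpa using hv.symm
      · right; simpa using hv.symm
    rcases heE with rfl | rfl | rfl | rfl
    · exact absurd rfl he1
    · exact Or.inl hzs
    · exact hws
    · have hsplit : (s : G) * ((z : G) * w) * (s : G)⁻¹ = ((s : G) * z * (s : G)⁻¹) * ((s : G) * w * (s : G)⁻¹) := by group
      rw [hsplit, hzs]
      rcases hws with h | h
      · exact Or.inl (by rw [h])
      · exact Or.inr (by rw [h])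
  let C' : Subgroup ↥P := (Subgroup.centralizer ({e} : Set G)).subgroupOf P
  have hidx : C'.index ≤ 2 := by
    let f : ↥P ⧸ C' → G := Quotient.lift (fun s : ↥P => (s : G) * e * (s : G)⁻¹) (fun u v huv => by
      rw [← Quotient.eq_iff_equiv] at huv
      have h := QuotientGroup.eq.1 huv
      have h' : ((u : G)⁻¹ * v) * e = e * ((u : G)⁻¹ * v) := Subgroup.mem_centralizer_singleton_iff.1 h
      calc (u : G) * e * (u : G)⁻¹ = (u : G) * (e * ((u : G)⁻¹ * v)) * (v : G)⁻¹ := by group
        _ = (u : G) * (((u : G)⁻¹ * v) * e) * (v : G)⁻¹ := by rw [h']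
        _ = _ := by group)
    have hf : Function.Injective f := by
      intro a b
      induction a using QuotientGroup.induction_on with
      | _ u =>
        induction b using QuotientGroup.induction_on with
        | _ v =>
          intro hfe
          have hfe' : (u : G) * e * (u : G)⁻¹ = (v : G) * e * (v : G)⁻¹ := hfe
          rw [QuotientGroup.eq]
          show (u : G)⁻¹ * (v : G) ∈ Subgroup.centralizer ({e} : Set G)
          rw [Subgroup.mem_centralizer_singleton_iff]
          calc (u : G)⁻¹ * v * e = (u : G)⁻¹ * ((v : G) * e * (v : G)⁻¹) * v := by group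
            _ = (u : G)⁻¹ * ((u : G) * e * (u : G)⁻¹) * v := by rw [hfe']
            _ = _ := by group
    have hrange : Set.range f ⊆ {e, (z : G) * e} := by
      rintro _ ⟨q, rfl⟩
      induction q using QuotientGroup.induction_on with
      | _ u => exact horb u
    rw [Subgroup.index, ← Nat.card_range_of_injective hf, Nat.card_coe_set_eq]
    exact (Set.ncard_le_ncard hrange).trans ((Set.ncard_insert_le _ _).trans (by simp))
  have hcm := C'.card_mul_index
  have hcC : Nat.card ↥C' = Nat.card ↥(P ⊓ Subgroup.centralizer ({e} : Set G)) := by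
    rw [inf_comm, ← Nat.card_congr (Subgroup.subgroupOfEquivOfLe (inf_le_right : Subgroup.centralizer ({e} : Set G) ⊓ P ≤ P)).toEquiv,
      Subgroup.inf_subgroupOf_right]
  rw [hcC] at hcm
  rw [← hcm, mul_comm 2]
  exact Nat.mul_le_mul_left _ hidx

end Cfsg.Agent.S3246
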