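import Cfsg.Statements.S3247
import Mathlib
import Cfsg.Agent.Lib.Char2.Constrained
import Cfsg.Agent.S1327

set_option autoImplicit false
open Cfsg

namespace Cfsg.Agent.S3247

/-- Let G be a finite group and p a prime; here a p-local subgroup means the normalizer of a nontrivial p-subgroup, other than G itself. If every p-local subgroup of G that is maximal among p-local subgroups is p-constrained, or if the centralizer of every element of order p of G is p-constrained, then every p-local subgroup of G is p-constrained. -/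
theorem result {G : Type*} [Group G] [Finite G] (p : ℕ) [hp : Fact p.Prime]
    (h : (∀ M : Subgroup G, (∃ T : Subgroup G, IsPGroup p ↥T ∧ T ≠ ⊥ ∧ M = Subgroup.normalizer (T : Set G)) → M ≠ ⊤ →
        (∀ M' : Subgroup G, (∃ T' : Subgroup G, IsPGroup p ↥T' ∧ T' ≠ ⊥ ∧ M' = Subgroup.normalizer (T' : Set G)) → M' ≠ ⊤ → M ≤ M' → M = M') →
        Cfsg.IsPConstrained p ↥M) ∨
      (∀ x : G, orderOf x = p → Cfsg.IsPConstrained p ↥(Subgroup.centralizer ({x} : Set G))))
    (T : Subgroup G) (hT : IsPGroup p ↥T) (hT1 : T ≠ ⊥) (hTG : Subgroup.normalizer (T : Set G) ≠ ⊤) :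
    Cfsg.IsPConstrained p ↥(Subgroup.normalizer (T : Set G)) := by
  rw [S1327.result]
  rcases h with hmax | hcen
  · classical
    let P : Subgroup G → Prop := fun M =>
      (∃ T : Subgroup G, IsPGroup p ↥T ∧ T ≠ ⊥ ∧ M = Subgroup.normalizer (T : Set G)) ∧ M ≠ ⊤
    obtain ⟨M, hle, hM⟩ := Finite.exists_le_maximal (p := P) (a := Subgroup.normalizer (T : Set G))
      ⟨⟨T, hT, hT1, rfl⟩, hTG⟩
    have hc := hmax M hM.1.1 hM.1.2 (fun M' h1 h2 h3 => le_antisymm h3 (hM.2 ⟨h1, h2⟩ h3))
    exact Lib.Char2.pLayer_eq_bot_normalizer_of_le hT hle ((S1327.result p).1 hc)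
  · haveI : Nontrivial ↥T := (Subgroup.nontrivial_iff_ne_bot T).2 hT1
    haveI := hT.center_nontrivial
    obtain ⟨n, hn0, hn⟩ := (hT.to_subgroup (Subgroup.center ↥T)).nontrivial_iff_card.1 inferInstance
    obtain ⟨x, hx⟩ := exists_prime_orderOf_dvd_card' p
      (show p ∣ Nat.card ↥(Subgroup.center ↥T) by rw [hn]; exact dvd_pow_self p hn0.ne')
    set x0 : G := ((x : ↥T) : G) with hx0
    have ho : orderOf x0 = p := by rw [hx0, Subgroup.orderOf_coe, Subgroup.orderOf_coe, hx]
    refine Lib.Char2.pLayer_eq_bot_normalizer_of_centralizer (X := Subgroup.centralizer ({x0} : Set G)) hT ?_ ?_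
      ((S1327.result p).1 (hcen x0 ho))
    · exact fun t ht => Subgroup.mem_centralizer_singleton_iff.2
        (congrArg Subtype.val (Subgroup.mem_center_iff.1 x.2 ⟨t, ht⟩))
    · exact Subgroup.centralizer_le (by simp [hx0])

end Cfsg.Agent.S3247
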