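import Cfsg.Statements.S3265

set_option autoImplicit false
open Cfsg

namespace Cfsg.Agent.S3265

open Equiv Equiv.Perm

variable {α : Type*} [Fintype α] [DecidableEq α]

/-- some odd power fixes the point -/
def OddPer (f : Perm α) (p : α) : Prop := ∃ m : ℕ, Odd m ∧ (f ^ m) p = p

theorem OddPer.of_pow {f : Perm α} {p : α} {k : ℕ} (h : OddPer f ((f ^ k) p)) : OddPer f p := by
  obtain ⟨m, hm, e⟩ := h
  refine ⟨m, hm, (f ^ k).injective ?_⟩
  rw [← Perm.mul_apply, pow_mul_comm, Perm.mul_apply, e]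

theorem OddPer.pow {f : Perm α} {p : α} (h : OddPer f p) (k : ℕ) : OddPer f ((f ^ k) p) := by
  obtain ⟨m, hm, e⟩ := h
  exact ⟨m, hm, by rw [← Perm.mul_apply, pow_mul_comm, Perm.mul_apply, e]⟩

theorem OddPer.of_fix {f : Perm α} {p : α} (h : f p = p) : OddPer f p := ⟨1, odd_one, by simpa using h⟩

theorem odd_orderOf_of_oddPer {f : Perm α} (h : ∀ p, OddPer f p) : Odd (orderOf f) := by
  choose m hm e using h
  have hodd : Odd (∏ p, m p) := by
    refine Finset.prod_induction m Odd (fun a b ha hb => ha.mul hb) odd_one fun p _ => hm p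
  refine Odd.of_dvd_nat hodd (orderOf_dvd_of_pow_eq_one (Perm.ext fun p => ?_))
  obtain ⟨c, hc⟩ := Finset.dvd_prod_of_mem m (Finset.mem_univ p)
  rw [hc, pow_mul, Perm.one_apply]
  exact Perm.pow_apply_eq_self_of_apply_eq_self (e p) c

/-- three cycle -/
def cyc3 (a b c : α) : Perm α := swap a b * swap b c

/-- five cycle -/
def cyc5 (a b c d e : α) : Perm α := swap a b * swap b c * swap c d * swap d e

theorem cyc3_apply {a b c : α} (hab : a ≠ b) (hac : a ≠ c) (hbc : b ≠ c) :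
    cyc3 a b c a = b ∧ cyc3 a b c b = c ∧ cyc3 a b c c = a ∧
      ∀ p, p ≠ a → p ≠ b → p ≠ c → cyc3 a b c p = p := by
  refine ⟨?_, ?_, ?_, fun p h1 h2 h3 => ?_⟩ <;> simp only [cyc3, Perm.mul_apply]
  · rw [swap_apply_of_ne_of_ne hab hac, swap_apply_left]
  · rw [swap_apply_left, swap_apply_of_ne_of_ne hac.symm hbc.symm]
  · rw [swap_apply_right, swap_apply_right]
  · rw [swap_apply_of_ne_of_ne h2 h3, swap_apply_of_ne_of_ne h1 h2]

theorem cyc5_apply {a b c d e : α} (h : [a, b, c, d, e].Nodup) :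
    cyc5 a b c d e a = b ∧ cyc5 a b c d e b = c ∧ cyc5 a b c d e c = d ∧ cyc5 a b c d e d = e ∧
      cyc5 a b c d e e = a ∧ ∀ p, p ∉ [a, b, c, d, e] → cyc5 a b c d e p = p := by
  simp only [List.nodup_cons, List.mem_cons, List.not_mem_nil, or_false, not_or, List.nodup_nil,
    not_false_eq_true, and_true] at h
  obtain ⟨⟨ab, ac, ad, ae⟩, ⟨bc, bd, be⟩, ⟨cd, ce⟩, de⟩ := h
  refine ⟨?_, ?_, ?_, ?_, ?_, fun p hp => ?_⟩ <;> simp only [cyc5, Perm.mul_apply]
  · simp [swap_apply_def, ab, ac, ad, ae]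
  · simp [swap_apply_def, (Ne.symm ab), bc, bd, be, (Ne.symm bc), (Ne.symm ac)]
  · simp [swap_apply_def, (Ne.symm ac), (Ne.symm bc), cd, ce, (Ne.symm cd), (Ne.symm bd), (Ne.symm ad)]
  · simp [swap_apply_def, (Ne.symm ad), (Ne.symm bd), (Ne.symm cd), de, (Ne.symm de), (Ne.symm ce), (Ne.symm be), (Ne.symm ae)]
  · simp [swap_apply_def]
  · simp only [List.mem_cons, List.not_mem_nil, or_false, not_or] at hp
    obtain ⟨pa, pb, pc, pd, pe⟩ := hp
    simp [swap_apply_def, pa, pb, pc, pd, pe]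

/-- a pair of involutions -/
structure Ctx (α : Type*) where
  x : Perm α
  y : Perm α
  hx : x * x = 1
  hy : y * y = 1

variable (C : Ctx α)

/-- the product -/
def Ctx.g : Perm α := C.x * C.y

/-- points of the cycle -/
def Ctx.gp (i : ℤ) (p : α) : α := (C.g ^ i) p

theorem Ctx.y_y (p : α) : C.y (C.y p) = p := by rw [← Perm.mul_apply, C.hy, Perm.one_apply]

theorem Ctx.x_x (p : α) : C.x (C.x p) = p := by rw [← Perm.mul_apply, C.hx, Perm.one_apply]

theorem Ctx.gp_zero (p : α) : C.gp 0 p = p := by simp [Ctx.gp]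

theorem Ctx.gp_add (i j : ℤ) (p : α) : C.gp i (C.gp j p) = C.gp (i + j) p := by
  simp [Ctx.gp, zpow_add, Perm.mul_apply]

theorem Ctx.gp_one (p : α) : C.gp 1 p = C.g p := by simp [Ctx.gp]

theorem Ctx.gp_nat (s : ℕ) (p : α) : (C.g ^ s) p = C.gp s p := by simp [Ctx.gp]

theorem Ctx.gp_inj (i : ℤ) {p q : α} (h : C.gp i p = C.gp i q) : p = q := (C.g ^ i).injective h

theorem Ctx.x_eq (p : α) : C.x p = C.g (C.y p) := by simp [Ctx.g, C.y_y]

theorem Ctx.y_gp (i : ℤ) (p : α) : C.y (C.gp i p) = C.gp (-i) (C.y p) := by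
  have hinv : C.g⁻¹ = C.y * C.x := by
    rw [inv_eq_of_mul_eq_one_right]
    rw [Ctx.g, ← mul_assoc, mul_assoc C.x C.y C.y, C.hy, mul_one, C.hx]
  have hs : SemiconjBy C.y C.g C.g⁻¹ := by
    rw [SemiconjBy, hinv]; simp [Ctx.g, mul_assoc]
  have h := hs.zpow_right i
  rw [_root_.inv_zpow'] at h
  exact congrArg (fun f : Perm α => f p) h.eq

/-- period -/
noncomputable def Ctx.per (p : α) : ℕ := MulAction.period C.g p

theorem Ctx.per_pos (p : α) : 0 < C.per p :=
  MulAction.period_pos_of_orderOf_pos (orderOf_pos C.g) p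

theorem Ctx.gp_self_iff (i : ℤ) (p : α) : C.gp i p = p ↔ (C.per p : ℤ) ∣ i := by
  show (C.g ^ i) • p = p ↔ _
  exact MulAction.zpow_smul_eq_iff_period_dvd

theorem Ctx.gp_eq_iff (i j : ℤ) (p : α) : C.gp i p = C.gp j p ↔ (C.per p : ℤ) ∣ i - j := by
  rw [← C.gp_self_iff]
  constructor
  · intro h
    apply C.gp_inj j
    rw [C.gp_add, add_sub_cancel, h]
  · intro h
    conv_rhs => rw [← h, C.gp_add, add_sub_cancel]

theorem Ctx.gp_per (p : α) : C.gp (C.per p) p = p := (C.gp_self_iff _ p).2 dvd_rfl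

theorem Ctx.gp_ne {i j : ℤ} {p : α} (h : 0 < i - j) (h' : i - j < C.per p) : C.gp i p ≠ C.gp j p := by
  rw [Ne, C.gp_eq_iff]
  intro hd
  have := Int.le_of_dvd h hd
  omega

theorem Ctx.per_eq_of {p q : α} (h : ∀ i, C.gp i q = q ↔ C.gp i p = p) : C.per q = C.per p := by
  refine Nat.dvd_antisymm (Int.natCast_dvd_natCast.1 ((C.gp_self_iff _ q).1 ((h _).2 (C.gp_per p))))
    (Int.natCast_dvd_natCast.1 ((C.gp_self_iff _ p).1 ((h _).1 (C.gp_per q))))

theorem Ctx.per_gp (j : ℤ) (p : α) : C.per (C.gp j p) = C.per p :=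
  C.per_eq_of fun i => by
    rw [C.gp_add, add_comm, ← C.gp_add]
    exact ⟨fun h => C.gp_inj j h, fun h => by rw [h]⟩

theorem Ctx.per_y (p : α) : C.per (C.y p) = C.per p :=
  C.per_eq_of fun i => by
    constructor <;> intro h
    · have := congrArg C.y h
      rw [C.y_gp, C.y_y] at this
      rw [C.gp_self_iff] at this ⊢
      simpa using this
    · have h' : C.gp (-i) p = p := by rw [C.gp_self_iff] at h ⊢; simpa using h
      have := congrArg C.y h'
      rwa [C.y_gp, neg_neg] at this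

/-- same cycle -/
def Ctx.Cyc (p q : α) : Prop := ∃ i : ℤ, C.gp i p = q

theorem Ctx.ne_of_not_cyc {p q : α} (h : ¬ C.Cyc p q) (i j : ℤ) : C.gp i p ≠ C.gp j q := fun e =>
  h ⟨-j + i, by rw [← C.gp_add, e, C.gp_add, neg_add_cancel, C.gp_zero]⟩

/-- `p` and its mirror lie on different cycles -/
def Ctx.Pair (p : α) : Prop := ¬ C.Cyc p (C.y p)

open Classical in
/-- orbit of the dihedral group -/
noncomputable def Ctx.orb (p : α) : Finset α :=
  Finset.univ.filter fun q => C.Cyc p q ∨ C.Cyc (C.y p) q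

theorem Ctx.mem_orb {p q : α} : q ∈ C.orb p ↔ C.Cyc p q ∨ C.Cyc (C.y p) q := by
  simp [Ctx.orb]

theorem Ctx.self_mem_orb (p : α) : p ∈ C.orb p := C.mem_orb.2 (Or.inl ⟨0, C.gp_zero p⟩)

/-- invariant set -/
def Ctx.Inv (S : Finset α) : Prop := ∀ p ∈ S, (∀ i, C.gp i p ∈ S) ∧ C.y p ∈ S

theorem Ctx.inv_of (S : Finset α) (hg : ∀ p ∈ S, C.g p ∈ S) (hy : ∀ p ∈ S, C.y p ∈ S) : C.Inv S := by
  intro p hp
  refine ⟨fun i => ?_, hy p hp⟩
  have hnat : ∀ (s : ℕ) (p : α), p ∈ S → C.gp s p ∈ S := by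
    intro s
    induction s with
    | zero => intro p hp; simpa [C.gp_zero] using hp
    | succ s ih =>
      intro p hp
      rw [Nat.cast_succ, ← C.gp_add, C.gp_one]
      exact ih _ (hg p hp)
  rcases Int.eq_nat_or_neg i with ⟨s, rfl | rfl⟩
  · exact hnat s p hp
  · have := hy _ (hnat s _ (hy p hp))
    rwa [C.y_gp, C.y_y] at this

theorem Ctx.orb_inv (p : α) : C.Inv (C.orb p) := by
  intro q hq
  rcases C.mem_orb.1 hq with ⟨j, rfl⟩ | ⟨j, rfl⟩
  · exact ⟨fun i => C.mem_orb.2 (Or.inl ⟨i + j, (C.gp_add i j p).symm⟩),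
      C.mem_orb.2 (Or.inr ⟨-j, (C.y_gp j p).symm⟩)⟩
  · exact ⟨fun i => C.mem_orb.2 (Or.inr ⟨i + j, (C.gp_add i j _).symm⟩),
      C.mem_orb.2 (Or.inl ⟨-j, by rw [C.y_gp, C.y_y]⟩)⟩

theorem Ctx.orb_subset {S : Finset α} (hS : C.Inv S) {p : α} (hp : p ∈ S) : C.orb p ⊆ S := by
  intro q hq
  rcases C.mem_orb.1 hq with ⟨j, rfl⟩ | ⟨j, rfl⟩
  · exact (hS p hp).1 j
  · exact (hS _ (hS p hp).2).1 j

theorem Ctx.inv_sdiff {S T : Finset α} (hS : C.Inv S) (hT : C.Inv T) : C.Inv (S \ T) := by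
  intro p hp
  rw [Finset.mem_sdiff] at hp
  refine ⟨fun i => Finset.mem_sdiff.2 ⟨(hS p hp.1).1 i, fun h => hp.2 ?_⟩,
    Finset.mem_sdiff.2 ⟨(hS p hp.1).2, fun h => hp.2 ?_⟩⟩
  · have := (hT _ h).1 (-i)
    rwa [C.gp_add, neg_add_cancel, C.gp_zero] at this
  · have := (hT _ h).2
    rwa [C.y_y] at this

theorem Ctx.inv_union {S T : Finset α} (hS : C.Inv S) (hT : C.Inv T) : C.Inv (S ∪ T) := by
  intro p hp
  rcases Finset.mem_union.1 hp with h | h
  · exact ⟨fun i => Finset.mem_union_left _ ((hS p h).1 i), Finset.mem_union_left _ (hS p h).2⟩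
  · exact ⟨fun i => Finset.mem_union_right _ ((hT p h).1 i), Finset.mem_union_right _ (hT p h).2⟩

/-- a repair on `S` -/
def Ctx.Sol (S : Finset α) (w : Perm α) : Prop :=
  (∀ p ∉ S, w p = p) ∧ (∀ p, w (C.y (w p)) = C.y p) ∧ ∀ p ∈ S, OddPer w p ∧ OddPer (C.g * w) p

/-- solvable set -/
def Ctx.Ok (S : Finset α) : Prop := ∃ w, C.Sol S w

theorem mem_of_supported {S : Finset α} {w : Perm α} (h : ∀ p ∉ S, w p = p) {p : α} (hp : p ∈ S) : w p ∈ S := by
  by_contra h'
  exact h' (by rwa [w.injective (h _ h')])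

theorem pow_agree {S : Finset α} {f f' : Perm α} (hf : ∀ p ∈ S, f p = f' p) (hS : ∀ p ∈ S, f p ∈ S) :
    ∀ (m : ℕ) (p : α), p ∈ S → (f ^ m) p = (f' ^ m) p := by
  intro m
  induction m with
  | zero => intro p _; rfl
  | succ m ih =>
    intro p hp
    rw [pow_succ, pow_succ, Perm.mul_apply, Perm.mul_apply, ih _ (hS p hp), hf p hp]

theorem Ctx.Ok.union {S T : Finset α} (hS : C.Inv S) (hT : C.Inv T) (hd : Disjoint S T) (h₁ : C.Ok S)
    (h₂ : C.Ok T) : C.Ok (S ∪ T) := by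
  obtain ⟨w₁, a1, b1, c1⟩ := h₁
  obtain ⟨w₂, a2, b2, c2⟩ := h₂
  have e1 : ∀ p ∈ S, (w₁ * w₂) p = w₁ p := fun p hp => by
    rw [Perm.mul_apply, a2 p (Finset.disjoint_left.1 hd hp)]
  have e2 : ∀ p, p ∉ S → (w₁ * w₂) p = w₂ p := fun p hp => by
    rw [Perm.mul_apply]
    by_cases hT' : p ∈ T
    · exact a1 _ fun h => Finset.disjoint_left.1 hd h (mem_of_supported a2 hT')
    · rw [a2 p hT', a1 p hp]
  have key : ∀ (U : Finset α) (v : Perm α), C.Inv U → (∀ p ∉ U, v p = p) → (∀ p ∈ U, (w₁ * w₂) p = v p) →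
      ∀ p ∈ U, OddPer v p → OddPer (C.g * v) p → OddPer (w₁ * w₂) p ∧ OddPer (C.g * (w₁ * w₂)) p := by
    intro U v hU hv he p hp h1 h2
    obtain ⟨m, hm, e⟩ := h1
    obtain ⟨k, hk, e'⟩ := h2
    refine ⟨⟨m, hm, ?_⟩, k, hk, ?_⟩
    · rw [pow_agree (S := U) (f' := v) he (fun q hq => (he q hq).symm ▸ mem_of_supported hv hq) m p hp, e]
    · rw [pow_agree (S := U) (f' := C.g * v) (fun q hq => by rw [Perm.mul_apply, he q hq]; rfl)
        (fun q hq => by
          rw [Perm.mul_apply, he q hq, ← C.gp_one]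
          exact (hU _ (mem_of_supported hv hq)).1 1) k p hp, e']
  refine ⟨w₁ * w₂, fun p hp => ?_, fun p => ?_, fun p hp => ?_⟩
  · rw [Finset.mem_union, not_or] at hp
    rw [e2 p hp.1, a2 p hp.2]
  · by_cases hp : p ∈ S
    · rw [e1 p hp, e1 _ (hS _ (mem_of_supported a1 hp)).2]
      exact b1 p
    · rw [e2 p hp]
      have : C.y (w₂ p) ∉ S := by
        intro h
        have h' := (hS _ h).2
        rw [C.y_y] at h'
        by_cases hpT : p ∈ T
        · exact Finset.disjoint_left.1 hd h' (mem_of_supported a2 hpT)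
        · exact hp (by rwa [a2 p hpT] at h')
      rw [e2 _ this]
      exact b2 p
  · rcases Finset.mem_union.1 hp with h | h
    · exact key S w₁ hS a1 e1 p h (c1 p h).1 (c1 p h).2
    · exact key T w₂ hT a2 (fun q hq => e2 q fun h' => Finset.disjoint_left.1 hd h' hq) p h (c2 p h).1 (c2 p h).2

theorem Ctx.Ok.trivial {S : Finset α} (h : ∀ p ∈ S, Odd (C.per p)) : C.Ok S :=
  ⟨1, fun p _ => rfl, fun p => rfl, fun p hp => ⟨OddPer.of_fix rfl, C.per p, h p hp, by
    rw [mul_one, C.gp_nat, C.gp_per]⟩⟩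

theorem Ctx.hop {w : Perm α} {p q r : α} {l : ℕ} (hl : 1 ≤ l) (hwp : w p = q)
    (hfix : ∀ s : ℕ, 0 < s → s < l → w (C.gp s q) = C.gp s q) (hr : C.gp l q = r) :
    ((C.g * w) ^ l) p = r := by
  have key : ∀ s : ℕ, s < l → ((C.g * w) ^ (s + 1)) p = C.gp ((s + 1 : ℕ) : ℤ) q := by
    intro s
    induction s with
    | zero => intro _; simp [Perm.mul_apply, hwp, C.gp_one]
    | succ s ih =>
      intro hs
      rw [pow_succ', Perm.mul_apply, ih (by omega), Perm.mul_apply, hfix _ (by omega) hs, ← C.gp_one, C.gp_add,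
        add_comm, Nat.cast_succ (s + 1)]
  obtain ⟨s, rfl⟩ : ∃ s, l = s + 1 := ⟨l - 1, by omega⟩
  rw [key s (by omega), hr]

theorem oddPer_hops {f : Perm α} {p q : α} {a b : ℕ} (h₁ : (f ^ a) p = q) (h₂ : (f ^ b) q = p) (h : Odd (b + a)) :
    OddPer f p ∧ OddPer f q := by
  have hp : OddPer f p := ⟨b + a, h, by rw [pow_add, Perm.mul_apply, h₁, h₂]⟩
  exact ⟨hp, h₁ ▸ hp.pow a⟩

/-- build a repair from the moved points -/
theorem Ctx.Sol.mk' {S : Finset α} {w : Perm α} (M : Finset α) (hMS : M ⊆ S)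
    (hw : ∀ p ∉ M, w p = p) (hyM : ∀ p ∈ M, C.y p ∈ M) (hinv : ∀ p ∈ M, w (C.y (w p)) = C.y p)
    (hreach : ∀ p ∈ S, ∃ r ∈ M, C.Cyc r p)
    (hwM : ∀ p ∈ M, OddPer w p) (hgM : ∀ p ∈ M, OddPer (C.g * w) p) : C.Ok S := by
  refine ⟨w, fun p hp => hw p fun h => hp (hMS h), fun p => ?_, fun p hp => ⟨?_, ?_⟩⟩
  · by_cases hpM : p ∈ M
    · exact hinv p hpM
    · rw [hw p hpM, hw]
      intro h
      exact hpM (by simpa [C.y_y] using hyM _ h)
  · by_cases hpM : p ∈ M
    · exact hwM p hpM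
    · exact OddPer.of_fix (hw p hpM)
  · classical
    obtain ⟨r, hr, i, rfl⟩ := hreach p hp
    have hex : ∃ s : ℕ, C.gp s (C.gp i r) ∈ M := by
      refine ⟨((-i) % (C.per r : ℤ)).toNat, ?_⟩
      rw [Int.toNat_of_nonneg (Int.emod_nonneg _ (by have := C.per_pos r; omega)), C.gp_add]
      have : C.gp (-i % (C.per r : ℤ) + i) r = r := by
        rw [C.gp_self_iff]
        refine ⟨-((-i) / (C.per r : ℤ)), ?_⟩
        linear_combination Int.emod_add_mul_ediv (-i) (C.per r : ℤ)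
      rw [this]; exact hr
    have hfirst : ∀ s : ℕ, s ≤ Nat.find hex → ((C.g * w) ^ s) (C.gp i r) = C.gp s (C.gp i r) := by
      intro s
      induction s with
      | zero => intro _; simp [C.gp_zero]
      | succ s ih =>
        intro hs
        rw [pow_succ', Perm.mul_apply, ih (by omega), Perm.mul_apply, hw _ (Nat.find_min hex (by omega)), ← C.gp_one,
          C.gp_add, Nat.cast_succ, add_comm (1 : ℤ)]
    refine OddPer.of_pow (k := Nat.find hex) ?_
    rw [hfirst _ le_rfl]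
    exact hgM _ (Nat.find_spec hex)

theorem Ctx.reach_orb {M : Finset α} {a p : α} (ha : a ∈ M) (hya : C.y a ∈ M) (hp : p ∈ C.orb a) :
    ∃ r ∈ M, C.Cyc r p := by
  rcases C.mem_orb.1 hp with h | h
  exacts [⟨a, ha, h⟩, ⟨C.y a, hya, h⟩]

theorem Ctx.cyc_sep {a b : α} (h : ¬ C.Cyc a b) (h' : ¬ C.Cyc (C.y a) b) :
    (∀ i j, C.gp i a ≠ C.gp j b) ∧ (∀ i j, C.gp i (C.y a) ≠ C.gp j (C.y b)) ∧
      (∀ i j, C.gp i a ≠ C.gp j (C.y b)) ∧ (∀ i j, C.gp i (C.y a) ≠ C.gp j b) := by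
  refine ⟨C.ne_of_not_cyc h, fun i j e => ?_, fun i j e => ?_, C.ne_of_not_cyc h'⟩
  · have e' := congrArg C.y e
    rw [C.y_gp, C.y_gp, C.y_y, C.y_y] at e'
    exact C.ne_of_not_cyc h _ _ e'
  · have e' := congrArg C.y e
    rw [C.y_gp, C.y_gp, C.y_y] at e'
    exact C.ne_of_not_cyc h' _ _ e'

theorem Ctx.not_cyc_of_orb {a b : α} (h : b ∉ C.orb a) : ¬ C.Cyc a b ∧ ¬ C.Cyc (C.y a) b := by
  rw [C.mem_orb, not_or] at h; exact h

theorem Ctx.orb_disjoint {a b : α} (h : b ∉ C.orb a) : Disjoint (C.orb a) (C.orb b) := by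
  rw [Finset.disjoint_left]
  intro p hpa hpb
  refine h ?_
  have hsub := C.orb_subset (C.orb_inv a) hpa
  refine hsub ?_
  rcases C.mem_orb.1 hpb with ⟨j, rfl⟩ | ⟨j, rfl⟩
  · have := ((C.orb_inv _) _ (C.self_mem_orb (C.gp j b))).1 (-j)
    rwa [C.gp_add, neg_add_cancel, C.gp_zero] at this
  · have h1 := ((C.orb_inv _) _ (C.self_mem_orb (C.gp j (C.y b)))).1 (-j)
    rw [C.gp_add, neg_add_cancel, C.gp_zero] at h1
    have h2 := ((C.orb_inv _) _ h1).2
    rwa [C.y_y] at h2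

/-- a single pair of long cycles -/
theorem Ctx.ok_long (a : α) (hP : C.Pair a) (hev : Even (C.per a)) (h4 : 4 ≤ C.per a) : C.Ok (C.orb a) := by
  set k := C.per a with hk
  have hk' : C.per (C.y a) = k := C.per_y a
  have sep : ∀ i j, C.gp i a ≠ C.gp j (C.y a) := C.ne_of_not_cyc hP
  set u0 := C.gp 0 a with hu0
  set u1 := C.gp 1 a with hu1
  set u2 := C.gp 2 a with hu2
  set v0 := C.gp 0 (C.y a) with hv0
  set v1 := C.gp (-1) (C.y a) with hv1
  set v2 := C.gp (-2) (C.y a) with hv2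
  have U : ∀ i j : ℤ, 0 < i - j → i - j < k → C.gp i a ≠ C.gp j a := fun i j h h' => C.gp_ne h h'
  have V : ∀ i j : ℤ, 0 < i - j → i - j < k → C.gp i (C.y a) ≠ C.gp j (C.y a) := fun i j h h' =>
    C.gp_ne h (by rw [hk']; exact h')
  obtain ⟨A0, A1, A2, A3⟩ := cyc3_apply (a := u0) (b := v1) (c := v2) (sep _ _) (sep _ _) (V _ _ (by omega) (by omega))
  obtain ⟨B0, B1, B2, B3⟩ := cyc3_apply (a := v0) (b := u2) (c := u1) (sep _ _).symm (sep _ _).symm
    (U _ _ (by omega) (by omega))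
  set w := cyc3 u0 v1 v2 * cyc3 v0 u2 u1 with hw
  have wu0 : w u0 = v1 := by
    rw [hw, Perm.mul_apply, B3 _ (sep _ _) (U _ _ (by omega) (by omega)).symm (U _ _ (by omega) (by omega)).symm, A0]
  have wv1 : w v1 = v2 := by
    rw [hw, Perm.mul_apply, B3 _ (V _ _ (by omega) (by omega)).symm (sep _ _).symm (sep _ _).symm, A1]
  have wv2 : w v2 = u0 := by
    rw [hw, Perm.mul_apply, B3 _ (V _ _ (by omega) (by omega)).symm (sep _ _).symm (sep _ _).symm, A2]
  have wv0 : w v0 = u2 := by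
    rw [hw, Perm.mul_apply, B0, A3 _ (U _ _ (by omega) (by omega)) (sep _ _) (sep _ _)]
  have wu2 : w u2 = u1 := by
    rw [hw, Perm.mul_apply, B1, A3 _ (U _ _ (by omega) (by omega)) (sep _ _) (sep _ _)]
  have wu1 : w u1 = v0 := by
    rw [hw, Perm.mul_apply, B2, A3 _ (sep _ _).symm (V _ _ (by omega) (by omega)) (V _ _ (by omega) (by omega))]
  let M : Finset α := {u0, v1, v2, v0, u2, u1}
  have wfix : ∀ p ∉ M, w p = p := by
    intro p hp
    simp only [M, Finset.mem_insert, Finset.mem_singleton, not_or] at hp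
    obtain ⟨h1, h2, h3, h4, h5, h6⟩ := hp
    rw [hw, Perm.mul_apply, B3 _ h4 h5 h6, A3 _ h1 h2 h3]
  have yu0 : C.y u0 = v0 := by rw [hu0, hv0, C.y_gp, neg_zero]
  have yu1 : C.y u1 = v1 := by rw [hu1, hv1, C.y_gp]
  have yu2 : C.y u2 = v2 := by rw [hu2, hv2, C.y_gp]
  have yv0 : C.y v0 = u0 := by rw [← yu0, C.y_y]
  have yv1 : C.y v1 = u1 := by rw [← yu1, C.y_y]
  have yv2 : C.y v2 = u2 := by rw [← yu2, C.y_y]
  refine Ctx.Sol.mk' C M ?_ wfix ?_ ?_ ?_ ?_ ?_ (w := w)
  · intro p hp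
    simp only [M, Finset.mem_insert, Finset.mem_singleton] at hp
    rcases hp with h | h | h | h | h | h <;> rw [h] <;>
      first
        | exact C.mem_orb.2 (Or.inl ⟨_, rfl⟩)
        | exact C.mem_orb.2 (Or.inr ⟨_, rfl⟩)
  · intro p hp
    simp only [M, Finset.mem_insert, Finset.mem_singleton] at hp ⊢
    rcases hp with h | h | h | h | h | h <;> rw [h] <;> simp [yu0, yu1, yu2, yv0, yv1, yv2]
  · intro p hp
    simp only [M, Finset.mem_insert, Finset.mem_singleton] at hp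
    rcases hp with h | h | h | h | h | h <;> rw [h] <;>
      simp [wu0, wu1, wu2, wv0, wv1, wv2, yu0, yu1, yu2, yv0, yv1, yv2]
  · intro p hp
    refine C.reach_orb (a := a) ?_ ?_ hp <;> simp [M, hu0, hv0, C.gp_zero]
  · intro p hp
    refine ⟨3, ⟨1, rfl⟩, ?_⟩
    simp only [M, Finset.mem_insert, Finset.mem_singleton] at hp
    rcases hp with h | h | h | h | h | h <;> rw [h] <;>
      simp [pow_succ, Perm.mul_apply, wu0, wu1, wu2, wv0, wv1, wv2]
  · obtain ⟨t, ht⟩ := hev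
    have h₁ : ((C.g * w) ^ 1) u0 = v0 := C.hop le_rfl wu0 (fun s h h' => absurd h' (by omega)) (by
      rw [hv1, C.gp_add]; rfl)
    have h₂ : ((C.g * w) ^ (k - 2)) v0 = u0 := C.hop (by omega) wv0 (fun s h h' => wfix _ (by
        rw [hu2, C.gp_add]
        simp only [M, Finset.mem_insert, Finset.mem_singleton, not_or]
        exact ⟨U _ _ (by omega) (by omega), sep _ _, sep _ _, sep _ _, U _ _ (by omega) (by omega),
          U _ _ (by omega) (by omega)⟩)) (by
      rw [hu2, C.gp_add, hu0, C.gp_zero, C.gp_self_iff]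
      exact ⟨1, by omega⟩)
    have h₃ : ((C.g * w) ^ 1) v2 = u1 := C.hop le_rfl wv2 (fun s h h' => absurd h' (by omega)) (by
      rw [hu0, C.gp_add]; rfl)
    have h₄ : ((C.g * w) ^ (k - 2)) u1 = v2 := C.hop (by omega) wu1 (fun s h h' => wfix _ (by
        rw [hv0, C.gp_add]
        simp only [M, Finset.mem_insert, Finset.mem_singleton, not_or]
        exact ⟨(sep _ _).symm, V _ _ (by omega) (by omega), V _ _ (by omega) (by omega), V _ _ (by omega) (by omega),
          (sep _ _).symm, (sep _ _).symm⟩)) (by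
      rw [hv0, C.gp_add, hv2, C.gp_eq_iff, hk']
      exact ⟨1, by omega⟩)
    have h₅ : ((C.g * w) ^ 1) v1 = v1 := C.hop le_rfl wv1 (fun s h h' => absurd h' (by omega)) (by
      rw [hv2, C.gp_add]; rfl)
    have h₆ : ((C.g * w) ^ 1) u2 = u2 := C.hop le_rfl wu2 (fun s h h' => absurd h' (by omega)) (by
      rw [hu1, C.gp_add]; rfl)
    have hodd : Odd (k - 2 + 1) := ⟨t - 1, by omega⟩
    intro p hp
    simp only [M, Finset.mem_insert, Finset.mem_singleton] at hp
    rcases hp with h | h | h | h | h | h <;> rw [h]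
    exacts [(oddPer_hops h₁ h₂ hodd).1, ⟨1, odd_one, h₅⟩, (oddPer_hops h₃ h₄ hodd).1,
      (oddPer_hops h₁ h₂ hodd).2, ⟨1, odd_one, h₆⟩, (oddPer_hops h₃ h₄ hodd).2]


theorem Ctx.sep_pair {a b : α} (hab : b ∉ C.orb a) :
    (∀ i j, C.gp i a ≠ C.gp j b) ∧ (∀ i j, C.gp i (C.y a) ≠ C.gp j (C.y b)) ∧
      (∀ i j, C.gp i a ≠ C.gp j (C.y b)) ∧ (∀ i j, C.gp i (C.y a) ≠ C.gp j b) :=
  C.cyc_sep (C.not_cyc_of_orb hab).1 (C.not_cyc_of_orb hab).2

theorem Ctx.not_self_of_pair {a p : α} (hP : C.Pair a) (hp : p ∈ C.orb a) : C.y p ≠ p ∧ C.x p ≠ p := by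
  have hsep := C.ne_of_not_cyc hP
  rcases C.mem_orb.1 hp with ⟨i, rfl⟩ | ⟨i, rfl⟩
  · refine ⟨?_, ?_⟩
    · rw [C.y_gp]; exact (hsep _ _).symm
    · rw [C.x_eq, C.y_gp, ← C.gp_one, C.gp_add]; exact (hsep _ _).symm
  · refine ⟨?_, ?_⟩
    · rw [C.y_gp, C.y_y]; exact hsep _ _
    · rw [C.x_eq, C.y_gp, C.y_y, ← C.gp_one, C.gp_add]; exact hsep _ _

/-- two pairs of even period -/
theorem Ctx.ok_two {a b : α} (ha : C.Pair a) (hb : C.Pair b) (hab : b ∉ C.orb a) (hea : Even (C.per a))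
    (heb : Even (C.per b)) : C.Ok (C.orb a ∪ C.orb b) := by
  obtain ⟨S1, S2, S3, S4⟩ := C.sep_pair hab
  have sa := C.ne_of_not_cyc ha
  have sb := C.ne_of_not_cyc hb
  set k := C.per a with hk
  set l := C.per b with hl
  have hk' : C.per (C.y a) = k := C.per_y a
  have hl' : C.per (C.y b) = l := C.per_y b
  obtain ⟨s, hs⟩ := hea
  obtain ⟨t, ht⟩ := heb
  have kpos := C.per_pos a
  have lpos := C.per_pos b
  have A : ∀ i j : ℤ, 0 < i - j → i - j < k → C.gp i a ≠ C.gp j a := fun i j h h' => C.gp_ne h h'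
  have A' : ∀ i j : ℤ, 0 < i - j → i - j < k → C.gp i (C.y a) ≠ C.gp j (C.y a) := fun i j h h' =>
    C.gp_ne h (by rw [hk']; exact h')
  have B : ∀ i j : ℤ, 0 < i - j → i - j < l → C.gp i b ≠ C.gp j b := fun i j h h' => C.gp_ne h h'
  have B' : ∀ i j : ℤ, 0 < i - j → i - j < l → C.gp i (C.y b) ≠ C.gp j (C.y b) := fun i j h h' =>
    C.gp_ne h (by rw [hl']; exact h')
  set a0 := C.gp 0 a with ha0
  set a1 := C.gp 1 a with ha1
  set b0 := C.gp 0 b with hb0
  set c0 := C.gp 0 (C.y a) with hc0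
  set c1 := C.gp (-1) (C.y a) with hc1
  set d0 := C.gp 0 (C.y b) with hd0
  obtain ⟨A0, A1, A2, A3⟩ := cyc3_apply (a := a0) (b := a1) (c := b0) (A _ _ (by omega) (by omega)).symm (S1 _ _) (S1 _ _)
  obtain ⟨B0, B1, B2, B3⟩ := cyc3_apply (a := c0) (b := d0) (c := c1) (S2 _ _) (A' _ _ (by omega) (by omega))
    (S2 _ _).symm
  set w := cyc3 a0 a1 b0 * cyc3 c0 d0 c1 with hw
  have wa0 : w a0 = a1 := by rw [hw, Perm.mul_apply, B3 _ (sa _ _) (S3 _ _) (sa _ _), A0]
  have wa1 : w a1 = b0 := by rw [hw, Perm.mul_apply, B3 _ (sa _ _) (S3 _ _) (sa _ _), A1]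
  have wb0 : w b0 = a0 := by rw [hw, Perm.mul_apply, B3 _ (S4 _ _).symm (sb _ _) (S4 _ _).symm, A2]
  have wc0 : w c0 = d0 := by rw [hw, Perm.mul_apply, B0, A3 _ (S3 _ _).symm (S3 _ _).symm (sb _ _).symm]
  have wd0 : w d0 = c1 := by rw [hw, Perm.mul_apply, B1, A3 _ (sa _ _).symm (sa _ _).symm (S4 _ _)]
  have wc1 : w c1 = c0 := by rw [hw, Perm.mul_apply, B2, A3 _ (sa _ _).symm (sa _ _).symm (S4 _ _)]
  let M : Finset α := {a0, a1, b0, c0, d0, c1}
  have wfix : ∀ p ∉ M, w p = p := by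
    intro p hp
    simp only [M, Finset.mem_insert, Finset.mem_singleton, not_or] at hp
    obtain ⟨h1, h2, h3, h4, h5, h6⟩ := hp
    rw [hw, Perm.mul_apply, B3 _ h4 h5 h6, A3 _ h1 h2 h3]
  have ya0 : C.y a0 = c0 := by rw [ha0, hc0, C.y_gp, neg_zero]
  have ya1 : C.y a1 = c1 := by rw [ha1, hc1, C.y_gp]
  have yb0 : C.y b0 = d0 := by rw [hb0, hd0, C.y_gp, neg_zero]
  have yc0 : C.y c0 = a0 := by rw [← ya0, C.y_y]
  have yc1 : C.y c1 = a1 := by rw [← ya1, C.y_y]
  have yd0 : C.y d0 = b0 := by rw [← yb0, C.y_y]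
  refine Ctx.Sol.mk' C M ?_ wfix ?_ ?_ ?_ ?_ ?_ (w := w)
  · intro p hp
    simp only [M, Finset.mem_insert, Finset.mem_singleton] at hp
    rw [Finset.mem_union]
    rcases hp with h | h | h | h | h | h <;> rw [h] <;>
      first
        | exact Or.inl (C.mem_orb.2 (Or.inl ⟨_, rfl⟩))
        | exact Or.inl (C.mem_orb.2 (Or.inr ⟨_, rfl⟩))
        | exact Or.inr (C.mem_orb.2 (Or.inl ⟨_, rfl⟩))
        | exact Or.inr (C.mem_orb.2 (Or.inr ⟨_, rfl⟩))
  · intro p hp
    simp only [M, Finset.mem_insert, Finset.mem_singleton] at hp ⊢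
    rcases hp with h | h | h | h | h | h <;> rw [h] <;> simp [ya0, ya1, yb0, yc0, yc1, yd0]
  · intro p hp
    simp only [M, Finset.mem_insert, Finset.mem_singleton] at hp
    rcases hp with h | h | h | h | h | h <;> rw [h] <;>
      simp [wa0, wa1, wb0, wc0, wd0, wc1, ya0, ya1, yb0, yc0, yc1, yd0]
  · intro p hp
    rcases Finset.mem_union.1 hp with hp | hp
    · refine C.reach_orb (a := a) ?_ ?_ hp <;> simp [M, ha0, hc0, C.gp_zero]
    · refine C.reach_orb (a := b) ?_ ?_ hp <;> simp [M, hb0, hd0, C.gp_zero]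
  · intro p hp
    refine ⟨3, ⟨1, rfl⟩, ?_⟩
    simp only [M, Finset.mem_insert, Finset.mem_singleton] at hp
    rcases hp with h | h | h | h | h | h <;> rw [h] <;>
      simp [pow_succ, Perm.mul_apply, wa0, wa1, wb0, wc0, wd0, wc1]
  · have h₀ : ((C.g * w) ^ (k - 1)) a0 = a0 := C.hop (by omega) wa0 (fun i h h' => wfix _ (by
        rw [ha1, C.gp_add]
        simp only [M, Finset.mem_insert, Finset.mem_singleton, not_or]
        exact ⟨A _ _ (by omega) (by omega), A _ _ (by omega) (by omega), S1 _ _, sa _ _, S3 _ _, sa _ _⟩)) (by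
      rw [ha1, C.gp_add, ha0, C.gp_zero, C.gp_self_iff]
      exact ⟨1, by omega⟩)
    have h₁ : ((C.g * w) ^ l) a1 = b0 := C.hop (by omega) wa1 (fun i h h' => wfix _ (by
        rw [hb0, C.gp_add]
        simp only [M, Finset.mem_insert, Finset.mem_singleton, not_or]
        exact ⟨(S1 _ _).symm, (S1 _ _).symm, B _ _ (by omega) (by omega), (S4 _ _).symm, sb _ _, (S4 _ _).symm⟩)) (by
      rw [hb0, C.gp_add, add_zero, hl, C.gp_per, C.gp_zero])
    have h₂ : ((C.g * w) ^ 1) b0 = a1 := C.hop le_rfl wb0 (fun i h h' => absurd h' (by omega)) (by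
      rw [ha0, C.gp_add]; rfl)
    have h₃ : ((C.g * w) ^ l) c0 = d0 := C.hop (by omega) wc0 (fun i h h' => wfix _ (by
        rw [hd0, C.gp_add]
        simp only [M, Finset.mem_insert, Finset.mem_singleton, not_or]
        exact ⟨(S3 _ _).symm, (S3 _ _).symm, (sb _ _).symm, (S2 _ _).symm, B' _ _ (by omega) (by omega),
          (S2 _ _).symm⟩)) (by
      rw [hd0, C.gp_add, add_zero, hl, ← C.per_y b, C.gp_per, C.gp_zero])
    have h₄ : ((C.g * w) ^ 1) d0 = c0 := C.hop le_rfl wd0 (fun i h h' => absurd h' (by omega)) (by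
      rw [hc1, C.gp_add]; rfl)
    have h₅ : ((C.g * w) ^ (k - 1)) c1 = c1 := C.hop (by omega) wc1 (fun i h h' => wfix _ (by
        rw [hc0, C.gp_add]
        simp only [M, Finset.mem_insert, Finset.mem_singleton, not_or]
        exact ⟨(sa _ _).symm, (sa _ _).symm, S4 _ _, A' _ _ (by omega) (by omega), S2 _ _,
          A' _ _ (by omega) (by omega)⟩)) (by
      rw [hc0, C.gp_add, hc1, C.gp_eq_iff, hk']
      exact ⟨1, by omega⟩)
    have hodd : Odd (1 + l) := ⟨t, by omega⟩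
    have hodd' : Odd (k - 1) := ⟨s - 1, by omega⟩
    intro p hp
    simp only [M, Finset.mem_insert, Finset.mem_singleton] at hp
    rcases hp with h | h | h | h | h | h <;> rw [h]
    exacts [⟨_, hodd', h₀⟩, (oddPer_hops h₁ h₂ hodd).1, (oddPer_hops h₁ h₂ hodd).2,
      (oddPer_hops h₃ h₄ hodd).1, (oddPer_hops h₃ h₄ hodd).2, ⟨_, hodd', h₅⟩]

theorem Ctx.y_of_x_fix {e : α} (he : C.x e = e) : C.y e = C.gp (-1) e := by
  apply C.gp_inj 1
  rw [C.gp_add, show (1 : ℤ) + -1 = 0 by ring, C.gp_zero, C.gp_one, ← C.x_eq, he]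

theorem Ctx.not_cyc_AB {f e : α} (hf : C.y f = f) (he : C.x e = e) (hev : Even (C.per f)) : ¬ C.Cyc f e := by
  rintro ⟨i, rfl⟩
  have h := C.y_of_x_fix he
  rw [C.y_gp, hf, C.gp_add, C.gp_eq_iff] at h
  obtain ⟨t, ht⟩ := hev
  have h2 : (2 : ℤ) ∣ (C.per f : ℤ) := ⟨t, by push_cast [ht]; ring⟩
  have := h2.trans h
  omega

/-- two paths -/
theorem Ctx.ok_ab {f e : α} (hf : C.y f = f) (he : C.x e = e) (hef : Even (C.per f)) (hee : Even (C.per e)) :
    C.Ok (C.orb f ∪ C.orb e) := by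
  have sep : ∀ i j, C.gp i f ≠ C.gp j e := C.ne_of_not_cyc (C.not_cyc_AB hf he hef)
  obtain ⟨s, hs⟩ := hef
  obtain ⟨t, ht⟩ := hee
  set a := C.per f with ha
  set c := C.per e with hc
  have apos := C.per_pos f
  have cpos := C.per_pos e
  have E1 : ∀ i j : ℤ, 0 < i - j → i - j < c → C.gp i e ≠ C.gp j e := fun i j h h' => C.gp_ne h h'
  have F1 : ∀ i j : ℤ, 0 < i - j → i - j < a → C.gp i f ≠ C.gp j f := fun i j h h' => C.gp_ne h h'
  set f0 := C.gp 0 f with hf0
  set e0 := C.gp 0 e with he0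
  set e1 := C.gp (-1) e with he1
  obtain ⟨A0, A1, A2, A3⟩ := cyc3_apply (a := f0) (b := e0) (c := e1) (sep _ _) (sep _ _) (E1 _ _ (by omega) (by omega))
  set w := cyc3 f0 e0 e1 with hw
  let M : Finset α := {f0, e0, e1}
  have wfix : ∀ p ∉ M, w p = p := by
    intro p hp
    simp only [M, Finset.mem_insert, Finset.mem_singleton, not_or] at hp
    exact A3 _ hp.1 hp.2.1 hp.2.2
  have yf : C.y f0 = f0 := by rw [hf0, C.y_gp, neg_zero, hf]
  have ye : C.y e0 = e1 := by rw [he0, he1, C.y_gp, neg_zero, C.y_of_x_fix he, C.gp_add, zero_add]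
  have ye' : C.y e1 = e0 := by rw [← ye, C.y_y]
  refine Ctx.Sol.mk' C M ?_ wfix ?_ ?_ ?_ ?_ ?_ (w := w)
  · intro p hp
    simp only [M, Finset.mem_insert, Finset.mem_singleton] at hp
    rw [Finset.mem_union]
    rcases hp with h | h | h <;> rw [h] <;>
      first
        | exact Or.inl (C.mem_orb.2 (Or.inl ⟨_, rfl⟩))
        | exact Or.inr (C.mem_orb.2 (Or.inl ⟨_, rfl⟩))
  · intro p hp
    simp only [M, Finset.mem_insert, Finset.mem_singleton] at hp ⊢
    rcases hp with h | h | h <;> rw [h] <;> simp [yf, ye, ye']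
  · intro p hp
    simp only [M, Finset.mem_insert, Finset.mem_singleton] at hp
    rcases hp with h | h | h <;> rw [h] <;> simp [A0, A1, A2, yf, ye, ye']
  · intro p hp
    rcases Finset.mem_union.1 hp with hp | hp
    · refine C.reach_orb (a := f) ?_ ?_ hp <;> simp [M, hf0, C.gp_zero, hf]
    · refine C.reach_orb (a := e) ?_ ?_ hp <;> simp [M, he0, he1, C.gp_zero, C.y_of_x_fix he]
  · intro p hp
    refine ⟨3, ⟨1, rfl⟩, ?_⟩
    simp only [M, Finset.mem_insert, Finset.mem_singleton] at hp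
    rcases hp with h | h | h <;> rw [h] <;> simp [pow_succ, Perm.mul_apply, A0, A1, A2]
  · have h₁ : ((C.g * w) ^ (c - 1)) f0 = e1 := C.hop (by omega) A0 (fun i h h' => wfix _ (by
        rw [he0, C.gp_add]
        simp only [M, Finset.mem_insert, Finset.mem_singleton, not_or]
        exact ⟨(sep _ _).symm, E1 _ _ (by omega) (by omega), by
          rw [he1, C.gp_eq_iff]; intro hd; have := Int.le_of_dvd (by omega) hd; omega⟩)) (by
      rw [he0, C.gp_add, he1, C.gp_eq_iff]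
      exact ⟨1, by omega⟩)
    have h₂ : ((C.g * w) ^ a) e1 = f0 := C.hop (by omega) A2 (fun i h h' => wfix _ (by
        rw [hf0, C.gp_add]
        simp only [M, Finset.mem_insert, Finset.mem_singleton, not_or]
        exact ⟨F1 _ _ (by omega) (by omega), sep _ _, sep _ _⟩)) (by
      rw [hf0, C.gp_add, add_zero, ha, C.gp_per, C.gp_zero])
    have h₃ : ((C.g * w) ^ 1) e0 = e0 := C.hop le_rfl A1 (fun i h h' => absurd h' (by omega)) (by
      rw [he1, C.gp_add]; rfl)
    have hodd : Odd (a + (c - 1)) := ⟨s + t - 1, by omega⟩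
    intro p hp
    simp only [M, Finset.mem_insert, Finset.mem_singleton] at hp
    rcases hp with h | h | h <;> rw [h]
    exacts [(oddPer_hops h₁ h₂ hodd).1, ⟨1, odd_one, h₃⟩, (oddPer_hops h₁ h₂ hodd).2]

theorem Ctx.two_step {a : α} (h : C.per a = 2) (i : ℤ) : C.gp (i + 2) a = C.gp i a := by
  rw [C.gp_eq_iff, h]; exact ⟨1, by ring⟩

/-- a short pair and a fixed point of odd period -/
theorem Ctx.ok_pf {a f : α} (ha : C.Pair a) (hk : C.per a = 2) (hf : C.y f = f) (hof : Odd (C.per f))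
    (hfa : f ∉ C.orb a) : C.Ok (C.orb a ∪ C.orb f) := by
  obtain ⟨S1, S2, S3, S4⟩ := C.sep_pair hfa
  have sa := C.ne_of_not_cyc ha
  set l := C.per f with hl
  have lpos := C.per_pos f
  obtain ⟨t, ht⟩ := hof
  set a0 := C.gp 0 a with ha0
  set f0 := C.gp 0 f with hf0
  set c0 := C.gp 0 (C.y a) with hc0
  obtain ⟨A0, A1, A2, A3⟩ := cyc3_apply (a := a0) (b := f0) (c := c0) (S1 _ _) (sa _ _) (S4 _ _).symm
  set w := cyc3 a0 f0 c0 with hw
  let M : Finset α := {a0, f0, c0}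
  have wfix : ∀ p ∉ M, w p = p := by
    intro p hp
    simp only [M, Finset.mem_insert, Finset.mem_singleton, not_or] at hp
    exact A3 _ hp.1 hp.2.1 hp.2.2
  have yf : C.y f0 = f0 := by rw [hf0, C.y_gp, neg_zero, hf]
  have ya : C.y a0 = c0 := by rw [ha0, hc0, C.y_gp, neg_zero]
  have yc : C.y c0 = a0 := by rw [← ya, C.y_y]
  refine Ctx.Sol.mk' C M ?_ wfix ?_ ?_ ?_ ?_ ?_ (w := w)
  · intro p hp
    simp only [M, Finset.mem_insert, Finset.mem_singleton] at hp
    rw [Finset.mem_union]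
    rcases hp with h | h | h <;> rw [h] <;>
      first
        | exact Or.inl (C.mem_orb.2 (Or.inl ⟨_, rfl⟩))
        | exact Or.inl (C.mem_orb.2 (Or.inr ⟨_, rfl⟩))
        | exact Or.inr (C.mem_orb.2 (Or.inl ⟨_, rfl⟩))
  · intro p hp
    simp only [M, Finset.mem_insert, Finset.mem_singleton] at hp ⊢
    rcases hp with h | h | h <;> rw [h] <;> simp [yf, ya, yc]
  · intro p hp
    simp only [M, Finset.mem_insert, Finset.mem_singleton] at hp
    rcases hp with h | h | h <;> rw [h] <;> simp [A0, A1, A2, yf, ya, yc]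
  · intro p hp
    rcases Finset.mem_union.1 hp with hp | hp
    · refine C.reach_orb (a := a) ?_ ?_ hp <;> simp [M, ha0, hc0, C.gp_zero]
    · refine C.reach_orb (a := f) ?_ ?_ hp <;> simp [M, hf0, C.gp_zero, hf]
  · intro p hp
    refine ⟨3, ⟨1, rfl⟩, ?_⟩
    simp only [M, Finset.mem_insert, Finset.mem_singleton] at hp
    rcases hp with h | h | h <;> rw [h] <;> simp [pow_succ, Perm.mul_apply, A0, A1, A2]
  · have h₁ : ((C.g * w) ^ l) a0 = f0 := C.hop (by omega) A0 (fun i h h' => wfix _ (by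
        rw [hf0, C.gp_add]
        simp only [M, Finset.mem_insert, Finset.mem_singleton, not_or]
        exact ⟨(S1 _ _).symm, C.gp_ne (by omega) (by omega), (S4 _ _).symm⟩)) (by
      rw [hf0, C.gp_add, add_zero, hl, C.gp_per, C.gp_zero])
    have h₂ : ((C.g * w) ^ 2) f0 = c0 := C.hop (by omega) A1 (fun i h h' => wfix _ (by
        rw [hc0, C.gp_add]
        simp only [M, Finset.mem_insert, Finset.mem_singleton, not_or]
        exact ⟨(sa _ _).symm, S4 _ _, C.gp_ne (by omega) (by rw [C.per_y, hk]; omega)⟩)) (by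
      rw [hc0, C.gp_add, add_comm]; exact C.two_step (by rw [C.per_y, hk]) 0)
    have h₃ : ((C.g * w) ^ 2) c0 = a0 := C.hop (by omega) A2 (fun i h h' => wfix _ (by
        rw [ha0, C.gp_add]
        simp only [M, Finset.mem_insert, Finset.mem_singleton, not_or]
        exact ⟨C.gp_ne (by omega) (by rw [hk]; omega), S1 _ _, sa _ _⟩)) (by
      rw [ha0, C.gp_add, add_comm]; exact C.two_step hk 0)
    have hp0 : OddPer (C.g * w) a0 := ⟨2 + (2 + l), ⟨t + 2, by omega⟩, by
      rw [pow_add, pow_add, Perm.mul_apply, Perm.mul_apply, h₁, h₂, h₃]⟩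
    have hp1 : OddPer (C.g * w) f0 := h₁ ▸ hp0.pow l
    intro p hp
    simp only [M, Finset.mem_insert, Finset.mem_singleton] at hp
    rcases hp with h | h | h <;> rw [h]
    exacts [hp0, hp1, h₂ ▸ hp1.pow 2]

/-- a short pair and two paths -/
theorem Ctx.ok_pab {a f e : α} (ha : C.Pair a) (hk : C.per a = 2) (hf : C.y f = f) (he : C.x e = e)
    (hef : Even (C.per f)) (hee : Even (C.per e)) : C.Ok (C.orb a ∪ (C.orb f ∪ C.orb e)) := by
  have hfa : f ∉ C.orb a := fun h => (C.not_self_of_pair ha h).1 hf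
  have hea : e ∉ C.orb a := fun h => (C.not_self_of_pair ha h).2 he
  obtain ⟨S1, -, -, S4⟩ := C.sep_pair hfa
  obtain ⟨T1, -, -, T4⟩ := C.sep_pair hea
  have sep : ∀ i j, C.gp i f ≠ C.gp j e := C.ne_of_not_cyc (C.not_cyc_AB hf he hef)
  have sa := C.ne_of_not_cyc ha
  obtain ⟨s, hs⟩ := hef
  obtain ⟨t, ht⟩ := hee
  set p' := C.per f with hp'
  set c := C.per e with hc
  have apos := C.per_pos f
  have cpos := C.per_pos e
  set f0 := C.gp 0 f with hf0
  set a0 := C.gp 0 a with ha0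
  set e0 := C.gp 0 e with he0
  set e1 := C.gp (-1) e with he1
  set c0 := C.gp 0 (C.y a) with hc0
  have E10 : e0 ≠ e1 := C.gp_ne (by omega) (by omega)
  obtain ⟨A0, A1, A2, A3, A4, A5⟩ := cyc5_apply (a := f0) (b := a0) (c := e0) (d := e1) (e := c0) (by
    simp only [List.nodup_cons, List.mem_cons, List.not_mem_nil, or_false, not_or, List.nodup_nil,
      not_false_eq_true, and_true]
    exact ⟨⟨(S1 _ _).symm, sep _ _, sep _ _, (S4 _ _).symm⟩, ⟨T1 _ _, T1 _ _, sa _ _⟩, ⟨E10, (T4 _ _).symm⟩,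
      (T4 _ _).symm⟩)
  set w := cyc5 f0 a0 e0 e1 c0 with hw
  let M : Finset α := {f0, a0, e0, e1, c0}
  have wfix : ∀ p ∉ M, w p = p := fun p hp => A5 p (by simpa [M] using hp)
  have yf : C.y f0 = f0 := by rw [hf0, C.y_gp, neg_zero, hf]
  have ya : C.y a0 = c0 := by rw [ha0, hc0, C.y_gp, neg_zero]
  have yc : C.y c0 = a0 := by rw [← ya, C.y_y]
  have ye : C.y e0 = e1 := by rw [he0, he1, C.y_gp, neg_zero, C.y_of_x_fix he, C.gp_add, zero_add]
  have ye' : C.y e1 = e0 := by rw [← ye, C.y_y]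
  refine Ctx.Sol.mk' C M ?_ wfix ?_ ?_ ?_ ?_ ?_ (w := w)
  · intro p hp
    simp only [M, Finset.mem_insert, Finset.mem_singleton] at hp
    rw [Finset.mem_union, Finset.mem_union]
    rcases hp with h | h | h | h | h <;> rw [h] <;>
      first
        | exact Or.inl (C.mem_orb.2 (Or.inl ⟨_, rfl⟩))
        | exact Or.inl (C.mem_orb.2 (Or.inr ⟨_, rfl⟩))
        | exact Or.inr (Or.inl (C.mem_orb.2 (Or.inl ⟨_, rfl⟩)))
        | exact Or.inr (Or.inr (C.mem_orb.2 (Or.inl ⟨_, rfl⟩)))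
  · intro p hp
    simp only [M, Finset.mem_insert, Finset.mem_singleton] at hp ⊢
    rcases hp with h | h | h | h | h <;> rw [h] <;> simp [yf, ya, yc, ye, ye']
  · intro p hp
    simp only [M, Finset.mem_insert, Finset.mem_singleton] at hp
    rcases hp with h | h | h | h | h <;> rw [h] <;> simp [A0, A1, A2, A3, A4, yf, ya, yc, ye, ye']
  · intro p hp
    rcases Finset.mem_union.1 hp with hp | hp
    · refine C.reach_orb (a := a) ?_ ?_ hp <;> simp [M, ha0, hc0, C.gp_zero]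
    rcases Finset.mem_union.1 hp with hp | hp
    · refine C.reach_orb (a := f) ?_ ?_ hp <;> simp [M, hf0, C.gp_zero, hf]
    · refine C.reach_orb (a := e) ?_ ?_ hp <;> simp [M, he0, he1, C.gp_zero, C.y_of_x_fix he]
  · intro p hp
    refine ⟨5, ⟨2, rfl⟩, ?_⟩
    simp only [M, Finset.mem_insert, Finset.mem_singleton] at hp
    rcases hp with h | h | h | h | h <;> rw [h] <;> simp [pow_succ, Perm.mul_apply, A0, A1, A2, A3, A4]
  · have h₁ : ((C.g * w) ^ 2) f0 = a0 := C.hop (by omega) A0 (fun i h h' => wfix _ (by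
        rw [ha0, C.gp_add]
        simp only [M, Finset.mem_insert, Finset.mem_singleton, not_or]
        exact ⟨S1 _ _, C.gp_ne (by omega) (by rw [hk]; omega), T1 _ _, T1 _ _, sa _ _⟩)) (by
      rw [ha0, C.gp_add, add_comm]; exact C.two_step hk 0)
    have h₂ : ((C.g * w) ^ (c - 1)) a0 = e1 := C.hop (by omega) A1 (fun i h h' => wfix _ (by
        rw [he0, C.gp_add]
        simp only [M, Finset.mem_insert, Finset.mem_singleton, not_or]
        exact ⟨(sep _ _).symm, (T1 _ _).symm, C.gp_ne (by omega) (by omega), by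
          rw [he1, C.gp_eq_iff]; intro hd; have := Int.le_of_dvd (by omega) hd; omega, (T4 _ _).symm⟩)) (by
      rw [he0, C.gp_add, he1, C.gp_eq_iff]
      exact ⟨1, by omega⟩)
    have h₃ : ((C.g * w) ^ 2) e1 = c0 := C.hop (by omega) A3 (fun i h h' => wfix _ (by
        rw [hc0, C.gp_add]
        simp only [M, Finset.mem_insert, Finset.mem_singleton, not_or]
        exact ⟨S4 _ _, (sa _ _).symm, T4 _ _, T4 _ _, C.gp_ne (by omega) (by rw [C.per_y, hk]; omega)⟩)) (by
      rw [hc0, C.gp_add, add_comm]; exact C.two_step (by rw [C.per_y, hk]) 0)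
    have h₄ : ((C.g * w) ^ p') c0 = f0 := C.hop (by omega) A4 (fun i h h' => wfix _ (by
        rw [hf0, C.gp_add]
        simp only [M, Finset.mem_insert, Finset.mem_singleton, not_or]
        exact ⟨C.gp_ne (by omega) (by omega), (S1 _ _).symm, sep _ _, sep _ _, (S4 _ _).symm⟩)) (by
      rw [hf0, C.gp_add, add_zero, hp', C.gp_per, C.gp_zero])
    have h₅ : ((C.g * w) ^ 1) e0 = e0 := C.hop le_rfl A2 (fun i h h' => absurd h' (by omega)) (by
      rw [he1, C.gp_add]; rfl)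
    have p0 : OddPer (C.g * w) f0 := ⟨p' + (2 + ((c - 1) + 2)), ⟨s + t + 1, by omega⟩, by
      rw [pow_add, pow_add, pow_add, Perm.mul_apply, Perm.mul_apply, Perm.mul_apply, h₁, h₂, h₃, h₄]⟩
    have p1 : OddPer (C.g * w) a0 := h₁ ▸ p0.pow 2
    have p2 : OddPer (C.g * w) e1 := h₂ ▸ p1.pow (c - 1)
    intro p hp
    simp only [M, Finset.mem_insert, Finset.mem_singleton] at hp
    rcases hp with h | h | h | h | h <;> rw [h]
    exacts [p0, p1, ⟨1, odd_one, h₅⟩, p2, h₃ ▸ p2.pow 2]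

/-- a short pair and a pair of odd period -/
theorem Ctx.ok_pq {a b : α} (ha : C.Pair a) (hk : C.per a = 2) (hb : C.Pair b) (hab : b ∉ C.orb a)
    (hob : Odd (C.per b)) : C.Ok (C.orb a ∪ C.orb b) := by
  obtain ⟨S1, S2, S3, S4⟩ := C.sep_pair hab
  have sa := C.ne_of_not_cyc ha
  have sb := C.ne_of_not_cyc hb
  set l := C.per b with hl
  have lpos := C.per_pos b
  obtain ⟨t, ht⟩ := hob
  have A : ∀ i j : ℤ, 0 < i - j → i - j < 2 → C.gp i a ≠ C.gp j a := fun i j h h' => C.gp_ne h (by rw [hk]; exact h')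
  have A' : ∀ i j : ℤ, 0 < i - j → i - j < 2 → C.gp i (C.y a) ≠ C.gp j (C.y a) := fun i j h h' =>
    C.gp_ne h (by rw [C.per_y, hk]; exact h')
  set u0 := C.gp 0 a with hu0
  set u1 := C.gp 1 a with hu1
  set v0 := C.gp 0 (C.y a) with hv0
  set v1 := C.gp (-1) (C.y a) with hv1
  set q0 := C.gp 0 b with hq0
  set d0 := C.gp 0 (C.y b) with hd0
  obtain ⟨A0, A1, A2, A3⟩ := cyc3_apply (a := u0) (b := v1) (c := q0) (sa _ _) (S1 _ _) (S4 _ _)
  obtain ⟨B0, B1, B2, B3⟩ := cyc3_apply (a := v0) (b := d0) (c := u1) (S2 _ _) (sa _ _).symm (S3 _ _).symm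
  set w := cyc3 u0 v1 q0 * cyc3 v0 d0 u1 with hw
  have wu0 : w u0 = v1 := by rw [hw, Perm.mul_apply, B3 _ (sa _ _) (S3 _ _) (A _ _ (by omega) (by omega)).symm, A0]
  have wv1 : w v1 = q0 := by rw [hw, Perm.mul_apply, B3 _ (A' _ _ (by omega) (by omega)).symm (S2 _ _) (sa _ _).symm, A1]
  have wq0 : w q0 = u0 := by rw [hw, Perm.mul_apply, B3 _ (S4 _ _).symm (sb _ _) (S1 _ _).symm, A2]
  have wv0 : w v0 = d0 := by rw [hw, Perm.mul_apply, B0, A3 _ (S3 _ _).symm (S2 _ _).symm (sb _ _).symm]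
  have wd0 : w d0 = u1 := by rw [hw, Perm.mul_apply, B1, A3 _ (A _ _ (by omega) (by omega)) (sa _ _) (S1 _ _)]
  have wu1 : w u1 = v0 := by rw [hw, Perm.mul_apply, B2, A3 _ (sa _ _).symm (A' _ _ (by omega) (by omega)) (S4 _ _)]
  let M : Finset α := {u0, v1, q0, v0, d0, u1}
  have wfix : ∀ p ∉ M, w p = p := by
    intro p hp
    simp only [M, Finset.mem_insert, Finset.mem_singleton, not_or] at hp
    obtain ⟨h1, h2, h3, h4, h5, h6⟩ := hp
    rw [hw, Perm.mul_apply, B3 _ h4 h5 h6, A3 _ h1 h2 h3]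
  have yu0 : C.y u0 = v0 := by rw [hu0, hv0, C.y_gp, neg_zero]
  have yu1 : C.y u1 = v1 := by rw [hu1, hv1, C.y_gp]
  have yq0 : C.y q0 = d0 := by rw [hq0, hd0, C.y_gp, neg_zero]
  have yv0 : C.y v0 = u0 := by rw [← yu0, C.y_y]
  have yv1 : C.y v1 = u1 := by rw [← yu1, C.y_y]
  have yd0 : C.y d0 = q0 := by rw [← yq0, C.y_y]
  refine Ctx.Sol.mk' C M ?_ wfix ?_ ?_ ?_ ?_ ?_ (w := w)
  · intro p hp
    simp only [M, Finset.mem_insert, Finset.mem_singleton] at hp
    rw [Finset.mem_union]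
    rcases hp with h | h | h | h | h | h <;> rw [h] <;>
      first
        | exact Or.inl (C.mem_orb.2 (Or.inl ⟨_, rfl⟩))
        | exact Or.inl (C.mem_orb.2 (Or.inr ⟨_, rfl⟩))
        | exact Or.inr (C.mem_orb.2 (Or.inl ⟨_, rfl⟩))
        | exact Or.inr (C.mem_orb.2 (Or.inr ⟨_, rfl⟩))
  · intro p hp
    simp only [M, Finset.mem_insert, Finset.mem_singleton] at hp ⊢
    rcases hp with h | h | h | h | h | h <;> rw [h] <;> simp [yu0, yu1, yq0, yv0, yv1, yd0]
  · intro p hp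
    simp only [M, Finset.mem_insert, Finset.mem_singleton] at hp
    rcases hp with h | h | h | h | h | h <;> rw [h] <;>
      simp [wu0, wv1, wq0, wv0, wd0, wu1, yu0, yu1, yq0, yv0, yv1, yd0]
  · intro p hp
    rcases Finset.mem_union.1 hp with hp | hp
    · refine C.reach_orb (a := a) ?_ ?_ hp <;> simp [M, hu0, hv0, C.gp_zero]
    · refine C.reach_orb (a := b) ?_ ?_ hp <;> simp [M, hq0, hd0, C.gp_zero]
  · intro p hp
    refine ⟨3, ⟨1, rfl⟩, ?_⟩
    simp only [M, Finset.mem_insert, Finset.mem_singleton] at hp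
    rcases hp with h | h | h | h | h | h <;> rw [h] <;>
      simp [pow_succ, Perm.mul_apply, wu0, wv1, wq0, wv0, wd0, wu1]
  · have h₁ : ((C.g * w) ^ 1) u0 = v0 := C.hop le_rfl wu0 (fun i h h' => absurd h' (by omega)) (by
      rw [hv1, C.gp_add]; rfl)
    have h₂ : ((C.g * w) ^ l) v0 = d0 := C.hop (by omega) wv0 (fun i h h' => wfix _ (by
        rw [hd0, C.gp_add]
        simp only [M, Finset.mem_insert, Finset.mem_singleton, not_or]
        exact ⟨(S3 _ _).symm, (S2 _ _).symm, (sb _ _).symm, (S2 _ _).symm,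
          C.gp_ne (by omega) (by rw [C.per_y, ← hl]; omega), (S3 _ _).symm⟩)) (by
      rw [hd0, C.gp_add, add_zero, hl, ← C.per_y b, C.gp_per, C.gp_zero])
    have h₃ : ((C.g * w) ^ 1) d0 = u0 := C.hop le_rfl wd0 (fun i h h' => absurd h' (by omega)) (by
      rw [hu1, C.gp_add]; exact C.two_step hk 0)
    have h₄ : ((C.g * w) ^ l) v1 = q0 := C.hop (by omega) wv1 (fun i h h' => wfix _ (by
        rw [hq0, C.gp_add]
        simp only [M, Finset.mem_insert, Finset.mem_singleton, not_or]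
        exact ⟨(S1 _ _).symm, (S4 _ _).symm, C.gp_ne (by omega) (by omega), (S4 _ _).symm, sb _ _,
          (S1 _ _).symm⟩)) (by
      rw [hq0, C.gp_add, add_zero, hl, C.gp_per, C.gp_zero])
    have h₅ : ((C.g * w) ^ 1) q0 = u1 := C.hop le_rfl wq0 (fun i h h' => absurd h' (by omega)) (by
      rw [hu0, C.gp_add]; rfl)
    have h₆ : ((C.g * w) ^ 1) u1 = v1 := C.hop le_rfl wu1 (fun i h h' => absurd h' (by omega)) (by
      rw [hv0, C.gp_add, hv1, C.gp_eq_iff, C.per_y, hk]; exact ⟨1, by norm_num⟩)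
    have p0 : OddPer (C.g * w) u0 := ⟨1 + (l + 1), ⟨t + 1, by omega⟩, by
      rw [pow_add, pow_add, Perm.mul_apply, Perm.mul_apply, h₁, h₂, h₃]⟩
    have p1 : OddPer (C.g * w) v0 := h₁ ▸ p0.pow 1
    have q1 : OddPer (C.g * w) v1 := ⟨1 + (1 + l), ⟨t + 1, by omega⟩, by
      rw [pow_add, pow_add, Perm.mul_apply, Perm.mul_apply, h₄, h₅, h₆]⟩
    have q2 : OddPer (C.g * w) q0 := h₄ ▸ q1.pow l
    intro p hp
    simp only [M, Finset.mem_insert, Finset.mem_singleton] at hp
    rcases hp with h | h | h | h | h | h <;> rw [h]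
    exacts [p0, q1, q2, p1, h₂ ▸ p1.pow l, h₅ ▸ q2.pow 1]

/-- three short pairs -/
theorem Ctx.ok_ppp {a b c : α} (ha : C.Pair a) (hb : C.Pair b) (hc : C.Pair c) (hka : C.per a = 2)
    (hkb : C.per b = 2) (hkc : C.per c = 2) (hab : b ∉ C.orb a) (hac : c ∉ C.orb a) (hbc : c ∉ C.orb b) :
    C.Ok (C.orb a ∪ (C.orb b ∪ C.orb c)) := by
  obtain ⟨R1, R2, R3, R4⟩ := C.sep_pair hab
  obtain ⟨S1, S2, S3, S4⟩ := C.sep_pair hac
  obtain ⟨T1, T2, T3, T4⟩ := C.sep_pair hbc
  have sa := C.ne_of_not_cyc ha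
  have sb := C.ne_of_not_cyc hb
  have sc := C.ne_of_not_cyc hc
  have N : ∀ {p : α}, C.per p = 2 → C.gp 0 p ≠ C.gp 1 p := fun {p} hp => (C.gp_ne (by omega) (by rw [hp]; omega)).symm
  have hya : C.per (C.y a) = 2 := by rw [C.per_y, hka]
  have hyb : C.per (C.y b) = 2 := by rw [C.per_y, hkb]
  have hyc : C.per (C.y c) = 2 := by rw [C.per_y, hkc]
  set a1 := C.gp 1 a with ha1
  set a1' := C.gp 1 (C.y a) with ha1'
  set b0 := C.gp 0 b with hb0
  set b1 := C.gp 1 b with hb1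
  set b0' := C.gp 0 (C.y b) with hb0'
  set b1' := C.gp 1 (C.y b) with hb1'
  set c0 := C.gp 0 c with hc0
  set c1 := C.gp 1 c with hc1
  set c0' := C.gp 0 (C.y c) with hc0'
  set c1' := C.gp 1 (C.y c) with hc1'
  obtain ⟨A0, A1, A2, A3, A4, A5⟩ := cyc5_apply (a := a1) (b := b0) (c := c0) (d := c1) (e := b1') (by
    simp only [List.nodup_cons, List.mem_cons, List.not_mem_nil, or_false, not_or, List.nodup_nil,
      not_false_eq_true, and_true]
    exact ⟨⟨R1 _ _, S1 _ _, S1 _ _, R3 _ _⟩, ⟨T1 _ _, T1 _ _, sb _ _⟩, ⟨N hkc, (T4 _ _).symm⟩, (T4 _ _).symm⟩)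
  obtain ⟨B0, B1, B2, B3, B4, B5⟩ := cyc5_apply (a := a1') (b := b1) (c := c1') (d := c0') (e := b0') (by
    simp only [List.nodup_cons, List.mem_cons, List.not_mem_nil, or_false, not_or, List.nodup_nil,
      not_false_eq_true, and_true]
    exact ⟨⟨R4 _ _, S2 _ _, S2 _ _, R2 _ _⟩, ⟨T3 _ _, T3 _ _, sb _ _⟩, ⟨(N hyc).symm, (T2 _ _).symm⟩, (T2 _ _).symm⟩)
  set w := cyc5 a1 b0 c0 c1 b1' * cyc5 a1' b1 c1' c0' b0' with hw
  have w1 : w a1 = b0 := by
    rw [hw, Perm.mul_apply, B5 _ (by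
      simp only [List.mem_cons, List.not_mem_nil, or_false, not_or]
      exact ⟨sa _ _, R1 _ _, S3 _ _, S3 _ _, R3 _ _⟩), A0]
  have w2 : w b0 = c0 := by
    rw [hw, Perm.mul_apply, B5 _ (by
      simp only [List.mem_cons, List.not_mem_nil, or_false, not_or]
      exact ⟨(R4 _ _).symm, N hkb, T3 _ _, T3 _ _, sb _ _⟩), A1]
  have w3 : w c0 = c1 := by
    rw [hw, Perm.mul_apply, B5 _ (by
      simp only [List.mem_cons, List.not_mem_nil, or_false, not_or]
      exact ⟨(S4 _ _).symm, (T1 _ _).symm, sc _ _, sc _ _, (T4 _ _).symm⟩), A2]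
  have w4 : w c1 = b1' := by
    rw [hw, Perm.mul_apply, B5 _ (by
      simp only [List.mem_cons, List.not_mem_nil, or_false, not_or]
      exact ⟨(S4 _ _).symm, (T1 _ _).symm, sc _ _, sc _ _, (T4 _ _).symm⟩), A3]
  have w5 : w b1' = a1 := by
    rw [hw, Perm.mul_apply, B5 _ (by
      simp only [List.mem_cons, List.not_mem_nil, or_false, not_or]
      exact ⟨(R2 _ _).symm, (sb _ _).symm, T2 _ _, T2 _ _, (N hyb).symm⟩), A4]
  have hfixA : ∀ q ∈ [a1', b1, c1', c0', b0'], cyc5 a1 b0 c0 c1 b1' q = q := by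
    intro q hq
    refine A5 q ?_
    simp only [List.mem_cons, List.not_mem_nil, or_false, not_or] at hq ⊢
    rcases hq with h | h | h | h | h <;> rw [h]
    · exact ⟨(sa _ _).symm, R4 _ _, S4 _ _, S4 _ _, R2 _ _⟩
    · exact ⟨(R1 _ _).symm, (N hkb).symm, T1 _ _, T1 _ _, sb _ _⟩
    · exact ⟨(S3 _ _).symm, (T3 _ _).symm, (sc _ _).symm, (sc _ _).symm, (T2 _ _).symm⟩
    · exact ⟨(S3 _ _).symm, (T3 _ _).symm, (sc _ _).symm, (sc _ _).symm, (T2 _ _).symm⟩
    · exact ⟨(R3 _ _).symm, (sb _ _).symm, T4 _ _, T4 _ _, N hyb⟩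
  have v1 : w a1' = b1 := by rw [hw, Perm.mul_apply, B0, hfixA _ (by simp)]
  have v2 : w b1 = c1' := by rw [hw, Perm.mul_apply, B1, hfixA _ (by simp)]
  have v3 : w c1' = c0' := by rw [hw, Perm.mul_apply, B2, hfixA _ (by simp)]
  have v4 : w c0' = b0' := by rw [hw, Perm.mul_apply, B3, hfixA _ (by simp)]
  have v5 : w b0' = a1' := by rw [hw, Perm.mul_apply, B4, hfixA _ (by simp)]
  let M : Finset α := {a1, b0, c0, c1, b1', a1', b1, c1', c0', b0'}
  have wfix : ∀ p ∉ M, w p = p := by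
    intro p hp
    simp only [M, Finset.mem_insert, Finset.mem_singleton, not_or] at hp
    obtain ⟨h1, h2, h3, h4, h5, h6, h7, h8, h9, h10⟩ := hp
    rw [hw, Perm.mul_apply, B5 _ (by simp [h6, h7, h8, h9, h10]), A5 _ (by simp [h1, h2, h3, h4, h5])]
  have flip : ∀ {q : α}, C.per (C.y q) = 2 → C.y (C.gp 1 q) = C.gp 1 (C.y q) := fun {q} hq => by
    rw [C.y_gp, C.gp_eq_iff, hq]; exact ⟨-1, by norm_num⟩
  have flip0 : ∀ q : α, C.y (C.gp 0 q) = C.gp 0 (C.y q) := fun q => by rw [C.y_gp, neg_zero]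
  have y1 : C.y a1 = a1' := flip hya
  have y2 : C.y b0 = b0' := flip0 b
  have y3 : C.y c0 = c0' := flip0 c
  have y4 : C.y c1 = c1' := flip hyc
  have y5 : C.y b1 = b1' := flip hyb
  have z1 : C.y a1' = a1 := by rw [← y1, C.y_y]
  have z2 : C.y b0' = b0 := by rw [← y2, C.y_y]
  have z3 : C.y c0' = c0 := by rw [← y3, C.y_y]
  have z4 : C.y c1' = c1 := by rw [← y4, C.y_y]
  have z5 : C.y b1' = b1 := by rw [← y5, C.y_y]
  refine Ctx.Sol.mk' C M ?_ wfix ?_ ?_ ?_ ?_ ?_ (w := w)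
  · intro p hp
    simp only [M, Finset.mem_insert, Finset.mem_singleton] at hp
    rw [Finset.mem_union, Finset.mem_union]
    rcases hp with h | h | h | h | h | h | h | h | h | h <;> rw [h] <;>
      first
        | exact Or.inl (C.mem_orb.2 (Or.inl ⟨_, rfl⟩))
        | exact Or.inl (C.mem_orb.2 (Or.inr ⟨_, rfl⟩))
        | exact Or.inr (Or.inl (C.mem_orb.2 (Or.inl ⟨_, rfl⟩)))
        | exact Or.inr (Or.inl (C.mem_orb.2 (Or.inr ⟨_, rfl⟩)))
        | exact Or.inr (Or.inr (C.mem_orb.2 (Or.inl ⟨_, rfl⟩)))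
        | exact Or.inr (Or.inr (C.mem_orb.2 (Or.inr ⟨_, rfl⟩)))
  · intro p hp
    simp only [M, Finset.mem_insert, Finset.mem_singleton] at hp ⊢
    rcases hp with h | h | h | h | h | h | h | h | h | h <;> rw [h] <;>
      simp [y1, y2, y3, y4, y5, z1, z2, z3, z4, z5]
  · intro p hp
    simp only [M, Finset.mem_insert, Finset.mem_singleton] at hp
    rcases hp with h | h | h | h | h | h | h | h | h | h <;> rw [h] <;>
      simp [w1, w2, w3, w4, w5, v1, v2, v3, v4, v5, y1, y2, y3, y4, y5, z1, z2, z3, z4, z5]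
  · intro p hp
    have g1 : ∀ q : α, C.per q = 2 → C.gp 1 (C.gp 1 q) = q := fun q hq => by
      rw [C.gp_add, C.gp_self_iff, hq]; exact ⟨1, by norm_num⟩
    rcases Finset.mem_union.1 hp with hp | hp
    · rcases C.mem_orb.1 hp with ⟨i, rfl⟩ | ⟨i, rfl⟩
      · exact ⟨a1, by simp [M], i - 1, by rw [ha1, C.gp_add, sub_add_cancel]⟩
      · exact ⟨a1', by simp [M], i - 1, by rw [ha1', C.gp_add, sub_add_cancel]⟩
    rcases Finset.mem_union.1 hp with hp | hp
    · refine C.reach_orb (a := b) ?_ ?_ hp <;> simp [M, hb0, hb0', C.gp_zero]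
    · refine C.reach_orb (a := c) ?_ ?_ hp <;> simp [M, hc0, hc0', C.gp_zero]
  · intro p hp
    refine ⟨5, ⟨2, rfl⟩, ?_⟩
    simp only [M, Finset.mem_insert, Finset.mem_singleton] at hp
    rcases hp with h | h | h | h | h | h | h | h | h | h <;> rw [h] <;>
      simp [pow_succ, Perm.mul_apply, w1, w2, w3, w4, w5, v1, v2, v3, v4, v5]
  · have st : ∀ {q r : α}, w q = r → ((C.g * w) ^ 1) q = C.gp 1 r := fun {q r} h =>
      C.hop le_rfl h (fun i h h' => absurd h' (by omega)) rfl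
    have up : ∀ q : α, C.gp 1 (C.gp 0 q) = C.gp 1 q := fun q => by rw [C.gp_zero]
    have back : ∀ {q : α}, C.per q = 2 → C.gp 1 (C.gp 1 q) = C.gp 0 q := fun {q} hq => by
      rw [C.gp_add]; exact C.two_step hq 0
    have h₁ : ((C.g * w) ^ 1) a1 = b1 := (st w1).trans (up b)
    have h₂ : ((C.g * w) ^ 1) b1 = c0' := (st v2).trans (back hyc)
    have h₃ : ((C.g * w) ^ 1) c0' = b1' := (st v4).trans (up _)
    have h₄ : ((C.g * w) ^ 2) b1' = a1 := C.hop (by omega) w5 (fun i h h' => wfix _ (by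
        rw [ha1, C.gp_add]
        simp only [M, Finset.mem_insert, Finset.mem_singleton, not_or]
        exact ⟨C.gp_ne (by omega) (by rw [hka]; omega), R1 _ _, S1 _ _, S1 _ _, R3 _ _, sa _ _, R1 _ _, S3 _ _,
          S3 _ _, R3 _ _⟩)) (by
      rw [ha1, C.gp_add, add_comm]; exact C.two_step hka 1)
    have k₁ : ((C.g * w) ^ 1) b0 = c1 := (st w2).trans (up c)
    have k₂ : ((C.g * w) ^ 1) c1 = b0' := (st w4).trans (back hyb)
    have k₃ : ((C.g * w) ^ 2) b0' = a1' := C.hop (by omega) v5 (fun i h h' => wfix _ (by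
        rw [ha1', C.gp_add]
        simp only [M, Finset.mem_insert, Finset.mem_singleton, not_or]
        exact ⟨(sa _ _).symm, R4 _ _, S4 _ _, S4 _ _, R2 _ _, C.gp_ne (by omega) (by rw [hya]; omega), R4 _ _,
          S2 _ _, S2 _ _, R2 _ _⟩)) (by
      rw [ha1', C.gp_add, add_comm]; exact C.two_step hya 1)
    have k₄ : ((C.g * w) ^ 1) a1' = b0 := (st v1).trans (back hkb)
    have m₁ : ((C.g * w) ^ 1) c0 = c0 := (st w3).trans (back hkc)
    have m₂ : ((C.g * w) ^ 1) c1' = c1' := (st v3).trans (up _)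
    have p1 : OddPer (C.g * w) a1 := ⟨2 + (1 + (1 + 1)), ⟨2, rfl⟩, by
      rw [pow_add, pow_add, pow_add]; simp only [Perm.mul_apply, h₁, h₂, h₃, h₄]⟩
    have p2 : OddPer (C.g * w) b1 := h₁ ▸ p1.pow 1
    have p3 : OddPer (C.g * w) c0' := h₂ ▸ p2.pow 1
    have q1 : OddPer (C.g * w) b0 := ⟨1 + (2 + (1 + 1)), ⟨2, rfl⟩, by
      rw [pow_add, pow_add, pow_add]; simp only [Perm.mul_apply, k₁, k₂, k₃, k₄]⟩
    have q2 : OddPer (C.g * w) c1 := k₁ ▸ q1.pow 1
    have q3 : OddPer (C.g * w) b0' := k₂ ▸ q2.pow 1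
    intro p hp
    simp only [M, Finset.mem_insert, Finset.mem_singleton] at hp
    rcases hp with h | h | h | h | h | h | h | h | h | h <;> rw [h]
    exacts [p1, q1, ⟨1, odd_one, m₁⟩, q2, h₃ ▸ p3.pow 1, k₃ ▸ q3.pow 2, p2, ⟨1, odd_one, m₂⟩, p3, q3]


open Classical in
/-- balanced set -/
def Ctx.Bal (S : Finset α) : Prop :=
  (S.filter fun p => C.y p = p ∧ Even (C.per p)).card = (S.filter fun p => C.x p = p ∧ Even (C.per p)).card

/-- only a short pair is left -/
def Ctx.Lone (S : Finset α) : Prop := ∃ a, C.Pair a ∧ C.per a = 2 ∧ S = C.orb a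

theorem Ctx.per_mem_orb {p q : α} (h : q ∈ C.orb p) : C.per q = C.per p := by
  rcases C.mem_orb.1 h with ⟨i, rfl⟩ | ⟨i, rfl⟩
  · rw [C.per_gp]
  · rw [C.per_gp, C.per_y]

theorem Ctx.bal_sdiff_pair {S : Finset α} {a : α} (h : C.Bal S) (ha : C.Pair a) : C.Bal (S \ C.orb a) := by
  classical
  unfold Ctx.Bal at h ⊢
  have e1 : ((S \ C.orb a).filter fun p => C.y p = p ∧ Even (C.per p)) =
      S.filter fun p => C.y p = p ∧ Even (C.per p) := by
    ext p
    simp only [Finset.mem_filter, Finset.mem_sdiff]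
    exact ⟨fun h => ⟨h.1.1, h.2⟩, fun h => ⟨⟨h.1, fun ho => (C.not_self_of_pair ha ho).1 h.2.1⟩, h.2⟩⟩
  have e2 : ((S \ C.orb a).filter fun p => C.x p = p ∧ Even (C.per p)) =
      S.filter fun p => C.x p = p ∧ Even (C.per p) := by
    ext p
    simp only [Finset.mem_filter, Finset.mem_sdiff]
    exact ⟨fun h => ⟨h.1.1, h.2⟩, fun h => ⟨⟨h.1, fun ho => (C.not_self_of_pair ha ho).2 h.2.1⟩, h.2⟩⟩
  rw [e1, e2]; exact h

theorem Ctx.bal_sdiff_ab {S : Finset α} {f e : α} (h : C.Bal S) (hS : C.Inv S) (hfS : f ∈ S) (heS : e ∈ S)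
    (hf : C.y f = f) (he : C.x e = e) (hef : Even (C.per f)) (hee : Even (C.per e)) :
    C.Bal (S \ (C.orb f ∪ C.orb e)) := by
  classical
  have ye := C.y_of_x_fix he
  obtain ⟨s, hs⟩ := hef
  obtain ⟨t, ht⟩ := hee
  have fpos := C.per_pos f
  have epos := C.per_pos e
  have hef : Even (C.per f) := ⟨s, hs⟩
  have hee : Even (C.per e) := ⟨t, ht⟩
  set T := C.orb f ∪ C.orb e with hT
  have hTS : T ⊆ S := Finset.union_subset (C.orb_subset hS hfS) (C.orb_subset hS heS)
  have hq : ∀ q, q ∈ T → (∃ i, C.gp i f = q) ∨ ∃ i, C.gp i e = q := by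
    intro q hq
    rcases Finset.mem_union.1 hq with h | h
    · rcases C.mem_orb.1 h with h | h
      · exact Or.inl h
      · rw [hf] at h; exact Or.inl h
    · rcases C.mem_orb.1 h with h | ⟨i, hi⟩
      · exact Or.inr h
      · rw [ye, C.gp_add] at hi; exact Or.inr ⟨_, hi⟩
  have par : ∀ {m : ℕ} {k : ℤ}, Even m → (m : ℤ) ∣ k → (2 : ℤ) ∣ k := fun {m k} hm hd => by
    obtain ⟨r, hr⟩ := hm
    exact Dvd.dvd.trans ⟨(r : ℤ), by push_cast [hr]; ring⟩ hd
  have half : ∀ (m r : ℕ) (i : ℤ), m = r + r → 0 < r → (m : ℤ) ∣ 2 * i → (m : ℤ) ∣ i ∨ (m : ℤ) ∣ i - r := by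
    rintro m r i rfl hr ⟨j, hj⟩
    push_cast at hj ⊢
    rcases Int.even_or_odd j with ⟨u, rfl⟩ | ⟨u, rfl⟩
    · exact Or.inl ⟨u, by linarith⟩
    · exact Or.inr ⟨u, by linarith⟩
  have eA : (T.filter fun p => C.y p = p ∧ Even (C.per p)) = {C.gp 0 f, C.gp s f} := by
    ext q
    simp only [Finset.mem_filter, Finset.mem_insert, Finset.mem_singleton]
    constructor
    · rintro ⟨hqT, hyq, -⟩
      rcases hq q hqT with ⟨i, rfl⟩ | ⟨i, rfl⟩
      · rw [C.y_gp, hf, C.gp_eq_iff] at hyq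
        rcases half _ s i hs (by omega) (by
          obtain ⟨j, hj⟩ := hyq
          exact ⟨-j, by linarith⟩) with h | h
        · left; rw [C.gp_eq_iff, sub_zero]; exact h
        · right; rw [C.gp_eq_iff]; exact h
      · exfalso
        rw [C.y_gp, ye, C.gp_add, C.gp_eq_iff] at hyq
        have := par hee hyq
        omega
    · rintro (h1 | h1) <;> rw [h1]
      · exact ⟨Finset.mem_union_left _ (C.mem_orb.2 (Or.inl ⟨_, rfl⟩)), by rw [C.y_gp, hf, neg_zero],
          by rw [C.per_gp]; exact hef⟩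
      · refine ⟨Finset.mem_union_left _ (C.mem_orb.2 (Or.inl ⟨_, rfl⟩)), ?_, by rw [C.per_gp]; exact hef⟩
        rw [C.y_gp, hf, C.gp_eq_iff]
        exact ⟨-1, by push_cast [hs]; ring⟩
  have eB : (T.filter fun p => C.x p = p ∧ Even (C.per p)) = {C.gp 0 e, C.gp t e} := by
    ext q
    simp only [Finset.mem_filter, Finset.mem_insert, Finset.mem_singleton]
    constructor
    · rintro ⟨hqT, hxq, -⟩
      rcases hq q hqT with ⟨i, rfl⟩ | ⟨i, rfl⟩
      · exfalso
        rw [C.x_eq, C.y_gp, hf, ← C.gp_one, C.gp_add, C.gp_eq_iff] at hxq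
        have := par hef hxq
        omega
      · rw [C.x_eq, C.y_gp, ye, C.gp_add, ← C.gp_one, C.gp_add, C.gp_eq_iff] at hxq
        rcases half _ t i ht (by omega) (by
          obtain ⟨j, hj⟩ := hxq
          exact ⟨-j, by linarith⟩) with h | h
        · left; rw [C.gp_eq_iff, sub_zero]; exact h
        · right; rw [C.gp_eq_iff]; exact h
    · rintro (h1 | h1) <;> rw [h1]
      · exact ⟨Finset.mem_union_right _ (C.mem_orb.2 (Or.inl ⟨_, rfl⟩)), by rw [C.gp_zero]; exact he,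
          by rw [C.per_gp]; exact hee⟩
      · refine ⟨Finset.mem_union_right _ (C.mem_orb.2 (Or.inl ⟨_, rfl⟩)), ?_, by rw [C.per_gp]; exact hee⟩
        rw [C.x_eq, C.y_gp, ye, C.gp_add, ← C.gp_one, C.gp_add, C.gp_eq_iff]
        exact ⟨-1, by push_cast [ht]; ring⟩
  have cA : (T.filter fun p => C.y p = p ∧ Even (C.per p)).card = 2 := by
    rw [eA]; exact Finset.card_pair (C.gp_ne (by omega) (by omega)).symm
  have cB : (T.filter fun p => C.x p = p ∧ Even (C.per p)).card = 2 := by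
    rw [eB]; exact Finset.card_pair (C.gp_ne (by omega) (by omega)).symm
  have split : ∀ (P : α → Prop) [DecidablePred P], (S.filter P).card = ((S \ T).filter P).card + (T.filter P).card := by
    intro P _
    rw [← Finset.card_union_of_disjoint (Finset.disjoint_filter_filter Finset.sdiff_disjoint), ← Finset.filter_union,
      Finset.sdiff_union_of_subset hTS]
  unfold Ctx.Bal at h ⊢
  rw [split, split, cA, cB] at h
  omega

/-- an orbit which is its own mirror contains a special fixed point -/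
theorem Ctx.self_cases {p : α} (hp : ¬ C.Pair p) :
    (∃ f ∈ C.orb p, C.y f = f) ∨ (Even (C.per p) ∧ ∃ e ∈ C.orb p, C.x e = e) := by
  rw [Ctx.Pair, not_not] at hp
  obtain ⟨d, hd⟩ := hp
  rcases Int.even_or_odd d with ⟨j, rfl⟩ | ⟨j, rfl⟩
  · refine Or.inl ⟨C.gp j p, C.mem_orb.2 (Or.inl ⟨_, rfl⟩), ?_⟩
    rw [C.y_gp, ← hd, C.gp_add]
    congr 1; ring
  · rcases Nat.even_or_odd (C.per p) with hl | ⟨r, hr⟩
    · refine Or.inr ⟨hl, C.gp (j + 1) p, C.mem_orb.2 (Or.inl ⟨_, rfl⟩), ?_⟩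
      rw [C.x_eq, C.y_gp, ← hd, C.gp_add, ← C.gp_one, C.gp_add]
      congr 1; ring
    · refine Or.inl ⟨C.gp (j + r + 1) p, C.mem_orb.2 (Or.inl ⟨_, rfl⟩), ?_⟩
      rw [C.y_gp, ← hd, C.gp_add, C.gp_eq_iff]
      exact ⟨-1, by push_cast [hr]; ring⟩

theorem Ctx.Ok.of_split {S T : Finset α} (hS : C.Inv S) (hT : C.Inv T) (hTS : T ⊆ S) (h₁ : C.Ok (S \ T))
    (h₂ : C.Ok T) : C.Ok S := by
  have := Ctx.Ok.union C (C.inv_sdiff hS hT) hT Finset.sdiff_disjoint h₁ h₂
  rwa [Finset.sdiff_union_of_subset hTS] at this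

theorem Ctx.main : ∀ (n : ℕ) (S : Finset α), S.card ≤ n → C.Inv S → C.Bal S → C.Ok S ∨ C.Lone S := by
  classical
  intro n
  induction n with
  | zero =>
    intro S hn _ _
    refine Or.inl (Ctx.Ok.trivial C fun p hp => ?_)
    rw [Nat.le_zero, Finset.card_eq_zero] at hn
    simp [hn] at hp
  | succ n ih =>
    intro S hn hS hbal
    have small : ∀ (T : Finset α) (a : α), a ∈ T → T ⊆ S → (S \ T).card ≤ n := by
      intro T a haT hTS
      have : (S \ T).card < S.card :=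
        Finset.card_lt_card ⟨Finset.sdiff_subset, fun h => (Finset.mem_sdiff.1 (h (hTS haT))).2 haT⟩
      omega
    by_cases h4 : ∃ a ∈ S, C.Pair a ∧ Even (C.per a) ∧ 4 ≤ C.per a
    · obtain ⟨a, haS, ha, hev, h4'⟩ := h4
      rcases ih _ (small _ a (C.self_mem_orb a) (C.orb_subset hS haS)) (C.inv_sdiff hS (C.orb_inv a))
        (C.bal_sdiff_pair hbal ha) with h | ⟨b, hb, hkb, hSb⟩
      · exact Or.inl (Ctx.Ok.of_split C hS (C.orb_inv a) (C.orb_subset hS haS) h (C.ok_long a ha hev h4'))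
      · have hba : b ∉ C.orb a := (Finset.mem_sdiff.1 (hSb ▸ C.self_mem_orb b : b ∈ S \ C.orb a)).2
        left
        rw [show S = C.orb a ∪ C.orb b by rw [← hSb, Finset.union_sdiff_of_subset (C.orb_subset hS haS)]]
        exact C.ok_two ha hb hba hev (by rw [hkb]; decide)
    by_cases hAB : (∃ f ∈ S, C.y f = f ∧ Even (C.per f)) ∨ ∃ e ∈ S, C.x e = e ∧ Even (C.per e)
    · have hA : ∃ f ∈ S, C.y f = f ∧ Even (C.per f) := by
        rcases hAB with h | ⟨e, heS, he, hee⟩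
        · exact h
        · unfold Ctx.Bal at hbal
          have hpos : 0 < (S.filter fun p => C.x p = p ∧ Even (C.per p)).card :=
            Finset.card_pos.2 ⟨e, Finset.mem_filter.2 ⟨heS, he, hee⟩⟩
          rw [← hbal] at hpos
          obtain ⟨f, hf⟩ := Finset.card_pos.1 hpos
          exact ⟨f, (Finset.mem_filter.1 hf).1, (Finset.mem_filter.1 hf).2⟩
      obtain ⟨f, hfS, hf, hef⟩ := hA
      obtain ⟨e, heS, he, hee⟩ : ∃ e ∈ S, C.x e = e ∧ Even (C.per e) := by
        unfold Ctx.Bal at hbal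
        have hpos : 0 < (S.filter fun p => C.y p = p ∧ Even (C.per p)).card :=
          Finset.card_pos.2 ⟨f, Finset.mem_filter.2 ⟨hfS, hf, hef⟩⟩
        rw [hbal] at hpos
        obtain ⟨e, he⟩ := Finset.card_pos.1 hpos
        exact ⟨e, (Finset.mem_filter.1 he).1, (Finset.mem_filter.1 he).2⟩
      have hTS : C.orb f ∪ C.orb e ⊆ S := Finset.union_subset (C.orb_subset hS hfS) (C.orb_subset hS heS)
      have hT : C.Inv (C.orb f ∪ C.orb e) := C.inv_union (C.orb_inv f) (C.orb_inv e)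
      rcases ih _ (small _ f (Finset.mem_union_left _ (C.self_mem_orb f)) hTS) (C.inv_sdiff hS hT)
        (C.bal_sdiff_ab hbal hS hfS heS hf he hef hee) with h | ⟨a, ha, hka, hSa⟩
      · exact Or.inl (Ctx.Ok.of_split C hS hT hTS h (C.ok_ab hf he hef hee))
      · left
        rw [show S = C.orb a ∪ (C.orb f ∪ C.orb e) by
          rw [← hSa, Finset.sdiff_union_of_subset hTS]]
        exact C.ok_pab ha hka hf he hef hee
    push Not at h4 hAB
    have hev : ∀ p ∈ S, Even (C.per p) → C.Pair p ∧ C.per p = 2 := by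
      intro p hp hpe
      have hP : C.Pair p := by
        by_contra hP
        rcases C.self_cases hP with ⟨f, hf, hyf⟩ | ⟨-, e, he, hxe⟩
        · exact hAB.1 f (C.orb_subset hS hp hf) hyf (by rw [C.per_mem_orb hf]; exact hpe)
        · exact hAB.2 e (C.orb_subset hS hp he) hxe (by rw [C.per_mem_orb he]; exact hpe)
      refine ⟨hP, ?_⟩
      have := h4 p hp hP hpe
      have := C.per_pos p
      obtain ⟨r, hr⟩ := hpe
      omega
    by_cases hE : ∃ a ∈ S, Even (C.per a)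
    swap
    · push Not at hE
      exact Or.inl (Ctx.Ok.trivial C fun p hp => Nat.not_even_iff_odd.1 (hE p hp))
    obtain ⟨a, haS, hae⟩ := hE
    obtain ⟨ha, hka⟩ := hev a haS hae
    have haT := C.orb_subset hS haS
    by_cases hE2 : ∃ b ∈ S \ C.orb a, Even (C.per b)
    · obtain ⟨b, hbS', hbe⟩ := hE2
      obtain ⟨hbS, hba⟩ := Finset.mem_sdiff.1 hbS'
      obtain ⟨hb, hkb⟩ := hev b hbS hbe
      have hTS : C.orb a ∪ C.orb b ⊆ S := Finset.union_subset haT (C.orb_subset hS hbS)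
      have hT : C.Inv (C.orb a ∪ C.orb b) := C.inv_union (C.orb_inv a) (C.orb_inv b)
      have hbal' : C.Bal (S \ (C.orb a ∪ C.orb b)) := by
        have := C.bal_sdiff_pair (C.bal_sdiff_pair hbal ha) hb
        rwa [sdiff_sdiff_left] at this
      rcases ih _ (small _ a (Finset.mem_union_left _ (C.self_mem_orb a)) hTS) (C.inv_sdiff hS hT) hbal' with
        h | ⟨c, hc, hkc, hSc⟩
      · exact Or.inl (Ctx.Ok.of_split C hS hT hTS h
          (C.ok_two ha hb hba (by rw [hka]; decide) (by rw [hkb]; decide)))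
      · have hc' := (Finset.mem_sdiff.1 (hSc ▸ C.self_mem_orb c : c ∈ S \ (C.orb a ∪ C.orb b))).2
        rw [Finset.mem_union, not_or] at hc'
        left
        rw [show S = C.orb a ∪ (C.orb b ∪ C.orb c) by
          rw [← hSc, ← Finset.union_assoc, Finset.union_sdiff_of_subset hTS]]
        exact C.ok_ppp ha hb hc hka hkb hkc hba hc'.1 hc'.2
    push Not at hE2
    by_cases hrest : (S \ C.orb a).Nonempty
    swap
    · right
      refine ⟨a, ha, hka, ?_⟩
      rw [Finset.not_nonempty_iff_eq_empty, Finset.sdiff_eq_empty_iff_subset] at hrest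
      exact Finset.Subset.antisymm hrest haT
    obtain ⟨p, hp⟩ := hrest
    have hpodd : Odd (C.per p) := Nat.not_even_iff_odd.1 (hE2 p hp)
    obtain ⟨hpS, hpa⟩ := Finset.mem_sdiff.1 hp
    left
    have hTS : C.orb a ∪ C.orb p ⊆ S := Finset.union_subset haT (C.orb_subset hS hpS)
    have hT : C.Inv (C.orb a ∪ C.orb p) := C.inv_union (C.orb_inv a) (C.orb_inv p)
    refine Ctx.Ok.of_split C hS hT hTS (Ctx.Ok.trivial C fun q hq => ?_) ?_
    · rw [Finset.mem_sdiff, Finset.mem_union, not_or] at hq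
      exact Nat.not_even_iff_odd.1 (hE2 q (Finset.mem_sdiff.2 ⟨hq.1, hq.2.1⟩))
    · by_cases hP : C.Pair p
      · exact C.ok_pq ha hka hP hpa hpodd
      · rcases C.self_cases hP with ⟨f, hf, hyf⟩ | ⟨he, -⟩
        · have horb : C.orb p = C.orb f := by
            refine Finset.Subset.antisymm (C.orb_subset (C.orb_inv f) ?_) (C.orb_subset (C.orb_inv p) hf)
            rcases C.mem_orb.1 hf with ⟨i, hi⟩ | ⟨i, hi⟩
            · exact C.mem_orb.2 (Or.inl ⟨-i, by rw [← hi, C.gp_add, neg_add_cancel, C.gp_zero]⟩)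
            · exact C.mem_orb.2 (Or.inr ⟨i, by rw [← hi, C.y_gp, C.y_y, C.gp_add, add_neg_cancel, C.gp_zero]⟩)
          rw [horb]
          refine C.ok_pf ha hka hyf (by rw [C.per_mem_orb hf]; exact hpodd) fun h => hpa ?_
          have := C.orb_subset (C.orb_inv a) h
          exact this (by rw [← horb]; exact C.self_mem_orb p)
        · exact absurd he (Nat.not_even_iff_odd.2 hpodd)

theorem Ctx.bal_univ (h : (Finset.univ.filter fun p => C.y p = p).card = (Finset.univ.filter fun p => C.x p = p).card) :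
    C.Bal Finset.univ := by
  classical
  unfold Ctx.Bal
  have hodd : (Finset.univ.filter fun p => C.y p = p ∧ ¬ Even (C.per p)).card =
      (Finset.univ.filter fun p => C.x p = p ∧ ¬ Even (C.per p)).card := by
    refine Finset.card_nbij' (fun p => C.gp (((C.per p + 1) / 2 : ℕ)) p) (fun p => C.gp (((C.per p - 1) / 2 : ℕ)) p)
      ?_ ?_ ?_ ?_
    · intro p hp
      simp only [Finset.coe_filter, Finset.mem_univ, true_and, Set.mem_setOf_eq] at hp ⊢
      obtain ⟨r, hr⟩ := Nat.not_even_iff_odd.1 hp.2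
      refine ⟨?_, by rw [C.per_gp]; exact hp.2⟩
      rw [C.x_eq, C.y_gp, hp.1, ← C.gp_one, C.gp_add, C.gp_eq_iff, hr,
        show (2 * r + 1 + 1) / 2 = r + 1 by omega]
      exact ⟨-1, by push_cast; ring⟩
    · intro p hp
      simp only [Finset.coe_filter, Finset.mem_univ, true_and, Set.mem_setOf_eq] at hp ⊢
      obtain ⟨r, hr⟩ := Nat.not_even_iff_odd.1 hp.2
      refine ⟨?_, by rw [C.per_gp]; exact hp.2⟩
      rw [C.y_gp, C.y_of_x_fix hp.1, C.gp_add, C.gp_eq_iff, hr, show (2 * r + 1 - 1) / 2 = r by omega]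
      exact ⟨-1, by push_cast; ring⟩
    · intro p hp
      simp only [Finset.coe_filter, Finset.mem_univ, true_and, Set.mem_setOf_eq] at hp
      obtain ⟨r, hr⟩ := Nat.not_even_iff_odd.1 hp.2
      simp only [C.per_gp, C.gp_add]
      rw [C.gp_self_iff, hr]
      exact ⟨1, by push_cast; omega⟩
    · intro p hp
      simp only [Finset.coe_filter, Finset.mem_univ, true_and, Set.mem_setOf_eq] at hp
      obtain ⟨r, hr⟩ := Nat.not_even_iff_odd.1 hp.2
      simp only [C.per_gp, C.gp_add]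
      rw [C.gp_self_iff, hr]
      exact ⟨1, by push_cast; omega⟩
  have s1 := Finset.card_filter_add_card_filter_not (s := Finset.univ.filter fun p => C.y p = p)
    (fun p => Even (C.per p))
  have s2 := Finset.card_filter_add_card_filter_not (s := Finset.univ.filter fun p => C.x p = p)
    (fun p => Even (C.per p))
  rw [Finset.filter_filter, Finset.filter_filter] at s1 s2
  omega

theorem exists_mid (hn : 5 ≤ Fintype.card α) (x y : Perm α) (hx : x * x = 1) (hy : y * y = 1) (hc : IsConj x y) :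
    ∃ z : Perm α, IsConj x z ∧ Odd (orderOf (x * z)) ∧ Odd (orderOf (z * y)) := by
  classical
  let C : Ctx α := ⟨x, y, hx, hy⟩
  obtain ⟨c, hc'⟩ := isConj_iff.1 hc
  have hbal : C.Bal Finset.univ := by
    refine C.bal_univ (Finset.card_equiv c⁻¹ fun p => ?_)
    simp only [Finset.mem_filter, Finset.mem_univ, true_and]
    show y p = p ↔ x (c⁻¹ p) = c⁻¹ p
    rw [← hc']
    simp only [Perm.mul_apply]
    constructor
    · intro h; nth_rw 2 [← h]; simp
    · intro h; rw [h]; simp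
  rcases C.main _ Finset.univ le_rfl (fun p _ => ⟨fun i => Finset.mem_univ _, Finset.mem_univ _⟩) hbal with
    ⟨w, -, hinv, hper⟩ | ⟨a, -, hka, hall⟩
  swap
  · exfalso
    have : C.orb a ⊆ {C.gp 0 a, C.gp 1 a, C.gp 0 (C.y a), C.gp 1 (C.y a)} := by
      intro q hq
      simp only [Finset.mem_insert, Finset.mem_singleton]
      have key : ∀ (b : α) (i : ℤ), C.per b = 2 → C.gp i b = C.gp 0 b ∨ C.gp i b = C.gp 1 b := by
        intro b i hb
        rw [C.gp_eq_iff, C.gp_eq_iff, hb]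
        omega
      rcases C.mem_orb.1 hq with ⟨i, rfl⟩ | ⟨i, rfl⟩
      · rcases key a i hka with h | h <;> simp [h]
      · rcases key (C.y a) i (by rw [C.per_y, hka]) with h | h <;> simp [h]
    rw [← hall] at this
    have h := (Finset.card_le_card this).trans Finset.card_le_four
    rw [Finset.card_univ] at h
    omega
  have hw : Odd (orderOf w) := odd_orderOf_of_oddPer fun p => (hper p (Finset.mem_univ p)).1
  have hgw : Odd (orderOf (C.g * w)) := odd_orderOf_of_oddPer fun p => (hper p (Finset.mem_univ p)).2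
  have hwy : w * y * w = y := Perm.ext fun p => hinv p
  have hxz : x * (y * w) = C.g * w := (mul_assoc x y w).symm
  have hzz : (y * w) * (y * w) = 1 := by
    rw [mul_assoc, ← mul_assoc w y w, hwy, hy]
  refine ⟨y * w, ?_, by rw [hxz]; exact hgw, ?_⟩
  · obtain ⟨m, hm⟩ := hgw
    set z := y * w
    set r := C.g * w with hr
    have hr1 : r ^ (2 * m + 1) = 1 := by rw [← hm]; exact pow_orderOf_eq_one r
    have hz : z = x * r := by rw [← hxz, ← mul_assoc, hx, one_mul]
    have hs : SemiconjBy x r r⁻¹ := by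
      rw [SemiconjBy, ← hxz, _root_.mul_inv_rev, inv_eq_of_mul_eq_one_right hzz, inv_eq_of_mul_eq_one_right hx]
      rw [mul_assoc z x x, hx, mul_one, ← mul_assoc, hx, one_mul]
    have h2 : x * r ^ m = (r ^ m)⁻¹ * x := by
      have := hs.pow_right m
      rw [inv_pow] at this
      exact this.eq
    rw [isConj_iff]
    refine ⟨r ^ m, ?_⟩
    have hcalc : x * (r ^ m)⁻¹ = r ^ m * x := by
      rw [eq_comm, eq_mul_inv_iff_mul_eq, mul_assoc, h2, mul_inv_cancel_left]
    rw [mul_assoc, hcalc, ← mul_assoc, ← pow_add, hz]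
    have : x * r = r⁻¹ * x := hs.eq
    rw [this, mul_left_inj]
    refine (inv_eq_of_mul_eq_one_right ?_).symm
    rw [← pow_succ', ← hr1]
    congr 1; omega
  · have : y * w * y = w⁻¹ := by
      refine (inv_eq_of_mul_eq_one_right ?_).symm
      rw [← mul_assoc, ← mul_assoc, hwy, hy]
    rw [this, orderOf_inv]
    exact hw

theorem exists_comm {n' : ℕ} (t : Perm (Fin n')) (hn : 5 ≤ n') (ht : orderOf t = 2) :
    ∃ s : Perm (Fin n'), IsConj t s ∧ s ≠ t ∧ t * s = s * t := by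
  classical
  have htt : ∀ p, t (t p) = p := fun p => by
    rw [← Perm.mul_apply, ← pow_two, ← ht, pow_orderOf_eq_one, Perm.one_apply]
  obtain ⟨a, hab⟩ : ∃ a, t a ≠ a := by
    by_contra h
    push Not at h
    rw [show t = 1 from Perm.ext h, orderOf_one] at ht
    exact absurd ht (by norm_num)
  have comm : ∀ σ : Perm (Fin n'), (∀ p, σ (σ p) = p) → ∀ (s : Perm (Fin n')), s = σ * t * σ → σ * σ = 1 →
      (∀ p, t (s p) = s (t p)) → s ≠ t → ∃ s, IsConj t s ∧ s ≠ t ∧ t * s = s * t := by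
    intro σ hσ s hs hσσ hcomm hne
    refine ⟨s, isConj_iff.2 ⟨σ, by rw [inv_eq_of_mul_eq_one_right hσσ, hs]⟩, hne, Perm.ext fun p => hcomm p⟩
  set b := t a with hb
  have htb : t b = a := htt a
  by_cases h2 : ∃ c, c ≠ a ∧ c ≠ b ∧ t c ≠ c
  · obtain ⟨c, hca, hcb, htc⟩ := h2
    set d := t c with hd
    have htd : t d = c := htt c
    have hda : d ≠ a := fun h => hcb (by rw [← htd, h])
    have hdb : d ≠ b := fun h => hca (t.injective h)
    refine comm (swap b c) (swap_apply_self b c) _ rfl (swap_mul_self b c) (fun p => ?_) fun h => ?_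
    · have other : ∀ q, q ≠ a → q ≠ b → q ≠ c → q ≠ d →
          (swap b c * t * swap b c) q = t q ∧ t q ≠ a ∧ t q ≠ b ∧ t q ≠ c ∧ t q ≠ d := by
        intro q qa qb qc qd
        have h1 : t q ≠ b := fun h => qa (t.injective h)
        have h2 : t q ≠ c := fun h => qd (by rw [← htt q, h])
        refine ⟨?_, fun h => qb (by rw [← htt q, h]), h1, h2, fun h => qc (t.injective h)⟩
        rw [Perm.mul_apply, Perm.mul_apply, swap_apply_of_ne_of_ne qb qc, swap_apply_of_ne_of_ne h1 h2]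
      have ea : (swap b c * t * swap b c) a = c := by
        rw [Perm.mul_apply, Perm.mul_apply, swap_apply_of_ne_of_ne hab.symm hca.symm, ← hb, swap_apply_left]
      have eb : (swap b c * t * swap b c) b = d := by
        rw [Perm.mul_apply, Perm.mul_apply, swap_apply_left, ← hd, swap_apply_of_ne_of_ne hdb htc]
      have ec : (swap b c * t * swap b c) c = a := by
        rw [Perm.mul_apply, Perm.mul_apply, swap_apply_right, htb, swap_apply_of_ne_of_ne hab.symm hca.symm]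
      have ed : (swap b c * t * swap b c) d = b := by
        rw [Perm.mul_apply, Perm.mul_apply, swap_apply_of_ne_of_ne hdb htc, htd, swap_apply_right]
      by_cases pa : p = a
      · rw [pa, ea, ← hd, ← hb, eb]
      by_cases pb : p = b
      · rw [pb, eb, htd, htb, ea]
      by_cases pc : p = c
      · rw [pc, ec, ← hb, ← hd, ed]
      by_cases pd : p = d
      · rw [pd, ed, htb, htd, ec]
      obtain ⟨e1, h1, h2, h3, h4⟩ := other p pa pb pc pd
      rw [e1, (other (t p) h1 h2 h3 h4).1]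
    · have := congrArg (fun f : Perm (Fin n') => f a) h
      simp only [Perm.mul_apply, swap_apply_of_ne_of_ne hab.symm hca.symm, ← hb, swap_apply_left] at this
      exact hcb this
  · push Not at h2
    obtain ⟨c, hca, hcb⟩ : ∃ c, c ≠ a ∧ c ≠ b := by
      by_contra h
      push Not at h
      have : Finset.univ ⊆ ({a, b} : Finset (Fin n')) := fun p _ => by
        simp only [Finset.mem_insert, Finset.mem_singleton]
        exact or_iff_not_imp_left.2 (h p)
      have := (Finset.card_le_card this).trans Finset.card_le_two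
      simp at this
      omega
    obtain ⟨d, hda, hdb, hdc⟩ : ∃ d, d ≠ a ∧ d ≠ b ∧ d ≠ c := by
      by_contra h
      push Not at h
      have : Finset.univ ⊆ ({a, b, c} : Finset (Fin n')) := fun p _ => by
        simp only [Finset.mem_insert, Finset.mem_singleton]
        by_cases pa : p = a
        · exact Or.inl pa
        by_cases pb : p = b
        · exact Or.inr (Or.inl pb)
        exact Or.inr (Or.inr (h p pa pb))
      have := (Finset.card_le_card this).trans Finset.card_le_three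
      simp at this
      omega
    have tc := h2 c hca hcb
    have td := h2 d hda hdb
    set σ : Perm (Fin n') := swap a c * swap b d with hσ
    have sa : σ a = c := by simp [hσ, swap_apply_of_ne_of_ne hab.symm hda.symm]
    have sb : σ b = d := by simp [hσ, swap_apply_of_ne_of_ne hda hdc]
    have sc : σ c = a := by simp [hσ, swap_apply_of_ne_of_ne hcb hdc.symm]
    have sd : σ d = b := by simp [hσ, swap_apply_of_ne_of_ne hab hcb.symm]
    have so : ∀ q, q ≠ a → q ≠ b → q ≠ c → q ≠ d → σ q = q := fun q qa qb qc qd => by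
      simp [hσ, swap_apply_of_ne_of_ne qb qd, swap_apply_of_ne_of_ne qa qc]
    have hσσ : ∀ p, σ (σ p) = p := by
      intro p
      by_cases pa : p = a
      · rw [pa, sa, sc]
      by_cases pb : p = b
      · rw [pb, sb, sd]
      by_cases pc : p = c
      · rw [pc, sc, sa]
      by_cases pd : p = d
      · rw [pd, sd, sb]
      rw [so p pa pb pc pd, so p pa pb pc pd]
    refine comm σ hσσ _ rfl (Perm.ext hσσ) (fun p => ?_) fun h => ?_
    · have ea : (σ * t * σ) a = a := by rw [Perm.mul_apply, Perm.mul_apply, sa, tc, sc]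
      have eb : (σ * t * σ) b = b := by rw [Perm.mul_apply, Perm.mul_apply, sb, td, sd]
      have ec : (σ * t * σ) c = d := by rw [Perm.mul_apply, Perm.mul_apply, sc, ← hb, sb]
      have ed : (σ * t * σ) d = c := by rw [Perm.mul_apply, Perm.mul_apply, sd, htb, sa]
      by_cases pa : p = a
      · rw [pa, ea, ← hb, eb]
      by_cases pb : p = b
      · rw [pb, eb, htb, ea]
      by_cases pc : p = c
      · rw [pc, ec, td, tc, ec]
      by_cases pd : p = d
      · rw [pd, ed, tc, td, ed]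
      have tp := h2 p pa pb
      have ep : (σ * t * σ) p = p := by
        rw [Perm.mul_apply, Perm.mul_apply, so p pa pb pc pd, tp, so p pa pb pc pd]
      rw [tp, ep, tp]
    · have := congrArg (fun f : Perm (Fin n') => f a) h
      simp only [Perm.mul_apply, sa, tc, sc] at this
      exact hab this.symm

/-- Let n ≥ 5 and let X be a conjugacy class of involutions of the symmetric group of degree n. The graph on X joining two distinct involutions whose product has odd order is connected and has diameter exactly 2. -/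
theorem result (n : ℕ) (hn : 5 ≤ n) (t : Equiv.Perm (Fin n)) (ht : orderOf t = 2) :
    (SimpleGraph.fromRel fun x y : {x : Equiv.Perm (Fin n) // IsConj t x} =>
        Odd (orderOf (x.1 * y.1))).Connected ∧
      (SimpleGraph.fromRel fun x y : {x : Equiv.Perm (Fin n) // IsConj t x} =>
        Odd (orderOf (x.1 * y.1))).diam = 2 := by
  classical
  set R := fun x y : {x : Equiv.Perm (Fin n) // IsConj t x} => Odd (orderOf (x.1 * y.1)) with hR
  set Γ := SimpleGraph.fromRel R with hΓ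
  have htt : t * t = 1 := by rw [← pow_two, ← ht, pow_orderOf_eq_one]
  have hinv : ∀ x : {x : Equiv.Perm (Fin n) // IsConj t x}, x.1 * x.1 = 1 := by
    intro x
    obtain ⟨c, hc⟩ := isConj_iff.1 x.2
    rw [← hc, show c * t * c⁻¹ * (c * t * c⁻¹) = c * (t * t) * c⁻¹ by group, htt, mul_one, mul_inv_cancel]
  have hsymm : ∀ x y : {x : Equiv.Perm (Fin n) // IsConj t x}, orderOf (x.1 * y.1) = orderOf (y.1 * x.1) := by
    intro x y
    rw [← orderOf_inv (x.1 * y.1), _root_.mul_inv_rev, inv_eq_of_mul_eq_one_right (hinv x),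
      inv_eq_of_mul_eq_one_right (hinv y)]
  have hadj : ∀ x y, x ≠ y → R x y → Γ.Adj x y := fun x y h h' => (SimpleGraph.fromRel_adj R x y).2 ⟨h, Or.inl h'⟩
  have hdist : ∀ u v, Γ.edist u v ≤ 2 := by
    intro u v
    obtain ⟨z, hz, h1, h2⟩ := exists_mid (by simpa using hn) u.1 v.1 (hinv u) (hinv v) (u.2.symm.trans v.2)
    set Z : {x : Equiv.Perm (Fin n) // IsConj t x} := ⟨z, u.2.trans hz⟩
    have step : ∀ p q, R p q → ∃ w : Γ.Walk p q, w.length ≤ 1 := by
      intro p q h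
      by_cases hpq : p = q
      · subst hpq; exact ⟨.nil, by simp⟩
      · exact ⟨.cons (hadj p q hpq h) .nil, by simp⟩
    obtain ⟨w1, l1⟩ := step u Z h1
    obtain ⟨w2, l2⟩ := step Z v h2
    refine (SimpleGraph.edist_le (w1.append w2)).trans ?_
    rw [SimpleGraph.Walk.length_append]
    exact_mod_cast (by omega : w1.length + w2.length ≤ 2)
  haveI : Nonempty {x : Equiv.Perm (Fin n) // IsConj t x} := ⟨⟨t, IsConj.refl t⟩⟩
  refine ⟨⟨fun u v => ?_⟩, ?_⟩
  · refine SimpleGraph.reachable_of_edist_ne_top fun h => ?_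
    have := hdist u v
    rw [h] at this
    exact absurd this (by decide)
  obtain ⟨s, hs, hne, hcomm⟩ := exists_comm t hn ht
  have he : Γ.ediam = 2 := by
    refine le_antisymm (SimpleGraph.ediam_le_iff.2 hdist) (le_trans ?_
      (SimpleGraph.edist_le_ediam (u := ⟨t, IsConj.refl t⟩) (v := ⟨s, hs⟩)))
    refine le_of_not_gt fun hlt => ?_
    have h0 : Γ.edist ⟨t, IsConj.refl t⟩ ⟨s, hs⟩ ≠ 0 := by
      rw [Ne, SimpleGraph.edist_eq_zero_iff]
      exact fun h => hne (congrArg Subtype.val h).symm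
    have h1 : Γ.edist ⟨t, IsConj.refl t⟩ ⟨s, hs⟩ ≠ 1 := by
      rw [Ne, SimpleGraph.edist_eq_one_iff_adj]
      intro h
      have hodd : Odd (orderOf (t * s)) := by
        rcases ((SimpleGraph.fromRel_adj R _ _).1 h).2 with h' | h'
        · exact h'
        · exact hsymm ⟨s, hs⟩ ⟨t, IsConj.refl t⟩ ▸ h'
      have hss := hinv ⟨s, hs⟩
      have hsq : (t * s) ^ 2 = 1 := by
        rw [(show Commute t s from hcomm).mul_pow, pow_two, pow_two, htt, hss, one_mul]
      rcases (Nat.dvd_prime Nat.prime_two).1 (orderOf_dvd_of_pow_eq_one hsq) with h' | h'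
      · rw [orderOf_eq_one_iff] at h'
        exact hne (mul_left_cancel (h'.trans htt.symm))
      · rw [h'] at hodd; exact absurd hodd (by decide)
    revert hlt h0 h1
    generalize Γ.edist ⟨t, IsConj.refl t⟩ ⟨s, hs⟩ = e
    intro hlt h0 h1
    obtain ⟨k, rfl⟩ := ENat.ne_top_iff_exists.1 (ne_top_of_lt hlt)
    norm_cast at hlt h0 h1
    omega
  rw [SimpleGraph.diam, he]
  rfl

end Cfsg.Agent.S3265
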