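import Cfsg.Statements.S3266
import Mathlib

set_option autoImplicit false
open Cfsg

namespace Cfsg.Agent.S3266

open Matrix Finset

section Field
variable {F : Type*} [Field F] [Fintype F]

theorem two_sq (a : F) : ∃ x y : F, x ^ 2 + y ^ 2 = a := by
  by_cases h2 : ringChar F = 2
  · obtain ⟨x, hx⟩ := FiniteField.isSquare_of_char_two h2 a
    exact ⟨x, 0, by rw [hx]; ring⟩
  · obtain ⟨x, y, hxy⟩ := FiniteField.exists_root_sum_quadratic (R := F) (f := Polynomial.X ^ 2)
      (g := Polynomial.X ^ 2 - Polynomial.C a) (Polynomial.degree_X_pow 2)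
      (Polynomial.degree_X_pow_sub_C (by norm_num) a) (FiniteField.odd_card_of_char_ne_two h2)
    simp only [Polynomial.eval_pow, Polynomial.eval_X, Polynomial.eval_sub, Polynomial.eval_C] at hxy
    exact ⟨x, y, by linear_combination hxy⟩

theorem sum_pow_all {m : ℕ} (hm : Fintype.card F = 2 * m + 1) (n : ℕ) :
    ∑ z : F, z ^ n = if 2 * m ∣ n ∧ n ≠ 0 then -1 else 0 := by
  classical
  by_cases hn : n = 0
  · simp [hn]
  · have h : ∑ z : F, z ^ n = ∑ z : Fˣ, (z : F) ^ n := by
      rw [← Finset.sum_subset (subset_univ (univ.map ⟨fun z : Fˣ => (z : F), Units.val_injective⟩))]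
      · simp
      · intro z _ hz
        have : z = 0 := by
          by_contra h0
          exact hz (Finset.mem_map.2 ⟨Units.mk0 z h0, mem_univ _, rfl⟩)
        rw [this, zero_pow hn]
    rw [h, FiniteField.sum_pow_units]
    simp [hn, hm]

theorem sum_binom {m : ℕ} (hm : Fintype.card F = 2 * m + 1) (j l : ℕ) (c d : F) :
    ∑ z : F, z ^ j * (c + d * z ^ l) ^ m =
      -∑ i ∈ range (m + 1),
        if 2 * m ∣ j + l * i ∧ j + l * i ≠ 0 then (m.choose i : F) * c ^ (m - i) * d ^ i else 0 := by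
  have h : ∀ z : F, z ^ j * (c + d * z ^ l) ^ m =
      ∑ i ∈ range (m + 1), ((m.choose i : F) * c ^ (m - i) * d ^ i) * z ^ (j + l * i) := by
    intro z
    rw [add_comm c, add_pow, mul_sum]
    refine sum_congr rfl fun i _ => ?_
    rw [mul_pow, pow_add, pow_mul]
    ring
  simp only [h]
  rw [sum_comm, ← sum_neg_distrib]
  refine sum_congr rfl fun i _ => ?_
  rw [← mul_sum, sum_pow_all hm]
  split_ifs <;> simp

variable {m : ℕ}

theorem dichot (h2 : ringChar F ≠ 2) (hm : Fintype.card F = 2 * m + 1) {a : F} (ha : a ≠ 0) :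
    (IsSquare a ↔ a ^ m = 1) ∧ (a ^ m = 1 ∨ a ^ m = -1) := by
  have he : Fintype.card F / 2 = m := by omega
  exact ⟨he ▸ FiniteField.isSquare_iff h2 ha, he ▸ FiniteField.pow_dichotomy h2 ha⟩

theorem one_ne_neg_one (h2 : ringChar F ≠ 2) : (1 : F) ≠ -1 := fun h => Ring.two_ne_zero h2 (by linear_combination h)

theorem neg_one_not_square (hm : Fintype.card F = 2 * m + 1) (hmo : Odd m) :
    ¬ IsSquare (-1 : F) := by
  rw [FiniteField.isSquare_neg_one_iff]
  obtain ⟨k, hk⟩ := hmo
  omega

theorem two_mul_m (hm : Fintype.card F = 2 * m + 1) : (2 : F) * (m : F) = -1 := by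
  have h := FiniteField.cast_card_eq_zero F
  rw [hm] at h
  push_cast at h
  linear_combination h

theorem exists_param (h2 : ringChar F ≠ 2) (hm : Fintype.card F = 2 * m + 1) (hmo : Odd m) (hm3 : 3 ≤ m)
    {k β : F} (hk : k ≠ 0) (hβ : k ^ 2 + β ^ 2 = 1) :
    ∃ a b u n e h : F, a ^ 2 + b ^ 2 = -1 ∧ u ^ 2 + n ^ 2 = -e ^ 2 ∧ h ^ 2 = e ^ 2 - (a * β * u + b * n) ^ 2
      ∧ h ≠ 0 ∧ a ≠ 0 ∧ u ≠ 0 ∧ e ≠ 0 := by
  have hns := neg_one_not_square hm hmo
  have h2F : (2 : F) ≠ 0 := Ring.two_ne_zero h2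
  have hne : ∀ z : F, z ^ 2 ≠ -1 := fun z hz => hns ⟨z, by rw [← hz, sq]⟩
  have h1ne := one_ne_neg_one h2
  have hneg1 : ((-1 : F)) ^ m = -1 := Odd.neg_one_pow hmo
  have hm0 : (m : F) ≠ 0 := by
    intro h; have := two_mul_m hm; rw [h, mul_zero] at this; exact neg_ne_zero.2 one_ne_zero this.symm
  have hroot : ∀ w : F, w ≠ 0 → w ^ m = -1 → ∃ a, a ^ 2 = -w := by
    intro w hw hwm
    obtain ⟨a, ha⟩ := (dichot h2 hm (neg_ne_zero.2 hw)).1.2 (by rw [neg_pow, hneg1, hwm]; ring)
    exact ⟨a, by rw [ha, sq]⟩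
  by_cases hb : β = 0
  · -- commuting pair
    obtain ⟨z, hz1, hf, hg⟩ : ∃ z : F, z ^ 2 ≠ 1 ∧ (1 + z ^ 2) ^ m = -1 ∧ (1 - z ^ 2) ^ m = -1 := by
      by_contra hno
      push Not at hno
      let w : F → F := fun z => z ^ 4 * (1 - (1 + z ^ 2) ^ m) * (1 - (1 - z ^ 2) ^ m)
      have hw : ∀ z : F, z ^ 2 ≠ 1 → w z = 0 := by
        intro z hz
        have n1 : (1 : F) + z ^ 2 ≠ 0 := fun h => hne z (by linear_combination h)
        have n2 : (1 : F) - z ^ 2 ≠ 0 := fun h => hz (by linear_combination -h)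
        rcases (dichot h2 hm n1).2 with h | h
        · simp [w, h]
        · rcases (dichot h2 hm n2).2 with h' | h'
          · simp [w, h']
          · exact absurd h' (hno z hz h)
      classical
      have hS : ∑ z : F, w z = 2 * (1 - (2 : F) ^ m) := by
        rw [← Finset.sum_subset (subset_univ ({1, -1} : Finset F))]
        · rw [sum_pair h1ne]
          simp only [w]
          norm_num [zero_pow (show m ≠ 0 by omega)]
          ring
        · intro z _ hz
          refine hw z fun hh => hz ?_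
          rcases sq_eq_one_iff.1 hh with rfl | rfl <;> simp
      have hP : ∀ c : ℕ, (∑ i ∈ range (m + 1),
          if 2 * m ∣ c + 2 * i ∧ c + 2 * i ≠ 0 then (m.choose i : F) * (1 : F) ^ (m - i) * (1:F) ^ i else 0) =
          ∑ i ∈ range (m + 1), if 2 * m ∣ c + 2 * i ∧ c + 2 * i ≠ 0 then (m.choose i : F) else 0 := by
        intro c; simp
      have hd1 : ∀ i ∈ range (m + 1), (2 * m ∣ 4 + 2 * i ∧ 4 + 2 * i ≠ 0) ↔ i = m - 2 := by
        intro i hi
        rw [mem_range] at hi
        constructor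
        · rintro ⟨⟨t, ht⟩, -⟩
          rcases Nat.lt_or_ge t 2 with h | h
          · interval_cases t <;> omega
          · have := Nat.mul_le_mul_left (2 * m) h
            omega
        · rintro rfl
          exact ⟨⟨1, by omega⟩, by omega⟩
      have hd2 : ∀ i ∈ range (m + 1), (2 * m ∣ 4 + 4 * i ∧ 4 + 4 * i ≠ 0) ↔ i = m - 1 := by
        intro i hi
        rw [mem_range] at hi
        obtain ⟨k', hk'⟩ := hmo
        constructor
        · rintro ⟨⟨t, ht⟩, -⟩
          rcases Nat.lt_or_ge t 3 with h | h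
          · interval_cases t <;> omega
          · have := Nat.mul_le_mul_left (2 * m) h
            omega
        · rintro rfl
          exact ⟨⟨2, by omega⟩, by omega⟩
      have hsum : ∑ z : F, w z = -(m : F) := by
        have e : ∀ z : F, w z = z ^ 4 - z ^ 4 * (1 + 1 * z ^ 2) ^ m - z ^ 4 * (1 + (-1) * z ^ 2) ^ m
            + z ^ 4 * (1 + (-1) * z ^ 4) ^ m := by
          intro z
          have : (1 + (-1) * z ^ 4) ^ m = (1 + z ^ 2) ^ m * (1 - z ^ 2) ^ m := by
            rw [← mul_pow]; congr 1; ring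
          rw [this]; simp only [w]; ring
        simp only [e, sum_add_distrib, sum_sub_distrib, sum_binom hm]
        rw [FiniteField.sum_pow_lt_card_sub_one F 4 (by omega)]
        rw [sum_congr rfl fun i hi => if_congr (hd1 i hi) rfl rfl,
          sum_congr rfl fun i hi => if_congr (hd1 i hi) rfl rfl,
          sum_congr rfl fun i hi => if_congr (hd2 i hi) rfl rfl,
          sum_ite_eq', sum_ite_eq', sum_ite_eq', if_pos (mem_range.2 (by omega)), if_pos (mem_range.2 (by omega)),
          if_pos (mem_range.2 (by omega))]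
        obtain ⟨k', rfl⟩ := hmo
        have o1 : Odd (2 * k' + 1 - 2) := ⟨k' - 1, by omega⟩
        have o2 : Even (2 * k' + 1 - 1) := ⟨k', by omega⟩
        rw [o1.neg_one_pow, o2.neg_one_pow, one_pow, one_pow, one_pow,
          show (2 * k' + 1).choose (2 * k' + 1 - 1) = 2 * k' + 1 by simp]
        ring
      rw [hS] at hsum
      have h2m := two_mul_m hm
      have hkey : (1 : F) = 4 * (1 - (2 : F) ^ m) := by linear_combination h2m + (-2 : F) * hsum
      rcases (dichot h2 hm h2F).2 with h | h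
      · rw [h] at hkey; exact one_ne_zero (hkey.trans (by ring))
      · rw [h] at hkey
        have h7 : (7 : F) = 0 := by linear_combination -hkey
        have : IsSquare (2 : F) := ⟨3, by linear_combination -h7⟩
        exact h1ne (((dichot h2 hm h2F).1.1 this).symm.trans h)
    have n1 : (1 : F) + z ^ 2 ≠ 0 := fun h => hne z (by linear_combination h)
    obtain ⟨a, ha⟩ := hroot _ n1 hf
    have n2 : (1 : F) - z ^ 4 ≠ 0 := by
      rw [show (1 : F) - z ^ 4 = (1 + z ^ 2) * (1 - z ^ 2) by ring]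
      exact mul_ne_zero n1 fun h => hz1 (by linear_combination -h)
    obtain ⟨h, hh⟩ := (dichot h2 hm n2).1.2 (by
      rw [show (1 : F) - z ^ 4 = (1 + z ^ 2) * (1 - z ^ 2) by ring, mul_pow, hf, hg]; ring)
    have ha0 : a ≠ 0 := by intro h0; rw [h0] at ha; exact n1 (by linear_combination ha)
    refine ⟨a, z, a, z, 1, h, by linear_combination ha, by linear_combination ha,
      by rw [hb]; linear_combination -hh, fun h0 => n2 (by rw [hh, h0, mul_zero]), ha0, ha0, one_ne_zero⟩
  · obtain ⟨y, hy0, hy1, hy2⟩ : ∃ y : F, y ≠ 0 ∧ (y ^ 2 + 1) ^ m = 1 ∧ (y ^ 2 + k ^ 2) ^ m = -1 := by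
      by_contra hno
      push Not at hno
      have hq : ∀ y : F, y ≠ 0 → (y ^ 2 + 1) ^ m = (y ^ 2 + k ^ 2) ^ m := by
        intro y hy
        have n1 : y ^ 2 + 1 ≠ 0 := fun h => hne y (by linear_combination h)
        have n2 : y ^ 2 + k ^ 2 ≠ 0 := fun h => hne (y / k) (by field_simp; linear_combination h)
        rcases (dichot h2 hm n1).2 with h | h
        · rcases (dichot h2 hm n2).2 with h' | h'
          · rw [h, h']
          · exact absurd h' (hno y hy h)
        · rcases (dichot h2 hm n2).2 with h' | h'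
          · exfalso
            refine hno (k / y) (div_ne_zero hk hy) ?_ ?_
            · rw [show (k / y) ^ 2 + 1 = (y ^ 2 + k ^ 2) * y⁻¹ ^ 2 by field_simp; ring, mul_pow, h', one_mul,
                ← pow_mul, inv_pow, inv_eq_one,
                ← FiniteField.pow_card_sub_one_eq_one y hy, show Fintype.card F - 1 = 2 * m by omega]
            · rw [show (k / y) ^ 2 + k ^ 2 = (y ^ 2 + 1) * (k * y⁻¹) ^ 2 by field_simp; ring, mul_pow, h,
                ← pow_mul]
              have := FiniteField.pow_card_sub_one_eq_one (k * y⁻¹) (mul_ne_zero hk (inv_ne_zero hy))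
              rw [show Fintype.card F - 1 = 2 * m by omega] at this
              rw [this, mul_one]
          · rw [h, h']
      have hzero : ∑ y : F, (y ^ 2 * (1 + 1 * y ^ 2) ^ m - y ^ 2 * (k ^ 2 + 1 * y ^ 2) ^ m) = 0 := by
        refine sum_eq_zero fun y _ => ?_
        by_cases hy : y = 0
        · simp [hy]
        · rw [one_mul, add_comm 1, add_comm (k ^ 2), hq y hy, sub_self]
      have hd : ∀ i ∈ range (m + 1), (2 * m ∣ 2 + 2 * i ∧ 2 + 2 * i ≠ 0) ↔ i = m - 1 := by
        intro i hi
        rw [mem_range] at hi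
        constructor
        · rintro ⟨⟨t, ht⟩, -⟩
          rcases Nat.lt_or_ge t 2 with h | h
          · interval_cases t <;> omega
          · have := Nat.mul_le_mul_left (2 * m) h
            omega
        · rintro rfl
          exact ⟨⟨1, by omega⟩, by omega⟩
      rw [sum_sub_distrib, sum_binom hm, sum_binom hm,
        sum_congr rfl fun i hi => if_congr (hd i hi) rfl rfl,
        sum_congr rfl fun i hi => if_congr (hd i hi) rfl rfl, sum_ite_eq', sum_ite_eq',
        if_pos (mem_range.2 (by omega)), if_pos (mem_range.2 (by omega)),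
        show m - (m - 1) = 1 by omega] at hzero
      rw [← Nat.choose_symm (show m - 1 ≤ m by omega), show m - (m - 1) = 1 by omega,
        Nat.choose_one_right] at hzero
      have : (m : F) * (k ^ 2 - 1) = 0 := by simp only [pow_one, one_pow, mul_one] at hzero; linear_combination hzero
      exact hb (pow_eq_zero_iff two_ne_zero |>.1 (show β ^ 2 = 0 by
        linear_combination hβ - (mul_eq_zero.1 this).resolve_left hm0))
    have n1 : y ^ 2 + 1 ≠ 0 := fun h => hne y (by linear_combination h)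
    have n2 : y ^ 2 + k ^ 2 ≠ 0 := fun h => hne (y / k) (by field_simp; linear_combination h)
    obtain ⟨e, he⟩ := (dichot h2 hm n1).1.2 hy1
    obtain ⟨z, hz⟩ := hroot _ n2 hy2
    have he0 : e ≠ 0 := by intro h; rw [h] at he; exact n1 (by rw [he]; ring)
    have hz0 : z ≠ 0 := by intro h; rw [h] at hz; exact n2 (by linear_combination hz)
    have hu : z / k ≠ 0 := div_ne_zero hz0 hk
    refine ⟨y / k, z / k, z / k, -β * (y / k), e, e, ?_, ?_, ?_, he0, div_ne_zero hy0 hk, hu, he0⟩
    · field_simp; linear_combination hz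
    · field_simp; linear_combination hz - k ^ 2 * he + y ^ 2 * hβ
    · ring

end Field

section Mat
variable {F : Type*} [Field F] [Fintype F]

local notation "M2" => Matrix (Fin 2) (Fin 2) F
local notation "SL2" => Matrix.SpecialLinearGroup (Fin 2) F

/-- traceless, non-scalar -/
def Inv (A : SL2) : Prop := (A : M2).trace = 0 ∧ ∀ r : F, (A : M2) ≠ r • 1

abbrev proj (F : Type*) [Field F] [Fintype F] : Matrix.SpecialLinearGroup (Fin 2) F →* ProjectiveSpecialLinearGroup (Fin 2) F :=
  QuotientGroup.mk' _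

omit [Fintype F] in
theorem cayley (A : M2) : A * A = A.trace • A - A.det • 1 := by
  ext i j
  fin_cases i <;> fin_cases j <;> simp [Matrix.mul_apply, trace_fin_two, det_fin_two] <;> ring

theorem proj_eq_one {g : SL2} : proj F g = 1 ↔ ∃ r : F, (g : M2) = r • 1 := by
  refine (QuotientGroup.eq_one_iff g).trans ?_
  rw [Matrix.SpecialLinearGroup.mem_center_iff]
  constructor
  · rintro ⟨r, -, hr⟩
    exact ⟨r, by rw [← hr, scalar_apply, smul_one_eq_diagonal]⟩
  · rintro ⟨r, hr⟩
    refine ⟨r, ?_, by rw [hr, scalar_apply, smul_one_eq_diagonal]⟩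
    have := g.2
    rw [hr] at this
    simpa using this

theorem sq_eq (A : SL2) (hA : (A : M2).trace = 0) : (A : M2) * A = -1 := by
  rw [cayley, hA, Matrix.SpecialLinearGroup.det_coe]; simp

theorem inv_of_orderOf {x : ProjectiveSpecialLinearGroup (Fin 2) F} (hx : orderOf x = 2) :
    ∃ A : SL2, proj F A = x ∧ Inv A := by
  obtain ⟨A, rfl⟩ := QuotientGroup.mk'_surjective _ x
  have h1 : proj F A ≠ 1 := fun h => by
    have : orderOf (proj F A) = 1 := orderOf_eq_one_iff.2 h
    exact absurd (hx.symm.trans this) (by norm_num)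
  have hns : ∀ r : F, (A : M2) ≠ r • 1 := fun r hr => h1 (proj_eq_one.2 ⟨r, hr⟩)
  have h2 : proj F (A * A) = 1 := by
    have h := pow_orderOf_eq_one (proj F A)
    erw [hx] at h
    rwa [sq, ← map_mul] at h
  obtain ⟨r, hr⟩ := proj_eq_one.1 h2
  rw [Matrix.SpecialLinearGroup.coe_mul, cayley, Matrix.SpecialLinearGroup.det_coe] at hr
  refine ⟨A, rfl, ?_, hns⟩
  by_contra ht
  refine hns ((r + 1) / (A : M2).trace) ?_
  rw [sub_eq_iff_eq_add, one_smul] at hr
  rw [div_eq_inv_mul, mul_smul, add_smul, one_smul, ← hr, inv_smul_smul₀ ht]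

def J : SL2 := ⟨!![0, -1; 1, 0], by simp⟩

theorem conj_J {A : SL2} (hA : Inv A) : ∃ g : SL2, A * g = g * J := by
  obtain ⟨h0, hns⟩ := hA
  have hd := A.2
  rw [trace_fin_two] at h0
  rw [det_fin_two] at hd
  set a := (A : M2) 0 0 with ha
  set b := (A : M2) 0 1 with hb
  set c := (A : M2) 1 0 with hc
  have hd' : -a ^ 2 - b * c = 1 := by rw [← hd]; linear_combination -a * h0
  obtain ⟨x, y, hxy⟩ : ∃ x y : F, c * x ^ 2 - 2 * a * x * y - b * y ^ 2 = 1 := by
    by_cases hc0 : c = 0
    · by_cases hb0 : b = 0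
      · have h2 : (2 : F) ≠ 0 := by
          intro h2
          refine hns a ?_
          ext i j
          fin_cases i <;> fin_cases j
          · simp [ha]
          · simpa [← hb] using hb0
          · simpa [← hc] using hc0
          · simp
            linear_combination h0 - a * h2
        have ha0 : a ≠ 0 := by intro h; rw [h, hb0] at hd'; simp at hd'
        refine ⟨1, -(1 / (2 * a)), ?_⟩
        rw [hc0, hb0]; field_simp; ring
      · obtain ⟨X, x, hX⟩ := two_sq (-b)
        refine ⟨x, (X - a * x) / b, ?_⟩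
        rw [hc0] at hd' ⊢
        field_simp
        linear_combination -hX - x ^ 2 * hd'
    · obtain ⟨X, y, hX⟩ := two_sq c
      refine ⟨(X + a * y) / c, y, ?_⟩
      field_simp
      linear_combination hX + y ^ 2 * hd'
  refine ⟨⟨!![x, a * x + b * y; y, c * x - a * y], by rw [det_fin_two_of]; linear_combination hxy⟩, ?_⟩
  apply Subtype.ext
  show (A : M2) * _ = !![x, a * x + b * y; y, c * x - a * y] * !![0, -1; 1, 0]
  have hd2 : (A : M2) 1 1 = -a := by linear_combination h0
  ext i j
  fin_cases i <;> fin_cases j <;>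
    simp [J, Matrix.mul_apply, Fin.sum_univ_two, ← ha, ← hb, ← hc, hd2]
  · linear_combination x * -hd'
  · ring
  · linear_combination y * -hd'

theorem isConj_proj {A B : SL2} (hA : Inv A) (hB : Inv B) : IsConj (proj F A) (proj F B) := by
  have h : ∀ {C : SL2}, Inv C → IsConj (proj F (J : SL2)) (proj F C) := by
    intro C hC
    obtain ⟨g, hg⟩ := conj_J hC
    refine isConj_iff.2 ⟨proj F g, ?_⟩
    rw [← map_inv, ← map_mul, ← map_mul, ← hg, mul_inv_cancel_right]
  exact (h hA).symm.trans (h hB)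

theorem good_unipotent (h2 : ringChar F ≠ 2) (g : SL2) (ht : (g : M2).trace ^ 2 = 4) :
    Odd (orderOf (proj F g)) := by
  have h2F : (2 : F) ≠ 0 := Ring.two_ne_zero h2
  set s := (g : M2).trace / 2 with hs
  have hs1 : s ^ 2 = 1 := by rw [hs]; field_simp; linear_combination ht
  let N : M2 := (g : M2) - s • 1
  have hN : N * N = 0 := by
    have htr : (g : M2).trace = 2 * s := by rw [hs]; field_simp
    simp only [N, sub_mul, mul_sub, cayley, Matrix.SpecialLinearGroup.det_coe, htr, Matrix.smul_mul, Matrix.mul_smul,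
      one_mul, mul_one, smul_smul, smul_sub]
    rw [← sq, hs1]
    module
  have hpow : ∀ n : ℕ, (g : M2) ^ (n + 1) = s ^ (n + 1) • (1 : M2) + ((n + 1 : ℕ) * s ^ n) • N := by
    intro n
    induction n with
    | zero => simp [N]
    | succ n ih =>
      have hg : (g : M2) = s • 1 + N := by simp [N]
      rw [pow_succ, ih]
      nth_rw 1 [hg]
      simp only [add_mul, mul_add, Matrix.smul_mul, Matrix.mul_smul, one_mul, mul_one, hN, smul_zero, add_zero,
        smul_smul]
      push_cast
      rw [show s ^ (n + 1 + 1) = s ^ (n + 1) * s by ring]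
      module
  have hodd : Odd (Fintype.card F) := Nat.odd_iff.2 (FiniteField.odd_card_of_char_ne_two h2)
  refine hodd.of_dvd_nat (orderOf_dvd_of_pow_eq_one ?_)
  rw [← map_pow, proj_eq_one]
  obtain ⟨n, hn⟩ : ∃ n, Fintype.card F = n + 1 := ⟨Fintype.card F - 1, by have := Fintype.card_pos (α := F); omega⟩
  refine ⟨s ^ (n + 1), ?_⟩
  rw [hn, Matrix.SpecialLinearGroup.coe_pow, hpow n, ← hn, FiniteField.cast_card_eq_zero, zero_mul, zero_smul, add_zero]

theorem good_split {m : ℕ} (h2 : ringChar F ≠ 2) (hm : Fintype.card F = 2 * m + 1) (hmo : Odd m) (g : SL2)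
    {e : F} (he : e ≠ 0) (ht : (g : M2).trace ^ 2 - 4 = e ^ 2) : Odd (orderOf (proj F g)) := by
  classical
  have h2F : (2 : F) ≠ 0 := Ring.two_ne_zero h2
  set l := ((g : M2).trace + e) / 2 with hl
  set l' := ((g : M2).trace - e) / 2 with hl'
  have hsum : l + l' = (g : M2).trace := by rw [hl, hl']; field_simp; ring
  have hll : l * l' = 1 := by rw [hl, hl']; field_simp; linear_combination ht
  have hne : l - l' ≠ 0 := by rw [show l - l' = e by rw [hl, hl']; field_simp; ring]; exact he
  have hpow : l ^ m = l' ^ m := by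
    have hp : l ^ m * l' ^ m = 1 := by rw [← mul_pow, hll, one_pow]
    rcases (dichot h2 hm (left_ne_zero_of_mul_eq_one hll)).2 with h | h <;> rw [h] at hp ⊢
    · linear_combination -hp
    · linear_combination hp
  open Polynomial in
  have hdvd : (X - C l) * (X - C l') ∣ X ^ m - C (l ^ m) := by
    refine (isCoprime_X_sub_C_of_isUnit_sub (isUnit_iff_ne_zero.2 hne)).mul_dvd ?_ ?_ <;>
      rw [dvd_iff_isRoot] <;> simp [hpow]
  have h0 : Polynomial.aeval (g : M2) ((Polynomial.X - Polynomial.C l) * (Polynomial.X - Polynomial.C l')) = 0 := by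
    simp only [map_mul, map_sub, Polynomial.aeval_X, Polynomial.aeval_C, Algebra.algebraMap_eq_smul_one]
    simp only [sub_mul, mul_sub, cayley, Matrix.SpecialLinearGroup.det_coe, Matrix.smul_mul, Matrix.mul_smul, one_mul,
      mul_one, smul_smul, ← hsum]
    match_scalars
    · ring
    · linear_combination hll
  refine hmo.of_dvd_nat (orderOf_dvd_of_pow_eq_one ?_)
  rw [← map_pow, proj_eq_one]
  refine ⟨l ^ m, ?_⟩
  have h := Polynomial.aeval_eq_zero_of_dvd_aeval_eq_zero hdvd h0
  simpa [Algebra.algebraMap_eq_smul_one, sub_eq_zero, _root_.smul_pow] using h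

theorem good_char_two (h2 : ringChar F = 2) (g : SL2) (ht : (g : M2).trace ≠ 0) :
    Odd (orderOf (proj F g)) := by
  rw [← Nat.not_even_iff_odd]
  intro hev
  obtain ⟨j, hj⟩ := hev
  have hpos := orderOf_pos (proj F g)
  have hne : proj F (g ^ j) ≠ 1 := by
    rw [map_pow]; exact pow_ne_one_of_lt_orderOf (by omega) (by omega)
  have hord : orderOf (proj F (g ^ j)) = 2 := by
    refine orderOf_eq_prime ?_ hne
    rw [map_pow, ← pow_mul, show j * 2 = orderOf (proj F g) by omega, pow_orderOf_eq_one]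
  obtain ⟨h, hh, hinv⟩ := inv_of_orderOf hord
  obtain ⟨r, hr⟩ := proj_eq_one.1 (show proj F (h⁻¹ * g ^ j) = 1 by rw [map_mul, map_inv, hh, inv_mul_cancel])
  have hcom : (h : M2) * g = g * h := by
    have hgj : (h : M2) * (r • (1 : M2)) = ((g ^ j : SL2) : M2) := by
      rw [← hr, ← Matrix.SpecialLinearGroup.coe_mul, mul_inv_cancel_left]
    have hr0 : r ≠ 0 := by
      intro h0
      have hd := (h⁻¹ * g ^ j).2
      rw [hr, h0, zero_smul, det_zero] at hd
      exact zero_ne_one hd
    have hc : ((g ^ j : SL2) : M2) * g = g * ((g ^ j : SL2) : M2) := by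
      rw [← Matrix.SpecialLinearGroup.coe_mul, ← Matrix.SpecialLinearGroup.coe_mul, (Commute.pow_self g j).eq]
    rw [← hgj, Matrix.mul_smul, mul_one, Matrix.smul_mul, Matrix.mul_smul] at hc
    exact smul_right_injective M2 hr0 hc
  obtain ⟨k, hk⟩ := conj_J hinv
  have hc' : (J : SL2) * (k⁻¹ * g * k) = (k⁻¹ * g * k) * J := by
    have e : h * g = g * h := Subtype.ext (by simpa using hcom)
    have eJ : J = k⁻¹ * h * k := by rw [mul_assoc, hk, inv_mul_cancel_left]
    rw [eJ]
    simp only [mul_assoc, mul_inv_cancel_left]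
    rw [← mul_assoc h g, e, mul_assoc]
  have htr : ((k⁻¹ * g * k : SL2) : M2).trace = (g : M2).trace := by
    rw [Matrix.SpecialLinearGroup.coe_mul, trace_mul_comm, ← Matrix.SpecialLinearGroup.coe_mul, ← mul_assoc,
      mul_inv_cancel, one_mul]
  refine ht ?_
  rw [← htr, trace_fin_two]
  have e00 := congrArg (fun M : SL2 => (M : M2) 1 0) hc'
  rw [Matrix.SpecialLinearGroup.coe_mul J (k⁻¹ * g * k), Matrix.SpecialLinearGroup.coe_mul (k⁻¹ * g * k) J] at e00
  generalize ((k⁻¹ * g * k : SL2) : M2) = G at e00 ⊢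
  change ((!![0, -1; 1, 0] : M2) * G) 1 0 = (G * (!![0, -1; 1, 0] : M2)) 1 0 at e00
  simp [Matrix.mul_apply, Fin.sum_univ_two] at e00
  have : CharP F 2 := h2 ▸ ringChar.charP F
  exact CharTwo.add_eq_zero.2 (by first | simpa using e00 | simpa using e00.symm)

theorem proj_eq_of_scalar {A B : SL2} (hA : Inv A) {r : F} (hr : ((A * B : SL2) : M2) = r • 1) :
    proj F A = proj F B := by
  have h2 : proj F A * proj F A = 1 := by
    rw [← map_mul]; exact proj_eq_one.2 ⟨-1, by rw [Matrix.SpecialLinearGroup.coe_mul, sq_eq A hA.1]; simp⟩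
  have h1 : proj F A * proj F B = 1 := by rw [← map_mul]; exact proj_eq_one.2 ⟨r, hr⟩
  exact mul_left_cancel (h2.trans h1.symm)

theorem proj_ne {A B : SL2} (hA : Inv A) (h : ∀ r : F, ((A * B : SL2) : M2) ≠ r • 1) :
    proj F A ≠ proj F B := by
  intro he
  obtain ⟨r, hr⟩ := proj_eq_one.1 (show proj F (A * B) = 1 by
    rw [map_mul, ← he, ← map_mul]
    exact proj_eq_one.2 ⟨-1, by rw [Matrix.SpecialLinearGroup.coe_mul, sq_eq A hA.1]; simp⟩)
  exact h r hr

/-- adjacency on representatives -/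
def Adj' (A B : SL2) : Prop := proj F A ≠ proj F B ∧ Odd (orderOf (proj F A * proj F B))

theorem adj_of {A B : SL2} (hA : Inv A) (hn : ∀ r : F, ((A * B : SL2) : M2) ≠ r • 1)
    (ho : Odd (orderOf (proj F (A * B)))) : Adj' A B := ⟨proj_ne hA hn, by rwa [← map_mul]⟩

omit [Fintype F] in
theorem combo (A B : SL2) (hA : (A : M2).trace = 0) (hB : (B : M2).trace = 0) {β : F}
    (hβ : ((A : M2) * B).trace = -2 * β) (p r w : F) :
    let C : M2 := p • (A : M2) + r • (B : M2) + w • ((A : M2) * B + β • 1)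
    C.trace = 0 ∧ C.det = p ^ 2 + r ^ 2 + 2 * p * r * β + w ^ 2 * (1 - β ^ 2) ∧
    ((A : M2) * C).trace = -2 * (p + r * β) ∧ ((B : M2) * C).trace = -2 * (p * β + r) := by
  intro C
  have hdA := A.2
  have hdB := B.2
  rw [trace_fin_two] at hA hB
  rw [det_fin_two] at hdA hdB
  simp only [trace_fin_two, Matrix.mul_apply, Fin.sum_univ_two] at hβ
  set a := (A : M2) 0 0
  set b := (A : M2) 0 1
  set c := (A : M2) 1 0
  set d := (A : M2) 1 1
  set a' := (B : M2) 0 0
  set b' := (B : M2) 0 1
  set c' := (B : M2) 1 0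
  set d' := (B : M2) 1 1
  have ed : d = -a := by linear_combination hA
  have ed' : d' = -a' := by linear_combination hB
  rw [ed] at hdA hβ
  rw [ed'] at hdB hβ
  refine ⟨?_, ?_, ?_, ?_⟩
  · simp [C, trace_fin_two, Matrix.mul_apply, Fin.sum_univ_two, a, b, c, d, a', b', c', d'] at *
    rw [ed, ed']
    linear_combination w * hβ
  · simp [C, det_fin_two, Matrix.mul_apply, Fin.sum_univ_two, a, b, c, d, a', b', c', d'] at *
    rw [ed, ed']
    linear_combination (p ^ 2 + w ^ 2 * (-a' * a' - b' * c')) * hdA + (r ^ 2 + w ^ 2) * hdB + (-(p * r) + w ^ 2 * β) * hβ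
  · simp [C, trace_fin_two, Matrix.mul_apply, Fin.sum_univ_two, a, b, c, d, a', b', c', d'] at *
    rw [ed, ed']
    linear_combination (-2 * p) * hdA + r * hβ
  · simp [C, trace_fin_two, Matrix.mul_apply, Fin.sum_univ_two, a, b, c, d, a', b', c', d'] at *
    rw [ed, ed']
    linear_combination (-2 * r) * hdB + p * hβ

theorem nonscalar_of_trace {g : SL2} (h : (g : M2).trace ^ 2 ≠ 4) (r : F) : (g : M2) ≠ r • 1 := by
  intro hg
  have hd := g.2
  rw [hg, det_smul, det_one, Fintype.card_fin, mul_one] at hd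
  refine h ?_
  rw [hg, trace_smul, trace_one, Fintype.card_fin, smul_eq_mul]
  push_cast
  linear_combination 4 * hd

theorem exists_common (hF : 4 ≤ Fintype.card F) {A B : SL2} (hA : Inv A) (hB : Inv B)
    (hne : proj F A ≠ proj F B) (hnadj : ¬ Adj' A B) : ∃ C : SL2, Inv C ∧ Adj' A C ∧ Adj' C B := by
  have hsymm : ∀ {P Q : SL2}, Inv P → Inv Q → Adj' P Q → Adj' Q P := by
    intro P Q hP hQ h
    refine ⟨Ne.symm h.1, ?_⟩
    have e : ∀ {R : SL2}, Inv R → (proj F R)⁻¹ = proj F R := fun {R} hR => inv_eq_of_mul_eq_one_right (by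
      rw [← map_mul]; exact proj_eq_one.2 ⟨-1, by rw [Matrix.SpecialLinearGroup.coe_mul, sq_eq R hR.1]; simp⟩)
    rw [← orderOf_inv, _root_.mul_inv_rev, e hP, e hQ]
    exact h.2
  suffices h : ∃ C : SL2, Inv C ∧ Adj' A C ∧ Adj' B C by
    obtain ⟨C, hC, h1, h2⟩ := h
    exact ⟨C, hC, h1, hsymm hB hC h2⟩
  have hABns : ∀ r : F, ((A * B : SL2) : M2) ≠ r • 1 := fun r hr => hne (proj_eq_of_scalar hA hr)
  by_cases h2 : ringChar F = 2
  · have : CharP F 2 := h2 ▸ ringChar.charP F
    have key : ∀ P : SL2, Inv P → ∀ Q : SL2, ((P : M2) * Q).trace ≠ 0 → Adj' P Q := fun P hP Q h =>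
      adj_of hP (nonscalar_of_trace (by
        rw [Matrix.SpecialLinearGroup.coe_mul, show (4 : F) = 0 by
          rw [show (4 : F) = 2 + 2 by norm_num, CharTwo.add_self_eq_zero]]
        exact pow_ne_zero 2 h)) (good_char_two h2 _ (by rw [Matrix.SpecialLinearGroup.coe_mul]; exact h))
    have hnz : ∀ P : SL2, Inv P → (P : M2) 0 1 ≠ 0 ∨ (P : M2) 1 0 ≠ 0 := by
      intro P hP
      by_contra hc
      push Not at hc
      refine hP.2 ((P : M2) 0 0) ?_
      have := hP.1
      rw [trace_fin_two, CharTwo.add_eq_zero] at this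
      ext i j
      fin_cases i <;> fin_cases j <;> simp [hc.1, hc.2, ← this]
    let U : SL2 := ⟨!![1, 1; 0, 1], by simp⟩
    let L : SL2 := ⟨!![1, 0; 1, 1], by simp⟩
    have hU : Inv U := ⟨by simp [U, trace_fin_two, CharTwo.add_self_eq_zero], fun r hr => by
      have := congrFun (congrFun hr 0) 1
      simp [U] at this⟩
    have hL : Inv L := ⟨by simp [L, trace_fin_two, CharTwo.add_self_eq_zero], fun r hr => by
      have := congrFun (congrFun hr 1) 0
      simp [L] at this⟩
    have hJ : Inv (J : SL2) := ⟨by simp [J, trace_fin_two], fun r hr => by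
      have := congrFun (congrFun hr 1) 0
      simp [J] at this⟩
    have tU : ∀ P : SL2, Inv P → ((P : M2) * U).trace = (P : M2) 1 0 := by
      intro P hP
      have := hP.1
      simp [U, trace_fin_two, Matrix.mul_apply, Fin.sum_univ_two] at this ⊢
      linear_combination this
    have tL : ∀ P : SL2, Inv P → ((P : M2) * L).trace = (P : M2) 0 1 := by
      intro P hP
      have := hP.1
      simp [L, trace_fin_two, Matrix.mul_apply, Fin.sum_univ_two] at this ⊢
      linear_combination this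
    have tJ : ∀ P : SL2, ((P : M2) * ((J : SL2) : M2)).trace = (P : M2) 0 1 + (P : M2) 1 0 := by
      intro P
      simp [J, trace_fin_two, Matrix.mul_apply, Fin.sum_univ_two, CharTwo.neg_eq]
    by_cases hu : (A : M2) 1 0 ≠ 0 ∧ (B : M2) 1 0 ≠ 0
    · exact ⟨U, hU, key A hA U (by rw [tU A hA]; exact hu.1), key B hB U (by rw [tU B hB]; exact hu.2)⟩
    by_cases hl : (A : M2) 0 1 ≠ 0 ∧ (B : M2) 0 1 ≠ 0
    · exact ⟨L, hL, key A hA L (by rw [tL A hA]; exact hl.1), key B hB L (by rw [tL B hB]; exact hl.2)⟩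
    refine ⟨J, hJ, key A hA J ?_, key B hB J ?_⟩ <;> rw [tJ] <;>
      rcases hnz A hA with hA' | hA' <;> rcases hnz B hB with hB' | hB' <;> simp_all
  · obtain ⟨m, hm⟩ : ∃ m, Fintype.card F = 2 * m + 1 :=
      ⟨Fintype.card F / 2, by have := FiniteField.odd_card_of_char_ne_two h2; omega⟩
    have h2F : (2 : F) ≠ 0 := Ring.two_ne_zero h2
    have h4F : (4 : F) ≠ 0 := by rw [show (4 : F) = 2 * 2 by norm_num]; exact mul_ne_zero h2F h2F
    obtain ⟨β, hβ⟩ : ∃ β, ((A : M2) * B).trace = -2 * β := ⟨-((A : M2) * B).trace / 2, by field_simp⟩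
    have htrAB : ((A * B : SL2) : M2).trace = -2 * β := by rw [Matrix.SpecialLinearGroup.coe_mul, hβ]
    have hb1 : β ^ 2 ≠ 1 := fun h => hnadj (adj_of hA hABns (good_unipotent h2 _ (by
      rw [htrAB]; linear_combination 4 * h)))
    have hns2 : ∀ C : SL2, (C : M2).trace = 0 → ∀ r : F, (C : M2) ≠ r • 1 := by
      intro C hC r hr
      have := sq_eq C hC
      rw [hr, trace_smul, trace_one, Fintype.card_fin, smul_eq_mul] at hC
      push_cast at hC
      have hr0 : r = 0 := (mul_eq_zero.1 hC).resolve_right h2F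
      rw [hr, hr0, zero_smul, zero_mul] at this
      exact one_ne_zero (neg_eq_zero.1 (congrFun (congrFun this.symm 0) 0))
    rcases Nat.even_or_odd m with hme | hmo
    · obtain ⟨i, hi⟩ : IsSquare (-1 : F) := by
        rw [FiniteField.isSquare_neg_one_iff]
        obtain ⟨k, hk⟩ := hme; omega
      have hb' : 1 + β ≠ 0 := fun h => hb1 (by linear_combination (β - 1) * h)
      obtain ⟨hCt, hCd, hAC, hBC⟩ := combo A B hA.1 hB.1 hβ (1 / (1 + β)) (1 / (1 + β)) (i / (1 + β))
      let C : SL2 := ⟨_, hCd.trans (by field_simp; linear_combination (β ^ 2 - 1) * hi)⟩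
      have hC : Inv C := ⟨hCt, hns2 C hCt⟩
      have eA : ((A * C : SL2) : M2).trace = -2 := by
        rw [Matrix.SpecialLinearGroup.coe_mul]; exact hAC.trans (by field_simp)
      have eB : ((B * C : SL2) : M2).trace = -2 := by
        rw [Matrix.SpecialLinearGroup.coe_mul]; exact hBC.trans (by field_simp; ring)
      have hsame : ∀ P Q : SL2, Inv P → Inv Q → ((P * C : SL2) : M2).trace = -2 →
          ((Q * C : SL2) : M2).trace = -2 → ((P : M2) * Q).trace = -2 * β →
          ∀ r : F, ((P * C : SL2) : M2) ≠ r • 1 := by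
        intro P Q hP hQ e e' hPQ r hr
        rw [hr, trace_smul, trace_one, Fintype.card_fin, smul_eq_mul] at e
        push_cast at e
        have hr1 : r = -1 := mul_right_cancel₀ h2F (e.trans (by ring))
        have hCP : (C : M2) = P := by
          have h1 : (P : M2) * ((P : M2) * C) = -(C : M2) := by
            rw [← mul_assoc, sq_eq P hP.1, neg_mul, one_mul]
          rw [← Matrix.SpecialLinearGroup.coe_mul, hr, hr1] at h1
          simpa using h1.symm
        rw [Matrix.SpecialLinearGroup.coe_mul, hCP, trace_mul_comm, hPQ] at e'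
        have h1 : β = 1 := mul_left_cancel₀ (neg_ne_zero.2 h2F) (e'.trans (by ring))
        exact hb1 (by rw [h1]; ring)
      exact ⟨C, hC, adj_of hA (hsame A B hA hB eA eB hβ) (good_unipotent h2 _ (by rw [eA]; ring)),
        adj_of hB (hsame B A hB hA eB eA (by rw [trace_mul_comm]; exact hβ)) (good_unipotent h2 _ (by rw [eB]; ring))⟩
    · have hm3 : 3 ≤ m := by obtain ⟨k, hk⟩ := hmo; omega
      have hsub : (1 : F) - β ^ 2 ≠ 0 := fun h => hb1 (by linear_combination -h)
      obtain ⟨k, hk⟩ : IsSquare (1 - β ^ 2) := by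
        rw [(dichot h2 hm hsub).1]
        rcases (dichot h2 hm hsub).2 with h | h
        · exact h
        · exfalso
          obtain ⟨e, he⟩ := (dichot h2 hm (neg_ne_zero.2 hsub)).1.2 (by rw [neg_pow, h, hmo.neg_one_pow]; ring)
          have he0 : e ≠ 0 := by rintro rfl; exact hsub (by linear_combination -he)
          exact hnadj (adj_of hA hABns (good_split h2 hm hmo _ (e := 2 * e) (mul_ne_zero h2F he0) (by
            rw [htrAB]; linear_combination 4 * he)))
      have hk0 : k ≠ 0 := by rintro rfl; exact hsub (by linear_combination hk)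
      obtain ⟨a, b, u, n, e, h, h1, h3, h4, hh, ha, hu, he⟩ :=
        exists_param h2 hm hmo hm3 (β := β) hk0 (by linear_combination -hk)
      obtain ⟨hCt, hCd, hAC, hBC⟩ := combo A B hA.1 hB.1 hβ (a * n / h) (-(b * u) / h) (a * u / h)
      let C : SL2 := ⟨_, hCd.trans (by
        field_simp
        linear_combination (-1 : F) * h4 + (n ^ 2 + u ^ 2) * h1 - h3)⟩
      have hC : Inv C := ⟨hCt, hns2 C hCt⟩
      have fin : ∀ P : SL2, Inv P → ∀ E : F, E ≠ 0 → ((P : M2) * C).trace ^ 2 - 4 = E ^ 2 → Adj' P C := by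
        intro P hP E hE hPE
        refine adj_of hP (nonscalar_of_trace ?_) (good_split h2 hm hmo _ hE (by rw [Matrix.SpecialLinearGroup.coe_mul]; exact hPE))
        rw [Matrix.SpecialLinearGroup.coe_mul]
        intro h'
        exact hE (pow_eq_zero_iff two_ne_zero |>.1 (by rw [← hPE, h', sub_self]))
      refine ⟨C, hC, fin A hA (2 * k * u / h) (by positivity) ?_, fin B hB (2 * e * a * k / h) (by positivity) ?_⟩
      · show ((A : M2) * _).trace ^ 2 - 4 = _
        rw [hAC]
        field_simp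
        linear_combination (-4 : F) * h4 + 4 * (n ^ 2 + u ^ 2 * β ^ 2) * h1 - 4 * h3 + 4 * u ^ 2 * hk
      · show ((B : M2) * _).trace ^ 2 - 4 = _
        rw [hBC]
        field_simp
        linear_combination (-4 : F) * h4 + 4 * (β ^ 2 * a ^ 2 + b ^ 2) * h3 - 4 * e ^ 2 * h1 + 4 * e ^ 2 * a ^ 2 * hk

theorem exists_commuting (hF : 4 ≤ Fintype.card F) : ∃ A B : SL2, Inv A ∧ Inv B ∧
    proj F A ≠ proj F B ∧ ¬ Odd (orderOf (proj F A * proj F B)) := by
  classical
  obtain ⟨x, y, hxy, hne⟩ : ∃ x y : F, x ^ 2 + y ^ 2 = -1 ∧ ((2 : F) = 0 → x ≠ 0 ∧ y ≠ 0) := by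
    by_cases h2 : (2 : F) = 0
    · obtain ⟨x, hx⟩ : ∃ x : F, x ∉ ({0, 1} : Finset F) := by
        by_contra hno
        push Not at hno
        have h := Finset.card_le_card (fun x _ => hno x : (Finset.univ : Finset F) ⊆ {0, 1})
        have := Finset.card_le_two (a := (0 : F)) (b := 1)
        rw [Finset.card_univ] at h
        omega
      simp only [Finset.mem_insert, Finset.mem_singleton, not_or] at hx
      refine ⟨x, x + 1, ?_, fun _ => ⟨hx.1, fun h0 => hx.2 ?_⟩⟩
      · linear_combination (x ^ 2 + x + 1) * h2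
      · linear_combination h0 - h2
    · obtain ⟨x, y, h⟩ := two_sq (-1 : F)
      exact ⟨x, y, h, fun h' => absurd h' h2⟩
  let K : SL2 := ⟨!![x, y; y, -x], by rw [det_fin_two_of]; linear_combination -hxy⟩
  have hJ : Inv (J : SL2) := ⟨by simp [J, trace_fin_two], fun r hr => by
    have := congrFun (congrFun hr 1) 0
    simp [J] at this⟩
  have hK : Inv K := by
    refine ⟨by simp [K, trace_fin_two], fun r hr => ?_⟩
    have e00 := congrFun (congrFun hr 0) 0
    have e11 := congrFun (congrFun hr 1) 1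
    have e01 := congrFun (congrFun hr 0) 1
    simp [K] at e00 e11 e01
    by_cases h2 : (2 : F) = 0
    · exact (hne h2).2 e01
    · have hx : x = 0 := (mul_eq_zero.1 (show 2 * x = 0 by linear_combination e00 - e11)).resolve_left h2
      rw [hx, e01] at hxy; simp at hxy
  have hns : ∀ r : F, ((J * K : SL2) : M2) ≠ r • 1 := by
    intro r hr
    rw [Matrix.SpecialLinearGroup.coe_mul] at hr
    change (!![0, -1; 1, 0] : M2) * !![x, y; y, -x] = r • 1 at hr
    have e10 := congrFun (congrFun hr 1) 0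
    have e00 := congrFun (congrFun hr 0) 0
    have e11 := congrFun (congrFun hr 1) 1
    simp [J, K, Matrix.mul_apply, Fin.sum_univ_two] at e00 e10 e11
    rw [e10] at hxy hne
    by_cases h2 : (2 : F) = 0
    · exact (hne h2).1 rfl
    · have hy : y = 0 := (mul_eq_zero.1 (show 2 * y = 0 by linear_combination e11 - e00)).resolve_left h2
      rw [hy] at hxy; simp at hxy
  refine ⟨J, K, hJ, hK, proj_ne hJ hns, ?_⟩
  have htr : ((J * K : SL2) : M2).trace = 0 := by
    rw [Matrix.SpecialLinearGroup.coe_mul]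
    change ((!![0, -1; 1, 0] : M2) * !![x, y; y, -x]).trace = 0
    simp [trace_fin_two, Matrix.mul_apply, Fin.sum_univ_two]
  have : orderOf (proj F (J * K)) = 2 := by
    refine orderOf_eq_prime ?_ fun h1 => ?_
    · rw [sq, ← map_mul]
      exact proj_eq_one.2 ⟨-1, by rw [Matrix.SpecialLinearGroup.coe_mul (J * K), sq_eq _ htr]; simp⟩
    · obtain ⟨r, hr⟩ := proj_eq_one.1 h1; exact hns r hr
  rw [← map_mul, this]
  decide

end Mat


/-- Let F be a finite field with at least 4 elements and let X be a conjugacy class of involutions of PSL(2, F). The graph on X joining two distinct involutions whose product has odd order is connected and has diameter exactly 2. -/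
theorem result {F : Type*} [Field F] [Fintype F] (hF : 4 ≤ Fintype.card F)
    (t : Matrix.ProjectiveSpecialLinearGroup (Fin 2) F) (ht : orderOf t = 2) :
    (SimpleGraph.fromRel fun x y : {x : Matrix.ProjectiveSpecialLinearGroup (Fin 2) F // IsConj t x} =>
        Odd (orderOf (x.1 * y.1))).Connected ∧
      (SimpleGraph.fromRel fun x y : {x : Matrix.ProjectiveSpecialLinearGroup (Fin 2) F // IsConj t x} =>
        Odd (orderOf (x.1 * y.1))).diam = 2 := by
  set G := SimpleGraph.fromRel fun x y : {x : Matrix.ProjectiveSpecialLinearGroup (Fin 2) F // IsConj t x} =>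
        Odd (orderOf (x.1 * y.1)) with hG
  obtain ⟨T, hT, hTinv⟩ := inv_of_orderOf ht
  have rep : ∀ v : {x : Matrix.ProjectiveSpecialLinearGroup (Fin 2) F // IsConj t x},
      ∃ A : Matrix.SpecialLinearGroup (Fin 2) F, proj F A = v.1 ∧ Inv A := by
    intro v
    obtain ⟨c, hc⟩ := isConj_iff.1 v.2
    exact inv_of_orderOf (by rw [← hc, ← MulAut.conj_apply, MulEquiv.orderOf_eq, ht])
  have mem : ∀ {A : Matrix.SpecialLinearGroup (Fin 2) F}, Inv A → IsConj t (proj F A) :=
    fun h => hT ▸ isConj_proj hTinv h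
  have hadj : ∀ {A B : Matrix.SpecialLinearGroup (Fin 2) F} (hA : Inv A) (hB : Inv B),
      Adj' A B → G.Adj ⟨_, mem hA⟩ ⟨_, mem hB⟩ := by
    intro A B hA hB h
    exact (SimpleGraph.fromRel_adj _ _ _).2 ⟨fun e => h.1 (congrArg Subtype.val e), Or.inl h.2⟩
  have key : ∀ u v, G.edist u v ≤ 2 := by
    intro u v
    obtain ⟨A, hA, hAi⟩ := rep u
    obtain ⟨B, hB, hBi⟩ := rep v
    have hu : u = ⟨_, mem hAi⟩ := Subtype.ext hA.symm
    have hv : v = ⟨_, mem hBi⟩ := Subtype.ext hB.symm
    rw [hu, hv]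
    by_cases he : proj F A = proj F B
    · simp [he]
    by_cases ha : Adj' A B
    · exact ((hadj hAi hBi ha).toWalk.edist_le).trans (by norm_num [SimpleGraph.Walk.length])
    obtain ⟨C, hC, h1, h2⟩ := exists_common hF hAi hBi he ha
    exact ((SimpleGraph.Walk.cons (hadj hAi hC h1) (hadj hC hBi h2).toWalk).edist_le).trans (by norm_num [SimpleGraph.Walk.length])
  have hne : Nonempty {x : Matrix.ProjectiveSpecialLinearGroup (Fin 2) F // IsConj t x} := ⟨⟨t, IsConj.refl t⟩⟩
  have hconn : G.Connected := SimpleGraph.connected_iff_exists_forall_reachable _ |>.2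
    ⟨hne.some, fun v => SimpleGraph.edist_ne_top_iff_reachable.1
      (ne_top_of_le_ne_top (by simp) (key hne.some v))⟩
  have hed : G.ediam ≤ 2 := SimpleGraph.ediam_le_iff.2 key
  have hfin : G.ediam ≠ ⊤ := ne_top_of_le_ne_top (by simp) hed
  refine ⟨hconn, le_antisymm ?_ ?_⟩
  · exact ENat.toNat_le_of_le_natCast hed
  · obtain ⟨A, B, hA, hB, hne', hodd⟩ := exists_commuting hF
    refine le_trans ?_ (SimpleGraph.dist_le_diam hfin (u := ⟨_, mem hA⟩) (v := ⟨_, mem hB⟩))
    by_contra hlt
    have h0 : G.dist ⟨_, mem hA⟩ ⟨_, mem hB⟩ ≠ 0 := fun e => hne' (congrArg Subtype.val (hconn.dist_eq_zero_iff.1 e))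
    have h : G.Adj ⟨_, mem hA⟩ ⟨_, mem hB⟩ := SimpleGraph.dist_eq_one_iff_adj.1 (by omega)
    obtain ⟨-, h | h⟩ := (SimpleGraph.fromRel_adj _ _ _).1 h
    · exact hodd h
    · refine hodd ?_
      have e : ∀ {R : Matrix.SpecialLinearGroup (Fin 2) F}, Inv R → (proj F R)⁻¹ = proj F R := fun {R} hR =>
        inv_eq_of_mul_eq_one_right (by
          rw [← map_mul]; exact proj_eq_one.2 ⟨-1, by rw [Matrix.SpecialLinearGroup.coe_mul, sq_eq R hR.1]; simp⟩)
      rw [← orderOf_inv, _root_.mul_inv_rev, e hA, e hB]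
      exact h

end Cfsg.Agent.S3266
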