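import Cfsg.Statements.S3269
import Cfsg.Agent.Lib.Involution.ZStar
import Cfsg.Agent.Lib.Involution.QuaternionTimes
import Cfsg.Agent.Lib.Coprime.Action

set_option autoImplicit false
open Cfsg

namespace Cfsg.Agent.S3269

open Cfsg.Agent.Lib.Involution

/-- Let G be a finite group whose Sylow 2-subgroup S is an internal direct product Q × R with Q generalized quaternion (of order at least 8) and R a subgroup all of whose involutions are central in R. Then G is not simple. In particular no finite simple group has a Sylow 2-subgroup that is a direct product of one or more generalized quaternion groups. -/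
theorem result {G : Type*} [Group G] [Finite G]
    (S : Sylow 2 G) (Q R : Subgroup G) (hQR : Cfsg.IsInternalDirectProduct Q R (S : Subgroup G))
    (n : ℕ) (hn : 1 ≤ n) (eQ : ↥Q ≃* QuaternionGroup (2 ^ n))
    (hR : ∀ r ∈ R, orderOf r = 2 → ∀ s ∈ R, r * s = s * r) :
    ¬ IsSimpleGroup G := by
  classical
  intro hsimp
  haveI : Fact (Nat.Prime 2) := ⟨Nat.prime_two⟩
  obtain ⟨hQS, hRS, hcomm, hinf, hsup⟩ := hQR
  let Q' : Subgroup (S : Subgroup G) := Q.subgroupOf S
  let R' : Subgroup (S : Subgroup G) := R.subgroupOf S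
  have hnormR : ∀ q ∈ Q, ∀ r ∈ R, q * r = r * q := hcomm
  have d : QTimes n Q' R' :=
    { one_le := hn
      equiv := (Subgroup.subgroupOfEquivOfLe hQS).trans eQ
      comm := fun a ha b hb => Subtype.ext (hcomm _ ha _ hb)
      inf := by
        rw [eq_bot_iff]
        intro v hv
        have h := Subgroup.mem_inf.mpr (⟨hv.1, hv.2⟩ : (v : G) ∈ Q ∧ (v : G) ∈ R)
        rw [hinf] at h
        exact Subtype.ext (Subgroup.mem_bot.mp h)
      sup := by
        intro v
        have hv : (v : G) ∈ Q ⊔ R := by rw [hsup]; exact v.2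
        have hle : Q ≤ Subgroup.normalizer (R : Set G) := fun q hq => by
          rw [Subgroup.mem_normalizer_iff]
          intro r
          refine ⟨fun hr => by rw [hcomm q hq r hr, mul_inv_cancel_right]; exact hr, fun hr => ?_⟩
          have h1 := hcomm q⁻¹ (inv_mem hq) _ hr
          rw [show q⁻¹ * (q * r * q⁻¹) = r * q⁻¹ by group] at h1
          rw [mul_right_cancel h1]
          exact hr
        obtain ⟨q, hq, r, hr, h⟩ := (Cfsg.Agent.Lib.Coprime.mem_sup_of_le_normalizer hle).mp hv
        exact ⟨⟨q, hQS hq⟩, hq, ⟨r, hRS hr⟩, hr, Subtype.ext h.symm⟩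
      invol := fun r hr ho s hs =>
        Subtype.ext (hR _ hr ((Subgroup.orderOf_coe r).trans ho) _ hs) }
  set N := Subgroup.normalizer ((S : Subgroup G) : Set G) with hN
  let act : N →* MulAut (S : Subgroup G) := (S : Subgroup G).normalizerMonoidHom
  have hact : ∀ (g : N) (v : (S : Subgroup G)), ((act g v : (S : Subgroup G)) : G) = g * v * (g : G)⁻¹ :=
    fun g v => rfl
  letI : Fintype N := Fintype.ofFinite N
  let O : Finset (S : Subgroup G) := Finset.univ.image fun g : N => act g d.z
  have horbit : Odd O.card := by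
    letI : MulAction N (S : Subgroup G) := MulAction.compHom _ act
    have hO : (O : Set (S : Subgroup G)) = MulAction.orbit N d.z := by
      ext v
      simp only [O, Finset.coe_image, Finset.coe_univ, Set.image_univ]
      rfl
    have h1 : O.card = (MulAction.stabilizer N d.z).index := by
      rw [MulAction.index_stabilizer, ← hO, Set.ncard_coe_finset]
    rw [h1]
    have hSN : (S : Subgroup G) ≤ N := Subgroup.le_normalizer
    have hle : (S : Subgroup G).subgroupOf N ≤ MulAction.stabilizer N d.z := by
      intro g hg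
      rw [MulAction.mem_stabilizer_iff]
      refine Subtype.ext ?_
      show ((act g d.z : (S : Subgroup G)) : G) = _
      rw [hact, congrArg Subtype.val (d.central_of_sq d.z_sq ⟨g, hg⟩) |> (fun h =>
        (show (g : G) * (d.z : G) = (d.z : G) * (g : G) from h)), mul_inv_cancel_right]
    refine Nat.not_even_iff_odd.mp fun he => ?_
    have h2 := (even_iff_two_dvd.mp he).trans (Subgroup.index_dvd_of_le hle)
    exact (S.subtype hSN).not_dvd_index h2
  obtain ⟨u, hu, hfix⟩ := d.exists_fixed O horbit fun v hv => by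
    obtain ⟨g, -, rfl⟩ := Finset.mem_image.mp hv
    exact ⟨act g, rfl⟩
  have huG : orderOf (u : G) = 2 := by rwa [Subgroup.orderOf_coe]
  have hcent : ∀ w : G, w ∈ (S : Subgroup G) → orderOf w = 2 →
      w ∈ Subgroup.centralizer ((S : Subgroup G) : Set G) := by
    intro w hw ho
    have hsq : (⟨w, hw⟩ : (S : Subgroup G)) * ⟨w, hw⟩ = 1 := Subtype.ext (mul_self ho)
    exact Subgroup.mem_centralizer_iff.mpr fun s hs => congrArg Subtype.val (d.central_of_sq hsq ⟨s, hs⟩)
  have hiso : Cfsg.IsIsolatedInvolution (u : G) := by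
    refine iso_of_sylow S huG u.2 fun g hg => ?_
    obtain ⟨k, hk, hkg⟩ := S.conj_eq_normalizer_conj_of_mem_centralizer (u : G) g⁻¹ (hcent _ u.2 huG) (by
      rw [inv_inv]; exact hcent _ hg ((orderOf_conj g _).trans huG))
    rw [inv_inv] at hkg
    rw [hkg]
    have h := hfix (act ⟨k⁻¹, inv_mem hk⟩) fun v hv => by
      obtain ⟨g', -, rfl⟩ := Finset.mem_image.mp hv
      refine Finset.mem_image.mpr ⟨⟨k⁻¹, inv_mem hk⟩ * g', Finset.mem_univ _, ?_⟩
      rw [map_mul]; rfl
    have h' := congrArg Subtype.val h
    rw [hact] at h'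
    simpa using h'
  have hO : Cfsg.oddCore G = ⊥ := by
    rcases (oddCore_normal (G := G)).eq_bot_or_eq_top with h | h
    · exact h
    · exfalso
      have h1 := odd_card_oddCore (G := G)
      rw [h, Subgroup.card_top] at h1
      exact Nat.not_even_iff_odd.mpr h1 (even_iff_two_dvd.mpr (huG ▸ orderOf_dvd_natCard (u : G)))
  have huc := zstar_center hiso hO
  rcases (inferInstance : (Subgroup.center G).Normal).eq_bot_or_eq_top with h | h
  · exact ne_one huG (Subgroup.mem_bot.mp (h ▸ huc))
  · have hab : ∀ a b : G, a * b = b * a := fun a b => Subgroup.mem_center_iff.mp (h ▸ Subgroup.mem_top b) a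
    have h1 : (QuaternionGroup.a 1 : QuaternionGroup (2 ^ n)) * .xa 0 = .xa 0 * .a 1 := by
      apply eQ.symm.injective
      rw [map_mul, map_mul]
      exact Subtype.ext (hab _ _)
    rw [QuaternionGroup.a_mul_xa, QuaternionGroup.xa_mul_a, QuaternionGroup.xa.injEq] at h1
    have h2 : ((2 : ℕ) : ZMod (2 * 2 ^ n)) = 0 := by push_cast; linear_combination -h1
    rw [ZMod.natCast_eq_zero_iff] at h2
    have := Nat.le_of_dvd two_pos h2
    have : 2 ^ 1 ≤ 2 ^ n := Nat.pow_le_pow_right two_pos hn
    omega

end Cfsg.Agent.S3269
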