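import Cfsg.Statements.S3276
import Mathlib

set_option autoImplicit false
open Cfsg

namespace Cfsg.Agent.S3276

theorem even_dihedral {G : Type*} [Group G] (x v : G) (hx : x * x = 1) (hv : v * v = 1) (m : ℕ)
    (h : (x * v) ^ (2 * m) = 1) : Commute ((x * v) ^ m) x ∧ Commute ((x * v) ^ m) v := by
  have hcx : Commute ((x * v) ^ m) x := by
    have h2 : ((x * v) ^ m)⁻¹ = (x * v) ^ m :=
      inv_eq_of_mul_eq_one_right (by rw [← pow_add, ← two_mul, h])
    have hc : x * (x * v) ^ m * x⁻¹ = ((x * v) ^ m)⁻¹ := by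
      rw [← conj_pow, ← inv_pow]
      congr 1
      rw [mul_inv_rev, inv_eq_of_mul_eq_one_right hx, inv_eq_of_mul_eq_one_right hv]
      simp [← mul_assoc, hx]
    rw [h2] at hc
    show _ * x = x * _
    conv_lhs => rw [← hc]
    group
  refine ⟨hcx, ?_⟩
  have h2 : Commute ((x * v) ^ m) (x * v) := (Commute.refl _).pow_left m
  have := hcx.mul_right h2
  rwa [← mul_assoc, hx, one_mul] at this

theorem odd_conj {G : Type*} [Group G] (x v : G) (hx : x * x = 1) (hv : v * v = 1) (m : ℕ)
    (h : (x * v) ^ (2 * m + 1) = 1) : IsConj x v := by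
  rw [isConj_iff]
  refine ⟨(x * v) ^ m, ?_⟩
  have hxi := inv_eq_of_mul_eq_one_right hx
  have hvi := inv_eq_of_mul_eq_one_right hv
  have hcm : x * ((x * v) ^ m)⁻¹ = (x * v) ^ m * x := by
    have : x * (x * v) ^ m * x⁻¹ = ((x * v) ^ m)⁻¹ := by
      rw [← conj_pow, ← inv_pow]
      congr 1
      rw [mul_inv_rev, hxi, hvi]
      simp [← mul_assoc, hx]
    rw [← this, hxi]
    simp only [← mul_assoc, hx, one_mul]
  rw [mul_assoc, hcm, ← mul_assoc, ← pow_add]
  calc (x * v) ^ (m + m) * x = (x * v) ^ (2 * m + 1) * ((x * v)⁻¹ * x) := by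
        rw [pow_succ, two_mul, mul_assoc _ (x * v), mul_inv_cancel_left]
    _ = v := by rw [h, one_mul, mul_inv_rev, hxi, hvi, mul_assoc, hx, mul_one]

/-- Let x and y be commuting, non-conjugate involutions of a finite group G, and suppose that for every involution u commuting with x, each conjugate of y that commutes with u also commutes with y. Then the normal closure of y is a proper, normal, elementary abelian 2-subgroup of G; and if y is the only involution of that normal closure commuting with x, it has order at most 4. -/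
theorem result {G : Type*} [Group G] [Finite G] (x y : G) (hx : orderOf x = 2) (hy : orderOf y = 2)
    (hxy : Commute x y) (hnc : ¬ IsConj x y)
    (hstar : ∀ u : G, orderOf u = 2 → Commute u x → ∀ g : G, Commute (g * y * g⁻¹) u → Commute (g * y * g⁻¹) y) :
    Subgroup.normalClosure ({y} : Set G) ≠ ⊤ ∧ Cfsg.IsElementaryAbelian 2 (Subgroup.normalClosure ({y} : Set G)) ∧
      ((∀ u ∈ Subgroup.normalClosure ({y} : Set G), orderOf u = 2 → Commute u x → u = y) →
        Nat.card ↥(Subgroup.normalClosure ({y} : Set G)) ≤ 4) := by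
  classical
  have hx2 : x * x = 1 := by rw [← sq, ← hx, pow_orderOf_eq_one]
  have hy2 : y * y = 1 := by rw [← sq, ← hy, pow_orderOf_eq_one]
  have hall : ∀ g : G, Commute (g * y * g⁻¹) y := by
    intro g
    have hv : (g * y * g⁻¹) * (g * y * g⁻¹) = 1 := by
      calc _ = g * (y * y) * g⁻¹ := by group
        _ = 1 := by rw [hy2]; group
    set v := g * y * g⁻¹ with hvdef
    have hxv : ¬ IsConj x v := fun h => hnc (h.trans (isConj_iff.2 ⟨g, hvdef.symm⟩).symm)
    rcases Nat.even_or_odd' (orderOf (x * v)) with ⟨m, hm | hm⟩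
    · have hm0 : 0 < m := by have := orderOf_pos (x * v); omega
      obtain ⟨hcx, hcv⟩ := even_dihedral x v hx2 hv m (hm ▸ pow_orderOf_eq_one _)
      refine hstar ((x * v) ^ m) ?_ hcx g hcv.symm
      rw [orderOf_pow' _ hm0.ne', hm, Nat.gcd_eq_right (Dvd.intro_left 2 rfl)]
      exact Nat.mul_div_cancel _ hm0
    · exact absurd (odd_conj x v hx2 hv m (hm ▸ pow_orderOf_eq_one _)) hxv
  set N := Subgroup.normalClosure ({y} : Set G) with hN
  have hcs : ∀ a ∈ Group.conjugatesOfSet ({y} : Set G), ∀ b ∈ Group.conjugatesOfSet ({y} : Set G), a * b = b * a := by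
    intro a ha b hb
    simp only [Group.mem_conjugatesOfSet_iff, Set.mem_singleton_iff, exists_eq_left] at ha hb
    obtain ⟨c, rfl⟩ := isConj_iff.1 ha
    obtain ⟨d, rfl⟩ := isConj_iff.1 hb
    have h := (hall (d⁻¹ * c)).eq
    calc c * y * c⁻¹ * (d * y * d⁻¹) = d * ((d⁻¹ * c) * y * (d⁻¹ * c)⁻¹ * y) * d⁻¹ := by group
      _ = d * (y * ((d⁻¹ * c) * y * (d⁻¹ * c)⁻¹)) * d⁻¹ := by rw [h]
      _ = _ := by group
  have hcomm : IsMulCommutative ↥N := Subgroup.isMulCommutative_closure (fun a ha b hb => hcs a ha b hb)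
  have hsq : ∀ a ∈ N, a ^ 2 = 1 := by
    intro a ha
    induction ha using Subgroup.closure_induction with
    | mem a ha =>
      simp only [Group.mem_conjugatesOfSet_iff, Set.mem_singleton_iff, exists_eq_left] at ha
      obtain ⟨c, rfl⟩ := isConj_iff.1 ha
      rw [conj_pow, sq, hy2, mul_one, mul_inv_cancel]
    | one => simp
    | mul a b ha hb iha ihb =>
      have hab : Commute a b := congrArg Subtype.val (mul_comm' (⟨a, ha⟩ : ↥N) ⟨b, hb⟩)
      rw [hab.mul_pow, iha, ihb, one_mul]
    | inv a _ ih => rw [inv_pow, ih, inv_one]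
  have hyN : y ∈ N := Subgroup.subset_normalClosure rfl
  refine ⟨?_, ⟨hcomm, hsq⟩, fun huniq => ?_⟩
  · intro htop
    have hc : ∀ a b : G, a * b = b * a := fun a b =>
      congrArg Subtype.val (mul_comm' (⟨a, htop ▸ Subgroup.mem_top a⟩ : ↥N) ⟨b, htop ▸ Subgroup.mem_top b⟩)
    haveI : (Subgroup.zpowers y).Normal := ⟨fun n hn g => by rwa [hc g n, mul_inv_cancel_right]⟩
    have hle : N ≤ Subgroup.zpowers y := Subgroup.normalClosure_le_normal (by simp)
    have hxz : x ∈ Subgroup.zpowers y := hle (htop ▸ Subgroup.mem_top x)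
    rw [mem_zpowers_iff_mem_range_orderOf, hy] at hxz
    obtain ⟨i, hi, he⟩ := Finset.mem_image.1 hxz
    rw [Finset.mem_range] at hi
    interval_cases i
    · rw [pow_zero] at he; rw [← he, orderOf_one] at hx; omega
    · rw [pow_one] at he; exact hnc (he ▸ IsConj.refl _)
  · haveI hNn : N.Normal := Subgroup.normalClosure_normal
    haveI := hcomm
    let φ : ↥N →* ↥N := MonoidHom.mk' (fun a => a * ⟨x * a * x⁻¹, hNn.conj_mem a a.2 x⟩) (by
      intro a b
      have e : (⟨x * ↑(a * b) * x⁻¹, hNn.conj_mem _ (a * b).2 x⟩ : ↥N) =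
          ⟨x * a * x⁻¹, hNn.conj_mem a a.2 x⟩ * ⟨x * b * x⁻¹, hNn.conj_mem b b.2 x⟩ :=
        Subtype.ext (by simp [mul_assoc])
      rw [e]
      exact Commute.mul_mul_mul_comm (mul_comm' b _) _ _)
    have hinv : ∀ a : ↥N, a⁻¹ = a := fun a => inv_eq_of_mul_eq_one_right (Subtype.ext (by
      show (a : G) * a = 1
      rw [← sq]; exact hsq a a.2))
    have hfix : ∀ a : ↥N, Commute (a : G) x → a = 1 ∨ a = ⟨y, hyN⟩ := by
      intro a ha
      by_cases h1 : a = 1
      · exact Or.inl h1
      refine Or.inr (Subtype.ext (huniq a a.2 ?_ ha))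
      exact orderOf_eq_prime (hsq a a.2) fun h => h1 (Subtype.ext h)
    have hker : ∀ a : ↥N, φ a = 1 → Commute (a : G) x := by
      intro a ha
      have h := congrArg Subtype.val (eq_inv_of_mul_eq_one_right (a := a) ha)
      rw [hinv] at h
      have h' : x * (a : G) * x⁻¹ = a := h
      show (a : G) * x = x * a
      conv_lhs => rw [← h']
      group
    have himg : ∀ a : ↥N, Commute ((φ a : ↥N) : G) x := by
      intro a
      have hab : Commute (a : G) (x * a * x⁻¹) :=
        congrArg Subtype.val (mul_comm' a ⟨x * a * x⁻¹, hNn.conj_mem a a.2 x⟩)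
      show (a : G) * (x * a * x⁻¹) * x = x * ((a : G) * (x * a * x⁻¹))
      rw [← mul_assoc x, hab.eq]
      calc x * (a : G) * x⁻¹ * a * x = x * (a : G) * (x⁻¹ * a * x) := by group
        _ = x * (a : G) * (x * a * x⁻¹) := by rw [inv_eq_of_mul_eq_one_right hx2]
    have two : ∀ K : Subgroup ↥N, (∀ a ∈ K, Commute ((a : ↥N) : G) x) → Nat.card ↥K ≤ 2 := by
      intro K hK
      have : (K : Set ↥N) ⊆ {1, ⟨y, hyN⟩} := fun a ha => hfix a (hK a ha)
      refine le_trans (Set.ncard_le_ncard this) ?_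
      exact (Set.ncard_insert_le _ _).trans (by simp)
    have h1 := two φ.ker (fun a ha => hker a ha)
    have h2 := two φ.range (by rintro _ ⟨a, rfl⟩; exact himg a)
    have h3 := Subgroup.card_eq_card_quotient_mul_card_subgroup φ.ker
    rw [Nat.card_congr (QuotientGroup.quotientKerEquivRange φ).toEquiv] at h3
    rw [h3]
    calc _ ≤ 2 * 2 := Nat.mul_le_mul h2 h1
      _ = 4 := rfl

end Cfsg.Agent.S3276
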