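import Cfsg.Statements.S3277
import Cfsg.Agent.Lib.Involution.SmallCentralizer
import Cfsg.Agent.Lib.Involution.KleinSelfCent
import Cfsg.Agent.Lib.Char.KleinCount

set_option autoImplicit false
open Cfsg

namespace Cfsg.Agent.S3277

open Subgroup Cfsg.Agent.Lib.Involution

set_option linter.style.haveILetI false

universe u

lemma iso_alt_five {G : Type u} [Group G] [Finite G] (N : Subgroup G) (hN : N.index = 5)
    (hcard : Nat.card G = 60) (hcore : N.normalCore = ⊥) : Nonempty (G ≃* ↥(alternatingGroup (Fin 5))) := by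
  classical
  rw [Subgroup.normalCore_eq_ker, MonoidHom.ker_eq_bot_iff] at hcore
  let e : (G ⧸ N) ≃ Fin 5 := Finite.equivFinOfCardEq (by rw [← Subgroup.index_eq_card, hN])
  let f : G →* Equiv.Perm (Fin 5) := e.permCongrHom.toMonoidHom.comp (MulAction.toPermHom G (G ⧸ N))
  have hinj : Function.Injective f := e.permCongrHom.injective.comp hcore
  have hidx : f.range.index = 2 := by
    have := Subgroup.card_mul_index f.range
    rw [← Nat.card_congr (MonoidHom.ofInjective hinj).toEquiv, hcard, Nat.card_perm, Nat.card_fin] at this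
    norm_num [Nat.factorial] at this
    omega
  exact ⟨(MonoidHom.ofInjective hinj).trans
    (MulEquiv.subgroupCongr (Equiv.Perm.eq_alternatingGroup_of_index_eq_two hidx))⟩

theorem main {G : Type u} [Group G] [Finite G] (x : G) (hx : orderOf x = 2)
    (hC4 : Nat.card ↥(centralizer ({x} : Set G)) = 4) (hCe : ∀ c ∈ centralizer ({x} : Set G), c ^ 2 = 1)
    (hnc : ¬ Cfsg.HasNormalPComplement 2 G)
    (hne : ∀ E : Subgroup G, E.Normal → Cfsg.IsElementaryAbelian 2 E → Nat.card ↥E ≠ 2 ∧ Nat.card ↥E ≠ 4) :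
    Nonempty (G ≃* ↥(alternatingGroup (Fin 5))) := by
  classical
  haveI : Fact (Nat.Prime 2) := ⟨Nat.prime_two⟩
  set C := centralizer ({x} : Set G) with hC
  have hxC : x ∈ C := mem_centralizer_singleton_iff.mpr rfl
  obtain ⟨P, hP⟩ := (IsPGroup.of_card (n := 2) (by rw [hC4]; rfl) : IsPGroup 2 C).exists_le_sylow
  by_cases hPC : (P : Subgroup G) = C
  · have hK : IsKleinFour (P : Subgroup G) := by
      refine ⟨by rw [hPC]; exact hC4, Nat.dvd_antisymm
        (Monoid.exponent_dvd_of_forall_pow_eq_one fun v => Subtype.ext (hCe _ (hPC ▸ v.2))) ?_⟩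
      have hxP : x ∈ (P : Subgroup G) := hP hxC
      have h2 : orderOf (⟨x, hxP⟩ : (P : Subgroup G)) = 2 := (Subgroup.orderOf_mk x hxP).trans hx
      exact h2.symm.dvd.trans (Monoid.order_dvd_exponent _)
    have hidx := (P : Subgroup G).card_mul_index
    rw [hK.card_four] at hidx
    have hodd : Odd (P : Subgroup G).index := Nat.odd_iff.mpr (by
      have := P.not_dvd_index; omega)
    have hnc' : ¬ ∃ N : Subgroup G, N.Normal ∧ Nat.card N = (P : Subgroup G).index := by
      rintro ⟨N, hN, hc⟩
      refine hnc ⟨P, N, hN, Subgroup.isComplement'_of_coprime ?_ ?_⟩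
      · rw [hc, hK.card_four, ← hidx]; ring
      · rw [hc, hK.card_four]
        exact ((Nat.coprime_two_right.mpr hodd).pow_right 2)
    obtain ⟨-, -, hone⟩ := Cfsg.Agent.Lib.Char.klein_of_no_complement hodd hidx.symm hnc' P
    obtain ⟨-, hcase⟩ := klein_self_cent P hK hone hx (hP hxC) hPC.symm
    rcases hcase with ⟨-, hn⟩ | ⟨h60, hN, hcore⟩
    · refine absurd hK.card_four (hne _ hn ⟨⟨⟨fun a b => ?_⟩⟩, fun a ha => hCe a (hPC ▸ ha)⟩).2
      haveI := hK
      exact mul_comm_of_exponent_two hK.exponent_two a b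
    · exact iso_alt_five _ hN h60 hcore
  · exfalso
    have hlt : C.subgroupOf (P : Subgroup G) < ⊤ := lt_top_iff_ne_top.mpr fun h => hPC
      (le_antisymm (fun s hs => mem_subgroupOf.mp (h ▸ mem_top (⟨s, hs⟩ : (P : Subgroup G)) :
        (⟨s, hs⟩ : (P : Subgroup G)) ∈ C.subgroupOf (P : Subgroup G))) hP)
    haveI := P.2.isNilpotent
    obtain ⟨g, hg1, hg2⟩ := SetLike.exists_of_lt (Group.normalizerCondition_of_isNilpotent _ hlt)
    rw [mem_subgroupOf] at hg2
    haveI : Nontrivial (P : Subgroup G) := ⟨⟨⟨x, hP hxC⟩, 1, fun h => ne_one hx (congrArg Subtype.val h)⟩⟩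
    haveI := P.2.center_nontrivial
    obtain ⟨z₀, hz₀⟩ := exists_prime_orderOf_dvd_card' (G := center (P : Subgroup G)) 2 (by
      obtain ⟨k, hk⟩ := IsPGroup.iff_card.mp (P.2.to_subgroup (center (P : Subgroup G)))
      rw [hk]
      refine dvd_pow_self 2 fun h0 => ?_
      rw [h0, pow_zero] at hk
      exact absurd hk (Finite.one_lt_card (α := center (P : Subgroup G))).ne')
    set z : G := ((z₀ : (P : Subgroup G)) : G) with hzdef
    have hz : orderOf z = 2 := by rw [hzdef, Subgroup.orderOf_coe, Subgroup.orderOf_coe, hz₀]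
    have hzP : ∀ p ∈ (P : Subgroup G), p * z = z * p := fun p hp =>
      congrArg Subtype.val (mem_center_iff.mp z₀.2 ⟨p, hp⟩)
    have hxz : Commute x z := hzP x (hP hxC)
    have hzC : z ∈ C := mem_centralizer_singleton_iff.mpr hxz.symm.eq
    have hzx : z ≠ x := fun h => hg2 (mem_centralizer_singleton_iff.mpr (h ▸ hzP g g.2))
    have hmem : ∀ c ∈ C, c = 1 ∨ c = x ∨ c = z ∨ c = x * z := by
      intro c hc
      by_contra hcon
      push_neg at hcon
      obtain ⟨c1, c2, c3, c4⟩ := hcon
      have h1 : x * z ≠ 1 := fun h => hzx (by rw [mul_eq_one_iff_eq_inv.mp h, inv_self hz])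
      have h2 : x * z ≠ x := fun h => ne_one hz (mul_eq_left.mp h)
      have h3 : x * z ≠ z := fun h => ne_one hx (mul_eq_right.mp h)
      have hsub : (({1, x, z, x * z, c} : Finset G) : Set G) ⊆ (C : Set G) := by
        intro g hg
        simp only [Finset.coe_insert, Finset.coe_singleton, Set.mem_insert_iff,
          Set.mem_singleton_iff] at hg
        rcases hg with rfl | rfl | rfl | rfl | rfl
        exacts [one_mem _, hxC, hzC, mul_mem hxC hzC, hc]
      have := Set.ncard_le_ncard hsub (Set.toFinite _)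
      rw [Set.ncard_coe_finset, ← Nat.card_coe_set_eq] at this
      change _ ≤ Nat.card C at this
      rw [hC4] at this
      simp [Ne.symm (ne_one hx), Ne.symm (ne_one hz), hzx.symm, h1.symm, h2.symm, h3.symm, c1.symm,
        c2.symm, c3.symm, c4.symm] at this
    have hgx : (g : G) * x * (g : G)⁻¹ ∈ C := mem_subgroupOf.mp
      ((mem_normalizer_iff.mp hg1 ⟨x, hP hxC⟩).mp (mem_subgroupOf.mpr hxC))
    have hconj : IsConj x (x * z) := by
      refine isConj_iff.mpr ⟨g, ?_⟩
      rcases hmem _ hgx with h | h | h | h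
      · exact absurd (conj_eq_one_iff.mp h) (ne_one hx)
      · exact absurd (mem_centralizer_singleton_iff.mpr (mul_inv_eq_iff_eq_mul.mp h)) hg2
      · refine absurd ?_ hzx.symm
        have e : (g : G) * x * (g : G)⁻¹ = g * z * (g : G)⁻¹ := by
          rw [h, hzP g g.2, mul_inv_cancel_right]
        exact mul_left_cancel (mul_right_cancel e)
      · exact h
    have hnz : ¬ IsConj x z := by
      intro h
      obtain ⟨c, hc⟩ := isConj_iff.mp h.symm
      let F : ↥(P : Subgroup G) → ↥C := fun p => ⟨c * (p : G) * c⁻¹, by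
        rw [hC, mem_centralizer_singleton_iff, ← hc, conj_mul, conj_mul, hzP p p.2]⟩
      have hF : Function.Injective F := fun a b e =>
        Subtype.ext (mul_left_cancel (mul_right_cancel (congrArg Subtype.val e)))
      have hle := Nat.card_le_card_of_injective F hF
      exact hPC (Subgroup.eq_of_le_of_card_ge hP hle).symm
    obtain ⟨D, hDn, hDab, hDsq, hDc⟩ := exists_small_normal hx hz hxz hmem hconj hnz
    have := hne D hDn ⟨hDab, hDsq⟩
    omega


/-- Let G be a finite group containing an involution whose centralizer is elementary abelian of order 4. If G has no normal 2-complement and no normal elementary abelian 2-subgroup of order 2 or 4, then G is isomorphic to the alternating group of degree 5 (that is, to PSL(2, 5)). -/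
theorem result {G : Type*} [Group G] [Finite G] (x : G) (hx : orderOf x = 2)
    (hC4 : Nat.card ↥(Subgroup.centralizer ({x} : Set G)) = 4) (hCe : ∀ c ∈ Subgroup.centralizer ({x} : Set G), c ^ 2 = 1)
    (hnc : ¬ Cfsg.HasNormalPComplement 2 G)
    (hne : ∀ E : Subgroup G, E.Normal → Cfsg.IsElementaryAbelian 2 E → Nat.card ↥E ≠ 2 ∧ Nat.card ↥E ≠ 4) :
    Nonempty (G ≃* ↥(alternatingGroup (Fin 5))) := by
  exact main x hx hC4 hCe hnc hne

end Cfsg.Agent.S3277
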