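import Cfsg.Statements.S3279
import Cfsg.Agent.Lib.Involution.ZStarElement
import Cfsg.Agent.Lib.Involution.Basic

set_option autoImplicit false
open Cfsg

namespace Cfsg.Agent.S3279

open Subgroup Cfsg.Agent.Lib.Involution

set_option linter.style.haveILetI false

universe u

lemma exists_other {G : Type u} [Group G] [Finite G] [IsSimpleGroup G]
    (hnc : ∃ a b : G, a * b ≠ b * a) (S : Sylow 2 G) {a : G} (ha : orderOf a = 2) (haS : a ∈ S) :
    ∃ g : G, g * a * g⁻¹ ∈ S ∧ g * a * g⁻¹ ≠ a := by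
  by_contra h
  push_neg at h
  have hbot : oddCore G = ⊥ := by
    rw [oddCore_eq_bot_iff]
    intro N hN hNo
    rcases hN.eq_bot_or_eq_top with h1 | h1
    · exact h1
    · exfalso
      rw [h1, Subgroup.card_top] at hNo
      have := hNo.of_dvd_nat (ha ▸ _root_.orderOf_dvd_natCard a)
      exact absurd this (by decide)
  have hc : a ∈ center G := by
    rw [mem_center_iff]
    intro g
    have h1 := zstar_element S (x := a) ⟨haS, h⟩ g
    rw [hbot, mem_bot, mul_inv_eq_one, mul_inv_eq_iff_eq_mul] at h1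
    exact h1.symm
  rcases (inferInstance : (center G).Normal).eq_bot_or_eq_top with h1 | h1
  · exact ne_one ha (by rwa [h1, mem_bot] at hc)
  · obtain ⟨p, q, hpq⟩ := hnc
    exact hpq (mem_center_iff.mp (h1 ▸ mem_top q) p)

theorem main {G : Type u} [Group G] [Finite G] [IsSimpleGroup G] (x : G) (hx : orderOf x = 2)
    (h3 : Nat.card {u : ↥(centralizer ({x} : Set G)) // orderOf u = 2} ≤ 3) :
    (∃ S : Sylow 2 G, (S : Subgroup G) ≤ centralizer ({x} : Set G)) ∧
      ∀ u v : G, orderOf u = 2 → orderOf v = 2 → IsConj u v := by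
  classical
  haveI : Fact (Nat.Prime 2) := ⟨Nat.prime_two⟩
  by_cases hnc : ∀ a b : G, a * b = b * a
  · refine ⟨?_, fun u v hu hv => ?_⟩
    · exact ⟨default, fun s _ => mem_centralizer_singleton_iff.mpr (hnc _ _)⟩
    · have hn : (zpowers u).Normal := ⟨fun n hn g => by rwa [hnc g n, mul_inv_cancel_right]⟩
      rcases hn.eq_bot_or_eq_top with h | h
      · exact absurd (zpowers_eq_bot.mp h) (ne_one hu)
      · have hv' : v ∈ zpowers u := h ▸ mem_top v
        obtain ⟨k, rfl⟩ := mem_zpowers_iff.mp hv'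
        rcases Int.even_or_odd k with ⟨l, rfl⟩ | ⟨l, rfl⟩
        · exact absurd (by rw [← two_mul, zpow_mul, zpow_two, mul_self hu, one_zpow]) (ne_one hv)
        · rw [zpow_add_one, zpow_mul, zpow_two, mul_self hu, one_zpow, one_mul]
  push_neg at hnc
  set C := centralizer ({x} : Set G) with hC
  have hxC : x ∈ C := mem_centralizer_singleton_iff.mpr rfl
  have hfour : ∀ a b c : G, a ∈ C → b ∈ C → c ∈ C → orderOf a = 2 → orderOf b = 2 → orderOf c = 2 →
      a ≠ x → b ≠ x → c ≠ x → a = b ∨ a = c ∨ b = c := by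
    intro a b c ha hb hc ha2 hb2 hc2 hax hbx hcx
    by_contra h
    push_neg at h
    obtain ⟨hab, hac, hbc⟩ := h
    let f : Fin 4 → {u : C // orderOf u = 2} :=
      ![⟨⟨x, hxC⟩, by rw [Subgroup.orderOf_mk, hx]⟩, ⟨⟨a, ha⟩, by rw [Subgroup.orderOf_mk, ha2]⟩,
        ⟨⟨b, hb⟩, by rw [Subgroup.orderOf_mk, hb2]⟩, ⟨⟨c, hc⟩, by rw [Subgroup.orderOf_mk, hc2]⟩]
    have hf : Function.Injective f := by
      intro i j hij
      fin_cases i <;> fin_cases j <;> simp_all [f, Ne, Subtype.ext_iff, eq_comm]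
    have := Nat.card_le_card_of_injective f hf
    rw [Nat.card_fin] at this
    omega
  obtain ⟨T⟩ := (inferInstance : Nonempty (Sylow 2 C))
  obtain ⟨S, hS⟩ := (T.2.map C.subtype).exists_le_sylow
  have hxT : (⟨x, hxC⟩ : C) ∈ T := by
    have hp : IsPGroup 2 (zpowers (⟨x, hxC⟩ : C)) :=
      IsPGroup.of_card (n := 1) (by rw [Nat.card_zpowers, Subgroup.orderOf_mk, hx, pow_one])
    obtain ⟨Q, hQ⟩ := hp.exists_le_sylow
    obtain ⟨g, hg⟩ := MulAction.exists_smul_eq C Q T
    have h1 : g * ⟨x, hxC⟩ * g⁻¹ ∈ T := by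
      rw [← hg]; exact Subgroup.smul_mem_pointwise_smul _ _ _ (hQ (mem_zpowers _))
    have hcg : Commute g (⟨x, hxC⟩ : C) := Subtype.ext (mem_centralizer_singleton_iff.mp g.2)
    rwa [hcg.eq, mul_inv_cancel_right] at h1
  have hxS : x ∈ S := hS ⟨_, hxT, rfl⟩
  by_cases hle : (S : Subgroup G) ≤ C
  · refine ⟨⟨S, hle⟩, ?_⟩
    suffices h : ∀ u : G, orderOf u = 2 → u ∈ S → IsConj x u by
      intro u v hu hv
      have key : ∀ w : G, orderOf w = 2 → IsConj x w := by
        intro w hw
        obtain ⟨Q, hQ⟩ := (IsPGroup.of_card (p := 2) (n := 1)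
          (by rw [Nat.card_zpowers, hw, pow_one]) : IsPGroup 2 (zpowers w)).exists_le_sylow
        obtain ⟨g, hg⟩ := MulAction.exists_smul_eq G Q S
        have h1 : g * w * g⁻¹ ∈ S := by
          rw [← hg]; exact Subgroup.smul_mem_pointwise_smul _ _ _ (hQ (mem_zpowers w))
        exact (h _ (by rw [orderOf_conj, hw]) h1).trans (isConj_iff.mpr ⟨g, rfl⟩).symm
      exact (key u hu).symm.trans (key v hv)
    obtain ⟨g, hg1, hg2⟩ := exists_other hnc S hx hxS
    have hy2 : orderOf (g * x * g⁻¹) = 2 := by rw [orderOf_conj, hx]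
    have hcy : IsConj x (g * x * g⁻¹) := isConj_iff.mpr ⟨g, rfl⟩
    intro u hu huS
    by_cases hux : u = x
    · rw [hux]
    by_cases huy : u = g * x * g⁻¹
    · rw [huy]; exact hcy
    obtain ⟨k, hk1, hk2⟩ := exists_other hnc S hu huS
    have hcu : IsConj u (k * u * k⁻¹) := isConj_iff.mpr ⟨k, rfl⟩
    by_cases hkx : k * u * k⁻¹ = x
    · rw [hkx] at hcu; exact hcu.symm
    rcases hfour _ _ _ (hle huS) (hle hg1) (hle hk1) hu hy2 (by rw [orderOf_conj, hu]) hux hg2 hkx with
      h | h | h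
    · exact absurd h huy
    · exact absurd h.symm hk2
    · exact hcy.trans (h ▸ hcu.symm)
  exfalso
  haveI : Nontrivial S := ⟨⟨⟨x, hxS⟩, 1, fun h => ne_one hx (congrArg Subtype.val h)⟩⟩
  haveI := S.2.center_nontrivial
  obtain ⟨z', hz'⟩ := exists_prime_orderOf_dvd_card' 2 (show 2 ∣ Nat.card (center S) by
    obtain ⟨m, hm⟩ := IsPGroup.iff_card.mp (S.2.to_subgroup (center S))
    rw [hm]
    have : 1 < Nat.card (center S) := Finite.one_lt_card
    rw [hm] at this
    exact dvd_pow_self 2 (by rintro rfl; simp at this))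
  set z : G := ((z' : S) : G) with hz
  have hz2 : orderOf z = 2 := by rw [hz, Subgroup.orderOf_coe, Subgroup.orderOf_coe, hz']
  have hzS : ∀ s ∈ S, s * z = z * s := fun s hs =>
    congrArg Subtype.val (mem_center_iff.mp z'.2 ⟨s, hs⟩)
  have hzC : z ∈ C := mem_centralizer_singleton_iff.mpr (hzS x hxS).symm
  have hzx : z ≠ x := by
    intro h; exact hle fun s hs => mem_centralizer_singleton_iff.mpr (h ▸ hzS s hs)
  -- a conjugate of `x` by an element of `S`
  obtain ⟨g, hgS, hgC, hgN⟩ : ∃ g : G, g ∈ S ∧ g ∉ C ∧ g * x * g⁻¹ ∈ C := by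
    set K := C.subgroupOf (S : Subgroup G) with hK
    have hK' : K < ⊤ := lt_top_iff_ne_top.mpr fun h => hle fun s hs =>
      mem_subgroupOf.mp (h ▸ mem_top (⟨s, hs⟩ : S) : (⟨s, hs⟩ : S) ∈ K)
    haveI := S.2.isNilpotent
    obtain ⟨g, hg1, hg2⟩ := SetLike.exists_of_lt (Group.normalizerCondition_of_isNilpotent K hK')
    refine ⟨g, g.2, fun h => hg2 (mem_subgroupOf.mpr h), ?_⟩
    exact mem_subgroupOf.mp ((mem_normalizer_iff.mp hg1 ⟨x, hxS⟩).mp (mem_subgroupOf.mpr hxC))
  have hgx2 : orderOf (g * x * g⁻¹) = 2 := by rw [orderOf_conj, hx]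
  have hgx : g * x * g⁻¹ ≠ x := fun h =>
    hgC (mem_centralizer_singleton_iff.mpr (mul_inv_eq_iff_eq_mul.mp h))
  have hgz : g * x * g⁻¹ ≠ z := by
    intro h
    apply hzx
    have h1 : x = g⁻¹ * z * g := by rw [← h]; group
    rw [h1, mul_assoc, ← hzS g hgS, ← mul_assoc, inv_mul_cancel, one_mul]
  have hxz : ¬ IsConj x z := by
    intro h
    obtain ⟨k, hk⟩ := isConj_iff.mp h
    have hkS : ∀ s ∈ S, k⁻¹ * s * k ∈ C := by
      intro s hs
      rw [mem_centralizer_singleton_iff]
      have h1 := hzS s hs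
      rw [← hk] at h1
      calc k⁻¹ * s * k * x = k⁻¹ * (s * (k * x * k⁻¹)) * k := by group
        _ = k⁻¹ * ((k * x * k⁻¹) * s) * k := by rw [h1]
        _ = x * (k⁻¹ * s * k) := by group
    let φ : S →* C :=
      { toFun := fun s => ⟨k⁻¹ * s * k, hkS s s.2⟩
        map_one' := Subtype.ext (by simp)
        map_mul' := fun a b => Subtype.ext (by simp [mul_assoc]) }
    have hφ : Function.Injective φ := fun a b hab =>
      Subtype.ext (mul_left_cancel (mul_right_cancel (congrArg Subtype.val hab)))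
    obtain ⟨Q, hQ⟩ := (IsPGroup.of_surjective S.2 φ.rangeRestrict φ.rangeRestrict_surjective).exists_le_sylow
    have h1 : Nat.card S ≤ Nat.card T := by
      rw [Sylow.card_eq_multiplicity T, ← Sylow.card_eq_multiplicity Q,
        Nat.card_congr (MonoidHom.ofInjective hφ).toEquiv]
      exact Subgroup.card_le_of_le hQ
    have h2 : (T : Subgroup C).map C.subtype = S := Subgroup.eq_of_le_of_card_ge hS (by
      rwa [Subgroup.card_map_of_injective C.subtype_injective])
    exact hle (h2 ▸ Subgroup.map_subtype_le _)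
  -- every involution not conjugate to `x` commutes with `z`
  have key : ∀ y : G, IsConj z y → Commute y z := by
    intro y hy
    have hy2 : orderOf y = 2 := by rw [← isConj_orderOf hy, hz2]
    have hyx : ¬ IsConj x y := fun h => hxz (h.trans hy.symm)
    have hev : ¬ Odd (orderOf (x * y)) := fun h => hyx (isConj_of_odd hx hy2 h)
    obtain ⟨c, hc2, -, hcx, hcy⟩ := exists_involution_commute hx hy2 hev
    have hcase : ∀ a : G, a ∈ C → orderOf a = 2 → a = x ∨ a = z ∨ a = g * x * g⁻¹ := by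
      intro a haC ha2
      by_cases hax : a = x
      · exact Or.inl hax
      rcases hfour a z _ haC hzC hgN ha2 hz2 hgx2 hax hzx hgx with h | h | h
      · exact Or.inr (Or.inl h)
      · exact Or.inr (Or.inr h)
      · exact absurd h.symm hgz
    have hyC : y ∈ C → Commute y z := fun h => by
      rcases hcase y h hy2 with h | h | h
      · exact absurd (h ▸ IsConj.refl x) hyx
      · rw [h]
      · exact absurd (isConj_iff.mpr ⟨g, h.symm⟩) hyx
    rcases hcase c (mem_centralizer_singleton_iff.mpr hcx) hc2 with h | h | h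
    · exact hyC (mem_centralizer_singleton_iff.mpr (h ▸ hcy).symm)
    · exact (h ▸ hcy).symm
    · rw [h] at hcy
      have hmem : g⁻¹ * y * g ∈ C := by
        rw [mem_centralizer_singleton_iff]
        calc g⁻¹ * y * g * x = g⁻¹ * (y * (g * x * g⁻¹)) * g := by group
          _ = g⁻¹ * ((g * x * g⁻¹) * y) * g := by rw [hcy.eq]
          _ = x * (g⁻¹ * y * g) := by group
      have hconj : IsConj y (g⁻¹ * y * g) := isConj_iff.mpr ⟨g⁻¹, by rw [inv_inv]⟩
      rcases hcase _ hmem (by rw [← isConj_orderOf hconj, hy2]) with h1 | h1 | h1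
      · rw [h1] at hconj; exact absurd hconj.symm hyx
      · have h2 : y = g * z * g⁻¹ := by rw [← h1]; group
        rw [hzS g hgS, mul_inv_cancel_right] at h2
        rw [h2]
      · rw [h1] at hconj
        exact absurd ((isConj_iff.mpr ⟨g, rfl⟩).trans hconj.symm) hyx
  have hN : normalClosure ({z} : Set G) ≤ centralizer ({z} : Set G) := by
    rw [normalClosure, closure_le]
    intro y hy
    obtain ⟨a, ha, hc⟩ := Group.mem_conjugatesOfSet_iff.mp hy
    rw [Set.mem_singleton_iff] at ha
    exact mem_centralizer_singleton_iff.mpr (key y (ha ▸ hc)).eq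
  rcases (inferInstance : (normalClosure ({z} : Set G)).Normal).eq_bot_or_eq_top with h | h
  · exact ne_one hz2 (by rw [← mem_bot, ← h]; exact subset_normalClosure rfl)
  · rw [h, top_le_iff, centralizer_eq_top_iff_subset, Set.singleton_subset_iff] at hN
    rcases (inferInstance : (center G).Normal).eq_bot_or_eq_top with h1 | h1
    · rw [h1] at hN; exact ne_one hz2 (mem_bot.mp hN)
    · obtain ⟨p, q, hpq⟩ := hnc
      exact hpq (mem_center_iff.mp (h1 ▸ mem_top q) p)

/-- Let G be a finite simple group and x an involution of G whose centralizer contains at most three involutions. Then C_G(x) contains a Sylow 2-subgroup of G, and all involutions of G are conjugate. -/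
theorem result {G : Type*} [Group G] [Finite G] [IsSimpleGroup G] (x : G) (hx : orderOf x = 2)
    (h3 : Nat.card {u : ↥(Subgroup.centralizer ({x} : Set G)) // orderOf u = 2} ≤ 3) :
    (∃ S : Sylow 2 G, (S : Subgroup G) ≤ Subgroup.centralizer ({x} : Set G)) ∧
      ∀ u v : G, orderOf u = 2 → orderOf v = 2 → IsConj u v := by
  exact main x hx h3

end Cfsg.Agent.S3279
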