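import Cfsg.Statements.S3278
import Cfsg.Agent.S3279
import Cfsg.Agent.Lib.Involution.KleinSimple
import Cfsg.Agent.Lib.Involution.Basic

set_option autoImplicit false
open Cfsg

namespace Cfsg.Agent.S3278

open Subgroup Cfsg.Agent.Lib.Involution

set_option linter.style.haveILetI false

universe u

theorem main {G : Type u} [Group G] [Finite G] [IsSimpleGroup G] (x : G) (hx : orderOf x = 2)
    (S₀ : Subgroup G) (hle : S₀ ≤ centralizer ({x} : Set G)) (hK : IsKleinFour ↥S₀)
    (hodd : ¬ 2 ∣ S₀.relIndex (centralizer ({x} : Set G)))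
    (hn : (S₀.subgroupOf (centralizer ({x} : Set G))).Normal) :
    Nonempty (G ≃* ↥(alternatingGroup (Fin 5))) := by
  classical
  haveI : Fact (Nat.Prime 2) := ⟨Nat.prime_two⟩
  haveI := hn
  set C := centralizer ({x} : Set G) with hC
  set K := S₀.subgroupOf C with hKdef
  have hK4 : Nat.card S₀ = 4 := hK.card_four
  have hpow : ∀ c ∈ C, ∃ k : ℕ, Odd k ∧ c ^ k ∈ S₀ := fun c hc =>
    ⟨K.index, Nat.odd_iff.mpr (by rw [← Nat.two_dvd_ne_zero]; exact hodd),
      mem_subgroupOf.mp (K.pow_index_mem (⟨c, hc⟩ : C))⟩
  have h2mem : ∀ c ∈ C, (∃ j : ℕ, orderOf c = 2 ^ j) → c ∈ S₀ := by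
    intro c hc ⟨j, hj⟩
    obtain ⟨k, hk, hk2⟩ := hpow c hc
    obtain ⟨m, hm⟩ := exists_pow_eq_self_of_coprime (x := c) (n := k)
      (by rw [hj]; exact (Nat.coprime_two_right.mpr hk).pow_right j)
    rw [← hm]; exact pow_mem hk2 m
  have hnab : ¬ IsMulCommutative G := by
    intro h
    have hn' : (zpowers x).Normal := ⟨fun n hn g => by
      rwa [h.is_comm.comm g n, mul_inv_cancel_right]⟩
    rcases hn'.eq_bot_or_eq_top with h1 | h1
    · exact ne_one hx (zpowers_eq_bot.mp h1)
    · have := Subgroup.card_le_of_le (le_top : S₀ ≤ (⊤ : Subgroup G))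
      rw [← h1, Nat.card_zpowers, hx, hK4] at this
      omega
  have hx0 : x ∈ S₀ := h2mem x (mem_centralizer_singleton_iff.mpr rfl) ⟨1, by rw [hx, pow_one]⟩
  have h3 : Nat.card {u : ↥C // orderOf u = 2} ≤ 3 := by
    let f : {u : ↥C // orderOf u = 2} → {u : ↥S₀ // u ≠ 1} := fun u =>
      ⟨⟨u.1.1, h2mem _ u.1.2 ⟨1, by rw [Subgroup.orderOf_coe, u.2, pow_one]⟩⟩, fun h => by
        have h1 : (u.1 : G) = 1 := congrArg Subtype.val h
        have h2 := u.2
        rw [← Subgroup.orderOf_coe, h1, orderOf_one] at h2
        omega⟩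
    have hf : Function.Injective f := fun a b h =>
      Subtype.ext (Subtype.ext (congrArg (fun v => ((v.1 : ↥S₀) : G)) h))
    refine (Nat.card_le_card_of_injective f hf).trans ?_
    haveI := Fintype.ofFinite ↥S₀
    rw [Nat.card_eq_fintype_card, Fintype.card_subtype_compl, Fintype.card_subtype_eq,
      ← Nat.card_eq_fintype_card, hK4]
  obtain ⟨⟨S, hS⟩, hone⟩ := S3279.main x hx h3
  have hSeq : (S : Subgroup G) = S₀ := by
    have hle' : (S : Subgroup G) ≤ S₀ := fun s hs => h2mem s (hS hs) (by
      obtain ⟨j, hj⟩ := IsPGroup.iff_orderOf.mp S.2 ⟨s, hs⟩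
      exact ⟨j, by rw [← hj, Subgroup.orderOf_mk]⟩)
    have hp : IsPGroup 2 S₀ := IsPGroup.of_card (n := 2) hK4
    exact (S.3 hp hle').symm
  have hSK : IsKleinFour (S : Subgroup G) := by rw [hSeq]; exact hK
  have hCS : C = centralizer ((S : Subgroup G) : Set G) := by
    refine le_antisymm (fun c hc => ?_) (fun c hc => ?_)
    · rw [mem_centralizer_iff, hSeq]
      intro u hu
      have hconj : ∀ d ∈ C, ∀ v ∈ S₀, d * v * d⁻¹ ∈ S₀ := fun d hd v hv =>
        mem_subgroupOf.mp (hn.conj_mem ⟨v, hle hv⟩ (mem_subgroupOf.mpr hv) ⟨d, hd⟩)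
      have hcomm0 : ∀ a ∈ S₀, ∀ b ∈ S₀, a * b = b * a := by
        intro a ha b hb
        haveI := hK
        exact congrArg Subtype.val (mul_comm_of_exponent_two hK.exponent_two (⟨a, ha⟩ : S₀) ⟨b, hb⟩)
      obtain ⟨k, hk, hk2⟩ := hpow c hc
      have hck : Commute (c ^ k) u := hcomm0 _ hk2 u hu
      have hc2 : Commute (c ^ 2) u := by
        by_cases hcu : c * u * c⁻¹ = u
        · exact Commute.pow_left (mul_inv_eq_iff_eq_mul.mp hcu : Commute c u) 2
        · -- the conjugate is the third involution
          have hv := hconj c hc u hu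
          have hw := hconj c hc _ hv
          set v := c * u * c⁻¹ with hvdef
          have hu1 : u ≠ 1 := by rintro rfl; simp [hvdef] at hcu
          have hux : u ≠ x := by
            rintro rfl
            exact hcu (by rw [hvdef, mem_centralizer_singleton_iff.mp hc, mul_inv_cancel_right])
          have hv1 : v ≠ 1 := fun h => hu1 (by
            have h' : c * u * c⁻¹ = c * 1 * c⁻¹ := by simpa [hvdef] using h
            exact mul_left_cancel (mul_right_cancel h'))
          have hxc : c * x * c⁻¹ = x := by
            rw [mem_centralizer_singleton_iff.mp hc, mul_inv_cancel_right]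
          have hvx : v ≠ x := fun h => hux (by
            have h' : c * u * c⁻¹ = c * x * c⁻¹ := h.trans hxc.symm
            exact mul_left_cancel (mul_right_cancel h'))
          set w := c * v * c⁻¹ with hwdef
          have hwv : w ≠ v := fun h => hcu (mul_left_cancel (mul_right_cancel h))
          have hw1 : w ≠ 1 := fun h => hv1 (by
            have h' : c * v * c⁻¹ = c * 1 * c⁻¹ := by simpa [hwdef] using h
            exact mul_left_cancel (mul_right_cancel h'))
          have hwx : w ≠ x := fun h => hvx (by
            have h' : c * v * c⁻¹ = c * x * c⁻¹ := h.trans hxc.symm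
            exact mul_left_cancel (mul_right_cancel h'))
          by_cases hwu : w = u
          · have h' : c ^ 2 * u * (c ^ 2)⁻¹ = u := by
              calc c ^ 2 * u * (c ^ 2)⁻¹ = c * (c * u * c⁻¹) * c⁻¹ := by simp only [pow_two, mul_inv_rev, mul_assoc]
                _ = w := rfl
                _ = u := hwu
            exact mul_inv_eq_iff_eq_mul.mp h'
          · exfalso
            have hsub : (({1, x, u, v, w} : Finset G) : Set G) ⊆ (S₀ : Set G) := by
              intro g hg
              simp only [Finset.coe_insert, Finset.coe_singleton, Set.mem_insert_iff,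
                Set.mem_singleton_iff] at hg
              rcases hg with rfl | rfl | rfl | rfl | rfl
              exacts [one_mem _, hx0, hu, hv, hw]
            have h5 : ({1, x, u, v, w} : Finset G).card = 5 := by
              rw [Finset.card_insert_of_notMem, Finset.card_insert_of_notMem,
                Finset.card_insert_of_notMem, Finset.card_insert_of_notMem, Finset.card_singleton]
              · simpa using hwv.symm
              · simp only [Finset.mem_insert, Finset.mem_singleton, not_or]
                exact ⟨fun h => hcu h.symm, fun h => hwu h.symm⟩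
              · simp only [Finset.mem_insert, Finset.mem_singleton, not_or]
                exact ⟨hux.symm, hvx.symm, hwx.symm⟩
              · simp only [Finset.mem_insert, Finset.mem_singleton, not_or]
                exact ⟨(ne_one hx).symm, hu1.symm, hv1.symm, hw1.symm⟩
            have := Set.ncard_le_ncard hsub (Set.toFinite _)
            rw [Set.ncard_coe_finset, h5, ← Nat.card_coe_set_eq] at this
            change 5 ≤ Nat.card S₀ at this
            omega
      obtain ⟨m, rfl⟩ := hk
      rw [pow_succ] at hck
      have h1 : Commute ((c ^ (2 * m))⁻¹ * (c ^ (2 * m) * c)) u :=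
        ((pow_mul c 2 m ▸ hc2.pow_left m : Commute (c ^ (2 * m)) u).inv_left).mul_left hck
      rw [inv_mul_cancel_left] at h1
      exact h1.eq.symm
    · exact mem_centralizer_singleton_iff.mpr
        (mem_centralizer_iff.mp hc x (hSeq ▸ hx0)).symm
  exact Cfsg.Agent.Lib.SmallSimple.nonempty_mulEquiv_alternatingFive
    (card_eq_sixty hnab S hSK hone hx (show x ∈ (S : Subgroup G) by rw [hSeq]; exact hx0) hCS)

/-- Let G be a finite simple group with an involution x such that a Sylow 2-subgroup of C_G(x) is a Klein four-group which is normal in C_G(x). Then G is isomorphic to the alternating group of degree 5 (that is, to PSL(2, 5)). -/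
theorem result {G : Type*} [Group G] [Finite G] [IsSimpleGroup G] (x : G) (hx : orderOf x = 2)
    (S₀ : Subgroup G) (hle : S₀ ≤ Subgroup.centralizer ({x} : Set G)) (hK : IsKleinFour ↥S₀)
    (hodd : ¬ 2 ∣ S₀.relIndex (Subgroup.centralizer ({x} : Set G))) (hn : (S₀.subgroupOf (Subgroup.centralizer ({x} : Set G))).Normal) :
    Nonempty (G ≃* ↥(alternatingGroup (Fin 5))) := by
  exact main x hx S₀ hle hK hodd hn

end Cfsg.Agent.S3278
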