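import Cfsg.Statements.S3282
import Cfsg.Agent.Lib.BSW.Counts
import Cfsg.Agent.Lib.BSW.Plus
import Cfsg.Agent.Lib.BSW.MinusGlobal

set_option autoImplicit false
open Cfsg

namespace Cfsg.Agent.S3282

open Cfsg.Agent.Lib

/-- The abstract form of the Brauer–Suzuki–Wall Theorem. Let G be a finite group with an involution t and an abelian subgroup K of H = C_G(t) containing t, such that H = K⟨s⟩ for an involution s ∉ K with C_K(s) = ⟨t⟩ and s inverting every element of K, K ∩ K^g = 1 for every g outside H, and all involutions of G conjugate. Then G has a subgroup Q, of order q say, with |G| = q(q+1)(q−1)/2, C_G(x) = Q for every non-identity x ∈ Q, N_G(Q) = QD for an abelian subgroup D of order (q−1)/2 meeting Q trivially, and for every nontrivial subgroup X of D, N_G(X) = N_G(D) = D⟨u⟩ for some involution u ∉ D inverting D. -/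
theorem result {G : Type*} [Group G] [Finite G] (t : G) (ht : orderOf t = 2)
    (K : Subgroup G) (hKab : IsMulCommutative ↥K) (hKH : K ≤ Subgroup.centralizer ({t} : Set G)) (htK : t ∈ K)
    (s : G) (hs : orderOf s = 2) (hsH : s ∈ Subgroup.centralizer ({t} : Set G)) (hsK : s ∉ K)
    (hH : K ⊔ Subgroup.zpowers s = Subgroup.centralizer ({t} : Set G)) (hCK : K ⊓ Subgroup.centralizer ({s} : Set G) = Subgroup.zpowers t)
    (hinv : ∀ x ∈ K, s * x * s⁻¹ = x⁻¹)
    (hTI : ∀ g : G, g ∉ Subgroup.centralizer ({t} : Set G) → K ⊓ K.map (MulAut.conj g).toMonoidHom = ⊥)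
    (hconj : ∀ x y : G, orderOf x = 2 → orderOf y = 2 → IsConj x y) :
    ∃ Q D : Subgroup G, 2 * Nat.card G = Nat.card ↥Q * (Nat.card ↥Q + 1) * (Nat.card ↥Q - 1) ∧
      (∀ x ∈ Q, x ≠ 1 → Subgroup.centralizer ({x} : Set G) = Q) ∧
      IsMulCommutative ↥D ∧ 2 * Nat.card ↥D + 1 = Nat.card ↥Q ∧ Q ⊓ D = ⊥ ∧
      Subgroup.normalizer (Q : Set G) = Q ⊔ D ∧
      ∀ X : Subgroup G, X ≤ D → X ≠ ⊥ →
        Subgroup.normalizer (X : Set G) = Subgroup.normalizer (D : Set G) ∧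
        ∃ u : G, orderOf u = 2 ∧ u ∉ D ∧ (∀ d ∈ D, u * d * u⁻¹ = d⁻¹) ∧
          Subgroup.normalizer (D : Set G) = D ⊔ Subgroup.zpowers u := by
  have hK2 : 2 * (Nat.card ↥K / 2) = Nat.card ↥K := by
    refine Nat.mul_div_cancel' ?_
    rw [← ht, ← Subgroup.orderOf_mk t htK]
    exact orderOf_dvd_natCard _
  set m := Nat.card ↥K / 2 with hmdef
  have h : BSW.Hyp t K s m :=
    ⟨ht, hK2.symm, fun a ha b hb => congrArg Subtype.val (hKab.is_comm.comm ⟨a, ha⟩ ⟨b, hb⟩), hKH,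
      htK, hs, hsH, hsK, hH, hCK, hinv, hTI, hconj⟩
  have hm := h.mpos
  rcases BSW.dichotomy h with ⟨hG, P, hP⟩ | ⟨hG, P, hP, hne⟩
  · obtain ⟨Q, hQ, hcent, hdisj, hN⟩ := h.plus hG P hP.inv hP.card hP.pos hP.neg
    refine ⟨Q, K, ?_, hcent, hKab, by rw [h.card, hQ]; ring, hdisj, hN, fun X hX hX1 => ?_⟩
    · rw [hG, hQ, Nat.add_sub_cancel]; ring
    have hKN : ∀ Y : Subgroup G, Y ≤ K → Y ≠ ⊥ →
        Subgroup.normalizer (Y : Set G) = Subgroup.centralizer ({t} : Set G) := by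
      intro Y hY hY1
      obtain ⟨x, hx, hx1⟩ := (Subgroup.bot_or_exists_ne_one Y).resolve_left hY1
      refine le_antisymm (fun n hn => h.mem_H_of_conj_mem (hY hx) hx1
        (hY ((Subgroup.mem_normalizer_iff.1 hn x).1 hx))) fun n hn => ?_
      have hc : ∀ a : G, a ∈ Subgroup.centralizer ({t} : Set G) → ∀ y ∈ Y,
          a * y * a⁻¹ ∈ Y := fun a ha y hy => by
        by_cases haK : a ∈ K
        · rw [(h.conj_K (hY hy) ha).1 haK]; exact hy
        · rw [(h.conj_K (hY hy) ha).2 haK]; exact inv_mem hy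
      refine Subgroup.mem_normalizer_iff.2 fun y => ⟨hc n hn y, fun hy => ?_⟩
      have := hc n⁻¹ (inv_mem hn) _ hy
      simpa [mul_assoc] using this
    refine ⟨?_, s, hs, hsK, hinv, ?_⟩
    · rw [hKN X hX hX1, hKN K le_rfl fun e => hX1 (le_bot_iff.1 (e ▸ hX))]
    · rw [hKN K le_rfl fun e => hX1 (le_bot_iff.1 (e ▸ hX)), hH]
  · obtain ⟨Q, D, hQ, hD, hcent, hcomm, hdisj, hN, hX⟩ :=
      BSW.Minus.main ⟨h, hG, hP.inv, hP.card, hP.pos, hP.neg, hne⟩
    refine ⟨Q, D, ?_, hcent, ⟨⟨fun a b => Subtype.ext (hcomm _ a.2 _ b.2)⟩⟩, ?_, hdisj, hN, hX⟩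
    · rw [hG, hQ, Nat.sub_add_cancel (show 1 ≤ 4 * m by omega),
        show 4 * m - 1 - 1 = 4 * m - 2 by omega]
      ring
    · rw [hD, hQ]; omega

end Cfsg.Agent.S3282
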