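import Cfsg.Statements.S3299
import Mathlib
import Cfsg.Agent.Lib.LocalChar.InvolExtremal
import Cfsg.Agent.Lib.Hall.Basic
-- import your own Cfsg.Agent.* helpers here

set_option autoImplicit false
open Cfsg

namespace Cfsg.Agent.S3299


/-- Elements centralizing the centralizer in `E` of an involution `e ∈ E ∖ K`. -/
theorem four_group {G : Type*} [Group G] {E K C : Subgroup G} {z e x : G}
    (hEc : ∀ x ∈ E, (∀ y ∈ E, x * y = y * x) → x = 1 ∨ x = z)
    (hEcomm : ∀ a ∈ E, ∀ b ∈ E, a * b = b * a ∨ a * b = b * a * z)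
    (hEn : ∀ c ∈ C, ∀ a ∈ E, c * a * c⁻¹ ∈ E)
    (hcentE : ∀ x, (∀ y ∈ E, x * y = y * x) → x ∈ E)
    (hKmul : ∀ a ∈ C, ∀ b ∈ C, (a * b ∈ K ↔ (a ∈ K ↔ b ∈ K)))
    (hEC : E ≤ C) (hzK : z ∈ K) (hzz : z * z = 1) (hzC : ∀ c ∈ C, z * c = c * z)
    (he : e ∈ E) (heK : e ∉ K) (he2 : e * e = 1) (hxC : x ∈ C)
    (hxD : ∀ y ∈ E, y * e = e * y → x * y = y * x) : x = 1 ∨ x = z ∨ x = e ∨ x = e * z := by
  have hez : ∀ y ∈ E, z * y = y * z := fun y hy => hzC y (hEC hy)
  -- `f` in `E ∩ K` not commuting with `e`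
  obtain ⟨f, hf, hfK, hfe⟩ : ∃ f ∈ E, f ∈ K ∧ f * e ≠ e * f := by
    by_contra hne
    push Not at hne
    have hcen : ∀ y ∈ E, e * y = y * e := by
      intro y hy
      by_cases hyK : y ∈ K
      · exact (hne y hy hyK).symm
      · have hyeK : y * e ∈ K := (hKmul y (hEC hy) e (hEC he)).2 (by tauto)
        have h := hne (y * e) (E.mul_mem hy he) hyeK
        have h' : y * e * e = e * y * e := by rw [h]; group
        exact (mul_right_cancel h').symm
    rcases hEc e he hcen with h | h
    · exact heK (h ▸ K.one_mem)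
    · exact heK (h ▸ hzK)
  have hcom : ∀ y ∈ E, y * e ≠ e * y → y * e = e * y * z := fun y hy hne =>
    (hEcomm y hy e he).resolve_left hne
  have hfe' := hcom f hf hfe
  -- decomposition of `E`
  have hdec : ∀ y ∈ E, y * e = e * y ∨ (f⁻¹ * y) * e = e * (f⁻¹ * y) := by
    intro y hy
    by_cases h : y * e = e * y
    · exact Or.inl h
    · refine Or.inr (mul_left_cancel (a := f) ?_)
      calc f * (f⁻¹ * y * e) = y * e := by group
        _ = e * y * z := hcom y hy h
        _ = (e * f * z) * (f⁻¹ * y) := by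
            rw [mul_assoc (e * f) z, hez _ (E.mul_mem (E.inv_mem hf) hy)]; group
        _ = f * e * (f⁻¹ * y) := by rw [hfe']
        _ = f * (e * (f⁻¹ * y)) := by group
  have hcentral : ∀ v ∈ E, (∀ y ∈ E, y * e = e * y → v * y = y * v) → v * f = f * v → v = 1 ∨ v = z := by
    intro v hv hvD hvf
    refine hEc v hv fun y hy => ?_
    rcases hdec y hy with h | h
    · exact hvD y hy h
    · have h1 := hvD _ (E.mul_mem (E.inv_mem hf) hy) h
      calc v * y = (v * f) * (f⁻¹ * y) := by group
        _ = f * (v * (f⁻¹ * y)) := by rw [hvf, mul_assoc]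
        _ = f * ((f⁻¹ * y) * v) := by rw [h1]
        _ = y * v := by group
  set w := f⁻¹ * (x * f * x⁻¹) with hw
  have hwE : w ∈ E := E.mul_mem (E.inv_mem hf) (hEn x hxC f hf)
  have hxfK : x * f * x⁻¹ ∈ K := by
    rw [hKmul _ (C.mul_mem hxC (hEC hf)) _ (C.inv_mem hxC), hKmul _ hxC _ (hEC hf), inv_mem_iff]
    tauto
  have hwK : w ∈ K := K.mul_mem (K.inv_mem hfK) hxfK
  have hwD : ∀ y ∈ E, y * e = e * y → w * y = y * w := by
    intro y hy hye
    have hxy := hxD y hy hye
    have hxy' : x * y * x⁻¹ = y := by rw [hxy, mul_inv_cancel_right]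
    have h2 : (x * f * x⁻¹) * y * (x * f * x⁻¹)⁻¹ * y⁻¹ = x * (f * y * f⁻¹ * y⁻¹) * x⁻¹ := by
      conv_lhs => rw [← hxy']
      group
    have h3 : x * (f * y * f⁻¹ * y⁻¹) * x⁻¹ = f * y * f⁻¹ * y⁻¹ := by
      rcases hEcomm f hf y hy with h | h
      · rw [h]; group
      · have h4 : f * y * f⁻¹ * y⁻¹ = z := by
          rw [h, mul_assoc (y * f) z, hez _ (E.inv_mem hf), ← mul_assoc, mul_inv_cancel_right,
            mul_assoc, hez _ (E.inv_mem hy), ← mul_assoc, mul_inv_cancel, one_mul]
        rw [h4, ← hzC x hxC, mul_inv_cancel_right]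
    rw [h3, show x * f * x⁻¹ = f * w by rw [hw, mul_inv_cancel_left]] at h2
    have h5 : f * w * y * (f * w)⁻¹ = f * y * f⁻¹ := mul_right_cancel h2
    have h6 : w * y * w⁻¹ = y := by
      calc w * y * w⁻¹ = f⁻¹ * (f * w * y * (f * w)⁻¹) * f := by group
        _ = y := by rw [h5]; group
    calc w * y = w * y * w⁻¹ * w := by group
      _ = y * w := by rw [h6]
  have hw2 : w = 1 ∨ w = z := by
    by_cases hwf : w * f = f * w
    · exact hcentral w hwE hwD hwf
    · have hwf' : w * f = f * w * z := (hEcomm w hwE f hf).resolve_left hwf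
      have h1 : (w * e) * f = f * (w * e) := by
        have hef : e * f = f * e * z := by
          rw [hfe', mul_assoc (e * f) z z, hzz, mul_one]
        calc (w * e) * f = w * (f * e * z) := by rw [mul_assoc, hef]
          _ = (w * f) * (e * z) := by group
          _ = f * w * z * (e * z) := by rw [hwf']
          _ = f * w * (z * e) * z := by group
          _ = f * w * (e * (z * z)) := by rw [hez e he]; group
          _ = f * (w * e) := by rw [hzz, mul_one, mul_assoc]
      have h2 := hcentral (w * e) (E.mul_mem hwE he) (fun y hy hye => by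
        rw [mul_assoc, ← hye, ← mul_assoc, hwD y hy hye, mul_assoc]) h1
      exfalso
      rcases h2 with h2 | h2
      · exact heK ((eq_inv_of_mul_eq_one_right h2).symm ▸ K.inv_mem hwK)
      · exact heK ((eq_inv_mul_iff_mul_eq.2 h2).symm ▸ K.mul_mem (K.inv_mem hwK) hzK)
  have hxf : x * f * x⁻¹ = f * w := by rw [hw, mul_inv_cancel_left]
  rcases hw2 with hw1 | hw1
  · rw [hw1, mul_one] at hxf
    have hxE : x ∈ E := hcentE x fun y hy => by
      rcases hdec y hy with h | h
      · exact hxD y hy h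
      · have h1 := hxD _ (E.mul_mem (E.inv_mem hf) hy) h
        calc x * y = (x * f * x⁻¹) * (x * (f⁻¹ * y)) := by group
          _ = f * ((f⁻¹ * y) * x) := by rw [hxf, h1]
          _ = y * x := by group
    rcases hcentral x hxE hxD (mul_inv_eq_iff_eq_mul.1 hxf) with h | h
    · exact Or.inl h
    · exact Or.inr (Or.inl h)
  · rw [hw1] at hxf
    have hv : ∀ y ∈ E, y * e = e * y → (x * e) * y = y * (x * e) := fun y hy hye => by
      rw [mul_assoc, ← hye, ← mul_assoc, hxD y hy hye, mul_assoc]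
    have hvf : (x * e) * f = f * (x * e) := by
      have hef : e * f = f * e * z := by
        rw [hfe', mul_assoc (e * f) z z, hzz, mul_one]
      calc (x * e) * f = x * f * (e * z) := by rw [mul_assoc, hef]; group
        _ = (x * f * x⁻¹) * x * (e * z) := by group
        _ = f * z * x * (e * z) := by rw [hxf]
        _ = f * x * z * (z * e) := by rw [mul_assoc f z x, hzC x hxC, hez e he]; group
        _ = f * (x * e) := by rw [mul_assoc (f * x) z, ← mul_assoc z z, hzz, one_mul, mul_assoc]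
    have hvE : x * e ∈ E := hcentE _ fun y hy => by
      rcases hdec y hy with h | h
      · exact hv y hy h
      · have h1 := hv _ (E.mul_mem (E.inv_mem hf) hy) h
        calc x * e * y = (x * e * f) * (f⁻¹ * y) := by group
          _ = f * ((x * e) * (f⁻¹ * y)) := by rw [hvf, mul_assoc]
          _ = f * ((f⁻¹ * y) * (x * e)) := by rw [h1]
          _ = y * (x * e) := by group
    rcases hcentral _ hvE hv hvf with h | h
    · right; right; left
      rw [eq_inv_of_mul_eq_one_left h, inv_eq_of_mul_eq_one_left he2]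
    · right; right; right
      rw [eq_mul_inv_iff_mul_eq.2 h, inv_eq_of_mul_eq_one_left he2, hez e he]

theorem ncard_eight {G : Type*} [Group G] (a b c d e f g h : G) :
    ({a, b, c, d, e, f, g, h} : Set G).ncard ≤ 8 := by
  have h1 := Set.ncard_singleton h
  have h2 := Set.ncard_insert_le g ({h} : Set G)
  have h3 := Set.ncard_insert_le f ({g, h} : Set G)
  have h4 := Set.ncard_insert_le e ({f, g, h} : Set G)
  have h5 := Set.ncard_insert_le d ({e, f, g, h} : Set G)
  have h6 := Set.ncard_insert_le c ({d, e, f, g, h} : Set G)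
  have h7 := Set.ncard_insert_le b ({c, d, e, f, g, h} : Set G)
  have h8 := Set.ncard_insert_le a ({b, c, d, e, f, g, h} : Set G)
  omega

/-- Let G be a finite group with no nontrivial 2-group quotient (O^2(G) = G), z an involution of G with H = C_G(z), and suppose E = O_2(H) is extraspecial with C_G(E) ≤ E and of order 2^(2n+1) with n ≥ 2. Then E is contained in every normal subgroup of H of index 2. -/
theorem result {G : Type*} [Group G] [Finite G] (hres : Cfsg.pResidual 2 G = ⊤) (z : G) (hz : orderOf z = 2)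
    (E : Subgroup G) (hE : E = (Cfsg.pCore 2 ↥(Subgroup.centralizer ({z} : Set G))).map (Subgroup.centralizer ({z} : Set G)).subtype)
    (hext : Cfsg.IsExtraspecial 2 ↥E) (hcent : Subgroup.centralizer (E : Set G) ≤ E) (n : ℕ) (hn : 2 ≤ n) (hcard : Nat.card ↥E = 2 ^ (2 * n + 1))
    (K : Subgroup G) (hKH : K ≤ Subgroup.centralizer ({z} : Set G))
    (hKn : ∀ h ∈ Subgroup.centralizer ({z} : Set G), K.map (MulAut.conj h).toMonoidHom = K)
    (hKi : K.relIndex (Subgroup.centralizer ({z} : Set G)) = 2) : E ≤ K := by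
  classical
  haveI : Fact (Nat.Prime 2) := ⟨Nat.prime_two⟩
  set C := Subgroup.centralizer ({z} : Set G) with hC
  have hzC : ∀ c ∈ C, z * c = c * z := fun c hc => (Subgroup.mem_centralizer_singleton_iff.1 hc).symm
  have hEC : E ≤ C := hE ▸ Subgroup.map_subtype_le _
  have hE2 : IsPGroup 2 E := hE ▸ (Cfsg.Agent.Lib.Hall.isPGroup_pCore 2).map _
  have hEn : ∀ c ∈ C, ∀ a ∈ E, c * a * c⁻¹ ∈ E := by
    intro c hc a ha
    rw [hE] at ha ⊢
    obtain ⟨a, ha, rfl⟩ := ha
    exact ⟨⟨c, hc⟩ * a * ⟨c, hc⟩⁻¹, Cfsg.Agent.Lib.Hall.pCore_normal 2 |>.conj_mem _ ha _, rfl⟩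
  have hcentE : ∀ x, (∀ y ∈ E, x * y = y * x) → x ∈ E := fun x hx =>
    hcent (Subgroup.mem_centralizer_iff.2 fun y hy => (hx y hy).symm)
  have hzE : z ∈ E := hcentE z fun y hy => hzC y (hEC hy)
  have hz1 : z ≠ 1 := fun h => by rw [h, orderOf_one] at hz; omega
  have hzz : z * z = 1 := by rw [← pow_two, ← hz]; exact pow_orderOf_eq_one z
  have hEc : ∀ x ∈ E, (∀ y ∈ E, x * y = y * x) → x = 1 ∨ x = z := by
    intro x hx hxc
    have hzc' : (⟨z, hzE⟩ : E) ∈ Subgroup.center E :=
      Subgroup.mem_center_iff.2 fun y => Subtype.ext (hzC y (hEC y.2)).symm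
    have hxc' : (⟨x, hx⟩ : E) ∈ Subgroup.center E :=
      Subgroup.mem_center_iff.2 fun y => Subtype.ext (hxc y y.2).symm
    obtain ⟨a, b, -, hab⟩ := Nat.card_eq_two_iff.1 hext.2
    have hu : ∀ w : Subgroup.center E, w = a ∨ w = b := fun w => by
      have : w ∈ ({a, b} : Set (Subgroup.center E)) := hab ▸ Set.mem_univ w
      simpa using this
    by_contra hne
    push Not at hne
    rcases hu ⟨_, hxc'⟩ with h1 | h1 <;> rcases hu ⟨_, hzc'⟩ with h2 | h2 <;>
      rcases hu 1 with h3 | h3
    all_goals first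
      | exact hne.2 (congrArg (fun w : Subgroup.center E => ((w : E) : G)) (h1.trans h2.symm))
      | exact hne.1 (congrArg (fun w : Subgroup.center E => ((w : E) : G)) (h1.trans h3.symm))
      | exact hz1 (congrArg (fun w : Subgroup.center E => ((w : E) : G)) (h2.trans h3.symm))
  have hEcom0 : ∀ a ∈ E, ∀ b ∈ E, a * b * a⁻¹ * b⁻¹ = 1 ∨ a * b * a⁻¹ * b⁻¹ = z := by
    intro a ha b hb
    have h := Subgroup.commutator_mem_commutator (Subgroup.mem_top (⟨a, ha⟩ : E)) (Subgroup.mem_top (⟨b, hb⟩ : E))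
    rw [← commutator_def, hext.1.2.2] at h
    exact hEc _ (E.mul_mem (E.mul_mem (E.mul_mem ha hb) (E.inv_mem ha)) (E.inv_mem hb))
      fun y hy => (congrArg Subtype.val (Subgroup.mem_center_iff.1 h ⟨y, hy⟩)).symm
  have hez : ∀ y ∈ E, z * y = y * z := fun y hy => hzC y (hEC hy)
  have hEcomm : ∀ a ∈ E, ∀ b ∈ E, a * b = b * a ∨ a * b = b * a * z := by
    intro a ha b hb
    rcases hEcom0 a ha b hb with h | h
    · refine Or.inl ?_
      calc a * b = (a * b * a⁻¹ * b⁻¹) * (b * a) := by group
        _ = b * a := by rw [h, one_mul]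
    · refine Or.inr ?_
      calc a * b = (a * b * a⁻¹ * b⁻¹) * (b * a) := by group
        _ = b * a * z := by rw [h, hez _ (E.mul_mem hb ha)]
  have hsq : ∀ a ∈ E, a * a = 1 ∨ a * a = z := by
    intro a ha
    refine hEc _ (E.mul_mem ha ha) fun y hy => ?_
    rcases hEcomm a ha y hy with h | h
    · rw [mul_assoc, h, ← mul_assoc, h, mul_assoc]
    · calc a * a * y = a * (y * a * z) := by rw [mul_assoc, h]
        _ = (a * y) * (a * z) := by group
        _ = y * a * z * (a * z) := by rw [h]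
        _ = y * a * (z * a) * z := by group
        _ = y * a * a * (z * z) := by rw [hez a ha]; group
        _ = y * (a * a) := by rw [hzz]; group
  have hKmul : ∀ a ∈ C, ∀ b ∈ C, (a * b ∈ K ↔ (a ∈ K ↔ b ∈ K)) := by
    intro a ha b hb
    have h := Subgroup.mul_mem_iff_of_index_two (H := K.subgroupOf C) hKi (a := ⟨a, ha⟩) (b := ⟨b, hb⟩)
    simpa [Subgroup.mem_subgroupOf] using h
  have hbig : ∀ (X : Set G), (E : Set G) ⊆ X → X.ncard ≤ 8 → False := by
    intro X hX h8
    have h := (Set.ncard_le_ncard hX (Set.toFinite _)).trans h8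
    have h1 : (E : Set G).ncard = 2 ^ (2 * n + 1) := by rw [← Nat.card_coe_set_eq]; exact hcard
    rw [h1] at h
    have : 2 ^ 5 ≤ 2 ^ (2 * n + 1) := Nat.pow_le_pow_right (by norm_num) (by omega)
    omega
  -- two noncommuting elements of the centralizer in `E` of a noncentral element
  have hnab : ∀ f ∈ E, (∃ y ∈ E, f * y ≠ y * f) →
      ∃ a ∈ E, ∃ b ∈ E, a * f = f * a ∧ b * f = f * b ∧ a * b ≠ b * a := by
    intro f hf ⟨y, hy, hfy⟩
    by_contra hne
    push Not at hne
    have hdec : ∀ u ∈ E, u * f = f * u ∨ (y⁻¹ * u) * f = f * (y⁻¹ * u) := by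
      intro u hu
      by_cases h : u * f = f * u
      · exact Or.inl h
      · refine Or.inr (mul_left_cancel (a := y) ?_)
        have hyf : y * f = f * y * z := (hEcomm y hy f hf).resolve_left (fun h' => hfy h'.symm)
        calc y * (y⁻¹ * u * f) = u * f := by group
          _ = f * u * z := (hEcomm u hu f hf).resolve_left h
          _ = (f * y * z) * (y⁻¹ * u) := by
              rw [mul_assoc (f * y) z, hez _ (E.mul_mem (E.inv_mem hy) hu)]; group
          _ = y * f * (y⁻¹ * u) := by rw [hyf]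
          _ = y * (f * (y⁻¹ * u)) := by group
    -- the centralizer of `f` is abelian; its elements commuting with `y` are central
    have hcy : ∀ a ∈ E, a * f = f * a → a * y = y * a → a = 1 ∨ a = z := by
      intro a ha haf hay
      refine hEc a ha fun u hu => ?_
      rcases hdec u hu with h | h
      · exact hne a ha u hu haf h
      · have h1 := hne a ha _ (E.mul_mem (E.inv_mem hy) hu) haf h
        calc a * u = (a * y) * (y⁻¹ * u) := by group
          _ = y * (a * (y⁻¹ * u)) := by rw [hay, mul_assoc]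
          _ = y * ((y⁻¹ * u) * a) := by rw [h1]
          _ = u * a := by group
    have hA : ∀ a ∈ E, a * f = f * a → a ∈ ({1, z, f, f * z} : Set G) := by
      intro a ha haf
      by_cases hay : a * y = y * a
      · rcases hcy a ha haf hay with h | h <;> simp [h]
      · have hfy' : f * y = y * f * z := (hEcomm f hf y hy).resolve_left hfy
        have hay' : a * y = y * a * z := (hEcomm a ha y hy).resolve_left hay
        have h1 : (a * f) * y = y * (a * f) := by
          calc (a * f) * y = a * (y * f * z) := by rw [mul_assoc, hfy']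
            _ = (a * y) * (f * z) := by group
            _ = y * a * (z * f) * z := by rw [hay']; group
            _ = y * a * f * (z * z) := by rw [hez f hf]; group
            _ = y * (a * f) := by rw [hzz]; group
        have h2 := hcy (a * f) (E.mul_mem ha hf) (by rw [haf, mul_assoc, ← haf]) h1
        have hf2 := hsq f hf
        rcases h2 with h | h <;> rcases hf2 with h' | h'
        · rw [eq_inv_of_mul_eq_one_left h, inv_eq_of_mul_eq_one_left h']; simp
        · have : a = f * z := by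
            have h3 : f * (f * z) = 1 := by rw [← mul_assoc, h', hzz]
            rw [eq_inv_of_mul_eq_one_left h, inv_eq_of_mul_eq_one_right h3]
          simp [this]
        · have : a = f * z := by
            rw [← h, haf, ← mul_assoc, h', one_mul]
          simp [this]
        · have : a = f := mul_right_cancel (h.trans h'.symm)
          simp [this]
    refine hbig ({1, z, f, f * z, y, y * z, y * f, y * (f * z)} : Set G) ?_ (ncard_eight ..)
    intro u hu
    rcases hdec u hu with h | h
    · have := hA u hu h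
      simp only [Set.mem_insert_iff, Set.mem_singleton_iff] at this ⊢
      tauto
    · have hu' := hA _ (E.mul_mem (E.inv_mem hy) hu) h
      simp only [Set.mem_insert_iff, Set.mem_singleton_iff, inv_mul_eq_iff_eq_mul, mul_one] at hu' ⊢
      tauto
  have hzK : z ∈ K := by
    obtain ⟨a, ha, b, hb, hab⟩ : ∃ a ∈ E, ∃ b ∈ E, a * b ≠ b * a := by
      by_contra hne
      push Not at hne
      refine hbig ({1, z, 1, 1, 1, 1, 1, 1} : Set G) (fun u hu => ?_) (ncard_eight ..)
      rcases hEc u hu (hne u hu) with h | h <;> simp [h]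
    have h : a * b * a⁻¹ * b⁻¹ = z := (hEcom0 a ha b hb).resolve_left fun h => hab (by
      calc a * b = (a * b * a⁻¹ * b⁻¹) * (b * a) := by group
        _ = b * a := by rw [h, one_mul])
    rw [← h, hKmul _ (C.mul_mem (C.mul_mem (hEC ha) (hEC hb)) (C.inv_mem (hEC ha))) _ (C.inv_mem (hEC hb)),
      hKmul _ (C.mul_mem (hEC ha) (hEC hb)) _ (C.inv_mem (hEC ha)), hKmul _ (hEC ha) _ (hEC hb), inv_mem_iff,
      inv_mem_iff]
    tauto
  intro f0 hf0
  by_contra hf0K
  -- an involution of `E` outside `K`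
  obtain ⟨e, he, heK, he2⟩ : ∃ e ∈ E, e ∉ K ∧ e * e = 1 := by
    by_contra hne
    push Not at hne
    have hfz : f0 * f0 = z := (hsq f0 hf0).resolve_left (hne f0 hf0 hf0K)
    by_cases hA : ∃ h ∈ E, h ∈ K ∧ h * f0 = f0 * h ∧ h * h = z
    · obtain ⟨h, hh, hhK, hhf, hh2⟩ := hA
      refine hne (f0 * h) (E.mul_mem hf0 hh) (fun hmem => hf0K ?_) ?_
      · have := (hKmul f0 (hEC hf0) h (hEC hh)).1 hmem; tauto
      · calc f0 * h * (f0 * h) = f0 * (h * f0) * h := by group
          _ = (f0 * f0) * (h * h) := by rw [hhf]; group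
          _ = 1 := by rw [hfz, hh2, hzz]
    push Not at hA
    obtain ⟨a, ha, haK, haf, k, hk, hkK, hak⟩ : ∃ a ∈ E, a ∈ K ∧ a * f0 = f0 * a ∧
        ∃ k ∈ E, k ∈ K ∧ a * k ≠ k * a := by
      by_contra hne'
      push Not at hne'
      have hA' : ∀ u ∈ E, u ∈ K → u * f0 = f0 * u → u = 1 ∨ u = z := by
        intro u hu huK huf
        refine hEc u hu fun y hy => ?_
        by_cases hyK : y ∈ K
        · exact hne' u hu huK huf y hy hyK
        · have h1 : f0⁻¹ * y ∈ K := (hKmul _ (C.inv_mem (hEC hf0)) _ (hEC hy)).2 (by rw [inv_mem_iff]; tauto)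
          have h2 := hne' u hu huK huf _ (E.mul_mem (E.inv_mem hf0) hy) h1
          calc u * y = (u * f0) * (f0⁻¹ * y) := by group
            _ = f0 * (u * (f0⁻¹ * y)) := by rw [huf, mul_assoc]
            _ = f0 * ((f0⁻¹ * y) * u) := by rw [h2]
            _ = y * u := by group
      obtain ⟨a, ha, b, hb, haf, hbf, hab⟩ := hnab f0 hf0 (by
        by_contra hc
        push Not at hc
        rcases hEc f0 hf0 hc with h | h
        · exact hf0K (h ▸ K.one_mem)
        · exact hf0K (h ▸ hzK))
      have key : ∀ u ∈ E, u * f0 = f0 * u → u = 1 ∨ u = z ∨ u = f0 ∨ u = f0 * z := by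
        intro u hu huf
        by_cases huK : u ∈ K
        · rcases hA' u hu huK huf with h | h
          · exact Or.inl h
          · exact Or.inr (Or.inl h)
        · have h1 : f0⁻¹ * u ∈ K := (hKmul _ (C.inv_mem (hEC hf0)) _ (hEC hu)).2 (by rw [inv_mem_iff]; tauto)
          rcases hA' _ (E.mul_mem (E.inv_mem hf0) hu) h1 (by
            rw [mul_assoc, huf, inv_mul_cancel_left, mul_inv_cancel_left]) with h | h
          · rw [inv_mul_eq_iff_eq_mul, mul_one] at h; exact Or.inr (Or.inr (Or.inl h))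
          · rw [inv_mul_eq_iff_eq_mul] at h; exact Or.inr (Or.inr (Or.inr h))
      have hfzc : ∀ u : G, u * f0 = f0 * u → u * z = z * u → u * (f0 * z) = f0 * z * u := by
        intro u h1 h2
        rw [← mul_assoc, h1, mul_assoc, h2, ← mul_assoc]
      have hzf : z * f0 = f0 * z := hez f0 hf0
      refine hab ?_
      rcases key b hb hbf with h | h | h | h <;> subst h
      · simp
      · exact (hez a ha).symm
      · exact haf
      · exact hfzc a haf (hez a ha).symm
    set y := f0 * k with hy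
    have hyE : y ∈ E := E.mul_mem hf0 hk
    have hyK : y ∉ K := fun hmem => by
      have := (hKmul f0 (hEC hf0) k (hEC hk)).1 hmem; tauto
    have hy2 : y * y = z := (hsq y hyE).resolve_left (hne y hyE hyK)
    have ha2 : a * a = 1 := (hsq a ha).resolve_right (hA a ha haK haf)
    have hay : a * y ≠ y * a := fun h => hak (mul_left_cancel (a := f0) (by
      rw [← mul_assoc, ← haf, mul_assoc, ← hy, h, hy, mul_assoc]))
    have hay' := (hEcomm a ha y hyE).resolve_left hay
    refine hne (y * a) (E.mul_mem hyE ha) (fun hmem => hyK ?_) ?_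
    · have := (hKmul y (hEC hyE) a (hEC ha)).1 hmem; tauto
    · calc y * a * (y * a) = y * (a * y) * a := by group
        _ = y * (y * a * (z * a)) := by rw [hay']; group
        _ = (y * y) * (a * a) * z := by rw [hez a ha]; group
        _ = 1 := by rw [hy2, ha2, mul_one, hzz]
  -- the Sylow subgroups
  have hzmem : z ∈ C := hEC hzE
  let D := C ⊓ Subgroup.centralizer ({e} : Set G)
  obtain ⟨R0⟩ : Nonempty (Sylow 2 D) := inferInstance
  set R := (R0 : Subgroup D).map D.subtype with hR
  have hR2 : IsPGroup 2 R := R0.2.map _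
  have hRD : R ≤ D := Subgroup.map_subtype_le _
  have hmax : ∀ P : Subgroup G, IsPGroup 2 P → P ≤ D → R ≤ P → P ≤ R := by
    intro P hP hPD hRP
    have h1 : (R0 : Subgroup D) ≤ P.subgroupOf D := fun x hx => hRP ⟨x, hx, rfl⟩
    have h2 := R0.3 (hP.of_equiv (Subgroup.subgroupOfEquivOfLe hPD).symm) h1
    intro x hx
    exact ⟨⟨x, hPD hx⟩, h2.le (show (⟨x, hPD hx⟩ : D) ∈ P.subgroupOf D from hx), rfl⟩
  have hnorm : ∀ (P : Subgroup G), (∀ r ∈ R, ∀ p ∈ P, r * p * r⁻¹ ∈ P) →
      R ≤ Subgroup.normalizer (P : Set G) := by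
    intro P h r hr
    rw [Subgroup.mem_normalizer_iff]
    refine fun p => ⟨h r hr p, fun hp => ?_⟩
    have := h r⁻¹ (R.inv_mem hr) _ hp
    simpa [mul_assoc] using this
  have hEe : E ⊓ Subgroup.centralizer ({e} : Set G) ≤ R := by
    refine le_trans le_sup_right (hmax (R ⊔ E ⊓ Subgroup.centralizer ({e} : Set G)) ?_
      (sup_le hRD (inf_le_inf_right _ hEC)) le_sup_left)
    refine hR2.to_sup_of_normal_right' hE2.to_inf_left (hnorm _ ?_)
    intro r hr p hp
    refine ⟨hEn r (hRD hr).1 p hp.1, ?_⟩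
    exact (Subgroup.centralizer {e}).mul_mem ((Subgroup.centralizer {e}).mul_mem (hRD hr).2 hp.2)
      ((Subgroup.centralizer {e}).inv_mem (hRD hr).2)
  have heR : e ∈ R := hEe ⟨he, Subgroup.mem_centralizer_singleton_iff.2 rfl⟩
  have hzR : z ∈ R := hEe ⟨hzE, Subgroup.mem_centralizer_singleton_iff.2 (hzC e (hEC he))⟩
  have hfour : ∀ x ∈ D, (∀ r ∈ R, x * r = r * x) → x = 1 ∨ x = z ∨ x = e ∨ x = e * z := by
    intro x hx hxR
    exact four_group hEc hEcomm hEn hcentE hKmul hEC hzK hzz hzC he heK he2 hx.1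
      fun y hy hye => hxR y (hEe ⟨hy, Subgroup.mem_centralizer_singleton_iff.2 hye⟩)
  -- the Sylow subgroup of `C` containing `R ⊔ E`
  have hRE : IsPGroup 2 ↥(R ⊔ E) :=
    hR2.to_sup_of_normal_right' hE2 (hnorm _ fun r hr p hp => hEn r (hRD hr).1 p hp)
  have hREC : R ⊔ E ≤ C := sup_le (hRD.trans inf_le_left) hEC
  obtain ⟨S0, hS0⟩ := (hRE.of_equiv (Subgroup.subgroupOfEquivOfLe hREC).symm).exists_le_sylow
  have hS0le : R ⊔ E ≤ (S0 : Subgroup C).map C.subtype := fun x hx =>
    ⟨⟨x, hREC hx⟩, hS0 (show (⟨x, hREC hx⟩ : C) ∈ (R ⊔ E).subgroupOf C from hx), rfl⟩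
  obtain ⟨S, hS⟩ := (S0.2.map C.subtype).exists_le_sylow
  have hSC : (S : Subgroup G) ≤ C := by
    have hne1 : Nontrivial ↥(S : Subgroup G) :=
      ⟨⟨⟨z, hS (hS0le (Subgroup.mem_sup_right hzE))⟩, 1, fun h => hz1 (congrArg Subtype.val h)⟩⟩
    obtain ⟨w, hwc, hw1⟩ := (Subgroup.nontrivial_iff_exists_ne_one _).1 S.2.center_nontrivial
    have hwcom : ∀ u ∈ (S : Subgroup G), (w : G) * u = u * w := fun u hu =>
      (congrArg Subtype.val (Subgroup.mem_center_iff.1 hwc ⟨u, hu⟩)).symm
    have hwE : (w : G) ∈ E := hcentE _ fun y hy => hwcom y (hS (hS0le (Subgroup.mem_sup_right hy)))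
    rcases hEc _ hwE (fun y hy => hwcom y (hS (hS0le (Subgroup.mem_sup_right hy)))) with h | h
    · exact absurd (Subtype.ext h) hw1
    · exact fun u hu => Subgroup.mem_centralizer_singleton_iff.2 (h ▸ hwcom u hu).symm
  have hRS : R ≤ (S : Subgroup G) := le_sup_left.trans (hS0le.trans hS)
  have hES : E ≤ (S : Subgroup G) := le_sup_right.trans (hS0le.trans hS)
  -- `e` and `e z` are not conjugate to `z`
  have hA : ∀ v, v = e ∨ v = e * z → ∀ a : G, a⁻¹ * v * a ≠ z := by
    intro v hv a hav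
    have hvE : v ∈ E := by rcases hv with rfl | rfl; exacts [he, E.mul_mem he hzE]
    have hvK : v ∉ K := by
      rcases hv with rfl | rfl
      · exact heK
      · intro h; have := (hKmul e (hEC he) z hzmem).1 h; tauto
    have hvR : v ∈ R := by rcases hv with rfl | rfl; exacts [heR, R.mul_mem heR hzR]
    have hvz : ∀ g : G, g * v = v * g → g * z = z * g → g * e = e * g := by
      intro g h1 h2
      rcases hv with rfl | rfl
      · exact h1
      · have h5 : g * e = (g * (e * z)) * z := by rw [mul_assoc, mul_assoc, hzz, mul_one]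
        rw [h5, h1, mul_assoc (e * z) g z, h2, ← mul_assoc, mul_assoc e z z, hzz, mul_one]
    have hvcomm : ∀ r ∈ R, r * v = v * r := by
      intro r hr
      have h1 : r * e = e * r := Subgroup.mem_centralizer_singleton_iff.1 (hRD hr).2
      have h2 : r * z = z * r := (hzC r (hRD hr).1).symm
      rcases hv with rfl | rfl
      · exact h1
      · rw [← mul_assoc, h1, mul_assoc, h2, ← mul_assoc]
    -- `P`, a Sylow subgroup of `C(v)`
    set P := (S : Subgroup G).map (MulAut.conj a).toMonoidHom with hP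
    have hPv : P ≤ Subgroup.centralizer ({v} : Set G) := by
      rintro _ ⟨s, hs, rfl⟩
      refine Subgroup.mem_centralizer_singleton_iff.2 ?_
      show a * s * a⁻¹ * v = v * (a * s * a⁻¹)
      have hv' : v = a * z * a⁻¹ := by rw [← hav]; group
      rw [hv']
      calc a * s * a⁻¹ * (a * z * a⁻¹) = a * (s * z) * a⁻¹ := by group
        _ = a * (z * s) * a⁻¹ := by rw [hzC s (hSC hs)]
        _ = a * z * a⁻¹ * (a * s * a⁻¹) := by group
    set V := Subgroup.centralizer ({v} : Set G)
    have hRV : R ≤ V := fun r hr => Subgroup.mem_centralizer_singleton_iff.2 (hvcomm r hr)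
    obtain ⟨Q0, hQ0⟩ := (hR2.of_equiv (Subgroup.subgroupOfEquivOfLe hRV).symm).exists_le_sylow
    set Q := (Q0 : Subgroup V).map V.subtype with hQ
    have hQ2 : IsPGroup 2 Q := Q0.2.map _
    have hQV : Q ≤ V := Subgroup.map_subtype_le _
    have hRQ : R ≤ Q := fun x hx => ⟨⟨x, hRV hx⟩, hQ0 (show (⟨x, hRV hx⟩ : V) ∈ R.subgroupOf V from hx), rfl⟩
    have hcardQ : Nat.card ↥(S : Subgroup G) ≤ Nat.card Q := by
      have h1 := (S.2.map (MulAut.conj a).toMonoidHom).of_equiv (Subgroup.subgroupOfEquivOfLe hPv).symm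
      obtain ⟨P0, hP0⟩ := h1.exists_le_sylow
      have h2 := Subgroup.card_le_of_le hP0
      rw [Nat.card_congr (Subgroup.subgroupOfEquivOfLe hPv).toEquiv, hP,
        Subgroup.card_map_of_injective (MulAut.conj a).injective, Nat.card_congr (P0.equiv Q0).toEquiv] at h2
      rwa [hQ, Subgroup.card_map_of_injective V.subtype_injective]
    have hRne : R ≠ Q := by
      intro hRQ'
      have h2 : R = (S : Subgroup G) := Subgroup.eq_of_le_of_card_ge hRS (hRQ' ▸ hcardQ)
      have h3 : ∀ y ∈ E, e * y = y * e := fun y hy =>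
        (Subgroup.mem_centralizer_singleton_iff.1 (hRD (h2 ▸ hES hy)).2).symm
      rcases hEc e he h3 with h | h
      · exact heK (h ▸ K.one_mem)
      · exact heK (h ▸ hzK)
    obtain ⟨s, hsQ, hsR, hsn⟩ : ∃ s ∈ Q, s ∉ R ∧ ∀ r ∈ R, s * r * s⁻¹ ∈ R := by
      have hnil : Group.IsNilpotent Q := hQ2.isNilpotent
      have hlt : R.subgroupOf Q < ⊤ := lt_of_le_of_ne le_top fun h => hRne
        (le_antisymm hRQ (Subgroup.subgroupOf_eq_top.1 h))
      obtain ⟨s, hs, hsn⟩ := SetLike.exists_of_lt (Group.normalizerCondition_of_isNilpotent _ hlt)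
      refine ⟨s, s.2, hsn, fun r hr => ?_⟩
      exact (Subgroup.mem_normalizer_iff.1 hs ⟨r, hRQ hr⟩).1 hr
    have hsv : s * v = v * s := Subgroup.mem_centralizer_singleton_iff.1 (hQV hsQ)
    have hzc : ∀ r ∈ R, (s * z * s⁻¹) * r = r * (s * z * s⁻¹) := by
      intro r hr
      have hr' : s⁻¹ * r * s ∈ R := by
        have hmem : ∀ r : R, s * (r : G) * s⁻¹ ∈ R := fun r => hsn r r.2
        have hsurj : Function.Surjective (fun r : R => (⟨s * (r : G) * s⁻¹, hmem r⟩ : R)) :=
          Finite.surjective_of_injective fun r r' h => Subtype.ext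
            (mul_left_cancel (mul_right_cancel (congrArg Subtype.val h)))
        obtain ⟨r', hr'⟩ := hsurj ⟨r, hr⟩
        have h := congrArg Subtype.val hr'
        dsimp only at h
        have he' : s⁻¹ * r * s = r' := by rw [← h]; group
        rw [he']; exact r'.2
      calc (s * z * s⁻¹) * r = s * (z * (s⁻¹ * r * s)) * s⁻¹ := by group
        _ = s * ((s⁻¹ * r * s) * z) * s⁻¹ := by rw [hzC _ (hRD hr').1]
        _ = r * (s * z * s⁻¹) := by group
    -- `s` fixes `z`
    have hsz : s * z = z * s := by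
      have hmem := hfour _ (hRD (hsn z hzR)) hzc
      have hK' : s * z * s⁻¹ ∈ K := by
        obtain ⟨a1, ha1, b1, hb1, hae, hbe, hab⟩ := hnab e he (by
          by_contra hc
          push Not at hc
          rcases hEc e he hc with h | h
          · exact heK (h ▸ K.one_mem)
          · exact heK (h ▸ hzK))
        have ha1R : a1 ∈ R := hEe ⟨ha1, Subgroup.mem_centralizer_singleton_iff.2 hae⟩
        have hb1R : b1 ∈ R := hEe ⟨hb1, Subgroup.mem_centralizer_singleton_iff.2 hbe⟩
        have hzab : a1 * b1 * a1⁻¹ * b1⁻¹ = z := (hEcom0 a1 ha1 b1 hb1).resolve_left fun h => hab (by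
          calc a1 * b1 = (a1 * b1 * a1⁻¹ * b1⁻¹) * (b1 * a1) := by group
            _ = b1 * a1 := by rw [h, one_mul])
        have ha' := (hRD (hsn a1 ha1R)).1
        have hb' := (hRD (hsn b1 hb1R)).1
        have : s * z * s⁻¹ = (s * a1 * s⁻¹) * (s * b1 * s⁻¹) * (s * a1 * s⁻¹)⁻¹ * (s * b1 * s⁻¹)⁻¹ := by
          rw [← hzab]; group
        rw [this, hKmul _ (C.mul_mem (C.mul_mem ha' hb') (C.inv_mem ha')) _ (C.inv_mem hb'),
          hKmul _ (C.mul_mem ha' hb') _ (C.inv_mem ha'), hKmul _ ha' _ hb', inv_mem_iff, inv_mem_iff]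
        tauto
      rcases hmem with h | h | h | h
      · exact absurd (mul_left_cancel (a := s) (b := z) (c := 1) (by rw [mul_one]; exact mul_inv_eq_one.1 h)) hz1
      · exact mul_inv_eq_iff_eq_mul.1 h
      · exact absurd (h ▸ hK') heK
      · exfalso
        rw [h] at hK'
        have := (hKmul e (hEC he) z hzmem).1 hK'
        tauto
    have hsD : s ∈ D := ⟨Subgroup.mem_centralizer_singleton_iff.2 hsz,
      Subgroup.mem_centralizer_singleton_iff.2 (hvz s hsv hsz)⟩
    refine hsR (hmax (R ⊔ Subgroup.zpowers s) ?_ (sup_le hRD (Subgroup.zpowers_le.2 hsD)) le_sup_left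
      (Subgroup.mem_sup_right (Subgroup.mem_zpowers s)))
    exact hQ2.to_le (sup_le hRQ (Subgroup.zpowers_le.2 hsQ))
  -- transfer
  have hRe : R ≤ Subgroup.centralizer ({e} : Set G) := hRD.trans inf_le_right
  obtain ⟨P0, hP0⟩ := (hR2.of_equiv (Subgroup.subgroupOfEquivOfLe hRe).symm).exists_le_sylow
  obtain ⟨a, hu, huK, haP⟩ := Cfsg.Agent.Lib.LocalChar.exists_extremal_conj hres S K
    (fun x hx y hy => hKmul x (hSC hx) y (hSC hy)) (hES he) he2 heK
    ((P0 : Subgroup _).map (Subgroup.centralizer ({e} : Set G)).subtype) (P0.2.map _)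
    (Subgroup.map_subtype_le _)
  have haR : ∀ r ∈ R, a⁻¹ * r * a ∈ (S : Subgroup G) := fun r hr =>
    haP r ⟨⟨r, hRe hr⟩, hP0 (show (⟨r, hRe hr⟩ : Subgroup.centralizer ({e} : Set G)) ∈ R.subgroupOf _ from hr), rfl⟩
  set y := a * z * a⁻¹ with hydef
  have hyR : ∀ r ∈ R, y * r = r * y := by
    intro r hr
    have := hzC _ (hSC (haR r hr))
    calc y * r = a * (z * (a⁻¹ * r * a)) * a⁻¹ := by rw [hydef]; group
      _ = a * ((a⁻¹ * r * a) * z) * a⁻¹ := by rw [this]
      _ = r * y := by rw [hydef]; group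
  have hyD : y ∈ D := ⟨Subgroup.mem_centralizer_singleton_iff.2 (hyR z hzR),
    Subgroup.mem_centralizer_singleton_iff.2 (hyR e heR)⟩
  have hback : a⁻¹ * y * a = z := by rw [hydef]; group
  rcases hfour y hyD hyR with h | h | h | h
  · rw [h] at hback; exact hz1 (by rw [← hback]; group)
  · have haC : a ∈ C := by
      refine Subgroup.mem_centralizer_singleton_iff.2 ?_
      calc a * z = y * a := by rw [hydef]; group
        _ = z * a := by rw [h]
    refine heK ?_
    have h1 : a⁻¹ * e * a ∈ K := huK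
    rw [hKmul _ (C.mul_mem (C.inv_mem haC) (hEC he)) _ haC, hKmul _ (C.inv_mem haC) _ (hEC he), inv_mem_iff] at h1
    tauto
  · exact hA e (Or.inl rfl) a (h ▸ hback)
  · exact hA (e * z) (Or.inr rfl) a (h ▸ hback)

end Cfsg.Agent.S3299
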