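import Cfsg.Statements.S3300
import Cfsg.Agent.Lib.ExtraTransfer.Fusion
import Cfsg.Agent.Lib.Fusion.Normal

set_option autoImplicit false
open Cfsg

namespace Cfsg.Agent.S3300

open Cfsg.Agent.Lib.ExtraTransfer

/-- Let G be a finite group with no nontrivial 2-group quotient (O^2(G) = G), z an involution of G with H = C_G(z), and suppose E = O_2(H) is extraspecial with C_G(E) ≤ E and of order 2^(2n+1) with n ≥ 3. If H has a normal subgroup of index 2, then z is conjugate in G to an element of E other than z. -/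
theorem result {G : Type*} [Group G] [Finite G] (hres : Cfsg.pResidual 2 G = ⊤) (z : G) (hz : orderOf z = 2)
    (E : Subgroup G) (hE : E = (Cfsg.pCore 2 ↥(Subgroup.centralizer ({z} : Set G))).map (Subgroup.centralizer ({z} : Set G)).subtype)
    (hext : Cfsg.IsExtraspecial 2 ↥E) (hcent : Subgroup.centralizer (E : Set G) ≤ E) (n : ℕ) (hn : 3 ≤ n) (hcard : Nat.card ↥E = 2 ^ (2 * n + 1))
    (K : Subgroup G) (hKH : K ≤ Subgroup.centralizer ({z} : Set G))
    (hKn : ∀ h ∈ Subgroup.centralizer ({z} : Set G), K.map (MulAut.conj h).toMonoidHom = K)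
    (hKi : K.relIndex (Subgroup.centralizer ({z} : Set G)) = 2) :
    ∃ g : G, g * z * g⁻¹ ∈ E ∧ g * z * g⁻¹ ≠ z := by
  classical
  obtain ⟨zE, d⟩ := Cfsg.Agent.Lib.Thompson.Extra.exists_data hext
  haveI : Fact (Nat.Prime 2) := ⟨Nat.prime_two⟩
  have hz2 : z * z = 1 := by rw [← pow_two, ← hz, pow_orderOf_eq_one]
  have hzne : z ≠ 1 := fun h => by rw [h, orderOf_one] at hz; omega
  haveI hnorm := Cfsg.Agent.Lib.Fusion.pCore_normal (p := 2) (X := ↥(Subgroup.centralizer ({z} : Set G)))
  have hEle : E ≤ Subgroup.centralizer ({z} : Set G) := hE ▸ Subgroup.map_subtype_le _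
  have hzc : z ∈ Subgroup.centralizer (E : Set G) := fun e he => Setup.mem.mp (hEle he)
  have hzE : z ∈ E := hcent hzc
  have hzz : (zE : G) = z := by
    have h1 : (⟨z, hzE⟩ : ↥E) ∈ Subgroup.zpowers zE := by
      rw [← d.cen, Subgroup.mem_center_iff]
      exact fun g => Subtype.ext (hzc g g.2)
    rcases zcases d h1 with h | h
    · exact absurd (congrArg Subtype.val h) hzne
    · exact (congrArg Subtype.val h).symm
  have hmem : ∀ w : ↥E, w ∈ Subgroup.zpowers zE → (w : G) = 1 ∨ (w : G) = z := fun w hw =>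
    (zcases d hw).imp (congrArg Subtype.val) fun h => (congrArg Subtype.val h).trans hzz
  have hcz : zE ∈ commutator ↥E := by
    rw [hext.1.2.2, d.cen]; exact Subgroup.mem_zpowers zE
  have S : Setup z E := by
    refine ⟨hEle, ?_, hz2, ?_, ?_, ?_, ?_⟩
    · intro h hh e he
      rw [hE] at he ⊢
      obtain ⟨w, hw, rfl⟩ := he
      exact ⟨_, hnorm.conj_mem w hw ⟨h, hh⟩, rfl⟩
    · intro e he
      simpa [pow_two] using hmem _ (d.pow ⟨e, he⟩)
    · intro a ha b hb
      exact hmem _ (d.comm ⟨a, ha⟩ ⟨b, hb⟩)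
    · by_contra hno
      push Not at hno
      have hbot : commutator ↥E = ⊥ := by
        rw [commutator_def, eq_bot_iff, Subgroup.commutator_le]
        intro a _ b _
        refine Subgroup.mem_bot.mpr (Subtype.ext ?_)
        rcases hmem _ (d.comm a b) with h | h
        · exact h
        · exact absurd h (hno a a.2 b b.2)
      rw [hbot, Subgroup.mem_bot] at hcz
      exact zne d hcz
    · intro x hx
      have hxE : x ∈ E := hcent fun e he => (hx e he).symm
      refine hmem ⟨x, hxE⟩ ?_
      rw [← d.cen, Subgroup.mem_center_iff]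
      exact fun g => Subtype.ext (hx g g.2).symm
  by_contra hno
  push Not at hno
  have hbig : 128 ≤ Nat.card ↥E := by
    rw [hcard]; calc 128 = 2 ^ 7 := by norm_num
      _ ≤ _ := Nat.pow_le_pow_right (by norm_num) (by omega)
  have H : Hyp z E zE := ⟨S, d, hcz, hzz, hno, hbig⟩
  set K' := K.subgroupOf (Subgroup.centralizer ({z} : Set G)) with hK'
  have hidx : K'.index = 2 := hKi
  let ψ : ↥(Subgroup.centralizer ({z} : Set G)) →* ℂˣ := MonoidHom.mk' (fun h => if h ∈ K' then 1 else -1)
    fun a b => by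
      have := Subgroup.mul_mem_iff_of_index_two hidx (a := a) (b := b)
      by_cases ha : a ∈ K' <;> by_cases hb : b ∈ K' <;> simp [ha, hb, this]
  let s : Char2 z := ⟨ψ, fun h => by
    show (if h ∈ K' then (1 : ℂˣ) else -1) * (if h ∈ K' then 1 else -1) = 1
    split <;> simp⟩
  obtain ⟨h0, hh0⟩ : ∃ h, h ∉ K' := by
    by_contra hall
    push Not at hall
    rw [(Subgroup.eq_top_iff' K').mpr hall, Subgroup.index_top] at hidx
    omega
  have hbad : s.ψ h0 ≠ 1 := by
    show (if h0 ∈ K' then (1 : ℂˣ) else -1) ≠ 1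
    rw [if_neg hh0]; exact neg_one_ne
  refine hbad ?_
  haveI : Fintype (G ⧸ Cz z) := Fintype.ofFinite _
  rw [← transfer_eq_of_weakly_closed H s h0]
  have hmem0 : (h0 : G) ∈ Cfsg.pResidual 2 G := hres ▸ Subgroup.mem_top _
  have hle : Cfsg.pResidual 2 G ≤ (MonoidHom.transfer s.ψ).ker := by
    rw [Cfsg.pResidual, Subgroup.closure_le]
    intro g hg
    rw [SetLike.mem_coe, MonoidHom.mem_ker]
    set v := MonoidHom.transfer s.ψ g
    have hv2 : orderOf v ∣ 2 := by
      apply orderOf_dvd_of_pow_eq_one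
      simp only [v]
      haveI := Fintype.ofFinite (Quotient (MulAction.orbitRel (↥(Subgroup.zpowers g))
        (G ⧸ Subgroup.centralizer ({z} : Set G))))
      rw [MonoidHom.transfer_eq_prod_quotient_orbitRel_zpowers_quot, ← Finset.prod_pow]
      exact Finset.prod_eq_one fun _ _ => by rw [pow_two]; exact s.sq _
    have hvg : orderOf v ∣ orderOf g := orderOf_map_dvd _ g
    rw [← orderOf_eq_one_iff]
    exact Nat.eq_one_of_dvd_one (hg ▸ Nat.dvd_gcd hvg hv2)
  exact hle hmem0

end Cfsg.Agent.S3300
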