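import Cfsg.Statements.S3301
import Cfsg.Agent.Lib.ExtraTransfer.Core
import Cfsg.Agent.Lib.Thompson.ExtraspecialBasis
import Cfsg.Agent.Lib.Fusion.Normal

set_option autoImplicit false
open Cfsg

namespace Cfsg.Agent.S3301

open Cfsg.Agent.Lib.ExtraTransfer
open scoped Classical commutatorElement

theorem perm_four : ∀ p : Equiv.Perm (Fin 4), p 0 = 0 →
    ∀ x : Fin 4, p (p (p (p (p (p x))))) = x ∧ ((∃ w, p (p w) ≠ w) → x ≠ 0 → p x ≠ x) := by decide +kernel

/-- The small case: an extraspecial group of order eight. -/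
theorem small_case {G : Type*} [Group G] [Finite G] (z : G) (E : Subgroup G) (S : Setup z E)
    (hP : IsPGroup 2 ↥E) (hsmall : Nat.card ↥E = 8)
    (hcore : ∀ N : Subgroup ↥(Subgroup.centralizer ({z} : Set G)), N.Normal → IsPGroup 2 ↥N →
      N.map (Subgroup.centralizer ({z} : Set G)).subtype ≤ E)
    (s : Sign z) (h : ↥(Subgroup.centralizer ({z} : Set G))) : s.ψ h = 1 := by
  let Q := Abelianization ↥E
  have hof : Function.Surjective (Abelianization.of : ↥E →* Q) := QuotientGroup.mk_surjective
  have hz1 : z ≠ 1 := by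
    intro hz1
    obtain ⟨a, ha, b, hb, hab⟩ := S.exists_comm
    have hall : ∀ u ∈ E, ∀ w ∈ E, u * w = w * u := fun u hu w hw =>
      commutatorElement_eq_one_iff_mul_comm.mp ((S.comm u hu w hw).elim id fun h => h.trans hz1)
    have : (⊥ : Subgroup G) = E := le_antisymm bot_le fun u hu => by
      rcases S.cen u (fun w hw => hall u hu w hw) with h | h <;> simp [h, hz1]
    rw [← this, Subgroup.card_bot] at hsmall
    omega
  have hker : Nat.card (commutator ↥E) = 2 := by
    rw [Nat.card_eq_two_iff' (1 : commutator ↥E)]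
    refine ⟨⟨_, S.z_comm⟩, fun e => hz1 (congrArg (fun u : commutator ↥E => ((u : ↥E) : G)) e), fun u hu => ?_⟩
    rcases S.comm_abel u with h | h
    · exact absurd (Subtype.ext (Subtype.ext h)) hu
    · exact Subtype.ext (Subtype.ext h)
  have hQ : Nat.card Q = 4 := by
    have := (commutator ↥E).card_eq_card_quotient_mul_card_subgroup
    rw [hker, hsmall] at this
    show Nat.card (↥E ⧸ commutator ↥E) = 4
    omega
  let cj (x : ↥(Subgroup.centralizer ({z} : Set G))) : ↥E →* ↥E :=
    { toFun := fun d => ⟨(x : G) * d * (x : G)⁻¹, S.norm _ x.2 d d.2⟩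
      map_one' := Subtype.ext (by simp)
      map_mul' := fun _ _ => Subtype.ext (by simp [mul_assoc]) }
  let act (x : ↥(Subgroup.centralizer ({z} : Set G))) : Q →* Q := Abelianization.map (cj x)
  have act_mul : ∀ x y, ∀ q : Q, act (x * y) q = act x (act y q) := fun x y q => by
    obtain ⟨d, rfl⟩ := hof q
    show Abelianization.map (cj (x * y)) (Abelianization.of d) =
      Abelianization.map (cj x) (Abelianization.map (cj y) (Abelianization.of d))
    rw [Abelianization.map_of, Abelianization.map_of, Abelianization.map_of]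
    refine congrArg _ (Subtype.ext ?_)
    show ((x : G) * y) * d * ((x : G) * y)⁻¹ = (x : G) * ((y : G) * d * (y : G)⁻¹) * (x : G)⁻¹
    simp [mul_assoc]
  have act_one : ∀ q : Q, act 1 q = q := fun q => by
    obtain ⟨d, rfl⟩ := hof q
    show Abelianization.map (cj 1) (Abelianization.of d) = Abelianization.of d
    rw [Abelianization.map_of]
    refine congrArg _ (Subtype.ext ?_)
    show (1 : G) * d * (1 : G)⁻¹ = (d : G)
    simp
  have hkerE : ∀ x, (∀ q : Q, act x q = q) → (x : G) ∈ E := by
    intro x hx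
    have hmove : ∀ e ∈ E, (x : G) * e * (x : G)⁻¹ = e ∨ (x : G) * e * (x : G)⁻¹ = e * z := by
      intro e he
      have h1 : Abelianization.of ((⟨e, he⟩ : ↥E)⁻¹ * cj x ⟨e, he⟩) = 1 := by
        rw [map_mul, map_inv, ← Abelianization.map_of, show Abelianization.map (cj x) _ = _ from hx _,
          inv_mul_cancel]
      rcases (S.ab_eq_one _).mp h1 with h2 | h2
      · left; simpa [cj, inv_mul_eq_one, eq_comm] using h2
      · right; simpa [cj, inv_mul_eq_iff_eq_mul] using h2
    obtain ⟨a, ha, b, hb, hab⟩ := S.exists_comm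
    have hzc : ∀ e ∈ E, z * e = e * z := fun e he => S.comm_z he
    have hab' : a * b * a⁻¹ = b * z := by
      rw [← hzc b hb, ← hab, commutatorElement_def, inv_mul_cancel_right]
    have hba : b * a * b⁻¹ = a * z := by
      have h3 : ⁅b, a⁆ = z := by
        rw [← commutatorElement_inv, hab]; exact inv_eq_of_mul_eq_one_right S.zsq
      rw [← hzc a ha, ← h3, commutatorElement_def, inv_mul_cancel_right]
    -- adjust by an element of E to centralise both a and b
    obtain ⟨u, hu, hua, hub⟩ : ∃ u ∈ E, u * a * u⁻¹ = (x : G) * a * (x : G)⁻¹ ∧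
        u * b * u⁻¹ = (x : G) * b * (x : G)⁻¹ := by
      rcases hmove a ha with h1 | h1 <;> rcases hmove b hb with h2 | h2
      · exact ⟨1, E.one_mem, by simp [h1], by simp [h2]⟩
      · exact ⟨a, ha, by simp [h1], by rw [h2, hab']⟩
      · exact ⟨b, hb, by rw [h1, hba], by simp [h2]⟩
      · refine ⟨a * b, E.mul_mem ha hb, ?_, ?_⟩
        · calc a * b * a * (a * b)⁻¹ = a * (b * a * b⁻¹) * a⁻¹ := by simp [mul_assoc]
            _ = a * (a * z) * a⁻¹ := by rw [hba]
            _ = a * a * (z * a⁻¹) := by simp [mul_assoc]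
            _ = _ := by rw [hzc _ (E.inv_mem ha), h1]; simp [mul_assoc]
        · calc a * b * b * (a * b)⁻¹ = a * b * a⁻¹ := by simp [mul_assoc]
            _ = _ := by rw [hab', h2]
    have hA : ∀ y : G, y * a = a * y → y * b = b * y → ∀ e ∈ E, y * e = e * y := by
      intro y hya hyb e he
      let K : Subgroup ↥E := (Subgroup.centralizer ({y} : Set G)).comap E.subtype
      have haK : (⟨a, ha⟩ : ↥E) ∈ K := Setup.mem.mpr hya.symm
      have hbK : (⟨b, hb⟩ : ↥E) ∈ K := Setup.mem.mpr hyb.symm
      suffices K = ⊤ by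
        have := (this ▸ Subgroup.mem_top (⟨e, he⟩ : ↥E) : (⟨e, he⟩ : ↥E) ∈ K)
        exact (Setup.mem.mp this).symm
      have hzK : commutator ↥E ≤ K := fun w hw => by
        have hzK' : (⟨z, S.z_mem⟩ : ↥E) ∈ K := by
          have h' : (⟨z, S.z_mem⟩ : ↥E) = ⁅(⟨a, ha⟩ : ↥E), ⟨b, hb⟩⁆ := Subtype.ext hab.symm
          rw [h', commutatorElement_def]
          exact K.mul_mem (K.mul_mem (K.mul_mem haK hbK) (K.inv_mem haK)) (K.inv_mem hbK)
        rcases S.comm_abel ⟨w, hw⟩ with h' | h'
        · rw [show w = 1 from Subtype.ext h']; exact K.one_mem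
        · rw [show w = ⟨z, S.z_mem⟩ from Subtype.ext h']; exact hzK'
      have h8 : Nat.card ↥K ∣ 8 := hsmall ▸ K.card_subgroup_dvd_card
      -- K contains the noncommuting pair, so it is nonabelian
      by_contra hK
      have hlt : Nat.card ↥K ≠ 8 := fun h8' => hK (Subgroup.eq_top_of_card_eq K (h8'.trans hsmall.symm))
      have hcommK : ∀ u w : ↥K, u * w = w * u := by
        have h4 : Nat.card ↥K ∣ 2 ^ 2 := by
          obtain ⟨i, hi, hi'⟩ := (Nat.dvd_prime_pow Nat.prime_two).mp (show Nat.card ↥K ∣ 2 ^ 3 from h8)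
          interval_cases i <;> simp_all
        haveI : Fact (Nat.Prime 2) := ⟨Nat.prime_two⟩
        obtain ⟨i, hi, hi'⟩ := (Nat.dvd_prime_pow Nat.prime_two).mp h4
        rcases Nat.lt_or_ge i 2 with hi2 | hi2
        · have : IsCyclic ↥K := by
            interval_cases i
            · have : Subsingleton ↥K := (Nat.card_eq_one_iff_unique.mp (by simpa using hi')).1
              infer_instance
            · exact isCyclic_of_prime_card (p := 2) (by simpa using hi')
          letI := IsCyclic.commGroup (α := ↥K)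
          exact fun u w => mul_comm u w
        · obtain rfl : i = 2 := by omega
          exact IsPGroup.commutative_of_card_eq_prime_sq hi'
      have := congrArg (fun w : ↥K => ((w : ↥E) : G)) (hcommK ⟨_, haK⟩ ⟨_, hbK⟩)
      exact hz1 (hab.symm.trans (commutatorElement_eq_one_iff_mul_comm.mpr this))
    have hy : ∀ e ∈ E, (u⁻¹ * (x : G)) * e = e * (u⁻¹ * (x : G)) := by
      refine hA _ ?_ ?_
      · calc u⁻¹ * (x : G) * a = u⁻¹ * ((x : G) * a * (x : G)⁻¹) * (x : G) := by simp [mul_assoc]
          _ = a * (u⁻¹ * (x : G)) := by rw [← hua]; simp [mul_assoc]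
      · calc u⁻¹ * (x : G) * b = u⁻¹ * ((x : G) * b * (x : G)⁻¹) * (x : G) := by simp [mul_assoc]
          _ = b * (u⁻¹ * (x : G)) := by rw [← hub]; simp [mul_assoc]
    have : u⁻¹ * (x : G) ∈ E := by
      rcases S.cen _ hy with h' | h' <;> rw [h']
      exacts [E.one_mem, S.z_mem]
    simpa using E.mul_mem hu this
  -- transport to permutations of four points
  have hbij : ∀ x, Function.Bijective (act x) := fun x =>
    Function.bijective_iff_has_inverse.mpr ⟨act x⁻¹,
      fun q => by rw [← act_mul, inv_mul_cancel, act_one], fun q => by rw [← act_mul, mul_inv_cancel, act_one]⟩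
  let ε0 : Q ≃ Fin 4 := Finite.equivFinOfCardEq hQ
  let ε : Q ≃ Fin 4 := ε0.trans (Equiv.swap (ε0 1) 0)
  have hε : ε 1 = 0 := by simp [ε]
  let π (x : ↥(Subgroup.centralizer ({z} : Set G))) : Equiv.Perm (Fin 4) :=
    ε.symm.trans ((Equiv.ofBijective _ (hbij x)).trans ε)
  have hπ : ∀ x q, π x (ε q) = ε (act x q) := fun x q => by simp [π]
  have hπ0 : ∀ x, π x 0 = 0 := fun x => by rw [← hε, hπ, map_one]
  have hE : ∀ e ∈ E, ∀ he : e ∈ Subgroup.centralizer ({z} : Set G), s.ψ ⟨e, he⟩ = 1 := by
    intro e he hh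
    refine s.root _ ?_
    rcases S.sq e he with h' | h'
    · rw [show (⟨e, hh⟩ : ↥(Subgroup.centralizer ({z} : Set G))) * ⟨e, hh⟩ = 1 from Subtype.ext h']
      exact one_mem _
    · obtain ⟨a, ha, b, hb, hab⟩ := S.exists_comm
      rw [show (⟨e, hh⟩ : ↥(Subgroup.centralizer ({z} : Set G))) * ⟨e, hh⟩ =
        ⁅(⟨a, S.le ha⟩ : ↥(Subgroup.centralizer ({z} : Set G))), (⟨b, S.le hb⟩ : ↥(Subgroup.centralizer ({z} : Set G)))⁆ from Subtype.ext (h'.trans hab.symm), commutator_def]
      exact Subgroup.commutator_mem_commutator (Subgroup.mem_top _) (Subgroup.mem_top _)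
  by_cases hcase : ∃ t, ∃ q, act (t * t) q ≠ q
  · obtain ⟨t, q0, hq0⟩ := hcase
    have hfpf : ∀ q : Q, q ≠ 1 → act t q ≠ q := by
      intro q hq hfix
      refine (perm_four (π t) (hπ0 t) (ε q)).2 ⟨ε q0, ?_⟩ ?_ (by rw [hπ, hfix])
      · rw [hπ, hπ, ← act_mul]; exact fun h => hq0 (ε.injective h)
      · rw [← hε]; exact fun h => hq (ε.injective h)
    let δ : Q →* Q := (act t) / MonoidHom.id Q
    have hδ : Function.Bijective δ := by
      have : Function.Injective δ := by
        rw [injective_iff_map_eq_one]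
        intro q hq
        by_contra hne
        exact hfpf q hne (div_eq_one.mp (by simpa [δ] using hq))
      exact ⟨this, Finite.surjective_of_injective this⟩
    have hEc : ∀ e ∈ E, ∀ he : e ∈ Subgroup.centralizer ({z} : Set G),
        (⟨e, he⟩ : ↥(Subgroup.centralizer ({z} : Set G))) ∈ commutator ↥(Subgroup.centralizer ({z} : Set G)) := by
      intro e he hh
      obtain ⟨w, hw⟩ := hδ.2 (Abelianization.of (⟨e, he⟩ : ↥E))
      obtain ⟨d, rfl⟩ := hof w
      have h1 : Abelianization.of ((cj t d * d⁻¹)⁻¹ * (⟨e, he⟩ : ↥E)) = 1 := by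
        have hw' : Abelianization.of (cj t d) * (Abelianization.of d)⁻¹ = Abelianization.of (⟨e, he⟩ : ↥E) := by
          rw [← hw, ← div_eq_mul_inv, ← Abelianization.map_of]
          rfl
        rw [map_mul, map_inv, map_mul, map_inv, hw', inv_mul_cancel]
      set c := (cj t d * d⁻¹)⁻¹ * (⟨e, he⟩ : ↥E) with hc
      have hcm : (⟨(c : G), S.le c.2⟩ : ↥(Subgroup.centralizer ({z} : Set G))) ∈
          commutator ↥(Subgroup.centralizer ({z} : Set G)) := by
        rcases (S.ab_eq_one c).mp h1 with h' | h'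
        · rw [show (⟨(c : G), S.le c.2⟩ : ↥(Subgroup.centralizer ({z} : Set G))) = 1 from Subtype.ext h']
          exact one_mem _
        · obtain ⟨a, ha, b, hb, hab⟩ := S.exists_comm
          rw [show (⟨(c : G), S.le c.2⟩ : ↥(Subgroup.centralizer ({z} : Set G))) =
            ⁅(⟨a, S.le ha⟩ : ↥(Subgroup.centralizer ({z} : Set G))), (⟨b, S.le hb⟩ : ↥(Subgroup.centralizer ({z} : Set G)))⁆ from Subtype.ext (h'.trans hab.symm), commutator_def]
          exact Subgroup.commutator_mem_commutator (Subgroup.mem_top _) (Subgroup.mem_top _)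
      have hsplit : (⟨e, hh⟩ : ↥(Subgroup.centralizer ({z} : Set G))) =
          ⁅t, (⟨(d : G), S.le d.2⟩ : ↥(Subgroup.centralizer ({z} : Set G)))⁆ * ⟨(c : G), S.le c.2⟩ := by
        apply Subtype.ext
        simp [hc, cj, commutatorElement_def, mul_assoc]
      rw [hsplit]
      refine Subgroup.mul_mem _ ?_ hcm
      rw [commutator_def]
      exact Subgroup.commutator_mem_commutator (Subgroup.mem_top _) (Subgroup.mem_top _)
    have h6 : ((h * h * h) * (h * h * h) : ↥(Subgroup.centralizer ({z} : Set G))).1 ∈ E := by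
      refine hkerE _ fun q => ?_
      have := (perm_four (π h) (hπ0 h) (ε q)).1
      rw [hπ, hπ, hπ, hπ, hπ, hπ] at this
      simp only [act_mul]
      exact ε.injective this
    have h3 : s.ψ (h * h * h) = 1 := s.root _ (hEc _ h6 _)
    rwa [map_mul, map_mul, s.sq, one_mul] at h3
  · push Not at hcase
    have hsq : ∀ x : ↥(Subgroup.centralizer ({z} : Set G)), ((x * x : ↥(Subgroup.centralizer ({z} : Set G))) : G) ∈ E := fun x =>
      hkerE _ (hcase x)
    have h2 : IsPGroup 2 ↥(⊤ : Subgroup ↥(Subgroup.centralizer ({z} : Set G))) := by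
      intro x
      obtain ⟨k, hk⟩ := hP ⟨_, hsq x⟩
      refine ⟨k + 1, Subtype.ext (Subtype.ext ?_)⟩
      have := congrArg Subtype.val hk
      simpa [pow_succ', pow_mul, pow_two] using this
    exact hE _ (hcore ⊤ inferInstance h2 ⟨h, Subgroup.mem_top h, rfl⟩) h.2

end Cfsg.Agent.S3301

namespace Cfsg.Agent.S3301

open Cfsg.Agent.Lib.ExtraTransfer

/-- Let G be a finite group with no nontrivial 2-group quotient (O^2(G) = G), z an involution of G with H = C_G(z), and suppose E = O_2(H) is extraspecial with C_G(E) ≤ E. Then the Sylow 2-subgroups of H/[H, H] are elementary abelian: every element of 2-power order of the abelianization of H has order at most 2. -/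
theorem result {G : Type*} [Group G] [Finite G] (hres : Cfsg.pResidual 2 G = ⊤) (z : G) (hz : orderOf z = 2)
    (E : Subgroup G) (hE : E = (Cfsg.pCore 2 ↥(Subgroup.centralizer ({z} : Set G))).map (Subgroup.centralizer ({z} : Set G)).subtype)
    (hext : Cfsg.IsExtraspecial 2 ↥E) (hcent : Subgroup.centralizer (E : Set G) ≤ E) :
    ∀ q : Abelianization ↥(Subgroup.centralizer ({z} : Set G)), (∃ k : ℕ, orderOf q = 2 ^ k) → q ^ 2 = 1 := by
  classical
  obtain ⟨zE, d⟩ := Cfsg.Agent.Lib.Thompson.Extra.exists_data hext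
  haveI : Fact (Nat.Prime 2) := ⟨Nat.prime_two⟩
  have hz2 : z * z = 1 := by rw [← pow_two, ← hz, pow_orderOf_eq_one]
  have hzne : z ≠ 1 := fun h => by rw [h, orderOf_one] at hz; omega
  haveI hnorm := Cfsg.Agent.Lib.Fusion.pCore_normal (p := 2) (X := ↥(Subgroup.centralizer ({z} : Set G)))
  have hEle : E ≤ Subgroup.centralizer ({z} : Set G) := hE ▸ Subgroup.map_subtype_le _
  have hcore : ∀ N : Subgroup ↥(Subgroup.centralizer ({z} : Set G)), N.Normal → IsPGroup 2 ↥N →
      N.map (Subgroup.centralizer ({z} : Set G)).subtype ≤ E := fun N hN hp => by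
    rw [hE]; exact Subgroup.map_mono (Cfsg.Agent.Lib.Fusion.le_pCore hN hp)
  have hzc : z ∈ Subgroup.centralizer (E : Set G) := fun e he => Setup.mem.mp (hEle he)
  have hzE : z ∈ E := hcent hzc
  have hP : IsPGroup 2 ↥E := hext.1.1
  have hgen : ∀ w : ↥E, w ∈ Subgroup.zpowers zE → w = 1 ∨ w = zE := fun w hw => by
    obtain ⟨i, rfl⟩ := hw
    show zE ^ i = 1 ∨ zE ^ i = zE
    rw [show zE ^ i = zE ^ (i % 2) from by rw [← zpow_mod_orderOf, d.ord]; norm_num]
    rcases Int.emod_two_eq_zero_or_one i with h | h <;> simp [h]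
  have hzz : (zE : G) = z := by
    have h1 : (⟨z, hzE⟩ : ↥E) ∈ Subgroup.zpowers zE := by
      rw [← d.cen, Subgroup.mem_center_iff]
      exact fun g => Subtype.ext (hzc g g.2)
    rcases hgen _ h1 with h | h
    · exact absurd (congrArg Subtype.val h) hzne
    · exact (congrArg Subtype.val h).symm
  have hmem : ∀ w : ↥E, w ∈ Subgroup.zpowers zE → (w : G) = 1 ∨ (w : G) = z := fun w hw =>
    (hgen w hw).imp (congrArg Subtype.val) fun h => (congrArg Subtype.val h).trans hzz
  have S : Setup z E := by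
    refine ⟨hEle, ?_, hz2, ?_, ?_, ?_, ?_⟩
    · intro h hh e he
      rw [hE] at he ⊢
      obtain ⟨w, hw, rfl⟩ := he
      exact ⟨_, hnorm.conj_mem w hw ⟨h, hh⟩, rfl⟩
    · intro e he
      simpa [pow_two] using hmem _ (d.pow ⟨e, he⟩)
    · intro a ha b hb
      exact hmem _ (d.comm ⟨a, ha⟩ ⟨b, hb⟩)
    · by_contra hno
      push Not at hno
      have hbot : commutator ↥E = ⊥ := by
        rw [commutator_def, eq_bot_iff, Subgroup.commutator_le]
        intro a _ b _
        refine Subgroup.mem_bot.mpr (Subtype.ext ?_)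
        rcases hmem _ (d.comm a b) with h | h
        · exact h
        · exact absurd h (hno a a.2 b b.2)
      have h2 := hext.2
      rw [← hext.1.2.2, hbot, Subgroup.card_bot] at h2
      omega
    · intro x hx
      have hxE : x ∈ E := hcent fun e he => (hx e he).symm
      refine hmem ⟨x, hxE⟩ ?_
      rw [← d.cen, Subgroup.mem_center_iff]
      exact fun g => Subtype.ext (hx g g.2).symm
  rintro q ⟨k, hk⟩
  by_contra hq
  -- a character of the abelianization of order four
  let A := Abelianization ↥(Subgroup.centralizer ({z} : Set G))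
  obtain ⟨a, ha⟩ : ∃ a : A, a ^ 2 ∉ (powMonoidHom 4 : A →* A).range := by
    by_contra hall
    push Not at hall
    let X : Subgroup A := (powMonoidHom 2 : A →* A).range
    let sqX : ↥X → ↥X := fun w => w ^ 2
    have hsurj : Function.Surjective sqX := by
      rintro ⟨w, a, rfl⟩
      obtain ⟨b, hb⟩ := hall a
      refine ⟨⟨b ^ 2, b, rfl⟩, Subtype.ext ?_⟩
      simp only [powMonoidHom_apply] at hb
      show (b ^ 2) ^ 2 = a ^ 2
      rw [← pow_mul]; exact hb
    have hinj := Finite.injective_iff_surjective.mpr hsurj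
    rcases Nat.lt_or_ge k 2 with hk2 | hk2
    · refine hq (orderOf_dvd_iff_pow_eq_one.mp ?_)
      rw [hk]; interval_cases k <;> norm_num
    · obtain ⟨j, rfl⟩ : ∃ j, k = j + 2 := ⟨k - 2, by omega⟩
      let w : ↥X := ⟨q ^ 2 ^ (j + 1), q ^ 2 ^ j, by
        show (q ^ 2 ^ j) ^ 2 = q ^ 2 ^ (j + 1)
        rw [← pow_mul, pow_succ]⟩
      have hw : sqX w = sqX 1 := by
        apply Subtype.ext
        show (q ^ 2 ^ (j + 1)) ^ 2 = (1 : A) ^ 2
        rw [one_pow, ← pow_mul, ← pow_succ, ← hk]
        exact pow_orderOf_eq_one q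
      have h1 : q ^ 2 ^ (j + 1) = 1 := congrArg Subtype.val (hinj hw)
      have := orderOf_dvd_of_pow_eq_one h1
      rw [hk, Nat.pow_dvd_pow_iff_le_right (by norm_num)] at this
      omega
  let R : Subgroup A := (powMonoidHom 4 : A →* A).range
  haveI : Finite (A ⧸ R) := Quotient.finite _
  obtain ⟨φ, hφ⟩ := CommGroup.exists_apply_ne_one_of_hasEnoughRootsOfUnity (A ⧸ R) ℂ
    (a := (QuotientGroup.mk' R (a ^ 2))) (fun h => ha ((QuotientGroup.eq_one_iff _).mp h))
  let χ : ↥(Subgroup.centralizer ({z} : Set G)) →* ℂˣ := (φ.comp (QuotientGroup.mk' R)).comp Abelianization.of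
  let ψ : ↥(Subgroup.centralizer ({z} : Set G)) →* ℂˣ := χ ^ 2
  have hχ4 : ∀ h, χ h ^ 4 = 1 := fun h => by
    rw [← map_pow]
    show φ (QuotientGroup.mk' R (Abelianization.of (h ^ 4))) = 1
    rw [(QuotientGroup.eq_one_iff _).mpr ⟨Abelianization.of h, (map_pow _ _ _).symm⟩ |> fun e =>
      (show QuotientGroup.mk' R (Abelianization.of (h ^ 4)) = 1 from e), map_one]
  let s : Sign z :=
    { ψ := ψ
      sq := fun h => by
        show χ h ^ 2 * χ h ^ 2 = 1
        rw [← pow_add]; exact hχ4 h
      root := fun h hh => by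
        show χ h ^ 2 = 1
        rw [pow_two, ← map_mul]
        show φ (QuotientGroup.mk' R (Abelianization.of (h * h))) = 1
        rw [show Abelianization.of (h * h) = 1 from (QuotientGroup.eq_one_iff _).mpr hh, map_one, map_one] }
  obtain ⟨h0, hh0⟩ := QuotientGroup.mk_surjective a
  have hbad : s.ψ h0 ≠ 1 := by
    intro h1
    refine hφ ?_
    refine Eq.trans ?_ h1
    rw [← hh0]
    show φ (QuotientGroup.mk' R (Abelianization.of h0 ^ 2)) = χ h0 ^ 2
    rw [← map_pow, ← map_pow]; rfl
  rcases Nat.lt_or_ge 8 (Nat.card ↥E) with hbig | hsmall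
  · refine hbad ?_
    rw [← transfer_eq S hP hbig s h0]
    have hmem0 : (h0 : G) ∈ Cfsg.pResidual 2 G := hres ▸ Subgroup.mem_top _
    have hle : Cfsg.pResidual 2 G ≤ (MonoidHom.transfer s.ψ).ker := by
      rw [Cfsg.pResidual, Subgroup.closure_le]
      intro g hg
      rw [SetLike.mem_coe, MonoidHom.mem_ker]
      set v := MonoidHom.transfer s.ψ g
      have hv2 : orderOf v ∣ 2 := by
        apply orderOf_dvd_of_pow_eq_one
        simp only [v]
        haveI := Fintype.ofFinite (Quotient (MulAction.orbitRel (↥(Subgroup.zpowers g))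
          (G ⧸ Subgroup.centralizer ({z} : Set G))))
        rw [MonoidHom.transfer_eq_prod_quotient_orbitRel_zpowers_quot, ← Finset.prod_pow]
        exact Finset.prod_eq_one fun _ _ => by rw [pow_two]; exact s.sq _
      have hvg : orderOf v ∣ orderOf g := orderOf_map_dvd _ g
      rw [← orderOf_eq_one_iff]
      exact Nat.eq_one_of_dvd_one (hg ▸ Nat.dvd_gcd hvg hv2)
    exact hle hmem0
  · refine hbad (small_case z E S hP ?_ hcore s h0)
    obtain ⟨n, hn⟩ := IsPGroup.iff_card.mp hP
    have h2 := hext.2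
    have hdvd : 2 ∣ Nat.card ↥E := h2 ▸ (Subgroup.center ↥E).card_subgroup_dvd_card
    rw [hn] at hsmall ⊢
    have hn3 : ¬ n ≤ 2 := by
      intro hn2
      have hcomm : ∀ a b : ↥E, a * b = b * a := by
        rcases Nat.lt_or_ge n 2 with h | h
        · haveI : IsCyclic ↥E := by
            interval_cases n
            · rw [pow_zero] at hn; omega
            · exact isCyclic_of_prime_card (p := 2) (by simpa using hn)
          letI := IsCyclic.commGroup (α := ↥E)
          exact fun a b => mul_comm a b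
        · obtain rfl : n = 2 := by omega
          exact IsPGroup.commutative_of_card_eq_prime_sq hn
      obtain ⟨a, ha, b, hb, hab⟩ := S.exists_comm
      exact hzne (hab.symm.trans (commutatorElement_eq_one_iff_mul_comm.mpr
        (congrArg Subtype.val (hcomm ⟨a, ha⟩ ⟨b, hb⟩))))
    have : n ≤ 3 := by
      by_contra hgt
      have : 2 ^ 4 ≤ 2 ^ n := Nat.pow_le_pow_right (by norm_num) (by omega)
      omega
    obtain rfl : n = 3 := by omega
    rfl

end Cfsg.Agent.S3301
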