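import Cfsg.Statements.S3303
import Cfsg.Agent.Lib.LocalFusion.PSolvable
import Cfsg.Agent.Lib.HallHigman.Solvable
import Cfsg.Agent.Lib.OddLocal.PLengthOne

set_option autoImplicit false
open Cfsg

namespace Cfsg.Agent.S3303

open Cfsg.Agent.Lib

theorem exists_lift_sylow {G : Type*} [Group G] [Finite G] (N : Subgroup G) [N.Normal] (hN : (Nat.card N).Coprime 2)
    (P : Sylow 2 (G ⧸ N)) (R : Subgroup G) (hR : IsPGroup 2 R) (hRP : R.map (QuotientGroup.mk' N) ≤ (P : Subgroup (G ⧸ N))) :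
    ∃ S : Sylow 2 G, R ≤ S ∧ (S : Subgroup G).map (QuotientGroup.mk' N) = (P : Subgroup (G ⧸ N)) := by
  haveI : Fact (Nat.Prime 2) := ⟨Nat.prime_two⟩
  set W := (P : Subgroup (G ⧸ N)).comap (QuotientGroup.mk' N) with hW
  have hRW : R ≤ W := Subgroup.map_le_iff_le_comap.1 hRP
  obtain ⟨S0, hS0⟩ := (hR.comap_of_injective W.subtype W.subtype_injective).exists_le_sylow
  set S1 := (S0 : Subgroup W).map W.subtype
  have hidx : ¬ 2 ∣ S1.index := by
    have h1 : W.index = (P : Subgroup (G ⧸ N)).index := Subgroup.index_comap_of_surjective _ (QuotientGroup.mk'_surjective N)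
    rw [Subgroup.index_map_subtype, h1, Nat.prime_two.dvd_mul, not_or]
    exact ⟨S0.not_dvd_index, P.not_dvd_index⟩
  let S : Sylow 2 G := (S0.2.map W.subtype).toSylow hidx
  refine ⟨S, ?_, ?_⟩
  · intro r hr
    exact ⟨⟨r, hRW hr⟩, hS0 hr, rfl⟩
  · have hle : (S : Subgroup G).map (QuotientGroup.mk' N) ≤ (P : Subgroup (G ⧸ N)) :=
      Subgroup.map_le_iff_le_comap.2 (Subgroup.map_subtype_le _)
    refine Subgroup.eq_of_le_of_card_ge hle ?_
    have h2 : ¬ 2 ∣ ((S : Subgroup G).map (QuotientGroup.mk' N)).index := fun h =>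
      S.not_dvd_index (h.trans (Subgroup.index_map_dvd _ (QuotientGroup.mk'_surjective N)))
    exact (P.card_eq_multiplicity.trans ((S.2.map (QuotientGroup.mk' N)).toSylow h2).card_eq_multiplicity.symm).le


/-- Let G be a finite solvable group in which the intersection of any two distinct Sylow 2-subgroups is cyclic. Then G/O(G) has a normal Sylow 2-subgroup, where O(G) is the largest normal subgroup of odd order. -/
theorem result {G : Type*} [Group G] [Finite G] (hs : Group.IsSolvable G)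
    (hC : ∀ S T : Sylow 2 G, S ≠ T → IsCyclic ↥((S : Subgroup G) ⊓ (T : Subgroup G))) :
    ∃ P : Sylow 2 (G ⧸ Cfsg.oddCore G), (P : Subgroup (G ⧸ Cfsg.oddCore G)).Normal := by
  haveI := hs
  haveI : Fact (Nat.Prime 2) := ⟨Nat.prime_two⟩
  set O := Cfsg.oddCore G
  have hO : (Nat.card O).Coprime 2 := Hall.coprime_card_pPrimeCore 2
  set F := Cfsg.pCore 2 (G ⧸ O)
  haveI : F.Normal := Cfsg.pCore_normal 2 _
  have hC2 : Subgroup.centralizer (F : Set (G ⧸ O)) ≤ F :=
    LocalFusion.centralizer_pCore_le_of_isPSolvable (HallHigman.isPSolvable_of_isSolvable 2) (OddLocal.pPrimeCore_quotient_eq_bot 2)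
  have hFp : IsPGroup 2 F := Components.pCore_isPGroup 2
  obtain ⟨P⟩ : Nonempty (Sylow 2 (G ⧸ O)) := inferInstance
  refine ⟨P, ?_⟩
  by_contra hn
  obtain ⟨g, hg⟩ : ∃ g : G ⧸ O, g • P ≠ P := by
    by_contra h
    push Not at h
    exact hn (Subgroup.normalizer_eq_top_iff.1 (eq_top_iff.2 fun g _ => Sylow.smul_eq_iff_mem_normalizer.1 (h g)))
  have hle : ∀ Q : Sylow 2 (G ⧸ O), F ≤ Q := fun Q => by
    obtain ⟨Q', hQ'⟩ := hFp.exists_le_sylow
    obtain ⟨x, rfl⟩ := MulAction.exists_smul_eq (G ⧸ O) Q' Q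
    intro f hf
    rw [Sylow.coe_subgroup_smul, Subgroup.mem_pointwise_smul_iff_inv_smul_mem]
    refine hQ' ?_
    have := ‹F.Normal›.conj_mem f hf x⁻¹
    rw [inv_inv] at this
    simpa using this
  obtain ⟨R0⟩ : Nonempty (Sylow 2 ↥(F.comap (QuotientGroup.mk' O))) := inferInstance
  set W := F.comap (QuotientGroup.mk' O)
  set R := (R0 : Subgroup W).map W.subtype
  have hR : IsPGroup 2 R := R0.2.map _
  have hmap : R.map (QuotientGroup.mk' O) = F := by
    have h1 : R.map (QuotientGroup.mk' O) ≤ F := Subgroup.map_le_iff_le_comap.2 (Subgroup.map_subtype_le _)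
    refine le_antisymm h1 ?_
    let f : W →* F := ((QuotientGroup.mk' O).comp W.subtype).codRestrict F fun w => w.2
    have hf : Function.Surjective f := fun y => by
      obtain ⟨x, hx⟩ := QuotientGroup.mk'_surjective O (y : G ⧸ O)
      exact ⟨⟨x, show QuotientGroup.mk' O x ∈ F by rw [hx]; exact y.2⟩, Subtype.ext hx⟩
    have h2 : (R0 : Subgroup W).map f = ⊤ := by
      obtain ⟨k, hk⟩ := hFp.exists_card_eq
      have hdiv : ((R0 : Subgroup W).map f).index ∣ 2 ^ k := hk ▸ Subgroup.index_dvd_card _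
      obtain ⟨j, -, hj⟩ := (Nat.dvd_prime_pow Nat.prime_two).1 hdiv
      rcases j with _ | j
      · exact Subgroup.index_eq_one.1 hj
      · exact absurd ((dvd_pow_self 2 (Nat.succ_ne_zero j)).trans (hj ▸ Subgroup.index_map_dvd _ hf)) R0.not_dvd_index
    intro y hy
    obtain ⟨w, hw, hwy⟩ : (⟨y, hy⟩ : F) ∈ (R0 : Subgroup W).map f := by rw [h2]; trivial
    exact ⟨w, ⟨w, hw, rfl⟩, congrArg Subtype.val hwy⟩
  obtain ⟨S, hRS, hS⟩ := exists_lift_sylow O hO P R hR (hmap.le.trans (hle P))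
  obtain ⟨T, hRT, hT⟩ := exists_lift_sylow O hO (g • P) R hR (hmap.le.trans (hle _))
  have hST : S ≠ T := fun h => hg (Sylow.ext (by rw [← hT, ← hS, h]))
  haveI := hC S T hST
  haveI : IsCyclic R := Subgroup.isCyclic_of_le (le_inf hRS hRT)
  haveI : IsCyclic F := by
    rw [← hmap]
    exact isCyclic_of_surjective _ ((QuotientGroup.mk' O).subgroupMap_surjective R)
  have hCF : Subgroup.centralizer (F : Set (G ⧸ O)) = F := le_antisymm hC2 fun a ha => Subgroup.mem_centralizer_iff.2
    fun b hb => congrArg Subtype.val (IsCyclic.isMulCommutative.is_comm.comm (⟨b, hb⟩ : F) ⟨a, ha⟩)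
  have hQ : IsPGroup 2 (G ⧸ O) := by
    obtain ⟨k, hk⟩ := hFp.exists_card_eq
    have hker : (MulAut.conjNormal (H := F)).ker = F := by
      ext a
      rw [MonoidHom.mem_ker]
      constructor
      · intro h
        refine hC2 (Subgroup.mem_centralizer_iff.2 fun b hb => ?_)
        have := congrArg Subtype.val (DFunLike.congr_fun h ⟨b, hb⟩)
        rw [MulAut.conjNormal_apply, MulAut.one_apply] at this
        calc b * a = a * b * a⁻¹ * a := by rw [this]
          _ = a * b := by group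
      · intro ha
        refine MulEquiv.ext fun b => Subtype.ext ?_
        rw [MulAut.conjNormal_apply, MulAut.one_apply]
        rw [← hCF] at ha
        rw [← Subgroup.mem_centralizer_iff.1 ha b b.2]
        group
    rw [IsPGroup.iff_card]
    have hd : Nat.card (G ⧸ O) ∣ 2 ^ k * Nat.totient (2 ^ k) := by
      rw [← hk, ← IsCyclic.card_mulAut F, ← Subgroup.card_mul_index F]
      refine Nat.mul_dvd_mul_left _ ?_
      conv_lhs => rw [← hker]
      rw [Subgroup.index_ker]
      exact Subgroup.card_subgroup_dvd_card _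
    rcases k with _ | k
    · simp at hd
      exact ⟨0, by simpa using hd⟩
    rw [Nat.totient_prime_pow_succ Nat.prime_two, show 2 - 1 = 1 from rfl, mul_one, ← pow_add] at hd
    obtain ⟨j, -, hj⟩ := (Nat.dvd_prime_pow Nat.prime_two).1 hd
    exact ⟨j, hj⟩
  have hPtop : (P : Subgroup (G ⧸ O)) = ⊤ := (P.3 (hQ.to_subgroup ⊤) le_top).symm
  exact hn (hPtop ▸ inferInstance)

end Cfsg.Agent.S3303
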