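import Cfsg.Prelude.Def_CaseTheorems
import Cfsg.Agent.Lib.BinOct.Core
import Cfsg.Agent.Lib.OddLocal.PLengthOne

set_option autoImplicit false
open Cfsg

namespace Cfsg.Agent.S3304

/-- Let G be a finite solvable group in which the intersection of any two distinct Sylow 2-subgroups has 2-rank at most 1 (contains no Klein four-group). Write Q = G/O(G), O(G) the largest normal subgroup of odd order. Then Q has a normal Sylow 2-subgroup; or Q is isomorphic to GL(2,3); or Q has order 48, centre of order 2 with central quotient isomorphic to the symmetric group of degree 4, and generalized quaternion Sylow 2-subgroups of order 16 (the binary octahedral group). The last two are the two representation groups of the symmetric group of degree 4. -/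
theorem result {G : Type*} [Group G] [Finite G] (hs : Group.IsSolvable G)
    (hI : ∀ S T : Sylow 2 G, S ≠ T → Cfsg.PRankLE 2 1 ↥((S : Subgroup G) ⊓ (T : Subgroup G))) :
    (∃ P : Sylow 2 (G ⧸ Cfsg.oddCore G), (P : Subgroup (G ⧸ Cfsg.oddCore G)).Normal) ∨
    Nonempty ((G ⧸ Cfsg.oddCore G) ≃* GL (Fin 2) (ZMod 3)) ∨
    (Nat.card (G ⧸ Cfsg.oddCore G) = 48 ∧ Nat.card ↥(Subgroup.center (G ⧸ Cfsg.oddCore G)) = 2 ∧
      Nonempty ((G ⧸ Cfsg.oddCore G) ⧸ Subgroup.center (G ⧸ Cfsg.oddCore G) ≃* Equiv.Perm (Fin 4)) ∧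
      ∀ P : Sylow 2 (G ⧸ Cfsg.oddCore G), Nonempty (↥(P : Subgroup (G ⧸ Cfsg.oddCore G)) ≃* QuaternionGroup 4)) := by
  classical
  haveI : Fact (Nat.Prime 2) := ⟨Nat.prime_two⟩
  haveI := hs
  let O : Subgroup G := Cfsg.oddCore G
  haveI : Group.IsSolvable (G ⧸ O) := solvable_of_surjective (QuotientGroup.mk'_surjective O)
  have hOb : pPrimeCore 2 (G ⧸ O) = ⊥ := Lib.OddLocal.pPrimeCore_quotient_eq_bot 2
  by_cases huniq : ∀ H K : Subgroup (pCore 2 (G ⧸ O)), Nat.card H = 2 → Nat.card K = 2 → H = K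
  · exact Lib.BinOct.core_structure hOb huniq
  left
  obtain ⟨E, hEc, hE2, hE4⟩ :=
    Lib.LocalP2.exists_elem_sq_of_not_unique (Lib.Hall.isPGroup_pCore 2) huniq
  set π := QuotientGroup.mk' O with hπ
  have hπs : Function.Surjective π := QuotientGroup.mk'_surjective O
  have hOodd : (Nat.card O).Coprime 2 := Lib.Hall.coprime_card_pPrimeCore 2
  set A : Subgroup (G ⧸ O) := E.map (pCore 2 (G ⧸ O)).subtype with hA
  have hAle : ∀ P : Sylow 2 (G ⧸ O), A ≤ P := fun P =>
    (Subgroup.map_subtype_le E).trans (Lib.Hall.pCore_le_sylow P)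
  have hAcomm : ∀ a ∈ A, ∀ b ∈ A, a * b = b * a := by
    rintro _ ⟨a, ha, rfl⟩ _ ⟨b, hb, rfl⟩
    rw [← map_mul, ← map_mul, hEc a ha b hb]
  have hA2 : ∀ a ∈ A, a ^ 2 = 1 := by
    rintro _ ⟨a, ha, rfl⟩
    rw [← map_pow, hE2 a ha, map_one]
  have hA4 : Nat.card A = 4 := by
    rw [hA, Subgroup.card_map_of_injective (Subgroup.subtype_injective _), hE4]; norm_num
  set K := A.comap π with hK
  have hOK : O ≤ K := fun x hx => by
    rw [hK, Subgroup.mem_comap, hπ, QuotientGroup.mk'_apply, (QuotientGroup.eq_one_iff x).2 hx]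
    exact one_mem A
  -- lifts of `A` inside each Sylow two-subgroup
  have hlift : ∀ S : Sylow 2 G, ∀ a ∈ A, ∃ b ∈ (S : Subgroup G) ⊓ K, π b = a := by
    intro S a ha
    obtain ⟨b, hb, hba⟩ := hAle (S.mapSurjective hπs) ha
    exact ⟨b, ⟨hb, by show π b ∈ A; rw [hba]; exact ha⟩, hba⟩
  have hinj : ∀ S : Sylow 2 G, ∀ x ∈ (S : Subgroup G), π x = 1 → x = 1 := by
    intro S x hxS hx
    rw [hπ, QuotientGroup.mk'_apply, QuotientGroup.eq_one_iff] at hx
    obtain ⟨k, hk⟩ := IsPGroup.iff_orderOf.1 S.isPGroup' ⟨x, hxS⟩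
    rw [Subgroup.orderOf_mk] at hk
    rw [← orderOf_eq_one_iff]
    exact Nat.eq_one_of_dvd_coprimes (Nat.Coprime.pow_right k hOodd) (O.orderOf_dvd_natCard hx) hk.dvd
  -- the lifts are elementary abelian of order four
  have hcardK : ∀ S : Sylow 2 G, Nat.card ((S : Subgroup G) ⊓ K : Subgroup G) = 4 := by
    intro S
    rw [← hA4]
    refine Nat.card_congr (Equiv.ofBijective (fun b => (⟨π b.1, b.2.2⟩ : A)) ⟨?_, ?_⟩)
    · intro b c h
      have h' : π b.1 = π c.1 := congrArg Subtype.val h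
      refine Subtype.ext (mul_inv_eq_one.1 (hinj S _ (mul_mem b.2.1 (inv_mem c.2.1)) ?_))
      rw [map_mul, map_inv, h', mul_inv_cancel]
    · rintro ⟨a, ha⟩
      obtain ⟨b, hb, hba⟩ := hlift S a ha
      exact ⟨⟨b, hb⟩, Subtype.ext hba⟩
  have huni : ∀ P P' : Sylow 2 (G ⧸ O), P = P' := by
    intro P P'
    by_contra hne
    obtain ⟨S, rfl⟩ := Sylow.mapSurjective_surjective hπs 2 P
    obtain ⟨S', rfl⟩ := Sylow.mapSurjective_surjective hπs 2 P'
    -- the two lifts are Sylow in `K`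
    have hKcard : Nat.card K = 4 * Nat.card O := by
      have h1 := K.card_mul_index
      rw [hK, Subgroup.index_comap_of_surjective A hπs, ← hK,
        Subgroup.card_eq_card_quotient_mul_card_subgroup O, ← A.card_mul_index, hA4] at h1
      exact Nat.eq_of_mul_eq_mul_right (Nat.pos_of_ne_zero A.index_ne_zero_of_finite)
        (h1.trans (by ring))
    have hsyl : ∀ R : Sylow 2 G, ∃ B : Sylow 2 K, (B : Subgroup K) = ((R : Subgroup G) ⊓ K).subgroupOf K := by
      intro R
      have hc : Nat.card (((R : Subgroup G) ⊓ K).subgroupOf K) = 2 ^ (Nat.card K).factorization 2 := by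
        have hO2 : (Nat.card O).factorization 2 = 0 := Nat.factorization_eq_zero_of_not_dvd fun h => by
          have := Nat.eq_one_of_dvd_coprimes hOodd h dvd_rfl
          omega
        rw [Nat.card_congr (Subgroup.subgroupOfEquivOfLe inf_le_right).toEquiv, hcardK, hKcard,
          Nat.factorization_mul (by norm_num) Nat.card_pos.ne', Finsupp.add_apply, hO2, add_zero,
          show (4 : ℕ) = 2 ^ 2 by norm_num, Nat.Prime.factorization_pow Nat.prime_two]
        simp
      exact ⟨Sylow.ofCard _ hc, rfl⟩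
    obtain ⟨B, hB⟩ := hsyl S
    obtain ⟨B', hB'⟩ := hsyl S'
    obtain ⟨k, hk⟩ := MulAction.exists_smul_eq K B B'
    -- `k` may be replaced by an element of `O`
    obtain ⟨b, hb, hbk⟩ := hlift S (π k) k.2
    set o : G := (k : G) * b⁻¹ with ho
    have hoO : o ∈ O := by
      rw [ho, ← QuotientGroup.eq_one_iff, ← QuotientGroup.mk'_apply, ← hπ, map_mul, map_inv, hbk, mul_inv_cancel]
    have hsub : ∀ x ∈ (S' : Subgroup G) ⊓ K, x ∈ ((o • S : Sylow 2 G) : Subgroup G) := by
      intro x hx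
      have hx' : (⟨x, hx.2⟩ : K) ∈ ((k • B : Sylow 2 K) : Subgroup K) := by
        rw [hk, hB']
        exact Subgroup.mem_subgroupOf.2 hx
      rw [Sylow.coe_subgroup_smul, Subgroup.mem_pointwise_smul_iff_inv_smul_mem, MulAut.smul_def, hB,
        Subgroup.mem_subgroupOf] at hx'
      rw [Sylow.coe_subgroup_smul, Subgroup.mem_pointwise_smul_iff_inv_smul_mem, MulAut.smul_def]
      have h1 : (k : G)⁻¹ * x * k ∈ (S : Subgroup G) ⊓ K := by simpa [mul_assoc] using hx'
      have h2 := mul_mem (mul_mem (show b ∈ (S : Subgroup G) from hb.1) h1.1) (inv_mem hb.1)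
      rw [ho]
      simpa [mul_assoc] using h2
    have hne' : o • S ≠ S' := by
      intro h
      apply hne
      have h1 := Sylow.ext_iff.1 h
      rw [← h]
      apply Sylow.ext
      rw [Sylow.coe_mapSurjective, Sylow.coe_mapSurjective, Sylow.coe_subgroup_smul]
      ext y
      constructor
      · rintro ⟨x, hx, rfl⟩
        refine ⟨o * x * o⁻¹, ?_, ?_⟩
        · exact Subgroup.smul_mem_pointwise_smul x (MulAut.conj o) _ hx
        · rw [map_mul, map_mul, map_inv, show π o = 1 from (QuotientGroup.eq_one_iff o).2 hoO]; simp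
      · rintro ⟨x, ⟨w, hw, rfl⟩, rfl⟩
        refine ⟨w, hw, ?_⟩
        show π w = π (o * w * o⁻¹)
        rw [map_mul, map_mul, map_inv, show π o = 1 from (QuotientGroup.eq_one_iff o).2 hoO]; simp
    have hle := hI (o • S) S' hne'
    set D := ((o • S : Sylow 2 G) : Subgroup G) ⊓ (S' : Subgroup G) with hD
    have hBD : (S' : Subgroup G) ⊓ K ≤ D := fun x hx => ⟨hsub x hx, hx.1⟩
    have hpr : ∀ x ∈ (S' : Subgroup G) ⊓ K, π x ∈ A := fun x hx => hx.2
    have h4 := hle (((S' : Subgroup G) ⊓ K).subgroupOf D) ?_ ?_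
    · rw [Nat.card_congr (Subgroup.subgroupOfEquivOfLe hBD).toEquiv, hcardK] at h4
      norm_num at h4
    · refine ⟨⟨fun a b => Subtype.ext (Subtype.ext ?_)⟩⟩
      refine mul_inv_eq_one.1 (hinj S' _ ?_ ?_)
      · exact mul_mem (mul_mem a.2.1 b.2.1) (inv_mem (mul_mem b.2.1 a.2.1))
      · rw [map_mul, map_inv, mul_inv_eq_one]
        show π ((a : D) * (b : D) : G) = π ((b : D) * (a : D) : G)
        rw [map_mul, map_mul]
        exact hAcomm _ (hpr _ a.2) _ (hpr _ b.2)
    · intro a ha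
      refine Subtype.ext (hinj S' _ (pow_mem ha.1 2) ?_)
      rw [Subgroup.coe_pow, map_pow]
      exact hA2 _ (hpr _ ha)
  obtain ⟨P⟩ : Nonempty (Sylow 2 (G ⧸ O)) := inferInstance
  refine ⟨P, ?_⟩
  haveI : Subsingleton (Sylow 2 (G ⧸ O)) := ⟨huni⟩
  exact Sylow.normal_of_subsingleton P

end Cfsg.Agent.S3304
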