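import Cfsg.Statements.S3305
import Mathlib

set_option autoImplicit false
open Cfsg

namespace Cfsg.Agent.S3305

/-- If any two distinct Sylow 2-subgroups of the finite group G intersect in a cyclic group, then the same holds in every quotient group G/H, H a normal subgroup of G. -/
theorem result {G : Type*} [Group G] [Finite G]
    (hC : ∀ S T : Sylow 2 G, S ≠ T → IsCyclic ↥((S : Subgroup G) ⊓ (T : Subgroup G))) (H : Subgroup G) [H.Normal] :
    ∀ S T : Sylow 2 (G ⧸ H), S ≠ T → IsCyclic ↥((S : Subgroup (G ⧸ H)) ⊓ (T : Subgroup (G ⧸ H))) := by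
  haveI : Fact (Nat.Prime 2) := ⟨Nat.prime_two⟩
  intro S T hST
  have hsurj := QuotientGroup.mk'_surjective H
  set D : Subgroup (G ⧸ H) := (S : Subgroup (G ⧸ H)) ⊓ (T : Subgroup (G ⧸ H)) with hD
  let L : Subgroup G := D.comap (QuotientGroup.mk' H)
  obtain ⟨D0⟩ : Nonempty (Sylow 2 L) := inferInstance
  let D1 : Subgroup G := (D0 : Subgroup L).map L.subtype
  have hD1p : IsPGroup 2 D1 := D0.2.map _
  -- a Sylow subgroup above `D1` over each of `S`, `T`
  have key : ∀ R : Sylow 2 (G ⧸ H), D ≤ (R : Subgroup (G ⧸ H)) →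
      ∃ R' : Sylow 2 G, D1 ≤ (R' : Subgroup G) ∧ R'.mapSurjective hsurj = R := by
    intro R hR
    let M : Subgroup G := (R : Subgroup (G ⧸ H)).comap (QuotientGroup.mk' H)
    obtain ⟨R0, hR0⟩ := Sylow.mapSurjective_surjective hsurj 2 R
    have hR0M : (R0 : Subgroup G) ≤ M := by
      intro x hx
      show QuotientGroup.mk' H x ∈ (R : Subgroup (G ⧸ H))
      rw [← hR0]
      exact ⟨x, hx, rfl⟩
    have hD1M : D1 ≤ M := by
      rintro _ ⟨x, -, rfl⟩
      exact hR (show QuotientGroup.mk' H (x : G) ∈ D from x.2)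
    obtain ⟨Q, hQ⟩ := (hD1p.comap_of_injective M.subtype M.subtype_injective).exists_le_sylow
    obtain ⟨g, hg⟩ := MulAction.exists_smul_eq ↥M (R0.subtype hR0M) Q
    refine ⟨(g : G) • R0, ?_, ?_⟩
    · intro x hx
      have hxQ : (⟨x, hD1M hx⟩ : M) ∈ (Q : Subgroup M) := hQ hx
      rw [← hg, Sylow.coe_subgroup_smul, Subgroup.mem_pointwise_smul_iff_inv_smul_mem] at hxQ
      rw [Sylow.coe_subgroup_smul, Subgroup.mem_pointwise_smul_iff_inv_smul_mem]
      exact hxQ
    · refine Sylow.ext (le_antisymm ?_ ?_)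
      · rintro _ ⟨x, hx, rfl⟩
        rw [SetLike.mem_coe, Sylow.coe_subgroup_smul, Subgroup.mem_pointwise_smul_iff_inv_smul_mem] at hx
        have hxM : MulAut.conj ((g : G))⁻¹ x ∈ M := hR0M (by simpa using hx)
        have : x ∈ M := by
          have := mul_mem (mul_mem g.2 hxM) (inv_mem g.2)
          simpa [mul_assoc] using this
        exact this
      · intro y hy
        have hy' : (QuotientGroup.mk' H (g : G))⁻¹ * y * QuotientGroup.mk' H (g : G) ∈ (R : Subgroup (G ⧸ H)) :=
          mul_mem (mul_mem (inv_mem g.2) hy) g.2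
        rw [← hR0] at hy'
        obtain ⟨x, hx, e⟩ := hy'
        refine ⟨(g : G) * x * (g : G)⁻¹, ?_, ?_⟩
        · rw [SetLike.mem_coe, Sylow.coe_subgroup_smul, Subgroup.mem_pointwise_smul_iff_inv_smul_mem]
          simpa [mul_assoc] using (show x ∈ (R0 : Subgroup G) from hx)
        · rw [map_mul, map_mul, map_inv, e]
          group
  obtain ⟨S', hS1, hS2⟩ := key S inf_le_left
  obtain ⟨T', hT1, hT2⟩ := key T inf_le_right
  have hne : S' ≠ T' := fun e => hST (by rw [← hS2, ← hT2, e])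
  haveI := hC S' T' hne
  haveI : IsCyclic D1 := isCyclic_of_injective (Subgroup.inclusion (le_inf hS1 hT1)) (Subgroup.inclusion_injective _)
  -- `D1` maps onto `D`
  let φ : L →* D := ((QuotientGroup.mk' H).comp L.subtype).codRestrict D fun x => x.2
  have hφ : Function.Surjective φ := by
    rintro ⟨d, hd⟩
    obtain ⟨x, rfl⟩ := hsurj d
    exact ⟨⟨x, hd⟩, rfl⟩
  have htop : ((D0.mapSurjective hφ : Sylow 2 D) : Subgroup D) = ⊤ := by
    have hp : IsPGroup 2 (⊤ : Subgroup D) := (S.2.to_le inf_le_left).of_equiv Subgroup.topEquiv.symm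
    exact (Sylow.is_maximal' _ hp le_top).symm
  let ψ : D1 →* D := ((QuotientGroup.mk' H).comp D1.subtype).codRestrict D fun x => by
    obtain ⟨y, -, e⟩ := x.2
    show QuotientGroup.mk' H (x : G) ∈ D
    rw [← e]
    exact y.2
  refine isCyclic_of_surjective ψ fun d => ?_
  obtain ⟨x, hx, e⟩ := htop.ge (Subgroup.mem_top d)
  exact ⟨⟨x, x, hx, rfl⟩, Subtype.ext (congrArg Subtype.val e)⟩

end Cfsg.Agent.S3305
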