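import Cfsg.Statements.S3313
import Cfsg.Agent.S0213
import Cfsg.Agent.Lib.Components.Bender
import Cfsg.Agent.Lib.JTwoPattern.Pairs
-- import your own Cfsg.Agent.* helpers here

set_option autoImplicit false
open Cfsg

namespace Cfsg.Agent.S3313

open Cfsg.Agent.Lib
open Cfsg.Agent.Lib.Involution (isConj_orderOf)
open scoped commutatorElement
open scoped Classical

/-- `t ∈ ⟨xy⟩` for involutions forces both into the centralizer of `t`. -/
lemma commute_of_mem_zpowers {G : Type*} [Group G] {x y w : G} (hx : x * x = 1) (hy : y * y = 1) (hw : w * w = 1)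
    (h : w ∈ Subgroup.zpowers (x * y)) : Commute x w ∧ Commute y w := by
  obtain ⟨n, hn⟩ := Subgroup.mem_zpowers_iff.mp h
  have hxi : x⁻¹ = x := inv_eq_of_mul_eq_one_left hx
  have hyi : y⁻¹ = y := inv_eq_of_mul_eq_one_left hy
  have hwi : w⁻¹ = w := inv_eq_of_mul_eq_one_left hw
  have h1 : MulAut.conj x (x * y) = (x * y)⁻¹ := by
    rw [MulAut.conj_apply, mul_inv_rev, hyi, hxi, ← mul_assoc x x y, hx, one_mul]
  have hxw : x * w * x⁻¹ = w := by
    rw [← hn, ← MulAut.conj_apply, map_zpow, h1, inv_zpow, hn, hwi]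
  have hc : Commute x w := mul_inv_eq_iff_eq_mul.mp hxw
  have hxyw : Commute (x * y) w := by
    rw [← hn]; exact Commute.self_zpow _ _
  refine ⟨hc, ?_⟩
  have : Commute (x * (x * y)) w := hc.mul_left hxyw
  rwa [← mul_assoc, hx, one_mul] at this

lemma mul_self_of_orderOf {G : Type*} [Group G] {x : G} (h : orderOf x = 2) : x * x = 1 := by
  rw [← pow_two, ← h, pow_orderOf_eq_one]

lemma orderOf_of_mul_self {G : Type*} [Group G] {x : G} (h : x * x = 1) (h1 : x ≠ 1) : orderOf x = 2 :=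
  orderOf_eq_prime (by rw [pow_two, h]) h1


/-- The total number of pairs. -/
lemma count_pairs {G : Type*} [Group G] [Fintype G] {z : G} {Q K : Subgroup G} (S : JTwoPattern.Setup z Q K)
    (e : ↥K ≃* alternatingGroup (Fin 5)) (hdisj : ∀ k ∈ K, k ∈ Q → k = 1) :
    Nat.card {p : G × (G × G) // (p.1 ∈ K ∧ p.1 * p.1 = 1 ∧ p.1 ≠ 1) ∧ p.2.1 ∈ Q ∧
      p.1 * p.2.1 * (p.1 * p.2.1) = 1 ∧ (p.2.2 ∈ Q ∧ p.2.2 * p.2.2 = 1 ∧ p.2.2 ≠ 1) ∧
      z ∈ Subgroup.zpowers (p.2.2 * (p.1 * p.2.1))} = 960 := by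
  let I := {k : G // k ∈ K ∧ k * k = 1 ∧ k ≠ 1}
  have hI : Nat.card I = 15 := by
    rw [← JTwoPattern.card_involutions_alt_five]
    refine Nat.card_congr
      { toFun := fun k => ⟨e ⟨k.1, k.2.1⟩, ?_, ?_⟩
        invFun := fun x => ⟨(e.symm x.1 : G), (e.symm x.1).2, ?_, ?_⟩
        left_inv := fun k => Subtype.ext (by simp)
        right_inv := fun x => Subtype.ext (by simp) }
    · rw [← map_mul, show (⟨k.1, k.2.1⟩ : ↥K) * ⟨k.1, k.2.1⟩ = 1 from Subtype.ext k.2.2.1, map_one]
    · intro h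
      exact k.2.2.2 (congrArg Subtype.val (e.map_eq_one_iff.mp h))
    · rw [← Subgroup.coe_mul, ← map_mul, x.2.1, map_one, Subgroup.coe_one]
    · intro h
      exact x.2.2 (e.symm.map_eq_one_iff.mp (Subtype.ext h))
  refine (Nat.card_congr (β := Σ k : I, {p : G × G // p.1 ∈ Q ∧ k.1 * p.1 * (k.1 * p.1) = 1 ∧
      (p.2 ∈ Q ∧ p.2 * p.2 = 1 ∧ p.2 ≠ 1) ∧ z ∈ Subgroup.zpowers (p.2 * (k.1 * p.1))})
    { toFun := fun p => ⟨⟨p.1.1, p.2.1⟩, ⟨p.1.2, p.2.2⟩⟩
      invFun := fun p => ⟨(p.1.1, p.2.1), p.1.2, p.2.2⟩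
      left_inv := fun _ => rfl
      right_inv := fun _ => rfl }).trans ?_
  rw [Nat.card_sigma, Finset.sum_congr rfl (fun (k : I) _ => (S.involution_facts k.2.1 k.2.2.1 fun h => k.2.2.2 (hdisj _ k.2.1 h)).choose_spec.2.2.2.2),
    Finset.sum_const, Finset.card_univ, ← Nat.card_eq_fintype_card, hI]
  rfl


/-- The order of a simple group with the involution pattern of the Hall–Janko group. Let G be a non-abelian finite simple group with exactly two conjugacy classes of involutions, represented by z and t, such that: F*(C_G(z)) is an extraspecial 2-group; Q = O₂(C_G(z)) has order 32 and C_G(z) is the semidirect product of Q by a subgroup isomorphic to A₅; every involution of Q is conjugate to z and every other involution of C_G(z) is conjugate to t; C_G(t) is an internal direct product V × B with V a four-group containing t and B ≅ A₅; every involution of B is conjugate to z and every other involution of C_G(t) is conjugate to t. Then |G| = 604800. -/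
theorem result {G : Type*} [Group G] [Finite G]
    [IsSimpleGroup G] (hna : ¬ IsMulCommutative G) (z t : G) (hz : orderOf z = 2) (ht : orderOf t = 2)
    (hzt : ¬ IsConj z t) (hcl : ∀ x : G, orderOf x = 2 → IsConj x z ∨ IsConj x t)
    (hex : Cfsg.IsExtraspecial 2 ↥(Cfsg.generalizedFittingSubgroup ↥(Subgroup.centralizer ({z} : Set G))))
    (hQ : Nat.card ↥(Cfsg.pCore 2 ↥(Subgroup.centralizer ({z} : Set G))) = 32)
    (K : Subgroup G) (hK : Nonempty (↥K ≃* alternatingGroup (Fin 5)))
    (hKC : K ⊔ (Cfsg.pCore 2 ↥(Subgroup.centralizer ({z} : Set G))).map (Subgroup.centralizer ({z} : Set G)).subtype = Subgroup.centralizer ({z} : Set G))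
    (hKQ : K ⊓ (Cfsg.pCore 2 ↥(Subgroup.centralizer ({z} : Set G))).map (Subgroup.centralizer ({z} : Set G)).subtype = ⊥)
    (hQz : ∀ x ∈ (Cfsg.pCore 2 ↥(Subgroup.centralizer ({z} : Set G))).map (Subgroup.centralizer ({z} : Set G)).subtype, orderOf x = 2 → IsConj x z)
    (hCz : ∀ x ∈ Subgroup.centralizer ({z} : Set G), orderOf x = 2 →
      x ∉ (Cfsg.pCore 2 ↥(Subgroup.centralizer ({z} : Set G))).map (Subgroup.centralizer ({z} : Set G)).subtype → IsConj x t)
    (V B : Subgroup G) (hVB : Cfsg.IsInternalDirectProduct V B (Subgroup.centralizer ({t} : Set G)))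
    (hV : Nat.card ↥V = 4) (hV2 : ∀ v ∈ V, v ^ 2 = 1) (htV : t ∈ V) (hB : Nonempty (↥B ≃* alternatingGroup (Fin 5)))
    (hBz : ∀ x ∈ B, orderOf x = 2 → IsConj x z)
    (hCt : ∀ x ∈ Subgroup.centralizer ({t} : Set G), orderOf x = 2 → x ∉ B → IsConj x t) :
    Nat.card G = 604800 := by
  haveI : Fintype G := Fintype.ofFinite G
  haveI : Fact (Nat.Prime 2) := ⟨Nat.prime_two⟩
  set C := Subgroup.centralizer ({z} : Set G) with hC
  set D := Subgroup.centralizer ({t} : Set G) with hD
  set Q := (Cfsg.pCore 2 ↥C).map C.subtype with hQdef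
  have hmem : ∀ g, g ∈ C ↔ g * z = z * g := fun g => Subgroup.mem_centralizer_singleton_iff
  have hzz := mul_self_of_orderOf hz
  have htt := mul_self_of_orderOf ht
  have hz1 : z ≠ 1 := fun h => by rw [h, orderOf_one] at hz; omega
  have ht1 : t ≠ 1 := fun h => by rw [h, orderOf_one] at ht; omega
  have hzC : z ∈ C := (hmem z).mpr rfl
  have hconj : ∀ {x : G}, IsConj x z → IsConj x t → False := fun h1 h2 => hzt (h1.symm.trans h2)
  -- `Q` is the generalized Fitting subgroup
  have hF : Cfsg.generalizedFittingSubgroup ↥C = Cfsg.pCore 2 ↥C := by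
    refine le_antisymm (Components.le_pCore hex.1.1) ?_
    exact (Components.pCore_le_fittingSubgroup 2).trans le_sup_right
  rw [hF] at hex
  obtain ⟨⟨-, -, hcommeq⟩, hcencard⟩ := hex
  have hzQ : (⟨z, hzC⟩ : ↥C) ∈ Cfsg.pCore 2 ↥C := by
    have hcen : (⟨z, hzC⟩ : ↥C) ∈ Subgroup.center ↥C :=
      Subgroup.mem_center_iff.mpr fun g => Subtype.ext ((hmem g).mp g.2)
    haveI : (Subgroup.zpowers (⟨z, hzC⟩ : ↥C)).Normal :=
      ⟨fun n hn g => by
        have hn' : n ∈ Subgroup.center ↥C := (Subgroup.zpowers_le.mpr hcen) hn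
        rw [(Subgroup.mem_center_iff.mp hn' g), mul_inv_cancel_right]; exact hn⟩
    refine Components.le_pCore (IsPGroup.of_card (n := 1) ?_) (Subgroup.mem_zpowers _)
    rw [Nat.card_zpowers, ← Subgroup.orderOf_coe, pow_one]; exact hz
  have hzQ' : z ∈ Q := ⟨⟨z, hzC⟩, hzQ, rfl⟩
  have hQC : Q ≤ C := Subgroup.map_subtype_le _
  have hQcard : Nat.card ↥Q = 32 := by
    rw [hQdef, Nat.card_congr (Subgroup.equivMapOfInjective _ _ C.subtype_injective).toEquiv.symm, hQ]
  -- the centre of `Q`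
  have hcen : ∀ a : ↥(Cfsg.pCore 2 ↥C), a ∈ Subgroup.center ↥(Cfsg.pCore 2 ↥C) →
      ((a : ↥C) : G) = 1 ∨ ((a : ↥C) : G) = z := by
    intro a ha
    have hzc : (⟨⟨z, hzC⟩, hzQ⟩ : ↥(Cfsg.pCore 2 ↥C)) ∈ Subgroup.center ↥(Cfsg.pCore 2 ↥C) :=
      Subgroup.mem_center_iff.mpr fun g => Subtype.ext (Subtype.ext ((hmem _).mp (g : ↥C).2))
    by_contra hne
    push Not at hne
    have h3 : ({1, ⟨_, hzc⟩, ⟨a, ha⟩} : Finset (Subgroup.center ↥(Cfsg.pCore 2 ↥C))).card = 3 := by
      rw [Finset.card_insert_of_notMem, Finset.card_pair]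
      · intro h
        exact hne.2 (congrArg (fun u : Subgroup.center ↥(Cfsg.pCore 2 ↥C) => (((u : ↥(Cfsg.pCore 2 ↥C)) : ↥C) : G)) h).symm
      · rw [Finset.mem_insert, Finset.mem_singleton]
        rintro (h | h)
        · exact hz1 (congrArg (fun u : Subgroup.center ↥(Cfsg.pCore 2 ↥C) => (((u : ↥(Cfsg.pCore 2 ↥C)) : ↥C) : G)) h).symm
        · exact hne.1 (congrArg (fun u : Subgroup.center ↥(Cfsg.pCore 2 ↥C) => (((u : ↥(Cfsg.pCore 2 ↥C)) : ↥C) : G)) h).symm
    have := Finset.card_le_univ ({1, ⟨_, hzc⟩, ⟨a, ha⟩} : Finset (Subgroup.center ↥(Cfsg.pCore 2 ↥C)))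
    rw [h3, ← Nat.card_eq_fintype_card, hcencard] at this
    omega
  have hcom : ∀ a ∈ Q, ∀ b ∈ Q, a * b = b * a ∨ a * b = b * a * z := by
    rintro _ ⟨a, ha, rfl⟩ _ ⟨b, hb, rfl⟩
    let x : ↥(Cfsg.pCore 2 ↥C) := ⟨a, ha⟩
    let y : ↥(Cfsg.pCore 2 ↥C) := ⟨b, hb⟩
    have hm : (y * x)⁻¹ * (x * y) ∈ Subgroup.center ↥(Cfsg.pCore 2 ↥C) := by
      rw [← hcommeq, show (y * x)⁻¹ * (x * y) = ⁅x⁻¹, y⁻¹⁆ by rw [commutatorElement_def]; group,
        commutator_eq_closure]
      exact Subgroup.subset_closure ⟨_, _, rfl⟩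
    rcases hcen _ hm with h | h
    · left
      exact (inv_mul_eq_one.mp (show ((b : G) * (a : G))⁻¹ * ((a : G) * (b : G)) = 1 from h)).symm
    · right
      exact inv_mul_eq_iff_eq_mul.mp (show ((b : G) * (a : G))⁻¹ * ((a : G) * (b : G)) = z from h)
  have hcen' : ∀ a ∈ Q, (∀ b ∈ Q, a * b = b * a) → a = 1 ∨ a = z := by
    rintro _ ⟨a, ha, rfl⟩ h
    exact hcen ⟨a, ha⟩ (Subgroup.mem_center_iff.mpr fun g =>
      Subtype.ext (Subtype.ext (h _ ⟨g, g.2, rfl⟩).symm))
  have hKC' : ∀ k ∈ K, k * z = z * k := fun k hk => (hmem k).mp (hKC ▸ Subgroup.mem_sup_left hk)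
  have hnorm : ∀ g ∈ C, ∀ q ∈ Q, g * q * g⁻¹ ∈ Q := by
    rintro g hg _ ⟨a, ha, rfl⟩
    haveI : (Cfsg.pCore 2 ↥C).Normal := by
      rw [← hF]; infer_instance
    exact ⟨_, Subgroup.Normal.conj_mem inferInstance a ha ⟨g, hg⟩, rfl⟩
  have hnormK : ∀ k ∈ K, ∀ q ∈ Q, k * q * k⁻¹ ∈ Q := fun k hk => hnorm k (hKC ▸ Subgroup.mem_sup_left hk)
  have hdisj : ∀ k ∈ K, k ∈ Q → k = 1 := fun k h1 h2 => by
    have : k ∈ K ⊓ Q := ⟨h1, h2⟩
    rwa [hKQ, Subgroup.mem_bot] at this
  have hDcard : Nat.card ↥D = 240 := by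
    obtain ⟨hVle, hBle, hcm, hdis, hsup⟩ := hVB
    let φ : ↥V × ↥B →* ↥D :=
      { toFun := fun p => ⟨(p.1 : G) * p.2, mul_mem (hVle p.1.2) (hBle p.2.2)⟩
        map_one' := Subtype.ext (by simp)
        map_mul' := fun p q => Subtype.ext (by
          show ((p.1 : G) * q.1) * ((p.2 : G) * q.2) = (p.1 : G) * p.2 * ((q.1 : G) * q.2)
          exact (show Commute (p.2 : G) (q.1 : G) from (hcm _ q.1.2 _ p.2.2).symm).symm.mul_mul_mul_comm _ _) }
    have hφ : Function.Bijective φ := by
      constructor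
      · refine (MonoidHom.ker_eq_bot_iff φ).mp ((Subgroup.eq_bot_iff_forall _).mpr ?_)
        rintro ⟨v, b⟩ h
        have h' : (v : G) * b = 1 := congrArg Subtype.val h
        have hv : (v : G) ∈ V ⊓ B := Subgroup.mem_inf.mpr ⟨v.2, by rw [eq_inv_of_mul_eq_one_left h']; exact inv_mem b.2⟩
        rw [hdis, Subgroup.mem_bot] at hv
        rw [hv, one_mul] at h'
        exact Prod.ext (Subtype.ext hv) (Subtype.ext h')
      · intro g
        have hg : (g : G) ∈ V ⊔ B := hsup.symm ▸ g.2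
        rw [← SetLike.mem_coe, Subgroup.coe_mul_of_left_le_normalizer_right V B] at hg
        · obtain ⟨v, hv, b, hb, e⟩ := hg
          exact ⟨(⟨v, hv⟩, ⟨b, hb⟩), Subtype.ext e⟩
        · intro v hv
          rw [Subgroup.mem_normalizer_iff]
          intro b
          constructor
          · intro hb; rw [hcm v hv b hb, mul_inv_cancel_right]; exact hb
          · intro hb
            have e := hcm v⁻¹ (inv_mem hv) _ hb
            rw [show v⁻¹ * (v * b * v⁻¹) = b * v⁻¹ by group] at e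
            rw [mul_right_cancel e]; exact hb
    obtain ⟨eB⟩ := hB
    rw [← Nat.card_congr (Equiv.ofBijective φ hφ), Nat.card_prod, hV, Nat.card_congr eB.toEquiv,
      nat_card_alternatingGroup]
    simp [Nat.factorial]
  have hxQ : ∀ {x : G}, x ∈ C → IsConj z x → x ∈ Q := by
    intro x hx hc
    by_contra hn
    exact hconj hc.symm (hCz x hx ((isConj_orderOf hc).symm.trans hz) hn)
  have hnotQ : ∀ {y : G}, IsConj t y → y ∉ Q := fun {y} hc hy =>
    hconj (hQz y hy ((isConj_orderOf hc).symm.trans ht)) hc.symm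
  have S : JTwoPattern.Setup z Q K :=
    { zQ := hzQ'
      z2 := hzz
      z1 := hz1
      zc := fun g hg => (hmem g).mp (hQC hg)
      zK := hKC'
      norm := hnormK
      cen := hcen'
      sq := by
        intro a ha
        refine hcen' _ (mul_mem ha ha) fun b hb => ?_
        have hbz : Commute b z := (hmem b).mp (hQC hb)
        rcases hcom a ha b hb with h | h
        · exact ((show Commute a b from h).mul_left h).eq
        · calc a * a * b = a * (a * b) := mul_assoc _ _ _
            _ = a * (b * a * z) := by rw [h]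
            _ = a * b * (a * z) := by group
            _ = b * a * z * (a * z) := by rw [h]
            _ = b * a * (z * a) * z := by group
            _ = b * a * (a * z) * z := by rw [(hmem a).mp (hQC ha)]
            _ = b * (a * a) * (z * z) := by group
            _ = b * (a * a) := by rw [hzz, mul_one]
      com := hcom
      card := hQcard
      quot := by
        obtain ⟨eK⟩ := hK
        exact ⟨eK.toMonoidHom, eK.surjective, fun g => ⟨fun h => by
          rw [eK.map_eq_one_iff.mp h]; exact one_mem Q, fun h => by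
          rw [show g = 1 from Subtype.ext (hdisj _ g.2 h)]; exact map_one eK⟩⟩
      cq := by
        obtain ⟨eK⟩ := hK
        haveI : Nontrivial ↥K := eK.toEquiv.nontrivial
        haveI : IsSimpleGroup ↥K := IsSimpleGroup.isSimpleGroup_of_surjective eK.symm.toMonoidHom eK.symm.surjective
        haveI hN : ((Subgroup.centralizer (Q : Set G)).subgroupOf K).Normal := by
          constructor
          intro n hn g
          rw [Subgroup.mem_subgroupOf, Subgroup.mem_centralizer_iff] at hn ⊢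
          intro a ha
          have h1 := hn _ (hnormK _ (inv_mem g.2) a ha)
          rw [inv_inv] at h1
          push_cast
          calc a * ((g : G) * n * (g : G)⁻¹) = g * ((g : G)⁻¹ * a * g * n) * (g : G)⁻¹ := by group
            _ = g * ((n : G) * ((g : G)⁻¹ * a * g)) * (g : G)⁻¹ := by rw [h1]
            _ = _ := by group
        intro g hg hgc
        have hgN : (⟨g, hg⟩ : ↥K) ∈ (Subgroup.centralizer (Q : Set G)).subgroupOf K :=
          Subgroup.mem_centralizer_iff.mpr fun a ha => (hgc a ha).symm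
        rcases hN.eq_bot_or_eq_top with h | h
        · rw [h, Subgroup.mem_bot] at hgN
          rw [show g = 1 from congrArg Subtype.val hgN]; exact one_mem Q
        · exfalso
          have : 0 < Nat.card {x : alternatingGroup (Fin 5) // x * x = 1 ∧ x ≠ 1} := by
            rw [JTwoPattern.card_involutions_alt_five]; norm_num
          obtain ⟨⟨x, hx, hx1⟩⟩ := (Nat.card_pos_iff.mp this).1
          set k := (eK.symm x : G) with hk
          have hkK : k ∈ K := (eK.symm x).2
          have hkk : k * k = 1 := by rw [hk, ← Subgroup.coe_mul, ← map_mul, hx, map_one, Subgroup.coe_one]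
          have hk1 : k ≠ 1 := fun h1 => hx1 (eK.symm.map_eq_one_iff.mp (Subtype.ext h1))
          have hkt : IsConj k t := hCz k (hKC ▸ Subgroup.mem_sup_left hkK) (orderOf_of_mul_self hkk hk1)
            fun h' => hk1 (hdisj k hkK h')
          obtain ⟨g', hg'⟩ := isConj_iff.mp hkt
          have hkc : ∀ q ∈ Q, q * k = k * q := Subgroup.mem_centralizer_iff.mp
            (show eK.symm x ∈ (Subgroup.centralizer (Q : Set G)).subgroupOf K from h ▸ Subgroup.mem_top _)
          have hle : Q.map (MulAut.conj g').toMonoidHom ≤ D := by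
            rintro _ ⟨q, hq, rfl⟩
            rw [hD, Subgroup.mem_centralizer_singleton_iff, ← hg']
            show g' * q * g'⁻¹ * (g' * k * g'⁻¹) = g' * k * g'⁻¹ * (g' * q * g'⁻¹)
            rw [show g' * q * g'⁻¹ * (g' * k * g'⁻¹) = g' * (q * k) * g'⁻¹ by group, hkc q hq]
            group
          have := Subgroup.card_dvd_of_le hle
          rw [Nat.card_congr (Subgroup.equivMapOfInjective _ _ (MulAut.conj g').injective).toEquiv.symm,
            hQcard, hDcard] at this
          norm_num at this }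
  have hCcard : Nat.card ↥C = 1920 := by
    obtain ⟨eK⟩ := hK
    have hbij : Function.Bijective (fun p : ↥K × ↥Q => (⟨(p.1 : G) * p.2,
        hKC ▸ mul_mem (Subgroup.mem_sup_left p.1.2) (Subgroup.mem_sup_right p.2.2)⟩ : ↥C)) := by
      constructor
      · rintro ⟨k, q⟩ ⟨k', q'⟩ h
        have h' : (k : G) * q = k' * q' := congrArg Subtype.val h
        have h1 : (k' : G)⁻¹ * k = q' * (q : G)⁻¹ := by
          rw [eq_mul_inv_iff_mul_eq, mul_assoc, h', inv_mul_cancel_left]
        have h2 := hdisj _ (mul_mem (inv_mem k'.2) k.2) (h1 ▸ mul_mem q'.2 (inv_mem q.2))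
        have h3 : (k : G) = k' := (inv_mul_eq_one.mp h2).symm
        rw [h3] at h'
        exact Prod.ext (Subtype.ext h3) (Subtype.ext (mul_left_cancel h'))
      · intro g
        have hg : (g : G) ∈ K ⊔ Q := hKC.symm ▸ g.2
        rw [← SetLike.mem_coe, Subgroup.coe_mul_of_left_le_normalizer_right K Q] at hg
        · obtain ⟨k, hk, q, hq, e⟩ := hg
          exact ⟨(⟨k, hk⟩, ⟨q, hq⟩), Subtype.ext e⟩
        · intro k hk
          rw [Subgroup.mem_normalizer_iff]
          refine fun q => ⟨hnormK k hk q, fun h => ?_⟩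
          have := hnormK k⁻¹ (inv_mem hk) _ h
          rwa [show k⁻¹ * (k * q * k⁻¹) * k⁻¹⁻¹ = q by group] at this
    rw [← Nat.card_congr (Equiv.ofBijective _ hbij), Nat.card_prod, hQcard, Nat.card_congr eK.toEquiv,
      nat_card_alternatingGroup]
    simp [Nat.factorial]
  -- pairs over `z`
  have hz_pairs : Nat.card {p : G × G // IsConj z p.1 ∧ IsConj t p.2 ∧ z ∈ Subgroup.zpowers (p.1 * p.2)} = 960 := by
    obtain ⟨eK⟩ := hK
    rw [← count_pairs S eK hdisj]
    refine Eq.symm (Nat.card_eq_of_bijective (fun p => ⟨(p.1.2.2, p.1.1 * p.1.2.1), ?_⟩) ⟨?_, ?_⟩)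
    · obtain ⟨⟨k, q, x⟩, ⟨hk, hk2, hk1⟩, hq, hy2, ⟨hxQ', hx2, hx1⟩, hzp⟩ := p
      have hy : k * q ∉ Q := fun h => hk1 (hdisj k hk (by
        have := mul_mem h (inv_mem hq)
        rwa [mul_inv_cancel_right] at this))
      have hyC : k * q ∈ C := mul_mem (hKC ▸ Subgroup.mem_sup_left hk) (hQC hq)
      refine ⟨(hQz x hxQ' (orderOf_of_mul_self hx2 hx1)).symm,
        (hCz _ hyC (orderOf_of_mul_self hy2 fun h => hy (by rw [h]; exact one_mem _)) hy).symm, hzp⟩
    · rintro ⟨⟨k, q, x⟩, hk, hq, hrest⟩ ⟨⟨k', q', x'⟩, hk', hq', hrest'⟩ h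
      have h' := congrArg Subtype.val h
      simp only [Prod.mk.injEq] at h'
      obtain ⟨rfl, h'⟩ := h'
      have h1 : k'⁻¹ * k = q' * q⁻¹ := by
        rw [eq_mul_inv_iff_mul_eq, mul_assoc, h', inv_mul_cancel_left]
      have h2 := hdisj _ (mul_mem (inv_mem hk'.1) hk.1) (h1 ▸ mul_mem hq' (inv_mem hq))
      obtain rfl : k' = k := inv_mul_eq_one.mp h2
      obtain rfl : q = q' := mul_left_cancel h'
      rfl
    · rintro ⟨⟨x, y⟩, hx, hy, hzp⟩
      have hx2 := mul_self_of_orderOf ((isConj_orderOf hx).symm.trans hz)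
      have hy2 := mul_self_of_orderOf ((isConj_orderOf hy).symm.trans ht)
      obtain ⟨hxc, hyc⟩ := commute_of_mem_zpowers hx2 hy2 hzz hzp
      have hxQ' : x ∈ Q := hxQ ((hmem x).mpr hxc.eq) hx
      have hyC : y ∈ K ⊔ Q := hKC.symm ▸ (hmem y).mpr hyc.eq
      rw [← SetLike.mem_coe, Subgroup.coe_mul_of_left_le_normalizer_right K Q] at hyC
      · obtain ⟨k, hk, q, hq, rfl⟩ := hyC
        have hk1 : k ≠ 1 := by
          rintro rfl
          exact hnotQ hy (by simpa using hq)
        have hk2 : k * k = 1 := by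
          refine hdisj _ (mul_mem hk hk) ?_
          have e : k * k = (k * q * k⁻¹)⁻¹ * q⁻¹ := by
            calc k * k = (k * q * k⁻¹)⁻¹ * (k * q * (k * q)) * q⁻¹ := by group
              _ = _ := by rw [show k * q * (k * q) = 1 from hy2, mul_one]
          rw [e]
          exact mul_mem (inv_mem (hnormK k hk q hq)) (inv_mem hq)
        refine ⟨⟨(k, q, x), ⟨hk, hk2, hk1⟩, hq, hy2, ⟨hxQ', hx2, ?_⟩, hzp⟩, rfl⟩
        intro h
        have hx' : IsConj z x := hx
        rw [show x = 1 from h] at hx'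
        exact hz1 (isConj_one_left.mp hx')
      · intro k hk
        rw [Subgroup.mem_normalizer_iff]
        refine fun q => ⟨hnormK k hk q, fun h => ?_⟩
        have := hnormK k⁻¹ (inv_mem hk) _ h
        rwa [show k⁻¹ * (k * q * k⁻¹) * k⁻¹⁻¹ = q by group] at this
  -- pairs over `t`
  have ht_pairs : Nat.card {p : G × G // IsConj z p.1 ∧ IsConj t p.2 ∧ t ∈ Subgroup.zpowers (p.1 * p.2)} = 195 := by
    obtain ⟨hVle, hBle, hcm, hdis, hsup⟩ := hVB
    obtain ⟨e⟩ := hB
    have htB : t ∉ B := fun h => ht1 (by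
      have : t ∈ V ⊓ B := ⟨htV, h⟩
      rwa [hdis, Subgroup.mem_bot] at this)
    have htb : ∀ b ∈ B, Commute t b := fun b hb => hcm t htV b hb
    have hoddB : ∀ x b : ↥B, orderOf (e x * e b) = orderOf ((x : G) * b) := fun x b => by
      rw [← map_mul, MulEquiv.orderOf_eq, ← Subgroup.orderOf_coe, Subgroup.coe_mul]
    rw [← JTwoPattern.card_pairs_alt_five]
    refine Eq.symm (Nat.card_eq_of_bijective (fun p => ⟨((e.symm p.1.1 : G), t * (e.symm p.1.2 : G)), ?_⟩) ⟨?_, ?_⟩)
    · obtain ⟨⟨x, b⟩, ⟨hx2, hx1⟩, hb2, hxb⟩ := p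
      set x' := (e.symm x : G) with hx'
      set b' := (e.symm b : G) with hb'
      have hxB : x' ∈ B := (e.symm x).2
      have hbB : b' ∈ B := (e.symm b).2
      have hx'2 : x' * x' = 1 := by rw [hx', ← Subgroup.coe_mul, ← map_mul, hx2, map_one, Subgroup.coe_one]
      have hb'2 : b' * b' = 1 := by rw [hb', ← Subgroup.coe_mul, ← map_mul, hb2, map_one, Subgroup.coe_one]
      have hx'1 : x' ≠ 1 := fun h => hx1 (e.symm.map_eq_one_iff.mp (Subtype.ext h))
      have hodd : Odd (orderOf (x' * b')) := by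
        rw [hx', hb', ← hoddB, e.apply_symm_apply, e.apply_symm_apply]
        exact (JTwoPattern.odd_orderOf_alt_five hx2 hx1 hb2).mpr hxb
      have hy2 : t * b' * (t * b') = 1 := by
        rw [(htb b' hbB).symm.mul_mul_mul_comm, htt, hb'2, one_mul]
      have hy : t * b' ∉ B := fun h => htB (by
        have := mul_mem h (inv_mem hbB)
        rwa [mul_inv_cancel_right] at this)
      refine ⟨(hBz x' hxB (orderOf_of_mul_self hx'2 hx'1)).symm,
        (hCt _ (mul_mem (hVle htV) (hBle hbB))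
          (orderOf_of_mul_self hy2 fun h => hy (h.symm ▸ one_mem B)) hy).symm,
        ⟨(orderOf (x' * b') : ℤ), ?_⟩⟩
      show (x' * (t * b')) ^ (orderOf (x' * b') : ℤ) = t
      rw [zpow_natCast, show x' * (t * b') = t * (x' * b') by
        rw [← mul_assoc, ← (htb x' hxB).eq, mul_assoc], (htb _ (mul_mem hxB hbB)).mul_pow, pow_orderOf_eq_one, mul_one]
      obtain ⟨m, hm⟩ := hodd
      rw [hm, pow_succ, pow_mul, pow_two, htt, one_pow, one_mul]
    · rintro ⟨⟨x, b⟩, hp⟩ ⟨⟨x', b'⟩, hp'⟩ h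
      have h' := congrArg Subtype.val h
      simp only [Prod.mk.injEq] at h'
      obtain rfl := e.symm.injective (Subtype.ext h'.1)
      obtain rfl := e.symm.injective (Subtype.ext (mul_left_cancel h'.2))
      rfl
    · rintro ⟨⟨x, y⟩, hx, hy, htp⟩
      have hx0 := (isConj_orderOf hx).symm.trans hz
      have hx2 := mul_self_of_orderOf hx0
      have hy2 := mul_self_of_orderOf ((isConj_orderOf hy).symm.trans ht)
      obtain ⟨hxc, hyc⟩ := commute_of_mem_zpowers hx2 hy2 htt htp
      have hxB : x ∈ B := by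
        by_contra hn
        exact hconj hx.symm (hCt x (Subgroup.mem_centralizer_singleton_iff.mpr hxc.eq) hx0 hn)
      have hyD : y ∈ V ⊔ B := hsup.symm ▸ Subgroup.mem_centralizer_singleton_iff.mpr hyc.eq
      rw [← SetLike.mem_coe, Subgroup.coe_mul_of_left_le_normalizer_right V B] at hyD
      · obtain ⟨v, hv, b, hb, rfl⟩ := hyD
        have hvb : ∀ g ∈ B, Commute v g := fun g hg => hcm v hv g hg
        have hv2 : v * v = 1 := by rw [← pow_two]; exact hV2 v hv
        have hb2 : b * b = 1 := by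
          have h : v * b * (v * b) = 1 := hy2
          rwa [(hvb b hb).symm.mul_mul_mul_comm, hv2, one_mul] at h
        obtain ⟨n, hn⟩ := (isOfFinOrder_of_finite _).mem_powers_iff_mem_zpowers.mpr htp
        change (x * (v * b)) ^ n = t at hn
        rw [show x * (v * b) = v * (x * b) by rw [← mul_assoc, ← (hvb x hxB).eq, mul_assoc],
          (hvb _ (mul_mem hxB hb)).mul_pow] at hn
        have h1 : (x * b) ^ n ∈ V ⊓ B := by
          refine Subgroup.mem_inf.mpr ⟨?_, pow_mem (mul_mem hxB hb) _⟩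
          rw [show (x * b) ^ n = (v ^ n)⁻¹ * t by rw [← hn, inv_mul_cancel_left]]
          exact mul_mem (inv_mem (pow_mem hv _)) htV
        rw [hdis, Subgroup.mem_bot] at h1
        rw [h1, mul_one] at hn
        have hnodd : Odd n := by
          rcases Nat.even_or_odd n with ⟨m, rfl⟩ | h
          · rw [← two_mul, pow_mul, pow_two, hv2, one_pow] at hn; exact absurd hn.symm ht1
          · exact h
        have hvt : v = t := by
          obtain ⟨m, rfl⟩ := hnodd
          rwa [pow_succ, pow_mul, pow_two, hv2, one_pow, one_mul] at hn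
        subst hvt
        have hodd : Odd (orderOf (x * b)) := hnodd.of_dvd_nat (orderOf_dvd_of_pow_eq_one h1)
        have e1 : e ⟨x, hxB⟩ * e ⟨x, hxB⟩ = 1 := by
          rw [← map_mul, show (⟨x, hxB⟩ : ↥B) * ⟨x, hxB⟩ = 1 from Subtype.ext hx2, map_one]
        have e2 : e ⟨x, hxB⟩ ≠ 1 := fun h => by
          have h0 : x = 1 := congrArg Subtype.val (e.map_eq_one_iff.mp h)
          rw [h0, orderOf_one] at hx0; omega
        have e3 : e ⟨b, hb⟩ * e ⟨b, hb⟩ = 1 := by
          rw [← map_mul, show (⟨b, hb⟩ : ↥B) * ⟨b, hb⟩ = 1 from Subtype.ext hb2, map_one]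
        rw [← hoddB ⟨x, hxB⟩ ⟨b, hb⟩] at hodd
        refine ⟨⟨(e ⟨x, hxB⟩, e ⟨b, hb⟩), ⟨e1, e2⟩, e3,
          (JTwoPattern.odd_orderOf_alt_five e1 e2 e3).mp hodd⟩, ?_⟩
        apply Subtype.ext
        simp
      · intro v hv
        rw [Subgroup.mem_normalizer_iff]
        intro b
        constructor
        · intro hb; rw [hcm v hv b hb, mul_inv_cancel_right]; exact hb
        · intro hb
          have e := hcm v⁻¹ (inv_mem hv) _ hb
          rw [show v⁻¹ * (v * b * v⁻¹) = b * v⁻¹ by group] at e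
          rw [mul_right_cancel e]; exact hb
  rw [S0213.result z t hz ht hzt (fun g hg => (hcl g hg).imp (fun h => h.symm) fun h => h.symm),
    hz_pairs, ht_pairs, hCcard, hDcard]

end Cfsg.Agent.S3313
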