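import Cfsg.Statements.S3341
import Cfsg.Agent.Lib.ElemNine.Main
import Cfsg.Agent.S0497

set_option autoImplicit false
open Cfsg

namespace Cfsg.Agent.S3341

/-- Let G be a finite simple group whose Sylow 3-subgroup S is elementary abelian of order 9, such that G has more than one conjugacy class of elements of order 3 and C_G(s) = S for every non-identity s in S. Then G is isomorphic to the alternating group of degree 6. -/
theorem result {G : Type*} [Group G] [Finite G] [IsSimpleGroup G]
    (P : Sylow 3 G) (S : Subgroup G) (hSP : S = P) (hcomm : IsMulCommutative S) (hexp : ∀ a ∈ S, a ^ 3 = 1)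
    (hcard : Nat.card S = 9)
    (hclasses : ∃ a b : G, orderOf a = 3 ∧ orderOf b = 3 ∧ ∀ g : G, g * a * g⁻¹ ≠ b)
    (hcent : ∀ s ∈ S, s ≠ 1 → Subgroup.centralizer ({s} : Set G) = S) :
    Nonempty (G ≃* alternatingGroup (Fin 6)) := by
  obtain ⟨a, b, ha, hb, hab⟩ := hclasses
  subst hSP
  have hH : Cfsg.Agent.Lib.ElemNine.Hyp P :=
    { card := hcard
      exp := hexp
      comm := fun x hx y hy => congrArg Subtype.val (hcomm.1.1 ⟨x, hx⟩ ⟨y, hy⟩)
      cent := hcent
      classes := ⟨a, b, ha, hb, fun hc => by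
        obtain ⟨g, hg⟩ := isConj_iff.1 hc
        exact hab g hg⟩ }
  exact Cfsg.Agent.S0497.result hH.card_eq

end Cfsg.Agent.S3341
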