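import Cfsg.Statements.S3349
import Mathlib

set_option autoImplicit false
open Cfsg

namespace Cfsg.Agent.S3349

/-- Let Q be a finite extraspecial p-group and α an automorphism of Q fixing every element of some maximal abelian subgroup of Q. Then the order of α is a power of p. -/
theorem result {Q : Type*} [Group Q] [Finite Q]
    (p : ℕ) [Fact p.Prime] (hQ : Cfsg.IsExtraspecial p Q) (α : MulAut Q)
    (A : Subgroup Q) (hA : IsMulCommutative A) (hmax : ∀ B : Subgroup Q, A ≤ B → IsMulCommutative B → B = A)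
    (hfix : ∀ a ∈ A, α a = a) :
    ∃ k : ℕ, orderOf α = p ^ k := by
  obtain ⟨⟨hp, -, hcomm⟩, -⟩ := hQ
  haveI := hp
  have hcent : ∀ c : Q, (∀ a ∈ A, a * c = c * a) → c ∈ A := by
    intro c hc
    let B : Subgroup Q := Subgroup.closure ((A : Set Q) ∪ {c})
    have hB : IsMulCommutative B := Subgroup.isMulCommutative_closure (by
      rintro x (hx | hx) y (hy | hy)
      · exact congrArg Subtype.val (hA.is_comm.comm ⟨x, hx⟩ ⟨y, hy⟩)
      · rw [Set.mem_singleton_iff] at hy; subst hy; exact hc x hx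
      · rw [Set.mem_singleton_iff] at hx; subst hx; exact (hc y hy).symm
      · rw [Set.mem_singleton_iff] at hx hy; rw [hx, hy])
    rw [← hmax B (fun x hx => Subgroup.subset_closure (Or.inl hx)) hB]
    exact Subgroup.subset_closure (Or.inr rfl)
  have hnorm : ∀ q : Q, ∀ a ∈ A, q⁻¹ * a * q ∈ A := by
    intro q a ha
    have h1 : q⁻¹ * a * q⁻¹⁻¹ * a⁻¹ ∈ Subgroup.center Q := by
      rw [← hcomm, commutator_def]
      exact Subgroup.commutator_mem_commutator (Subgroup.mem_top q⁻¹) (Subgroup.mem_top a)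
    have h2 : q⁻¹ * a * q⁻¹⁻¹ * a⁻¹ ∈ A := hcent _ fun b _ => Subgroup.mem_center_iff.1 h1 b
    simpa using A.mul_mem h2 ha
  have hstep : ∀ q : Q, ∃ b ∈ A, α q = q * b := by
    intro q
    refine ⟨q⁻¹ * α q, hcent _ fun a ha => ?_, by group⟩
    have h1 : (α q) * (q⁻¹ * a * q) * (α q)⁻¹ = a := by
      have := congrArg α (show q * (q⁻¹ * a * q) * q⁻¹ = a by group)
      rwa [map_mul, map_mul, map_inv, hfix a ha, hfix _ (hnorm q a ha)] at this
    rw [mul_inv_eq_iff_eq_mul] at h1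
    calc a * (q⁻¹ * α q) = a * q⁻¹ * α q := by group
      _ = q⁻¹ * (q * a * q⁻¹ * α q) := by group
      _ = q⁻¹ * (α q * (q⁻¹ * (q * a * q⁻¹) * q)) := by
        have h2 : (α q) * (q⁻¹ * (q * a * q⁻¹) * q) * (α q)⁻¹ = q * a * q⁻¹ := by
          have hqa : q * a * q⁻¹ ∈ A := by simpa using hnorm q⁻¹ a ha
          have := congrArg α (show q * (q⁻¹ * (q * a * q⁻¹) * q) * q⁻¹ = q * a * q⁻¹ by group)
          rwa [map_mul (α : Q ≃* Q), map_mul (α : Q ≃* Q), map_inv, hfix _ hqa,
            hfix _ (hnorm q _ hqa)] at this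
        rw [mul_inv_eq_iff_eq_mul] at h2
        rw [h2]
      _ = q⁻¹ * α q * a := by group
  obtain ⟨n, hn⟩ := hp.exists_card_eq
  have hpow : ∀ k : ℕ, ∀ q b : Q, b ∈ A → α q = q * b → (α ^ k) q = q * b ^ k := by
    intro k
    induction k with
    | zero => intro q b _ _; simp
    | succ k ih =>
      intro q b hb e
      rw [pow_succ', MulAut.mul_apply, ih q b hb e, map_mul, e, map_pow, hfix b hb, mul_assoc,
        ← pow_succ']
  have h1 : orderOf α ∣ p ^ n := by
    refine orderOf_dvd_of_pow_eq_one (MulEquiv.ext fun q => ?_)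
    obtain ⟨b, hb, e⟩ := hstep q
    rw [hpow _ q b hb e, ← hn, pow_card_eq_one', mul_one]
    rfl
  obtain ⟨k, -, hk⟩ := (Nat.dvd_prime_pow Fact.out).1 h1
  exact ⟨k, hk⟩

end Cfsg.Agent.S3349
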