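import Cfsg.Statements.S3361
import Mathlib
import Cfsg.Agent.Lib.Zsigmondy
import Cfsg.Agent.Lib.ZassSL25.SixTypes
import Cfsg.Agent.Lib.ZassSL25.SemiLin
import Cfsg.Agent.Lib.ZassSL25.AltFourCover

set_option autoImplicit false
open Cfsg

namespace Cfsg.Agent.S3361

open Subgroup Lib.ZassSL25
open scoped commutatorElement

section

variable {q : ℕ} [Fact q.Prime] {V : Type*} [AddCommGroup V] [Module (ZMod q) V] [Finite V] [Nontrivial V]
  {G : Type*} [Group G] [Finite G]

/-- A regular linear group has a fixed-point-free character. -/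
theorem fpfGroup_of_regular (ρ : G →* (V ≃ₗ[ZMod q] V)) (hreg : ∀ v : V, v ≠ 0 → ∀ g : G, ρ g v = v → g = 1) :
    FPFGroup G := by
  haveI := Fintype.ofFinite G
  let a : G →* MulAut (Multiplicative V) :=
    { toFun := fun g => AddEquiv.toMultiplicative (ρ g).toAddEquiv
      map_one' := MulEquiv.ext fun t => by
        show Multiplicative.ofAdd (ρ 1 t.toAdd) = t
        rw [map_one]; rfl
      map_mul' := fun g h => MulEquiv.ext fun t => by
        show Multiplicative.ofAdd (ρ (g * h) t.toAdd) = Multiplicative.ofAdd (ρ g (ρ h t.toAdd))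
        rw [map_mul]; rfl }
  obtain ⟨χ, hχ⟩ := exists_fpfChar a fun g hg t ht => by
    by_contra ht0
    exact hg (hreg t.toAdd (fun e => ht0 (Multiplicative.toAdd.injective e)) g (congrArg Multiplicative.toAdd ht))
  exact hχ.fpfGroup

/-- The order of a regular linear group. -/
theorem card_of_regular (ρ : G →* (V ≃ₗ[ZMod q] V))
    (htrans : ∀ v w : V, v ≠ 0 → w ≠ 0 → ∃ g : G, ρ g v = w)
    (hreg : ∀ v : V, v ≠ 0 → ∀ g : G, ρ g v = v → g = 1) : Nat.card G = Nat.card V - 1 := by
  classical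
  obtain ⟨v, hv⟩ := exists_ne (0 : V)
  have hne : ∀ g, ρ g v ≠ 0 := fun g h => hv ((ρ g).map_eq_zero_iff.1 h)
  have h : Function.Bijective fun g : G => (⟨ρ g v, hne g⟩ : {w : V // w ≠ 0}) := by
    refine ⟨fun g g' e => ?_, fun w => ?_⟩
    · have e' : ρ g v = ρ g' v := congrArg Subtype.val e
      refine (inv_mul_eq_one.1 (hreg v hv _ ?_)).symm
      rw [map_mul]
      show ρ g'⁻¹ (ρ g v) = v
      rw [e']
      show (ρ g'⁻¹ * ρ g') v = v
      rw [← map_mul, inv_mul_cancel, map_one]; rfl
    · obtain ⟨g, hg⟩ := htrans v w hv w.2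
      exact ⟨g, Subtype.ext hg⟩
  haveI := Fintype.ofFinite V
  rw [Nat.card_congr (Equiv.ofBijective _ h), Nat.card_eq_fintype_card, Fintype.card_subtype_compl,
    Fintype.card_subtype_eq, Nat.card_eq_fintype_card]

/-- A normal cyclic subgroup of exponent dividing `q - 1` in a transitive linear group is central. -/
theorem central_of_small_normal (ρ : G →* (V ≃ₗ[ZMod q] V)) (hρ : Function.Injective ρ)
    (htrans : ∀ v w : V, v ≠ 0 → w ≠ 0 → ∃ g : G, ρ g v = w) {a : G} (ha : a ^ (q - 1) = 1)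
    (hnorm : ∀ g : G, g⁻¹ * a * g ∈ zpowers a) : a ∈ center G := by
  classical
  obtain ⟨v, hv⟩ := exists_ne (0 : V)
  set m := q - 1 with hm
  have hm0 : 0 < m := by have := (Fact.out : q.Prime).two_le; omega
  have hpows : ∀ k w, ρ (a ^ (k + 1)) w = ρ a (ρ (a ^ k) w) := fun k w => by rw [pow_succ', map_mul]; rfl
  let x : (ZMod q)ˣ → V := fun l => ∑ i ∈ Finset.range m, ((l : ZMod q) ^ i) • ρ (a ^ i) v
  -- the sums are eigenvectors
  have hx : ∀ l : (ZMod q)ˣ, ρ a (x l) = ((l⁻¹ : (ZMod q)ˣ) : ZMod q) • x l := by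
    intro l
    have h1 : (∑ i ∈ Finset.range m, ((l : ZMod q) ^ (i + 1)) • ρ (a ^ (i + 1)) v) = x l := by
      have e : ((l : ZMod q) ^ m) • ρ (a ^ m) v = ((l : ZMod q) ^ 0) • ρ (a ^ 0) v := by
        rw [hm, ha, pow_zero, pow_zero, ← Units.val_pow_eq_pow_val, ZMod.units_pow_card_sub_one_eq_one, Units.val_one]
      have := Finset.sum_range_succ' (fun i => ((l : ZMod q) ^ i) • ρ (a ^ i) v) m
      rw [Finset.sum_range_succ, e] at this
      exact (add_right_cancel this).symm
    rw [map_sum, Finset.smul_sum]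
    calc ∑ i ∈ Finset.range m, ρ a (((l : ZMod q) ^ i) • ρ (a ^ i) v)
        = ∑ i ∈ Finset.range m, ((l⁻¹ : (ZMod q)ˣ) : ZMod q) • (((l : ZMod q) ^ (i + 1)) • ρ (a ^ (i + 1)) v) := by
          refine Finset.sum_congr rfl fun i _ => ?_
          rw [map_smul, hpows, smul_smul, pow_succ', ← mul_assoc, ← Units.val_mul, inv_mul_cancel, Units.val_one,
            one_mul]
      _ = _ := by rw [← Finset.smul_sum, h1, Finset.smul_sum]
  have hsum : ∑ l : (ZMod q)ˣ, x l = -v := by
    show ∑ l : (ZMod q)ˣ, ∑ i ∈ Finset.range m, ((l : ZMod q) ^ i) • ρ (a ^ i) v = -v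
    rw [Finset.sum_comm]
    simp_rw [← Finset.sum_smul]
    rw [Finset.sum_eq_single_of_mem 0 (Finset.mem_range.2 hm0) fun i hi hi0 => ?_]
    · rw [pow_zero, map_one, FiniteField.sum_pow_units, if_pos (dvd_zero _), neg_smul, one_smul]; rfl
    · rw [FiniteField.sum_pow_units, if_neg, zero_smul]
      rw [ZMod.card]
      exact fun hd => hi0 (Nat.eq_zero_of_dvd_of_lt hd (Finset.mem_range.1 hi))
  obtain ⟨l, hl⟩ : ∃ l, x l ≠ 0 := by
    by_contra hne
    push Not at hne
    rw [Finset.sum_eq_zero fun l _ => hne l, eq_comm, neg_eq_zero] at hsum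
    exact hv hsum
  set μ : ZMod q := ((l⁻¹ : (ZMod q)ˣ) : ZMod q)
  -- every vector is an eigenvector
  have hall : ∀ w : V, ∃ ν : ZMod q, ρ a w = ν • w := by
    intro w
    by_cases hw : w = 0
    · exact ⟨0, by rw [hw, map_zero, smul_zero]⟩
    obtain ⟨g, rfl⟩ := htrans (x l) w hl hw
    obtain ⟨k, hk⟩ := ((Submonoid.mem_powers_iff _ _).1 (mem_powers_iff_mem_zpowers.2 (hnorm g)))
    have hit : ρ (a ^ k) (x l) = μ ^ k • x l := by
      clear hk
      induction k with
      | zero => rw [pow_zero, map_one, pow_zero, one_smul]; rfl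
      | succ k ih => rw [hpows, ih, map_smul, hx, smul_smul, pow_succ]
    refine ⟨μ ^ k, ?_⟩
    rw [← map_smul, ← hit, hk]
    show (ρ a * ρ g) (x l) = (ρ g * ρ (g⁻¹ * a * g)) (x l)
    rw [← map_mul, ← map_mul]
    congr 2
    group
  -- hence it is a scalar
  have hscal : ∀ w : V, ρ a w = μ • w := by
    intro w
    obtain ⟨ν, hν⟩ := hall w
    by_cases hdep : ∃ t : ZMod q, w = t • x l
    · obtain ⟨t, rfl⟩ := hdep
      rw [map_smul, hx, smul_comm]
    obtain ⟨ξ, hξ⟩ := hall (w + x l)
    rw [map_add, hν, hx, smul_add] at hξ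
    have h1 : (ν - ξ) • w = (ξ - μ) • x l := by
      rw [sub_smul, sub_smul, sub_eq_sub_iff_add_eq_add, hξ, add_comm]
    by_cases hνξ : ν = ξ
    · rw [hνξ, sub_self, zero_smul, eq_comm, smul_eq_zero, sub_eq_zero] at h1
      rw [hν, hνξ, h1.resolve_right hl]
    · refine absurd ⟨(ν - ξ)⁻¹ * (ξ - μ), ?_⟩ hdep
      rw [← smul_smul, ← h1, smul_smul, inv_mul_cancel₀ (sub_ne_zero.2 hνξ), one_smul]
  refine mem_center_iff.2 fun g => hρ (LinearEquiv.ext fun w => ?_)
  rw [map_mul, map_mul]
  show ρ g (ρ a w) = ρ a (ρ g w)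
  rw [hscal, hscal, map_smul]

end

/-- A normal Z-group with a fixed-point-free character has a normal abelian subgroup containing an element
of each prime order, and equal to it when the derived subgroup is central. -/
theorem exists_abelian_normal {G : Type*} [Group G] [Finite G] (h : FPFGroup G) (N : Subgroup G) [N.Normal]
    [IsZGroup N] : ∃ A : Subgroup G, A.Normal ∧ IsMulCommutative A ∧ A ≤ N ∧
      (∀ p : ℕ, p.Prime → p ∣ Nat.card N → p ∣ Nat.card A) ∧ (A ≤ center G → A = N) := by
  classical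
  set C : Subgroup G := ⁅N, N⁆
  have hCN : C ≤ N := commutator_le_right N N
  haveI : C.Normal := commutator_normal N N
  haveI : IsCyclic (commutator N) := IsZGroup.isCyclic_commutator N
  haveI : IsCyclic C := by
    rw [show C = (commutator N).map N.subtype from (map_subtype_commutator N).symm]
    exact isCyclic_of_surjective _ ((commutator N).equivMapOfInjective _ N.subtype_injective).surjective
  set A : Subgroup G := N ⊓ centralizer (C : Set G)
  haveI hAn : A.Normal := inferInstance
  have hAN : A ≤ N := inf_le_left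
  have hCA : C ≤ A := le_inf hCN fun c hc => mem_centralizer_iff.2 fun d hd =>
    congrArg Subtype.val (mul_comm' (⟨d, hd⟩ : C) ⟨c, hc⟩)
  haveI : IsCyclic (Abelianization N) := by
    haveI : IsZGroup (Abelianization N) := IsZGroup.of_surjective (f := Abelianization.of) QuotientGroup.mk_surjective
    infer_instance
  let π : A →* Abelianization N := Abelianization.of.comp (inclusion hAN)
  have hπ : π.ker ≤ center A := fun x hx => mem_center_iff.2 fun y => Subtype.ext <| by
    have hxC : (x : G) ∈ C := by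
      rw [show C = (commutator N).map N.subtype from (map_subtype_commutator N).symm]
      exact ⟨inclusion hAN x, (QuotientGroup.eq_one_iff _).1 hx, rfl⟩
    exact (mem_centralizer_iff.1 y.2.2 x hxC).symm
  refine ⟨A, hAn, ⟨⟨commutative_of_cyclic_center_quotient π hπ⟩⟩, hAN, fun p hp hpN => ?_, fun hA => ?_⟩
  · haveI := Fact.mk hp
    by_cases hpC : p ∣ Nat.card C
    · exact hpC.trans (card_dvd_of_le hCA)
    obtain ⟨u0, hu0⟩ := exists_prime_orderOf_dvd_card' (G := N) p hpN
    have hu : orderOf (u0 : G) = p := by rw [Subgroup.orderOf_coe, hu0]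
    have huA : (u0 : G) ∈ A := by
      refine ⟨u0.2, mem_centralizer_iff.2 fun c hc => ?_⟩
      have hCodd : Odd (Nat.card C) := by
        obtain ⟨O, T, -, -, hOn, hOodd, -, -, hTc, -, hdec⟩ :=
          exists_odd_complement (G := N) (⊤ : Subgroup N)
            fun T _ hT => hT.isCyclic_of_isZGroup
        haveI : O.Normal := normalizer_eq_top_iff.1 (top_le_iff.1 hOn)
        rw [show Nat.card C = Nat.card (commutator N) by
          rw [show C = (commutator N).map N.subtype from (map_subtype_commutator N).symm,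
            card_map_of_injective N.subtype_injective]]
        refine Odd.of_dvd_nat hOodd (card_dvd_of_le ?_)
        rw [show commutator N = ⁅(⊤ : Subgroup N), ⊤⁆ from _root_.commutator_def N, commutator_le]
        intro s _ t _
        obtain ⟨o, ho, s', hs', rfl⟩ := hdec s (mem_top s)
        obtain ⟨o', ho', t', ht', rfl⟩ := hdec t (mem_top t)
        rw [← QuotientGroup.eq_one_iff]
        show QuotientGroup.mk' O ⁅o * s', o' * t'⁆ = 1
        rw [map_commutatorElement, commutatorElement_eq_one_iff_mul_comm, map_mul, map_mul,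
          (show QuotientGroup.mk' O o = 1 from (QuotientGroup.eq_one_iff o).2 ho),
          (show QuotientGroup.mk' O o' = 1 from (QuotientGroup.eq_one_iff o').2 ho'), one_mul, one_mul,
          ← map_mul, ← map_mul]
        haveI := hTc
        exact congrArg _ (congrArg Subtype.val (mul_comm' (⟨s', hs'⟩ : T) ⟨t', ht'⟩))
      refine mem_centralizer_singleton_iff.1 (le_centralizer_of_prime_fixed h (O := C) hCodd
        (by rw [normalizer_eq_top]; exact mem_top _) (hu.symm ▸ hp.coprime_iff_not_dvd.2 hpC) (fun v hv hvp => ?_) hc)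
      refine commute_of_prime_normalises h hvp hp rfl hu (mem_normalizer_of_forall_conj_mem ?_)
      intro w hw
      obtain ⟨t, rfl⟩ := mem_zpowers_iff.1 hw
      rw [← conj_zpow]
      refine zpow_mem ?_ t
      have hgv := (‹C.Normal›).conj_mem v hv (u0 : G)
      have hcv : Commute ((u0 : G) * v * (u0 : G)⁻¹) v :=
        congrArg Subtype.val (mul_comm' (⟨_, hgv⟩ : C) ⟨v, hv⟩)
      exact (zpowers_eq_of_commute h hvp (orderOf_conj' _ v) rfl hcv) ▸ mem_zpowers _
    exact hu ▸ Subgroup.orderOf_dvd_natCard _ huA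
  · refine le_antisymm hAN fun g hg => ⟨hg, mem_centralizer_iff.2 fun c hc => ?_⟩
    exact (mem_center_iff.1 (hA (hCA hc)) g).symm


/-- Let q be a prime and V a non-trivial finite vector space over the field with q elements, and let G be a finite solvable group acting faithfully and linearly on V and regularly on the non-zero vectors (transitively, with only the identity fixing a non-zero vector). Then either V can be identified with the additive group of a finite field F so that every element of G acts as x ↦ a·σ(x) (a ∈ F, σ a field automorphism), or V has 5^2, 7^2, 11^2 or 23^2 elements. Moreover, if q ≠ 2 then G has a normal subgroup of index 2, except that when V has 25 elements G may be isomorphic to SL(2,3) and when V has 121 elements G may be isomorphic to SL(2,3) × C₅. -/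
theorem result
    (q : ℕ) [Fact q.Prime] {V : Type*} [AddCommGroup V] [Module (ZMod q) V] [Finite V] [Nontrivial V]
    {G : Type*} [Group G] [Finite G] (hsol : Group.IsSolvable G)
    (ρ : G →* (V ≃ₗ[ZMod q] V)) (hρ : Function.Injective ρ)
    (htrans : ∀ v w : V, v ≠ 0 → w ≠ 0 → ∃ g : G, ρ g v = w)
    (hreg : ∀ v : V, v ≠ 0 → ∀ g : G, ρ g v = v → g = 1) :
    ((∃ (F : Type) (_ : Field F) (_ : Fintype F) (e : V ≃+ F),
        ∀ g : G, ∃ (a : F) (σ : F ≃+* F), ∀ v : V, e (ρ g v) = a * σ (e v)) ∨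
      Nat.card V ∈ ({25, 49, 121, 529} : Set ℕ)) ∧
    (q ≠ 2 → (∃ N : Subgroup G, N.Normal ∧ N.index = 2) ∨
      (Nat.card V = 25 ∧ Nonempty (G ≃* Matrix.SpecialLinearGroup (Fin 2) (ZMod 3))) ∨
      (Nat.card V = 121 ∧ Nonempty (G ≃* Matrix.SpecialLinearGroup (Fin 2) (ZMod 3) × Multiplicative (ZMod 5)))) := by
  classical
  set n := Module.finrank (ZMod q) V with hn
  have hq : q.Prime := Fact.out
  have hn0 : 0 < n := Module.finrank_pos
  have hVc : Nat.card V = q ^ n := by rw [Module.natCard_eq_pow_finrank (K := ZMod q), Nat.card_zmod]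
  have hGc : Nat.card G = q ^ n - 1 := by rw [card_of_regular ρ htrans hreg, hVc]
  have h2G : q ≠ 2 → 2 ∣ Nat.card G := fun h => by
    have : Odd (q ^ n) := (hq.odd_of_ne_two h).pow
    rw [hGc]; exact (Nat.Odd.sub_odd this odd_one).two_dvd
  -- the semilinear case settles both claims
  have hgood : (∃ A : Subgroup G, A.Normal ∧ IsMulCommutative A ∧
      ∀ k, 0 < k → k < n → ¬ Nat.card A ∣ q ^ k - 1) →
    ((∃ (F : Type) (_ : Field F) (_ : Fintype F) (e : V ≃+ F),
        ∀ g : G, ∃ (a : F) (σ : F ≃+* F), ∀ v : V, e (ρ g v) = a * σ (e v)) ∨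
      Nat.card V ∈ ({25, 49, 121, 529} : Set ℕ)) ∧
    (q ≠ 2 → (∃ N : Subgroup G, N.Normal ∧ N.index = 2) ∨
      (Nat.card V = 25 ∧ Nonempty (G ≃* Matrix.SpecialLinearGroup (Fin 2) (ZMod 3))) ∨
      (Nat.card V = 121 ∧ Nonempty (G ≃* Matrix.SpecialLinearGroup (Fin 2) (ZMod 3) × Multiplicative (ZMod 5)))) := by
    rintro ⟨A, hAn, hAc, hA⟩
    have hsl := semilinear_of_abelian_normal ρ A (fun v hv a _ => hreg v hv a) hA
    exact ⟨Or.inl hsl, fun h => Or.inl (index_two_of_semilinear ρ hρ hsl (h2G h))⟩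
  rcases Nat.lt_or_ge n 2 with hn2 | hn2
  · exact hgood ⟨⊥, inferInstance, inferInstance, fun k hk hk' => by omega⟩
  have h := fpfGroup_of_regular ρ hreg
  haveI := hsol
  obtain ⟨N, ⟨hNn, hNZ, hquot⟩, -⟩ := sixTypes_unique h
  haveI := hNn
  haveI := hNZ
  obtain ⟨A, hAn, hAc, hAN, hAp, hAcen⟩ := exists_abelian_normal h N
  haveI := hAn
  haveI := hAc
  have hidx : ∀ {L : Type} [Group L] (f : G →* L), Function.Surjective f → f.ker = N →
      N.index = Nat.card L := fun f hf hk => by
    rw [← hk, Subgroup.index_ker, MonoidHom.range_eq_top.2 hf, card_top]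
  -- the possible indices
  have hquot' : N = ⊤ ∨ ((N.index = 4 ∨ N.index = 24) ∧ ∃ M : Subgroup G, M.Normal ∧ M.index = 2) ∨
      (N.index = 12 ∧ ∃ f : G →* alternatingGroup (Fin 4), Function.Surjective f ∧ f.ker = N) := by
    have hnr : ∀ {L : Type} [Group L] [Finite L] (f : G →* L), Function.Surjective f → ∀ K : Subgroup L,
        K.index = 2 → ∃ M : Subgroup G, M.Normal ∧ M.index = 2 := fun f hf K hK => by
      have e : (K.comap f).index = 2 := by rw [index_comap_of_surjective _ hf, hK]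
      exact ⟨_, normal_of_index_eq_two e, e⟩
    rcases hquot with e | ⟨f, hf, hk⟩ | ⟨f, hf, hk⟩ | ⟨f, hf, hk⟩ | ⟨f, hf, hk⟩ | ⟨f, hf, hk⟩
    · exact Or.inl e
    · refine Or.inr (Or.inl ⟨Or.inl (by rw [hidx f hf hk, DihedralGroup.nat_card]), hnr f hf
        (zpowers (DihedralGroup.r 1)) ?_⟩)
      have := Subgroup.card_mul_index (zpowers (DihedralGroup.r 1 : DihedralGroup 2))
      rw [Nat.card_zpowers, DihedralGroup.orderOf_r_one, DihedralGroup.nat_card] at this
      omega
    · refine Or.inr (Or.inr ⟨?_, f, hf, hk⟩)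
      rw [hidx f hf hk, Nat.card_eq_fintype_card]; decide +kernel
    · refine Or.inr (Or.inl ⟨Or.inr (by rw [hidx f hf hk, Nat.card_perm, Nat.card_fin]; rfl), hnr f hf
        (alternatingGroup (Fin 4)) alternatingGroup.index_eq_two⟩)
    · exfalso
      haveI : Group.IsSolvable (alternatingGroup (Fin 5)) := Group.isSolvable_of_surjective hf
      exact Equiv.Perm.fin_5_not_solvable <| Group.isSolvable_of_ker_le_range (alternatingGroup (Fin 5)).subtype
        Equiv.Perm.sign (by rw [Subgroup.range_subtype, alternatingGroup_eq_sign_ker])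
    · exact absurd (Group.isSolvable_of_surjective hf) Equiv.Perm.fin_5_not_solvable
  have hindex : N.index ∣ 24 := by
    rcases hquot' with e | ⟨e | e, -⟩ | ⟨e, -⟩
    · rw [e, index_top]; exact one_dvd _
    all_goals (rw [e]) <;> norm_num
  have hcardN := N.card_mul_index
  rw [hGc] at hcardN
  rcases Nat.lt_or_ge n 3 with hn3 | hn3
  swap
  · -- there is a primitive prime divisor, or the group has order 63
    refine hgood ⟨A, hAn, hAc, fun k hk hkn hdvd => ?_⟩
    by_cases h6 : q = 2 ∧ n = 6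
    · obtain ⟨hq2, hn6⟩ := h6
      rw [hq2, hn6] at hcardN
      have h24 : N.index = 1 ∨ N.index = 3 := by
        have h1 : N.index ∣ Nat.gcd 24 63 := Nat.dvd_gcd hindex ⟨_, by rw [mul_comm, hcardN]; rfl⟩
        rw [show Nat.gcd 24 63 = 3 from rfl] at h1
        exact (Nat.dvd_prime Nat.prime_three).1 h1
      have hN : Nat.card N = 63 ∨ Nat.card N = 21 := by
        rcases h24 with e | e <;> rw [e] at hcardN <;> norm_num at hcardN <;> omega
      have h21 : 21 ∣ Nat.card A := by
        refine Nat.Coprime.mul_dvd_of_dvd_of_dvd (by norm_num : Nat.Coprime 3 7) (hAp 3 (by norm_num) ?_) (hAp 7 (by norm_num) ?_) <;>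
          rcases hN with e | e <;> rw [e] <;> norm_num
      have := h21.trans hdvd
      rw [hq2] at this
      rw [hn6] at hkn
      interval_cases k <;> norm_num at this
    obtain ⟨r, hr, hrd, hrk⟩ := Lib.Zsigmondy.exists_primitive_prime q n hq.one_lt (by omega) h6
      (fun e => by omega)
    haveI := Fact.mk hr
    have hqr : (q : ZMod r) ≠ 0 := fun e => by
      rw [ZMod.natCast_eq_zero_iff] at e
      have h1 : r ∣ q ^ n - (q ^ n - 1) := Nat.dvd_sub (dvd_pow e hn0.ne') hrd
      rw [Nat.sub_sub_self (Nat.one_le_pow _ _ hq.pos)] at h1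
      exact hr.ne_one (Nat.dvd_one.1 h1)
    have hr5 : 5 ≤ r := by
      by_contra hlt
      have h4 : r ≠ 4 := fun e => by subst e; norm_num at hr
      have hr1 : r - 1 < n ∧ 0 < r - 1 := by have := hr.two_le; omega
      refine hrk (r - 1) hr1.2 hr1.1 ?_
      rw [← ZMod.natCast_eq_zero_iff, Nat.cast_sub (Nat.one_le_pow _ _ hq.pos), Nat.cast_pow,
        ZMod.pow_card_sub_one_eq_one hqr, Nat.cast_one, sub_self]
    have hrN : r ∣ Nat.card N := by
      rcases hr.dvd_mul.1 (hcardN.symm ▸ hrd : r ∣ Nat.card N * N.index) with e | e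
      · exact e
      · have := e.trans hindex
        rw [show (24 : ℕ) = 2 ^ 3 * 3 from rfl] at this
        rcases hr.dvd_mul.1 this with e' | e'
        · have := Nat.le_of_dvd two_pos (hr.dvd_of_dvd_pow e'); omega
        · have := Nat.le_of_dvd (by norm_num) e'; omega
    exact hrk k hk hkn ((hAp r hr hrN).trans hdvd)
  have hn2' : n = 2 := by omega
  rw [hn2'] at hVc hGc hcardN
  by_cases hA : Nat.card A ∣ q - 1
  swap
  · refine hgood ⟨A, hAn, hAc, fun k hk hkn => ?_⟩
    obtain rfl : k = 1 := by omega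
    rwa [pow_one]
  -- now the Z-group is central
  have hAcentre : A ≤ center G := by
    haveI := isCyclic_of_isMulCommutative h A
    obtain ⟨a0, ha0⟩ := IsCyclic.exists_generator (α := A)
    have hz : A ≤ zpowers (a0 : G) := fun w hw => by
      obtain ⟨j, hj⟩ := mem_zpowers_iff.1 (ha0 ⟨w, hw⟩)
      exact ⟨j, show (a0 : G) ^ j = w by rw [← SubgroupClass.coe_zpow, hj]⟩
    refine hz.trans (zpowers_le.2 (central_of_small_normal ρ hρ htrans ?_ fun g => hz ?_))
    · refine orderOf_dvd_iff_pow_eq_one.1 (dvd_trans ?_ hA)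
      exact Subgroup.orderOf_dvd_natCard _ a0.2
    · simpa using hAn.conj_mem a0 a0.2 g⁻¹
  have hNA := hAcen hAcentre
  have hNc : N ≤ center G := hNA ▸ hAcentre
  have hNd : Nat.card N ∣ q - 1 := hNA ▸ hA
  have hsq : q ^ 2 - 1 = (q + 1) * (q - 1) := by rw [← Nat.sq_sub_sq, one_pow]
  have hq1 : 0 < q - 1 := by have := hq.two_le; omega
  obtain ⟨d, hd⟩ := hNd
  have hidxd : N.index = (q + 1) * d := by
    have hpos : 0 < Nat.card N := Nat.card_pos
    refine Nat.eq_of_mul_eq_mul_left hpos ?_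
    rw [hcardN, hsq, hd]; ring
  have hq24 : q + 1 ∣ 24 := (Dvd.intro d hidxd.symm).trans hindex
  have hd0 : 0 < d := Nat.pos_of_ne_zero fun e => by rw [e, mul_zero] at hd; omega
  have hq23 : q ≤ 23 := by have := Nat.le_of_dvd (by norm_num) hq24; omega
  have hqset : q = 3 ∨ q = 5 ∨ q = 7 ∨ q = 11 ∨ q = 23 := by
    rcases eq_or_ne q 2 with rfl | h2
    · exfalso
      rcases hquot' with e | ⟨e | e, -⟩ | ⟨e, -⟩ <;> (try rw [e, index_top] at hidxd) <;> (try rw [e] at hidxd) <;>
        (have : d = 1 := by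
          have := Nat.le_of_dvd one_pos (Dvd.intro_left _ hd.symm : d ∣ 2 - 1); omega) <;> omega
    · have hdec : ∀ m : Fin 24, (m : ℕ).Prime → (m : ℕ) + 1 ∣ 24 → (m : ℕ) ≠ 2 →
          (m : ℕ) = 3 ∨ (m : ℕ) = 5 ∨ (m : ℕ) = 7 ∨ (m : ℕ) = 11 ∨ (m : ℕ) = 23 := by decide +kernel
      exact hdec ⟨q, by omega⟩ hq hq24 h2
  have htop : N ≠ ⊤ := fun e => by
    rw [e, index_top] at hidxd
    have := Nat.le_of_dvd one_pos (Dvd.intro d hidxd.symm)
    omega
  have huniq : ∀ s t : G, orderOf s = 2 → orderOf t = 2 → s = t := fun s t => involution_unique h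
  by_cases hq3 : q = 3
  · -- order nine is semilinear
    subst hq3
    obtain ⟨g, hg⟩ : ∃ g, g ∉ N := by
      by_contra hno
      push Not at hno
      exact htop (eq_top_iff.2 fun g _ => hno g)
    have hN2 : Nat.card N * d = 2 := hd.symm
    have hd2 : d = 1 ∧ Nat.card N = 2 := by
      have hdle : d ≤ 2 := Nat.le_of_dvd two_pos ⟨Nat.card N, by rw [mul_comm, hN2]⟩
      rcases hquot' with e | ⟨e | e, -⟩ | ⟨e, -⟩
      · exact absurd e htop
      all_goals rw [e] at hidxd
      · have hd1 : d = 1 := by omega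
        rw [hd1, mul_one] at hN2
        exact ⟨hd1, hN2⟩
      all_goals omega
    obtain ⟨z0, hz0⟩ := exists_prime_orderOf_dvd_card' (G := N) 2 (hd2.2 ▸ dvd_rfl)
    have hg8 : orderOf g ∣ 8 := by
      have := orderOf_dvd_natCard g
      rwa [hGc] at this
    have hg4 : 4 ∣ orderOf g := by
      rw [show (8 : ℕ) = 2 ^ 3 from rfl, Nat.dvd_prime_pow Nat.prime_two] at hg8
      obtain ⟨i, -, hi⟩ := hg8
      rcases i with _ | _ | i
      · rw [pow_zero, orderOf_eq_one_iff] at hi
        exact absurd (hi ▸ one_mem N) hg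
      · refine absurd ?_ hg
        rw [huniq g (z0 : G) hi (by rw [Subgroup.orderOf_coe, hz0])]
        exact z0.2
      · exact hi ▸ (pow_dvd_pow 2 (by omega : 2 ≤ i + 2))
    have hA4 : orderOf (g ^ (orderOf g / 4)) = 4 := by
      rw [orderOf_pow_orderOf_div (orderOf_pos g).ne' hg4]
    have hB : (zpowers (g ^ (orderOf g / 4))).index = 2 := by
      have := Subgroup.card_mul_index (zpowers (g ^ (orderOf g / 4)))
      rw [Nat.card_zpowers, hA4, hGc] at this
      norm_num at this
      omega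
    refine hgood ⟨_, normal_of_index_eq_two hB, inferInstance, fun k hk hkn hdvd => ?_⟩
    obtain rfl : k = 1 := by omega
    rw [Nat.card_zpowers, hA4] at hdvd
    norm_num at hdvd
  refine ⟨Or.inr ?_, fun _ => ?_⟩
  · rw [hVc]
    rcases hqset with rfl | rfl | rfl | rfl | rfl
    · exact absurd rfl hq3
    all_goals simp
  rcases hquot' with e | ⟨-, hM⟩ | ⟨e, f, hf, hk⟩
  · exact absurd e htop
  · exact Or.inl hM
  rw [e] at hidxd
  have hq511 : (q = 5 ∧ d = 2) ∨ (q = 11 ∧ d = 1) := by
    rcases hqset with rfl | rfl | rfl | rfl | rfl <;> omega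
  rcases hq511 with ⟨rfl, rfl⟩ | ⟨rfl, rfl⟩
  · have hN2 : Nat.card N = 2 * 1 := by omega
    obtain ⟨H, hH, ⟨i⟩⟩ := sl23_of_alt_four f hf (hk ▸ hNc) (k := 1) (hk ▸ hN2) odd_one (by norm_num) huniq
    have hHtop : H = ⊤ := Subgroup.eq_top_of_card_eq H (by rw [hH, hGc]; norm_num)
    exact Or.inr (Or.inl ⟨by rw [hVc]; norm_num, ⟨(topEquiv.symm.trans (MulEquiv.subgroupCongr hHtop.symm)).trans i⟩⟩)
  · have hN10 : Nat.card N = 2 * 5 := by omega
    obtain ⟨H, hH, ⟨i⟩⟩ := sl23_of_alt_four f hf (hk ▸ hNc) (k := 5) (hk ▸ hN10) (by decide) (by norm_num) huniq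
    haveI : Fact (Nat.Prime 5) := ⟨Nat.prime_five⟩
    obtain ⟨u0, hu0⟩ := exists_prime_orderOf_dvd_card' (G := N) 5 (hN10 ▸ dvd_mul_left 5 2)
    set P := zpowers (u0 : G)
    have hP : Nat.card P = 5 := by rw [Nat.card_zpowers, Subgroup.orderOf_coe, hu0]
    have hdisj : Disjoint H P := disjoint_iff.2 (inf_eq_bot_of_coprime (by rw [hH, hP]; norm_num))
    let m : H × P →* G :=
      MonoidHom.noncommCoprod H.subtype P.subtype fun x y => by
        have : (y : G) ∈ center G := (zpowers_le.2 (hNc u0.2)) y.2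
        exact mem_center_iff.1 this x
    have hm : Function.Injective m := by
      refine (MonoidHom.noncommCoprod_injective _ _ _).2 ⟨H.subtype_injective, P.subtype_injective, ?_⟩
      rwa [Subgroup.range_subtype, Subgroup.range_subtype]
    let mE := MulEquiv.ofBijective m (hm.bijective_of_nat_card_le (by rw [Nat.card_prod, hH, hP, hGc]; norm_num))
    have hPZ : Nonempty (P ≃* Multiplicative (ZMod 5)) := ⟨(zmodCyclicMulEquiv (inferInstance : IsCyclic P)).symm.trans
      (AddEquiv.toMultiplicative (ZMod.ringEquivCongr hP).toAddEquiv)⟩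
    obtain ⟨j⟩ := hPZ
    exact Or.inr (Or.inr ⟨by rw [hVc]; norm_num, ⟨mE.symm.trans (MulEquiv.prodCongr i j)⟩⟩)

end Cfsg.Agent.S3361
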