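import Cfsg.Statements.S3360
import Mathlib
import Cfsg.Agent.S3361
import Cfsg.Agent.Lib.Hall.Solvable
import Cfsg.Agent.Lib.ZassSL25.TransLinear
import Cfsg.Agent.Lib.ZassSL25.LargePrime

set_option autoImplicit false
open Cfsg

namespace Cfsg.Agent.S3360

open Subgroup Lib.ZassSL25 Lib.ZassSL25.Transitive

section

variable {q : ℕ} [Fact q.Prime] {V : Type*} [AddCommGroup V] [Module (ZMod q) V] [Finite V] [Nontrivial V]
  {G : Type*} [Group G] [Finite G] (ρ : G →* (V ≃ₗ[ZMod q] V)) (hρ : Function.Injective ρ)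
  (htrans : ∀ v w : V, v ≠ 0 → w ≠ 0 → ∃ g : G, ρ g v = w)

include hρ htrans in
/-- An abelian normal subgroup is small or the group is semilinear. -/
theorem semilinear_or_small (A : Subgroup G) [A.Normal] [IsMulCommutative A] :
    (∃ (F : Type) (_ : Field F) (_ : Fintype F) (e : V ≃+ F),
      ∀ g : G, ∃ (a : F) (σ : F ≃+* F), ∀ v : V, e (ρ g v) = a * σ (e v)) ∨
    ∃ k, 0 < k ∧ k < Module.finrank (ZMod q) V ∧ Nat.card A ∣ q ^ k - 1 := by
  by_cases h : ∃ k, 0 < k ∧ k < Module.finrank (ZMod q) V ∧ Nat.card A ∣ q ^ k - 1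
  · exact Or.inr h
  push Not at h
  exact Or.inl (semilinear_of_abelian_normal ρ A
    (fun v hv a ha hav => semiregular ρ hρ htrans A hv ha hav) h)

include htrans in
/-- The order of a transitive linear group is divisible by the number of nonzero vectors. -/
theorem dvd_card : q ^ Module.finrank (ZMod q) V - 1 ∣ Nat.card G := by
  classical
  obtain ⟨v, hv⟩ := exists_ne (0 : V)
  letI : MulAction G V :=
    { smul := fun g w => ρ g w
      one_smul := fun w => by show ρ 1 w = w; rw [map_one]; rfl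
      mul_smul := fun g h w => by show ρ (g * h) w = ρ g (ρ h w); rw [map_mul]; rfl }
  have horb : MulAction.orbit G v = {w : V | w ≠ 0} := by
    ext w
    refine ⟨?_, fun hw => ?_⟩
    · rintro ⟨g, rfl⟩
      exact fun e => hv ((ρ g).map_eq_zero_iff.1 e)
    · obtain ⟨g, hg⟩ := htrans v w hv hw
      exact ⟨g, hg⟩
  have h := MulAction.index_stabilizer G v
  have hc : {w : V | w ≠ 0}.ncard = q ^ Module.finrank (ZMod q) V - 1 := by
    rw [show {w : V | w ≠ 0} = ({0} : Set V)ᶜ from rfl, Set.ncard_compl, Set.ncard_singleton,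
      Module.natCard_eq_pow_finrank (K := ZMod q), Nat.card_zmod]
  rw [horb, hc] at h
  exact h ▸ Subgroup.index_dvd_card _

include hρ htrans in
/-- An abelian normal subgroup of exponent dividing `q - 1` is central. -/
theorem central_of_dvd (A : Subgroup G) [hAn : A.Normal] [IsMulCommutative A] (hA : Nat.card A ∣ q - 1) :
    A ≤ center G := by
  haveI := isCyclic_of_normal ρ hρ htrans A
  obtain ⟨a0, ha0⟩ := IsCyclic.exists_generator (α := A)
  have hz : A ≤ zpowers (a0 : G) := fun w hw => by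
    obtain ⟨j, hj⟩ := mem_zpowers_iff.1 (ha0 ⟨w, hw⟩)
    exact ⟨j, show (a0 : G) ^ j = w by rw [← SubgroupClass.coe_zpow, hj]⟩
  refine hz.trans (zpowers_le.2 (S3361.central_of_small_normal ρ hρ htrans ?_ fun g => hz ?_))
  · exact orderOf_dvd_iff_pow_eq_one.1 (dvd_trans (Subgroup.orderOf_dvd_natCard _ a0.2) hA)
  · simpa using hAn.conj_mem a0 a0.2 g⁻¹

include hρ htrans in
/-- Two normal abelian subgroups of coprime order generate a normal abelian subgroup. -/
theorem exists_abelian_mul (A B : Subgroup G) [A.Normal] [B.Normal] [IsMulCommutative A] [IsMulCommutative B]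
    (hcop : (Nat.card A).Coprime (Nat.card B)) :
    ∃ M : Subgroup G, M.Normal ∧ IsMulCommutative M ∧ Nat.card A * Nat.card B ∣ Nat.card M := by
  have hd : Disjoint A B := disjoint_iff.2 (Lib.Coprime.inf_eq_bot_of_coprime hcop)
  refine ⟨A ⊔ B, inferInstance, ?_, hcop.mul_dvd_of_dvd_of_dvd (card_dvd_of_le le_sup_left) (card_dvd_of_le le_sup_right)⟩
  rw [sup_eq_closure]
  refine isMulCommutative_closure ?_
  rintro a (ha | ha) b (hb | hb)
  · exact congrArg Subtype.val (mul_comm' (⟨a, ha⟩ : A) ⟨b, hb⟩)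
  · exact (Subgroup.commute_of_normal_of_disjoint A B inferInstance inferInstance hd a b ha hb).eq
  · exact (Subgroup.commute_of_normal_of_disjoint A B inferInstance inferInstance hd b a hb ha).eq.symm
  · exact congrArg Subtype.val (mul_comm' (⟨a, ha⟩ : B) ⟨b, hb⟩)

/-- Elements centralising every core centralise the Fitting subgroup. -/
theorem mem_centralizer_fitting {g : G}
    (h : ∀ (s : ℕ) [Fact s.Prime], ∀ x ∈ Cfsg.pCore s G, Commute g x) :
    g ∈ centralizer (Cfsg.fittingSubgroup G : Set G) := by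
  rw [← zpowers_le, le_centralizer_iff, Lib.Components.fittingSubgroup_eq_iSup, iSup_le_iff]
  rintro ⟨s, hs⟩ x hx
  haveI := Fact.mk hs
  rw [mem_centralizer_iff]
  rintro y hy
  obtain ⟨k, rfl⟩ := mem_zpowers_iff.1 hy
  exact ((h s x hx).zpow_left k).eq

/-- A prime dividing the Fitting subgroup gives an abelian normal subgroup of order divisible by it. -/
theorem exists_abelian_of_dvd_fitting {r : ℕ} [hr : Fact r.Prime] (hd : r ∣ Nat.card (Cfsg.fittingSubgroup G)) :
    ∃ A : Subgroup G, A.Normal ∧ IsMulCommutative A ∧ r ∣ Nat.card A ∧ IsPGroup r A := by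
  classical
  haveI := Lib.Components.fittingSubgroup_nilpotent (G := G)
  set F := Cfsg.fittingSubgroup G
  haveI : F.Normal := inferInstance
  let P : Sylow r F := default
  have hPn : (P : Subgroup F).Normal := inferInstance
  haveI := Sylow.characteristic_of_normal P hPn
  have hPm : IsPGroup r ((P : Subgroup F).map F.subtype) := P.2.map _
  haveI : ((P : Subgroup F).map F.subtype).Normal := inferInstance
  have hle := Lib.Components.le_pCore hPm
  have hO : IsPGroup r (Cfsg.pCore r G) := Lib.Components.pCore_isPGroup r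
  have hne : Nontrivial (Cfsg.pCore r G) := by
    rw [nontrivial_iff_ne_bot]
    intro e
    rw [e, le_bot_iff, map_eq_bot_iff_of_injective _ F.subtype_injective] at hle
    have := P.dvd_card_of_dvd_card hd
    rw [hle, card_bot] at this
    exact hr.1.ne_one (Nat.dvd_one.1 this)
  haveI := hO.center_nontrivial
  set Z := (center (Cfsg.pCore r G)).map (Cfsg.pCore r G).subtype
  have hZp : IsPGroup r Z := (hO.to_subgroup _).map _
  refine ⟨Z, inferInstance, ?_, ?_, hZp⟩
  · refine ⟨⟨?_⟩⟩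
    rintro ⟨_, a, ha, rfl⟩ ⟨_, b, hb, rfl⟩
    exact Subtype.ext (congrArg (Cfsg.pCore r G).subtype (mem_center_iff.1 hb a))
  · rw [card_map_of_injective (subtype_injective _)]
    obtain ⟨k, hk⟩ := (hO.to_subgroup (center (Cfsg.pCore r G))).exists_card_eq
    rw [hk]
    refine dvd_pow_self r ?_
    rintro rfl
    rw [pow_zero] at hk
    exact absurd hk (Finite.one_lt_card).ne'

omit [Fact q.Prime] [Finite V] [Nontrivial V] in
/-- A class two configuration cannot have prime index over its centre. -/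
theorem relIndex_not_prime {Z D : Subgroup G} [Z.Normal] (hZD : Z ≤ D) (hcen : ∀ d ∈ D, ∀ z ∈ Z, Commute d z)
    (hmax : ∀ x ∈ D, (∀ d ∈ D, Commute d x) → x ∈ Z) : ¬ (Z.relIndex D).Prime := by
  intro hp
  haveI := Fact.mk hp
  haveI : IsCyclic (D ⧸ Z.subgroupOf D) := isCyclic_of_prime_card (p := Z.relIndex D) rfl
  have hle : (QuotientGroup.mk' (Z.subgroupOf D)).ker ≤ center D := fun x hx => mem_center_iff.2 fun y => by
    rw [QuotientGroup.ker_mk'] at hx
    exact Subtype.ext (hcen y y.2 x hx).eq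
  have hab := commutative_of_cyclic_center_quotient _ hle
  have : D ≤ Z := fun x hx => hmax x hx fun d hd => congrArg Subtype.val (hab ⟨d, hd⟩ ⟨x, hx⟩)
  rw [relIndex_eq_one.2 this] at hp
  exact Nat.not_prime_one hp

include hρ htrans in
/-- The primes of the dimension two case. -/
theorem two_dim [Group.IsSolvable G] (hn : Module.finrank (ZMod q) V = 2)
    (hns : ∀ A : Subgroup G, A.Normal → IsMulCommutative A → Nat.card A ∣ q - 1) :
    q = 3 ∨ q = 5 ∨ q = 7 ∨ q = 11 ∨ q = 23 := by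
  classical
  have hq : q.Prime := Fact.out
  have hG := dvd_card ρ htrans
  rw [hn] at hG
  have hq1 : 0 < q - 1 := by have := hq.two_le; omega
  have hsq : q ^ 2 - 1 = (q + 1) * (q - 1) := by rw [← Nat.sq_sub_sq, one_pow]
  have hab : ∀ A : Subgroup G, A.Normal → IsMulCommutative A → A ≤ center G := fun A hA hA' =>
    central_of_dvd ρ hρ htrans A (hns A hA hA')
  have key : ∀ (s : ℕ) [Fact s.Prime], ∃ Z D : Subgroup G, Z.Normal ∧ D.Normal ∧ IsMulCommutative Z ∧ Z ≤ D ∧
      Z ≤ center G ∧ D ≤ Cfsg.pCore s G ∧ (∀ d ∈ D, ∀ x ∈ D, d * x * d⁻¹ * x⁻¹ ∈ Z) ∧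
      (∀ x ∈ D, (∀ d ∈ D, Commute d x) → x ∈ Z) ∧ (∀ d ∈ D, d ^ s ∈ Z) ∧
      ((Z.relIndex D = 1 ∧ Cfsg.pCore s G ≤ center G) ∨ (s = 2 ∧ Z.relIndex D = 4)) := by
    intro s _
    obtain ⟨Z, D, hZn, hDn, hZc, hZD, hDO, hcen, hcomm, hmax, hpw, hcrit⟩ := exists_critical_core (G := G) s
    have hZcen := hab Z hZn hZc
    refine ⟨Z, D, hZn, hDn, hZc, hZD, hZcen, hDO, hcomm, hmax, hpw, ?_⟩
    have hle := (relIndex_le_sq ρ hρ htrans Z D hcen hcomm hmax).1
    rw [hn] at hle
    have hp : IsPGroup s D := (Lib.Components.pCore_isPGroup s).to_le hDO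
    obtain ⟨k, hk⟩ := (hp.to_quotient (Z.subgroupOf D)).exists_card_eq
    change Z.relIndex D = s ^ k at hk
    rw [hk] at hle ⊢
    have hs := (Fact.out : s.Prime)
    rcases k with _ | _ | k
    · left
      refine ⟨pow_zero s, fun x hx => hZcen (hcrit x hx fun d hd => ?_)⟩
      rw [pow_zero, relIndex_eq_one] at hk
      exact mem_center_iff.1 (hZcen (hk hd)) x |>.symm
    · exact absurd (by rw [hk, zero_add, pow_one]; exact hs) (relIndex_not_prime hZD hcen hmax)
    · right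
      have h1 : s ^ 2 ≤ s ^ (k + 1 + 1) := Nat.pow_le_pow_right hs.pos (by omega)
      have h2 : s = 2 := le_antisymm ((Nat.pow_le_pow_iff_left two_ne_zero).1 (by omega : s ^ 2 ≤ 2 ^ 2)) hs.two_le
      subst h2
      refine ⟨rfl, ?_⟩
      have : k + 1 + 1 ≤ 2 := (Nat.pow_le_pow_iff_right one_lt_two).1 hle
      rw [show k + 1 + 1 = 2 by omega]; rfl
  haveI : Fact (Nat.Prime 2) := ⟨Nat.prime_two⟩
  obtain ⟨Z, D, hZn, hDn, hZc, hZD, hZcen, hDO, hcomm, hmax, hpw, halt⟩ := key 2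
  rcases halt with ⟨-, hO⟩ | ⟨-, h4⟩
  · exfalso
    have hFc : Cfsg.fittingSubgroup G ≤ center G := by
      rw [Lib.Components.fittingSubgroup_eq_iSup, iSup_le_iff]
      rintro ⟨s, hs⟩
      haveI := Fact.mk hs
      obtain ⟨_, _, _, _, _, _, _, _, _, _, _, h⟩ := key s
      rcases h with ⟨-, h⟩ | ⟨h, -⟩
      · exact h
      · subst h; exact hO
    have htop : ∀ g : G, g ∈ center G := fun g => hFc (Lib.Hall.centralizer_fittingSubgroup_le
      (mem_centralizer_iff.2 fun x hx => (mem_center_iff.1 (hFc hx) g).symm))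
    haveI : IsMulCommutative (⊤ : Subgroup G) :=
      ⟨⟨fun a b => Subtype.ext (mem_center_iff.1 (htop b) a)⟩⟩
    have h1 := hns ⊤ inferInstance inferInstance
    rw [card_top] at h1
    have := Nat.le_of_dvd hq1 (hG.trans h1)
    rw [hsq] at this
    have : 3 * (q - 1) ≤ (q + 1) * (q - 1) := Nat.mul_le_mul_right _ (by have := hq.two_le; omega)
    omega
  haveI := hZn
  haveI := hDn
  haveI := hZc
  have hcen : ∀ d ∈ D, ∀ z ∈ Z, Commute d z := fun d _ z hz => mem_center_iff.1 (hZcen hz) d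
  -- the centraliser is central
  set C := centralizer (D : Set G)
  haveI : C.Normal := inferInstance
  have hC : C ≤ center G := fun g hg => mem_center_iff.2 fun h =>
    ((relIndex_le_sq ρ hρ htrans Z D hcen hcomm hmax).2 (by rw [h4, hn]; rfl) g
      (fun d hd => (mem_centralizer_iff.1 hg d hd).symm) h).eq.symm
  haveI : IsMulCommutative C := ⟨⟨fun a b => Subtype.ext (mem_center_iff.1 (hC b.2) a)⟩⟩
  have hCd : Nat.card C ∣ q - 1 := hns C inferInstance inferInstance
  -- three cosets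
  let Q := D ⧸ Z.subgroupOf D
  letI := Fintype.ofFinite Q
  have hQ : Nat.card Q = 4 := h4
  obtain ⟨w₁, hw₁⟩ : ∃ w : Q, w ≠ 1 := by
    haveI : Nontrivial Q := Finite.one_lt_card_iff_nontrivial.1 (by rw [hQ]; norm_num)
    exact exists_ne 1
  obtain ⟨w₂, hw₂, hw₂₁⟩ : ∃ w : Q, w ≠ 1 ∧ w ≠ w₁ := by
    by_contra hno
    push Not at hno
    have hsub : (Finset.univ : Finset Q) ⊆ {1, w₁} := fun w _ => by
      by_cases hw : w = 1
      · simp [hw]
      · simp [hno w hw]
    have := (Finset.card_le_card hsub).trans Finset.card_le_two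
    rw [Finset.card_univ, ← Nat.card_eq_fintype_card, hQ] at this
    omega
  have hQ2 : ∀ w : Q, w * w = 1 := fun w => by
    obtain ⟨d, rfl⟩ := QuotientGroup.mk_surjective w
    rw [← QuotientGroup.mk_mul, QuotientGroup.eq_one_iff, ← pow_two]
    exact hpw d d.2
  have hall : ∀ w : Q, w = 1 ∨ w = w₁ ∨ w = w₂ ∨ w = w₁ * w₂ := by
    have h12 : w₁ * w₂ ≠ 1 := fun e => hw₂₁ (mul_left_cancel (e.trans (hQ2 w₁).symm))
    have h12a : w₁ * w₂ ≠ w₁ := fun e => hw₂ (mul_eq_left.1 e)
    have h12b : w₁ * w₂ ≠ w₂ := fun e => hw₁ (mul_eq_right.1 e)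
    have hc : ({1, w₁, w₂, w₁ * w₂} : Finset Q).card = 4 := by
      simp [Finset.card_insert_of_notMem, hw₁.symm, hw₂.symm, hw₂₁.symm, h12.symm, h12a.symm, h12b.symm]
    have hu := Finset.eq_univ_of_card _ (hc.trans (hQ ▸ Nat.card_eq_fintype_card (α := Q)))
    intro w
    have := Finset.mem_univ w
    rw [← hu] at this
    simpa using this
  obtain ⟨x₁, hx₁⟩ := QuotientGroup.mk_surjective w₁
  obtain ⟨x₂, hx₂⟩ := QuotientGroup.mk_surjective w₂
  have hgenD : ∀ g : G, Commute g x₁ → Commute g x₂ → g ∈ C := fun g h1 h2 => by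
    refine mem_centralizer_iff.2 fun d hd => ?_
    have hz : ∀ z ∈ Z, Commute g z := fun z hz => mem_center_iff.1 (hZcen hz) g
    have hrep : ∀ e : D, Commute g e → (QuotientGroup.mk e : Q) = QuotientGroup.mk ⟨d, hd⟩ → Commute g d := fun e he hq => by
      have hm : (e : G)⁻¹ * d ∈ Z := mem_subgroupOf.1 ((QuotientGroup.eq (s := Z.subgroupOf D)).1 hq)
      have := he.mul_right (hz _ hm)
      rwa [mul_inv_cancel_left] at this
    refine (show Commute g d from ?_).eq.symm
    rcases hall (QuotientGroup.mk ⟨d, hd⟩) with e | e | e | e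
    · exact hrep 1 (by simp) (by rw [e]; rfl)
    · exact hrep x₁ h1 (hx₁.trans e.symm)
    · exact hrep x₂ h2 (hx₂.trans e.symm)
    · exact hrep (x₁ * x₂) (h1.mul_right h2) (by rw [QuotientGroup.mk_mul, hx₁, hx₂, e])
  -- permutations of the nontrivial cosets
  let cjQ : G → Q →* Q := fun g => QuotientGroup.map _ _ (MulAut.conjNormal g : MulAut D).toMonoidHom
    (fun d hd => hZn.conj_mem _ hd g)
  have hcj1 : ∀ d : D, cjQ 1 (d : Q) = d := fun d => by
    show ((MulAut.conjNormal (1 : G) : MulAut D) d : Q) = d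
    rw [map_one]; rfl
  have hcjm : ∀ g h : G, ∀ w : Q, cjQ (g * h) w = cjQ g (cjQ h w) := fun g h w => by
    obtain ⟨d, rfl⟩ := QuotientGroup.mk_surjective w
    show ((MulAut.conjNormal (g * h) : MulAut D) d : Q) = ((MulAut.conjNormal g : MulAut D) ((MulAut.conjNormal h : MulAut D) d) : Q)
    rw [map_mul]; rfl
  have hcjne : ∀ g : G, ∀ w : Q, w ≠ 1 → cjQ g w ≠ 1 := fun g w hw e => hw (by
    have := congrArg (cjQ g⁻¹) e
    rw [← hcjm, inv_mul_cancel, map_one] at this
    obtain ⟨d, rfl⟩ := QuotientGroup.mk_surjective w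
    rwa [hcj1] at this)
  letI : MulAction G {w : Q // w ≠ 1} :=
    { smul := fun g w => ⟨cjQ g w.1, hcjne g w.1 w.2⟩
      one_smul := fun w => Subtype.ext (by
        show cjQ 1 w.1 = w.1
        obtain ⟨d, hd⟩ := QuotientGroup.mk_surjective w.1
        rw [← hd, hcj1])
      mul_smul := fun g h w => Subtype.ext (hcjm g h w.1) }
  let φ := MulAction.toPermHom G {w : Q // w ≠ 1}
  have hφ : φ.ker.index ∣ 6 := by
    rw [Subgroup.index_ker]
    refine (Subgroup.card_subgroup_dvd_card _).trans ?_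
    rw [Nat.card_perm, Nat.card_eq_fintype_card (α := {w : Q // w ≠ 1}), Fintype.card_subtype_compl,
      Fintype.card_subtype_eq, ← Nat.card_eq_fintype_card, hQ]
    rfl
  set K := φ.ker
  have hK : ∀ g ∈ K, ∀ d : D, g * d * g⁻¹ * (d : G)⁻¹ ∈ Z := fun g hg d => by
    have h1 : cjQ g (d : Q) = d := by
      by_cases hd : (d : Q) = 1
      · rw [hd, map_one]
      · exact congrArg Subtype.val (Equiv.Perm.ext_iff.1 (MonoidHom.mem_ker.1 hg) ⟨(d : Q), hd⟩)
    have h2 : ((MulAut.conjNormal g : MulAut D) d : Q) = d := h1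
    rw [QuotientGroup.eq, mem_subgroupOf] at h2
    have h3 := hZn.conj_mem _ (inv_mem h2) d
    simp only [Subgroup.coe_mul, Subgroup.coe_inv, MulAut.conjNormal_apply] at h3
    have : (d : G) * ((g * d * g⁻¹)⁻¹ * d)⁻¹ * (d : G)⁻¹ = g * d * g⁻¹ * (d : G)⁻¹ := by
      group
    rwa [this] at h3
  -- the kernel maps into two elementary groups
  set T : Subgroup G :=
    { carrier := {z | z ∈ Z ∧ z ^ 2 = 1}
      one_mem' := ⟨one_mem _, one_pow 2⟩
      mul_mem' := fun {a b} ha hb => ⟨mul_mem ha.1 hb.1, by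
        rw [(show Commute a b from mem_center_iff.1 (hZcen hb.1) a).mul_pow, ha.2, hb.2, one_mul]⟩
      inv_mem' := fun {a} ha => ⟨inv_mem ha.1, by rw [inv_pow, ha.2, inv_one]⟩ }
  haveI := isCyclic_of_normal ρ hρ htrans Z
  haveI : IsCyclic T := isCyclic_of_injective (inclusion (fun z hz => hz.1 : T ≤ Z)) (inclusion_injective _)
  have hT : Nat.card T ∣ 2 := by
    obtain ⟨t, ht⟩ := IsCyclic.exists_ofOrder_eq_natCard (α := T)
    rw [← ht]
    exact orderOf_dvd_of_pow_eq_one (Subtype.ext t.2.2)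
  let comp : D → (K →* T) := fun d =>
    { toFun := fun g => ⟨(g : G) * d * (g : G)⁻¹ * (d : G)⁻¹, hK g g.2 d, by
        set z := (g : G) * d * (g : G)⁻¹ * (d : G)⁻¹ with hzdef
        have hz : z ∈ Z := hK g g.2 d
        have e1 : (g : G) * d * (g : G)⁻¹ = z * d := by simp [hzdef]
        have e2 : ((g : G) * d * (g : G)⁻¹) ^ 2 = (d : G) ^ 2 := by
          rw [conj_pow, mem_center_iff.1 (hZcen (hpw d d.2)) (g : G), mul_inv_cancel_right]
        rw [e1, (show Commute (d : G) z from mem_center_iff.1 (hZcen hz) (d : G)).symm.mul_pow] at e2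
        exact mul_eq_right.1 e2⟩
      map_one' := Subtype.ext (by simp)
      map_mul' := fun g h => Subtype.ext (by
        show (g : G) * h * d * ((g : G) * h)⁻¹ * (d : G)⁻¹ =
          (g : G) * d * (g : G)⁻¹ * (d : G)⁻¹ * ((h : G) * d * (h : G)⁻¹ * (d : G)⁻¹)
        set z := (h : G) * d * (h : G)⁻¹ * (d : G)⁻¹ with hzdef
        have hz := mem_center_iff.1 (hZcen (hK h h.2 d))
        rw [show (g : G) * h * d * ((g : G) * h)⁻¹ * (d : G)⁻¹ =
            (g : G) * z * (g : G)⁻¹ * ((g : G) * d * (g : G)⁻¹ * (d : G)⁻¹) by rw [hzdef]; group,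
          hz (g : G), mul_inv_cancel_right]
        exact (hz _).symm) }
  let ψ : K →* T × T := (comp x₁).prod (comp x₂)
  have hψ : ψ.ker.index ∣ 4 := by
    rw [Subgroup.index_ker]
    refine (Subgroup.card_subgroup_dvd_card _).trans ?_
    rw [Nat.card_prod]
    exact Nat.mul_dvd_mul hT hT
  have hψC : Nat.card ψ.ker ∣ Nat.card C := by
    rw [← card_map_of_injective K.subtype_injective (K := ψ.ker)]
    refine card_dvd_of_le ?_
    rintro _ ⟨g, hg, rfl⟩
    have h := MonoidHom.mem_ker.1 hg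
    exact hgenD g
      (mul_inv_eq_iff_eq_mul.1 (mul_inv_eq_one.1 (congrArg (fun p : T × T => (p.1 : G)) h)))
      (mul_inv_eq_iff_eq_mul.1 (mul_inv_eq_one.1 (congrArg (fun p : T × T => (p.2 : G)) h)))
  have hfin : (q + 1) * (q - 1) ∣ 24 * (q - 1) := by
    rw [← hsq]
    refine hG.trans ?_
    rw [← Subgroup.card_mul_index K, ← Subgroup.card_mul_index ψ.ker]
    calc Nat.card ψ.ker * ψ.ker.index * K.index ∣ (q - 1) * 4 * 6 :=
          Nat.mul_dvd_mul (Nat.mul_dvd_mul (hψC.trans hCd) hψ) hφ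
      _ = 24 * (q - 1) := by ring
  have h24 : q + 1 ∣ 24 := (Nat.mul_dvd_mul_iff_right hq1).1 hfin
  have hq23 : q ≤ 23 := by have := Nat.le_of_dvd (by norm_num) h24; omega
  have hq2 : q ≠ 2 := fun e => by
    subst e
    rw [show (2 : ℕ) - 1 = 1 from rfl] at hns
    have h1 := Nat.dvd_one.1 (hns Z inferInstance inferInstance)
    have hbot : Z = ⊥ := Subgroup.card_eq_one.1 h1
    have hDZ : D ≤ Z := fun x hx => hmax x hx fun d hd => by
      have h2 := hcomm d hd x hx
      rw [hbot, mem_bot, mul_inv_eq_one, mul_inv_eq_iff_eq_mul] at h2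
      exact h2
    rw [relIndex_eq_one.2 hDZ] at h4
    norm_num at h4
  have hdec : ∀ m : Fin 24, (m : ℕ).Prime → (m : ℕ) + 1 ∣ 24 → (m : ℕ) ≠ 2 →
      (m : ℕ) = 3 ∨ (m : ℕ) = 5 ∨ (m : ℕ) = 7 ∨ (m : ℕ) = 11 ∨ (m : ℕ) = 23 := by decide +kernel
  exact hdec ⟨q, by omega⟩ hq h24 hq2

include hρ htrans in
/-- An element of large prime order moving some core forces very special parameters. -/
theorem large_prime_core {n r : ℕ} (hn : Module.finrank (ZMod q) V = n) (hn2 : 2 ≤ n) (hr : r.Prime) (hnr : n < r)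
    {u : G} (hu : orderOf u = r) {s : ℕ} [Fact s.Prime] (hsr : s ≠ r) (Z D : Subgroup G) (hZn : Z.Normal)
    (hDn : D.Normal) (hZc : IsMulCommutative Z) (hZD : Z ≤ D) (hDO : D ≤ Cfsg.pCore s G)
    (hcen : ∀ d ∈ D, ∀ z ∈ Z, Commute d z) (hcomm : ∀ d ∈ D, ∀ x ∈ D, d * x * d⁻¹ * x⁻¹ ∈ Z)
    (hmax : ∀ x ∈ D, (∀ d ∈ D, Commute d x) → x ∈ Z) (hpw : ∀ d ∈ D, d ^ s ∈ Z)
    (hcrit : ∀ x ∈ Cfsg.pCore s G, (∀ d ∈ D, Commute d x) → x ∈ Z) :
    (∀ x ∈ Cfsg.pCore s G, Commute u x) ∨
      (s = 2 ∧ r = n + 1 ∧ (∃ i, n = 2 ^ i) ∧ Z.relIndex D = n ^ 2 ∧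
        ∀ d ∈ D, u * d * u⁻¹ * d⁻¹ ∈ Z → d ∈ Z) := by
  classical
  haveI := hZn
  haveI := hDn
  haveI := hZc
  have huZ : ∀ z ∈ Z, Commute u z := fun z hz =>
    commute_of_large_prime ρ hρ htrans Z (e := 1) hr (hn ▸ hnr) (by rw [hu, pow_one]) hz
  have hsO : ∀ c ∈ Cfsg.pCore s G, ∃ k, c ^ s ^ k = 1 := fun c hc => by
    obtain ⟨k, hk⟩ := Lib.Components.pCore_isPGroup s ⟨c, hc⟩
    exact ⟨k, congrArg Subtype.val hk⟩
  by_cases hfix : ∀ d ∈ D, u * d * u⁻¹ * d⁻¹ ∈ Z
  · left
    have hcD : ∀ d ∈ D, Commute u d := fun d hd => by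
      refine commute_of_step (e := 1) hr (Fact.out : s.Prime) hsr.symm (by rw [hu, pow_one]) (c := u * d * u⁻¹ * d⁻¹) ?_
        (huZ _ (hfix d hd)) (hsO _ (hDO (hZD (hfix d hd))))
      rw [(hcen d hd _ (hfix d hd)).eq]; group
    intro x hx
    set c := x⁻¹ * (u * x * u⁻¹) with hcdef
    have hcO : c ∈ Cfsg.pCore s G := mul_mem (inv_mem hx) ((inferInstance : (Cfsg.pCore s G).Normal).conj_mem x hx u)
    have hcZ : c ∈ Z := hcrit c hcO fun d hd => by
      have h1 : x * d * x⁻¹ ∈ D := hDn.conj_mem d hd x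
      have h2 : u * (x * d * x⁻¹) * u⁻¹ = x * d * x⁻¹ := by rw [(hcD _ h1).eq]; group
      have h3 : u * d * u⁻¹ = d := by rw [(hcD d hd).eq]; group
      have h4 : c * d * c⁻¹ = d := by
        calc c * d * c⁻¹ = x⁻¹ * ((u * x * u⁻¹) * (u * d * u⁻¹) * (u * x * u⁻¹)⁻¹) * x := by
              rw [hcdef, h3]; group
          _ = x⁻¹ * (u * (x * d * x⁻¹) * u⁻¹) * x := by group
          _ = d := by rw [h2]; group
      exact (mul_inv_eq_iff_eq_mul.1 h4).symm
    exact commute_of_step (e := 1) hr (Fact.out : s.Prime) hsr.symm (by rw [hu, pow_one]) (c := c)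
      (by rw [hcdef]; group) (huZ c hcZ) (hsO c hcO)
  right
  push Not at hfix
  obtain ⟨d₀, hd₀, hd₀Z⟩ := hfix
  -- the quotient as a vector space
  letI : CommGroup (D ⧸ Z.subgroupOf D) :=
    { (inferInstance : Group (D ⧸ Z.subgroupOf D)) with
      mul_comm := fun a b => by
        obtain ⟨a, rfl⟩ := QuotientGroup.mk_surjective a
        obtain ⟨b, rfl⟩ := QuotientGroup.mk_surjective b
        rw [← QuotientGroup.mk_mul, ← QuotientGroup.mk_mul, QuotientGroup.eq, mem_subgroupOf]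
        have := hcomm _ (inv_mem b.2) _ (inv_mem a.2)
        rw [inv_inv, inv_inv] at this
        simpa [mul_assoc] using this }
  letI : CommGroup Z := { (inferInstance : Group Z) with mul_comm := mul_comm' }
  let br : D → D →* Z := fun d =>
    { toFun := fun x => ⟨(d : G) * x * (d : G)⁻¹ * (x : G)⁻¹, hcomm d d.2 x x.2⟩
      map_one' := Subtype.ext (by simp)
      map_mul' := fun x y => Subtype.ext (by
        show (d : G) * (x * y) * (d : G)⁻¹ * ((x : G) * y)⁻¹ =
          (d : G) * x * (d : G)⁻¹ * (x : G)⁻¹ * ((d : G) * y * (d : G)⁻¹ * (y : G)⁻¹)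
        set z := (d : G) * y * (d : G)⁻¹ * (y : G)⁻¹ with hzdef
        rw [show (d : G) * (x * y) * (d : G)⁻¹ * ((x : G) * y)⁻¹ = (d : G) * x * (d : G)⁻¹ * (z * (x : G)⁻¹) by
          rw [hzdef]; group, ← ((hcen _ (inv_mem x.2) z (hcomm d d.2 y y.2)).eq)]
        group) }
  have hbrZ : ∀ d : D, Z.subgroupOf D ≤ (br d).ker := fun d z hz => Subtype.ext (by
    show (d : G) * z * (d : G)⁻¹ * (z : G)⁻¹ = 1
    rw [(hcen d d.2 z hz).eq]; group)
  let br1 : D →* (D ⧸ Z.subgroupOf D →* Z) :=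
    { toFun := fun d => QuotientGroup.lift _ (br d) (hbrZ d)
      map_one' := MonoidHom.ext fun w => by
        obtain ⟨x, rfl⟩ := QuotientGroup.mk_surjective w
        exact Subtype.ext (show (1 : G) * x * (1 : G)⁻¹ * (x : G)⁻¹ = 1 by group)
      map_mul' := fun d e => MonoidHom.ext fun w => by
        obtain ⟨x, rfl⟩ := QuotientGroup.mk_surjective w
        refine Subtype.ext ?_
        show (d : G) * e * x * ((d : G) * e)⁻¹ * (x : G)⁻¹ =
          (d : G) * x * (d : G)⁻¹ * (x : G)⁻¹ * ((e : G) * x * (e : G)⁻¹ * (x : G)⁻¹)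
        set z := (e : G) * x * (e : G)⁻¹ * (x : G)⁻¹ with hzdef
        rw [show (d : G) * e * x * ((d : G) * e)⁻¹ * (x : G)⁻¹ =
            (d : G) * z * (d : G)⁻¹ * ((d : G) * x * (d : G)⁻¹ * (x : G)⁻¹) by rw [hzdef]; group,
          (hcen d d.2 z (hcomm e e.2 x x.2)).eq, mul_inv_cancel_right]
        exact congrArg Subtype.val (mul_comm' (⟨z, hcomm e e.2 x x.2⟩ : Z) ⟨_, hcomm d d.2 x x.2⟩) }
  let br2 : D ⧸ Z.subgroupOf D →* (D ⧸ Z.subgroupOf D →* Z) := QuotientGroup.lift _ br1 fun z hz =>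
    MonoidHom.ext fun w => by
      obtain ⟨x, rfl⟩ := QuotientGroup.mk_surjective w
      exact Subtype.ext (show (z : G) * x * (z : G)⁻¹ * (x : G)⁻¹ = 1 by rw [← (hcen x x.2 z hz).eq]; group)
  let eQ : D ⧸ Z.subgroupOf D →* D ⧸ Z.subgroupOf D :=
    QuotientGroup.map _ _ (MulAut.conjNormal u : MulAut D).toMonoidHom (fun d hd => hZn.conj_mem _ hd u)
  have hpowe : ∀ (i : ℕ) (d : D), eQ^[i] (d : D ⧸ Z.subgroupOf D) =
      (((MulAut.conjNormal (u ^ i) : MulAut D) d : D) : D ⧸ Z.subgroupOf D) := by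
    intro i
    induction i with
    | zero => intro d; rw [pow_zero, map_one]; rfl
    | succ i ih =>
      intro d
      rw [Function.iterate_succ_apply', ih, pow_succ' u, map_mul]
      rfl
  have hexp : ∀ x : D ⧸ Z.subgroupOf D, x ^ s = 1 := fun x => by
    obtain ⟨d, rfl⟩ := QuotientGroup.mk_surjective x
    rw [← QuotientGroup.mk_pow, QuotientGroup.eq_one_iff]
    exact hpw d d.2
  have hnd : ∀ a, (∀ b, br2 a b = 1) → a = 1 := fun a ha => by
    obtain ⟨x, rfl⟩ := QuotientGroup.mk_surjective a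
    refine (QuotientGroup.eq_one_iff x).2 (hmax x x.2 fun d hd => ?_)
    have h3 : (x : G) * d * (x : G)⁻¹ * d⁻¹ = 1 :=
      congrArg Subtype.val (ha ((⟨d, hd⟩ : D) : D ⧸ Z.subgroupOf D))
    rw [mul_inv_eq_one, mul_inv_eq_iff_eq_mul] at h3
    exact h3.symm
  have her : ∀ a, eQ^[r] a = a := fun a => by
    obtain ⟨d, rfl⟩ := QuotientGroup.mk_surjective a
    rw [hpowe, ← hu, pow_orderOf_eq_one, map_one]
    rfl
  have he : ∃ a, eQ a ≠ a := by
    refine ⟨((⟨d₀, hd₀⟩ : D) : D ⧸ Z.subgroupOf D), fun h => hd₀Z ?_⟩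
    have h' : (((MulAut.conjNormal u : MulAut D) ⟨d₀, hd₀⟩ : D) : D ⧸ Z.subgroupOf D) = (⟨d₀, hd₀⟩ : D) := h
    rw [QuotientGroup.eq, mem_subgroupOf] at h'
    have := hZn.conj_mem _ (inv_mem h') d₀
    simp only [Subgroup.coe_mul, Subgroup.coe_inv, MulAut.conjNormal_apply] at this
    convert this using 1
    group
  have hc : ∀ a b, br2 (eQ a) (eQ b) = br2 a b := fun a b => by
    obtain ⟨x, rfl⟩ := QuotientGroup.mk_surjective a
    obtain ⟨y, rfl⟩ := QuotientGroup.mk_surjective b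
    refine Subtype.ext ?_
    show (u * x * u⁻¹) * (u * y * u⁻¹) * (u * x * u⁻¹)⁻¹ * (u * y * u⁻¹)⁻¹ =
      (x : G) * y * (x : G)⁻¹ * (y : G)⁻¹
    have hz := (huZ _ (hcomm x x.2 y y.2)).eq
    calc (u * x * u⁻¹) * (u * y * u⁻¹) * (u * x * u⁻¹)⁻¹ * (u * y * u⁻¹)⁻¹
        = u * ((x : G) * y * (x : G)⁻¹ * (y : G)⁻¹) * u⁻¹ := by group
      _ = (x : G) * y * (x : G)⁻¹ * (y : G)⁻¹ := by rw [hz]; group
  obtain ⟨hs2, hrn, hk, hi, hfp⟩ := large_prime_bracket hr hsr.symm hnr hn2 hexp br2 hnd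
    (by rw [← hn]; exact (relIndex_le_sq ρ hρ htrans Z D hcen hcomm hmax).1) eQ her he hc
  refine ⟨hs2, hrn, hi, hk, fun d hd hdu => ?_⟩
  refine (QuotientGroup.eq_one_iff (⟨d, hd⟩ : D)).1 (hfp _ ?_)
  show (((MulAut.conjNormal u : MulAut D) ⟨d, hd⟩ : D) : D ⧸ Z.subgroupOf D) = _
  rw [QuotientGroup.eq, mem_subgroupOf]
  have := hZn.conj_mem _ (inv_mem hdu) d⁻¹
  simp only [Subgroup.coe_mul, Subgroup.coe_inv, MulAut.conjNormal_apply]
  convert this using 1
  group

end


/-- Let q be a prime and V a non-trivial finite vector space over the field with q elements, and let G be a finite solvable group acting faithfully and linearly on V and transitively on the non-zero vectors. Then either V can be identified with the additive group of a finite field F in such a way that every element of G acts as x ↦ a·σ(x) for some a ∈ F and some field automorphism σ, or the number of elements of V is one of 3^2, 5^2, 7^2, 11^2, 23^2, 3^4. -/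
theorem result
    (q : ℕ) [Fact q.Prime] {V : Type*} [AddCommGroup V] [Module (ZMod q) V] [Finite V] [Nontrivial V]
    {G : Type*} [Group G] [Finite G] (hsol : Group.IsSolvable G)
    (ρ : G →* (V ≃ₗ[ZMod q] V)) (hρ : Function.Injective ρ)
    (htrans : ∀ v w : V, v ≠ 0 → w ≠ 0 → ∃ g : G, ρ g v = w) :
    (∃ (F : Type) (_ : Field F) (_ : Fintype F) (e : V ≃+ F),
        ∀ g : G, ∃ (a : F) (σ : F ≃+* F), ∀ v : V, e (ρ g v) = a * σ (e v)) ∨
    Nat.card V ∈ ({9, 25, 49, 121, 529, 81} : Set ℕ) := by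
  classical
  haveI := hsol
  set n := Module.finrank (ZMod q) V with hn
  have hq : q.Prime := Fact.out
  have hn0 : 0 < n := Module.finrank_pos
  have hVc : Nat.card V = q ^ n := by rw [Module.natCard_eq_pow_finrank (K := ZMod q), Nat.card_zmod]
  by_cases hsl : ∃ (F : Type) (_ : Field F) (_ : Fintype F) (e : V ≃+ F),
      ∀ g : G, ∃ (a : F) (σ : F ≃+* F), ∀ v : V, e (ρ g v) = a * σ (e v)
  · exact Or.inl hsl
  right
  have hsmall : ∀ A : Subgroup G, A.Normal → IsMulCommutative A →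
      ∃ k, 0 < k ∧ k < n ∧ Nat.card A ∣ q ^ k - 1 := fun A hA hA' =>
    (semilinear_or_small ρ hρ htrans A).resolve_left hsl
  obtain ⟨k₀, hk₀, hk₀n, -⟩ := hsmall ⊥ inferInstance inferInstance
  have hG := dvd_card ρ htrans
  rw [← hn] at hG
  rcases Nat.lt_or_ge n 3 with hn3 | hn3
  · have hn2 : n = 2 := by omega
    have := two_dim ρ hρ htrans hn2 fun A hA hA' => by
      obtain ⟨k, hk, hkn, hd⟩ := hsmall A hA hA'
      obtain rfl : k = 1 := by omega
      rwa [pow_one] at hd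
    rw [hVc, hn2]
    rcases this with rfl | rfl | rfl | rfl | rfl <;> simp
  have hs_ne_q : ∀ s : ℕ, s.Prime → s ∣ Nat.card (Cfsg.fittingSubgroup G) → s ≠ q := fun s hs hd e => by
    haveI := Fact.mk hs
    obtain ⟨A, hA, hA', hsA, -⟩ := exists_abelian_of_dvd_fitting hd
    obtain ⟨k, hk, hkn, hdd⟩ := hsmall A hA hA'
    have h1 : q ∣ q ^ k - 1 := by have h0 := hsA.trans hdd; rwa [e] at h0
    have h2 : q ∣ q ^ k - (q ^ k - 1) := Nat.dvd_sub (dvd_pow_self q hk.ne') h1
    rw [Nat.sub_sub_self (Nat.one_le_pow _ _ hq.pos)] at h2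
    exact hq.ne_one (Nat.dvd_one.1 h2)
  -- a large prime moves the two-core
  haveI : Fact (Nat.Prime 2) := ⟨Nat.prime_two⟩
  obtain ⟨Z, D, hZn, hDn, hZc, hZD, hDO, hcen, hcomm, hmax, hpw, hcrit⟩ := exists_critical_core (G := G) 2
  have key : ∀ r : ℕ, r.Prime → n < r → ¬ r ∣ Nat.card (Cfsg.fittingSubgroup G) → ∀ u : G, orderOf u = r →
      q ≠ 2 ∧ r = n + 1 ∧ (∃ i, n = 2 ^ i) ∧
        Z.relIndex D = n ^ 2 ∧ ∀ d ∈ D, u * d * u⁻¹ * d⁻¹ ∈ Z → d ∈ Z := by
    intro r hr hnr hrF u hu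
    haveI := Fact.mk hr
    by_contra hno
    have hall : ∀ (s : ℕ) [Fact s.Prime], ∀ x ∈ Cfsg.pCore s G, Commute u x := by
      intro s hs x hx
      haveI := hs
      by_cases hxo : x = 1
      · rw [hxo]; exact Commute.one_right u
      have hsF : s ∣ Nat.card (Cfsg.fittingSubgroup G) := by
        refine dvd_trans ?_ (orderOf_dvd_natCard (⟨x, Lib.Components.pCore_le_fittingSubgroup s hx⟩ : Cfsg.fittingSubgroup G))
        rw [orderOf_mk]
        obtain ⟨k, hk⟩ := Lib.Components.pCore_isPGroup s ⟨x, hx⟩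
        obtain ⟨i, -, hi⟩ := (Nat.dvd_prime_pow hs.1).1 (orderOf_dvd_of_pow_eq_one (congrArg Subtype.val hk : x ^ s ^ k = 1))
        rw [hi]
        refine dvd_pow_self s ?_
        rintro rfl
        exact hxo (orderOf_eq_one_iff.1 hi)
      have hsr : s ≠ r := fun e => hrF (e ▸ hsF)
      by_cases hs2 : s = 2
      · subst hs2
        rcases large_prime_core ρ hρ htrans hn.symm (by omega) hr hnr hu hsr Z D hZn hDn hZc hZD hDO hcen hcomm hmax
          hpw hcrit with h | ⟨-, hrn, hi, h4, h6⟩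
        · exact h x hx
        · exact absurd ⟨fun e => hs_ne_q 2 Nat.prime_two hsF e.symm, hrn, hi, h4, h6⟩ hno
      · obtain ⟨Z', D', h1, h2, h3, h4, h5, h6, h7, h8, h9, h10⟩ := exists_critical_core (G := G) s
        rcases large_prime_core ρ hρ htrans hn.symm (by omega) hr hnr hu hsr Z' D' h1 h2 h3 h4 h5 h6 h7 h8
          h9 h10 with h | ⟨h, -⟩
        · exact h x hx
        · exact absurd h hs2
    have hmem := Lib.Hall.centralizer_fittingSubgroup_le (mem_centralizer_fitting hall)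
    exact hrF (hu ▸ Subgroup.orderOf_dvd_natCard _ hmem)
  by_cases h6 : q = 2 ∧ n = 6
  · -- the exceptional case of Zsigmondy
    exfalso
    obtain ⟨hq2, hn6⟩ := h6
    rw [hn6, hq2] at hG
    haveI : Fact (Nat.Prime 7) := ⟨by norm_num⟩
    obtain ⟨u, hu⟩ := exists_prime_orderOf_dvd_card' (G := G) 7 (dvd_trans (by norm_num) hG)
    have h7F : 7 ∣ Nat.card (Cfsg.fittingSubgroup G) := by
      by_contra h7
      exact (key 7 (by norm_num) (by omega) h7 u hu).1 hq2
    obtain ⟨A, hA, hA', h7A, hA7⟩ := exists_abelian_of_dvd_fitting h7F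
    have honly : ∀ s : ℕ, s.Prime → s ∣ Nat.card (Cfsg.fittingSubgroup G) → s = 7 := by
      intro s hs hsF
      by_contra h7
      haveI := Fact.mk hs
      obtain ⟨B, hB, hB', hsB, hBs⟩ := exists_abelian_of_dvd_fitting hsF
      obtain ⟨a, ha⟩ := hA7.exists_card_eq
      obtain ⟨b, hb⟩ := hBs.exists_card_eq
      obtain ⟨M, hM, hM', hd⟩ := exists_abelian_mul ρ hρ htrans A B (by
        rw [ha, hb]; exact Nat.Coprime.pow _ _ ((Nat.coprime_primes (by norm_num) hs).2 (Ne.symm h7)))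
      obtain ⟨k, hk, hkn, hkd⟩ := hsmall M hM hM'
      have h1 : 7 * s ∣ 2 ^ k - 1 := hq2 ▸ ((Nat.mul_dvd_mul h7A hsB).trans hd).trans hkd
      have h2 := hs.two_le
      rw [hn6] at hkn
      interval_cases k
      all_goals norm_num at h1
      all_goals
        have := Nat.le_of_dvd (by norm_num) h1
        have h3 : s ≤ 4 := by omega
        interval_cases s <;> norm_num at h1
    set O := Cfsg.pCore 7 G
    have hFO : Cfsg.fittingSubgroup G ≤ O := by
      rw [Lib.Components.fittingSubgroup_eq_iSup, iSup_le_iff]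
      rintro ⟨s, hs⟩ x hx
      haveI := Fact.mk hs
      by_cases hx1 : x = 1
      · rw [hx1]; exact one_mem _
      have hsF : s ∣ Nat.card (Cfsg.fittingSubgroup G) := by
        refine dvd_trans ?_ (Subgroup.orderOf_dvd_natCard _ (Lib.Components.pCore_le_fittingSubgroup s hx))
        obtain ⟨k, hk⟩ := Lib.Components.pCore_isPGroup s ⟨x, hx⟩
        obtain ⟨i, -, hi⟩ := (Nat.dvd_prime_pow hs).1 (orderOf_dvd_of_pow_eq_one (congrArg Subtype.val hk : x ^ s ^ k = 1))
        rw [hi]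
        refine dvd_pow_self s ?_
        rintro rfl
        exact hx1 (orderOf_eq_one_iff.1 hi)
      obtain rfl := honly s hs hsF
      exact hx
    obtain ⟨Z, D, hZn, hDn, hZc, hZD, hDO, hcen, hcomm, hmax, hpw, hcrit⟩ := exists_critical_core (G := G) 7
    haveI := hZn
    haveI := hZc
    have hOZ : O ≤ Z := by
      intro x hx
      have h1 := (relIndex_le_sq ρ hρ htrans Z D hcen hcomm hmax).1
      rw [← hn, hn6] at h1
      obtain ⟨k, hk⟩ := ((((Lib.Components.pCore_isPGroup 7).to_le hDO)).to_quotient (Z.subgroupOf D)).exists_card_eq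
      change Z.relIndex D = 7 ^ k at hk
      rcases k with _ | _ | k
      · rw [pow_zero, relIndex_eq_one] at hk
        refine hcrit x hx fun d hd => ?_
        obtain ⟨m, hm⟩ := Lib.Components.pCore_isPGroup 7 ⟨x, hx⟩
        obtain ⟨i, -, hi⟩ := (Nat.dvd_prime_pow (by norm_num : Nat.Prime 7)).1
          (orderOf_dvd_of_pow_eq_one (congrArg Subtype.val hm : x ^ 7 ^ m = 1))
        exact (commute_of_large_prime ρ hρ htrans Z (by norm_num : Nat.Prime 7) (by omega) hi (hk hd)).symm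
      · exact absurd (by rw [hk]; norm_num) (relIndex_not_prime hZD hcen hmax)
      · have : 7 ^ 2 ≤ 7 ^ (k + 1 + 1) := Nat.pow_le_pow_right (by norm_num) (by omega)
        omega
    haveI : O.Normal := inferInstance
    haveI hOc : IsMulCommutative O :=
      ⟨⟨fun a b => Subtype.ext (congrArg (fun z : Z => (z : G)) (mul_comm' (⟨a, hOZ a.2⟩ : Z) ⟨b, hOZ b.2⟩) :)⟩⟩
    have hO7 : Nat.card O ∣ 7 := by
      obtain ⟨k, hk, hkn, hkd⟩ := hsmall O inferInstance hOc
      obtain ⟨a, ha⟩ := (Lib.Components.pCore_isPGroup (G := G) 7).exists_card_eq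
      rw [hq2, ha] at hkd
      rw [ha]
      rcases a with _ | _ | a
      · exact one_dvd _
      · norm_num
      · exfalso
        have h49 : 49 ∣ 2 ^ k - 1 := (pow_dvd_pow 7 (by omega : 2 ≤ a + 1 + 1)).trans hkd
        rw [hn6] at hkn
        interval_cases k <;> norm_num at h49
    have hker : (MulAut.conjNormal (H := O)).ker ≤ O := fun g hg => hFO (Lib.Hall.centralizer_fittingSubgroup_le
      (mem_centralizer_iff.2 fun y hy => by
        have := congrArg Subtype.val (DFunLike.congr_fun (MonoidHom.mem_ker.1 hg) ⟨y, hFO hy⟩)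
        rw [MulAut.conjNormal_apply] at this
        exact (mul_inv_eq_iff_eq_mul.1 this).symm))
    haveI := isCyclic_of_normal ρ hρ htrans O
    have haut : Nat.card (MulAut O) ∣ 6 := by
      rw [IsCyclic.card_mulAut]
      rcases (Nat.dvd_prime (by norm_num)).1 hO7 with e | e <;> rw [e]
      · simp
      · rw [Nat.totient_prime (by norm_num)]
    have hfin : Nat.card G ∣ 7 * 6 := by
      rw [← Subgroup.card_mul_index (MulAut.conjNormal (H := O)).ker, Subgroup.index_ker]
      exact Nat.mul_dvd_mul ((card_dvd_of_le hker).trans hO7) ((Subgroup.card_subgroup_dvd_card _).trans haut)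
    have := hG.trans hfin
    norm_num at this
  obtain ⟨r, hr, hrd, hrk⟩ := Lib.Zsigmondy.exists_primitive_prime q n hq.one_lt (by omega) h6 (fun e => by omega)
  have hprim : ∀ l : ℕ, l.Prime → l ∣ q ^ n - 1 → (∀ k, 0 < k → k < n → ¬ l ∣ q ^ k - 1) →
      n < l ∧ ¬ l ∣ Nat.card (Cfsg.fittingSubgroup G) := by
    intro l hl hld hlk
    haveI := Fact.mk hl
    have hql : (q : ZMod l) ≠ 0 := fun e => by
      rw [ZMod.natCast_eq_zero_iff] at e
      have h1 : l ∣ q ^ n - (q ^ n - 1) := Nat.dvd_sub (dvd_pow e hn0.ne') hld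
      rw [Nat.sub_sub_self (Nat.one_le_pow _ _ hq.pos)] at h1
      exact hl.ne_one (Nat.dvd_one.1 h1)
    refine ⟨?_, fun hd => ?_⟩
    · by_contra hlt
      have := hl.two_le
      refine hlk (l - 1) (by omega) (by omega) ?_
      rw [← ZMod.natCast_eq_zero_iff, Nat.cast_sub (Nat.one_le_pow _ _ hq.pos), Nat.cast_pow,
        ZMod.pow_card_sub_one_eq_one hql, Nat.cast_one, sub_self]
    · obtain ⟨A, hA, hA', hlA, -⟩ := exists_abelian_of_dvd_fitting hd
      obtain ⟨k, hk, hkn, hkd⟩ := hsmall A hA hA'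
      exact hlk k hk hkn (hlA.trans hkd)
  obtain ⟨hnr, hrF⟩ := hprim r hr hrd hrk
  haveI := Fact.mk hr
  obtain ⟨u₀, hu₀⟩ := exists_prime_orderOf_dvd_card' (G := G) r (hrd.trans hG)
  obtain ⟨hq2, hrn, ⟨i, hi⟩, hidx, -⟩ := key r hr hnr hrF u₀ hu₀
  -- the Sylow subgroup has prime order
  have hsyl : ¬ r ^ 2 ∣ Nat.card G := by
    intro h2
    let P : Sylow r G := default
    have hPd : r ^ 2 ∣ Nat.card P :=
      P.card_eq_multiplicity ▸ pow_dvd_pow r ((hr.pow_dvd_iff_le_factorization Nat.card_pos.ne').1 h2)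
    obtain ⟨a, ha⟩ := P.2.exists_card_eq
    have h2a : 2 ≤ a := (Nat.pow_dvd_pow_iff_le_right hr.one_lt).1 (ha ▸ hPd)
    haveI := hZn
    haveI := hDn
    let cjQ : G → D ⧸ Z.subgroupOf D →* D ⧸ Z.subgroupOf D := fun g =>
      QuotientGroup.map _ _ (MulAut.conjNormal g : MulAut D).toMonoidHom (fun d hd => hZn.conj_mem _ hd g)
    have hcjm : ∀ g h : G, ∀ w, cjQ (g * h) w = cjQ g (cjQ h w) := fun g h w => by
      obtain ⟨d, rfl⟩ := QuotientGroup.mk_surjective w
      show ((MulAut.conjNormal (g * h) : MulAut D) d : D ⧸ Z.subgroupOf D) =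
        ((MulAut.conjNormal g : MulAut D) ((MulAut.conjNormal h : MulAut D) d) : D ⧸ Z.subgroupOf D)
      rw [map_mul]; rfl
    have hcj1 : ∀ w, cjQ 1 w = w := fun w => by
      obtain ⟨d, rfl⟩ := QuotientGroup.mk_surjective w
      show ((MulAut.conjNormal (1 : G) : MulAut D) d : D ⧸ Z.subgroupOf D) = d
      rw [map_one]; rfl
    letI : MulAction (P : Subgroup G) {w : D ⧸ Z.subgroupOf D // w ≠ 1} :=
      { smul := fun g w => ⟨cjQ g w.1, fun e => w.2 (by
          have := congrArg (cjQ (g : G)⁻¹) e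
          rwa [← hcjm, inv_mul_cancel, hcj1, map_one] at this)⟩
        one_smul := fun w => Subtype.ext (hcj1 w.1)
        mul_smul := fun g h w => Subtype.ext (hcjm g h w.1) }
    have hstab : ∀ w : {w : D ⧸ Z.subgroupOf D // w ≠ 1}, MulAction.stabilizer (P : Subgroup G) w = ⊥ := by
      intro w
      by_contra hne
      set S := MulAction.stabilizer (P : Subgroup G) w
      obtain ⟨b, hb⟩ := (P.2.to_subgroup S).exists_card_eq
      have hb0 : b ≠ 0 := by rintro rfl; rw [pow_zero] at hb; exact hne (Subgroup.card_eq_one.1 hb)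
      obtain ⟨v, hv⟩ := exists_prime_orderOf_dvd_card' (G := S) r (hb ▸ dvd_pow_self r hb0)
      obtain ⟨-, -, -, -, hfp⟩ := key r hr hnr hrF (v.1.1 : G)
        (by rw [Subgroup.orderOf_coe, Subgroup.orderOf_coe, hv])
      obtain ⟨d, hd⟩ := QuotientGroup.mk_surjective w.1
      refine w.2 ?_
      rw [← hd, QuotientGroup.eq_one_iff]
      refine hfp d d.2 ?_
      have h1 : cjQ (v.1.1 : G) (d : D ⧸ Z.subgroupOf D) = d := by
        rw [hd]; exact congrArg Subtype.val v.2
      have h2 : ((MulAut.conjNormal (v.1.1 : G) : MulAut D) d : D ⧸ Z.subgroupOf D) = d := h1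
      rw [QuotientGroup.eq, mem_subgroupOf] at h2
      have := hZn.conj_mem _ (inv_mem h2) (d : G)
      simp only [Subgroup.coe_mul, Subgroup.coe_inv, MulAut.conjNormal_apply] at this
      convert this using 1
      group
    have h := Nat.card_congr (MulAction.selfEquivOrbitsQuotientProd hstab)
    haveI := Fintype.ofFinite (D ⧸ Z.subgroupOf D)
    rw [Nat.card_prod, ha, Nat.card_eq_fintype_card, Fintype.card_subtype_compl, Fintype.card_subtype_eq,
      ← Nat.card_eq_fintype_card, show Nat.card (D ⧸ Z.subgroupOf D) = n ^ 2 from hidx] at h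
    have h1 : r ^ 2 ∣ (n + 1) * (n - 1) := by
      rw [← Nat.sq_sub_sq, one_pow]
      exact (pow_dvd_pow r h2a).trans (h ▸ dvd_mul_left _ _)
    rw [hrn, sq] at h1
    have := Nat.le_of_dvd (by omega) ((Nat.mul_dvd_mul_iff_left (by omega)).1 h1)
    omega
  -- all prime divisors of the half-sum
  have hi2 : 2 ≤ i := by
    by_contra hlt
    interval_cases i <;> omega
  obtain ⟨m, hm⟩ : ∃ m, n = 2 * m := ⟨2 ^ (i - 1), by rw [hi, ← pow_succ']; congr 1; omega⟩
  have hm2 : Even m := by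
    rw [show m = 2 ^ (i - 1) from by rw [hi, show i = i - 1 + 1 by omega, pow_succ'] at hm; omega]
    exact (Nat.even_pow).2 ⟨even_two, by omega⟩
  have hodd : Odd (q ^ m) := (hq.odd_of_ne_two hq2).pow
  obtain ⟨x, hx⟩ : ∃ x, q ^ m + 1 = 2 * x := ⟨(q ^ m + 1) / 2, by
    obtain ⟨c, hc⟩ := hodd; omega⟩
  have hxodd : Odd x := by
    obtain ⟨m', rfl⟩ := hm2
    obtain ⟨c, hc⟩ := (hq.odd_of_ne_two hq2).pow (n := m')
    rw [← two_mul, pow_mul', hc] at hx
    refine ⟨c * c + c, ?_⟩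
    linarith [hx, (by ring : (2 * c + 1) ^ 2 + 1 = 2 * (2 * (c * c + c) + 1))]
  have hfac : q ^ n - 1 = (q ^ m + 1) * (q ^ m - 1) := by
    rw [← Nat.sq_sub_sq, one_pow, ← pow_mul, mul_comm m 2, ← hm]
  have hxd : x ∣ q ^ n - 1 := by
    rw [hfac, hx]
    exact ⟨2 * (q ^ m - 1), by ring⟩
  have hlx : ∀ l, l.Prime → l ∣ x → l = r := by
    intro l hl hlx
    haveI := Fact.mk hl
    have hl2 : l ≠ 2 := by
      rintro rfl
      exact (Nat.not_even_iff_odd.2 hxodd) (even_iff_two_dvd.2 hlx)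
    have hld : l ∣ q ^ n - 1 := hlx.trans hxd
    have hqm : (q : ZMod l) ^ m = -1 := by
      have : ((q ^ m + 1 : ℕ) : ZMod l) = 0 := (ZMod.natCast_eq_zero_iff _ _).2 (hlx.trans ⟨2, by rw [hx, mul_comm]⟩)
      push_cast at this
      exact eq_neg_of_add_eq_zero_left this
    haveI : Fact (2 < l) := ⟨by have := hl.two_le; omega⟩
    have hqn : (q : ZMod l) ^ n = 1 := by rw [hm, mul_comm, pow_mul, hqm, neg_one_sq]
    have hprime : ∀ k, 0 < k → k < n → ¬ l ∣ q ^ k - 1 := fun k hk hkn hd => by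
      have hk1 : (q : ZMod l) ^ k = 1 := by
        have : ((q ^ k - 1 : ℕ) : ZMod l) = 0 := (ZMod.natCast_eq_zero_iff _ _).2 hd
        rw [Nat.cast_sub (Nat.one_le_pow _ _ hq.pos), Nat.cast_pow, Nat.cast_one, sub_eq_zero] at this
        exact this
      have hg : orderOf (q : ZMod l) ∣ n := orderOf_dvd_of_pow_eq_one hqn
      rw [hi, Nat.dvd_prime_pow Nat.prime_two] at hg
      obtain ⟨j, hji, hj⟩ := hg
      have hjlt : j < i := by
        by_contra hge
        have := Nat.le_of_dvd hk (orderOf_dvd_of_pow_eq_one hk1)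
        rw [hj, show j = i by omega, ← hi] at this
        omega
      have : orderOf (q : ZMod l) ∣ m := by
        rw [hj, show m = 2 ^ (i - 1) from by rw [hi, show i = i - 1 + 1 by omega, pow_succ'] at hm; omega]
        exact pow_dvd_pow 2 (by omega)
      rw [orderOf_dvd_iff_pow_eq_one, hqm] at this
      exact ZMod.neg_one_ne_one this
    obtain ⟨hnl, hlF⟩ := hprim l hl hld hprime
    obtain ⟨w, hw⟩ := exists_prime_orderOf_dvd_card' (G := G) l (hld.trans hG)
    rw [hrn]
    exact (key l hl hnl hlF w hw).2.1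
  have hxr : x ≤ n + 1 := by
    rw [← hrn]
    refine Nat.le_of_dvd hr.pos ?_
    refine (Nat.dvd_iff_prime_pow_dvd_dvd r x).2 fun l e hl hle => ?_
    rcases e with _ | _ | e
    · exact one_dvd _
    · rw [zero_add, pow_one] at hle ⊢
      rw [hlx l hl hle]
    · exfalso
      obtain rfl := hlx l hl (dvd_trans (dvd_pow_self l (by omega)) hle)
      exact hsyl (((pow_dvd_pow l (by omega : 2 ≤ e + 1 + 1)).trans hle).trans (hxd.trans hG))
  have hbound : q ^ m ≤ 4 * m + 1 := by omega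
  have hq3 : 3 ≤ q := by have := hq.two_le; omega
  have hm_eq : m = 2 := by
    by_contra hne
    have hm4 : 4 ≤ m := by
      obtain ⟨c, hc⟩ := hm2
      omega
    have h3 : ∀ t, 4 ≤ t → 4 * t + 1 < 3 ^ t := by
      intro t ht
      induction t, ht using Nat.le_induction with
      | base => norm_num
      | succ t ht ih => rw [pow_succ]; omega
    have := h3 m hm4
    have := Nat.pow_le_pow_left hq3 m
    omega
  have hq3' : q = 3 := by
    rw [hm_eq] at hbound
    have : q ≤ 3 := (Nat.pow_le_pow_iff_left two_ne_zero).1 (by omega : q ^ 2 ≤ 3 ^ 2)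
    omega
  rw [hVc, hm, hm_eq, hq3']
  norm_num

end Cfsg.Agent.S3360
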