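import Cfsg.Statements.S3371
import Cfsg.Agent.Lib.HalfTransP.TwoGroup
import Cfsg.Agent.Lib.HalfTransP.Monomial
import Cfsg.Agent.S0126

set_option autoImplicit false
open Cfsg

namespace Cfsg.Agent.S3371

open Cfsg.Agent.Lib.AvoidConj Cfsg.Agent.Lib.HalfTransP

universe u v

/-- A reducible half-transitive coprime action is semiregular. -/
theorem semi_of_reducible {G : Type u} [Group G] [Finite G] {q : ℕ} [Fact q.Prime] {V : Type v} [AddCommGroup V]
    [Module (ZMod q) V] [Finite V] (σ : G →* AddMonoid.End V) (hinj : ∀ g : G, σ g = 1 → g = 1) {s : ℕ}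
    (hhalf : ∀ v : V, v ≠ 0 → Nat.card (stab σ v) = s) (hcop : (Nat.card G).Coprime (Nat.card V))
    (W : AddSubgroup V) (hW : ∀ g, ∀ v ∈ W, σ g v ∈ W) (hW0 : W ≠ ⊥) (hW1 : W ≠ ⊤) : Semi σ := by
  classical
  haveI := Fintype.ofFinite G
  obtain ⟨C, hC⟩ := (AddSubgroup.toZModSubmodule q W).exists_isCompl
  obtain ⟨π, hπW, hπ⟩ : ∃ π : V →+ V, (∀ v, π v ∈ W) ∧ ∀ w ∈ W, π w = w := by
    refine ⟨((AddSubgroup.toZModSubmodule q W).subtype.comp
      ((AddSubgroup.toZModSubmodule q W).projectionOnto C hC)).toAddMonoidHom, fun v => ?_, fun w hw => ?_⟩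
    · exact (((AddSubgroup.toZModSubmodule q W).projectionOnto C hC) v).2
    · exact congrArg Subtype.val (Submodule.projectionOnto_apply_left hC ⟨w, hw⟩)
  let P : V →+ V := ∑ g : G, ((σ g).comp π).comp (σ g⁻¹)
  have hP : ∀ v, P v = ∑ g : G, σ g (π (σ g⁻¹ v)) := fun v => by simp [P]; rfl
  have hPW : ∀ v, P v ∈ W := fun v => by
    rw [hP]; exact sum_mem fun g _ => hW g _ (hπW _)
  have hPfix : ∀ w ∈ W, P w = Nat.card G • w := fun w hw => by
    rw [hP, Finset.sum_congr rfl (fun g _ => by rw [hπ _ (hW _ _ hw), rho_cancel_inv] :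
      ∀ g ∈ Finset.univ, σ g (π (σ g⁻¹ w)) = w), Finset.sum_const, Finset.card_univ, Nat.card_eq_fintype_card]
  have hPeq : ∀ h v, P (σ h v) = σ h (P v) := fun h v => by
    rw [hP, hP, map_sum]
    refine (Fintype.sum_equiv (Equiv.mulLeft h) _ _ fun g => ?_).symm
    simp only [Equiv.coe_mulLeft, mul_inv_rev]
    rw [← rho_mul, ← rho_mul, inv_mul_cancel_right]
  have hdec : ∀ v, P (Nat.card G • v - P v) = 0 := fun v => by
    rw [map_sub, hPfix _ (hPW v), map_nsmul, sub_self]
  obtain ⟨u₀, hu₀, hu₀0⟩ : ∃ u, P u = 0 ∧ u ≠ 0 := by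
    by_contra hcon
    push_neg at hcon
    apply hW1
    refine eq_top_iff.2 fun v _ => ?_
    have hinjW : Function.Injective (fun w : W => Nat.card G • w) := fun a c h => by
      have h' : Nat.card G • ((a : V) - c) = 0 := by
        have := congrArg Subtype.val h
        simp only [AddSubgroup.coe_nsmul] at this
        rw [nsmul_sub, this, sub_self]
      exact Subtype.ext (sub_eq_zero.1 (nsmul_cancel_of_coprime hcop h'))
    obtain ⟨w, hw⟩ := Finite.injective_iff_surjective.1 hinjW ⟨P v, hPW v⟩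
    have h := sub_eq_zero.1 (hcon _ (hdec v))
    have hw' : Nat.card G • (w : V) = P v := by simpa using congrArg Subtype.val hw
    rw [← hw', ← sub_eq_zero, ← nsmul_sub] at h
    rw [sub_eq_zero.1 (nsmul_cancel_of_coprime hcop h)]
    exact w.2
  have hsep : ∀ w ∈ W, w ≠ 0 → ∀ u, P u = 0 → u ≠ 0 → stab σ w = stab σ u := by
    intro w hw hw0 u hu hu0
    have hsplit : ∀ g ∈ stab σ (w + u), σ g w = w ∧ σ g u = u := by
      intro g hg
      have e : σ g w + σ g u = w + u := by rw [← map_add]; exact hg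
      have e' := congrArg P e
      rw [map_add, map_add, hPeq, hPeq, hu, map_zero, add_zero, add_zero, hPfix w hw, map_nsmul] at e'
      have hgw : σ g w = w :=
        sub_eq_zero.1 (nsmul_cancel_of_coprime hcop (by rw [nsmul_sub, e', sub_self]))
      exact ⟨hgw, by rw [hgw] at e; exact add_left_cancel e⟩
    have hne : w + u ≠ 0 := fun h => hw0 (nsmul_cancel_of_coprime hcop (by
      rw [← hPfix w hw, eq_neg_of_add_eq_zero_left h, map_neg, hu, neg_zero]))
    exact ((Subgroup.eq_of_le_of_card_ge (fun g hg => (hsplit g hg).1) (by rw [hhalf _ hw0, hhalf _ hne])).symm :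
      stab σ w = stab σ (w + u)).trans
      (Subgroup.eq_of_le_of_card_ge (fun g hg => (hsplit g hg).2) (by rw [hhalf _ hu0, hhalf _ hne]))
  obtain ⟨w₀, hw₀, hw₀0⟩ := (AddSubgroup.ne_bot_iff_exists_ne_zero.1 hW0) |>.elim
    fun w hw => (⟨w, w.2, fun h => hw (Subtype.ext h)⟩ : ∃ w : V, w ∈ W ∧ w ≠ 0)
  refine semi_of_fixes_all σ hinj hhalf hw₀0 fun g hg v => ?_
  have hW' : ∀ w ∈ W, σ g w = w := fun w hw => by
    by_cases h0 : w = 0
    · rw [h0, map_zero]
    · exact ((hsep w hw h0 u₀ hu₀ hu₀0).trans (hsep w₀ hw₀ hw₀0 u₀ hu₀ hu₀0).symm).ge hg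
  have hU' : ∀ u, P u = 0 → σ g u = u := fun u hu => by
    by_cases h0 : u = 0
    · rw [h0, map_zero]
    · exact (hsep w₀ hw₀ hw₀0 u hu h0).le hg
  refine sub_eq_zero.1 (nsmul_cancel_of_coprime hcop ?_)
  have e := congrArg₂ (· + ·) (hW' _ (hPW v)) (hU' _ (hdec v))
  simp only [map_sub, map_nsmul, add_sub_cancel] at e
  rw [nsmul_sub, e, sub_self]

/-- Let q be a prime, V a non-trivial finite vector space over the field with q elements, and G a finite p-group (p prime) acting faithfully and linearly on V such that all G-orbits on the non-zero vectors have the same size. Then one of the following holds: G is cyclic or generalized quaternion and acts semiregularly on the non-zero vectors; or V has q² elements with q = 2^m − 1 and G is dihedral of order 2^(m+1) or semidihedral of order 2^(m+2); or V has q² elements with q = 2^m + 1 and, in suitable coordinates V = F_q², G is exactly the group of maps (x, y) ↦ (a x, ± a⁻¹ y) and (x, y) ↦ (± a⁻¹ y, a x) with a ≠ 0; or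 V has 81 elements (q = 3) and G is a 2-group. -/
theorem result (q : ℕ) [Fact q.Prime] {V : Type*} [AddCommGroup V] [Module (ZMod q) V] [Finite V] [Nontrivial V]
    {G : Type*} [Group G] [Finite G] (p : ℕ) [Fact p.Prime] (hG : IsPGroup p G)
    (ρ : G →* (V ≃ₗ[ZMod q] V)) (hρ : Function.Injective ρ)
    (hhalf : ∀ v w : V, v ≠ 0 → w ≠ 0 → Nat.card {u : V | ∃ g : G, ρ g v = u} = Nat.card {u : V | ∃ g : G, ρ g w = u}) :
    ((IsCyclic G ∨ ∃ n : ℕ, Nonempty (G ≃* QuaternionGroup n)) ∧ ∀ v : V, v ≠ 0 → ∀ g : G, ρ g v = v → g = 1) ∨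
    (Nat.card V = q ^ 2 ∧ ∃ m : ℕ, q = 2 ^ m - 1 ∧
      (Nonempty (G ≃* DihedralGroup (2 ^ m)) ∨ (Cfsg.IsQuasiDihedral G ∧ Nat.card G = 2 ^ (m + 2)))) ∨
    (Nat.card V = q ^ 2 ∧ (∃ m : ℕ, q = 2 ^ m + 1) ∧
      ∃ e : V ≃ₗ[ZMod q] (Fin 2 → ZMod q), ∀ f : (Fin 2 → ZMod q) ≃ₗ[ZMod q] (Fin 2 → ZMod q),
        (∃ g : G, f = e.symm.trans ((ρ g).trans e)) ↔
        ∃ a s : ZMod q, a ≠ 0 ∧ (s = 1 ∨ s = -1) ∧
          ((∀ v, f v = ![a * v 0, s * a⁻¹ * v 1]) ∨ (∀ v, f v = ![s * a⁻¹ * v 1, a * v 0]))) ∨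
    (Nat.card V = 81 ∧ q = 3 ∧ p = 2) := by
  classical
  let σ : G →* AddMonoid.End V :=
    { toFun := fun g => (ρ g).toLinearMap.toAddMonoidHom
      map_one' := AddMonoidHom.ext fun v => by
        show ρ 1 v = v
        rw [map_one]; rfl
      map_mul' := fun a c => AddMonoidHom.ext fun v => by
        show ρ (a * c) v = ρ a (ρ c v)
        rw [map_mul]; rfl }
  have hσ : ∀ g v, σ g v = ρ g v := fun _ _ => rfl
  have hinj : ∀ g : G, σ g = 1 → g = 1 := fun g h => hρ (LinearEquiv.ext fun v => by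
    rw [← hσ, h, map_one]; rfl)
  obtain ⟨v₁, hv₁⟩ := exists_ne (0 : V)
  set s := Nat.card (stab σ v₁) with hsdef
  have hst : ∀ v : V, v ≠ 0 → Nat.card (stab σ v) = s := by
    intro v hv
    letI : MulAction G V := MulAction.compHom V ρ
    have key : ∀ x : V, Nat.card (stab σ x) * Nat.card {u : V | ∃ g : G, ρ g x = u} = Nat.card G := fun x => by
      have h1 : MulAction.stabilizer G x = stab σ x := Subgroup.ext fun g => Iff.rfl
      have h2 : MulAction.orbit G x = {u : V | ∃ g : G, ρ g x = u} := rfl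
      rw [← h1, ← h2, Nat.card_coe_set_eq, ← MulAction.index_stabilizer, Subgroup.card_mul_index]
    have h := (key v).trans (key v₁).symm
    rw [hhalf v v₁ hv hv₁] at h
    refine Nat.eq_of_mul_eq_mul_right ?_ h
    haveI : Nonempty {u : V | ∃ g : G, ρ g v₁ = u} := ⟨⟨v₁, 1, by rw [map_one]; rfl⟩⟩
    exact Nat.card_pos
  have hd1 : Semi σ → ((IsCyclic G ∨ ∃ n : ℕ, Nonempty (G ≃* QuaternionGroup n)) ∧
      ∀ v : V, v ≠ 0 → ∀ g : G, ρ g v = v → g = 1) := by
    intro hS
    refine ⟨?_, fun v hv g hg => hS v hv g hg⟩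
    rcases subsingleton_or_nontrivial G with hG1 | hG1
    · exact Or.inl inferInstance
    obtain ⟨c, -, hc1, hcp, hcc⟩ := exists_central_mem hG (⊤ : Subgroup G)
      ((Subgroup.nontrivial_iff_ne_bot _).1 inferInstance)
    have hpV : p.Coprime (Nat.card V) := by
      by_contra hn
      have hdvd : p ∣ Nat.card V := by
        by_contra hd
        exact hn ((Fact.out : p.Prime).coprime_iff_not_dvd.2 hd)
      letI : MulAction G V := MulAction.compHom V ρ
      obtain ⟨w, hw, hw0⟩ := hG.exists_fixed_point_of_prime_dvd_card_of_fixed_point (α := V) hdvd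
        (a := 0) (fun g => map_zero (ρ g))
      exact hc1 (hS w (Ne.symm hw0) c (hw c))
    have hu : ∀ y : G, y ^ p = 1 → y ∈ Subgroup.zpowers c := by
      intro y hy
      by_contra hyc
      obtain ⟨x, -, hx1, w, hw, hxw⟩ := exists_fixed_in_plane σ hpV (hcc y) hy hcp hc1 hyc hv₁
      exact hx1 (hS w hw x hxw)
    have hcard : ∀ H : Subgroup G, Nat.card H = p → H = Subgroup.zpowers c := fun H hH =>
      Subgroup.eq_of_le_of_card_ge (fun x hx => hu x (by
        have := pow_card_eq_one' (G := H) (x := ⟨x, hx⟩)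
        rw [hH] at this
        exact congrArg Subtype.val this))
        (by rw [hH, Nat.card_zpowers, orderOf_eq_prime hcp hc1])
    rcases Cfsg.Agent.Lib.UniqueInvolution.isCyclic_or_quaternion hG
      (fun H K hH hK => (hcard H hH).trans (hcard K hK).symm) with h | ⟨-, n, -, h⟩
    · exact Or.inl h
    · exact Or.inr ⟨_, h⟩
  by_cases hS : Semi σ
  · exact Or.inl (hd1 hS)
  haveI : Nontrivial G := by
    by_contra h
    haveI := not_nontrivial_iff_subsingleton.1 h
    exact hS fun _ _ g _ => Subsingleton.elim g 1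
  obtain ⟨n, hn⟩ : ∃ n, Nat.card V = q ^ n :=
    ⟨_, by rw [Module.natCard_eq_pow_finrank (K := ZMod q), Nat.card_zmod]⟩
  have hpq : p ≠ q := by
    intro hpq
    apply hS
    have hdvd : p ∣ Nat.card V := by
      rw [hn, hpq]
      refine dvd_pow_self q fun h0 => ?_
      rw [h0, pow_zero] at hn
      exact (Finite.one_lt_card (α := V)).ne' hn
    letI : MulAction G V := MulAction.compHom V ρ
    obtain ⟨w, hw, hw0⟩ := hG.exists_fixed_point_of_prime_dvd_card_of_fixed_point (α := V) hdvd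
      (a := 0) (fun g => map_zero (ρ g))
    refine semi_of_card_one σ hst ?_
    have htop : ∀ v : V, ∀ g : G, σ g v = v := fun v g => by
      by_cases hv : v = 0
      · rw [hv, map_zero]
      have hwt : stab σ w = ⊤ := eq_top_iff.2 fun h _ => hw h
      have hvt : stab σ v = ⊤ := Subgroup.eq_top_of_card_eq _ (by
        rw [hst v hv, ← hst w (Ne.symm hw0), hwt, Subgroup.card_top])
      exact hvt.ge (Subgroup.mem_top g)
    exact absurd (hS fun v hv g _ => hinj g (AddMonoidHom.ext fun x => htop x g)) id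
  have hcop : p.Coprime (Nat.card V) := by
    rw [hn]
    exact ((Nat.coprime_primes (Fact.out : p.Prime) (Fact.out : q.Prime)).2 hpq).pow_right n
  have hcopG : (Nat.card G).Coprime (Nat.card V) := by
    obtain ⟨k, hk⟩ := IsPGroup.iff_card.1 hG
    rw [hk]; exact hcop.pow_left k
  have hirr : ∀ W : AddSubgroup V, (∀ g, ∀ v ∈ W, σ g v ∈ W) → W = ⊥ ∨ W = ⊤ := by
    intro W hW
    by_contra h
    push_neg at h
    exact hS (semi_of_reducible (q := q) σ hinj hst hcopG W hW h.1 h.2)
  by_cases hB : ∃ B : Subgroup G, B.Normal ∧ (∀ a ∈ B, ∀ c ∈ B, a * c = c * a) ∧ (∀ a ∈ B, a ^ p = 1) ∧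
      p < Nat.card B
  · obtain ⟨B, hBn, hBc, hBp, hBlt⟩ := hB
    haveI := hBn
    obtain ⟨z, hzB, hz1, hzp, hzc⟩ := exists_central_mem hG B (fun h => by
      rw [h, Subgroup.card_bot] at hBlt
      exact absurd hBlt (not_lt.2 (Fact.out : p.Prime).one_lt.le))
    haveI hZn : (Subgroup.zpowers z).Normal := ⟨fun x hx g => by
      obtain ⟨i, rfl⟩ := hx
      show g * z ^ i * g⁻¹ ∈ _
      rw [← conj_zpow, hzc g, mul_inv_cancel_right]
      exact zpow_mem (Subgroup.mem_zpowers z) i⟩
    have hzord : orderOf z = p := orderOf_eq_prime hzp hz1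
    haveI : (B.map (QuotientGroup.mk' (Subgroup.zpowers z))).Normal :=
      hBn.map _ (QuotientGroup.mk'_surjective _)
    obtain ⟨bb, hbbB, hbb1, -, hbbc⟩ := exists_central_mem (hG.to_quotient (Subgroup.zpowers z))
      (B.map (QuotientGroup.mk' (Subgroup.zpowers z))) (fun h => by
        rw [Subgroup.map_eq_bot_iff, QuotientGroup.ker_mk'] at h
        have := Subgroup.card_le_of_le h
        rw [Nat.card_zpowers, hzord] at this
        omega)
    obtain ⟨b, hbB, rfl⟩ := hbbB
    have hbz : b ∉ Subgroup.zpowers z := fun h => hbb1 ((QuotientGroup.eq_one_iff b).2 h)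
    have hconj : ∀ g : G, ∃ j : ℕ, g * b * g⁻¹ = b * z ^ j := fun g => by
      have h : ((b⁻¹ * (g * b * g⁻¹) : G) : G ⧸ Subgroup.zpowers z) = 1 := by
        have h' := hbbc (g : G ⧸ Subgroup.zpowers z)
        simp only [QuotientGroup.mk'_apply] at h'
        simp only [QuotientGroup.mk_mul, QuotientGroup.mk_inv]
        rw [h']; group
      obtain ⟨j, hj⟩ := mem_powers_iff_mem_zpowers.2 ((QuotientGroup.eq_one_iff _).1 h)
      refine ⟨j, ?_⟩
      have hj' : z ^ j = b⁻¹ * (g * b * g⁻¹) := hj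
      rw [hj', mul_inv_cancel_left]
    have hfree : ∀ w : V, σ z w = w → w = 0 := fun w hw => free_of_central hinj hirr hz1 hzc hw
    have hbnc : ∃ g : G, ∃ j : ℕ, g * b * g⁻¹ = b * z ^ j ∧ ¬ p ∣ j := by
      by_contra hcon
      push_neg at hcon
      have hbc : ∀ g : G, g * b = b * g := fun g => by
        obtain ⟨j, hj⟩ := hconj g
        obtain ⟨i, rfl⟩ := hcon g j hj
        rw [pow_mul, hzp, one_pow, mul_one] at hj
        exact mul_inv_eq_iff_eq_mul.1 hj
      obtain ⟨x, hx, hx1, w, hw, hxw⟩ := exists_fixed_in_plane σ hcop (hbc z).symm (hBp b hbB) hzp hz1 hbz hv₁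
      have hle : Subgroup.closure ({b, z} : Set G) ≤ Subgroup.center G := (Subgroup.closure_le _).2 fun a ha => by
        rcases ha with rfl | rfl
        · exact Subgroup.mem_center_iff.2 hbc
        · exact Subgroup.mem_center_iff.2 hzc
      exact hw (free_of_central hinj hirr hx1 (Subgroup.mem_center_iff.1 (hle hx)) hxw)
    obtain ⟨g₀, j₀, hg₀, hj₀⟩ := hbnc
    have hmove : ∃ u : G, u * b * u⁻¹ = b * z := by
      obtain ⟨m, -, hm⟩ := Nat.exists_mul_mod_eq_one_of_coprime
        (((Fact.out : p.Prime).coprime_iff_not_dvd.2 hj₀).symm) (Fact.out : p.Prime).one_lt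
      have key : ∀ i : ℕ, g₀ ^ i * b * (g₀ ^ i)⁻¹ = b * z ^ (j₀ * i) := fun i => by
        induction i with
        | zero => simp
        | succ i ih =>
          rw [show g₀ ^ (i + 1) * b * (g₀ ^ (i + 1))⁻¹ = g₀ * (g₀ ^ i * b * (g₀ ^ i)⁻¹) * g₀⁻¹ by
              rw [pow_succ']; group, ih,
            show g₀ * (b * z ^ (j₀ * i)) * g₀⁻¹ = g₀ * b * g₀⁻¹ * (g₀ * z ^ (j₀ * i) * g₀⁻¹) by group, hg₀,
            (Commute.pow_right (hzc g₀) _).eq, mul_inv_cancel_right, mul_assoc, ← pow_add]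
          congr 2
          ring
      exact ⟨g₀ ^ m, by rw [key m, pow_eq_pow_mod _ hzp, hm, pow_one]⟩
    have D : Plane p σ b z := ⟨hBp b hbB, hzp, hzc, hfree, hconj, hmove, hcop, hinj⟩
    by_cases hp2 : p = 2
    swap
    · exact absurd (D.semi_odd hst hp2 ⟨v₁, hv₁⟩) hS
    rcases D.semi_or_transitive hst hp2 with h | htr
    · exact absurd h hS
    right; right
    subst hp2
    have hq2 : q ≠ 2 := Ne.symm hpq
    have hq3 : 3 ≤ q := lt_of_le_of_ne (Fact.out : q.Prime).two_le (Ne.symm hq2)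
    obtain ⟨u, hu⟩ := hmove
    set c := Nat.card (fixedOf σ ({b} : Set G)) with hcdef
    have hV : Nat.card V = c ^ 2 := by
      have h := card_eq_fixed_pow σ hcop (⊤ : AddSubgroup V) (u := u) (y := b) (e := z)
        (fun w _ => trivial) (fun w _ => trivial) (fun w _ => trivial) (hzc b) (hzc u) hu
        (hBp b hbB) hzp hfree
      rwa [top_inf_eq, Nat.card_congr AddSubgroup.topEquiv.toEquiv] at h
    obtain ⟨w₀, hw₀0, hw₀⟩ := D.exists_fixed ⟨v₁, hv₁⟩ 0
    rw [pow_zero, mul_one] at hw₀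
    obtain ⟨a, ha⟩ : ∃ a, c = 2 ^ a + 1 := by
      let C := Subgroup.centralizer ({b} : Set G)
      letI : MulAction G V := MulAction.compHom V ρ
      obtain ⟨a, ha⟩ := (hG.to_subgroup C).card_orbit w₀
      refine ⟨a, ?_⟩
      have hor : MulAction.orbit C w₀ = (fixedOf σ ({b} : Set G) : Set V) \ {0} := by
        ext x
        constructor
        · rintro ⟨⟨g, hg⟩, rfl⟩
          have hgb : g * b = b * g := (Subgroup.mem_centralizer_singleton_iff.1 hg)
          refine ⟨fun k hk => ?_, fun h => hw₀0 ?_⟩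
          · rw [Set.mem_singleton_iff.1 hk]
            show σ b (σ g w₀) = σ g w₀
            rw [← rho_mul, ← hgb, rho_mul, hw₀]
          · have h' : σ g w₀ = 0 := h
            rw [← rho_inv_cancel σ g w₀, h', map_zero]
        · rintro ⟨hx, hx0⟩
          obtain ⟨g, hg, hgx⟩ := htr w₀ x hw₀ hw₀0 (hx b rfl) hx0
          exact ⟨⟨g, Subgroup.mem_centralizer_singleton_iff.2 hg⟩, hgx⟩
      rw [hor, Nat.card_coe_set_eq, Set.ncard_diff_singleton_of_mem (zero_mem _),
        ← Nat.card_coe_set_eq] at ha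
      have : 1 ≤ c := Nat.card_pos
      have : c = Nat.card ↥(fixedOf σ ({b} : Set G) : Set V) := rfl
      omega
    obtain ⟨k, -, hk⟩ := (Nat.dvd_prime_pow (Fact.out : q.Prime)).1
      (show c ∣ q ^ n by rw [← hn, hV]; exact dvd_pow_self c two_ne_zero)
    have hk1 : 1 ≤ k := Nat.one_le_iff_ne_zero.2 fun h => by
      have := Nat.one_le_pow a 2 two_pos
      rw [h, pow_zero] at hk
      omega
    rcases pow_sub_one_two hq3 ((Fact.out : q.Prime).odd_of_ne_two hq2) hk1 (hk.symm.trans ha) with rfl | ⟨rfl, rfl⟩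
    · rw [pow_one] at hk
      have hVq : Nat.card V = q ^ 2 := by rw [hV, hk]
      exact Or.inl ⟨hVq, ⟨a, by omega⟩, monomial_form hσ D hst hS htr hVq hk⟩
    · exact Or.inr ⟨by rw [hV, hk]; norm_num, rfl, rfl⟩
  · push_neg at hB
    by_cases hp2 : p = 2
    · subst hp2
      rcases two_group_cases (q := q) (Ne.symm hpq) hG hinj hirr hcop hst hB with h | h
      · exact Or.inl (hd1 h)
      · exact Or.inr (Or.inl h)
    · exfalso
      have hcyc : IsCyclic G := by
        by_contra hnc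
        obtain ⟨A, hAn, hAe, hAc⟩ := Cfsg.Agent.S0126.result hp2 hG hnc
        have := hB A hAn (fun a ha c hc => congrArg Subtype.val (hAe.1.is_comm.comm (⟨a, ha⟩ : A) ⟨c, hc⟩))
          (fun a ha => hAe.2 a ha)
        rw [hAc] at this
        have h1 := (Fact.out : p.Prime).one_lt
        nlinarith
      refine hS (semi_of_unique hG hinj hirr fun y z hy1 hy hz1 hz => ?_)
      haveI := hcyc
      haveI := Fintype.ofFinite G
      have hle := IsCyclic.card_pow_eq_one_le (α := G) (Fact.out : p.Prime).pos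
      have hsub : ((Subgroup.zpowers z : Set G).toFinset) ⊆ Finset.univ.filter (fun a => a ^ p = 1) := by
        intro w hw
        rw [Set.mem_toFinset] at hw
        obtain ⟨i, rfl⟩ := hw
        refine Finset.mem_filter.2 ⟨Finset.mem_univ _, ?_⟩
        show (z ^ i) ^ p = 1
        rw [← zpow_natCast, ← zpow_mul, mul_comm, zpow_mul, zpow_natCast, hz, one_zpow]
      have heq := Finset.eq_of_subset_of_card_le hsub (by
        rw [Set.toFinset_card, ← Nat.card_eq_fintype_card]
        exact hle.trans (by rw [SetLike.coe_sort_coe, Nat.card_zpowers, orderOf_eq_prime hz hz1]))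
      have : y ∈ (Subgroup.zpowers z : Set G).toFinset := by
        rw [heq]; exact Finset.mem_filter.2 ⟨Finset.mem_univ _, hy⟩
      exact Set.mem_toFinset.1 this

end Cfsg.Agent.S3371
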