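import Cfsg.Statements.S3376
import Cfsg.Agent.Lib.Recog.WreathThree
import Cfsg.Agent.Lib.SmallSimple.Basic

set_option autoImplicit false
open Cfsg

namespace Cfsg.Agent.S3376

open Equiv in
/-- The distinguished permutation. -/
def sigma : Equiv.Perm (Fin 9) :=
  swap (0 : Fin 9) 1 * swap 1 2 * swap 3 4 * swap 4 5 * swap 6 7 * swap 7 8

/-- Rotation of the three blocks. -/
def blockRot : Equiv.Perm (Fin 9) where
  toFun i := i + 3
  invFun i := i + 6
  left_inv := by decide
  right_inv := by decide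

/-- Exchange of two blocks. -/
def blockSwap : Equiv.Perm (Fin 9) :=
  Equiv.swap (3 : Fin 9) 6 * Equiv.swap 4 7 * Equiv.swap 5 8

/-- The first block's cycle. -/
def cyc : Equiv.Perm (Fin 9) := Equiv.swap (0 : Fin 9) 1 * Equiv.swap 1 2

/-- The base generators. -/
def cycAt (i : ZMod 3) : Equiv.Perm (Fin 9) := blockRot ^ i.val * cyc * (blockRot ^ i.val)⁻¹

theorem cycAt_facts : (∀ i, cycAt i ^ 3 = 1) ∧ (∀ i j, cycAt i * cycAt j = cycAt j * cycAt i) ∧
    (∀ i, blockRot * cycAt i = cycAt (i + 1) * blockRot) ∧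
    (∀ i, blockSwap * cycAt i = cycAt (-i) * blockSwap) ∧ blockRot ^ 3 = 1 ∧ blockSwap ^ 2 = 1 ∧
    blockSwap * blockRot * blockSwap = blockRot⁻¹ := by decide +kernel

/-- Data inside the symmetric group. -/
def permData : Cfsg.Agent.Lib.Recog.WreathThree.Data (Equiv.Perm (Fin 9)) where
  e := cycAt
  u := blockRot
  t := blockSwap
  e_pow := cycAt_facts.1
  e_comm := cycAt_facts.2.1
  u_e := cycAt_facts.2.2.1
  t_e := cycAt_facts.2.2.2.1
  u_pow := cycAt_facts.2.2.2.2.1
  t_pow := cycAt_facts.2.2.2.2.2.1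
  t_u := cycAt_facts.2.2.2.2.2.2

theorem gens_comm : (∀ i, sigma * cycAt i = cycAt i * sigma) ∧ sigma * blockRot = blockRot * sigma ∧
    sigma * blockSwap = blockSwap * sigma := by decide +kernel

/-- The centralizer as the image. -/
abbrev C9 : Subgroup (Equiv.Perm (Fin 9)) := Subgroup.centralizer ({sigma} : Set (Equiv.Perm (Fin 9)))

/-- Data inside the centralizer. -/
def centData : Cfsg.Agent.Lib.Recog.WreathThree.Data C9 where
  e i := ⟨cycAt i, Subgroup.mem_centralizer_singleton_iff.2 (gens_comm.1 i).symm⟩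
  u := ⟨blockRot, Subgroup.mem_centralizer_singleton_iff.2 gens_comm.2.1.symm⟩
  t := ⟨blockSwap, Subgroup.mem_centralizer_singleton_iff.2 gens_comm.2.2.symm⟩
  e_pow i := Subtype.ext (cycAt_facts.1 i)
  e_comm i j := Subtype.ext (cycAt_facts.2.1 i j)
  u_e i := Subtype.ext (cycAt_facts.2.2.1 i)
  t_e i := Subtype.ext (cycAt_facts.2.2.2.1 i)
  u_pow := Subtype.ext cycAt_facts.2.2.2.2.1
  t_pow := Subtype.ext cycAt_facts.2.2.2.2.2.1
  t_u := Subtype.ext cycAt_facts.2.2.2.2.2.2

open Cfsg.Agent.Lib.Recog.WreathThree in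
theorem nf_perm_injective : ∀ a b : Ix,
    nf permData a 0 = nf permData b 0 ∧ nf permData a 3 = nf permData b 3 ∧
      nf permData a 6 = nf permData b 6 → a = b := by decide +kernel

theorem sigma_type : sigma.cycleType = {3, 3, 3} := by decide +kernel

theorem card_C9 : Nat.card C9 = 162 := by
  rw [Equiv.Perm.nat_card_centralizer, sigma_type, Fintype.card_fin]
  decide

open Cfsg.Agent.Lib.Recog.WreathThree in
theorem centData_bijective : Function.Bijective (nf centData) := by
  rw [Nat.bijective_iff_injective_and_card]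
  refine ⟨fun a b h => ?_, by rw [card_C9, Nat.card_eq_fintype_card]; rfl⟩
  have hval : ∀ x, ((nf centData x : C9) : Equiv.Perm (Fin 9)) = nf permData x := fun x => rfl
  have h' : nf permData a = nf permData b := by rw [← hval, ← hval, h]
  exact nf_perm_injective a b ⟨by rw [h'], by rw [h'], by rw [h']⟩

theorem val_one3 : (1 : ZMod 3).val = 1 := by decide

theorem val_two3 : (2 : ZMod 3).val = 2 := by decide

/-- Conjugation. -/
def cj {G : Type*} [Group G] (g y : G) : G := g * y * g⁻¹

theorem cj_mul {G : Type*} [Group G] (g a b : G) : cj g (a * b) = cj g a * cj g b := by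
  simp only [cj]; group

theorem cj_inv {G : Type*} [Group G] (g a : G) : cj g a⁻¹ = (cj g a)⁻¹ := by
  simp only [cj]; group

theorem cj_cj {G : Type*} [Group G] (g k a : G) : cj g (cj k a) = cj (g * k) a := by
  simp only [cj]; group

theorem pow_three' {G : Type*} [Group G] (g : G) : g ^ 3 = g * g * g := by
  rw [pow_succ, pow_two]

/-- The norm. -/
def Nn {G : Type*} [Group G] (u y : G) : G := cj u (cj u y) * cj u y * y


/-- Let G be a group of order 162 = 3⁴·2 with Sylow 3-subgroup S and Sylow 2-subgroup T, having an elementary abelian normal subgroup J of order 27, such that Z = Z(S) has order 3, Z centralizes T, and C_S(T) ≠ S. Then G is isomorphic to the centralizer in Sym(9) of a product of three disjoint 3-cycles. -/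
theorem result {G : Type*} [Group G] [Finite G] (hG : Nat.card G = 162)
    (S : Sylow 3 G) (T : Sylow 2 G) (J : Subgroup G) [hJn : J.Normal] (hJcomm : IsMulCommutative J)
    (hJexp : ∀ a ∈ J, a ^ 3 = 1) (hJcard : Nat.card J = 27)
    (Z : Subgroup G) (hZ : Z = (S : Subgroup G) ⊓ Subgroup.centralizer ((S : Subgroup G) : Set G)) (hZcard : Nat.card Z = 3)
    (hZT : Z ≤ Subgroup.centralizer ((T : Subgroup G) : Set G))
    (hST : (S : Subgroup G) ⊓ Subgroup.centralizer ((T : Subgroup G) : Set G) ≠ S) :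
    Nonempty (G ≃* Subgroup.centralizer ({Equiv.swap (0 : Fin 9) 1 * Equiv.swap 1 2 * Equiv.swap 3 4 * Equiv.swap 4 5 * Equiv.swap 6 7 * Equiv.swap 7 8} : Set (Equiv.Perm (Fin 9)))) := by
  haveI : Fact (Nat.Prime 2) := ⟨Nat.prime_two⟩
  haveI : Fact (Nat.Prime 3) := ⟨Nat.prime_three⟩
  have hS81 : Nat.card S = 81 := by
    rw [show Nat.card S = 3 ^ 4 from ?_]; · norm_num
    exact Cfsg.Agent.Lib.SmallSimple.card_sylow_subgroup S (k := 4) (m := 2) (by rw [hG]; norm_num) (by norm_num)
  have hT2 : Nat.card T = 2 := by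
    have := Cfsg.Agent.Lib.SmallSimple.card_sylow_subgroup T (k := 1) (m := 81) (by rw [hG]; norm_num) (by norm_num)
    simpa using this
  haveI : IsCyclic (T : Subgroup G) := isCyclic_of_prime_card hT2
  obtain ⟨⟨t, htT⟩, htgen⟩ := IsCyclic.exists_generator (α := (T : Subgroup G))
  have hto : orderOf t = 2 := by
    rw [← hT2, ← orderOf_eq_card_of_forall_mem_zpowers htgen, Subgroup.orderOf_mk]
  have htt : t * t = 1 := by rw [← pow_two, ← hto]; exact pow_orderOf_eq_one t
  have hti : t⁻¹ = t := inv_eq_of_mul_eq_one_right htt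
  have hSn : (S : Subgroup G).Normal := Subgroup.normal_of_index_eq_two (by
    have h := (S : Subgroup G).card_mul_index
    rw [hS81, hG] at h
    omega)
  have hJS : J ≤ (S : Subgroup G) := by
    have hJ : IsPGroup 3 J := IsPGroup.of_card (n := 3) (by rw [hJcard]; norm_num)
    exact (S.3 (IsPGroup.to_sup_of_normal_left hJ S.2) le_sup_right) ▸ le_sup_left
  have htS : t ∉ (S : Subgroup G) := fun h => by
    have := Subgroup.orderOf_dvd_natCard _ h
    rw [hto, hS81] at this
    norm_num at this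
  obtain ⟨x0, hx0S, hx0J⟩ := SetLike.exists_of_lt (lt_of_le_of_ne hJS fun h => by
    rw [h, hS81] at hJcard; norm_num at hJcard)
  have hsup : J ⊔ Subgroup.zpowers x0 = S := by
    refine Subgroup.eq_of_le_of_card_ge (sup_le hJS (Subgroup.zpowers_le.2 hx0S)) ?_
    obtain ⟨k, hk4, hk⟩ := (Nat.dvd_prime_pow Nat.prime_three).1
      (show Nat.card ↥(J ⊔ Subgroup.zpowers x0) ∣ 3 ^ 4 by
        rw [show (3 : ℕ) ^ 4 = Nat.card S by rw [hS81]; norm_num]
        exact Subgroup.card_dvd_of_le (sup_le hJS (Subgroup.zpowers_le.2 hx0S)))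
    have hlt : J < J ⊔ Subgroup.zpowers x0 := lt_of_le_of_ne le_sup_left fun h =>
      hx0J (h ▸ Subgroup.mem_sup_right (Subgroup.mem_zpowers x0))
    have hle := Subgroup.card_dvd_of_le hlt.le
    have hne : Nat.card J ≠ Nat.card ↥(J ⊔ Subgroup.zpowers x0) := fun h =>
      hlt.ne (Subgroup.eq_of_le_of_card_ge hlt.le h.ge)
    rw [hJcard, hk] at hle hne
    rw [hk, hS81]
    revert hle hne; interval_cases k <;> decide
  have hJab : ∀ a ∈ J, ∀ b ∈ J, a * b = b * a := fun a ha b hb =>
    congrArg Subtype.val (hJcomm.1.1 ⟨a, ha⟩ ⟨b, hb⟩)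
  set q := QuotientGroup.mk' J with hq
  have hqker : ∀ {g : G}, q g = 1 ↔ g ∈ J := fun {g} => QuotientGroup.eq_one_iff g
  have hmap : (S : Subgroup G).map q = Subgroup.zpowers (q x0) := by
    rw [← hsup, Subgroup.map_sup, hq, QuotientGroup.map_mk'_self, bot_sup_eq, MonoidHom.map_zpowers]
  have hao : orderOf (q x0) = 3 := by
    have h1 : orderOf (q x0) ∣ 81 := (orderOf_map_dvd q x0).trans (hS81 ▸ Subgroup.orderOf_dvd_natCard _ hx0S)
    have h2 : orderOf (q x0) ∣ 6 := by
      have : Nat.card (G ⧸ J) = 6 := by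
        have h := J.card_mul_index
        rw [hJcard, hG, Subgroup.index_eq_card] at h
        omega
      exact this ▸ orderOf_dvd_natCard _
    rcases (Nat.dvd_prime Nat.prime_three).1 (show orderOf (q x0) ∣ 3 by simpa using Nat.dvd_gcd h1 h2) with h | h
    · exact absurd (hqker.1 (orderOf_eq_one_iff.1 h)) hx0J
    · exact h
  have hgen : ∀ u, q u = q x0 → u ∈ (S : Subgroup G) ∧ u ∉ J ∧ (S : Subgroup G) = J ⊔ Subgroup.zpowers u := by
    intro u hu
    have hj : x0⁻¹ * u ∈ J := hqker.1 (by rw [map_mul, map_inv, hu, inv_mul_cancel])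
    have huS : u ∈ (S : Subgroup G) := by
      rw [show u = x0 * (x0⁻¹ * u) by group]; exact mul_mem hx0S (hJS hj)
    refine ⟨huS, fun h => hx0J (hqker.1 (hu ▸ hqker.2 h)), le_antisymm ?_ (sup_le hJS (Subgroup.zpowers_le.2 huS))⟩
    rw [← hsup]
    refine sup_le le_sup_left (Subgroup.zpowers_le.2 ?_)
    rw [show x0 = u * (x0⁻¹ * u)⁻¹ by group]
    exact mul_mem (Subgroup.mem_sup_right (Subgroup.mem_zpowers u)) (Subgroup.mem_sup_left (inv_mem hj))
  have hfix : ∀ u, q u = q x0 → ∀ j ∈ J, u * j = j * u → j ∈ Z := by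
    intro u hu j hj hju
    rw [hZ, Subgroup.mem_inf]
    refine ⟨hJS hj, ?_⟩
    have hle : (S : Subgroup G) ≤ Subgroup.centralizer ({j} : Set G) := by
      rw [(hgen u hu).2.2]
      exact sup_le (fun a ha => Subgroup.mem_centralizer_singleton_iff.2 (hJab a ha j hj))
        (Subgroup.zpowers_le.2 (Subgroup.mem_centralizer_singleton_iff.2 hju))
    exact Subgroup.mem_centralizer_iff.2 fun s hs => Subgroup.mem_centralizer_singleton_iff.1 (hle hs)
  have hu3J : ∀ u, q u = q x0 → u ^ 3 ∈ J := fun u hu => hqker.1 (by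
    rw [map_pow, hu, ← hao, pow_orderOf_eq_one])
  have hcJ : ∀ g y, y ∈ J → cj g y ∈ J := fun g y hy => hJn.conj_mem y hy g
  have hDD : ∀ u, ∀ y ∈ J, cj u (cj u y * y⁻¹) * (cj u y * y⁻¹)⁻¹ = Nn u y := by
    intro u y hy
    have h3 : cj u y ^ 3 = 1 := hJexp _ (hcJ u y hy)
    have h2 : (cj u y)⁻¹ * (cj u y)⁻¹ = cj u y := by
      rw [← mul_inv_rev]; exact inv_eq_of_mul_eq_one_right (by rw [← h3, pow_three'])
    have hca : cj u (cj u y * y⁻¹) = cj u (cj u y) * (cj u y)⁻¹ := by rw [cj_mul, cj_inv]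
    rw [hca, mul_inv_rev, inv_inv, Nn]
    calc cj u (cj u y) * (cj u y)⁻¹ * (y * (cj u y)⁻¹)
        = cj u (cj u y) * ((cj u y)⁻¹ * (y * (cj u y)⁻¹)) := by group
      _ = cj u (cj u y) * (((cj u y)⁻¹ * (cj u y)⁻¹) * y) := by
          rw [hJab y hy _ (inv_mem (hcJ u y hy))]; group
      _ = cj u (cj u y) * cj u y * y := by rw [h2]; group
  have hNZ : ∀ u, q u = q x0 → ∀ y ∈ J, Nn u y ∈ Z := by
    intro u hu y hy
    have hmem : Nn u y ∈ J := mul_mem (mul_mem (hcJ _ _ (hcJ _ _ hy)) (hcJ _ _ hy)) hy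
    refine hfix u hu _ hmem ?_
    have h1 : cj u (cj u (cj u y)) = y := by
      have h := hJab _ (hu3J u hu) y hy
      calc cj u (cj u (cj u y)) = u ^ 3 * y * (u ^ 3)⁻¹ := by rw [cj_cj, cj_cj, cj, pow_three', mul_assoc u u u]
        _ = y := by rw [h, mul_inv_cancel_right]
    have h2 : cj u (Nn u y) = Nn u y := by
      calc cj u (Nn u y) = cj u (cj u (cj u y)) * (cj u (cj u y) * cj u y) := by
            simp only [Nn, cj]; group
        _ = Nn u y := by
            rw [h1, Nn]; exact hJab _ hy _ (mul_mem (hcJ _ _ (hcJ _ _ hy)) (hcJ _ _ hy))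
    exact mul_inv_eq_iff_eq_mul.1 h2
  have hZexp : ∀ z ∈ Z, z * z = 1 → z = 1 := by
    intro z hz h
    have h3 : z ^ 3 = 1 := hZcard ▸ congrArg Subtype.val (pow_card_eq_one' (x := (⟨z, hz⟩ : Z)))
    rwa [pow_succ, pow_two, h, one_mul] at h3
  have htZ : ∀ z ∈ Z, t * z * t = z := by
    intro z hz
    have h := Subgroup.mem_centralizer_iff.1 (hZT hz) t htT
    rw [h, mul_assoc, htt, mul_one]
  have htconj : ∀ a b, t * (a * b) * t = (t * a * t) * (t * b * t) := fun a b => by
    calc t * (a * b) * t = t * a * (t * t) * b * t := by rw [htt]; group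
      _ = _ := by group
  have htcm : ∀ g y, t * cj g y * t = cj (t * g * t) (t * y * t) := fun g y => by
    simp only [cj]
    rw [htconj, htconj, mul_inv_rev, mul_inv_rev, hti]
    congr 1
    group
  -- `t` inverts `S / J`
  have hinvert : q (t * x0 * t) = (q x0)⁻¹ := by
    have hmem : q (t * x0 * t) ∈ (S : Subgroup G).map q :=
      Subgroup.mem_map_of_mem q (by simpa [hti] using hSn.conj_mem x0 hx0S t)
    classical
    rw [hmap, ← mem_powers_iff_mem_zpowers, mem_powers_iff_mem_range_orderOf, hao, Finset.mem_image] at hmem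
    obtain ⟨k, hk, hk'⟩ := hmem
    rw [Finset.mem_range] at hk
    interval_cases k
    · exfalso
      rw [pow_zero] at hk'
      have h := congrArg (fun z => q t * z * q t) hk'
      simp only [map_mul, mul_one] at h
      rw [← map_mul, htt, map_one] at h
      have h' : (1 : G ⧸ J) = q x0 := by
        rw [h]
        calc q t * (q t * q x0 * q t) * q t = (q t * q t) * q x0 * (q t * q t) := by group
          _ = q x0 := by rw [← map_mul, htt, map_one, one_mul, mul_one]
      exact hx0J (hqker.1 h'.symm)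
    · exfalso
      rw [pow_one] at hk'
      apply hST
      obtain ⟨hj1, hj2⟩ : (x0⁻¹ * (t * x0 * t) ∈ J) ∧ True := ⟨hqker.1 (by rw [map_mul, map_inv, ← hk', inv_mul_cancel]), trivial⟩
      have hck : ∀ y ∈ J, t * cj x0 y * t = cj x0 (t * y * t) := by
        intro y hy
        rw [htcm, show t * x0 * t = x0 * (x0⁻¹ * (t * x0 * t)) by group]
        simp only [cj]
        have hyt : t * y * t ∈ J := by simpa [hti] using hJn.conj_mem y hy t
        set j := x0⁻¹ * (t * x0 * t)
        calc x0 * j * (t * y * t) * (x0 * j)⁻¹ = x0 * (j * (t * y * t) * j⁻¹) * x0⁻¹ := by group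
          _ = _ := by rw [hJab j hj1 _ hyt, mul_inv_cancel_right]
      have hJt : ∀ y ∈ J, t * y * t = y := by
        intro y hy
        obtain ⟨w, hw⟩ : ∃ w, w = y⁻¹ * (t * y * t) := ⟨_, rfl⟩
        have hyt : t * y * t ∈ J := by simpa [hti] using hJn.conj_mem y hy t
        have hwJ : w ∈ J := hw ▸ mul_mem (inv_mem hy) hyt
        have hwt : t * w * t = w⁻¹ := by
          rw [hw, htconj, mul_inv_rev, inv_inv]
          have e1 : t * (t * y * t) * t = y := by
            calc t * (t * y * t) * t = (t * t) * y * (t * t) := by group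
              _ = y := by rw [htt]; group
          have e2 : t * y⁻¹ * t = (t * y * t)⁻¹ := by rw [mul_inv_rev, mul_inv_rev, hti]; group
          rw [e1, e2]
        have hN : Nn x0 w = 1 := by
          apply hZexp _ (hNZ x0 rfl w hwJ)
          have h1 := htZ _ (hNZ x0 rfl w hwJ)
          have h2 : t * Nn x0 w * t = (Nn x0 w)⁻¹ := by
            simp only [Nn]
            rw [htconj, htconj, hck _ (hcJ _ _ hwJ), hck _ hwJ, hwt]
            rw [cj_inv, cj_inv, mul_inv_rev, mul_inv_rev]
            rw [hJab _ (inv_mem (hcJ _ _ hwJ)) _ (inv_mem (hcJ _ _ (hcJ _ _ hwJ))),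
              ]
            exact hJab _ (mul_mem (inv_mem (hcJ _ _ (hcJ _ _ hwJ))) (inv_mem (hcJ _ _ hwJ))) _ (inv_mem hwJ)
          rw [h1] at h2
          exact eq_inv_iff_mul_eq_one.1 h2
        obtain ⟨D, hD⟩ : ∃ D, D = cj x0 w * w⁻¹ := ⟨_, rfl⟩
        have hDJ : D ∈ J := hD ▸ mul_mem (hcJ _ _ hwJ) (inv_mem hwJ)
        have hDZ : D ∈ Z := hfix x0 rfl D hDJ (mul_inv_eq_iff_eq_mul.1 (mul_inv_eq_one.1 (by
          rw [← hN, hD]; exact hDD x0 w hwJ)))
        have hD1 : D = 1 := by
          apply hZexp _ hDZ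
          have h2 : t * D * t = D⁻¹ := by
            have e : t * w⁻¹ * t = w := by
              calc t * w⁻¹ * t = (t * w * t)⁻¹ := by rw [mul_inv_rev, mul_inv_rev, hti]; group
                _ = w := by rw [hwt, inv_inv]
            rw [hD, htconj, hck _ hwJ, hwt, e, mul_inv_rev, inv_inv,
              hJab w hwJ _ (inv_mem (hcJ _ _ hwJ)), cj_inv]
          rw [htZ _ hDZ] at h2
          exact eq_inv_iff_mul_eq_one.1 h2
        have hwZ : w ∈ Z := hfix x0 rfl w hwJ (mul_inv_eq_iff_eq_mul.1 (mul_inv_eq_one.1 (hD.symm.trans hD1)))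
        have hw1 : w = 1 := hZexp w hwZ (eq_inv_iff_mul_eq_one.1 ((htZ w hwZ).symm.trans hwt))
        exact (inv_mul_eq_one.1 (hw.symm.trans hw1)).symm
      have hx0t : t * x0 * t = x0 := by
        set j := x0⁻¹ * (t * x0 * t) with hj
        have e : t * x0 * t = x0 * j := by rw [hj]; group
        have h := htconj x0 j
        rw [← e, hJt j hj1] at h
        have hxx : t * (t * x0 * t) * t = x0 := by
          calc t * (t * x0 * t) * t = (t * t) * x0 * (t * t) := by group
            _ = x0 := by rw [htt]; group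
        rw [hxx, e, mul_assoc, left_eq_mul] at h
        have h3 := hJexp j hj1
        rw [pow_succ, pow_two, h, one_mul] at h3
        rw [e, h3, mul_one]
      refine inf_eq_left.2 ?_
      rw [← hsup]
      have hcomm : ∀ a, t * a * t = a → a ∈ Subgroup.centralizer ((T : Subgroup G) : Set G) := by
        intro a ha
        refine Subgroup.mem_centralizer_iff.2 fun b hb => ?_
        obtain ⟨i, hi⟩ := Subgroup.mem_zpowers_iff.1 (htgen ⟨b, hb⟩)
        have hi' : t ^ i = b := congrArg Subtype.val hi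
        have hct : Commute t a := by
          calc t * a = t * a * (t * t) := by rw [htt, mul_one]
            _ = a * t := by rw [← mul_assoc, ha]
        rw [← hi']; exact (hct.zpow_left i).eq
      exact sup_le (fun a ha => hcomm a (hJt a ha)) (Subgroup.zpowers_le.2 (hcomm x0 hx0t))
    · rw [← hk', eq_inv_iff_mul_eq_one, ← pow_succ, show (2 + 1 : ℕ) = orderOf (q x0) by rw [hao], pow_orderOf_eq_one]
  -- a fixed point in the coset
  obtain ⟨u, huq, hut⟩ : ∃ u, q u = q x0 ∧ t * u * t = u⁻¹ := by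
    classical
    haveI : Fintype {x : G // q x = q x0} := Fintype.ofFinite _
    have hmapX : ∀ x : G, q x = q x0 → q (t * x⁻¹ * t) = q x0 := by
      intro x hx
      rw [map_mul, map_mul, map_inv, hx, show (q x0)⁻¹ = q (t * x0 * t) from hinvert.symm,
        map_mul, map_mul]
      calc q t * (q t * q x0 * q t) * q t = (q t * q t) * q x0 * (q t * q t) := by group
        _ = q x0 := by rw [← map_mul, htt, map_one, one_mul, mul_one]
    have hinv2 : ∀ x : G, t * (t * x⁻¹ * t)⁻¹ * t = x := fun x => by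
      rw [mul_inv_rev, mul_inv_rev, inv_inv, hti]
      calc t * (t * (x * t)) * t = (t * t) * x * (t * t) := by group
        _ = x := by rw [htt]; group
    let σ : Equiv.Perm {x : G // q x = q x0} :=
      { toFun := fun x => ⟨t * (x : G)⁻¹ * t, hmapX x x.2⟩
        invFun := fun x => ⟨t * (x : G)⁻¹ * t, hmapX x x.2⟩
        left_inv := fun x => Subtype.ext (hinv2 x)
        right_inv := fun x => Subtype.ext (hinv2 x) }
    have hcardX : Fintype.card {x : G // q x = q x0} = 27 := by
      rw [← Nat.card_eq_fintype_card, ← hJcard]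
      exact Nat.card_congr
        { toFun := fun x => ⟨x0⁻¹ * x, hqker.1 (by rw [map_mul, map_inv, x.2, inv_mul_cancel])⟩
          invFun := fun j => ⟨x0 * j, by rw [map_mul, hqker.2 j.2, mul_one]⟩
          left_inv := fun x => Subtype.ext (mul_inv_cancel_left x0 (x : G))
          right_inv := fun j => Subtype.ext (inv_mul_cancel_left x0 (j : G)) }
    obtain ⟨⟨u, hu⟩, hfixu⟩ := Equiv.Perm.exists_fixed_point_of_prime (p := 2) (n := 1)
      (by rw [hcardX]; norm_num) (σ := σ) (Equiv.ext fun x => by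
        rw [pow_one, pow_two]; exact Subtype.ext (hinv2 x))
    refine ⟨u, hu, ?_⟩
    have h : t * u⁻¹ * t = u := congrArg Subtype.val hfixu
    calc t * u * t = (t * u⁻¹ * t)⁻¹ := by rw [mul_inv_rev, mul_inv_rev, inv_inv, hti]; group
      _ = u⁻¹ := by rw [h]
  obtain ⟨huS, huJ, -⟩ := hgen u huq
  have htpow : ∀ n : ℕ, t * u ^ n * t = (u ^ n)⁻¹ := fun n => by
    have h := conj_pow (a := t) (b := u) (i := n)
    rw [hti, hut] at h
    rw [← h, inv_pow]
  have hu3 : u ^ 3 = 1 := by
    have h3Z : u ^ 3 ∈ Z := hfix u huq _ (hu3J u huq) (Commute.self_pow u 3).eq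
    exact hZexp _ h3Z (eq_inv_iff_mul_eq_one.1 ((htZ _ h3Z).symm.trans (htpow 3)))
  -- a point outside the kernel of the norm
  obtain ⟨y, hyJ, hyN⟩ : ∃ y ∈ J, Nn u y ≠ 1 := by
    by_contra hcon
    push Not at hcon
    have hDZ : ∀ y ∈ J, cj u y * y⁻¹ ∈ Z := fun y hy => by
      refine hfix u huq _ (mul_mem (hcJ _ _ hy) (inv_mem hy)) (mul_inv_eq_iff_eq_mul.1 (mul_inv_eq_one.1 ?_))
      rw [← hcon y hy]; exact hDD u y hy
    let D : J →* Z :=
      { toFun := fun y => ⟨cj u y * (y : G)⁻¹, hDZ y y.2⟩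
        map_one' := Subtype.ext (by simp [cj])
        map_mul' := fun a b => Subtype.ext (by
          change cj u ((a : G) * b) * ((a : G) * b)⁻¹ = cj u a * (a : G)⁻¹ * (cj u b * (b : G)⁻¹)
          have e : cj u ((a : G) * b) = cj u a * cj u b := cj_mul _ _ _
          rw [e, mul_inv_rev, hJab _ (inv_mem b.2) _ (inv_mem a.2)]
          calc cj u a * cj u b * ((a : G)⁻¹ * (b : G)⁻¹) = cj u a * (cj u b * (a : G)⁻¹) * (b : G)⁻¹ := by group
            _ = cj u a * ((a : G)⁻¹ * cj u b) * (b : G)⁻¹ := by rw [hJab _ (hcJ _ _ b.2) _ (inv_mem a.2)]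
            _ = _ := by group) }
    have hk : Nat.card D.ker ≤ 3 := by
      rw [← hZcard]
      refine Nat.card_le_card_of_injective (fun y => ⟨((y : J) : G), hfix u huq _ (y : J).2 ?_⟩)
        fun a b h => Subtype.ext (Subtype.ext (congrArg Subtype.val h :))
      have h : cj u ((y : J) : G) * ((y : J) : G)⁻¹ = 1 := congrArg Subtype.val y.2
      exact mul_inv_eq_iff_eq_mul.1 (mul_inv_eq_one.1 h)
    have hr : Nat.card D.range ≤ 3 := hZcard ▸ Subgroup.card_le_card_group _
    have h := D.ker.card_mul_index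
    rw [Subgroup.index_ker, hJcard] at h
    nlinarith
  set e0 := y * (t * y * t) with he0
  have hytJ : t * y * t ∈ J := by simpa [hti] using hJn.conj_mem y hyJ t
  have he0J : e0 ∈ J := mul_mem hyJ hytJ
  have he0t : t * e0 * t = e0 := by
    rw [he0, htconj, hJab y hyJ _ hytJ]
    congr 1
    calc t * (t * y * t) * t = (t * t) * y * (t * t) := by group
      _ = y := by rw [htt]; group
  set e : ZMod 3 → G := fun i => u ^ i.val * e0 * (u ^ i.val)⁻¹ with he
  have heJ : ∀ i, e i ∈ J := fun i => hcJ _ _ he0J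
  have h3u : ∀ a b : ℕ, a % 3 = b % 3 → u ^ a = u ^ b := fun a b h => by
    rw [pow_eq_pow_mod a hu3, pow_eq_pow_mod b hu3, h]
  let d : Cfsg.Agent.Lib.Recog.WreathThree.Data G :=
    { e := e
      u := u
      t := t
      e_pow := fun i => hJexp _ (heJ i)
      e_comm := fun i j => hJab _ (heJ i) _ (heJ j)
      u_e := fun i => by
        have h1 : u ^ (i + 1).val = u * u ^ i.val := by
          rw [← pow_succ']
          exact h3u _ _ (by rw [ZMod.val_add, val_one3]; omega)
        simp only [he, h1]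
        group
      t_e := fun i => by
        have h1 : u ^ (-i).val = (u ^ i.val)⁻¹ := by
          rw [eq_inv_iff_mul_eq_one, ← Cfsg.Agent.Lib.Recog.WreathThree.pow_val_add hu3,
            neg_add_cancel, ZMod.val_zero, pow_zero]
        have h2 : t * e i * t = e (-i) := by
          simp only [he, h1]
          rw [htconj, htconj, he0t, htpow]
          congr 1
          rw [inv_inv]
          calc t * (u ^ i.val)⁻¹ * t = (t * u ^ i.val * t)⁻¹ := by
                rw [mul_inv_rev, mul_inv_rev, hti]; group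
            _ = _ := by rw [htpow, inv_inv]
        calc t * e i = t * e i * (t * t) := by rw [htt, mul_one]
          _ = e (-i) * t := by rw [← h2]; group
      u_pow := hu3
      t_pow := by rw [pow_two]; exact htt
      t_u := hut }
  have hNe : e 0 * e 1 * e 2 ≠ 1 := by
    have hNeq : ∀ z ∈ J, Nn u z = z * cj u z * cj u (cj u z) := fun z hz => by
      simp only [Nn]
      rw [hJab _ (mul_mem (hcJ _ _ (hcJ _ _ hz)) (hcJ _ _ hz)) z hz,
        hJab _ (hcJ _ _ (hcJ _ _ hz)) _ (hcJ _ _ hz), mul_assoc]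
    have h0 : e 0 * e 1 * e 2 = Nn u e0 := by
      rw [hNeq e0 he0J]
      simp only [he, cj, ZMod.val_zero, val_one3,
        val_two3]
      group
    have hhom : ∀ a ∈ J, ∀ b ∈ J, Nn u (a * b) = Nn u a * Nn u b := by
      intro a ha b hb
      have ec : ∀ a b, cj u (a * b) = cj u a * cj u b := fun a b => by simp only [cj]; group
      simp only [Nn, ec]
      have := hcJ u a ha; have := hcJ u b hb; have := hcJ u _ (hcJ u a ha); have := hcJ u _ (hcJ u b hb)
      let A : Subgroup G := J
      have key : ∀ p q r s v w : J, p * q * (r * s) * (v * w) = p * r * v * (q * s * w) := by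
        intro p q r s v w
        haveI := hJcomm
        letI : CommGroup J := { (inferInstance : Group J) with mul_comm := hJcomm.1.1 }
        simp [mul_comm, mul_left_comm]
      exact congrArg Subtype.val (key ⟨_, by assumption⟩ ⟨_, by assumption⟩ ⟨_, by assumption⟩
        ⟨_, by assumption⟩ ⟨a, ha⟩ ⟨b, hb⟩)
    have htN : Nn u (t * y * t) = Nn u y := by
      have hz := hNZ u huq y hyJ
      rw [← htZ _ hz, hNeq y hyJ, htconj, htconj]
      have e1 : ∀ z, t * cj u z * t = cj u⁻¹ (t * z * t) := fun z => by rw [htcm, hut]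
      rw [e1, e1, e1]
      have e2 : ∀ z ∈ J, cj u⁻¹ z = cj u (cj u z) := fun z hz => by
        have h : u⁻¹ = u * u := inv_eq_of_mul_eq_one_right (by rw [← hu3, pow_three', mul_assoc])
        rw [cj_cj, h]
      rw [e2 _ hytJ, e2 _ (hcJ _ _ (hcJ _ _ hytJ))]
      have h3 : ∀ z ∈ J, cj u (cj u (cj u z)) = z := fun z hz => by
        calc cj u (cj u (cj u z)) = u ^ 3 * z * (u ^ 3)⁻¹ := by rw [cj_cj, cj_cj, cj, pow_three', mul_assoc u u u]
          _ = z := by rw [hu3]; group
      rw [h3 _ (hcJ _ _ hytJ)]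
      simp only [Nn]
      rw [hJab _ (mul_mem (hcJ _ _ (hcJ _ _ hytJ)) (hcJ _ _ hytJ)) _ hytJ]
      group
    rw [h0, he0, hhom y hyJ _ hytJ, htN]
    exact fun h => hyN (hZexp _ (hNZ u huq y hyJ) h)
  have hbij : Function.Bijective (Cfsg.Agent.Lib.Recog.WreathThree.nf d) := by
    rw [Nat.bijective_iff_injective_and_card]
    exact ⟨Cfsg.Agent.Lib.Recog.WreathThree.nf_injective d hJS heJ huS huJ htS hNe,
      by rw [hG, Nat.card_eq_fintype_card]; rfl⟩
  exact Cfsg.Agent.Lib.Recog.WreathThree.iso d centData hbij centData_bijective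

end Cfsg.Agent.S3376
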