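import Cfsg.Statements.S3380
import Cfsg.Agent.Lib.LocalP2.IrredImprimitive

set_option autoImplicit false
open Cfsg

namespace Cfsg.Agent.S3380

/-- Let a finite p-group G act faithfully and irreducibly on a non-trivial finite vector space V over the field with q elements (q prime), and suppose G is not cyclic, generalized quaternion, dihedral or semidihedral. Then G has a subgroup H of index p and V is the direct sum of p subspaces, each invariant under H, on none of which H acts faithfully, and which every element of G outside H permutes in a single p-cycle. -/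
theorem result
    (q : ℕ) [Fact q.Prime] {V : Type*} [AddCommGroup V] [Module (ZMod q) V] [Finite V] [Nontrivial V]
    {G : Type*} [Group G] [Finite G] (p : ℕ) [Fact p.Prime] (hG : IsPGroup p G)
    (ρ : G →* (V ≃ₗ[ZMod q] V)) (hρ : Function.Injective ρ)
    (hirr : ∀ W : Submodule (ZMod q) V, (∀ g : G, ∀ w ∈ W, ρ g w ∈ W) → W = ⊥ ∨ W = ⊤)
    (hnc : ¬ IsCyclic G) (hnq : ∀ n : ℕ, ¬ Nonempty (G ≃* QuaternionGroup n))
    (hnd : ∀ n : ℕ, ¬ Nonempty (G ≃* DihedralGroup n)) (hnsd : ¬ Cfsg.IsQuasiDihedral G) :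
    ∃ (H : Subgroup G) (W : Fin p → Submodule (ZMod q) V), H.index = p ∧
      iSup W = ⊤ ∧ iSupIndep W ∧
      (∀ h ∈ H, ∀ i, ∀ w ∈ W i, ρ h w ∈ W i) ∧
      (∀ i, ∃ h ∈ H, h ≠ 1 ∧ ∀ w ∈ W i, ρ h w = w) ∧
      ∀ g : G, g ∉ H → ∃ σ : Equiv.Perm (Fin p), orderOf σ = p ∧ ∀ i, (W i).map (ρ g : V →ₗ[ZMod q] V) = W (σ i) := by
  classical
  have hp : p.Prime := Fact.out
  haveI : NeZero p := ⟨hp.ne_zero⟩
  obtain ⟨E, hEn, hEc, hEcomm, hEexp⟩ :=
    Lib.LocalP2.IrredImprimitive.exists_normal_sq hG hnc hnq hnd hnsd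
  have hE1 : E ≠ ⊥ := fun h => by
    rw [h, Subgroup.card_bot] at hEc
    exact absurd hEc.symm (Nat.one_lt_pow two_ne_zero hp.one_lt).ne'
  obtain ⟨z, hzE, hzc, hzo⟩ := Lib.Thompson.exists_central_order_p hG (N := E) hE1
  have hzc' : ∀ x : G, x * z = z * x := Subgroup.mem_center_iff.1 hzc
  have hz1 : z ≠ 1 := fun h => by rw [h, orderOf_one] at hzo; exact hp.ne_one hzo.symm
  have hzp : z ^ p = 1 := by rw [← hzo]; exact pow_orderOf_eq_one z
  obtain ⟨e, heE, hez⟩ : ∃ e ∈ E, e ∉ Subgroup.zpowers z := by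
    refine SetLike.not_le_iff_exists.1 fun hle => ?_
    have h := Subgroup.card_le_of_le hle
    rw [hEc, Nat.card_zpowers, hzo, sq] at h
    exact absurd h (not_le.2 (lt_mul_of_one_lt_left hp.pos hp.one_lt))
  have hep : e ^ p = 1 := hEexp e heE
  -- conjugation shifts `e` by powers of `z`
  have hshift : ∀ g : G, e⁻¹ * (g * e * g⁻¹) ∈ Subgroup.zpowers z := by
    intro g
    haveI : (Subgroup.zpowers z).Normal := ⟨fun x hx g => by
      obtain ⟨i, rfl⟩ := Subgroup.mem_zpowers_iff.1 hx
      rw [((show Commute g z from hzc' g).zpow_right i).eq, mul_inv_cancel_right]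
      exact Subgroup.zpow_mem _ (Subgroup.mem_zpowers z) i⟩
    set π := QuotientGroup.mk' (Subgroup.zpowers z)
    haveI : (E.map π).Normal := hEn.map _ (QuotientGroup.mk'_surjective _)
    have hne : E.map π ≠ ⊥ := fun h => by
      rw [Subgroup.map_eq_bot_iff, QuotientGroup.ker_mk'] at h
      exact hez (h heE)
    obtain ⟨y, hy, hyc, hyo⟩ := Lib.Thompson.exists_central_order_p (hG.to_quotient _) hne
    have hEcard : Nat.card (E.map π) = p := by
      have h := Lib.Coprime.card_map_mul_card_inf_ker π E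
      rw [QuotientGroup.ker_mk', inf_eq_right.2 (Subgroup.zpowers_le.2 hzE), Nat.card_zpowers, hzo,
        hEc, sq] at h
      exact Nat.eq_of_mul_eq_mul_right hp.pos h
    have heq : Subgroup.zpowers y = E.map π := Subgroup.eq_of_le_of_card_ge
      (Subgroup.zpowers_le.2 hy) (by rw [hEcard, Nat.card_zpowers, hyo])
    have hec : π e ∈ Subgroup.center _ :=
      (Subgroup.zpowers_le.2 hyc) (heq ▸ Subgroup.mem_map_of_mem π heE)
    rw [← QuotientGroup.eq_one_iff]
    show π (e⁻¹ * (g * e * g⁻¹)) = 1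
    simp only [map_mul, map_inv]
    rw [Subgroup.mem_center_iff.1 hec (π g), mul_inv_cancel_right, inv_mul_cancel]
  have hshift' : ∀ g : G, ∃ m : ℕ, g * e * g⁻¹ = e * z ^ m := fun g => by
    obtain ⟨m, hm⟩ := mem_powers_iff_mem_zpowers.2 (hshift g)
    exact ⟨m, by rw [show z ^ m = e⁻¹ * (g * e * g⁻¹) from hm, mul_inv_cancel_left]⟩
  -- linear algebra
  have hmul : ∀ (a b : G) (v : V), ρ (a * b) v = ρ a (ρ b v) := fun a b v => by
    rw [map_mul]; rfl
  have hinv : ∀ (a : G) (v : V), ρ a (ρ a⁻¹ v) = v := fun a v => by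
    rw [← hmul, mul_inv_cancel, map_one]; rfl
  let L : G → V →ₗ[ZMod q] V := fun a => (ρ a : V →ₗ[ZMod q] V)
  let Fx : G → Submodule (ZMod q) V := fun a => LinearMap.ker (L a - LinearMap.id)
  have hFx : ∀ a v, v ∈ Fx a ↔ ρ a v = v := fun a v => by
    simp [Fx, L, sub_eq_zero]
  have hpow_fix : ∀ (a : G) (v : V), ρ a v = v → ∀ k : ℕ, ρ (a ^ k) v = v := by
    intro a v h k
    induction k with
    | zero => rw [pow_zero, map_one]; rfl
    | succ k ih => rw [pow_succ, hmul, h, ih]
  have hcentral : ∀ c : G, (∀ x, x * c = c * x) → c ≠ 1 → Fx c = ⊥ := by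
    intro c hc hc1
    rcases hirr (Fx c) fun g w hw => by
      rw [hFx] at hw ⊢
      rw [← hmul, ← hc g, hmul, hw] with h | h
    · exact h
    · refine absurd (hρ ?_) hc1
      rw [map_one]
      exact LinearEquiv.ext fun v => (hFx c v).1 (h ▸ Submodule.mem_top)
  have hz0 : ∀ v, ρ z v = v → v = 0 := fun v hv => by
    rw [← Submodule.mem_bot (ZMod q), ← hcentral z hzc' hz1, hFx]; exact hv
  have hpq : (p : ZMod q) ≠ 0 := by
    intro h
    rw [ZMod.natCast_eq_zero_iff] at h
    obtain rfl := (Nat.prime_dvd_prime_iff_eq Fact.out hp).1 h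
    letI : MulAction G V :=
      { smul := fun g v => ρ g v
        one_smul := fun v => by show ρ 1 v = v; rw [map_one]; rfl
        mul_smul := fun a b v => hmul a b v }
    haveI : Finite V := inferInstance
    have hVp : q ∣ Nat.card V := by
      obtain ⟨v, hv⟩ := exists_ne (0 : V)
      have h1 : q • v = 0 := by
        rw [← Nat.cast_smul_eq_nsmul (ZMod q), ZMod.natCast_self, zero_smul]
      have h2 : addOrderOf v ∣ q := addOrderOf_dvd_iff_nsmul_eq_zero.2 h1
      rcases (Nat.dvd_prime hp).1 h2 with h3 | h3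
      · exact absurd (AddMonoid.addOrderOf_eq_one_iff.1 h3) hv
      · exact h3 ▸ addOrderOf_dvd_natCard v
    obtain ⟨v, hv, hv0⟩ := hG.exists_fixed_point_of_prime_dvd_card_of_fixed_point V hVp
      (a := 0) (fun g => map_zero (ρ g))
    exact hv0 (hz0 v (hv z)).symm
  let S : G → V →ₗ[ZMod q] V := fun a => ∑ j ∈ Finset.range p, L (a ^ j)
  have hS : ∀ a v, S a v = ∑ j ∈ Finset.range p, ρ (a ^ j) v := fun a v => by
    simp [S, L]
  have hSfix : ∀ a, a ^ p = 1 → ∀ v, ρ a (S a v) = S a v := by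
    intro a ha v
    rw [hS, map_sum]
    have h1 := Finset.sum_range_succ' (fun j => ρ (a ^ j) v) p
    have h2 := Finset.sum_range_succ (fun j => ρ (a ^ j) v) p
    rw [h2] at h1
    rw [ha, pow_zero] at h1
    refine (Finset.sum_congr rfl fun j _ => ?_).trans (add_right_cancel h1).symm
    rw [pow_succ', hmul]
  have hSz : ∀ j : ℕ, ¬ p ∣ j → ∀ v, S (z ^ j) v = 0 := by
    intro j hj v
    refine hz0 _ ?_
    have hfix := hSfix (z ^ j) (by rw [← pow_mul, mul_comm, pow_mul, hzp, one_pow]) v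
    have hord : orderOf (z ^ j) = p :=
      orderOf_eq_prime (by rw [← pow_mul, mul_comm, pow_mul, hzp, one_pow])
        (fun h => hj (hzo ▸ orderOf_dvd_of_pow_eq_one h))
    have heq : Subgroup.zpowers (z ^ j) = Subgroup.zpowers z := Subgroup.eq_of_le_of_card_ge
      (Subgroup.zpowers_le.2 (Subgroup.pow_mem _ (Subgroup.mem_zpowers z) j))
      (by rw [Nat.card_zpowers, Nat.card_zpowers, hord, hzo])
    obtain ⟨k, hk⟩ := mem_powers_iff_mem_zpowers.2 (heq ▸ Subgroup.mem_zpowers z :
      z ∈ Subgroup.zpowers (z ^ j))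
    have h := hpow_fix _ _ hfix k
    rwa [show (z ^ j) ^ k = z from hk] at h
  have hpwr : ∀ i j : ℕ, (e * z ^ i) ^ j = e ^ j * (z ^ j) ^ i := fun i j => by
    rw [((show Commute e z from hzc' e).pow_right i).mul_pow, ← pow_mul, ← pow_mul, mul_comm i]
  let U : ℕ → Submodule (ZMod q) V := fun i => Fx (e * z ^ i)
  have hUmod : ∀ i, U (i % p) = U i := fun i => by
    show Fx (e * z ^ (i % p)) = Fx (e * z ^ i)
    rw [← hzo, pow_mod_orderOf]
  have hSU : ∀ i v, S (e * z ^ i) v ∈ U i := fun i v => by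
    rw [hFx]
    exact hSfix _ (by rw [hpwr, hep, hzp, one_pow, one_mul]) v
  have hsum : ∀ v, ∑ i ∈ Finset.range p, S (e * z ^ i) v = p • v := by
    intro v
    simp only [hS, hpwr]
    rw [Finset.sum_comm, Finset.sum_eq_single 0]
    · simp
    · intro j hj hj0
      have hzero := hSz j (fun hd => hj0 (Nat.eq_zero_of_dvd_of_lt hd (Finset.mem_range.1 hj))) v
      rw [hS] at hzero
      simp only [hmul]
      rw [← map_sum (ρ (e ^ j)), hzero, map_zero]
    · intro h
      exact absurd (Finset.mem_range.2 hp.pos) h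
  have hscale : ∀ v : V, p • v = 0 → v = 0 := fun v hv => by
    rw [← Nat.cast_smul_eq_nsmul (ZMod q)] at hv
    exact (smul_eq_zero.1 hv).resolve_left hpq
  have hkill : ∀ i k : Fin p, i ≠ k → ∀ w ∈ U k.val, S (e * z ^ i.val) w = 0 := by
    intro i k hik w hw
    rw [hFx] at hw
    have hd : ¬ p ∣ i.val + (p - k.val) := by
      intro h
      obtain ⟨c, hc⟩ := h
      have := i.2
      have := k.2
      rcases Nat.lt_or_ge c 2 with hc2 | hc2
      · interval_cases c
        · omega
        · exact hik (Fin.ext (by omega))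
      · have : p * 2 ≤ p * c := Nat.mul_le_mul_left p hc2
        omega
    rw [← hSz _ hd w, hS, hS]
    refine Finset.sum_congr rfl fun j _ => ?_
    have h1 : ρ ((e * z ^ k.val) ^ j) w = w := hpow_fix _ _ hw j
    conv_rhs => rw [← h1]
    rw [← hmul]
    congr 2
    rw [hpwr, hpwr]
    rw [← pow_mul, ← pow_mul, ← pow_mul, ← mul_assoc, ((show Commute e z from hzc' e).pow_pow j _).symm.eq,
      mul_assoc, ← pow_add]
    congr 1
    refine pow_eq_pow_iff_modEq.2 ?_
    rw [hzo, show (i.val + (p - k.val)) * j + j * k.val = j * i.val + p * j by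
      rw [add_mul, add_assoc, mul_comm j k.val, ← add_mul, Nat.sub_add_cancel k.2.le, mul_comm i.val]]
    exact (Nat.modEq_iff_dvd' (Nat.le_add_right _ _)).2 ⟨j, by omega⟩
  have hself : ∀ i : ℕ, ∀ w ∈ U i, S (e * z ^ i) w = p • w := by
    intro i w hw
    rw [hFx] at hw
    rw [hS, Finset.sum_congr rfl fun j _ => hpow_fix _ _ hw j, Finset.sum_const, Finset.card_range]
  have htop : (⨆ i : Fin p, U i.val) = ⊤ := by
    refine Submodule.eq_top_iff'.2 fun v => ?_
    have : (p : ZMod q) • v ∈ ⨆ i : Fin p, U i.val := by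
      rw [Nat.cast_smul_eq_nsmul, ← hsum]
      refine Submodule.sum_mem _ fun i hi => ?_
      exact Submodule.mem_iSup_of_mem ⟨i, Finset.mem_range.1 hi⟩ (hSU i v)
    have h2 := Submodule.smul_mem _ (p : ZMod q)⁻¹ this
    rwa [inv_smul_smul₀ hpq] at h2
  -- the stabiliser
  let f : G →* Subgroup.zpowers z := MonoidHom.mk' (fun g => ⟨_, hshift g⟩) fun a b => by
    refine Subtype.ext ?_
    obtain ⟨i, hi⟩ := hshift' a
    obtain ⟨j, hj⟩ := hshift' b
    show e⁻¹ * (a * b * e * (a * b)⁻¹) = e⁻¹ * (a * e * a⁻¹) * (e⁻¹ * (b * e * b⁻¹))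
    rw [hi, hj, inv_mul_cancel_left, inv_mul_cancel_left,
      show a * b * e * (a * b)⁻¹ = a * (b * e * b⁻¹) * a⁻¹ by group, hj,
      show a * (e * z ^ j) * a⁻¹ = (a * e * a⁻¹) * (a * z ^ j * a⁻¹) by group, hi,
      ((show Commute a z from hzc' a).pow_right j).eq, mul_inv_cancel_right, mul_assoc,
      inv_mul_cancel_left]
  have hf : ∀ g, g ∈ f.ker ↔ g * e * g⁻¹ = e := fun g => by
    rw [MonoidHom.mem_ker, Subtype.ext_iff]
    show e⁻¹ * (g * e * g⁻¹) = 1 ↔ _
    rw [inv_mul_eq_one, eq_comm]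
  have hnotc : ∃ g : G, g ∉ f.ker := by
    by_contra! hall
    have hec : ∀ x, x * e = e * x := fun x => mul_inv_eq_iff_eq_mul.1 ((hf x).1 (hall x))
    have hbot : ∀ i : ℕ, U i = ⊥ := fun i => hcentral _
      (fun x => by rw [← mul_assoc, hec, mul_assoc, ((show Commute x z from hzc' x).pow_right i).eq,
        mul_assoc])
      (fun h => hez (by
        rw [eq_inv_of_mul_eq_one_left h]
        exact Subgroup.inv_mem _ (Subgroup.pow_mem _ (Subgroup.mem_zpowers z) i)))
    rw [iSup_eq_bot.2 fun i : Fin p => hbot i] at htop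
    exact bot_ne_top htop
  refine ⟨f.ker, fun i => U i.val, ?_, htop, ?_, ?_, ?_, ?_⟩
  · rw [Subgroup.index_ker]
    have hne : f.range ≠ ⊥ := by
      obtain ⟨g, hg⟩ := hnotc
      intro h
      exact hg (MonoidHom.mem_ker.2 ((Subgroup.mem_bot).1 (h ▸ MonoidHom.mem_range.2 ⟨g, rfl⟩)))
    have hd := Subgroup.card_subgroup_dvd_card f.range
    rw [Nat.card_zpowers, hzo] at hd
    exact ((Nat.dvd_prime hp).1 hd).resolve_left fun h => hne (Subgroup.card_eq_one.1 h)
  · rw [iSupIndep_def]
    intro i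
    rw [Submodule.disjoint_def]
    intro w hw hw'
    have hle : (⨆ (k : Fin p) (_ : k ≠ i), U k.val) ≤ LinearMap.ker (S (e * z ^ i.val)) :=
      iSup₂_le fun k hk v hv => LinearMap.mem_ker.2 (hkill i k (Ne.symm hk) v hv)
    exact hscale w ((hself _ w hw).symm.trans (LinearMap.mem_ker.1 (hle hw')))
  · intro h hh i w hw
    rw [hFx] at hw ⊢
    rw [← hmul, show e * z ^ i.val * h = h * (e * z ^ i.val) by
      rw [← mul_assoc, mul_inv_eq_iff_eq_mul.1 ((hf h).1 hh), mul_assoc, mul_assoc,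
        ((show Commute h z from hzc' h).pow_right _).eq], hmul, hw]
  · intro i
    refine ⟨e * z ^ i.val, ?_, ?_, fun w hw => (hFx _ _).1 hw⟩
    · rw [hf, mul_assoc e, ← ((show Commute e z from hzc' e).pow_right _).eq]
      group
    · exact fun h => hez (by
        rw [eq_inv_of_mul_eq_one_left h]
        exact Subgroup.inv_mem _ (Subgroup.pow_mem _ (Subgroup.mem_zpowers z) _))
  · intro g hg
    obtain ⟨m, hm⟩ := hshift' g
    have hpm : ¬ p ∣ m := fun ⟨c, hc⟩ => hg ((hf g).2 (by rw [hm, hc, pow_mul, hzp, one_pow, mul_one]))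
    refine ⟨Equiv.addRight (Fin.ofNat p m), ?_, fun i => ?_⟩
    · have hord : ∀ k : ℕ, ((Equiv.addRight (Fin.ofNat p m)) ^ k) 0 = k • Fin.ofNat p m := by
        intro k
        induction k with
        | zero => simp
        | succ k ih => rw [pow_succ', Equiv.Perm.mul_apply, ih, succ_nsmul]; rfl
      refine orderOf_eq_prime (Equiv.ext fun i => ?_) fun h => ?_
      · have hgen : ∀ k : ℕ, ((Equiv.addRight (Fin.ofNat p m)) ^ k) i = i + k • Fin.ofNat p m := by
          intro k
          induction k with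
          | zero => simp
          | succ k ih => rw [pow_succ', Equiv.Perm.mul_apply, ih, succ_nsmul, ← add_assoc]; rfl
        rw [hgen]
        have h0 : p • Fin.ofNat p m = 0 := by
          have := card_nsmul_eq_zero (x := Fin.ofNat p m)
          rwa [Fintype.card_fin] at this
        rw [h0, add_zero]; rfl
      · have := congrArg (fun σ : Equiv.Perm (Fin p) => (σ 0).val) h
        simp at this
        exact hpm (Nat.dvd_of_mod_eq_zero this)
    · have hval : ((Equiv.addRight (Fin.ofNat p m)) i).val = (i.val + m) % p := by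
        simp [Fin.val_add]
      show (U i.val).map _ = U ((Equiv.addRight (Fin.ofNat p m)) i).val
      rw [hval, hUmod]
      have hconj : g * (e * z ^ i.val) * g⁻¹ = e * z ^ (i.val + m) := by
        rw [show g * (e * z ^ i.val) * g⁻¹ = (g * e * g⁻¹) * (g * z ^ i.val * g⁻¹) by group, hm,
          ((show Commute g z from hzc' g).pow_right _).eq, mul_inv_cancel_right, mul_assoc, ← pow_add,
          add_comm]
      ext v
      rw [hFx, Submodule.mem_map]
      constructor
      · rintro ⟨w, hw, rfl⟩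
        rw [hFx] at hw
        show ρ _ (ρ g w) = ρ g w
        rw [← hmul, ← hconj, inv_mul_cancel_right, hmul, hw]
      · intro hv
        refine ⟨ρ g⁻¹ v, ?_, hinv g v⟩
        rw [hFx, ← hmul, show e * z ^ i.val * g⁻¹ = g⁻¹ * (e * z ^ (i.val + m)) by rw [← hconj]; group,
          hmul, hv]

end Cfsg.Agent.S3380
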