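import Cfsg.Statements.S3389
import Mathlib

set_option autoImplicit false
open Cfsg

namespace Cfsg.Agent.S3389

/-- Let G be a finite group acting faithfully and transitively on a finite set Ω with fixity k ≥ 1: every non-identity element fixes at most k points and some non-identity element fixes exactly k points. Then |Z(G)| divides k; if k = 2 then |G| is even; and for every prime p > k dividing |G| and every point α, either p does not divide |G_α| or G_α contains a Sylow p-subgroup of G. -/
theorem result {G : Type*} [Group G] [Finite G] {Ω : Type*} [Fintype Ω] [MulAction G Ω] [FaithfulSMul G Ω]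
    (htr : MulAction.IsPretransitive G Ω) (k : ℕ) (hk : 1 ≤ k)
    (hfix : ∀ g : G, g ≠ 1 → Nat.card (MulAction.fixedBy Ω g) ≤ k) (hex : ∃ g : G, g ≠ 1 ∧ Nat.card (MulAction.fixedBy Ω g) = k) :
    Nat.card (Subgroup.center G) ∣ k ∧ (k = 2 → 2 ∣ Nat.card G) ∧
      ∀ (p : ℕ), p.Prime → k < p → p ∣ Nat.card G → ∀ α : Ω,
        ¬ p ∣ Nat.card (MulAction.stabilizer G α) ∨ ¬ p ∣ (MulAction.stabilizer G α).index := by
  classical
  haveI := htr
  have fix_smul : ∀ (g h : G) (a : Ω), g * h = h * g → g • a = a → g • h • a = h • a := by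
    intro g h a e hga
    rw [← mul_smul, e, mul_smul, hga]
  have small : ∀ (P : Subgroup G), P ≠ ⊥ → Nat.card (MulAction.fixedPoints P Ω) ≤ k := by
    intro P hP
    obtain ⟨x, hx, hx1⟩ := P.bot_or_exists_ne_one.resolve_left hP
    exact (Nat.card_mono (s := MulAction.fixedPoints P Ω) (t := MulAction.fixedBy Ω x)
      (Set.toFinite _) fun y hy => hy ⟨x, hx⟩).trans (hfix x hx1)
  have normInv : ∀ (P : Subgroup G) (n : G), n ∈ Subgroup.normalizer (P : Set G) →
      ∀ y ∈ MulAction.fixedPoints P Ω, n • y ∈ MulAction.fixedPoints P Ω := by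
    intro P n hn y hy x
    have h1 : (⟨n⁻¹ * x * n, (Subgroup.mem_normalizer_iff''.1 hn _).1 x.2⟩ : P) • y = y := hy _
    rw [Subgroup.smul_def] at h1 ⊢
    rw [← mul_smul, show (x : G) * n = n * (n⁻¹ * x * n) by group, mul_smul, h1]
  refine ⟨?_, ?_, ?_⟩
  · obtain ⟨g, hg1, hgk⟩ := hex
    let Z := Subgroup.center G
    let F := MulAction.fixedBy Ω g
    letI : MulAction Z F :=
      { smul := fun z y => ⟨(z : G) • (y : Ω), fix_smul g z y (Subgroup.mem_center_iff.1 z.2 g) y.2⟩
        one_smul := fun y => Subtype.ext (one_smul G (y : Ω))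
        mul_smul := fun a b y => Subtype.ext (mul_smul (a : G) (b : G) (y : Ω)) }
    have hfree : ∀ y : F, MulAction.stabilizer Z y = ⊥ := by
      intro y
      rw [eq_bot_iff]
      intro z hz
      refine Subgroup.mem_bot.2 (Subtype.ext (FaithfulSMul.eq_of_smul_eq_smul (α := Ω) fun w => ?_))
      obtain ⟨h, rfl⟩ := MulAction.exists_smul_eq G (y : Ω) w
      have hzy : (z : G) • (y : Ω) = y := congrArg Subtype.val hz
      rw [fix_smul z h y (Subgroup.mem_center_iff.1 z.2 h).symm hzy]
      exact (one_smul G _).symm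
    have e : F ≃ MulAction.orbitRel.Quotient Z F × Z :=
      MulAction.selfEquivOrbitsQuotientProd hfree
    rw [← hgk, Nat.card_congr e, Nat.card_prod]
    exact dvd_mul_left _ _
  · intro hk2
    subst hk2
    by_contra hodd
    obtain ⟨g, hg1, hg2⟩ := hex
    rw [Nat.card_eq_two_iff] at hg2
    obtain ⟨⟨a, ha⟩, ⟨b, hb⟩, hab, huniv⟩ := hg2
    have hne : a ≠ b := fun e => hab (Subtype.ext e)
    let K : Subgroup G := MulAction.stabilizer G a ⊓ MulAction.stabilizer G b
    have hK : Nat.card K ≠ 1 := fun e => hg1 (by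
      have : g ∈ K := ⟨ha, hb⟩
      rw [Subgroup.eq_bot_of_card_eq _ e] at this
      exact this)
    obtain ⟨p, hp, hpd⟩ := Nat.exists_prime_and_dvd hK
    haveI : Fact p.Prime := ⟨hp⟩
    let S : Sylow p K := default
    let P : Subgroup G := (S : Subgroup K).map K.subtype
    have hPK : P ≤ K := Subgroup.map_subtype_le _
    have hPne : P ≠ ⊥ := fun e => S.ne_bot_of_dvd_card hpd
      ((Subgroup.map_eq_bot_iff_of_injective _ K.subtype_injective).1 e)
    have hfp : MulAction.fixedPoints P Ω = {a, b} := by
      refine (Set.eq_of_subset_of_ncard_le ?_ ?_ (Set.toFinite _)).symm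
      · rintro y (rfl | rfl) x
        · exact (hPK x.2).1
        · exact (hPK x.2).2
      · rw [Set.ncard_pair hne, ← Nat.card_coe_set_eq]
        exact small P hPne
    -- no element swaps the two points
    have noswap : ∀ n : G, n • a = b → n • b = a → False := by
      intro n h1 h2
      have hq : ∀ i : ℕ, n ^ (2 * i + 1) • a = b := by
        intro i
        induction i with
        | zero => simpa using h1
        | succ i ih =>
          rw [show 2 * (i + 1) + 1 = 2 + (2 * i + 1) by ring, pow_add, mul_smul, ih, pow_two,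
            mul_smul, h2, h1]
      have hoddn : orderOf n % 2 = 1 := by
        rcases Nat.mod_two_eq_zero_or_one (orderOf n) with h | h
        · exact absurd ((Nat.dvd_of_mod_eq_zero h).trans (orderOf_dvd_natCard n)) hodd
        · exact h
      have := hq (orderOf n / 2)
      rw [show 2 * (orderOf n / 2) + 1 = orderOf n by omega, pow_orderOf_eq_one, one_smul] at this
      exact hne this
    have hN : Subgroup.normalizer (P : Set G) ≤ K := by
      intro n hn
      have h1 : n • a ∈ ({a, b} : Set Ω) := hfp ▸ normInv P n hn a (hfp.symm ▸ Or.inl rfl)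
      have h2 : n • b ∈ ({a, b} : Set Ω) := hfp ▸ normInv P n hn b (hfp.symm ▸ Or.inr rfl)
      rcases h1 with h1 | h1
      · rcases h2 with h2 | h2
        · exact absurd (smul_left_cancel n (h1.trans h2.symm)) hne
        · exact ⟨h1, h2⟩
      · rcases h2 with h2 | h2
        · exact absurd h2 (fun e => noswap n h1 e)
        · exact absurd (smul_left_cancel n (h1.trans h2.symm)) hne
    obtain ⟨Q, hQ⟩ := (S.2.map K.subtype).exists_le_sylow (G := G)
    have hQK : (Q : Subgroup G) = P := by
      by_contra hne'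
      have hlt : P.subgroupOf (Q : Subgroup G) < ⊤ :=
        lt_top_iff_ne_top.2 fun e => hne' (le_antisymm (Subgroup.subgroupOf_eq_top.1 e) hQ)
      haveI : Group.IsNilpotent (Q : Subgroup G) := Q.2.isNilpotent
      obtain ⟨x, hxn, hxP⟩ := SetLike.exists_of_lt
        (Group.normalizerCondition_of_isNilpotent (G := (Q : Subgroup G)) _ hlt)
      have hx : (x : G) ∈ Subgroup.normalizer (P : Set G) := by
          rw [Subgroup.mem_normalizer_iff] at hxn ⊢
          intro y
          constructor
          · intro hy; exact (hxn ⟨y, hQ hy⟩).1 hy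
          · intro hy
            have hyQ : y ∈ (Q : Subgroup G) := by
              have := (Q : Subgroup G).mul_mem ((Q : Subgroup G).mul_mem ((Q : Subgroup G).inv_mem x.2)
                (hQ hy)) x.2
              simpa [mul_assoc] using this
            exact (hxn ⟨y, hyQ⟩).2 hy
      -- `P` and `x` generate a larger `p`-subgroup of `K`
      let R : Subgroup G := K ⊓ (Q : Subgroup G)
      have hRp : IsPGroup p R := Q.2.to_le inf_le_right
      have h3 : (S : Subgroup K) = R.subgroupOf K := (S.3
        (hRp.comap_of_injective K.subtype K.subtype_injective)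
        (fun z hz => Subgroup.mem_subgroupOf.2 ⟨z.2, hQ ⟨z, hz, rfl⟩⟩)).symm
      apply hxP
      rw [Subgroup.mem_subgroupOf]
      refine ⟨⟨x, hN hx⟩, ?_, rfl⟩
      rw [SetLike.mem_coe, h3]
      exact Subgroup.mem_subgroupOf.2 ⟨hN hx, x.2⟩
    -- conjugate back to get a swap
    obtain ⟨h, hh⟩ := MulAction.exists_smul_eq G a b
    let Gb := MulAction.stabilizer G b
    have hQb : (Q : Subgroup G) ≤ Gb := fun z hz => (hPK (hQK ▸ hz)).2
    have hQ'b : ((h • Q : Sylow p G) : Subgroup G) ≤ Gb := by
      rintro _ ⟨z, hz, rfl⟩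
      have hza : z • a = a := (hPK (hQK ▸ hz)).1
      change (h * z * h⁻¹) • b = b
      rw [← hh, mul_smul, mul_smul, inv_smul_smul, hza]
    obtain ⟨x, hx⟩ := MulAction.exists_smul_eq Gb ((h • Q).subtype hQ'b) (Q.subtype hQb)
    rw [Sylow.smul_subtype] at hx
    have hxQ : ((x : G) * h) • Q = Q := by
      rw [mul_smul]
      exact Sylow.subtype_injective hx
    have hn : (x : G) * h ∈ Subgroup.normalizer (P : Set G) := by
      rw [← hQK]
      exact Sylow.smul_eq_iff_mem_normalizer.1 hxQ
    have h1 : ((x : G) * h) • a = a := (hN hn).1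
    rw [mul_smul, hh, show (x : G) • b = b from x.2] at h1
    exact hne h1.symm
  · intro p hp hpk hpG α
    by_contra hne
    push Not at hne
    obtain ⟨h1, h2⟩ := hne
    haveI : Fact p.Prime := ⟨hp⟩
    let K := MulAction.stabilizer G α
    let S : Sylow p K := default
    let P : Subgroup G := (S : Subgroup K).map K.subtype
    have hPK : P ≤ K := Subgroup.map_subtype_le _
    have hPne : P ≠ ⊥ := fun e => S.ne_bot_of_dvd_card h1
      ((Subgroup.map_eq_bot_iff_of_injective _ K.subtype_injective).1 e)
    obtain ⟨Q, hQ⟩ := (S.2.map K.subtype).exists_le_sylow (G := G)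
    have hQP : ¬ (Q : Subgroup G) ≤ P := by
      intro e
      apply Q.not_dvd_index
      exact h2.trans (Subgroup.index_dvd_of_le (e.trans hPK))
    haveI : Group.IsNilpotent (Q : Subgroup G) := Q.2.isNilpotent
    obtain ⟨x, hxn, hxP⟩ := SetLike.exists_of_lt
      (Group.normalizerCondition_of_isNilpotent (G := (Q : Subgroup G)) (P.subgroupOf Q)
        (lt_top_iff_ne_top.2 fun e => hQP (Subgroup.subgroupOf_eq_top.1 e)))
    have hx : (x : G) ∈ Subgroup.normalizer (P : Set G) := by
      rw [Subgroup.mem_normalizer_iff] at hxn ⊢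
      intro y
      constructor
      · intro hy; exact (hxn ⟨y, hQ hy⟩).1 hy
      · intro hy
        have hyQ : y ∈ (Q : Subgroup G) := by
          have := (Q : Subgroup G).mul_mem ((Q : Subgroup G).mul_mem ((Q : Subgroup G).inv_mem x.2)
            (hQ hy)) x.2
          simpa [mul_assoc] using this
        exact (hxn ⟨y, hyQ⟩).2 hy
    -- a `p`-element on fewer than `p` points fixes all of them
    let X := Subgroup.zpowers (x : G)
    let F := MulAction.fixedPoints P Ω
    letI : MulAction X F :=
      { smul := fun z y => ⟨(z : G) • (y : Ω),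
          normInv P z (Subgroup.zpowers_le.2 hx z.2) y y.2⟩
        one_smul := fun y => Subtype.ext (one_smul G (y : Ω))
        mul_smul := fun u v y => Subtype.ext (mul_smul (u : G) (v : G) (y : Ω)) }
    have hXp : IsPGroup p X := Q.2.to_le (Subgroup.zpowers_le.2 x.2)
    have hxα : (x : G) • α = α := by
      let y : F := ⟨α, fun z => hPK z.2⟩
      obtain ⟨n, hn⟩ := hXp.card_orbit y
      rcases n with _ | n
      · rw [pow_zero, Nat.card_eq_one_iff_unique] at hn
        have := hn.1.elim ⟨_, MulAction.mem_orbit y ⟨x, Subgroup.mem_zpowers _⟩⟩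
          ⟨y, MulAction.mem_orbit_self y⟩
        exact congrArg Subtype.val (congrArg Subtype.val this)
      · exfalso
        have h3 : Nat.card (MulAction.orbit X y) ≤ Nat.card F := Finite.card_subtype_le _
        rw [hn, pow_succ] at h3
        have h4 : Nat.card F ≤ k := small P hPne
        have h5 : p ≤ p ^ n * p := Nat.le_mul_of_pos_left p (Nat.pow_pos hp.pos)
        omega
    -- so it lies in the Sylow subgroup of the stabilizer
    let R : Subgroup G := K ⊓ (Q : Subgroup G)
    have h3 : (S : Subgroup K) = R.subgroupOf K := (S.3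
      ((Q.2.to_le inf_le_right : IsPGroup p R).comap_of_injective K.subtype K.subtype_injective)
      (fun z hz => Subgroup.mem_subgroupOf.2 ⟨z.2, hQ ⟨z, hz, rfl⟩⟩)).symm
    apply hxP
    rw [Subgroup.mem_subgroupOf]
    refine ⟨⟨x, hxα⟩, ?_, rfl⟩
    rw [SetLike.mem_coe, h3]
    exact Subgroup.mem_subgroupOf.2 ⟨hxα, x.2⟩

end Cfsg.Agent.S3389
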