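import Cfsg.Statements.S3391
import Cfsg.Agent.Lib.Suz.Fixity

set_option autoImplicit false
open Cfsg

namespace Cfsg.Agent.S3391

/-- Let q = 2^{2m+1} ≥ 8 and let G be isomorphic to the Suzuki group Sz(q). If G acts faithfully and transitively on a finite set Ω with fixity 2 (every non-identity element fixes at most two points, and some fixes exactly two), then either |Ω| = q² + 1 and the action is 2-transitive, or |Ω| = q²(q² + 1) and the point stabilizers have order q − 1. -/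
theorem result {G : Type*} [Group G] [Finite G] (F : Type) [Field F] [Fintype F] (m : ℕ) (hm : 1 ≤ m) (hF : Fintype.card F = 2 ^ (2 * m + 1))
    (e : G ≃* ↥(Cfsg.Lie.Sz F (2 ^ (m + 1)))) {Ω : Type*} [Fintype Ω] [MulAction G Ω] [FaithfulSMul G Ω] (htr : MulAction.IsPretransitive G Ω)
    (hfix : ∀ g : G, g ≠ 1 → Nat.card (MulAction.fixedBy Ω g) ≤ 2) (hex : ∃ g : G, g ≠ 1 ∧ Nat.card (MulAction.fixedBy Ω g) = 2) :
    (Fintype.card Ω = Fintype.card F ^ 2 + 1 ∧ MulAction.IsMultiplyPretransitive G Ω 2) ∨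
    (Fintype.card Ω = Fintype.card F ^ 2 * (Fintype.card F ^ 2 + 1) ∧ ∀ α : Ω, Nat.card (MulAction.stabilizer G α) = Fintype.card F - 1) := by
  haveI := Cfsg.Agent.Lib.Suz.charP_two (m := m) ⟨hm, hF⟩
  have c : Cfsg.Agent.Lib.Suz.Ctx F m := ⟨hm, hF⟩
  let f : ↥(Cfsg.Sz F m) ≃* G := (Cfsg.Agent.Lib.Suz.lieEquiv c).trans e.symm
  letI : MulAction ↥(Cfsg.Sz F m) Ω := MulAction.compHom Ω f.toMonoidHom
  have hsmul : ∀ (g : ↥(Cfsg.Sz F m)) (o : Ω), g • o = f g • o := fun _ _ => rfl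
  haveI := htr
  haveI : MulAction.IsPretransitive ↥(Cfsg.Sz F m) Ω := ⟨fun x y => by
    obtain ⟨g, hg⟩ := MulAction.exists_smul_eq G x y
    exact ⟨f.symm g, by rw [hsmul, f.apply_symm_apply]; exact hg⟩⟩
  haveI : FaithfulSMul ↥(Cfsg.Sz F m) Ω := ⟨fun {g h} hgh => f.injective (FaithfulSMul.eq_of_smul_eq_smul hgh)⟩
  have hfb : ∀ g, MulAction.fixedBy Ω g = MulAction.fixedBy Ω (f g) := fun g => rfl
  rcases Cfsg.Agent.Lib.Suz.fixity_two c (Ω := Ω)
      (fun g hg => by rw [hfb]; exact hfix _ fun h => hg (f.injective (h.trans (map_one f).symm)))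
      (by
        obtain ⟨g, hg, hg2⟩ := hex
        exact ⟨f.symm g, fun h => hg (f.symm.injective (h.trans (map_one f.symm).symm)),
          by rw [hfb, f.apply_symm_apply]; exact hg2⟩) with ⟨h1, h2⟩ | ⟨h1, h2⟩
  · refine Or.inl ⟨by rw [← Nat.card_eq_fintype_card, h1], ?_⟩
    rw [MulAction.is_two_pretransitive_iff] at h2 ⊢
    intro a b x y hab hxy
    obtain ⟨g, ha, hb⟩ := h2 hab hxy
    exact ⟨f g, ha, hb⟩
  · refine Or.inr ⟨by rw [← Nat.card_eq_fintype_card, h1], fun α => ?_⟩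
    rw [← h2 α]
    exact Nat.card_congr (f.symm.toEquiv.subtypeEquiv fun g => by
      rw [MulAction.mem_stabilizer_iff, MulAction.mem_stabilizer_iff, hsmul]
      simp)

end Cfsg.Agent.S3391
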