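import Cfsg.Statements.S3412
import Cfsg.Agent.Lib.GLTwoThree.Graph

set_option autoImplicit false
open Cfsg

namespace Cfsg.Agent.S3412

/-- Let H be a finite group whose commuting graph (vertices the non-identity elements, two joined when they commute) is isomorphic to that of PSL_3(3): there is a bijection between the non-identity elements of H and of PSL_3(3) under which two elements commute exactly when their images do. Then H ≅ PSL_3(3). -/
theorem result {H : Type*} [Group H] [Finite H]
    (f : {h : H // h ≠ 1} ≃ {g : Matrix.ProjectiveSpecialLinearGroup (Fin 3) (ZMod 3) // g ≠ 1})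
    (hf : ∀ x y : {h : H // h ≠ 1}, (x : H) * y = y * x ↔ ((f x) : Matrix.ProjectiveSpecialLinearGroup (Fin 3) (ZMod 3)) * (f y) = (f y) * (f x)) :
    Nonempty (H ≃* Matrix.ProjectiveSpecialLinearGroup (Fin 3) (ZMod 3)) := by
  classical
  let F : H ≃ Matrix.ProjectiveSpecialLinearGroup (Fin 3) (ZMod 3) :=
    (Equiv.optionSubtypeNe (1 : H)).symm.trans ((Equiv.optionCongr f).trans (Equiv.optionSubtypeNe 1))
  have hone : F 1 = 1 := by simp [F]
  have hne : ∀ x : {h : H // h ≠ 1}, F x.1 = (f x).1 := fun x => by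
    simp [F, Equiv.optionSubtypeNe_symm_of_ne x.2]
  refine Lib.GLTwoThree.iso_of_graph F (fun a b => ?_) hone
  by_cases ha : a = 1
  · simp [ha, hone]
  by_cases hb : b = 1
  · simp [hb, hone]
  rw [hne ⟨a, ha⟩, hne ⟨b, hb⟩]
  exact hf ⟨a, ha⟩ ⟨b, hb⟩

end Cfsg.Agent.S3412
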