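import Cfsg.Statements.S3413
import Cfsg.Agent.Lib.M11Recog.Main

set_option autoImplicit false
open Cfsg

namespace Cfsg.Agent.S3413

theorem card_ne_one_add (X : Type*) [Group X] [Finite X] :
    Nat.card {x : X // x ≠ 1} + 1 = Nat.card X := by
  classical
  rw [← Finite.card_option]
  exact Nat.card_congr (Equiv.optionSubtypeNe 1)

theorem card_centralizer_split {X : Type*} [Group X] [Finite X] (a : X) :
    Nat.card (Subgroup.centralizer ({a} : Set X)) =
      Nat.card {y : {h : X // h ≠ 1} // (y : X) * a = a * y} + 1 := by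
  rw [← card_ne_one_add]
  congr 1
  exact Nat.card_congr
    { toFun := fun y => ⟨⟨(y.1 : X), fun h => y.2 (Subtype.ext h)⟩,
        Subgroup.mem_centralizer_singleton_iff.1 y.1.2⟩
      invFun := fun y => ⟨⟨(y.1 : X), Subgroup.mem_centralizer_singleton_iff.2 y.2⟩,
        fun h => y.1.2 (congrArg Subtype.val h)⟩
      left_inv := fun y => rfl
      right_inv := fun y => rfl }

/-- Let H be a finite group whose commuting graph (vertices the non-identity elements, two joined when they commute) is isomorphic to that of the Mathieu group M_11: there is a bijection between the non-identity elements of H and of M_11 under which two elements commute exactly when their images do. Then H ≅ M_11. -/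
theorem result {H : Type*} [Group H] [Finite H]
    (f : {h : H // h ≠ 1} ≃ {g : ↥Cfsg.Spor.M11 // g ≠ 1})
    (hf : ∀ x y : {h : H // h ≠ 1}, (x : H) * y = y * x ↔ ((f x) : ↥Cfsg.Spor.M11) * (f y) = (f y) * (f x)) :
    Nonempty (H ≃* ↥Cfsg.Spor.M11) := by
  haveI : Fact (Nat.Prime 11) := ⟨by norm_num⟩
  haveI : Fact (Nat.Prime 5) := ⟨by norm_num⟩
  haveI := Cfsg.Agent.Lib.M11Recog.spor_m11_simple
  have hM := Cfsg.Agent.Lib.M11Recog.spor_m11_card
  haveI : Finite {h : H // h ≠ 1} := inferInstance
  have hcard : Nat.card H = 7920 := by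
    rw [← card_ne_one_add H, Nat.card_congr f, card_ne_one_add, hM]
  have hC : ∀ x : {h : H // h ≠ 1}, Nat.card (Subgroup.centralizer ({(x : H)} : Set H)) =
      Nat.card (Subgroup.centralizer ({((f x) : ↥Cfsg.Spor.M11)} : Set ↥Cfsg.Spor.M11)) := by
    intro x
    classical
    rw [card_centralizer_split, card_centralizer_split]
    congr 1
    exact Nat.card_congr (f.subtypeEquiv fun y => hf y x)
  have hcount : ∀ (p : ℕ) [Fact p.Prime], (p = 5 ∨ p = 11) →
      Nat.card {g : ↥Cfsg.Spor.M11 // orderOf g = p} ≤ Nat.card {h : H // orderOf h = p} := by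
    intro p hpF hp
    have hne1 : ∀ g : {g : ↥Cfsg.Spor.M11 // orderOf g = p}, (g : ↥Cfsg.Spor.M11) ≠ 1 := by
      intro g h
      have h2 := g.2
      rw [h, orderOf_one] at h2
      exact hpF.out.ne_one h2.symm
    have hord : ∀ g : {g : ↥Cfsg.Spor.M11 // orderOf g = p},
        orderOf ((f.symm ⟨g, hne1 g⟩ : {h : H // h ≠ 1}) : H) = p := by
      intro g
      set x := f.symm ⟨(g : ↥Cfsg.Spor.M11), hne1 g⟩ with hx
      have h1 := hC x
      rw [hx, Equiv.apply_symm_apply] at h1
      have h2 : Nat.card (Subgroup.centralizer ({(g : ↥Cfsg.Spor.M11)} : Set ↥Cfsg.Spor.M11)) = p := by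
        rcases Cfsg.Agent.Lib.M11Recog.card_centralizer_prime hM hpF.out g.2 with
          ⟨e, c⟩ | ⟨e, c⟩ | ⟨e, c⟩ | ⟨e, c⟩ <;> first | (rw [e]; exact c) | omega
      rw [h2, ← hx] at h1
      have h3 := orderOf_dvd_natCard
        (⟨(x : H), Subgroup.mem_centralizer_singleton_iff.2 rfl⟩ : Subgroup.centralizer ({(x : H)} : Set H))
      rw [Subgroup.orderOf_mk, h1] at h3
      exact (hpF.out.eq_one_or_self_of_dvd _ h3).resolve_left
        fun h => x.2 (orderOf_eq_one_iff.1 h)
    refine Nat.card_le_card_of_injective (fun g => ⟨_, hord g⟩) fun a b h => ?_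
    have h' := congrArg Subtype.val h
    have := f.symm.injective (Subtype.ext h')
    exact Subtype.ext (by simpa using this)
  have e11 := hcount 11 (Or.inr rfl)
  have e5 := hcount 5 (Or.inl rfl)
  rw [Cfsg.Agent.Lib.M11Recog.card_prime_cases hM (Or.inr rfl),
    Cfsg.Agent.Lib.M11Recog.card_prime_cases hcard (Or.inr rfl),
    Cfsg.Agent.Lib.M11Recog.sylow_eleven hM] at e11
  rw [Cfsg.Agent.Lib.M11Recog.card_prime_cases hM (Or.inl rfl),
    Cfsg.Agent.Lib.M11Recog.card_prime_cases hcard (Or.inl rfl),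
    Cfsg.Agent.Lib.M11Recog.sylow_five hM] at e5
  have h11 := Cfsg.Agent.Lib.M11Recog.sylow_eleven_cases hcard
  have h5 := Cfsg.Agent.Lib.M11Recog.sylow_five_cases hcard
  simp only [Finset.mem_insert, Finset.mem_singleton] at h11 h5
  exact Cfsg.Agent.Lib.M11Recog.iso_of_counts hcard (by omega) (by omega)

end Cfsg.Agent.S3413
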