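import Cfsg.Statements.S3495
import Cfsg.Agent.Lib.Recog.ExtremelyPrimitive

set_option autoImplicit false
open Cfsg

namespace Cfsg.Agent.S3495

/-- Let a finite group G act faithfully and primitively on a finite set Ω with non-trivial point stabilizers, each acting primitively on every one of its orbits (an extremely primitive group), and suppose G has an elementary abelian normal p-subgroup N acting regularly on Ω (affine type). Then every non-trivial subgroup M of a point stabilizer G_α that is normal in G_α has the same orbits on Ω as G_α, and normalizes no subgroup of N other than 1 and N. -/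
theorem result {G : Type*} [Group G] [Finite G] {Ω : Type*} [Fintype Ω] [MulAction G Ω] [FaithfulSMul G Ω] (hprim : MulAction.IsPreprimitive G Ω) (hH : ∀ α : Ω, MulAction.stabilizer G α ≠ ⊥) (hep : ∀ (α : Ω) (ω : Ω), MulAction.IsPreprimitive (MulAction.stabilizer G α) (MulAction.orbit (MulAction.stabilizer G α) ω))
    (N : Subgroup G) [N.Normal] (hNc : IsMulCommutative N) (p : ℕ) (hp : p.Prime) (hNp : ∀ n ∈ N, n ^ p = 1)
    (hNtr : MulAction.IsPretransitive N Ω) (hNreg : ∀ ω : Ω, MulAction.stabilizer N ω = ⊥) (α : Ω) (M : Subgroup G) (hM : M ≠ ⊥) (hMle : M ≤ MulAction.stabilizer G α)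
    (hMn : MulAction.stabilizer G α ≤ Subgroup.normalizer (M : Set G)) :
    (∀ ω : Ω, MulAction.orbit M ω = MulAction.orbit (MulAction.stabilizer G α) ω) ∧
    (∀ L : Subgroup G, L ≤ N → M ≤ Subgroup.normalizer (L : Set G) → L = ⊥ ∨ L = N) := by
  classical
  haveI := hprim
  set H := MulAction.stabilizer G α with hHdef
  have hMfix : ∀ m ∈ M, m • α = α := fun m hm => hMle hm
  have hfree : Lib.Recog.ActsFreely Ω N := by
    intro n hn y hy
    have h' : (⟨n, hn⟩ : N) ∈ MulAction.stabilizer N y := hy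
    rw [hNreg, Subgroup.mem_bot] at h'
    exact congrArg Subtype.val h'
  have hNH : ∀ g : G, ∃ n ∈ N, ∃ h ∈ H, g = n * h := Lib.Recog.exists_eq_mul_stab hNtr α
  -- normal subgroups inside `N`
  have hmin : ∀ L : Subgroup G, L.Normal → L ≤ N → L = ⊥ ∨ L = N := by
    intro L hL hLN
    by_cases h1 : L = ⊥
    · exact Or.inl h1
    refine Or.inr (le_antisymm hLN fun n hn => ?_)
    obtain ⟨l, hl⟩ := (Lib.Recog.normal_transitive (Ω := Ω) hL h1).exists_smul_eq α (n • α)
    rw [← hfree.inj (hLN l.2) hn hl]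
    exact l.2
  have hinv : ∀ L : Subgroup G, L ≤ N → (∀ h ∈ H, ∀ l ∈ L, h * l * h⁻¹ ∈ L) → L.Normal := by
    intro L hLN hH'
    refine ⟨fun l hl g => ?_⟩
    obtain ⟨n, hn, h, hh, rfl⟩ := hNH g
    have h1 := hH' h hh l hl
    have h2 : n * (h * l * h⁻¹) = (h * l * h⁻¹) * n :=
      congrArg Subtype.val (hNc.is_comm.comm ⟨n, hn⟩ ⟨_, hLN h1⟩)
    rw [show n * h * l * (n * h)⁻¹ = n * (h * l * h⁻¹) * n⁻¹ by group, h2, mul_inv_cancel_right]
    exact h1
  have hC : N ⊓ Subgroup.centralizer (M : Set G) = ⊥ := by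
    have hn : (N ⊓ Subgroup.centralizer (M : Set G)).Normal := by
      refine hinv _ inf_le_left fun h hh l hl => ⟨(inferInstance : N.Normal).conj_mem l hl.1 h, ?_⟩
      intro m hm
      have h1 : h⁻¹ * m * h ∈ M := (Subgroup.mem_normalizer_iff''.1 (hMn hh) m).1 hm
      have := congrArg (fun z => h * z * h⁻¹) (hl.2 _ h1)
      simpa [mul_assoc] using this
    rcases hmin _ hn inf_le_left with e | e
    · exact e
    exfalso
    apply hM
    rw [eq_bot_iff]
    intro m hm
    refine Subgroup.mem_bot.2 (FaithfulSMul.eq_of_smul_eq_smul (α := Ω) fun y => ?_)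
    obtain ⟨n, rfl⟩ := hNtr.exists_smul_eq α y
    have h2 : m * (n : G) = n * m := ((inf_eq_left.1 e n.2) m hm)
    rw [one_smul, Subgroup.smul_def, ← mul_smul, h2, mul_smul, hMfix m hm]
  have hsame : ∀ ω : Ω, MulAction.orbit M ω = MulAction.orbit H ω := by
    intro ω
    by_cases hω : ω = α
    · subst hω
      refine (Set.eq_singleton_iff_unique_mem.2 ⟨MulAction.mem_orbit_self _, ?_⟩).trans
        (Set.eq_singleton_iff_unique_mem.2 ⟨MulAction.mem_orbit_self _, ?_⟩).symm
      · rintro _ ⟨m, rfl⟩; exact hMfix m m.2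
      · rintro _ ⟨h, rfl⟩; exact h.2
    haveI := hep α ω
    let M' : Subgroup H := M.subgroupOf H
    haveI : M'.Normal := Subgroup.normal_subgroupOf_of_le_normalizer hMn
    have hblock := MulAction.IsBlock.orbit_of_normal (G := H) (N := M')
      (⟨ω, MulAction.mem_orbit_self ω⟩ : MulAction.orbit H ω)
    have himg : ∀ x : MulAction.orbit H ω, x ∈ MulAction.orbit M'
        (⟨ω, MulAction.mem_orbit_self ω⟩ : MulAction.orbit H ω) ↔ (x : Ω) ∈ MulAction.orbit M ω := by
      intro x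
      constructor
      · rintro ⟨⟨⟨m, hm1⟩, hm2⟩, rfl⟩
        exact ⟨⟨m, hm2⟩, rfl⟩
      · rintro ⟨⟨m, hm⟩, e⟩
        exact ⟨⟨⟨m, hMle hm⟩, hm⟩, Subtype.ext e⟩
    rcases MulAction.IsPreprimitive.isTrivialBlock_of_isBlock hblock with hs | hu
    · exfalso
      obtain ⟨n, hn⟩ := hNtr.exists_smul_eq α ω
      have hn' : (n : G) • α = ω := hn
      have hmem : (n : G) ∈ N ⊓ Subgroup.centralizer (M : Set G) := by
        refine ⟨n.2, fun m hm => ?_⟩
        have hmω : m • ω = ω := congrArg Subtype.val (hs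
          ((himg ⟨m • ω, ⟨⟨m, hMle hm⟩, rfl⟩⟩).2 ⟨⟨m, hm⟩, rfl⟩) (MulAction.mem_orbit_self _))
        rw [← hn'] at hmω
        have h1 : (m * n * m⁻¹) • α = (n : G) • α := by
          rw [Lib.Recog.smul_conj_eq (hMfix m hm)]; exact hmω
        have h2 := hfree.inj ((inferInstance : N.Normal).conj_mem n n.2 m) n.2 h1
        rwa [mul_inv_eq_iff_eq_mul] at h2
      rw [hC, Subgroup.mem_bot] at hmem
      exact hω (by rw [← hn', hmem, one_smul])
    · refine Set.Subset.antisymm ?_ ?_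
      · rintro _ ⟨m, rfl⟩; exact ⟨⟨m, hMle m.2⟩, rfl⟩
      · intro x hx
        exact (himg ⟨x, hx⟩).1 (hu ▸ Set.mem_univ _)
  refine ⟨hsame, fun L hLN hLM => hmin L (hinv L hLN fun h hh l hl => ?_) hLN⟩
  have h1 : (h * l * h⁻¹) • α ∈ MulAction.orbit H (l • α) := by
    rw [Lib.Recog.smul_conj_eq (show h • α = α from hh)]
    exact ⟨⟨h, hh⟩, rfl⟩
  rw [← hsame] at h1
  obtain ⟨⟨m, hm⟩, e⟩ := h1
  have h2 : m * l * m⁻¹ ∈ L := (Subgroup.mem_normalizer_iff.1 (hLM hm) l).1 hl
  have e' : (m * l * m⁻¹) • α = (h * l * h⁻¹) • α := by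
    rw [Lib.Recog.smul_conj_eq (hMfix m hm)]; exact e
  rw [← hfree.inj (hLN h2) ((inferInstance : N.Normal).conj_mem l (hLN hl) h) e']
  exact h2

end Cfsg.Agent.S3495
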