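import Cfsg.Statements.S3498
import Cfsg.Agent.Lib.Recog.SimpleCentralizers

set_option autoImplicit false
open Cfsg

namespace Cfsg.Agent.S3498

/-- A maximal subgroup of a finite almost simple group does not have prime order. Here G is almost simple in the sense that it has a non-abelian simple normal subgroup T with trivial centralizer. -/
theorem result {G : Type*} [Group G] [Finite G] (T : Subgroup G) [T.Normal] (hT : IsSimpleGroup T) (hTc : ¬ IsMulCommutative T)
    (hC : Subgroup.centralizer (T : Set G) = ⊥) (H : Subgroup G) (hmax : IsCoatom H) : ¬ (Nat.card H).Prime := by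
  intro hr
  haveI := hT
  haveI : Fact (Nat.card H).Prime := ⟨hr⟩
  haveI : Nontrivial T := hT.toNontrivial
  have hT1 : T ≠ ⊥ := T.nontrivial_iff_ne_bot.1 inferInstance
  have hmin : Lib.Recog.IsMinNormal T := by
    refine ⟨inferInstance, hT1, fun M hM hMT => ?_⟩
    haveI := hM
    rcases hT.eq_bot_or_eq_top_of_normal (M.subgroupOf T) inferInstance with e | e
    · left
      rw [Subgroup.subgroupOf_eq_bot] at e
      rwa [disjoint_iff, inf_eq_left.2 hMT] at e
    · right
      exact le_antisymm hMT (Subgroup.subgroupOf_eq_top.1 e)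
  have hHnab : IsMulCommutative H := by
    haveI := isCyclic_of_prime_card (α := H) rfl
    exact IsCyclic.commutative
  have hHp : IsPGroup (Nat.card H) H := IsPGroup.of_card (n := 1) (by rw [pow_one])
  -- `H` is not normal
  have hHn : ¬ H.Normal := by
    intro hn
    rcases hmin.2.2 (T ⊓ H) inferInstance inf_le_left with e | e
    · have : H ≤ Subgroup.centralizer (T : Set G) := by
        intro h hh t ht
        exact Subgroup.commute_of_normal_of_disjoint T H inferInstance hn (disjoint_iff.2 e) t h ht hh
      rw [hC, le_bot_iff] at this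
      exact hr.ne_one (by rw [this, Subgroup.card_bot])
    · exact hTc ⟨⟨fun a b => Subtype.ext (show (a : G) * b = b * a from congrArg Subtype.val
        (hHnab.is_comm.comm (⟨a, inf_eq_left.1 e a.2⟩ : H) ⟨b, inf_eq_left.1 e b.2⟩))⟩⟩
  by_cases hle : H ≤ T
  · have htop : T = ⊤ := by
      refine hmax.2 T (lt_of_le_of_ne hle fun e => hTc ?_)
      rw [← e]; exact hHnab
    have hself : Subgroup.normalizer (H : Set G) ≤ H := by
      by_contra hne
      exact hHn (Subgroup.normalizer_eq_top_iff.1
        (hmax.2 _ (lt_of_le_not_ge Subgroup.le_normalizer hne)))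
    obtain ⟨P, hP⟩ := Lib.Recog.exists_sylow_eq_of_selfNormalizing hHp hself
    have e : T ≃* G := htop ▸ Subgroup.topEquiv
    haveI : Nontrivial G := e.symm.toEquiv.nontrivial
    haveI : IsSimpleGroup G := IsSimpleGroup.isSimpleGroup_of_surjective e.toMonoidHom e.surjective
    refine Lib.Recog.not_pGroup_of_simple hT hTc (Nat.card H) (IsPGroup.of_equiv ?_ e.symm)
    refine Lib.Recog.isPGroup_of_normalizer_le_centralizer (H.card_subgroup_dvd_card) P fun z hz => ?_
    have hz' : z ∈ H := hself (hP ▸ hz)
    intro w hw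
    exact congrArg Subtype.val (hHnab.is_comm.comm ⟨w, hP ▸ hw⟩ ⟨z, hz'⟩)
  · refine Lib.Recog.no_prime_order_maximal_supplement hmin hTc hmax hHn hr ?_
    have hdis : H ⊓ T = ⊥ := by
      rcases (Nat.dvd_prime hr).1 (Subgroup.card_dvd_of_le (inf_le_left : H ⊓ T ≤ H)) with e | e
      · exact Subgroup.eq_bot_of_card_eq _ e
      · exact absurd (inf_eq_left.1 (Subgroup.eq_of_le_of_card_ge inf_le_left e.ge)) hle
    have hsup : T ⊔ H = ⊤ := by
      refine hmax.2 _ (lt_of_le_of_ne le_sup_right fun e => hle ?_ |>.elim)
      exfalso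
      have hTH : T ≤ H := e ▸ le_sup_left
      rw [inf_eq_right.2 hTH] at hdis
      exact hT1 hdis
    have hcompl : Subgroup.IsComplement' T H :=
      Subgroup.isComplement'_of_disjoint_and_mul_eq_univ (disjoint_iff.2 (inf_comm H T ▸ hdis))
        (by rw [← Subgroup.normal_mul, hsup, Subgroup.coe_top])
    exact hcompl.card_mul.symm

end Cfsg.Agent.S3498
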