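import Cfsg.Statements.S3504
import Mathlib

set_option autoImplicit false
open Cfsg

namespace Cfsg.Agent.S3504

/-- For n ≥ 5, the fixed-point-free permutations of prime order in the symmetric group of degree n form a single conjugacy class if and only if n is a prime power. -/
theorem result (n : ℕ) (hn : 5 ≤ n) :
    Nat.card {c : ConjClasses (Equiv.Perm (Fin n)) // ∃ g : Equiv.Perm (Fin n), ConjClasses.mk g = c ∧ (orderOf g).Prime ∧ ∀ i : Fin n, g i ≠ i} = 1 ↔ IsPrimePow n := by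
  classical
  let C := {c : ConjClasses (Equiv.Perm (Fin n)) // ∃ g : Equiv.Perm (Fin n),
    ConjClasses.mk g = c ∧ (orderOf g).Prime ∧ ∀ i : Fin n, g i ≠ i}
  have hsum : ∀ g : Equiv.Perm (Fin n), (∀ i, g i ≠ i) → g.cycleType.sum = n := by
    intro g hg
    rw [Equiv.Perm.sum_cycleType, Finset.eq_univ_iff_forall.2
      (fun i => Equiv.Perm.mem_support.2 (hg i)), Finset.card_univ, Fintype.card_fin]
  have htype : ∀ g : Equiv.Perm (Fin n), (orderOf g).Prime → (∀ i, g i ≠ i) →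
      orderOf g ∈ n.primeFactors ∧ g.cycleType = Multiset.replicate (n / orderOf g) (orderOf g) := by
    intro g hg hf
    obtain ⟨k, hk⟩ := Equiv.Perm.cycleType_prime_order hg
    have h1 := hsum g hf
    rw [hk, Multiset.sum_replicate, smul_eq_mul] at h1
    refine ⟨Nat.mem_primeFactors.2 ⟨hg, ⟨k + 1, h1.symm.trans (mul_comm _ _)⟩, by omega⟩, ?_⟩
    rw [hk, Nat.div_eq_of_eq_mul_left hg.pos h1.symm]
  have hex : ∀ q ∈ n.primeFactors, ∃ g : Equiv.Perm (Fin n),
      orderOf g = q ∧ ∀ i, g i ≠ i := by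
    intro q hq
    obtain ⟨hqp, hqn, -⟩ := Nat.mem_primeFactors.1 hq
    haveI : Fact q.Prime := ⟨hqp⟩
    have hs : (Multiset.replicate (n / q) q).sum = n := by
      rw [Multiset.sum_replicate, smul_eq_mul, Nat.div_mul_cancel hqn]
    obtain ⟨g, hg⟩ := (Equiv.Perm.exists_with_cycleType_iff (α := Fin n)
      (m := Multiset.replicate (n / q) q)).2 ⟨by rw [hs, Fintype.card_fin],
        fun a ha => by rw [Multiset.eq_of_mem_replicate ha]; exact hqp.two_le⟩
    have hnq : n / q ≠ 0 := (Nat.div_pos (Nat.le_of_dvd (by omega) hqn) hqp.pos).ne'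
    refine ⟨g, ?_, fun i hi => ?_⟩
    · rw [← Equiv.Perm.lcm_cycleType, hg]
      apply Nat.dvd_antisymm
      · exact Multiset.lcm_dvd.2 fun a ha => (Multiset.eq_of_mem_replicate ha).dvd
      · exact Multiset.dvd_lcm (Multiset.mem_replicate.2 ⟨hnq, rfl⟩)
    · have hsupp : g.support = Finset.univ := by
        apply Finset.eq_univ_of_card
        rw [← Equiv.Perm.sum_cycleType, hg, hs, Fintype.card_fin]
      exact Equiv.Perm.mem_support.1 (hsupp ▸ Finset.mem_univ i) hi
  have horder : ∀ g h : Equiv.Perm (Fin n), ConjClasses.mk g = ConjClasses.mk h → orderOf g = orderOf h := by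
    intro g h e
    rw [ConjClasses.mk_eq_mk_iff_isConj, Equiv.Perm.isConj_iff_cycleType_eq] at e
    rw [← Equiv.Perm.lcm_cycleType, e, Equiv.Perm.lcm_cycleType]
  let f : C → n.primeFactors := fun c => ⟨orderOf c.2.choose,
    (htype _ c.2.choose_spec.2.1 c.2.choose_spec.2.2).1⟩
  have hf : Function.Bijective f := by
    refine ⟨fun c d e => ?_, fun ⟨q, hq⟩ => ?_⟩
    · apply Subtype.ext
      rw [← c.2.choose_spec.1, ← d.2.choose_spec.1, ConjClasses.mk_eq_mk_iff_isConj,
        Equiv.Perm.isConj_iff_cycleType_eq, (htype _ c.2.choose_spec.2.1 c.2.choose_spec.2.2).2,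
        (htype _ d.2.choose_spec.2.1 d.2.choose_spec.2.2).2]
      have e' : orderOf c.2.choose = orderOf d.2.choose := congrArg Subtype.val e
      rw [e']
    · obtain ⟨g, hg, hgf⟩ := hex q hq
      let c : C := ⟨ConjClasses.mk g, g, rfl, hg ▸ (Nat.mem_primeFactors.1 hq).1, hgf⟩
      exact ⟨c, Subtype.ext ((horder _ _ c.2.choose_spec.1).trans hg)⟩
  rw [Nat.card_congr (Equiv.ofBijective f hf), Nat.card_eq_finsetCard, isPrimePow_iff_unique_prime_dvd]
  constructor
  · intro h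
    obtain ⟨q, hq⟩ := Finset.card_eq_one.1 h
    have hq' := Nat.mem_primeFactors.1 (hq ▸ Finset.mem_singleton_self q)
    exact ⟨q, ⟨hq'.1, hq'.2.1⟩, fun r hr => Finset.mem_singleton.1
      (hq ▸ Nat.mem_primeFactors.2 ⟨hr.1, hr.2, by omega⟩)⟩
  · rintro ⟨q, ⟨hq1, hq2⟩, huniq⟩
    refine Finset.card_eq_one.2 ⟨q, Finset.eq_singleton_iff_unique_mem.2
      ⟨Nat.mem_primeFactors.2 ⟨hq1, hq2, by omega⟩, fun r hr => huniq r ?_⟩⟩
    exact ⟨(Nat.mem_primeFactors.1 hr).1, (Nat.mem_primeFactors.1 hr).2.1⟩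

end Cfsg.Agent.S3504
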