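import Cfsg.Statements.S3508
import Cfsg.Agent.Lib.Recog.AffineExponent

set_option autoImplicit false
open Cfsg

namespace Cfsg.Agent.S3508

/-- Let a finite group G act faithfully on a set Ω with p ^ m points (p prime) and have an elementary abelian normal p-subgroup N acting regularly on Ω (so G is a group of affine transformations of an m-dimensional space over the field with p elements). If G contains an element of order p ^ r with r ≥ 1, then p ^ (r − 1) ≤ m. In particular an element of order p ^ m forces m ≤ 2, and m ≤ 1 when p is odd. -/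
theorem result {G : Type*} [Group G] [Finite G] {Ω : Type*} [Fintype Ω] [MulAction G Ω] [FaithfulSMul G Ω] (p m : ℕ) (hp : p.Prime) (hcard : Fintype.card Ω = p ^ m)
    (N : Subgroup G) [N.Normal] (hNc : IsMulCommutative N) (hNp : ∀ n ∈ N, n ^ p = 1)
    (hNtr : MulAction.IsPretransitive N Ω) (hNreg : ∀ ω : Ω, MulAction.stabilizer N ω = ⊥)
    (g : G) (r : ℕ) (hr : 1 ≤ r) (hg : orderOf g = p ^ r) :
    p ^ (r - 1) ≤ m ∧ (r = m → m ≤ 2 ∧ (2 < p → m ≤ 1)) := by
  obtain ⟨h1, h2⟩ : p ^ (r - 1) ≤ m ∧ True :=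
    ⟨Lib.Recog.pow_le_of_affine p m hp (by rw [Nat.card_eq_fintype_card]; exact hcard) N hNc hNp
      hNtr hNreg g r hr hg, trivial⟩
  refine ⟨h1, fun e => ?_⟩
  subst e
  obtain ⟨k, rfl⟩ : ∃ k, r = k + 1 := ⟨r - 1, by omega⟩
  rw [Nat.add_sub_cancel] at h1
  have h3 : ∀ k : ℕ, 2 ≤ k → k + 1 < 2 ^ k := by
    intro k hk
    induction k, hk using Nat.le_induction with
    | base => norm_num
    | succ k _ ih => rw [pow_succ]; omega
  have h4 : k ≤ 1 := by
    by_contra hk
    have := h3 k (by omega)
    have := Nat.pow_le_pow_left hp.two_le k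
    omega
  refine ⟨by omega, fun h => ?_⟩
  by_contra hk
  have hk1 : k = 1 := by omega
  subst hk1
  rw [pow_one] at h1
  omega

end Cfsg.Agent.S3508
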