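import Cfsg.Statements.S3511
import Mathlib

set_option autoImplicit false
open Cfsg

namespace Cfsg.Agent.S3511

/-- Let a finite group G act faithfully on a set Ω. If every element of G of square-free order has a regular cycle (an orbit of the cyclic group it generates with trivial stabilizer), then every element of G has a regular cycle. -/
theorem result {G : Type*} [Group G] [Finite G] {Ω : Type*} [MulAction G Ω] [FaithfulSMul G Ω]
    (h : ∀ g : G, Squarefree (orderOf g) → ∃ ω : Ω, MulAction.stabilizer (Subgroup.zpowers g) ω = ⊥) (g : G) :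
    ∃ ω : Ω, MulAction.stabilizer (Subgroup.zpowers g) ω = ⊥ := by
  classical
  set o := orderOf g with ho
  set s := ∏ q ∈ o.primeFactors, q with hs
  have hopos : o ≠ 0 := (orderOf_pos g).ne'
  have hdvd : s ∣ o := Nat.prod_primeFactors_dvd o
  have hg' : orderOf (g ^ (o / s)) = s := orderOf_pow_orderOf_div hopos hdvd
  obtain ⟨ω, hω⟩ := h (g ^ (o / s)) (by
    rw [hg', hs]
    refine Finset.squarefree_prod_of_pairwise_isCoprime (fun a ha b hb hab => ?_)
      fun a ha => (Nat.prime_of_mem_primeFactors ha).squarefree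
    rw [Function.onFun, Nat.coprime_iff_isRelPrime.symm]
    exact (Nat.coprime_primes (Nat.prime_of_mem_primeFactors ha)
      (Nat.prime_of_mem_primeFactors hb)).2 hab)
  refine ⟨ω, ?_⟩
  rw [eq_bot_iff]
  rintro ⟨x, hx⟩ hxω
  rw [Subgroup.mem_bot]
  by_contra hne
  have hx1 : x ≠ 1 := fun e => hne (Subtype.ext e)
  obtain ⟨j, rfl⟩ := (Submonoid.mem_powers_iff _ _).1 (mem_powers_iff_mem_zpowers.2 hx)
  obtain ⟨q, hq, hqd⟩ := Nat.exists_prime_and_dvd (show orderOf (g ^ j) ≠ 1 by simpa using hx1)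
  set t := g ^ (j * (orderOf (g ^ j) / q)) with ht
  have hto : orderOf t = q := by
    rw [ht, pow_mul]; exact orderOf_pow_orderOf_div (orderOf_pos _).ne' hqd
  have hqo : q ∣ o := hqd.trans (orderOf_pow_dvd j)
  have hqs : q ∣ s := Finset.dvd_prod_of_mem _ (Nat.mem_primeFactors.2 ⟨hq, hqo, hopos⟩)
  -- `t` is a power of the square-free part
  have hdiv : o / s ∣ j * (orderOf (g ^ j) / q) := by
    have h1 : g ^ (j * (orderOf (g ^ j) / q) * q) = 1 := by
      rw [pow_mul, ← ht, ← hto, pow_orderOf_eq_one]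
    obtain ⟨c, hc⟩ := orderOf_dvd_iff_pow_eq_one.2 h1
    obtain ⟨d, hd⟩ := hdvd
    obtain ⟨e, he⟩ := hqs
    have hq0 := hq.pos
    have hspos : 0 < s := Nat.pos_of_ne_zero fun e => hopos (by rw [hd, e, zero_mul])
    rw [← ho, hd, he] at hc
    rw [show o / s = d by rw [hd, Nat.mul_div_cancel_left _ hspos]]
    exact ⟨e * c, Nat.eq_of_mul_eq_mul_left hq0 (by linarith)⟩
  obtain ⟨c, hc⟩ := hdiv
  have htfix : t • ω = ω := by
    have : ∀ i : ℕ, (g ^ j) ^ i • ω = ω := by
      intro i
      induction i with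
      | zero => simp
      | succ i ih => rw [pow_succ, mul_smul, show (g ^ j) • ω = ω from hxω, ih]
    rw [ht, pow_mul]
    exact this _
  have htmem : t ∈ Subgroup.zpowers (g ^ (o / s)) := by
    rw [ht, hc, pow_mul]
    exact Subgroup.npow_mem_zpowers _ c
  have : (⟨t, htmem⟩ : Subgroup.zpowers (g ^ (o / s))) ∈
      MulAction.stabilizer (Subgroup.zpowers (g ^ (o / s))) ω := htfix
  rw [hω, Subgroup.mem_bot] at this
  have ht1 : t = 1 := congrArg Subtype.val this
  rw [ht1, orderOf_one] at hto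
  exact hq.one_lt.ne hto

end Cfsg.Agent.S3511
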