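import Cfsg.Statements.S3514
import Mathlib

set_option autoImplicit false
open Cfsg
open scoped Pointwise

namespace Cfsg.Agent.S3514

/-- Let p be a prime, V a finite vector space over the field with p elements, and H a group of linear transformations of V all of whose orbits on V have size coprime to p. (i) Every normal subgroup K of H has all its orbits on V of size coprime to p. (ii) If N is a group of linear transformations of V of order coprime to p that is normalized by H, then the group generated by N and H has all its orbits on V of size coprime to p. -/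
theorem result (p : ℕ) [Fact p.Prime] {V : Type*} [AddCommGroup V] [Module (ZMod p) V] [Finite V]
    (H : Subgroup (V ≃ₗ[ZMod p] V)) (hH : ∀ v : V, ¬ p ∣ Nat.card {u : V | ∃ h ∈ H, h v = u}) :
    (∀ K : Subgroup (V ≃ₗ[ZMod p] V), K ≤ H → H ≤ Subgroup.normalizer (K : Set (V ≃ₗ[ZMod p] V)) →
        ∀ v : V, ¬ p ∣ Nat.card {u : V | ∃ k ∈ K, k v = u}) ∧
    (∀ N : Subgroup (V ≃ₗ[ZMod p] V), ¬ p ∣ Nat.card N → H ≤ Subgroup.normalizer (N : Set (V ≃ₗ[ZMod p] V)) →
        ∀ v : V, ¬ p ∣ Nat.card {u : V | ∃ x ∈ N ⊔ H, x v = u}) := by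
  classical
  haveI : Finite (V ≃ₗ[ZMod p] V) := Finite.of_injective (fun e => (e : V → V)) DFunLike.coe_injective
  have orb : ∀ (K : Subgroup (V ≃ₗ[ZMod p] V)) (v : V), Nat.card {u : V | ∃ k ∈ K, k v = u} =
      (MulAction.stabilizer (V ≃ₗ[ZMod p] V) v).relIndex K := by
    intro K v
    have hs : {u : V | ∃ k ∈ K, k v = u} = MulAction.orbit K v := by
      ext u
      exact ⟨fun ⟨k, hk, e⟩ => ⟨⟨k, hk⟩, e⟩, fun ⟨⟨k, hk⟩, e⟩ => ⟨k, hk, e⟩⟩
    rw [hs, Nat.card_coe_set_eq, ← MulAction.index_stabilizer, Subgroup.relIndex]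
    congr 1
  refine ⟨fun K hKH hn v => ?_, fun N hN hn v => ?_⟩
  · rw [orb]
    refine fun hd => hH v (dvd_trans hd ?_)
    rw [orb]
    set S := MulAction.stabilizer (V ≃ₗ[ZMod p] V) v
    haveI : (K.subgroupOf H).Normal := Subgroup.normal_subgroupOf_of_le_normalizer hn
    have h1 : (S.subgroupOf H).relIndex (K.subgroupOf H) = S.relIndex K :=
      Subgroup.relIndex_subgroupOf hKH
    rw [← h1]
    -- the orbit of a normal subgroup divides
    have h2 : (S.subgroupOf H).relIndex (K.subgroupOf H) =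
        (S.subgroupOf H).relIndex (K.subgroupOf H ⊔ S.subgroupOf H) := by
      set A := K.subgroupOf H
      set B := S.subgroupOf H
      have e1 := Subgroup.relIndex_mul_relIndex (B ⊓ A) A (A ⊔ B) inf_le_right le_sup_left
      have e2 := Subgroup.relIndex_mul_relIndex (B ⊓ A) B (A ⊔ B) inf_le_left le_sup_right
      have e3 : A.relIndex (A ⊔ B) = A.relIndex B := Subgroup.relIndex_sup_left _ _
      rw [Subgroup.inf_relIndex_right, e3] at e1
      rw [Subgroup.inf_relIndex_left] at e2
      have h0 : A.relIndex B ≠ 0 := ne_zero_of_dvd_ne_zero Nat.card_pos.ne' (Subgroup.relIndex_dvd_card A B)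
      rw [← e1, mul_comm] at e2
      exact (Nat.eq_of_mul_eq_mul_right (Nat.pos_of_ne_zero h0) e2).symm
    rw [h2]
    exact Subgroup.relIndex_dvd_index_of_le le_sup_right
  · rw [orb]
    intro hd
    set S := MulAction.stabilizer (V ≃ₗ[ZMod p] V) v with hS
    -- index of the stabilizer in `H` times `|N : N ∩ H|`
    have h1 : (S ⊓ H).relIndex (N ⊔ H) = S.relIndex H * H.relIndex (N ⊔ H) := by
      rw [← Subgroup.inf_relIndex_right S H]
      exact (Subgroup.relIndex_mul_relIndex _ _ _ inf_le_right le_sup_right).symm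
    have h2 : H.relIndex (N ⊔ H) ∣ Nat.card N := by
      have hmul : ((N ⊔ H : Subgroup (V ≃ₗ[ZMod p] V)) : Set (V ≃ₗ[ZMod p] V)) =
          (N : Set (V ≃ₗ[ZMod p] V)) * (H : Set (V ≃ₗ[ZMod p] V)) :=
        Subgroup.coe_mul_of_right_le_normalizer_left N H hn
      refine dvd_trans (dvd_of_eq ?_) (Subgroup.relIndex_dvd_card (H := H) (K := N))
      -- cosets of `H` in `N ⊔ H` are cosets of `N ⊓ H` in `N`
      refine (Nat.card_congr (Equiv.ofBijective (Quotient.map'
        (Subgroup.inclusion (le_sup_left : N ≤ N ⊔ H)) fun a b e => ?_) ⟨?_, ?_⟩)).symm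
      · rw [QuotientGroup.leftRel_apply, Subgroup.mem_subgroupOf] at e ⊢
        exact e
      · intro a b
        refine Quotient.inductionOn₂' a b fun a b e => ?_
        rw [Quotient.map'_mk'', Quotient.map'_mk'', Quotient.eq'', QuotientGroup.leftRel_apply,
          Subgroup.mem_subgroupOf] at e
        rw [Quotient.eq'', QuotientGroup.leftRel_apply, Subgroup.mem_subgroupOf]
        exact e
      · intro c
        refine Quotient.inductionOn' c fun c => ?_
        obtain ⟨a, ha, b, hb, hab⟩ := (Set.ext_iff.1 hmul (c : V ≃ₗ[ZMod p] V)).1 c.2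
        refine ⟨Quotient.mk'' ⟨a, ha⟩, ?_⟩
        rw [Quotient.map'_mk'', Quotient.eq'', QuotientGroup.leftRel_apply, Subgroup.mem_subgroupOf]
        change a⁻¹ * (c : V ≃ₗ[ZMod p] V) ∈ H
        rw [← hab]
        simpa using hb
    have h3 : ¬ p ∣ (S ⊓ H).relIndex (N ⊔ H) := by
      rw [h1, Fact.out (p := p.Prime) |>.dvd_mul, not_or]
      refine ⟨fun h => hH v ?_, fun h => hN (h.trans h2)⟩
      rwa [orb]
    exact h3 (hd.trans (Subgroup.relIndex_dvd_of_le_left _ inf_le_left))

end Cfsg.Agent.S3514
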