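import Cfsg.Statements.S3515
import Cfsg.Agent.Lib.Recog.AffineClosure

set_option autoImplicit false
open Cfsg

namespace Cfsg.Agent.S3515

theorem four_points : ∀ z : Fin 2 → ZMod 2,
    z = ![0, 0] ∨ z = ![1, 0] ∨ z = ![0, 1] ∨ z = ![1, 1] := by decide

/-- Every primitive affine permutation group of degree p² is 3-closed. Let p be a prime and G a group of permutations of the plane V = F_p² consisting of affine maps x ↦ Ax + b, containing all translations, and acting primitively on V. Then any permutation σ of V that agrees on every triple of points with some element of G (σ preserves every G-orbit on ordered triples) already lies in G. -/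
theorem result (p : ℕ) [Fact p.Prime] (G : Subgroup (Equiv.Perm (Fin 2 → ZMod p)))
    (haff : (G : Set (Equiv.Perm (Fin 2 → ZMod p))) ⊆ {τ : Equiv.Perm (Fin 2 → ZMod p) | ∃ (A : (Fin 2 → ZMod p) ≃ₗ[ZMod p] (Fin 2 → ZMod p)) (b : Fin 2 → ZMod p), ∀ x, τ x = A x + b})
    (htrans : ∀ b : Fin 2 → ZMod p, ∃ g ∈ G, ∀ x, g x = x + b) (hprim : MulAction.IsPreprimitive G (Fin 2 → ZMod p))
    (σ : Equiv.Perm (Fin 2 → ZMod p)) (hσ : (∀ t : Fin 3 → (Fin 2 → ZMod p), ∃ g ∈ G, ∀ i, σ (t i) = g (t i))) : σ ∈ G := by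
  let e : Fin 3 → (Fin 2 → ZMod p) := ![0, ![1, 0], ![0, 1]]
  obtain ⟨g, hg, hge⟩ := hσ e
  obtain ⟨A, b, hA⟩ := haff hg
  suffices hs : ∀ x, σ x = g x from Equiv.ext hs ▸ hg
  by_cases hp : p = 2
  · subst hp
    intro x
    by_contra hne
    have key : ∀ z : Fin 2 → ZMod 2, z = e 0 ∨ z = e 1 ∨ z = e 2 ∨ z = ![1, 1] := by
      have h := four_points
      have e0 : e 0 = ![0, 0] := by funext i; fin_cases i <;> simp [e]
      intro z
      rw [e0]
      exact h z
    have hy : ∀ z, z ≠ ![1, 1] → σ z = g z := by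
      intro z hz
      rcases key z with r | r | r | r
      · rw [r]; exact hge 0
      · rw [r]; exact hge 1
      · rw [r]; exact hge 2
      · exact absurd r hz
    have hx : x = ![1, 1] := by_contra fun r => hne (hy x r)
    obtain ⟨z, hz⟩ := g.surjective (σ x)
    by_cases hzx : z = x
    · exact hne (hzx ▸ hz.symm)
    · exact hzx (σ.injective ((hy z (hx ▸ hzx)).trans hz))
  · have h3 : ∀ x y z : Fin 2 → ZMod p, ∃ (B : (Fin 2 → ZMod p) ≃ₗ[ZMod p] (Fin 2 → ZMod p)) (c : Fin 2 → ZMod p),
        σ x = B x + c ∧ σ y = B y + c ∧ σ z = B z + c := by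
      intro x y z
      obtain ⟨k, hk, hke⟩ := hσ ![x, y, z]
      obtain ⟨B, c, hB⟩ := haff hk
      exact ⟨B, c, (hke 0).trans (hB x), (hke 1).trans (hB y), (hke 2).trans (hB z)⟩
    obtain ⟨B, c, hB⟩ := Lib.Recog.affine_of_triples hp σ h3
    have q : ∀ i, B (e i) + c = A (e i) + b := fun i =>
      (hB _).symm.trans ((hge i).trans (hA _))
    have hc : c = b := by simpa [e] using q 0
    subst hc
    have hAB : (B : (Fin 2 → ZMod p) →ₗ[ZMod p] (Fin 2 → ZMod p)) = A := by
      refine (Pi.basisFun (ZMod p) (Fin 2)).ext fun i => ?_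
      have : (Pi.basisFun (ZMod p) (Fin 2)) i = e i.succ := by
        funext j; fin_cases i <;> fin_cases j <;> simp [e]
      rw [this]
      exact add_right_cancel (q i.succ)
    intro x
    rw [hB, hA]
    exact congrArg (· + c) (LinearMap.congr_fun hAB x)

end Cfsg.Agent.S3515
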