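import Cfsg.Statements.S3516
import Cfsg.Agent.Lib.Recog.AffineClosure

set_option autoImplicit false
open Cfsg

namespace Cfsg.Agent.S3516

/-- Let p be an odd prime, d ≥ 3, and G a group of affine permutations x ↦ Ax + b of V = F_p^d containing all translations and all maps x ↦ Ax with A of determinant 1. Then the 3-closure of G is the full affine group: a permutation σ of V agrees on every triple of points with some element of G if and only if σ is an affine map. -/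
theorem result (p : ℕ) [Fact p.Prime] (hp : p ≠ 2) (d : ℕ) (hd : 3 ≤ d) (G : Subgroup (Equiv.Perm (Fin d → ZMod p)))
    (haff : (G : Set (Equiv.Perm (Fin d → ZMod p))) ⊆ {τ : Equiv.Perm (Fin d → ZMod p) | ∃ (A : (Fin d → ZMod p) ≃ₗ[ZMod p] (Fin d → ZMod p)) (b : Fin d → ZMod p), ∀ x, τ x = A x + b})
    (htrans : ∀ b : Fin d → ZMod p, ∃ g ∈ G, ∀ x, g x = x + b)
    (hsl : ∀ A : (Fin d → ZMod p) ≃ₗ[ZMod p] (Fin d → ZMod p), LinearMap.det (A : (Fin d → ZMod p) →ₗ[ZMod p] (Fin d → ZMod p)) = 1 → ∃ g ∈ G, ∀ x, g x = A x)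
    (σ : Equiv.Perm (Fin d → ZMod p)) :
    (∀ t : Fin 3 → (Fin d → ZMod p), ∃ g ∈ G, ∀ i, σ (t i) = g (t i)) ↔ σ ∈ {τ : Equiv.Perm (Fin d → ZMod p) | ∃ (A : (Fin d → ZMod p) ≃ₗ[ZMod p] (Fin d → ZMod p)) (b : Fin d → ZMod p), ∀ x, τ x = A x + b} := by
  constructor
  · intro h
    apply Lib.Recog.affine_of_triples hp σ
    intro x y z
    obtain ⟨k, hk, hke⟩ := h ![x, y, z]
    obtain ⟨B, c, hB⟩ := haff hk
    exact ⟨B, c, (hke 0).trans (hB x), (hke 1).trans (hB y), (hke 2).trans (hB z)⟩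
  · rintro ⟨A, b, hA⟩ t
    obtain ⟨T, hT, hu, hw⟩ := Lib.Recog.exists_det_fix (K := ZMod p)
      (by simpa using hd) (A (t 1) - A (t 0)) (A (t 2) - A (t 0))
      (LinearMap.det (A : (Fin d → ZMod p) →ₗ[ZMod p] (Fin d → ZMod p)))⁻¹
      (inv_ne_zero (LinearEquiv.isUnit_det' A).ne_zero)
    obtain ⟨g, hg, hgA⟩ := hsl (A.trans T) (by
      rw [LinearEquiv.coe_trans, LinearMap.det_comp, hT,
        inv_mul_cancel₀ (LinearEquiv.isUnit_det' A).ne_zero])
    obtain ⟨s, hs, hsb⟩ := htrans (σ (t 0) - T (A (t 0)))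
    refine ⟨s * g, mul_mem hs hg, fun i => ?_⟩
    rw [Equiv.Perm.mul_apply, hgA, hsb, hA, hA, LinearEquiv.trans_apply]
    have hi : T (A (t i) - A (t 0)) = A (t i) - A (t 0) := by
      fin_cases i
      · simp
      · exact hu
      · exact hw
    rw [map_sub] at hi
    linear_combination (norm := abel) -hi

end Cfsg.Agent.S3516
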