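import Cfsg.Statements.S3517
import Cfsg.Agent.Lib.Recog.AffineClosure

set_option autoImplicit false
open Cfsg

namespace Cfsg.Agent.S3517

/-- For d ≥ 3, the 3-closure of the affine group AGL_d(2) acting on F_2^d is the full symmetric group: every permutation of F_2^d agrees on every ordered triple of points with some affine map (AGL_d(2) is 3-transitive). -/
theorem result (d : ℕ) (hd : 3 ≤ d) (σ : Equiv.Perm (Fin d → ZMod 2)) (t : Fin 3 → (Fin d → ZMod 2)) :
    ∃ (A : (Fin d → ZMod 2) ≃ₗ[ZMod 2] (Fin d → ZMod 2)) (b : Fin d → ZMod 2), ∀ i, σ (t i) = A (t i) + b := by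
  let u : Fin 2 → (Fin d → ZMod 2) := fun i => t i.succ - t 0
  let v : Fin 2 → (Fin d → ZMod 2) := fun i => σ (t i.succ) - σ (t 0)
  have key : ∀ a : ZMod 2, a = 0 ∨ a = 1 := by decide
  have two : ∀ a b : Fin d → ZMod 2, a + b = 0 ↔ a = b := fun a b => by
    rw [add_eq_zero_iff_eq_neg, show -b = b from funext fun j => ZMod.neg_eq_self_mod_two (b j)]
  have hker : LinearMap.ker (Fintype.linearCombination (ZMod 2) u) =
      LinearMap.ker (Fintype.linearCombination (ZMod 2) v) := by
    ext c
    simp only [LinearMap.mem_ker, Fintype.linearCombination_apply, Fin.sum_univ_two]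
    rcases key (c 0) with e0 | e0 <;> rcases key (c 1) with e1 | e1 <;>
      simp [e0, e1, u, v, sub_eq_zero, two, sub_left_inj]
  obtain ⟨A, hA⟩ := Lib.Recog.exists_equiv_comp_eq _ _ hker
  refine ⟨A, σ (t 0) - A (t 0), fun i => ?_⟩
  refine Fin.cases ?_ (fun j => ?_) i
  · abel
  · have h1 := hA (Pi.single j 1)
    simp only [Fintype.linearCombination_apply_single, one_smul] at h1
    simp only [u, v, map_sub] at h1
    linear_combination (norm := abel) -h1

end Cfsg.Agent.S3517
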