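import Cfsg.Statements.S3518
import Cfsg.Agent.Lib.Recog.DiffDirections

set_option autoImplicit false
open Cfsg

namespace Cfsg.Agent.S3518

/-- Closures of subgroups of the one-dimensional affine group. Let p be a prime and G a group of permutations of F_p lying in the affine group AGL₁(p) = {x ↦ ax + b, a ≠ 0} and containing all translations. (1) If G is a proper subgroup of AGL₁(p), then G is 2-closed: a permutation of F_p agreeing on every ordered pair of points with some element of G lies in G. (2) Every permutation of F_p agrees on every ordered pair with some element of AGL₁(p) (the 2-closure of AGL₁(p) is the symmetric group). (3) AGL₁(p) is 3-closed: a permutation agreeing on every ordered triple with some affine map is affine. -/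
theorem result (p : ℕ) [Fact p.Prime] (G : Subgroup (Equiv.Perm (ZMod p))) (hG : G ≤ Cfsg.affineGroup (ZMod p))
    (htrans : ∀ b : ZMod p, ∃ g ∈ G, ∀ x, g x = x + b) :
    (G ≠ Cfsg.affineGroup (ZMod p) → ∀ σ : Equiv.Perm (ZMod p), (∀ t : Fin 2 → ZMod p, ∃ g ∈ G, ∀ i, σ (t i) = g (t i)) → σ ∈ G) ∧
    (∀ σ : Equiv.Perm (ZMod p), (∀ t : Fin 2 → ZMod p, ∃ g ∈ Cfsg.affineGroup (ZMod p), ∀ i, σ (t i) = g (t i))) ∧
    (∀ σ : Equiv.Perm (ZMod p), (∀ t : Fin 3 → ZMod p, ∃ g ∈ Cfsg.affineGroup (ZMod p), ∀ i, σ (t i) = g (t i)) → σ ∈ Cfsg.affineGroup (ZMod p)) := by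
  have hp := (Fact.out : p.Prime)
  refine ⟨?_, fun σ t => ?_, fun σ h => ?_⟩
  · intro hne σ hσ
    classical
    let H : Subgroup (ZMod p)ˣ :=
      { carrier := {a | ∃ g ∈ G, ∀ x, g x = (a : ZMod p) * x}
        one_mem' := ⟨1, one_mem G, fun x => by simp⟩
        mul_mem' := fun {a b} ⟨g, hg, ha⟩ ⟨h, hh, hb⟩ =>
          ⟨g * h, mul_mem hg hh, fun x => by rw [Equiv.Perm.mul_apply, hb, ha, Units.val_mul, mul_assoc]⟩
        inv_mem' := fun {a} ⟨g, hg, ha⟩ => ⟨g⁻¹, inv_mem hg, fun x => by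
          apply g.injective
          rw [Equiv.Perm.inv_def, Equiv.apply_symm_apply, ha, ← mul_assoc, Units.mul_inv, one_mul]⟩ }
    have hlin : ∀ g ∈ G, ∀ (a : (ZMod p)ˣ) (b : ZMod p), (∀ x, g x = (a : ZMod p) * x + b) → a ∈ H := by
      intro g hg a b hgx
      obtain ⟨s, hs, hsx⟩ := htrans (-b)
      exact ⟨s * g, mul_mem hs hg, fun x => by rw [Equiv.Perm.mul_apply, hsx, hgx]; ring⟩
    have hH : H ≠ ⊤ := by
      intro htop
      refine hne (le_antisymm hG fun g hg => ?_)
      obtain ⟨a, b, hgx⟩ := hg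
      obtain ⟨m, hm, hmx⟩ := (htop ▸ Subgroup.mem_top a : a ∈ H)
      obtain ⟨s, hs, hsx⟩ := htrans b
      have : g = s * m := Equiv.ext fun x => by rw [Equiv.Perm.mul_apply, hsx, hmx, hgx]
      rw [this]; exact mul_mem hs hm
    set d := Nat.card H
    have hcard : Nat.card (ZMod p)ˣ = p - 1 := by rw [Nat.card_eq_fintype_card, ZMod.card_units]
    have hd : 2 * d + 1 ≤ p := by
      have h1 := H.card_mul_index
      have h2 : H.index ≠ 1 := fun h => hH (Subgroup.index_eq_one.1 h)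
      have h3 : H.index ≠ 0 := Subgroup.index_ne_zero_of_finite
      rw [hcard] at h1
      have : 2 * d ≤ Nat.card H * H.index := by rw [mul_comm 2]; exact Nat.mul_le_mul_left _ (by omega)
      have := hp.two_le
      omega
    have hdiff : ∀ x y, ∃ a ∈ H, σ x - σ y = (a : ZMod p) * (x - y) := by
      intro x y
      obtain ⟨g, hg, hgt⟩ := hσ ![x, y]
      obtain ⟨a, b, hgx⟩ := hG hg
      have e0 : σ x = g x := hgt 0
      have e1 : σ y = g y := hgt 1
      exact ⟨a, hlin g hg a b hgx, by rw [e0, e1, hgx, hgx]; ring⟩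
    obtain ⟨a, b, hab⟩ := Cfsg.Agent.Lib.Recog.affine_of_pow_diff (d := d) Nat.card_pos hd σ (fun x y => by
      obtain ⟨a, ha, e⟩ := hdiff x y
      rw [e, mul_pow, ← Units.val_pow_eq_pow_val]
      have := congrArg Subtype.val (pow_card_eq_one' (x := (⟨a, ha⟩ : H)))
      simp only [SubmonoidClass.coe_pow, OneMemClass.coe_one] at this
      rw [this]; simp) σ.surjective
    obtain ⟨c, hc, e⟩ := hdiff 1 0
    rw [hab, hab] at e
    obtain ⟨m, hm, hmx⟩ := hc
    obtain ⟨s, hs, hsx⟩ := htrans b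
    have : σ = s * m := Equiv.ext fun x => by
      rw [Equiv.Perm.mul_apply, hsx, hmx, hab]
      linear_combination x * e
    rw [this]; exact mul_mem hs hm
  · by_cases hxy : t 0 = t 1
    · refine ⟨Equiv.addRight (σ (t 0) - t 0), ⟨1, σ (t 0) - t 0, fun x => by simp⟩, fun i => ?_⟩
      have : t i = t 0 := by fin_cases i <;> simp [hxy]
      simp [this]
    · have hne : (σ (t 1) - σ (t 0)) / (t 1 - t 0) ≠ 0 :=
        div_ne_zero (sub_ne_zero.2 fun e => hxy (σ.injective e).symm) (sub_ne_zero.2 (Ne.symm hxy))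
      refine ⟨((Units.mk0 _ hne).mulLeft).trans
        (Equiv.addRight (σ (t 0) - (σ (t 1) - σ (t 0)) / (t 1 - t 0) * t 0)), ⟨Units.mk0 _ hne, _, fun x => rfl⟩, fun i => ?_⟩
      have h10 := sub_ne_zero.2 (Ne.symm hxy)
      show σ (t i) = (σ (t 1) - σ (t 0)) / (t 1 - t 0) * t i + (σ (t 0) - (σ (t 1) - σ (t 0)) / (t 1 - t 0) * t 0)
      fin_cases i <;> simp <;> field_simp <;> ring
  · refine ⟨Units.mk0 (σ 1 - σ 0) (sub_ne_zero.2 fun e => one_ne_zero (σ.injective e)), σ 0, fun x => ?_⟩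
    obtain ⟨g, hg, hgt⟩ := h ![0, 1, x]
    obtain ⟨a, b, hgx⟩ := hg
    have e0 : σ 0 = g 0 := hgt 0
    have e1 : σ 1 = g 1 := hgt 1
    have e2 : σ x = g x := hgt 2
    rw [Units.val_mk0, e0, e1, e2, hgx, hgx, hgx]; ring

end Cfsg.Agent.S3518
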