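import Cfsg.Statements.S3547
import Cfsg.Agent.Lib.Recog.DerSubgroup

set_option autoImplicit false
open Cfsg

namespace Cfsg.Agent.S3547

/-- Let G act faithfully and transitively on a finite set Ω, let D be the subgroup generated by the derangements, and let r_G and r_D be the numbers of orbits of G and of D on ordered pairs of points (the permutation ranks). Then r_D − 1 = (r_G − 1)·[G : D]. -/
theorem result {G Ω : Type*} [Group G] [Finite G] [MulAction G Ω] [FaithfulSMul G Ω] [Finite Ω]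
    (htrans : MulAction.IsPretransitive G Ω) :
    Nat.card (MulAction.orbitRel.Quotient ↥(Subgroup.closure {g : G | ∀ ω : Ω, g • ω ≠ ω}) (Ω × Ω)) - 1 =
      (Nat.card (MulAction.orbitRel.Quotient G (Ω × Ω)) - 1) * (Subgroup.closure {g : G | ∀ ω : Ω, g • ω ≠ ω}).index := by
  classical
  haveI := htrans
  set D := Subgroup.closure {g : G | ∀ ω : Ω, g • ω ≠ ω} with hD
  haveI : MulAction.IsPretransitive D Ω := Lib.Recog.derSub_pretransitive
  have := Fintype.ofFinite G
  rcases isEmpty_or_nonempty Ω with hem | hne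
  · simp
  have og : Nat.card (MulAction.orbitRel.Quotient G Ω) = 1 := by
    rw [Nat.card_eq_one_iff_unique]
    exact ⟨(MulAction.pretransitive_iff_subsingleton_quotient G Ω).1 inferInstance,
      ⟨Quotient.mk'' (Classical.arbitrary Ω)⟩⟩
  have od : Nat.card (MulAction.orbitRel.Quotient D Ω) = 1 := by
    rw [Nat.card_eq_one_iff_unique]
    exact ⟨(MulAction.pretransitive_iff_subsingleton_quotient D Ω).1 inferInstance,
      ⟨Quotient.mk'' (Classical.arbitrary Ω)⟩⟩
  let h : G → ℤ := fun g => (Nat.card (MulAction.fixedBy (Ω × Ω) g) : ℤ) - Nat.card (MulAction.fixedBy Ω g)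
  have hG : ∑ g : G, h g = ((Nat.card (MulAction.orbitRel.Quotient G (Ω × Ω)) : ℤ) - 1) * Nat.card G := by
    simp only [h, Finset.sum_sub_distrib, ← Nat.cast_sum, Lib.Perm.sum_fixedBy, og]
    push_cast
    ring
  have hDs : ∑ g : D, h (g : G) = ((Nat.card (MulAction.orbitRel.Quotient D (Ω × Ω)) : ℤ) - 1) * Nat.card D := by
    have e1 : ∀ g : D, MulAction.fixedBy (Ω × Ω) (g : G) = MulAction.fixedBy (Ω × Ω) g := fun g => rfl
    have e2 : ∀ g : D, MulAction.fixedBy Ω (g : G) = MulAction.fixedBy Ω g := fun g => rfl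
    simp only [h, Finset.sum_sub_distrib, ← Nat.cast_sum, e1, e2, Lib.Perm.sum_fixedBy, od]
    push_cast
    ring
  have heq : ∑ g : D, h (g : G) = ∑ g : G, h g := by
    rw [← Finset.sum_subtype (Finset.univ.filter fun g : G => g ∈ D) (fun g => by simp) h]
    refine Finset.sum_subset (Finset.subset_univ _) fun g _ hg => ?_
    have hg' : g ∉ D := fun hm => hg (Finset.mem_filter.2 ⟨Finset.mem_univ _, hm⟩)
    have h1 := Lib.Recog.card_fixedBy_of_notMem hg'
    simp only [h, Lib.Perm.card_fixedBy_prod, h1]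
    norm_num
  rw [hG, hDs, ← D.index_mul_card] at heq
  have hd : (0 : ℤ) < Nat.card D := by exact_mod_cast Nat.card_pos
  push_cast at heq
  have hfin : (Nat.card (MulAction.orbitRel.Quotient D (Ω × Ω)) : ℤ) - 1 =
      ((Nat.card (MulAction.orbitRel.Quotient G (Ω × Ω)) : ℤ) - 1) * D.index := by
    apply mul_right_cancel₀ hd.ne'
    rw [heq]; ring
  obtain ⟨ω⟩ := hne
  have r1 : 1 ≤ Nat.card (MulAction.orbitRel.Quotient G (Ω × Ω)) :=
    Nat.card_pos_iff.2 ⟨⟨Quotient.mk'' (ω, ω)⟩, inferInstance⟩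
  have r2 : 1 ≤ Nat.card (MulAction.orbitRel.Quotient D (Ω × Ω)) :=
    Nat.card_pos_iff.2 ⟨⟨Quotient.mk'' (ω, ω)⟩, inferInstance⟩
  zify [r1, r2]
  exact hfin

end Cfsg.Agent.S3547
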