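import Cfsg.Statements.S3548
import Cfsg.Agent.Lib.Recog.DerSubgroup

set_option autoImplicit false
open Cfsg

namespace Cfsg.Agent.S3548

/-- Let G act faithfully and transitively on a finite set with n ≥ 2 points and let D be the subgroup generated by the derangements. Then the index of D in G divides n − 1, and if it equals n − 1 then n is a prime power. -/
theorem result {G Ω : Type*} [Group G] [Finite G] [MulAction G Ω] [FaithfulSMul G Ω] [Finite Ω]
    (htrans : MulAction.IsPretransitive G Ω) (hΩ : 2 ≤ Nat.card Ω) :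
    (Subgroup.closure {g : G | ∀ ω : Ω, g • ω ≠ ω}).index ∣ Nat.card Ω - 1 ∧
    ((Subgroup.closure {g : G | ∀ ω : Ω, g • ω ≠ ω}).index = Nat.card Ω - 1 → IsPrimePow (Nat.card Ω)) := by
  classical
  haveI := htrans
  set D := Subgroup.closure {g : G | ∀ ω : Ω, g • ω ≠ ω} with hD
  obtain ⟨⟨α⟩⟩ : Nonempty Ω ∧ True := ⟨(Nat.card_pos_iff.1 (by omega)).1, trivial⟩
  have hcompl : Nat.card ({α}ᶜ : Set Ω) = Nat.card Ω - 1 := by
    rw [Nat.card_coe_set_eq, Set.ncard_compl, Set.ncard_singleton]
  have hdvd : D.index ∣ Nat.card Ω - 1 := hcompl ▸ Lib.Recog.index_dvd_invariant ({α}ᶜ : Set Ω)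
    (fun h => h rfl) fun g hg x hx e => hx (smul_left_cancel g (e.trans hg.symm))
  refine ⟨hdvd, fun he => ?_⟩
  haveI : MulAction.IsPretransitive D Ω := Lib.Recog.derSub_pretransitive
  -- the stabiliser is transitive on the other points
  have horb : ∀ β : Ω, β ≠ α → MulAction.orbit (MulAction.stabilizer G α) β = ({α}ᶜ : Set Ω) := by
    intro β hβ
    refine Set.eq_of_subset_of_ncard_le ?_ ?_ (Set.toFinite _)
    · rintro _ ⟨g, rfl⟩ e
      exact hβ (smul_left_cancel (g : G) (e.trans g.2.symm))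
    · rw [← Nat.card_coe_set_eq, ← Nat.card_coe_set_eq, hcompl, ← he]
      exact Nat.le_of_dvd (Nat.card_pos_iff.2 ⟨⟨⟨β, MulAction.mem_orbit_self β⟩⟩, inferInstance⟩)
        (Lib.Recog.index_dvd_orbit hβ)
  -- so `D` is regular
  have hreg : ∀ d ∈ D, d • α = α → d = 1 := by
    intro d hd hdα
    refine FaithfulSMul.eq_of_smul_eq_smul (α := Ω) fun β => ?_
    rw [one_smul]
    by_cases hβ : β = α
    · rw [hβ, hdα]
    have e1 : (MulAction.stabilizer (MulAction.stabilizer G α) β) = D.subgroupOf (MulAction.stabilizer G α) := by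
      refine Subgroup.eq_of_le_of_card_ge (fun x hx => Subgroup.mem_subgroupOf.2
        (Lib.Recog.mem_derSub_of_fix_two hβ hx x.2)) ?_
      have i1 : (MulAction.stabilizer (MulAction.stabilizer G α) β).index = D.index := by
        rw [MulAction.index_stabilizer, horb β hβ, ← Nat.card_coe_set_eq, hcompl, he]
      have i2 : (D.subgroupOf (MulAction.stabilizer G α)).index = D.index :=
        (Lib.Recog.index_derSub_eq α).symm
      have m1 := (MulAction.stabilizer (MulAction.stabilizer G α) β).index_mul_card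
      rw [← (D.subgroupOf (MulAction.stabilizer G α)).index_mul_card, i1, i2] at m1
      exact (Nat.eq_of_mul_eq_mul_left (Nat.pos_of_ne_zero Subgroup.index_ne_zero_of_finite) m1).ge
    have : (⟨d, hdα⟩ : MulAction.stabilizer G α) ∈ MulAction.stabilizer (MulAction.stabilizer G α) β :=
      e1 ▸ Subgroup.mem_subgroupOf.2 hd
    exact this
  have hcard : Nat.card D = Nat.card Ω := by
    refine Nat.card_congr (Equiv.ofBijective (fun d : D => (d : G) • α) ⟨fun a b e => ?_, fun x => ?_⟩)
    · exact Subtype.ext (inv_mul_eq_one.1 (hreg _ (mul_mem (inv_mem a.2) b.2) (by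
        change (a : G) • α = (b : G) • α at e
        rw [mul_smul, ← e, inv_smul_smul])))
    · obtain ⟨d, hd'⟩ := MulAction.exists_smul_eq D α x
      exact ⟨d, hd'⟩
  haveI : Nontrivial D := Finite.one_lt_card_iff_nontrivial.1 (by omega)
  obtain ⟨p, hp, hpd⟩ := Nat.exists_prime_and_dvd (Finite.one_lt_card (α := D)).ne'
  haveI : Fact p.Prime := ⟨hp⟩
  obtain ⟨x, hx⟩ := exists_prime_orderOf_dvd_card' p hpd
  have hne : ∀ y : D, y ≠ 1 → (y : G) • α ≠ α := fun y hy e => hy (Subtype.ext (hreg y y.2 e))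
  have hx1 : x ≠ 1 := fun e => by rw [e, orderOf_one] at hx; exact hp.one_lt.ne hx
  haveI : D.Normal := Lib.Recog.derSub_normal
  have hp' : IsPGroup p D := by
    intro y
    by_cases hy : y = 1
    · exact ⟨0, by simp [hy]⟩
    refine ⟨1, ?_⟩
    have hmem : (y : G) • α ∈ MulAction.orbit (MulAction.stabilizer G α) ((x : G) • α) := by
      rw [horb _ (hne x hx1)]; exact hne y hy
    obtain ⟨⟨k, hk⟩, hky⟩ := hmem
    have hk' : k • (x : G) • α = (y : G) • α := hky
    have hkα : k • α = α := hk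
    have hconj : k * x * k⁻¹ = (y : G) := by
      have := hreg ((y : G)⁻¹ * (k * x * k⁻¹)) (mul_mem (inv_mem y.2) ((inferInstance : D.Normal).conj_mem _ x.2 k))
        (by rw [mul_smul, mul_smul, mul_smul, inv_smul_eq_iff.2 hkα.symm, hk', inv_smul_smul])
      exact (inv_mul_eq_one.1 this).symm
    apply Subtype.ext
    rw [pow_one, SubgroupClass.coe_pow, ← hconj, conj_pow, ← SubgroupClass.coe_pow, ← hx,
      pow_orderOf_eq_one]
    simp
  obtain ⟨a, ha⟩ := hp'.exists_card_eq
  rw [← hcard, ha]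
  exact (hp.isPrimePow).pow (fun e => by rw [e, pow_zero] at ha; omega)

end Cfsg.Agent.S3548
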