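import Cfsg.Statements.S3549
import Cfsg.Agent.Lib.Recog.DerSubgroup

set_option autoImplicit false
open Cfsg
open scoped Pointwise

namespace Cfsg.Agent.S3549

/-- Let G act faithfully, transitively but imprimitively on a finite set with n points, and let D be the subgroup generated by the derangements. Then the index of D in G is at most √n − 1. -/
theorem result {G Ω : Type*} [Group G] [Finite G] [MulAction G Ω] [FaithfulSMul G Ω] [Finite Ω]
    (htrans : MulAction.IsPretransitive G Ω) (himp : ¬ MulAction.IsPreprimitive G Ω) :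
    ((Subgroup.closure {g : G | ∀ ω : Ω, g • ω ≠ ω}).index : ℝ) ≤ Real.sqrt (Nat.card Ω) - 1 := by
  classical
  haveI := htrans
  set e := (Subgroup.closure {g : G | ∀ ω : Ω, g • ω ≠ ω}).index with he
  obtain ⟨B, hB, hnt⟩ : ∃ B : Set Ω, MulAction.IsBlock G B ∧ ¬ MulAction.IsTrivialBlock B := by
    by_contra hne
    push Not at hne
    exact himp { isTrivialBlock_of_isBlock := fun {B} hB => hne B hB }
  have hBs : ¬ B.Subsingleton := fun h => hnt (Or.inl h)
  have hBu : B ≠ Set.univ := fun h => hnt (Or.inr h)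
  obtain ⟨α, hα⟩ : B.Nonempty := by
    rw [Set.nonempty_iff_ne_empty]; rintro rfl; exact hBs Set.subsingleton_empty
  have hinv : ∀ g ∈ MulAction.stabilizer G α, ∀ x : Ω, (g • x ∈ B ↔ x ∈ B) := by
    intro g hg x
    have hgB : g • B = B := hB.smul_eq_of_mem hα (by rw [show g • α = α from hg]; exact hα)
    conv_lhs => rw [← hgB]
    exact Set.smul_mem_smul_set_iff
  have hb : e ∣ B.ncard - 1 := by
    rw [← Set.ncard_sdiff_singleton_of_mem hα, ← Nat.card_coe_set_eq]
    exact Lib.Recog.index_dvd_invariant (B \ {α}) (fun h => h.2 rfl) fun g hg x hx =>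
      ⟨(hinv g hg x).2 hx.1, fun h => hx.2 (smul_left_cancel g
        ((Set.mem_singleton_iff.1 h).trans (show g • α = α from hg).symm))⟩
  have hn : e ∣ Nat.card Ω - 1 := by
    have hc : Nat.card ({α}ᶜ : Set Ω) = Nat.card Ω - 1 := by
      rw [Nat.card_coe_set_eq, Set.ncard_compl, Set.ncard_singleton]
    exact hc ▸ Lib.Recog.index_dvd_invariant ({α}ᶜ : Set Ω) (fun h => h rfl)
      fun g hg x hx h => hx (smul_left_cancel g (h.trans hg.symm))
  obtain ⟨c, hc⟩ := hB.ncard_dvd_card ⟨α, hα⟩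
  have hb2 : 2 ≤ B.ncard := (Set.one_lt_ncard_iff_nontrivial).2 (Set.not_subsingleton_iff.1 hBs)
  have hc2 : 2 ≤ c := by
    rcases c with _ | _ | c
    · have := Nat.card_pos_iff.2 (⟨⟨α⟩, inferInstance⟩ : Nonempty Ω ∧ Finite Ω); omega
    · exfalso
      exact hBu (Set.eq_of_subset_of_ncard_le (Set.subset_univ _) (by rw [Set.ncard_univ]; omega))
    · omega
  have hce : e ∣ c - 1 := by
    obtain ⟨u, hu⟩ := hb
    obtain ⟨v, hv⟩ := hn
    have hB' : B.ncard = e * u + 1 := by omega
    rw [hc, hB'] at hv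
    have h1 : (e * u + 1) * c = e * (u * c) + c := by ring
    rw [h1] at hv
    have h2 : c - 1 = e * v - e * (u * c) := by omega
    exact h2 ▸ Nat.dvd_sub (dvd_mul_right _ _) (dvd_mul_right _ _)
  have h1 : e + 1 ≤ B.ncard := by have := Nat.le_of_dvd (by omega) hb; omega
  have h2 : e + 1 ≤ c := by have := Nat.le_of_dvd (by omega) hce; omega
  have h3 : (e + 1) * (e + 1) ≤ Nat.card Ω := hc ▸ Nat.mul_le_mul h1 h2
  rw [le_sub_iff_add_le]
  refine Real.le_sqrt_of_sq_le ?_
  rw [pow_two]
  exact_mod_cast h3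

end Cfsg.Agent.S3549
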