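import Cfsg.Statements.S3559
import Mathlib

set_option autoImplicit false
open Cfsg

namespace Cfsg.Agent.S3559

open MulAction

section

variable {G Ω : Type*} [Group G] [MulAction G Ω] {C : Subgroup G} {a : Ω}

/-- The functions on the regular subgroup that are constant on the suborbits. -/
def Inv (a : Ω) {R : Type*} (f : C → R) : Prop :=
  ∀ g : G, g • a = a → ∀ c d : C, g • (c : G) • a = (d : G) • a → f c = f d

variable (hreg : ∀ y : Ω, ∃! c : C, (c : G) • a = y)
include hreg

/-- The invariant kernel attached to an invariant function. -/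
theorem inv_kernel {R : Type*} {f : C → R} (hf : Inv a f) (g : G) (c d c' d' : C)
    (h1 : g • (c : G) • a = (c' : G) • a) (h2 : g • (d : G) • a = (d' : G) • a) :
    f (c⁻¹ * d) = f (c'⁻¹ * d') := by
  refine hf ((c' : G)⁻¹ * g * c) ?_ _ _ ?_
  · rw [mul_smul, mul_smul, h1, inv_smul_smul]
  · simp only [Subgroup.coe_mul, Subgroup.coe_inv, mul_smul, smul_inv_smul]
    rw [h2]

theorem inv_flip {R : Type*} {f : C → R} (hf : Inv a f) : Inv a fun c => f c⁻¹ := by
  intro g hg c d h
  have := inv_kernel hreg hf g c 1 d 1 h (by simpa using hg)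
  simpa using this

theorem inv_conv [Fintype C] {R : Type*} [CommRing R] {f f' : C → R} (hf : Inv a f)
    (hf' : Inv a f') : Inv a fun x : C => ∑ y, f y * f' (y⁻¹ * x) := by
  intro g hg c d h
  choose σ hσ huniq using fun y : C => hreg (g • (y : G) • a)
  have hinj : Function.Injective σ := fun x y e => by
    have h' := (hσ x).symm.trans ((congrArg (fun z : C => (z : G) • a) e).trans (hσ y))
    exact (hreg _).unique rfl (MulAction.injective g h').symm
  refine Fintype.sum_bijective σ ((Fintype.bijective_iff_injective_and_card σ).mpr ⟨hinj, rfl⟩) _ _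
    fun y => ?_
  rw [hf g hg y (σ y) (hσ y).symm, inv_kernel hreg hf' g y c (σ y) d (hσ y).symm h]

end

/-- Let G act faithfully and transitively on a finite set whose number of points n ≥ 2 is not a prime power, and suppose G has a cyclic subgroup acting regularly (transitively with trivial point stabilizers). Then G is imprimitive or doubly transitive. -/
theorem result {G Ω : Type*} [Group G] [Finite G] [MulAction G Ω] [FaithfulSMul G Ω] [Finite Ω]
    (htrans : MulAction.IsPretransitive G Ω) (hn : 2 ≤ Nat.card Ω) (hnp : ¬ IsPrimePow (Nat.card Ω))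
    (C : Subgroup G) (hcyc : IsCyclic ↥C) (hC : MulAction.IsPretransitive ↥C Ω ∧ ∀ a : Ω, MulAction.stabilizer ↥C a = ⊥) :
    ¬ MulAction.IsPreprimitive G Ω ∨ MulAction.IsMultiplyPretransitive G Ω 2 := by
  classical
  by_cases hprim : MulAction.IsPreprimitive G Ω
  swap
  · exact Or.inl hprim
  refine Or.inr ?_
  haveI := Fintype.ofFinite Ω
  haveI := Fintype.ofFinite C
  haveI := hcyc
  letI : CommGroup C := hcyc.commGroup
  haveI : Nontrivial Ω := Finite.one_lt_card_iff_nontrivial.mp hn
  haveI := hC.1
  obtain ⟨a⟩ : Nonempty Ω := inferInstance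
  have hreg : ∀ y : Ω, ∃! c : C, (c : G) • a = y := fun y => by
    obtain ⟨c, hc⟩ := exists_smul_eq C a y
    refine ⟨c, hc, fun d hd => ?_⟩
    have hm : c⁻¹ * d ∈ MulAction.stabilizer C a := by
      show (c⁻¹ * d) • a = a
      rw [mul_smul, show d • a = y from hd, ← hc, inv_smul_smul]
    rw [hC.2, Subgroup.mem_bot, inv_mul_eq_one] at hm
    exact hm.symm
  choose κ hκ hκu using hreg
  have hreg : ∀ y : Ω, ∃! c : C, (c : G) • a = y := fun y => ⟨κ y, hκ y, hκu y⟩
  have hcard : Nat.card C = Nat.card Ω :=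
    Nat.card_congr (Equiv.ofBijective (fun c : C => (c : G) • a)
      ⟨fun c d e => (hreg _).unique rfl e.symm, fun y => ⟨κ y, hκ y⟩⟩)
  have hmax := MulAction.IsPreprimitive.isCoatom_stabilizer_of_isPreprimitive (G := G) a
  -- an invariant set generates a trivial or total subgroup
  have hgen : ∀ S : Set C, (∀ g : G, g • a = a → ∀ c d : C, g • (c : G) • a = (d : G) • a →
      (c ∈ S ↔ d ∈ S)) → Subgroup.closure S = ⊥ ∨ Subgroup.closure S = ⊤ := by
    intro S hS
    have key : ∀ x ∈ Subgroup.closure S, ∀ g : G, g • a = a →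
        ∃ x' ∈ Subgroup.closure S, g • (x : G) • a = (x' : G) • a := by
      intro x hx
      rw [← Subgroup.mem_toSubmonoid, Subgroup.closure_toSubmonoid_of_finite] at hx
      induction hx using Submonoid.closure_induction_left with
      | one => exact fun g hg => ⟨1, one_mem _, by simpa using hg⟩
      | mul_left s hs y hy ih =>
        intro g hg
        obtain ⟨s', hs', -⟩ := hreg (g • (s : G) • a)
        have hs'S : s' ∈ S := (hS g hg s s' hs'.symm).mp hs
        obtain ⟨x', hx', he⟩ := ih ((s' : G)⁻¹ * g * s) (by rw [mul_smul, mul_smul, ← hs', inv_smul_smul])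
        refine ⟨s' * x', mul_mem (Subgroup.subset_closure hs'S) hx', ?_⟩
        rw [Subgroup.coe_mul, Subgroup.coe_mul, mul_smul, mul_smul, ← he]
        simp [mul_smul]
    let Δ : Set Ω := {y | ∃ x ∈ Subgroup.closure S, (x : G) • a = y}
    let K : Submonoid G :=
      { carrier := {g | g • a ∈ Δ}
        one_mem' := ⟨1, one_mem _, by simp⟩
        mul_mem' := fun {g g'} hg hg' => by
          obtain ⟨x, hx, hxe⟩ := hg'
          obtain ⟨y, hy, hye⟩ := hg
          obtain ⟨x', hx', he⟩ := key x hx ((y : G)⁻¹ * g) (by rw [mul_smul, ← hye, inv_smul_smul])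
          refine ⟨y * x', mul_mem hy hx', ?_⟩
          rw [Subgroup.coe_mul, mul_smul, ← he, mul_smul, mul_smul, smul_inv_smul, hxe] }
    let L : Subgroup G := Subgroup.closure (K : Set G)
    have hL : (L : Set G) = K := by
      show ((Subgroup.closure (K : Set G)).toSubmonoid : Set G) = K
      rw [Subgroup.closure_toSubmonoid_of_finite, Submonoid.closure_eq]
    rcases hmax.le_iff.mp (show MulAction.stabilizer G a ≤ L from fun g hg =>
      Subgroup.subset_closure (⟨1, one_mem _, by
        rw [MulAction.mem_stabilizer_iff] at hg; simp [hg]⟩ : g ∈ K)) with h | h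
    · refine Or.inr (eq_top_iff.mpr fun c _ => ?_)
      have hc : (c : G) ∈ (L : Set G) := by rw [h]; trivial
      rw [hL] at hc
      obtain ⟨x, hx, hxe⟩ := hc
      exact (hreg _).unique rfl hxe ▸ hx
    · refine Or.inl ((Subgroup.eq_bot_iff_forall _).mpr fun x hx => ?_)
      have hx' : (x : G) ∈ L := Subgroup.subset_closure (⟨x, hx, rfl⟩ : (x : G) ∈ K)
      rw [h] at hx'
      exact (hreg a).unique hx' (by simp)
  -- suborbits
  let T : C → Set C := fun c => {d | ∃ g : G, g • a = a ∧ g • (c : G) • a = (d : G) • a}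
  have hTinv : ∀ c, ∀ g : G, g • a = a → ∀ x y : C, g • (x : G) • a = (y : G) • a →
      (x ∈ T c ↔ y ∈ T c) := by
    intro c g hg x y hxy
    constructor
    · rintro ⟨h, hh, he⟩
      exact ⟨g * h, by rw [mul_smul, hh, hg], by rw [mul_smul, he, hxy]⟩
    · rintro ⟨h, hh, he⟩
      exact ⟨g⁻¹ * h, by rw [mul_smul, hh, inv_smul_eq_iff, hg],
        by rw [mul_smul, he, inv_smul_eq_iff, hxy]⟩
  have hTself : ∀ c, c ∈ T c := fun c => ⟨1, one_smul _ _, one_smul _ _⟩
  have hTone : ∀ c, c ≠ 1 → (1 : C) ∉ T c := by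
    rintro c hc ⟨g, hg, he⟩
    rw [Subgroup.coe_one, one_smul] at he
    exact hc ((hreg a).unique (MulAction.injective g (he.trans hg.symm)) (by simp))
  have hInd : ∀ (R : Type) [CommRing R] (c : C), Inv a fun x => if x ∈ T c then (1 : R) else 0 :=
    fun R _ c g hg x y hxy => if_congr (hTinv c g hg x y hxy) rfl rfl
  have hTeq : ∀ c d x, x ∈ T c → x ∈ T d → d ∈ T c := by
    rintro c d x ⟨g, hg, he⟩ ⟨g', hg', he'⟩
    exact ⟨g'⁻¹ * g, by rw [mul_smul, hg, inv_smul_eq_iff, hg'],
      by rw [mul_smul, he, ← he', inv_smul_smul]⟩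
  -- the multiplier argument
  have hfull : ∀ p : ℕ, p.Prime → p ∣ Nat.card C → ∀ c x : C, x ^ p ≠ 1 → x ∈ T c →
      ∀ z : C, z ^ p = 1 → x * z ∈ T c := by
    intro p hp hpC c x hx hxT z hz
    haveI := Fact.mk hp
    haveI : NeZero p := ⟨hp.ne_zero⟩
    let F : MonoidAlgebra (ZMod p) C :=
      ∑ t ∈ Finset.univ.filter (· ∈ T c), MonoidAlgebra.single t 1
    have hFc : ∀ t, F.coeff t = if t ∈ T c then 1 else 0 := by
      intro t
      simp [F, MonoidAlgebra.coeff_sum, Finsupp.single_apply, Finset.sum_ite_eq']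
    have hpow : ∀ k : ℕ, Inv a fun t => (F ^ k).coeff t := by
      intro k
      induction k with
      | zero =>
        intro g hg u v huv
        simp only [pow_zero, MonoidAlgebra.one_def, MonoidAlgebra.coeff_single, Finsupp.single_apply]
        refine if_congr ?_ rfl rfl
        constructor
        · rintro rfl
          rw [Subgroup.coe_one, one_smul, hg] at huv
          exact (hreg a).unique (by simp) huv.symm
        · rintro rfl
          rw [Subgroup.coe_one, one_smul] at huv
          exact (hreg a).unique (by simp) (MulAction.injective g (huv.trans hg.symm))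
      | succ k ih =>
        have e : (fun t => (F ^ (k + 1)).coeff t) =
            fun t => ∑ y : C, (F ^ k).coeff y * (if y⁻¹ * t ∈ T c then (1 : ZMod p) else 0) := by
          funext t
          rw [pow_succ, MonoidAlgebra.coeff_mul_antidiag (F ^ k) F t
            (Finset.univ.map ⟨fun y => (y, y⁻¹ * t), fun u v e => congrArg Prod.fst e⟩)]
          · refine (Finset.sum_map _ _ _).trans (Finset.sum_congr rfl fun y _ => ?_)
            exact congrArg _ (hFc _)
          · intro q
            simp only [Finset.mem_map, Finset.mem_univ, true_and, Function.Embedding.coeFn_mk]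
            constructor
            · rintro ⟨y, rfl⟩; exact mul_inv_cancel_left _ _
            · intro h
              refine ⟨q.1, Prod.ext rfl ?_⟩
              show q.1⁻¹ * t = q.2
              rw [← h, inv_mul_cancel_left]
        rw [e]
        exact inv_conv hreg ih (hInd _ c)
    haveI : CharP (MonoidAlgebra (ZMod p) C) p :=
      charP_of_injective_algebraMap (algebraMap (ZMod p) (MonoidAlgebra (ZMod p) C)).injective p
    have hFp : ∀ t, (F ^ p).coeff t =
        ((Finset.univ.filter fun u => u ∈ T c ∧ u ^ p = t).card : ZMod p) := by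
      intro t
      rw [show F ^ p = ∑ u ∈ Finset.univ.filter (· ∈ T c), MonoidAlgebra.single u (1 : ZMod p) ^ p
        from sum_pow_char p _ _]
      simp only [MonoidAlgebra.single_pow, one_pow, MonoidAlgebra.coeff_sum, Finsupp.coe_finset_sum,
        Finset.sum_apply, MonoidAlgebra.coeff_single, Finsupp.single_apply, Finset.sum_boole,
        Finset.filter_filter]
    let S : Set C := {t | t ≠ 1 ∧ (F ^ p).coeff t ≠ 0}
    have hS : ∀ g : G, g • a = a → ∀ u v : C, g • (u : G) • a = (v : G) • a → (u ∈ S ↔ v ∈ S) := by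
      intro g hg u v huv
      have h1 : (F ^ p).coeff u = (F ^ p).coeff v := hpow p g hg u v huv
      have h2 : u = 1 ↔ v = 1 := by
        constructor
        · rintro rfl
          rw [Subgroup.coe_one, one_smul, hg] at huv
          exact (hreg a).unique huv.symm (by simp)
        · rintro rfl
          rw [Subgroup.coe_one, one_smul] at huv
          exact (hreg a).unique (MulAction.injective g (huv.trans hg.symm)) (by simp)
      simp only [S, Set.mem_ofPred_eq, h1, not_congr h2, ne_eq]
    obtain ⟨w, hw⟩ := exists_prime_orderOf_dvd_card' (G := C) p hpC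
    have hle : Subgroup.closure S ≤ (powMonoidHom p : C →* C).range := by
      rw [Subgroup.closure_le]
      rintro t ⟨-, ht⟩
      rw [hFp] at ht
      obtain ⟨u, hu⟩ := Finset.card_ne_zero.mp (fun e => ht (by rw [e]; simp))
      exact ⟨u, (Finset.mem_filter.mp hu).2.2⟩
    have hSe : Subgroup.closure S = ⊥ := by
      refine (hgen S hS).resolve_right fun e => ?_
      rw [e] at hle
      have hsurj : Function.Surjective (powMonoidHom p : C →* C) := fun t => hle (Subgroup.mem_top t)
      have hw1 : w ≠ 1 := fun h => hp.one_lt.ne (by rw [← hw, h, orderOf_one])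
      exact hw1 ((Finite.injective_iff_surjective.mpr hsurj)
        (show w ^ p = (1 : C) ^ p by rw [one_pow, ← hw, pow_orderOf_eq_one]))
    have hz0 : (F ^ p).coeff (x ^ p) = 0 := by
      by_contra h
      exact hx (Subgroup.mem_bot.mp (hSe ▸ Subgroup.subset_closure (⟨hx, h⟩ : x ^ p ∈ S)))
    rw [hFp, ZMod.natCast_eq_zero_iff] at hz0
    set B := Finset.univ.filter fun u => u ∈ T c ∧ u ^ p = x ^ p with hB
    set P := Finset.univ.filter fun u : C => u ^ p = 1 with hP
    have hBsub : B ⊆ P.image (x * ·) := fun u hu => by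
      obtain ⟨-, -, hu⟩ := Finset.mem_filter.mp hu
      exact Finset.mem_image.mpr ⟨x⁻¹ * u, Finset.mem_filter.mpr ⟨Finset.mem_univ _,
        by rw [mul_pow, inv_pow, hu, inv_mul_cancel]⟩, mul_inv_cancel_left x u⟩
    have hPle : P.card ≤ p := IsCyclic.card_pow_eq_one_le hp.pos
    have hB1 : 0 < B.card := Finset.card_pos.mpr ⟨x, Finset.mem_filter.mpr ⟨Finset.mem_univ _, hxT, rfl⟩⟩
    have hcardle : B.card ≤ (P.image (x * ·)).card := Finset.card_le_card hBsub
    have hle' : (P.image (x * ·)).card ≤ B.card := by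
      refine le_trans Finset.card_image_le ?_
      have := Nat.le_of_dvd hB1 hz0
      omega
    have hm : x * z ∈ P.image (x * ·) :=
      Finset.mem_image.mpr ⟨z, Finset.mem_filter.mpr ⟨Finset.mem_univ _, hz⟩, rfl⟩
    rw [← Finset.eq_of_subset_of_card_le hBsub hle'] at hm
    exact (Finset.mem_filter.mp hm).2.1
  -- every suborbit meets every subgroup of prime order
  have hmeet : ∀ p : ℕ, p.Prime → p ∣ Nat.card C → ∀ c : C, c ≠ 1 →
      ∃ x ∈ T c, x ^ p = 1 := by
    intro p hp hpC c hc
    haveI := Fact.mk hp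
    by_contra hno
    push Not at hno
    let S : Set C := {t | ∀ x ∈ T c, x * t ∈ T c}
    have hSval : ∀ t, t ∈ S ↔ (∑ y : C, (if y ∈ T c then (1 : ℤ) else 0) *
        (fun u => if u⁻¹ ∈ T c then (1 : ℤ) else 0) (y⁻¹ * t)) =
        ((Finset.univ.filter (· ∈ T c)).card : ℤ) := by
      intro t
      have e : (∑ y : C, (if y ∈ T c then (1 : ℤ) else 0) *
          (fun u => if u⁻¹ ∈ T c then (1 : ℤ) else 0) (y⁻¹ * t)) =
          ((Finset.univ.filter fun y => y ∈ T c ∧ t⁻¹ * y ∈ T c).card : ℤ) := by
        simp only [mul_inv_rev, inv_inv, mul_ite, mul_one, mul_zero, ← ite_and, Finset.sum_boole]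
        congr 2
        exact Finset.filter_congr fun y _ => and_comm
      rw [e, Nat.cast_inj]
      constructor
      · intro ht
        congr 1
        refine Finset.filter_congr fun y _ => ⟨And.left, fun hy => ⟨hy, ?_⟩⟩
        -- right translation by `t` permutes the suborbit
        have hb : Function.Bijective (fun u : T c => (⟨u * t, ht u u.2⟩ : T c)) :=
          Finite.injective_iff_bijective.mp fun u v e =>
            Subtype.ext (mul_right_cancel (congrArg Subtype.val e))
        obtain ⟨u, hu⟩ := hb.2 ⟨y, hy⟩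
        have hu' : (u : C) * t = y := congrArg Subtype.val hu
        rw [← hu', mul_comm (u : C) t, inv_mul_cancel_left]
        exact u.2
      · intro he u hu
        have hsub : (Finset.univ.filter fun y => y ∈ T c ∧ t⁻¹ * y ∈ T c) ⊆
            (Finset.univ.filter fun y => y ∈ T c) := fun y hy => by
          simp only [Finset.mem_filter] at hy ⊢; exact ⟨hy.1, hy.2.1⟩
        have heq := Finset.eq_of_subset_of_card_le hsub he.ge
        have hall : ∀ y, y ∈ T c → t⁻¹ * y ∈ T c := fun y hy => by
          have hy' : y ∈ (Finset.univ.filter fun y => y ∈ T c) := Finset.mem_filter.mpr ⟨Finset.mem_univ _, hy⟩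
          rw [← heq] at hy'
          exact (Finset.mem_filter.mp hy').2.2
        have hb : Function.Bijective (fun u : T c => (⟨t⁻¹ * u, hall u u.2⟩ : T c)) :=
          Finite.injective_iff_bijective.mp fun u v e =>
            Subtype.ext (mul_left_cancel (congrArg Subtype.val e))
        obtain ⟨v, hv⟩ := hb.2 ⟨u, hu⟩
        have hv' : t⁻¹ * (v : C) = u := congrArg Subtype.val hv
        rw [← hv', mul_comm _ t, mul_inv_cancel_left]
        exact v.2
    have hS : ∀ g : G, g • a = a → ∀ u v : C, g • (u : G) • a = (v : G) • a → (u ∈ S ↔ v ∈ S) := by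
      intro g hg u v huv
      have h1 := inv_conv hreg (hInd ℤ c) (inv_flip hreg (hInd ℤ c)) g hg u v huv
      rw [hSval, hSval]
      exact ⟨fun h => h1.symm.trans h, fun h => h1.trans h⟩
    obtain ⟨w, hw⟩ := exists_prime_orderOf_dvd_card' (G := C) p hpC
    have hwS : w ∈ S := fun x hxT => hfull p hp hpC c x (hno x hxT) hxT w (by rw [← hw, pow_orderOf_eq_one])
    rcases hgen S hS with h | h
    · have h1 : w = 1 := Subgroup.mem_bot.mp (h ▸ Subgroup.subset_closure hwS)
      rw [h1, orderOf_one] at hw
      exact hp.one_lt.ne hw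
    · have hcl : ∀ t ∈ Subgroup.closure S, ∀ x ∈ T c, x * t ∈ T c := by
        intro t ht
        rw [← Subgroup.mem_toSubmonoid, Subgroup.closure_toSubmonoid_of_finite] at ht
        induction ht using Submonoid.closure_induction with
        | mem t ht => exact ht
        | one => simp
        | mul u v _ _ hu hv => exact fun x hx => by rw [← mul_assoc]; exact hv _ (hu x hx)
      have := hcl c⁻¹ (h ▸ Subgroup.mem_top _) c (hTself c)
      rw [mul_inv_cancel] at this
      exact hTone c hc this
  -- two primes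
  obtain ⟨p, hp, q, hq, hpq, hpC, hqC⟩ : ∃ p : ℕ, p.Prime ∧ ∃ q : ℕ, q.Prime ∧ p ≠ q ∧
      p ∣ Nat.card C ∧ q ∣ Nat.card C := by
    rw [hcard]
    obtain ⟨p, hp, hpC⟩ := Nat.exists_prime_and_dvd (show Nat.card Ω ≠ 1 by omega)
    by_contra hno
    push Not at hno
    refine hnp ?_
    have h := Nat.eq_prime_pow_of_unique_prime_dvd (show Nat.card Ω ≠ 0 by omega) (p := p)
      (fun {d} hd hdC => by
        by_contra h
        exact hno p hp d hd (fun e => h e.symm) hpC hdC)
    rw [h]
    refine hp.prime.isPrimePow.pow fun e => ?_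
    rw [e, pow_zero] at h
    omega
  have hsame : ∀ c d : C, c ≠ 1 → d ≠ 1 → d ∈ T c := by
    intro c d hc hd
    obtain ⟨u, huT, hu⟩ := hmeet p hp hpC c hc
    obtain ⟨v, hvT, hv⟩ := hmeet q hq hqC d hd
    have hu1 : u ≠ 1 := fun e => hTone c hc (e ▸ huT)
    have hv1 : v ≠ 1 := fun e => hTone d hd (e ▸ hvT)
    have hcop : Nat.Coprime p q := (Nat.coprime_primes hp hq).mpr hpq
    have hkey : ∀ (r s : ℕ) (t : C), Nat.Coprime r s → t ^ r = 1 → t ^ s = 1 → t = 1 := by
      intro r s t h h1 h2
      exact orderOf_eq_one_iff.mp (Nat.eq_one_of_dvd_coprimes h (orderOf_dvd_of_pow_eq_one h1)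
        (orderOf_dvd_of_pow_eq_one h2))
    have h1 := hfull q hq hqC c u (fun e => hu1 (hkey p q u hcop hu e)) huT v hv
    have h2 := hfull p hp hpC d v (fun e => hv1 (hkey p q v hcop e hv)) hvT u hu
    rw [mul_comm] at h2
    exact hTeq c d _ h1 h2
  rw [MulAction.is_two_pretransitive_iff]
  intro w x y z hwx hyz
  haveI := htrans
  obtain ⟨g₁, hg₁⟩ := exists_smul_eq G w a
  obtain ⟨g₂, hg₂⟩ := exists_smul_eq G y a
  have hne1 : κ (g₁ • x) ≠ 1 := fun e => hwx (MulAction.injective g₁ (hg₁.trans (by
    show a = g₁ • x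
    rw [← hκ (g₁ • x), e]; simp)))
  have hne2 : κ (g₂ • z) ≠ 1 := fun e => hyz (MulAction.injective g₂ (hg₂.trans (by
    show a = g₂ • z
    rw [← hκ (g₂ • z), e]; simp)))
  obtain ⟨g, hg, he⟩ := hsame _ _ hne1 hne2
  rw [hκ, hκ] at he
  refine ⟨g₂⁻¹ * g * g₁, ?_, ?_⟩
  · rw [mul_smul, mul_smul, hg₁, hg, inv_smul_eq_iff, hg₂]
  · rw [mul_smul, mul_smul, he, inv_smul_smul]

end Cfsg.Agent.S3559
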