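import Cfsg.Statements.S3560
-- import your own Cfsg.Agent.* helpers here

set_option autoImplicit false
open Cfsg

namespace Cfsg.Agent.S3560

section
variable {ι : Type*} {m : ℕ}

/-- adjacency in the Hamming graph -/
def Adj (x y : ι → Fin m) : Prop := ∃ i, x i ≠ y i ∧ ∀ j, j ≠ i → x j = y j

/-- a map acting coordinatewise after a permutation of the coordinates -/
def wr (s : Equiv.Perm ι) (π : ι → Equiv.Perm (Fin m)) : Equiv.Perm (ι → Fin m) where
  toFun z k := π k (z (s k))
  invFun z k := (π (s.symm k)).symm (z (s.symm k))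
  left_inv z := by funext k; simp
  right_inv z := by funext k; simp

lemma wr_apply (s : Equiv.Perm ι) (π : ι → Equiv.Perm (Fin m)) (z : ι → Fin m) (k : ι) :
    wr s π z k = π k (z (s k)) := rfl

lemma adj_wr (s : Equiv.Perm ι) (π : ι → Equiv.Perm (Fin m)) (x y : ι → Fin m) :
    Adj (wr s π x) (wr s π y) ↔ Adj x y := by
  constructor
  · rintro ⟨i, hi, h⟩
    refine ⟨s i, fun e => hi (by simp [wr_apply, e]), fun j hj => ?_⟩
    have := h (s.symm j) (fun e => hj (by rw [← e]; simp))
    simpa [wr_apply] using this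
  · rintro ⟨i, hi, h⟩
    refine ⟨s.symm i, by simpa [wr_apply] using hi, fun j hj => ?_⟩
    have := h (s j) (fun e => hj (by rw [← e]; simp))
    simp [wr_apply, this]

end

/-- Let K be a finite group isomorphic to a direct product of r ≥ 2 groups all of the same order m ≥ 3. Then K is not a B-group: there is a primitive but not doubly transitive permutation group (on some finite set) containing a regular subgroup isomorphic to K. -/
theorem result {K : Type*} [Group K] [Finite K] {ι : Type*} [Fintype ι] (F : ι → Type*) [∀ i, Group (F i)]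
    (hr : 2 ≤ Fintype.card ι) (m : ℕ) (hm : 3 ≤ m) (hcard : ∀ i, Nat.card (F i) = m) (e : K ≃* (∀ i, F i)) :
    ∃ (n : ℕ) (G R : Subgroup (Equiv.Perm (Fin n))), R ≤ G ∧ Nonempty (↥R ≃* K) ∧
      MulAction.IsPretransitive ↥R (Fin n) ∧ (∀ a : Fin n, MulAction.stabilizer ↥R a = ⊥) ∧
      MulAction.IsPreprimitive ↥G (Fin n) ∧ ¬ MulAction.IsMultiplyPretransitive ↥G (Fin n) 2 := by
  classical
  have hfin : ∀ i, Finite (F i) := fun i => Nat.finite_of_card_ne_zero (by rw [hcard i]; omega)
  let f : ∀ i, F i ≃ Fin m := fun i => Finite.equivFinOfCardEq (hcard i)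
  let Φ : K ≃ (ι → Fin m) := e.toEquiv.trans (Equiv.piCongrRight f)
  let ψ : (ι → Fin m) ≃ Fin (Fintype.card (ι → Fin m)) := Fintype.equivFin _
  let c := ψ.symm
  let G : Subgroup (Equiv.Perm (Fin (Fintype.card (ι → Fin m)))) :=
    { carrier := {g | ∀ a b, Adj (c (g a)) (c (g b)) ↔ Adj (c a) (c b)}
      one_mem' := fun a b => Iff.rfl
      mul_mem' := fun {g h} hg hh a b => (hg (h a) (h b)).trans (hh a b)
      inv_mem' := fun {g} hg a b => by
        have := hg (g⁻¹ a) (g⁻¹ b)
        simpa using this.symm }
  let lift : Equiv.Perm (ι → Fin m) → Equiv.Perm (Fin (Fintype.card (ι → Fin m))) := fun τ => ψ.permCongr τ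
  have hlift : ∀ s π, lift (wr s π) ∈ G := by
    intro s π a b
    simp only [lift, c, Equiv.permCongr_apply, Equiv.symm_apply_apply, adj_wr]
  let ρ : K →* Equiv.Perm (Fin (Fintype.card (ι → Fin m))) :=
    { toFun := fun g => (Φ.trans ψ).permCongr (Equiv.mulLeft g)
      map_one' := by ext x; simp
      map_mul' := fun g h => by ext x; simp [mul_assoc] }
  have hρ : ∀ g a, ρ g a = ψ (Φ (g * Φ.symm (c a))) := fun g a => rfl
  have hρG : ρ.range ≤ G := by
    rintro _ ⟨g, rfl⟩
    convert hlift (Equiv.refl ι) (fun i => (f i).permCongr (Equiv.mulLeft (e g i))) using 1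
    ext a
    rw [hρ]
    congr 1
    simp only [lift, Equiv.permCongr_apply]
    congr 1
    funext k
    simp [wr_apply, Φ, c]
  have hρinj : Function.Injective ρ := by
    intro g h hgh
    have := congrArg (fun σ : Equiv.Perm _ => σ (ψ (Φ 1))) hgh
    simpa [hρ, c] using this
  have hρtrans : ∀ a b, ∃ g, ρ g a = b := by
    intro a b
    exact ⟨Φ.symm (c b) * (Φ.symm (c a))⁻¹, by rw [hρ, inv_mul_cancel_right]; simp [c]⟩
  refine ⟨Fintype.card (ι → Fin m), G, ρ.range, hρG, ⟨(MonoidHom.ofInjective hρinj).symm⟩,
    ⟨fun a b => ?_⟩, fun a => ?_, ?_, ?_⟩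
  · obtain ⟨g, hg⟩ := hρtrans a b
    exact ⟨⟨ρ g, g, rfl⟩, hg⟩
  · rw [eq_bot_iff]
    rintro ⟨_, g, rfl⟩ hg
    rw [MulAction.mem_stabilizer_iff] at hg
    change ρ g a = a at hg
    rw [hρ] at hg
    have : g * Φ.symm (c a) = Φ.symm (c a) := by
      apply Φ.injective
      apply ψ.injective
      rw [hg]; simp [c]
    simp [mul_eq_right.1 this]
  · have : MulAction.IsPretransitive G (Fin (Fintype.card (ι → Fin m))) := ⟨fun a b => by
      obtain ⟨g, hg⟩ := hρtrans a b
      exact ⟨⟨ρ g, hρG ⟨g, rfl⟩⟩, hg⟩⟩
    refine { isTrivialBlock_of_isBlock := fun {B} hB => ?_ }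
    rw [MulAction.isBlock_iff_smul_eq_of_mem] at hB
    rcases B.subsingleton_or_nontrivial with h | ⟨a, ha, b, hb, hab⟩
    · exact Or.inl h
    right
    have hmv : ∀ s π, ∀ u ∈ B, ψ (wr s π (c u)) ∈ B → ∀ v ∈ B, ψ (wr s π (c v)) ∈ B := by
      intro s π u hu hu' v hv
      have := hB (g := ⟨lift (wr s π), hlift s π⟩) hu (by exact hu')
      rw [← this]
      exact Set.smul_mem_smul_set hv
    let S : Set (ι → Fin m) := {x | ψ x ∈ B}
    have hmv' : ∀ s π, ∀ u ∈ S, wr s π u ∈ S → ∀ v ∈ S, wr s π v ∈ S := by
      intro s π u hu hu' v hv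
      have hc : ∀ u, c (ψ u) = u := ψ.symm_apply_apply
      have := hmv s π (ψ u) hu (by rw [hc]; exact hu') (ψ v) hv
      rw [hc] at this
      exact this
    have h3 : ∀ p q : Fin m, ∃ r, r ≠ p ∧ r ≠ q := by
      intro p q
      have hlt : ({p, q} : Finset (Fin m)).card < (Finset.univ : Finset (Fin m)).card := by
        rw [Finset.card_univ, Fintype.card_fin]
        exact lt_of_le_of_lt Finset.card_le_two (by omega)
      obtain ⟨r, -, hr⟩ := Finset.exists_mem_notMem_of_card_lt_card hlt
      exact ⟨r, by simpa using hr⟩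
    -- an adjacent pair in S
    have haS : c a ∈ S := by simpa [S, c] using ha
    have hbS : c b ∈ S := by simpa [S, c] using hb
    obtain ⟨i, hi⟩ : ∃ i, c a i ≠ c b i := by
      by_contra! hh
      exact hab (c.injective (funext hh))
    obtain ⟨x, hx, y, hy, hxy, hxy'⟩ :
        ∃ x ∈ S, ∃ y ∈ S, x i ≠ y i ∧ ∀ j, j ≠ i → x j = y j := by
      obtain ⟨r, hr1, hr2⟩ := h3 (c a i) (c b i)
      have := hmv' (Equiv.refl ι) (Function.update (fun _ => 1) i (Equiv.swap (c b i) r)) (c a) haS (by
        convert haS using 1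
        funext k
        rcases eq_or_ne k i with rfl | hk
        · simp [wr_apply, Equiv.swap_apply_of_ne_of_ne hi hr1.symm]
        · simp [wr_apply, hk]) (c b) hbS
      refine ⟨c b, hbS, _, this, ?_, fun j hj => ?_⟩
      · simp [wr_apply, hr2.symm]
      · simp [wr_apply, hj]
    -- all neighbours of x
    have hnb : ∀ j d, Function.update x j d ∈ S := by
      intro j d
      by_cases hd : x j = d
      · rw [← hd, Function.update_eq_self]; exact hx
      -- move the pair to coordinate j, then change the value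
      let s := Equiv.swap i j
      let π : ι → Equiv.Perm (Fin m) := fun k => Equiv.swap (x (s k)) (x k)
      have h1 := hmv' s π x hx (by
        convert hx using 1
        funext k; simp [wr_apply, π]) y hy
      set z := wr s π y with hz
      have hzj : x j ≠ z j := by
        rw [hz, wr_apply]
        intro h
        have : π j (x (s j)) = π j (y (s j)) := by rw [← h]; simp [π]
        have := (π j).injective this
        simp only [s, Equiv.swap_apply_right] at this
        exact hxy this
      have hzk : ∀ k, k ≠ j → x k = z k := by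
        intro k hk
        have hsk : s k ≠ i := fun h => hk (s.injective (by rw [h]; simp [s]))
        rw [hz, wr_apply, ← hxy' _ hsk]
        simp [π]
      have h2 := hmv' (Equiv.refl ι) (Function.update (fun _ => 1) j (Equiv.swap (z j) d)) x hx (by
        convert hx using 1
        funext k
        rcases eq_or_ne k j with rfl | hk
        · simp [wr_apply, Equiv.swap_apply_of_ne_of_ne hzj hd]
        · simp [wr_apply, hk]) z h1
      convert h2 using 1
      funext k
      rcases eq_or_ne k j with rfl | hk
      · simp [wr_apply]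
      · simp [wr_apply, hk, hzk k hk]
    -- closure under neighbours
    have hclosed : ∀ u ∈ S, ∀ j d, Function.update u j d ∈ S := by
      intro u hu j d
      have h := hmv' (Equiv.refl ι) (fun k => Equiv.swap (x k) (u k)) x hx (by
        convert hu using 1
        funext k; simp [wr_apply]) _ (hnb j (Equiv.swap (x j) (u j) d))
      convert h using 1
      funext k
      rcases eq_or_ne k j with rfl | hk
      · simp [wr_apply]
      · simp [wr_apply, hk]
    ext a'
    simp only [Set.mem_univ, iff_true]
    have : ∀ T : Finset ι, T.piecewise (c a') x ∈ S := by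
      intro T
      induction T using Finset.induction_on with
      | empty => simpa using hx
      | insert j T _ ih =>
        rw [Finset.piecewise_insert]
        exact hclosed _ ih _ _
    have := this Finset.univ
    simpa [S, c] using this
  · intro h2
    rw [MulAction.is_two_pretransitive_iff] at h2
    obtain ⟨i, j, hij⟩ := Fintype.exists_pair_of_one_lt_card (α := ι) (by omega)
    let z0 : ι → Fin m := fun _ => ⟨0, by omega⟩
    let z1 : ι → Fin m := Function.update z0 i ⟨1, by omega⟩
    let z2 : ι → Fin m := Function.update z1 j ⟨1, by omega⟩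
    have hadj : Adj z0 z1 := ⟨i, by simp [z0, z1, Fin.ext_iff], fun k hk => by simp [z1, hk]⟩
    have hne2 : z0 ≠ z2 := fun h => by
      have := congrFun h j
      simp [z0, z2, Fin.ext_iff] at this
    have hnadj : ¬ Adj z0 z2 := by
      rintro ⟨k, -, h⟩
      rcases eq_or_ne i k with rfl | hk
      · have := h j hij.symm
        simp [z0, z2, Fin.ext_iff] at this
      · have := h i hk
        simp [z0, z1, z2, hij, Fin.ext_iff] at this
    have hne1 : z0 ≠ z1 := fun h => by
      obtain ⟨k, hk, -⟩ := hadj
      exact hk (congrFun h k)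
    obtain ⟨⟨g, hg⟩, h1, h2'⟩ := h2 (ψ.injective.ne hne1) (ψ.injective.ne hne2)
    change g (ψ z0) = ψ z0 at h1
    change g (ψ z1) = ψ z2 at h2'
    apply hnadj
    have := (hg (ψ z0) (ψ z1)).2 (by simpa [c] using hadj)
    rw [h1, h2'] at this
    simpa [c] using this

end Cfsg.Agent.S3560
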