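import Cfsg.Statements.S3571
import Cfsg.Agent.Lib.Perm.AltSix
import Cfsg.Agent.S2119

set_option autoImplicit false
open Cfsg

namespace Cfsg.Agent.S3571

open Equiv Equiv.Perm
open Cfsg.Agent.Lib.Perm

set_option synthInstance.maxSize 2000 in
theorem key : ∀ n ∈ (360 : ℕ).divisors, ∀ a ∈ (360 : ℕ).divisors, a * n = 360 → n ≠ 6 → 6 ≤ n →
    (2 ∣ n → 2 ∣ a → ¬ 3 ∣ n → ¬ 5 ∣ n → a = 15 ∨ a = 30 ∨ a = 45) ∧
    (3 ∣ n → 3 ∣ a → ¬ 5 ∣ n → a = 15 ∨ a = 30 ∨ a = 45) ∧
    (5 ∣ n → 5 ∣ a → a = 15 ∨ a = 30 ∨ a = 45) := by decide +kernel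


/-- Let G be an almost simple group whose socle is an alternating group of degree m ≥ 5 (G has a normal subgroup T isomorphic to that alternating group with trivial centralizer), acting faithfully and primitively on a finite set Ω with at least two points, and let r be the largest prime divisor of the number of points. Then G contains an element of order r fixing no point. -/
theorem result {G Ω : Type*} [Group G] [Finite G] [MulAction G Ω] [FaithfulSMul G Ω] [Finite Ω]
    (T : Subgroup G) (hT : T.Normal) (hTc : Subgroup.centralizer (T : Set G) = ⊥) (m : ℕ) (hm : 5 ≤ m)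
    (eT : ↥T ≃* ↥(alternatingGroup (Fin m))) (hprim : MulAction.IsPreprimitive G Ω) (hΩ : 2 ≤ Nat.card Ω)
    (r : ℕ) (hr : r.Prime) (hrd : r ∣ Nat.card Ω) (hmax : ∀ s : ℕ, s.Prime → s ∣ Nat.card Ω → s ≤ r) :
    ∃ g : G, orderOf g = r ∧ ∀ ω : Ω, g • ω ≠ ω := by
  classical
  haveI := hprim
  haveI := hT
  haveI : Nontrivial Ω := Finite.one_lt_card_iff_nontrivial.1 (by omega)
  obtain ⟨ω⟩ : Nonempty Ω := inferInstance
  set M := MulAction.stabilizer G ω with hMdef
  have hMc : IsCoatom M := (MulAction.isCoatom_stabilizer_iff_preprimitive G ω).2 hprim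
  have hidx : M.index = Nat.card Ω := MulAction.index_stabilizer_of_transitive G ω
  have hTcard : Nat.card T * 2 = m.factorial := by
    haveI : Nontrivial (Fin m) := Fin.nontrivial_iff_two_le.2 (by omega)
    rw [Nat.card_congr eT.toEquiv, mul_comm, two_mul_nat_card_alternatingGroup]
    rw [Nat.card_perm, Nat.card_eq_fintype_card, Fintype.card_fin]
  have hder : ∀ g : G, (∀ h : G, h⁻¹ * g * h ∉ M) → ∀ x : Ω, g • x ≠ x := fun g hg x hx => by
    obtain ⟨h, rfl⟩ := MulAction.exists_smul_eq G ω x
    exact hg h (by rw [hMdef, MulAction.mem_stabilizer_iff, mul_smul, mul_smul, hx, inv_smul_smul])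
  have hTM : ¬ T ≤ M := by
    intro hle
    have h1 : ∀ t ∈ T, t = 1 := fun t ht => eq_of_smul_eq_smul fun x : Ω => by
      obtain ⟨h, rfl⟩ := MulAction.exists_smul_eq G ω x
      have h2 : h⁻¹ * t * h ∈ M := hle (by simpa using hT.conj_mem t ht h⁻¹)
      rw [hMdef, MulAction.mem_stabilizer_iff, mul_smul, mul_smul, inv_smul_eq_iff] at h2
      rw [h2, one_smul]
    have : Nat.card T = 1 := Nat.card_eq_one_iff_unique.2
      ⟨⟨fun a b => Subtype.ext ((h1 a a.2).trans (h1 b b.2).symm)⟩, ⟨1⟩⟩
    rw [this] at hTcard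
    have := Nat.factorial_le hm
    norm_num [Nat.factorial] at this
    omega
  -- the case of a group between the alternating and the symmetric group
  have gen : ∀ f : G →* Perm (Fin m), Function.Injective f → alternatingGroup (Fin m) ≤ f.range →
      (∀ t ∈ T, f t ∈ alternatingGroup (Fin m)) → ∃ g : G, orderOf g = r ∧ ∀ x : Ω, g • x ≠ x := by
    intro f hf hA hTA
    have hnot : ¬ alternatingGroup (Fin m) ≤ M.map f := fun hle => hTM fun t ht => by
      exact (Subgroup.mem_map_iff_mem hf).1 (hle (hTA t ht))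
    obtain ⟨g, hg, hg'⟩ := AltDerange.exists_avoiding hm f hf hA hMc hnot hr (hidx ▸ hrd) (hidx ▸ hmax)
    exact ⟨g, hg, hder g hg'⟩
  by_cases h6 : m = 6
  swap
  · let e := MulEquiv.ofBijective _ (Cfsg.Agent.S2119.result m (by omega) h6)
    let c : G →* MulAut T := MulAut.conjNormal
    have hc : Function.Injective c := (injective_iff_map_eq_one _).2 fun g hg => by
      have : g ∈ Subgroup.centralizer (T : Set G) := Subgroup.mem_centralizer_iff.2 fun t ht => by
        have := congrArg Subtype.val (DFunLike.congr_fun hg (⟨t, ht⟩ : T))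
        rw [MulAut.conjNormal_apply] at this
        exact ((mul_inv_eq_iff_eq_mul.1 this)).symm
      rwa [hTc, Subgroup.mem_bot] at this
    let f : G →* Perm (Fin m) := (e.symm.toMonoidHom.comp (MulAut.congr eT).toMonoidHom).comp c
    have hf : Function.Injective f := e.symm.injective.comp ((MulAut.congr eT).injective.comp hc)
    have hft : ∀ t : T, f t = (eT t : Perm (Fin m)) := fun t => by
      show e.symm (MulAut.congr eT (c t)) = _
      rw [MulEquiv.symm_apply_eq]
      refine MulEquiv.ext fun a => Subtype.ext ?_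
      show ((eT (c t (eT.symm a)) : alternatingGroup (Fin m)) : Perm (Fin m)) =
        (eT t : Perm (Fin m)) * (a : Perm (Fin m)) * (eT t : Perm (Fin m))⁻¹
      rw [show c t (eT.symm a) = t * eT.symm a * t⁻¹ from Subtype.ext (MulAut.conjNormal_apply _ _)]
      simp
    refine gen f hf (fun a ha => ⟨eT.symm ⟨a, ha⟩, ?_⟩) (fun t ht => ?_)
    · rw [hft, eT.apply_symm_apply]
    · rw [show f t = _ from hft ⟨t, ht⟩]; exact (eT ⟨t, ht⟩).2
  subst h6
  have hT360 : Nat.card T = 360 := by norm_num [Nat.factorial] at hTcard; omega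
  have hTn : Nat.card (MulAction.stabilizer T ω) * Nat.card Ω = 360 := by
    have h1 : M ⊔ T = ⊤ := hMc.2 _ (lt_of_le_of_ne le_sup_left fun h => hTM (h ▸ le_sup_right))
    haveI : MulAction.IsPretransitive T Ω := by
      suffices h : ∀ x : Ω, ∃ t : T, t • ω = x by
        refine ⟨fun x y => ?_⟩
        obtain ⟨u, rfl⟩ := h x
        obtain ⟨v, rfl⟩ := h y
        exact ⟨v * u⁻¹, by rw [mul_smul, inv_smul_smul]⟩
      intro x
      obtain ⟨g, rfl⟩ := MulAction.exists_smul_eq G ω x
      obtain ⟨t, ht, k, hk, rfl⟩ := Subgroup.mem_sup_of_normal_left.1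
        (show g ∈ T ⊔ M by rw [sup_comm, h1]; exact Subgroup.mem_top g)
      exact ⟨⟨t, ht⟩, by rw [mul_smul, MulAction.mem_stabilizer_iff.1 hk]; rfl⟩
    have := (MulAction.stabilizer T ω).card_mul_index
    rwa [MulAction.index_stabilizer_of_transitive T ω, hT360] at this
  by_cases hn6 : Nat.card Ω = 6
  · haveI := Fintype.ofFinite Ω
    let e : Ω ≃ Fin 6 := Fintype.equivFinOfCardEq (by rw [← Nat.card_eq_fintype_card, hn6])
    let f : G →* Perm (Fin 6) := (e.permCongrHom).toMonoidHom.comp (MulAction.toPermHom G Ω)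
    have hf : Function.Injective f := e.permCongrHom.injective.comp MulAction.toPerm_injective
    have hi : (T.map f).index = 2 := by
      have := (T.map f).card_mul_index
      rw [Subgroup.card_map_of_injective hf, hT360, Nat.card_perm, Nat.card_eq_fintype_card, Fintype.card_fin] at this
      norm_num [Nat.factorial] at this
      omega
    have hTA : T.map f = alternatingGroup (Fin 6) := eq_alternatingGroup_of_index_eq_two hi
    refine gen f hf (hTA ▸ Subgroup.map_le_range f T) fun t ht => hTA ▸ Subgroup.mem_map_of_mem f ht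
  -- elements of `T` of order `r`
  have hrT : r ∣ Nat.card T := by
    rw [hT360, ← hTn]
    exact hrd.mul_left _
  have fin : ¬ r ∣ Nat.card (MulAction.stabilizer T ω) → ∃ g : G, orderOf g = r ∧ ∀ x : Ω, g • x ≠ x := by
    intro hnd
    haveI := Fact.mk hr
    obtain ⟨t, ht⟩ := exists_prime_orderOf_dvd_card' r hrT
    refine ⟨t, by rw [Subgroup.orderOf_coe, ht], hder _ fun h hh => hnd ?_⟩
    let s : T := MulAut.conjNormal h⁻¹ t
    have hs : s ∈ MulAction.stabilizer T ω := by
      rw [MulAction.mem_stabilizer_iff]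
      show ((MulAut.conjNormal h⁻¹ t : T) : G) • ω = ω
      rw [MulAut.conjNormal_apply, inv_inv]
      exact hh
    have hso : orderOf (⟨s, hs⟩ : MulAction.stabilizer T ω) = r := by
      rw [Subgroup.orderOf_mk]
      exact (MulEquiv.orderOf_eq _ t).trans ht
    exact hso ▸ orderOf_dvd_natCard _
  apply fin
  intro hbad
  set a := Nat.card (MulAction.stabilizer T ω) with ha
  set n := Nat.card Ω with hn
  have hn360 : n ∣ 360 := ⟨a, by rw [← hTn, mul_comm]⟩
  have hr5 : r = 2 ∨ r = 3 ∨ r = 5 := by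
    have h360 : r ∈ (360 : ℕ).primeFactors := Nat.mem_primeFactors.2 ⟨hr, hrd.trans hn360, by norm_num⟩
    have : (360 : ℕ).primeFactors = {2, 3, 5} := by decide +kernel
    simpa [this] using h360
  have hn5 : 6 ≤ n := by
    by_contra hlt
    have h1 : Nat.card T ≤ Nat.card (Perm Ω) :=
      Nat.card_le_card_of_injective (fun t : T => MulAction.toPerm (t : G))
        (MulAction.toPerm_injective.comp Subtype.val_injective)
    rw [Nat.card_perm, hT360] at h1
    have h2 := Nat.factorial_le (show Nat.card Ω ≤ 5 by omega)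
    rw [show Nat.factorial 5 = 120 from rfl] at h2
    omega
  have hcase : a = 15 ∨ a = 30 ∨ a = 45 := by
    have h5 : r ≠ 5 → ¬ 5 ∣ n := fun hr5' h5 => by
      have := hmax 5 (by norm_num) h5
      omega
    have h3 : r = 2 → ¬ 3 ∣ n := fun hr2 h3 => by
      have := hmax 3 Nat.prime_three h3
      omega
    obtain ⟨k2, k3, k5⟩ := key n (Nat.mem_divisors.2 ⟨hn360, by norm_num⟩) a
      (Nat.mem_divisors.2 ⟨⟨n, hTn.symm⟩, by norm_num⟩) hTn hn6 hn5
    rcases hr5 with rfl | rfl | rfl
    · exact k2 hrd hbad (h3 rfl) (h5 (by norm_num))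
    · exact k3 hrd hbad (h5 (by norm_num))
    · exact k5 hrd hbad
  exact AltDerange.no_subgroup (((alternatingGroup (Fin 6)).subtype.comp eT.toMonoidHom).comp (MulAction.stabilizer T ω).subtype)
    ((Subtype.val_injective.comp eT.injective).comp (Subgroup.subtype_injective _)) hcase

end Cfsg.Agent.S3571
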