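import Cfsg.Statements.S3573
-- import your own Cfsg.Agent.* helpers here

set_option autoImplicit false
open Cfsg

namespace Cfsg.Agent.S3573

section

/-- every permutation of prime order `r` of an `n`-set fixes a `k`-subset iff `k % r ≤ n % r` -/
lemma fixes_iff (n k r : ℕ) (hr : r.Prime) (hrn : r ≤ n) (hkn : k ≤ n) :
    (∀ σ : Equiv.Perm (Fin n), orderOf σ = r → ∃ s : Finset (Fin n), s.card = k ∧ s.image σ = s) ↔
      k % r ≤ n % r := by
  classical
  constructor
  · intro h
    have := Fact.mk hr
    let ψ : (Fin (n / r) × ZMod r) ⊕ Fin (n % r) ≃ Fin n := Fintype.equivFinOfCardEq (by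
      simp only [Fintype.card_sum, Fintype.card_prod, Fintype.card_fin, ZMod.card]
      exact Nat.div_add_mod' n r)
    let τ0 : Equiv.Perm ((Fin (n / r) × ZMod r) ⊕ Fin (n % r)) :=
      Equiv.sumCongr (Equiv.prodCongr (Equiv.refl _) (Equiv.addRight 1)) (Equiv.refl _)
    have hτ : ∀ (j : ℕ) (i : Fin (n / r)) (z : ZMod r),
        (τ0 ^ j) (Sum.inl (i, z)) = Sum.inl (i, z + j) ∧ ∀ u, (τ0 ^ j) (Sum.inr u) = Sum.inr u := by
      intro j i z
      induction j with
      | zero => simp
      | succ j ih =>
        refine ⟨?_, fun u => ?_⟩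
        · rw [pow_succ', Equiv.Perm.mul_apply, ih.1]
          simp [τ0, add_assoc]
        · rw [pow_succ', Equiv.Perm.mul_apply, ih.2]
          simp [τ0]
    have hq : 0 < n / r := Nat.div_pos hrn hr.pos
    have h0 : τ0 ^ r = 1 := by
      ext x
      rcases x with ⟨i, z⟩ | u
      · rw [(hτ r i z).1]; simp
      · rw [(hτ r ⟨0, hq⟩ 0).2]; simp
    have h1 : τ0 ≠ 1 := by
      intro e
      have := (hτ 1 ⟨0, hq⟩ 0).1
      rw [pow_one, e] at this
      simp at this
    have hord : orderOf (ψ.permCongrHom τ0) = r := by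
      rw [MulEquiv.orderOf_eq]; exact orderOf_eq_prime h0 h1
    obtain ⟨s, hs, hinv⟩ := h _ hord
    have hmem : ∀ x, ψ x ∈ s → ψ (τ0 x) ∈ s := by
      intro x hx
      rw [← hinv]
      exact Finset.mem_image.2 ⟨ψ x, hx, by simp [Equiv.permCongrHom]⟩
    have hall : ∀ (j : ℕ) x, ψ x ∈ s → ψ ((τ0 ^ j) x) ∈ s := by
      intro j
      induction j with
      | zero => simp
      | succ j ih => intro x hx; rw [pow_succ', Equiv.Perm.mul_apply]; exact hmem _ (ih x hx)
    set T := s.map ψ.symm.toEmbedding with hT
    have hTl : T.toLeft = (Finset.univ.filter fun i : Fin (n / r) => ψ (Sum.inl (i, 0)) ∈ s) ×ˢ Finset.univ := by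
      ext ⟨i, z⟩
      simp only [hT, Finset.mem_toLeft, Finset.mem_map_equiv, Equiv.symm_symm, Finset.mem_product, Finset.mem_filter,
        Finset.mem_univ, true_and, and_true]
      constructor
      · intro hx
        have := hall (-z).val _ hx
        rwa [(hτ _ i z).1, ZMod.natCast_val, ZMod.cast_id, add_neg_cancel] at this
      · intro hx
        have := hall z.val _ hx
        rwa [(hτ _ i 0).1, ZMod.natCast_val, ZMod.cast_id, zero_add] at this
    have hcard := Finset.card_toLeft_add_card_toRight (u := T)
    rw [hTl, Finset.card_product, Finset.card_univ, ZMod.card, hT, Finset.card_map, hs] at hcard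
    have hle : T.toRight.card ≤ n % r := (Finset.card_le_univ _).trans (by simp)
    rw [← hT] at hcard
    rw [← hcard, Nat.mul_add_mod_self_right]
    exact (Nat.mod_le _ _).trans hle
  · intro hc σ hσ
    obtain ⟨m, hm⟩ := Equiv.Perm.cycleType_prime_order (σ := σ) (by rw [hσ]; exact hr)
    rw [hσ] at hm
    have hcnum : σ.cycleFactorsFinset.card = m + 1 := by
      have := congrArg Multiset.card hm
      rwa [Equiv.Perm.cycleType_def, Multiset.card_map, Multiset.card_replicate] at this
    have hsupp : σ.support.card = (m + 1) * r := by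
      rw [← Equiv.Perm.sum_cycleType, hm, Multiset.sum_replicate, smul_eq_mul]
    have hsn : (m + 1) * r ≤ n := by
      rw [← hsupp]; exact (Finset.card_le_univ _).trans (by simp)
    set j := min (k / r) (m + 1) with hj
    have hjr : j * r ≤ k := (Nat.mul_le_mul_right r (min_le_left _ _)).trans (Nat.div_mul_le_self k r)
    have hfix : k - j * r ≤ n - (m + 1) * r := by
      rcases le_or_gt (k / r) (m + 1) with h | h
      · rw [hj, min_eq_left h]
        have e1 : k - k / r * r = k % r := by
          have := Nat.div_add_mod' k r; omega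
        rw [e1]
        rcases Nat.lt_or_ge (m + 1) (n / r) with h' | h'
        · have h2 := Nat.mod_lt k hr.pos
          have h3 : (m + 2) * r ≤ n / r * r := Nat.mul_le_mul_right r h'
          have h4 := Nat.div_mul_le_self n r
          have h5 : (m + 2) * r = (m + 1) * r + r := by ring
          omega
        · have h3 : m + 1 = n / r := le_antisymm ((Nat.le_div_iff_mul_le hr.pos).2 hsn) h'
          have := Nat.div_add_mod' n r
          rw [h3]; omega
      · rw [hj, min_eq_right h.le]; omega
    obtain ⟨J, hJ, hJc⟩ := Finset.exists_subset_card_eq (show j ≤ σ.cycleFactorsFinset.card by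
      rw [hcnum]; exact min_le_right _ _)
    obtain ⟨T, hT, hTc⟩ := Finset.exists_subset_card_eq (show k - j * r ≤ σ.supportᶜ.card by
      rw [Finset.card_compl, hsupp, Fintype.card_fin]; exact hfix)
    set U := J.biUnion Equiv.Perm.support
    have hUs : U ⊆ σ.support := Finset.biUnion_subset.2 fun c hc =>
      Equiv.Perm.mem_cycleFactorsFinset_support_le (hJ hc)
    have hUc : U.card = j * r := by
      rw [Finset.card_biUnion, ← hJc, Finset.sum_const_nat]
      · intro c hc
        have hmem : c.support.card ∈ σ.cycleType := by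
          rw [Equiv.Perm.cycleType_def]
          exact Multiset.mem_map.2 ⟨c, hJ hc, rfl⟩
        rw [hm] at hmem
        exact Multiset.eq_of_mem_replicate hmem
      · intro a ha b hb hab
        exact ((Equiv.Perm.cycleFactorsFinset_pairwise_disjoint σ) (hJ ha) (hJ hb) hab).disjoint_support
    have hdis : Disjoint U T := Finset.disjoint_of_subset_left hUs
      (Finset.disjoint_of_subset_right hT disjoint_compl_right)
    refine ⟨U ∪ T, by rw [Finset.card_union_of_disjoint hdis, hUc, hTc]; omega, ?_⟩
    refine Finset.eq_of_subset_of_card_le (fun x hx => ?_) (by rw [Finset.card_image_of_injective _ σ.injective])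
    obtain ⟨y, hy, rfl⟩ := Finset.mem_image.1 hx
    rcases Finset.mem_union.1 hy with h | h
    · obtain ⟨c, hc, hyc⟩ := Finset.mem_biUnion.1 h
      refine Finset.mem_union_left _ (Finset.mem_biUnion.2 ⟨c, hc, ?_⟩)
      rw [← ((Equiv.Perm.mem_cycleFactorsFinset_iff.1 (hJ hc)).2 y hyc), Equiv.Perm.apply_mem_support]
      exact hyc
    · rw [Equiv.Perm.notMem_support.1 (Finset.mem_compl.1 (hT h))]
      exact Finset.mem_union_right _ h

end

/-- Let 1 ≤ k with 2k < n and consider the symmetric group of degree n acting on the k-subsets of an n-set. Let r be a prime dividing the number C(n,k) of k-subsets. If r is odd, then every permutation of order r fixes some k-subset if and only if r ≤ k and the remainder of k modulo r is at most the remainder of n modulo r. If r = 2, then every involution fixes some k-subset if and only if k is even or n is odd. -/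
theorem result (n k : ℕ) (hk : 1 ≤ k) (hkn : 2 * k < n) (r : ℕ) (hr : r.Prime) (hrd : r ∣ Nat.choose n k) :
    (r ≠ 2 → ((∀ σ : Equiv.Perm (Fin n), orderOf σ = r → ∃ s : Finset (Fin n), s.card = k ∧ s.image σ = s) ↔
      (r ≤ k ∧ k % r ≤ n % r))) ∧
    (r = 2 → ((∀ σ : Equiv.Perm (Fin n), orderOf σ = 2 → ∃ s : Finset (Fin n), s.card = k ∧ s.image σ = s) ↔
      (Even k ∨ Odd n))) := by
  have hrn : r ≤ n := by
    by_contra hlt
    have h1 : n.choose k ∣ n.factorial :=
      ⟨k.factorial * (n - k).factorial, by rw [← mul_assoc, Nat.choose_mul_factorial_mul_factorial (by omega)]⟩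
    exact hlt ((hr.dvd_factorial).1 (hrd.trans h1))
  have hiff := fixes_iff n k r hr hrn (by omega)
  refine ⟨fun _ => hiff.trans ⟨fun h => ⟨?_, h⟩, fun h => h.2⟩, ?_⟩
  · by_contra hlt
    have := Fact.mk hr
    have hl := Choose.choose_modEq_choose_mod_mul_choose_div_nat (p := r) (n := n) (k := k)
    rw [Nat.div_eq_of_lt (not_le.1 hlt), Nat.choose_zero_right, mul_one] at hl
    have h0 : r ∣ (n % r).choose (k % r) :=
      (Nat.modEq_zero_iff_dvd).1 (hl.symm.trans ((Nat.modEq_zero_iff_dvd).2 hrd))
    have h1 : (n % r).choose (k % r) ∣ (n % r).factorial :=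
      ⟨(k % r).factorial * (n % r - k % r).factorial, by rw [← mul_assoc, Nat.choose_mul_factorial_mul_factorial h]⟩
    have := (hr.dvd_factorial).1 (h0.trans h1)
    have := Nat.mod_lt n hr.pos
    omega
  · rintro rfl
    refine hiff.trans ?_
    rw [Nat.even_iff, Nat.odd_iff]
    omega

end Cfsg.Agent.S3573
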