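import Mathlib
import Cfsg.Statements.S3575
import Mathlib.GroupTheory.Perm.Cycle.Type
import Mathlib.Combinatorics.Enumerative.Bell

set_option autoImplicit false

open scoped commutatorElement Pointwise

namespace Cfsg.Agent.S3575

open Equiv

/-- `k` cycles of length `r` can be arranged to preserve a partition into `b` parts of size `a`. -/
def Rep (a b r k : ℕ) : Prop :=
  ∃ s J : ℕ, s * r ≤ b ∧ J ≤ (b - s * r) * (a / r) ∧ k = s * a + J

theorem dvd_support {α : Type*} [Fintype α] [DecidableEq α] {r : ℕ} [Fact r.Prime] (g : Perm α)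
    (hg : g ^ r = 1) : g.support.card = Multiset.card g.cycleType * r := by
  rw [← Perm.sum_cycleType]
  conv_lhs => rw [Perm.cycleType_of_pow_prime_eq_one hg]
  rw [Multiset.sum_replicate, smul_eq_mul]

theorem cycleType_eq {α β : Type*} [Fintype α] [DecidableEq α] [Fintype β] [DecidableEq β] {r : ℕ}
    [Fact r.Prime] {g : Perm α} {h : Perm β} (hg : g ^ r = 1) (hh : h ^ r = 1)
    (hc : g.support.card = h.support.card) : g.cycleType = h.cycleType := by
  have hr : r ≠ 0 := (Fact.out : r.Prime).ne_zero
  rw [dvd_support g hg, dvd_support h hh] at hc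
  rw [Perm.cycleType_of_pow_prime_eq_one hg, Perm.cycleType_of_pow_prime_eq_one hh,
    Nat.eq_of_mul_eq_mul_right (Nat.pos_of_ne_zero hr) hc]

theorem necessary (a b r : ℕ) [Fact r.Prime] (ha : 0 < a) (σ : Perm (Fin (a * b))) (hσ : σ ^ r = 1)
    (f : Fin (a * b) → Fin b) (hf : ∀ j : Fin b, Nat.card {x // f x = j} = a)
    (π : Perm (Fin b)) (hπ : ∀ x, f (σ x) = π (f x)) :
    ∃ k, σ.support.card = k * r ∧ Rep a b r k := by
  classical
  have hr : r.Prime := Fact.out
  have hsurj : Function.Surjective f := fun j => by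
    have : Nonempty {x // f x = j} :=
      (Finite.card_pos_iff.mp (by rw [hf j]; exact ha))
    obtain ⟨⟨x, hx⟩⟩ := this
    exact ⟨x, hx⟩
  have hpow : ∀ n : ℕ, ∀ x, f ((σ ^ n) x) = (π ^ n) (f x) := by
    intro n
    induction n with
    | zero => simp
    | succ n ih => intro x; rw [pow_succ', pow_succ', Perm.mul_apply, Perm.mul_apply, hπ, ih]
  have hπr : π ^ r = 1 := Perm.ext fun j => by
    obtain ⟨x, rfl⟩ := hsurj j
    rw [← hpow, hσ, Perm.one_apply, Perm.one_apply]
  have hS := dvd_support π hπr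
  set s := Multiset.card π.cycleType with hs
  have hsb : s * r ≤ b := by
    rw [← hS]; exact (Finset.card_le_univ _).trans (Fintype.card_fin b).le
  have hfc : ∀ j : Fin b, (Finset.univ.filter fun x => f x = j).card = a := fun j => by
    rw [← Fintype.card_subtype, ← Nat.card_eq_fintype_card, hf j]
  let c : Fin b → ℕ := fun j => (σ.support.filter fun x => f x = j).card
  have hsum : σ.support.card = ∑ j, c j :=
    Finset.card_eq_sum_card_fiberwise fun x _ => Finset.mem_univ (f x)
  have hmoved : ∀ j ∈ π.support, c j = a := by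
    intro j hj
    rw [← hfc j]
    refine congrArg Finset.card (Finset.ext fun x => ?_)
    simp only [Finset.mem_filter, Perm.mem_support, Finset.mem_univ, true_and]
    exact ⟨fun h => h.2, fun h => ⟨fun e => Perm.mem_support.mp hj (by rw [← h, ← hπ, e]), h⟩⟩
  have hfix : ∀ j : Fin b, j ∉ π.support → ∃ d, c j = d * r ∧ d ≤ a / r := by
    intro j hj
    have hj' : π j = j := Perm.notMem_support.mp hj
    have hinv : ∀ x, f (σ x) = j ↔ f x = j := fun x => by
      rw [hπ]
      exact ⟨fun h => π.injective (h.trans hj'.symm), fun h => by rw [h, hj']⟩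
    set g := σ.subtypePerm (p := fun x => f x = j) hinv with hgdef
    have hgr : g ^ r = 1 := by
      rw [hgdef, Perm.subtypePerm_pow]
      ext x
      simp [hσ]
    refine ⟨Multiset.card g.cycleType, ?_, ?_⟩
    · rw [← dvd_support g hgr, ← Finset.card_map (Function.Embedding.subtype _)]
      refine congrArg Finset.card (Finset.ext fun x => ?_)
      simp [hgdef, Subtype.ext_iff, and_comm]
    · rw [Nat.le_div_iff_mul_le hr.pos, ← dvd_support g hgr]
      refine (Finset.card_le_univ _).trans ?_
      rw [← Nat.card_eq_fintype_card, hf j]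
  choose! d hd using hfix
  refine ⟨s * a + ∑ j ∈ π.supportᶜ, d j, ?_, s, ∑ j ∈ π.supportᶜ, d j, hsb, ?_, rfl⟩
  · rw [hsum, ← Finset.sum_add_sum_compl π.support, Finset.sum_congr rfl hmoved, Finset.sum_const,
      smul_eq_mul, hS, Finset.sum_congr rfl fun j hj => (hd j (Finset.mem_compl.mp hj)).1,
      ← Finset.sum_mul]
    ring
  · refine (Finset.sum_le_card_nsmul _ _ _ fun j hj => (hd j (Finset.mem_compl.mp hj)).2).trans ?_
    rw [smul_eq_mul, Finset.card_compl, Fintype.card_fin, hS]

theorem sum_min (m J : ℕ) : ∀ N : ℕ, ∑ j ∈ Finset.range N, min m (J - j * m) = min J (N * m)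
  | 0 => by simp
  | N + 1 => by
    rw [Finset.sum_range_succ, sum_min m J N, Nat.succ_mul]
    omega

theorem sufficient (a b r k : ℕ) [Fact r.Prime] (σ : Perm (Fin (a * b))) (hσ : σ ^ r = 1)
    (hk : σ.support.card = k * r) (hrep : Rep a b r k) :
    ∃ f : Fin (a * b) → Fin b, (∀ j, Nat.card {x // f x = j} = a) ∧
      ∃ π : Perm (Fin b), ∀ x, f (σ x) = π (f x) := by
  classical
  have hr : r.Prime := Fact.out
  obtain ⟨s, J, hs, hJ, rfl⟩ := hrep
  set N := b - s * r with hN
  set m := a / r with hm
  let c : Fin N → ℕ := fun j => min m (J - j * m)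
  have hcsum : ∑ j, c j = J := by
    rw [Fin.sum_univ_eq_sum_range fun j => min m (J - j * m), sum_min, min_eq_left hJ]
  have hγ : ∀ j : Fin N, ∃ γ : Perm (Fin a), γ ^ r = 1 ∧ γ.support.card = c j * r := by
    intro j
    obtain ⟨γ, hγ⟩ := (Perm.exists_with_cycleType_iff (Fin a)
      (m := Multiset.replicate (c j) r)).mpr
      ⟨by rw [Multiset.sum_replicate, smul_eq_mul, Fintype.card_fin,
            ← Nat.le_div_iff_mul_le hr.pos]; exact min_le_left _ _,
        fun x hx => (Multiset.eq_of_mem_replicate hx).symm ▸ hr.two_le⟩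
    refine ⟨γ, Perm.pow_prime_eq_one_iff.mpr fun x hx => ?_, ?_⟩
    · rw [hγ] at hx; exact Multiset.eq_of_mem_replicate hx
    · rw [← Perm.sum_cycleType, hγ, Multiset.sum_replicate, smul_eq_mul]
  choose γ hγ using hγ
  let e : (Fin s × Fin r) ⊕ Fin N ≃ Fin b := Fintype.equivFinOfCardEq (by
    rw [Fintype.card_sum, Fintype.card_prod, Fintype.card_fin, Fintype.card_fin, Fintype.card_fin]
    omega)
  let E : ((Fin s × Fin r) ⊕ Fin N) × Fin a ≃ Fin (a * b) := Fintype.equivFinOfCardEq (by
    rw [Fintype.card_prod, Fintype.card_congr e, Fintype.card_fin, Fintype.card_fin, mul_comm])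
  let π₀ : Perm ((Fin s × Fin r) ⊕ Fin N) :=
    Equiv.sumCongr ((Equiv.refl _).prodCongr (finRotate r)) (Equiv.refl _)
  let τ : Perm (((Fin s × Fin r) ⊕ Fin N) × Fin a) :=
    (Equiv.sumProdDistrib _ _ _).trans ((Equiv.sumCongr
      (((Equiv.refl (Fin s)).prodCongr (finRotate r)).prodCongr (Equiv.refl (Fin a)))
      (Equiv.prodCongrRight γ)).trans (Equiv.sumProdDistrib _ _ _).symm)
  have hτl : ∀ i z y, τ (Sum.inl (i, z), y) = (Sum.inl (i, finRotate r z), y) :=
    fun i z y => rfl
  have hτr : ∀ j y, τ (Sum.inr j, y) = (Sum.inr j, γ j y) := fun j y => rfl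
  obtain ⟨r', rfl⟩ : ∃ r', r = r' + 2 := ⟨r - 2, by have := hr.two_le; omega⟩
  have hrot : finRotate (r' + 2) ^ (r' + 2) = 1 := by
    have := orderOf_dvd_iff_pow_eq_one.mp (dvd_refl (orderOf (finRotate (r' + 2))))
    rwa [← Perm.lcm_cycleType, cycleType_finRotate, Multiset.lcm_singleton,
      normalize_eq] at this
  have hτpow : τ ^ (r' + 2) = 1 := by
    have hl : ∀ n : ℕ, ∀ i z y,
        (τ ^ n) (Sum.inl (i, z), y) = (Sum.inl (i, (finRotate _ ^ n) z), y) := by
      intro n
      induction n with
      | zero => simp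
      | succ n ih => intro i z y; rw [pow_succ', Perm.mul_apply, ih, hτl, pow_succ', Perm.mul_apply]
    have hr' : ∀ n : ℕ, ∀ j y, (τ ^ n) (Sum.inr j, y) = (Sum.inr j, (γ j ^ n) y) := by
      intro n
      induction n with
      | zero => simp
      | succ n ih => intro j y; rw [pow_succ', Perm.mul_apply, ih, hτr, pow_succ', Perm.mul_apply]
    ext1 ⟨x, y⟩
    rcases x with ⟨i, z⟩ | j
    · rw [hl, hrot]; rfl
    · rw [hr', (hγ j).1]; rfl
  have hne : ∀ z : Fin (r' + 2), finRotate (r' + 2) z ≠ z := fun z => by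
    rw [← Perm.mem_support, support_finRotate]; exact Finset.mem_univ z
  have hτc : τ.support.card = (s * a + J) * (r' + 2) := by
    have h0 : τ.support.card = ∑ p : ((Fin s × Fin (r' + 2)) ⊕ Fin N) × Fin a,
        if τ p ≠ p then 1 else 0 := by
      rw [← Finset.card_filter]; rfl
    rw [h0, Fintype.sum_prod_type, Fintype.sum_sum_type]
    have h1 : ∀ iz : Fin s × Fin (r' + 2),
        (∑ y, if τ (Sum.inl iz, y) ≠ (Sum.inl iz, y) then 1 else 0 : ℕ) = a := by
      rintro ⟨i, z⟩
      simp [hτl, hne z]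
    have h2 : ∀ j : Fin N,
        (∑ y, if τ (Sum.inr j, y) ≠ (Sum.inr j, y) then 1 else 0 : ℕ) = c j * (r' + 2) := by
      intro j
      rw [← (hγ j).2, ← Finset.card_filter]
      refine congrArg Finset.card (Finset.ext fun y => ?_)
      simp [hτr]
    rw [Finset.sum_congr rfl fun iz _ => h1 iz, Finset.sum_congr rfl fun j _ => h2 j,
      ← Finset.sum_mul, hcsum, Finset.sum_const, Finset.card_univ, Fintype.card_prod,
      Fintype.card_fin, Fintype.card_fin, smul_eq_mul]
    ring
  let τ' : Perm (Fin (a * b)) := E.permCongr τ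
  have hct : σ.cycleType = τ'.cycleType := by
    refine cycleType_eq hσ ?_ ?_
    · rw [show τ' = E.permCongrHom τ from rfl, ← map_pow, hτpow, map_one]
    · rw [hk, ← hτc, ← Finset.card_map E.toEmbedding]
      refine congrArg Finset.card (Finset.ext fun x => ?_)
      simp [τ', ← Equiv.eq_symm_apply]
  obtain ⟨g, hg⟩ := isConj_iff.mp (Perm.isConj_iff_cycleType_eq.mpr hct)
  -- `g σ g⁻¹ = τ'`
  let F : Fin (a * b) → Fin b := fun x => e (E.symm (g x)).1
  refine ⟨F, fun j => ?_, e.permCongr π₀, fun x => ?_⟩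
  · let ε : {x // F x = j} ≃ Fin a :=
      { toFun := fun x => (E.symm (g x.1)).2
        invFun := fun y => ⟨g⁻¹ (E (e.symm j, y)), by simp [F]⟩
        left_inv := fun x => Subtype.ext (by
          have h : (E.symm (g x.1)).1 = e.symm j := by rw [Equiv.eq_symm_apply]; exact x.2
          show g⁻¹ (E (e.symm j, (E.symm (g x.1)).2)) = x.1
          rw [← h]; simp)
        right_inv := fun y => by simp }
    rw [Nat.card_congr ε, Nat.card_fin]
  · have h1 : E.symm (g (σ x)) = τ (E.symm (g x)) := by
      have := congrArg (fun p : Perm _ => E.symm (p (g x))) hg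
      simpa [τ'] using this
    show e (E.symm (g (σ x))).1 = e (π₀ (e.symm (e (E.symm (g x)).1)))
    rw [h1, Equiv.symm_apply_apply]
    rcases E.symm (g x) with ⟨⟨i, z⟩ | j, y⟩
    · rw [hτl]; rfl
    · rw [hτr]; rfl

theorem exists_support (n k r : ℕ) [Fact r.Prime] (h1 : 1 ≤ k) (h : k * r ≤ n) :
    ∃ σ : Perm (Fin n), orderOf σ = r ∧ σ.support.card = k * r := by
  have hr : r.Prime := Fact.out
  obtain ⟨σ, hσ⟩ := (Perm.exists_with_cycleType_iff (Fin n)
    (m := Multiset.replicate k r)).mpr
    ⟨by rwa [Multiset.sum_replicate, smul_eq_mul, Fintype.card_fin],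
      fun x hx => (Multiset.eq_of_mem_replicate hx).symm ▸ hr.two_le⟩
  have hs : σ.support.card = k * r := by
    rw [← Perm.sum_cycleType, hσ, Multiset.sum_replicate, smul_eq_mul]
  refine ⟨σ, orderOf_eq_prime (Perm.pow_prime_eq_one_iff.mpr fun x hx => ?_) ?_, hs⟩
  · rw [hσ] at hx; exact Multiset.eq_of_mem_replicate hx
  · rintro rfl
    rw [Perm.support_one, Finset.card_empty] at hs
    exact absurd hs.symm (Nat.mul_ne_zero (by omega) hr.ne_zero)

theorem arith (a b r : ℕ) (ha : 2 ≤ a) (hb : 2 ≤ b) (hr : 0 < r) (hrab : r ≤ a * b) :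
    (∀ k, 1 ≤ k → k * r ≤ a * b → Rep a b r k) ↔
      (r ≤ a ∧ (a % r = 0 ∨ (b % r = 0 ∧ a % r = 1) ∨
        (a % r ≠ 0 ∧ b % r ≠ 0 ∧ (b % r) * (a % r) < r ∧
          (b < r ∨ (b % r + r) * (a % r) ≤ (b % r) * a + r)))) := by
  have hA := Nat.div_add_mod a r
  have hB := Nat.div_add_mod b r
  have hu : a % r < r := Nat.mod_lt _ hr
  have hw : b % r < r := Nat.mod_lt _ hr
  have hbv : b < r ↔ b / r = 0 := (Nat.div_eq_zero_iff_lt hr).symm
  unfold Rep
  generalize hm : a / r = m at *
  generalize a % r = u at *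
  generalize hv : b / r = v at *
  generalize b % r = w at *
  subst hA hB
  have htop : ∀ s, s ≤ v → (r * v + w - s * r) * m + (v - s) * u + s * (r * m + u) =
      v * (r * m + u) + w * m := by
    intro s hs
    obtain ⟨t, rfl⟩ := Nat.exists_eq_add_of_le hs
    rw [Nat.add_sub_cancel_left, show r * (s + t) + w - s * r = r * t + w by
      rw [show r * (s + t) = s * r + r * t by ring]; omega]
    ring
  have hsv : ∀ s, s * r ≤ r * v + w → s ≤ v := by
    intro s hs
    by_contra h
    nlinarith
  constructor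
  · intro H
    have hm1 : 1 ≤ m := by
      obtain ⟨s, J, -, hJ, he⟩ := H 1 le_rfl (by simpa using hrab)
      rcases Nat.eq_zero_or_pos m with h | h
      · subst h
        rw [Nat.mul_zero] at hJ
        rcases s with _ | s
        · omega
        · rw [Nat.succ_mul] at he; omega
      · exact h
    refine ⟨by nlinarith, ?_⟩
    -- the top of every segment is at most `v * a + w * m`
    have hle : ∀ k, 1 ≤ k → k * r ≤ (r * m + u) * (r * v + w) → k ≤ v * (r * m + u) + w * m := by
      intro k h1 h2
      obtain ⟨s, J, hs, hJ, rfl⟩ := H k h1 h2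
      have := htop s (hsv s hs)
      omega
    -- and the segment below the last one reaches it
    have hgap : 1 ≤ v → u ≤ w * m + 1 := by
      intro hv1
      by_contra hu1
      have hva : r * m + u ≤ v * (r * m + u) := Nat.le_mul_of_pos_left _ hv1
      have h2 : (v * (r * m + u) - 1) * r ≤ (r * m + u) * (r * v + w) := by
        refine (Nat.mul_le_mul_right r (Nat.sub_le _ 1)).trans ?_
        nlinarith
      obtain ⟨s, J, hs, hJ, he⟩ := H (v * (r * m + u) - 1) (by omega) h2
      have := htop s (hsv s hs)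
      rcases (hsv s hs).eq_or_lt with rfl | hlt
      · omega
      · have : u ≤ (v - s) * u := Nat.le_mul_of_pos_left _ (by omega)
        omega
    by_cases hu0 : u = 0
    · exact Or.inl hu0
    refine Or.inr ?_
    by_cases hw0 : w = 0
    · subst hw0
      refine Or.inl ⟨rfl, ?_⟩
      have : 1 ≤ v := by
        by_contra h
        obtain rfl : v = 0 := by omega
        simp at hb
      have := hgap this
      omega
    refine Or.inr ⟨hu0, hw0, ?_, ?_⟩
    · by_contra h
      have h' := hle (v * (r * m + u) + w * m + 1) (by omega) (by nlinarith)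
      omega
    · rcases Nat.eq_zero_or_pos v with h | h
      · exact Or.inl (hbv.mpr h)
      · refine Or.inr ?_
        have := hgap h
        nlinarith
  · rintro ⟨hra, hcond⟩ k hk1 hk
    have hm1 : 1 ≤ m := by
      rcases Nat.eq_zero_or_pos m with h | h
      · subst h; simp at hra; omega
      · exact h
    have hgap : v = 0 ∨ u ≤ w * m + 1 := by
      rcases hcond with h | ⟨-, h⟩ | ⟨-, -, -, h | h⟩
      · exact Or.inr (h ▸ Nat.zero_le _)
      · exact Or.inr (by omega)
      · exact Or.inl (hbv.mp h)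
      · refine Or.inr ?_
        by_contra hu1
        nlinarith
    have hwu : w * u < r := by
      rcases hcond with h | ⟨h, -⟩ | ⟨-, -, h, -⟩
      · rw [h, Nat.mul_zero]; exact hr
      · rw [h, Nat.zero_mul]; exact hr
      · exact h
    have hkv : k ≤ v * (r * m + u) + w * m := by
      by_contra h
      nlinarith [Nat.mul_le_mul_right r (not_le.mp h : v * (r * m + u) + w * m + 1 ≤ k)]
    by_cases hs : v ≤ k / (r * m + u)
    · have := htop v le_rfl
      rw [Nat.sub_self, Nat.zero_mul] at this
      have hle : v * (r * m + u) ≤ k :=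
        (Nat.mul_le_mul_right _ hs).trans (Nat.div_mul_le_self k _)
      refine ⟨v, k - v * (r * m + u), by nlinarith, by omega, by omega⟩
    · set s := k / (r * m + u) with hsdef
      have hle : s * (r * m + u) ≤ k := Nat.div_mul_le_self k _
      have hlt : k < s * (r * m + u) + (r * m + u) := by
        rw [← Nat.succ_mul, hsdef]
        exact Nat.lt_mul_of_div_lt (Nat.lt_succ_self _) (by omega)
      refine ⟨s, k - s * (r * m + u), by nlinarith, ?_, by omega⟩
      have h2 : (r * v + w - s * r) * m ≥ r * m + w * m := by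
        rw [← Nat.add_mul]
        refine Nat.mul_le_mul_right m (Nat.le_sub_of_add_le ?_)
        nlinarith
      rcases hgap with h | h
      · exact absurd (h.le.trans (Nat.zero_le _)) hs
      · omega

/-- Let a, b ≥ 2 and consider the symmetric group of degree a·b acting on the partitions of an (a·b)-set into b parts of size a (encoded as maps onto a b-element set all of whose fibres have a elements; a permutation fixes such a partition when it permutes the fibres). Let r be a prime dividing the number (ab)!/((a!)^b·b!) of such partitions, and let ℓ and k be the remainders of a and b modulo r. Then every permutation of order r fixes some such partition if and only if r ≤ a and one of the following holds: ℓ = 0; or k = 0 and ℓ = 1; or ℓ and k are non-zero, k·ℓ < r, and either b < r or (k + r)·ℓ ≤ k·a + r. -/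
theorem result (a b : ℕ) (ha : 2 ≤ a) (hb : 2 ≤ b) (r : ℕ) (hr : r.Prime)
    (hrd : r ∣ (a * b).factorial / (a.factorial ^ b * b.factorial)) :
    (∀ σ : Equiv.Perm (Fin (a * b)), orderOf σ = r →
        ∃ f : Fin (a * b) → Fin b, (∀ j : Fin b, Nat.card {x : Fin (a * b) // f x = j} = a) ∧
          ∃ π : Equiv.Perm (Fin b), ∀ x : Fin (a * b), f (σ x) = π (f x)) ↔
      (r ≤ a ∧ (a % r = 0 ∨ (b % r = 0 ∧ a % r = 1) ∨
        (a % r ≠ 0 ∧ b % r ≠ 0 ∧ (b % r) * (a % r) < r ∧ (b < r ∨ (b % r + r) * (a % r) ≤ (b % r) * a + r)))) := by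
  classical
  have : Fact r.Prime := ⟨hr⟩
  have hr' : r ≤ a * b := by
    have h := Nat.uniformBell_mul_eq b (n := a) (by omega)
    rw [mul_assoc, mul_comm b a] at h
    have hpos : 0 < a.factorial ^ b * b.factorial :=
      Nat.mul_pos (pow_pos a.factorial_pos b) b.factorial_pos
    rw [← h, Nat.mul_div_cancel _ hpos] at hrd
    exact (hr.dvd_factorial).mp (h ▸ hrd.trans (Dvd.intro _ rfl))
  rw [← arith a b r ha hb hr.pos hr']
  constructor
  · intro H k h1 hk
    obtain ⟨σ, ho, hs⟩ := exists_support (a * b) k r h1 hk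
    obtain ⟨f, hf, π, hπ⟩ := H σ ho
    obtain ⟨k', hk', hrep⟩ := necessary a b r (by omega) σ (ho ▸ pow_orderOf_eq_one σ) f hf π hπ
    rwa [Nat.eq_of_mul_eq_mul_right hr.pos (hs.symm.trans hk')]
  · intro H σ ho
    have hσ : σ ^ r = 1 := ho ▸ pow_orderOf_eq_one σ
    have hs := dvd_support σ hσ
    refine sufficient a b r _ σ hσ hs (H _ ?_ ?_)
    · rw [Nat.one_le_iff_ne_zero, Ne, Multiset.card_eq_zero, Perm.cycleType_eq_zero]
      rintro rfl
      rw [orderOf_one] at ho
      exact hr.ne_one ho.symm
    · rw [← hs]; exact (Finset.card_le_univ _).trans (Fintype.card_fin _).le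

end Cfsg.Agent.S3575
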