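import Cfsg.Statements.S3580
import Cfsg.Agent.Lib.SylowFix.Main
-- import your own Cfsg.Agent.* helpers here

set_option autoImplicit false
open Cfsg

namespace Cfsg.Agent.S3580

/-- Let G act faithfully and transitively on a finite set Ω, let p be an odd prime dividing the order of G and P a Sylow p-subgroup of G. Then the number of orbits of P on Ω is at most (p/(2p − 1))·(number of points). -/
theorem result {G Ω : Type*} [Group G] [Finite G] [MulAction G Ω] [FaithfulSMul G Ω] [Finite Ω]
    (htrans : MulAction.IsPretransitive G Ω) (p : ℕ) [Fact p.Prime] (hp2 : p ≠ 2) (hpG : p ∣ Nat.card G)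
    (P : Sylow p G) :
    (2 * p - 1) * Nat.card (MulAction.orbitRel.Quotient ↥(P : Subgroup G) Ω) ≤ p * Nat.card Ω := by
  classical
  set K := Lib.SylowFix.pcl p (⊤ : Subgroup G) with hK
  have hPK : (P : Subgroup G) ≤ K := Lib.SylowFix.sylow_le_pcl le_top
  have hnf : ∀ y : Ω, ∃ k ∈ K, k • y ≠ y := by
    intro y
    by_contra hc
    push Not at hc
    refine P.ne_bot_of_dvd_card hpG (eq_bot_iff.2 fun x hx => Subgroup.mem_bot.2
      (FaithfulSMul.eq_of_smul_eq_smul (α := Ω) fun z => ?_))
    obtain ⟨g, rfl⟩ := htrans.exists_smul_eq y z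
    have hx' : g⁻¹ * x * g ∈ K := Lib.SylowFix.mem_pcl (Subgroup.mem_top _)
      (by simpa using (Lib.SylowFix.IsPEl.of_mem_sylow P hx).conj g⁻¹)
    have := hc _ hx'
    rw [mul_smul, mul_smul, inv_smul_eq_iff] at this
    rw [this, one_smul]
  have hmain := Lib.SylowFix.fixed_le (X := Ω) K (Lib.SylowFix.pcl_pcl _) P hPK hnf
  -- orbits: the fixed points, and orbits of size at least `p`
  haveI := Fintype.ofFinite Ω
  haveI := Fintype.ofFinite (MulAction.orbitRel.Quotient ↥(P : Subgroup G) Ω)
  let q : Ω → MulAction.orbitRel.Quotient ↥(P : Subgroup G) Ω := Quotient.mk''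
  set fx : Ω → Prop := fun y => ∀ g ∈ (P : Subgroup G), g • y = y with hfx
  have hsum : p * Nat.card (MulAction.orbitRel.Quotient ↥(P : Subgroup G) Ω) ≤
      Nat.card Ω + (p - 1) * Nat.card {y : Ω // fx y} := by
    rw [Nat.card_eq_fintype_card, Nat.card_eq_fintype_card, Nat.card_eq_fintype_card,
      Fintype.card_subtype, ← Finset.card_univ, ← Finset.card_univ,
      Finset.card_eq_sum_card_fiberwise (f := q) (t := Finset.univ) (fun _ _ => Finset.mem_univ _),
      Finset.card_eq_sum_card_fiberwise (s := Finset.univ.filter fx) (f := q) (t := Finset.univ)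
        (fun _ _ => Finset.mem_univ _), Finset.mul_sum, ← Finset.sum_add_distrib,
      mul_comm, ← smul_eq_mul, ← Finset.sum_const]
    refine Finset.sum_le_sum fun c _ => ?_
    obtain ⟨y, rfl⟩ := Quotient.mk''_surjective c
    by_cases hy : fx y
    · have h1 : 1 ≤ (Finset.univ.filter fun z => q z = q y).card :=
        Finset.card_pos.2 ⟨y, by simp⟩
      have h2 : 1 ≤ ((Finset.univ.filter fx).filter fun z => q z = q y).card :=
        Finset.card_pos.2 ⟨y, by simp [hy]⟩
      have := Nat.mul_le_mul_left (p - 1) h2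
      have hp1 := (Fact.out : p.Prime).one_lt
      change p ≤ (Finset.univ.filter fun z => q z = q y).card +
        (p - 1) * ((Finset.univ.filter fx).filter fun z => q z = q y).card
      omega
    · obtain ⟨g, hg, hgy⟩ : ∃ g ∈ (P : Subgroup G), g • y ≠ y := by
        simpa [hfx] using hy
      refine le_trans ?_ (Nat.le_add_right _ _)
      refine Lib.SylowFix.prime_le_card_of_moved (φ := MulAction.toPermHom G Ω)
        (Lib.SylowFix.IsPEl.of_mem_sylow P hg) (fun z hz => ?_) (y := y) (by simp [q]) hgy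
      simp only [Finset.mem_filter, Finset.mem_univ, true_and] at hz ⊢
      rw [← hz]
      exact Quotient.sound' ⟨⟨g, hg⟩, rfl⟩
  set O := Nat.card (MulAction.orbitRel.Quotient ↥(P : Subgroup G) Ω) with hO
  set F := Nat.card {y : Ω // fx y} with hF
  set n := Nat.card Ω with hn
  have hp1 := (Fact.out : p.Prime).one_lt
  zify [show 1 ≤ 2 * p by omega, hp1.le] at hmain hsum ⊢
  have hp0 : (0 : ℤ) < p := by exact_mod_cast (Fact.out : p.Prime).pos
  refine le_of_mul_le_mul_left ?_ hp0
  nlinarith [mul_le_mul_of_nonneg_left hsum (by linarith : (0 : ℤ) ≤ 2 * p - 1),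
    mul_le_mul_of_nonneg_left hmain (by linarith : (0 : ℤ) ≤ (p : ℤ) - 1)]

end Cfsg.Agent.S3580
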