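import Cfsg.Statements.S3592
import Cfsg.Agent.Lib.M11Recog.Main

set_option autoImplicit false
open Cfsg

namespace Cfsg.Agent.S3592

/-- Let M be the Mathieu group M₁₁ (order 7920). If a finite group G has the same order as M and the same set of values of the function 'number of elements of order n' (taken over the element orders n that occur), then G is isomorphic to M. -/
theorem result {G : Type*} [Group G] [Finite G]
    (hcard : Nat.card G = Nat.card ↥Cfsg.Spor.M11)
    (hnse : {c : ℕ | 0 < c ∧ ∃ n : ℕ, c = Nat.card {g : G // orderOf g = n}} =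
      {c : ℕ | 0 < c ∧ ∃ n : ℕ, c = Nat.card {g : ↥Cfsg.Spor.M11 // orderOf g = n}}) :
    Nonempty (G ≃* ↥Cfsg.Spor.M11) := by
  haveI : Fact (Nat.Prime 11) := ⟨by norm_num⟩
  haveI : Fact (Nat.Prime 5) := ⟨by norm_num⟩
  haveI := Cfsg.Agent.Lib.M11Recog.spor_m11_simple
  have hM := Cfsg.Agent.Lib.M11Recog.spor_m11_card
  rw [hM] at hcard
  have key : ∀ (p : ℕ) [Fact p.Prime], (p = 5 ∨ p = 11) → ∃ n : ℕ, n ≠ 1 ∧
      (p - 1) * Nat.card (Sylow p G) = Nat.card {g : ↥Cfsg.Spor.M11 // orderOf g = n} := by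
    intro p hp' hp
    have hc := Cfsg.Agent.Lib.M11Recog.card_prime_cases hcard hp
    have hpos : 0 < Nat.card {g : G // orderOf g = p} := by
      rw [hc]
      refine Nat.mul_pos ?_ Nat.card_pos
      rcases hp with rfl | rfl <;> norm_num
    have hmem : (p - 1) * Nat.card (Sylow p G) ∈
        {c : ℕ | 0 < c ∧ ∃ n : ℕ, c = Nat.card {g : G // orderOf g = n}} :=
      ⟨hc ▸ hpos, p, hc.symm⟩
    rw [hnse] at hmem
    obtain ⟨-, n, hn⟩ := hmem
    refine ⟨n, fun h1 => ?_, hn⟩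
    subst h1
    have : Subsingleton {g : ↥Cfsg.Spor.M11 // orderOf g = 1} :=
      ⟨fun a b => Subtype.ext ((orderOf_eq_one_iff.1 a.2).trans (orderOf_eq_one_iff.1 b.2).symm)⟩
    have h1' := Finite.card_le_one_iff_subsingleton.2 this
    rw [← hn] at h1'
    have : 4 ≤ p - 1 := by omega
    have : 0 < Nat.card (Sylow p G) := Nat.card_pos
    nlinarith
  obtain ⟨n, hn1, hn⟩ := key 11 (Or.inr rfl)
  obtain ⟨n', hn1', hn'⟩ := key 5 (Or.inl rfl)
  obtain ⟨d, hd, hdd⟩ := Cfsg.Agent.Lib.M11Recog.dvd_card_orderOf hM hn1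
  obtain ⟨d', hd', hdd'⟩ := Cfsg.Agent.Lib.M11Recog.dvd_card_orderOf hM hn1'
  rw [← hn] at hdd
  rw [← hn'] at hdd'
  have h11 := Cfsg.Agent.Lib.M11Recog.sylow_eleven_cases hcard
  have h5 := Cfsg.Agent.Lib.M11Recog.sylow_five_cases hcard
  refine Cfsg.Agent.Lib.M11Recog.iso_of_counts hcard ?_ ?_
  · fin_cases hd <;> simp only [Finset.mem_insert, Finset.mem_singleton] at h11 <;> omega
  · fin_cases hd' <;> simp only [Finset.mem_insert, Finset.mem_singleton] at h5 <;> omega

end Cfsg.Agent.S3592
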