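import Cfsg.Statements.S3599
import Mathlib

set_option autoImplicit false
open Cfsg

namespace Cfsg.Agent.S3599

/-- A minimal Frobenius group of type `p^a : q`. -/
theorem exists_block (p q : ℕ) (hp : p.Prime) (hq : q.Prime) (hpq : p ≠ q) :
    ∃ (W : Type) (_ : Group W) (_ : Finite W) (a : ℕ), 1 ≤ a ∧ (a = 1 → q ∣ p - 1) ∧ Nat.card W = p ^ a * q ∧
      (∀ g : W, orderOf g = 1 ∨ orderOf g = p ∨ orderOf g = q) ∧
      (∀ X : Subgroup W, (∃ x ∈ X, orderOf x = p) → (∃ x ∈ X, orderOf x = q) → X = ⊤) ∧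
      (∀ X : Subgroup W, X.Normal → X ≠ ⊥ → p ^ a ∣ Nat.card X) := by
  classical
  haveI : Fact p.Prime := ⟨hp⟩
  haveI : Fact q.Prime := ⟨hq⟩
  have hne : (p : ZMod q) ≠ 0 := by
    rw [Ne, ZMod.natCast_eq_zero_iff]
    exact fun h => hpq ((Nat.prime_dvd_prime_iff_eq hq hp).1 h).symm
  set a := orderOf (p : ZMod q) with ha
  have hfin : IsOfFinOrder (p : ZMod q) := isOfFinOrder_iff_pow_eq_one.2
    ⟨q - 1, by have := hq.two_le; omega, ZMod.pow_card_sub_one_eq_one hne⟩
  have ha0 : a ≠ 0 := (orderOf_pos_iff.2 hfin).ne'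
  have hdvd : ∀ b : ℕ, q ∣ p ^ b - 1 ↔ a ∣ b := fun b => by
    rw [ha, orderOf_dvd_iff_pow_eq_one, ← ZMod.natCast_eq_zero_iff,
      Nat.cast_sub (Nat.one_le_pow _ _ hp.pos), sub_eq_zero, Nat.cast_pow, Nat.cast_one]
  let K := GaloisField p a
  have hK : Nat.card K = p ^ a := GaloisField.card p a ha0
  haveI : Finite K := Nat.finite_of_card_ne_zero (by rw [hK]; exact (pow_pos hp.pos a).ne')
  obtain ⟨ζ, hζ⟩ := exists_prime_orderOf_dvd_card' (G := Kˣ) q
    (by rw [Nat.card_units, hK]; exact (hdvd a).2 dvd_rfl)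
  let μ := Subgroup.zpowers ζ
  have hμ : Nat.card μ = q := by rw [Nat.card_zpowers, hζ]
  let φ : μ →* MulAut (Multiplicative K) :=
    (MulAutMultiplicative K).symm.toMonoidHom.comp ((DistribMulAction.toAddAut Kˣ K).comp μ.subtype)
  haveI : Finite (Multiplicative K ⋊[φ] μ) := Finite.of_equiv _ SemidirectProduct.equivProd.symm
  have hφ : ∀ (z : μ) (v : K), φ z (Multiplicative.ofAdd v) = Multiplicative.ofAdd (((z : Kˣ) : K) * v) :=
    fun z v => rfl
  have hconj : ∀ (g : (Multiplicative K ⋊[φ] μ)) (v : K), g * SemidirectProduct.inl (Multiplicative.ofAdd v) * g⁻¹ =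
      SemidirectProduct.inl (Multiplicative.ofAdd (((g.right : Kˣ) : K) * v)) := by
    intro g v
    ext
    · simp [hφ, mul_comm]
    · simp
  have hcase : ∀ g : (Multiplicative K ⋊[φ] μ), g.right = 1 → g = SemidirectProduct.inl g.left := fun g h => by ext <;> simp [h]
  have hroot : ∀ g : (Multiplicative K ⋊[φ] μ), g.right ≠ 1 → ∃ c : (Multiplicative K ⋊[φ] μ), g = c * SemidirectProduct.inr g.right * c⁻¹ := by
    intro g hg
    have h1 : (1 : K) - ((g.right : Kˣ) : K) ≠ 0 := fun e => hg (Subtype.ext (Units.ext (sub_eq_zero.1 e).symm))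
    refine ⟨SemidirectProduct.inl (Multiplicative.ofAdd (g.left.toAdd / (1 - ((g.right : Kˣ) : K)))), ?_⟩
    ext
    · simp only [SemidirectProduct.mul_left, SemidirectProduct.left_inl, SemidirectProduct.right_inl,
        SemidirectProduct.left_inr, SemidirectProduct.mul_right, SemidirectProduct.right_inr, map_one,
        SemidirectProduct.inv_left, SemidirectProduct.inv_right, inv_one, mul_one, one_mul, MulAut.one_apply]
      rw [← ofAdd_neg, hφ, ← ofAdd_add]
      rw [toAdd_ofAdd]
      rw [mul_neg, ← sub_eq_add_neg, ← one_sub_mul, mul_div_cancel₀ _ h1]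
    · simp
  have hord : ∀ g : (Multiplicative K ⋊[φ] μ), g.right ≠ 1 → orderOf g = q := by
    intro g hg
    obtain ⟨c, hc⟩ := hroot g hg
    rw [hc, ← MulAut.conj_apply, MulEquiv.orderOf_eq, orderOf_injective _ SemidirectProduct.inr_injective]
    exact orderOf_eq_prime (by rw [← hμ, pow_card_eq_one']) hg
  have hordp : ∀ g : (Multiplicative K ⋊[φ] μ), g.right = 1 → orderOf g = 1 ∨ orderOf g = p := by
    intro g hg
    rw [hcase g hg, orderOf_injective _ SemidirectProduct.inl_injective]
    refine (Nat.dvd_prime hp).1 (orderOf_dvd_of_pow_eq_one ?_)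
    apply Multiplicative.toAdd.injective
    rw [toAdd_pow, toAdd_one, nsmul_eq_mul, CharP.cast_eq_zero, zero_mul]
  -- stability under `ζ` forces the whole field
  have hkey : ∀ A : AddSubgroup K, (∃ u ∈ A, u ≠ 0) → (∀ u ∈ A, ((ζ : Kˣ) : K) * u ∈ A) → ∀ u, u ∈ A := by
    intro A ⟨u0, hu0, hne0⟩ hA
    let T : Subring K :=
      { carrier := {c | ∀ u ∈ A, c * u ∈ A}
        mul_mem' := fun {c d} hc hd u hu => by rw [mul_assoc]; exact hc _ (hd _ hu)
        one_mem' := fun u hu => by rwa [one_mul]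
        add_mem' := fun {c d} hc hd u hu => by rw [add_mul]; exact A.add_mem (hc _ hu) (hd _ hu)
        zero_mem' := fun u hu => by rw [zero_mul]; exact A.zero_mem
        neg_mem' := fun {c} hc u hu => by rw [neg_mul]; exact A.neg_mem (hc _ hu) }
    obtain ⟨b, hba, hb⟩ := (Nat.dvd_prime_pow hp).1 (hK ▸ T.toAddSubgroup.card_addSubgroup_dvd_card :
      Nat.card T.toAddSubgroup ∣ p ^ a)
    haveI : Fintype T := Fintype.ofFinite _
    letI : Field T := Fintype.fieldOfDomain T
    have hz : (ζ : Kˣ) ^ (p ^ b - 1) = 1 := by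
      have h1 := FiniteField.pow_card_sub_one_eq_one (⟨((ζ : Kˣ) : K), hA⟩ : T)
        (fun e => (ζ : Kˣ).ne_zero (congrArg Subtype.val e))
      rw [← Nat.card_eq_fintype_card, show Nat.card T = p ^ b from hb] at h1
      exact Units.ext (by rw [Units.val_pow_eq_pow_val]; exact congrArg Subtype.val h1)
    have hab : a ∣ b := (hdvd b).1 (hζ ▸ orderOf_dvd_of_pow_eq_one hz)
    have hb0 : b ≠ 0 := by
      intro e
      rw [e, pow_zero] at hb
      exact absurd hb (ne_of_gt (Finite.one_lt_card_iff_nontrivial.2 (inferInstanceAs (Nontrivial T))))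
    have hTtop : T.toAddSubgroup = ⊤ := by
      refine AddSubgroup.eq_top_of_card_eq _ ?_
      rw [hb, hK, le_antisymm hba (Nat.le_of_dvd (Nat.pos_of_ne_zero hb0) hab)]
    intro u
    have h2 : u / u0 ∈ T.toAddSubgroup := hTtop ▸ AddSubgroup.mem_top _
    have h3 := h2 u0 hu0
    rwa [div_mul_cancel₀ u hne0] at h3
  have hfull : ∀ X : Subgroup (Multiplicative K ⋊[φ] μ), ∀ x ∈ X, ∀ g : (Multiplicative K ⋊[φ] μ), x ≠ 1 → x.right = 1 → g.right ≠ 1 →
      (∀ y ∈ X, g * y * g⁻¹ ∈ X) → ∀ v : Multiplicative K, SemidirectProduct.inl v ∈ X := by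
    intro X x hx g hx1 hxr hgr hg
    let A : AddSubgroup K :=
      { carrier := {u | SemidirectProduct.inl (Multiplicative.ofAdd u) ∈ X}
        add_mem' := fun {u v} hu hv => by
          show SemidirectProduct.inl (Multiplicative.ofAdd (u + v)) ∈ X
          rw [ofAdd_add, map_mul]; exact mul_mem hu hv
        zero_mem' := by show SemidirectProduct.inl (Multiplicative.ofAdd 0) ∈ X; rw [ofAdd_zero, map_one]; exact one_mem _
        neg_mem' := fun {u} hu => by
          show SemidirectProduct.inl (Multiplicative.ofAdd (-u)) ∈ X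
          rw [ofAdd_neg, map_inv]; exact inv_mem hu }
    have h1 : ∀ u ∈ A, ((g.right : Kˣ) : K) * u ∈ A := fun u hu => by
      show SemidirectProduct.inl _ ∈ X
      rw [← hconj]; exact hg _ hu
    obtain ⟨n, hn⟩ : ∃ n : ℕ, (g.right : Kˣ) ^ n = ζ := by
      have h2 : Subgroup.zpowers (g.right : Kˣ) = μ := by
        refine Subgroup.eq_of_le_of_card_ge (Subgroup.zpowers_le.2 g.right.2) ?_
        rw [hμ, Nat.card_zpowers, Subgroup.orderOf_coe]
        have h4 : orderOf g.right ∣ q := hμ ▸ orderOf_dvd_natCard _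
        rcases (Nat.dvd_prime hq).1 h4 with h | h
        · exact absurd (orderOf_eq_one_iff.1 h) hgr
        · exact h.ge
      have h6 : ζ ∈ Subgroup.zpowers (g.right : Kˣ) := by rw [h2]; exact Subgroup.mem_zpowers ζ
      obtain ⟨i, hi⟩ := Submonoid.mem_powers_iff _ _ |>.1 (mem_powers_iff_mem_zpowers.2 h6)
      exact ⟨i, hi⟩
    have h3 : ∀ m : ℕ, ∀ u ∈ A, ((g.right : Kˣ) : K) ^ m * u ∈ A := by
      intro m
      induction m with
      | zero => intro u hu; rwa [pow_zero, one_mul]
      | succ m ih => intro u hu; rw [pow_succ', mul_assoc]; exact h1 _ (ih u hu)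
    have hall := hkey A ⟨x.left.toAdd, by show SemidirectProduct.inl _ ∈ X; rw [ofAdd_toAdd, ← hcase x hxr]; exact hx,
      fun e => hx1 (by rw [hcase x hxr, show x.left = 1 from Multiplicative.toAdd.injective e, map_one])⟩
      (fun u hu => by rw [← hn, Units.val_pow_eq_pow_val]; exact h3 n u hu)
    exact fun v => hall v.toAdd
  refine ⟨(Multiplicative K ⋊[φ] μ), inferInstance, inferInstance, a, Nat.pos_of_ne_zero ha0, fun e => ?_, ?_, fun g => ?_, ?_, ?_⟩
  · simpa using (hdvd 1).2 (e ▸ dvd_rfl)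
  · rw [Nat.card_congr SemidirectProduct.equivProd, Nat.card_prod, hμ]
    exact congrArg (· * q) hK
  · by_cases h : g.right = 1
    · exact (hordp g h).imp id Or.inl
    · exact Or.inr (Or.inr (hord g h))
  · rintro X ⟨x, hx, hxp⟩ ⟨y, hy, hyq⟩
    have hxr : x.right = 1 := by by_contra h; exact hpq (hxp.symm.trans (hord x h))
    have hyr : y.right ≠ 1 := fun h => by
      rcases hordp y h with h' | h' <;> rw [hyq] at h'
      · exact hq.one_lt.ne' h'
      · exact hpq h'.symm
    have hV := hfull X x hx y (fun e => hp.one_lt.ne (by rw [← hxp, e, orderOf_one])) hxr hyr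
      (fun z hz => mul_mem (mul_mem hy hz) (inv_mem hy))
    refine eq_top_iff.2 fun g _ => ?_
    have hR : X.map (SemidirectProduct.rightHom : (Multiplicative K ⋊[φ] μ) →* μ) = ⊤ := by
      haveI : Fact (Nat.card μ).Prime := ⟨hμ.symm ▸ hq⟩
      refine (Subgroup.eq_bot_or_eq_top_of_prime_card _).resolve_left fun h => hyr ?_
      exact (Subgroup.mem_bot).1 (h ▸ Subgroup.mem_map_of_mem _ hy)
    obtain ⟨z, hz, hzg⟩ := Subgroup.mem_map.1 (hR ▸ Subgroup.mem_top g.right)
    have : g * z⁻¹ = SemidirectProduct.inl (g * z⁻¹).left := hcase _ (by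
      rw [SemidirectProduct.mul_right, SemidirectProduct.inv_right, show z.right = g.right from hzg, mul_inv_cancel])
    have h2 : g * z⁻¹ ∈ X := this ▸ hV _
    simpa [mul_assoc] using mul_mem h2 hz
  · intro X hXn hX
    obtain ⟨g, hg, hg1⟩ := (Subgroup.nontrivial_iff_exists_ne_one X).1 ((Subgroup.nontrivial_iff_ne_bot X).2 hX)
    let zg : (Multiplicative K ⋊[φ] μ) := SemidirectProduct.inr ⟨ζ, Subgroup.mem_zpowers ζ⟩
    have hzg : zg.right ≠ 1 := fun e => hq.one_lt.ne' (by
      rw [← hζ, show ζ = 1 from congrArg Subtype.val e, orderOf_one])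
    have hV : ∀ v : Multiplicative K, SemidirectProduct.inl v ∈ X := by
      by_cases h : g.right = 1
      · exact hfull X g hg zg hg1 h hzg (fun y hy => hXn.conj_mem y hy zg)
      · let u : (Multiplicative K ⋊[φ] μ) := SemidirectProduct.inl (Multiplicative.ofAdd (1 : K))
        have hc : g * u * g⁻¹ * u⁻¹ ∈ X := by
          rw [mul_assoc (g * u), mul_assoc g, ← mul_assoc u]; exact mul_mem hg (hXn.conj_mem _ (inv_mem hg) u)
        refine hfull X _ hc g ?_ (by simp [u]) h (fun y hy => hXn.conj_mem y hy g)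
        rw [hconj, Ne, mul_inv_eq_one, SemidirectProduct.inl_inj, Multiplicative.ofAdd.injective.eq_iff, mul_one]
        exact fun e => h (Subtype.ext (Units.ext e))
    have h1 : (SemidirectProduct.inl : Multiplicative K →* (Multiplicative K ⋊[φ] μ)).range ≤ X := by rintro _ ⟨v, rfl⟩; exact hV v
    have h2 := Subgroup.card_dvd_of_le h1
    rwa [← Nat.card_congr (MonoidHom.ofInjective SemidirectProduct.inl_injective).toEquiv,
      show Nat.card (Multiplicative K) = p ^ a from hK] at h2

/-- A finite group is critical with respect to a set Ω of natural numbers when its set of element orders is Ω while no proper section H/N (H a subgroup, N normal in H, (H, N) ≠ (whole group, 1)) has Ω as its set of element orders. Let s ≥ 1 and let p(j,0), p(j,1) (j < s) be 2s pairwise distinct primes, and let Ω be the set of all products c(0)·…·c(s−1) with each c(j) ∈ {1, p(j,0), p(j,1)}. Then there are 2^s pairwise non-isomorphic finite groups critical with respect to Ω. -/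
theorem result (s : ℕ) (hs : 1 ≤ s) (p : Fin s → Fin 2 → ℕ)
    (hp : ∀ j i, (p j i).Prime) (hinj : ∀ j i j' i', p j i = p j' i' → j = j' ∧ i = i') :
    ∃ (G : Fin (2 ^ s) → Type) (_ : ∀ a, Group (G a)) (_ : ∀ a, Fintype (G a)),
      (∀ a b, a ≠ b → ¬ Nonempty (G a ≃* G b)) ∧
      ∀ a, Set.range (orderOf : (G a) → ℕ) = {m : ℕ | ∃ c : Fin s → ℕ, (∀ j, c j = 1 ∨ c j = p j 0 ∨ c j = p j 1) ∧ m = ∏ j, c j} ∧
      ∀ (H : Subgroup (G a)) (N : Subgroup ↥H) [N.Normal], (H ≠ ⊤ ∨ N ≠ ⊥) → Set.range (orderOf : (↥H ⧸ N) → ℕ) ≠ {m : ℕ | ∃ c : Fin s → ℕ, (∀ j, c j = 1 ∨ c j = p j 0 ∨ c j = p j 1) ∧ m = ∏ j, c j} := by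
  classical
  have hne : ∀ (j : Fin s) (e : Fin 2), p j e ≠ p j (1 - e) := fun j e h => by
    have h2 := (hinj _ _ _ _ h).2; revert h2; fin_cases e <;> decide
  choose W gW fW A hA1 hA hcard hord htop hnorm using fun (j : Fin s) (e : Fin 2) =>
    exists_block (p j e) (p j (1 - e)) (hp _ _) (hp _ _) (hne j e)
  letI := gW
  haveI := fW
  let ε : Fin (2 ^ s) → Fin s → Fin 2 := fun a => (finFunctionFinEquiv (m := 2) (n := s)).symm a
  have hor : ∀ (j : Fin s) (e : Fin 2) (m : ℕ), (m = 1 ∨ m = p j e ∨ m = p j (1 - e)) ↔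
      (m = 1 ∨ m = p j 0 ∨ m = p j 1) := fun j e m => by fin_cases e <;> simp <;> tauto
  -- the order of a product
  have hcop : ∀ c : Fin s → ℕ, (∀ j, c j = 1 ∨ c j = p j 0 ∨ c j = p j 1) →
      ∀ j k, j ≠ k → (c j).Coprime (c k) := by
    intro c hc j k hjk
    rcases hc j with h | h | h <;> rcases hc k with h' | h' | h' <;> rw [h, h'] <;>
      first
        | exact Nat.coprime_one_left _
        | exact Nat.coprime_one_right _
        | exact (Nat.coprime_primes (hp _ _) (hp _ _)).2 fun e => hjk (hinj _ _ _ _ e).1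
  refine ⟨fun a => ∀ j, W j (ε a j), fun a => inferInstance, fun a => Fintype.ofFinite _, ?_, fun a => ⟨?_, ?_⟩⟩
  · intro a b hab ⟨e⟩
    obtain ⟨j, hj⟩ : ∃ j, ε a j ≠ ε b j := by
      by_contra h; push Not at h
      exact hab ((finFunctionFinEquiv (m := 2) (n := s)).symm.injective (funext h))
    have hval : ∀ (a : Fin (2 ^ s)) (i : Fin 2),
        (Nat.card (∀ j, W j (ε a j))).factorization (p j i) = if ε a j = i then A j i else 1 := by
      intro a i
      rw [Nat.card_pi, Nat.factorization_prod (fun k _ => (Nat.card_pos).ne'), Finsupp.finsetSum_apply]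
      rw [Finset.sum_eq_single j]
      · rw [hcard, Nat.factorization_mul (pow_ne_zero _ (hp _ _).ne_zero) (hp _ _).ne_zero, Finsupp.add_apply,
          (hp _ _).factorization_pow, (hp _ _).factorization, Finsupp.single_apply, Finsupp.single_apply]
        by_cases h : ε a j = i
        · subst h
          rw [if_pos rfl, if_neg (hne j _).symm, if_pos rfl, add_zero]
        · have h' : 1 - ε a j = i := by
            revert h; generalize ε a j = x; fin_cases x <;> fin_cases i <;> decide
          rw [if_neg fun e => h (hinj _ _ _ _ e).2, if_pos (by rw [h']), if_neg h, zero_add]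
      · intro k _ hk
        rw [hcard, Nat.factorization_mul (pow_ne_zero _ (hp _ _).ne_zero) (hp _ _).ne_zero, Finsupp.add_apply,
          (hp _ _).factorization_pow, (hp _ _).factorization, Finsupp.single_apply, Finsupp.single_apply,
          if_neg fun e => hk (hinj _ _ _ _ e).1, if_neg fun e => hk (hinj _ _ _ _ e).1, add_zero]
      · simp
    have hc := Nat.card_congr e.toEquiv
    have h1 := hval a (ε a j)
    have h2 := hval a (1 - ε a j)
    rw [hc, hval b, if_pos rfl, if_neg hj.symm] at h1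
    have h' : ε b j = 1 - ε a j := by
      revert hj; generalize ε a j = x; generalize ε b j = y; fin_cases x <;> fin_cases y <;> decide
    rw [hc, hval b, if_pos h', if_neg (fun e => hj (by rw [h']; exact e))] at h2
    have h3 := hA j _ h1.symm
    have h4 := hA j _ h2
    rw [show (1 : Fin 2) - (1 - ε a j) = ε a j by generalize ε a j = x; fin_cases x <;> decide] at h4
    have h5 := Nat.le_of_dvd (by have := (hp j (ε a j)).two_le; omega) h3
    have h6 := Nat.le_of_dvd (by have := (hp j (1 - ε a j)).two_le; omega) h4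
    have := (hp j (ε a j)).two_le
    omega
  · ext m
    constructor
    · rintro ⟨g, rfl⟩
      have hc : ∀ j, orderOf (g j) = 1 ∨ orderOf (g j) = p j 0 ∨ orderOf (g j) = p j 1 :=
        fun j => (hor j _ _).1 (hord j _ (g j))
      refine ⟨fun j => orderOf (g j), hc, ?_⟩
      refine Nat.dvd_antisymm (orderOf_dvd_of_pow_eq_one (funext fun j => ?_))
        (Finset.lcm_eq_prod (s := Finset.univ) (f := fun j => orderOf (g j)) (fun j _ k _ hjk => ?_) ▸
          Finset.lcm_dvd fun j _ => orderOf_map_dvd (Pi.evalMonoidHom _ j) g)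
      · exact orderOf_dvd_iff_pow_eq_one.1 (Finset.dvd_prod_of_mem (fun j => orderOf (g j)) (Finset.mem_univ j))
      · exact hcop _ hc j k hjk
    · rintro ⟨c, hc, rfl⟩
      have : ∀ j, ∃ x : W j (ε a j), orderOf x = c j := by
        intro j
        rcases (hor j (ε a j) _).2 (hc j) with h | h | h
        · exact ⟨1, by rw [orderOf_one, h]⟩
        all_goals
          haveI : Fact (c j).Prime := ⟨h ▸ hp _ _⟩
          refine exists_prime_orderOf_dvd_card' (c j) ?_
          rw [hcard, h]
        · exact (dvd_pow_self _ (by have := hA1 j (ε a j); omega)).trans (dvd_mul_right _ _)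
        · exact dvd_mul_left _ _
      choose x hx using this
      refine ⟨x, Nat.dvd_antisymm (orderOf_dvd_of_pow_eq_one (funext fun j => ?_))
        (Finset.lcm_eq_prod (s := Finset.univ) (f := c) (fun j _ k _ hjk => ?_) ▸
          Finset.lcm_dvd fun j _ => hx j ▸ orderOf_map_dvd (Pi.evalMonoidHom _ j) x)⟩
      · exact orderOf_dvd_iff_pow_eq_one.1 (by rw [hx]; exact Finset.dvd_prod_of_mem c (Finset.mem_univ j))
      · exact hcop _ hc j k hjk
  · intro H N hN hHN heq
    -- every prime divides the order of the section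
    have hdiv : ∀ j i, p j i ∣ Nat.card (↥H ⧸ N) := fun j i => by
      obtain ⟨x, hx⟩ : p j i ∈ Set.range (orderOf : (↥H ⧸ N) → ℕ) := by
        rw [heq]
        refine ⟨fun k => if k = j then p j i else 1, fun k => ?_, by simp [Finset.prod_ite_eq']⟩
        by_cases h : k = j
        · subst h; fin_cases i <;> simp
        · simp [h]
      exact hx ▸ orderOf_dvd_natCard x
    have hsingle : ∀ j i, ∃ v : W j (ε a j), orderOf v = p j i ∧ Pi.mulSingle j v ∈ H := by
      intro j i
      haveI := Fact.mk (hp j i)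
      obtain ⟨h, hh⟩ := exists_prime_orderOf_dvd_card' (G := H) (p j i) ((hdiv j i).trans (Subgroup.card_quotient_dvd_card N))
      rw [← Subgroup.orderOf_coe] at hh
      have hk : ∀ k, k ≠ j → (h : ∀ j, W j (ε a j)) k = 1 := by
        intro k hk
        have h1 : orderOf ((h : ∀ j, W j (ε a j)) k) ∣ p j i :=
          hh ▸ orderOf_map_dvd (Pi.evalMonoidHom (fun j => W j (ε a j)) k) (h : ∀ j, W j (ε a j))
        rcases (Nat.dvd_prime (hp j i)).1 h1 with h2 | h2
        · exact orderOf_eq_one_iff.1 h2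
        · exfalso
          rcases hord k _ ((h : ∀ j, W j (ε a j)) k) with h3 | h3 | h3 <;> rw [h2] at h3
          · exact (hp j i).one_lt.ne' h3
          · exact hk (hinj _ _ _ _ h3).1.symm
          · exact hk (hinj _ _ _ _ h3).1.symm
      have he : Pi.mulSingle j ((h : ∀ j, W j (ε a j)) j) = (h : ∀ j, W j (ε a j)) := funext fun k => by
        by_cases h' : k = j
        · subst h'; simp
        · simp [h', hk k h']
      refine ⟨(h : ∀ j, W j (ε a j)) j, ?_, he.symm ▸ h.2⟩
      rw [← orderOf_injective (MonoidHom.mulSingle (fun j => W j (ε a j)) j) (Pi.mulSingle_injective (M := fun j => W j (ε a j)) j)]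
      show orderOf (Pi.mulSingle j _) = _
      rw [he, hh]
    have hH : H = ⊤ := by
      refine eq_top_iff.2 fun g _ => Subgroup.pi_mem_of_mulSingle_mem g fun j => ?_
      have := htop j (ε a j) (H.comap (MonoidHom.mulSingle (fun j => W j (ε a j)) j))
        (by obtain ⟨v, hv, hvH⟩ := hsingle j (ε a j); exact ⟨v, hvH, hv⟩)
        (by obtain ⟨v, hv, hvH⟩ := hsingle j (1 - ε a j); exact ⟨v, hvH, hv⟩)
      exact (this ▸ Subgroup.mem_top (g j) : g j ∈ H.comap _)
    subst hH
    obtain ⟨n, hn, hn1⟩ : ∃ n ∈ N, n ≠ 1 := by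
      by_contra h; push Not at h
      exact (hHN.resolve_left fun h => h rfl) ((Subgroup.eq_bot_iff_forall _).2 h)
    obtain ⟨j, hj⟩ : ∃ j, (n : ∀ j, W j (ε a j)) j ≠ 1 := by
      by_contra h; push Not at h; exact hn1 (Subtype.ext (funext h))
    let ι : W j (ε a j) →* (⊤ : Subgroup (∀ j, W j (ε a j))) :=
      (Subgroup.topEquiv.symm.toMonoidHom).comp (MonoidHom.mulSingle (fun j => W j (ε a j)) j)
    have hι : Function.Injective ι :=
      Subgroup.topEquiv.symm.injective.comp (Pi.mulSingle_injective (M := fun j => W j (ε a j)) j)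
    obtain ⟨x, hx⟩ : ∃ x : W j (ε a j), (n : ∀ j, W j (ε a j)) j * x ≠ x * (n : ∀ j, W j (ε a j)) j := by
      by_contra h; push Not at h
      have key : ∀ P Q : ℕ, P.Prime → Q.Prime → P ≠ Q → Q ∣ Nat.card (W j (ε a j)) →
          (∀ g : W j (ε a j), orderOf g = 1 ∨ orderOf g = P ∨ orderOf g = Q) →
          orderOf ((n : ∀ j, W j (ε a j)) j) = P → False := by
        intro P Q hP hQ hPQ hQd ho hz
        haveI := Fact.mk hQ
        obtain ⟨y, hy⟩ := exists_prime_orderOf_dvd_card' (G := W j (ε a j)) Q hQd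
        have h1 := (show Commute _ y from h y).orderOf_mul_eq_mul_orderOf_of_coprime
          (by rw [hz, hy]; exact (Nat.coprime_primes hP hQ).2 hPQ)
        rw [hz, hy] at h1
        have h2 := hP.two_le
        have h3 := hQ.two_le
        rcases ho _ with h4 | h4 | h4 <;> rw [h1] at h4 <;> nlinarith
      have hd1 : p j (ε a j) ∣ Nat.card (W j (ε a j)) := by
        rw [hcard]; exact (dvd_pow_self _ (by have := hA1 j (ε a j); omega)).trans (dvd_mul_right _ _)
      have hd2 : p j (1 - ε a j) ∣ Nat.card (W j (ε a j)) := by rw [hcard]; exact dvd_mul_left _ _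
      rcases hord j _ ((n : ∀ j, W j (ε a j)) j) with h' | h' | h'
      · exact hj (orderOf_eq_one_iff.1 h')
      · exact key _ _ (hp _ _) (hp _ _) (hne j _) hd2 (hord j _) h'
      · exact key _ _ (hp _ _) (hp _ _) (hne j _).symm hd1
          (fun g => by rcases hord j _ g with h | h | h <;> simp [h]) h'
    have hcom : ι ((n : ∀ j, W j (ε a j)) j * x * ((n : ∀ j, W j (ε a j)) j)⁻¹ * x⁻¹) ∈ N := by
      have h1 : n * ι x * n⁻¹ * (ι x)⁻¹ ∈ N := by
        rw [mul_assoc (n * ι x), mul_assoc n, ← mul_assoc (ι x)]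
        exact mul_mem hn (hN.conj_mem _ (inv_mem hn) _)
      convert h1 using 1
      refine Subtype.ext (funext fun k => ?_)
      by_cases hk : k = j
      · subst hk; simp [ι]
      · simp [ι, hk]
    have hbot : N.comap ι ≠ ⊥ := fun e => hx (by
      have h1 : _ ∈ N.comap ι := hcom
      rw [e, Subgroup.mem_bot, mul_inv_eq_one, mul_inv_eq_iff_eq_mul] at h1
      exact h1)
    have h1 := hnorm j (ε a j) (N.comap ι) (hN.comap ι) hbot
    have h2 : p j (ε a j) ^ A j (ε a j) ∣ Nat.card N := by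
      refine h1.trans ?_
      rw [← Subgroup.card_map_of_injective hι (K := N.comap ι)]
      exact Subgroup.card_dvd_of_le (Subgroup.map_comap_le ι N)
    have h3 : p j (ε a j) ^ (A j (ε a j) + 1) ∣ Nat.card (∀ j, W j (ε a j)) := by
      rw [← Subgroup.card_top (G := ∀ j, W j (ε a j)), Subgroup.card_eq_card_quotient_mul_card_subgroup N, pow_succ']
      exact mul_dvd_mul (hdiv j (ε a j)) h2
    rw [Nat.card_pi, ← Finset.mul_prod_erase _ _ (Finset.mem_univ j), hcard, mul_assoc, pow_succ] at h3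
    have h4 := Nat.dvd_of_mul_dvd_mul_left (pow_pos (hp j (ε a j)).pos _) h3
    rcases ((hp j (ε a j)).dvd_mul).1 h4 with h5 | h5
    · exact hne j _ ((Nat.prime_dvd_prime_iff_eq (hp _ _) (hp _ _)).1 h5)
    · obtain ⟨k, hk, hk2⟩ := ((hp j (ε a j)).prime.dvd_finset_prod_iff _).1 h5
      rw [hcard] at hk2
      rcases ((hp j (ε a j)).dvd_mul).1 hk2 with h6 | h6
      · exact (Finset.ne_of_mem_erase hk) (hinj _ _ _ _
          ((Nat.prime_dvd_prime_iff_eq (hp _ _) (hp _ _)).1 ((hp j (ε a j)).dvd_of_dvd_pow h6))).1.symm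
      · exact (Finset.ne_of_mem_erase hk) (hinj _ _ _ _ ((Nat.prime_dvd_prime_iff_eq (hp _ _) (hp _ _)).1 h6)).1.symm

end Cfsg.Agent.S3599
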