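import Cfsg.Statements.S3619
-- import your own Cfsg.Agent.* helpers here

set_option autoImplicit false
open Cfsg
open scoped Pointwise

namespace Cfsg.Agent.S3619

/-- Let G act faithfully on a finite set in such a way that every non-trivial normal subgroup of G is transitive (G is quasiprimitive). Let Γ be a subset with more than one point and not the whole set, such that the pointwise stabilizer of the complement of Γ acts transitively on Γ (a Jordan set). If that pointwise stabilizer acts primitively on Γ, then G is k-fold transitive where k is one more than the number of points outside Γ (the Jordan set is a trivial one). -/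
theorem result {G Ω : Type*} [Group G] [Finite G] [MulAction G Ω] [FaithfulSMul G Ω] [Finite Ω]
    (hqp : ∀ N : Subgroup G, N.Normal → N ≠ ⊥ → MulAction.IsPretransitive ↥N Ω)
    (Γ : Set Ω) (hΓ1 : 1 < Γ.ncard) (hΓ2 : Γ.ncard < Nat.card Ω)
    (hJ : MulAction.IsPretransitive ↥(fixingSubgroup G Γᶜ) ↥(SubMulAction.ofFixingSubgroup G Γᶜ))
    (hJp : MulAction.IsPreprimitive ↥(fixingSubgroup G Γᶜ) ↥(SubMulAction.ofFixingSubgroup G Γᶜ)) :
    MulAction.IsMultiplyPretransitive G Ω (Nat.card Ω - Γ.ncard + 1) := by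
  classical
  set K := fixingSubgroup G Γᶜ
  have hmemΓ : ∀ x : Ω, x ∈ SubMulAction.ofFixingSubgroup G Γᶜ ↔ x ∈ Γ := fun x => by
    rw [SubMulAction.mem_ofFixingSubgroup_iff]; simp
  have hKfix : ∀ k ∈ K, ∀ y, y ∉ Γ → k • y = y := fun k hk y hy => (mem_fixingSubgroup_iff G).1 hk y hy
  have htransΓ : ∀ u ∈ Γ, ∀ v ∈ Γ, ∃ k ∈ K, k • u = v := by
    intro u hu v hv
    obtain ⟨k, hk⟩ := hJ.exists_smul_eq ⟨u, (hmemΓ u).2 hu⟩ ⟨v, (hmemΓ v).2 hv⟩
    exact ⟨k, k.2, congrArg Subtype.val hk⟩
  obtain ⟨u, v, hu, hv, huv⟩ := (Set.one_lt_ncard_iff (Set.toFinite Γ)).1 hΓ1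
  obtain ⟨k0, hk0, hk0uv⟩ := htransΓ u hu v hv
  have hk01 : k0 ≠ 1 := fun h => huv (by rw [← hk0uv, h, one_smul])
  have htop : MulAction.IsPretransitive (⊤ : Subgroup G) Ω := hqp ⊤ inferInstance
    (fun h => hk01 (Subgroup.mem_bot.1 (h ▸ Subgroup.mem_top k0)))
  have htr : MulAction.IsPretransitive G Ω :=
    ⟨fun a b => by obtain ⟨g, hg⟩ := htop.exists_smul_eq a b; exact ⟨g, hg⟩⟩
  have hprim : MulAction.IsPreprimitive G Ω := by
    refine { isTrivialBlock_of_isBlock := fun {B0} hB0 => ?_ }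
    by_contra hnt
    rw [MulAction.IsTrivialBlock, not_or] at hnt
    obtain ⟨hns, hnu⟩ := hnt
    rw [Set.not_subsingleton_iff] at hns
    obtain ⟨b, hb⟩ := hns.nonempty
    obtain ⟨g, hg⟩ := htr.exists_smul_eq b u
    set B := g • B0 with hBdef
    have hB : MulAction.IsBlock G B := hB0.translate g
    have hBne : B ≠ Set.univ := fun h => hnu (by
      ext z
      simp only [Set.mem_univ, iff_true]
      exact Set.smul_mem_smul_set_iff.1 (show g • z ∈ B by rw [h]; trivial))
    have huB : u ∈ B := hg ▸ Set.smul_mem_smul_set hb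
    have hstab : ∀ k ∈ K, ∀ z ∈ B, k • z ∈ B → k • B = B := fun k _ z hz hz' =>
      (MulAction.isBlock_iff_smul_eq_of_mem.1 hB) hz hz'
    have hblk : MulAction.IsBlock K {z : SubMulAction.ofFixingSubgroup G Γᶜ | (z : Ω) ∈ B} := by
      rw [MulAction.isBlock_iff_smul_eq_of_mem]
      intro k z hz hz'
      have h := hstab k k.2 z hz hz'
      ext w
      rw [Set.mem_smul_set_iff_inv_smul_mem]
      show ((k⁻¹ : K) : G) • (w : Ω) ∈ B ↔ (w : Ω) ∈ B
      conv_rhs => rw [← h, Set.mem_smul_set_iff_inv_smul_mem]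
      rfl
    rcases hJp.isTrivialBlock_of_isBlock hblk with hsub | huniv
    · -- a fixed point of `K` in the block
      obtain ⟨y, hyB, hyu⟩ : ∃ y ∈ B, y ≠ u := (hns.image (f := (g • ·)) (MulAction.injective g)).exists_ne u
      have hyΓ : y ∉ Γ := fun hy => hyu (congrArg Subtype.val
        (hsub (x := ⟨y, (hmemΓ y).2 hy⟩) hyB (y := ⟨u, (hmemΓ u).2 hu⟩) huB))
      have hkB : k0 • B = B := hstab k0 hk0 y hyB (by rw [hKfix k0 hk0 y hyΓ]; exact hyB)
      have hvB : v ∈ B := hk0uv ▸ hkB ▸ Set.smul_mem_smul_set huB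
      exact huv (congrArg Subtype.val
        (hsub (x := ⟨u, (hmemΓ u).2 hu⟩) huB (y := ⟨v, (hmemΓ v).2 hv⟩) hvB))
    · have hΓB : ∀ z ∈ Γ, z ∈ B := fun z hz => (huniv.symm ▸ Set.mem_univ (α := SubMulAction.ofFixingSubgroup G Γᶜ) ⟨z, (hmemΓ z).2 hz⟩ :)
      set S := MulAction.stabilizer G B
      have hKS : ∀ k ∈ K, k ∈ S.normalCore := by
        intro k hk h
        show h * k * h⁻¹ ∈ S
        rw [MulAction.mem_stabilizer_iff, mul_smul, mul_smul, smul_eq_iff_eq_inv_smul]
        have hC : MulAction.IsBlock G (h⁻¹ • B) := hB.translate _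
        by_cases hm : ∃ z ∈ h⁻¹ • B, z ∈ Γ
        · obtain ⟨z, hzC, hzΓ⟩ := hm
          have hCB : h⁻¹ • B = B := (hB.smul_eq_smul_of_nonempty (g₁ := h⁻¹) (g₂ := 1)
            ⟨z, hzC, by rw [one_smul]; exact hΓB z hzΓ⟩).trans (one_smul G B)
          rw [hCB]
          have hku : k • u ∈ B := by
            by_cases h1 : k • u ∈ Γ
            · exact hΓB _ h1
            · exfalso
              have h2 := hKfix k hk (k • u) h1
              have h3 : k • u = u := MulAction.injective k h2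
              exact h1 (h3.symm ▸ hu)
          exact hstab k hk u huB hku
        · push Not at hm
          obtain ⟨z, hz⟩ : (h⁻¹ • B).Nonempty := ⟨h⁻¹ • u, Set.smul_mem_smul_set huB⟩
          exact (MulAction.isBlock_iff_smul_eq_of_mem.1 hC) hz (by rw [hKfix k hk z (hm z hz)]; exact hz)
      have := hqp S.normalCore inferInstance (fun h => hk01 (Subgroup.mem_bot.1 (h ▸ hKS k0 hk0)))
      apply hBne
      ext z
      simp only [Set.mem_univ, iff_true]
      obtain ⟨n, hn⟩ := this.exists_smul_eq u z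
      have hnB : (n : G) • B = B := S.normalCore_le n.2
      rw [← hn, ← hnB]
      exact Set.smul_mem_smul_set huB
  have hc : Γ.ncard + Γᶜ.ncard = Nat.card Ω := Set.ncard_add_ncard_compl Γ
  obtain ⟨m, hm⟩ : ∃ m, Γᶜ.ncard = m + 1 := ⟨Γᶜ.ncard - 1, by omega⟩
  have := hprim.isMultiplyPreprimitive hm (by omega) hJp
  rw [show Nat.card Ω - Γ.ncard + 1 = m + 2 by omega]
  exact this.isMultiplyPretransitive

end Cfsg.Agent.S3619
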