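import Cfsg.Statements.S3622
import Mathlib

set_option autoImplicit false
open Cfsg

namespace Cfsg.Agent.S3622

/-- Let G be a group of permutations of a finite set, m ≥ 2, and α a point. Say a permutation σ is k-approximated by a set S of permutations if for every k points there is a member of S agreeing with σ at those points. Suppose every permutation that is (m-1)-approximated by the stabilizer of α in G lies in that stabilizer (the stabilizer is (m-1)-closed). Then every permutation that is m-approximated by G lies in G (G is m-closed). -/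
theorem result {Ω : Type*} [Finite Ω] (G : Subgroup (Equiv.Perm Ω)) (m : ℕ) (hm : 2 ≤ m) (α : Ω)
    (hclosed : ∀ σ : Equiv.Perm Ω,
      (∀ t : Fin (m - 1) → Ω, ∃ g ∈ MulAction.stabilizer ↥G α, ∀ i, (g : Equiv.Perm Ω) (t i) = σ (t i)) →
      σ ∈ G ∧ σ α = α) :
    ∀ σ : Equiv.Perm Ω, (∀ t : Fin m → Ω, ∃ g ∈ G, ∀ i, g (t i) = σ (t i)) → σ ∈ G := by
  intro σ hσ
  obtain ⟨m, rfl⟩ : ∃ m', m = m' + 1 := ⟨m - 1, by omega⟩
  obtain ⟨g, hg, hge⟩ := hσ fun _ => α
  have hfix : (g⁻¹ * σ) α = α := by
    rw [Equiv.Perm.mul_apply, ← hge 0]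
    simp
  have h := hclosed (g⁻¹ * σ) fun t => ?_
  · simpa using mul_mem hg h.1
  · obtain ⟨k, hk, hke⟩ := hσ (Fin.cons α t)
    have hk0 : k α = σ α := by simpa using hke 0
    refine ⟨⟨g⁻¹ * k, mul_mem (inv_mem hg) hk⟩, ?_, fun i => ?_⟩
    · change (g⁻¹ * k) α = α
      rw [Equiv.Perm.mul_apply, hk0, ← Equiv.Perm.mul_apply, hfix]
    · have h1 : k (t i) = σ (t i) := by simpa using hke i.succ
      change (g⁻¹ * k) (t i) = _
      rw [Equiv.Perm.mul_apply, h1, Equiv.Perm.mul_apply]

end Cfsg.Agent.S3622
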