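import Cfsg.Statements.S3626
import Cfsg.Agent.Lib.ReeCube.Group
import Cfsg.Agent.Lib.ReeTori.Inst

set_option autoImplicit false
open Cfsg

namespace Cfsg.Agent.S3626

open Cfsg.Agent.Lib.ReeCube

/-- replacing one factor of a cube by a group containing the orders of four of the six types -/
theorem range_triple {R S : Type*} [Group R] [Group S] [Finite R] (q a b : ℕ)
    (hR : ∀ d, (∃ g : R, orderOf g = d) ↔ (d ∣ 6 ∨ d ∣ 9 ∨ d ∣ q - 1 ∨ d ∣ (q + 1) / 2 ∨ d ∣ a ∨ d ∣ b))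
    (hS : ∀ d, (∃ g : S, orderOf g = d) ↔ (d ∣ 6 ∨ d ∣ 9 ∨ d ∣ q - 1 ∨ d ∣ (q + 1) / 2)) :
    Set.range (orderOf : S × R × R → ℕ) = Set.range (orderOf : R × R × R → ℕ) := by
  apply Set.eq_of_subset_of_subset
  · rintro _ ⟨⟨s, r₁, r₂⟩, rfl⟩
    obtain ⟨r, hr⟩ : ∃ r : R, orderOf r = orderOf s := (hR _).2 (by
      rcases (hS _).1 ⟨s, rfl⟩ with h | h | h | h <;> tauto)
    exact ⟨(r, r₁, r₂), by simp only [Prod.orderOf, hr]⟩
  · rintro _ ⟨⟨x, y, z⟩, rfl⟩
    have key : ∀ x y z : R,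
        (∃ s : S, orderOf s = orderOf x) → ∃ w : S × R × R,
          orderOf w = Nat.lcm (orderOf x) (Nat.lcm (orderOf y) (orderOf z)) := by
      rintro x y z ⟨s, hs⟩
      exact ⟨(s, y, z), by simp only [Prod.orderOf, hs]⟩
    have key2 : ∀ x y z : R,
        (orderOf x ∣ a ∧ orderOf y ∣ a ∨ orderOf x ∣ b ∧ orderOf y ∣ b) → ∃ w : S × R × R,
          orderOf w = Nat.lcm (orderOf x) (Nat.lcm (orderOf y) (orderOf z)) := by
      intro x y z h
      obtain ⟨r, hr⟩ : ∃ r : R, orderOf r = Nat.lcm (orderOf x) (orderOf y) := (hR _).2 (by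
        rcases h with h | h
        · exact Or.inr (Or.inr (Or.inr (Or.inr (Or.inl (Nat.lcm_dvd h.1 h.2)))))
        · exact Or.inr (Or.inr (Or.inr (Or.inr (Or.inr (Nat.lcm_dvd h.1 h.2))))))
      refine ⟨(1, r, z), ?_⟩
      simp only [Prod.orderOf, orderOf_one, Nat.lcm_one_left, hr, Nat.lcm_assoc]
    have good : ∀ x : R, (∃ s : S, orderOf s = orderOf x) ∨ orderOf x ∣ a ∨ orderOf x ∣ b := by
      intro x
      rcases (hR _).1 ⟨x, rfl⟩ with h | h | h | h | h | h
      all_goals first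
        | exact Or.inr (Or.inl h) | exact Or.inr (Or.inr h)
        | exact Or.inl ((hS _).2 (by tauto))
    suffices ∃ w : S × R × R,
        orderOf w = Nat.lcm (orderOf x) (Nat.lcm (orderOf y) (orderOf z)) by
      obtain ⟨w, hw⟩ := this
      exact ⟨w, by rw [hw]; simp only [Prod.orderOf]⟩
    have p1 : Nat.lcm (orderOf y) (Nat.lcm (orderOf x) (orderOf z)) =
        Nat.lcm (orderOf x) (Nat.lcm (orderOf y) (orderOf z)) := by
      rw [← Nat.lcm_assoc, Nat.lcm_comm (orderOf y), Nat.lcm_assoc]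
    have p2 : Nat.lcm (orderOf z) (Nat.lcm (orderOf x) (orderOf y)) =
        Nat.lcm (orderOf x) (Nat.lcm (orderOf y) (orderOf z)) := by
      rw [Nat.lcm_comm, Nat.lcm_assoc]
    rcases good x with hx | hx
    · exact key x y z hx
    rcases good y with hy | hy
    · obtain ⟨w, hw⟩ := key y x z hy; exact ⟨w, hw.trans p1⟩
    rcases good z with hz | hz
    · obtain ⟨w, hw⟩ := key z x y hz; exact ⟨w, hw.trans p2⟩
    rcases hx with hx | hx <;> rcases hy with hy | hy
    · exact key2 x y z (Or.inl ⟨hx, hy⟩)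
    · rcases hz with hz | hz
      · obtain ⟨w, hw⟩ := key2 x z y (Or.inl ⟨hx, hz⟩)
        exact ⟨w, hw.trans (by rw [Nat.lcm_comm (orderOf z)])⟩
      · obtain ⟨w, hw⟩ := key2 y z x (Or.inr ⟨hy, hz⟩)
        exact ⟨w, hw.trans (by rw [Nat.lcm_comm (orderOf z), p1])⟩
    · rcases hz with hz | hz
      · obtain ⟨w, hw⟩ := key2 y z x (Or.inl ⟨hy, hz⟩)
        exact ⟨w, hw.trans (by rw [Nat.lcm_comm (orderOf z), p1])⟩
      · obtain ⟨w, hw⟩ := key2 x z y (Or.inr ⟨hx, hz⟩)
        exact ⟨w, hw.trans (by rw [Nat.lcm_comm (orderOf z)])⟩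
    · exact key2 x y z (Or.inr ⟨hx, hy⟩)


/-- Let R be the small Ree group over the field with q = 3^(2m+1) ≥ 27 elements. Then there are finite groups of arbitrarily large order with exactly the same set of element orders as R × R × R. -/
theorem result {K : Type*} [Field K] [Fintype K] {m : ℕ} (hm : 1 ≤ m) (hK : Fintype.card K = 3 ^ (2 * m + 1)) (N : ℕ) :
    ∃ (H : Type) (_ : Group H) (_ : Fintype H), N < Fintype.card H ∧
      Set.range (orderOf : H → ℕ) = Set.range (orderOf : ↥(Cfsg.Lie.twistedG2 K (3 ^ m)) × ↥(Cfsg.Lie.twistedG2 K (3 ^ m)) × ↥(Cfsg.Lie.twistedG2 K (3 ^ m)) → ℕ) := by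
  classical
  haveI : Fact (Nat.Prime 3) := ⟨Nat.prime_three⟩
  let F := GaloisField 3 (2 * m + 1)
  letI : Fintype F := Fintype.ofFinite F
  have hF : Fintype.card F = 3 ^ (2 * m + 1) := by
    rw [← Nat.card_eq_fintype_card]; exact GaloisField.card 3 _ (by omega)
  obtain ⟨c, hcq, -, -⟩ := Lib.ReeTori.exists_data_twisted hm hK
  let S := Grp F (Fin (N + 1))
  haveI : Finite (MulAut (Vec F (Fin (N + 1)))) :=
    Finite.of_injective (fun f => (f : Vec F (Fin (N + 1)) → Vec F (Fin (N + 1)))) DFunLike.coe_injective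
  haveI : Finite S := Finite.of_equiv _ SemidirectProduct.equivProd.symm
  have hS : ∀ d, (∃ g : S, orderOf g = d) ↔
      (d ∣ 6 ∨ d ∣ 9 ∨ d ∣ c.q - 1 ∨ d ∣ (c.q + 1) / 2) := by
    rw [hcq, ← hF]
    intro d
    constructor
    · rintro ⟨g, rfl⟩
      rcases pow_dichotomy (Fin (N + 1)) hF g with h | h | h | h <;>
        have := orderOf_dvd_of_pow_eq_one h <;> tauto
    · have down : ∀ n : ℕ, (∃ g : S, orderOf g = n) → d ∣ n → ∃ g : S, orderOf g = d := by
        rintro n ⟨g, rfl⟩ hd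
        exact ⟨g ^ (orderOf g / d), orderOf_pow_orderOf_div (orderOf_pos g).ne' hd⟩
      rintro (h | h | h | h)
      · exact down _ (exists_six (Fin (N + 1))) h
      · exact down _ (exists_nine (Fin (N + 1))) h
      · exact down _ (exists_pred (Fin (N + 1)) hm hF) h
      · exact down _ (exists_succ (Fin (N + 1)) hF) h
  -- transport the Ree group to a small universe
  let R := Shrink.{0} ↥(Cfsg.Lie.twistedG2 K (3 ^ m))
  let e : R ≃* ↥(Cfsg.Lie.twistedG2 K (3 ^ m)) := Shrink.mulEquiv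
  haveI : Finite R := Finite.of_equiv _ e.symm.toEquiv
  have hR : ∀ d, (∃ g : R, orderOf g = d) ↔
      (d ∣ 6 ∨ d ∣ 9 ∨ d ∣ c.q - 1 ∨ d ∣ (c.q + 1) / 2 ∨ d ∣ c.a ∨ d ∣ c.b) := fun d => by
    rw [← c.orders d]
    constructor
    · rintro ⟨g, rfl⟩; exact ⟨e g, e.orderOf_eq g⟩
    · rintro ⟨g, rfl⟩; exact ⟨e.symm g, e.symm.orderOf_eq g⟩
  letI : Fintype (S × R × R) := Fintype.ofFinite _
  refine ⟨S × R × R, inferInstance, inferInstance, ?_, ?_⟩
  · rw [← Nat.card_eq_fintype_card, Nat.card_prod, Nat.card_prod]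
    have h1 : N < Nat.card S := by
      refine lt_of_lt_of_le ?_ (Nat.card_le_card_of_injective
        (SemidirectProduct.inl : Vec F (Fin (N + 1)) →* S) SemidirectProduct.inl_injective)
      have h2 : 2 ≤ Nat.card (Matrix (Fin 2) (Fin 2) F) :=
        Finite.one_lt_card
      calc N < 2 ^ (N + 1) := Nat.lt_two_pow_self.trans (Nat.pow_lt_pow_right (by norm_num) (by omega))
        _ ≤ Nat.card (Matrix (Fin 2) (Fin 2) F) ^ (N + 1) := Nat.pow_le_pow_left h2 _
        _ = Nat.card (Vec F (Fin (N + 1))) := by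
          rw [Nat.card_congr Multiplicative.toAdd, Nat.card_fun, Nat.card_fin]
    exact lt_of_lt_of_le h1 (Nat.le_mul_of_pos_right _ (Nat.mul_pos Nat.card_pos Nat.card_pos))
  · rw [range_triple c.q c.a c.b hR hS]
    exact (Function.Surjective.range_comp (g := (orderOf : _ → ℕ)) (e.prodCongr (e.prodCongr e)).surjective).symm.trans
      (congrArg Set.range (funext fun g => (e.prodCongr (e.prodCongr e)).orderOf_eq g)) |>.symm

end Cfsg.Agent.S3626
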