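import Cfsg.Statements.S3627
import Cfsg.Agent.Lib.Recog.JankoSpectrum
import Cfsg.Agent.Lib.Recog.FrobProd

set_option autoImplicit false
open Cfsg

namespace Cfsg.Agent.S3627

/-- Let J be the first Janko group. Then there are finite groups of arbitrarily large order with exactly the same set of element orders as J × J × J × J. -/
theorem result (N : ℕ) : ∃ (H : Type) (_ : Group H) (_ : Fintype H), N < Fintype.card H ∧
      Set.range (orderOf : H → ℕ) = Set.range (orderOf : ↥Cfsg.Spor.J1 × ↥Cfsg.Spor.J1 × ↥Cfsg.Spor.J1 × ↥Cfsg.Spor.J1 → ℕ) := by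
  rw [show Set.range (orderOf : ↥Cfsg.Spor.J1 × ↥Cfsg.Spor.J1 × ↥Cfsg.Spor.J1 × ↥Cfsg.Spor.J1 → ℕ) =
    {n | n ∣ 43890 ∧ n ≠ 43890} from Lib.Recog.Janko.spectrum_four]
  exact Lib.Recog.FrobProd.unbounded N

end Cfsg.Agent.S3627
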