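import Cfsg.Statements.S3633
import Cfsg.Agent.Lib.Recog.PrimeGraph

set_option autoImplicit false
open Cfsg
open scoped commutatorElement

namespace Cfsg.Agent.S3633

/-- Let G be a finite group and ρ a set of at least three prime divisors of the order of G that are pairwise non-adjacent in the prime graph (no element of order rs for distinct r, s ∈ ρ). Then at most one prime of ρ divides the order of any given solvable normal subgroup of G; in particular G is not solvable. -/
theorem result {G : Type*} [Group G] [Finite G] (ρ : Finset ℕ) (hρ : 3 ≤ ρ.card) (hc : ((∀ r ∈ ρ, r.Prime ∧ r ∣ Nat.card G) ∧ (∀ r ∈ ρ, ∀ s ∈ ρ, r ≠ s → ¬ ∃ x : G, orderOf x = r * s)))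
    (K : Subgroup G) [K.Normal] (hK : Group.IsSolvable ↥K) :
    (∀ r ∈ ρ, ∀ s ∈ ρ, r ∣ Nat.card ↥K → s ∣ Nat.card ↥K → r = s) ∧ ¬ Group.IsSolvable G := by
  obtain ⟨hρp, hρ'⟩ := hc
  have hpair : ∀ r ∈ ρ, ∀ s ∈ ρ, ∀ u ∈ ρ, r ≠ s → r ≠ u → s ≠ u → ∀ L : Subgroup G, L.Normal →
      Group.IsSolvable L → r ∣ Nat.card L → s ∣ Nat.card L → False := by
    intro r hr s hs u hu hrs hru hsu L hL hsolv hrL hsL
    have := hL
    -- the derived series of `L`, as normal subgroups of `G`
    let D : ℕ → Subgroup G := fun i => (derivedSeries L i).map L.subtype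
    have hDn : ∀ i, (D i).Normal := fun i => inferInstance
    have hD0 : D 0 = L := by simp [D, derivedSeries_zero, ← MonoidHom.range_eq_map]
    obtain ⟨N, hN⟩ := hsolv
    have hDanti : Antitone D := fun a b hab => Subgroup.map_mono (derivedSeries_antitone L hab)
    have hbot : D N = ⊥ := by simp [D, hN]
    have hex : ∀ x ∈ ρ, ∃ i, ¬ x ∣ Nat.card (D i) := fun x hx =>
      ⟨N, by rw [hbot, Subgroup.card_bot]; exact (hρp x hx).1.not_dvd_one⟩
    have hdepth : ∀ x ∈ ρ, ∀ y ∈ ρ, x ≠ y → x ∣ Nat.card L → y ∣ Nat.card L →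
        ∃ i, (x ∣ Nat.card (D i) ∧ ¬ y ∣ Nat.card (D i)) ∨ (y ∣ Nat.card (D i) ∧ ¬ x ∣ Nat.card (D i)) := by
      intro x hx y hy hxy hxL hyL
      by_contra! hh
      classical
      obtain ⟨hx1, hx2⟩ := Nat.find_spec (hex x hx), fun j hj => Nat.find_min (hex x hx) (m := j) hj
      set i := Nat.find (hex x hx)
      have hy1 : ¬ y ∣ Nat.card (D i) := fun h => hx1 ((hh i).2 h)
      obtain ⟨j, hj⟩ : ∃ j, i = j + 1 := ⟨i - 1, by
        rcases Nat.eq_zero_or_pos i with h0 | h0
        · exact absurd hxL (by rw [← hD0, ← h0]; exact hx1)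
        · omega⟩
      have hxj : x ∣ Nat.card (D j) := not_not.1 (hx2 j (by omega))
      have hyj : y ∣ Nat.card (D j) := (hh j).1 hxj
      rw [hj] at hx1 hy1
      let A := derivedSeries L j
      let B := (derivedSeries L (j+1)).subgroupOf A
      have hcard : ∀ n, Nat.card (D n) = Nat.card (derivedSeries L n) := fun n =>
        Nat.card_congr ((derivedSeries L n).equivMapOfInjective _ L.subtype_injective).toEquiv.symm
      have hBcard : Nat.card B = Nat.card (derivedSeries L (j+1)) :=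
        Nat.card_congr (Subgroup.subgroupOfEquivOfLe (derivedSeries_antitone L (Nat.le_succ j))).toEquiv
      have : B.Normal := (inferInstance : ((derivedSeries L (j+1)).subgroupOf A).Normal)
      have hab : ∀ a b : A ⧸ B, a * b = b * a := by
        intro a b
        obtain ⟨a, rfl⟩ := QuotientGroup.mk'_surjective B a
        obtain ⟨b, rfl⟩ := QuotientGroup.mk'_surjective B b
        rw [← map_mul, ← map_mul]
        refine QuotientGroup.eq.2 ?_
        rw [Subgroup.mem_subgroupOf, derivedSeries_succ]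
        rw [show (((a * b)⁻¹ * (b * a) : A) : L) = ⁅((b : A) : L)⁻¹, ((a : A) : L)⁻¹⁆ by
          simp [commutatorElement_def, mul_assoc]]
        exact Subgroup.commutator_mem_commutator (inv_mem b.2) (inv_mem a.2)
      have hdiv : ∀ z, z.Prime → z ∣ Nat.card A → ¬ z ∣ Nat.card (derivedSeries L (j+1)) → z ∣ B.index := by
        intro z hz hzA hzB
        rw [← B.card_mul_index, hBcard] at hzA
        exact (hz.dvd_mul.1 hzA).resolve_left hzB
      obtain ⟨g, hg⟩ := Cfsg.Agent.Lib.Recog.adjacent_of_abelian_section A B hab (hρp x hx).1 (hρp y hy).1 hxy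
        (hdiv x (hρp x hx).1 (hcard j ▸ hxj) (hcard _ ▸ hx1)) (hdiv y (hρp y hy).1 (hcard j ▸ hyj) (hcard _ ▸ hy1))
      exact hρ' x hx y hy hxy ⟨(g : G), by rw [Subgroup.orderOf_coe]; exact hg⟩
    -- no chain K ≤ M separating three of the primes
    have hchain : ∀ x ∈ ρ, ∀ y ∈ ρ, ∀ z ∈ ρ, x ≠ y → x ≠ z → y ≠ z → ∀ i j, i ≤ j →
        x ∣ Nat.card (D j) → ¬ y ∣ Nat.card (D j) → y ∣ Nat.card (D i) → ¬ z ∣ Nat.card (D i) → False := by
      intro x hx y hy z hz hxy hxz hyz i j hij hxj hyj hyi hzi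
      have := hDn i; have := hDn j
      have hcs : Nat.card ((D j).subgroupOf (D i)) = Nat.card (D j) :=
        Nat.card_congr (Subgroup.subgroupOfEquivOfLe (hDanti hij)).toEquiv
      have hy2 : y ∣ (D j).relIndex (D i) := by
        have := ((D j).subgroupOf (D i)).card_mul_index
        rw [hcs] at this
        exact ((hρp y hy).1.dvd_mul.1 (this ▸ hyi)).resolve_left hyj
      have hz2 : z ∣ (D i).index := by
        have := (D i).card_mul_index
        exact ((hρp z hz).1.dvd_mul.1 (this ▸ (hρp z hz).2)).resolve_left hzi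
      rcases Cfsg.Agent.Lib.Recog.three_primes_adjacent (D j) (D i) (hDanti hij) (hρp x hx).1 (hρp y hy).1
        (hρp z hz).1 hxy hxz hyz hxj hy2 hz2 with h | h | h
      exacts [hρ' x hx y hy hxy h, hρ' x hx z hz hxz h, hρ' y hy z hz hyz h]
    classical
    -- depths
    let d : ∀ x ∈ ρ, ℕ := fun x hx => Nat.find (hex x hx)
    have hd1 : ∀ x (hx : x ∈ ρ) i, i < d x hx → x ∣ Nat.card (D i) := fun x hx i hi =>
      not_not.1 (Nat.find_min (hex x hx) hi)
    have hd2 : ∀ x (hx : x ∈ ρ) i, d x hx ≤ i → ¬ x ∣ Nat.card (D i) := fun x hx i hi hd =>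
      Nat.find_spec (hex x hx) (hd.trans (Subgroup.card_dvd_of_le (hDanti hi)))
    have hne : ∀ x (hx : x ∈ ρ) y (hy : y ∈ ρ), x ≠ y → 0 < d x hx → d x hx ≠ d y hy := by
      intro x hx y hy hxy h0 he
      have hxL : x ∣ Nat.card L := hD0 ▸ hd1 x hx 0 h0
      have hyL : y ∣ Nat.card L := hD0 ▸ hd1 y hy 0 (he ▸ h0)
      obtain ⟨i, hi⟩ := hdepth x hx y hy hxy hxL hyL
      rcases lt_or_ge i (d x hx) with h | h
      · exact (hi.elim (fun a => a.2 (hd1 y hy i (he ▸ h))) (fun a => a.2 (hd1 x hx i h)))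
      · exact (hi.elim (fun a => hd2 x hx i h a.1) (fun a => hd2 y hy i (he ▸ h) a.1))
    have hmain : ∀ x (hx : x ∈ ρ) y (hy : y ∈ ρ) z (hz : z ∈ ρ), x ≠ y → x ≠ z → y ≠ z →
        d y hy < d x hx → d z hz < d y hy → False := by
      intro x hx y hy z hz hxy hxz hyz h1 h2
      exact hchain x hx y hy z hz hxy hxz hyz (d z hz) (d y hy) h2.le (hd1 x hx _ h1) (hd2 y hy _ le_rfl)
        (hd1 y hy _ h2) (hd2 z hz _ le_rfl)
    have hr0 : 0 < d r hr := Nat.pos_of_ne_zero fun h => hd2 r hr 0 h.le (hD0.symm ▸ hrL)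
    have hs0 : 0 < d s hs := Nat.pos_of_ne_zero fun h => hd2 s hs 0 h.le (hD0.symm ▸ hsL)
    have e1 := hne r hr s hs hrs hr0
    have e2 := hne r hr u hu hru hr0
    have e3 := hne s hs u hu hsu hs0
    rcases lt_or_gt_of_ne e1 with a | a <;> rcases lt_or_gt_of_ne e2 with b | b <;>
      rcases lt_or_gt_of_ne e3 with c | c <;>
      first
      | omega
      | exact hmain r hr s hs u hu hrs hru hsu a c
      | exact hmain r hr u hu s hs hru hrs hsu.symm b c
      | exact hmain s hs r hr u hu hrs.symm hsu hru a b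
      | exact hmain s hs u hu r hr hsu hrs.symm hru.symm c b
      | exact hmain u hu r hr s hs hru.symm hsu.symm hrs b a
      | exact hmain u hu s hs r hr hsu.symm hru.symm hrs.symm c a
  have hthird : ∀ r ∈ ρ, ∀ s ∈ ρ, ∃ u ∈ ρ, r ≠ u ∧ s ≠ u := by
    intro r hr s hs
    by_contra! hh
    have : ρ ⊆ {r, s} := by
      intro u hu
      rcases eq_or_ne r u with h | h
      · simp [h]
      · simp [hh u hu h]
    have := (Finset.card_le_card this).trans Finset.card_le_two
    omega
  refine ⟨fun r hr s hs hrK hsK => ?_, fun hsolv => ?_⟩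
  · by_contra hrs
    obtain ⟨u, hu, hru, hsu⟩ := hthird r hr s hs
    exact hpair r hr s hs u hu hrs hru hsu K inferInstance hK hrK hsK
  · obtain ⟨r, hr, s, hs, hrs⟩ := Finset.one_lt_card.1 (show 1 < ρ.card by omega)
    obtain ⟨u, hu, hru, hsu⟩ := hthird r hr s hs
    exact hpair r hr s hs u hu hrs hru hsu ⊤ inferInstance inferInstance
      (by rw [Subgroup.card_top]; exact (hρp r hr).2) (by rw [Subgroup.card_top]; exact (hρp s hs).2)

end Cfsg.Agent.S3633
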