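import Cfsg.Statements.S3639
import Cfsg.Agent.Lib.Recog.ModuleExt
import Cfsg.Agent.Lib.Recog.SzFixed

set_option autoImplicit false
open Cfsg

namespace Cfsg.Agent.S3639

/-- Let S be the Suzuki group over the field with q = 2^(2m+1) ≥ 8 elements. Then there are finite groups of arbitrarily large order with the same prime graph as S. -/
theorem result {F : Type*} [Field F] [Fintype F] {m : ℕ} (hm : 1 ≤ m) (hF : Fintype.card F = 2 ^ (2 * m + 1)) (N : ℕ) :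
    ∃ (H : Type) (_ : Group H) (_ : Fintype H), N < Fintype.card H ∧ ((∀ r : ℕ, r.Prime → (r ∣ Nat.card ↥(Cfsg.Lie.Sz F (2 ^ (m + 1))) ↔ r ∣ Nat.card H)) ∧
      (∀ r s : ℕ, r.Prime → s.Prime → r ≠ s → ((∃ x : ↥(Cfsg.Lie.Sz F (2 ^ (m + 1))), orderOf x = r * s) ↔ (∃ y : H, orderOf y = r * s)))) := by
  haveI : Fact (Nat.Prime 2) := ⟨Nat.prime_two⟩
  haveI : CharP F 2 := charP_of_card_eq_prime_pow hF
  let f : ↥(Cfsg.Lie.Sz F (2 ^ (m + 1))) →* Matrix (Fin 4) (Fin 4) F :=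
    (Units.coeHom _).comp (Subgroup.subtype _)
  obtain ⟨J, hJmem, hJ1, hJ2⟩ := Lib.Recog.antiJ_mem_sz (F := F) (2 ^ (m + 1)) (by positivity)
  have hJ : orderOf (⟨J, hJmem⟩ : ↥(Cfsg.Lie.Sz F (2 ^ (m + 1)))) = 2 :=
    orderOf_eq_prime (Subtype.ext hJ2) (fun h => hJ1 (congrArg Subtype.val h))
  have hp := orderOf_dvd_natCard (⟨J, hJmem⟩ : ↥(Cfsg.Lie.Sz F (2 ^ (m + 1))))
  rw [hJ] at hp
  obtain ⟨H, iG, iF, hN, hG⟩ := Lib.Recog.unbounded_sameGraph 2 f hp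
    (fun g v hv h => ⟨2, Subtype.ext
      (Lib.Recog.szCond_pow_four (Lib.Recog.sz_cases g.2) v hv h)⟩) N
  exact ⟨H, iG, iF, by rwa [← Nat.card_eq_fintype_card], hG⟩

end Cfsg.Agent.S3639
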