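import Cfsg.Statements.S3641
import Cfsg.Agent.S0680
import Cfsg.Agent.S0730
import Cfsg.Agent.S0731
import Cfsg.Agent.S0741
import Cfsg.Agent.S0742
import Cfsg.Agent.S2430
import Cfsg.Agent.S2431
import Cfsg.Agent.Lib.Classical.Order
import Cfsg.Agent.Lib.PSLTwo.Tools
import Cfsg.Agent.Lib.Components.PComponent
import Cfsg.Agent.Lib.Uniq.PGroup

set_option autoImplicit false
set_option maxHeartbeats 1000000
open Cfsg
open scoped MatrixGroups

namespace Cfsg.Agent.S3641

open Subgroup

section Sylows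

variable {G H : Type*} [Group G] [Finite G] [Group H] [Finite H] {p : ℕ} [Fact p.Prime]

theorem sylow_eq_of_le_normalizer {P Q : Sylow p G}
    (h : (Q : Subgroup G) ≤ normalizer ((P : Subgroup G) : Set G)) : P = Q := by
  have hs := IsPGroup.to_sup_of_normal_right' Q.2 P.2 h
  exact Sylow.ext ((P.3 hs le_sup_right).symm.trans (Q.3 hs le_sup_left))

theorem syl_le_of_injective (f : H →* G) (hf : Function.Injective f) :
    Nat.card (Sylow p H) ≤ Nat.card (Sylow p G) := by
  choose g hg using fun P : Sylow p H => P.exists_comap_eq_of_injective hf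
  exact Nat.card_le_card_of_injective g fun a b e => Sylow.ext (by rw [← hg a, ← hg b, e])

theorem syl_le_of_surjective (f : G →* H) (hf : Function.Surjective f) :
    Nat.card (Sylow p H) ≤ Nat.card (Sylow p G) :=
  Nat.card_le_card_of_surjective _ (Sylow.mapSurjective_surjective hf p)

theorem syl_le_of_central (f : G →* H) (hf : Function.Surjective f) (hk : f.ker ≤ center G) :
    Nat.card (Sylow p G) ≤ Nat.card (Sylow p H) := by
  refine Nat.card_le_card_of_injective (fun P : Sylow p G => P.mapSurjective hf) fun P Q e => ?_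
  have e' : (P : Subgroup G).map f = (Q : Subgroup G).map f := congrArg (fun S : Sylow p H => (S : Subgroup H)) e
  refine sylow_eq_of_le_normalizer ?_
  calc (Q : Subgroup G) ≤ ((Q : Subgroup G).map f).comap f := le_comap_map _ _
    _ = (P : Subgroup G) ⊔ f.ker := by rw [← e', comap_map_eq]
    _ ≤ _ := sup_le le_normalizer (hk.trans (center_le_normalizer _))

theorem ker_le_normalizer_of_card (f : G →* H) (hf : Function.Surjective f)
    (hc : Nat.card (Sylow p G) = Nat.card (Sylow p H)) (P : Sylow p G) :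
    f.ker ≤ normalizer ((P : Subgroup G) : Set G) := by
  intro k hk
  have hinj : Function.Injective (fun Q : Sylow p G => Q.mapSurjective hf) :=
    ((Nat.bijective_iff_surjective_and_card _).mpr ⟨Sylow.mapSurjective_surjective hf p, hc⟩).1
  refine Sylow.smul_eq_iff_mem_normalizer.1 (hinj (Sylow.ext ?_))
  show ((P : Subgroup G).map (MulAut.conj k).toMonoidHom).map f = (P : Subgroup G).map f
  rw [Subgroup.map_map]
  congr 1
  ext x
  simp [MonoidHom.mem_ker.1 hk]

theorem pCard {Q : Subgroup G} (hQ : IsPGroup p Q) : ∃ n, Nat.card Q = p ^ n := IsPGroup.iff_card.1 hQ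

/-- A prime `r` not dividing `|G / K|` and not equal to `s`, with `n_r = s * m`. -/
theorem no_prime {K : Subgroup G} [K.Normal] {s m r : ℕ} [Fact s.Prime] [Fact r.Prime] (hrs : r ≠ s)
    (hm : ∀ d, d ∣ m → d ≡ 1 [MOD r] → d = 1) (hsm : ¬ s ∣ m) (hm1 : m ≠ 1)
    (hall : ∀ R : Sylow r G, (R : Subgroup G) ≤ K)
    (hnorm : ∀ P : Sylow s G, K ≤ normalizer ((P : Subgroup G) : Set G))
    (hn : Nat.card (Sylow r G) = s * m) : False := by
  have hnK : Nat.card (Sylow r K) = s * m := by
    refine le_antisymm (hn ▸ syl_le_of_injective K.subtype K.subtype_injective) (hn ▸ ?_)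
    refine Nat.card_le_card_of_injective (fun R : Sylow r G => R.subtype (hall R)) fun a b e => ?_
    have e' := congrArg (fun S : Sylow r K => (S : Subgroup K).map K.subtype) e
    simp only [Sylow.coe_subtype, map_subgroupOf_eq_of_le (hall a), map_subgroupOf_eq_of_le (hall b)] at e'
    exact Sylow.ext e'
  obtain ⟨T⟩ : Nonempty (Sylow s K) := inferInstance
  obtain ⟨P, hP⟩ := T.exists_comap_subtype_eq
  haveI hT : (T : Subgroup K).Normal := by
    rw [← hP]
    exact ⟨fun t ht g => (mem_normalizer_iff.1 (hnorm P g.2) _).1 ht⟩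
  obtain ⟨R⟩ : Nonempty (Sylow r K) := inferInstance
  have hcop : (Nat.card (T : Subgroup K)).Coprime r := by
    obtain ⟨a, ha⟩ := pCard T.2
    rw [ha]
    exact Nat.Coprime.pow_left a ((Nat.coprime_primes Fact.out Fact.out).2 hrs.symm)
  set π := QuotientGroup.mk' (T : Subgroup K) with hπ
  set N := normalizer ((R : Subgroup K) : Set K) with hN
  have hNi : N.index = s * m := by rw [← hnK, R.card_eq_index_normalizer]; rfl
  set Rb := R.mapSurjective (QuotientGroup.mk'_surjective (T : Subgroup K)) with hRb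
  have hidx : (N.map π).index = Nat.card (Sylow r (K ⧸ (T : Subgroup K))) := by
    rw [Rb.card_eq_index_normalizer, hN, hπ, Lib.Components.map_normalizer_pGroup R.2 hcop]
    rfl
  have hd1 : (N.map π).index ∣ s * m := hNi ▸ N.index_map_dvd (QuotientGroup.mk'_surjective _)
  have hd2 : ¬ s ∣ (N.map π).index := fun h => by
    have h1 : (N.map π).index ∣ (T : Subgroup K).index := by
      rw [Subgroup.index_eq_card (T : Subgroup K)]
      exact index_dvd_card _
    exact T.not_dvd_index (h.trans h1)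
  have hd3 : (N.map π).index ∣ m :=
    ((Nat.Prime.coprime_iff_not_dvd Fact.out).2 hd2).symm.dvd_of_dvd_mul_left hd1
  have htop : N.map π = ⊤ := index_eq_one.1 (hm _ hd3 (hidx ▸ card_sylow_modEq_one r _))
  have hq : Nat.card (K ⧸ (T : Subgroup K)) ∣ Nat.card N := by
    rw [← Nat.card_congr (Subgroup.topEquiv (G := K ⧸ (T : Subgroup K))).toEquiv, ← htop]
    exact card_map_dvd N π
  obtain ⟨e, he⟩ := hq
  have h1 := card_mul_index N
  have h2 := card_eq_card_quotient_mul_card_subgroup (T : Subgroup K)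
  rw [h2, he, hNi, mul_assoc] at h1
  have h3 : m ∣ Nat.card (T : Subgroup K) := ⟨e * s, by
    rw [← Nat.eq_of_mul_eq_mul_left Nat.card_pos h1]; ring⟩
  obtain ⟨a, ha⟩ := pCard T.2
  rw [ha] at h3
  obtain ⟨i, -, rfl⟩ := (Nat.dvd_prime_pow Fact.out).1 h3
  rcases Nat.eq_zero_or_pos i with rfl | hi
  · exact hm1 (pow_zero s)
  · exact hsm (dvd_pow_self s hi.ne')

/-- A normal subgroup normalizing every Sylow subgroup meets each trivially if the centre is trivial. -/
theorem eq_bot_of_normalizes (hZ : center G = ⊥) (K : Subgroup G) [K.Normal]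
    (hK : ∀ (r : ℕ) (_ : Fact r.Prime) (S : Sylow r G), K ≤ normalizer ((S : Subgroup G) : Set G)) :
    K = ⊥ := by
  by_contra hne
  obtain ⟨r, hr, hrK⟩ := Nat.exists_prime_and_dvd (mt card_eq_one.1 hne)
  haveI := Fact.mk hr
  obtain ⟨T⟩ : Nonempty (Sylow r K) := inferInstance
  obtain ⟨R, hR⟩ := T.exists_comap_subtype_eq
  set N := (R : Subgroup G) ⊓ K with hNdef
  have hTne : (T : Subgroup K) ≠ ⊥ := T.ne_bot_of_dvd_card hrK
  have hNne : N ≠ ⊥ := fun h => hTne <| by
    rw [← hR, eq_bot_iff]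
    intro x hx
    have : (x : G) ∈ N := ⟨hx, x.2⟩
    rw [h, mem_bot] at this
    exact Subtype.ext this
  haveI hT : (T : Subgroup K).Normal := by
    rw [← hR]
    exact ⟨fun t ht g => (mem_normalizer_iff.1 (hK r inferInstance R g.2) _).1 ht⟩
  haveI : (T : Subgroup K).Characteristic := T.characteristic_of_normal hT
  haveI hNn : N.Normal := by
    have e : N = (T : Subgroup K).map K.subtype := by
      rw [← hR]; exact (subgroupOf_map_subtype _ _).symm
    rw [e]; infer_instance
  have hNp : IsPGroup r N := R.2.to_le inf_le_left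
  -- a non-trivial element of `N` centralized by `R`
  have hN' : N.subgroupOf (R : Subgroup G) ≠ ⊥ := by
    rw [Ne, subgroupOf_eq_bot, disjoint_iff, inf_eq_left.2 (inf_le_left : N ≤ _)]
    exact hNne
  have hRp : IsPGroup r ↥(R : Subgroup G) := R.2
  obtain ⟨z, hz, hz1, hzc⟩ := Lib.Uniq.exists_central_mem hRp _ hN'
  have hC : ∀ s : ℕ, ∀ _ : Fact s.Prime, ∃ S : Sylow s G, (S : Subgroup G) ≤ centralizer {(z : G)} := by
    intro s hs
    by_cases hsr : s = r
    · subst hsr
      exact ⟨R, fun x hx => mem_centralizer_singleton_iff.2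
        (congrArg Subtype.val (mem_center_iff.1 hzc ⟨x, hx⟩))⟩
    · obtain ⟨S⟩ : Nonempty (Sylow s G) := inferInstance
      refine ⟨S, fun x hx => mem_centralizer_singleton_iff.2 ?_⟩
      have hzN : (z : G) ∈ N := (mem_subgroupOf.1 hz)
      have h1 : (z : G) * x * (z : G)⁻¹ * x⁻¹ ∈ N ⊓ (S : Subgroup G) := by
        refine mem_inf.2 ⟨?_, mul_mem ((mem_normalizer_iff.1 (hK s hs S hzN.2) x).1 hx) (inv_mem hx)⟩
        rw [mul_assoc _ _ x⁻¹, mul_assoc (z : G), ← mul_assoc x]
        exact mul_mem hzN (hNn.conj_mem _ (inv_mem hzN) x)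
      rw [disjoint_iff.1 (IsPGroup.disjoint_of_ne r s (Ne.symm hsr) N (S : Subgroup G) hNp S.2)] at h1
      have := mem_bot.1 h1
      rw [mul_inv_eq_one, mul_inv_eq_iff_eq_mul] at this
      exact this.symm
  have hdvd : Nat.card G ∣ Nat.card (centralizer {(z : G)}) := by
    refine (Nat.dvd_iff_prime_pow_dvd_dvd _ _).2 fun s k hs hk => ?_
    haveI := Fact.mk hs
    obtain ⟨S, hS⟩ := hC s inferInstance
    exact (S.pow_dvd_card_of_pow_dvd_card hk).trans (card_dvd_of_le hS)
  have htop : centralizer {(z : G)} = ⊤ :=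
    eq_top_of_card_eq _ (Nat.dvd_antisymm (card_subgroup_dvd_card _) hdvd)
  refine hz1 (Subtype.ext ?_)
  have : (z : G) ∈ center G := mem_center_iff.2 fun g =>
    mem_centralizer_singleton_iff.1 (htop ▸ mem_top g)
  rwa [hZ, mem_bot] at this

end Sylows

section Action

variable {G : Type*} [Group G] [Finite G]

instance : Fact (Nat.Prime 17) := ⟨by norm_num⟩

/-- The permutation action on the Sylow `17`-subgroups. -/
abbrev phi (G : Type*) [Group G] : G →* Equiv.Perm (Sylow 17 G) := MulAction.toPermHom G _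

/-- The image. -/
abbrev Hbar (G : Type*) [Group G] : Subgroup (Equiv.Perm (Sylow 17 G)) := (phi G).range

theorem hbar_smul (x : G) (S : (Sylow 17 G)) : ((phi G).rangeRestrict x) • S = x • S := rfl

variable (h18 : Nat.card (Sylow 17 G) = 18)
include h18

theorem compl_card (P : (Sylow 17 G)) : ({P}ᶜ : Set (Sylow 17 G)).ncard = 17 := by
  rw [Set.ncard_compl, Set.ncard_singleton, h18]

theorem orbit_eq {P R : (Sylow 17 G)} (hR : R ≠ P) : MulAction.orbit (P : Subgroup G) R = {P}ᶜ := by
  have hsub : MulAction.orbit (P : Subgroup G) R ⊆ {P}ᶜ := by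
    rintro _ ⟨x, rfl⟩ h
    have h1 : (x : G) • R = P := h
    have h2 : (x : G) • P = P := Sylow.smul_eq_iff_mem_normalizer.2 (le_normalizer x.2)
    exact hR (MulAction.injective (x : G) (h1.trans h2.symm))
  obtain ⟨n, hn⟩ := P.2.card_orbit R
  have hle : (MulAction.orbit (P : Subgroup G) R).ncard ≤ 17 :=
    (Set.ncard_le_ncard hsub).trans (compl_card h18 P).le
  refine Set.eq_of_subset_of_ncard_le hsub ?_
  rw [compl_card h18]
  rcases n with - | n
  · exfalso
    have hss : (MulAction.orbit (P : Subgroup G) R).Subsingleton := by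
      rw [← Set.ncard_le_one_iff_subsingleton, ← Nat.card_coe_set_eq, hn, pow_zero]
    refine hR (sylow_eq_of_le_normalizer fun x hx => ?_)
    exact Sylow.smul_eq_iff_mem_normalizer.1
      (hss (MulAction.mem_orbit R (⟨x, hx⟩ : (P : Subgroup G))) (MulAction.mem_orbit_self R))
  · rw [← Nat.card_coe_set_eq, hn, pow_succ]
    exact Nat.le_mul_of_pos_left 17 (by positivity)

/-- The image of a Sylow subgroup. -/
abbrev Pb (P : Sylow 17 G) : Subgroup (Hbar G) := (P : Subgroup G).map (phi G).rangeRestrict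

theorem pb_smul {P R S : (Sylow 17 G)} (hR : R ≠ P) (hS : S ≠ P) : ∃ u : Pb P, (u : Hbar G) • R = S := by
  have : S ∈ MulAction.orbit (P : Subgroup G) R := by rw [orbit_eq h18 hR]; exact hS
  obtain ⟨x, hx⟩ := this
  exact ⟨⟨_, mem_map_of_mem _ x.2⟩, hx⟩

theorem pb_fix {P : (Sylow 17 G)} (u : Pb P) : (u : Hbar G) • P = P := by
  obtain ⟨x, hx, e⟩ := u.2
  rw [← e, hbar_smul]
  exact Sylow.smul_eq_iff_mem_normalizer.2 (le_normalizer hx)

theorem pb_card (P : (Sylow 17 G)) : Nat.card (Pb P) = 17 := by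
  have hp : IsPGroup 17 (Pb P) := P.2.map _
  obtain ⟨n, hn⟩ := pCard hp
  have hd : Nat.card (Pb P) ∣ Nat.factorial 18 := by
    refine (card_subgroup_dvd_card _).trans ((card_subgroup_dvd_card (Hbar G)).trans ?_)
    rw [Nat.card_perm, h18]
  have h2 : n < 2 := by
    by_contra h
    have : 17 ^ 2 ∣ Nat.factorial 18 := (pow_dvd_pow 17 (not_lt.1 h)).trans (hn ▸ hd)
    norm_num [Nat.factorial] at this
  obtain ⟨R, hR⟩ : ∃ R : (Sylow 17 G), R ≠ P := by
    haveI : Nontrivial (Sylow 17 G) := Finite.one_lt_card_iff_nontrivial.1 (by omega)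
    exact exists_ne P
  have h1 : 17 ≤ Nat.card (Pb P) := by
    refine (compl_card h18 P).symm.le.trans (le_trans (Set.ncard_le_ncard (t := Set.range fun u : Pb P => (u : Hbar G) • R) ?_) ?_)
    · intro S hS
      exact pb_smul h18 hR hS
    · rw [← Nat.card_coe_set_eq]
      exact Nat.card_le_card_of_surjective _ Set.rangeFactorization_surjective
  interval_cases n <;> simp_all

theorem pb_regular {P R : (Sylow 17 G)} (hR : R ≠ P) (u v : Pb P) (e : (u : Hbar G) • R = (v : Hbar G) • R) : u = v := by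
  let f : Pb P → {S : (Sylow 17 G) // S ≠ P} := fun u => ⟨(u : Hbar G) • R, fun h =>
    hR (MulAction.injective (u : Hbar G) (h.trans (pb_fix h18 u).symm))⟩
  have hb : Function.Bijective f := (Nat.bijective_iff_surjective_and_card f).2 ⟨fun ⟨S, hS⟩ => by
    obtain ⟨u, hu⟩ := pb_smul h18 hR hS
    exact ⟨u, Subtype.ext hu⟩, by
      rw [pb_card h18]
      exact (compl_card h18 P).symm.trans (Nat.card_coe_set_eq _).symm⟩
  exact hb.1 (Subtype.ext e)

theorem pb_normalizes {P : (Sylow 17 G)} {g : Hbar G} (hg : g • P = P) :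
    g ∈ normalizer ((Pb P : Subgroup (Hbar G)) : Set (Hbar G)) := by
  obtain ⟨x, rfl⟩ := (phi G).rangeRestrict_surjective g
  rw [hbar_smul, Sylow.smul_eq_iff_mem_normalizer] at hg
  exact le_normalizer_map _ (mem_map_of_mem _ hg)

theorem fixes_of_commute {P R : (Sylow 17 G)} (hR : R ≠ P) {g : Hbar G} (hP : g • P = P) (hgR : g • R = R)
    (hc : ∀ u : Pb P, g * u = u * g) : g = 1 := by
  refine eq_of_smul_eq_smul (α := (Sylow 17 G)) fun S => ?_
  rw [one_smul]
  rcases eq_or_ne S P with rfl | hS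
  · exact hP
  · obtain ⟨u, rfl⟩ := pb_smul h18 hR hS
    rw [← mul_smul, hc u, mul_smul, hgR]

theorem three_points {g : Hbar G} {a b c : (Sylow 17 G)} (hab : a ≠ b) (hbc : b ≠ c) (hac : a ≠ c) (ha : g • a = a)
    (hb : g • b = b) (hc : g • c = c) : g = 1 := by
  obtain ⟨u, hu⟩ := pb_smul h18 hab.symm hac.symm
  have hn := pb_normalizes h18 ha
  have hmem : g * u * g⁻¹ ∈ Pb a := (mem_normalizer_iff.1 hn _).1 u.2
  have he : (⟨_, hmem⟩ : Pb a) = u := pb_regular h18 hab.symm _ _ (by
    show (g * u * g⁻¹) • b = _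
    rw [mul_smul, inv_smul_eq_iff.2 hb.symm, mul_smul, hu, hc])
  have hcu : Commute g (u : Hbar G) := mul_inv_eq_iff_eq_mul.1 (congrArg Subtype.val he)
  have hu1 : u ≠ 1 := fun h => hbc (by rw [h] at hu; simpa using hu)
  refine fixes_of_commute h18 hab.symm ha hb fun v => ?_
  haveI := Fact.mk (show Nat.Prime 17 by norm_num)
  obtain ⟨i, hi⟩ := mem_zpowers_iff.1 (zpowers_eq_top_of_prime_card (pb_card h18 a) hu1 ▸ mem_top v :
    v ∈ zpowers u)
  rw [← hi, SubgroupClass.coe_zpow]
  exact (hcu.zpow_right i).eq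

theorem two_trans : MulAction.IsMultiplyPretransitive (Hbar G) (Sylow 17 G) 2 := by
  rw [MulAction.is_two_pretransitive_iff]
  intro a b c d hab hcd
  obtain ⟨x, hx⟩ := MulAction.exists_smul_eq G a c
  have hb : ((phi G).rangeRestrict x) • b ≠ c := fun h =>
    hab (MulAction.injective ((phi G).rangeRestrict x) (hx.trans h.symm))
  obtain ⟨u, hu⟩ := pb_smul h18 hb hcd.symm
  refine ⟨(u : Hbar G) * (phi G).rangeRestrict x, ?_, ?_⟩
  · rw [mul_smul, hbar_smul, hx, pb_fix h18]
  · rw [mul_smul, hu]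

theorem stab_dvd {a b : (Sylow 17 G)} (hab : a ≠ b) :
    Nat.card ↥(MulAction.stabilizer (Hbar G) a ⊓ MulAction.stabilizer (Hbar G) b) ∣ 16 := by
  set D := MulAction.stabilizer (Hbar G) a ⊓ MulAction.stabilizer (Hbar G) b with hD
  have hle : D ≤ normalizer ((Pb a : Subgroup (Hbar G)) : Set (Hbar G)) := fun g hg => pb_normalizes h18 (mem_inf.1 hg).1
  let f : D →* MulAut (Pb a) := (Pb a).normalizerMonoidHom.comp (inclusion hle)
  have hf : Function.Injective f := by
    rw [injective_iff_map_eq_one]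
    intro d hd
    have hk : inclusion hle d ∈ (Pb a).normalizerMonoidHom.ker := hd
    rw [normalizerMonoidHom_ker, mem_subgroupOf, mem_centralizer_iff] at hk
    exact Subtype.ext (fixes_of_commute h18 hab.symm (mem_inf.1 d.2).1 (mem_inf.1 d.2).2
      fun u => (hk u u.2).symm)
  haveI : Fact (Nat.Prime 17) := ⟨by norm_num⟩
  haveI := isCyclic_of_prime_card (pb_card h18 a)
  have := card_dvd_of_injective f hf
  rwa [IsCyclic.card_mulAut, pb_card h18, Nat.totient_prime (by norm_num)] at this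

theorem no_regular {N : Subgroup (Hbar G)} (hN : N.Normal) (ht : MulAction.IsPretransitive N (Sylow 17 G)) :
    ∃ a : (Sylow 17 G), MulAction.stabilizer N a ≠ ⊥ := by
  by_contra! hreg
  haveI := hN
  haveI := two_trans h18
  obtain ⟨a⟩ : Nonempty (Sylow 17 G) := inferInstance
  have hinj : ∀ n m : N, n • a = m • a → n = m := fun n m e => by
    have : m⁻¹ * n ∈ MulAction.stabilizer N a := by rw [MulAction.mem_stabilizer_iff, mul_smul, e, inv_smul_smul]
    rw [hreg a, mem_bot, inv_mul_eq_one] at this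
    exact this.symm
  have hcard : Nat.card N = 18 := by
    rw [← h18]
    exact Nat.card_eq_of_bijective (fun n : N => n • a) ⟨hinj, fun S => MulAction.exists_smul_eq N a S⟩
  haveI := Fact.mk (show Nat.Prime 2 by norm_num)
  haveI := Fact.mk (show Nat.Prime 3 by norm_num)
  obtain ⟨n, hn⟩ := exists_prime_orderOf_dvd_card' (G := N) 2 (by rw [hcard]; norm_num)
  obtain ⟨m, hm⟩ := exists_prime_orderOf_dvd_card' (G := N) 3 (by rw [hcard]; norm_num)
  have hne : ∀ u : N, u ≠ 1 → a ≠ u • a := fun u hu h => hu (hinj u 1 (by rw [← h, one_smul]))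
  obtain ⟨g, hga, hg⟩ := MulAction.is_two_pretransitive_iff.1 (two_trans h18)
    (hne n (fun h => by rw [h, orderOf_one] at hn; norm_num at hn))
    (hne m (fun h => by rw [h, orderOf_one] at hm; norm_num at hm))
  let w : N := ⟨g * n * g⁻¹, hN.conj_mem _ n.2 g⟩
  have hw : w = m := hinj w m (by
    show (g * (n : Hbar G) * g⁻¹) • a = _
    rw [mul_smul, mul_smul, inv_smul_eq_iff.2 hga.symm]
    exact hg)
  have : orderOf (w : Hbar G) = orderOf (n : Hbar G) := orderOf_injective (MulAut.conj g).toMonoidHom (MulAut.conj g).injective (n : Hbar G)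
  rw [hw, orderOf_coe, orderOf_coe, hn, hm] at this
  norm_num at this

/-- The image is `PSL(2,17)` or `PGL(2,17)`. -/
theorem image_iso [Fintype (Sylow 17 G)] {F : Type*} [Field F] [Fintype F] (hF : Fintype.card F = 17) :
    Nonempty (Hbar G ≃* Matrix.ProjectiveSpecialLinearGroup (Fin 2) F) ∨ Nonempty (Hbar G ≃* PGL(2, F)) := by
  classical
  have hc : Fintype.card (Sylow 17 G) = 18 := by rw [← Nat.card_eq_fintype_card]; exact h18
  haveI := two_trans h18
  by_cases hs : ∀ a b : (Sylow 17 G), a ≠ b → MulAction.stabilizer (Hbar G) a ⊓ MulAction.stabilizer (Hbar G) b = ⊥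
  · exfalso
    obtain ⟨p, j, hp, hj, hpj, -⟩ := Cfsg.Agent.S0680.result (Hbar G) (fun x => by
      rw [eq_bot_iff, ← hs (x 0) (x 1) (fun h => by simpa using x.injective h)]
      intro g hg
      have hg' : ∀ i, g • x i = x i := fun i => congrArg (fun y : Fin 2 ↪ (Sylow 17 G) => y i) hg
      exact mem_inf.2 ⟨hg' 0, hg' 1⟩) (by omega)
    rw [hc] at hpj
    have h2 : p = 2 := ((Nat.prime_dvd_prime_iff_eq (by norm_num) hp).1
      ((show Nat.Prime 2 by norm_num).dvd_of_dvd_pow (hpj ▸ by norm_num : 2 ∣ p ^ j))).symm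
    have h3 : p = 3 := ((Nat.prime_dvd_prime_iff_eq (by norm_num) hp).1
      ((show Nat.Prime 3 by norm_num).dvd_of_dvd_pow (hpj ▸ by norm_num : 3 ∣ p ^ j))).symm
    omega
  push_neg at hs
  obtain ⟨a, b, hab, hD⟩ := hs
  have hd := stab_dvd h18 hab
  have hne : 1 < Nat.card ↥(MulAction.stabilizer (Hbar G) a ⊓ MulAction.stabilizer (Hbar G) b) :=
    (one_lt_card_iff_ne_bot _).2 hD
  have hZ : Cfsg.IsZassenhausGroup (Hbar G) (Sylow 17 G) := by
    refine ⟨inferInstance, two_trans h18, fun g a b c h1 h2 h3 => three_points h18 h1 h2 h3, ?_,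
      fun N hN ht => no_regular h18 hN ht⟩
    obtain ⟨⟨g, hg⟩, hg1⟩ := ne_bot_iff_exists_ne_one.1 hD
    exact ⟨g, fun h => hg1 (Subtype.ext h), a, b, hab, (mem_inf.1 hg).1, (mem_inf.1 hg).2⟩
  obtain ⟨i, hi4, hi⟩ := (Nat.dvd_prime_pow (show Nat.Prime 2 by norm_num)).1 (show _ ∣ 2 ^ 4 from hd)
  have hev : Even (Nat.card ↥(MulAction.stabilizer (Hbar G) a ⊓ MulAction.stabilizer (Hbar G) b)) := by
    rw [hi]
    rcases i with - | i
    · omega
    · exact ⟨2 ^ i, by ring⟩
  have h8 := Cfsg.Agent.S0741.result hZ hab hev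
  rcases (show i = 3 ∨ i = 4 by rw [hi, hc] at h8; interval_cases i <;> omega) with rfl | rfl
  · left
    obtain ⟨p, f, K, _, _, -, -, hK, hK2, ⟨e⟩⟩ := Cfsg.Agent.S0742.result hZ hab hev (by rw [hi, hc]; norm_num)
    obtain ⟨e'⟩ := Cfsg.Agent.Lib.PSLTwo.psl_congr_card (K := K) (K' := F) (by omega)
    exact ⟨e.trans e'⟩
  · right
    set D := MulAction.stabilizer (Hbar G) a ⊓ MulAction.stabilizer (Hbar G) b with hDdef
    have horb : ∀ c e : (Sylow 17 G), c ≠ a → c ≠ b → e ≠ a → e ≠ b → ∃ d ∈ D, d • c = e := by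
      intro c e hca hcb hea heb
      let f : D → {S : (Sylow 17 G) // S ∈ ({a, b} : Set (Sylow 17 G))ᶜ} := fun d => ⟨(d : Hbar G) • c, fun h => by
        rcases h with h | h
        · exact hca (MulAction.injective (d : Hbar G) (h.trans (mem_inf.1 d.2).1.symm))
        · exact hcb (MulAction.injective (d : Hbar G) ((Set.mem_singleton_iff.1 h).trans (mem_inf.1 d.2).2.symm))⟩
      have hinj : Function.Injective f := fun d d' e => Subtype.ext <| inv_mul_eq_one.1 <| by
        have e' : (d : Hbar G) • c = (d' : Hbar G) • c := congrArg Subtype.val e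
        refine three_points h18 hab hcb.symm hca.symm ?_ ?_ ?_
        · exact (MulAction.stabilizer (Hbar G) a).mul_mem (inv_mem (mem_inf.1 d.2).1) (mem_inf.1 d'.2).1
        · exact (MulAction.stabilizer (Hbar G) b).mul_mem (inv_mem (mem_inf.1 d.2).2) (mem_inf.1 d'.2).2
        · rw [mul_smul, ← e', inv_smul_smul]
      have hsur : Function.Surjective f := ((Nat.bijective_iff_injective_and_card f).2 ⟨hinj, by
        rw [hi]
        refine Eq.trans ?_ (Nat.card_coe_set_eq _).symm
        rw [Set.ncard_compl, Set.ncard_pair hab, h18]; norm_num⟩).2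
      obtain ⟨d, hd⟩ := hsur ⟨e, by simp [hea, heb]⟩
      exact ⟨d, d.2, congrArg Subtype.val hd⟩
    have h3 : MulAction.IsMultiplyPretransitive (Hbar G) (Sylow 17 G) 3 := by
      rw [MulAction.isMultiplyPretransitive_iff]
      intro x y
      have h01 : ∀ z : Fin 3 ↪ (Sylow 17 G), z 0 ≠ z 1 := fun z h => by simpa using z.injective h
      obtain ⟨g, hg0, hg1⟩ := MulAction.is_two_pretransitive_iff.1 (two_trans h18) (h01 x) hab
      obtain ⟨k, hk0, hk1⟩ := MulAction.is_two_pretransitive_iff.1 (two_trans h18) (h01 y) hab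
      have hx2 : ∀ (z : Fin 3 ↪ (Sylow 17 G)) (t : Hbar G), t • z 0 = a → t • z 1 = b → t • z 2 ≠ a ∧ t • z 2 ≠ b := by
        intro z t h0 h1
        constructor
        · intro h; exact absurd (z.injective (MulAction.injective t (h.trans h0.symm))) (by decide)
        · intro h; exact absurd (z.injective (MulAction.injective t (h.trans h1.symm))) (by decide)
      obtain ⟨d, hd, hd2⟩ := horb _ _ (hx2 x g hg0 hg1).1 (hx2 x g hg0 hg1).2 (hx2 y k hk0 hk1).1 (hx2 y k hk0 hk1).2
      refine ⟨k⁻¹ * (d * g), Function.Embedding.ext fun j => ?_⟩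
      show (k⁻¹ * (d * g)) • x j = y j
      rw [mul_smul, mul_smul, inv_smul_eq_iff]
      fin_cases j
      · show d • g • x 0 = k • y 0
        rw [hg0, hk0]; exact (mem_inf.1 hd).1
      · show d • g • x 1 = k • y 1
        rw [hg1, hk1]; exact (mem_inf.1 hd).2
      · exact hd2
    have hsharp : ∀ x : Fin 3 ↪ (Sylow 17 G), MulAction.stabilizer (Hbar G) x = ⊥ := fun x => by
      rw [eq_bot_iff]
      intro g hg
      have hg' : ∀ i, g • x i = x i := fun i => congrArg (fun y : Fin 3 ↪ (Sylow 17 G) => y i) hg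
      exact three_points h18 (a := x 0) (b := x 1) (c := x 2) (fun h => by simpa using x.injective h)
        (fun h => absurd (x.injective h) (by decide)) (fun h => absurd (x.injective h) (by decide))
        (hg' 0) (hg' 1) (hg' 2)
    obtain ⟨K, _, _, hK, ⟨e⟩⟩ := Cfsg.Agent.S0730.result (p := 17) (f := 1) (by norm_num) (by norm_num)
      odd_one (by rw [hc]; norm_num) (Hbar G) h3 hsharp
    obtain ⟨e'⟩ := Cfsg.Agent.Lib.PSLTwo.pgl_congr_card (K := K) (K' := F) (by omega)
    exact ⟨e.trans e'⟩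

end Action

section Counts

variable {F : Type*} [Field F] [Fintype F] (hF : Fintype.card F = 17)
include hF

theorem card_sl : Nat.card (Matrix.SpecialLinearGroup (Fin 2) F) = 4896 := by
  rw [Lib.Classical.card_SL_two, hF]; norm_num

theorem syl_sl_three [Fact (Nat.Prime 3)] :
    136 ≤ Nat.card (Sylow 3 (Matrix.ProjectiveSpecialLinearGroup (Fin 2) F)) := by
  refine le_trans (le_of_eq ?_) (syl_le_of_central (QuotientGroup.mk' _) (QuotientGroup.mk'_surjective _)
    (by rw [QuotientGroup.ker_mk']))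
  obtain ⟨P⟩ : Nonempty (Sylow 3 (Matrix.SpecialLinearGroup (Fin 2) F)) := inferInstance
  have h := ((Cfsg.Agent.S2430.result (hF ▸ ⟨8, rfl⟩) 3 (by norm_num) P).2 (by rw [hF]; norm_num)).2.2
  have h2 := card_mul_index (normalizer ((P : Subgroup (Matrix.SpecialLinearGroup (Fin 2) F)) : Set (Matrix.SpecialLinearGroup (Fin 2) F)))
  rw [h, card_sl hF, hF] at h2
  rw [P.card_eq_index_normalizer]
  change 136 = (normalizer ((P : Subgroup (Matrix.SpecialLinearGroup (Fin 2) F)) : Set (Matrix.SpecialLinearGroup (Fin 2) F))).index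
  omega

theorem syl_sl_two [Fact (Nat.Prime 2)] :
    153 ≤ Nat.card (Sylow 2 (Matrix.ProjectiveSpecialLinearGroup (Fin 2) F)) := by
  refine le_trans (le_of_eq ?_) (syl_le_of_central (QuotientGroup.mk' _) (QuotientGroup.mk'_surjective _)
    (by rw [QuotientGroup.ker_mk']))
  obtain ⟨P⟩ : Nonempty (Sylow 2 (Matrix.SpecialLinearGroup (Fin 2) F)) := inferInstance
  have h := (Cfsg.Agent.S2431.result (hF ▸ ⟨8, rfl⟩) P).2.1 (by rw [hF]; norm_num)
  have hd := P.not_dvd_index
  have h2 := card_mul_index (P : Subgroup (Matrix.SpecialLinearGroup (Fin 2) F))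
  obtain ⟨n, hn⟩ := pCard P.2
  rw [P.card_eq_index_normalizer]
  refine Eq.trans ?_ (congrArg Subgroup.index h).symm
  rw [hn, card_sl hF] at h2
  have hn5 : n ≤ 5 := by
    by_contra hn6
    have : 2 ^ 6 ∣ 4896 := h2 ▸ dvd_mul_of_dvd_left (pow_dvd_pow 2 (by omega)) _
    norm_num at this
  interval_cases n <;> omega

theorem card_pgl : Nat.card (PGL(2, F)) = 4896 := by
  have h := (Lib.Classical.card_GL_eq_units_mul_card_PGL (R := F) (ι := Fin 2)).symm.trans
    Lib.Classical.card_GL_eq_units_mul_card_SL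
  rw [card_sl hF] at h
  exact Nat.eq_of_mul_eq_mul_left Nat.card_pos h

theorem card_psl : Nat.card (Matrix.ProjectiveSpecialLinearGroup (Fin 2) F) ∣ 4896 := by
  rw [← card_sl hF, Lib.Classical.card_SL_eq_gcd_mul_card_PSL]
  exact dvd_mul_left _ _

end Counts

/-- Let G be a finite group with trivial centre whose set of Sylow numbers (numbers of Sylow r-subgroups, r over the prime divisors of its order) is exactly {18, 136, 153}. Then G is isomorphic to PSL(2, 17) or to PGL(2, 17). -/
theorem result {G : Type*} [Group G] [Finite G] (hZ : Subgroup.center G = ⊥) (hNS : {c : ℕ | ∃ r : ℕ, r.Prime ∧ r ∣ Nat.card G ∧ c = Nat.card (Sylow r G)} = ({18, 136, 153} : Set ℕ))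
    {F : Type*} [Field F] [Fintype F] (hF : Fintype.card F = 17) :
    Nonempty (G ≃* Matrix.ProjectiveSpecialLinearGroup (Fin 2) F) ∨ Nonempty (G ≃* (GL (Fin 2) F ⧸ Subgroup.center (GL (Fin 2) F))) := by
  classical
  haveI := Fact.mk (show Nat.Prime 2 by norm_num)
  haveI := Fact.mk (show Nat.Prime 3 by norm_num)
  haveI := Fact.mk (show Nat.Prime 17 by norm_num)
  have hval : ∀ r : ℕ, r.Prime → r ∣ Nat.card G →
      Nat.card (Sylow r G) = 18 ∨ Nat.card (Sylow r G) = 136 ∨ Nat.card (Sylow r G) = 153 := by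
    intro r hr hrd
    have hm : Nat.card (Sylow r G) ∈ {c : ℕ | ∃ r : ℕ, r.Prime ∧ r ∣ Nat.card G ∧ c = Nat.card (Sylow r G)} :=
      ⟨r, hr, hrd, rfl⟩
    rwa [hNS, Set.mem_insert_iff, Set.mem_insert_iff, Set.mem_singleton_iff] at hm
  have hdv : ∀ r n : ℕ, r.Prime → Nat.card (Sylow r G) = n + 1 → r ∣ n := by
    intro r n hr hn
    haveI := Fact.mk hr
    have h := card_sylow_modEq_one r G
    rw [hn] at h
    exact Nat.modEq_zero_iff_dvd.1 (Nat.ModEq.add_right_cancel' 1 (h.trans (by rfl : 1 ≡ 0 + 1 [MOD r])))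
  have h18 : Nat.card (Sylow 17 G) = 18 := by
    obtain ⟨r, hr, -, e⟩ : (18 : ℕ) ∈ {c : ℕ | ∃ r : ℕ, r.Prime ∧ r ∣ Nat.card G ∧ c = Nat.card (Sylow r G)} := by
      rw [hNS]; simp
    obtain rfl := (Nat.prime_dvd_prime_iff_eq hr (by norm_num)).1 (hdv r 17 hr (by omega))
    exact e.symm
  obtain ⟨P0⟩ : Nonempty (Sylow 17 G) := inferInstance
  have h18d : 18 ∣ Nat.card G := by
    rw [← h18, P0.card_eq_index_normalizer]; exact index_dvd_card _
  have h3 : Nat.card (Sylow 3 G) = 136 := by
    rcases hval 3 (by norm_num) ((show 3 ∣ 18 by norm_num).trans h18d) with h | h | h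
    · exact absurd (hdv 3 17 (by norm_num) h) (by norm_num)
    · exact h
    · exact absurd (hdv 3 152 (by norm_num) h) (by norm_num)
  have h2 : Nat.card (Sylow 2 G) = 153 := by
    rcases hval 2 (by norm_num) ((show 2 ∣ 18 by norm_num).trans h18d) with h | h | h
    · exact absurd (hdv 2 17 (by norm_num) h) (by norm_num)
    · exact absurd (hdv 2 135 (by norm_num) h) (by norm_num)
    · exact h
  haveI : Fintype (Sylow 17 G) := Fintype.ofFinite _
  have hiso := image_iso h18 hF
  -- counting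
  obtain ⟨j, hj, hcard⟩ : ∃ j : Matrix.ProjectiveSpecialLinearGroup (Fin 2) F →* Hbar G,
      Function.Injective j ∧ Nat.card (Hbar G) ∣ 4896 := by
    rcases hiso with ⟨⟨e⟩⟩ | ⟨⟨e⟩⟩
    · exact ⟨e.symm.toMonoidHom, e.symm.injective, Nat.card_congr e.toEquiv ▸ card_psl hF⟩
    · exact ⟨e.symm.toMonoidHom.comp Matrix.ProjectiveSpecialLinearGroup.toPGL,
        e.symm.injective.comp Matrix.ProjectiveSpecialLinearGroup.toPGL_injective,
        (Nat.card_congr e.toEquiv).trans (card_pgl hF) |>.dvd⟩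
  set f := (phi G).rangeRestrict with hf
  have hfs : Function.Surjective f := (phi G).rangeRestrict_surjective
  have hn17 : ∀ S : Sylow 17 G, f.ker ≤ normalizer ((S : Subgroup G) : Set G) := fun S x hx => by
    have : (f x) • S = S := by rw [MonoidHom.mem_ker.1 hx, one_smul]
    exact Sylow.smul_eq_iff_mem_normalizer.1 this
  have hK : f.ker = ⊥ := by
    refine eq_bot_of_normalizes hZ _ fun r hr S => ?_
    by_cases hrd : r ∣ Nat.card G
    swap
    · have hS : (S : Subgroup G) = ⊥ := by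
        obtain ⟨n, hn⟩ := pCard S.2
        rcases n with - | n
        · exact card_eq_one.1 (hn.trans (pow_zero r))
        · exact absurd ((dvd_pow_self r n.succ_ne_zero).trans (hn ▸ card_subgroup_dvd_card _)) hrd
      intro x _
      rw [hS, mem_normalizer_iff]
      intro y
      simp [mem_bot]
    have hex : ∀ (q m : ℕ), r = q → q ≠ 17 → ¬ q ∣ 4896 → Nat.card (Sylow r G) = 17 * m →
        (∀ d, d ∣ m → d ≡ 1 [MOD q] → d = 1) → ¬ 17 ∣ m → m ≠ 1 → False := by
      rintro q m rfl hq17 hq hn hm h17 hm1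
      refine no_prime (K := f.ker) (s := 17) hq17 hm h17 hm1 (fun R x hx => MonoidHom.mem_ker.2 ?_) hn17 hn
      obtain ⟨n, hn'⟩ := pCard (R.2.map f)
      rcases n with - | n
      · exact mem_bot.1 (card_eq_one.1 (hn'.trans (pow_zero r)) ▸ mem_map_of_mem f hx)
      · exact absurd ((dvd_pow_self r n.succ_ne_zero).trans
          ((hn' ▸ card_subgroup_dvd_card _).trans hcard)) hq
    rcases hval r hr.out hrd with h | h | h
    · obtain rfl := (Nat.prime_dvd_prime_iff_eq hr.out (by norm_num)).1 (hdv r 17 hr.out h)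
      exact hn17 S
    · have hd := hdv r 135 hr.out h
      have : r = 3 ∨ r = 5 := by
        have h' : r ∣ 3 ^ 3 * 5 := hd
        rcases (Nat.Prime.dvd_mul hr.out).1 h' with h' | h'
        · exact Or.inl ((Nat.prime_dvd_prime_iff_eq hr.out (by norm_num)).1 (hr.out.dvd_of_dvd_pow h'))
        · exact Or.inr ((Nat.prime_dvd_prime_iff_eq hr.out (by norm_num)).1 h')
      rcases this with rfl | rfl
      · refine ker_le_normalizer_of_card f hfs (le_antisymm ?_ (syl_le_of_surjective f hfs)) S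
        rw [h]
        exact (syl_sl_three hF).trans (syl_le_of_injective j hj)
      · refine (hex 5 8 rfl (by norm_num) (by norm_num) (by rw [h]) ?_ (by norm_num) (by norm_num)).elim
        intro d hd hd1
        have := Nat.le_of_dvd (by norm_num) hd
        interval_cases d <;> simp_all (config := {decide := true})
    · have hd := hdv r 152 hr.out h
      have : r = 2 ∨ r = 19 := by
        have h' : r ∣ 2 ^ 3 * 19 := hd
        rcases (Nat.Prime.dvd_mul hr.out).1 h' with h' | h'
        · exact Or.inl ((Nat.prime_dvd_prime_iff_eq hr.out (by norm_num)).1 (hr.out.dvd_of_dvd_pow h'))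
        · exact Or.inr ((Nat.prime_dvd_prime_iff_eq hr.out (by norm_num)).1 h')
      rcases this with rfl | rfl
      · refine ker_le_normalizer_of_card f hfs (le_antisymm ?_ (syl_le_of_surjective f hfs)) S
        rw [h]
        exact (syl_sl_two hF).trans (syl_le_of_injective j hj)
      · refine (hex 19 9 rfl (by norm_num) (by norm_num) (by rw [h]) ?_ (by norm_num) (by norm_num)).elim
        intro d hd hd1
        have := Nat.le_of_dvd (by norm_num) hd
        interval_cases d <;> simp_all (config := {decide := true})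
  let eG : G ≃* Hbar G := MulEquiv.ofBijective f ⟨(MonoidHom.ker_eq_bot_iff f).1 hK, hfs⟩
  rcases hiso with ⟨⟨e⟩⟩ | ⟨⟨e⟩⟩
  · exact Or.inl ⟨eG.trans e⟩
  · exact Or.inr ⟨eG.trans e⟩

end Cfsg.Agent.S3641
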