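import Cfsg.Statements.S3663
import Cfsg.Agent.Lib.Recog.U34Module
-- import your own Cfsg.Agent.* helpers here

set_option autoImplicit false
open Cfsg

namespace Cfsg.Agent.S3663

/-- The prime graph of a finite group has the prime divisors of its order as vertices, two distinct primes p, q being joined when the group has an element of order pq; two groups have the same prime graph when they have the same prime divisors and the same joined pairs. Let F be the field with 16 elements and L = PSU(3,4) realised over F. There are finite groups of arbitrarily large order with the same prime graph as L. -/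
theorem result {F : Type*} [Field F] [Fintype F] (hF : Fintype.card F = 16) (N : ℕ) :
    ∃ (H : Type) (_ : Group H) (_ : Finite H), N < Nat.card H ∧
      ((∀ p : ℕ, p.Prime → (p ∣ Nat.card (Cfsg.PSU 3 F 4) ↔ p ∣ Nat.card H)) ∧
      (∀ p q : ℕ, p.Prime → q.Prime → p ≠ q → ((∃ g : (Cfsg.PSU 3 F 4), orderOf g = p * q) ↔ (∃ g : H, orderOf g = p * q)))) := by
  obtain ⟨e⟩ := Cfsg.Agent.Lib.Recog.U34.exists_iso hF
  refine ⟨Cfsg.Agent.Lib.Recog.U34.H (N + 1), inferInstance, inferInstance, ?_, fun p hp => ?_,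
    fun p q hp hq hpq => ?_⟩
  · rw [Cfsg.Agent.Lib.Recog.U34.card_H]
    calc N < 5 ^ (N + 1) := lt_of_lt_of_le (Nat.lt_succ_self N) (Nat.lt_pow_self (by norm_num)).le
      _ ≤ 5 ^ (12 * (N + 1)) := Nat.pow_le_pow_right (by norm_num) (by omega)
      _ ≤ _ := Nat.le_mul_of_pos_right _ Nat.card_pos
  · rw [Nat.card_congr e.toEquiv]; exact Cfsg.Agent.Lib.Recog.U34.primes_eq hp
  · rw [← Cfsg.Agent.Lib.Recog.U34.edges hp hq hpq]
    exact ⟨fun ⟨g, hg⟩ => ⟨e g, by rw [e.orderOf_eq, hg]⟩, fun ⟨g, hg⟩ => ⟨e.symm g, by rw [e.symm.orderOf_eq, hg]⟩⟩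

end Cfsg.Agent.S3663
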