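import Cfsg.Statements.S3669
import Cfsg.Agent.Lib.Ito
import Cfsg.Agent.Lib.Char.Degree
import Cfsg.Agent.Lib.Char.Basic
import Cfsg.Agent.Lib.SmallSimple.Basic
import Cfsg.Agent.Lib.Perm.TwoModFour
import Cfsg.Agent.Lib.Coprime.Action

set_option autoImplicit false
open Cfsg Cfsg.Agent.Lib Cfsg.Agent.Lib.Char

namespace Cfsg.Agent.S3669

theorem card_classes : Nat.card (ConjClasses (alternatingGroup (Fin 5))) = 5 := by
  rw [Nat.card_eq_fintype_card]; decide +kernel

theorem five_mem : 5 ∈ Cfsg.degreePrimes (alternatingGroup (Fin 5)) := by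
  classical
  have hA : Nat.card (alternatingGroup (Fin 5)) = 60 := by rw [nat_card_alternatingGroup, Nat.card_fin]; rfl
  by_contra h
  have h5 : ∀ χ : IrrCharacter (alternatingGroup (Fin 5)), ¬ 5 ∣ charDegree (χ : alternatingGroup (Fin 5) → ℂ) := fun χ hd =>
    h ⟨by norm_num, charDegree (χ : alternatingGroup (Fin 5) → ℂ), ⟨χ, rfl⟩, hd⟩
  let one : IrrCharacter (alternatingGroup (Fin 5)) := ⟨_, isIrrCharacter_one⟩
  have hsum := sum_charDegree_sq (G := alternatingGroup (Fin 5))
  rw [hA, ← Finset.add_sum_erase _ _ (Finset.mem_univ one)] at hsum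
  have hone : charDegree (one : alternatingGroup (Fin 5) → ℂ) = 1 := by simp [one, charDegree]
  rw [hone] at hsum
  have hcard : (Finset.univ.erase one).card = 4 := by
    rw [Finset.card_erase_of_mem (Finset.mem_univ _), Finset.card_univ, ← Nat.card_eq_fintype_card,
      card_irr_eq_card_conjClasses, card_classes]
  obtain ⟨a, b, c, d, hab, hac, had, hbc, hbd, hcd, e⟩ : ∃ a b c d, a ≠ b ∧ a ≠ c ∧ a ≠ d ∧ b ≠ c ∧ b ≠ d ∧ c ≠ d ∧
      Finset.univ.erase one = {a, b, c, d} := by
    obtain ⟨a, t, ha, hat, ht⟩ := Finset.card_eq_succ.1 hcard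
    obtain ⟨b, c, d, hbc, hbd, hcd, rfl⟩ := Finset.card_eq_three.1 ht
    simp only [Finset.mem_insert, Finset.mem_singleton, not_or] at ha
    exact ⟨a, b, c, d, ha.1, ha.2.1, ha.2.2, hbc, hbd, hcd, hat.symm⟩
  have hvals : ∀ χ : IrrCharacter (alternatingGroup (Fin 5)), charDegree (χ : alternatingGroup (Fin 5) → ℂ) ^ 2 ≤ 59 →
      charDegree (χ : alternatingGroup (Fin 5) → ℂ) ^ 2 = 1 ∨ charDegree (χ : alternatingGroup (Fin 5) → ℂ) ^ 2 = 4 ∨ charDegree (χ : alternatingGroup (Fin 5) → ℂ) ^ 2 = 9 ∨
      charDegree (χ : alternatingGroup (Fin 5) → ℂ) ^ 2 = 16 ∨ charDegree (χ : alternatingGroup (Fin 5) → ℂ) ^ 2 = 36 := by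
    intro χ hle
    have hd := hA ▸ charDegree_dvd_card χ.2
    have h7 : charDegree (χ : alternatingGroup (Fin 5) → ℂ) < 8 := by nlinarith
    have h5' := h5 χ
    generalize charDegree (χ : alternatingGroup (Fin 5) → ℂ) = x at *
    interval_cases x <;> omega
  have hle : ∀ χ ∈ Finset.univ.erase one, charDegree (χ : alternatingGroup (Fin 5) → ℂ) ^ 2 ≤ 59 := fun χ hχ =>
    (Finset.single_le_sum (f := fun χ : IrrCharacter (alternatingGroup (Fin 5)) => charDegree (χ : alternatingGroup (Fin 5) → ℂ) ^ 2)
      (fun _ _ => Nat.zero_le _) hχ).trans (by omega)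
  obtain ⟨ha, hb, hc, hd⟩ : _ ∧ _ ∧ _ ∧ _ := ⟨hvals a (hle a (by rw [e]; simp)), hvals b (hle b (by rw [e]; simp)),
    hvals c (hle c (by rw [e]; simp)), hvals d (hle d (by rw [e]; simp))⟩
  have h4 : (Finset.univ.erase one).sum (fun χ => charDegree (χ : alternatingGroup (Fin 5) → ℂ) ^ 2) ≤
      charDegree (a : alternatingGroup (Fin 5) → ℂ) ^ 2 + charDegree (b : alternatingGroup (Fin 5) → ℂ) ^ 2 + charDegree (c : alternatingGroup (Fin 5) → ℂ) ^ 2 + charDegree (d : alternatingGroup (Fin 5) → ℂ) ^ 2 ∧
      (Finset.univ.erase one).sum (fun χ => charDegree (χ : alternatingGroup (Fin 5) → ℂ) ^ 2) =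
      charDegree (a : alternatingGroup (Fin 5) → ℂ) ^ 2 + charDegree (b : alternatingGroup (Fin 5) → ℂ) ^ 2 + charDegree (c : alternatingGroup (Fin 5) → ℂ) ^ 2 + charDegree (d : alternatingGroup (Fin 5) → ℂ) ^ 2 := by
    have : (Finset.univ.erase one).sum (fun χ => charDegree (χ : alternatingGroup (Fin 5) → ℂ) ^ 2) =
      charDegree (a : alternatingGroup (Fin 5) → ℂ) ^ 2 + charDegree (b : alternatingGroup (Fin 5) → ℂ) ^ 2 + charDegree (c : alternatingGroup (Fin 5) → ℂ) ^ 2 + charDegree (d : alternatingGroup (Fin 5) → ℂ) ^ 2 := by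
      rw [e, Finset.sum_insert (by simp [hab, hac, had]), Finset.sum_insert (by simp [hbc, hbd]),
        Finset.sum_insert (by simp [hcd]), Finset.sum_singleton, add_assoc, add_assoc]
    exact ⟨this.le, this⟩
  omega

theorem count_five {M : Type*} [Group M] [Finite M] (h : Nat.card M ∈ ({5, 10, 15, 20} : Finset ℕ)) :
    Nat.card (Sylow 5 M) = 1 := by
  haveI : Fact (Nat.Prime 5) := ⟨by norm_num⟩
  obtain ⟨P⟩ : Nonempty (Sylow 5 M) := inferInstance
  have h5 : 5 ∣ Nat.card M := by
    simp only [Finset.mem_insert, Finset.mem_singleton] at h; rcases h with e | e | e | e <;> rw [e] <;> norm_num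
  obtain ⟨t, ht⟩ := P.dvd_card_of_dvd_card h5
  have h1 := P.card_dvd_index
  have h2 := card_sylow_modEq_one 5 M
  have h3 := (P : Subgroup M).card_mul_index
  have h6 : 5 * Nat.card (Sylow 5 M) ∣ Nat.card M := by
    rw [← h3, ht]; exact mul_dvd_mul (dvd_mul_right 5 t) h1
  simp only [Finset.mem_insert, Finset.mem_singleton] at h
  have h8 := Nat.le_of_dvd Nat.card_pos h6
  rw [Nat.ModEq] at h2
  rcases h with e | e | e | e <;> rw [e] at h6 h8 <;> generalize Nat.card (Sylow 5 M) = n at * <;>
    (have hn4 : n ≤ 4 := by omega) <;> interval_cases n <;> omega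

theorem count_thirty {M : Type*} [Group M] [Finite M] (h : Nat.card M = 30) :
    Nat.card (Sylow 5 M) = 1 := by
  haveI : Fact (Nat.Prime 5) := ⟨by norm_num⟩
  obtain ⟨K, hKi, hKo⟩ := Perm.TwoModFour.exists_odd_index_two M (by rw [h])
  haveI hKn : K.Normal := Subgroup.normal_of_index_eq_two hKi
  have hK : Nat.card K = 15 := by
    have := K.card_mul_index; rw [hKi, h] at this; omega
  have hle : ∀ P : Sylow 5 M, (P : Subgroup M) ≤ K := by
    intro P z hz
    obtain ⟨k, hk⟩ := IsPGroup.iff_orderOf.1 P.2 ⟨z, hz⟩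
    rw [Subgroup.orderOf_mk] at hk
    rw [← QuotientGroup.eq_one_iff, ← orderOf_eq_one_iff]
    refine Nat.eq_one_of_dvd_coprimes (Nat.Coprime.pow_right k (by norm_num : Nat.Coprime 2 5))
      ((orderOf_dvd_natCard (z : M ⧸ K)).trans (by rw [← Subgroup.index_eq_card, hKi])) ?_
    rw [← hk]; exact orderOf_map_dvd (QuotientGroup.mk' K) z
  haveI : Subsingleton (Sylow 5 K) := (Nat.card_eq_one_iff_unique.1 (count_five (by rw [hK]; simp))).1
  refine Nat.card_eq_one_iff_unique.2 ⟨⟨fun P Q => ?_⟩, inferInstance⟩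
  exact Sylow.subtype_injective (hP := hle P) (hQ := hle Q) (Subsingleton.elim _ _)

theorem normal_five {G : Type*} [Group G] [Finite G] (hcard : Nat.card G = 60) (hns : ¬ IsSimpleGroup G) :
    ∃ P : Subgroup G, P.Normal ∧ Nat.card P = 5 := by
  haveI : Fact (Nat.Prime 5) := ⟨by norm_num⟩
  haveI : Fact (Nat.Prime 3) := ⟨by norm_num⟩
  let P : Sylow 5 G := default
  have hP : Nat.card (P : Subgroup G) = 5 := by
    rw [P.card_eq_multiplicity, hcard, show (60 : ℕ) = 5 * 12 by norm_num,
      Nat.factorization_mul (by norm_num) (by norm_num), Finsupp.add_apply,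
      Nat.Prime.factorization_self (by norm_num), Nat.factorization_eq_zero_of_not_dvd (by norm_num : ¬ 5 ∣ 12),
      pow_one]
  refine ⟨P, ?_, hP⟩
  by_contra hPn
  have hn6 : Nat.card (Sylow 5 G) = 6 := by
    have h1 := P.card_dvd_index
    have h3 := (P : Subgroup G).card_mul_index
    rw [hP, hcard] at h3
    rw [show (P : Subgroup G).index = 12 by omega] at h1
    have h2 := card_sylow_modEq_one 5 G
    have hne : Nat.card (Sylow 5 G) ≠ 1 := fun e => by
      haveI : Subsingleton (Sylow 5 G) := (Nat.card_eq_one_iff_unique.1 e).1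
      exact hPn (Sylow.normal_of_subsingleton P)
    have h4 := Nat.le_of_dvd (by norm_num) h1
    rw [Nat.ModEq] at h2
    generalize Nat.card (Sylow 5 G) = n at *
    interval_cases n <;> omega
  have hnP : Nat.card (Subgroup.normalizer (P : Set G)) = 10 := by
    have h := (Subgroup.normalizer (P : Set G)).card_mul_index
    rw [← P.card_eq_index_normalizer, hn6, hcard] at h
    omega
  -- normal subgroups with order divisible by five
  have hfive : ∀ M : Subgroup G, M.Normal → 5 ∣ Nat.card M → M = ⊤ := by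
    intro M hMn h5
    by_contra hne
    obtain ⟨Q⟩ : Nonempty (Sylow 5 M) := inferInstance
    have hPM : ∀ R : Sylow 5 G, (R : Subgroup G) ≤ M := by
      obtain ⟨R₀, hR₀⟩ := (Q.2.map M.subtype).exists_le_sylow
      have hR₀M : (R₀ : Subgroup G) ≤ M := by
        have hc : Nat.card (R₀ : Subgroup G) = 5 := by
          obtain ⟨g, rfl⟩ := MulAction.exists_smul_eq G P R₀
          rw [Sylow.coe_subgroup_smul]; exact (Subgroup.card_map_of_injective (MulEquiv.injective _)).trans hP
        have := Subgroup.eq_of_le_of_card_ge hR₀ (by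
          rw [hc, Subgroup.card_map_of_injective M.subtype_injective]
          exact Nat.le_of_dvd Nat.card_pos (Q.dvd_card_of_dvd_card h5))
        rw [← this]; exact Subgroup.map_subtype_le _
      intro R z hz
      obtain ⟨g, rfl⟩ := MulAction.exists_smul_eq G R₀ R
      rw [Sylow.coe_subgroup_smul] at hz
      obtain ⟨w, hw, rfl⟩ := hz
      exact hMn.conj_mem w (hR₀M hw) g
    have hinj : Function.Injective (fun R : Sylow 5 G => R.subtype (hPM R)) := fun R R' e =>
      Sylow.subtype_injective e
    have h6 := Nat.card_le_card_of_injective _ hinj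
    rw [hn6] at h6
    have hd : Nat.card M ∣ 60 := hcard ▸ Subgroup.card_subgroup_dvd_card M
    have h60 : Nat.card M ≠ 60 := fun e => hne (Subgroup.eq_top_of_card_eq _ (by rw [e, hcard]))
    have hmem : Nat.card M ∈ ({5, 10, 15, 20} : Finset ℕ) ∨ Nat.card M = 30 := by
      have := Nat.le_of_dvd (by norm_num) hd
      simp only [Finset.mem_insert, Finset.mem_singleton]
      generalize Nat.card M = m at *
      interval_cases m <;> omega
    rcases hmem with h | h
    · rw [count_five h] at h6; omega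
    · rw [count_thirty h] at h6; omega
  obtain ⟨N, hN, hN1, hN2⟩ : ∃ N : Subgroup G, N.Normal ∧ N ≠ ⊥ ∧ N ≠ ⊤ := by
    by_contra h
    push Not at h
    haveI : Nontrivial G := Finite.one_lt_card_iff_nontrivial.1 (by rw [hcard]; norm_num)
    exact hns ⟨fun N hN => (em (N = ⊥)).imp id (h N hN)⟩
  have hN5 : ¬ 5 ∣ Nat.card N := fun h => hN2 (hfive N hN h)
  by_cases h3 : 3 ∣ Nat.card N
  · -- a fixed Sylow three subgroup of `N`
    have hPN : (P : Subgroup G) ≤ Subgroup.normalizer (N : Set G) := fun z _ => by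
      rw [Subgroup.normalizer_eq_top N]; trivial
    have hcop : (Nat.card (P : Subgroup G)).Coprime (Nat.card N) := by
      rw [hP]; exact (Nat.Prime.coprime_iff_not_dvd (by norm_num)).2 hN5
    have hsol : Group.IsSolvable (P : Subgroup G) := by haveI := P.2.isNilpotent; infer_instance
    obtain ⟨R, hR⟩ := Coprime.exists_invariant_sylow hPN hcop (Or.inl hsol) 3
    set R₀ := (R : Subgroup N).map N.subtype
    have hR3 : Nat.card R₀ = 3 := by
      rw [Subgroup.card_map_of_injective N.subtype_injective]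
      obtain ⟨k, hk⟩ := (IsPGroup.iff_card (p := 3)).1 R.2
      have h9 : Nat.card (R : Subgroup N) ∣ 60 :=
        (Subgroup.card_subgroup_dvd_card _).trans (hcard ▸ Subgroup.card_subgroup_dvd_card N)
      have hge := Nat.le_of_dvd Nat.card_pos (R.dvd_card_of_dvd_card h3)
      rw [hk] at h9 hge ⊢
      rcases k with _ | _ | k
      · omega
      · rfl
      · exfalso
        have h10 : (9 : ℕ) ∣ 3 ^ (k + 2) := ⟨3 ^ k, by ring⟩
        have := h10.trans h9
        norm_num at this
    haveI : IsCyclic R₀ := isCyclic_of_prime_card hR3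
    -- `P` centralises it
    have hcent : ∀ x ∈ (P : Subgroup G), ∀ r ∈ R₀, x * r = r * x := by
      intro x hx r hr
      let x' : (Subgroup.normalizer (R₀ : Set G) : Subgroup G) := ⟨x, hR hx⟩
      have h1 : orderOf (R₀.normalizerMonoidHom x') ∣ 5 := by
        refine (orderOf_map_dvd _ x').trans ?_
        rw [Subgroup.orderOf_mk]
        have := orderOf_dvd_natCard (⟨x, hx⟩ : (P : Subgroup G))
        rwa [Subgroup.orderOf_mk, hP] at this
      have h2 : orderOf (R₀.normalizerMonoidHom x') ∣ 2 := by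
        have := orderOf_dvd_natCard (R₀.normalizerMonoidHom x')
        rwa [IsCyclic.card_mulAut, hR3] at this
      have h4 : x' ∈ R₀.normalizerMonoidHom.ker :=
        orderOf_eq_one_iff.1 (Nat.eq_one_of_dvd_coprimes (by norm_num : Nat.Coprime 5 2) h1 h2)
      rw [Subgroup.normalizerMonoidHom_ker, Subgroup.mem_subgroupOf] at h4
      exact (Subgroup.mem_centralizer_iff.1 h4 r hr).symm
    have hle : R₀ ≤ Subgroup.normalizer (P : Set G) := by
      intro r hr
      refine Subgroup.mem_normalizer_fintype fun z hz => ?_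
      rw [← hcent z hz r hr, mul_inv_cancel_right]
      exact hz
    have := Subgroup.card_dvd_of_le hle
    rw [hR3, hnP] at this
    norm_num at this
  · have hd : Nat.card N ∣ 60 := hcard ▸ Subgroup.card_subgroup_dvd_card N
    have hN1' : Nat.card N ≠ 1 := fun e => hN1 (Subgroup.eq_bot_of_card_eq _ e)
    have hN24 : Nat.card N = 2 ∨ Nat.card N = 4 := by
      have := Nat.le_of_dvd (by norm_num) hd
      generalize Nat.card N = m at *
      interval_cases m <;> omega
    -- the preimage of the normal Sylow five subgroup or index two subgroup of the quotient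
    have hq : Nat.card (G ⧸ N) * Nat.card N = 60 := by rw [← hcard, ← Subgroup.card_eq_card_quotient_mul_card_subgroup]
    obtain ⟨Qb, hQb, hQd, hQne⟩ : ∃ Qb : Subgroup (G ⧸ N), Qb.Normal ∧ 5 ∣ Nat.card Qb ∧ Qb ≠ ⊤ := by
      rcases hN24 with e | e <;> rw [e] at hq
      · have h30 : Nat.card (G ⧸ N) = 30 := by omega
        obtain ⟨K, hKi, -⟩ := Perm.TwoModFour.exists_odd_index_two (G ⧸ N) (by rw [h30])
        refine ⟨K, Subgroup.normal_of_index_eq_two hKi, ?_, fun h => by rw [h, Subgroup.index_top] at hKi; omega⟩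
        have := K.card_mul_index; rw [hKi, h30] at this; exact ⟨3, by omega⟩
      · have h15 : Nat.card (G ⧸ N) = 15 := by omega
        haveI : Subsingleton (Sylow 5 (G ⧸ N)) := (Nat.card_eq_one_iff_unique.1 (count_five (by rw [h15]; simp))).1
        let Q : Sylow 5 (G ⧸ N) := default
        refine ⟨Q, Sylow.normal_of_subsingleton Q, Q.dvd_card_of_dvd_card (by rw [h15]; norm_num), fun h => ?_⟩
        obtain ⟨k, hk⟩ := (IsPGroup.iff_card (p := 5)).1 Q.2
        rw [h, Subgroup.card_top, h15] at hk
        have h3' : 3 ∣ 5 ^ k := hk ▸ (by norm_num : (3 : ℕ) ∣ 15)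
        exact absurd (Nat.prime_three.dvd_of_dvd_pow h3') (by norm_num)
    have htop := hfive (Qb.comap (QuotientGroup.mk' N)) (hQb.comap _) (hQd.trans
      (Subgroup.card_dvd_of_surjective
        (((QuotientGroup.mk' N).comp (Qb.comap (QuotientGroup.mk' N)).subtype).codRestrict Qb fun z => z.2)
        fun z => by
          obtain ⟨g, hg⟩ := QuotientGroup.mk'_surjective N (z : G ⧸ N)
          exact ⟨⟨g, by rw [Subgroup.mem_comap, hg]; exact z.2⟩, Subtype.ext hg⟩))
    apply hQne
    rw [← Subgroup.map_comap_eq_self_of_surjective (QuotientGroup.mk'_surjective N) Qb, htop,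
      Subgroup.map_top_of_surjective _ (QuotientGroup.mk'_surjective N)]

/-- The character degree graph of a finite group has as vertices the primes dividing some irreducible complex character degree, two distinct primes being joined when their product divides some irreducible character degree; two groups have the same character degree graph when they have the same vertices and the same joined pairs. A finite group of order 60 with the same character degree graph as the alternating group A₅ (whose character degrees are 1, 3, 4, 5, so the graph has vertices 2, 3, 5 and no edges) is isomorphic to A₅. -/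
theorem result {G : Type*} [Group G] [Finite G] (hcard : Nat.card G = 60)
    (hΓ : Cfsg.degreePrimes G = Cfsg.degreePrimes (alternatingGroup (Fin 5)) ∧ Cfsg.degreeGraph G = Cfsg.degreeGraph (alternatingGroup (Fin 5))) : Nonempty (G ≃* alternatingGroup (Fin 5)) := by
  by_cases hs : IsSimpleGroup G
  · exact SmallSimple.nonempty_mulEquiv_alternatingFive hcard
  exfalso
  obtain ⟨P, hPn, hP⟩ := normal_five hcard hs
  haveI := hPn
  haveI : Fact (Nat.Prime 5) := ⟨by norm_num⟩
  haveI : Fintype G := Fintype.ofFinite G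
  haveI : IsCyclic P := isCyclic_of_prime_card hP
  obtain ⟨-, d, ⟨χ, rfl⟩, hd⟩ : 5 ∈ Cfsg.degreePrimes G := hΓ.1 ▸ five_mem
  have h := hd.trans (Ito.degree_dvd_index P (fun a ha b hb =>
    congrArg Subtype.val (IsCyclic.commGroup.mul_comm (⟨a, ha⟩ : P) ⟨b, hb⟩)) χ.2)
  have hi := P.card_mul_index
  rw [hP, hcard] at hi
  rw [show P.index = 12 by omega] at h
  norm_num at h

end Cfsg.Agent.S3669
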