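import Cfsg.Statements.S3678
import Cfsg.Agent.Lib.Recog.ModuleExt
import Cfsg.Agent.Lib.Recog.SLTwo
import Cfsg.Agent.Lib.Classical.Order

set_option autoImplicit false
open Cfsg

namespace Cfsg.Agent.S3678

/-- The prime graph of a finite group has the prime divisors of its order as vertices, two distinct primes p, q being joined when the group has an element of order pq; two groups have the same prime graph when they have the same prime divisors and the same joined pairs. Let F be the field with 7 elements. There are finite groups of arbitrarily large order with the same prime graph as PSL(2,F) (the graph on {2, 3, 7} with no edges, which is also the prime graph of PSL(2,8)). -/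
theorem result {F : Type*} [Field F] [Fintype F] (hF : Fintype.card F = 7) (N : ℕ) :
    ∃ (H : Type) (_ : Group H) (_ : Finite H), N < Nat.card H ∧
      ((∀ p : ℕ, p.Prime → (p ∣ Nat.card (Matrix.ProjectiveSpecialLinearGroup (Fin 2) F) ↔ p ∣ Nat.card H)) ∧
      (∀ p q : ℕ, p.Prime → q.Prime → p ≠ q → ((∃ g : (Matrix.ProjectiveSpecialLinearGroup (Fin 2) F), orderOf g = p * q) ↔ (∃ g : H, orderOf g = p * q)))) := by
  haveI : Fact (Nat.Prime 2) := ⟨Nat.prime_two⟩
  haveI : Fact (Nat.Prime 7) := ⟨by norm_num⟩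
  haveI : CharP F 7 := charP_of_card_eq_prime hF
  let K := GaloisField 2 3
  haveI : Fintype K := Fintype.ofFinite K
  have hK : Fintype.card K = 8 := by
    rw [← Nat.card_eq_fintype_card, GaloisField.card 2 3 (by norm_num)]; norm_num
  obtain ⟨H, iG, iF, hN, hG⟩ := Lib.Recog.unbounded_sameGraph 2
    (f := ({ toFun := fun A => (A : Matrix (Fin 2) (Fin 2) K), map_one' := rfl,
             map_mul' := fun _ _ => rfl } : Matrix.SpecialLinearGroup (Fin 2) K →* _))
    Lib.Recog.two_dvd_card_sl2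
    (fun g v hv h => ⟨1, by simpa using Lib.Recog.sl2_sq_of_fixed g v hv h⟩) N
  have c7 : Nat.card (Matrix.ProjectiveSpecialLinearGroup (Fin 2) F) = 168 := by
    have := Lib.Classical.card_PSL_two (F := F)
    rw [hF] at this
    norm_num at this
    omega
  have c8 : Nat.card (Matrix.SpecialLinearGroup (Fin 2) K) = 504 := by
    rw [Lib.Classical.card_SL_two, hK]; norm_num
  have key : ∀ {n k : ℕ}, k ∣ n → IsPrimePow n → ∀ p q : ℕ, p.Prime → q.Prime → p ≠ q →
      k ≠ p * q := by
    intro n k hk hn p q hp hq hpq e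
    subst e
    exact hpq ((isPrimePow_iff_unique_prime_dvd.1 hn).unique ⟨hp, dvd_of_mul_right_dvd hk⟩ ⟨hq, dvd_of_mul_left_dvd hk⟩)
  have o7 : ∀ g : Matrix.ProjectiveSpecialLinearGroup (Fin 2) F,
      ∀ p q : ℕ, p.Prime → q.Prime → p ≠ q → orderOf g ≠ p * q := by
    intro g
    obtain ⟨A, rfl⟩ := QuotientGroup.mk'_surjective (Subgroup.center _) g
    have hc : ∀ k, Lib.Recog.chebU (A : Matrix (Fin 2) (Fin 2) F).trace (k + 1) = 0 →
        orderOf (QuotientGroup.mk' (Subgroup.center _) A) ∣ k + 2 := fun k hk =>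
      orderOf_dvd_of_pow_eq_one (by
        rw [← map_pow]; exact (QuotientGroup.eq_one_iff _).2 (Lib.Recog.sl2_pow_mem_center A k hk))
    obtain ⟨e⟩ : Nonempty (ZMod 7 ≃+* F) := ⟨ZMod.ringEquivOfPrime F (by norm_num) hF⟩
    have hk : ∃ k, IsPrimePow (k + 2) ∧
        Lib.Recog.chebU (A : Matrix (Fin 2) (Fin 2) F).trace (k + 1) = 0 := by
      obtain ⟨t, ht⟩ := e.surjective (A : Matrix (Fin 2) (Fin 2) F).trace
      rw [← ht]
      have hU : ∀ k, Lib.Recog.chebU (e t) k = e (Lib.Recog.chebU t k) := by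
        intro k
        induction k using Nat.twoStepInduction with
        | zero => simp [Lib.Recog.chebU]
        | one => simp [Lib.Recog.chebU]
        | more k h1 h2 => simp [Lib.Recog.chebU, h1, h2]
      have two : IsPrimePow 2 := Nat.prime_two.isPrimePow
      have three : IsPrimePow 3 := Nat.prime_three.isPrimePow
      have four : IsPrimePow 4 := ⟨2, 2, Nat.prime_two.prime, by norm_num, rfl⟩
      have seven : IsPrimePow 7 := (show Nat.Prime 7 by norm_num).isPrimePow
      fin_cases t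
      · exact ⟨0, two, by rw [hU, map_eq_zero]; rfl⟩
      · exact ⟨1, three, by rw [hU, map_eq_zero]; rfl⟩
      · exact ⟨5, seven, by rw [hU, map_eq_zero]; rfl⟩
      · exact ⟨2, four, by rw [hU, map_eq_zero]; rfl⟩
      · exact ⟨2, four, by rw [hU, map_eq_zero]; rfl⟩
      · exact ⟨5, seven, by rw [hU, map_eq_zero]; rfl⟩
      · exact ⟨1, three, by rw [hU, map_eq_zero]; rfl⟩
    obtain ⟨k, hk1, hk2⟩ := hk
    exact key (hc k hk2) hk1
  have o8 : ∀ g : Matrix.SpecialLinearGroup (Fin 2) K,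
      ∀ p q : ℕ, p.Prime → q.Prime → p ≠ q → orderOf g ≠ p * q := by
    intro A
    have two : (2 : K) = 0 := CharTwo.two_eq_zero
    have h8 : (A : Matrix (Fin 2) (Fin 2) K).trace ^ 8 = (A : Matrix (Fin 2) (Fin 2) K).trace := by
      have := FiniteField.pow_card (A : Matrix (Fin 2) (Fin 2) K).trace
      rwa [hK] at this
    have hk : ∃ k, IsPrimePow (k + 2) ∧
        Lib.Recog.chebU (A : Matrix (Fin 2) (Fin 2) K).trace (k + 1) = 0 ∧
        Lib.Recog.chebU (A : Matrix (Fin 2) (Fin 2) K).trace k = -1 := by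
      generalize (A : Matrix (Fin 2) (Fin 2) K).trace = t at h8 ⊢
      have hf : t * (t + 1) * (t ^ 3 + t + 1) * (t ^ 3 + t ^ 2 + 1) = 0 := by
        linear_combination h8 + (t + t^2 + t^3 + 2*t^4 + 2*t^5 + t^6 + t^7) * two
      rcases mul_eq_zero.1 hf with hf | h
      rcases mul_eq_zero.1 hf with hf | h
      rcases mul_eq_zero.1 hf with h | h
      · exact ⟨0, Nat.prime_two.isPrimePow, by simp [Lib.Recog.chebU, h],
          by simp [Lib.Recog.chebU, CharTwo.neg_eq]⟩
      · refine ⟨1, Nat.prime_three.isPrimePow, ?_, ?_⟩ <;> simp [Lib.Recog.chebU]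
        · linear_combination (t - 1) * h
        · linear_combination h
      · refine ⟨7, ⟨3, 2, Nat.prime_three.prime, by norm_num, rfl⟩, ?_, ?_⟩ <;> simp [Lib.Recog.chebU]
        · linear_combination ((1:K) + t + t^2 + t^5) * h + (-t - 6*t^2 - t^3 + 7*t^4 - t^5 - 4*t^6) * two
        · linear_combination ((1:K) + t + t^2 + t^4) * h + (-3*t - t^2 + 4*t^3 - t^4 - 4*t^5) * two
      · refine ⟨5, (show Nat.Prime 7 by norm_num).isPrimePow, ?_, ?_⟩ <;> simp [Lib.Recog.chebU]
        · linear_combination ((1:K) + t^2 + t^3) * h + (-1 + 2*t^2 - t^3 - 3*t^4 - t^5) * two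
        · linear_combination ((1:K) + t + t^2) * h + (t - t^2 - 3*t^3 - t^4) * two
    obtain ⟨k, hk1, hk2, hk3⟩ := hk
    exact key (orderOf_dvd_of_pow_eq_one (Lib.Recog.sl2_pow_eq_one A k hk2 hk3)) hk1
  refine ⟨H, iG, inferInstance, hN, Lib.Recog.SameGraph.trans ⟨?_, ?_⟩ hG⟩
  · intro p hp
    rw [c7, c8, show (168 : ℕ) = 2 ^ 3 * 3 * 7 by norm_num, show (504 : ℕ) = 2 ^ 3 * 3 ^ 2 * 7 by norm_num]
    simp only [hp.dvd_mul]
    exact or_congr_left (or_congr_right ⟨fun h => h.pow (by norm_num), fun h => hp.dvd_of_dvd_pow h⟩)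
  · intro p q hp hq hpq
    exact ⟨fun ⟨g, h⟩ => absurd h (o7 g p q hp hq hpq), fun ⟨g, h⟩ => absurd h (o8 g p q hp hq hpq)⟩

end Cfsg.Agent.S3678
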