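import Cfsg.Statements.S3680
import Cfsg.Agent.Lib.Recog.Socle
import Cfsg.Agent.Lib.Recog.Affine

set_option autoImplicit false
open Cfsg

namespace Cfsg.Agent.S3680

/-- The socle of a finite primitive permutation group. Let a finite group G act faithfully and primitively on a set Ω, and let N be the subgroup generated by the minimal normal subgroups of G. Then either N is an elementary abelian p-group for some prime p and acts regularly on Ω (transitively with trivial point stabilizers), or N is isomorphic to a direct product of m ≥ 1 copies of a non-abelian simple group. -/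
theorem result {G Ω : Type*} [Group G] [Finite G] [MulAction G Ω] [FaithfulSMul G Ω] [Finite Ω]
    (hprim : MulAction.IsPreprimitive G Ω) (N : Subgroup G)
    (hN : N = sSup {V : Subgroup G | V.Normal ∧ V ≠ ⊥ ∧ ∀ M : Subgroup G, M.Normal → M ≤ V → M = ⊥ ∨ M = V}) :
    (∃ p : ℕ, p.Prime ∧ IsMulCommutative N ∧ (∀ x : N, x ^ p = 1) ∧
      MulAction.IsPretransitive N Ω ∧ ∀ ω : Ω, MulAction.stabilizer N ω = ⊥) ∨
    (∃ (T : Type) (_ : Group T) (m : ℕ), 1 ≤ m ∧ IsSimpleGroup T ∧ ¬ IsMulCommutative T ∧ Nonempty (N ≃* (Fin m → T))) := by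
  classical
  have hfree : ∀ V : Subgroup G, MulAction.IsPretransitive V Ω → ∀ c : G, (∀ a ∈ V, a * c = c * a) →
      ∀ ω : Ω, c • ω = ω → c = 1 := by
    intro V hV c hc ω hω
    apply FaithfulSMul.eq_of_smul_eq_smul (α := Ω)
    intro x
    obtain ⟨⟨a, ha⟩, hax⟩ := hV.exists_smul_eq ω x
    change a • ω = x at hax
    rw [one_smul, ← hax, ← mul_smul, ← hc a ha, mul_smul, hω]
  have hN' : N = sSup {V : Subgroup G | Lib.Recog.IsMinNormal V} := hN
  have := hprim
  rcases subsingleton_or_nontrivial G with hG | hG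
  · left
    refine ⟨2, Nat.prime_two, ⟨⟨fun a b => Subsingleton.elim _ _⟩⟩, fun x => Subsingleton.elim _ _,
      ⟨fun a b => ?_⟩, fun ω => Subsingleton.elim _ _⟩
    obtain ⟨g, hg⟩ := MulAction.exists_smul_eq G a b
    exact ⟨⟨g, by rw [Subsingleton.elim g 1]; exact one_mem N⟩, hg⟩
  have htr : ∀ V : Subgroup G, Lib.Recog.IsMinNormal V → MulAction.IsPretransitive V Ω := fun V hV =>
    Lib.Recog.normal_transitive (Ω := Ω) hV.1 hV.2.1
  by_cases hab : ∃ A : Subgroup G, Lib.Recog.IsMinNormal A ∧ IsMulCommutative A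
  · left
    obtain ⟨A, hA, hAc⟩ := hab
    obtain ⟨p, hp, hexp⟩ := hA.exists_prime_exp hAc
    obtain ⟨h1, h2, h3⟩ := Lib.Recog.abelian_normal_regular (Ω := Ω) hA.1 hA.2.1 hAc
    have hNA : N = A := by
      rw [hN']
      refine le_antisymm (sSup_le fun V hV => ?_) (le_sSup hA)
      by_contra hVA
      have hc := hA.commute hV (fun e => hVA e.ge)
      obtain ⟨v, hv, hvA⟩ := SetLike.not_le_iff_exists.1 hVA
      rcases isEmpty_or_nonempty Ω with hΩ | hΩ
      · exact hvA (by rw [FaithfulSMul.eq_of_smul_eq_smul (α := Ω) (m₁ := v) (m₂ := 1) (fun x => isEmptyElim x)]; exact one_mem A)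
      obtain ⟨ω⟩ := hΩ
      obtain ⟨⟨a, ha⟩, haω⟩ := h1.exists_smul_eq ω (v • ω)
      change a • ω = v • ω at haω
      have := hfree A h1 (a⁻¹ * v) (fun b hb => by
        have e1 : b * a⁻¹ = a⁻¹ * b := congrArg Subtype.val (hAc.is_comm.comm ⟨b, hb⟩ ⟨a⁻¹, inv_mem ha⟩)
        rw [← mul_assoc, e1, mul_assoc, hc b hb v hv, mul_assoc]) ω (by rw [mul_smul, ← haω, inv_smul_smul])
      exact hvA (inv_mul_eq_one.1 this ▸ ha)
    subst hNA
    exact ⟨p, hp, hAc, fun x => Subtype.ext (by simpa using hexp x x.2), h1, h3⟩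
  push Not at hab
  obtain ⟨V0, hV0⟩ := Lib.Recog.exists_minNormal (G := G)
  obtain ⟨T0, hT0⟩ := hV0.exists_factor (hab V0 hV0)
  let F : Set (Subgroup G) := {X | ∃ V : Subgroup G, Lib.Recog.IsMinNormal V ∧ X ≤ V ∧
    V ≤ Subgroup.normalizer (X : Set G) ∧ IsSimpleGroup X ∧ ¬ IsMulCommutative X}
  have hcjF : ∀ V T : Subgroup G, Lib.Recog.IsMinNormal V → Lib.Recog.IsFactor V T → ∀ g, Lib.Recog.cj g T ∈ F := by
    intro V T hV hT g
    let e : T ≃* Lib.Recog.cj g T := T.equivMapOfInjective _ (MulAut.conj g).injective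
    refine ⟨V, hV, Lib.Recog.cj_le_of_le hV.1 hT.le g, Lib.Recog.cj_norm hV.1 hT.norm g, ?_, fun hc => hT.nonab ?_⟩
    · have := hT.simple
      exact e.symm.isSimpleGroup
    · exact ⟨⟨fun a b => e.injective (by rw [map_mul, map_mul]; exact hc.is_comm.comm _ _)⟩⟩
  have hFiso : ∀ X ∈ F, Nonempty (X ≃* T0) := by
    rintro X ⟨V, hV, hXV, hXn, hXs, hXna⟩
    obtain ⟨T, hT⟩ := hV.exists_factor (hab V hV)
    have hcj : ∀ (S : Subgroup G) (g : G), Nonempty (Lib.Recog.cj g S ≃* S) := fun S g =>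
      ⟨(S.equivMapOfInjective _ (MulAut.conj g).injective).symm⟩
    obtain ⟨g, rfl⟩ := Lib.Recog.normal_simple_eq_cj hT hXV hXn hXs hXna
    refine (hcj T g).elim fun e1 => ?_
    suffices Nonempty (T ≃* T0) from this.elim fun e2 => ⟨e1.trans e2⟩
    rcases eq_or_ne V V0 with rfl | hne
    · obtain ⟨g', hg'⟩ := Lib.Recog.normal_simple_eq_cj hT0 hT.le hT.norm hT.simple hT.nonab
      subst hg'
      exact hcj T0 g'
    -- two minimal normal subgroups are both regular, hence isomorphic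
    have hc := hV.commute hV0 hne
    obtain ⟨ω⟩ : Nonempty Ω := by
      by_contra hΩ
      rw [not_nonempty_iff] at hΩ
      exact not_subsingleton G ⟨fun a b => FaithfulSMul.eq_of_smul_eq_smul (α := Ω) fun x => isEmptyElim x⟩
    have hτ : ∀ v : V, ∃ w : V0, (w : G) • ω = (v : G)⁻¹ • ω := fun v =>
      (htr V0 hV0).exists_smul_eq ω _
    choose τ hτ using hτ
    have huniq : ∀ w w' : V0, (w : G) • ω = (w' : G) • ω → w = w' := by
      intro w w' h
      apply Subtype.ext
      have hmem : (w' : G)⁻¹ * w ∈ V0 := mul_mem (inv_mem w'.2) w.2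
      exact (inv_mul_eq_one.1 (hfree V (htr V hV) _ (fun a ha => hc a ha _ hmem) ω
        (by rw [mul_smul, h, inv_smul_smul]))).symm
    let φ : V →* V0 := MonoidHom.mk' τ (fun u v => huniq _ _ (by
      rw [hτ, Subgroup.coe_mul, Subgroup.coe_mul, mul_inv_rev, mul_smul, mul_smul, hτ v,
        ← mul_smul ((τ u : G)), ← hc _ (inv_mem v.2) _ (τ u).2, mul_smul, hτ u]))
    have hφ : Function.Bijective φ := by
      constructor
      · intro u v huv
        have h1 : (u : G)⁻¹ • ω = (v : G)⁻¹ • ω := by rw [← hτ, ← hτ]; exact congrArg (fun w : V0 => (w : G) • ω) huv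
        have hmem : (v : G) * (u : G)⁻¹ ∈ V := mul_mem v.2 (inv_mem u.2)
        have := hfree V0 (htr V0 hV0) _ (fun a ha => (hc _ hmem a ha).symm) ω
          (by rw [mul_smul, h1, smul_inv_smul])
        exact Subtype.ext (mul_inv_eq_one.1 this).symm
      · intro w
        obtain ⟨v, hv⟩ := (htr V hV).exists_smul_eq ω ((w : G) • ω)
        exact ⟨v⁻¹, huniq _ _ (by show (τ v⁻¹ : G) • ω = _; rw [hτ, Subgroup.coe_inv, inv_inv]; exact hv)⟩
    let ψ : V →* G := V0.subtype.comp φ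
    have hψ : Function.Injective ψ := V0.subtype_injective.comp hφ.1
    let e : T ≃* (T.subgroupOf V).map ψ :=
      (Subgroup.subgroupOfEquivOfLe hT.le).symm.trans ((T.subgroupOf V).equivMapOfInjective ψ hψ)
    have hle : (T.subgroupOf V).map ψ ≤ V0 := by rintro _ ⟨x, -, rfl⟩; exact (φ x).2
    have hnorm : V0 ≤ Subgroup.normalizer (((T.subgroupOf V).map ψ : Subgroup G) : Set G) := by
      intro w hw
      obtain ⟨v, hv⟩ := hφ.2 ⟨w, hw⟩
      have hw' : ψ v = w := congrArg Subtype.val hv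
      rw [← hw']
      exact Subgroup.le_normalizer_map ψ ⟨v, by
        have := (Subgroup.normal_subgroupOf_iff_le_normalizer hT.le).2 hT.norm
        rw [Subgroup.normalizer_eq_top]; trivial, rfl⟩
    have := hT.simple
    obtain ⟨g', hg'⟩ := Lib.Recog.normal_simple_eq_cj hT0 hle hnorm
      e.symm.isSimpleGroup
      (fun h => hT.nonab ⟨⟨fun a b => e.injective (by rw [map_mul, map_mul]; exact h.is_comm.comm _ _)⟩⟩)
    exact (hcj T0 g').elim fun e' => ⟨e.trans ((MulEquiv.subgroupCongr hg').trans e')⟩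
  have hsup : (⨆ X : F, (X : Subgroup G)) = N := by
    rw [hN']
    refine le_antisymm (iSup_le fun ⟨X, V, hV, hXV, _⟩ => hXV.trans (le_sSup hV)) (sSup_le fun V hV => ?_)
    obtain ⟨T, hT⟩ := Lib.Recog.IsMinNormal.exists_factor hV (hab V hV)
    rw [hT.gen]
    exact iSup_le fun g => le_iSup (fun X : F => (X : Subgroup G)) ⟨_, hcjF V T hV hT g⟩
  have := Fintype.ofFinite F
  obtain ⟨e⟩ := Lib.Recog.nonempty_mulEquiv_pi (fun X : F => (X : Subgroup G)) (by
    rintro ⟨X, V, hV, hXV, hXn, hXs, hXna⟩ ⟨Y, W, hW, hYW, hYn, hYs, hYna⟩ hne a b ha hb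
    rcases eq_or_ne V W with rfl | hVW
    · obtain ⟨T, hT⟩ := hV.exists_factor (hab V hV)
      obtain ⟨g, rfl⟩ := Lib.Recog.normal_simple_eq_cj hT hXV hXn hXs hXna
      obtain ⟨k, rfl⟩ := Lib.Recog.normal_simple_eq_cj hT hYW hYn hYs hYna
      exact hT.cj_comm g k (fun h => hne (Subtype.ext h)) a ha b hb
    · exact hV.commute hW hVW a (hXV ha) b (hYW hb))
    (by
      rintro ⟨X, V, hV, hXV, hXn, hXs, hXna⟩ x hx hc
      have hmem : (⟨x, hx⟩ : X) ∈ Subgroup.center X :=
        Subgroup.mem_center_iff.2 fun t => Subtype.ext (hc t t.2).symm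
      rcases hXs.eq_bot_or_eq_top_of_normal (Subgroup.center X) inferInstance with h | h
      · rw [h, Subgroup.mem_bot] at hmem; exact congrArg Subtype.val hmem
      · exact absurd ⟨⟨fun a b => (Subgroup.mem_center_iff.1 (h ▸ Subgroup.mem_top b) a)⟩⟩ hXna)
  right
  let ρ : T0 →* Equiv.Perm (Fin (Nat.card T0)) :=
    ((Finite.equivFin T0).permCongrHom.toMonoidHom).comp (MulAction.toPermHom T0 T0)
  have hρ : Function.Injective ρ := fun a b h =>
    MulAction.toPerm_injective ((MulEquiv.injective (Finite.equivFin T0).permCongrHom) h)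
  let ε : T0 ≃* ρ.range := MonoidHom.ofInjective hρ
  have := hT0.simple
  refine ⟨ρ.range, inferInstance, Fintype.card F, ?_,
    ε.symm.isSimpleGroup,
    fun h => hT0.nonab ⟨⟨fun a b => ε.injective (by rw [map_mul, map_mul]; exact h.is_comm.comm _ _)⟩⟩, ?_⟩
  · exact Fintype.card_pos_iff.2 ⟨⟨_, hcjF V0 T0 hV0 hT0 1⟩⟩
  · have hx : ∀ X : F, Nonempty ((X : Subgroup G) ≃* ρ.range) := fun X =>
      (hFiso X X.2).elim fun e' => ⟨e'.trans ε⟩
    let ι := Fintype.equivFin F
    exact ⟨((MulEquiv.subgroupCongr hsup.symm).trans e.symm).trans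
      ((MulEquiv.piCongrRight fun X => (hx X).some).trans (MulEquiv.arrowCongr ι (MulEquiv.refl _)))⟩

end Cfsg.Agent.S3680
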