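import Cfsg.Statements.S3681
-- import your own Cfsg.Agent.* helpers here

set_option autoImplicit false
open Cfsg

namespace Cfsg.Agent.S3681

/-- two permutations whose supports meet in one point give a three-cycle -/
lemma commutator_isThreeCycle {α : Type*} [Fintype α] [DecidableEq α] {g h : Equiv.Perm α} {x : α}
    (hgx : g x ≠ x) (hhx : h x ≠ x) (hmeet : ∀ y, g y ≠ y → h y ≠ y → y = x) :
    (g * h * g⁻¹ * h⁻¹).IsThreeCycle := by
  have gfix : ∀ y, y ≠ x → h y ≠ y → g y = y := fun y hy hh => by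
    by_contra hc; exact hy (hmeet y hc hh)
  have hfix : ∀ y, y ≠ x → g y ≠ y → h y = y := fun y hy hg => by
    by_contra hc; exact hy (hmeet y hg hc)
  have hgi : ∀ {y}, g y = y → g⁻¹ y = y := fun {y} e => by
    conv_lhs => rw [← e]
    simp
  have hhi : ∀ {y}, h y = y → h⁻¹ y = y := fun {y} e => by
    conv_lhs => rw [← e]
    simp
  have hgmove : ∀ {y}, g y ≠ y → g (g⁻¹ y) ≠ g⁻¹ y := fun {y} hy e => hy (by
    have : y = g⁻¹ y := by simpa using e
    conv_lhs => rw [this]
    simp)
  have hhmove : ∀ {y}, h y ≠ y → h (h⁻¹ y) ≠ h⁻¹ y := fun {y} hy e => hy (by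
    have : y = h⁻¹ y := by simpa using e
    conv_lhs => rw [this]
    simp)
  set a := g x with ha
  set b := h x with hb
  have hga : g a ≠ a := fun e => hgx (g.injective e)
  have hhb : h b ≠ b := fun e => hhx (h.injective e)
  have hba : b ≠ a := fun e => hgx (hmeet a hga (e ▸ hhb))
  have hc : g * h * g⁻¹ * h⁻¹ = Equiv.swap b a * Equiv.swap b x := by
    ext y
    simp only [Equiv.Perm.mul_apply]
    rcases eq_or_ne y b with rfl | hyb
    · rw [Equiv.swap_apply_left, Equiv.swap_apply_of_ne_of_ne hhx.symm hgx.symm,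
        show h⁻¹ b = x by simp [hb]]
      have h1 : g⁻¹ x ≠ x := fun e => hgx (ha.trans ((congrArg g e).symm.trans (by simp)))
      rw [hfix _ h1 (hgmove hgx)]
      simp
    rcases eq_or_ne y x with rfl | hyx
    · rw [Equiv.swap_apply_right, Equiv.swap_apply_left]
      have h1 : h⁻¹ y ≠ y := fun e => hhx (hb.trans ((congrArg h e).symm.trans (by simp)))
      rw [hgi (gfix _ h1 (hhmove hhx))]
      simp [ha]
    rw [Equiv.swap_apply_of_ne_of_ne hyb hyx]
    rcases eq_or_ne y a with rfl | hya
    · rw [Equiv.swap_apply_right, hhi (hfix _ hyx hga), show g⁻¹ a = x by simp [ha], ← hb, gfix b hhx hhb]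
    rw [Equiv.swap_apply_of_ne_of_ne hyb hya]
    by_cases hy : h y = y
    · rw [hhi hy]
      by_cases hy' : g y = y
      · rw [hgi hy', hy, hy']
      · have h1 : g⁻¹ y ≠ x := fun e => hya (by rw [ha, ← e]; simp)
        rw [hfix _ h1 (hgmove hy')]
        simp
    · have h1 : h⁻¹ y ≠ x := fun e => hyb (by rw [hb, ← e]; simp)
      rw [hgi (gfix _ h1 (hhmove hy))]
      simp [gfix y hyx hy]
  rw [hc]
  exact Equiv.Perm.isThreeCycle_swap_mul_swap_same hba hhx hgx

/-- Bochert's bound for primitive groups. Let a finite group G act faithfully and primitively on a finite set Ω with n elements, and suppose the image of G in the symmetric group of Ω does not contain the alternating group of Ω. Then |G| · ⌊(n + 1)/2⌋! ≤ n!, that is, the index of G in the symmetric group is at least ⌊(n + 1)/2⌋!. -/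
theorem result {G Ω : Type*} [Group G] [Finite G] [MulAction G Ω] [FaithfulSMul G Ω] [Fintype Ω] [DecidableEq Ω]
    (hprim : MulAction.IsPreprimitive G Ω) (hA : ¬ alternatingGroup Ω ≤ (MulAction.toPermHom G Ω).range) :
    Nat.card G * Nat.factorial ((Fintype.card Ω + 1) / 2) ≤ Nat.factorial (Fintype.card Ω) := by
  classical
  set R := (MulAction.toPermHom G Ω).range
  have hcardR : Nat.card R = Nat.card G :=
    (Nat.card_congr (MonoidHom.ofInjective (f := MulAction.toPermHom G Ω) MulAction.toPerm_injective).toEquiv).symm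
  have hRprim : MulAction.IsPreprimitive R Ω := by
    let φ : Ω →ₑ[(MulAction.toPermHom G Ω).rangeRestrict] Ω := { toFun := id, map_smul' := fun g x => rfl }
    exact MulAction.IsPreprimitive.of_surjective (f := φ) Function.surjective_id
  let good : Finset Ω → Prop := fun D => ∀ g ∈ R, g.support ⊆ D → g = 1
  obtain ⟨D, hD, hmax⟩ := Finset.exists_max_image (Finset.univ.filter good) Finset.card
    ⟨∅, Finset.mem_filter.2 ⟨Finset.mem_univ _, fun g _ hg =>
      Equiv.Perm.support_eq_empty_iff.1 (Finset.subset_empty.1 hg)⟩⟩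
  rw [Finset.mem_filter] at hD
  have hD' := hD.2
  have hbad : ∀ E : Finset Ω, D.card < E.card → ∃ g ∈ R, g.support ⊆ E ∧ g ≠ 1 := by
    intro E hE
    by_contra! hcon
    exact absurd (hmax E (Finset.mem_filter.2 ⟨Finset.mem_univ _, hcon⟩)) (not_le.2 hE)
  have hsize : (Fintype.card Ω + 1) / 2 ≤ D.card := by
    by_contra hlt
    obtain ⟨h, hh, hhs, hh1⟩ := hbad Dᶜ (by rw [Finset.card_compl]; omega)
    obtain ⟨x, hx⟩ : h.support.Nonempty := by
      rw [Finset.nonempty_iff_ne_empty, Ne, Equiv.Perm.support_eq_empty_iff]; exact hh1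
    have hxD : x ∉ D := Finset.mem_compl.1 (hhs hx)
    obtain ⟨g, hg, hgs, hg1⟩ := hbad (insert x D) (by rw [Finset.card_insert_of_notMem hxD]; omega)
    have hgx : g x ≠ x := by
      intro e
      refine hg1 (hD' g hg fun y hy => ?_)
      rcases Finset.mem_insert.1 (hgs hy) with rfl | h'
      · exact absurd e (Equiv.Perm.mem_support.1 hy)
      · exact h'
    have h3 := commutator_isThreeCycle hgx (Equiv.Perm.mem_support.1 hx) (fun y hy hy' => by
      rcases Finset.mem_insert.1 (hgs (Equiv.Perm.mem_support.2 hy)) with rfl | h'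
      · rfl
      · exact absurd h' (Finset.mem_compl.1 (hhs (Equiv.Perm.mem_support.2 hy'))))
    exact hA (Equiv.Perm.alternatingGroup_le_of_isPreprimitive_of_isThreeCycle_mem (G := R) hRprim h3
      (mul_mem (mul_mem (mul_mem hg hh) (inv_mem hg)) (inv_mem hh)))
  have hinj : Function.Injective (fun p : R × Equiv.Perm {x // x ∈ D} =>
      (p.1 : Equiv.Perm Ω) * Equiv.Perm.ofSubtype p.2) := by
    rintro ⟨r, s⟩ ⟨r', s'⟩ h
    simp only at h
    have e : (((r' : R)⁻¹ * r : R) : Equiv.Perm Ω) = Equiv.Perm.ofSubtype (s' * s⁻¹) := by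
      simp only [Subgroup.coe_mul, Subgroup.coe_inv, map_mul, map_inv]
      rw [eq_mul_inv_iff_mul_eq, mul_assoc, h, inv_mul_cancel_left]
    have h1 : (((r' : R)⁻¹ * r : R) : Equiv.Perm Ω) = 1 := by
      refine hD' _ (r'⁻¹ * r).2 fun y hy => ?_
      by_contra hyD
      rw [Equiv.Perm.mem_support, e] at hy
      exact hy (Equiv.Perm.ofSubtype_apply_of_not_mem _ hyD)
    have hr : r = r' := (inv_mul_eq_one.1 (Subtype.ext h1)).symm
    subst hr
    exact Prod.ext rfl (Equiv.Perm.ofSubtype_injective (mul_left_cancel h))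
  have := Nat.card_le_card_of_injective _ hinj
  rw [Nat.card_prod, hcardR, Nat.card_perm, Nat.card_perm, Nat.card_eq_fintype_card (α := {x // x ∈ D}),
    Fintype.card_coe, Nat.card_eq_fintype_card (α := Ω)] at this
  exact le_trans (Nat.mul_le_mul_left _ (Nat.factorial_le hsize)) this

end Cfsg.Agent.S3681
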