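import Cfsg.Statements.S3682
import Cfsg.Agent.Lib.ThompsonWielandt.Perm

set_option autoImplicit false
open Cfsg Cfsg.Agent Cfsg.Agent.Lib.ThompsonWielandt
open scoped commutatorElement

namespace Cfsg.Agent.S3682

/-- Wielandt's bound toward the Sims conjecture. Let a finite group G act faithfully and primitively on a set Ω, let a and b be points, and suppose the orbit of b under the stabilizer of a has length d ≥ 2. Then there are a prime p and a normal p-subgroup P of the stabilizer of a, all of whose elements fix b, such that the index of P in the stabilizer of a divides d! · ((d - 1)!)^d. -/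
theorem result {G Ω : Type*} [Group G] [Finite G] [MulAction G Ω] [FaithfulSMul G Ω] [Finite Ω]
    (hprim : MulAction.IsPreprimitive G Ω) (a b : Ω) (d : ℕ) (hd : Nat.card (MulAction.orbit (MulAction.stabilizer G a) b) = d) (h2 : 2 ≤ d) :
    ∃ p : ℕ, p.Prime ∧ ∃ P : Subgroup (MulAction.stabilizer G a), P.Normal ∧ IsPGroup p P ∧ (∀ g : P, ((g : MulAction.stabilizer G a) : G) • b = b) ∧
      P.index ∣ Nat.factorial d * (Nat.factorial (d - 1)) ^ d := by
  obtain ⟨hA, hB, hne, hcA, hcB, hcard, hX, hloc⟩ := stabilizer_data hprim hd h2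
  rcases pair_or_card_dvd hcard hX with ⟨h1, h1'⟩ | h1
  · obtain ⟨p, hp, hpg, -⟩ := main (⟨hA, hB, hne, hcA, hcB, hloc, h1, h1'⟩ : Pair _ _)
    refine ⟨p, hp, (A2 (MulAction.stabilizer G a) (MulAction.stabilizer G b)).subgroupOf (MulAction.stabilizer G a),
      Subgroup.normal_subgroupOf_of_le_normalizer le_nz_A2, (hpg.to_le le_sup_left).comap_subtype,
      fun g => ?_, relIndex_A2_dvd hcard hX⟩
    exact MulAction.mem_stabilizer_iff.1 ((A2_le_B1.trans A1_le_left) g.2)
  · refine ⟨2, Nat.prime_two, ⊥, Subgroup.normal_bot, IsPGroup.of_bot, fun g => ?_, by rwa [Subgroup.index_bot]⟩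
    rw [show (g : MulAction.stabilizer G a) = 1 from Subgroup.mem_bot.1 g.2]
    simp

end Cfsg.Agent.S3682
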