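import Cfsg.Statements.S3683
import Mathlib

set_option autoImplicit false
open Cfsg

namespace Cfsg.Agent.S3683

/-- Let a finite group G act faithfully and primitively on a set Ω, and suppose the stabilizer of a point a fixes a second point b ≠ a (a suborbit of length 1 other than {a}). Then the stabilizer of a is trivial and G is cyclic of prime order. -/
theorem result {G Ω : Type*} [Group G] [Finite G] [MulAction G Ω] [FaithfulSMul G Ω] [Finite Ω]
    (hprim : MulAction.IsPreprimitive G Ω) (a b : Ω) (hab : a ≠ b) (hfix : ∀ g : G, g • a = a → g • b = b) :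
    MulAction.stabilizer G a = ⊥ ∧ IsCyclic G ∧ (Nat.card G).Prime := by
  classical
  haveI := hprim
  haveI : Nontrivial Ω := ⟨⟨a, b, hab⟩⟩
  have hc := MulAction.IsPreprimitive.isCoatom_stabilizer_of_isPreprimitive (G := G) a
  obtain ⟨g, hg⟩ := MulAction.exists_smul_eq G a b
  have hle : MulAction.stabilizer G a ≤ MulAction.stabilizer G b := fun x hx => hfix x hx
  have heq : MulAction.stabilizer G a = MulAction.stabilizer G b :=
    (hle.lt_or_eq).resolve_left fun h =>
      (MulAction.IsPreprimitive.isCoatom_stabilizer_of_isPreprimitive (G := G) b).1 (hc.2 _ h)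
  have hgn : g ∈ Subgroup.normalizer ((MulAction.stabilizer G a : Subgroup G) : Set G) := by
    rw [Subgroup.mem_normalizer_iff]
    intro x
    nth_rw 2 [heq]
    rw [MulAction.mem_stabilizer_iff, MulAction.mem_stabilizer_iff, mul_smul, mul_smul,
      inv_smul_eq_iff.2 hg.symm, ← hg, smul_left_cancel_iff]
  have hn : (MulAction.stabilizer G a).Normal := by
    rw [← Subgroup.normalizer_eq_top_iff]
    refine hc.2 _ (lt_of_le_of_ne Subgroup.le_normalizer fun e => hab ?_)
    have : g • a = a := MulAction.mem_stabilizer_iff.1 (e ▸ hgn)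
    rw [← hg, this]
  have hbot : MulAction.stabilizer G a = ⊥ := by
    rw [eq_bot_iff]
    intro x hx
    refine Subgroup.mem_bot.2 (FaithfulSMul.eq_of_smul_eq_smul fun y : Ω => ?_)
    obtain ⟨u, rfl⟩ := MulAction.exists_smul_eq G a y
    have h1 : (u⁻¹ * x * u) • a = a := by simpa using hn.conj_mem x hx u⁻¹
    rw [one_smul]
    rw [mul_smul, mul_smul, inv_smul_eq_iff] at h1
    exact h1
  rw [hbot] at hc
  haveI : Nontrivial G := ⟨⟨g, 1, fun e => hab (by rw [← hg, e, one_smul])⟩⟩
  obtain ⟨q, hq, hqd⟩ := Nat.exists_prime_and_dvd (Finite.one_lt_card (α := G)).ne'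
  haveI : Fact q.Prime := ⟨hq⟩
  obtain ⟨x, hx⟩ := exists_prime_orderOf_dvd_card' q hqd
  have htop : Subgroup.zpowers x = ⊤ :=
    hc.2 _ (bot_lt_iff_ne_bot.2 fun e => by
      rw [Subgroup.zpowers_eq_bot] at e
      rw [e, orderOf_one] at hx
      exact hq.one_lt.ne hx)
  have hcard : Nat.card G = q := by rw [← Subgroup.card_top, ← htop, Nat.card_zpowers, hx]
  exact ⟨hbot, isCyclic_of_prime_card hcard, hcard ▸ hq⟩

end Cfsg.Agent.S3683
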