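import Cfsg.Statements.S3684
import Cfsg.Agent.Lib.Involution.Basic

set_option autoImplicit false
open Cfsg

namespace Cfsg.Agent.S3684

section
open Cfsg.Agent.Lib

/-- two involutions generating a finite group give a dihedral isomorphism -/
lemma dihedral_of_pair {G : Type*} [Group G] [Finite G] {t s : G} (ht : orderOf t = 2) (hs : orderOf s = 2)
    (hts : t ≠ s) (hgen : Subgroup.closure ({t, s} : Set G) = ⊤) :
    Nonempty (G ≃* DihedralGroup (orderOf (t * s))) := by
  set ρ := t * s
  set m := orderOf ρ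
  have hm : 0 < m := orderOf_pos ρ
  have : NeZero m := ⟨hm.ne'⟩
  let f : ZMod m → G := fun i => ρ ^ i.val
  have hadd : ∀ i j, f (i + j) = f i * f j := fun i j => by
    simp only [f, ZMod.val_add, ← pow_add]; exact pow_mod_orderOf ρ _
  have h0 : f 0 = 1 := by simp [f]
  have hneg : ∀ i, f (-i) = (f i)⁻¹ := fun i => eq_inv_of_mul_eq_one_left (by rw [← hadd, neg_add_cancel, h0])
  have hflip : ∀ i, f i * t = t * f (-i) := fun i => by
    have := Involution.prod_zpow_mul_left ht hs (i.val : ℤ)
    rwa [zpow_natCast, zpow_neg, zpow_natCast, ← hneg] at this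
  have hsub : ∀ i j, f (i - j) = f i * (f j)⁻¹ := fun i j => by rw [sub_eq_add_neg, hadd, hneg]
  have hcomm : ∀ i j, f i * f j = f j * f i := fun i j => by rw [← hadd, ← hadd, add_comm]
  let φ : DihedralGroup m →* G :=
    MonoidHom.mk' (fun d => match d with | DihedralGroup.r i => f i | DihedralGroup.sr i => t * f i) (by
      rintro (i | i) (j | j)
      · exact hadd i j
      · show t * f (j - i) = f i * (t * f j)
        rw [← mul_assoc, hflip, mul_assoc, ← hadd, neg_add_eq_sub]
      · show t * f (i + j) = t * f i * f j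
        rw [hadd, mul_assoc]
      · show f (j - i) = t * f i * (t * f j)
        rw [mul_assoc, ← mul_assoc (f i), hflip, mul_assoc, Involution.mul_mul_self_left ht, ← hadd, neg_add_eq_sub])
  have hbij : Function.Bijective φ := by
    constructor
    · rw [← MonoidHom.ker_eq_bot_iff, eq_bot_iff]
      rintro (i | i) hi <;> rw [MonoidHom.mem_ker] at hi <;> rw [Subgroup.mem_bot]
      · change f i = 1 at hi
        have : m ∣ i.val := orderOf_dvd_of_pow_eq_one hi
        have hi0 : i = 0 := (ZMod.val_eq_zero i).1 (Nat.eq_zero_of_dvd_of_lt this (ZMod.val_lt i))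
        rw [hi0, DihedralGroup.one_def]
      · change t * f i = 1 at hi
        exfalso
        apply Involution.notMem_zpowers_prod ht hs hts
        have hm' : (f i)⁻¹ ∈ Subgroup.zpowers (t * s) := inv_mem (Subgroup.npow_mem_zpowers ρ i.val)
        exact (congrArg (· ∈ Subgroup.zpowers (t * s)) (eq_inv_of_mul_eq_one_left hi)).mpr hm'
    · intro g
      obtain ⟨k, hk⟩ := Involution.mem_closure_pair ht hs (hgen ▸ Subgroup.mem_top g : g ∈ Subgroup.closure {t, s})
      have hfk : f (k : ZMod m) = ρ ^ k := by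
        simp only [f]
        rw [← zpow_natCast, ZMod.val_intCast, zpow_mod_orderOf]
      rcases hk with hk | hk
      · exact ⟨DihedralGroup.r (k : ZMod m), hfk.trans hk.symm⟩
      · exact ⟨DihedralGroup.sr (k : ZMod m), by show t * f _ = g; rw [hfk, hk]⟩
  exact ⟨(MulEquiv.ofBijective φ hbij).symm⟩

end

/-- Let a finite group G act faithfully and primitively on a set Ω, and suppose the stabilizer of a point a has an orbit of length 2. Then the stabilizer of a has order 2 and G is isomorphic to the dihedral group of order 2p for some prime p. -/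
theorem result {G Ω : Type*} [Group G] [Finite G] [MulAction G Ω] [FaithfulSMul G Ω] [Finite Ω]
    (hprim : MulAction.IsPreprimitive G Ω) (a b : Ω) (h2 : Nat.card (MulAction.orbit (MulAction.stabilizer G a) b) = 2) :
    Nat.card (MulAction.stabilizer G a) = 2 ∧ ∃ p : ℕ, p.Prime ∧ Nonempty (G ≃* DihedralGroup p) := by
  classical
  set Ga := MulAction.stabilizer G a
  set Gb := MulAction.stabilizer G b
  set K := Ga ⊓ Gb
  have htr : MulAction.IsPretransitive G Ω := hprim.toIsPretransitive
  have hKa : (K.subgroupOf Ga).index = 2 := by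
    rw [← h2, ← Nat.card_congr (MulAction.orbitEquivQuotientStabilizer Ga b).symm, Subgroup.index]
    congr
    ext x
    simp [K, Subgroup.mem_subgroupOf, MulAction.mem_stabilizer_iff, Ga, Gb]
    rfl
  have hab : b ≠ a := by
    rintro rfl
    have h1 : MulAction.stabilizer Ga b = ⊤ := eq_top_iff.2 fun x _ => x.2
    rw [← Nat.card_congr (MulAction.orbitEquivQuotientStabilizer Ga b).symm, h1] at h2
    rw [← Subgroup.index, Subgroup.index_top] at h2
    omega
  have : Nontrivial Ω := ⟨⟨b, a, hab⟩⟩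
  have hmax : ∀ x : Ω, IsCoatom (MulAction.stabilizer G x) := fun x =>
    (MulAction.isCoatom_stabilizer_iff_preprimitive (G := G) x).2 hprim
  have hcards : Nat.card Ga = Nat.card Gb := by
    have h1 := Ga.card_mul_index
    have h2' := Gb.card_mul_index
    rw [MulAction.index_stabilizer_of_transitive] at h1 h2'
    exact Nat.eq_of_mul_eq_mul_right Nat.card_pos (h1.trans h2'.symm)
  have hKb : (K.subgroupOf Gb).index = 2 := by
    have h1 := (K.subgroupOf Ga).card_mul_index
    have h2' := (K.subgroupOf Gb).card_mul_index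
    rw [Nat.card_congr (Subgroup.subgroupOfEquivOfLe (inf_le_left : K ≤ Ga)).toEquiv, hKa] at h1
    rw [Nat.card_congr (Subgroup.subgroupOfEquivOfLe (inf_le_right : K ≤ Gb)).toEquiv] at h2'
    exact Nat.eq_of_mul_eq_mul_left Nat.card_pos (h2'.trans (hcards.symm.trans h1.symm))
  have hne : Ga ≠ Gb := by
    intro e
    have : K.subgroupOf Ga = ⊤ := by simp [K, ← e]
    rw [this, Subgroup.index_top] at hKa
    omega
  have hsup : Ga ⊔ Gb = ⊤ := by
    refine (hmax a).2 _ (lt_of_le_of_ne le_sup_left fun e => hne ?_)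
    rcases (hmax b).le_iff.1 (le_sup_right.trans e.ge : Gb ≤ Ga) with h | h
    · exact absurd h (hmax a).1
    · exact h
  have hKn : K.Normal := by
    rw [← Subgroup.normalizer_eq_top_iff, eq_top_iff, ← hsup, sup_le_iff]
    exact ⟨(Subgroup.normal_subgroupOf_iff_le_normalizer inf_le_left).1 (Subgroup.normal_of_index_eq_two hKa),
      (Subgroup.normal_subgroupOf_iff_le_normalizer inf_le_right).1 (Subgroup.normal_of_index_eq_two hKb)⟩
  have hK : K = ⊥ := by
    rw [eq_bot_iff]
    intro k hk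
    rw [Subgroup.mem_bot]
    apply FaithfulSMul.eq_of_smul_eq_smul (α := Ω)
    intro x
    obtain ⟨g, rfl⟩ := MulAction.exists_smul_eq G a x
    have := (hKn.conj_mem k hk g⁻¹).1
    rw [inv_inv] at this
    change (g⁻¹ * k * g) • a = a at this
    rw [mul_smul, mul_smul, inv_smul_eq_iff] at this
    rw [this, one_smul]
  have hGa : Nat.card Ga = 2 := by
    rw [← hKa, hK, Subgroup.bot_subgroupOf, Subgroup.index_bot]
  have hgen : ∀ (H : Subgroup G), Nat.card H = 2 → ∃ t : G, orderOf t = 2 ∧ H = Subgroup.zpowers t := by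
    intro H hH
    have := Fact.mk Nat.prime_two
    obtain ⟨⟨t, ht⟩, htt⟩ := exists_prime_orderOf_dvd_card' (G := H) 2 (by rw [hH])
    rw [Subgroup.orderOf_mk] at htt
    exact ⟨t, htt, (Subgroup.eq_of_le_of_card_ge (Subgroup.zpowers_le.2 ht) (by rw [Nat.card_zpowers, htt, hH])).symm⟩
  obtain ⟨t, ht, hta⟩ := hgen Ga hGa
  obtain ⟨s, hs, hsb⟩ := hgen Gb (hcards ▸ hGa)
  have hts : t ≠ s := fun e => hne (by rw [hta, hsb, e])
  have hcl : Subgroup.closure ({t, s} : Set G) = ⊤ := by
    rw [eq_top_iff, ← hsup, hta, hsb, sup_le_iff, Subgroup.zpowers_le, Subgroup.zpowers_le]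
    exact ⟨Subgroup.subset_closure (by simp), Subgroup.subset_closure (by simp)⟩
  refine ⟨hGa, orderOf (t * s), ?_, dihedral_of_pair ht hs hts hcl⟩
  set ρ := t * s
  rw [Nat.prime_def]
  refine ⟨?_, fun d hd => ?_⟩
  · have h1 : orderOf ρ ≠ 1 := fun h => hts (mul_eq_one_iff_eq_inv.1 (orderOf_eq_one_iff.1 h) |>.trans
      (Cfsg.Agent.Lib.Involution.inv_self hs))
    have := orderOf_pos ρ
    omega
  · by_contra! hcon
    obtain ⟨hd1, hdm⟩ := hcon
    let L : Subgroup G := Subgroup.closure {t, ρ ^ d}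
    have hflip : ∀ k : ℤ, (ρ ^ d) ^ k * t = t * (ρ ^ d) ^ (-k) := fun k => by
      rw [← zpow_natCast, ← zpow_mul, ← zpow_mul]
      have := Cfsg.Agent.Lib.Involution.prod_zpow_mul_left ht hs ((d : ℤ) * k)
      rwa [← mul_neg] at this
    have hform : ∀ g ∈ L, ∃ k : ℤ, g = (ρ ^ d) ^ k ∨ g = t * (ρ ^ d) ^ k := by
      intro g hg
      induction hg using Subgroup.closure_induction with
      | mem a ha =>
        rcases ha with rfl | rfl
        · exact ⟨0, Or.inr (by simp)⟩
        · exact ⟨1, Or.inl (by simp)⟩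
      | one => exact ⟨0, Or.inl (by simp)⟩
      | mul a b _ _ iha ihb =>
        obtain ⟨k, rfl | rfl⟩ := iha <;> obtain ⟨l, rfl | rfl⟩ := ihb
        · exact ⟨k + l, Or.inl (zpow_add _ _ _).symm⟩
        · exact ⟨-k + l, Or.inr (by rw [← mul_assoc, hflip, mul_assoc, zpow_add])⟩
        · exact ⟨k + l, Or.inr (by rw [mul_assoc, zpow_add])⟩
        · refine ⟨-k + l, Or.inl ?_⟩
          rw [mul_assoc, ← mul_assoc _ t, hflip, mul_assoc, Cfsg.Agent.Lib.Involution.mul_mul_self_left ht, zpow_add]
      | inv a _ iha =>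
        obtain ⟨k, rfl | rfl⟩ := iha
        · exact ⟨-k, Or.inl (zpow_neg _ _).symm⟩
        · exact ⟨k, Or.inr (by rw [mul_inv_rev, Cfsg.Agent.Lib.Involution.inv_self ht, ← zpow_neg, hflip, neg_neg])⟩
    have htL : t ∈ L := Subgroup.subset_closure (by simp)
    have hdL : ρ ^ d ∈ L := Subgroup.subset_closure (by simp)
    have hnotmem := Cfsg.Agent.Lib.Involution.notMem_zpowers_prod ht hs hts
    rcases (hmax a).le_iff.1 (show Ga ≤ L by rw [hta]; exact Subgroup.zpowers_le.2 htL) with h | h
    · obtain ⟨k, hk | hk⟩ := hform ρ (h ▸ Subgroup.mem_top ρ)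
      · apply hd1
        have h1 : ρ ^ ((d : ℤ) * k - 1) = 1 := by
          rw [zpow_sub, zpow_mul, zpow_natCast, ← hk, zpow_one, mul_inv_cancel]
        rw [← orderOf_dvd_iff_zpow_eq_one] at h1
        have hdz : (d : ℤ) ∣ (d : ℤ) * k - 1 := (Int.natCast_dvd_natCast.2 hd).trans h1
        have : (d : ℤ) ∣ 1 := by simpa using dvd_sub (dvd_mul_right (d : ℤ) k) hdz
        exact Nat.dvd_one.1 (by exact_mod_cast this)
      · apply hnotmem
        have hm' : ρ * ((ρ ^ d) ^ k)⁻¹ ∈ Subgroup.zpowers ρ :=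
          mul_mem (Subgroup.mem_zpowers _) (inv_mem (zpow_mem (Subgroup.npow_mem_zpowers _ _) _))
        exact (congrArg (· ∈ Subgroup.zpowers ρ) (eq_mul_inv_of_mul_eq hk.symm)).mpr hm'
    · have h1 : ρ ^ d ∈ Subgroup.zpowers t := by rw [← hta]; exact h.le hdL
      obtain ⟨k, hk⟩ := Subgroup.mem_zpowers_iff.1 h1
      rcases Int.even_or_odd k with ⟨j, rfl⟩ | ⟨j, rfl⟩
      · rw [show j + j = 2 * j by ring, zpow_mul, zpow_two, Cfsg.Agent.Lib.Involution.mul_self ht, one_zpow] at hk
        exact hdm (Nat.dvd_antisymm hd (orderOf_dvd_of_pow_eq_one hk.symm))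
      · rw [zpow_add, zpow_mul, zpow_two, Cfsg.Agent.Lib.Involution.mul_self ht, one_zpow, one_mul, zpow_one] at hk
        exact hnotmem ((congrArg (· ∈ Subgroup.zpowers ρ) hk).mpr (Subgroup.npow_mem_zpowers ρ d))

end Cfsg.Agent.S3684
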