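import Cfsg.Statements.S3693
import Cfsg.Agent.Lib.ThompsonWielandt.Perm

set_option autoImplicit false
open Cfsg Cfsg.Agent Cfsg.Agent.Lib.ThompsonWielandt
open scoped commutatorElement

namespace Cfsg.Agent.S3693

/-- Let a finite group G act faithfully and primitively on a set Ω, let a and b be points such that the orbit Δ of b under the stabilizer H of a has length d ≥ 2, and consider the permutation group induced on Δ by the elements of H fixing b. If that induced group has trivial Fitting subgroup (no non-trivial nilpotent normal subgroup), then the two-point stabilizer of a and b has trivial Fitting subgroup and the order of H divides d! · ((d - 1)!)^d. -/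
theorem result {G Ω : Type*} [Group G] [Finite G] [MulAction G Ω] [FaithfulSMul G Ω] [Finite Ω]
    (hprim : MulAction.IsPreprimitive G Ω) (a b : Ω) (d : ℕ) (hd : Nat.card (MulAction.orbit (MulAction.stabilizer G a) b) = d) (h2 : 2 ≤ d)
    (hF : Cfsg.fittingSubgroup ↥(((MulAction.stabilizer G b).subgroupOf (MulAction.stabilizer G a)).map (MulAction.toPermHom (MulAction.stabilizer G a) (MulAction.orbit (MulAction.stabilizer G a) b))) = ⊥) :
    Cfsg.fittingSubgroup ↥(MulAction.stabilizer G a ⊓ MulAction.stabilizer G b) = ⊥ ∧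
      Nat.card (MulAction.stabilizer G a) ∣ Nat.factorial d * (Nat.factorial (d - 1)) ^ d := by
  obtain ⟨hA, hB, hne, hcA, hcB, hcard, hX, hloc⟩ := stabilizer_data hprim hd h2
  let M := MulAction.stabilizer G a
  let N := MulAction.stabilizer G b
  let ρ := MulAction.toPermHom ↥M (MulAction.orbit ↥M b)
  let I := (N.subgroupOf M).map ρ
  have key : ∀ t : ℕ, t.Prime → Lib.Components.MaxLocal.locCore t (M ⊓ N) ≤ A1 M N := by
    intro t ht x hx
    haveI := Fact.mk ht
    let L := (Lib.Components.MaxLocal.locCore t (M ⊓ N)).subgroupOf M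
    have hLN : L ≤ N.subgroupOf M := fun y hy => (Lib.Components.MaxLocal.locCore_le t _ hy).2
    have hLI : L.map ρ ≤ I := Subgroup.map_mono hLN
    have hnL : N.subgroupOf M ≤ Subgroup.normalizer (L : Set ↥M) := by
      refine le_trans ?_ (Subgroup.le_normalizer_comap M.subtype)
      exact fun y hy => Lib.Components.MaxLocal.le_normalizer_locCore t _ ⟨y.2, hy⟩
    haveI : ((L.map ρ).subgroupOf I).Normal := Subgroup.normal_subgroupOf_of_le_normalizer
      ((Subgroup.map_mono hnL).trans (Subgroup.le_normalizer_map ρ))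
    have hp : IsPGroup t ↥((L.map ρ).subgroupOf I) :=
      (((Lib.Components.MaxLocal.locCore_isPGroup t _).comap_subtype).map ρ).comap_subtype
    have h0 : (L.map ρ).subgroupOf I ≤ ⊥ :=
      ((Lib.Components.le_pCore hp).trans (Lib.Components.pCore_le_fittingSubgroup t)).trans hF.le
    have hLk : L ≤ ρ.ker := fun y hy => by
      have : (⟨ρ y, hLI (Subgroup.mem_map_of_mem ρ hy)⟩ : ↥I) ∈ (⊥ : Subgroup ↥I) :=
        h0 (Subgroup.mem_map_of_mem ρ hy)
      exact congrArg Subtype.val (Subgroup.mem_bot.1 this)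
    have hkN : ρ.ker ≤ (M ⊓ N).subgroupOf M := fun y hy => by
      refine ⟨y.2, MulAction.mem_stabilizer_iff.2 ?_⟩
      have := congrArg (fun (π : Equiv.Perm (MulAction.orbit ↥M b)) => (π ⟨b, MulAction.mem_orbit_self b⟩ : Ω))
        (MonoidHom.mem_ker.1 hy)
      exact this
    exact ⟨⟨x, (Lib.Components.MaxLocal.locCore_le t _ hx).1⟩,
      Subgroup.normal_le_normalCore.2 hkN (hLk hx), rfl⟩
  have hbot : ∀ t : ℕ, t.Prime → Lib.Components.MaxLocal.locCore t (M ⊓ N) = ⊥ := fun t ht =>
    haveI := Fact.mk ht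
    locCore_inf_eq_bot hA hB hne hcA hcB (hloc t) (key t ht)
  refine ⟨?_, ?_⟩
  · rw [Lib.Components.fittingSubgroup_eq_iSup, iSup_eq_bot]
    exact fun t => (Subgroup.map_eq_bot_iff_of_injective _ (Subgroup.subtype_injective _)).1 (hbot t t.2)
  · rcases pair_or_card_dvd hcard hX with ⟨h1, h1'⟩ | h1
    · exfalso
      obtain ⟨p, hp, P, hP0, hPp, hPA, hPn⟩ :=
        (⟨hA, hB, hne, hcA, hcB, hloc, h1, h1'⟩ : Pair M N).exists_P1
      refine hP0 (le_bot_iff.1 (hbot p hp ▸ fun x hx => ?_))
      refine ⟨⟨x, (hPA.trans (cm_le _ _)) hx, (hPA.trans (A2_le_B1.trans A1_le_left)) hx⟩,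
        Lib.Components.le_pCore (N := P.subgroupOf (M ⊓ N))
          (hN := Subgroup.normal_subgroupOf_of_le_normalizer (inf_le_left.trans hPn)) hPp.comap_subtype hx, rfl⟩
    · exact h1

end Cfsg.Agent.S3693
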