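import Cfsg.Statements.S3702
import Cfsg.Agent.Lib.Involution.WreathMain
import Cfsg.Agent.Lib.LocalChar.Core

set_option autoImplicit false
open Cfsg

namespace Cfsg.Agent.S3702

open Cfsg.Agent.Lib.Involution.SignThree Subgroup SemidirectProduct

theorem sign_inv2_aux : ∀ (i j : Fin 3) (a : ℤˣ), i ≠ j →
    a * (Equiv.Perm.sign (blk i (inv2 j)) * a * Equiv.Perm.sign (blk j (inv2 j))) ≠ 1 := by decide

/-- A normal three-subgroup of `K0` consists of triples of three-cycles. -/
theorem normal_three_le {M : Subgroup K0} [hM : M.Normal] (h3 : IsPGroup 3 M) {m : K0} (hm : m ∈ M) :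
    (m : Wr).right = 1 ∧ AllEven (m : Wr).left := by
  have key : ∀ x ∈ M, (x : Wr).right = 1 → AllEven (x : Wr).left := by
    intro x hx hr i
    obtain ⟨k, hk⟩ := h3 ⟨x, hx⟩
    have hk' : (x : Wr) ^ 3 ^ k = 1 := by simpa using congrArg (fun y : M => ((y : K0) : Wr)) hk
    have he : (x : Wr) = inl (x : Wr).left := SemidirectProduct.ext (by simp) (by simp [hr])
    rw [he, ← map_pow] at hk'
    have h1 : (x : Wr).left ^ 3 ^ k = 1 := inl_injective (hk'.trans (map_one _).symm)
    have h2 := congrArg (fun y => Equiv.Perm.sign (blk i y)) h1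
    simp only [map_pow, map_one] at h2
    rcases Int.units_eq_one_or (Equiv.Perm.sign (blk i (x : Wr).left)) with h | h
    · exact h
    · rw [h, (Odd.pow (by decide : Odd 3)).neg_one_pow] at h2
      exact absurd h2 (by decide)
  suffices hr : (m : Wr).right = 1 from ⟨hr, key m hm hr⟩
  by_contra hr
  obtain ⟨j, hj⟩ : ∃ j : Fin 3, (m : Wr).right⁻¹ j ≠ j := by
    by_contra hc
    push Not at hc
    exact hr (inv_eq_one.mp (Equiv.ext hc))
  let u : K0 := Cfsg.Agent.Lib.Involution.SignThree.lift (inv2 j) (inv2_mem j)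
  have hmem : m * (u * m⁻¹ * u⁻¹) ∈ M := mul_mem hm (hM.conj_mem _ (inv_mem hm) u)
  have hev := key _ hmem (by simp [u, Cfsg.Agent.Lib.Involution.SignThree.lift]) j
  simp [u, Cfsg.Agent.Lib.Involution.SignThree.lift, blk_permute] at hev
  exact sign_inv2_aux _ _ _ hj hev

/-- Let K ≤ Sym(9) be generated by (1 2 3), (1 4 7)(2 5 8)(3 6 9), (1 2)(4 5) and (1 4)(2 5)(3 6)(7 8) (the normalizer in Alt(9) of the elementary abelian group generated by (1 2 3), (4 5 6), (7 8 9)). Let G be a finite group with a subgroup H ≅ K and J = O₃(H). If C_G(j) ≤ H for every j ≠ 1 in J and J is strongly closed in H with respect to G (a G-conjugate of an element of J lying in H lies in J), then G = H. -/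
theorem result {G : Type*} [Group G] [Finite G] (H : Subgroup G)
    (hH : Nonempty (↥H ≃* ↥(Subgroup.closure ({Equiv.swap (0 : Fin 9) 1 * Equiv.swap 1 2,
        Equiv.swap (0 : Fin 9) 3 * Equiv.swap 3 6 * (Equiv.swap (1 : Fin 9) 4 * Equiv.swap 4 7) * (Equiv.swap (2 : Fin 9) 5 * Equiv.swap 5 8),
        Equiv.swap (0 : Fin 9) 1 * Equiv.swap 3 4, Equiv.swap (0 : Fin 9) 3 * Equiv.swap 1 4 * Equiv.swap 2 5 * Equiv.swap 6 7} : Set (Equiv.Perm (Fin 9))))))
    (J : Subgroup G) (hJ : J = (Cfsg.pCore 3 ↥H).map H.subtype)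
    (hC : ∀ j ∈ J, j ≠ 1 → Subgroup.centralizer ({j} : Set G) ≤ H) (hsc : Cfsg.IsStronglyClosed J H) : H = ⊤ := by
  haveI : Fact (Nat.Prime 3) := ⟨Nat.prime_three⟩
  rw [closure_eq_rangeW] at hH
  obtain ⟨e⟩ := hH
  have hinj : Function.Injective (embW.comp K0.subtype) := embW_injective.comp Subtype.val_injective
  let e' : K0 ≃* H := (MonoidHom.ofInjective hinj).trans e.symm
  let f : K0 →* G := H.subtype.comp e'.toMonoidHom
  have hf : Function.Injective f := H.subtype_injective.comp e'.injective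
  have hr : f.range = H := by
    rw [MonoidHom.range_comp, MonoidHom.range_eq_top.mpr (show Function.Surjective e'.toMonoidHom from e'.surjective),
      ← MonoidHom.range_eq_map, Subgroup.range_subtype]
  have hJ' : J = (Cfsg.pCore 3 K0).map f := by
    rw [hJ, ← Cfsg.Agent.Lib.LocalChar.pCore_map_equiv e', Subgroup.map_map]
  let N : Subgroup K0 :=
    { carrier := {m | (m : Wr).right = 1 ∧ AllEven (m : Wr).left}
      one_mem' := ⟨rfl, fun i => by simp⟩
      mul_mem' := fun {a b} ha hb => ⟨by simp [ha.1, hb.1], by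
        simpa [ha.1] using allEven_mul ha.2 hb.2⟩
      inv_mem' := fun {a} ha => ⟨by simp [ha.1], fun i => by simp [ha.1, ha.2 i]⟩ }
  have hNn : N.Normal := ⟨fun m hm n => ⟨by simp [hm.1], by
    simpa [hm.1] using allEven_conj (n : Wr) hm.2⟩⟩
  have hNp : IsPGroup 3 N := fun ⟨m, hm⟩ => ⟨1, Subtype.ext (Subtype.ext (by
    have he : (m : Wr) = inl (m : Wr).left := SemidirectProduct.ext (by simp) (by simp [hm.1])
    simp only [SubgroupClass.coe_pow, OneMemClass.coe_one, pow_one]
    rw [he, ← map_pow, allEven_cube hm.2, map_one]))⟩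
  have D : WData f J :=
    { inj := hf
      memJ := fun x => by
        rw [hJ']
        constructor
        · rintro ⟨m, hm, rfl⟩
          haveI : (Cfsg.pCore 3 K0).Normal := sSup_normal _ fun _ h => h.1
          obtain ⟨h1, h2⟩ := normal_three_le Cfsg.Agent.Lib.LocalChar.pCore_isPGroup hm
          exact ⟨m, h1, h2, rfl⟩
        · rintro ⟨m, h1, h2, rfl⟩
          exact ⟨m, Cfsg.Agent.Lib.LocalChar.le_pCore hNn hNp ⟨h1, h2⟩, rfl⟩
      cent := fun j hj h1 => hr ▸ hC j hj h1
      closed := hr ▸ hsc }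
  rw [← hr]
  exact D.range_eq_top

end Cfsg.Agent.S3702
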