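import Cfsg.Statements.S3703
import Cfsg.Agent.Lib.Recog.FrobLift
import Cfsg.Agent.Lib.FPF.FrobeniusKernel
import Cfsg.Agent.Lib.Hall.Frobenius

set_option autoImplicit false
open Cfsg Cfsg.Agent.Lib

namespace Cfsg.Agent.S3703

/-- Let N be a normal subgroup of the finite group G such that G/N is a Frobenius group with kernel F and cyclic complement H, where the order of F is coprime to that of N and F is not contained in the image of C_G(N) in G/N. Then G has an element of order p·#H for some prime p dividing the order of N. (A standard tool in recognising groups by their element orders.) -/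
theorem result {G : Type*} [Group G] [Finite G] (N : Subgroup G) [N.Normal]
    (Fb Hb : Subgroup (G ⧸ N)) [Fb.Normal] (hHb : Cfsg.IsFrobeniusComplement Hb) (hker : Cfsg.frobeniusKernel Hb = (Fb : Set (G ⧸ N)))
    (hcyc : IsCyclic Hb) (hcop : (Nat.card Fb).Coprime (Nat.card N))
    (hnot : ¬ Fb ≤ (Subgroup.centralizer (N : Set G)).map (QuotientGroup.mk' N)) :
    ∃ p : ℕ, p.Prime ∧ p ∣ Nat.card N ∧ ∃ g : G, orderOf g = p * Nat.card Hb := by
  classical
  obtain ⟨K, hKset, hKn, hKc, hKnil⟩ := FPF.exists_frobenius_kernel_nilpotent hHb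
  have hKFb : K = Fb := SetLike.coe_injective (hKset.trans hker)
  subst hKFb
  set π := QuotientGroup.mk' N with hπdef
  set C := (Subgroup.centralizer (N : Set G)).map π with hCdef
  -- a Sylow subgroup of the kernel not in the image of the centraliser
  obtain ⟨r, hr, F, hFC⟩ : ∃ r, ∃ _ : Fact r.Prime, ∃ F : Sylow r K, ¬ (F : Subgroup K).map K.subtype ≤ C := by
    by_contra hall
    push Not at hall
    apply hnot
    have hd : Nat.card K ∣ Nat.card (C.subgroupOf K) := by
      refine (Nat.dvd_iff_prime_pow_dvd_dvd _ _).2 fun q k hq hqk => ?_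
      have := Fact.mk hq
      let Q : Sylow q K := default
      have hle : (Q : Subgroup K) ≤ C.subgroupOf K := fun z hz =>
        hall q ⟨hq⟩ Q ⟨z, hz, rfl⟩
      exact (Q.pow_dvd_card_of_pow_dvd_card hqk).trans (Subgroup.card_dvd_of_le hle)
    have htop : C.subgroupOf K = ⊤ :=
      Subgroup.eq_top_of_card_eq _ (Nat.dvd_antisymm (Subgroup.card_subgroup_dvd_card _) hd)
    exact Subgroup.subgroupOf_eq_top.1 htop
  haveI := hr
  haveI : K.Normal := hKn
  haveI hFn : (F : Subgroup K).Normal := by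
    have := (Group.isNilpotent_of_finite_tfae (G := K)).out 0 3
    exact (this.1 hKnil) r inferInstance F
  haveI : (F : Subgroup K).Characteristic := Sylow.characteristic_of_normal F hFn
  set Fr := (F : Subgroup K).map K.subtype with hFr
  haveI hFrn : Fr.Normal := inferInstance
  have hFrK : Fr ≤ K := Subgroup.map_subtype_le _
  have hrK : r ∣ Nat.card K := by
    by_contra hrK
    apply hFC
    have hcF : Nat.card (F : Subgroup K) = 1 := by
      rw [F.card_eq_multiplicity, Nat.factorization_eq_zero_of_not_dvd hrK, pow_zero]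
    rw [hFr, Subgroup.eq_bot_of_card_eq _ hcF, Subgroup.map_bot]
    exact bot_le
  have hrN : ¬ r ∣ Nat.card N := fun h => hr.out.ne_one (Nat.eq_one_of_dvd_coprimes hcop hrK h)
  -- a Sylow subgroup of the preimage
  set Kr := Fr.comap π with hKr
  haveI : Kr.Normal := hFrn.comap π
  let R₁ : Sylow r Kr := default
  let f : Kr →* Fr := (π.comp Kr.subtype).codRestrict Fr fun z => z.2
  have hfs : Function.Surjective f := fun z => by
    obtain ⟨g, hg⟩ := QuotientGroup.mk'_surjective N (z : G ⧸ N)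
    exact ⟨⟨g, by rw [hKr, Subgroup.mem_comap, hπdef, hg]; exact z.2⟩, Subtype.ext hg⟩
  set R := (R₁ : Subgroup Kr).map Kr.subtype with hRdef
  have hRp : IsPGroup r R := R₁.2.map Kr.subtype
  have hFrp : IsPGroup r Fr := F.2.map K.subtype
  have hRmap : ∀ z ∈ Fr, ∃ g ∈ R, π g = z := by
    intro z hz
    have htop : (R₁.mapSurjective hfs : Subgroup Fr) = ⊤ := by
      have hFrtop : IsPGroup r (⊤ : Subgroup Fr) := hFrp.to_subgroup ⊤
      exact ((R₁.mapSurjective hfs).3 hFrtop le_top).symm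
    have hz' : (⟨z, hz⟩ : Fr) ∈ (R₁ : Subgroup Kr).map f := by
      rw [← Sylow.coe_mapSurjective hfs R₁, htop]; trivial
    obtain ⟨g, hg, he⟩ := hz'
    exact ⟨g, ⟨g, hg, rfl⟩, congrArg Subtype.val he⟩
  have hRN : R ⊓ N = ⊥ := by
    rw [eq_bot_iff]
    rintro g ⟨hgR, hgN⟩
    obtain ⟨e, he⟩ := IsPGroup.iff_orderOf.1 hRp ⟨g, hgR⟩
    rw [Subgroup.orderOf_mk] at he
    have h1 : orderOf g ∣ Nat.card N := Subgroup.orderOf_mk g hgN ▸ orderOf_dvd_natCard (⟨g, hgN⟩ : N)
    rw [Subgroup.mem_bot, ← orderOf_eq_one_iff, he]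
    rcases Nat.eq_zero_or_pos e with e0 | e0
    · rw [e0, pow_zero]
    · exact absurd ((dvd_pow_self r e0.ne').trans (he ▸ h1)) hrN
  have hRnt : ¬ R ≤ Subgroup.centralizer (N : Set G) := fun h => hFC fun z hz => by
    obtain ⟨g, hg, rfl⟩ := hRmap z hz
    exact ⟨g, h hg, rfl⟩
  have hRcard : (Nat.card R).Coprime (Nat.card N) := by
    obtain ⟨e, he⟩ := (IsPGroup.iff_card (p := r)).1 hRp
    rw [he]; exact ((Nat.Prime.coprime_iff_not_dvd hr.out).2 hrN).pow_left e
  have hRnorm : R ≤ Subgroup.normalizer (N : Set G) := fun g _ => by rw [Subgroup.normalizer_eq_top N]; trivial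
  have hRsol : Group.IsSolvable R := by
    haveI := hRp.isNilpotent
    infer_instance
  -- the prime and the invariant Sylow subgroup
  obtain ⟨p, hp, P, hPR, hPnc⟩ : ∃ p, ∃ _ : Fact p.Prime, ∃ P : Sylow p N,
      R ≤ Subgroup.normalizer (((P : Subgroup N).map N.subtype : Subgroup G) : Set G) ∧
      ¬ R ≤ Subgroup.centralizer (((P : Subgroup N).map N.subtype : Subgroup G) : Set G) := by
    by_contra hall
    push Not at hall
    apply hRnt
    have hd : Nat.card N ∣ Nat.card ((Subgroup.centralizer (R : Set G)).subgroupOf N) := by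
      refine (Nat.dvd_iff_prime_pow_dvd_dvd _ _).2 fun q k hq hqk => ?_
      have := Fact.mk hq
      obtain ⟨Q, hQ⟩ := Coprime.exists_invariant_sylow hRnorm hRcard (Or.inl hRsol) q
      have hle : (Q : Subgroup N) ≤ (Subgroup.centralizer (R : Set G)).subgroupOf N := fun z hz =>
        Subgroup.mem_centralizer_iff.2 fun g hg =>
          ((Subgroup.mem_centralizer_iff.1 (hall q ⟨hq⟩ Q hQ hg)) z ⟨z, hz, rfl⟩).symm
      exact (Q.pow_dvd_card_of_pow_dvd_card hqk).trans (Subgroup.card_dvd_of_le hle)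
    have htop : (Subgroup.centralizer (R : Set G)).subgroupOf N = ⊤ :=
      Subgroup.eq_top_of_card_eq _ (Nat.dvd_antisymm (Subgroup.card_subgroup_dvd_card _) hd)
    intro g hg
    exact Subgroup.mem_centralizer_iff.2 fun z hz =>
      (Subgroup.mem_centralizer_iff.1 (Subgroup.subgroupOf_eq_top.1 htop hz) g hg).symm
  haveI := hp
  set P₀ := (P : Subgroup N).map N.subtype with hP₀
  have hpN : p ∣ Nat.card N := by
    by_contra hpN
    apply hPnc
    have hc : Nat.card (P : Subgroup N) = 1 := by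
      rw [P.card_eq_multiplicity, Nat.factorization_eq_zero_of_not_dvd hpN, pow_zero]
    intro g _
    rw [hP₀, Subgroup.eq_bot_of_card_eq _ hc, Subgroup.map_bot]
    exact Subgroup.mem_centralizer_iff.2 fun z hz => by rw [Subgroup.mem_bot.1 hz]; simp
  set n := Nat.card Hb with hn
  obtain ⟨h, hh⟩ := hcyc.exists_generator
  have hhord : orderOf (h : G ⧸ N) = n := by
    rw [Subgroup.orderOf_coe]; exact orderOf_eq_card_of_forall_mem_zpowers hh
  -- a lift normalising both
  set M := Subgroup.normalizer (P₀ : Set G) with hM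
  have hMN : M ⊔ N = ⊤ := Sylow.normalizer_sup_eq_top P
  let L : Subgroup M := Kr.subgroupOf M
  haveI : L.Normal := inferInstance
  have hRM : R ≤ M := hPR
  have hRKr : R ≤ Kr := Subgroup.map_subtype_le _
  obtain ⟨y, hyM, hyR, hyh⟩ : ∃ y ∈ M, y ∈ Subgroup.normalizer (R : Set G) ∧ π y = h := by
    obtain ⟨g, hg⟩ := QuotientGroup.mk'_surjective N (h : G ⧸ N)
    have hgm : g ∈ M ⊔ N := hMN ▸ Subgroup.mem_top g
    obtain ⟨m, hm, c, hc, rfl⟩ := Subgroup.mem_sup_of_normal_right.1 hgm
    have hπc : π c = 1 := (QuotientGroup.eq_one_iff c).2 hc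
    have hmh : π m = h := by rw [hπdef, ← hg, map_mul, ← hπdef, hπc, mul_one]
    set L' := M.subgroupOf Kr with hL'
    let c' : MulAut Kr := MulAut.conjNormal m
    have hle1 : (R₁ : Subgroup Kr) ≤ L' := fun z hz => hRM ⟨z, hz, rfl⟩
    have hle2 : ((c' • R₁ : Sylow r Kr) : Subgroup Kr) ≤ L' := fun z hz => by
      obtain ⟨w, hw, rfl⟩ := hz
      show m * (w : G) * m⁻¹ ∈ M
      exact mul_mem (mul_mem hm (hRM ⟨w, hw, rfl⟩)) (inv_mem hm)
    obtain ⟨l, hl⟩ := MulAction.exists_smul_eq L' (R₁.subtype hle1) ((c' • R₁).subtype hle2)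
    set lg : G := ((l : Kr) : G) with hlg
    have hsub : ∀ z : G, z ∈ R → lg⁻¹ * (m * z * m⁻¹) * lg ∈ R := by
      rintro _ ⟨w, hw, rfl⟩
      have hmem : c' w ∈ ((c' • R₁ : Sylow r Kr) : Subgroup Kr) := ⟨w, hw, rfl⟩
      have h2 : (⟨c' w, hle2 hmem⟩ : L') ∈ (((c' • R₁).subtype hle2 : Sylow r L') : Subgroup L') := hmem
      rw [← hl] at h2
      obtain ⟨u, hu, hue⟩ := h2
      refine ⟨u, hu, ?_⟩
      have e : lg * ((u : Kr) : G) * lg⁻¹ = m * (w : G) * m⁻¹ := congrArg (fun z : L' => ((z : Kr) : G)) hue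
      show ((u : Kr) : G) = lg⁻¹ * (m * (w : G) * m⁻¹) * lg
      rw [← e]; group
    have hnorm : lg⁻¹ * m ∈ Subgroup.normalizer (R : Set G) := by
      refine Subgroup.mem_normalizer_fintype fun z hz => ?_
      simpa [mul_assoc] using hsub z hz
    obtain ⟨r0, hr0, hπr0⟩ := hRmap (π lg) (l : Kr).2
    refine ⟨r0 * (lg⁻¹ * m), mul_mem (hRM hr0) (mul_mem (inv_mem l.2) hm),
      mul_mem (Subgroup.le_normalizer hr0) hnorm, ?_⟩
    rw [map_mul, map_mul, map_inv, hπr0, mul_inv_cancel_left, hmh]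
  have hyord : n ∣ orderOf y := by
    rw [← hhord, ← hyh]; exact orderOf_map_dvd π y
  by_cases hyn : y ^ n = 1
  swap
  · have hne : orderOf y / n ≠ 1 := fun e => hyn (by
      rw [← orderOf_dvd_iff_pow_eq_one]
      obtain ⟨t, ht⟩ := hyord
      rw [ht, Nat.mul_div_cancel_left _ Nat.card_pos] at e
      rw [ht, e, mul_one])
    obtain ⟨q, hq, hqd⟩ := Nat.exists_prime_and_dvd hne
    obtain ⟨t, ht⟩ := hyord
    rw [ht, Nat.mul_div_cancel_left _ Nat.card_pos] at hqd
    refine ⟨q, hq, ?_, _, orderOf_pow_orderOf_div (orderOf_pos y).ne' (n := q * n) ?_⟩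
    · have hy' : y ^ n ∈ N := by
        rw [← QuotientGroup.eq_one_iff, ← QuotientGroup.mk'_apply, ← hπdef, map_pow, hyh, ← hhord, pow_orderOf_eq_one]
      have h1 := orderOf_dvd_natCard (⟨y ^ n, hy'⟩ : N)
      rw [Subgroup.orderOf_mk, orderOf_pow' y Nat.card_pos.ne', Nat.gcd_eq_right ⟨t, ht⟩, ht,
        Nat.mul_div_cancel_left _ Nat.card_pos] at h1
      exact hqd.trans h1
    · rw [ht, mul_comm q]; exact mul_dvd_mul_left n hqd
  · haveI : (P₀.subgroupOf M).Normal := Subgroup.normal_subgroupOf_of_le_normalizer le_rfl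
    have hP₀M : P₀ ≤ M := Subgroup.le_normalizer
    have hP₀p : IsPGroup p P₀ := P.2.map N.subtype
    obtain ⟨x, hx⟩ := Recog.exists_orderOf_dvd_mul (P₀.subgroupOf M)
      (hP₀p.of_equiv (Subgroup.subgroupOfEquivOfLe hP₀M).symm) (R.subgroupOf M) ⟨y, hyM⟩ n Nat.card_pos
      (by
        rw [Subgroup.mem_normalizer_iff]
        intro z
        exact Subgroup.mem_normalizer_iff.1 hyR z)
      (Subtype.ext hyn)
      (fun k hk => by
        rw [← hhord, orderOf_dvd_iff_pow_eq_one, ← hyh, ← map_pow]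
        exact (QuotientGroup.eq_one_iff _).2 (Subgroup.map_subtype_le _ hk))
      (by
        rw [Nat.card_congr (Subgroup.subgroupOfEquivOfLe hRM).toEquiv]
        exact hRcard.coprime_dvd_right hpN)
      (fun i hi hin g hg hcg => by
        have hgR : (g : G) ∈ R := hg
        have hc2 : Commute (π (g : G)) ((h : G ⧸ N) ^ i) := by
          rw [← hyh, ← map_pow]
          have e : (g : G) * y ^ i = y ^ i * g := congrArg Subtype.val hcg.eq
          show π (g : G) * π (y ^ i) = π (y ^ i) * π (g : G)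
          rw [← map_mul, ← map_mul, e]
        have hne : (h : G ⧸ N) ^ i ≠ 1 := fun e => by
          have := Nat.le_of_dvd hi (orderOf_dvd_of_pow_eq_one e)
          rw [hhord] at this; omega
        have hgH : π (g : G) ∈ Hb := Hall.fc_centralizer_le hHb (pow_mem h.2 i) hne
          (Subgroup.mem_centralizer_singleton_iff.2 hc2.eq)
        obtain ⟨w, hw, hwg⟩ := hgR
        have hgF : π (g : G) ∈ K := hFrK (by rw [← hwg]; exact w.2)
        have hg1 : π (g : G) = 1 := Subgroup.disjoint_def.1 hKc.disjoint hgF hgH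
        have : (g : G) ∈ R ⊓ N := ⟨hg, (QuotientGroup.eq_one_iff _).1 hg1⟩
        rw [hRN, Subgroup.mem_bot] at this
        exact Subtype.ext this)
      (fun hle => hPnc fun g hg => by
        rw [Subgroup.mem_centralizer_iff]
        intro z hz
        exact congrArg Subtype.val
          (Subgroup.mem_centralizer_iff.1 (hle (x := ⟨g, hRM hg⟩) hg) ⟨z, hP₀M hz⟩ hz))
    refine ⟨p, hp.out, hpN, _, orderOf_pow_orderOf_div (orderOf_pos (x : G)).ne' (n := p * n) ?_⟩
    rw [Subgroup.orderOf_coe]; exact hx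

end Cfsg.Agent.S3703
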