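import Cfsg.Statements.S3713
import Cfsg.Agent.Lib.SlimSp.Main

set_option autoImplicit false
open Cfsg

namespace Cfsg.Agent.S3713

/-- A presentation of the symplectic group as the universal completion of an amalgam of small subgroups. Let F be a field with more than two elements, n ≥ 2, and Sp the group of 2n × 2n matrices over F preserving the standard alternating form, acting on column vectors; write e_k, f_k for the standard basis vectors of the two halves (a hyperbolic basis). For each k let S_k be the subgroup of Sp fixing e_l and f_l for all l ≠ k (a copy of SL(2, F) on the plane of e_k, f_k), and for each i with i + 1 < n let M_i be the subgroup fixing every e_l and fixing f_l for all l other than i, i+1 (an abelian group isomorphic to the additive group of F³). Then Sp is the universal completion of the amalgam formed by the S_k, the M_i and the subgroups generated by two of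 them: for every group H and homomorphisms σ_k : S_k → H, μ_i : M_i → H such that for each pair of these subgroups some homomorphism on the subgroup they generate restricts to the given ones, there is exactly one homomorphism Sp → H restricting to every σ_k and μ_i. -/
theorem result
    (F : Type*) [Field F] (hF : ∃ a : F, a ≠ 0 ∧ a ≠ 1) (n : ℕ) (hn : 2 ≤ n)
    (S M : Fin n → Subgroup ↥(Matrix.symplecticGroup (Fin n) F))
    (hS : ∀ j : Fin n, S j = Subgroup.closure {A : ↥(Matrix.symplecticGroup (Fin n) F) | ∀ k : Fin n, k ≠ j →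
      ((A : ↥(Matrix.symplecticGroup (Fin n) F)) : Matrix (Fin n ⊕ Fin n) (Fin n ⊕ Fin n) F).mulVec (Pi.single (Sum.inl k) (1 : F)) = (Pi.single (Sum.inl k) (1 : F)) ∧ ((A : ↥(Matrix.symplecticGroup (Fin n) F)) : Matrix (Fin n ⊕ Fin n) (Fin n ⊕ Fin n) F).mulVec (Pi.single (Sum.inr k) (1 : F)) = (Pi.single (Sum.inr k) (1 : F))})
    (hM : ∀ i : Fin n, (i : ℕ) + 1 < n → M i = Subgroup.closure {A : ↥(Matrix.symplecticGroup (Fin n) F) |
      (∀ k : Fin n, ((A : ↥(Matrix.symplecticGroup (Fin n) F)) : Matrix (Fin n ⊕ Fin n) (Fin n ⊕ Fin n) F).mulVec (Pi.single (Sum.inl k) (1 : F)) = (Pi.single (Sum.inl k) (1 : F))) ∧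
        ∀ k : Fin n, (k : ℕ) ≠ i → (k : ℕ) ≠ (i : ℕ) + 1 → ((A : ↥(Matrix.symplecticGroup (Fin n) F)) : Matrix (Fin n ⊕ Fin n) (Fin n ⊕ Fin n) F).mulVec (Pi.single (Sum.inr k) (1 : F)) = (Pi.single (Sum.inr k) (1 : F))})
    {H : Type*} [Group H] (σ : ∀ j : Fin n, ↥(S j) →* H) (μ : ∀ i : Fin n, ↥(M i) →* H)
    (hSS : ∀ j l : Fin n, j ≠ l → ∃ Ψ : ↥(S j ⊔ S l) →* H,
      (∀ (g : ↥(Matrix.symplecticGroup (Fin n) F)) (hg : g ∈ S j), Ψ ⟨g, Subgroup.mem_sup_left hg⟩ = σ j ⟨g, hg⟩) ∧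
        (∀ (g : ↥(Matrix.symplecticGroup (Fin n) F)) (hg : g ∈ S l), Ψ ⟨g, Subgroup.mem_sup_right hg⟩ = σ l ⟨g, hg⟩))
    (hMM : ∀ i i' : Fin n, i ≠ i' → (i : ℕ) + 1 < n → (i' : ℕ) + 1 < n → ∃ Ψ : ↥(M i ⊔ M i') →* H,
      (∀ (g : ↥(Matrix.symplecticGroup (Fin n) F)) (hg : g ∈ M i), Ψ ⟨g, Subgroup.mem_sup_left hg⟩ = μ i ⟨g, hg⟩) ∧
        (∀ (g : ↥(Matrix.symplecticGroup (Fin n) F)) (hg : g ∈ M i'), Ψ ⟨g, Subgroup.mem_sup_right hg⟩ = μ i' ⟨g, hg⟩))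
    (hMS : ∀ i j : Fin n, (i : ℕ) + 1 < n → ∃ Ψ : ↥(M i ⊔ S j) →* H,
      (∀ (g : ↥(Matrix.symplecticGroup (Fin n) F)) (hg : g ∈ M i), Ψ ⟨g, Subgroup.mem_sup_left hg⟩ = μ i ⟨g, hg⟩) ∧
        (∀ (g : ↥(Matrix.symplecticGroup (Fin n) F)) (hg : g ∈ S j), Ψ ⟨g, Subgroup.mem_sup_right hg⟩ = σ j ⟨g, hg⟩)) :
    ∃! Φ : ↥(Matrix.symplecticGroup (Fin n) F) →* H,
      (∀ (j : Fin n) (g : ↥(Matrix.symplecticGroup (Fin n) F)) (hg : g ∈ S j), Φ g = σ j ⟨g, hg⟩) ∧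
        (∀ (i : Fin n), (i : ℕ) + 1 < n → ∀ (g : ↥(Matrix.symplecticGroup (Fin n) F)) (hg : g ∈ M i), Φ g = μ i ⟨g, hg⟩) := by
  classical
  obtain ⟨m, rfl⟩ : ∃ m, n = m + 2 := ⟨n - 2, by omega⟩
  have eS : ∀ j, S j = Agent.Lib.SlimSp.Sf j := fun j => hS j
  have eM : ∀ i : Fin (m + 2), (i : ℕ) + 1 < m + 2 → M i = Agent.Lib.SlimSp.Mf i := fun i hi => hM i hi
  let σ' : ∀ j : Fin (m + 2), ↥(Matrix.symplecticGroup (Fin (m + 2)) F) → H := fun j g =>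
    if h : g ∈ S j then σ j ⟨g, h⟩ else 1
  let μ' : ∀ i : Fin (m + 2), ↥(Matrix.symplecticGroup (Fin (m + 2)) F) → H := fun i g =>
    if h : g ∈ M i then μ i ⟨g, h⟩ else 1
  have cv : ∀ (A B : Subgroup ↥(Matrix.symplecticGroup (Fin (m + 2)) F)) (f : A →* H) (f' : B →* H)
      (u u' : ↥(Matrix.symplecticGroup (Fin (m + 2)) F) → H),
      (∀ g (h : g ∈ A), u g = f ⟨g, h⟩) → (∀ g (h : g ∈ B), u' g = f' ⟨g, h⟩) →
      (∃ Ψ : ↥(A ⊔ B) →* H, (∀ g (hg : g ∈ A), Ψ ⟨g, Subgroup.mem_sup_left hg⟩ = f ⟨g, hg⟩) ∧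
        ∀ g (hg : g ∈ B), Ψ ⟨g, Subgroup.mem_sup_right hg⟩ = f' ⟨g, hg⟩) →
      Agent.Lib.SlimSp.Compat A B u u' := by
    rintro A B f f' u u' hu hu' ⟨Ψ, h1, h2⟩
    refine ⟨fun g => if h : g ∈ A ⊔ B then Ψ ⟨g, h⟩ else 1, fun a ha b hb => ?_, fun g hg => ?_, fun g hg => ?_⟩
    · simp only [dif_pos ha, dif_pos hb, dif_pos (mul_mem ha hb)]
      rw [← map_mul]; rfl
    · show dite _ _ _ = _
      rw [dif_pos (Subgroup.mem_sup_left hg), h1 g hg, hu g hg]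
    · show dite _ _ _ = _
      rw [dif_pos (Subgroup.mem_sup_right hg), h2 g hg, hu' g hg]
  have hσ' : ∀ j g (h : g ∈ S j), σ' j g = σ j ⟨g, h⟩ := fun j g h => dif_pos h
  have hμ' : ∀ i g (h : g ∈ M i), μ' i g = μ i ⟨g, h⟩ := fun i g h => dif_pos h
  obtain ⟨Φ, hΦS, hΦM⟩ := Agent.Lib.SlimSp.exists_hom hF (m + 1) σ' μ'
    (fun j a ha b hb => by
      rw [← eS] at ha hb
      rw [hσ' j a ha, hσ' j b hb, hσ' j _ (mul_mem ha hb), ← map_mul]; rfl)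
    (fun j l h => by rw [← eS, ← eS]; exact cv _ _ _ _ _ _ (hσ' j) (hσ' l) (hSS j l h))
    (fun i i' h hi hi' => by
      rw [← eM i hi, ← eM i' hi']; exact cv _ _ _ _ _ _ (hμ' i) (hμ' i') (hMM i i' h hi hi'))
    (fun i j hi => by rw [← eS, ← eM i hi]; exact cv _ _ _ _ _ _ (hμ' i) (hσ' j) (hMS i j hi))
  refine ⟨Φ, ⟨fun j g hg => (hΦS j g (eS j ▸ hg)).trans (hσ' j g hg),
    fun i hi g hg => (hΦM i hi g (eM i hi ▸ hg)).trans (hμ' i g hg)⟩, ?_⟩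
  rintro Φ' ⟨h1, h2⟩
  refine Agent.Lib.SlimSp.hom_ext (fun j g hg => ?_) fun i hi g hg => ?_
  · rw [← eS] at hg
    rw [h1 j g hg, hΦS j g (eS j ▸ hg), hσ' j g hg]
  · rw [← eM i hi] at hg
    rw [h2 i hi g hg, hΦM i hi g (eM i hi ▸ hg), hμ' i g hg]

end Cfsg.Agent.S3713
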