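import Cfsg.Statements.S3802
import Cfsg.Agent.Lib.LocalP2.SubnormalJoin
import Cfsg.Agent.Lib.Coprime.Basic
import Mathlib

set_option autoImplicit false
open Cfsg

namespace Cfsg.Agent.S3802


open Subgroup

universe u

lemma main : ∀ (n : ℕ) (G : Type u) [Group G] [Finite G], Nat.card G = n → ∀ M N : Subgroup G,
    IsCoatom M → N.IsSubnormal → N ≤ M → N ≤ M.normalCore := by
  intro n
  induction n using Nat.strong_induction_on with
  | _ n ih =>
  intro G _ _ hn M N hM hN hNM
  obtain ⟨R, ⟨hRn, hRne⟩, hRmin⟩ := (Set.toFinite {X : Subgroup G | X.Normal ∧ X ≠ ⊥}).exists_minimal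
    ⟨⊤, inferInstance, fun h => hM.1 (top_le_iff.mp (h.le.trans bot_le))⟩
  haveI := hRn
  intro x hx g
  by_cases hRM : R ≤ M
  · set π := QuotientGroup.mk' R
    have hcm : (M.map π).comap π = M := by
      rw [comap_map_eq, QuotientGroup.ker_mk', sup_eq_left.mpr hRM]
    have hM' : IsCoatom (M.map π) := by
      refine ⟨fun h => hM.1 (by rw [← hcm, h, comap_top]), fun X hX => ?_⟩
      have h1 : M < X.comap π := hcm ▸ (comap_lt_comap_of_surjective (QuotientGroup.mk'_surjective R)).mpr hX
      rw [← map_comap_eq_self_of_surjective (QuotientGroup.mk'_surjective R) X, hM.2 _ h1,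
        map_top_of_surjective _ (QuotientGroup.mk'_surjective R)]
    have := ih _ (hn ▸ Lib.Coprime.card_quotient_lt hRne) (G ⧸ R) rfl _ (N.map π) hM'
      (hN.map (QuotientGroup.mk'_surjective R)) (map_mono hNM) (mem_map_of_mem π hx) (π g)
    rw [← map_inv, ← map_mul, ← map_mul, ← mem_comap, hcm] at this
    exact this
  · have hnorm := Lib.LocalP2.minimal_normal_le_nz_of_subnormal _ G rfl R N hRn
      (fun X hX hle => or_iff_not_imp_left.2 fun hne => le_antisymm hle (hRmin ⟨hX, hne⟩ hle)) hN
    have htop : M ⊔ R = ⊤ := hM.2 _ (left_lt_sup.mpr hRM)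
    have hg : g ∈ M ⊔ R := htop ▸ mem_top g
    rw [← SetLike.mem_coe, mul_normal] at hg
    obtain ⟨m, hm, r, hr, rfl⟩ := hg
    have h1 := hNM ((mem_normalizer_iff.mp (hnorm hr) x).mp hx)
    simpa [mul_assoc] using M.mul_mem (M.mul_mem hm h1) (M.inv_mem hm)

/-- Let G be a finite group, M a maximal subgroup of G and N a subnormal subgroup of G contained in M. Then N is contained in every conjugate of M, that is, N lies in the core of M in G. -/
theorem result {G : Type*} [Group G] [Finite G] (M N : Subgroup G) (hM : IsCoatom M) (hN : N.IsSubnormal) (hNM : N ≤ M) :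
    N ≤ Subgroup.normalCore M := by
  exact main _ G rfl M N hM hN hNM

end Cfsg.Agent.S3802
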