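import Cfsg.Statements.S3803
import Cfsg.Agent.Lib.LocalFusion.Ito
import Cfsg.Agent.Lib.LocalChar.OmegaFix
import Cfsg.Agent.Lib.Transfer.Hall
import Cfsg.Agent.Lib.Coprime.Action

set_option autoImplicit false
open Cfsg

namespace Cfsg.Agent.S3803

open Subgroup

variable {X : Type*} [Group X] [Finite X]

lemma between {H Q : Subgroup X} (hQ : IsPGroup 2 Q) (hHQ : H ≤ Q) {a b : ℕ}
    (hH : Nat.card H = 2 ^ a) (hab : a ≤ b) (hb : 2 ^ b ≤ Nat.card Q) :
    ∃ K : Subgroup X, H ≤ K ∧ K ≤ Q ∧ Nat.card K = 2 ^ b := by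
  obtain ⟨c, hc⟩ := IsPGroup.iff_card.mp hQ
  rw [hc] at hb
  have hdvd : 2 ^ b ∣ Nat.card Q := by
    rw [hc]; exact pow_dvd_pow 2 ((Nat.pow_le_pow_iff_right (by norm_num)).mp hb)
  have hH' : Nat.card (H.subgroupOf Q) = 2 ^ a := by
    rw [Nat.card_congr (subgroupOfEquivOfLe hHQ).toEquiv, hH]
  obtain ⟨K, hK, hle⟩ := Sylow.exists_subgroup_card_pow_prime_le 2 hdvd (H.subgroupOf Q) hH' hab
  refine ⟨K.map Q.subtype, fun x hx => ⟨⟨x, hHQ hx⟩, hle (by exact hx), rfl⟩, map_subtype_le K, ?_⟩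
  rw [← hK, Nat.card_congr (equivMapOfInjective K Q.subtype Q.subtype_injective).toEquiv]

/-- an element of odd order normalizing a cyclic `2`-group centralizes it -/
lemma fix_cyclic {g y : X} (hg : Odd (orderOf g)) (hy : ∃ n, orderOf y = 2 ^ n)
    (hn : g * y * g⁻¹ ∈ zpowers y) : g * y * g⁻¹ = y := by
  obtain ⟨n, hy⟩ := hy
  obtain ⟨k, hk : y ^ k = g * y * g⁻¹⟩ :=
    (IsOfFinOrder.mem_powers_iff_mem_zpowers (isOfFinOrder_of_finite y)).mpr hn
  have hj : ∀ j : ℕ, g ^ j * y * (g ^ j)⁻¹ = y ^ (k ^ j) := by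
    intro j
    induction j with
    | zero => simp
    | succ j ih =>
      calc g ^ (j + 1) * y * (g ^ (j + 1))⁻¹ = g * (g ^ j * y * (g ^ j)⁻¹) * g⁻¹ := by
            rw [pow_succ']; group
        _ = (g * y * g⁻¹) ^ (k ^ j) := by rw [ih, conj_pow]
        _ = y ^ (k ^ (j + 1)) := by rw [← hk, ← pow_mul, pow_succ']
  have h1 := hj (orderOf g)
  rw [pow_orderOf_eq_one, one_mul, inv_one, mul_one] at h1
  nth_rewrite 1 [← pow_one y] at h1
  rw [pow_eq_pow_iff_modEq, hy, ← ZMod.natCast_eq_natCast_iff] at h1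
  push_cast at h1
  haveI : NeZero (2 ^ n) := ⟨by positivity⟩
  have hu : IsUnit ((k : ZMod (2 ^ n))) :=
    IsUnit.of_mul_eq_one ((k : ZMod (2 ^ n)) ^ (orderOf g - 1)) (by
      rw [← pow_succ', Nat.sub_add_cancel (Nat.one_le_iff_ne_zero.mpr (by
        obtain ⟨m, hm⟩ := hg; omega)), ← h1])
  have e1 : hu.unit ^ orderOf g = 1 := Units.ext (by simpa using h1.symm)
  have e2 : hu.unit ^ (Nat.totient (2 ^ n)) = 1 := ZMod.pow_totient hu.unit
  have hco : (orderOf g).Coprime (Nat.totient (2 ^ n)) := by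
    rcases Nat.eq_zero_or_pos n with hn0 | hn0
    · simp [hn0]
    · rw [Nat.totient_prime_pow Nat.prime_two hn0]
      simpa using hg.coprime_two_right.pow_right (n - 1)
  have e3 : hu.unit = 1 := by
    have := pow_gcd_eq_one.mpr ⟨e1, e2⟩
    rwa [hco.gcd_eq_one, pow_one] at this
  have e4 : (k : ZMod (2 ^ n)) = ((1 : ℕ) : ZMod (2 ^ n)) := by
    simpa using congrArg Units.val e3
  rw [ZMod.natCast_eq_natCast_iff] at e4
  rw [← hk]
  nth_rewrite 2 [← pow_one y]
  rw [pow_eq_pow_iff_modEq, hy]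
  exact e4

lemma map_frattini_le {Q M : Subgroup X} (hM : M ≤ Q) (h2 : Nat.card Q = 2 * Nat.card M) :
    (frattini Q).map Q.subtype ≤ M := by
  have hidx : (M.subgroupOf Q).index = 2 := by
    have h3 := card_mul_index (M.subgroupOf Q)
    rw [Nat.card_congr (subgroupOfEquivOfLe hM).toEquiv, h2, mul_comm 2] at h3
    exact Nat.eq_of_mul_eq_mul_left Nat.card_pos h3
  have hco : IsCoatom (M.subgroupOf Q) := by
    refine ⟨fun h => by rw [h, index_top] at hidx; omega, fun K hK => ?_⟩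
    have h4 := index_dvd_of_le hK.le
    rw [hidx] at h4
    rcases (Nat.dvd_prime Nat.prime_two).mp h4 with h5 | h5
    · exact index_eq_one.mp h5
    · exact absurd (eq_of_le_of_card_ge hK.le (by
        have e1 := card_mul_index (M.subgroupOf Q)
        have e2 := card_mul_index K
        rw [hidx] at e1
        rw [h5] at e2
        omega)) hK.ne
  exact (map_mono (frattini_le_coatom hco)).trans
    (by rw [subgroupOf_map_subtype]; exact inf_le_left)

lemma fixed_of_invariant {g : X} (hg : Odd (orderOf g)) {d e : ℕ} (hd : d = 2 ^ e) (he : 2 ≤ e)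
    {P : Subgroup X} (hP : IsPGroup 2 P)
    (hinv : ∀ E : Subgroup X, E ≤ P → Nat.card E = d → g ∈ normalizer (E : Set X)) :
    ∀ Q : Subgroup X, Q ≤ P → g ∈ normalizer (Q : Set X) → d < Nat.card Q →
      ∀ q ∈ Q, g * q * g⁻¹ = q := by
  intro Q
  induction Q using WellFoundedLT.induction with
  | _ Q ih =>
  intro hQP hgQ hdQ
  have hQ2 : IsPGroup 2 Q := hP.to_le hQP
  set F : Subgroup X := (frattini Q).map Q.subtype with hFdef
  have hgF : g ∈ normalizer (F : Set X) := mem_normalizer_iff.mpr fun f =>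
    ⟨Cfsg.Agent.Lib.LocalChar.frattini_map_nz hgQ f, fun hf => by
      have := Cfsg.Agent.Lib.LocalChar.frattini_map_nz (inv_mem hgQ) _ hf
      rwa [show g⁻¹ * (g * f * g⁻¹) * g⁻¹⁻¹ = f by group] at this⟩
  by_cases hhalf : Nat.card Q = 2 * d
  · -- every maximal subgroup has order d
    have hA : zpowers g ≤ centralizer (Q : Set X) := by
      refine Cfsg.Agent.Lib.Coprime.le_centralizer_of_frattini (zpowers_le.mpr hgQ) ?_ ?_
      · rw [Nat.card_zpowers]
        obtain ⟨c, hc⟩ := IsPGroup.iff_card.mp (hQ2.to_subgroup (frattini Q))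
        rw [hc]
        exact hg.coprime_two_right.pow_right c
      intro a ha k hk
      have haQ : a ∈ normalizer (Q : Set X) := zpowers_le.mpr hgQ ha
      have hakQ : a * k * a⁻¹ ∈ Q := (mem_normalizer_iff.mp haQ k).mp hk
      refine ⟨⟨_, mul_mem hakQ (inv_mem hk)⟩, ?_, rfl⟩
      rw [SetLike.mem_coe, frattini, Order.radical, mem_iInf]
      intro M
      rw [mem_iInf]
      intro hM
      have hMidx : M.index = 2 := by
        exact Cfsg.Agent.Lib.Transfer.index_of_isCoatom_pGroup hQ2 hM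
      set M' := M.map Q.subtype
      have hM'card : Nat.card M' = d := by
        have e1 := card_mul_index M
        rw [hMidx, hhalf, mul_comm] at e1
        rw [Nat.card_congr (equivMapOfInjective M Q.subtype Q.subtype_injective).symm.toEquiv]
        omega
      have hN : a ∈ normalizer (M' : Set X) :=
        zpowers_le.mpr (hinv M' ((map_subtype_le M).trans hQP) hM'card) ha
      show (⟨a * k * a⁻¹, hakQ⟩ : Q) * ⟨k, hk⟩⁻¹ ∈ M
      rw [mul_mem_iff_of_index_two hMidx, inv_mem_iff]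
      constructor
      · intro h
        have h' : a * k * a⁻¹ ∈ M' := ⟨⟨_, hakQ⟩, h, rfl⟩
        obtain ⟨w, hw, hwk⟩ := (mem_normalizer_iff.mp hN k).mpr h'
        have hw' : w = ⟨k, hk⟩ := Subtype.ext hwk
        exact hw' ▸ hw
      · intro h
        have h' : a * k * a⁻¹ ∈ M' := (mem_normalizer_iff.mp hN k).mp ⟨⟨k, hk⟩, h, rfl⟩
        obtain ⟨w, hw, hwk⟩ := h'
        have hw' : w = ⟨a * k * a⁻¹, hakQ⟩ := Subtype.ext hwk
        exact hw' ▸ hw
    intro q hq
    rw [(mem_centralizer_iff.mp (hA (mem_zpowers g)) q hq).symm, mul_inv_cancel_right]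
  have hcop : (orderOf g).Coprime 2 := hg.coprime_two_right
  refine Cfsg.Agent.Lib.LocalFusion.centralizes_of_fix_small (p := 2) hcop Q hQ2 hgQ ?_
  intro y hy hy4
  have hy4' : y ^ 4 = 1 := by
    rcases hy4 with h | ⟨-, h⟩
    · rw [show 4 = 2 * 2 from rfl, pow_mul, h, one_pow]
    · exact h
  obtain ⟨a, ha2, ha⟩ : ∃ a ≤ 2, orderOf y = 2 ^ a :=
    (Nat.dvd_prime_pow Nat.prime_two).mp (orderOf_dvd_of_pow_eq_one (by simpa using hy4') :
      orderOf y ∣ 2 ^ 2)
  obtain ⟨E, hyE, hEQ, hEc⟩ := between hQ2 (zpowers_le.mpr hy) (Nat.card_zpowers y ▸ ha)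
    (ha2.trans he) (hd ▸ hdQ.le)
  rw [zpowers_le] at hyE
  rw [← hd] at hEc
  have hgE := hinv E (hEQ.trans hQP) hEc
  have hWQ : E ⊔ F ≠ Q := by
    intro h
    have h1 : E.subgroupOf Q ⊔ frattini Q = ⊤ := by
      apply map_injective Q.subtype_injective
      rw [Subgroup.map_sup, ← MonoidHom.range_eq_map, range_subtype, subgroupOf_map_subtype,
        inf_eq_left.mpr hEQ]
      exact h
    have h2 := subgroupOf_eq_top.mp (frattini_nongenerating h1)
    rw [← hEc] at hdQ
    exact hdQ.not_ge (card_le_of_le h2)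
  have hWlt : E ⊔ F < Q := lt_of_le_of_ne (sup_le hEQ (map_subtype_le _)) hWQ
  rcases lt_or_ge d (Nat.card (E ⊔ F : Subgroup X)) with hW | hW
  · have hgW : g ∈ normalizer ((E ⊔ F : Subgroup X) : Set X) :=
      normalizer_inf_normalizer_le_normalizer_sup E F ⟨hgE, hgF⟩
    exact ih _ hWlt (hWlt.le.trans hQP) hgW hW y (mem_sup_left hyE)
  -- now `E` contains the Frattini subgroup
  have hFE : F ≤ E := by
    rw [← hEc] at hW
    rw [eq_of_le_of_card_ge (le_sup_left : E ≤ E ⊔ F) hW]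
    exact le_sup_right
  obtain ⟨c, hc⟩ := IsPGroup.iff_card.mp hQ2
  have hec : e + 2 ≤ c := by
    rw [hd, hc] at hdQ hhalf
    have h1 := (Nat.pow_lt_pow_iff_right (by norm_num : 1 < 2)).mp hdQ
    by_contra h2
    exact hhalf (by rw [show c = e + 1 by omega, pow_succ, mul_comm])
  obtain ⟨M, hEM, hMQ, hMc⟩ := between hQ2 hEQ (hEc.trans hd) (Nat.le_succ e)
    (by rw [hc]; exact Nat.pow_le_pow_right (by norm_num) (by omega))
  have hMlt : M < Q := lt_of_le_of_ne hMQ fun h => by
    rw [h, hc] at hMc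
    have := Nat.pow_right_injective le_rfl hMc
    omega
  have hEMlt : E < M := lt_of_le_of_ne hEM fun h => by
    rw [h, hMc, hd] at hEc
    have := Nat.pow_right_injective le_rfl hEc
    omega
  by_cases huniq : ∀ E' : Subgroup X, E' ≤ M → Nat.card E' = d → E' = E
  · obtain ⟨m, hmM, hmE⟩ := SetLike.exists_of_lt hEMlt
    have hzm : zpowers m = M := by
      by_contra hne
      have hlt : zpowers m < M := lt_of_le_of_ne (zpowers_le.mpr hmM) hne
      obtain ⟨b, hb⟩ := IsPGroup.iff_card.mp (hQ2.to_le (hlt.le.trans hMQ))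
      have hbe : b ≤ e := by
        have h1 : Nat.card (zpowers m) < Nat.card M :=
          lt_of_le_of_ne (card_le_of_le hlt.le) fun h => hlt.ne (eq_of_le_of_card_ge hlt.le h.ge)
        rw [hb, hMc] at h1
        have := (Nat.pow_lt_pow_iff_right (by norm_num : 1 < 2)).mp h1
        omega
      obtain ⟨E', hmE', hE'M, hE'c⟩ := between (hQ2.to_le hMQ) hlt.le hb hbe
        (by rw [hMc]; exact Nat.pow_le_pow_right (by norm_num) (Nat.le_succ e))
      rw [huniq E' hE'M (hE'c.trans hd.symm)] at hmE'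
      exact hmE (hmE' (mem_zpowers m))
    haveI : IsCyclic E := isCyclic_of_injective (inclusion (hzm ▸ hEM : E ≤ zpowers m))
      (inclusion_injective _)
    obtain ⟨u, hu⟩ := E.isCyclic_iff_exists_zpowers_eq_top.mp inferInstance
    have hufix : g * u * g⁻¹ = u := by
      refine fix_cyclic hg ⟨e, ?_⟩ ?_
      · rw [← Nat.card_zpowers, hu, hEc, hd]
      · rw [hu]; exact (mem_normalizer_iff.mp hgE u).mp (hu ▸ mem_zpowers u)
    rw [← hu] at hyE
    obtain ⟨i, rfl⟩ := mem_zpowers_iff.mp hyE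
    rw [← conj_zpow, hufix]
  · push Not at huniq
    obtain ⟨E', hE'M, hE'c, hne⟩ := huniq
    have hsup : E ⊔ E' = M := by
      have hle : E ⊔ E' ≤ M := sup_le hEM hE'M
      refine eq_of_le_of_card_ge hle ?_
      obtain ⟨b, hb⟩ := IsPGroup.iff_card.mp (hQ2.to_le (hle.trans hMQ))
      have hgt : d < Nat.card (E ⊔ E' : Subgroup X) := by
        rw [← hEc]
        refine lt_of_le_of_ne (card_le_of_le le_sup_left) fun h => hne ?_
        have := eq_of_le_of_card_ge (le_sup_left : E ≤ E ⊔ E') h.ge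
        exact eq_of_le_of_card_ge (this ▸ le_sup_right) (by rw [hE'c, hEc])
      rw [hb, hd] at hgt
      have := (Nat.pow_lt_pow_iff_right (by norm_num : 1 < 2)).mp hgt
      rw [hb, hMc]
      exact Nat.pow_le_pow_right (by norm_num) this
    have hgM : g ∈ normalizer (M : Set X) := by
      rw [← hsup]
      exact normalizer_inf_normalizer_le_normalizer_sup E E' ⟨hgE, hinv E' (hE'M.trans (hMQ.trans hQP)) hE'c⟩
    exact ih M hMlt (hMQ.trans hQP) hgM (by
      rw [hMc, hd]; exact Nat.pow_lt_pow_right (by norm_num) (Nat.lt_succ_self e)) y (hEM hyE)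


/-- Let P be a 2-subgroup and A a subgroup of odd order of a finite group, with A normalizing P. Let D ≤ P with 1 < |D| < |P|. If every subgroup of P of order |D|, and also every subgroup of P of order 4 in case |D| = 2, is normalized by A, then A centralizes P. -/
theorem result {X : Type*} [Group X] [Finite X] (P A D : Subgroup X) (hP : IsPGroup 2 P) (hA : Odd (Nat.card A))
    (hAP : A ≤ Subgroup.normalizer (P : Set X)) (hDP : D ≤ P) (hD1 : 1 < Nat.card D) (hD2 : Nat.card D < Nat.card P)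
    (hinv : ∀ E : Subgroup X, E ≤ P → (Nat.card E = Nat.card D ∨ (Nat.card D = 2 ∧ Nat.card E = 4)) → A ≤ Subgroup.normalizer (E : Set X)) :
    A ≤ Subgroup.centralizer (P : Set X) := by
  intro g hgA
  rw [Subgroup.mem_centralizer_iff]
  suffices h : ∀ q ∈ P, g * q * g⁻¹ = q from fun q hq => (mul_inv_eq_iff_eq_mul.mp (h q hq)).symm
  have hg : Odd (orderOf g) := by
    have := orderOf_dvd_natCard (⟨g, hgA⟩ : A)
    rw [Subgroup.orderOf_mk] at this
    exact hA.of_dvd_nat this
  obtain ⟨e, he⟩ := IsPGroup.iff_card.mp (hP.to_le hDP)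
  have he1 : 1 ≤ e := by
    by_contra h
    rw [he, show e = 0 by omega, pow_zero] at hD1
    omega
  rcases Nat.lt_or_ge e 2 with h | h
  · have hD : Nat.card D = 2 := by rw [he, show e = 1 by omega, pow_one]
    refine Cfsg.Agent.Lib.LocalFusion.centralizes_of_fix_small (p := 2) hg.coprime_two_right P hP
      (hAP hgA) ?_
    intro y hy hy4
    have hy4' : y ^ 4 = 1 := by
      rcases hy4 with h | ⟨-, h⟩
      · rw [show 4 = 2 * 2 from rfl, pow_mul, h, one_pow]
      · exact h
    obtain ⟨a, ha2, ha⟩ : ∃ a ≤ 2, orderOf y = 2 ^ a :=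
      (Nat.dvd_prime_pow Nat.prime_two).mp (orderOf_dvd_of_pow_eq_one (by simpa using hy4') :
        orderOf y ∣ 2 ^ 2)
    rcases Nat.eq_zero_or_pos a with ha0 | ha0
    · rw [ha0, pow_zero, orderOf_eq_one_iff] at ha
      simp [ha]
    have hc : Nat.card (Subgroup.zpowers y) = Nat.card D ∨
        (Nat.card D = 2 ∧ Nat.card (Subgroup.zpowers y) = 4) := by
      rw [Nat.card_zpowers, ha, hD]
      interval_cases a <;> simp
    exact fix_cyclic hg ⟨a, ha⟩ ((Subgroup.mem_normalizer_iff.mp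
      (hinv _ (Subgroup.zpowers_le.mpr hy) hc hgA) y).mp (Subgroup.mem_zpowers y))
  · exact fixed_of_invariant hg he h hP (fun E hE hc => hinv E hE (Or.inl hc) hgA) P le_rfl
      (hAP hgA) hD2

end Cfsg.Agent.S3803
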