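import Cfsg.Statements.S3815
import Cfsg.Agent.Lib.Hall.Basic

set_option autoImplicit false
open Cfsg

namespace Cfsg.Agent.S3815

/-- Let G be a finite group, p a prime and d ∈ G an element of order prime to p. If dg has order prime to p for every element g ∈ G of order prime to p, then d ∈ O_{p'}(G). -/
theorem result {G : Type*} [Group G] [Finite G] {p : ℕ} [Fact p.Prime]
    (d : G) (hd : (orderOf d).Coprime p)
    (h : ∀ g : G, (orderOf g).Coprime p → (orderOf (d * g)).Coprime p) :
    d ∈ Cfsg.pPrimeCore p G := by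
  let S : Set G := {x | ∀ g : G, (orderOf g).Coprime p → (orderOf (x * g)).Coprime p}
  have hconj : ∀ t : G, t * d * t⁻¹ ∈ S := fun t g hg => by
    have hord : ∀ x : G, orderOf (t * x * t⁻¹) = orderOf x := fun x => (MulAut.conj t).orderOf_eq x
    have h1 := h (t⁻¹ * g * t) (by rwa [← hord, show t * (t⁻¹ * g * t) * t⁻¹ = g by group])
    rwa [← hord, show t * (d * (t⁻¹ * g * t)) * t⁻¹ = t * d * t⁻¹ * g by group] at h1
  let H : Submonoid G :=
    { carrier := S
      mul_mem' := fun {a b} ha hb g hg => by rw [mul_assoc]; exact ha _ (hb g hg)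
      one_mem' := fun g hg => by rwa [one_mul] }
  have hN : ∀ x ∈ Subgroup.normalClosure ({d} : Set G), x ∈ H := by
    have : (Subgroup.normalClosure ({d} : Set G)).toSubmonoid = Submonoid.closure (Group.conjugatesOfSet ({d} : Set G)) := by
      exact Subgroup.closure_toSubmonoid_of_finite
    intro x hx
    rw [← Subgroup.mem_toSubmonoid, this] at hx
    refine (Submonoid.closure_le.mpr ?_) hx
    intro y hy
    obtain ⟨z, rfl, hz⟩ := Group.mem_conjugatesOfSet_iff.mp hy
    obtain ⟨t, rfl⟩ := isConj_iff.mp hz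
    exact hconj t
  have hcop : (Nat.card (Subgroup.normalClosure ({d} : Set G))).Coprime p := by
    rw [Nat.coprime_comm, (Fact.out : p.Prime).coprime_iff_not_dvd]
    intro hdvd
    obtain ⟨x, hx⟩ := exists_prime_orderOf_dvd_card' p hdvd
    have := hN x x.2 1 (by simp)
    rw [mul_one, Subgroup.orderOf_coe, hx, Nat.coprime_self] at this
    exact (Fact.out : p.Prime).one_lt.ne' this
  have hmem : Subgroup.normalClosure ({d} : Set G) ≤ Cfsg.pPrimeCore p G :=
    le_sSup ⟨Subgroup.normalClosure_normal, hcop⟩
  exact hmem (Subgroup.subset_normalClosure rfl)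

end Cfsg.Agent.S3815
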