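import Cfsg.Statements.S3816
import Cfsg.Agent.Lib.FixedGen.Main
import Mathlib.GroupTheory.SemidirectProduct
-- import your own Cfsg.Agent.* helpers here

set_option autoImplicit false
open Cfsg

namespace Cfsg.Agent.S3816

/-- Let p be an odd prime, H a finite solvable group of order prime to p, and x an automorphism of H of order p (so P = ⟨x⟩ has prime order p > 2 and acts coprimely on H). For h ∈ H let [h, P] be the subgroup generated by the commutators h⁻¹·xⁱ(h), and let [H, P] be the subgroup generated by all of these. Then the fixed points of x in [H, P] are generated by the fixed points of x in the subgroups [h, P], h ∈ H. -/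
theorem result {H : Type*} [Group H] [Finite H]
    [Group.IsSolvable H] {p : ℕ} [Fact p.Prime] (hp : p ≠ 2) (hcop : (Nat.card H).Coprime p)
    (x : MulAut H) (hx : orderOf x = p) :
    Subgroup.closure {c : H | ∃ h : H, ∃ i : ℕ, c = h⁻¹ * (x ^ i) h} ⊓ (x : H →* H).eqLocus (MonoidHom.id H) =
      ⨆ h : H, Subgroup.closure {c : H | ∃ i : ℕ, c = h⁻¹ * (x ^ i) h} ⊓ (x : H →* H).eqLocus (MonoidHom.id H) := by
  classical
  let φ : Subgroup.zpowers x →* MulAut H := (Subgroup.zpowers x).subtype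
  let S := H ⋊[φ] Subgroup.zpowers x
  haveI : Finite S := Finite.of_equiv _ SemidirectProduct.equivProd.symm
  let ι : H →* S := SemidirectProduct.inl
  let X : Subgroup S := ι.range
  let A : Subgroup S := (SemidirectProduct.inr : Subgroup.zpowers x →* S).range
  have hι : Function.Injective ι := SemidirectProduct.inl_injective
  have hA : Nat.card A = p := by
    rw [← Nat.card_congr (MonoidHom.ofInjective SemidirectProduct.inr_injective).toEquiv,
      Nat.card_zpowers, hx]
  have hAX : A ≤ Subgroup.normalizer (X : Set S) := by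
    refine Lib.FixedGen.le_normalizer_of_conj_mem ?_
    rintro _ ⟨a, rfl⟩ _ ⟨h, rfl⟩
    exact ⟨φ a h, by rw [← map_inv]; exact SemidirectProduct.inl_aut a h⟩
  have hsol : Group.IsSolvable X := Group.isSolvable_of_surjective ι.rangeRestrict_surjective
  have hcopX : (Nat.card X).Coprime p :=
    hcop.coprime_dvd_left (Subgroup.card_range_dvd ι)
  have key := Lib.FixedGen.fixed_eq_gen Fact.out hp hA hAX hsol hcopX
  let K : H → Subgroup H := fun h => Subgroup.closure {c : H | ∃ i : ℕ, c = h⁻¹ * (x ^ i) h}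
  let C : Subgroup H := (x : H →* H).eqLocus (MonoidHom.id H)
  -- `cl A (ι h)` is the image of `K h`
  have hgen : ∀ (h : H) (a : Subgroup.zpowers x),
      (ι h)⁻¹ * SemidirectProduct.inr a * ι h * (SemidirectProduct.inr a)⁻¹ = ι (h⁻¹ * φ a h) := by
    intro h a
    rw [map_mul, map_inv, show ι (φ a h) = _ from SemidirectProduct.inl_aut a h, map_inv]
    simp only [mul_assoc]
    rfl
  have hcl : ∀ h : H, Lib.FixedGen.cl A (ι h) = (K h).map ι := by
    intro h
    simp only [K, Lib.FixedGen.cl, MonoidHom.map_closure]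
    congr 1
    ext z
    constructor
    · rintro ⟨_, ⟨⟨a, ha⟩, rfl⟩, rfl⟩
      obtain ⟨i, hi⟩ := mem_powers_iff_mem_zpowers.mpr ha
      refine ⟨h⁻¹ * (x ^ i) h, ⟨i, rfl⟩, ?_⟩
      rw [hgen]
      show ι (h⁻¹ * (x ^ i) h) = ι (h⁻¹ * a h)
      rw [show x ^ i = a from hi]
    · rintro ⟨_, ⟨i, rfl⟩, rfl⟩
      exact ⟨_, ⟨⟨x ^ i, Subgroup.npow_mem_zpowers x i⟩, rfl⟩, (hgen h ⟨x ^ i, Subgroup.npow_mem_zpowers x i⟩).symm⟩
  have hC : ∀ h : H, ι h ∈ Subgroup.centralizer (A : Set S) ↔ h ∈ C := by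
    intro h
    constructor
    · intro hh
      have h1 := Subgroup.mem_centralizer_iff.mp hh (SemidirectProduct.inr (φ := φ) ⟨x, Subgroup.mem_zpowers x⟩)
        ⟨_, rfl⟩
      show x h = h
      apply hι
      rw [show x h = φ ⟨x, Subgroup.mem_zpowers x⟩ h from rfl, show ι (φ _ h) = _ from
        SemidirectProduct.inl_aut _ h, map_inv, mul_inv_eq_iff_eq_mul]
      exact h1
    · intro hh
      rw [Subgroup.mem_centralizer_iff]
      rintro _ ⟨⟨a, ha⟩, rfl⟩
      obtain ⟨i, hi⟩ := mem_powers_iff_mem_zpowers.mpr ha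
      have h1 : ∀ j : ℕ, (x ^ j) h = h := by
        intro j
        induction j with
        | zero => simp
        | succ j ih => rw [pow_succ, MulAut.mul_apply, show x h = h from hh, ih]
      have h2 : φ ⟨a, ha⟩ h = h := by
        show a h = h
        rw [← show x ^ i = a from hi, h1]
      have h3 := SemidirectProduct.inl_aut (φ := φ) ⟨a, ha⟩ h
      rw [h2, map_inv, eq_mul_inv_iff_mul_eq] at h3
      exact h3.symm
  have hmapinf : ∀ L : Subgroup H,
      (L ⊓ C).map ι = L.map ι ⊓ Subgroup.centralizer (A : Set S) := by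
    intro L
    ext z
    constructor
    · rintro ⟨h, ⟨h1, h2⟩, rfl⟩
      exact ⟨⟨h, h1, rfl⟩, (hC h).mpr h2⟩
    · rintro ⟨⟨h, h1, rfl⟩, h2⟩
      exact ⟨h, ⟨h1, (hC h).mp h2⟩, rfl⟩
  have hcomm : ⁅X, A⁆ = (Subgroup.closure {c : H | ∃ h : H, ∃ i : ℕ, c = h⁻¹ * (x ^ i) h}).map ι := by
    refine le_antisymm (Lib.FixedGen.commutator_le_of_cl ?_) ?_
    · rintro _ ⟨h, rfl⟩
      rw [hcl]
      exact Subgroup.map_mono (Subgroup.closure_mono fun c ⟨i, hc⟩ => ⟨h, i, hc⟩)
    · rw [Subgroup.map_le_iff_le_comap, Subgroup.closure_le]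
      rintro _ ⟨h, i, rfl⟩
      refine Lib.FixedGen.cl_le_commutator (h := ι h) (show ι h ∈ X from ⟨h, rfl⟩) ?_
      rw [hcl]
      exact Subgroup.mem_map_of_mem ι (Subgroup.subset_closure ⟨i, rfl⟩)
  apply Subgroup.map_injective hι
  rw [hmapinf, ← hcomm, key, Subgroup.map_iSup]
  apply le_antisymm
  · refine iSup₂_le ?_
    rintro _ ⟨h, rfl⟩
    rw [hcl, ← hmapinf]
    exact le_iSup (fun g => (K g ⊓ C).map ι) h
  · refine iSup_le fun h => ?_
    rw [hmapinf, ← hcl]
    exact Lib.FixedGen.le_gen ⟨h, rfl⟩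

end Cfsg.Agent.S3816
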