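import Cfsg.Statements.S3819
import Cfsg.Agent.Lib.Components.Local
import Cfsg.Agent.Lib.Coprime.Action
import Cfsg.Agent.Lib.Hall.Solvable

set_option autoImplicit false
open Cfsg

namespace Cfsg.Agent.S3819

open Subgroup
open scoped commutatorElement

section

variable {G : Type*} [Group G] [Finite G]

theorem eq_one_of_coprime_elem {q : ℕ} [Fact q.Prime] {Q W : Subgroup G} (hQ : IsPGroup q Q) (hW : (Nat.card W).Coprime q)
    {c : G} (hcQ : c ∈ Q) (hcW : c ∈ W) : c = 1 :=
  Lib.Components.eq_one_of_mem_pGroup_of_coprime hQ hcQ (Lib.Components.coprime_orderOf_of_mem hW hcW)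

theorem le_normalizer_map_core {M : Subgroup G} (K : Subgroup ↥M) [hK : K.Characteristic] :
    normalizer (M : Set G) ≤ normalizer (K.map M.subtype : Set G) := by
  have key : ∀ g ∈ normalizer (M : Set G), ∀ u ∈ K.map M.subtype, g * u * g⁻¹ ∈ K.map M.subtype := by
    rintro g hg _ ⟨y, hy, rfl⟩
    let e : ↥M ≃* ↥M := M.normalizerMonoidHom ⟨g, hg⟩
    exact ⟨e y, (characteristic_iff_map_le.1 inferInstance e) (mem_map_of_mem e.toMonoidHom hy), rfl⟩
  intro g hg
  refine mem_normalizer_iff.mpr fun u => ⟨key g hg u, fun h => ?_⟩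
  have := key g⁻¹ (inv_mem hg) _ h
  simpa [mul_assoc] using this

theorem core {p q : ℕ} [Fact p.Prime] [Fact q.Prime] (H P : Subgroup G) [hHn : H.Normal] (hP : IsPGroup p P)
    (htop : H ⊔ P = ⊤) (hcop : (Nat.card P).Coprime (Nat.card H)) (hsol : Group.IsSolvable ↥⁅H, P⁆)
    (hred : ∀ M : Subgroup G, M.Normal → M ≤ H → (Nat.card M).Coprime q → M = ⊥)
    {z : G} (hzH : z ∈ H) (hzP : z ∈ centralizer (P : Set G)) (hz : IsPGroup q ↥(zpowers z))
    (W Y₀ : Subgroup G) (hW : W ≤ H ⊓ centralizer ({z} : Set G)) (hWc : (Nat.card W).Coprime q)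
    (hWn : H ⊓ centralizer ({z} : Set G) ≤ normalizer (W : Set G)) (hWP : P ≤ normalizer (W : Set G))
    (hY : Y₀ ≤ H ⊓ centralizer (P : Set G)) (hYc : (Nat.card Y₀).Coprime q)
    (hYn : H ⊓ centralizer (P : Set G) ≤ normalizer (Y₀ : Set G)) :
    ⁅W, P⁆ = ⊥ ∧ W ⊓ Y₀ = ⊥ := by
  set N := ⁅H, P⁆ with hNdef
  have hPH : P ≤ normalizer (H : Set G) := by rw [normalizer_eq_top_iff.mpr hHn]; exact le_top
  have hNH : N ≤ H := Lib.Coprime.commutator_le_of_le_normalizer' hPH
  have hNn : N.Normal := normalizer_eq_top_iff.mp (top_le_iff.mp (htop ▸ sup_le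
    (Lib.Coprime.left_le_normalizer_commutator H P) (Lib.Coprime.right_le_normalizer_commutator H P)))
  set Q0 := Cfsg.pCore q ↥N with hQ0
  set Q := Q0.map N.subtype with hQdef
  have hQp : IsPGroup q Q := (Lib.Components.pCore_isPGroup q).map _
  have hQn : Q.Normal := normalizer_eq_top_iff.mp (top_le_iff.mp
    ((normalizer_eq_top_iff.mpr hNn).symm.le.trans (le_normalizer_map_core Q0)))
  have hQN : Q ≤ N := map_subtype_le _
  -- `C_N(Q) ≤ Q`
  have hCQ : N ⊓ centralizer (Q : Set G) ≤ Q := by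
    have hR0 : Cfsg.pPrimeCore q ↥N = ⊥ := by
      have hn : ((Cfsg.pPrimeCore q ↥N).map N.subtype).Normal := normalizer_eq_top_iff.mp (top_le_iff.mp
        ((normalizer_eq_top_iff.mpr hNn).symm.le.trans (le_normalizer_map_core _)))
      have h := hred _ hn ((map_subtype_le _).trans hNH) (by
        rw [← Nat.card_congr ((Cfsg.pPrimeCore q ↥N).equivMapOfInjective _ N.subtype_injective).toEquiv]
        exact Lib.Components.pPrimeCore_coprime q)
      exact map_injective N.subtype_injective (h.trans (Subgroup.map_bot _).symm)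
    have hF : Cfsg.fittingSubgroup ↥N = Q0 := by
      refine le_antisymm ((Lib.Components.fittingSubgroup_le_sup q).trans (by rw [hR0, sup_bot_eq]))
        (Lib.Components.pCore_le_fittingSubgroup q)
    rintro n ⟨hnN, hnC⟩
    have h := Lib.Hall.centralizer_fittingSubgroup_le (G := ↥N)
      (show (⟨n, hnN⟩ : ↥N) ∈ centralizer (Cfsg.fittingSubgroup ↥N : Set ↥N) from
        mem_centralizer_iff.mpr fun u hu => Subtype.ext (mem_centralizer_iff.mp hnC u ⟨u, hF ▸ hu, rfl⟩))
    exact ⟨_, hF ▸ h, rfl⟩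
  -- `W` centralizes `Q`
  have hWQ : ⁅W, Q⁆ = ⊥ := by
    refine Lib.Components.axb_coprime hQp hz ?_ hWc ?_ ?_ ?_
    · rw [normalizer_eq_top_iff.mpr hQn]; exact le_top
    · rw [commutator_eq_bot_iff_le_centralizer, zpowers_eq_closure, centralizer_closure]
      exact hW.trans inf_le_right
    · rw [normalizer_eq_top_iff.mpr hQn]; exact le_top
    · rw [eq_bot_iff, commutator_le]
      rintro w hw u ⟨huQ, huz⟩
      rw [mem_bot]
      refine eq_one_of_coprime_elem hQp hWc (Q.mul_mem (hQn.conj_mem u huQ w) (Q.inv_mem huQ)) ?_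
      have huC : u ∈ H ⊓ centralizer ({z} : Set G) :=
        ⟨hNH (hQN huQ), mem_centralizer_singleton_iff.mpr (mem_centralizer_iff.mp huz z (mem_zpowers z)).symm⟩
      rw [commutatorElement_def, show w * u * w⁻¹ * u⁻¹ = w * (u * w⁻¹ * u⁻¹) by group]
      exact W.mul_mem hw ((mem_normalizer_iff.mp (hWn huC) _).mp (W.inv_mem hw))
  have hWC : W ≤ centralizer (Q : Set G) := commutator_eq_bot_iff_le_centralizer.mp hWQ
  refine ⟨?_, ?_⟩
  · rw [eq_bot_iff]
    intro c hc
    rw [mem_bot]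
    have hcW : c ∈ W := Lib.Coprime.commutator_le_of_le_normalizer' hWP hc
    exact eq_one_of_coprime_elem hQp hWc
      (hCQ ⟨commutator_mono (hW.trans inf_le_left) le_rfl hc, hWC hcW⟩) hcW
  set D := H ⊓ centralizer (Q : Set G) with hD
  haveI hQc : (centralizer (Q : Set G)).Normal := Subgroup.normal_centralizer
  have hDn : D.Normal := inferInstance
  set Y := Y₀ ⊓ D with hYdef
  have hYC : Y ≤ centralizer (N : Set G) := by
    rintro y ⟨hy0, hyD⟩
    refine mem_centralizer_iff.mpr fun n hn => ?_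
    set c := y * n * y⁻¹ * n⁻¹ with hc
    have hcN : c ∈ N := N.mul_mem (hNn.conj_mem n hn y) (N.inv_mem hn)
    have hcD : c ∈ D := by
      rw [hc, show y * n * y⁻¹ * n⁻¹ = y * (n * y⁻¹ * n⁻¹) by group]
      exact D.mul_mem hyD (hDn.conj_mem _ (D.inv_mem hyD) n)
    have hcQ : c ∈ Q := hCQ ⟨hcN, hcD.2⟩
    have hyc : y * c = c * y := (mem_centralizer_iff.mp hyD.2 c hcQ).symm
    have hn' : ∀ k : ℕ, y ^ k * n * (y ^ k)⁻¹ = c ^ k * n := by
      intro k
      induction k with
      | zero => simp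
      | succ k ih =>
        rw [pow_succ' y, _root_.mul_inv_rev,
          show y * y ^ k * n * ((y ^ k)⁻¹ * y⁻¹) = y * (y ^ k * n * (y ^ k)⁻¹) * y⁻¹ by group, ih, pow_succ]
        calc y * (c ^ k * n) * y⁻¹ = (y * c ^ k) * n * y⁻¹ := by group
          _ = (c ^ k * y) * n * y⁻¹ := by rw [((show Commute y c from hyc).pow_right k).eq]
          _ = c ^ k * c * n := by rw [hc]; group
    have h1 := hn' (orderOf y)
    rw [pow_orderOf_eq_one, one_mul, inv_one, mul_one, eq_comm, mul_eq_right] at h1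
    obtain ⟨e, he⟩ := hQp ⟨c, hcQ⟩
    have he' : c ^ q ^ e = 1 := by simpa using congrArg Subtype.val he
    have h2 : orderOf c = 1 := Nat.eq_one_of_dvd_coprimes
      ((Lib.Components.coprime_orderOf_of_mem hYc hy0).pow_right e)
      (orderOf_dvd_of_pow_eq_one h1) (orderOf_dvd_of_pow_eq_one he')
    rw [orderOf_eq_one_iff, hc, mul_inv_eq_one, mul_inv_eq_iff_eq_mul] at h2
    exact h2.symm
  have hDnorm : ∀ g : G, g ∈ normalizer (D : Set G) := fun g => by rw [normalizer_eq_top_iff.mpr hDn]; trivial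
  have hHY : H ≤ normalizer (Y : Set G) := by
    have hsup := Lib.Coprime.commutator_sup_centralizer hPH hcop
      (Or.inl (by haveI := hP.isNilpotent; infer_instance))
    rw [← hsup]
    refine sup_le ((le_centralizer_iff.mp hYC).trans (Subgroup.centralizer_le_normalizer _)) ?_
    exact (le_inf hYn fun g _ => hDnorm g).trans inf_normalizer_le_normalizer_inf
  have hPY : P ≤ normalizer (Y : Set G) :=
    ((le_centralizer_iff.mp ((inf_le_left : Y ≤ Y₀).trans (hY.trans inf_le_right))) ).trans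
      (Subgroup.centralizer_le_normalizer _)
  have hYn' : Y.Normal := normalizer_eq_top_iff.mp (top_le_iff.mp (htop ▸ sup_le hHY hPY))
  have hY0 : Y = ⊥ := hred Y hYn' (inf_le_right.trans inf_le_left)
    (hYc.coprime_dvd_left (card_dvd_of_le inf_le_left))
  rw [eq_bot_iff, ← hY0]
  exact le_inf inf_le_right (le_inf ((inf_le_left.trans hW).trans inf_le_left) (inf_le_left.trans hWC))

theorem main {p : ℕ} [hp : Fact p.Prime] (P : Sylow p G) (hPH : Cfsg.pPrimeCore p G ⊔ (P : Subgroup G) = ⊤)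
    (hsol : Group.IsSolvable ↥⁅Cfsg.pPrimeCore p G, (P : Subgroup G)⁆)
    {q : ℕ} [Fact q.Prime] (z : G) (hzH : z ∈ Cfsg.pPrimeCore p G)
    (hzP : z ∈ centralizer ((P : Subgroup G) : Set G)) (hz : ∃ k : ℕ, orderOf z = q ^ k) :
    ((Cfsg.pPrimeCore q ↥(Cfsg.pPrimeCore p G ⊓ centralizer ({z} : Set G))).map
        (Cfsg.pPrimeCore p G ⊓ centralizer ({z} : Set G)).subtype ⊓
      (Cfsg.pPrimeCore q ↥(Cfsg.pPrimeCore p G ⊓ centralizer ((P : Subgroup G) : Set G))).map
        (Cfsg.pPrimeCore p G ⊓ centralizer ((P : Subgroup G) : Set G)).subtype) ⊔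
    ⁅(Cfsg.pPrimeCore q ↥(Cfsg.pPrimeCore p G ⊓ centralizer ({z} : Set G))).map
        (Cfsg.pPrimeCore p G ⊓ centralizer ({z} : Set G)).subtype, (P : Subgroup G)⁆ ≤
    (Cfsg.pPrimeCore q ↥(Cfsg.pPrimeCore p G)).map (Cfsg.pPrimeCore p G).subtype := by
  set H := Cfsg.pPrimeCore p G with hH
  haveI hHn : H.Normal := Subgroup.sSup_normal _ fun _ h => h.1
  set P' := (P : Subgroup G) with hP'
  set A := H ⊓ centralizer ({z} : Set G) with hA
  set B := H ⊓ centralizer (P' : Set G) with hB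
  set W := (Cfsg.pPrimeCore q ↥A).map A.subtype with hWdef
  set Y := (Cfsg.pPrimeCore q ↥B).map B.subtype with hYdef
  set R := (Cfsg.pPrimeCore q ↥H).map H.subtype with hR
  haveI : (Cfsg.pPrimeCore q ↥A).Characteristic := inferInstance
  haveI hRn : R.Normal := normalizer_eq_top_iff.mp (top_le_iff.mp
    ((normalizer_eq_top_iff.mpr hHn).symm.le.trans (le_normalizer_map_core _)))
  have hRH : R ≤ H := map_subtype_le _
  have hcard : ∀ {K : Subgroup G} (L : Subgroup ↥K), Nat.card ↥(L.map K.subtype) = Nat.card L := fun {K} L =>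
    (Nat.card_congr (L.equivMapOfInjective _ K.subtype_injective).toEquiv).symm
  have hRc : (Nat.card R).Coprime q := by rw [hR, hcard]; exact Lib.Components.pPrimeCore_coprime q
  obtain ⟨e, he⟩ := IsPGroup.iff_card.mp P.isPGroup'
  have hHc : (Nat.card H).Coprime p := Lib.Components.pPrimeCore_coprime p
  have hcop : (Nat.card P').Coprime (Nat.card H) := by rw [he]; exact Nat.Coprime.pow_left e hHc.symm
  obtain ⟨k, hk⟩ := hz
  have hzq : IsPGroup q ↥(zpowers z) := IsPGroup.of_card (n := k) (by rw [Nat.card_zpowers, hk])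
  let π := QuotientGroup.mk' R
  have hπ : Function.Surjective π := QuotientGroup.mk'_surjective R
  have hker : π.ker = R := QuotientGroup.ker_mk' R
  haveI : (H.map π).Normal := Subgroup.Normal.map hHn π hπ
  have hpm : ∀ {a : G}, a ∈ P' → ∀ {h : G}, h ∈ A → a * h * a⁻¹ ∈ A := fun {a} ha {h} hh =>
    ⟨hHn.conj_mem h hh.1 a, mem_centralizer_singleton_iff.mpr (by
      have e1 : Commute h z := mem_centralizer_singleton_iff.mp hh.2
      have e2 : Commute a z := mem_centralizer_iff.mp hzP a ha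
      exact ((e2.mul_left e1).mul_left e2.inv_left).eq)⟩
  have hPA : P' ≤ normalizer (A : Set G) := fun a ha => mem_normalizer_iff.mpr fun u => ⟨fun h => hpm ha h,
    fun h => by simpa [mul_assoc] using hpm (P'.inv_mem ha) h⟩
  -- lifting fixed points
  have lift : ∀ (T : Subgroup G), T ≤ normalizer (R : Set G) → (Nat.card T).Coprime (Nat.card R) →
      Group.IsSolvable T → ∀ x : G ⧸ R, x ∈ H.map π → (∀ t ∈ T, π t * x = x * π t) →
      ∃ c ∈ H ⊓ centralizer (T : Set G), π c = x := by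
    rintro T hT hTc hTs _ ⟨h, hh, rfl⟩ hcom
    obtain ⟨c, hc, hcR⟩ := Lib.Coprime.exists_centralizer_mem_coset hT hTc (Or.inl hTs) (k := h) fun t ht => by
      rw [← hker, MonoidHom.mem_ker]
      simp only [map_mul, map_inv]
      rw [hcom t ht, mul_inv_cancel_right, inv_mul_cancel]
    refine ⟨c, ⟨by simpa using H.mul_mem hh (hRH hcR), hc⟩, ?_⟩
    have h1 : π (h⁻¹ * c) = 1 := by rw [← MonoidHom.mem_ker, hker]; exact hcR
    rw [map_mul, map_inv] at h1
    exact (inv_mul_eq_one.mp h1).symm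
  have hmapn : ∀ (S T : Subgroup G), T ≤ normalizer (S : Set G) → T.map π ≤ normalizer (S.map π : Set (G ⧸ R)) :=
    fun S T h => (map_mono h).trans (S.le_normalizer_map π)
  have hcardmap : ∀ S : Subgroup G, (Nat.card S).Coprime q → (Nat.card ↥(S.map π)).Coprime q := fun S hS =>
    hS.coprime_dvd_left (S.card_map_dvd π)
  have hPs : Group.IsSolvable P' := by haveI := P.isPGroup'.isNilpotent; infer_instance
  have hzR : (Nat.card ↥(zpowers z)).Coprime (Nat.card R) := by
    rw [Nat.card_zpowers, hk]; exact Nat.Coprime.pow_left k hRc.symm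
  have h1 := core (p := p) (q := q) (H.map π) (P'.map π) (P.isPGroup'.map π)
    (by rw [← Subgroup.map_sup, hPH, Subgroup.map_top_of_surjective π hπ])
    ((hcop.coprime_dvd_left (P'.card_map_dvd π)).coprime_dvd_right (H.card_map_dvd π))
    (by rw [← map_commutator]; exact Lib.Coprime.isSolvable_map π _)
    ?_ (z := π z) (mem_map_of_mem π hzH) ?_ ?_ (W.map π) (Y.map π) ?_ ?_ ?_ ?_ ?_ ?_ ?_
  · obtain ⟨hb1, hb2⟩ := h1
    refine sup_le ?_ ?_
    · rw [← hker, ← Subgroup.map_eq_bot_iff, eq_bot_iff, ← hb2]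
      exact le_inf (map_mono inf_le_left) (map_mono inf_le_right)
    · rw [← hker, ← Subgroup.map_eq_bot_iff, map_commutator]
      exact hb1
  · intro M hM hMH hMc
    have hle : M.comap π ≤ R := by
      set M' := M.comap π with hM'
      have hM'H : M' ≤ H := by
        refine (comap_mono hMH).trans ?_
        rw [comap_map_eq, hker, sup_eq_left.mpr hRH]
      have hc : (Nat.card M').Coprime q := by
        have h := Lib.Coprime.card_map_mul_card_inf_ker π M'
        rw [hM', map_comap_eq_self_of_surjective hπ, hker, ← hM'] at h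
        rw [← h]
        exact hMc.mul_left (hRc.coprime_dvd_left (card_dvd_of_le inf_le_right))
      have hn : (M'.subgroupOf H).Normal := inferInstance
      calc M' = (M'.subgroupOf H).map H.subtype := (map_subgroupOf_eq_of_le hM'H).symm
        _ ≤ R := map_mono (le_sSup ⟨hn, by rwa [Nat.card_congr (subgroupOfEquivOfLe hM'H).toEquiv]⟩)
    rw [eq_bot_iff]
    intro m hm
    obtain ⟨g, rfl⟩ := hπ m
    rw [mem_bot, ← MonoidHom.mem_ker, hker]
    exact hle hm
  · rintro _ ⟨a, ha, rfl⟩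
    rw [← map_mul, ← map_mul, mem_centralizer_iff.mp hzP a ha]
  · have h := hzq.map π
    rwa [MonoidHom.map_zpowers] at h
  · refine le_inf (map_mono ((map_subtype_le _).trans inf_le_left)) ?_
    rintro _ ⟨w, hw, rfl⟩
    refine mem_centralizer_singleton_iff.mpr ?_
    rw [← map_mul, ← map_mul, mem_centralizer_singleton_iff.mp ((map_subtype_le _ hw : w ∈ A).2)]
  · refine hcardmap W ?_
    rw [hWdef, hcard]; exact Lib.Components.pPrimeCore_coprime q
  · rintro x ⟨hxH, hxz⟩
    obtain ⟨c, hc, rfl⟩ := lift (zpowers z) (by rw [normalizer_eq_top_iff.mpr hRn]; exact le_top) hzR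
      inferInstance x hxH (by
        rintro _ ⟨i, rfl⟩
        simp only [map_zpow]
        exact ((show Commute (π z) x from (mem_centralizer_singleton_iff.mp hxz).symm).zpow_left i).eq)
    refine hmapn W A (le_normalizer.trans (le_normalizer_map_core _)) (mem_map_of_mem π ?_)
    exact ⟨hc.1, mem_centralizer_singleton_iff.mpr (mem_centralizer_iff.mp hc.2 z (mem_zpowers z)).symm⟩
  · exact hmapn W P' (hPA.trans (le_normalizer_map_core _))
  · refine le_inf (map_mono ((map_subtype_le _).trans inf_le_left)) ?_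
    rintro _ ⟨y, hy, rfl⟩
    refine mem_centralizer_iff.mpr ?_
    rintro _ ⟨a, ha, rfl⟩
    rw [← map_mul, ← map_mul, mem_centralizer_iff.mp ((map_subtype_le _ hy : y ∈ B).2) a ha]
  · refine hcardmap Y ?_
    rw [hYdef, hcard]; exact Lib.Components.pPrimeCore_coprime q
  · rintro x ⟨hxH, hxP⟩
    obtain ⟨c, hc, rfl⟩ := lift P' (by rw [normalizer_eq_top_iff.mpr hRn]; exact le_top)
      (hcop.coprime_dvd_right (card_dvd_of_le hRH)) hPs x hxH
      fun t ht => mem_centralizer_iff.mp hxP _ (mem_map_of_mem π ht)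
    exact hmapn Y B (le_normalizer.trans (le_normalizer_map_core _)) (mem_map_of_mem π hc)

end

/-- Let G be a finite group with Sylow p-subgroup P and H = O_{p'}(G), and suppose G = PH and the commutator subgroup [H, P] is solvable. Let q be a prime and z an element of q-power order of C_H(P). Then (O_{q'}(C_H(z)) ∩ O_{q'}(C_H(P))) · [O_{q'}(C_H(z)), P] ≤ O_{q'}(H). -/
theorem result {G : Type*} [Group G] [Finite G] {p : ℕ} [Fact p.Prime]
    (P : Sylow p G) (hPH : Cfsg.pPrimeCore p G ⊔ (P : Subgroup G) = ⊤)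
    (hsol : Group.IsSolvable ↥⁅Cfsg.pPrimeCore p G, (P : Subgroup G)⁆)
    {q : ℕ} [Fact q.Prime] (z : G) (hzH : z ∈ Cfsg.pPrimeCore p G) (hzP : z ∈ Subgroup.centralizer ((P : Subgroup G) : Set G))
    (hz : ∃ k : ℕ, orderOf z = q ^ k) :
    ((Cfsg.pPrimeCore q ↥(Cfsg.pPrimeCore p G ⊓ Subgroup.centralizer ({z} : Set G))).map
        (Cfsg.pPrimeCore p G ⊓ Subgroup.centralizer ({z} : Set G)).subtype ⊓
      (Cfsg.pPrimeCore q ↥(Cfsg.pPrimeCore p G ⊓ Subgroup.centralizer ((P : Subgroup G) : Set G))).map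
        (Cfsg.pPrimeCore p G ⊓ Subgroup.centralizer ((P : Subgroup G) : Set G)).subtype) ⊔
    ⁅(Cfsg.pPrimeCore q ↥(Cfsg.pPrimeCore p G ⊓ Subgroup.centralizer ({z} : Set G))).map
        (Cfsg.pPrimeCore p G ⊓ Subgroup.centralizer ({z} : Set G)).subtype, (P : Subgroup G)⁆ ≤
    (Cfsg.pPrimeCore q ↥(Cfsg.pPrimeCore p G)).map (Cfsg.pPrimeCore p G).subtype := by
  exact main P hPH hsol z hzH hzP hz

end Cfsg.Agent.S3819
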