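import Cfsg.Statements.S3820

set_option autoImplicit false
open Cfsg

namespace Cfsg.Agent.S3820

/-- Call a subgroup H of G pronormal if H and gHg⁻¹ are conjugate inside ⟨H, gHg⁻¹⟩ for every g ∈ G. Let S ≤ H ≤ G be subgroups of a finite group with S pronormal in G (for instance S a Sylow subgroup). Then H is pronormal in G if and only if H and gHg⁻¹ are conjugate inside ⟨H, gHg⁻¹⟩ for every g ∈ N_G(S). In particular H is pronormal whenever N_G(S) ≤ H. -/
theorem result {G : Type*} [Group G] [Finite G] (S H : Subgroup G) (hSH : S ≤ H)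
    (hS : Cfsg.IsPronormal S) :
    Cfsg.IsPronormal H ↔
      ∀ g ∈ Subgroup.normalizer (S : Set G), ∃ w ∈ H ⊔ H.map (MulAut.conj g).toMonoidHom,
        H.map (MulAut.conj g).toMonoidHom = H.map (MulAut.conj w).toMonoidHom := by
  constructor
  · intro hH g _
    exact hH g
  · intro h g
    obtain ⟨x, hx, hgx⟩ := hS g
    have hxJ : x ∈ H ⊔ H.map (MulAut.conj g).toMonoidHom := (sup_le_sup hSH (Subgroup.map_mono hSH)) hx
    have hn : x⁻¹ * g ∈ Subgroup.normalizer (S : Set G) := by
      rw [Subgroup.mem_normalizer_iff]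
      intro s
      have key : ∀ s : G, s ∈ S → (x⁻¹ * g) * s * (x⁻¹ * g)⁻¹ ∈ S := fun s hs => by
        have : g * s * g⁻¹ ∈ S.map (MulAut.conj x).toMonoidHom := hgx ▸ ⟨s, hs, rfl⟩
        obtain ⟨u, hu, hu'⟩ := this
        simp only [MulEquiv.coe_toMonoidHom, MulAut.conj_apply] at hu'
        rw [show (x⁻¹ * g) * s * (x⁻¹ * g)⁻¹ = x⁻¹ * (g * s * g⁻¹) * x by group, ← hu']
        simpa [mul_assoc] using hu
      refine ⟨key s, fun hs => ?_⟩
      have : g * ((x⁻¹ * g) * s * (x⁻¹ * g)⁻¹) * g⁻¹ ∈ S.map (MulAut.conj g).toMonoidHom := ⟨_, hs, rfl⟩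
      -- the conjugation map of the finite set `S` into itself is surjective
      let f : ↥S → ↥S := fun u => ⟨_, key u u.2⟩
      have hf : Function.Injective f := fun a b hab => Subtype.ext (by
        have := congrArg Subtype.val hab
        exact mul_left_cancel (mul_right_cancel this))
      obtain ⟨u, hu⟩ := (Finite.injective_iff_surjective.mp hf) ⟨_, hs⟩
      have := congrArg Subtype.val hu
      exact (mul_left_cancel (mul_right_cancel this)) ▸ u.2
    obtain ⟨w, hw, hwe⟩ := h _ hn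
    have hconj : H.map (MulAut.conj g).toMonoidHom = (H.map (MulAut.conj (x⁻¹ * g)).toMonoidHom).map (MulAut.conj x).toMonoidHom := by
      rw [Subgroup.map_map]; congr 1; ext y; simp [mul_assoc]
    refine ⟨x * w, mul_mem hxJ ?_, ?_⟩
    · -- `w` lies in the join
      have hle : H ⊔ H.map (MulAut.conj (x⁻¹ * g)).toMonoidHom ≤ H ⊔ H.map (MulAut.conj g).toMonoidHom := by
        refine sup_le le_sup_left ?_
        rintro _ ⟨y, hy, rfl⟩
        simp only [MulEquiv.coe_toMonoidHom, MulAut.conj_apply]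
        rw [show x⁻¹ * g * y * (x⁻¹ * g)⁻¹ = x⁻¹ * (g * y * g⁻¹) * x by group]
        exact mul_mem (mul_mem (inv_mem hxJ) (Subgroup.mem_sup_right ⟨y, hy, rfl⟩)) hxJ
      exact hle hw
    · rw [hconj, hwe, Subgroup.map_map]; congr 1; ext y; simp [mul_assoc]

end Cfsg.Agent.S3820
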