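import Cfsg.Statements.S3821

set_option autoImplicit false
open Cfsg

namespace Cfsg.Agent.S3821

/-- Let A be a normal subgroup of the finite group G and H a subgroup of A. Then H is pronormal in G (H and gHg⁻¹ conjugate inside ⟨H, gHg⁻¹⟩ for every g ∈ G) if and only if H is pronormal in A and G = A · N_G(H). -/
theorem result {G : Type*} [Group G] [Finite G] (A H : Subgroup G) [A.Normal] (hHA : H ≤ A) :
    Cfsg.IsPronormal H ↔ (Cfsg.IsPronormal (H.subgroupOf A) ∧ A ⊔ Subgroup.normalizer (H : Set G) = ⊤) := by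
  have hmap : ∀ a : G, a ∈ A → H.map (MulAut.conj a).toMonoidHom ≤ A := by
    rintro a ha _ ⟨y, hy, rfl⟩
    exact mul_mem (mul_mem ha (hHA hy)) (inv_mem ha)
  have hnorm : ∀ a n : G, n ∈ Subgroup.normalizer (H : Set G) →
      H.map (MulAut.conj (a * n)).toMonoidHom = H.map (MulAut.conj a).toMonoidHom := by
    intro a n hn
    have : H.map (MulAut.conj n).toMonoidHom = H := by
      ext y
      rw [Subgroup.map_equiv_eq_comap_symm', Subgroup.mem_comap]
      have := Subgroup.mem_normalizer_iff''.mp hn y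
      simpa [MulAut.conj_symm_apply] using this.symm
    conv_rhs => rw [← this, Subgroup.map_map]
    congr 1; ext y; simp [mul_assoc]
  constructor
  · intro hH
    refine ⟨fun a => ?_, ?_⟩
    · obtain ⟨x, hx, hxe⟩ := hH a
      have hxA : x ∈ A := (sup_le hHA (hmap a a.2)) hx
      refine ⟨⟨x, hxA⟩, ?_, ?_⟩
      · have hsub : ((H.subgroupOf A) ⊔ (H.subgroupOf A).map (MulAut.conj a).toMonoidHom).map A.subtype =
            H ⊔ H.map (MulAut.conj (a : G)).toMonoidHom := by
          rw [Subgroup.map_sup, Subgroup.subgroupOf_map_subtype, inf_eq_left.mpr hHA, Subgroup.map_map]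
          congr 1
          conv_rhs => rw [← inf_eq_left.mpr hHA, ← Subgroup.subgroupOf_map_subtype, Subgroup.map_map]
          rfl
        rw [← hsub] at hx
        obtain ⟨z, hz, hzx⟩ := hx
        rwa [show (⟨x, hxA⟩ : ↥A) = z from Subtype.ext hzx.symm]
      · apply Subgroup.map_injective A.subtype_injective
        rw [Subgroup.map_map, Subgroup.map_map]
        conv_lhs => rw [show A.subtype.comp (MulAut.conj a).toMonoidHom = (MulAut.conj (a : G)).toMonoidHom.comp A.subtype from rfl]
        conv_rhs => rw [show A.subtype.comp (MulAut.conj (⟨x, hxA⟩ : ↥A)).toMonoidHom = (MulAut.conj x).toMonoidHom.comp A.subtype from rfl]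
        rw [← Subgroup.map_map, ← Subgroup.map_map, Subgroup.subgroupOf_map_subtype, inf_eq_left.mpr hHA]
        exact hxe
    · rw [eq_top_iff]
      intro g _
      obtain ⟨x, hx, hxe⟩ := hH g
      have hxA : x ∈ A := (sup_le hHA (by
        rintro _ ⟨y, hy, rfl⟩
        exact (inferInstance : A.Normal).conj_mem y (hHA hy) g)) hx
      have hn : x⁻¹ * g ∈ Subgroup.normalizer (H : Set G) := by
        rw [Subgroup.mem_normalizer_iff]
        intro h'
        constructor
        · intro hh
          have : g * h' * g⁻¹ ∈ H.map (MulAut.conj x).toMonoidHom := hxe ▸ ⟨h', hh, rfl⟩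
          obtain ⟨u, hu, hu'⟩ := this
          simp only [MulEquiv.coe_toMonoidHom, MulAut.conj_apply] at hu'
          rw [show (x⁻¹ * g) * h' * (x⁻¹ * g)⁻¹ = x⁻¹ * (g * h' * g⁻¹) * x by group, ← hu']
          simpa [mul_assoc] using hu
        · intro hh
          have : x * ((x⁻¹ * g) * h' * (x⁻¹ * g)⁻¹) * x⁻¹ ∈ H.map (MulAut.conj g).toMonoidHom := hxe ▸ ⟨_, hh, rfl⟩
          obtain ⟨u, hu, hu'⟩ := this
          simp only [MulEquiv.coe_toMonoidHom, MulAut.conj_apply] at hu'
          have e : u = h' := by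
            have h2 : g * u * g⁻¹ = g * h' * g⁻¹ := hu'.trans (by group)
            exact mul_left_cancel (mul_right_cancel h2)
          rwa [← e]
      rw [← mul_inv_cancel_left x g]
      exact Subgroup.mul_mem_sup hxA hn
  · rintro ⟨hA, htop⟩ g
    have hg : g ∈ A ⊔ Subgroup.normalizer (H : Set G) := htop ▸ Subgroup.mem_top g
    obtain ⟨a, ha, n, hn, rfl⟩ := Subgroup.mem_sup_of_normal_left.mp hg
    rw [hnorm a n hn]
    obtain ⟨x, hx, hxe⟩ := hA ⟨a, ha⟩
    refine ⟨(x : G), ?_, ?_⟩
    · have h2 : ((H.subgroupOf A) ⊔ (H.subgroupOf A).map (MulAut.conj (⟨a, ha⟩ : ↥A)).toMonoidHom).map A.subtype ≤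
          H ⊔ H.map (MulAut.conj a).toMonoidHom := by
        rw [Subgroup.map_sup, Subgroup.map_map]
        refine sup_le_sup ?_ ?_
        · rintro _ ⟨y, hy, rfl⟩; exact hy
        · rintro _ ⟨y, hy, rfl⟩; exact ⟨(y : G), hy, rfl⟩
      exact h2 ⟨x, hx, rfl⟩
    · have h3 := congrArg (Subgroup.map A.subtype) hxe
      rw [Subgroup.map_map, Subgroup.map_map,
        show A.subtype.comp (MulAut.conj (⟨a, ha⟩ : ↥A)).toMonoidHom = (MulAut.conj a).toMonoidHom.comp A.subtype from rfl,
        show A.subtype.comp (MulAut.conj x).toMonoidHom = (MulAut.conj (x : G)).toMonoidHom.comp A.subtype from rfl,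
        ← Subgroup.map_map, ← Subgroup.map_map, Subgroup.subgroupOf_map_subtype, inf_eq_left.mpr hHA] at h3
      exact h3

end Cfsg.Agent.S3821
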