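import Cfsg.Statements.S3825
import Cfsg.Agent.Lib.FPFOrderFour.Basic
import Mathlib

set_option autoImplicit false
open Cfsg

namespace Cfsg.Agent.S3825


open Subgroup
open scoped commutatorElement

/-- Let U be a subgroup of a finite group H and w an involution of H normalizing U and commuting with exactly two elements of U, the identity and y. If V is a non-cyclic elementary abelian 2-subgroup of U containing y which is normal in U and invariant under w, then V is a Sylow 2-subgroup of U, V has order 4, and U/V is abelian. -/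
theorem result {H : Type*} [Group H] [Finite H] (U : Subgroup H) (w : H) (hw : orderOf w = 2)
    (hwU : w ∈ Subgroup.normalizer (U : Set H)) (y : H) (hy : y ≠ 1) (hyU : y ∈ U)
    (hfix : ∀ u ∈ U, w * u * w⁻¹ = u ↔ (u = 1 ∨ u = y))
    (V : Subgroup H) (hVU : V ≤ U) (hVn : (V.subgroupOf U).Normal) (hVw : ∀ v ∈ V, w * v * w⁻¹ ∈ V)
    (hVe : Cfsg.IsElementaryAbelian 2 V) (hVc : ¬ IsCyclic ↥V) (hyV : y ∈ V) :
    ¬ 2 ∣ V.relIndex U ∧ Nat.card ↥V = 4 ∧ ⁅U, U⁆ ≤ V := by
  classical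
  haveI := Fact.mk Nat.prime_two
  have hw2 : w * w = 1 := by rw [← sq, ← hw, pow_orderOf_eq_one]
  have hwinv : w⁻¹ = w := inv_eq_of_mul_eq_one_right hw2
  obtain ⟨hVc2, hV2⟩ := hVe
  have hVcomm : ∀ a ∈ V, ∀ b ∈ V, a * b = b * a := fun a ha b hb =>
    congrArg Subtype.val (hVc2.is_comm.comm (⟨a, ha⟩ : V) ⟨b, hb⟩)
  have hinvV : ∀ a ∈ V, a⁻¹ = a := fun a ha => inv_eq_of_mul_eq_one_right (by rw [← sq]; exact hV2 a ha)
  let φ : V →* V := MonoidHom.mk' (fun v => ⟨v * (w * v * w⁻¹), V.mul_mem v.2 (hVw v v.2)⟩) fun a b => by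
    apply Subtype.ext
    show (a : H) * b * (w * (a * b) * w⁻¹) = a * (w * a * w⁻¹) * (b * (w * b * w⁻¹))
    calc (a : H) * b * (w * (a * b) * w⁻¹) = a * ((b : H) * (w * a * w⁻¹)) * (w * b * w⁻¹) := by group
      _ = a * ((w * a * w⁻¹) * (b : H)) * (w * b * w⁻¹) := by rw [hVcomm _ b.2 _ (hVw a a.2)]
      _ = _ := by group
  have hfixV : ∀ v ∈ V, w * v * w⁻¹ = v → v = 1 ∨ v = y := fun v hv h => (hfix v (hVU hv)).mp h
  have hker : ∀ v : V, v ∈ φ.ker → (v : H) = 1 ∨ (v : H) = y := fun v hv => hfixV v v.2 (by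
    have h : (v : H) * (w * v * w⁻¹) = 1 := congrArg Subtype.val hv
    rw [mul_eq_one_iff_eq_inv'] at h
    rw [h, hinvV v v.2])
  have hran : ∀ v : V, v ∈ φ.range → (v : H) = 1 ∨ (v : H) = y := by
    rintro _ ⟨v, rfl⟩
    refine hfixV _ (SetLike.coe_mem _) ?_
    show w * ((v : H) * (w * v * w⁻¹)) * w⁻¹ = v * (w * v * w⁻¹)
    rw [hVcomm _ v.2 _ (hVw v v.2)]
    calc w * (w * v * w⁻¹ * v) * w⁻¹ = (w * w) * v * (w⁻¹ * v * w⁻¹) := by group
      _ = v * (w * v * w⁻¹) := by rw [hw2, hwinv, one_mul]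
      _ = _ := hVcomm _ v.2 _ (hVw v v.2)
  have hcard2 : ∀ K : Subgroup V, (∀ v : V, v ∈ K → (v : H) = 1 ∨ (v : H) = y) → Nat.card K ≤ 2 := by
    intro K hK
    refine le_trans (Nat.card_le_card_of_injective (fun k : K => decide (((k : V) : H) = 1)) ?_) (by simp)
    intro a b hab
    apply Subtype.ext; apply Subtype.ext
    rcases hK a a.2 with ha | ha <;> rcases hK b b.2 with hb | hb <;> simp [ha, hb, hy] at hab ⊢
  have hV4 : Nat.card V = 4 := by
    have h1 := φ.ker.card_mul_index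
    rw [index_ker] at h1
    have hle : Nat.card V ≤ 4 := by
      rw [← h1]; exact Nat.mul_le_mul (hcard2 _ hker) (hcard2 _ hran)
    obtain ⟨k, hk⟩ := IsPGroup.iff_card.mp (Lib.FPFOrderFour.isPGroup_of_pow_eq_one V hV2)
    have hk2 : 2 ≤ k := by
      by_contra hk2
      apply hVc
      interval_cases k
      · have : Subsingleton V := by rw [← Finite.card_le_one_iff_subsingleton, hk, pow_zero]
        exact isCyclic_of_subsingleton
      · exact isCyclic_of_prime_card (p := 2) (by rw [hk, pow_one])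
    have : 2 ^ 2 ≤ 2 ^ k := Nat.pow_le_pow_right (by norm_num) hk2
    omega
  obtain ⟨v0, hv0⟩ : ∃ v : V, (v : H) * (w * v * w⁻¹) = y := by
    by_contra hno
    push_neg at hno
    have h1 : φ.range = ⊥ := by
      rw [eq_bot_iff]
      rintro _ ⟨v, rfl⟩
      rcases hran (φ v) ⟨v, rfl⟩ with h | h
      · exact mem_bot.mpr (Subtype.ext h)
      · exact absurd h (hno v)
    have h2 := φ.ker.card_mul_index
    rw [index_ker, h1, card_bot, mul_one, hV4] at h2
    have := hcard2 _ hker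
    omega
  -- the action on `U/V` is fixed-point-free
  haveI := hVn
  let ι : MulAut U := U.normalizerMonoidHom ⟨w, hwU⟩
  have hιmap : (V.subgroupOf U).map ι.toMonoidHom = V.subgroupOf U := by
    refine le_antisymm ?_ fun x hx => ?_
    · rintro _ ⟨x, hx, rfl⟩
      exact mem_subgroupOf.mpr (hVw x hx)
    · refine ⟨ι x, mem_subgroupOf.mpr (hVw x hx), Subtype.ext ?_⟩
      show w * (w * x * w⁻¹) * w⁻¹ = x
      rw [hwinv]
      calc w * (w * (x : H) * w) * w = (w * w) * x * (w * w) := by group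
        _ = x := by rw [hw2, one_mul, mul_one]
  let ι' := QuotientGroup.congr _ _ ι hιmap
  have hι' : ∀ u : U, ι' (u : U ⧸ V.subgroupOf U) = (ι u : U ⧸ V.subgroupOf U) := fun u => rfl
  have hfpf : ∀ z, ι' z = z → z = 1 := by
    intro z hz
    obtain ⟨u, rfl⟩ := QuotientGroup.mk'_surjective _ z
    rw [QuotientGroup.mk'_apply, hι'] at hz
    have h1 : (u : H)⁻¹ * (w * u * w⁻¹) ∈ V := by
      have := QuotientGroup.eq.mp hz.symm
      exact mem_subgroupOf.mp this
    refine (QuotientGroup.eq_one_iff u).mpr (mem_subgroupOf.mpr ?_)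
    set v := (u : H)⁻¹ * (w * u * w⁻¹) with hv
    have hvfix : w * v * w⁻¹ = v := by
      have e : w * v * w⁻¹ = v⁻¹ := by
        rw [hv, hwinv]
        calc w * ((u : H)⁻¹ * (w * u * w)) * w = w * (u : H)⁻¹ * w * u * (w * w) := by group
          _ = w * (u : H)⁻¹ * w * u := by rw [hw2, mul_one]
          _ = (w⁻¹ * (u : H)⁻¹ * w⁻¹) * u := by rw [hwinv]
          _ = _ := by group
      rw [e, hinvV v h1]
    have huU : ∀ x : H, x ∈ U → w * x * w⁻¹ = x → x ∈ V := fun x hx hxw => by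
      rcases (hfix x hx).mp hxw with rfl | rfl
      · exact V.one_mem
      · exact hyV
    rcases hfixV v h1 hvfix with hv1 | hvy
    · refine huU u u.2 ?_
      rw [hv, inv_mul_eq_one] at hv1
      exact hv1.symm
    · have h2 : (u : H) * v0 ∈ V := by
        refine huU _ (U.mul_mem u.2 (hVU v0.2)) ?_
        have e1 : w * (u : H) * w⁻¹ = u * y := by rw [← hvy, hv]; group
        have e2 : w * (v0 : H) * w⁻¹ = y * v0 := by
          rw [← hv0, hVcomm _ v0.2 _ (hVw v0 v0.2), mul_assoc (w * (v0 : H) * w⁻¹), ← sq (v0 : H), hV2 v0 v0.2, mul_one]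
        calc w * ((u : H) * v0) * w⁻¹ = (w * u * w⁻¹) * (w * v0 * w⁻¹) := by group
          _ = u * y * (y * v0) := by rw [e1, e2]
          _ = u * v0 := by rw [mul_assoc, ← mul_assoc y, ← sq y, hV2 y hyV, one_mul]
      simpa using V.mul_mem h2 (V.inv_mem v0.2)
  have hinv := Lib.FPFOrderFour.inv_of_involutive ι' ⊤ (fun _ _ => mem_top _) (fun z _ => by
    obtain ⟨u, rfl⟩ := QuotientGroup.mk'_surjective _ z
    rw [QuotientGroup.mk'_apply, hι', hι']
    refine congrArg _ (Subtype.ext ?_)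
    show w * (w * u * w⁻¹) * w⁻¹ = u
    rw [hwinv]
    calc w * (w * (u : H) * w) * w = (w * w) * u * (w * w) := by group
      _ = u := by rw [hw2, one_mul, mul_one]) (fun z _ => hfpf z)
  refine ⟨fun hd => ?_, hV4, ?_⟩
  · obtain ⟨z, hz⟩ := exists_prime_orderOf_dvd_card' (G := U ⧸ V.subgroupOf U) 2 (by
      rw [← index_eq_card]; exact hd)
    have : z = 1 := hfpf z (by rw [hinv z (mem_top z)]; exact inv_eq_of_mul_eq_one_right (by rw [← sq, ← hz, pow_orderOf_eq_one]))
    rw [this, orderOf_one] at hz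
    omega
  · rw [commutator_le]
    intro a ha b hb
    have h1 := Lib.FPFOrderFour.commute_of_inverted ι' ⊤ hinv
      (mem_top ((⟨a, ha⟩ : U) : U ⧸ V.subgroupOf U)) (mem_top ((⟨b, hb⟩ : U) : U ⧸ V.subgroupOf U))
    have h2 : ⁅(⟨a, ha⟩ : U), ⟨b, hb⟩⁆ ∈ V.subgroupOf U := by
      rw [← QuotientGroup.eq_one_iff, ← QuotientGroup.mk'_apply, map_commutatorElement, commutatorElement_eq_one_iff_mul_comm]
      exact h1
    exact mem_subgroupOf.mp h2

end Cfsg.Agent.S3825
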