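import Cfsg.Statements.S3835
import Cfsg.Agent.Lib.QdFree

set_option autoImplicit false
open Cfsg

namespace Cfsg.Agent.S3835

open Cfsg.Agent.Lib.QdFree

variable {p : ℕ} [Fact p.Prime]

/-- The matrix of an element of `qd p`. -/
abbrev mat (M : ↥(Cfsg.qd p)) : Matrix (Fin 3) (Fin 3) (ZMod p) :=
  ((M : Matrix.SpecialLinearGroup (Fin 3) (ZMod p)) : Matrix (Fin 3) (Fin 3) (ZMod p))

theorem mat_injective {M N : ↥(Cfsg.qd p)} (h : mat M = mat N) : M = N := Subtype.ext (Subtype.ext h)

theorem mat_mul (M N : ↥(Cfsg.qd p)) : mat (M * N) = mat M * mat N := by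
  simp [mat]

/-- The affine action on the plane. -/
def act (M : ↥(Cfsg.qd p)) (v : ZMod p × ZMod p) : ZMod p × ZMod p :=
  (mat M 0 0 * v.1 + mat M 0 1 * v.2 + mat M 0 2, mat M 1 0 * v.1 + mat M 1 1 * v.2 + mat M 1 2)

theorem act_mul (M N : ↥(Cfsg.qd p)) (v : ZMod p × ZMod p) : act (M * N) v = act M (act N v) := by
  obtain ⟨n0, n1, n2⟩ := qd_shape N.2
  simp only [act, mat_mul, Matrix.mul_apply, Fin.sum_univ_three, mat]
  rw [n0, n1, n2]
  ext <;> ring

theorem act_one (v : ZMod p × ZMod p) : act (1 : ↥(Cfsg.qd p)) v = v := by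
  simp [act, mat]

/-- The permutation representation of `qd p`. -/
def perm : ↥(Cfsg.qd p) →* Equiv.Perm (ZMod p × ZMod p) where
  toFun M :=
    { toFun := act M
      invFun := act M⁻¹
      left_inv := fun v => by rw [← act_mul, inv_mul_cancel, act_one]
      right_inv := fun v => by rw [← act_mul, mul_inv_cancel, act_one] }
  map_one' := Equiv.ext act_one
  map_mul' M N := Equiv.ext (act_mul M N)

theorem perm_injective : Function.Injective (perm (p := p)) := by
  rw [injective_iff_map_eq_one]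
  intro M hM
  obtain ⟨m0, m1, m2⟩ := qd_shape M.2
  have h : ∀ v, act M v = v := fun v => by
    have := congrArg (fun σ : Equiv.Perm (ZMod p × ZMod p) => σ v) hM
    exact this
  have ha := h (0, 0)
  have hb := h (1, 0)
  have hc := h (0, 1)
  simp only [act, Prod.mk.injEq, mul_zero, mul_one, zero_add, add_zero] at ha hb hc
  rw [ha.1, ha.2, add_zero, add_zero] at hb hc
  apply mat_injective
  ext i j
  fin_cases i <;> fin_cases j <;> simp [mat, ha.1, ha.2, hb.1, hb.2, hc.1, hc.2, m0, m1, m2]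

theorem pow_eq_one_of_nil (hp : p ≠ 2) {M : ↥(Cfsg.qd p)} (h : (mat M - 1) ^ 3 = 0) : M ^ p = 1 := by
  have h3 : 3 ≤ p := lt_of_le_of_ne (Fact.out (p := p.Prime)).two_le (Ne.symm hp)
  apply mat_injective
  simp only [mat, SubmonoidClass.coe_pow, OneMemClass.coe_one, Matrix.SpecialLinearGroup.coe_pow,
    Matrix.SpecialLinearGroup.coe_one]
  rw [← sub_eq_zero, ← one_pow (M := Matrix (Fin 3) (Fin 3) (ZMod p)) p,
    ← sub_pow_char_of_commute (p := p) (h := Commute.one_right _)]
  exact pow_eq_zero_of_le h3 h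

/-- An element of `qd p` with prescribed upper rows. -/
def mk (a b c d x y : ZMod p) (h : a * d - b * c = 1) : ↥(Cfsg.qd p) :=
  qdElem p !![a, b, x; c, d, y; 0, 0, 1] (by simp [Matrix.det_fin_three]; linear_combination h) rfl rfl rfl

theorem mat_mk (a b c d x y : ZMod p) (h : a * d - b * c = 1) :
    mat (mk a b c d x y h) = !![a, b, x; c, d, y; 0, 0, 1] := rfl

theorem map_eq_one_of_mk (hp : p ≠ 2) {A : Type*} [CommGroup A] (hA : ∀ z : A, z ^ 2 = 1) (χ : ↥(Cfsg.qd p) →* A)
    {M : ↥(Cfsg.qd p)} (h : (mat M - 1) ^ 3 = 0) : χ M = 1 := by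
  have h1 : χ M ^ p = 1 := by rw [← map_pow, pow_eq_one_of_nil hp h, map_one]
  obtain ⟨m, hm⟩ := (Fact.out (p := p.Prime)).odd_of_ne_two hp
  have h2 : χ M ^ (2 * m + 1) = 1 := by
    simpa [← hm] using h1
  rwa [pow_succ, pow_mul, hA, one_pow, one_mul] at h2

theorem hom_eq_one (hp : p ≠ 2) {A : Type*} [CommGroup A] (hA : ∀ z : A, z ^ 2 = 1) (χ : ↥(Cfsg.qd p) →* A)
    (M : ↥(Cfsg.qd p)) : χ M = 1 := by
  have hT : ∀ x y : ZMod p, χ (mk 1 0 0 1 x y (by ring)) = 1 := fun x y => map_eq_one_of_mk hp hA χ (by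
    ext i j; fin_cases i <;> fin_cases j <;> simp [mat_mk, pow_succ, Matrix.mul_apply, Fin.sum_univ_three, Matrix.one_apply])
  have hU : ∀ x : ZMod p, χ (mk 1 x 0 1 0 0 (by ring)) = 1 := fun x => map_eq_one_of_mk hp hA χ (by
    ext i j; fin_cases i <;> fin_cases j <;> simp [mat_mk, pow_succ, Matrix.mul_apply, Fin.sum_univ_three, Matrix.one_apply])
  have hL : ∀ x : ZMod p, χ (mk 1 0 x 1 0 0 (by ring)) = 1 := fun x => map_eq_one_of_mk hp hA χ (by
    ext i j; fin_cases i <;> fin_cases j <;> simp [mat_mk, pow_succ, Matrix.mul_apply, Fin.sum_univ_three, Matrix.one_apply])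
  have hgen : ∀ N : ↥(Cfsg.qd p), mat N 1 0 ≠ 0 → χ N = 1 := by
    intro N hc
    obtain ⟨n0, n1, n2⟩ := qd_shape N.2
    have hdet : mat N 0 0 * mat N 1 1 - mat N 0 1 * mat N 1 0 = 1 := by
      have := (N : Matrix.SpecialLinearGroup (Fin 3) (ZMod p)).2
      rw [Matrix.det_fin_three, n0, n1, n2] at this
      linear_combination this
    set a := mat N 0 0
    set c := mat N 1 0
    set d := mat N 1 1
    have : N = mk 1 0 0 1 (mat N 0 2) (mat N 1 2) (by ring) * mk 1 ((a - 1) / c) 0 1 0 0 (by ring) *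
        mk 1 0 c 1 0 0 (by ring) * mk 1 ((d - 1) / c) 0 1 0 0 (by ring) := by
      apply mat_injective
      simp only [mat_mul, mat_mk]
      have e : mat N 0 1 = (a * d - 1) / c := by
        rw [eq_div_iff hc]; linear_combination -hdet
      ext i j
      fin_cases i <;> fin_cases j <;> simp [Matrix.mul_apply, Fin.sum_univ_three, n0, n1, n2, a, c, d, mat] <;>
        simp only [a, c, d, mat] at e hc <;> first | (rw [e]; field_simp; ring) | (field_simp; ring)
    rw [this, map_mul, map_mul, map_mul, hT, hU, hL, hU]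
    simp
  by_cases hc : mat M 1 0 = 0
  · obtain ⟨n0, n1, n2⟩ := qd_shape M.2
    have hdet : mat M 0 0 * mat M 1 1 - mat M 0 1 * mat M 1 0 = 1 := by
      have := (M : Matrix.SpecialLinearGroup (Fin 3) (ZMod p)).2
      rw [Matrix.det_fin_three, n0, n1, n2] at this
      linear_combination this
    have h1 : mat (mk 1 0 1 1 0 0 (by ring) * M) 1 0 ≠ 0 := by
      simp only [mat_mul, mat_mk, Matrix.mul_apply, Fin.sum_univ_three]
      simp [hc, n0]
      intro h
      rw [hc] at hdet
      simp [mat] at hdet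
      simp [h] at hdet
    have h2 := hgen _ h1
    rwa [map_mul, hL, one_mul] at h2
  · exact hgen M hc

theorem perm_even (hp : p ≠ 2) (M : ↥(Cfsg.qd p)) : Equiv.Perm.sign (perm M) = 1 :=
  hom_eq_one hp (fun z => Int.units_sq z) (Equiv.Perm.sign.comp perm) M

/-- The upper unitriangular subgroup. -/
def upper : Subgroup ↥(Cfsg.qd p) where
  carrier := {M | mat M 0 0 = 1 ∧ mat M 1 1 = 1 ∧ mat M 1 0 = 0}
  one_mem' := by simp [mat]
  mul_mem' := by
    intro x y hx hy
    obtain ⟨n0, n1, n2⟩ := qd_shape y.2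
    refine ⟨?_, ?_, ?_⟩ <;>
      simp [mat_mul, Matrix.mul_apply, Fin.sum_univ_three, hx.1, hx.2.1, hx.2.2, hy.1, hy.2.1, hy.2.2] <;>
      simp [mat, n0, n1]
  inv_mem' := by
    intro x hx
    obtain ⟨n0, n1, n2⟩ := qd_shape x.2
    obtain ⟨m0, m1, m2⟩ := qd_shape (x⁻¹).2
    have h := congrArg mat (inv_mul_cancel x)
    rw [mat_mul] at h
    have e00 := congrFun (congrFun h 0) 0
    have e11 := congrFun (congrFun h 1) 1
    have e10 := congrFun (congrFun h 1) 0
    simp [Matrix.mul_apply, Fin.sum_univ_three, hx.1, hx.2.1, hx.2.2] at e00 e11 e10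
    simp [mat, n0, n1] at e00 e11 e10
    refine ⟨?_, ?_, ?_⟩ <;> simp [mat] <;> simp_all [mat]

theorem upper_isPGroup (hp : p ≠ 2) : IsPGroup p (upper (p := p)) := by
  rintro ⟨M, h0, h1, h2⟩
  refine ⟨1, Subtype.ext ?_⟩
  rw [pow_one, SubmonoidClass.coe_pow]
  refine pow_eq_one_of_nil hp ?_
  obtain ⟨n0, n1, n2⟩ := qd_shape M.2
  ext i j
  fin_cases i <;> fin_cases j <;>
    simp [pow_succ, Matrix.mul_apply, Fin.sum_univ_three, h0, h1, h2] <;> simp [mat, n0, n1, n2]

/-- A `p`-group of permutations of fewer than `p²` points is commutative. -/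
theorem pGroup_perm_comm {n : ℕ} (hn : n < p ^ 2) (Q : Subgroup (Equiv.Perm (Fin n))) (hQ : IsPGroup p Q)
    {a b : Equiv.Perm (Fin n)} (ha : a ∈ Q) (hb : b ∈ Q) : a * b = b * a := by
  classical
  have hp : p.Prime := Fact.out
  ext1 i
  set O := MulAction.orbit Q i with hO
  obtain ⟨k, hk⟩ := hQ.card_orbit i
  let f : Q →* Equiv.Perm O := MulAction.toPermHom Q O
  have hR : IsPGroup p f.range := hQ.of_surjective f.rangeRestrict f.rangeRestrict_surjective
  obtain ⟨m, hm⟩ := IsPGroup.iff_card.1 hR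
  have hk1 : k ≤ 1 := by
    by_contra h
    have h1 : Nat.card O ≤ n := by simpa using Nat.card_le_card_of_injective _ (Subtype.val_injective (p := (· ∈ O)))
    rw [hk] at h1
    have := Nat.pow_le_pow_right hp.pos (show 2 ≤ k by omega)
    omega
  have hdvd : p ^ m ∣ p := by
    have h := f.range.card_subgroup_dvd_card
    rw [hm, Nat.card_perm, hk] at h
    rcases Nat.le_one_iff_eq_zero_or_eq_one.1 hk1 with rfl | rfl
    · simp at h
      simp [h]
    · rw [pow_one, ← Nat.mul_factorial_pred hp.ne_zero] at h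
      have hc : Nat.Coprime (p ^ m) (p - 1).factorial := Nat.Coprime.pow_left _
        ((hp.coprime_iff_not_dvd).2 (fun h' => by have := (hp.dvd_factorial).1 h'; have := hp.pos; omega))
      exact hc.dvd_of_dvd_mul_right h
  have hcyc : IsCyclic f.range := by
    rcases hp.eq_one_or_self_of_dvd _ hdvd with h | h
    · have : Subsingleton f.range := (Nat.card_eq_one_iff_unique.1 (hm.trans h)).1
      exact isCyclic_of_subsingleton
    · exact isCyclic_of_prime_card (p := p) (hm.trans h)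
  have hc := hcyc.commGroup.mul_comm ⟨f ⟨a, ha⟩, _, rfl⟩ ⟨f ⟨b, hb⟩, _, rfl⟩
  exact congrArg Subtype.val (DFunLike.congr_fun (congrArg Subtype.val hc) (⟨i, MulAction.mem_orbit_self i⟩ : O))

/-- `qd p` is not a quotient of a permutation group of degree below `p²`. -/
theorem no_hom (hp : p ≠ 2) {n : ℕ} (hn : n < p ^ 2) {K : Type*} [Group K] [Finite K]
    (ι : K →* Equiv.Perm (Fin n)) (hι : Function.Injective ι) (f : K →* ↥(Cfsg.qd p))
    (hf : Function.Surjective f) : False := by
  classical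
  let U := upper (p := p)
  let g : U.comap f →* U := f.subgroupComap U
  have hg : Function.Surjective g := MonoidHom.subgroupComap_surjective_of_surjective _ _ hf
  let S : Sylow p (U.comap f) := Classical.arbitrary _
  have htop : (S.mapSurjective hg : Subgroup U) = ⊤ :=
    ((S.mapSurjective hg).is_maximal' ((upper_isPGroup hp).to_subgroup ⊤) le_top).symm
  let A : ↥U := ⟨mk 1 1 0 1 0 0 (by ring), by simp [upper, U, mat_mk]⟩
  let B : ↥U := ⟨mk 1 0 0 1 0 1 (by ring), by simp [upper, U, mat_mk]⟩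
  obtain ⟨a, ha, ha'⟩ : A ∈ (S : Subgroup (U.comap f)).map g := by
    rw [← Sylow.coe_mapSurjective hg, htop]; trivial
  obtain ⟨b, hb, hb'⟩ : B ∈ (S : Subgroup (U.comap f)).map g := by
    rw [← Sylow.coe_mapSurjective hg, htop]; trivial
  have hab : a * b = b * a := by
    apply Subtype.ext
    apply hι
    simp only [Subgroup.coe_mul, map_mul]
    have := pGroup_perm_comm hn ((S : Subgroup (U.comap f)).map (ι.comp (U.comap f).subtype))
      (S.2.map _) (a := ι (a : K)) (b := ι (b : K)) ⟨a, ha, rfl⟩ ⟨b, hb, rfl⟩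
    exact this
  have h := congrArg (fun x => mat ((g x : U) : ↥(Cfsg.qd p)) 0 2) hab
  simp only [map_mul, ha', hb', Subgroup.coe_mul, A, B, mat_mul, mat_mk, Matrix.mul_apply, Fin.sum_univ_three] at h
  simp at h


/-- Let p be an odd prime and n a natural number. The alternating group of degree n has a subgroup isomorphic to Qd(p) (the natural semidirect product of an elementary abelian group of order p² by SL₂(p)) if and only if n ≥ p²; and if n < p² then Qd(p) is not even involved in it. -/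
theorem result {p : ℕ} [Fact p.Prime] (hp : p ≠ 2) (n : ℕ) : ((∃ H : Subgroup (alternatingGroup (Fin n)), Nonempty (↥H ≃* ↥(Cfsg.qd p))) ↔ p ^ 2 ≤ n) ∧ (n < p ^ 2 → ¬ Cfsg.Involves ↥(Cfsg.qd p) ↥(alternatingGroup (Fin n))) := by
  classical
  have hnot : n < p ^ 2 → ¬ Cfsg.Involves ↥(Cfsg.qd p) ↥(alternatingGroup (Fin n)) := by
    rintro hn ⟨K, R, hR, ⟨e⟩⟩
    exact no_hom hp hn ((alternatingGroup (Fin n)).subtype.comp K.subtype)
      ((Subgroup.subtype_injective _).comp K.subtype_injective)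
      (e.toMonoidHom.comp (QuotientGroup.mk' _)) (e.surjective.comp (QuotientGroup.mk'_surjective _))
  refine ⟨⟨?_, fun hn => ?_⟩, hnot⟩
  · rintro ⟨H, ⟨e⟩⟩
    by_contra hlt
    exact no_hom hp (Nat.lt_of_not_le hlt) ((alternatingGroup (Fin n)).subtype.comp H.subtype)
      ((Subgroup.subtype_injective _).comp H.subtype_injective) e.toMonoidHom e.surjective
  · have : NeZero p := ⟨(Fact.out (p := p.Prime)).ne_zero⟩
    obtain ⟨em⟩ : Nonempty (ZMod p × ZMod p ↪ Fin n) :=
      Function.Embedding.nonempty_of_card_le (by simpa [← pow_two] using hn)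
    let φ : ↥(Cfsg.qd p) →* Equiv.Perm (Fin n) :=
      (Equiv.Perm.extendDomainHom (Equiv.ofInjective em em.injective)).comp perm
    have hφ : ∀ M, φ M ∈ alternatingGroup (Fin n) := fun M => by
      rw [Equiv.Perm.mem_alternatingGroup]
      exact (Equiv.Perm.sign_extendDomain _ _).trans (perm_even hp M)
    let ψ := φ.codRestrict (alternatingGroup (Fin n)) hφ
    have hψ : Function.Injective ψ := fun a b h =>
      perm_injective (Equiv.Perm.extendDomainHom_injective _ (congrArg Subtype.val h))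
    exact ⟨ψ.range, ⟨(MonoidHom.ofInjective hψ).symm⟩⟩

end Cfsg.Agent.S3835
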