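import Cfsg.Statements.S3836
import Cfsg.Agent.Lib.Hall.Basic

set_option autoImplicit false
open Cfsg

namespace Cfsg.Agent.S3836

/-- Let G be a finite group that is p-stable in the normalizer form: for every p-subgroup Q and every x ∈ N_G(Q) with [Q, x, x] = 1, the image of x in N_G(Q)/C_G(Q) lies in O_p(N_G(Q)/C_G(Q)). Then every subgroup of G is p-stable in the same sense. -/
theorem result {G : Type*} [Group G] [Finite G] {p : ℕ} [Fact p.Prime] (hst : Cfsg.IsNormalizerPStable p G) (H : Subgroup G) : Cfsg.IsNormalizerPStable p ↥H := by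
  intro P hP g hg hcomm
  set PG : Subgroup G := P.map H.subtype with hPG
  have hgG : (g : G) ∈ Subgroup.normalizer (PG : Set G) := Subgroup.le_normalizer_map H.subtype ⟨g, hg, rfl⟩
  have hcommG : ⁅⁅PG, Subgroup.zpowers (g : G)⁆, Subgroup.zpowers (g : G)⁆ = ⊥ := by
    have h := congrArg (Subgroup.map H.subtype) hcomm
    rwa [Subgroup.map_commutator, Subgroup.map_commutator, Subgroup.map_bot, MonoidHom.map_zpowers] at h
  have hres := hst PG (hP.map _) (g : G) hgG hcommG
  let f : ↥(Subgroup.normalizer (P : Set ↥H)) →* ↥(Subgroup.normalizer (PG : Set G)) :=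
    { toFun := fun x => ⟨(x.1 : G), Subgroup.le_normalizer_map H.subtype ⟨x.1, x.2, rfl⟩⟩
      map_one' := rfl
      map_mul' := fun _ _ => rfl }
  let CH := (Subgroup.centralizer (P : Set ↥H)).subgroupOf (Subgroup.normalizer (P : Set ↥H))
  let CG := (Subgroup.centralizer (PG : Set G)).subgroupOf (Subgroup.normalizer (PG : Set G))
  have hC : ∀ x, x ∈ CH ↔ f x ∈ CG := by
    intro x
    simp only [CH, CG, Subgroup.mem_subgroupOf, Subgroup.mem_centralizer_iff]
    constructor
    · rintro h _ ⟨y, hy, rfl⟩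
      exact congrArg Subtype.val (h y hy)
    · exact fun h y hy => Subtype.ext (h (y : G) ⟨y, hy, rfl⟩)
  let F := QuotientGroup.map CH CG f (fun x hx => (hC x).mp hx)
  have hF : Function.Injective F := by
    rw [← MonoidHom.ker_eq_bot_iff, eq_bot_iff]
    intro q hq
    obtain ⟨x, rfl⟩ := QuotientGroup.mk_surjective q
    rw [Subgroup.mem_bot, QuotientGroup.eq_one_iff, hC]
    exact (QuotientGroup.eq_one_iff _).mp hq
  haveI : ((Cfsg.pCore p (↥(Subgroup.normalizer (PG : Set G)) ⧸ CG)).comap F).Normal :=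
    Subgroup.Normal.comap inferInstance F
  exact Cfsg.Agent.Lib.Hall.le_pCore ((Cfsg.Agent.Lib.Hall.isPGroup_pCore p).comap_of_injective F hF) hres

end Cfsg.Agent.S3836
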