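import Cfsg.Statements.S3838
import Cfsg.Agent.Lib.FusionTransfer.GroupCor

set_option autoImplicit false
open Cfsg

namespace Cfsg.Agent.S3838

/-- Let G be a finite group with Sylow p-subgroup P such that N_G(P) has a normal p-complement. Then N_G(Q) has a normal p-complement for every subgroup Q with [P, P] ≤ Q ≤ Φ(P). -/
theorem result {G : Type*} [Group G] [Finite G] {p : ℕ} [Fact p.Prime] (P : Sylow p G) (hN : Cfsg.HasNormalPComplement p ↥(Subgroup.normalizer ((P : Subgroup G) : Set G))) (Q : Subgroup G) (h1 : (commutator ↥(P : Subgroup G)).map (P : Subgroup G).subtype ≤ Q) (h2 : Q ≤ (frattini ↥(P : Subgroup G)).map (P : Subgroup G).subtype) : Cfsg.HasNormalPComplement p ↥(Subgroup.normalizer (Q : Set G)) := by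
  rw [← show ⁅(P : Subgroup G), (P : Subgroup G)⁆ = (commutator ↥(P : Subgroup G)).map (P : Subgroup G).subtype from
    (Subgroup.map_subtype_commutator _).symm] at h1
  exact Cfsg.Agent.Lib.FusionTransfer.normalizer_between_pNilpotent P hN h1 h2

end Cfsg.Agent.S3838
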