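import Cfsg.Statements.S3857
import Cfsg.Agent.Lib.Coprime.Abelian
import Cfsg.Agent.Lib.Hall.Frobenius
import Cfsg.Agent.Lib.Hall.Solvable
import Cfsg.Agent.Lib.UniqueInvolution
import Cfsg.Agent.Lib.LocalChar.Core

set_option autoImplicit false
open Cfsg

namespace Cfsg.Agent.S3857

open Subgroup
open scoped Pointwise commutatorElement

section

/-- All prime divisors of `n` lie in `A`. -/
def PiNum (A : Set ℕ) (n : ℕ) : Prop := ∀ r : ℕ, r.Prime → r ∣ n → r ∈ A

theorem piNum_mul {A : Set ℕ} {m n : ℕ} (hm : PiNum A m) (hn : PiNum A n) : PiNum A (m * n) :=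
  fun r hr hd => (hr.dvd_mul.mp hd).elim (hm r hr) (hn r hr)

theorem piNum_dvd {A : Set ℕ} {m n : ℕ} (hn : PiNum A n) (h : m ∣ n) : PiNum A m :=
  fun r hr hd => hn r hr (hd.trans h)

theorem piNum_one {A : Set ℕ} : PiNum A 1 := fun _ hr hd => absurd (Nat.dvd_one.mp hd) hr.ne_one

theorem piNum_prime {A : Set ℕ} {p : ℕ} (hp : p.Prime) (h : p ∈ A) : PiNum A p :=
  fun r hr hd => ((Nat.prime_dvd_prime_iff_eq hr hp).mp hd).symm ▸ h

theorem piNum_pgroup {X : Type*} [Group X] [Finite X] {A : Set ℕ} {p : ℕ} (hp : p.Prime) (h : p ∈ A)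
    {W : Subgroup X} (hW : IsPGroup p W) : PiNum A (Nat.card W) := by
  have : Fact p.Prime := ⟨hp⟩
  obtain ⟨e, he⟩ := IsPGroup.iff_card.mp hW
  intro r hr hd
  rw [he] at hd
  exact ((Nat.prime_dvd_prime_iff_eq hr hp).mp (hr.dvd_of_dvd_pow hd)).symm ▸ h

theorem piNum_coprime {A : Set ℕ} {m n : ℕ} (hm : PiNum A m) (hn : PiNum Aᶜ n) : m.Coprime n :=
  Nat.coprime_of_dvd fun r hr h1 h2 => hn r hr h2 (hm r hr h1)

variable {X : Type*} [Group X]

theorem piNum_sup [Finite X] {A : Set ℕ} {K L : Subgroup X} [L.Normal] (hK : PiNum A (Nat.card K))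
    (hL : PiNum A (Nat.card L)) : PiNum A (Nat.card (K ⊔ L : Subgroup X)) := by
  refine piNum_dvd (piNum_mul hK hL) ?_
  rw [← Lib.Coprime.card_sup_mul_card_inf]
  exact dvd_mul_right _ _

theorem exists_maximal_piNum [Finite X] (A : Set ℕ) {W : Subgroup X} (hW : W.Normal)
    (hWA : PiNum A (Nat.card W)) : ∃ H : Subgroup X, H.Normal ∧ W ≤ H ∧ PiNum A (Nat.card H) ∧
      ∀ L : Subgroup X, L.Normal → PiNum A (Nat.card L) → L ≤ H := by
  obtain ⟨H, hWH, hH⟩ := Finite.exists_le_maximal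
    (p := fun K : Subgroup X => K.Normal ∧ PiNum A (Nat.card K)) (a := W) ⟨hW, hWA⟩
  refine ⟨H, hH.prop.1, hWH, hH.prop.2, fun L hL hLA => ?_⟩
  have := hH.prop.1
  exact le_sup_right.trans (hH.le_of_ge ⟨inferInstance, piNum_sup hH.prop.2 hLA⟩ le_sup_left)

theorem frobenius_of_complement [Finite X] {L C : Subgroup X} [L.Normal] (hc : IsComplement' L C)
    (hL : L ≠ ⊥) (hC : C ≠ ⊥) (hfix : ∀ c ∈ C, ∀ l ∈ L, c ≠ 1 → c * l = l * c → l = 1) :
    Cfsg.IsFrobeniusComplement C ∧ Cfsg.frobeniusKernel C = (L : Set X) := by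
  have hdis : L ⊓ C = ⊥ := hc.disjoint.eq_bot
  have hFC : Cfsg.IsFrobeniusComplement C := by
    refine ⟨hC, fun ht => hL (by rwa [ht, inf_top_eq] at hdis), fun g hg => eq_bot_iff.mpr ?_⟩
    obtain ⟨l, hl, c, hcm, rfl⟩ := mem_sup_of_normal_left.mp (hc.sup_eq_top ▸ mem_top g)
    rw [Lib.Coprime.conj_smul_mul, Lib.Coprime.conj_smul_eq_self (le_normalizer hcm)]
    rintro x ⟨hx1, hx2⟩
    rw [mem_bot]
    by_contra hx
    have h1 : x⁻¹ * (l⁻¹ * x * l) ∈ L ⊓ C := by
      refine ⟨?_, C.mul_mem (C.inv_mem hx1) (Lib.Coprime.mem_conj_smul.mp hx2)⟩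
      rw [show x⁻¹ * (l⁻¹ * x * l) = (x⁻¹ * l⁻¹ * x⁻¹⁻¹) * l by group]
      exact L.mul_mem ((inferInstance : L.Normal).conj_mem _ (L.inv_mem hl) _) hl
    rw [hdis, mem_bot] at h1
    have h2 : x * l = l * x := by
      calc x * l = l * x * (x⁻¹ * (l⁻¹ * x * l)) := by group
        _ = l * x := by rw [h1, mul_one]
    refine hg ?_
    rw [hfix x hx1 l hl hx h2, one_mul]
    exact hcm
  refine ⟨hFC, (Set.eq_of_subset_of_ncard_le ?_ (le_of_eq ?_) (Set.toFinite _)).symm⟩
  · intro x hx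
    rw [Lib.Hall.frobeniusKernel_eq_compl]
    rintro ⟨hx1, g, hg⟩
    have h1 : g⁻¹ * x * g ∈ L ⊓ C :=
      ⟨by simpa using (inferInstance : L.Normal).conj_mem x hx g⁻¹, Lib.Coprime.mem_conj_smul.mp hg⟩
    rw [hdis, mem_bot] at h1
    exact hx1 (by simpa [mul_eq_one_iff_eq_inv] using h1)
  · rw [← Nat.card_coe_set_eq, Lib.Hall.card_frobeniusKernel hFC, hc.index_eq_card, ← Nat.card_coe_set_eq]
    rfl

theorem commutator_le_centralizer_of_cyclic {U : Subgroup X} [U.Normal] (hU : IsCyclic U) :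
    _root_.commutator X ≤ centralizer (U : Set X) := by
  obtain ⟨c, hc⟩ := hU.exists_generator
  have hgen : ∀ u ∈ U, ∃ k : ℤ, (c : X) ^ k = u := fun u hu => by
    obtain ⟨k, hk⟩ := mem_zpowers_iff.mp (hc ⟨u, hu⟩)
    exact ⟨k, by simpa using congrArg Subtype.val hk⟩
  rw [commutator_eq_closure, closure_le]
  rintro _ ⟨g, g', rfl⟩
  refine mem_centralizer_iff.mpr fun u hu => ?_
  obtain ⟨i, hi⟩ := hgen _ ((inferInstance : U.Normal).conj_mem c c.2 g)
  obtain ⟨j, hj⟩ := hgen _ ((inferInstance : U.Normal).conj_mem c c.2 g')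
  obtain ⟨k, rfl⟩ := hgen u hu
  have hm : ∀ (a : X) (n : ℤ), MulAut.conj a ((c : X) ^ n) = (a * c * a⁻¹) ^ n := fun a n => by
    rw [map_zpow, MulAut.conj_apply]
  have e1 : MulAut.conj (g * g') ((c : X) ^ k) = MulAut.conj (g' * g) ((c : X) ^ k) := by
    rw [map_mul, map_mul, MulAut.mul_apply, MulAut.mul_apply, hm g' k, ← hj, hm g k, ← hi, ← zpow_mul,
      ← zpow_mul, hm, hm, ← hi, ← hj, ← zpow_mul, ← zpow_mul]
    congr 1
    ring
  simp only [MulAut.conj_apply] at e1
  rw [commutatorElement_def]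
  have e2 : (c : X) ^ k = (g * g')⁻¹ * ((g' * g) * (c : X) ^ k * (g' * g)⁻¹) * (g * g') := by
    rw [← e1]; group
  calc (c : X) ^ k * (g * g' * g⁻¹ * g'⁻¹)
      = (g * g') * ((g * g')⁻¹ * (c : X) ^ k * (g * g')) * (g' * g)⁻¹ := by group
    _ = _ := by
      have e3 : (g * g')⁻¹ * (c : X) ^ k * (g * g') = (g' * g)⁻¹ * (c : X) ^ k * (g' * g) := by
        have e4 : MulAut.conj (g * g')⁻¹ ((c : X) ^ k) = MulAut.conj (g' * g)⁻¹ ((c : X) ^ k) := by
          obtain ⟨i', hi'⟩ := hgen _ ((inferInstance : U.Normal).conj_mem c c.2 g⁻¹)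
          obtain ⟨j', hj'⟩ := hgen _ ((inferInstance : U.Normal).conj_mem c c.2 g'⁻¹)
          rw [mul_inv_rev, mul_inv_rev, map_mul, map_mul, MulAut.mul_apply, MulAut.mul_apply, hm g⁻¹ k,
            ← hi', hm g'⁻¹ k, ← hj', ← zpow_mul, ← zpow_mul, hm, hm, ← hi', ← hj', ← zpow_mul, ← zpow_mul]
          congr 1
          ring
        simpa [MulAut.conj_apply, mul_assoc] using e4
      rw [e3]; group

theorem orderOf_piNum [Finite X] {A : Set ℕ} {K : Subgroup X} (hK : PiNum A (Nat.card K)) {x : X}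
    (hx : x ∈ K) : PiNum A (orderOf x) := piNum_dvd hK (orderOf_dvd_natCard K hx)

theorem core [Finite X] [Group.IsSolvable X] (A : Set ℕ)
    (hfree : ∀ a ∈ A, ∀ b ∉ A, a.Prime → b.Prime → a ∣ Nat.card X → b ∣ Nat.card X →
      ¬ ∃ g : X, orderOf g = a * b)
    (hB : ∃ b ∉ A, b.Prime ∧ b ∣ Nat.card X) (W0 : Subgroup X) (hW0n : W0.Normal) (hW0 : W0 ≠ ⊥)
    (hW0A : PiNum A (Nat.card W0)) :
    (∃ C : Subgroup X, Cfsg.IsFrobeniusComplement C) ∨
    (∃ (H K : Subgroup X) (_ : H.Normal), K.Normal ∧ H < K ∧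
      (∃ C : Subgroup ↥K, Cfsg.IsFrobeniusComplement C ∧ Cfsg.frobeniusKernel C = (H.subgroupOf K : Set ↥K)) ∧
      (∃ C : Subgroup (X ⧸ H), Cfsg.IsFrobeniusComplement C ∧
        Cfsg.frobeniusKernel C = (K.map (QuotientGroup.mk' H) : Set (X ⧸ H)))) := by
  have nocomm : ∀ x y : X, x ≠ 1 → y ≠ 1 → PiNum A (orderOf x) → PiNum Aᶜ (orderOf y) →
      x * y ≠ y * x := by
    intro x y hx hy hxA hyB he
    obtain ⟨a, ha, had⟩ := Nat.exists_prime_and_dvd (orderOf_eq_one_iff.not.mpr hx)
    obtain ⟨b, hb, hbd⟩ := Nat.exists_prime_and_dvd (orderOf_eq_one_iff.not.mpr hy)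
    have e1 := orderOf_pow_orderOf_div (orderOf_pos x).ne' had
    have e2 := orderOf_pow_orderOf_div (orderOf_pos y).ne' hbd
    refine hfree a (hxA a ha had) b (hyB b hb hbd) ha hb (had.trans (orderOf_dvd_natCard x))
      (hbd.trans (orderOf_dvd_natCard y)) ⟨x ^ (orderOf x / a) * y ^ (orderOf y / b), ?_⟩
    rw [((show Commute x y from he).pow_pow _ _).orderOf_mul_eq_mul_orderOf_of_coprime, e1, e2]
    rw [e1, e2, Nat.coprime_primes ha hb]
    rintro rfl
    exact hyB a hb hbd (hxA a ha had)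
  obtain ⟨H, hHn, hW0H, hHA, hHmax⟩ := exists_maximal_piNum A hW0n hW0A
  have hH1 : H ≠ ⊥ := fun h => hW0 (le_bot_iff.mp (h ▸ hW0H))
  obtain ⟨h0, hh0, hh01⟩ := (bot_or_exists_ne_one H).resolve_left hH1
  let q := QuotientGroup.mk' H
  have hq : Function.Surjective q := QuotientGroup.mk'_surjective H
  have card_comap : ∀ L : Subgroup (X ⧸ H), Nat.card (L.comap q) = Nat.card H * Nat.card L := fun L => by
    have h1 := Lib.Coprime.card_map_mul_card_inf_ker q (L.comap q)
    rw [map_comap_eq_self_of_surjective hq, QuotientGroup.ker_mk',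
      inf_eq_right.mpr (fun x hx => mem_comap.mpr (by
        rw [show q x = 1 from (QuotientGroup.eq_one_iff x).mpr hx]; exact one_mem L)), mul_comm] at h1
    exact h1.symm
  have qmax : ∀ L : Subgroup (X ⧸ H), L.Normal → PiNum A (Nat.card L) → L = ⊥ := fun L hL hLA => by
    have h1 := hHmax (L.comap q) inferInstance (card_comap L ▸ piNum_mul hHA hLA)
    rw [← map_comap_eq_self_of_surjective hq L, eq_bot_iff]
    refine (map_mono h1).trans (le_of_eq ?_)
    exact (map_eq_bot_iff H).mpr (le_of_eq (QuotientGroup.ker_mk' H).symm)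
  have : Nontrivial (X ⧸ H) := by
    refine QuotientGroup.nontrivial_iff.mpr fun ht => ?_
    obtain ⟨b, hbA, hb, hbd⟩ := hB
    exact hbA (hHA b hb (by rwa [ht, card_top]))
  obtain ⟨W, r, hWn, hW1, hr, hWr, -, -⟩ := Lib.Hall.exists_normal_pgroup (G := X ⧸ H)
  have : Fact r.Prime := ⟨hr⟩
  have hrB : r ∉ A := fun hrA => hW1 (qmax W hWn (piNum_pgroup hr hrA hWr))
  set M := W.comap q with hMdef
  obtain ⟨T⟩ : Nonempty (Sylow r M) := inferInstance
  set T' := (T : Subgroup M).map M.subtype with hT'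
  have hT'p : IsPGroup r T' := T.2.map _
  have hT'B : PiNum Aᶜ (Nat.card T') := piNum_pgroup (X := X) hr hrB hT'p
  have hT'1 : T' ≠ ⊥ := by
    rw [hT', Ne, Subgroup.map_eq_bot_iff_of_injective _ M.subtype_injective]
    intro h
    have h1 : r ∣ Nat.card M := by
      rw [hMdef, card_comap]
      exact dvd_mul_of_dvd_right ((hWr.card_eq_or_dvd).resolve_left fun e => hW1 (card_eq_one.mp e)) _
    have h2 := T.dvd_card_of_dvd_card h1
    rw [h, card_bot] at h2
    exact hr.not_dvd_one h2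
  set N := normalizer (T' : Set X) with hN
  have hMn : M.Normal := inferInstance
  have hNM : N ⊔ M = ⊤ := Sylow.normalizer_sup_eq_top T
  obtain ⟨t, ht, ht1⟩ := (bot_or_exists_ne_one T').resolve_left hT'1
  have hTH : T' ⊓ H = ⊥ :=
    (disjoint_of_coprime_natCard (piNum_coprime hHA hT'B).symm).eq_bot
  have hNH : ∀ x ∈ N, x ∈ H → x = 1 := by
    intro x hxN hxH
    by_contra hx1
    refine nocomm x t hx1 ht1 (orderOf_piNum hHA hxH) (orderOf_piNum hT'B ht) ?_
    have h1 : x * t * x⁻¹ * t⁻¹ ∈ T' ⊓ H := by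
      refine ⟨T'.mul_mem ((mem_normalizer_iff.mp hxN t).mp ht) (T'.inv_mem ht), ?_⟩
      rw [show x * t * x⁻¹ * t⁻¹ = x * (t * x⁻¹ * t⁻¹) by group]
      exact H.mul_mem hxH (hHn.conj_mem _ (H.inv_mem hxH) t)
    rw [hTH, mem_bot, mul_inv_eq_one, mul_inv_eq_iff_eq_mul] at h1
    exact h1
  have hMle : M ≤ N ⊔ H := by
    have hTM : T' ⊔ H = M := by
      refine eq_of_le_of_card_ge (sup_le (map_subtype_le _) ?_) ?_
      · exact fun x hx => mem_comap.mpr (by
          rw [show q x = 1 from (QuotientGroup.eq_one_iff x).mpr hx]; exact one_mem W)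
      · have h1 := Lib.Coprime.card_sup_mul_card_inf H T'
        rw [hTH, card_bot, mul_one] at h1
        rw [h1, hMdef, card_comap, mul_comm]
        refine Nat.mul_le_mul_right _ ?_
        obtain ⟨e, he⟩ := IsPGroup.iff_card.mp hWr
        rw [hT', card_map_of_injective M.subtype_injective]
        refine Nat.le_of_dvd Nat.card_pos ?_
        rw [he]
        refine (hr.pow_dvd_iff_le_factorization Nat.card_pos.ne').mpr ?_
        rw [T.card_eq_multiplicity, hr.factorization_pow, Finsupp.single_eq_same]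
        refine (hr.pow_dvd_iff_le_factorization Nat.card_pos.ne').mp ?_
        rw [card_comap, he]; exact dvd_mul_left _ _
    rw [← hTM]; exact sup_le_sup_right le_normalizer _
  have hNsup : N ⊔ H = ⊤ := top_unique (hNM ▸ sup_le le_sup_left hMle)
  have hinj : Function.Injective (q.comp N.subtype) := by
    rw [injective_iff_map_eq_one]
    intro x hx
    exact Subtype.ext (hNH x x.2 ((QuotientGroup.eq_one_iff _).mp hx))
  have hsurj : Function.Surjective (q.comp N.subtype) := by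
    intro y
    obtain ⟨x, rfl⟩ := hq y
    obtain ⟨n, hn, h, hh, rfl⟩ := mem_sup_of_normal_right.mp (hNsup ▸ mem_top x)
    exact ⟨⟨n, hn⟩, by
      rw [map_mul, show q h = 1 from (QuotientGroup.eq_one_iff h).mpr hh, mul_one]; rfl⟩
  let φ : ↥N ≃* X ⧸ H := MulEquiv.ofBijective (q.comp N.subtype) ⟨hinj, hsurj⟩
  have hNcompl : IsComplement' H N := by
    refine isComplement'_of_disjoint_and_mul_eq_univ ?_ ?_
    · rw [disjoint_iff, eq_bot_iff]; exact fun x hx => mem_bot.mpr (hNH x hx.2 hx.1)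
    · rw [← normal_mul, sup_comm, hNsup, coe_top]
  by_cases hNB : PiNum Aᶜ (Nat.card N)
  · left
    refine ⟨N, (frobenius_of_complement hNcompl hH1 (fun h => hT'1 (le_bot_iff.mp (h ▸ le_normalizer))) ?_).1⟩
    intro c hc l hl hc1 he
    by_contra hl1
    exact nocomm l c hl1 hc1 (orderOf_piNum hHA hl) (orderOf_piNum hNB hc) he.symm
  right
  have hA0 : ∀ L : Subgroup ↥N, L.Normal → PiNum A (Nat.card L) → L = ⊥ := fun L hL hLA => by
    have := qmax (L.map φ.toMonoidHom) (hL.map _ φ.surjective)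
      (by rwa [card_map_of_injective φ.injective])
    exact (Subgroup.map_eq_bot_iff_of_injective _ φ.injective).mp this
  have fixH : ∀ n : ↥N, n ≠ 1 → PiNum Aᶜ (orderOf n) → ∀ h ∈ H, h ≠ 1 → (n : X) * h ≠ h * n := by
    intro n hn hno h hh hh1 he
    exact nocomm h n hh1 (fun e => hn (Subtype.ext e)) (orderOf_piNum hHA hh)
      (by rwa [orderOf_coe]) he.symm
  have hT0 : (T'.subgroupOf N).Normal := normal_in_normalizer
  have hT0B : PiNum Aᶜ (Nat.card (T'.subgroupOf N)) := by
    rwa [Nat.card_congr (subgroupOfEquivOfLe le_normalizer).toEquiv]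
  obtain ⟨K, hKn, hTK, hKB, hKmax⟩ := exists_maximal_piNum Aᶜ hT0 hT0B
  have hK1 : K ≠ ⊥ := fun h => by
    refine hT'1 ?_
    have := le_bot_iff.mp (h ▸ hTK)
    rwa [subgroupOf_eq_bot, disjoint_iff, inf_eq_left.mpr le_normalizer] at this
  obtain ⟨a, hy, haA, hadvd⟩ : ∃ a : ℕ, a.Prime ∧ a ∈ A ∧ a ∣ Nat.card N := by
    unfold PiNum at hNB
    push Not at hNB
    obtain ⟨a, ha, had, haA⟩ := hNB
    exact ⟨a, ha, not_not.mp haA, had⟩
  have : Fact a.Prime := ⟨hy⟩
  obtain ⟨y, hyo⟩ := exists_prime_orderOf_dvd_card' a hadvd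
  have hy1 : y ≠ 1 := fun e => hy.one_lt.ne (by rw [← hyo, e, orderOf_one])
  have hodd : ¬ 2 ∣ Nat.card K := by
    intro h2
    have h2A : 2 ∉ A := hKB 2 Nat.prime_two h2
    have : Fact (Nat.Prime 2) := ⟨Nat.prime_two⟩
    obtain ⟨s, hs⟩ := exists_prime_orderOf_dvd_card' 2 h2
    have inv_all : ∀ s : ↥K, orderOf s = 2 → ∀ h ∈ H, ((s : ↥N) : X) * h * ((s : ↥N) : X)⁻¹ = h⁻¹ := by
      intro s hs h hh
      set t : X := ((s : ↥N) : X) with ht
      have htt : t * t = 1 := by
        have := pow_orderOf_eq_one s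
        rw [hs, sq] at this
        simpa [ht] using congrArg (fun z : ↥K => ((z : ↥N) : X)) this
      let f : H → H := fun h => ⟨(h : X)⁻¹ * (t * h * t⁻¹), H.mul_mem (H.inv_mem h.2) (hHn.conj_mem _ h.2 t)⟩
      have hf : Function.Injective f := by
        intro u v huv
        have e := congrArg Subtype.val huv
        simp only [f] at e
        by_contra hne
        refine fixH (s : ↥N) (fun e1 => ?_) (by rw [orderOf_coe, hs]; exact piNum_prime Nat.prime_two h2A)
          ((v : X) * (u : X)⁻¹) (H.mul_mem v.2 (H.inv_mem u.2))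
          (fun e1 => hne (Subtype.ext (mul_inv_eq_one.mp e1).symm)) ?_
        · rw [OneMemClass.coe_eq_one] at e1; rw [e1, orderOf_one] at hs; exact absurd hs (by norm_num)
        · have e2 : (v : X) * (u : X)⁻¹ = t * ((v : X) * (u : X)⁻¹) * t⁻¹ := by
            calc (v : X) * (u : X)⁻¹ = v * ((u : X)⁻¹ * (t * u * t⁻¹)) * (t * u * t⁻¹)⁻¹ := by group
              _ = v * ((v : X)⁻¹ * (t * v * t⁻¹)) * (t * u * t⁻¹)⁻¹ := by rw [e]
              _ = t * ((v : X) * (u : X)⁻¹) * t⁻¹ := by group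
          calc t * ((v : X) * (u : X)⁻¹) = t * ((v : X) * (u : X)⁻¹) * t⁻¹ * t := by group
            _ = (v : X) * (u : X)⁻¹ * t := by rw [← e2]
      obtain ⟨u, hu⟩ := (Finite.injective_iff_surjective.mp hf) ⟨h, hh⟩
      have e := congrArg Subtype.val hu
      simp only [f] at e
      rw [← e]
      have ht' : t⁻¹ = t := inv_eq_of_mul_eq_one_right htt
      rw [ht']
      simp only [mul_inv_rev, inv_inv, ht', ← mul_assoc]
      rw [mul_assoc _ t t, htt, mul_one]
    have huniq : ∀ s' : ↥K, orderOf s' = 2 → s' = s := by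
      intro s' hs'
      by_contra hne
      refine fixH ((s' * s⁻¹ : ↥K) : ↥N) (fun e => hne (mul_inv_eq_one.mp (Subtype.ext e)))
        (by rw [orderOf_coe]; exact piNum_dvd hKB (orderOf_dvd_natCard _)) h0 hh0 hh01 ?_
      have e1 := inv_all s' hs' h0 hh0
      have e2 := inv_all s hs h0 hh0
      simp only [coe_mul, InvMemClass.coe_inv]
      set u : X := ((s : ↥N) : X)
      set v : X := ((s' : ↥N) : X)
      have e3 : v * h0 * v⁻¹ = u * h0 * u⁻¹ := e1.trans e2.symm
      have e4 : u⁻¹ * h0 * u = v⁻¹ * h0 * v := by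
        have e5 : v * h0⁻¹ * v⁻¹ = h0 := by rw [← conj_inv, e1, inv_inv]
        have e6 : u * h0⁻¹ * u⁻¹ = h0 := by rw [← conj_inv, e2, inv_inv]
        have a1 : u⁻¹ * h0 * u = h0⁻¹ := by
          nth_rewrite 1 [← e6]; group
        have a2 : v⁻¹ * h0 * v = h0⁻¹ := by
          nth_rewrite 1 [← e5]; group
        rw [a1, a2]
      calc v * u⁻¹ * h0 = v * (u⁻¹ * h0 * u) * u⁻¹ := by group
        _ = v * (v⁻¹ * h0 * v) * u⁻¹ := by rw [e4]
        _ = h0 * (v * u⁻¹) := by group
    have hys : y * (s : ↥N) * y⁻¹ = s := by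
      have ho : orderOf (⟨y * (s : ↥N) * y⁻¹, hKn.conj_mem _ s.2 y⟩ : ↥K) = 2 := by
        rw [← orderOf_coe]
        show orderOf (MulAut.conj y (s : ↥N)) = 2
        rw [MulEquiv.orderOf_eq, orderOf_coe, hs]
      exact congrArg Subtype.val (huniq _ ho)
    refine nocomm (y : X) ((s : ↥N) : X) (fun e => hy1 (Subtype.ext e)) (fun e => ?_)
      (by rw [orderOf_coe, hyo]; exact piNum_prime hy haA)
      (by rw [orderOf_coe, orderOf_coe, hs]; exact piNum_prime Nat.prime_two h2A)
      (congrArg Subtype.val (mul_inv_eq_iff_eq_mul.mp hys))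
    rw [OneMemClass.coe_eq_one, OneMemClass.coe_eq_one] at e
    rw [e, orderOf_one] at hs; exact absurd hs (by norm_num)
  have hcyc : ∀ (c : ℕ) (R : Subgroup ↥N), c.Prime → IsPGroup c R → R ≤ K → IsCyclic R := by
    intro c R hc hR hRK
    have : Fact c.Prime := ⟨hc⟩
    by_cases hR1 : R = ⊥
    · subst hR1; infer_instance
    have hRd : c ∣ Nat.card R := hR.card_eq_or_dvd.resolve_left fun e => hR1 (card_eq_one.mp e)
    have : Nontrivial R := (nontrivial_iff_ne_bot R).mpr hR1
    have hc2 : c ≠ 2 := fun e => hodd (e ▸ hRd.trans (card_dvd_of_le hRK))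
    refine (Lib.UniqueInvolution.isCyclic_or_quaternion hR ?_).resolve_right fun h => hc2 h.1
    obtain ⟨z, hz, hzo⟩ : ∃ z ∈ center R, orderOf z = c := by
      have := hR.center_nontrivial
      have h1 : c ∣ Nat.card (center R) := (hR.to_subgroup _).card_eq_or_dvd.resolve_left
        fun e => (Finite.one_lt_card (α := center R)).ne' e
      obtain ⟨z, hz⟩ := exists_prime_orderOf_dvd_card' c h1
      exact ⟨z, z.2, by rw [orderOf_coe, hz]⟩
    suffices key : ∀ U : Subgroup R, Nat.card U = c → U = zpowers z by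
      intro U V hU hV; rw [key U hU, key V hV]
    intro U hU
    by_contra hne
    have hzU : z ∉ U := fun hzU => hne
      (eq_of_le_of_card_ge (zpowers_le.mpr hzU) (by rw [Nat.card_zpowers, hzo, hU])).symm
    obtain ⟨u, hu⟩ := exists_prime_orderOf_dvd_card' c hU.symm.dvd
    let E : Subgroup X := closure ({((z : ↥N) : X), (((u : R) : ↥N) : X)} : Set X)
    have hzu : z * (u : R) = (u : R) * z := (mem_center_iff.mp hz _).symm
    have hzu' : ((z : ↥N) : X) * (((u : R) : ↥N) : X) = (((u : R) : ↥N) : X) * ((z : ↥N) : X) := by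
      exact congrArg (fun w : R => ((w : ↥N) : X)) hzu
    have : IsMulCommutative E := isMulCommutative_closure (by
      rintro a (rfl | rfl) b (rfl | rfl) <;> first | rfl | exact hzu' | exact hzu'.symm)
    let R' : Subgroup X := R.map N.subtype
    have hER : E ≤ R' := by
      rw [closure_le]; rintro _ (rfl | rfl)
      · exact ⟨(z : ↥N), z.2, rfl⟩
      · exact ⟨((u : R) : ↥N), (u : R).2, rfl⟩
    have hexp : ∀ e ∈ E, e ^ c = 1 := by
      intro e he
      have hzc : ((z : ↥N) : X) ^ c = 1 := by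
        rw [← hzo, ← orderOf_coe, ← orderOf_coe]; exact pow_orderOf_eq_one _
      have huc : (((u : R) : ↥N) : X) ^ c = 1 := by
        rw [← hu, ← orderOf_coe, ← orderOf_coe, ← orderOf_coe]; exact pow_orderOf_eq_one _
      induction he using closure_induction with
      | mem x hx => rcases hx with rfl | rfl <;> assumption
      | one => exact one_pow c
      | mul x y hx hy h1 h2 =>
        rw [(show Commute x y from congrArg Subtype.val (mul_comm' (⟨x, hx⟩ : E) ⟨y, hy⟩)).mul_pow, h1, h2,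
          one_mul]
      | inv x _ h1 => rw [inv_pow, h1, inv_one]
    have hEc : ¬ IsCyclic E := by
      intro hcy
      obtain ⟨g, hg⟩ := hcy.exists_generator
      have hzE : ((z : ↥N) : X) ∈ E := subset_closure (Set.mem_insert _ _)
      have huE : (((u : R) : ↥N) : X) ∈ E := subset_closure (Set.mem_insert_of_mem _ rfl)
      have hzp : ∀ w ∈ E, w ∈ zpowers (g : X) := fun w hw => by
        obtain ⟨k, hk⟩ := mem_zpowers_iff.mp (hg ⟨w, hw⟩)
        exact ⟨k, by simpa using congrArg Subtype.val hk⟩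
      have hgo : Nat.card (zpowers (g : X)) ∣ c := by
        rw [Nat.card_zpowers]; exact orderOf_dvd_of_pow_eq_one (hexp _ g.2)
      have heq : zpowers (((u : R) : ↥N) : X) = zpowers (g : X) := by
        refine eq_of_le_of_card_ge (zpowers_le.mpr (hzp _ huE)) ?_
        rw [Nat.card_zpowers (((u : R) : ↥N) : X), orderOf_coe, orderOf_coe, orderOf_coe, hu]
        exact Nat.le_of_dvd hc.pos hgo
      obtain ⟨k, hk⟩ := mem_zpowers_iff.mp (heq ▸ hzp _ hzE : ((z : ↥N) : X) ∈ zpowers (((u : R) : ↥N) : X))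
      refine hzU ?_
      have : (u : R) ^ k = z := Subtype.ext (Subtype.ext (by simpa using hk))
      rw [← this]; exact U.zpow_mem u.2 k
    have hRB : PiNum Aᶜ (Nat.card R') := by
      rw [card_map_of_injective N.subtype_injective]; exact piNum_dvd hKB (card_dvd_of_le hRK)
    have hfg := Lib.Coprime.fixGen_eq (A := E) (K := H) hEc le_normalizer_of_normal
      (piNum_coprime hHA (piNum_dvd hRB (card_dvd_of_le hER))).symm
    refine hH1 ?_
    rw [← hfg, eq_bot_iff]
    refine iSup₂_le fun e he => ?_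
    rintro h ⟨hh, hh'⟩
    rw [mem_bot]
    by_contra hne1
    obtain ⟨n, hn, rfl⟩ := hER he.1
    exact fixH n (fun e1 => he.2 (by rw [e1, map_one]))
      (piNum_dvd hKB (orderOf_dvd_natCard K (hRK hn))) h hh hne1
      (mem_centralizer_singleton_iff.mp hh').symm
  have hFK : Cfsg.fittingSubgroup ↥N ≤ K := by
    rw [Lib.Hall.fittingSubgroup_eq_iSup_pCore]
    refine iSup_le fun c => ?_
    have : Fact (c : ℕ).Prime := ⟨c.2⟩
    have hcn : (Cfsg.pCore (c : ℕ) ↥N).Normal := Lib.LocalChar.pCore_normal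
    have hcp := Lib.Hall.isPGroup_pCore (G := ↥N) (c : ℕ)
    by_cases hcA : (c : ℕ) ∈ A
    · rw [hA0 _ hcn (piNum_pgroup c.2 hcA hcp)]; exact bot_le
    · exact hKmax _ hcn (piNum_pgroup c.2 hcA hcp)
  have hDK : _root_.commutator ↥N ≤ K := by
    refine le_trans ?_ (Lib.Hall.centralizer_fittingSubgroup_le.trans hFK)
    rw [le_centralizer_iff, Lib.Hall.fittingSubgroup_eq_iSup_pCore]
    refine iSup_le fun c => le_centralizer_iff.mp ?_
    have : Fact (c : ℕ).Prime := ⟨c.2⟩
    have : (Cfsg.pCore (c : ℕ) ↥N).Normal := Lib.LocalChar.pCore_normal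
    refine commutator_le_centralizer_of_cyclic (hcyc _ _ c.2 (Lib.Hall.isPGroup_pCore _) ?_)
    refine le_trans ?_ hFK
    exact Lib.Hall.pCore_le_fittingSubgroup _
  have hab : ∀ u v : ↥N ⧸ K, u * v = v * u := by
    intro u v
    obtain ⟨u, rfl⟩ := QuotientGroup.mk'_surjective K u
    obtain ⟨v, rfl⟩ := QuotientGroup.mk'_surjective K v
    rw [← map_mul, ← map_mul, QuotientGroup.mk'_apply, QuotientGroup.mk'_apply, QuotientGroup.eq]
    refine hDK ?_
    rw [show (u * v)⁻¹ * (v * u) = ⁅v⁻¹, u⁻¹⁆ by rw [commutatorElement_def]; group]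
    exact commutator_mem_commutator (mem_top _) (mem_top _)
  have hidx : PiNum A K.index := by
    intro b hb hbd
    by_contra hbA
    have : Fact b.Prime := ⟨hb⟩
    rw [index_eq_card] at hbd
    obtain ⟨g, hg⟩ := exists_prime_orderOf_dvd_card' b hbd
    set L := (zpowers g).comap (QuotientGroup.mk' K) with hL
    have hzn : (zpowers g).Normal := ⟨fun m hm w => by rwa [hab w m, mul_inv_cancel_right]⟩
    have hLc : Nat.card L = Nat.card K * b := by
      have h1 := Lib.Coprime.card_map_mul_card_inf_ker (QuotientGroup.mk' K) L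
      rw [map_comap_eq_self_of_surjective (QuotientGroup.mk'_surjective _), QuotientGroup.ker_mk',
        inf_eq_right.mpr (fun x hx => mem_comap.mpr (by
          rw [QuotientGroup.mk'_apply, (QuotientGroup.eq_one_iff x).mpr hx]; exact one_mem _)),
        Nat.card_zpowers, hg, mul_comm] at h1
      exact h1.symm
    have hle := hKmax L (hzn.comap _) (hLc ▸ piNum_mul hKB (piNum_prime hb hbA))
    have := Nat.le_of_dvd Nat.card_pos (card_dvd_of_le hle)
    rw [hLc] at this
    have := Nat.mul_le_mul_left (Nat.card K) hb.two_le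
    have := Nat.card_pos (α := K)
    omega
  have hcop : (Nat.card K).Coprime K.index := (piNum_coprime hidx hKB).symm
  obtain ⟨C1, hC1⟩ := exists_right_complement'_of_coprime hcop
  have hC1A : PiNum A (Nat.card C1) := by rw [← hC1.symm.index_eq_card]; exact hidx
  have hC11 : C1 ≠ ⊥ := by
    intro h
    subst h
    have := hC1.card_mul
    rw [card_bot, mul_one] at this
    exact hKB a hy (this ▸ hadvd) haA
  set Kq := K.map φ.toMonoidHom with hKq
  have hKqn : Kq.Normal := hKn.map _ φ.surjective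
  have hQ := frobenius_of_complement (L := Kq) (C := C1.map φ.toMonoidHom) (by
      refine isComplement'_of_coprime ?_ ?_
      · rw [card_map_of_injective φ.injective, card_map_of_injective φ.injective, hC1.card_mul]
        exact Nat.card_congr φ.toEquiv
      · rw [card_map_of_injective φ.injective, card_map_of_injective φ.injective]
        exact (piNum_coprime hC1A hKB).symm)
    (by rwa [Ne, Subgroup.map_eq_bot_iff_of_injective _ φ.injective])
    (by rwa [Ne, Subgroup.map_eq_bot_iff_of_injective _ φ.injective]) (by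
      rintro _ ⟨c, hc, rfl⟩ _ ⟨l, hl, rfl⟩ hc1 he
      rw [← map_mul, ← map_mul] at he
      by_contra hl1
      exact nocomm (c : X) (l : X) (fun e => hc1 (by rw [show c = 1 from Subtype.ext e, map_one]))
        (fun e => hl1 (by rw [show l = 1 from Subtype.ext e, map_one]))
        (by rw [orderOf_coe]; exact orderOf_piNum hC1A hc)
        (by rw [orderOf_coe]; exact orderOf_piNum hKB hl)
        (congrArg Subtype.val (φ.injective he)))
  set M2 := Kq.comap q with hM2
  have hHM2 : H ≤ M2 := fun x hx => mem_comap.mpr (by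
    rw [show q x = 1 from (QuotientGroup.eq_one_iff x).mpr hx]; exact one_mem _)
  have hKcard : Nat.card Kq = Nat.card K := card_map_of_injective φ.injective
  have hKM2 : K.map N.subtype ≤ M2 := by
    rintro _ ⟨k, hk, rfl⟩; exact ⟨k, hk, rfl⟩
  have hM2c := frobenius_of_complement (X := ↥M2) (L := H.subgroupOf M2)
    (C := (K.map N.subtype).subgroupOf M2) (by
      refine isComplement'_of_coprime ?_ ?_
      · rw [Nat.card_congr (subgroupOfEquivOfLe hHM2).toEquiv,
          Nat.card_congr (subgroupOfEquivOfLe hKM2).toEquiv, card_map_of_injective N.subtype_injective,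
          hM2, card_comap, hKcard]
      · rw [Nat.card_congr (subgroupOfEquivOfLe hHM2).toEquiv,
          Nat.card_congr (subgroupOfEquivOfLe hKM2).toEquiv, card_map_of_injective N.subtype_injective]
        exact piNum_coprime hHA hKB)
    (by rw [Ne, subgroupOf_eq_bot, disjoint_iff, inf_eq_left.mpr hHM2]; exact hH1)
    (by rw [Ne, subgroupOf_eq_bot, disjoint_iff, inf_eq_left.mpr hKM2,
          Subgroup.map_eq_bot_iff_of_injective _ N.subtype_injective]; exact hK1) (by
      intro c hc l hl hc1 he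
      by_contra hl1
      obtain ⟨k, hk, hkc⟩ := mem_subgroupOf.mp hc
      refine fixH k (fun e => hc1 (Subtype.ext ?_)) (orderOf_piNum hKB hk) (l : X) hl
        (fun e => hl1 (Subtype.ext e)) ?_
      · rw [← hkc, e, map_one]; rfl
      · have := congrArg Subtype.val he
        simp only [coe_mul] at this
        rwa [← hkc] at this)
  refine ⟨H, M2, hHn, inferInstance, lt_of_le_of_ne hHM2 fun e => hK1 ?_, ⟨_, hM2c⟩,
    ⟨_, hQ.1, ?_⟩⟩
  · refine card_eq_one.mp ?_
    have h2 := card_comap Kq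
    rw [← hM2, ← e, hKcard] at h2
    exact Nat.mul_left_cancel Nat.card_pos (h2.symm.trans (mul_one _).symm)
  · rw [hQ.2, hM2, map_comap_eq_self_of_surjective hq]

end

/-- A finite solvable group whose prime graph (prime divisors of the order, two distinct primes joined when there is an element of order their product) is disconnected is a Frobenius group or a 2-Frobenius group (it has normal subgroups H < K with K a Frobenius group with kernel H and G/H a Frobenius group with kernel K/H). -/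
theorem result {G : Type*} [Group G] [Finite G] (hsol : Group.IsSolvable G)
    (hdisc : (∃ A : Set ℕ, (∃ a ∈ A, a.Prime ∧ a ∣ Nat.card G) ∧ (∃ b ∉ A, b.Prime ∧ b ∣ Nat.card G) ∧
      ∀ a ∈ A, ∀ b ∉ A, a.Prime → b.Prime → a ∣ Nat.card G → b ∣ Nat.card G → ¬ ∃ g : G, orderOf g = a * b)) :
    (∃ C : Subgroup G, Cfsg.IsFrobeniusComplement C) ∨
    (∃ (H K : Subgroup G) (_ : H.Normal), K.Normal ∧ H < K ∧
      (∃ C : Subgroup ↥K, Cfsg.IsFrobeniusComplement C ∧ Cfsg.frobeniusKernel C = (H.subgroupOf K : Set ↥K)) ∧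
      (∃ C : Subgroup (G ⧸ H), Cfsg.IsFrobeniusComplement C ∧ Cfsg.frobeniusKernel C = (K.map (QuotientGroup.mk' H) : Set (G ⧸ H)))) := by
  obtain ⟨A, ⟨a, haA, ha, had⟩, ⟨b, hbA, hb, hbd⟩, hfree⟩ := hdisc
  have : Group.IsSolvable G := hsol
  have : Nontrivial G := by
    rw [← Finite.one_lt_card_iff_nontrivial]
    exact ha.one_lt.trans_le (Nat.le_of_dvd Nat.card_pos had)
  obtain ⟨W, p, hWn, hW1, hp, hWp, -, -⟩ := Lib.Hall.exists_normal_pgroup (G := G)
  by_cases hpA : p ∈ A
  · exact core A hfree ⟨b, hbA, hb, hbd⟩ W hWn hW1 (piNum_pgroup hp hpA hWp)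
  · refine core Aᶜ ?_ ⟨a, not_not_intro haA, ha, had⟩ W hWn hW1 (piNum_pgroup hp hpA hWp)
    intro x hx y hy hxp hyp hxd hyd hex
    obtain ⟨g, hg⟩ := hex
    exact hfree y (not_not.mp hy) x hx hyp hxp hyd hxd ⟨g, hg.trans (mul_comm x y)⟩

end Cfsg.Agent.S3857
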