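import Cfsg.Statements.S3858
import Mathlib

set_option autoImplicit false
open Cfsg

namespace Cfsg.Agent.S3858

open scoped Pointwise

/-- Let G be a finite group with a normal non-abelian simple subgroup T whose centralizer is trivial (G almost simple with socle T), r a prime and R a Sylow r-subgroup of G meeting T nontrivially. Then R lies in exactly one maximal subgroup of G if and only if G has exactly one conjugacy class of maximal subgroups whose index is prime to r. -/
theorem result {G : Type*} [Group G] [Finite G] (T : Subgroup G) [T.Normal] (hT : IsSimpleGroup T) (hna : ¬ IsMulCommutative T)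
    (hC : Subgroup.centralizer (T : Set G) = ⊥) {r : ℕ} [Fact r.Prime] (R : Sylow r G) (hR0 : (R : Subgroup G) ⊓ T ≠ ⊥) :
    (∃! M : Subgroup G, IsCoatom M ∧ (R : Subgroup G) ≤ M) ↔
      ((∃ M : Subgroup G, IsCoatom M ∧ ¬ r ∣ M.index) ∧
        ∀ M₁ M₂ : Subgroup G, IsCoatom M₁ → ¬ r ∣ M₁.index → IsCoatom M₂ → ¬ r ∣ M₂.index → ∃ g : G, M₂ = M₁.map (MulAut.conj g).toMonoidHom) := by
  have hsyl : ∀ M : Subgroup G, (R : Subgroup G) ≤ M → ¬ r ∣ M.index := fun M hle h =>
    R.not_dvd_index (h.trans (Subgroup.index_dvd_of_le hle))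
  have hget : ∀ M : Subgroup G, ¬ r ∣ M.index → ∃ g : G, (g • R : Sylow r G).toSubgroup ≤ M := by
    intro M hM
    obtain ⟨S⟩ : Nonempty (Sylow r M) := inferInstance
    have hS : ¬ r ∣ ((S : Subgroup M).map M.subtype).index := by
      rw [Subgroup.index_map_subtype]
      exact (Fact.out : r.Prime).not_dvd_mul S.not_dvd_index hM
    obtain ⟨g, hg⟩ := MulAction.exists_smul_eq G R ((S.2.map M.subtype).toSylow hS)
    exact ⟨g, hg ▸ Subgroup.map_subtype_le _⟩
  have hconjco : ∀ (M : Subgroup G) (g : G), IsCoatom M → IsCoatom (M.map (MulAut.conj g).toMonoidHom) :=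
    fun M g hM => ((MulAut.conj g).mapSubgroup.isCoatom_iff M).mpr hM
  have hmem : ∀ (M : Subgroup G) (g : G), (g • R : Sylow r G).toSubgroup ≤ M →
      (R : Subgroup G) ≤ M.map (MulAut.conj g⁻¹).toMonoidHom := by
    intro M g h x hx
    refine ⟨g * x * g⁻¹, h ?_, by simp [mul_assoc]⟩
    rw [Sylow.coe_subgroup_smul, Subgroup.mem_pointwise_smul_iff_inv_smul_mem]
    simpa [MulAut.smul_def, mul_assoc] using hx
  constructor
  · rintro ⟨M, ⟨hM, hRM⟩, huni⟩
    refine ⟨⟨M, hM, hsyl M hRM⟩, fun M₁ M₂ h1 h1' h2 h2' => ?_⟩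
    obtain ⟨g₁, hg₁⟩ := hget M₁ h1'
    obtain ⟨g₂, hg₂⟩ := hget M₂ h2'
    have e1 := huni _ ⟨hconjco M₁ g₁⁻¹ h1, hmem M₁ g₁ hg₁⟩
    have e2 := huni _ ⟨hconjco M₂ g₂⁻¹ h2, hmem M₂ g₂ hg₂⟩
    refine ⟨g₂ * g₁⁻¹, ?_⟩
    have h3 := congrArg (fun K : Subgroup G => K.map (MulAut.conj g₂).toMonoidHom) (e2.trans e1.symm)
    simp only [Subgroup.map_map] at h3
    rw [show ((MulAut.conj g₂).toMonoidHom.comp (MulAut.conj g₂⁻¹).toMonoidHom) = MonoidHom.id G by ext; simp [mul_assoc],
      Subgroup.map_id] at h3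
    rw [h3]
    congr 1
    ext; simp [mul_assoc]
  · rintro ⟨⟨M, hM, hM'⟩, hall⟩
    -- `N(R)` is proper
    have hNne : Subgroup.normalizer ((R : Subgroup G) : Set G) ≠ ⊤ := by
      intro h
      haveI hRn : (R : Subgroup G).Normal := Subgroup.normalizer_eq_top_iff.mp h
      rcases hT.eq_bot_or_eq_top_of_normal ((R : Subgroup G).subgroupOf T) inferInstance with hb | ht
      · rw [Subgroup.subgroupOf_eq_bot, disjoint_iff] at hb
        exact hR0 hb
      · rw [Subgroup.subgroupOf_eq_top] at ht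
        have hTp : IsPGroup r T := R.2.to_le ht
        haveI : Nontrivial T := hT.toNontrivial
        have hc := hTp.center_nontrivial
        rcases hT.eq_bot_or_eq_top_of_normal (Subgroup.center T) inferInstance with hb | hall'
        · rw [Subgroup.nontrivial_iff_ne_bot] at hc; exact hc hb
        · exact hna ⟨⟨fun a b => (Subgroup.mem_center_iff.mp (hall' ▸ Subgroup.mem_top b : b ∈ Subgroup.center T)) a⟩⟩
    obtain ⟨M₀, hM₀, hNM₀⟩ := (eq_top_or_exists_le_coatom _).resolve_left hNne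
    have hRM₀ : (R : Subgroup G) ≤ M₀ := Subgroup.le_normalizer.trans hNM₀
    refine ⟨M₀, ⟨hM₀, hRM₀⟩, ?_⟩
    rintro M₁ ⟨hM₁, hRM₁⟩
    obtain ⟨g, hg⟩ := hall M₀ M₁ hM₀ (hsyl _ hRM₀) hM₁ (hsyl _ hRM₁)
    have h2 : (g⁻¹ • R : Sylow r G).toSubgroup ≤ M₀ := by
      intro x hx
      rw [Sylow.coe_subgroup_smul, Subgroup.mem_pointwise_smul_iff_inv_smul_mem] at hx
      have := hRM₁ hx
      rw [hg] at this
      obtain ⟨y, hy, hy'⟩ := this
      simp [MulAut.smul_def, mul_assoc] at hy'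
      rwa [← hy']
    obtain ⟨m, hm⟩ := MulAction.exists_smul_eq M₀ (R.subtype hRM₀) ((g⁻¹ • R).subtype h2)
    have hm' : ((m : G) • R : Sylow r G) = g⁻¹ • R := by
      rw [Sylow.smul_subtype] at hm
      exact Sylow.subtype_injective hm
    have hn : g * m ∈ Subgroup.normalizer ((R : Subgroup G) : Set G) := by
      exact Sylow.smul_eq_iff_mem_normalizer.mp (by rw [mul_smul, hm', smul_inv_smul])
    rw [hg]
    have hgm : g ∈ M₀ := by simpa using mul_mem (hNM₀ hn) (inv_mem m.2)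
    ext x
    rw [Subgroup.map_equiv_eq_comap_symm', Subgroup.mem_comap]
    simp only [MulEquiv.coe_toMonoidHom, MulAut.conj_symm_apply]
    rw [Subgroup.mul_mem_cancel_right _ hgm, Subgroup.mul_mem_cancel_left _ (inv_mem hgm)]

end Cfsg.Agent.S3858
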