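import Cfsg.Statements.S3859
import Mathlib

set_option autoImplicit false
open Cfsg

namespace Cfsg.Agent.S3859

open scoped Pointwise

/-- Let G be a finite group with a normal non-abelian simple subgroup T whose centralizer is trivial (G almost simple with socle T), r a prime and R a Sylow r-subgroup of G meeting T nontrivially. If R lies in exactly one maximal subgroup of G, then G/T is an r-group. -/
theorem result {G : Type*} [Group G] [Finite G] (T : Subgroup G) [T.Normal] (hT : IsSimpleGroup T) (hna : ¬ IsMulCommutative T)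
    (hC : Subgroup.centralizer (T : Set G) = ⊥) {r : ℕ} [Fact r.Prime] (R : Sylow r G) (hR0 : (R : Subgroup G) ⊓ T ≠ ⊥)
    (huniq : ∃! M : Subgroup G, IsCoatom M ∧ (R : Subgroup G) ≤ M) : IsPGroup r (G ⧸ T) := by
  obtain ⟨M, ⟨hM, hRM⟩, huni⟩ := huniq
  have hmax : ∀ K : Subgroup G, (R : Subgroup G) ≤ K → K ≠ ⊤ → K ≤ M := by
    intro K hRK hK
    rcases eq_top_or_exists_le_coatom K with h | ⟨M', hM', hKM⟩
    · exact absurd h hK
    · exact huni M' ⟨hM', hRK.trans hKM⟩ ▸ hKM
  by_cases htop : (R : Subgroup G) ⊔ T = ⊤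
  · exact R.2.of_surjective ((QuotientGroup.mk' T).comp (R : Subgroup G).subtype) (fun q => by
      obtain ⟨g, rfl⟩ := QuotientGroup.mk_surjective q
      obtain ⟨r', hr, t, ht, rfl⟩ := Subgroup.mem_sup_of_normal_right.mp (htop ▸ Subgroup.mem_top g : g ∈ (R : Subgroup G) ⊔ T)
      refine ⟨⟨r', hr⟩, ?_⟩
      show ((r' : G) : G ⧸ T) = ((r' * t : G) : G ⧸ T)
      rw [QuotientGroup.eq, ← mul_assoc, inv_mul_cancel, one_mul]; exact ht)
  exfalso
  have hTM : T ≤ M := le_sup_right.trans (hmax _ le_sup_left htop)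
  set D : Subgroup G := (R : Subgroup G) ⊓ T with hD
  have hRD : (R : Subgroup G) ≤ Subgroup.normalizer (D : Set G) := by
    intro g hg
    rw [Subgroup.mem_normalizer_iff]
    intro x
    rw [hD, Subgroup.mem_inf, Subgroup.mem_inf, Subgroup.mul_mem_cancel_right _ (inv_mem hg),
      Subgroup.mul_mem_cancel_left _ hg]
    refine and_congr Iff.rfl ⟨fun h => (inferInstance : T.Normal).conj_mem x h g, fun h => ?_⟩
    simpa [mul_assoc] using (inferInstance : T.Normal).conj_mem _ h g⁻¹
  have hNne : Subgroup.normalizer (D : Set G) ≠ ⊤ := by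
    intro h
    haveI hDn : D.Normal := Subgroup.normalizer_eq_top_iff.mp h
    have hsub := hT.eq_bot_or_eq_top_of_normal (D.subgroupOf T) inferInstance
    rcases hsub with hb | ht
    · rw [Subgroup.subgroupOf_eq_bot, disjoint_iff, inf_eq_left.mpr inf_le_right] at hb
      exact hR0 hb
    · rw [Subgroup.subgroupOf_eq_top] at ht
      have hTp : IsPGroup r T := R.2.to_le (ht.trans inf_le_left)
      haveI : Nontrivial T := hT.toNontrivial
      have hc := hTp.center_nontrivial
      rcases hT.eq_bot_or_eq_top_of_normal (Subgroup.center T) inferInstance with hb | hall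
      · rw [Subgroup.nontrivial_iff_ne_bot] at hc; exact hc hb
      · exact hna ⟨⟨fun a b => (Subgroup.mem_center_iff.mp (hall ▸ Subgroup.mem_top b : b ∈ Subgroup.center T)) a⟩⟩
  have hNM := hmax _ hRD hNne
  -- Frattini argument
  have hSyl : ¬ r ∣ ((R : Subgroup G).subgroupOf T).index := by
    intro h
    have e1 := Subgroup.relIndex_mul_relIndex D T ((R : Subgroup G) ⊔ T) inf_le_right le_sup_right
    have e2 := Subgroup.relIndex_mul_relIndex D (R : Subgroup G) ((R : Subgroup G) ⊔ T) inf_le_left le_sup_left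
    rw [Subgroup.relIndex_sup_right] at e1
    rw [← e1, hD, Subgroup.inf_relIndex_left, Subgroup.inf_relIndex_right] at e2
    have e3 := Nat.eq_of_mul_eq_mul_left (Nat.pos_of_ne_zero Subgroup.FiniteIndex.index_ne_zero) (e2.trans (mul_comm _ _))
    exact R.not_dvd_index (h.trans ((dvd_of_eq (e3.symm : (R : Subgroup G).relIndex T = _)).trans (Subgroup.relIndex_dvd_index_of_le le_sup_left)))
  let Q : Sylow r T := (R.2.comap_subtype (K := T)).toSylow hSyl
  have hfr := Sylow.normalizer_sup_eq_top Q
  have hQD : (Q : Subgroup T).map T.subtype = D := by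
    show ((R : Subgroup G).subgroupOf T).map T.subtype = D
    rw [Subgroup.subgroupOf_map_subtype]
  rw [hQD] at hfr
  exact hM.1 (top_le_iff.mp (hfr.ge.trans (sup_le hNM hTM)))

end Cfsg.Agent.S3859
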