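import Cfsg.Statements.S3861
import Cfsg.Agent.Lib.Char.BrauerPerm
import Cfsg.Agent.Lib.Involution.BaerSuzuki
import Cfsg.Agent.Lib.Hall.Basic
import Cfsg.Agent.Lib.Coprime.Action
import Mathlib

set_option autoImplicit false
open Cfsg

namespace Cfsg.Agent.S3861


open Subgroup
open scoped Pointwise

/-- A finite group G has no non-identity element of odd order that is conjugate to its inverse if and only if the Sylow 2-subgroups of G are normal. -/
theorem result {G : Type*} [Group G] [Finite G] (P : Sylow 2 G) : (∀ x : G, x ≠ 1 → Odd (orderOf x) → ¬ IsConj x x⁻¹) ↔ (P : Subgroup G).Normal := by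
  haveI := Fact.mk Nat.prime_two
  constructor
  · intro h
    set Q := Cfsg.pCore 2 G
    haveI : Q.Normal := Lib.Hall.pCore_normal 2
    have hQp : IsPGroup 2 Q := Lib.Hall.isPGroup_pCore 2
    by_cases hidx : 2 ∣ Q.index
    swap
    · have hQP : Q ≤ P := Lib.Hall.pCore_le_sylow P
      obtain ⟨a, ha⟩ := P.2.index (Q.subgroupOf P)
      have h1 : Q.relIndex P ∣ Q.index := Subgroup.relIndex_dvd_index_of_normal Q P
      rw [Subgroup.relIndex] at h1
      have ha0 : a = 0 := by
        by_contra h0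
        exact hidx ((dvd_pow_self 2 h0).trans (ha ▸ h1))
      rw [ha0, pow_zero, Subgroup.index_eq_one, Subgroup.subgroupOf_eq_top] at ha
      rw [le_antisymm ha hQP]
      infer_instance
    exfalso
    rw [Subgroup.index_eq_card] at hidx
    obtain ⟨t, ht⟩ := exists_prime_orderOf_dvd_card' 2 hidx
    -- two conjugates of `t` generating a group which is not a 2-group
    obtain ⟨g, hg⟩ : ∃ g : G ⧸ Q, ¬ IsPGroup 2 ↥(zpowers t ⊔ (zpowers t).map (MulAut.conj g).toMonoidHom) := by
      by_contra hcon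
      push_neg at hcon
      obtain ⟨N, hN, hNp, htN⟩ := Lib.Involution.baerSuzuki _ hcon
      haveI := hN
      have hN' : N.comap (QuotientGroup.mk' Q) ≤ Q := Lib.Hall.le_pCore
        (hNp.comap_of_ker_isPGroup _ (by rw [QuotientGroup.ker_mk']; exact hQp))
      obtain ⟨y, rfl⟩ := QuotientGroup.mk'_surjective Q t
      have hy : y ∈ Q := hN' (Subgroup.mem_comap.mpr (htN (mem_zpowers _)))
      rw [show QuotientGroup.mk' Q y = 1 from (QuotientGroup.eq_one_iff y).mpr hy, orderOf_one] at ht
      omega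
    set s := g * t * g⁻¹ with hs
    have ht2 : t * t = 1 := by rw [← sq, ← ht, pow_orderOf_eq_one]
    have hs2 : s * s = 1 := by rw [hs]; simp [mul_assoc, ← mul_assoc t t, ht2]
    have hsinv : s⁻¹ = s := inv_eq_of_mul_eq_one_right hs2
    have htinv : t⁻¹ = t := inv_eq_of_mul_eq_one_right ht2
    set K := zpowers (t * s)
    have hinv : t * (t * s) * t⁻¹ = (t * s)⁻¹ := by
      rw [mul_inv_rev, hsinv, htinv, ← mul_assoc, ht2, one_mul]
    have hnorm : ∀ z, z ∈ K → t * z * t⁻¹ ∈ K := fun z hz => by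
      obtain ⟨i, rfl⟩ := mem_zpowers_iff.mp hz
      rw [← conj_zpow, hinv, inv_zpow]
      exact K.inv_mem (K.zpow_mem (mem_zpowers _) i)
    have hle : zpowers t ⊔ (zpowers t).map (MulAut.conj g).toMonoidHom ≤ zpowers t ⊔ K := by
      refine sup_le le_sup_left ?_
      rw [MonoidHom.map_zpowers, zpowers_le]
      show s ∈ zpowers t ⊔ K
      have := (zpowers t ⊔ K).mul_mem (mem_sup_left (S := zpowers t) (T := K) (inv_mem (mem_zpowers t)))
        (mem_sup_right (mem_zpowers (t * s)))
      rwa [inv_mul_cancel_left] at this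
    have hnot : ¬ ∃ a, orderOf (t * s) = 2 ^ a := by
      rintro ⟨a, ha⟩
      apply hg
      refine IsPGroup.to_le ?_ hle
      refine IsPGroup.to_sup_of_normal_right' (IsPGroup.of_card (n := 1) (by rw [Nat.card_zpowers, ht, pow_one]))
        (IsPGroup.of_card (n := a) (by rw [Nat.card_zpowers, ha])) ?_
      rw [zpowers_le, mem_normalizer_iff]
      intro z
      refine ⟨hnorm z, fun hz => ?_⟩
      have := hnorm _ hz
      rw [htinv] at this
      simpa [mul_assoc, ← mul_assoc t t, ht2] using this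
    obtain ⟨y, hy⟩ := QuotientGroup.mk'_surjective Q (t * s)
    obtain ⟨gt, hgt⟩ := QuotientGroup.mk'_surjective Q t
    -- odd part of `y`
    set y' := y ^ 2 ^ (orderOf y).factorization 2
    have hy'odd : Odd (orderOf y') := by
      have hd : orderOf y' ∣ orderOf y / 2 ^ (orderOf y).factorization 2 := by
        apply orderOf_dvd_of_pow_eq_one
        rw [← pow_mul, Nat.ordProj_mul_ordCompl_eq_self, pow_orderOf_eq_one]
      have h2 : ¬ 2 ∣ orderOf y / 2 ^ (orderOf y).factorization 2 :=
        Nat.not_dvd_ordCompl Nat.prime_two (orderOf_pos y).ne'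
      exact (Nat.not_even_iff_odd.mp fun he => h2 ((even_iff_two_dvd.mp he).trans hd))
    have hy'1 : QuotientGroup.mk' Q y' ≠ 1 := by
      intro h1
      rw [map_pow, hy] at h1
      obtain ⟨a, -, ha⟩ := (Nat.dvd_prime_pow Nat.prime_two).mp (orderOf_dvd_of_pow_eq_one h1)
      exact hnot ⟨a, ha⟩
    have hcop : (Nat.card (zpowers y')).Coprime (Nat.card Q) := by
      obtain ⟨i, hi⟩ := IsPGroup.iff_card.mp hQp
      rw [Nat.card_zpowers, hi]
      exact (Nat.coprime_two_right.mpr hy'odd).pow_right i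
    have hB : MulAut.conj gt • zpowers y' ≤ zpowers y' ⊔ Q := by
      intro z hz
      rw [Lib.Coprime.mem_conj_smul] at hz
      obtain ⟨i, hi⟩ := mem_zpowers_iff.mp hz
      rw [← QuotientGroup.ker_mk' Q, ← comap_map_eq, mem_comap, MonoidHom.map_zpowers, mem_zpowers_iff]
      refine ⟨-i, ?_⟩
      have e : z = gt * y' ^ i * gt⁻¹ := by rw [hi]; group
      rw [e, map_mul, map_mul, map_inv, map_zpow, map_pow, hy, hgt, ← conj_zpow, ← conj_pow, hinv, inv_pow,
        inv_zpow, zpow_neg]
    haveI : Group.IsNilpotent Q := hQp.isNilpotent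
    obtain ⟨n, hn, hnC⟩ := Lib.Coprime.exists_conj_eq_of_le_sup (A := zpowers y') (N := Q)
      (by rw [normalizer_eq_top]; exact le_top) hcop (Or.inr inferInstance) hB (Lib.Coprime.card_conj_smul _ _)
    have hmem : n⁻¹ * (gt * y' * gt⁻¹) * n ∈ zpowers y' := by
      rw [← Lib.Coprime.mem_conj_smul (g := n), hnC]
      exact Lib.Coprime.conj_mem_conj_smul (mem_zpowers y')
    have h1 : n⁻¹ * (gt * y' * gt⁻¹) * n * y' ∈ zpowers y' ⊓ Q := by
      refine ⟨(zpowers y').mul_mem hmem (mem_zpowers y'), (QuotientGroup.eq_one_iff _).mp ?_⟩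
      show QuotientGroup.mk' Q _ = 1
      rw [map_mul, map_mul, map_mul, map_inv, show QuotientGroup.mk' Q n = 1 from (QuotientGroup.eq_one_iff n).mpr hn,
        inv_one, one_mul, mul_one, map_mul, map_mul, map_inv, map_pow, hy, hgt, ← conj_pow, hinv, inv_pow,
        inv_mul_cancel]
    rw [Lib.Coprime.inf_eq_bot_of_coprime hcop, mem_bot, mul_eq_one_iff_eq_inv] at h1
    refine h y' (fun h0 => hy'1 (by rw [h0, map_one])) hy'odd (isConj_iff.mpr ⟨n⁻¹ * gt, ?_⟩)
    rw [← h1]
    group
  · intro hP x hx1 hodd hconj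
    haveI := hP
    have hq : Odd (Nat.card (G ⧸ (P : Subgroup G))) := by
      rw [← Subgroup.index_eq_card]
      exact Nat.not_even_iff_odd.mp fun he => P.not_dvd_index (even_iff_two_dvd.mp he)
    have h1 : QuotientGroup.mk' (P : Subgroup G) x = 1 := Lib.Char.eq_one_of_isConj_inv hq (by
      simpa using MonoidHom.map_isConj (QuotientGroup.mk' (P : Subgroup G)) hconj)
    obtain ⟨a, ha⟩ := IsPGroup.iff_orderOf.mp P.2 ⟨x, (QuotientGroup.eq_one_iff x).mp h1⟩
    rw [Subgroup.orderOf_mk] at ha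
    rw [ha] at hodd
    rcases Nat.eq_zero_or_pos a with rfl | hpos
    · exact hx1 (orderOf_eq_one_iff.mp (by rw [ha, pow_zero]))
    · exact absurd (even_iff_two_dvd.mpr (dvd_pow_self 2 hpos.ne')) (Nat.not_even_iff_odd.mpr hodd)

end Cfsg.Agent.S3861
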