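import Cfsg.Statements.S3862
import Cfsg.Agent.Lib.Transfer.Fusion
import Cfsg.Agent.Lib.Char.BrauerPerm
import Cfsg.Agent.Lib.Char.Linear
import Cfsg.Agent.Lib.Coprime.Action
import Cfsg.Agent.Lib.PGroupFrattini
import Mathlib

set_option autoImplicit false
open Cfsg

namespace Cfsg.Agent.S3862


open Subgroup
open scoped ComplexConjugate

universe u

lemma real_fixed {Q : Type u} [Group Q] [Finite Q] (α : MulAut Q) (hα : Odd (orderOf α))
    (h : ∀ x : Q, IsConj x x⁻¹ → α x = x) (χ : IrrCharacter Q) (hχ : ∀ g : Q, ((χ : Q → ℂ) g).im = 0) :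
    ∀ g, (χ : Q → ℂ) (α g) = (χ : Q → ℂ) g := by
  classical
  obtain ⟨m, hm⟩ := hα
  have hαm : ∀ g, ((α * α) ^ (m + 1)) g = α g := fun g => by
    rw [← sq, ← pow_mul, show 2 * (m + 1) = orderOf α + 1 by omega, pow_succ, pow_orderOf_eq_one, one_mul]
  let σ : Q → Q := fun g => (α g)⁻¹
  have hσirr : ∀ ψ : IrrCharacter Q, IsIrrCharacter Q ((ψ : Q → ℂ) ∘ σ) := fun ψ => by
    have h1 := Lib.Char.isIrrCharacter_comp (Lib.Char.isIrrCharacter_conj ψ.2) α.toMonoidHom α.surjective
    convert h1 using 1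
    funext g
    exact Lib.Char.char_inv (Lib.Char.isCharacter_of_isIrr ψ.2) (α g)
  have hcl : ∀ a b, IsConj a b → IsConj (σ a) (σ b) := fun a b hab => Lib.Char.isConj_map_inv (by
    obtain ⟨c, rfl⟩ := isConj_iff.mp hab
    exact isConj_iff.mpr ⟨α c, by simp⟩)
  -- a class fixed by `σ` is real
  have hreal : ∀ g, IsConj (σ g) g ↔ IsConj g g⁻¹ := by
    intro g
    constructor
    · intro hg
      have h2 : IsConj ((α * α) g) g := by
        have h3 := hcl _ _ hg
        have h4 : σ (σ g) = (α * α) g := by simp [σ, MulAut.mul_apply]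
        rw [h4] at h3
        exact h3.trans hg
      have h5 : ∀ i : ℕ, IsConj (((α * α) ^ i) g) g := by
        intro i
        induction i with
        | zero => exact IsConj.refl g
        | succ i ih =>
          rw [pow_succ', MulAut.mul_apply]
          exact (MonoidHom.map_isConj (α * α).toMonoidHom ih).trans h2
      have h6 : IsConj (α g) g := by rw [← hαm g]; exact h5 _
      exact (hg.symm.trans (Lib.Char.isConj_map_inv h6))
    · intro hg
      show IsConj (α g)⁻¹ g
      rw [h g hg]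
      exact hg.symm
  -- so the fixed characters are exactly the real ones
  have hcard : Nat.card {ψ : IrrCharacter Q // (ψ : Q → ℂ) ∘ σ = (ψ : Q → ℂ)} =
      Nat.card {ψ : IrrCharacter Q // ∀ g : Q, ((ψ : Q → ℂ) g).im = 0} := by
    rw [Lib.Char.card_fixed_irr_eq_card_fixed_classes σ hcl hσirr, Lib.Char.card_real_irr]
    exact Nat.card_congr (Equiv.subtypeEquivRight fun C => forall_congr' fun g => imp_congr_right fun _ => hreal g)
  have hfix : ∀ ψ : IrrCharacter Q, (ψ : Q → ℂ) ∘ σ = (ψ : Q → ℂ) →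
      (∀ g, (ψ : Q → ℂ) (α g) = (ψ : Q → ℂ) g) ∧ ∀ g : Q, ((ψ : Q → ℂ) g).im = 0 := by
    intro ψ hψ
    have h1 : ∀ g, conj ((ψ : Q → ℂ) (α g)) = (ψ : Q → ℂ) g := fun g => by
      rw [← Lib.Char.char_inv (Lib.Char.isCharacter_of_isIrr ψ.2)]
      exact congrFun hψ g
    have h2 : ∀ g, (ψ : Q → ℂ) ((α * α) g) = (ψ : Q → ℂ) g := fun g => by
      have e1 := h1 (α g)
      have e2 := congrArg conj (h1 g)
      rw [Complex.conj_conj] at e2
      rw [MulAut.mul_apply, ← h1 g, ← e1, Complex.conj_conj]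
    have h3 : ∀ i : ℕ, ∀ g, (ψ : Q → ℂ) (((α * α) ^ i) g) = (ψ : Q → ℂ) g := by
      intro i
      induction i with
      | zero => exact fun g => rfl
      | succ i ih =>
        intro g
        rw [pow_succ, MulAut.mul_apply, ih, h2]
    have h4 : ∀ g, (ψ : Q → ℂ) (α g) = (ψ : Q → ℂ) g := fun g => by rw [← hαm g]; exact h3 _ g
    exact ⟨h4, fun g => Complex.conj_eq_iff_im.mp (by conv_rhs => rw [← h1 g, h4 g])⟩
  let inc : {ψ : IrrCharacter Q // (ψ : Q → ℂ) ∘ σ = (ψ : Q → ℂ)} →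
      {ψ : IrrCharacter Q // ∀ g : Q, ((ψ : Q → ℂ) g).im = 0} := fun ψ => ⟨ψ.1, (hfix ψ.1 ψ.2).2⟩
  have hinc : Function.Bijective inc :=
    (Nat.bijective_iff_injective_and_card inc).mpr ⟨fun a b hab => Subtype.ext (congrArg (fun x => x.1) hab :), hcard⟩
  obtain ⟨ψ, hψ⟩ := hinc.2 ⟨χ, hχ⟩
  have hψ' : ψ.1 = χ := congrArg Subtype.val hψ
  exact hψ' ▸ (hfix ψ.1 ψ.2).1

lemma mod_frattini {Q : Type u} [Group Q] [Finite Q] (hQ : IsPGroup 2 Q) (α : MulAut Q) (hα : Odd (orderOf α))
    (h : ∀ x : Q, IsConj x x⁻¹ → α x = x) (k : Q) : α k * k⁻¹ ∈ frattini Q := by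
  classical
  haveI := Fact.mk Nat.prime_two
  simp only [frattini, Order.radical, mem_iInf]
  intro M hM
  obtain ⟨-, hi⟩ := Lib.PGroupFrattini.coatom_index hQ hM
  let l : Q →* ℂˣ :=
    { toFun := fun x => if x ∈ M then 1 else -1
      map_one' := by simp [M.one_mem]
      map_mul' := fun a b => by
        have := mul_mem_iff_of_index_two hi (a := a) (b := b)
        by_cases ha : a ∈ M <;> by_cases hb : b ∈ M <;> simp [ha, hb] at this ⊢ <;> simp [this] }
  have hreal : ∀ g : Q, ((l g : ℂ)).im = 0 := fun g => by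
    by_cases hg : g ∈ M <;> simp [l, hg]
  have h1 := real_fixed α hα h ⟨_, Lib.Char.isIrrCharacter_linear l⟩ hreal k
  have h2 : l (α k) = l k := Units.ext h1
  have hne : (1 : ℂˣ) ≠ -1 := by
    intro he
    have := congrArg Units.val he
    norm_num at this
  have h3 : (α k ∈ M ↔ k ∈ M) := by
    by_cases ha : α k ∈ M <;> by_cases hb : k ∈ M <;> simp [l, ha, hb, hne, hne.symm] at h2 ⊢
  rw [mul_mem_iff_of_index_two hi, inv_mem_iff]
  exact h3

/-- If every 2-element of the finite group G that is conjugate to its inverse lies in the centre of G, then G has a normal 2-complement. -/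
theorem result {G : Type*} [Group G] [Finite G] (h : ∀ x : G, (∃ j : ℕ, orderOf x = 2 ^ j) → IsConj x x⁻¹ → x ∈ Subgroup.center G) : Cfsg.HasNormalPComplement 2 G := by
  haveI := Fact.mk Nat.prime_two
  refine Lib.Transfer.frobenius_criterion fun Q hQ g hg hgo => ?_
  let α : MulAut Q := Q.normalizerMonoidHom ⟨g, hg⟩
  have hα : Odd (orderOf α) := by
    rw [← Nat.coprime_two_right]
    refine hgo.coprime_dvd_left ((orderOf_map_dvd _ _).trans (dvd_of_eq ?_))
    exact Subgroup.orderOf_mk g hg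
  have hfix : ∀ x : Q, IsConj x x⁻¹ → α x = x := by
    intro x hx
    obtain ⟨j, hj⟩ := IsPGroup.iff_orderOf.mp hQ x
    have hc := h (x : G) ⟨j, by rw [Subgroup.orderOf_coe, hj]⟩ (by
      simpa using MonoidHom.map_isConj Q.subtype hx)
    apply Subtype.ext
    show g * (x : G) * g⁻¹ = x
    rw [Subgroup.mem_center_iff.mp hc g, mul_inv_cancel_right]
  refine Lib.Coprime.le_centralizer_of_frattini (A := Subgroup.zpowers g) (Subgroup.zpowers_le.mpr hg) ?_ ?_
    (Subgroup.mem_zpowers g)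
  · obtain ⟨i, hi⟩ := IsPGroup.iff_card.mp (hQ.to_subgroup (frattini Q))
    rw [Nat.card_zpowers, hi]
    exact hgo.pow_right i
  · intro a ha k hk
    obtain ⟨i, rfl⟩ := (isOfFinOrder_of_finite g).mem_powers_iff_mem_zpowers.mpr ha
    have h1 : ∀ i : ℕ, ((α ^ i) ⟨k, hk⟩) * (⟨k, hk⟩ : Q)⁻¹ ∈ frattini Q := by
      intro i
      induction i with
      | zero => simp
      | succ i ih =>
        rw [pow_succ', MulAut.mul_apply]
        have h2 := (frattini Q).mul_mem (mod_frattini hQ α hα hfix ((α ^ i) ⟨k, hk⟩)) ih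
        simpa [mul_assoc] using h2
    have h3 : α ^ i = Q.normalizerMonoidHom (⟨g, hg⟩ ^ i) := (map_pow _ _ _).symm
    have h4 := h1 i
    rw [h3] at h4
    exact ⟨_, h4, by simp⟩

end Cfsg.Agent.S3862
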