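import Cfsg.Statements.S3863
import Mathlib

set_option autoImplicit false
open Cfsg

namespace Cfsg.Agent.S3863

lemma two_part {G : Type*} [Group G] [Finite G] (c : G) : ∃ (s j : ℕ), Odd s ∧ orderOf (c ^ s) = 2 ^ j := by
  obtain ⟨j, s, hs, h⟩ := Nat.exists_eq_pow_mul_and_not_dvd (orderOf_pos c).ne' 2 (by norm_num)
  refine ⟨s, j, Nat.not_even_iff_odd.mp (fun he => hs he.two_dvd), ?_⟩
  rw [orderOf_pow, h, Nat.gcd_eq_right (Dvd.intro_left _ rfl), Nat.mul_div_cancel]
  exact Nat.pos_of_ne_zero (fun h0 => hs (h0 ▸ dvd_zero 2))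

/-- Let x be an element of the finite group G that is conjugate to its inverse. Then some 2-element conjugates x to its inverse; if the conjugacy class of x has odd size then x ^ 2 = 1; and x lies in, and is conjugate to its inverse inside, every normal subgroup of odd index. -/
theorem result {G : Type*} [Group G] [Finite G] (x : G) (hx : IsConj x x⁻¹) : (∃ t : G, (∃ j : ℕ, orderOf t = 2 ^ j) ∧ t * x * t⁻¹ = x⁻¹) ∧ (Odd (Subgroup.centralizer ({x} : Set G)).index → x ^ 2 = 1) ∧ ∀ (N : Subgroup G) [N.Normal], Odd N.index → ∃ hxN : x ∈ N, IsConj (⟨x, hxN⟩ : N) (⟨x, hxN⟩ : N)⁻¹ := by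
  obtain ⟨c, hc⟩ := isConj_iff.mp hx
  have hpow : ∀ k : ℕ, c ^ k * x * (c ^ k)⁻¹ = if Even k then x else x⁻¹ := by
    intro k
    induction k with
    | zero => simp
    | succ k ih =>
      calc c ^ (k + 1) * x * (c ^ (k + 1))⁻¹ = c * (c ^ k * x * (c ^ k)⁻¹) * c⁻¹ := by rw [pow_succ']; group
        _ = _ := by
          rw [ih]
          by_cases h : Even k
          · rw [if_pos h, if_neg (by simp [Nat.even_add_one, h]), hc]
          · rw [if_neg h, if_pos (by simp [Nat.even_add_one, h]),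
              show c * x⁻¹ * c⁻¹ = (c * x * c⁻¹)⁻¹ by group, hc, inv_inv]
  obtain ⟨s, j, hs, hj⟩ := two_part c
  have ht : c ^ s * x * (c ^ s)⁻¹ = x⁻¹ := by rw [hpow, if_neg (Nat.not_even_iff_odd.mpr hs)]
  refine ⟨⟨c ^ s, ⟨j, hj⟩, ht⟩, fun hodd => ?_, fun N _ hN => ?_⟩
  · -- inversion is an involution of the class of odd size
    classical
    haveI := Fintype.ofFinite G
    haveI : Fact (Nat.Prime 2) := ⟨Nat.prime_two⟩
    let S := {y : G // IsConj x y}
    have hS : Odd (Nat.card S) := by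
      have : Nat.card S = (Subgroup.centralizer ({x} : Set G)).index := by
        have h1 := (MulAction.index_stabilizer (ConjAct G) x).symm
        rw [ConjAct.stabilizer_eq_centralizer] at h1
        refine Eq.trans ?_ (h1.trans ?_)
        · exact Nat.card_congr (Equiv.subtypeEquivRight fun y => by
            rw [ConjAct.mem_orbit_conjAct, isConj_comm])
        · exact rfl
      rwa [this]
    have hinv : ∀ y : G, IsConj x y → IsConj x y⁻¹ := by
      intro y hy
      obtain ⟨d, rfl⟩ := isConj_iff.mp hy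
      exact hx.trans (isConj_iff.mpr ⟨d, by group⟩)
    let σ : Equiv.Perm S :=
      ⟨fun y => ⟨y.1⁻¹, hinv y.1 y.2⟩, fun y => ⟨y.1⁻¹, hinv y.1 y.2⟩, fun y => Subtype.ext (inv_inv _),
        fun y => Subtype.ext (inv_inv _)⟩
    have hσ : σ ^ 2 ^ 1 = 1 := by ext y; simp [σ, pow_succ]
    rw [Nat.odd_iff, Nat.card_eq_fintype_card] at hS
    obtain ⟨y, hy⟩ := Equiv.Perm.exists_fixed_point_of_prime (p := 2) (n := 1) (by omega) hσ
    have hy2 : y.1 ^ 2 = 1 := by
      have h0 : y.1⁻¹ = y.1 := congrArg Subtype.val hy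
      rw [pow_two]
      nth_rw 1 [← h0]
      exact inv_mul_cancel _
    obtain ⟨d, hd⟩ := isConj_iff.mp y.2.symm
    rw [← hd, conj_pow, hy2, mul_one, mul_inv_cancel]
  · have hN2 : ∀ g : G, (∀ k, Odd k → g ^ k ∈ N → g ∈ N) → True := fun _ _ => trivial
    -- `2`-elements lie in `N`
    have h2N : ∀ (g : G) (i : ℕ), g ^ 2 ^ i ∈ N → g ∈ N := by
      intro g i hg
      rw [← QuotientGroup.eq_one_iff] at hg ⊢
      rw [QuotientGroup.mk_pow] at hg
      have h1 := orderOf_dvd_of_pow_eq_one hg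
      have h2 : orderOf (g : G ⧸ N) ∣ N.index := Subgroup.index_eq_card N ▸ orderOf_dvd_natCard _
      rw [← orderOf_eq_one_iff]
      exact Nat.eq_one_of_dvd_coprimes (Nat.Coprime.pow_left _ (Nat.coprime_two_left.mpr hN)) h1 h2
    have htN : c ^ s ∈ N := h2N _ j (by rw [← hj, pow_orderOf_eq_one]; exact one_mem _)
    have hxN : x ∈ N := by
      refine h2N x 1 ?_
      rw [← QuotientGroup.eq_one_iff, QuotientGroup.mk_pow, pow_one, pow_two]
      have h1 := congrArg (fun g : G => (g : G ⧸ N)) ht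
      simp only [QuotientGroup.mk_mul, QuotientGroup.mk_inv, (QuotientGroup.eq_one_iff _).mpr htN, one_mul, inv_one, mul_one] at h1
      rw [eq_inv_iff_mul_eq_one] at h1
      exact h1
    exact ⟨hxN, isConj_iff.mpr ⟨⟨c ^ s, htN⟩, Subtype.ext ht⟩⟩

end Cfsg.Agent.S3863
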