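import Cfsg.Statements.S3866
import Mathlib.Tactic.Group
import Mathlib.GroupTheory.Abelianization.Defs
import Mathlib.GroupTheory.Index

set_option autoImplicit false
open Cfsg

namespace Cfsg.Agent.S3866

/-- Let A be a commutative normal subgroup of the finite group G with G generated by A and an element x. Then a ↦ x a x⁻¹ a⁻¹ is a surjective homomorphism from A onto the commutator subgroup of G whose kernel is the centralizer of x in A; in particular the commutator subgroup has order equal to the index in A of that centralizer. -/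
theorem result {G : Type*} [Group G] [Finite G] (A : Subgroup G) [A.Normal] (hA : IsMulCommutative A) (x : G) (hgen : A ⊔ Subgroup.zpowers x = ⊤) : (∀ a ∈ A, x * a * x⁻¹ * a⁻¹ ∈ commutator G) ∧ (∀ c ∈ commutator G, ∃ a ∈ A, x * a * x⁻¹ * a⁻¹ = c) ∧ (∀ a ∈ A, ∀ b ∈ A, x * (a * b) * x⁻¹ * (a * b)⁻¹ = (x * a * x⁻¹ * a⁻¹) * (x * b * x⁻¹ * b⁻¹)) ∧ Nat.card (commutator G) * Nat.card ↥(A ⊓ Subgroup.centralizer ({x} : Set G)) = Nat.card A := by
  let f : G → G := fun a => x * a * x⁻¹ * a⁻¹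
  have hfA : ∀ a ∈ A, f a ∈ A := fun a ha => mul_mem ((inferInstance : A.Normal).conj_mem a ha x) (inv_mem ha)
  have hcomm : ∀ a ∈ A, ∀ b ∈ A, a * b = b * a := fun a ha b hb =>
    congrArg Subtype.val (hA.1.1 ⟨a, ha⟩ ⟨b, hb⟩)
  have hmul : ∀ a ∈ A, ∀ b ∈ A, f (a * b) = f a * f b := by
    intro a ha b hb
    show x * (a * b) * x⁻¹ * (a * b)⁻¹ = _
    calc x * (a * b) * x⁻¹ * (a * b)⁻¹ = (x * a * x⁻¹) * (f b) * a⁻¹ := by simp only [f]; group
      _ = (x * a * x⁻¹) * (a⁻¹ * f b) := by rw [mul_assoc, hcomm _ (hfA b hb) _ (inv_mem ha)]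
      _ = f a * f b := by simp only [f]; group
  let φ : ↥A →* G :=
    { toFun := fun a => f a, map_one' := by simp [f], map_mul' := fun a b => hmul a a.2 b b.2 }
  have hsub : φ.range ≤ commutator G := by
    rintro _ ⟨a, rfl⟩
    exact Subgroup.commutator_mem_commutator (Subgroup.mem_top x) (Subgroup.mem_top (a : G))
  haveI hn : φ.range.Normal := by
    refine ⟨?_⟩
    rintro _ ⟨a, rfl⟩ g
    have hrA : ∀ b : ↥A, φ b ∈ A := fun b => hfA b b.2
    have hg : g ∈ A ⊔ Subgroup.zpowers x := hgen ▸ Subgroup.mem_top g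
    obtain ⟨a', ha', w, hw, rfl⟩ := Subgroup.mem_sup_of_normal_left.mp hg
    obtain ⟨k, rfl⟩ := Subgroup.mem_zpowers_iff.mp hw
    have hconj : x ^ k * φ a * (x ^ k)⁻¹ = φ ⟨x ^ k * a * (x ^ k)⁻¹, (inferInstance : A.Normal).conj_mem a a.2 _⟩ := by
      show x ^ k * (x * a * x⁻¹ * (a : G)⁻¹) * (x ^ k)⁻¹ =
        x * (x ^ k * a * (x ^ k)⁻¹) * x⁻¹ * (x ^ k * a * (x ^ k)⁻¹)⁻¹
      have := (Commute.zpow_self x k)
      calc x ^ k * (x * a * x⁻¹ * (a : G)⁻¹) * (x ^ k)⁻¹ = (x ^ k * x) * a * ((x ^ k * x)⁻¹ * x ^ k) * (a : G)⁻¹ * (x ^ k)⁻¹ := by group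
        _ = (x * x ^ k) * a * ((x * x ^ k)⁻¹ * x ^ k) * (a : G)⁻¹ * (x ^ k)⁻¹ := by rw [this.eq]
        _ = _ := by group
    refine ⟨⟨x ^ k * a * (x ^ k)⁻¹, (inferInstance : A.Normal).conj_mem a a.2 _⟩, ?_⟩
    rw [show a' * x ^ k * φ a * (a' * x ^ k)⁻¹ = a' * (x ^ k * φ a * (x ^ k)⁻¹) * a'⁻¹ by group, hconj,
      hcomm a' ha' _ (hrA _), mul_inv_cancel_right]
  have hle : commutator G ≤ φ.range := by
    rw [← Subgroup.Normal.quotient_commutative_iff_commutator_le]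
    have hgenc : ∀ g : G ⧸ φ.range, ∀ a ∈ A, g * (a : G ⧸ φ.range) = (a : G ⧸ φ.range) * g := by
      intro g a ha
      obtain ⟨g, rfl⟩ := QuotientGroup.mk_surjective g
      have hg : g ∈ A ⊔ Subgroup.zpowers x := hgen ▸ Subgroup.mem_top g
      obtain ⟨a', ha', w, hw, rfl⟩ := Subgroup.mem_sup_of_normal_left.mp hg
      have hxa : Commute (x : G ⧸ φ.range) (a : G ⧸ φ.range) := by
        have h1 : ((x * a * x⁻¹ * a⁻¹ : G) : G ⧸ φ.range) = 1 := (QuotientGroup.eq_one_iff _).mpr ⟨⟨a, ha⟩, rfl⟩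
        have h2 : (x : G ⧸ φ.range) * a * (x : G ⧸ φ.range)⁻¹ * (a : G ⧸ φ.range)⁻¹ = 1 := by
          simpa [QuotientGroup.mk_mul, QuotientGroup.mk_inv] using h1
        exact mul_inv_eq_iff_eq_mul.mp (mul_inv_eq_one.mp h2)
      obtain ⟨k, rfl⟩ := Subgroup.mem_zpowers_iff.mp hw
      rw [QuotientGroup.mk_mul, QuotientGroup.mk_zpow, mul_assoc, (hxa.zpow_left k).eq, ← mul_assoc, ← mul_assoc,
        ← QuotientGroup.mk_mul, ← QuotientGroup.mk_mul φ.range a a', hcomm a' ha' a ha]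
    refine ⟨⟨fun u v => ?_⟩⟩
    obtain ⟨g, rfl⟩ := QuotientGroup.mk_surjective v
    have hg : g ∈ A ⊔ Subgroup.zpowers x := hgen ▸ Subgroup.mem_top g
    obtain ⟨a', ha', w, hw, rfl⟩ := Subgroup.mem_sup_of_normal_left.mp hg
    obtain ⟨k, rfl⟩ := Subgroup.mem_zpowers_iff.mp hw
    have hxu : Commute (x : G ⧸ φ.range) u := by
      obtain ⟨g, rfl⟩ := QuotientGroup.mk_surjective u
      have hg : g ∈ A ⊔ Subgroup.zpowers x := hgen ▸ Subgroup.mem_top g
      obtain ⟨b, hb, w, hw, rfl⟩ := Subgroup.mem_sup_of_normal_left.mp hg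
      obtain ⟨l, rfl⟩ := Subgroup.mem_zpowers_iff.mp hw
      rw [QuotientGroup.mk_mul, QuotientGroup.mk_zpow]
      exact Commute.mul_right (hgenc _ b hb) ((Commute.refl _).zpow_right l)
    rw [QuotientGroup.mk_mul, QuotientGroup.mk_zpow, ← mul_assoc, hgenc u a' ha', mul_assoc,
      ← (hxu.zpow_left k).eq, mul_assoc]
  have hrange : φ.range = commutator G := le_antisymm hsub hle
  refine ⟨fun a ha => hsub ⟨⟨a, ha⟩, rfl⟩, fun c hc => ?_, hmul, ?_⟩
  · obtain ⟨a, ha⟩ := hle hc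
    exact ⟨a, a.2, ha⟩
  · rw [← hrange, ← φ.ker.card_mul_index, Subgroup.index_ker, mul_comm (Nat.card _)]
    congr 1
    refine Nat.card_congr
      { toFun := fun a => ⟨⟨a.1, a.2.1⟩, ?_⟩, invFun := fun a => ⟨a.1.1, a.1.2, ?_⟩,
        left_inv := fun _ => rfl, right_inv := fun _ => rfl }
    · have := Subgroup.mem_centralizer_singleton_iff.mp a.2.2
      show x * a.1 * x⁻¹ * a.1⁻¹ = 1
      rw [← this, mul_inv_cancel_right, mul_inv_cancel]
    · have := a.2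
      rw [MonoidHom.mem_ker] at this
      refine Subgroup.mem_centralizer_singleton_iff.mpr ?_
      exact (mul_inv_eq_iff_eq_mul.mp (mul_inv_eq_one.mp this)).symm

end Cfsg.Agent.S3866
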