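import Cfsg.Statements.S3867
import Mathlib
import Cfsg.Agent.Lib.Coprime.Action
import Cfsg.Agent.Lib.Transfer.Basic

set_option autoImplicit false
open Cfsg

namespace Cfsg.Agent.S3867

open Subgroup
open scoped Pointwise

variable {G : Type*} [Group G] [Finite G] {p : ℕ} [Fact p.Prime]

/-- the normaliser of a Sylow subgroup of a quotient -/
lemma card_sylow_quotient (P : Sylow p G) (M : Subgroup G) [M.Normal] :
    Nat.card (Sylow p (G ⧸ M)) = (normalizer ((P : Subgroup G) : Set G) ⊔ M).index := by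
  have hsur := QuotientGroup.mk'_surjective M
  rw [(P.mapSurjective hsur).card_eq_index_normalizer]
  show (normalizer (((P : Subgroup G).map (QuotientGroup.mk' M) : Subgroup (G ⧸ M)) : Set (G ⧸ M))).index = _
  suffices h : normalizer (((P : Subgroup G).map (QuotientGroup.mk' M) : Subgroup (G ⧸ M)) : Set (G ⧸ M)) =
      (normalizer ((P : Subgroup G) : Set G)).map (QuotientGroup.mk' M) by
    rw [h, index_map, QuotientGroup.ker_mk', MonoidHom.range_eq_top.mpr hsur, index_top, mul_one]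
  refine le_antisymm (fun z hz => ?_) (le_normalizer_map _)
  obtain ⟨g, rfl⟩ := hsur z
  set U := (P : Subgroup G) ⊔ M with hU
  have hg : ∀ x ∈ U, g * x * g⁻¹ ∈ U := by
    have hUeq : U = ((P : Subgroup G).map (QuotientGroup.mk' M)).comap (QuotientGroup.mk' M) := by
      rw [comap_map_eq, QuotientGroup.ker_mk']
    intro x hx
    rw [hUeq, mem_comap] at hx ⊢
    rw [map_mul, map_mul, map_inv]
    exact (mem_normalizer_iff.mp hz _).mp hx
  have hle : (g • P : Sylow p G).toSubgroup ≤ U := by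
    intro x hx
    rw [Sylow.coe_subgroup_smul, Cfsg.Agent.Lib.Coprime.mem_conj_smul] at hx
    have := hg _ (le_sup_left (b := M) hx)
    simpa [mul_assoc] using this
  obtain ⟨k, hk⟩ := MulAction.exists_smul_eq U ((g • P).subtype hle) (P.subtype le_sup_left)
  have hkg : ((k : G) * g) • P = P := by
    apply Sylow.ext
    rw [mul_smul, Sylow.coe_subgroup_smul]
    have h1 := congrArg (Subgroup.map U.subtype) (congrArg Sylow.toSubgroup hk)
    rw [Sylow.coe_subgroup_smul, Cfsg.Agent.Lib.Coprime.map_conj_smul, Sylow.coe_subtype, Sylow.coe_subtype,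
      map_subgroupOf_eq_of_le hle, map_subgroupOf_eq_of_le le_sup_left] at h1
    exact h1
  have hkN : (k : G) * g ∈ normalizer ((P : Subgroup G) : Set G) := Sylow.smul_eq_iff_mem_normalizer.mp hkg
  have hk' : (k : G) ∈ normalizer ((P : Subgroup G) : Set G) ⊔ M :=
    sup_le_sup_right le_normalizer M k.2
  have hgm : g ∈ normalizer ((P : Subgroup G) : Set G) ⊔ M := by
    have := mul_mem (inv_mem hk') (mem_sup_left (T := M) hkN)
    rwa [inv_mul_cancel_left] at this
  have h2 := mem_map_of_mem (QuotientGroup.mk' M) hgm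
  rw [Subgroup.map_sup, (map_eq_bot_iff M).mpr (QuotientGroup.ker_mk' M).ge, sup_bot_eq] at h2
  exact h2


/-- Let M and N be nontrivial normal subgroups of the finite group G with M ⊓ N trivial, and let p be a prime. Writing n(X) for the number of Sylow p-subgroups of a group X, one has n(G) · n(G/MN) = n(G/M) · n(G/N). -/
theorem result {G : Type*} [Group G] [Finite G] (p : ℕ) [Fact p.Prime] (M N : Subgroup G) [M.Normal] [N.Normal] (hM : M ≠ ⊥) (hN : N ≠ ⊥) (hMN : M ⊓ N = ⊥) : Nat.card (Sylow p G) * Nat.card (Sylow p (G ⧸ (M ⊔ N))) = Nat.card (Sylow p (G ⧸ M)) * Nat.card (Sylow p (G ⧸ N)) := by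
  classical
  obtain ⟨P⟩ := (inferInstance : Nonempty (Sylow p G))
  set H := normalizer ((P : Subgroup G) : Set G) with hH
  rw [P.card_eq_index_normalizer, card_sylow_quotient P (M ⊔ N), card_sylow_quotient P M, card_sylow_quotient P N]
  have hcomm : ∀ a ∈ M, ∀ b ∈ N, a * b = b * a := fun a ha b hb =>
    commute_of_normal_of_disjoint M N inferInstance inferInstance (disjoint_iff.mpr hMN) a b ha hb
  -- the projection of `P ∩ MN` to `M` lies in `P`
  set S := (P : Subgroup G) ⊓ (M ⊔ N) with hS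
  set SM := (S ⊔ N) ⊓ M with hSM
  have hSMp : IsPGroup p SM := by
    refine (P.2.to_le (inf_le_left : S ≤ _) |>.map (QuotientGroup.mk' N)).of_injective
      (⟨⟨fun x => ⟨QuotientGroup.mk' N x, ?_⟩, Subtype.ext (map_one _)⟩, fun a b => Subtype.ext (map_mul _ _ _)⟩ :
        SM →* S.map (QuotientGroup.mk' N)) ?_
    · have := mem_map_of_mem (QuotientGroup.mk' N) x.2.1
      rwa [Subgroup.map_sup, (map_eq_bot_iff N).mpr (QuotientGroup.ker_mk' N).ge, sup_bot_eq] at this
    · intro a b hab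
      have h1 : (a : G)⁻¹ * b ∈ N := QuotientGroup.eq.mp (congrArg Subtype.val hab)
      have h2 : (a : G)⁻¹ * b ∈ M ⊓ N := ⟨M.mul_mem (M.inv_mem a.2.2) b.2.2, h1⟩
      rw [hMN, mem_bot, inv_mul_eq_one] at h2
      exact Subtype.ext h2
  have hSMP : SM ≤ (P : Subgroup G) := by
    obtain ⟨T, hT⟩ := Cfsg.Agent.Lib.Transfer.exists_sylow_inf P M
    have hle : (P : Subgroup G) ⊓ M ≤ SM :=
      le_inf (le_trans (le_inf inf_le_left (inf_le_right.trans le_sup_left)) le_sup_left) inf_le_right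
    have h1 : (T : Subgroup M) ≤ SM.subgroupOf M := by
      rw [hT]; intro x hx; exact hle ⟨hx, x.2⟩
    have h2 := T.3 (hSMp.comap_subtype) h1
    intro x hx
    have hx' : (⟨x, hx.2⟩ : M) ∈ SM.subgroupOf M := hx
    rw [show SM.subgroupOf M = (T : Subgroup M) from h2, hT] at hx'
    exact hx'
  have hsplit : H ⊓ (M ⊔ N) ≤ (H ⊓ M) ⊔ (H ⊓ N) := by
    rintro u ⟨huH, huMN⟩
    obtain ⟨m, hm, n, hn, rfl⟩ := (Cfsg.Agent.Lib.Coprime.mem_sup_of_le_normalizer (A := M) (N := N) le_normalizer_of_normal).mp huMN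
    have hmH : m ∈ H := by
      have hmP : ∀ x ∈ (P : Subgroup G), m * x * m⁻¹ ∈ (P : Subgroup G) := by
        intro x hx
        set k := n * x * n⁻¹ * x⁻¹ with hk
        set l := m * x * m⁻¹ * x⁻¹ with hl
        have hkN : k ∈ N := by
          rw [hk, mul_assoc, mul_assoc, ← mul_assoc x]
          exact N.mul_mem hn (Subgroup.Normal.conj_mem (H := N) inferInstance _ (N.inv_mem hn) x)
        have hlM : l ∈ M := by
          rw [hl, mul_assoc, mul_assoc, ← mul_assoc x]
          exact M.mul_mem hm (Subgroup.Normal.conj_mem (H := M) inferInstance _ (M.inv_mem hm) x)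
        have h1 : k * l ∈ S := by
          have e : k * l = (m * n) * x * (m * n)⁻¹ * x⁻¹ := by
            calc k * l = k * m * x * m⁻¹ * x⁻¹ := by rw [hl]; group
              _ = m * k * x * m⁻¹ * x⁻¹ := by rw [hcomm m hm k hkN]
              _ = _ := by rw [hk]; group
          refine ⟨?_, mul_mem (mem_sup_right hkN) (mem_sup_left hlM)⟩
          rw [e]
          exact (P : Subgroup G).mul_mem ((mem_normalizer_iff.mp huH x).mp hx) ((P : Subgroup G).inv_mem hx)
        have h2 : l ∈ SM := by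
          refine ⟨?_, hlM⟩
          have := mul_mem (mem_sup_right (S := S) (N.inv_mem hkN)) (mem_sup_left (T := N) h1)
          rwa [inv_mul_cancel_left] at this
        have h3 := (P : Subgroup G).mul_mem (hSMP h2) hx
        rwa [hl, inv_mul_cancel_right] at h3
      refine Cfsg.Agent.Lib.Coprime.mem_normalizer_of_conj_smul_eq (eq_of_le_of_card_ge ?_ (Cfsg.Agent.Lib.Coprime.card_conj_smul m _).ge)
      intro y hy
      rw [Cfsg.Agent.Lib.Coprime.mem_conj_smul] at hy
      have := hmP _ hy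
      simpa [mul_assoc] using this
    refine mul_mem_sup ⟨hmH, hm⟩ ⟨?_, hn⟩
    have := H.mul_mem (H.inv_mem hmH) huH
    rwa [inv_mul_cancel_left] at this
  have heq : H ⊓ (M ⊔ N) = (H ⊓ M) ⊔ (H ⊓ N) :=
    le_antisymm hsplit (sup_le (inf_le_inf_left H le_sup_left) (inf_le_inf_left H le_sup_right))
  have c1 := Cfsg.Agent.Lib.Coprime.card_sup_mul_card_inf M H
  have c2 := Cfsg.Agent.Lib.Coprime.card_sup_mul_card_inf N H
  have c3 := Cfsg.Agent.Lib.Coprime.card_sup_mul_card_inf (M ⊔ N) H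
  have c4 := Cfsg.Agent.Lib.Coprime.card_sup_mul_card_inf N M
  rw [hMN, card_bot, mul_one] at c4
  have c5 := Cfsg.Agent.Lib.Coprime.card_sup_mul_card_inf_of_le_normalizer (A := H ⊓ M) (N := H ⊓ N)
    (le_trans inf_le_left fun h hh => mem_normalizer_iff.mpr fun x => ⟨fun hx => ⟨H.mul_mem (H.mul_mem hh hx.1) (H.inv_mem hh),
      Subgroup.Normal.conj_mem (H := N) inferInstance x hx.2 h⟩, fun hx => by
        have := H.mul_mem (H.mul_mem (H.inv_mem hh) hx.1) hh
        have h2 := Subgroup.Normal.conj_mem (H := N) inferInstance _ hx.2 h⁻¹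
        refine ⟨by simpa [mul_assoc] using this, by simpa [mul_assoc] using h2⟩⟩)
  rw [show H ⊓ M ⊓ (H ⊓ N) = ⊥ from le_bot_iff.mp (le_trans (inf_le_inf inf_le_right inf_le_right) hMN.le),
    card_bot, mul_one, ← heq] at c5
  rw [c5, c4] at c3
  have i0 := H.index_mul_card
  have i1 := (H ⊔ M).index_mul_card
  have i2 := (H ⊔ N).index_mul_card
  have i3 := (H ⊔ (M ⊔ N)).index_mul_card
  have hkey : Nat.card (H ⊔ M : Subgroup G) * Nat.card (H ⊔ N : Subgroup G) =
      Nat.card H * Nat.card (H ⊔ (M ⊔ N) : Subgroup G) := by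
    refine Nat.eq_of_mul_eq_mul_right (Nat.mul_pos (Nat.card_pos (α := (H ⊓ M : Subgroup G))) (Nat.card_pos (α := (H ⊓ N : Subgroup G)))) ?_
    calc _ = (Nat.card (H ⊔ M : Subgroup G) * Nat.card (H ⊓ M : Subgroup G)) *
          (Nat.card (H ⊔ N : Subgroup G) * Nat.card (H ⊓ N : Subgroup G)) := by ring
      _ = Nat.card H * (Nat.card H * (Nat.card M * Nat.card N)) := by rw [c1, c2]; ring
      _ = _ := by rw [← c3]; ring
  refine Nat.eq_of_mul_eq_mul_right (Nat.mul_pos (Nat.card_pos (α := (H ⊔ M : Subgroup G))) (Nat.card_pos (α := (H ⊔ N : Subgroup G)))) ?_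
  calc _ = H.index * (H ⊔ (M ⊔ N)).index * (Nat.card H * Nat.card (H ⊔ (M ⊔ N) : Subgroup G)) := by rw [hkey]; rfl
    _ = (H.index * Nat.card H) * ((H ⊔ (M ⊔ N)).index * Nat.card (H ⊔ (M ⊔ N) : Subgroup G)) := by ring
    _ = Nat.card G * Nat.card G := by rw [i0, i3]
    _ = ((H ⊔ M).index * Nat.card (H ⊔ M : Subgroup G)) * ((H ⊔ N).index * Nat.card (H ⊔ N : Subgroup G)) := by rw [i1, i2]
    _ = _ := by ring

end Cfsg.Agent.S3867
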