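import Cfsg.Statements.S3878
import Mathlib
import Cfsg.Agent.Lib.Perm.PrimeDegree
import Cfsg.Agent.Lib.Perm.Burnside

set_option autoImplicit false
open Cfsg

namespace Cfsg.Agent.S3878

open Subgroup
open scoped Pointwise

variable {π : Set ℕ}

lemma piSubgroup_le_max {G : Type} [Group G] [Finite G] {H : Subgroup G} (h : Cfsg.IsPiSubgroup π H) :
    ∃ K, H ≤ K ∧ Maximal (Cfsg.IsPiSubgroup π) K :=
  Finite.exists_le_maximal (p := Cfsg.IsPiSubgroup π) h

lemma hall_of_dPi {G : Type} [Group G] [Finite G] (h : Cfsg.IsDPiGroup π G) : Cfsg.IsEPiGroup π G := by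
  obtain ⟨H, -, hH⟩ := piSubgroup_le_max (π := π) (H := (⊥ : Subgroup G))
    (fun r hr hd => absurd (Nat.dvd_one.mp (card_bot (G := G) ▸ hd)) hr.ne_one)
  refine ⟨H, hH.prop, fun r hr hrπ hd => ?_⟩
  haveI := Fact.mk hr
  obtain ⟨P⟩ := (inferInstance : Nonempty (Sylow r G))
  obtain ⟨K, hPK, hK⟩ := piSubgroup_le_max (π := π) (H := (P : Subgroup G)) (fun s hs hsd => by
    obtain ⟨m, hm⟩ := IsPGroup.iff_card.mp P.2
    rw [hm] at hsd
    exact (Nat.prime_dvd_prime_iff_eq hs hr).mp (hs.dvd_of_dvd_pow hsd) ▸ hrπ)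
  obtain ⟨g, hg⟩ := h H K hH hK
  have h1 : Nat.card (P : Subgroup G) ∣ Nat.card H := by
    rw [← card_map_of_injective (f := (MulAut.conj g).toMonoidHom) (MulAut.conj g).injective (K := H)]
    exact hg ▸ card_dvd_of_le hPK
  rw [P.card_eq_multiplicity] at h1
  have h2 : r ^ ((Nat.card G).factorization r + 1) ∣ Nat.card G := by
    rw [pow_succ, ← H.card_mul_index]
    exact mul_dvd_mul (by rw [H.card_mul_index]; exact h1) hd
  exact Nat.pow_succ_factorization_not_dvd Nat.card_pos.ne' hr h2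

/-- A Hall subgroup of `S_q` containing a Sylow 2-subgroup and a `q`-cycle is everything. -/
lemma not_epi_of_two {q r : ℕ} (hq : q.Prime) (hr : r.Prime) (hrq : r ≤ q) (h2 : 2 ∈ π) (hqπ : q ∈ π)
    (hrπ : r ∉ π) : ¬ Cfsg.IsEPiGroup π (Equiv.Perm (Fin q)) := by
  rintro ⟨H, hH1, hH2⟩
  haveI := Fact.mk hq
  haveI : Fact (Nat.Prime 2) := ⟨Nat.prime_two⟩
  have hq2 : 2 ≤ q := hq.two_le
  set τ : Equiv.Perm (Fin q) := Equiv.swap ⟨0, by omega⟩ ⟨1, by omega⟩ with hτdef
  have hτ : τ.IsSwap := ⟨_, _, by simp [Fin.ext_iff], rfl⟩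
  have hτp : IsPGroup 2 (zpowers τ) := IsPGroup.of_card (n := 1) (by rw [Nat.card_zpowers, pow_one, hτ.orderOf])
  obtain ⟨S⟩ := (inferInstance : Nonempty (Sylow 2 H))
  obtain ⟨T, hT⟩ := (S.2.map H.subtype).exists_le_sylow
  have hTH : (T : Subgroup (Equiv.Perm (Fin q))) ≤ H := by
    have hd := hH2 2 Nat.prime_two h2
    have h1 : (Nat.card (Equiv.Perm (Fin q))).factorization 2 = (Nat.card H).factorization 2 := by
      rw [← H.card_mul_index, Nat.factorization_mul Nat.card_pos.ne' index_ne_zero_of_finite, Finsupp.add_apply,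
        Nat.factorization_eq_zero_of_not_dvd hd, add_zero]
    have h2 : (S : Subgroup H).map H.subtype = (T : Subgroup (Equiv.Perm (Fin q))) := by
      refine eq_of_le_of_card_ge hT ?_
      rw [card_map_of_injective H.subtype_injective, S.card_eq_multiplicity, T.card_eq_multiplicity, h1]
    exact h2 ▸ map_subtype_le _
  obtain ⟨U, hU⟩ := hτp.exists_le_sylow
  obtain ⟨g, hg⟩ := MulAction.exists_smul_eq (Equiv.Perm (Fin q)) U T
  have hswap : g * τ * g⁻¹ ∈ H := by
    apply hTH
    rw [← hg, Sylow.coe_subgroup_smul]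
    exact smul_mem_pointwise_smul _ (MulAut.conj g) _ (hU (mem_zpowers τ))
  have hdvd : Fintype.card (Fin q) ∣ Nat.card H := by
    rw [Fintype.card_fin]
    have h : q ∣ Nat.card H * H.index := by
      rw [H.card_mul_index, Nat.card_perm, Nat.card_eq_fintype_card, Fintype.card_fin]
      exact Nat.dvd_factorial hq.pos le_rfl
    exact (hq.dvd_mul.mp h).resolve_right (hH2 q hq hqπ)
  classical
  rw [Nat.card_eq_fintype_card] at hdvd
  have hsw : g * τ * g⁻¹ = Equiv.swap (g ⟨0, by omega⟩) (g ⟨1, by omega⟩) := by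
    rw [hτdef, Equiv.mul_swap_eq_swap_mul, mul_inv_cancel_right]
  have htop : H = ⊤ := Equiv.Perm.subgroup_eq_top_of_swap_mem (by rw [Fintype.card_fin]; exact hq) hdvd hswap
    ⟨g ⟨0, by omega⟩, g ⟨1, by omega⟩, by simp [Fin.ext_iff], hsw⟩
  apply hrπ
  apply hH1 r hr
  rw [htop, card_top, Nat.card_perm, Nat.card_eq_fintype_card, Fintype.card_fin]
  exact Nat.dvd_factorial hr.pos hrq

/-- `S_{r+1}` has no subgroup of index `r`. -/
lemma not_epi_of_large {r : ℕ} (hr : r.Prime) (hr5 : 5 ≤ r) (hrπ : r ∉ π)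
    (hlt : ∀ s : ℕ, s.Prime → s < r → s ∈ π) : ¬ Cfsg.IsEPiGroup π (Equiv.Perm (Fin (r + 1))) := by
  rintro ⟨H, hH1, hH2⟩
  have hcard : Nat.card (Equiv.Perm (Fin (r + 1))) = (r + 1).factorial := by
    rw [Nat.card_perm, Nat.card_eq_fintype_card, Fintype.card_fin]
  have hH : ¬ r ∣ Nat.card H := fun h => hrπ (hH1 r hr h)
  have hfr : (r + 1).factorial = r * ((r + 1) * (r - 1).factorial) := by
    rw [Nat.factorial_succ, ← Nat.mul_factorial_pred hr.ne_zero]; ring
  have hidx : H.index = r := by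
    apply Nat.dvd_antisymm
    · have h1 : H.index ∣ r * ((r + 1) * (r - 1).factorial) := by
        rw [← hfr, ← hcard]; exact index_dvd_card H
      refine Nat.Coprime.dvd_of_dvd_mul_right (Nat.coprime_of_dvd fun s hs h2 h3 => ?_) h1
      refine hH2 s hs (hlt s hs ?_) h2
      rcases hs.dvd_mul.mp h3 with h | h
      · have hle := Nat.le_of_dvd (Nat.succ_pos r) h
        rcases Nat.lt_or_ge s r with h' | h'
        · exact h'
        · exfalso
          rcases (show s = r ∨ s = r + 1 by omega) with rfl | rfl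
          · exact hs.ne_one (Nat.dvd_one.mp ((Nat.dvd_add_right (dvd_refl s)).mp h))
          · have h2' : 2 ∣ r + 1 := by
              rcases hr.eq_two_or_odd with h'' | h'' <;> omega
            have := (Nat.prime_dvd_prime_iff_eq Nat.prime_two hs).mp h2'
            omega
      · exact lt_of_le_of_lt (hs.dvd_factorial.mp h) (by omega)
    · have h : r ∣ Nat.card H * H.index := by rw [H.card_mul_index, hcard, hfr]; exact dvd_mul_right _ _
      exact (hr.dvd_mul.mp h).resolve_left hH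
  have h1 : H.normalCore.index ∣ r.factorial := by
    rw [normalCore_eq_ker, index_ker]
    have h := card_subgroup_dvd_card (MulAction.toPermHom (Equiv.Perm (Fin (r + 1))) (Equiv.Perm (Fin (r + 1)) ⧸ H)).range
    rwa [Nat.card_perm, ← index_eq_card, hidx] at h
  have hne : H.normalCore ≠ ⊥ := by
    intro h
    rw [h, index_bot, hcard] at h1
    have := Nat.le_of_dvd (Nat.factorial_pos r) h1
    exact absurd this (not_le.mpr (Nat.factorial_lt hr.pos |>.mpr (Nat.lt_succ_self r)))
  haveI : Nontrivial (Fin (r + 1)) := by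
    rw [← Fintype.one_lt_card_iff_nontrivial, Fintype.card_fin]; omega
  have hN := Equiv.Perm.alternatingGroup_le_of_normal (N := H.normalCore)
    (by rw [Nat.card_eq_fintype_card, Fintype.card_fin]; omega) ((nontrivial_iff_ne_bot _).mpr hne)
  have hd := index_dvd_of_le (hN.trans (normalCore_le H))
  rw [alternatingGroup.index_eq_two, hidx] at hd
  have := Nat.le_of_dvd two_pos hd
  omega

/-- An odd-order Hall subgroup of `S_q` is impossible. -/
lemma not_epi_of_odd {p q : ℕ} (hp : p.Prime) (hq : q.Prime) (hpq : p < q) (hp2 : p ≠ 2) (h2 : 2 ∉ π)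
    (hpπ : p ∈ π) (hqπ : q ∈ π) : ¬ Cfsg.IsEPiGroup π (Equiv.Perm (Fin q)) := by
  rintro ⟨H, hH1, hH2⟩
  haveI := Fact.mk hq
  have hodd : ¬ 2 ∣ Nat.card H := fun h => h2 (hH1 2 Nat.prime_two h)
  have hcardG : Nat.card (Equiv.Perm (Fin q)) = q.factorial := by
    rw [Nat.card_perm, Nat.card_eq_fintype_card, Fintype.card_fin]
  have hΩ : Nat.card (Fin q) = q := by rw [Nat.card_eq_fintype_card, Fintype.card_fin]
  have hqH : q ∣ Nat.card H := by
    have h : q ∣ Nat.card H * H.index := by rw [H.card_mul_index, hcardG]; exact Nat.dvd_factorial hq.pos le_rfl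
    exact (hq.dvd_mul.mp h).resolve_right (hH2 q hq hqπ)
  obtain ⟨c, hc⟩ := exists_prime_orderOf_dvd_card' (G := H) q hqH
  have htr := Lib.Perm.zpowers_pretransitive_of_prime (G := H) (Ω := Fin q) hΩ hc
  haveI : MulAction.IsPretransitive H (Fin q) := ⟨fun a b => by
    obtain ⟨⟨g, hg⟩, hgab⟩ := htr.exists_smul_eq a b
    exact ⟨g, hgab⟩⟩
  obtain ⟨e, he⟩ := Lib.Perm.exists_label_faithful (G := H) (Ω := Fin q) hΩ hc
  by_cases haff : ∀ g : H, Lib.Perm.IsAffineElt e g
  · have hnorm : normalizer ((zpowers c : Subgroup H) : Set H) = ⊤ := by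
      rw [normalizer_eq_top_iff]
      refine ⟨fun y hy g => ?_⟩
      obtain ⟨i, rfl⟩ := hy
      obtain ⟨a, b, hab⟩ := haff g
      have hgc : g * c * g⁻¹ = c ^ ((ZMod.val a : ℕ) : ℤ) := by
        refine eq_of_smul_eq_smul (α := Fin q) fun x => e.injective ?_
        obtain ⟨y, rfl⟩ : ∃ y, g • y = x := ⟨g⁻¹ • x, smul_inv_smul g x⟩
        rw [← mul_smul, inv_mul_cancel_right, mul_smul, hab, he.zpow, hab]
        have hcy : e (c • y) = e y + 1 := by
          have := he.zpow 1 y
          simpa using this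
        rw [hcy]
        simp
        ring
      show g * c ^ i * g⁻¹ ∈ zpowers c
      rw [← conj_zpow, hgc, ← zpow_mul]
      exact zpow_mem (mem_zpowers c) _
    have hd := Lib.Perm.card_normalizer_dvd_of_prime (G := H) (Ω := Fin q) hΩ hc
    rw [hnorm, card_top] at hd
    -- the `p`-part of `q!` is too large
    set v := (q - 1).factorization p with hv
    have hq1 : q - 1 ≠ 0 := by have := hq.two_le; omega
    have hbig : p ^ (v + 1) ∣ q.factorial := by
      rcases Nat.eq_zero_or_pos v with h0 | h0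
      · rw [h0, pow_one]; exact Nat.dvd_factorial hp.pos hpq.le
      · have h1 : p ^ v ∣ q - 1 := Nat.ordProj_dvd (q - 1) p
        have h2' : 2 ∣ q - 1 := by
          rcases hq.eq_two_or_odd with h | h
          · exfalso; have := hp.two_le; omega
          · omega
        have h3 : 2 * p ^ v ∣ q - 1 :=
          ((Nat.coprime_primes Nat.prime_two hp).mpr (Ne.symm hp2)).pow_right v |>.mul_dvd_of_dvd_of_dvd h2' h1
        have h4 := Nat.le_of_dvd (Nat.pos_of_ne_zero hq1) h3
        have h5 : 0 < p ^ v := pow_pos hp.pos v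
        have h6 : p ^ v * (2 * p ^ v) ∣ q.factorial := by
          have e : (2 * p ^ v).factorial = 2 * p ^ v * (2 * p ^ v - 1).factorial :=
            (Nat.mul_factorial_pred (by omega)).symm
          have h7 : p ^ v * (2 * p ^ v) ∣ (2 * p ^ v).factorial := by
            rw [e, mul_comm (p ^ v)]
            exact mul_dvd_mul_left _ (Nat.dvd_factorial h5 (by omega))
          exact h7.trans (Nat.factorial_dvd_factorial (by omega))
        refine dvd_trans ?_ h6
        refine dvd_trans (pow_dvd_pow p (show v + 1 ≤ v + v by omega)) ?_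
        rw [pow_add]
        exact mul_dvd_mul_left _ (dvd_mul_left _ _)
    have hcopp : (p ^ (v + 1)).Coprime H.index := (hp.coprime_iff_not_dvd.mpr (hH2 p hp hpπ)).pow_left _
    have h7 : p ^ (v + 1) ∣ Nat.card H := hcopp.dvd_of_dvd_mul_right (by rw [H.card_mul_index, hcardG]; exact hbig)
    have h8 : p ^ (v + 1) ∣ q - 1 :=
      ((Nat.coprime_primes hp hq).mpr hpq.ne).pow_left _ |>.dvd_of_dvd_mul_left (h7.trans hd)
    exact Nat.pow_succ_factorization_not_dvd hq1 hp h8
  · haveI := Lib.Perm.two_transitive he haff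
    have hq2 : 2 ≤ q := hq.two_le
    have ha : (⟨0, by omega⟩ : Fin q) ≠ ⟨1, by omega⟩ := by simp [Fin.ext_iff]
    obtain ⟨g, hg1, hg2⟩ := MulAction.is_two_pretransitive_iff.mp this ha ha.symm
    apply hodd
    refine dvd_trans ?_ (orderOf_dvd_natCard g)
    by_contra h
    have hfix : ∀ n : ℕ, g ^ (2 * n) • (⟨0, by omega⟩ : Fin q) = ⟨0, by omega⟩ := by
      intro n
      induction n with
      | zero => simp
      | succ n ih => rw [mul_add, mul_one, pow_add, mul_smul, pow_two, mul_smul, hg1, hg2, ih]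
    obtain ⟨m, hm⟩ := exists_pow_eq_self_of_coprime (n := 2) (x := g) (Nat.prime_two.coprime_iff_not_dvd.mpr h)
    rw [← pow_mul] at hm
    have h9 := hfix m
    rw [hm, hg1] at h9
    exact absurd (Fin.ext_iff.mp h9) (by norm_num)


/-- For a set of primes π the following are equivalent: every finite group has a Hall π-subgroup; in every finite group the maximal π-subgroups are pairwise conjugate; π contains at most one prime or contains every prime. -/
theorem result (π : Set ℕ) :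
    ((∀ (G : Type) [Group G] [Finite G], Cfsg.IsEPiGroup π G) ↔
      ((∀ p q : ℕ, p.Prime → q.Prime → p ∈ π → q ∈ π → p = q) ∨ ∀ p : ℕ, p.Prime → p ∈ π)) ∧
    ((∀ (G : Type) [Group G] [Finite G], Cfsg.IsDPiGroup π G) ↔
      ((∀ p q : ℕ, p.Prime → q.Prime → p ∈ π → q ∈ π → p = q) ∨ ∀ p : ℕ, p.Prime → p ∈ π)) := by
  have hneg : ¬ ((∀ p q : ℕ, p.Prime → q.Prime → p ∈ π → q ∈ π → p = q) ∨ ∀ p : ℕ, p.Prime → p ∈ π) →
      ∃ n : ℕ, ¬ Cfsg.IsEPiGroup π (Equiv.Perm (Fin n)) := by
    intro h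
    push_neg at h
    obtain ⟨⟨a, b, ha, hb, haπ, hbπ, hab⟩, r0, hr0, hr0π⟩ := h
    classical
    have hex : ∃ r, r.Prime ∧ r ∉ π := ⟨r0, hr0, hr0π⟩
    obtain ⟨hr, hrπ⟩ := Nat.find_spec hex
    set r := Nat.find hex with hrdef
    have hlt : ∀ s : ℕ, s.Prime → s < r → s ∈ π := fun s hs hsr => by
      have := Nat.find_min hex hsr
      tauto
    rcases lt_or_ge r 5 with h5 | h5
    swap
    · exact ⟨r + 1, not_epi_of_large hr h5 hrπ hlt⟩
    by_cases h2 : 2 ∈ π
    · have h3 : r = 3 := by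
        have := hr.two_le
        rcases Nat.lt_or_ge r 3 with h | h
        · exact absurd h2 (show r = 2 by omega ▸ hrπ)
        · rcases (show r = 3 ∨ r = 4 by omega) with h' | h'
          · exact h'
          · exact absurd (h' ▸ hr) (by norm_num)
      obtain ⟨q, hq, hqπ, hq2⟩ : ∃ q, q.Prime ∧ q ∈ π ∧ q ≠ 2 := by
        rcases eq_or_ne a 2 with h | h
        · exact ⟨b, hb, hbπ, fun h' => hab (h.trans h'.symm)⟩
        · exact ⟨a, ha, haπ, h⟩
      refine ⟨q, not_epi_of_two hq hr ?_ h2 hqπ hrπ⟩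
      have := hq.two_le
      omega
    · rcases Nat.lt_or_gt_of_ne hab with h | h
      · exact ⟨b, not_epi_of_odd ha hb h (fun e => h2 (e ▸ haπ)) h2 haπ hbπ⟩
      · exact ⟨a, not_epi_of_odd hb ha h (fun e => h2 (e ▸ hbπ)) h2 hbπ haπ⟩
  have hpos : ((∀ p q : ℕ, p.Prime → q.Prime → p ∈ π → q ∈ π → p = q) ∨ ∀ p : ℕ, p.Prime → p ∈ π) →
      ∀ (G : Type) [Group G] [Finite G], Cfsg.IsDPiGroup π G := by
    intro h G _ _ H K hH hK
    rcases h with h | h
    · by_cases hp : ∃ p : ℕ, p.Prime ∧ p ∈ π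
      · obtain ⟨p, hp, hpπ⟩ := hp
        haveI := Fact.mk hp
        have key : ∀ U : Subgroup G, Maximal (Cfsg.IsPiSubgroup π) U → ∃ P : Sylow p G, (P : Subgroup G) = U := by
          intro U hU
          have hUp : IsPGroup p U := IsPGroup.of_card (n := (Nat.card U).primeFactorsList.length)
            (Nat.eq_prime_pow_of_unique_prime_dvd Nat.card_pos.ne' fun {d} hd hdvd => h d p hd hp (hU.prop d hd hdvd) hpπ)
          obtain ⟨P, hP⟩ := hUp.exists_le_sylow
          refine ⟨P, (hU.eq_of_le (fun s hs hsd => ?_) hP).symm⟩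
          obtain ⟨m, hm⟩ := IsPGroup.iff_card.mp P.2
          rw [hm] at hsd
          exact (Nat.prime_dvd_prime_iff_eq hs hp).mp (hs.dvd_of_dvd_pow hsd) ▸ hpπ
        obtain ⟨P, rfl⟩ := key H hH
        obtain ⟨Q, rfl⟩ := key K hK
        obtain ⟨g, hg⟩ := MulAction.exists_smul_eq G P Q
        exact ⟨g, by rw [← hg]; rfl⟩
      · push_neg at hp
        have key : ∀ U : Subgroup G, Maximal (Cfsg.IsPiSubgroup π) U → U = ⊥ := fun U hU =>
          card_eq_one.mp (Nat.eq_one_iff_not_exists_prime_dvd.mpr fun q hq hd => hp q hq (hU.prop q hq hd))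
        exact ⟨1, by rw [key H hH, key K hK, Subgroup.map_bot]⟩
    · have key : ∀ U : Subgroup G, Maximal (Cfsg.IsPiSubgroup π) U → U = ⊤ := fun U hU =>
        hU.eq_of_le (fun q hq _ => h q hq) le_top
      refine ⟨1, ?_⟩
      rw [key H hH, key K hK, Subgroup.map_top_of_surjective _ (MulAut.conj (1 : G)).surjective]
  refine ⟨⟨fun h => ?_, fun h G _ _ => hall_of_dPi (hpos h G)⟩, ⟨fun h => ?_, hpos⟩⟩
  · by_contra hn
    obtain ⟨n, hn'⟩ := hneg hn
    exact hn' (h _)
  · by_contra hn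
    obtain ⟨n, hn'⟩ := hneg hn
    exact hn' (hall_of_dPi (h _))

end Cfsg.Agent.S3878
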