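import Cfsg.Statements.S3881
import Cfsg.Agent.Lib.Metacyclic.Basic

set_option autoImplicit false
open Cfsg

namespace Cfsg.Agent.S3881

open Cfsg.Agent.Lib.Metacyclic

lemma std_eq_tors {p n : ℕ} (hp : p.Prime) {i : ℕ} (hi : i ≤ n) (v : V p n) :
    v ∈ std (n - i) (n - i) ↔ (p : ZMod (p ^ n)) ^ i • v = 0 := by
  rw [mem_std, dvd_iff_mul_eq_zero hp (Nat.sub_le n i), dvd_iff_mul_eq_zero hp (Nat.sub_le n i),
    Nat.sub_sub_self hi, Prod.ext_iff]
  simp

/-- Let p be an odd prime and G a finite metacyclic p-group (G has a cyclic normal subgroup with cyclic quotient). Suppose G is non-abelian with |G'| = p^n. Then for 1 ≤ i ≤ n the number of elements of G whose conjugacy class has exactly p^i elements is |Z(G)| · (p^(2i) − p^(2i−2)). -/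
theorem result {G : Type*} [Group G] [Finite G] {p : ℕ} [Fact p.Prime] (hp : p ≠ 2) (hG : IsPGroup p G) (hmc : Cfsg.IsMetacyclic G) (n : ℕ) (hn : n ≠ 0) (hGn : Nat.card ↥(commutator G) = p ^ n) (i : ℕ) (hi : 1 ≤ i) (hin : i ≤ n) :
    Nat.card {g : G // (Subgroup.centralizer ({g} : Set G)).index = p ^ i} =
      Nat.card ↥(Subgroup.center G) * (p ^ (2 * i) - p ^ (2 * i - 2)) := by
  classical
  obtain ⟨D⟩ := exists_params hp hG hmc
  have hn' : D.n = n := Nat.pow_right_injective (Fact.out : p.Prime).two_le (D.card_commutator.symm.trans hGn)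
  subst hn'
  have hP : p.Prime := Fact.out
  haveI : NeZero (p ^ D.n) := ⟨pow_ne_zero _ hP.ne_zero⟩
  have hindex : ∀ g : G, (Subgroup.centralizer ({g} : Set G)).index =
      Nat.card (Submodule.span (ZMod (p ^ D.n)) {D.phi g}) := by
    intro g
    rw [D.centralizer_singleton]
    have h1 := (D.pre (perp (Submodule.span (ZMod (p ^ D.n)) {D.phi g}))).card_mul_index
    rw [D.card_pre, D.card_group, ← card_mul_card_perp hP (Submodule.span (ZMod (p ^ D.n)) {D.phi g}),
      mul_assoc, mul_comm (Nat.card (Submodule.span (ZMod (p ^ D.n)) {D.phi g}))] at h1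
    exact Nat.eq_of_mul_eq_mul_left Nat.card_pos (Nat.eq_of_mul_eq_mul_left Nat.card_pos h1)
  have hord : ∀ (v : V p D.n), Nat.card (Submodule.span (ZMod (p ^ D.n)) {v}) = addOrderOf v := by
    intro v
    rw [← Nat.card_zmultiples]
    refine Nat.card_congr (Equiv.subtypeEquivRight fun w => ?_)
    rw [Submodule.mem_span_singleton, AddSubgroup.mem_zmultiples_iff]
    constructor
    · rintro ⟨c, rfl⟩
      obtain ⟨k, rfl⟩ := ZMod.intCast_surjective c
      exact ⟨k, (Int.cast_smul_eq_zsmul _ _ _).symm⟩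
    · rintro ⟨k, rfl⟩
      exact ⟨k, Int.cast_smul_eq_zsmul _ _ _⟩
  obtain ⟨i, rfl⟩ : ∃ j, i = j + 1 := ⟨i - 1, by omega⟩
  let T : ℕ → Set (V p D.n) := fun k => (std (p := p) (n := D.n) (D.n - k) (D.n - k) : Set (V p D.n))
  have hiff : ∀ v : V p D.n, addOrderOf v = p ^ (i + 1) ↔ v ∈ T (i + 1) \ T i := by
    intro v
    simp only [T, Set.mem_diff, SetLike.mem_coe, std_eq_tors hP hin, std_eq_tors hP (by omega : i ≤ D.n)]
    have hk : ∀ k : ℕ, (p : ZMod (p ^ D.n)) ^ k • v = 0 ↔ addOrderOf v ∣ p ^ k := fun k => by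
      rw [addOrderOf_dvd_iff_nsmul_eq_zero, ← Nat.cast_pow, Nat.cast_smul_eq_nsmul]
    rw [hk, hk]
    constructor
    · intro h
      rw [h]
      exact ⟨dvd_rfl, fun h' => by have := (Nat.pow_dvd_pow_iff_le_right hP.one_lt).mp h'; omega⟩
    · rintro ⟨h1, h2⟩
      obtain ⟨k, hk1, hk2⟩ := (Nat.dvd_prime_pow hP).mp h1
      rw [hk2] at h2 ⊢
      have : ¬ k ≤ i := fun h => h2 (pow_dvd_pow p h)
      rw [show k = i + 1 by omega]
  have hcT : ∀ k ≤ D.n, (T k).ncard = p ^ (2 * k) := by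
    intro k hk
    rw [← Nat.card_coe_set_eq]
    show Nat.card (std (p := p) (n := D.n) (D.n - k) (D.n - k)) = _
    rw [card_std hP (Nat.sub_le _ _) (Nat.sub_le _ _), Nat.sub_sub_self hk, two_mul]
  have hsub : T i ⊆ T (i + 1) := fun v hv => by
    simp only [T, SetLike.mem_coe, mem_std] at hv ⊢
    exact ⟨(pow_dvd_pow _ (by omega)).trans hv.1, (pow_dvd_pow _ (by omega)).trans hv.2⟩
  have hcount : Nat.card {v : V p D.n // addOrderOf v = p ^ (i + 1)} = p ^ (2 * (i + 1)) - p ^ (2 * (i + 1) - 2) := by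
    rw [show 2 * (i + 1) - 2 = 2 * i by omega, ← hcT _ hin, ← hcT i (by omega),
      ← Set.ncard_sdiff hsub (Set.toFinite _), ← Nat.card_coe_set_eq]
    exact Nat.card_congr (Equiv.subtypeEquivRight hiff)
  rw [← hcount, Nat.card_congr (Equiv.subtypeEquivRight (fun g => by rw [hindex, hord]) :
    {g : G // (Subgroup.centralizer ({g} : Set G)).index = p ^ (i + 1)} ≃ {g : G // addOrderOf (D.phi g) = p ^ (i + 1)}),
    ← Nat.card_prod]
  choose s hs using D.phi_surjective
  refine Nat.card_congr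
    { toFun := fun g => (⟨(s (D.phi g.1))⁻¹ * g.1, (D.phi_eq_iff _ _).mp (hs _)⟩, ⟨D.phi g.1, g.2⟩)
      invFun := fun x => ⟨s x.2.1 * x.1.1, by rw [D.phi_mul_center _ x.1.2, hs]; exact x.2.2⟩
      left_inv := fun g => Subtype.ext (mul_inv_cancel_left _ _)
      right_inv := ?_ }
  rintro ⟨z, v⟩
  have h1 : D.phi (s v.1 * z.1) = v.1 := by rw [D.phi_mul_center _ z.2, hs]
  refine Prod.ext (Subtype.ext ?_) (Subtype.ext h1)
  show (s (D.phi (s v.1 * z.1)))⁻¹ * (s v.1 * z.1) = z.1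
  rw [h1, inv_mul_cancel_left]

end Cfsg.Agent.S3881
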