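import Cfsg.Statements.S3882
import Cfsg.Agent.Lib.Metacyclic.Basic

set_option autoImplicit false
open Cfsg

namespace Cfsg.Agent.S3882

open Cfsg.Agent.Lib.Metacyclic

lemma index_le_iff {G : Type*} [Group G] [Finite G] {p : ℕ} [Fact p.Prime] (D : Params G p) {s : ℕ} (hs : s ≤ D.n)
    (g : G) : (Subgroup.centralizer ({g} : Set G)).index ≤ p ^ (D.n - s) ↔ D.phi g ∈ std s s := by
  have hP : p.Prime := Fact.out
  haveI : NeZero (p ^ D.n) := ⟨pow_ne_zero _ hP.ne_zero⟩
  set M := Submodule.span (ZMod (p ^ D.n)) {D.phi g}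
  have h1 := (D.pre (perp M)).card_mul_index
  rw [D.card_pre, D.card_group, ← card_mul_card_perp hP M, mul_assoc, mul_comm (Nat.card M)] at h1
  have h2 : (D.pre (perp M)).index = Nat.card M :=
    Nat.eq_of_mul_eq_mul_left Nat.card_pos (Nat.eq_of_mul_eq_mul_left Nat.card_pos h1)
  have h3 : Nat.card M = addOrderOf (D.phi g) := by
    rw [← Nat.card_zmultiples]
    refine Nat.card_congr (Equiv.subtypeEquivRight fun w => ?_)
    rw [Submodule.mem_span_singleton, AddSubgroup.mem_zmultiples_iff]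
    constructor
    · rintro ⟨c, rfl⟩
      obtain ⟨k, rfl⟩ := ZMod.intCast_surjective c
      exact ⟨k, (Int.cast_smul_eq_zsmul _ _ _).symm⟩
    · rintro ⟨k, rfl⟩
      exact ⟨k, Int.cast_smul_eq_zsmul _ _ _⟩
  have h4 : ((p : ZMod (p ^ D.n)) ^ (D.n - s) • D.phi g = 0) ↔ addOrderOf (D.phi g) ∣ p ^ (D.n - s) := by
    rw [addOrderOf_dvd_iff_nsmul_eq_zero, ← Nat.cast_pow, Nat.cast_smul_eq_nsmul]
  obtain ⟨k, -, hk⟩ := (Nat.dvd_prime_pow hP).mp (show addOrderOf (D.phi g) ∣ p ^ D.n by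
    rw [addOrderOf_dvd_iff_nsmul_eq_zero, ← Nat.cast_smul_eq_nsmul (ZMod (p ^ D.n)), ZMod.natCast_self, zero_smul])
  rw [D.centralizer_singleton, h2, h3, mem_std, dvd_iff_mul_eq_zero hP hs, dvd_iff_mul_eq_zero hP hs]
  rw [show ((p : ZMod (p ^ D.n)) ^ (D.n - s) * (D.phi g).1 = 0 ∧ (p : ZMod (p ^ D.n)) ^ (D.n - s) * (D.phi g).2 = 0) ↔
    (p : ZMod (p ^ D.n)) ^ (D.n - s) • D.phi g = 0 from by simp [Prod.ext_iff], h4, hk,
    Nat.pow_le_pow_iff_right hP.one_lt, Nat.pow_dvd_pow_iff_le_right hP.one_lt]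

/-- Let p be an odd prime and G a finite metacyclic p-group (G has a cyclic normal subgroup with cyclic quotient). Suppose |G'| = p^n and 0 ≤ s ≤ n. Then an element g lies in the subgroup generated by the p^s-th powers if and only if its conjugacy class has at most p^(n−s) elements; in particular the subgroup generated by the p^n-th powers is the center of G. -/
theorem result {G : Type*} [Group G] [Finite G] {p : ℕ} [Fact p.Prime] (hp : p ≠ 2) (hG : IsPGroup p G) (hmc : Cfsg.IsMetacyclic G) (n : ℕ) (hGn : Nat.card ↥(commutator G) = p ^ n) (s : ℕ) (hs : s ≤ n) (g : G) :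
    (g ∈ Subgroup.closure {x : G | ∃ y : G, y ^ p ^ s = x} ↔ (Subgroup.centralizer ({g} : Set G)).index ≤ p ^ (n - s)) ∧
      Subgroup.closure {x : G | ∃ y : G, y ^ p ^ n = x} = Subgroup.center G := by
  obtain ⟨D⟩ := exists_params hp hG hmc
  have hn' : D.n = n := Nat.pow_right_injective (Fact.out : p.Prime).two_le (D.card_commutator.symm.trans hGn)
  subst hn'
  rw [index_le_iff D hs, D.closure_powers_eq hs, D.closure_powers_eq le_rfl]
  refine ⟨Iff.rfl, ?_⟩
  ext x
  rw [D.mem_pre, ← D.phi_eq_zero_iff, mem_std, ← Nat.cast_pow, ZMod.natCast_self, zero_dvd_iff, zero_dvd_iff, Prod.ext_iff]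
  rfl

end Cfsg.Agent.S3882
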