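import Cfsg.Statements.S3883
import Cfsg.Agent.Lib.Metacyclic.Basic

set_option autoImplicit false
open Cfsg

namespace Cfsg.Agent.S3883

open Cfsg.Agent.Lib.Metacyclic

lemma frattini_eq {G : Type*} [Group G] [Finite G] {p : ℕ} [Fact p.Prime] (D : Params G p) (hn : 1 ≤ D.n) :
    frattini G = D.pre (std 1 1) := by
  refine le_antisymm ?_ ((D.closure_powers_eq hn).ge.trans (D.closure_powers_le_frattini le_rfl))
  refine Cfsg.Agent.Lib.PGroupFrattini.frattini_le (Fact.out : p.Prime) _ ?_ ?_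
  · rw [D.commutator_eq, Subgroup.zpowers_le, D.mem_pre]
    have h : D.a ^ (D.r - 1) = D.a ^ (D.r - 1) * D.b ^ 0 := by simp
    rw [h, D.phi_form, mem_std, pow_one]
    refine ⟨?_, by simp [F_zero]⟩
    obtain ⟨t, ht⟩ := D.cong
    exact ⟨(t : ZMod (p ^ D.n)), by rw [ht]; push_cast; rfl⟩
  · intro x
    rw [← D.closure_powers_eq hn]
    exact Subgroup.subset_closure ⟨x, by rw [pow_one]⟩

/-- Let p be an odd prime and G a finite metacyclic p-group (G has a cyclic normal subgroup with cyclic quotient). Suppose G is non-abelian. Then an element g of G lies outside the Frattini subgroup if and only if its centralizer C_G(g) is abelian. -/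
theorem result {G : Type*} [Group G] [Finite G] {p : ℕ} [Fact p.Prime] (hp : p ≠ 2) (hG : IsPGroup p G) (hmc : Cfsg.IsMetacyclic G) (hna : ¬ IsMulCommutative G) (g : G) :
    g ∉ frattini G ↔ IsMulCommutative ↥(Subgroup.centralizer ({g} : Set G)) := by
  obtain ⟨D⟩ := exists_params hp hG hmc
  have hP : p.Prime := Fact.out
  have hn : 1 ≤ D.n := by
    by_contra h
    have h0 : (Subgroup.center G).index = 1 := by rw [D.index_center, show D.n = 0 by omega]; simp
    rw [Subgroup.index_eq_one] at h0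
    exact hna ⟨⟨fun x y => ((Subgroup.mem_center_iff.mp (h0 ▸ Subgroup.mem_top x : x ∈ Subgroup.center G)) y).symm⟩⟩
  haveI : NeZero (p ^ D.n) := ⟨pow_ne_zero _ hP.ne_zero⟩
  rw [frattini_eq D hn, D.mem_pre, D.isMulCommutative_iff, D.centralizer_singleton, D.img_pre, le_perp_iff hP]
  set M := Submodule.span (ZMod (p ^ D.n)) {D.phi g} with hM
  have h1 := card_mul_card_perp hP M
  have hord : Nat.card M = addOrderOf (D.phi g) := by
    rw [← Nat.card_zmultiples]
    refine Nat.card_congr (Equiv.subtypeEquivRight fun w => ?_)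
    rw [hM, Submodule.mem_span_singleton, AddSubgroup.mem_zmultiples_iff]
    constructor
    · rintro ⟨c, rfl⟩
      obtain ⟨k, rfl⟩ := ZMod.intCast_surjective c
      exact ⟨k, (Int.cast_smul_eq_zsmul _ _ _).symm⟩
    · rintro ⟨k, rfl⟩
      exact ⟨k, Int.cast_smul_eq_zsmul _ _ _⟩
  obtain ⟨k, hkn, hk⟩ := (Nat.dvd_prime_pow hP).mp (show addOrderOf (D.phi g) ∣ p ^ D.n by
    rw [addOrderOf_dvd_iff_nsmul_eq_zero, ← Nat.cast_smul_eq_nsmul (ZMod (p ^ D.n)), ZMod.natCast_self, zero_smul])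
  have hstd : D.phi g ∈ std 1 1 ↔ addOrderOf (D.phi g) ∣ p ^ (D.n - 1) := by
    rw [mem_std, dvd_iff_mul_eq_zero hP hn, dvd_iff_mul_eq_zero hP hn, addOrderOf_dvd_iff_nsmul_eq_zero,
      ← Nat.cast_smul_eq_nsmul (ZMod (p ^ D.n)), Prod.ext_iff]
    simp
  rw [hord, hk] at h1
  rw [hstd, hk, Nat.pow_dvd_pow_iff_le_right hP.one_lt]
  constructor
  · intro h
    have hkn' : k = D.n := by omega
    rw [hkn', two_mul, pow_add] at h1
    exact (Nat.eq_of_mul_eq_mul_left (pow_pos hP.pos _) h1).le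
  · intro h hk'
    have h5 : p ^ k < p ^ D.n := Nat.pow_lt_pow_right hP.one_lt (by omega)
    have := Nat.mul_lt_mul_of_lt_of_le h5 h (pow_pos hP.pos _)
    rw [h1, two_mul, pow_add] at this
    exact this.false

end Cfsg.Agent.S3883
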