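import Cfsg.Statements.S3884
import Cfsg.Agent.Lib.Metacyclic.Basic

set_option autoImplicit false
open Cfsg

namespace Cfsg.Agent.S3884

open Cfsg.Agent.Lib.Metacyclic
open Subgroup

variable {G : Type*} [Group G] [Finite G] {p : ℕ} [hp : Fact p.Prime] (D : Params G p)

omit [Finite G] hp in
lemma form_pow (u : ℤ) (t k : ℕ) :
    (D.a ^ u * D.b ^ t) ^ k = D.a ^ (u * F (D.r ^ t) k) * D.b ^ (t * k) := by
  induction k with
  | zero => simp [F_zero]
  | succ k ih =>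
    rw [pow_succ', ih, D.mul_form, F_succ]
    congr 1
    · congr 1; ring
    · congr 1; ring

omit [Finite G] hp in
lemma pow_mem_iff (i : ℤ) (j : ℕ) : D.a ^ i * D.b ^ j ∈ zpowers D.a ↔ D.b ^ j ∈ zpowers D.a :=
  (zpowers D.a).mul_mem_cancel_left (zpow_mem (mem_zpowers D.a) i)

include hp D in
lemma exists_factor : ∃ A B : Subgroup G, IsCyclic ↥A ∧ IsCyclic ↥B ∧ A ⊓ B = ⊥ ∧
    Nat.card ↥A * Nat.card ↥B = Nat.card G := by
  have hP : p.Prime := hp.out
  haveI hn : (zpowers D.a).Normal := by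
    refine ⟨fun x hx g => ?_⟩
    obtain ⟨k, rfl⟩ := mem_zpowers_iff.mp hx
    refine mem_zpowers_iff.mpr ⟨D.r ^ D.ej g * k, ?_⟩
    conv_rhs => rw [D.eq_form g]
    rw [mul_inv_rev, mul_assoc (D.a ^ D.ei g), D.conj_pow]
    group
  obtain ⟨e, he⟩ := D.isPGroup.index (zpowers D.a)
  obtain ⟨m, hm⟩ := IsPGroup.iff_orderOf.mp D.isPGroup D.a
  have hcardG : Nat.card G = p ^ m * p ^ e := by
    rw [← (zpowers D.a).card_mul_index, Nat.card_zpowers, hm, he]
  have hmem : ∀ l : ℕ, D.b ^ l ∈ zpowers D.a → p ^ e ∣ l := fun l h => he ▸ D.mem_zpowers l h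
  -- the relation `b^(p^e) = a^(p^γ w)`
  obtain ⟨γ, w, hγ, hw, hrel⟩ : ∃ γ w : ℕ, γ ≤ m ∧ ¬ p ∣ w ∧ D.b ^ (p ^ e) = D.a ^ (p ^ γ * w) := by
    obtain ⟨c, hc : D.a ^ c = D.b ^ (p ^ e)⟩ := mem_powers_iff_mem_zpowers.mpr (he ▸ (zpowers D.a).pow_index_mem D.b)
    by_cases h0 : D.a ^ c = 1
    · exact ⟨m, 1, le_rfl, hP.not_dvd_one, by rw [mul_one, ← hm, pow_orderOf_eq_one, ← hc, h0]⟩
    · have hc0 : c ≠ 0 := by rintro rfl; exact h0 (pow_zero _)
      obtain ⟨γ, w, hw, rfl⟩ := Nat.exists_eq_pow_mul_and_not_dvd hc0 p hP.ne_one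
      refine ⟨γ, w, ?_, hw, hc.symm⟩
      by_contra hlt
      apply h0
      rw [← orderOf_dvd_iff_pow_eq_one, hm]
      exact (pow_dvd_pow p (by omega)).mul_right w
  by_cases hge : e ≤ γ
  · -- adjust `b`
    obtain ⟨u, hu⟩ := (pow_dvd_F_iff hP D.odd e D.cong (p ^ e)).mpr dvd_rfl
    have hup : ¬ (p : ℤ) ∣ u := by
      rintro ⟨v, rfl⟩
      have := (pow_dvd_F_iff hP D.odd (e + 1) D.cong (p ^ e)).mp ⟨v, by rw [hu, pow_succ]; ring⟩
      rw [Nat.pow_dvd_pow_iff_le_right hP.one_lt] at this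
      omega
    obtain ⟨α, β, hαβ⟩ := (((Nat.prime_iff_prime_int (p := p)).mp hP).coprime_iff_not_dvd.mpr hup).symm.pow_right (n := m)
    set i : ℤ := -((p : ℤ) ^ (γ - e) * w) * α with hi
    set x := D.a ^ i * D.b ^ 1 with hx
    have hxe : x ^ p ^ e = 1 := by
      rw [hx, form_pow, one_mul, hrel, pow_one, ← zpow_natCast, ← zpow_add, ← orderOf_dvd_iff_zpow_eq_one, hm, hu]
      refine ⟨(p : ℤ) ^ γ * w * β, ?_⟩
      push_cast
      rw [hi, show (p : ℤ) ^ γ = (p : ℤ) ^ (γ - e) * (p : ℤ) ^ e by rw [← pow_add, Nat.sub_add_cancel hge]]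
      linear_combination -((p : ℤ) ^ (γ - e) * (p : ℤ) ^ e * w) * hαβ
    have hxmem : ∀ k : ℕ, x ^ k ∈ zpowers D.a → p ^ e ∣ k := fun k h => by
      rw [hx, form_pow, one_mul, pow_mem_iff] at h
      exact hmem k h
    have hord : orderOf x = p ^ e := by
      refine Nat.dvd_antisymm (orderOf_dvd_of_pow_eq_one hxe) (hxmem _ ?_)
      rw [pow_orderOf_eq_one]; exact one_mem _
    refine ⟨zpowers D.a, zpowers x, inferInstance, inferInstance, ?_, ?_⟩
    · rw [eq_bot_iff]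
      rintro y ⟨hy1, hy2⟩
      obtain ⟨k, rfl⟩ := mem_powers_iff_mem_zpowers.mpr hy2
      obtain ⟨k', rfl⟩ := hxmem k hy1
      show x ^ (p ^ e * k') ∈ (⊥ : Subgroup G)
      rw [mem_bot, pow_mul, hxe, one_pow]
    · rw [Nat.card_zpowers, Nat.card_zpowers, hm, hord, hcardG]
  · -- complement to `⟨b⟩`
    rw [not_le] at hge
    set T := p ^ (e - γ) with hT
    have hdiv : ∀ t : ℕ, ∃ U : ℤ, F (D.r ^ (T * t)) (p ^ γ) = (p : ℤ) ^ γ * U := fun t =>
      (pow_dvd_F_iff hP D.odd γ (pow_sub_one_dvd D.cong _) (p ^ γ)).mpr dvd_rfl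
    choose U hU using hdiv
    set M := p ^ (m - γ) with hM
    haveI : NeZero M := ⟨pow_ne_zero _ hP.ne_zero⟩
    let h : Fin M → ZMod M := fun t => ((U t + (w : ℤ) * t : ℤ) : ZMod M)
    have hinj : Function.Injective h := by
      intro t₁ t₂ he'
      simp only [h, ZMod.intCast_eq_intCast_iff_dvd_sub, M, Nat.cast_pow] at he'
      have key : ∀ k, k ≤ m - γ → (p : ℤ) ^ k ∣ ((t₂ : ℕ) : ℤ) - ((t₁ : ℕ) : ℤ) := by
        intro k
        induction k with
        | zero => simp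
        | succ k ih =>
          intro hk
          have hd := ih (by omega)
          have hs : (p : ℤ) ^ (k + 1) ∣ D.r ^ (T * (t₂ : ℕ)) - D.r ^ (T * (t₁ : ℕ)) := by
            have hsplit : ∀ a b : ℕ, a ≤ b → (p : ℤ) ^ k ∣ ((b : ℕ) : ℤ) - (a : ℤ) →
                (p : ℤ) ^ (k + 1) ∣ D.r ^ (T * b) - D.r ^ (T * a) := by
              intro a b hab hd'
              obtain ⟨d, rfl⟩ := Nat.exists_eq_add_of_le hab
              rw [Nat.cast_add, add_sub_cancel_left, ← Nat.cast_pow, Int.natCast_dvd_natCast,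
                ← pow_dvd_F_iff hP D.odd k (pow_sub_one_dvd D.cong T)] at hd'
              rw [mul_add, pow_add D.r, show D.r ^ (T * a) * D.r ^ (T * d) - D.r ^ (T * a) =
                D.r ^ (T * a) * ((D.r ^ T - 1) * F (D.r ^ T) d) by rw [sub_one_mul_F, ← pow_mul]; ring, pow_succ']
              exact dvd_mul_of_dvd_right (mul_dvd_mul (pow_sub_one_dvd D.cong T) hd') _
            rcases le_total (t₁ : ℕ) t₂ with hle | hle
            · exact hsplit _ _ hle hd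
            · exact dvd_sub_comm.mp (hsplit _ _ hle (dvd_sub_comm.mp hd))
          have hF := (mul_dvd_mul_left ((p : ℤ) ^ γ) hs).trans
            (dvd_F_sub_F hP D.odd γ (pow_sub_one_dvd D.cong _) (pow_sub_one_dvd D.cong _))
          rw [hU, hU, ← mul_sub, mul_dvd_mul_iff_left (pow_ne_zero _ (by exact_mod_cast hP.ne_zero))] at hF
          have h1 := dvd_sub ((pow_dvd_pow (p : ℤ) hk).trans he') hF
          rw [show (U t₂ + (w : ℤ) * (t₂ : ℕ) - (U t₁ + (w : ℤ) * (t₁ : ℕ))) - (U t₂ - U t₁) =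
            (w : ℤ) * (((t₂ : ℕ) : ℤ) - ((t₁ : ℕ) : ℤ)) by ring] at h1
          exact (IsCoprime.pow_left (((Nat.prime_iff_prime_int (p := p)).mp hP).coprime_iff_not_dvd.mpr
            (by rwa [Int.natCast_dvd_natCast]))).dvd_of_dvd_mul_left h1
      have h2 := key _ le_rfl
      apply Fin.ext
      have h3 : (t₁ : ℕ) ≡ (t₂ : ℕ) [MOD M] := by
        rw [Nat.modEq_iff_dvd]; simp only [M, Nat.cast_pow]; exact h2
      exact h3.eq_of_lt_of_lt t₁.2 t₂.2
    obtain ⟨⟨t, htM⟩, ht⟩ := (hinj.bijective_of_nat_card_le (by simp)).2 0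
    simp only [h, ZMod.intCast_zmod_eq_zero_iff_dvd, M, Nat.cast_pow] at ht
    set x := D.a ^ (1 : ℤ) * D.b ^ (T * t) with hx
    have hTγ : T * t * p ^ γ = p ^ e * t := by
      rw [hT, mul_right_comm, ← pow_add, Nat.sub_add_cancel hge.le]
    have hxγ : x ^ p ^ γ = 1 := by
      rw [hx, form_pow, one_mul, hTγ, pow_mul D.b, hrel, ← pow_mul D.a, ← zpow_natCast D.a, ← zpow_add,
        ← orderOf_dvd_iff_zpow_eq_one, hm, hU]
      push_cast
      rw [show (p : ℤ) ^ γ * U t + (p : ℤ) ^ γ * w * t = (p : ℤ) ^ γ * (U t + (w : ℤ) * t) by ring,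
        show (p : ℤ) ^ m = (p : ℤ) ^ γ * (p : ℤ) ^ (m - γ) by rw [← pow_add, Nat.add_sub_cancel' hγ]]
      exact mul_dvd_mul_left _ ht
    have hxmem : ∀ k : ℕ, x ^ k ∈ zpowers D.b → p ^ γ ∣ k := fun k h => by
      rw [hx, form_pow, one_mul, (zpowers D.b).mul_mem_cancel_right (pow_mem (mem_zpowers D.b) _)] at h
      obtain ⟨l, hl : D.b ^ l = _⟩ := mem_powers_iff_mem_zpowers.mpr h
      obtain ⟨l', rfl⟩ := hmem l (hl ▸ zpow_mem (mem_zpowers D.a) _)
      rw [pow_mul D.b, hrel, ← pow_mul D.a, ← zpow_natCast D.a, zpow_eq_zpow_iff_modEq, hm, Int.modEq_iff_dvd] at hl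
      push_cast at hl
      rw [← pow_dvd_F_iff hP D.odd γ (pow_sub_one_dvd D.cong (T * t)) k]
      have := dvd_add ((pow_dvd_pow (p : ℤ) hγ).trans hl) (dvd_mul_of_dvd_left (dvd_mul_right ((p : ℤ) ^ γ) w) (l' : ℤ))
      simpa using this
    have hordx : orderOf x = p ^ γ := by
      refine Nat.dvd_antisymm (orderOf_dvd_of_pow_eq_one hxγ) (hxmem _ ?_)
      rw [pow_orderOf_eq_one]; exact one_mem _
    have hpe : p ^ e ∣ orderOf D.b := hmem _ (by rw [pow_orderOf_eq_one]; exact one_mem _)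
    have hordb : orderOf D.b = p ^ e * p ^ (m - γ) := by
      have h1 : orderOf (D.b ^ p ^ e) = orderOf D.b / p ^ e := orderOf_pow_of_dvd (pow_ne_zero _ hP.ne_zero) hpe
      have hcop : Nat.Coprime (p ^ m) w := Nat.Coprime.pow_left _ (hP.coprime_iff_not_dvd.mpr hw)
      have h2 : orderOf (D.b ^ p ^ e) = p ^ (m - γ) := by
        rw [hrel, orderOf_pow, hm, Nat.Coprime.gcd_mul_right_cancel_right _ hcop.symm,
          Nat.gcd_eq_right (pow_dvd_pow p hγ), Nat.pow_div hγ hP.pos]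
      rw [← h2, h1, Nat.mul_div_cancel' hpe]
    refine ⟨zpowers x, zpowers D.b, inferInstance, inferInstance, ?_, ?_⟩
    · rw [eq_bot_iff]
      rintro y ⟨hy1, hy2⟩
      obtain ⟨k, rfl⟩ := mem_powers_iff_mem_zpowers.mpr hy1
      obtain ⟨k', rfl⟩ := hxmem k hy2
      show x ^ (p ^ γ * k') ∈ (⊥ : Subgroup G)
      rw [mem_bot, pow_mul, hxγ, one_pow]
    · rw [Nat.card_zpowers, Nat.card_zpowers, hordx, hordb, hcardG, mul_comm (p ^ e), ← mul_assoc, ← pow_add,
        Nat.add_sub_cancel' hγ]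

/-- Let p be an odd prime and G a finite metacyclic p-group (G has a cyclic normal subgroup with cyclic quotient). Then G is the product of two cyclic subgroups with trivial intersection: there are cyclic subgroups A and B with A ∩ B = 1 and |A| · |B| = |G|. -/
theorem result {G : Type*} [Group G] [Finite G] {p : ℕ} [Fact p.Prime] (hp : p ≠ 2) (hG : IsPGroup p G) (hmc : Cfsg.IsMetacyclic G) : ∃ A B : Subgroup G, IsCyclic ↥A ∧ IsCyclic ↥B ∧ A ⊓ B = ⊥ ∧ Nat.card ↥A * Nat.card ↥B = Nat.card G := by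
  obtain ⟨D⟩ := exists_params hp hG hmc
  exact exists_factor D

end Cfsg.Agent.S3884
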