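import Cfsg.Statements.S3885
import Cfsg.Agent.Lib.Metacyclic.Basic

set_option autoImplicit false
open Cfsg

namespace Cfsg.Agent.S3885

open Cfsg.Agent.Lib.Metacyclic

/-- Let p be an odd prime and G a finite metacyclic p-group (G has a cyclic normal subgroup with cyclic quotient). Then every abelian subgroup K of G containing the center of G is the center of its own centralizer: K = Z(C_G(K)). -/
theorem result {G : Type*} [Group G] [Finite G] {p : ℕ} [Fact p.Prime] (hp : p ≠ 2) (hG : IsPGroup p G) (hmc : Cfsg.IsMetacyclic G) (K : Subgroup G) (hK : IsMulCommutative ↥K) (hZ : Subgroup.center G ≤ K) :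
    K = Subgroup.centralizer (K : Set G) ⊓ Subgroup.centralizer (Subgroup.centralizer (K : Set G) : Set G) := by
  obtain ⟨D⟩ := exists_params hp hG hmc
  have hiso := (D.isMulCommutative_iff K).mp hK
  conv_lhs => rw [← D.pre_img hZ]
  rw [D.centralizer_eq K, D.centralizer_eq (D.pre (perp (D.img K))), D.img_pre, perp_perp Fact.out]
  ext x
  rw [Subgroup.mem_inf, D.mem_pre, D.mem_pre]
  exact ⟨fun h => ⟨hiso h, h⟩, fun h => h.2⟩

end Cfsg.Agent.S3885
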