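import Cfsg.Statements.S3886
import Cfsg.Agent.Lib.Metacyclic.Basic

set_option autoImplicit false
open Cfsg

namespace Cfsg.Agent.S3886

open Cfsg.Agent.Lib.Metacyclic

lemma center_card {G : Type*} [Group G] [Finite G] (R : Subgroup G) :
    Nat.card ↥(Subgroup.center ↥R) = Nat.card ↥(R ⊓ Subgroup.centralizer (R : Set G)) := by
  refine Nat.card_congr
    { toFun := fun x => ⟨x.1.1, x.1.2, Subgroup.mem_centralizer_iff.mpr fun y hy =>
        congrArg Subtype.val (Subgroup.mem_center_iff.mp x.2 ⟨y, hy⟩)⟩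
      invFun := fun x => ⟨⟨x.1, x.2.1⟩, Subgroup.mem_center_iff.mpr fun y =>
        Subtype.ext (Subgroup.mem_centralizer_iff.mp x.2.2 y y.2)⟩
      left_inv := fun _ => rfl
      right_inv := fun _ => rfl }

/-- Let p be an odd prime and G a finite metacyclic p-group (G has a cyclic normal subgroup with cyclic quotient). Then the largest value of |R| · |Z(R)| over subgroups R of G is |G : G'|², and the subgroups attaining it (the centrally large subgroups) are exactly the non-abelian subgroups together with the maximal abelian subgroups of G. -/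
theorem result {G : Type*} [Group G] [Finite G] {p : ℕ} [Fact p.Prime] (hp : p ≠ 2) (hG : IsPGroup p G) (hmc : Cfsg.IsMetacyclic G) : Cfsg.maxCentralProduct G = (commutator G).index ^ 2 ∧
    ∀ R : Subgroup G, Cfsg.IsCentrallyLarge R ↔ (¬ IsMulCommutative ↥R ∨ Maximal (fun K : Subgroup G => IsMulCommutative ↥K) R) := by
  obtain ⟨D⟩ := exists_params hp hG hmc
  have hP : p.Prime := Fact.out
  rw [D.index_commutator]
  set A := Nat.card ↥(Subgroup.center G) * p ^ D.n with hA
  have habel : ∀ R : Subgroup G, IsMulCommutative ↥R →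
      Nat.card ↥R * Nat.card ↥(Subgroup.center ↥R) = Nat.card ↥R ^ 2 ∧ Nat.card ↥R ≤ A := by
    intro R hR
    refine ⟨?_, (D.isMulCommutative_iff_card R).mp hR⟩
    rw [center_card, inf_eq_left.mpr, sq]
    intro x hx
    exact Subgroup.mem_centralizer_iff.mpr fun y hy => congrArg Subtype.val (hR.1.1 ⟨y, hy⟩ ⟨x, hx⟩)
  have hnab : ∀ R : Subgroup G, ¬ IsMulCommutative ↥R →
      Nat.card ↥R * Nat.card ↥(Subgroup.center ↥R) = A ^ 2 := by
    intro R hR
    have hZ := D.center_le_of_not_comm hR
    have hle := perp_le hP (fun h => hR ((D.isMulCommutative_iff R).mpr h))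
    have hsub : D.pre (perp (D.img R)) ≤ R := by
      intro x hx
      rw [← D.pre_img hZ]
      exact hle hx
    rw [center_card, D.centralizer_eq, inf_eq_right.mpr hsub, D.card_pre, D.card_subgroup,
      inf_eq_right.mpr hZ, hA, mul_mul_mul_comm, card_mul_card_perp hP, mul_pow, ← pow_mul, mul_comm D.n, sq]
  obtain ⟨M', -, hM'⟩ := exists_ge_card_eq hP (M := (⊥ : Submodule (ZMod (p ^ D.n)) (V p D.n))) bot_le
  have hmaxab : IsMulCommutative ↥(D.pre M') ∧ Nat.card ↥(D.pre M') = A := by
    have h : Nat.card ↥(D.pre M') = A := by rw [D.card_pre, hM']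
    exact ⟨(D.isMulCommutative_iff_card _).mpr h.le, h⟩
  have hmax : Cfsg.maxCentralProduct G = A ^ 2 := by
    refine IsGreatest.csSup_eq ⟨⟨D.pre M', ?_⟩, ?_⟩
    · rw [(habel _ hmaxab.1).1, hmaxab.2]
    · rintro k ⟨R, rfl⟩
      by_cases hR : IsMulCommutative ↥R
      · rw [(habel R hR).1]; exact Nat.pow_le_pow_left (habel R hR).2 2
      · exact (hnab R hR).le
  refine ⟨hmax, fun R => ?_⟩
  unfold Cfsg.IsCentrallyLarge
  rw [hmax, D.maximal_abelian_iff, ← hA]
  by_cases hR : IsMulCommutative ↥R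
  · rw [(habel R hR).1]
    refine ⟨fun h => Or.inr (Nat.pow_left_injective two_ne_zero h), ?_⟩
    rintro (h | h)
    · exact absurd hR h
    · rw [h]
  · exact ⟨fun _ => Or.inl hR, fun _ => hnab R hR⟩

end Cfsg.Agent.S3886
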