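import Cfsg.Statements.S3887
import Cfsg.Agent.Lib.Metacyclic.Basic

set_option autoImplicit false
open Cfsg

namespace Cfsg.Agent.S3887

open Cfsg.Agent.Lib.Metacyclic

/-- Let p be an odd prime and G a finite metacyclic p-group (G has a cyclic normal subgroup with cyclic quotient). Then a subgroup R of G maximizes |R| · |C_G(R)| over all subgroups of G if and only if R contains the center of G. -/
theorem result {G : Type*} [Group G] [Finite G] {p : ℕ} [Fact p.Prime] (hp : p ≠ 2) (hG : IsPGroup p G) (hmc : Cfsg.IsMetacyclic G) (R : Subgroup G) : Cfsg.IsCentralizerLarge R ↔ Subgroup.center G ≤ R := by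
  obtain ⟨D⟩ := exists_params hp hG hmc
  have hP : p.Prime := Fact.out
  set A := Nat.card ↥(Subgroup.center G) * Nat.card ↥(Subgroup.center G) * p ^ (2 * D.n) with hA
  have hval : ∀ R : Subgroup G, Nat.card ↥R * Nat.card ↥(Subgroup.centralizer (R : Set G)) =
      Nat.card ↥(R ⊓ Subgroup.center G) * Nat.card ↥(Subgroup.center G) * p ^ (2 * D.n) := by
    intro R
    rw [D.centralizer_eq, D.card_pre, D.card_subgroup, mul_mul_mul_comm, card_mul_card_perp hP]
  have hmax : Cfsg.maxCentralizerProduct G = A := by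
    refine IsGreatest.csSup_eq ⟨⟨Subgroup.center G, ?_⟩, ?_⟩
    · rw [hval, inf_idem]
    · rintro k ⟨R, rfl⟩
      rw [hval]
      exact Nat.mul_le_mul_right _ (Nat.mul_le_mul_right _ (Subgroup.card_le_of_le inf_le_right))
  unfold Cfsg.IsCentralizerLarge
  rw [hmax, hval, hA]
  constructor
  · intro h
    have h2 := Nat.eq_of_mul_eq_mul_right Nat.card_pos (Nat.eq_of_mul_eq_mul_right (pow_pos hP.pos _) h)
    exact inf_eq_right.mp (Subgroup.eq_of_le_of_card_ge inf_le_right h2.ge)
  · intro h
    rw [inf_eq_right.mpr h]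

end Cfsg.Agent.S3887
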