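import Cfsg.Statements.S3888
import Cfsg.Agent.Lib.PGroupRankTwo.HuppertCriterion
import Cfsg.Agent.S0112
import Cfsg.Agent.Lib.Thompson.Elementary
import Mathlib

set_option autoImplicit false
open Cfsg

namespace Cfsg.Agent.S3888

open Subgroup
open Cfsg.Agent.Lib.Thompson (mul_pow_class_two pow_choose_two_eq_one exists_central_order_p card_mul_p_le
  isElementaryAbelian_sup isElementaryAbelian_zpowers commute_of_elementary exists_elemAbelian_normal
  normal_of_index_prime normal_of_le_center isMetacyclic_of_omega_le)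

universe u

theorem iterate {G : Type u} [Group G] {x d t u z : G} (hd : x⁻¹ * d * x = d * t) (ht : x⁻¹ * t * x = t * u)
    (hu : x⁻¹ * u * x = u * z) (hz : x⁻¹ * z * x = z) (htu : Commute t u) (huz : Commute u z) (i : ℕ) :
    (x ^ i)⁻¹ * d * x ^ i = d * t ^ i * u ^ i.choose 2 * z ^ i.choose 3 := by
  have conj_mul : ∀ a b : G, x⁻¹ * (a * b) * x = (x⁻¹ * a * x) * (x⁻¹ * b * x) := fun a b => by group
  have conj_pw : ∀ (a : G) (k : ℕ), x⁻¹ * a ^ k * x = (x⁻¹ * a * x) ^ k := fun a k => by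
    simpa using (conj_pow (i := k) (a := x⁻¹) (b := a)).symm
  induction i with
  | zero => simp
  | succ i ih =>
    have e2 : (i + 1).choose 2 = i + i.choose 2 := by rw [Nat.choose_succ_succ', Nat.choose_one_right]
    have e3 : (i + 1).choose 3 = i.choose 2 + i.choose 3 := Nat.choose_succ_succ' i 2
    calc (x ^ (i + 1))⁻¹ * d * x ^ (i + 1) = x⁻¹ * ((x ^ i)⁻¹ * d * x ^ i) * x := by
          rw [pow_succ]; group
      _ = d * t * (t * u) ^ i * (u * z) ^ i.choose 2 * z ^ i.choose 3 := by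
          rw [ih, conj_mul, conj_mul, conj_mul, conj_pw, conj_pw, conj_pw, hd, ht, hu, hz]
      _ = d * t ^ (i + 1) * u ^ (i + 1).choose 2 * z ^ (i + 1).choose 3 := by
          rw [e2, e3, htu.mul_pow, huz.mul_pow, pow_succ', pow_add, pow_add]
          simp only [mul_assoc]

/-- In a `p`-group with `Ω₁` central (`p` odd), elements with equal `p`-th powers differ by an element of `Ω₁`. -/
theorem pcentral {G : Type u} [Group G] [Finite G] {p : ℕ} [Fact p.Prime] (hp2 : p ≠ 2) (hG : IsPGroup p G)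
    {C U : Subgroup G} (hU : ∀ c ∈ C, c ^ p = 1 → c ∈ U) (hUc : ∀ u ∈ U, ∀ c ∈ C, Commute u c)
    (hUp : ∀ u ∈ U, u ^ p = 1) {a b : G} (ha : a ∈ C) (hb : b ∈ C) (hab : a ^ p = b ^ p) : a⁻¹ * b ∈ U := by
  suffices key : ∀ (m : ℕ) (a b : G), a ∈ C → b ∈ C → Nat.card (closure ({a, b} : Set G)) = m →
      a ^ p = b ^ p → a⁻¹ * b ∈ U from key _ a b ha hb rfl hab
  intro m
  induction m using Nat.strong_induction_on with
  | _ m ih =>
  intro a b ha hb hm hab
  by_cases hc : Commute a b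
  · exact hU _ (C.mul_mem (C.inv_mem ha) hb) (by rw [hc.inv_left.mul_pow, inv_pow, hab, inv_mul_cancel])
  set H := closure ({a, b} : Set G) with hH
  have haH : a ∈ H := Subgroup.subset_closure (by simp)
  have hbH : b ∈ H := Subgroup.subset_closure (by simp)
  have hne : zpowers (⟨a, haH⟩ : H) ≠ ⊤ := by
    intro h
    obtain ⟨i, hi⟩ := mem_zpowers_iff.mp (h ▸ mem_top (⟨b, hbH⟩ : H))
    have hi' : a ^ i = b := by simpa using congrArg Subtype.val hi
    exact hc (hi' ▸ (Commute.refl a).zpow_right i)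
  obtain ⟨M, hM, hle⟩ := (eq_top_or_exists_le_coatom _).resolve_left hne
  haveI : Group.IsNilpotent H := (hG.to_subgroup H).isNilpotent
  have hMn : M.Normal := Subgroup.NormalizerCondition.normal_of_coatom M normalizerCondition_of_isNilpotent hM
  have haM : (⟨a, haH⟩ : H) ∈ M := hle (mem_zpowers _)
  have hcM : (⟨b * a * b⁻¹, H.mul_mem (H.mul_mem hbH haH) (H.inv_mem hbH)⟩ : H) ∈ M :=
    hMn.conj_mem _ haM ⟨b, hbH⟩
  have hlt : Nat.card (closure ({a, b * a * b⁻¹} : Set G)) < m := by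
    have h1 : closure ({a, b * a * b⁻¹} : Set G) ≤ M.map H.subtype := (closure_le _).mpr (by
      rintro g (rfl | rfl)
      exacts [⟨_, haM, rfl⟩, ⟨_, hcM, rfl⟩])
    refine (card_le_of_le h1).trans_lt ?_
    rw [card_map_of_injective H.subtype_injective, ← hm]
    exact lt_of_le_of_ne (card_le_card_group M) fun h => hM.1 (eq_top_of_card_eq _ h)
  have hconj : (b * a * b⁻¹) ^ p = a ^ p := by
    rw [conj_pow, hab, ← pow_succ', pow_succ, mul_inv_cancel_right]
  have hk := ih _ hlt a (b * a * b⁻¹) ha (C.mul_mem (C.mul_mem hb ha) (C.inv_mem hb)) rfl hconj.symm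
  set z := (a⁻¹ * (b * a * b⁻¹))⁻¹ with hz
  have hzU : z ∈ U := U.inv_mem hk
  have hz' : z = a * b * a⁻¹ * b⁻¹ :=
    calc z = a * z * a⁻¹ := by rw [← (hUc z hzU a ha).eq, mul_inv_cancel_right]
      _ = a * b * a⁻¹ * b⁻¹ := by rw [hz]; group
  have h : b * a⁻¹ = a⁻¹ * b * z := by
    rw [mul_assoc, ← (hUc z hzU b hb).eq, hz']; group
  refine hU _ (C.mul_mem (C.inv_mem ha) hb) ?_
  rw [mul_pow_class_two h (hUc z hzU a ha).inv_right (hUc z hzU b hb),
    pow_choose_two_eq_one hp2 (hUp z hzU), inv_pow, hab, inv_mul_cancel, one_mul]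

theorem prime_gen {G : Type u} [Group G] [Finite G] {p : ℕ} [Fact p.Prime] {a b : G} (ha : a ≠ 1)
    (hb : b ^ p = 1) (hab : a ∈ zpowers b) : b ∈ zpowers a := by
  by_cases hb1 : b = 1
  · subst hb1; exact one_mem _
  have hap : a ^ p = 1 := by
    obtain ⟨i, rfl⟩ := mem_zpowers_iff.mp hab
    rw [← zpow_natCast, ← zpow_mul, mul_comm, zpow_mul, zpow_natCast, hb, one_zpow]
  have h : zpowers a = zpowers b := eq_of_le_of_card_ge (zpowers_le.mpr hab) (by
    rw [Nat.card_zpowers, Nat.card_zpowers, orderOf_eq_prime hb hb1, orderOf_eq_prime hap ha])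
  exact h ▸ mem_zpowers b

theorem maxClass_of_card_sq {G : Type u} [Group G] [Finite G] {p : ℕ} [Fact p.Prime] {n : ℕ}
    (hG : Nat.card G = p ^ n) (A : Subgroup G) (hA : Nat.card A = p ^ 2)
    (hC : centralizer (A : Set G) = A) : 2 ≤ n ∧ (⊤ : Subgroup G).lowerCentralSeries (n - 2) ≠ ⊥ := by
  have hn : 2 ≤ n := by
    have := card_le_card_group A
    rw [hA, hG] at this
    exact (Nat.pow_le_pow_iff_right (Fact.out : p.Prime).one_lt).mp this
  haveI : Group.IsNilpotent G := (IsPGroup.of_card hG).isNilpotent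
  refine ⟨hn, fun h => ?_⟩
  have h' := Subgroup.lowerCentralSeries_eq_bot_iff_nilpotencyClass_le.mp h
  rw [Cfsg.Agent.S0112.result n hG A hA hC] at h'
  omega

/-- The classification of the p-groups of rank at most two for odd p. Let p be an odd prime and G a group of order p^n with no elementary abelian subgroup of order p³. Then one of the following holds: G is metacyclic; n ≥ 3 and G is generated by elements x, y, z with x^p = y^p = z^(p^(n−2)) = 1, z commuting with x and y, and x⁻¹yx = y z^(p^(n−3)); n ≥ 4 and G is generated by elements x, y, z with x^p = y^p = z^(p^(n−2)) = 1, yz = zy, x⁻¹yx = y z^(s p^(n−3)) and x⁻¹zx = yz, where s = 1 or s is a quadratic non-residue modulo p; or p = 3 and G has maximal class (nilpotency class n − 1). -/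
theorem result {G : Type*} [Group G] [Finite G] {p : ℕ} [Fact p.Prime] (hp : p ≠ 2) (n : ℕ) (hG : Nat.card G = p ^ n)
    (hrk : Cfsg.PRankLE p 2 G) :
    Cfsg.IsMetacyclic G ∨
    (3 ≤ n ∧ ∃ x y z : G, Subgroup.closure ({x, y, z} : Set G) = ⊤ ∧ x ^ p = 1 ∧ y ^ p = 1 ∧ z ^ p ^ (n - 2) = 1 ∧
        x * z = z * x ∧ y * z = z * y ∧ x⁻¹ * y * x = y * z ^ p ^ (n - 3)) ∨
    (4 ≤ n ∧ ∃ (s : ℕ) (x y z : G), (s = 1 ∨ ¬ IsSquare (s : ZMod p)) ∧ Subgroup.closure ({x, y, z} : Set G) = ⊤ ∧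
        x ^ p = 1 ∧ y ^ p = 1 ∧ z ^ p ^ (n - 2) = 1 ∧ y * z = z * y ∧ x⁻¹ * y * x = y * z ^ (s * p ^ (n - 3)) ∧
        x⁻¹ * z * x = y * z) ∨
    (p = 3 ∧ 2 ≤ n ∧ (⊤ : Subgroup G).lowerCentralSeries (n - 2) ≠ ⊥) := by
  classical
  have hpp : p.Prime := Fact.out
  have hPG : IsPGroup p G := IsPGroup.of_card hG
  by_cases hcyc : IsCyclic G
  · refine Or.inl ⟨⊤, inferInstance, isCyclic_of_injective (⊤ : Subgroup G).subtype (subtype_injective _),
      isCyclic_of_surjective (QuotientGroup.mk' (⊤ : Subgroup G)) (QuotientGroup.mk'_surjective _)⟩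
  have hnc : ¬ IsCyclic (⊤ : Subgroup G) := fun h =>
    hcyc (isCyclic_of_surjective topEquiv topEquiv.surjective)
  obtain ⟨U, -, hUn, hUe, hUcard⟩ := exists_elemAbelian_normal hp hPG ⊤ hnc
  haveI := hUn
  have hUp : ∀ u ∈ U, u ^ p = 1 := hUe.2
  set C := centralizer (U : Set G) with hC
  have hUc : ∀ u ∈ U, ∀ c ∈ C, Commute u c := fun u hu c hc => mem_centralizer_iff.mp hc u hu
  have hUC : U ≤ C := fun u hu => mem_centralizer_iff.mpr fun v hv => commute_of_elementary hUe hv hu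
  have hOm : ∀ c ∈ C, c ^ p = 1 → c ∈ U := by
    intro c hc hcp
    have hE := isElementaryAbelian_sup hUe (isElementaryAbelian_zpowers (p := p) hcp) fun a ha b hb => by
      obtain ⟨i, rfl⟩ := mem_zpowers_iff.mp hb
      exact ((hUc a ha c hc).zpow_right i).eq
    have h2 := hrk _ hE.1 hE.2
    rw [← hUcard] at h2
    rw [eq_of_le_of_card_ge le_sup_left h2]
    exact mem_sup_right (mem_zpowers c)
  have hpc : ∀ {a b : G}, a ∈ C → b ∈ C → a ^ p = b ^ p → a⁻¹ * b ∈ U := fun ha hb hab =>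
    pcentral hp hPG hOm hUc hUp ha hb hab
  set L := Subgroup.closure {y : G | ∃ x : G, y = x ^ p} with hL
  set S : Set G := (fun c => c ^ p) '' (C : Set G) with hS
  have hSL : S ⊆ (L : Set G) := by
    rintro _ ⟨c, -, rfl⟩
    exact Subgroup.subset_closure ⟨c, rfl⟩
  have hCS : Nat.card C ≤ Nat.card S * p ^ 2 := by
    have hs : ∀ y : S, ∃ c ∈ C, c ^ p = (y : G) := fun y => y.2
    choose s hsC hsp using hs
    let f : C → S × U := fun c =>
      (⟨(c : G) ^ p, c, c.2, rfl⟩, ⟨(s ⟨(c : G) ^ p, c, c.2, rfl⟩)⁻¹ * c, hpc (hsC _) c.2 (hsp _)⟩)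
    have hf : Function.Injective f := by
      intro a b h
      have h1 : (⟨(a : G) ^ p, a, a.2, rfl⟩ : S) = ⟨(b : G) ^ p, b, b.2, rfl⟩ := congrArg Prod.fst h
      have h2 : (s ⟨(a : G) ^ p, a, a.2, rfl⟩)⁻¹ * (a : G) = (s ⟨(b : G) ^ p, b, b.2, rfl⟩)⁻¹ * (b : G) :=
        congrArg (fun w : S × U => (w.2 : G)) h
      rw [h1] at h2
      exact Subtype.ext (mul_left_cancel h2)
    have := Nat.card_le_card_of_injective f hf
    rwa [Nat.card_prod, hUcard] at this
  obtain ⟨a, hLa⟩ := IsPGroup.iff_card.mp (hPG.to_subgroup L)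
  obtain ⟨b, hLb⟩ := hPG.index L
  have hab : a + b = n := by
    have := L.card_mul_index
    rw [hLa, hLb, ← pow_add, hG] at this
    exact Nat.pow_right_injective hpp.two_le this
  by_cases hCtop : C = ⊤
  · refine Or.inl (Lib.PGroupRankTwo.isMetacyclic_of_pow_index_le hp hPG ?_)
    have h1 : p ^ n ≤ p ^ (a + 2) := by
      rw [pow_add, ← hLa, ← hG, ← card_top, ← hCtop]
      exact hCS.trans (Nat.mul_le_mul_right _ (Nat.card_mono (Set.toFinite _) hSL))
    have := (Nat.pow_le_pow_iff_right hpp.one_lt).mp h1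
    rw [hLb]
    exact Nat.pow_le_pow_right hpp.pos (by omega)
  have hidx : C.index = p := by
    have hle : C.index ≤ p := by
      obtain ⟨U', hU', -, -, hU'c, -, hi⟩ := Lib.Uniq.exists_small_pair (P := (⊤ : Subgroup G))
        (hPG.to_subgroup ⊤) le_top (by rw [Subgroup.normalizer_eq_top]) hUe (by
          rw [hUcard, pow_two]; exact lt_mul_of_one_lt_left hpp.pos hpp.one_lt)
      rw [eq_of_le_of_card_ge hU' (by rw [hUcard, hU'c]), relIndex_top_right] at hi
      exact hi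
    obtain ⟨k, hk⟩ := hPG.index C
    have hk0 : k ≠ 0 := fun h => hCtop (index_eq_one.mp (by rw [hk, h, pow_zero]))
    exact le_antisymm hle (hk ▸ Nat.le_self_pow hk0 p)
  haveI hCn : C.Normal := normal_of_index_prime hPG hidx
  have hQcard : Nat.card (G ⧸ C) = p := by rw [← index_eq_card, hidx]
  have hpowC : ∀ g : G, g ^ p ∈ C := fun g => by
    rw [← QuotientGroup.eq_one_iff, QuotientGroup.mk_pow, ← hQcard, pow_card_eq_one']
  have hdec : ∀ x ∉ C, ∀ g : G, ∃ i : ℤ, ∃ c ∈ C, g = x ^ i * c := by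
    intro x hx g
    have hx' : (x : G ⧸ C) ≠ 1 := fun h => hx ((QuotientGroup.eq_one_iff x).mp h)
    obtain ⟨i, hi⟩ := mem_zpowers_iff.mp (mem_zpowers_of_prime_card (g' := (g : G ⧸ C)) hQcard hx')
    rw [← QuotientGroup.mk_zpow, QuotientGroup.eq] at hi
    exact ⟨i, _, hi, by rw [mul_inv_cancel_left]⟩
  have hdiv : ∀ x ∉ C, ∀ i : ℤ, x ^ i ∈ C → (p : ℤ) ∣ i := by
    intro x hx i hi
    have hx' : (x : G ⧸ C) ≠ 1 := fun h => hx ((QuotientGroup.eq_one_iff x).mp h)
    have h1 : (x : G ⧸ C) ^ p = 1 := by rw [← QuotientGroup.mk_pow, QuotientGroup.eq_one_iff]; exact hpowC x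
    rw [← orderOf_eq_prime h1 hx', orderOf_dvd_iff_zpow_eq_one, ← QuotientGroup.mk_zpow,
      QuotientGroup.eq_one_iff]
    exact hi
  have hfixline : ∀ x ∉ C, ∀ z ∈ U, z ≠ 1 → Commute z x → ∀ v ∈ U, Commute v x → v ∈ zpowers z := by
    intro x hx z hzU hz1 hzx v hvU hvx
    set F := U ⊓ centralizer ({x} : Set G) with hF
    have hzF : z ∈ F := ⟨hzU, mem_centralizer_singleton_iff.mpr hzx.eq⟩
    have hFU : F < U := by
      refine lt_of_le_of_ne inf_le_left fun h => hx (mem_centralizer_iff.mpr fun u hu => ?_)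
      exact mem_centralizer_singleton_iff.mp ((h ▸ (hu : u ∈ U) : u ∈ F).2)
    have h1 := card_mul_p_le hPG hFU
    rw [hUcard, pow_two] at h1
    have h : zpowers z = F := eq_of_le_of_card_ge (zpowers_le.mpr hzF) (by
      rw [Nat.card_zpowers, orderOf_eq_prime (hUp z hzU) hz1]
      exact Nat.le_of_mul_le_mul_left h1 hpp.pos)
    exact h ▸ ⟨hvU, mem_centralizer_singleton_iff.mpr hvx.eq⟩
  by_cases hex : ∃ x, x ∉ C ∧ x ^ p = 1
  swap
  · -- no element of order `p` outside `C`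
    push Not at hex
    have hall : ∀ x : G, x ^ p = 1 → x ∈ U := fun x hx =>
      hOm x (by_contra fun h => hex x h hx) hx
    by_cases hp3 : 3 < p
    · refine Or.inl (isMetacyclic_of_omega_le hp3 hPG ?_)
      rw [← hUcard]
      exact card_le_of_le ((closure_le _).mpr fun x hx => hall x hx.2)
    have hp3 : p = 3 := by have := hpp.two_le; omega
    by_cases hS' : ∃ x, x ∉ C ∧ x ^ p ∉ S
    · obtain ⟨x, -, hxS⟩ := hS'
      refine Or.inl (Lib.PGroupRankTwo.isMetacyclic_of_pow_index_le hp hPG ?_)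
      have hlt : Nat.card S < Nat.card L := by
        rw [Nat.card_coe_set_eq, ← SetLike.coe_sort_coe, Nat.card_coe_set_eq]
        exact Set.ncard_lt_ncard ⟨hSL, fun h => hxS (h (Subgroup.subset_closure ⟨x, rfl⟩))⟩
      have h1 : p ^ n < p ^ (a + 3) := by
        calc p ^ n = Nat.card C * p := by rw [← hG, ← C.card_mul_index, hidx]
          _ ≤ Nat.card S * p ^ 2 * p := Nat.mul_le_mul_right _ hCS
          _ < p ^ a * p ^ 2 * p := by
              rw [← hLa]
              exact Nat.mul_lt_mul_of_pos_right (Nat.mul_lt_mul_of_pos_right hlt (pow_pos hpp.pos _)) hpp.pos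
          _ = p ^ (a + 3) := by ring
      have := (Nat.pow_lt_pow_iff_right hpp.one_lt).mp h1
      rw [hLb]
      exact Nat.pow_le_pow_right hpp.pos (by omega)
    push Not at hS'
    obtain ⟨x, -, hx⟩ := SetLike.exists_of_lt (lt_top_iff_ne_top.mpr hCtop)
    obtain ⟨c, hc, hcx⟩ := hS' x hx
    replace hcx : c ^ p = x ^ p := hcx
    have hc1 : x⁻¹ * c * x ∈ C := by simpa using hCn.conj_mem c hc x⁻¹
    set u := c⁻¹ * (x⁻¹ * c * x) with hu_def
    have hu : u ∈ U := hpc hc hc1 (by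
      have : (x⁻¹ * c * x⁻¹⁻¹) ^ p = x⁻¹ * c ^ p * x⁻¹⁻¹ := conj_pow
      rw [inv_inv] at this
      rw [this, hcx, mul_assoc, ← pow_succ, pow_succ', inv_mul_cancel_left])
    set u' := x⁻¹ * u * x with hu'_def
    have hu' : u' ∈ U := by simpa using hUn.conj_mem u hu x⁻¹
    set v := (u * u')⁻¹ with hv_def
    have hv : v ∈ U := U.inv_mem (U.mul_mem hu hu')
    set y := x * c⁻¹ with hy_def
    have hy : y ∉ C := fun h => hx (by
      have := C.mul_mem h hc
      rwa [hy_def, inv_mul_cancel_right] at this)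
    have hyU : y ^ p ∈ U := by
      have e1 : x⁻¹ * c * x = c * u := by rw [hu_def, mul_inv_cancel_left]
      have h1 : c ^ 3 * v = v * c ^ 3 := ((hUc v hv c hc).pow_right 3).eq.symm
      have h2 : c ^ 2 * u⁻¹ = u⁻¹ * c ^ 2 := ((hUc _ (U.inv_mem hu) c hc).pow_right 2).eq.symm
      have h3 : c ^ 3 = x ^ 3 := by rw [← hp3]; exact hcx
      have : y ^ 3 = v * u⁻¹ :=
        calc y ^ 3 = x ^ 3 * (x⁻¹ * (x⁻¹ * c * x) * x)⁻¹ * (x⁻¹ * c * x)⁻¹ * c⁻¹ := by
              simp only [hy_def, pow_succ, pow_zero, one_mul]; group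
          _ = c ^ 3 * (c * u * u')⁻¹ * (c * u)⁻¹ * c⁻¹ := by
              rw [e1, h3, show x⁻¹ * (c * u) * x = (x⁻¹ * c * x) * u' by rw [hu'_def]; group, e1]
          _ = (c ^ 3 * v) * c⁻¹ * u⁻¹ * c⁻¹ * c⁻¹ := by rw [hv_def]; group
          _ = v * (c ^ 2 * u⁻¹) * c⁻¹ * c⁻¹ := by rw [h1]; group
          _ = v * u⁻¹ := by rw [h2]; group
      rw [hp3, this]
      exact U.mul_mem hv (U.inv_mem hu)
    have hy1 : y ^ p ≠ 1 := hex y hy
    have hy9 : (y ^ p) ^ p = 1 := hUp _ hyU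
    have hline := hfixline y hy _ hyU hy1 ((Commute.refl y).pow_left p)
    have hcent : ∀ (k : ℕ) (v : G), v ∈ C → Commute v y → v ^ p ^ k = 1 → v ∈ zpowers (y ^ p) := by
      intro k
      induction k with
      | zero => intro v _ _ h; rw [pow_zero, pow_one] at h; rw [h]; exact one_mem _
      | succ k ih =>
        intro v hv hvy h
        have h1 := ih (v ^ p) (C.pow_mem hv p) (hvy.pow_left p) (by rw [← pow_mul, ← pow_succ', h])
        obtain ⟨i, hi⟩ := mem_zpowers_iff.mp h1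
        by_cases hpi : (p : ℤ) ∣ i
        · obtain ⟨j, rfl⟩ := hpi
          rw [zpow_mul, zpow_natCast, hy9, one_zpow] at hi
          exact hline v (hOm v hv hi.symm) hvy
        · exfalso
          refine hex (v * y ^ (-i)) (fun hm => hpi ?_) ?_
          · have := hdiv y hy (-i) ((C.mul_mem_cancel_left hv).mp hm)
            rwa [dvd_neg] at this
          · rw [(hvy.zpow_right (-i)).mul_pow, ← hi, ← zpow_natCast, ← zpow_natCast (y ^ (-i)), ← zpow_mul,
              ← zpow_mul, ← zpow_add, show (p : ℤ) * i + -i * (p : ℤ) = 0 by ring, zpow_zero]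
    refine Or.inr (Or.inr (Or.inr ⟨hp3, maxClass_of_card_sq hG (zpowers y) ?_ ?_⟩))
    · rw [Nat.card_zpowers]
      exact orderOf_eq_prime_pow (by rwa [pow_one]) (by rwa [pow_two, pow_mul])
    · refine le_antisymm (fun g hg => ?_) ?_
      · have hgy : Commute y g := mem_centralizer_iff.mp hg y (mem_zpowers y)
        obtain ⟨i, c', hc', rfl⟩ := hdec y hy g
        have hcy : Commute c' y := by
          have h := ((Commute.refl y).zpow_right (-i)).mul_right hgy
          rw [← mul_assoc, ← zpow_add, neg_add_cancel, zpow_zero, one_mul] at h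
          exact h.symm
        obtain ⟨k, hk⟩ := hPG c'
        exact mul_mem (zpow_mem (mem_zpowers y) i)
          ((zpowers_le.mpr (pow_mem (mem_zpowers y) p)) (hcent k c' hc' hcy hk))
      · intro g hg
        refine mem_centralizer_iff.mpr fun h hh => ?_
        obtain ⟨i, rfl⟩ := mem_zpowers_iff.mp hg
        obtain ⟨j, rfl⟩ := mem_zpowers_iff.mp hh
        exact ((Commute.refl y).zpow_zpow j i).eq
  -- an element of order `p` outside `C`
  obtain ⟨x, hx, hxp⟩ := hex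
  obtain ⟨z0, hz0U, hz0c, hz0o⟩ := exists_central_order_p hPG (N := U) (fun h => by
    rw [h, card_bot] at hUcard
    exact (Nat.one_lt_pow two_ne_zero hpp.one_lt).ne hUcard)
  have hz01 : z0 ≠ 1 := fun h => hpp.ne_one (by rw [← hz0o, h, orderOf_one])
  have hzc : ∀ g : G, Commute z0 g := fun g => (mem_center_iff.mp hz0c g).symm
  set Z0 := zpowers z0 with hZ0
  have hZU : Z0 ≤ U := zpowers_le.mpr hz0U
  haveI hZn : Z0.Normal := normal_of_le_center (zpowers_le.mpr hz0c)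
  have hZcard : Nat.card Z0 = p := by rw [hZ0, Nat.card_zpowers, hz0o]
  have hZcomm : ∀ v ∈ Z0, ∀ g : G, Commute v g := by
    intro v hv g
    obtain ⟨i, rfl⟩ := mem_zpowers_iff.mp hv
    exact (hzc g).zpow_left i
  have hZC : Z0 ≤ C := hZU.trans hUC
  let δ : G → G := fun a => a⁻¹ * (x⁻¹ * a * x)
  have hδ : ∀ a, x⁻¹ * a * x = a * δ a := fun a => (mul_inv_cancel_left a _).symm
  have hδ1 : ∀ a, δ a = 1 ↔ Commute a x := fun a =>
    ⟨fun h => by
      have h' := hδ a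
      rw [h, mul_one, mul_assoc, inv_mul_eq_iff_eq_mul] at h'
      exact h',
     fun h => by show a⁻¹ * (x⁻¹ * a * x) = 1; rw [mul_assoc x⁻¹, h.eq]; group⟩
  have hfix : ∀ v ∈ U, δ v = 1 → v ∈ Z0 := fun v hv h =>
    hfixline x hx z0 hz0U hz01 (hzc x) v hv ((hδ1 v).mp h)
  have hδZ : ∀ v ∈ Z0, δ v = 1 := fun v hv => (hδ1 v).mpr (hZcomm v hv x)
  have hδU : ∀ v ∈ U, δ v ∈ Z0 := by
    intro v hv
    let π := QuotientGroup.mk' Z0
    haveI : (U.map π).Normal := hUn.map _ (QuotientGroup.mk'_surjective Z0)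
    have hc := Lib.Coprime.card_map_mul_card_inf_ker π U
    rw [QuotientGroup.ker_mk', inf_eq_right.mpr hZU, hZcard, hUcard, pow_two] at hc
    have hcard : Nat.card (U.map π) = p := Nat.eq_of_mul_eq_mul_right hpp.pos hc
    obtain ⟨zb, hzb, hzbc, hzbo⟩ := exists_central_order_p (hPG.to_quotient Z0) (N := U.map π) (fun h => by
      rw [h, card_bot] at hcard
      exact hpp.ne_one hcard.symm)
    have heq : zpowers zb = U.map π := eq_of_le_of_card_ge (zpowers_le.mpr hzb)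
      (by rw [Nat.card_zpowers, hzbo, hcard])
    have hcent : π v ∈ center (G ⧸ Z0) := by
      have h := mem_map_of_mem π hv
      rw [← heq] at h
      exact (zpowers_le.mpr hzbc) h
    refine (QuotientGroup.eq_one_iff (δ v)).mp ?_
    show π (v⁻¹ * (x⁻¹ * v * x)) = 1
    simp only [map_mul, map_inv]
    rw [mul_assoc (π x)⁻¹, ← mem_center_iff.mp hcent (π x), inv_mul_cancel_left, inv_mul_cancel]
  let T : Subgroup G :=
    { carrier := {a | a ∈ C ∧ δ a ∈ U}
      one_mem' := ⟨one_mem C, by simp [δ]⟩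
      mul_mem' := by
        rintro a b ⟨ha, ha'⟩ ⟨hb, hb'⟩
        refine ⟨C.mul_mem ha hb, ?_⟩
        have e : δ (a * b) = b⁻¹ * δ a * b * δ b := by simp only [δ]; group
        rw [e, mul_assoc b⁻¹, (hUc _ ha' b hb).eq, inv_mul_cancel_left]
        exact U.mul_mem ha' hb'
      inv_mem' := by
        rintro a ⟨ha, ha'⟩
        refine ⟨C.inv_mem ha, ?_⟩
        have e : δ a⁻¹ = a * (δ a)⁻¹ * a⁻¹ := by simp only [δ]; group
        rw [e]
        exact hUn.conj_mem _ (U.inv_mem ha') a }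
  have hTC : T ≤ C := fun a ha => ha.1
  have hUT : U ≤ T := fun v hv => ⟨hUC hv, hZU (hδU v hv)⟩
  have hδmul : ∀ a ∈ T, ∀ b ∈ T, δ (a * b) = δ a * δ b := by
    intro a ha b hb
    have e : δ (a * b) = b⁻¹ * δ a * b * δ b := by simp only [δ]; group
    rw [e, mul_assoc b⁻¹, (hUc _ ha.2 b hb.1).eq, inv_mul_cancel_left]
  let f : T →* G := MonoidHom.mk' (fun a => δ a) fun a b => hδmul a a.2 b b.2
  have hδz : ∀ a ∈ T, ∀ i : ℤ, δ (a ^ i) = δ a ^ i := fun a ha i => by
    have := map_zpow f ⟨a, ha⟩ i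
    simpa [f] using this
  have hδn : ∀ a ∈ T, ∀ i : ℕ, δ (a ^ i) = δ a ^ i := fun a ha i => by
    have := map_pow f ⟨a, ha⟩ i
    simpa [f] using this
  -- the fixed points
  set K := C ⊓ centralizer ({x} : Set G) with hKdef
  have hK : ∀ a, a ∈ K ↔ a ∈ C ∧ δ a = 1 := fun a => by
    rw [hKdef, mem_inf, mem_centralizer_singleton_iff, hδ1]
    rfl
  obtain ⟨⟨w, hwK⟩, hwmax⟩ := Finite.exists_max (fun v : K => orderOf (v : G))
  have hz0K : z0 ∈ K := (hK z0).mpr ⟨hUC hz0U, hδZ _ (mem_zpowers z0)⟩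
  have hKT : K ≤ T := fun a ha => ⟨((hK a).mp ha).1, by rw [((hK a).mp ha).2]; exact one_mem U⟩
  have hwpow : ∀ m : ℕ, w ^ p ^ m = 1 → ∀ i : ℤ, ¬ (p : ℤ) ∣ i → w ∈ zpowers (w ^ i) := by
    intro m hm i hi
    have hcop : IsCoprime ((p : ℤ) ^ m) i :=
      ((Nat.prime_iff_prime_int.mp hpp).coprime_iff_not_dvd.mpr hi).pow_left
    obtain ⟨r, s, hrs⟩ := hcop
    refine mem_zpowers_iff.mpr ⟨s, ?_⟩
    have h1 : w ^ ((p : ℤ) ^ m) = 1 := by rw [← Nat.cast_pow, zpow_natCast, hm]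
    rw [← zpow_mul, show i * s = 1 + (p : ℤ) ^ m * (-r) by linear_combination hrs, zpow_add, zpow_mul, h1,
      one_zpow, mul_one, zpow_one]
  obtain ⟨mw, hmw⟩ := hPG w
  have hz0w : z0 ∈ zpowers w := by
    have h2 : p ≤ orderOf w := hz0o ▸ hwmax ⟨z0, hz0K⟩
    have hdvd : p ∣ orderOf w := hPG.dvd_orderOf fun h => by
      rw [h, orderOf_one] at h2
      exact absurd h2 hpp.one_lt.not_ge
    set e := w ^ (orderOf w / p) with he
    have heo : orderOf e = p := orderOf_pow_orderOf_div (orderOf_pos w).ne' hdvd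
    have heK : e ∈ K := K.pow_mem hwK _
    have hep : e ^ p = 1 := by rw [← heo]; exact pow_orderOf_eq_one e
    have heZ : e ∈ Z0 := hfix e (hOm e ((hK e).mp heK).1 hep) ((hK e).mp heK).2
    have he1 : e ≠ 1 := fun h => hpp.ne_one (by rw [← heo, h, orderOf_one])
    exact (zpowers_le.mpr (pow_mem (mem_zpowers w) _))
      (prime_gen (p := p) he1 (hUp z0 hz0U) heZ)
  have hKw : ∀ (k : ℕ) (v : G), v ∈ K → v ^ p ^ k = 1 → v ∈ zpowers w := by
    intro k
    induction k with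
    | zero => intro v _ h; rw [pow_zero, pow_one] at h; rw [h]; exact one_mem _
    | succ k ih =>
      intro v hv h
      obtain ⟨i, hi⟩ := mem_zpowers_iff.mp (ih (v ^ p) (K.pow_mem hv p) (by rw [← pow_mul, ← pow_succ', h]))
      by_cases hpi : (p : ℤ) ∣ i
      · obtain ⟨j, rfl⟩ := hpi
        rw [mul_comm, zpow_mul, zpow_natCast] at hi
        have hjK : w ^ j ∈ K := K.zpow_mem hwK j
        have h1 := hpc ((hK _).mp hjK).1 ((hK v).mp hv).1 hi
        have h2 := (zpowers_le.mpr hz0w) (hfix _ h1 ((hK _).mp (K.mul_mem (K.inv_mem hjK) hv)).2)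
        have := mul_mem (zpow_mem (mem_zpowers w) j) h2
        rwa [mul_inv_cancel_left] at this
      · have hwv : w ∈ zpowers v :=
          (zpowers_le.mpr (pow_mem (mem_zpowers v) p)) (hi ▸ hwpow mw hmw i hpi)
        have heq : zpowers w = zpowers v := eq_of_le_of_card_ge (zpowers_le.mpr hwv) (by
          rw [Nat.card_zpowers, Nat.card_zpowers]; exact hwmax ⟨v, hv⟩)
        exact heq ▸ mem_zpowers v
  have hKw' : K ≤ zpowers w := fun v hv => by
    obtain ⟨k, hk⟩ := hPG v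
    exact hKw k v hv hk
  obtain ⟨u1, hu1, hu1Z⟩ := SetLike.exists_of_lt (lt_of_le_of_ne hZU fun h => by
    rw [h, hUcard, pow_two] at hZcard
    exact absurd hZcard (lt_mul_of_one_lt_left hpp.pos hpp.one_lt).ne')
  have hu1d : δ u1 ≠ 1 := fun h => hu1Z (hfix u1 hu1 h)
  have hZgen : ∀ v ∈ Z0, ∃ i : ℤ, v = δ u1 ^ i := by
    intro v hv
    have h := (zpowers_le.mpr (prime_gen (p := p) hu1d (hUp z0 hz0U) (hδU u1 hu1))) hv
    obtain ⟨i, hi⟩ := mem_zpowers_iff.mp h
    exact ⟨i, hi.symm⟩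
  have hgenU : ∀ y ∈ U, y ∉ Z0 → ∀ v ∈ U, ∃ i : ℤ, ∃ r ∈ Z0, v = y ^ i * r := by
    intro y hy hyZ v hv
    have hle : zpowers y ⊔ Z0 ≤ U := sup_le (zpowers_le.mpr hy) hZU
    have hlt : Z0 < zpowers y ⊔ Z0 :=
      lt_of_le_of_ne le_sup_right fun h => hyZ (h ▸ mem_sup_left (mem_zpowers y))
    have h1 := card_mul_p_le hPG hlt
    rw [hZcard, ← pow_two, ← hUcard] at h1
    have heq := eq_of_le_of_card_ge hle h1
    have hv' : v ∈ ((zpowers y ⊔ Z0 : Subgroup G) : Set G) := by rw [heq]; exact hv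
    rw [mul_normal] at hv'
    obtain ⟨q, hq, r, hr, rfl⟩ := Set.mem_mul.mp hv'
    obtain ⟨i, rfl⟩ := mem_zpowers_iff.mp hq
    exact ⟨i, r, hr, rfl⟩
  have hsubA : ∀ t ∈ T, δ t ∈ Z0 → ∃ i : ℤ, ∃ v ∈ U, t = w ^ i * v := by
    intro t ht htZ
    obtain ⟨i, hi⟩ := hZgen _ htZ
    have hui : u1 ^ i ∈ U := U.zpow_mem hu1 i
    have hvK : t * (u1 ^ i)⁻¹ ∈ K := (hK _).mpr ⟨C.mul_mem ht.1 (C.inv_mem (hUC hui)), by
      rw [← zpow_neg, hδmul _ ht _ (hUT (U.zpow_mem hu1 _)), hδz _ (hUT hu1), hi, ← zpow_add,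
        add_neg_cancel, zpow_zero]⟩
    obtain ⟨j, hj⟩ := mem_zpowers_iff.mp (hKw' hvK)
    exact ⟨j, u1 ^ i, hui, by rw [hj, inv_mul_cancel_right]⟩
  have hsubB : ∀ t ∈ T, δ t ∉ Z0 → K ≤ zpowers (t ^ p) ∧ ∀ a ∈ T, ∃ i : ℤ, ∃ v ∈ U, a = t ^ i * v := by
    intro t ht htZ
    have htp : t ^ p ∈ K := (hK _).mpr ⟨C.pow_mem ht.1 p, by rw [hδn _ ht, hUp _ ht.2]⟩
    have hwt : K ≤ zpowers (t ^ p) := by
      obtain ⟨i, hi⟩ := mem_zpowers_iff.mp (hKw' htp)
      by_cases hpi : (p : ℤ) ∣ i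
      · exfalso
        obtain ⟨j, rfl⟩ := hpi
        rw [mul_comm, zpow_mul, zpow_natCast] at hi
        have hjK : w ^ j ∈ K := K.zpow_mem hwK j
        have h1 := hpc ((hK _).mp hjK).1 ht.1 hi
        refine htZ ?_
        rw [← mul_inv_cancel_left (w ^ j) t, hδmul _ (hKT hjK) _ (hUT h1), ((hK _).mp hjK).2, one_mul]
        exact hδU _ h1
      · exact hKw'.trans (zpowers_le.mpr (hi ▸ hwpow mw hmw i hpi))
    refine ⟨hwt, fun a ha => ?_⟩
    obtain ⟨i, r, hr, hir⟩ := hgenU _ ht.2 htZ _ ha.2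
    obtain ⟨k, hk⟩ := hZgen r hr
    have hb : t ^ i * u1 ^ k ∈ T := T.mul_mem (T.zpow_mem ht i) (hUT (U.zpow_mem hu1 k))
    have hbd : δ (t ^ i * u1 ^ k) = δ a := by
      rw [hδmul _ (T.zpow_mem ht i) _ (hUT (U.zpow_mem hu1 k)), hδz _ ht, hδz _ (hUT hu1), ← hk, ← hir]
    have hvK : a * (t ^ i * u1 ^ k)⁻¹ ∈ K := (hK _).mpr ⟨C.mul_mem ha.1 (C.inv_mem hb.1), by
      have h := hδmul _ (T.mul_mem ha (T.inv_mem hb)) _ hb
      rw [inv_mul_cancel_right, hbd] at h
      exact mul_eq_right.mp h.symm⟩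
    obtain ⟨l, hl⟩ := mem_zpowers_iff.mp (hwt hvK)
    exact ⟨(p : ℤ) * l + i, u1 ^ k, U.zpow_mem hu1 k, by
      rw [zpow_add, zpow_mul, zpow_natCast, hl, mul_assoc, inv_mul_cancel_right]⟩
  have hg : ∃ g ∈ T, z0 ∈ zpowers g ∧ (∀ a ∈ T, ∃ i : ℤ, ∃ v ∈ U, a = g ^ i * v) ∧
      (δ g = 1 ∨ (δ g ∉ Z0 ∧ z0 ∈ zpowers (g ^ p))) := by
    by_cases h : ∀ t ∈ T, δ t ∈ Z0
    · exact ⟨w, hKT hwK, hz0w, fun a ha => hsubA a ha (h a ha), Or.inl ((hK w).mp hwK).2⟩
    · push Not at h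
      obtain ⟨t, ht, htZ⟩ := h
      obtain ⟨h1, h2⟩ := hsubB t ht htZ
      exact ⟨t, ht, (zpowers_le.mpr (pow_mem (mem_zpowers t) p)) (h1 hz0K), h2, Or.inr ⟨htZ, h1 hz0K⟩⟩
  obtain ⟨g, hgT, hz0g, hgen, hgcases⟩ := hg
  have hTcomm : ∀ a ∈ T, ∀ b ∈ T, Commute a b := by
    intro a ha b hb
    obtain ⟨i, v, hv, rfl⟩ := hgen a ha
    obtain ⟨j, v', hv', rfl⟩ := hgen b hb
    exact (((Commute.refl g).zpow_zpow i j).mul_right ((hUc v' hv' _ (C.zpow_mem hgT.1 i)).symm)).mul_left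
      (((hUc v hv _ (C.zpow_mem hgT.1 j))).mul_right (hUc v hv v' (hUC hv')))
  by_cases hCT : C ≤ T
  swap
  · -- `C ≠ T`: then `p = 3` and maximal class
    have hxN : zpowers x ≤ normalizer (T : Set G) := by
      rw [zpowers_le, Subgroup.mem_normalizer_iff]
      intro h
      constructor
      · rintro ⟨h1, h2⟩
        refine ⟨hCn.conj_mem h h1 x, ?_⟩
        rw [show δ (x * h * x⁻¹) = x * δ h * x⁻¹ by simp only [δ]; group]
        exact hUn.conj_mem _ h2 x
      · rintro ⟨h1, h2⟩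
        have e : h = x⁻¹ * (x * h * x⁻¹) * x⁻¹⁻¹ := by group
        refine ⟨e ▸ hCn.conj_mem _ h1 x⁻¹, ?_⟩
        rw [show δ h = x⁻¹ * δ (x * h * x⁻¹) * x⁻¹⁻¹ by simp only [δ]; group]
        exact hUn.conj_mem _ h2 x⁻¹
    set H := T ⊔ zpowers x with hH
    have hHmem : ∀ h ∈ H, h ∈ C → h ∈ T := by
      intro h hh hhC
      have hh' : h ∈ ((T ⊔ zpowers x : Subgroup G) : Set G) := hh
      rw [coe_mul_of_right_le_normalizer_left _ _ hxN] at hh'
      obtain ⟨q, hq, r, hr, rfl⟩ := Set.mem_mul.mp hh'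
      obtain ⟨i, rfl⟩ := mem_zpowers_iff.mp hr
      obtain ⟨j, rfl⟩ := hdiv x hx i ((C.mul_mem_cancel_left (hTC hq)).mp hhC)
      rw [zpow_mul, zpow_natCast, hxp, one_zpow, mul_one]
      exact hq
    have hHne : H < ⊤ := lt_top_iff_ne_top.mpr fun h => hCT fun c hc => hHmem c (h ▸ mem_top c) hc
    haveI : Group.IsNilpotent G := hPG.isNilpotent
    obtain ⟨g', hg'N, hg'H⟩ := SetLike.exists_of_lt (normalizerCondition_of_isNilpotent H hHne)
    have hxH : x ∈ H := mem_sup_right (mem_zpowers x)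
    obtain ⟨i, c, hcC, rfl⟩ := hdec x hx g'
    have hcN : c ∈ normalizer (H : Set G) := by
      have := mul_mem (inv_mem (Subgroup.le_normalizer (zpow_mem hxH i))) hg'N
      rwa [inv_mul_cancel_left] at this
    have hcH : c ∉ H := fun h => hg'H (mul_mem (zpow_mem hxH i) h)
    have hcT : c ∉ T := fun h => hcH (mem_sup_left h)
    set t := δ c with htdef
    have htC : t ∈ C := C.mul_mem (C.inv_mem hcC) (by simpa using hCn.conj_mem c hcC x⁻¹)
    have htT : t ∈ T := by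
      refine hHmem t ?_ htC
      have h1 := (Subgroup.mem_normalizer_iff.mp (inv_mem hcN) x⁻¹).mp (inv_mem hxH)
      have h2 : c⁻¹ * x⁻¹ * c ∈ H := by simpa using h1
      have h3 := mul_mem h2 hxH
      simpa [htdef, δ, mul_assoc] using h3
    set u := δ t with hudef
    have huU : u ∈ U := htT.2
    set z := δ u with hzdef
    have hzZ : z ∈ Z0 := hδU u huU
    have hit := iterate (hδ c) (hδ t) (hδ u) (by rw [hδ z, hδZ z hzZ, mul_one])
      (hTcomm t htT u (hUT huU)) (hZcomm z hzZ u).symm p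
    rw [hxp, inv_one, one_mul, mul_one, pow_choose_two_eq_one hp (hUp u huU), mul_one, mul_assoc,
      left_eq_mul] at hit
    have ht1 : t ^ p ≠ 1 := fun h => hcT ⟨hcC, hOm t htC h⟩
    have hp3 : p = 3 := by
      by_contra hne
      refine ht1 ?_
      have h3 : 3 < p := by have := hpp.two_le; omega
      obtain ⟨k, hk⟩ := hpp.dvd_choose_self three_ne_zero h3
      rwa [hk, pow_mul, hUp z (hZU hzZ), one_pow, mul_one] at hit
    have hz1 : δ u ≠ 1 := fun h => ht1 (by rwa [h, one_pow, mul_one] at hit)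
    have hKZ : K ≤ Z0 := by
      refine (hsubB t htT fun h => hz1 (hδZ _ h)).1.trans (zpowers_le.mpr ?_)
      rw [eq_inv_of_mul_eq_one_left hit]
      exact Z0.inv_mem (Z0.pow_mem hzZ _)
    set A := zpowers x ⊔ Z0 with hA
    have hAe : IsElementaryAbelian p A := isElementaryAbelian_sup (isElementaryAbelian_zpowers hxp)
      ⟨⟨⟨fun a b => Subtype.ext (hZcomm a a.2 b).eq⟩⟩, fun a ha => hUp a (hZU ha)⟩
      fun a _ b hb => (hZcomm b hb a).eq.symm
    have hlt : Z0 < A := lt_of_le_of_ne le_sup_right fun h => hx (hZC (h ▸ mem_sup_left (mem_zpowers x)))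
    have h1 := card_mul_p_le hPG hlt
    rw [hZcard, ← pow_two] at h1
    refine Or.inr (Or.inr (Or.inr ⟨hp3, maxClass_of_card_sq hG A (le_antisymm (hrk A hAe.1 hAe.2) h1) ?_⟩))
    refine le_antisymm (fun h hh => ?_) (fun h hh => mem_centralizer_iff.mpr fun k hk =>
      commute_of_elementary hAe hk hh)
    have hhx : Commute x h := mem_centralizer_iff.mp hh x (mem_sup_left (mem_zpowers x))
    obtain ⟨i, c', hc', rfl⟩ := hdec x hx h
    have hcx : Commute c' x := by
      have h := ((Commute.refl x).zpow_right (-i)).mul_right hhx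
      rw [← mul_assoc, ← zpow_add, neg_add_cancel, zpow_zero, one_mul] at h
      exact h.symm
    exact mul_mem (mem_sup_left (zpow_mem (mem_zpowers x) i))
      (mem_sup_right (hKZ ((hK c').mpr ⟨hc', (hδ1 c').mpr hcx⟩)))
  -- `C = T = ⟨g⟩U`
  have hgC : g ∈ C := hgT.1
  let π := QuotientGroup.mk' U
  have hCmap : C.map π = zpowers (π g) := by
    refine le_antisymm ?_ (zpowers_le.mpr (mem_map_of_mem π hgC))
    rintro _ ⟨a, ha, rfl⟩
    obtain ⟨i, v, hv, rfl⟩ := hgen a (hCT ha)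
    rw [map_mul, map_zpow, show π v = 1 from (QuotientGroup.eq_one_iff v).mpr hv, mul_one]
    exact zpow_mem (mem_zpowers _) i
  have hcardC : orderOf (π g) * p ^ 2 = Nat.card C := by
    have h := Lib.Coprime.card_map_mul_card_inf_ker π C
    rwa [QuotientGroup.ker_mk', inf_eq_right.mpr hUC, hUcard, hCmap, Nat.card_zpowers] at h
  have hog : orderOf g = orderOf (π g) * p := by
    set m := orderOf (π g) with hm
    have hgm : g ^ m ∈ U := by
      rw [← QuotientGroup.eq_one_iff, QuotientGroup.mk_pow]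
      exact pow_orderOf_eq_one (π g)
    have h1 : m ∣ orderOf g := orderOf_map_dvd π g
    have h2 : orderOf g ∣ m * p := orderOf_dvd_of_pow_eq_one (by rw [pow_mul]; exact hUp _ hgm)
    obtain ⟨k, hk⟩ := h1
    have hkp : k ∣ p := by
      rw [hk] at h2
      exact Nat.dvd_of_mul_dvd_mul_left (hm ▸ orderOf_pos (π g)) h2
    rcases (Nat.dvd_prime hpp).mp hkp with rfl | rfl
    · exfalso
      obtain ⟨i, hi⟩ := mem_zpowers_iff.mp hz0g
      have hπ : π g ^ i = 1 := by rw [← map_zpow, hi]; exact (QuotientGroup.eq_one_iff z0).mpr hz0U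
      rw [← orderOf_dvd_iff_zpow_eq_one, ← hm, ← mul_one m, ← hk, orderOf_dvd_iff_zpow_eq_one, hi] at hπ
      exact hz01 hπ
    · exact hk
  have hcardG : p ^ n = orderOf g * p ^ 2 := by
    rw [hog, ← hG, ← C.card_mul_index, hidx, ← hcardC]; ring
  obtain ⟨k, hk⟩ := IsPGroup.iff_orderOf.mp hPG g
  have hn : n = k + 2 := by
    rw [hk, ← pow_add] at hcardG
    exact Nat.pow_right_injective hpp.two_le hcardG
  have hk1 : 1 ≤ k := by
    by_contra h
    rw [Nat.lt_one_iff.mp (not_le.mp h), pow_zero, orderOf_eq_one_iff] at hk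
    rw [hk, zpowers_one_eq_bot, mem_bot] at hz0g
    exact hz01 hz0g
  have hN : n - 3 = k - 1 := by omega
  have hgpn : g ^ p ^ (n - 2) = 1 := by rw [show n - 2 = k by omega, ← hk]; exact pow_orderOf_eq_one g
  set e := g ^ p ^ (n - 3) with he
  have hk' : p ^ k = p ^ (k - 1) * p := by rw [← pow_succ, Nat.sub_add_cancel hk1]
  have hep : e ^ p = 1 := by rw [he, hN, ← pow_mul, ← hk', ← hk, pow_orderOf_eq_one]
  have he1 : e ≠ 1 := fun h => by
    rw [he, hN, ← orderOf_dvd_iff_pow_eq_one, hk, hk'] at h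
    have := Nat.le_of_dvd (pow_pos hpp.pos _) h
    exact absurd this (lt_mul_of_one_lt_right (pow_pos hpp.pos _) hpp.one_lt).not_ge
  have heZ : e ∈ Z0 := by
    obtain ⟨i, hi⟩ := mem_zpowers_iff.mp hz0g
    have hd : ((p : ℤ) ^ (k - 1)) * p ∣ i * p := by
      have : (orderOf g : ℤ) ∣ i * p := by
        rw [orderOf_dvd_iff_zpow_eq_one, zpow_mul, hi, zpow_natCast]
        exact hUp z0 hz0U
      rwa [hk, hk', Nat.cast_mul, Nat.cast_pow] at this
    obtain ⟨j, hj⟩ := Int.dvd_of_mul_dvd_mul_right (Int.natCast_ne_zero.mpr hpp.ne_zero) hd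
    refine prime_gen (p := p) hz01 hep (mem_zpowers_iff.mpr ⟨j, ?_⟩)
    rw [he, hN, ← zpow_natCast, ← zpow_mul, Nat.cast_pow, ← hj, hi]
  have hclo : ∀ x' ∉ C, ∀ y ∈ U, y ∉ Z0 → Subgroup.closure ({x', y, g} : Set G) = ⊤ := by
    intro x' hx' y hy hyZ
    refine eq_top_iff.mpr fun h _ => ?_
    obtain ⟨i, c, hc, rfl⟩ := hdec x' hx' h
    obtain ⟨j, v, hv, rfl⟩ := hgen c (hCT hc)
    obtain ⟨l, r, hr, rfl⟩ := hgenU y hy hyZ v hv
    have hmem : ∀ q ∈ ({x', y, g} : Set G), q ∈ Subgroup.closure ({x', y, g} : Set G) := fun q hq =>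
      Subgroup.subset_closure hq
    have hgm := hmem g (by simp)
    exact mul_mem (zpow_mem (hmem x' (by simp)) i) (mul_mem (zpow_mem hgm j)
      (mul_mem (zpow_mem (hmem y (by simp)) l)
        ((zpowers_le.mpr ((zpowers_le.mpr hgm) hz0g)) hr)))
  rcases hgcases with hg1 | ⟨hgZ, hgp⟩
  · -- the first family
    obtain ⟨i, hi⟩ := hZgen e heZ
    have hyT : u1 ^ i ∈ U := U.zpow_mem hu1 i
    have hye : δ (u1 ^ i) = e := by rw [hδz _ (hUT hu1), ← hi]
    refine Or.inr (Or.inl ⟨by omega, x, u1 ^ i, g,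
      hclo x hx _ hyT fun h => he1 (hye ▸ hδZ _ h), hxp, hUp _ hyT, hgpn,
      ((hδ1 g).mp hg1).eq.symm, (hTcomm _ (hUT hyT) g hgT).eq, ?_⟩)
    rw [hδ, hye]
  · -- the second family
    have hgp1 : g ^ p ≠ 1 := fun h => by
      rw [h, zpowers_one_eq_bot, mem_bot] at hgp
      exact hz01 hgp
    have hn4 : 4 ≤ n := by
      by_contra h
      exact hgp1 (by rw [← pow_one p, show 1 = n - 2 by omega]; exact hgpn)
    set y := δ g with hy
    have hyU : y ∈ U := hgT.2
    have hyd : δ y ∈ Z0 := hδU y hyU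
    have hyd1 : δ y ≠ 1 := fun h => hgZ (hfix y hyU h)
    obtain ⟨j, hj⟩ := Submonoid.mem_powers_iff _ _ |>.mp
      (mem_powers_iff_mem_zpowers.mpr ((zpowers_le.mpr (prime_gen (p := p) he1 (hUp z0 hz0U) heZ)) hyd))
    replace hj : e ^ j = δ y := hj
    have hgy : Commute y g := hTcomm y (hUT hyU) g hgT
    have hey : ∀ q : G, Commute e q := hZcomm e heZ
    have hgx : x⁻¹ * g * x = g * y := hδ g
    have hyx : x⁻¹ * y * x = y * e ^ j := by rw [hj]; exact hδ y
    have hjp : (j : ZMod p) ≠ 0 := fun h => by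
      obtain ⟨q, rfl⟩ := (ZMod.natCast_eq_zero_iff j p).mp h
      rw [pow_mul, hep, one_pow] at hj
      exact hyd1 hj.symm
    by_cases hsq : IsSquare (j : ZMod p)
    · obtain ⟨r, hr⟩ := hsq
      set i := (r⁻¹ : ZMod p).val with hi
      have hr0 : r ≠ 0 := fun h => hjp (by rw [hr, h, mul_zero])
      have hiz : (i : ZMod p) = r⁻¹ := ZMod.natCast_zmod_val _
      have hx' : x ^ i ∉ C := fun h => by
        have h' := hdiv x hx (i : ℤ) (by rwa [zpow_natCast])
        rw [Int.natCast_dvd_natCast, ← ZMod.natCast_eq_zero_iff, hiz, inv_eq_zero] at h'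
        exact hr0 h'
      have hx'p : (x ^ i) ^ p = 1 := by rw [← pow_mul, mul_comm, pow_mul, hxp, one_pow]
      have hc1 : (x ^ i)⁻¹ * g * x ^ i = g * y ^ i * (e ^ j) ^ i.choose 2 * 1 ^ i.choose 3 :=
        iterate hgx hyx (by rw [mul_assoc, ((hey x).pow_left j).eq]; group) (by group)
          ((hey y).pow_left j).symm (Commute.one_right _) i
      have hc2 : (x ^ i)⁻¹ * y * x ^ i = y * (e ^ j) ^ i * 1 ^ i.choose 2 * 1 ^ i.choose 3 :=
        iterate hyx (by rw [mul_assoc, ((hey x).pow_left j).eq]; group) (by group) (by group)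
          (Commute.one_right _) (Commute.one_right _) i
      simp only [one_pow, mul_one] at hc1 hc2
      set y' := y ^ i * (e ^ j) ^ i.choose 2 with hy'
      have hy'U : y' ∈ U := U.mul_mem (U.pow_mem hyU i) (U.pow_mem (U.pow_mem (hZU heZ) j) _)
      have hfixe : (x ^ i)⁻¹ * (e ^ j) ^ i.choose 2 * x ^ i = (e ^ j) ^ i.choose 2 := by
        rw [mul_assoc, (((hey (x ^ i)).pow_left j).pow_left _).eq]; group
      have hrel : (x ^ i)⁻¹ * y' * x ^ i = y' * e := by
        have e1 : (x ^ i)⁻¹ * y' * x ^ i =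
            ((x ^ i)⁻¹ * y * x ^ i) ^ i * ((x ^ i)⁻¹ * (e ^ j) ^ i.choose 2 * x ^ i) := by
          have := (conj_pow (i := i) (a := (x ^ i)⁻¹) (b := y))
          rw [inv_inv] at this
          rw [this, hy']; group
        have e2 : ((e ^ j) ^ i) ^ i = e := by
          rw [← pow_mul, ← pow_mul]
          conv_rhs => rw [← pow_one e]
          rw [pow_eq_pow_iff_modEq, orderOf_eq_prime hep he1, ← ZMod.natCast_eq_natCast_iff]
          push_cast
          rw [hiz, hr]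
          field_simp
        rw [e1, hc2, hfixe, ((hey y).pow_left j |>.pow_left i).symm.mul_pow, e2, mul_assoc,
          (hey _).eq, ← mul_assoc, hy']
      refine Or.inr (Or.inr (Or.inl ⟨hn4, 1, x ^ i, y', g, Or.inl rfl, hclo _ hx' y' hy'U ?_, hx'p,
        hUp _ hy'U, hgpn, (hTcomm _ (hUT hy'U) g hgT).eq, ?_, ?_⟩))
      · intro h
        rw [mul_assoc, (hZcomm y' h (x ^ i)).eq, inv_mul_cancel_left, left_eq_mul] at hrel
        exact he1 hrel
      · rw [one_mul, hrel]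
      · rw [hc1, mul_assoc, ← hy']
        exact ((hTcomm g hgT y' (hUT hy'U))).eq
    · refine Or.inr (Or.inr (Or.inl ⟨hn4, j, x, y, g, Or.inr hsq, hclo x hx y hyU hgZ, hxp, hUp _ hyU, hgpn,
        hgy.eq, ?_, ?_⟩))
      · rw [hyx, he, ← pow_mul, mul_comm (p ^ (n - 3)) j]
      · rw [hgx, hgy.eq]

end Cfsg.Agent.S3888
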