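import Cfsg.Statements.S3897

set_option autoImplicit false
open Cfsg

namespace Cfsg.Agent.S3897

open scoped Classical in
lemma sum_le {α : Type*} [Fintype α] (f : α → ℕ) (Z : Finset α) (A p s : ℕ)
    (hf : ∀ x, f x ≤ A) (hnz : ∀ x, x ∉ Z → p * f x ≤ A) (hs : s * Z.card ≤ Fintype.card α)
    (hp : 1 ≤ p) :
    p * s * (∑ x, f x) ≤ Fintype.card α * A * (p - 1 + s) := by
  obtain ⟨p', rfl⟩ := Nat.exists_eq_add_of_le hp
  have h1 : ∀ x, (1 + p') * f x ≤ A + (if x ∈ Z then p' * A else 0) := by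
    intro x
    by_cases h : x ∈ Z
    · rw [if_pos h]; nlinarith [hf x]
    · rw [if_neg h, add_zero]; exact hnz x h
  have h2 : (1 + p') * ∑ x, f x ≤ Fintype.card α * A + Z.card * (p' * A) := by
    rw [Finset.mul_sum]
    refine (Finset.sum_le_sum (fun x _ => h1 x)).trans ?_
    rw [Finset.sum_add_distrib, Finset.sum_const, Finset.card_univ, smul_eq_mul,
      Finset.sum_ite_mem, Finset.univ_inter, Finset.sum_const, smul_eq_mul]
  rw [show 1 + p' - 1 = p' by omega]
  calc (1 + p') * s * ∑ x, f x = s * ((1 + p') * ∑ x, f x) := by ring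
    _ ≤ s * (Fintype.card α * A + Z.card * (p' * A)) := by gcongr
    _ = s * Fintype.card α * A + (s * Z.card) * (p' * A) := by ring
    _ ≤ s * Fintype.card α * A + Fintype.card α * (p' * A) := by gcongr
    _ = Fintype.card α * A * (p' + s) := by ring

variable {G : Type*} [Group G] [Finite G] {p : ℕ} [Fact p.Prime]

/-- in a `p`-group a proper subgroup has index at least `p` -/
lemma mul_card_le {H : Type*} [Group H] [Finite H] (hH : IsPGroup p H) (K : Subgroup H) (hK : K ≠ ⊤) :
    p * Nat.card K ≤ Nat.card H := by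
  obtain ⟨n, hn⟩ := hH.index K
  have hn0 : n ≠ 0 := by
    intro h0; rw [h0, pow_zero] at hn; exact hK (Subgroup.index_eq_one.mp hn)
  rw [← K.card_mul_index, mul_comm p, hn]
  exact Nat.mul_le_mul_left _ (Nat.le_self_pow hn0 p)

/-- nonabelian `p`-groups have few classes -/
lemma classes_le_of_not_comm {H : Type*} [Group H] [Finite H] (hH : IsPGroup p H)
    (hna : ¬ IsMulCommutative H) :
    p * p ^ 2 * Nat.card (ConjClasses H) ≤ Nat.card H * (p - 1 + p ^ 2) := by
  classical
  haveI := Fintype.ofFinite H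
  have hZ : p ^ 2 * Nat.card (Subgroup.center H) ≤ Nat.card H := by
    obtain ⟨n, hn⟩ := hH.index (Subgroup.center H)
    have h2 : 2 ≤ n := by
      by_contra hcon
      have hcyc : IsCyclic (H ⧸ Subgroup.center H) := by
        interval_cases n
        · have : Subsingleton (H ⧸ Subgroup.center H) := by
            rw [← Finite.card_le_one_iff_subsingleton, ← Subgroup.index_eq_card, hn, pow_zero]
          exact isCyclic_of_subsingleton
        · exact isCyclic_of_prime_card (p := p) (by rw [← Subgroup.index_eq_card, hn, pow_one])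
      exact hna ⟨⟨(commutative_of_cyclic_center_quotient (QuotientGroup.mk' (Subgroup.center H))
        (by rw [QuotientGroup.ker_mk']) ·  ·)⟩⟩
    rw [← (Subgroup.center H).card_mul_index, hn, mul_comm]
    exact Nat.mul_le_mul_left _ (Nat.pow_le_pow_right (Fact.out : p.Prime).pos h2)
  have key := sum_le (fun x : H => Nat.card (Subgroup.centralizer ({x} : Set H)))
    (Finset.univ.filter (· ∈ Subgroup.center H)) (Nat.card H) p (p ^ 2)
    (fun x => Subgroup.card_le_card_group _)
    (fun x hx => mul_card_le hH _ (fun htop => hx (by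
      simp only [Finset.mem_filter, Finset.mem_univ, true_and]
      rw [Subgroup.mem_center_iff]
      intro y
      have : y ∈ Subgroup.centralizer ({x} : Set H) := htop ▸ Subgroup.mem_top y
      exact ((Subgroup.mem_centralizer_iff.mp this) x rfl).symm)))
    (by
      refine le_of_eq_of_le ?_ (le_of_le_of_eq hZ Nat.card_eq_fintype_card)
      congr 1
      rw [Nat.card_eq_fintype_card, Fintype.card_subtype])
    (Fact.out : p.Prime).one_le
  have hsum : ∑ x : H, Nat.card (Subgroup.centralizer ({x} : Set H)) =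
      Nat.card (ConjClasses H) * Nat.card H := by
    rw [← card_comm_eq_card_conjClasses_mul_card, Nat.card_congr (Equiv.subtypeProdEquivSigmaSubtype Commute),
      Nat.card_sigma]
    refine Finset.sum_congr rfl (fun x _ => Nat.card_congr (Equiv.subtypeEquivRight (fun y => ?_)))
    rw [Subgroup.mem_centralizer_singleton_iff]
    exact ⟨fun h => h.symm, fun h => h.symm⟩
  rw [hsum, ← Nat.card_eq_fintype_card] at key
  have hpos : 0 < Nat.card H := Nat.card_pos
  refine Nat.le_of_mul_le_mul_right ?_ hpos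
  calc p * p ^ 2 * Nat.card (ConjClasses H) * Nat.card H
      = p * p ^ 2 * (Nat.card (ConjClasses H) * Nat.card H) := by ring
    _ ≤ Nat.card H * Nat.card H * (p - 1 + p ^ 2) := key
    _ = Nat.card H * (p - 1 + p ^ 2) * Nat.card H := by ring

/-- every class of `p`-elements meets a given Sylow subgroup -/
lemma exists_rep (P : Sylow p G) (c : {c : ConjClasses G // ∀ x ∈ c.carrier, ∃ k : ℕ, orderOf x = p ^ k}) :
    ∃ x : ↥(P : Subgroup G), ConjClasses.mk (x : G) = c.1 := by
  obtain ⟨c, hc⟩ := c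
  obtain ⟨y, rfl⟩ := ConjClasses.mk_surjective c
  obtain ⟨k, hk⟩ := hc y ConjClasses.mem_carrier_mk
  have hy : IsPGroup p (Subgroup.zpowers y) := IsPGroup.of_card (by rw [Nat.card_zpowers, hk])
  obtain ⟨Q, hQ⟩ := hy.exists_le_sylow
  obtain ⟨g, rfl⟩ := MulAction.exists_smul_eq G P Q
  have hyQ := hQ (Subgroup.mem_zpowers y)
  rw [Sylow.coe_subgroup_smul, Subgroup.mem_pointwise_smul_iff_inv_smul_mem] at hyQ
  refine ⟨⟨_, hyQ⟩, ?_⟩
  rw [ConjClasses.mk_eq_mk_iff_isConj, isConj_iff]
  exact ⟨g, by simp [MulAut.smul_def, mul_assoc]⟩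

lemma classes_le (P : Sylow p G) :
    Nat.card {c : ConjClasses G // ∀ x ∈ c.carrier, ∃ k : ℕ, orderOf x = p ^ k} ≤
      Nat.card (ConjClasses ↥(P : Subgroup G)) := by
  choose r hr using exists_rep P
  refine Nat.card_le_card_of_injective (fun c => ConjClasses.mk (r c)) (fun a b h => ?_)
  apply Subtype.ext
  rw [← hr a, ← hr b]
  obtain ⟨u, hu⟩ := isConj_iff.mp (ConjClasses.mk_eq_mk_iff_isConj.mp h)
  exact ConjClasses.mk_eq_mk_iff_isConj.mpr (isConj_iff.mpr ⟨u, by simpa using congrArg Subtype.val hu⟩)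

lemma abelian_case (P : Sylow p G) (hab : IsMulCommutative ↥(P : Subgroup G))
    (hk : (p + 1) * Nat.card ↥(P : Subgroup G) <
      2 * p * Nat.card {c : ConjClasses G // ∀ x ∈ c.carrier, ∃ k : ℕ, orderOf x = p ^ k}) :
    Subgroup.normalizer ((P : Subgroup G) : Set G) ≤ Subgroup.centralizer ((P : Subgroup G) : Set G) := by
  classical
  by_contra hle
  haveI := Fintype.ofFinite G
  let N : Subgroup G := Subgroup.normalizer ((P : Subgroup G) : Set G)
  let k := Nat.card {c : ConjClasses G // ∀ x ∈ c.carrier, ∃ k : ℕ, orderOf x = p ^ k}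
  let P0 : Subgroup G := (P : Subgroup G)
  let T := (Σ g : ↥N, ↥(P0 ⊓ Subgroup.centralizer ({(g : G)} : Set G)))
  choose r hr using exists_rep P
  -- representatives of conjugates
  have hP : ∀ g : ↥N, ∀ x : ↥P0, (g : G) * x * (g : G)⁻¹ ∈ P0 := fun g x =>
    (Subgroup.mem_normalizer_iff.mp g.2 x).mp x.2
  have hex : ∀ (c) (g : ↥N), ∃ g₀ : ↥N, (g₀ : G) * r c * (g₀ : G)⁻¹ = (g : G) * r c * (g : G)⁻¹ :=
    fun c g => ⟨g, rfl⟩
  choose g0 hg0 using hex
  -- g0 depends only on the conjugate
  let rep : ∀ (c : {c : ConjClasses G // ∀ x ∈ c.carrier, ∃ k : ℕ, orderOf x = p ^ k}), G → ↥N := fun c y =>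
    if h : ∃ g₀ : ↥N, (g₀ : G) * r c * (g₀ : G)⁻¹ = y then h.choose else 1
  have hrep : ∀ c (g : ↥N), (rep c ((g : G) * r c * (g : G)⁻¹) : G) * r c *
      (rep c ((g : G) * r c * (g : G)⁻¹) : G)⁻¹ = (g : G) * r c * (g : G)⁻¹ := by
    intro c g
    have h : ∃ g₀ : ↥N, (g₀ : G) * r c * (g₀ : G)⁻¹ = (g : G) * r c * (g : G)⁻¹ := ⟨g, rfl⟩
    simp only [rep, dif_pos h]
    exact h.choose_spec
  let f : {c : ConjClasses G // ∀ x ∈ c.carrier, ∃ k : ℕ, orderOf x = p ^ k} × ↥N → T := fun cg =>
    ⟨cg.2 * (rep cg.1 ((cg.2 : G) * r cg.1 * (cg.2 : G)⁻¹))⁻¹,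
      ⟨(cg.2 : G) * r cg.1 * (cg.2 : G)⁻¹, Subgroup.mem_inf.mpr ⟨hP cg.2 (r cg.1), by
        rw [Subgroup.mem_centralizer_singleton_iff]
        have := hrep cg.1 cg.2
        generalize (rep cg.1 ((cg.2 : G) * r cg.1 * (cg.2 : G)⁻¹) : ↥N) = u at this ⊢
        push_cast
        exact Eq.symm <|
        calc (cg.2 : G) * (u : G)⁻¹ * ((cg.2 : G) * r cg.1 * (cg.2 : G)⁻¹)
            = (cg.2 : G) * (u : G)⁻¹ * ((u : G) * r cg.1 * (u : G)⁻¹) := by rw [this]
          _ = (cg.2 : G) * r cg.1 * (cg.2 : G)⁻¹ * ((cg.2 : G) * (u : G)⁻¹) := by group⟩⟩⟩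
  have hf : Function.Injective f := by
    intro a b hab'
    obtain ⟨c, g⟩ := a
    obtain ⟨c', g'⟩ := b
    simp only [f] at hab'
    obtain ⟨h1, h2⟩ := Sigma.mk.inj_iff.mp hab'
    have hy : (g : G) * r c * (g : G)⁻¹ = (g' : G) * r c' * (g' : G)⁻¹ := by
      have : ∀ (a b : T), a = b → (a.2 : G) = (b.2 : G) := by rintro a b rfl; rfl
      exact this _ _ hab'
    have hcc : c = c' := by
      apply Subtype.ext
      rw [← hr c, ← hr c', ConjClasses.mk_eq_mk_iff_isConj, isConj_iff]
      exact ⟨(g' : G)⁻¹ * g, by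
        calc (g' : G)⁻¹ * g * r c * ((g' : G)⁻¹ * g)⁻¹ = (g' : G)⁻¹ * ((g : G) * r c * (g : G)⁻¹) * g' := by group
          _ = r c' := by rw [hy]; group⟩
    subst hcc
    rw [hy] at h1
    exact Prod.ext rfl (mul_right_cancel h1)
  have hcard := Nat.card_le_card_of_injective f hf
  rw [Nat.card_prod, Nat.card_sigma] at hcard
  haveI := Fintype.ofFinite ↥N
  have hCN : 2 * (Finset.univ.filter fun g : ↥N => (g : G) ∈ Subgroup.centralizer (P0 : Set G)).card
      ≤ Fintype.card ↥N := by
    have hH : (Subgroup.centralizer (P0 : Set G)).subgroupOf N ≠ ⊤ := by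
      rw [Ne, Subgroup.subgroupOf_eq_top]; exact hle
    have h2 : 2 ≤ ((Subgroup.centralizer (P0 : Set G)).subgroupOf N).index :=
      Subgroup.one_lt_index_of_ne_top hH
    rw [← Nat.card_eq_fintype_card (α := ↥N),
      ← ((Subgroup.centralizer (P0 : Set G)).subgroupOf N).card_mul_index, mul_comm 2]
    refine Nat.mul_le_mul (le_of_eq ?_) h2
    rw [Nat.card_eq_fintype_card, Fintype.card_subtype]
    congr 1
  have key := sum_le (fun g : ↥N => Nat.card ↥(P0 ⊓ Subgroup.centralizer ({(g : G)} : Set G)))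
    (Finset.univ.filter fun g : ↥N => (g : G) ∈ Subgroup.centralizer (P0 : Set G)) (Nat.card ↥P0) p 2
    (fun g => Subgroup.card_le_of_le inf_le_left)
    (fun g hg => by
      have hne : (P0 ⊓ Subgroup.centralizer ({(g : G)} : Set G)).subgroupOf P0 ≠ ⊤ := by
        rw [Ne, Subgroup.subgroupOf_eq_top]
        intro h
        apply hg
        simp only [Finset.mem_filter, Finset.mem_univ, true_and]
        rw [Subgroup.mem_centralizer_iff]
        intro x hx
        exact (Subgroup.mem_centralizer_singleton_iff.mp (Subgroup.mem_inf.mp (h hx)).2)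
      have := mul_card_le (p := p) P.2 _ hne
      rwa [Nat.card_congr (Subgroup.subgroupOfEquivOfLe inf_le_left).toEquiv] at this)
    hCN (Fact.out : p.Prime).one_le
  rw [← Nat.card_eq_fintype_card] at key
  have hp1 := (Fact.out : p.Prime).one_le
  rw [show p - 1 + 2 = p + 1 by omega] at key
  have hlt : (p + 1) * Nat.card ↥P0 * Nat.card ↥N < 2 * p * k * Nat.card ↥N :=
    Nat.mul_lt_mul_of_pos_right hk Nat.card_pos
  have hcard' := Nat.mul_le_mul_left (2 * p) hcard
  have : 2 * p * k * Nat.card ↥N ≤ (p + 1) * Nat.card ↥P0 * Nat.card ↥N := by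
    calc 2 * p * k * Nat.card ↥N = 2 * p * (k * Nat.card ↥N) := by ring
      _ ≤ _ := hcard'
      _ = p * 2 * ∑ x : ↥N, Nat.card ↥(P0 ⊓ Subgroup.centralizer ({(x : G)} : Set G)) := by
        rw [mul_comm 2 p]; congr 1; exact Finset.sum_congr (by ext; simp) (fun _ _ => rfl)
      _ ≤ _ := key
      _ = _ := by ring
  omega

/-- Let p be an odd prime and G a finite group with Sylow p-subgroup P, and write k_p(G) for the number of conjugacy classes of G consisting of p-elements (elements of p-power order, the identity included). Then k_p(G) > (p + 1)|P|/(2p) if and only if G has a normal p-complement and P is abelian. -/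
theorem result {G : Type*} [Group G] [Finite G] {p : ℕ} [Fact p.Prime] (hp : p ≠ 2) (P : Sylow p G) :
    (p + 1) * Nat.card ↥(P : Subgroup G) < 2 * p * Nat.card {c : ConjClasses G // ∀ x ∈ c.carrier, ∃ k : ℕ, orderOf x = p ^ k} ↔
      Cfsg.HasNormalPComplement p G ∧ IsMulCommutative ↥(P : Subgroup G) := by
  constructor
  · intro hk
    have hP := P.2
    have hab : IsMulCommutative ↥(P : Subgroup G) := by
      by_contra hna
      have h1 := classes_le_of_not_comm hP hna
      have h2 := classes_le (p := p) P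
      have hp3 : 3 ≤ p := by
        have := (Fact.out : p.Prime).two_le
        omega
      obtain ⟨q, rfl⟩ := Nat.exists_eq_add_of_le hp3
      rw [show 3 + q - 1 = 2 + q by omega] at h1
      generalize Nat.card ↥(P : Subgroup G) = n at *
      generalize Nat.card (ConjClasses ↥(P : Subgroup G)) = k' at *
      generalize Nat.card {c : ConjClasses G // ∀ x ∈ c.carrier, ∃ j : ℕ, orderOf x = (3 + q) ^ j} = k at *
      have h4 : n * (2 * (2 + q + (3 + q) ^ 2)) ≤ n * ((3 + q + 1) * (3 + q) ^ 2) :=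
        Nat.mul_le_mul_left _ (by nlinarith)
      have h5 := Nat.mul_lt_mul_of_pos_right hk (show 0 < (3 + q) ^ 2 by positivity)
      have h6 := Nat.mul_le_mul_left (2 * (3 + q) * (3 + q) ^ 2) h2
      nlinarith
    refine ⟨⟨P, _, inferInstance, MonoidHom.ker_transferSylow_isComplement' P (abelian_case P hab hk)⟩, hab⟩
  · rintro ⟨⟨P', K, hK, hc⟩, hab⟩
    haveI := hK
    obtain ⟨g, hg⟩ := MulAction.exists_smul_eq G P P'
    haveI : IsMulCommutative ↥(P' : Subgroup G) := by
      rw [← hg]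
      exact ⟨⟨fun a b => (P.equivSMul g).symm.injective (by rw [map_mul, map_mul]; exact hab.1.1 _ _)⟩⟩
    have e := hc.symm.QuotientMulEquiv
    have hconj : ∀ x y : G, IsConj x y → (x : G ⧸ K) = (y : G ⧸ K) := by
      intro x y hxy
      obtain ⟨c, rfl⟩ := isConj_iff.mp hxy
      apply e.injective
      rw [QuotientGroup.mk_mul, QuotientGroup.mk_mul, QuotientGroup.mk_inv, map_mul, map_mul, map_inv]
      rw [mul_comm' (e (c : G ⧸ K)), mul_inv_cancel_right]
    have hk2 : Nat.card ↥(P' : Subgroup G) ≤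
        Nat.card {c : ConjClasses G // ∀ x ∈ c.carrier, ∃ k : ℕ, orderOf x = p ^ k} := by
      refine Nat.card_le_card_of_injective (fun x => ⟨ConjClasses.mk (x : G), fun y hy => ?_⟩) ?_
      · obtain ⟨c, rfl⟩ := isConj_iff.mp (ConjClasses.mk_eq_mk_iff_isConj.mp
          (ConjClasses.mem_carrier_iff_mk_eq.mp hy).symm)
        obtain ⟨k, hk⟩ := IsPGroup.iff_orderOf.mp P'.2 x
        exact ⟨k, by rw [show c * (x : G) * c⁻¹ = MulAut.conj c x from rfl, MulEquiv.orderOf_eq,
          Subgroup.orderOf_coe, hk]⟩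
      · intro x y hxy
        have := hconj _ _ (ConjClasses.mk_eq_mk_iff_isConj.mp (congrArg Subtype.val hxy))
        exact Subtype.ext (by
          have h1 := hc.symm
          have hbij := Subgroup.isComplement'_def.mp h1
          have : (x : G)⁻¹ * y ∈ K ⊓ (P' : Subgroup G) :=
            ⟨QuotientGroup.eq.mp this, (P' : Subgroup G).mul_mem ((P' : Subgroup G).inv_mem x.2) y.2⟩
          rw [hc.disjoint.eq_bot, Subgroup.mem_bot, inv_mul_eq_one] at this
          exact this)
    have heq : Nat.card ↥(P : Subgroup G) = Nat.card ↥(P' : Subgroup G) := by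
      rw [← hg]; exact Nat.card_congr (P.equivSMul g).toEquiv
    have hp2 := (Fact.out : p.Prime).two_le
    have hpos : 0 < Nat.card ↥(P : Subgroup G) := Nat.card_pos
    nlinarith

end Cfsg.Agent.S3897
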