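import Cfsg.Statements.S3895
import Mathlib
import Cfsg.Agent.S3897
import Cfsg.Agent.Lib.Transfer.Basic
import Cfsg.Agent.Lib.LocalP2.HSubgroup
import Cfsg.Agent.Lib.Involution.ZStar
import Cfsg.Agent.Lib.Involution.Isolated

set_option autoImplicit false
open Cfsg

namespace Cfsg.Agent.S3895

open Subgroup
open Cfsg.Agent.Lib
open scoped Pointwise

universe u

variable {G : Type u} [Group G] [Finite G]

/-- the classes of 2-elements -/
abbrev TwoClasses (G : Type*) [Group G] :=
  {c : ConjClasses G // ∀ x ∈ c.carrier, ∃ k : ℕ, orderOf x = 2 ^ k}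

lemma isPGroup_zpowers {x : G} (hx : ∃ k : ℕ, orderOf x = 2 ^ k) : IsPGroup 2 (zpowers x) := by
  obtain ⟨k, hk⟩ := hx
  exact IsPGroup.of_card (by rw [Nat.card_zpowers, hk])

lemma two_power_of_mem (P : Sylow 2 G) {x : G} (hx : x ∈ (P : Subgroup G)) :
    ∃ k : ℕ, orderOf x = 2 ^ k := by
  haveI : Fact (Nat.Prime 2) := ⟨Nat.prime_two⟩
  obtain ⟨k, hk⟩ := IsPGroup.iff_orderOf.mp P.2 ⟨x, hx⟩
  exact ⟨k, by rwa [orderOf_mk] at hk⟩

/-- two 2-elements congruent modulo a normal subgroup of odd order are conjugate -/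
lemma isConj_of_congr (N : Subgroup G) [N.Normal] (hN : ¬ 2 ∣ Nat.card N) {u x : G}
    (hu : ∃ k : ℕ, orderOf u = 2 ^ k) (hx : ∃ k : ℕ, orderOf x = 2 ^ k) (h : x⁻¹ * u ∈ N) :
    IsConj u x := by
  haveI : Fact (Nat.Prime 2) := ⟨Nat.prime_two⟩
  set H := zpowers x ⊔ N with hH
  have hdisj : N ⊓ zpowers x = ⊥ := Transfer.inf_eq_bot_of_not_dvd hN (isPGroup_zpowers hx)
  have hidx : ¬ 2 ∣ (zpowers x).relIndex H := by
    have h1 := relIndex_mul_relIndex ⊥ (zpowers x) H bot_le le_sup_left
    have h2 := relIndex_mul_relIndex ⊥ N H bot_le le_sup_right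
    rw [relIndex_bot_left, relIndex_bot_left] at h1 h2
    have h3 : N.relIndex H = Nat.card (zpowers x) := by
      rw [hH, sup_comm, relIndex_sup_left, ← inf_relIndex_right, hdisj, relIndex_bot_left]
    rw [h3, mul_comm (Nat.card N), ← h1] at h2
    rwa [← Nat.eq_of_mul_eq_mul_left Nat.card_pos h2]
  obtain ⟨S, hS⟩ := Transfer.exists_sylow_subgroupOf (isPGroup_zpowers hx) le_sup_left hidx
  have huH : u ∈ H := by
    rw [show u = x * (x⁻¹ * u) by group]
    exact mul_mem (le_sup_left (a := zpowers x) (mem_zpowers x)) (le_sup_right (a := zpowers x) h)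
  have hu' : IsPGroup 2 (zpowers (⟨u, huH⟩ : H)) :=
    isPGroup_zpowers (G := H) (by simpa only [orderOf_mk] using hu)
  obtain ⟨T, hT⟩ := hu'.exists_le_sylow
  obtain ⟨c, hc⟩ := MulAction.exists_smul_eq H T S
  have hm : (c : G) * u * (c : G)⁻¹ ∈ zpowers x := by
    have := smul_mem_pointwise_smul _ (MulAut.conj c) _ (hT (mem_zpowers _))
    rw [← Sylow.coe_subgroup_smul, hc, hS] at this
    exact this
  have hcomm : ∀ w ∈ H, (w : G ⧸ N) * (x : G ⧸ N) = (x : G ⧸ N) * (w : G ⧸ N) := by
    intro w hw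
    have : H ≤ (centralizer {(x : G ⧸ N)}).comap (QuotientGroup.mk' N) := by
      refine sup_le ?_ ?_
      · rw [zpowers_le]
        exact mem_centralizer_singleton_iff.mpr rfl
      · intro n hn
        refine mem_centralizer_singleton_iff.mpr ?_
        rw [QuotientGroup.mk'_apply, (QuotientGroup.eq_one_iff n).mpr hn, one_mul, mul_one]
    exact mem_centralizer_singleton_iff.mp (this hw)
  have hux : (u : G ⧸ N) = (x : G ⧸ N) := (QuotientGroup.eq.mpr h).symm
  have hin : x⁻¹ * ((c : G) * u * (c : G)⁻¹) ∈ N := by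
    apply QuotientGroup.eq.mp
    rw [QuotientGroup.mk_mul, QuotientGroup.mk_mul, hux, hcomm _ c.2, QuotientGroup.mk_inv,
      mul_inv_cancel_right]
  have : x⁻¹ * ((c : G) * u * (c : G)⁻¹) ∈ N ⊓ zpowers x :=
    ⟨hin, (zpowers x).mul_mem ((zpowers x).inv_mem (mem_zpowers x)) hm⟩
  rw [hdisj, mem_bot, inv_mul_eq_one] at this
  exact isConj_iff.mpr ⟨c, this.symm⟩

/-- an isolated element of a Sylow 2-subgroup has an isolated involution among its powers -/
lemma involution_isolated (P : Sylow 2 G) {x : G} (hxP : x ∈ (P : Subgroup G)) (hx1 : x ≠ 1)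
    (hiso : ∀ g : G, g * x * g⁻¹ ∈ (P : Subgroup G) → g * x * g⁻¹ = x) :
    ∃ i : G, orderOf i = 2 ∧ i ∈ (P : Subgroup G) ∧ (∀ q ∈ (P : Subgroup G), q * i = i * q) ∧
      ∀ g : G, g * i * g⁻¹ ∈ (P : Subgroup G) → g * i * g⁻¹ = i := by
  haveI : Fact (Nat.Prime 2) := ⟨Nat.prime_two⟩
  obtain ⟨k, hk⟩ := two_power_of_mem P hxP
  obtain ⟨j, rfl⟩ : ∃ j, k = j + 1 := by
    refine Nat.exists_eq_succ_of_ne_zero ?_
    rintro rfl
    exact hx1 (orderOf_eq_one_iff.mp hk)
  have hcent : ∀ q ∈ (P : Subgroup G), Commute q x := fun q hq =>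
    mul_inv_eq_iff_eq_mul.mp (hiso q (mul_mem (mul_mem hq hxP) (inv_mem hq)))
  refine ⟨x ^ 2 ^ j, ?_, pow_mem hxP _, fun q hq => ((hcent q hq).pow_right _).eq, fun g hg => ?_⟩
  · rw [orderOf_pow_of_dvd (pow_ne_zero _ two_ne_zero) (by rw [hk]; exact pow_dvd_pow _ j.le_succ),
      hk, pow_succ, Nat.mul_div_cancel_left _ (pow_pos two_pos _)]
  · set t := g * x ^ 2 ^ j * g⁻¹ with ht
    set C := centralizer ({t} : Set G) with hC
    have hxC : x ∈ C := mem_centralizer_singleton_iff.mpr (hcent t hg).eq.symm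
    have hgxC : g * x * g⁻¹ ∈ C := by
      refine mem_centralizer_singleton_iff.mpr ?_
      rw [ht]
      calc g * x * g⁻¹ * (g * x ^ 2 ^ j * g⁻¹) = g * (x * x ^ 2 ^ j) * g⁻¹ := by group
        _ = g * (x ^ 2 ^ j * x) * g⁻¹ := by rw [(Commute.self_pow x _).eq]
        _ = g * x ^ 2 ^ j * g⁻¹ * (g * x * g⁻¹) := by group
    obtain ⟨T, hT⟩ := (isPGroup_zpowers (G := C) (x := ⟨x, hxC⟩)
      (by simpa only [orderOf_mk] using ⟨_, hk⟩)).exists_le_sylow
    obtain ⟨T', hT'⟩ := (isPGroup_zpowers (G := C) (x := ⟨g * x * g⁻¹, hgxC⟩)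
      (by simpa only [orderOf_mk, Involution.orderOf_conj] using ⟨_, hk⟩)).exists_le_sylow
    obtain ⟨c, hc⟩ := MulAction.exists_smul_eq C T' T
    have hy : (c * ⟨g * x * g⁻¹, hgxC⟩ * c⁻¹ : C) ∈ (T : Subgroup C) := by
      rw [← hc, Sylow.coe_subgroup_smul]
      exact smul_mem_pointwise_smul _ (MulAut.conj c) _ (hT' (mem_zpowers _))
    obtain ⟨Q, hQ⟩ := (T.2.map C.subtype).exists_le_sylow
    obtain ⟨d, hd⟩ := MulAction.exists_smul_eq G Q P
    have hmem : ∀ w ∈ (T : Subgroup C), d * (w : G) * d⁻¹ ∈ (P : Subgroup G) := by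
      intro w hw
      rw [← hd, Sylow.coe_subgroup_smul]
      exact smul_mem_pointwise_smul _ (MulAut.conj d) _ (hQ ⟨w, hw, rfl⟩)
    have h1 : d * x * d⁻¹ = x := hiso d (hmem ⟨x, hxC⟩ (hT (mem_zpowers _)))
    have h2 : d * ((c : G) * (g * x * g⁻¹) * (c : G)⁻¹) * d⁻¹ ∈ (P : Subgroup G) := hmem _ hy
    have h3 : ((c : G) * g) * x * ((c : G) * g)⁻¹ = x := by
      have h4 := hiso (d * c * g) (by convert h2 using 1; group)
      refine mul_left_cancel (a := d) (mul_right_cancel (b := d⁻¹) ?_)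
      rw [h1]
      calc d * ((c : G) * g * x * ((c : G) * g)⁻¹) * d⁻¹ = d * c * g * x * (d * c * g)⁻¹ := by group
        _ = x := h4
    have h5 : ((c : G) * g) * x ^ 2 ^ j * ((c : G) * g)⁻¹ = x ^ 2 ^ j := by
      rw [← conj_pow, h3]
    have h6 : (c : G) * t * (c : G)⁻¹ = t := mul_inv_eq_iff_eq_mul.mpr (mem_centralizer_singleton_iff.mp c.2)
    rw [← h6, ht]
    refine Eq.trans ?_ h5
    group

lemma twoNilpotent : ∀ (n : ℕ) (G : Type u) [Group G] [Finite G], Nat.card G = n →
    ∀ P : Sylow 2 G, Nat.card (P : Subgroup G) < 2 * Nat.card (TwoClasses G) →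
      Cfsg.HasNormalPComplement 2 G := by
  intro n
  induction n using Nat.strong_induction_on with
  | _ n ih => ?_
  intro G _ _ hn P hk
  classical
  haveI : Fact (Nat.Prime 2) := ⟨Nat.prime_two⟩
  choose r hr using Cfsg.Agent.S3897.exists_rep P
  rw [Transfer.hasNormalPComplement_iff]
  by_cases hA : ∀ x ∈ (P : Subgroup G), x ≠ 1 → ∃ g : G, g * x * g⁻¹ ∈ (P : Subgroup G) ∧ g * x * g⁻¹ ≠ x
  · choose g hg1 hg2 using hA
    let D := {c : TwoClasses G // c.1 ≠ ConjClasses.mk 1}
    have hne : ∀ c : D, (r c.1 : G) ≠ 1 := fun c h => c.2 (by rw [← hr c.1, h])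
    let f : Option (D × Bool) → (P : Subgroup G)
      | none => 1
      | some (c, false) => r c.1
      | some (c, true) => ⟨_, hg1 _ (r c.1).2 (hne c)⟩
    have hcl : ∀ (c : D) (b : Bool), ConjClasses.mk ((f (some (c, b)) : G)) = c.1.1 := by
      rintro c (_ | _)
      · exact hr c.1
      · rw [← hr c.1]
        exact ConjClasses.mk_eq_mk_iff_isConj.mpr (isConj_iff.mpr ⟨_, rfl⟩).symm
    have hinj : Function.Injective f := by
      rintro (_ | ⟨c, b⟩) (_ | ⟨c', b'⟩) h
      · rfl
      · exact absurd ((hcl c' b').symm.trans (by rw [← h]; rfl)) c'.2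
      · exact absurd ((hcl c b).symm.trans (by rw [h]; rfl)) c.2
      · have e : c = c' := Subtype.ext (Subtype.ext (by rw [← hcl c b, ← hcl c' b', h]))
        subst e
        cases b <;> cases b'
        · rfl
        · exact absurd (congrArg Subtype.val h).symm (hg2 _ (r c.1).2 (hne c))
        · exact absurd (congrArg Subtype.val h) (hg2 _ (r c.1).2 (hne c))
        · rfl
    have h1 := Nat.card_le_card_of_injective f hinj
    rw [Finite.card_option, Nat.card_prod, Nat.card_eq_fintype_card (α := Bool), Fintype.card_bool] at h1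
    have h2 : Nat.card (TwoClasses G) ≤ Nat.card D + 1 := by
      rw [← Finite.card_option]
      refine Nat.card_le_card_of_injective (fun c => if h : c.1 = ConjClasses.mk 1 then none else some ⟨c, h⟩) ?_
      intro a b hab
      dsimp only at hab
      split_ifs at hab with h h'
      · exact Subtype.ext (h.trans h'.symm)
      · exact congrArg Subtype.val (Option.some.inj hab)
    obtain ⟨m, hm⟩ := IsPGroup.iff_card.mp P.2
    have hm0 : m = 0 := by
      by_contra h
      have : 2 ∣ Nat.card (P : Subgroup G) := hm ▸ dvd_pow_self 2 h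
      omega
    intro hd
    have h3 := P.dvd_card_of_dvd_card (hd.trans (card_subgroup_dvd_card _))
    rw [hm, hm0] at h3
    exact absurd (Nat.le_of_dvd one_pos h3) (by norm_num)
  push_neg at hA
  obtain ⟨x, hxP, hx1, hiso⟩ := hA
  obtain ⟨i, hi2, hiP, hicomm, hiiso⟩ := involution_isolated P hxP hx1 hiso
  haveI hNn : (Cfsg.oddCore G).Normal := Involution.oddCore_normal
  set N := Cfsg.oddCore G with hN
  have hNodd : ¬ 2 ∣ Nat.card N := Cfsg.Agent.Lib.Hall.not_dvd_card_pPrimeCore Nat.prime_two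
  have hz := Involution.zstar (Involution.iso_of_sylow P hi2 hiP hiiso)
  have hiN : i ∉ N := fun h => hNodd (hi2 ▸ (orderOf_mk i h ▸ orderOf_dvd_natCard _))
  have hic : (i : G ⧸ N) ∈ center (G ⧸ N) := by
    refine mem_center_iff.mpr fun q => ?_
    induction q using QuotientGroup.induction_on with
    | H g =>
      have := (QuotientGroup.eq_one_iff _).mpr (hz g)
      rw [QuotientGroup.mk_mul, QuotientGroup.mk_mul, QuotientGroup.mk_mul, QuotientGroup.mk_inv,
        QuotientGroup.mk_inv, mul_inv_eq_one, mul_inv_eq_iff_eq_mul] at this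
      exact this.symm
  haveI : (zpowers (i : G ⧸ N)).Normal :=
    ⟨fun y hy g => by
      rw [mem_center_iff.mp ((zpowers_le.mpr hic) hy) g, mul_inv_cancel_right]; exact hy⟩
  set L := (zpowers (i : G ⧸ N)).comap (QuotientGroup.mk' N) with hL
  haveI hLn : L.Normal := Normal.comap inferInstance _
  have hLmem : ∀ l ∈ L, l ∈ N ∨ i⁻¹ * l ∈ N := by
    intro l hl
    obtain ⟨e, he⟩ := mem_zpowers_iff.mp hl
    have hsq : (i : G ⧸ N) ^ 2 = 1 := by
      rw [← QuotientGroup.mk_pow, ← hi2, pow_orderOf_eq_one]; rfl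
    rcases Int.even_or_odd' e with ⟨f, rfl | rfl⟩
    · left
      rw [zpow_mul, zpow_two, ← pow_two, hsq, one_zpow] at he
      exact (QuotientGroup.eq_one_iff l).mp he.symm
    · right
      rw [zpow_add_one, zpow_mul, zpow_two, ← pow_two, hsq, one_zpow, one_mul] at he
      exact QuotientGroup.eq.mp he
  have hcardL : Nat.card L = 2 * Nat.card N := by
    have h1 := L.card_mul_index
    rw [hL, index_comap_of_surjective _ (QuotientGroup.mk'_surjective N)] at h1
    have h2 := (zpowers (i : G ⧸ N)).card_mul_index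
    have h3 : Nat.card (zpowers (i : G ⧸ N)) = 2 := by
      rw [Nat.card_zpowers]
      refine orderOf_eq_prime ?_ (fun h => hiN ((QuotientGroup.eq_one_iff i).mp h))
      rw [← QuotientGroup.mk_pow, ← hi2, pow_orderOf_eq_one]; rfl
    rw [← N.card_mul_index, N.index_eq_card, ← h2, h3] at h1
    exact Nat.eq_of_mul_eq_mul_right (Nat.pos_of_ne_zero (index_ne_zero_of_finite (H := zpowers (i : G ⧸ N))))
      (by rw [hL]; linarith)
  have hiL : i ∈ L := mem_zpowers _
  -- the bound on classes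
  have hF : ∀ a : TwoClasses G, ∀ y ∈ (ConjClasses.mk ((r a : G) : G ⧸ L)).carrier,
      ∃ k : ℕ, orderOf y = 2 ^ k := by
    intro a y hy
    obtain ⟨c, rfl⟩ := isConj_iff.mp (ConjClasses.mk_eq_mk_iff_isConj.mp
      (ConjClasses.mem_carrier_iff_mk_eq.mp hy)).symm
    rw [Involution.orderOf_conj]
    obtain ⟨k, hk'⟩ := two_power_of_mem P (r a).2
    obtain ⟨k', -, hk''⟩ := (Nat.dvd_prime_pow Nat.prime_two).mp
      (hk' ▸ orderOf_map_dvd (QuotientGroup.mk' L) (r a : G))
    exact ⟨k', hk''⟩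
  let F : TwoClasses G → TwoClasses (G ⧸ L) := fun a => ⟨_, hF a⟩
  have hfib : ∀ a b, F b = F a → b = a ∨ b.1 = ConjClasses.mk ((r a : G) * i) := by
    intro a b hab
    obtain ⟨g, hg⟩ := isConj_iff.mp (ConjClasses.mk_eq_mk_iff_isConj.mp (congrArg Subtype.val hab))
    induction g using QuotientGroup.induction_on with
    | H g =>
      rw [← QuotientGroup.mk_inv, ← QuotientGroup.mk_mul, ← QuotientGroup.mk_mul] at hg
      have hu : ∃ k : ℕ, orderOf (g * r b * g⁻¹) = 2 ^ k := by
        rw [Involution.orderOf_conj]; exact two_power_of_mem P (r b).2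
      have hb : ∀ w, IsConj (g * r b * g⁻¹) w → b.1 = ConjClasses.mk w := fun w hw => by
        rw [← hr b]
        exact ConjClasses.mk_eq_mk_iff_isConj.mpr ((isConj_iff.mpr ⟨g, rfl⟩).trans hw)
      rcases hLmem _ (QuotientGroup.eq.mp hg.symm) with h | h
      · exact Or.inl (Subtype.ext ((hb _ (isConj_of_congr N hNodd hu (two_power_of_mem P (r a).2) h)).trans (hr a)))
      · exact Or.inr (hb _ (isConj_of_congr N hNodd hu (two_power_of_mem P (mul_mem (r a).2 hiP))
          (by rwa [mul_inv_rev, mul_assoc])))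
  have hk2 : Nat.card (TwoClasses G) ≤ 2 * Nat.card (TwoClasses (G ⧸ L)) := by
    haveI := Fintype.ofFinite (TwoClasses G)
    haveI := Fintype.ofFinite (TwoClasses (G ⧸ L))
    rw [Nat.card_eq_fintype_card, Nat.card_eq_fintype_card, ← Finset.card_univ, ← Finset.card_univ]
    refine le_trans (Finset.card_le_mul_card_image (f := F) Finset.univ 2 fun d hd => ?_)
      (Nat.mul_le_mul_left _ (Finset.card_le_univ _))
    obtain ⟨a, -, rfl⟩ := Finset.mem_image.mp hd
    by_cases hex : ∃ b, F b = F a ∧ b ≠ a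
    · obtain ⟨b, hb1, hb2⟩ := hex
      refine le_trans (Finset.card_le_card (t := {a, b}) fun c hc => ?_) Finset.card_le_two
      rcases hfib a c (Finset.mem_filter.mp hc).2 with h | h
      · simp [h]
      · rcases hfib a b hb1 with h' | h'
        · exact absurd h' hb2
        · simp [Subtype.ext (h.trans h'.symm)]
    · push_neg at hex
      refine le_trans (Finset.card_le_card (t := {a}) fun c hc => ?_) (by simp)
      simp [hex c (Finset.mem_filter.mp hc).2]
  let P' : Sylow 2 (G ⧸ L) := P.mapSurjective (QuotientGroup.mk'_surjective L)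
  have hcardP : 2 * Nat.card (P' : Subgroup (G ⧸ L)) = Nat.card (P : Subgroup G) := by
    rw [P'.card_eq_multiplicity, P.card_eq_multiplicity, L.card_eq_card_quotient_mul_card_subgroup, hcardL,
      Nat.factorization_mul Nat.card_pos.ne' (mul_ne_zero two_ne_zero Nat.card_pos.ne'), Finsupp.add_apply,
      Nat.factorization_mul two_ne_zero Nat.card_pos.ne', Finsupp.add_apply,
      Nat.Prime.factorization_self Nat.prime_two, Nat.factorization_eq_zero_of_not_dvd hNodd,
      add_zero, pow_add, pow_one, mul_comm]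
  have hlt : Nat.card (G ⧸ L) < n := by
    rw [← hn, L.card_eq_card_quotient_mul_card_subgroup, hcardL]
    exact lt_mul_right Nat.card_pos (by linarith [Nat.card_pos (α := N)])
  have hcomp := ih _ hlt (G ⧸ L) rfl P' (by omega)
  rw [Transfer.hasNormalPComplement_iff, ← Transfer.map_pResidual_of_surjective _ (QuotientGroup.mk'_surjective L)] at hcomp
  set R := Cfsg.pResidual 2 G with hR
  haveI hRn : R.Normal := inferInstance
  set K := R.map (QuotientGroup.mk' L) with hK
  have hcardK : Nat.card (K.comap (QuotientGroup.mk' L)) = Nat.card L * Nat.card K := by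
    have h1 := (K.comap (QuotientGroup.mk' L)).card_mul_index
    rw [index_comap_of_surjective _ (QuotientGroup.mk'_surjective L), ← L.card_mul_index, L.index_eq_card,
      ← K.card_mul_index, ← mul_assoc] at h1
    exact Nat.eq_of_mul_eq_mul_right (Nat.pos_of_ne_zero index_ne_zero_of_finite) h1
  have h4 : ¬ 2 * 2 ∣ Nat.card R := by
    intro hd
    have h := hd.trans (card_dvd_of_le (R.le_comap_map (QuotientGroup.mk' L)))
    rw [hcardK, hcardL, mul_assoc, Nat.mul_dvd_mul_iff_left two_pos] at h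
    rcases Nat.prime_two.dvd_mul.mp h with h' | h'
    · exact hNodd h'
    · exact hcomp h'
  intro hd
  obtain ⟨S⟩ := (inferInstance : Nonempty (Sylow 2 R))
  haveI : IsCyclic (S : Subgroup R) := by
    obtain ⟨m, hm⟩ := IsPGroup.iff_card.mp S.2
    refine isCyclic_of_card_dvd_prime (p := 2) ?_
    rw [hm]
    by_cases hm2 : 2 ≤ m
    · exfalso
      apply h4
      exact (dvd_of_eq (pow_two 2).symm).trans ((pow_dvd_pow 2 hm2).trans (hm ▸ card_subgroup_dvd_card _))
    · exact (pow_dvd_pow 2 (by omega : m ≤ 1)).trans (by norm_num)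
  have h5 := LocalP2.hasNormalPComplement_of_cyclic_smallest S (fun q hq _ => hq.two_le)
  rw [Transfer.hasNormalPComplement_iff, hR, Transfer.pResidual_pResidual, card_top] at h5
  exact h5 hd

/-- Let G be a finite group with Sylow 2-subgroup P, and write k₂(G) for the number of conjugacy classes of G consisting of 2-elements (elements of 2-power order, the identity included). Then k₂(G) > |P|/2 if and only if G has a normal 2-complement and P has more than |P|/2 conjugacy classes. -/
theorem result {G : Type*} [Group G] [Finite G] (P : Sylow 2 G) :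
    Nat.card ↥(P : Subgroup G) < 2 * Nat.card {c : ConjClasses G // ∀ x ∈ c.carrier, ∃ k : ℕ, orderOf x = 2 ^ k} ↔
      Cfsg.HasNormalPComplement 2 G ∧ Nat.card ↥(P : Subgroup G) < 2 * Nat.card (ConjClasses ↥(P : Subgroup G)) := by
  have hle := Cfsg.Agent.S3897.classes_le P
  constructor
  · intro hk
    exact ⟨twoNilpotent _ G rfl P hk, by omega⟩
  · rintro ⟨⟨P', K, hK, hc⟩, hkP⟩
    haveI := hK
    haveI : Fact (Nat.Prime 2) := ⟨Nat.prime_two⟩
    obtain ⟨g, hg⟩ := MulAction.exists_smul_eq G P P'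
    have heq : Nat.card (ConjClasses ↥(P : Subgroup G)) ≤ Nat.card (ConjClasses ↥(P' : Subgroup G)) := by
      rw [← hg]
      exact Nat.card_le_card_of_surjective (ConjClasses.map (P.equivSMul g).symm.toMonoidHom)
        (ConjClasses.map_surjective (P.equivSMul g).symm.surjective)
    have hconj : ∀ x y : ↥(P' : Subgroup G), IsConj (x : G) y → IsConj x y := by
      intro x y hxy
      obtain ⟨c, hc'⟩ := isConj_iff.mp hxy
      obtain ⟨⟨k, q⟩, hkq⟩ := hc.2 c
      refine isConj_iff.mpr ⟨q, Subtype.ext ?_⟩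
      have hmem : ((q : G) * x * (q : G)⁻¹)⁻¹ * y ∈ K ⊓ (P' : Subgroup G) := by
        refine ⟨QuotientGroup.eq.mp ?_, (P' : Subgroup G).mul_mem ((P' : Subgroup G).inv_mem (mul_mem (mul_mem q.2 x.2) ((P' : Subgroup G).inv_mem q.2))) y.2⟩
        have hk1 := (QuotientGroup.eq_one_iff (N := K) (k : G)).mpr k.2
        have e : ((c : G) : G ⧸ K) = ((q : G) : G ⧸ K) := by
          rw [← hkq, QuotientGroup.mk_mul, hk1, one_mul]
        rw [← hc', QuotientGroup.mk_mul, QuotientGroup.mk_mul, QuotientGroup.mk_mul, QuotientGroup.mk_mul,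
          QuotientGroup.mk_inv, QuotientGroup.mk_inv, e]
      rw [hc.disjoint.eq_bot, Subgroup.mem_bot, inv_mul_eq_one] at hmem
      exact hmem
    have hk2 : Nat.card (ConjClasses ↥(P' : Subgroup G)) ≤ Nat.card (TwoClasses G) := by
      refine Nat.card_le_card_of_injective (fun c => ⟨ConjClasses.mk ((Quotient.out c : ↥(P' : Subgroup G)) : G),
        fun y hy => ?_⟩) ?_
      · obtain ⟨c, rfl⟩ := isConj_iff.mp (ConjClasses.mk_eq_mk_iff_isConj.mp
          (ConjClasses.mem_carrier_iff_mk_eq.mp hy)).symm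
        rw [Involution.orderOf_conj]
        exact two_power_of_mem P' (SetLike.coe_mem _)
      · intro a b hab
        have h1 := hconj _ _ (ConjClasses.mk_eq_mk_iff_isConj.mp (congrArg Subtype.val hab))
        rw [← Quotient.out_eq a, ← Quotient.out_eq b]
        exact ConjClasses.mk_eq_mk_iff_isConj.mpr h1
    show _ < 2 * Nat.card (TwoClasses G)
    omega

end Cfsg.Agent.S3895
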