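import Cfsg.Statements.S3899
import Mathlib
import Cfsg.Agent.S3897

set_option autoImplicit false
open Cfsg

namespace Cfsg.Agent.S3899


universe u

/-- number of classes of elements whose order involves only primes in `π` -/
noncomputable abbrev kc (π : Finset ℕ) (G : Type*) [Group G] : ℕ :=
  Nat.card {c : ConjClasses G // ∀ x ∈ c.carrier, ∀ r : ℕ, r.Prime → r ∣ orderOf x → r ∈ π}

lemma mem_iff_of_isConj {G : Type*} [Group G] {π : Finset ℕ} {x y : G} (h : IsConj x y) :
    (∀ r : ℕ, r.Prime → r ∣ orderOf x → r ∈ π) ↔ ∀ r : ℕ, r.Prime → r ∣ orderOf y → r ∈ π := by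
  obtain ⟨c, rfl⟩ := isConj_iff.mp h
  rw [show c * x * c⁻¹ = MulAut.conj c x from rfl, MulEquiv.orderOf_eq]

/-- the `q`-part and the prime-to-`q` part of an element -/
lemma exists_parts {G : Type*} [Group G] [Finite G] {q : ℕ} (hq : q.Prime) {π : Finset ℕ} (x : G)
    (hx : ∀ r : ℕ, r.Prime → r ∣ orderOf x → r ∈ π) :
    ∃ y z : G, Commute y z ∧ y * z = x ∧ (∀ r : ℕ, r.Prime → r ∣ orderOf y → r ∈ ({q} : Finset ℕ)) ∧
      ∀ r : ℕ, r.Prime → r ∣ orderOf z → r ∈ π.erase q := by
  have hn : orderOf x ≠ 0 := (orderOf_pos x).ne'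
  set a := q ^ (orderOf x).factorization q with ha
  set m := orderOf x / a with hm
  have hmul : a * m = orderOf x := Nat.ordProj_mul_ordCompl_eq_self _ _
  have hqm : ¬ q ∣ m := Nat.not_dvd_ordCompl hq hn
  have hcop : Nat.Coprime a m := Nat.Coprime.pow_left _ (hq.coprime_iff_not_dvd.mpr hqm)
  have hbez := Nat.gcd_eq_gcd_ab a m
  rw [hcop.gcd_eq_one] at hbez
  have hone : x ^ ((a : ℤ) * (m : ℤ)) = 1 := by
    rw [← Nat.cast_mul, hmul, zpow_natCast, pow_orderOf_eq_one]
  refine ⟨x ^ ((m : ℤ) * Nat.gcdB a m), x ^ ((a : ℤ) * Nat.gcdA a m), Commute.zpow_zpow_self _ _ _, ?_, ?_, ?_⟩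
  · rw [← zpow_add, add_comm ((m : ℤ) * _), ← hbez, Nat.cast_one, zpow_one]
  · intro r hr hd
    have h1 : orderOf (x ^ ((m : ℤ) * Nat.gcdB a m)) ∣ a := by
      apply orderOf_dvd_of_pow_eq_one
      rw [← zpow_natCast, ← zpow_mul, show (m : ℤ) * Nat.gcdB a m * (a : ℤ) = (a : ℤ) * m * Nat.gcdB a m by ring,
        zpow_mul, hone, one_zpow]
    rw [Finset.mem_singleton]
    exact (Nat.prime_dvd_prime_iff_eq hr hq).mp (hr.dvd_of_dvd_pow (hd.trans h1))
  · intro r hr hd
    have h1 : orderOf (x ^ ((a : ℤ) * Nat.gcdA a m)) ∣ m := by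
      apply orderOf_dvd_of_pow_eq_one
      rw [← zpow_natCast, ← zpow_mul, show (a : ℤ) * Nat.gcdA a m * (m : ℤ) = (a : ℤ) * m * Nat.gcdA a m by ring,
        zpow_mul, hone, one_zpow]
    have h2 : r ∣ m := hd.trans h1
    refine Finset.mem_erase.mpr ⟨fun h => hqm (h ▸ h2), hx r hr (h2.trans ?_)⟩
    exact ⟨a, by rw [← hmul, mul_comm]⟩

lemma kc_le_sylow {G : Type*} [Group G] [Finite G] {q : ℕ} [hq : Fact q.Prime] :
    kc {q} G ≤ q ^ (Nat.card G).factorization q := by
  let P : Sylow q G := Classical.arbitrary _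
  rw [← P.card_eq_multiplicity]
  refine le_trans ?_ (Nat.card_le_card_of_surjective ConjClasses.mk ConjClasses.mk_surjective)
  refine le_trans (le_of_eq (Nat.card_congr (Equiv.subtypeEquivRight (fun c => ?_)))) (Cfsg.Agent.S3897.classes_le P)
  constructor
  · intro h x hx
    exact ⟨_, Nat.eq_prime_pow_of_unique_prime_dvd (orderOf_pos x).ne'
      (fun {d} hd hdvd => Finset.mem_singleton.mp (h x hx d hd hdvd))⟩
  · intro h x hx r hr hd
    obtain ⟨k, hk⟩ := h x hx
    rw [hk] at hd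
    exact Finset.mem_singleton.mpr ((Nat.prime_dvd_prime_iff_eq hr hq.out).mp (hr.dvd_of_dvd_pow hd))

lemma kc_le (π : Finset ℕ) : ∀ (G : Type u) [Group G] [Finite G], (∀ r ∈ π, r.Prime) → ∀ q ∈ π,
    kc π G ≤ kc {q} G * (π.erase q).prod (fun r => r ^ (Nat.card G).factorization r) := by
  induction π using Finset.strongInduction with
  | _ π ih =>
    intro G _ _ hπ q hq
    classical
    haveI := Fintype.ofFinite G
    -- the bound for smaller sets
    have hsmall : ∀ C : Subgroup G,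
        kc (π.erase q) C ≤ (π.erase q).prod (fun r => r ^ (Nat.card G).factorization r) := by
      intro C
      refine le_trans ?_ (Finset.prod_le_prod (fun _ _ => Nat.zero_le _) (fun r hr =>
        Nat.pow_le_pow_right (hπ r (Finset.mem_of_mem_erase hr)).pos
          ((Nat.factorization_le_iff_dvd Nat.card_pos.ne' Nat.card_pos.ne').mpr C.card_subgroup_dvd_card r)))
      rcases (π.erase q).eq_empty_or_nonempty with he | ⟨s, hs⟩
      · rw [he, Finset.prod_empty]
        have : Subsingleton {c : ConjClasses ↥C // ∀ x ∈ c.carrier, ∀ r : ℕ, r.Prime → r ∣ orderOf x → r ∈ π.erase q} := by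
          refine ⟨fun c d => Subtype.ext ?_⟩
          have h1 : ∀ e : {c : ConjClasses ↥C // ∀ x ∈ c.carrier, ∀ r : ℕ, r.Prime → r ∣ orderOf x → r ∈ π.erase q},
              e.1 = ConjClasses.mk 1 := by
            rintro ⟨e, he'⟩
            obtain ⟨x, rfl⟩ := ConjClasses.mk_surjective e
            have hx : orderOf x = 1 := by
              by_contra h
              obtain ⟨r, hr, hd⟩ := Nat.exists_prime_and_dvd h
              have := he' x ConjClasses.mem_carrier_mk r hr hd
              rw [he] at this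
              simp at this
            exact congrArg ConjClasses.mk (orderOf_eq_one_iff.mp hx)
          rw [h1 c, h1 d]
        rw [← he]
        exact Finite.card_le_one_iff_subsingleton.mpr this
      · have hsp : s.Prime := hπ s (Finset.mem_of_mem_erase hs)
        haveI := Fact.mk hsp
        refine le_trans (ih _ (Finset.erase_ssubset hq) C (fun r hr => hπ r (Finset.mem_of_mem_erase hr)) s hs) ?_
        rw [← Finset.mul_prod_erase (π.erase q) _ hs]
        exact Nat.mul_le_mul_right _ kc_le_sylow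
    let D := {c : ConjClasses G // ∀ x ∈ c.carrier, ∀ r : ℕ, r.Prime → r ∣ orderOf x → r ∈ ({q} : Finset ℕ)}
    let rep : D → G := fun d => Quotient.out d.1
    have hrep : ∀ d : D, ConjClasses.mk (rep d) = d.1 := fun d => Quotient.out_eq d.1
    have key : ∀ c : {c : ConjClasses G // ∀ x ∈ c.carrier, ∀ r : ℕ, r.Prime → r ∣ orderOf x → r ∈ π},
        ∃ (d : D) (z : ↥(Subgroup.centralizer ({rep d} : Set G))),
          (∀ r : ℕ, r.Prime → r ∣ orderOf z → r ∈ π.erase q) ∧ ConjClasses.mk (rep d * z) = c.1 := by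
      rintro ⟨c, hc⟩
      obtain ⟨x, rfl⟩ := ConjClasses.mk_surjective c
      obtain ⟨y, z, hcomm, hyz, hy, hz⟩ := exists_parts (hπ q hq) x (hc x ConjClasses.mem_carrier_mk)
      let d : D := ⟨ConjClasses.mk y, fun w hw => (mem_iff_of_isConj
        (ConjClasses.mk_eq_mk_iff_isConj.mp (ConjClasses.mem_carrier_iff_mk_eq.mp hw))).mpr hy⟩
      obtain ⟨g, hg⟩ := isConj_iff.mp (ConjClasses.mk_eq_mk_iff_isConj.mp (hrep d).symm)
      refine ⟨d, ⟨g * z * g⁻¹, ?_⟩, ?_, ?_⟩
      · rw [Subgroup.mem_centralizer_singleton_iff, ← hg]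
        calc g * z * g⁻¹ * (g * y * g⁻¹) = g * (z * y) * g⁻¹ := by group
          _ = g * (y * z) * g⁻¹ := by rw [hcomm.eq]
          _ = g * y * g⁻¹ * (g * z * g⁻¹) := by group
      · rw [← Subgroup.orderOf_coe]
        exact (mem_iff_of_isConj (isConj_iff.mpr ⟨g, rfl⟩)).mp hz
      · refine ConjClasses.mk_eq_mk_iff_isConj.mpr (IsConj.symm (isConj_iff.mpr ⟨g, ?_⟩))
        show g * x * g⁻¹ = rep d * (g * z * g⁻¹)
        rw [← hg, ← hyz]
        group
    choose d z hz hdz using key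
    let F : {c : ConjClasses G // ∀ x ∈ c.carrier, ∀ r : ℕ, r.Prime → r ∣ orderOf x → r ∈ π} →
        Σ d : D, {e : ConjClasses ↥(Subgroup.centralizer ({rep d} : Set G)) //
          ∀ w ∈ e.carrier, ∀ r : ℕ, r.Prime → r ∣ orderOf w → r ∈ π.erase q} := fun c =>
      ⟨d c, ⟨ConjClasses.mk (z c), fun w hw => (mem_iff_of_isConj
        (ConjClasses.mk_eq_mk_iff_isConj.mp (ConjClasses.mem_carrier_iff_mk_eq.mp hw))).mpr (hz c)⟩⟩
    have hF : Function.Injective F := by
      intro a b hab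
      apply Subtype.ext
      rw [← hdz a, ← hdz b]
      have : ∀ (u v : Σ d : D, {e : ConjClasses ↥(Subgroup.centralizer ({rep d} : Set G)) //
          ∀ w ∈ e.carrier, ∀ r : ℕ, r.Prime → r ∣ orderOf w → r ∈ π.erase q})
          (s : ↥(Subgroup.centralizer ({rep u.1} : Set G))) (t : ↥(Subgroup.centralizer ({rep v.1} : Set G))),
          u = v → u.2.1 = ConjClasses.mk s → v.2.1 = ConjClasses.mk t →
          ConjClasses.mk (rep u.1 * s) = ConjClasses.mk (rep v.1 * t) := by
        rintro u v s t rfl hs ht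
        obtain ⟨g, hg⟩ := isConj_iff.mp (ConjClasses.mk_eq_mk_iff_isConj.mp (hs.symm.trans ht))
        refine ConjClasses.mk_eq_mk_iff_isConj.mpr (isConj_iff.mpr ⟨(g : G), ?_⟩)
        have h1 := Subgroup.mem_centralizer_singleton_iff.mp g.2
        have h2 : (g : G) * s * (g : G)⁻¹ = t := congrArg Subtype.val hg
        rw [← h2]
        calc (g : G) * (rep u.1 * s) * (g : G)⁻¹ = ((g : G) * rep u.1) * s * (g : G)⁻¹ := by group
          _ = rep u.1 * ((g : G) * s * (g : G)⁻¹) := by rw [h1]; group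
      exact this (F a) (F b) (z a) (z b) hab rfl rfl
    refine le_trans (Nat.card_le_card_of_injective F hF) ?_
    rw [Nat.card_sigma]
    refine le_trans (Finset.sum_le_sum (fun e _ => hsmall _)) ?_
    rw [Finset.sum_const, Finset.card_univ, smul_eq_mul, ← Nat.card_eq_fintype_card]

/-- Let π be a finite non-empty set of odd primes with smallest member p and G a finite group. Write k_π(G) for the number of conjugacy classes of G consisting of π-elements (elements all of whose order's prime divisors lie in π) and |G|_π for the π-part of the order of G. If k_π(G) > (p + 1)|G|_π/(2p), then G has a normal π-complement (a normal subgroup of order prime to π whose index is a π-number) and an abelian Hall π-subgroup. -/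
theorem result {G : Type*} [Group G] [Finite G] (π : Finset ℕ) (hπ : ∀ r ∈ π, r.Prime) (h2 : 2 ∉ π) (p : ℕ) (hp : p ∈ π)
    (hmin : ∀ r ∈ π, p ≤ r) (hk : (p + 1) * π.prod (fun r => r ^ (Nat.card G).factorization r) < 2 * p * Nat.card {c : ConjClasses G // ∀ x ∈ c.carrier, ∀ r : ℕ, r.Prime → r ∣ orderOf x → r ∈ π}) :
    (∃ N : Subgroup G, N.Normal ∧ (∀ r : ℕ, r.Prime → r ∣ Nat.card ↥N → r ∉ π) ∧ ∀ r : ℕ, r.Prime → r ∣ N.index → r ∈ π) ∧ ∃ H : Subgroup G, Cfsg.IsPiHall (↑π : Set ℕ) H ∧ IsMulCommutative ↥H := by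
  classical
  have hq : ∀ q : ↥π, ∃ K : Subgroup G, K.Normal ∧ ¬ (q : ℕ) ∣ Nat.card ↥K ∧
      K.index = (q : ℕ) ^ (Nat.card G).factorization q ∧ ∀ x y : G, (x * y)⁻¹ * (y * x) ∈ K := by
    rintro ⟨q, hq⟩
    haveI := Fact.mk (hπ q hq)
    let Q : Sylow q G := Classical.arbitrary _
    have h1 : Nat.card {c : ConjClasses G // ∀ x ∈ c.carrier, ∀ r : ℕ, r.Prime → r ∣ orderOf x → r ∈ π} ≤ Nat.card {c : ConjClasses G // ∀ x ∈ c.carrier, ∀ r : ℕ, r.Prime → r ∣ orderOf x → r ∈ ({q} : Finset ℕ)} * _ := kc_le π G hπ q hq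
    have hq2 : q ≠ 2 := fun h => h2 (h ▸ hq)
    have hval : Nat.card {c : ConjClasses G // ∀ x ∈ c.carrier, ∀ r : ℕ, r.Prime → r ∣ orderOf x → r ∈ ({q} : Finset ℕ)}
        = Nat.card {c : ConjClasses G // ∀ x ∈ c.carrier, ∃ k : ℕ, orderOf x = q ^ k} :=
      Nat.card_congr (Equiv.subtypeEquivRight (fun c => by
        constructor
        · intro h x hx
          exact ⟨_, Nat.eq_prime_pow_of_unique_prime_dvd (orderOf_pos x).ne'
            (fun {d} hd hdvd => Finset.mem_singleton.mp (h x hx d hd hdvd))⟩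
        · intro h x hx r hr hd
          obtain ⟨k, hk'⟩ := h x hx
          rw [hk'] at hd
          exact Finset.mem_singleton.mpr ((Nat.prime_dvd_prime_iff_eq hr (hπ q hq)).mp (hr.dvd_of_dvd_pow hd))))
    have hlt : (q + 1) * Nat.card ↥(Q : Subgroup G) <
        2 * q * Nat.card {c : ConjClasses G // ∀ x ∈ c.carrier, ∃ k : ℕ, orderOf x = q ^ k} := by
      rw [← hval, Q.card_eq_multiplicity]
      rw [← Finset.mul_prod_erase π _ hq] at hk
      have hpq := hmin q hq
      generalize (π.erase q).prod (fun r => r ^ (Nat.card G).factorization r) = R at *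
      generalize q ^ (Nat.card G).factorization q = A at *
      generalize Nat.card {c : ConjClasses G // ∀ x ∈ c.carrier, ∀ r : ℕ, r.Prime → r ∣ orderOf x → r ∈ π} = K at *
      generalize Nat.card {c : ConjClasses G // ∀ x ∈ c.carrier, ∀ r : ℕ, r.Prime → r ∣ orderOf x → r ∈ ({q} : Finset ℕ)} = k at *
      by_contra hcon
      push_neg at hcon
      have h3 : 2 * q * K ≤ (q + 1) * A * R := by
        calc 2 * q * K ≤ 2 * q * (k * R) := Nat.mul_le_mul_left _ h1
          _ = 2 * q * k * R := by ring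
          _ ≤ (q + 1) * A * R := Nat.mul_le_mul_right _ hcon
      have h4 : p * ((q + 1) * A * R) ≤ q * ((p + 1) * (A * R)) := by nlinarith
      have h5 : 0 < q := (hπ q hq).pos
      nlinarith [Nat.mul_le_mul_left p h3, Nat.mul_lt_mul_of_pos_left hk h5]
    obtain ⟨⟨P', K, hK, hc⟩, hab⟩ := (Cfsg.Agent.S3897.result hq2 Q).mp hlt
    haveI := hK
    haveI : IsMulCommutative ↥(P' : Subgroup G) := by
      obtain ⟨g, hg⟩ := MulAction.exists_smul_eq G Q P'
      rw [← hg]
      exact ⟨⟨fun a b => (Q.equivSMul g).symm.injective (by rw [map_mul, map_mul]; exact hab.1.1 _ _)⟩⟩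
    have hidx : K.index = Nat.card ↥(P' : Subgroup G) := hc.symm.index_eq_card
    refine ⟨K, hK, ?_, by rw [hidx, P'.card_eq_multiplicity], fun x y => ?_⟩
    · rw [← hc.index_eq_card]
      exact P'.not_dvd_index
    · have e := hc.symm.QuotientMulEquiv
      apply QuotientGroup.eq.mp
      apply e.injective
      rw [QuotientGroup.mk_mul, QuotientGroup.mk_mul, map_mul, map_mul]
      exact mul_comm' _ _
  choose K hKn hKc hKi hKab using hq
  haveI : ∀ q, (K q).Normal := hKn
  let φ : G →* ((q : ↥π) → G ⧸ K q) := MonoidHom.pi (fun q => QuotientGroup.mk' (K q))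
  have hmem : ∀ x, x ∈ φ.ker → ∀ q, x ∈ K q := fun x hx q =>
    (QuotientGroup.eq_one_iff x).mp (congrFun (MonoidHom.mem_ker.mp hx) q)
  have hN1 : ∀ r : ℕ, r.Prime → r ∣ Nat.card ↥φ.ker → r ∉ π := fun r hr hd hrπ =>
    hKc ⟨r, hrπ⟩ (hd.trans (Subgroup.card_dvd_of_le (fun x hx => hmem x hx _)))
  have hN2 : ∀ r : ℕ, r.Prime → r ∣ φ.ker.index → r ∈ π := by
    intro r hr hd
    have h1 : φ.ker.index ∣ ∏ q : ↥π, (K q).index := by
      rw [Subgroup.index_ker, Finset.prod_congr rfl (fun q _ => (K q).index_eq_card), ← Nat.card_pi]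
      exact Subgroup.card_subgroup_dvd_card _
    obtain ⟨q, -, hqd⟩ := (Nat.Prime.prime hr).exists_mem_finset_dvd (hd.trans h1)
    rw [hKi] at hqd
    rw [(Nat.prime_dvd_prime_iff_eq hr (hπ _ q.2)).mp (hr.dvd_of_dvd_pow hqd)]
    exact q.2
  refine ⟨⟨φ.ker, inferInstance, hN1, hN2⟩, ?_⟩
  obtain ⟨H, hH⟩ := Subgroup.exists_right_complement'_of_coprime (N := φ.ker)
    (Nat.coprime_of_dvd (fun r hr h3 h4 => hN1 r hr h3 (hN2 r hr h4)))
  refine ⟨H, ⟨?_, ?_⟩, ⟨⟨fun a b => ?_⟩⟩⟩
  · intro r hr hd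
    rw [← hH.symm.index_eq_card] at hd
    exact Finset.mem_coe.mpr (hN2 r hr hd)
  · intro r hr hrπ hd
    rw [hH.index_eq_card] at hd
    exact hN1 r hr hd (Finset.mem_coe.mp hrπ)
  · have h3 : ((a * b)⁻¹ * (b * a) : ↥H).1 ∈ φ.ker ⊓ H := by
      refine Subgroup.mem_inf.mpr ⟨?_, SetLike.coe_mem _⟩
      rw [MonoidHom.mem_ker]
      funext q
      exact (QuotientGroup.eq_one_iff _).mpr (hKab q (a : G) b)
    rw [hH.disjoint.eq_bot, Subgroup.mem_bot, OneMemClass.coe_eq_one, inv_mul_eq_one] at h3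
    exact h3

end Cfsg.Agent.S3899
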