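import Cfsg.Statements.S3898
import Mathlib
import Cfsg.Agent.S3895
import Cfsg.Agent.S3897
import Cfsg.Agent.S3899

set_option autoImplicit false
open Cfsg

namespace Cfsg.Agent.S3898

open Subgroup
open scoped Pointwise

variable {G : Type*} [Group G] [Finite G] {q : ℕ} [hq : Fact q.Prime]

lemma commute_of_pow_commute {n r : G} {d : ℕ} (hd : d.Coprime (orderOf n))
    (h : Commute (n ^ d) r) : Commute n r := by
  obtain ⟨m, hm⟩ := exists_pow_eq_self_of_coprime hd
  rw [← hm]
  exact h.pow_left m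

/-- an element of odd order prime to `q` normalising an abelian Sylow `q`-subgroup with many classes
centralises it -/
lemma centralizes_of_classes (hq2 : q ≠ 2) (Q : Sylow q G) {n : G}
    (hn : n ∈ normalizer ((Q : Subgroup G) : Set G)) (hodd : Nat.Coprime 2 (orderOf n))
    (hnq : Nat.Coprime q (orderOf n))
    (hk : Nat.card ↥(Q : Subgroup G) <
      2 * Nat.card {c : ConjClasses G // ∀ x ∈ c.carrier, ∃ k : ℕ, orderOf x = q ^ k}) :
    ∀ x ∈ (Q : Subgroup G), Commute n x := by
  classical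
  by_contra hne
  set C := (Q : Subgroup G) ⊓ centralizer ({n} : Set G) with hC
  choose r hr using Cfsg.Agent.S3897.exists_rep Q
  let m := if q = 3 then 4 else 3
  have hd : ∀ d, 0 < d → d < m → d.Coprime (orderOf n) := by
    intro d hd0 hdm
    rcases eq_or_ne q 3 with h3 | h3
    · simp only [m, if_pos h3] at hdm
      interval_cases d
      · exact Nat.coprime_one_left _
      · exact hodd
      · exact h3 ▸ hnq
    · simp only [m, if_neg h3] at hdm
      interval_cases d
      · exact Nat.coprime_one_left _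
      · exact hodd
  have hpow : ∀ (i : ℕ), ∀ x ∈ (Q : Subgroup G), n ^ i * x * (n ^ i)⁻¹ ∈ (Q : Subgroup G) :=
    fun i x hx => (mem_normalizer_iff.mp (pow_mem hn i) x).mp hx
  let κ := {c : ConjClasses G // ∀ x ∈ c.carrier, ∃ k : ℕ, orderOf x = q ^ k}
  let A := {c : κ // (r c : G) ∈ C}
  let B := {c : κ // (r c : G) ∉ C}
  let f : A ⊕ (B × Fin m) → (Q : Subgroup G) := Sum.elim (fun c => r c.1)
    (fun cb => ⟨_, hpow cb.2 _ (r cb.1.1).2⟩)
  have hcl : ∀ z, ConjClasses.mk (f z : G) = (Sum.elim (fun c : A => c.1.1) (fun cb : B × Fin m => cb.1.1.1) z) := by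
    rintro (c | ⟨c, i⟩)
    · exact hr c.1
    · rw [Sum.elim_inr, ← hr c.1]
      exact ConjClasses.mk_eq_mk_iff_isConj.mpr (isConj_iff.mpr ⟨_, rfl⟩).symm
  have hinj : Function.Injective f := by
    rintro (a | ⟨b, i⟩) (a' | ⟨b', i'⟩) h
    · exact congrArg Sum.inl (Subtype.ext (Subtype.ext (by
        have := hcl (.inl a); rw [h, hcl] at this; exact this.symm)))
    · have e : a.1 = b'.1 := Subtype.ext (by
        have := hcl (.inl a); rw [h, hcl] at this; exact this.symm)
      exact absurd (e ▸ a.2) b'.2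
    · have e : a'.1 = b.1 := Subtype.ext (by
        have := hcl (.inl a'); rw [← h, hcl] at this; exact this.symm)
      exact absurd (e ▸ a'.2) b.2
    · have e : b = b' := Subtype.ext (Subtype.ext (by
        have := hcl (.inr (b, i)); rw [h, hcl] at this; exact this.symm))
      subst e
      refine congrArg Sum.inr (Prod.ext rfl (Fin.ext ?_))
      by_contra hii
      have key : ∀ u v : Fin m, (u : ℕ) < v → n ^ (u : ℕ) * r b.1 * (n ^ (u : ℕ))⁻¹ ≠
          n ^ (v : ℕ) * r b.1 * (n ^ (v : ℕ))⁻¹ := by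
        intro u v huv he
        obtain ⟨d, hd'⟩ := Nat.exists_eq_add_of_lt huv
        apply b.2
        refine ⟨(r b.1).2, mem_centralizer_singleton_iff.mpr (Eq.symm ?_)⟩
        refine (commute_of_pow_commute (hd (d + 1) d.succ_pos (by omega)) ?_).eq
        rw [hd', add_assoc, pow_add] at he
        have : (r b.1 : G) = n ^ (d + 1) * r b.1 * (n ^ (d + 1))⁻¹ := by
          refine mul_left_cancel (a := n ^ (u : ℕ)) (mul_right_cancel (b := (n ^ (u : ℕ))⁻¹) ?_)
          rw [he]; group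
        exact (eq_mul_inv_iff_mul_eq.mp this).symm
      have hv : n ^ (i : ℕ) * r b.1 * (n ^ (i : ℕ))⁻¹ = n ^ (i' : ℕ) * r b.1 * (n ^ (i' : ℕ))⁻¹ :=
        congrArg Subtype.val h
      rcases Nat.lt_or_gt_of_ne hii with h' | h'
      · exact key i i' h' hv
      · exact key i' i h' hv.symm
  have h1 := Nat.card_le_card_of_injective f hinj
  rw [Nat.card_sum, Nat.card_prod, Nat.card_fin] at h1
  have h2 : Nat.card A ≤ Nat.card C :=
    Nat.card_le_card_of_injective (fun a => (⟨(r a.1 : G), a.2⟩ : C)) (fun a b hab => by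
      have h : (r a.1 : G) = r b.1 := congrArg (fun c : C => (c : G)) hab
      exact Subtype.ext (Subtype.ext (by rw [← hr a.1, ← hr b.1, h])))
  have h3 : q * Nat.card C ≤ Nat.card (Q : Subgroup G) := by
    have hne' : C.subgroupOf (Q : Subgroup G) ≠ ⊤ := by
      rw [Ne, subgroupOf_eq_top]
      exact fun h => hne fun x hx => Eq.symm (mem_centralizer_singleton_iff.mp (h hx).2)
    have := Cfsg.Agent.S3897.mul_card_le (p := q) Q.2 _ hne'
    rwa [Nat.card_congr (subgroupOfEquivOfLe inf_le_left).toEquiv] at this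
  have h4 : Nat.card κ = Nat.card A + Nat.card B := by
    rw [← Nat.card_sum]
    exact Nat.card_congr (Equiv.sumCompl _).symm
  change _ < 2 * Nat.card κ at hk
  have hq3 : 3 ≤ q := by have := hq.out.two_le; omega
  rcases eq_or_ne q 3 with h | h
  · simp only [m, if_pos h] at h1
    subst h
    omega
  · simp only [m, if_neg h] at h1
    have hq5 : 5 ≤ q := by
      by_contra hlt
      have h4' : q = 4 := by omega
      exact absurd (h4' ▸ hq.out) (by norm_num)
    have := Nat.mul_le_mul_right (Nat.card C) hq5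
    omega

/-- many classes of `q`-elements: abelian Sylow subgroup, centralised by its odd-order normalisers -/
lemma sylow_abelian (hq2 : q ≠ 2) (Q : Sylow q G)
    (hk : Nat.card ↥(Q : Subgroup G) <
      2 * Nat.card {c : ConjClasses G // ∀ x ∈ c.carrier, ∃ k : ℕ, orderOf x = q ^ k}) :
    IsMulCommutative ↥(Q : Subgroup G) ∧
      ∀ n ∈ normalizer ((Q : Subgroup G) : Set G), Odd (orderOf n) →
        ∀ x ∈ (Q : Subgroup G), Commute n x := by
  classical
  have hab : IsMulCommutative ↥(Q : Subgroup G) := by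
    by_contra hna
    have h1 := Cfsg.Agent.S3897.classes_le_of_not_comm Q.2 hna
    have h2 := Cfsg.Agent.S3897.classes_le (p := q) Q
    have hq3 : 3 ≤ q := by have := hq.out.two_le; omega
    obtain ⟨e, rfl⟩ := Nat.exists_eq_add_of_le hq3
    rw [show 3 + e - 1 = 2 + e by omega] at h1
    generalize Nat.card ↥(Q : Subgroup G) = c at *
    generalize Nat.card (ConjClasses ↥(Q : Subgroup G)) = k' at *
    generalize Nat.card {c : ConjClasses G // ∀ x ∈ c.carrier, ∃ j : ℕ, orderOf x = (3 + e) ^ j} = k at *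
    have h3 : 2 * (2 + e + (3 + e) ^ 2) ≤ (3 + e) * (3 + e) ^ 2 := by nlinarith
    have h4 := Nat.mul_le_mul_left c h3
    have h5 := Nat.mul_le_mul_left (2 * ((3 + e) * (3 + e) ^ 2)) h2
    have h6 := Nat.mul_lt_mul_of_pos_left hk (show 0 < (3 + e) * (3 + e) ^ 2 by positivity)
    nlinarith
  refine ⟨hab, fun n hn hodd => ?_⟩
  obtain ⟨y, z, hyzc, hyz, hy, hz⟩ := Cfsg.Agent.S3899.exists_parts hq.out (π := (orderOf n).primeFactors) n
    (fun r hr hd => Nat.mem_primeFactors.mpr ⟨hr, hd, (orderOf_pos n).ne'⟩)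
  have hzq : Nat.Coprime q (orderOf z) := hq.out.coprime_iff_not_dvd.mpr fun h =>
    (Finset.mem_erase.mp (hz q hq.out h)).1 rfl
  have hz2 : Nat.Coprime 2 (orderOf z) := Nat.prime_two.coprime_iff_not_dvd.mpr fun h => by
    have h2 := Nat.dvd_of_mem_primeFactors (Finset.mem_erase.mp (hz 2 Nat.prime_two h)).2
    exact (Nat.not_even_iff_odd.mpr hodd) (even_iff_two_dvd.mpr h2)
  have hyP : IsPGroup q (zpowers y) := by
    refine IsPGroup.of_card (n := (orderOf y).primeFactorsList.length) ?_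
    rw [Nat.card_zpowers]
    exact Nat.eq_prime_pow_of_unique_prime_dvd (orderOf_pos y).ne'
      (fun {d} hd hdvd => Finset.mem_singleton.mp (hy d hd hdvd))
  have hzn : z ∈ normalizer ((Q : Subgroup G) : Set G) := by
    have : z ∈ zpowers n := by
      obtain ⟨m, hm⟩ := exists_pow_eq_self_of_coprime (n := orderOf y) (x := z)
        (Nat.coprime_of_dvd fun r hr h1 h2 =>
          (Finset.mem_erase.mp (hz r hr h2)).1 (Finset.mem_singleton.mp (hy r hr h1)))
      rw [← hm, ← one_mul (z ^ orderOf y), ← pow_orderOf_eq_one y, ← hyzc.mul_pow, hyz]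
      exact pow_mem (pow_mem (mem_zpowers n) _) _
    exact (zpowers_le.mpr hn) this
  have hyn : y ∈ normalizer ((Q : Subgroup G) : Set G) := by
    rw [show y = n * z⁻¹ by rw [← hyz]; group]
    exact mul_mem hn (inv_mem hzn)
  have hyQ : y ∈ (Q : Subgroup G) := by
    have h := hyP.to_sup_of_normal_right' Q.2 (zpowers_le.mpr hyn)
    exact (Q.3 h le_sup_right).le (le_sup_left (b := (Q : Subgroup G)) (mem_zpowers y))
  intro x hx
  rw [← hyz]
  exact Commute.mul_left (congrArg Subtype.val (hab.1.1 ⟨y, hyQ⟩ ⟨x, hx⟩))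
    (centralizes_of_classes hq2 Q hzn hz2 hzq hk x hx)


/-- Let π be a finite set of primes containing 2 and G a finite group. Write k_π(G) for the number of conjugacy classes of G consisting of π-elements (elements all of whose order's prime divisors lie in π) and |G|_π for the π-part of the order of G. If k_π(G) > |G|_π/2, then G has a normal π-complement (a normal subgroup of order prime to π whose index is a π-number) and an abelian Hall subgroup for the set of odd primes in π. -/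
theorem result {G : Type*} [Group G] [Finite G] (π : Finset ℕ) (hπ : ∀ r ∈ π, r.Prime) (h2 : 2 ∈ π)
    (hk : π.prod (fun r => r ^ (Nat.card G).factorization r) < 2 * Nat.card {c : ConjClasses G // ∀ x ∈ c.carrier, ∀ r : ℕ, r.Prime → r ∣ orderOf x → r ∈ π}) :
    (∃ N : Subgroup G, N.Normal ∧ (∀ r : ℕ, r.Prime → r ∣ Nat.card ↥N → r ∉ π) ∧ ∀ r : ℕ, r.Prime → r ∣ N.index → r ∈ π) ∧ ∃ H : Subgroup G, Cfsg.IsPiHall ((↑π : Set ℕ) \ {2}) H ∧ IsMulCommutative ↥H := by
  classical
  let kk := fun r => Nat.card {c : ConjClasses G // ∀ x ∈ c.carrier, ∃ k : ℕ, orderOf x = r ^ k}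
  have hkq : ∀ r ∈ π, r ^ (Nat.card G).factorization r < 2 * kk r := by
    intro r hr
    haveI := Fact.mk (hπ r hr)
    have h1 := Cfsg.Agent.S3899.kc_le π G hπ r hr
    have hval : Cfsg.Agent.S3899.kc {r} G = kk r :=
      Nat.card_congr (Equiv.subtypeEquivRight (fun c => by
        constructor
        · intro h x hx
          exact ⟨_, Nat.eq_prime_pow_of_unique_prime_dvd (orderOf_pos x).ne'
            (fun {d} hd hdvd => Finset.mem_singleton.mp (h x hx d hd hdvd))⟩
        · intro h x hx s hs hd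
          obtain ⟨k, hk'⟩ := h x hx
          rw [hk'] at hd
          exact Finset.mem_singleton.mpr ((Nat.prime_dvd_prime_iff_eq hs (hπ r hr)).mp (hs.dvd_of_dvd_pow hd))))
    rw [hval] at h1
    rw [← Finset.mul_prod_erase π _ hr] at hk
    refine Nat.lt_of_mul_lt_mul_right (a := (π.erase r).prod fun s => s ^ (Nat.card G).factorization s) ?_
    calc _ < _ := hk
      _ ≤ 2 * (kk r * _) := Nat.mul_le_mul_left _ h1
      _ = _ := by ring
  haveI : Fact (Nat.Prime 2) := ⟨Nat.prime_two⟩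
  obtain ⟨P⟩ := (inferInstance : Nonempty (Sylow 2 G))
  obtain ⟨⟨P', K, hK, hc⟩, -⟩ := (Cfsg.Agent.S3895.result P).mp (by
    rw [P.card_eq_multiplicity]; exact hkq 2 h2)
  haveI := hK
  have hKidx : K.index = 2 ^ (Nat.card G).factorization 2 := by
    rw [hc.symm.index_eq_card, P'.card_eq_multiplicity]
  have hKodd : ¬ 2 ∣ Nat.card ↥K := by
    rw [← hc.index_eq_card]; exact P'.not_dvd_index
  have hq' : ∀ r : ↥(π.erase 2), ∃ (L : Subgroup ↥K) (_ : L.Normal), ¬ (r : ℕ) ∣ Nat.card ↥L ∧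
      IsPGroup (r : ℕ) (↥K ⧸ L) ∧ ∀ x y : ↥K, (x * y)⁻¹ * (y * x) ∈ L := by
    rintro ⟨r, hr⟩
    obtain ⟨hr2, hrπ⟩ := Finset.mem_erase.mp hr
    haveI := Fact.mk (hπ r hrπ)
    obtain ⟨S⟩ := (inferInstance : Nonempty (Sylow r ↥K))
    obtain ⟨Q, hQ⟩ := (S.2.map K.subtype).exists_le_sylow
    obtain ⟨hab, hcen⟩ := sylow_abelian hr2 Q (by rw [Q.card_eq_multiplicity]; exact hkq r hrπ)
    haveI := hab
    have hQK : (Q : Subgroup G) ≤ K := by
      intro x hx
      obtain ⟨k, hk'⟩ := IsPGroup.iff_orderOf.mp Q.2 ⟨x, hx⟩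
      rw [orderOf_mk] at hk'
      refine (QuotientGroup.eq_one_iff x).mp (orderOf_eq_one_iff.mp ?_)
      have h1 : orderOf (x : G ⧸ K) ∣ r ^ k := hk' ▸ orderOf_map_dvd (QuotientGroup.mk' K) x
      have h2 : orderOf (x : G ⧸ K) ∣ 2 ^ (Nat.card G).factorization 2 := by
        rw [← hKidx, K.index_eq_card]; exact orderOf_dvd_natCard _
      exact Nat.eq_one_of_dvd_coprimes
        (((Nat.coprime_primes (hπ r hrπ) Nat.prime_two).mpr hr2).pow _ _) h1 h2
    have hS : (Q : Subgroup G).subgroupOf K = S :=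
      S.3 (Q.2.of_equiv (subgroupOfEquivOfLe hQK).symm) fun x hx => hQ ⟨x, hx, rfl⟩
    haveI : IsMulCommutative ↥(S : Subgroup ↥K) := by
      rw [← hS]
      exact ⟨⟨fun a b => (subgroupOfEquivOfLe hQK).injective (by rw [map_mul, map_mul]; exact hab.1.1 _ _)⟩⟩
    have hNC : normalizer ((S : Subgroup ↥K) : Set ↥K) ≤ centralizer ((S : Subgroup ↥K) : Set ↥K) := by
      intro n hn
      rw [mem_centralizer_iff]
      intro x hx
      rw [← hS] at hn hx
      have hnG : (n : G) ∈ normalizer ((Q : Subgroup G) : Set G) := by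
        rw [mem_normalizer_iff] at hn ⊢
        intro y
        constructor
        · intro hy
          exact (hn ⟨y, hQK hy⟩).mp hy
        · intro hy
          have hyK : y ∈ K := by
            have := hK.conj_mem _ (hQK hy) (n : G)⁻¹
            simpa [mul_assoc] using this
          exact (hn ⟨y, hyK⟩).mpr hy
      have hodd : Odd (orderOf (n : G)) := by
        rw [orderOf_coe]
        exact (Nat.odd_iff.mpr (Nat.two_dvd_ne_zero.mp hKodd)).of_dvd_nat (orderOf_dvd_natCard n)
      exact Subtype.ext (hcen n hnG hodd x hx).eq.symm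
    haveI : S.FiniteIndex := inferInstance
    have hcompl := MonoidHom.ker_transferSylow_isComplement' S hNC
    refine ⟨(MonoidHom.transferSylow S hNC).ker, inferInstance, ?_, ?_, fun x y => ?_⟩
    · rw [← hcompl.index_eq_card]; exact S.not_dvd_index
    · obtain ⟨k, hk'⟩ := IsPGroup.iff_card.mp S.2
      exact IsPGroup.of_card (n := k) (by rw [← index_eq_card, hcompl.symm.index_eq_card, hk'])
    · rw [MonoidHom.mem_ker, map_mul, map_inv, inv_mul_eq_one, map_mul, map_mul]
      exact mul_comm' _ _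
  choose L hLn hLc hLp hLab using hq'
  haveI : ∀ r, (L r).Normal := hLn
  let φ : ↥K →* ((r : ↥(π.erase 2)) → ↥K ⧸ L r) := MonoidHom.pi (fun r => QuotientGroup.mk' (L r))
  have hmem : ∀ x, x ∈ φ.ker ↔ ∀ r, x ∈ L r := fun x =>
    ⟨fun hx r => (QuotientGroup.eq_one_iff x).mp (congrFun (MonoidHom.mem_ker.mp hx) r),
      fun hx => MonoidHom.mem_ker.mpr (funext fun r => (QuotientGroup.eq_one_iff x).mpr (hx r))⟩
  have hmem' : ∀ x : ↥K, x ∈ φ.ker ↔ ∀ r ∈ π.erase 2, ¬ r ∣ orderOf x := by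
    intro x
    constructor
    · intro hx r hr hd
      exact hLc ⟨r, hr⟩ (hd.trans (by rw [← orderOf_mk x ((hmem x).mp hx ⟨r, hr⟩)]; exact orderOf_dvd_natCard _))
    · refine fun hx => (hmem x).mpr fun ⟨r, hr⟩ => (QuotientGroup.eq_one_iff x).mp ?_
      haveI := Fact.mk (hπ r (Finset.mem_of_mem_erase hr))
      refine Cfsg.Agent.Lib.Transfer.eq_one_of_isPGroup_of_coprime (hLp ⟨r, hr⟩) ?_
      exact Nat.Coprime.coprime_dvd_left (orderOf_map_dvd (QuotientGroup.mk' _) x)
        (((hπ r (Finset.mem_of_mem_erase hr)).coprime_iff_not_dvd.mpr (hx r hr)).symm)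
  have hN1 : ∀ r : ℕ, r.Prime → r ∣ Nat.card ↥φ.ker → r ∉ π := by
    intro r hr hd hrπ
    rcases eq_or_ne r 2 with rfl | hr2
    · exact hKodd (hd.trans (card_subgroup_dvd_card _))
    · exact hLc ⟨r, Finset.mem_erase.mpr ⟨hr2, hrπ⟩⟩ (hd.trans (card_dvd_of_le fun x hx => (hmem x).mp hx _))
  have hN2 : ∀ r : ℕ, r.Prime → r ∣ φ.ker.index → r ∈ π.erase 2 := by
    intro r hr hd
    have h1 : φ.ker.index ∣ ∏ s : ↥(π.erase 2), (L s).index := by
      rw [Subgroup.index_ker, Finset.prod_congr rfl (fun s _ => (L s).index_eq_card), ← Nat.card_pi]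
      exact Subgroup.card_subgroup_dvd_card _
    obtain ⟨s, -, hsd⟩ := (Nat.Prime.prime hr).exists_mem_finset_dvd (hd.trans h1)
    haveI := Fact.mk (hπ _ (Finset.mem_of_mem_erase s.2))
    obtain ⟨k, hk'⟩ := IsPGroup.iff_card.mp (hLp s)
    rw [(L s).index_eq_card, hk'] at hsd
    rw [(Nat.prime_dvd_prime_iff_eq hr (hπ _ (Finset.mem_of_mem_erase s.2))).mp (hr.dvd_of_dvd_pow hsd)]
    exact s.2
  refine ⟨⟨φ.ker.map K.subtype, ⟨?_⟩, ?_, ?_⟩, ?_⟩
  · rintro _ ⟨x, hx, rfl⟩ g
    refine ⟨⟨g * x * g⁻¹, hK.conj_mem _ x.2 g⟩, ?_, rfl⟩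
    refine (hmem' _).mpr fun r hr => ?_
    rw [← orderOf_coe, show ((⟨g * x * g⁻¹, hK.conj_mem _ x.2 g⟩ : ↥K) : G) = MulAut.conj g (x : G) from rfl,
      MulEquiv.orderOf_eq, orderOf_coe]
    exact (hmem' x).mp hx r hr
  · rwa [card_map_of_injective K.subtype_injective]
  · intro r hr hd
    rw [index_map_subtype, hKidx] at hd
    rcases (Nat.Prime.dvd_mul hr).mp hd with h | h
    · exact Finset.mem_of_mem_erase (hN2 r hr h)
    · rw [(Nat.prime_dvd_prime_iff_eq hr Nat.prime_two).mp (hr.dvd_of_dvd_pow h)]; exact h2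
  obtain ⟨H, hH⟩ := Subgroup.exists_right_complement'_of_coprime (N := φ.ker)
    (Nat.coprime_of_dvd (fun r hr h3 h4 => hN1 r hr h3 (Finset.mem_of_mem_erase (hN2 r hr h4))))
  refine ⟨H.map K.subtype, ⟨?_, ?_⟩, ⟨⟨?_⟩⟩⟩
  · intro r hr hd
    rw [card_map_of_injective K.subtype_injective, ← hH.symm.index_eq_card] at hd
    obtain ⟨h1, h2'⟩ := Finset.mem_erase.mp (hN2 r hr hd)
    exact ⟨h2', h1⟩
  · rintro r hr ⟨hrπ, hr2⟩ hd
    rw [index_map_subtype, hKidx, hH.index_eq_card] at hd
    rcases (Nat.Prime.dvd_mul hr).mp hd with h | h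
    · exact hN1 r hr h hrπ
    · exact hr2 ((Nat.prime_dvd_prime_iff_eq hr Nat.prime_two).mp (hr.dvd_of_dvd_pow h))
  · rintro ⟨_, a, ha, rfl⟩ ⟨_, b, hb, rfl⟩
    apply Subtype.ext
    show (a : G) * b = b * a
    have h3 : (a * b)⁻¹ * (b * a) ∈ φ.ker ⊓ H :=
      ⟨(hmem _).mpr fun r => hLab r a b, H.mul_mem (H.inv_mem (H.mul_mem ha hb)) (H.mul_mem hb ha)⟩
    rw [hH.disjoint.eq_bot, Subgroup.mem_bot, inv_mul_eq_one] at h3
    exact congrArg Subtype.val h3

end Cfsg.Agent.S3898
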