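import Cfsg.Statements.S3903

set_option autoImplicit false
open Cfsg

namespace Cfsg.Agent.S3903

open scoped Pointwise

section
variable {G : Type*} [Group G] [Finite G]

theorem solvable_of_normal_pGroup_prime_index {p : ℕ} [Fact p.Prime] (C : Subgroup G) [C.Normal] (hC : IsPGroup p C)
    (hmax : IsCoatom C) : Group.IsSolvable G := by
  haveI : Group.IsNilpotent C := hC.isNilpotent
  haveI : Nontrivial (G ⧸ C) := QuotientGroup.nontrivial_iff.2 hmax.1
  haveI : Group.IsSolvable (G ⧸ C) := by
    obtain ⟨g, hg⟩ := exists_ne (1 : G ⧸ C)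
    have hall : ∀ H : Subgroup (G ⧸ C), H = ⊥ ∨ H = ⊤ := fun M => by
      rcases hmax.le_iff.1 (show C ≤ M.comap (QuotientGroup.mk' C) from
        fun c hc => by simp [Subgroup.mem_comap, (QuotientGroup.eq_one_iff c).2 hc, one_mem]) with h | h
      · right; rw [← Subgroup.map_comap_eq_self_of_surjective (QuotientGroup.mk'_surjective C) M, h,
          Subgroup.map_top_of_surjective _ (QuotientGroup.mk'_surjective C)]
      · left; rw [← Subgroup.map_comap_eq_self_of_surjective (QuotientGroup.mk'_surjective C) M, h,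
          QuotientGroup.map_mk'_self]
    have htop : Subgroup.zpowers g = ⊤ := (hall _).resolve_left fun h => hg (Subgroup.zpowers_eq_bot.1 h)
    refine Group.isSolvable_of_comm fun a b => ?_
    obtain ⟨i, rfl⟩ := Subgroup.mem_zpowers_iff.1 (htop ▸ Subgroup.mem_top a : a ∈ Subgroup.zpowers g)
    obtain ⟨j, rfl⟩ := Subgroup.mem_zpowers_iff.1 (htop ▸ Subgroup.mem_top b : b ∈ Subgroup.zpowers g)
    exact (Commute.zpow_zpow_self g i j).eq
  exact Group.isSolvable_of_ker_le_range C.subtype (QuotientGroup.mk' C) (by simp)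

end
/-- Let N be a proper normal subgroup of the finite group G such that every element x of G outside N has prime power order and has centralizer C_G(x) a maximal subgroup of G. Then N is solvable. -/
theorem result {G : Type*} [Group G] [Finite G] (N : Subgroup G) [N.Normal] (hN : N ≠ ⊤)
    (h : ∀ x : G, x ∉ N → IsPrimePow (orderOf x) ∧ IsCoatom (Subgroup.centralizer ({x} : Set G))) : Group.IsSolvable ↥N := by
  classical
  obtain ⟨w, hw⟩ : ∃ w, w ∉ N := by
    by_contra hh; push Not at hh; exact hN (eq_top_iff.2 fun x _ => hh x)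
  obtain ⟨hpp, hmaxw⟩ := h w hw
  obtain ⟨p, a, hp, ha, hord⟩ := hpp
  haveI : Fact p.Prime := ⟨hp.nat_prime⟩
  -- a centralizer outside `N` consists of elements of one prime
  have hcent : ∀ v, v ∉ N → ∀ q b, q.Prime → orderOf v = q ^ b → IsPGroup q (Subgroup.centralizer ({v} : Set G)) := by
    intro v hv q b hq hvo
    haveI : Fact q.Prime := ⟨hq⟩
    rw [IsPGroup.iff_card]
    have hb : b ≠ 0 := fun e => hv (by rw [e, pow_zero, orderOf_eq_one_iff] at hvo; rw [hvo]; exact one_mem N)
    refine ⟨_, Nat.eq_prime_pow_of_unique_prime_dvd Nat.card_pos.ne' fun {r} hr hrd => ?_⟩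
    haveI : Fact r.Prime := ⟨hr⟩
    obtain ⟨c, hc⟩ := exists_prime_orderOf_dvd_card' r hrd
    by_contra hrq
    have hcm : Commute v (c : G) := (Subgroup.mem_centralizer_singleton_iff.1 c.2).symm
    have hco : orderOf (c : G) = r := by rw [Subgroup.orderOf_coe, hc]
    have hcop : (orderOf v).Coprime (orderOf (c : G)) := by
      rw [hvo, hco]; exact Nat.Coprime.pow_left _ ((Nat.coprime_primes hq hr).2 fun e => hrq e.symm)
    have ho : orderOf (v * c) = q ^ b * r := by rw [hcm.orderOf_mul_eq_mul_orderOf_of_coprime hcop, hvo, hco]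
    have hvc : v * c ∉ N := by
      intro hm
      apply hv
      have h1 : (v * c) ^ r = v ^ r := by rw [hcm.mul_pow, ← hco, pow_orderOf_eq_one, mul_one]
      have h2 : v ∈ Subgroup.zpowers (v ^ r) := by
        rw [Subgroup.mem_zpowers_iff]
        obtain ⟨m, hm'⟩ := exists_pow_eq_self_of_coprime (x := v) (n := r) (by rw [← hco]; exact hcop.symm)
        exact ⟨m, by rw [zpow_natCast, hm']⟩
      exact Subgroup.zpowers_le.2 (h1 ▸ pow_mem hm r) h2
    obtain ⟨hpp, -⟩ := h _ hvc
    rw [ho] at hpp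
    obtain ⟨s, t, hs, -, hst⟩ := hpp
    have e1 := (Nat.prime_dvd_prime_iff_eq hr hs.nat_prime).1 (hr.dvd_of_dvd_pow (hst ▸ dvd_mul_left r (q ^ b)))
    have e2 := (Nat.prime_dvd_prime_iff_eq hq hs.nat_prime).1
      (hq.dvd_of_dvd_pow (hst ▸ (dvd_pow_self q hb).trans (dvd_mul_right (q ^ b) r)))
    exact hrq (e1.trans e2.symm)
  have hP := hcent w hw p a hp.nat_prime hord.symm
  set P := Subgroup.centralizer ({w} : Set G) with hPdef
  by_cases hNP : N ≤ P
  · haveI : Group.IsNilpotent N := (hP.to_le hNP).isNilpotent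
    infer_instance
  suffices hG : Group.IsSolvable G from inferInstance
  by_cases hPn : P.Normal
  · exact solvable_of_normal_pGroup_prime_index P hP hmaxw
  obtain ⟨S, hS⟩ := hP.exists_le_sylow
  rcases hmaxw.le_iff.1 hS with e | e
  · have : IsPGroup p G := fun g => by
      obtain ⟨k, hk⟩ := S.isPGroup' ⟨g, e ▸ Subgroup.mem_top g⟩
      exact ⟨k, congrArg Subtype.val hk⟩
    haveI : Group.IsNilpotent G := this.isNilpotent
    infer_instance
  have hsup : N ⊔ P = ⊤ := (hmaxw.le_iff.1 (le_sup_right : P ≤ N ⊔ P)).resolve_right fun e' =>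
    hNP (le_sup_left.trans e'.le)
  have hnorm : Subgroup.normalizer (P : Set G) = P :=
    (hmaxw.le_iff.1 Subgroup.le_normalizer).resolve_left fun e' => hPn (Subgroup.normalizer_eq_top_iff.1 e')
  have hout : ∀ v, v ∉ N → IsPGroup p (Subgroup.centralizer ({v} : Set G)) := by
    intro v hv
    obtain ⟨⟨q, b, hq, hb, hvo⟩, -⟩ := h v hv
    haveI : Fact q.Prime := ⟨hq.nat_prime⟩
    obtain ⟨n, hn, c, hc, rfl⟩ : v ∈ (N : Set G) * (P : Set G) := by
      rw [← Subgroup.normal_mul N P, hsup]; exact Set.mem_univ v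
    simp only at hv hvo ⊢
    obtain ⟨k, hk⟩ := hP ⟨c, hc⟩
    have hk' : (n * c) ^ p ^ k ∈ N := by
      rw [← QuotientGroup.eq_one_iff, QuotientGroup.mk_pow, QuotientGroup.mk_mul, (QuotientGroup.eq_one_iff n).2 hn,
        one_mul, ← QuotientGroup.mk_pow, QuotientGroup.eq_one_iff]
      have := congrArg Subtype.val hk
      simp only [SubmonoidClass.coe_pow, OneMemClass.coe_one] at this
      rw [this]; exact one_mem N
    by_cases hqp : q = p
    · exact hqp ▸ hcent _ hv q b hq.nat_prime hvo.symm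
    exfalso
    apply hv
    obtain ⟨m, hm⟩ := exists_pow_eq_self_of_coprime (x := n * c) (n := p ^ k)
      (by rw [← hvo]; exact Nat.Coprime.pow _ _ ((Nat.coprime_primes hp.nat_prime hq.nat_prime).2 (Ne.symm hqp)))
    rw [← hm]; exact pow_mem hk' m
  have hsyl : ∀ v, v ∉ N → ∃ Q : Sylow p G, (Q : Subgroup G) = Subgroup.centralizer ({v} : Set G) := by
    intro v hv
    obtain ⟨Q, hQ⟩ := (hout v hv).exists_le_sylow
    refine ⟨Q, ((h v hv).2.le_iff.1 hQ).resolve_left fun e' => hPn ?_⟩
    have : IsPGroup p G := fun g => by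
      obtain ⟨k, hk⟩ := Q.isPGroup' ⟨g, e' ▸ Subgroup.mem_top g⟩
      exact ⟨k, congrArg Subtype.val hk⟩
    haveI : Group.IsNilpotent G := this.isNilpotent
    exact Subgroup.NormalizerCondition.normal_of_coatom P Group.normalizerCondition_of_isNilpotent hmaxw
  choose Qf hQf using hsyl
  let f : {v : G // v ∉ N} → Sylow p G := fun v => Qf v.1 v.2
  have hfib : ∀ Q : Sylow p G, Nat.card {v : {v : G // v ∉ N} // f v = Q} = Nat.card {v : {v : G // v ∉ N} // f v = S} := by
    intro Q
    obtain ⟨g, rfl⟩ := MulAction.exists_smul_eq G S Q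
    have key : ∀ (g : G) (v : {v : G // v ∉ N}), ∀ hv' : g * v.1 * g⁻¹ ∉ N, f ⟨g * v.1 * g⁻¹, hv'⟩ = g • f v := by
      intro g v hv'
      refine Sylow.ext ?_
      rw [Sylow.coe_subgroup_smul, hQf, hQf]
      ext y
      rw [Subgroup.mem_pointwise_smul_iff_inv_smul_mem, Subgroup.mem_centralizer_singleton_iff,
        Subgroup.mem_centralizer_singleton_iff]
      simp only [← map_inv, MulAut.smul_def, MulAut.conj_apply, inv_inv]
      constructor
      · intro e'
        calc g⁻¹ * y * g * v.1 = g⁻¹ * (y * (g * v.1 * g⁻¹)) * g := by group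
          _ = g⁻¹ * (g * v.1 * g⁻¹ * y) * g := by rw [e']
          _ = _ := by group
      · intro e'
        calc y * (g * v.1 * g⁻¹) = g * (g⁻¹ * y * g * v.1) * g⁻¹ := by group
          _ = g * (v.1 * (g⁻¹ * y * g)) * g⁻¹ := by rw [e']
          _ = _ := by group
    have hmv : ∀ (g : G) (v : {v : G // v ∉ N}), g * v.1 * g⁻¹ ∉ N := fun g v hm =>
      v.2 (by simpa [mul_assoc] using (inferInstance : N.Normal).conj_mem _ hm g⁻¹)
    exact Nat.card_congr
      { toFun := fun v => ⟨⟨g⁻¹ * v.1.1 * g⁻¹⁻¹, hmv g⁻¹ v.1⟩, by rw [key, v.2, inv_smul_smul]⟩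
        invFun := fun v => ⟨⟨g * v.1.1 * g⁻¹, hmv g v.1⟩, by rw [key, v.2]⟩
        left_inv := fun v => by ext; simp [mul_assoc]
        right_inv := fun v => by ext; simp [mul_assoc] }
  have hcount : Nat.card {v : G // v ∉ N} = (P.index) * Nat.card {v : {v : G // v ∉ N} // f v = S} := by
    haveI : Fintype (Sylow p G) := Fintype.ofFinite _
    rw [← Nat.card_congr (Equiv.sigmaFiberEquiv f), Nat.card_sigma, Finset.sum_congr rfl fun Q _ => hfib Q,
      Finset.sum_const, smul_eq_mul, Finset.card_univ, ← Nat.card_eq_fintype_card]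
    congr 1
    rw [S.card_eq_index_normalizer, ← Sylow.coe_coe, e, hnorm]
  have htot : Nat.card {v : G // v ∉ N} + Nat.card N = Nat.card G := by
    rw [← Nat.card_congr (Equiv.sumCompl (fun v : G => v ∈ N)), Nat.card_sum, add_comm]
  have hPN : Nat.card N * Nat.card P = Nat.card G * Nat.card ↥(N ⊓ P) := by
    have h1 : (N ⊓ P).relIndex P = N.index := by
      rw [Subgroup.inf_relIndex_right, ← Subgroup.relIndex_top_right N, ← hsup, Subgroup.relIndex_sup_left]
    have h2 := Subgroup.relIndex_mul_relIndex ⊥ (N ⊓ P) P bot_le inf_le_right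
    rw [Subgroup.relIndex_bot_left, Subgroup.relIndex_bot_left, h1] at h2
    calc Nat.card N * Nat.card P = Nat.card N * (Nat.card ↥(N ⊓ P) * N.index) := by rw [h2]
      _ = (Nat.card N * N.index) * Nat.card ↥(N ⊓ P) := by ring
      _ = _ := by rw [Subgroup.card_mul_index]
  have hall : ∀ v ∈ P, v ∉ N → ∀ c ∈ P, c * v = v * c := by
    intro v hvP hvN c hcP
    let ι : {v : {v : G // v ∉ N} // f v = S} → {v : G // v ∈ P ∧ v ∉ N} := fun v => ⟨v.1.1, by
      refine ⟨?_, v.1.2⟩
      refine e.le ?_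
      have hv' : (f v.1 : Subgroup G) = (S : Subgroup G) := by rw [v.2]
      rw [← hv', hQf]
      exact Subgroup.mem_centralizer_singleton_iff.2 rfl⟩
    have hι : Function.Injective ι := fun x y exy => Subtype.ext (Subtype.ext (congrArg (fun z => z.1) exy))
    have hdiff : Nat.card {v : G // v ∈ P ∧ v ∉ N} + Nat.card ↥(N ⊓ P) = Nat.card P := by
      have h1 := Nat.card_congr (Equiv.sumCompl (fun v : P => (v : G) ∈ N))
      rw [Nat.card_sum, add_comm] at h1
      rw [← h1]
      congr 1
      · exact Nat.card_congr (Equiv.subtypeSubtypeEquivSubtypeInter (fun v => v ∈ P) (fun v => v ∉ N)).symm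
      · exact Nat.card_congr ((Equiv.subtypeSubtypeEquivSubtypeInter (fun v => v ∈ P) (fun v => v ∈ N)).trans
          (Equiv.subtypeEquivRight fun v => by simp [Subgroup.mem_inf, and_comm])).symm
    have heq : Nat.card {v : {v : G // v ∉ N} // f v = S} = Nat.card {v : G // v ∈ P ∧ v ∉ N} := by
      have h1 := P.card_mul_index
      have hi : 0 < P.index := Nat.pos_of_ne_zero Subgroup.index_ne_zero_of_finite
      have hNc : Nat.card N = P.index * Nat.card ↥(N ⊓ P) := by
        apply Nat.eq_of_mul_eq_mul_right (Nat.card_pos : 0 < Nat.card P)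
        rw [hPN, ← h1]; ring
      apply Nat.eq_of_mul_eq_mul_left hi
      have : P.index * Nat.card {v : G // v ∈ P ∧ v ∉ N} + Nat.card N = Nat.card G := by
        rw [hNc, ← mul_add, hdiff, mul_comm, h1]
      omega
    obtain ⟨x, hx⟩ := ((Nat.bijective_iff_injective_and_card ι).2 ⟨hι, heq⟩).2 ⟨v, hvP, hvN⟩
    have hxv : x.1.1 = v := congrArg (fun z : {v : G // v ∈ P ∧ v ∉ N} => z.1) hx
    have : c ∈ Subgroup.centralizer ({x.1.1} : Set G) := by
      rw [← hQf x.1.1 x.1.2, show Qf x.1.1 x.1.2 = S from x.2, e]; exact hcP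
    rw [hxv] at this
    exact Subgroup.mem_centralizer_singleton_iff.1 this
  have hab : ∀ u ∈ P, ∀ c ∈ P, c * u = u * c := by
    intro u hu c hc
    by_cases huN : u ∈ N
    · have hwP : w ∈ P := Subgroup.mem_centralizer_singleton_iff.2 rfl
      have h1 : u * w ∉ N := fun hm => hw (by simpa using mul_mem (inv_mem huN) hm)
      have h2 := hall _ (mul_mem hu hwP) h1 c hc
      rw [← mul_assoc, mul_assoc u w c, ← hall w hwP hw c hc, ← mul_assoc] at h2
      exact mul_right_cancel h2
    · exact hall u hu huN c hc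
  have hNC : Subgroup.normalizer (S : Set G) ≤ Subgroup.centralizer (S : Set G) := by
    rw [← Sylow.coe_coe, e, hnorm]
    exact fun u hu => Subgroup.mem_centralizer_iff.2 fun c hc => hab u hu c hc
  set K := (MonoidHom.transferSylow S hNC).ker with hK
  have hc : Subgroup.IsComplement' K (S : Subgroup G) := MonoidHom.ker_transferSylow_isComplement' S hNC
  haveI : K.Normal := MonoidHom.normal_ker _
  have hsolv : Group.IsSolvable K := by
    by_cases hK1 : Nat.card K = 1
    · rw [Subgroup.card_eq_one] at hK1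
      rw [hK1]; infer_instance
    obtain ⟨q, hq, hqd⟩ := Nat.exists_prime_and_dvd hK1
    haveI : Fact q.Prime := ⟨hq⟩
    let Q : Sylow q K := default
    have hpn : ¬ p ∣ Nat.card K := by
      intro hd
      have := S.not_dvd_index
      rw [← hc.index_eq_card] at hd
      exact this hd
    have hF : Subgroup.normalizer (((Q : Subgroup K).map K.subtype : Subgroup G) : Set G) ⊔ K = ⊤ := Sylow.normalizer_sup_eq_top Q
    set R := Subgroup.normalizer (((Q : Subgroup K).map K.subtype : Subgroup G) : Set G) with hR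
    have hRp : (R.index).Coprime p := by
      have : R.index ∣ Nat.card K := by
        have h1 : (K ⊓ R).relIndex R = K.index := by
          rw [Subgroup.inf_relIndex_right, ← Subgroup.relIndex_top_right K, ← hF, Subgroup.relIndex_sup_right]
        have h2 := Subgroup.relIndex_mul_relIndex ⊥ (K ⊓ R) R bot_le inf_le_right
        rw [Subgroup.relIndex_bot_left, Subgroup.relIndex_bot_left, h1] at h2
        refine ⟨Nat.card ↥(K ⊓ R), Nat.eq_of_mul_eq_mul_right (Nat.pos_of_ne_zero Subgroup.index_ne_zero_of_finite :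
          0 < K.index) ?_⟩
        rw [mul_assoc, h2, Subgroup.card_mul_index, mul_comm, Subgroup.card_mul_index]
      exact (Nat.Coprime.symm ((hp.nat_prime.coprime_iff_not_dvd).2 fun hd => hpn (hd.trans this)))
    let T : Sylow p R := default
    obtain ⟨T', hT'⟩ := (T.isPGroup'.map R.subtype).exists_le_sylow
    have hTc : Nat.card ↥((T : Subgroup R).map R.subtype) = Nat.card T' := by
      rw [Subgroup.card_map_of_injective (Subgroup.subtype_injective R), T.card_eq_multiplicity, T'.card_eq_multiplicity]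
      congr 1
      rw [← R.card_mul_index, Nat.factorization_mul Nat.card_pos.ne' Subgroup.index_ne_zero_of_finite,
        Finsupp.add_apply, Nat.factorization_eq_zero_of_not_dvd
          ((hp.nat_prime.coprime_iff_not_dvd).1 hRp.symm), add_zero]
    have hle : (T' : Subgroup G) ≤ R := by
      rw [← Subgroup.eq_of_le_of_card_ge hT' hTc.ge]; exact Subgroup.map_subtype_le _
    obtain ⟨g, hg⟩ := MulAction.exists_smul_eq G S T'
    have hT'max : IsCoatom (T' : Subgroup G) := by
      rw [← hg, Sylow.coe_subgroup_smul, e]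
      exact (OrderIso.isCoatom_iff (MulAut.conj g).mapSubgroup P).2 hmaxw
    rcases hT'max.le_iff.1 hle with h1 | h1
    · haveI hn : ((Q : Subgroup K).map K.subtype).Normal := Subgroup.normalizer_eq_top_iff.1 h1
      have hQP : (Q : Subgroup K).map K.subtype ⊔ P = ⊤ := by
        refine (hmaxw.le_iff.1 le_sup_right).resolve_right fun e' => ?_
        have hle' : (Q : Subgroup K).map K.subtype ≤ K ⊓ (S : Subgroup G) :=
          le_inf (Subgroup.map_subtype_le _) (le_sup_left.trans (e'.le.trans e.ge))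
        rw [hc.disjoint.eq_bot, le_bot_iff, Subgroup.map_eq_bot_iff_of_injective _ (Subgroup.subtype_injective K)] at hle'
        exact Sylow.ne_bot_of_dvd_card Q hqd hle'
      have hKQ : K ≤ (Q : Subgroup K).map K.subtype := by
        intro k hk
        have : k ∈ (((Q : Subgroup K).map K.subtype ⊔ P : Subgroup G) : Set G) := hQP ▸ Subgroup.mem_top k
        rw [Subgroup.normal_mul] at this
        obtain ⟨x, hx, c, hc', rfl⟩ := this
        have h2 : c ∈ K ⊓ (S : Subgroup G) := ⟨(mul_mem_cancel_left (Subgroup.map_subtype_le _ hx)).1 hk, e.symm ▸ hc'⟩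
        rw [hc.disjoint.eq_bot, Subgroup.mem_bot] at h2
        show x * c ∈ _
        rw [h2, mul_one]; exact hx
      haveI : Group.IsNilpotent ↥((Q : Subgroup K).map K.subtype) := (Q.isPGroup'.map K.subtype).isNilpotent
      exact Group.isSolvable_of_isSolvable_injective (f := Subgroup.inclusion hKQ) (Subgroup.inclusion_injective hKQ)
    · exfalso
      have h2 : (Q : Subgroup K).map K.subtype ≤ (T' : Subgroup G) := h1 ▸ Subgroup.le_normalizer
      have h3 : Nat.card ↥((Q : Subgroup K).map K.subtype) ∣ Nat.card T' := Subgroup.card_dvd_of_le h2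
      rw [Subgroup.card_map_of_injective (Subgroup.subtype_injective K), T'.card_eq_multiplicity] at h3
      have h4 := (Nat.dvd_prime_pow hp.nat_prime).1 ((dvd_trans (Q.dvd_card_of_dvd_card hqd) h3))
      obtain ⟨i, -, hi⟩ := h4
      have h5 := (Nat.prime_dvd_prime_iff_eq hq hp.nat_prime).1 (hq.dvd_of_dvd_pow (dvd_of_eq hi))
      exact hpn (h5 ▸ hqd)
  haveI : Group.IsSolvable (G ⧸ K) :=
    Group.isSolvable_of_comm fun a b => by
      obtain ⟨x, rfl⟩ := QuotientGroup.mk_surjective a
      obtain ⟨y, rfl⟩ := QuotientGroup.mk_surjective b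
      have key : ∀ z : G, ∃ s ∈ P, (QuotientGroup.mk z : G ⧸ K) = QuotientGroup.mk s := by
        intro z
        obtain ⟨⟨⟨k, hk⟩, ⟨s, hs⟩⟩, rfl⟩ := hc.2 z
        exact ⟨s, e ▸ hs, by rw [QuotientGroup.mk_mul, (QuotientGroup.eq_one_iff k).2 hk, one_mul]⟩
      obtain ⟨s, hs, e1⟩ := key x
      obtain ⟨t, ht, e2⟩ := key y
      rw [e1, e2, ← QuotientGroup.mk_mul, hab t ht s hs, QuotientGroup.mk_mul]
  exact Group.isSolvable_of_ker_le_range K.subtype (QuotientGroup.mk' K) (by simp)

end Cfsg.Agent.S3903
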