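import Cfsg.Statements.S3908
import Mathlib
import Cfsg.Agent.Lib.GS.AbConj
import Cfsg.Agent.Lib.UniqueInvolution

set_option autoImplicit false
open Cfsg

namespace Cfsg.Agent.S3908


/-- Let G be a finite group in which any two abelian subgroups of the same order are conjugate. Then a Sylow 2-subgroup of G is cyclic, elementary abelian or generalized quaternion, and for an odd prime p a Sylow p-subgroup of G is cyclic or has exponent dividing p. -/
theorem result {G : Type*} [Group G] [Finite G] (hB : ∀ A B : Subgroup G, IsMulCommutative ↥A → IsMulCommutative ↥B → Nat.card ↥A = Nat.card ↥B → ∃ g : G, B = A.map (MulAut.conj g).toMonoidHom) :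
    (∀ P : Sylow 2 G, IsCyclic ↥(P : Subgroup G) ∨ Cfsg.IsElementaryAbelian 2 (P : Subgroup G) ∨ ∃ k : ℕ, Nonempty (↥(P : Subgroup G) ≃* QuaternionGroup (2 ^ k))) ∧
    ∀ (p : ℕ) [Fact p.Prime], p ≠ 2 → ∀ P : Sylow p G, IsCyclic ↥(P : Subgroup G) ∨ ∀ x ∈ (P : Subgroup G), x ^ p = 1 := by
  refine ⟨fun P => ?_, fun p _ hp P => ?_⟩
  · rcases Cfsg.Agent.Lib.GS.AbConj.unique_or_exponent hB (P : Subgroup G) P.2 with h | h
    · rcases Cfsg.Agent.Lib.UniqueInvolution.isCyclic_or_quaternion P.2 h with h' | ⟨-, n, -, hn⟩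
      · exact Or.inl h'
      · exact Or.inr (Or.inr ⟨n, hn⟩)
    · refine Or.inr (Or.inl ⟨⟨⟨fun a b => Subtype.ext ?_⟩⟩, h⟩)
      have h2 : ∀ c ∈ (P : Subgroup G), c⁻¹ = c := fun c hc =>
        inv_eq_of_mul_eq_one_right (by rw [← sq, h c hc])
      calc (a : G) * b = ((a : G) * b)⁻¹ := (h2 _ (mul_mem a.2 b.2)).symm
        _ = (b : G) * a := by rw [mul_inv_rev, h2 _ a.2, h2 _ b.2]
  · rcases Cfsg.Agent.Lib.GS.AbConj.unique_or_exponent hB (P : Subgroup G) P.2 with h | h
    · rcases Cfsg.Agent.Lib.UniqueInvolution.isCyclic_or_quaternion P.2 h with h' | ⟨h2, -⟩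
      · exact Or.inl h'
      · exact absurd h2 hp
    · exact Or.inr h

end Cfsg.Agent.S3908
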