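import Cfsg.Statements.S3909
import Mathlib
import Cfsg.Agent.Lib.GS.Sylow

set_option autoImplicit false
open Cfsg

namespace Cfsg.Agent.S3909


/-- Let G be a finite group in which any two abelian subgroups of the same order are conjugate. Let M be a normal subgroup of G. If M contains an element of the same order as a ∈ G, then a ∈ M; and if M is elementary abelian of order p^t with p prime and t ≥ 2, then M is the unique Sylow p-subgroup of G. -/
theorem result {G : Type*} [Group G] [Finite G] (hB : ∀ A B : Subgroup G, IsMulCommutative ↥A → IsMulCommutative ↥B → Nat.card ↥A = Nat.card ↥B → ∃ g : G, B = A.map (MulAut.conj g).toMonoidHom) (M : Subgroup G) [M.Normal] :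
    (∀ a : G, (∃ m ∈ M, orderOf m = orderOf a) → a ∈ M) ∧
    ∀ (p t : ℕ) [Fact p.Prime], 2 ≤ t → Nat.card ↥M = p ^ t → Cfsg.IsElementaryAbelian p M → ∀ P : Sylow p G, (P : Subgroup G) = M := by
  have hmap : ∀ (g : G) (A : Subgroup G), A ≤ M → A.map (MulAut.conj g).toMonoidHom ≤ M := by
    rintro g A hA _ ⟨z, hz, rfl⟩
    exact ‹M.Normal›.conj_mem z (hA hz) g
  refine ⟨?_, ?_⟩
  · rintro a ⟨m, hm, hma⟩
    obtain ⟨g, hg⟩ := hB (Subgroup.zpowers m) (Subgroup.zpowers a) inferInstance inferInstance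
      (by rw [Nat.card_zpowers, Nat.card_zpowers, hma])
    exact (hg ▸ hmap g _ (Subgroup.zpowers_le.mpr hm)) (Subgroup.mem_zpowers a)
  · intro p t _ ht hcard hel P
    have hp : p.Prime := Fact.out
    have hMP : M ≤ (P : Subgroup G) := (IsPGroup.of_card hcard).le_sylow_of_normal P
    refine le_antisymm (fun x hx => ?_) hMP
    obtain ⟨b, hb⟩ := IsPGroup.iff_orderOf.mp P.2 ⟨x, hx⟩
    rw [Subgroup.orderOf_mk] at hb
    rcases b with _ | _ | b
    · rw [orderOf_eq_one_iff.mp (hb.trans (pow_zero p))]; exact one_mem M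
    · obtain ⟨m, hm⟩ := exists_prime_orderOf_dvd_card' (G := M) p
        (hcard ▸ dvd_pow_self p (by omega))
      obtain ⟨g, hg⟩ := hB (Subgroup.zpowers (m : G)) (Subgroup.zpowers x) inferInstance inferInstance
        (by rw [Nat.card_zpowers, Nat.card_zpowers, Subgroup.orderOf_coe, hm, hb, pow_one])
      exact (hg ▸ hmap g _ (Subgroup.zpowers_le.mpr m.2)) (Subgroup.mem_zpowers x)
    · exfalso
      have hy : orderOf (x ^ (p ^ b)) = p ^ 2 := by
        rw [orderOf_pow, hb, show b + 1 + 1 = b + 2 from rfl, pow_add, Nat.gcd_mul_right_left,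
          Nat.mul_div_cancel_left _ (pow_pos hp.pos b)]
      obtain ⟨A, hA⟩ := Sylow.exists_subgroup_card_pow_prime (G := M) p (n := 2)
        (by rw [hcard]; exact pow_dvd_pow p ht)
      haveI := hel.1
      have hA' : ∀ z ∈ A.map M.subtype, z ^ p = 1 := by
        rintro _ ⟨z, -, rfl⟩
        exact hel.2 _ z.2
      have hcomm : IsMulCommutative ↥(A.map M.subtype) := by
        refine ⟨⟨fun a c => Subtype.ext ?_⟩⟩
        exact congrArg M.subtype (IsMulCommutative.is_comm.comm (⟨a.1, Subgroup.map_subtype_le A a.2⟩ : M) ⟨c, Subgroup.map_subtype_le A c.2⟩)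
      obtain ⟨g, hg⟩ := hB (A.map M.subtype) (Subgroup.zpowers (x ^ (p ^ b))) hcomm inferInstance
        (by rw [Nat.card_zpowers, hy, Subgroup.card_map_of_injective M.subtype_injective, hA])
      have hmem : x ^ (p ^ b) ∈ Subgroup.zpowers (x ^ (p ^ b)) := Subgroup.mem_zpowers _
      rw [hg] at hmem
      obtain ⟨z, hz, hz2⟩ := hmem
      have h1 : (x ^ (p ^ b)) ^ p = 1 := by rw [← hz2, ← map_pow, hA' z hz, map_one]
      have h2 := orderOf_dvd_of_pow_eq_one h1
      rw [hy, sq] at h2
      have := Nat.le_of_dvd hp.pos h2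
      nlinarith [hp.two_le]

end Cfsg.Agent.S3909
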