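import Cfsg.Statements.S3910
import Mathlib
import Cfsg.Agent.Lib.GS.Sylow

set_option autoImplicit false
open Cfsg

namespace Cfsg.Agent.S3910


/-- A finite nilpotent group in which any two abelian subgroups of the same order are conjugate is cyclic. -/
theorem result {G : Type*} [Group G] [Finite G] (hB : ∀ A B : Subgroup G, IsMulCommutative ↥A → IsMulCommutative ↥B → Nat.card ↥A = Nat.card ↥B → ∃ g : G, B = A.map (MulAut.conj g).toMonoidHom) (hnil : Group.IsNilpotent G) : IsCyclic G := by
  classical
  haveI := hnil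
  obtain ⟨A, -, hAmax⟩ := Finite.exists_le_maximal
    (p := fun A : Subgroup G => A.Normal ∧ IsMulCommutative ↥A) (a := ⊥) ⟨inferInstance, inferInstance⟩
  haveI hAn : A.Normal := hAmax.1.1
  haveI hAc : IsMulCommutative ↥A := hAmax.1.2
  set Z := Subgroup.centralizer (A : Set G) with hZ
  have hAZ : A ≤ Z := Subgroup.le_centralizer A
  have hZA : Z ≤ A := by
    by_contra hne
    let W := Z.map (QuotientGroup.mk' A)
    haveI : W.Normal := Subgroup.Normal.map inferInstance _ (QuotientGroup.mk'_surjective A)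
    obtain ⟨z, hzZ, hzA⟩ := SetLike.not_le_iff_exists.mp hne
    have hW : W ≠ ⊥ := fun h => hzA (by
      have : QuotientGroup.mk' A z ∈ W := Subgroup.mem_map_of_mem _ hzZ
      rw [h, Subgroup.mem_bot] at this
      exact (QuotientGroup.eq_one_iff z).mp this)
    obtain ⟨w, hw, hw1⟩ := Cfsg.Agent.Lib.GS.exists_central_of_normal
      (G := G ⧸ A) inferInstance (W := W) inferInstance hW
    obtain ⟨u, huZ, rfl⟩ := hw.1
    set B := A ⊔ Subgroup.zpowers u with hB'
    have hBn : B.Normal := by
      have : B = (Subgroup.zpowers (QuotientGroup.mk' A u)).comap (QuotientGroup.mk' A) := by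
        rw [← MonoidHom.map_zpowers, Subgroup.comap_map_eq, QuotientGroup.ker_mk', sup_comm]
      rw [this]
      haveI : (Subgroup.zpowers (QuotientGroup.mk' A u)).Normal := ⟨fun v hv c => by
        have h2 : v ∈ Subgroup.center (G ⧸ A) := (Subgroup.zpowers_le.mpr hw.2) hv
        rwa [Subgroup.mem_center_iff.mp h2 c, mul_inv_cancel_right]⟩
      infer_instance
    have hBc : IsMulCommutative ↥B := by
      have h1 : B ≤ Subgroup.centralizer (B : Set G) := by
        have huA : ∀ a ∈ A, a * u = u * a := fun a ha => Subgroup.mem_centralizer_iff.mp huZ a ha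
        refine sup_le ?_ (Subgroup.zpowers_le.mpr ?_)
        · intro a ha
          rw [Subgroup.mem_centralizer_iff]
          intro b hb
          have : B ≤ Subgroup.centralizer {a} := sup_le (fun c hc => Subgroup.mem_centralizer_singleton_iff.mpr
            (Subgroup.mem_centralizer_iff.mp (hAZ ha) c hc)) (Subgroup.zpowers_le.mpr
              (Subgroup.mem_centralizer_singleton_iff.mpr (huA a ha).symm))
          exact Subgroup.mem_centralizer_singleton_iff.mp (this hb)
        · rw [Subgroup.mem_centralizer_iff]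
          intro b hb
          have : B ≤ Subgroup.centralizer {u} := sup_le (fun c hc => Subgroup.mem_centralizer_singleton_iff.mpr
            (huA c hc)) (Subgroup.zpowers_le.mpr (Subgroup.mem_centralizer_singleton_iff.mpr rfl))
          exact Subgroup.mem_centralizer_singleton_iff.mp (this hb)
      exact ⟨⟨fun a b => Subtype.ext (Subgroup.mem_centralizer_iff.mp (h1 b.2) a a.2)⟩⟩
    exact hw1 ((QuotientGroup.eq_one_iff u).mpr
      (hAmax.2 ⟨hBn, hBc⟩ le_sup_left (Subgroup.mem_sup_right (Subgroup.mem_zpowers u))))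
  -- an abelian `p`-subgroup of small order lies in `A`
  have hsmall : ∀ (x : G) (p k : ℕ), p.Prime → orderOf x = p ^ k → p ^ k ∣ Nat.card A → x ∈ A := by
    intro x p k hp hx hd
    haveI := Fact.mk hp
    obtain ⟨D, hD⟩ := Sylow.exists_subgroup_card_pow_prime p hd
    have hDc : IsMulCommutative ↥(D.map A.subtype) := ⟨⟨fun a c => Subtype.ext
      (congrArg A.subtype (IsMulCommutative.is_comm.comm (⟨a.1, Subgroup.map_subtype_le D a.2⟩ : A) ⟨c, Subgroup.map_subtype_le D c.2⟩))⟩⟩
    obtain ⟨g, hg⟩ := hB (D.map A.subtype) (Subgroup.zpowers x) hDc inferInstance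
      (by rw [Subgroup.card_map_of_injective A.subtype_injective, hD, Nat.card_zpowers, hx])
    have := Subgroup.mem_zpowers x
    rw [hg] at this
    obtain ⟨z, hz, rfl⟩ := this
    exact hAn.conj_mem z (Subgroup.map_subtype_le D hz) g
  have htop : A = ⊤ := by
    refine Cfsg.Agent.Lib.GS.eq_top_of_prime_power_elements fun x p k hp hx => ?_
    induction k using Nat.strong_induction_on generalizing x with
    | _ k ih => ?_
    haveI := Fact.mk hp
    by_cases hd : p ^ k ∣ Nat.card A
    · exact hsmall x p k hp hx hd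
    rcases k with _ | k
    · rw [orderOf_eq_one_iff.mp (hx.trans (pow_zero p))]; exact one_mem A
    have hxp : orderOf (x ^ p) = p ^ k := by
      rw [orderOf_pow, hx, pow_succ, Nat.gcd_mul_left_left, Nat.mul_div_cancel _ hp.pos]
    have hxA : x ^ p ∈ A := ih k (by omega) _ hxp
    apply hZA
    rw [hZ, Subgroup.mem_centralizer_iff]
    intro a ha
    suffices h : A ≤ Subgroup.centralizer {x} from
      (Subgroup.mem_centralizer_singleton_iff.mp (h ha))
    refine Cfsg.Agent.Lib.GS.le_of_prime_power_elements fun c hc q j hq hcj => ?_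
    rw [Subgroup.mem_centralizer_singleton_iff]
    rcases eq_or_ne q p with rfl | hqp
    · -- the Sylow subgroup of `A` is generated by `x ^ p`
      have hjk : j ≤ k := by
        by_contra hlt
        exact hd ((pow_dvd_pow q (by omega)).trans
          (hcj ▸ Cfsg.Agent.Lib.GS.orderOf_dvd_card_of_mem hc))
      obtain ⟨P⟩ : Nonempty (Sylow q A) := inferInstance
      have hPn : (P : Subgroup A).Normal := ⟨fun u hu v => by rw [IsMulCommutative.is_comm.comm v u, mul_inv_cancel_right]; exact hu⟩
      have hPle : (P : Subgroup A) ≤ Subgroup.zpowers (⟨x ^ q, hxA⟩ : A) := by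
        have hmem : Subgroup.zpowers (⟨x ^ q, hxA⟩ : A) ≤ (P : Subgroup A) :=
          Subgroup.zpowers_le.mpr (Cfsg.Agent.Lib.GS.mem_of_normal_sylow P hPn
            (b := k) (by rw [← Subgroup.orderOf_coe]; exact hxp))
        refine le_of_eq (Subgroup.eq_of_le_of_card_ge hmem ?_).symm
        rw [Nat.card_zpowers, ← Subgroup.orderOf_coe]
        obtain ⟨m, hm⟩ := IsPGroup.iff_card.mp P.2
        have hmk : m ≤ k := by
          by_contra hlt
          exact hd ((pow_dvd_pow q (by omega)).trans (hm ▸ Subgroup.card_subgroup_dvd_card _))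
        rw [hxp, hm]
        exact Nat.pow_le_pow_right hq.pos hmk
      have hcP : (⟨c, hc⟩ : A) ∈ (P : Subgroup A) :=
        Cfsg.Agent.Lib.GS.mem_of_normal_sylow P hPn (b := j) (by rw [← Subgroup.orderOf_coe]; exact hcj)
      obtain ⟨i, hi⟩ := Subgroup.mem_zpowers_iff.mp (hPle hcP)
      have hi' : (x ^ q) ^ i = c := congrArg Subtype.val hi
      rw [← hi']
      exact (((Commute.refl x).pow_left q).zpow_left i).eq
    · exact (Cfsg.Agent.Lib.GS.commute_of_nilpotent hnil hq hp hqp hcj hx).eq
  -- so `G` is commutative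
  have hcomm : ∀ a b : G, a * b = b * a := fun a b =>
    congrArg A.subtype (IsMulCommutative.is_comm.comm (⟨a, htop ▸ Subgroup.mem_top a⟩ : A) ⟨b, htop ▸ Subgroup.mem_top b⟩)
  obtain ⟨g, hg⟩ : ∃ g : G, ∀ x : G, orderOf x ∣ orderOf g := by
    letI : CommGroup G := { ‹Group G› with mul_comm := hcomm }
    obtain ⟨g, hg⟩ := Monoid.exists_orderOf_eq_exponent (G := G) Monoid.ExponentExists.of_finite
    exact ⟨g, fun x => hg ▸ Monoid.order_dvd_exponent x⟩
  refine ⟨g, fun x => ?_⟩
  obtain ⟨d, hd⟩ := hg x
  have hgd : orderOf (g ^ d) = orderOf x := by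
    rw [orderOf_pow, hd, Nat.gcd_mul_left_left, Nat.mul_div_cancel]
    rcases Nat.eq_zero_or_pos d with h0 | h0
    · exact absurd hd (by rw [h0, mul_zero]; exact (orderOf_pos g).ne')
    · exact h0
  obtain ⟨c, hc⟩ := hB (Subgroup.zpowers (g ^ d)) (Subgroup.zpowers x) inferInstance inferInstance
    (by rw [Nat.card_zpowers, Nat.card_zpowers, hgd])
  have := Subgroup.mem_zpowers x
  rw [hc] at this
  obtain ⟨z, hz, rfl⟩ := this
  have : (MulAut.conj c).toMonoidHom z = z := by
    simp only [MulEquiv.coe_toMonoidHom, MulAut.conj_apply]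
    rw [hcomm c z, mul_inv_cancel_right]
  rw [this]
  exact Subgroup.mem_zpowers_iff.mp (Subgroup.zpowers_le.mpr (Subgroup.pow_mem _ (Subgroup.mem_zpowers g) d) hz)

end Cfsg.Agent.S3910
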