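import Cfsg.Statements.S3911
import Mathlib
import Cfsg.Agent.Lib.GS.AbConj
import Cfsg.Agent.Lib.GS.Sylow
import Cfsg.Agent.Lib.UniqueInvolution
import Cfsg.Agent.Lib.Coprime.Basic

set_option autoImplicit false
open Cfsg

namespace Cfsg.Agent.S3911

open Subgroup

theorem mem_zpowers_of_orderOf_dvd {C : Type*} [Group C] [Finite C] [IsCyclic C] {x y : C}
    (h : orderOf y ∣ orderOf x) : y ∈ zpowers x := by
  classical
  have := Fintype.ofFinite C
  have hsub : (Finset.univ.filter fun a => a ∈ zpowers x) ⊆
      Finset.univ.filter fun a : C => a ^ orderOf x = 1 := by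
    intro a ha
    simp only [Finset.mem_filter, Finset.mem_univ, true_and] at ha ⊢
    exact orderOf_dvd_iff_pow_eq_one.1 (orderOf_dvd_of_mem_zpowers ha)
  have hcard : (Finset.univ.filter fun a => a ∈ zpowers x).card = orderOf x := by
    rw [← Fintype.card_subtype, ← Nat.card_eq_fintype_card]
    exact Nat.card_zpowers x
  have heq := Finset.eq_of_subset_of_card_le hsub
    ((IsCyclic.card_pow_eq_one_le (orderOf_pos x)).trans hcard.ge)
  have hy : y ∈ Finset.univ.filter fun a : C => a ^ orderOf x = 1 := by
    simpa using orderOf_dvd_iff_pow_eq_one.1 h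
  rw [← heq] at hy
  simpa using hy

theorem exists_lift {G : Type*} [Group G] [Finite G]
    (hB : ∀ A B : Subgroup G, IsMulCommutative ↥A → IsMulCommutative ↥B → Nat.card ↥A = Nat.card ↥B →
      ∃ g : G, B = A.map (MulAut.conj g).toMonoidHom)
    (M : Subgroup G) [M.Normal] (hM : Odd (Nat.card ↥M)) (A : Subgroup (G ⧸ M)) (hA : IsMulCommutative A) :
    ∃ K : Subgroup G, IsMulCommutative K ∧ K.map (QuotientGroup.mk' M) = A ∧
      ∀ q : ℕ, q.Prime → (Nat.card K).factorization q =
        if q ∣ Nat.card A then (Nat.card A).factorization q + (Nat.card M).factorization q else 0 := by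
  classical
  set π := QuotientGroup.mk' M with hπ
  obtain ⟨K, hK, hKmin⟩ := (Set.toFinite {K : Subgroup G | K.map π = A}).exists_minimal
    ⟨A.comap π, map_comap_eq_self_of_surjective (QuotientGroup.mk'_surjective M) A⟩
  have hKmap : K.map π = A := hK
  have hcoatom : ∀ L : Subgroup K, IsCoatom L → (M.subgroupOf K) ≤ L := by
    intro L hL
    by_contra hle
    have htop : L ⊔ M.subgroupOf K = ⊤ := hL.2 _ (left_lt_sup.2 hle)
    have hmap : (L.map K.subtype).map π = A := by
      rw [← hKmap]
      refine le_antisymm (map_mono (map_subtype_le L)) ?_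
      have h1 : K = L.map K.subtype ⊔ (M.subgroupOf K).map K.subtype := by
        rw [← Subgroup.map_sup, htop, ← MonoidHom.range_eq_map, range_subtype]
      nth_rewrite 1 [h1]
      rw [Subgroup.map_sup]
      refine sup_le le_rfl ?_
      have : ((M.subgroupOf K).map K.subtype).map π = ⊥ := by
        rw [Subgroup.map_eq_bot_iff, QuotientGroup.ker_mk']
        rw [map_le_iff_le_comap]; exact le_rfl
      rw [this]; exact bot_le
    refine hL.1 (eq_top_iff.2 fun k _ => ?_)
    obtain ⟨l, hl, hlk⟩ := hKmin hmap (map_subtype_le L) k.2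
    exact (Subtype.ext hlk : l = k) ▸ hl
  have hcomm : ∀ a b : K, a * b * a⁻¹ * b⁻¹ ∈ M.subgroupOf K := by
    intro a b
    rw [mem_subgroupOf, ← QuotientGroup.eq_one_iff]
    change π _ = 1
    have h1 : π a ∈ A := hKmap ▸ mem_map_of_mem π a.2
    have h2 : π b ∈ A := hKmap ▸ mem_map_of_mem π b.2
    have h3 : π a * π b = π b * π a := congrArg Subtype.val (hA.1.1 ⟨_, h1⟩ ⟨_, h2⟩)
    simp only [Subgroup.coe_mul, InvMemClass.coe_inv, map_mul, map_inv]
    rw [h3]; group
  have hnil : Group.IsNilpotent K := by
    refine ((Group.isNilpotent_of_finite_tfae (G := K)).out 0 2 rfl rfl).mpr fun L hL => ⟨fun l hl k => ?_⟩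
    have := mul_mem (hcoatom L hL (hcomm k l)) hl
    simpa using this
  have hall := ((Group.isNilpotent_of_finite_tfae (G := K)).out 0 3 rfl rfl).mp hnil
  have hcardK : Nat.card A * Nat.card (K ⊓ M : Subgroup G) = Nat.card K := by
    rw [← hKmap]; exact Cfsg.Agent.Lib.Coprime.card_map_mk' M K
  have hA0 : Nat.card A ≠ 0 := Nat.card_pos.ne'
  have hI0 : Nat.card (K ⊓ M : Subgroup G) ≠ 0 := Nat.card_pos.ne'
  have hIle : ∀ q, (Nat.card (K ⊓ M : Subgroup G)).factorization q ≤ (Nat.card M).factorization q :=
    fun q => (Nat.factorization_le_iff_dvd hI0 Nat.card_pos.ne').2 (card_dvd_of_le inf_le_right) q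
  have key : ∀ q : ℕ, q.Prime → ∀ Q : Sylow q K, IsMulCommutative (Q : Subgroup K) ∧
      (Nat.card K).factorization q =
        if q ∣ Nat.card A then (Nat.card A).factorization q + (Nat.card M).factorization q else 0 := by
    intro q hq Q
    haveI := Fact.mk hq
    haveI := hall q ‹_› Q
    -- the Sylow subgroup of `K` maps onto the `q`-part of `A`
    by_cases hqA : q ∣ Nat.card A
    · rw [if_pos hqA]
      have hQM : ¬ (Q : Subgroup K) ≤ M.subgroupOf K := by
        intro hle
        have h1 : (Nat.card K).factorization q ≤ (Nat.card (K ⊓ M : Subgroup G)).factorization q := by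
          rw [← hq.pow_dvd_iff_le_factorization hI0, ← Q.card_eq_multiplicity,
            ← Subgroup.card_map_of_injective K.subtype_injective]
          refine card_dvd_of_le ?_
          rintro _ ⟨k, hk, rfl⟩
          exact ⟨k.2, hle hk⟩
        rw [← hcardK, Nat.factorization_mul hA0 hI0, Finsupp.add_apply] at h1
        have := hq.factorization_pos_of_dvd hA0 hqA
        omega
      by_cases hqM : q ∣ Nat.card M
      · have hq2 : q ≠ 2 := fun h => (Nat.not_even_iff_odd.2 hM) (even_iff_two_dvd.2 (h ▸ hqM))
        have hcyc : ∀ P : Sylow q G, IsCyclic (P : Subgroup G) := by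
          intro P
          rcases Cfsg.Agent.Lib.GS.AbConj.unique_or_exponent hB (P : Subgroup G) P.2 with h | h
          · exact (Cfsg.Agent.Lib.UniqueInvolution.isCyclic_or_quaternion P.2 h).resolve_right
              fun h' => hq2 h'.1
          · exfalso
            obtain ⟨m, hm⟩ := exists_prime_orderOf_dvd_card' (G := M) q hqM
            have hPM : (P : Subgroup G) ≤ M := by
              intro x hx
              rcases eq_or_ne x 1 with rfl | hx1
              · exact one_mem _
              obtain ⟨g, hg⟩ := hB (zpowers (m : G)) (zpowers x) inferInstance inferInstance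
                (by rw [Nat.card_zpowers, Nat.card_zpowers, Subgroup.orderOf_coe, hm,
                  orderOf_eq_prime (h x hx) hx1])
              have hxm : x ∈ zpowers x := mem_zpowers x
              rw [hg] at hxm
              obtain ⟨z, hz, rfl⟩ := hxm
              exact ‹M.Normal›.conj_mem z (zpowers_le.2 m.2 hz) g
            refine P.not_dvd_index (dvd_trans ?_ (Subgroup.index_dvd_of_le hPM))
            exact hqA.trans ((Subgroup.card_subgroup_dvd_card A).trans (dvd_of_eq rfl))
        set Q' := (Q : Subgroup K).map K.subtype with hQ'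
        obtain ⟨P, hP⟩ := (Q.2.map K.subtype : IsPGroup q Q').exists_le_sylow
        haveI := hcyc P
        haveI hQ'c : IsCyclic Q' := isCyclic_of_injective (Subgroup.inclusion hP) (Subgroup.inclusion_injective hP)
        refine ⟨⟨⟨fun a b => ?_⟩⟩, ?_⟩
        · obtain ⟨t, ht⟩ := hQ'c.exists_generator
          obtain ⟨i, hi⟩ := mem_zpowers_iff.1 (ht ⟨a.1, mem_map_of_mem _ a.2⟩)
          obtain ⟨j, hj⟩ := mem_zpowers_iff.1 (ht ⟨b.1, mem_map_of_mem _ b.2⟩)
          have := congrArg Subtype.val (Commute.zpow_zpow_self t i j).eq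
          rw [hi, hj] at this
          exact Subtype.ext (Subtype.ext this)
        · obtain ⟨x, hxQ, hxM⟩ := SetLike.not_le_iff_exists.1 hQM
          have hsub : (P : Subgroup G) ⊓ M ≤ K ⊓ M := by
            rintro y ⟨hyP, hyM⟩
            refine ⟨?_, hyM⟩
            set x' : (P : Subgroup G) := ⟨x.1, hP (mem_map_of_mem _ hxQ)⟩
            set y' : (P : Subgroup G) := ⟨y, hyP⟩
            obtain ⟨i, hi⟩ := IsPGroup.iff_orderOf.1 P.2 x'
            obtain ⟨j, hj⟩ := IsPGroup.iff_orderOf.1 P.2 y'
            rcases le_total j i with hle | hle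
            · obtain ⟨k, hk⟩ := mem_zpowers_iff.1 (mem_zpowers_of_orderOf_dvd (x := x') (y := y')
                (by rw [hi, hj]; exact pow_dvd_pow q hle))
              have := congrArg Subtype.val hk
              rw [SubgroupClass.coe_zpow] at this
              change y ∈ K
              rw [← show (x : G) ^ k = y from this]; exact zpow_mem x.2 k
            · obtain ⟨k, hk⟩ := mem_zpowers_iff.1 (mem_zpowers_of_orderOf_dvd (x := y') (y := x')
                (by rw [hi, hj]; exact pow_dvd_pow q hle))
              have := congrArg Subtype.val hk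
              rw [SubgroupClass.coe_zpow] at this
              refine absurd ?_ hxM
              rw [mem_subgroupOf, ← show y ^ k = (x : G) from this]
              exact Subgroup.zpow_mem M hyM k
          have hge : q ^ (Nat.card M).factorization q ∣ Nat.card (K ⊓ M : Subgroup G) := by
            obtain ⟨S⟩ : Nonempty (Sylow q M) := inferInstance
            obtain ⟨P', hP'⟩ := (S.2.map M.subtype).exists_le_sylow
            obtain ⟨g, hg⟩ := MulAction.exists_smul_eq G P' P
            rw [← S.card_eq_multiplicity, ← card_map_of_injective M.subtype_injective,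
              ← card_map_of_injective (f := (MulAut.conj g).toMonoidHom) (MulAut.conj g).injective]
            refine card_dvd_of_le (le_trans ?_ hsub)
            rintro _ ⟨y, hy, rfl⟩
            refine ⟨?_, ‹M.Normal›.conj_mem y (map_subtype_le _ hy) g⟩
            rw [SetLike.mem_coe, ← hg, Sylow.coe_subgroup_smul]
            exact Subgroup.smul_mem_pointwise_smul y _ _ (hP' hy)
          have := (hq.pow_dvd_iff_le_factorization hI0).1 hge
          rw [← hcardK, Nat.factorization_mul hA0 hI0, Finsupp.add_apply]
          have := hIle q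
          omega
      · have h0 : (Nat.card M).factorization q = 0 := Nat.factorization_eq_zero_of_not_dvd hqM
        refine ⟨⟨⟨fun a b => ?_⟩⟩, ?_⟩
        · have hinj : ∀ c : (Q : Subgroup K), (c : K) ∈ M.subgroupOf K → c = 1 := by
            intro c hc
            by_contra hc1
            obtain ⟨n, hn⟩ := IsPGroup.iff_orderOf.1 Q.2 c
            have hn0 : n ≠ 0 := fun h => hc1 (orderOf_eq_one_iff.1 (by rw [hn, h, pow_zero]))
            refine hqM ((dvd_pow_self q hn0).trans ?_)
            rw [← hn]
            have := orderOf_dvd_natCard (⟨((c : K) : G), hc⟩ : M)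
            rw [← orderOf_injective M.subtype M.subtype_injective] at this
            change orderOf ((c : K) : G) ∣ _ at this
            rwa [Subgroup.orderOf_coe, Subgroup.orderOf_coe] at this
          have := hinj (a * b * a⁻¹ * b⁻¹) (hcomm a b)
          rwa [mul_inv_eq_one, mul_inv_eq_iff_eq_mul] at this
        · have := hIle q
          rw [← hcardK, Nat.factorization_mul hA0 hI0, Finsupp.add_apply]
          omega
    · rw [if_neg hqA]
      have hQle : (Q : Subgroup K) ≤ M.subgroupOf K := by
        intro c hc
        rw [mem_subgroupOf, ← QuotientGroup.eq_one_iff]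
        obtain ⟨n, hn⟩ := IsPGroup.iff_orderOf.1 Q.2 ⟨c, hc⟩
        rw [Subgroup.orderOf_mk] at hn
        have h1 : orderOf (π c) ∣ q ^ n := by
          rw [← hn]; exact orderOf_map_dvd (π.comp K.subtype) c
        have h2 : orderOf (π c) ∣ Nat.card A := by
          have := orderOf_dvd_natCard (⟨π c, hKmap ▸ mem_map_of_mem π c.2⟩ : A)
          rwa [Subgroup.orderOf_mk] at this
        exact orderOf_eq_one_iff.1 (Nat.eq_one_of_dvd_coprimes
          ((Nat.Coprime.pow_left n (hq.coprime_iff_not_dvd.2 hqA))) h1 h2)
      obtain ⟨R, hR⟩ := Subgroup.exists_right_complement'_of_coprime (N := (Q : Subgroup K)) Q.card_coprime_index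
      have hRtop : R = ⊤ := by
        by_contra hne
        obtain ⟨L, hL, hRL⟩ := (eq_top_or_exists_le_coatom R).resolve_left hne
        refine hL.1 (top_le_iff.1 ?_)
        rw [← hR.sup_eq_top]
        exact sup_le (hQle.trans (hcoatom L hL)) hRL
      have hQbot : (Q : Subgroup K) = ⊥ := by
        have := hR.disjoint
        rwa [hRtop, disjoint_top] at this
      refine ⟨⟨⟨fun a b => ?_⟩⟩, ?_⟩
      · have : ∀ c : (Q : Subgroup K), c = 1 := fun c => Subtype.ext (mem_bot.1 (hQbot.le c.2))
        rw [this a, this b]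
      · have := Q.card_eq_multiplicity
        rw [hQbot, Subgroup.card_bot] at this
        rcases Nat.pow_eq_one.1 this.symm with h | h
        · exact absurd h hq.one_lt.ne'
        · exact h
  refine ⟨K, ?_, hKmap, fun q hq => (key q hq (@Classical.arbitrary (Sylow q K) _)).2⟩
  -- nilpotent with commutative Sylow subgroups
  have hcent : ∀ x : K, (∃ q n : ℕ, q.Prime ∧ orderOf x = q ^ n) → x ∈ center K := by
    rintro x ⟨q, n, hq, hx⟩
    have : centralizer ({x} : Set K) = ⊤ := by
      refine Cfsg.Agent.Lib.GS.eq_top_of_prime_power_elements fun y r m hr hy => ?_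
      rw [mem_centralizer_iff]
      rintro _ rfl
      by_cases hqr : q = r
      · subst hqr
        haveI := Fact.mk hq
        obtain ⟨Q⟩ : Nonempty (Sylow q K) := inferInstance
        exact congrArg Subtype.val ((key q hq Q).1.1.1
          ⟨_, Cfsg.Agent.Lib.GS.mem_of_normal_sylow Q (hall q ‹_› Q) hx⟩
          ⟨y, Cfsg.Agent.Lib.GS.mem_of_normal_sylow Q (hall q ‹_› Q) hy⟩)
      · exact (Cfsg.Agent.Lib.GS.commute_of_nilpotent hnil hq hr hqr hx hy).eq
    rw [mem_center_iff]
    intro y
    have hy : y ∈ centralizer ({x} : Set K) := by rw [this]; exact mem_top y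
    exact (mem_centralizer_iff.1 hy x rfl).symm
  have htop : center K = ⊤ :=
    Cfsg.Agent.Lib.GS.eq_top_of_prime_power_elements fun y r m hr hy => hcent y ⟨r, m, hr, hy⟩
  exact ⟨⟨fun a b => mem_center_iff.1 (htop ▸ mem_top b) a⟩⟩

/-- Let G be a finite group in which any two abelian subgroups of the same order are conjugate. If M is a normal subgroup of G of odd order, then any two abelian subgroups of G/M of the same order are conjugate in G/M. -/
theorem result {G : Type*} [Group G] [Finite G] (hB : ∀ A B : Subgroup G, IsMulCommutative ↥A → IsMulCommutative ↥B → Nat.card ↥A = Nat.card ↥B → ∃ g : G, B = A.map (MulAut.conj g).toMonoidHom) (M : Subgroup G) [M.Normal] (hM : Odd (Nat.card ↥M)) :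
    ∀ A B : Subgroup (G ⧸ M), IsMulCommutative ↥A → IsMulCommutative ↥B → Nat.card ↥A = Nat.card ↥B →
      ∃ g : G ⧸ M, B = A.map (MulAut.conj g).toMonoidHom := by
  intro A B hA hBc hcard
  obtain ⟨K, hKc, hKA, hKf⟩ := exists_lift hB M hM A hA
  obtain ⟨L, hLc, hLB, hLf⟩ := exists_lift hB M hM B hBc
  have hKL : Nat.card ↥K = Nat.card ↥L := by
    refine Nat.eq_of_factorization_eq Nat.card_pos.ne' Nat.card_pos.ne' fun q => ?_
    by_cases hq : q.Prime
    · rw [hKf q hq, hLf q hq, hcard]
    · rw [Nat.factorization_eq_zero_of_not_prime _ hq, Nat.factorization_eq_zero_of_not_prime _ hq]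
  obtain ⟨g, hg⟩ := hB K L hKc hLc hKL
  refine ⟨(g : G ⧸ M), ?_⟩
  rw [← hKA, ← hLB, hg, Subgroup.map_map, Subgroup.map_map]
  rfl

end Cfsg.Agent.S3911
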