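import Cfsg.Statements.S3912
import Cfsg.Agent.Lib.UniqueInvolution
import Cfsg.Agent.Lib.Hall.Solvable

set_option autoImplicit false
open Cfsg

namespace Cfsg.Agent.S3912


open Subgroup
open scoped commutatorElement

universe u

/-- Abelian subgroups of equal order are conjugate. -/
abbrev ConjAb (G : Type u) [Group G] : Prop :=
  ∀ A B : Subgroup G, IsMulCommutative ↥A → IsMulCommutative ↥B → Nat.card ↥A = Nat.card ↥B →
    ∃ g : G, B = A.map (MulAut.conj g).toMonoidHom

lemma map_conj {G K : Type u} [Group G] [Group K] (f : G →* K) (H : Subgroup G) (g : G) :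
    (H.map (MulAut.conj g).toMonoidHom).map f =
      (H.map f).map (MulAut.conj (f g)).toMonoidHom := by
  rw [Subgroup.map_map, Subgroup.map_map]; congr 1; ext x; simp

lemma comm_mk {G : Type u} [Group G] (H : Subgroup G)
    (h : ∀ a ∈ H, ∀ b ∈ H, a * b = b * a) : IsMulCommutative ↥H :=
  ⟨⟨fun a b => Subtype.ext (h a a.2 b b.2)⟩⟩

lemma comm_get {G : Type u} [Group G] {H : Subgroup G} (h : IsMulCommutative ↥H)
    {a b : G} (ha : a ∈ H) (hb : b ∈ H) : a * b = b * a :=
  congrArg Subtype.val (h.is_comm.comm ⟨a, ha⟩ ⟨b, hb⟩)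

lemma conjAb_equiv {G K : Type u} [Group G] [Group K] (e : G ≃* K) (h : ConjAb G) : ConjAb K := by
  intro A B hA hB hc
  obtain ⟨g, hg⟩ := h (A.map e.symm.toMonoidHom) (B.map e.symm.toMonoidHom)
    inferInstance inferInstance
    (by rw [card_map_of_injective e.symm.injective, card_map_of_injective e.symm.injective, hc])
  refine ⟨e g, ?_⟩
  have h1 := congrArg (Subgroup.map e.toMonoidHom) hg
  have h2 : e.toMonoidHom.comp e.symm.toMonoidHom = MonoidHom.id K := by ext x; simp
  have hid : ∀ S : Subgroup K, (S.map e.symm.toMonoidHom).map e.toMonoidHom = S := fun S => by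
    rw [Subgroup.map_map, h2, Subgroup.map_id]
  rw [map_conj e.toMonoidHom, hid, hid] at h1
  simpa using h1

lemma lift {G : Type u} [Group G] (hB : ConjAb G) (M : Subgroup G) [M.Normal]
    (H K : Subgroup G) (hH : IsMulCommutative ↥H) (hK : IsMulCommutative ↥K)
    (hc : Nat.card ↥H = Nat.card ↥K) :
    ∃ g : G ⧸ M, K.map (QuotientGroup.mk' M) =
      (H.map (QuotientGroup.mk' M)).map (MulAut.conj g).toMonoidHom := by
  obtain ⟨g, hg⟩ := hB H K hH hK hc
  exact ⟨QuotientGroup.mk' M g, by rw [hg, map_conj]⟩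

lemma le_preimage {G : Type u} [Group G] (M : Subgroup G) [M.Normal] (A : Subgroup (G ⧸ M)) :
    M ≤ A.comap (QuotientGroup.mk' M) :=
  le_trans (QuotientGroup.ker_mk' M).ge ((QuotientGroup.mk' M).ker_le_comap A)

lemma card_preimage {G : Type u} [Group G] [Finite G] (M : Subgroup G) [M.Normal]
    (A : Subgroup (G ⧸ M)) :
    Nat.card ↥(A.comap (QuotientGroup.mk' M)) = Nat.card ↥M * Nat.card ↥A := by
  set X := A.comap (QuotientGroup.mk' M) with hX
  let f : ↥X →* ↥A := ((QuotientGroup.mk' M).comp X.subtype).codRestrict A fun x => x.2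
  have hs : Function.Surjective f := fun a => by
    obtain ⟨g, hg⟩ := QuotientGroup.mk'_surjective M a.1
    exact ⟨⟨g, by show QuotientGroup.mk' M g ∈ A; rw [hg]; exact a.2⟩, Subtype.ext hg⟩
  have hk : f.ker = M.subgroupOf X := by
    ext x
    rw [MonoidHom.mem_ker, mem_subgroupOf, ← QuotientGroup.eq_one_iff]
    exact Subtype.ext_iff
  have hMX : M ≤ X := le_preimage M A
  rw [← f.ker.card_mul_index, index_ker, MonoidHom.range_eq_top.2 hs, Subgroup.card_top, hk,
    Nat.card_congr (subgroupOfEquivOfLe hMX).toEquiv]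

lemma compl {G : Type u} [Group G] [Finite G] (M : Subgroup G) [M.Normal]
    (A : Subgroup (G ⧸ M)) (hA : IsMulCommutative ↥A)
    (hco : Nat.Coprime (Nat.card ↥M) (Nat.card ↥A)) :
    ∃ H : Subgroup G, IsMulCommutative ↥H ∧ Nat.card ↥H = Nat.card ↥A ∧
      H.map (QuotientGroup.mk' M) = A := by
  set X := A.comap (QuotientGroup.mk' M) with hX
  have hMX : M ≤ X := le_preimage M A
  have hcM : Nat.card ↥(M.subgroupOf X) = Nat.card ↥M :=
    Nat.card_congr (subgroupOfEquivOfLe hMX).toEquiv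
  have hidx : (M.subgroupOf X).index = Nat.card ↥A := by
    have h := (M.subgroupOf X).card_mul_index
    rw [hcM, card_preimage] at h
    exact mul_left_cancel₀ Nat.card_pos.ne' h
  obtain ⟨H, hH⟩ := exists_right_complement'_of_coprime (N := M.subgroupOf X)
    (by rw [hcM, hidx]; exact hco)
  have hcH : Nat.card ↥(H.map X.subtype) = Nat.card ↥A := by
    have h := hH.card_mul
    rw [hcM, card_preimage] at h
    rw [card_map_of_injective X.subtype_injective]
    exact mul_left_cancel₀ Nat.card_pos.ne' h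
  have hAH : (H.map X.subtype).map (QuotientGroup.mk' M) = A := by
    have h1 := congrArg (fun K => (Subgroup.map X.subtype K).map (QuotientGroup.mk' M))
      hH.sup_eq_top
    simp only [Subgroup.map_sup, subgroupOf_map_subtype, inf_eq_left.2 hMX,
      QuotientGroup.map_mk'_self, bot_sup_eq, ← MonoidHom.range_eq_map,
      range_subtype] at h1
    rw [h1, map_comap_eq_self_of_surjective (QuotientGroup.mk'_surjective M)]
  refine ⟨_, comm_mk _ ?_, hcH, hAH⟩
  intro a ha b hb
  have hinj : Function.Injective (((QuotientGroup.mk' M).comp (H.map X.subtype).subtype)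
      |>.codRestrict A fun x => hAH ▸ mem_map_of_mem _ x.2) := by
    refine ((Nat.bijective_iff_surjective_and_card _).2 ⟨?_, hcH⟩).1
    intro c
    obtain ⟨x, hx, hxc⟩ := (hAH.symm ▸ c.2 : c.1 ∈ (H.map X.subtype).map (QuotientGroup.mk' M))
    exact ⟨⟨x, hx⟩, Subtype.ext hxc⟩
  have := @hinj (⟨a, ha⟩ * ⟨b, hb⟩) (⟨b, hb⟩ * ⟨a, ha⟩)
    (by rw [map_mul, map_mul, hA.is_comm.comm])
  exact congrArg Subtype.val this

/-- Structure of the preimage of an abelian subgroup of order divisible by `p`. -/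
lemma preimage_struct {G : Type u} [Group G] [Finite G] {p : ℕ} [hp : Fact p.Prime]
    (M : Subgroup G) [M.Normal] (hM : Nat.card ↥M = p) (hord : ∀ x : G, x ^ p = 1 → x ∈ M)
    (A : Subgroup (G ⧸ M)) (hA : IsMulCommutative ↥A) (hdvd : p ∣ Nat.card ↥A) :
    ∃ S H : Subgroup G, S ⊔ H = A.comap (QuotientGroup.mk' M) ∧
      Nat.card ↥S = p ^ (p * Nat.card ↥A).factorization p ∧
      Nat.card ↥S * Nat.card ↥H = p * Nat.card ↥A ∧ IsMulCommutative ↥H ∧
      H ≤ centralizer (S : Set G) ∧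
      (IsMulCommutative ↥S → IsMulCommutative ↥(A.comap (QuotientGroup.mk' M))) := by
  set X := A.comap (QuotientGroup.mk' M) with hX
  have hMX : M ≤ X := le_preimage M A
  have hcX : Nat.card ↥X = p * Nat.card ↥A := by rw [card_preimage, hM]
  have hcomm : ∀ a ∈ X, ∀ b ∈ X, ⁅a, b⁆ ∈ M := fun a ha b hb => by
    rw [← QuotientGroup.eq_one_iff]
    show QuotientGroup.mk' M ⁅a, b⁆ = 1
    rw [map_commutatorElement, commutatorElement_eq_one_iff_mul_comm]
    exact comm_get hA ha hb
  -- an element of order `p²` makes `M` central in `X`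
  have hcent : ∀ y ∈ X, ∀ m ∈ M, y * m = m * y := by
    have h2 : p ^ 2 ∣ Nat.card ↥X := by rw [hcX, sq]; exact Nat.mul_dvd_mul_left p hdvd
    obtain ⟨K, hK⟩ := Sylow.exists_subgroup_card_pow_prime p h2
    obtain ⟨x, hxK, hx⟩ : ∃ x ∈ K, (x : G) ^ p ≠ 1 := by
      by_contra hn; push_neg at hn
      have hle : K.map X.subtype ≤ M := by
        rintro _ ⟨x, hx, rfl⟩; exact hord _ (hn x hx)
      have := card_le_of_le hle
      rw [card_map_of_injective X.subtype_injective, hK, hM] at this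
      nlinarith [hp.out.two_le]
    have hxp : (x : G) ^ p ∈ M := by
      apply hord
      rw [← pow_mul, ← sq, ← hK]
      exact congrArg (fun z : ↥K => ((z : ↥X) : G))
        (pow_card_eq_one' (G := ↥K) (x := ⟨x, hxK⟩))
    have hgen : M ≤ zpowers ((x : G) ^ p) := by
      intro m hm
      have := mem_zpowers_of_prime_card (p := p) hM (g := (⟨_, hxp⟩ : ↥M)) (g' := ⟨m, hm⟩)
        (fun h => hx (congrArg Subtype.val h))
      obtain ⟨k, hk⟩ := mem_zpowers_iff.1 this
      exact mem_zpowers_iff.2 ⟨k, by simpa using congrArg Subtype.val hk⟩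
    have hMx : ∀ m ∈ M, Commute m (x : G) := fun m hm => by
      obtain ⟨k, rfl⟩ := mem_zpowers_iff.1 (hgen hm)
      exact ((Commute.refl (x : G)).pow_left p).zpow_left k
    intro y hy m hm
    set c := ⁅y, (x : G)⁆ with hc
    have hcM : c ∈ M := hcomm y hy x x.2
    have hcp : c ^ p = 1 := by
      have := congrArg Subtype.val (pow_card_eq_one' (G := ↥M) (x := ⟨c, hcM⟩))
      rw [hM] at this; exact this
    have h1 : Commute y ((x : G) ^ p) := by
      have h1 : y * x * y⁻¹ = c * x := by rw [hc, commutatorElement_def]; group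
      have h2 : (y * x * y⁻¹) ^ p = (x : G) ^ p := by
        rw [h1, (hMx c hcM).mul_pow, hcp, one_mul]
      rw [conj_pow] at h2
      exact mul_inv_eq_iff_eq_mul.1 h2
    obtain ⟨k, rfl⟩ := mem_zpowers_iff.1 (hgen hm)
    exact h1.zpow_right k
  have hp' : ∀ a ∈ X, ¬ p ∣ orderOf a → ∀ y ∈ X, y * a = a * y := by
    intro a ha hna y hy
    set c := ⁅y, a⁆ with hc
    have hcM : c ∈ M := hcomm y hy a ha
    have h1 : y * a * y⁻¹ = c * a := by rw [hc, commutatorElement_def]; group
    have hca : Commute c a := (hcent a ha c hcM).symm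
    have h2 : c ^ orderOf a = 1 := by
      have h3 := congrArg (· ^ orderOf a) h1
      simp only [conj_pow, hca.mul_pow, pow_orderOf_eq_one, mul_one, mul_inv_cancel] at h3
      exact h3.symm
    have hcp : c ^ p = 1 := by
      have := congrArg Subtype.val (pow_card_eq_one' (G := ↥M) (x := ⟨c, hcM⟩))
      rw [hM] at this; exact this
    have h4 : c = 1 := orderOf_eq_one_iff.1 (Nat.eq_one_of_dvd_coprimes
      ((hp.out.coprime_iff_not_dvd).2 hna) (orderOf_dvd_of_pow_eq_one hcp)
      (orderOf_dvd_of_pow_eq_one h2))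
    exact commutatorElement_eq_one_iff_mul_comm.1 h4
  let P : Sylow p ↥X := Classical.arbitrary _
  have hMP : M.subgroupOf X ≤ (P : Subgroup ↥X) := by
    have hMpg : IsPGroup p ↥(M.subgroupOf X) := IsPGroup.of_card (n := 1) (by
      rw [Nat.card_congr (subgroupOfEquivOfLe hMX).toEquiv, hM, pow_one])
    exact le_trans le_sup_right
      (P.is_maximal' (P.isPGroup'.to_sup_of_normal_right hMpg) le_sup_left).le
  have hPn : (P : Subgroup ↥X).Normal := ⟨fun s hs y => by
    have h1 : ⁅y, s⁆ ∈ (P : Subgroup ↥X) := hMP (mem_subgroupOf.2 (hcomm _ y.2 _ s.2))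
    have := mul_mem h1 hs
    rwa [show ⁅y, s⁆ * s = y * s * y⁻¹ by rw [commutatorElement_def]; group] at this⟩
  obtain ⟨H, hH⟩ := exists_right_complement'_of_coprime (N := (P : Subgroup ↥X))
    P.card_coprime_index
  have hHc : ∀ a ∈ H, ∀ y : ↥X, y * a = a * y := fun a ha y => by
    refine Subtype.ext (hp' a a.2 (fun h => ?_) y y.2)
    have h1 : p ∣ Nat.card ↥H := by
      rw [orderOf_coe] at h; exact h.trans (Subgroup.orderOf_dvd_natCard H ha)
    have h2 : Nat.card ↥H = (P : Subgroup ↥X).index := hH.symm.index_eq_card.symm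
    exact P.not_dvd_index (h2 ▸ h1)
  refine ⟨(P : Subgroup ↥X).map X.subtype, H.map X.subtype, ?_, ?_, ?_, ?_, ?_, ?_⟩
  · rw [← Subgroup.map_sup, hH.sup_eq_top, ← MonoidHom.range_eq_map, range_subtype]
  · rw [card_map_of_injective X.subtype_injective, P.card_eq_multiplicity, hcX]
  · rw [card_map_of_injective X.subtype_injective, card_map_of_injective X.subtype_injective,
      hH.card_mul, hcX]
  · exact comm_mk _ (by
      rintro _ ⟨a, ha, rfl⟩ _ ⟨b, -, rfl⟩
      exact congrArg Subtype.val (hHc a ha b).symm)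
  · rintro _ ⟨a, ha, rfl⟩ _ ⟨b, -, rfl⟩
    exact congrArg Subtype.val (hHc a ha b)
  · intro hS
    have hS' : ∀ s ∈ (P : Subgroup ↥X), ∀ y : ↥X, y * s = s * y := by
      intro s hs y
      have hle : (P : Subgroup ↥X) ⊔ H ≤ centralizer {s} := by
        refine sup_le (fun t ht => ?_) (fun t ht => ?_) <;> rw [mem_centralizer_singleton_iff]
        · exact Subtype.ext (comm_get hS (mem_map_of_mem _ ht) (mem_map_of_mem _ hs))
        · exact (hHc t ht s).symm
      rw [hH.sup_eq_top] at hle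
      exact mem_centralizer_singleton_iff.1 (hle (mem_top y))
    refine comm_mk _ fun a ha b hb => ?_
    have hle : (P : Subgroup ↥X) ⊔ H ≤ centralizer {(⟨a, ha⟩ : ↥X)} := by
      refine sup_le (fun t ht => ?_) (fun t ht => ?_) <;> rw [mem_centralizer_singleton_iff]
      · exact (hS' t ht _).symm
      · exact (hHc t ht _).symm
    rw [hH.sup_eq_top] at hle
    exact congrArg Subtype.val (mem_centralizer_singleton_iff.1 (hle (mem_top ⟨b, hb⟩))).symm

/-- The Sylow 2-subgroup is quaternion of order 8 when it is nonabelian with one involution. -/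
lemma sylow_card_eight {G : Type u} [Group G] [Finite G] [Group.IsSolvable G] (hB : ConjAb G)
    (huniq : ∀ H K : Subgroup G, Nat.card ↥H = 2 → Nat.card ↥K = 2 → H = K)
    (P : Sylow 2 G) (hna : ¬ IsMulCommutative ↥(P : Subgroup G)) : Nat.card ↥(P : Subgroup G) = 8 := by
  have : Fact (Nat.Prime 2) := ⟨Nat.prime_two⟩
  have hu : ∀ H K : Subgroup ↥(P : Subgroup G), Nat.card ↥H = 2 → Nat.card ↥K = 2 → H = K :=
    fun H K h1 h2 => map_injective (P : Subgroup G).subtype_injective (huniq _ _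
      (by rw [card_map_of_injective (P : Subgroup G).subtype_injective, h1])
      (by rw [card_map_of_injective (P : Subgroup G).subtype_injective, h2]))
  rcases Cfsg.Agent.Lib.UniqueInvolution.isCyclic_or_quaternion P.isPGroup' hu with
    hc | ⟨-, n, hn1, ⟨e⟩⟩
  · exact absurd (comm_mk _ fun a ha b hb => by
      letI := hc.commGroup
      exact congrArg Subtype.val (mul_comm (⟨a, ha⟩ : ↥(P : Subgroup G)) ⟨b, hb⟩)) hna
  have : NeZero (2 ^ n) := ⟨by positivity⟩
  have hcard : Nat.card ↥(P : Subgroup G) = 4 * 2 ^ n := by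
    rw [Nat.card_congr e.toEquiv, Nat.card_eq_fintype_card, QuaternionGroup.card]
  -- a maximal normal subgroup with cyclic Sylow of order at most 2
  obtain ⟨N, -, hN⟩ := Finite.exists_le_maximal (p := fun K : Subgroup G => K.Normal ∧ ¬ 4 ∣ Nat.card ↥K)
    (a := (⊥ : Subgroup G)) ⟨inferInstance, by simp⟩
  obtain ⟨hNn, hN4⟩ := hN.prop
  have hNtop : N ≠ ⊤ := by
    rintro rfl
    apply hN4
    rw [Subgroup.card_top]
    exact dvd_trans (by rw [hcard]; exact dvd_mul_right 4 _) (Subgroup.card_subgroup_dvd_card (P : Subgroup G))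
  have : Nontrivial (G ⧸ N) := QuotientGroup.nontrivial_iff.2 hNtop
  obtain ⟨L', q, hL'n, hL'ne, hqp, hL'p, hL'c, hmin⟩ := Cfsg.Agent.Lib.Hall.exists_normal_pgroup (G := G ⧸ N)
  obtain ⟨-, r, hr, hexp⟩ := Cfsg.Agent.Lib.Hall.minimal_normal_solvable L' hL'ne hmin
  set L := L'.comap (QuotientGroup.mk' N) with hLdef
  have hLn : L.Normal := hL'n.comap _
  have hNL : N < L := by
    refine lt_of_le_of_ne (le_preimage N L') fun h => hL'ne ?_
    rw [← map_comap_eq_self_of_surjective (QuotientGroup.mk'_surjective N) L', ← hLdef, ← h,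
      QuotientGroup.map_mk'_self]
  have h4 : 4 ∣ Nat.card ↥L := by
    by_contra h
    exact hNL.ne (hN.eq_of_le ⟨hLn, h⟩ hNL.le)
  have hr2 : r = 2 := by
    by_contra h
    haveI : Fact r.Prime := ⟨hr⟩
    obtain ⟨k, hk⟩ := IsPGroup.iff_card.1
      (Cfsg.Agent.Lib.Hall.isPGroup_of_pow_eq_one hexp)
    apply hN4
    rw [card_preimage, hk, show 4 = 2 ^ 2 by rfl] at h4
    exact (Nat.Coprime.pow 2 k ((Nat.coprime_primes Nat.prime_two hr).2 fun e => h e.symm)
      ).dvd_of_dvd_mul_right h4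
  subst hr2
  -- `L` contains an element of order 4
  obtain ⟨x, hxL, hx⟩ : ∃ x ∈ L, orderOf x = 4 := by
    obtain ⟨K, hK⟩ := Sylow.exists_subgroup_card_pow_prime (G := ↥L) 2 (n := 2) h4
    by_contra hn; push_neg at hn
    have hsq : ∀ a ∈ K, a ^ 2 = 1 := fun a ha => by
      have h1 : orderOf a ∣ 2 ^ 2 := hK ▸ Subgroup.orderOf_dvd_natCard K ha
      obtain ⟨i, hi, hi'⟩ := (Nat.dvd_prime_pow Nat.prime_two).1 h1
      have : i ≠ 2 := fun h => hn a a.2 (by rw [orderOf_coe, hi', h]; rfl)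
      exact orderOf_dvd_iff_pow_eq_one.1 (hi' ▸ (pow_dvd_pow 2 (show i ≤ 1 by omega)))
    obtain ⟨a, b, hab, ha1, hb1⟩ : ∃ a b : ↥K, a ≠ b ∧ a ≠ 1 ∧ b ≠ 1 := by
      classical
      have : Fintype ↥K := Fintype.ofFinite _
      have h3 : 1 < ((Finset.univ : Finset ↥K).erase 1).card := by
        rw [Finset.card_erase_of_mem (Finset.mem_univ _), Finset.card_univ,
          ← Nat.card_eq_fintype_card, hK]; norm_num
      obtain ⟨a, ha, b, hb, hab⟩ := Finset.one_lt_card.1 h3
      exact ⟨a, b, hab, (Finset.mem_erase.1 ha).1, (Finset.mem_erase.1 hb).1⟩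
    have ho : ∀ c : ↥K, c ≠ 1 → orderOf ((c : ↥L) : G) = 2 := fun c hc => by
      rw [orderOf_coe, orderOf_coe]
      exact orderOf_eq_prime (Subtype.ext (hsq c c.2)) hc
    have he := huniq (zpowers ((a : ↥L) : G)) (zpowers ((b : ↥L) : G))
      (by rw [Nat.card_zpowers, ho a ha1]) (by rw [Nat.card_zpowers, ho b hb1])
    have hmem : ((a : ↥L) : G) ∈ zpowers ((b : ↥L) : G) := he ▸ mem_zpowers _
    obtain ⟨i, hi⟩ := mem_zpowers_iff.1 hmem
    have hb2 : ((b : ↥L) : G) ^ 2 = 1 := congrArg Subtype.val (hsq b b.2)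
    rcases Int.even_or_odd i with ⟨j, rfl⟩ | ⟨j, rfl⟩
    · rw [← two_mul, zpow_mul, zpow_two, ← sq, hb2, one_zpow] at hi
      exact ha1 (Subtype.ext (Subtype.ext hi.symm))
    · rw [zpow_add, zpow_mul, zpow_two, ← sq, hb2, one_zpow, one_mul, zpow_one] at hi
      exact hab (Subtype.ext (Subtype.ext hi.symm))
  have hall : ∀ y : G, orderOf y = 4 → y ∈ L := fun y hy => by
    obtain ⟨g, hg⟩ := hB (zpowers x) (zpowers y) inferInstance inferInstance
      (by rw [Nat.card_zpowers, Nat.card_zpowers, hx, hy])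
    obtain ⟨z, hz, hzy⟩ := (hg ▸ mem_zpowers y : y ∈ (zpowers x).map _)
    rw [← hzy]
    exact hLn.conj_mem z (zpowers_le.2 hxL hz) g
  have hxa : ∀ i, ((e.symm (QuaternionGroup.xa i) : ↥(P : Subgroup G)) : G) ∈ L := fun i =>
    hall _ (by rw [orderOf_coe, MulEquiv.orderOf_eq, QuaternionGroup.orderOf_xa])
  have hPL : ∀ g : ↥(P : Subgroup G), (g : G) ∈ L := fun g => by
    rcases h : e g with i | i
    · have h1 : g * e.symm (QuaternionGroup.xa 0) = e.symm (QuaternionGroup.xa (0 - i)) :=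
        e.injective (by rw [map_mul, h, e.apply_symm_apply, e.apply_symm_apply,
          QuaternionGroup.a_mul_xa])
      rw [eq_mul_inv_of_mul_eq h1, Subgroup.coe_mul, Subgroup.coe_inv]
      exact mul_mem (hxa _) (inv_mem (hxa _))
    · rw [← e.symm_apply_apply g, h]; exact hxa i
  have h4' : ∀ g : ↥(P : Subgroup G), g ^ 4 = 1 := fun g => by
    have h1 : (g : G) ^ 2 ∈ N := by
      rw [← QuotientGroup.eq_one_iff, QuotientGroup.mk_pow]
      exact hexp _ (hPL g)
    have h2 : orderOf ((g : G) ^ 2) ∣ Nat.card ↥N := Subgroup.orderOf_dvd_natCard N h1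
    obtain ⟨k, hk⟩ := IsPGroup.iff_orderOf.1 P.isPGroup' (g ^ 2)
    rw [← Subgroup.coe_pow, orderOf_coe, hk] at h2
    have hk1 : k ≤ 1 := by
      by_contra hk1
      exact hN4 ((pow_dvd_pow 2 (show 2 ≤ k by omega)).trans h2)
    have := orderOf_dvd_iff_pow_eq_one.1 (hk ▸ pow_dvd_pow 2 hk1 : orderOf (g ^ 2) ∣ 2 ^ 1)
    rw [← pow_mul] at this
    exact this
  have h5 : orderOf (e.symm (QuaternionGroup.a 1)) ∣ 4 := orderOf_dvd_of_pow_eq_one (h4' _)
  rw [MulEquiv.orderOf_eq, QuaternionGroup.orderOf_a_one] at h5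
  have h6 : 2 ^ (n + 1) ∣ 2 ^ 2 := by rw [pow_succ, mul_comm]; exact h5
  have := Nat.pow_dvd_pow_iff_le_right (by norm_num : 1 < 2) |>.1 h6
  rw [hcard, show n = 1 by omega]; norm_num

lemma card_le_four_comm {G : Type u} [Group G] [Finite G] (S : Subgroup G) {k : ℕ}
    (h : Nat.card ↥S = 2 ^ k) (hk : k ≤ 2) : IsMulCommutative ↥S := by
  have : Fact (Nat.Prime 2) := ⟨Nat.prime_two⟩
  interval_cases k
  · exact comm_mk _ fun a ha b hb => by
      rw [show a = 1 from (eq_bot_iff_forall S).1 (S.card_eq_one.1 (by simpa using h)) a ha,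
        one_mul, mul_one]
  · have : IsCyclic ↥S := isCyclic_of_prime_card (p := 2) (by simpa using h)
    exact comm_mk _ fun a ha b hb => by
      letI := this.commGroup
      exact congrArg Subtype.val (mul_comm (⟨a, ha⟩ : ↥S) ⟨b, hb⟩)
  · exact comm_mk _ fun a ha b hb =>
      congrArg Subtype.val (IsPGroup.commutative_of_card_eq_prime_sq h (⟨a, ha⟩ : ↥S) ⟨b, hb⟩)

lemma core {G : Type u} [Group G] [Finite G] [Group.IsSolvable G] (hB : ConjAb G)
    (M : Subgroup G) [M.Normal] (hne : M ≠ ⊥)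
    (hmin : ∀ K : Subgroup G, K.Normal → K ≤ M → K = ⊥ ∨ K = M) : ConjAb (G ⧸ M) := by
  classical
  obtain ⟨hMc, p, hp, hexp⟩ := Cfsg.Agent.Lib.Hall.minimal_normal_solvable M hne hmin
  have : Fact p.Prime := ⟨hp⟩
  have hMpg : IsPGroup p ↥M := Cfsg.Agent.Lib.Hall.isPGroup_of_pow_eq_one hexp
  obtain ⟨k, hk⟩ := IsPGroup.iff_card.1 hMpg
  have hk1 : 1 ≤ k := by
    by_contra h
    exact hne (M.card_eq_one.1 (by rw [hk, show k = 0 by omega, pow_zero]))
  obtain ⟨m, hm⟩ := exists_prime_orderOf_dvd_card' (G := ↥M) p (hk ▸ dvd_pow_self p (by omega))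
  have hmo : orderOf (m : G) = p := by rw [orderOf_coe, hm]
  have hord : ∀ x : G, x ^ p = 1 → x ∈ M := fun x hx => by
    rcases eq_or_ne x 1 with rfl | hx1
    · exact M.one_mem
    obtain ⟨g, hg⟩ := hB (zpowers (m : G)) (zpowers x) inferInstance inferInstance
      (by rw [Nat.card_zpowers, Nat.card_zpowers, hmo, orderOf_eq_prime hx hx1])
    obtain ⟨z, hz, rfl⟩ := (hg ▸ mem_zpowers x : x ∈ (zpowers (m : G)).map _)
    exact Normal.conj_mem ‹_› z (zpowers_le.2 m.2 hz) g
  intro A B hA hB' hAB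
  by_cases hco : p.Coprime (Nat.card ↥A)
  · have hco' : (Nat.card ↥M).Coprime (Nat.card ↥A) := hk ▸ hco.pow_left k
    obtain ⟨H, hH1, hH2, hH3⟩ := compl M A hA hco'
    obtain ⟨K, hK1, hK2, hK3⟩ := compl M B hB' (hAB ▸ hco')
    obtain ⟨g, hg⟩ := lift hB M H K hH1 hK1 (by rw [hH2, hK2, hAB])
    exact ⟨g, by rw [← hH3, ← hK3]; exact hg⟩
  have hdA : p ∣ Nat.card ↥A := by rwa [hp.coprime_iff_not_dvd, not_not] at hco
  -- an element of order `p ^ 2` exists, so `M` has order `p`
  have hM : Nat.card ↥M = p := by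
    obtain ⟨a, ha⟩ := exists_prime_orderOf_dvd_card' (G := ↥A) p hdA
    obtain ⟨y, hy⟩ := QuotientGroup.mk'_surjective M (a : G ⧸ M)
    have hyM : y ∉ M := fun h => by
      have h1 : (a : G ⧸ M) = 1 := hy ▸ (QuotientGroup.eq_one_iff y).2 h
      rw [OneMemClass.coe_eq_one] at h1
      exact hp.one_lt.ne' (by rw [← ha, h1, orderOf_one])
    have hyp : y ^ p ∈ M := by
      rw [← QuotientGroup.eq_one_iff, QuotientGroup.mk_pow]
      show (QuotientGroup.mk' M y) ^ p = 1
      rw [hy, ← Subgroup.coe_pow, ← ha, pow_orderOf_eq_one, Subgroup.coe_one]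
    have hy1 : y ^ p ≠ 1 := fun h => hyM (hord y h)
    have hy2 : orderOf y = p ^ 2 :=
      orderOf_eq_prime_pow (n := 1) (by rwa [pow_one])
        (by rw [show p ^ (1 + 1) = p * p by ring, pow_mul]; exact hexp _ hyp)
    by_contra hMp
    have hk2 : 2 ≤ k := by
      by_contra h
      exact hMp (by rw [hk, show k = 1 by omega, pow_one])
    obtain ⟨K, hK⟩ := Sylow.exists_subgroup_card_pow_prime (G := ↥M) p (n := 2)
      (hk ▸ pow_dvd_pow p hk2)
    obtain ⟨g, hg⟩ := hB (K.map M.subtype) (zpowers y)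
      (comm_mk _ fun a ha b hb => comm_get hMc (map_subtype_le K ha) (map_subtype_le K hb))
      inferInstance
      (by rw [card_map_of_injective M.subtype_injective, hK, Nat.card_zpowers, hy2])
    obtain ⟨z, hz, rfl⟩ := (hg ▸ mem_zpowers y : y ∈ (K.map M.subtype).map _)
    exact hyM (Normal.conj_mem ‹_› z (map_subtype_le K hz) g)
  have huniq : ∀ H K : Subgroup G, Nat.card ↥H = p → Nat.card ↥K = p → H = K := by
    have : ∀ H : Subgroup G, Nat.card ↥H = p → H = M := fun H hH =>
      eq_of_le_of_card_ge (fun x hx => hord x (by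
        have := congrArg Subtype.val (pow_card_eq_one' (G := ↥H) (x := ⟨x, hx⟩))
        rw [hH] at this; exact this)) (by rw [hH, hM])
    exact fun H K h1 h2 => (this H h1).trans (this K h2).symm
  obtain ⟨S, H, hSX, hcS, hSH, hHc, hHS, hSab⟩ := preimage_struct M hM hord A hA hdA
  obtain ⟨T, K, hTY, hcT, hTK, hKc, hKT, hTab⟩ := preimage_struct M hM hord B hB' (hAB ▸ hdA)
  rw [← hAB] at hcT hTK
  have hcX : ∀ C : Subgroup (G ⧸ M), (C.comap (QuotientGroup.mk' M)).map (QuotientGroup.mk' M) = C :=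
    fun C => map_comap_eq_self_of_surjective (QuotientGroup.mk'_surjective M) C
  by_cases hab : IsMulCommutative ↥S ∧ IsMulCommutative ↥T
  · obtain ⟨g, hg⟩ := lift hB M _ _ (hSab hab.1) (hTab hab.2)
      (by rw [card_preimage, card_preimage, hAB])
    exact ⟨g, by rw [hcX, hcX] at hg; exact hg⟩
  set j := (p * Nat.card ↥A).factorization p
  -- a nonabelian `p`-subgroup is a Sylow subgroup of order 8
  have key : ∀ U : Subgroup G, Nat.card ↥U = p ^ j → ¬ IsMulCommutative ↥U →
      p = 2 ∧ j = 3 ∧ ∀ P : Sylow p G, Nat.card ↥(P : Subgroup G) = p ^ j ∧ ¬ IsMulCommutative ↥(P : Subgroup G) := by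
    intro U hU hUna
    obtain ⟨P, hP⟩ := (IsPGroup.of_card hU).exists_le_sylow
    have hu : ∀ H' K' : Subgroup ↥U, Nat.card ↥H' = p → Nat.card ↥K' = p → H' = K' :=
      fun H' K' h1 h2 => map_injective U.subtype_injective (huniq _ _
        (by rw [card_map_of_injective U.subtype_injective, h1])
        (by rw [card_map_of_injective U.subtype_injective, h2]))
    rcases Cfsg.Agent.Lib.UniqueInvolution.isCyclic_or_quaternion (IsPGroup.of_card hU) hu with
      hc | ⟨rfl, -⟩
    · exact absurd (comm_mk _ fun a ha b hb => by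
        letI := hc.commGroup
        exact congrArg Subtype.val (mul_comm (⟨a, ha⟩ : ↥U) ⟨b, hb⟩)) hUna
    have hPna : ¬ IsMulCommutative ↥(P : Subgroup G) := fun h =>
      hUna (comm_mk _ fun a ha b hb => comm_get h (hP ha) (hP hb))
    have h8 := sylow_card_eight hB huniq P hPna
    have hd : 2 ^ j ∣ 2 ^ 3 := by
      rw [← hU]; exact (card_dvd_of_le hP).trans h8.dvd
    have hj3 : j ≤ 3 := Nat.pow_dvd_pow_iff_le_right (by norm_num) |>.1 hd
    have hj : j = 3 := by
      by_contra h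
      exact hUna (card_le_four_comm U hU (by omega))
    refine ⟨rfl, hj, fun Q => ?_⟩
    obtain ⟨g, hg⟩ := MulAction.exists_smul_eq G P Q
    have hQ : Nat.card ↥(Q : Subgroup G) = Nat.card ↥(P : Subgroup G) := by rw [Q.card_eq_multiplicity, P.card_eq_multiplicity]
    refine ⟨by rw [hQ, h8, hj]; rfl, fun h => hPna ?_⟩
    refine comm_mk _ fun a ha b hb => ?_
    have hmem : ∀ c ∈ (P : Subgroup G), g * c * g⁻¹ ∈ (Q : Subgroup G) := fun c hc => by
      rw [← hg, Sylow.coe_subgroup_smul]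
      exact Subgroup.smul_mem_pointwise_smul c (MulAut.conj g) _ hc
    have := comm_get h (hmem a ha) (hmem b hb)
    have h2 : g * (a * b) * g⁻¹ = g * (b * a) * g⁻¹ := by
      calc g * (a * b) * g⁻¹ = g * a * g⁻¹ * (g * b * g⁻¹) := by group
        _ = g * b * g⁻¹ * (g * a * g⁻¹) := this
        _ = g * (b * a) * g⁻¹ := by group
    exact mul_left_cancel (mul_right_cancel h2)
  obtain ⟨hp2, hj3, hsyl⟩ : p = 2 ∧ j = 3 ∧
      ∀ P : Sylow p G, Nat.card ↥(P : Subgroup G) = p ^ j ∧ ¬ IsMulCommutative ↥(P : Subgroup G) := by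
    rcases not_and_or.1 hab with h | h
    · exact key S hcS h
    · exact key T hcT h
  have hcard : Nat.card ↥H = Nat.card ↥K := by
    refine mul_left_cancel₀ (Nat.card_pos (α := ↥S)).ne' ?_
    rw [hSH]; rw [← hTK, hcT, hcS]
  obtain ⟨g, hg⟩ := hB H K hHc hKc hcard
  set S' := S.map (MulAut.conj g).toMonoidHom with hS'
  have hcS' : Nat.card ↥S' = p ^ j := by
    rw [card_map_of_injective (MulAut.conj g).injective, hcS]
  set C := centralizer (K : Set G) with hC
  have hS'C : S' ≤ C := by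
    rintro _ ⟨s, hs, rfl⟩ k hk
    rw [hg] at hk
    obtain ⟨a, ha, rfl⟩ := hk
    have h1 : s * a = a * s := hHS ha s hs
    simp only [MulEquiv.coe_toMonoidHom, MulAut.conj_apply]
    calc g * a * g⁻¹ * (g * s * g⁻¹) = g * (a * s) * g⁻¹ := by group
      _ = g * (s * a) * g⁻¹ := by rw [h1]
      _ = g * s * g⁻¹ * (g * a * g⁻¹) := by group
  have hTC : T ≤ C := fun t ht k hk => (hKT hk t ht).symm
  -- subgroups of order `p ^ j` in `C` are Sylow subgroups of `C`
  have hsylC : ∀ U : Subgroup G, U ≤ C → Nat.card ↥U = p ^ j →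
      ∃ Q : Sylow p ↥C, (Q : Subgroup ↥C) = U.subgroupOf C := by
    intro U hUC hU
    have hU' : IsPGroup p ↥(U.subgroupOf C) :=
      IsPGroup.of_card (n := j) (by rw [Nat.card_congr (subgroupOfEquivOfLe hUC).toEquiv, hU])
    obtain ⟨Q, hQ⟩ := hU'.exists_le_sylow
    refine ⟨Q, (eq_of_le_of_card_ge hQ ?_).symm⟩
    obtain ⟨P, hP⟩ := (Q.isPGroup'.map C.subtype).exists_le_sylow
    have := card_le_of_le hP
    rw [card_map_of_injective C.subtype_injective, (hsyl P).1] at this
    rw [Nat.card_congr (subgroupOfEquivOfLe hUC).toEquiv, hU]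
    exact this
  obtain ⟨Q₁, hQ₁⟩ := hsylC S' hS'C hcS'
  obtain ⟨Q₂, hQ₂⟩ := hsylC T hTC hcT
  obtain ⟨c, hc⟩ := MulAction.exists_smul_eq ↥C Q₁ Q₂
  have hT : T = S'.map (MulAut.conj (c : G)).toMonoidHom := by
    have h1 : (Q₂ : Subgroup ↥C).map C.subtype =
        ((Q₁ : Subgroup ↥C).map (MulAut.conj c).toMonoidHom).map C.subtype := by
      rw [← hc, Sylow.coe_subgroup_smul]; rfl
    rw [map_conj, hQ₁, hQ₂, subgroupOf_map_subtype, subgroupOf_map_subtype,
      inf_eq_left.2 hTC, inf_eq_left.2 hS'C] at h1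
    exact h1
  have hK' : K = K.map (MulAut.conj (c : G)).toMonoidHom := by
    refine (eq_of_le_of_card_ge ?_ (by rw [card_map_of_injective (MulAut.conj (c : G)).injective])).symm
    rintro _ ⟨k, hk, rfl⟩
    have h1 : k * (c : G) = c * k := c.2 k hk
    simp only [MulEquiv.coe_toMonoidHom, MulAut.conj_apply]
    rwa [← h1, mul_inv_cancel_right]
  refine ⟨QuotientGroup.mk' M ((c : G) * g), ?_⟩
  rw [← hcX A, ← hcX B, ← hSX, ← hTY, ← map_conj]
  congr 1
  have h2 : (MulAut.conj ((c : G) * g)).toMonoidHom =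
      (MulAut.conj (c : G)).toMonoidHom.comp (MulAut.conj g).toMonoidHom := by
    ext x; simp [mul_assoc]
  rw [h2, ← Subgroup.map_map, Subgroup.map_sup, Subgroup.map_sup, ← hg, ← hT, ← hK']

theorem main (n : ℕ) : ∀ (G : Type u) [Group G] [Finite G] [Group.IsSolvable G], ConjAb G →
    ∀ (M : Subgroup G) [M.Normal], Nat.card ↥M ≤ n → ConjAb (G ⧸ M) := by
  induction n with
  | zero => intro G _ _ _ _ M _ h; exact absurd h (by have := Nat.card_pos (α := ↥M); omega)
  | succ n ih =>
    intro G _ _ _ hB M _ hcard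
    rcases eq_or_ne M ⊥ with rfl | hne
    · exact conjAb_equiv QuotientGroup.quotientBot.symm hB
    obtain ⟨M₁, hn₁, hne₁, hle, hmin⟩ := Cfsg.Agent.Lib.Hall.exists_minimal_normal_le hne
    have hq : ConjAb (G ⧸ M₁) := core hB M₁ hne₁ hmin
    have : (M.map (QuotientGroup.mk' M₁)).Normal :=
      Subgroup.Normal.map ‹_› _ (QuotientGroup.mk'_surjective M₁)
    have hlt : Nat.card ↥(M.map (QuotientGroup.mk' M₁)) ≤ n := by
      have h1 := card_preimage M₁ (M.map (QuotientGroup.mk' M₁))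
      rw [comap_map_eq, QuotientGroup.ker_mk', sup_eq_left.2 hle] at h1
      have h2 : 2 ≤ Nat.card ↥M₁ := M₁.one_lt_card_iff_ne_bot.2 hne₁
      have h3 : 0 < Nat.card ↥(M.map (QuotientGroup.mk' M₁)) := Nat.card_pos
      nlinarith
    exact conjAb_equiv (QuotientGroup.quotientQuotientEquivQuotient M₁ M hle)
      (ih (G ⧸ M₁) hq (M.map (QuotientGroup.mk' M₁)) hlt)

/-- Let G be a finite solvable group in which any two abelian subgroups of the same order are conjugate. Then every quotient of G has the same property: any two abelian subgroups of the quotient of the same order are conjugate. -/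
theorem result {G : Type*} [Group G] [Finite G] (hB : ∀ A B : Subgroup G, IsMulCommutative ↥A → IsMulCommutative ↥B → Nat.card ↥A = Nat.card ↥B → ∃ g : G, B = A.map (MulAut.conj g).toMonoidHom) (hsol : Group.IsSolvable G) (M : Subgroup G) [M.Normal] :
    ∀ A B : Subgroup (G ⧸ M), IsMulCommutative ↥A → IsMulCommutative ↥B → Nat.card ↥A = Nat.card ↥B →
      ∃ g : G ⧸ M, B = A.map (MulAut.conj g).toMonoidHom := by
  have := hsol
  exact main (Nat.card ↥M) G hB M le_rfl

end Cfsg.Agent.S3912
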