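import Cfsg.Statements.S3913
import Cfsg.Agent.S3912
import Cfsg.Agent.Lib.ConjEqual.Struct
import Cfsg.Agent.Lib.Coprime.Abelian

set_option autoImplicit false
open Cfsg

namespace Cfsg.Agent.S3913

open scoped Pointwise commutatorElement
open Subgroup Cfsg.Agent.Lib.Coprime Cfsg.Agent.Lib.ConjEqual
open Cfsg.Agent.S3912 (ConjAb comm_mk comm_get)
open Cfsg.Agent.Lib

universe u

variable {G : Type u} [Group G]

lemma conjAb_get (hB : ConjAb G) {A B : Subgroup G} (hA : IsMulCommutative ↥A)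
    (hB' : IsMulCommutative ↥B) (hc : Nat.card ↥A = Nat.card ↥B) :
    ∃ g : G, MulAut.conj g • A = B := by
  obtain ⟨g, hg⟩ := hB A B hA hB' hc
  exact ⟨g, hg.symm⟩

lemma mem_zpowers_conj (hB : ConjAb G) {x y : G} (h : orderOf x = orderOf y) :
    ∃ g : G, g * x * g⁻¹ ∈ zpowers y ∧ g⁻¹ * y * g ∈ zpowers x := by
  obtain ⟨g, hg⟩ := conjAb_get hB (A := zpowers x) (B := zpowers y) inferInstance inferInstance
    (by rw [Nat.card_zpowers, Nat.card_zpowers, h])
  exact ⟨g, hg ▸ conj_mem_conj_smul (mem_zpowers x), mem_conj_smul.1 (hg.symm ▸ mem_zpowers y)⟩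

lemma mem_normal_of_orderOf (hB : ConjAb G) {N : Subgroup G} [N.Normal] {x y : G}
    (hx : x ∈ N) (hxy : orderOf x = orderOf y) : y ∈ N := by
  obtain ⟨g, -, hg⟩ := mem_zpowers_conj hB hxy
  have h2 := (inferInstance : N.Normal).conj_mem _ (zpowers_le.2 hx hg) g
  simpa [mul_assoc] using h2

/-- Minimal normal subgroups: order `p`, or a noncyclic elementary Sylow subgroup. -/
lemma minimal_cases [Finite G] (hB : ConjAb G) {N : Subgroup G} [N.Normal] (hne : N ≠ ⊥) {p : ℕ}
    [hp : Fact p.Prime] (hc : IsMulCommutative ↥N) (hexp : ∀ x ∈ N, x ^ p = 1) :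
    (∀ x : G, x ^ p = 1 → x ∈ N) ∧
      (Nat.card ↥N = p ∨ (¬ IsCyclic ↥N ∧ ∀ k, ∀ x : G, x ^ p ^ k = 1 → x ∈ N)) := by
  obtain ⟨k, hk⟩ := IsPGroup.iff_card.1 (Hall.isPGroup_of_pow_eq_one hexp)
  obtain ⟨m, hm, hm1⟩ : ∃ m ∈ N, m ≠ 1 := by
    by_contra h; push_neg at h
    exact hne ((eq_bot_iff_forall N).2 h)
  have hall : ∀ x : G, x ^ p = 1 → x ∈ N := fun x hx => by
    rcases eq_or_ne x 1 with rfl | hx1
    · exact N.one_mem
    · exact mem_normal_of_orderOf hB hm
        ((orderOf_eq_prime (hexp m hm) hm1).trans (orderOf_eq_prime hx hx1).symm)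
  refine ⟨hall, ?_⟩
  have hk1 : 1 ≤ k := by
    by_contra h
    exact hne (N.card_eq_one.1 (by rw [hk, show k = 0 by omega, pow_zero]))
  rcases Nat.lt_or_ge k 2 with hk2 | hk2
  · exact Or.inl (by rw [hk, show k = 1 by omega, pow_one])
  refine Or.inr ⟨fun hcy => ?_, ?_⟩
  · have h1 : Nat.card ↥N ∣ p := by
      rw [← hcy.exponent_eq_card]
      exact Monoid.exponent_dvd_of_forall_pow_eq_one fun y => Subtype.ext (hexp y y.2)
    rw [hk] at h1
    have h3 : p ^ k ≤ p ^ 1 := by rw [pow_one]; exact Nat.le_of_dvd hp.out.pos h1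
    have := (Nat.pow_le_pow_iff_right hp.out.one_lt).1 h3
    omega
  intro i
  induction i with
  | zero => intro x hx; rw [pow_zero, pow_one] at hx; rw [hx]; exact N.one_mem
  | succ i ih =>
    intro x hx
    have h1 : x ^ p ∈ N := ih _ (by rwa [← pow_mul, ← pow_succ'])
    by_contra hxN
    have hxp : x ^ p ≠ 1 := fun h => hxN (hall x h)
    have ho : orderOf x = p ^ (1 + 1) := orderOf_eq_prime_pow (by rwa [pow_one])
      (by rw [pow_add, pow_one, pow_mul]; exact hexp _ h1)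
    obtain ⟨K, hK⟩ := Sylow.exists_subgroup_card_pow_prime (G := ↥N) p (n := 2)
      (hk ▸ pow_dvd_pow p hk2)
    obtain ⟨g, hg⟩ := conjAb_get hB (A := K.map N.subtype) (B := zpowers x)
      (comm_mk _ fun a ha b hb => comm_get hc (map_subtype_le K ha) (map_subtype_le K hb))
      inferInstance (by rw [card_map_of_injective N.subtype_injective, hK, Nat.card_zpowers, ho])
    have hx' := mem_zpowers x
    rw [← hg, mem_conj_smul] at hx'
    have h2 := (inferInstance : N.Normal).conj_mem _ (map_subtype_le K hx') g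
    exact hxN (by simpa [mul_assoc] using h2)

lemma descend [Finite G] {N : Subgroup G} [N.Normal] (hq : AllConj (G ⧸ N)) {A B : Subgroup G}
    (hc : Nat.card ↥A = Nat.card ↥B) (hNA : N ≤ A) (hNB : N ≤ B) :
    ∃ g : G, MulAut.conj g • A = B := by
  have h1 := card_map_mk' N A
  have h2 := card_map_mk' N B
  rw [inf_eq_right.2 hNA] at h1
  rw [inf_eq_right.2 hNB, ← hc] at h2
  obtain ⟨h, he⟩ := hq (A.map (QuotientGroup.mk' N)) (B.map (QuotientGroup.mk' N))
    (mul_right_cancel₀ (Nat.card_pos (α := ↥N)).ne' (h1.trans h2.symm))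
  obtain ⟨t, rfl⟩ := QuotientGroup.mk'_surjective N h
  rw [← map_conj_smul] at he
  refine ⟨t, ?_⟩
  have h3 := eq_of_map_mk'_eq he
  rwa [sup_eq_left.2 hNB, sup_eq_left.2 ?_] at h3
  rw [← conj_smul_of_normal N t]
  exact Subgroup.pointwise_smul_le_pointwise_smul_iff.2 hNA

lemma mem_of_sup_le {D M : Subgroup G} [D.Normal] (hDM : D ≤ M) {x : G}
    (hx : QuotientGroup.mk' D x ∈ M.map (QuotientGroup.mk' D)) : x ∈ M := by
  have h : x ∈ (M.map (QuotientGroup.mk' D)).comap (QuotientGroup.mk' D) := hx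
  rwa [comap_map_eq, QuotientGroup.ker_mk', sup_eq_left.2 hDM] at h

/-- An elementary abelian noncyclic group of operators of order `r ^ 2` cannot act freely. -/
lemma free_contra [Finite G] {r : ℕ} (hr : r.Prime) {E N : Subgroup G} [N.Normal]
    (hN : IsMulCommutative ↥N) (hne : N ≠ ⊥) (hexp : ∀ x ∈ E, x ^ r = 1)
    (hcard : Nat.card ↥E = r ^ 2) (hcop : r.Coprime (Nat.card ↥N))
    (hfree : ∀ x ∈ E, ∀ v ∈ N, v ≠ 1 → x * v * x⁻¹ = v → x = 1) : False := by
  classical
  have : Fintype ↥E := Fintype.ofFinite _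
  letI : CommGroup ↥N := { (inferInstance : Group ↥N) with mul_comm := hN.is_comm.comm }
  have hEN : E ≤ normalizer (N : Set G) := by rw [normalizer_eq_top]; exact le_top
  have h := eq_top_of_fixed_mem (conjHom hEN) hr (fun a => Subtype.ext (hexp a a.2)) hcard hcop ⊥
    (fun a ha w hw => by
      rw [mem_bot]
      by_contra hw1
      refine ha (Subtype.ext (hfree a a.2 w w.2 (fun h => hw1 (Subtype.ext h)) ?_))
      have := congrArg Subtype.val hw
      rwa [coe_conjHom_apply] at this)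
  have : Subsingleton ↥N := ⟨fun a b => by
    have ha : a ∈ (⊥ : Subgroup ↥N) := h ▸ mem_top a
    have hb : b ∈ (⊥ : Subgroup ↥N) := h ▸ mem_top b
    rw [mem_bot] at ha hb
    rw [ha, hb]⟩
  exact hne N.eq_bot_of_subsingleton

/-- The data of step 2. -/
structure Data (G : Type u) [Group G] (a : ℕ) : Prop where
  comp : ∀ N : Subgroup G, N.Normal → N ≠ ⊥ → (∀ K : Subgroup G, K.Normal → K ≤ N → K = ⊥ ∨ K = N) →
    ∃ p : ℕ, p.Prime ∧ IsMulCommutative ↥N ∧ (∀ x ∈ N, x ^ p = 1) ∧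
      (∀ k, ∀ x : G, x ^ p ^ k = 1 → x ∈ N) ∧ p ∣ a ∧ ¬ Nat.card ↥N ∣ a

set_option linter.unusedSectionVars false

variable [Finite G] [Group.IsSolvable G] {a : ℕ}

/-- In step 2 every nontrivial `pCore` is a minimal normal Sylow subgroup. -/
lemma Data.core (hd : Data G a) {p : ℕ} [hp : Fact p.Prime] (hne : pCore p G ≠ ⊥) :
    ∃ N : Subgroup G, N.Normal ∧ N ≠ ⊥ ∧ pCore p G = N ∧ IsMulCommutative ↥N ∧
      (∀ x ∈ N, x ^ p = 1) ∧ (∀ k, ∀ x : G, x ^ p ^ k = 1 → x ∈ N) ∧ p ∣ a ∧ ¬ Nat.card ↥N ∣ a := by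
  obtain ⟨N, hNn, hNne, hle, hmin⟩ := Hall.exists_minimal_normal_le hne
  obtain ⟨q, hq, hc, hexp, hall, hqa, hna⟩ := hd.comp N hNn hNne hmin
  have hpq : q = p := by
    obtain ⟨m, hm, hm1⟩ : ∃ m ∈ N, m ≠ 1 := by
      by_contra h; push_neg at h
      exact hNne ((eq_bot_iff_forall N).2 h)
    obtain ⟨i, hi⟩ := IsPGroup.iff_orderOf.1 (Hall.isPGroup_pCore p) ⟨m, hle hm⟩
    have : Fact q.Prime := ⟨hq⟩
    rw [← orderOf_coe, show orderOf ((⟨m, hle hm⟩ : ↥(pCore p G)) : G) = q from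
      orderOf_eq_prime (hexp m hm) hm1] at hi
    exact (Nat.prime_dvd_prime_iff_eq hq hp.out).1 (hq.dvd_of_dvd_pow (dvd_of_eq hi))
  subst hpq
  refine ⟨N, hNn, hNne, le_antisymm (fun x hx => ?_) hle, hc, hexp, hall, hqa, hna⟩
  obtain ⟨i, hi⟩ := Hall.isPGroup_pCore q ⟨x, hx⟩
  exact hall i x (by simpa using congrArg Subtype.val hi)

lemma Data.fit_comm (hd : Data G a) :
    fittingSubgroup G ≤ centralizer (fittingSubgroup G : Set G) := by
  rw [Hall.fittingSubgroup_eq_iSup_pCore]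
  refine iSup_le fun p => ?_
  rw [le_centralizer_iff]
  refine iSup_le fun q => ?_
  have : Fact (p : ℕ).Prime := ⟨p.2⟩
  have : Fact (q : ℕ).Prime := ⟨q.2⟩
  intro y hy
  rw [mem_centralizer_iff]
  intro x hx
  rcases eq_or_ne (p : ℕ) q with h | h
  · rw [← h] at hy
    rcases eq_or_ne (pCore (p : ℕ) G) ⊥ with h1 | h1
    · rw [SetLike.mem_coe, h1, mem_bot] at hx
      rw [hx, one_mul, mul_one]
    · obtain ⟨N, -, -, he, hc, -⟩ := hd.core h1
      exact comm_get hc (he ▸ hx) (he ▸ hy)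
  · exact Hall.commute_pCore h hx hy

lemma Data.fit_hall (hd : Data G a) :
    (Nat.card ↥(fittingSubgroup G)).Coprime (fittingSubgroup G).index := by
  refine Nat.coprime_of_dvd fun p hp h1 h2 => ?_
  have : Fact p.Prime := ⟨hp⟩
  obtain ⟨x, hx⟩ := exists_prime_orderOf_dvd_card' p h1
  have hxo : (x : G) ^ p = 1 := by rw [← hx, ← orderOf_coe, pow_orderOf_eq_one]
  have hxc := mem_pCore_of_mem_fitting (k := 1) x.2 (by rwa [pow_one])
  have hne : pCore p G ≠ ⊥ := fun h => by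
    rw [h, mem_bot] at hxc
    rw [← orderOf_coe, hxc, orderOf_one] at hx
    exact hp.ne_one hx.symm
  obtain ⟨N, -, -, he, -, -, hall, -, -⟩ := hd.core hne
  obtain ⟨P⟩ := (inferInstance : Nonempty (Sylow p G))
  have hPF : (P : Subgroup G) ≤ fittingSubgroup G := fun y hy => by
    obtain ⟨i, hi⟩ := P.isPGroup' ⟨y, hy⟩
    exact Hall.pCore_le_fittingSubgroup p (he.symm ▸ hall i y (by simpa using congrArg Subtype.val hi))
  exact P.not_dvd_index (h2.trans (index_dvd_of_le hPF))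

/-- Some component is moved by any nontrivial normal subgroup of the quotient. -/
lemma Data.exists_moved (hd : Data G a) {R : Subgroup (G ⧸ fittingSubgroup G)} (hR : R ≠ ⊥) :
    ∃ p : ℕ, ∃ N : Subgroup G, p.Prime ∧ N.Normal ∧ N ≠ ⊥ ∧ N ≤ fittingSubgroup G ∧
      IsMulCommutative ↥N ∧ (∀ x ∈ N, x ^ p = 1) ∧ (∀ k, ∀ x : G, x ^ p ^ k = 1 → x ∈ N) ∧
      p ∣ a ∧ ¬ Nat.card ↥N ∣ a ∧
      ¬ R.comap (QuotientGroup.mk' (fittingSubgroup G)) ≤ centralizer (N : Set G) := by
  by_contra h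
  apply hR
  rw [eq_bot_iff]
  intro y hy
  obtain ⟨x, rfl⟩ := QuotientGroup.mk'_surjective _ y
  rw [mem_bot, QuotientGroup.mk'_apply, QuotientGroup.eq_one_iff]
  refine Hall.centralizer_fittingSubgroup_le ?_
  refine (show R.comap (QuotientGroup.mk' (fittingSubgroup G)) ≤ _ from ?_) hy
  rw [le_centralizer_iff]
  refine Hall.fittingSubgroup_eq_iSup_pCore.trans_le (iSup_le fun p => ?_)
  have : Fact (p : ℕ).Prime := ⟨p.2⟩
  rcases eq_or_ne (pCore (p : ℕ) G) ⊥ with h1 | h1
  · rw [h1]; exact bot_le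
  obtain ⟨N, hNn, hNne, he, hc, hexp, hall, hpa, hna⟩ := hd.core h1
  rw [he, ← le_centralizer_iff]
  by_contra hn
  exact h ⟨p, N, p.2, hNn, hNne, he ▸ Hall.pCore_le_fittingSubgroup (p : ℕ), hc, hexp, hall, hpa,
    hna, hn⟩

lemma Data.noNormalElementary (hd : Data G a) (hB : ConjAb G)
    (hH : AllConj (G ⧸ fittingSubgroup G)) : NoNormalElementary (G ⧸ fittingSubgroup G) := by
  intro r hr R hRn hRc hRab hRe hRall
  have : Fact r.Prime := ⟨hr⟩
  set D := fittingSubgroup G with hD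
  set π := QuotientGroup.mk' D with hπ
  obtain ⟨k, hk⟩ := IsPGroup.iff_card.1 (Hall.isPGroup_of_pow_eq_one hRe)
  have hk2 : 2 ≤ k := by
    by_contra h
    apply hRc
    rcases Nat.lt_or_ge k 1 with h1 | h1
    · rw [R.card_eq_one.1 (by rw [hk, show k = 0 by omega, pow_zero])]; infer_instance
    · exact isCyclic_of_prime_card (p := r) (by rw [hk, show k = 1 by omega, pow_one])
  have hRne : R ≠ ⊥ := fun h => hRc (by rw [h]; infer_instance)
  have hco : (Nat.card ↥D).Coprime (Nat.card ↥R) := hd.fit_hall.coprime_dvd_right (by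
    rw [index_eq_card]; exact card_subgroup_dvd_card R)
  have hrD : r.Coprime (Nat.card ↥D) := (hco.coprime_dvd_right (hk ▸ dvd_pow_self r (by omega))).symm
  obtain ⟨p, N, hp, hNn, hNne, hND, hNc, hNe, -, -, -, hmove⟩ := hd.exists_moved hRne
  have : Fact p.Prime := ⟨hp⟩
  set R' := R.comap π with hR'
  have hDC : D ≤ centralizer (N : Set G) := hd.fit_comm.trans (centralizer_le hND)
  have hfix : ∀ d ∈ D, ∀ n ∈ N, d * n * d⁻¹ = n := fun d hd' n hn =>
    mul_inv_eq_iff_eq_mul.2 (mem_centralizer_iff.1 (hDC hd') n hn).symm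
  -- faithful
  have hfaith : ∀ x ∈ R', x ∈ centralizer (N : Set G) → x ∈ D := by
    intro x hx hxC
    by_contra hxD
    have hx1 : π x ≠ 1 := fun h => hxD ((QuotientGroup.eq_one_iff x).1 h)
    have hKn : ((centralizer (N : Set G)).map π).Normal :=
      Subgroup.Normal.map inferInstance _ (QuotientGroup.mk'_surjective D)
    refine hmove fun y hy => mem_of_sup_le hDC ?_
    rcases eq_or_ne (π y) 1 with h1 | h1
    · rw [h1]; exact one_mem _
    · exact hH.mem_of_orderOf (mem_map_of_mem π hxC)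
        ((orderOf_eq_prime (hRe _ hx) hx1).trans (orderOf_eq_prime (hRe _ hy) h1).symm)
  have hcm : ∀ x ∈ R', ∀ y ∈ R', ∀ n ∈ N,
      x * (y * n * y⁻¹) * x⁻¹ = y * (x * n * x⁻¹) * y⁻¹ := by
    intro x hx y hy n hn
    have hd' : ⁅x, y⁆ ∈ D := by
      rw [← QuotientGroup.eq_one_iff]
      show π ⁅x, y⁆ = 1
      rw [map_commutatorElement, commutatorElement_eq_one_iff_mul_comm]
      exact comm_get hRab hx hy
    have hn' : y * (x * n * x⁻¹) * y⁻¹ ∈ N := hNn.conj_mem _ (hNn.conj_mem n hn x) y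
    calc x * (y * n * y⁻¹) * x⁻¹
        = ⁅x, y⁆ * (y * (x * n * x⁻¹) * y⁻¹) * ⁅x, y⁆⁻¹ := by rw [commutatorElement_def]; group
      _ = y * (x * n * x⁻¹) * y⁻¹ := hfix _ hd' _ hn'
  -- an element of `R'` fixing a nontrivial element of `N` centralises `N`
  have hfree : ∀ x ∈ R', ∀ v ∈ N, v ≠ 1 → x * v * x⁻¹ = v → x ∈ centralizer (N : Set G) := by
    intro x hx v hv hv1 hxv
    rw [mem_centralizer_iff]
    intro n hn
    by_contra hne
    set w := x * n * x⁻¹ * n⁻¹ with hw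
    have hw1 : w ≠ 1 := fun h => hne (by
      rw [hw, mul_inv_eq_one, mul_inv_eq_iff_eq_mul] at h; exact h.symm)
    have hwN : w ∈ N := N.mul_mem (hNn.conj_mem n hn x) (N.inv_mem hn)
    have htriv : ∀ m ∈ N, ∀ t, t = x * m * x⁻¹ * m⁻¹ → x * t * x⁻¹ = t → t = 1 := by
      intro m hm t ht hxt
      have hpow : ∀ i : ℕ, x ^ i * m * (x ^ i)⁻¹ = t ^ i * m := by
        intro i
        induction i with
        | zero => simp
        | succ i ih =>
          calc x ^ (i + 1) * m * (x ^ (i + 1))⁻¹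
              = x * (x ^ i * m * (x ^ i)⁻¹) * x⁻¹ := by rw [pow_succ']; group
            _ = x * (t ^ i * m) * x⁻¹ := by rw [ih]
            _ = (x * t * x⁻¹) ^ i * (x * m * x⁻¹) := by rw [conj_pow]; group
            _ = t ^ (i + 1) * m := by rw [hxt, ht, pow_succ]; group
      have hxr : x ^ r ∈ D := by
        rw [← QuotientGroup.eq_one_iff]
        show π (x ^ r) = 1
        rw [map_pow]; exact hRe _ hx
      have h1 := hpow r
      rw [hfix _ hxr m hm, eq_comm, mul_eq_right] at h1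
      have htN : t ∈ N := ht ▸ N.mul_mem (hNn.conj_mem m hm x) (N.inv_mem hm)
      have hpD : p ∣ Nat.card ↥D := by
        obtain ⟨m', hm', hm1⟩ : ∃ m' ∈ N, m' ≠ 1 := ⟨v, hv, hv1⟩
        rw [← orderOf_eq_prime (hNe m' hm') hm1]
        exact (N.orderOf_dvd_natCard hm').trans (card_dvd_of_le hND)
      exact orderOf_eq_one_iff.1 (Nat.eq_one_of_dvd_coprimes (hrD.coprime_dvd_right hpD)
        (orderOf_dvd_of_pow_eq_one h1) (orderOf_dvd_of_pow_eq_one (hNe t htN)))
    have hwx : x * w * x⁻¹ ≠ w := fun h => hw1 (htriv n hn w hw h)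
    -- centralisers in `R'`
    let C : G → Subgroup G := fun u => R' ⊓ centralizer {u}
    have hmemC : ∀ u y : G, y ∈ C u ↔ y ∈ R' ∧ y * u * y⁻¹ = u := fun u y => by
      show y ∈ R' ∧ y ∈ centralizer {u} ↔ _
      rw [mem_centralizer_singleton_iff, mul_inv_eq_iff_eq_mul]
    have hcard : ∀ u ∈ N, u ≠ 1 → ∀ u' ∈ N, u' ≠ 1 → Nat.card ↥(C u) ≤ Nat.card ↥(C u') := by
      intro u hu hu1 u' hu' hu1'
      obtain ⟨g, -, hg⟩ := mem_zpowers_conj hB (x := u) (y := u')
        ((orderOf_eq_prime (hNe u hu) hu1).trans (orderOf_eq_prime (hNe u' hu') hu1').symm)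
      obtain ⟨i, hi⟩ := mem_zpowers_iff.1 hg
      rw [← card_conj_smul g (C u)]
      refine card_le_of_le fun y hy => ?_
      rw [mem_conj_smul, hmemC] at hy
      rw [hmemC]
      refine ⟨?_, ?_⟩
      · have := (inferInstance : R'.Normal).conj_mem _ hy.1 g
        simpa [mul_assoc] using this
      · have h2 := congrArg (· ^ i) hy.2
        simp only [conj_zpow] at h2
        rw [hi] at h2
        calc y * u' * y⁻¹ = g * (g⁻¹ * y * g * (g⁻¹ * u' * g) * (g⁻¹ * y * g)⁻¹) * g⁻¹ := by group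
          _ = g * (g⁻¹ * u' * g) * g⁻¹ := by rw [h2]
          _ = u' := by group
    have hvw1 : v * w ≠ 1 := fun h => hwx (by
      have : w = v⁻¹ := eq_inv_of_mul_eq_one_right h
      rw [this]
      calc x * v⁻¹ * x⁻¹ = (x * v * x⁻¹)⁻¹ := by group
        _ = v⁻¹ := by rw [hxv])
    have hsub : ∀ y ∈ C (v * w), y * v * y⁻¹ = v ∧ y * w * y⁻¹ = w := by
      intro y hy
      obtain ⟨hyR, hyvw⟩ := (hmemC _ y).1 hy
      set t := v⁻¹ * (y * v * y⁻¹) with ht
      have hyvN := hNn.conj_mem v hv y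
      have hywN := hNn.conj_mem w hwN y
      have hxt : x * t * x⁻¹ = t := by
        have h1 := hcm x hx y hyR v hv
        rw [hxv] at h1
        calc x * t * x⁻¹ = (x * v * x⁻¹)⁻¹ * (x * (y * v * y⁻¹) * x⁻¹) := by rw [ht]; group
          _ = t := by rw [hxv, h1]
      have hcomm : ∀ c ∈ N, ∀ d ∈ N, c * d = d * c := fun c hc d hd' => comm_get hNc hc hd'
      have ht' : t = w * (y * w * y⁻¹)⁻¹ := by
        have h1 : (y * v * y⁻¹) * (y * w * y⁻¹) = v * w := by
          rw [← hyvw]; group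
        rw [ht]
        calc v⁻¹ * (y * v * y⁻¹) = v⁻¹ * ((y * v * y⁻¹) * (y * w * y⁻¹)) * (y * w * y⁻¹)⁻¹ := by group
          _ = w * (y * w * y⁻¹)⁻¹ := by rw [h1]; group
      set n' := y * n * y⁻¹ with hn'
      have hn'N : n' ∈ N := hNn.conj_mem n hn y
      have hyw : y * w * y⁻¹ = x * n' * x⁻¹ * n'⁻¹ := by
        rw [hn', hcm x hx y hyR n hn, hw]; group
      have ht1 : t = 1 := by
        refine htriv (n * n'⁻¹) (N.mul_mem hn (N.inv_mem hn'N)) t ?_ hxt
        rw [ht', hyw, hw]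
        have e1 : x * (n * n'⁻¹) * x⁻¹ * (n * n'⁻¹)⁻¹ =
            (x * n * x⁻¹) * ((x * n' * x⁻¹)⁻¹ * n') * n⁻¹ := by group
        have e2 : x * n * x⁻¹ * n⁻¹ * (x * n' * x⁻¹ * n'⁻¹)⁻¹ =
            (x * n * x⁻¹) * (n⁻¹ * (n' * (x * n' * x⁻¹)⁻¹)) := by group
        have hX := hNn.conj_mem n' hn'N x
        rw [e1, e2, hcomm n' hn'N _ (N.inv_mem hX),
          ← hcomm _ (N.mul_mem (N.inv_mem hX) hn'N) _ (N.inv_mem hn)]
        group
      have hyv : y * v * y⁻¹ = v := by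
        rw [ht] at ht1
        exact (inv_mul_eq_one.1 ht1).symm
      rw [ht', mul_inv_eq_one] at ht1
      exact ⟨hyv, ht1.symm⟩
    have hle1 : C (v * w) ≤ C v := fun y hy => (hmemC v y).2 ⟨((hmemC _ y).1 hy).1, (hsub y hy).1⟩
    have hle2 : C (v * w) ≤ C w := fun y hy => (hmemC w y).2 ⟨((hmemC _ y).1 hy).1, (hsub y hy).2⟩
    have he1 := eq_of_le_of_card_ge hle1 (hcard v hv hv1 _ (N.mul_mem hv hwN) hvw1)
    have he2 := eq_of_le_of_card_ge hle2 (hcard w hwN hw1 _ (N.mul_mem hv hwN) hvw1)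
    exact hwx ((hmemC w x).1 (he2 ▸ he1.symm ▸ (hmemC v x).2 ⟨hx, hxv⟩)).2
  -- a lift of an elementary subgroup of order `r ^ 2`
  obtain ⟨R₀, hR₀c, hR₀card, hR₀map⟩ := Cfsg.Agent.S3912.compl D R hRab hco
  obtain ⟨E, hE⟩ := Sylow.exists_subgroup_card_pow_prime (G := ↥R₀) r (n := 2)
    (hR₀card.symm ▸ hk ▸ pow_dvd_pow r hk2)
  have hR₀D : ∀ x ∈ R₀, x ∈ D → x = 1 := fun x hx hxD => by
    have h := inf_eq_bot_of_coprime (A := R₀) (N := D) (by rw [hR₀card]; exact hco.symm)
    exact mem_bot.1 (h ▸ (⟨hx, hxD⟩ : x ∈ R₀ ⊓ D))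
  have hmem : ∀ x ∈ R₀, x ∈ R' := fun x hx => by
    show π x ∈ R; rw [← hR₀map]; exact mem_map_of_mem π hx
  refine free_contra hr (E := E.map R₀.subtype) (N := N) hNc hNne (fun x hx => ?_)
    (by rw [card_map_of_injective R₀.subtype_injective, hE])
    (hrD.coprime_dvd_right (card_dvd_of_le hND)) fun x hx v hv hv1 hxv => ?_
  · refine hR₀D _ (pow_mem (map_subtype_le E hx) r) ?_
    rw [← QuotientGroup.eq_one_iff]
    show π (x ^ r) = 1
    rw [map_pow]; exact hRe _ (hmem x (map_subtype_le E hx))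
  · have hx' := map_subtype_le E hx
    exact hR₀D x hx' (hfaith x (hmem x hx') (hfree x (hmem x hx') v hv hv1 hxv))

lemma sup_zpowers_card {N K : Subgroup G} {p : ℕ} [hp : Fact p.Prime] (hN : IsMulCommutative ↥N)
    (hexp : ∀ x ∈ N, x ^ p = 1) (hKN : K ≤ N) {x : G} (hx : x ∈ N) (hxK : x ∉ K) :
    Nat.card ↥(K ⊔ zpowers x) = Nat.card ↥K * p := by
  have ho : Nat.card ↥(zpowers x) = p := by
    rw [Nat.card_zpowers]
    exact orderOf_eq_prime (hexp x hx) (fun h => hxK (h ▸ K.one_mem))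
  have hn : K ≤ normalizer (zpowers x : Set G) := fun k hk => by
    refine mem_normalizer_of_conj_smul_eq (eq_of_le_of_card_ge (fun y hy => ?_) (card_conj_smul _ _).ge)
    rw [mem_conj_smul] at hy
    have h1 := comm_get hN (hKN hk) (zpowers_le.2 hx hy)
    have h2 : y = k⁻¹ * y * k := by
      calc y = k * (k⁻¹ * y * k) * k⁻¹ := by group
        _ = k⁻¹ * y * k := by rw [h1]; group
    rwa [h2]
  have hi : K ⊓ zpowers x = ⊥ := by
    by_contra h
    rcases (Nat.dvd_prime hp.out).1 (ho ▸ card_dvd_of_le (inf_le_right : K ⊓ zpowers x ≤ _)) with h1 | h1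
    · exact h ((K ⊓ zpowers x).card_eq_one.1 h1)
    · exact hxK ((eq_of_le_of_card_ge (inf_le_right : K ⊓ zpowers x ≤ _)
        (by rw [h1, ho])).symm ▸ mem_zpowers x : x ∈ K ⊓ zpowers x).1
  have h := card_sup_mul_card_inf_of_le_normalizer hn
  rwa [hi, card_bot, mul_one, ho] at h

/-- The quaternion Sylow subgroup of the quotient does not normalise the intersections. -/
lemma Data.q8_not_le (hd : Data G a) (hB : ConjAb G) (hH : AllConj (G ⧸ fittingSubgroup G))
    {V : Subgroup G} (hVD : V ≤ fittingSubgroup G)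
    (hV : ∀ p : ℕ, p.Prime → ∀ N : Subgroup G, N ≤ fittingSubgroup G →
      (∀ k, ∀ x : G, x ^ p ^ k = 1 → x ∈ N) →
      p ∣ a → ¬ Nat.card ↥N ∣ a → V ⊓ N ≠ ⊥ ∧ ¬ N ≤ V)
    {R : Subgroup (G ⧸ fittingSubgroup G)} [R.Normal] (hR : IsQ8 R) :
    ¬ R ≤ (normalizer (V : Set G)).map (QuotientGroup.mk' (fittingSubgroup G)) := by
  intro hle
  set D := fittingSubgroup G with hD
  set π := QuotientGroup.mk' D with hπ
  set L := normalizer (V : Set G) with hL
  have hRne : R ≠ ⊥ := fun h => by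
    have := hR.card; rw [h, card_bot] at this; omega
  obtain ⟨p, N, hp, hNn, hNne, hND, hNc, hNe, hNall, hpa, hna, hmove⟩ := hd.exists_moved hRne
  have : Fact p.Prime := ⟨hp⟩
  obtain ⟨hVN, hNV⟩ := hV p hp N hND hNall hpa hna
  have hDC : D ≤ centralizer (N : Set G) := hd.fit_comm.trans (centralizer_le hND)
  have hDL : D ≤ L := fun d hd' => by
    refine mem_normalizer_of_conj_smul_eq (eq_of_le_of_card_ge (fun y hy => ?_) (card_conj_smul _ _).ge)
    rw [mem_conj_smul] at hy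
    have h1 := mem_centralizer_iff.1 (hd.fit_comm hd') _ (hVD hy)
    have h2 : y = d⁻¹ * y * d := by
      calc y = d * (d⁻¹ * y * d) * d⁻¹ := by group
        _ = d⁻¹ * y * d := by rw [← h1]; group
    rwa [h2]
  set R' := R.comap π with hR'
  have hR'L : R' ≤ L := fun x hx => mem_of_sup_le hDL (hle hx)
  have hp2 : p ≠ 2 := by
    rintro rfl
    have h1 : 2 ∣ Nat.card ↥D := by
      obtain ⟨m, hm, hm1⟩ : ∃ m ∈ N, m ≠ 1 := by
        by_contra h; push_neg at h
        exact hNne ((eq_bot_iff_forall N).2 h)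
      rw [← orderOf_eq_prime (hNe m hm) hm1]
      exact (N.orderOf_dvd_natCard hm).trans (card_dvd_of_le hND)
    have h2 : 2 ∣ D.index := by
      rw [index_eq_card]
      exact dvd_trans (by rw [hR.card]; norm_num) (card_subgroup_dvd_card R)
    exact (by norm_num : ¬ (2 ∣ 1)) (hd.fit_hall.gcd_eq_one ▸ Nat.dvd_gcd h1 h2)
  -- the subgroups of the order of `V ⊓ N`
  obtain ⟨j, hj⟩ := IsPGroup.iff_card.1 ((Hall.isPGroup_of_pow_eq_one hNe).to_le (inf_le_right : V ⊓ N ≤ N))
  obtain ⟨m, hm⟩ := IsPGroup.iff_card.1 (Hall.isPGroup_of_pow_eq_one hNe)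
  have hj1 : 1 ≤ j := by
    by_contra h
    exact hVN ((V ⊓ N).card_eq_one.1 (by rw [hj, show j = 0 by omega, pow_zero]))
  have hjm : j < m := by
    by_contra h
    have hle' : Nat.card ↥N ≤ Nat.card ↥(V ⊓ N) := by
      rw [hj, hm]; exact Nat.pow_le_pow_right hp.pos (by omega)
    exact hNV ((eq_of_le_of_card_ge (inf_le_right : V ⊓ N ≤ N) hle') ▸ inf_le_left)
  have hinv : ∀ K ≤ N, Nat.card ↥K = p ^ j → ∀ x ∈ R', ∀ v ∈ K, x * v * x⁻¹ ∈ K := by
    intro K hK hKc x hx v hv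
    obtain ⟨g, hg⟩ := conjAb_get hB (A := V ⊓ N) (B := K)
      (comm_mk _ fun a ha b hb => comm_get hNc ha.2 hb.2)
      (comm_mk _ fun a ha b hb => comm_get hNc (hK ha) (hK hb)) (by rw [hj, hKc])
    rw [← hg, mem_conj_smul] at hv ⊢
    have hx' : g⁻¹ * x * g ∈ R' := by
      simpa using (inferInstance : R'.Normal).conj_mem x hx g⁻¹
    have h1 : g⁻¹ * x * g * (g⁻¹ * v * g) * (g⁻¹ * x * g)⁻¹ ∈ V ⊓ N :=
      ⟨(mem_normalizer_iff.1 (hR'L hx') _).1 hv.1, hNn.conj_mem _ hv.2 _⟩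
    convert h1 using 1
    group
  have hscal : ∀ x ∈ R', ∀ v ∈ N, x * v * x⁻¹ ∈ zpowers v := by
    intro x hx v hv
    by_contra hnv
    have hv1 : v ≠ 1 := fun h => hnv (by rw [h]; simp)
    set v' := x * v * x⁻¹
    have hv'N : v' ∈ N := hNn.conj_mem v hv x
    have key : ∀ i, 1 ≤ i → i ≤ j → ∃ K ≤ N, Nat.card ↥K = p ^ i ∧ v ∈ K ∧ v' ∉ K := by
      intro i hi
      induction i, hi using Nat.le_induction with
      | base =>
        exact fun _ => ⟨zpowers v, zpowers_le.2 hv,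
          by rw [Nat.card_zpowers, orderOf_eq_prime (hNe v hv) hv1, pow_one], mem_zpowers v, hnv⟩
      | succ i hi ih =>
        intro hij
        obtain ⟨K, hKN, hKc, hvK, hv'K⟩ := ih (by omega)
        have hc' := sup_zpowers_card hNc hNe hKN hv'N hv'K
        obtain ⟨b, hb, hbK⟩ : ∃ b ∈ N, b ∉ K ⊔ zpowers v' := by
          by_contra h; push_neg at h
          have h1 := card_le_of_le (h : N ≤ K ⊔ zpowers v')
          rw [hc', hm, hKc, ← pow_succ] at h1
          have := (Nat.pow_le_pow_iff_right hp.one_lt).1 h1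
          omega
        have hbK' : b ∉ K := fun h => hbK (mem_sup_left h)
        refine ⟨K ⊔ zpowers b, sup_le hKN (zpowers_le.2 hb),
          by rw [sup_zpowers_card hNc hNe hKN hb hbK', hKc, pow_succ], mem_sup_left hvK, fun h => hbK ?_⟩
        have he : K ⊔ zpowers v' = K ⊔ zpowers b := eq_of_le_of_card_ge
          (sup_le le_sup_left (zpowers_le.2 h))
          (by rw [hc', sup_zpowers_card hNc hNe hKN hb hbK'])
        exact he ▸ mem_sup_right (mem_zpowers b)
    obtain ⟨K, hKN, hKc, hvK, hv'K⟩ := key j hj1 le_rfl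
    exact hv'K (hinv K hKN hKc x hx v hvK)
  -- commutators act trivially
  set K := (centralizer (N : Set G)).map π with hK
  have hKn : K.Normal := Subgroup.Normal.map inferInstance _ (QuotientGroup.mk'_surjective D)
  have hlift : ∀ b ∈ R, ∃ x ∈ R', π x = b := fun b hb => by
    obtain ⟨x, rfl⟩ := QuotientGroup.mk'_surjective D b
    exact ⟨x, hb, rfl⟩
  have hcommK : ∀ b ∈ R, ∀ c ∈ R, ⁅b, c⁆ ∈ K := by
    intro b hb c hc
    obtain ⟨x, hx, rfl⟩ := hlift b hb
    obtain ⟨y, hy, rfl⟩ := hlift c hc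
    refine ⟨⁅x, y⁆, ?_, map_commutatorElement π x y⟩
    rw [SetLike.mem_coe, mem_centralizer_iff]
    intro v hv
    obtain ⟨i, hi⟩ := mem_zpowers_iff.1 (hscal x hx v hv)
    obtain ⟨k, hk⟩ := mem_zpowers_iff.1 (hscal y hy v hv)
    have h1 : (x * y) * v * (x * y)⁻¹ = (y * x) * v * (y * x)⁻¹ := by
      calc (x * y) * v * (x * y)⁻¹ = x * (y * v * y⁻¹) * x⁻¹ := by group
        _ = (x * v * x⁻¹) ^ k := by rw [← hk, conj_zpow]
        _ = (y * v * y⁻¹) ^ i := by rw [← hi, ← hk, ← zpow_mul, ← zpow_mul, mul_comm]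
        _ = y * (x * v * x⁻¹) * y⁻¹ := by rw [← hi, conj_zpow]
        _ = (y * x) * v * (y * x)⁻¹ := by group
    have hmem : (x * y) * v * (x * y)⁻¹ ∈ N := hNn.conj_mem v hv _
    have h2 : ⁅x, y⁆ * ((y * x) * v * (y * x)⁻¹) * ⁅x, y⁆⁻¹ = (x * y) * v * (x * y)⁻¹ := by
      rw [commutatorElement_def]; group
    rw [← h1] at h2
    set u := (x * y) * v * (x * y)⁻¹ with hu
    obtain ⟨w, hw⟩ : ∃ w, w = (x * y)⁻¹ * ⁅x, y⁆ * (x * y) := ⟨_, rfl⟩
    have h3 : w * v * w⁻¹ = v := by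
      calc w * v * w⁻¹ = (x * y)⁻¹ * (⁅x, y⁆ * u * ⁅x, y⁆⁻¹) * (x * y) := by rw [hw, hu]; group
        _ = v := by rw [h2, hu]; group
    -- `u` ranges over `N` with `v`
    obtain ⟨i', hi'⟩ : ∃ i' : ℤ, u = v ^ i' := ⟨k * i * 1, by
      rw [mul_one, zpow_mul, hk, hu]
      calc (x * y) * v * (x * y)⁻¹ = (x * v * x⁻¹) ^ k := by rw [conj_zpow, hk]; group
        _ = (y * v * y⁻¹) ^ i := by rw [← hi, ← hk, ← zpow_mul, ← zpow_mul, mul_comm]⟩
    have hv1 : v = 1 ∨ v ∈ zpowers u := by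
      rcases eq_or_ne v 1 with h | h
      · exact Or.inl h
      right
      have hu1 : u ≠ 1 := by
        rw [hu]; intro h'; exact h (conj_eq_one_iff.1 h')
      have he : zpowers u = zpowers v := eq_of_le_of_card_ge (zpowers_le.2 (hi' ▸ zpow_mem (mem_zpowers v) i'))
        (by rw [Nat.card_zpowers, Nat.card_zpowers, orderOf_eq_prime (hNe v hv) h,
          orderOf_eq_prime (hNe u hmem) hu1])
      exact he ▸ mem_zpowers v
    rcases hv1 with rfl | hv1
    · rw [one_mul, mul_one]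
    obtain ⟨l, hl⟩ := mem_zpowers_iff.1 hv1
    have h4 : ⁅x, y⁆ * v * ⁅x, y⁆⁻¹ = v := by rw [← hl, ← conj_zpow, h2]
    exact (mul_inv_eq_iff_eq_mul.1 h4).symm
  obtain ⟨e, he, f, hf, he4, hf4, hfe, hef⟩ := hR.exists_orderFour
  have hsq : ∀ b ∈ R, b ^ 2 ∈ K := by
    intro b hb
    set c := ⁅e, f⁆
    have hc1 : c ≠ 1 := fun h => hef (commutatorElement_eq_one_iff_mul_comm.1 h)
    have hcR : c ∈ R := by
      simp only [c, commutatorElement_def]
      exact R.mul_mem (R.mul_mem (R.mul_mem he hf) (R.inv_mem he)) (R.inv_mem hf)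
    have hcK := hcommK e he f hf
    rcases eq_or_ne (b ^ 2) 1 with h | h
    · rw [h]; exact K.one_mem
    have hb2 : orderOf (b ^ 2) = 2 := orderOf_eq_prime (by rw [← pow_mul]; exact hR.pow_four hb) h
    by_cases hc2 : c ^ 2 = 1
    · rw [hR.uniq _ (R.pow_mem hb 2) c hcR hb2 (orderOf_eq_prime hc2 hc1)]
      exact hcK
    · rw [hR.uniq _ (R.pow_mem hb 2) (c ^ 2) (R.pow_mem hcR 2) hb2
        (orderOf_eq_prime (by rw [← pow_mul]; exact hR.pow_four hcR) hc2)]
      exact K.pow_mem hcK 2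
  have hpm : ∀ x ∈ R', x ∈ centralizer (N : Set G) ∨ ∀ v ∈ N, x * v * x⁻¹ = v⁻¹ := by
    intro x hx
    have hx2 : x ^ 2 ∈ centralizer (N : Set G) := mem_of_sup_le hDC (by
      rw [map_pow]; exact hsq _ hx)
    have hxx : ∀ v ∈ N, x * (x * v * x⁻¹) * x⁻¹ = v := fun v hv => by
      have h1 := mem_centralizer_iff.1 hx2 v hv
      calc x * (x * v * x⁻¹) * x⁻¹ = x ^ 2 * v * (x ^ 2)⁻¹ := by rw [pow_two]; group
        _ = v := by rw [← h1, mul_inv_cancel_right]
    by_cases hfx : ∃ b ∈ N, b ≠ 1 ∧ x * b * x⁻¹ = b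
    · obtain ⟨b, hb, hb1, hxb⟩ := hfx
      left
      rw [mem_centralizer_iff]
      intro v hv
      by_contra hne
      set w := v⁻¹ * (x * v * x⁻¹) with hw
      have hwN : w ∈ N := N.mul_mem (N.inv_mem hv) (hNn.conj_mem v hv x)
      have hw1 : w ≠ 1 := fun h => hne (by
        rw [hw, inv_mul_eq_one] at h
        exact (mul_inv_eq_iff_eq_mul.1 h.symm).symm)
      have hxw : x * w * x⁻¹ = w⁻¹ := by
        calc x * w * x⁻¹ = (x * v * x⁻¹)⁻¹ * (x * (x * v * x⁻¹) * x⁻¹) := by rw [hw]; group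
          _ = w⁻¹ := by rw [hxx v hv, hw]; group
      obtain ⟨i, hi⟩ := mem_zpowers_iff.1 (hscal x hx _ (N.mul_mem hb hwN))
      have h1 : x * (b * w) * x⁻¹ = b * w⁻¹ := by
        calc x * (b * w) * x⁻¹ = (x * b * x⁻¹) * (x * w * x⁻¹) := by group
          _ = b * w⁻¹ := by rw [hxb, hxw]
      have hbw : Commute b w := comm_get hNc hb hwN
      rw [h1, hbw.mul_zpow] at hi
      -- separate fixed and inverted parts
      have h2 : b ^ (i - 1) = w⁻¹ ^ (i + 1) := by
        have e1 : b⁻¹ * (b ^ i * w ^ i) = w⁻¹ := by rw [hi, inv_mul_cancel_left]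
        rw [← mul_assoc] at e1
        have e2 : b ^ (i - 1) * w ^ i = w⁻¹ := by
          rwa [show b⁻¹ * b ^ i = b ^ (i - 1) by group] at e1
        rw [eq_mul_inv_of_mul_eq e2]; group
      have h3 := congrArg (fun z => x * z * x⁻¹) h2
      simp only [← conj_zpow] at h3
      rw [hxb, show x * w⁻¹ * x⁻¹ = (x * w * x⁻¹)⁻¹ by group, hxw, inv_inv, h2] at h3
      have h4 : (w ^ (i + 1)) ^ 2 = 1 := by
        rw [pow_two]
        nth_rewrite 1 [← h3]
        group
      have hcop : Nat.Coprime p 2 := (Nat.coprime_primes hp Nat.prime_two).2 hp2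
      have h5 : w ^ (i + 1) = 1 := orderOf_eq_one_iff.1 (Nat.eq_one_of_dvd_coprimes hcop
        (orderOf_dvd_of_pow_eq_one (hNe _ (N.zpow_mem hwN _))) (orderOf_dvd_of_pow_eq_one h4))
      have h6 : b ^ (i - 1) = 1 := by rw [h2, inv_zpow, h5, inv_one]
      have d1 := orderOf_dvd_iff_zpow_eq_one.2 h5
      have d2 := orderOf_dvd_iff_zpow_eq_one.2 h6
      rw [orderOf_eq_prime (hNe w hwN) hw1] at d1
      rw [orderOf_eq_prime (hNe b hb) hb1] at d2
      have d3 : (p : ℤ) ∣ (2 : ℕ) := by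
        have := dvd_sub d1 d2
        simpa using this
      exact hp2 ((Nat.prime_dvd_prime_iff_eq hp Nat.prime_two).1 (Int.natCast_dvd_natCast.1 d3))
    · right
      push_neg at hfx
      intro v hv
      by_contra hne
      refine hfx (v * (x * v * x⁻¹)) (N.mul_mem hv (hNn.conj_mem v hv x))
        (fun h => hne (eq_inv_of_mul_eq_one_right h)) ?_
      calc x * (v * (x * v * x⁻¹)) * x⁻¹ = (x * v * x⁻¹) * (x * (x * v * x⁻¹) * x⁻¹) := by group
        _ = v * (x * v * x⁻¹) := by rw [hxx v hv]; exact comm_get hNc (hNn.conj_mem v hv x) hv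
  -- one of `e`, `f`, `e * f` centralises `N`
  obtain ⟨x, hx, hxe⟩ := hlift e he
  obtain ⟨y, hy, hyf⟩ := hlift f hf
  obtain ⟨b, hbK, hb4⟩ : ∃ b ∈ K, orderOf b = 4 := by
    rcases hpm x hx with h | h
    · exact ⟨e, hxe ▸ mem_map_of_mem π h, he4⟩
    rcases hpm y hy with h' | h'
    · exact ⟨f, hyf ▸ mem_map_of_mem π h', hf4⟩
    refine ⟨e * f, ⟨x * y, ?_, by rw [map_mul, hxe, hyf]⟩, ?_⟩
    · rw [SetLike.mem_coe, mem_centralizer_iff]
      intro v hv
      have : (x * y) * v * (x * y)⁻¹ = v := by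
        calc (x * y) * v * (x * y)⁻¹ = x * (y * v * y⁻¹) * x⁻¹ := by group
          _ = (x * v * x⁻¹)⁻¹ := by rw [h' v hv]; group
          _ = v := by rw [h v hv, inv_inv]
      exact (mul_inv_eq_iff_eq_mul.1 this).symm
    · have : Fact (Nat.Prime 2) := ⟨Nat.prime_two⟩
      refine orderOf_eq_prime_pow (p := 2) (n := 1) (fun h2 => hfe ?_) (hR.pow_four (R.mul_mem he hf))
      rw [pow_one] at h2
      have h3 := hR.mem_zpowers_of_sq he he4 (R.mul_mem he hf) h2
      have := mul_mem (inv_mem (mem_zpowers e)) h3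
      rwa [inv_mul_cancel_left] at this
  refine hmove fun z hz => mem_of_sup_le hDC ?_
  by_cases hz4 : orderOf (π z) = 4
  · exact hH.mem_of_orderOf hbK (hb4.trans hz4.symm)
  have heK : e ∈ K := hH.mem_of_orderOf hbK (hb4.trans he4.symm)
  refine zpowers_le.2 heK (hR.mem_zpowers_of_sq he he4 hz ?_)
  have : Fact (Nat.Prime 2) := ⟨Nat.prime_two⟩
  by_contra h2
  exact hz4 (orderOf_eq_prime_pow (p := 2) (n := 1) (by rwa [pow_one]) (hR.pow_four hz))

theorem aux (n : ℕ) : ∀ (G : Type u) [Group G] [Finite G] [Group.IsSolvable G],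
    Nat.card G ≤ n → ConjAb G → AllConj G := by
  induction n with
  | zero => intro G _ _ _ h; exact absurd h (by have := Nat.card_pos (α := G); omega)
  | succ n ih =>
    intro G _ _ _ hG hB A B hAB
    rcases subsingleton_or_nontrivial G with hs | hs
    · exact ⟨1, Subsingleton.elim _ _⟩
    have hquot : ∀ (M : Subgroup G) [M.Normal], M ≠ ⊥ → AllConj (G ⧸ M) := fun M _ hM =>
      ih _ (by have := card_quotient_lt hM; omega) (Cfsg.Agent.S3912.main (Nat.card ↥M) G hB M le_rfl)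
    by_contra hfalse
    have hd : Data G (Nat.card ↥A) := ⟨fun N hNn hNne hmin => by
      obtain ⟨hc, p, hp, hexp⟩ := Hall.minimal_normal_solvable N hNne hmin
      have : Fact p.Prime := ⟨hp⟩
      obtain ⟨k, hk⟩ := IsPGroup.iff_card.1 (Hall.isPGroup_of_pow_eq_one hexp)
      obtain ⟨hall, hcases⟩ := minimal_cases (p := p) hB hNne hc hexp
      have hpa : p ∣ Nat.card ↥A := by
        by_contra hndvd
        have hco : (Nat.card ↥A).Coprime (Nat.card ↥N) := by
          rw [hk]; exact (hp.coprime_iff_not_dvd.2 hndvd).symm.pow_right k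
        have hcA : ∀ C : Subgroup G, Nat.card ↥C = Nat.card ↥A →
            Nat.card ↥(C.map (QuotientGroup.mk' N)) = Nat.card ↥A := fun C hC => by
          have h1 := card_map_mk' N C
          rw [inf_eq_bot_of_coprime (A := C) (N := N) (by rw [hC]; exact hco), card_bot, mul_one,
            hC] at h1
          exact h1
        obtain ⟨h, he⟩ := hquot N hNne (A.map (QuotientGroup.mk' N)) (B.map (QuotientGroup.mk' N))
          (by rw [hcA A rfl, hcA B hAB.symm])
        obtain ⟨g, -, hg⟩ := lift_conj N (T := ⊤) le_top le_top hAB hco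
          (by rw [map_top_of_surjective _ (QuotientGroup.mk'_surjective N)]; exact mem_top h) he
        exact hfalse ⟨g, hg⟩
      rcases hcases with hcard | ⟨-, hsyl⟩
      · exfalso
        have hsub : ∀ C : Subgroup G, p ∣ Nat.card ↥C → N ≤ C := fun C hC => by
          obtain ⟨x, hx⟩ := exists_prime_orderOf_dvd_card' p hC
          have hxo : orderOf (x : G) = p := by rw [orderOf_coe, hx]
          have hxN : (x : G) ∈ N := hall _ (by rw [← hxo, pow_orderOf_eq_one])
          rw [← eq_of_le_of_card_ge (zpowers_le.2 hxN) (by rw [Nat.card_zpowers, hxo, hcard])]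
          exact zpowers_le.2 x.2
        exact hfalse (descend (hquot N hNne) hAB (hsub A hpa) (hsub B (hAB ▸ hpa)))
      refine ⟨p, hp, hc, hexp, hsyl, hpa, fun hdvd => hfalse ?_⟩
      have hsub : ∀ C : Subgroup G, Nat.card ↥N ∣ Nat.card ↥C → N ≤ C := fun C hC => by
        obtain ⟨K, hK⟩ := Sylow.exists_subgroup_card_pow_prime (G := ↥C) p (hk ▸ hC)
        have hle : K.map C.subtype ≤ N := by
          rintro _ ⟨x, hx, rfl⟩
          refine hsyl k _ ?_
          have := congrArg (fun z : ↥K => ((z : ↥C) : G)) (pow_card_eq_one' (G := ↥K) (x := ⟨x, hx⟩))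
          rw [hK] at this
          simpa using this
        rw [← eq_of_le_of_card_ge hle (by rw [card_map_of_injective C.subtype_injective, hK, hk])]
        exact map_subtype_le K
      exact descend (hquot N hNne) hAB (hsub A hdvd) (hsub B (hAB ▸ hdvd))⟩
    apply hfalse
    set D := fittingSubgroup G with hD
    set π := QuotientGroup.mk' D with hπ
    have hDne : D ≠ ⊥ := by
      obtain ⟨N, p, hNn, hNne, hp, hNp, -, -⟩ := Hall.exists_normal_pgroup (G := G)
      have : Fact p.Prime := ⟨hp⟩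
      exact fun h => hNne (le_bot_iff.1 (h ▸ Hall.le_fittingSubgroup hNp.isNilpotent))
    have hH : AllConj (G ⧸ D) := hquot D hDne
    have hco := hd.fit_hall
    have hDc := hd.fit_comm
    -- arrange `A ⊓ D = B ⊓ D`
    obtain ⟨g₀, hg₀⟩ := conjAb_get hB (A := A ⊓ D) (B := B ⊓ D)
      (comm_mk _ fun a ha b hb => (mem_centralizer_iff.1 (hDc ha.2) b hb.2).symm)
      (comm_mk _ fun a ha b hb => (mem_centralizer_iff.1 (hDc ha.2) b hb.2).symm)
      (by rw [(inf_card D hco A).1, (inf_card D hco B).1, hAB])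
    set A' := MulAut.conj g₀ • A with hA'
    have hinf : A' ⊓ D = B ⊓ D := by
      rw [← hg₀, conj_smul_inf, conj_smul_of_normal D g₀]
    set V := B ⊓ D with hV
    set L := normalizer (V : Set G) with hL
    have hnV : ∀ C : Subgroup G, C ⊓ D = V → C ≤ L := fun C hC => by
      rw [hL, ← hC]
      intro c hc'
      exact mem_normalizer_of_conj_smul_eq (by
        rw [conj_smul_inf, conj_smul_of_normal D c, conj_smul_eq_self (le_normalizer hc')])
    have hDL : D ≤ L := fun d hd' => by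
      refine mem_normalizer_of_conj_smul_eq (eq_of_le_of_card_ge (fun y hy => ?_) (card_conj_smul _ _).ge)
      rw [mem_conj_smul] at hy
      have h1 := mem_centralizer_iff.1 (hDc hd') _ hy.2
      have h2 : y = d⁻¹ * y * d := by
        calc y = d * (d⁻¹ * y * d) * d⁻¹ := by group
          _ = d⁻¹ * y * d := by rw [← h1]; group
      rwa [h2]
    set k := Nat.card ↥(B.map π)
    have hkB : Nat.card ↥V * k = Nat.card ↥B := by rw [mul_comm]; exact card_map_mk' D B
    have hcoV : (Nat.card ↥V).Coprime k := (inf_card D hco B).2.coprime_dvd_left (card_dvd_of_le inf_le_right)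
    have hA'c : Nat.card ↥A' = Nat.card ↥B := by rw [hA', card_conj_smul, hAB]
    obtain ⟨A₀, hA₀, hA₀c, hA₀s⟩ := split (A := A') (V := V) (hinf ▸ inf_le_left) (hnV A' hinf)
      (k := k) (by rw [hkB, hA'c]) hcoV
    obtain ⟨B₀, hB₀, hB₀c, hB₀s⟩ := split (A := B) (V := V) inf_le_left (hnV B rfl) hkB hcoV
    have hcok : k.Coprime (Nat.card ↥D) := (inf_card D hco B).2.symm
    have hmapc : ∀ C : Subgroup G, Nat.card ↥C = k → Nat.card ↥(C.map π) = k := fun C hC => by
      have h1 := card_map_mk' D C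
      rw [inf_eq_bot_of_coprime (A := C) (N := D) (by rw [hC]; exact hcok), card_bot, mul_one,
        hC] at h1
      exact h1
    -- the quotient of `L` has cyclic Sylow subgroups
    have hcyc : ∀ s : ℕ, s.Prime → CycAt s ↥(L.map π) := by
      intro s hs
      rcases struct hH (hd.noNormalElementary hB hH) hs with h | ⟨rfl, R, hRn, hR, hRall⟩
      · exact h.subgroup _
      intro S hS
      set S' := S.map (L.map π).subtype with hS'
      have hS'R : S' ≤ R := hRall _ (hS.map _)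
      suffices h : IsCyclic ↥S' from
        (equivMapOfInjective S _ (L.map π).subtype_injective).isCyclic.2 h
      have h8 := card_dvd_of_le hS'R
      rw [hR.card, show 8 = 2 ^ 3 by rfl] at h8
      obtain ⟨i, hi, hi'⟩ := (Nat.dvd_prime_pow Nat.prime_two).1 h8
      obtain ⟨e, -, -, -, he4, -⟩ := hR.exists_orderFour
      interval_cases i
      · rw [S'.card_eq_one.1 hi']; infer_instance
      · exact isCyclic_of_prime_card (p := 2) (by simpa using hi')
      · exact hH.isCyclic_of_card (x := e) (by rw [hi', he4]; rfl)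
      · exfalso
        have : S' = R := eq_of_le_of_card_ge hS'R (by rw [hi', hR.card]; rfl)
        refine hd.q8_not_le hB hH (V := V) inf_le_right ?_ hR (this ▸ map_subtype_le S)
        intro p hp N hND hsyl hpa hna
        have : Fact p.Prime := ⟨hp⟩
        refine ⟨fun hbot => ?_, fun hNV => hna ?_⟩
        · obtain ⟨x, hx⟩ := exists_prime_orderOf_dvd_card' (G := ↥B) p (hAB ▸ hpa)
          have hxN : (x : G) ∈ N := hsyl 1 _ (by rw [pow_one, ← hx, ← orderOf_coe, pow_orderOf_eq_one])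
          have hxD : (x : G) ∈ D := hND hxN
          have : (x : G) ∈ (⊥ : Subgroup G) := hbot ▸ (⟨⟨x.2, hxD⟩, hxN⟩ : (x : G) ∈ V ⊓ N)
          rw [mem_bot] at this
          rw [← orderOf_coe, this, orderOf_one] at hx
          exact hp.ne_one hx.symm
        · rw [hAB]
          exact card_dvd_of_le (hNV.trans inf_le_left)
    obtain ⟨h, hh⟩ := cyc_conj_aux (Nat.card ↥(L.map π)) ↥(L.map π) le_rfl
      ((A₀.map π).subgroupOf (L.map π)) ((B₀.map π).subgroupOf (L.map π))
      (by rw [card_subgroupOf (map_mono (hA₀.trans (hnV A' hinf))),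
        card_subgroupOf (map_mono (hB₀.trans (hnV B rfl))), hmapc A₀ hA₀c, hmapc B₀ hB₀c])
      (fun s hs _ => hcyc s hs)
    have hh' := congrArg (Subgroup.map (L.map π).subtype) hh
    rw [map_conj_smul, map_subgroupOf_eq_of_le (map_mono (hA₀.trans (hnV A' hinf))),
      map_subgroupOf_eq_of_le (map_mono (hB₀.trans (hnV B rfl)))] at hh'
    obtain ⟨g, hg, hgA⟩ := lift_conj D (T := L) hDL (hA₀.trans (hnV A' hinf)) (hA₀c.trans hB₀c.symm)
      (by rw [hA₀c]; exact hcok) h.2 hh'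
    refine ⟨g * g₀, ?_⟩
    rw [conj_smul_mul, ← hA', ← hA₀s, conj_smul_sup, hgA, conj_smul_eq_self hg, hB₀s]

/-- If G is a finite solvable group in which any two abelian subgroups of the same order are conjugate, then any two subgroups of G of the same order are conjugate. -/
theorem result {G : Type*} [Group G] [Finite G] (hB : ∀ A B : Subgroup G, IsMulCommutative ↥A → IsMulCommutative ↥B → Nat.card ↥A = Nat.card ↥B → ∃ g : G, B = A.map (MulAut.conj g).toMonoidHom) (hsol : Group.IsSolvable G) (A B : Subgroup G)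
    (h : Nat.card ↥A = Nat.card ↥B) : ∃ g : G, B = A.map (MulAut.conj g).toMonoidHom := by
  have := hsol
  obtain ⟨g, hg⟩ := aux (Nat.card G) G le_rfl hB A B h
  exact ⟨g, hg.symm⟩

end Cfsg.Agent.S3913
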