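import Cfsg.Statements.S3917
import Mathlib
import Cfsg.Agent.Lib.GS.Sylow

set_option autoImplicit false
open Cfsg

namespace Cfsg.Agent.S3917


/-- Say that a group has self-centralizing non-cyclic subgroups when every non-cyclic subgroup H satisfies C_G(H) ≤ H. A finite abelian group with self-centralizing non-cyclic subgroups is cyclic or elementary abelian of order p² for a prime p. -/
theorem result {G : Type*} [CommGroup G] [Finite G] (hX : (∀ H : Subgroup G, ¬ IsCyclic ↥H → Subgroup.centralizer (H : Set G) ≤ H)) :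
    IsCyclic G ∨ ∃ p : ℕ, p.Prime ∧ Nat.card G = p ^ 2 ∧ Monoid.exponent G = p := by
  by_cases hc : IsCyclic G
  · exact Or.inl hc
  refine Or.inr ?_
  have htop : ∀ H : Subgroup G, ¬ IsCyclic ↥H → H = ⊤ := fun H hH =>
    top_le_iff.mp (le_trans (fun x _ => Subgroup.mem_centralizer_iff.mpr fun h _ => mul_comm h x) (hX H hH))
  obtain ⟨g, hg⟩ := Monoid.exists_orderOf_eq_exponent (G := G) Monoid.ExponentExists.of_finite
  have hne : Subgroup.zpowers g ≠ ⊤ := fun h => hc ⟨g, fun x => by
    have : x ∈ Subgroup.zpowers g := h ▸ Subgroup.mem_top x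
    exact Subgroup.mem_zpowers_iff.mp this⟩
  have hidx : (Subgroup.zpowers g).index ≠ 1 := fun h => hne (Subgroup.index_eq_one.mp h)
  obtain ⟨p, hp, hpd⟩ := Nat.exists_prime_and_dvd hidx
  haveI := Fact.mk hp
  rw [Subgroup.index_eq_card] at hpd
  obtain ⟨yb, hyb⟩ := exists_prime_orderOf_dvd_card' p hpd
  obtain ⟨y, rfl⟩ := QuotientGroup.mk'_surjective _ yb
  have hyp : y ^ p ∈ Subgroup.zpowers g := by
    rw [← QuotientGroup.eq_one_iff, QuotientGroup.mk_pow]
    have := pow_orderOf_eq_one (QuotientGroup.mk' (Subgroup.zpowers g) y)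
    rw [hyb] at this
    exact this
  obtain ⟨k, hk⟩ := Subgroup.mem_zpowers_iff.mp hyp
  set e := Monoid.exponent G with he
  have hpe : p ∣ e := by
    have h1 : orderOf (QuotientGroup.mk' (Subgroup.zpowers g) y) ∣ e :=
      (orderOf_map_dvd _ y).trans (Monoid.order_dvd_exponent y)
    rwa [hyb] at h1
  obtain ⟨e', he'⟩ := hpe
  have he0 : e ≠ 0 := Monoid.exponent_ne_zero_of_finite
  have hpk : (p : ℤ) ∣ k := by
    have h1 : g ^ (k * e') = 1 := by
      rw [zpow_mul, hk, zpow_natCast, ← pow_mul, ← he', Monoid.pow_exponent_eq_one]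
    rw [← orderOf_dvd_iff_zpow_eq_one, hg, he'] at h1
    push_cast at h1
    exact Int.dvd_of_mul_dvd_mul_right (by
      intro h0
      apply he0
      rw [he', show e' = 0 by exact_mod_cast h0, mul_zero]) h1
  obtain ⟨k', rfl⟩ := hpk
  set h := y * g ^ (-k') with hh
  have hh1 : h ^ p = 1 := by
    rw [hh, mul_pow, ← hk, ← zpow_natCast (g ^ (-k')), ← zpow_mul, ← zpow_add]
    simp [mul_comm]
  have hhg : h ∉ Subgroup.zpowers g := by
    intro hm
    have : y ∈ Subgroup.zpowers g := by
      have e1 : y = h * g ^ k' := by rw [hh, mul_assoc, ← zpow_add]; simp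
      exact e1 ▸ mul_mem hm (Subgroup.zpow_mem_zpowers g k')
    rw [QuotientGroup.mk'_apply, (QuotientGroup.eq_one_iff y).mpr this, orderOf_one] at hyb
    exact hp.ne_one hyb.symm
  set a := g ^ e' with ha
  have ha1 : orderOf a = p := by
    rw [ha, orderOf_pow, hg, he', Nat.gcd_mul_left_left, Nat.mul_div_cancel]
    rcases Nat.eq_zero_or_pos e' with h0 | h0
    · exact absurd (by rw [he', h0, mul_zero]) he0
    · exact h0
  set H := Subgroup.zpowers a ⊔ Subgroup.zpowers h with hH
  let T : Subgroup G := (powMonoidHom p : G →* G).ker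
  have hHT : H ≤ T := sup_le (Subgroup.zpowers_le.mpr (by
      change a ^ p = 1
      rw [← ha1]; exact pow_orderOf_eq_one a)) (Subgroup.zpowers_le.mpr hh1)
  have hHc : ¬ IsCyclic ↥H := by
    intro hcyc
    obtain ⟨z, hz⟩ := hcyc.exists_generator
    have hz1 : z ^ p = 1 := Subtype.ext (by simpa [T] using hHT z.2)
    have hcard : Nat.card H ∣ p := by
      rw [← orderOf_eq_card_of_forall_mem_zpowers hz]
      exact orderOf_dvd_of_pow_eq_one hz1
    have heq : Subgroup.zpowers a = H := Subgroup.eq_of_le_of_card_ge le_sup_left (by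
      rw [Nat.card_zpowers, ha1]; exact Nat.le_of_dvd hp.pos hcard)
    refine hhg (Subgroup.zpowers_le.mpr (Subgroup.pow_mem _ (Subgroup.mem_zpowers g) e') ?_)
    rw [← ha, heq]
    exact Subgroup.mem_sup_right (Subgroup.mem_zpowers h)
  have hall : ∀ x : G, x ^ p = 1 := fun x => by
    have : x ∈ T := hHT (htop H hHc ▸ Subgroup.mem_top x)
    exact this
  have hep : e = p := by
    rcases (Nat.dvd_prime hp).mp (Monoid.exponent_dvd_of_forall_pow_eq_one hall) with h1 | h1
    · exfalso
      have : e' * p = 1 := by rw [mul_comm, ← he', he]; exact h1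
      exact hp.ne_one (Nat.eq_one_of_mul_eq_one_left this)
    · exact h1
  refine ⟨p, hp, ?_, he ▸ hep⟩
  have hgen : ∀ q : G ⧸ Subgroup.zpowers g, q ∈ Subgroup.zpowers (QuotientGroup.mk' (Subgroup.zpowers g) h) := by
    intro q
    obtain ⟨x, rfl⟩ := QuotientGroup.mk'_surjective _ q
    have hle : H ≤ (Subgroup.zpowers (QuotientGroup.mk' (Subgroup.zpowers g) h)).comap (QuotientGroup.mk' (Subgroup.zpowers g)) := by
      refine sup_le (Subgroup.zpowers_le.mpr ?_) (Subgroup.zpowers_le.mpr (Subgroup.mem_zpowers _))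
      rw [Subgroup.mem_comap,
        show QuotientGroup.mk' (Subgroup.zpowers g) a = 1 from
          (QuotientGroup.eq_one_iff a).mpr (Subgroup.pow_mem _ (Subgroup.mem_zpowers g) e')]
      exact one_mem _
    exact hle (htop H hHc ▸ Subgroup.mem_top x)
  have hq : orderOf (QuotientGroup.mk' (Subgroup.zpowers g) h) = p := by
    refine orderOf_eq_prime (by rw [← map_pow, hh1, map_one]) ?_
    rw [ne_eq, QuotientGroup.mk'_apply, QuotientGroup.eq_one_iff]
    exact hhg
  rw [Subgroup.card_eq_card_quotient_mul_card_subgroup (Subgroup.zpowers g),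
    ← orderOf_eq_card_of_forall_mem_zpowers hgen, hq, Nat.card_zpowers, hg, hep, sq]

end Cfsg.Agent.S3917
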