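import Cfsg.Statements.S3918
import Mathlib
import Cfsg.Agent.Lib.UniqueInvolution
import Cfsg.Agent.Lib.OddLocal.SCN
import Cfsg.Agent.Lib.GS.ConjPSub
import Cfsg.Agent.Lib.GS.Sylow

set_option autoImplicit false
open Cfsg

namespace Cfsg.Agent.S3918

open Subgroup

/-- A self-centralizing normal subgroup of order at most `p²` generated over its centre part has index at most `p`. -/
theorem index_le {G : Type*} [Group G] [Finite G] {p : ℕ} [Fact p.Prime] (hG : IsPGroup p G) (A : Subgroup G)
    [A.Normal] (hA : Nat.card A ≤ p ^ 2) (a : G) (ha : a ∈ A)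
    (ha1 : a ≠ 1) (hCa : centralizer ({a} : Set G) ≤ A) : A.index ≤ p := by
  have hidx : A.index ≤ (centralizer ({a} : Set G)).index :=
    Nat.le_of_dvd (Nat.pos_of_ne_zero index_ne_zero_of_finite) (index_dvd_of_le hCa)
  refine hidx.trans ?_
  obtain ⟨k, hk⟩ := hG.index (centralizer ({a} : Set G))
  have horb : (centralizer ({a} : Set G)).index < p ^ 2 := by
    rw [← Cfsg.Agent.Lib.GS.ncard_carrier_eq_index a]
    refine lt_of_lt_of_le ?_ hA
    change _ < Nat.card ((A : Set G) : Type _)
    rw [Nat.card_coe_set_eq]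
    refine Set.ncard_lt_ncard ((Set.ssubset_iff_of_subset ?_).2 ⟨1, one_mem A, ?_⟩) (Set.toFinite _)
    · intro y hy
      rw [ConjClasses.mem_carrier_iff_mk_eq] at hy
      obtain ⟨g, hg⟩ := isConj_iff.1 (ConjClasses.mk_eq_mk_iff_isConj.1 hy).symm
      exact hg ▸ ‹A.Normal›.conj_mem a ha g
    · intro h1
      rw [ConjClasses.mem_carrier_iff_mk_eq] at h1
      obtain ⟨g, hg⟩ := isConj_iff.1 (ConjClasses.mk_eq_mk_iff_isConj.1 h1).symm
      exact ha1 (by simpa using hg)
  rw [hk] at horb ⊢
  have := (Nat.pow_lt_pow_iff_right (Fact.out : p.Prime).one_lt).1 horb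
  exact (Nat.pow_le_pow_right (Fact.out : p.Prime).pos (show k ≤ 1 by omega)).trans (pow_one p).le

/-- Say that a group has self-centralizing non-cyclic subgroups when every non-cyclic subgroup H satisfies C_G(H) ≤ H. For an odd prime p, a finite non-abelian p-group has self-centralizing non-cyclic subgroups if and only if it has order p³. -/
theorem result {G : Type*} [Group G] [Finite G] {p : ℕ} [Fact p.Prime] (hp : p ≠ 2) (hG : IsPGroup p G) (hna : ¬ IsMulCommutative G) :
    (∀ H : Subgroup G, ¬ IsCyclic ↥H → Subgroup.centralizer (H : Set G) ≤ H) ↔ Nat.card G = p ^ 3 := by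
  open Subgroup in
  have hpp : p.Prime := Fact.out
  have hG1 : 1 < Nat.card G := by
    refine Finite.one_lt_card_iff_nontrivial.2 ?_
    by_contra h
    rw [not_nontrivial_iff_subsingleton] at h
    exact hna ⟨⟨fun a b => Subsingleton.elim _ _⟩⟩
  obtain ⟨k, hk⟩ := IsPGroup.iff_card.1 hG
  have hk3 : 3 ≤ k := by
    by_contra hlt
    refine hna ?_
    have : k = 0 ∨ k = 1 ∨ k = 2 := by omega
    rcases this with rfl | rfl | rfl
    · rw [hk, pow_zero] at hG1; exact absurd hG1 (lt_irrefl 1)
    · haveI := isCyclic_of_prime_card (α := G) (p := p) (by rw [hk, pow_one])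
      exact IsCyclic.isMulCommutative
    · exact IsPGroup.isMulCommutative_of_card_eq_prime_sq hk
  constructor
  · intro hall
    -- a central element of order `p` and a second subgroup of order `p`
    haveI : Nontrivial G := Finite.one_lt_card_iff_nontrivial.1 hG1
    haveI := hG.center_nontrivial
    obtain ⟨n, hn⟩ := IsPGroup.iff_card.1 (hG.to_subgroup (center G))
    have hn0 : n ≠ 0 := fun h => (Finite.one_lt_card (α := center G)).ne' (by rw [hn, h, pow_zero])
    obtain ⟨z, hz⟩ := exists_prime_orderOf_dvd_card' (G := center G) p (hn ▸ dvd_pow_self p hn0)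
    rw [← Subgroup.orderOf_coe] at hz
    obtain ⟨w, hw, hwz⟩ : ∃ w : G, orderOf w = p ∧ w ∉ zpowers (z : G) := by
      by_contra! h
      have hs : ∀ H : Subgroup G, Nat.card H = p → H = zpowers (z : G) := by
        intro H hH
        refine eq_of_le_of_card_ge (fun x hx => ?_) (by rw [Nat.card_zpowers, hz, hH])
        rcases eq_or_ne x 1 with rfl | hx1
        · exact one_mem _
        refine h x (orderOf_eq_prime ?_ hx1)
        have := pow_card_eq_one' (x := (⟨x, hx⟩ : H))
        rw [hH] at this
        exact congrArg Subtype.val this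
      rcases Cfsg.Agent.Lib.UniqueInvolution.isCyclic_or_quaternion hG
        (fun H K hH hK => (hs H hH).trans (hs K hK).symm) with hc | ⟨h2, -⟩
      · haveI := hc; exact hna IsCyclic.isMulCommutative
      · exact hp h2
    obtain ⟨hEc, hEcard⟩ := Cfsg.Agent.Lib.GS.ConjPSub.sup_zpowers_commutative (A := zpowers (z : G))
      inferInstance hw hwz (fun a ha => (mem_center_iff.1 (zpowers_le.2 z.2 ha) w).symm)
    set E := zpowers (z : G) ⊔ zpowers w with hE
    rw [Nat.card_zpowers, hz] at hEcard
    have hEexp : ∀ e ∈ E, e ^ p = 1 := by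
      intro e he
      haveI : (zpowers (z : G)).Normal := ⟨fun a ha g => by
        rw [mem_center_iff.1 (zpowers_le.2 z.2 ha) g, mul_inv_cancel_right]; exact ha⟩
      obtain ⟨b, hb, c, hc, rfl⟩ := mem_sup_of_normal_left.1 he
      rw [(show Commute b c from (mem_center_iff.1 (zpowers_le.2 z.2 hb) c).symm).mul_pow,
        orderOf_dvd_iff_pow_eq_one.1 (hz ▸ orderOf_dvd_of_mem_zpowers hb),
        orderOf_dvd_iff_pow_eq_one.1 (hw ▸ orderOf_dvd_of_mem_zpowers hc), one_mul]
    have hncyc : ¬ IsCyclic E := by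
      intro h
      obtain ⟨g, hg⟩ := h.exists_generator
      have h1 : orderOf g ∣ p := orderOf_dvd_of_pow_eq_one (Subtype.ext (by
        rw [SubmonoidClass.coe_pow]; exact hEexp g g.2))
      rw [orderOf_eq_card_of_forall_mem_zpowers hg, hEcard] at h1
      have := Nat.le_of_dvd hpp.pos h1
      have := hpp.two_le
      nlinarith
    have hCE : centralizer (E : Set G) ≤ E := hall E hncyc
    obtain ⟨A, -, hAn, hAc, hAC⟩ :=
      Cfsg.Agent.Lib.OddLocal.exists_selfCentralizing_normal hG (⊥ : Subgroup G) inferInstance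
    haveI := hAn
    haveI := hAc
    suffices hA2 : ∃ (B : Subgroup G) (a : G), B.Normal ∧ Nat.card B ≤ p ^ 2 ∧ a ∈ B ∧ a ≠ 1 ∧
        centralizer ({a} : Set G) ≤ B by
      obtain ⟨B, a, hB, hB2, haB, ha1, hCa⟩ := hA2
      haveI := hB
      have h1 := index_le hG B hB2 a haB ha1 hCa
      have h2 : Nat.card G ≤ p ^ 3 := by
        rw [← B.card_mul_index, pow_succ]
        exact Nat.mul_le_mul hB2 h1
      rw [hk] at h2 ⊢
      exact congrArg _ (le_antisymm ((Nat.pow_le_pow_iff_right hpp.one_lt).1 h2) hk3)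
    by_cases hAcyc : IsCyclic A
    · obtain ⟨⟨a, haA⟩, hgen⟩ := hAcyc.exists_generator
      have hAa : A = zpowers a := by
        refine le_antisymm (fun x hx => ?_) (zpowers_le.2 haA)
        obtain ⟨i, hi⟩ := mem_zpowers_iff.1 (hgen ⟨x, hx⟩)
        exact mem_zpowers_iff.2 ⟨i, congrArg Subtype.val hi⟩
      obtain ⟨m, hm⟩ := IsPGroup.iff_orderOf.1 hG a
      have hCa : centralizer ({a} : Set G) ≤ A := by
        intro x hx
        rw [← hAC, mem_centralizer_iff]
        intro y hy
        rw [SetLike.mem_coe, hAa, mem_zpowers_iff] at hy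
        obtain ⟨i, rfl⟩ := hy
        exact (Commute.zpow_left (mem_centralizer_singleton_iff.1 hx).symm i).eq
      have ha1 : a ≠ 1 := by
        intro h1
        refine hna ⟨⟨fun x y => ?_⟩⟩
        have htop : A = ⊤ := top_le_iff.1 (le_trans (fun g _ => mem_centralizer_singleton_iff.2 (by rw [h1]; simp)) hCa)
        exact congrArg Subtype.val (hAc.1.1 ⟨x, htop ▸ mem_top x⟩ ⟨y, htop ▸ mem_top y⟩)
      refine ⟨A, a, hAn, ?_, haA, ha1, hCa⟩
      rw [hAa, Nat.card_zpowers, hm]
      refine Nat.pow_le_pow_right hpp.pos ?_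
      by_contra hlt
      obtain ⟨r, rfl⟩ : ∃ r, m = r + 3 := ⟨m - 3, by omega⟩
      obtain ⟨u, hu⟩ : ∃ u : ℤ, a ^ u = w * a * w⁻¹ := mem_zpowers_iff.1 (hAa ▸ hAn.conj_mem a haA w)
      have hit : ∀ j : ℕ, a ^ (u ^ j) = w ^ j * a * (w ^ j)⁻¹ := by
        intro j
        induction j with
        | zero => simp
        | succ j ih =>
          rw [pow_succ', zpow_mul, hu, conj_zpow, ih, pow_succ']
          group
      have h1 : ((p : ℤ) ^ (r + 3)) ∣ u ^ p - 1 := by
        have := hit p
        rw [← hw, pow_orderOf_eq_one, one_mul, inv_one, mul_one, hw] at this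
        have h2 : a ^ (u ^ p - 1) = 1 := by rw [zpow_sub, this, zpow_one, mul_inv_cancel]
        have := orderOf_dvd_iff_zpow_eq_one.2 h2
        rw [hm] at this
        exact_mod_cast this
      obtain ⟨s, hs⟩ : (p : ℤ) ∣ u - 1 := by
        have h2 : ((u : ZMod p)) ^ p = 1 := by
          have := (ZMod.intCast_zmod_eq_zero_iff_dvd _ p).2 ((dvd_pow_self (p : ℤ) (by omega : r + 3 ≠ 0)).trans h1)
          push_cast at this
          exact sub_eq_zero.1 this
        rw [ZMod.pow_card] at h2
        rw [← ZMod.intCast_zmod_eq_zero_iff_dvd]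
        push_cast
        rw [h2, sub_self]
      have hu1 : u = 1 + p * s := by linarith
      have hexp : ∀ j : ℕ, ((p : ℤ) ^ 3) ∣ 2 * u ^ j - (2 + 2 * j * p * s + j * (j - 1) * p ^ 2 * s ^ 2) := by
        intro j
        induction j with
        | zero => simp
        | succ j ih =>
          obtain ⟨t, ht⟩ := ih
          refine ⟨t * u + j * (j - 1) * s ^ 3, ?_⟩
          rw [pow_succ]
          subst hu1
          push_cast
          linear_combination (1 + (p : ℤ) * s) * ht
      have h3 : ((p : ℤ) ^ 3) ∣ 2 * p ^ 2 * s := by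
        have e1 := hexp p
        have e2 : ((p : ℤ) ^ 3) ∣ u ^ p - 1 := (pow_dvd_pow _ (by omega)).trans h1
        have e3 : (2 : ℤ) * p ^ 2 * s + (p : ℤ) * (p - 1) * p ^ 2 * s ^ 2 =
            2 * (u ^ p - 1) - (2 * u ^ p - (2 + 2 * p * p * s + p * (p - 1) * p ^ 2 * s ^ 2)) := by ring
        have e4 : ((p : ℤ) ^ 3) ∣ 2 * p ^ 2 * s + (p : ℤ) * (p - 1) * p ^ 2 * s ^ 2 := e3 ▸ dvd_sub (e2.mul_left 2) e1
        exact (dvd_add_left ⟨(p - 1) * s ^ 2, by ring⟩).1 e4
      have h4 : (p : ℤ) ∣ 2 * s := by
        obtain ⟨t, ht⟩ := h3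
        refine ⟨t, mul_left_cancel₀ (pow_ne_zero 2 (by exact_mod_cast hpp.ne_zero : (p : ℤ) ≠ 0)) ?_⟩
        linear_combination ht
      have hps : (p : ℤ) ∣ s := (Int.Prime.dvd_mul' hpp h4).resolve_left fun h2 => by
        have h2' : p ∣ 2 := by exact_mod_cast h2
        exact hp ((Nat.prime_dvd_prime_iff_eq hpp Nat.prime_two).1 h2')
      -- a fixed element of order `p²`
      have hfix : w * a ^ (p ^ (r + 1)) * w⁻¹ = a ^ (p ^ (r + 1)) := by
        rw [← conj_pow, ← hu, ← zpow_natCast (a ^ u), ← zpow_mul, ← zpow_natCast a, zpow_eq_zpow_iff_modEq, hm,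
          Int.modEq_iff_dvd]
        obtain ⟨t, rfl⟩ := hps
        refine ⟨-t, ?_⟩
        rw [hu1]; push_cast; ring
      have hmemC : a ^ (p ^ (r + 1)) ∈ centralizer (E : Set G) := by
        rw [mem_centralizer_iff]
        intro e he
        haveI : (zpowers (z : G)).Normal := ⟨fun a ha g => by
          rw [mem_center_iff.1 (zpowers_le.2 z.2 ha) g, mul_inv_cancel_right]; exact ha⟩
        obtain ⟨b, hb, c, hc, rfl⟩ := mem_sup_of_normal_left.1 he
        obtain ⟨i, rfl⟩ := mem_zpowers_iff.1 hc
        have hcw : Commute w (a ^ (p ^ (r + 1))) := mul_inv_eq_iff_eq_mul.1 hfix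
        have hcb : Commute b (a ^ (p ^ (r + 1))) := ((mem_center_iff.1 (zpowers_le.2 z.2 hb)) _).symm
        exact (hcb.mul_left (hcw.zpow_left i)).eq
      have h5 := hEexp _ (hCE hmemC)
      rw [← pow_mul, ← pow_succ, ← orderOf_dvd_iff_pow_eq_one, hm, Nat.pow_dvd_pow_iff_le_right hpp.one_lt] at h5
      omega
    · -- a noncyclic abelian normal subgroup is elementary of order `p²`
      have hBsub : ∀ B : Subgroup G, B ≤ A → ¬ IsCyclic B → B = A := fun B hBA hB =>
        le_antisymm hBA ((show A ≤ centralizer (B : Set G) from fun x hx => mem_centralizer_iff.2 fun y hy =>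
          congrArg Subtype.val (hAc.1.1 ⟨y, hBA hy⟩ ⟨x, hx⟩)).trans (hall B hB))
      have hzA : (z : G) ∈ A := by
        rw [← hAC]
        exact mem_centralizer_iff.2 fun y _ => mem_center_iff.1 z.2 y
      obtain ⟨w', hw', hw'z, hw'A⟩ : ∃ w' : G, orderOf w' = p ∧ w' ∉ zpowers (z : G) ∧ w' ∈ A := by
        by_contra! h
        refine hAcyc ?_
        have huniqA : ∀ H K : Subgroup A, Nat.card H = p → Nat.card K = p → H = K := by
          intro H K hH hK
          have hs : ∀ L : Subgroup A, Nat.card L = p → L.map A.subtype = zpowers (z : G) := by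
            intro L hL
            refine eq_of_le_of_card_ge ?_ (by rw [Nat.card_zpowers, hz, card_map_of_injective A.subtype_injective, hL])
            rintro _ ⟨x, hx, rfl⟩
            rcases eq_or_ne x 1 with rfl | hx1
            · exact one_mem _
            by_contra hxz
            refine h (x : G) ?_ hxz x.2
            rw [Subgroup.orderOf_coe]
            refine orderOf_eq_prime ?_ hx1
            have := pow_card_eq_one' (x := (⟨x, hx⟩ : L))
            rw [hL] at this
            exact congrArg Subtype.val this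
          exact map_injective A.subtype_injective ((hs H hH).trans (hs K hK).symm)
        rcases Cfsg.Agent.Lib.UniqueInvolution.isCyclic_or_quaternion (hG.to_subgroup A) huniqA with hc | ⟨h2, -⟩
        · exact hc
        · exact absurd h2 hp
      obtain ⟨hBc, hBcard⟩ := Cfsg.Agent.Lib.GS.ConjPSub.sup_zpowers_commutative (A := zpowers (z : G))
        inferInstance hw' hw'z (fun a ha => (mem_center_iff.1 (zpowers_le.2 z.2 ha) w').symm)
      rw [Nat.card_zpowers, hz] at hBcard
      have hBA : zpowers (z : G) ⊔ zpowers w' = A := by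
        refine hBsub _ (sup_le (zpowers_le.2 hzA) (zpowers_le.2 hw'A)) fun h => ?_
        haveI : IsCyclic ↥(zpowers (z : G) ⊔ zpowers w') := h
        have hsubset : zpowers (⟨z, mem_sup_left (mem_zpowers _)⟩ : ↥(zpowers (z : G) ⊔ zpowers w')) =
            zpowers ⟨w', mem_sup_right (mem_zpowers w')⟩ := by
          classical
          have := Fintype.ofFinite ↥(zpowers (z : G) ⊔ zpowers w')
          have hall' : ∀ b : ↥(zpowers (z : G) ⊔ zpowers w'), orderOf b = p → (Finset.univ.filter fun y => y ∈ zpowers b) =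
              Finset.univ.filter fun y : ↥(zpowers (z : G) ⊔ zpowers w') => y ^ p = 1 := by
            intro b hb
            refine Finset.eq_of_subset_of_card_le (fun y hy => ?_) ?_
            · simp only [Finset.mem_filter, Finset.mem_univ, true_and] at hy ⊢
              exact orderOf_dvd_iff_pow_eq_one.1 (hb ▸ orderOf_dvd_of_mem_zpowers hy)
            · refine (IsCyclic.card_pow_eq_one_le hpp.pos).trans ?_
              rw [← Fintype.card_subtype, ← Nat.card_eq_fintype_card]
              exact ((Nat.card_zpowers b).trans hb).ge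
          ext y
          have := Finset.ext_iff.1 ((hall' ⟨z, mem_sup_left (mem_zpowers _)⟩ (by rw [Subgroup.orderOf_mk, hz])).trans
            (hall' ⟨w', mem_sup_right (mem_zpowers w')⟩ (by rw [Subgroup.orderOf_mk, hw'])).symm) y
          simpa using this
        have hmem : (⟨w', mem_sup_right (mem_zpowers w')⟩ : ↥(zpowers (z : G) ⊔ zpowers w')) ∈
            zpowers ⟨(z : G), mem_sup_left (mem_zpowers _)⟩ := hsubset ▸ mem_zpowers _
        obtain ⟨i, hi⟩ := mem_zpowers_iff.1 hmem
        exact hw'z (mem_zpowers_iff.2 ⟨i, congrArg Subtype.val hi⟩)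
      refine ⟨A, w', hAn, by rw [← hBA, hBcard, sq], hw'A, fun h => hw'z (h ▸ one_mem _), fun x hx => ?_⟩
      rw [← hAC, ← hBA, mem_centralizer_iff]
      intro y hy
      haveI : (zpowers (z : G)).Normal := ⟨fun a ha g => by
        rw [mem_center_iff.1 (zpowers_le.2 z.2 ha) g, mul_inv_cancel_right]; exact ha⟩
      obtain ⟨b, hb, c, hc, rfl⟩ := mem_sup_of_normal_left.1 (show y ∈ _ from hy)
      obtain ⟨i, rfl⟩ := mem_zpowers_iff.1 hc
      have hxb : Commute b x := ((mem_center_iff.1 (zpowers_le.2 z.2 hb)) x).symm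
      exact (hxb.mul_left ((show Commute w' x from (mem_centralizer_singleton_iff.1 hx).symm).zpow_left i)).eq
  · intro h3 H hH
    rw [hk] at h3
    obtain rfl : k = 3 := Nat.pow_right_injective hpp.two_le h3
    obtain ⟨i, hi⟩ := IsPGroup.iff_card.1 (hG.to_subgroup H)
    have hi2 : 2 ≤ i := by
      by_contra hlt
      refine hH ?_
      rcases (show i = 0 ∨ i = 1 by omega) with rfl | rfl
      · haveI := (Nat.card_eq_one_iff_unique.1 (hi.trans (pow_zero p))).1
        infer_instance
      · exact isCyclic_of_prime_card (p := p) (hi.trans (pow_one p))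
    have hi3 : i ≤ 3 := (Nat.pow_dvd_pow_iff_le_right hpp.one_lt).1 (hi ▸ hk ▸ card_subgroup_dvd_card H)
    rcases (show i = 2 ∨ i = 3 by omega) with rfl | rfl
    · haveI hHc : IsMulCommutative H := IsPGroup.isMulCommutative_of_card_eq_prime_sq hi
      have hle : H ≤ centralizer (H : Set G) := fun x hx => mem_centralizer_iff.2 fun y hy =>
        congrArg Subtype.val (hHc.1.1 ⟨y, hy⟩ ⟨x, hx⟩)
      obtain ⟨j, hj⟩ := IsPGroup.iff_card.1 (hG.to_subgroup (centralizer (H : Set G)))
      have hj2 : 2 ≤ j := (Nat.pow_dvd_pow_iff_le_right hpp.one_lt).1 (hj ▸ hi ▸ card_dvd_of_le hle)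
      have hj3 : j ≤ 3 := (Nat.pow_dvd_pow_iff_le_right hpp.one_lt).1 (hj ▸ hk ▸ card_subgroup_dvd_card _)
      rcases (show j = 2 ∨ j = 3 by omega) with rfl | rfl
      · exact (eq_of_le_of_card_ge hle (by rw [hi, hj])).ge
      · exfalso
        have htop : centralizer (H : Set G) = ⊤ := eq_top_of_card_eq _ (by rw [hj, hk])
        have hHZ : H ≤ center G := fun x hx => mem_center_iff.2 fun g =>
          ((mem_centralizer_iff.1 (htop ▸ mem_top g)) x hx).symm
        have hidx : (center G).index ∣ p := by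
          refine (index_dvd_of_le hHZ).trans (dvd_of_eq ?_)
          have := H.card_mul_index
          rw [hi, hk, pow_succ] at this
          exact Nat.eq_of_mul_eq_mul_left (pow_pos hpp.pos 2) this
        haveI : IsCyclic (G ⧸ center G) := by
          rcases (Nat.dvd_prime hpp).1 hidx with h1 | h1 <;> rw [index_eq_card] at h1
          · haveI := (Nat.card_eq_one_iff_unique.1 h1).1
            infer_instance
          · exact isCyclic_of_prime_card h1
        exact hna (isMulCommutative_of_isCyclic_quotient_center_self (G := G))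
    · rw [eq_top_of_card_eq H (by rw [hi, hk])]
      exact le_top

end Cfsg.Agent.S3918
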