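import Cfsg.Statements.S3920
import Mathlib
import Cfsg.Agent.Lib.GS.DihedralSub

set_option autoImplicit false
open Cfsg

namespace Cfsg.Agent.S3920


/-- Say that a group has self-centralizing non-cyclic subgroups when every non-cyclic subgroup H satisfies C_G(H) ≤ H. For n ≥ 3, the dihedral group of order 2n has self-centralizing non-cyclic subgroups if and only if n is odd or a power of 2. -/
theorem result (n : ℕ) (hn : 3 ≤ n) : (∀ H : Subgroup (DihedralGroup n), ¬ IsCyclic ↥H → Subgroup.centralizer (H : Set (DihedralGroup n)) ≤ H) ↔ (Odd n ∨ ∃ k : ℕ, n = 2 ^ k) := by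
  haveI : NeZero n := ⟨by omega⟩
  open DihedralGroup Cfsg.Agent.Lib.GS.DihedralSub in
  constructor
  · intro hall
    by_contra! hcon
    obtain ⟨hodd, hpow⟩ := hcon
    obtain ⟨q, hq, hqn, hq2⟩ : ∃ q : ℕ, q.Prime ∧ q ∣ n ∧ q ≠ 2 := by
      by_contra! h
      exact hpow _ (Nat.eq_prime_pow_of_unique_prime_dvd (p := 2) (by omega) fun {d} hd hdn => h d hd hdn)
    obtain ⟨m, hm⟩ := even_iff_two_dvd.1 (Nat.not_odd_iff_even.1 hodd)
    obtain ⟨e, he⟩ := hqn
    have hqo : Odd q := hq.odd_of_ne_two hq2
    set S : AddSubgroup (ZMod n) := (nsmulAddMonoidHom q : ZMod n →+ ZMod n).ker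
    have hmem : ∀ x : ZMod n, x ∈ S ↔ (q : ZMod n) * x = 0 := fun x => by
      rw [← nsmul_eq_mul]; exact AddMonoidHom.mem_ker
    have heS : (e : ZMod n) ∈ S := by rw [hmem, ← Nat.cast_mul, ← he, ZMod.natCast_self]
    have he2 : (e : ZMod n) + e ≠ 0 := by
      rw [← Nat.cast_add, Ne, ZMod.natCast_eq_zero_iff]
      intro h
      have := Nat.le_of_dvd (by rcases Nat.eq_zero_or_pos e with h0 | h0 <;> [(subst h0; omega); omega]) h
      have hq3 : 3 ≤ q := by have := hq.two_le; omega
      nlinarith
    have hnc := dih_not_commutative S heS he2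
    have hsub := hall (dih S) fun h => hnc (by
      obtain ⟨g, hg⟩ := h.exists_generator
      refine ⟨⟨fun a b => ?_⟩⟩
      obtain ⟨i, rfl⟩ := Subgroup.mem_zpowers_iff.1 (hg a)
      obtain ⟨j, rfl⟩ := Subgroup.mem_zpowers_iff.1 (hg b)
      exact (Commute.zpow_zpow_self g i j).eq)
    have hmm : (m : ZMod n) + m = 0 := by
      rw [← Nat.cast_add, show m + m = n by omega, ZMod.natCast_self]
    have hz : r (m : ZMod n) ∈ Subgroup.centralizer (dih S : Set (DihedralGroup n)) := by
      rw [Subgroup.mem_centralizer_iff]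
      rintro (i | i) -
      · rw [r_mul_r, r_mul_r, add_comm]
      · exact ((commute_r_sr (j := i)).2 hmm).eq.symm
    have h := (hmem _).1 (hsub hz)
    rw [← Nat.cast_mul, ZMod.natCast_eq_zero_iff] at h
    obtain ⟨c, hc⟩ := h
    obtain ⟨o, ho⟩ := hqo
    have hm0 : 0 < m := by omega
    have : q = 2 * c := Nat.eq_of_mul_eq_mul_right hm0 (by rw [hc, hm]; ring)
    omega
  · intro hn' H hH
    obtain ⟨i, j, hi, hj, hj0⟩ := exists_of_not_isCyclic H hH
    intro x hx
    rw [Subgroup.mem_centralizer_iff] at hx
    rcases hn' with hodd | ⟨k, hk⟩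
    · rcases x with a | a
      · rw [eq_zero_of_add_self_odd hodd (commute_r_sr.1 (hx _ hi).symm)]; exact one_mem H
      · exact absurd (eq_zero_of_add_self_odd hodd (commute_r_sr.1 (hx _ hj))) hj0
    · obtain ⟨k, rfl⟩ : ∃ l, k = l + 1 := ⟨k - 1, by rcases k with _ | k <;> simp at * <;> omega⟩
      have huniq : ∀ a : ZMod n, a + a = 0 → a = 0 ∨ a = ((2 ^ k : ℕ) : ZMod n) := by
        intro a ha
        rw [← ZMod.natCast_zmod_val a, ← Nat.cast_add, ZMod.natCast_eq_zero_iff] at ha
        obtain ⟨c, hc⟩ := ha
        have hlt := ZMod.val_lt a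
        have : c = 0 ∨ c = 1 := by
          rcases c with _ | _ | c
          · exact Or.inl rfl
          · exact Or.inr rfl
          · exfalso; nlinarith
        rcases this with rfl | rfl
        · left; exact (ZMod.val_eq_zero a).1 (by omega)
        · right; rw [← ZMod.natCast_zmod_val a]; congr 1
          rw [pow_succ] at hk; omega
      -- the subgroup contains the rotation by half a turn
      have hhalf : r ((2 ^ k : ℕ) : ZMod n) ∈ H := by
        by_contra hcon
        suffices h : ∀ t : ℕ, t ≤ k + 1 → ∀ a : ZMod n, r a ∈ H → (2 ^ t : ℕ) • a = 0 → a = 0 by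
          refine hj0 (h (k + 1) le_rfl j hj ?_)
          rw [← hk, nsmul_eq_mul, ZMod.natCast_self, zero_mul]
        intro t
        induction t with
        | zero => intro _ a _ h; simpa using h
        | succ t ih =>
          intro ht a ha h
          have h2 : r (a + a) ∈ H := by rw [← r_mul_r]; exact mul_mem ha ha
          have := ih (by omega) (a + a) h2 (by rw [← h, pow_succ, mul_nsmul', two_nsmul])
          rcases huniq a this with h0 | h0
          · exact h0
          · exact absurd (h0 ▸ ha) hcon
      rcases x with a | a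
      · rcases huniq a (commute_r_sr.1 (hx _ hi).symm) with h | h
        · rw [h]; exact one_mem H
        · rw [h]; exact hhalf
      · have h1 : a - i + (a - i) = 0 := by
          have := hx _ hi
          rw [sr_mul_sr, sr_mul_sr, DihedralGroup.r.injEq] at this
          linear_combination this
        rw [show a = i + (a - i) by ring, ← sr_mul_r]
        refine mul_mem hi ?_
        rcases huniq _ h1 with h | h
        · rw [h]; exact one_mem H
        · rw [h]; exact hhalf

end Cfsg.Agent.S3920
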