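import Cfsg.Statements.S3937
import Mathlib
import Cfsg.Agent.Lib.GS.Zipper
import Cfsg.Agent.Lib.Components.Cores

set_option autoImplicit false
open Cfsg

namespace Cfsg.Agent.S3937

open Cfsg.Agent.Lib.GS
open scoped commutatorElement

theorem foldl_step {G : Type*} [Group G] (g x : G) (n : ℕ) :
    (List.replicate (n + 1) g).foldl (fun a b => a * b * a⁻¹ * b⁻¹) x =
      (List.replicate n g).foldl (fun a b => a * b * a⁻¹ * b⁻¹) (x * g * x⁻¹ * g⁻¹) := by
  simp [List.replicate_succ]

theorem foldl_map {G H : Type*} [Group G] [Group H] (f : G →* H) (g : G) : ∀ (n : ℕ) (x : G),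
    f ((List.replicate n g).foldl (fun a b => a * b * a⁻¹ * b⁻¹) x) =
      (List.replicate n (f g)).foldl (fun a b => a * b * a⁻¹ * b⁻¹) (f x)
  | 0, x => by simp
  | n + 1, x => by rw [foldl_step, foldl_map f g n, foldl_step]; simp [map_mul]

/-- A left Engel element generates a subnormal subgroup. -/
theorem isSubnormal_of_engel {G : Type*} [Group G] [Finite G] (g : G)
    (h : ∀ x : G, ∃ n : ℕ, (List.replicate n g).foldl (fun a b => a * b * a⁻¹ * b⁻¹) x = 1) :
    (Subgroup.zpowers g).IsSubnormal := by
  induction hn : Nat.card G using Nat.strong_induction_on generalizing G with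
  | _ n ih => ?_
  have hsub : ∀ H : Subgroup G, Subgroup.zpowers g ≤ H → H ≠ ⊤ →
      ((Subgroup.zpowers g).subgroupOf H).IsSubnormal := by
    intro H hH hne
    have hg : g ∈ H := hH (Subgroup.mem_zpowers g)
    have hlt : Nat.card H < n := by
      by_contra hle
      exact hne (Subgroup.eq_top_of_card_eq H
        (le_antisymm (Subgroup.card_le_card_group H) (hn ▸ not_lt.mp hle)))
    have := ih _ hlt (⟨g, hg⟩ : H) (fun x => ?_) rfl
    · convert this using 1
      ext y
      simp [Subgroup.mem_subgroupOf, Subgroup.mem_zpowers_iff, Subtype.ext_iff]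
    · obtain ⟨k, hk⟩ := h x
      refine ⟨k, Subtype.ext ?_⟩
      have := foldl_map H.subtype ⟨g, hg⟩ k x
      simp only [Subgroup.coe_subtype] at this
      rw [this, hk]; rfl
  rcases zipper _ hsub with hs | ⟨M, hM, hgM, huniq⟩
  · exact hs
  have hgm : g ∈ M := hgM (Subgroup.mem_zpowers g)
  by_cases hMn : M.Normal
  · exact Subgroup.IsSubnormal.trans hgM (hsub M hgM hM.1) hMn.isSubnormal
  exfalso
  have hall : ∀ (k : ℕ) (x : G), (List.replicate k g).foldl (fun a b => a * b * a⁻¹ * b⁻¹) x = 1 →
      x ∈ M := by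
    intro k
    induction k with
    | zero => intro x hx; simp at hx; rw [hx]; exact M.one_mem
    | succ k ihk =>
      intro x hx
      rw [foldl_step] at hx
      have h1 := ihk _ hx
      have h2 : x * g * x⁻¹ ∈ M := by
        have := M.mul_mem h1 hgm
        rwa [show x * g * x⁻¹ * g⁻¹ * g = x * g * x⁻¹ by group] at this
      have h3 : cmap x⁻¹ M = M := huniq _ (isCoatom_cmap hM x⁻¹) (Subgroup.zpowers_le.mpr (by
        rw [mem_cmap, inv_inv]; exact h2))
      have h4 : x⁻¹ ∈ Subgroup.normalizer (M : Set G) := mem_normalizer_of_cmap_le h3.le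
      rw [coatom_normalizer hM hMn] at h4
      simpa using h4
  exact hM.1 ((Subgroup.eq_top_iff' M).mpr fun x => hall _ x (h x).choose_spec)

/-- Elements of the Fitting subgroup are left Engel. -/
theorem engel_of_mem {G : Type*} [Group G] [Finite G] {g : G} (hg : g ∈ Cfsg.fittingSubgroup G)
    (x : G) : ∃ n : ℕ, (List.replicate n g).foldl (fun a b => a * b * a⁻¹ * b⁻¹) x = 1 := by
  set F := Cfsg.fittingSubgroup G with hF
  have hnil : Group.IsNilpotent F := Cfsg.Agent.Lib.Components.fittingSubgroup_nilpotent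
  obtain ⟨c, hbot⟩ := (Subgroup.isNilpotent_iff_lowerCentralSeries F).mp hnil
  have hstep : ∀ (j k : ℕ) (y : G), y ∈ F.lowerCentralSeries k →
      (List.replicate j g).foldl (fun a b => a * b * a⁻¹ * b⁻¹) y ∈ F.lowerCentralSeries (k + j) := by
    intro j
    induction j with
    | zero => intro k y hy; simpa using hy
    | succ j ih =>
      intro k y hy
      rw [foldl_step, show k + (j + 1) = k + 1 + j by ring]
      exact ih (k + 1) _ (Subgroup.commutator_mem_commutator hy hg)
  refine ⟨c + 1, ?_⟩
  rw [foldl_step, ← Subgroup.mem_bot, ← hbot]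
  have h0 : x * g * x⁻¹ * g⁻¹ ∈ F.lowerCentralSeries 0 := by
    rw [Subgroup.lowerCentralSeries_zero]
    exact F.mul_mem (Cfsg.Agent.Lib.Components.fittingSubgroup_normal.conj_mem g hg x) (F.inv_mem hg)
  simpa using hstep c 0 _ h0

/-- Baer's characterization of the Fitting subgroup: in a finite group G, an element g lies in the Fitting subgroup if and only if g is a left Engel element, that is, for every x there is n with [x, g, g, …, g] = 1 (n entries g, [a, b] = aba⁻¹b⁻¹). -/
theorem result {G : Type*} [Group G] [Finite G] (g : G) :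
    g ∈ Cfsg.fittingSubgroup G ↔ ∀ x : G, ∃ n : ℕ, (List.replicate n g).foldl (fun a b => a * b * a⁻¹ * b⁻¹) x = 1 := by
  refine ⟨fun hg x => engel_of_mem hg x, fun h => ?_⟩
  have hnil : Group.IsNilpotent (Subgroup.zpowers g) := by
    letI : CommGroup (Subgroup.zpowers g) := IsCyclic.commGroup
    exact CommGroup.isNilpotent
  exact Cfsg.Agent.Lib.Components.le_fittingSubgroup_of_subnormal (isSubnormal_of_engel g h)
    hnil (Subgroup.mem_zpowers g)

end Cfsg.Agent.S3937
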