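import Cfsg.Statements.S3939
import Mathlib
import Cfsg.Agent.Lib.GS.Sylow
import Cfsg.Agent.Lib.Hall.Basic
import Cfsg.Agent.S3937

set_option autoImplicit false
open Cfsg

namespace Cfsg.Agent.S3939

open Cfsg.Agent.Lib.GS
open scoped commutatorElement

/-- A normal `p`-subgroup centralised by all elements of order prime to `p` is hypercentral. -/
theorem le_hypercenter {G : Type*} [Group G] [Finite G] {p : ℕ} [Fact p.Prime] (N : Subgroup G)
    [hN : N.Normal] (hp : IsPGroup p N)
    (hcomm : ∀ y : G, ∀ q b : ℕ, q.Prime → q ≠ p → orderOf y = q ^ b → ∀ u ∈ N, Commute u y) :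
    N ≤ ⨆ n : ℕ, Subgroup.upperCentralSeries G n := by
  obtain ⟨P⟩ : Nonempty (Sylow p G) := inferInstance
  have hNP : N ≤ (P : Subgroup G) := hp.le_sylow_of_normal P
  have key : ∀ (i : ℕ) (u : G) (hu : u ∈ N),
      (⟨u, hNP hu⟩ : (P : Subgroup G)) ∈ Subgroup.upperCentralSeries (P : Subgroup G) i →
      u ∈ Subgroup.upperCentralSeries G i := by
    intro i
    induction i with
    | zero =>
      intro u hu h
      rw [Subgroup.upperCentralSeries_zero, Subgroup.mem_bot] at h ⊢
      exact congrArg Subtype.val h
    | succ i ih =>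
      intro u hu h
      rw [Subgroup.mem_upperCentralSeries_succ_iff] at h ⊢
      set Z := Subgroup.upperCentralSeries G i with hZ
      let π := QuotientGroup.mk' Z
      suffices htop : (Subgroup.centralizer {π u}).comap π = ⊤ by
        intro y
        have hy : y ∈ (Subgroup.centralizer {π u}).comap π := htop ▸ Subgroup.mem_top y
        rw [Subgroup.mem_comap, Subgroup.mem_centralizer_singleton_iff] at hy
        rw [← QuotientGroup.eq_one_iff]
        change π ⁅u, y⁆ = 1
        rw [map_commutatorElement, commutatorElement_eq_one_iff_commute]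
        exact hy.symm
      refine eq_top_of_prime_power_elements fun y q b hq hy => ?_
      rw [Subgroup.mem_comap, Subgroup.mem_centralizer_singleton_iff]
      rcases eq_or_ne q p with rfl | hqp
      · -- move `y` into the Sylow subgroup, by conjugation
        obtain ⟨Q, hQ⟩ := (IsPGroup.of_card (G := Subgroup.zpowers y) (n := b)
          (by rw [Nat.card_zpowers, hy])).exists_le_sylow
        obtain ⟨c, hc⟩ := MulAction.exists_smul_eq G Q P
        have hyP : c * y * c⁻¹ ∈ (P : Subgroup G) := by
          rw [← hc, Sylow.coe_subgroup_smul]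
          exact Subgroup.smul_mem_pointwise_smul y (MulAut.conj c) _ (hQ (Subgroup.mem_zpowers y))
        suffices hmain : ∀ v ∈ Q.1, π v * π u = π u * π v from hmain y (hQ (Subgroup.mem_zpowers y))
        -- `P` centralises `u` modulo `Z`, and so does every conjugate
        have hP : ∀ v ∈ (P : Subgroup G), π v * π u = π u * π v := by
          intro v hv
          have h1 := h ⟨v, hv⟩
          have hmem : ⁅u, v⁆ ∈ N := by
            rw [commutatorElement_def, mul_assoc, mul_assoc, ← mul_assoc v u⁻¹ v⁻¹]
            exact N.mul_mem hu (hN.conj_mem _ (N.inv_mem hu) v)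
          have h2 : ⁅u, v⁆ ∈ Z := ih _ hmem (by
            convert h1 using 1
            exact Subtype.ext (by simp [commutatorElement_def]))
          have h3 : π ⁅u, v⁆ = 1 := (QuotientGroup.eq_one_iff _).mpr h2
          rw [map_commutatorElement, commutatorElement_eq_one_iff_commute] at h3
          exact h3.symm
        intro v hv
        -- the conjugating element is a product of a `p`-part and prime-to-`p` parts
        have hgen : ∀ d : G, d ∈ (P : Subgroup G) ⊔ Subgroup.closure
            {w : G | ∃ r j : ℕ, r.Prime ∧ r ≠ q ∧ orderOf w = r ^ j} := by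
          intro d
          have htop : (P : Subgroup G) ⊔ Subgroup.closure
              {w : G | ∃ r j : ℕ, r.Prime ∧ r ≠ q ∧ orderOf w = r ^ j} = ⊤ := by
            set W := (P : Subgroup G) ⊔ Subgroup.closure
              {w : G | ∃ r j : ℕ, r.Prime ∧ r ≠ q ∧ orderOf w = r ^ j}
            rw [← Subgroup.index_eq_one]
            by_contra hne
            obtain ⟨r, hr, hd⟩ := Nat.exists_prime_and_dvd hne
            haveI := Fact.mk hr
            rcases eq_or_ne r q with rfl | hrq
            · exact P.not_dvd_index (hd.trans (Subgroup.index_dvd_of_le le_sup_left))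
            obtain ⟨R⟩ : Nonempty (Sylow r G) := inferInstance
            refine R.not_dvd_index (hd.trans (Subgroup.index_dvd_of_le fun w hw => ?_))
            obtain ⟨j, hj⟩ := IsPGroup.iff_orderOf.mp R.2 ⟨w, hw⟩
            exact Subgroup.mem_sup_right (Subgroup.subset_closure
              ⟨r, j, hr, hrq, by rw [← hj, ← Subgroup.orderOf_coe]⟩)
          rw [htop]; exact Subgroup.mem_top d
        have hcen : (P : Subgroup G) ⊔ Subgroup.closure
            {w : G | ∃ r j : ℕ, r.Prime ∧ r ≠ q ∧ orderOf w = r ^ j} ≤
              (Subgroup.centralizer {π u}).comap π := by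
          refine sup_le (fun w hw => ?_) ((Subgroup.closure_le _).mpr ?_)
          · rw [Subgroup.mem_comap, Subgroup.mem_centralizer_singleton_iff]; exact hP w hw
          · rintro w ⟨r, j, hr, hrq, hw⟩
            rw [SetLike.mem_coe, Subgroup.mem_comap, Subgroup.mem_centralizer_singleton_iff,
              ← map_mul, ← map_mul, (hcomm w r j hr hrq hw u hu).eq]
        have := hcen (hgen v)
        rwa [Subgroup.mem_comap, Subgroup.mem_centralizer_singleton_iff] at this
      · rw [← map_mul, ← map_mul, (hcomm y q b hq hqp hy u hu).eq]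
  intro u hu
  haveI := P.2.isNilpotent
  refine Subgroup.mem_iSup_of_mem (Group.nilpotencyClass (P : Subgroup G)) (key _ u hu ?_)
  rw [Subgroup.upperCentralSeries_nilpotencyClass]
  exact Subgroup.mem_top _

/-- In a finite group G the set of elements g such that the subgroup generated by g and x is nilpotent for every x ∈ G is exactly the hypercenter of G (the last term of the upper central series). -/
theorem result {G : Type*} [Group G] [Finite G] (g : G) :
    (∀ x : G, Group.IsNilpotent ↥(Subgroup.closure ({x, g} : Set G))) ↔ g ∈ ⨆ n : ℕ, Subgroup.upperCentralSeries G n := by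
  classical
  constructor
  · intro h
    have hF : g ∈ Cfsg.fittingSubgroup G := by
      rw [Cfsg.Agent.S3937.result]
      intro x
      set H := Subgroup.closure ({x, g} : Set G) with hH
      haveI := h x
      have hg : g ∈ H := Subgroup.subset_closure (by simp)
      have hx : x ∈ H := Subgroup.subset_closure (by simp)
      obtain ⟨n, hn⟩ := Cfsg.Agent.S3937.engel_of_mem (G := H) (g := ⟨g, hg⟩) (by
        exact Cfsg.Agent.Lib.Hall.le_fittingSubgroup (N := (⊤ : Subgroup H))
          (Group.isNilpotent_top.mpr (h x)) (Subgroup.mem_top _)) ⟨x, hx⟩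
      refine ⟨n, ?_⟩
      have := Cfsg.Agent.S3937.foldl_map H.subtype ⟨g, hg⟩ n ⟨x, hx⟩
      rw [hn, map_one] at this
      exact this.symm
    -- treat one prime at a time
    suffices hz : Subgroup.zpowers g ≤ ⨆ n : ℕ, Subgroup.upperCentralSeries G n from
      hz (Subgroup.mem_zpowers g)
    refine le_of_prime_power_elements fun u hu p a hp hua => ?_
    haveI := Fact.mk hp
    obtain ⟨k, hk⟩ := Subgroup.mem_zpowers_iff.mp hu
    have huF : u ∈ Cfsg.fittingSubgroup G := hk ▸ Subgroup.zpow_mem _ hF k
    have hcomm : ∀ y : G, ∀ q b : ℕ, q.Prime → q ≠ p → orderOf y = q ^ b → Commute u y := by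
      intro y q b hq hqp hy
      have hg : g ∈ Subgroup.closure ({y, g} : Set G) := Subgroup.subset_closure (by simp)
      have := commute_of_nilpotent (h y) (x := ⟨u, hk ▸ Subgroup.zpow_mem _ hg k⟩)
        (y := ⟨y, Subgroup.subset_closure (by simp)⟩) hp hq hqp.symm
        (by rw [← Subgroup.orderOf_coe]; exact hua) (by rw [← Subgroup.orderOf_coe]; exact hy)
      exact congrArg Subtype.val this
    refine le_hypercenter (Subgroup.normalClosure {u}) (p := p) ?_ ?_
      (Subgroup.subset_normalClosure (Set.mem_singleton u))
    · haveI := Cfsg.Agent.Lib.Hall.fittingSubgroup_isNilpotent (G := G)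
      obtain ⟨P⟩ : Nonempty (Sylow p (Cfsg.fittingSubgroup G)) := inferInstance
      have hPn : (P : Subgroup (Cfsg.fittingSubgroup G)).Normal :=
        (Group.isNilpotent_of_finite_tfae (G := Cfsg.fittingSubgroup G)).out 0 3 rfl rfl |>.mp
          inferInstance p ‹_› P
      haveI := P.characteristic_of_normal hPn
      have hn : ((P : Subgroup (Cfsg.fittingSubgroup G)).map (Cfsg.fittingSubgroup G).subtype).Normal :=
        inferInstance
      refine (P.2.map (Cfsg.fittingSubgroup G).subtype).to_le (Subgroup.normalClosure_le_normal ?_)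
      rintro w hw
      rw [Set.mem_singleton_iff] at hw
      rw [hw]
      exact ⟨⟨u, huF⟩, mem_of_normal_sylow P hPn (b := a) (by rw [← Subgroup.orderOf_coe]; exact hua), rfl⟩
    · intro y q b hq hqp hy v hv
      induction hv using Subgroup.closure_induction with
      | mem w hw =>
        obtain ⟨u', hu', hw'⟩ := Group.mem_conjugatesOfSet_iff.mp hw
        rw [Set.mem_singleton_iff] at hu'
        rw [hu'] at hw'
        obtain ⟨c, rfl⟩ := isConj_iff.mp hw'
        have h1 := hcomm (c⁻¹ * y * c) q b hq hqp (by
          rw [show c⁻¹ * y * c = MulAut.conj c⁻¹ y by simp, MulEquiv.orderOf_eq, hy])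
        have h2 := h1.map (MulAut.conj c).toMonoidHom
        simp only [MulEquiv.coe_toMonoidHom, MulAut.conj_apply] at h2
        rwa [show c * (c⁻¹ * y * c) * c⁻¹ = y by group] at h2
      | one => exact Commute.one_left y
      | mul a b _ _ ha hb => exact ha.mul_left hb
      | inv a _ ha => exact ha.inv_left
  · intro hg x
    rw [Subgroup.mem_iSup_of_directed (Subgroup.upperCentralSeries_mono G).directed_le] at hg
    obtain ⟨n, hn⟩ := hg
    set H := Subgroup.closure ({x, g} : Set G) with hH
    have hsub : ∀ i, (Subgroup.upperCentralSeries G i).subgroupOf H ≤ Subgroup.upperCentralSeries H i :=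
      Subgroup.ascending_central_series_le_upper _ ⟨by
        change (Subgroup.upperCentralSeries G 0).subgroupOf H = ⊥
        rw [Subgroup.upperCentralSeries_zero, Subgroup.bot_subgroupOf], fun y i hy z => by
        rw [Subgroup.mem_subgroupOf] at hy ⊢
        exact Subgroup.mem_upperCentralSeries_succ_iff.mp hy z⟩
    refine ⟨n + 1, (Subgroup.eq_top_iff' _).mpr fun y => ?_⟩
    rw [Subgroup.mem_upperCentralSeries_succ_iff]
    intro z
    set Z := Subgroup.upperCentralSeries H n
    let π := QuotientGroup.mk' Z
    have hx : x ∈ H := Subgroup.subset_closure (by simp)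
    have hgH : g ∈ H := Subgroup.subset_closure (by simp)
    have hcyc : ∀ w : H, π w ∈ Subgroup.zpowers (π ⟨x, hx⟩) := by
      rintro ⟨w, hw⟩
      induction hw using Subgroup.closure_induction with
      | mem v hv =>
        rcases hv with rfl | hv
        · exact Subgroup.mem_zpowers _
        · rw [Set.mem_singleton_iff] at hv
          subst hv
          have h1 : π ⟨v, hgH⟩ = 1 :=
            (QuotientGroup.eq_one_iff _).mpr (hsub n (Subgroup.mem_subgroupOf.mpr hn))
          exact h1 ▸ Subgroup.one_mem _
      | one => exact map_one π ▸ Subgroup.one_mem _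
      | mul a b ha hb iha ihb => exact map_mul π ⟨a, ha⟩ ⟨b, hb⟩ ▸ Subgroup.mul_mem _ iha ihb
      | inv a ha iha => exact map_inv π ⟨a, ha⟩ ▸ Subgroup.inv_mem _ iha
    rw [← QuotientGroup.eq_one_iff]
    change π ⁅y, z⁆ = 1
    rw [map_commutatorElement, commutatorElement_eq_one_iff_commute]
    obtain ⟨i, hi⟩ := Subgroup.mem_zpowers_iff.mp (hcyc y)
    obtain ⟨j, hj⟩ := Subgroup.mem_zpowers_iff.mp (hcyc z)
    rw [← hi, ← hj]
    exact Commute.zpow_zpow_self _ i j

end Cfsg.Agent.S3939
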