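import Cfsg.Statements.S3941
import Mathlib

set_option autoImplicit false
open Cfsg

namespace Cfsg.Agent.S3941

theorem small_case : ∃ a b : alternatingGroup (Fin 4), a ^ 3 = 1 ∧ b ^ 3 = 1 ∧ (a * b) ^ 2 = 1 ∧ a * b ≠ 1 := by
  refine ⟨⟨Equiv.swap 0 1 * Equiv.swap 1 2, by rw [Equiv.Perm.mem_alternatingGroup]; decide⟩,
    ⟨Equiv.swap 0 1 * Equiv.swap 1 3, by rw [Equiv.Perm.mem_alternatingGroup]; decide⟩, ?_, ?_, ?_, ?_⟩ <;>
    decide


/-- Let n ≥ 5 and p an odd prime with p ≤ n, and suppose that every proper subgroup of the alternating group of degree n whose order is divisible by p has a normal Sylow p-subgroup. Then n = p. -/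
theorem result (n p : ℕ) (hn : 5 ≤ n) [Fact p.Prime] (hp : p ≠ 2) (hpn : p ≤ n)
    (h : ∀ H : Subgroup ↥(alternatingGroup (Fin n)), H ≠ ⊤ → p ∣ Nat.card ↥H → Cfsg.IsPClosed p ↥H) : n = p := by
  classical
  by_contra hne
  have hp' : p.Prime := Fact.out
  have hp3 : 3 ≤ p := by have := hp'.two_le; omega
  obtain ⟨m, rfl⟩ : ∃ m, n = m + 1 := ⟨n - 1, by omega⟩
  have hpm : p ≤ m := by omega
  let ι : Fin m ↪ Fin (m + 1) := Fin.castSuccEmb
  let f : alternatingGroup (Fin m) →* alternatingGroup (Fin (m + 1)) :=
    ((Equiv.Perm.viaEmbeddingHom ι).comp (alternatingGroup (Fin m)).subtype).codRestrict _ fun x => by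
      show Equiv.Perm.sign (Equiv.Perm.viaEmbedding (x : Equiv.Perm (Fin m)) ι) = 1
      rw [Equiv.Perm.viaEmbedding, Equiv.Perm.sign_extendDomain]
      exact x.2
  have hf : Function.Injective f := fun a b e =>
    Subtype.ext (Equiv.Perm.viaEmbeddingHom_injective ι (congrArg Subtype.val e))
  have : Nontrivial (Fin m) := Fin.nontrivial_iff_two_le.2 (by omega)
  have : Nontrivial (Fin (m + 1)) := Fin.nontrivial_iff_two_le.2 (by omega)
  have hc : 2 * Nat.card (alternatingGroup (Fin m)) = m.factorial := by
    rw [two_mul_nat_card_alternatingGroup, Nat.card_perm, Nat.card_fin]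
  have hne' : f.range ≠ ⊤ := by
    intro e
    have hc' : 2 * Nat.card (alternatingGroup (Fin (m + 1))) = (m + 1).factorial := by
      rw [two_mul_nat_card_alternatingGroup, Nat.card_perm, Nat.card_fin]
    have h1 : Nat.card (alternatingGroup (Fin m)) = Nat.card (alternatingGroup (Fin (m + 1))) := by
      rw [Nat.card_congr (MonoidHom.ofInjective hf).toEquiv, e, Subgroup.card_top]
    rw [← h1, hc, Nat.factorial_succ] at hc'
    nlinarith [Nat.factorial_pos m]
  have hdvd : p ∣ Nat.card (alternatingGroup (Fin m)) := by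
    have := Nat.dvd_factorial hp'.pos hpm
    rw [← hc] at this
    exact ((Nat.Coprime.dvd_mul_left ((Nat.coprime_primes hp' Nat.prime_two).2 hp)).1 this)
  have hcl := h f.range hne' (by rw [← Nat.card_congr (MonoidHom.ofInjective hf).toEquiv]; exact hdvd)
  -- transfer to the smaller group
  have hclosed : ∀ P : Sylow p (alternatingGroup (Fin m)), (P : Subgroup (alternatingGroup (Fin m))).Normal := by
    intro P
    let e := MonoidHom.ofInjective hf
    let e' : alternatingGroup (Fin m) →* f.range := e.toMonoidHom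
    have hn := hcl (P.mapSurjective (f := e') e.surjective)
    replace hn : ((P : Subgroup (alternatingGroup (Fin m))).map e').Normal := hn
    have := hn.comap e'
    rwa [Subgroup.comap_map_eq_self_of_injective (f := e') e.injective] at this
  obtain ⟨P⟩ : Nonempty (Sylow p (alternatingGroup (Fin m))) := inferInstance
  have := hclosed P
  rcases Nat.lt_or_ge m 5 with hm | hm
  · obtain rfl : m = 4 := by omega
    obtain rfl : p = 3 := by
      interval_cases p
      · rfl
      · exact absurd hp' (by decide)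
    obtain ⟨a, b, ha, hb, hab2, hab⟩ := small_case
    have hmem : ∀ x : alternatingGroup (Fin 4), x ^ 3 = 1 → x ∈ (P : Subgroup (alternatingGroup (Fin 4))) := by
      intro x hx
      have hz : IsPGroup 3 (Subgroup.zpowers x) := fun y => ⟨1, by
        obtain ⟨j, hj⟩ := Subgroup.mem_zpowers_iff.1 y.2
        apply Subtype.ext
        rw [SubmonoidClass.coe_pow, pow_one, ← hj, ← zpow_natCast, ← zpow_mul, mul_comm, zpow_mul,
          zpow_natCast, hx, one_zpow, Subgroup.coe_one]⟩
      obtain ⟨Q, hQ⟩ := hz.exists_le_sylow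
      have : Subsingleton (Sylow 3 (alternatingGroup (Fin 4))) :=
        (Sylow.unique_of_normal P inferInstance).instSubsingleton
      rw [Subsingleton.elim P Q]
      exact hQ (Subgroup.mem_zpowers x)
    obtain ⟨k, hk⟩ := P.isPGroup' ⟨a * b, mul_mem (hmem a ha) (hmem b hb)⟩
    replace hk := congrArg Subtype.val hk
    simp only [SubmonoidClass.coe_pow, OneMemClass.coe_one] at hk
    apply hab
    have h1 := orderOf_dvd_of_pow_eq_one hab2
    have h2 := orderOf_dvd_of_pow_eq_one hk
    exact orderOf_eq_one_iff.1 (Nat.eq_one_of_dvd_coprimes ((by norm_num : Nat.Coprime 2 3).pow_right k) h1 h2)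
  · have : IsSimpleGroup (alternatingGroup (Fin m)) :=
      alternatingGroup.isSimpleGroup (by rw [Nat.card_fin]; omega)
    rcases Subgroup.Normal.eq_bot_or_eq_top (hclosed P) with e | e
    · exact P.ne_bot_of_dvd_card hdvd e
    · have h2 : 2 ∣ Nat.card (alternatingGroup (Fin m)) := by
        have : 4 ∣ m.factorial := Nat.dvd_factorial (by norm_num) (by omega)
        omega
      have hP := P.isPGroup'
      rw [e] at hP
      obtain ⟨k, hk⟩ := IsPGroup.iff_card.1 hP
      rw [Subgroup.card_top] at hk
      rw [hk] at h2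
      exact hp ((Nat.prime_dvd_prime_iff_eq Nat.prime_two hp').1 (Nat.prime_two.dvd_of_dvd_pow h2)).symm

end Cfsg.Agent.S3941
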