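import Cfsg.Statements.S3946
import Cfsg.Agent.Lib.FPF.Hughes

set_option autoImplicit false
open Cfsg

namespace Cfsg.Agent.S3946

theorem inl_mul_inr_pow {G : Type*} [Group G] (α : MulAut G) (g : G) (k : ℕ) :
    (SemidirectProduct.inl g * SemidirectProduct.inr ⟨α, Subgroup.mem_zpowers α⟩ :
        G ⋊[(Subgroup.zpowers α).subtype] Subgroup.zpowers α) ^ k =
      SemidirectProduct.inl (((List.range k).map (fun i : ℕ => (α ^ i) g)).prod) *
        SemidirectProduct.inr (⟨α, Subgroup.mem_zpowers α⟩ ^ k) := by
  induction k with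
  | zero => simp
  | succ k ih =>
    rw [pow_succ, ih, List.range_succ, List.map_append, List.prod_append]
    simp [SemidirectProduct.ext_iff, pow_succ]


/-- Call an automorphism α of order n of a group G splitting when x · α(x) · α²(x) ⋯ α^(n−1)(x) = 1 for every x ∈ G. A finite group admitting a splitting automorphism of prime order is nilpotent (this contains the case of a fixed-point-free automorphism of prime order). -/
theorem result {G : Type*} [Group G] [Finite G] (α : MulAut G) (hp : (orderOf α).Prime)
    (hsplit : ∀ x : G, (((List.range (orderOf α)).map (fun i : ℕ => (α ^ i) x)).prod = 1)) : Group.IsNilpotent G := by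
  set p := orderOf α with hpdef
  haveI := Fact.mk hp
  set C := Subgroup.zpowers α
  have hC : Nat.card C = p := Nat.card_zpowers α
  haveI : Finite C := Nat.finite_of_card_ne_zero (hC ▸ hp.ne_zero)
  set E := G ⋊[C.subtype] C
  haveI : Finite E := Finite.of_equiv _ SemidirectProduct.equivProd.symm
  set π : E →* C := SemidirectProduct.rightHom
  have hH : π.ker ≠ ⊤ := by
    intro h
    have : (SemidirectProduct.inr ⟨α, Subgroup.mem_zpowers α⟩ : E) ∈ π.ker := h ▸ Subgroup.mem_top _
    rw [MonoidHom.mem_ker, SemidirectProduct.rightHom_inr] at this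
    exact hp.ne_one (orderOf_eq_one_iff.2 (congrArg Subtype.val this :))
  have hout : ∀ e : E, e ∉ π.ker → e ^ p = 1 := by
    intro y hy
    have hπy : π y ≠ 1 := hy
    have hgen : ⟨α, Subgroup.mem_zpowers α⟩ ∈ Submonoid.powers (π y) :=
      mem_powers_of_prime_card hC hπy
    obtain ⟨k, hk⟩ := hgen
    have key : ∀ m : ℕ, π (y ^ m) = ⟨α, Subgroup.mem_zpowers α⟩ → (y ^ m) ^ p = 1 := by
      intro m hm
      obtain ⟨g, hg⟩ : ∃ g, y ^ m = SemidirectProduct.inl g * SemidirectProduct.inr ⟨α, Subgroup.mem_zpowers α⟩ :=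
        ⟨(y ^ m).left, by
          conv_lhs => rw [← SemidirectProduct.inl_left_mul_inr_right (y ^ m)]
          rw [show (y ^ m).right = ⟨α, Subgroup.mem_zpowers α⟩ from hm]⟩
      rw [hg, inl_mul_inr_pow, hsplit g,
        show (⟨α, Subgroup.mem_zpowers α⟩ : C) ^ p = 1 from Subtype.ext (pow_orderOf_eq_one α)]
      simp
    have h1 := key k (by rw [map_pow]; exact hk)
    have hπp : π y ^ p = 1 := orderOf_dvd_iff_pow_eq_one.1 (hC ▸ orderOf_dvd_natCard _)
    have h2 := key (k + p) (by rw [map_pow, pow_add, hπp, mul_one]; exact hk)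
    rw [pow_add, (Commute.pow_pow_self y k p).mul_pow, h1, one_mul] at h2
    rw [← pow_mul, mul_comm, pow_mul] at h1
    have hcop : Nat.Coprime k p := by
      refine ((hp.coprime_iff_not_dvd).2 fun hd => ?_).symm
      obtain ⟨c, rfl⟩ := hd
      refine hp.ne_one (orderOf_eq_one_iff.2 ?_)
      have := congrArg Subtype.val hk
      simp only [pow_mul, hπp, one_pow] at this
      exact this.symm
    have := Nat.dvd_gcd (orderOf_dvd_of_pow_eq_one h1) (orderOf_dvd_of_pow_eq_one h2)
    rw [hcop] at this
    exact orderOf_eq_one_iff.1 (Nat.dvd_one.1 this)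
  have hnil := Cfsg.Agent.Lib.FPF.hughes_nilpotent π.ker hH hout
  let f : G →* π.ker := (SemidirectProduct.inl : G →* E).codRestrict _ fun g => by
    simp [π]
  have hf : Function.Injective f := fun a b h =>
    SemidirectProduct.inl_injective (congrArg Subtype.val h)
  exact Group.nilpotent_of_mulEquiv (MonoidHom.ofInjective hf).symm

end Cfsg.Agent.S3946
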