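import Cfsg.Statements.S3949
import Mathlib
import Cfsg.Agent.Lib.GS.Sylow

set_option autoImplicit false
open Cfsg

namespace Cfsg.Agent.S3949


/-- Let G be a finite group and α an automorphism of G of order 2 such that the elements g·α(g)⁻¹ generate G. Let j be a positive integer such that 2^j divides the order of no element inverted by α. Then the set of values of the j-th iterate of the map c ↦ c·α(c)⁻¹ is exactly the set of elements of odd order inverted by α. -/
theorem result {G : Type*} [Group G] [Finite G] (α : MulAut G) (hα : orderOf α = 2) (hG : Subgroup.closure (Set.range (fun c : G => c * (α c)⁻¹)) = ⊤)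
    (j : ℕ) (hj : ∀ g : G, α g = g⁻¹ → ¬ 2 ^ j ∣ orderOf g) :
    Set.range ((fun c : G => c * (α c)⁻¹)^[j]) = {g : G | Odd (orderOf g) ∧ α g = g⁻¹} := by
  set f : G → G := fun c => c * (α c)⁻¹ with hf
  have h2 : ∀ x, α (α x) = x := fun x => by
    have := pow_orderOf_eq_one α
    rw [hα, sq] at this
    exact DFunLike.congr_fun this x
  have hinv : ∀ c, α (f c) = (f c)⁻¹ := fun c => by simp [hf, h2]
  have hff : ∀ y : G, α y = y⁻¹ → f y = y ^ 2 := fun y hy => by simp [hf, hy, sq]
  have hpow : ∀ (i : ℕ) (c : G), f^[i + 1] c = (f c) ^ (2 ^ i) := by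
    intro i c
    induction i with
    | zero => simp
    | succ i ih =>
      rw [Function.iterate_succ_apply', ih, hff _ (by rw [map_pow, hinv, inv_pow]), ← pow_mul,
        ← pow_succ]
  rcases j with _ | i
  · exact absurd (hj 1 (by simp)) (by simp)
  ext x
  constructor
  · rintro ⟨c, rfl⟩
    rw [hpow]
    refine ⟨?_, by rw [map_pow, hinv, inv_pow]⟩
    rw [orderOf_pow]
    obtain ⟨s, o, ho, hso⟩ := Nat.exists_eq_two_pow_mul_odd (orderOf_pos (f c)).ne'
    have hs : s ≤ i := by
      by_contra hlt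
      refine hj (f c) (hinv c) (hso ▸ Dvd.dvd.mul_right (pow_dvd_pow 2 (by omega)) o)
    rw [hso]
    have hg : Nat.gcd (2 ^ s * o) (2 ^ i) = 2 ^ s := by
      rw [show 2 ^ i = 2 ^ s * 2 ^ (i - s) by rw [← pow_add]; congr 1; omega, Nat.gcd_mul_left,
        (Nat.Coprime.pow_right _ (Nat.coprime_two_right.mpr ho)).gcd_eq_one, mul_one]
    rw [hg, Nat.mul_div_cancel_left o (by positivity)]
    exact ho
  · rintro ⟨hodd, hx⟩
    obtain ⟨m, hm⟩ := exists_pow_eq_self_of_coprime (n := 2 ^ (i + 1)) (x := x)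
      (Nat.Coprime.pow_left _ (Nat.coprime_two_left.mpr hodd))
    refine ⟨x ^ m, ?_⟩
    rw [hpow, hff _ (by rw [map_pow, hx, inv_pow]), ← pow_mul, ← pow_mul]
    calc x ^ (m * (2 * 2 ^ i)) = (x ^ (2 ^ (i + 1))) ^ m := by
          rw [← pow_mul]; ring_nf
      _ = x := hm

end Cfsg.Agent.S3949
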