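import Cfsg.Statements.S3982
import Cfsg.Agent.Lib.Coprime.Action
import Cfsg.Agent.Lib.GS.Basic

set_option autoImplicit false
open Cfsg

namespace Cfsg.Agent.S3982

open scoped Pointwise

theorem odd_card_pgroup {G : Type*} [Group G] [Finite G] {p : ℕ} [hp : Fact p.Prime] (hp2 : p ≠ 2)
    {R : Subgroup G} (hR : IsPGroup p R) : Odd (Nat.card R) := by
  obtain ⟨n, hn⟩ := IsPGroup.iff_card.mp hR
  rw [hn]
  exact (hp.out.odd_of_ne_two hp2).pow

/-- Let p be an odd prime and G a finite group of even order divisible by p in which the centralizer of every non-identity p-element has odd order. If some nontrivial p-subgroup of G has a normalizer of even order, then the normalizer of every Sylow p-subgroup of G has even order. -/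
theorem result {G : Type*} [Group G] [Finite G] (p : ℕ) [Fact p.Prime] (hp2 : p ≠ 2) (hpG : p ∣ Nat.card G) (h2G : 2 ∣ Nat.card G) (hC : ∀ g : G, g ≠ 1 → (∃ k : ℕ, orderOf g = p ^ k) → Odd (Nat.card ↥(Subgroup.centralizer ({g} : Set G)))) (Q : Subgroup G) (hQ : IsPGroup p ↥Q) (hQ1 : Q ≠ ⊥) (hev : Even (Nat.card ↥(Subgroup.normalizer (Q : Set G)))) (P : Sylow p G) : Even (Nat.card ↥(Subgroup.normalizer ((P : Subgroup G) : Set G))) := by
  have hp : p.Prime := Fact.out
  haveI : Fact (Nat.Prime 2) := ⟨Nat.prime_two⟩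
  obtain ⟨⟨y, hyQ⟩, hy⟩ := exists_prime_orderOf_dvd_card'
    (G := Subgroup.normalizer (Q : Set G)) 2 hev.two_dvd
  rw [Subgroup.orderOf_mk] at hy
  obtain ⟨R, hQR, hR⟩ := Finite.exists_le_maximal
    (p := fun R : Subgroup G => IsPGroup p R ∧ y ∈ Subgroup.normalizer (R : Set G))
    (a := Q) ⟨hQ, hyQ⟩
  obtain ⟨hRp, hyR⟩ := hR.prop
  have hy2 : y * y = 1 := by rw [← pow_two, ← hy]; exact pow_orderOf_eq_one y
  -- `y` centralises no nontrivial element of `R`
  have hfpf : ∀ r ∈ R, y * r * y⁻¹ = r → r = 1 := by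
    intro r hr hyr
    by_contra hr1
    obtain ⟨k, hk⟩ := IsPGroup.iff_orderOf.mp hRp ⟨r, hr⟩
    rw [Subgroup.orderOf_mk] at hk
    have hyc : y ∈ Subgroup.centralizer ({r} : Set G) :=
      Subgroup.mem_centralizer_singleton_iff.mpr (mul_inv_eq_iff_eq_mul.mp hyr)
    have h2 := Cfsg.Agent.Lib.GS.orderOf_dvd_card_of_mem hyc
    rw [hy] at h2
    exact (Nat.not_even_iff_odd.mpr (hC r hr1 ⟨k, hk⟩)) (even_iff_two_dvd.mpr h2)
  let φ : R →* R :=
    { toFun := fun r => ⟨y * r * y⁻¹, (Subgroup.mem_normalizer_iff.mp hyR r).mp r.2⟩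
      map_one' := Subtype.ext (by simp)
      map_mul' := fun a b => Subtype.ext (by simp [mul_assoc]) }
  have hinv : ∀ r ∈ R, y * r * y⁻¹ = r⁻¹ := by
    intro r hr
    have h1 : MonoidHom.FixedPointFree φ := fun a ha =>
      Subtype.ext (hfpf a a.2 (congrArg Subtype.val ha))
    have h2 : Function.Involutive φ := fun a => Subtype.ext (by
      show y * (y * (a : G) * y⁻¹) * y⁻¹ = a
      rw [inv_eq_of_mul_eq_one_right hy2,
        show y * (y * (a : G) * y) * y = (y * y) * a * (y * y) by group, hy2]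
      simp)
    exact congrArg Subtype.val (congrFun (h1.coe_eq_inv_of_involutive h2) ⟨r, hr⟩)
  -- `R` is a Sylow subgroup
  obtain ⟨P1, hP1⟩ := hRp.exists_le_sylow
  have hRP : R = (P1 : Subgroup G) := by
    by_contra hne
    haveI : Group.IsNilpotent (P1 : Subgroup G) := P1.2.isNilpotent
    set P0 := (P1 : Subgroup G) ⊓ Subgroup.normalizer (R : Set G)
    have hlt : R < P0 := by
      refine lt_of_le_of_ne (le_inf hP1 Subgroup.le_normalizer) fun h => ?_
      have h1 : R.subgroupOf (P1 : Subgroup G) < ⊤ := lt_top_iff_ne_top.mpr fun h' => hne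
        (le_antisymm hP1 (Subgroup.subgroupOf_eq_top.mp h'))
      obtain ⟨u, hu, huR⟩ := SetLike.exists_of_lt (Group.normalizerCondition_of_isNilpotent _ h1)
      refine huR ?_
      show (u : G) ∈ R
      rw [h]
      refine Subgroup.mem_inf.mpr ⟨u.2, Cfsg.Agent.Lib.GS.mem_normalizer_of_forall fun q hq => ?_⟩
      exact (Subgroup.mem_normalizer_iff.mp hu ⟨q, hP1 hq⟩).mp hq
    set C := Subgroup.centralizer (R : Set G)
    have hNC : ∀ x ∈ Subgroup.normalizer (R : Set G), ∀ c ∈ C, x * c * x⁻¹ ∈ C := by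
      intro x hx c hc
      rw [Subgroup.mem_centralizer_iff]
      intro r hr
      have h1 := Subgroup.mem_centralizer_iff.mp hc (x⁻¹ * r * x)
        ((Subgroup.mem_normalizer_iff''.mp hx r).mp hr)
      have h2 := congrArg (fun t => x * t * x⁻¹) h1
      simpa [mul_assoc] using h2
    have hP0C : P0 ≤ Subgroup.normalizer (C : Set G) := fun x hx =>
      Cfsg.Agent.Lib.GS.mem_normalizer_of_forall (hNC x hx.2)
    set H := P0 ⊔ C
    have hRbot : R ≠ ⊥ := fun h => hQ1 (le_bot_iff.mp (h ▸ hQR))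
    obtain ⟨⟨r0, hr0⟩, hr01⟩ : ∃ r : R, r ≠ 1 := by
      haveI := (Subgroup.nontrivial_iff_ne_bot R).mpr hRbot
      exact exists_ne 1
    obtain ⟨k0, hk0⟩ := IsPGroup.iff_orderOf.mp hRp ⟨r0, hr0⟩
    rw [Subgroup.orderOf_mk] at hk0
    have hCodd : Odd (Nat.card C) :=
      (hC r0 (fun h => hr01 (Subtype.ext h)) ⟨k0, hk0⟩).of_dvd_nat
        (Subgroup.card_dvd_of_le (Subgroup.centralizer_le (Set.singleton_subset_iff.mpr hr0)))
    have hHodd : Odd (Nat.card H) := by
      have := Cfsg.Agent.Lib.Coprime.card_sup_mul_card_inf_of_le_normalizer hP0C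
      exact ((odd_card_pgroup hp2 (P1.2.to_le inf_le_left)).mul hCodd).of_dvd_nat (Dvd.intro _ this)
    have hyH : y ∈ Subgroup.normalizer (H : Set G) := by
      refine Cfsg.Agent.Lib.GS.mem_normalizer_of_forall fun z hz => ?_
      have hle : H ≤ H.comap (MulAut.conj y).toMonoidHom := by
        refine sup_le (fun x hx => ?_) (fun c hc => Subgroup.mem_sup_right (hNC y hyR c hc))
        show y * x * y⁻¹ ∈ H
        have hxR : x ∈ Subgroup.normalizer (R : Set G) := hx.2
        have hc : y * x * y⁻¹ * x⁻¹ ∈ C := by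
          rw [Subgroup.mem_centralizer_iff]
          intro r hr
          have hr' : x⁻¹ * r * x ∈ R := (Subgroup.mem_normalizer_iff''.mp hxR r).mp hr
          have e1 := hinv r hr
          have e2 := hinv _ hr'
          have hyy : y⁻¹ = y := inv_eq_of_mul_eq_one_right hy2
          rw [hyy] at e1 e2 ⊢
          have e3 : y * x * y * x⁻¹ * r * (y * x * y * x⁻¹)⁻¹ = r := by
            calc y * x * y * x⁻¹ * r * (y * x * y * x⁻¹)⁻¹
                = y * x * (y * (x⁻¹ * r * x) * y) * x⁻¹ * y := by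
                  rw [show (y * x * y * x⁻¹)⁻¹ = x * y * x⁻¹ * y by
                    simp only [_root_.mul_inv_rev, inv_inv, hyy, mul_assoc]]
                  group
              _ = y * r⁻¹ * y := by rw [e2]; group
              _ = (y * r * y)⁻¹ := by simp only [_root_.mul_inv_rev, hyy, mul_assoc]
              _ = r := by rw [e1, inv_inv]
          exact (mul_inv_eq_iff_eq_mul.mp e3).symm
        have := H.mul_mem (Subgroup.mem_sup_right hc : _ ∈ H) (Subgroup.mem_sup_left hx)
        rwa [inv_mul_cancel_right] at this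
      exact hle hz
    have hA : IsCyclic (Subgroup.zpowers y) := inferInstance
    obtain ⟨S, hRS, hyS⟩ := Cfsg.Agent.Lib.Coprime.exists_invariant_sylow_ge
      (A := Subgroup.zpowers y) (K := H) (p := p) (Subgroup.zpowers_le.mpr hyH)
      (by rw [Nat.card_zpowers, hy]; exact Nat.coprime_two_left.mpr hHodd)
      (Or.inl (Group.isSolvable_of_comm fun a b => IsCyclic.commGroup.mul_comm a b))
      (hlt.le.trans le_sup_left) hRp (Subgroup.zpowers_le.mpr hyR)
    have hSR : (S : Subgroup H).map H.subtype ≤ R :=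
      hR.le_of_ge ⟨S.2.map _, Subgroup.zpowers_le.mp hyS⟩ hRS
    have h0p : IsPGroup p (P0.subgroupOf H) := (P1.2.to_le inf_le_left).comap_subtype
    obtain ⟨S', hS'⟩ := h0p.exists_le_sylow
    have hcard : Nat.card P0 ≤ Nat.card R := by
      calc Nat.card P0 = Nat.card (P0.subgroupOf H) :=
            (Nat.card_congr (Subgroup.subgroupOfEquivOfLe le_sup_left).toEquiv).symm
        _ ≤ Nat.card S' := Subgroup.card_le_of_le hS'
        _ = Nat.card S := by rw [Sylow.card_eq_multiplicity, Sylow.card_eq_multiplicity]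
        _ = Nat.card ((S : Subgroup H).map H.subtype) :=
            (Nat.card_congr (Subgroup.equivMapOfInjective _ _ H.subtype_injective).toEquiv)
        _ ≤ Nat.card R := Subgroup.card_le_of_le hSR
    exact hlt.ne (Subgroup.eq_of_le_of_card_ge hlt.le hcard)
  obtain ⟨g, hg⟩ := MulAction.exists_smul_eq G P1 P
  have hmem : g * y * g⁻¹ ∈ Subgroup.normalizer ((P : Subgroup G) : Set G) := by
    refine Sylow.smul_eq_iff_mem_normalizer.mp ?_
    have hyP : y • P1 = P1 := Sylow.smul_eq_iff_mem_normalizer.mpr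
      (show y ∈ Subgroup.normalizer ((P1 : Subgroup G) : Set G) by rw [← hRP]; exact hyR)
    rw [← hg, smul_smul, inv_mul_cancel_right, ← smul_smul, hyP]
  have h2 : (2 : ℕ) ∣ Nat.card (Subgroup.normalizer ((P : Subgroup G) : Set G)) := by
    rw [← hy, ← MulEquiv.orderOf_eq (MulAut.conj g) y]
    exact Cfsg.Agent.Lib.GS.orderOf_dvd_card_of_mem hmem
  exact even_iff_two_dvd.mpr h2

end Cfsg.Agent.S3982
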