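import Cfsg.Statements.S3983
import Cfsg.Agent.Lib.GS.Basic

set_option autoImplicit false
open scoped Pointwise
open Cfsg

namespace Cfsg.Agent.S3983

open scoped Pointwise

theorem ti_conj {G : Type*} [Group G] {p : ℕ} [Fact p.Prime] [Finite G] (P : Sylow p G)
    (hTI : ∀ g : G, g ∉ Subgroup.normalizer ((P : Subgroup G) : Set G) →
      (P : Subgroup G) ⊓ (MulAut.conj g • (P : Subgroup G)) = ⊥)
    (P' : Sylow p G) (g : G) (hg : g ∉ Subgroup.normalizer ((P' : Subgroup G) : Set G)) :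
    (P' : Subgroup G) ⊓ (MulAut.conj g • (P' : Subgroup G)) = ⊥ := by
  obtain ⟨k, rfl⟩ := MulAction.exists_smul_eq G P P'
  show MulAut.conj k • (P : Subgroup G) ⊓ MulAut.conj g • MulAut.conj k • (P : Subgroup G) = ⊥
  by_cases hn : k⁻¹ * g * k ∈ Subgroup.normalizer ((P : Subgroup G) : Set G)
  · exfalso
    refine hg (Sylow.smul_eq_iff_mem_normalizer.mp ?_)
    rw [smul_smul]
    have h := Sylow.smul_eq_iff_mem_normalizer.mpr hn
    calc (g * k) • P = k • ((k⁻¹ * g * k) • P) := by rw [smul_smul]; congr 1; group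
      _ = k • P := by rw [h]
  · have h := congrArg (MulAut.conj k • ·) (hTI _ hn)
    simp only [Subgroup.smul_inf, Subgroup.smul_bot, smul_smul, ← map_mul] at h
    rwa [show k * (k⁻¹ * g * k) = g * k by group, map_mul, ← smul_smul] at h

/-- Let P be a Sylow p-subgroup of the finite group G that meets each conjugate g P g⁻¹ with g outside N_G(P) trivially, and let U be a subgroup of G of order divisible by p. Then a Sylow p-subgroup Q of U has the same property inside U: Q meets each conjugate u Q u⁻¹ with u ∈ U outside N_U(Q) trivially. -/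
theorem result {G : Type*} [Group G] [Finite G] (p : ℕ) [Fact p.Prime] (P : Sylow p G) (hTI : ∀ g : G, g ∉ Subgroup.normalizer ((P : Subgroup G) : Set G) → (P : Subgroup G) ⊓ (MulAut.conj g • (P : Subgroup G)) = ⊥) (U : Subgroup G) (hU : p ∣ Nat.card ↥U) (Q : Sylow p ↥U) : ∀ u : ↥U, u ∉ Subgroup.normalizer ((Q : Subgroup ↥U) : Set ↥U) → (Q : Subgroup ↥U) ⊓ (MulAut.conj u • (Q : Subgroup ↥U)) = ⊥ := by
  intro u hu
  obtain ⟨P', hP'⟩ := (Q.2.map U.subtype).exists_le_sylow
  rw [Subgroup.eq_bot_iff_forall]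
  intro z hz12
  obtain ⟨hz1, hz2⟩ := Subgroup.mem_inf.mp hz12
  by_contra hz
  have hsub : MulAut.conj (u : G) • (Q : Subgroup ↥U).map U.subtype ≤
      MulAut.conj (u : G) • (P' : Subgroup G) := Subgroup.pointwise_smul_le_pointwise_smul_iff.mpr hP'
  have hz2' : (z : G) ∈ MulAut.conj (u : G) • (P' : Subgroup G) := by
    refine hsub ?_
    rw [Subgroup.mem_pointwise_smul_iff_inv_smul_mem]
    rw [Subgroup.mem_pointwise_smul_iff_inv_smul_mem] at hz2
    exact ⟨_, hz2, rfl⟩
  have hn : (u : G) ∈ Subgroup.normalizer ((P' : Subgroup G) : Set G) := by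
    by_contra hn
    have : (z : G) ∈ (⊥ : Subgroup G) :=
      ti_conj P hTI P' _ hn ▸ Subgroup.mem_inf.mpr ⟨hP' ⟨z, hz1, rfl⟩, hz2'⟩
    exact hz (Subtype.ext (Subgroup.mem_bot.mp this))
  apply hu
  have hQ : (P' : Subgroup G).subgroupOf U = (Q : Subgroup ↥U) :=
    Q.3 (P'.2.comap_subtype) (fun w hw => hP' ⟨w, hw, rfl⟩)
  rw [← hQ, Subgroup.mem_normalizer_iff]
  intro w
  rw [Subgroup.mem_subgroupOf, Subgroup.mem_subgroupOf]
  exact Subgroup.mem_normalizer_iff.mp hn w

end Cfsg.Agent.S3983
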