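import Cfsg.Statements.S3984
import Cfsg.Agent.Lib.GS.Basic

set_option autoImplicit false
open scoped Pointwise
open Cfsg

namespace Cfsg.Agent.S3984

open scoped Pointwise

theorem ti_conj {G : Type*} [Group G] {p : ℕ} [Fact p.Prime] [Finite G] (P : Sylow p G)
    (hTI : ∀ g : G, g ∉ Subgroup.normalizer ((P : Subgroup G) : Set G) →
      (P : Subgroup G) ⊓ (MulAut.conj g • (P : Subgroup G)) = ⊥)
    (P' : Sylow p G) (g : G) (hg : g ∉ Subgroup.normalizer ((P' : Subgroup G) : Set G)) :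
    (P' : Subgroup G) ⊓ (MulAut.conj g • (P' : Subgroup G)) = ⊥ := by
  obtain ⟨k, rfl⟩ := MulAction.exists_smul_eq G P P'
  show MulAut.conj k • (P : Subgroup G) ⊓ MulAut.conj g • MulAut.conj k • (P : Subgroup G) = ⊥
  by_cases hn : k⁻¹ * g * k ∈ Subgroup.normalizer ((P : Subgroup G) : Set G)
  · exfalso
    refine hg (Sylow.smul_eq_iff_mem_normalizer.mp ?_)
    rw [smul_smul]
    have h := Sylow.smul_eq_iff_mem_normalizer.mpr hn
    calc (g * k) • P = k • ((k⁻¹ * g * k) • P) := by rw [smul_smul]; congr 1; group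
      _ = k • P := by rw [h]
  · have h := congrArg (MulAut.conj k • ·) (hTI _ hn)
    simp only [Subgroup.smul_inf, Subgroup.smul_bot, smul_smul, ← map_mul] at h
    rwa [show k * (k⁻¹ * g * k) = g * k by group, map_mul, ← smul_smul] at h

/-- Let P be a Sylow p-subgroup of the finite group G that meets each conjugate g P g⁻¹ with g outside N_G(P) trivially, and let N be a normal subgroup of G of order prime to p. Then every Sylow p-subgroup Q of G ⧸ N meets each conjugate x Q x⁻¹ with x outside its normalizer trivially. -/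
theorem result {G : Type*} [Group G] [Finite G] (p : ℕ) [Fact p.Prime] (P : Sylow p G) (hTI : ∀ g : G, g ∉ Subgroup.normalizer ((P : Subgroup G) : Set G) → (P : Subgroup G) ⊓ (MulAut.conj g • (P : Subgroup G)) = ⊥) (N : Subgroup G) [N.Normal] (hN : (Nat.card ↥N).Coprime p) (Q : Sylow p (G ⧸ N)) : ∀ x : G ⧸ N, x ∉ Subgroup.normalizer ((Q : Subgroup (G ⧸ N)) : Set (G ⧸ N)) → (Q : Subgroup (G ⧸ N)) ⊓ (MulAut.conj x • (Q : Subgroup (G ⧸ N))) = ⊥ := by
  intro x hx
  set f := QuotientGroup.mk' N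
  have hf : Function.Surjective f := QuotientGroup.mk'_surjective N
  obtain ⟨k, hk⟩ := MulAction.exists_smul_eq (G ⧸ N) (P.mapSurjective hf) Q
  obtain ⟨k, rfl⟩ := hf k
  obtain ⟨g, rfl⟩ := hf x
  set P' : Sylow p G := k • P
  have hQ : (Q : Subgroup (G ⧸ N)) = (P' : Subgroup G).map f := by
    rw [← hk]
    show MulAut.conj (f k) • (P : Subgroup G).map f = (MulAut.conj k • (P : Subgroup G)).map f
    ext z
    simp only [Subgroup.mem_pointwise_smul_iff_inv_smul_mem, Subgroup.mem_map]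
    constructor
    · rintro ⟨w, hw, e⟩
      refine ⟨k * w * k⁻¹, by simpa [MulAut.conj_apply, mul_assoc] using hw, ?_⟩
      have e' : f w = (f k)⁻¹ * z * f k := by simpa [MulAut.conj_apply] using e
      rw [map_mul, map_mul, map_inv, e']; group
    · rintro ⟨w, hw, rfl⟩
      exact ⟨_, hw, by simp [MulAut.conj_apply]⟩
  rw [Subgroup.eq_bot_iff_forall]
  intro z hz12
  obtain ⟨hz1, hz2⟩ := Subgroup.mem_inf.mp hz12
  by_contra hz
  rw [hQ] at hz1
  rw [Subgroup.mem_pointwise_smul_iff_inv_smul_mem, hQ] at hz2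
  obtain ⟨a, ha, rfl⟩ := hz1
  obtain ⟨b, hb, hbe⟩ := hz2
  -- `a` lies in `(g P' g⁻¹) N`
  set P'' : Sylow p G := g • P'
  have hbe' : f (g * b * g⁻¹) = f a := by
    have e' : f b = (f g)⁻¹ * f a * f g := by simpa [MulAut.conj_apply] using hbe
    rw [map_mul, map_mul, map_inv, e']; group
  set H : Subgroup G := (P'' : Subgroup G) ⊔ N
  have haH : a ∈ H := by
    have h1 : g * b * g⁻¹ ∈ H := Subgroup.mem_sup_left (show g * b * g⁻¹ ∈ MulAut.conj g • (P' : Subgroup G)
      by rw [Subgroup.mem_pointwise_smul_iff_inv_smul_mem]; rw [show (MulAut.conj g)⁻¹ • (g * b * g⁻¹) = b by simp [MulAut.conj_apply, mul_assoc]]; exact hb)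
    have h2 : (g * b * g⁻¹)⁻¹ * a ∈ H := Subgroup.mem_sup_right ((QuotientGroup.eq_one_iff _).mp (by
      show f _ = 1
      rw [map_mul, map_inv, hbe', inv_mul_cancel]))
    have := H.mul_mem h1 h2
    rwa [mul_inv_cancel_left] at this
  have hzp : IsPGroup p (Subgroup.zpowers (⟨a, haH⟩ : H)) := by
    obtain ⟨j, hj⟩ := IsPGroup.iff_orderOf.mp P'.2 ⟨a, ha⟩
    exact IsPGroup.of_card (n := j) (by
      rw [Nat.card_zpowers, ← Subgroup.orderOf_coe, ← hj, ← Subgroup.orderOf_coe (⟨a, ha⟩ : (P' : Subgroup G))])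
  obtain ⟨S, hS⟩ := hzp.exists_le_sylow
  obtain ⟨c, hc⟩ := MulAction.exists_smul_eq H (P''.subtype le_sup_left) S
  have hc2 : (c : G) ∈ ((P'' : Subgroup G) : Set G) * (N : Set G) := by
    rw [← Subgroup.mul_normal]; exact c.2
  obtain ⟨t, ht, n, hn, hcn⟩ := Set.mem_mul.mp hc2
  have haS := hS (Subgroup.mem_zpowers _)
  rw [← hc] at haS
  have haS' : (c : G)⁻¹ * a * (c : G) ∈ (P'' : Subgroup G) := by
    change (⟨a, haH⟩ : H) ∈ MulAut.conj c • (P'' : Subgroup G).subgroupOf H at haS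
    rw [Subgroup.mem_pointwise_smul_iff_inv_smul_mem] at haS
    simpa [MulAut.conj_apply, Subgroup.mem_subgroupOf] using haS
  set m := t * n * t⁻¹
  have hm : m ∈ N := ‹N.Normal›.conj_mem n hn t
  have ha2 : (m * g)⁻¹ * a * (m * g) ∈ (P' : Subgroup G) := by
    have ht' : t ∈ MulAut.conj g • (P' : Subgroup G) := ht
    have h3 : (c : G)⁻¹ * a * (c : G) ∈ MulAut.conj g • (P' : Subgroup G) := haS'
    have h4 : m⁻¹ * a * m ∈ MulAut.conj g • (P' : Subgroup G) := by
      have h5 := mul_mem (mul_mem ht' h3) (inv_mem ht')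
      rwa [← hcn, show t * ((t * n)⁻¹ * a * (t * n)) * t⁻¹ = m⁻¹ * a * m by
        simp only [m]; group] at h5
    rw [Subgroup.mem_pointwise_smul_iff_inv_smul_mem] at h4
    simpa [MulAut.conj_apply, mul_assoc] using h4
  have hmg : m * g ∈ Subgroup.normalizer ((P' : Subgroup G) : Set G) := by
    by_contra hmg
    have h6 : a ∈ (⊥ : Subgroup G) := ti_conj P hTI P' _ hmg ▸ Subgroup.mem_inf.mpr ⟨ha, by
      rw [Subgroup.mem_pointwise_smul_iff_inv_smul_mem]
      simpa [MulAut.conj_apply, mul_assoc] using ha2⟩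
    exact hz (by rw [Subgroup.mem_bot.mp h6, map_one])
  apply hx
  rw [hQ]
  refine Cfsg.Agent.Lib.GS.mem_normalizer_of_forall ?_
  rintro _ ⟨w, hw, rfl⟩
  refine ⟨(m * g) * w * (m * g)⁻¹, (Subgroup.mem_normalizer_iff.mp hmg w).mp hw, ?_⟩
  have hm1 : f m = 1 := (QuotientGroup.eq_one_iff m).mpr hm
  simp only [map_mul, map_inv, hm1, one_mul]

end Cfsg.Agent.S3984
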