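import Cfsg.Statements.S3985
import Cfsg.Agent.Lib.GS.Basic

set_option autoImplicit false
open scoped Pointwise
open Cfsg

namespace Cfsg.Agent.S3985

open scoped Pointwise

theorem centralizer_eq_of_ti {G : Type*} [Group G] [Finite G] {p : ℕ} [Fact p.Prime] (P : Sylow p G)
    (hcyc : IsCyclic ↥(P : Subgroup G))
    (hTI : ∀ g : G, g ∉ Subgroup.normalizer ((P : Subgroup G) : Set G) →
      (P : Subgroup G) ⊓ (MulAut.conj g • (P : Subgroup G)) = ⊥) {x g : G}
    (hxP : x ∈ (P : Subgroup G)) (hx1 : x ≠ 1) (hg : g ∈ Subgroup.centralizer ({x} : Set G)) :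
    g ∈ Subgroup.centralizer ((P : Subgroup G) : Set G) := by
  have hp : p.Prime := Fact.out
  have hgn : g ∈ Subgroup.normalizer ((P : Subgroup G) : Set G) := by
    by_contra hn
    refine hx1 (Subgroup.mem_bot.mp (hTI g hn ▸ Subgroup.mem_inf.mpr ⟨hxP, ?_⟩))
    rw [Subgroup.mem_pointwise_smul_iff_inv_smul_mem]
    have : g * x = x * g := Subgroup.mem_centralizer_singleton_iff.mp hg
    simpa [MulAut.conj_apply, mul_assoc, ← this] using hxP
  obtain ⟨⟨z, hzP⟩, hz⟩ := hcyc.exists_generator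
  have hgen : ∀ y ∈ (P : Subgroup G), ∃ i : ℤ, z ^ i = y := fun y hy => by
    obtain ⟨i, hi⟩ := Subgroup.mem_zpowers_iff.mp (hz ⟨y, hy⟩)
    exact ⟨i, congrArg Subtype.val hi⟩
  obtain ⟨k, hk⟩ := hgen _ ((Subgroup.mem_normalizer_iff.mp hgn z).mp hzP)
  obtain ⟨a, ha⟩ := IsPGroup.iff_orderOf.mp P.2 ⟨z, hzP⟩
  rw [Subgroup.orderOf_mk] at ha
  obtain ⟨i, hi⟩ := hgen x hxP
  have hcon : ∀ n : ℕ, g ^ n * z * (g ^ n)⁻¹ = z ^ (k ^ n) := by
    intro n
    induction n with
    | zero => simp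
    | succ n ih =>
      calc g ^ (n + 1) * z * (g ^ (n + 1))⁻¹ = g * (g ^ n * z * (g ^ n)⁻¹) * g⁻¹ := by
            rw [pow_succ']; group
        _ = z ^ (k ^ (n + 1)) := by rw [ih, ← conj_zpow, ← hk, ← zpow_mul, pow_succ']
  have hkp : (p : ℤ) ∣ k - 1 := by
    have h1 : z ^ ((k - 1) * i) = 1 := by
      rw [sub_mul, one_mul, zpow_sub, zpow_mul, hk, conj_zpow, hi,
        Subgroup.mem_centralizer_singleton_iff.mp hg]
      group
    have h2 : (orderOf z : ℤ) ∣ (k - 1) * i := orderOf_dvd_iff_zpow_eq_one.mpr h1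
    by_contra hnd
    have h3 : IsCoprime (orderOf z : ℤ) (k - 1) := by
      rw [ha]; push_cast
      exact ((Nat.prime_iff_prime_int.mp hp).coprime_iff_not_dvd.mpr hnd).pow_left
    exact hx1 (by rw [← hi]; exact orderOf_dvd_iff_zpow_eq_one.mp (h3.dvd_of_dvd_mul_left h2))
  have hga : g ^ p ^ a ∈ Subgroup.centralizer ((P : Subgroup G) : Set G) := by
    have h4 : ((p : ℤ)) ^ (a + 1) ∣ k ^ p ^ a - 1 := by
      simpa using dvd_sub_pow_of_dvd_sub hkp a
    have h5 : z ^ (k ^ p ^ a) = z := by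
      have h6 : z ^ (k ^ p ^ a - 1) = 1 := orderOf_dvd_iff_zpow_eq_one.mp (by
        rw [ha]; push_cast; exact (pow_dvd_pow _ (Nat.le_succ a)).trans h4)
      rwa [zpow_sub, zpow_one, mul_inv_eq_one] at h6
    rw [Subgroup.mem_centralizer_iff]
    intro y hy
    obtain ⟨j, rfl⟩ := hgen y hy
    have h7 : Commute z (g ^ p ^ a) := by
      have := hcon (p ^ a)
      rw [h5, mul_inv_eq_iff_eq_mul] at this
      exact this.symm
    exact (h7.zpow_left j).eq
  set r := ordCompl[p] (orderOf g)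
  have hgr : g ^ r ∈ (P : Subgroup G) := by
    have hgrn : g ^ r ∈ Subgroup.normalizer ((P : Subgroup G) : Set G) :=
      Subgroup.pow_mem _ hgn r
    have hpg : IsPGroup p (Subgroup.zpowers (g ^ r)) := by
      have h8 : (g ^ r) ^ (p ^ (orderOf g).factorization p) = 1 := by
        rw [← pow_mul, mul_comm, Nat.ordProj_mul_ordCompl_eq_self, pow_orderOf_eq_one]
      obtain ⟨j, -, hj⟩ := (Nat.dvd_prime_pow hp).mp (orderOf_dvd_of_pow_eq_one h8)
      exact IsPGroup.of_card (n := j) (by rw [Nat.card_zpowers, hj])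
    have hsup : IsPGroup p (Subgroup.zpowers (g ^ r) ⊔ (P : Subgroup G) : Subgroup G) :=
      IsPGroup.to_sup_of_normal_right' hpg P.2 (Subgroup.zpowers_le.mpr hgrn)
    have := P.3 hsup le_sup_right
    exact this ▸ Subgroup.mem_sup_left (Subgroup.mem_zpowers _)
  have hgrc : g ^ r ∈ Subgroup.centralizer ((P : Subgroup G) : Set G) := by
    rw [Subgroup.mem_centralizer_iff]
    intro y hy
    haveI := hcyc
    exact congrArg Subtype.val ((IsCyclic.commGroup).mul_comm ⟨y, hy⟩ ⟨g ^ r, hgr⟩)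
  have hcop : Nat.Coprime (p ^ a) r :=
    (Nat.coprime_ordCompl hp (orderOf_pos g).ne').pow_left a
  have hbez := Nat.gcd_eq_gcd_ab (p ^ a) r
  rw [hcop] at hbez
  have : g = (g ^ p ^ a) ^ Nat.gcdA (p ^ a) r * (g ^ r) ^ Nat.gcdB (p ^ a) r := by
    rw [← zpow_natCast, ← zpow_mul, ← zpow_natCast g r, ← zpow_mul, ← zpow_add, ← hbez]
    simp
  rw [this]
  exact Subgroup.mul_mem _ (Subgroup.zpow_mem _ hga _) (Subgroup.zpow_mem _ hgrc _)

/-- Let P be a cyclic Sylow p-subgroup of the finite group G. Then P meets each conjugate g P g⁻¹ with g outside N_G(P) trivially if and only if P is weakly self-centralizing: C_G(x) = C_G(P) for every non-identity x ∈ P. -/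
theorem result {G : Type*} [Group G] [Finite G] (p : ℕ) [Fact p.Prime] (P : Sylow p G) (hcyc : IsCyclic ↥(P : Subgroup G)) : (∀ g : G, g ∉ Subgroup.normalizer ((P : Subgroup G) : Set G) → (P : Subgroup G) ⊓ (MulAut.conj g • (P : Subgroup G)) = ⊥) ↔ ∀ x : G, x ∈ (P : Subgroup G) → x ≠ 1 → Subgroup.centralizer ({x} : Set G) = Subgroup.centralizer ((P : Subgroup G) : Set G) := by
  constructor
  · intro hTI x hxP hx1
    refine le_antisymm (fun g hg => centralizer_eq_of_ti P hcyc hTI hxP hx1 hg) ?_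
    exact Subgroup.centralizer_le (Set.singleton_subset_iff.mpr hxP)
  · intro hC g hg
    rw [Subgroup.eq_bot_iff_forall]
    intro z hz12
    obtain ⟨hz1, hz2⟩ := Subgroup.mem_inf.mp hz12
    by_contra hz
    rw [Subgroup.mem_pointwise_smul_iff_inv_smul_mem] at hz2
    have hz' : g⁻¹ * z * g ∈ (P : Subgroup G) := by simpa [MulAut.conj_apply] using hz2
    have hcz := hC z hz1 hz
    have hcz' := hC _ hz' (fun e => hz (by
      have := congrArg (fun w => g * w * g⁻¹) e
      simpa [mul_assoc] using this))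
    haveI := hcyc
    have hab : ∀ u ∈ (P : Subgroup G), ∀ v ∈ (P : Subgroup G), u * v = v * u := fun u hu v hv =>
      congrArg Subtype.val ((IsCyclic.commGroup).mul_comm (⟨u, hu⟩ : (P : Subgroup G)) ⟨v, hv⟩)
    have hle : MulAut.conj g • (P : Subgroup G) ≤ Subgroup.centralizer ((P : Subgroup G) : Set G) := by
      intro u hu
      rw [Subgroup.mem_pointwise_smul_iff_inv_smul_mem] at hu
      have hu' : g⁻¹ * u * g ∈ (P : Subgroup G) := by simpa [MulAut.conj_apply] using hu
      rw [← hcz, Subgroup.mem_centralizer_singleton_iff]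
      have e := hab _ hu' _ hz'
      have e' := congrArg (fun w => g * w * g⁻¹) e
      simpa [mul_assoc] using e'
    have hPg : IsPGroup p (MulAut.conj g • (P : Subgroup G) : Subgroup G) := (g • P).2
    have hsup := IsPGroup.to_sup_of_normal_right' hPg P.2 (hle.trans
      (Subgroup.centralizer_le_normalizer _))
    have h1 := P.3 hsup le_sup_right
    have h2 : MulAut.conj g • (P : Subgroup G) ≤ P := le_sup_left.trans h1.le
    apply hg
    refine Sylow.smul_eq_iff_mem_normalizer.mp ?_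
    exact Sylow.ext ((g • P).3 P.2 h2).symm

end Cfsg.Agent.S3985
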