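import Cfsg.Statements.S3986
import Mathlib
import Cfsg.Agent.Lib.GS.Sylow

set_option autoImplicit false
open Cfsg

namespace Cfsg.Agent.S3986


/-- Let p be a prime and G a finite group. Then some Sylow p-subgroup of G is a direct factor of G (it is normal and has a normal complement) if and only if every element of p-power order commutes with every element whose order is a power of a prime other than p. -/
theorem result {G : Type*} [Group G] [Finite G] (p : ℕ) [Fact p.Prime] : (∃ (P : Sylow p G) (K : Subgroup G), (P : Subgroup G).Normal ∧ K.Normal ∧ (P : Subgroup G) ⊓ K = ⊥ ∧ (P : Subgroup G) ⊔ K = ⊤) ↔ ∀ x y : G, (∃ a : ℕ, orderOf x = p ^ a) → (∃ q b : ℕ, q.Prime ∧ q ≠ p ∧ orderOf y = q ^ b) → x * y = y * x := by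
  constructor
  · rintro ⟨P, K, hP, hK, hinf, hsup⟩ x y ⟨a, ha⟩ ⟨q, b, hq, hqp, hb⟩
    have hx : x ∈ (P : Subgroup G) := Cfsg.Agent.Lib.GS.mem_of_normal_sylow P hP ha
    have hy : y ∈ K := by
      have hcard : K.index ∣ Nat.card (P : Subgroup G) :=
        (Subgroup.isComplement'_of_disjoint_and_mul_eq_univ (disjoint_iff.mpr hinf)
          (by rw [← Subgroup.normal_mul, hsup, Subgroup.coe_top])).index_eq_card.dvd
      obtain ⟨n, hn⟩ := IsPGroup.iff_card.mp P.2
      haveI := hK
      have h1 : orderOf (QuotientGroup.mk' K y) ∣ q ^ b := hb ▸ orderOf_map_dvd _ y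
      have h2 : orderOf (QuotientGroup.mk' K y) ∣ p ^ n := by
        refine hn ▸ (dvd_trans ?_ hcard)
        rw [Subgroup.index_eq_card]
        exact orderOf_dvd_natCard _
      have h3 := Nat.eq_one_of_dvd_coprimes
        (Nat.coprime_pow_primes b n hq Fact.out hqp) h1 h2
      rwa [orderOf_eq_one_iff, QuotientGroup.mk'_apply, QuotientGroup.eq_one_iff] at h3
    exact Subgroup.commute_of_normal_of_disjoint _ _ hP hK (disjoint_iff.mpr hinf) x y hx hy
  · intro h
    obtain ⟨P⟩ : Nonempty (Sylow p G) := inferInstance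
    obtain ⟨hP, K, hK, -, h1, h2⟩ := Cfsg.Agent.Lib.GS.exists_direct_complement P
      (fun y q b hq hqp hb => Subgroup.mem_centralizer_iff.mpr fun x hx => by
        obtain ⟨a, ha⟩ := IsPGroup.iff_orderOf.mp P.2 ⟨x, hx⟩
        exact h x y ⟨a, by rw [← ha, ← Subgroup.orderOf_coe]⟩ ⟨q, b, hq, hqp, hb⟩)
    exact ⟨P, K, hP, hK, h1, h2⟩

end Cfsg.Agent.S3986
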