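import Cfsg.Statements.S3987
import Mathlib
import Cfsg.Agent.Lib.GS.Sylow
import Cfsg.Agent.S3986

set_option autoImplicit false
open Cfsg

namespace Cfsg.Agent.S3987


/-- Let p be a prime and G a finite group. Then some Sylow p-subgroup of G is a direct factor of G (normal with a normal complement) if and only if for every element x of p-power order and every element y whose order is a power of a prime other than p, the conjugacy class of x y has as many elements as the product of the sizes of the classes of x and of y. -/
theorem result {G : Type*} [Group G] [Finite G] (p : ℕ) [Fact p.Prime] : (∃ (P : Sylow p G) (K : Subgroup G), (P : Subgroup G).Normal ∧ K.Normal ∧ (P : Subgroup G) ⊓ K = ⊥ ∧ (P : Subgroup G) ⊔ K = ⊤) ↔ ∀ x y : G, (∃ a : ℕ, orderOf x = p ^ a) → (∃ q b : ℕ, q.Prime ∧ q ≠ p ∧ orderOf y = q ^ b) → (Subgroup.centralizer ({x * y} : Set G)).index = (Subgroup.centralizer ({x} : Set G)).index * (Subgroup.centralizer ({y} : Set G)).index := by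
  rw [Cfsg.Agent.S3986.result p]
  constructor
  · intro h x y hx hy
    have hxy : Commute x y := h x y hx hy
    obtain ⟨P, K, hP, hK, hinf, hsup⟩ := (Cfsg.Agent.S3986.result p).mpr h
    have hcop : Nat.Coprime (orderOf x) (orderOf y) := by
      obtain ⟨a, ha⟩ := hx
      obtain ⟨q, b, hq, hqp, hb⟩ := hy
      rw [ha, hb]; exact Nat.coprime_pow_primes a b Fact.out hq hqp.symm
    have heq : Subgroup.centralizer ({x * y} : Set G) =
        Subgroup.centralizer ({x} : Set G) ⊓ Subgroup.centralizer ({y} : Set G) := by
      ext g
      simp only [Subgroup.mem_inf, Subgroup.mem_centralizer_singleton_iff]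
      refine ⟨fun hg => ?_, fun ⟨h1, h2⟩ => ((show Commute g x from h1).mul_right h2).eq⟩
      obtain ⟨m, hm⟩ := exists_pow_eq_self_of_coprime (n := orderOf y) (x := x) hcop.symm
      have h1 : (x * y) ^ orderOf y = x ^ orderOf y := by
        rw [hxy.mul_pow, pow_orderOf_eq_one, mul_one]
      have hgx : Commute g x := by
        have := ((show Commute g (x * y) from hg).pow_right (orderOf y)).pow_right m
        rwa [h1, hm] at this
      refine ⟨hgx, ?_⟩
      have h2 : y = x⁻¹ * (x * y) := by group
      rw [h2]
      exact (hgx.inv_right.mul_right hg).eq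
    have hcx : Nat.Coprime (Subgroup.centralizer ({x} : Set G)).index
        (Subgroup.centralizer ({y} : Set G)).index := by
      have hKx : K ≤ Subgroup.centralizer ({x} : Set G) := fun k hk => by
        rw [Subgroup.mem_centralizer_singleton_iff]
        exact (Subgroup.commute_of_normal_of_disjoint _ _ hP hK (disjoint_iff.mpr hinf) x k
          (by obtain ⟨a, ha⟩ := hx; exact Cfsg.Agent.Lib.GS.mem_of_normal_sylow P hP ha) hk).symm.eq
      have hPy : (P : Subgroup G) ≤ Subgroup.centralizer ({y} : Set G) := fun k hk => by
        rw [Subgroup.mem_centralizer_singleton_iff]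
        obtain ⟨a, ha⟩ := IsPGroup.iff_orderOf.mp P.2 ⟨k, hk⟩
        exact h k y ⟨a, by rw [← ha, ← Subgroup.orderOf_coe]⟩ hy
      have hc : K.IsComplement' (P : Subgroup G) :=
        Subgroup.isComplement'_of_disjoint_and_mul_eq_univ (disjoint_iff.mpr ((inf_comm K (P : Subgroup G)).trans hinf))
          (by rw [← Subgroup.normal_mul, sup_comm, hsup, Subgroup.coe_top])
      exact (P.card_coprime_index.coprime_dvd_left
        (hc.symm.index_eq_card ▸ Subgroup.index_dvd_of_le hKx)).coprime_dvd_right
        (Subgroup.index_dvd_of_le hPy)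
    rw [heq]
    exact le_antisymm (Subgroup.index_inf_le) (Nat.le_of_dvd
      (Nat.pos_of_ne_zero Subgroup.index_ne_zero_of_finite)
      (hcx.mul_dvd_of_dvd_of_dvd (Subgroup.index_dvd_of_le inf_le_left)
        (Subgroup.index_dvd_of_le inf_le_right)))
  · intro h x y hx hy
    set Cx := Subgroup.centralizer ({x} : Set G)
    set Cy := Subgroup.centralizer ({y} : Set G)
    have hle : Cx ⊓ Cy ≤ Subgroup.centralizer ({x * y} : Set G) := by
      intro g hg
      simp only [Subgroup.mem_inf, Cx, Cy, Subgroup.mem_centralizer_singleton_iff] at hg ⊢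
      exact ((show Commute g x from hg.1).mul_right hg.2).eq
    have heq : Cx ⊓ Cy = Subgroup.centralizer ({x * y} : Set G) := by
      refine Subgroup.eq_of_le_of_card_ge hle ?_
      have h1 : (Cx ⊓ Cy).index ≤ (Subgroup.centralizer ({x * y} : Set G)).index := by
        rw [h x y hx hy]; exact Subgroup.index_inf_le
      have h2 := (Cx ⊓ Cy).card_mul_index
      have h3 := (Subgroup.centralizer ({x * y} : Set G)).card_mul_index
      have hpos : 0 < (Subgroup.centralizer ({x * y} : Set G)).index :=
        Nat.pos_of_ne_zero Subgroup.index_ne_zero_of_finite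
      nlinarith
    have hmem : x * y ∈ Cx := by
      have h1 : x * y ∈ Subgroup.centralizer ({x * y} : Set G) :=
        Subgroup.mem_centralizer_singleton_iff.mpr rfl
      exact (heq ▸ h1 : x * y ∈ Cx ⊓ Cy).1
    rw [Subgroup.mem_centralizer_singleton_iff, mul_assoc] at hmem
    exact (mul_left_cancel hmem).symm

end Cfsg.Agent.S3987
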