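import Cfsg.Statements.S4002
import Cfsg.Agent.S3633

set_option autoImplicit false
open Cfsg

namespace Cfsg.Agent.S4002

theorem three_primes_above (n : ℕ) (hn : 7 ≤ n) : ∃ a b c : ℕ, a.Prime ∧ b.Prime ∧ c.Prime ∧
    a < b ∧ b < c ∧ c ≤ n ∧ n < a * b := by
  rcases lt_or_ge n 15 with h | h
  · exact ⟨3, 5, 7, by norm_num, by norm_num, by norm_num, by norm_num, by norm_num, hn, by omega⟩
  rcases lt_or_ge n 35 with h' | h'
  · exact ⟨5, 7, 11, by norm_num, by norm_num, by norm_num, by norm_num, by norm_num, by omega, by omega⟩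
  obtain ⟨c, hc, hc1, hc2⟩ := Nat.exists_prime_lt_and_le_two_mul (n / 2) (by omega)
  obtain ⟨b, hb, hb1, hb2⟩ := Nat.exists_prime_lt_and_le_two_mul (n / 2 / 2) (by omega)
  obtain ⟨a, ha, ha1, ha2⟩ := Nat.exists_prime_lt_and_le_two_mul (n / 2 / 2 / 2) (by omega)
  refine ⟨a, b, c, ha, hb, hc, by omega, by omega, by omega, ?_⟩
  have h1 : n < 8 * a := by omega
  have h2 : n < 4 * b := by omega
  nlinarith [Nat.mul_lt_mul'' h1 h2]


/-- If the set of element orders of a finite group G is {1, 2, …, n} with n ≥ 7, then G is not solvable. -/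
theorem result {G : Type*} [Group G] [Finite G] (n : ℕ) (hn : 7 ≤ n) (h : Set.range (orderOf : G → ℕ) = {k : ℕ | 1 ≤ k ∧ k ≤ n}) : ¬ Group.IsSolvable G := by
  intro hsolv
  have horder : ∀ k, k ≤ n → 1 ≤ k → ∃ x : G, orderOf x = k := fun k hk h1 => by
    have : k ∈ Set.range (orderOf : G → ℕ) := by rw [h]; exact ⟨h1, hk⟩
    exact this
  have hle : ∀ x : G, orderOf x ≤ n := fun x => by
    have : orderOf x ∈ Set.range (orderOf : G → ℕ) := ⟨x, rfl⟩
    rw [h] at this
    exact this.2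
  obtain ⟨a, b, c, ha, hb, hc, hab, hbc, hcn, hn'⟩ := three_primes_above n hn
  refine (Cfsg.Agent.S3633.result ({a, b, c} : Finset ℕ) ?_ ⟨?_, ?_⟩ ⊥ inferInstance).2 hsolv
  · rw [Finset.card_insert_of_notMem (by simp; omega), Finset.card_pair (by omega)]
  · intro r hr
    have hr' : r.Prime ∧ r ≤ n := by
      simp only [Finset.mem_insert, Finset.mem_singleton] at hr
      rcases hr with rfl | rfl | rfl
      exacts [⟨ha, by omega⟩, ⟨hb, by omega⟩, ⟨hc, hcn⟩]
    obtain ⟨x, hx⟩ := horder r hr'.2 hr'.1.one_le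
    exact ⟨hr'.1, hx ▸ orderOf_dvd_natCard x⟩
  · rintro r hr s hs hrs ⟨x, hx⟩
    have h1 := hle x
    rw [hx] at h1
    have hbig : a * b ≤ r * s := by
      simp only [Finset.mem_insert, Finset.mem_singleton] at hr hs
      rcases hr with rfl | rfl | rfl <;> rcases hs with rfl | rfl | rfl <;>
        first
        | exact absurd rfl hrs
        | nlinarith
    omega

end Cfsg.Agent.S4002
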