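import Cfsg.Statements.S4009
import Cfsg.Agent.Lib.DerivedLength.Mann
-- import your own Cfsg.Agent.* helpers here

set_option autoImplicit false
open Cfsg

namespace Cfsg.Agent.S4009

open Cfsg.Agent.Lib.DerivedLength Cfsg.Agent.Lib.Kreknin

theorem derived_le_gam {P : Type*} [Group P] : ∀ j : ℕ, derivedSeries P j ≤ gam P (2 ^ j - 1)
  | 0 => le_top
  | j + 1 => by
    refine (Subgroup.commutator_mono (derived_le_gam j) (derived_le_gam j)).trans
      ((commutator_gam_le _ _).trans (gam_antitone ?_))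
    have := Nat.one_le_two_pow (n := j)
    rw [pow_succ]
    omega

/-- Let P be a finite p-group of order p^n whose derived length is exactly k + 1 (the k-th derived subgroup is nontrivial and the (k+1)-st is trivial). Then n ≥ 2^k + 2k − 2. -/
theorem result {P : Type*} [Group P] [Finite P] (p : ℕ) [Fact p.Prime] (n k : ℕ) (hcard : Nat.card P = p ^ n) (hk : derivedSeries P k ≠ ⊥) (hk' : derivedSeries P (k + 1) = ⊥) : 2 ^ k + 2 * k ≤ n + 2 := by
  have hP : IsPGroup p P := IsPGroup.of_card hcard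
  have main : ∀ j ≤ k,
      (∃ e, 2 ^ j + 2 * j ≤ e + 1 ∧ p ^ e * Nat.card ↥(derivedSeries P j) ≤ Nat.card P) ∨
      (∃ e, 2 ^ j + 2 * j ≤ e + 2 ∧ p ^ e * Nat.card ↥(derivedSeries P j) ≤ Nat.card P ∧
        CycTop (derivedSeries P j)) ∨
      (∃ e, 2 ^ j + 2 * j ≤ e + 3 ∧ p ^ e * Nat.card ↥(derivedSeries P j) ≤ Nat.card P ∧
        derivedSeries P j ≤ gam P (2 ^ j)) := by
    intro j
    induction j with
    | zero =>
      intro _
      refine Or.inl ⟨0, by simp, ?_⟩
      rw [pow_zero, one_mul]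
      exact (derivedSeries P 0).card_le_card_group
    | succ j ih =>
      intro hjk
      have hne : ⁅derivedSeries P j, derivedSeries P j⁆ ≠ ⊥ := fun h0 =>
        hk (le_bot_iff.1 (h0 ▸ derivedSeries_antitone P hjk))
      have h2 : 2 ^ (j + 1) = 2 * 2 ^ j := pow_succ' 2 j
      have h1 := Nat.one_le_two_pow (n := j)
      have comb : ∀ e a : ℕ, p ^ e * Nat.card ↥(derivedSeries P j) ≤ Nat.card P →
          p ^ a * Nat.card ↥(derivedSeries P (j + 1)) ≤ Nat.card ↥(derivedSeries P j) →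
          p ^ (e + a) * Nat.card ↥(derivedSeries P (j + 1)) ≤ Nat.card P := fun e a he ha => by
        rw [pow_add, mul_assoc]
        exact (Nat.mul_le_mul_left _ ha).trans he
      rcases ih (by omega) with ⟨e, he, hc⟩ | ⟨e, he, hc, hcyc⟩ | ⟨e, he, hc, hle⟩
      · obtain ⟨s1, s2⟩ := card_derived_step hP _ (derived_le_gam j) hne
        by_cases hcy : CycTop (derivedSeries P (j + 1))
        · exact Or.inr (Or.inl ⟨e + (2 ^ j - 1 + 2), by omega, comb e _ hc s1, hcy⟩)
        · exact Or.inl ⟨e + (2 ^ j - 1 + 3), by omega, comb e _ hc (s2 hcy)⟩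
      · obtain ⟨s1, -⟩ := card_derived_step hP _ (derived_le_gam j) hne
        refine Or.inr (Or.inr ⟨e + (2 ^ j - 1 + 2), by omega, comb e _ hc s1, ?_⟩)
        exact (commutator_le_gam_of_cycTop (derived_le_gam j) hcyc).trans (gam_antitone (by omega))
      · obtain ⟨s1, -⟩ := card_derived_step hP _ hle hne
        refine Or.inr (Or.inr ⟨e + (2 ^ j + 2), by omega, comb e _ hc s1, ?_⟩)
        exact (Subgroup.commutator_mono hle hle).trans
          ((commutator_gam_le _ _).trans (gam_antitone (by omega)))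
  obtain ⟨e, he, hc⟩ : ∃ e, 2 ^ k + 2 * k ≤ e + 3 ∧
      p ^ e * Nat.card ↥(derivedSeries P k) ≤ Nat.card P := by
    rcases main k le_rfl with ⟨e, he, hc⟩ | ⟨e, he, hc, -⟩ | ⟨e, he, hc, -⟩ <;>
      exact ⟨e, by omega, hc⟩
  have h3 : 1 < Nat.card ↥(derivedSeries P k) :=
    (Subgroup.one_lt_card_iff_ne_bot _).2 hk
  have hlt : p ^ e < p ^ n :=
    calc p ^ e < p ^ e * Nat.card ↥(derivedSeries P k) :=
          lt_mul_right (pow_pos (Fact.out : p.Prime).pos e) h3
      _ ≤ p ^ n := hcard ▸ hc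
  have := (Nat.pow_lt_pow_iff_right (Fact.out : p.Prime).one_lt).1 hlt
  omega

end Cfsg.Agent.S4009
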