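import Cfsg.Statements.S4010
import Mathlib
import Cfsg.Agent.Lib.GS.PLinearDerived

set_option autoImplicit false
open Cfsg

namespace Cfsg.Agent.S4010


/-- Let F be a field, n ≥ 1, and P a finite p-group (p a prime) admitting an injective homomorphism into the general linear group of degree n over F. Then the derived length of P is at most ⌊log₂ n⌋ + 1: that term of the derived series of P is trivial. -/
theorem result {P : Type*} [Group P] [Finite P] (p : ℕ) [Fact p.Prime] (hP : IsPGroup p P) (F : Type*) [Field F] (n : ℕ) (hn : 1 ≤ n) (ρ : P →* Matrix.GeneralLinearGroup (Fin n) F) (hρ : Function.Injective ρ) : derivedSeries P (Nat.log 2 n + 1) = ⊥ := by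
  classical
  let K := AlgebraicClosure F
  let f : P →* Matrix.GeneralLinearGroup (Fin n) K :=
    (Matrix.GeneralLinearGroup.map (algebraMap F K)).comp ρ
  have hf : Function.Injective f := fun a b h => hρ (Units.ext (Matrix.ext fun i j =>
    (algebraMap F K).injective (congrArg (fun u : Matrix.GeneralLinearGroup (Fin n) K => (u : Matrix (Fin n) (Fin n) K) i j) h)))
  let σ : Representation K P (Fin n → K) :=
    ((Matrix.toLinAlgEquiv' : Matrix (Fin n) (Fin n) K ≃ₐ[K] _).toMonoidHom.comp
      (Units.coeHom _)).comp f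
  have hσ : Function.Injective σ := fun a b h =>
    hf (Units.ext ((Matrix.toLinAlgEquiv' : Matrix (Fin n) (Fin n) K ≃ₐ[K] _).injective h))
  have hdim : Module.finrank K (Fin n → K) = n := Module.finrank_fin_fun K
  have hlt : n < 2 ^ (Nat.log 2 n + 1) := Nat.lt_pow_succ_log_self Nat.one_lt_two n
  have key : Cfsg.Agent.Lib.GS.PLinearDerived.Acts σ (Nat.log 2 n + 1) := by
    by_cases hpK : (p : K) = 0
    · have : CharP K p := (CharP.charP_iff_prime_eq_zero Fact.out).2 hpK
      exact Cfsg.Agent.Lib.GS.PLinearDerived.acts_char _ hP σ (by omega)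
    · exact Cfsg.Agent.Lib.GS.PLinearDerived.acts_closed hpK 2 (Fact.out : p.Prime).two_le _ n hP σ hdim hlt
  rw [eq_bot_iff]
  intro g hg
  exact Subgroup.mem_bot.2 (hσ ((key g hg).trans (map_one σ).symm))

end Cfsg.Agent.S4010
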