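import Cfsg.Statements.S4013
import Mathlib
import Cfsg.Agent.Lib.GS.Sylow

set_option autoImplicit false
open Cfsg

namespace Cfsg.Agent.S4013


/-- Let G be a finite p-group (p prime) and N < M normal subgroups of G such that for some g ∈ M ∖ N the conjugacy class of g is exactly M ∖ N. Then p = 2 and N has index 2 in M. -/
theorem result {G : Type*} [Group G] [Finite G] (p : ℕ) [Fact p.Prime] (hG : IsPGroup p G) (N M : Subgroup G) [N.Normal] [M.Normal] (hNM : N < M) (g : G) (hgM : g ∈ M) (hgN : g ∉ N) (hcl : {h : G | IsConj g h} = (M : Set G) \ (N : Set G)) : p = 2 ∧ N.relIndex M = 2 := by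
  obtain ⟨a, ha⟩ := IsPGroup.iff_card.mp (hG.to_subgroup M)
  obtain ⟨b, hb⟩ := IsPGroup.iff_card.mp (hG.to_subgroup N)
  obtain ⟨c, hc⟩ := hG.index (Subgroup.centralizer ({g} : Set G))
  have hclass : ({h : G | IsConj g h}).ncard = p ^ c := by
    rw [← hc, ← Cfsg.Agent.Lib.GS.ncard_carrier_eq_index]
    congr 1
  rw [hcl, Set.ncard_sdiff (fun x hx => hNM.le hx), ← Nat.card_coe_set_eq, ← Nat.card_coe_set_eq] at hclass
  change Nat.card M - Nat.card N = p ^ c at hclass
  rw [ha, hb] at hclass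
  have hp2 : 2 ≤ p := (Fact.out : p.Prime).two_le
  have hlt : p ^ b < p ^ a := by
    have : 0 < p ^ c := pow_pos (by omega) c
    omega
  have hba : b < a := (Nat.pow_lt_pow_iff_right hp2).mp hlt
  obtain ⟨d, rfl⟩ : ∃ d, a = b + d + 1 := ⟨a - b - 1, by omega⟩
  have hd1 : p ^ b * (p ^ (d + 1) - 1) = p ^ c := by
    rw [Nat.mul_sub, ← pow_add, mul_one, show b + (d + 1) = b + d + 1 by ring]; exact hclass
  have hdvd : p ^ (d + 1) - 1 ∣ p ^ c := Dvd.intro_left _ hd1
  obtain ⟨e, -, he⟩ := (Nat.dvd_prime_pow Fact.out).mp hdvd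
  have hone : 1 ≤ p ^ (d + 1) := Nat.one_le_pow _ _ (by omega)
  rcases e with _ | e
  · have h2 : p ^ (d + 1) = 2 := by rw [pow_zero] at he; omega
    have hp : p ≤ 2 := h2 ▸ Nat.le_self_pow d.succ_ne_zero p
    have hp' : p = 2 := by omega
    refine ⟨hp', ?_⟩
    have h3 : N.relIndex M * Nat.card N = Nat.card M := by
      have := Subgroup.relIndex_mul_relIndex ⊥ N M bot_le hNM.le
      rwa [Subgroup.relIndex_bot_left, Subgroup.relIndex_bot_left, mul_comm] at this
    rw [ha, hb, show b + d + 1 = (d + 1) + b by ring, pow_add, h2] at h3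
    exact Nat.eq_of_mul_eq_mul_right (pow_pos (by omega) b) h3
  · have h1 : p ∣ p ^ (d + 1) := dvd_pow_self p d.succ_ne_zero
    have h2 : p ∣ p ^ (d + 1) - 1 := he ▸ dvd_pow_self p e.succ_ne_zero
    have h3 := Nat.dvd_sub h1 h2
    rw [Nat.sub_sub_self hone] at h3
    exact absurd (Nat.le_of_dvd one_pos h3) (by omega)

end Cfsg.Agent.S4013
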