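import Cfsg.Statements.S4014
import Cfsg.Agent.Lib.GS.PPermDerived
import Mathlib

set_option autoImplicit false
open Cfsg

namespace Cfsg.Agent.S4014

open scoped commutatorElement
open Cfsg.Agent.Lib.GS.PPermDerived

variable {p : ℕ} [Fact p.Prime]

/-- A hom into the derived subgroup shifts the derived series by one. -/
theorem map_derived_succ {C W : Type*} [Group C] [Group W] (g : C →* W) (hg : g.range ≤ commutator W) :
    ∀ i, (derivedSeries C i).map g ≤ derivedSeries W (i + 1)
  | 0 => by
    rw [derivedSeries_zero, ← MonoidHom.range_eq_map, derivedSeries_one]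
    exact hg
  | i + 1 => by
    rw [derivedSeries_succ, Subgroup.map_commutator, derivedSeries_succ W (i + 1)]
    exact Subgroup.commutator_mono (map_derived_succ g hg i) (map_derived_succ g hg i)

/-- The base group of the wreath product, acting blockwise. -/
def blocks (p : ℕ) {X : Type*} (W : Subgroup (Equiv.Perm X)) :
    (ZMod p → W) →* Equiv.Perm (X × ZMod p) where
  toFun f := Equiv.prodCongrLeft fun a => (f a : Equiv.Perm X)
  map_one' := Equiv.ext fun _ => rfl
  map_mul' _ _ := Equiv.ext fun _ => rfl

/-- The cyclic shift of the blocks. -/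
def shift (p : ℕ) (X : Type*) : Equiv.Perm (X × ZMod p) :=
  Equiv.prodCongr (Equiv.refl X) (Equiv.addRight (1 : ZMod p))

theorem blocks_apply {X : Type*} (W : Subgroup (Equiv.Perm X)) (f : ZMod p → W) (x : X × ZMod p) :
    blocks p W f x = ((f x.2 : Equiv.Perm X) x.1, x.2) := rfl

theorem shift_apply {X : Type*} (x : X × ZMod p) : shift p X x = (x.1, x.2 + 1) := rfl

theorem shift_pow {X : Type*} (k : ℕ) (x : X × ZMod p) : (shift p X ^ k) x = (x.1, x.2 + k) := by
  induction k with
  | zero => simp
  | succ k ih =>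
    rw [pow_succ', Equiv.Perm.mul_apply, ih, shift_apply]
    push_cast
    rw [add_assoc]

/-- A permutation `p`-group of degree `p^k` with derived length at least `k`. -/
theorem exists_long (k : ℕ) : ∃ W : Subgroup (Equiv.Perm (Fin (p ^ (k + 1)))),
    IsPGroup p W ∧ derivedSeries W k ≠ ⊥ := by
  have hp : p.Prime := Fact.out
  have : NeZero p := ⟨hp.ne_zero⟩
  induction k with
  | zero =>
    obtain ⟨x, hx⟩ := exists_prime_orderOf_dvd_card' (G := Equiv.Perm (Fin (p ^ (0 + 1)))) p
      (by rw [Nat.card_perm, Nat.card_fin]; exact hp.dvd_factorial.2 (by simp))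
    refine ⟨Subgroup.zpowers x, IsPGroup.of_card (n := 1) (by rw [Nat.card_zpowers, hx, pow_one]), ?_⟩
    rw [derivedSeries_zero]
    intro h
    have hc := congrArg (fun H : Subgroup (Subgroup.zpowers x) => Nat.card H) h
    simp only [Subgroup.card_top, Subgroup.card_bot, Nat.card_zpowers, hx] at hc
    exact hp.one_lt.ne' hc
  | succ k ih =>
    obtain ⟨W, hWp, hW⟩ := ih
    set t := shift p (Fin (p ^ (k + 1))) with ht
    let β := blocks p W
    let B := β.range
    have hinj : Function.Injective β := by
      intro f g h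
      funext a
      apply Subtype.ext
      ext1 i
      exact congrArg Prod.fst (congrArg (fun σ : Equiv.Perm (Fin (p ^ (k + 1)) × ZMod p) => σ (i, a)) h)
    have hconj : ∀ f : ZMod p → W, t * β f * t⁻¹ = β (fun a => f (a - 1)) := by
      intro f
      rw [mul_inv_eq_iff_eq_mul]
      ext1 x
      simp [β, t, blocks_apply, shift_apply]
    have htp : t ^ p = 1 := by
      ext1 x
      rw [ht, shift_pow, ZMod.natCast_self, add_zero]
      rfl
    have hnorm : Subgroup.zpowers t ≤ Subgroup.normalizer (B : Set (Equiv.Perm (Fin (p ^ (k + 1)) × ZMod p))) := by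
      rw [Subgroup.zpowers_le, Subgroup.mem_normalizer_iff]
      intro g
      constructor
      · rintro ⟨f, rfl⟩; exact ⟨_, (hconj f).symm⟩
      · rintro ⟨f, hf⟩
        refine ⟨fun a => f (a + 1), ?_⟩
        have h1 := hconj (fun a => f (a + 1))
        simp only [sub_add_cancel] at h1
        exact mul_left_cancel (mul_right_cancel (h1.trans hf))
    have hBp : IsPGroup p B := by
      refine IsPGroup.of_surjective ?_ β.rangeRestrict β.rangeRestrict_surjective
      obtain ⟨a, ha⟩ := IsPGroup.iff_card.1 hWp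
      exact IsPGroup.of_card (n := a * p) (by rw [Nat.card_fun, ha, Nat.card_zmod, pow_mul])
    have hTp : IsPGroup p (Subgroup.zpowers t) := by
      rintro ⟨_, j, rfl⟩
      refine ⟨1, Subtype.ext ?_⟩
      simp only [pow_one, SubgroupClass.coe_pow, OneMemClass.coe_one]
      rw [← zpow_natCast, ← zpow_mul, mul_comm, zpow_mul, zpow_natCast, htp, one_zpow]
    let V := B ⊔ Subgroup.zpowers t
    have hVp : IsPGroup p V := hBp.to_sup_of_normal_left' hTp hnorm
    have hβV : ∀ f, β f ∈ V := fun f => Subgroup.mem_sup_left ⟨f, rfl⟩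
    let γ : (ZMod p → W) →* V := β.codRestrict V hβV
    let C : Subgroup (ZMod p → W) := (commutator V).comap γ
    let π : C →* W := (Pi.evalMonoidHom (fun _ : ZMod p => ↥W) 0).comp C.subtype
    have hπ : Function.Surjective π := by
      intro w
      let f : ZMod p → W := fun a => if a = 0 then w else 1
      have h1 : (f * (fun a => f (a - 1))⁻¹) ∈ C := by
        change γ (f * (fun a => f (a - 1))⁻¹) ∈ commutator V
        have e : γ (f * (fun a => f (a - 1))⁻¹) = ⁅γ f, ⟨t, Subgroup.mem_sup_right (Subgroup.mem_zpowers t)⟩⁆ := by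
          apply Subtype.ext
          change β (f * (fun a => f (a - 1))⁻¹) = β f * t * (β f)⁻¹ * t⁻¹
          rw [map_mul, map_inv, ← hconj f]
          group
        rw [e]
        exact Subgroup.commutator_mem_commutator (Subgroup.mem_top _) (Subgroup.mem_top _)
      refine ⟨⟨_, h1⟩, ?_⟩
      change f 0 * (f (0 - 1))⁻¹ = w
      simp [f, (neg_ne_zero.2 one_ne_zero : (-1 : ZMod p) ≠ 0)]
    have hlong : derivedSeries V (k + 1) ≠ ⊥ := by
      intro h
      apply hW
      have h1 := map_derived_succ (γ.comp C.subtype) (by rintro _ ⟨c, rfl⟩; exact c.2) k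
      rw [h, le_bot_iff, Subgroup.map_eq_bot_iff_of_injective] at h1
      · rw [← map_derivedSeries_eq hπ k, h1, Subgroup.map_bot]
      · exact fun a b hab => Subtype.ext (hinj (congrArg Subtype.val hab))
    obtain ⟨e⟩ : Nonempty (Fin (p ^ (k + 1)) × ZMod p ≃ Fin (p ^ (k + 1 + 1))) :=
      ⟨Fintype.equivOfCardEq (by simp [ZMod.card, pow_succ])⟩
    let ε := e.permCongrHom.toMonoidHom
    have hε : Function.Injective ε := e.permCongrHom.injective
    refine ⟨V.map ε, hVp.map ε, fun h => hlong ?_⟩
    rw [eq_bot_iff]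
    intro v hv
    have := map_derivedSeries_eq (f := (Subgroup.equivMapOfInjective V ε hε).toMonoidHom)
      (Subgroup.equivMapOfInjective V ε hε).surjective (k + 1)
    rw [h, Subgroup.map_eq_bot_iff_of_injective] at this
    · rwa [this] at hv
    · exact (Subgroup.equivMapOfInjective V ε hε).injective


/-- Let p be a prime, n ≥ 1, and P a Sylow p-subgroup of the symmetric group on n letters. Then the derived length of P is exactly k = ⌊log_p n⌋ (the largest k with p^k ≤ n): the k-th derived subgroup of P is trivial and, when k ≥ 1, the (k−1)-st is not. -/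
theorem result (p : ℕ) [Fact p.Prime] (n : ℕ) (hn : 1 ≤ n) (P : Sylow p (Equiv.Perm (Fin n))) : derivedSeries ↥(P : Subgroup (Equiv.Perm (Fin n))) (Nat.log p n) = ⊥ ∧ (1 ≤ Nat.log p n → derivedSeries ↥(P : Subgroup (Equiv.Perm (Fin n))) (Nat.log p n - 1) ≠ ⊥) := by
  classical
  have hp : p.Prime := Fact.out
  refine ⟨?_, fun hk => ?_⟩
  · rw [eq_bot_iff]
    intro g hg
    have h := derived_le_ker P.2 (P : Subgroup (Equiv.Perm (Fin n))).subtype (Nat.log p n)
      (by rw [Nat.card_fin]; exact Nat.lt_pow_succ_log_self hp.one_lt n) hg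
    rw [MonoidHom.mem_ker] at h
    exact Subgroup.mem_bot.2 (Subtype.ext h)
  · obtain ⟨W, hWp, hW⟩ := exists_long (p := p) (Nat.log p n - 1)
    have hle : p ^ (Nat.log p n - 1 + 1) ≤ n := by
      rw [Nat.sub_add_cancel hk]; exact Nat.pow_log_le_self p (by omega)
    let ι : Equiv.Perm (Fin (p ^ (Nat.log p n - 1 + 1))) →* Equiv.Perm (Fin n) :=
      Equiv.Perm.extendDomainHom (Equiv.ofInjective (Fin.castLE hle) (Fin.castLE_injective hle))
    obtain ⟨S, hS⟩ := (hWp.map ι).exists_le_sylow
    let e := S.equiv P
    let f : W →* (P : Subgroup (Equiv.Perm (Fin n))) := e.toMonoidHom.comp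
      ((ι.comp W.subtype).codRestrict (S : Subgroup (Equiv.Perm (Fin n))) fun w => hS ⟨w, w.2, rfl⟩)
    have hf : Function.Injective f := fun a b h => Subtype.ext
      (Equiv.Perm.extendDomainHom_injective _ (congrArg Subtype.val (e.injective h)))
    intro h
    apply hW
    have h1 := map_derivedSeries_le_derivedSeries f (Nat.log p n - 1)
    rw [h, le_bot_iff, Subgroup.map_eq_bot_iff_of_injective _ hf] at h1
    exact h1

end Cfsg.Agent.S4014
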