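import Cfsg.Statements.S4015
import Mathlib
import Cfsg.Agent.Lib.GS.PLinearFinite

set_option autoImplicit false
open Cfsg

namespace Cfsg.Agent.S4015

open scoped commutatorElement Pointwise
open Cfsg.Agent.Lib.GS.PLinearDerived

variable {p : ℕ} [Fact p.Prime] {F : Type*} [Field F]

/-- A hom into the derived subgroup shifts the derived series by one. -/
theorem map_derived_succ {C W : Type*} [Group C] [Group W] (g : C →* W) (hg : g.range ≤ commutator W) :
    ∀ i, (derivedSeries C i).map g ≤ derivedSeries W (i + 1)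
  | 0 => by
    rw [derivedSeries_zero, ← MonoidHom.range_eq_map, derivedSeries_one]
    exact hg
  | i + 1 => by
    rw [derivedSeries_succ, Subgroup.map_commutator, derivedSeries_succ W (i + 1)]
    exact Subgroup.commutator_mono (map_derived_succ g hg i) (map_derived_succ g hg i)

/-- Transport of linear automorphisms. -/
def conjHom {M N : Type*} [AddCommGroup M] [Module F M] [AddCommGroup N] [Module F N] (e : M ≃ₗ[F] N) :
    (M ≃ₗ[F] M) →* (N ≃ₗ[F] N) where
  toFun f := e.symm ≪≫ₗ f ≪≫ₗ e
  map_one' := LinearEquiv.ext fun x => by simp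
  map_mul' f g := LinearEquiv.ext fun x => by simp

theorem conjHom_injective {M N : Type*} [AddCommGroup M] [Module F M] [AddCommGroup N] [Module F N]
    (e : M ≃ₗ[F] N) : Function.Injective (conjHom e) := fun f g h => LinearEquiv.ext fun x => by
  have := LinearEquiv.congr_fun h (e x)
  simpa [conjHom] using this

/-- The base group of the wreath product. -/
def blocks (p : ℕ) {M : Type*} [AddCommGroup M] [Module F M] (W : Subgroup (M ≃ₗ[F] M)) :
    (ZMod p → W) →* ((ZMod p → M) ≃ₗ[F] (ZMod p → M)) where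
  toFun f := LinearEquiv.piCongrRight fun a => (f a : M ≃ₗ[F] M)
  map_one' := LinearEquiv.ext fun _ => rfl
  map_mul' _ _ := LinearEquiv.ext fun _ => rfl

/-- The cyclic shift of the blocks. -/
def shift (p : ℕ) (M : Type*) [AddCommGroup M] [Module F M] : (ZMod p → M) ≃ₗ[F] (ZMod p → M) :=
  LinearEquiv.funCongrLeft F M (Equiv.addRight (-1 : ZMod p))

theorem shift_apply {M : Type*} [AddCommGroup M] [Module F M] (v : ZMod p → M) (a : ZMod p) :
    shift (F := F) p M v a = v (a - 1) := by
  simp [shift, sub_eq_add_neg]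

theorem shift_pow {M : Type*} [AddCommGroup M] [Module F M] (j : ℕ) (v : ZMod p → M) (a : ZMod p) :
    (shift (F := F) p M ^ j) v a = v (a - j) := by
  induction j generalizing v with
  | zero => simp
  | succ j ih =>
    rw [pow_succ, LinearEquiv.mul_apply, ih, shift_apply]
    push_cast
    rw [sub_sub]

/-- Adjoining one wreath level. -/
theorem step {d : ℕ} (W : Subgroup ((Fin d → F) ≃ₗ[F] (Fin d → F))) [Finite W] (hWp : IsPGroup p W) {k : ℕ}
    (hW : derivedSeries W k ≠ ⊥) :
    ∃ V : Subgroup ((Fin (p * d) → F) ≃ₗ[F] (Fin (p * d) → F)), Finite V ∧ IsPGroup p V ∧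
      derivedSeries V (k + 1) ≠ ⊥ := by
  have hp : p.Prime := Fact.out
  have : NeZero p := ⟨hp.ne_zero⟩
  set t := shift (F := F) p (Fin d → F) with ht
  let β := blocks p W
  let B := β.range
  have hinj : Function.Injective β := by
    intro f g h
    funext a
    apply Subtype.ext
    refine LinearEquiv.ext fun x => ?_
    have := congrFun (LinearEquiv.congr_fun h (fun _ => x)) a
    exact this
  have hconj : ∀ f : ZMod p → W, t * β f * t⁻¹ = β (fun a => f (a - 1)) := by
    intro f
    rw [mul_inv_eq_iff_eq_mul]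
    refine LinearEquiv.ext fun v => funext fun a => ?_
    simp only [LinearEquiv.mul_apply, t, shift_apply]
    show (f (a - 1) : (Fin d → F) ≃ₗ[F] (Fin d → F)) (v (a - 1)) = (f (a - 1) : (Fin d → F) ≃ₗ[F] (Fin d → F)) (shift (F := F) p (Fin d → F) v a)
    rw [shift_apply]
  have htp : t ^ p = 1 := by
    refine LinearEquiv.ext fun v => funext fun a => ?_
    rw [ht, shift_pow, ZMod.natCast_self, sub_zero]
    rfl
  have hnorm : Subgroup.zpowers t ≤ Subgroup.normalizer (B : Set ((ZMod p → Fin d → F) ≃ₗ[F] (ZMod p → Fin d → F))) := by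
    rw [Subgroup.zpowers_le, Subgroup.mem_normalizer_iff]
    intro g
    constructor
    · rintro ⟨f, rfl⟩; exact ⟨_, (hconj f).symm⟩
    · rintro ⟨f, hf⟩
      refine ⟨fun a => f (a + 1), ?_⟩
      have h1 := hconj (fun a => f (a + 1))
      simp only [sub_add_cancel] at h1
      exact mul_left_cancel (mul_right_cancel (h1.trans hf))
  have hBp : IsPGroup p B := by
    refine IsPGroup.of_surjective ?_ β.rangeRestrict β.rangeRestrict_surjective
    obtain ⟨a, ha⟩ := IsPGroup.iff_card.1 hWp
    exact IsPGroup.of_card (n := a * p) (by rw [Nat.card_fun, ha, Nat.card_zmod, pow_mul])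
  have hTp : IsPGroup p (Subgroup.zpowers t) := by
    rintro ⟨_, j, rfl⟩
    refine ⟨1, Subtype.ext ?_⟩
    simp only [pow_one, SubgroupClass.coe_pow, OneMemClass.coe_one]
    rw [← zpow_natCast, ← zpow_mul, mul_comm, zpow_mul, zpow_natCast, htp, one_zpow]
  let V := B ⊔ Subgroup.zpowers t
  have hVp : IsPGroup p V := hBp.to_sup_of_normal_left' hTp hnorm
  have : Finite B := Finite.of_surjective β.rangeRestrict β.rangeRestrict_surjective
  have : Finite (Subgroup.zpowers t) :=
    (isOfFinOrder_iff_pow_eq_one.2 ⟨p, hp.pos, htp⟩).finite_zpowers.to_subtype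
  have hfinV : Finite V := by
    have h := Subgroup.coe_mul_of_right_le_normalizer_left B (Subgroup.zpowers t) hnorm
    refine Set.Finite.to_subtype (s := (V : Set ((ZMod p → Fin d → F) ≃ₗ[F] (ZMod p → Fin d → F)))) ?_
    rw [h]
    exact Set.Finite.mul (Set.toFinite _) (Set.toFinite _)
  have hβV : ∀ f, β f ∈ V := fun f => Subgroup.mem_sup_left ⟨f, rfl⟩
  let γ : (ZMod p → W) →* V := β.codRestrict V hβV
  let C : Subgroup (ZMod p → W) := (commutator V).comap γ
  let π : C →* W := (Pi.evalMonoidHom (fun _ : ZMod p => ↥W) 0).comp C.subtype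
  have hπ : Function.Surjective π := by
    intro w
    let f : ZMod p → W := fun a => if a = 0 then w else 1
    have h1 : (f * (fun a => f (a - 1))⁻¹) ∈ C := by
      change γ (f * (fun a => f (a - 1))⁻¹) ∈ commutator V
      have e : γ (f * (fun a => f (a - 1))⁻¹) = ⁅γ f, ⟨t, Subgroup.mem_sup_right (Subgroup.mem_zpowers t)⟩⁆ := by
        apply Subtype.ext
        change β (f * (fun a => f (a - 1))⁻¹) = β f * t * (β f)⁻¹ * t⁻¹
        rw [map_mul, map_inv, ← hconj f]
        group
      rw [e]
      exact Subgroup.commutator_mem_commutator (Subgroup.mem_top _) (Subgroup.mem_top _)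
    refine ⟨⟨_, h1⟩, ?_⟩
    change f 0 * (f (0 - 1))⁻¹ = w
    simp [f, (neg_ne_zero.2 one_ne_zero : (-1 : ZMod p) ≠ 0)]
  have hlong : derivedSeries V (k + 1) ≠ ⊥ := by
    intro h
    apply hW
    have h1 := map_derived_succ (γ.comp C.subtype) (by rintro _ ⟨c, rfl⟩; exact c.2) k
    rw [h, le_bot_iff, Subgroup.map_eq_bot_iff_of_injective] at h1
    · rw [← map_derivedSeries_eq hπ k, h1, Subgroup.map_bot]
    · exact fun a b hab => Subtype.ext (hinj (congrArg Subtype.val hab))
  let e : (ZMod p → Fin d → F) ≃ₗ[F] (Fin (p * d) → F) := LinearEquiv.ofFinrankEq _ _ (by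
    simp [Module.finrank_pi_fintype, ZMod.card])
  let E := Subgroup.equivMapOfInjective V (conjHom e) (conjHom_injective e)
  refine ⟨V.map (conjHom e), Finite.of_equiv _ E.toEquiv, hVp.map _, fun h => hlong ?_⟩
  have h2 := map_derivedSeries_eq (f := E.toMonoidHom) E.surjective (k + 1)
  rw [h, Subgroup.map_eq_bot_iff_of_injective _ E.injective] at h2
  exact h2

/-- A long linear `p`-group. -/
theorem exists_long [Fintype F] {e : ℕ} (he : 0 < e) (hdvd : p ∣ Fintype.card F ^ e - 1) (k : ℕ) :
    ∃ (d : ℕ) (W : Subgroup ((Fin d → F) ≃ₗ[F] (Fin d → F))), d = e * p ^ k ∧ Finite W ∧ IsPGroup p W ∧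
      derivedSeries W k ≠ ⊥ := by
  have hp : p.Prime := Fact.out
  induction k with
  | zero =>
    have hd : p ∣ Nat.card (GL (Fin e) F) := by
      rw [Matrix.card_GL_field]
      refine Dvd.dvd.trans ?_ (Finset.dvd_prod_of_mem _ (Finset.mem_univ (⟨0, he⟩ : Fin e)))
      simpa using hdvd
    obtain ⟨x, hx⟩ := exists_prime_orderOf_dvd_card' p hd
    let Γ : GL (Fin e) F ≃* ((Fin e → F) ≃ₗ[F] (Fin e → F)) :=
      Matrix.GeneralLinearGroup.toLin.trans (LinearMap.GeneralLinearGroup.generalLinearEquiv F _)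
    refine ⟨e, Subgroup.zpowers (Γ x), by simp, ?_, ?_, ?_⟩
    · exact Nat.finite_of_card_ne_zero (by rw [Nat.card_zpowers, MulEquiv.orderOf_eq, hx]; exact hp.ne_zero)
    · exact IsPGroup.of_card (n := 1) (by rw [Nat.card_zpowers, MulEquiv.orderOf_eq, hx, pow_one])
    · rw [derivedSeries_zero]
      intro h
      have hc := congrArg (fun H : Subgroup (Subgroup.zpowers (Γ x)) => Nat.card H) h
      simp only [Subgroup.card_top, Subgroup.card_bot, Nat.card_zpowers, MulEquiv.orderOf_eq, hx] at hc
      exact hp.one_lt.ne' hc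
  | succ k ih =>
    obtain ⟨d, W, rfl, hWf, hWp, hW⟩ := ih
    obtain ⟨V, hVf, hVp, hV⟩ := step W hWp hW
    exact ⟨_, V, by rw [pow_succ]; ring, hVf, hVp, hV⟩


/-- Let p be an odd prime, F a finite field with q elements where p does not divide q, and e the multiplicative order of q modulo p. Let n ≥ e and write w = ⌊n/e⌋ and k = ⌊log_p w⌋. Then a Sylow p-subgroup of GL(n, F) has derived length exactly k + 1: its (k+1)-st derived subgroup is trivial and its k-th is not. -/
theorem result (p : ℕ) [Fact p.Prime] (hp : p ≠ 2) (F : Type*) [Field F] [Fintype F] (q : ℕ) (hq : Fintype.card F = q) (hpq : ¬ p ∣ q) (n : ℕ) (hn : orderOf (q : ZMod p) ≤ n) (P : Sylow p (Matrix.GeneralLinearGroup (Fin n) F)) : derivedSeries ↥(P : Subgroup (Matrix.GeneralLinearGroup (Fin n) F)) (Nat.log p (n / orderOf (q : ZMod p)) + 1) = ⊥ ∧ derivedSeries ↥(P : Subgroup (Matrix.GeneralLinearGroup (Fin n) F)) (Nat.log p (n / orderOf (q : ZMod p))) ≠ ⊥ := by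
  classical
  have hP := P.2
  have hp' : p.Prime := Fact.out
  have hcard : Nat.card F = q := by rw [Nat.card_eq_fintype_card, hq]
  have hqp : (q : ZMod p) ≠ 0 := fun h => hpq ((ZMod.natCast_eq_zero_iff q p).1 h)
  have he0 : 0 < orderOf (q : ZMod p) := by
    rw [orderOf_pos_iff, isOfFinOrder_iff_pow_eq_one]
    exact ⟨p - 1, by have := hp'.two_le; omega, ZMod.pow_card_sub_one_eq_one hqp⟩
  have hpF : (p : F) ≠ 0 := by
    intro h
    obtain ⟨r, hr⟩ := CharP.exists F
    obtain ⟨a, hrp, ha⟩ := FiniteField.card F r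
    obtain rfl := (Nat.prime_dvd_prime_iff_eq hrp hp').1 ((CharP.cast_eq_zero_iff F r p).1 h)
    exact hpq (by rw [← hq, ha]; exact dvd_pow_self _ a.ne_zero)
  set e := orderOf (q : ZMod p) with he
  constructor
  · let σ : Representation F (P : Subgroup (Matrix.GeneralLinearGroup (Fin n) F)) (Fin n → F) :=
      ((Matrix.toLinAlgEquiv' : Matrix (Fin n) (Fin n) F ≃ₐ[F] _).toMonoidHom.comp
        (Units.coeHom _)).comp (P : Subgroup (Matrix.GeneralLinearGroup (Fin n) F)).subtype
    have hσ : Function.Injective σ := fun a b h =>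
      Subtype.ext (Units.ext ((Matrix.toLinAlgEquiv' : Matrix (Fin n) (Fin n) F ≃ₐ[F] _).injective h))
    have key := Cfsg.Agent.Lib.GS.PLinearFinite.acts_finite hpF (b := p) le_rfl (by rw [hcard]; exact he0) n
      (Nat.log p (n / e) + 1) hP σ (Module.finrank_fin_fun F)
      (by rw [hcard, ← he]; exact Nat.lt_pow_succ_log_self hp'.one_lt _)
    rw [eq_bot_iff]
    intro g hg
    exact Subgroup.mem_bot.2 (hσ ((key g hg).trans (map_one σ).symm))
  · have hw : 1 ≤ n / e := (Nat.one_le_div_iff he0).2 hn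
    have hd : p ∣ Fintype.card F ^ e - 1 := by
      rw [hq, ← ZMod.natCast_eq_zero_iff, Nat.cast_sub (Nat.one_le_pow _ _ (by
        rw [← hq]; exact Fintype.card_pos))]
      push_cast
      rw [he, pow_orderOf_eq_one, sub_self]
    obtain ⟨d, W, hd', hWf, hWp, hW⟩ := exists_long he0 hd (Nat.log p (n / e))
    have hdn : d ≤ n := by
      rw [hd']
      calc e * p ^ Nat.log p (n / e) ≤ e * (n / e) := Nat.mul_le_mul_left _ (Nat.pow_log_le_self p (by omega))
        _ ≤ n := Nat.mul_div_le n e
    let e₀ : ((Fin d → F) × (Fin (n - d) → F)) ≃ₗ[F] (Fin n → F) := LinearEquiv.ofFinrankEq _ _ (by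
      simp [Module.finrank_prod]; omega)
    let pr : ((Fin d → F) ≃ₗ[F] (Fin d → F)) →*
        (((Fin d → F) × (Fin (n - d) → F)) ≃ₗ[F] ((Fin d → F) × (Fin (n - d) → F))) :=
      { toFun := fun f => f.prodCongr (LinearEquiv.refl F _)
        map_one' := LinearEquiv.ext fun _ => rfl
        map_mul' := fun _ _ => LinearEquiv.ext fun _ => rfl }
    let Γ : GL (Fin n) F ≃* ((Fin n → F) ≃ₗ[F] (Fin n → F)) :=
      Matrix.GeneralLinearGroup.toLin.trans (LinearMap.GeneralLinearGroup.generalLinearEquiv F _)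
    let ι : ((Fin d → F) ≃ₗ[F] (Fin d → F)) →* GL (Fin n) F :=
      Γ.symm.toMonoidHom.comp ((conjHom e₀).comp pr)
    have hι : Function.Injective ι := fun f g h => LinearEquiv.ext fun x => by
      have := congrArg Prod.fst (LinearEquiv.congr_fun (conjHom_injective e₀ (Γ.symm.injective h)) (x, 0))
      exact this
    obtain ⟨S, hS⟩ := (hWp.map ι).exists_le_sylow
    let ε := S.equiv P
    let f : W →* (P : Subgroup (GL (Fin n) F)) := ε.toMonoidHom.comp
      ((ι.comp W.subtype).codRestrict (S : Subgroup (GL (Fin n) F)) fun w => hS ⟨w, w.2, rfl⟩)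
    have hf : Function.Injective f := fun a b h =>
      Subtype.ext (hι (congrArg Subtype.val (ε.injective h)))
    intro h
    apply hW
    have h1 := map_derivedSeries_le_derivedSeries f (Nat.log p (n / e))
    rw [h, le_bot_iff, Subgroup.map_eq_bot_iff_of_injective _ hf] at h1
    exact h1

end Cfsg.Agent.S4015
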