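import Cfsg.Statements.S4023
import Cfsg.Agent.Lib.GS.ConjPSub

set_option autoImplicit false
open Cfsg

namespace Cfsg.Agent.S4023

theorem iso_of_conj {G : Type*} [Group G] {p : ℕ}
    (hC : ∀ H K : Subgroup G, IsPGroup p H → IsPGroup p K → Nat.card H = Nat.card K →
      ∃ g : G, K = H.map (MulAut.conj g).toMonoidHom) (P : Sylow p G)
    (A B : Subgroup (P : Subgroup G)) (hAB : Nat.card A = Nat.card B) : Nonempty (A ≃* B) := by
  have hi := Subgroup.subtype_injective (P : Subgroup G)
  obtain ⟨g, hg⟩ := hC (A.map (P : Subgroup G).subtype) (B.map (P : Subgroup G).subtype)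
    ((P.2.to_subgroup A).map _) ((P.2.to_subgroup B).map _)
    (by rw [Subgroup.card_map_of_injective hi, Subgroup.card_map_of_injective hi, hAB])
  exact ⟨(A.equivMapOfInjective _ hi).trans
    (((A.map (P : Subgroup G).subtype).equivMapOfInjective _ (MulAut.conj g).injective).trans
      ((MulEquiv.subgroupCongr hg.symm).trans (B.equivMapOfInjective _ hi).symm))⟩


/-- Let p be a prime and G a finite group in which any two p-subgroups of the same order are conjugate, with Sylow p-subgroup P. Then P is cyclic, or elementary abelian, or p = 2 and P is a quaternion group of order 8, or p is odd and P is non-abelian of order p³ and exponent p. -/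
theorem result {G : Type*} [Group G] [Finite G]
    {p : ℕ} [Fact p.Prime] (hC : ∀ H K : Subgroup G, IsPGroup p H → IsPGroup p K → Nat.card H = Nat.card K →
      ∃ g : G, K = H.map (MulAut.conj g).toMonoidHom) (P : Sylow p G) :
    IsCyclic P ∨ Cfsg.IsElementaryAbelian p (P : Subgroup G) ∨
      (p = 2 ∧ Nonempty ((P : Subgroup G) ≃* QuaternionGroup 2)) ∨
      (p ≠ 2 ∧ ¬ IsMulCommutative P ∧ Nat.card P = p ^ 3 ∧ Monoid.exponent P = p) := by
  rcases Cfsg.Agent.Lib.GS.ConjPSub.classify P.2 (iso_of_conj hC P) with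
    h | ⟨h, hp⟩ | h | ⟨hp2, hc, hcard, hexp⟩
  · exact Or.inl h
  · exact Or.inr (Or.inl ⟨h, fun a ha => congrArg Subtype.val (hp ⟨a, ha⟩)⟩)
  · exact Or.inr (Or.inr (Or.inl h))
  · refine Or.inr (Or.inr (Or.inr ⟨hp2, hc, hcard, ?_⟩))
    have hd : Monoid.exponent P ∣ p := Monoid.exponent_dvd_of_forall_pow_eq_one hexp
    rcases (Nat.dvd_prime (Fact.out : p.Prime)).1 hd with h1 | h1
    · haveI := Monoid.exp_eq_one_iff.1 h1
      exact absurd ⟨⟨fun a b => Subsingleton.elim _ _⟩⟩ hc
    · exact h1

end Cfsg.Agent.S4023
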