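import Cfsg.Statements.S4020
import Mathlib
import Cfsg.Agent.S4023
import Cfsg.Agent.Lib.Involution.ZStar
import Cfsg.Agent.Lib.Hall.Basic

set_option autoImplicit false
open Cfsg

namespace Cfsg.Agent.S4020

open Subgroup

theorem q8_invol : ∀ q : QuaternionGroup 2, q * q = 1 → q = 1 ∨ q = QuaternionGroup.a 2 := by decide

theorem q8_pow_four : ∀ q : QuaternionGroup 2, q * q * (q * q) = 1 := by decide

/-- The extraspecial case of exponent `p` does not occur. -/
theorem no_extraspecial {G : Type*} [Group G] [Finite G]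
    (hD : ∀ q : ℕ, q.Prime → ∀ H K : Subgroup G, IsPGroup q H → IsPGroup q K → Nat.card H = Nat.card K →
      ∃ g : G, K = H.map (MulAut.conj g).toMonoidHom) {p : ℕ} [Fact p.Prime] (hp2 : p ≠ 2) (P : Sylow p G)
    (hnc : ¬ IsMulCommutative (P : Subgroup G)) (hcard : Nat.card (P : Subgroup G) = p ^ 3)
    (hexp : ∀ x ∈ (P : Subgroup G), x ^ p = 1) : False := by
  classical
  have hp : p.Prime := Fact.out
  obtain ⟨y, hy, u, hu, huy⟩ : ∃ y ∈ (P : Subgroup G), ∃ u ∈ (P : Subgroup G), u * y * u⁻¹ * y⁻¹ ≠ 1 := by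
    by_contra! h
    exact hnc ⟨⟨fun a b => Subtype.ext (mul_inv_eq_iff_eq_mul.1 (mul_inv_eq_one.1 (h b b.2 a a.2)))⟩⟩
  set c := u * y * u⁻¹ * y⁻¹ with hc
  have hcP : c ∈ (P : Subgroup G) := mul_mem (mul_mem (mul_mem hu hy) (inv_mem hu)) (inv_mem hy)
  -- the centre of `P`
  set C := (center (P : Subgroup G)).map (P : Subgroup G).subtype with hC
  have hCP : ∀ z ∈ C, ∀ x ∈ (P : Subgroup G), Commute z x := by
    rintro _ ⟨z, hz, rfl⟩ x hx
    exact (congrArg Subtype.val (mem_center_iff.1 hz ⟨x, hx⟩)).symm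
  obtain ⟨hcC, hCcard⟩ : (∀ a ∈ (P : Subgroup G), ∀ b ∈ (P : Subgroup G), a * b * a⁻¹ * b⁻¹ ∈ C) ∧ Nat.card C = p := by
    haveI : Nontrivial (P : Subgroup G) := Finite.one_lt_card_iff_nontrivial.1 (by
      rw [hcard]; exact Nat.one_lt_pow (by norm_num) hp.one_lt)
    haveI := P.2.center_nontrivial
    obtain ⟨i, hi⟩ := IsPGroup.iff_card.1 (P.2.to_subgroup (center (P : Subgroup G)))
    have hi0 : i ≠ 0 := fun h => (Finite.one_lt_card (α := center (P : Subgroup G))).ne' (by rw [hi, h, pow_zero])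
    have hidx := (center (P : Subgroup G)).card_mul_index
    rw [hi, hcard] at hidx
    have hq : Nat.card ((P : Subgroup G) ⧸ center (P : Subgroup G)) = p ^ (3 - i) := by
      rw [← index_eq_card]
      have hi3 : i ≤ 3 := (Nat.pow_dvd_pow_iff_le_right hp.one_lt).1 ⟨_, hidx.symm⟩
      exact Nat.eq_of_mul_eq_mul_left (pow_pos hp.pos i) (by rw [hidx, ← pow_add]; congr 1; omega)
    have hi1 : i = 1 := by
      by_contra hne
      refine hnc ?_
      haveI : IsCyclic ((P : Subgroup G) ⧸ center (P : Subgroup G)) := by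
        rcases (show 3 - i = 0 ∨ 3 - i = 1 by omega) with h | h <;> rw [h] at hq
        · haveI := (Nat.card_eq_one_iff_unique.1 (hq.trans (pow_zero p))).1
          infer_instance
        · exact isCyclic_of_prime_card (p := p) (hq.trans (pow_one p))
      exact isMulCommutative_of_isCyclic_quotient_center_self (G := (P : Subgroup G))
    subst hi1
    refine ⟨fun a ha b hb => ⟨⟨a, ha⟩ * ⟨b, hb⟩ * ⟨a, ha⟩⁻¹ * ⟨b, hb⟩⁻¹, ?_, rfl⟩,
      by rw [hC, card_map_of_injective (P : Subgroup G).subtype_injective, hi, pow_one]⟩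
    haveI hab : IsMulCommutative ((P : Subgroup G) ⧸ center (P : Subgroup G)) :=
      IsPGroup.isMulCommutative_of_card_eq_prime_sq (p := p) (by rw [hq])
    rw [SetLike.mem_coe, ← QuotientGroup.eq_one_iff]
    change QuotientGroup.mk' _ _ = 1
    rw [map_mul, map_mul, map_mul, map_inv, map_inv, hab.1.1 (QuotientGroup.mk' _ ⟨a, ha⟩)]
    group
  have hord : ∀ x ∈ (P : Subgroup G), x ≠ 1 → orderOf x = p := fun x hx hx1 => orderOf_eq_prime (hexp x hx) hx1
  have hco : orderOf c = p := hord c hcP huy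
  have hCc : C = zpowers c := (eq_of_le_of_card_ge (zpowers_le.2 (hcC u hu y hy))
    (by rw [hCcard, Nat.card_zpowers, hco])).symm
  have hy1 : y ≠ 1 := fun h => huy (by rw [hc, h]; simp)
  have hyo : orderOf y = p := hord y hy hy1
  have hcy : Commute c y := hCP c (hcC u hu y hy) y hy
  -- move `⟨c, y⟩` so that `y` becomes central
  obtain ⟨g, hgc, hgP⟩ : ∃ g : G, g⁻¹ * y * g ∈ C ∧ g⁻¹ * c * g ∈ (P : Subgroup G) := by
    obtain ⟨g0, hg0⟩ := hD p hp (zpowers c) (zpowers y)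
      (IsPGroup.of_card (n := 1) (by rw [Nat.card_zpowers, hco, pow_one]))
      (IsPGroup.of_card (n := 1) (by rw [Nat.card_zpowers, hyo, pow_one]))
      (by rw [Nat.card_zpowers, Nat.card_zpowers, hco, hyo])
    obtain ⟨c', hc', hcy'⟩ : y ∈ (zpowers c).map (MulAut.conj g0).toMonoidHom := hg0 ▸ mem_zpowers y
    have hyC : g0⁻¹ * y * g0 ∈ C := by
      rw [← hcy', hCc]
      simpa [mul_assoc] using hc'
    set K := centralizer ({y} : Set G) with hK
    have hgP0 : (g0 • P : Sylow p G).toSubgroup ≤ K := by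
      intro x hx
      rw [Sylow.coe_subgroup_smul] at hx
      obtain ⟨x', hx', rfl⟩ := hx
      refine mem_centralizer_singleton_iff.2 ?_
      have hcx := (hCP _ hyC x' hx').eq
      change g0 * x' * g0⁻¹ * y = y * (g0 * x' * g0⁻¹)
      calc g0 * x' * g0⁻¹ * y = g0 * (x' * (g0⁻¹ * y * g0)) * g0⁻¹ := by group
        _ = y * (g0 * x' * g0⁻¹) := by rw [← hcx]; group
    let R0 : Sylow p K := (g0 • P : Sylow p G).subtype hgP0
    have hcK : c ∈ K := mem_centralizer_singleton_iff.2 hcy.eq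
    have hcp : IsPGroup p (zpowers (⟨c, hcK⟩ : K)) :=
      IsPGroup.of_card (n := 1) (by rw [Nat.card_zpowers, Subgroup.orderOf_mk, hco, pow_one])
    obtain ⟨T, hT⟩ := hcp.exists_le_sylow
    obtain ⟨d, hd⟩ := MulAction.exists_smul_eq K R0 T
    refine ⟨(d : G) * g0, ?_, ?_⟩
    · have hdy := mem_centralizer_singleton_iff.1 d.2
      rw [show ((d : G) * g0)⁻¹ * y * ((d : G) * g0) = g0⁻¹ * ((d : G)⁻¹ * (y * d)) * g0 by group, ← hdy,
        inv_mul_cancel_left]
      exact hyC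
    · have hcT := hT (mem_zpowers _)
      rw [← hd, Sylow.coe_subgroup_smul] at hcT
      obtain ⟨x, hx, hxc⟩ := hcT
      have hx' : (x : G) ∈ (g0 • P : Sylow p G).toSubgroup := hx
      rw [Sylow.coe_subgroup_smul] at hx'
      obtain ⟨x', hx'P, hxx'⟩ := hx'
      have hxc' : (d : G) * x * (d : G)⁻¹ = c := congrArg Subtype.val hxc
      have hxx : g0 * x' * g0⁻¹ = (x : G) := hxx'
      have : ((d : G) * g0)⁻¹ * c * ((d : G) * g0) = x' := by rw [← hxc', ← hxx]; group
      exact this ▸ hx'P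
  have hy0 : g⁻¹ * y * g ≠ 1 := fun h => hy1 (by
    calc y = g * (g⁻¹ * y * g) * g⁻¹ := by group
      _ = 1 := by rw [h]; group)
  have hCy : C = zpowers (g⁻¹ * y * g) := (eq_of_le_of_card_ge (zpowers_le.2 hgc) (by
    rw [hCcard, Nat.card_zpowers, show g⁻¹ * y * g = MulAut.conj g⁻¹ y by simp, MulEquiv.orderOf_eq, hyo])).symm
  -- the second transvection
  obtain ⟨r, hrP, hry, hrc⟩ : ∃ r : G, r⁻¹ * r = 1 ∧ r * y * r⁻¹ = y ∧
      ((∃ x ∈ (P : Subgroup G), r = g * x * g⁻¹) ∧ r * c * r⁻¹ = y⁻¹ * c) := by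
    obtain ⟨x, hxP, hx⟩ : ∃ x ∈ (P : Subgroup G), x * (g⁻¹ * c * g) * x⁻¹ * (g⁻¹ * c * g)⁻¹ ≠ 1 := by
      by_contra! h
      -- otherwise `c` lies in the centre after conjugation
      have hcent : g⁻¹ * c * g ∈ C := ⟨⟨_, hgP⟩, mem_center_iff.2 fun b =>
        Subtype.ext (mul_inv_eq_iff_eq_mul.1 (mul_inv_eq_one.1 (h b b.2))), rfl⟩
      rw [hCy] at hcent
      obtain ⟨i, hi⟩ := mem_zpowers_iff.1 hcent
      have hci : c = y ^ i := by
        have e := conj_zpow (a := g⁻¹) (b := y) (i := i)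
        rw [inv_inv] at e
        rw [e] at hi
        exact (mul_left_cancel (mul_right_cancel hi)).symm
      refine huy ?_
      have hcu : Commute u c := (hCP c (hcC u hu y hy) u hu).symm
      obtain ⟨d, hd⟩ : ∃ d : ℤ, y = c ^ d := by
        have : y ∈ zpowers c := by
          rw [eq_of_le_of_card_ge (zpowers_le.2 (show c ∈ zpowers y from hci ▸ zpow_mem (mem_zpowers y) i))
            (by rw [Nat.card_zpowers, Nat.card_zpowers, hco, hyo])]
          exact mem_zpowers y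
        obtain ⟨d, hd⟩ := mem_zpowers_iff.1 this
        exact ⟨d, hd.symm⟩
      rw [hc, hd, (hcu.zpow_right d).eq, mul_inv_cancel_right, mul_inv_cancel]
    set c0 := g⁻¹ * c * g with hc0
    have hxc := hcC x hxP c0 hgP
    rw [hCy] at hxc
    obtain ⟨b, hb⟩ := mem_zpowers_iff.1 hxc
    have hbp : ¬ (p : ℤ) ∣ b := by
      intro hdvd
      refine hx ?_
      rw [← hb, ← orderOf_dvd_iff_zpow_eq_one, show g⁻¹ * y * g = MulAut.conj g⁻¹ y by simp, MulEquiv.orderOf_eq, hyo]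
      exact hdvd
    obtain ⟨k, l, hkl⟩ : IsCoprime b (p : ℤ) := ((Nat.prime_iff_prime_int.1 hp).coprime_iff_not_dvd.2 hbp).symm
    obtain ⟨s, hs⟩ : ∃ s : ℕ, (p : ℤ) ∣ (s : ℤ) * b + 1 := by
      refine ⟨((-k) % p).toNat, ?_⟩
      rw [Int.toNat_of_nonneg (Int.emod_nonneg _ (by exact_mod_cast hp.ne_zero))]
      have := Int.mul_ediv_add_emod (-k) p
      exact ⟨-((-k) / p) * b + l, by linear_combination b * this - hkl⟩
    set y0 := g⁻¹ * y * g with hy0def
    have hy0c : Commute x y0 := (hCP y0 hgc x hxP).symm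
    have hit : ∀ j : ℕ, x ^ j * c0 * (x ^ j)⁻¹ = (y0 ^ b) ^ j * c0 := by
      intro j
      induction j with
      | zero => simp
      | succ j ih =>
        have e : x * c0 * x⁻¹ = y0 ^ b * c0 := by rw [hb, inv_mul_cancel_right]
        calc x ^ (j + 1) * c0 * (x ^ (j + 1))⁻¹ = x * (x ^ j * c0 * (x ^ j)⁻¹) * x⁻¹ := by rw [pow_succ']; group
          _ = x * (y0 ^ b) ^ j * c0 * x⁻¹ := by rw [ih]; group
          _ = (y0 ^ b) ^ j * (x * c0 * x⁻¹) := by rw [((hy0c.zpow_right b).pow_right j).eq]; group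
          _ = (y0 ^ b) ^ (j + 1) * c0 := by rw [e, pow_succ, mul_assoc]
    have hpow : (y0 ^ b) ^ s = y0⁻¹ := by
      rw [← zpow_natCast, ← zpow_mul, eq_inv_iff_mul_eq_one, ← zpow_add_one, ← orderOf_dvd_iff_zpow_eq_one, hy0def,
        show g⁻¹ * y * g = MulAut.conj g⁻¹ y by simp, MulEquiv.orderOf_eq, hyo, mul_comm]
      exact hs
    refine ⟨g * x ^ s * g⁻¹, inv_mul_cancel _, ?_, ⟨x ^ s, pow_mem hxP s, rfl⟩, ?_⟩
    · calc g * x ^ s * g⁻¹ * y * (g * x ^ s * g⁻¹)⁻¹ = g * (x ^ s * y0 * (x ^ s)⁻¹) * g⁻¹ := by rw [hy0def]; group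
        _ = g * y0 * g⁻¹ := by rw [(hy0c.pow_left s).eq, mul_inv_cancel_right]
        _ = y := by rw [hy0def]; group
    · calc g * x ^ s * g⁻¹ * c * (g * x ^ s * g⁻¹)⁻¹ = g * (x ^ s * c0 * (x ^ s)⁻¹) * g⁻¹ := by rw [hc0]; group
        _ = g * (y0⁻¹ * c0) * g⁻¹ := by rw [hit, hpow]
        _ = y⁻¹ * c := by rw [hy0def, hc0]; group
  obtain ⟨⟨x, hxP, hrx⟩, hrc⟩ := hrc
  have huy' : u * y * u⁻¹ = c * y := by rw [hc, inv_mul_cancel_right]
  have huc : u * c * u⁻¹ = c := mul_inv_eq_iff_eq_mul.2 (hCP c (hcC u hu y hy) u hu).eq.symm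
  set w := u * r * u with hw
  have hwc : w * c * w⁻¹ = y⁻¹ := by
    calc w * c * w⁻¹ = u * (r * (u * c * u⁻¹) * r⁻¹) * u⁻¹ := by rw [hw]; group
      _ = u * (r * c * r⁻¹) * u⁻¹ := by rw [huc]
      _ = (u * y * u⁻¹)⁻¹ * (u * c * u⁻¹) := by rw [hrc]; group
      _ = y⁻¹ := by rw [huy', huc, mul_inv_rev, inv_mul_cancel_right]
  have hwy : w * y * w⁻¹ = c := by
    calc w * y * w⁻¹ = u * (r * (u * y * u⁻¹) * r⁻¹) * u⁻¹ := by rw [hw]; group
      _ = u * ((r * c * r⁻¹) * (r * y * r⁻¹)) * u⁻¹ := by rw [huy']; group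
      _ = u * (y⁻¹ * c * y) * u⁻¹ := by rw [hrc, hry]
      _ = c := by rw [show y⁻¹ * c * y = c by rw [mul_assoc, hcy.eq, inv_mul_cancel_left], huc]
  have hw2c : w ^ 2 * c * (w ^ 2)⁻¹ = c⁻¹ := by
    calc w ^ 2 * c * (w ^ 2)⁻¹ = w * (w * c * w⁻¹) * w⁻¹ := by rw [sq]; group
      _ = (w * y * w⁻¹)⁻¹ := by rw [hwc]; group
      _ = c⁻¹ := by rw [hwy]
  have hw2y : w ^ 2 * y * (w ^ 2)⁻¹ = y⁻¹ := by
    calc w ^ 2 * y * (w ^ 2)⁻¹ = w * (w * y * w⁻¹) * w⁻¹ := by rw [sq]; group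
      _ = y⁻¹ := by rw [hwy, hwc]
  -- the `2`-part
  obtain ⟨e, m, hm, hem⟩ := Nat.exists_eq_pow_mul_and_not_dvd (orderOf_pos w).ne' 2 (by norm_num)
  set h := w ^ m with hh
  have hho : orderOf h = 2 ^ e := by
    rw [hh, orderOf_pow, hem, Nat.gcd_mul_left_left, mul_comm,
      Nat.mul_div_cancel_left _ (Nat.pos_of_ne_zero fun h0 => hm (by rw [h0]; exact dvd_zero 2))]
  have hinv : ∀ a : G, w ^ 2 * a * (w ^ 2)⁻¹ = a⁻¹ → h ^ 2 * a * (h ^ 2)⁻¹ = a⁻¹ := by
    intro a ha
    obtain ⟨n, hn⟩ : ∃ n, m = 2 * n + 1 := ⟨m / 2, by omega⟩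
    have h4 : Commute (w ^ 4) a := by
      refine mul_inv_eq_iff_eq_mul.1 ?_
      calc w ^ 4 * a * (w ^ 4)⁻¹ = w ^ 2 * (w ^ 2 * a * (w ^ 2)⁻¹) * (w ^ 2)⁻¹ := by
            rw [show (4 : ℕ) = 2 + 2 from rfl, pow_add]; group
        _ = w ^ 2 * a⁻¹ * (w ^ 2)⁻¹ := by rw [ha]
        _ = (w ^ 2 * a * (w ^ 2)⁻¹)⁻¹ := by group
        _ = a := by rw [ha, inv_inv]
    calc h ^ 2 * a * (h ^ 2)⁻¹ = w ^ 2 * ((w ^ 4) ^ n * a * ((w ^ 4) ^ n)⁻¹) * (w ^ 2)⁻¹ := by
          rw [hh, ← pow_mul, hn, show (2 * n + 1) * 2 = 2 + 4 * n by ring, pow_add, pow_mul]; group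
      _ = a⁻¹ := by rw [(h4.pow_left n).eq, mul_inv_cancel_right, ha]
  have hh2 : h ^ 2 ≠ 1 := fun h0 => by
    have := hinv c hw2c
    rw [h0] at this
    simp only [one_mul, inv_one, mul_one] at this
    have h2 : orderOf c ∣ 2 := orderOf_dvd_of_pow_eq_one (by rw [sq]; exact eq_inv_iff_mul_eq_one.1 this)
    rw [hco] at h2
    exact hp2 ((Nat.prime_dvd_prime_iff_eq hp Nat.prime_two).1 h2)
  haveI : Fact (Nat.Prime 2) := ⟨Nat.prime_two⟩
  have he2 : 2 ≤ e := by
    by_contra hlt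
    exact hh2 (orderOf_dvd_iff_pow_eq_one.1 (hho ▸ (pow_dvd_pow 2 (show e ≤ 1 by omega)).trans (pow_one 2).dvd))
  have hpodd : Odd p := hp.odd_of_ne_two hp2
  have hwne : ∀ K : Subgroup G, Odd (Nat.card K) → w ∉ K := by
    intro K hK hwK
    have h1 : Odd (orderOf w) := hK.of_dvd_nat (by
      have := orderOf_dvd_natCard (⟨w, hwK⟩ : K)
      rwa [Subgroup.orderOf_mk] at this)
    exact (Nat.not_even_iff_odd.2 h1) (even_iff_two_dvd.2 (hem ▸ dvd_mul_of_dvd_left (dvd_pow_self 2 (by omega)) m))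
  -- the Sylow `2`-subgroup containing `h`
  obtain ⟨S, hS⟩ := (IsPGroup.of_card (n := e) (by rw [Nat.card_zpowers, hho]) :
    IsPGroup 2 (zpowers h)).exists_le_sylow
  have hhS : h ∈ (S : Subgroup G) := hS (mem_zpowers h)
  have heven : 2 ∣ Nat.card G :=
    ((dvd_pow_self 2 (show e ≠ 0 by omega)).trans hho.symm.dvd).trans (orderOf_dvd_natCard h)
  rcases Cfsg.Agent.S4023.result (fun H K => hD 2 Nat.prime_two H K) S with hcyc | hel | ⟨-, ⟨e8⟩⟩ | ⟨h2, -⟩
  · -- a cyclic Sylow 2-subgroup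
    have hmin : (Nat.card G).minFac = 2 := (Nat.minFac_eq_two_iff _).2 heven
    have hc' := IsCyclic.isComplement' hmin hcyc
    set K := (MonoidHom.transferSylow S (hcyc.normalizer_le_centralizer hmin)).ker
    have hKodd : Odd (Nat.card K) := by
      rw [← hc'.index_eq_card]
      exact Nat.not_even_iff_odd.1 fun he => S.not_dvd_index (even_iff_two_dvd.1 he)
    have hmemK : ∀ a : G, a ^ p = 1 → a ∈ K := by
      intro a ha
      rw [← QuotientGroup.eq_one_iff, ← orderOf_eq_one_iff]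
      refine Nat.eq_one_of_dvd_coprimes (((Nat.coprime_two_right.2 hpodd)).pow_right ((Nat.card G).factorization 2))
        ((orderOf_map_dvd (QuotientGroup.mk' K) a).trans (orderOf_dvd_of_pow_eq_one ha)) ?_
      rw [← S.card_eq_multiplicity, ← hc'.symm.index_eq_card, index_eq_card]
      exact orderOf_dvd_natCard _
    refine hwne K hKodd (mul_mem (mul_mem (hmemK u (hexp u hu)) (hmemK r ?_)) (hmemK u (hexp u hu)))
    rw [hrx, conj_pow, hexp x hxP]; group
  · exact hh2 (hel.2 h hhS)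
  · -- a quaternion Sylow 2-subgroup
    set t := h ^ 2 with ht
    have hto : orderOf t = 2 := by
      refine orderOf_eq_prime ?_ hh2
      rw [ht, ← pow_mul]
      have h4 : (⟨h, hhS⟩ : (S : Subgroup G)) ^ 4 = 1 := e8.injective (by
        rw [map_pow, map_one, show (4 : ℕ) = 2 + 2 from rfl, pow_add, sq]
        exact q8_pow_four _)
      exact congrArg Subtype.val h4
    have hiso : Cfsg.IsIsolatedInvolution t := by
      refine ⟨hto, fun g' hg' => ?_⟩
      by_contra hne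
      obtain ⟨E, hE, htE, htE'⟩ := Cfsg.Agent.Lib.Involution.exists_klein_of_commute hto
        (((show g' * t * g'⁻¹ = MulAut.conj g' t from rfl) ▸ MulEquiv.orderOf_eq (MulAut.conj g') t).trans hto) hg' (Ne.symm hne)
      obtain ⟨T, hT⟩ := (IsPGroup.of_card (n := 2) (hE.card_four.trans (by norm_num)) : IsPGroup 2 E).exists_le_sylow
      obtain ⟨d, hd⟩ := MulAction.exists_smul_eq G T S
      have key : ∀ a ∈ E, a ≠ 1 → d * a * d⁻¹ = ((e8.symm (QuaternionGroup.a 2) : (S : Subgroup G)) : G) := by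
        intro a ha ha1
        have hmem : d * a * d⁻¹ ∈ (S : Subgroup G) := by
          rw [← hd, Sylow.coe_subgroup_smul]
          exact Subgroup.smul_mem_pointwise_smul a (MulAut.conj d) _ (hT ha)
        have haa : a * a = 1 := by
          have := Monoid.pow_exponent_eq_one (⟨a, ha⟩ : E)
          rw [hE.exponent_two, sq] at this
          exact congrArg Subtype.val this
        have hq : e8 ⟨_, hmem⟩ * e8 ⟨_, hmem⟩ = 1 := by
          rw [← map_mul, ← map_one e8]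
          refine congrArg e8 (Subtype.ext ?_)
          change d * a * d⁻¹ * (d * a * d⁻¹) = 1
          calc d * a * d⁻¹ * (d * a * d⁻¹) = d * (a * a) * d⁻¹ := by group
            _ = 1 := by rw [haa]; group
        rcases q8_invol _ hq with h1 | h1
        · exfalso
          rw [← map_one e8] at h1
          have := congrArg Subtype.val (e8.injective h1)
          exact ha1 (by simpa using this)
        · rw [← h1, MulEquiv.symm_apply_apply]
      refine hne ?_
      have := (key _ htE' (fun h1 => hh2 (conj_eq_one_iff.1 h1))).trans (key t htE hh2).symm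
      exact mul_left_cancel (mul_right_cancel this)
    have hz := Cfsg.Agent.Lib.Involution.zstar hiso
    set O := Cfsg.oddCore G with hO
    haveI : O.Normal := Cfsg.Agent.Lib.Hall.pPrimeCore_normal 2
    have hyO : y ∈ O := by
      have h1 := hz y
      rw [hinv y hw2y] at h1
      obtain ⟨n, hn⟩ := hpodd
      have h2 : (y⁻¹ * y⁻¹) ^ n ∈ O := pow_mem h1 n
      have h3 : y = (y⁻¹ * y⁻¹) ^ n := by
        have hyp : y ^ p = 1 := hexp y hy
        rw [← sq, ← pow_mul, inv_pow, eq_inv_iff_mul_eq_one, ← pow_succ', ← hn, hyp]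
      rw [h3]; exact h2
    have hall : ∀ a : G, orderOf a = p → a ∈ O := by
      intro a ha
      obtain ⟨d, hd⟩ := hD p hp (zpowers y) (zpowers a)
        (IsPGroup.of_card (n := 1) (by rw [Nat.card_zpowers, hyo, pow_one]))
        (IsPGroup.of_card (n := 1) (by rw [Nat.card_zpowers, ha, pow_one]))
        (by rw [Nat.card_zpowers, Nat.card_zpowers, hyo, ha])
      obtain ⟨z, hzy, hza⟩ : a ∈ (zpowers y).map (MulAut.conj d).toMonoidHom := hd ▸ mem_zpowers a
      rw [← hza]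
      exact ‹O.Normal›.conj_mem z (zpowers_le.2 hyO hzy) d
    have hu1 : u ≠ 1 := fun h => huy (by rw [hc, h]; simp)
    have hr1 : r ≠ 1 := fun h0 => hy1 (by
      rw [h0] at hrc
      simp only [one_mul, inv_one, mul_one] at hrc
      exact inv_eq_one.1 (mul_eq_right.1 hrc.symm))
    refine hwne O (Nat.coprime_two_right.1 (Cfsg.Agent.Lib.Hall.coprime_card_pPrimeCore 2))
      (mul_mem (mul_mem (hall u (hord u hu hu1)) (hall r (orderOf_eq_prime ?_ hr1))) (hall u (hord u hu hu1)))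
    rw [hrx, conj_pow, hexp x hxP]; group
  · exact h2 rfl

/-- Let G be a finite group in which, for every prime p, any two p-subgroups of the same order are conjugate. Then every Sylow subgroup of G is cyclic, elementary abelian, or a quaternion group of order 8. -/
theorem result {G : Type*} [Group G] [Finite G]
    (hD : ∀ p : ℕ, p.Prime → ∀ H K : Subgroup G, IsPGroup p H → IsPGroup p K → Nat.card H = Nat.card K →
      ∃ g : G, K = H.map (MulAut.conj g).toMonoidHom) {p : ℕ} [Fact p.Prime] (P : Sylow p G) :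
    IsCyclic P ∨ Cfsg.IsElementaryAbelian p (P : Subgroup G) ∨ Nonempty ((P : Subgroup G) ≃* QuaternionGroup 2) := by
  rcases Cfsg.Agent.S4023.result (fun H K => hD p Fact.out H K) P with h | h | ⟨-, h⟩ | ⟨hp2, hnc, hcard, hexp⟩
  · exact Or.inl h
  · exact Or.inr (Or.inl h)
  · exact Or.inr (Or.inr h)
  · exfalso
    refine no_extraspecial hD hp2 P hnc hcard fun x hx => ?_
    have := Monoid.pow_exponent_eq_one (⟨x, hx⟩ : (P : Subgroup G))
    rw [hexp] at this
    exact congrArg Subtype.val this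

end Cfsg.Agent.S4020
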