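import Mathlib
import Cfsg.Statements.S4022
import Cfsg.Agent.Lib.Hall.Solvable

set_option autoImplicit false

open scoped commutatorElement Pointwise

namespace Cfsg.Agent.S4022

open scoped Pointwise
open Subgroup Cfsg.Agent.Lib.Coprime

universe u

/-- `p`-subgroups of equal order are conjugate, for every prime `p`. -/
def PConj (G : Type u) [Group G] : Prop :=
  ∀ p : ℕ, p.Prime → ∀ H K : Subgroup G, IsPGroup p H → IsPGroup p K → Nat.card H = Nat.card K →
    ∃ g : G, MulAut.conj g • H = K

theorem isCyclic_pgroup {G : Type u} [Group G] [Finite G] {p : ℕ} [Fact p.Prime]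
    (hc : ∀ P : Sylow p G, IsCyclic P) (A : Subgroup G) (hA : IsPGroup p A) : IsCyclic A := by
  obtain ⟨P, hP⟩ := hA.exists_le_sylow
  have := hc P
  exact isCyclic_of_injective (Subgroup.inclusion hP) (Subgroup.inclusion_injective hP)

theorem eq_of_card_eq_cyclic {C : Type u} [Group C] [Finite C] [IsCyclic C] {A B : Subgroup C}
    (h : Nat.card A = Nat.card B) : A = B := by
  classical
  have := Fintype.ofFinite C
  have key : ∀ D : Subgroup C, Nat.card D = Nat.card A →
      (D : Set C) = ↑({x | x ^ Nat.card A = 1} : Finset C) := by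
    intro D hD
    refine Set.eq_of_subset_of_ncard_le (fun x hx => ?_) ?_ (Finset.finite_toSet _)
    · have := congrArg Subtype.val (pow_card_eq_one' (x := (⟨x, hx⟩ : D)))
      rw [hD] at this
      simpa using this
    · rw [Set.ncard_coe_finset, ← Nat.card_coe_set_eq]
      exact (IsCyclic.card_pow_eq_one_le Nat.card_pos).trans hD.ge
  exact SetLike.coe_injective ((key A rfl).trans (key B h.symm).symm)

theorem pconj_of_cyclic {G : Type u} [Group G] [Finite G]
    (hc : ∀ p : ℕ, p.Prime → ∀ P : Sylow p G, IsCyclic P) : PConj G := by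
  intro p hp H K hH hK hcard
  have : Fact p.Prime := ⟨hp⟩
  obtain ⟨P, hHP⟩ := hH.exists_le_sylow
  obtain ⟨Q, hKQ⟩ := hK.exists_le_sylow
  obtain ⟨g, hg⟩ := MulAction.exists_smul_eq G P Q
  have hle : MulAut.conj g • H ≤ (Q : Subgroup G) := by
    rw [← hg, Sylow.coe_subgroup_smul]
    exact pointwise_smul_le_pointwise_smul_iff.mpr hHP
  refine ⟨g, ?_⟩
  have := hc p hp Q
  have heq : (MulAut.conj g • H).subgroupOf Q = K.subgroupOf Q := by
    refine eq_of_card_eq_cyclic ?_
    rw [card_subgroupOf hle, card_subgroupOf hKQ, card_conj_smul, hcard]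
  rw [← map_subgroupOf_eq_of_le hle, heq, map_subgroupOf_eq_of_le hKQ]

theorem pconj_quotient {G : Type u} [Group G] [Finite G] (h : PConj G) (N : Subgroup G) [N.Normal] :
    PConj (G ⧸ N) := by
  intro p hp A B hA hB hcard
  have : Fact p.Prime := ⟨hp⟩
  let π := QuotientGroup.mk' N
  have hπ : Function.Surjective π := QuotientGroup.mk'_surjective N
  have lift : ∀ A : Subgroup (G ⧸ N), IsPGroup p A →
      ∃ P : Subgroup G, IsPGroup p P ∧ P.map π = A ∧
        Nat.card P = p ^ (Nat.card (A.comap π)).factorization p := by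
    intro A hA
    obtain ⟨S⟩ := (inferInstance : Nonempty (Sylow p (A.comap π)))
    refine ⟨(S : Subgroup _).map (A.comap π).subtype, S.2.map _, ?_, ?_⟩
    · refine le_antisymm ?_ ?_
      · rw [map_le_iff_le_comap]; exact map_subtype_le _
      · let f : ↥(A.comap π) →* A :=
          { toFun := fun x => ⟨π x, x.2⟩, map_one' := Subtype.ext (map_one π),
            map_mul' := fun x y => Subtype.ext (map_mul π _ _) }
        have hf : Function.Surjective f := fun a => by
          obtain ⟨x, hx⟩ := hπ a
          exact ⟨⟨x, show π x ∈ A from hx ▸ a.2⟩, Subtype.ext hx⟩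
        have htop : ((S.mapSurjective hf : Sylow p A) : Subgroup A) = ⊤ :=
          ((S.mapSurjective hf).3 (hA.of_equiv Subgroup.topEquiv.symm) le_top).symm
        intro a ha
        have : (⟨a, ha⟩ : A) ∈ ((S.mapSurjective hf : Sylow p A) : Subgroup A) := htop ▸ mem_top _
        rw [Sylow.coe_mapSurjective] at this
        obtain ⟨s, hs, hsa⟩ := this
        exact ⟨(s : G), mem_map_of_mem _ hs, congrArg Subtype.val hsa⟩
    · rw [card_map_of_injective (A.comap π).subtype_injective, S.card_eq_multiplicity]
  obtain ⟨P, hP, hPm, hPc⟩ := lift A hA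
  obtain ⟨Q, hQ, hQm, hQc⟩ := lift B hB
  have hc : Nat.card (A.comap π) = Nat.card (B.comap π) := by
    have h1 := card_map_mk' N (A.comap π)
    have h2 := card_map_mk' N (B.comap π)
    have hN : ∀ A : Subgroup (G ⧸ N), A.comap π ⊓ N = N := fun A =>
      inf_eq_right.mpr ((QuotientGroup.ker_mk' N).symm.le.trans (ker_le_comap _ _))
    rw [map_comap_eq_self_of_surjective hπ, hN] at h1 h2
    rw [← h1, ← h2, hcard]
  obtain ⟨g, hg⟩ := h p hp P Q hP hQ (by rw [hPc, hQc, hc])
  exact ⟨π g, by rw [← hPm, ← map_conj_smul, hg, hQm]⟩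

theorem cyclic_quotient {G : Type u} [Group G] [Finite G] {p : ℕ} [Fact p.Prime]
    (hc : ∀ P : Sylow p G, IsCyclic P) (N : Subgroup G) [N.Normal] :
    ∀ P : Sylow p (G ⧸ N), IsCyclic P := by
  intro P
  obtain ⟨Q, hQ⟩ := Sylow.mapSurjective_surjective (QuotientGroup.mk'_surjective N) p P
  have := hc Q
  have hPQ : (P : Subgroup (G ⧸ N)) = (Q : Subgroup G).map (QuotientGroup.mk' N) := by
    rw [← hQ, Sylow.coe_mapSurjective]
  exact isCyclic_of_surjective
    ((MulEquiv.subgroupCongr hPQ.symm).toMonoidHom.comp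
      ((QuotientGroup.mk' N).subgroupMap (Q : Subgroup G)))
    ((MulEquiv.subgroupCongr hPQ.symm).surjective.comp
      ((QuotientGroup.mk' N).subgroupMap_surjective _))

theorem aux (n : ℕ) : ∀ (G : Type u) [Group G] [Finite G] [Group.IsSolvable G], Nat.card G = n →
    PConj G → ∀ r : ℕ, (∀ p : ℕ, p.Prime → p ≠ r → ∀ P : Sylow p G, IsCyclic P) →
    ∀ H K : Subgroup G, Nat.card H = Nat.card K → ∃ g : G, MulAut.conj g • H = K := by
  induction n using Nat.strongRecOn with | ind n ih => ?_
  intro G _ _ _ hn hD r hcyc H K hHK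
  rcases subsingleton_or_nontrivial G with hs | hnt
  · refine ⟨1, ?_⟩
    ext x
    rw [Subsingleton.elim x 1]
    simp [one_mem]
  obtain ⟨N, q, hNn, hN, hq, hNq, hNc, hmin⟩ := Lib.Hall.exists_normal_pgroup (G := G)
  have : Fact q.Prime := ⟨hq⟩
  have hpow : ∀ x ∈ N, x ^ q = 1 := by
    have : Group.IsSolvable N := inferInstance
    obtain ⟨-, p, hp, hpow⟩ := Lib.Hall.minimal_normal_solvable N hN hmin
    have : Fact p.Prime := ⟨hp⟩
    obtain ⟨x, hxN, hx1⟩ := (N.bot_or_exists_ne_one).resolve_left hN
    obtain ⟨i, hi⟩ := IsPGroup.iff_orderOf.mp hNq ⟨x, hxN⟩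
    rw [orderOf_mk] at hi
    have h1 : orderOf x = p := orderOf_eq_prime (hpow x hxN) hx1
    have h2 : p = q := (Nat.prime_dvd_prime_iff_eq hp hq).mp
      (hp.dvd_of_dvd_pow (h1 ▸ hi ▸ dvd_refl (q ^ i) : p ∣ q ^ i))
    exact h2 ▸ hpow
  obtain ⟨k, hk⟩ := IsPGroup.iff_card.mp hNq
  let π := QuotientGroup.mk' N
  have hlt : Nat.card (G ⧸ N) < n := hn ▸ card_quotient_lt hN
  have hquot : ∀ A B : Subgroup G, Nat.card (A.map π) = Nat.card (B.map π) →
      ∃ g : G, MulAut.conj g • A ⊔ N = B ⊔ N := by
    intro A B hAB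
    obtain ⟨x, hx⟩ := ih _ hlt (G ⧸ N) rfl (pconj_quotient hD N) r
      (fun p hp hpr => by
        have : Fact p.Prime := ⟨hp⟩
        exact cyclic_quotient (hcyc p hp hpr) N) _ _ hAB
    obtain ⟨g, rfl⟩ := QuotientGroup.mk'_surjective N x
    refine ⟨g, ?_⟩
    have := congrArg (Subgroup.comap π) hx
    rwa [← map_conj_smul, comap_map_eq, comap_map_eq, QuotientGroup.ker_mk'] at this
  -- subgroups of the same order as `N` coincide with `N`
  have huniq : ∀ A : Subgroup G, Nat.card A = q ^ k → A = N := by
    intro A hA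
    obtain ⟨g, hg⟩ := hD q hq N A hNq (IsPGroup.of_card hA) (by rw [hA, hk])
    rw [← hg, conj_smul_eq_self (le_normalizer_of_normal (mem_top g))]
  have hk1 : 1 ≤ k := by
    by_contra h
    rw [Nat.lt_one_iff.mp (not_le.mp h), pow_zero] at hk
    exact hN (card_eq_one.mp hk)
  rcases eq_or_lt_of_le hk1 with hk1 | hk2
  · -- `N` is the only subgroup of order `q`
    subst hk1
    rw [pow_one] at hk huniq
    have hdvd : ∀ A : Subgroup G, N ≤ A ↔ q ∣ Nat.card A := by
      refine fun A => ⟨fun h => hk ▸ card_dvd_of_le h, fun h => ?_⟩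
      obtain ⟨a, ha⟩ := exists_prime_orderOf_dvd_card' q h
      rw [← orderOf_coe] at ha
      rw [← huniq (zpowers (a : G)) (by rw [Nat.card_zpowers, ha]), zpowers_le]
      exact a.2
    have hinf : ∀ A : Subgroup G, ¬ q ∣ Nat.card A → A ⊓ N = ⊥ := fun A h =>
      Lib.Coprime.inf_eq_bot_of_coprime (hk.symm ▸ ((hq.coprime_iff_not_dvd).mpr h).symm)
    have hc : Nat.card (H.map π) = Nat.card (K.map π) := by
      apply Nat.eq_of_mul_eq_mul_right (Nat.card_pos (α := (H ⊓ N : Subgroup G)))
      conv_rhs => rw [show Nat.card (H ⊓ N : Subgroup G) = Nat.card (K ⊓ N : Subgroup G) by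
        by_cases h : q ∣ Nat.card H
        · rw [inf_eq_right.mpr ((hdvd H).mpr h), inf_eq_right.mpr ((hdvd K).mpr (hHK ▸ h))]
        · rw [hinf H h, hinf K (hHK ▸ h)]]
      rw [card_map_mk', card_map_mk', hHK]
    obtain ⟨g, hg⟩ := hquot H K hc
    by_cases h : q ∣ Nat.card H
    · refine ⟨g, ?_⟩
      rwa [sup_eq_left.mpr ((hdvd _).mpr ((card_conj_smul g H).symm ▸ h)),
        sup_eq_left.mpr ((hdvd K).mpr (hHK ▸ h))] at hg
    · have hcop : (Nat.card (MulAut.conj g • H : Subgroup G)).Coprime (Nat.card N) := by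
        rw [card_conj_smul, hk]; exact ((hq.coprime_iff_not_dvd).mpr h).symm
      obtain ⟨x, -, hx⟩ := exists_conj_eq_of_le_sup le_normalizer_of_normal hcop
        (Or.inr inferInstance) (B := K) (hg ▸ le_sup_left) (by rw [card_conj_smul, hHK])
      exact ⟨x * g, by rw [conj_smul_mul, hx]⟩
  · -- `N` is a Sylow subgroup
    have hqr : q = r := by
      by_contra hne
      have hc := isCyclic_pgroup (hcyc q hq hne) N hNq
      obtain ⟨x, hx⟩ := hc.exists_generator
      have h1 : orderOf x = q ^ k := by
        rw [← hk]; exact orderOf_eq_card_of_forall_mem_zpowers hx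
      have h2 : orderOf x ∣ q :=
        orderOf_dvd_of_pow_eq_one (Subtype.ext (by simpa using hpow x x.2))
      rw [h1] at h2
      have h3 := Nat.le_of_dvd hq.pos h2
      have h4 : q ^ 1 < q ^ k := Nat.pow_lt_pow_right hq.one_lt hk2
      rw [pow_one] at h4
      exact absurd h3 (not_le.mpr h4)
    have hsyl : ∀ A : Subgroup G, IsPGroup q A → A ≤ N := by
      intro A hA
      obtain ⟨P, hAP⟩ := hA.exists_le_sylow
      refine hAP.trans fun x hx => ?_
      by_contra hxN
      have hNP : N ≤ (P : Subgroup G) := by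
        have h := P.3 (P.2.to_sup_of_normal_right hNq) le_sup_left
        exact le_sup_right.trans h.le
      -- an element outside `N` whose `q`th power lies in `N`
      have hex : ∃ y ∈ (P : Subgroup G), y ∉ N ∧ y ^ q ∈ N := by
        obtain ⟨i, hi⟩ := IsPGroup.iff_orderOf.mp P.2 ⟨x, hx⟩
        rw [orderOf_mk] at hi
        have hpi : x ^ q ^ i = 1 := hi ▸ pow_orderOf_eq_one x
        clear hi
        induction i generalizing x with
        | zero => rw [pow_zero, pow_one] at hpi; exact absurd (hpi ▸ N.one_mem) hxN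
        | succ i hi =>
          by_cases h : x ^ q ∈ N
          · exact ⟨x, hx, hxN, h⟩
          · exact hi _ (pow_mem hx q) h (by rw [← pow_mul, ← pow_succ']; exact hpi)
      obtain ⟨y, hyP, hyN, hyq⟩ := hex
      have hy2 : orderOf y ∣ q ^ k := by
        refine orderOf_dvd_of_pow_eq_one ?_
        obtain ⟨j, rfl⟩ : ∃ j, k = j + 2 := ⟨k - 2, by omega⟩
        rw [show q ^ (j + 2) = q * q * q ^ j by ring, pow_mul, pow_mul, hpow _ hyq, one_pow]
      obtain ⟨j, hjk, hj⟩ := (Nat.dvd_prime_pow hq).mp hy2
      obtain ⟨L, hL, hyL⟩ := Sylow.exists_subgroup_card_pow_prime_le q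
        (n := j) (m := k) (hk ▸ card_subgroup_dvd_card N) (zpowers y) (by rw [Nat.card_zpowers, hj]) hjk
      exact hyN (huniq L hL ▸ hyL (mem_zpowers y))
    -- make the `q`-parts equal
    have hpart : ∀ A : Subgroup G, ∀ m : ℕ, q ^ m ∣ Nat.card A →
        q ^ m ∣ Nat.card (A ⊓ N : Subgroup G) := by
      intro A m hm
      obtain ⟨S, hS⟩ := Sylow.exists_subgroup_card_pow_prime q hm
      have hSp : IsPGroup q (S.map A.subtype) :=
        (IsPGroup.of_card hS).map _
      rw [← hS, ← card_map_of_injective A.subtype_injective]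
      exact card_dvd_of_le (le_inf (map_subtype_le _) (hsyl _ hSp))
    have hinfp : ∀ A : Subgroup G, IsPGroup q (A ⊓ N : Subgroup G) := fun A =>
      hNq.to_le inf_le_right
    have hDE : Nat.card (H ⊓ N : Subgroup G) = Nat.card (K ⊓ N : Subgroup G) := by
      obtain ⟨a, ha⟩ := IsPGroup.iff_card.mp (hinfp H)
      obtain ⟨b, hb⟩ := IsPGroup.iff_card.mp (hinfp K)
      apply Nat.dvd_antisymm
      · rw [ha]; exact hpart K a (hHK ▸ ha ▸ card_dvd_of_le inf_le_left)
      · rw [hb]; exact hpart H b (hHK.symm ▸ hb ▸ card_dvd_of_le inf_le_left)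
    obtain ⟨g, hg⟩ := hD q hq _ _ (hinfp H) (hinfp K) hDE
    rw [smul_inf, conj_smul_eq_self (H := N) (le_normalizer_of_normal (mem_top g))] at hg
    obtain ⟨x, hx⟩ : ∃ x : G, MulAut.conj x • (MulAut.conj g • H) = K := by
      have hHK' : Nat.card (MulAut.conj g • H : Subgroup G) = Nat.card K := by
        rw [card_conj_smul, hHK]
      generalize MulAut.conj g • H = H' at hg hHK'
      set D := H' ⊓ N with hDdef
      let L := normalizer (D : Set G)
      have hle : ∀ A : Subgroup G, A ⊓ N = D → A ≤ L := by
        intro A hA a ha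
        refine mem_normalizer_of_conj_smul_eq ?_
        rw [← hA, smul_inf, conj_smul_eq_self (le_normalizer ha),
          conj_smul_eq_self (H := N) (le_normalizer_of_normal (mem_top a))]
      have hH'L : H' ≤ L := hle H' rfl
      have hKL : K ≤ L := hle K hg.symm
      have hNL : N ≤ L := fun a ha => mem_normalizer_of_conj_smul_eq (by
        ext b
        rw [mem_conj_smul]
        have hcomm : ∀ b ∈ N, a⁻¹ * b * a = b := fun b hb => by
          have := congrArg Subtype.val (hNc.is_comm.comm (⟨b, hb⟩ : N) ⟨a, ha⟩)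
          simp only [Subgroup.coe_mul] at this
          rw [mul_assoc, this, inv_mul_cancel_left]
        constructor
        · intro hb
          have hbN : b ∈ N := by
            have := N.mul_mem (N.mul_mem ha (show a⁻¹ * b * a ∈ N from hb.2)) (N.inv_mem ha)
            simpa [mul_assoc] using this
          rwa [hcomm b hbN] at hb
        · intro hb
          rwa [hcomm b hb.2])
      let Lb := L.map π
      have hLcyc : ∀ p : ℕ, p.Prime → ∀ P : Sylow p Lb, IsCyclic P := by
        intro p hp P
        have : Fact p.Prime := ⟨hp⟩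
        by_cases hpq : p = q
        · subst hpq
          have hnd : ¬ p ∣ Nat.card (G ⧸ N) := by
            intro hd
            obtain ⟨S⟩ := (inferInstance : Nonempty (Sylow p G))
            have hSN : (S : Subgroup G) = N :=
              le_antisymm (hsyl _ S.2) (le_sup_right.trans
                (S.3 (S.2.to_sup_of_normal_right hNq) le_sup_left).le)
            exact S.not_dvd_index (by rw [hSN, index_eq_card]; exact hd)
          have hP1 : Nat.card P = 1 := by
            obtain ⟨i, hi⟩ := IsPGroup.iff_card.mp P.2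
            cases i with
            | zero => simpa using hi
            | succ i =>
              exact absurd (((dvd_pow_self p i.succ_ne_zero).trans
                (hi ▸ card_subgroup_dvd_card (P : Subgroup Lb))).trans
                (card_subgroup_dvd_card Lb)) hnd
          have : Subsingleton P := (Nat.card_eq_one_iff_unique.mp hP1).1
          infer_instance
        · have := isCyclic_pgroup (cyclic_quotient (hcyc p hp (hqr ▸ hpq)) N)
            ((P : Subgroup Lb).map Lb.subtype) (P.2.map _)
          exact isCyclic_of_injective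
            ((P : Subgroup Lb).equivMapOfInjective _ Lb.subtype_injective).toMonoidHom
            ((P : Subgroup Lb).equivMapOfInjective _ Lb.subtype_injective).injective
      have hcq : ∀ A : Subgroup G, A ≤ L →
          Nat.card ((A.map π).subgroupOf Lb) = Nat.card (A.map π) := fun A hA =>
        card_subgroupOf (map_mono hA)
      have hcard : Nat.card (H'.map π) = Nat.card (K.map π) := by
        apply Nat.eq_of_mul_eq_mul_right (Nat.card_pos (α := D))
        nth_rewrite 2 [hg]
        rw [card_map_mk', card_map_mk', hHK']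
      have hlt' : Nat.card Lb < n := lt_of_le_of_lt (card_le_card_group Lb) hlt
      obtain ⟨y, hy⟩ := ih _ hlt' Lb rfl (pconj_of_cyclic hLcyc) 0
        (fun p hp _ => hLcyc p hp) ((H'.map π).subgroupOf Lb) ((K.map π).subgroupOf Lb)
        (by rw [hcq H' hH'L, hcq K hKL, hcard])
      obtain ⟨l, hl, hly⟩ := y.2
      have hsup : MulAut.conj l • H' ⊔ N = K ⊔ N := by
        have := congrArg (Subgroup.map Lb.subtype) hy
        rw [map_conj_smul, map_subgroupOf_eq_of_le (map_mono hH'L),
          map_subgroupOf_eq_of_le (map_mono hKL)] at this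
        rw [show Lb.subtype y = π l from hly.symm, ← map_conj_smul] at this
        have := congrArg (Subgroup.comap π) this
        rwa [comap_map_eq, comap_map_eq, QuotientGroup.ker_mk'] at this
      set H'' := MulAut.conj l • H' with hH''
      have hD'' : H'' ⊓ N = D := by
        rw [hH'', ← conj_smul_eq_self (H := N) (le_normalizer_of_normal (mem_top l)),
          ← smul_inf, ← hDdef, conj_smul_eq_self hl]
      have hc'' : Nat.card H'' = Nat.card K := by rw [hH'', card_conj_smul, hHK']
      -- complements of `D`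
      have hcompl : ∀ A : Subgroup G, A ⊓ N = D → ∃ C : Subgroup G, C ≤ A ∧ C ⊔ D = A ∧
          Nat.card C * Nat.card D = Nat.card A ∧ (Nat.card C).Coprime (Nat.card N) := by
        intro A hA
        have hDA : D ≤ A := hA ▸ inf_le_left
        obtain ⟨m, hm⟩ := card_dvd_of_le hDA
        have hqm : ¬ q ∣ m := by
          intro hd
          obtain ⟨a, ha⟩ := IsPGroup.iff_card.mp (hA ▸ hinfp A : IsPGroup q D)
          have h1 : q ^ (a + 1) ∣ Nat.card A := by
            rw [hm, ha, pow_succ]; exact Nat.mul_dvd_mul_left _ hd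
          have h2 := hpart A (a + 1) h1
          rw [hA, ha] at h2
          have := (Nat.pow_dvd_pow_iff_le_right hq.one_lt).mp h2
          omega
        have hcopm : m.Coprime (Nat.card N) := by
          rw [hk]; exact Nat.Coprime.pow_right k ((hq.coprime_iff_not_dvd).mpr hqm).symm
        obtain ⟨C, hC⟩ := Lib.Hall.exists_subgroup_card_eq (G := A) (m := m) (n := Nat.card D)
          (by rw [hm, mul_comm]) (hcopm.coprime_dvd_right (card_dvd_of_le (hA ▸ inf_le_right)))
        have hCc : Nat.card (C.map A.subtype) = m := by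
          rw [card_map_of_injective A.subtype_injective, hC]
        refine ⟨C.map A.subtype, map_subtype_le _, ?_, by rw [hCc, hm, mul_comm], by rwa [hCc]⟩
        refine eq_of_le_of_card_ge (sup_le (map_subtype_le _) hDA) (le_of_eq ?_)
        rw [card_sup_of_coprime ((map_subtype_le _).trans (hle A hA))
          (by rw [hCc]; exact hcopm.coprime_dvd_right (card_dvd_of_le (hA ▸ inf_le_right))),
          hCc, hm, mul_comm]
      obtain ⟨C, hC, hCD, hCc, hCcop⟩ := hcompl H'' hD''
      obtain ⟨C', hC', hCD', hCc', -⟩ := hcompl K hg.symm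
      have hB : C' ≤ C ⊔ N := by
        refine hC'.trans (le_sup_left.trans (hsup.symm.le.trans (sup_le ?_ le_sup_right)))
        rw [← hCD]
        exact sup_le le_sup_left ((hD'' ▸ inf_le_right : D ≤ N).trans le_sup_right)
      have hcC : Nat.card C' = Nat.card C :=
        Nat.eq_of_mul_eq_mul_right (Nat.card_pos (α := D)) (by rw [hCc, hCc', hc''])
      obtain ⟨e, heN, he⟩ := exists_conj_eq_of_le_sup le_normalizer_of_normal hCcop
        (Or.inr inferInstance) hB hcC
      refine ⟨e * l, ?_⟩
      rw [conj_smul_mul, ← hH'', ← hCD, ← hCD', smul_sup, he,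
        conj_smul_eq_self (hNL heN)]
    exact ⟨x * g, by rw [conj_smul_mul, hx]⟩

theorem conj_smul_eq_map {G : Type u} [Group G] (g : G) (H : Subgroup G) :
    MulAut.conj g • H = H.map (MulAut.conj g).toMonoidHom := rfl

/-- Let G be a finite solvable group in which, for every prime p, any two p-subgroups of the same order are conjugate, and suppose the Sylow p-subgroups of G are cyclic for all primes p with at most one exception. Then any two subgroups of G of the same order are conjugate. -/
theorem result {G : Type*} [Group G] [Finite G]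
    [Group.IsSolvable G] (hD : ∀ p : ℕ, p.Prime → ∀ H K : Subgroup G, IsPGroup p H → IsPGroup p K → Nat.card H = Nat.card K →
      ∃ g : G, K = H.map (MulAut.conj g).toMonoidHom)
    (r : ℕ) (hcyc : ∀ p : ℕ, p.Prime → p ≠ r → ∀ P : Sylow p G, IsCyclic P) :
    ∀ H K : Subgroup G, Nat.card H = Nat.card K → ∃ g : G, K = H.map (MulAut.conj g).toMonoidHom := by
  intro H K h
  obtain ⟨g, hg⟩ := aux _ G rfl (fun p hp A B hA hB hAB => (hD p hp A B hA hB hAB).imp fun g hg => hg.symm) r hcyc H K h
  exact ⟨g, hg.symm⟩

end Cfsg.Agent.S4022
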