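import Cfsg.Statements.S4024
import Cfsg.Agent.S4023
import Cfsg.Agent.Lib.LocalFusion.PSolvable
import Cfsg.Agent.Lib.OddLocal.PLengthOne
import Cfsg.Agent.Lib.PLength.Basic

set_option autoImplicit false
open Cfsg

namespace Cfsg.Agent.S4024

open Subgroup in
open scoped commutatorElement in
/-- The exponent-`p`, noncommutative case is impossible. -/
theorem not_noncomm {G : Type*} [Group G] [Finite G]
    {p : ℕ} [hp : Fact p.Prime] (hC : ∀ H K : Subgroup G, IsPGroup p H → IsPGroup p K →
      Nat.card H = Nat.card K → ∃ g : G, K = H.map (MulAut.conj g).toMonoidHom) (P : Sylow p G)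
    (hexp : ∀ x ∈ (P : Subgroup G), x ^ p = 1)
    (H : Subgroup G) [H.Normal] (hsolv : Cfsg.IsPSolvable p H) (hdiv : p ∣ Nat.card H) :
    IsMulCommutative P := by
  classical
  set K := (Cfsg.pPrimeCore p H).map H.subtype with hKdef
  haveI hKn : K.Normal := inferInstance
  have hKp : (Nat.card K).Coprime p := by
    rw [hKdef, card_map_of_injective (subtype_injective H)]
    exact Lib.Hall.coprime_card_pPrimeCore p
  have hKH : K ≤ H := map_subtype_le _
  set π := QuotientGroup.mk' K with hπdef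
  have hπ : Function.Surjective π := QuotientGroup.mk'_surjective K
  set Hb := H.map π with hHb
  haveI hHbn : Hb.Normal := Normal.map inferInstance π hπ
  -- the image of `H` has trivial `p'`-core
  have hcore : Cfsg.pPrimeCore p Hb = ⊥ := by
    set N := (Cfsg.pPrimeCore p Hb).map Hb.subtype with hNdef
    haveI : N.Normal := inferInstance
    have hNp : (Nat.card N).Coprime p := by
      rw [hNdef, card_map_of_injective (subtype_injective Hb)]
      exact Lib.Hall.coprime_card_pPrimeCore p
    have hMH : N.comap π ≤ H := by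
      refine (comap_mono (map_subtype_le _)).trans ?_
      rw [hHb, comap_map_eq]
      exact sup_le le_rfl (by rw [hπdef, QuotientGroup.ker_mk']; exact hKH)
    have hcardM : (Nat.card (N.comap π)).Coprime p := by
      have h : Nat.card (N.comap π) = Nat.card K * Nat.card N := by
        have h1 := Lib.Coprime.card_map_mk' K (N.comap π)
        rw [map_comap_eq_self_of_surjective hπ] at h1
        rw [← h1, inf_eq_right.2 (by
          intro x hx
          simp only [mem_comap, hπdef]
          rw [QuotientGroup.mk'_apply, (QuotientGroup.eq_one_iff x).2 hx]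
          exact one_mem _)]
        ring
      rw [h]
      exact Nat.Coprime.mul_left hKp hNp
    have hle : (N.comap π).subgroupOf H ≤ Cfsg.pPrimeCore p H := by
      haveI : ((N.comap π).subgroupOf H).Normal := inferInstance
      exact Lib.Hall.le_pPrimeCore (by
        rwa [← card_map_of_injective (subtype_injective H), subgroupOf_map_subtype,
          inf_eq_left.2 hMH])
    have hNbot : N = ⊥ := by
      rw [← map_comap_eq_self_of_surjective hπ N, eq_bot_iff]
      rintro _ ⟨x, hx, rfl⟩
      rw [mem_bot, hπdef, QuotientGroup.mk'_apply, QuotientGroup.eq_one_iff]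
      exact ⟨⟨x, hMH hx⟩, hle hx, rfl⟩
    exact (map_eq_bot_iff_of_injective _ (subtype_injective Hb)).1 hNbot
  have hsol : Cfsg.IsPSolvable p Hb :=
    Lib.PLength.isPSolvable_map (f := π.subgroupMap H) (π.subgroupMap_surjective H) hsolv
  set V := (Cfsg.pCore p Hb).map Hb.subtype with hVdef
  haveI hVn : V.Normal := inferInstance
  have hVp : IsPGroup p V := (Lib.Components.pCore_isPGroup p).map _
  have hVne : V ≠ ⊥ := by
    intro hV
    have hb : Cfsg.pCore p Hb = ⊥ := (map_eq_bot_iff_of_injective _ (subtype_injective Hb)).1 hV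
    have hc := Lib.LocalFusion.centralizer_pCore_le_of_isPSolvable hsol hcore
    rw [hb] at hc
    have hHbot : Hb = ⊥ := by
      rw [eq_bot_iff]
      intro x hx
      have : (⟨x, hx⟩ : Hb) ∈ (⊥ : Subgroup Hb) := hc (mem_centralizer_iff.2 fun y hy => by
        rw [SetLike.mem_coe, mem_bot] at hy
        subst hy
        simp)
      simpa using congrArg Subtype.val (mem_bot.1 this)
    rw [hHb, hπdef, Subgroup.map_eq_bot_iff, QuotientGroup.ker_mk'] at hHbot
    exact hp.out.not_dvd_one (hKp.symm.eq_one_of_dvd (hdiv.trans (card_dvd_of_le hHbot)) ▸ dvd_rfl)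
  have hVP : V ≤ (P : Subgroup G).map π := by
    set Q := P.mapSurjective hπ with hQ
    have h1 : IsPGroup p (V ⊔ (Q : Subgroup (G ⧸ K)) : Subgroup (G ⧸ K)) :=
      hVp.to_sup_of_normal_left Q.2
    exact (le_sup_left).trans (Q.3 h1 le_sup_right).le
  have hPK : ∀ x ∈ (P : Subgroup G), x ∈ K → x = 1 := by
    intro x hxP hxK
    obtain ⟨k, hk⟩ := IsPGroup.iff_orderOf.1 P.2 ⟨x, hxP⟩
    rw [Subgroup.orderOf_mk] at hk
    have h1 : orderOf x ∣ Nat.card K := Subgroup.orderOf_dvd_natCard K hxK
    rw [hk] at h1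
    exact orderOf_eq_one_iff.1 (hk ▸ (Nat.Coprime.eq_one_of_dvd
      ((hKp.symm).pow_left k) h1))
  set L := V.comap π with hL
  haveI : L.Normal := inferInstance
  set P₀ := L ⊓ (P : Subgroup G) with hP₀
  have hP₀ne : P₀ ≠ ⊥ := by
    intro h
    refine hVne (eq_bot_iff.2 fun v hv => ?_)
    obtain ⟨x, hx, rfl⟩ := hVP hv
    have : x ∈ P₀ := ⟨mem_comap.2 hv, hx⟩
    rw [h, mem_bot] at this
    simp [this]
  -- `P₀` is the only subgroup of its order in `P`
  have hP₀top : (P : Subgroup G) ≤ L := by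
    intro x hx
    rcases eq_or_ne x 1 with rfl | hx1
    · exact one_mem _
    have hxo : orderOf x = p := orderOf_eq_prime (hexp x hx) hx1
    obtain ⟨m, hm⟩ := IsPGroup.iff_card.1 (P.2.to_le (inf_le_right : P₀ ≤ (P : Subgroup G)))
    have hm1 : 1 ≤ m := by
      by_contra! h0
      exact hP₀ne (eq_bot_of_card_eq P₀ (by rw [hm, show m = 0 by omega, pow_zero]))
    obtain ⟨Q, hQcard, hQ⟩ := Sylow.exists_subgroup_card_pow_prime_le p
      (G := (P : Subgroup G)) (n := 1) (m := m)
      (hm ▸ card_dvd_of_le (inf_le_right : P₀ ≤ (P : Subgroup G)))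
      (zpowers (⟨x, hx⟩ : (P : Subgroup G)))
      (by rw [Nat.card_zpowers, Subgroup.orderOf_mk, hxo, pow_one]) hm1
    obtain ⟨g, hg⟩ := hC P₀ (Q.map (P : Subgroup G).subtype)
      (P.2.to_le inf_le_right) ((P.2.to_subgroup Q).map _)
      (by rw [card_map_of_injective (subtype_injective _), hQcard, hm])
    have hxQ : x ∈ Q.map (P : Subgroup G).subtype := ⟨⟨x, hx⟩, hQ (mem_zpowers _), rfl⟩
    rw [hg] at hxQ
    obtain ⟨y, hy, rfl⟩ := hxQ
    exact Normal.conj_mem inferInstance y hy.1 g
  by_contra hc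
  haveI : Nontrivial (P : Subgroup G) := by
    by_contra hn
    rw [not_nontrivial_iff_subsingleton] at hn
    exact hc ⟨⟨fun a b => Subsingleton.elim _ _⟩⟩
  haveI := P.2.center_nontrivial
  obtain ⟨⟨z, hz⟩, hz1⟩ := exists_ne (1 : center (P : Subgroup G))
  obtain ⟨y, hy⟩ : ∃ y : (P : Subgroup G), y ∉ center (P : Subgroup G) := by
    by_contra! h
    exact hc ⟨⟨fun a b => mem_center_iff.1 (h b) a⟩⟩
  have hzne : (z : G) ≠ 1 := fun h => hz1 (Subtype.ext (Subtype.ext h))
  have hyne : (y : G) ≠ 1 := fun h => hy ((Subtype.ext h : y = 1) ▸ one_mem _)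
  obtain ⟨g, hg⟩ := hC (zpowers (z : G)) (zpowers (y : G))
    (P.2.to_le (zpowers_le.2 z.2)) (P.2.to_le (zpowers_le.2 y.2))
    (by rw [Nat.card_zpowers, Nat.card_zpowers, orderOf_eq_prime (hexp _ z.2) hzne,
      orderOf_eq_prime (hexp _ y.2) hyne])
  obtain ⟨x', hx', hxy⟩ := (hg ▸ mem_zpowers (y : G) :
    (y : G) ∈ (zpowers (z : G)).map (MulAut.conj g).toMonoidHom)
  refine hy (mem_center_iff.2 fun q => Subtype.ext ?_)
  have hq' : π (g⁻¹ * q * g) ∈ (P : Subgroup G).map π :=
    hVP (mem_comap.1 (show g⁻¹ * q * g ∈ L by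
      simpa using Normal.conj_mem inferInstance (q : G) (hP₀top q.2) g⁻¹))
  obtain ⟨q', hq', hqe⟩ := hq'
  have hcz : Commute x' q' := by
    obtain ⟨k, rfl⟩ := mem_zpowers_iff.1 hx'
    exact (Commute.zpow_left (congrArg Subtype.val (mem_center_iff.1 hz ⟨q', hq'⟩).symm :) k)
  have h1 : Commute (π (y : G)) (π (q : G)) := by
    have h2 : Commute (π x') (π (g⁻¹ * q * g)) := hqe ▸ hcz.map π
    have h3 := h2.map (MulAut.conj (π g)).toMonoidHom
    have e1 : (MulAut.conj (π g)).toMonoidHom (π x') = π y := by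
      rw [← hxy]
      simp
    have e2 : (MulAut.conj (π g)).toMonoidHom (π (g⁻¹ * q * g)) = π q := by simp; group
    rwa [e1, e2] at h3
  rw [← commutatorElement_eq_one_iff_commute, ← map_commutatorElement, hπdef,
    QuotientGroup.mk'_apply, QuotientGroup.eq_one_iff] at h1
  have h4 := hPK _ (by rw [commutatorElement_def]; exact mul_mem (mul_mem (mul_mem y.2 q.2) (inv_mem y.2)) (inv_mem q.2)) h1
  exact (commutatorElement_eq_one_iff_commute.1 h4).symm.eq


/-- Let p be an odd prime and G a finite group in which any two p-subgroups of the same order are conjugate, with Sylow p-subgroup P. If H is a normal p-solvable subgroup of G whose order is divisible by p, then P is abelian, and either P ≤ H or P is cyclic. -/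
theorem result {G : Type*} [Group G] [Finite G]
    {p : ℕ} [Fact p.Prime] (hp : p ≠ 2) (hC : ∀ H K : Subgroup G, IsPGroup p H → IsPGroup p K → Nat.card H = Nat.card K →
      ∃ g : G, K = H.map (MulAut.conj g).toMonoidHom) (P : Sylow p G)
    (H : Subgroup G) [H.Normal] (hsolv : Cfsg.IsPSolvable p H) (hdiv : p ∣ Nat.card H) :
    IsMulCommutative P ∧ ((P : Subgroup G) ≤ H ∨ IsCyclic P) := by
  have key : (∀ x : (P : Subgroup G), x ^ p = 1) → IsMulCommutative P ∧ (P : Subgroup G) ≤ H := by
    intro hexp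
    have hexp' : ∀ x ∈ (P : Subgroup G), x ^ p = 1 := fun x hx => congrArg Subtype.val (hexp ⟨x, hx⟩)
    refine ⟨not_noncomm hC P hexp' H hsolv hdiv, fun x hx => ?_⟩
    rcases eq_or_ne x 1 with rfl | hx1
    · exact one_mem _
    obtain ⟨y, hy⟩ := exists_prime_orderOf_dvd_card' p hdiv
    have hxo : orderOf x = p := orderOf_eq_prime (hexp' x hx) hx1
    have hyo : orderOf (y : G) = p := by rw [Subgroup.orderOf_coe, hy]
    obtain ⟨g, hg⟩ := hC (Subgroup.zpowers (y : G)) (Subgroup.zpowers x)
      (IsPGroup.of_card (n := 1) (by rw [Nat.card_zpowers, hyo, pow_one]))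
      (IsPGroup.of_card (n := 1) (by rw [Nat.card_zpowers, hxo, pow_one]))
      (by rw [Nat.card_zpowers, Nat.card_zpowers, hxo, hyo])
    have hx' := hg ▸ Subgroup.mem_zpowers x
    obtain ⟨z, hz, rfl⟩ := hx'
    exact Subgroup.Normal.conj_mem inferInstance z (Subgroup.zpowers_le.2 y.2 hz) g
  rcases Cfsg.Agent.Lib.GS.ConjPSub.classify P.2 (Cfsg.Agent.S4023.iso_of_conj hC P) with
    h | ⟨-, hexp⟩ | h | ⟨-, -, -, hexp⟩
  · exact ⟨inferInstance, Or.inr h⟩
  · exact ⟨(key hexp).1, Or.inl (key hexp).2⟩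
  · exact absurd h.1 hp
  · exact ⟨(key hexp).1, Or.inl (key hexp).2⟩

end Cfsg.Agent.S4024
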