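import Cfsg.Statements.S4025
import Cfsg.Agent.Lib.PlaneTrans.Group

set_option autoImplicit false
open Cfsg

namespace Cfsg.Agent.S4025

/-- Let p be a prime and G a finite group in which any two p-subgroups of the same order are conjugate, and suppose a Sylow p-subgroup P of G is elementary abelian of order pⁿ with n ≥ 3. Let N be the normalizer of P and K the largest normal subgroup of N of order prime to p, and assume N/K is solvable. Then either n = 3 and N/K embeds in the one-dimensional semi-affine group over the field with p³ elements (and for p = 2 it is isomorphic to the affine or the semi-affine group over the field with 8 elements), or n = 5, p = 2 and N/K is isomorphic to the one-dimensional semi-affine group over the field with 32 elements. -/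
theorem result {G : Type*} [Group G] [Finite G]
    {p : ℕ} [Fact p.Prime] (hC : ∀ H K : Subgroup G, IsPGroup p H → IsPGroup p K → Nat.card H = Nat.card K →
      ∃ g : G, K = H.map (MulAut.conj g).toMonoidHom) (P : Sylow p G) (n : ℕ) (hn : 3 ≤ n)
    (hel : Cfsg.IsElementaryAbelian p (P : Subgroup G)) (hcard : Nat.card P = p ^ n)
    (N : Subgroup G) (hN : N = Subgroup.normalizer ((P : Subgroup G) : Set G))
    (hsolv : Group.IsSolvable (↥N ⧸ Cfsg.pPrimeCore p ↥N)) :
    (n = 3 ∧ (∃ f : ↥N ⧸ Cfsg.pPrimeCore p ↥N →* ↥(Cfsg.semiaffineGroup (GaloisField p 3)), Function.Injective f) ∧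
      (p = 2 → Nonempty (↥N ⧸ Cfsg.pPrimeCore p ↥N ≃* Cfsg.semiaffineGroup (GaloisField 2 3)) ∨
               Nonempty (↥N ⧸ Cfsg.pPrimeCore p ↥N ≃* Cfsg.affineGroup (GaloisField 2 3)))) ∨
    (n = 5 ∧ p = 2 ∧ Nonempty (↥N ⧸ Cfsg.pPrimeCore p ↥N ≃* Cfsg.semiaffineGroup (GaloisField 2 5))) := by
  classical
  subst hN
  set Nm := Subgroup.normalizer ((P : Subgroup G) : Set G)
  set K := Cfsg.pPrimeCore p Nm
  have hPN : (P : Subgroup G) ≤ Nm := Subgroup.le_normalizer
  let ι : (P : Subgroup G) →* Nm ⧸ K := (QuotientGroup.mk' K).comp (Subgroup.inclusion hPN)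
  have hK : (Nat.card K).Coprime p := Lib.Components.pPrimeCore_coprime p
  have hι : Function.Injective ι := by
    rw [← MonoidHom.ker_eq_bot_iff, Subgroup.eq_bot_iff_forall]
    intro x hx
    have hx' : Subgroup.inclusion hPN x ∈ K := (QuotientGroup.eq_one_iff _).1 hx
    have h1 : orderOf x ∣ Nat.card K := by
      rw [← orderOf_injective _ (Subgroup.inclusion_injective hPN) x]
      exact Subgroup.orderOf_dvd_natCard _ hx'
    have h2 : orderOf x ∣ p ^ n := hcard ▸ orderOf_dvd_natCard x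
    exact orderOf_eq_one_iff.1 (Nat.eq_one_of_dvd_coprimes (hK.pow_right n) h1 h2)
  set A : Subgroup (Nm ⧸ K) := ι.range with hA
  have hAmap : A = ((P : Subgroup G).subgroupOf Nm).map (QuotientGroup.mk' K) := by
    rw [hA, MonoidHom.range_comp]
    congr 1
    ext x
    exact ⟨by rintro ⟨y, rfl⟩; exact y.2, fun hx => ⟨⟨x, hx⟩, Subtype.ext rfl⟩⟩
  haveI : ((P : Subgroup G).subgroupOf Nm).Normal := Subgroup.normal_in_normalizer
  haveI : A.Normal := hAmap ▸ Subgroup.Normal.map inferInstance _ (QuotientGroup.mk'_surjective K)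
  obtain ⟨hPc, hPe⟩ := hel
  have hel' : Cfsg.IsElementaryAbelian p A := by
    refine ⟨⟨⟨?_⟩⟩, ?_⟩
    · rintro ⟨_, a, rfl⟩ ⟨_, b, rfl⟩
      exact Subtype.ext (by
        show ι a * ι b = ι b * ι a
        rw [← map_mul, ← map_mul, hPc.1.1 a b])
    · rintro _ ⟨a, rfl⟩
      rw [← map_pow, show a ^ p = 1 from Subtype.ext (hPe a a.2), map_one]
  have hcardA : Nat.card A = p ^ n := by
    rw [← hcard]
    exact (Nat.card_congr (MonoidHom.ofInjective hι).toEquiv).symm
  have hidx : ¬ p ∣ A.index := fun h => by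
    have h1 : A.index ∣ ((P : Subgroup G).subgroupOf Nm).index := by
      rw [hAmap]; exact Subgroup.index_map_dvd _ (QuotientGroup.mk'_surjective K)
    exact P.not_dvd_index ((h.trans h1).trans (Subgroup.relIndex_dvd_index_of_le hPN))
  have hCA := Lib.PlaneTrans.centralizer_eq A (IsPGroup.of_card hcardA) hel'.1 hidx
    (Lib.Components.pPrimeCore_quotient p)
  have htr : ∀ B C : Subgroup (Nm ⧸ K), B ≤ A → C ≤ A → Nat.card B = Nat.card C →
      ∃ q : Nm ⧸ K, B.map (MulAut.conj q).toMonoidHom = C := by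
    intro B C hB hC' hBC
    set B₀ : Subgroup G := (B.comap ι).map (P : Subgroup G).subtype
    set C₀ : Subgroup G := (C.comap ι).map (P : Subgroup G).subtype
    have hB' : (B.comap ι).map ι = B := Subgroup.map_comap_eq_self hB
    have hC'' : (C.comap ι).map ι = C := Subgroup.map_comap_eq_self hC'
    have hc : Nat.card B₀ = Nat.card C₀ := by
      rw [Subgroup.card_map_of_injective (Subgroup.subtype_injective _),
        Subgroup.card_map_of_injective (Subgroup.subtype_injective _),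
        ← Subgroup.card_map_of_injective hι, hB', hBC, ← hC'', Subgroup.card_map_of_injective hι, hC'']
    have hBP : B₀ ≤ (P : Subgroup G) := Subgroup.map_subtype_le _
    have hCP : C₀ ≤ (P : Subgroup G) := Subgroup.map_subtype_le _
    obtain ⟨g, hg⟩ := hC B₀ C₀ (P.2.to_le hBP) (P.2.to_le hCP) hc
    -- move the conjugating element into the normalizer
    have hPab : ∀ x ∈ (P : Subgroup G), ∀ y ∈ (P : Subgroup G), x * y = y * x :=
      fun x hx y hy => congrArg Subtype.val (hPc.1.1 ⟨x, hx⟩ ⟨y, hy⟩)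
    set Z := Subgroup.centralizer (C₀ : Set G)
    have h1 : (P : Subgroup G) ≤ Z := fun x hx => Subgroup.mem_centralizer_iff.2 fun c hc =>
      hPab c (hCP hc) x hx
    have h2 : ↑(g • P) ≤ Z := by
      intro x hx
      rw [Sylow.coe_subgroup_smul] at hx
      obtain ⟨y, hy, rfl⟩ := hx
      refine Subgroup.mem_centralizer_iff.2 fun c hc' => ?_
      rw [SetLike.mem_coe, hg] at hc'
      obtain ⟨b, hb, rfl⟩ := hc'
      show g * b * g⁻¹ * (g * y * g⁻¹) = g * y * g⁻¹ * (g * b * g⁻¹)
      calc g * b * g⁻¹ * (g * y * g⁻¹) = g * (b * y) * g⁻¹ := by group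
        _ = g * (y * b) * g⁻¹ := by rw [hPab b (hBP hb) y hy]
        _ = _ := by group
    obtain ⟨z, hz⟩ := MulAction.exists_smul_eq Z ((g • P).subtype h2) (P.subtype h1)
    simp_rw [Sylow.smul_subtype, Subgroup.smul_def, smul_smul] at hz
    have hzN : (z : G) * g ∈ Nm := Sylow.smul_eq_iff_mem_normalizer.1 (Sylow.subtype_injective hz)
    refine ⟨QuotientGroup.mk' K ⟨(z : G) * g, hzN⟩,
      Subgroup.eq_of_le_of_card_ge ?_ ?_⟩
    · rintro _ ⟨b, hb, rfl⟩
      obtain ⟨b', hb', rfl⟩ : b ∈ (B.comap ι).map ι := hB'.symm ▸ hb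
      have hmem : g * (b' : G) * g⁻¹ ∈ C₀ := hg ▸ ⟨_, ⟨b', hb', rfl⟩, rfl⟩
      obtain ⟨c, hcC, hce⟩ := hmem
      have hzc : (z : G) * (c : G) * (z : G)⁻¹ = c := by
        rw [← Subgroup.mem_centralizer_iff.1 z.2 (c : G) ⟨c, hcC, rfl⟩, mul_inv_cancel_right]
      have key : (⟨(z : G) * g, hzN⟩ : Nm) * Subgroup.inclusion hPN b' * (⟨(z : G) * g, hzN⟩ : Nm)⁻¹ =
          Subgroup.inclusion hPN c := Subtype.ext (by
        show (z : G) * g * b' * ((z : G) * g)⁻¹ = c
        rw [show (z : G) * g * b' * ((z : G) * g)⁻¹ = (z : G) * (g * b' * g⁻¹) * (z : G)⁻¹ by group]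
        rw [show g * (b' : G) * g⁻¹ = c from hce.symm, hzc])
      show QuotientGroup.mk' K _ * ι b' * (QuotientGroup.mk' K _)⁻¹ ∈ C
      show QuotientGroup.mk' K _ * QuotientGroup.mk' K (Subgroup.inclusion hPN b') *
        (QuotientGroup.mk' K _)⁻¹ ∈ C
      rw [← map_inv, ← map_mul, ← map_mul, key]
      exact hcC
    · rw [Subgroup.card_map_of_injective (MulAut.conj _).injective, hBC]
  obtain ⟨hcases, ⟨f, hf, haff⟩, htwo, hdvd⟩ :=
    Lib.PlaneTrans.affine_structure hsolv A hel' hn hcardA hCA hidx htr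
  rcases hcases with rfl | ⟨rfl, rfl⟩
  · refine Or.inl ⟨rfl, ⟨f, hf⟩, fun h2 => ?_⟩
    subst h2
    have h7 : 336 ∣ Nat.card (Nm ⧸ K) * 6 := htwo rfl
    replace hdvd : Nat.card (Nm ⧸ K) ∣ 168 := hdvd
    have hQ : Nat.card (Nm ⧸ K) = 168 ∨ Nat.card (Nm ⧸ K) = 56 := by
      have hle := Nat.le_of_dvd (by norm_num) hdvd
      obtain ⟨k, hk⟩ := h7
      obtain ⟨l, hl⟩ := hdvd
      have hk4 : k ≤ 3 := by omega
      have h0 : 0 < Nat.card (Nm ⧸ K) := Nat.card_pos
      have hk' : Nat.card (Nm ⧸ K) = 56 * k := by omega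
      rw [hk'] at hl h0 ⊢
      interval_cases k <;> omega
    rcases hQ with hQ | hQ
    · refine Or.inl ⟨MulEquiv.ofBijective f ((Nat.bijective_iff_injective_and_card _).2 ⟨hf, ?_⟩)⟩
      refine le_antisymm (Nat.card_le_card_of_injective f hf) ?_
      rw [hQ]
      exact (Lib.PlaneTrans.semiaffine_card_le (p := 2) (GaloisField.card 2 3 (by norm_num))).1.trans
        (by norm_num)
    · refine Or.inr ?_
      let f' : Nm ⧸ K →* Cfsg.affineGroup (GaloisField 2 3) :=
        ((Cfsg.semiaffineGroup (GaloisField 2 3)).subtype.comp f).codRestrict _ (haff rfl rfl hQ)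
      have hf' : Function.Injective f' := fun a b h => hf (Subtype.ext
        (by exact congrArg (fun s : ↥(Cfsg.affineGroup (GaloisField 2 3)) => (s : Equiv.Perm (GaloisField 2 3))) h))
      refine ⟨MulEquiv.ofBijective f' ((Nat.bijective_iff_injective_and_card _).2 ⟨hf', ?_⟩)⟩
      refine le_antisymm (Nat.card_le_card_of_injective f' hf') ?_
      rw [hQ]
      exact (Lib.PlaneTrans.semiaffine_card_le (p := 2) (GaloisField.card 2 3 (by norm_num))).2.trans
        (by norm_num)
  · refine Or.inr ⟨rfl, rfl, ⟨MulEquiv.ofBijective f ((Nat.bijective_iff_injective_and_card _).2 ⟨hf, ?_⟩)⟩⟩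
    refine le_antisymm (Nat.card_le_card_of_injective f hf) ?_
    have h5 : 29760 ∣ Nat.card (Nm ⧸ K) * 6 := htwo rfl
    refine (Lib.PlaneTrans.semiaffine_card_le (p := 2) (GaloisField.card 2 5 (by norm_num))).1.trans ?_
    have h0 : 0 < Nat.card (Nm ⧸ K) := Nat.card_pos
    obtain ⟨k, hk⟩ := h5
    show 4960 ≤ Nat.card (Nm ⧸ K)
    omega

end Cfsg.Agent.S4025
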