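import Cfsg.Statements.S4027
import Mathlib
import Cfsg.Agent.Lib.GS.Real

set_option autoImplicit false
open Cfsg

namespace Cfsg.Agent.S4027


/-- Let G be a finite group in which every element x of odd order satisfies N_G(⟨x⟩) = C_G(x). Then the Sylow 2-subgroups of G are normal. -/
theorem result {G : Type*} [Group G] [Finite G]
    (hirr : ∀ x : G, (∀ r : ℕ, r.Prime → r ∣ orderOf x → r ≠ 2) →
      Subgroup.normalizer ((Subgroup.zpowers x : Subgroup G) : Set G) ≤ Subgroup.centralizer {x}) (P : Sylow 2 G) :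
    (P : Subgroup G).Normal := by
  refine Cfsg.Agent.Lib.GS.sylow_two_normal_of_no_real (fun x g hodd hg => ?_) P
  have hmem : g ∈ Subgroup.normalizer ((Subgroup.zpowers x : Subgroup G) : Set G) := by
    refine Cfsg.Agent.Lib.GS.mem_normalizer_of_forall fun z hz => ?_
    obtain ⟨i, rfl⟩ := Subgroup.mem_zpowers_iff.mp hz
    rw [← conj_zpow, hg]
    exact Subgroup.zpow_mem _ (Subgroup.inv_mem _ (Subgroup.mem_zpowers x)) i
  have h1 := Subgroup.mem_centralizer_singleton_iff.mp (hirr x (fun r hr hd h2 => by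
    subst h2
    exact absurd (even_iff_two_dvd.mpr hd) (Nat.not_even_iff_odd.mpr hodd)) hmem)
  rw [h1, mul_inv_cancel_right] at hg
  refine Cfsg.Agent.Lib.Involution.eq_one_of_mul_self_of_odd hodd ?_
  nth_rewrite 2 [hg]
  exact mul_inv_cancel x

end Cfsg.Agent.S4027
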