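import Cfsg.Statements.S4028
import Mathlib
import Cfsg.Agent.Lib.GS.Sylow

set_option autoImplicit false
open Cfsg

namespace Cfsg.Agent.S4028


/-- Let G be a finite group with Sylow 2-subgroup P. Then N_G(⟨x⟩) = C_G(x) holds for every 2-element x of G if and only if N_P(⟨y⟩) = C_P(y) holds for every y ∈ P (computed inside P). -/
theorem result {G : Type*} [Group G] [Finite G] (P : Sylow 2 G) :
    (∀ x : G, (∀ r : ℕ, r.Prime → r ∣ orderOf x → r = 2) →
      Subgroup.normalizer ((Subgroup.zpowers x : Subgroup G) : Set G) ≤ Subgroup.centralizer {x}) ↔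
    (∀ y : ↥(P : Subgroup G), Subgroup.normalizer ((Subgroup.zpowers y : Subgroup ↥(P : Subgroup G)) : Set ↥(P : Subgroup G)) ≤
        Subgroup.centralizer {y}) := by
  constructor
  · intro h y
    have hy : ∀ r : ℕ, r.Prime → r ∣ orderOf (y : G) → r = 2 := by
      intro r hr hd
      obtain ⟨b, hb⟩ := IsPGroup.iff_orderOf.mp P.2 y
      rw [Subgroup.orderOf_coe, hb] at hd
      exact (Nat.prime_dvd_prime_iff_eq hr Nat.prime_two).mp (hr.dvd_of_dvd_pow hd)
    intro z hz
    rw [Subgroup.mem_centralizer_singleton_iff]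
    apply Subtype.ext
    refine Subgroup.mem_centralizer_singleton_iff.mp (h y hy ?_)
    rw [Subgroup.mem_normalizer_iff] at hz ⊢
    intro n
    simp only [Subgroup.mem_zpowers_iff]
    constructor
    · rintro ⟨k, rfl⟩
      obtain ⟨l, hl⟩ := Subgroup.mem_zpowers_iff.mp ((hz (y ^ k)).mp (Subgroup.zpow_mem_zpowers y k))
      exact ⟨l, by simpa using congrArg Subtype.val hl⟩
    · rintro ⟨k, hk⟩
      have hn : n = ((z : G))⁻¹ * (y : G) ^ k * (z : G) := by rw [hk]; group
      have hn' : n ∈ (P : Subgroup G) :=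
        hn ▸ mul_mem (mul_mem (inv_mem z.2) (zpow_mem y.2 k)) z.2
      obtain ⟨l, hl⟩ := Subgroup.mem_zpowers_iff.mp ((hz ⟨n, hn'⟩).mpr
        (Subgroup.mem_zpowers_iff.mpr ⟨k, Subtype.ext (by simpa using hk)⟩))
      exact ⟨l, by simpa using congrArg Subtype.val hl⟩
  · intro h x hx g hg
    rw [Subgroup.mem_centralizer_singleton_iff]
    set n := orderOf x with hn
    obtain ⟨a, ha⟩ : ∃ a, n = 2 ^ a :=
      ⟨_, Nat.eq_prime_pow_of_unique_prime_dvd (orderOf_pos x).ne' (fun {r} hr hd => hx r hr hd)⟩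
    -- conjugation by `g` induces `x ↦ x ^ k`
    obtain ⟨k, hk⟩ := Subgroup.mem_zpowers_iff.mp
      (Subgroup.mem_normalizer_iff.mp hg x |>.mp (Subgroup.mem_zpowers x))
    obtain ⟨s, o, ho, hso⟩ := Nat.exists_eq_two_pow_mul_odd (orderOf_pos g).ne'
    -- the odd part of `g` centralises `x`
    have hpow : ∀ j : ℕ, g ^ j * x * (g ^ j)⁻¹ = x ^ (k ^ j) := by
      intro j
      induction j with
      | zero => simp
      | succ j ih =>
        calc g ^ (j + 1) * x * (g ^ (j + 1))⁻¹ = g * (g ^ j * x * (g ^ j)⁻¹) * g⁻¹ := by group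
          _ = g * x ^ (k ^ j) * g⁻¹ := by rw [ih]
          _ = x ^ (k ^ (j + 1)) := by rw [← conj_zpow, ← hk, ← zpow_mul, pow_succ']
    have hodd_pow : g ^ (2 ^ a) * x * (g ^ (2 ^ a))⁻¹ = x := by
      rcases a with _ | a
      · rw [orderOf_eq_one_iff.mp (ha.trans (pow_zero 2))]; group
      have hkodd : Odd k := by
        rcases Int.even_or_odd k with ⟨l, hl⟩ | h'
        · exfalso
          have : (g * x * g⁻¹) ^ (2 ^ a) = 1 := by
            rw [← hk, ← zpow_natCast, ← zpow_mul, hl, ← orderOf_dvd_iff_zpow_eq_one]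
            refine ⟨l, ?_⟩
            rw [← hn, ha]; push_cast; ring
          rw [conj_pow, mul_inv_eq_one, mul_eq_left] at this
          have := orderOf_dvd_iff_pow_eq_one.mpr this
          rw [← hn, ha, Nat.pow_dvd_pow_iff_le_right Nat.one_lt_two] at this
          omega
        · exact h'
      rw [hpow]
      have hdiv : ((2 : ℤ) ^ (a + 1)) ∣ k ^ (2 ^ (a + 1)) - 1 := by
        suffices H : ∀ b : ℕ, (2 : ℤ) ^ b ∣ k ^ (2 ^ b) - 1 from H (a + 1)
        intro b
        induction b with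
        | zero => simp
        | succ b ih =>
          have e : k ^ (2 ^ (b + 1)) - 1 = (k ^ (2 ^ b) - 1) * (k ^ (2 ^ b) + 1) := by
            rw [pow_succ (2 : ℕ) b, pow_mul]; ring
          rw [e, pow_succ]
          refine mul_dvd_mul ih ?_
          have : Odd (k ^ (2 ^ b)) := hkodd.pow
          exact even_iff_two_dvd.mp (this.add_one)
      have h1 : x ^ (k ^ (2 ^ (a + 1)) - 1) = 1 := by
        rw [← orderOf_dvd_iff_zpow_eq_one, ← hn, ha]; push_cast; exact hdiv
      rw [zpow_sub, zpow_one, mul_inv_eq_one] at h1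
      exact h1
    have hcx : Commute (g ^ (2 ^ a)) x := by
      rw [commute_iff_eq, ← mul_inv_eq_iff_eq_mul]; exact hodd_pow
    -- the two-part of `g`
    set u := g ^ o with hu
    have hu2 : orderOf u = 2 ^ s := by
      rw [hu, orderOf_pow, hso, Nat.gcd_mul_left_left, Nat.mul_div_cancel _ ho.pos]
    have hnorm_u : ∀ z ∈ Subgroup.zpowers x, u * z * u⁻¹ ∈ Subgroup.zpowers x := fun z hz =>
      (Subgroup.mem_normalizer_iff.mp (Subgroup.pow_mem _ hg o) z).mp hz
    let L := Subgroup.zpowers u ⊔ Subgroup.zpowers x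
    have hL : IsPGroup 2 L := by
      refine IsPGroup.to_sup_of_normal_right' (IsPGroup.of_card (n := s) (by rw [Nat.card_zpowers, hu2]))
        (IsPGroup.of_card (n := a) (by rw [Nat.card_zpowers, ← hn, ha])) ?_
      rw [Subgroup.zpowers_le]
      exact Subgroup.pow_mem _ hg o
    obtain ⟨Q, hQ⟩ := hL.exists_le_sylow
    obtain ⟨c, hc⟩ := MulAction.exists_smul_eq G Q P
    have hmem : ∀ z ∈ L, c * z * c⁻¹ ∈ (P : Subgroup G) := fun z hz => by
      rw [← hc, Sylow.coe_subgroup_smul]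
      exact Subgroup.smul_mem_pointwise_smul z (MulAut.conj c) _ (hQ hz)
    let y' : (P : Subgroup G) := ⟨c * x * c⁻¹, hmem x (Subgroup.mem_sup_right (Subgroup.mem_zpowers x))⟩
    let u' : (P : Subgroup G) := ⟨c * u * c⁻¹, hmem u (Subgroup.mem_sup_left (Subgroup.mem_zpowers u))⟩
    have hu' : u' ∈ Subgroup.normalizer ((Subgroup.zpowers y' : Subgroup (P : Subgroup G)) : Set (P : Subgroup G)) := by
      refine Cfsg.Agent.Lib.GS.mem_normalizer_of_forall fun z hz => ?_
      obtain ⟨i, rfl⟩ := Subgroup.mem_zpowers_iff.mp hz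
      obtain ⟨l, hl⟩ := Subgroup.mem_zpowers_iff.mp (hnorm_u (x ^ i) (Subgroup.zpow_mem_zpowers x i))
      refine Subgroup.mem_zpowers_iff.mpr ⟨l, Subtype.ext ?_⟩
      simp only [u', y', Subgroup.coe_mul, Subgroup.coe_inv, SubgroupClass.coe_zpow, conj_zpow, hl]
      group
    have h1 : c * u * c⁻¹ * (c * x * c⁻¹) = c * x * c⁻¹ * (c * u * c⁻¹) :=
      congrArg Subtype.val (Subgroup.mem_centralizer_singleton_iff.mp (h y' hu'))
    have hux : Commute (g ^ o) x := by
      have h2 : c * (u * x) * c⁻¹ = c * (x * u) * c⁻¹ := by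
        calc c * (u * x) * c⁻¹ = c * u * c⁻¹ * (c * x * c⁻¹) := by group
          _ = c * x * c⁻¹ * (c * u * c⁻¹) := h1
          _ = c * (x * u) * c⁻¹ := by group
      exact mul_left_cancel (mul_right_cancel h2)
    have hcop : Nat.Coprime o (2 ^ a) := Nat.Coprime.pow_right a (Nat.coprime_two_right.mpr ho)
    have := Nat.gcd_eq_gcd_ab o (2 ^ a)
    rw [hcop.gcd_eq_one] at this
    have hg1 : g = (g ^ o) ^ (Nat.gcdA o (2 ^ a)) * (g ^ (2 ^ a)) ^ (Nat.gcdB o (2 ^ a)) := by
      rw [← zpow_natCast, ← zpow_natCast g (2 ^ a), ← zpow_mul, ← zpow_mul, ← zpow_add, ← this]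
      simp
    rw [hg1]
    exact ((hux.zpow_left _).mul_left (hcx.zpow_left _)).eq

end Cfsg.Agent.S4028
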