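import Cfsg.Statements.S4029
import Mathlib
import Cfsg.Agent.Lib.GS.Sylow

set_option autoImplicit false
open Cfsg

namespace Cfsg.Agent.S4029


/-- Let P be a finite 2-group in which N_P(⟨y⟩) = C_P(y) for every y ∈ P. If s is the number of conjugacy classes of involutions of P, then #(P/Φ(P)) ≤ s + 1; in particular the subgroup generated by the involutions of P has order at least #(P/Φ(P)). -/
theorem result {P : Type*} [Group P] [Finite P] (hP : IsPGroup 2 P)
    (hirr : ∀ y : P, Subgroup.normalizer ((Subgroup.zpowers y : Subgroup P) : Set P) ≤ Subgroup.centralizer {y}) :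
    Nat.card (P ⧸ frattini P) ≤ Nat.card {c : ConjClasses P // ∃ y : P, ConjClasses.mk y = c ∧ orderOf y = 2} + 1 ∧
    Nat.card (P ⧸ frattini P) ≤ Nat.card (Subgroup.closure {y : P | orderOf y = 2}) := by
  classical
  haveI := Fintype.ofFinite P
  haveI : Fact (Nat.Prime 2) := ⟨Nat.prime_two⟩
  have hreal : ∀ g x : P, g * x * g⁻¹ = x⁻¹ → x ^ 2 = 1 := by
    intro g x hgx
    have hg : g ∈ Subgroup.normalizer ((Subgroup.zpowers x : Subgroup P) : Set P) := by
      rw [Subgroup.mem_normalizer_iff]
      intro n
      simp only [Subgroup.mem_zpowers_iff]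
      constructor
      · rintro ⟨k, rfl⟩
        exact ⟨-k, by rw [← conj_zpow, hgx, inv_zpow, zpow_neg]⟩
      · rintro ⟨k, hk⟩
        refine ⟨-k, ?_⟩
        have : g * x ^ (-k) * g⁻¹ = x ^ k := by rw [← conj_zpow, hgx, inv_zpow, zpow_neg, inv_inv]
        rw [hk] at this
        exact mul_left_cancel (mul_right_cancel this)
    have hcomm := Subgroup.mem_centralizer_singleton_iff.mp (hirr x hg)
    rw [hcomm, mul_inv_cancel_right] at hgx
    rw [sq]
    nth_rewrite 2 [hgx]
    exact mul_inv_cancel x
  -- the conjugacy classes of solutions of `x ^ 2 = 1`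
  let R := {c : ConjClasses P // ∃ y : P, ConjClasses.mk y = c ∧ y ^ 2 = 1}
  have hmain : Nat.card (P ⧸ frattini P) ≤ Nat.card R := by
    have hsqmem : ∀ g : P, g ^ 2 ∈ frattini P := by
      intro g
      by_contra hg
      simp only [frattini, Order.radical, Subgroup.mem_iInf, not_forall] at hg
      obtain ⟨M, hM, hgM⟩ := hg
      haveI : Group.IsNilpotent P := hP.isNilpotent
      haveI hMn : M.Normal :=
        Subgroup.NormalizerCondition.normal_of_coatom M normalizerCondition_of_isNilpotent hM
      have hprime : M.index = 2 := by
        obtain ⟨n, hn⟩ := hP.index M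
        rcases n with _ | _ | n
        · exact absurd (Subgroup.index_eq_one.mp (by simpa using hn)) hM.1
        · simpa using hn
        · exfalso
          obtain ⟨K, hK⟩ := Sylow.exists_subgroup_card_pow_prime 2 (n := 1) (G := P ⧸ M)
            (by rw [← Subgroup.index_eq_card, hn]; exact pow_dvd_pow 2 (by omega))
          rcases hM.2 (K.comap (QuotientGroup.mk' M)) (lt_of_le_of_ne (fun z hz => by
              rw [Subgroup.mem_comap, QuotientGroup.mk'_apply, (QuotientGroup.eq_one_iff z).mpr hz]
              exact one_mem K) (fun heq => by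
              have : K = ⊥ := by
                rw [← Subgroup.map_comap_eq_self_of_surjective (QuotientGroup.mk'_surjective M) K, ← heq]
                exact QuotientGroup.map_mk'_self M
              rw [this, Subgroup.card_bot] at hK
              norm_num at hK)) with h
          have : K = ⊤ := by
            rw [← Subgroup.map_comap_eq_self_of_surjective (QuotientGroup.mk'_surjective M) K, h]
            exact Subgroup.map_top_of_surjective _ (QuotientGroup.mk'_surjective M)
          rw [this, Subgroup.card_top, ← Subgroup.index_eq_card, hn] at hK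
          exact absurd (Nat.pow_right_injective le_rfl hK) (by omega)
      refine hgM ?_
      have := pow_card_eq_one' (G := P ⧸ M) (x := QuotientGroup.mk' M g)
      rw [← Subgroup.index_eq_card, hprime, ← map_pow, QuotientGroup.mk'_apply,
        QuotientGroup.eq_one_iff] at this
      exact this
    -- counting pairs with equal squares
    let r : frattini P → ℕ := fun z => (Finset.univ.filter fun g : P => (⟨g ^ 2, hsqmem g⟩ : frattini P) = z).card
    have hsum : ∑ z, r z = Fintype.card P := by
      rw [← Finset.card_univ]
      exact (Finset.card_eq_sum_card_fiberwise (fun g _ => Finset.mem_univ _)).symm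
    have hsum2 : ∑ z, r z ^ 2 = Fintype.card {p : P × P // p.1 ^ 2 = p.2 ^ 2} := by
      rw [Fintype.card_subtype]
      rw [Finset.card_eq_sum_card_fiberwise (f := fun p : P × P => (⟨p.1 ^ 2, hsqmem p.1⟩ : frattini P))
        (t := Finset.univ) (fun g _ => Finset.mem_univ _)]
      refine Finset.sum_congr rfl fun z _ => ?_
      rw [sq, ← Finset.card_product]
      congr 1
      ext ⟨a, b⟩
      simp only [Finset.mem_product, Finset.mem_filter, Finset.mem_univ, true_and]
      constructor
      · rintro ⟨h1, h2⟩
        exact ⟨congrArg Subtype.val (h1.trans h2.symm), h1⟩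
      · rintro ⟨h1, h2⟩
        exact ⟨h2, (Subtype.ext h1.symm).trans h2⟩
    have hpairs : Fintype.card {p : P × P // p.1 ^ 2 = p.2 ^ 2} =
        Fintype.card {p : P × P // p.2 ^ 2 = 1 ∧ Commute p.1 p.2} := by
      refine Fintype.card_congr ((Equiv.prodShear (Equiv.refl P) (fun g => Equiv.mulLeft g⁻¹)).subtypeEquiv ?_)
      rintro ⟨g, y⟩
      simp only [Equiv.prodShear_apply, Equiv.refl_apply, Equiv.coe_mulLeft]
      set x := g⁻¹ * y with hx
      have hy : y = g * x := by rw [hx]; group
      rw [hy]
      constructor
      · intro h
        have h1 : g = x * (g * x) := by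
          have : g * g = g * (x * (g * x)) := by rw [← sq, h, sq]; group
          exact mul_left_cancel this
        have h2 : g * x * g⁻¹ = x⁻¹ := by
          rw [eq_inv_iff_mul_eq_one]
          refine mul_right_cancel (b := g) ?_
          calc g * x * g⁻¹ * x * g = g * x * g⁻¹ * (x * (g * x)) * x⁻¹ := by group
            _ = g * x * g⁻¹ * g * x⁻¹ := by rw [← h1]
            _ = 1 * g := by group
        have h3 := hreal g x h2
        refine ⟨h3, ?_⟩
        have h4 : x⁻¹ = x := inv_eq_of_mul_eq_one_right (by rw [← sq, h3])
        rw [h4, mul_inv_eq_iff_eq_mul] at h2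
        exact h2
      · rintro ⟨h1, h2⟩
        rw [h2.mul_pow, h1, mul_one]
    have hclass : Fintype.card {p : P × P // p.2 ^ 2 = 1 ∧ Commute p.1 p.2} =
        Nat.card R * Fintype.card P := by
      have hR : ∀ x : P, x ^ 2 = 1 ↔ ∃ y, ConjClasses.mk y = ConjClasses.mk x ∧ y ^ 2 = 1 := by
        intro x
        refine ⟨fun h => ⟨x, rfl, h⟩, ?_⟩
        rintro ⟨y, hy, hy2⟩
        obtain ⟨c, hc⟩ := isConj_iff.mp (ConjClasses.mk_eq_mk_iff_isConj.mp hy)
        rw [← hc, conj_pow, hy2, mul_one, mul_inv_cancel]
      calc Fintype.card {p : P × P // p.2 ^ 2 = 1 ∧ Commute p.1 p.2}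
          = Fintype.card (Σ x : {x : P // x ^ 2 = 1}, Subgroup.centralizer ({x.1} : Set P)) :=
            Fintype.card_congr
              { toFun := fun p => ⟨⟨p.1.2, p.2.1⟩, ⟨p.1.1, Subgroup.mem_centralizer_singleton_iff.mpr p.2.2⟩⟩
                invFun := fun s => ⟨(s.2.1, s.1.1), s.1.2, Subgroup.mem_centralizer_singleton_iff.mp s.2.2⟩
                left_inv := fun p => rfl
                right_inv := fun s => rfl }
        _ = ∑ x : {x : P // x ^ 2 = 1}, Fintype.card (Subgroup.centralizer ({x.1} : Set P)) :=
            Fintype.card_sigma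
        _ = ∑ c : R, ∑ x ∈ Finset.univ.filter
              (fun x : {x : P // x ^ 2 = 1} => (⟨ConjClasses.mk x.1, (hR x.1).mp x.2⟩ : R) = c),
                Fintype.card (Subgroup.centralizer ({x.1} : Set P)) :=
            (Finset.sum_fiberwise Finset.univ _ _).symm
        _ = ∑ _c : R, Fintype.card P := by
            refine Finset.sum_congr rfl fun c _ => ?_
            obtain ⟨c, y, rfl, hy⟩ := c
            have hcard : ∀ x : {x : P // x ^ 2 = 1}, ConjClasses.mk x.1 = ConjClasses.mk y →
                Fintype.card (Subgroup.centralizer ({x.1} : Set P)) =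
                  Fintype.card (Subgroup.centralizer ({y} : Set P)) := by
              intro x hx
              simp only [← Nat.card_eq_fintype_card]
              have h1 := Cfsg.Agent.Lib.GS.ncard_carrier_eq_index x.1
              have h2 := Cfsg.Agent.Lib.GS.ncard_carrier_eq_index y
              rw [hx] at h1
              have h3 := (Subgroup.centralizer ({x.1} : Set P)).card_mul_index
              have h4 := (Subgroup.centralizer ({y} : Set P)).card_mul_index
              rw [← h1, h2, ← h4] at h3
              exact Nat.eq_of_mul_eq_mul_right (Nat.pos_of_ne_zero Subgroup.index_ne_zero_of_finite) h3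
            rw [Finset.sum_congr rfl (g := fun _ => Fintype.card (Subgroup.centralizer ({y} : Set P)))
              (fun x hx => hcard x (congrArg Subtype.val (Finset.mem_filter.mp hx).2)), Finset.sum_const,
              smul_eq_mul, ← Nat.card_eq_fintype_card (α := P),
              ← (Subgroup.centralizer ({y} : Set P)).card_mul_index,
              ← Cfsg.Agent.Lib.GS.ncard_carrier_eq_index, Nat.card_eq_fintype_card, mul_comm]
            congr 1
            rw [Set.ncard_eq_toFinset_card']
            refine Finset.card_bij (fun x _ => x.1) ?_ (fun a _ b _ h => Subtype.ext h) ?_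
            · intro x hx
              rw [Set.mem_toFinset, ConjClasses.mem_carrier_iff_mk_eq]
              exact congrArg Subtype.val (Finset.mem_filter.mp hx).2
            · intro z hz
              rw [Set.mem_toFinset, ConjClasses.mem_carrier_iff_mk_eq] at hz
              exact ⟨⟨z, (hR z).mpr ⟨y, hz.symm, hy⟩⟩, Finset.mem_filter.mpr ⟨Finset.mem_univ _, Subtype.ext hz⟩, rfl⟩
        _ = Nat.card R * Fintype.card P := by
            rw [Finset.sum_const, Finset.card_univ, smul_eq_mul, Nat.card_eq_fintype_card]
    have hCS := sq_sum_le_card_mul_sum_sq (s := (Finset.univ : Finset (frattini P))) (f := r)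
    rw [hsum, hsum2, hpairs, hclass, Finset.card_univ] at hCS
    have hcard := Subgroup.card_eq_card_quotient_mul_card_subgroup (frattini P)
    rw [Nat.card_eq_fintype_card (α := P), Nat.card_eq_fintype_card (α := frattini P)] at hcard
    have hpos : 0 < Fintype.card (frattini P) := Fintype.card_pos
    have hposP : 0 < Fintype.card P := Fintype.card_pos
    have h5 : Fintype.card P * (Nat.card (P ⧸ frattini P) * Fintype.card (frattini P)) ≤
        Fintype.card P * (Nat.card R * Fintype.card (frattini P)) := by
      calc Fintype.card P * (Nat.card (P ⧸ frattini P) * Fintype.card (frattini P))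
          = Fintype.card P ^ 2 := by rw [← hcard, sq]
        _ ≤ Fintype.card (frattini P) * (Nat.card R * Fintype.card P) := hCS
        _ = _ := by ring
    exact Nat.le_of_mul_le_mul_right (Nat.le_of_mul_le_mul_left h5 hposP) hpos
  have hord : ∀ y : P, y ^ 2 = 1 → y = 1 ∨ orderOf y = 2 := fun y hy => by
    rcases eq_or_ne y 1 with h | h
    · exact Or.inl h
    · exact Or.inr (orderOf_eq_prime hy h)
  constructor
  · refine hmain.trans ?_
    let f : R → Option {c : ConjClasses P // ∃ y : P, ConjClasses.mk y = c ∧ orderOf y = 2} := fun c =>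
      if h : ∃ y : P, ConjClasses.mk y = c.1 ∧ orderOf y = 2 then some ⟨c.1, h⟩ else none
    have hf : Function.Injective f := by
      rintro ⟨c, y, hyc, hy⟩ ⟨d, z, hzd, hz⟩ h
      simp only [f] at h
      split_ifs at h with h1 h2 h2
      · exact Subtype.ext (congrArg Subtype.val (Option.some.inj h) :)
      · refine Subtype.ext ?_
        rcases hord y hy with rfl | ho
        · rcases hord z hz with rfl | ho'
          · exact hyc.symm.trans hzd
          · exact absurd ⟨z, hzd, ho'⟩ h2
        · exact absurd ⟨y, hyc, ho⟩ h1
    have := Nat.card_le_card_of_injective f hf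
    rwa [Finite.card_option] at this
  · refine hmain.trans ?_
    let S := Subgroup.closure {y : P | orderOf y = 2}
    let f : R → S := fun c => ⟨c.2.choose, by
      rcases hord _ c.2.choose_spec.2 with h | h
      · rw [h]; exact one_mem _
      · exact Subgroup.subset_closure h⟩
    refine Nat.card_le_card_of_injective f (fun c d h => Subtype.ext ?_)
    rw [← c.2.choose_spec.1, ← d.2.choose_spec.1]
    exact congrArg ConjClasses.mk (congrArg Subtype.val h)

end Cfsg.Agent.S4029
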