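import Cfsg.Statements.S4032
import Mathlib
import Cfsg.Agent.Lib.GS.Real

set_option autoImplicit false
open Cfsg

namespace Cfsg.Agent.S4032


/-- Let π be a set of primes and G a finite group in which N_G(⟨x⟩) = C_G(x) for every π-element x. If N is a normal subgroup of G whose order is divisible by no prime of π, then G/N has the same property: N_{G/N}(⟨y⟩) = C_{G/N}(y) for every π-element y of G/N. -/
theorem result {G : Type*} [Group G] [Finite G] (π : Set ℕ)
    (hirr : ∀ x : G, (∀ r : ℕ, r.Prime → r ∣ orderOf x → r ∈ π) →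
      Subgroup.normalizer ((Subgroup.zpowers x : Subgroup G) : Set G) ≤ Subgroup.centralizer {x})
    (N : Subgroup G) [N.Normal] (hN : ∀ r : ℕ, r.Prime → r ∣ Nat.card N → r ∉ π) :
    ∀ y : G ⧸ N, (∀ r : ℕ, r.Prime → r ∣ orderOf y → r ∈ π) →
      Subgroup.normalizer ((Subgroup.zpowers y : Subgroup (G ⧸ N)) : Set (G ⧸ N)) ≤ Subgroup.centralizer {y} := by
  intro y hy gb hg
  rw [Subgroup.mem_centralizer_singleton_iff]
  suffices h : Subgroup.zpowers y ≤ Subgroup.centralizer {gb} from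
    (Subgroup.mem_centralizer_singleton_iff.mp (h (Subgroup.mem_zpowers y))).symm
  refine Cfsg.Agent.Lib.GS.le_of_prime_power_elements fun z hz r k hr hzo => ?_
  rw [Subgroup.mem_centralizer_singleton_iff]
  rcases Nat.eq_zero_or_pos k with rfl | hk
  · rw [orderOf_eq_one_iff.mp (hzo.trans (pow_zero r))]; simp
  have hrπ : r ∈ π := hy r hr ((dvd_pow_self r hk.ne').trans (hzo ▸ by
    rw [← Nat.card_zpowers y]; exact Cfsg.Agent.Lib.GS.orderOf_dvd_card_of_mem hz))
  have hrN : ¬ r ∣ Nat.card N := fun h => hN r hr h hrπ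
  obtain ⟨g, rfl⟩ := QuotientGroup.mk'_surjective N gb
  -- `g` normalises the cyclic group generated by `z`
  have hzn : QuotientGroup.mk' N g * z * (QuotientGroup.mk' N g)⁻¹ ∈ Subgroup.zpowers z := by
    obtain ⟨i, rfl⟩ := Subgroup.mem_zpowers_iff.mp hz
    obtain ⟨j, hj⟩ := Subgroup.mem_zpowers_iff.mp
      ((Subgroup.mem_normalizer_iff.mp hg y).mp (Subgroup.mem_zpowers y))
    refine Subgroup.mem_zpowers_iff.mpr ⟨j, ?_⟩
    rw [← conj_zpow, ← hj, ← zpow_mul, ← zpow_mul, mul_comm]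
  obtain ⟨x, rfl, hxo⟩ := Cfsg.Agent.Lib.GS.exists_lift_same_order N hr hrN z hzo
  obtain ⟨m, hm, hnorm⟩ := Cfsg.Agent.Lib.GS.exists_normalizing_lift N hr hrN x g hxo
    (by rwa [map_mul, map_mul, map_inv])
  have h1 := Subgroup.mem_centralizer_singleton_iff.mp (hirr x (fun q hq hd => by
    rw [hxo] at hd
    rwa [(Nat.prime_dvd_prime_iff_eq hq hr).mp (hq.dvd_of_dvd_pow hd)]) hnorm)
  have h2 := congrArg (QuotientGroup.mk' N) h1
  simp only [map_mul] at h2
  rw [show QuotientGroup.mk' N m = 1 from (QuotientGroup.eq_one_iff m).mpr hm, one_mul] at h2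
  exact h2.symm

end Cfsg.Agent.S4032
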