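import Cfsg.Statements.S4034
import Cfsg.Agent.Lib.GS.Sylow
import Cfsg.Agent.Lib.GS.Real
import Cfsg.Agent.Lib.Char.Burnside
import Cfsg.Agent.Lib.Hall.Solvable

set_option autoImplicit false
open Cfsg

namespace Cfsg.Agent.S4034

open scoped Pointwise
universe u

theorem solvable_of_hereditary (Φ : ∀ (G : Type u) [Group G], Prop)
    (hsub : ∀ (G : Type u) [Group G] [Finite G] (N : Subgroup G), N.Normal → Φ G → Φ N)
    (hquot : ∀ (G : Type u) [Group G] [Finite G] (N : Subgroup G) [N.Normal], Φ G → Φ (G ⧸ N))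
    (hsimple : ∀ (G : Type u) [Group G] [Finite G] [IsSimpleGroup G], Φ G → Group.IsSolvable G) :
    ∀ (n : ℕ) (G : Type u) [Group G] [Finite G], Nat.card G = n → Φ G → Group.IsSolvable G := by
  intro n
  induction n using Nat.strong_induction_on with
  | _ n ih =>
    intro G _ _ hn hG
    rcases subsingleton_or_nontrivial G with hs | hs
    · infer_instance
    by_cases hN : ∃ N : Subgroup G, N.Normal ∧ N ≠ ⊥ ∧ N ≠ ⊤
    · obtain ⟨N, hNn, hb, ht⟩ := hN
      haveI := hNn
      haveI := ih _ (hn ▸ Subgroup.card_eq_card_quotient_mul_card_subgroup N ▸ by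
          have h1 : 1 < Nat.card N := (Subgroup.one_lt_card_iff_ne_bot N).mpr hb
          have h2 : 0 < Nat.card (G ⧸ N) := Nat.card_pos
          nlinarith) (G ⧸ N) rfl (hquot G N hG)
      haveI := ih _ (hn ▸ lt_of_le_of_ne (Subgroup.card_le_card_group N)
          (fun h => ht ((Subgroup.card_eq_iff_eq_top N).mp h))) N rfl (hsub G N hNn hG)
      exact Group.isSolvable_of_ker_le_range N.subtype (QuotientGroup.mk' N)
        (by rw [QuotientGroup.ker_mk', Subgroup.range_subtype])
    · push Not at hN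
      haveI : IsSimpleGroup G := ⟨fun N hNn => by
        rcases eq_or_ne N ⊥ with h | h
        · exact Or.inl h
        · exact Or.inr (hN N hNn h)⟩
      exact hsimple G hG

theorem solvable_of_prime {G : Type*} [Group G] (h : (Nat.card G).Prime) : Group.IsSolvable G := by
  haveI := Fact.mk h
  exact Group.isSolvable_of_comm (fun a b =>
    ((isCyclic_of_prime_card (α := G) rfl).commGroup.mul_comm a b))

theorem solvable_of_p_group {G : Type*} [Group G] [Finite G] {p : ℕ} (hp : p.Prime)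
    (h : ∀ r : ℕ, r.Prime → r ∣ Nat.card G → r = p) : Group.IsSolvable G :=
  Cfsg.Agent.Lib.Char.isSolvable_of_card_eq_two_primes hp hp _ G rfl
    fun r hr hrd => Or.inl (h r hr hrd)

theorem relIndex_normal_dvd {G : Type*} [Group G] [Finite G] (C N : Subgroup G) [N.Normal] :
    C.relIndex N ∣ C.index := by
  have e1 : (C ⊓ N).relIndex N * N.index = (C ⊓ N).index := Subgroup.relIndex_mul_index inf_le_right
  have e2 : (C ⊓ N).relIndex C * C.index = (C ⊓ N).index := Subgroup.relIndex_mul_index inf_le_left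
  rw [Subgroup.inf_relIndex_right] at e1
  rw [Subgroup.inf_relIndex_left] at e2
  obtain ⟨t, ht⟩ := Subgroup.relIndex_dvd_index_of_normal N C
  refine Dvd.intro t ?_
  have hpos : 0 < N.relIndex C := Nat.pos_of_ne_zero Subgroup.index_ne_zero_of_finite
  rw [ht] at e1
  exact Nat.eq_of_mul_eq_mul_left hpos (by rw [e2, ← e1]; ring)

theorem centralizer_subgroupOf {G : Type*} [Group G] (N : Subgroup G) (x : N) :
    Subgroup.centralizer ({x} : Set N) = (Subgroup.centralizer ({(x : G)} : Set G)).subgroupOf N := by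
  ext y
  simp only [Subgroup.mem_centralizer_singleton_iff, Subgroup.mem_subgroupOf, Subtype.ext_iff,
    Subgroup.coe_mul]

/-- All `p`-regular classes have `p`-power size. -/
def RegClasses (p : ℕ) (G : Type u) [Group G] : Prop :=
  ∀ x : G, (orderOf x).Coprime p → ∃ k : ℕ, (Subgroup.centralizer ({x} : Set G)).index = p ^ k

theorem regClasses_quot {p : ℕ} (hp : p.Prime) (G : Type u) [Group G] [Finite G] (N : Subgroup G)
    [N.Normal] (h : RegClasses p G) : RegClasses p (G ⧸ N) := by
  intro x hx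
  obtain ⟨y, rfl⟩ := QuotientGroup.mk'_surjective N x
  set m := ordProj[p] (orderOf y) with hm
  set r := ordCompl[p] (orderOf y) with hr
  have hcop : Nat.Coprime r m :=
    (Nat.Coprime.pow_right _ (Nat.coprime_comm.mp (Nat.coprime_ordCompl hp (orderOf_pos y).ne')))
  obtain ⟨u, hu1, hu2⟩ := Nat.chineseRemainder hcop 1 0
  have hmu : m ∣ u := Nat.modEq_zero_iff_dvd.mp hu2
  have hord : (orderOf (y ^ u)).Coprime p := by
    have : orderOf (y ^ u) ∣ r := by
      apply orderOf_dvd_of_pow_eq_one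
      rw [← pow_mul]
      obtain ⟨t, ht⟩ := hmu
      rw [ht, mul_comm m t, mul_assoc, hm, hr, Nat.ordProj_mul_ordCompl_eq_self, mul_comm, pow_mul,
        pow_orderOf_eq_one, one_pow]
    exact (Nat.coprime_comm.mp (Nat.coprime_ordCompl hp (orderOf_pos y).ne')).coprime_dvd_left this
  have himg : QuotientGroup.mk' N (y ^ u) = QuotientGroup.mk' N y := by
    have hd : orderOf (QuotientGroup.mk' N y) ∣ r := by
      have h1 : orderOf (QuotientGroup.mk' N y) ∣ m * r := by
        rw [hm, hr, Nat.ordProj_mul_ordCompl_eq_self]; exact orderOf_map_dvd _ y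
      exact (Nat.Coprime.pow_right _ hx).dvd_of_dvd_mul_left h1
    rw [map_pow]
    conv_rhs => rw [← pow_one (QuotientGroup.mk' N y)]
    exact pow_eq_pow_iff_modEq.mpr (hu1.of_dvd hd)
  obtain ⟨k, hk⟩ := h (y ^ u) hord
  have hle : (Subgroup.centralizer ({y ^ u} : Set G)).map (QuotientGroup.mk' N) ≤
      Subgroup.centralizer ({QuotientGroup.mk' N y} : Set (G ⧸ N)) := by
    rintro z ⟨w, hw, rfl⟩
    rw [← himg, Subgroup.mem_centralizer_singleton_iff, ← map_mul, ← map_mul,
      Subgroup.mem_centralizer_singleton_iff.mp hw]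
  have hd := (Subgroup.index_dvd_of_le hle).trans
    (Subgroup.index_map_dvd _ (QuotientGroup.mk'_surjective N))
  rw [hk] at hd
  obtain ⟨j, -, hj⟩ := (Nat.dvd_prime_pow hp).mp hd
  exact ⟨j, hj⟩

theorem regClasses_sub {p : ℕ} (hp : p.Prime) (G : Type u) [Group G] [Finite G] (N : Subgroup G)
    (hN : N.Normal) (h : RegClasses p G) : RegClasses p N := by
  intro x hx
  rw [← orderOf_injective N.subtype N.subtype_injective] at hx
  obtain ⟨k, hk⟩ := h x hx
  haveI := hN
  have hd : (Subgroup.centralizer ({x} : Set N)).index ∣ p ^ k := by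
    rw [centralizer_subgroupOf, ← hk]
    exact relIndex_normal_dvd _ N
  obtain ⟨j, -, hj⟩ := (Nat.dvd_prime_pow hp).mp hd
  exact ⟨j, hj⟩

theorem regClasses_solvable {p : ℕ} (hp : p.Prime) (G : Type u) [Group G] [Finite G]
    (h : RegClasses p G) : Group.IsSolvable G := by
  refine solvable_of_hereditary (fun G _ => RegClasses p G) (regClasses_sub hp) (regClasses_quot hp)
    (fun G _ _ _ h => ?_) _ G rfl h
  by_cases hall : ∀ r : ℕ, r.Prime → r ∣ Nat.card G → r = p
  · exact solvable_of_p_group hp hall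
  · push Not at hall
    obtain ⟨r, hr, hrd, hne⟩ := hall
    haveI := Fact.mk hr
    obtain ⟨x, hx⟩ := exists_prime_orderOf_dvd_card' r hrd
    obtain ⟨k, hk⟩ := h x (hx ▸ (Nat.coprime_primes hr hp).mpr hne)
    refine solvable_of_prime (Cfsg.Agent.Lib.Char.prime_card_of_index_centralizer hp ?_ hk)
    rintro rfl
    rw [orderOf_one] at hx
    exact hr.one_lt.ne hx

/-- There is an abelian `p`-complement. -/
def AbComp (p : ℕ) (G : Type u) [Group G] : Prop :=
  ∃ H : Subgroup G, IsMulCommutative H ∧ ¬ p ∣ Nat.card H ∧ ∃ k : ℕ, H.index = p ^ k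

theorem abComp_solvable {p : ℕ} (hp : p.Prime) (G : Type u) [Group G] [Finite G] (h : AbComp p G) :
    Group.IsSolvable G := by
  refine solvable_of_hereditary (fun G _ => AbComp p G) ?_ ?_ (fun G _ _ _ h => ?_) _ G rfl h
  · rintro G _ _ N hN ⟨H, hab, hcop, k, hk⟩
    haveI := hN
    refine ⟨H.subgroupOf N, ⟨⟨fun a b => ?_⟩⟩, fun hd => hcop (hd.trans ?_), ?_⟩
    · refine Subtype.ext (Subtype.ext ?_)
      have h2 : ((a : N) : G) * ((b : N) : G) = ((b : N) : G) * ((a : N) : G) :=
        congrArg Subtype.val (hab.1.1 ⟨((a : N) : G), a.2⟩ ⟨((b : N) : G), b.2⟩)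
      exact h2
    · exact Subgroup.card_dvd_of_injective
        ({ toFun := fun a => ⟨((a : N) : G), a.2⟩, map_one' := rfl, map_mul' := fun _ _ => rfl } :
          H.subgroupOf N →* H)
        (fun a b e => Subtype.ext (Subtype.ext (congrArg (fun z : H => (z : G)) e)))
    · have hd : (H.subgroupOf N).index ∣ p ^ k := hk ▸ relIndex_normal_dvd H N
      obtain ⟨j, -, hj⟩ := (Nat.dvd_prime_pow hp).mp hd
      exact ⟨j, hj⟩
  · rintro G _ _ N hN ⟨H, hab, hcop, k, hk⟩
    refine ⟨H.map (QuotientGroup.mk' N), ⟨⟨?_⟩⟩, fun hd => hcop (hd.trans (H.card_map_dvd _)), ?_⟩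
    · rintro ⟨_, a, ha, rfl⟩ ⟨_, b, hb, rfl⟩
      refine Subtype.ext ?_
      show QuotientGroup.mk' N a * QuotientGroup.mk' N b = QuotientGroup.mk' N b * QuotientGroup.mk' N a
      rw [← map_mul, ← map_mul, show a * b = b * a from congrArg Subtype.val (hab.1.1 ⟨a, ha⟩ ⟨b, hb⟩)]
    · obtain ⟨j, -, hj⟩ := (Nat.dvd_prime_pow hp).mp
        (hk ▸ Subgroup.index_map_dvd H (QuotientGroup.mk'_surjective N))
      exact ⟨j, hj⟩
  · obtain ⟨H, hab, hcop, k, hk⟩ := h
    rcases eq_or_ne H ⊥ with hb | hb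
    · refine solvable_of_p_group hp fun r hr hrd => ?_
      rw [hb, Subgroup.index_bot] at hk
      exact (Nat.prime_dvd_prime_iff_eq hr hp).mp (hr.dvd_of_dvd_pow (hk ▸ hrd))
    · haveI := (Subgroup.nontrivial_iff_ne_bot H).mpr hb
      obtain ⟨⟨x, hxH⟩, hx⟩ := exists_ne (1 : H)
      have hle : H ≤ Subgroup.centralizer ({x} : Set G) := fun y hy =>
        Subgroup.mem_centralizer_singleton_iff.mpr (congrArg Subtype.val (hab.1.1 ⟨y, hy⟩ ⟨x, hxH⟩))
      obtain ⟨j, -, hj⟩ := (Nat.dvd_prime_pow hp).mp (hk ▸ Subgroup.index_dvd_of_le hle)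
      exact solvable_of_prime (Cfsg.Agent.Lib.Char.prime_card_of_index_centralizer hp
        (fun e => hx (Subtype.ext e)) hj)

theorem abelian_complement_of_regClasses {p : ℕ} (hp : p.Prime) {G : Type u} [Group G] [Finite G]
    [Group.IsSolvable G] (hG : RegClasses p G) (h1 : Cfsg.pCore p G = ⊥) {H : Subgroup G}
    (hH : ¬ p ∣ Nat.card H) : IsMulCommutative H := by
  haveI := Fact.mk hp
  set F := Cfsg.fittingSubgroup G with hF
  have hFp : ¬ p ∣ Nat.card F := by
    intro hd
    obtain ⟨y, hy⟩ := exists_prime_orderOf_dvd_card' p hd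
    have hnil := Cfsg.Agent.Lib.Hall.fittingSubgroup_isNilpotent (G := G)
    obtain ⟨P⟩ : Nonempty (Sylow p F) := Sylow.nonempty
    have hPn : (P : Subgroup F).Normal :=
      Sylow.normal_of_normalizerCondition Group.normalizerCondition_of_isNilpotent P
    haveI := Sylow.characteristic_of_normal P hPn
    have hle : (P : Subgroup F).map F.subtype ≤ Cfsg.pCore p G :=
      Cfsg.Agent.Lib.Hall.le_pCore (P.2.map _)
    have hyP := Cfsg.Agent.Lib.GS.mem_of_normal_sylow P hPn (b := 1) (by rw [hy, pow_one])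
    have : (y : G) = 1 := by
      have := hle ⟨y, hyP, rfl⟩
      rw [h1, Subgroup.mem_bot] at this
      exact this
    rw [show y = 1 from Subtype.ext this, orderOf_one] at hy
    exact hp.one_lt.ne hy
  have hcen : ∀ x : G, (orderOf x).Coprime p → x ∈ Subgroup.centralizer (F : Set G) := by
    intro x hx
    obtain ⟨k, hk⟩ := hG x hx
    have h2 : (Subgroup.centralizer ({x} : Set G)).relIndex F = 1 := by
      refine Nat.eq_one_of_dvd_coprimes (Nat.Coprime.pow_left k (hp.coprime_iff_not_dvd.mpr hFp))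
        (hk ▸ relIndex_normal_dvd _ F) ?_
      exact Subgroup.index_dvd_card _
    rw [Subgroup.relIndex_eq_one] at h2
    exact Subgroup.mem_centralizer_iff.mpr fun f hf =>
      Subgroup.mem_centralizer_singleton_iff.mp (h2 hf)
  have hcop : ∀ (K : Subgroup G), ¬ p ∣ Nat.card K → ∀ x ∈ K, (orderOf x).Coprime p := fun K hK x hx =>
    Nat.Coprime.symm (hp.coprime_iff_not_dvd.mpr fun h =>
      hK (h.trans (Cfsg.Agent.Lib.GS.orderOf_dvd_card_of_mem hx)))
  have hHF : H ≤ F := fun x hx =>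
    Cfsg.Agent.Lib.Hall.centralizer_fittingSubgroup_le (hcen x (hcop H hH x hx))
  exact ⟨⟨fun a b => Subtype.ext
    ((Subgroup.mem_centralizer_iff.mp (hcen b (hcop H hH b b.2))) a (hHF a.2))⟩⟩

/-- Let G be a finite group and p a prime. Every conjugacy class of p-regular elements of G (elements of order prime to p) has p-power size if and only if G has an abelian p-complement, i.e. an abelian subgroup of order prime to p and p-power index. -/
theorem result {G : Type*} [Group G] [Finite G] {p : ℕ} (hp : p.Prime) :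
    (∀ x : G, (orderOf x).Coprime p → ∃ k : ℕ, (ConjClasses.mk x).carrier.ncard = p ^ k) ↔
    (∃ H : Subgroup G, IsMulCommutative H ∧ ¬ p ∣ Nat.card H ∧ ∃ k : ℕ, H.index = p ^ k) := by
  haveI := Fact.mk hp
  constructor
  · intro h
    have hG : RegClasses p G := fun x hx => by
      obtain ⟨k, hk⟩ := h x hx
      exact ⟨k, by rwa [Cfsg.Agent.Lib.GS.ncard_carrier_eq_index] at hk⟩
    haveI := regClasses_solvable hp G hG
    obtain ⟨H, hH⟩ := Cfsg.Agent.Lib.Hall.exists_subgroup_card_eq (G := G)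
      (m := ordCompl[p] (Nat.card G)) (n := ordProj[p] (Nat.card G))
      (by rw [mul_comm, Nat.ordProj_mul_ordCompl_eq_self])
      (Nat.Coprime.pow_right _ (Nat.coprime_comm.mp (Nat.coprime_ordCompl hp Nat.card_pos.ne')))
    have hHp : ¬ p ∣ Nat.card H := hH ▸ Nat.not_dvd_ordCompl hp Nat.card_pos.ne'
    have hidx : H.index = ordProj[p] (Nat.card G) := by
      have h2 := H.card_mul_index
      rw [hH] at h2
      refine Nat.eq_of_mul_eq_mul_left (hH ▸ Nat.card_pos : 0 < ordCompl[p] (Nat.card G)) ?_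
      rw [h2, mul_comm, Nat.ordProj_mul_ordCompl_eq_self]
    refine ⟨H, ⟨⟨fun a b => ?_⟩⟩, hHp, _, hidx⟩
    haveI := Cfsg.Agent.Lib.Hall.pCore_normal (G := G) p
    set π := QuotientGroup.mk' (Cfsg.pCore p G)
    haveI : Group.IsSolvable (G ⧸ Cfsg.pCore p G) :=
      Group.isSolvable_of_surjective (QuotientGroup.mk'_surjective (Cfsg.pCore p G))
    have hbot : Cfsg.pCore p (G ⧸ Cfsg.pCore p G) = ⊥ := by
      haveI := Cfsg.Agent.Lib.Hall.pCore_normal (G := G ⧸ Cfsg.pCore p G) p
      have hle : (Cfsg.pCore p (G ⧸ Cfsg.pCore p G)).comap π ≤ Cfsg.pCore p G :=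
        Cfsg.Agent.Lib.Hall.le_pCore ((Cfsg.Agent.Lib.Hall.isPGroup_pCore p).comap_of_ker_isPGroup π
          (by rw [QuotientGroup.ker_mk']; exact Cfsg.Agent.Lib.Hall.isPGroup_pCore p))
      have h2 := Subgroup.map_mono (f := π) hle
      rwa [Subgroup.map_comap_eq_self_of_surjective (QuotientGroup.mk'_surjective _),
        QuotientGroup.map_mk'_self, le_bot_iff] at h2
    have hab := abelian_complement_of_regClasses hp (regClasses_quot hp G _ hG) hbot
      (H := H.map π) (fun hd => hHp (hd.trans (H.card_map_dvd _)))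
    have hc : π (a : G) * π (b : G) = π (b : G) * π (a : G) :=
      congrArg Subtype.val (hab.1.1 ⟨_, Subgroup.mem_map_of_mem π a.2⟩ ⟨_, Subgroup.mem_map_of_mem π b.2⟩)
    have hmem : ((a * b) * (b * a)⁻¹ : H).1 ∈ H ⊓ Cfsg.pCore p G := by
      refine ⟨Subtype.coe_prop _, (QuotientGroup.eq_one_iff _).mp ?_⟩
      show π _ = 1
      simp only [Subgroup.coe_mul, Subgroup.coe_inv, map_mul, map_inv, hc]
      group
    have hinf : H ⊓ Cfsg.pCore p G = ⊥ := by
      apply Subgroup.inf_eq_bot_of_coprime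
      obtain ⟨j, hj⟩ := IsPGroup.iff_card.mp (Cfsg.Agent.Lib.Hall.isPGroup_pCore (G := G) p)
      rw [hj]
      exact Nat.Coprime.pow_right _ (Nat.Coprime.symm (hp.coprime_iff_not_dvd.mpr hHp))
    rw [hinf, Subgroup.mem_bot] at hmem
    exact mul_inv_eq_one.mp (Subtype.ext hmem)
  · rintro ⟨H, hab, hHp, k, hk⟩ x hx
    haveI := abComp_solvable hp G ⟨H, hab, hHp, k, hk⟩
    rw [Cfsg.Agent.Lib.GS.ncard_carrier_eq_index]
    obtain ⟨g, hg⟩ := Cfsg.Agent.Lib.Hall.exists_le_conj (H := H) (K := Subgroup.zpowers x)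
      (by rw [hk]; exact Nat.Coprime.pow_right _ (Nat.Coprime.symm (hp.coprime_iff_not_dvd.mpr hHp)))
      (by rw [Nat.card_zpowers, hk]; exact Nat.Coprime.pow_right _ hx)
    have hxH := hg (Subgroup.mem_zpowers x)
    have hle : MulAut.conj g • H ≤ Subgroup.centralizer ({x} : Set G) := by
      intro y hy
      rw [Subgroup.mem_pointwise_smul_iff_inv_smul_mem] at hy hxH
      rw [Subgroup.mem_centralizer_singleton_iff]
      have h3 : (MulAut.conj g)⁻¹ • y * (MulAut.conj g)⁻¹ • x =
          (MulAut.conj g)⁻¹ • x * (MulAut.conj g)⁻¹ • y :=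
        congrArg Subtype.val (hab.1.1 ⟨_, hy⟩ ⟨_, hxH⟩)
      rw [← smul_mul', ← smul_mul'] at h3
      exact MulAction.injective _ h3
    have hd := Subgroup.index_dvd_of_le hle
    have hidx : (MulAut.conj g • H).index = H.index := by
      show (Subgroup.map _ H).index = H.index
      exact Subgroup.index_map_equiv H (MulAut.conj g)
    rw [hidx, hk] at hd
    obtain ⟨j, -, hj⟩ := (Nat.dvd_prime_pow hp).mp hd
    exact ⟨j, hj⟩

end Cfsg.Agent.S4034
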