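import Cfsg.Statements.S4035
import Mathlib
import Cfsg.Agent.Lib.GS.Sylow

set_option autoImplicit false
open Cfsg

namespace Cfsg.Agent.S4035

/-- Jordan: the conjugates of a proper subgroup do not cover a finite group. -/
theorem eq_top_of_conj_cover {G : Type*} [Group G] [Finite G] (H : Subgroup G)
    (h : ∀ z : G, ∃ g : G, g⁻¹ * z * g ∈ H) : H = ⊤ := by
  classical
  haveI := Fintype.ofFinite G
  rw [← Subgroup.index_eq_one]
  let f : (G ⧸ H) × {a : H // a ≠ 1} → {z : G // z ≠ 1} := fun qa =>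
    ⟨qa.1.out * (qa.2.1 : G) * qa.1.out⁻¹, fun hc => qa.2.2 (Subtype.ext (by
      rwa [conj_eq_one_iff] at hc))⟩
  have hf : Function.Surjective f := by
    rintro ⟨z, hz⟩
    obtain ⟨g, hg⟩ := h z
    have hout : (QuotientGroup.mk g : G ⧸ H).out⁻¹ * g ∈ H :=
      QuotientGroup.eq.mp (Quotient.out_eq (QuotientGroup.mk g : G ⧸ H))
    set c := (QuotientGroup.mk g : G ⧸ H).out with hc
    have hmem : c⁻¹ * z * c ∈ H := by
      have := mul_mem (mul_mem hout hg) (inv_mem hout)
      rwa [show c⁻¹ * g * (g⁻¹ * z * g) * (c⁻¹ * g)⁻¹ = c⁻¹ * z * c by group] at this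
    refine ⟨(QuotientGroup.mk g, ⟨⟨c⁻¹ * z * c, hmem⟩, fun hc' => hz ?_⟩), Subtype.ext ?_⟩
    · have h2 : c⁻¹ * z * c = 1 := congrArg Subtype.val hc'
      calc z = c * (c⁻¹ * z * c) * c⁻¹ := by group
        _ = 1 := by rw [h2]; group
    · simp only [f, ← hc]; group
  have hle := Nat.card_le_card_of_surjective f hf
  rw [Nat.card_prod, Nat.card_eq_fintype_card (α := {z : G // z ≠ 1}),
    Nat.card_eq_fintype_card (α := {a : H // a ≠ 1}), Fintype.card_subtype_compl,
    Fintype.card_subtype_compl, Fintype.card_subtype_eq, Fintype.card_subtype_eq,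
    ← Subgroup.index_eq_card, ← Nat.card_eq_fintype_card, ← Nat.card_eq_fintype_card,
    ← H.card_mul_index, Nat.mul_sub_one, mul_comm (Nat.card H)] at hle
  have hpos : 0 < H.index := Nat.pos_of_ne_zero Subgroup.index_ne_zero_of_finite
  have : H.index ≤ H.index * Nat.card H := Nat.le_mul_of_pos_right _ Nat.card_pos
  omega

/-- Let G be a finite group and p a prime such that p divides the size of no conjugacy class of p-regular elements (elements of order prime to p). Then G is the internal direct product of a Sylow p-subgroup P and a normal subgroup H of order prime to p: P is normal, P ⊓ H = 1 and PH = G. -/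
theorem result {G : Type*} [Group G] [Finite G] {p : ℕ} [Fact p.Prime]
    (h : ∀ x : G, (orderOf x).Coprime p → ¬ p ∣ (ConjClasses.mk x).carrier.ncard) (P : Sylow p G) :
    (P : Subgroup G).Normal ∧ ∃ H : Subgroup G, H.Normal ∧ ¬ p ∣ Nat.card H ∧
      (P : Subgroup G) ⊓ H = ⊥ ∧ (P : Subgroup G) ⊔ H = ⊤ := by
  have hp : p.Prime := Fact.out
  set Z := Subgroup.centralizer ((P : Subgroup G) : Set G) with hZ
  set S := (P : Subgroup G) ⊔ Z with hS
  have key : ∀ z : G, ∃ g : G, g⁻¹ * z * g ∈ S ∧ ((orderOf z).Coprime p → g⁻¹ * z * g ∈ Z) := by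
    intro z
    set n := orderOf z with hn
    set a := n.factorization p with ha
    set o := n / p ^ a with ho
    have hno : p ^ a * o = n := Nat.ordProj_mul_ordCompl_eq_self n p
    have hcop : Nat.Coprime (p ^ a) o := (Nat.coprime_ordCompl hp (orderOf_pos z).ne').pow_left a
    have hbez := Nat.gcd_eq_gcd_ab (p ^ a) o
    rw [hcop.gcd_eq_one] at hbez
    set u := z ^ ((o : ℤ) * Nat.gcdB (p ^ a) o) with hu
    set v := z ^ (((p ^ a : ℕ) : ℤ) * Nat.gcdA (p ^ a) o) with hv
    have huv : v * u = z := by rw [hu, hv, ← zpow_add, ← hbez]; simp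
    have hvo : v ^ o = 1 := by
      rw [hv, ← zpow_natCast, ← zpow_mul, ← orderOf_dvd_iff_zpow_eq_one, ← hn, ← hno]
      exact ⟨Nat.gcdA (p ^ a) o, by push_cast; ring⟩
    have hup : u ^ (p ^ a) = 1 := by
      rw [hu, ← zpow_natCast, ← zpow_mul, ← orderOf_dvd_iff_zpow_eq_one, ← hn, ← hno]
      exact ⟨Nat.gcdB (p ^ a) o, by push_cast; ring⟩
    have hvcop : (orderOf v).Coprime p := by
      rcases Nat.eq_zero_or_pos a with ha0 | ha0
      · refine Nat.Coprime.coprime_dvd_left (orderOf_dvd_of_pow_eq_one hvo) ?_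
        exact (Nat.coprime_ordCompl hp (orderOf_pos z).ne').symm
      · exact Nat.Coprime.coprime_dvd_left (orderOf_dvd_of_pow_eq_one hvo)
          (Nat.coprime_ordCompl hp (orderOf_pos z).ne').symm
    set C := Subgroup.centralizer ({v} : Set G) with hC
    have hidx : ¬ p ∣ C.index := by
      rw [hC, ← Cfsg.Agent.Lib.GS.ncard_carrier_eq_index]; exact h v hvcop
    obtain ⟨R⟩ : Nonempty (Sylow p C) := inferInstance
    have hR' : ¬ p ∣ ((R : Subgroup C).map C.subtype).index := by
      rw [Subgroup.index_map_subtype]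
      exact fun hd => (hp.dvd_mul.mp hd).elim R.not_dvd_index hidx
    let R₀ : Sylow p G := IsPGroup.toSylow (R.2.map C.subtype) hR'
    obtain ⟨g, hg⟩ := MulAction.exists_smul_eq G P R₀
    have hgmem : ∀ x, x ∈ (P : Subgroup G) → g * x * g⁻¹ ∈ C := by
      intro x hx
      have : g * x * g⁻¹ ∈ (R₀ : Subgroup G) := by
        rw [← hg, Sylow.coe_subgroup_smul]
        exact Subgroup.smul_mem_pointwise_smul x (MulAut.conj g) _ hx
      exact Subgroup.map_subtype_le _ (by simpa [R₀] using this)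
    have huC : u ∈ C := by
      rw [hC, Subgroup.mem_centralizer_singleton_iff, hu, hv, ← zpow_add, ← zpow_add, add_comm]
    obtain ⟨Q, hQ⟩ := (IsPGroup.of_card_dvd_pow (G := Subgroup.zpowers (⟨u, huC⟩ : C)) (n := a) (by
      rw [Nat.card_zpowers, Subgroup.orderOf_mk]; exact orderOf_dvd_of_pow_eq_one hup)).exists_le_sylow
    let P' : Subgroup G := (P : Subgroup G).map (MulAut.conj g).toMonoidHom
    have hP' : P' ≤ C := by rintro _ ⟨x, hx, rfl⟩; exact hgmem x hx
    have hP'i : ¬ p ∣ (P'.subgroupOf C).index := by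
      intro hd
      have h1 : P'.index = (P : Subgroup G).index := by
        refine Subgroup.index_map_equiv _ (MulAut.conj g)
      exact P.not_dvd_index (h1 ▸ hd.trans (Dvd.intro _ (Subgroup.relIndex_mul_index hP')))
    let P₁ : Sylow p C := IsPGroup.toSylow
      ((P.2.map (MulAut.conj g).toMonoidHom).comap_subtype) hP'i
    obtain ⟨c, hc⟩ := MulAction.exists_smul_eq C Q P₁
    have hu' : (c : G) * u * (c : G)⁻¹ ∈ P' := by
      have h1 : c * ⟨u, huC⟩ * c⁻¹ ∈ (P₁ : Subgroup C) := by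
        rw [← hc, Sylow.coe_subgroup_smul]
        exact Subgroup.smul_mem_pointwise_smul _ (MulAut.conj c) _ (hQ (Subgroup.mem_zpowers _))
      have h2 : (↑(c * ⟨u, huC⟩ * c⁻¹) : G) ∈ P' := h1
      simpa using h2
    have hvZ : g⁻¹ * ((c : G) * v * (c : G)⁻¹) * g ∈ Z := by
      rw [Subgroup.mem_centralizer_singleton_iff.mp c.2, mul_inv_cancel_right, hZ,
        Subgroup.mem_centralizer_iff]
      intro x hx
      have h1 := Subgroup.mem_centralizer_singleton_iff.mp (hgmem x hx)
      calc x * (g⁻¹ * v * g) = g⁻¹ * (g * x * g⁻¹ * v) * g := by group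
        _ = g⁻¹ * (v * (g * x * g⁻¹)) * g := by rw [h1]
        _ = g⁻¹ * v * g * x := by group
    have huP : g⁻¹ * ((c : G) * u * (c : G)⁻¹) * g ∈ (P : Subgroup G) := by
      obtain ⟨x, hx, hxe⟩ := hu'
      rw [← hxe]
      simp only [MulEquiv.coe_toMonoidHom, MulAut.conj_apply]
      rwa [show g⁻¹ * (g * x * g⁻¹) * g = x by group]
    refine ⟨(c : G)⁻¹ * g, ?_, fun hzp => ?_⟩
    · have e : ((c : G)⁻¹ * g)⁻¹ * z * ((c : G)⁻¹ * g) =
          g⁻¹ * ((c : G) * v * (c : G)⁻¹) * g * (g⁻¹ * ((c : G) * u * (c : G)⁻¹) * g) := by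
        rw [← huv]; group
      rw [e]
      exact mul_mem (Subgroup.mem_sup_right hvZ) (Subgroup.mem_sup_left huP)
    · have hu1 : u = 1 := by
        rw [← orderOf_eq_one_iff]
        refine Nat.eq_one_of_dvd_coprimes (hzp.pow_right a) ?_ (orderOf_dvd_of_pow_eq_one hup)
        rw [hu]
        exact orderOf_dvd_of_pow_eq_one (by
          rw [← zpow_natCast, ← zpow_mul, mul_comm, zpow_mul, zpow_natCast, hn, pow_orderOf_eq_one, one_zpow])
      have e : ((c : G)⁻¹ * g)⁻¹ * z * ((c : G)⁻¹ * g) = g⁻¹ * ((c : G) * v * (c : G)⁻¹) * g := by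
        rw [← huv, hu1]; group
      rw [e]; exact hvZ
  have htop : S = ⊤ := eq_top_of_conj_cover S fun z => ⟨(key z).choose, (key z).choose_spec.1⟩
  have hZN : Z ≤ Subgroup.normalizer ((P : Subgroup G) : Set G) := by
    intro c hc
    refine Cfsg.Agent.Lib.GS.mem_normalizer_of_forall fun x hx => ?_
    rw [← Subgroup.mem_centralizer_iff.mp hc x hx, mul_inv_cancel_right]
    exact hx
  haveI hPn : (P : Subgroup G).Normal := by
    rw [← Subgroup.normalizer_eq_top_iff, eq_top_iff, ← htop]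
    exact sup_le Subgroup.le_normalizer hZN
  refine Cfsg.Agent.Lib.GS.exists_direct_complement P fun y q b hq hqp hy => ?_
  obtain ⟨g, -, hg⟩ := key y
  haveI : Z.Normal := by rw [hZ]; infer_instance
  have h1 : g⁻¹ * y * g ∈ Z := hg (by rw [hy]; exact Nat.Coprime.pow_left b ((Nat.coprime_primes hq hp).mpr hqp))
  have h2 := ‹Z.Normal›.conj_mem _ h1 g
  rwa [show g * (g⁻¹ * y * g) * g⁻¹ = y by group] at h2

end Cfsg.Agent.S4035
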