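import Cfsg.Statements.S4036
import Mathlib
import Cfsg.Agent.Lib.GS.Sylow

set_option autoImplicit false
open Cfsg

namespace Cfsg.Agent.S4036


/-- Let P be a finite abelian p-group and K a group of automorphisms of P (a subgroup of Aut P) whose order is divisible by p. If all non-identity elements of K have the same fixed-point subgroup on P, then K has no non-trivial normal subgroup of order prime to p. -/
theorem result {P : Type*} [CommGroup P] [Finite P] {p : ℕ}
    [Fact p.Prime] (hP : IsPGroup p P) (K : Subgroup (MulAut P)) (hK : p ∣ Nat.card K)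
    (hfix : ∀ x y : MulAut P, x ∈ K → y ∈ K → x ≠ 1 → y ≠ 1 → ∀ v : P, x v = v ↔ y v = v) :
    ∀ N : Subgroup ↥K, N.Normal → ¬ p ∣ Nat.card N → N = ⊥ := by
  intro N hN hpN
  haveI := Fintype.ofFinite N
  haveI := hN
  let act : N → P → P := fun n v => ((n : ↥K) : MulAut P) v
  have act_mul : ∀ n m v, act (n * m) v = act n (act m v) := fun n m v => rfl
  let T : P →* P :=
    { toFun := fun v => ∏ n : N, act n v
      map_one' := by simp [act]
      map_mul' := fun v w => by simp [act, Finset.prod_mul_distrib] }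
  have hT : ∀ (m : N) (v : P), T (act m v) = T v := fun m v => by
    refine Fintype.prod_equiv (Equiv.mulRight m) _ _ (fun n => ?_)
    simp [act_mul]
  obtain ⟨k, hk⟩ := exists_prime_orderOf_dvd_card' p hK
  by_cases hbot : T.ker = ⊥
  · rw [Subgroup.eq_bot_iff_forall]
    intro n hn
    apply Subtype.ext
    apply MulEquiv.ext
    intro v
    exact (MonoidHom.ker_eq_bot_iff T).mp hbot (hT ⟨n, hn⟩ v)
  exfalso
  have hinv : ∀ (y : Subgroup.zpowers k) (v : P), v ∈ T.ker → ((y : ↥K) : MulAut P) v ∈ T.ker := by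
    intro y v hv
    rw [MonoidHom.mem_ker] at hv ⊢
    have : T (((y : ↥K) : MulAut P) v) = ((y : ↥K) : MulAut P) (T v) := by
      change ∏ n : N, act n _ = ((y : ↥K) : MulAut P) (∏ n : N, act n v)
      rw [map_prod]
      refine Fintype.prod_equiv
        ((MulAut.conjNormal (H := N) ((y : ↥K)⁻¹) : MulAut N).toEquiv) _ _ (fun n => ?_)
      simp only [act, MulEquiv.toEquiv_eq_coe, EquivLike.coe_coe, MulAut.conjNormal_apply]
      simp [MulAut.mul_apply, mul_assoc]
    rw [this, hv, map_one]
  letI : MulAction (Subgroup.zpowers k) T.ker :=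
    { smul := fun y v => ⟨((y : ↥K) : MulAut P) v.1, hinv y v.1 v.2⟩
      one_smul := fun v => Subtype.ext rfl
      mul_smul := fun y z v => Subtype.ext rfl }
  have hZ : IsPGroup p (Subgroup.zpowers k) :=
    IsPGroup.of_card (n := 1) (by rw [Nat.card_zpowers, hk, pow_one])
  obtain ⟨e, he⟩ := IsPGroup.iff_card.mp (hP.to_subgroup T.ker)
  have hpd : p ∣ Nat.card T.ker := by
    rcases e with _ | e
    · exact absurd (Subgroup.eq_bot_of_card_eq T.ker (by simpa using he)) hbot
    · exact he ▸ dvd_pow_self p e.succ_ne_zero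
  obtain ⟨w, hw, hw1⟩ := hZ.exists_fixed_point_of_prime_dvd_card_of_fixed_point T.ker hpd
    (a := 1) (fun y => Subtype.ext (map_one _))
  have hkw : (k : MulAut P) w.1 = w.1 := congrArg Subtype.val (hw ⟨k, Subgroup.mem_zpowers k⟩)
  have hk1 : (k : MulAut P) ≠ 1 := fun h => by
    have : k = 1 := Subtype.ext h
    rw [this, orderOf_one] at hk
    exact (Fact.out : p.Prime).ne_one hk.symm
  have hfixN : ∀ n : N, act n w.1 = w.1 := by
    intro n
    rcases eq_or_ne ((n : ↥K) : MulAut P) 1 with h | h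
    · simp [act, h]
    · exact (hfix _ _ k.2 (n : ↥K).2 hk1 h w.1).mp hkw
  have hTw : T w.1 = w.1 ^ Fintype.card N := by
    change ∏ n : N, act n w.1 = _
    rw [Finset.prod_congr rfl (fun n _ => hfixN n), Finset.prod_const, Finset.card_univ]
  rw [MonoidHom.mem_ker.mp w.2, ← Nat.card_eq_fintype_card] at hTw
  obtain ⟨b, hb⟩ := IsPGroup.iff_orderOf.mp hP w.1
  have hd : orderOf w.1 ∣ Nat.card N := orderOf_dvd_iff_pow_eq_one.mpr hTw.symm
  rcases b with _ | b
  · exact hw1 (Subtype.ext (orderOf_eq_one_iff.mp (hb.trans (pow_zero p))).symm)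
  · exact hpN ((dvd_pow_self p b.succ_ne_zero).trans (hb ▸ hd))

end Cfsg.Agent.S4036
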