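import Cfsg.Statements.S4040
import Mathlib
import Cfsg.Agent.Lib.FPF.FixedPointFree
import Cfsg.Agent.Lib.Coprime.Action
import Cfsg.Agent.Lib.GS.Sylow

set_option autoImplicit false
open Cfsg

namespace Cfsg.Agent.S4040

open Subgroup

universe u

theorem solvable_aux : ∀ (n : ℕ) (G : Type u) [Group G] [Finite G], Nat.card G = n →
    ∀ M : Subgroup G, IsCoatom M → Group.IsNilpotent M → Odd (Nat.card M) → Group.IsSolvable G := by
  intro n
  induction n using Nat.strong_induction_on with
  | _ n ih =>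
  intro G _ _ hn M hmax hnil hodd
  haveI := hnil
  haveI hMsol : Group.IsSolvable M := inferInstance
  by_cases hN : ∃ N : Subgroup G, N.Normal ∧ N ≠ ⊥ ∧ N ≤ M
  · obtain ⟨N, hNn, hNb, hNM⟩ := hN
    have hlt : Nat.card (G ⧸ N) < n := by
      rw [← hn, card_eq_card_quotient_mul_card_subgroup N]
      exact (Nat.lt_mul_iff_one_lt_right Nat.card_pos).2 ((one_lt_card_iff_ne_bot N).2 hNb)
    have hmap_ne : M.map (QuotientGroup.mk' N) ≠ ⊤ := by
      intro h
      have := congrArg (Subgroup.comap (QuotientGroup.mk' N)) h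
      rw [comap_map_eq, QuotientGroup.ker_mk', comap_top, sup_of_le_left hNM] at this
      exact hmax.1 this
    have hcoatom : IsCoatom (M.map (QuotientGroup.mk' N)) := by
      refine ⟨hmap_ne, fun L hL => ?_⟩
      have h2 : M < L.comap (QuotientGroup.mk' N) := by
        refine lt_of_le_of_ne (map_le_iff_le_comap.1 hL.le) fun h => hL.ne ?_
        rw [h, map_comap_eq_self_of_surjective (QuotientGroup.mk'_surjective N)]
      rw [← map_comap_eq_self_of_surjective (QuotientGroup.mk'_surjective N) L, hmax.2 _ h2,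
        map_top_of_surjective _ (QuotientGroup.mk'_surjective N)]
    haveI : Group.IsSolvable (G ⧸ N) := ih _ hlt (G ⧸ N) rfl _ hcoatom
      (Group.nilpotent_of_surjective _ ((QuotientGroup.mk' N).subgroupMap_surjective M))
      (hodd.of_dvd_nat (card_map_dvd _ _))
    haveI : Group.IsSolvable N := Cfsg.Agent.Lib.Coprime.isSolvable_of_le hNM hMsol
    exact Group.isSolvable_of_ker_le_range N.subtype (QuotientGroup.mk' N) (by rw [QuotientGroup.ker_mk', range_subtype])
  push Not at hN
  rcases eq_or_ne M ⊥ with rfl | hM0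
  · obtain ⟨x, hx⟩ : ∃ x : G, x ≠ 1 := by
      by_contra! h
      exact hmax.1 (eq_top_iff.2 fun x _ => (h x) ▸ one_mem _)
    have htop : zpowers x = ⊤ := hmax.2 _ (bot_lt_iff_ne_bot.2 (zpowers_ne_bot.2 hx))
    refine Group.isSolvable_of_comm fun a b => ?_
    obtain ⟨i, rfl⟩ := mem_zpowers_iff.1 (htop ▸ mem_top a)
    obtain ⟨j, rfl⟩ := mem_zpowers_iff.1 (htop ▸ mem_top b)
    exact (Commute.zpow_zpow_self x i j).eq
  -- nontrivial subgroups of `M` normalised by `M` have normaliser `M`
  have hnorm : ∀ X : Subgroup G, X ≠ ⊥ → X ≤ M → M ≤ normalizer (X : Set G) → normalizer (X : Set G) = M := by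
    intro X hX hXM hle
    by_contra hne
    exact hN X (normalizer_eq_top_iff.1 (hmax.2 _ (lt_of_le_of_ne hle (Ne.symm hne)))) hX hXM
  have hnpc : ∀ p : ℕ, p.Prime → p ∣ Nat.card M →
      ∃ (P : Sylow p G) (K : Subgroup G), K.Normal ∧ K.IsComplement' (P : Subgroup G) ∧ (P : Subgroup G) ≤ M := by
    intro p hp hpM
    haveI := Fact.mk hp
    obtain ⟨S0⟩ : Nonempty (Sylow p M) := inferInstance
    haveI hSn : (S0 : Subgroup M).Normal := ((Group.isNilpotent_of_finite_tfae (G := M)).out 0 3 rfl rfl).mp hnil p ‹_› S0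
    set S : Subgroup G := (S0 : Subgroup M).map M.subtype with hS
    have hSM : S ≤ M := map_subtype_le _
    have hSp : IsPGroup p S := S0.2.map _
    have hS0 : S ≠ ⊥ := by
      rw [hS, Ne, Subgroup.map_eq_bot_iff_of_injective _ M.subtype_injective]
      exact S0.ne_bot_of_dvd_card hpM
    have hMS : M ≤ normalizer (S : Set G) := by
      intro m hm
      rw [mem_normalizer_iff]
      intro x
      constructor
      · rintro ⟨y, hy, rfl⟩
        exact ⟨⟨m, hm⟩ * y * ⟨m, hm⟩⁻¹, hSn.conj_mem y hy _, rfl⟩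
      · rintro ⟨y, hy, hxy⟩
        refine ⟨⟨m, hm⟩⁻¹ * y * ⟨m, hm⟩⁻¹⁻¹, hSn.conj_mem y hy _, ?_⟩
        change m⁻¹ * (y : G) * m⁻¹⁻¹ = x
        rw [show (y : G) = m * x * m⁻¹ from hxy]; group
    have hNS := hnorm S hS0 hSM hMS
    obtain ⟨P, hSP⟩ := hSp.exists_le_sylow
    have hPS : (P : Subgroup G) = S := by
      by_contra hne
      haveI : Group.IsNilpotent (P : Subgroup G) := P.2.isNilpotent
      have hlt : S.subgroupOf P < ⊤ := lt_top_iff_ne_top.2 fun h =>
        hne (le_antisymm (subgroupOf_eq_top.1 h) hSP)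
      obtain ⟨y, hy, hyS⟩ := SetLike.exists_of_lt (Group.normalizerCondition_of_isNilpotent _ hlt)
      have hyM : (y : G) ∈ M := by
        rw [← hNS, mem_normalizer_iff]
        intro x
        constructor
        · intro hx
          exact ((mem_normalizer_iff.1 hy) ⟨x, hSP hx⟩).1 hx
        · intro hx
          have hxP : x ∈ (P : Subgroup G) := by
            have := mul_mem (mul_mem (inv_mem y.2) (hSP hx)) y.2
            simpa [mul_assoc] using this
          exact ((mem_normalizer_iff.1 hy) ⟨x, hxP⟩).2 hx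
      -- a `p`-element of `M` lies in its Sylow subgroup
      obtain ⟨b, hb⟩ := IsPGroup.iff_orderOf.1 P.2 y
      refine hyS ⟨⟨y, hyM⟩, ?_, rfl⟩
      exact Cfsg.Agent.Lib.GS.mem_of_normal_sylow S0 hSn (b := b)
        (by rw [Subgroup.orderOf_mk, Subgroup.orderOf_coe, hb])
    have hJb := Cfsg.Agent.Lib.FPF.thompsonSubgroupOf_ne_bot hSp hS0
    have hJM : Cfsg.thompsonSubgroupOf p S ≤ M := (Cfsg.Agent.Lib.FPF.thompsonSubgroupOf_le S).trans hSM
    have hJN := hnorm _ hJb hJM (hMS.trans (Cfsg.Agent.Lib.FPF.normalizer_le_normalizer_thompson S))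
    have hZb : (S ⊓ centralizer (S : Set G) : Subgroup G) ≠ ⊥ := by
      haveI : Nontrivial S := (nontrivial_iff_ne_bot S).2 hS0
      haveI := hSp.center_nontrivial
      obtain ⟨z, hz⟩ := exists_ne (1 : center S)
      refine fun h => hz (Subtype.ext (Subtype.ext (mem_bot.1 (h ▸ ⟨(z : S).2, ?_⟩))))
      change ((z : S) : G) ∈ centralizer (S : Set G)
      rw [mem_centralizer_iff]
      intro x hx
      exact congrArg Subtype.val (mem_center_iff.1 z.2 ⟨x, hx⟩)
    have hZN := hnorm _ hZb (inf_le_left.trans hSM)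
      (hMS.trans (Cfsg.Agent.Lib.FPF.normalizer_le_normalizer_center S))
    have hp2 : p ≠ 2 := fun h => (Nat.not_even_iff_odd.2 hodd) (even_iff_two_dvd.2 (h ▸ hpM))
    have hMnpc : Cfsg.HasNormalPComplement p M := Cfsg.Agent.Lib.FPF.npc_of_isNilpotent p
    obtain ⟨P', K, hK, hKP⟩ : Cfsg.HasNormalPComplement p G := by
      refine Cfsg.Agent.Lib.FPF.thompson_normal_p_complement hp2 P ?_
      rw [hPS]
      exact ⟨Cfsg.Agent.Lib.FPF.npc_subgroup_of_le hJN.le hMnpc,
        Cfsg.Agent.Lib.FPF.npc_subgroup_of_le ((centralizer_le_normalizer _).trans hZN.le) hMnpc⟩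
    refine ⟨P, K, hK, Subgroup.isComplement'_of_coprime ?_ ?_, hPS.le.trans hSM⟩
    · rw [P.card_eq_multiplicity, ← P'.card_eq_multiplicity]; exact hKP.card_mul
    · rw [P.card_eq_multiplicity, ← P'.card_eq_multiplicity, ← hKP.index_eq_card]
      exact P'.card_coprime_index.symm
  choose P Kp hKn hKP hPM using hnpc
  set K : Subgroup G := ⨅ (p : ℕ) (hp : p.Prime) (hd : p ∣ Nat.card M), Kp p hp hd with hK
  haveI hKnormal : K.Normal := normal_iInf_normal fun p => normal_iInf_normal fun hp => normal_iInf_normal fun hd => hKn p hp hd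
  have hKle : ∀ p hp hd, K ≤ Kp p hp hd := fun p hp hd =>
    (iInf_le _ p).trans ((iInf_le _ hp).trans (iInf_le _ hd))
  have hcop : (Nat.card M).Coprime (Nat.card K) := by
    refine Nat.coprime_of_dvd fun p hp hpM hpK => ?_
    haveI := Fact.mk hp
    have h2 := hpK.trans (card_dvd_of_le (hKle p hp hpM))
    rw [← (hKP p hp hpM).index_eq_card] at h2
    exact (P p hp hpM).not_dvd_index h2
  have hK0 : K ≠ ⊥ := by
    have hidx : M.index ≠ 1 := fun h => hmax.1 (index_eq_one.1 h)
    obtain ⟨q, hq, hqi⟩ := Nat.exists_prime_and_dvd hidx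
    haveI := Fact.mk hq
    obtain ⟨x, hx⟩ := exists_prime_orderOf_dvd_card' (G := G) q (hqi.trans (index_dvd_card M))
    intro hbot
    have hxK : x ∈ K := by
      simp only [hK, mem_iInf]
      intro p hp hd
      haveI := Fact.mk hp
      haveI := hKn p hp hd
      have hqp : ¬ q ∣ (Kp p hp hd).index := by
        intro h
        rw [(hKP p hp hd).symm.index_eq_card, (P p hp hd).card_eq_multiplicity] at h
        have := (Nat.prime_dvd_prime_iff_eq hq hp).1 (hq.dvd_of_dvd_pow h)
        subst this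
        exact (P q hp hd).not_dvd_index (hqi.trans (index_dvd_of_le (hPM q hp hd)))
      rw [← QuotientGroup.eq_one_iff, ← orderOf_eq_one_iff]
      refine Nat.eq_one_of_dvd_coprimes (hq.coprime_iff_not_dvd.2 hqp) ?_ ?_
      · rw [← hx]; exact orderOf_map_dvd (QuotientGroup.mk' _) x
      · rw [index_eq_card]; exact orderOf_dvd_natCard _
    rw [hbot, mem_bot] at hxK
    rw [hxK, orderOf_one] at hx
    exact hq.one_lt.ne hx
  have hdisj : M ⊓ K = ⊥ := Cfsg.Agent.Lib.Coprime.inf_eq_bot_of_coprime hcop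
  have hMK : M ⊔ K = ⊤ := hmax.2 _ (left_lt_sup.2 fun h => hK0 (by rw [← hdisj, inf_eq_right.2 h]))
  obtain ⟨r, hr, hrK⟩ := Nat.exists_prime_and_dvd (fun h => hK0 (card_eq_one.1 h) : Nat.card K ≠ 1)
  haveI := Fact.mk hr
  have hMK' : M ≤ normalizer (K : Set G) := by
    rw [normalizer_eq_top_iff.2 hKnormal]; exact le_top
  obtain ⟨R, hR⟩ := Cfsg.Agent.Lib.Coprime.exists_invariant_sylow hMK' hcop (Or.inl hMsol) r
  set R' := (R : Subgroup K).map K.subtype with hR'
  have hRK : R' ≤ K := map_subtype_le _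
  have hR0 : R' ≠ ⊥ := by
    rw [hR', Ne, Subgroup.map_eq_bot_iff_of_injective _ K.subtype_injective]
    exact R.ne_bot_of_dvd_card hrK
  have hnotle : ¬ R' ≤ M := fun h => hR0 (le_bot_iff.1 (hdisj ▸ le_inf h hRK))
  have hsup : M ⊔ R' = ⊤ := hmax.2 _ (left_lt_sup.2 hnotle)
  have hR'K : R' = K := by
    refine eq_of_le_of_card_ge hRK ?_
    have hcop' : (Nat.card M).Coprime (Nat.card R') := hcop.coprime_dvd_right (card_dvd_of_le hRK)
    have e1 := Cfsg.Agent.Lib.Coprime.card_sup_of_coprime hR hcop'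
    have e2 := Cfsg.Agent.Lib.Coprime.card_sup_of_coprime hMK' hcop
    rw [hsup] at e1
    rw [hMK, e1] at e2
    exact (Nat.eq_of_mul_eq_mul_left Nat.card_pos e2).ge
  haveI : Group.IsSolvable K := by
    have hp : IsPGroup r K := by
      have h1 : IsPGroup r R' := R.2.map _
      rwa [hR'K] at h1
    haveI := hp.isNilpotent
    infer_instance
  have hsurj : Function.Surjective ((QuotientGroup.mk' K).comp M.subtype) := by
    rw [← MonoidHom.range_eq_top, MonoidHom.range_comp, range_subtype]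
    have := map_top_of_surjective _ (QuotientGroup.mk'_surjective K)
    rwa [← hMK, Subgroup.map_sup, (Subgroup.map_eq_bot_iff _).2 (QuotientGroup.ker_mk' K).ge, sup_bot_eq] at this
  haveI : Group.IsSolvable (G ⧸ K) := Group.isSolvable_of_surjective hsurj
  exact Group.isSolvable_of_ker_le_range K.subtype (QuotientGroup.mk' K) (by rw [QuotientGroup.ker_mk', range_subtype])

/-- A finite group possessing a maximal subgroup that is nilpotent of odd order is solvable. -/
theorem result {G : Type*} [Group G] [Finite G]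
    (M : Subgroup G) (hmax : IsCoatom M) (hnil : Group.IsNilpotent M) (hodd : Odd (Nat.card M)) :
    Group.IsSolvable G := solvable_aux _ G rfl M hmax hnil hodd

end Cfsg.Agent.S4040
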