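import Cfsg.Statements.S4043
import Cfsg.Agent.Lib.Coprime.Action
import Cfsg.Agent.Lib.GS.Sylow
import Cfsg.Agent.Lib.GS.Basic

set_option autoImplicit false
open Cfsg

namespace Cfsg.Agent.S4043

open scoped Pointwise

theorem card_complement {G : Type*} [Group G] [Finite G] {p : ℕ} [hp : Fact p.Prime] (A : Subgroup G)
    (P : Sylow p A) (Kc : Subgroup A) (h : Kc.IsComplement' (P : Subgroup A)) :
    Nat.card (Kc.map A.subtype) = ordCompl[p] (Nat.card A) := by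
  have h1 := h.card_mul_card
  rw [Sylow.card_eq_multiplicity] at h1
  rw [← Nat.card_congr (Subgroup.equivMapOfInjective Kc _ A.subtype_injective).toEquiv]
  refine Nat.eq_of_mul_eq_mul_right (pow_pos hp.out.pos ((Nat.card A).factorization p)) ?_
  rw [h1, mul_comm (ordCompl[p] (Nat.card A)), Nat.ordProj_mul_ordCompl_eq_self]

/-- Let G be a finite group that is the semidirect product of a normal p-subgroup N by a subgroup A, and also of N by a subgroup A₁, where p is a prime and A and A₁ both have normal p-complements. If C_N(A) = C_N(A₁) = 1, then A₁ is conjugate to A by an element of N. -/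
theorem result {G : Type*} [Group G] [Finite G] {p : ℕ}
    [Fact p.Prime] (N : Subgroup G) [N.Normal] (hN : IsPGroup p N) (A A₁ : Subgroup G)
    (hA : A.IsComplement' N) (hA₁ : A₁.IsComplement' N)
    (hAp : Cfsg.HasNormalPComplement p A) (hA₁p : Cfsg.HasNormalPComplement p A₁)
    (hC : ∀ n : G, n ∈ N → (∀ a : G, a ∈ A → a * n * a⁻¹ = n) → n = 1)
    (hC₁ : ∀ n : G, n ∈ N → (∀ a : G, a ∈ A₁ → a * n * a⁻¹ = n) → n = 1) :
    ∃ n : G, n ∈ N ∧ A₁ = A.map (MulAut.conj n).toMonoidHom := by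
  classical
  have hp : p.Prime := Fact.out
  obtain ⟨P, Kc, hKn, hKP⟩ := hAp
  obtain ⟨P₁, Kc₁, hKn₁, hKP₁⟩ := hA₁p
  haveI := hKn
  haveI := hKn₁
  set K := Kc.map A.subtype with hKdef
  set K₁ := Kc₁.map A₁.subtype with hK₁def
  have hcardA : Nat.card A = Nat.card A₁ :=
    Nat.eq_of_mul_eq_mul_right Nat.card_pos (hA.card_mul_card.trans hA₁.card_mul_card.symm)
  have hK := card_complement A P Kc hKP
  have hK₁ := card_complement A₁ P₁ Kc₁ hKP₁
  have hKle : K ≤ A := Subgroup.map_subtype_le _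
  have hK₁le : K₁ ≤ A₁ := Subgroup.map_subtype_le _
  have hconjK : ∀ a ∈ A, ∀ k ∈ K, a * k * a⁻¹ ∈ K := by
    rintro a ha _ ⟨k, hk, rfl⟩
    exact ⟨⟨a, ha⟩ * k * ⟨a, ha⟩⁻¹, hKn.conj_mem k hk _, by simp⟩
  have hconjK₁ : ∀ a ∈ A₁, ∀ k ∈ K₁, a * k * a⁻¹ ∈ K₁ := by
    rintro a ha _ ⟨k, hk, rfl⟩
    exact ⟨⟨a, ha⟩ * k * ⟨a, ha⟩⁻¹, hKn₁.conj_mem k hk _, by simp⟩
  have hKN : (Nat.card K).Coprime (Nat.card N) := by
    obtain ⟨j, hj⟩ := IsPGroup.iff_card.mp hN
    rw [hK, hj]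
    exact ((Nat.coprime_ordCompl hp Nat.card_pos.ne').symm).pow_right j
  -- the two complements lie in the same normal subgroup
  set T := K ⊔ N
  haveI hT : T.Normal := by
    refine ⟨fun t ht g => ?_⟩
    obtain ⟨⟨⟨a, ha⟩, ⟨n, hn⟩⟩, rfl⟩ := hA.2 g
    have h1 : T ≤ T.comap (MulAut.conj (a * n)).toMonoidHom := by
      refine sup_le (fun k hk => ?_) (fun m hm => Subgroup.mem_sup_right (‹N.Normal›.conj_mem m hm _))
      show a * n * k * (a * n)⁻¹ ∈ T
      rw [show a * n * k * (a * n)⁻¹ = (a * n * a⁻¹) * (a * k * a⁻¹) * (a * n * a⁻¹)⁻¹ by group]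
      have h2 : a * n * a⁻¹ ∈ T := Subgroup.mem_sup_right (‹N.Normal›.conj_mem n hn _)
      exact T.mul_mem (T.mul_mem h2 (Subgroup.mem_sup_left (hconjK a ha k hk))) (T.inv_mem h2)
    exact h1 ht
  have hidx : ∃ j, T.index = p ^ j := by
    obtain ⟨j, hj⟩ := IsPGroup.iff_card.mp hN
    have h1 := K.card_mul_index
    rw [← hA.card_mul_card, hK, hj] at h1
    have h2 : ordCompl[p] (Nat.card A) * K.index =
        ordCompl[p] (Nat.card A) * (ordProj[p] (Nat.card A) * p ^ j) := by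
      rw [h1]
      conv_lhs => rw [← Nat.ordProj_mul_ordCompl_eq_self (Nat.card A) p]
      ring
    have h3 := Nat.eq_of_mul_eq_mul_left (Nat.ordCompl_pos p Nat.card_pos.ne') h2
    obtain ⟨i, -, hi⟩ := (Nat.dvd_prime_pow hp).mp
      ((Subgroup.index_dvd_of_le (le_sup_left : K ≤ T)).trans
        (by rw [h3, ← pow_add] : K.index ∣ p ^ ((Nat.card A).factorization p + j)))
    exact ⟨i, hi⟩
  have hK₁T : K₁ ≤ T := by
    intro k hk
    obtain ⟨i, hi⟩ := hidx
    rw [← QuotientGroup.eq_one_iff, ← orderOf_eq_one_iff]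
    refine Nat.eq_one_of_dvd_coprimes ?_ (orderOf_map_dvd (QuotientGroup.mk' T) k)
      (orderOf_dvd_natCard (k : G ⧸ T))
    rw [← Subgroup.index_eq_card, hi]
    have : orderOf k ∣ ordCompl[p] (Nat.card A₁) :=
      hK₁ ▸ Cfsg.Agent.Lib.GS.orderOf_dvd_card_of_mem hk
    exact (((Nat.coprime_ordCompl hp Nat.card_pos.ne').symm).coprime_dvd_left this).pow_right i
  obtain ⟨n, hn, hnK⟩ := Cfsg.Agent.Lib.Coprime.exists_conj_eq_of_le_sup (A := K) (N := N)
    (fun k _ => by rw [Subgroup.normalizer_eq_top_iff.mpr ‹N.Normal›]; exact Subgroup.mem_top k)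
    hKN (Or.inr (by haveI := hN.isNilpotent; infer_instance)) hK₁T (by rw [hK, hK₁, hcardA])
  refine ⟨n, hn, ?_⟩
  set A' := A.map (MulAut.conj n).toMonoidHom
  set M := Subgroup.normalizer (K₁ : Set G)
  have hA₁M : A₁ ≤ M := fun a ha =>
    Cfsg.Agent.Lib.GS.mem_normalizer_of_forall fun k hk => hconjK₁ a ha k hk
  have hA'M : A' ≤ M := by
    rintro _ ⟨a, ha, rfl⟩
    refine Cfsg.Agent.Lib.GS.mem_normalizer_of_forall fun k hk => ?_
    rw [← hnK, Subgroup.mem_pointwise_smul_iff_inv_smul_mem] at hk ⊢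
    have hk' : n⁻¹ * k * n ∈ K := by simpa [MulAut.conj_apply] using hk
    simpa [MulAut.conj_apply, mul_assoc] using hconjK a ha _ hk'
  -- no element of `N` normalises `K₁`
  have hD : ∀ d ∈ N, d ∈ M → d = 1 := by
    by_contra hne
    push Not at hne
    obtain ⟨d, hdN, hdM, hd1⟩ := hne
    set D := N ⊓ M
    have hcK : ∀ x ∈ D, ∀ k ∈ K₁, x * k = k * x := by
      intro x hx k hk
      have h1 : x * k * x⁻¹ * k⁻¹ ∈ K₁ ⊓ N := Subgroup.mem_inf.mpr
        ⟨K₁.mul_mem ((Subgroup.mem_normalizer_iff.mp hx.2 k).mp hk) (K₁.inv_mem hk), by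
          rw [show x * k * x⁻¹ * k⁻¹ = x * (k * x⁻¹ * k⁻¹) by group]
          exact N.mul_mem hx.1 (‹N.Normal›.conj_mem _ (N.inv_mem hx.1) k)⟩
      rw [Cfsg.Agent.Lib.Coprime.inf_eq_bot_of_coprime (A := K₁) (N := N)
        (by rw [hK₁, ← hcardA, ← hK]; exact hKN), Subgroup.mem_bot, mul_inv_eq_one,
        mul_inv_eq_iff_eq_mul] at h1
      exact h1
    set Pm := (P₁ : Subgroup A₁).map A₁.subtype
    have hPmM : Pm ≤ M := (Subgroup.map_subtype_le _).trans hA₁M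
    have hPmD : Pm ≤ Subgroup.normalizer (D : Set G) := fun a ha =>
      Cfsg.Agent.Lib.GS.mem_normalizer_of_forall fun x hx => Subgroup.mem_inf.mpr
        ⟨‹N.Normal›.conj_mem x hx.1 a, M.mul_mem (M.mul_mem (hPmM ha) hx.2) (M.inv_mem (hPmM ha))⟩
    set S := Pm ⊔ D
    have hSp : IsPGroup p S :=
      IsPGroup.to_sup_of_normal_right' (P₁.2.map _) (hN.to_le inf_le_left) hPmD
    haveI : (D.subgroupOf S).Normal := Subgroup.normal_subgroupOf_iff_le_normalizer le_sup_right |>.mpr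
      (sup_le hPmD Subgroup.le_normalizer)
    have hne : D.subgroupOf S ≠ ⊥ := fun h => by
      have h2 : (⟨d, Subgroup.mem_sup_right (Subgroup.mem_inf.mpr ⟨hdN, hdM⟩)⟩ : S) ∈ D.subgroupOf S :=
        Subgroup.mem_subgroupOf.mpr (Subgroup.mem_inf.mpr ⟨hdN, hdM⟩)
      rw [h, Subgroup.mem_bot] at h2
      exact hd1 (congrArg Subtype.val h2)
    obtain ⟨z, hz, hz1⟩ := Cfsg.Agent.Lib.GS.exists_central_of_normal hSp.isNilpotent
      (W := D.subgroupOf S) inferInstance hne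
    obtain ⟨hzD, hzc⟩ := Subgroup.mem_inf.mp hz
    have hzD' : (z : G) ∈ D := hzD
    refine hz1 (Subtype.ext (hC₁ z hzD'.1 fun a ha => ?_))
    have hle : A₁ ≤ Subgroup.centralizer ({(z : G)} : Set G) := by
      intro b hb
      obtain ⟨⟨⟨k, hk⟩, ⟨q, hq⟩⟩, hkq⟩ := hKP₁.2 (⟨b, hb⟩ : A₁)
      have e : b = (k : G) * q := (congrArg Subtype.val hkq).symm
      rw [e, Subgroup.mem_centralizer_singleton_iff]
      have c1 : (z : G) * k = k * z := hcK z hzD' k ⟨k, hk, rfl⟩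
      have c2 : (q : G) * z = z * q :=
        congrArg Subtype.val (Subgroup.mem_center_iff.mp hzc ⟨q, Subgroup.mem_sup_left ⟨q, hq, rfl⟩⟩)
      rw [mul_assoc, c2, ← mul_assoc, ← c1, mul_assoc]
    rw [mul_inv_eq_iff_eq_mul]
    exact Subgroup.mem_centralizer_singleton_iff.mp (hle ha)
  have hM : M ≤ A₁ := by
    intro x hx
    obtain ⟨⟨⟨a, ha⟩, ⟨m, hm⟩⟩, rfl⟩ := hA₁.2 x
    have hmM : m ∈ M := by
      have := M.mul_mem (M.inv_mem (hA₁M ha)) hx
      rwa [inv_mul_cancel_left] at this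
    show a * m ∈ A₁
    rw [hD m hm hmM, mul_one]
    exact ha
  refine (Subgroup.eq_of_le_of_card_ge (hA'M.trans hM) ?_).symm
  rw [← hcardA]
  exact le_of_eq (Nat.card_congr (Subgroup.equivMapOfInjective A _ (MulAut.conj n).injective).toEquiv)

end Cfsg.Agent.S4043
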