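import Cfsg.Statements.S4049
import Mathlib
import Cfsg.Agent.Lib.GS.Real

set_option autoImplicit false
open Cfsg

namespace Cfsg.Agent.S4049


/-- Let G be a finite group such that N_G(H)/C_G(H) has odd order for every nontrivial subgroup H of odd order. Then the Sylow 2-subgroups of G are normal. -/
theorem result {G : Type*} [Group G] [Finite G]
    (hhom : ∀ H : Subgroup G, H ≠ ⊥ → ¬ 2 ∣ Nat.card ↥H →
        ¬ 2 ∣ (Subgroup.centralizer (H : Set G)).relIndex (Subgroup.normalizer (H : Set G))) (P : Sylow 2 G) :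
    (P : Subgroup G).Normal := by
  refine Cfsg.Agent.Lib.GS.sylow_two_normal_of_no_real (fun x g hodd hg => ?_) P
  by_contra hx
  set H := Subgroup.zpowers x with hH
  have hmem : g ∈ Subgroup.normalizer (H : Set G) := by
    refine Cfsg.Agent.Lib.GS.mem_normalizer_of_forall fun z hz => ?_
    obtain ⟨i, rfl⟩ := Subgroup.mem_zpowers_iff.mp hz
    rw [← conj_zpow, hg]
    exact Subgroup.zpow_mem _ (Subgroup.inv_mem _ (Subgroup.mem_zpowers x)) i
  have h2 := hhom H (fun h => hx (Subgroup.zpowers_eq_bot.mp h))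
    (by rw [Nat.card_zpowers]; exact fun h => (Nat.not_even_iff_odd.mpr hodd) (even_iff_two_dvd.mpr h))
  set N := Subgroup.normalizer (H : Set G) with hN
  set C := Subgroup.centralizer (H : Set G) with hC
  have hg2 : g ^ 2 ∈ C := by
    rw [hC, Subgroup.mem_centralizer_iff]
    intro z hz
    obtain ⟨i, rfl⟩ := Subgroup.mem_zpowers_iff.mp hz
    have h3 : g ^ 2 * x * (g ^ 2)⁻¹ = x := by
      calc g ^ 2 * x * (g ^ 2)⁻¹ = g * (g * x * g⁻¹) * g⁻¹ := by rw [sq, mul_inv_rev]; simp only [mul_assoc]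
        _ = g * x⁻¹ * g⁻¹ := by rw [hg]
        _ = (g * x * g⁻¹)⁻¹ := conj_inv.symm
        _ = x := by rw [hg, inv_inv]
    rw [mul_inv_eq_iff_eq_mul] at h3
    exact ((show Commute (g ^ 2) x from h3).zpow_right i).symm.eq
  haveI : (C.subgroupOf N).Normal := ⟨fun z hz w => by
    rw [Subgroup.mem_subgroupOf, hC, Subgroup.mem_centralizer_iff] at hz ⊢
    intro v hv
    have hv' := (Subgroup.mem_normalizer_iff.mp (N.inv_mem w.2) v).mp hv
    rw [inv_inv] at hv'
    have h3 : Commute ((w : G)⁻¹ * v * w) (z : G) := hz _ hv'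
    have h4 := h3.map (MulAut.conj (w : G)).toMonoidHom
    simp only [MulEquiv.coe_toMonoidHom, MulAut.conj_apply] at h4
    rw [show (w : G) * ((w : G)⁻¹ * v * w) * (w : G)⁻¹ = v by group] at h4
    simpa [mul_assoc] using h4.eq⟩
  have hgC : g ∈ C := by
    have hidx : Odd (C.subgroupOf N).index := Nat.not_even_iff_odd.mp (fun h => h2 (even_iff_two_dvd.mp h))
    obtain ⟨k, hk⟩ := hidx
    have h3 : g ^ ((C.subgroupOf N).index) ∈ C :=
      Subgroup.mem_subgroupOf.mp ((C.subgroupOf N).pow_index_mem ⟨g, hmem⟩)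
    rw [hk, pow_succ, pow_mul] at h3
    exact (C.mul_mem_cancel_left (C.pow_mem hg2 k)).mp h3
  have h4 := Subgroup.mem_centralizer_iff.mp hgC x (Subgroup.mem_zpowers x)
  rw [← h4, mul_inv_cancel_right] at hg
  refine hx (Cfsg.Agent.Lib.Involution.eq_one_of_mul_self_of_odd hodd ?_)
  nth_rewrite 2 [hg]
  exact mul_inv_cancel x

end Cfsg.Agent.S4049
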