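import Cfsg.Statements.S4050
import Cfsg.Agent.Lib.GS.PiClosed

set_option autoImplicit false
open Cfsg

namespace Cfsg.Agent.S4050


/-- Let π be a set of primes and G a finite group. The π-elements of G (elements whose order is divisible only by primes of π) form a subgroup if and only if G is π-separable (it has a chain of normal subgroups from 1 to G with each successive index divisible only by primes in π or only by primes outside π) and N_G(H)/C_G(H) is a π'-group for every nontrivial π'-subgroup H of G. -/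
theorem result {G : Type*} [Group G] [Finite G] (π : Set ℕ)
    (hπ : ∀ p ∈ π, p.Prime) :
    (∃ K : Subgroup G, ∀ x : G, x ∈ K ↔ ∀ p : ℕ, p.Prime → p ∣ orderOf x → p ∈ π) ↔
    ((∃ (n : ℕ) (H : Fin (n + 1) → Subgroup G), H 0 = ⊥ ∧ H (Fin.last n) = ⊤ ∧ Monotone H ∧ (∀ i, (H i).Normal) ∧
      ∀ i : Fin n, (∀ q : ℕ, q.Prime → q ∣ (H i.castSucc).relIndex (H i.succ) → q ∈ π) ∨
        (∀ q : ℕ, q.Prime → q ∣ (H i.castSucc).relIndex (H i.succ) → q ∉ π)) ∧
     (∀ H : Subgroup G, H ≠ ⊥ → (∀ p : ℕ, p.Prime → p ∣ Nat.card ↥H → p ∉ π) →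
        ∀ p : ℕ, p.Prime → p ∣ (Subgroup.centralizer (H : Set G)).relIndex (Subgroup.normalizer (H : Set G)) → p ∉ π)) := by
  constructor
  · rintro ⟨K, hK⟩
    haveI hKn : K.Normal := ⟨fun x hx g => (hK _).mpr fun p hp hd =>
      (hK x).mp hx p hp (MulEquiv.orderOf_eq (MulAut.conj g) x ▸ hd)⟩
    have hKc : Cfsg.Agent.Lib.GS.PiNat π (Nat.card K) :=
      Cfsg.Agent.Lib.GS.piNat_card fun x hx => (hK x).mp hx
    have hsyl : ∀ (p : ℕ), p.Prime → p ∈ π → ∀ (x : G) (b : ℕ), orderOf x = p ^ b → x ∈ K := by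
      intro p hp hpπ x b hx
      refine (hK x).mpr fun r hr hrd => ?_
      rw [hx] at hrd
      rwa [(Nat.prime_dvd_prime_iff_eq hr hp).mp (hr.dvd_of_dvd_pow hrd)]
    have hidx : ∀ p : ℕ, p.Prime → p ∣ K.index → p ∉ π := by
      intro p hp hd hpπ
      haveI := Fact.mk hp
      obtain ⟨S⟩ : Nonempty (Sylow p G) := Sylow.nonempty
      refine S.not_dvd_index (hd.trans (Subgroup.index_dvd_of_le fun s hs => ?_))
      obtain ⟨j, hj⟩ := IsPGroup.iff_orderOf.mp S.2 ⟨s, hs⟩
      rw [Subgroup.orderOf_mk] at hj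
      exact hsyl p hp hpπ s j hj
    refine ⟨⟨2, ![⊥, K, ⊤], rfl, rfl, ?_, ?_, ?_⟩, ?_⟩
    · rw [Fin.monotone_iff_le_succ]
      intro i; fin_cases i <;> simp
    · intro i; fin_cases i <;> simp <;> infer_instance
    · intro i; fin_cases i
      · left; simpa [Subgroup.relIndex_bot_left, Cfsg.Agent.Lib.GS.PiNat] using hKc
      · right; simpa [Subgroup.relIndex_top_right] using hidx
    · intro H hH hHπ p hp hd hpπ
      haveI := Fact.mk hp
      obtain ⟨S⟩ : Nonempty (Sylow p (Subgroup.normalizer (H : Set G))) := Sylow.nonempty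
      refine S.not_dvd_index (hd.trans (Subgroup.index_dvd_of_le fun s hs => ?_))
      rw [Subgroup.mem_subgroupOf, Subgroup.mem_centralizer_iff]
      intro h hh
      obtain ⟨j, hj⟩ := IsPGroup.iff_orderOf.mp S.2 ⟨s, hs⟩
      rw [Subgroup.orderOf_mk, ← Subgroup.orderOf_coe] at hj
      have hsK := hsyl p hp hpπ (s : G) j hj
      have h1 : (s : G) * h * (s : G)⁻¹ * h⁻¹ ∈ K ⊓ H := Subgroup.mem_inf.mpr
        ⟨by
          rw [show (s : G) * h * (s : G)⁻¹ * h⁻¹ = (s : G) * (h * (s : G)⁻¹ * h⁻¹) by group]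
          exact K.mul_mem hsK (hKn.conj_mem _ (K.inv_mem hsK) h),
        H.mul_mem ((Subgroup.mem_normalizer_iff.mp s.2 h).mp hh) (H.inv_mem hh)⟩
      rw [Cfsg.Agent.Lib.Coprime.inf_eq_bot_of_coprime (hKc.coprime hHπ), Subgroup.mem_bot,
        mul_inv_eq_one, mul_inv_eq_iff_eq_mul] at h1
      exact h1.symm
  · rintro ⟨⟨n, H, h0, hlast, hmono, hnorm, hstep⟩, hhom⟩
    have key : ∀ i : Fin (n + 1), ∃ J : Subgroup G, ∀ x : G,
        x ∈ J ↔ x ∈ H i ∧ Cfsg.Agent.Lib.GS.PiNat π (orderOf x) := by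
      intro i
      induction i using Fin.induction with
      | zero =>
        refine ⟨⊥, fun x => ?_⟩
        rw [h0, Subgroup.mem_bot]
        refine ⟨fun h => ⟨h, ?_⟩, fun h => h.1⟩
        intro p hp hd
        rw [h, orderOf_one] at hd
        exact absurd hd hp.not_dvd_one
      | succ i ih =>
        obtain ⟨J, hJ⟩ := ih
        haveI := hnorm i.castSucc
        haveI := hnorm i.succ
        haveI hJn : J.Normal := ⟨fun x hx g => (hJ _).mpr
          ⟨(hnorm i.castSucc).conj_mem x ((hJ x).mp hx).1 g, fun p hp hd =>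
            ((hJ x).mp hx).2 p hp (MulEquiv.orderOf_eq (MulAut.conj g) x ▸ hd)⟩⟩
        have hle : H i.castSucc ≤ H i.succ := hmono (Fin.castSucc_le_succ i)
        rcases hstep i with hs | hs
        · refine Cfsg.Agent.Lib.GS.exists_pi_subgroup hhom J (H i.castSucc) (H i.succ)
            (fun x hx => ((hJ x).mp hx).1) hle
            (Cfsg.Agent.Lib.GS.piNat_card fun x hx => ((hJ x).mp hx).2) ?_ hs
          intro p hp hd hpπ
          haveI := Fact.mk hp
          obtain ⟨S⟩ : Nonempty (Sylow p (H i.castSucc)) := Sylow.nonempty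
          refine S.not_dvd_index (hd.trans (Subgroup.index_dvd_of_le fun s hs' => ?_))
          rw [Subgroup.mem_subgroupOf]
          refine (hJ _).mpr ⟨s.2, fun r hr hrd => ?_⟩
          obtain ⟨j, hj⟩ := IsPGroup.iff_orderOf.mp S.2 ⟨s, hs'⟩
          rw [Subgroup.orderOf_mk] at hj
          rw [Subgroup.orderOf_coe, hj] at hrd
          rwa [(Nat.prime_dvd_prime_iff_eq hr hp).mp (hr.dvd_of_dvd_pow hrd)]
        · refine ⟨J, fun x => ⟨fun hx => ⟨hle ((hJ x).mp hx).1, ((hJ x).mp hx).2⟩,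
            fun ⟨hxH, hxπ⟩ => (hJ x).mpr ⟨?_, hxπ⟩⟩⟩
          haveI : ((H i.castSucc).subgroupOf (H i.succ)).Normal := (hnorm i.castSucc).comap _
          exact Subgroup.mem_subgroupOf.mp (Cfsg.Agent.Lib.GS.eq_top_of_piNat_index
            (N := (H i.castSucc).subgroupOf (H i.succ)) (x := ⟨x, hxH⟩)
            (by rw [Subgroup.orderOf_mk]; exact hxπ) hs)
    obtain ⟨J, hJ⟩ := key (Fin.last n)
    exact ⟨J, fun x => ⟨fun hx => ((hJ x).mp hx).2,
      fun hx => (hJ x).mpr ⟨hlast ▸ Subgroup.mem_top x, hx⟩⟩⟩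

end Cfsg.Agent.S4050
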