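import Cfsg.Statements.S4051
import Cfsg.Agent.Lib.GS.PiClosed

set_option autoImplicit false
open Cfsg

namespace Cfsg.Agent.S4051


/-- Let π be a set of primes and G a finite group such that N_G(H)/C_G(H) is a π'-group for every nontrivial π'-subgroup H of G. If K is a normal subgroup of G such that the π-elements of K form a subgroup and the π-elements of G/K form a subgroup, then the π-elements of G form a subgroup. -/
theorem result {G : Type*} [Group G] [Finite G] (π : Set ℕ)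
    (hπ : ∀ p ∈ π, p.Prime) (hhom : (∀ H : Subgroup G, H ≠ ⊥ → (∀ p : ℕ, p.Prime → p ∣ Nat.card ↥H → p ∉ π) →
        ∀ p : ℕ, p.Prime → p ∣ (Subgroup.centralizer (H : Set G)).relIndex (Subgroup.normalizer (H : Set G)) → p ∉ π))
    (K : Subgroup G) [K.Normal]
    (hK : ∃ L : Subgroup ↥K, ∀ x : ↥K, x ∈ L ↔ ∀ p : ℕ, p.Prime → p ∣ orderOf x → p ∈ π)
    (hQ : ∃ L : Subgroup (G ⧸ K), ∀ x : G ⧸ K, x ∈ L ↔ ∀ p : ℕ, p.Prime → p ∣ orderOf x → p ∈ π) :
    (∃ K : Subgroup G, ∀ x : G, x ∈ K ↔ ∀ p : ℕ, p.Prime → p ∣ orderOf x → p ∈ π) := by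
  obtain ⟨L, hL⟩ := hK
  obtain ⟨LQ, hLQ⟩ := hQ
  have hLn : (L.map K.subtype).Normal := by
    refine ⟨fun x hx g => ?_⟩
    obtain ⟨y, hy, rfl⟩ := hx
    refine ⟨⟨g * y * g⁻¹, ‹K.Normal›.conj_mem _ y.2 g⟩, (hL _).mpr fun p hp hd => ?_, rfl⟩
    refine (hL y).mp hy p hp ?_
    rw [← Subgroup.orderOf_coe] at hd ⊢
    exact (MulEquiv.orderOf_eq (MulAut.conj g) (y : G)) ▸ hd
  have hLQn : LQ.Normal := ⟨fun x hx g => (hLQ _).mpr fun p hp hd =>
    (hLQ x).mp hx p hp (MulEquiv.orderOf_eq (MulAut.conj g) x ▸ hd)⟩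
  haveI := hLn
  haveI : (LQ.comap (QuotientGroup.mk' K)).Normal := hLQn.comap _
  have hLπ : Cfsg.Agent.Lib.GS.PiNat π (Nat.card (L.map K.subtype)) :=
    Cfsg.Agent.Lib.GS.piNat_card fun x hx => by
      obtain ⟨y, hy, rfl⟩ := hx
      intro p hp hd
      exact (hL y).mp hy p hp (by rw [← Subgroup.orderOf_coe]; exact hd)
  obtain ⟨J, hJ⟩ := Cfsg.Agent.Lib.GS.exists_pi_subgroup hhom (L.map K.subtype) K
    (LQ.comap (QuotientGroup.mk' K)) (Subgroup.map_subtype_le _)
    (fun x hx => by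
      show QuotientGroup.mk' K x ∈ LQ
      rw [show QuotientGroup.mk' K x = 1 from (QuotientGroup.eq_one_iff x).mpr hx]
      exact one_mem _)
    hLπ (fun p hp hd hpπ => by
      haveI := Fact.mk hp
      have h1 : p ∣ L.index := by
        rwa [Subgroup.relIndex, Subgroup.subgroupOf, Subgroup.comap_map_eq_self_of_injective
          K.subtype_injective] at hd
      obtain ⟨S⟩ : Nonempty (Sylow p K) := Sylow.nonempty
      refine S.not_dvd_index (h1.trans (Subgroup.index_dvd_of_le fun s hs => (hL s).mpr ?_))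
      obtain ⟨j, hj⟩ := IsPGroup.iff_orderOf.mp S.2 ⟨s, hs⟩
      rw [Subgroup.orderOf_mk] at hj
      intro r hr hrd
      rw [hj] at hrd
      rwa [(Nat.prime_dvd_prime_iff_eq hr hp).mp (hr.dvd_of_dvd_pow hrd)])
    (fun p hp hd => by
      haveI := Fact.mk hp
      have h1 : K.relIndex (LQ.comap (QuotientGroup.mk' K)) = Nat.card LQ := by
        have h := Subgroup.relIndex_ker (K := LQ.comap (QuotientGroup.mk' K)) (QuotientGroup.mk' K)
        rw [QuotientGroup.ker_mk', Subgroup.map_comap_eq_self_of_surjective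
          (QuotientGroup.mk'_surjective K)] at h
        exact h
      obtain ⟨x, hx⟩ := exists_prime_orderOf_dvd_card' p (h1 ▸ hd)
      exact (hLQ (x : G ⧸ K)).mp x.2 p hp (by rw [Subgroup.orderOf_coe, hx]))
  refine ⟨J, fun x => ⟨fun hx => ((hJ x).mp hx).2, fun hx => (hJ x).mpr ⟨?_, hx⟩⟩⟩
  exact (hLQ _).mpr fun p hp hd => hx p hp (hd.trans (orderOf_map_dvd (QuotientGroup.mk' K) x))

end Cfsg.Agent.S4051
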