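import Cfsg.Statements.S4056
import Mathlib
import Cfsg.Agent.Lib.GS.Sylow

set_option autoImplicit false
open Cfsg

namespace Cfsg.Agent.S4056

theorem frattini_eq_bot_of_sq {Q : Type*} [Group Q] [Finite Q] (h : ∀ x : Q, x ^ 2 = 1) :
    frattini Q = ⊥ := by
  have hcomm : ∀ a b : Q, a * b = b * a := fun a b => by
    have hinv : ∀ x : Q, x⁻¹ = x := fun x => inv_eq_of_mul_eq_one_right (by rw [← sq, h])
    calc a * b = (a * b)⁻¹ := (hinv _).symm
      _ = b⁻¹ * a⁻¹ := mul_inv_rev a b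
      _ = b * a := by rw [hinv, hinv]
  rw [eq_bot_iff]
  intro y hy
  by_contra hne
  have hne' : y ≠ 1 := fun h' => hne (Subgroup.mem_bot.mpr h')
  obtain ⟨M, hM, hmax⟩ := Finite.exists_le_maximal (p := fun K : Subgroup Q => y ∉ K) (a := ⊥)
    (by simpa using hne')
  have hyM : y ∉ M := hmax.1
  refine hyM (frattini_le_coatom (K := M) ⟨fun h' => hyM (by rw [h']; exact Subgroup.mem_top y), fun K hK => ?_⟩ hy)
  have hyK : y ∈ K := by
    by_contra hyK
    exact hK.not_ge (hmax.2 hyK hK.le)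
  rw [Subgroup.eq_top_iff']
  intro x
  by_cases hx : x ∈ M
  · exact hK.le hx
  -- the subgroup `M ∪ xM` contains `y`
  let L : Subgroup Q :=
    { carrier := {z | z ∈ M ∨ x * z ∈ M}
      one_mem' := Or.inl M.one_mem
      mul_mem' := by
        rintro a b (ha | ha) (hb | hb)
        · exact Or.inl (M.mul_mem ha hb)
        · right
          rw [← mul_assoc, hcomm x a, mul_assoc]; exact M.mul_mem ha hb
        · right
          rw [← mul_assoc]; exact M.mul_mem ha hb
        · left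
          have : (x * a) * (x * b) = a * b := by
            rw [mul_assoc, ← mul_assoc a x b, hcomm a x, ← mul_assoc, ← mul_assoc, ← sq, h, one_mul]
          exact this ▸ M.mul_mem ha hb
      inv_mem' := by
        intro a ha
        have : a⁻¹ = a := inv_eq_of_mul_eq_one_right (by rw [← sq, h])
        rw [this]; exact ha }
  have hyL : y ∈ L := by
    by_contra hyL
    have hML : M ≤ L := fun z hz => Or.inl hz
    have hxL : x ∈ L := Or.inr (by rw [← sq, h]; exact M.one_mem)
    exact hx (hmax.2 hyL hML hxL)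
  rcases hyL with h1 | h1
  · exact absurd h1 hyM
  · have := K.mul_mem (hK.le h1) (K.inv_mem hyK)
    rwa [mul_inv_cancel_right] at this

/-- In a finite 2-group of nilpotency class at most 2 and exponent dividing 4, the Frattini subgroup lies in the centre and is elementary abelian. -/
theorem result {P : Type*} [Group P] [Finite P] (hP : IsPGroup 2 P)
    (hcl : Group.nilpotencyClass P ≤ 2) (hexp : Monoid.exponent P ∣ 4) :
    frattini P ≤ Subgroup.center P ∧ Cfsg.IsElementaryAbelian 2 (frattini P) := by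
  haveI : Group.IsNilpotent P := hP.isNilpotent
  have hexp4 : ∀ x : P, x ^ 4 = 1 := fun x =>
    orderOf_dvd_iff_pow_eq_one.mp ((Monoid.order_dvd_exponent x).trans hexp)
  have h2 : Subgroup.upperCentralSeries P 2 = ⊤ := by
    rw [Subgroup.upperCentralSeries_eq_top_iff_nilpotencyClass_le]; exact hcl
  have hc : ∀ x y : P, x * y * x⁻¹ * y⁻¹ ∈ Subgroup.center P := fun x y => by
    have hx : x ∈ Subgroup.upperCentralSeries P 2 := h2 ▸ Subgroup.mem_top x
    have := (Subgroup.mem_upperCentralSeries_succ_iff).mp hx y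
    rwa [Subgroup.upperCentralSeries_one] at this
  have hpush : ∀ x y : P, ∀ n : ℕ, x ^ n * y = (x * y * x⁻¹ * y⁻¹) ^ n * (y * x ^ n) := by
    intro x y n
    induction n with
    | zero => simp
    | succ n ih =>
      have hk := Subgroup.mem_center_iff.mp (Subgroup.pow_mem _ (hc x y) n) x
      rw [pow_succ' x n, mul_assoc, ih, ← mul_assoc x, hk, pow_succ (x * y * x⁻¹ * y⁻¹) n]
      group
  have hc2 : ∀ x y : P, (x * y * x⁻¹ * y⁻¹) ^ 2 = 1 := by
    intro x y
    -- compute (y * x)^4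
    have hk : ∀ z, z * (x * y * x⁻¹ * y⁻¹) = (x * y * x⁻¹ * y⁻¹) * z :=
      fun z => Subgroup.mem_center_iff.mp (hc x y) z
    have hxy : x * y = (x * y * x⁻¹ * y⁻¹) * (y * x) := by group
    set c := x * y * x⁻¹ * y⁻¹ with hcdef
    have hcc : ∀ (n : ℕ) z, z * c ^ n = c ^ n * z := fun n z =>
      Subgroup.mem_center_iff.mp (Subgroup.pow_mem _ (hc x y) n) z
    have e2 : (y * x) ^ 2 = c * (y ^ 2 * x ^ 2) := by
      calc (y * x) ^ 2 = y * (x * y) * x := by rw [sq]; group
        _ = y * c * (y * x) * x := by rw [hxy]; group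
        _ = c * (y ^ 2 * x ^ 2) := by rw [hk y, sq, sq]; group
    have e3 : x ^ 2 * y ^ 2 = c ^ 4 * (y ^ 2 * x ^ 2) := by
      have q1 : x ^ 2 * y = c ^ 2 * (y * x ^ 2) := hpush x y 2
      calc x ^ 2 * y ^ 2 = (x ^ 2 * y) * y := by rw [sq y]; group
        _ = (c ^ 2 * (y * x ^ 2)) * y := by rw [q1]
        _ = c ^ 2 * y * (x ^ 2 * y) := by simp only [mul_assoc]
        _ = c ^ 2 * y * (c ^ 2 * (y * x ^ 2)) := by rw [q1]
        _ = c ^ 2 * (y * c ^ 2) * (y * x ^ 2) := by simp only [mul_assoc]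
        _ = c ^ 4 * (y ^ 2 * x ^ 2) := by
            rw [hcc 2 y, show (4 : ℕ) = 2 + 2 from rfl, pow_add, sq y]; simp only [mul_assoc]
    have e4 : (y * x) ^ 4 = c ^ 6 * (y ^ 4 * x ^ 4) := by
      calc (y * x) ^ 4 = (y * x) ^ 2 * (y * x) ^ 2 := by group
        _ = c * (y ^ 2 * x ^ 2) * c * (y ^ 2 * x ^ 2) := by rw [e2]; group
        _ = c * c * (y ^ 2 * (x ^ 2 * y ^ 2) * x ^ 2) := by
            rw [mul_assoc c (y ^ 2 * x ^ 2) c, hk (y ^ 2 * x ^ 2)]; group
        _ = c * c * (y ^ 2 * c ^ 4 * (y ^ 2 * x ^ 2) * x ^ 2) := by rw [e3]; group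
        _ = c ^ 6 * (y ^ 4 * x ^ 4) := by rw [hcc 4 (y ^ 2)]; group
    rw [hexp4, hexp4, hexp4, mul_one, mul_one] at e4
    have : c ^ 6 = c ^ 4 * c ^ 2 := by group
    rw [this, hexp4, one_mul] at e4
    exact e4.symm
  have hsq : ∀ x : P, x ^ 2 ∈ Subgroup.center P := fun x => by
    rw [Subgroup.mem_center_iff]
    intro y
    rw [hpush x y 2, hc2, one_mul]
  let E : Subgroup P :=
    { carrier := {z | z ∈ Subgroup.center P ∧ z ^ 2 = 1}
      one_mem' := ⟨Subgroup.one_mem _, one_pow 2⟩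
      mul_mem' := fun {a b} ha hb => ⟨Subgroup.mul_mem _ ha.1 hb.1, by
        rw [(show Commute a b from (Subgroup.mem_center_iff.mp hb.1 a)).mul_pow, ha.2, hb.2, one_mul]⟩
      inv_mem' := fun {a} ha => ⟨Subgroup.inv_mem _ ha.1, by rw [inv_pow, ha.2, inv_one]⟩ }
  haveI : E.Normal := ⟨fun z hz g => by
    have : g * z * g⁻¹ = z := by rw [Subgroup.mem_center_iff.mp hz.1 g, mul_inv_cancel_right]
    rw [this]; exact hz⟩
  have hfr : frattini P ≤ E := by
    have h1 := frattini_le_comap_frattini_of_surjective (QuotientGroup.mk'_surjective E)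
    rw [frattini_eq_bot_of_sq (Q := P ⧸ E) (fun q => by
      obtain ⟨z, rfl⟩ := QuotientGroup.mk'_surjective E q
      rw [← map_pow, QuotientGroup.mk'_apply, QuotientGroup.eq_one_iff]
      exact ⟨hsq z, by rw [← pow_mul, hexp4]⟩), MonoidHom.comap_bot, QuotientGroup.ker_mk'] at h1
    exact h1
  refine ⟨fun z hz => (hfr hz).1, ⟨⟨fun a b => Subtype.ext ?_⟩⟩, fun a ha => (hfr ha).2⟩
  exact (Subgroup.mem_center_iff.mp (hfr b.2).1 a.1)

end Cfsg.Agent.S4056
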