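import Cfsg.Statements.S4057
import Cfsg.Agent.Lib.GenBound.Tri
import Cfsg.Agent.Lib.GenBound.Central
import Cfsg.Agent.Lib.GenBound.Flag
import Cfsg.Agent.Lib.Uniq.Alperin

set_option autoImplicit false
open Cfsg

namespace Cfsg.Agent.S4057

open Subgroup Cfsg.Agent.Lib

theorem card_closure_le {P : Type*} [Group P] [Finite P] {p : ℕ} [Fact p.Prime] (S : Finset P)
    (hexp : ∀ x ∈ closure (S : Set P), x ^ p = 1) (hcomm : IsMulCommutative (closure (S : Set P))) :
    Nat.card (closure (S : Set P)) ≤ p ^ S.card := by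
  classical
  induction S using Finset.induction_on with
  | empty => simp
  | @insert a S ha ih =>
    have hle : closure (S : Set P) ≤ closure (↑(insert a S) : Set P) := closure_mono (by simp)
    have haM : a ∈ closure (↑(insert a S) : Set P) := subset_closure (by simp)
    have hc : ∀ x y : P, x ∈ closure (↑(insert a S) : Set P) → y ∈ closure (↑(insert a S) : Set P) → x * y = y * x :=
      fun x y hx hy => congrArg Subtype.val (hcomm.is_comm.comm (⟨x, hx⟩ : closure (↑(insert a S) : Set P)) ⟨y, hy⟩)
    have ih' := ih (fun x hx => hexp x (hle hx)) ⟨⟨fun x y => Subtype.ext (hc x y (hle x.2) (hle y.2))⟩⟩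
    have hsurj : Function.Surjective (fun z : ↥(zpowers a) × ↥(closure (S : Set P)) =>
        (⟨(z.1 : P) * z.2, mul_mem (zpowers_le.2 haM z.1.2) (hle z.2.2)⟩ : ↥(closure (↑(insert a S) : Set P)))) := by
      rintro ⟨x, hx⟩
      have hn : closure (S : Set P) ≤ normalizer (zpowers a : Set P) := fun y hy =>
        mem_normalizer_iff.2 fun z => by
          have hcy : y * a = a * y := hc y a (hle hy) haM
          constructor
          · intro hz
            obtain ⟨i, rfl⟩ := hz
            simp only
            rw [(show Commute y a from hcy).zpow_right i |>.eq, mul_inv_cancel_right]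
            exact zpow_mem (mem_zpowers a) i
          · intro hz
            obtain ⟨i, hi⟩ := hz
            simp only at hi
            have : z = y⁻¹ * a ^ i * y := by rw [hi]; group
            rw [this, mul_assoc, ← (show Commute y a from hcy).zpow_right i |>.eq, inv_mul_cancel_left]
            exact zpow_mem (mem_zpowers a) i
      have hx' : x ∈ zpowers a ⊔ closure (S : Set P) := by
        rw [zpowers_eq_closure, ← Subgroup.closure_union, ← Set.insert_eq, ← Finset.coe_insert]
        exact hx
      rw [← SetLike.mem_coe, coe_mul_of_right_le_normalizer_left _ _ hn] at hx'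
      obtain ⟨u, hu, v, hv, rfl⟩ := hx'
      exact ⟨(⟨u, hu⟩, ⟨v, hv⟩), rfl⟩
    refine (Nat.card_le_card_of_surjective _ hsurj).trans ?_
    rw [Nat.card_prod, Finset.card_insert_of_notMem ha, pow_succ']
    refine Nat.mul_le_mul ?_ ih'
    rw [Nat.card_zpowers]
    exact Nat.le_of_dvd (Fact.out : p.Prime).pos (orderOf_dvd_of_pow_eq_one (hexp a haM))

/-- Let p be an odd prime and P a finite p-group in which every normal abelian subgroup can be generated by k elements. Then every subgroup of P can be generated by at most ⌊k(k+4)/4⌋ elements. -/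
theorem result {P : Type*} [Group P] [Finite P] {p : ℕ} [Fact p.Prime]
    (hp : p ≠ 2) (hP : IsPGroup p P) (k : ℕ)
    (hab : ∀ A : Subgroup P, A.Normal → IsMulCommutative A → ∃ S : Finset P, S.card ≤ k ∧ Subgroup.closure (S : Set P) = A) :
    ∀ H : Subgroup P, ∃ S : Finset P, S.card ≤ k * (k + 4) / 4 ∧ Subgroup.closure (S : Set P) = H := by
  classical
  obtain ⟨E, ⟨hEn, hE⟩, hmax⟩ := (Set.toFinite {E : Subgroup P | E.Normal ∧ Cfsg.IsElementaryAbelian p E}).exists_maximal
    ⟨⊥, inferInstance, ⟨inferInstance, fun x hx => by rw [mem_bot.1 hx, one_pow]⟩⟩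
  haveI := hEn
  have hOm : ∀ y ∈ centralizer (E : Set P), y ^ p = 1 → y ∈ E := fun y hy hyp => by
    by_contra hyE
    obtain ⟨W, hWn, hW, hlt⟩ := Uniq.exists_larger_normal_elementary hp hP E hE hy hyp hyE
    exact not_le_of_gt hlt (hmax ⟨hWn, hW⟩ hlt.le)
  obtain ⟨SE, hSE, hSEc⟩ := hab E hEn hE.1
  have hEcard : Nat.card E ≤ p ^ k := by
    rw [← hSEc]
    refine (card_closure_le SE (fun x hx => hE.2 x (hSEc ▸ hx)) (hSEc ▸ hE.1)).trans
      (Nat.pow_le_pow_right (Fact.out : p.Prime).pos hSE)
  obtain ⟨m, M, hm, htri, hker⟩ := GenBound.exists_tri_rep hP E hE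
  have hmk : m ≤ k := (Nat.pow_le_pow_iff_right (Fact.out : p.Prime).one_lt).1 (hm ▸ hEcard)
  intro H
  obtain ⟨T, hT, hTgen⟩ := GenBound.exists_gens (hP.to_subgroup H) (M.comp H.subtype) (fun h => htri h)
  set C := H ⊓ centralizer (E : Set P)
  have hCcen : GenBound.PCentral p C := fun x hx => by
    have hxE : (x : P) ∈ E := hOm _ x.2.2 (by simpa using congrArg Subtype.val hx)
    exact mem_center_iff.2 fun y => Subtype.ext (mem_centralizer_iff.1 y.2.2 _ hxE).symm
  have hCcard : Nat.card {x : C // x ^ p = 1} ≤ p ^ k := by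
    refine le_trans ?_ hEcard
    refine Nat.card_le_card_of_injective (fun x => (⟨(x.1 : P), hOm _ x.1.2.2 (by simpa using congrArg Subtype.val x.2)⟩ : E))
      fun x y h => Subtype.ext (Subtype.ext (congrArg (fun z : E => (z : P)) h))
  obtain ⟨U, hU, hUgen⟩ := GenBound.exists_gens_of_pCentral hp (hP.to_subgroup C) hCcen k hCcard
  refine ⟨T.image (fun h : H => (h : P)) ∪ U.image (fun c : C => (c : P)), ?_, ?_⟩
  · refine (Finset.card_union_le _ _).trans ((Nat.add_le_add (Finset.card_image_le.trans hT) (Finset.card_image_le.trans hU)).trans ?_)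
    have h1 : m ^ 2 / 4 ≤ k ^ 2 / 4 := Nat.div_le_div_right (Nat.pow_le_pow_left hmk 2)
    have h2 : k * (k + 4) / 4 = k ^ 2 / 4 + k := by
      rw [show k * (k + 4) = k ^ 2 + 4 * k by ring, Nat.add_mul_div_left _ _ (by omega : 0 < 4)]
    omega
  set S : Set P := ↑(T.image (fun h : H => (h : P)) ∪ U.image (fun c : C => (c : P))) with hS
  refine le_antisymm ((closure_le H).2 fun x hx => ?_) fun x hx => ?_
  · simp only [hS, Finset.coe_union, Finset.coe_image, Set.mem_union, Set.mem_image] at hx
    rcases hx with ⟨h, -, rfl⟩ | ⟨c, -, rfl⟩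
    · exact h.2
    · exact c.2.1
  have hCle : C ≤ closure S := fun y hy => by
    have hy' : (⟨y, hy⟩ : C) ∈ closure (U : Set C) := hUgen ▸ mem_top _
    have : y ∈ (closure (U : Set C)).map C.subtype := ⟨_, hy', rfl⟩
    rw [MonoidHom.map_closure] at this
    refine closure_mono ?_ this
    rintro _ ⟨c, hc, rfl⟩
    simp only [hS, Finset.coe_union, Finset.coe_image]
    exact Or.inr ⟨c, hc, rfl⟩
  have hK := hTgen ((closure S).subgroupOf H) (fun h hh => mem_subgroupOf.2 (subset_closure (by
      simp only [hS, Finset.coe_union, Finset.coe_image]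
      exact Or.inl ⟨h, hh, rfl⟩)))
    (fun h hh => mem_subgroupOf.2 (hCle ⟨h.2, hker _ hh⟩))
  exact mem_subgroupOf.1 (hK ▸ mem_top (⟨x, hx⟩ : H))

end Cfsg.Agent.S4057
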