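import Cfsg.Statements.S4058
import Cfsg.Agent.Lib.Char.FrobSchur
import Cfsg.Agent.Lib.Char.Degree
import Cfsg.Agent.Lib.Char.Linear
import Cfsg.Agent.Lib.PGroupFrattini

set_option autoImplicit false
open Cfsg

namespace Cfsg.Agent.S4058

open scoped commutatorElement

/-- Let G be a finite 2-group with #(G/Φ(G)) ≥ 2^(2k+1). Then the number of elements x of G with x² = 1 is divisible by 2^(k+1). -/
theorem result {G : Type*} [Group G] [Finite G] (hG : IsPGroup 2 G) (k : ℕ)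
    (hgen : 2 ^ (2 * k + 1) ≤ Nat.card (G ⧸ frattini G)) :
    2 ^ (k + 1) ∣ Nat.card {x : G // x ^ 2 = 1} := by
  classical
  haveI : Fact (Nat.Prime 2) := ⟨Nat.prime_two⟩
  haveI := Fintype.ofFinite G
  haveI : IsMulCommutative (G ⧸ frattini G) := by
    refine ⟨⟨fun a b => ?_⟩⟩
    induction a using QuotientGroup.induction_on with
    | H a =>
      induction b using QuotientGroup.induction_on with
      | H b =>
        rw [← QuotientGroup.mk_mul, ← QuotientGroup.mk_mul, QuotientGroup.eq]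
        apply Cfsg.Agent.Lib.PGroupFrattini.commutator_le_frattini hG
        have : (a * b)⁻¹ * (b * a) = ⁅b⁻¹, a⁻¹⁆ := by
          simp only [commutatorElement_def, inv_inv]; group
        rw [this]
        exact Subgroup.commutator_mem_commutator (Subgroup.mem_top _) (Subgroup.mem_top _)
  letI : CommGroup (G ⧸ frattini G) :=
    { (inferInstance : Group (G ⧸ frattini G)) with mul_comm := fun a b => mul_comm' a b }
  have hsq : ∀ (l : (G ⧸ frattini G) →* ℂˣ) (g : G), ((l (g : (G ⧸ frattini G)) : ℂˣ) : ℂ) * (l (g : (G ⧸ frattini G)) : ℂˣ) = 1 := by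
    intro l g
    rw [← Units.val_mul, ← map_mul, ← QuotientGroup.mk_mul, ← sq]
    rw [(QuotientGroup.eq_one_iff _).mpr (Cfsg.Agent.Lib.PGroupFrattini.pow_mem_frattini hG g)]
    simp
  have hreal : ∀ (l : (G ⧸ frattini G) →* ℂˣ) (g : G), starRingEnd ℂ ((l (g : (G ⧸ frattini G)) : ℂˣ) : ℂ) = (l (g : (G ⧸ frattini G)) : ℂˣ) := by
    intro l g
    rcases mul_self_eq_one_iff.mp (hsq l g) with h | h <;> rw [h] <;> simp
  have hcardQ : Nat.card ((G ⧸ frattini G) →* ℂˣ) = Nat.card (G ⧸ frattini G) := by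
    obtain ⟨e⟩ := CommGroup.monoidHom_mulEquiv_of_hasEnoughRootsOfUnity (G ⧸ frattini G) ℂ
    exact Nat.card_congr e.toEquiv
  let act : ((G ⧸ frattini G) →* ℂˣ) → Cfsg.IrrCharacter G → Cfsg.IrrCharacter G := fun l χ =>
    ⟨fun g => ((l.comp (QuotientGroup.mk' (frattini G))) g : ℂ) * (χ : G → ℂ) g,
      Cfsg.Agent.Lib.Char.isIrrCharacter_linear_mul χ.2 _⟩
  letI : MulAction ((G ⧸ frattini G) →* ℂˣ) (Cfsg.IrrCharacter G) :=
    { smul := act
      one_smul := fun χ => Subtype.ext (funext fun g => by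
        show ((1 : ℂˣ) : ℂ) * (χ : G → ℂ) g = _
        simp)
      mul_smul := fun l l' χ => Subtype.ext (funext fun g => by
        show ((l (g : (G ⧸ frattini G)) * l' (g : (G ⧸ frattini G)) : ℂˣ) : ℂ) * (χ : G → ℂ) g = (l (g : (G ⧸ frattini G)) : ℂ) * ((l' (g : (G ⧸ frattini G)) : ℂ) * (χ : G → ℂ) g)
        rw [Units.val_mul, mul_assoc]) }
  have hsmul : ∀ (l : (G ⧸ frattini G) →* ℂˣ) (χ : Cfsg.IrrCharacter G) (g : G),
      ((l • χ : Cfsg.IrrCharacter G) : G → ℂ) g = (l (g : (G ⧸ frattini G)) : ℂ) * (χ : G → ℂ) g := fun _ _ _ => rfl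
  -- the terms of the Frobenius-Schur sum
  let d : Cfsg.IrrCharacter G → ℕ := fun χ => Cfsg.charDegree (χ : G → ℂ)
  have hd : ∀ χ : Cfsg.IrrCharacter G, (χ : G → ℂ) 1 = (d χ : ℂ) := fun χ =>
    Cfsg.Agent.Lib.Char.apply_one_eq_charDegree (Cfsg.Agent.Lib.Char.isCharacter_of_isIrr χ.2)
  have hf : ∀ χ : Cfsg.IrrCharacter G, ∃ z : ℤ, (d χ : ℤ) ∣ z ∧
      (z : ℂ) = Cfsg.Agent.Lib.Char.fsInd (χ : G → ℂ) * (χ : G → ℂ) 1 := by
    intro χ
    rcases (Cfsg.Agent.Lib.Char.fsInd_irr χ.2).1 with h | h | h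
    · exact ⟨0, dvd_zero _, by simp [h]⟩
    · exact ⟨d χ, dvd_rfl, by simp [h, hd χ]⟩
    · exact ⟨-(d χ : ℤ), dvd_neg.mpr dvd_rfl, by simp [h, hd χ]⟩
  choose f hfd hfeq using hf
  have hinv : ∀ (l : (G ⧸ frattini G) →* ℂˣ) (χ : Cfsg.IrrCharacter G), f (l • χ) = f χ := by
    intro l χ
    apply Int.cast_injective (α := ℂ)
    rw [hfeq, hfeq, hsmul]
    have h2 : Cfsg.Agent.Lib.Char.fsInd ((l • χ : Cfsg.IrrCharacter G) : G → ℂ) =
        Cfsg.Agent.Lib.Char.fsInd (χ : G → ℂ) := by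
      simp only [Cfsg.Agent.Lib.Char.fsInd, hsmul]
      congr 1
      refine Finset.sum_congr rfl fun s _ => ?_
      rw [QuotientGroup.mk_mul, map_mul, Units.val_mul, hsq, one_mul]
    rw [h2]; simp
  haveI : Finite ((G ⧸ frattini G) →* ℂˣ) := Nat.finite_of_card_ne_zero (hcardQ ▸ Nat.card_pos.ne')
  haveI := Fintype.ofFinite ((G ⧸ frattini G) →* ℂˣ)
  -- stabilisers are small
  have hstab : ∀ χ : Cfsg.IrrCharacter G, Nat.card (MulAction.stabilizer ((G ⧸ frattini G) →* ℂˣ) χ) ≤ d χ ^ 2 := by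
    intro χ
    let φ : G → ℂ := (χ : G → ℂ) * fun g => starRingEnd ℂ ((χ : G → ℂ) g)
    have hφ : Cfsg.IsCharacter G φ :=
      Cfsg.Agent.Lib.Char.isCharacter_mul (Cfsg.Agent.Lib.Char.isCharacter_of_isIrr χ.2)
        (Cfsg.Agent.Lib.Char.isCharacter_conj (Cfsg.Agent.Lib.Char.isCharacter_of_isIrr χ.2))
    have hcoef : ∀ ψ : Cfsg.IrrCharacter G, ∃ n : ℕ, Cfsg.classInner φ (ψ : G → ℂ) = n := fun ψ =>
      Cfsg.Agent.Lib.Char.classInner_natCast hφ (Cfsg.Agent.Lib.Char.isCharacter_of_isIrr ψ.2)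
    choose a ha using hcoef
    have hsum : (d χ ^ 2 : ℕ) = ∑ ψ : Cfsg.IrrCharacter G, a ψ * d ψ := by
      apply Nat.cast_injective (R := ℂ)
      push_cast
      have h1 := congrFun (Cfsg.Agent.Lib.Char.eq_sum_classInner_smul
        (Cfsg.Agent.Lib.Char.isClassFunction_of_isCharacter hφ)) 1
      simp only [Finset.sum_apply, Pi.smul_apply, smul_eq_mul, ha, hd] at h1
      rw [← h1]
      simp [φ, hd, sq]
    let j : MulAction.stabilizer ((G ⧸ frattini G) →* ℂˣ) χ → Cfsg.IrrCharacter G := fun l =>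
      ⟨fun g => (((l : (G ⧸ frattini G) →* ℂˣ).comp (QuotientGroup.mk' (frattini G))) g : ℂ),
        Cfsg.Agent.Lib.Char.isIrrCharacter_linear _⟩
    have hj : Function.Injective j := by
      intro l l' h
      refine Subtype.ext (MonoidHom.ext fun q => ?_)
      induction q using QuotientGroup.induction_on with
      | H g => exact Units.ext (congrFun (congrArg Subtype.val h) g)
    have hone : ∀ l : MulAction.stabilizer ((G ⧸ frattini G) →* ℂˣ) χ, a (j l) * d (j l) = 1 := by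
      intro l
      have h1 : d (j l) = 1 := by
        apply Nat.cast_injective (R := ℂ)
        rw [← hd]; simp [j]
      have h2 : a (j l) = 1 := by
        apply Nat.cast_injective (R := ℂ)
        rw [← ha, Nat.cast_one, ← Cfsg.Agent.Lib.Char.classInner_irr_self χ.2]
        conv_rhs => arg 2; rw [← (MulAction.mem_stabilizer_iff.mp l.2)]
        simp only [Cfsg.classInner, φ, j, Pi.mul_apply, hsmul, map_mul, MonoidHom.comp_apply,
          QuotientGroup.mk'_apply]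
        congr 1
        exact Finset.sum_congr rfl fun g _ => by ring
      rw [h1, h2]
    calc Nat.card (MulAction.stabilizer ((G ⧸ frattini G) →* ℂˣ) χ)
        = ∑ _l : MulAction.stabilizer ((G ⧸ frattini G) →* ℂˣ) χ, 1 := by
          rw [Nat.card_eq_fintype_card]; simp
      _ = ∑ l : MulAction.stabilizer ((G ⧸ frattini G) →* ℂˣ) χ, a (j l) * d (j l) :=
          Finset.sum_congr rfl fun l _ => (hone l).symm
      _ = ∑ ψ ∈ Finset.univ.map ⟨j, hj⟩, a ψ * d ψ := by rw [Finset.sum_map]; rfl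
      _ ≤ ∑ ψ : Cfsg.IrrCharacter G, a ψ * d ψ :=
          Finset.sum_le_sum_of_subset (Finset.subset_univ _)
      _ = d χ ^ 2 := hsum.symm
  -- the sum
  obtain ⟨n, hn⟩ := IsPGroup.iff_card.mp hG
  obtain ⟨e, he⟩ := IsPGroup.iff_card.mp (hG.to_quotient (frattini G))
  have he' : 2 * k + 1 ≤ e := (Nat.pow_le_pow_iff_right (by norm_num)).mp (he ▸ hgen)
  have horb : ∀ χ : Cfsg.IrrCharacter G,
      ((2 ^ (k + 1) : ℕ) : ℤ) ∣ (Nat.card (MulAction.orbit ((G ⧸ frattini G) →* ℂˣ) χ) : ℤ) * f χ := by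
    intro χ
    refine dvd_trans ?_ (mul_dvd_mul dvd_rfl (hfd χ))
    rw [← Nat.cast_mul, Int.natCast_dvd_natCast]
    obtain ⟨j, -, hj⟩ := (Nat.dvd_prime_pow Nat.prime_two).mp
      (hn ▸ Cfsg.Agent.Lib.Char.charDegree_dvd_card χ.2)
    have hmul : Nat.card (MulAction.orbit ((G ⧸ frattini G) →* ℂˣ) χ) *
        Nat.card (MulAction.stabilizer ((G ⧸ frattini G) →* ℂˣ) χ) = 2 ^ e := by
      rw [← Nat.card_prod, Nat.card_congr (MulAction.orbitProdStabilizerEquivGroup ((G ⧸ frattini G) →* ℂˣ) χ),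
        hcardQ, he]
    obtain ⟨o, -, ho⟩ := (Nat.dvd_prime_pow Nat.prime_two).mp (Dvd.intro _ hmul)
    obtain ⟨s, -, hs⟩ := (Nat.dvd_prime_pow Nat.prime_two).mp (Dvd.intro_left _ hmul)
    rw [ho, hs, ← pow_add] at hmul
    have hos := Nat.pow_right_injective le_rfl hmul
    have hsj := hstab χ
    change d χ = 2 ^ j at hj
    rw [hs, hj, ← pow_mul, Nat.pow_le_pow_iff_right (by norm_num)] at hsj
    rw [ho, hj, ← pow_add]
    exact pow_dvd_pow 2 (by omega)
  rw [← Int.natCast_dvd_natCast]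
  have hcount : ((Nat.card {x : G // x ^ 2 = 1} : ℕ) : ℤ) = ∑ χ : Cfsg.IrrCharacter G, f χ := by
    apply Int.cast_injective (α := ℂ)
    push_cast
    simp only [hfeq]
    rw [← Cfsg.Agent.Lib.Char.card_sqrt_eq_sum (1 : G), Nat.card_eq_fintype_card,
      Fintype.card_subtype]
    simp [sq]
  rw [hcount, ← Equiv.sum_comp (MulAction.selfEquivSigmaOrbits ((G ⧸ frattini G) →* ℂˣ) (Cfsg.IrrCharacter G)).symm f,
    Fintype.sum_sigma]
  refine Finset.dvd_sum fun ω _ => ?_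
  rw [Finset.sum_congr rfl (g := fun _ => f ω.out) (fun y _ => ?_)]
  · rw [Finset.sum_const, Finset.card_univ, nsmul_eq_mul, ← Nat.card_eq_fintype_card]
    exact horb ω.out
  · obtain ⟨l, hl⟩ := y.2
    show f (y : Cfsg.IrrCharacter G) = f ω.out
    rw [← hl]; exact hinv l ω.out

end Cfsg.Agent.S4058
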