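import Cfsg.Statements.S4065
import Cfsg.Agent.Lib.Two.PSL

set_option autoImplicit false
open Cfsg

namespace Cfsg.Agent.S4065

open Matrix

variable {F : Type*} [Field F]

theorem center_eq_bot [CharP F 2] : Subgroup.center (SpecialLinearGroup (Fin 2) F) = ⊥ := by
  rw [eq_bot_iff]
  intro A hA
  obtain ⟨r, hr, h⟩ := Matrix.SpecialLinearGroup.mem_center_iff.1 hA
  rw [Fintype.card_fin] at hr
  have hsq : (r - 1) ^ 2 = 0 := by rw [CharTwo.sub_eq_add, CharTwo.add_sq, hr, one_pow, CharTwo.add_self_eq_zero]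
  have hr1 : r = 1 := sub_eq_zero.1 (pow_eq_zero_iff two_ne_zero |>.1 hsq)
  rw [Subgroup.mem_bot]
  ext i j
  rw [← h, hr1]
  show Matrix.scalar (Fin 2) (1 : F) i j = (1 : Matrix (Fin 2) (Fin 2) F) i j
  rw [map_one]

theorem entries {A B : SpecialLinearGroup (Fin 2) F} (h : A * B = B * A) :
    A 0 1 * B 1 0 = B 0 1 * A 1 0 ∧ A 0 1 * (B 0 0 - B 1 1) = B 0 1 * (A 0 0 - A 1 1) ∧
      A 1 0 * (B 0 0 - B 1 1) = B 1 0 * (A 0 0 - A 1 1) := by
  have eM : (A : Matrix (Fin 2) (Fin 2) F) * (B : Matrix (Fin 2) (Fin 2) F) =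
      (B : Matrix (Fin 2) (Fin 2) F) * (A : Matrix (Fin 2) (Fin 2) F) := congrArg Subtype.val h
  have e00 := congrFun (congrFun eM 0) 0
  have e01 := congrFun (congrFun eM 0) 1
  have e10 := congrFun (congrFun eM 1) 0
  simp only [Matrix.mul_apply, Fin.sum_univ_two] at e00 e01 e10
  refine ⟨?_, ?_, ?_⟩
  · linear_combination e00
  · linear_combination -e01
  · linear_combination e10

theorem commute_of_centralizes {A B C : SpecialLinearGroup (Fin 2) F} (hA : A ∉ Subgroup.center _)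
    (hB : A * B = B * A) (hC : A * C = C * A) : B * C = C * B := by
  obtain ⟨b1, b2, b3⟩ := entries hB
  obtain ⟨c1, c2, c3⟩ := entries hC
  have key : A 0 1 ≠ 0 ∨ A 1 0 ≠ 0 ∨ A 0 0 - A 1 1 ≠ 0 := by
    by_contra hcon
    push Not at hcon
    apply hA
    rw [Matrix.SpecialLinearGroup.mem_center_iff]
    refine ⟨A 0 0, ?_, ?_⟩
    · have := A.2
      rw [Matrix.det_fin_two, hcon.1, sub_eq_zero.1 hcon.2.2] at this
      rw [Fintype.card_fin, sub_eq_zero.1 hcon.2.2]
      linear_combination this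
    · ext i j
      fin_cases i <;> fin_cases j <;> simp [hcon.1, hcon.2.1, sub_eq_zero.1 hcon.2.2]
  have g1 : B 0 1 * C 1 0 - C 0 1 * B 1 0 = 0 ∧ B 0 1 * (C 0 0 - C 1 1) - C 0 1 * (B 0 0 - B 1 1) = 0 ∧
      B 1 0 * (C 0 0 - C 1 1) - C 1 0 * (B 0 0 - B 1 1) = 0 := by
    rcases key with k | k | k
    · have h1 : B 0 1 * C 1 0 - C 0 1 * B 1 0 = 0 :=
        mul_left_cancel₀ k (by linear_combination B 0 1 * c1 - C 0 1 * b1)
      exact ⟨h1, mul_left_cancel₀ k (by linear_combination B 0 1 * c2 - C 0 1 * b2),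
        mul_left_cancel₀ k (by linear_combination B 1 0 * c2 - C 1 0 * b2 - (A 0 0 - A 1 1) * h1)⟩
    · have h1 : B 0 1 * C 1 0 - C 0 1 * B 1 0 = 0 :=
        mul_left_cancel₀ k (by linear_combination B 1 0 * c1 - C 1 0 * b1)
      exact ⟨h1, mul_left_cancel₀ k (by linear_combination B 0 1 * c3 - C 0 1 * b3 + (A 0 0 - A 1 1) * h1),
        mul_left_cancel₀ k (by linear_combination B 1 0 * c3 - C 1 0 * b3)⟩
    · have h3 : B 1 0 * (C 0 0 - C 1 1) - C 1 0 * (B 0 0 - B 1 1) = 0 :=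
        mul_left_cancel₀ k (by linear_combination (B 0 0 - B 1 1) * c3 - (C 0 0 - C 1 1) * b3)
      exact ⟨mul_left_cancel₀ k (by linear_combination B 1 0 * c2 - C 1 0 * b2 - A 0 1 * h3),
        mul_left_cancel₀ k (by linear_combination (B 0 0 - B 1 1) * c2 - (C 0 0 - C 1 1) * b2), h3⟩
  obtain ⟨g1, g2, g3⟩ := g1
  apply Subtype.ext
  show (B : Matrix (Fin 2) (Fin 2) F) * (C : Matrix (Fin 2) (Fin 2) F) = (C : Matrix (Fin 2) (Fin 2) F) * (B : Matrix (Fin 2) (Fin 2) F)
  ext i j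
  fin_cases i <;> fin_cases j <;>
    simp only [ Matrix.mul_apply, Fin.sum_univ_two, Fin.zero_eta, Fin.mk_one]
  · linear_combination g1
  · linear_combination -g2
  · linear_combination g3
  · linear_combination -g1


/-- Let F be a finite field with 2ⁿ elements, n ≥ 2. In PSL₂(F) the centralizer of every element meets each of its conjugates by elements outside its normalizer trivially. -/
theorem result (n : ℕ) (hn : 2 ≤ n)
    (x : Matrix.ProjectiveSpecialLinearGroup (Fin 2) (GaloisField 2 n)) :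
    Cfsg.IsTISubset (Subgroup.centralizer ({x} : Set (Matrix.ProjectiveSpecialLinearGroup (Fin 2) (GaloisField 2 n))) :
      Set (Matrix.ProjectiveSpecialLinearGroup (Fin 2) (GaloisField 2 n))) := by
  intro g hg y hy hgy
  by_contra hy1
  obtain ⟨A, rfl⟩ := QuotientGroup.mk'_surjective _ y
  obtain ⟨X, rfl⟩ := QuotientGroup.mk'_surjective _ x
  have : CharP (GaloisField 2 n) 2 := inferInstance
  have hinj : Function.Injective (QuotientGroup.mk' (Subgroup.center (Matrix.SpecialLinearGroup (Fin 2) (GaloisField 2 n)))) := by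
    rw [← MonoidHom.ker_eq_bot_iff, QuotientGroup.ker_mk', center_eq_bot]
  -- centralizers of non-identity elements are commutative
  have hCA : ∀ a b c : Matrix.ProjectiveSpecialLinearGroup (Fin 2) (GaloisField 2 n), a ≠ 1 → a * b = b * a → a * c = c * a → b * c = c * b := by
    intro a b c ha hb hc
    obtain ⟨a', rfl⟩ := QuotientGroup.mk'_surjective _ a
    obtain ⟨b', rfl⟩ := QuotientGroup.mk'_surjective _ b
    obtain ⟨c', rfl⟩ := QuotientGroup.mk'_surjective _ c
    rw [← map_mul, ← map_mul] at hb hc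
    have := commute_of_centralizes (A := a') (B := b') (C := c') (fun h => ha (by rw [center_eq_bot, Subgroup.mem_bot] at h; rw [h, map_one])) (hinj hb) (hinj hc)
    rw [← map_mul, ← map_mul, this]
  generalize QuotientGroup.mk' (Subgroup.center (Matrix.SpecialLinearGroup (Fin 2) (GaloisField 2 n))) A = a at *
  generalize QuotientGroup.mk' (Subgroup.center (Matrix.SpecialLinearGroup (Fin 2) (GaloisField 2 n))) X = x at *
  rw [SetLike.mem_coe, Subgroup.mem_centralizer_singleton_iff] at hy hgy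
  by_cases hx1 : x = 1
  · apply hg
    rw [hx1, Subgroup.mem_normalizer_iff]
    simp [Subgroup.mem_centralizer_singleton_iff]
  apply hg
  have hxg : g * a * g⁻¹ * (g * x * g⁻¹) = g * x * g⁻¹ * (g * a * g⁻¹) := by
    calc g * a * g⁻¹ * (g * x * g⁻¹) = g * (a * x) * g⁻¹ := by group
      _ = g * (x * a) * g⁻¹ := by rw [hy]
      _ = _ := by group
  have hga1 : g * a * g⁻¹ ≠ 1 := fun h => hy1 (conj_eq_one_iff.1 h)
  have hcx : x * (g * x * g⁻¹) = g * x * g⁻¹ * x := hCA _ _ _ hga1 hgy hxg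
  rw [Subgroup.mem_normalizer_iff]
  intro z
  simp only [SetLike.mem_coe, Subgroup.mem_centralizer_singleton_iff]
  constructor
  · intro hz
    have h1 : g * x * g⁻¹ * (g * z * g⁻¹) = g * z * g⁻¹ * (g * x * g⁻¹) := by
      calc g * x * g⁻¹ * (g * z * g⁻¹) = g * (x * z) * g⁻¹ := by group
        _ = g * (z * x) * g⁻¹ := by rw [hz]
        _ = _ := by group
    exact hCA _ _ _ (fun h => hx1 (conj_eq_one_iff.1 h)) h1 hcx.symm
  · intro hz
    have h1 : g * x * g⁻¹ * (g * z * g⁻¹) = g * z * g⁻¹ * (g * x * g⁻¹) := hCA x _ _ hx1 hcx hz.symm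
    have h2 : g * (x * z) * g⁻¹ = g * (z * x) * g⁻¹ := by
      calc g * (x * z) * g⁻¹ = g * x * g⁻¹ * (g * z * g⁻¹) := by group
        _ = g * z * g⁻¹ * (g * x * g⁻¹) := h1
        _ = _ := by group
    exact (mul_left_cancel (mul_right_cancel h2)).symm

end Cfsg.Agent.S4065
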