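import Cfsg.Statements.S4067
-- import your own Cfsg.Agent.* helpers here

set_option autoImplicit false
open Cfsg

namespace Cfsg.Agent.S4067
open scoped commutatorElement


open Subgroup in
theorem mem_centralizer_single {G : Type*} [Group G] {x g : G} :
    g ∈ centralizer ({x} : Set G) ↔ g * x = x * g := by
  rw [mem_centralizer_iff]
  constructor
  · intro h; exact (h x rfl).symm
  · rintro h y rfl; exact h.symm

section
variable {G : Type*} [Group G]

/-- The orbit of the automorphism group. -/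
abbrev orb (x : G) : Set G := MulAction.orbit (MulAut G) x

theorem conj_mem_orb {x t : G} (h : t ∈ orb x) (g : G) : g * t * g⁻¹ ∈ orb x := by
  obtain ⟨f, rfl⟩ := h
  refine ⟨MulAut.conj g * f, ?_⟩
  show (MulAut.conj g * f) • x = g * f • x * g⁻¹
  rw [mul_smul]
  rfl

theorem index_center_le [Finite G] (x : G) (S : Set G) (hS : ∀ t ∈ S, t ∈ Subgroup.center G)
    (hSo : ∀ t ∈ S, x * t ∈ orb x)
    (hinj : ∀ t ∈ S, ∀ t' ∈ S, ∀ g : G, g * x * g⁻¹ * x⁻¹ = t' * t⁻¹ → t = t') :
    (Subgroup.centralizer ({x} : Set G)).index * Nat.card S ≤ Nat.card (orb x) := by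
  rw [Subgroup.index, ← Nat.card_prod]
  refine Nat.card_le_card_of_injective
    (fun q => ⟨q.1.out * (x * q.2.1) * q.1.out⁻¹, conj_mem_orb (hSo _ q.2.2) _⟩) ?_
  rintro ⟨q, t, ht⟩ ⟨q', t', ht'⟩ h
  simp only [Subtype.mk.injEq] at h
  have hc : ∀ t ∈ S, ∀ g : G, g * (x * t) * g⁻¹ = g * x * g⁻¹ * t := fun t ht g => by
    calc g * (x * t) * g⁻¹ = g * x * (t * g⁻¹) := by group
      _ = g * x * (g⁻¹ * t) := by rw [Subgroup.mem_center_iff.mp (hS t ht) g⁻¹]
      _ = g * x * g⁻¹ * t := by group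
  rw [hc t ht, hc t' ht'] at h
  have h2 : (q'.out⁻¹ * q.out) * x * (q'.out⁻¹ * q.out)⁻¹ * x⁻¹ = t' * t⁻¹ := by
    have hq : q.out * x * q.out⁻¹ = q'.out * x * q'.out⁻¹ * (t' * t⁻¹) := by
      rw [← mul_assoc, ← h]; group
    have hcc : t' * t⁻¹ ∈ Subgroup.center G :=
      mul_mem (hS t' ht') (inv_mem (hS t ht))
    calc (q'.out⁻¹ * q.out) * x * (q'.out⁻¹ * q.out)⁻¹ * x⁻¹
        = q'.out⁻¹ * (q.out * x * q.out⁻¹) * q'.out * x⁻¹ := by group
      _ = x * (q'.out⁻¹ * ((t' * t⁻¹) * q'.out)) * x⁻¹ := by rw [hq]; group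
      _ = x * (q'.out⁻¹ * (q'.out * (t' * t⁻¹))) * x⁻¹ := by
          rw [Subgroup.mem_center_iff.mp hcc q'.out]
      _ = x * (t' * t⁻¹) * x⁻¹ := by group
      _ = (t' * t⁻¹) * x * x⁻¹ := by rw [Subgroup.mem_center_iff.mp hcc x]
      _ = t' * t⁻¹ := by group
  have htt : t = t' := hinj t ht t' ht' _ h2
  subst htt
  have h3 := mul_right_cancel h
  have hq : q = q' := by
    rw [← QuotientGroup.out_eq' q, ← QuotientGroup.out_eq' q', QuotientGroup.eq,
      mem_centralizer_single]
    calc q.out⁻¹ * q'.out * x = q.out⁻¹ * (q'.out * x * q'.out⁻¹) * q'.out := by group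
      _ = x * (q.out⁻¹ * q'.out) := by rw [← h3]; group
  subst hq
  rfl

/-- Class size at most orbit size. -/
theorem index_le_orb [Finite G] (x : G) :
    (Subgroup.centralizer ({x} : Set G)).index ≤ Nat.card (orb x) := by
  have h := index_center_le x ({1} : Set G) (fun t ht => ht ▸ one_mem _)
    (fun t ht => by rw [Set.mem_singleton_iff.mp ht, mul_one]; exact MulAction.mem_orbit_self x)
    (fun t ht t' ht' g _ => by rw [Set.mem_singleton_iff.mp ht, Set.mem_singleton_iff.mp ht'])
  simpa using h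

/-- The counting argument. -/
theorem count [Finite G] (p s : ℕ) (hp : 0 < p) (hps : p ≤ s) (hpd : p ∣ Nat.card G) (T : Set G)
    (hpo : ∀ x : G, x ∉ Subgroup.center G → p ≤ Nat.card (orb x))
    (hT : ∀ x ∈ T, x ∉ Subgroup.center G ∧ s ≤ Nat.card (orb x))
    (hineq : s * (p - 1) * Nat.card (Subgroup.center G) ≤ (s - p) * Nat.card T) :
    Nat.card (MulAction.orbitRel.Quotient (MulAut G) G) ≤ Nat.card G / p := by
  classical
  haveI := Fintype.ofFinite G
  haveI := Fintype.ofFinite (MulAction.orbitRel.Quotient (MulAut G) G)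
  have hpos : ∀ x : G, 0 < Nat.card (orb x) := fun x => by
    haveI : Nonempty (orb x) := ⟨⟨x, MulAction.mem_orbit_self x⟩⟩
    exact Nat.card_pos
  -- the number of orbits as a sum over the group
  have hQ : (Nat.card (MulAction.orbitRel.Quotient (MulAut G) G) : ℚ) =
      ∑ x : G, (1 : ℚ) / (Nat.card (orb x) : ℚ) := by
    rw [← Finset.sum_fiberwise Finset.univ
      (fun x : G => (Quotient.mk'' x : MulAction.orbitRel.Quotient (MulAut G) G))]
    rw [Nat.card_eq_fintype_card, ← Finset.card_univ, Finset.cast_card]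
    refine Finset.sum_congr rfl fun q _ => ?_
    induction q using Quotient.inductionOn' with
    | _ a =>
      have h1 : ∀ x ∈ Finset.univ.filter (fun x : G => (Quotient.mk'' x :
          MulAction.orbitRel.Quotient (MulAut G) G) = Quotient.mk'' a),
          (1 : ℚ) / (Nat.card (orb x) : ℚ) = 1 / (Nat.card (orb a) : ℚ) := by
        intro x hx
        have hx' : x ∈ orb a := Quotient.eq''.mp (Finset.mem_filter.mp hx).2
        unfold orb
        rw [MulAction.orbit_eq_iff.mpr hx']
      rw [Finset.sum_congr rfl h1, Finset.sum_const, nsmul_eq_mul]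
      have h2 : (Finset.univ.filter (fun x : G => (Quotient.mk'' x :
          MulAction.orbitRel.Quotient (MulAut G) G) = Quotient.mk'' a)).card =
          Nat.card (orb a) := by
        rw [Nat.card_coe_set_eq, Set.ncard_eq_toFinset_card']
        congr 1
        ext x
        rw [Finset.mem_filter, Set.mem_toFinset, Quotient.eq'']
        exact ⟨fun h => h.2, fun h => ⟨Finset.mem_univ _, h⟩⟩
      rw [h2, mul_one_div, div_self]
      exact_mod_cast (hpos a).ne'
  obtain ⟨f, hf⟩ : ∃ f : G → ℚ, ∀ x, f x = (1 : ℚ) / p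
      + (if x ∈ Subgroup.center G then 1 - (1 : ℚ) / p else 0)
      + (if x ∈ T then (1 : ℚ) / s - 1 / p else 0) := ⟨_, fun _ => rfl⟩
  have hle : ∀ x : G, (1 : ℚ) / (Nat.card (orb x) : ℚ) ≤ f x := by
    intro x
    rw [hf]
    by_cases hx : x ∈ Subgroup.center G
    · rw [if_pos hx, if_neg (fun h => (hT x h).1 hx)]
      have : (1 : ℚ) ≤ Nat.card (orb x) := by exact_mod_cast hpos x
      rw [div_le_iff₀ (by linarith)]
      linarith
    · rw [if_neg hx]
      by_cases hxT : x ∈ T
      · rw [if_pos hxT]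
        have h1 : (s : ℚ) ≤ Nat.card (orb x) := by exact_mod_cast (hT x hxT).2
        have h0 : (0 : ℚ) < s := by exact_mod_cast lt_of_lt_of_le hp hps
        have := one_div_le_one_div_of_le h0 h1
        linarith
      · rw [if_neg hxT]
        have h1 : (p : ℚ) ≤ Nat.card (orb x) := by exact_mod_cast hpo x hx
        have := one_div_le_one_div_of_le (by exact_mod_cast hp) h1
        linarith
  have hsum : ∑ x : G, f x = (Nat.card G : ℚ) / p + (Nat.card (Subgroup.center G) : ℚ) *
      (1 - 1 / p) + (Nat.card T : ℚ) * (1 / s - 1 / p) := by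
    simp only [hf]
    rw [Finset.sum_add_distrib, Finset.sum_add_distrib, Finset.sum_const, Finset.sum_ite,
      Finset.sum_ite, Finset.sum_const_zero, Finset.sum_const_zero, add_zero, add_zero,
      Finset.sum_const, Finset.sum_const]
    simp only [nsmul_eq_mul]
    congr 2
    · rw [Finset.card_univ, Nat.card_eq_fintype_card, mul_one_div]
    · rw [Nat.card_eq_fintype_card, Fintype.card_subtype]
    · rw [Nat.card_eq_fintype_card, Fintype.card_subtype]
  rw [Nat.le_div_iff_mul_le hp]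
  have hps' : ((s - p : ℕ) : ℚ) = (s : ℚ) - p := Nat.cast_sub hps
  have hp1 : ((p - 1 : ℕ) : ℚ) = (p : ℚ) - 1 := by rw [Nat.cast_sub hp]; simp
  have hi : ((s : ℚ) * ((p : ℚ) - 1)) * Nat.card (Subgroup.center G) ≤
      ((s : ℚ) - p) * Nat.card T := by
    rw [← hps', ← hp1]
    exact_mod_cast hineq
  have key : (Nat.card (MulAction.orbitRel.Quotient (MulAut G) G) : ℚ) * p ≤ Nat.card G := by
    rw [hQ]
    have h1 := Finset.sum_le_sum (fun x (_ : x ∈ (Finset.univ : Finset G)) => hle x)
    rw [hsum] at h1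
    have hp' : (0 : ℚ) < p := by exact_mod_cast hp
    have hs' : (0 : ℚ) < s := by exact_mod_cast lt_of_lt_of_le hp hps
    refine (mul_le_mul_of_nonneg_right h1 hp'.le).trans ?_
    rw [add_mul, add_mul, div_mul_cancel₀ _ hp'.ne']
    have e1 : (Nat.card (Subgroup.center G) : ℚ) * (1 - 1 / p) * p
        = ((s : ℚ) * ((p : ℚ) - 1)) * Nat.card (Subgroup.center G) / s := by
      field_simp
    have e2 : (Nat.card T : ℚ) * (1 / s - 1 / p) * p
        = -(((s : ℚ) - p) * Nat.card T / s) := by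
      field_simp
      ring
    rw [e1, e2]
    have h2 : ((s : ℚ) * ((p : ℚ) - 1)) * Nat.card (Subgroup.center G) / s
        ≤ ((s : ℚ) - p) * Nat.card T / s := by gcongr
    linarith
  exact_mod_cast key

theorem card_compl [Finite G] (H : Subgroup G) (p : ℕ) (h : p ≤ H.index) :
    (p - 1) * Nat.card G ≤ p * Nat.card {x : G | x ∉ H} := by
  have h1 : Nat.card {x : G | x ∉ H} = Nat.card G - Nat.card H := by
    rw [Nat.card_coe_set_eq]
    exact Set.ncard_compl (H : Set G)
  have h2 := H.index_mul_card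
  have h3 : p * Nat.card H ≤ Nat.card G := h2 ▸ Nat.mul_le_mul_right _ h
  rw [h1, Nat.mul_sub, Nat.sub_mul, one_mul]
  omega

theorem eq_of_prime_card [Finite G] {H K : Subgroup G} {p : ℕ} (hp : p.Prime)
    (hH : Nat.card H = p) (hK : Nat.card K = p) {x : G} (hxH : x ∈ H) (hxK : x ∈ K) (hx : x ≠ 1) :
    H = K := by
  have key : ∀ L : Subgroup G, Nat.card L = p → x ∈ L → Subgroup.zpowers x = L := fun L hL hxL => by
    refine Subgroup.eq_of_le_of_card_ge (Subgroup.zpowers_le.mpr hxL) ?_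
    have h := Subgroup.card_dvd_of_le (Subgroup.zpowers_le.mpr hxL)
    rw [hL, Nat.dvd_prime hp] at h
    rcases h with h | h
    · exfalso
      rw [Nat.card_zpowers, orderOf_eq_one_iff] at h
      exact hx h
    · rw [hL, h]
  rw [← key H hH hxH, ← key K hK hxK]

/-- In a class two group, the powers of products. -/
theorem mul_pow_class_two (hc : ∀ g h : G, ⁅g, h⁆ ∈ Subgroup.center G) (x y : G) (n : ℕ) :
    (x * y) ^ n = x ^ n * y ^ n * ⁅y, x⁆ ^ (n.choose 2) := by
  have hyx : ∀ k : ℕ, y ^ k * x = x * y ^ k * ⁅y, x⁆ ^ k := by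
    intro k
    induction k with
    | zero => simp
    | succ k ih =>
      have e : y * x = x * y * ⁅y, x⁆ := by
        rw [Subgroup.mem_center_iff.mp (hc y x) (x * y)]
        rw [commutatorElement_def]; group
      calc y ^ (k + 1) * x = y ^ k * (y * x) := by rw [pow_succ, mul_assoc]
        _ = (y ^ k * x) * (y * ⁅y, x⁆) := by rw [e]; simp only [mul_assoc]
        _ = x * y ^ k * (⁅y, x⁆ ^ k * y) * ⁅y, x⁆ := by rw [ih]; simp only [mul_assoc]
        _ = x * y ^ k * (y * ⁅y, x⁆ ^ k) * ⁅y, x⁆ := by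
            rw [Subgroup.mem_center_iff.mp (pow_mem (hc y x) k) y]
        _ = x * y ^ (k + 1) * ⁅y, x⁆ ^ (k + 1) := by
            rw [pow_succ y k, pow_succ ⁅y, x⁆ k]; simp only [mul_assoc]
  induction n with
  | zero => simp
  | succ n ih =>
    rw [show (n + 1).choose 2 = n + n.choose 2 by rw [Nat.choose_succ_succ', Nat.choose_one_right],
      pow_add ⁅y, x⁆]
    calc (x * y) ^ (n + 1) = x ^ n * y ^ n * (⁅y, x⁆ ^ n.choose 2 * (x * y)) := by
          rw [pow_succ, ih]; simp only [mul_assoc]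
      _ = x ^ n * y ^ n * ((x * y) * ⁅y, x⁆ ^ n.choose 2) := by
          rw [Subgroup.mem_center_iff.mp (pow_mem (hc y x) _) (x * y)]
      _ = x ^ n * (y ^ n * x) * y * ⁅y, x⁆ ^ n.choose 2 := by simp only [mul_assoc]
      _ = x ^ n * x * y ^ n * (⁅y, x⁆ ^ n * y) * ⁅y, x⁆ ^ n.choose 2 := by
          rw [hyx n]; simp only [mul_assoc]
      _ = x ^ n * x * y ^ n * (y * ⁅y, x⁆ ^ n) * ⁅y, x⁆ ^ n.choose 2 := by
          rw [Subgroup.mem_center_iff.mp (pow_mem (hc y x) n) y]
      _ = _ := by rw [pow_succ, pow_succ]; simp only [mul_assoc]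

end

/-- Let G be a finite non-abelian group and p the least prime dividing its order. Then the automorphism group of G has at most #G/p orbits on G. -/
theorem result {G : Type*} [Group G] [Finite G] (hna : ¬ IsMulCommutative G) :
    Nat.card (MulAction.orbitRel.Quotient (MulAut G) G) ≤ Nat.card G / (Nat.card G).minFac := by
  classical
  obtain ⟨p, hp_def⟩ : ∃ p, p = (Nat.card G).minFac := ⟨_, rfl⟩
  rw [← hp_def]
  obtain ⟨Z, hZ⟩ : ∃ Z, Z = Subgroup.center G := ⟨_, rfl⟩
  obtain ⟨j, hj⟩ : ∃ j, j = (Subgroup.center G).index := ⟨_, rfl⟩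
  have hnot : ¬ (∀ a b : G, a * b = b * a) := fun h => hna ⟨⟨h⟩⟩
  have hG1 : Nat.card G ≠ 1 := by
    intro h
    haveI := (Nat.card_eq_one_iff_unique.mp h).1
    exact hnot fun a b => Subsingleton.elim _ _
  have hp : p.Prime := hp_def ▸ Nat.minFac_prime hG1
  haveI := Fact.mk hp
  have hp2 := hp.two_le
  have hpd : p ∣ Nat.card G := hp_def ▸ Nat.minFac_dvd _
  have hle : ∀ d : ℕ, d ∣ Nat.card G → d ≠ 1 → p ≤ d := fun d hd hd1 => by
    have h2 : 2 ≤ d := by
      have := Nat.pos_of_dvd_of_pos hd Nat.card_pos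
      omega
    exact hp_def ▸ Nat.minFac_le_of_dvd h2 hd
  -- class sizes
  obtain ⟨C, hC⟩ : ∃ C : G → Subgroup G, ∀ x, C x = Subgroup.centralizer ({x} : Set G) :=
    ⟨_, fun _ => rfl⟩
  have hmemC : ∀ g x, g ∈ C x ↔ g * x = x * g := fun g x => by rw [hC]; exact mem_centralizer_single
  have hZC : ∀ x, Subgroup.center G ≤ C x := fun x g hg => by
    rw [hmemC]; exact (Subgroup.mem_center_iff.mp hg x).symm
  have hC1 : ∀ x, (C x).index = 1 ↔ x ∈ Subgroup.center G := fun x => by
    rw [Subgroup.index_eq_one, Subgroup.mem_center_iff]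
    constructor
    · intro h g; exact (hmemC g x).mp (h ▸ Subgroup.mem_top g)
    · intro h; rw [eq_top_iff]; intro g _; exact (hmemC g x).mpr (h g)
  have hCp : ∀ x, x ∉ Subgroup.center G → p ≤ (C x).index := fun x hx =>
    hle _ (C x).index_dvd_card (fun h => hx ((hC1 x).mp h))
  have hporb : ∀ x, x ∉ Subgroup.center G → p ≤ Nat.card (orb x) := fun x hx =>
    (hCp x hx).trans (hC x ▸ index_le_orb x)
  -- the index of the centre
  have hjZ : j * Nat.card (Subgroup.center G) = Nat.card G := by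
    rw [hj]; exact Subgroup.index_mul_card _
  have hj_facts : p * p ≤ j ∧ (j ≠ p * p → p * (p + 1) ≤ j) := by
    have hjd : j ∣ Nat.card G := ⟨_, hjZ.symm⟩
    have hj1 : j ≠ 1 := by
      intro h
      rw [hj, Subgroup.index_eq_one] at h
      exact hnot fun a b => (Subgroup.mem_center_iff.mp (h ▸ Subgroup.mem_top a) b).symm
    have hjp : ¬ j.Prime := by
      intro h
      apply hnot
      haveI : Fact j.Prime := ⟨h⟩
      haveI : IsCyclic (G ⧸ Subgroup.center G) := isCyclic_of_prime_card (p := j) (by rw [hj]; rfl)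
      exact commutative_of_cyclic_center_quotient (QuotientGroup.mk' (Subgroup.center G))
        (by rw [QuotientGroup.ker_mk'])
    have ha := Nat.minFac_prime hj1
    obtain ⟨b, hb⟩ := Nat.minFac_dvd j
    have hap : p ≤ j.minFac := hle _ ((Nat.minFac_dvd j).trans hjd) ha.one_lt.ne'
    have hb1 : b ≠ 1 := by
      rintro rfl
      rw [mul_one] at hb
      exact hjp (hb ▸ ha)
    have hbp : p ≤ b := hle _ ((Dvd.intro_left _ hb.symm).trans hjd) hb1
    refine ⟨hb ▸ Nat.mul_le_mul hap hbp, fun hne => ?_⟩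
    rcases Nat.lt_or_ge p b with h | h
    · exact hb ▸ Nat.mul_le_mul hap h
    · have hbeq : b = p := le_antisymm h hbp
      rcases Nat.lt_or_ge p j.minFac with h' | h'
      · rw [hb, hbeq, mul_comm p (p + 1)]
        exact Nat.mul_le_mul_right _ h'
      · exact absurd (by rw [hb, hbeq, le_antisymm h' hap]) hne
  obtain ⟨z, hz⟩ : ∃ z, z = Nat.card (Subgroup.center G) := ⟨_, rfl⟩
  obtain ⟨L, hL⟩ : ∃ L, L = Subgroup.closure
      ({x : G | (C x).index = p} ∪ (Subgroup.center G : Set G)) := ⟨_, rfl⟩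
  by_cases hLtop : L = ⊤
  swap
  · -- the classes outside `L` have size above `p`
    have hjne : j ≠ p * p := by
      intro h
      apply hLtop
      rw [eq_top_iff]
      intro x _
      rw [hL]
      apply Subgroup.subset_closure
      by_cases hx : x ∈ Subgroup.center G
      · exact Or.inr hx
      · left
        have h1 := Subgroup.relIndex_mul_index (hZC x)
        rw [← hj, h, ← pow_two] at h1
        have hr : (Subgroup.center G).relIndex (C x) ≠ 1 := by
          rw [Ne, Subgroup.relIndex_eq_one]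
          intro hle'
          exact hx (hle' ((hmemC x x).mpr rfl))
        exact ((Nat.Prime.mul_eq_prime_sq_iff hp hr (fun e => hx ((hC1 x).mp e))).mp h1).2
    refine count p (p + 1) hp.pos (Nat.le_succ p) hpd {x | x ∉ L} hporb (fun x hx => ?_) ?_
    · have hx1 : x ∉ Subgroup.center G := fun h => hx (by
        rw [hL]; exact Subgroup.subset_closure (Or.inr h))
      refine ⟨hx1, ?_⟩
      have h1 := hCp x hx1
      have h2 : (C x).index ≠ p := fun h => hx (by
        rw [hL]; exact Subgroup.subset_closure (Or.inl h))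
      have h3 : (C x).index ≤ Nat.card (orb x) := hC x ▸ index_le_orb x
      omega
    · have hLi : p ≤ L.index := hle _ L.index_dvd_card
        (fun h => hLtop (Subgroup.index_eq_one.mp h))
      have h1 := card_compl L p hLi
      have h2 : p * (p + 1) * z ≤ Nat.card G := by
        rw [← hjZ, ← hz]; exact Nat.mul_le_mul_right _ (hj_facts.2 hjne)
      rw [← hz, Nat.add_sub_cancel_left, one_mul]
      refine Nat.le_of_mul_le_mul_left ?_ hp.pos
      calc p * ((p + 1) * (p - 1) * z) = (p - 1) * (p * (p + 1) * z) := by ring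
        _ ≤ (p - 1) * Nat.card G := Nat.mul_le_mul_left _ h2
        _ ≤ _ := h1
  -- `G` is generated by the elements with classes of size `p`
  have hgen : ∀ K : Subgroup G, (∀ x, (C x).index = p → x ∈ K) →
      Subgroup.center G ≤ K → ∀ x, x ∈ K := by
    intro K h1 h2 x
    have : L ≤ K := by
      rw [hL, Subgroup.closure_le]
      rintro y (hy | hy)
      · exact h1 y hy
      · exact h2 hy
    exact this (hLtop ▸ Subgroup.mem_top x)
  have hWn : ∀ w, (C w).index = p → (C w).Normal := fun w hw =>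
    Subgroup.normal_of_index_eq_minFac_card (hw.trans hp_def)
  have hcom : ∀ g h : G, ⁅g, h⁆ ∈ Subgroup.center G := by
    intro g h
    rw [Subgroup.mem_center_iff]
    intro x
    refine ((hmemC x ⁅g, h⁆).mp (hgen (C ⁅g, h⁆) (fun w hw => ?_) (hZC _) x))
    haveI := hWn w hw
    haveI : IsCyclic (G ⧸ C w) := isCyclic_of_prime_card (p := p) (by rw [← hw]; rfl)
    letI := IsCyclic.commGroup (α := G ⧸ C w)
    have hm : ⁅g, h⁆ ∈ C w := by
      rw [← QuotientGroup.eq_one_iff, ← QuotientGroup.mk'_apply (C w), map_commutatorElement,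
        commutatorElement_eq_one_iff_mul_comm]
      exact mul_comm _ _
    rw [hmemC] at hm ⊢
    exact hm.symm
  obtain ⟨φ, hφ⟩ : ∃ φ : G → G →* G, ∀ x g, φ x g = ⁅g, x⁆ := by
    refine ⟨fun x => MonoidHom.mk' (fun g => ⁅g, x⁆) (fun g h => ?_), fun x g => rfl⟩
    show ⁅g * h, x⁆ = ⁅g, x⁆ * ⁅h, x⁆
    calc ⁅g * h, x⁆ = g * ⁅h, x⁆ * g⁻¹ * ⁅g, x⁆ := by simp only [commutatorElement_def]; group
      _ = ⁅h, x⁆ * g * g⁻¹ * ⁅g, x⁆ := by rw [Subgroup.mem_center_iff.mp (hcom h x) g]
      _ = ⁅h, x⁆ * ⁅g, x⁆ := by group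
      _ = _ := (Subgroup.mem_center_iff.mp (hcom h x) _).symm
  have hker : ∀ x, (φ x).ker = C x := fun x => by
    ext g
    rw [MonoidHom.mem_ker, hφ, hmemC, commutatorElement_eq_one_iff_mul_comm]
  have hrcard : ∀ x, Nat.card (φ x).range = (C x).index := fun x => by
    rw [← hker, Subgroup.index_ker]
  have hφmul : ∀ g x y : G, ⁅g, x * y⁆ = ⁅g, x⁆ * ⁅g, y⁆ := by
    intro g x y
    calc ⁅g, x * y⁆ = ⁅g, x⁆ * (x * ⁅g, y⁆ * x⁻¹) := by simp only [commutatorElement_def]; group
      _ = ⁅g, x⁆ * (⁅g, y⁆ * x * x⁻¹) := by rw [Subgroup.mem_center_iff.mp (hcom g y) x]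
      _ = _ := by group
  have hswap : ∀ g x : G, ⁅g, x⁆ = ⁅x, g⁆⁻¹ := fun g x => by
    simp only [commutatorElement_def]; group
  have hexp : ∀ x g : G, ⁅g, x⁆ ^ p = 1 := by
    let K : Subgroup G :=
      { carrier := {x | ∀ g : G, ⁅g, x⁆ ^ p = 1}
        one_mem' := fun g => by simp
        mul_mem' := fun {x y} hx hy g => by
          rw [hφmul, Commute.mul_pow (Subgroup.mem_center_iff.mp (hcom g y) _), hx g, hy g, one_mul]
        inv_mem' := fun {x} hx g => by
          have h := hφmul g x x⁻¹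
          rw [mul_inv_cancel, commutatorElement_one_right] at h
          rw [eq_comm, ← inv_eq_iff_mul_eq_one] at h
          rw [← h, inv_pow, hx g, inv_one] }
    intro x g
    refine hgen K (fun w hw h => ?_) (fun c hc h => ?_) x g
    · haveI := hWn w hw
      have h1 : h ^ p ∈ C w := by
        have := Subgroup.pow_index_mem (C w) h
        rwa [hw] at this
      rw [← hker, MonoidHom.mem_ker, map_pow, hφ] at h1
      exact h1
    · rw [commutatorElement_eq_one_iff_mul_comm.mpr (Subgroup.mem_center_iff.mp hc h), one_pow]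
  have hrZ : ∀ x t, t ∈ (φ x).range → t ∈ Subgroup.center G := by
    rintro x t ⟨g, rfl⟩; rw [hφ]; exact hcom g x
  have hbig : ∀ x, x ∉ Subgroup.center G → (C x).index ≠ p → p * p ≤ (C x).index := by
    intro x hx hne
    have hpg : IsPGroup p (φ x).range := fun t => ⟨1, Subtype.ext (by
      obtain ⟨g, hg⟩ := t.2
      rw [SubmonoidClass.coe_pow, pow_one, ← hg, hφ, hexp]
      rfl)⟩
    obtain ⟨n, hn⟩ := hpg.exists_card_eq
    rw [hrcard] at hn
    have h0 : (C x).index ≠ 1 := fun h => hx ((hC1 x).mp h)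
    match n, hn with
    | 0, hn => exact absurd (by simpa using hn) h0
    | 1, hn => exact absurd (by simpa using hn) hne
    | n + 2, hn =>
      rw [hn, pow_add, pow_two]
      exact Nat.le_mul_of_pos_left _ (pow_pos hp.pos n)
  have hzG : p * p * z ≤ Nat.card G := by
    rw [← hjZ, ← hz]; exact Nat.mul_le_mul_right _ hj_facts.1
  obtain ⟨w0, hw0⟩ : ∃ w, (C w).index = p := by
    by_contra hcon
    push Not at hcon
    exact hnot fun a b => (Subgroup.mem_center_iff.mp
      (hgen (Subgroup.center G) (fun x hx => absurd hx (hcon x)) le_rfl a) b).symm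
  by_cases hlines : ∃ w1, (C w1).index = p ∧ (φ w1).range ≠ (φ w0).range
  · -- two different lines
    obtain ⟨w1, hw1, hne⟩ := hlines
    obtain ⟨e⟩ : Nonempty ((φ w1).range ≃* (φ w0).range) :=
      ⟨mulEquivOfPrimeCardEq (p := p) (by rw [hrcard, hw1]) (by rw [hrcard, hw0])⟩
    obtain ⟨ψ, hψ⟩ : ∃ ψ : G →* G, ∀ g, ψ g = (e ((φ w1).rangeRestrict g) : G) :=
      ⟨((φ w0).range.subtype.comp e.toMonoidHom).comp (φ w1).rangeRestrict, fun g => rfl⟩
    have hψr : ∀ g, ψ g ∈ (φ w0).range := fun g => by rw [hψ]; exact SetLike.coe_mem _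
    have hψker : ∀ g, g ∈ C w1 → ψ g = 1 := fun g hg => by
      rw [← hker, MonoidHom.mem_ker] at hg
      have : (φ w1).rangeRestrict g = 1 := Subtype.ext hg
      rw [hψ, this, map_one]; rfl
    let α₀ : G →* G := MonoidHom.mk' (fun g => g * ψ g) (fun g h => by
      rw [map_mul]
      calc g * h * (ψ g * ψ h) = g * (h * ψ g) * ψ h := by group
        _ = g * (ψ g * h) * ψ h := by rw [Subgroup.mem_center_iff.mp (hrZ _ _ (hψr g)) h]
        _ = _ := by group)
    have hα₀ : Function.Injective α₀ := by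
      rw [injective_iff_map_eq_one]
      intro g hg
      have hg' : g * ψ g = 1 := hg
      have : ψ g = 1 := by
        rw [show g = (ψ g)⁻¹ from eq_inv_of_mul_eq_one_left hg', map_inv, hψker _
          (hZC _ (hrZ _ _ (hψr g))), inv_one]
      rwa [this, mul_one] at hg'
    let α : MulAut G := MulEquiv.ofBijective α₀ (Finite.injective_iff_bijective.mp hα₀)
    have hαi : ∀ (x : G) (i : ℕ), x * ψ x ^ i ∈ orb x := by
      intro x i
      induction i with
      | zero => simp
      | succ i ih =>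
        obtain ⟨f, hf⟩ := ih
        simp only at hf
        refine ⟨α * f, ?_⟩
        show (α * f) • x = _
        rw [mul_smul, hf]
        show x * ψ x ^ i * ψ (x * ψ x ^ i) = _
        rw [map_mul, map_pow, hψker _ (hZC _ (hrZ _ _ (hψr x))), one_pow, mul_one, pow_succ,
          mul_assoc]
    refine count p (p * p) hp.pos (Nat.le_mul_self p) hpd {x | x ∉ C w1} hporb (fun x hx => ?_) ?_
    · have hxc : x ∉ Subgroup.center G := fun h => hx (hZC _ h)
      refine ⟨hxc, ?_⟩
      by_cases hxi : (C x).index = p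
      swap
      · exact (hbig x hxc hxi).trans (hC x ▸ index_le_orb x)
      have hxr : (φ x).range ≠ (φ w0).range := by
        intro heq
        apply hne
        have h1 : ⁅x, w1⁆ ∈ (φ w1).range := ⟨x, hφ _ _⟩
        have h2 : ⁅x, w1⁆ ∈ (φ w0).range := by
          rw [← heq, hswap]; exact inv_mem ⟨w1, hφ _ _⟩
        refine eq_of_prime_card hp ((hrcard _).trans hw1) ((hrcard _).trans hw0) h1 h2 ?_
        intro h
        exact hx ((hmemC x w1).mpr (commutatorElement_eq_one_iff_mul_comm.mp h))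
      have hψx : ψ x ≠ 1 := by
        intro h
        rw [hψ] at h
        have h' : e ((φ w1).rangeRestrict x) = 1 := Subtype.ext h
        rw [EmbeddingLike.map_eq_one_iff] at h'
        apply hx
        rw [← hker, MonoidHom.mem_ker]
        exact congrArg Subtype.val h'
      have hcard0 : Nat.card (φ w0).range = p := (hrcard _).trans hw0
      have hzp : Subgroup.zpowers (ψ x) = (φ w0).range :=
        eq_of_prime_card hp (by
          rw [Nat.card_zpowers]
          refine orderOf_eq_prime ?_ hψx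
          obtain ⟨g, hg⟩ := hψr x
          rw [← hg, hφ, hexp]) hcard0 (Subgroup.mem_zpowers _) (hψr x) hψx
      have h := index_center_le x ((φ w0).range : Set G) (fun t ht => hrZ _ _ ht) ?_ ?_
      · rw [← hC, hxi] at h
        rw [show Nat.card ((φ w0).range : Set G) = p from hcard0] at h
        exact h
      · intro t ht
        rw [SetLike.mem_coe, ← hzp] at ht
        obtain ⟨i, rfl⟩ := mem_powers_iff_mem_zpowers.mpr ht
        exact hαi x i
      · intro t ht t' ht' g hg
        by_contra htt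
        apply hxr
        refine eq_of_prime_card hp ((hrcard _).trans hxi) hcard0 ⟨g, ?_⟩
          (mul_mem ht' (inv_mem ht)) ?_
        · rw [hφ, ← hg]; rfl
        · intro h1
          exact htt (mul_inv_eq_one.mp h1).symm
    · have h1 := card_compl (C w1) p hw1.ge
      rw [← hz]
      refine Nat.le_of_mul_le_mul_left ?_ hp.pos
      calc p * (p * p * (p - 1) * z) = (p * (p - 1)) * (p * p * z) / 1 := by rw [Nat.div_one]; ring
        _ ≤ (p * (p - 1)) * Nat.card G / 1 := by gcongr
        _ = p * ((p - 1) * Nat.card G) := by rw [Nat.div_one, mul_assoc]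
        _ ≤ p * (p * Nat.card {x : G | x ∉ C w1}) := Nat.mul_le_mul_left _ h1
        _ ≤ p * ((p * p - p) * Nat.card {x : G | x ∉ C w1}) := by
          refine Nat.mul_le_mul_left _ (Nat.mul_le_mul_right _ ?_)
          have : 2 * p ≤ p * p := Nat.mul_le_mul_right _ hp2
          omega
  -- a single line: the commutator subgroup has order `p`
  push Not at hlines
  obtain ⟨R, hR⟩ : ∃ R, R = (φ w0).range := ⟨_, rfl⟩
  have hRcard : Nat.card R = p := hR ▸ (hrcard _).trans hw0
  have hall : ∀ x g : G, ⁅g, x⁆ ∈ R := by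
    let K : Subgroup G :=
      { carrier := {x | ∀ g : G, ⁅g, x⁆ ∈ R}
        one_mem' := fun g => by rw [commutatorElement_one_right]; exact R.one_mem
        mul_mem' := fun {x y} hx hy g => by rw [hφmul]; exact R.mul_mem (hx g) (hy g)
        inv_mem' := fun {x} hx g => by
          have h := hφmul g x x⁻¹
          rw [mul_inv_cancel, commutatorElement_one_right] at h
          rw [eq_comm, ← inv_eq_iff_mul_eq_one] at h
          rw [← h]; exact R.inv_mem (hx g) }
    intro x g
    refine hgen K (fun w hw h => ?_) (fun c hc h => ?_) x g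
    · rw [hR, ← hlines w hw]; exact ⟨h, hφ _ _⟩
    · rw [commutatorElement_eq_one_iff_mul_comm.mpr (Subgroup.mem_center_iff.mp hc h)]
      exact R.one_mem
  have hRZ : ∀ t ∈ R, t ∈ Subgroup.center G := fun t ht => hrZ w0 t (hR ▸ ht)
  have hnc : ∀ x, x ∉ Subgroup.center G → (φ x).range = R := fun x hx =>
    Subgroup.eq_of_le_of_card_ge (by rintro t ⟨g, rfl⟩; rw [hφ]; exact hall x g)
      (by rw [hRcard, hrcard]; exact hCp x hx)
  have hnci : ∀ x, x ∉ Subgroup.center G → (C x).index = p := fun x hx => by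
    rw [← hrcard, hnc x hx, hRcard]
  have hR_pow : ∀ t ∈ R, t ^ p = 1 := by
    intro t ht
    rw [hR] at ht
    obtain ⟨g, rfl⟩ := ht
    rw [hφ, hexp]
  by_cases hother : ∃ t ∈ Subgroup.center G, t ^ p = 1 ∧ t ∉ R
  · -- a central transvection
    obtain ⟨t, htZ, htp, htR⟩ := hother
    have ht1 : t ≠ 1 := fun h => htR (h ▸ R.one_mem)
    obtain ⟨e⟩ : Nonempty ((φ w0).range ≃* Subgroup.zpowers t) :=
      ⟨mulEquivOfPrimeCardEq (p := p) (by rw [hrcard, hw0])
        (by rw [Nat.card_zpowers]; exact orderOf_eq_prime htp ht1)⟩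
    obtain ⟨ψ, hψ⟩ : ∃ ψ : G →* G, ∀ g, ψ g = (e ((φ w0).rangeRestrict g) : G) :=
      ⟨((Subgroup.zpowers t).subtype.comp e.toMonoidHom).comp (φ w0).rangeRestrict, fun g => rfl⟩
    have hψr : ∀ g, ψ g ∈ Subgroup.zpowers t := fun g => by rw [hψ]; exact SetLike.coe_mem _
    have hψZ : ∀ g, ψ g ∈ Subgroup.center G := fun g => Subgroup.zpowers_le.mpr htZ (hψr g)
    have hψker : ∀ g, g ∈ C w0 → ψ g = 1 := fun g hg => by
      rw [← hker, MonoidHom.mem_ker] at hg
      have : (φ w0).rangeRestrict g = 1 := Subtype.ext hg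
      rw [hψ, this, map_one]; rfl
    let α₀ : G →* G := MonoidHom.mk' (fun g => g * ψ g) (fun g h => by
      rw [map_mul]
      calc g * h * (ψ g * ψ h) = g * (h * ψ g) * ψ h := by group
        _ = g * (ψ g * h) * ψ h := by rw [Subgroup.mem_center_iff.mp (hψZ g) h]
        _ = _ := by group)
    have hα₀ : Function.Injective α₀ := by
      rw [injective_iff_map_eq_one]
      intro g hg
      have hg' : g * ψ g = 1 := hg
      have : ψ g = 1 := by
        rw [show g = (ψ g)⁻¹ from eq_inv_of_mul_eq_one_left hg', map_inv, hψker _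
          (hZC _ (hψZ g)), inv_one]
      rwa [this, mul_one] at hg'
    let α : MulAut G := MulEquiv.ofBijective α₀ (Finite.injective_iff_bijective.mp hα₀)
    refine count p (2 * p) hp.pos (by omega) hpd {x | x ∉ C w0} hporb (fun x hx => ?_) ?_
    · have hxc : x ∉ Subgroup.center G := fun h => hx (hZC _ h)
      refine ⟨hxc, ?_⟩
      have hψx : ψ x ≠ 1 := by
        intro h
        rw [hψ] at h
        have h' : e ((φ w0).rangeRestrict x) = 1 := Subtype.ext h
        rw [EmbeddingLike.map_eq_one_iff] at h'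
        apply hx
        rw [← hker, MonoidHom.mem_ker]
        exact congrArg Subtype.val h'
      have hψR : ψ x ∉ R := fun h => by
        apply htR
        have hz' : Subgroup.zpowers t = R := eq_of_prime_card hp
          (by rw [Nat.card_zpowers]; exact orderOf_eq_prime htp ht1) hRcard (hψr x) h hψx
        exact hz' ▸ Subgroup.mem_zpowers t
      have h := index_center_le x ({1, ψ x} : Set G) ?_ ?_ ?_
      · rw [← hC, hnci x hxc, Nat.card_coe_set_eq, Set.ncard_pair hψx.symm] at h
        omega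
      · rintro u (rfl | rfl)
        · exact one_mem _
        · exact hψZ x
      · rintro u (rfl | rfl)
        · rw [mul_one]; exact MulAction.mem_orbit_self x
        · exact ⟨α, rfl⟩
      · intro u hu u' hu' g hg
        have hm : u' * u⁻¹ ∈ R := by rw [← hg]; exact hall x g
        rcases hu with rfl | rfl <;> rcases hu' with rfl | rfl
        · rfl
        · rw [inv_one, mul_one] at hm; exact absurd hm hψR
        · rw [one_mul] at hm; exact absurd (inv_mem_iff.mp hm) hψR
        · rfl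
    · have h1 := card_compl (C w0) p hw0.ge
      rw [← hz, show 2 * p - p = p by omega]
      refine Nat.le_of_mul_le_mul_left ?_ hp.pos
      calc p * (2 * p * (p - 1) * z) = 2 * ((p - 1) * (p * p * z)) := by ring
        _ ≤ 2 * ((p - 1) * Nat.card G) := by gcongr
        _ ≤ p * ((p - 1) * Nat.card G) := Nat.mul_le_mul_right _ hp2
        _ ≤ p * (p * Nat.card {x : G | x ∉ C w0}) := Nat.mul_le_mul_left _ h1
  push Not at hother
  have hpow : ∀ x : G, x ^ p ∈ Subgroup.center G := by
    intro x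
    rw [Subgroup.mem_center_iff]
    intro g
    have h : φ g (x ^ p) = 1 := by rw [map_pow, hφ, hexp]
    rw [hφ, commutatorElement_eq_one_iff_mul_comm] at h
    exact h.symm
  -- elements of `p`-power order in the centre form a cyclic group
  have hcyc : ∀ j : ℕ, ∀ u v : G, u ∈ Subgroup.center G → v ∈ Subgroup.center G →
      orderOf v = p ^ j → (∃ i, j ≤ i ∧ orderOf u = p ^ i) → v ∈ Subgroup.zpowers u := by
    intro j
    induction j with
    | zero =>
      intro u v _ _ hv _
      rw [pow_zero, orderOf_eq_one_iff] at hv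
      exact hv ▸ one_mem _
    | succ j ih =>
      intro u v huZ hvZ hv hu
      obtain ⟨i, hij, hu⟩ := hu
      have hvp : orderOf (v ^ p) = p ^ j := by
        rw [orderOf_pow, hv, pow_succ, Nat.gcd_mul_left_left, Nat.mul_div_cancel _ hp.pos]
      obtain ⟨n, hn⟩ : v ^ p ∈ Subgroup.zpowers u :=
        ih u (v ^ p) huZ (pow_mem hvZ p) hvp ⟨i, by omega, hu⟩
      have hn' : u ^ n = v ^ p := hn
      have hpn : (p : ℤ) ∣ n := by
        by_contra hcon
        have hco : IsCoprime n ((p ^ i : ℕ) : ℤ) := by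
          push_cast
          exact (((Nat.prime_iff_prime_int.mp hp).coprime_iff_not_dvd.mpr hcon).symm).pow_right
        obtain ⟨a, b, hab⟩ := hco
        have hup : u ∈ Subgroup.zpowers (v ^ p) := by
          refine ⟨a, ?_⟩
          show (v ^ p) ^ a = u
          rw [← hn', ← zpow_mul]
          have : u ^ ((p ^ i : ℕ) : ℤ) = 1 := by
            rw [zpow_natCast, ← hu, pow_orderOf_eq_one]
          calc u ^ (n * a) = u ^ (a * n) * (u ^ ((p ^ i : ℕ) : ℤ)) ^ b := by
                rw [this, one_zpow, mul_one, mul_comm]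
            _ = u ^ (a * n + ((p ^ i : ℕ) : ℤ) * b) := by rw [← zpow_mul, zpow_add]
            _ = u := by rw [mul_comm _ b, hab, zpow_one]
        have := orderOf_dvd_of_mem_zpowers hup
        rw [hu, hvp] at this
        have := (Nat.pow_dvd_pow_iff_le_right hp.one_lt).mp this
        omega
      obtain ⟨m, hm⟩ := hpn
      have hd : (v * (u ^ m)⁻¹) ^ p = 1 := by
        rw [Commute.mul_pow (Subgroup.mem_center_iff.mp (inv_mem (zpow_mem huZ m)) v), inv_pow,
          ← zpow_natCast (u ^ m), ← zpow_mul, mul_comm, ← hm, hn', mul_inv_cancel]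
      have hdR := hother _ (mul_mem hvZ (inv_mem (zpow_mem huZ m))) hd
      have hu1 : u ≠ 1 := by
        intro h
        rw [h, orderOf_one] at hu
        have := Nat.one_lt_pow (by omega : i ≠ 0) hp.one_lt
        omega
      have huR : R ≤ Subgroup.zpowers u := by
        obtain ⟨k, rfl⟩ : ∃ k, i = k + 1 := ⟨i - 1, by omega⟩
        have ho : orderOf (u ^ p ^ k) = p := by
          rw [orderOf_pow, hu, pow_succ, Nat.gcd_mul_right_left, Nat.mul_div_cancel_left _
            (pow_pos hp.pos k)]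
        have hm' := hother _ (pow_mem huZ _) (ho ▸ pow_orderOf_eq_one _)
        have := Subgroup.eq_of_le_of_card_ge (Subgroup.zpowers_le.mpr hm')
          (by rw [hRcard, Nat.card_zpowers, ho])
        rw [← this]
        exact Subgroup.zpowers_le.mpr (pow_mem (Subgroup.mem_zpowers u) _)
      have h2 := mul_mem (huR hdR) (zpow_mem (Subgroup.mem_zpowers u) m)
      rwa [inv_mul_cancel_right] at h2
  -- two non-commuting elements of `p`-power order
  obtain ⟨x, y, hxy, hxo, hyo⟩ : ∃ x y : G, ⁅y, x⁆ ≠ 1 ∧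
      (∃ i, orderOf x = p ^ i) ∧ ∃ i, orderOf y = p ^ i := by
    obtain ⟨a, ha⟩ : ∃ a, a ∉ Subgroup.center G := by
      by_contra hcon
      push Not at hcon
      exact hnot fun a b => (Subgroup.mem_center_iff.mp (hcon a) b).symm
    obtain ⟨b, hb⟩ : ∃ b, ⁅b, a⁆ ≠ 1 := by
      by_contra hcon
      push Not at hcon
      exact ha (Subgroup.mem_center_iff.mpr fun b =>
        commutatorElement_eq_one_iff_mul_comm.mp (hcon b))
    obtain ⟨m, hm⟩ : ∃ m, m = Nat.card G / p ^ (Nat.card G).factorization p := ⟨_, rfl⟩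
    have hmp : ¬ p ∣ m := hm ▸ Nat.not_dvd_ordCompl hp Nat.card_pos.ne'
    have hord : ∀ g : G, ∃ i, orderOf (g ^ m) = p ^ i := by
      intro g
      obtain ⟨i, -, hi⟩ := (Nat.dvd_prime_pow hp).mp
        (show orderOf (g ^ m) ∣ p ^ (Nat.card G).factorization p by
          rw [orderOf_dvd_iff_pow_eq_one, ← pow_mul, hm,
            Nat.div_mul_cancel (Nat.ordProj_dvd _ _), pow_card_eq_one'])
      exact ⟨i, hi⟩
    refine ⟨a ^ m, b ^ m, fun h => hb ?_, hord a, hord b⟩
    have h1 : φ a b ^ (m * m) = 1 := by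
      rw [pow_mul, ← map_pow, ← map_pow]
      rw [map_pow, hφ, hswap, inv_pow]
      have : ⁅a, b ^ m⁆ ^ m = ⁅a ^ m, b ^ m⁆ := by
        rw [← hφ (b ^ m), ← map_pow, hφ]
      rw [this, hswap, h, inv_one, inv_one]
    rw [hφ] at h1
    have h2 : orderOf ⁅b, a⁆ ∣ Nat.gcd p (m * m) :=
      Nat.dvd_gcd (orderOf_dvd_of_pow_eq_one (hexp a b)) (orderOf_dvd_of_pow_eq_one h1)
    rw [((Nat.Prime.coprime_iff_not_dvd hp).mpr hmp).mul_right
      ((Nat.Prime.coprime_iff_not_dvd hp).mpr hmp), Nat.dvd_one, orderOf_eq_one_iff] at h2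
    exact h2
  -- normalise: `y ^ p` is a power of `x ^ p`
  obtain ⟨x, y, hxy, k, hk, hxo⟩ : ∃ x y : G, ⁅y, x⁆ ≠ 1 ∧ ∃ k : ℕ, (x ^ p) ^ k = y ^ p ∧
      ∃ i, orderOf x = p ^ i := by
    obtain ⟨i, hi⟩ := hxo
    obtain ⟨i', hi'⟩ := hyo
    have ho : ∀ (g : G) (i : ℕ), orderOf g = p ^ i → orderOf (g ^ p) = p ^ (i - 1) := by
      intro g i hg
      rw [orderOf_pow, hg]
      cases i with
      | zero => simp
      | succ i => rw [pow_succ, Nat.gcd_mul_left_left, Nat.mul_div_cancel _ hp.pos]; simp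
    rcases le_total (i' - 1) (i - 1) with h | h
    · obtain ⟨k, hk⟩ := mem_powers_iff_mem_zpowers.mpr
        (hcyc (i' - 1) (x ^ p) (y ^ p) (hpow x) (hpow y) (ho y i' hi') ⟨i - 1, h, ho x i hi⟩)
      exact ⟨x, y, hxy, k, hk, i, hi⟩
    · obtain ⟨k, hk⟩ := mem_powers_iff_mem_zpowers.mpr
        (hcyc (i - 1) (y ^ p) (x ^ p) (hpow y) (hpow x) (ho x i hi) ⟨i' - 1, h, ho y i' hi'⟩)
      exact ⟨y, x, fun e => hxy (by rw [hswap, e, inv_one]), k, hk, i', hi'⟩
  obtain ⟨y', hy'⟩ : ∃ y', y' = (x ^ k)⁻¹ * y := ⟨_, rfl⟩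
  have hy'x : ⁅y', x⁆ ≠ 1 := by
    intro h
    apply hxy
    rw [commutatorElement_eq_one_iff_mul_comm, hy'] at h
    rw [commutatorElement_eq_one_iff_mul_comm]
    calc y * x = x ^ k * ((x ^ k)⁻¹ * y * x) := by group
      _ = x ^ k * (x * ((x ^ k)⁻¹ * y)) := by rw [h]
      _ = x * y := by group
  have hy'p : y' ^ p = ⁅y, (x ^ k)⁻¹⁆ ^ p.choose 2 := by
    rw [hy', mul_pow_class_two hcom, inv_pow, ← pow_mul x, mul_comm k p, pow_mul, hk,
      inv_mul_cancel, one_mul]
  have hncy : ∀ g, ⁅g, x⁆ ≠ 1 → g ∉ Subgroup.center G := fun g hg h =>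
    hg (commutatorElement_eq_one_iff_mul_comm.mpr (Subgroup.mem_center_iff.mp h x).symm)
  -- the element defining the transvection
  obtain ⟨u, huc, hu⟩ : ∃ u, u ∉ Subgroup.center G ∧
      ((p ≠ 2 ∧ u ^ p = 1) ∨ (p = 2 ∧ u ^ 2 ∈ R ∧ u ^ 2 ≠ 1)) := by
    by_cases hp2' : p = 2
    swap
    · refine ⟨y', hncy _ hy'x, Or.inl ⟨hp2', ?_⟩⟩
      have : p ∣ p.choose 2 := hp.dvd_choose_self two_ne_zero (by omega)
      obtain ⟨q, hq⟩ := this
      rw [hy'p, hq, pow_mul, hexp, one_pow]
    subst hp2'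
    have hsq : ∀ g : G, g ^ 2 ∈ R → g ^ 2 ≠ 1 → g ∉ Subgroup.center G →
        ∃ u, u ∉ Subgroup.center G ∧
          (((2 : ℕ) ≠ 2 ∧ u ^ 2 = 1) ∨ ((2 : ℕ) = 2 ∧ u ^ 2 ∈ R ∧ u ^ 2 ≠ 1)) :=
      fun g h1 h2 h3 => ⟨g, h3, Or.inr ⟨rfl, h1, h2⟩⟩
    rw [Nat.choose_self, pow_one] at hy'p
    by_cases hy1 : y' ^ 2 = 1
    swap
    · exact hsq y' (hy'p ▸ hall _ _) hy1 (hncy _ hy'x)
    by_cases hx1 : x ^ 2 = 1
    · have hxy2 : (y' * x) ^ 2 = ⁅x, y'⁆ := by
        rw [mul_pow_class_two hcom, hy1, hx1, Nat.choose_self, pow_one, one_mul, one_mul]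
      refine hsq (y' * x) (hxy2 ▸ hall _ _) ?_ (hncy _ ?_)
      · rw [hxy2, hswap, inv_ne_one]; exact hy'x
      · intro h
        apply hy'x
        rw [commutatorElement_eq_one_iff_mul_comm] at h ⊢
        exact mul_right_cancel (show y' * x * x = x * y' * x by rw [h, mul_assoc])
    by_cases hxR : x ^ 2 ∈ R
    · exact hsq x hxR hx1 fun h => hxy
        (commutatorElement_eq_one_iff_mul_comm.mpr (Subgroup.mem_center_iff.mp h y))
    -- a central square root
    obtain ⟨w, hwZ, hw2, hw1⟩ : ∃ w ∈ Subgroup.center G, w ^ 2 ∈ R ∧ w ^ 2 ≠ 1 := by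
      obtain ⟨c, hc, hc1⟩ : ∃ c ∈ R, c ≠ 1 := by
        by_contra hcon
        push Not at hcon
        rw [(Subgroup.eq_bot_iff_forall _).mpr hcon, Subgroup.card_bot] at hRcard
        omega
      have hco : orderOf c = 2 := orderOf_eq_prime (hR_pow c hc) hc1
      -- `c` is a power of `x ^ 2`
      have key : ∀ n : ℕ, ∀ v ∈ Subgroup.center G, v ^ 2 ^ n = 1 → v ∉ R →
          ∃ w ∈ Subgroup.center G, w ^ 2 ∈ R ∧ w ^ 2 ≠ 1 := by
        intro n
        induction n with
        | zero => intro v _ hv hvR; rw [pow_zero, pow_one] at hv; exact absurd (hv ▸ R.one_mem) hvR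
        | succ n ih =>
          intro v hvZ hv hvR
          by_cases h : v ^ 2 ∈ R
          · refine ⟨v, hvZ, h, fun h1 => hvR (hother v hvZ h1)⟩
          · exact ih (v ^ 2) (pow_mem hvZ 2) (by rw [← pow_mul, ← pow_succ']; exact hv) h
      obtain ⟨m, hm⟩ : ∃ m, m = Nat.card G / 2 ^ (Nat.card G).factorization 2 := ⟨_, rfl⟩
      refine key ((Nat.card G).factorization 2) ((x ^ 2) ^ m) (pow_mem (hpow x) m) ?_ ?_
      · rw [← pow_mul (x ^ 2), hm, Nat.div_mul_cancel (Nat.ordProj_dvd _ _), pow_card_eq_one']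
      · intro h
        apply hxR
        obtain ⟨i, hi⟩ := hxo
        have hx2o : ∃ i, orderOf (x ^ 2) = 2 ^ i := by
          obtain ⟨l, -, hl⟩ := (Nat.dvd_prime_pow Nat.prime_two).mp (hi ▸ orderOf_pow_dvd 2)
          exact ⟨l, hl⟩
        have hfin : ∀ g : G, (∃ i, orderOf g = 2 ^ i) → g ^ m ∈ R → g ∈ R := by
          rintro g ⟨i, hg⟩ hgm
          have hco : (orderOf g).Coprime m := by
            rw [hg]
            refine Nat.Coprime.pow_left _ ((Nat.Prime.coprime_iff_not_dvd Nat.prime_two).mpr ?_)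
            rw [hm]
            exact Nat.not_dvd_ordCompl Nat.prime_two Nat.card_pos.ne'
          obtain ⟨n, hn⟩ := exists_pow_eq_self_of_coprime hco.symm
          exact hn ▸ pow_mem hgm n
        refine hfin (x ^ 2) ?_ h
        exact hx2o
    have e : (y' * w) ^ 2 = w ^ 2 := by
      rw [Commute.mul_pow (Subgroup.mem_center_iff.mp hwZ y'), hy1, one_mul]
    refine hsq (y' * w) (e ▸ hw2) (e ▸ hw1) fun h => ?_
    exact hncy _ hy'x ((Subgroup.mul_mem_cancel_right _ hwZ).mp h)
  -- the transvection along `u`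
  have huR : (φ u).range = R := hnc u huc
  have hui : (C u).index = p := hnci u huc
  obtain ⟨e⟩ : Nonempty ((φ u).range ≃* Multiplicative (ZMod p)) :=
    ⟨mulEquivOfPrimeCardEq (p := p) (by rw [hrcard, hui])
      (by rw [Nat.card_eq_of_bijective Multiplicative.toAdd Multiplicative.toAdd.bijective,
        Nat.card_zmod])⟩
  obtain ⟨Cc, hCc⟩ : ∃ Cc : ZMod p → G, ∀ k, Cc k = (e.symm (Multiplicative.ofAdd k) : G) :=
    ⟨_, fun _ => rfl⟩
  obtain ⟨A, hA⟩ : ∃ A : G → ZMod p, ∀ g, A g = (e ((φ u).rangeRestrict g)).toAdd :=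
    ⟨_, fun _ => rfl⟩
  have hCadd : ∀ a b, Cc (a + b) = Cc a * Cc b := fun a b => by
    rw [hCc, hCc, hCc, ofAdd_add, map_mul]; rfl
  have hC0 : Cc 0 = 1 := by rw [hCc, ofAdd_zero, map_one]; rfl
  have hCpow : ∀ (a : ZMod p) (n : ℕ), Cc a ^ n = Cc (n * a) := fun a n => by
    induction n with
    | zero => simp [hC0]
    | succ n ih => rw [pow_succ, ih, ← hCadd, Nat.cast_succ, add_mul, one_mul]
  have hCinj : Function.Injective Cc := fun a b h => by
    rw [hCc, hCc] at h
    exact Multiplicative.ofAdd.injective (e.symm.injective (Subtype.ext h))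
  have hCR : ∀ a, Cc a ∈ R := fun a => by rw [hCc, ← huR]; exact SetLike.coe_mem _
  have hCA : ∀ g, ⁅g, u⁆ = Cc (A g) := fun g => by
    rw [hCc, hA, ofAdd_toAdd, MulEquiv.symm_apply_apply, ← hφ]; rfl
  have hAadd : ∀ g h, A (g * h) = A g + A h := fun g h => by
    rw [hA, hA, hA, map_mul, map_mul]; rfl
  have hA0 : ∀ g, g ∈ C u → A g = 0 := fun g hg => hCinj (by
    rw [← hCA, hC0, commutatorElement_eq_one_iff_mul_comm]; exact (hmemC g u).mp hg)
  have hA0' : ∀ g, A g = 0 → g ∈ C u := fun g hg => by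
    rw [hmemC, ← commutatorElement_eq_one_iff_mul_comm, hCA, hg, hC0]
  obtain ⟨T, hT⟩ : ∃ T : ZMod p → ZMod p, ∀ a b,
      Cc (-(a * b)) * (Cc (T a) * u ^ a.val) * (Cc (T b) * u ^ b.val)
        = Cc (T (a + b)) * u ^ (a + b).val := by
    have hcm : ∀ a b c : ZMod p, ∀ n m : ℕ,
        Cc c * (Cc a * u ^ n) * (Cc b * u ^ m) = Cc (c + a + b) * u ^ (n + m) := by
      intro a b c n m
      calc Cc c * (Cc a * u ^ n) * (Cc b * u ^ m)
          = Cc c * Cc a * (u ^ n * Cc b) * u ^ m := by simp only [mul_assoc]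
        _ = Cc c * Cc a * (Cc b * u ^ n) * u ^ m := by
            rw [Subgroup.mem_center_iff.mp (hRZ _ (hCR b)) (u ^ n)]
        _ = _ := by rw [hCadd, hCadd, pow_add]; simp only [mul_assoc]
    rcases hu with ⟨hne2, hup⟩ | ⟨heq2, hu2R, hu21⟩
    · have h2 : (2 : ZMod p) ≠ 0 := by
        rw [show (2 : ZMod p) = ((2 : ℕ) : ZMod p) by norm_num, Ne, ZMod.natCast_eq_zero_iff,
          Nat.prime_dvd_prime_iff_eq hp Nat.prime_two]
        exact hne2
      refine ⟨fun a => -(a * a) / 2, fun a b => ?_⟩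
      rw [hcm, ZMod.val_add, ← pow_eq_pow_mod _ hup]
      congr 2
      field_simp
      ring
    · subst heq2
      refine ⟨fun _ => 0, fun a b => ?_⟩
      rw [hcm, add_zero, add_zero]
      have hz2 : ∀ a : ZMod 2, a = 0 ∨ a = 1 := fun a => by
        match a with
        | ⟨0, _⟩ => exact Or.inl rfl
        | ⟨1, _⟩ => exact Or.inr rfl
      have hc1 : Cc 1 = u ^ 2 := by
        obtain ⟨g, hg⟩ : u ^ 2 ∈ (φ u).range := huR.symm ▸ hu2R
        rw [← hg, hφ, hCA]
        rcases hz2 (A g) with h | h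
        · exfalso; apply hu21; rw [← hg, hφ, hCA, h, hC0]
        · rw [h]
      rcases hz2 a with rfl | rfl <;> rcases hz2 b with rfl | rfl
      · simp [hC0, show (0 : ZMod 2).val = 0 from rfl]
      · simp [hC0, show (1 : ZMod 2).val = 1 from rfl, show (0 : ZMod 2).val = 0 from rfl]
      · simp [hC0, show (1 : ZMod 2).val = 1 from rfl, show (0 : ZMod 2).val = 0 from rfl]
      · rw [show -((1 : ZMod 2) * 1) = 1 from rfl, hc1,
          show (1 + 1 : ZMod 2).val = 0 from rfl, show (1 : ZMod 2).val = 1 from rfl, hC0, one_mul,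
          pow_zero, ← pow_add]
        obtain ⟨g, hg⟩ : u ^ 2 ∈ (φ u).range := huR.symm ▸ hu2R
        have h4 := hexp u g
        rw [← hφ, hg] at h4
        calc u ^ (2 + (1 + 1)) = (u ^ 2) ^ 2 := by rw [← pow_mul]
          _ = 1 := h4
  obtain ⟨F, hF⟩ : ∃ F : ZMod p → G, ∀ a, F a = Cc (T a) * u ^ a.val := ⟨_, fun _ => rfl⟩
  have hFA : ∀ a, A (F a) = 0 := fun a => hA0 _ (by
    rw [hF]; exact mul_mem (hZC u (hRZ _ (hCR _))) (pow_mem ((hmemC u u).mpr rfl) _))
  have hFconj : ∀ (a : ZMod p) (h : G), F a * h = h * (Cc (-(a * A h)) * F a) := by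
    intro a h
    have h1 : u * h = h * (Cc (-(A h)) * u) := by
      have hi : Cc (-(A h)) = ⁅h, u⁆⁻¹ := by
        rw [eq_inv_iff_mul_eq_one, hCA, ← hCadd, neg_add_cancel, hC0]
      calc u * h = ⁅h, u⁆⁻¹ * (h * u) := by simp only [commutatorElement_def]; group
        _ = (h * u) * ⁅h, u⁆⁻¹ := by rw [Subgroup.mem_center_iff.mp (inv_mem (hcom h u))]
        _ = h * (⁅h, u⁆⁻¹ * u) := by
            rw [mul_assoc, Subgroup.mem_center_iff.mp (inv_mem (hcom h u)) u]
        _ = _ := by rw [hi]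
    have hn : ∀ n : ℕ, u ^ n * h = h * (Cc (-(A h)) ^ n * u ^ n) := by
      intro n
      induction n with
      | zero => simp
      | succ n ih =>
        calc u ^ (n + 1) * h = u ^ n * (u * h) := by rw [pow_succ, mul_assoc]
          _ = (u ^ n * h) * (Cc (-(A h)) * u) := by rw [h1, mul_assoc]
          _ = h * (Cc (-(A h)) ^ n * (u ^ n * Cc (-(A h))) * u) := by
              rw [ih]; simp only [mul_assoc]
          _ = _ := by
              rw [Subgroup.mem_center_iff.mp (hRZ _ (hCR (-(A h)))) (u ^ n), pow_succ, pow_succ]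
              simp only [mul_assoc]
    calc F a * h = Cc (T a) * (u ^ a.val * h) := by rw [hF, mul_assoc]
      _ = (Cc (T a) * h) * (Cc (-(A h)) ^ a.val * u ^ a.val) := by rw [hn, mul_assoc]
      _ = (h * Cc (T a)) * (Cc (-(A h)) ^ a.val * u ^ a.val) := by
          rw [Subgroup.mem_center_iff.mp (hRZ _ (hCR (T a))) h]
      _ = h * ((Cc (-(A h)) ^ a.val * Cc (T a)) * u ^ a.val) := by
          rw [Subgroup.mem_center_iff.mp (hRZ _ (hCR (T a))) (Cc (-(A h)) ^ a.val)]
          simp only [mul_assoc]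
      _ = _ := by rw [hF, hCpow, ZMod.natCast_zmod_val, mul_neg]; simp only [mul_assoc]
  let α₀ : G →* G := MonoidHom.mk' (fun g => g * F (A g)) (fun g h => by
    calc g * h * F (A (g * h)) = g * h * (Cc (-(A g * A h)) * F (A g) * F (A h)) := by
          rw [hAadd, hF, hF, hF, hT]
      _ = g * (F (A g) * h) * F (A h) := by rw [hFconj]; simp only [mul_assoc]
      _ = _ := by simp only [mul_assoc])
  have hα₀ : Function.Injective α₀ := by
    rw [injective_iff_map_eq_one]
    intro g hg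
    have hg' : g * F (A g) = 1 := hg
    have hA1 : A g = 0 := by
      have h := congrArg A hg'
      rwa [hAadd, hFA, add_zero, hA0 1 (one_mem _)] at h
    have hF0 : F 0 = 1 := by
      have h := hT 0 0
      rw [← hF, add_zero, mul_zero, neg_zero, hC0, one_mul, ← hF] at h
      exact mul_eq_left.mp h
    rwa [hA1, hF0, mul_one] at hg'
  let α : MulAut G := MulEquiv.ofBijective α₀ (Finite.injective_iff_bijective.mp hα₀)
  refine count p (2 * p) hp.pos (by omega) hpd {x | x ∉ C u} hporb (fun x hx => ?_) ?_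
  · have hxc : x ∉ Subgroup.center G := fun h => hx (hZC _ h)
    refine ⟨hxc, ?_⟩
    obtain ⟨x', hx'⟩ : ∃ x', x' = x * F (A x) := ⟨_, rfl⟩
    have hx'c : x' ∉ Subgroup.center G := by
      intro h
      have h1 := hA0 _ (hZC u h)
      rw [hx', hAadd, hFA, add_zero] at h1
      exact hx (hA0' x h1)
    have hxo' : x' ∈ orb x := ⟨α, hx'.symm⟩
    have hcls : ∀ g : G, p ≤ ({t | ∃ h : G, h * g * h⁻¹ = t} : Set G).ncard ∨
        g ∈ Subgroup.center G := by
      intro g
      by_cases hg : g ∈ Subgroup.center G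
      · exact Or.inr hg
      left
      rw [← Nat.card_coe_set_eq, ← hnci g hg, hC, Subgroup.index]
      refine Nat.card_le_card_of_injective (fun q => ⟨q.out * g * q.out⁻¹, q.out, rfl⟩) ?_
      intro q q' h
      simp only [Subtype.mk.injEq] at h
      rw [← QuotientGroup.out_eq' q, ← QuotientGroup.out_eq' q', QuotientGroup.eq,
        mem_centralizer_single]
      calc q.out⁻¹ * q'.out * g = q.out⁻¹ * (q'.out * g * q'.out⁻¹) * q'.out := by group
        _ = g * (q.out⁻¹ * q'.out) := by rw [← h]; group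
    have hdisj : Disjoint ({t | ∃ h : G, h * x * h⁻¹ = t} : Set G)
        {t | ∃ h : G, h * x' * h⁻¹ = t} := by
      rw [Set.disjoint_left]
      rintro t ⟨h, rfl⟩ ⟨h', he⟩
      apply hx
      apply hA0'
      have hconjR : ∀ g k : G, g * k * g⁻¹ * k⁻¹ ∈ R := fun g k => hall k g
      have hr : x⁻¹ * x' ∈ R := by
        have e1 : x' = (h'⁻¹ * h) * x * (h'⁻¹ * h)⁻¹ := by
          calc x' = h'⁻¹ * (h' * x' * h'⁻¹) * h' := by group
            _ = _ := by rw [he]; group
        have e2 := hconjR (h'⁻¹ * h) x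
        rw [← e1] at e2
        have e3 : x⁻¹ * x' = x' * x⁻¹ := by
          conv_rhs => rw [show x' * x⁻¹ = x⁻¹ * (x * (x' * x⁻¹)) by group,
            Subgroup.mem_center_iff.mp (hRZ _ e2) x, inv_mul_cancel_right]
        rw [e3]; exact e2
      rw [hx', inv_mul_cancel_left, hF] at hr
      have hu' : u ^ (A x).val ∈ Subgroup.center G :=
        (Subgroup.mul_mem_cancel_left _ (hRZ _ (hCR _))).mp (hRZ _ hr)
      by_contra hAx
      apply huc
      have hco : (A x).val.Coprime p := by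
        rw [Nat.coprime_comm, Nat.Prime.coprime_iff_not_dvd hp, ← ZMod.natCast_eq_zero_iff,
          ZMod.natCast_zmod_val]
        exact hAx
      obtain ⟨a, b, hab⟩ := (Nat.isCoprime_iff_coprime.mpr hco : IsCoprime _ _)
      have : u = (u ^ (A x).val) ^ a * (u ^ p) ^ b := by
        rw [← zpow_natCast, ← zpow_natCast, ← zpow_mul, ← zpow_mul, ← zpow_add, mul_comm _ a,
          mul_comm _ b, hab, zpow_one]
      rw [this]
      exact mul_mem (zpow_mem hu' a) (zpow_mem (hpow u) b)
    have hsub : ({t | ∃ h : G, h * x * h⁻¹ = t} ∪ {t | ∃ h : G, h * x' * h⁻¹ = t} : Set G)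
        ⊆ orb x := by
      rintro t (⟨h, rfl⟩ | ⟨h, rfl⟩)
      · exact conj_mem_orb (MulAction.mem_orbit_self x) h
      · exact conj_mem_orb hxo' h
    have := Set.ncard_le_ncard hsub (Set.toFinite _)
    rw [Set.ncard_union_eq hdisj (Set.toFinite _) (Set.toFinite _)] at this
    rw [Nat.card_coe_set_eq]
    have h1 := (hcls x).resolve_right hxc
    have h2 := (hcls x').resolve_right hx'c
    omega
  · have h1 := card_compl (C u) p hui.ge
    rw [← hz, show 2 * p - p = p by omega]
    refine Nat.le_of_mul_le_mul_left ?_ hp.pos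
    calc p * (2 * p * (p - 1) * z) = 2 * ((p - 1) * (p * p * z)) := by ring
      _ ≤ 2 * ((p - 1) * Nat.card G) := by gcongr
      _ ≤ p * ((p - 1) * Nat.card G) := Nat.mul_le_mul_right _ hp2
      _ ≤ p * (p * Nat.card {x : G | x ∉ C u}) := Nat.mul_le_mul_left _ h1


end Cfsg.Agent.S4067
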