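import Cfsg.Statements.S4068
import Cfsg.Agent.S1230
import Cfsg.Agent.Lib.Char.Burnside
import Cfsg.Agent.Lib.Transfer.Fusion
import Cfsg.Agent.Lib.PSLTwo.SmallField

set_option autoImplicit false
open Cfsg

namespace Cfsg.Agent.S4068

universe u

section
variable {G : Type*} [Group G] [Finite G]

theorem exists_primes (hns : ¬ Group.IsSolvable G) :
    ∃ p q r : ℕ, p.Prime ∧ q.Prime ∧ r.Prime ∧ p ≠ q ∧ p ≠ r ∧ q ≠ r ∧
      p ∣ Nat.card G ∧ q ∣ Nat.card G ∧ r ∣ Nat.card G := by
  have key : ∀ a b : ℕ, a.Prime → b.Prime → ∃ c : ℕ, c.Prime ∧ c ∣ Nat.card G ∧ c ≠ a ∧ c ≠ b := by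
    intro a b ha hb
    by_contra hc
    push Not at hc
    exact hns (Cfsg.Agent.Lib.Char.isSolvable_of_card_eq_two_primes ha hb _ G rfl fun r hr hd => by
      by_contra hh
      push Not at hh
      exact hh.2 (hc r hr hd hh.1))
  obtain ⟨p, hp, hpd, -, -⟩ := key 2 2 Nat.prime_two Nat.prime_two
  obtain ⟨q, hq, hqd, hqp, -⟩ := key p p hp hp
  obtain ⟨r, hr, hrd, hrp, hrq⟩ := key p q hp hq
  exact ⟨p, q, r, hp, hq, hr, hqp.symm, hrp.symm, hrq.symm, hpd, hqd, hrd⟩

theorem orderOf_aut (φ : MulAut G) (g : G) : orderOf (φ g) = orderOf g :=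
  orderOf_injective φ.toMonoidHom φ.injective g

variable (h4 : Nat.card (MulAction.orbitRel.Quotient (MulAut G) G) = 4)
  {p q r : ℕ} (hp : p.Prime) (hq : q.Prime) (hr : r.Prime) (hpq : p ≠ q) (hpr : p ≠ r) (hqr : q ≠ r)
  (hpd : p ∣ Nat.card G) (hqd : q ∣ Nat.card G) (hrd : r ∣ Nat.card G)

include h4 hp hq hr hpq hpr hqr hpd hqd hrd in
/-- The four orbits are distinguished by the element orders `1, p, q, r`. -/
theorem order_facts :
    (∀ g : G, orderOf g = 1 ∨ orderOf g = p ∨ orderOf g = q ∨ orderOf g = r) ∧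
    (∀ x y : G, orderOf x = orderOf y → ∃ φ : MulAut G, φ x = y) := by
  classical
  haveI := Fact.mk hp
  haveI := Fact.mk hq
  haveI := Fact.mk hr
  obtain ⟨a, ha⟩ := exists_prime_orderOf_dvd_card' p hpd
  obtain ⟨b, hb⟩ := exists_prime_orderOf_dvd_card' q hqd
  obtain ⟨c, hc⟩ := exists_prime_orderOf_dvd_card' r hrd
  let ord : MulAction.orbitRel.Quotient (MulAut G) G → ℕ := Quotient.lift orderOf (by
    rintro x y ⟨φ, rfl⟩
    exact orderOf_aut φ y)
  let f : Fin 4 → MulAction.orbitRel.Quotient (MulAut G) G := fun i => Quotient.mk'' (![1, a, b, c] i)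
  have hof : ∀ i, ord (f i) = ![1, p, q, r] i := by
    intro i
    fin_cases i <;> simp [f, ord, ha, hb, hc]
  have hinj : Function.Injective f := by
    intro i j hij
    have h1 := congrArg ord hij
    rw [hof, hof] at h1
    have := hp.two_le
    have := hq.two_le
    have := hr.two_le
    fin_cases i <;> fin_cases j <;> simp at h1 <;> simp <;> omega
  have hbij : Function.Bijective f := by
    cases nonempty_fintype (MulAction.orbitRel.Quotient (MulAut G) G)
    rw [Fintype.bijective_iff_injective_and_card]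
    exact ⟨hinj, by rw [Fintype.card_fin, ← Nat.card_eq_fintype_card, h4]⟩
  have hex : ∀ g : G, ∃ i, f i = Quotient.mk'' g := fun g => hbij.2 _
  have hord : ∀ g i, f i = Quotient.mk'' g → orderOf g = ![1, p, q, r] i := by
    intro g i hi
    rw [← hof i, hi]
    rfl
  refine ⟨fun g => ?_, fun x y hxy => ?_⟩
  · obtain ⟨i, hi⟩ := hex g
    rw [hord g i hi]
    fin_cases i <;> simp
  · obtain ⟨i, hi⟩ := hex x
    obtain ⟨j, hj⟩ := hex y
    have hij : i = j := by
      rw [hord x i hi, hord y j hj] at hxy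
      have := hp.two_le
      have := hq.two_le
      have := hr.two_le
      fin_cases i <;> fin_cases j <;> simp at hxy <;> simp <;> omega
    subst hij
    have h2 : (Quotient.mk'' y : MulAction.orbitRel.Quotient (MulAut G) G) = Quotient.mk'' x := hj.symm.trans hi
    obtain ⟨φ, hφ⟩ := Quotient.exact' h2
    exact ⟨φ, hφ⟩

variable (hprime : ∀ g : G, g ≠ 1 → (orderOf g).Prime)

include hprime in
theorem commute_order {x y : G} (hxy : x * y = y * x) (hx : x ≠ 1) (hy : y ≠ 1) : orderOf y = orderOf x := by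
  by_contra hne
  have hc : (orderOf x).Coprime (orderOf y) := (Nat.coprime_primes (hprime x hx) (hprime y hy)).2 (Ne.symm hne)
  have ho : orderOf (x * y) = orderOf x * orderOf y :=
    (show Commute x y from hxy).orderOf_mul_eq_mul_orderOf_of_coprime hc
  by_cases h1 : x * y = 1
  · rw [h1, orderOf_one] at ho
    exact (hprime x hx).ne_one (Nat.eq_one_of_mul_eq_one_right ho.symm)
  · have := hprime _ h1
    rw [ho] at this
    exact Nat.not_prime_mul (hprime x hx).ne_one (hprime y hy).ne_one this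

include hprime in
theorem isPGroup_centralizer {s : ℕ} [Fact s.Prime] {x : G} (hx : orderOf x = s) :
    IsPGroup s (Subgroup.centralizer ({x} : Set G)) := by
  intro y
  by_cases hy : (y : G) = 1
  · exact ⟨0, by simpa using Subtype.ext hy⟩
  have hx1 : x ≠ 1 := fun e => (Fact.out : s.Prime).ne_one (by rw [← hx, e, orderOf_one])
  refine ⟨1, Subtype.ext ?_⟩
  show (y : G) ^ s ^ 1 = 1
  rw [pow_one, ← hx, ← commute_order hprime (Subgroup.mem_centralizer_singleton_iff.1 y.2).symm hx1 hy]
  exact pow_orderOf_eq_one _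

variable (horb : ∀ x y : G, orderOf x = orderOf y → ∃ φ : MulAut G, φ x = y)

include hprime horb in
/-- The centralizer of an element of order `s` is a Sylow subgroup having it in the centre. -/
theorem centralizer_sylow {s : ℕ} [Fact s.Prime] {x : G} (hx : orderOf x = s) :
    ∃ P : Sylow s G, (P : Subgroup G) = Subgroup.centralizer ({x} : Set G) := by
  obtain ⟨P, hP⟩ := (isPGroup_centralizer hprime hx).exists_le_sylow
  have hxP : x ∈ (P : Subgroup G) := hP (Subgroup.mem_centralizer_singleton_iff.2 rfl)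
  haveI : Nontrivial (P : Subgroup G) := ⟨⟨x, hxP⟩, 1, fun e => by
    have : x = 1 := congrArg Subtype.val e
    exact (Fact.out : s.Prime).ne_one (by rw [← hx, this, orderOf_one])⟩
  haveI := P.isPGroup'.center_nontrivial
  obtain ⟨⟨z, hz⟩, hz1'⟩ := exists_ne (1 : Subgroup.center (P : Subgroup G))
  have hz1 : z ≠ 1 := fun e => hz1' (Subtype.ext e)
  have hzs : orderOf (z : G) = s := by
    have hz1' : (z : G) ≠ 1 := fun e => hz1 (Subtype.ext e)
    have hPP : IsPGroup s (P : Subgroup G) := P.isPGroup'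
    obtain ⟨k, hk⟩ := (IsPGroup.iff_orderOf.1 hPP) z
    rw [← Subgroup.orderOf_coe] at hk
    have := hprime _ hz1'
    rw [hk] at this ⊢
    rcases k with _ | k
    · exact absurd this (by simp [Nat.not_prime_one])
    · rw [this.eq_one_of_pow, pow_one]
  obtain ⟨φ, hφ⟩ := horb _ _ (hzs.trans hx.symm)
  have hle : (P : Subgroup G) ≤ Subgroup.centralizer ({(z : G)} : Set G) := fun w hw =>
    Subgroup.mem_centralizer_singleton_iff.2 (congrArg Subtype.val (Subgroup.mem_center_iff.1 hz ⟨w, hw⟩))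
  have hle' : (P : Subgroup G).map φ.toMonoidHom ≤ Subgroup.centralizer ({x} : Set G) := by
    rintro _ ⟨w, hw, rfl⟩
    refine Subgroup.mem_centralizer_singleton_iff.2 ?_
    have h1 := congrArg φ (Subgroup.mem_centralizer_singleton_iff.1 (hle hw))
    rw [map_mul, map_mul, hφ] at h1
    exact h1
  refine ⟨P, (Subgroup.eq_of_le_of_card_ge hP ?_).symm⟩
  rw [Nat.card_congr (Subgroup.equivMapOfInjective _ φ.toMonoidHom φ.injective).toEquiv]
  exact Subgroup.card_le_of_le hle'

/-- A finite p-group with abelian quotient of order `p` by the centre is abelian. -/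
theorem center_bound {s : ℕ} [Fact s.Prime] {P : Type*} [Group P] [Finite P] (hP : IsPGroup s P)
    (hnc : ¬ IsMulCommutative P) : Nat.card (Subgroup.center P) * (s * s) ≤ Nat.card P := by
  obtain ⟨k, hk⟩ := IsPGroup.iff_card.1 (hP.to_quotient (Subgroup.center P))
  have hk2 : 2 ≤ k := by
    by_contra hlt
    apply hnc
    haveI : IsCyclic (P ⧸ Subgroup.center P) := by
      rcases (show k = 0 ∨ k = 1 by omega) with rfl | rfl
      · haveI : Subsingleton (P ⧸ Subgroup.center P) := (Nat.card_eq_one_iff_unique.1 (by simpa using hk)).1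
        exact isCyclic_of_subsingleton
      · exact isCyclic_of_prime_card (p := s) (by simpa using hk)
    exact isMulCommutative_of_isCyclic_quotient_center_self P
  rw [Subgroup.card_eq_card_quotient_mul_card_subgroup (Subgroup.center P), hk, mul_comm (s ^ k)]
  refine Nat.mul_le_mul le_rfl ?_
  rw [← pow_two]
  exact Nat.pow_le_pow_right (Fact.out : s.Prime).pos hk2

include hprime horb in
theorem count_le {s : ℕ} [Fact s.Prime] (hodd : Odd (Nat.card G)) (hsd : s ∣ Nat.card G)
    (hnsnpc : ¬ Cfsg.HasNormalPComplement s G) :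
    3 * Nat.card {x : G // orderOf x = s} ≤ Nat.card G ∧
    (s = 3 ∨ ¬ 3 ∣ Nat.card G → 5 * Nat.card {x : G // orderOf x = s} ≤ Nat.card G) := by
  obtain ⟨P⟩ := (inferInstance : Nonempty (Sylow s G))
  set Z := Nat.card (Subgroup.center (P : Subgroup G))
  have hcnt : Nat.card {x : G // orderOf x = s} ≤ Nat.card (Sylow s G) * Z := by
    have hmem : ∀ x : {x : G // orderOf x = s}, ∃ a : Sylow s G × Subgroup.center (P : Subgroup G),
        ∀ g : G, g • P = a.1 → ∀ g' : G, g' = g → True := fun x => ⟨(P, 1), fun _ _ _ _ => trivial⟩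
    clear hmem
    let σ : Sylow s G → G := fun S => (MulAction.exists_smul_eq G P S).choose
    have hσ : ∀ S, σ S • P = S := fun S => (MulAction.exists_smul_eq G P S).choose_spec
    let f : Sylow s G × Subgroup.center (P : Subgroup G) → G :=
      fun a => σ a.1 * ((a.2 : (P : Subgroup G)) : G) * (σ a.1)⁻¹
    have hsub : ∀ x : {x : G // orderOf x = s}, ∃ a, f a = x := by
      rintro ⟨x, hx⟩
      obtain ⟨S, hS⟩ := centralizer_sylow hprime horb hx
      have hcarr : ∀ w : G, w ∈ (S : Subgroup G) ↔ (σ S)⁻¹ * w * σ S ∈ (P : Subgroup G) := by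
        intro w
        conv_lhs => rw [← hσ S, Sylow.coe_subgroup_smul, Subgroup.mem_pointwise_smul_iff_inv_smul_mem]
        simp [MulAut.smul_def]
      have hxS : x ∈ (S : Subgroup G) := by rw [hS]; exact Subgroup.mem_centralizer_singleton_iff.2 rfl
      refine ⟨(S, ⟨⟨(σ S)⁻¹ * x * σ S, (hcarr x).1 hxS⟩, Subgroup.mem_center_iff.2 fun w => ?_⟩), ?_⟩
      · have hw : σ S * (w : G) * (σ S)⁻¹ ∈ (S : Subgroup G) := (hcarr _).2 (by
          simp [mul_assoc])
        rw [hS, Subgroup.mem_centralizer_singleton_iff] at hw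
        apply Subtype.ext
        show (w : G) * ((σ S)⁻¹ * x * σ S) = ((σ S)⁻¹ * x * σ S) * w
        calc (w : G) * ((σ S)⁻¹ * x * σ S) = (σ S)⁻¹ * ((σ S * (w : G) * (σ S)⁻¹) * x) * σ S := by group
          _ = (σ S)⁻¹ * (x * (σ S * (w : G) * (σ S)⁻¹)) * σ S := by rw [hw]
          _ = _ := by group
      · show σ S * ((σ S)⁻¹ * x * σ S) * (σ S)⁻¹ = x
        group
    choose a ha using hsub
    rw [← Nat.card_prod]
    exact Nat.card_le_card_of_injective a fun x y hxy => Subtype.ext (by rw [← ha x, ← ha y, hxy])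
  set N := Subgroup.normalizer ((P : Subgroup G) : Set G) with hN
  set e := (P : Subgroup G).relIndex N with he
  have hG : Nat.card G = Nat.card (Sylow s G) * (Nat.card (P : Subgroup G) * e) := by
    rw [P.card_eq_index_normalizer, ← N.card_mul_index, mul_comm]
    congr 1
    exact ((P : Subgroup G).subgroupOf N).card_mul_index.symm.trans (by
      rw [Nat.card_congr (Subgroup.subgroupOfEquivOfLe Subgroup.le_normalizer).toEquiv]; rfl)
  have hed : e ∣ Nat.card G := ⟨Nat.card (Sylow s G) * Nat.card (P : Subgroup G), by rw [hG]; ring⟩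
  have heodd : Odd e := hodd.of_dvd_nat hed
  have hes : ¬ s ∣ e := fun hd => P.not_dvd_index (hd.trans (Dvd.intro _
    (Subgroup.relIndex_mul_index (Subgroup.le_normalizer))))
  have hZle : Z ≤ Nat.card (P : Subgroup G) := Subgroup.card_le_card_group _
  rw [hG]
  suffices h : 3 * Z ≤ Nat.card (P : Subgroup G) * e ∧ (s = 3 ∨ ¬ 3 ∣ Nat.card G → 5 * Z ≤ Nat.card (P : Subgroup G) * e) by
    refine ⟨?_, fun hh => ?_⟩
    · calc 3 * Nat.card {x : G // orderOf x = s} ≤ Nat.card (Sylow s G) * (3 * Z) := by linarith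
        _ ≤ _ := Nat.mul_le_mul le_rfl h.1
    · calc 5 * Nat.card {x : G // orderOf x = s} ≤ Nat.card (Sylow s G) * (5 * Z) := by linarith
        _ ≤ _ := Nat.mul_le_mul le_rfl (h.2 (by rwa [hG]))
  by_cases he1 : e = 1
  · have hs3 : 3 ≤ s := by
      have h2 := (Fact.out : s.Prime).two_le
      rcases h2.lt_or_eq with hlt | heq
      · omega
      · subst heq
        exact absurd (hodd.of_dvd_nat hsd) (by decide)
    have hnc : ¬ IsMulCommutative (P : Subgroup G) := by
      intro hab
      refine hnsnpc (Cfsg.Agent.Lib.Transfer.hasNormalPComplement_of_normalizer_le_centralizer P ?_)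
      exact le_trans (Subgroup.relIndex_eq_one.1 he1) (Subgroup.le_centralizer_iff_isMulCommutative.2 hab)
    have := center_bound P.isPGroup' hnc
    rw [he1, mul_one]
    have h9 : 9 * Z ≤ Nat.card (P : Subgroup G) := le_trans (by
      rw [mul_comm 9]; exact Nat.mul_le_mul le_rfl (by nlinarith)) this
    constructor <;> omega
  · obtain ⟨k, hk⟩ := heodd
    refine ⟨?_, fun hh => ?_⟩
    · rw [mul_comm 3]; exact Nat.mul_le_mul hZle (by omega)
    · have he3 : e ≠ 3 := fun h3 => by
        rcases hh with rfl | hh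
        · exact hes (by rw [h3])
        · exact hh (h3 ▸ hed)
      rw [mul_comm 5]; exact Nat.mul_le_mul hZle (by omega)

end

theorem no_npc {G : Type*} [Group G] [Finite G] (hns : ¬ Group.IsSolvable G) {p q r : ℕ} [Fact p.Prime]
    (hq : q.Prime) (hr : r.Prime)
    (hpr3 : ∀ t : ℕ, t.Prime → t ∣ Nat.card G → t = p ∨ t = q ∨ t = r) :
    ¬ Cfsg.HasNormalPComplement p G := by
  rintro ⟨P, N, hN, hc⟩
  have hcop : ¬ p ∣ Nat.card N := by
    rw [← Subgroup.IsComplement'.index_eq_card hc]
    exact P.not_dvd_index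
  haveI : Group.IsSolvable N := Cfsg.Agent.Lib.Char.isSolvable_of_card_eq_two_primes hq hr _ N rfl
    fun t ht hd => (hpr3 t ht (hd.trans (Subgroup.card_subgroup_dvd_card N))).resolve_left
      (fun e => hcop (e ▸ hd))
  haveI : Group.IsSolvable (G ⧸ N) := by
    obtain ⟨k, hk⟩ := IsPGroup.iff_card.1 P.isPGroup'
    have hG : Nat.card (G ⧸ N) = p ^ k := by
      rw [← hk, ← Subgroup.index_eq_card]
      exact Subgroup.IsComplement'.index_eq_card (Subgroup.IsComplement'.symm hc)
    haveI := (IsPGroup.of_card hG).isNilpotent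
    infer_instance
  exact hns (Group.isSolvable_of_ker_le_range N.subtype (QuotientGroup.mk' N) (by
    rw [QuotientGroup.ker_mk', Subgroup.range_subtype]))

section SL
variable {F : Type*} [Field F] [Fintype F]

theorem two_eq_zero (a : ℕ) (h : Fintype.card F = 2 ^ a) : (2 : F) = 0 := by
  have h1 : ((Fintype.card F : ℕ) : F) = 0 := FiniteField.cast_card_eq_zero F
  rw [h, Nat.cast_pow] at h1
  exact_mod_cast (eq_zero_of_pow_eq_zero h1)

theorem center_eq_bot (h2 : (2 : F) = 0) : Subgroup.center (Matrix.SpecialLinearGroup (Fin 2) F) = ⊥ := by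
  rw [eq_bot_iff]
  intro A hA
  obtain ⟨c, hc, hA'⟩ := Matrix.SpecialLinearGroup.mem_center_iff.1 hA
  rw [Fintype.card_fin] at hc
  have : (c - 1) ^ 2 = 0 := by linear_combination hc + (1 - c) * h2
  have hc1 : c = 1 := sub_eq_zero.1 (eq_zero_of_pow_eq_zero this)
  rw [Subgroup.mem_bot]
  apply Subtype.ext
  rw [← hA', hc1]
  simp

theorem psl_mk_injective (h2 : (2 : F) = 0) :
    Function.Injective (QuotientGroup.mk' (Subgroup.center (Matrix.SpecialLinearGroup (Fin 2) F))) :=
  (MonoidHom.ker_eq_bot_iff _).1 (by rw [QuotientGroup.ker_mk', center_eq_bot h2])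

theorem exists_diag (n : ℕ) (hn : Fintype.card F = n + 1) :
    ∃ A : Matrix.SpecialLinearGroup (Fin 2) F, orderOf A = n := by
  obtain ⟨g, hg⟩ := IsCyclic.exists_generator (α := Fˣ)
  have ho : orderOf g = n := by
    rw [orderOf_eq_card_of_forall_mem_zpowers hg, Nat.card_units, Nat.card_eq_fintype_card, hn]; rfl
  let φ : Fˣ →* Matrix.SpecialLinearGroup (Fin 2) F :=
    { toFun := fun u => ⟨!![(u : F), 0; 0, ((u⁻¹ : Fˣ) : F)], by simp [Matrix.det_fin_two]⟩
      map_one' := by ext i j; fin_cases i <;> fin_cases j <;> simp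
      map_mul' := fun u v => by
        apply Subtype.ext
        show _ = (!![(u : F), 0; 0, ((u⁻¹ : Fˣ) : F)] * !![(v : F), 0; 0, ((v⁻¹ : Fˣ) : F)] : Matrix (Fin 2) (Fin 2) F)
        ext i j
        fin_cases i <;> fin_cases j <;> simp [Matrix.mul_apply, Fin.sum_univ_two, mul_comm] }
  refine ⟨φ g, ?_⟩
  rw [orderOf_injective φ (fun u v huv => Units.ext ?_), ho]
  have := congrArg (fun A : Matrix.SpecialLinearGroup (Fin 2) F => (A : Matrix (Fin 2) (Fin 2) F) 0 0) huv
  change (!![(u : F), 0; 0, ((u⁻¹ : Fˣ) : F)]) 0 0 = (!![(v : F), 0; 0, ((v⁻¹ : Fˣ) : F)]) 0 0 at this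
  simpa using this

theorem exists_order_nine (h : Fintype.card F = 8) :
    ∃ A : Matrix.SpecialLinearGroup (Fin 2) F, orderOf A = 9 := by
  have h2 : (2 : F) = 0 := two_eq_zero 3 (by rw [h]; norm_num)
  obtain ⟨t, ht⟩ : ∃ t : F, t ^ 3 + t + 1 = 0 := by
    obtain ⟨s, hs⟩ : ∃ s : F, s ≠ 0 ∧ s ≠ 1 := by
      classical
      obtain ⟨s, hs⟩ := Finset.exists_mem_notMem_of_card_lt_card
        (show ({0, 1} : Finset F).card < (Finset.univ : Finset F).card by
          rw [Finset.card_univ, h]
          exact lt_of_le_of_lt Finset.card_le_two (by norm_num))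
      exact ⟨s, by simpa using hs.2⟩
    have h7 : s ^ 7 = 1 := by
      have := FiniteField.pow_card_sub_one_eq_one s hs.1
      rwa [h] at this
    have hprod : (s - 1) * ((s ^ 3 + s + 1) * (s ^ 3 + s ^ 2 + 1)) = 0 := by
      linear_combination h7 + (s ^ 4 - s ^ 3) * h2
    rcases mul_eq_zero.1 ((mul_eq_zero.1 hprod).resolve_left (sub_ne_zero.2 hs.2)) with h1 | h1
    · exact ⟨s, h1⟩
    · refine ⟨s⁻¹, ?_⟩
      have := hs.1
      field_simp
      linear_combination h1
  let A : Matrix.SpecialLinearGroup (Fin 2) F := ⟨!![0, 1; 1, t], by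
    rw [Matrix.det_fin_two]; simp; linear_combination -h2⟩
  let B : Matrix (Fin 2) (Fin 2) F := !![t, t ^ 2 + 1; t ^ 2 + 1, t + 1]
  have hA3 : (A : Matrix (Fin 2) (Fin 2) F) ^ 3 = B := by
    rw [pow_succ, pow_succ, pow_one]
    show !![0, 1; 1, t] * !![0, 1; 1, t] * !![0, 1; 1, t] = B
    ext i j
    fin_cases i <;> fin_cases j <;> simp [B, Matrix.mul_apply, Fin.sum_univ_two]
    · ring
    · ring
    · linear_combination ht - h2
  have hB3 : B ^ 3 = 1 := by
    rw [pow_succ, pow_succ, pow_one]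
    ext i j
    fin_cases i <;> fin_cases j <;> simp [B, Matrix.mul_apply, Fin.sum_univ_two]
    · grind
    · grind
    · grind
    · grind
  refine ⟨A, ?_⟩
  haveI := Fact.mk Nat.prime_three
  refine orderOf_eq_prime_pow (p := 3) (n := 1) ?_ ?_
  · rw [pow_one]
    intro h1
    have h1' : B = 1 := by
      rw [← hA3, ← Matrix.SpecialLinearGroup.coe_pow, h1, Matrix.SpecialLinearGroup.coe_one]
    have ht1 : t = 1 := by
      have := congrFun (congrFun h1' 0) 0
      simpa [B] using this
    rw [ht1] at ht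
    have : (1 : F) = 0 := by linear_combination ht - h2
    exact one_ne_zero this
  · apply Subtype.ext
    rw [Matrix.SpecialLinearGroup.coe_pow, show (3 : ℕ) ^ (1 + 1) = 3 * 3 by norm_num, pow_mul, hA3, hB3]
    rfl

end SL


/-- A finite non-solvable group on which its automorphism group has exactly four orbits is isomorphic to the alternating group of degree 5. -/
theorem result {G : Type*} [Group G] [Finite G] (hns : ¬ Group.IsSolvable G)
    (h4 : Nat.card (MulAction.orbitRel.Quotient (MulAut G) G) = 4) : Nonempty (G ≃* alternatingGroup (Fin 5)) := by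
  classical
  obtain ⟨p, q, r, hp, hq, hr, hpq, hpr, hqr, hpd, hqd, hrd⟩ := exists_primes hns
  obtain ⟨hval, horb⟩ := order_facts h4 hp hq hr hpq hpr hqr hpd hqd hrd
  have hprime : ∀ g : G, g ≠ 1 → (orderOf g).Prime := by
    intro g hg
    rcases hval g with h | h | h | h
    · exact absurd (orderOf_eq_one_iff.1 h) hg
    all_goals rw [h]; assumption
  have hpr3 : ∀ t : ℕ, t.Prime → t ∣ Nat.card G → t = p ∨ t = q ∨ t = r := by
    intro t ht hd
    haveI := Fact.mk ht
    obtain ⟨g, hg⟩ := exists_prime_orderOf_dvd_card' t hd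
    rcases hval g with h | h | h | h
    · rw [hg] at h; exact absurd h ht.ne_one
    all_goals rw [hg] at h; simp [h]
  haveI := Fact.mk hp
  haveI := Fact.mk hq
  haveI := Fact.mk hr
  -- the order is even
  have heven : 2 ∣ Nat.card G := by
    by_contra h2
    have hodd : Odd (Nat.card G) := Nat.odd_iff.2 (by omega)
    have bp := count_le hprime horb hodd hpd (no_npc hns hq hr hpr3)
    have bq := count_le hprime horb hodd hqd (no_npc hns hp hr fun t ht hd => by
      rcases hpr3 t ht hd with h | h | h <;> simp [h])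
    have br := count_le hprime horb hodd hrd (no_npc hns hp hq fun t ht hd => by
      rcases hpr3 t ht hd with h | h | h <;> simp [h])
    have hsplit : Nat.card G ≤ 1 + Nat.card {x : G // orderOf x = p} + Nat.card {x : G // orderOf x = q} +
        Nat.card {x : G // orderOf x = r} := by
      cases nonempty_fintype G
      simp only [Nat.card_eq_fintype_card, Fintype.card_subtype]
      rw [← Finset.card_univ, show (1 : ℕ) = ({1} : Finset G).card from rfl]
      refine le_trans (Finset.card_le_card (t := (({1} : Finset G) ∪ Finset.univ.filter (orderOf · = p)) ∪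
        Finset.univ.filter (orderOf · = q) ∪ Finset.univ.filter (orderOf · = r)) fun g _ => ?_)
        ((Finset.card_union_le _ _).trans (Nat.add_le_add_right ((Finset.card_union_le _ _).trans
          (Nat.add_le_add_right (Finset.card_union_le _ _) _)) _))
      simp only [Finset.mem_union, Finset.mem_singleton, Finset.mem_filter, Finset.mem_univ, true_and]
      rcases hval g with h | h | h | h
      · simp [orderOf_eq_one_iff.1 h]
      all_goals simp [h]
    have h3p : p ∣ Nat.card G ∧ 3 ≤ p := ⟨hpd, by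
      rcases hp.two_le.lt_or_eq with h | h
      · omega
      · exact absurd (h ▸ hpd) h2⟩
    have h3q : 3 ≤ q := by
      rcases hq.two_le.lt_or_eq with h | h
      · omega
      · exact absurd (h ▸ hqd) h2
    have h3r : 3 ≤ r := by
      rcases hr.two_le.lt_or_eq with h | h
      · omega
      · exact absurd (h ▸ hrd) h2
    have hbig : 45 ≤ Nat.card G := by
      have h1 : p * q * r ∣ Nat.card G :=
        Nat.Coprime.mul_dvd_of_dvd_of_dvd (Nat.Coprime.mul_left ((Nat.coprime_primes hp hr).2 hpr)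
          ((Nat.coprime_primes hq hr).2 hqr))
          (((Nat.coprime_primes hp hq).2 hpq).mul_dvd_of_dvd_of_dvd hpd hqd) hrd
      have h5 : 5 ≤ p ∨ 5 ≤ q ∨ 5 ≤ r := by
        have hp4 : p ≠ 4 := fun h => by rw [h] at hp; norm_num at hp
        have hq4 : q ≠ 4 := fun h => by rw [h] at hq; norm_num at hq
        have hr4 : r ≠ 4 := fun h => by rw [h] at hr; norm_num at hr
        omega
      have h2p : p ≠ q := hpq
      have := Nat.le_of_dvd Nat.card_pos h1
      rcases h5 with h | h | h
      · have : 5 * 3 * 3 ≤ p * q * r := Nat.mul_le_mul (Nat.mul_le_mul h h3q) h3r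
        omega
      · have : 3 * 5 * 3 ≤ p * q * r := Nat.mul_le_mul (Nat.mul_le_mul h3p.2 h) h3r
        omega
      · have : 3 * 3 * 5 ≤ p * q * r := Nat.mul_le_mul (Nat.mul_le_mul h3p.2 h3q) h
        omega
    by_cases h3 : 3 ∣ Nat.card G
    · rcases hpr3 3 Nat.prime_three h3 with h | h | h
      · have := bp.2 (Or.inl h.symm); have := bq.1; have := br.1; omega
      · have := bq.2 (Or.inl h.symm); have := bp.1; have := br.1; omega
      · have := br.2 (Or.inl h.symm); have := bp.1; have := bq.1; omega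
    · have := bp.2 (Or.inr h3); have := bq.2 (Or.inr h3); have := br.2 (Or.inr h3); omega
  haveI : Fact (Nat.Prime 2) := ⟨Nat.prime_two⟩
  obtain ⟨a, b, ha, hb, hab3, hab⟩ : ∃ a b : ℕ, a.Prime ∧ b.Prime ∧
      (∀ t : ℕ, t.Prime → t ∣ Nat.card G → t = 2 ∨ t = a ∨ t = b) ∧ a ≠ b := by
    rcases hpr3 2 Nat.prime_two heven with h | h | h
    · exact ⟨q, r, hq, hr, fun t ht hd => by rw [h]; exact hpr3 t ht hd, hqr⟩
    · exact ⟨p, r, hp, hr, fun t ht hd => by rcases hpr3 t ht hd with e | e | e <;> simp [e, h], hpr⟩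
    · exact ⟨p, q, hp, hq, fun t ht hd => by rcases hpr3 t ht hd with e | e | e <;> simp [e, h], hpq⟩
  have hexp : ∀ {K : Subgroup G}, IsPGroup 2 K → ∀ x ∈ K, x ^ 2 = 1 := by
    intro K hK x hx
    by_cases hx1 : x = 1
    · simp [hx1]
    obtain ⟨k, hk⟩ := (IsPGroup.iff_orderOf.1 hK) ⟨x, hx⟩
    rw [Subgroup.orderOf_mk] at hk
    have := hprime x hx1
    rw [hk] at this
    have hk1 : k = 1 := (Nat.Prime.pow_eq_iff this).1 rfl |>.2
    rw [hk1, pow_one] at hk
    rw [← hk]
    exact pow_orderOf_eq_one x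
  have hcomm : ∀ {K : Subgroup G}, IsPGroup 2 K → IsMulCommutative K := by
    intro K hK
    have hinv : ∀ x : K, x⁻¹ = x := fun x => inv_eq_of_mul_eq_one_right (Subtype.ext (by
      have := hexp hK x x.2
      rwa [pow_two] at this))
    exact ⟨⟨fun x y => by rw [← hinv (x * y), mul_inv_rev, hinv, hinv]⟩⟩
  obtain ⟨T⟩ := (inferInstance : Nonempty (Sylow 2 G))
  have hnc : ¬ IsCyclic (T : Subgroup G) := by
    intro hcyc
    refine no_npc hns ha hb hab3 (Cfsg.Agent.Lib.Transfer.hasNormalPComplement_of_normalizer_le_centralizer T ?_)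
    obtain ⟨g, hg⟩ := hcyc.exists_generator
    intro n hn
    rw [Subgroup.mem_centralizer_iff]
    intro x hx
    have hgen : ∀ y : (T : Subgroup G), (y : G) = 1 ∨ (y : G) = g := by
      intro y
      obtain ⟨m, rfl⟩ := Subgroup.mem_zpowers_iff.1 (hg y)
      have hg2 : (g : G) ^ (2 : ℤ) = 1 := by
        rw [show (2 : ℤ) = ((2 : ℕ) : ℤ) from rfl, zpow_natCast]; exact hexp T.isPGroup' g g.2
      rcases Int.even_or_odd' m with ⟨l, rfl | rfl⟩
      · left; rw [Subgroup.coe_zpow, zpow_mul, hg2, one_zpow]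
      · right; rw [Subgroup.coe_zpow, zpow_add, zpow_mul, hg2, one_zpow, one_mul, zpow_one]
    rcases hgen ⟨x, hx⟩ with h | h
    · change x = 1 at h
      simp [h]
    · change x = g at h
      have hm := (Subgroup.mem_normalizer_iff.1 hn x).1 hx
      rcases hgen ⟨_, hm⟩ with h' | h'
      · change n * x * n⁻¹ = 1 at h'
        rw [conj_eq_one_iff] at h'
        simp [h']
      · change n * x * n⁻¹ = g at h'
        rw [← h] at h'
        exact (mul_inv_eq_iff_eq_mul.1 h').symm
  have hnn : ¬ (T : Subgroup G).Normal := by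
    intro hT
    haveI : Group.IsSolvable (T : Subgroup G) := by
      haveI := T.isPGroup'.isNilpotent
      infer_instance
    haveI : Group.IsSolvable (G ⧸ (T : Subgroup G)) :=
      Cfsg.Agent.Lib.Char.isSolvable_of_card_eq_two_primes ha hb _ _ rfl fun t ht hd => by
        refine (hab3 t ht (hd.trans (Subgroup.card_quotient_dvd_card _))).resolve_left fun e => ?_
        rw [← Subgroup.index_eq_card] at hd
        exact T.not_dvd_index (e ▸ hd)
    exact hns (Group.isSolvable_of_ker_le_range (T : Subgroup G).subtype (QuotientGroup.mk' (T : Subgroup G)) (by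
      rw [QuotientGroup.ker_mk', Subgroup.range_subtype]))
  have hC : ∀ t : G, orderOf t = 2 → IsMulCommutative (Subgroup.centralizer ({t} : Set G)) ∧
      ∀ c ∈ Subgroup.centralizer ({t} : Set G), c ^ 2 = 1 := fun t ht =>
    ⟨hcomm (isPGroup_centralizer hprime ht), hexp (isPGroup_centralizer hprime ht)⟩
  obtain ⟨F, hF, hFt, hcard, ⟨e⟩⟩ := Cfsg.Agent.S1230.result T hnc hnn hC
  obtain ⟨k, hk⟩ := IsPGroup.iff_card.1 T.isPGroup'
  rw [hk] at hcard
  have hk2 : 2 ≤ k := by
    by_contra hlt
    apply hnc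
    rcases (show k = 0 ∨ k = 1 by omega) with rfl | rfl
    · haveI : Subsingleton (T : Subgroup G) := (Nat.card_eq_one_iff_unique.1 (by simpa using hk)).1
      exact isCyclic_of_subsingleton
    · exact isCyclic_of_prime_card (p := 2) (by simpa using hk)
  have h2 : (2 : F) = 0 := two_eq_zero k hcard
  have heq : Even (Fintype.card F) := by
    rw [hcard]; exact (Nat.even_pow).2 ⟨even_two, by omega⟩
  let e' : G ≃* Matrix.ProjGenLinGroup (Fin 2) F := e.trans (Cfsg.Agent.Lib.PSLTwo.pslEquiv.trans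
    ((MulEquiv.subgroupCongr (Cfsg.Agent.Lib.PSLTwo.Lsub_eq_top_of_even heq)).trans Subgroup.topEquiv))
  by_cases hk' : k = 2
  · subst hk'
    obtain ⟨e5⟩ := Cfsg.Agent.Lib.PSLTwo.pgl_four_iso (K := F) (by rw [hcard]; norm_num)
    exact ⟨e'.trans e5⟩
  exfalso
  have hk3 : 3 ≤ k := by omega
  have hsl : ∀ A : Matrix.SpecialLinearGroup (Fin 2) F, orderOf A ≠ 1 → (orderOf A).Prime ∧ orderOf A ∣ Nat.card G := by
    intro A hA
    have ho : orderOf (e.symm (QuotientGroup.mk' _ A)) = orderOf A := by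
      rw [MulEquiv.orderOf_eq, orderOf_injective _ (psl_mk_injective h2)]
    rw [← ho] at hA ⊢
    exact ⟨hprime _ fun h1 => hA (by rw [h1, orderOf_one]), orderOf_dvd_natCard _⟩
  have h8 : 8 ≤ 2 ^ k := le_trans (by norm_num) (Nat.pow_le_pow_right (by norm_num) hk3)
  obtain ⟨A, hA⟩ := exists_diag (2 ^ k - 1) (F := F) (by omega)
  obtain ⟨hu, hud⟩ := hsl A (by omega)
  rw [hA] at hu hud
  set u := 2 ^ k - 1 with hudef
  have h3u : 3 ≠ u := by omega
  have hcardG : Nat.card G = 2 ^ k * ((2 ^ k) ^ 2 - 1) := by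
    rw [Nat.card_congr e'.toEquiv, Cfsg.Agent.Lib.PSLTwo.card_pgl, hcard]
  have hprimes : ∀ t : ℕ, t.Prime → t ∣ 2 ^ k + 1 → t = 3 := by
    intro t ht htd
    have hu2 : u % 2 = 1 := by
      have : 2 ∣ 2 ^ k := dvd_pow_self 2 (by omega)
      omega
    have ht2 : t ≠ 2 := by
      rintro rfl
      have : 2 ∣ 2 ^ k := dvd_pow_self 2 (by omega)
      omega
    have hsq : (2 ^ k) ^ 2 - 1 = (2 ^ k + 1) * u := by
      rw [hudef, show (2 ^ k) ^ 2 - 1 = (2 ^ k) ^ 2 - 1 ^ 2 by norm_num, Nat.sq_sub_sq]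
    have htu : t ≠ u := by
      rintro rfl
      have h1 : u ∣ (2 ^ k + 1) - u := Nat.dvd_sub htd dvd_rfl
      rw [show (2 ^ k + 1) - u = 2 by omega] at h1
      have := Nat.le_of_dvd (by norm_num) h1
      omega
    have h3 : 3 ∣ Nat.card G := by
      rw [hcardG, hsq]
      have h3' : (2 ^ k) % 3 = 1 ∨ (2 ^ k) % 3 = 2 := by
        have : ∀ n : ℕ, (2 ^ n) % 3 = 1 ∨ (2 ^ n) % 3 = 2 := by
          intro n
          induction n with
          | zero => simp
          | succ n ih => rw [pow_succ]; omega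
        exact this k
      rcases h3' with h | h
      · exact Dvd.dvd.mul_left (Dvd.dvd.mul_left (Nat.dvd_of_mod_eq_zero (by omega)) _) _
      · exact Dvd.dvd.mul_left (Dvd.dvd.mul_right (Nat.dvd_of_mod_eq_zero (by omega)) _) _
    have htG : t ∣ Nat.card G := by
      rw [hcardG, hsq]
      exact Dvd.dvd.mul_left (Dvd.dvd.mul_right htd _) _
    rcases hab3 t ht htG with h | h | h
    · exact absurd h ht2
    all_goals
      rcases hab3 u hu hud with h' | h' | h' <;> rcases hab3 3 Nat.prime_three h3 with h'' | h'' | h'' <;> omega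
  have h3pow : 2 ^ k + 1 = 3 ^ (2 ^ k + 1).primeFactorsList.length :=
    Nat.eq_prime_pow_of_unique_prime_dvd (by omega) (fun {d} hd hdd => hprimes d hd hdd)
  set b' := (2 ^ k + 1).primeFactorsList.length
  have hbeven : b' % 2 = 0 := by
    have h1 : ∀ n : ℕ, 3 ^ n % 8 = if n % 2 = 0 then 1 else 3 := by
      intro n
      induction n with
      | zero => simp
      | succ n ih =>
        rw [pow_succ, Nat.mul_mod, ih]
        split_ifs <;> omega
    have h2k : 2 ^ k % 8 = 0 :=  Nat.mod_eq_zero_of_dvd (pow_dvd_pow 2 hk3 : 2 ^ 3 ∣ 2 ^ k)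
    have := h1 b'
    rw [← h3pow] at this
    by_contra hne
    rw [if_neg hne] at this
    omega
  obtain ⟨c, hc⟩ : ∃ c, b' = 2 * c := ⟨b' / 2, by omega⟩
  have hc2 : 2 ^ k = (3 ^ c - 1) * (3 ^ c + 1) := by
    rw [mul_comm, ← Nat.sq_sub_sq, one_pow, ← pow_mul, mul_comm c 2, ← hc, ← h3pow]
    omega
  obtain ⟨i, -, hi⟩ := (Nat.dvd_prime_pow Nat.prime_two).1 (Dvd.intro _ hc2.symm : (3 ^ c - 1) ∣ 2 ^ k)
  obtain ⟨j, -, hj⟩ := (Nat.dvd_prime_pow Nat.prime_two).1 (Dvd.intro_left _ hc2.symm : (3 ^ c + 1) ∣ 2 ^ k)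
  have hij : i = 1 := by
    have hp1 : 1 ≤ 3 ^ c := Nat.one_le_pow _ _ (by norm_num)
    have hp2 : 1 ≤ 2 ^ i := Nat.one_le_two_pow
    rcases i with _ | _ | i
    · have h0 : 3 ^ c = 2 := by simp at hi; omega
      rcases c with _ | c
      · simp at h0
      · rw [pow_succ] at h0; omega
    · rfl
    · exfalso
      have hp3 : 1 ≤ 2 ^ i := Nat.one_le_two_pow
      rcases j with _ | _ | j
      all_goals simp only [pow_succ, pow_zero, one_mul] at hi hj; omega
  rw [hij] at hi
  have hq8 : Fintype.card F = 8 := by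
    rw [hcard, hc2, show 3 ^ c = 3 by omega]
  obtain ⟨A9, hA9⟩ := exists_order_nine hq8
  have := (hsl A9 (by omega)).1
  rw [hA9] at this
  norm_num at this

end Cfsg.Agent.S4068
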