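import Cfsg.Statements.S4071
import Mathlib
import Cfsg.Agent.Lib.Coprime.Action
import Cfsg.Agent.Lib.GS.Sylow

set_option autoImplicit false
open Cfsg

namespace Cfsg.Agent.S4071

open Subgroup
open scoped commutatorElement

theorem exists_normal_prime_index {G : Type*} [Group G] [Finite G] [Group.IsSolvable G] [Nontrivial G] :
    ∃ (M : Subgroup G) (p : ℕ), p.Prime ∧ M.Normal ∧ M.index = p ∧ IsCoatom M := by
  obtain ⟨M, hM, hcM⟩ := (eq_top_or_exists_le_coatom (commutator G)).resolve_left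
    (Group.IsSolvable.commutator_lt_top_of_nontrivial G).ne
  haveI hMn : M.Normal := ⟨fun m hm g => by
    have h1 : ⁅g, m⁆ ∈ M := hcM (commutator_mem_commutator (mem_top g) (mem_top m))
    have := mul_mem h1 hm
    simpa [commutatorElement_def] using this⟩
  haveI : Nontrivial (G ⧸ M) := QuotientGroup.nontrivial_iff.2 hM.1
  obtain ⟨q, hq, hqd⟩ := Nat.exists_prime_and_dvd (Finite.one_lt_card (α := G ⧸ M)).ne'
  haveI := Fact.mk hq
  obtain ⟨y, hy⟩ := exists_prime_orderOf_dvd_card' q hqd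
  refine ⟨M, q, hq, hMn, ?_, hM⟩
  have htop : zpowers y = ⊤ := by
    have hsurj := QuotientGroup.mk'_surjective M
    have hlt : M < (zpowers y).comap (QuotientGroup.mk' M) := by
      refine lt_of_le_of_ne ?_ fun h => ?_
      · conv_lhs => rw [← QuotientGroup.ker_mk' M]
        exact ker_le_comap _ _
      · obtain ⟨g, hg'⟩ := hsurj y
        have hg : g ∈ M := by rw [h, mem_comap, hg']; exact mem_zpowers _
        have h1 : y = 1 := by rw [← hg']; exact (QuotientGroup.eq_one_iff g).2 hg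
        rw [h1, orderOf_one] at hy
        exact hq.one_lt.ne hy
    rw [← map_comap_eq_self_of_surjective hsurj (zpowers y), hM.2 _ hlt, map_top_of_surjective _ hsurj]
  rw [index_eq_card, ← hy, ← Nat.card_zpowers, htop, card_top]

/-- Let G be a finite solvable non-nilpotent group. Every non-abelian subgroup of G is self-normalizing if and only if G is a semidirect product ⟨x⟩ ⋉ A in which ⟨x⟩ is a p-group for some prime p, A is a normal abelian subgroup of order prime to p, x^p is central in G, and x acts fixed-point-freely on A (no non-identity element of A commutes with x). -/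
theorem result {G : Type*} [Group G] [Finite G]
    [Group.IsSolvable G] (hnn : ¬ Group.IsNilpotent G) :
    (∀ H : Subgroup G, ¬ IsMulCommutative H → Subgroup.normalizer (H : Set G) = H) ↔
    ∃ (x : G) (A : Subgroup G) (p : ℕ), p.Prime ∧ A.Normal ∧ IsMulCommutative A ∧ (∃ k : ℕ, orderOf x = p ^ k) ∧
      ¬ p ∣ Nat.card A ∧ (Subgroup.zpowers x).IsComplement' A ∧ x ^ p ∈ Subgroup.center G ∧
      ∀ a : G, a ∈ A → a ≠ 1 → x * a * x⁻¹ ≠ a := by
  open Subgroup in
  classical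
  constructor
  · intro hS
    haveI : Nontrivial G := by
      by_contra hnt
      rw [not_nontrivial_iff_subsingleton] at hnt
      exact hnn inferInstance
    obtain ⟨N, p, hp, hNn, hNidx, hNco⟩ := exists_normal_prime_index (G := G)
    haveI := hNn
    haveI := Fact.mk hp
    have hNc : IsMulCommutative N := by
      by_contra h
      have := hS N h
      rw [normalizer_eq_top_iff.2 hNn] at this
      exact hNco.1 this.symm
    have hcm : ∀ {a b : G}, a ∈ N → b ∈ N → Commute a b := fun ha hb =>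
      congrArg Subtype.val (hNc.1.1 ⟨_, ha⟩ ⟨_, hb⟩)
    -- an element of `p`-power order outside `N`
    obtain ⟨x, hxN, k, hxo⟩ : ∃ x : G, x ∉ N ∧ ∃ k, orderOf x = p ^ k := by
      obtain ⟨P⟩ : Nonempty (Sylow p G) := inferInstance
      obtain ⟨x, hxP, hxN⟩ := SetLike.not_le_iff_exists.1 (show ¬ (P : Subgroup G) ≤ N from fun hle => by
        have hd := index_dvd_of_le hle
        rw [hNidx] at hd
        exact P.not_dvd_index hd)
      obtain ⟨k, hk⟩ := IsPGroup.iff_orderOf.1 P.2 ⟨x, hxP⟩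
      exact ⟨x, hxN, k, by rw [← hk, Subgroup.orderOf_mk]⟩
    have hdecomp : ∀ g : G, ∃ (i : ℤ) (m : G), m ∈ N ∧ g = x ^ i * m := by
      intro g
      have htop : zpowers (x : G ⧸ N) = ⊤ := by
        refine eq_top_of_card_eq _ ?_
        have h1 : Nat.card (zpowers (x : G ⧸ N)) ∣ p := hNidx ▸ index_eq_card N ▸ card_subgroup_dvd_card _
        rcases (Nat.dvd_prime hp).1 h1 with h2 | h2
        · rw [Nat.card_zpowers, orderOf_eq_one_iff, QuotientGroup.eq_one_iff] at h2
          exact absurd h2 hxN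
        · rw [h2, ← index_eq_card, hNidx]
      obtain ⟨i, hi⟩ := mem_zpowers_iff.1 (htop ▸ mem_top (g : G ⧸ N))
      refine ⟨i, (x ^ i)⁻¹ * g, ?_, by group⟩
      rw [← QuotientGroup.eq_one_iff, QuotientGroup.mk_mul, QuotientGroup.mk_inv, QuotientGroup.mk_zpow, hi, inv_mul_cancel]
    have hxp : x ^ p ∈ center G := by
      have hxpN : x ^ p ∈ N := hNidx ▸ N.pow_index_mem x
      rw [mem_center_iff]
      intro g
      obtain ⟨i, m, hm, rfl⟩ := hdecomp g
      exact ((((Commute.refl x).pow_left p).zpow_right i).mul_right (hcm hxpN hm)).eq.symm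
    let A : Subgroup G :=
      { carrier := {a | a ∈ N ∧ (orderOf a).Coprime p}
        one_mem' := ⟨one_mem N, by rw [orderOf_one]; exact Nat.coprime_one_left p⟩
        mul_mem' := fun {a b} ha hb => ⟨mul_mem ha.1 hb.1,
          (ha.2.mul_left hb.2).coprime_dvd_left (hcm ha.1 hb.1).orderOf_mul_dvd_mul_orderOf⟩
        inv_mem' := fun {a} ha => ⟨inv_mem ha.1, by rw [orderOf_inv]; exact ha.2⟩ }
    let P0 : Subgroup G :=
      { carrier := {a | a ∈ N ∧ ∃ j, a ^ (p ^ j) = 1}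
        one_mem' := ⟨one_mem N, 0, one_pow _⟩
        mul_mem' := fun {a b} ha hb => ⟨mul_mem ha.1 hb.1, by
          obtain ⟨i, hi⟩ := ha.2
          obtain ⟨j, hj⟩ := hb.2
          refine ⟨i + j, ?_⟩
          have e1 : a ^ p ^ (i + j) = 1 := by rw [pow_add, pow_mul, hi, one_pow]
          have e2 : b ^ p ^ (i + j) = 1 := by rw [pow_add, mul_comm, pow_mul, hj, one_pow]
          rw [(hcm ha.1 hb.1).mul_pow, e1, e2, one_mul]⟩
        inv_mem' := fun {a} ha => ⟨inv_mem ha.1, by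
          obtain ⟨i, hi⟩ := ha.2
          exact ⟨i, by rw [inv_pow, hi, inv_one]⟩⟩ }
    haveI hAn : A.Normal := ⟨fun a ha g => ⟨hNn.conj_mem a ha.1 g, by
      rw [show g * a * g⁻¹ = MulAut.conj g a from rfl, MulEquiv.orderOf_eq]; exact ha.2⟩⟩
    haveI hP0n : P0.Normal := ⟨fun a ha g => ⟨hNn.conj_mem a ha.1 g, by
      obtain ⟨i, hi⟩ := ha.2
      exact ⟨i, by rw [conj_pow, hi]; group⟩⟩⟩
    have hsplit : ∀ m ∈ N, ∃ a ∈ A, ∃ c ∈ P0, m = a * c := by
      intro m hm
      obtain ⟨e, s, hps, hes⟩ := Nat.exists_eq_pow_mul_and_not_dvd (orderOf_pos m).ne' p hp.ne_one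
      have hcop : IsCoprime ((p ^ e : ℕ) : ℤ) (s : ℤ) := by
        rw [Nat.isCoprime_iff_coprime]
        exact Nat.Coprime.pow_left _ (hp.coprime_iff_not_dvd.2 hps)
      obtain ⟨u, v, huv⟩ := hcop
      have hm1 : m ^ (((p ^ e : ℕ) : ℤ) * (s : ℤ)) = 1 := by
        rw [← Nat.cast_mul, zpow_natCast, ← hes, pow_orderOf_eq_one]
      refine ⟨m ^ (u * ((p ^ e : ℕ) : ℤ)), ⟨zpow_mem hm _, ?_⟩, m ^ (v * (s : ℤ)), ⟨zpow_mem hm _, e, ?_⟩, ?_⟩
      · refine Nat.Coprime.coprime_dvd_left ?_ ((hp.coprime_iff_not_dvd.2 hps).symm)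
        rw [orderOf_dvd_iff_pow_eq_one, ← zpow_natCast, ← zpow_mul, mul_assoc, mul_comm u, zpow_mul, hm1, one_zpow]
      · rw [← zpow_natCast, ← zpow_mul, mul_assoc, mul_comm (s : ℤ), mul_comm v, zpow_mul, hm1, one_zpow]
      · rw [← zpow_add, huv, zpow_one]
    have hP0p : IsPGroup p P0 := fun a => by
      obtain ⟨i, hi⟩ := a.2.2
      exact ⟨i, Subtype.ext (by rw [SubmonoidClass.coe_pow, hi]; rfl)⟩
    have hxp' : IsPGroup p (zpowers x) := IsPGroup.of_card (n := k) (by rw [Nat.card_zpowers, hxo])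
    have hAp : ¬ p ∣ Nat.card A := by
      intro hd
      obtain ⟨a, ha⟩ := exists_prime_orderOf_dvd_card' (G := A) p hd
      rw [← Subgroup.orderOf_coe] at ha
      have := a.2.2
      rw [ha] at this
      exact hp.one_lt.ne' ((Nat.coprime_self p).1 this)
    -- the elements of `A` fixed by `x`
    have hfixw : ∀ a ∈ A, x * (x * a * x⁻¹ * a⁻¹) * x⁻¹ = x * a * x⁻¹ * a⁻¹ → x * a * x⁻¹ * a⁻¹ = 1 := by
      intro a ha hfw
      set w := x * a * x⁻¹ * a⁻¹ with hw
      have hwA : w ∈ A := mul_mem (hAn.conj_mem a ha x) (inv_mem ha)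
      have hit : ∀ j : ℕ, x ^ j * a * (x ^ j)⁻¹ = a * w ^ j := by
        intro j
        induction j with
        | zero => simp
        | succ j ih =>
          have hc : Commute x w := mul_inv_eq_iff_eq_mul.1 hfw
          calc x ^ (j + 1) * a * (x ^ (j + 1))⁻¹ = x * (x ^ j * a * (x ^ j)⁻¹) * x⁻¹ := by rw [pow_succ']; group
            _ = x * a * x⁻¹ * (x * w ^ j * x⁻¹) := by rw [ih]; group
            _ = w * a * w ^ j := by rw [(hc.pow_right j).eq, mul_inv_cancel_right, hw]; group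
            _ = a * w ^ (j + 1) := by rw [(hcm hwA.1 ha.1).eq, mul_assoc, pow_succ']
      have h1 := hit (p ^ k)
      rw [← hxo, pow_orderOf_eq_one, inv_one, one_mul, mul_one, left_eq_mul, ← orderOf_dvd_iff_pow_eq_one, hxo] at h1
      exact orderOf_eq_one_iff.1 (Nat.eq_one_of_dvd_coprimes (hwA.2.pow_right k) dvd_rfl h1)
    obtain ⟨a0, ha0, ha0x⟩ : ∃ a ∈ A, x * a * x⁻¹ * a⁻¹ ≠ 1 := by
      by_contra! hcomm
      have hAZ : A ≤ center G := by
        intro a ha
        rw [mem_center_iff]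
        intro g
        obtain ⟨i, m, hm, rfl⟩ := hdecomp g
        exact ((show Commute x a from mul_inv_eq_iff_eq_mul.1 (mul_inv_eq_one.1 (hcomm a ha))).zpow_left i |>.mul_left
          (hcm hm ha.1)).eq
      refine hnn (Group.of_quotient_center_nilpotent ?_)
      have hsupP : IsPGroup p (zpowers x ⊔ P0 : Subgroup G) := hxp'.to_sup_of_normal_right hP0p
      have hq : IsPGroup p (G ⧸ center G) := by
        refine hsupP.of_surjective ((QuotientGroup.mk' (center G)).comp (zpowers x ⊔ P0).subtype) fun q => ?_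
        obtain ⟨g, rfl⟩ := QuotientGroup.mk'_surjective (center G) q
        obtain ⟨i, m, hm, rfl⟩ := hdecomp g
        obtain ⟨a, ha, c, hc, rfl⟩ := hsplit m hm
        refine ⟨⟨x ^ i * c, mul_mem (mem_sup_left (zpow_mem (mem_zpowers x) i)) (mem_sup_right hc)⟩, ?_⟩
        change QuotientGroup.mk' (center G) (x ^ i * c) = QuotientGroup.mk' (center G) (x ^ i * (a * c))
        have : QuotientGroup.mk' (center G) a = 1 := (QuotientGroup.eq_one_iff a).2 (hAZ ha)
        simp only [map_mul, this, one_mul]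
      exact hq.isNilpotent
    -- `H = ⟨x⟩ B` with `B = [A, x]`
    let B : Subgroup G :=
      { carrier := {w | ∃ a ∈ A, w = x * a * x⁻¹ * a⁻¹}
        one_mem' := ⟨1, one_mem A, by group⟩
        mul_mem' := by
          rintro _ _ ⟨a, ha, rfl⟩ ⟨b, hb, rfl⟩
          refine ⟨a * b, mul_mem ha hb, ?_⟩
          have hm : Commute a⁻¹ (x * b * x⁻¹ * b⁻¹) :=
            hcm (inv_mem ha.1) (mul_mem (hAn.conj_mem b hb x) (inv_mem hb)).1
          calc x * a * x⁻¹ * a⁻¹ * (x * b * x⁻¹ * b⁻¹) = x * a * x⁻¹ * (a⁻¹ * (x * b * x⁻¹ * b⁻¹)) := by group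
            _ = x * (a * b) * x⁻¹ * (a * b)⁻¹ := by rw [hm.eq]; group
        inv_mem' := by
          rintro _ ⟨a, ha, rfl⟩
          refine ⟨a⁻¹, inv_mem ha, ?_⟩
          have hm : Commute a (x * a⁻¹ * x⁻¹) := hcm ha.1 (hAn.conj_mem _ (inv_mem ha) x).1
          calc (x * a * x⁻¹ * a⁻¹)⁻¹ = a * (x * a⁻¹ * x⁻¹) := by group
            _ = x * a⁻¹ * x⁻¹ * a⁻¹⁻¹ := by rw [hm.eq, inv_inv] }
    have hBA : B ≤ A := by
      rintro _ ⟨a, ha, rfl⟩
      exact mul_mem (hAn.conj_mem a ha x) (inv_mem ha)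
    have hxB : zpowers x ≤ normalizer (B : Set G) := by
      rw [zpowers_le]
      refine mem_normalizer_fintype fun w hw => ?_
      obtain ⟨a, ha, rfl⟩ := hw
      exact ⟨x * a * x⁻¹, hAn.conj_mem a ha x, by group⟩
    set H := zpowers x ⊔ B with hH
    have hHnc : ¬ IsMulCommutative H := by
      intro hc
      refine ha0x (hfixw a0 ha0 ?_)
      have := congrArg Subtype.val (hc.1.1 ⟨x, mem_sup_left (mem_zpowers x)⟩
        ⟨_, mem_sup_right (⟨a0, ha0, rfl⟩ : x * a0 * x⁻¹ * a0⁻¹ ∈ B)⟩)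
      exact mul_inv_eq_iff_eq_mul.2 this
    have hHN := hS H hHnc
    have hfix : ∀ a ∈ A, x * a * x⁻¹ = a → a = 1 := by
      intro a ha hax
      have haH : a ∈ H := by
        rw [← hHN]
        refine mem_normalizer_fintype fun h hh => ?_
        rw [SetLike.mem_coe, hH, Cfsg.Agent.Lib.Coprime.mem_sup_of_le_normalizer hxB] at hh
        obtain ⟨y, hy, b, hb, rfl⟩ := hh
        obtain ⟨i, rfl⟩ := mem_zpowers_iff.1 hy
        have hc : Commute a (x ^ i) := ((show Commute x a from mul_inv_eq_iff_eq_mul.1 hax).zpow_left i).symm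
        have hc2 : Commute a b := hcm ha.1 (hBA hb).1
        rw [(hc.mul_right hc2).eq, mul_inv_cancel_right]
        exact mul_mem (mem_sup_left (zpow_mem (mem_zpowers x) i)) (mem_sup_right hb)
      rw [hH, Cfsg.Agent.Lib.Coprime.mem_sup_of_le_normalizer hxB] at haH
      obtain ⟨y, hy, b, hb, hyb⟩ := haH
      have hy1 : y = 1 := by
        have hyA : y ∈ A := by rw [eq_mul_inv_of_mul_eq hyb]; exact mul_mem ha (inv_mem (hBA hb))
        refine orderOf_eq_one_iff.1 (Nat.eq_one_of_dvd_coprimes (hyA.2.pow_right k) dvd_rfl ?_)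
        rw [← hxo]; exact orderOf_dvd_of_mem_zpowers hy
      rw [hy1, one_mul] at hyb
      subst hyb
      obtain ⟨c, hc, rfl⟩ := hb
      exact hfixw c hc hax
    have hBeq : B = A := by
      refine eq_of_le_of_card_ge hBA (Nat.card_le_card_of_injective
        (fun a : A => (⟨x * a * x⁻¹ * (a : G)⁻¹, ⟨a, a.2, rfl⟩⟩ : B)) ?_)
      intro a b hab
      have hab' : x * (a : G) * x⁻¹ * (a : G)⁻¹ = x * b * x⁻¹ * (b : G)⁻¹ := congrArg Subtype.val hab
      have h1 : x * ((a : G) * (b : G)⁻¹) * x⁻¹ = (a : G) * (b : G)⁻¹ := by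
        have e1 : x * (a : G) * x⁻¹ = (x * b * x⁻¹ * (b : G)⁻¹) * a := eq_mul_of_mul_inv_eq hab'
        calc x * ((a : G) * (b : G)⁻¹) * x⁻¹ = (x * (a : G) * x⁻¹) * (x * b * x⁻¹)⁻¹ := by group
          _ = x * b * x⁻¹ * ((b : G)⁻¹ * a) * (x * b * x⁻¹)⁻¹ := by rw [e1]; group
          _ = (a : G) * (b : G)⁻¹ := by
              have hbn : x * (b : G) * x⁻¹ ∈ N := hNn.conj_mem _ b.2.1 x
              have hc1 : Commute (x * (b : G) * x⁻¹) ((b : G)⁻¹ * a) := hcm hbn (mul_mem (inv_mem b.2.1) a.2.1)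
              rw [hc1.eq, mul_inv_cancel_right]
              exact (hcm (inv_mem b.2.1) a.2.1).eq
      exact Subtype.ext (mul_inv_eq_one.1 (hfix _ (mul_mem a.2 (inv_mem b.2)) h1))
    have hP0x : P0 ≤ zpowers x := by
      by_contra hle
      have hsupP : IsPGroup p (zpowers x ⊔ P0 : Subgroup G) := hxp'.to_sup_of_normal_right hP0p
      haveI : Group.IsNilpotent (zpowers x ⊔ P0 : Subgroup G) := hsupP.isNilpotent
      have hlt : (zpowers x).subgroupOf (zpowers x ⊔ P0) < ⊤ :=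
        lt_top_iff_ne_top.2 fun h => hle (le_trans le_sup_right (subgroupOf_eq_top.1 h))
      obtain ⟨z, hz, hzx⟩ := SetLike.exists_of_lt (Group.normalizerCondition_of_isNilpotent _ hlt)
      refine hzx ?_
      rw [mem_subgroupOf]
      have hzH : (z : G) ∈ H := by
        rw [← hHN, hH, hBeq]
        refine mem_normalizer_fintype fun h hh => ?_
        rw [SetLike.mem_coe, Cfsg.Agent.Lib.Coprime.mem_sup_of_le_normalizer (hBeq ▸ hxB)] at hh
        obtain ⟨y, hy, b, hb, rfl⟩ := hh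
        have hy' : (z : G) * y * (z : G)⁻¹ ∈ zpowers x :=
          (mem_normalizer_iff.1 hz ⟨y, mem_sup_left hy⟩).1 hy
        rw [show (z : G) * (y * b) * (z : G)⁻¹ = ((z : G) * y * (z : G)⁻¹) * ((z : G) * b * (z : G)⁻¹) by group]
        exact mul_mem (mem_sup_left hy') (mem_sup_right (hAn.conj_mem b hb _))
      rw [hH, Cfsg.Agent.Lib.Coprime.mem_sup_of_le_normalizer hxB] at hzH
      obtain ⟨y, hy, b, hb, hyb⟩ := hzH
      obtain ⟨j, hj⟩ := IsPGroup.iff_orderOf.1 hsupP z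
      rw [← Subgroup.orderOf_coe] at hj
      -- the component in `B` is trivial
      have hbP : b ∈ (zpowers x ⊔ P0 : Subgroup G) := by
        rw [eq_inv_mul_of_mul_eq hyb]
        exact mul_mem (inv_mem (mem_sup_left hy)) z.2
      obtain ⟨j', hj'⟩ := IsPGroup.iff_orderOf.1 hsupP ⟨b, hbP⟩
      rw [Subgroup.orderOf_mk] at hj'
      have hb1 : b = 1 := orderOf_eq_one_iff.1 (Nat.eq_one_of_dvd_coprimes ((hBA hb).2.pow_right j') dvd_rfl (hj' ▸ dvd_rfl))
      rw [← hyb, hb1, mul_one]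
      exact hy
    refine ⟨x, A, p, hp, hAn, ⟨⟨fun a b => Subtype.ext (hcm a.2.1 b.2.1).eq⟩⟩, ⟨k, hxo⟩, hAp, ?_, hxp,
      fun a ha ha1 h => ha1 (hfix a ha h)⟩
    refine isComplement'_of_disjoint_and_mul_eq_univ (disjoint_of_coprime_natCard ?_) ?_
    · rw [Nat.card_zpowers, hxo]; exact Nat.Coprime.pow_left _ (hp.coprime_iff_not_dvd.2 hAp)
    · refine Set.eq_univ_of_forall fun g => ?_
      obtain ⟨i, m, hm, rfl⟩ := hdecomp g
      obtain ⟨a, ha, c, hc, rfl⟩ := hsplit m hm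
      refine Set.mem_mul.2 ⟨x ^ i * c, mul_mem (zpow_mem (mem_zpowers x) i) (hP0x hc), a, ha, ?_⟩
      rw [(hcm ha.1 hc.1).eq, mul_assoc]
  · rintro ⟨x, A, p, hp, hAn, hAc, ⟨k, hxo⟩, hAp, hcompl, hxp, hfpf⟩ H hH
    haveI := Fact.mk hp
    haveI := hAn
    have hcmA : ∀ {a b : G}, a ∈ A → b ∈ A → Commute a b := fun ha hb =>
      congrArg Subtype.val (hAc.1.1 ⟨_, ha⟩ ⟨_, hb⟩)
    have hdec : ∀ g : G, ∃ (i : ℕ) (a : G), a ∈ A ∧ g = x ^ i * a := by
      intro g
      obtain ⟨⟨y, a⟩, hg, -⟩ := hcompl.existsUnique g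
      obtain ⟨i, hi⟩ := (mem_powers_iff_mem_zpowers.2 y.2 : (y : G) ∈ Submonoid.powers x)
      exact ⟨i, a, a.2, by rw [← hg]; exact congrArg (· * (a : G)) hi.symm⟩
    -- an element of `H` with full image
    obtain ⟨h0, hh0, i0, a0, ha0, hi0, rfl⟩ : ∃ h ∈ H, ∃ (i : ℕ) (a : G), a ∈ A ∧ ¬ p ∣ i ∧ h = x ^ i * a := by
      by_contra! hall
      refine hH ⟨⟨fun u v => Subtype.ext ?_⟩⟩
      obtain ⟨i, a, ha, hu⟩ := hdec u
      obtain ⟨j, b, hb, hv⟩ := hdec v
      obtain ⟨i', rfl⟩ : p ∣ i := by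
        by_contra h; exact hall u u.2 i a ha h hu
      obtain ⟨j', rfl⟩ : p ∣ j := by
        by_contra h; exact hall v v.2 j b hb h hv
      change (u : G) * v = v * u
      rw [hu, hv, pow_mul, pow_mul]
      have hcentral : ∀ (n : ℕ) (g : G), Commute ((x ^ p) ^ n) g := fun n g => ((mem_center_iff.1 (pow_mem hxp n)) g).symm
      exact ((hcentral i' _).mul_left ((hcentral j' _).symm.mul_right (hcmA ha hb))).eq
    -- its `p`-part generates a Sylow subgroup
    set m := Nat.card A with hm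
    have hmp : Nat.Coprime m p := (hp.coprime_iff_not_dvd.2 hAp).symm
    obtain ⟨y, hy⟩ : ∃ y, y = (x ^ i0 * a0) ^ m := ⟨_, rfl⟩
    have hpi : ∀ b ∈ A, ∀ e : ℕ, ¬ p ∣ e → ∀ c ∈ A, (x ^ e * b) * c * (x ^ e * b)⁻¹ = c → c = 1 := by
      intro b hb e he c hc hcc
      by_contra hc1
      refine hfpf c hc hc1 ?_
      have h1 : Commute (x ^ e) c := by
        have h0 : x ^ e * c * (x ^ e)⁻¹ = c := by
          calc x ^ e * c * (x ^ e)⁻¹ = x ^ e * (b * c * b⁻¹) * (x ^ e)⁻¹ := by rw [(hcmA hb hc).eq]; group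
            _ = (x ^ e * b) * c * (x ^ e * b)⁻¹ := by group
            _ = c := hcc
        exact mul_inv_eq_iff_eq_mul.1 h0
      have hcop : e.Coprime (orderOf x) := by
        rw [hxo]; exact ((hp.coprime_iff_not_dvd.2 he).pow_left k).symm
      obtain ⟨d, hd⟩ := exists_pow_eq_self_of_coprime hcop
      have h2 : Commute x c := by rw [← hd]; exact h1.pow_left d
      exact mul_inv_eq_iff_eq_mul.2 h2.eq
    have hyexp : ∃ e b, ¬ p ∣ e ∧ b ∈ A ∧ y = x ^ e * b := by
      obtain ⟨i, b, hb, hyi⟩ := hdec y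
      refine ⟨i, b, ?_, hb, hyi⟩
      intro hpdi
      have h1 : (QuotientGroup.mk' A) y = (QuotientGroup.mk' A) (x ^ i) := by
        rw [hyi, map_mul, (show QuotientGroup.mk' A b = 1 from (QuotientGroup.eq_one_iff b).2 hb), mul_one]
      rw [hy, map_pow, map_mul, (show QuotientGroup.mk' A a0 = 1 from (QuotientGroup.eq_one_iff a0).2 ha0), mul_one,
        ← map_pow] at h1
      have h2 : x ^ (i0 * m) = x ^ i := by
        have h3 : (x ^ (i0 * m))⁻¹ * x ^ i ∈ A := by
          rw [pow_mul]; exact QuotientGroup.eq.1 h1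
        have h4 : (x ^ (i0 * m))⁻¹ * x ^ i ∈ zpowers x :=
          mul_mem (inv_mem (pow_mem (mem_zpowers x) _)) (pow_mem (mem_zpowers x) _)
        exact inv_mul_eq_one.1 (mem_bot.1 (hcompl.disjoint.eq_bot ▸ (⟨h4, h3⟩ : _ ∈ zpowers x ⊓ A)))
      rw [pow_eq_pow_iff_modEq, hxo] at h2
      rcases Nat.eq_zero_or_pos k with hk0 | hk0
      · have hx1 : x = 1 := orderOf_eq_one_iff.1 (by rw [hxo, hk0, pow_zero])
        have : A = ⊥ := by
          by_contra hA
          obtain ⟨c, hc, hc1⟩ := A.bot_or_exists_ne_one.resolve_left hA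
          exact hfpf c hc hc1 (by rw [hx1]; simp)
        refine hH ⟨⟨fun u v => Subtype.ext ?_⟩⟩
        obtain ⟨i, a, ha, hu⟩ := hdec u
        obtain ⟨j, b, hb, hv⟩ := hdec v
        change (u : G) * v = v * u
        rw [hu, hv, hx1, one_pow, one_pow, one_mul, one_mul]
        exact (hcmA ha hb).eq
      have h5 : p ∣ i0 * m := (h2.of_dvd (dvd_pow_self p hk0.ne')).dvd_iff dvd_rfl |>.2 hpdi
      rcases hp.dvd_mul.1 h5 with h6 | h6
      · exact hi0 h6
      · exact hAp h6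
    obtain ⟨e, b0, he, hb0, hye⟩ := hyexp
    have hyH : y ∈ H := hy ▸ pow_mem hh0 m
    refine le_antisymm (fun n hn => ?_) le_normalizer
    -- every element is a power of `y` times an element of `A`
    have hgen : ∃ (j : ℕ) (a : G), a ∈ A ∧ n = y ^ j * a := by
      obtain ⟨i, a, ha, rfl⟩ := hdec n
      have hcop : e.Coprime (orderOf x) := by
        rw [hxo]; exact ((hp.coprime_iff_not_dvd.2 he).pow_left k).symm
      obtain ⟨d, hd⟩ := exists_pow_eq_self_of_coprime hcop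
      refine ⟨d * i, (y ^ (d * i))⁻¹ * (x ^ i * a), ?_, by group⟩
      rw [← QuotientGroup.eq_one_iff (N := A)]
      have hq : QuotientGroup.mk' A y = QuotientGroup.mk' A x ^ e := by
        rw [hye, map_mul, map_pow, (show QuotientGroup.mk' A b0 = 1 from (QuotientGroup.eq_one_iff b0).2 hb0), mul_one]
      change QuotientGroup.mk' A ((y ^ (d * i))⁻¹ * (x ^ i * a)) = 1
      rw [map_mul, map_mul, map_inv, map_pow, map_pow, hq, (show QuotientGroup.mk' A a = 1 from (QuotientGroup.eq_one_iff a).2 ha),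
        mul_one, pow_mul, ← pow_mul (QuotientGroup.mk' A x) e d]
      have : QuotientGroup.mk' A x ^ (e * d) = QuotientGroup.mk' A x := by
        rw [← map_pow, pow_mul, hd]
      rw [this, inv_mul_cancel]
    obtain ⟨j, a, ha, rfl⟩ := hgen
    have haN : a ∈ normalizer (H : Set G) := by
      have := mul_mem (inv_mem (le_normalizer (pow_mem hyH j))) hn
      simpa using this
    -- `b ↦ [b, y]` is bijective on `H ⊓ A`
    let f : ↥(H ⊓ A : Subgroup G) → ↥(H ⊓ A : Subgroup G) := fun b => ⟨(b : G) * y * (b : G)⁻¹ * y⁻¹,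
      mem_inf.2 ⟨mul_mem (mul_mem (mul_mem b.2.1 hyH) (inv_mem b.2.1)) (inv_mem hyH), by
        rw [show (b : G) * y * (b : G)⁻¹ * y⁻¹ = (b : G) * (y * (b : G)⁻¹ * y⁻¹) by group]
        exact mul_mem b.2.2 (hAn.conj_mem _ (inv_mem b.2.2) y)⟩⟩
    have hinjA : ∀ u ∈ A, ∀ v ∈ A, u * y * u⁻¹ * y⁻¹ = v * y * v⁻¹ * y⁻¹ → u = v := by
      intro u hu v hv huv
      have h1 : u * y * u⁻¹ = v * y * v⁻¹ := mul_right_cancel huv
      have h2 : y * (v⁻¹ * u) * y⁻¹ = v⁻¹ * u := by
        calc y * (v⁻¹ * u) * y⁻¹ = v⁻¹ * (v * y * v⁻¹) * u * y⁻¹ := by group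
          _ = v⁻¹ * (u * y * u⁻¹) * u * y⁻¹ := by rw [h1]
          _ = v⁻¹ * u := by group
      rw [hye] at h2
      exact (inv_mul_eq_one.1 (hpi b0 hb0 e he _ (mul_mem (inv_mem hv) hu) h2)).symm
    have hbij : Function.Surjective f := Finite.injective_iff_surjective.1 fun u v huv =>
      Subtype.ext (hinjA u u.2.2 v v.2.2 (congrArg Subtype.val huv))
    have haB : a * y * a⁻¹ * y⁻¹ ∈ (H ⊓ A : Subgroup G) := by
      refine mem_inf.2 ⟨mul_mem ((mem_normalizer_iff.1 haN y).1 hyH) (inv_mem hyH), ?_⟩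
      rw [show a * y * a⁻¹ * y⁻¹ = a * (y * a⁻¹ * y⁻¹) by group]
      exact mul_mem ha (hAn.conj_mem _ (inv_mem ha) y)
    obtain ⟨b, hb⟩ := hbij ⟨_, haB⟩
    rw [hinjA a ha b b.2.2 (congrArg Subtype.val hb).symm]
    exact mul_mem (pow_mem hyH j) b.2.1

end Cfsg.Agent.S4071
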