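import Cfsg.Statements.S4072
import Mathlib
import Cfsg.Agent.Lib.Transfer.Fusion
import Cfsg.Agent.Lib.Coprime.Action

set_option autoImplicit false
open Cfsg

namespace Cfsg.Agent.S4072

open Subgroup

/-- In a group with self-normalizing nonabelian subgroups and a central element of order `p`,
`p'`-elements act trivially on `p`-subgroups. -/
theorem autP {G : Type*} [Group G] [Finite G] {p : ℕ} [Fact p.Prime]
    (hS : ∀ H : Subgroup G, ¬ IsMulCommutative H → normalizer (H : Set G) = H)
    {z : G} (hz : z ∈ center G) (hzo : orderOf z = p) (Q : Subgroup G) (hQ : IsPGroup p Q) :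
    Cfsg.Agent.Lib.Transfer.AutPGroup p Q := by
  intro g hgN hcop
  by_cases hQc : IsMulCommutative Q
  swap
  · rw [hS Q hQc] at hgN
    obtain ⟨k, hk⟩ := IsPGroup.iff_orderOf.1 hQ ⟨g, hgN⟩
    rw [Subgroup.orderOf_mk] at hk
    have hg1 : g = 1 := orderOf_eq_one_iff.1
      (Nat.eq_one_of_dvd_coprimes (hcop.pow_right k) dvd_rfl (hk ▸ dvd_rfl))
    rw [hg1]; exact one_mem _
  by_contra hng
  have hmem : ∀ {a : G}, a ∈ Q → g * a * g⁻¹ ∈ Q := fun ha => (mem_normalizer_iff.1 hgN _).1 ha
  have hcm : ∀ {a b : G}, a ∈ Q → b ∈ Q → a * b = b * a := fun ha hb =>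
    congrArg Subtype.val (hQc.1.1 ⟨_, ha⟩ ⟨_, hb⟩)
  let W : Subgroup G :=
    { carrier := {w | ∃ q ∈ Q, w = g * q * g⁻¹ * q⁻¹}
      one_mem' := ⟨1, one_mem Q, by group⟩
      mul_mem' := by
        rintro _ _ ⟨a, ha, rfl⟩ ⟨b, hb, rfl⟩
        refine ⟨a * b, mul_mem ha hb, ?_⟩
        have hm := hcm (inv_mem ha) (mul_mem (hmem hb) (inv_mem hb))
        calc g * a * g⁻¹ * a⁻¹ * (g * b * g⁻¹ * b⁻¹) = g * a * g⁻¹ * (a⁻¹ * ((g * b * g⁻¹) * b⁻¹)) := by group
          _ = g * a * g⁻¹ * ((g * b * g⁻¹) * b⁻¹ * a⁻¹) := by rw [hm]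
          _ = g * (a * b) * g⁻¹ * (a * b)⁻¹ := by group
      inv_mem' := by
        rintro _ ⟨a, ha, rfl⟩
        refine ⟨a⁻¹, inv_mem ha, ?_⟩
        calc (g * a * g⁻¹ * a⁻¹)⁻¹ = a * (g * a⁻¹ * g⁻¹) := by group
          _ = g * a⁻¹ * g⁻¹ * a⁻¹⁻¹ := by rw [hcm ha (hmem (inv_mem ha)), inv_inv] }
  have hWQ : W ≤ Q := by
    rintro _ ⟨a, ha, rfl⟩
    exact mul_mem (hmem ha) (inv_mem ha)
  -- a fixed element of `W` is trivial
  have hfix : ∀ w ∈ W, g * w * g⁻¹ = w → w = 1 := by
    intro w hw hfw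
    obtain ⟨q, hq, rfl⟩ := hw
    set w := g * q * g⁻¹ * q⁻¹ with hw
    have hwQ : w ∈ Q := mul_mem (hmem hq) (inv_mem hq)
    have hit : ∀ j : ℕ, g ^ j * q * (g ^ j)⁻¹ = q * w ^ j := by
      intro j
      induction j with
      | zero => simp
      | succ j ih =>
        have hc : Commute g w := mul_inv_eq_iff_eq_mul.1 hfw
        calc g ^ (j + 1) * q * (g ^ (j + 1))⁻¹ = g * (g ^ j * q * (g ^ j)⁻¹) * g⁻¹ := by
              rw [pow_succ']; group
          _ = g * q * g⁻¹ * (g * w ^ j * g⁻¹) := by rw [ih]; group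
          _ = w * q * w ^ j := by
              rw [(hc.pow_right j).eq, mul_inv_cancel_right, hw]; group
          _ = q * w ^ (j + 1) := by rw [hcm hwQ hq, mul_assoc, pow_succ']
    have h1 := hit (orderOf g)
    rw [pow_orderOf_eq_one, inv_one, one_mul, mul_one, left_eq_mul, ← orderOf_dvd_iff_pow_eq_one] at h1
    obtain ⟨k, hk⟩ := IsPGroup.iff_orderOf.1 hQ ⟨w, hwQ⟩
    rw [Subgroup.orderOf_mk] at hk
    exact orderOf_eq_one_iff.1 (Nat.eq_one_of_dvd_coprimes (hcop.pow_right k) h1 (hk ▸ dvd_rfl))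
  obtain ⟨q, hq, hqne⟩ : ∃ q ∈ Q, g * q * g⁻¹ * q⁻¹ ≠ 1 := by
    by_contra! h
    refine hng (mem_centralizer_iff.2 fun a ha => ?_)
    exact (mul_inv_eq_iff_eq_mul.1 (mul_inv_eq_one.1 (h a ha))).symm
  have hgW : zpowers g ≤ normalizer (W : Set G) := by
    rw [zpowers_le]
    refine mem_normalizer_fintype fun w hw => ?_
    obtain ⟨a, ha, rfl⟩ := hw
    exact ⟨g * a * g⁻¹, hmem ha, by group⟩
  set X := zpowers g ⊔ W
  have hX : ¬ IsMulCommutative X := by
    intro h
    refine hqne (hfix _ ⟨q, hq, rfl⟩ ?_)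
    have := congrArg Subtype.val (h.1.1 ⟨g, mem_sup_left (mem_zpowers g)⟩
      ⟨_, mem_sup_right (⟨q, hq, rfl⟩ : g * q * g⁻¹ * q⁻¹ ∈ W)⟩)
    exact mul_inv_eq_iff_eq_mul.2 this
  have hzX : z ∈ X := by
    rw [← hS X hX]
    exact center_le_normalizer _ hz
  obtain ⟨a, ha, w, hw, hzw⟩ := (Cfsg.Agent.Lib.Coprime.mem_sup_of_le_normalizer hgW).1 hzX
  have ha1 : a = 1 := by
    obtain ⟨k, hk⟩ := IsPGroup.iff_orderOf.1 hQ ⟨w, hWQ hw⟩
    rw [Subgroup.orderOf_mk] at hk
    have hp1 : orderOf a ∣ p ^ (k + 1) := by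
      have hae : a = z * w⁻¹ := eq_mul_inv_of_mul_eq hzw
      rw [orderOf_dvd_iff_pow_eq_one, hae,
        (show Commute z w⁻¹ from ((mem_center_iff.1 hz) _).symm).mul_pow]
      have h1 : z ^ p ^ (k + 1) = 1 := orderOf_dvd_iff_pow_eq_one.1 (hzo ▸ dvd_pow_self p (Nat.succ_ne_zero k))
      have h2 : w ^ p ^ (k + 1) = 1 := orderOf_dvd_iff_pow_eq_one.1 (hk ▸ pow_dvd_pow p (Nat.le_succ k))
      rw [h1, inv_pow, h2, inv_one, one_mul]
    exact orderOf_eq_one_iff.1
      (Nat.eq_one_of_dvd_coprimes (hcop.pow_right (k + 1)) (orderOf_dvd_of_mem_zpowers ha) hp1)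
  rw [ha1, one_mul] at hzw
  have hw1 : w = 1 := hfix w hw (by
    rw [hzw, mul_inv_eq_iff_eq_mul]; exact mem_center_iff.1 hz g)
  rw [hw1] at hzw
  rw [← hzw, orderOf_one] at hzo
  exact (Fact.out : p.Prime).one_lt.ne hzo

/-- A finite group in which every non-abelian subgroup is self-normalizing is solvable or simple. -/
theorem result {G : Type*} [Group G] [Finite G] (hS : ∀ H : Subgroup G, ¬ IsMulCommutative H → Subgroup.normalizer (H : Set G) = H) :
    Group.IsSolvable G ∨ IsSimpleGroup G := by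
  open Subgroup in
  classical
  by_cases hsol : Group.IsSolvable G
  · exact Or.inl hsol
  right
  haveI : Nontrivial G := by
    by_contra h
    rw [not_nontrivial_iff_subsingleton] at h
    exact hsol (Group.isSolvable_of_comm fun a b => Subsingleton.elim _ _)
  have habel : ∀ N : Subgroup G, N.Normal → N ≠ ⊤ → IsMulCommutative N := by
    intro N hN hNtop
    by_contra h
    have := hS N h
    rw [normalizer_eq_top_iff.2 hN] at this
    exact hNtop this.symm
  obtain ⟨N, ⟨hNn, hNtop⟩, hNmax⟩ := (Set.toFinite {N : Subgroup G | N.Normal ∧ N ≠ ⊤}).exists_maximal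
    ⟨⊥, inferInstance, bot_ne_top⟩
  haveI := hNn
  have hNc := habel N hNn hNtop
  haveI : Group.IsSolvable N := Group.isSolvable_of_comm hNc.1.1
  have hmax : ∀ L : Subgroup G, L.Normal → N ≤ L → L = N ∨ L = ⊤ := by
    intro L hL hNL
    by_cases h : L = ⊤
    · exact Or.inr h
    · exact Or.inl (le_antisymm (hNmax ⟨hL, h⟩ hNL) hNL)
  have hperf : commutator G = ⊤ := by
    by_contra h
    haveI := habel (commutator G) inferInstance h
    haveI : Group.IsSolvable (commutator G) := Group.isSolvable_of_comm (habel (commutator G) inferInstance h).1.1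
    haveI : Group.IsSolvable (G ⧸ commutator G) := Group.isSolvable_of_comm (fun a b => mul_comm (G := Abelianization G) a b)
    exact hsol (Group.isSolvable_of_ker_le_range (commutator G).subtype (QuotientGroup.mk' (commutator G))
      (by rw [QuotientGroup.ker_mk', range_subtype]))
  rcases eq_or_ne N ⊥ with rfl | hN0
  · exact ⟨fun L hL => hmax L hL bot_le⟩
  exfalso
  haveI : (centralizer (N : Set G)).Normal := Subgroup.normal_centralizer
  have hNC : N ≤ centralizer (N : Set G) := fun a ha => mem_centralizer_iff.2 fun b hb =>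
    congrArg Subtype.val (hNc.1.1 ⟨b, hb⟩ ⟨a, ha⟩)
  rcases hmax _ inferInstance hNC with hC | hC
  · -- a faithful action on `N`
    have hne : ∀ X : Subgroup G, N < X → normalizer (X : Set G) = X := by
      intro X hX
      refine hS X fun hc => hX.not_ge ?_
      rw [← hC]
      exact fun a ha => mem_centralizer_iff.2 fun b hb => congrArg Subtype.val (hc.1.1 ⟨b, hX.le hb⟩ ⟨a, ha⟩)
    haveI : Nontrivial (G ⧸ N) := QuotientGroup.nontrivial_iff.2 hNtop
    have hne' : ∀ X : Subgroup (G ⧸ N), X ≠ ⊥ → normalizer (X : Set (G ⧸ N)) = X := by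
      intro X hX
      have hsurj := QuotientGroup.mk'_surjective N
      have hlt : N < X.comap (QuotientGroup.mk' N) := by
        refine lt_of_le_of_ne ?_ fun h => hX ?_
        · conv_lhs => rw [← QuotientGroup.ker_mk' N]
          exact ker_le_comap _ _
        · rw [← map_comap_eq_self_of_surjective hsurj X, ← h, Subgroup.map_eq_bot_iff, QuotientGroup.ker_mk']
      have h1 := hne _ hlt
      refine le_antisymm (fun x hx => ?_) le_normalizer
      obtain ⟨y, rfl⟩ := hsurj x
      have : y ∈ normalizer ((X.comap (QuotientGroup.mk' N) : Subgroup G) : Set G) := by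
        rw [mem_normalizer_iff] at hx ⊢
        intro u
        rw [mem_comap, mem_comap, map_mul, map_mul, map_inv]
        exact hx _
      rw [h1] at this
      exact this
    obtain ⟨p, hp, hpd⟩ := Nat.exists_prime_and_dvd (Finite.one_lt_card (α := G ⧸ N)).ne'
    haveI := Fact.mk hp
    obtain ⟨P⟩ : Nonempty (Sylow p (G ⧸ N)) := inferInstance
    haveI : Nontrivial (P : Subgroup (G ⧸ N)) := (nontrivial_iff_ne_bot _).2 (P.ne_bot_of_dvd_card hpd)
    haveI := P.2.center_nontrivial
    have hPc : (P : Subgroup (G ⧸ N)) ≤ centralizer ((P : Subgroup (G ⧸ N)) : Set (G ⧸ N)) := by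
      set Z := (center (P : Subgroup (G ⧸ N))).map (P : Subgroup (G ⧸ N)).subtype with hZ
      have hZ0 : Z ≠ ⊥ := by
        rw [hZ, Ne, Subgroup.map_eq_bot_iff_of_injective _ (Subgroup.subtype_injective _)]
        exact (nontrivial_iff_ne_bot _).1 ‹_›
      intro a ha
      have haN : a ∈ normalizer (Z : Set (G ⧸ N)) := by
        refine mem_normalizer_fintype fun u hu => ?_
        obtain ⟨w, hw, rfl⟩ := hu
        refine ⟨w, hw, ?_⟩
        have := congrArg Subtype.val (mem_center_iff.1 hw ⟨a, ha⟩)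
        simp only [Subgroup.coe_mul] at this
        exact eq_mul_inv_iff_mul_eq.2 this.symm
      rw [hne' Z hZ0] at haN
      obtain ⟨w, hw, rfl⟩ := haN
      exact mem_centralizer_iff.2 fun b hb => congrArg Subtype.val (mem_center_iff.1 hw ⟨b, hb⟩)
    have hNP : normalizer ((P : Subgroup (G ⧸ N)) : Set (G ⧸ N)) ≤ centralizer ((P : Subgroup (G ⧸ N)) : Set (G ⧸ N)) :=
      (hne' _ (P.ne_bot_of_dvd_card hpd)).le.trans hPc
    have hcompl := MonoidHom.ker_transferSylow_isComplement' P hNP
    set K := (MonoidHom.transferSylow P hNP).ker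
    rcases hmax (K.comap (QuotientGroup.mk' N)) inferInstance
        (by conv_lhs => rw [← QuotientGroup.ker_mk' N]
            exact ker_le_comap _ _) with hK | hK
    · -- the quotient is a `p`-group
      have hK0 : K = ⊥ := by
        rw [← map_comap_eq_self_of_surjective (QuotientGroup.mk'_surjective N) K, hK, Subgroup.map_eq_bot_iff,
          QuotientGroup.ker_mk']
      rw [hK0, isComplement'_bot_left] at hcompl
      haveI : Group.IsSolvable (G ⧸ N) := by
        haveI := (IsPGroup.of_equiv P.2 ((MulEquiv.subgroupCongr hcompl).trans topEquiv)).isNilpotent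
        infer_instance
      exact hsol (Group.isSolvable_of_ker_le_range N.subtype (QuotientGroup.mk' N)
        (by rw [QuotientGroup.ker_mk', range_subtype]))
    · have hK1 : K = ⊤ := by
        rw [← map_comap_eq_self_of_surjective (QuotientGroup.mk'_surjective N) K, hK,
          map_top_of_surjective _ (QuotientGroup.mk'_surjective N)]
      rw [hK1, isComplement'_top_left] at hcompl
      exact P.ne_bot_of_dvd_card hpd hcompl
  · -- `N` is central
    have hNZ : N ≤ center G := fun a ha => mem_center_iff.2 fun b =>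
      (mem_centralizer_iff.1 (hC ▸ mem_top b) a ha).symm
    obtain ⟨p, hp, hpd⟩ := Nat.exists_prime_and_dvd (fun h => hN0 (card_eq_one.1 h) : Nat.card N ≠ 1)
    haveI := Fact.mk hp
    obtain ⟨z, hz⟩ := exists_prime_orderOf_dvd_card' (G := N) p hpd
    rw [← Subgroup.orderOf_coe] at hz
    obtain ⟨P, K, hK, hKP⟩ := Cfsg.Agent.Lib.Transfer.frobenius_criterion (p := p) (G := G)
      (fun Q hQ => autP hS (hNZ z.2) hz Q hQ)
    haveI := hK
    have hKtop : K ≠ ⊤ := fun h => by
      rw [h, isComplement'_top_left] at hKP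
      exact P.ne_bot_of_dvd_card (hpd.trans (card_subgroup_dvd_card N)) hKP
    haveI : Group.IsSolvable K := Group.isSolvable_of_comm (habel K hK hKtop).1.1
    haveI : Group.IsSolvable (G ⧸ K) := by
      have hq : IsPGroup p (G ⧸ K) := IsPGroup.of_card (n := (Nat.card G).factorization p) (by
        rw [← Subgroup.index_eq_card, hKP.symm.index_eq_card, P.card_eq_multiplicity])
      haveI := hq.isNilpotent
      infer_instance
    exact hsol (Group.isSolvable_of_ker_le_range K.subtype (QuotientGroup.mk' K)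
      (by rw [QuotientGroup.ker_mk', range_subtype]))

end Cfsg.Agent.S4072
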