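import Mathlib
import Cfsg.Statements.S4073
import Cfsg.Agent.Lib.LocalChar.SelfNorm
import Cfsg.Agent.Lib.LocalChar.SelfNormEven

set_option autoImplicit false

open scoped commutatorElement Pointwise

open Cfsg.Agent.Lib.LocalChar

namespace Cfsg.Agent.S4073

open scoped MatrixGroups
open Cfsg.Agent.Lib.LocalChar Cfsg.Agent.Lib.PSLTwo


/-- Let G be a finite non-abelian simple group. Every non-abelian subgroup of G is self-normalizing if and only if G is isomorphic to PSL₂(2ⁿ) for some n ≥ 2 with 2ⁿ − 1 prime (this includes the alternating group of degree 5 as PSL₂(4)). -/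
theorem result {G : Type*} [Group G] [Finite G] [IsSimpleGroup G]
    (hna : ¬ IsMulCommutative G) :
    (∀ H : Subgroup G, ¬ IsMulCommutative H → Subgroup.normalizer (H : Set G) = H) ↔
    ∃ n : ℕ, 2 ≤ n ∧ (2 ^ n - 1).Prime ∧ Nonempty (G ≃* Matrix.ProjectiveSpecialLinearGroup (Fin 2) (GaloisField 2 n)) := by
  constructor
  · intro hSN
    obtain ⟨t, f, ht, hf, hrel, he⟩ := CTSimple.main_torus hna (SelfNorm.ct hna hSN)
    exact ⟨f, hf, hrel ▸ SelfNorm.relIndex_prime hna hSN ht, he⟩
  · rintro ⟨n, hn, hp, ⟨e⟩⟩ H hH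
    classical
    haveI : Fact (Nat.Prime 2) := ⟨Nat.prime_two⟩
    haveI := Fintype.ofFinite (GaloisField 2 n)
    have hF : Fintype.card (GaloisField 2 n) = 2 ^ n := by
      rw [← Nat.card_eq_fintype_card, GaloisField.card 2 n (by omega)]
    obtain ⟨E, _, _, _, hE⟩ := exists_quadExt (GaloisField 2 n)
    have heven : Even (Fintype.card (GaloisField 2 n)) := by
      rw [hF, Nat.even_pow]
      exact ⟨even_two, by omega⟩
    let φ : G ≃* PGL(2, GaloisField 2 n) := e.trans (pslEquiv.trans
      ((MulEquiv.subgroupCongr (Lsub_eq_top_of_even heven)).trans Subgroup.topEquiv))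
    have hK : ¬ IsMulCommutative (H.map φ.toMonoidHom) := fun h => hH ⟨⟨fun a b => Subtype.ext (φ.injective (by
      simp only [Subgroup.coe_mul, map_mul]
      exact SelfNorm.comm_of h (Subgroup.mem_map_of_mem _ a.2) (Subgroup.mem_map_of_mem _ b.2)))⟩⟩
    have h := SelfNormEven.self_normalizing hE hF hp _ hK
    refine le_antisymm (fun g hg => ?_) Subgroup.le_normalizer
    have hg' : φ g ∈ Subgroup.normalizer ((H.map φ.toMonoidHom : Subgroup _) : Set PGL(2, GaloisField 2 n)) := by
      refine Subgroup.mem_normalizer_iff.2 fun y => ?_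
      obtain ⟨x, rfl⟩ := φ.surjective y
      rw [← map_inv, ← map_mul, ← map_mul]
      exact (Subgroup.mem_map_iff_mem φ.injective).trans
        ((Subgroup.mem_normalizer_iff.1 hg x).trans (Subgroup.mem_map_iff_mem φ.injective).symm)
    rw [h] at hg'
    exact (Subgroup.mem_map_iff_mem φ.injective).1 hg'

end Cfsg.Agent.S4073
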