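import Cfsg.Statements.S4074
import Mathlib
import Cfsg.Agent.Lib.GS.DihedralSub

set_option autoImplicit false
open Cfsg

namespace Cfsg.Agent.S4074


/-- For n > 2, every non-abelian subgroup of the dihedral group of order 2n is self-normalizing if and only if n = 4 or n is odd. -/
theorem result (n : ℕ) (hn : 2 < n) :
    (∀ H : Subgroup (DihedralGroup n), ¬ IsMulCommutative H → Subgroup.normalizer (H : Set (DihedralGroup n)) = H) ↔
    (n = 4 ∨ Odd n) := by
  haveI : NeZero n := ⟨by omega⟩
  open DihedralGroup Cfsg.Agent.Lib.GS.DihedralSub in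
  constructor
  · intro hall
    by_contra! hcon
    obtain ⟨h4, hodd⟩ := hcon
    have hev : 2 ∣ n := even_iff_two_dvd.1 (Nat.not_odd_iff_even.1 hodd)
    set f : ZMod n →+ ZMod 2 := (ZMod.castHom hev (ZMod 2)).toAddMonoidHom with hf
    have h2 : (2 : ZMod n) ∈ f.ker := by
      rw [AddMonoidHom.mem_ker, hf]
      simp only [RingHom.toAddMonoidHom_eq_coe, AddMonoidHom.coe_coe, map_ofNat]
      rfl
    have hnc := dih_not_commutative f.ker h2 (by
      rw [show (2 : ZMod n) + 2 = ((4 : ℕ) : ZMod n) by norm_num, Ne, ZMod.natCast_eq_zero_iff]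
      intro h
      have := Nat.le_of_dvd (by norm_num) h
      interval_cases n <;> omega)
    have hN := hall _ hnc
    have hnorm : (dih f.ker).Normal := by
      refine ⟨?_⟩
      rintro (a | a) ha (g | g)
      all_goals simp only [inv_r, inv_sr, r_mul_r, r_mul_sr, sr_mul_r, sr_mul_sr, r_mem_dih, sr_mem_dih,
        AddMonoidHom.mem_ker, map_sub, map_add, map_neg] at ha ⊢
      all_goals generalize f g = u at ha ⊢
      all_goals rw [ha]
      all_goals revert u
      all_goals decide
    rw [Subgroup.normalizer_eq_top_iff.2 hnorm] at hN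
    have h1 : (1 : ZMod n) ∈ f.ker := by
      rw [← r_mem_dih, ← hN]; exact Subgroup.mem_top _
    rw [AddMonoidHom.mem_ker, hf] at h1
    have h1' : (ZMod.castHom hev (ZMod 2)) 1 = 0 := h1
    rw [map_one] at h1'
    exact one_ne_zero h1'
  · intro hn' H hH
    refine le_antisymm (fun x hx => ?_) Subgroup.le_normalizer
    obtain ⟨i, j, hi, hj, hj0⟩ := exists_of_not_isCyclic H fun h => hH (by
      obtain ⟨g, hg⟩ := h.exists_generator
      refine ⟨⟨fun a b => ?_⟩⟩
      obtain ⟨i, rfl⟩ := Subgroup.mem_zpowers_iff.1 (hg a)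
      obtain ⟨j, rfl⟩ := Subgroup.mem_zpowers_iff.1 (hg b)
      exact (Commute.zpow_zpow_self g i j).eq)
    rcases hn' with rfl | hodd
    · suffices H = ⊤ by rw [this]; exact Subgroup.mem_top _
      by_contra hne
      have hidx : H.index ≠ 1 := fun h => hne (Subgroup.index_eq_one.1 h)
      have hc := H.card_mul_index
      rw [DihedralGroup.nat_card] at hc
      have hd : Nat.card H ∣ 4 := by
        obtain ⟨s, hs, hs'⟩ := (Nat.dvd_prime_pow Nat.prime_two (m := 3)).1 ⟨H.index, hc.symm⟩
        rw [hs']
        rcases Nat.lt_or_ge s 3 with hlt | hge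
        · exact (pow_dvd_pow 2 (show s ≤ 2 by omega))
        · exfalso
          obtain rfl : s = 3 := by omega
          rw [hs'] at hc
          apply hidx
          norm_num at hc ⊢
          omega
      obtain ⟨s, hs, hs'⟩ := (Nat.dvd_prime_pow Nat.prime_two (m := 2)).1 hd
      haveI : Fact (Nat.Prime 2) := ⟨Nat.prime_two⟩
      interval_cases s
      · haveI := (Nat.card_eq_one_iff_unique.1 hs').1
        exact hH ⟨⟨fun a b => Subsingleton.elim _ _⟩⟩
      · haveI := isCyclic_of_prime_card (α := H) (p := 2) hs'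
        obtain ⟨g, hg⟩ := IsCyclic.exists_generator (α := H)
        refine hH ⟨⟨fun a b => ?_⟩⟩
        obtain ⟨i, rfl⟩ := Subgroup.mem_zpowers_iff.1 (hg a)
        obtain ⟨j, rfl⟩ := Subgroup.mem_zpowers_iff.1 (hg b)
        exact (Commute.zpow_zpow_self g i j).eq
      · exact hH (IsPGroup.isMulCommutative_of_card_eq_prime_sq hs')
    · rw [Subgroup.mem_normalizer_iff] at hx
      have h1 := (hx (sr i)).1 hi
      rcases x with k | k
      · rw [inv_r, r_mul_sr, sr_mul_r] at h1
        have h2 : r ((-k) + (-k)) ∈ H := by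
          rw [show -k + -k = (i - k + -k) - i by ring, ← sr_mul_sr]
          exact mul_mem hi h1
        have := half_mem_zmod hodd (rot H) h2
        simpa using H.inv_mem this
      · rw [inv_sr, sr_mul_sr, r_mul_sr] at h1
        have h2 : r ((k - i) + (k - i)) ∈ H := by
          rw [show k - i + (k - i) = (k - (i - k)) - i by ring, ← sr_mul_sr]
          exact mul_mem hi h1
        rw [show k = i + (k - i) by ring, ← sr_mul_r]
        exact mul_mem hi (half_mem_zmod hodd (rot H) h2)

end Cfsg.Agent.S4074
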