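import Cfsg.Statements.S4075
import Mathlib
import Cfsg.Agent.Lib.GS.Sylow

set_option autoImplicit false
open Cfsg

namespace Cfsg.Agent.S4075


/-- Let G be a finite nilpotent group. Every non-abelian subgroup of G is self-normalizing if and only if G is abelian or G is a minimal non-abelian p-group for some prime p (non-abelian of prime-power order with every proper subgroup abelian). -/
theorem result {G : Type*} [Group G] [Finite G]
    [Group.IsNilpotent G] :
    (∀ H : Subgroup G, ¬ IsMulCommutative H → Subgroup.normalizer (H : Set G) = H) ↔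
    (IsMulCommutative G ∨ (IsPrimePow (Nat.card G) ∧ ¬ IsMulCommutative G ∧ ∀ H : Subgroup G, H ≠ ⊤ → IsMulCommutative H)) := by
  constructor
  · intro hall
    refine or_iff_not_imp_left.2 fun hna => ?_
    have hsub : ∀ H : Subgroup G, H ≠ ⊤ → IsMulCommutative H := by
      intro H hH
      by_contra h
      exact (Group.normalizerCondition_of_isNilpotent H (lt_top_iff_ne_top.2 hH)).ne' (hall H h)
    refine ⟨?_, hna, hsub⟩
    by_contra hpp
    have hnormal := ((Group.isNilpotent_of_finite_tfae (G := G)).out 0 3 rfl rfl).mp ‹Group.IsNilpotent G›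
    have hcent : ∀ x : G, (∃ q n : ℕ, q.Prime ∧ orderOf x = q ^ n) → x ∈ Subgroup.center G := by
      rintro x ⟨q, n, hq, hx⟩
      have hc : Subgroup.centralizer ({x} : Set G) = ⊤ := by
        refine Cfsg.Agent.Lib.GS.eq_top_of_prime_power_elements fun y r m hr hy => ?_
        rw [Subgroup.mem_centralizer_singleton_iff]
        by_cases hqr : q = r
        · subst hqr
          haveI := Fact.mk hq
          obtain ⟨Q⟩ : Nonempty (Sylow q G) := inferInstance
          have hne : (Q : Subgroup G) ≠ ⊤ := by
            intro htop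
            obtain ⟨k, hk⟩ := IsPGroup.iff_card.1 Q.2
            rw [htop, Subgroup.card_top] at hk
            rcases Nat.eq_zero_or_pos k with rfl | hk0
            · haveI := (Nat.card_eq_one_iff_unique.1 hk).1
              exact hna ⟨⟨fun a b => Subsingleton.elim _ _⟩⟩
            · exact hpp ⟨q, k, hq.prime, hk0, hk.symm⟩
          exact (congrArg Subtype.val ((hsub _ hne).1.1
            ⟨y, Cfsg.Agent.Lib.GS.mem_of_normal_sylow Q (hnormal q ‹_› Q) hy⟩
            ⟨x, Cfsg.Agent.Lib.GS.mem_of_normal_sylow Q (hnormal q ‹_› Q) hx⟩))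
        · exact (Cfsg.Agent.Lib.GS.commute_of_nilpotent ‹_› hq hr hqr hx hy).eq.symm
      rw [Subgroup.mem_center_iff]
      intro y
      have hy : y ∈ Subgroup.centralizer ({x} : Set G) := by rw [hc]; exact Subgroup.mem_top y
      exact Subgroup.mem_centralizer_singleton_iff.1 hy
    have htop : Subgroup.center G = ⊤ :=
      Cfsg.Agent.Lib.GS.eq_top_of_prime_power_elements fun y r m hr hy => hcent y ⟨r, m, hr, hy⟩
    exact hna ⟨⟨fun a b => Subgroup.mem_center_iff.1 (htop ▸ Subgroup.mem_top b) a⟩⟩
  · rintro (hab | ⟨-, -, hsub⟩) H hH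
    · exact absurd (⟨⟨fun a b => Subtype.ext (hab.1.1 _ _)⟩⟩ : IsMulCommutative H) hH
    · obtain rfl : H = ⊤ := by_contra fun h => hH (hsub H h)
      exact top_le_iff.1 Subgroup.le_normalizer

end Cfsg.Agent.S4075
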