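import Cfsg.Statements.S4079
import Cfsg.Agent.Lib.LocalP2.MetaOddOmega
import Cfsg.Agent.Lib.LocalP2.MaxClassUpper
import Cfsg.Agent.Lib.UniqueInvolution
import Cfsg.Agent.Lib.GenStruct.RudvalisType

set_option autoImplicit false
open Cfsg

namespace Cfsg.Agent.S4079

universe u

open Subgroup
open scoped commutatorElement
open Cfsg.Agent.Lib
open Cfsg.Agent.Lib.LocalP2.MetaOdd

/-- A small centralizer forces maximal class. -/
theorem class_of_small_centralizer {p : ℕ} [hp : Fact p.Prime] : ∀ (k : ℕ) {S : Type u} [Group S] [Finite S],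
    Nat.card S = p ^ k → 2 ≤ k → ∀ x : S, Nat.card ↥(centralizer ({x} : Set S)) ≤ p ^ 2 →
    Group.nilpotencyClass S = k - 1 := by
  intro k
  induction k with
  | zero => intro S _ _ _ h; omega
  | succ k ih =>
    intro S _ _ hS hk x hx
    have hP : IsPGroup p S := IsPGroup.of_card hS
    haveI := hP.isNilpotent
    haveI : Nontrivial S := Finite.one_lt_card_iff_nontrivial.1 (hS ▸ Nat.one_lt_pow (by omega) hp.out.one_lt)
    have hq : Nat.card (center S) * Nat.card (S ⧸ center S) = p ^ (k + 1) := by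
      rw [← hS, mul_comm]; exact (center S).card_eq_card_quotient_mul_card_subgroup.symm
    rw [Group.nilpotencyClass_eq_quotient_center_plus_one]
    by_cases hk1 : k = 1
    · subst hk1
      haveI : IsMulCommutative S := IsPGroup.isMulCommutative_of_card_eq_prime_sq hS
      have : center S = ⊤ := center_eq_top
      haveI : Subsingleton (S ⧸ center S) := QuotientGroup.subsingleton_iff.2 this
      rw [Group.nilpotencyClass_zero_iff_subsingleton.2 inferInstance]
    have hxZ : x ∉ center S := fun h => by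
      have : centralizer ({x} : Set S) = ⊤ := by
        rw [centralizer_eq_top_iff_subset]; exact Set.singleton_subset_iff.2 h
      rw [this, Subgroup.card_top, hS] at hx
      exact absurd ((Nat.pow_le_pow_iff_right hp.out.one_lt).1 hx) (by omega)
    have hlt : center S < centralizer ({x} : Set S) :=
      lt_of_le_of_ne (fun z hz => mem_centralizer_singleton_iff.2 (mem_center_iff.1 hz x).symm)
        fun e => hxZ (e ▸ mem_centralizer_singleton_iff.2 rfl)
    have hZ : Nat.card (center S) = p := by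
      obtain ⟨i, hi⟩ := IsPGroup.iff_card.1 (hP.to_subgroup (center S))
      have h1 := (Thompson.card_mul_p_le hP hlt).trans hx
      rw [hi, pow_two] at h1
      have h2 := (Nat.le_of_mul_le_mul_left h1 hp.out.pos)
      rcases i with _ | _ | i
      · haveI := hP.center_nontrivial
        exact absurd hi (by rw [pow_zero]; exact (Finite.one_lt_card).ne')
      · rw [hi, pow_one]
      · exact absurd h2 (not_le.2 (by
          calc p = p ^ 1 := (pow_one p).symm
            _ < p ^ (i + 1 + 1) := Nat.pow_lt_pow_right hp.out.one_lt (by omega)))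
    have hQ : Nat.card (S ⧸ center S) = p ^ k := by
      rw [hZ, pow_succ'] at hq
      exact Nat.eq_of_mul_eq_mul_left hp.out.pos hq
    set π := QuotientGroup.mk' (center S)
    set P := (centralizer ({π x} : Set (S ⧸ center S))).comap π with hPdef
    have hmem : ∀ g ∈ P, ⁅g, x⁆ ∈ center S := fun g hg => by
      rw [hPdef, mem_comap, mem_centralizer_singleton_iff] at hg
      rw [← QuotientGroup.eq_one_iff]
      show π ⁅g, x⁆ = 1
      rw [map_commutatorElement, commutatorElement_eq_one_iff_mul_comm, hg]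
    let f : P → center S := fun g => ⟨⁅(g : S), x⁆, hmem g g.2⟩
    have hfib : ∀ g g' : P, f g = f g' → (g' : S)⁻¹ * g ∈ centralizer ({x} : Set S) := fun g g' h => by
      have e : (g : S) * x * (g : S)⁻¹ * x⁻¹ = g' * x * (g' : S)⁻¹ * x⁻¹ := congrArg Subtype.val h
      rw [mul_left_inj] at e
      rw [mem_centralizer_singleton_iff]
      calc (g' : S)⁻¹ * g * x = (g' : S)⁻¹ * ((g : S) * x * (g : S)⁻¹) * g := by group
        _ = x * ((g' : S)⁻¹ * g) := by rw [e]; group
    have hPle : Nat.card P ≤ p * p ^ 2 := by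
      refine le_trans (Nat.card_le_card_of_injective (fun g => (f g, (⟨((Function.invFun f (f g) : P) : S)⁻¹ * g,
        hfib _ _ (Function.invFun_eq ⟨g, rfl⟩).symm⟩ : centralizer ({x} : Set S)))) ?_) ?_
      · intro g g' h
        simp only [Prod.mk.injEq, Subtype.mk.injEq] at h
        obtain ⟨h1, h2⟩ := h
        rw [h1] at h2
        exact Subtype.ext (mul_left_cancel h2)
      · rw [Nat.card_prod, hZ]; exact Nat.mul_le_mul_left _ hx
    have hC : Nat.card ↥(centralizer ({π x} : Set (S ⧸ center S))) ≤ p ^ 2 := by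
      have h1 := P.card_mul_index
      rw [hPdef, index_comap_of_surjective _ (QuotientGroup.mk'_surjective _), ← hPdef, hS, pow_succ', ← hQ,
        ← (centralizer ({π x} : Set (S ⧸ center S))).card_mul_index] at h1
      have h2 : Nat.card P = p * Nat.card ↥(centralizer ({π x} : Set (S ⧸ center S))) :=
        Nat.eq_of_mul_eq_mul_right (Nat.pos_of_ne_zero index_ne_zero_of_finite) (h1.trans (mul_assoc _ _ _).symm)
      rw [h2] at hPle
      exact Nat.le_of_mul_le_mul_left hPle hp.out.pos
    rw [ih hQ (by omega) (π x) hC]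
    omega

/-- In maximal class, a normal subgroup of order at least `p^2` contains the second centre. -/
theorem ucs_two_le {p n : ℕ} [hp : Fact p.Prime] {S : Type*} [Group S] [Finite S] (hS : Nat.card S = p ^ n)
    (hn : 4 ≤ n) (hc : Group.nilpotencyClass S = n - 1) (N : Subgroup S) [hN : N.Normal]
    (h : p ^ 2 ≤ Nat.card N) : Subgroup.upperCentralSeries S 2 ≤ N := by
  have hP : IsPGroup p S := IsPGroup.of_card hS
  have hN1 : N ≠ ⊥ := fun e => by
    rw [e, Subgroup.card_bot] at h
    exact (Nat.one_lt_pow two_ne_zero hp.out.one_lt).not_ge h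
  have hZ : Nat.card (center S) = p := by
    rw [← Subgroup.upperCentralSeries_one, LocalP2.card_ucs_of_maxClass hS (by omega) hc (by omega), pow_one]
  have hZ2 : Nat.card (Subgroup.upperCentralSeries S 2) = p ^ 2 :=
    LocalP2.card_ucs_of_maxClass hS (by omega) hc (i := 2) (by omega)
  have hZN : center S ≤ N := by
    have hne : N ⊓ center S ≠ ⊥ := fun e => hN1 (RudvalisType.eq_bot_of_inf_center_eq_bot' hP N e)
    refine le_trans (le_of_eq ?_) (inf_le_left : N ⊓ center S ≤ N)
    refine (Subgroup.eq_of_le_of_card_ge inf_le_right ?_).symm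
    rw [hZ]
    obtain ⟨i, hi⟩ := IsPGroup.iff_card.1 (hP.to_subgroup (N ⊓ center S))
    rw [hi]
    exact Nat.le_self_pow (fun h0 => hne (Subgroup.eq_bot_of_card_eq _ (by rw [hi, h0, pow_zero]))) p
  set π := QuotientGroup.mk' (center S)
  haveI : (N.map π).Normal := hN.map π (QuotientGroup.mk'_surjective _)
  have hne : N.map π ⊓ center (S ⧸ center S) ≠ ⊥ := fun e => by
    have h1 := RudvalisType.eq_bot_of_inf_center_eq_bot' (hP.to_quotient _) _ e
    rw [Subgroup.map_eq_bot_iff, QuotientGroup.ker_mk'] at h1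
    rw [le_antisymm h1 hZN, hZ, pow_two] at h
    exact (lt_mul_self hp.out.one_lt).not_ge h
  obtain ⟨⟨q, hq⟩, hq1⟩ := (Subgroup.ne_bot_iff_exists_ne_one).1 hne
  obtain ⟨⟨y, hy, rfl⟩, hqc⟩ := hq
  have hy2 : y ∈ Subgroup.upperCentralSeries S 2 := by
    rw [show (2 : ℕ) = Nat.succ 1 from rfl, ← Subgroup.comap_upperCentralSeries_quotient_center, Subgroup.upperCentralSeries_one]
    exact hqc
  have hlt : center S < N ⊓ Subgroup.upperCentralSeries S 2 := by
    refine lt_of_le_of_ne (le_inf hZN (Subgroup.upperCentralSeries_one (G := S) ▸ Subgroup.upperCentralSeries_mono S one_le_two)) fun e => hq1 ?_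
    exact Subtype.ext ((QuotientGroup.eq_one_iff y).2 (e ▸ ⟨hy, hy2⟩))
  refine le_trans (le_of_eq (Subgroup.eq_of_le_of_card_ge inf_le_right ?_).symm) (inf_le_left : N ⊓ Subgroup.upperCentralSeries S 2 ≤ N)
  rw [hZ2, pow_two]
  exact (le_of_eq (by rw [hZ])).trans (Thompson.card_mul_p_le hP hlt)

/-- A noncyclic odd `p`-group has at least `p^2` solutions of `x^p = 1` in each subgroup containing all of them. -/
theorem sq_le_of_noncyclic {p : ℕ} [hp : Fact p.Prime] (hp2 : p ≠ 2) {Q : Type*} [Group Q] [Finite Q]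
    (hQ : IsPGroup p Q) (hnc : ¬ IsCyclic Q) (W : Subgroup Q) (hW : ∀ x : Q, x ^ p = 1 → x ∈ W) :
    p ^ 2 ≤ Nat.card W := by
  obtain ⟨H, K, hH, hK, hne⟩ : ∃ H K : Subgroup Q, Nat.card H = p ∧ Nat.card K = p ∧ H ≠ K := by
    by_contra! h
    rcases UniqueInvolution.isCyclic_or_quaternion hQ h with h' | h'
    exacts [hnc h', hp2 h'.1]
  have hsub : ∀ (H : Subgroup Q), Nat.card H = p → H ≤ W := fun H hH x hx => hW x (by
    have := Subgroup.orderOf_dvd_natCard _ hx
    rw [hH] at this
    exact orderOf_dvd_iff_pow_eq_one.1 this)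
  have hlt : H < W := by
    refine lt_of_le_of_ne (hsub H hH) fun e => hne ?_
    exact (Subgroup.eq_of_le_of_card_ge (e ▸ hsub K hK) (by rw [hH, hK])).symm
  have := Thompson.card_mul_p_le hQ hlt
  rwa [hH, ← pow_two] at this


/-- Let p be an odd prime and L a finite metacyclic p-group with no cyclic subgroup of index p, and let a be an automorphism of L of order p. Then a moves some element of order p of L if and only if p = 3 and the semidirect product L ⋊ ⟨a⟩ (of order 3·#L) has maximal class, i.e. nilpotency class m where #L = 3^m. -/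
theorem result {L : Type*} [Group L] [Finite L] {p : ℕ} [Fact p.Prime]
    (hp : p ≠ 2) (hL : IsPGroup p L) (hmc : Cfsg.IsMetacyclic L) (hnc : ∀ C : Subgroup L, IsCyclic C → C.index ≠ p)
    (a : MulAut L) (ha : orderOf a = p) (m : ℕ) (hm : Nat.card L = p ^ m) :
    (∃ x : L, orderOf x = p ∧ a x ≠ x) ↔
    (p = 3 ∧ Group.nilpotencyClass (SemidirectProduct L ↥(Subgroup.zpowers a) (Subgroup.zpowers a).subtype) = m) := by
  have hmc' := hmc
  obtain ⟨D⟩ := Metacyclic.exists_params hp hL hmc
  have hp1 := (Fact.out : p.Prime).one_lt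
  have hp0 := (Fact.out : p.Prime).pos
  let E := omegaSubgroup D 1
  let W := omegaSubgroup D 2
  have hE : ∀ x, x ∈ E ↔ x ^ p = 1 := fun x => by show x ^ p ^ 1 = 1 ↔ _; rw [pow_one]
  have hW : ∀ x, x ∈ W ↔ x ^ (p * p) = 1 := fun x => by show x ^ p ^ 2 = 1 ↔ _; rw [pow_two]
  have hEW : E ≤ W := fun x hx => by rw [hW, pow_mul, (hE x).1 hx, one_pow]
  have hncyc : ¬ IsCyclic L := fun h => by
    haveI := h
    by_cases hm0 : m = 0
    · haveI : Subsingleton L := (Nat.card_eq_one_iff_unique.1 (by rw [hm, hm0, pow_zero])).1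
      have : a = 1 := MulEquiv.ext fun x => Subsingleton.elim _ _
      rw [this, orderOf_one] at ha
      exact hp1.ne ha
    · obtain ⟨C, hC⟩ := Sylow.exists_subgroup_card_pow_prime p (G := L) (n := m - 1) (hm ▸ pow_dvd_pow p (Nat.sub_le _ _))
      refine hnc C inferInstance (Nat.eq_of_mul_eq_mul_left (pow_pos hp0 (m - 1)) ?_)
      rw [← pow_succ, ← hC, C.card_mul_index, hm, show m - 1 + 1 = m by omega]
  have hEc : Nat.card E = p ^ 2 := le_antisymm
    (card_le_sq hp hL hmc E fun x hx => (hE x).1 hx) (sq_le_of_noncyclic hp hL hncyc E fun x hx => (hE x).2 hx)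
  haveI hEn : E.Normal := ⟨fun x hx g => (hE _).2 (by rw [conj_pow, (hE x).1 hx, mul_one, mul_inv_cancel])⟩
  have hQnc : ¬ IsCyclic (L ⧸ E) := fun h => by
    haveI := h
    obtain ⟨gq, hgq⟩ := IsCyclic.exists_generator (α := L ⧸ E)
    obtain ⟨g, rfl⟩ := QuotientGroup.mk_surjective gq
    have hord : orderOf (g : L ⧸ E) = E.index := (orderOf_eq_card_of_forall_mem_zpowers hgq).trans rfl
    have hidx := E.card_mul_index
    rw [hEc, hm] at hidx
    have hm2 : 2 ≤ m := (Nat.pow_le_pow_iff_right hp1).1 (hm ▸ hEc ▸ E.card_le_card_group)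
    have hi : E.index = p ^ (m - 2) := Nat.eq_of_mul_eq_mul_left (pow_pos hp0 2)
      (hidx.trans (by rw [← pow_add]; congr 1; omega))
    rw [hi] at hord
    have hgE : g ^ p ^ (m - 2) ∈ E := by
      rw [← QuotientGroup.eq_one_iff, QuotientGroup.mk_pow, ← hord, pow_orderOf_eq_one]
    by_cases hm3 : m = 2
    · subst hm3
      obtain ⟨C, hC⟩ := Sylow.exists_subgroup_card_pow_prime p (G := L) (n := 1) (hm ▸ pow_dvd_pow p one_le_two)
      rw [pow_one] at hC
      refine hnc C (isCyclic_of_prime_card hC) (Nat.eq_of_mul_eq_mul_left hp0 ?_)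
      conv_lhs => rw [← hC]
      rw [C.card_mul_index, hm, pow_two]
    · have hne : g ^ p ^ (m - 2) ≠ 1 := fun h1 => by
        have h2 : g ^ p ^ (m - 3) ∈ E := (hE _).2 (by rw [← pow_mul, ← pow_succ, show m - 3 + 1 = m - 2 by omega, h1])
        rw [← QuotientGroup.eq_one_iff, QuotientGroup.mk_pow, ← orderOf_dvd_iff_pow_eq_one, hord,
          Nat.pow_dvd_pow_iff_le_right hp1] at h2
        omega
      have hog : orderOf g = p ^ (m - 1) := by
        have := orderOf_eq_prime_pow (p := p) (n := m - 2) hne (by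
          rw [pow_succ, pow_mul]; exact (hE _).1 hgE)
        rw [this]; congr 1; omega
      refine hnc (zpowers g) inferInstance (Nat.eq_of_mul_eq_mul_left (pow_pos hp0 (m - 1)) ?_)
      conv_lhs => rw [← hog, ← Nat.card_zpowers, (zpowers g).card_mul_index, hm]
      rw [← pow_succ, show m - 1 + 1 = m by omega]
  have hWc4 : p ^ 4 ≤ Nat.card W := by
    have h1 := sq_le_of_noncyclic hp (hL.to_quotient E) hQnc (W.map (QuotientGroup.mk' E)) fun x hx => by
      obtain ⟨y, rfl⟩ := QuotientGroup.mk_surjective x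
      rw [← QuotientGroup.mk_pow, QuotientGroup.eq_one_iff, hE] at hx
      exact ⟨y, (hW y).2 (by rw [pow_mul]; exact hx), rfl⟩
    have h2 := (W.map (QuotientGroup.mk' E)).card_mul_index
    have h3 := ((W.map (QuotientGroup.mk' E)).comap (QuotientGroup.mk' E)).card_mul_index
    rw [index_comap_of_surjective _ (QuotientGroup.mk'_surjective _), comap_map_eq, QuotientGroup.ker_mk',
      sup_eq_left.2 hEW, E.card_eq_card_quotient_mul_card_subgroup, hEc, ← h2] at h3
    have h4 : Nat.card W = Nat.card (W.map (QuotientGroup.mk' E)) * p ^ 2 :=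
      Nat.eq_of_mul_eq_mul_right (Nat.pos_of_ne_zero index_ne_zero_of_finite) (h3.trans (by ring))
    rw [h4, show p ^ 4 = p ^ 2 * p ^ 2 by ring]
    exact Nat.mul_le_mul_right _ h1
  have hm4 : 4 ≤ m := (Nat.pow_le_pow_iff_right hp1).1 (hm ▸ hWc4.trans W.card_le_card_group)
  -- the power map `W → E`
  let π : W →* E :=
    { toFun := fun x => ⟨(x : L) ^ p, (hE _).2 (by rw [← pow_mul]; exact (hW _).1 x.2)⟩
      map_one' := Subtype.ext (one_pow p)
      map_mul' := fun x y => Subtype.ext (by
        have := mul_pow_of_pow_eq_one hL hp hmc 1 (x := (x : L)) (y := (y : L)) x.2 y.2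
        rwa [pow_one] at this) }
  have hπker : π.ker = E.subgroupOf W := by
    ext x
    rw [MonoidHom.mem_ker, mem_subgroupOf, hE, Subtype.ext_iff]
    rfl
  have hπs : Function.Surjective π := by
    rw [← MonoidHom.range_eq_top]
    refine eq_top_of_le_card _ ?_
    have h1 := π.ker.card_mul_index
    rw [index_ker, hπker, Nat.card_congr (subgroupOfEquivOfLe hEW).toEquiv, hEc] at h1
    refine Nat.le_of_mul_le_mul_left ?_ (pow_pos hp0 2)
    rw [h1, hEc, ← pow_add]
    exact hWc4
  have hcentral : ∀ e ∈ E, ∀ w ∈ W, e * w = w * e := by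
    intro e he w hw
    obtain ⟨⟨y, hy⟩, hye⟩ := hπs ⟨e, he⟩
    have hye' : y ^ p = e := congrArg Subtype.val hye
    obtain ⟨s, hs⟩ := commutator_pow_rel D y w
    rw [hye'] at hs
    have hc : ⁅y, w⁆ ∈ E := by
      have hab : ∀ u v : E, u * v = v * u := by
        letI := IsPGroup.commGroupOfCardEqPrimeSq hEc
        exact fun u v => mul_comm u v
      have h1 : π ⁅(⟨y, hy⟩ : W), ⟨w, hw⟩⁆ = 1 := by
        rw [map_commutatorElement, commutatorElement_eq_one_iff_mul_comm]; exact hab _ _
      have h2 : (⁅(⟨y, hy⟩ : W), ⟨w, hw⟩⁆ : W) ∈ E.subgroupOf W := hπker ▸ h1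
      exact h2
    rw [(hE _).1 hc, one_zpow, commutatorElement_eq_one_iff_mul_comm] at hs
    exact hs
  have hiter : ∀ n, (a ^ n) = (a : MulAut L) ^ n := fun n => rfl
  have hap : ∀ x, (a ^ p) x = x := fun x => by rw [← ha, pow_orderOf_eq_one]; rfl
  have hpowfix : ∀ (n : ℕ) (x : L), a x = x → (a ^ n) x = x := by
    intro n x hx
    induction n with
    | zero => rfl
    | succ n ih => rw [pow_succ', MulAut.mul_apply, ih, hx]
  -- the semidirect product
  let φ := (zpowers a).subtype
  have hScard : Nat.card (SemidirectProduct L ↥(zpowers a) φ) = p ^ (m + 1) := by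
    rw [SemidirectProduct.card, hm, Nat.card_zpowers, ha, pow_succ]
  haveI : Finite (SemidirectProduct L ↥(zpowers a) φ) := Nat.finite_of_card_ne_zero (hScard ▸ (pow_pos hp0 _).ne')
  constructor
  · rintro ⟨x₀, hx₀, hax₀⟩
    have he₂ : x₀ ∈ E := (hE _).2 (hx₀ ▸ pow_orderOf_eq_one x₀)
    have haE : ∀ e ∈ E, a e ∈ E := fun e he => (hE _).2 (by rw [← map_pow, (hE e).1 he, map_one])
    have haW : ∀ e ∈ W, a e ∈ W := fun e he => (hW _).2 (by rw [← map_pow, (hW e).1 he, map_one])
    -- `δ` on `E`
    let δ : E →* L :=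
      { toFun := fun e => (e : L)⁻¹ * a e
        map_one' := by simp
        map_mul' := fun u v => by
          show ((u : L) * v)⁻¹ * a ((u : L) * v) = _
          rw [map_mul, mul_inv_rev, show (v : L)⁻¹ * (u : L)⁻¹ * (a u * a v) = (v : L)⁻¹ * ((u : L)⁻¹ * a u) * a v by group,
            hcentral (v : L)⁻¹ (inv_mem v.2) _ (hEW (mul_mem (inv_mem u.2) (haE _ u.2))), mul_assoc] }
    have hδE : ∀ e, δ e ∈ E := fun e => mul_mem (inv_mem e.2) (haE _ e.2)
    have hδk : δ.ker ≠ ⊥ := by
      intro hbot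
      have hinj : Function.Injective δ := (MonoidHom.ker_eq_bot_iff δ).1 hbot
      have hfix : ∀ e ∈ E, a e = e → e = 1 := fun e he h => congrArg Subtype.val
        (hinj (show δ ⟨e, he⟩ = δ 1 by rw [map_one]; show e⁻¹ * a e = 1; rw [h, inv_mul_cancel]))
      letI : MulAction (zpowers a) E :=
        { smul := fun g e => ⟨(g : MulAut L) e, (hE _).2 (by rw [← map_pow, (hE _).1 e.2, map_one])⟩
          one_smul := fun e => rfl
          mul_smul := fun g h e => rfl }
      have hpg : IsPGroup p (zpowers a) := IsPGroup.of_card (n := 1) (by rw [Nat.card_zpowers, ha, pow_one])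
      obtain ⟨b, hb, hb1⟩ := hpg.exists_fixed_point_of_prime_dvd_card_of_fixed_point E
        (by rw [hEc]; exact dvd_pow_self p two_ne_zero)
        (show (1 : E) ∈ MulAction.fixedPoints (zpowers a) E from fun g => Subtype.ext (map_one _))
      exact hb1 (Subtype.ext (hfix b b.2 (congrArg Subtype.val (hb ⟨a, mem_zpowers a⟩))).symm)
    have hδkc : Nat.card δ.ker = p := by
      obtain ⟨i, hi, hie⟩ := (Nat.dvd_prime_pow Fact.out).1 (hEc ▸ δ.ker.card_subgroup_dvd_card)
      have h0 : i ≠ 0 := fun h => hδk (Subgroup.eq_bot_of_card_eq _ (by rw [hie, h, pow_zero]))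
      have h2 : i ≠ 2 := fun h => hax₀ (by
        have htop : δ.ker = ⊤ := Subgroup.eq_top_of_card_eq _ (by rw [hie, h, hEc])
        have h1 : δ ⟨x₀, he₂⟩ = 1 := MonoidHom.mem_ker.1 (htop ▸ mem_top _)
        exact (inv_mul_eq_one.1 h1).symm)
      obtain rfl : i = 1 := by omega
      rw [hie, pow_one]
    have hrc : Nat.card δ.range = p := by
      have := δ.ker.card_mul_index
      rw [index_ker, hδkc, hEc, pow_two] at this
      exact Nat.eq_of_mul_eq_mul_left hp0 this
    set f := δ ⟨x₀, he₂⟩ with hf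
    have hfne : f ≠ 1 := fun h => hax₀ (inv_mul_eq_one.1 h).symm
    have hfE : f ∈ E := hδE _
    have hof : orderOf f = p := orderOf_eq_prime ((hE f).1 hfE) hfne
    have hrz : δ.range = zpowers f := by
      refine (Subgroup.eq_of_le_of_card_ge (zpowers_le.2 (show f ∈ δ.range from ⟨_, rfl⟩)) ?_).symm
      rw [hrc, Nat.card_zpowers, hof]
    -- `f` is fixed
    have hff : a f = f := by
      have hmem : a f ∈ δ.range := ⟨⟨a x₀, haE _ he₂⟩, by
        show (a x₀)⁻¹ * a (a x₀) = a (x₀⁻¹ * a x₀); rw [map_mul, map_inv]⟩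
      rw [hrz] at hmem
      obtain ⟨c, hc⟩ := mem_zpowers_iff.1 hmem
      have hn : ∀ n : ℕ, (a ^ n) f = f ^ (c ^ n) := by
        intro n
        induction n with
        | zero => simp
        | succ n ih => rw [pow_succ' a, MulAut.mul_apply, ih, map_zpow, ← hc, ← zpow_mul, pow_succ']
      have h1 := hn p
      rw [hap] at h1
      have h2 : f ^ (c ^ p - 1) = 1 := by rw [zpow_sub, zpow_one, ← h1, mul_inv_cancel]
      rw [← orderOf_dvd_iff_zpow_eq_one, hof, ← ZMod.intCast_zmod_eq_zero_iff_dvd] at h2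
      push_cast at h2
      rw [ZMod.pow_card, sub_eq_zero] at h2
      have h3 : (p : ℤ) ∣ c - 1 := by
        rw [← ZMod.intCast_zmod_eq_zero_iff_dvd]; push_cast; rw [h2, sub_self]
      rw [← hof, orderOf_dvd_iff_zpow_eq_one, zpow_sub, zpow_one, mul_inv_eq_one] at h3
      rw [← hc, h3]
    have hfixE : ∀ e ∈ E, a e = e → e ∈ zpowers f := fun e he hae => by
      have hk : (⟨e, he⟩ : E) ∈ δ.ker := MonoidHom.mem_ker.2 (show e⁻¹ * a e = 1 by rw [hae, inv_mul_cancel])
      have heq : (zpowers (⟨f, hfE⟩ : E)) = δ.ker := by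
        refine Subgroup.eq_of_le_of_card_ge (zpowers_le.2 (MonoidHom.mem_ker.2
          (show f⁻¹ * a f = 1 by rw [hff, inv_mul_cancel]))) ?_
        rw [hδkc, Nat.card_zpowers, ← Subgroup.orderOf_coe, hof]
      rw [← heq] at hk
      obtain ⟨i, hi⟩ := mem_zpowers_iff.1 hk
      exact mem_zpowers_iff.2 ⟨i, by simpa using congrArg Subtype.val hi⟩
    -- the chain `u → w₀ → g → h`
    obtain ⟨⟨u, hu⟩, huπ⟩ := hπs ⟨x₀, he₂⟩
    have hup : u ^ p = x₀ := congrArg Subtype.val huπ
    set w₀ := u⁻¹ * a u with hw₀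
    have hw₀W : w₀ ∈ W := mul_mem (inv_mem hu) (haW _ hu)
    have hw₀p : w₀ ^ p = f := by
      have h1 := congrArg Subtype.val (π.map_mul (⟨u, hu⟩⁻¹) ⟨a u, haW _ hu⟩)
      change w₀ ^ p = (u⁻¹) ^ p * (a u) ^ p at h1
      rw [h1, inv_pow, ← map_pow, hup]
      rfl
    set g := w₀⁻¹ * a w₀ with hg
    have hgE : g ∈ E := by
      have h1 := congrArg Subtype.val (π.map_mul (⟨w₀, hw₀W⟩⁻¹) ⟨a w₀, haW _ hw₀W⟩)
      change g ^ p = (w₀⁻¹) ^ p * (a w₀) ^ p at h1
      rw [hE, h1, inv_pow, ← map_pow, hw₀p, hff, inv_mul_cancel]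
    set h := δ ⟨g, hgE⟩ with hh
    have hhr : h ∈ zpowers f := hrz ▸ ⟨_, rfl⟩
    have hhE : h ∈ E := hδE _
    have hah : a h = h := by
      obtain ⟨i, hi⟩ := mem_zpowers_iff.1 hhr
      rw [← hi, map_zpow, hff]
    have hau : a u = u * w₀ := by rw [hw₀, mul_inv_cancel_left]
    have haw : a w₀ = w₀ * g := by rw [hg, mul_inv_cancel_left]
    have hag : a g = g * h := by
      show a g = g * (g⁻¹ * a g); rw [mul_inv_cancel_left]
    have hformula : ∀ n : ℕ, (a ^ n) u = u * w₀ ^ n * g ^ n.choose 2 * h ^ n.choose 3 := by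
      intro n
      induction n with
      | zero => simp
      | succ n ih =>
        have c1 : Commute w₀ g := (hcentral g hgE w₀ hw₀W).symm
        have c2 : Commute g h := (hcentral h hhE g (hEW hgE)).symm
        rw [pow_succ' a, MulAut.mul_apply, ih]
        simp only [map_mul, map_pow, hau, haw, hag, hah]
        rw [c1.mul_pow, c2.mul_pow, Nat.choose_succ_succ' n 1, Nat.choose_succ_succ' n 2, Nat.choose_one_right,
          pow_succ' w₀, pow_add, pow_add]
        simp only [mul_assoc]
    have h0 := hformula p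
    rw [hap, mul_assoc, mul_assoc, left_eq_mul] at h0
    rw [hw₀p] at h0
    have hgp : ∀ k, g ^ (p * k) = 1 := fun k => by rw [pow_mul, (hE g).1 hgE, one_pow]
    have hhp : ∀ k, h ^ (p * k) = 1 := fun k => by rw [pow_mul, (hE h).1 hhE, one_pow]
    obtain ⟨k₂, hk₂⟩ := (Fact.out : p.Prime).dvd_choose_self two_ne_zero
      (lt_of_le_of_ne (Fact.out : p.Prime).two_le (Ne.symm hp))
    rw [hk₂, hgp, one_mul] at h0
    have hp3 : p = 3 := by
      by_contra hne
      obtain ⟨k₃, hk₃⟩ := (Fact.out : p.Prime).dvd_choose_self (k := 3) (by norm_num)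
        (by have := (Fact.out : p.Prime).two_le; omega)
      rw [hk₃, hhp, mul_one] at h0
      exact hfne h0
    have hhf : h = f⁻¹ := by
      rw [hp3, Nat.choose_self, pow_one] at h0
      exact eq_inv_of_mul_eq_one_right h0
    have hgF : g ∉ zpowers f := fun hg' => by
      obtain ⟨i, hi⟩ := mem_zpowers_iff.1 hg'
      have : h = 1 := by show g⁻¹ * a g = 1; rw [← hi, map_zpow, hff, inv_mul_cancel]
      rw [hhf, inv_eq_one] at this
      exact hfne this
    -- fixed points of `a` in `W`
    have hK : ∀ w ∈ W, a w = w → w ^ p = 1 := by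
      intro w hw haw'
      have hwp : w ^ p ∈ zpowers f := hfixE _ ((hE _).2 (by rw [← pow_mul]; exact (hW w).1 hw))
        (by rw [map_pow, haw'])
      obtain ⟨k, hk⟩ := mem_zpowers_iff.1 hwp
      by_cases hdk : (p : ℤ) ∣ k
      · rw [← hk, ← orderOf_dvd_iff_zpow_eq_one, hof]; exact hdk
      exfalso
      set e := (w₀ ^ k)⁻¹ * w with he
      have heE : e ∈ E := by
        have h1 := congrArg Subtype.val (π.map_mul ((⟨w₀, hw₀W⟩ : W) ^ k)⁻¹ ⟨w, hw⟩)
        rw [π.map_inv, π.map_zpow] at h1
        change e ^ p = _ at h1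
        rw [hE, h1]
        change ((w₀ ^ p) ^ k)⁻¹ * w ^ p = 1
        rw [hw₀p, hk, inv_mul_cancel]
      have h2 : g ^ k * a e = e := by
        have h3 : a (w₀ ^ k * e) = w₀ ^ k * e := by rw [he, mul_inv_cancel_left, haw']
        rw [map_mul, map_zpow, haw, (Commute.mul_zpow (hcentral g hgE w₀ hw₀W).symm), mul_assoc] at h3
        exact mul_left_cancel h3
      have hgk : g ^ k = (δ ⟨e, heE⟩)⁻¹ := by
        refine eq_inv_of_mul_eq_one_left ?_
        show g ^ k * (e⁻¹ * a e) = 1
        rw [← mul_assoc, hcentral _ (zpow_mem hgE k) e⁻¹ (hEW (inv_mem heE)), mul_assoc, h2, inv_mul_cancel]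
      have hgk' : g ^ k ∈ zpowers f := hgk ▸ inv_mem (hrz ▸ ⟨_, rfl⟩)
      apply hgF
      have hpk : IsCoprime (p : ℤ) k := (Nat.prime_iff_prime_int.1 Fact.out).coprime_iff_not_dvd.2 hdk
      obtain ⟨r, s, hrs⟩ := hpk
      have : g = (g ^ (p : ℤ)) ^ r * (g ^ k) ^ s := by
        rw [← zpow_mul, ← zpow_mul, ← zpow_add, show (p : ℤ) * r + k * s = 1 by linear_combination hrs, zpow_one]
      rw [this, zpow_natCast, (hE g).1 hgE, one_zpow, one_mul]
      exact zpow_mem hgk' s
    have hKall : ∀ x, a x = x → x ∈ zpowers f := by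
      intro x hx
      refine hfixE x ?_ hx
      obtain ⟨j, hj⟩ := IsPGroup.iff_orderOf.1 hL x
      rw [hE]
      by_contra hne
      have hj2 : 2 ≤ j := by
        by_contra! hj1
        apply hne
        rw [← orderOf_dvd_iff_pow_eq_one, hj]
        exact (pow_dvd_pow p (by omega : j ≤ 1)).trans (pow_one p).dvd
      have h1 := hK (x ^ p ^ (j - 2)) ((hW _).2 (by
        rw [← pow_mul, ← pow_two, ← pow_add, show j - 2 + 2 = j by omega, ← hj, pow_orderOf_eq_one]))
        (by rw [map_pow, hx])
      rw [← pow_mul, ← pow_succ, ← orderOf_dvd_iff_pow_eq_one, hj, Nat.pow_dvd_pow_iff_le_right hp1] at h1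
      omega
    refine ⟨hp3, ?_⟩
    have hC : Nat.card ↥(centralizer ({SemidirectProduct.inr (⟨a, mem_zpowers a⟩ : zpowers a)} :
        Set (SemidirectProduct L ↥(zpowers a) φ))) ≤ p ^ 2 := by
      refine le_trans (Nat.card_le_card_of_injective (fun s => ((⟨s.1.left, hKall _ ?_⟩ : zpowers f), s.1.right)) ?_) ?_
      · have := congrArg SemidirectProduct.left (mem_centralizer_singleton_iff.1 s.2)
        simpa [φ] using this.symm
      · intro s s' h
        simp only [Prod.mk.injEq, Subtype.mk.injEq] at h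
        exact Subtype.ext (SemidirectProduct.ext h.1 h.2)
      · rw [Nat.card_prod, Nat.card_zpowers, Nat.card_zpowers, hof, ha, pow_two]
    have := class_of_small_centralizer (m + 1) hScard (by omega) _ hC
    rw [this]; rfl
  · rintro ⟨-, hcl⟩
    by_contra hno
    push Not at hno
    have hfix : ∀ e ∈ E, a e = e := fun e he => by
      by_cases he1 : e = 1
      · rw [he1, map_one]
      · exact hno e (orderOf_eq_prime ((hE e).1 he) he1)
    have hcl' : Group.nilpotencyClass (SemidirectProduct L ↥(zpowers a) φ) = (m + 1) - 1 := by simpa using hcl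
    let ι : L →* SemidirectProduct L ↥(zpowers a) φ := SemidirectProduct.inl
    have hι : Function.Injective ι := SemidirectProduct.inl_injective
    have hnorm : ∀ C : Subgroup L, C.Characteristic → (C.map ι).Normal := by
      intro C hC
      refine ⟨fun y hy s => ?_⟩
      obtain ⟨c, hc, rfl⟩ := hy
      refine ⟨s.left * φ s.right c * s.left⁻¹, (inferInstance : C.Normal).conj_mem _ ?_ _, ?_⟩
      · have := Subgroup.characteristic_iff_map_eq.1 hC (φ s.right)
        rw [← this]
        exact mem_map_of_mem _ hc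
      · show SemidirectProduct.inl _ = s * SemidirectProduct.inl c * s⁻¹
        conv_rhs => rw [← SemidirectProduct.inl_left_mul_inr_right s]
        rw [map_mul, map_mul, SemidirectProduct.inl_aut, map_inv, mul_inv_rev]
        simp only [mul_assoc, map_inv]
    have hcardmap : ∀ C : Subgroup L, Nat.card (C.map ι) = Nat.card C := fun C =>
      (Nat.card_congr (C.equivMapOfInjective ι hι).toEquiv).symm
    have hEchar : E.Characteristic := Subgroup.characteristic_iff_le_comap.2 fun ψ x hx => by
      show ψ x ∈ E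
      rw [hE, ← map_pow, (hE x).1 hx, map_one]
    haveI := hnorm E hEchar
    have hZ2c := LocalP2.card_ucs_of_maxClass hScard (by omega) hcl' (i := 2) (by omega)
    have hE2 : Subgroup.upperCentralSeries (SemidirectProduct L ↥(zpowers a) φ) 2 = E.map ι :=
      Subgroup.eq_of_le_of_card_ge (ucs_two_le hScard (by omega) hcl' _ (by rw [hcardmap, hEc]))
        (by rw [hcardmap, hEc, hZ2c])
    have hbig : ∀ C : Subgroup L, C.Characteristic → p ^ 2 ≤ Nat.card C → E ≤ C := by
      intro C hC hc
      haveI := hnorm C hC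
      have := ucs_two_le hScard (by omega) hcl' (C.map ι) (by rw [hcardmap]; exact hc)
      rw [hE2] at this
      exact (Subgroup.map_le_map_iff_of_injective hι).1 this
    -- the derived subgroup is cyclic, hence small
    have hn1 : D.n ≤ 1 := by
      by_contra! hn
      have hle : E ≤ commutator L := hbig _ inferInstance (by rw [D.card_commutator]; exact Nat.pow_le_pow_right hp0 hn)
      haveI : IsCyclic ↥(commutator L) := by rw [D.commutator_eq]; infer_instance
      haveI : IsCyclic E := isCyclic_of_injective (inclusion hle) (inclusion_injective hle)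
      have h1 : Nat.card E ≤ p := by
        rw [← IsCyclic.exponent_eq_card]
        exact Nat.le_of_dvd hp0 (Monoid.exponent_dvd_of_forall_pow_eq_one fun c => Subtype.ext ((hE _).1 c.2))
      rw [hEc, pow_two] at h1
      exact (lt_mul_self hp1).not_ge h1
    have hZbig : p ^ 2 ≤ Nat.card (center L) := by
      have h1 := D.card_group
      rw [hm] at h1
      have h2 : Nat.card (center L) * p ^ 2 ≥ p ^ 4 := by
        refine le_trans (Nat.pow_le_pow_right hp0 hm4) ?_
        rw [h1]
        exact Nat.mul_le_mul_left _ (Nat.pow_le_pow_right hp0 (by omega))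
      rw [show p ^ 4 = p ^ 2 * p ^ 2 by ring] at h2
      exact Nat.le_of_mul_le_mul_right h2 (pow_pos hp0 2)
    have hEZ : E ≤ center L := hbig _ inferInstance hZbig
    have hle : E.map ι ≤ center _ := by
      rintro _ ⟨e, he, rfl⟩
      rw [mem_center_iff]
      intro s
      have hs : φ s.right e = e := by
        obtain ⟨i, hi⟩ := mem_zpowers_iff.1 s.right.2
        show (s.right : MulAut L) e = e
        rw [← hi]
        exact (Subgroup.zpowers_le.2 (show a ∈ MulAction.stabilizer (MulAut L) e from hfix e he)) ⟨i, rfl⟩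
      apply SemidirectProduct.ext
      · simpa [ι, hs] using mem_center_iff.1 (hEZ he) s.left
      · simp [ι]
    have h1 := Subgroup.card_le_of_le hle
    rw [hcardmap, hEc, ← Subgroup.upperCentralSeries_one, LocalP2.card_ucs_of_maxClass hScard (by omega) hcl' (by omega),
      pow_one, pow_two] at h1
    exact (lt_mul_self hp1).not_ge h1

end Cfsg.Agent.S4079
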