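import Cfsg.Statements.S4080
import Mathlib
-- import your own Cfsg.Agent.* helpers here

set_option autoImplicit false
open Cfsg

namespace Cfsg.Agent.S4080

lemma sum_apply {M : Type*} [AddCommGroup M] (s : Finset ℕ) (g : ℕ → AddMonoid.End M) (v : M) :
    (∑ i ∈ s, g i) v = ∑ i ∈ s, g i v := AddMonoidHom.finsetSum_apply g s v

lemma end_facts {M : Type*} [AddCommGroup M] {p : ℕ} [Fact p.Prime] (hp : 3 < p)
    (f : AddMonoid.End M) (h1 : (f + 1) ^ p = 1)
    (hΩ : ∀ w : M, p • w = 0 → ∃ v, p • v = w) (hM : ∀ v : M, p • p • v = 0)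
    (hsq : ∀ w : M, p • w = 0 → f (f w) = 0) : ∀ w : M, p • w = 0 → f w = 0 := by
  intro w hw
  obtain ⟨v, rfl⟩ := hΩ w hw
  have hpow : ∀ k, ∀ u : M, (f ^ (k + 1)) u = f ((f ^ k) u) := fun k u => by rw [pow_succ']; rfl
  have hff : ∀ u : M, p • f (f u) = 0 := fun u => by
    have := hsq (p • u) (hM u)
    rwa [map_nsmul, map_nsmul] at this
  have h4 : ∀ i, 4 ≤ i → (f ^ i) v = 0 := by
    intro i hi
    induction i, hi using Nat.le_induction with
    | base =>
      show (f ^ 4) v = 0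
      rw [hpow 3, hpow 2, hpow 1, hpow 0, pow_zero]
      exact hsq _ (hff v)
    | succ i _ ih => rw [hpow, ih, map_zero]
  have hsum := congrArg (fun g : AddMonoid.End M => g v) h1
  rw [(Commute.one_right f).add_pow] at hsum
  simp only [one_pow, mul_one, AddMonoid.End.coe_one, id_eq] at hsum
  have hev : ∀ i, (f ^ i * ((p.choose i : ℕ) : AddMonoid.End M)) v = (p.choose i) • (f ^ i) v := by
    intro i
    rw [← nsmul_eq_mul' , ]
    rfl
  rw [sum_apply] at hsum
  simp only [hev] at hsum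
  have hzero : ∀ i ∈ Finset.range (p + 1), i ∉ ({0, 1} : Finset ℕ) → (p.choose i) • (f ^ i) v = 0 := by
    intro i hi hi'
    simp only [Finset.mem_insert, Finset.mem_singleton, not_or] at hi'
    rw [Finset.mem_range] at hi
    by_cases h4i : 4 ≤ i
    · rw [h4 i h4i, smul_zero]
    obtain ⟨c, hc⟩ := Nat.Prime.dvd_choose_self (Fact.out : p.Prime) (k := i) (by omega) (by omega)
    obtain ⟨j, rfl⟩ : ∃ j, i = j + 2 := ⟨i - 2, by omega⟩
    rw [hc, mul_nsmul, hpow, hpow, hff, smul_zero]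
  rw [← Finset.sum_subset (s₁ := {0, 1}) (by intro i hi; simp at hi ⊢; omega) hzero] at hsum
  rw [Finset.sum_pair (by norm_num)] at hsum
  simp only [pow_zero, pow_one, Nat.choose_zero_right, Nat.choose_one_right, one_smul, AddMonoid.End.coe_one, id_eq] at hsum
  rw [map_nsmul]
  exact add_left_cancel (hsum.trans (add_zero v).symm)

/-- Let p > 3 be a prime and L the direct product of two cyclic groups of order p². Every automorphism of L of order p fixes every element of order p of L. -/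
theorem result {p : ℕ} [Fact p.Prime] (hp : 3 < p)
    (a : MulAut (Multiplicative (ZMod (p ^ 2) × ZMod (p ^ 2)))) (ha : orderOf a = p)
    (x : Multiplicative (ZMod (p ^ 2) × ZMod (p ^ 2))) (hx : orderOf x = p) : a x = x := by
  classical
  let f : AddMonoid.End (ZMod (p ^ 2) × ZMod (p ^ 2)) :=
    { toFun := fun v => Multiplicative.toAdd (a (Multiplicative.ofAdd v)) - v
      map_zero' := by simp
      map_add' := fun u v => by simp [ofAdd_add]; abel }
  have hf1 : ∀ v, (f + 1) v = Multiplicative.toAdd (a (Multiplicative.ofAdd v)) := fun v => sub_add_cancel _ v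
  have hpow : ∀ (n : ℕ) v, ((f + 1) ^ n) v = Multiplicative.toAdd ((a ^ n) (Multiplicative.ofAdd v)) := by
    intro n
    induction n with
    | zero => intro v; simp
    | succ n ih =>
      intro v
      rw [pow_succ' (f + 1) n, pow_succ' a n]
      show (f + 1) (((f + 1) ^ n) v) = _
      rw [hf1, ih]; rfl
  have h1 : (f + 1) ^ p = 1 := by
    refine AddMonoidHom.ext fun v => ?_
    show ((f + 1) ^ p) v = v
    rw [hpow, orderOf_dvd_iff_pow_eq_one.1 (dvd_of_eq ha)]; rfl
  have hp0 : 0 < p := by omega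
  have : NeZero (p ^ 2) := ⟨by positivity⟩
  have hcast : ((p : ℕ) : ZMod (p ^ 2)) * ((p : ℕ) : ZMod (p ^ 2)) = 0 := by
    rw [← Nat.cast_mul, ← sq, ZMod.natCast_self]
  have hM : ∀ v : (ZMod (p ^ 2) × ZMod (p ^ 2)), p • p • v = 0 := fun v => by
    have h : ∀ z : ZMod (p ^ 2), p • p • z = 0 := fun z => by simp [nsmul_eq_mul, ← mul_assoc, hcast]
    exact Prod.ext (h v.1) (h v.2)
  have hdiv : ∀ z : ZMod (p ^ 2), p • z = 0 → ∃ y, p • y = z := by
    intro z hz
    rw [nsmul_eq_mul, ← ZMod.natCast_zmod_val z, ← Nat.cast_mul, ZMod.natCast_eq_zero_iff] at hz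
    replace hz := (Nat.mul_dvd_mul_iff_left hp0).1 ((dvd_of_eq (sq p).symm).trans hz)
    obtain ⟨c, hc⟩ := hz
    exact ⟨(c : ZMod (p ^ 2)), by rw [nsmul_eq_mul, ← Nat.cast_mul, ← hc, ZMod.natCast_zmod_val]⟩
  have hΩ : ∀ w : (ZMod (p ^ 2) × ZMod (p ^ 2)), p • w = 0 → ∃ v, p • v = w := by
    rintro ⟨w1, w2⟩ hw
    rw [Prod.smul_mk, Prod.mk_eq_zero] at hw
    obtain ⟨y1, h1⟩ := hdiv w1 hw.1
    obtain ⟨y2, h2⟩ := hdiv w2 hw.2
    exact ⟨(y1, y2), by rw [Prod.smul_mk, h1, h2]⟩
  -- f is nilpotent of index at most two on the subgroup killed by p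
  have hsq : ∀ w : (ZMod (p ^ 2) × ZMod (p ^ 2)), p • w = 0 → f (f w) = 0 := by
    let Ω : AddSubgroup (ZMod (p ^ 2) × ZMod (p ^ 2)) :=
      { carrier := {w | p • w = 0}
        zero_mem' := smul_zero _
        add_mem' := fun {u v} hu hv => by show p • (u + v) = 0; rw [smul_add, hu, hv, add_zero]
        neg_mem' := fun {u} hu => by show p • (-u) = 0; rw [smul_neg, hu, neg_zero] }
    have hfp : ∀ w ∈ Ω, (f ^ p) w = 0 := by
      intro w hw
      have hsum := congrArg (fun g : AddMonoid.End (ZMod (p ^ 2) × ZMod (p ^ 2)) => g w) h1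
      rw [(Commute.one_right f).add_pow] at hsum
      simp only [one_pow, mul_one, AddMonoid.End.coe_one, id_eq] at hsum
      rw [sum_apply] at hsum
      have hev : ∀ i, (f ^ i * ((p.choose i : ℕ) : AddMonoid.End (ZMod (p ^ 2) × ZMod (p ^ 2)))) w = (f ^ i) ((p.choose i) • w) := by
        intro i
        rw [← nsmul_eq_mul', map_nsmul]; rfl
      simp only [hev] at hsum
      rw [← Finset.sum_subset (s₁ := {0, p}) (by intro i hi; simp at hi ⊢; omega) (fun i hi hi' => by
        simp only [Finset.mem_insert, Finset.mem_singleton, not_or] at hi'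
        rw [Finset.mem_range] at hi
        obtain ⟨c, hc⟩ := Nat.Prime.dvd_choose_self (Fact.out : p.Prime) (k := i) (by omega) (by omega)
        rw [hc, mul_comm, mul_nsmul', (hw : p • w = 0), smul_zero, map_zero])] at hsum
      rw [Finset.sum_pair (by omega)] at hsum
      simp only [pow_zero, Nat.choose_zero_right, Nat.choose_self, one_smul, AddMonoid.End.coe_one, id_eq] at hsum
      exact add_left_cancel (hsum.trans (add_zero w).symm)
    have hmapΩ : ∀ w ∈ Ω, f w ∈ Ω := fun w hw => by show p • f w = 0; rw [← map_nsmul, (hw : p • w = 0), map_zero]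
    set S1 := Ω.map f with hS1
    set S2 := S1.map f with hS2
    have hS1le : S1 ≤ Ω := by rintro _ ⟨w, hw, rfl⟩; exact hmapΩ w hw
    have hS2le : S2 ≤ S1 := by rw [hS2]; exact AddSubgroup.map_mono hS1le
    have hstab : ∀ S : AddSubgroup (ZMod (p ^ 2) × ZMod (p ^ 2)), S ≤ Ω → S.map f = S → S = ⊥ := by
      intro S hSle hS
      have : ∀ k : ℕ, ∀ w ∈ S, ∃ u ∈ S, (f ^ k) u = w := by
        intro k
        induction k with
        | zero => exact fun w hw => ⟨w, hw, rfl⟩
        | succ k ih =>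
          intro w hw
          rw [← hS] at hw
          obtain ⟨u, hu, rfl⟩ := hw
          obtain ⟨u', hu', rfl⟩ := ih u hu
          exact ⟨u', hu', by rw [pow_succ' f k]; rfl⟩
      rw [eq_bot_iff]
      intro w hw
      obtain ⟨u, hu, rfl⟩ := this p w hw
      exact hfp u (hSle hu)
    have hΩcard : Nat.card Ω ≤ p ^ 2 := by
      let g : (ZMod (p ^ 2) × ZMod (p ^ 2)) → Ω := fun v => ⟨p • v, hM v⟩
      let ker := (nsmulAddMonoidHom p : (ZMod (p ^ 2) × ZMod (p ^ 2)) →+ (ZMod (p ^ 2) × ZMod (p ^ 2))).ker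
      have hker : Nat.card Ω = Nat.card ker := rfl
      have h2 := AddSubgroup.card_mul_index ker
      rw [AddSubgroup.index_ker] at h2
      have hrange : Nat.card (nsmulAddMonoidHom p : (ZMod (p ^ 2) × ZMod (p ^ 2)) →+ (ZMod (p ^ 2) × ZMod (p ^ 2))).range = Nat.card Ω := by
        congr 2
        ext w
        exact ⟨fun ⟨v, hv⟩ => hv ▸ hM v, fun hw => hΩ w hw⟩
      rw [hrange, ← hker, Nat.card_prod, Nat.card_zmod] at h2
      exact (Nat.mul_self_le_mul_self_iff).1 (le_of_eq h2)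
    intro w hw
    by_contra hne
    have h2ne : S2 ≠ ⊥ := fun e => hne (by
      have : f (f w) ∈ S2 := ⟨f w, ⟨w, hw, rfl⟩, rfl⟩
      rwa [e, AddSubgroup.mem_bot] at this)
    have h1ne : S1 ≠ ⊥ := fun e => h2ne (eq_bot_iff.2 (hS2le.trans (le_of_eq e)))
    have hΩne : Ω ≠ ⊥ := fun e => h1ne (eq_bot_iff.2 (hS1le.trans (le_of_eq e)))
    have hlt1 : S1 < Ω := lt_of_le_of_ne hS1le fun e => hΩne (hstab Ω le_rfl e)
    have hlt2 : S2 < S1 := lt_of_le_of_ne hS2le fun e => h1ne (hstab S1 hS1le e)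
    have hpow2 : ∀ S : AddSubgroup (ZMod (p ^ 2) × ZMod (p ^ 2)), ∃ k, Nat.card S = p ^ k := by
      intro S
      have h := S.card_addSubgroup_dvd_card
      rw [Nat.card_prod, Nat.card_zmod, ← pow_add] at h
      obtain ⟨k, -, hk⟩ := (Nat.dvd_prime_pow (Fact.out : p.Prime)).1 h
      exact ⟨k, hk⟩
    have hmono : ∀ S T : AddSubgroup (ZMod (p ^ 2) × ZMod (p ^ 2)), S < T → Nat.card S < Nat.card T := fun S T hST => by
      have h := Set.ncard_lt_ncard (SetLike.coe_ssubset_coe.2 hST) (Set.toFinite _)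
      rwa [← Nat.card_coe_set_eq, ← Nat.card_coe_set_eq] at h
    obtain ⟨k0, h0⟩ := hpow2 Ω
    obtain ⟨k1, h1'⟩ := hpow2 S1
    obtain ⟨k2, h2'⟩ := hpow2 S2
    have a1 := hmono _ _ hlt1
    have a2 := hmono _ _ hlt2
    have a3 : 1 < Nat.card S2 := by
      have := hmono ⊥ S2 (bot_lt_iff_ne_bot.2 h2ne); simpa using this
    rw [h0, h1'] at a1; rw [h1', h2'] at a2; rw [h2'] at a3; rw [h0] at hΩcard
    have hp1 : 1 < p := by omega
    rw [Nat.pow_lt_pow_iff_right hp1] at a1 a2
    rw [Nat.pow_le_pow_iff_right hp1] at hΩcard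
    have : k2 = 0 := by omega
    rw [this, pow_zero] at a3; omega
  obtain ⟨w, rfl⟩ := Multiplicative.ofAdd.surjective x
  have hxp : p • w = 0 := by
    have := pow_orderOf_eq_one (Multiplicative.ofAdd w)
    rw [hx, ← ofAdd_nsmul] at this
    exact this
  have := end_facts hp f h1 hΩ hM hsq w hxp
  have h2 : Multiplicative.toAdd (a (Multiplicative.ofAdd w)) - w = 0 := this
  exact Multiplicative.toAdd.injective (sub_eq_zero.1 h2)

end Cfsg.Agent.S4080
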