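import Cfsg.Statements.S4081
import Cfsg.Agent.Lib.GenStruct.ThreeOrbitsLinear
import Cfsg.Agent.Lib.GS.Sylow
import Cfsg.Agent.S0144

set_option autoImplicit false
open Cfsg
open scoped commutatorElement

namespace Cfsg.Agent.S4081

open Cfsg.Agent.Lib.GenStruct.ThreeOrbits
open scoped IsMulCommutative

section rho
variable {G : Type*} [Group G] (p : ℕ) (P : Subgroup G) [P.Normal] [IsMulCommutative P] [Module (ZMod p) (Additive P)]

/-- conjugation as a linear map -/
noncomputable def rho : G →* Module.End (ZMod p) (Additive P) where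
  toFun g := (MonoidHom.toAdditive (MulAut.conjNormal g : MulAut P).toMonoidHom).toZModLinearMap p
  map_one' := LinearMap.ext fun v => congrArg Additive.ofMul (by rw [map_one]; rfl)
  map_mul' a b := LinearMap.ext fun v => congrArg Additive.ofMul (by rw [map_mul]; rfl)

lemma rho_apply (g : G) (v : Additive P) :
    ((Additive.toMul (rho p P g v) : P) : G) = g * ((Additive.toMul v : P) : G) * g⁻¹ := MulAut.conjNormal_apply g _

lemma rho_of_mem {u : G} (hu : u ∈ P) : rho p P u = 1 := by
  refine LinearMap.ext fun v => Additive.toMul.injective (Subtype.ext ?_)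
  rw [rho_apply, Module.End.one_apply]
  have h : u * ((Additive.toMul v : P) : G) = ((Additive.toMul v : P) : G) * u :=
    congrArg Subtype.val (mul_comm' (⟨u, hu⟩ : P) (Additive.toMul v))
  rw [h, mul_inv_cancel_right]

end rho

/-- two commuting maps of order q cannot generate a fixed-point-free group of order q² -/
lemma no_fpf_pair {p q : ℕ} [Fact p.Prime] (hq : q.Prime) (hpq : p ≠ q) {V : Type*} [AddCommGroup V] [Module (ZMod p) V]
    [Nontrivial V] (x y : Module.End (ZMod p) V) (hxy : Commute x y) (hx : x ^ q = 1) (hy : y ^ q = 1)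
    (h1 : ∀ j, ∀ v : V, (x * y ^ j) v = v → v = 0) (h2 : ∀ i, ¬ q ∣ i → ∀ v : V, (y ^ i) v = v → v = 0) : False := by
  have hgeom : ∀ e : Module.End (ZMod p) V, e ^ q = 1 → (∀ v, e v = v → v = 0) → ∑ i ∈ Finset.range q, e ^ i = 0 := by
    intro e he hfix
    refine LinearMap.ext fun v => hfix _ ?_
    have := LinearMap.congr_fun (mul_geom_sum e q) v
    rwa [he, sub_self, LinearMap.zero_apply, Module.End.mul_apply, LinearMap.sub_apply, Module.End.one_apply, sub_eq_zero] at this
  have hsum : ∑ j ∈ Finset.range q, ∑ i ∈ Finset.range q, (x * y ^ j) ^ i = 0 := by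
    refine Finset.sum_eq_zero fun j _ => hgeom _ ?_ (h1 j)
    rw [(hxy.pow_right j).mul_pow, hx, ← pow_mul, mul_comm j, pow_mul, hy, one_pow, mul_one]
  rw [Finset.sum_comm, Finset.sum_eq_single 0] at hsum
  · obtain ⟨v, hv⟩ := exists_ne (0 : V)
    have h := LinearMap.congr_fun hsum v
    simp only [pow_zero, Finset.sum_const, Finset.card_range, LinearMap.smul_apply, Module.End.one_apply,
      LinearMap.zero_apply] at h
    rw [← Nat.cast_smul_eq_nsmul (ZMod p), smul_eq_zero, CharP.cast_eq_zero_iff (ZMod p) p q,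
      Nat.prime_dvd_prime_iff_eq Fact.out hq] at h
    exact h.elim hpq hv
  · intro i hi hi0
    simp only [fun j => (hxy.pow_right j).mul_pow i]
    rw [← Finset.mul_sum]
    simp only [← pow_mul, fun j => mul_comm j i]
    simp only [pow_mul]
    rw [hgeom (y ^ i) (by rw [← pow_mul, mul_comm, pow_mul, hy, one_pow])
      (h2 i (Nat.not_dvd_of_pos_of_lt (Nat.pos_of_ne_zero hi0) (Finset.mem_range.1 hi))), mul_zero]
  · exact fun h => absurd (Finset.mem_range.2 hq.pos) h

/-- the structure of a group with three orbits -/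
lemma structure_of_orbits {G : Type*} [Group G] [Finite G] {p q : ℕ} [hpf : Fact p.Prime] [hqf : Fact q.Prime] (hpq : p ≠ q)
    (hord : ∀ g : G, g ≠ 1 → orderOf g = p ∨ orderOf g = q)
    (htr : ∀ g h : G, orderOf g = orderOf h → ∃ φ : MulAut G, φ g = h)
    (A : Subgroup G) [A.Characteristic] [hA : IsMulCommutative A] {a : G} (ha : a ∈ A) (hap : orderOf a = p)
    (hqG : ∃ x : G, orderOf x = q) :
    ∃ n : ℕ, 1 ≤ n ∧ Nat.card G = p ^ n * q ∧
      (∀ P : Sylow p G, (P : Subgroup G).Normal ∧ Cfsg.IsElementaryAbelian p (P : Subgroup G)) ∧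
      orderOf (p : ZMod q) = q - 1 ∧ ∀ x y : G, orderOf x = q → orderOf y = p → x * y * x⁻¹ ≠ y := by
  classical
  have hp := hpf.out
  have hq := hqf.out
  have hnopq : ∀ x y : G, orderOf x = q → orderOf y = p → x * y * x⁻¹ ≠ y := by
    intro x y hx hy h
    have hc : Commute x y := mul_inv_eq_iff_eq_mul.1 h
    have ho := hc.orderOf_mul_eq_mul_orderOf_of_coprime (by rw [hx, hy]; exact (Nat.coprime_primes hq hp).2 hpq.symm)
    rw [hx, hy] at ho
    have h1 := hq.two_le
    have h2 := hp.two_le
    rcases hord (x * y) (fun h0 => by rw [h0, orderOf_one] at ho; nlinarith) with h3 | h3 <;> rw [h3] at ho <;> nlinarith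
  have hmemp : ∀ g : G, orderOf g = p → g ∈ A := by
    intro g hg
    obtain ⟨φ, rfl⟩ := htr a g (hap.trans hg.symm)
    exact (Subgroup.characteristic_iff_map_eq.1 (inferInstance : A.Characteristic) φ) ▸ Subgroup.mem_map_of_mem _ ha
  have hAp : ∀ g ∈ A, g ^ p = 1 := by
    intro g hg
    by_cases hg1 : g = 1
    · simp [hg1]
    rcases hord g hg1 with h | h
    · exact h ▸ pow_orderOf_eq_one g
    · exfalso
      exact hnopq g a h hap (mul_inv_eq_iff_eq_mul.2 (congrArg Subtype.val (mul_comm' (⟨g, hg⟩ : A) ⟨a, ha⟩)))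
  have hApg : IsPGroup p A := fun g => ⟨1, Subtype.ext (by rw [pow_one, Subgroup.coe_pow]; exact hAp g g.2)⟩
  have hSyl : ∀ P : Sylow p G, (P : Subgroup G) = A := by
    intro P
    refine (P.is_maximal' hApg ?_).symm
    intro g hg
    by_cases hg1 : g = 1
    · subst hg1; exact one_mem A
    obtain ⟨k, hk⟩ := IsPGroup.iff_orderOf.1 P.isPGroup' ⟨g, hg⟩
    rw [Subgroup.orderOf_mk] at hk
    rcases hord g hg1 with h | h
    · exact hmemp g h
    · exact absurd ((Nat.prime_dvd_prime_iff_eq hq hp).1 (hq.dvd_of_dvd_pow (by rw [← hk, h]))).symm hpq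
  have hAne : A ≠ ⊥ := fun h => hp.ne_one (by rw [h, Subgroup.mem_bot] at ha; rw [ha, orderOf_one] at hap; exact hap.symm)
  haveI : Module (ZMod p) (Additive A) := AddCommGroup.zmodModule fun v => by
    refine Additive.toMul.injective (Subtype.ext ?_)
    rw [toMul_nsmul, Subgroup.coe_pow, hAp _ (Additive.toMul v).2]
    rfl
  haveI : Nontrivial A := (Subgroup.nontrivial_iff_ne_bot A).2 hAne
  have hfix : ∀ g : G, orderOf g = q → ∀ v : Additive A, rho p A g v = v → v = 0 := by
    intro g hg v hv
    by_contra hv0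
    have h := rho_apply p A g v
    rw [hv] at h
    refine hnopq g _ hg ?_ h.symm
    refine orderOf_eq_prime (hAp _ (Additive.toMul v).2) fun h1 => hv0 ?_
    exact Additive.toMul.injective (Subtype.ext h1)
  obtain ⟨x, hx⟩ := hqG
  obtain ⟨Q⟩ := (inferInstance : Nonempty (Sylow q G))
  have hQexp : ∀ g ∈ (Q : Subgroup G), g ≠ 1 → orderOf g = q := by
    intro g hg hg1
    obtain ⟨k, hk⟩ := IsPGroup.iff_orderOf.1 Q.isPGroup' ⟨g, hg⟩
    rw [Subgroup.orderOf_mk] at hk
    rcases hord g hg1 with h | h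
    · exact absurd ((Nat.prime_dvd_prime_iff_eq hp hq).1 (hp.dvd_of_dvd_pow (by rw [← hk, h]))) hpq
    · exact h
  have hqd : q ∣ Nat.card G := hx ▸ orderOf_dvd_natCard x
  have hQnt : Nontrivial (Q : Subgroup G) := (Subgroup.nontrivial_iff_ne_bot _).2 (Q.ne_bot_of_dvd_card hqd)
  have hQcard : Nat.card (Q : Subgroup G) = q := by
    haveI := Q.isPGroup'.center_nontrivial
    obtain ⟨z, hz⟩ := exists_ne (1 : Subgroup.center (Q : Subgroup G))
    set zg : G := ((z : (Q : Subgroup G)) : G) with hzg
    have hz1 : zg ≠ 1 := fun h => hz (Subtype.ext (Subtype.ext h))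
    have hzo : orderOf zg = q := hQexp zg (z : (Q : Subgroup G)).2 hz1
    have hle : (Q : Subgroup G) ≤ Subgroup.zpowers zg := by
      intro y hy
      by_contra hyz
      have hcomm : Commute y zg :=
        congrArg Subtype.val (Subgroup.mem_center_iff.1 z.2 ⟨y, hy⟩)
      have hyo : orderOf y = q := hQexp y hy fun h => hyz (h ▸ one_mem _)
      refine no_fpf_pair hq hpq (rho p A y) (rho p A zg) (hcomm.map (rho p A)) ?_ ?_ ?_ ?_
      · rw [← map_pow, ← hyo, pow_orderOf_eq_one, map_one]
      · rw [← map_pow, ← hzo, pow_orderOf_eq_one, map_one]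
      · intro j v hv
        rw [← map_pow, ← map_mul] at hv
        refine hfix _ (hQexp _ (mul_mem hy (pow_mem (z : (Q : Subgroup G)).2 j)) fun h => hyz ?_) v hv
        rw [mul_eq_one_iff_eq_inv.1 h]
        exact inv_mem (pow_mem (Subgroup.mem_zpowers zg) j)
      · intro i hi v hv
        rw [← map_pow] at hv
        refine hfix _ ?_ v hv
        rw [Nat.Coprime.orderOf_pow (by rw [hzo]; exact hq.coprime_iff_not_dvd.2 hi), hzo]
    rw [le_antisymm hle (Subgroup.zpowers_le.2 (z : (Q : Subgroup G)).2), Nat.card_zpowers, hzo]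
  obtain ⟨P⟩ := (inferInstance : Nonempty (Sylow p G))
  have hAcard : Nat.card A = p ^ (Nat.card G).factorization p := hSyl P ▸ P.card_eq_multiplicity
  have hn : 1 ≤ (Nat.card G).factorization p :=
    (hp.pow_dvd_iff_le_factorization Nat.card_pos.ne').1 ((pow_one p).symm ▸ hap ▸ orderOf_dvd_natCard a)
  have hGcard : Nat.card G = p ^ (Nat.card G).factorization p * q := by
    have hqe : q ^ (Nat.card G).factorization q = q := by rw [← Q.card_eq_multiplicity, hQcard]
    refine Nat.dvd_antisymm ((Nat.dvd_iff_prime_pow_dvd_dvd _ _).2 fun r k hr hrk => ?_)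
      (Nat.Coprime.mul_dvd_of_dvd_of_dvd (((Nat.coprime_primes hp hq).2 hpq).pow_left _) (Nat.ordProj_dvd _ _) hqd)
    rcases Nat.eq_zero_or_pos k with rfl | hk
    · simp
    haveI := Fact.mk hr
    obtain ⟨g, hg⟩ := exists_prime_orderOf_dvd_card' r ((dvd_pow_self r hk.ne').trans hrk)
    have hle := (hr.pow_dvd_iff_le_factorization Nat.card_pos.ne').1 hrk
    rcases hord g (fun h => hr.ne_one (by rw [← hg, h, orderOf_one])) with h | h <;> rw [hg] at h <;> subst h
    · exact dvd_mul_of_dvd_left (pow_dvd_pow r hle) _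
    · exact dvd_mul_of_dvd_right ((pow_dvd_pow r hle).trans (dvd_of_eq hqe)) _
  refine ⟨_, hn, hGcard, fun P => ⟨(hSyl P).symm ▸ inferInstance, (hSyl P).symm ▸ ⟨hA, hAp⟩⟩, ?_, hnopq⟩
  have hgen : A ⊔ Subgroup.zpowers x = ⊤ := by
    refine Subgroup.eq_top_of_le_card _ (le_of_eq_of_le hGcard (Nat.le_of_dvd Nat.card_pos ?_))
    refine Nat.Coprime.mul_dvd_of_dvd_of_dvd (((Nat.coprime_primes hp hq).2 hpq).pow_left _)
      (hAcard ▸ Subgroup.card_dvd_of_le le_sup_left) ?_
    exact (by rw [Nat.card_zpowers, hx] : Nat.card (Subgroup.zpowers x) = q) ▸ Subgroup.card_dvd_of_le le_sup_right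
  have hrhog : ∀ g : G, ∃ i : ℕ, rho p A g = (rho p A x) ^ i := by
    intro g
    have hg : g ∈ A ⊔ Subgroup.zpowers x := hgen ▸ Subgroup.mem_top g
    rw [← SetLike.mem_coe, Subgroup.normal_mul] at hg
    obtain ⟨u, hu, w, hw, rfl⟩ := hg
    obtain ⟨i, rfl⟩ := (mem_powers_iff_mem_zpowers (x := x)).2 hw
    exact ⟨i, by rw [map_mul, rho_of_mem p A hu, one_mul, map_pow]⟩
  let res : MulAut G → (Additive A ≃+ Additive A) := fun φ =>
    MulEquiv.toAdditive ((φ.subgroupMap A).trans (MulEquiv.subgroupCongr (Subgroup.characteristic_iff_map_eq.1 inferInstance φ)))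
  have hres : ∀ (φ : MulAut G) (v : Additive A), ((Additive.toMul (res φ v) : A) : G) = φ ((Additive.toMul v : A) : G) :=
    fun φ v => rfl
  have heq : ∀ (φ : MulAut G) (g : G) (v : Additive A), res φ ((rho p A g : Module.End (ZMod p) (Additive A)) v) = (rho p A (φ g) : Module.End (ZMod p) (Additive A)) (res φ v) := by
    intro φ g v
    refine Additive.toMul.injective (Subtype.ext ?_)
    rw [hres, rho_apply, rho_apply, hres, map_mul, map_mul, map_inv]
  refine ord_eq hpq (T := rho p A x) (by rw [← map_pow, ← hx, pow_orderOf_eq_one, map_one]) (hfix x hx) ?_ ?_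
  · intro k hk
    obtain ⟨φ, hφ⟩ := htr x (x ^ k) (by rw [Nat.Coprime.orderOf_pow (by rw [hx]; exact hq.coprime_iff_not_dvd.2 hk)])
    exact ⟨res φ, fun v => by rw [heq, hφ, map_pow]⟩
  · intro v w hv hw
    have ho : ∀ u : Additive A, u ≠ 0 → orderOf ((Additive.toMul u : A) : G) = p := fun u hu =>
      orderOf_eq_prime (hAp _ (Additive.toMul u).2) fun h => hu (Additive.toMul.injective (Subtype.ext h))
    obtain ⟨φ, hφ⟩ := htr _ _ ((ho v hv).trans (ho w hw).symm)
    obtain ⟨i, hi⟩ := hrhog (φ x)
    exact ⟨res φ, i, fun z => by rw [heq, hi], Additive.toMul.injective (Subtype.ext ((hres φ v).trans hφ))⟩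

/-- the converse: automorphisms are transitive on elements of equal order -/
lemma orbits_of_structure {G : Type*} [Group G] [Finite G] {p q n : ℕ} [hpf : Fact p.Prime] [hqf : Fact q.Prime] (hpq : p ≠ q)
    (hn : 1 ≤ n) (hcard : Nat.card G = p ^ n * q)
    (hP : ∀ P : Sylow p G, (P : Subgroup G).Normal ∧ Cfsg.IsElementaryAbelian p (P : Subgroup G))
    (hord : orderOf (p : ZMod q) = q - 1)
    (hfree : ∀ x y : G, orderOf x = q → orderOf y = p → x * y * x⁻¹ ≠ y) :
    (∀ g : G, g ≠ 1 → orderOf g = p ∨ orderOf g = q) ∧ ∀ g h : G, orderOf g = orderOf h → ∃ φ : MulAut G, φ g = h := by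
  classical
  have hp := hpf.out
  have hq := hqf.out
  obtain ⟨P⟩ := (inferInstance : Nonempty (Sylow p G))
  obtain ⟨hPn, hPc, hPp⟩ := hP P
  haveI := hPn
  haveI := hPc
  obtain ⟨x, hx⟩ := exists_prime_orderOf_dvd_card' q (hcard ▸ dvd_mul_left q _)
  have hfac : (Nat.card G).factorization p = n := by
    rw [hcard, Nat.factorization_mul (pow_ne_zero _ hp.ne_zero) hq.ne_zero, Finsupp.add_apply,
      hp.factorization_pow, hq.factorization, Finsupp.single_eq_same, Finsupp.single_eq_of_ne hpq, add_zero]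
  have hPcard : Nat.card (P : Subgroup G) = p ^ n := by rw [P.card_eq_multiplicity, hfac]
  have hxcard : Nat.card (Subgroup.zpowers x) = q := by rw [Nat.card_zpowers, hx]
  have hcomp : (P : Subgroup G).IsComplement' (Subgroup.zpowers x) :=
    Subgroup.isComplement'_of_coprime (by rw [hPcard, hxcard, hcard])
      (by rw [hPcard, hxcard]; exact ((Nat.coprime_primes hp hq).2 hpq).pow_left n)
  have hmemP : ∀ g : G, orderOf g = p → g ∈ (P : Subgroup G) := fun g hg =>
    Cfsg.Agent.Lib.GS.mem_of_normal_sylow P hPn (b := 1) (by rw [hg, pow_one])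
  have hordall : ∀ g : G, g ≠ 1 → orderOf g = p ∨ orderOf g = q := by
    intro g hg
    by_cases hqd : q ∣ orderOf g
    · obtain ⟨c, hc⟩ := hqd
      have hc0 : c ≠ 0 := fun h0 => (orderOf_pos g).ne' (by rw [hc, h0, mul_zero])
      right
      by_contra hne
      have hc1 : c ≠ 1 := fun h1 => hne (by rw [hc, h1, mul_one])
      obtain ⟨r, hr, hrc⟩ := Nat.exists_prime_and_dvd hc1
      have hcd : c ∣ p ^ n := by
        have h := hcard ▸ orderOf_dvd_natCard g
        rw [hc, mul_comm q c] at h
        exact Nat.dvd_of_mul_dvd_mul_right hq.pos h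
      obtain rfl : r = p := (Nat.prime_dvd_prime_iff_eq hr hp).1 (hr.dvd_of_dvd_pow (hrc.trans hcd))
      have h1 : orderOf (g ^ c) = q := by rw [orderOf_pow' g hc0, hc, Nat.gcd_mul_left_left, Nat.mul_div_cancel _ (Nat.pos_of_ne_zero hc0)]
      have h2 : orderOf (g ^ (q * (c / r))) = r := by
        have hcr : c / r ≠ 0 := (Nat.div_pos (Nat.le_of_dvd (Nat.pos_of_ne_zero hc0) hrc) hr.pos).ne'
        have hcr' : c = r * (c / r) := (Nat.mul_div_cancel' hrc).symm
        rw [orderOf_pow' g (mul_ne_zero hq.ne_zero hcr), hc,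
          Nat.gcd_eq_right (mul_dvd_mul_left q (Dvd.intro_left r hcr'.symm)), Nat.mul_div_mul_left _ _ hq.pos]
        exact Nat.div_eq_of_eq_mul_left (Nat.pos_of_ne_zero hcr) hcr'
      exact hfree _ _ h1 h2 (mul_inv_eq_iff_eq_mul.2 ((Commute.refl g).pow_pow _ _).eq)
    · left
      have hd : orderOf g ∣ p ^ n :=
        (Nat.Coprime.dvd_mul_right ((hq.coprime_iff_not_dvd.2 hqd).symm)).1 (hcard ▸ orderOf_dvd_natCard g)
      obtain ⟨b, hb, hgb⟩ := (Nat.dvd_prime_pow hp).1 hd
      refine orderOf_eq_prime (hPp g (Cfsg.Agent.Lib.GS.mem_of_normal_sylow P hPn hgb)) hg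
  refine ⟨hordall, ?_⟩
  haveI : Module (ZMod p) (Additive (P : Subgroup G)) := AddCommGroup.zmodModule fun v => by
    refine Additive.toMul.injective (Subtype.ext ?_)
    rw [toMul_nsmul, Subgroup.coe_pow, hPp _ (Additive.toMul v).2]
    rfl
  set T := rho p (P : Subgroup G) x with hT
  have hfix : ∀ v : Additive (P : Subgroup G), T v = v → v = 0 := by
    intro v hv
    by_contra hv0
    have h := rho_apply p (P : Subgroup G) x v
    rw [← hT, hv] at h
    refine hfree x _ hx ?_ h.symm
    exact orderOf_eq_prime (hPp _ (Additive.toMul v).2) fun h1 => hv0 (Additive.toMul.injective (Subtype.ext h1))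
  obtain ⟨y0, hy0⟩ := exists_prime_orderOf_dvd_card' p (hcard ▸ dvd_mul_of_dvd_left (dvd_pow_self p (by omega)) q)
  -- an automorphism sending `x` to `x ^ k` and `v` to `w`
  have hauto : ∀ (k : ℕ), ¬ q ∣ k → ∀ v w : G, orderOf v = p → orderOf w = p → ∃ φ : MulAut G, φ x = x ^ k ∧ φ v = w := by
    intro k hk v w hv hw
    have hv0 : Additive.ofMul (⟨v, hmemP v hv⟩ : (P : Subgroup G)) ≠ 0 := fun h => hp.ne_one <| by
      have : v = 1 := congrArg (fun z : (P : Subgroup G) => (z : G)) (show (⟨v, hmemP v hv⟩ : (P : Subgroup G)) = 1 from h)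
      rw [← hv, this, orderOf_one]
    have hw0 : Additive.ofMul (⟨w, hmemP w hw⟩ : (P : Subgroup G)) ≠ 0 := fun h => hp.ne_one <| by
      have : w = 1 := congrArg (fun z : (P : Subgroup G) => (z : G)) (show (⟨w, hmemP w hw⟩ : (P : Subgroup G)) = 1 from h)
      rw [← hw, this, orderOf_one]
    obtain ⟨A, hA, hAv⟩ := transitive hpq (T := T) (by rw [hT, ← map_pow, ← hx, pow_orderOf_eq_one, map_one])
      hfix hord hk hv0 hw0
    let α : (P : Subgroup G) ≃* (P : Subgroup G) := AddEquiv.toMultiplicative A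
    have hα : ∀ u, α u = Additive.toMul (A (Additive.ofMul u)) := fun u => rfl
    have hcop : (Nat.card (Subgroup.zpowers x)).Coprime k := by rw [hxcard]; exact hq.coprime_iff_not_dvd.2 hk
    let β : Subgroup.zpowers x ≃* Subgroup.zpowers x := MulEquiv.ofBijective (powMonoidHom k) (powCoprime hcop).bijective
    have hαx : ∀ u : (P : Subgroup G), ((α (MulAut.conjNormal x u) : (P : Subgroup G)) : G) = x ^ k * (α u : G) * (x ^ k)⁻¹ := by
      intro u
      rw [hα u, ← rho_apply p (P : Subgroup G) (x ^ k) (A (Additive.ofMul u)), map_pow, ← hT, ← hA, hα]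
      rfl
    have hαi : ∀ (i : ℕ) (u : (P : Subgroup G)), ((α (MulAut.conjNormal (x ^ i) u) : (P : Subgroup G)) : G) = (x ^ k) ^ i * (α u : G) * ((x ^ k) ^ i)⁻¹ := by
      intro i
      induction i with
      | zero => intro u; simp
      | succ i ih =>
        intro u
        rw [pow_succ', map_mul, MulAut.mul_apply, hαx, ih, pow_succ']
        group
    let F := (SemidirectProduct.mulEquivSubgroup hcomp).symm.trans
      ((SemidirectProduct.congr α β (fun g => by
        obtain ⟨i, hi⟩ := (mem_powers_iff_mem_zpowers (x := x)).2 g.2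
        refine MulEquiv.ext fun u => Subtype.ext ?_
        have hgu : ∀ (g : Subgroup.zpowers x) (u : (P : Subgroup G)),
            (((P : Subgroup G).normalizerMonoidHom.comp (Subgroup.inclusion ((P : Subgroup G).normalizer_eq_top ▸ le_top))) g) u
              = MulAut.conjNormal (g : G) u := fun g u => Subtype.ext (by rw [MulAut.conjNormal_apply]; rfl)
        rw [MulEquiv.trans_apply, MulEquiv.trans_apply, hgu, hgu, MulAut.conjNormal_apply]
        rw [← hi, hαi]
        have : ((β g : Subgroup.zpowers x) : G) = (x ^ k) ^ i := by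
          change (g : G) ^ k = _
          rw [← hi, ← pow_mul, ← pow_mul, mul_comm]
        rw [this])).trans (SemidirectProduct.mulEquivSubgroup hcomp))
    have hev : ∀ z, SemidirectProduct.mulEquivSubgroup hcomp z = (z.left : G) * (z.right : G) := fun z => rfl
    refine ⟨F, ?_, ?_⟩
    · have hxe : (SemidirectProduct.mulEquivSubgroup hcomp).symm x = ⟨1, ⟨x, Subgroup.mem_zpowers x⟩⟩ := by
        rw [MulEquiv.symm_apply_eq, hev]; exact (one_mul x).symm
      simp only [F, MulEquiv.trans_apply, hxe, hev, SemidirectProduct.congr_apply_left, SemidirectProduct.congr_apply_right, map_one, OneMemClass.coe_one, one_mul]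
      rfl
    · have hve : (SemidirectProduct.mulEquivSubgroup hcomp).symm v = ⟨⟨v, hmemP v hv⟩, 1⟩ := by
        rw [MulEquiv.symm_apply_eq, hev]; exact (mul_one v).symm
      simp only [F, MulEquiv.trans_apply, hve, hev, SemidirectProduct.congr_apply_left, SemidirectProduct.congr_apply_right, map_one, OneMemClass.coe_one, mul_one]
      rw [hα, hAv]
      rfl
  intro g h hgh
  by_cases hg1 : g = 1
  · subst hg1
    rw [orderOf_one, eq_comm, orderOf_eq_one_iff] at hgh
    exact ⟨1, by rw [hgh]; rfl⟩
  rcases hordall g hg1 with hg | hg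
  · obtain ⟨φ, -, hφ⟩ := hauto 1 (fun h => hq.ne_one (Nat.dvd_one.1 h)) g h hg (hgh ▸ hg)
    exact ⟨φ, hφ⟩
  · -- every element of order q is an automorphic image of x
    have key : ∀ g : G, orderOf g = q → ∃ φ : MulAut G, φ x = g := by
      intro g hg
      have hQx : Nat.card (Subgroup.zpowers x) = q ^ (Nat.card G).factorization q := by
        rw [hxcard, hcard, Nat.factorization_mul (pow_ne_zero _ hp.ne_zero) hq.ne_zero, Finsupp.add_apply,
          hp.factorization_pow, hq.factorization, Finsupp.single_eq_same, Finsupp.single_eq_of_ne hpq.symm, zero_add, pow_one]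
      let S : Sylow q G := Sylow.ofCard _ hQx
      have hgq : IsPGroup q (Subgroup.zpowers g) := IsPGroup.of_card (n := 1) (by rw [Nat.card_zpowers, hg, pow_one])
      obtain ⟨R, hR⟩ := hgq.exists_le_sylow
      obtain ⟨c, hc⟩ := MulAction.exists_smul_eq G S R
      have hgm : g ∈ (R : Subgroup G) := hR (Subgroup.mem_zpowers g)
      rw [← hc, Sylow.coe_subgroup_smul, Subgroup.mem_pointwise_smul_iff_inv_smul_mem] at hgm
      obtain ⟨i, hi⟩ := (mem_powers_iff_mem_zpowers (x := x)).2 hgm
      have hiq : ¬ q ∣ i := by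
        rintro ⟨j, rfl⟩
        change x ^ (q * j) = _ at hi
        rw [pow_mul, ← hx, pow_orderOf_eq_one, one_pow, eq_comm, smul_eq_iff_eq_inv_smul] at hi
        rw [hi, smul_one, orderOf_one] at hg
        exact hq.ne_one hg.symm
      obtain ⟨φ, hφ, -⟩ := hauto i hiq y0 y0 hy0 hy0
      refine ⟨φ.trans (MulAut.conj c), ?_⟩
      rw [MulEquiv.trans_apply, hφ]
      change (MulAut.conj c) • (x ^ i) = g
      rw [show x ^ i = (MulAut.conj c)⁻¹ • g from hi, smul_inv_smul]
    obtain ⟨φ, hφ⟩ := key g hg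
    obtain ⟨ψ, hψ⟩ := key h (hgh ▸ hg)
    exact ⟨φ.symm.trans ψ, by rw [MulEquiv.trans_apply, ← hφ, MulEquiv.symm_apply_apply, hψ]⟩

/-- Let G be a finite group whose order is not a prime power. Then the automorphism group of G has exactly three orbits on G if and only if there are distinct primes p, q with #G = pⁿ·q (n ≥ 1) such that G has a normal elementary abelian Sylow p-subgroup P, p is a primitive root modulo q (the multiplicative order of p mod q is q − 1), and every element of order q of G acts on P without non-identity fixed points. -/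
theorem result {G : Type*} [Group G] [Finite G] (hnpp : ¬ IsPrimePow (Nat.card G)) (hnt : Nat.card G ≠ 1) :
    Nat.card (MulAction.orbitRel.Quotient (MulAut G) G) = 3 ↔
    ∃ (p q n : ℕ) (_ : Fact p.Prime) (_ : Fact q.Prime), p ≠ q ∧ 1 ≤ n ∧ Nat.card G = p ^ n * q ∧
      (∀ P : Sylow p G, (P : Subgroup G).Normal ∧ Cfsg.IsElementaryAbelian p (P : Subgroup G)) ∧
      orderOf (p : ZMod q) = q - 1 ∧
      ∀ x y : G, orderOf x = q → orderOf y = p → x * y * x⁻¹ ≠ y := by
  classical
  cases nonempty_fintype (MulAction.orbitRel.Quotient (MulAut G) G)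
  let f : MulAction.orbitRel.Quotient (MulAut G) G → ℕ := Quotient.lift orderOf (by
    rintro a b ⟨φ, rfl⟩
    exact MulEquiv.orderOf_eq φ b)
  constructor
  · intro h3
    have hfac : 2 ≤ (Nat.card G).primeFactors.card := by
      by_contra hlt
      push Not at hlt
      rcases Nat.lt_or_ge (Nat.card G).primeFactors.card 1 with h0 | h1
      · rw [Nat.lt_one_iff, Finset.card_eq_zero, Nat.primeFactors_eq_empty] at h0
        rcases h0 with h0 | h0
        · exact absurd h0 Nat.card_pos.ne'
        · exact hnt h0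
      · exact hnpp (isPrimePow_iff_card_primeFactors_eq_one.2 (by omega))
    obtain ⟨r, hr, s, hs, hrs⟩ := Finset.one_lt_card.1 hfac
    have hrp := Nat.prime_of_mem_primeFactors hr
    have hsp := Nat.prime_of_mem_primeFactors hs
    haveI := Fact.mk hrp
    haveI := Fact.mk hsp
    obtain ⟨gr, hgr⟩ := exists_prime_orderOf_dvd_card' r (Nat.dvd_of_mem_primeFactors hr)
    obtain ⟨gs, hgs⟩ := exists_prime_orderOf_dvd_card' s (Nat.dvd_of_mem_primeFactors hs)
    have hsub : ({1, r, s} : Finset ℕ) ⊆ Finset.univ.image f := by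
      intro o ho
      simp only [Finset.mem_insert, Finset.mem_singleton] at ho
      rcases ho with rfl | rfl | rfl
      · exact Finset.mem_image.2 ⟨Quotient.mk'' 1, Finset.mem_univ _, orderOf_one⟩
      · exact Finset.mem_image.2 ⟨Quotient.mk'' gr, Finset.mem_univ _, hgr⟩
      · exact Finset.mem_image.2 ⟨Quotient.mk'' gs, Finset.mem_univ _, hgs⟩
    have hc3 : ({1, r, s} : Finset ℕ).card = 3 := by
      rw [Finset.card_insert_of_notMem, Finset.card_pair hrs]
      simp only [Finset.mem_insert, Finset.mem_singleton, not_or]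
      exact ⟨hrp.ne_one.symm, hsp.ne_one.symm⟩
    rw [Nat.card_eq_fintype_card, ← Finset.card_univ] at h3
    have heq : ({1, r, s} : Finset ℕ) = Finset.univ.image f :=
      Finset.eq_of_subset_of_card_le hsub (Finset.card_image_le.trans (by rw [h3, hc3]))
    have hinj : Set.InjOn f (Finset.univ : Finset (MulAction.orbitRel.Quotient (MulAut G) G)) :=
      Finset.card_image_iff.1 (by rw [← heq, hc3, h3])
    have hord : ∀ g : G, g ≠ 1 → orderOf g = r ∨ orderOf g = s := by
      intro g hg
      have : orderOf g ∈ ({1, r, s} : Finset ℕ) := heq ▸ Finset.mem_image.2 ⟨Quotient.mk'' g, Finset.mem_univ _, rfl⟩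
      simp only [Finset.mem_insert, Finset.mem_singleton, orderOf_eq_one_iff] at this
      tauto
    have htr : ∀ g h : G, orderOf g = orderOf h → ∃ φ : MulAut G, φ g = h := by
      intro g h hgh
      have := hinj (Finset.mem_univ (Quotient.mk'' h)) (Finset.mem_univ (Quotient.mk'' g)) hgh.symm
      obtain ⟨φ, hφ⟩ := Quotient.eq''.1 this
      exact ⟨φ, hφ⟩
    have hpf : (Nat.card G).primeFactors = {r, s} := by
      refine subset_antisymm (fun t ht => ?_) (by simp [Finset.insert_subset_iff, hr, hs])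
      haveI := Fact.mk (Nat.prime_of_mem_primeFactors ht)
      obtain ⟨gt, hgt⟩ := exists_prime_orderOf_dvd_card' t (Nat.dvd_of_mem_primeFactors ht)
      have := hord gt fun h => (Nat.prime_of_mem_primeFactors ht).ne_one (by rw [← hgt, h, orderOf_one])
      simp only [Finset.mem_insert, Finset.mem_singleton]
      rw [← hgt]
      exact this
    have hsol : Group.IsSolvable G := by
      refine Cfsg.Agent.S0144.result r s ((Nat.card G).factorization r) ((Nat.card G).factorization s) hrp hsp ?_
      conv_lhs => rw [← Nat.prod_factorization_pow_eq_self (Nat.card_pos.ne' : Nat.card G ≠ 0)]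
      rw [Finsupp.prod, Nat.support_factorization, hpf, Finset.prod_pair hrs]
    haveI : Nontrivial G := ⟨gr, 1, fun h => hrp.ne_one (by rw [← hgr, h, orderOf_one])⟩
    obtain ⟨n, hn⟩ := (Group.isSolvable_def G).1 hsol
    obtain ⟨m, hm, hm'⟩ : ∃ m, derivedSeries G m ≠ ⊥ ∧ derivedSeries G (m + 1) = ⊥ := by
      induction n with
      | zero => exact absurd hn (by rw [derivedSeries_zero]; exact top_ne_bot)
      | succ n ih =>
        by_cases h : derivedSeries G n = ⊥
        · exact ih h
        · exact ⟨n, h, hn⟩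
    haveI hAc : IsMulCommutative (derivedSeries G m) := ⟨⟨fun a b => Subtype.ext (by
      have h1 : ⁅(a : G), (b : G)⁆ ∈ derivedSeries G (m + 1) := by
        rw [derivedSeries_succ]; exact Subgroup.commutator_mem_commutator a.2 b.2
      rw [hm', Subgroup.mem_bot] at h1
      exact commutatorElement_eq_one_iff_commute.1 h1)⟩⟩
    haveI : (derivedSeries G m).Characteristic := derivedSeries_characteristic G m
    obtain ⟨a, ha, ha1⟩ := (derivedSeries G m).bot_or_exists_ne_one.resolve_left hm
    have key : ∀ (p q : ℕ) [Fact p.Prime] [Fact q.Prime], p ≠ q → (∀ g : G, g ≠ 1 → orderOf g = p ∨ orderOf g = q) →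
        orderOf a = p → (∃ x : G, orderOf x = q) →
        ∃ (p q n : ℕ) (_ : Fact p.Prime) (_ : Fact q.Prime), p ≠ q ∧ 1 ≤ n ∧ Nat.card G = p ^ n * q ∧
          (∀ P : Sylow p G, (P : Subgroup G).Normal ∧ Cfsg.IsElementaryAbelian p (P : Subgroup G)) ∧
          orderOf (p : ZMod q) = q - 1 ∧
          ∀ x y : G, orderOf x = q → orderOf y = p → x * y * x⁻¹ ≠ y := by
      intro p q _ _ hpq ho hao hx
      obtain ⟨k, h1, h2, h3, h4, h5⟩ := structure_of_orbits hpq ho htr (derivedSeries G m) ha hao hx
      exact ⟨p, q, k, inferInstance, inferInstance, hpq, h1, h2, h3, h4, h5⟩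
    rcases hord a ha1 with h | h
    · exact key r s hrs hord h ⟨gs, hgs⟩
    · exact key s r hrs.symm (fun g hg => (hord g hg).symm) h ⟨gr, hgr⟩
  · rintro ⟨p, q, n, hpI, hqI, hpq, hn, hcard, hP, hordq, hfree⟩
    obtain ⟨hord, htr⟩ := orbits_of_structure hpq hn hcard hP hordq hfree
    have hinj : Function.Injective f := by
      intro a b
      induction a using Quotient.inductionOn' with | h g => ?_
      induction b using Quotient.inductionOn' with | h h => ?_
      intro hab
      obtain ⟨φ, hφ⟩ := htr h g hab.symm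
      exact Quotient.eq''.2 ⟨φ, hφ⟩
    have himg : Finset.univ.image f = {1, p, q} := by
      refine subset_antisymm ?_ ?_
      · intro o ho
        obtain ⟨a, -, rfl⟩ := Finset.mem_image.1 ho
        induction a using Quotient.inductionOn' with | h g => ?_
        change orderOf g ∈ _
        simp only [Finset.mem_insert, Finset.mem_singleton, orderOf_eq_one_iff]
        by_cases hg : g = 1
        · exact Or.inl hg
        · exact Or.inr (hord g hg)
      · obtain ⟨gp, hgp⟩ := exists_prime_orderOf_dvd_card' (G := G) p (hcard ▸ dvd_mul_of_dvd_left (dvd_pow_self p (by omega)) q)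
        obtain ⟨gq, hgq⟩ := exists_prime_orderOf_dvd_card' (G := G) q (hcard ▸ dvd_mul_left q _)
        intro o ho
        simp only [Finset.mem_insert, Finset.mem_singleton] at ho
        rcases ho with rfl | rfl | rfl
        · exact Finset.mem_image.2 ⟨Quotient.mk'' 1, Finset.mem_univ _, orderOf_one⟩
        · exact Finset.mem_image.2 ⟨Quotient.mk'' gp, Finset.mem_univ _, hgp⟩
        · exact Finset.mem_image.2 ⟨Quotient.mk'' gq, Finset.mem_univ _, hgq⟩
    rw [Nat.card_eq_fintype_card, ← Finset.card_univ, ← Finset.card_image_of_injective _ hinj, himg,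
      Finset.card_insert_of_notMem, Finset.card_pair hpq]
    simp only [Finset.mem_insert, Finset.mem_singleton, not_or]
    exact ⟨hpI.out.ne_one.symm, hqI.out.ne_one.symm⟩

end Cfsg.Agent.S4081
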