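import Cfsg.Statements.S4082
import Cfsg.Agent.Lib.Involution.DihedralHom

set_option autoImplicit false
open Cfsg

namespace Cfsg.Agent.S4082

open Subgroup DihedralGroup

section

/-- An element of order prime to `p` acting by powers on a cyclic `p`-group, fixing the elements
of order `p`, fixes the whole group. -/
theorem conj_fix {H : Type*} [Group H] [Finite H] {p : ℕ} (hp : p.Prime) {c x : H} {n i : ℕ}
    (hx : orderOf x = p ^ (n + 1)) (hc : (orderOf c).Coprime p) (h : c * x * c⁻¹ = x ^ i)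
    (hq : c * x ^ p ^ n * c⁻¹ = x ^ p ^ n) : c * x * c⁻¹ = x := by
  haveI : NeZero (p ^ (n + 1)) := ⟨pow_ne_zero _ hp.ne_zero⟩
  have hit : ∀ k : ℕ, c ^ k * x * (c ^ k)⁻¹ = x ^ (i ^ k) := by
    intro k
    induction k with
    | zero => simp
    | succ k ih =>
      calc c ^ (k + 1) * x * (c ^ (k + 1))⁻¹ = c * (c ^ k * x * (c ^ k)⁻¹) * c⁻¹ := by
            rw [pow_succ']; group
        _ = (c * x * c⁻¹) ^ (i ^ k) := by rw [ih, conj_pow]
        _ = x ^ (i ^ (k + 1)) := by rw [h, ← pow_mul, pow_succ']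
  have h1 := hit (orderOf c)
  rw [pow_orderOf_eq_one, one_mul, inv_one, mul_one] at h1
  have h2 : ((i : ZMod (p ^ (n + 1)))) ^ orderOf c = 1 := by
    rw [← Nat.cast_pow]
    refine Eq.trans ?_ (Nat.cast_one (R := ZMod (p ^ (n + 1))))
    rw [ZMod.natCast_eq_natCast_iff, ← hx, ← pow_eq_pow_iff_modEq, pow_one]
    exact h1.symm
  have h3 : ((i : ZMod (p ^ (n + 1)))) ^ p ^ n = 1 := by
    rw [← conj_pow, h, ← pow_mul] at hq
    have hmod := pow_eq_pow_iff_modEq.1 (hq.trans (congrArg (x ^ ·) (one_mul (p ^ n)).symm))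
    rw [hx, pow_succ'] at hmod
    have hd : (p : ℤ) ∣ (i : ℤ) - 1 := by
      have := Nat.ModEq.mul_right_cancel' (pow_ne_zero n hp.ne_zero) hmod
      have := (Nat.modEq_iff_dvd.1 this.symm)
      simpa using this
    have hd' := dvd_sub_pow_of_dvd_sub (R := ℤ) hd n
    rw [one_pow, ← Nat.cast_pow] at hd'
    have := (ZMod.intCast_zmod_eq_zero_iff_dvd _ _).2 hd'
    push_cast at this
    exact sub_eq_zero.1 this
  obtain ⟨u, hu⟩ := IsUnit.of_pow_eq_one h3 (pow_ne_zero _ hp.ne_zero)
  have h4 : orderOf u = 1 :=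
    Nat.eq_one_of_dvd_coprimes (hc.pow_right n) (orderOf_dvd_of_pow_eq_one (Units.ext (by
      rw [Units.val_pow_eq_pow_val, hu, h2, Units.val_one])))
      (orderOf_dvd_of_pow_eq_one (Units.ext (by
      rw [Units.val_pow_eq_pow_val, hu, h3, Units.val_one])))
  rw [orderOf_eq_one_iff] at h4
  rw [h4, Units.val_one] at hu
  have h5 : (i : ZMod (p ^ (n + 1))) = ((1 : ℕ) : ZMod (p ^ (n + 1))) := by rw [Nat.cast_one, ← hu]
  rw [ZMod.natCast_eq_natCast_iff, ← hx, ← pow_eq_pow_iff_modEq, pow_one] at h5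
  rw [h, h5]

variable {G : Type*} [Group G] [Finite G] {p : ℕ} [Fact p.Prime]

/-- The consequence of the hypothesis for a nontrivially normalized cyclic `p`-subgroup. -/
theorem key (hp : p ≠ 2)
    (hall : ∀ H : Subgroup G, (∀ S : Sylow p ↥H, (S : Subgroup ↥H).Normal) →
        (∀ (S : Sylow p ↥H) [(S : Subgroup ↥H).Normal], IsCyclic (↥H ⧸ (S : Subgroup ↥H))) →
        IsCyclic H ∨ (∃ n : ℕ, Nonempty (H ≃* DihedralGroup (p ^ n))))
    (T : Subgroup G) (hT : IsPGroup p T) (x : G)
    (hx : x ∈ normalizer (T : Set G)) (hx' : x ∉ centralizer (T : Set G)) :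
    orderOf x = 2 ∧ ∀ t ∈ T, x * t * x⁻¹ = t⁻¹ := by
  set H : Subgroup G := T ⊔ zpowers x with hH
  have hxH : x ∈ H := mem_sup_right (mem_zpowers x)
  have hHN : H ≤ normalizer (T : Set G) := sup_le le_normalizer (zpowers_le.2 hx)
  set M : Subgroup H := T.subgroupOf H with hM
  haveI hMn : M.Normal := ⟨fun t ht g => ((mem_normalizer_iff.1 (hHN g.2)) t).1 ht⟩
  have hgen : ∀ z : H ⧸ M, z ∈ zpowers (QuotientGroup.mk' M ⟨x, hxH⟩) := by
    intro z
    obtain ⟨⟨a, ha⟩, rfl⟩ := QuotientGroup.mk'_surjective M z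
    have hle : H.subgroupOf H ≤ M ⊔ zpowers ⟨x, hxH⟩ := by
      rw [← Subgroup.map_subtype_le_map_subtype, Subgroup.map_sup, Subgroup.subgroupOf_map_subtype,
        hM, Subgroup.subgroupOf_map_subtype, MonoidHom.map_zpowers, inf_eq_left.2 le_rfl,
        inf_eq_left.2 (le_sup_left : T ≤ H)]
      exact le_rfl
    have := Subgroup.mem_map_of_mem (QuotientGroup.mk' M) (hle (show (⟨a, ha⟩ : H) ∈ H.subgroupOf H from ha))
    rw [Subgroup.map_sup, QuotientGroup.map_mk'_self, bot_sup_eq, MonoidHom.map_zpowers] at this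
    exact this
  have hcyc : IsCyclic (H ⧸ M) := ⟨⟨_, hgen⟩⟩
  have hMS : ∀ S : Sylow p H, M ≤ (S : Subgroup H) := fun S => by
    have hpg : IsPGroup p M := hT.comap_of_injective H.subtype Subtype.val_injective
    have h := S.3 (IsPGroup.to_sup_of_normal_left hpg S.2) le_sup_right
    exact h ▸ le_sup_left
  have hnorm : ∀ S : Sylow p H, (S : Subgroup H).Normal := by
    intro S
    refine Subgroup.Normal.of_commutator_le (G := H) ?_
    refine le_trans ?_ (hMS S)
    haveI := hcyc
    rw [_root_.commutator_def, Subgroup.commutator_le]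
    intro a _ b _
    rw [← QuotientGroup.ker_mk' M, MonoidHom.mem_ker, map_commutatorElement,
      commutatorElement_eq_one_iff_mul_comm]
    exact (IsCyclic.commGroup (α := H ⧸ M)).mul_comm _ _
  have hcase := hall H hnorm (fun S _ => by
    haveI := hcyc
    exact isCyclic_of_surjective (QuotientGroup.map M (S : Subgroup H) (MonoidHom.id H) (hMS S))
      (fun z => by
        obtain ⟨a, rfl⟩ := QuotientGroup.mk'_surjective (S : Subgroup H) z
        exact ⟨QuotientGroup.mk' M a, rfl⟩))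
  obtain ⟨t0, ht0, hne⟩ : ∃ t ∈ T, x * t ≠ t * x := by
    by_contra hcon
    push Not at hcon
    exact hx' (mem_centralizer_iff.2 fun t ht => (hcon t ht).symm)
  rcases hcase with hc | ⟨n, ⟨e⟩⟩
  · exfalso
    haveI := hc
    have := (IsCyclic.commGroup (α := H)).mul_comm ⟨x, hxH⟩ ⟨t0, mem_sup_left ht0⟩
    exact hne (congrArg Subtype.val this)
  haveI : NeZero (p ^ n) := ⟨pow_ne_zero _ (Fact.out : p.Prime).ne_zero⟩
  have hrot : ∀ t : H, (t : G) ∈ T → ∃ i, e t = r i := by
    intro t ht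
    rcases he : e t with i | i
    · exact ⟨i, rfl⟩
    · exfalso
      obtain ⟨k, hk⟩ := (IsPGroup.iff_orderOf.1 hT) ⟨(t : G), ht⟩
      have h2 : orderOf t = 2 := by rw [← MulEquiv.orderOf_eq e, he, orderOf_sr]
      rw [Subgroup.orderOf_mk, Subgroup.orderOf_coe, h2] at hk
      have : p ∣ 2 := by
        rcases k with _ | k
        · simp at hk
        · exact hk ▸ dvd_pow_self p k.succ_ne_zero
      exact hp ((Nat.prime_dvd_prime_iff_eq Fact.out Nat.prime_two).1 this)
  obtain ⟨j, hj⟩ : ∃ j, e ⟨x, hxH⟩ = sr j := by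
    rcases he : e ⟨x, hxH⟩ with i | i
    · exfalso
      obtain ⟨k, hk⟩ := hrot ⟨t0, mem_sup_left ht0⟩ ht0
      have : (⟨x, hxH⟩ : H) * ⟨t0, mem_sup_left ht0⟩ = ⟨t0, mem_sup_left ht0⟩ * ⟨x, hxH⟩ :=
        e.injective (by rw [map_mul, map_mul, he, hk, r_mul_r, r_mul_r, add_comm])
      exact hne (congrArg Subtype.val this)
    · exact ⟨i, rfl⟩
  refine ⟨?_, fun t ht => ?_⟩
  · rw [← Subgroup.orderOf_mk (H := H) x hxH, ← MulEquiv.orderOf_eq e, hj, orderOf_sr]
  · obtain ⟨k, hk⟩ := hrot ⟨t, mem_sup_left ht⟩ ht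
    have : (⟨x, hxH⟩ : H) * ⟨t, mem_sup_left ht⟩ * (⟨x, hxH⟩ : H)⁻¹ = (⟨t, mem_sup_left ht⟩ : H)⁻¹ :=
      e.injective (by rw [map_mul, map_mul, map_inv, map_inv, hj, hk]; simp)
    exact congrArg Subtype.val this

end

/-- Let p be an odd prime and G a finite group with Sylow p-subgroup P. Say that G has restricted p-by-cyclic subgroups when every subgroup H of G whose Sylow p-subgroup is normal in H with cyclic quotient is itself cyclic or dihedral of order 2pⁿ for some n. Then G has restricted p-by-cyclic subgroups if and only if P is cyclic and one of the following holds: (1) N_G(P) = C_G(P); or (2) N_G(P)/C_G(P) has order 2 and, for the subgroup Q of order p of P, the centralizer C_G(Q) is abelian and every element of N_G(Q) outside C_G(Q) is an involution inverting every element of C_G(Q). -/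
theorem result {G : Type*} [Group G] [Finite G] {p : ℕ}
    [Fact p.Prime] (hp : p ≠ 2) (P : Sylow p G) :
    (∀ H : Subgroup G, (∀ S : Sylow p ↥H, (S : Subgroup ↥H).Normal) →
        (∀ (S : Sylow p ↥H) [(S : Subgroup ↥H).Normal], IsCyclic (↥H ⧸ (S : Subgroup ↥H))) →
        IsCyclic H ∨ (∃ n : ℕ, Nonempty (H ≃* DihedralGroup (p ^ n)))) ↔
    (IsCyclic P ∧
      (Subgroup.normalizer ((P : Subgroup G) : Set G) = Subgroup.centralizer ((P : Subgroup G) : Set G) ∨
       ((Subgroup.centralizer ((P : Subgroup G) : Set G)).relIndex (Subgroup.normalizer ((P : Subgroup G) : Set G)) = 2 ∧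
        ∀ Q : Subgroup G, Q ≤ P → Nat.card Q = p →
          IsMulCommutative ↥(Subgroup.centralizer (Q : Set G)) ∧
          ∀ x : G, x ∈ Subgroup.normalizer (Q : Set G) → x ∉ Subgroup.centralizer (Q : Set G) →
            orderOf x = 2 ∧ ∀ c : G, c ∈ Subgroup.centralizer (Q : Set G) → x * c * x⁻¹ = c⁻¹))) := by
  haveI : NeZero p := ⟨(Fact.out : p.Prime).ne_zero⟩
  have hp' : p.Prime := Fact.out
  have hinv : ∀ t : G, t ∈ (P : Subgroup G) → t⁻¹ = t → t = 1 := by
    intro t ht h
    have h2 : orderOf t ∣ 2 := orderOf_dvd_of_pow_eq_one (by rw [pow_two]; exact inv_eq_iff_mul_eq_one.1 h)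
    obtain ⟨k, hk⟩ := (IsPGroup.iff_orderOf.1 P.2) ⟨t, ht⟩
    rw [Subgroup.orderOf_mk] at hk
    rw [hk] at h2
    have hco : Nat.Coprime (p ^ k) 2 := ((Nat.coprime_primes hp' Nat.prime_two).2 hp).pow_left k
    rw [← orderOf_eq_one_iff, hk]
    exact Nat.dvd_one.1 (hco.gcd_eq_one ▸ Nat.dvd_gcd dvd_rfl h2)
  constructor
  · intro hall
    have htop : ∀ S : Sylow p (P : Subgroup G), (S : Subgroup (P : Subgroup G)) = ⊤ := fun S =>
      (S.3 (IsPGroup.to_subgroup P.2 ⊤) le_top).symm
    have h1 := hall (P : Subgroup G) (fun S => by rw [htop S]; infer_instance) (fun S _ => by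
      haveI : Subsingleton (↥(P : Subgroup G) ⧸ (S : Subgroup (P : Subgroup G))) := by
        rw [htop S]; exact QuotientGroup.subsingleton_quotient_top
      exact isCyclic_of_subsingleton)
    have hPc : IsCyclic (P : Subgroup G) := by
      rcases h1 with h | ⟨n, ⟨e⟩⟩
      · exact h
      · exfalso
        obtain ⟨k, hk⟩ := IsPGroup.iff_card.1 P.2
        rw [Nat.card_congr e.toEquiv, DihedralGroup.nat_card] at hk
        have : 2 ∣ p ^ k := ⟨p ^ n, hk.symm⟩
        exact hp ((Nat.prime_dvd_prime_iff_eq Nat.prime_two hp').1 (Nat.prime_two.dvd_of_dvd_pow this)).symm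
    refine ⟨hPc, ?_⟩
    by_cases hN : normalizer ((P : Subgroup G) : Set G) = centralizer ((P : Subgroup G) : Set G)
    · exact Or.inl hN
    refine Or.inr ?_
    have hCN : centralizer ((P : Subgroup G) : Set G) ≤ normalizer ((P : Subgroup G) : Set G) :=
      Subgroup.centralizer_le_normalizer _
    obtain ⟨x0, hx0, hx0'⟩ := SetLike.exists_of_lt (lt_of_le_of_ne hCN (Ne.symm hN))
    obtain ⟨hx02, hx0inv⟩ := key hp hall (P : Subgroup G) P.2 x0 hx0 hx0'
    refine ⟨?_, ?_⟩
    · rw [Subgroup.relIndex_eq_two_iff_exists_notMem_and']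
      refine ⟨x0, hx0, hx0', fun b hb => ?_⟩
      by_cases hb' : b ∈ centralizer ((P : Subgroup G) : Set G)
      · exact Or.inr hb'
      left
      obtain ⟨-, hbinv⟩ := key hp hall (P : Subgroup G) P.2 b hb hb'
      refine mem_centralizer_iff.2 fun t ht => ?_
      have h1 : x0 * b * t * (x0 * b)⁻¹ = t := by
        calc x0 * b * t * (x0 * b)⁻¹ = x0 * (b * t * b⁻¹) * x0⁻¹ := by group
          _ = (x0 * t * x0⁻¹)⁻¹ := by rw [hbinv t ht]; group
          _ = t := by rw [hx0inv t ht, inv_inv]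
      exact (mul_inv_eq_iff_eq_mul.1 h1).symm
    intro Q hQP hQ
    have hQp : IsPGroup p Q := IsPGroup.of_card (n := 1) (by rw [pow_one]; exact hQ)
    have hmain : ∀ x : G, x ∈ normalizer (Q : Set G) → x ∉ centralizer (Q : Set G) →
        orderOf x = 2 ∧ ∀ c : G, c ∈ centralizer (Q : Set G) → x * c * x⁻¹ = c⁻¹ := by
      intro x hx hx'
      have h2 := key hp hall Q hQp x hx hx'
      refine ⟨h2.1, fun c hc => ?_⟩
      have hxc : x * c ∉ centralizer (Q : Set G) := fun h => hx' (by
        simpa using mul_mem h (inv_mem hc))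
      have hxcN : x * c ∈ normalizer (Q : Set G) := mul_mem hx (Subgroup.centralizer_le_normalizer _ hc)
      have h3 := pow_orderOf_eq_one (x * c)
      rw [(key hp hall Q hQp (x * c) hxcN hxc).1, pow_two, mul_assoc] at h3
      have h4 := pow_orderOf_eq_one x
      rw [h2.1, pow_two] at h4
      calc x * c * x⁻¹ = x * c * x := by rw [inv_eq_of_mul_eq_one_right h4]
        _ = (x * (c * (x * c))) * c⁻¹ := by group
        _ = c⁻¹ := by rw [h3, one_mul]
    refine ⟨?_, hmain⟩
    have hx0Q : x0 ∈ normalizer (Q : Set G) := by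
      rw [mem_normalizer_iff]
      intro t
      constructor
      · intro ht
        rw [hx0inv t (hQP ht)]; exact inv_mem ht
      · intro ht
        have h := hx0inv _ (hQP ht)
        have h4 := pow_orderOf_eq_one x0
        rw [hx02, pow_two] at h4
        have hxi : x0⁻¹ = x0 := inv_eq_of_mul_eq_one_right h4
        rw [hxi] at h ht
        have : x0 * (x0 * t * x0) * x0 = t := by
          calc x0 * (x0 * t * x0) * x0 = (x0 * x0) * t * (x0 * x0) := by group
            _ = t := by rw [h4, one_mul, mul_one]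
        rw [this] at h
        rw [h]; exact inv_mem ht
    have hx0Q' : x0 ∉ centralizer (Q : Set G) := by
      intro h
      have hne : Q ≠ ⊥ := fun h' => hp'.one_lt.ne' (by rw [← hQ, h', Subgroup.card_bot])
      obtain ⟨t, ht, ht1⟩ := Subgroup.ne_bot_iff_exists_ne_one.1 hne |> fun ⟨a, ha⟩ => (⟨(a : G), a.2, fun h' => ha (Subtype.ext h')⟩ : ∃ t, t ∈ Q ∧ t ≠ 1)
      refine ht1 (hinv t (hQP ht) ?_)
      rw [← hx0inv t (hQP ht)]
      exact mul_inv_eq_iff_eq_mul.2 (mem_centralizer_iff.1 h t ht).symm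
    refine ⟨⟨fun a b => Subtype.ext ?_⟩⟩
    have h := (hmain x0 hx0Q hx0Q').2
    have h1 := h _ (mul_mem a.2 b.2)
    have h2 : x0 * ((a : G) * b) * x0⁻¹ = (x0 * a * x0⁻¹) * (x0 * b * x0⁻¹) := by group
    rw [h2, h _ a.2, h _ b.2, ← mul_inv_rev, inv_inj] at h1
    exact h1.symm
  · rintro ⟨hPc, hP⟩ H hnorm hquo
    obtain ⟨S⟩ : Nonempty (Sylow p H) := inferInstance
    haveI := hnorm S
    obtain ⟨P', hP'⟩ := (S.2.map H.subtype).exists_le_sylow
    obtain ⟨g, rfl⟩ := MulAction.exists_smul_eq G P P'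
    rw [Sylow.coe_subgroup_smul] at hP'
    set φ : H →* G := (MulAut.conj g⁻¹).toMonoidHom.comp H.subtype with hφ
    have hφinj : Function.Injective φ := (MulAut.conj g⁻¹).injective.comp Subtype.val_injective
    have hφS : ∀ s ∈ (S : Subgroup H), φ s ∈ (P : Subgroup G) := by
      intro s hs
      have h := hP' (Subgroup.mem_map_of_mem H.subtype hs)
      rw [Subgroup.mem_pointwise_smul_iff_inv_smul_mem] at h
      simpa [hφ, MulAut.smul_def, map_inv, MulAut.conj_inv_apply, MulAut.conj_apply, inv_inv] using h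
    set T : Subgroup H := (S : Subgroup H) with hT
    have hTc : IsCyclic T := isCyclic_of_injective ((φ.comp T.subtype).codRestrict (P : Subgroup G)
      (fun s => hφS s s.2)) (fun a b h => Subtype.ext (hφinj (congrArg Subtype.val h)))
    obtain ⟨w, hw⟩ := (hquo S).exists_generator
    obtain ⟨c0, hc0⟩ := QuotientGroup.mk'_surjective T w
    obtain ⟨v, o, ho, hvo⟩ := Nat.exists_eq_pow_mul_and_not_dvd (orderOf_pos c0).ne' p hp'.ne_one
    set c := c0 ^ (p ^ v) with hc
    have hco : orderOf c = o := by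
      rw [hc, orderOf_pow, hvo, Nat.gcd_mul_right_left,
        Nat.mul_div_cancel_left _ (pow_pos hp'.pos v)]
    have hcp : (orderOf c).Coprime p := hco.symm ▸ (hp'.coprime_iff_not_dvd.2 ho).symm
    have hqp : (Nat.card (H ⧸ T)).Coprime p := by
      rw [← Subgroup.index_eq_card]
      exact (hp'.coprime_iff_not_dvd.2 S.not_dvd_index).symm
    have hcg : orderOf (QuotientGroup.mk' T c) = Nat.card (H ⧸ T) := by
      rw [hc, map_pow, hc0, orderOf_pow, orderOf_eq_card_of_forall_mem_zpowers hw,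
        (hqp.pow_right v).gcd_eq_one, Nat.div_one]
    have hqd : Nat.card (H ⧸ T) ∣ orderOf c := hcg ▸ orderOf_map_dvd _ _
    have hcardH : Nat.card H = Nat.card (H ⧸ T) * Nat.card T :=
      Subgroup.card_eq_card_quotient_mul_card_subgroup T
    obtain ⟨⟨s, hs⟩, hsgen⟩ := hTc.exists_generator
    have hos : orderOf s = Nat.card T :=
      (Subgroup.orderOf_mk s hs).symm.trans (orderOf_eq_card_of_forall_mem_zpowers hsgen)
    obtain ⟨m, hm⟩ := IsPGroup.iff_card.1 S.2
    have hcom : Commute s c → IsCyclic H := fun hcomm => by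
      refine isCyclic_of_orderOf_eq_card (s * c) (Nat.dvd_antisymm (orderOf_dvd_natCard _) ?_)
      rw [hcomm.orderOf_mul_eq_mul_orderOf_of_coprime, hcardH, mul_comm, hos]
      · exact Nat.mul_dvd_mul_left _ hqd
      · rw [hos, hm]; exact (hcp.pow_right m).symm
    by_cases hsc : Commute s c
    · exact Or.inl (hcom hsc)
    obtain ⟨n, rfl⟩ : ∃ n, m = n + 1 := by
      rcases m with _ | n
      · exfalso
        rw [pow_zero] at hm
        rw [show s = 1 from orderOf_eq_one_iff.1 (hos.trans hm)] at hsc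
        exact hsc (Commute.one_left c)
      · exact ⟨n, rfl⟩
    obtain ⟨i, hi⟩ := Submonoid.mem_powers_iff _ _ |>.1
      (mem_powers_iff_mem_zpowers.2 (hsgen ⟨c * s * c⁻¹, (inferInstance : T.Normal).conj_mem _ hs c⟩))
    have hi' : c * s * c⁻¹ = s ^ i := (congrArg Subtype.val hi).symm
    have hox : orderOf s = p ^ (n + 1) := hos.trans hm
    set q := s ^ p ^ n with hq
    have hqne : c * q * c⁻¹ ≠ q := fun h =>
      hsc (mul_inv_eq_iff_eq_mul.1 (conj_fix hp' hox hcp hi' h)).symm
    have hoq : orderOf (φ q) = p := by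
      rw [orderOf_injective φ hφinj, hq, orderOf_pow, hox,
        Nat.gcd_eq_right (pow_dvd_pow p n.le_succ), pow_succ,
        Nat.mul_div_cancel_left _ (pow_pos hp'.pos n)]
    set Q : Subgroup G := zpowers (φ q) with hQ
    have hQP : Q ≤ (P : Subgroup G) := zpowers_le.2 (hφS q (pow_mem hs _))
    have hQcard : Nat.card Q = p := by rw [hQ, Nat.card_zpowers, hoq]
    have hcN : φ c ∈ normalizer (Q : Set G) := by
      have hle : Q.map (MulAut.conj (φ c)).toMonoidHom ≤ Q := by
        rw [hQ, MonoidHom.map_zpowers, zpowers_le]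
        refine mem_zpowers_iff.2 ⟨i, ?_⟩
        simp only [MulEquiv.coe_toMonoidHom, MulAut.conj_apply, zpow_natCast, ← map_inv, ← map_mul,
          ← map_pow]
        congr 1
        rw [hq, ← conj_pow, hi', ← pow_mul, ← pow_mul, mul_comm]
      have heq := Subgroup.eq_of_le_of_card_ge hle (by
        rw [Subgroup.card_map_of_injective (MulAut.conj (φ c)).injective])
      rw [mem_normalizer_iff]
      intro t
      conv_rhs => rw [← heq]
      exact ⟨fun ht => ⟨t, ht, rfl⟩, fun ⟨u, hu, hut⟩ => (MulAut.conj (φ c)).injective hut ▸ hu⟩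
    have hcC : φ c ∉ centralizer (Q : Set G) := fun h => by
      have h1 := mem_centralizer_iff.1 h _ (mem_zpowers (φ q))
      rw [← map_mul, ← map_mul] at h1
      exact hqne (mul_inv_eq_iff_eq_mul.2 (hφinj h1).symm)
    rcases hP with hN | ⟨-, hQall⟩
    · exfalso
      have hPab : ∀ a b : (P : Subgroup G), a * b = b * a := fun a b =>
        (IsCyclic.commGroup (α := (P : Subgroup G))).mul_comm a b
      set τ := MonoidHom.transferSylow P hN.le with hτ
      have hsP := hφS s hs
      have hcsP : φ (c * s * c⁻¹) ∈ (P : Subgroup G) := hφS _ ((inferInstance : T.Normal).conj_mem _ hs c)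
      have hk : φ (c * s * c⁻¹) * (φ s)⁻¹ ∈ τ.ker := by
        rw [MonoidHom.mem_ker]
        simp only [map_mul, map_inv]
        rw [hPab (τ (φ c)) (τ (φ s)), mul_inv_cancel_right, mul_inv_cancel]
      have h1 := Subgroup.disjoint_def.1 (MonoidHom.ker_transferSylow_disjoint P hN.le _ P.2) hk
        (mul_mem hcsP (inv_mem hsP))
      rw [mul_inv_eq_one] at h1
      exact hsc (mul_inv_eq_iff_eq_mul.1 (hφinj h1)).symm
    · obtain ⟨hc2, hcinv⟩ := (hQall Q hQP hQcard).2 (φ c) hcN hcC
      have hsC : φ s ∈ centralizer (Q : Set G) := by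
        refine mem_centralizer_iff.2 fun t ht => ?_
        obtain ⟨j, rfl⟩ := mem_zpowers_iff.1 ht
        exact (((Commute.refl s).pow_left _).map φ |>.zpow_left j).eq
      have hinvs : c * s * c⁻¹ = s⁻¹ := hφinj (by simp only [map_mul, map_inv]; exact hcinv _ hsC)
      have hoc : orderOf c = 2 := (orderOf_injective φ hφinj c).symm.trans hc2
      have hq2 : Nat.card (H ⧸ T) = 2 := by
        rcases (Nat.dvd_prime Nat.prime_two).1 (hoc ▸ hqd) with h | h
        · exfalso
          have htop : T = ⊤ := Subgroup.eq_top_of_card_eq _ (by rw [hcardH, h, one_mul])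
          obtain ⟨j, hj⟩ := mem_zpowers_iff.1 (hsgen ⟨c, htop ▸ mem_top c⟩)
          have h := congrArg Subtype.val hj
          simp only [SubgroupClass.coe_zpow] at h
          exact hsc (h ▸ (Commute.refl s).zpow_right j)
        · exact h
      right
      refine ⟨n + 1, ?_⟩
      obtain ⟨e⟩ := Cfsg.Agent.Lib.Involution.iso_dihedral (K := (⊤ : Subgroup H)) (mem_top s)
        (mem_top c) hox (by rw [← pow_two, ← hoc, pow_orderOf_eq_one])
        (fun h => hsc (by
          obtain ⟨j, hj⟩ := mem_zpowers_iff.1 h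
          exact hj ▸ (Commute.refl s).zpow_right j)) hinvs
        (by rw [Subgroup.card_top, hcardH, hq2, hm])
      exact ⟨Subgroup.topEquiv.symm.trans e⟩

end Cfsg.Agent.S4082
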