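import Cfsg.Statements.S4083
import Cfsg.Agent.Lib.TwoByCyclic.Basic
import Cfsg.Agent.Lib.ZassSL25.SixTypes

set_option autoImplicit false
open Cfsg

namespace Cfsg.Agent.S4083

/-- Let G be a finite group with Sylow 2-subgroup P. Every subgroup H of G whose Sylow 2-subgroup is normal in H with cyclic quotient is cyclic, dihedral of 2-power order, or isomorphic to the alternating group of degree 4, if and only if either P is cyclic, or P is dihedral (of order at least 4) and every elementary abelian subgroup K of order 4 of P satisfies C_G(K) = K. -/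
theorem result {G : Type*} [Group G] [Finite G] (P : Sylow 2 G) :
    (∀ H : Subgroup G, (∀ S : Sylow 2 ↥H, (S : Subgroup ↥H).Normal) →
        (∀ (S : Sylow 2 ↥H) [(S : Subgroup ↥H).Normal], IsCyclic (↥H ⧸ (S : Subgroup ↥H))) →
        IsCyclic H ∨ (∃ n : ℕ, Nonempty (H ≃* DihedralGroup (2 ^ n))) ∨ Nonempty (H ≃* alternatingGroup (Fin 4))) ↔
    (IsCyclic P ∨
      ((∃ n : ℕ, 1 ≤ n ∧ Nonempty ((P : Subgroup G) ≃* DihedralGroup (2 ^ n))) ∧
        ∀ K : Subgroup G, K ≤ P → Nat.card K = 4 → (∀ k ∈ K, k ^ 2 = 1) → Subgroup.centralizer (K : Set G) = K)) := by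
  haveI : Fact (Nat.Prime 2) := ⟨Nat.prime_two⟩
  have hK4nc : ∀ K : Subgroup G, Nat.card K = 4 → (∀ k ∈ K, k ^ 2 = 1) → ¬ IsCyclic K := by
    intro K hK hK2 hc
    obtain ⟨g, hg⟩ := hc.exists_generator
    have h1 : orderOf g ∣ 2 := orderOf_dvd_of_pow_eq_one (Subtype.ext (hK2 g g.2))
    rw [orderOf_eq_card_of_forall_mem_zpowers hg, hK] at h1
    norm_num at h1
  constructor
  · intro hall
    have htop : ∀ S : Sylow 2 (P : Subgroup G), (S : Subgroup (P : Subgroup G)) = ⊤ := fun S =>
      (S.3 (IsPGroup.to_subgroup P.2 ⊤) le_top).symm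
    have h1 := hall (P : Subgroup G) (fun S => by rw [htop S]; infer_instance) (fun S _ => by
      haveI : Subsingleton (↥(P : Subgroup G) ⧸ (S : Subgroup (P : Subgroup G))) := by
        rw [htop S]; exact QuotientGroup.subsingleton_quotient_top
      exact isCyclic_of_subsingleton)
    by_cases hPc : IsCyclic (P : Subgroup G)
    · exact Or.inl hPc
    refine Or.inr ⟨?_, ?_⟩
    · rcases h1 with h | ⟨n, ⟨e⟩⟩ | ⟨⟨e⟩⟩
      · exact absurd h hPc
      · refine ⟨n, ?_, ⟨e⟩⟩
        rcases n with _ | n
        · exact absurd (isCyclic_of_prime_card (α := (P : Subgroup G)) (p := 2) (by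
            rw [Nat.card_congr e.toEquiv, DihedralGroup.nat_card]; norm_num)) hPc
        · omega
      · exfalso
        obtain ⟨k, hk⟩ := IsPGroup.iff_card.1 P.2
        rw [Nat.card_congr e.toEquiv, Cfsg.Agent.Lib.ZassSL25.card_alt_four] at hk
        have h3 : (3 : ℕ) ∣ 2 ^ k := hk ▸ (by norm_num)
        exact absurd (Nat.prime_three.dvd_of_dvd_pow h3) (by norm_num)
    intro K _ hK hK2
    have hKab : ∀ a ∈ K, ∀ b ∈ K, a * b = b * a := by
      intro a ha b hb
      have e1 : ∀ u ∈ K, u⁻¹ = u := fun u hu => inv_eq_of_mul_eq_one_right (by rw [← pow_two]; exact hK2 u hu)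
      calc a * b = (a * b)⁻¹ := (e1 _ (mul_mem ha hb)).symm
        _ = b * a := by rw [mul_inv_rev, e1 b hb, e1 a ha]
    refine le_antisymm (fun x hx => ?_) (fun a ha => Subgroup.mem_centralizer_iff.2 fun b hb => hKab b hb a ha)
    rw [Subgroup.mem_centralizer_iff] at hx
    set H : Subgroup G := K ⊔ Subgroup.zpowers x with hH
    have hcent : H ≤ Subgroup.centralizer (H : Set G) := by
      have hxK : Subgroup.zpowers x ≤ Subgroup.centralizer (K : Set G) :=
        Subgroup.zpowers_le.2 (Subgroup.mem_centralizer_iff.2 hx)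
      have hKK : K ≤ Subgroup.centralizer (K : Set G) :=
        fun a ha => Subgroup.mem_centralizer_iff.2 fun b hb => hKab b hb a ha
      have hxx : Subgroup.zpowers x ≤ Subgroup.centralizer (Subgroup.zpowers x : Set G) :=
        fun a ha => Subgroup.mem_centralizer_iff.2 fun b hb => by
          obtain ⟨i, rfl⟩ := Subgroup.mem_zpowers_iff.1 ha
          obtain ⟨j, rfl⟩ := Subgroup.mem_zpowers_iff.1 hb
          rw [← zpow_add, ← zpow_add, add_comm]
      exact sup_le (Subgroup.le_centralizer_iff.1 (sup_le hKK hxK))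
        (Subgroup.le_centralizer_iff.1 (sup_le (Subgroup.le_centralizer_iff.1 hxK) hxx))
    have hcomm : ∀ a b : H, a * b = b * a := fun a b =>
      Subtype.ext (Subgroup.mem_centralizer_iff.1 (hcent b.2) a a.2)
    have hnorm : ∀ N : Subgroup H, N.Normal := fun N => ⟨fun n hn g => by
      rwa [hcomm g n, mul_inv_cancel_right]⟩
    have h2 := hall H (fun S => hnorm _) (fun S _ => by
      let xH : H := ⟨x, Subgroup.mem_sup_right (Subgroup.mem_zpowers x)⟩
      let f := (QuotientGroup.mk' (S : Subgroup H)).comp (Subgroup.zpowers xH).subtype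
      have hsurj : f.range = ⊤ := by
        rw [MonoidHom.range_comp, Subgroup.range_subtype, eq_top_iff,
          ← Subgroup.map_top_of_surjective _ (QuotientGroup.mk'_surjective (S : Subgroup H))]
        intro _ hy
        obtain ⟨⟨a, ha⟩, -, rfl⟩ := Subgroup.mem_map.1 hy
        have hle : H ≤ ((Subgroup.zpowers xH).map H.subtype) ⊔ K := sup_le le_sup_right
          (le_sup_of_le_left (Subgroup.zpowers_le.2 ⟨xH, Subgroup.mem_zpowers _, rfl⟩))
        have hKS : K.subgroupOf H ≤ (S : Subgroup H) := by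
          have hpg : IsPGroup 2 (K.subgroupOf H) :=
            (IsPGroup.of_card (n := 2) (by rw [hK]; norm_num) : IsPGroup 2 K).comap_of_injective
              H.subtype Subtype.val_injective
          obtain ⟨Q, hQ⟩ := hpg.exists_le_sylow
          haveI : (Q : Subgroup H).Normal := hnorm _
          haveI := Sylow.unique_of_normal Q inferInstance
          rwa [Subsingleton.elim S Q]
        have hall' : (⊤ : Subgroup H) ≤ Subgroup.zpowers xH ⊔ K.subgroupOf H := by
          rw [← Subgroup.map_subtype_le_map_subtype, Subgroup.map_sup, ← MonoidHom.range_eq_map,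
            Subgroup.range_subtype, Subgroup.subgroupOf_map_subtype,
            inf_eq_left.2 (le_sup_left : K ≤ H)]
          exact hle
        have := Subgroup.mem_map_of_mem (QuotientGroup.mk' (S : Subgroup H)) (hall' (Subgroup.mem_top ⟨a, ha⟩))
        rw [Subgroup.map_sup] at this
        refine (sup_le le_rfl ?_ : _ ≤ (Subgroup.zpowers xH).map (QuotientGroup.mk' (S : Subgroup H))) this
        refine le_trans (Subgroup.map_mono hKS) ?_
        rw [QuotientGroup.map_mk'_self]; exact bot_le
      exact isCyclic_of_surjective f (MonoidHom.range_eq_top.1 hsurj))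
    have hKH : K ≤ H := le_sup_left
    rcases h2 with h | ⟨n, ⟨e⟩⟩ | ⟨⟨e⟩⟩
    · exact absurd (isCyclic_of_injective _ (Subgroup.inclusion_injective hKH)) (hK4nc K hK hK2)
    · rcases n with _ | _ | n
      · have := Subgroup.card_dvd_of_le hKH
        rw [hK, Nat.card_congr e.toEquiv, DihedralGroup.nat_card] at this
        norm_num at this
      · have : K = H := Subgroup.eq_of_le_of_card_ge hKH (by
          rw [hK, Nat.card_congr e.toEquiv, DihedralGroup.nat_card]; norm_num)
        rw [this]; exact Subgroup.mem_sup_right (Subgroup.mem_zpowers x)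
      · exfalso
        have h := hcomm (e.symm (DihedralGroup.r 1)) (e.symm (DihedralGroup.sr 0))
        rw [← map_mul, ← map_mul, e.symm.injective.eq_iff] at h
        have h' := (Cfsg.Agent.Lib.GS.DihedralSub.commute_r_sr (n := 2 ^ (n + 2)) (i := 1) (j := 0)).1 h
        rw [← Nat.cast_one, ← Nat.cast_add, ZMod.natCast_eq_zero_iff] at h'
        have := Nat.le_of_dvd (by norm_num) h'
        have : 4 ≤ 2 ^ (n + 2) := by rw [pow_add]; have := Nat.one_le_two_pow (n := n); omega
        omega
    · exfalso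
      obtain ⟨a, b, hab⟩ : ∃ a b : alternatingGroup (Fin 4), a * b ≠ b * a := by decide +kernel
      have h := congrArg e (hcomm (e.symm a) (e.symm b))
      simp at h
      exact hab h
  · intro hP H hnorm hquo
    obtain ⟨S⟩ : Nonempty (Sylow 2 H) := inferInstance
    haveI := hnorm S
    obtain ⟨P', hP'⟩ := (S.2.map H.subtype).exists_le_sylow
    obtain ⟨g, rfl⟩ := MulAction.exists_smul_eq G P P'
    rw [Sylow.coe_subgroup_smul] at hP'
    set ψ : (S : Subgroup H) →* (P : Subgroup G) :=
      (((MulAut.conj g⁻¹).toMonoidHom.comp H.subtype).comp (S : Subgroup H).subtype).codRestrict _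
        (fun s => by
          have h := hP' (Subgroup.mem_map_of_mem H.subtype s.2)
          rw [Subgroup.mem_pointwise_smul_iff_inv_smul_mem] at h
          simpa [MulAut.smul_def, map_inv, MulAut.conj_inv_apply, MulAut.conj_apply, inv_inv] using h) with hψ
    have hinj : Function.Injective ψ := fun a b h => by
      have h' := congrArg Subtype.val h
      exact Subtype.ext (Subtype.ext ((MulAut.conj g⁻¹).injective h'))
    have hS : IsCyclic (S : Subgroup H) ∨
        ∃ m, 1 ≤ m ∧ Nonempty ((S : Subgroup H) ≃* DihedralGroup (2 ^ m)) := by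
      rcases hP with hc | ⟨⟨n, -, ⟨e⟩⟩, -⟩
      · exact Or.inl (isCyclic_of_injective ψ hinj)
      · have hf : Function.Injective (e.toMonoidHom.comp ψ) := e.injective.comp hinj
        let eS := MonoidHom.ofInjective hf
        rcases Cfsg.Agent.Lib.TwoByCyclic.subgroup_dihedral (e.toMonoidHom.comp ψ).range with h | ⟨m, hm, ⟨f⟩⟩
        · exact Or.inl (isCyclic_of_injective eS.toMonoidHom eS.injective)
        · exact Or.inr ⟨m, hm, ⟨eS.trans f⟩⟩
    refine Cfsg.Agent.Lib.TwoByCyclic.two_by_cyclic S (hquo S) hS ?_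
    intro hnc K hK hK2 x hx
    have hsc : ∀ K : Subgroup G, K ≤ (P : Subgroup G) → Nat.card K = 4 → (∀ k ∈ K, k ^ 2 = 1) →
        Subgroup.centralizer (K : Set G) = K := by
      rcases hP with hc | ⟨-, h⟩
      · exact absurd (isCyclic_of_injective ψ hinj) hnc
      · exact h
    set KG := K.map H.subtype with hKG
    have hpg : IsPGroup 2 KG := (IsPGroup.of_card (n := 2) (by rw [hK]; norm_num) : IsPGroup 2 K).map _
    obtain ⟨Q, hQ⟩ := hpg.exists_le_sylow
    obtain ⟨t, rfl⟩ := MulAction.exists_smul_eq G P Q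
    rw [Sylow.coe_subgroup_smul] at hQ
    set K' := KG.map (MulAut.conj t⁻¹).toMonoidHom with hK'
    have hK'P : K' ≤ (P : Subgroup G) := by
      rintro _ ⟨k, hk, rfl⟩
      have h := hQ hk
      rw [Subgroup.mem_pointwise_smul_iff_inv_smul_mem] at h
      simpa [MulAut.smul_def, map_inv, MulAut.conj_inv_apply, MulAut.conj_apply, inv_inv] using h
    have hK'4 : Nat.card K' = 4 := by
      rw [hK', hKG, Subgroup.card_map_of_injective (MulAut.conj t⁻¹).injective,
        Subgroup.card_map_of_injective Subtype.val_injective, hK]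
    have hK'2 : ∀ k ∈ K', k ^ 2 = 1 := by
      rintro _ ⟨_, ⟨k, hk, rfl⟩, rfl⟩
      rw [← map_pow, ← map_pow, hK2 k hk, map_one, map_one]
    have hx' : (MulAut.conj t⁻¹) (x : G) ∈ K' := by
      rw [← hsc K' hK'P hK'4 hK'2, Subgroup.mem_centralizer_iff]
      rintro _ ⟨_, ⟨k, hk, rfl⟩, rfl⟩
      simp only [MulEquiv.coe_toMonoidHom, ← map_mul]
      congr 1
      exact (congrArg Subtype.val (hx k hk)).symm
    obtain ⟨_, ⟨k, hk, rfl⟩, hkx⟩ := hx'
    have := Subtype.ext ((MulAut.conj t⁻¹).injective hkx)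
    exact this ▸ hk

end Cfsg.Agent.S4083
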