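import Cfsg.Statements.S4084
import Mathlib
-- import your own Cfsg.Agent.* helpers here

set_option autoImplicit false
open Cfsg

namespace Cfsg.Agent.S4084

/-- maximal pairwise commuting sets -/
def IsMaxComm {G : Type*} [Group G] (S : Set G) : Prop :=
  ∀ x : G, x ∈ S ↔ ∀ s ∈ S, Commute x s

lemma exists_iff {G : Type*} [Group G] [Finite G] {p q : ℕ} (hp : p.Prime) (hq : q.Prime) (hpq : p ≠ q) :
    (∃ g : G, orderOf g = p * q) ↔ ∃ S : Set G, IsMaxComm S ∧ p * q ∣ Nat.card S := by
  have := Fact.mk hp; have := Fact.mk hq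
  constructor
  · rintro ⟨g, hg⟩
    have h0 : (Subgroup.zpowers g : Set G) ∈ {S : Set G | ∀ x ∈ S, ∀ y ∈ S, Commute x y} := by
      rintro x ⟨i, rfl⟩ y ⟨j, rfl⟩
      exact Commute.zpow_zpow_self g i j
    obtain ⟨S, hgS, hS⟩ := (Set.toFinite {S : Set G | ∀ x ∈ S, ∀ y ∈ S, Commute x y}).exists_le_maximal h0
    refine ⟨S, fun x => ⟨fun hx s hs => hS.1 x hx s hs, fun hx => ?_⟩, ?_⟩
    · have hm : insert x S ∈ {S : Set G | ∀ x ∈ S, ∀ y ∈ S, Commute x y} := by
        intro a ha b hb
        rcases ha with rfl | ha <;> rcases hb with rfl | hb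
        exacts [Commute.refl _, hx b hb, (hx a ha).symm, hS.1 a ha b hb]
      exact hS.2 hm (Set.subset_insert x S) (Set.mem_insert x S)
    · have hSeq : S = (Subgroup.centralizer S : Set G) := by
        ext x
        rw [SetLike.mem_coe, Subgroup.mem_centralizer_iff]
        constructor
        · exact fun hx s hs => hS.1 s hs x hx
        · intro hx
          have hm : insert x S ∈ {S : Set G | ∀ x ∈ S, ∀ y ∈ S, Commute x y} := by
            intro a ha b hb
            rcases ha with rfl | ha <;> rcases hb with rfl | hb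
            exacts [Commute.refl _, (hx b hb).symm, hx a ha, hS.1 a ha b hb]
          exact hS.2 hm (Set.subset_insert x S) (Set.mem_insert x S)
      rw [← hg, ← Nat.card_zpowers, hSeq]
      apply Subgroup.card_dvd_of_le
      intro x hx
      have : x ∈ S := hgS hx
      rw [hSeq] at this
      exact this
  · rintro ⟨S, hS, hd⟩
    let H : Subgroup G :=
      { carrier := S
        one_mem' := (hS 1).2 fun s _ => Commute.one_left s
        mul_mem' := fun {a b} ha hb => (hS _).2 fun s hs => ((hS a).1 ha s hs).mul_left ((hS b).1 hb s hs)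
        inv_mem' := fun {a} ha => (hS _).2 fun s hs => ((hS a).1 ha s hs).inv_left }
    have hd' : p * q ∣ Nat.card H := hd
    obtain ⟨a, ha⟩ := exists_prime_orderOf_dvd_card' (G := H) p (dvd_trans (dvd_mul_right p q) hd')
    obtain ⟨b, hb⟩ := exists_prime_orderOf_dvd_card' (G := H) q (dvd_trans (dvd_mul_left q p) hd')
    refine ⟨(a : G) * b, ?_⟩
    have hc : Commute (a : G) b := (hS a).1 a.2 b b.2
    rw [hc.orderOf_mul_eq_mul_orderOf_of_coprime (by
      rw [Subgroup.orderOf_coe, Subgroup.orderOf_coe, ha, hb]; exact (Nat.coprime_primes hp hq).2 hpq),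
      Subgroup.orderOf_coe, Subgroup.orderOf_coe, ha, hb]

lemma transfer_max {G H : Type*} [Group G] [Group H] (e : G ≃ H)
    (he : ∀ x y : G, Commute x y ↔ Commute (e x) (e y)) {S : Set G} (hS : IsMaxComm S) :
    IsMaxComm (e '' S) := by
  intro y
  obtain ⟨x, rfl⟩ := e.surjective y
  rw [e.injective.mem_set_image, hS x, Set.forall_mem_image]
  simp only [he]

/-- Let G and H be finite groups whose commuting graphs are isomorphic: there is a bijection e : G → H with x, y commuting exactly when e(x), e(y) commute. Then G and H have the same prime graph: for distinct primes p, q, G has an element of order pq if and only if H does (and #G = #H, so the prime divisors agree). -/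
theorem result {G H : Type*} [Group G] [Finite G] [Group H] [Finite H] (e : G ≃ H)
    (he : ∀ x y : G, Commute x y ↔ Commute (e x) (e y))
    {p q : ℕ} (hp : p.Prime) (hq : q.Prime) (hpq : p ≠ q) :
    (∃ g : G, orderOf g = p * q) ↔ (∃ h : H, orderOf h = p * q) := by
  rw [exists_iff hp hq hpq, exists_iff hp hq hpq]
  constructor
  · rintro ⟨S, hS, hd⟩
    exact ⟨e '' S, transfer_max e he hS, by rwa [Nat.card_image_of_injective e.injective]⟩
  · rintro ⟨S, hS, hd⟩
    have he' : ∀ x y : H, Commute x y ↔ Commute (e.symm x) (e.symm y) := fun x y => by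
      rw [he (e.symm x) (e.symm y), e.apply_symm_apply, e.apply_symm_apply]
    exact ⟨e.symm '' S, transfer_max e.symm he' hS, by rwa [Nat.card_image_of_injective e.symm.injective]⟩

end Cfsg.Agent.S4084
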