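import Cfsg.Statements.S4085
import Mathlib

set_option autoImplicit false
open Cfsg

namespace Cfsg.Agent.S4085

open Subgroup

/-- Adjacency (or equality) in the power graph. -/
def Adj {K : Type*} [Group K] (x y : K) : Prop := x ∈ zpowers y ∨ y ∈ zpowers x

theorem Adj.symm' {K : Type*} [Group K] {x y : K} (h : Adj x y) : Adj y x := Or.symm h

/-- Not a prime power, in the form used here. -/
def Mixed (n : ℕ) : Prop := ∃ p q : ℕ, p.Prime ∧ q.Prime ∧ p ≠ q ∧ p ∣ n ∧ q ∣ n

theorem exists_other {n : ℕ} (h : Mixed n) (r : ℕ) : ∃ s : ℕ, s.Prime ∧ s ≠ r ∧ s ∣ n := by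
  obtain ⟨p, q, hp, hq, hne, hpn, hqn⟩ := h
  by_cases e : p = r
  · exact ⟨q, hq, fun e' => hne (e.trans e'.symm), hqn⟩
  · exact ⟨p, hp, e, hpn⟩

theorem exists_incomparable {n o : ℕ} (h : Mixed n) (ho : o ∣ n) (ho1 : o ≠ 1) (hon : o ≠ n) :
    ∃ r k : ℕ, r.Prime ∧ r ^ k ∣ n ∧ ¬ r ^ k ∣ o ∧ ¬ o ∣ r ^ k := by
  by_cases hn0 : o = 0
  · subst hn0
    exact absurd (zero_dvd_iff.1 ho).symm hon
  have : ¬ n ∣ o := fun h' => hon (Nat.dvd_antisymm ho h')
  rw [Nat.dvd_iff_prime_pow_dvd_dvd] at this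
  push Not at this
  obtain ⟨r, k, hr, hrn, hro⟩ := this
  by_cases hor : o ∣ r ^ k
  · obtain ⟨i, -, rfl⟩ := (Nat.dvd_prime_pow hr).1 hor
    obtain ⟨s, hs, hsr, hsn⟩ := exists_other h r
    refine ⟨s, 1, hs, by rwa [pow_one], fun h' => ?_, fun h' => ?_⟩
    · rw [pow_one] at h'
      exact hsr ((Nat.prime_dvd_prime_iff_eq hs hr).1 (hs.dvd_of_dvd_pow h'))
    · rw [pow_one] at h'
      rcases Nat.eq_zero_or_pos i with hi | hi
      · exact ho1 (by rw [hi, pow_zero])
      · exact hsr ((Nat.prime_dvd_prime_iff_eq hr hs).1 ((dvd_pow_self r hi.ne').trans h')).symm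
  · exact ⟨r, k, hr, hrn, hro, hor⟩

section
variable {K : Type*} [Group K] [Finite K]

theorem exists_mem_order (z : K) {d : ℕ} (hd : d ∣ orderOf z) : ∃ u ∈ zpowers z, orderOf u = d :=
  ⟨z ^ (orderOf z / d), pow_mem (mem_zpowers z) _, orderOf_pow_orderOf_div (orderOf_pos z).ne' hd⟩

theorem card_order_in_zpowers (z : K) {d : ℕ} (hd : d ∣ orderOf z) :
    Nat.card {u : K // u ∈ zpowers z ∧ orderOf u = d} = d.totient := by
  classical
  haveI := Fintype.ofFinite (zpowers z)
  rw [← IsCyclic.card_orderOf_eq_totient (α := zpowers z) (d := d)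
      (by rwa [← Nat.card_eq_fintype_card, Nat.card_zpowers]),
    ← Fintype.card_subtype, ← Nat.card_eq_fintype_card]
  exact Nat.card_congr
    { toFun := fun u => ⟨⟨u.1, u.2.1⟩, by rw [Subgroup.orderOf_mk]; exact u.2.2⟩
      invFun := fun v => ⟨v.1.1, v.1.2, by rw [Subgroup.orderOf_coe]; exact v.2⟩
      left_inv := fun u => rfl
      right_inv := fun v => rfl }

theorem mem_of_dvd {z u x : K} (hu : u ∈ zpowers z) (hx : x ∈ zpowers z)
    (h : orderOf u ∣ orderOf x) : u ∈ zpowers x := by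
  classical
  obtain ⟨u', hu', hou⟩ := exists_mem_order x h
  have hsub : zpowers u' ≤ zpowers x := zpowers_le.2 hu'
  have hux : zpowers u' ≤ zpowers z := hsub.trans (zpowers_le.2 hx)
  have hdz : orderOf u ∣ orderOf z := orderOf_dvd_of_mem_zpowers hu
  -- the two cyclic subgroups of order `orderOf u` agree
  let f : {v : K // v ∈ zpowers u' ∧ orderOf v = orderOf u} →
      {v : K // v ∈ zpowers z ∧ orderOf v = orderOf u} := fun v => ⟨v.1, hux v.2.1, v.2.2⟩
  have hf : Function.Injective f := fun a b hab => Subtype.ext (congrArg (fun t => t.1) hab)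
  have hb := hf.bijective_of_nat_card_le (by
    rw [card_order_in_zpowers z hdz, card_order_in_zpowers u' (hou ▸ dvd_rfl)])
  obtain ⟨v, hv⟩ := hb.2 ⟨u, hu, rfl⟩
  have hvu : v.1 = u := congrArg (fun t => t.1) hv
  exact hsub (hvu ▸ v.2.1)

theorem adj_iff {z u x : K} (hu : u ∈ zpowers z) (hx : x ∈ zpowers z) :
    Adj u x ↔ orderOf u ∣ orderOf x ∨ orderOf x ∣ orderOf u :=
  or_congr ⟨orderOf_dvd_of_mem_zpowers, mem_of_dvd hu hx⟩ ⟨orderOf_dvd_of_mem_zpowers, mem_of_dvd hx hu⟩

theorem universal_in {z x : K} (hn : Mixed (orderOf z)) (hx : x ∈ zpowers z)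
    (hU : ∀ u ∈ zpowers z, Adj x u) : x = 1 ∨ orderOf x = orderOf z := by
  by_contra hcon
  push Not at hcon
  obtain ⟨r, k, -, hrn, h1, h2⟩ := exists_incomparable hn (orderOf_dvd_of_mem_zpowers hx)
    (fun e => hcon.1 (orderOf_eq_one_iff.1 e)) hcon.2
  obtain ⟨u, hu, hou⟩ := exists_mem_order z hrn
  rcases (adj_iff hx hu).1 (hU u hu) with h | h
  · exact h2 (hou ▸ h)
  · exact h1 (hou ▸ h)

theorem isCyclic_of_universal (hK : Mixed (Nat.card K)) {z : K} (hz : z ≠ 1)
    (hU : ∀ x, Adj z x) : IsCyclic K := by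
  have hmix : Mixed (orderOf z) := by
    have hcauchy : ∀ r : ℕ, r.Prime → r ∣ Nat.card K → r ∣ orderOf z ∨ orderOf z ∣ r := by
      intro r hr hrK
      haveI := Fact.mk hr
      obtain ⟨x, hx⟩ := exists_prime_orderOf_dvd_card' (G := K) r hrK
      rcases hU x with h | h
      · exact Or.inr (hx ▸ orderOf_dvd_of_mem_zpowers h)
      · exact Or.inl (hx ▸ orderOf_dvd_of_mem_zpowers h)
    obtain ⟨p, q, hp, hq, hne, hpK, hqK⟩ := hK
    have hz1 : orderOf z ≠ 1 := fun e => hz (orderOf_eq_one_iff.1 e)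
    refine ⟨p, q, hp, hq, hne, ?_, ?_⟩
    · rcases hcauchy p hp hpK with h | h
      · exact h
      · rw [(Nat.dvd_prime hp).1 h |>.resolve_left hz1]
    · rcases hcauchy q hq hqK with h | h
      · exact h
      · rw [(Nat.dvd_prime hq).1 h |>.resolve_left hz1]
  have hpp : ∀ (r : ℕ) (x : K), r.Prime → (∃ k, orderOf x = r ^ k) → x ∈ zpowers z := by
    intro r x hr ⟨k, hk⟩
    rcases hU x with h | h
    · obtain ⟨s, hs, hsr, hsz⟩ := exists_other hmix r
      have : s ∣ r ^ k := hk ▸ hsz.trans (orderOf_dvd_of_mem_zpowers h)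
      exact absurd ((Nat.prime_dvd_prime_iff_eq hs hr).1 (hs.dvd_of_dvd_pow this)) hsr
    · exact h
  have hdvd : Nat.card K ∣ Nat.card (zpowers z) := by
    rw [Nat.dvd_iff_prime_pow_dvd_dvd]
    intro r k hr hrk
    haveI := Fact.mk hr
    obtain ⟨P, hP⟩ := Sylow.exists_subgroup_card_pow_prime r hrk
    have hle : P ≤ zpowers z := fun x hx => by
      refine hpp r x hr ?_
      have : orderOf x ∣ r ^ k := hP ▸ Subgroup.orderOf_dvd_natCard P hx
      obtain ⟨i, -, hi⟩ := (Nat.dvd_prime_pow hr).1 this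
      exact ⟨i, hi⟩
    exact hP ▸ Subgroup.card_dvd_of_le hle
  exact isCyclic_of_orderOf_eq_card z (Nat.dvd_antisymm (orderOf_dvd_natCard z) (by rwa [Nat.card_zpowers] at hdvd))

end

section
variable {G H : Type*} [Group G] [Finite G] [Group H] [Finite H]

theorem one_dir (e : G ≃ H) (he : ∀ x y : G, Adj x y ↔ Adj (e x) (e y))
    {p q : ℕ} (hp : p.Prime) (hq : q.Prime) (hpq : p ≠ q) {g : G} (hg : orderOf g = p * q) :
    ∃ h : H, p * q ∣ orderOf h := by
  classical
  haveI := Fintype.ofFinite G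
  have hcard : Nat.card H = Nat.card G := (Nat.card_congr e).symm
  have hgG : p * q ∣ Nat.card G := hg ▸ orderOf_dvd_natCard g
  have hGm : Mixed (Nat.card G) :=
    ⟨p, q, hp, hq, hpq, (dvd_mul_right p q).trans hgG, (dvd_mul_left q p).trans hgG⟩
  by_cases hHcyc : IsCyclic H
  · obtain ⟨h, hh⟩ := IsCyclic.exists_ofOrder_eq_natCard (α := H)
    exact ⟨h, by rw [hh, hcard]; exact hgG⟩
  have huniH : ∀ x : G, (∀ y, Adj x y) → e x = 1 := fun x hx => by
    by_contra hne
    exact hHcyc (isCyclic_of_universal (hcard ▸ hGm) hne fun y => by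
      have := (he x (e.symm y)).1 (hx _)
      rwa [e.apply_symm_apply] at this)
  have he1 : e 1 = 1 := huniH 1 fun y => Or.inl (one_mem _)
  have hne1 : ∀ x : G, x ≠ 1 → e x ≠ 1 := fun x hx h => hx (e.injective (h.trans he1.symm))
  -- a maximal cyclic subgroup containing `g`
  obtain ⟨z, hz, hzmax⟩ := Finset.exists_max_image (Finset.univ.filter fun z : G => g ∈ zpowers z)
    orderOf ⟨g, by simp⟩
  rw [Finset.mem_filter] at hz
  have hgz : g ∈ zpowers z := hz.2
  have hmaxz : ∀ y, z ∈ zpowers y → y ∈ zpowers z := fun y hy => by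
    have h1 : orderOf y ≤ orderOf z :=
      hzmax y (by simp [zpowers_le.2 hy hgz])
    have h2 := orderOf_dvd_of_mem_zpowers hy
    exact mem_of_dvd (mem_zpowers y) hy (by
      rw [le_antisymm (Nat.le_of_dvd (orderOf_pos y) h2) h1])
  have hN : ∀ u, Adj u z ↔ u ∈ zpowers z := fun u => ⟨fun h => h.elim id (hmaxz u), Or.inl⟩
  set n := orderOf z with hn
  have hpqn : p * q ∣ n := hg ▸ orderOf_dvd_of_mem_zpowers hgz
  have hnm : Mixed n := ⟨p, q, hp, hq, hpq, (dvd_mul_right p q).trans hpqn, (dvd_mul_left q p).trans hpqn⟩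
  have hn1 : n ≠ 1 := fun h => hp.ne_one (Nat.dvd_one.1 (h ▸ (dvd_mul_right p q).trans hpqn))
  -- the image of a generator of largest order
  obtain ⟨x₀, hx₀, hx₀max⟩ := Finset.exists_max_image
    (Finset.univ.filter fun x : G => x ∈ zpowers z ∧ orderOf x = n) (fun x => orderOf (e x))
    ⟨z, by simp [hn]⟩
  rw [Finset.mem_filter] at hx₀
  obtain ⟨-, hx₀z, hx₀o⟩ := hx₀
  set w := e x₀ with hw
  set m := orderOf w with hm
  have hgen : ∀ x ∈ zpowers z, orderOf x = n → ∀ u, Adj u x ↔ u ∈ zpowers z := by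
    intro x hx hxo u
    have hzx : z ∈ zpowers x := mem_of_dvd (mem_zpowers z) hx (by rw [hxo])
    have e1 : zpowers x = zpowers z := le_antisymm (zpowers_le.2 hx) (zpowers_le.2 hzx)
    refine ⟨fun h => h.elim (fun h' => e1 ▸ h') fun h' => hmaxz u ?_, fun h => Or.inl (e1 ▸ h)⟩
    exact zpowers_le.2 h' hzx
  have hNw : ∀ a : H, Adj a w ↔ e.symm a ∈ zpowers z := fun a => by
    rw [← hgen x₀ hx₀z hx₀o, he, e.apply_symm_apply]
  have hgw : ∀ x ∈ zpowers z, orderOf x = n → e x ∈ zpowers w := by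
    intro x hx hxo
    rcases (he x x₀).1 ((hgen x₀ hx₀z hx₀o x).2 hx) with h | h
    · exact h
    · refine mem_of_dvd (mem_zpowers _) h ?_
      rw [le_antisymm (Nat.le_of_dvd (orderOf_pos _) (orderOf_dvd_of_mem_zpowers h))
        (hx₀max x (by simp [hx, hxo]))]
  by_cases hwmax : ∀ y, w ∈ zpowers y → y ∈ zpowers w
  · refine ⟨w, hpqn.trans (dvd_of_eq ?_)⟩
    rw [hn, ← Nat.card_zpowers, ← Nat.card_zpowers]
    refine Nat.card_congr (e.subtypeEquiv fun x => ?_)
    rw [← e.symm_apply_apply x, ← hNw, e.apply_symm_apply]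
    exact ⟨fun h => h.elim id (hwmax _), Or.inl⟩
  exfalso
  push Not at hwmax
  obtain ⟨v, hwv, hvw⟩ := hwmax
  set xv := e.symm v with hxv
  have hxvz : xv ∈ zpowers z := (hNw v).1 (Or.inr hwv)
  have hvP : e xv ∉ zpowers w := by rwa [hxv, e.apply_symm_apply]
  have hxv1 : xv ≠ 1 := fun h => hvP (by rw [h, he1]; exact one_mem _)
  have hxvn : orderOf xv ≠ n := fun h => hvP (hgw xv hxvz h)
  have hx₀1 : x₀ ≠ 1 := fun h => hn1 (by rw [← hx₀o, h, orderOf_one])
  have hm1 : m ≠ 1 := fun h => hne1 x₀ hx₀1 (orderOf_eq_one_iff.1 h)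
  -- incomparable neighbours of `z` lie on the same side of `w`
  have hside : ∀ x ∈ zpowers z, ∀ u ∈ zpowers z, ¬ Adj x u → e x ∈ zpowers w → e u ∈ zpowers w := by
    intro x _ u hu hnadj hxw
    have h1 : Adj (e u) w := by rw [hNw, e.symm_apply_apply]; exact hu
    refine h1.elim id fun h => absurd ((he x u).2 (Or.inl (zpowers_le.2 h hxw))) hnadj
  by_cases hmm : Mixed m
  · obtain ⟨r, s, hr, hs, hrs, hrm, hsm⟩ := hmm
    obtain ⟨d, hd, hdo⟩ := exists_mem_order w hrm
    obtain ⟨d', hd', hdo'⟩ := exists_mem_order w hsm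
    set x := e.symm d with hx
    set x' := e.symm d' with hx'
    have hxz : x ∈ zpowers z := (hNw d).1 (Or.inl hd)
    have hxz' : x' ∈ zpowers z := (hNw d').1 (Or.inl hd')
    have hna : ¬ Adj d d' := by
      rw [adj_iff hd hd', hdo, hdo', Nat.prime_dvd_prime_iff_eq hr hs, Nat.prime_dvd_prime_iff_eq hs hr]
      exact fun h => hrs (h.elim id Eq.symm)
    have hxn : orderOf x ≠ n := fun h => hna (by
      have := (he x x').1 ((hgen x hxz h x').2 hxz').symm'
      rwa [hx, hx', e.apply_symm_apply, e.apply_symm_apply] at this)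
    have hx1 : x ≠ 1 := fun h => by
      have : d = 1 := by rw [← e.apply_symm_apply d, ← hx, h, he1]
      exact hr.ne_one (by rw [← hdo, this, orderOf_one])
    have hxw : e x ∈ zpowers w := by rwa [hx, e.apply_symm_apply]
    -- all elements of prime power order share the side
    obtain ⟨r₁, k₁, hr₁, hrk₁, hna₁, hnb₁⟩ :=
      exists_incomparable hnm (orderOf_dvd_of_mem_zpowers hxz) (fun h => hx1 (orderOf_eq_one_iff.1 h)) hxn
    obtain ⟨r₂, k₂, hr₂, hrk₂, hna₂, hnb₂⟩ :=
      exists_incomparable hnm (orderOf_dvd_of_mem_zpowers hxvz) (fun h => hxv1 (orderOf_eq_one_iff.1 h)) hxvn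
    obtain ⟨u₁, hu₁, ho₁⟩ := exists_mem_order z hrk₁
    obtain ⟨u₂, hu₂, ho₂⟩ := exists_mem_order z hrk₂
    have P1 : e u₁ ∈ zpowers w := hside x hxz u₁ hu₁ (by
      rw [adj_iff hxz hu₁, ho₁]; exact fun h => h.elim hnb₁ hna₁) hxw
    have hk₁ : k₁ ≠ 0 := fun h => hna₁ (by rw [h, pow_zero]; exact one_dvd _)
    have hk₂ : k₂ ≠ 0 := fun h => hna₂ (by rw [h, pow_zero]; exact one_dvd _)
    have hinc : ∀ {a b : ℕ} {i j : ℕ}, a.Prime → b.Prime → a ≠ b → i ≠ 0 → j ≠ 0 →
        ¬ (a ^ i ∣ b ^ j ∨ b ^ j ∣ a ^ i) := by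
      intro a b i j ha hb hab hi hj h
      rcases h with h | h
      · exact hab ((Nat.prime_dvd_prime_iff_eq ha hb).1 (ha.dvd_of_dvd_pow ((dvd_pow_self a hi).trans h)))
      · exact hab ((Nat.prime_dvd_prime_iff_eq hb ha).1 (hb.dvd_of_dvd_pow ((dvd_pow_self b hj).trans h))).symm
    have P2 : e u₂ ∈ zpowers w := by
      by_cases h12 : r₁ = r₂
      · obtain ⟨t, ht, htr, htn⟩ := exists_other hnm r₁
        obtain ⟨u₃, hu₃, ho₃⟩ := exists_mem_order z htn
        have P3 : e u₃ ∈ zpowers w := hside u₁ hu₁ u₃ hu₃ (by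
          rw [adj_iff hu₁ hu₃, ho₁, ho₃, ← pow_one t]; exact hinc hr₁ ht htr.symm hk₁ one_ne_zero) P1
        exact hside u₃ hu₃ u₂ hu₂ (by
          rw [adj_iff hu₃ hu₂, ho₂, ho₃, ← pow_one t]; exact hinc ht hr₂ (h12 ▸ htr) one_ne_zero hk₂) P3
      · exact hside u₁ hu₁ u₂ hu₂ (by
          rw [adj_iff hu₁ hu₂, ho₁, ho₂]; exact hinc hr₁ hr₂ h12 hk₁ hk₂) P1
    exact hvP (hside u₂ hu₂ xv hxvz (by
      rw [adj_iff hu₂ hxvz, ho₂]; exact fun h => h.elim hna₂ hnb₂) P2)
  -- `m` is a prime power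
  obtain ⟨r, hr, hrm⟩ := Nat.exists_prime_and_dvd hm1
  have hpow : m = r ^ m.primeFactorsList.length :=
    Nat.eq_prime_pow_of_unique_prime_dvd (orderOf_pos w).ne' fun {d} hd hdm => by
      by_contra hne
      exact hmm ⟨d, r, hd, hr, hne, hdm, hrm⟩
  set k := m.primeFactorsList.length
  have hAbove : ∀ x ∈ zpowers z, x ≠ 1 → orderOf x ≠ n → e x ∉ zpowers w := by
    intro x hx hx1 hxn hxw
    refine (universal_in hnm hx fun u hu => (he x u).2 ?_).elim hx1 hxn
    have h1 : Adj (e u) w := by rw [hNw, e.symm_apply_apply]; exact hu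
    rcases h1 with h | h
    · rw [adj_iff hxw h]
      obtain ⟨i, -, hi⟩ := (Nat.dvd_prime_pow hr).1 ((orderOf_dvd_of_mem_zpowers hxw).trans (dvd_of_eq hpow))
      obtain ⟨j, -, hj⟩ := (Nat.dvd_prime_pow hr).1 ((orderOf_dvd_of_mem_zpowers h).trans (dvd_of_eq hpow))
      rw [hi, hj]
      exact (le_total i j).imp (pow_dvd_pow r) (pow_dvd_pow r)
    · exact Or.inl (zpowers_le.2 h hxw)
  -- an odd prime divisor of `n`
  obtain ⟨l, hl, hl2, hln⟩ := exists_other hnm 2
  set d₁ := n / l with hd₁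
  have hdn : d₁ * l = n := Nat.div_mul_cancel hln
  have hd1dvd : d₁ ∣ n := ⟨l, hdn.symm⟩
  have hdne : d₁ ≠ n := fun h => by
    rw [h] at hdn
    have hnpos : 0 < n := orderOf_pos z
    exact hl.ne_one (by nlinarith)
  have hd11 : d₁ ≠ 1 := fun h => by
    obtain ⟨s, hs, hsl, hsn⟩ := exists_other hnm l
    rw [h, one_mul] at hdn
    exact hsl ((Nat.prime_dvd_prime_iff_eq hs hl).1 (hdn ▸ hsn))
  obtain ⟨x, hxz, hxo⟩ := exists_mem_order z hd1dvd
  have hx1 : x ≠ 1 := fun h => hd11 (by rw [← hxo, h, orderOf_one])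
  have hxw := hAbove x hxz hx1 (hxo ▸ hdne)
  have hwx : w ∈ zpowers (e x) := by
    have h1 : Adj (e x) w := by rw [hNw, e.symm_apply_apply]; exact hxz
    exact h1.resolve_left hxw
  have hbetween : ∀ o, d₁ ∣ o → o ∣ n → o = d₁ ∨ o = n := by
    intro o h1 h2
    obtain ⟨c, rfl⟩ := h1
    have hd0 : 0 < d₁ := Nat.pos_of_ne_zero fun h0 => (orderOf_pos z).ne' (by rw [← hn, ← hdn, h0, zero_mul])
    have hc : c ∣ l := Nat.dvd_of_mul_dvd_mul_left hd0 (by rwa [hdn])
    rcases (Nat.dvd_prime hl).1 hc with h | h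
    · exact Or.inl (by rw [h, mul_one])
    · exact Or.inr (by rw [h, hdn])
  -- generators of `⟨e x⟩` pull back to elements of order `d₁`
  have htwin : ∀ a : H, a ∈ zpowers (e x) → orderOf a = orderOf (e x) →
      e.symm a ∈ zpowers z ∧ orderOf (e.symm a) = d₁ := by
    intro a ha hao
    have hax : e x ∈ zpowers a := mem_of_dvd (mem_zpowers _) ha (by rw [hao])
    have heq : zpowers a = zpowers (e x) := le_antisymm (zpowers_le.2 ha) (zpowers_le.2 hax)
    have htw : ∀ c : H, Adj a c ↔ Adj (e x) c := fun c => by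
      constructor <;> rintro (h | h)
      · exact Or.inl (zpowers_le.2 h hax)
      · exact Or.inr (heq ▸ h)
      · exact Or.inl (zpowers_le.2 h ha)
      · exact Or.inr (heq.symm ▸ h)
    set x' := e.symm a with hx'
    have hx'z : x' ∈ zpowers z := (hNw a).1 (Or.inr (heq.symm ▸ hwx))
    have htwC : ∀ u, Adj x' u ↔ Adj x u := fun u => by
      rw [he, he x u, hx', e.apply_symm_apply, htw]
    refine ⟨hx'z, ?_⟩
    set o := orderOf x' with ho
    have hon : o ∣ n := orderOf_dvd_of_mem_zpowers hx'z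
    have hox : o ≠ n := fun h => by
      refine hAbove x hxz hx1 (hxo ▸ hdne) ?_
      have hU : ∀ u ∈ zpowers z, Adj x u := fun u hu => (htwC u).1 ((hgen x' hx'z h u).2 hu).symm'
      rcases universal_in hnm hxz hU with h' | h'
      · exact absurd h' hx1
      · exact absurd h' (hxo ▸ hdne)
    have ho1 : o ≠ 1 := fun h => by
      have : a = 1 := by rw [← e.apply_symm_apply a, ← hx', orderOf_eq_one_iff.1 h, he1]
      rw [this, orderOf_one] at hao
      exact hne1 x hx1 (orderOf_eq_one_iff.1 hao.symm)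
    rcases (adj_iff hx'z hxz).1 ((htwC x).2 (Or.inl (mem_zpowers x))) with h | h
    · rw [hxo, ← ho] at h
      by_contra hne
      set A := n.factorization l
      have hA : l ^ A ∣ n := Nat.ordProj_dvd n l
      have hAd : ¬ l ^ A ∣ d₁ := fun h' => by
        have : l ^ (A + 1) ∣ n := by rw [pow_succ, ← hdn]; exact Nat.mul_dvd_mul_right h' l
        exact Nat.pow_succ_factorization_not_dvd (orderOf_pos z).ne' hl this
      have hcase : ∀ D, D ∣ n → ((o ∣ D ∨ D ∣ o) ↔ (d₁ ∣ D ∨ D ∣ d₁)) := fun D hD => by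
        obtain ⟨u, hu, huo⟩ := exists_mem_order z hD
        rw [ho, ← hxo, ← huo, ← adj_iff hx'z hu, ← adj_iff hxz hu]
        exact htwC u
      have hD : Nat.lcm o (l ^ A) ∣ n := Nat.lcm_dvd hon hA
      rcases (hcase _ hD).1 (Or.inl (Nat.dvd_lcm_left _ _)) with h' | h'
      · rcases hbetween _ h' hD with e' | e'
        · exact hAd (e' ▸ Nat.dvd_lcm_right _ _)
        · have hA1 : A - 1 + 1 = A := by
            have : 0 < A := hl.factorization_pos_of_dvd (orderOf_pos z).ne' hln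
            omega
          have hB : l ^ (A - 1) ∣ d₁ := by
            refine Nat.dvd_of_mul_dvd_mul_right hl.pos ?_
            rw [← pow_succ, hA1, hdn]; exact hA
          rcases (hcase _ (hB.trans hd1dvd)).2 (Or.inr hB) with h'' | h''
          · have : n ∣ l ^ A := e' ▸ Nat.lcm_dvd (h''.trans (pow_dvd_pow l (by omega))) dvd_rfl
            obtain ⟨s, hs, hsl, hsn⟩ := exists_other hnm l
            exact hsl ((Nat.prime_dvd_prime_iff_eq hs hl).1 (hs.dvd_of_dvd_pow (hsn.trans this)))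
          · obtain ⟨j, hj⟩ := h''
            have h3 : n ∣ o * l := by
              rw [← e']
              refine Nat.lcm_dvd (dvd_mul_right o l) ⟨j, ?_⟩
              rw [hj, ← hA1, pow_succ, Nat.add_sub_cancel]; ring
            have h4 : d₁ ∣ o := Nat.dvd_of_mul_dvd_mul_right hl.pos (by rwa [hdn])
            exact hne (Nat.dvd_antisymm h h4)
      · exact hAd ((Nat.dvd_lcm_right _ _).trans h')
    · rw [hxo, ← ho] at h
      exact (hbetween o h hon).resolve_right hox
  set m' := orderOf (e x) with hm'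
  have c1 : m'.totient ≤ d₁.totient := by
    rw [← card_order_in_zpowers (e x) dvd_rfl, ← card_order_in_zpowers z hd1dvd]
    exact Nat.card_le_card_of_injective (fun a => ⟨e.symm a.1, htwin a.1 a.2.1 a.2.2⟩)
      fun a b hab => Subtype.ext (e.symm.injective (congrArg (fun t => t.1) hab))
  have c2 : m.totient ≤ m'.totient :=
    Nat.le_of_dvd (Nat.totient_pos.2 (orderOf_pos _))
      (Nat.totient_dvd_of_dvd (orderOf_dvd_of_mem_zpowers hwx))
  have c3 : m ≤ 2 * m.totient := by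
    have hk0 : 0 < k := Nat.pos_of_ne_zero fun h => hm1 (by rw [hpow, h, pow_zero])
    rw [hpow, Nat.totient_prime_pow hr hk0]
    have : r ^ k = r ^ (k - 1) * r := by rw [← pow_succ]; congr 1; omega
    rw [this]
    have h2 := hr.two_le
    calc r ^ (k - 1) * r ≤ r ^ (k - 1) * (2 * (r - 1)) := Nat.mul_le_mul_left _ (by omega)
      _ = 2 * (r ^ (k - 1) * (r - 1)) := by ring
  have c4 : 2 * d₁.totient ≤ n.totient := by
    have hl3 : 3 ≤ l := by have := hl.two_le; omega
    rw [← hdn, mul_comm d₁]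
    by_cases h : l ∣ d₁
    · rw [Nat.totient_mul_of_prime_of_dvd hl h]
      exact Nat.mul_le_mul_right _ hl.two_le
    · rw [Nat.totient_mul ((Nat.Prime.coprime_iff_not_dvd hl).2 h), Nat.totient_prime hl]
      exact Nat.mul_le_mul_right _ (by omega)
  have c5 : n.totient < m := by
    suffices Nat.card {u : G // u ∈ zpowers z ∧ orderOf u = n} < Nat.card (zpowers w) by
      rwa [card_order_in_zpowers z dvd_rfl, Nat.card_zpowers] at this
    let f : {u : G // u ∈ zpowers z ∧ orderOf u = n} → zpowers w := fun u => ⟨e u.1, hgw u.1 u.2.1 u.2.2⟩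
    have hf : Function.Injective f := fun a b hab =>
      Subtype.ext (e.injective (congrArg Subtype.val hab))
    by_contra hlt
    obtain ⟨u, hu⟩ := (hf.bijective_of_nat_card_le (Nat.not_lt.1 hlt)).2 1
    have h1 : u.1 ≠ 1 := fun h => hn1 (by rw [← u.2.2, h, orderOf_one])
    exact hne1 u.1 h1 (congrArg Subtype.val hu)
  omega

end


/-- Let G and H be finite groups whose power graphs are isomorphic: there is a bijection e : G → H such that, for all x, y, one of x, y is a power of the other exactly when one of e(x), e(y) is a power of the other. Then G and H have the same prime graph: for distinct primes p, q, G has an element of order pq if and only if H does. -/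
theorem result {G H : Type*} [Group G] [Finite G] [Group H] [Finite H] (e : G ≃ H)
    (he : ∀ x y : G, (x ∈ Subgroup.zpowers y ∨ y ∈ Subgroup.zpowers x) ↔
      (e x ∈ Subgroup.zpowers (e y) ∨ e y ∈ Subgroup.zpowers (e x)))
    {p q : ℕ} (hp : p.Prime) (hq : q.Prime) (hpq : p ≠ q) :
    (∃ g : G, orderOf g = p * q) ↔ (∃ h : H, orderOf h = p * q) := by
  have he' : ∀ x y : H, Adj x y ↔ Adj (e.symm x) (e.symm y) := fun x y => by
    have := he (e.symm x) (e.symm y)
    rw [e.apply_symm_apply, e.apply_symm_apply] at this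
    exact this.symm
  constructor
  · rintro ⟨g, hg⟩
    obtain ⟨h, hh⟩ := one_dir e he hp hq hpq hg
    exact ⟨_, orderOf_pow_orderOf_div (orderOf_pos h).ne' hh⟩
  · rintro ⟨h, hh⟩
    obtain ⟨g, hg⟩ := one_dir e.symm he' hp hq hpq hh
    exact ⟨_, orderOf_pow_orderOf_div (orderOf_pos g).ne' hg⟩

end Cfsg.Agent.S4085
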