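import Cfsg.Statements.S4086
import Mathlib
-- import your own Cfsg.Agent.* helpers here

set_option autoImplicit false
open Cfsg

namespace Cfsg.Agent.S4086

/-- For a finite group G the following are equivalent: every non-identity element has prime-power order; whenever two elements generate a cyclic subgroup, one of them is a power of the other (the enhanced power graph of G coincides with its power graph). -/
theorem result {G : Type*} [Group G] [Finite G] :
    (∀ g : G, g ≠ 1 → IsPrimePow (orderOf g)) ↔
    (∀ x y : G, IsCyclic ↥(Subgroup.closure ({x, y} : Set G)) → (x ∈ Subgroup.zpowers y ∨ y ∈ Subgroup.zpowers x)) := by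
  constructor
  · intro h x y hc
    set K := Subgroup.closure ({x, y} : Set G) with hK
    have hx : x ∈ K := Subgroup.subset_closure (by simp)
    have hy : y ∈ K := Subgroup.subset_closure (by simp)
    have key : ∀ u v : K, orderOf u ∣ orderOf v → (u : G) ∈ Subgroup.zpowers (v : G) := by
      intro u v huv
      have : Fintype K := Fintype.ofFinite K
      classical
      have hsub : (Finset.univ.filter fun w : K => w ∈ Subgroup.zpowers v) ⊆ Finset.univ.filter fun w : K => w ^ orderOf v = 1 := by
        intro w hw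
        rw [Finset.mem_filter] at hw ⊢
        obtain ⟨i, rfl⟩ := hw.2
        refine ⟨hw.1, ?_⟩
        rw [← zpow_natCast, ← zpow_mul, mul_comm, zpow_mul, zpow_natCast, pow_orderOf_eq_one, one_zpow]
      have hcard : (Finset.univ.filter fun w : K => w ^ orderOf v = 1).card ≤ (Finset.univ.filter fun w : K => w ∈ Subgroup.zpowers v).card := by
        refine (IsCyclic.card_pow_eq_one_le (orderOf_pos v)).trans (le_of_eq ?_)
        rw [← Nat.card_zpowers, Nat.card_eq_fintype_card, Fintype.card_subtype]
      have heq := Finset.eq_of_subset_of_card_le hsub hcard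
      have hu : u ∈ Finset.univ.filter fun w : K => w ^ orderOf v = 1 := by
        rw [Finset.mem_filter]; exact ⟨Finset.mem_univ _, orderOf_dvd_iff_pow_eq_one.1 huv⟩
      rw [← heq, Finset.mem_filter] at hu
      obtain ⟨i, hi⟩ := hu.2
      exact ⟨i, by rw [← hi]; simp⟩
    obtain ⟨z, hz⟩ := IsCyclic.exists_ofOrder_eq_natCard (α := K)
    by_cases hz1 : z = 1
    · left
      rw [hz1, orderOf_one] at hz
      have := Nat.card_eq_one_iff_unique.1 hz.symm
      obtain ⟨hs, -⟩ := this
      have e : x = y := congrArg Subtype.val (Subsingleton.elim (⟨x, hx⟩ : K) ⟨y, hy⟩)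
      rw [e]
      exact Subgroup.mem_zpowers y
    obtain ⟨p, k, hp, -, hpk⟩ := h z (fun e => hz1 (Subtype.ext e))
    rw [Subgroup.orderOf_coe] at hpk
    have hp' : p.Prime := hp.nat_prime
    obtain ⟨i, -, hi⟩ := (Nat.dvd_prime_pow hp').1 (hpk ▸ hz ▸ orderOf_dvd_natCard (⟨x, hx⟩ : K))
    obtain ⟨j, -, hj⟩ := (Nat.dvd_prime_pow hp').1 (hpk ▸ hz ▸ orderOf_dvd_natCard (⟨y, hy⟩ : K))
    rcases le_total i j with hij | hij
    · exact Or.inl (key ⟨x, hx⟩ ⟨y, hy⟩ (hi ▸ hj ▸ Nat.pow_dvd_pow p hij))
    · exact Or.inr (key ⟨y, hy⟩ ⟨x, hx⟩ (hi ▸ hj ▸ Nat.pow_dvd_pow p hij))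
  · intro h g hg
    rw [isPrimePow_iff_unique_prime_dvd]
    obtain ⟨p, hp, hpd⟩ := Nat.exists_prime_and_dvd (mt orderOf_eq_one_iff.1 hg)
    refine ⟨p, ⟨hp, hpd⟩, fun q ⟨hq, hqd⟩ => ?_⟩
    by_contra hne
    set a := g ^ (orderOf g / p) with ha
    set b := g ^ (orderOf g / q) with hb
    have hao : orderOf a = p := orderOf_pow_orderOf_div (orderOf_pos g).ne' hpd
    have hbo : orderOf b = q := orderOf_pow_orderOf_div (orderOf_pos g).ne' hqd
    have hle : Subgroup.closure ({a, b} : Set G) ≤ Subgroup.zpowers g := by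
      rw [Subgroup.closure_le]
      rintro w (rfl | rfl) <;> exact Subgroup.npow_mem_zpowers g _
    rcases h a b (Subgroup.isCyclic_of_le hle) with e | e
    · have := orderOf_dvd_of_mem_zpowers e
      rw [hao, hbo] at this
      exact hne ((Nat.prime_dvd_prime_iff_eq hp hq).1 this).symm
    · have := orderOf_dvd_of_mem_zpowers e
      rw [hao, hbo] at this
      exact hne ((Nat.prime_dvd_prime_iff_eq hq hp).1 this)

end Cfsg.Agent.S4086
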