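import Cfsg.Statements.S4089
import Mathlib
import Cfsg.Agent.Lib.GenStruct.Subnormalizer

set_option autoImplicit false
open Cfsg

namespace Cfsg.Agent.S4089

/-- Let G be a finite group, p a prime and H a p-subgroup of G. Then the set of elements g of G such that H is subnormal in the subgroup generated by H and g is the union of the normalizers N_G(R) over the subgroups R of G containing H with R = O_p(N_G(R)); and this set does not change when H is replaced by the intersection of all Sylow p-subgroups of G containing H. -/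
theorem result {G : Type*} [Group G] [Finite G] (p : ℕ) [Fact p.Prime]
    (H : Subgroup G) (hH : IsPGroup p H) :
    {g : G | ((H).subgroupOf (H ⊔ Subgroup.zpowers g)).IsSubnormal} =
      {g : G | ∃ R : Subgroup G, H ≤ R ∧ (Cfsg.pCore p (Subgroup.normalizer (R : Set G))).map (Subgroup.normalizer (R : Set G)).subtype = R ∧ g ∈ Subgroup.normalizer (R : Set G)} ∧
    ∀ g : G, (((H).subgroupOf (H ⊔ Subgroup.zpowers g)).IsSubnormal ↔
      (((sInf {K : Subgroup G | ∃ Q : Sylow p G, H ≤ (Q : Subgroup G) ∧ K = (Q : Subgroup G)})).subgroupOf ((sInf {K : Subgroup G | ∃ Q : Sylow p G, H ≤ (Q : Subgroup G) ∧ K = (Q : Subgroup G)}) ⊔ Subgroup.zpowers g)).IsSubnormal) := by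
  classical
  haveI := Fintype.ofFinite (Subgroup G)
  have key := fun {K : Subgroup G} (hK : IsPGroup p K) (g : G) =>
    Cfsg.Agent.Lib.GenStruct.Subnormalizer.subnormal_iff hK g
  refine ⟨?_, ?_⟩
  · ext g
    simp only [Set.mem_setOf_eq]
    rw [key hH g]
    constructor
    · rintro ⟨R0, hR0⟩
      obtain ⟨R, -, hmax⟩ := (Set.toFinite {R : Subgroup G | H ≤ R ∧ IsPGroup p R ∧ g ∈ Subgroup.normalizer (R : Set G)}).exists_le_maximal hR0
      obtain ⟨hHR, hR, hg⟩ := hmax.1
      refine ⟨R, hHR, ?_, hg⟩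
      set N := Subgroup.normalizer (R : Set G) with hN
      set O := (Cfsg.pCore p N).map N.subtype with hO
      have hRO : R ≤ O := by
        intro x hx
        refine ⟨⟨x, Subgroup.le_normalizer hx⟩, ?_, rfl⟩
        haveI : (R.subgroupOf N).Normal := Subgroup.normal_in_normalizer
        exact Cfsg.Agent.Lib.Components.le_pCore_of_subnormal (Subgroup.Normal.isSubnormal ‹_›)
          hR.comap_subtype hx
      have hOp : IsPGroup p O := (Cfsg.Agent.Lib.Components.pCore_isPGroup p).map _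
      have hgO : g ∈ Subgroup.normalizer (O : Set G) := by
        rw [Subgroup.mem_normalizer_iff]
        intro x
        have hn : (Cfsg.pCore p N).Normal := inferInstance
        constructor
        · rintro ⟨y, hy, rfl⟩
          exact ⟨⟨g, hg⟩ * y * ⟨g, hg⟩⁻¹, hn.conj_mem y hy _, rfl⟩
        · rintro ⟨y, hy, he⟩
          refine ⟨⟨g, hg⟩⁻¹ * y * ⟨g, hg⟩, by simpa using hn.conj_mem y hy ⟨g, hg⟩⁻¹, ?_⟩
          show g⁻¹ * (y : G) * g = x
          rw [show (y : G) = g * x * g⁻¹ from he]; group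
      exact le_antisymm (hmax.2 ⟨hHR.trans hRO, hOp, hgO⟩ hRO) hRO
    · rintro ⟨R, hHR, hR, hg⟩
      exact ⟨R, hHR, hR ▸ (Cfsg.Agent.Lib.Components.pCore_isPGroup p).map _, hg⟩
  · intro g
    set Hb := sInf {K : Subgroup G | ∃ Q : Sylow p G, H ≤ (Q : Subgroup G) ∧ K = (Q : Subgroup G)} with hHb
    have hHHb : H ≤ Hb := le_sInf fun K ⟨Q, hQ, e⟩ => e ▸ hQ
    obtain ⟨Q0, hQ0⟩ := hH.exists_le_sylow
    have hHbp : IsPGroup p Hb := Q0.isPGroup'.to_le (sInf_le ⟨Q0, hQ0, rfl⟩)
    rw [key hH g, key hHbp g]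
    constructor
    · rintro ⟨R, hHR, hR, hg⟩
      obtain ⟨Q1, hQ1⟩ := hR.exists_le_sylow
      set Rb := sInf {K : Subgroup G | ∃ Q : Sylow p G, R ≤ (Q : Subgroup G) ∧ K = (Q : Subgroup G)} with hRb
      refine ⟨Rb, le_sInf fun K ⟨Q, hQ, e⟩ => sInf_le ⟨Q, hHR.trans hQ, e⟩,
        Q1.isPGroup'.to_le (sInf_le ⟨Q1, hQ1, rfl⟩), ?_⟩
      have hstep : ∀ a ∈ Subgroup.normalizer (R : Set G), ∀ x ∈ Rb, a * x * a⁻¹ ∈ Rb := by
        intro a ha x hx
        rw [hRb, Subgroup.mem_sInf] at hx ⊢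
        rintro _ ⟨Q, hQ, rfl⟩
        have h1 : R ≤ ((a⁻¹ • Q : Sylow p G) : Subgroup G) := fun r hr => by
          rw [Cfsg.Agent.Lib.Transfer.mem_smul_sylow, inv_inv]
          exact hQ ((Subgroup.mem_normalizer_iff.1 ha r).1 hr)
        have h2 := hx _ ⟨a⁻¹ • Q, h1, rfl⟩
        rwa [Cfsg.Agent.Lib.Transfer.mem_smul_sylow, inv_inv] at h2
      rw [Subgroup.mem_normalizer_iff]
      intro x
      refine ⟨hstep g hg x, fun hx => ?_⟩
      have := hstep g⁻¹ (inv_mem hg) _ hx
      simpa [mul_assoc] using this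
    · rintro ⟨R, hHR, hR, hg⟩
      exact ⟨R, hHHb.trans hHR, hR, hg⟩

end Cfsg.Agent.S4089
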