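import Cfsg.Statements.S4090
-- import your own Cfsg.Agent.* helpers here

set_option autoImplicit false
open scoped BigOperators
open Cfsg

namespace Cfsg.Agent.S4090


open Pointwise

/-- A subnormal `p`-subgroup lies in every Sylow `p`-subgroup. -/
theorem sn_le_sylow (p : ℕ) [Fact p.Prime] : ∀ (k : ℕ), ∀ {J : Type*} [Group J] [Finite J],
    Nat.card J ≤ k → ∀ H : Subgroup J, H.IsSubnormal → IsPGroup p H →
      ∀ S : Sylow p J, H ≤ S := by
  intro k
  induction k with
  | zero => intro J _ _ hk; have : 0 < Nat.card J := Nat.card_pos; omega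
  | succ k ih =>
    intro J _ _ hk H hsn hH S
    by_cases htop : H = ⊤
    · obtain ⟨S', hS'⟩ := hH.exists_le_sylow
      have hS'top : (S' : Subgroup J) = ⊤ := top_le_iff.mp (htop ▸ hS')
      have hJ : IsPGroup p J := S'.2.of_equiv ((MulEquiv.subgroupCongr hS'top).trans Subgroup.topEquiv)
      rw [S.is_maximal' (hJ.to_subgroup ⊤) le_top |>.symm]
      exact le_top
    obtain ⟨N, hN, hHN, hNt⟩ := hsn.exists_normal_and_le_and_lt_top_of_ne htop
    have hNk : Nat.card N ≤ k := by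
      have : Nat.card N < Nat.card J := by
        by_contra h
        exact hNt.ne (Subgroup.eq_top_of_le_card N (not_lt.mp h))
      omega
    obtain ⟨SN⟩ : Nonempty (Sylow p N) := inferInstance
    let T : Subgroup J := (SN : Subgroup N).map N.subtype
    have hT : IsPGroup p T := SN.2.map _
    have hcl : Subgroup.normalClosure (H : Set J) ≤ T := by
      refine (Subgroup.closure_le T).mpr ?_
      intro y hy
      rw [Group.mem_conjugatesOfSet_iff] at hy
      obtain ⟨h, hh, hy⟩ := hy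
      obtain ⟨c, rfl⟩ := isConj_iff.mp hy
      let H' : Subgroup J := H.map (MulAut.conj c).toMonoidHom
      have hH'N : H' ≤ N := by
        rintro _ ⟨x, hx, rfl⟩
        exact hN.conj_mem x (hHN hx) c
      have hsn' : H'.IsSubnormal := hsn.map (MulEquiv.surjective (MulAut.conj c))
      have := ih (J := N) hNk (H'.subgroupOf N) hsn'.subgroupOf
        ((hH.map _).of_equiv (Subgroup.subgroupOfEquivOfLe hH'N).symm) SN
        (show (⟨c * h * c⁻¹, hH'N ⟨h, hh, rfl⟩⟩ : N) ∈ H'.subgroupOf N from ⟨h, hh, rfl⟩)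
      exact ⟨_, this, rfl⟩
    have hP : IsPGroup p (Subgroup.normalClosure (H : Set J)) := hT.to_le hcl
    obtain ⟨S', hS'⟩ := hP.exists_le_sylow
    obtain ⟨c, hc⟩ := MulAction.exists_smul_eq J S' S
    intro x hx
    have h1 : c⁻¹ * x * (c⁻¹)⁻¹ ∈ (S' : Subgroup J) :=
      hS' ((Subgroup.normalClosure_normal).conj_mem x (Subgroup.subset_normalClosure hx) c⁻¹)
    rw [← hc]
    exact ⟨_, h1, by simp [mul_assoc]⟩

theorem sn_of_nilpotent {J : Type*} [Group J] [Finite J] [Group.IsNilpotent J] (H : Subgroup J) :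
    H.IsSubnormal := by
  induction H using WellFoundedGT.induction with
  | ind H ih =>
    by_cases h : H = ⊤
    · rw [h]; exact Subgroup.IsSubnormal.top
    · have hlt := Group.normalizerCondition_of_isNilpotent H (lt_top_iff_ne_top.mpr h)
      exact Subgroup.IsSubnormal.step H _ hlt.le (ih _ hlt) Subgroup.normal_in_normalizer

theorem forall_mem_map {G G' : Type*} [Group G] [Group G'] {f : G →* G'} {H : Subgroup G}
    {P : G' → Prop} : (∀ y ∈ H.map f, P y) ↔ ∀ h ∈ H, P (f h) :=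
  ⟨fun h x hx => h _ (Subgroup.mem_map_of_mem f hx), by rintro h _ ⟨x, hx, rfl⟩; exact h x hx⟩

section
variable {G : Type*} [Group G]

/-- The closure of `H` under conjugation by powers of `g`. -/
def ncl (H : Subgroup G) (g : G) : Subgroup G :=
  Subgroup.closure {y | ∃ h ∈ H, ∃ i : ℤ, g ^ i * h * (g ^ i)⁻¹ = y}

theorem le_ncl (H : Subgroup G) (g : G) : H ≤ ncl H g := fun h hh =>
  Subgroup.subset_closure ⟨h, hh, 0, by simp⟩

theorem ncl_conj (H : Subgroup G) (g : G) (j : ℤ) {x : G} (hx : x ∈ ncl H g) :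
    g ^ j * x * (g ^ j)⁻¹ ∈ ncl H g := by
  induction hx using Subgroup.closure_induction with
  | mem y hy =>
    obtain ⟨h, hh, i, rfl⟩ := hy
    exact Subgroup.subset_closure ⟨h, hh, j + i, by rw [zpow_add]; group⟩
  | one => simp
  | mul a b _ _ ha hb =>
    have e : g ^ j * (a * b) * (g ^ j)⁻¹
        = (g ^ j * a * (g ^ j)⁻¹) * (g ^ j * b * (g ^ j)⁻¹) := by group
    rw [e]; exact mul_mem ha hb
  | inv a _ ha => rw [← conj_inv]; exact inv_mem ha

theorem mem_normalizer_ncl (H : Subgroup G) (g : G) :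
    g ∈ Subgroup.normalizer (ncl H g : Set G) := by
  rw [Subgroup.mem_normalizer_iff]
  intro x
  constructor
  · intro hx; simpa using ncl_conj H g 1 hx
  · intro hx
    have := ncl_conj H g (-1) hx
    simpa [mul_assoc] using this

theorem ncl_le {H P : Subgroup G} (hHP : H ≤ P) {g : G}
    (hg : g ∈ Subgroup.normalizer (P : Set G)) : ncl H g ≤ P := by
  refine (Subgroup.closure_le P).mpr ?_
  rintro y ⟨h, hh, i, rfl⟩
  exact ((Subgroup.mem_normalizer_iff.mp (zpow_mem hg i)) h).mp (hHP hh)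

theorem map_ncl {G' : Type*} [Group G'] (f : G →* G') (H : Subgroup G) (g : G) :
    (ncl H g).map f = ncl (H.map f) (f g) := by
  unfold ncl
  rw [MonoidHom.map_closure]
  congr 1
  ext y
  constructor
  · rintro ⟨_, ⟨h, hh, i, rfl⟩, rfl⟩
    exact ⟨f h, ⟨h, hh, rfl⟩, i, by simp⟩
  · rintro ⟨_, ⟨h, hh, rfl⟩, i, rfl⟩
    exact ⟨_, ⟨h, hh, i, rfl⟩, by simp⟩

theorem theta_iff [Finite G] (p : ℕ) [Fact p.Prime] (H : Subgroup G) (hH : IsPGroup p H) (g : G) :
    (H.subgroupOf (H ⊔ Subgroup.zpowers g)).IsSubnormal ↔ IsPGroup p (ncl H g) := by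
  constructor
  · intro hsn
    obtain ⟨J, hJ⟩ : ∃ J, J = H ⊔ Subgroup.zpowers g := ⟨_, rfl⟩
    rw [← hJ] at hsn
    have hHJ : H ≤ J := hJ ▸ le_sup_left
    have hgJ : g ∈ J := hJ ▸ (le_sup_right : Subgroup.zpowers g ≤ _) (Subgroup.mem_zpowers g)
    have hall := sn_le_sylow p (Nat.card J) le_rfl (H.subgroupOf J) hsn
      (hH.of_equiv (Subgroup.subgroupOfEquivOfLe hHJ).symm)
    obtain ⟨S⟩ : Nonempty (Sylow p J) := inferInstance
    refine (S.2.map J.subtype).to_le ((Subgroup.closure_le _).mpr ?_)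
    rintro y ⟨h, hh, i, rfl⟩
    have hgi : g ^ i ∈ J := zpow_mem hgJ i
    obtain ⟨x, hx, hxe⟩ : ∃ x ∈ (S : Subgroup J),
        x = (⟨g ^ i, hgi⟩ : J) * ⟨h, hHJ hh⟩ * (⟨g ^ i, hgi⟩ : J)⁻¹ := by
      refine ⟨_, ?_, rfl⟩
      have h1 := hall ((⟨g ^ i, hgi⟩ : J)⁻¹ • S) (show (⟨h, hHJ hh⟩ : J) ∈ H.subgroupOf J from hh)
      obtain ⟨z, hz, hze⟩ := h1
      have : z = (⟨g ^ i, hgi⟩ : J) * ⟨h, hHJ hh⟩ * (⟨g ^ i, hgi⟩ : J)⁻¹ := by
        rw [← hze]; simp [mul_assoc]
      exact this ▸ hz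
    exact ⟨x, hx, by rw [hxe]; rfl⟩
  · intro hP
    obtain ⟨J, hJ⟩ : ∃ J, J = H ⊔ Subgroup.zpowers g := ⟨_, rfl⟩
    rw [← hJ]
    have hJN : J ≤ Subgroup.normalizer (ncl H g : Set G) := hJ ▸
      sup_le ((le_ncl H g).trans Subgroup.le_normalizer)
        (Subgroup.zpowers_le.mpr (mem_normalizer_ncl H g))
    let P' : Subgroup J := (ncl H g).subgroupOf J
    have hP'n : P'.Normal := ⟨fun x hx c =>
      ((Subgroup.mem_normalizer_iff.mp (hJN c.2)) x).mp hx⟩
    have hP'p : IsPGroup p P' := fun x => by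
      obtain ⟨k, hk⟩ := hP ⟨(x : J), x.2⟩
      refine ⟨k, Subtype.ext (Subtype.ext ?_)⟩
      simpa using congrArg Subtype.val hk
    haveI : Group.IsNilpotent P' := hP'p.isNilpotent
    have hle : H.subgroupOf J ≤ P' := fun x hx => le_ncl H g hx
    exact Subgroup.IsSubnormal.trans hle (sn_of_nilpotent _) hP'n.isSubnormal

theorem card_preimage [Finite G] (N : Subgroup G) [N.Normal] (S : Set (G ⧸ N)) :
    Nat.card {g : G // QuotientGroup.mk' N g ∈ S} = Nat.card N * Nat.card S := by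
  rw [← Nat.card_prod]
  exact Nat.card_congr (QuotientGroup.preimageMkEquivSubgroupProdSet N S)

theorem card_map_mul [Finite G] (N : Subgroup G) [N.Normal] {K : Subgroup G} (h : N ≤ K) :
    Nat.card N * Nat.card (K.map (QuotientGroup.mk' N)) = Nat.card K := by
  refine (card_preimage N ((K.map (QuotientGroup.mk' N)) : Set (G ⧸ N))).symm.trans ?_
  refine Nat.card_congr (Equiv.subtypeEquivRight fun g => ?_)
  rw [SetLike.mem_coe]
  show g ∈ (K.map (QuotientGroup.mk' N)).comap (QuotientGroup.mk' N) ↔ g ∈ K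
  rw [Subgroup.comap_map_eq, QuotientGroup.ker_mk', sup_eq_left.mpr h]

/-- Counting in one coset of a normal subgroup of order prime to `p`. -/
theorem fibre [Finite G] (p : ℕ) [Fact p.Prime] (N : Subgroup G) [N.Normal]
    (hN : (Nat.card N).Coprime p) (H : Subgroup G) (hH : IsPGroup p H) (x : G ⧸ N)
    (hx : IsPGroup p (ncl (H.map (QuotientGroup.mk' N)) x)) :
    Nat.card {g : G // QuotientGroup.mk' N g = x ∧ IsPGroup p (ncl H g)} =
      Nat.card ↥(N ⊓ Subgroup.centralizer (H : Set G)) := by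
  classical
  obtain ⟨π, hπ⟩ : ∃ π : G →* G ⧸ N, π = QuotientGroup.mk' N := ⟨_, rfl⟩
  rw [← hπ] at hx ⊢
  obtain ⟨R, hR⟩ : ∃ R, R = (ncl (H.map π) x).comap π := ⟨_, rfl⟩
  have hker : π.ker = N := by rw [hπ, QuotientGroup.ker_mk']
  have hsur : Function.Surjective π := hπ ▸ QuotientGroup.mk'_surjective N
  have hNR : N ≤ R := fun g hg => by
    rw [hR, Subgroup.mem_comap]
    rw [show π g = 1 from MonoidHom.mem_ker.mp (by rw [hker]; exact hg)]
    exact one_mem _
  have hHR : H ≤ R := fun h hh => hR ▸ le_ncl _ _ (Subgroup.mem_map_of_mem π hh)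
  obtain ⟨e, he⟩ := hx.exists_card_eq
  have hRcard : Nat.card R = Nat.card N * p ^ e := by
    rw [← card_map_mul N hNR, ← hπ, hR, Subgroup.map_comap_eq_self_of_surjective hsur, he]
  -- Sylow subgroup of `R` above `H`
  obtain ⟨S, hS⟩ := (hH.of_equiv (Subgroup.subgroupOfEquivOfLe hHR).symm).exists_le_sylow
  obtain ⟨R0, hR0⟩ : ∃ R0, R0 = (S : Subgroup R).map R.subtype := ⟨_, rfl⟩
  have hHR0 : H ≤ R0 := fun h hh => hR0 ▸ ⟨⟨h, hHR hh⟩, hS hh, rfl⟩
  have hR0R : R0 ≤ R := hR0 ▸ Subgroup.map_subtype_le _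
  have hR0p : IsPGroup p R0 := hR0 ▸ S.2.map _
  have hR0card : Nat.card R0 = p ^ e := by
    rw [hR0, Subgroup.card_map_of_injective R.subtype_injective, S.card_eq_multiplicity, hRcard,
      Nat.factorization_mul Nat.card_pos.ne' (pow_ne_zero _ (Fact.out : p.Prime).ne_zero)]
    congr 1
    rw [Finsupp.add_apply, (Fact.out : p.Prime).factorization_pow, Finsupp.single_eq_same,
      Nat.factorization_eq_zero_of_not_dvd, zero_add]
    exact ((Nat.Prime.coprime_iff_not_dvd Fact.out).mp hN.symm)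
  have hdisj : N ⊓ R0 = ⊥ := by
    apply Subgroup.inf_eq_bot_of_coprime
    rw [hR0card]
    exact hN.pow_right e
  have hR0map : R0.map π = ncl (H.map π) x := by
    have hle : R0.map π ≤ ncl (H.map π) x := by
      rintro _ ⟨y, hy, rfl⟩
      exact (hR ▸ hR0R hy : y ∈ (ncl (H.map π) x).comap π)
    refine Subgroup.eq_of_le_of_card_ge hle ?_
    rw [he, ← hR0card]
    refine Nat.card_le_card_of_injective
      (fun y : R0 => (⟨π y, Subgroup.mem_map_of_mem π y.2⟩ : R0.map π)) ?_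
    intro y y' h
    have h' : π y = π y' := congrArg Subtype.val h
    have : (y : G)⁻¹ * y' ∈ N ⊓ R0 := Subgroup.mem_inf.mpr
      ⟨by rw [← hker, MonoidHom.mem_ker, map_mul, map_inv, h', inv_mul_cancel],
        mul_mem (inv_mem y.2) y'.2⟩
    rw [hdisj, Subgroup.mem_bot] at this
    exact Subtype.ext (inv_mul_eq_one.mp this)
  have hsplit : ∀ y ∈ R, ∃ n ∈ N, ∃ r ∈ R0, y = n * r := by
    intro y hy
    have : π y ∈ R0.map π := by rw [hR0map]; exact (hR ▸ hy : y ∈ _)
    obtain ⟨r, hr, hre⟩ := this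
    refine ⟨y * r⁻¹, ?_, r, hr, by group⟩
    rw [← hker, MonoidHom.mem_ker, map_mul, map_inv, hre, mul_inv_cancel]
  -- the conjugates of `R0`
  have hcompl : ∀ (T : Subgroup G), T ≤ R → H ≤ T → IsPGroup p T → Nat.card T = p ^ e →
      ∃ c ∈ N ⊓ Subgroup.centralizer (H : Set G), ∀ y, y ∈ T ↔ c⁻¹ * y * c ∈ R0 := by
    intro T hTR hHT hTp hTc
    have hTS : Nat.card (T.subgroupOf R) = p ^ (Nat.card R).factorization p := by
      rw [Nat.card_congr (Subgroup.subgroupOfEquivOfLe hTR).toEquiv, hTc, ← hR0card, hR0,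
        Subgroup.card_map_of_injective R.subtype_injective, S.card_eq_multiplicity]
    obtain ⟨k, hk⟩ := MulAction.exists_smul_eq R S (Sylow.ofCard _ hTS)
    obtain ⟨n, hn, r, hr, hkn⟩ := hsplit k k.2
    have hmem : ∀ y, y ∈ T ↔ (k : G)⁻¹ * y * k ∈ R0 := by
      intro y
      constructor
      · intro hy
        have h1 : (⟨y, hTR hy⟩ : R) ∈ ((Sylow.ofCard _ hTS : Sylow p R) : Subgroup R) := hy
        rw [← hk] at h1
        obtain ⟨z, hz, hze⟩ := h1
        have hze' : (k : G) * z * (k : G)⁻¹ = y := congrArg Subtype.val hze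
        rw [← hze', hR0]
        exact ⟨z, hz, by simp [mul_assoc]⟩
      · intro hy
        rw [hR0] at hy
        obtain ⟨z, hz, hze⟩ := hy
        have h1 : k * z * k⁻¹ ∈ ((k • S : Sylow p R) : Subgroup R) := ⟨z, hz, rfl⟩
        rw [hk] at h1
        have hze' : (z : G) = (k : G)⁻¹ * y * k := hze
        have : (k : G) * z * (k : G)⁻¹ = y := by rw [hze']; group
        exact this ▸ h1
    have hmem' : ∀ y, y ∈ T ↔ n⁻¹ * y * n ∈ R0 := by
      intro y
      rw [hmem, hkn]
      have e1 : (n * r)⁻¹ * y * (n * r) = r⁻¹ * (n⁻¹ * y * n) * r := by group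
      rw [e1, R0.mul_mem_cancel_right hr, R0.mul_mem_cancel_left (inv_mem hr)]
    refine ⟨n, Subgroup.mem_inf.mpr ⟨hn, ?_⟩, hmem'⟩
    rw [Subgroup.mem_centralizer_iff]
    intro h hh
    have h1 : h⁻¹ * (n⁻¹ * h * n) ∈ N ⊓ R0 := by
      refine Subgroup.mem_inf.mpr ⟨?_, mul_mem (inv_mem (hHR0 hh)) ((hmem' h).mp (hHT hh))⟩
      rw [← mul_assoc, ← mul_assoc]
      refine mul_mem ?_ hn
      simpa using (inferInstance : N.Normal).conj_mem _ (inv_mem hn) h⁻¹
    rw [hdisj, Subgroup.mem_bot] at h1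
    have h2 : h = n⁻¹ * h * n := inv_mul_eq_one.mp h1
    calc h * n = n * (n⁻¹ * h * n) := by group
      _ = n * h := by rw [← h2]
  have hncl : ∀ g, π g = x → IsPGroup p (ncl H g) →
      ncl H g ≤ R ∧ Nat.card (ncl H g) = p ^ e := by
    intro g hg hgp
    have hm : (ncl H g).map π = ncl (H.map π) x := by rw [map_ncl, hg]
    have hle : ncl H g ≤ R := by
      rw [hR, ← hm]; exact Subgroup.le_comap_map _ _
    refine ⟨hle, ?_⟩
    obtain ⟨l, hl⟩ := hgp.exists_card_eq
    apply le_antisymm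
    · have h1 := Subgroup.card_dvd_of_le hle
      rw [hl, hRcard] at h1
      rw [hl]
      exact Nat.le_of_dvd (pow_pos (Fact.out : p.Prime).pos _)
        ((hN.symm.pow_left l).dvd_of_dvd_mul_left h1)
    · rw [← he, ← hm]
      exact Nat.card_le_card_of_surjective (π.subgroupMap (ncl H g))
        (MonoidHom.subgroupMap_surjective π _)
  have hconjx : ∀ g, π g = x → ∀ y, y ∈ R ↔ g * y * g⁻¹ ∈ R := by
    intro g hg y
    rw [hR, Subgroup.mem_comap, Subgroup.mem_comap, map_mul, map_mul, map_inv, hg]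
    exact (Subgroup.mem_normalizer_iff.mp (mem_normalizer_ncl _ x)) _
  -- an element of the coset normalising `R0`
  obtain ⟨g1, hg1, hg1N⟩ : ∃ g1, π g1 = x ∧ g1 ∈ Subgroup.normalizer (R0 : Set G) := by
    obtain ⟨g0, hg0⟩ := hsur x
    let T : Subgroup G := R0.map (MulAut.conj g0).toMonoidHom
    have hTR : T ≤ R := by
      rintro _ ⟨y, hy, rfl⟩
      exact (hconjx g0 hg0 y).mp (hR0R hy)
    have hTS : Nat.card (T.subgroupOf R) = p ^ (Nat.card R).factorization p := by
      rw [Nat.card_congr (Subgroup.subgroupOfEquivOfLe hTR).toEquiv,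
        Subgroup.card_map_of_injective (MulAut.conj g0).injective, hR0,
        Subgroup.card_map_of_injective R.subtype_injective, S.card_eq_multiplicity]
    obtain ⟨k, hk⟩ := MulAction.exists_smul_eq R S (Sylow.ofCard _ hTS)
    obtain ⟨n, hn, r, hr, hkn⟩ := hsplit k k.2
    refine ⟨n⁻¹ * g0, ?_, ?_⟩
    · rw [map_mul, map_inv, show π n = 1 from MonoidHom.mem_ker.mp (by rw [hker]; exact hn),
        inv_one, one_mul, hg0]
    · have key : ∀ y ∈ R0, n⁻¹ * g0 * y * (n⁻¹ * g0)⁻¹ ∈ R0 := by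
        intro y hy
        have h1 : (⟨g0 * y * g0⁻¹, hTR ⟨y, hy, rfl⟩⟩ : R) ∈
            ((Sylow.ofCard _ hTS : Sylow p R) : Subgroup R) := ⟨y, hy, rfl⟩
        rw [← hk] at h1
        obtain ⟨z, hz, hze⟩ := h1
        have hze' : (k : G) * z * (k : G)⁻¹ = g0 * y * g0⁻¹ := congrArg Subtype.val hze
        have e1 : n⁻¹ * g0 * y * (n⁻¹ * g0)⁻¹ = r * z * r⁻¹ := by
          calc n⁻¹ * g0 * y * (n⁻¹ * g0)⁻¹ = n⁻¹ * (g0 * y * g0⁻¹) * n := by group
            _ = n⁻¹ * ((n * r) * z * (n * r)⁻¹) * n := by rw [← hze', hkn]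
            _ = r * z * r⁻¹ := by group
        rw [e1]
        exact mul_mem (mul_mem hr (hR0 ▸ ⟨z, hz, rfl⟩)) (inv_mem hr)
      exact Subgroup.mem_normalizer_fintype key
  obtain ⟨C, hC⟩ : ∃ C, C = N ⊓ Subgroup.centralizer (H : Set G) := ⟨_, rfl⟩
  obtain ⟨D, hD⟩ : ∃ D, D = N ⊓ Subgroup.normalizer (R0 : Set G) := ⟨_, rfl⟩
  rw [← hC] at hcompl ⊢
  have hDC : D ≤ C := by
    intro d hd
    rw [hD] at hd
    rw [hC]
    refine Subgroup.mem_inf.mpr ⟨hd.1, ?_⟩
    rw [Subgroup.mem_centralizer_iff]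
    intro h hh
    have h1 : h⁻¹ * (d * h * d⁻¹) ∈ N ⊓ R0 := by
      refine Subgroup.mem_inf.mpr ⟨?_, mul_mem (inv_mem (hHR0 hh))
        ((Subgroup.mem_normalizer_iff.mp hd.2 h).mp (hHR0 hh))⟩
      rw [← mul_assoc, ← mul_assoc]
      refine mul_mem ?_ (inv_mem hd.1)
      simpa using (inferInstance : N.Normal).conj_mem _ hd.1 h⁻¹
    rw [hdisj, Subgroup.mem_bot] at h1
    have h2 : h = d * h * d⁻¹ := inv_mul_eq_one.mp h1
    calc h * d = (d * h * d⁻¹) * d := by rw [← h2]
      _ = d * h := by group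
  have hDm : ∀ u, u ∈ D ↔ u ∈ N ∧ u ∈ Subgroup.normalizer (R0 : Set G) := fun u => by
    rw [hD]; exact Subgroup.mem_inf
  have hCm : ∀ u, u ∈ C → u ∈ N := fun u hu => by rw [hC] at hu; exact hu.1
  have hprop : ∀ c ∈ C, ∀ d ∈ D, π (c * (g1 * d) * c⁻¹) = x ∧
      IsPGroup p (ncl H (c * (g1 * d) * c⁻¹)) ∧
      ∀ y, y ∈ ncl H (c * (g1 * d) * c⁻¹) ↔ c⁻¹ * y * c ∈ R0 := by
    intro c hc d hd
    rw [hC] at hc
    rw [hD] at hd
    have hπ1 : ∀ u ∈ N, π u = 1 := fun u hu => MonoidHom.mem_ker.mp (by rw [hker]; exact hu)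
    have h1 : π (c * (g1 * d) * c⁻¹) = x := by
      rw [map_mul, map_mul, map_mul, hπ1 c hc.1, hπ1 d hd.1, map_inv, hπ1 c hc.1, hg1]
      simp
    let T : Subgroup G := R0.map (MulAut.conj c).toMonoidHom
    have hTm : ∀ y, y ∈ T ↔ c⁻¹ * y * c ∈ R0 := by
      intro y
      constructor
      · rintro ⟨z, hz, rfl⟩; simpa [mul_assoc] using hz
      · intro hy; exact ⟨_, hy, by simp [mul_assoc]⟩
    have hHT : H ≤ T := fun h hh => by
      rw [hTm]
      have := Subgroup.mem_centralizer_iff.mp hc.2 h hh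
      rw [mul_assoc, this, ← mul_assoc, inv_mul_cancel, one_mul]
      exact hHR0 hh
    have hgT : c * (g1 * d) * c⁻¹ ∈ Subgroup.normalizer (T : Set G) := by
      rw [Subgroup.mem_normalizer_iff]
      intro y
      rw [hTm, hTm]
      have := Subgroup.mem_normalizer_iff.mp (mul_mem hg1N hd.2) (c⁻¹ * y * c)
      rw [this]
      congr! 1
      group
    have hle := ncl_le hHT hgT
    have hTp : IsPGroup p T := hR0p.map _
    have h2 : IsPGroup p (ncl H (c * (g1 * d) * c⁻¹)) := hTp.to_le hle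
    refine ⟨h1, h2, fun y => ?_⟩
    rw [Subgroup.eq_of_le_of_card_ge hle (by
      rw [(hncl _ h1 h2).2, Subgroup.card_map_of_injective (MulAut.conj c).injective, hR0card])]
    exact hTm y
  symm
  rw [Subgroup.card_eq_card_quotient_mul_card_subgroup (D.subgroupOf C),
    Nat.card_congr (Subgroup.subgroupOfEquivOfLe hDC).toEquiv, ← Nat.card_prod]
  let F : (C ⧸ D.subgroupOf C) × D → {g : G // π g = x ∧ IsPGroup p (ncl H g)} := fun q =>
    ⟨(q.1.out : G) * (g1 * (q.2 : G)) * (q.1.out : G)⁻¹,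
      (hprop _ q.1.out.2 _ q.2.2).1, (hprop _ q.1.out.2 _ q.2.2).2.1⟩
  refine Nat.card_eq_of_bijective F ⟨?_, ?_⟩
  · rintro ⟨q, d⟩ ⟨q', d'⟩ h
    have h' : (q.out : G) * (g1 * (d : G)) * (q.out : G)⁻¹
        = (q'.out : G) * (g1 * (d' : G)) * (q'.out : G)⁻¹ := congrArg Subtype.val h
    have hq : q = q' := by
      rw [← QuotientGroup.out_eq' q, ← QuotientGroup.out_eq' q', QuotientGroup.eq]
      show (q.out : G)⁻¹ * (q'.out : G) ∈ D
      rw [hDm]
      refine ⟨mul_mem (inv_mem (hCm _ q.out.2)) (hCm _ q'.out.2), ?_⟩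
      refine Subgroup.mem_normalizer_fintype fun y hy => ?_
      have h1 := ((hprop _ q'.out.2 _ d'.2).2.2 ((q'.out : G) * y * (q'.out : G)⁻¹)).mpr (by
        simpa [mul_assoc] using hy)
      rw [← h'] at h1
      have h2 := ((hprop _ q.out.2 _ d.2).2.2 _).mp h1
      simpa [mul_assoc] using h2
    subst hq
    exact Prod.ext rfl (Subtype.ext (mul_left_cancel (mul_left_cancel (mul_right_cancel h'))))
  · rintro ⟨g, hg, hgp⟩
    obtain ⟨hle, hcard⟩ := hncl g hg hgp
    obtain ⟨c, hc, hcm⟩ := hcompl _ hle (le_ncl H g) hgp hcard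
    obtain ⟨q, hq⟩ : ∃ q : C ⧸ D.subgroupOf C, q = QuotientGroup.mk (⟨c, hc⟩ : C) := ⟨_, rfl⟩
    have hqd : (q.out : G)⁻¹ * c ∈ D := by
      have := QuotientGroup.out_eq' q
      rw [hq, QuotientGroup.eq] at this
      rw [hq]
      exact this
    have hgn : (q.out : G)⁻¹ * g * q.out ∈ Subgroup.normalizer (R0 : Set G) := by
      rw [hDm] at hqd
      have hcg : c⁻¹ * g * c ∈ Subgroup.normalizer (R0 : Set G) := by
        refine Subgroup.mem_normalizer_fintype fun y hy => ?_
        have h1 : c * y * c⁻¹ ∈ ncl H g := (hcm _).mpr (by simpa [mul_assoc] using hy)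
        have h2 := (hcm _).mp ((Subgroup.mem_normalizer_iff.mp (mem_normalizer_ncl H g) _).mp h1)
        simpa [mul_assoc] using h2
      have e1 : (q.out : G)⁻¹ * g * q.out
          = ((q.out : G)⁻¹ * c) * (c⁻¹ * g * c) * ((q.out : G)⁻¹ * c)⁻¹ := by group
      rw [e1]
      exact mul_mem (mul_mem hqd.2 hcg) (inv_mem hqd.2)
    have hd : g1⁻¹ * ((q.out : G)⁻¹ * g * q.out) ∈ D := by
      rw [hDm]
      refine ⟨?_, mul_mem (inv_mem hg1N) hgn⟩
      have hqN : π (q.out : G) = 1 :=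
        MonoidHom.mem_ker.mp (by rw [hker]; exact hCm _ q.out.2)
      rw [← hker, MonoidHom.mem_ker]
      simp [map_mul, hqN, hg1, hg]
    refine ⟨(q, ⟨_, hd⟩), Subtype.ext ?_⟩
    show (q.out : G) * (g1 * (g1⁻¹ * ((q.out : G)⁻¹ * g * q.out))) * (q.out : G)⁻¹ = g
    group

end

/-- The count, by induction on the length of the chain. -/
theorem count (p : ℕ) [Fact p.Prime] : ∀ (n : ℕ), ∀ {G : Type*} [Group G] [Finite G]
    (H : Subgroup G), IsPGroup p H → ∀ (M : Fin (n + 1) → Subgroup G), M 0 = ⊥ →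
    M (Fin.last n) = ⊤ → Monotone M → (∀ i, (M i).Normal) →
    (∀ i : Fin n, (∃ m : ℕ, (M i.castSucc).relIndex (M i.succ) = p ^ m) ∨
      ((M i.castSucc).relIndex (M i.succ)).Coprime p) →
    Nat.card {g : G // IsPGroup p (ncl H g)} =
      p ^ (Nat.card G).factorization p *
        ∏ i : Fin n, (if ((M i.castSucc).relIndex (M i.succ)).Coprime p then
          Nat.card {u : G // u ∈ M i.succ ∧ ∀ h ∈ H, h * u * h⁻¹ * u⁻¹ ∈ M i.castSucc}
            / Nat.card (M i.castSucc)
          else 1) := by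
  intro n
  induction n with
  | zero =>
    intro G _ _ H hH M h0 hn _ _ _
    have hbt : (⊥ : Subgroup G) = ⊤ := h0.symm.trans hn
    have h1 : Nat.card G = 1 := by rw [← Subgroup.card_top, ← hbt, Subgroup.card_bot]
    haveI : Subsingleton G := (Nat.card_eq_one_iff_unique.mp h1).1
    haveI : Nonempty {g : G // IsPGroup p (ncl H g)} :=
      ⟨⟨1, fun x => ⟨0, Subsingleton.elim _ _⟩⟩⟩
    simp [h1, Nat.card_unique]
  | succ n ih =>
    intro G _ _ H hH M h0 hn hmono hnormal hfac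
    obtain ⟨N, hNdef⟩ : ∃ N, N = M (Fin.succ 0) := ⟨_, rfl⟩
    haveI hNn : N.Normal := hNdef ▸ hnormal _
    obtain ⟨M', hM'⟩ : ∃ M' : Fin (n + 1) → Subgroup (G ⧸ N),
        ∀ i, M' i = (M i.succ).map (QuotientGroup.mk' N) := ⟨_, fun _ => rfl⟩
    have hNM : ∀ i : Fin (n + 1), N ≤ M i.succ := fun i => hNdef ▸ hmono (Fin.succ_le_succ_iff.mpr (Fin.zero_le i))
    have hrel : ∀ i : Fin n, (M' i.castSucc).relIndex (M' i.succ) =
        (M i.succ.castSucc).relIndex (M i.succ.succ) := by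
      intro i
      rw [hM', hM', ← Subgroup.relIndex_comap, Subgroup.comap_map_eq, QuotientGroup.ker_mk',
        sup_eq_left.mpr (hNM _), Fin.succ_castSucc]
    have hih := ih (G := G ⧸ N) (H.map (QuotientGroup.mk' N)) (hH.map _) M'
      (by rw [hM', ← hNdef]; exact QuotientGroup.map_mk'_self N)
      (by rw [hM', Fin.succ_last, hn]; exact Subgroup.map_top_of_surjective _ (QuotientGroup.mk'_surjective N))
      (fun i j hij => by rw [hM', hM']; exact Subgroup.map_mono (hmono (Fin.succ_le_succ_iff.mpr hij)))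
      (fun i => by rw [hM']; exact (hnormal _).map _ (QuotientGroup.mk'_surjective N))
      (fun i => by rw [hrel]; exact hfac i.succ)
    have hterm : ∀ i : Fin n, (if ((M' i.castSucc).relIndex (M' i.succ)).Coprime p then
          Nat.card {u : G ⧸ N // u ∈ M' i.succ ∧ ∀ h ∈ H.map (QuotientGroup.mk' N),
            h * u * h⁻¹ * u⁻¹ ∈ M' i.castSucc} / Nat.card (M' i.castSucc)
          else 1) =
        (if ((M i.succ.castSucc).relIndex (M i.succ.succ)).Coprime p then
          Nat.card {u : G // u ∈ M i.succ.succ ∧ ∀ h ∈ H, h * u * h⁻¹ * u⁻¹ ∈ M i.succ.castSucc}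
            / Nat.card (M i.succ.castSucc)
          else 1) := by
      intro i
      rw [hrel]
      congr 1
      have hcomap : ∀ j : Fin (n + 1), ∀ u, QuotientGroup.mk' N u ∈ M' j ↔ u ∈ M j.succ := by
        intro j u
        rw [hM', ← Subgroup.mem_comap, Subgroup.comap_map_eq, QuotientGroup.ker_mk',
          sup_eq_left.mpr (hNM _)]
      have hset : Nat.card {u : G // u ∈ M i.succ.succ ∧
            ∀ h ∈ H, h * u * h⁻¹ * u⁻¹ ∈ M i.succ.castSucc} =
          Nat.card N * Nat.card {u : G ⧸ N // u ∈ M' i.succ ∧ ∀ h ∈ H.map (QuotientGroup.mk' N),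
            h * u * h⁻¹ * u⁻¹ ∈ M' i.castSucc} := by
        refine Eq.trans (Nat.card_congr (Equiv.subtypeEquivRight fun u => ?_))
          (card_preimage N {u : G ⧸ N | u ∈ M' i.succ ∧ ∀ h ∈ H.map (QuotientGroup.mk' N),
            h * u * h⁻¹ * u⁻¹ ∈ M' i.castSucc})
        rw [Set.mem_setOf_eq, hcomap, forall_mem_map]
        refine and_congr Iff.rfl (forall₂_congr fun h _ => ?_)
        rw [← map_inv, ← map_inv, ← map_mul, ← map_mul, ← map_mul, hcomap, Fin.succ_castSucc]
      rw [hset, ← Fin.succ_castSucc, ← card_map_mul N (hNM i.castSucc), ← hM',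
        Nat.mul_div_mul_left _ _ Nat.card_pos]
    rw [Finset.prod_congr rfl (fun i _ => hterm i)] at hih
    rw [Fin.prod_univ_succ]
    have hrel0 : (M (Fin.castSucc 0)).relIndex (M (Fin.succ 0)) = Nat.card N := by
      rw [Fin.castSucc_zero, h0, Subgroup.relIndex_bot_left, hNdef]
    have hGcard : Nat.card G = Nat.card N * Nat.card (G ⧸ N) := by
      rw [Subgroup.card_eq_card_quotient_mul_card_subgroup N, mul_comm]
    have hfactN : (Nat.card G).factorization p =
        (Nat.card N).factorization p + (Nat.card (G ⧸ N)).factorization p := by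
      rw [hGcard, Nat.factorization_mul Nat.card_pos.ne' Nat.card_pos.ne', Finsupp.add_apply]
    rw [hrel0]
    by_cases hcop : (Nat.card N).Coprime p
    · rw [if_pos hcop, hfactN, Nat.factorization_eq_zero_of_not_dvd
        ((Nat.Prime.coprime_iff_not_dvd Fact.out).mp hcop.symm), zero_add]
      have hC : Nat.card {u : G // u ∈ M (Fin.succ 0) ∧
            ∀ h ∈ H, h * u * h⁻¹ * u⁻¹ ∈ M (Fin.castSucc 0)} / Nat.card (M (Fin.castSucc 0)) =
          Nat.card ↥(N ⊓ Subgroup.centralizer (H : Set G)) := by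
        rw [Fin.castSucc_zero, h0, Subgroup.card_bot, Nat.div_one]
        refine Nat.card_congr (Equiv.subtypeEquivRight fun u => ?_)
        rw [← hNdef, Subgroup.mem_inf, Subgroup.mem_centralizer_iff]
        refine and_congr Iff.rfl (forall₂_congr fun h _ => ?_)
        rw [Subgroup.mem_bot, mul_inv_eq_one, mul_inv_eq_iff_eq_mul]
      rw [hC]
      classical
      haveI := Fintype.ofFinite (G ⧸ N)
      have hsum : Nat.card {g : G // IsPGroup p (ncl H g)} =
          Nat.card {y : G ⧸ N // IsPGroup p (ncl (H.map (QuotientGroup.mk' N)) y)} *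
            Nat.card ↥(N ⊓ Subgroup.centralizer (H : Set G)) := by
        let f : {g : G // IsPGroup p (ncl H g)} →
            {y : G ⧸ N // IsPGroup p (ncl (H.map (QuotientGroup.mk' N)) y)} := fun g =>
          ⟨QuotientGroup.mk' N g.1, map_ncl (QuotientGroup.mk' N) H g.1 ▸ g.2.map _⟩
        rw [← Nat.card_congr (Equiv.sigmaFiberEquiv f), Nat.card_sigma]
        rw [Finset.sum_const_nat (m := Nat.card ↥(N ⊓ Subgroup.centralizer (H : Set G))) ?_,
          Finset.card_univ, ← Nat.card_eq_fintype_card]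
        intro y _
        rw [← fibre p N hcop H hH y.1 y.2]
        refine Nat.card_congr
          { toFun := fun g => ⟨g.1.1, congrArg Subtype.val g.2, g.1.2⟩
            invFun := fun g => ⟨⟨g.1, g.2.2⟩, Subtype.ext g.2.1⟩
            left_inv := fun g => rfl
            right_inv := fun g => rfl }
      rw [hsum, hih]
      ring
    · rw [if_neg hcop, one_mul]
      obtain ⟨m, hm⟩ := (hfac 0).resolve_right (by rw [hrel0]; exact hcop)
      rw [hrel0] at hm
      have hNp : IsPGroup p N := IsPGroup.of_card hm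
      have hsum : Nat.card {g : G // IsPGroup p (ncl H g)} = Nat.card N *
          Nat.card {y : G ⧸ N // IsPGroup p (ncl (H.map (QuotientGroup.mk' N)) y)} := by
        refine Eq.trans (Nat.card_congr (Equiv.subtypeEquivRight fun g => ?_))
          (card_preimage N {y : G ⧸ N | IsPGroup p (ncl (H.map (QuotientGroup.mk' N)) y)})
        rw [Set.mem_setOf_eq, ← map_ncl]
        refine ⟨fun h => h.map _, fun h => ?_⟩
        refine (h.comap_of_ker_isPGroup _ ?_).to_le (Subgroup.le_comap_map _ _)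
        rw [QuotientGroup.ker_mk']
        exact hNp
      rw [hsum, hih, hfactN, pow_add]
      have : Nat.card N = p ^ (Nat.card N).factorization p := by
        rw [hm, (Fact.out : p.Prime).factorization_pow, Finsupp.single_eq_same]
      rw [← this, mul_assoc]

/-- Let G be a finite p-solvable group, H a p-subgroup of G and P a Sylow p-subgroup, and fix a chain of normal subgroups 1 = M₀ ≤ M₁ ≤ ⋯ ≤ Mₙ = G of G each of whose factors is a p-group or a p'-group. Then the number of elements g of G such that H is subnormal in the subgroup generated by H and g equals the order of P times the product, over the factors Mᵢ₊₁/Mᵢ of order prime to p, of the order of the centralizer of H in Mᵢ₊₁/Mᵢ (counted as the number of u ∈ Mᵢ₊₁ with [h, u] ∈ Mᵢ for all h ∈ H, divided by the order of Mᵢ). -/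
theorem result {G : Type*} [Group G] [Finite G] (p : ℕ) [Fact p.Prime]
    (hG : Cfsg.IsPSolvable p G) (H : Subgroup G) (hH : IsPGroup p H) (P : Sylow p G)
    (n : ℕ) (M : Fin (n + 1) → Subgroup G) (h0 : M 0 = ⊥) (hn : M (Fin.last n) = ⊤) (hmono : Monotone M)
    (hnormal : ∀ i, (M i).Normal)
    (hfac : ∀ i : Fin n, (∃ m : ℕ, (M i.castSucc).relIndex (M i.succ) = p ^ m) ∨ ((M i.castSucc).relIndex (M i.succ)).Coprime p) :
    Nat.card {g : G // ((H).subgroupOf (H ⊔ Subgroup.zpowers g)).IsSubnormal} =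
      Nat.card (P : Subgroup G) *
        ∏ i : Fin n, (if ((M i.castSucc).relIndex (M i.succ)).Coprime p then
          Nat.card {u : G // u ∈ M i.succ ∧ ∀ h ∈ H, h * u * h⁻¹ * u⁻¹ ∈ M i.castSucc} / Nat.card (M i.castSucc)
          else 1) := by
  rw [Nat.card_congr (Equiv.subtypeEquivRight fun g => theta_iff p H hH g),
    Sylow.card_eq_multiplicity, count p n H hH M h0 hn hmono hnormal hfac]


end Cfsg.Agent.S4090
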