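import Cfsg.Statements.S4091
import Cfsg.Agent.Lib.Coprime.Action

set_option autoImplicit false
open Cfsg

namespace Cfsg.Agent.S4091


open Subgroup Pointwise
open scoped commutatorElement

/-! ### Two commuting automorphisms of a coprime abelian group -/

theorem key {V : Type*} [CommGroup V] [Finite V] (p : ℕ) [Fact p.Prime]
    (hV : (Nat.card V).Coprime p) (σ τ : MulAut V) (hσ : σ ^ p = 1) (hc : σ * τ = τ * σ)
    (Fx : MulAut V → Subgroup V) (hFx : ∀ α v, v ∈ Fx α ↔ α v = v) :
    ∏ i : Fin p, Nat.card (Fx (τ * σ ^ (i : ℕ))) ≤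
      (Fx σ).index * Nat.card ↥(Fx σ ⊓ Fx τ) ^ p := by
  classical
  obtain ⟨ψ, hψ⟩ : ∃ ψ : V →* V, ∀ v, ψ v = σ v / v :=
    ⟨σ.toMonoidHom / MonoidHom.id V, fun _ => rfl⟩
  have hker : ψ.ker = Fx σ := by
    ext v; rw [MonoidHom.mem_ker, hψ, hFx, div_eq_one]
  have hroot : ∀ v : V, v ^ p = 1 → v = 1 := by
    intro v hv
    rw [← orderOf_eq_one_iff]
    exact Nat.eq_one_of_dvd_coprimes hV (orderOf_dvd_natCard v) (orderOf_dvd_of_pow_eq_one hv)
  -- `σ` has no fixed points in the image of `ψ`
  have hI : ∀ v ∈ ψ.range, σ v = v → v = 1 := by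
    rintro v ⟨m, rfl⟩ hv
    have hk : ∀ k : ℕ, (σ ^ k) m = ψ m ^ k * m := by
      intro k
      induction k with
      | zero => simp
      | succ k ih =>
        rw [pow_succ', MulAut.mul_apply, ih, map_mul, map_pow, hv, pow_succ, mul_assoc]
        congr 1
        rw [hψ, div_mul_cancel]
    apply hroot
    have h := hk p
    rw [hσ, MulAut.one_apply] at h
    exact mul_eq_right.mp h.symm
  obtain ⟨A, hA⟩ : ∃ A : Fin p → Subgroup V, ∀ i, A i = ψ.range ⊓ Fx (τ * σ ^ (i : ℕ)) :=
    ⟨_, fun _ => rfl⟩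
  have hcard : ∀ i : Fin p, Nat.card (Fx (τ * σ ^ (i : ℕ))) ≤
      Nat.card (A i) * Nat.card ↥(Fx σ ⊓ Fx τ) := by
    intro i
    obtain ⟨B, hB⟩ : ∃ B, B = Fx (τ * σ ^ (i : ℕ)) := ⟨_, rfl⟩
    rw [← hB]
    have h1 := Cfsg.Agent.Lib.Coprime.card_map_mul_card_inf_ker ψ B
    rw [← h1]
    refine Nat.mul_le_mul (Subgroup.card_le_of_le ?_) (Subgroup.card_le_of_le ?_)
    · rintro _ ⟨v, hv, rfl⟩
      rw [hA]
      refine Subgroup.mem_inf.mpr ⟨⟨v, rfl⟩, ?_⟩
      rw [SetLike.mem_coe, hB, hFx] at hv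
      rw [hFx, hψ, map_div, hv]
      congr 1
      have hcomm : (τ * σ ^ (i : ℕ)) * σ = σ * (τ * σ ^ (i : ℕ)) := by
        rw [mul_assoc, ← pow_succ, pow_succ', ← mul_assoc, ← hc, mul_assoc]
      rw [← MulAut.mul_apply, hcomm, MulAut.mul_apply, hv]
    · intro v hv
      rw [Subgroup.mem_inf, hB, hker, hFx, hFx] at hv
      refine Subgroup.mem_inf.mpr ⟨(hFx σ v).mpr hv.2, (hFx τ v).mpr ?_⟩
      have h2 : ∀ k : ℕ, (σ ^ k) v = v := by
        intro k
        induction k with
        | zero => simp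
        | succ k ih => rw [pow_succ, MulAut.mul_apply, hv.2, ih]
      have h3 := hv.1
      rwa [MulAut.mul_apply, h2] at h3
  -- the subgroups `A i` are independent
  have hindep : Function.Injective
      (fun a : (i : Fin p) → A i => ∏ i, ((a i : V))) := by
    intro a b hab
    have hd : ∀ c : (i : Fin p) → A i, (∏ i, (c i : V)) = 1 → ∀ j, (c j : V) = 1 := by
      intro c hc1 j
      have hmem : ∀ i, (c i : V) ∈ ψ.range ∧ (τ * σ ^ (i : ℕ)) (c i : V) = (c i : V) := fun i => by
        have h := (c i).2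
        simp only [hA] at h
        exact ⟨(Subgroup.mem_inf.mp h).1, (hFx _ _).mp (Subgroup.mem_inf.mp h).2⟩
      obtain ⟨s, hs⟩ : ∃ s : ZMod p → V → V, ∀ k v, s k v = (σ ^ k.val) v := ⟨_, fun _ _ => rfl⟩
      have hsnat : ∀ (n : ℕ) v, s (n : ZMod p) v = (σ ^ n) v := fun n v => by
        rw [hs, ZMod.val_natCast, ← pow_eq_pow_mod n hσ]
      have hsadd : ∀ k l v, s (k + l) v = s k (s l v) := fun k l v => by
        rw [hs, hs, hs, ← MulAut.mul_apply, ← pow_add, ZMod.val_add, ← pow_eq_pow_mod _ hσ]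
      -- the norm of `σ` kills the image of `ψ`
      have hnorm : ∀ v ∈ ψ.range, (∏ k : ZMod p, s k v) = 1 := by
        intro v hv
        apply hI
        · obtain ⟨m, rfl⟩ := hv
          refine ⟨∏ k : ZMod p, s k m, ?_⟩
          rw [map_prod]
          refine Finset.prod_congr rfl fun k _ => ?_
          rw [hs, hs, hψ, hψ, map_div, ← MulAut.mul_apply, ← pow_succ', pow_succ,
            MulAut.mul_apply]
        · rw [map_prod]
          rw [← Equiv.prod_comp (Equiv.addLeft (1 : ZMod p)) (fun k => s k v)]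
          refine Finset.prod_congr rfl fun k _ => ?_
          show σ (s k v) = s (1 + k) v
          rw [hsadd, show (1 : ZMod p) = ((1 : ℕ) : ZMod p) by simp, hsnat, pow_one]
      have hτk : ∀ (i : Fin p) (k : ℕ), (τ ^ k) (c i : V) = s (-((i : ℕ) : ZMod p) * k) (c i) := by
        intro i k
        induction k with
        | zero => simp [hs]
        | succ k ih =>
          have h1 := (hmem i).2
          have hτi : τ (c i : V) = s (-((i : ℕ) : ZMod p)) (c i) := by
            have hcomm : τ * σ ^ (i : ℕ) = σ ^ (i : ℕ) * τ :=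
              ((show Commute σ τ from hc).pow_left _).eq.symm
            rw [hcomm, MulAut.mul_apply, ← hsnat] at h1
            conv_rhs => rw [← h1]
            rw [← hsadd, neg_add_cancel, hs, ZMod.val_zero, pow_zero, MulAut.one_apply]
          rw [pow_succ', MulAut.mul_apply, ih]
          have hcs : ∀ (n : ZMod p) v, τ (s n v) = s n (τ v) := fun n v => by
            rw [hs, hs, ← MulAut.mul_apply, ← MulAut.mul_apply,
              ((show Commute σ τ from hc).pow_left _).eq]
          rw [hcs, hτi, ← hsadd]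
          congr 1
          push_cast
          ring
      have hsum : ∀ k : ZMod p, (∏ i : Fin p, s (-((i : ℕ) : ZMod p) * k) (c i)) = 1 := by
        intro k
        have h1 := congrArg (τ ^ k.val) hc1
        rw [map_one, map_prod] at h1
        rw [← h1]
        refine Finset.prod_congr rfl fun i _ => ?_
        rw [hτk, ZMod.natCast_zmod_val]
      have htot : (∏ k : ZMod p, ∏ i : Fin p,
          s ((((j : ℕ) : ZMod p) - ((i : ℕ) : ZMod p)) * k) (c i)) = 1 := by
        refine Finset.prod_eq_one fun k _ => ?_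
        have h2 : (∏ i : Fin p, s ((((j : ℕ) : ZMod p) - ((i : ℕ) : ZMod p)) * k) (c i))
            = s (((j : ℕ) : ZMod p) * k) (∏ i : Fin p, s (-((i : ℕ) : ZMod p) * k) (c i)) := by
          conv_rhs => rw [hs, map_prod]
          refine Finset.prod_congr rfl fun i _ => ?_
          rw [← hs (((j : ℕ) : ZMod p) * k), ← hsadd]
          congr 1
          ring
        rw [h2, hsum, hs, map_one]
      rw [Finset.prod_comm, Finset.prod_eq_single j] at htot
      · apply hroot
        have h0 : ∀ k : ZMod p, s ((((j : ℕ) : ZMod p) - ((j : ℕ) : ZMod p)) * k) (c j) = (c j : V) := by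
          intro k
          rw [sub_self, zero_mul, hs, ZMod.val_zero, pow_zero, MulAut.one_apply]
        rw [Finset.prod_congr rfl (fun k _ => h0 k), Finset.prod_const, Finset.card_univ,
          ZMod.card] at htot
        exact htot
      · intro i _ hij
        have hne : (((j : ℕ) : ZMod p) - ((i : ℕ) : ZMod p)) ≠ 0 := by
          rw [sub_ne_zero]
          intro h
          apply hij
          have := congrArg ZMod.val h
          rw [ZMod.val_natCast, ZMod.val_natCast, Nat.mod_eq_of_lt i.2, Nat.mod_eq_of_lt j.2] at this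
          exact (Fin.ext this).symm
        refine Eq.trans ?_ (hnorm _ (hmem i).1)
        exact Equiv.prod_comp (Equiv.mulLeft₀ _ hne) (fun k => s k (c i : V))
      · intro h; exact absurd (Finset.mem_univ j) h
    funext i
    have h := hd (fun i => a i * (b i)⁻¹) (by
      simp only [Subgroup.coe_mul, Subgroup.coe_inv]
      rw [Finset.prod_mul_distrib, Finset.prod_inv_distrib]
      exact mul_inv_eq_one.mpr hab) i
    simp only [Subgroup.coe_mul, Subgroup.coe_inv] at h
    exact Subtype.ext (mul_inv_eq_one.mp h)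
  have hprodA : ∏ i : Fin p, Nat.card (A i) ≤ (Fx σ).index := by
    rw [← hker, Subgroup.index_ker, ← Nat.card_pi]
    refine Nat.card_le_card_of_injective
      (fun a => (⟨∏ i, (a i : V), Subgroup.prod_mem _ fun i _ => by
        have h := (a i).2
        simp only [hA] at h
        exact (Subgroup.mem_inf.mp h).1⟩ : ψ.range)) ?_
    intro a b h
    exact hindep (congrArg Subtype.val h)
  calc ∏ i : Fin p, Nat.card (Fx (τ * σ ^ (i : ℕ)))
      ≤ ∏ i : Fin p, (Nat.card (A i) * Nat.card ↥(Fx σ ⊓ Fx τ)) :=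
        Finset.prod_le_prod' fun i _ => hcard i
    _ = (∏ i : Fin p, Nat.card (A i)) * Nat.card ↥(Fx σ ⊓ Fx τ) ^ p := by
        rw [Finset.prod_mul_distrib, Finset.prod_const, Finset.card_univ, Fintype.card_fin]
    _ ≤ _ := Nat.mul_le_mul_right _ hprodA

/-! ### The product of the centraliser orders -/

section
variable {G : Type*} [Group G]

/-- `C_N(A)`. -/
abbrev cn (N A : Subgroup G) : Subgroup G := N ⊓ centralizer (A : Set G)

theorem mem_cn_zpowers {N : Subgroup G} {y v : G} :
    v ∈ cn N (zpowers y) ↔ v ∈ N ∧ y * v * y⁻¹ = v := by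
  rw [mem_inf, mem_centralizer_iff, mul_inv_eq_iff_eq_mul]
  refine and_congr Iff.rfl ⟨fun h => h y (mem_zpowers y), fun h x hx => ?_⟩
  obtain ⟨k, rfl⟩ := mem_zpowers_iff.mp hx
  exact ((show Commute y v from h).zpow_left k).eq

theorem card_cn_quot [Finite G] {p : ℕ} [Fact p.Prime] (M N A : Subgroup G) [M.Normal]
    (hMN : M ≤ N) (hA : IsPGroup p A) (hcop : (Nat.card M).Coprime p) :
    Nat.card (cn N A) =
      Nat.card (cn M A) * Nat.card (cn (N.map (QuotientGroup.mk' M)) (A.map (QuotientGroup.mk' M))) := by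
  have hAc : (Nat.card A).Coprime (Nat.card M) := by
    obtain ⟨n, hn⟩ := hA.exists_card_eq
    rw [hn]
    exact (hcop.symm).pow_left n
  haveI : Group.IsNilpotent A := hA.isNilpotent
  have h1 := Cfsg.Agent.Lib.Coprime.card_map_mul_card_inf_ker (QuotientGroup.mk' M) (cn N A)
  rw [QuotientGroup.ker_mk'] at h1
  have h2 : cn N A ⊓ M = cn M A := by
    ext x
    simp only [mem_inf]
    exact ⟨fun h => ⟨h.2, h.1.2⟩, fun h => ⟨⟨hMN h.1, h.2⟩, h.1⟩⟩
  have h3 : (cn N A).map (QuotientGroup.mk' M) =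
      cn (N.map (QuotientGroup.mk' M)) (A.map (QuotientGroup.mk' M)) := by
    refine le_antisymm ?_ ?_
    · rintro _ ⟨x, hx, rfl⟩
      rw [SetLike.mem_coe, mem_inf, mem_centralizer_iff] at hx
      refine mem_inf.mpr ⟨mem_map_of_mem _ hx.1, mem_centralizer_iff.mpr ?_⟩
      rintro _ ⟨a, ha, rfl⟩
      rw [← map_mul, ← map_mul, hx.2 a ha]
    · intro y hy
      rw [mem_inf, mem_centralizer_iff] at hy
      obtain ⟨⟨k, hk, rfl⟩, hy2⟩ := hy
      have hk' : ∀ a ∈ A, k⁻¹ * (a * k * a⁻¹) ∈ M := by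
        intro a ha
        have h := hy2 (QuotientGroup.mk' M a) (mem_map_of_mem _ ha)
        rw [← QuotientGroup.ker_mk' M, MonoidHom.mem_ker, map_mul, map_mul, map_mul, map_inv,
          map_inv, h]
        group
      obtain ⟨c, hc, hkc⟩ := Cfsg.Agent.Lib.Coprime.exists_centralizer_mem_coset
        (le_top.trans (normalizer_eq_top_iff.mpr (inferInstance : M.Normal)).ge) hAc
        (Or.inl inferInstance) hk'
      refine ⟨c, mem_inf.mpr ⟨?_, hc⟩, ?_⟩
      · have := N.mul_mem hk (hMN hkc)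
        rwa [mul_inv_cancel_left] at this
      · have h := (QuotientGroup.eq_one_iff (N := M) _).mpr hkc
        rw [← QuotientGroup.mk'_apply M, map_mul, map_inv, inv_mul_eq_one] at h
        exact h.symm
  rw [h2, h3] at h1
  rw [← h1, mul_comm]

/-- The bound on the product of centraliser orders. -/
def WBound (p : ℕ) (P N : Subgroup G) : Prop :=
  (∏ᶠ y : P, Nat.card (cn N (zpowers (y : G)))) ^ p ≤
    Nat.card N ^ Nat.card P * Nat.card (cn N P) ^ ((p - 1) * Nat.card P)

theorem finprod_const' {α : Type*} [Finite α] (c : ℕ) : (∏ᶠ _ : α, c) = c ^ Nat.card α := by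
  haveI := Fintype.ofFinite α
  rw [finprod_eq_prod_of_fintype, Finset.prod_const, Finset.card_univ, Nat.card_eq_fintype_card]

theorem wbound_abelian [Finite G] (p : ℕ) [Fact p.Prime] (P : Subgroup G) (hP : IsPGroup p P) :
    ∀ (n : ℕ) (N : Subgroup G), Nat.card N ≤ n → P ≤ normalizer (N : Set G) →
      (∀ a ∈ N, ∀ b ∈ N, a * b = b * a) → (Nat.card N).Coprime p → WBound p P N := by
  classical
  haveI := Fintype.ofFinite P
  have hp : p.Prime := Fact.out
  intro n
  induction n with
  | zero => intro N h; have : 0 < Nat.card N := Nat.card_pos; omega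
  | succ n ih =>
    intro N hn hPN hab hcop
    haveI : IsMulCommutative N := ⟨⟨fun a b => Subtype.ext (hab _ a.2 _ b.2)⟩⟩
    letI : CommGroup N := { (inferInstance : Group N) with
      mul_comm := fun a b => Subtype.ext (hab _ a.2 _ b.2) }
    let ρ : P →* MulAut N :=
      { toFun := fun y =>
          { toFun := fun v => ⟨(y : G) * v * (y : G)⁻¹, (mem_normalizer_iff.mp (hPN y.2) v).mp v.2⟩
            invFun := fun v => ⟨(y : G)⁻¹ * v * (y : G), by
              have := (mem_normalizer_iff.mp (inv_mem (hPN y.2)) v).mp v.2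
              rwa [inv_inv] at this⟩
            left_inv := fun v => Subtype.ext (by simp [mul_assoc])
            right_inv := fun v => Subtype.ext (by simp [mul_assoc])
            map_mul' := fun v w => Subtype.ext (by simp [mul_assoc]) }
        map_one' := MulEquiv.ext fun v => Subtype.ext (by simp)
        map_mul' := fun y y' => MulEquiv.ext fun v => Subtype.ext (by simp [mul_assoc]) }
    have hρ : ∀ y v, (ρ y v : G) = (y : G) * v * (y : G)⁻¹ := fun y v => rfl
    by_cases hker : ρ.ker = ⊤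
    · -- `P` centralises `N`
      have hall : ∀ y ∈ P, ∀ v ∈ N, y * v = v * y := by
        intro y hy v hv
        have h : (⟨y, hy⟩ : P) ∈ ρ.ker := hker ▸ mem_top _
        rw [MonoidHom.mem_ker] at h
        have h1 := congrArg (fun f : MulAut N => (f ⟨v, hv⟩ : G)) h
        simp only [hρ, MulAut.one_apply] at h1
        exact mul_inv_eq_iff_eq_mul.mp h1
      have h1 : cn N P = N := inf_eq_left.mpr fun v hv =>
        mem_centralizer_iff.mpr fun y hy => hall y hy v hv
      have h2 : ∀ y : P, Nat.card (cn N (zpowers (y : G))) = Nat.card N := fun y => by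
        rw [show cn N (zpowers (y : G)) = N from inf_eq_left.mpr fun v hv =>
          mem_centralizer_iff.mpr fun x hx => hall x (zpowers_le.mpr y.2 hx) v hv]
      rw [WBound, h1, finprod_congr h2, finprod_const', ← pow_mul, ← pow_add]
      refine Nat.pow_le_pow_right Nat.card_pos ?_
      calc Nat.card P * p = Nat.card P * (1 + (p - 1)) := by congr 1; have := hp.one_le; omega
        _ ≤ _ := le_of_eq (by ring)
    -- an element central of order `p` in the image
    have hrange : IsPGroup p ρ.range := hP.of_surjective _ ρ.rangeRestrict_surjective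
    haveI : Nontrivial ρ.range := by
      rw [Subgroup.nontrivial_iff_ne_bot, Ne, MonoidHom.range_eq_bot_iff]
      intro h; apply hker; rw [h]; exact MonoidHom.ker_one
    haveI := hrange.center_nontrivial
    obtain ⟨e', he'⟩ := (hrange.to_subgroup (Subgroup.center ρ.range)).exists_card_eq
    obtain ⟨w, hw⟩ := exists_prime_orderOf_dvd_card' (G := Subgroup.center ρ.range) p (by
      rw [he']
      refine dvd_pow_self p ?_
      rintro rfl
      have : 1 < Nat.card (Subgroup.center ρ.range) := Finite.one_lt_card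
      rw [he', pow_zero] at this
      omega)
    obtain ⟨σ, hσdef⟩ : ∃ σ : MulAut N, σ = ((w : ρ.range) : MulAut N) := ⟨_, rfl⟩
    obtain ⟨z, hz⟩ : ∃ z : P, ρ z = σ := by
      obtain ⟨z, hz⟩ := (w : ρ.range).2
      exact ⟨z, hz.trans hσdef.symm⟩
    have hσp : σ ^ p = 1 := by
      rw [hσdef, ← SubmonoidClass.coe_pow, ← SubmonoidClass.coe_pow, ← hw, pow_orderOf_eq_one]
      rfl
    have hσ1 : σ ≠ 1 := by
      intro h
      have hw1 : w = 1 := Subtype.ext (Subtype.ext (hσdef.symm.trans h))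
      rw [hw1, orderOf_one] at hw
      exact hp.one_lt.ne hw
    have hσc : ∀ y : P, σ * ρ y = ρ y * σ := by
      intro y
      have h := congrArg (fun x : ρ.range => (x : MulAut N))
        (Subgroup.mem_center_iff.mp w.2 ⟨ρ y, y, rfl⟩)
      simp only [Subgroup.coe_mul] at h
      rw [hσdef]
      exact h.symm
    obtain ⟨Fx, hFx⟩ : ∃ Fx : MulAut N → Subgroup N, ∀ α v, v ∈ Fx α ↔ α v = v :=
      ⟨fun α =>
        { carrier := {v | α v = v}
          one_mem' := map_one α
          mul_mem' := fun {a b} (ha : α a = a) (hb : α b = b) => by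
            show α (a * b) = a * b
            rw [map_mul, ha, hb]
          inv_mem' := fun {a} (ha : α a = a) => by
            show α a⁻¹ = a⁻¹
            rw [map_inv, ha] }, fun _ _ => Iff.rfl⟩
    obtain ⟨N', hN'⟩ : ∃ N', N' = (Fx σ).map N.subtype := ⟨_, rfl⟩
    have hN'le : N' ≤ N := hN' ▸ map_subtype_le _
    have hN'm : ∀ v (hv : v ∈ N), v ∈ N' ↔ σ ⟨v, hv⟩ = ⟨v, hv⟩ := by
      intro v hv
      rw [hN', ← hFx]
      constructor
      · rintro ⟨u, hu, rfl⟩; exact hu
      · intro h; exact ⟨_, h, rfl⟩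
    have hlt : Nat.card N' < Nat.card N := by
      refine lt_of_le_of_ne (card_le_of_le hN'le) fun h => hσ1 ?_
      have heq := Subgroup.eq_of_le_of_card_ge hN'le h.ge
      exact MulEquiv.ext fun v => (hN'm v.1 v.2).mp (heq.symm ▸ v.2)
    have hN'n : P ≤ normalizer (N' : Set G) := by
      intro y hy
      refine Subgroup.mem_normalizer_fintype fun v hv => ?_
      have hvN : v ∈ N := hN'le hv
      have hyv : y * v * y⁻¹ ∈ N := (mem_normalizer_iff.mp (hPN hy) v).mp hvN
      rw [SetLike.mem_coe, hN'm _ hyv]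
      have h1 := (hN'm v hvN).mp hv
      calc σ ⟨y * v * y⁻¹, hyv⟩ = (σ * ρ ⟨y, hy⟩) ⟨v, hvN⟩ := rfl
        _ = (ρ ⟨y, hy⟩ * σ) ⟨v, hvN⟩ := by rw [hσc]
        _ = _ := by rw [MulAut.mul_apply, h1]; rfl
    have hW := ih N' (by omega) hN'n (fun a ha b hb => hab a (hN'le ha) b (hN'le hb))
      (hcop.coprime_dvd_left (card_dvd_of_le hN'le))
    unfold WBound at hW ⊢
    rw [finprod_eq_prod_of_fintype] at hW ⊢
    have hcnP : cn N' P = cn N P := by
      refine le_antisymm (inf_le_inf_right _ hN'le) fun v hv => ?_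
      rw [mem_inf, mem_centralizer_iff] at hv
      refine mem_inf.mpr ⟨(hN'm v hv.1).mpr ?_, mem_centralizer_iff.mpr hv.2⟩
      rw [← hz]
      exact Subtype.ext (by rw [hρ]; exact mul_inv_eq_iff_eq_mul.mpr (hv.2 z z.2))
    rw [hcnP] at hW
    have hFcard : ∀ y : P, Nat.card (Fx (ρ y)) = Nat.card (cn N (zpowers (y : G))) := by
      intro y
      refine Nat.card_congr
        { toFun := fun v => ⟨v.1.1, mem_cn_zpowers.mpr ⟨v.1.2, congrArg Subtype.val ((hFx _ _).mp v.2)⟩⟩
          invFun := fun v => ⟨⟨v.1, (mem_cn_zpowers.mp v.2).1⟩,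
            (hFx _ _).mpr (Subtype.ext (mem_cn_zpowers.mp v.2).2)⟩
          left_inv := fun v => rfl
          right_inv := fun v => rfl }
    have hDcard : ∀ y : P, Nat.card ↥(Fx σ ⊓ Fx (ρ y)) = Nat.card (cn N' (zpowers (y : G))) := by
      intro y
      refine Nat.card_congr
        { toFun := fun v => ⟨v.1.1, mem_cn_zpowers.mpr ⟨(hN'm _ v.1.2).mpr
              ((hFx _ _).mp (mem_inf.mp v.2).1),
              congrArg Subtype.val ((hFx _ _).mp (mem_inf.mp v.2).2)⟩⟩
          invFun := fun v => ⟨⟨v.1, hN'le (mem_cn_zpowers.mp v.2).1⟩, mem_inf.mpr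
            ⟨(hFx _ _).mpr ((hN'm _ _).mp (mem_cn_zpowers.mp v.2).1),
            (hFx _ _).mpr (Subtype.ext (mem_cn_zpowers.mp v.2).2)⟩⟩
          left_inv := fun v => rfl
          right_inv := fun v => rfl }
    obtain ⟨d, hd⟩ : ∃ d, d = (Fx σ).index := ⟨_, rfl⟩
    have hdN : d * Nat.card N' = Nat.card N := by
      rw [hd, hN', card_map_of_injective N.subtype_injective, Subgroup.index_mul_card]
    have hkey : ∀ y : P, ∏ i : Fin p, Nat.card (cn N (zpowers ((y * z ^ (i : ℕ) : P) : G))) ≤
        d * Nat.card (cn N' (zpowers (y : G))) ^ p := by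
      intro y
      have h := key p hcop σ (ρ y) hσp (hσc y) Fx hFx
      rw [hDcard, ← hd] at h
      refine le_trans (le_of_eq ?_) h
      refine Finset.prod_congr rfl fun i _ => ?_
      rw [← hFcard, map_mul, map_pow, hz]
    have hshift : (∏ y : P, Nat.card (cn N (zpowers (y : G)))) ^ p =
        ∏ y : P, ∏ i : Fin p, Nat.card (cn N (zpowers ((y * z ^ (i : ℕ) : P) : G))) := by
      rw [Finset.prod_comm]
      have hs : ∀ i : Fin p, ∏ y : P, Nat.card (cn N (zpowers ((y * z ^ (i : ℕ) : P) : G))) =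
          ∏ y : P, Nat.card (cn N (zpowers (y : G))) := fun i =>
        Equiv.prod_comp (Equiv.mulRight (z ^ (i : ℕ))) (fun y : P => Nat.card (cn N (zpowers (y : G))))
      rw [Finset.prod_congr rfl (fun i _ => hs i), Finset.prod_const, Finset.card_univ,
        Fintype.card_fin]
    rw [hshift]
    calc ∏ y : P, ∏ i : Fin p, Nat.card (cn N (zpowers ((y * z ^ (i : ℕ) : P) : G)))
        ≤ ∏ y : P, (d * Nat.card (cn N' (zpowers (y : G))) ^ p) :=
          Finset.prod_le_prod' fun y _ => hkey y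
      _ = d ^ Nat.card P * (∏ y : P, Nat.card (cn N' (zpowers (y : G)))) ^ p := by
          rw [Finset.prod_mul_distrib, Finset.prod_const, Finset.card_univ,
            Nat.card_eq_fintype_card, Finset.prod_pow]
      _ ≤ d ^ Nat.card P * (Nat.card N' ^ Nat.card P *
            Nat.card (cn N P) ^ ((p - 1) * Nat.card P)) := Nat.mul_le_mul_left _ hW
      _ = _ := by rw [← mul_assoc, ← mul_pow, hdN]

end

theorem wbound_pgroup (p q : ℕ) [Fact p.Prime] [Fact q.Prime] :
    ∀ (n : ℕ) {G : Type*} [Group G] [Finite G] (P N : Subgroup G), Nat.card N ≤ n → N.Normal →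
      IsPGroup p P → IsPGroup q N → (Nat.card N).Coprime p → WBound p P N := by
  intro n
  induction n with
  | zero => intro G _ _ P N h; have : 0 < Nat.card N := Nat.card_pos; omega
  | succ n ih =>
    intro G _ _ P N hn hNn hP hNq hcop
    haveI := hNn
    by_cases hab : ∀ a ∈ N, ∀ b ∈ N, a * b = b * a
    · exact wbound_abelian p P hP (n + 1) N hn
        (le_top.trans (normalizer_eq_top_iff.mpr hNn).ge) hab hcop
    haveI : Nontrivial N := by
      by_contra hnt
      rw [not_nontrivial_iff_subsingleton] at hnt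
      exact hab fun a ha b hb =>
        congrArg Subtype.val (Subsingleton.elim ((⟨a, ha⟩ : N) * ⟨b, hb⟩) (⟨b, hb⟩ * ⟨a, ha⟩))
    obtain ⟨M, hM⟩ : ∃ M, M = (Subgroup.center N).map N.subtype := ⟨_, rfl⟩
    haveI hMn : M.Normal := hM ▸ inferInstance
    have hMN : M ≤ N := hM ▸ map_subtype_le _
    have hMab : ∀ a ∈ M, ∀ b ∈ M, a * b = b * a := by
      rw [hM]
      rintro _ ⟨a, ha, rfl⟩ _ ⟨b, -, rfl⟩
      exact congrArg Subtype.val (Subgroup.mem_center_iff.mp ha b).symm
    have hM1 : 1 < Nat.card M := by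
      rw [hM, card_map_of_injective N.subtype_injective]
      haveI := hNq.center_nontrivial
      exact Finite.one_lt_card
    have hMc : (Nat.card M).Coprime p := hcop.coprime_dvd_left (card_dvd_of_le hMN)
    have hW1 := wbound_abelian p P hP _ M le_rfl
      (le_top.trans (normalizer_eq_top_iff.mpr hMn).ge) hMab hMc
    have hcardN : Nat.card (N.map (QuotientGroup.mk' M)) * Nat.card M = Nat.card N := by
      have h := Cfsg.Agent.Lib.Coprime.card_map_mul_card_inf_ker (QuotientGroup.mk' M) N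
      rwa [QuotientGroup.ker_mk', inf_eq_right.mpr hMN] at h
    have hlt : Nat.card (N.map (QuotientGroup.mk' M)) ≤ n := by
      have h1 : 0 < Nat.card (N.map (QuotientGroup.mk' M)) := Nat.card_pos
      have : Nat.card (N.map (QuotientGroup.mk' M)) * 2 ≤ n + 1 :=
        le_trans (Nat.mul_le_mul_left _ hM1) (hcardN.le.trans hn)
      omega
    have hW2 := ih (P.map (QuotientGroup.mk' M)) (N.map (QuotientGroup.mk' M)) hlt
      (hNn.map _ (QuotientGroup.mk'_surjective M)) (hP.map _) (hNq.map _)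
      (hcop.coprime_dvd_left (card_map_dvd ..))
    -- `P` maps isomorphically
    have hPM : P ⊓ M = ⊥ := by
      apply inf_eq_bot_of_coprime
      obtain ⟨e, he⟩ := hP.exists_card_eq
      rw [he]
      exact hMc.symm.pow_left e
    let e : ↥P → P.map (QuotientGroup.mk' M) := (QuotientGroup.mk' M).subgroupMap P
    have he : Function.Bijective e := by
      refine ⟨fun a b h => ?_, MonoidHom.subgroupMap_surjective _ _⟩
      have h' : QuotientGroup.mk' M (a : G) = QuotientGroup.mk' M (b : G) := congrArg Subtype.val h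
      have hab' : (a : G)⁻¹ * b ∈ P ⊓ M := mem_inf.mpr ⟨mul_mem (inv_mem a.2) b.2, by
        rw [← QuotientGroup.ker_mk' M, MonoidHom.mem_ker, map_mul, map_inv, h', inv_mul_cancel]⟩
      rw [hPM, mem_bot] at hab'
      exact Subtype.ext (inv_mul_eq_one.mp hab')
    have hPcard : Nat.card (P.map (QuotientGroup.mk' M)) = Nat.card P :=
      (Nat.card_eq_of_bijective e he).symm
    unfold WBound at hW1 hW2 ⊢
    haveI := Fintype.ofFinite P
    haveI := Fintype.ofFinite (P.map (QuotientGroup.mk' M))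
    rw [finprod_eq_prod_of_fintype] at hW1 hW2 ⊢
    rw [← (Equiv.ofBijective e he).prod_comp, hPcard] at hW2
    have hy : ∀ y : P, Nat.card (cn N (zpowers (y : G))) = Nat.card (cn M (zpowers (y : G))) *
        Nat.card (cn (N.map (QuotientGroup.mk' M))
          (zpowers (((Equiv.ofBijective e he) y : P.map (QuotientGroup.mk' M)) : G ⧸ M))) := by
      intro y
      rw [card_cn_quot M N (zpowers (y : G)) hMN (hP.to_le (zpowers_le.mpr y.2)) hMc,
        MonoidHom.map_zpowers]
      rfl
    rw [Finset.prod_congr rfl (fun y _ => hy y), Finset.prod_mul_distrib, mul_pow,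
      card_cn_quot M N P hMN hP hMc]
    refine (Nat.mul_le_mul hW1 hW2).trans (le_of_eq ?_)
    rw [← hcardN, mul_pow, mul_pow]
    ring

section
variable {G : Type*} [Group G]

theorem card_cn_sylow [Finite G] {p q : ℕ} [Fact p.Prime] [Fact q.Prime] (N P : Subgroup G)
    [N.Normal] (hP : IsPGroup p P) (hcop : (Nat.card N).Coprime p) (Q : Sylow q N)
    (hQ : P ≤ normalizer (((Q : Subgroup N).map N.subtype : Subgroup G) : Set G))
    (A : Subgroup G) (hA : A ≤ P) :
    Nat.card (cn ((Q : Subgroup N).map N.subtype) A) =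
      q ^ (Nat.card (cn N A)).factorization q := by
  obtain ⟨Q', hQ'⟩ : ∃ Q', Q' = (Q : Subgroup N).map N.subtype := ⟨_, rfl⟩
  rw [← hQ'] at hQ ⊢
  have hQ'q : IsPGroup q Q' := hQ' ▸ Q.2.map _
  have hQ'N : Q' ≤ N := hQ' ▸ map_subtype_le _
  have hAN : A ≤ normalizer (N : Set G) :=
    le_top.trans (normalizer_eq_top_iff.mpr (inferInstance : N.Normal)).ge
  have hAp := hP.to_le hA
  have hAc : (Nat.card A).Coprime (Nat.card N) := by
    obtain ⟨e, he⟩ := hAp.exists_card_eq
    rw [he]; exact hcop.symm.pow_left e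
  haveI : Group.IsNilpotent A := hAp.isNilpotent
  obtain ⟨C, hC⟩ : ∃ C, C = cn N A := ⟨_, rfl⟩
  rw [← hC]
  have hle : cn Q' A ≤ C := hC ▸ inf_le_inf_right _ hQ'N
  apply le_antisymm
  · obtain ⟨e, he⟩ := (hQ'q.to_le (inf_le_left : cn Q' A ≤ Q')).exists_card_eq
    rw [he]
    refine Nat.pow_le_pow_right (Fact.out : q.Prime).pos ?_
    have := card_dvd_of_le hle
    rw [he, (Fact.out : q.Prime).pow_dvd_iff_le_factorization Nat.card_pos.ne'] at this
    exact this
  · obtain ⟨R⟩ : Nonempty (Sylow q C) := inferInstance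
    rw [← R.card_eq_multiplicity, ← card_map_of_injective C.subtype_injective]
    obtain ⟨R', hR'⟩ : ∃ R', R' = (R : Subgroup C).map C.subtype := ⟨_, rfl⟩
    rw [← hR']
    have hR'C : R' ≤ C := hR' ▸ map_subtype_le _
    have hAR : A ≤ normalizer (R' : Set G) := by
      intro a ha
      refine Subgroup.mem_normalizer_fintype fun v hv => ?_
      have := hR'C hv
      rw [hC, mem_inf, mem_centralizer_iff] at this
      rw [show a * v * a⁻¹ = v by rw [this.2 a ha, mul_inv_cancel_right]]
      exact hv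
    obtain ⟨T, hRT, hAT⟩ := Cfsg.Agent.Lib.Coprime.exists_invariant_sylow_ge hAN hAc
      (Or.inl inferInstance) (hR'C.trans (hC ▸ inf_le_left)) (hR' ▸ R.2.map _) hAR
    obtain ⟨c, hc, hcT⟩ := Cfsg.Agent.Lib.Coprime.exists_centralizer_conj_sylow hAN hAc
      (Or.inl inferInstance) T Q hAT (hQ' ▸ hA.trans hQ)
    refine Nat.card_le_card_of_injective
      (fun v : R' => (⟨(c : G) * v * (c : G)⁻¹, mem_inf.mpr ⟨?_, ?_⟩⟩ : cn Q' A)) ?_
    · obtain ⟨u, hu, huv⟩ := hRT v.2
      rw [hQ', ← hcT]
      exact ⟨c * u * c⁻¹, Cfsg.Agent.Lib.Coprime.conj_mem_conj_smul hu, by simp [← huv]⟩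
    · have hv := hR'C v.2
      rw [hC, mem_inf] at hv
      exact mul_mem (mul_mem hc hv.2) (inv_mem hc)
    · intro a b h
      exact Subtype.ext (mul_left_cancel (mul_right_cancel (congrArg Subtype.val h)))

theorem wbound [Finite G] (p : ℕ) [Fact p.Prime] (P N : Subgroup G) [N.Normal] (hP : IsPGroup p P)
    (hcop : (Nat.card N).Coprime p) : WBound p P N := by
  classical
  have hPN : P ≤ normalizer (N : Set G) :=
    le_top.trans (normalizer_eq_top_iff.mpr (inferInstance : N.Normal)).ge
  have hPc : (Nat.card P).Coprime (Nat.card N) := by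
    obtain ⟨e, he⟩ := hP.exists_card_eq
    rw [he]; exact hcop.symm.pow_left e
  haveI : Group.IsNilpotent P := hP.isNilpotent
  obtain ⟨S, hS⟩ : ∃ S : Finset ℕ, S = (Nat.card N).primeFactors := ⟨_, rfl⟩
  have hex : ∀ q ∈ S, ∃ T : Subgroup G, ∀ A : Subgroup G, A ≤ P →
      Nat.card (cn T A) = q ^ (Nat.card (cn N A)).factorization q ∧
      (Nat.card T = q ^ (Nat.card N).factorization q ∧ WBound p P T) := by
    intro q hq
    have hqp : q.Prime := Nat.prime_of_mem_primeFactors (hS ▸ hq)
    haveI := Fact.mk hqp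
    obtain ⟨Q, hQ⟩ := Cfsg.Agent.Lib.Coprime.exists_invariant_sylow hPN hPc
      (Or.inl inferInstance) q
    refine ⟨(Q : Subgroup N).map N.subtype, fun A hA =>
      ⟨card_cn_sylow N P hP hcop Q hQ A hA,
        (card_map_of_injective N.subtype_injective).trans Q.card_eq_multiplicity, ?_⟩⟩
    obtain ⟨T, hT⟩ : ∃ T, T = (Q : Subgroup N).map N.subtype := ⟨_, rfl⟩
    rw [← hT] at hQ ⊢
    obtain ⟨J, hJ⟩ : ∃ J, J = normalizer (T : Set G) := ⟨_, rfl⟩
    have hTJ : T ≤ J := hJ ▸ le_normalizer
    have hPJ : P ≤ J := hJ ▸ hQ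
    have hTn : (T.subgroupOf J).Normal :=
      (normal_subgroupOf_iff_le_normalizer hTJ).mpr hJ.le
    have hTq : IsPGroup q T := hT ▸ Q.2.map _
    have hW := wbound_pgroup p q _ (P.subgroupOf J) (T.subgroupOf J) le_rfl hTn
      (hP.of_equiv (subgroupOfEquivOfLe hPJ).symm) (hTq.of_equiv (subgroupOfEquivOfLe hTJ).symm)
      (by
        rw [Nat.card_congr (subgroupOfEquivOfLe hTJ).toEquiv]
        exact hcop.coprime_dvd_left (card_dvd_of_le (hT ▸ map_subtype_le _)))
    have hcn : ∀ B : Subgroup G, B ≤ J →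
        Nat.card (cn (T.subgroupOf J) (B.subgroupOf J)) = Nat.card (cn T B) := by
      intro B hB
      refine Nat.card_congr
        { toFun := fun v => ⟨v.1.1, mem_inf.mpr ⟨(mem_inf.mp v.2).1, mem_centralizer_iff.mpr
            fun b hb => congrArg Subtype.val
              (mem_centralizer_iff.mp (mem_inf.mp v.2).2 ⟨b, hB hb⟩ hb)⟩⟩
          invFun := fun v => ⟨⟨v.1, hTJ (mem_inf.mp v.2).1⟩, mem_inf.mpr ⟨(mem_inf.mp v.2).1,
            mem_centralizer_iff.mpr fun b hb =>
              Subtype.ext (mem_centralizer_iff.mp (mem_inf.mp v.2).2 b hb)⟩⟩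
          left_inv := fun v => rfl
          right_inv := fun v => rfl }
    unfold WBound at hW ⊢
    haveI := Fintype.ofFinite P
    haveI := Fintype.ofFinite (P.subgroupOf J)
    rw [finprod_eq_prod_of_fintype] at hW ⊢
    rw [← (subgroupOfEquivOfLe hPJ).symm.toEquiv.prod_comp] at hW
    rw [hcn P hPJ, Nat.card_congr (subgroupOfEquivOfLe hTJ).toEquiv,
      Nat.card_congr (subgroupOfEquivOfLe hPJ).toEquiv] at hW
    refine le_trans (le_of_eq ?_) hW
    congr 1
    refine Finset.prod_congr rfl fun y _ => ?_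
    rw [← hcn _ (zpowers_le.mpr (hPJ y.2))]
    have hz : (zpowers (y : G)).subgroupOf J =
        zpowers (((subgroupOfEquivOfLe hPJ).symm y : P.subgroupOf J) : J) := by
      refine Subgroup.ext fun x => ?_
      rw [mem_subgroupOf, mem_zpowers_iff, mem_zpowers_iff]
      refine exists_congr fun k => ?_
      rw [Subtype.ext_iff, SubgroupClass.coe_zpow]
      rfl
    rw [hz]
    rfl
  choose T hT using hex
  have hdecomp : ∀ A : Subgroup G, A ≤ P →
      Nat.card (cn N A) = ∏ q ∈ S.attach, Nat.card (cn (T q.1 q.2) A) := by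
    intro A hA
    rw [Finset.prod_congr rfl (fun q _ => (hT q.1 q.2 A hA).1), Finset.prod_attach S
      (fun q => q ^ (Nat.card (cn N A)).factorization q)]
    conv_lhs => rw [← Nat.prod_factorization_pow_eq_self (n := Nat.card (cn N A)) Nat.card_pos.ne']
    refine Finsupp.prod_of_support_subset _ ?_ _ (fun i _ => pow_zero i)
    rw [Nat.support_factorization, hS]
    exact Nat.primeFactors_mono (card_dvd_of_le inf_le_left) Nat.card_pos.ne'
  have hNdec : Nat.card N = ∏ q ∈ S.attach, Nat.card (T q.1 q.2) := by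
    rw [Finset.prod_congr rfl (fun q _ => (hT q.1 q.2 P le_rfl).2.1), Finset.prod_attach S
      (fun q => q ^ (Nat.card N).factorization q), hS]
    conv_lhs => rw [← Nat.prod_factorization_pow_eq_self (n := Nat.card N) Nat.card_pos.ne']
    rfl
  haveI := Fintype.ofFinite P
  unfold WBound
  rw [finprod_eq_prod_of_fintype,
    Finset.prod_congr rfl (fun y _ => hdecomp (zpowers ((y : P) : G)) (zpowers_le.mpr y.2)),
    Finset.prod_comm, ← Finset.prod_pow, hdecomp P le_rfl, hNdec, ← Finset.prod_pow,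
    ← Finset.prod_pow, ← Finset.prod_mul_distrib]
  refine Finset.prod_le_prod' fun q _ => ?_
  have hW := (hT q.1 q.2 P le_rfl).2.2
  unfold WBound at hW
  rwa [finprod_eq_prod_of_fintype] at hW

/-- Sylow subgroups containing `A`. -/
noncomputable abbrev lam (p : ℕ) (A : Subgroup G) : ℕ := Nat.card {Q : Sylow p G // A ≤ (Q : Subgroup G)}

theorem lam_quot [Finite G] (p : ℕ) [Fact p.Prime] (N : Subgroup G) [N.Normal]
    (hcop : (Nat.card N).Coprime p) (P : Sylow p G) (A : Subgroup G) (hA : IsPGroup p A) :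
    lam p A * Nat.card (cn N (P : Subgroup G)) =
      lam p (A.map (QuotientGroup.mk' N)) * Nat.card (cn N A) := by
  classical
  obtain ⟨π, hπ⟩ : ∃ π : G →* G ⧸ N, π = QuotientGroup.mk' N := ⟨_, rfl⟩
  rw [← hπ]
  have hsur : Function.Surjective π := hπ ▸ QuotientGroup.mk'_surjective N
  have hker : π.ker = N := by rw [hπ, QuotientGroup.ker_mk']
  have hinj : ∀ Q : Sylow p G, N ⊓ (Q : Subgroup G) = ⊥ := fun Q => by
    apply inf_eq_bot_of_coprime
    rw [Q.card_eq_multiplicity]
    exact hcop.pow_right _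
  have hfac : (Nat.card (G ⧸ N)).factorization p = (Nat.card G).factorization p := by
    rw [card_eq_card_quotient_mul_card_subgroup N, Nat.factorization_mul Nat.card_pos.ne'
      Nat.card_pos.ne', Finsupp.add_apply, Nat.factorization_eq_zero_of_not_dvd (n := Nat.card N)
      ((Nat.Prime.coprime_iff_not_dvd Fact.out).mp hcop.symm), add_zero]
  have hstab : ∀ Q : Sylow p G, N ⊓ normalizer ((Q : Subgroup G) : Set G) = cn N (Q : Subgroup G) := by
    intro Q
    refine le_antisymm (fun n hn => ?_) (inf_le_inf_left _ (centralizer_le_normalizer _))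
    rw [mem_inf] at hn
    refine mem_inf.mpr ⟨hn.1, mem_centralizer_iff.mpr fun h hh => ?_⟩
    have h1 : h⁻¹ * (n * h * n⁻¹) ∈ N ⊓ (Q : Subgroup G) := by
      refine mem_inf.mpr ⟨?_, mul_mem (inv_mem hh) ((mem_normalizer_iff.mp hn.2 h).mp hh)⟩
      rw [← mul_assoc, ← mul_assoc]
      refine mul_mem ?_ (inv_mem hn.1)
      simpa using (inferInstance : N.Normal).conj_mem _ hn.1 h⁻¹
    rw [hinj, mem_bot] at h1
    have h2 : h = n * h * n⁻¹ := inv_mul_eq_one.mp h1
    calc h * n = (n * h * n⁻¹) * n := by rw [← h2]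
      _ = n * h := by group
  have hcn : ∀ Q : Sylow p G, Nat.card (cn N (Q : Subgroup G)) = Nat.card (cn N (P : Subgroup G)) := by
    intro Q
    obtain ⟨g, hg⟩ := MulAction.exists_smul_eq G P Q
    rw [← hg]
    have hfwd : ∀ v ∈ cn N (P : Subgroup G), g * v * g⁻¹ ∈ cn N ((g • P : Sylow p G) : Subgroup G) := by
      intro v hv
      refine mem_inf.mpr ⟨(inferInstance : N.Normal).conj_mem _ (mem_inf.mp hv).1 g,
        mem_centralizer_iff.mpr ?_⟩
      rintro _ ⟨h, hh, rfl⟩
      have := mem_centralizer_iff.mp (mem_inf.mp hv).2 h hh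
      show g * h * g⁻¹ * (g * v * g⁻¹) = g * v * g⁻¹ * (g * h * g⁻¹)
      calc g * h * g⁻¹ * (g * v * g⁻¹) = g * (h * v) * g⁻¹ := by group
        _ = g * v * g⁻¹ * (g * h * g⁻¹) := by rw [this]; group
    have hbwd : ∀ v ∈ cn N ((g • P : Sylow p G) : Subgroup G), g⁻¹ * v * g ∈ cn N (P : Subgroup G) := by
      intro v hv
      refine mem_inf.mpr ⟨by simpa using (inferInstance : N.Normal).conj_mem _ (mem_inf.mp hv).1 g⁻¹,
        mem_centralizer_iff.mpr fun h hh => ?_⟩
      have := mem_centralizer_iff.mp (mem_inf.mp hv).2 (g * h * g⁻¹) ⟨h, hh, rfl⟩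
      calc h * (g⁻¹ * v * g) = g⁻¹ * (g * h * g⁻¹ * v) * g := by group
        _ = g⁻¹ * v * g * h := by rw [this]; group
    exact (Nat.card_congr
      { toFun := fun v => (⟨g * v.1 * g⁻¹, hfwd v.1 v.2⟩ :
          cn N ((g • P : Sylow p G) : Subgroup G))
        invFun := fun v => ⟨g⁻¹ * v.1 * g, hbwd v.1 v.2⟩
        left_inv := fun v => Subtype.ext (by simp [mul_assoc])
        right_inv := fun v => Subtype.ext (by simp [mul_assoc]) }).symm
  let f : {Q : Sylow p G // A ≤ (Q : Subgroup G)} →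
      {Q : Sylow p (G ⧸ N) // A.map π ≤ (Q : Subgroup (G ⧸ N))} := fun Q =>
    ⟨Q.1.mapSurjective hsur, by
      rw [Sylow.coe_mapSurjective]; exact map_mono Q.2⟩
  haveI := Fintype.ofFinite {Q : Sylow p (G ⧸ N) // A.map π ≤ (Q : Subgroup (G ⧸ N))}
  have hlam : lam p A = ∑ Q' : {Q : Sylow p (G ⧸ N) // A.map π ≤ (Q : Subgroup (G ⧸ N))},
      Nat.card {Q // f Q = Q'} := by
    rw [← Nat.card_sigma, Nat.card_congr (Equiv.sigmaFiberEquiv f)]
  have hfib : ∀ Q' : {Q : Sylow p (G ⧸ N) // A.map π ≤ (Q : Subgroup (G ⧸ N))},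
      Nat.card {Q // f Q = Q'} * Nat.card (cn N (P : Subgroup G)) = Nat.card (cn N A) := by
    intro Q'
    obtain ⟨R, hR⟩ : ∃ R, R = (Q'.1 : Subgroup (G ⧸ N)).comap π := ⟨_, rfl⟩
    have hAR : A ≤ R := hR ▸ map_le_iff_le_comap.mp Q'.2
    have hNR : N ≤ R := fun g hg => by
      rw [hR, mem_comap, show π g = 1 from MonoidHom.mem_ker.mp (by rw [hker]; exact hg)]
      exact one_mem _
    have hRcard : Nat.card R = p ^ (Nat.card G).factorization p * Nat.card N := by
      have h := Cfsg.Agent.Lib.Coprime.card_map_mul_card_inf_ker π R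
      rw [hker, inf_eq_right.mpr hNR, hR, map_comap_eq_self_of_surjective hsur,
        Q'.1.card_eq_multiplicity, hfac, ← hR] at h
      exact h.symm
    have hRfac : (Nat.card R).factorization p = (Nat.card G).factorization p := by
      rw [hRcard, Nat.factorization_mul (pow_ne_zero _ (Fact.out : p.Prime).ne_zero) Nat.card_pos.ne',
        Finsupp.add_apply, (Fact.out : p.Prime).factorization_pow, Finsupp.single_eq_same,
        Nat.factorization_eq_zero_of_not_dvd (n := Nat.card N)
          ((Nat.Prime.coprime_iff_not_dvd Fact.out).mp hcop.symm), add_zero]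
    obtain ⟨S, hS⟩ := (hA.of_equiv (subgroupOfEquivOfLe hAR).symm).exists_le_sylow
    obtain ⟨Q0, hQ0⟩ : ∃ Q0 : Sylow p G, (Q0 : Subgroup G) = (S : Subgroup R).map R.subtype :=
      ⟨Sylow.ofCard _ (by
        rw [card_map_of_injective R.subtype_injective, S.card_eq_multiplicity, hRfac]),
        Sylow.coe_ofCard ..⟩
    have hAQ0 : A ≤ (Q0 : Subgroup G) := fun a ha => hQ0 ▸ ⟨⟨a, hAR ha⟩, hS ha, rfl⟩
    have hQ0R : (Q0 : Subgroup G) ≤ R := hQ0 ▸ map_subtype_le _
    have hmapeq : ∀ Q : Sylow p G, (Q : Subgroup G) ≤ R → Q.mapSurjective hsur = Q'.1 := by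
      intro Q hQ
      apply Sylow.ext
      rw [Sylow.coe_mapSurjective]
      refine Subgroup.eq_of_le_of_card_ge (map_le_iff_le_comap.mpr (hR ▸ hQ)) ?_
      rw [← Sylow.coe_mapSurjective hsur Q, Q'.1.card_eq_multiplicity,
        (Q.mapSurjective hsur).card_eq_multiplicity]
    obtain ⟨C, hC⟩ : ∃ C, C = cn N A := ⟨_, rfl⟩
    rw [← hC]
    have hCN : C ≤ N := hC ▸ inf_le_left
    have horb : ∀ Q : Sylow p G, Q ∈ MulAction.orbit C Q0 ↔
        A ≤ (Q : Subgroup G) ∧ (Q : Subgroup G) ≤ R := by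
      intro Q
      constructor
      · rintro ⟨c, rfl⟩
        have hc := c.2
        simp only [hC, mem_inf, mem_centralizer_iff] at hc
        refine ⟨fun a ha => ⟨a, hAQ0 ha, ?_⟩, ?_⟩
        · show (c : G) * a * (c : G)⁻¹ = a
          rw [← hc.2 a ha]; group
        · rintro _ ⟨u, hu, rfl⟩
          exact mul_mem (mul_mem (hNR hc.1) (hQ0R hu)) (inv_mem (hNR hc.1))
      · rintro ⟨hAQ, hQR⟩
        have hTS : Nat.card ((Q : Subgroup G).subgroupOf R) = p ^ (Nat.card R).factorization p := by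
          rw [Nat.card_congr (subgroupOfEquivOfLe hQR).toEquiv, Q.card_eq_multiplicity, hRfac]
        obtain ⟨k, hk⟩ := MulAction.exists_smul_eq R S (Sylow.ofCard _ hTS)
        obtain ⟨u, hu, hue⟩ : π (k : G) ∈ (Q0 : Subgroup G).map π := by
          have h := congrArg (fun Q : Sylow p (G ⧸ N) => (Q : Subgroup (G ⧸ N))) (hmapeq Q0 hQ0R)
          simp only [Sylow.coe_mapSurjective] at h
          rw [h]
          have hk2 := k.2
          simp only [hR, mem_comap] at hk2
          exact hk2
        obtain ⟨n, hn⟩ : ∃ n, n = (k : G) * u⁻¹ := ⟨_, rfl⟩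
        have hnN : n ∈ N := by
          rw [← hker, MonoidHom.mem_ker, hn, map_mul, map_inv, hue, mul_inv_cancel]
        have hQmem : ∀ y ∈ (Q : Subgroup G), n⁻¹ * y * n ∈ (Q0 : Subgroup G) := by
          intro y hy
          have h1 : (⟨y, hQR hy⟩ : R) ∈ ((Sylow.ofCard _ hTS : Sylow p R) : Subgroup R) := hy
          rw [← hk] at h1
          obtain ⟨z, hz, hze⟩ := h1
          have hze' : (k : G) * z * (k : G)⁻¹ = y := congrArg Subtype.val hze
          have e1 : n⁻¹ * y * n = u * z * u⁻¹ := by rw [hn, ← hze']; group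
          rw [e1]
          exact mul_mem (mul_mem hu (hQ0 ▸ ⟨z, hz, rfl⟩)) (inv_mem hu)
        have hnC : n ∈ C := by
          rw [hC]
          refine mem_inf.mpr ⟨hnN, mem_centralizer_iff.mpr fun a ha => ?_⟩
          have h1 : a⁻¹ * (n⁻¹ * a * n) ∈ N ⊓ (Q0 : Subgroup G) := by
            refine mem_inf.mpr ⟨?_, mul_mem (inv_mem (hAQ0 ha)) (hQmem a (hAQ ha))⟩
            rw [← mul_assoc, ← mul_assoc]
            refine mul_mem ?_ hnN
            simpa using (inferInstance : N.Normal).conj_mem _ (inv_mem hnN) a⁻¹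
          rw [hinj, mem_bot] at h1
          have h2 : a = n⁻¹ * a * n := inv_mul_eq_one.mp h1
          calc a * n = n * (n⁻¹ * a * n) := by group
            _ = n * a := by rw [← h2]
        refine ⟨⟨n, hnC⟩, Sylow.ext (Subgroup.eq_of_le_of_card_ge (fun y hy => ?_) ?_).symm⟩
        · exact ⟨_, hQmem y hy, by simp [mul_assoc]⟩
        · rw [Q.card_eq_multiplicity, ((⟨n, hnC⟩ : C) • Q0).card_eq_multiplicity]
    have e : {Q // f Q = Q'} ≃ MulAction.orbit C Q0 :=
      { toFun := fun Q => ⟨Q.1.1, (horb _).mpr ⟨Q.1.2, by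
          have h := congrArg (fun T : {T : Sylow p (G ⧸ N) // A.map π ≤ (T : Subgroup (G ⧸ N))} =>
            (T.1 : Subgroup (G ⧸ N))) Q.2
          simp only [f, Sylow.coe_mapSurjective] at h
          rw [hR, ← h]
          exact le_comap_map _ _⟩⟩
        invFun := fun Q => ⟨⟨Q.1, ((horb _).mp Q.2).1⟩,
          Subtype.ext (hmapeq _ ((horb _).mp Q.2).2)⟩
        left_inv := fun Q => rfl
        right_inv := fun Q => rfl }
    rw [Nat.card_congr e, Nat.card_coe_set_eq, ← MulAction.index_stabilizer]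
    have hs : Nat.card (MulAction.stabilizer C Q0) = Nat.card (cn N (P : Subgroup G)) := by
      rw [← hcn Q0, ← hstab Q0]
      refine Nat.card_congr
        { toFun := fun x => ⟨x.1.1, mem_inf.mpr ⟨hCN x.1.2, Sylow.smul_eq_iff_mem_normalizer.mp x.2⟩⟩
          invFun := fun x => ⟨⟨x.1, ?_⟩, Sylow.smul_eq_iff_mem_normalizer.mpr (mem_inf.mp x.2).2⟩
          left_inv := fun x => rfl
          right_inv := fun x => rfl }
      have h : x.1 ∈ cn N (Q0 : Subgroup G) := hstab Q0 ▸ x.2
      rw [hC]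
      exact inf_le_inf_left N (centralizer_le hAQ0) h
    rw [← hs]
    exact index_mul_card _
  rw [hlam, Finset.sum_mul, Finset.sum_congr rfl (fun Q' _ => hfib Q'), Finset.sum_const,
    smul_eq_mul, Finset.card_univ, ← Nat.card_eq_fintype_card]

theorem lam_pgroup [Finite G] (p : ℕ) [Fact p.Prime] (N : Subgroup G) [N.Normal]
    (hN : IsPGroup p N) (A : Subgroup G) :
    lam p A = lam p (A.map (QuotientGroup.mk' N)) := by
  obtain ⟨π, hπ⟩ : ∃ π : G →* G ⧸ N, π = QuotientGroup.mk' N := ⟨_, rfl⟩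
  rw [← hπ]
  have hsur : Function.Surjective π := hπ ▸ QuotientGroup.mk'_surjective N
  have hker : π.ker = N := by rw [hπ, QuotientGroup.ker_mk']
  have hkerp : IsPGroup p π.ker := by rw [hker]; exact hN
  have hle : ∀ Q : Sylow p G, ((Q : Subgroup G).map π).comap π = Q := fun Q => by
    rw [comap_map_eq, hker, sup_eq_left]
    obtain ⟨Q1, hQ1⟩ := hN.exists_le_sylow
    obtain ⟨g, hg⟩ := MulAction.exists_smul_eq G Q1 Q
    intro x hx
    rw [← hg]
    exact ⟨g⁻¹ * x * g, hQ1 (by simpa using (inferInstance : N.Normal).conj_mem x hx g⁻¹),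
      by simp [mul_assoc]⟩
  refine Nat.card_eq_of_bijective
    (fun Q => ⟨Q.1.mapSurjective hsur, by rw [Sylow.coe_mapSurjective]; exact map_mono Q.2⟩) ⟨?_, ?_⟩
  · intro Q T h
    have h' := congrArg (fun X : {X : Sylow p (G ⧸ N) // A.map π ≤ (X : Subgroup (G ⧸ N))} =>
      ((X.1 : Subgroup (G ⧸ N))).comap π) h
    simp only [Sylow.coe_mapSurjective, hle] at h'
    exact Subtype.ext (Sylow.ext h')
  · rintro ⟨T, hT⟩
    obtain ⟨Q, hQ⟩ := (T.2.comap_of_ker_isPGroup π hkerp).exists_le_sylow
    have hTQ : Q.mapSurjective hsur = T := by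
      apply Sylow.ext
      refine T.3 (Q.mapSurjective hsur).2 ?_
      rw [Sylow.coe_mapSurjective, ← map_comap_eq_self_of_surjective hsur (T : Subgroup (G ⧸ N))]
      exact map_mono hQ
    exact ⟨⟨Q, (map_le_iff_le_comap.mp hT).trans hQ⟩, Subtype.ext hTQ⟩

end

theorem main_bound (p : ℕ) [Fact p.Prime] : ∀ (n : ℕ) {G : Type*} [Group G] [Finite G],
    ∀ (M : Fin (n + 1) → Subgroup G), M 0 = ⊥ → M (Fin.last n) = ⊤ → Monotone M →
    (∀ i, (M i).Normal) →
    (∀ i : Fin n, (∃ m : ℕ, (M i.castSucc).relIndex (M i.succ) = p ^ m) ∨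
      ((M i.castSucc).relIndex (M i.succ)).Coprime p) →
    ∀ P : Sylow p G, (∏ᶠ y : (P : Subgroup G), lam p (zpowers (y : G))) ^ p ≤
      Nat.card (Sylow p G) ^ Nat.card (P : Subgroup G) := by
  intro n
  induction n with
  | zero =>
    intro G _ _ M h0 hn _ _ _ P
    have hbt : (⊥ : Subgroup G) = ⊤ := h0.symm.trans hn
    have h1 : Nat.card G = 1 := by rw [← card_top, ← hbt, card_bot]
    haveI : Subsingleton G := (Nat.card_eq_one_iff_unique.mp h1).1
    haveI : Subsingleton (Sylow p G) := ⟨fun a b => Sylow.ext (Subsingleton.elim _ _)⟩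
    have hl : ∀ y : (P : Subgroup G), lam p (zpowers (y : G)) = 1 := by
      intro y
      haveI : Nonempty {Q : Sylow p G // zpowers (y : G) ≤ (Q : Subgroup G)} :=
        ⟨⟨P, zpowers_le.mpr y.2⟩⟩
      exact Nat.card_unique
    rw [finprod_congr hl, finprod_const', one_pow, one_pow]
    exact Nat.one_le_pow _ _ Nat.card_pos
  | succ n ih =>
    intro G _ _ M h0 hn hmono hnormal hfac P
    classical
    obtain ⟨N, hNdef⟩ : ∃ N, N = M (Fin.succ 0) := ⟨_, rfl⟩
    haveI hNn : N.Normal := hNdef ▸ hnormal _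
    have hNM : ∀ i : Fin (n + 1), N ≤ M i.succ := fun i =>
      hNdef ▸ hmono (Fin.succ_le_succ_iff.mpr (Fin.zero_le i))
    have hsur := QuotientGroup.mk'_surjective N
    obtain ⟨M', hM'⟩ : ∃ M' : Fin (n + 1) → Subgroup (G ⧸ N),
        ∀ i, M' i = (M i.succ).map (QuotientGroup.mk' N) := ⟨_, fun _ => rfl⟩
    have hih := ih (G := G ⧸ N) M'
      (by rw [hM', ← hNdef]; exact QuotientGroup.map_mk'_self N)
      (by rw [hM', Fin.succ_last, hn]; exact map_top_of_surjective _ hsur)
      (fun i j hij => by rw [hM', hM']; exact map_mono (hmono (Fin.succ_le_succ_iff.mpr hij)))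
      (fun i => by rw [hM']; exact (hnormal _).map _ hsur)
      (fun i => by
        rw [hM', hM', ← relIndex_comap, comap_map_eq, QuotientGroup.ker_mk',
          sup_eq_left.mpr (hNM _), Fin.succ_castSucc]
        exact hfac i.succ)
      (P.mapSurjective hsur)
    haveI := Fintype.ofFinite (P : Subgroup G)
    haveI := Fintype.ofFinite ((P.mapSurjective hsur : Sylow p (G ⧸ N)) : Subgroup (G ⧸ N))
    rw [finprod_eq_prod_of_fintype] at hih ⊢
    obtain ⟨P', hP'⟩ : ∃ P', P' = ((P.mapSurjective hsur : Sylow p (G ⧸ N)) : Subgroup (G ⧸ N)) :=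
      ⟨_, rfl⟩
    let e : ↥(P : Subgroup G) → ((P.mapSurjective hsur : Sylow p (G ⧸ N)) : Subgroup (G ⧸ N)) :=
      fun y => ⟨QuotientGroup.mk' N y, by
        rw [Sylow.coe_mapSurjective]; exact mem_map_of_mem _ y.2⟩
    have hesur : Function.Surjective e := by
      rintro ⟨x, hx⟩
      rw [Sylow.coe_mapSurjective] at hx
      obtain ⟨y, hy, rfl⟩ := hx
      exact ⟨⟨y, hy⟩, rfl⟩
    have hNcard : (M (Fin.castSucc 0)).relIndex (M (Fin.succ 0)) = Nat.card N := by
      rw [Fin.castSucc_zero, h0, relIndex_bot_left, hNdef]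
    rcases hfac 0 with ⟨m, hm⟩ | hcop
    · rw [hNcard] at hm
      have hNp : IsPGroup p N := IsPGroup.of_card hm
      have hPN : N ≤ (P : Subgroup G) := by
        obtain ⟨Q1, hQ1⟩ := hNp.exists_le_sylow
        obtain ⟨g, hg⟩ := MulAction.exists_smul_eq G Q1 P
        intro x hx
        rw [← hg]
        exact ⟨g⁻¹ * x * g, hQ1 (by simpa using hNn.conj_mem x hx g⁻¹), by simp [mul_assoc]⟩
      have hfib : ∀ x, (Finset.univ.filter fun y => e y = x).card = Nat.card N := by
        intro x
        rw [← Fintype.card_subtype, ← Nat.card_eq_fintype_card]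
        obtain ⟨y0, rfl⟩ := hesur x
        refine Nat.card_congr
          { toFun := fun y => ⟨(y0 : G)⁻¹ * y.1, ?_⟩
            invFun := fun v => ⟨⟨(y0 : G) * v, mul_mem y0.2 (hPN v.2)⟩, ?_⟩
            left_inv := fun y => by ext; simp
            right_inv := fun v => by ext; simp }
        · have h := congrArg Subtype.val y.2
          exact QuotientGroup.eq.mp h.symm
        · apply Subtype.ext
          show QuotientGroup.mk' N ((y0 : G) * v) = QuotientGroup.mk' N (y0 : G)
          rw [map_mul, (QuotientGroup.eq_one_iff _).mpr v.2 |> fun h => (show QuotientGroup.mk' N (v : G) = 1 from h), mul_one]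
      have hprod : ∏ y : (P : Subgroup G), lam p (zpowers (y : G)) =
          (∏ x : ((P.mapSurjective hsur : Sylow p (G ⧸ N)) : Subgroup (G ⧸ N)),
            lam p (zpowers (x : G ⧸ N))) ^ Nat.card N := by
        rw [← Finset.prod_fiberwise Finset.univ e, ← Finset.prod_pow]
        refine Finset.prod_congr rfl fun x _ => ?_
        rw [← hfib x, ← Finset.prod_const]
        refine Finset.prod_congr rfl fun y hy => ?_
        rw [lam_pgroup p N hNp, MonoidHom.map_zpowers, ← (Finset.mem_filter.mp hy).2]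
      have hPcard : Nat.card (P : Subgroup G) = Nat.card N *
          Nat.card ((P.mapSurjective hsur : Sylow p (G ⧸ N)) : Subgroup (G ⧸ N)) := by
        rw [Nat.card_eq_fintype_card, ← Finset.card_univ,
          Finset.card_eq_sum_card_fiberwise (f := e) (t := Finset.univ) (fun _ _ => Finset.mem_univ _),
          Finset.sum_congr rfl (fun x _ => hfib x), Finset.sum_const, smul_eq_mul, Finset.card_univ,
          Nat.card_eq_fintype_card (α := ((P.mapSurjective hsur : Sylow p (G ⧸ N)) : Subgroup (G ⧸ N))),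
          mul_comm]
      have hn' : Nat.card (Sylow p G) = Nat.card (Sylow p (G ⧸ N)) := by
        have h := lam_pgroup p N hNp (⊥ : Subgroup G)
        rw [Subgroup.map_bot] at h
        rwa [lam, lam, Nat.card_congr (Equiv.subtypeUnivEquiv fun _ => bot_le),
          Nat.card_congr (Equiv.subtypeUnivEquiv fun _ => bot_le)] at h
      rw [hprod, ← pow_mul, mul_comm, pow_mul, hn', hPcard, mul_comm (Nat.card N), pow_mul]
      exact Nat.pow_le_pow_left hih _
    · rw [hNcard] at hcop
      have hinjP : Function.Injective e := by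
        intro a b h
        have h' := congrArg Subtype.val h
        have h1 : (a : G)⁻¹ * b ∈ N ⊓ (P : Subgroup G) :=
          mem_inf.mpr ⟨QuotientGroup.eq.mp h', mul_mem (inv_mem a.2) b.2⟩
        rw [show N ⊓ (P : Subgroup G) = ⊥ by
          apply inf_eq_bot_of_coprime
          rw [P.card_eq_multiplicity]
          exact hcop.pow_right _, mem_bot] at h1
        exact Subtype.ext (inv_mul_eq_one.mp h1)
      have hPcard : Nat.card ((P.mapSurjective hsur : Sylow p (G ⧸ N)) : Subgroup (G ⧸ N)) =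
          Nat.card (P : Subgroup G) := (Nat.card_eq_of_bijective e ⟨hinjP, hesur⟩).symm
      rw [← Fintype.prod_bijective e ⟨hinjP, hesur⟩ (fun y => lam p (zpowers ((e y : _) : G ⧸ N)))
        _ (fun _ => rfl), hPcard] at hih
      have hy : ∀ y : (P : Subgroup G), lam p (zpowers (y : G)) * Nat.card (cn N (P : Subgroup G)) =
          lam p (zpowers ((e y : _) : G ⧸ N)) * Nat.card (cn N (zpowers (y : G))) := by
        intro y
        have h := lam_quot p N hcop P (zpowers (y : G)) (P.2.to_le (zpowers_le.mpr y.2))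
        rw [MonoidHom.map_zpowers] at h
        exact h
      have hN1 : Nat.card (Sylow p G) * Nat.card (cn N (P : Subgroup G)) =
          Nat.card (Sylow p (G ⧸ N)) * Nat.card N := by
        have h := lam_quot p N hcop P ⊥ IsPGroup.of_bot
        rw [Subgroup.map_bot] at h
        rwa [lam, lam, Nat.card_congr (Equiv.subtypeUnivEquiv fun _ => bot_le),
          Nat.card_congr (Equiv.subtypeUnivEquiv fun _ => bot_le),
          show cn N (⊥ : Subgroup G) = N from inf_eq_left.mpr fun v _ => mem_centralizer_iff.mpr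
            fun b hb => by rw [mem_bot.mp hb]; simp] at h
      have hW := wbound p (P : Subgroup G) N P.2 hcop
      unfold WBound at hW
      rw [finprod_eq_prod_of_fintype] at hW
      obtain ⟨c, hc⟩ : ∃ c, c = Nat.card (cn N (P : Subgroup G)) := ⟨_, rfl⟩
      obtain ⟨L, hL⟩ : ∃ L, L = Nat.card (P : Subgroup G) := ⟨_, rfl⟩
      rw [← hc] at hy hN1 hW
      rw [← hL] at hih hW ⊢
      have hc0 : 0 < c ^ (p * L) := pow_pos (hc ▸ Nat.card_pos) _
      refine Nat.le_of_mul_le_mul_right ?_ hc0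
      have hm : (∏ y : (P : Subgroup G), lam p (zpowers (y : G))) ^ p * c ^ (p * L) =
          (∏ y : (P : Subgroup G), lam p (zpowers ((e y : _) : G ⧸ N))) ^ p *
          (∏ y : (P : Subgroup G), Nat.card (cn N (zpowers (y : G)))) ^ p := by
        rw [mul_comm p L, pow_mul, ← mul_pow, ← mul_pow, hL, Nat.card_eq_fintype_card,
          ← Finset.card_univ, ← Finset.prod_const, ← Finset.prod_mul_distrib,
          ← Finset.prod_mul_distrib, Finset.prod_congr rfl (fun y _ => hy y)]
      rw [hm]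
      refine (Nat.mul_le_mul hih hW).trans (le_of_eq ?_)
      have hpL : p * L = L + (p - 1) * L := by
        have := (Fact.out : p.Prime).one_le
        conv_lhs => rw [show p = 1 + (p - 1) by omega]
        ring
      rw [hpL, pow_add, ← mul_assoc, ← mul_assoc, ← mul_pow, ← mul_pow, hN1]

/-- Let G be a finite p-solvable group, P a Sylow p-subgroup of G, u the number of p-elements of G (elements of p-power order, the identity included) and n the number of Sylow p-subgroups of G. Then u/#P ≥ n^((p−1)/p), stated as u^p ≥ #P^p · n^(p−1). -/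
theorem result {G : Type*} [Group G] [Finite G] (p : ℕ) [Fact p.Prime]
    (hG : Cfsg.IsPSolvable p G) (P : Sylow p G) :
    Nat.card (P : Subgroup G) ^ p * Nat.card (Sylow p G) ^ (p - 1) ≤ Nat.card {g : G // ∃ k : ℕ, orderOf g = p ^ k} ^ p := by
  classical
  obtain ⟨n, M, h0, hn, hmono, hnormal, hfac⟩ := hG
  have hb := main_bound p n M h0 hn hmono hnormal hfac P
  haveI := Fintype.ofFinite (P : Subgroup G)
  haveI := Fintype.ofFinite (Sylow p G)
  haveI := Fintype.ofFinite G
  rw [finprod_eq_prod_of_fintype] at hb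
  obtain ⟨U, hU⟩ : ∃ U, U = Nat.card {g : G // ∃ k : ℕ, orderOf g = p ^ k} := ⟨_, rfl⟩
  obtain ⟨L, hL⟩ : ∃ L, L = Nat.card (P : Subgroup G) := ⟨_, rfl⟩
  obtain ⟨S, hS⟩ : ∃ S, S = Nat.card (Sylow p G) := ⟨_, rfl⟩
  rw [← hU, ← hL, ← hS]
  rw [← hL, ← hS] at hb
  have hlam : ∀ (Q : Sylow p G) (y : G), y ∈ (Q : Subgroup G) → 0 < lam p (Subgroup.zpowers y) := by
    intro Q y hy
    haveI : Nonempty {R : Sylow p G // Subgroup.zpowers y ≤ (R : Subgroup G)} :=
      ⟨⟨Q, Subgroup.zpowers_le.mpr hy⟩⟩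
    exact Nat.card_pos
  obtain ⟨w, hw⟩ : ∃ w : G → ℝ, ∀ y, w y = 1 / (lam p (Subgroup.zpowers y) : ℝ) :=
    ⟨_, fun _ => rfl⟩
  -- double counting
  have hcount : (U : ℝ) = (S : ℝ) * ∑ y : (P : Subgroup G), w y := by
    have h1 : ∑ Q : Sylow p G, ∑ y : G, (if y ∈ (Q : Subgroup G) then w y else 0) = (U : ℝ) := by
      rw [Finset.sum_comm, hU, Nat.card_eq_fintype_card, Fintype.card_subtype, ← Finset.sum_boole]
      refine Finset.sum_congr rfl fun y _ => ?_
      rw [← Finset.sum_filter, Finset.sum_const, nsmul_eq_mul]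
      have hc : (Finset.univ.filter fun Q : Sylow p G => y ∈ (Q : Subgroup G)).card =
          lam p (Subgroup.zpowers y) := by
        rw [lam, Nat.card_eq_fintype_card, Fintype.card_subtype]
        congr 1
        exact Finset.filter_congr fun Q _ => Subgroup.zpowers_le.symm
      rw [hc, hw]
      by_cases hy : ∃ k : ℕ, orderOf y = p ^ k
      · rw [if_pos hy, mul_one_div, div_self]
        obtain ⟨k, hk⟩ := hy
        obtain ⟨Q, hQ⟩ := (IsPGroup.of_card (p := p) (n := k)
          (show Nat.card (Subgroup.zpowers y) = p ^ k by rw [Nat.card_zpowers, hk])).exists_le_sylow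
        exact_mod_cast (hlam Q y (hQ (Subgroup.mem_zpowers y))).ne'
      · rw [if_neg hy]
        have : lam p (Subgroup.zpowers y) = 0 := by
          rw [lam, Nat.card_eq_zero]
          left
          refine ⟨fun Q => hy ?_⟩
          obtain ⟨k, hk⟩ := IsPGroup.iff_orderOf.mp Q.1.2 ⟨y, Q.2 (Subgroup.mem_zpowers y)⟩
          exact ⟨k, by rw [← hk, Subgroup.orderOf_mk]⟩
        rw [this, Nat.cast_zero, zero_mul]
    have h2 : ∀ Q : Sylow p G, ∑ y : G, (if y ∈ (Q : Subgroup G) then w y else 0) =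
        ∑ y : (P : Subgroup G), w y := by
      intro Q
      obtain ⟨g, hg⟩ := MulAction.exists_smul_eq G P Q
      rw [← Finset.sum_filter, Finset.sum_subtype _ (p := fun y => y ∈ (Q : Subgroup G))
        (fun y => by simp) w]
      subst hg
      have hwc : ∀ y, w (g * y * g⁻¹) = w y := by
        intro y
        rw [hw, hw]
        congr 2
        refine Nat.card_congr (Equiv.subtypeEquiv (MulAction.toPerm (g⁻¹ : G)) fun R => ?_)
        rw [Subgroup.zpowers_le, Subgroup.zpowers_le]
        constructor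
        · intro h
          exact ⟨_, h, by simp [mul_assoc]⟩
        · intro h
          obtain ⟨u, hu, hue⟩ := h
          have hue' : g⁻¹ * u * g = y := by simpa [mul_assoc] using hue
          have : u = g * y * g⁻¹ := by rw [← hue']; group
          exact this ▸ hu
      refine (Fintype.sum_bijective
        (fun y : (P : Subgroup G) => (⟨g * y.1 * g⁻¹, ⟨y.1, y.2, rfl⟩⟩ : ((g • P : Sylow p G) : Subgroup G)))
        ⟨?_, ?_⟩ (fun y => w y) _ (fun y => (hwc y).symm)).symm
      · intro a b h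
        exact Subtype.ext (mul_left_cancel (mul_right_cancel (congrArg Subtype.val h)))
      · rintro ⟨x, u, hu, rfl⟩
        exact ⟨⟨u, hu⟩, rfl⟩
    rw [← h1, Finset.sum_congr rfl (fun Q _ => h2 Q), Finset.sum_const, nsmul_eq_mul,
      Finset.card_univ, hS, Nat.card_eq_fintype_card]
  -- the mean inequality
  have hL0 : 0 < L := hL ▸ Nat.card_pos
  have hpos : ∀ y : (P : Subgroup G), 0 < w y := fun y => by
    rw [hw]
    have := hlam P y y.2
    positivity
  have hgm : (L : ℝ) ^ L * ∏ y : (P : Subgroup G), w y ≤ (∑ y : (P : Subgroup G), w y) ^ L := by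
    have h := Real.geom_mean_le_arith_mean Finset.univ (fun _ : (P : Subgroup G) => (1 : ℝ))
      (fun y => w y) (fun _ _ => zero_le_one)
      (by simp [Fintype.card_pos]) (fun y _ => (hpos y).le)
    simp only [Real.rpow_one, Finset.sum_const, Finset.card_univ, nsmul_eq_mul, mul_one, one_mul] at h
    rw [← Nat.card_eq_fintype_card, ← hL] at h
    have hnn : (0 : ℝ) ≤ ∏ y : (P : Subgroup G), w y := Finset.prod_nonneg fun y _ => (hpos y).le
    have h' := pow_le_pow_left₀ (Real.rpow_nonneg hnn _) h L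
    rw [Real.rpow_inv_natCast_pow hnn hL0.ne', div_pow, le_div_iff₀ (by positivity)] at h'
    rw [mul_comm]
    exact h'
  have hprodw : (∏ y : (P : Subgroup G), w y) *
      (∏ y : (P : Subgroup G), (lam p (Subgroup.zpowers (y : G)) : ℝ)) = 1 := by
    rw [← Finset.prod_mul_distrib]
    refine Finset.prod_eq_one fun y _ => ?_
    rw [hw, one_div, inv_mul_cancel₀]
    exact_mod_cast (hlam P y y.2).ne'
  have hU' : (S : ℝ) ^ L * (L : ℝ) ^ L ≤
      (U : ℝ) ^ L * (∏ y : (P : Subgroup G), (lam p (Subgroup.zpowers (y : G)) : ℝ)) := by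
    have h1 := mul_le_mul_of_nonneg_left hgm (pow_nonneg (Nat.cast_nonneg S) L)
    rw [← mul_pow, ← hcount] at h1
    have h2 := mul_le_mul_of_nonneg_right h1
      (Finset.prod_nonneg (s := Finset.univ) fun (y : (P : Subgroup G)) _ =>
        (Nat.cast_nonneg (lam p (Subgroup.zpowers (y : G))) : (0:ℝ) ≤ _))
    rwa [mul_assoc, mul_assoc, hprodw, mul_one] at h2
  have hnat : S ^ L * L ^ L ≤ U ^ L * ∏ y : (P : Subgroup G), lam p (Subgroup.zpowers (y : G)) := by
    exact_mod_cast hU'
  have hfin : (L ^ p * S ^ (p - 1)) ^ L ≤ (U ^ p) ^ L := by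
    have h1 := Nat.pow_le_pow_left hnat p
    rw [mul_pow] at h1
    rw [mul_pow _ _ p] at h1
    have h2 := h1.trans (Nat.mul_le_mul_left _ hb)
    have hp1 : (S ^ L) ^ p = S ^ L * (S ^ (p - 1)) ^ L := by
      rw [← mul_pow, ← pow_succ', Nat.sub_add_cancel (Fact.out : p.Prime).one_le, ← pow_mul, ← pow_mul, mul_comm]
    rw [hp1, mul_assoc, mul_comm ((U ^ L) ^ p)] at h2
    have h3 := Nat.le_of_mul_le_mul_left h2 (pow_pos (hS ▸ Nat.card_pos) _)
    rw [mul_pow, ← pow_mul, ← pow_mul, ← pow_mul]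
    rw [← pow_mul, ← pow_mul, ← pow_mul] at h3
    rwa [mul_comm (L ^ _), mul_comm p L]
  exact (Nat.pow_le_pow_iff_left hL0.ne').mp hfin


end Cfsg.Agent.S4091
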