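import Cfsg.Statements.S4092
import Mathlib
-- import your own Cfsg.Agent.* helpers here

set_option autoImplicit false
open Cfsg

namespace Cfsg.Agent.S4092


/-- Let G be a finite group, p a prime and P a Sylow p-subgroup of G that is not normal in G. Then G has at least p·#P elements of p-power order (the identity included). -/
theorem result {G : Type*} [Group G] [Finite G] (p : ℕ) [Fact p.Prime]
    (P : Sylow p G) (hP : ¬ (P : Subgroup G).Normal) :
    p * Nat.card (P : Subgroup G) ≤ Nat.card {g : G // ∃ k : ℕ, orderOf g = p ^ k} := by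
  classical
  let pairs : Set (Sylow p G × Sylow p G) := {pq | pq.1 ≠ pq.2}
  obtain ⟨Q0, hQ0⟩ : ∃ Q : Sylow p G, Q ≠ P := by
    by_contra hno
    push Not at hno
    have : Subsingleton (Sylow p G) := ⟨fun a b => (hno a).trans (hno b).symm⟩
    exact hP (Sylow.normal_of_subsingleton P)
  obtain ⟨⟨A, B⟩, hAB, hmax'⟩ := Set.exists_max_image pairs
    (fun pq => Nat.card ↥((pq.1 : Subgroup G) ⊓ (pq.2 : Subgroup G))) (Set.toFinite pairs) ⟨(Q0, P), hQ0⟩
  have hAB' : A ≠ B := hAB
  set D := (A : Subgroup G) ⊓ (B : Subgroup G) with hD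
  let T : Set (Sylow p G) := {S | D ≤ (S : Subgroup G)}
  have hpair : ∀ S ∈ T, ∀ S' ∈ T, S ≠ S' → (S : Subgroup G) ⊓ (S' : Subgroup G) = D := by
    intro S hS S' hS' hne
    have hle : D ≤ (S : Subgroup G) ⊓ (S' : Subgroup G) := le_inf hS hS'
    refine (Subgroup.eq_of_le_of_card_ge hle ?_).symm
    by_contra hlt
    push Not at hlt
    have h2 : Nat.card ↥((S : Subgroup G) ⊓ (S' : Subgroup G)) ≤ Nat.card D := hmax' (S, S') hne
    omega
  have hDlt : D < (A : Subgroup G) := by
    refine lt_of_le_of_ne inf_le_left fun e => hAB' (Sylow.ext ?_)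
    exact (A.3 B.isPGroup' (inf_eq_left.1 e)).symm
  -- the normaliser of D in A moves B
  let N := (A : Subgroup G) ⊓ Subgroup.normalizer (D : Set G)
  have hDN : D ≤ N := le_inf hDlt.le Subgroup.le_normalizer
  have hDNne : ¬ N ≤ D := by
    intro hle
    have : Group.IsNilpotent (A : Subgroup G) := A.isPGroup'.isNilpotent
    have hlt : D.subgroupOf (A : Subgroup G) < ⊤ := by
      rw [lt_top_iff_ne_top, Ne, Subgroup.subgroupOf_eq_top]; exact not_le_of_gt hDlt
    obtain ⟨z, hz, hzD⟩ := SetLike.exists_of_lt (normalizerCondition_of_isNilpotent _ hlt)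
    apply hzD
    rw [Subgroup.mem_subgroupOf]
    refine hle ⟨z.2, ?_⟩
    rw [← Subgroup.subgroupOf_normalizer_eq hDlt.le] at hz
    exact hz
  have hBT : B ∈ T := (inf_le_right : D ≤ (B : Subgroup G))
  have hfixN : ∀ g ∈ N, g • B ∈ T := by
    intro g hg d hd
    rw [Sylow.coe_subgroup_smul]
    exact ⟨g⁻¹ * d * g, ((Subgroup.mem_normalizer_iff''.1 hg.2 d).1 hd : g⁻¹ * d * g ∈ D).2, by simp [mul_assoc]⟩
  let orb : Set (Sylow p G) := Set.range fun g : N => (g : G) • B
  have horb : p ≤ orb.ncard := by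
    let K : Subgroup N := (MulAction.stabilizer G B).subgroupOf N
    have hcard : Nat.card orb = K.index := by
      rw [Subgroup.index]
      let F : N ⧸ K → orb := Quotient.lift (fun g => ⟨(g : G) • B, g, rfl⟩) (fun u v e => by
        have e' : ((u : G)⁻¹ * v) • B = B := QuotientGroup.leftRel_apply.1 e
        refine Subtype.ext ?_
        show (u : G) • B = (v : G) • B
        nth_rewrite 1 [← e']
        rw [smul_smul, mul_inv_cancel_left])
      refine (Nat.card_eq_of_bijective F ⟨?_, ?_⟩).symm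
      · rintro ⟨u⟩ ⟨v⟩ e
        refine Quotient.sound (QuotientGroup.leftRel_apply.2 ?_)
        show ((u : G)⁻¹ * v) • B = B
        have e' : (u : G) • B = (v : G) • B := congrArg Subtype.val e
        rw [mul_smul, ← e', inv_smul_smul]
      · rintro ⟨_, g, rfl⟩; exact ⟨QuotientGroup.mk g, rfl⟩
    have hKne : K.index ≠ 1 := by
      intro h1
      rw [Subgroup.index_eq_one, Subgroup.subgroupOf_eq_top] at h1
      apply hDNne
      intro g hg
      refine ⟨hg.1, ?_⟩
      have hgB : g ∈ (Subgroup.normalizer ((B : Subgroup G) : Set G)) :=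
        Sylow.smul_eq_iff_mem_normalizer.1 (h1 hg : g • B = B)
      have hgp : IsPGroup p (Subgroup.zpowers g) := A.isPGroup'.to_le (Subgroup.zpowers_le.2 hg.1)
      have := hgp.inf_normalizer_sylow B
      exact this.le ⟨Subgroup.mem_zpowers g, hgB⟩ |>.2
    have hNp : IsPGroup p N := A.isPGroup'.to_le inf_le_left
    obtain ⟨k, hk⟩ := hNp.index K
    rw [← Nat.card_coe_set_eq, hcard, hk]
    rcases k with _ | k
    · exact absurd (by simpa using hk) hKne
    · exact Nat.le_self_pow (Nat.succ_ne_zero k) p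
  have hAorb : A ∉ orb := by
    rintro ⟨g, hg⟩
    apply hAB'
    have : (g : G) • A = A := by
      exact Sylow.smul_eq_iff_mem_normalizer.2 (Subgroup.le_normalizer g.2.1)
    exact MulAction.injective (g : G) (this.trans hg.symm)
  let U : Set (Sylow p G) := insert A orb
  have hU : U ⊆ T := Set.insert_subset (inf_le_left : D ≤ (A : Subgroup G)) (by rintro _ ⟨g, rfl⟩; exact hfixN g g.2)
  have hUcard : p + 1 ≤ U.ncard := by rw [Set.ncard_insert_of_notMem hAorb]; omega
  -- count p-elements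
  let E := {g : G // ∃ k : ℕ, orderOf g = p ^ k}
  have hmemp : ∀ (S : Sylow p G) (g : G), g ∈ (S : Subgroup G) → ∃ k : ℕ, orderOf g = p ^ k := fun S g hg => by
    obtain ⟨k, hk⟩ := IsPGroup.iff_orderOf.1 S.isPGroup' ⟨g, hg⟩
    exact ⟨k, by rw [← hk, Subgroup.orderOf_mk]⟩
  let F : (Σ S : U, {g : (S.1 : Subgroup G) // (g : G) ∉ D}) ⊕ D → E
    | .inl a => ⟨(a.2.1 : G), hmemp a.1.1 _ a.2.1.2⟩
    | .inr d => ⟨(d : G), hmemp A _ (inf_le_left (b := (B : Subgroup G)) d.2)⟩
  have hF : Function.Injective F := by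
    rintro (⟨⟨S, hS⟩, ⟨g, hg⟩, hgD⟩ | ⟨d, hd⟩) (⟨⟨S', hS'⟩, ⟨g', hg'⟩, hgD'⟩ | ⟨d', hd'⟩) e <;>
      have e' := congrArg Subtype.val e <;> simp only [F] at e'
    · subst e'
      have : S = S' := by
        by_contra hne
        exact hgD ((hpair S (hU hS) S' (hU hS') hne).le ⟨hg, hg'⟩)
      subst this; rfl
    · exact absurd (e' ▸ hd') hgD
    · exact absurd (e'.symm ▸ hd) hgD'
    · subst e'; rfl
  have hcard := Nat.card_le_card_of_injective F hF
  have hPc : ∀ S : Sylow p G, Nat.card (S : Subgroup G) = Nat.card (P : Subgroup G) := fun S => by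
    rw [S.card_eq_multiplicity, P.card_eq_multiplicity]
  have : Fintype U := Fintype.ofFinite U
  have hfib : ∀ S : U, Nat.card {g : (S.1 : Subgroup G) // (g : G) ∉ D} = Nat.card (P : Subgroup G) - Nat.card D := by
    intro S
    have : Fintype (S.1 : Subgroup G) := Fintype.ofFinite _
    rw [Nat.card_eq_fintype_card, Fintype.card_subtype_compl, ← Nat.card_eq_fintype_card, ← Nat.card_eq_fintype_card, hPc]
    congr 1
    exact Nat.card_congr (Subgroup.subgroupOfEquivOfLe (hU S.2)).toEquiv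
  rw [Nat.card_sum, Nat.card_sigma, Finset.sum_congr rfl (fun S _ => hfib S), Finset.sum_const, smul_eq_mul, Finset.card_univ, ← Nat.card_eq_fintype_card, Nat.card_coe_set_eq] at hcard
  have hdd : Nat.card D ∣ Nat.card (P : Subgroup G) := (Subgroup.card_dvd_of_le inf_le_left).trans (dvd_of_eq (hPc A))
  obtain ⟨d, -, hd⟩ := (Nat.dvd_prime_pow (Fact.out : p.Prime)).1 (hdd.trans (dvd_of_eq P.card_eq_multiplicity))
  obtain ⟨k, hk⟩ := hdd
  have hlt : Nat.card D < Nat.card (P : Subgroup G) := by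
    rw [← hPc A]
    have h := Set.ncard_lt_ncard (SetLike.coe_ssubset_coe.2 hDlt) (Set.toFinite _)
    rwa [← Nat.card_coe_set_eq, ← Nat.card_coe_set_eq] at h
  have hkp : p ≤ k := by
    obtain ⟨e, he⟩ := IsPGroup.iff_card.1 P.isPGroup'
    have hk' : k ∣ p ^ e := he ▸ (hk ▸ dvd_mul_left k (Nat.card D))
    obtain ⟨j, -, hj⟩ := (Nat.dvd_prime_pow (Fact.out : p.Prime)).1 hk'
    rcases j with _ | j
    · rw [hk, hj] at hlt; simp at hlt
    · rw [hj]; exact Nat.le_self_pow (Nat.succ_ne_zero j) p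
  calc p * Nat.card (P : Subgroup G) ≤ (p + 1) * (Nat.card (P : Subgroup G) - Nat.card D) + Nat.card D := by
        have hpD : p * Nat.card D ≤ Nat.card (P : Subgroup G) := by rw [hk, mul_comm p]; exact Nat.mul_le_mul_left _ hkp
        have : (p + 1) * (Nat.card (P : Subgroup G) - Nat.card D) + (p + 1) * Nat.card D = (p + 1) * Nat.card (P : Subgroup G) := by
          rw [← mul_add, Nat.sub_add_cancel hlt.le]
        linarith [this, hpD, add_mul p 1 (Nat.card D), add_mul p 1 (Nat.card (P : Subgroup G))]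
    _ ≤ _ := le_trans (Nat.add_le_add_right (Nat.mul_le_mul_right _ hUcard) _) hcard

end Cfsg.Agent.S4092
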