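import Cfsg.Statements.S4093
import Mathlib

set_option autoImplicit false
open scoped BigOperators
open Cfsg

namespace Cfsg.Agent.S4093

open MulAction in
lemma card_orbit_aux {G : Type*} [Group G] [Finite G] (N : Subgroup G) (x : G) :
    Nat.card {g : G // ∃ n ∈ N, g = n * x * n⁻¹} =
      Nat.card N / Nat.card ↥(N ⊓ Subgroup.centralizer ({x} : Set G)) := by
  letI : MulAction N G := MulAction.compHom G (ConjAct.toConjAct.toMonoidHom.comp N.subtype)
  have hsmul : ∀ (n : N) (y : G), n • y = (n : G) * y * (n : G)⁻¹ := fun n y => rfl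
  have h1 : MulAction.stabilizer N x = (N ⊓ Subgroup.centralizer ({x} : Set G)).subgroupOf N := by
    ext n
    rw [MulAction.mem_stabilizer_iff, hsmul, Subgroup.mem_subgroupOf, Subgroup.mem_inf,
      Subgroup.mem_centralizer_singleton_iff, mul_inv_eq_iff_eq_mul]
    simp
  have h2 : {g : G | ∃ n ∈ N, g = n * x * n⁻¹} = MulAction.orbit N x := by
    ext g
    constructor
    · rintro ⟨n, hn, rfl⟩; exact ⟨⟨n, hn⟩, hsmul _ _⟩
    · rintro ⟨n, rfl⟩; exact ⟨n, n.2, hsmul _ _⟩
  have h3 := MulAction.index_stabilizer N x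
  have h4 : Nat.card {g : G // ∃ n ∈ N, g = n * x * n⁻¹} = (MulAction.orbit N x).ncard := by
    rw [← h2]; rfl
  rw [h4, ← h3, h1]
  have h5 := Subgroup.card_mul_index ((N ⊓ Subgroup.centralizer ({x} : Set G)).subgroupOf N)
  rw [Nat.card_congr (Subgroup.subgroupOfEquivOfLe inf_le_left).toEquiv] at h5
  rw [← h5, Nat.mul_div_cancel_left _ Nat.card_pos]

/-- Let G be a finite group with a normal subgroup N complementing a Sylow p-subgroup P (a normal p-complement). Then the number of elements of G of p-power order equals the sum over x ∈ P of the index of C_N(x) in N. -/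
theorem result {G : Type*} [Group G] [Finite G] (p : ℕ) [Fact p.Prime]
    (P : Sylow p G) (N : Subgroup G) [N.Normal] (hNP : N.IsComplement' (P : Subgroup G)) :
    Nat.card {g : G // ∃ k : ℕ, orderOf g = p ^ k} =
      ∑ᶠ x : (P : Subgroup G), Nat.card N / Nat.card ↥(N ⊓ Subgroup.centralizer ({(x : G)} : Set G)) := by
  classical
  haveI := Fintype.ofFinite (P : Subgroup G)
  rw [finsum_eq_sum_of_fintype]
  simp_rw [← card_orbit_aux]
  rw [← Nat.card_sigma]
  symm
  refine Nat.card_congr (Equiv.ofBijective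
    (fun s => ⟨s.2.1, ?_⟩) ⟨?_, ?_⟩)
  · obtain ⟨x, g, n, hn, rfl⟩ := s
    obtain ⟨k, hk⟩ := (IsPGroup.iff_orderOf.1 P.2) x
    refine ⟨k, ?_⟩
    show orderOf (n * (x : G) * n⁻¹) = p ^ k
    rw [← hk, show n * (x : G) * n⁻¹ = MulAut.conj n (x : G) from rfl, MulEquiv.orderOf_eq]
    exact orderOf_injective (P : Subgroup G).subtype Subtype.val_injective x
  · rintro ⟨x, g, n, hn, hg⟩ ⟨y, g', m, hm, hg'⟩ h
    simp only [Subtype.mk.injEq] at h
    subst h
    have key : ∀ (a : G) (b : (P : Subgroup G)), a ∈ N → ∃ a' : N, a * b * a⁻¹ = (a' : G) * b := by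
      intro a b ha
      refine ⟨⟨a * ((b : G) * a⁻¹ * (b : G)⁻¹), N.mul_mem ha ?_⟩, by simp [mul_assoc]⟩
      exact (inferInstance : N.Normal).conj_mem _ (N.inv_mem ha) _
    obtain ⟨a, ha⟩ := key n x hn
    obtain ⟨b, hb⟩ := key m y hm
    have := hNP.1 (a₁ := (a, x)) (a₂ := (b, y)) (by show (a : G) * x = b * y; rw [← ha, ← hb, ← hg, ← hg'])
    have hxy : x = y := congrArg Prod.snd this
    subst hxy
    rfl
  · rintro ⟨g, k, hk⟩
    have hpg : IsPGroup p (Subgroup.zpowers g) :=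
      IsPGroup.of_card (n := k) (by rw [Nat.card_zpowers, hk])
    obtain ⟨Q, hQ⟩ := hpg.exists_le_sylow
    obtain ⟨h, hh⟩ := MulAction.exists_smul_eq G P Q
    obtain ⟨⟨n, z⟩, hnz⟩ := hNP.2 h
    have hg : g ∈ (Q : Subgroup G) := hQ (Subgroup.mem_zpowers g)
    rw [← hh, Sylow.coe_subgroup_smul, Subgroup.mem_pointwise_smul_iff_inv_smul_mem] at hg
    simp only [MulAut.smul_def, ← map_inv, MulAut.conj_apply, inv_inv] at hg
    have hnz' : (n : G) * z = h := hnz
    have hy : (n : G)⁻¹ * g * n ∈ (P : Subgroup G) := by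
      have := (P : Subgroup G).mul_mem ((P : Subgroup G).mul_mem z.2 hg) ((P : Subgroup G).inv_mem z.2)
      rw [← hnz'] at this
      convert this using 1
      simp [mul_assoc]
    exact ⟨⟨⟨_, hy⟩, g, n, n.2, by simp [mul_assoc]⟩, rfl⟩

end Cfsg.Agent.S4093
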