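import Cfsg.Statements.S4097
import Cfsg.Agent.Lib.FPF.FrobeniusKernel
import Cfsg.Agent.Lib.Components.Cores

set_option autoImplicit false
open Cfsg

namespace Cfsg.Agent.S4097


open scoped Pointwise

universe v

theorem central_aux (n : ℕ) : ∀ (G : Type v) [Group G] [Finite G], Nat.card G = n →
    ∀ A : Subgroup G, Group.IsSolvable A →
    (∀ S : Subgroup G, A ≤ S → Group.IsSolvable S → ∀ a ∈ A, ∀ s ∈ S, a * s = s * a) →
    A ≤ Subgroup.center G := by
  induction n using Nat.strong_induction_on with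
  | _ n ih =>
  intro G _ _ hn A hA hc
  by_contra hne
  obtain ⟨a₀, ha₀, ha₀Z⟩ := SetLike.not_le_iff_exists.1 hne
  set M := Subgroup.centralizer (A : Set G) with hM
  set Z := Subgroup.center G with hZ
  have hmemM : ∀ {g : G}, g ∈ M ↔ ∀ a ∈ A, a * g = g * a := fun {g} =>
    Subgroup.mem_centralizer_iff
  have hprop : ∀ H : Subgroup G, A ≤ H → H ≠ ⊤ → H ≤ M := by
    intro H hAH hH
    have hlt : Nat.card H < n := by
      rw [← hn]
      rcases lt_or_eq_of_le (Subgroup.card_le_card_group H) with h | h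
      · exact h
      · exact absurd (Subgroup.eq_top_of_card_eq H h) hH
    haveI := hA
    have hsol : Group.IsSolvable (A.subgroupOf H) := Group.isSolvable_of_isSolvable_injective
      (f := (Subgroup.subgroupOfEquivOfLe hAH).toMonoidHom) (Subgroup.subgroupOfEquivOfLe hAH).injective
    have hcen := ih _ hlt H rfl (A.subgroupOf H) hsol (by
      intro S hS hSs a ha s hs
      refine Subtype.ext (hc (S.map H.subtype) ?_ ?_ a ha s (Subgroup.mem_map_of_mem _ hs))
      · intro x hx
        exact ⟨⟨x, hAH hx⟩, hS hx, rfl⟩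
      · haveI := hSs
        exact Group.isSolvable_of_surjective (f := H.subtype.subgroupMap S)
          (MonoidHom.subgroupMap_surjective _ _))
    intro x hx
    rw [hmemM]
    intro a ha
    have := Subgroup.mem_center_iff.1 (hcen (show (⟨a, hAH ha⟩ : H) ∈ A.subgroupOf H from ha)) ⟨x, hx⟩
    exact (congrArg Subtype.val this).symm
  have hsolv : ∀ S : Subgroup G, A ≤ S → Group.IsSolvable S → S ≤ M := fun S h1 h2 s hs =>
    hmemM.2 fun a ha => hc S h1 h2 a ha s hs
  have hAM : A ≤ M := hsolv A le_rfl hA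
  have hMtop : M ≠ ⊤ := fun h => hne fun a ha =>
    Subgroup.mem_center_iff.2 fun g => (hmemM.1 (h ▸ Subgroup.mem_top g) a ha).symm
  have hZM : Z ≤ M := fun z hz => hmemM.2 fun a _ => Subgroup.mem_center_iff.1 hz a
  have hC : ∀ x ∈ M, x ∉ Z → Subgroup.centralizer ({x} : Set G) ≤ M := by
    intro x hx hxZ
    refine hprop _ (fun a ha => Subgroup.mem_centralizer_singleton_iff.2 (hmemM.1 hx a ha)) ?_
    intro h
    exact hxZ (Subgroup.mem_center_iff.2 fun g =>
      Subgroup.mem_centralizer_singleton_iff.1 (h ▸ Subgroup.mem_top g))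
  have hTI : ∀ g : G, g ∉ M → ∀ x ∈ M, g⁻¹ * x * g ∈ M → x ∈ Z := by
    intro g hg x hx hy
    by_contra hxZ
    have hB : ∀ a ∈ A, g * a * g⁻¹ ∈ M := by
      intro a ha
      apply hC x hx hxZ
      rw [Subgroup.mem_centralizer_singleton_iff]
      have h1 := hmemM.1 hy a ha
      have h2 := congrArg (fun t => g * t * g⁻¹) h1
      simpa [mul_assoc] using h2
    have hB' : ∀ a ∈ A, g⁻¹ * a * g ∈ M := by
      intro a ha
      rw [hmemM]
      intro b hb
      have h1 := hmemM.1 (hB b hb) a ha
      have h2 := congrArg (fun t => g⁻¹ * t * g) h1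
      simpa [mul_assoc] using h2.symm
    have ha0 : g⁻¹ * a₀ * g ∉ Z := by
      intro h
      have := (Subgroup.center G).mul_mem h (one_mem _)
      have hh : g * (g⁻¹ * a₀ * g) * g⁻¹ ∈ Z :=
        (inferInstance : Subgroup.Normal (Subgroup.center G)).conj_mem _ h g
      exact ha₀Z (by simpa [mul_assoc] using hh)
    have hmaps : ∀ m ∈ M, g⁻¹ * m * g ∈ M := by
      intro m hm
      apply hC _ (hB' a₀ ha₀) ha0
      rw [Subgroup.mem_centralizer_singleton_iff]
      have h1 := hmemM.1 hm a₀ ha₀
      calc g⁻¹ * m * g * (g⁻¹ * a₀ * g) = g⁻¹ * (m * a₀) * g := by group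
        _ = g⁻¹ * (a₀ * m) * g := by rw [h1]
        _ = g⁻¹ * a₀ * g * (g⁻¹ * m * g) := by group
    have hnorm : g⁻¹ ∈ Subgroup.normalizer (M : Set G) := by
      rw [Subgroup.mem_normalizer_iff]
      intro m
      refine ⟨fun hm => by simpa using hmaps m hm, fun hm => ?_⟩
      simp only [inv_inv] at hm
      have hfin : (M : Set G).Finite := Set.toFinite _
      have himg : (fun t => g⁻¹ * t * g) '' (M : Set G) = (M : Set G) :=
        Set.eq_of_subset_of_ncard_le (by rintro _ ⟨t, ht, rfl⟩; exact hmaps t ht)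
          (by rw [Set.ncard_image_of_injective _ (fun s t h => by simpa using h)]) hfin
      have hm' : g⁻¹ * m * g ∈ (fun t => g⁻¹ * t * g) '' (M : Set G) := by rw [himg]; exact hm
      obtain ⟨t, ht, hte⟩ := hm'
      have : t = m := by simpa using hte
      exact this ▸ ht
    have hgN : g ∈ Subgroup.normalizer (M : Set G) := by simpa using inv_mem hnorm
    set W := M ⊓ Subgroup.centralizer (M : Set G) with hW
    have hgW : g ∈ Subgroup.normalizer (W : Set G) := by
      rw [Subgroup.mem_normalizer_iff] at hgN ⊢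
      intro w
      simp only [hW, Subgroup.mem_inf, Subgroup.mem_centralizer_iff, SetLike.mem_coe]
      refine ⟨fun ⟨h1, h2⟩ => ⟨(hgN w).1 h1, fun m hm => ?_⟩, fun ⟨h1, h2⟩ => ⟨(hgN w).2 h1, fun m hm => ?_⟩⟩
      · have hm' : g⁻¹ * m * g ∈ M := (hgN _).2 (by simpa [mul_assoc] using hm)
        have h3 := congrArg (fun t => g * t * g⁻¹) (h2 _ hm')
        simpa [mul_assoc] using h3
      · have h3 := congrArg (fun t => g⁻¹ * t * g) (h2 _ ((hgN m).1 hm))
        simpa [mul_assoc] using h3
    have hWs : Group.IsSolvable W := Group.isSolvable_of_comm fun a b =>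
      Subtype.ext ((Subgroup.mem_centralizer_iff.1 b.2.2) _ a.2.1)
    have hZs : Group.IsSolvable (Subgroup.zpowers g) := inferInstance
    have hS := hsolv (W ⊔ Subgroup.zpowers g) (le_sup_of_le_left ?_)
      (Lib.Components.isSolvable_sup (Subgroup.zpowers_le.2 hgW) hWs hZs)
    · exact hg (hS (Subgroup.mem_sup_right (Subgroup.mem_zpowers g)))
    · intro a ha
      exact ⟨hAM ha, Subgroup.mem_centralizer_iff.2 fun m hm => (hmemM.1 hm a ha).symm⟩
  let π := QuotientGroup.mk' Z
  have hker : π.ker = Z := QuotientGroup.ker_mk' Z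
  have hcm : (M.map π).comap π = M := by
    rw [Subgroup.comap_map_eq, hker, sup_eq_left.2 hZM]
  have hFC : Cfsg.IsFrobeniusComplement (M.map π) := by
    refine ⟨?_, ?_, ?_⟩
    · intro h
      have : π a₀ ∈ M.map π := Subgroup.mem_map_of_mem _ (hAM ha₀)
      rw [h, Subgroup.mem_bot] at this
      exact ha₀Z ((QuotientGroup.eq_one_iff a₀).1 this)
    · intro h
      exact hMtop (by rw [← hcm, h, Subgroup.comap_top])
    · intro q hq
      obtain ⟨g, rfl⟩ := QuotientGroup.mk'_surjective Z q
      have hg : g ∉ M := fun h => hq (Subgroup.mem_map_of_mem _ h)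
      rw [eq_bot_iff]
      rintro y ⟨hy1, hy2⟩
      obtain ⟨x, hx, rfl⟩ := hy1
      change π x ∈ MulAut.conj (π g) • M.map π at hy2
      rw [Subgroup.mem_pointwise_smul_iff_inv_smul_mem] at hy2
      have hy3 : g⁻¹ * x * g ∈ (M.map π).comap π := by
        rw [Subgroup.mem_comap]
        simpa [π, MulAut.smul_def, map_mul, map_inv] using hy2
      rw [hcm] at hy3
      exact Subgroup.mem_bot.2 ((QuotientGroup.eq_one_iff x).2 (hTI g hg x hx hy3))
  obtain ⟨N, -, hNn, hNc, hNnil⟩ := Lib.FPF.exists_frobenius_kernel_nilpotent hFC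
  haveI := hNn
  haveI := hNnil
  have hKs : Group.IsSolvable (N.comap π) := by
    have hZs : Group.IsSolvable Z := Group.isSolvable_of_comm fun a b =>
      Subtype.ext (Subgroup.mem_center_iff.1 b.2 a)
    have hNs : Group.IsSolvable N := inferInstance
    refine Group.isSolvable_of_ker_le_range (Subgroup.inclusion (?_ : Z ≤ N.comap π))
      (π.subgroupComap N) ?_
    · intro z hz
      rw [Subgroup.mem_comap, show π z = 1 from (QuotientGroup.eq_one_iff z).2 hz]
      exact one_mem _
    · rintro ⟨x, hx⟩ hx1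
      have h1 : π x = 1 := congrArg Subtype.val (MonoidHom.mem_ker.1 hx1)
      exact ⟨⟨x, (QuotientGroup.eq_one_iff x).1 h1⟩, rfl⟩
  have hKM : N.comap π ≤ M := by
    haveI : (N.comap π).Normal := hNn.comap π
    refine le_trans le_sup_left (hsolv (N.comap π ⊔ A) le_sup_right
      (Lib.Components.isSolvable_sup ?_ hKs hA))
    rw [Subgroup.normalizer_eq_top]; exact le_top
  have hNM : N ≤ M.map π := by
    intro y hy
    obtain ⟨x, rfl⟩ := QuotientGroup.mk'_surjective Z y
    exact Subgroup.mem_map_of_mem _ (hKM hy)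
  have hNbot : N = ⊥ := by
    rw [eq_bot_iff]
    intro y hy
    exact Subgroup.disjoint_def.1 hNc.disjoint hy (hNM hy) ▸ one_mem _
  rw [hNbot] at hNc
  exact hFC.2.1 (Subgroup.isComplement'_bot_left.1 hNc)

/-- Let A be a solvable subgroup of a finite group G such that A lies in the centre of every solvable subgroup of G containing A. Then A lies in the centre of G. -/
theorem result {G : Type*} [Group G] [Finite G]
    (A : Subgroup G) (hA : Group.IsSolvable A)
    (hc : ∀ S : Subgroup G, A ≤ S → Group.IsSolvable S → ∀ a ∈ A, ∀ s ∈ S, a * s = s * a) : A ≤ Subgroup.center G := by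
  exact central_aux (Nat.card G) G rfl A hA hc

end Cfsg.Agent.S4097
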