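import Cfsg.Statements.S4105
import Cfsg.Agent.Lib.ManyPiClasses.Main

set_option autoImplicit false
open Cfsg

namespace Cfsg.Agent.S4105

/-- Let G be a finite group, π a set of primes with least member p, m the π-part of the order of G and k the number of conjugacy classes of G consisting of π-elements. If k > m·(p² + p − 1)/p³, then G has an abelian Hall π-subgroup (an abelian subgroup of order m). -/
theorem result {G : Type*} [Group G] [Finite G]
    (π : Set ℕ) (hπ : ∀ q ∈ π, q.Prime) (p : ℕ) (hp : p ∈ π) (hmin : ∀ q ∈ π, p ≤ q)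
    (m : ℕ) (hm : m ∣ Nat.card G) (hmπ : ∀ q : ℕ, q.Prime → q ∣ m → q ∈ π)
    (hm' : ∀ q ∈ π, ¬ q ∣ Nat.card G / m)
    (k : ℕ) (hk : k = Nat.card {C : ConjClasses G // ∀ q : ℕ, q.Prime → (∃ g : G, ConjClasses.mk g = C ∧ q ∣ orderOf g) → q ∈ π})
    (hmany : m * (p ^ 2 + p - 1) < p ^ 3 * k) :
    ∃ H : Subgroup G, Nat.card H = m ∧ IsMulCommutative H := by
  have hp2 := (hπ p hp).two_le
  obtain ⟨j, rfl⟩ : ∃ j, p = j + 2 := ⟨p - 2, by omega⟩
  have hj : (j + 2) ^ 2 + (j + 2) - 1 = j ^ 2 + 5 * j + 5 := by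
    rw [show (j + 2) ^ 2 + (j + 2) = j ^ 2 + 5 * j + 5 + 1 by ring, Nat.add_sub_cancel]
  rw [hj] at hmany
  have hweak : m < (j + 2) * k := by
    refine Nat.lt_of_mul_lt_mul_left (a := (j + 2) ^ 2) ?_
    nlinarith
  obtain ⟨H, hH, -, hb, hge⟩ :=
    Lib.ManyPiClasses.exists_hall_of_many π hπ (j + 2) hp hmin m hm hmπ hm' k hk hweak
  refine ⟨H, hH, ?_⟩
  have hid := (commutator H).card_mul_index
  rw [hH] at hid
  set d := Nat.card (commutator H) with hd
  set i := (commutator H).index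
  have hd1 : d = 1 := by
    by_contra hne
    have hdp : j + 2 ≤ d := hge d (hd ▸ Subgroup.card_subgroup_dvd_card _) hne
    have hi : (j + 2) ^ 2 - 1 = (j + 1) * (j + 3) := by
      rw [show (j + 2) ^ 2 = (j + 1) * (j + 3) + 1 by ring, Nat.add_sub_cancel]
    rw [hi, ← hid] at hb
    rw [← hid] at hmany
    have h1 := Nat.mul_le_mul_left (j + 2) hb
    have h3 : (j + 1) * (j + 3) * i * (j + 2) ≤ (j + 1) * (j + 3) * i * d :=
      Nat.mul_le_mul_left _ hdp
    nlinarith
  have hbot : commutator H = ⊥ := Subgroup.card_eq_one.1 hd1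
  refine ⟨⟨fun a b => commutatorElement_eq_one_iff_mul_comm.1 ?_⟩⟩
  rw [← Subgroup.mem_bot, ← hbot]
  exact Subgroup.commutator_mem_commutator (Subgroup.mem_top a) (Subgroup.mem_top b)

end Cfsg.Agent.S4105
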