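import Cfsg.Statements.S4106
import Mathlib
-- import your own Cfsg.Agent.* helpers here

set_option autoImplicit false
open Cfsg

namespace Cfsg.Agent.S4106
universe u

/-- classes of elements whose order involves only primes of `s` -/
abbrev Cls (G : Type*) [Group G] (s : Set ℕ) :=
  {C : ConjClasses G // ∀ q : ℕ, q.Prime → (∃ g : G, ConjClasses.mk g = C ∧ q ∣ orderOf g) → q ∈ s}

lemma bound (s : Finset ℕ) (hs : ∀ q ∈ s, q.Prime) :
    ∀ (G : Type u) [Group G] [Finite G], Nat.card (Cls G s) ≤ ∏ q ∈ s, q ^ (Nat.card G).factorization q := by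
  induction s using Finset.induction with
  | empty =>
    intro G _ _
    rw [Finset.prod_empty]
    apply Finite.card_le_one_iff_subsingleton.2
    refine ⟨fun C D => Subtype.ext ?_⟩
    have key : ∀ E : Cls G ((∅ : Finset ℕ) : Set ℕ), E.1 = ConjClasses.mk 1 := by
      intro E
      obtain ⟨g, hg⟩ := ConjClasses.exists_rep E.1
      rw [← hg]
      congr 1
      by_contra hne
      obtain ⟨q, hq, hqd⟩ := Nat.exists_prime_and_dvd (mt orderOf_eq_one_iff.1 hne)
      simpa using E.2 q hq ⟨g, hg, hqd⟩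
    rw [key C, key D]
  | insert p t hpt ih =>
    intro G _ _
    classical
    have hp : p.Prime := hs p (Finset.mem_insert_self p t)
    have := Fact.mk hp
    let P : Sylow p G := default
    let Cu : ↥(P : Subgroup G) → Subgroup G := fun u => Subgroup.centralizer ({(u : G)} : Set G)
    have hrep : ∀ u : (P : Subgroup G), ∀ D : Cls (Cu u) t, ∃ v : Cu u, ConjClasses.mk v = D.1 := fun u D => ConjClasses.exists_rep _
    choose v hv using hrep
    let f : (Σ u : (P : Subgroup G), Cls (Cu u) t) → ConjClasses G := fun a => ConjClasses.mk ((a.1 : G) * (v a.1 a.2 : G))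
    have hsurj : ∀ C : Cls G (insert p t : Finset ℕ), ∃ a, f a = C.1 := by
      intro C
      obtain ⟨g, hg⟩ := ConjClasses.exists_rep C.1
      obtain ⟨e, m, hm, hem⟩ := Nat.exists_eq_pow_mul_and_not_dvd (orderOf_pos g).ne' p hp.ne_one
      have hcop : IsCoprime ((p ^ e : ℕ) : ℤ) (m : ℤ) :=
        Nat.isCoprime_iff_coprime.2 (Nat.Coprime.pow_left e (hp.coprime_iff_not_dvd.2 hm))
      obtain ⟨x, y, hxy⟩ := hcop
      set a := g ^ (y * m) with ha
      set b := g ^ (x * (p ^ e : ℕ)) with hb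
      have hab : a * b = g := by rw [ha, hb, ← zpow_add, add_comm, hxy, zpow_one]
      have hao : orderOf a ∣ p ^ e := by
        refine orderOf_dvd_of_pow_eq_one ?_
        rw [ha, ← zpow_natCast, ← zpow_mul, mul_assoc, ← Nat.cast_mul, mul_comm m, ← hem, mul_comm, zpow_mul, zpow_natCast, pow_orderOf_eq_one, one_zpow]
      have hbo : orderOf b ∣ m := by
        refine orderOf_dvd_of_pow_eq_one ?_
        rw [hb, ← zpow_natCast, ← zpow_mul, mul_assoc, ← Nat.cast_mul, ← hem, mul_comm, zpow_mul, zpow_natCast, pow_orderOf_eq_one, one_zpow]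
      obtain ⟨j, -, hj⟩ := (Nat.dvd_prime_pow hp).1 hao
      have hz : IsPGroup p (Subgroup.zpowers a) := IsPGroup.of_card (n := j) (by rw [Nat.card_zpowers, hj])
      obtain ⟨Q, hQ⟩ := hz.exists_le_sylow
      obtain ⟨c, hc⟩ := MulAction.exists_smul_eq G P Q
      have haQ : a ∈ (Q : Subgroup G) := hQ (Subgroup.mem_zpowers a)
      rw [← hc, Sylow.coe_subgroup_smul] at haQ
      obtain ⟨u, hu, hua⟩ := haQ
      have hua' : c * u * c⁻¹ = a := hua
      have hcomm : Commute (c⁻¹ * b * c) u := by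
        have h1 : Commute b a := (Commute.zpow_zpow_self g _ _)
        show c⁻¹ * b * c * u = u * (c⁻¹ * b * c)
        calc c⁻¹ * b * c * u = c⁻¹ * (b * (c * u * c⁻¹)) * c := by group
          _ = c⁻¹ * ((c * u * c⁻¹) * b) * c := by rw [hua', h1.eq]
          _ = _ := by group
      let w : Cu ⟨u, hu⟩ := ⟨c⁻¹ * b * c, Subgroup.mem_centralizer_singleton_iff.2 hcomm.eq⟩
      have hwD : ∀ q : ℕ, q.Prime → (∃ z : Cu ⟨u, hu⟩, ConjClasses.mk z = ConjClasses.mk w ∧ q ∣ orderOf z) → q ∈ (t : Set ℕ) := by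
        rintro q hq ⟨z, hz, hqd⟩
        obtain ⟨d, hd⟩ := isConj_iff.1 (ConjClasses.mk_eq_mk_iff_isConj.1 hz.symm)
        rw [← hd, ← MulAut.conj_apply, MulEquiv.orderOf_eq, ← Subgroup.orderOf_coe] at hqd
        rw [show (w : G) = MulAut.conj c⁻¹ b by simp [w], MulEquiv.orderOf_eq] at hqd
        have hqg : q ∣ orderOf g := hqd.trans (hbo.trans (hem ▸ dvd_mul_left m _))
        have := C.2 q hq ⟨g, hg, hqg⟩
        rw [Finset.coe_insert, Set.mem_insert_iff] at this
        exact this.resolve_left fun h => hm (h ▸ hqd.trans hbo)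
      refine ⟨⟨⟨u, hu⟩, ⟨ConjClasses.mk w, hwD⟩⟩, ?_⟩
      obtain ⟨d, hd⟩ := isConj_iff.1 (ConjClasses.mk_eq_mk_iff_isConj.1 (hv ⟨u, hu⟩ ⟨ConjClasses.mk w, hwD⟩))
      show ConjClasses.mk (u * (v ⟨u, hu⟩ ⟨ConjClasses.mk w, hwD⟩ : G)) = C.1
      rw [← hg, ConjClasses.mk_eq_mk_iff_isConj, isConj_iff]
      refine ⟨c * (d : G), ?_⟩
      have hdu : (d : G) * u = u * d := Subgroup.mem_centralizer_singleton_iff.1 d.2
      have hd' : (d : G) * (v ⟨u, hu⟩ ⟨ConjClasses.mk w, hwD⟩ : G) * (d : G)⁻¹ = c⁻¹ * b * c := congrArg Subtype.val hd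
      calc c * (d : G) * (u * (v ⟨u, hu⟩ ⟨ConjClasses.mk w, hwD⟩ : G)) * (c * (d : G))⁻¹
          = c * ((d : G) * u * (d : G)⁻¹) * ((d : G) * (v ⟨u, hu⟩ ⟨ConjClasses.mk w, hwD⟩ : G) * (d : G)⁻¹) * c⁻¹ := by group
        _ = c * (u * d * (d : G)⁻¹) * (c⁻¹ * b * c) * c⁻¹ := by rw [hd', hdu]
        _ = (c * u * c⁻¹) * b := by group
        _ = g := by rw [hua', hab]
    have hle : Nat.card (Cls G (insert p t : Finset ℕ)) ≤ Nat.card (Σ u : (P : Subgroup G), Cls (Cu u) t) := by
      choose a ha using hsurj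
      exact Nat.card_le_card_of_injective a fun C D e => Subtype.ext (by rw [← ha C, ← ha D, e])
    refine hle.trans ?_
    have : Fintype G := Fintype.ofFinite G
    have : Fintype ↥(P : Subgroup G) := Fintype.ofFinite _
    rw [Nat.card_sigma, Finset.prod_insert hpt, ← P.card_eq_multiplicity]
    refine (Finset.sum_le_sum (g := fun _ => ∏ q ∈ t, q ^ (Nat.card G).factorization q) fun u _ => ?_).trans ?_
    · refine (ih (fun q hq => hs q (Finset.mem_insert_of_mem hq)) (Cu u)).trans (Finset.prod_le_prod' fun q hq => ?_)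
      exact Nat.pow_le_pow_right (hs q (Finset.mem_insert_of_mem hq)).pos
        ((Nat.factorization_le_iff_dvd Nat.card_pos.ne' Nat.card_pos.ne').2 (Subgroup.card_subgroup_dvd_card _) q)
    · rw [Finset.sum_const, smul_eq_mul, Finset.card_univ, ← Nat.card_eq_fintype_card (α := ↥(P : Subgroup G))]

/-- Let G be a finite group, π a set of primes and m the π-part of the order of G. Then the number of conjugacy classes of G consisting of π-elements (elements whose order is divisible only by primes in π) is at most m. -/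
theorem result {G : Type*} [Group G] [Finite G]
    (π : Set ℕ) (hπ : ∀ q ∈ π, q.Prime)
    (m : ℕ) (hm : m ∣ Nat.card G) (hmπ : ∀ q : ℕ, q.Prime → q ∣ m → q ∈ π)
    (hm' : ∀ q ∈ π, ¬ q ∣ Nat.card G / m) :
    Nat.card {C : ConjClasses G // ∀ q : ℕ, q.Prime → (∃ g : G, ConjClasses.mk g = C ∧ q ∣ orderOf g) → q ∈ π} ≤ m := by
  classical
  let s : Finset ℕ := (Nat.card G).primeFactors.filter fun q => q ∈ π
  have hs : ∀ q ∈ s, q.Prime := fun q hq => Nat.prime_of_mem_primeFactors (Finset.mem_filter.1 hq).1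
  have hb := bound s hs G
  have hle : Nat.card {C : ConjClasses G // ∀ q : ℕ, q.Prime → (∃ g : G, ConjClasses.mk g = C ∧ q ∣ orderOf g) → q ∈ π} ≤ Nat.card (Cls G s) := by
    refine Nat.card_le_card_of_injective (fun C => ⟨C.1, fun q hq hex => ?_⟩) fun C D e => Subtype.ext (congrArg Subtype.val e :)
    obtain ⟨g, hg, hd⟩ := hex
    exact Finset.mem_coe.2 (Finset.mem_filter.2 ⟨Nat.mem_primeFactors.2 ⟨hq, hd.trans (orderOf_dvd_natCard g), Nat.card_pos.ne'⟩, C.2 q hq ⟨g, hg, hd⟩⟩)
  refine hle.trans (hb.trans (le_of_eq ?_))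
  have hm0 : m ≠ 0 := fun h => Nat.card_pos.ne' (Nat.eq_zero_of_zero_dvd (h ▸ hm))
  have hmf : ∀ q ∈ s, (Nat.card G).factorization q = m.factorization q := by
    intro q hq
    have hn := hm' q (Finset.mem_filter.1 hq).2
    have hdiv : Nat.card G / m ≠ 0 := fun h => by rw [h] at hn; exact hn (dvd_zero q)
    conv_lhs => rw [← Nat.div_mul_cancel hm, Nat.factorization_mul hdiv hm0]
    simp [Nat.factorization_eq_zero_of_not_dvd hn]
  rw [Finset.prod_congr rfl fun q hq => by rw [hmf q hq]]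
  conv_rhs => rw [← Nat.factorization_prod_pow_eq_self hm0]
  rw [Finsupp.prod, Nat.support_factorization]
  symm
  apply Finset.prod_subset
  · intro q hq
    exact Finset.mem_filter.2 ⟨Nat.primeFactors_mono hm Nat.card_pos.ne' hq, hmπ q (Nat.prime_of_mem_primeFactors hq) (Nat.dvd_of_mem_primeFactors hq)⟩
  · intro q hq hqm
    have : m.factorization q = 0 := Finsupp.notMem_support_iff.1 (by rwa [Nat.support_factorization])
    rw [this, pow_zero]

end Cfsg.Agent.S4106
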