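import Cfsg.Statements.S4107
import Mathlib
-- import your own Cfsg.Agent.* helpers here

set_option autoImplicit false
open Cfsg

namespace Cfsg.Agent.S4107

lemma normal_isPGroup_le {G : Type*} [Group G] [Finite G] {N : Subgroup G} [N.Normal]
    (heq : ∀ x : G, x ∉ N → ∀ n ∈ N, orderOf (x * n) = orderOf x)
    {p : ℕ} [Fact p.Prime] {R : Subgroup G} [R.Normal] (hR : IsPGroup p R) (hRN : ¬ R ≤ N) :
    IsPGroup p N := by
  obtain ⟨x, hxR, hxN⟩ := SetLike.not_le_iff_exists.1 hRN
  -- the image of N in G/R is a p-group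
  have h1 : IsPGroup p (N.map (QuotientGroup.mk' R)) := by
    rintro ⟨_, n, hn, rfl⟩
    obtain ⟨a, ha⟩ := IsPGroup.iff_orderOf.1 hR ⟨x, hxR⟩
    have hxo : orderOf x = p ^ a := by rw [← ha, Subgroup.orderOf_mk]
    have hd : orderOf (QuotientGroup.mk' R n) ∣ p ^ a := by
      have := orderOf_map_dvd (QuotientGroup.mk' R) (x * n)
      rwa [heq x hxN n hn, hxo, map_mul, show QuotientGroup.mk' R x = 1 from (QuotientGroup.eq_one_iff x).2 hxR, one_mul] at this
    exact ⟨a, Subtype.ext (orderOf_dvd_iff_pow_eq_one.1 hd)⟩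
  intro n
  obtain ⟨a, ha⟩ := h1 ⟨QuotientGroup.mk' R n, n, n.2, rfl⟩
  have h2 : (n : G) ^ p ^ a ∈ R := by
    rw [← QuotientGroup.eq_one_iff, ← QuotientGroup.mk'_apply, map_pow]
    exact congrArg Subtype.val ha
  obtain ⟨b, hb⟩ := hR ⟨_, h2⟩
  refine ⟨a + b, Subtype.ext ?_⟩
  have : ((n : G) ^ p ^ a) ^ p ^ b = 1 := congrArg Subtype.val hb
  simpa [pow_add, pow_mul] using this

lemma le_of_not_le {G : Type*} [Group G] [Finite G] {N : Subgroup G} [N.Normal]
    (heq : ∀ x : G, x ∉ N → ∀ n ∈ N, orderOf (x * n) = orderOf x)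
    {p : ℕ} [Fact p.Prime] {R : Subgroup G} [R.Normal] (hR : IsPGroup p R) (hRN : ¬ R ≤ N) :
    N ≤ Cfsg.fittingSubgroup G :=
  le_sSup ⟨inferInstance, (normal_isPGroup_le heq hR hRN).isNilpotent⟩

lemma sylow_map_normal {G : Type*} [Group G] [Finite G] {K : Subgroup G} [K.Normal] (hK : Group.IsNilpotent K)
    (q : ℕ) [Fact q.Prime] (S : Sylow q K) : ((S : Subgroup K).map K.subtype).Normal := by
  have : (S : Subgroup K).Normal := inferInstance
  have := Sylow.characteristic_of_normal S this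
  exact ConjAct.normal_of_characteristic_of_normal

lemma exists_pgroup_not_le {G : Type*} [Group G] [Finite G] {N : Subgroup G}
    (h : ¬ Cfsg.fittingSubgroup G ≤ N) :
    ∃ (p : ℕ) (_ : Fact p.Prime) (R : Subgroup G), R.Normal ∧ IsPGroup p R ∧ ¬ R ≤ N := by
  by_contra hno
  push Not at hno
  apply h
  refine sSup_le ?_
  rintro K ⟨hKn, hK⟩
  have htop : ⨆ (p : (Nat.card K).primeFactors) (S : Sylow (p : ℕ) K), (S : Subgroup K) ≤ N.subgroupOf K := by
    refine iSup₂_le fun p S => ?_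
    have := Fact.mk (Nat.prime_of_mem_primeFactors p.2)
    have := hno p this _ (sylow_map_normal hK p S) (S.isPGroup'.map _)
    intro z hz
    exact this ⟨z, hz, rfl⟩
  intro z hz
  have e : (⊤ : Subgroup K) ≤ N.subgroupOf K := by
    refine le_trans (le_of_eq ?_) htop
    symm
    by_contra hne
    set T := ⨆ (p : (Nat.card K).primeFactors) (S : Sylow (p : ℕ) K), (S : Subgroup K) with hT
    obtain ⟨q, hq, hqd⟩ := Nat.exists_prime_and_dvd (fun e => hne (Subgroup.index_eq_one.1 e))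
    have := Fact.mk hq
    have hqK : q ∈ (Nat.card K).primeFactors := Nat.mem_primeFactors.2 ⟨hq, hqd.trans T.index_dvd_card, Nat.card_pos.ne'⟩
    let S : Sylow q K := default
    exact S.not_dvd_index (hqd.trans (Subgroup.index_dvd_of_le (le_iSup₂_of_le (⟨q, hqK⟩ : (Nat.card K).primeFactors) S le_rfl)))
  exact e (Subgroup.mem_top (⟨z, hz⟩ : K))

/-- Let G be a finite group and N a proper non-trivial normal subgroup such that for every x outside N all elements of the coset xN have the same order as x. Then N ≤ F(G) or F(G) ≤ N, where F(G) is the Fitting subgroup; and if N is properly contained in F(G) then F(G) has prime-power order. -/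
theorem result {G : Type*} [Group G] [Finite G] (N : Subgroup G) [N.Normal] (hN1 : N ≠ ⊥) (hN2 : N ≠ ⊤)
    (heq : ∀ x : G, x ∉ N → ∀ n ∈ N, orderOf (x * n) = orderOf x) :
    (N ≤ Cfsg.fittingSubgroup G ∨ Cfsg.fittingSubgroup G ≤ N) ∧
    (N < Cfsg.fittingSubgroup G → IsPrimePow (Nat.card (Cfsg.fittingSubgroup G))) := by
  refine ⟨?_, fun hlt => ?_⟩
  · by_cases h : Cfsg.fittingSubgroup G ≤ N
    · exact Or.inr h
    · obtain ⟨p, _, R, _, hR, hRN⟩ := exists_pgroup_not_le h
      exact Or.inl (le_of_not_le heq hR hRN)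
  · obtain ⟨p, hp, R, _, hR, hRN⟩ := exists_pgroup_not_le (not_le_of_gt hlt)
    have hNp := normal_isPGroup_le heq hR hRN
    obtain ⟨m, hm0, hm⟩ := (IsPGroup.nontrivial_iff_card hNp).1 ((Subgroup.nontrivial_iff_ne_bot N).2 hN1)
    have hall : ∀ (q : ℕ) [Fact q.Prime] (S : Subgroup G) [S.Normal], IsPGroup q S → IsPGroup p S := by
      intro q hq S _ hS
      by_cases hSN : S ≤ N
      · exact hNp.to_le hSN
      · have hNq := normal_isPGroup_le heq hS hSN
        obtain ⟨a, ha⟩ := IsPGroup.iff_card.1 hNq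
        have : p = q := (Nat.prime_dvd_prime_iff_eq hp.1 hq.1).1 (hp.1.dvd_of_dvd_pow (ha ▸ hm ▸ dvd_pow_self p hm0.ne'))
        exact this ▸ hS
    have hF : IsPGroup p (Cfsg.fittingSubgroup G) := by
      obtain ⟨T, -, ⟨hTn, hTp⟩, hTmax⟩ := (Set.toFinite {T : Subgroup G | T.Normal ∧ IsPGroup p T}).exists_le_maximal
        (show N ∈ {T : Subgroup G | T.Normal ∧ IsPGroup p T} from ⟨inferInstance, hNp⟩)
      refine hTp.to_le ?_
      by_contra hFT
      obtain ⟨q, _, S, hSn, hS, hST⟩ := exists_pgroup_not_le hFT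
      exact hST (le_sup_right.trans (hTmax ⟨Subgroup.sup_normal T S, hTp.to_sup_of_normal_right (hall q S hS)⟩ le_sup_left))
    obtain ⟨n, hn⟩ := IsPGroup.iff_card.1 hF
    refine ⟨p, n, hp.1.prime, ?_, hn.symm⟩
    by_contra hn0
    have : n = 0 := by omega
    subst this
    rw [pow_zero, Subgroup.card_eq_one] at hn
    exact not_lt_bot (hn ▸ hlt)

end Cfsg.Agent.S4107
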