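import Cfsg.Statements.S4108
import Mathlib
-- import your own Cfsg.Agent.* helpers here

set_option autoImplicit false
open Cfsg
open scoped Pointwise

namespace Cfsg.Agent.S4108


/-- Let G be a finite group, p a prime and N a proper non-trivial normal p-subgroup such that for every x outside N all elements of the coset xN have the same order as x. Then every non-trivial subgroup H of G of order prime to p acts fixed-point-freely on N: NH is a Frobenius group with complement H and kernel N. -/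
theorem result {G : Type*} [Group G] [Finite G] (N : Subgroup G) [N.Normal] (hN1 : N ≠ ⊥) (hN2 : N ≠ ⊤)
    (heq : ∀ x : G, x ∉ N → ∀ n ∈ N, orderOf (x * n) = orderOf x)
    (p : ℕ) [Fact p.Prime] (hNp : IsPGroup p N) :
    ∀ H : Subgroup G, H ≠ ⊥ → (Nat.card H).Coprime p →
      Cfsg.IsFrobeniusComplement (H.subgroupOf (N ⊔ H)) ∧ Cfsg.frobeniusKernel (H.subgroupOf (N ⊔ H)) = (N.subgroupOf (N ⊔ H) : Set ↥(N ⊔ H)) := by
  intro H hH hHp
  have hone : ∀ h : G, h ∈ H → h ∈ N → h = 1 := by
    intro h hh hhN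
    obtain ⟨k, hk⟩ := IsPGroup.iff_orderOf.1 hNp ⟨h, hhN⟩
    rw [Subgroup.orderOf_mk] at hk
    rw [← orderOf_eq_one_iff, hk]
    exact Nat.eq_one_of_dvd_coprimes (Nat.Coprime.pow_right k hHp) (hk ▸ H.orderOf_dvd_natCard hh) dvd_rfl
  have hfpf : ∀ h n : G, h ∈ H → h ≠ 1 → n ∈ N → h * n = n * h → n = 1 := by
    intro h n hh h1 hn hc
    have ho := heq h (fun h' => h1 (hone h hh h')) n hn
    obtain ⟨k, hk⟩ := IsPGroup.iff_orderOf.1 hNp ⟨n, hn⟩
    rw [Subgroup.orderOf_mk] at hk
    rw [(show Commute h n from hc).orderOf_mul_eq_mul_orderOf_of_coprime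
      (by rw [hk]; exact Nat.Coprime.pow_right k (hHp.coprime_dvd_left (H.orderOf_dvd_natCard hh)))] at ho
    rw [← orderOf_eq_one_iff]
    exact (Nat.mul_eq_left (orderOf_pos h).ne').1 ho
  set W := N ⊔ H with hW
  have hdec : ∀ g : G, g ∈ W → ∃ n ∈ N, ∃ h ∈ H, n * h = g := by
    intro g hg
    rw [hW, ← SetLike.mem_coe, Subgroup.normal_mul] at hg
    exact Set.mem_mul.1 hg
  have hconj : ∀ (g : W) (x : W), x ∈ MulAut.conj g • H.subgroupOf W ↔ (g : G)⁻¹ * x * g ∈ H := by
    intro g x
    rw [Subgroup.mem_pointwise_smul_iff_inv_smul_mem, Subgroup.mem_subgroupOf]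
    simp [MulAut.smul_def]
  constructor
  · refine ⟨?_, ?_, ?_⟩
    · rw [Ne, Subgroup.subgroupOf_eq_bot, disjoint_of_le_iff_left_eq_bot le_sup_right]
      exact hH
    · rw [Ne, Subgroup.subgroupOf_eq_top]
      intro hle
      apply hN1
      rw [eq_bot_iff]
      exact fun n hn => hone n (hle (le_sup_left (a := N) hn)) hn
    · intro g hg
      rw [eq_bot_iff]
      intro x hx
      obtain ⟨hx1, hx2⟩ := hx
      have hx1' : (x : G) ∈ H := hx1
      replace hx2 : (g : G)⁻¹ * x * g ∈ H := (hconj g x).1 hx2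
      rw [Subgroup.mem_bot]
      obtain ⟨n, hn, h, hh, e⟩ := hdec g g.2
      by_contra hne
      have hxne : (x : G) ≠ 1 := fun h' => hne (Subtype.ext h')
      -- b = n⁻¹ x n lies in H
      have hb : n⁻¹ * x * n ∈ H := by
        have := mul_mem (mul_mem hh hx2) (inv_mem hh)
        rwa [← e, show h * ((n * h)⁻¹ * x * (n * h)) * h⁻¹ = n⁻¹ * x * n by group] at this
      have hn' : (x : G)⁻¹ * (n⁻¹ * x * n) = 1 := hone _ (mul_mem (inv_mem hx1') hb) (by
        rw [show (x : G)⁻¹ * (n⁻¹ * x * n) = ((x : G)⁻¹ * n⁻¹ * x) * n by group]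
        exact mul_mem (Subgroup.Normal.conj_mem' inferInstance _ (inv_mem hn) (x : G)) hn)
      rw [inv_mul_eq_one] at hn'
      have := hfpf x n hx1' hxne hn (by nth_rewrite 2 [hn']; group)
      apply hg
      rw [Subgroup.mem_subgroupOf, ← e, this, one_mul]
      exact hh
  · ext x
    simp only [Cfsg.frobeniusKernel, Set.mem_ofPred_eq, SetLike.mem_coe, Subgroup.mem_subgroupOf, hconj]
    constructor
    · rintro (rfl | hx)
      · exact one_mem N
      · by_contra hxN
        obtain ⟨n, hn, h, hh, e⟩ := hdec x x.2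
        have h1 : h ≠ 1 := fun h' => hxN (by rw [← e, h', mul_one]; exact hn)
        let f : N → N := fun m => ⟨(m : G) * h * (m : G)⁻¹ * h⁻¹, by
          rw [show (m : G) * h * (m : G)⁻¹ * h⁻¹ = (m : G) * (h * (m : G)⁻¹ * h⁻¹) by group]
          exact mul_mem m.2 (Subgroup.Normal.conj_mem inferInstance _ (inv_mem m.2) h)⟩
        have hf : Function.Injective f := by
          intro m m' hmm
          have he : (m : G) * h * (m : G)⁻¹ * h⁻¹ = (m' : G) * h * (m' : G)⁻¹ * h⁻¹ := congrArg Subtype.val hmm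
          rw [mul_left_inj] at he
          have := hfpf h ((m' : G)⁻¹ * m) hh h1 (mul_mem (inv_mem m'.2) m.2) (by
            calc h * ((m' : G)⁻¹ * m) = (m' : G)⁻¹ * ((m' : G) * h * (m' : G)⁻¹) * m := by group
              _ = (m' : G)⁻¹ * ((m : G) * h * (m : G)⁻¹) * m := by rw [he]
              _ = _ := by group)
          exact (Subtype.ext (inv_mul_eq_one.1 this)).symm
        obtain ⟨m, hm⟩ := Finite.surjective_of_injective hf ⟨n, hn⟩
        have hm' : (m : G) * h * (m : G)⁻¹ * h⁻¹ = n := congrArg Subtype.val hm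
        refine hx ⟨m, le_sup_left (a := N) m.2⟩ ?_
        show (m : G)⁻¹ * (x : G) * m ∈ H
        rw [← e, ← hm', show (m : G)⁻¹ * ((m : G) * h * (m : G)⁻¹ * h⁻¹ * h) * m = h by group]
        exact hh
    · intro hxN
      by_cases hx1 : x = 1
      · exact Or.inl hx1
      · refine Or.inr fun g hg => hx1 ?_
        have := hone _ hg (Subgroup.Normal.conj_mem' inferInstance (x : G) hxN (g : G))
        refine Subtype.ext ?_
        show (x : G) = 1
        calc (x : G) = g * ((g : G)⁻¹ * x * g) * (g : G)⁻¹ := by group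
          _ = 1 := by rw [this]; group

end Cfsg.Agent.S4108
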