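import Cfsg.Statements.S4112
import Mathlib
import Cfsg.Agent.Lib.GenStruct.Basic
-- import your own Cfsg.Agent.* helpers here

set_option autoImplicit false
open Cfsg

namespace Cfsg.Agent.S4112


/-- Let G be a finite group and M ≤ N non-trivial proper normal subgroups such that for every g outside N the conjugacy class of g is a union of cosets of M (equivalently gm is conjugate to g for every m ∈ M). Then (1) and (2) below are equivalent, and they imply (3): (1) every g outside N acts fixed-point-freely on M, that is C_G(x) ≤ N for every x ∈ M, x ≠ 1; (2) the index of N in G is coprime to the order of M; (3) there is a subgroup H of G with HN = G and H ∩ M = 1. -/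
theorem result {G : Type*} [Group G] [Finite G] (N M : Subgroup G) [N.Normal] [M.Normal] (hMN : M ≤ N) (hM1 : M ≠ ⊥) (hN2 : N ≠ ⊤)
    (hcam : ∀ g : G, g ∉ N → ∀ m ∈ M, ∃ x : G, x * g * x⁻¹ = g * m) :
    ((∀ x ∈ M, x ≠ 1 → Subgroup.centralizer ({x} : Set G) ≤ N) ↔ N.index.Coprime (Nat.card M)) ∧
    ((∀ x ∈ M, x ≠ 1 → Subgroup.centralizer ({x} : Set G) ≤ N) → ∃ H : Subgroup G, H ⊔ N = ⊤ ∧ H ⊓ M = ⊥) := by
  classical
  have hiff1 : N.index.Coprime (Nat.card M) → ∀ x ∈ M, x ≠ 1 → Subgroup.centralizer ({x} : Set G) ≤ N := by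
    intro hcop x hx hx1 g hg
    by_contra hgN
    rw [Subgroup.mem_centralizer_singleton_iff] at hg
    have hne : orderOf (QuotientGroup.mk' N g) ≠ 1 := fun h =>
      hgN ((QuotientGroup.eq_one_iff g).1 (orderOf_eq_one_iff.1 h))
    obtain ⟨p, hp, hpd⟩ := Nat.exists_prime_and_dvd hne
    obtain ⟨e, m, hm, hem⟩ := Nat.exists_eq_pow_mul_and_not_dvd (orderOf_pos g).ne' p hp.ne_one
    set g' := g ^ m with hg'
    have hg'o : orderOf g' = p ^ e := by
      rw [hg', orderOf_pow_of_dvd (fun h => by simp [h] at hm) (hem ▸ dvd_mul_left m _), hem,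
        Nat.mul_div_cancel _ (Nat.pos_of_ne_zero fun h => by simp [h] at hm)]
    have hg'N : g' ∉ N := by
      intro h
      have : (QuotientGroup.mk' N g) ^ m = 1 := by
        rw [← map_pow]; exact (QuotientGroup.eq_one_iff _).2 h
      exact hm (hpd.trans (orderOf_dvd_of_pow_eq_one this))
    obtain ⟨r, hr, hrd⟩ := Nat.exists_prime_and_dvd (mt orderOf_eq_one_iff.1 hx1)
    set y := x ^ (orderOf x / r) with hy
    have hyo : orderOf y = r := by rw [hy, orderOf_pow_orderOf_div (orderOf_pos x).ne' hrd]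
    have hrp : r ≠ p := by
      rintro rfl
      refine hr.ne_one (Nat.eq_one_of_dvd_coprimes hcop ?_ ?_)
      · exact hpd.trans (orderOf_dvd_natCard _)
      · exact hrd.trans (Subgroup.orderOf_dvd_natCard M hx)
    obtain ⟨z, hz⟩ := hcam g' hg'N y (pow_mem hx _)
    have hc : Commute g' y := (Commute.pow_pow (show Commute g x from hg) m _)
    have h1 : orderOf (g' * y) = p ^ e * r := by
      rw [hc.orderOf_mul_eq_mul_orderOf_of_coprime (by rw [hg'o, hyo]; exact Nat.Coprime.pow_left e ((Nat.coprime_primes hp hr).2 (Ne.symm hrp))), hg'o, hyo]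
    rw [← hz, ← MulAut.conj_apply, MulEquiv.orderOf_eq, hg'o] at h1
    have := hr.one_lt
    have := pow_pos hp.pos e
    nlinarith
  have hiff2 : (∀ x ∈ M, x ≠ 1 → Subgroup.centralizer ({x} : Set G) ≤ N) → N.index.Coprime (Nat.card M) := by
    intro hC
    refine Nat.coprime_of_dvd fun p hp hpi hpM => ?_
    have := Fact.mk hp
    let P : Sylow p G := default
    have hne : M.subgroupOf (P : Subgroup G) ≠ ⊥ := by
      intro h
      rw [Subgroup.subgroupOf_eq_bot] at h
      obtain ⟨x, hx⟩ := exists_prime_orderOf_dvd_card' (G := M) p hpM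
      have hZ : IsPGroup p (Subgroup.zpowers (x : G)) :=
        IsPGroup.of_card (n := 1) (by rw [Nat.card_zpowers, Subgroup.orderOf_coe, hx, pow_one])
      obtain ⟨Q, hQ⟩ := hZ.exists_le_sylow
      obtain ⟨g, hg⟩ := MulAction.exists_smul_eq G P Q
      have hxQ : (x : G) ∈ (Q : Subgroup G) := hQ (Subgroup.mem_zpowers _)
      rw [← hg, Sylow.coe_subgroup_smul] at hxQ
      obtain ⟨y, hy, hyx⟩ := hxQ
      have hyM : y ∈ M := by
        have hyx' : g * y * g⁻¹ = (x : G) := hyx
        have := Subgroup.Normal.conj_mem' (show M.Normal from inferInstance) (x : G) x.2 g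
        rwa [← hyx', show g⁻¹ * (g * y * g⁻¹) * g = y by group] at this
      have hy1 : y = 1 := Subgroup.disjoint_def.1 h hyM hy
      subst hy1
      have hx1 : (x : G) = 1 := by
        have hyx' : g * 1 * g⁻¹ = (x : G) := hyx
        simpa using hyx'.symm
      exact hp.ne_one (by rw [← hx, ← Subgroup.orderOf_coe, hx1, orderOf_one])
    obtain ⟨z, hzM, hzC, hz1⟩ := Lib.GenStruct.exists_mem_center P.isPGroup' _ hne
    have hPN : (P : Subgroup G) ≤ N := fun u hu => hC z hzM (fun h => hz1 (Subtype.ext h))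
      (Subgroup.mem_centralizer_singleton_iff.2 (congrArg Subtype.val (Subgroup.mem_center_iff.1 hzC ⟨u, hu⟩)))
    exact P.not_dvd_index (hpi.trans (Subgroup.index_dvd_of_le hPN))
  refine ⟨⟨hiff2, hiff1⟩, fun hC => ?_⟩
  have hcop := hiff2 hC
  obtain ⟨H, -, hH, hmin⟩ := (Set.toFinite {H : Subgroup G | H ⊔ N = ⊤}).exists_le_minimal (show ⊤ ∈ {H : Subgroup G | H ⊔ N = ⊤} from top_sup_eq N)
  refine ⟨H, hH, ?_⟩
  by_contra hne
  obtain ⟨p, hp, hpd⟩ := Nat.exists_prime_and_dvd (fun h => hne (Subgroup.card_eq_one.1 h))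
  have := Fact.mk hp
  have hpM : p ∣ Nat.card M := hpd.trans (Subgroup.card_dvd_of_le inf_le_right)
  have hpi : ¬ p ∣ N.index := fun h => hp.ne_one (Nat.eq_one_of_dvd_coprimes hcop h hpM)
  let S : Sylow p H := default
  set SG := (S : Subgroup H).map H.subtype with hSG
  have hSN : SG ≤ N := by
    rintro _ ⟨s, hs, rfl⟩
    rw [← QuotientGroup.eq_one_iff, ← orderOf_eq_one_iff, ← QuotientGroup.mk'_apply]
    obtain ⟨k, hk⟩ := IsPGroup.iff_orderOf.1 S.isPGroup' ⟨s, hs⟩
    have h1 : orderOf (QuotientGroup.mk' N (H.subtype s)) ∣ p ^ k := by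
      rw [← hk, Subgroup.orderOf_mk]
      exact (orderOf_map_dvd _ _).trans (orderOf_map_dvd _ _)
    obtain ⟨j, -, hj⟩ := (Nat.dvd_prime_pow hp).1 h1
    rcases j with _ | j
    · simpa using hj
    · exact absurd ((dvd_pow_self p j.succ_ne_zero).trans (hj ▸ orderOf_dvd_natCard (QuotientGroup.mk' N (H.subtype s)))) hpi
  -- Frattini argument inside H and minimality: S is normal in H
  have hSle : (S : Subgroup H) ≤ N.subgroupOf H := fun s hs => hSN ⟨s, hs, rfl⟩
  have hfr : Subgroup.normalizer ((S : Subgroup H) : Set H) ⊔ N.subgroupOf H = ⊤ := by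
    have hT := Sylow.normalizer_sup_eq_top' S hSle
    exact hT
  have hcase : ∀ K : Subgroup H, K ⊔ N.subgroupOf H = ⊤ → K = ⊤ := by
    intro K hK
    have h1 : K.map H.subtype ⊔ N = ⊤ := by
      rw [eq_top_iff, ← hH]
      refine sup_le ?_ le_sup_right
      have h2 := congrArg (Subgroup.map H.subtype) hK
      rw [Subgroup.map_sup, ← MonoidHom.range_eq_map, Subgroup.range_subtype, Subgroup.subgroupOf_map_subtype] at h2
      exact le_trans (ge_of_eq h2) (sup_le le_sup_left (inf_le_left.trans le_sup_right))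
    have h3 : H ≤ K.map H.subtype := hmin h1 (Subgroup.map_subtype_le K)
    refine eq_top_iff.2 fun k _ => ?_
    obtain ⟨k', hk', e⟩ := h3 k.2
    rwa [← Subtype.ext e]
  have hSn : (S : Subgroup H).Normal := Subgroup.normalizer_eq_top_iff.1 (hcase _ hfr)
  obtain ⟨K, hK⟩ := Subgroup.exists_right_complement'_of_coprime (S.card_coprime_index)
  have hKtop : K = ⊤ := by
    refine hcase K (eq_top_iff.2 ?_)
    rw [← hK.sup_eq_top]
    exact sup_le (hSle.trans le_sup_right) le_sup_left
  have hSbot : (S : Subgroup H) = ⊥ := by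
    have := hK.disjoint
    rw [hKtop, disjoint_top] at this
    exact this
  exact S.ne_bot_of_dvd_card (hpd.trans (Subgroup.card_dvd_of_le inf_le_left)) hSbot

end Cfsg.Agent.S4112
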