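import Cfsg.Statements.S4115
import Cfsg.Agent.Lib.FPF.TIHall
import Cfsg.Agent.Lib.Coprime.Product
import Cfsg.Agent.Lib.Transfer.Fusion

set_option autoImplicit false
universe u
open Cfsg

namespace Cfsg.Agent.S4115

open scoped Pointwise
open Subgroup

universe v

theorem exists_factor {G : Type v} [Group G] [Finite G] {M H : Subgroup G} (hM : M.Normal)
    (hc : M.IsComplement' H) (n : G) : ∃ m ∈ M, ∃ h ∈ H, n = m * h := by
  obtain ⟨⟨⟨m, hm⟩, ⟨h, hh⟩⟩, e⟩ := (show Function.Bijective _ from hc).2 n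
  exact ⟨m, hm, h, hh, e.symm⟩

theorem normalizer_part {G : Type v} [Group G] [Finite G] (H : Subgroup G)
    (K : Subgroup (normalizer (H : Set G))) (hKn : K.Normal)
    (hc : K.IsComplement' (H.subgroupOf (normalizer (H : Set G)))) :
    K.map (normalizer (H : Set G)).subtype ≤ normalizer (H : Set G) ∧
      (∀ h ∈ H, ∀ k ∈ K.map (normalizer (H : Set G)).subtype, h * k = k * h) ∧
      (∀ n ∈ normalizer (H : Set G), ∃ h ∈ H, ∃ k ∈ K.map (normalizer (H : Set G)).subtype, n = h * k) := by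
  have hcomm : ∀ h ∈ H, ∀ k ∈ K.map (normalizer (H : Set G)).subtype, h * k = k * h := by
    rintro h hh _ ⟨k, hk, rfl⟩
    exact congrArg Subtype.val (commute_of_normal_of_disjoint (H.subgroupOf _) K normal_in_normalizer hKn
      hc.disjoint.symm ⟨h, le_normalizer hh⟩ k hh hk).eq
  refine ⟨map_subtype_le _, hcomm, fun n hn => ?_⟩
  obtain ⟨k, hk, h, hh, e⟩ := exists_factor hKn hc ⟨n, hn⟩
  refine ⟨h, hh, k, mem_map_of_mem _ hk, ?_⟩
  have := congrArg Subtype.val e
  exact this.trans (hcomm _ hh _ (mem_map_of_mem _ hk)).symm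

theorem pi_mem {G : Type v} [Group G] [Finite G] {H K : Subgroup G} (hcop : (Nat.card H).Coprime (Nat.card K))
    (hcomm : ∀ h ∈ H, ∀ k ∈ K, h * k = k * h)
    (hprod : ∀ n ∈ normalizer (H : Set G), ∃ h ∈ H, ∃ k ∈ K, n = h * k)
    {n : G} (hn : n ∈ normalizer (H : Set G)) (ho : orderOf n ∣ Nat.card H) : n ∈ H := by
  obtain ⟨h, hh, k, hk, rfl⟩ := hprod n hn
  have h1 := orderOf_dvd_iff_pow_eq_one.1 ho
  rw [(show Commute h k from hcomm h hh k hk).mul_pow,
    orderOf_dvd_iff_pow_eq_one.1 (H.orderOf_dvd_natCard hh), one_mul] at h1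
  have hk1 : k = 1 := orderOf_eq_one_iff.1
    (Nat.eq_one_of_dvd_coprimes hcop (orderOf_dvd_of_pow_eq_one h1) (K.orderOf_dvd_natCard hk))
  rwa [hk1, mul_one]

theorem conj_into {G : Type v} [Group G] [Finite G] {H K : Subgroup G} (hTI : Cfsg.IsTISubset (H : Set G))
    (hcopI : (Nat.card H).Coprime H.index) (hcop : (Nat.card H).Coprime (Nat.card K))
    (hcomm : ∀ h ∈ H, ∀ k ∈ K, h * k = k * h)
    (hprod : ∀ n ∈ normalizer (H : Set G), ∃ h ∈ H, ∃ k ∈ K, n = h * k)
    {l : G} (hl1 : l ≠ 1) (ho : orderOf l ∣ Nat.card H) : ∃ g : G, g⁻¹ * l * g ∈ H := by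
  obtain ⟨p, hp, hpd⟩ := Nat.exists_prime_and_dvd (fun h => hl1 (orderOf_eq_one_iff.1 h) : orderOf l ≠ 1)
  have := Fact.mk hp
  obtain ⟨P⟩ := (inferInstance : Nonempty (Sylow p H))
  set x := l ^ (orderOf l / p) with hx
  have hxo : orderOf x = p := orderOf_pow_orderOf_div (orderOf_pos l).ne' hpd
  obtain ⟨R, hR⟩ := (P.2.map H.subtype).exists_le_sylow
  have hRH : (R : Subgroup G) ≤ H := by
    have hc : Nat.card R = Nat.card ((P : Subgroup H).map H.subtype : Subgroup G) := by
      rw [card_map_of_injective H.subtype_injective, R.card_eq_multiplicity, P.card_eq_multiplicity,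
        ← H.index_mul_card, Nat.factorization_mul index_ne_zero_of_finite Nat.card_pos.ne']
      rw [Finsupp.add_apply, Nat.factorization_eq_zero_of_not_dvd fun h =>
        (hp.coprime_iff_not_dvd.1 (hcopI.coprime_dvd_left (hpd.trans ho))) h, zero_add]
    rw [← eq_of_le_of_card_ge hR hc.le]
    exact map_subtype_le _
  have hz : IsPGroup p (zpowers x) := IsPGroup.of_card (n := 1) (by rw [Nat.card_zpowers, hxo, pow_one])
  obtain ⟨R', hR'⟩ := hz.exists_le_sylow
  obtain ⟨c, hc⟩ := MulAction.exists_smul_eq G R' R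
  have hxH : c * x * c⁻¹ ∈ H := hRH (by
    rw [← hc]
    exact Lib.Transfer.mem_smul_sylow.2 (by simpa [mul_assoc] using hR' (mem_zpowers x)))
  refine ⟨c⁻¹, pi_mem hcop hcomm hprod (Lib.FPF.mem_normalizer_of_ti hTI hxH ?_ ?_) ?_⟩
  · intro h
    rw [← orderOf_eq_one_iff, show c * x * c⁻¹ = MulAut.conj c x by simp, MulEquiv.orderOf_eq, hxo] at h
    exact hp.ne_one h
  · have : c * l * c⁻¹ * (c * x * c⁻¹) * (c * l * c⁻¹)⁻¹ = c * x * c⁻¹ := by
      rw [hx]; group
    rw [inv_inv, this]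
    exact hxH
  · rw [inv_inv, show c * l * c⁻¹ = MulAut.conj c l by simp, MulEquiv.orderOf_eq]
    exact ho

theorem exists_frobenius {G : Type v} [Group G] [Finite G] {H M K : Subgroup G} (hTI : Cfsg.IsTISubset (H : Set G))
    (hM : M.Normal) (hc : M.IsComplement' H) (hcop : (Nat.card H).Coprime H.index)
    (hH : ¬ H.Normal) (hKN : K ≤ normalizer (H : Set G))
    (hcomm : ∀ h ∈ H, ∀ k ∈ K, h * k = k * h) (hKcop : (Nat.card H).Coprime (Nat.card K))
    (hprod : ∀ n ∈ normalizer (H : Set G), ∃ h ∈ H, ∃ k ∈ K, n = h * k) :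
    ∃ (F : Type v) (_ : Group F) (_ : Finite F) (C : Subgroup F),
      Cfsg.IsFrobeniusComplement C ∧ Nonempty (H ≃* C) := by
  classical
  have hHne : H ≠ ⊥ := fun h => hH (h ▸ inferInstance)
  have hMcard : Nat.card M = H.index := (IsComplement'.index_eq_card hc).symm
  have hcopM : (Nat.card H).Coprime (Nat.card M) := hMcard ▸ hcop
  have hdisj : ∀ x, x ∈ M → x ∈ H → x = 1 := fun x h1 h2 => disjoint_def.1 hc.disjoint h1 h2
  -- centralizers in M of elements of H
  have hcent : ∀ m ∈ M, m ∈ normalizer (H : Set G) → ∀ h ∈ H, h * m = m * h := by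
    intro m hm hmN h hh
    have h1 : m * h * m⁻¹ ∈ H := (mem_normalizer_iff.1 hmN h).1 hh
    have h2 : h⁻¹ * (m * h * m⁻¹) ∈ M := by
      rw [show h⁻¹ * (m * h * m⁻¹) = (h⁻¹ * m * h) * m⁻¹ by group]
      exact mul_mem (by simpa using hM.conj_mem m hm h⁻¹) (inv_mem hm)
    have := hdisj _ h2 (mul_mem (inv_mem hh) h1)
    rw [inv_mul_eq_one] at this
    conv_lhs => rw [this]
    group
  -- a prime where M is not centralised
  have hMN : ¬ M ≤ normalizer (H : Set G) := fun h => hH (normalizer_eq_top_iff.1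
    (top_le_iff.1 (fun x _ => by
      obtain ⟨m, hm, y, hy, rfl⟩ := exists_factor hM hc x
      exact mul_mem (h hm) (le_normalizer hy))))
  set MN := (normalizer (H : Set G)).subgroupOf M with hMNdef
  have hidx : MN.index ≠ 1 := fun h => hMN (subgroupOf_eq_top.1 (index_eq_one.1 h))
  obtain ⟨q, hq, hqd⟩ := Nat.exists_prime_and_dvd hidx
  have := Fact.mk hq
  obtain ⟨Q0⟩ := (inferInstance : Nonempty (Sylow q M))
  -- a complement of M normalising the Sylow subgroup
  set Q' := (Q0 : Subgroup M).map M.subtype with hQ'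
  set NQ := normalizer (Q' : Set G) with hNQ
  obtain ⟨L0, hL0⟩ : ∃ L0 : Subgroup NQ, (M.subgroupOf NQ).IsComplement' L0 := by
    refine exists_right_complement'_of_coprime ?_
    have h1 : (M.subgroupOf NQ).index = Nat.card H := by
      rw [show (M.subgroupOf NQ).index = M.relIndex NQ from rfl, ← hc.symm.index_eq_card]
      have h2 : NQ ⊔ M = ⊤ := Sylow.normalizer_sup_eq_top Q0
      rw [← relIndex_sup_right, h2, relIndex_top_right]
    rw [h1]
    exact (hcopM.coprime_dvd_right (by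
      rw [← card_map_of_injective NQ.subtype_injective]
      exact card_dvd_of_le (by rw [subgroupOf_map_subtype]; exact inf_le_left))).symm
  set L := L0.map NQ.subtype with hL
  have hLcard : Nat.card L = Nat.card H := by
    rw [hL, card_map_of_injective NQ.subtype_injective, ← hL0.symm.index_eq_card,
      show (M.subgroupOf NQ).index = M.relIndex NQ from rfl]
    have h2 : NQ ⊔ M = ⊤ := Sylow.normalizer_sup_eq_top Q0
    rw [← relIndex_sup_right, h2, relIndex_top_right, hc.symm.index_eq_card]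
  have hLne : L ≠ ⊥ := fun h => hHne (card_eq_one.1 (by rw [← hLcard, h, card_bot]))
  obtain ⟨g, hg⟩ := Lib.FPF.le_conj_of_ti hTI (L := L)
    (fun g l hl hlN => pi_mem hKcop hcomm hprod hlN (by
      rw [show g⁻¹ * l * g = MulAut.conj g⁻¹ l by simp, MulEquiv.orderOf_eq]
      exact hLcard ▸ L.orderOf_dvd_natCard hl))
    (fun l hl hl1 => conj_into hTI hcop hKcop hcomm hprod hl1 (hLcard ▸ L.orderOf_dvd_natCard hl)) hLne
  have hLeq : L = MulAut.conj g • H :=
    eq_of_le_of_card_ge hg (by rw [Lib.Coprime.card_conj_smul, hLcard])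
  -- the invariant Sylow subgroup
  set Q := MulAut.conj g⁻¹ • Q' with hQdef
  have hQM : Q ≤ M := fun x hx => by
    rw [hQdef, Lib.Coprime.mem_conj_smul] at hx
    have := hM.conj_mem _ (map_subtype_le _ hx) g⁻¹
    simpa [mul_assoc] using this
  have hHQ : H ≤ normalizer (Q : Set G) := by
    intro h hh
    refine Lib.Coprime.mem_normalizer_of_conj_smul_eq ?_
    have h1 : g * h * g⁻¹ ∈ L := hLeq ▸ Lib.Coprime.conj_mem_conj_smul hh
    have h2 : MulAut.conj (g * h * g⁻¹) • Q' = Q' :=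
      Lib.Coprime.conj_smul_eq_self (map_subtype_le L0 h1)
    rw [hQdef, ← Lib.Coprime.conj_smul_mul, show h * g⁻¹ = g⁻¹ * (g * h * g⁻¹) by group,
      Lib.Coprime.conj_smul_mul, h2]
  set D := Q ⊓ normalizer (H : Set G) with hD
  have hQp : IsPGroup q Q := Lib.Coprime.isPGroup_conj_smul (Q0.2.map _) g⁻¹
  have hDQ : D ≠ Q := by
    intro h
    have hle : (Q.subgroupOf M) ≤ MN := subgroupOf_mono M (h ▸ inf_le_right)
    have hi : (Q.subgroupOf M).index = (Q0 : Subgroup M).index := by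
      have h1 := (Q.subgroupOf M).card_mul_index
      have h2 := (Q0 : Subgroup M).card_mul_index
      rw [Lib.Coprime.card_subgroupOf hQM, hQdef, Lib.Coprime.card_conj_smul, hQ',
        card_map_of_injective M.subtype_injective, ← h2] at h1
      exact mul_left_cancel₀ Nat.card_pos.ne' h1
    exact Q0.not_dvd_index (hi ▸ hqd.trans (index_dvd_of_le hle))
  have hgrow := Lib.Fusion.lt_normalizer_inf hQp (lt_of_le_of_ne inf_le_left hDQ)
  set Q1 := Q ⊓ normalizer (D : Set G) with hQ1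
  have hDH : ∀ h ∈ H, ∀ d ∈ D, h * d = d * h := fun h hh d hd => hcent d (hQM hd.1) hd.2 h hh
  have hHD : H ≤ normalizer (D : Set G) := fun h hh => centralizer_le_normalizer _
    (mem_centralizer_iff.2 fun d hd => (hDH h hh d hd).symm)
  have hHQ1 : H ≤ normalizer (Q1 : Set G) := fun h hh =>
    inf_normalizer_le_normalizer_inf (mem_inf.2 ⟨hHQ hh, le_normalizer (hHD hh)⟩)
  set S := Q1 ⊔ H with hS
  have hSD : S ≤ normalizer (D : Set G) := sup_le inf_le_right hHD
  have hn : (D.subgroupOf S).Normal := (normal_subgroupOf_iff_le_normalizer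
    (hgrow.le.trans le_sup_left)).2 hSD
  let π := QuotientGroup.mk' (D.subgroupOf S)
  let C : Subgroup (S ⧸ D.subgroupOf S) := (H.subgroupOf S).map π
  let P : Subgroup (S ⧸ D.subgroupOf S) := (Q1.subgroupOf S).map π
  have hπ1 : ∀ a : S, π a = 1 → (a : G) ∈ D := fun a e => (QuotientGroup.eq_one_iff (N := D.subgroupOf S) a).1 e
  have hπ : ∀ a b : S, π a = π b → (a : G)⁻¹ * b ∈ D := fun a b e => hπ1 (a⁻¹ * b) (by
    rw [map_mul, map_inv, e, inv_mul_cancel])
  have hHD1 : ∀ x, x ∈ H → x ∈ D → x = 1 := fun x h1 h2 => hdisj x (hQM h2.1) h1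
  have hfactor : ∀ s : S, ∃ y ∈ Q1, ∃ h ∈ H, (s : G) = y * h := by
    intro s
    have := (Lib.Coprime.mem_sup_of_le_normalizer hHQ1).1 (show (s : G) ∈ H ⊔ Q1 by rw [sup_comm]; exact s.2)
    obtain ⟨h, hh, y, hy, e⟩ := this
    exact ⟨h * y * h⁻¹, (mem_normalizer_iff.1 (hHQ1 hh) y).1 hy, h, hh, by rw [e]; group⟩
  have hcopQ : (Nat.card H).Coprime (Nat.card D) :=
    hcopM.coprime_dvd_right (card_dvd_of_le (inf_le_left.trans hQM))
  refine ⟨S ⧸ D.subgroupOf S, inferInstance, inferInstance, C, ⟨?_, ?_, ?_⟩, ⟨?_⟩⟩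
  · intro h
    obtain ⟨x, hx, hx1⟩ := H.bot_or_exists_ne_one.resolve_left hHne
    have : π ⟨x, (le_sup_right : H ≤ S) hx⟩ ∈ C := mem_map_of_mem π hx
    rw [h, mem_bot] at this
    exact hx1 (hHD1 x hx (hπ1 _ this))
  · intro h
    obtain ⟨y, hy, hyD⟩ := SetLike.exists_of_lt hgrow
    have : π ⟨y, (le_sup_left : Q1 ≤ S) hy⟩ ∈ C := h ▸ mem_top _
    obtain ⟨⟨x, hxS⟩, hx, e⟩ := this
    have h1 : x⁻¹ * y ∈ D := hπ ⟨x, hxS⟩ ⟨y, (le_sup_left : Q1 ≤ S) hy⟩ e
    have h2 : x ∈ M := by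
      rw [show x = y * (x⁻¹ * y)⁻¹ by group]
      exact mul_mem (hQM hy.1) (inv_mem (hQM h1.1))
    rw [hdisj x h2 hx, inv_one, one_mul] at h1
    exact hyD h1
  · intro f hf
    rw [eq_bot_iff]
    intro z hz
    obtain ⟨hz1, hz2⟩ := mem_inf.1 hz
    rw [Lib.Coprime.mem_conj_smul] at hz2
    obtain ⟨s, rfl⟩ := QuotientGroup.mk'_surjective (D.subgroupOf S) f
    obtain ⟨y, hy, h0, hh0, hs⟩ := hfactor s
    obtain ⟨⟨a, haS⟩, ha, rfl⟩ := hz1
    rw [← map_inv, ← map_mul, ← map_mul] at hz2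
    obtain ⟨⟨b, hbS⟩, hb, hb'⟩ := hz2
    have h1 := hπ _ _ hb'
    simp only [Subgroup.coe_mul, Subgroup.coe_inv, hs] at h1
    -- `h1 : b⁻¹ * ((y h0)⁻¹ a (y h0)) ∈ D`
    set c := h0 * b * h0⁻¹ with hc'
    have hcH : c ∈ H := mul_mem (mul_mem hh0 hb) (inv_mem hh0)
    set d := c⁻¹ * (y⁻¹ * a * y) with hd
    have hdD : d ∈ D := by
      have := (mem_normalizer_iff.1 (hHD hh0) _).1 h1
      have e : h0 * (b⁻¹ * ((y * h0)⁻¹ * a * (y * h0))) * h0⁻¹ = d := by rw [hd, hc']; group
      rwa [e] at this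
    have hac : a = c := by
      have : c⁻¹ * a ∈ M := by
        rw [show c⁻¹ * a = d * (y⁻¹ * (a⁻¹ * y * a)) by rw [hd]; group]
        exact mul_mem (hQM hdD.1) (mul_mem (inv_mem (hQM hy.1)) (by simpa using hM.conj_mem y (hQM hy.1) a⁻¹))
      exact (inv_mul_eq_one.1 (hdisj _ this (mul_mem (inv_mem hcH) ha))).symm
    have hd1 : d = 1 := by
      have e : y⁻¹ * a * y = c * d := by rw [hd]; group
      have hord : orderOf (y⁻¹ * a * y) = orderOf a := by
        rw [show y⁻¹ * a * y = MulAut.conj y⁻¹ a by simp, MulEquiv.orderOf_eq]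
      have h2 : (y⁻¹ * a * y) ^ Nat.card H = 1 :=
        orderOf_dvd_iff_pow_eq_one.1 (hord ▸ H.orderOf_dvd_natCard ha)
      rw [e, (show Commute c d from hDH c hcH d hdD).mul_pow,
        orderOf_dvd_iff_pow_eq_one.1 (H.orderOf_dvd_natCard hcH), one_mul] at h2
      exact orderOf_eq_one_iff.1 (Nat.eq_one_of_dvd_coprimes hcopQ (orderOf_dvd_of_pow_eq_one h2)
        (D.orderOf_dvd_natCard hdD))
    rw [mem_bot]
    by_cases ha1 : a = 1
    · rw [show (⟨a, haS⟩ : S) = 1 from Subtype.ext ha1, map_one]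
    exfalso
    apply hf
    -- `y` normalises H, so it is in D
    have hyN : y⁻¹ ∈ normalizer (H : Set G) := Lib.FPF.mem_normalizer_of_ti hTI ha ha1 (by
      show y⁻¹ * a * y⁻¹⁻¹ ∈ H
      rw [inv_inv, show y⁻¹ * a * y = c * d by rw [hd]; group, hd1, mul_one]; exact hcH)
    have hyD : y ∈ D := mem_inf.2 ⟨hy.1, by simpa using inv_mem hyN⟩
    refine ⟨⟨h0, (le_sup_right : H ≤ S) hh0⟩, hh0, QuotientGroup.eq.2 ?_⟩
    rw [mem_subgroupOf]
    simp only [Subgroup.coe_mul, Subgroup.coe_inv, hs]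
    rw [← mul_assoc]
    exact (mem_normalizer_iff.1 (inv_mem (hHD hh0)) y).1 hyD |> (by simpa using ·)
  · let f : H →* C := (π.comp (inclusion (le_sup_right : H ≤ S))).codRestrict C fun h => mem_map_of_mem π h.2
    refine MulEquiv.ofBijective f ⟨?_, ?_⟩
    · rw [injective_iff_map_eq_one]
      intro h e
      exact Subtype.ext (hHD1 h h.2 (hπ1 _ (congrArg Subtype.val e)))
    · rintro ⟨z, s, hs, rfl⟩
      exact ⟨⟨s, hs⟩, rfl⟩

/-- Let G be a finite group and H a subgroup that meets each of its conjugates by elements outside N_G(H) trivially and whose order is coprime to its index in N_G(H). Then H has a normal complement in N_G(H) if and only if H has a normal complement in G. Moreover, if H is not normal in G and has a normal complement in N_G(H), then H is isomorphic to a Frobenius complement of some finite Frobenius group. -/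
theorem result {G : Type u} [Group G] [Finite G] (H : Subgroup G)
    (hTI : Cfsg.IsTISubset (H : Set G)) (hHall : (Nat.card H).Coprime (H.subgroupOf (Subgroup.normalizer (H : Set G))).index) :
    ((∃ K : Subgroup (Subgroup.normalizer (H : Set G)), K.Normal ∧ K.IsComplement' (H.subgroupOf (Subgroup.normalizer (H : Set G)))) ↔
      (∃ N : Subgroup G, N.Normal ∧ N.IsComplement' H)) ∧
    (¬ H.Normal → (∃ K : Subgroup (Subgroup.normalizer (H : Set G)), K.Normal ∧ K.IsComplement' (H.subgroupOf (Subgroup.normalizer (H : Set G)))) →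
      ∃ (F : Type u) (_ : Group F) (_ : Finite F) (C : Subgroup F), Cfsg.IsFrobeniusComplement C ∧ Nonempty (H ≃* C)) := by
  classical
  have hcopI := Cfsg.Agent.Lib.FPF.coprime_index_of_ti hTI hHall
  have hstep : (∃ K : Subgroup (Subgroup.normalizer (H : Set G)), K.Normal ∧ K.IsComplement' (H.subgroupOf (Subgroup.normalizer (H : Set G)))) →
      ∃ N : Subgroup G, N.Normal ∧ N.IsComplement' H := by
    rintro ⟨K, hKn, hc⟩
    have := Fintype.ofFinite G
    obtain ⟨h1, h2, h3⟩ := normalizer_part H K hKn hc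
    refine Cfsg.Agent.Lib.FPF.exists_complement_of_ti hTI h1 ?_ h2 h3
    rw [Subgroup.card_map_of_injective (Subgroup.subtype_injective _), ← Subgroup.IsComplement'.index_eq_card hc]
    exact hHall
  refine ⟨⟨hstep, ?_⟩, fun hn hK => ?_⟩
  · rintro ⟨N, hN, hc⟩
    refine ⟨N.subgroupOf _, inferInstance, Subgroup.isComplement'_of_disjoint_and_mul_eq_univ ?_ ?_⟩
    · rw [Subgroup.disjoint_def]
      exact fun {x} hx hy => Subtype.ext (Subgroup.disjoint_def.1 hc.disjoint hx hy)
    · refine Set.eq_univ_of_forall fun x => ?_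
      obtain ⟨m, hm, h, hh, e⟩ := exists_factor hN hc x
      have hmN : m ∈ Subgroup.normalizer (H : Set G) := by
        rw [show m = (x : G) * h⁻¹ by rw [e]; group]
        exact mul_mem x.2 (inv_mem (Subgroup.le_normalizer hh))
      exact ⟨⟨m, hmN⟩, hm, ⟨h, Subgroup.le_normalizer hh⟩, hh, Subtype.ext e.symm⟩
  · obtain ⟨M, hM, hMc⟩ := hstep hK
    obtain ⟨K, hKn, hc⟩ := hK
    obtain ⟨h1, h2, h3⟩ := normalizer_part H K hKn hc
    refine exists_frobenius hTI hM hMc hcopI hn h1 h2 ?_ h3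
    rw [Subgroup.card_map_of_injective (Subgroup.subtype_injective _), ← Subgroup.IsComplement'.index_eq_card hc]
    exact hHall

end Cfsg.Agent.S4115
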