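import Cfsg.Statements.S4116
import Mathlib
-- import your own Cfsg.Agent.* helpers here

set_option autoImplicit false
open Cfsg

namespace Cfsg.Agent.S4116

/-- A "malnormal" subgroup with nontrivial order: the union of its conjugates is big. -/
lemma card_conj_union {K : Type*} [Group K] [Finite K] (A : Subgroup K)
    (hA : ∀ k x : K, x ∈ A → x ≠ 1 → k * x * k⁻¹ ∈ A → k ∈ A) :
    A.index * (Nat.card A - 1) ≤ {y : K | ∃ k x : K, x ∈ A ∧ x ≠ 1 ∧ k * x * k⁻¹ = y}.ncard := by
  have : Fintype K := Fintype.ofFinite K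
  classical
  let T := {x : A // x ≠ 1}
  have hT : Nat.card T = Nat.card A - 1 := by
    rw [Nat.card_eq_fintype_card, Fintype.card_subtype_compl, Fintype.card_subtype_eq, Nat.card_eq_fintype_card]
  let f : (K ⧸ A) × T → {y : K | ∃ k x : K, x ∈ A ∧ x ≠ 1 ∧ k * x * k⁻¹ = y} :=
    fun a => ⟨a.1.out * (a.2.1 : K) * a.1.out⁻¹, a.1.out, a.2.1, a.2.1.2, fun h => a.2.2 (Subtype.ext h), rfl⟩
  have hf : Function.Injective f := by
    rintro ⟨c, ⟨x, hx⟩, hx1⟩ ⟨c', ⟨x', hx'⟩, hx1'⟩ e
    have e' : c.out * x * c.out⁻¹ = c'.out * x' * c'.out⁻¹ := congrArg Subtype.val e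
    have hk : (c'.out⁻¹ * c.out) * x * (c'.out⁻¹ * c.out)⁻¹ = x' := by
      rw [show (c'.out⁻¹ * c.out) * x * (c'.out⁻¹ * c.out)⁻¹ = c'.out⁻¹ * (c.out * x * c.out⁻¹) * c'.out by group, e']
      group
    have hm := hA _ x hx (fun h => hx1 (Subtype.ext h)) (hk ▸ hx')
    have hc : c' = c := by
      rw [← QuotientGroup.out_eq' c, ← QuotientGroup.out_eq' c']
      exact QuotientGroup.eq.2 hm
    subst hc
    simp only [inv_mul_cancel, one_mul, inv_one, mul_one] at hk
    subst hk
    rfl
  have := Nat.card_le_card_of_injective f hf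
  rwa [Nat.card_prod, hT, ← Subgroup.index, Nat.card_coe_set_eq] at this

/-- Let G be a finite group with a subgroup H whose order is coprime to its index (a Hall subgroup) and which meets each of its conjugates by elements outside N_G(H) trivially. Then every subgroup of G whose order is divisible only by primes dividing the order of H lies in a conjugate of H. -/
theorem result {G : Type*} [Group G] [Finite G] (H : Subgroup G)
    (hHall : (Nat.card H).Coprime H.index) (hTI : Cfsg.IsTISubset (H : Set G))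
    (K : Subgroup G) (hK : ∀ q : ℕ, q.Prime → q ∣ Nat.card K → q ∣ Nat.card H) :
    ∃ g : G, K ≤ H.map (MulAut.conj g).toMonoidHom := by
  classical
  set Ah : G → Subgroup G := fun g => H.map (MulAut.conj g).toMonoidHom with hAh
  set n := Nat.card H with hn
  have hmemA : ∀ g x, x ∈ Ah g ↔ g⁻¹ * x * g ∈ H := by
    intro g x
    simp only [hAh, Subgroup.mem_map, MulEquiv.coe_toMonoidHom, MulAut.conj_apply]
    constructor
    · rintro ⟨h, hh, rfl⟩
      simpa [mul_assoc] using hh
    · exact fun h => ⟨_, h, by group⟩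
  -- normalising elements whose primes divide the order of H lie in H
  have hnorm : ∀ u : G, (∀ q : ℕ, q.Prime → q ∣ orderOf u → q ∣ n) → u ∈ Subgroup.normalizer (H : Set G) → u ∈ H := by
    intro u hu huN
    set N := Subgroup.normalizer (H : Set G) with hNdef
    have hd1 : orderOf (QuotientGroup.mk' (H.subgroupOf N) ⟨u, huN⟩) ∣ orderOf u := by
      simpa [Subgroup.orderOf_mk] using orderOf_map_dvd (QuotientGroup.mk' (H.subgroupOf N)) ⟨u, huN⟩
    have hd2 : orderOf (QuotientGroup.mk' (H.subgroupOf N) ⟨u, huN⟩) ∣ H.index :=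
      (orderOf_dvd_natCard _).trans (by
        have : (H.subgroupOf N).index ∣ H.index := by
          rw [← Subgroup.relIndex]; exact Subgroup.relIndex_dvd_index_of_le Subgroup.le_normalizer
        exact this)
    have h1 : orderOf (QuotientGroup.mk' (H.subgroupOf N) ⟨u, huN⟩) = 1 := by
      by_contra hne
      obtain ⟨q, hq, hqd⟩ := Nat.exists_prime_and_dvd hne
      exact hq.ne_one (Nat.eq_one_of_dvd_coprimes hHall (hu q hq (hqd.trans hd1)) (hqd.trans hd2))
    rw [orderOf_eq_one_iff, QuotientGroup.mk'_apply, QuotientGroup.eq_one_iff] at h1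
    exact h1
  have hord : ∀ k : K, ∀ q : ℕ, q.Prime → q ∣ orderOf (k : G) → q ∣ n := fun k q hq hd =>
    hK q hq (hd.trans (by rw [Subgroup.orderOf_coe]; exact orderOf_dvd_natCard k))
  set A : G → Subgroup K := fun g => (Ah g).subgroupOf K with hA
  have hmal : ∀ g (k x : K), x ∈ A g → x ≠ 1 → k * x * k⁻¹ ∈ A g → k ∈ A g := by
    intro g k x hx hx1 hkx
    rw [hA, Subgroup.mem_subgroupOf, hmemA] at hx hkx ⊢
    refine hnorm _ ?_ ?_
    · intro q hq hd
      refine hord k q hq ?_
      rwa [show g⁻¹ * (k : G) * g = MulAut.conj g⁻¹ (k : G) by simp, MulEquiv.orderOf_eq] at hd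
    · by_contra hc
      have := hTI _ hc _ hx (by
        simpa [mul_assoc] using hkx)
      exact hx1 (Subtype.ext (by
        calc (x : G) = g * (g⁻¹ * x * g) * g⁻¹ := by group
          _ = 1 := by rw [this]; group))
  -- every prime power element lies in some conjugate
  have hpp : ∀ (q : ℕ), q.Prime → q ∣ Nat.card K → ∀ x : K, orderOf x = q → ∃ g, x ∈ A g := by
    intro q hq hqK x hx
    have := Fact.mk hq
    have hZ : IsPGroup q (Subgroup.zpowers (x : G)) :=
      IsPGroup.of_card (n := 1) (by rw [Nat.card_zpowers, Subgroup.orderOf_coe, hx, pow_one])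
    obtain ⟨Q, hQ⟩ := hZ.exists_le_sylow
    let S : Sylow q H := default
    have hSG : Nat.card ((S : Subgroup H).map H.subtype) = q ^ (Nat.card G).factorization q := by
      rw [Nat.card_congr ((S : Subgroup H).equivMapOfInjective _ (Subgroup.subtype_injective H)).symm.toEquiv, S.card_eq_multiplicity,
        ← H.card_mul_index, Nat.factorization_mul Nat.card_pos.ne' H.index_ne_zero_of_finite]
      congr 1
      have : ¬ q ∣ H.index := fun h => hq.ne_one (Nat.eq_one_of_dvd_coprimes hHall (hK q hq hqK) h)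
      simp [Nat.factorization_eq_zero_of_not_dvd this]
    let S' : Sylow q G := Sylow.ofCard _ hSG
    obtain ⟨g, hg⟩ := MulAction.exists_smul_eq G S' Q
    refine ⟨g, ?_⟩
    have hxQ : (x : G) ∈ (Q : Subgroup G) := hQ (Subgroup.mem_zpowers _)
    rw [← hg, Sylow.coe_subgroup_smul] at hxQ
    obtain ⟨y, ⟨z, hz, rfl⟩, hy⟩ := hxQ
    exact ⟨z, z.2, hy⟩
  have hcover : ∀ y : K, y ≠ 1 → ∃ g, A g ≠ ⊥ ∧ y ∈ A g := by
    intro y hy
    obtain ⟨q, hq, hqd⟩ := Nat.exists_prime_and_dvd (mt orderOf_eq_one_iff.1 hy)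
    have := Fact.mk hq
    set x := y ^ (orderOf y / q) with hx
    have hxo : orderOf x = q := by
      rw [hx, orderOf_pow_orderOf_div (orderOf_pos y).ne' hqd]
    obtain ⟨g, hg⟩ := hpp q hq (hqd.trans (orderOf_dvd_natCard y)) x hxo
    have hx1 : x ≠ 1 := fun h => hq.ne_one (by rw [← hxo, h, orderOf_one])
    refine ⟨g, fun h => hx1 (by rwa [h, Subgroup.mem_bot] at hg), hmal g y x hg hx1 ?_⟩
    have : y * x * y⁻¹ = x := by rw [hx]; group
    rwa [this]
  have hmain : ∃ g, A g = ⊤ := by
    by_contra hno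
    push Not at hno
    have hK1 : Nontrivial K := by
      by_contra h
      rw [not_nontrivial_iff_subsingleton] at h
      exact hno 1 (Subsingleton.elim _ _)
    obtain ⟨y, hy⟩ := exists_ne (1 : K)
    obtain ⟨g, hg, -⟩ := hcover y hy
    let U : G → Set K := fun g => {y : K | ∃ k x : K, x ∈ A g ∧ x ≠ 1 ∧ k * x * k⁻¹ = y}
    have hU1 : ∀ g, U g ⊆ {1}ᶜ := by
      rintro g _ ⟨k, x, -, hx, rfl⟩ h
      exact hx (by simpa using h)
    have hhalf : ∀ g, A g ≠ ⊥ → Nat.card K ≤ 2 * (U g).ncard := by
      intro g hg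
      have h2 : 2 ≤ Nat.card (A g) := (Subgroup.one_lt_card_iff_ne_bot (A g)).2 hg
      have h3 := card_conj_union (A g) (hmal g)
      have h4 : Nat.card K ≤ 2 * ((A g).index * (Nat.card (A g) - 1)) := by
        rw [← (A g).index_mul_card, mul_left_comm]
        exact Nat.mul_le_mul_left _ (by omega)
      exact h4.trans (Nat.mul_le_mul_left 2 h3)
    have hone : ({1}ᶜ : Set K).ncard < Nat.card K := by
      rw [← Set.ncard_univ]
      exact Set.ncard_lt_ncard (Set.ssubset_univ_iff.2 fun h => by
        have : (1 : K) ∈ ({1}ᶜ : Set K) := h ▸ Set.mem_univ 1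
        exact this rfl)
    by_cases hall : ({1}ᶜ : Set K) ⊆ U g
    · have hAg := (A g).index_mul_card
      have h3 : (U g).ncard ≤ (A g).index * (Nat.card (A g) - 1) := by
        let f : (K ⧸ A g) × {x : A g // x ≠ 1} → K := fun a => a.1.out * (a.2.1 : K) * a.1.out⁻¹
        have hsub : U g ⊆ Set.range f := by
          rintro _ ⟨k, x, hx, hx1, rfl⟩
          obtain ⟨a, ha⟩ := QuotientGroup.mk_out_eq_mul (A g) k
          refine ⟨(QuotientGroup.mk k, ⟨⟨(a : K)⁻¹ * x * a, mul_mem (mul_mem (inv_mem a.2) hx) a.2⟩, fun h => hx1 ?_⟩), ?_⟩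
          · have h' : (a : K)⁻¹ * x * a = 1 := congrArg Subtype.val h
            calc x = (a : K) * ((a : K)⁻¹ * x * a) * (a : K)⁻¹ := by group
              _ = 1 := by rw [h']; group
          · simp only [f, ha]; group
        have : Fintype K := Fintype.ofFinite K
        refine (Set.ncard_le_ncard hsub).trans ?_
        rw [← Nat.card_coe_set_eq]
        refine (Finite.card_range_le f).trans ?_
        rw [Nat.card_prod, ← Subgroup.index, Nat.card_eq_fintype_card, Fintype.card_subtype_compl, Fintype.card_subtype_eq, Nat.card_eq_fintype_card]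
      have h4 : Nat.card K - 1 ≤ (A g).index * (Nat.card (A g) - 1) := by
        have : ({1}ᶜ : Set K).ncard = Nat.card K - 1 := by rw [Set.ncard_compl, Set.ncard_singleton]
        rw [← this]
        exact (Set.ncard_le_ncard hall).trans h3
      have h5 : (A g).index ≤ 1 := by
        rw [Nat.mul_sub_one, hAg] at h4
        have := Nat.card_pos (α := K)
        have := Nat.le_of_dvd this (A g).index_dvd_card
        omega
      exact hno g (Subgroup.index_eq_one.1 (le_antisymm h5 (Nat.pos_of_ne_zero (A g).index_ne_zero_of_finite)))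
    · obtain ⟨z, hz, hzU⟩ := Set.not_subset.1 hall
      obtain ⟨g', hg', hzA⟩ := hcover z hz
      have hdisj : Disjoint (U g) (U g') := by
        rw [Set.disjoint_left]
        rintro _ ⟨k, x, hx, hx1, rfl⟩ ⟨k', x', hx', hx1', he⟩
        -- x is a nontrivial element of two conjugates; by TI they coincide
        have hxx : (k'⁻¹ * k) * x * (k'⁻¹ * k)⁻¹ = x' := by
          rw [show (k'⁻¹ * k) * x * (k'⁻¹ * k)⁻¹ = k'⁻¹ * (k * x * k⁻¹) * k' by group, ← he]; group
        set c : K := k'⁻¹ * k with hc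
        have hxG : g⁻¹ * (x : G) * g ∈ H := by rwa [hA, Subgroup.mem_subgroupOf, hmemA] at hx
        have hxG' : g'⁻¹ * ((c : G) * x * (c : G)⁻¹) * g' ∈ H := by
          rw [← hxx, hA, Subgroup.mem_subgroupOf, hmemA] at hx'; simpa using hx'
        have hu : g'⁻¹ * (c : G) * g ∈ Subgroup.normalizer (H : Set G) := by
          by_contra hcn
          have := hTI _ hcn _ hxG (by simpa [mul_assoc] using hxG')
          exact hx1 (Subtype.ext (by
            calc (x : G) = g * (g⁻¹ * x * g) * g⁻¹ := by group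
              _ = 1 := by rw [this]; group))
        apply hzU
        refine ⟨c, c⁻¹ * z * c, ?_, ?_, by group⟩
        · rw [hA, Subgroup.mem_subgroupOf, hmemA] at hzA ⊢
          have := (Subgroup.mem_normalizer_iff''.1 hu (g'⁻¹ * (z : G) * g')).1 hzA
          simpa [mul_assoc] using this
        · intro h
          refine hz ?_
          show z = 1
          calc z = c * (c⁻¹ * z * c) * c⁻¹ := by group
            _ = 1 := by rw [h]; group
      have := Set.ncard_union_eq hdisj
      have h6 : (U g ∪ U g').ncard ≤ ({1}ᶜ : Set K).ncard := Set.ncard_le_ncard (Set.union_subset (hU1 g) (hU1 g'))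
      have := hhalf g hg
      have := hhalf g' hg'
      omega
  obtain ⟨g, hg⟩ := hmain
  refine ⟨g, fun k hk => ?_⟩
  have : (⟨k, hk⟩ : K) ∈ A g := hg ▸ Subgroup.mem_top _
  exact Subgroup.mem_subgroupOf.1 this

end Cfsg.Agent.S4116
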