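import Cfsg.Statements.S4117
import Mathlib

set_option autoImplicit false
open Cfsg

namespace Cfsg.Agent.S4117

/-- Let A be a finite group acting on the finite group G by automorphisms with the orders of A and G coprime, and suppose every Sylow subgroup of G is cyclic. Then the fixed-point subgroup C_G(A) is a Hall subgroup of G (its order is coprime to its index), the subgroup [G, A] generated by the elements g⁻¹·a(g) is cyclic and normal with [G, A] ∩ C_G(A) = 1 and [G, A]·C_G(A) = G. -/
theorem result {G A : Type*} [Group G] [Finite G] [Group A] [Finite A]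
    [MulDistribMulAction A G] (hcop : (Nat.card A).Coprime (Nat.card G))
    (hcyc : ∀ (p : ℕ) [Fact p.Prime] (P : Sylow p G), IsCyclic (P : Subgroup G)) :
    (Nat.card (MulAction.fixedPoints A G : Set G)).Coprime (Nat.card G / Nat.card (MulAction.fixedPoints A G : Set G)) ∧
    IsCyclic (Subgroup.closure {y : G | ∃ (a : A) (g : G), y = g⁻¹ * a • g}) ∧
    (Subgroup.closure {y : G | ∃ (a : A) (g : G), y = g⁻¹ * a • g}).Normal ∧
    (Subgroup.closure {y : G | ∃ (a : A) (g : G), y = g⁻¹ * a • g} : Set G) ∩ MulAction.fixedPoints A G = {1} ∧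
    Subgroup.closure {y : G | ∃ (a : A) (g : G), y = g⁻¹ * a • g} ⊔ Subgroup.closure (MulAction.fixedPoints A G) = ⊤ := by
  classical
  open scoped IsMulCommutative commutatorElement in
  have : IsZGroup G := ⟨fun p hp P => by
    haveI : Fact p.Prime := ⟨hp⟩
    exact hcyc p P⟩
  set T := {y : G | ∃ (a : A) (g : G), y = g⁻¹ * a • g} with hT
  set D := Subgroup.closure T with hD
  let N := commutator G
  let B : Subgroup G := Subgroup.centralizer (N : Set G)
  have hNcyc : IsCyclic N := IsZGroup.isCyclic_commutator G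
  have hNcomm : ∀ x ∈ N, ∀ y ∈ N, x * y = y * x := fun x hx y hy =>
    congrArg Subtype.val (hNcyc.isMulCommutative.is_comm.comm (⟨x, hx⟩ : N) ⟨y, hy⟩)
  -- `N` and `B` are invariant
  have hNinv : ∀ (a : A), ∀ x ∈ N, a • x ∈ N := by
    intro a x hx
    have h1 : (commutator G).map (MulDistribMulAction.toMulEquiv G a).toMonoidHom ≤ commutator G := by
      rw [commutator_def, Subgroup.map_commutator]
      exact Subgroup.commutator_mono le_top le_top
    exact h1 ⟨x, hx, rfl⟩
  have hBinv : ∀ (a : A), ∀ x ∈ B, a • x ∈ B := by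
    intro a x hx
    rw [Subgroup.mem_centralizer_iff] at hx ⊢
    intro y hy
    have := congrArg (a • ·) (hx _ (hNinv a⁻¹ y hy))
    simpa [smul_mul', smul_inv_smul] using this
  -- `g⁻¹ * a • g` centralises `N`, the automorphisms of a cyclic group commuting
  have hgen : ∀ (a : A) (g : G), g⁻¹ * a • g ∈ B := by
    intro a g
    rw [Subgroup.mem_centralizer_iff]
    intro y hy
    obtain ⟨⟨c, hc⟩, hcgen⟩ := hNcyc.exists_generator
    obtain ⟨k, hk⟩ := Subgroup.mem_zpowers_iff.1 (hcgen ⟨_, hNinv a c hc⟩)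
    obtain ⟨l, hl⟩ := Subgroup.mem_zpowers_iff.1 (hcgen
      ⟨g * c * g⁻¹, (inferInstance : (commutator G).Normal).conj_mem c hc g⟩)
    have hk' : a • c = c ^ k := (congrArg Subtype.val hk).symm
    have hl' : g * c * g⁻¹ = c ^ l := (congrArg Subtype.val hl).symm
    -- both automorphisms are powers
    have hak : ∀ z ∈ N, a • z = z ^ k ∧ g * z * g⁻¹ = z ^ l := by
      intro z hz
      obtain ⟨i, hi⟩ := Subgroup.mem_zpowers_iff.1 (hcgen ⟨z, hz⟩)
      have hi' : z = c ^ i := (congrArg Subtype.val hi).symm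
      subst hi'
      refine ⟨?_, ?_⟩
      · have := map_zpow (MulDistribMulAction.toMulEquiv G a) c i
        simp only [MulDistribMulAction.toMulEquiv_apply] at this
        rw [this, hk', ← zpow_mul, ← zpow_mul, mul_comm]
      · rw [← conj_zpow, hl', ← zpow_mul, ← zpow_mul, mul_comm]
    -- conjugation by `a • g` agrees with conjugation by `g`
    set z := a⁻¹ • y with hz
    have hzN : z ∈ N := hNinv a⁻¹ y hy
    have hy' : y = a • z := (smul_inv_smul a y).symm
    have e1 : (a • g) * y * (a • g)⁻¹ = g * y * g⁻¹ := by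
      calc (a • g) * y * (a • g)⁻¹ = a • (g * z * g⁻¹) := by rw [hy', smul_mul', smul_mul', smul_inv']
        _ = a • (z ^ l) := by rw [(hak z hzN).2]
        _ = (a • z) ^ l := map_zpow (MulDistribMulAction.toMulEquiv G a) z l
        _ = g * y * g⁻¹ := by rw [← hy', (hak y hy).2]
    calc y * (g⁻¹ * a • g) = g⁻¹ * (g * y * g⁻¹) * (a • g) := by group
      _ = g⁻¹ * ((a • g) * y * (a • g)⁻¹) * (a • g) := by rw [e1]
      _ = g⁻¹ * a • g * y := by group
  have hDB : D ≤ B := (Subgroup.closure_le _).2 fun y ⟨a, g, hy⟩ => hy ▸ hgen a g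
  -- `B` is cyclic
  have hBcomm : IsMulCommutative B := by
    refine ⟨⟨fun x y => commutative_of_cyclic_center_quotient ((Abelianization.of : G →* Abelianization G).comp B.subtype) ?_ x y⟩⟩
    intro w hw
    rw [Subgroup.mem_center_iff]
    intro v
    have hw' : (w : G) ∈ N := by
      have : Abelianization.of (w : G) = 1 := hw
      rwa [← MonoidHom.mem_ker, Abelianization.ker_of] at this
    exact Subtype.ext (Subgroup.mem_centralizer_iff.1 v.2 _ hw').symm
  have hBnil : Group.IsNilpotent B := by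
    open scoped IsMulCommutative in infer_instance
  have hBcyc : IsCyclic B := inferInstance
  have hDcyc : IsCyclic D := isCyclic_of_injective (Subgroup.inclusion hDB) (Subgroup.inclusion_injective hDB)
  -- normal
  have hBn : B.Normal := inferInstance
  have hDn : D.Normal := by
    obtain ⟨⟨c, hc⟩, hcgen⟩ := hBcyc.exists_generator
    refine ⟨fun x hx g => ?_⟩
    obtain ⟨i, hi⟩ := Subgroup.mem_zpowers_iff.1 (hcgen ⟨_, hBn.conj_mem c hc g⟩)
    obtain ⟨j, hj⟩ := Subgroup.mem_zpowers_iff.1 (hcgen ⟨x, hDB hx⟩)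
    have hj' : x = c ^ j := (congrArg Subtype.val hj).symm
    have hi' : g * c * g⁻¹ = c ^ i := (congrArg Subtype.val hi).symm
    rw [hj', ← conj_zpow, hi', ← zpow_mul, mul_comm, zpow_mul, ← hj']
    exact D.zpow_mem hx i
  -- averaging in `B`
  open scoped IsMulCommutative in
  have havg : (∀ g : G, ∃ q ∈ D, ∀ a : A, a • (g * q) = g * q) ∧
      ∀ x ∈ D, (∀ a : A, a • x = x) → x = 1 := by
    have : Fintype A := Fintype.ofFinite A
    let σ : A → (B →* B) := fun a =>
      { toFun := fun x => ⟨a • (x : G), hBinv a x x.2⟩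
        map_one' := Subtype.ext (smul_one a)
        map_mul' := fun x y => Subtype.ext (smul_mul' a (x : G) y) }
    let φ : B →* B := ∏ b : A, σ b
    have hφ : ∀ x, φ x = ∏ b : A, σ b x := fun x => by simp [φ]
    have hσmul : ∀ a b x, σ (a * b) x = σ a (σ b x) := fun a b x => Subtype.ext (mul_smul a b (x : G))
    have hcopB : (Nat.card A).Coprime (Nat.card B) := hcop.coprime_dvd_right B.card_subgroup_dvd_card
    obtain ⟨m, hm⟩ : ∃ m, Nat.card A * m ≡ 1 [MOD Nat.card B] := by
      refine ⟨((Nat.card A : ZMod (Nat.card B))⁻¹).val, ?_⟩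
      haveI : NeZero (Nat.card B) := ⟨Nat.card_pos.ne'⟩
      rw [← ZMod.natCast_eq_natCast_iff]
      push_cast
      rw [ZMod.natCast_zmod_val, ZMod.coe_mul_inv_eq_one _ hcopB]
    have hroot : ∀ x : B, (x ^ Nat.card A) ^ m = x := by
      intro x
      rw [← pow_mul]
      conv_rhs => rw [← pow_one x]
      rw [pow_eq_pow_iff_modEq]
      exact hm.of_dvd (orderOf_dvd_natCard x)
    -- every cocycle is a coboundary
    have hcob : ∀ g : G, ∃ Q : B, ∀ a : A, g⁻¹ * a • g = (Q : G) * (a • (Q : G))⁻¹ := by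
      intro g
      let δ : A → B := fun a => ⟨g⁻¹ * a • g, hgen a g⟩
      have hδ : ∀ a b, δ (a * b) = δ a * σ a (δ b) := fun a b => Subtype.ext (by
        show g⁻¹ * (a * b) • g = g⁻¹ * a • g * a • (g⁻¹ * b • g)
        rw [smul_mul', smul_inv', mul_smul]; group)
      let P : B := ∏ b, δ b
      have hP : ∀ a, P = δ a ^ Nat.card A * σ a P := by
        intro a
        calc P = ∏ b, δ (a * b) := (Equiv.prod_comp (Equiv.mulLeft a) δ).symm
          _ = ∏ b, δ a * σ a (δ b) := Finset.prod_congr rfl fun b _ => hδ a b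
          _ = δ a ^ Nat.card A * σ a P := by
            rw [Finset.prod_mul_distrib, Finset.prod_const, Finset.card_univ, ← map_prod, Nat.card_eq_fintype_card]
      refine ⟨P ^ m, fun a => ?_⟩
      have e : δ a = P ^ m * (σ a (P ^ m))⁻¹ := by
        rw [map_pow, ← inv_pow, ← mul_pow]
        nth_rw 1 [hP a]
        rw [mul_assoc, mul_inv_cancel, mul_one, hroot]
      exact congrArg Subtype.val e
    have hφσ : ∀ a x, φ (σ a x) = φ x := fun a x => by
      rw [hφ, hφ]
      simp only [← hσmul]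
      exact Equiv.prod_comp (Equiv.mulRight a) (fun b => σ b x)
    refine ⟨fun g => ?_, fun x hx hfix => ?_⟩
    · obtain ⟨Q, hQ⟩ := hcob g
      have hfix : ∀ a : A, a • (g * (Q : G)) = g * Q := fun a => by
        have := hQ a
        rw [inv_mul_eq_iff_eq_mul] at this
        rw [smul_mul', this]; group
      -- split `Q`
      let R : B := φ (Q ^ m)
      have hRfix : ∀ a, σ a R = R := fun a => by
        show σ a (φ (Q ^ m)) = φ (Q ^ m)
        rw [hφ, map_prod]
        simp only [← hσmul]
        exact Equiv.prod_comp (Equiv.mulLeft a) (fun b => σ b (Q ^ m))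
      have hRa : ∀ a : A, a • (R : G) = R := fun a => congrArg Subtype.val (hRfix a)
      refine ⟨((Q * R⁻¹ : B) : G), ?_, fun a => ?_⟩
      · have e : (Q * R⁻¹ : B) = ∏ b : A, (Q ^ m * (σ b (Q ^ m))⁻¹) := by
          rw [Finset.prod_mul_distrib, Finset.prod_const, Finset.card_univ, Finset.prod_inv_distrib,
            ← hφ, ← Nat.card_eq_fintype_card, ← pow_mul, mul_comm m, pow_mul, hroot]
        rw [e, ← Subgroup.mem_subgroupOf]
        refine Subgroup.prod_mem _ fun b _ => ?_
        rw [Subgroup.mem_subgroupOf]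
        refine Subgroup.subset_closure ⟨b, ((Q ^ m : B) : G)⁻¹, ?_⟩
        rw [inv_inv, smul_inv']
        rfl
      · rw [Subgroup.coe_mul, Subgroup.coe_inv, ← mul_assoc, smul_mul', hfix, smul_inv', hRa]
    · have h1 : φ ⟨x, hDB hx⟩ = 1 := by
        have hle : D ≤ (φ.ker).map B.subtype := (Subgroup.closure_le _).2 fun y ⟨a, g, hy⟩ => by
          obtain ⟨Q, hQ⟩ := hcob g
          refine ⟨⟨y, hy ▸ hgen a g⟩, ?_, rfl⟩
          rw [SetLike.mem_coe, MonoidHom.mem_ker,
            show (⟨y, hy ▸ hgen a g⟩ : B) = Q * (σ a Q)⁻¹ from Subtype.ext (hy.trans (hQ a)),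
            map_mul, map_inv, hφσ, mul_inv_cancel]
        obtain ⟨w, hw, hwx⟩ := hle hx
        exact (congrArg φ (Subtype.ext hwx.symm : (⟨x, hDB hx⟩ : B) = w)).trans hw
      rw [hφ, Finset.prod_congr rfl (fun b _ => (Subtype.ext (hfix b) : σ b ⟨x, hDB hx⟩ = ⟨x, hDB hx⟩)),
        Finset.prod_const, Finset.card_univ, ← Nat.card_eq_fintype_card] at h1
      have h2 := hroot ⟨x, hDB hx⟩
      rw [h1, one_pow] at h2
      exact (congrArg Subtype.val h2).symm
  obtain ⟨hsplit, htriv⟩ := havg
  let C : Subgroup G := FixedPoints.subgroup A G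
  have hCset : (C : Set G) = MulAction.fixedPoints A G := rfl
  have hC : ∀ x, x ∈ C ↔ ∀ a : A, a • x = x := fun x => Iff.rfl
  have hcompl : D.IsComplement' C := by
    refine Subgroup.isComplement'_of_disjoint_and_mul_eq_univ ?_ ?_
    · rw [Subgroup.disjoint_def]; exact fun hx hx' => htriv _ hx ((hC _).1 hx')
    · refine Set.eq_univ_iff_forall.2 fun g => ?_
      obtain ⟨q, hq, hgq⟩ := hsplit g
      exact ⟨g * q⁻¹ * g⁻¹, hDn.conj_mem _ (D.inv_mem hq) g, g * q, (hC _).2 hgq, by group⟩
  refine ⟨?_, hDcyc, hDn, ?_, ?_⟩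
  · rw [show (MulAction.fixedPoints A G : Set G) = (C : Set G) from hCset.symm, SetLike.coe_sort_coe]
    rw [← hcompl.card_mul, Nat.mul_div_cancel _ Nat.card_pos]
    refine Nat.coprime_of_dvd fun q hq h1 h2 => ?_
    haveI : Fact q.Prime := ⟨hq⟩
    obtain ⟨c, hc⟩ := exists_prime_orderOf_dvd_card' (G := C) q h1
    obtain ⟨d, hd⟩ := exists_prime_orderOf_dvd_card' (G := D) q h2
    rw [← Subgroup.orderOf_coe] at hc hd
    have hn : (Subgroup.zpowers (d : G)).Normal := by
      obtain ⟨⟨e, he⟩, hegen⟩ := hDcyc.exists_generator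
      refine ⟨fun x hx g => ?_⟩
      obtain ⟨i, rfl⟩ := Subgroup.mem_zpowers_iff.1 hx
      obtain ⟨j, hj⟩ := Subgroup.mem_zpowers_iff.1 (hegen d)
      obtain ⟨k, hk⟩ := Subgroup.mem_zpowers_iff.1 (hegen ⟨_, hDn.conj_mem e he g⟩)
      have hj' : (d : G) = e ^ j := (congrArg (fun v : D => (v : G)) hj).symm
      have hk' : g * e * g⁻¹ = e ^ k := (congrArg Subtype.val hk).symm
      rw [hj', ← zpow_mul, ← conj_zpow, hk', ← zpow_mul, mul_comm k, zpow_mul, zpow_mul]
      exact zpow_mem (zpow_mem (Subgroup.mem_zpowers _) i) k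
    have hdp : IsPGroup q (Subgroup.zpowers (d : G)) := IsPGroup.of_card (n := 1) (by rw [Nat.card_zpowers, hd, pow_one])
    have hcp : IsPGroup q (Subgroup.zpowers (c : G)) := IsPGroup.of_card (n := 1) (by rw [Nat.card_zpowers, hc, pow_one])
    have hH := (hdp.to_sup_of_normal_left hcp).isCyclic_of_isZGroup
    have : (c : G) ∈ Subgroup.zpowers (d : G) := by
      set H := Subgroup.zpowers (d : G) ⊔ Subgroup.zpowers (c : G)
      classical
      haveI : Fintype H := Fintype.ofFinite H
      by_contra hcd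
      let d' : H := ⟨(d : G), Subgroup.mem_sup_left (Subgroup.mem_zpowers _)⟩
      let c' : H := ⟨(c : G), Subgroup.mem_sup_right (Subgroup.mem_zpowers _)⟩
      have hd' : orderOf d' = q := by rw [← Subgroup.orderOf_coe]; exact hd
      have hc' : orderOf c' = q := by rw [← Subgroup.orderOf_coe]; exact hc
      have hsub : insert c' ((Subgroup.zpowers d' : Set H).toFinset) ⊆ Finset.univ.filter (fun a : H => a ^ q = 1) := by
        intro a ha
        rcases Finset.mem_insert.1 ha with rfl | ha
        · exact Finset.mem_filter.2 ⟨Finset.mem_univ _, hc' ▸ pow_orderOf_eq_one c'⟩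
        · rw [Set.mem_toFinset] at ha
          exact Finset.mem_filter.2 ⟨Finset.mem_univ _, orderOf_dvd_iff_pow_eq_one.1 (hd' ▸ orderOf_dvd_of_mem_zpowers ha)⟩
      have h1 := (Finset.card_le_card hsub).trans (IsCyclic.card_pow_eq_one_le hq.pos)
      rw [Finset.card_insert_of_notMem, Set.toFinset_card, ← Nat.card_eq_fintype_card] at h1
      · rw [SetLike.coe_sort_coe, Nat.card_zpowers, hd'] at h1
        omega
      · rw [Set.mem_toFinset]
        intro hm
        obtain ⟨i, hi⟩ := Subgroup.mem_zpowers_iff.1 hm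
        exact hcd (Subgroup.mem_zpowers_iff.2 ⟨i, congrArg Subtype.val hi⟩)
    obtain ⟨i, hi⟩ := Subgroup.mem_zpowers_iff.1 this
    have h := htriv c (hi ▸ D.zpow_mem d.2 i) ((hC _).1 c.2)
    rw [h, orderOf_one] at hc
    exact hq.ne_one hc.symm
  · ext x
    simp only [Set.mem_inter_iff, SetLike.mem_coe, Set.mem_singleton_iff]
    constructor
    · exact fun ⟨h1, h2⟩ => htriv x h1 h2
    · rintro rfl; exact ⟨D.one_mem, smul_one⟩
  · rw [show Subgroup.closure (MulAction.fixedPoints A G) = C from hCset ▸ Subgroup.closure_eq C]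
    exact hcompl.sup_eq_top

end Cfsg.Agent.S4117
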