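import Cfsg.Statements.S4118
import Mathlib
import Cfsg.Agent.Lib.ZassSL25.AutSolvable
import Cfsg.Agent.Lib.GenStruct.TIHallFixed
import Cfsg.Agent.Lib.ZassSL25.Main

set_option autoImplicit false
open Cfsg

namespace Cfsg.Agent.S4118

open Subgroup Lib.ZassSL25
open scoped Pointwise commutatorElement

/-- The special linear group of degree two over the field of five elements is not solvable. -/
theorem sl_not_solvable : ¬ Group.IsSolvable (Matrix.SpecialLinearGroup (Fin 2) (ZMod 5)) := by
  haveI : Fact (Nat.Prime 5) := ⟨by norm_num⟩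
  obtain ⟨C⟩ := nonempty_icoCover_sl
  haveI : Nontrivial (Matrix.SpecialLinearGroup (Fin 2) (ZMod 5)) :=
    Finite.one_lt_card_iff_nontrivial.1 (by rw [C.card_eq]; norm_num)
  exact perfect_not_solvable C.perfect

/-- A group acting without fixed points on a section of a solvable normal subgroup has a
fixed-point-free character. -/
theorem fpfGroup_of_section {G : Type*} [Group G] [Finite G] (H O : Subgroup G) [O.Normal] [Group.IsSolvable O]
    (hOc : (Nat.card O).Coprime (Nat.card H)) (hcent : ∀ h ∈ H, h ≠ 1 → centralizer ({h} : Set G) ≤ normalizer (H : Set G))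
    (hnot : ¬ O ≤ normalizer (H : Set G)) : FPFGroup H := by
  classical
  set C := O ⊓ normalizer (H : Set G) with hC
  -- the last derived term outside `C`
  let f : ℕ → Subgroup G := fun k => (derivedSeries O k).map O.subtype
  have hf0 : f 0 = O := by simp [f, ← MonoidHom.range_eq_map]
  have hex : ∃ k, f k ≤ C := by
    obtain ⟨n, hn⟩ := (inferInstance : Group.IsSolvable O).solvable
    exact ⟨n, by simp [f, hn]⟩
  obtain ⟨k, hk⟩ : ∃ k, Nat.find hex = k + 1 := by
    rcases hk : Nat.find hex with _ | k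
    · have := Nat.find_spec hex
      rw [hk, hf0, hC] at this
      exact absurd (this.trans inf_le_right) hnot
    · exact ⟨k, rfl⟩
  set A := f k
  have hAC : ¬ A ≤ C := Nat.find_min hex (by omega)
  have hAA : ⁅A, A⁆ ≤ C := by
    have := Nat.find_spec hex
    rw [hk] at this
    refine le_trans (le_of_eq ?_) this
    show ⁅(derivedSeries O k).map O.subtype, (derivedSeries O k).map O.subtype⁆ = (derivedSeries O (k + 1)).map O.subtype
    rw [derivedSeries_succ, map_commutator]
  have hAO : A ≤ O := map_subtype_le _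
  haveI hAn : A.Normal := by
    haveI := derivedSeries_characteristic (G := O) k
    exact inferInstanceAs ((derivedSeries O k).map O.subtype).Normal
  set B : Subgroup A := C.subgroupOf A
  haveI hBn : B.Normal := ⟨fun b hb a => by
    rw [mem_subgroupOf] at hb ⊢
    have e : ((a * b * a⁻¹ : A) : G) = ⁅(a : G), (b : G)⁆ * b := by
      rw [Subgroup.coe_mul, Subgroup.coe_mul, Subgroup.coe_inv, commutatorElement_def]; group
    rw [e]
    exact mul_mem (hAA (commutator_mem_commutator a.2 b.2)) hb⟩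
  have hCfix : ∀ h ∈ H, ∀ c ∈ C, h * c * h⁻¹ = c := by
    intro h hh c hc
    obtain ⟨hcO, hcN⟩ := mem_inf.1 hc
    have h1 : c⁻¹ * (h * c * h⁻¹) ∈ O := mul_mem (inv_mem hcO) (Subgroup.Normal.conj_mem inferInstance c hcO h)
    have h2 : c⁻¹ * (h * c * h⁻¹) ∈ H := by
      rw [show c⁻¹ * (h * c * h⁻¹) = (c⁻¹ * h * c) * h⁻¹ by group]
      exact mul_mem ((mem_normalizer_iff''.1 hcN h).1 hh) (inv_mem hh)
    have h3 : c⁻¹ * (h * c * h⁻¹) ∈ O ⊓ H := ⟨h1, h2⟩
    rw [Subgroup.inf_eq_bot_of_coprime hOc, mem_bot, inv_mul_eq_one] at h3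
    exact h3.symm
  haveI : Nontrivial (A ⧸ B) := by
    rw [QuotientGroup.nontrivial_iff, ne_eq, subgroupOf_eq_top]
    exact hAC
  let a : H →* MulAut (A ⧸ B) :=
    MonoidHom.mk' (fun h => QuotientGroup.congr B B (MulAut.conjNormal (h : G)) (by
      refine le_antisymm ?_ fun x hx => ?_
      · rintro _ ⟨x, hx, rfl⟩
        rw [mem_subgroupOf]
        show ((MulAut.conjNormal (h : G) x : A) : G) ∈ C
        rw [MulAut.conjNormal_apply, hCfix h h.2 x (mem_subgroupOf.1 hx)]
        exact mem_subgroupOf.1 hx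
      · refine ⟨x, hx, Subtype.ext ?_⟩
        show ((MulAut.conjNormal (h : G) x : A) : G) = x
        rw [MulAut.conjNormal_apply, hCfix h h.2 x (mem_subgroupOf.1 hx)]))
      fun h h' => MulEquiv.ext fun q => by
        induction q using QuotientGroup.induction_on with
        | H x =>
          show (QuotientGroup.mk (MulAut.conjNormal ((h * h' : H) : G) x) : A ⧸ B) =
            QuotientGroup.mk (MulAut.conjNormal (h : G) (MulAut.conjNormal (h' : G) x))
          rw [Subgroup.coe_mul, map_mul, MulAut.mul_apply]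
  haveI := Fintype.ofFinite H
  obtain ⟨χ, hχ⟩ := exists_fpfChar a fun h hh q hq => by
    induction q using QuotientGroup.induction_on with
    | H x =>
      rw [QuotientGroup.eq_one_iff]
      have hq' : (QuotientGroup.mk (MulAut.conjNormal (h : G) x) : A ⧸ B) = QuotientGroup.mk x := hq
      rw [QuotientGroup.eq, mem_subgroupOf, Subgroup.coe_mul, Subgroup.coe_inv, MulAut.conjNormal_apply] at hq'
      set c := ((h : G) * x * (h : G)⁻¹)⁻¹ * x
      have hcc : Commute c (h : G) := (mul_inv_eq_iff_eq_mul.1 (hCfix h h.2 c hq')).symm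
      have hch : (x : G)⁻¹ * h * x = c⁻¹ * h := by simp only [c]; group
      have h0 : ((x : G)⁻¹ * h * x) ^ Nat.card H = 1 := by
        rw [show (x : G)⁻¹ * h * x = (x : G)⁻¹ * h * ((x : G)⁻¹)⁻¹ by rw [inv_inv], conj_pow,
          show (h : G) ^ Nat.card H = 1 from congrArg Subtype.val (pow_card_eq_one' (x := h)), mul_one, mul_inv_cancel]
      rw [hch, hcc.inv_left.mul_pow, show (h : G) ^ Nat.card H = 1 from congrArg Subtype.val (pow_card_eq_one' (x := h)),
        mul_one, inv_pow, inv_eq_one] at h0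
      have hc1 : c = 1 := orderOf_eq_one_iff.1 (Nat.eq_one_of_dvd_coprimes hOc
        (O.orderOf_dvd_natCard (mem_inf.1 hq').1) (orderOf_dvd_of_pow_eq_one h0))
      rw [hc1, inv_one, one_mul] at hch
      refine mem_subgroupOf.2 ⟨hAO x.2, hcent h h.2 (fun e => hh (Subtype.ext e)) ?_⟩
      rw [mem_centralizer_singleton_iff]
      rw [mul_assoc, inv_mul_eq_iff_eq_mul] at hch
      exact hch.symm
  exact hχ.fpfGroup


/-- Let G be a finite group and H a non-normal subgroup meeting each of its conjugates by elements outside N_G(H) trivially, with the order of H coprime to its index in N_G(H); let π be the set of primes dividing the order of H and suppose G is π-separable (it has a chain of normal subgroups from 1 to G each of whose factors has order divisible only by primes in π or coprime to the order of H). Let O be the largest normal subgroup of G of order coprime to the order of H. Then G = O·N_G(H), O·H is normal in G, and G is solvable if and only if O is solvable and H has no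 subgroup isomorphic to SL₂(5). -/
theorem result {G : Type*} [Group G] [Finite G] (H : Subgroup G)
    (hTI : Cfsg.IsTISubset (H : Set G)) (hnn : ¬ H.Normal)
    (hHall : (Nat.card H).Coprime (H.subgroupOf (Subgroup.normalizer (H : Set G))).index)
    (hsep : ∃ (n : ℕ) (M : Fin (n + 1) → Subgroup G), M 0 = ⊥ ∧ M (Fin.last n) = ⊤ ∧ Monotone M ∧ (∀ i, (M i).Normal) ∧
      ∀ i : Fin n, (∀ q : ℕ, q.Prime → q ∣ (M i.castSucc).relIndex (M i.succ) → q ∣ Nat.card H) ∨
        ((M i.castSucc).relIndex (M i.succ)).Coprime (Nat.card H))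
    (O : Subgroup G) (hO : O = sSup {K : Subgroup G | K.Normal ∧ (Nat.card K).Coprime (Nat.card H)}) :
    O ⊔ Subgroup.normalizer (H : Set G) = ⊤ ∧ (O ⊔ H).Normal ∧
    (Group.IsSolvable G ↔ Group.IsSolvable O ∧
      ∀ K : Subgroup G, K ≤ H → ¬ Nonempty (K ≃* Matrix.SpecialLinearGroup (Fin 2) (ZMod 5))) := by
  classical
  have hHidx := Lib.FPF.coprime_index_of_ti hTI hHall
  have hcent : ∀ h ∈ H, h ≠ 1 → centralizer ({h} : Set G) ≤ normalizer (H : Set G) := by
    intro h hh h1 g hg
    refine Lib.FPF.mem_normalizer_of_ti hTI hh h1 ?_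
    rw [mem_centralizer_singleton_iff.1 hg, mul_inv_cancel_right]
    exact hh
  have hH1 : H ≠ ⊥ := fun e => hnn (e ▸ inferInstance)
  -- the largest normal subgroup of order prime to `H`
  obtain ⟨O', -, ⟨hOn', hOc'⟩, hOmax⟩ := Finite.exists_le_maximal
    (p := fun O : Subgroup G => O.Normal ∧ (Nat.card O).Coprime (Nat.card H))
    (a := ⊥) ⟨inferInstance, by rw [card_bot]; exact Nat.coprime_one_left _⟩
  have hOge' : ∀ N : Subgroup G, N.Normal → (Nat.card N).Coprime (Nat.card H) → N ≤ O' := by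
    intro N hN hNc
    refine le_sup_left.trans (hOmax (y := N ⊔ O') ⟨inferInstance, ?_⟩ le_sup_right)
    exact (hNc.mul_left hOc').coprime_dvd_left
      ⟨_, (Lib.Coprime.card_sup_mul_card_inf_of_le_normalizer (by rw [normalizer_eq_top]; exact le_top)).symm⟩
  have hOO' : O = O' := hO.trans (le_antisymm (sSup_le fun K hK => hOge' K hK.1 hK.2) (le_sSup ⟨hOn', hOc'⟩))
  subst hOO'
  haveI := hOn'
  -- a normal subgroup in `O ⊔ H` not contained in `O`
  obtain ⟨n, Ms, h0, hlast, hmono, hnorm, hfac⟩ := hsep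
  obtain ⟨i, hic, his⟩ : ∃ i : Fin n, Ms i.castSucc ≤ O ∧ ¬ Ms i.succ ≤ O := by
    by_contra hno
    push Not at hno
    have hall : ∀ j, Ms j ≤ O := fun j => Fin.induction (by rw [h0]; exact bot_le) hno j
    have hOtop : O = ⊤ := top_le_iff.1 (hlast ▸ hall (Fin.last n))
    refine hH1 (Subgroup.card_eq_one.1 ?_)
    refine Nat.eq_one_of_dvd_coprimes hOc' ?_ dvd_rfl
    rw [hOtop, card_top]; exact H.card_subgroup_dvd_card
  haveI := hnorm i.succ
  have hpi : ∀ q : ℕ, q.Prime → q ∣ (Ms i.castSucc).relIndex (Ms i.succ) → q ∣ Nat.card H := by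
    refine (hfac i).resolve_right fun hc => his (hOge' _ inferInstance ?_)
    rw [← relIndex_bot_left (Ms i.succ), ← relIndex_mul_relIndex _ _ _ bot_le
      (hmono (Fin.castSucc_le_succ i)), relIndex_bot_left]
    exact (hOc'.coprime_dvd_left (card_dvd_of_le hic)).mul_left hc
  set L := Ms i.succ ⊔ O with hL
  haveI hLn : L.Normal := inferInstance
  have hLOH : L ≤ O ⊔ H := by
    rw [← relIndex_eq_one]
    have hd1 : (O ⊔ H).relIndex L ∣ (Ms i.castSucc).relIndex (Ms i.succ) := by
      refine (relIndex_dvd_of_le_left L (le_sup_left (b := H))).trans ?_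
      rw [hL, relIndex_sup_right]
      exact relIndex_dvd_of_le_left _ hic
    have hd2 : (O ⊔ H).relIndex L ∣ H.index := by
      refine Dvd.dvd.trans ?_ (index_dvd_of_le (le_sup_right : H ≤ O ⊔ H))
      rw [← relIndex_top_right (O ⊔ H)]
      exact Lib.GenStruct.relIndex_dvd_relIndex_of_le_normalizer le_top le_top (by rw [normalizer_eq_top]; exact le_top)
    by_contra hne
    obtain ⟨q, hq, hqd⟩ := Nat.exists_prime_and_dvd hne
    exact hq.ne_one (Nat.eq_one_of_dvd_coprimes hHidx (hpi q hq (hqd.trans hd1)) (hqd.trans hd2))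
  -- a Sylow subgroup of `L` inside `H`
  have hOn0 : ∀ A : Subgroup G, A ≤ normalizer (O : Set G) := fun A => by
    rw [normalizer_eq_top]; exact le_top
  have hLle : L ≤ (L ⊓ H) ⊔ O := fun l hl => by
    have hl' := hLOH hl
    rw [sup_comm, Lib.Coprime.mem_sup_of_le_normalizer (hOn0 H)] at hl'
    obtain ⟨h, hh, o, ho, rfl⟩ := hl'
    refine mul_mem ((le_sup_left : L ⊓ H ≤ (L ⊓ H) ⊔ O) ⟨?_, hh⟩) ((le_sup_right : O ≤ (L ⊓ H) ⊔ O) ho)
    have := mul_mem hl (inv_mem ((le_sup_right : O ≤ L) ho))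
    rwa [mul_inv_cancel_right] at this
  have hcardL : Nat.card L ∣ Nat.card (L ⊓ H : Subgroup G) * Nat.card O := by
    refine (card_dvd_of_le hLle).trans ⟨Nat.card ((L ⊓ H) ⊓ O : Subgroup G), ?_⟩
    exact (Lib.Coprime.card_sup_mul_card_inf_of_le_normalizer (hOn0 _)).symm
  have hLH : Nat.card (L ⊓ H : Subgroup G) ∣ Nat.card L := card_dvd_of_le inf_le_left
  have hnot1 : Nat.card (L ⊓ H : Subgroup G) ≠ 1 := fun e => his (le_sup_left.trans (hLle.trans
    (sup_le (by rw [card_eq_one.1 e]; exact bot_le) le_rfl)))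
  obtain ⟨q, hq, hqd⟩ := Nat.exists_prime_and_dvd hnot1
  haveI := Fact.mk hq
  have hqO : ¬ q ∣ Nat.card O := fun e => hq.ne_one
    (Nat.eq_one_of_dvd_coprimes hOc' e (hqd.trans (card_dvd_of_le inf_le_right)))
  have hfact : (Nat.card (L ⊓ H : Subgroup G)).factorization q = (Nat.card L).factorization q := by
    refine le_antisymm ((Nat.factorization_le_iff_dvd Nat.card_pos.ne' Nat.card_pos.ne').2 hLH q) ?_
    have h1 := (Nat.factorization_le_iff_dvd Nat.card_pos.ne'
      (Nat.mul_pos Nat.card_pos Nat.card_pos).ne').2 hcardL q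
    rwa [Nat.factorization_mul Nat.card_pos.ne' Nat.card_pos.ne', Finsupp.add_apply,
      Nat.factorization_eq_zero_of_not_dvd hqO, add_zero] at h1
  obtain ⟨S1⟩ := (inferInstance : Nonempty (Sylow q (L ⊓ H : Subgroup G)))
  set PG := (S1 : Subgroup (L ⊓ H : Subgroup G)).map (L ⊓ H).subtype with hPG
  have hPGle : PG ≤ L ⊓ H := map_subtype_le _
  have hPGcard : Nat.card PG = q ^ (Nat.card L).factorization q := by
    rw [hPG, card_map_of_injective (L ⊓ H).subtype_injective, S1.card_eq_multiplicity, hfact]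
  let P : Sylow q L := Sylow.ofCard (PG.subgroupOf L)
    (by rw [Nat.card_congr (subgroupOfEquivOfLe (hPGle.trans inf_le_left)).toEquiv, hPGcard])
  obtain ⟨x, hx, hx1⟩ : ∃ x ∈ PG, x ≠ 1 := by
    refine PG.bot_or_exists_ne_one.resolve_left fun e => ?_
    rw [e, card_bot, ← hfact] at hPGcard
    have := (Nat.Prime.pow_dvd_iff_le_factorization hq Nat.card_pos.ne').1 (show q ^ 1 ∣ _ by rwa [pow_one])
    have h2 := Nat.le_of_dvd one_pos (hPGcard ▸ dvd_pow_self q (by omega) : q ∣ 1)
    exact absurd h2 (not_le.2 hq.one_lt)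
  have htop : O ⊔ normalizer (H : Set G) = ⊤ := by
    rw [eq_top_iff, ← Sylow.normalizer_sup_eq_top P, sup_le_iff]
    refine ⟨fun g hg => (le_sup_right : _ ≤ O ⊔ normalizer (H : Set G)) ?_,
      hLOH.trans (sup_le le_sup_left (le_normalizer.trans le_sup_right))⟩
    have hPeq : (P : Subgroup L).map L.subtype = PG := by
      show (PG.subgroupOf L).map L.subtype = PG
      exact map_subgroupOf_eq_of_le (hPGle.trans inf_le_left)
    rw [hPeq] at hg
    exact Lib.FPF.mem_normalizer_of_ti hTI (hPGle hx).2 hx1 (hPGle ((mem_normalizer_iff.1 hg x).1 hx)).2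
  have hnormal : (O ⊔ H).Normal := by
    rw [← normalizer_eq_top_iff, eq_top_iff, ← htop, sup_le_iff]
    refine ⟨le_sup_left.trans le_normalizer, fun g hg => ?_⟩
    have key : ∀ g ∈ normalizer (H : Set G), ∀ v ∈ O ⊔ H, g * v * g⁻¹ ∈ O ⊔ H := by
      intro g hg v hv
      have : O ⊔ H ≤ (O ⊔ H).comap (MulAut.conj g).toMonoidHom := sup_le
        (fun o ho => (le_sup_left : O ≤ O ⊔ H) (hOn'.conj_mem o ho g))
        fun h hh => (le_sup_right : H ≤ O ⊔ H) ((mem_normalizer_iff.1 hg h).1 hh)
      exact this hv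
    rw [mem_normalizer_iff]
    refine fun v => ⟨key g hg v, fun hv => ?_⟩
    have := key g⁻¹ (inv_mem hg) _ hv
    simpa [mul_assoc] using this
  refine ⟨htop, hnormal, fun hs => ⟨inferInstance, fun K hK ⟨e⟩ => ?_⟩, ?_⟩
  · haveI := hs
    exact sl_not_solvable (Group.isSolvable_of_surjective (f := e.toMonoidHom) e.surjective)
  rintro ⟨hOs, hnoSL⟩
  haveI := hOs
  have hnot : ¬ O ≤ normalizer (H : Set G) := fun hle => hnn (normalizer_eq_top_iff.1 (by
    rwa [sup_eq_right.2 hle] at htop))
  have hfpf := fpfGroup_of_section H O hOc' hcent hnot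
  haveI hHs : Group.IsSolvable H := by
    by_contra hns
    obtain ⟨D⟩ := exists_nonsolvData hfpf hns
    obtain ⟨e⟩ := D.iso
    exact hnoSL (D.S.map H.subtype) (map_subtype_le _)
      ⟨(D.S.equivMapOfInjective H.subtype H.subtype_injective).symm.trans e⟩
  haveI := isSolvable_mulAut hfpf
  set N := normalizer (H : Set G) with hN
  -- the centralizer of `H` lies in `O ⊔ H`
  set C := centralizer (H : Set G) with hC
  have hCN : C ≤ N := centralizer_le_normalizer _
  have hHnC : H ≤ normalizer (C : Set G) := fun h hh => by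
    rw [mem_normalizer_iff]
    have key : ∀ h ∈ H, ∀ c ∈ C, h * c * h⁻¹ ∈ C := fun h hh c hc => by
      rw [mem_centralizer_iff.1 hc h hh, mul_inv_cancel_right]
      exact hc
    refine fun c => ⟨key h hh c, fun hc => ?_⟩
    have := key h⁻¹ (inv_mem hh) _ hc
    simpa [mul_assoc] using this
  have hm : (H.relIndex C).Coprime (Nat.card H) :=
    Nat.Coprime.coprime_dvd_left
      (Lib.GenStruct.relIndex_dvd_relIndex_of_le_normalizer le_normalizer hCN hHnC) hHall.symm
  have hZle : H.subgroupOf C ≤ center C := fun c hc => mem_center_iff.2 fun d =>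
    Subtype.ext (mem_centralizer_iff.1 d.2 c hc).symm
  set m := H.relIndex C
  obtain ⟨e, he⟩ : (center C).index ∣ m := index_dvd_of_le hZle
  have hpowH : ∀ c : C, ((c : G)) ^ m ∈ H := fun c => by
    have hn : (H.subgroupOf C).Normal := ⟨fun v hv g => by
      rw [(mem_center_iff.1 (hZle hv) g), mul_inv_cancel_right]; exact hv⟩
    exact mem_subgroupOf.1 ((H.subgroupOf C).pow_index_mem c)
  have hmulm : ∀ c d : C, ((c * d : C) : G) ^ m = (c : G) ^ m * (d : G) ^ m := fun c d => by
    have h1 := congrArg (fun w : center C => ((w : C) : G) ^ e) (map_mul (MonoidHom.transferCenterPow C) c d)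
    simp only [MonoidHom.transferCenterPow_apply, Subgroup.coe_mul, Subgroup.coe_pow] at h1
    rw [(show Commute ((c : G) ^ (center C).index) ((d : G) ^ (center C).index) from by
      have := mem_center_iff.1 ((center C).pow_index_mem c) (d ^ (center C).index)
      exact (congrArg Subtype.val this).symm).mul_pow, ← pow_mul, ← pow_mul, ← pow_mul, ← he] at h1
    exact h1
  let K0 : Subgroup G :=
    { carrier := {c | c ∈ C ∧ c ^ m = 1}
      one_mem' := ⟨one_mem _, one_pow _⟩
      mul_mem' := fun {a b} ha hb => ⟨mul_mem ha.1 hb.1, by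
        refine (hmulm ⟨a, ha.1⟩ ⟨b, hb.1⟩).trans ?_
        show a ^ m * b ^ m = 1
        rw [ha.2, hb.2, one_mul]⟩
      inv_mem' := fun {a} ha => ⟨inv_mem ha.1, by rw [inv_pow, ha.2, inv_one]⟩ }
  have hKn : ∀ g ∈ N, ∀ v ∈ K0, g * v * g⁻¹ ∈ K0 := fun g hg v hv => by
    refine ⟨mem_centralizer_iff.2 fun h hh => ?_, by rw [conj_pow, hv.2, mul_one, mul_inv_cancel]⟩
    have h1 : g⁻¹ * h * g ∈ H := (mem_normalizer_iff''.1 hg h).1 hh
    have h2 := mem_centralizer_iff.1 hv.1 _ h1
    calc h * (g * v * g⁻¹) = g * (g⁻¹ * h * g * v) * g⁻¹ := by group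
      _ = g * (v * (g⁻¹ * h * g)) * g⁻¹ := by rw [h2]
      _ = g * v * g⁻¹ * h := by group
  have hKO : K0 ≤ O := by
    have hn : (O ⊔ K0).Normal := by
      rw [← normalizer_eq_top_iff, eq_top_iff, ← htop, sup_le_iff]
      refine ⟨le_sup_left.trans le_normalizer, fun g hg => ?_⟩
      have key : ∀ g ∈ N, ∀ v ∈ O ⊔ K0, g * v * g⁻¹ ∈ O ⊔ K0 := by
        intro g hg v hv
        have : O ⊔ K0 ≤ (O ⊔ K0).comap (MulAut.conj g).toMonoidHom := sup_le
          (fun o ho => (le_sup_left : O ≤ O ⊔ K0) (hOn'.conj_mem o ho g))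
          fun h hh => (le_sup_right : K0 ≤ O ⊔ K0) (hKn g hg h hh)
        exact this hv
      rw [mem_normalizer_iff]
      refine fun v => ⟨key g hg v, fun hv => ?_⟩
      have := key g⁻¹ (inv_mem hg) _ hv
      simpa [mul_assoc] using this
    refine le_sup_right.trans (hOge' _ hn ?_)
    rw [sup_comm]
    refine Nat.Coprime.coprime_dvd_left
      ⟨_, (Lib.Coprime.card_sup_mul_card_inf_of_le_normalizer (hOn0 K0)).symm⟩ (Nat.Coprime.mul_left ?_ hOc')
    refine Nat.coprime_of_dvd fun r hr hrK hrH => ?_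
    haveI := Fact.mk hr
    obtain ⟨y, hy⟩ := exists_prime_orderOf_dvd_card' (G := K0) r hrK
    refine hr.ne_one (Nat.eq_one_of_dvd_coprimes hm ?_ hrH)
    rw [← hy, ← Subgroup.orderOf_coe]
    exact orderOf_dvd_of_pow_eq_one y.2.2
  have hCOH : C ≤ O ⊔ H := fun c hc => by
    refine Lib.GenStruct.mem_of_coprime_pow_mem (O ⊔ H) hm ((le_sup_right : H ≤ O ⊔ H) (hpowH ⟨c, hc⟩))
      ((le_sup_left : O ≤ O ⊔ H) (hKO ⟨pow_mem hc _, ?_⟩))
    rw [← pow_mul, mul_comm, pow_mul]
    exact congrArg Subtype.val (pow_card_eq_one' (x := (⟨c ^ m, hpowH ⟨c, hc⟩⟩ : H)))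
  -- solvability
  haveI := hnormal
  haveI : Group.IsSolvable ↥(O ⊔ H) := by
    refine Group.isSolvable_of_ker_le_range (inclusion (le_sup_left : O ≤ O ⊔ H))
      ((QuotientGroup.mk' O).subgroupMap (O ⊔ H)) ?_ (hG'' := ?_)
    · intro v hv
      have h1 : QuotientGroup.mk' O (v : G) = 1 := congrArg Subtype.val hv
      exact ⟨⟨(v : G), (QuotientGroup.eq_one_iff _).1 h1⟩, Subtype.ext rfl⟩
    · have e : (O ⊔ H).map (QuotientGroup.mk' O) = H.map (QuotientGroup.mk' O) := by
        rw [Subgroup.map_sup, (Subgroup.map_eq_bot_iff _).2 (QuotientGroup.ker_mk' O).ge, bot_sup_eq]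
      rw [e]
      exact Group.isSolvable_of_surjective ((QuotientGroup.mk' O).subgroupMap_surjective H)
  haveI : Group.IsSolvable N := by
    refine Group.isSolvable_of_ker_le_range
      (inclusion (inf_le_left : N ⊓ (O ⊔ H) ≤ N)) H.normalizerMonoidHom ?_
      (hG' := Lib.Coprime.isSolvable_of_le inf_le_right inferInstance)
    rw [Subgroup.normalizerMonoidHom_ker]
    intro v hv
    exact ⟨⟨(v : G), v.2, hCOH (mem_subgroupOf.1 hv)⟩, Subtype.ext rfl⟩
  haveI : Group.IsSolvable (G ⧸ O) := by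
    refine Group.isSolvable_of_surjective (f := (QuotientGroup.mk' O).comp N.subtype) fun x => ?_
    obtain ⟨g, rfl⟩ := QuotientGroup.mk_surjective x
    have hg : g ∈ O ⊔ N := htop ▸ mem_top g
    obtain ⟨o, ho, w, hw, rfl⟩ := Subgroup.mem_sup_of_normal_left.1 hg
    exact ⟨⟨w, hw⟩, by
      show QuotientGroup.mk' O w = QuotientGroup.mk' O (o * w)
      rw [map_mul, show QuotientGroup.mk' O o = 1 from (QuotientGroup.eq_one_iff o).2 ho, one_mul]⟩
  exact Group.isSolvable_of_ker_le_range O.subtype (QuotientGroup.mk' O)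
    (by rw [QuotientGroup.ker_mk', Subgroup.range_subtype])

end Cfsg.Agent.S4118
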