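import Cfsg.Statements.S4126
import Mathlib
import Cfsg.Agent.Lib.LocalFusion.Ito
import Cfsg.Agent.Lib.Transfer.Fusion

set_option autoImplicit false
open Cfsg
open scoped commutatorElement

namespace Cfsg.Agent.S4126

/-- Let G be a finite group and p a prime. Suppose every element of order p, and when p = 2 also every element of order 4, has a conjugacy class of p-power size. Then G has a normal p-complement. -/
theorem result {G : Type*} [Group G] [Finite G] (p : ℕ) [Fact p.Prime]
    (h : ∀ x : G, (orderOf x = p ∨ (p = 2 ∧ orderOf x = 4)) → ∃ a : ℕ, (Subgroup.centralizer ({x} : Set G)).index = p ^ a) :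
    Cfsg.HasNormalPComplement p G := by
  have hp := (Fact.out : p.Prime)
  have hsmall : ∀ (n : ℕ) (x : G), Nat.card (Subgroup.normalClosure ({x} : Set G)) = n →
      (orderOf x = p ∨ (p = 2 ∧ orderOf x = 4)) →
      ∀ g : G, (orderOf g).Coprime p → g * x * g⁻¹ = x := by
    intro n
    induction n using Nat.strong_induction_on with
    | _ n ih =>
    intro x hn hx g hg
    obtain ⟨a, ha⟩ := h x hx
    have hxp : IsPGroup p (Subgroup.zpowers x) := by
      rcases hx with h1 | ⟨h1, h2⟩
      · exact IsPGroup.of_card (n := 1) (by rw [Nat.card_zpowers, h1, pow_one])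
      · subst h1; exact IsPGroup.of_card (n := 2) (by rw [Nat.card_zpowers, h2]; norm_num)
    obtain ⟨P, hP⟩ := hxp.exists_le_sylow
    have hxP : x ∈ (P : Subgroup G) := hP (Subgroup.mem_zpowers x)
    set C := Subgroup.centralizer ({x} : Set G) with hC
    have hconj : ∀ e : G, ∃ w ∈ (P : Subgroup G), e * x * e⁻¹ = w * x * w⁻¹ := by
      intro e
      have hcop : (P : Subgroup G).index.Coprime C.index := by
        rw [ha]; exact ((hp.coprime_iff_not_dvd.2 P.not_dvd_index).symm).pow_right a
      have htot : C.relIndex (P : Subgroup G) = C.index := by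
        refine le_antisymm ?_ ?_
        · rw [← Subgroup.relIndex_top_right C]
          exact Subgroup.relIndex_le_of_le_right le_top
            (by rw [Subgroup.relIndex_top_right]; exact Subgroup.index_ne_zero_of_finite)
        · have h1 : C.relIndex (P : Subgroup G) * (P : Subgroup G).index = (C ⊓ (P : Subgroup G)).index := by
            rw [← Subgroup.inf_relIndex_right C (P : Subgroup G), Subgroup.relIndex_mul_index inf_le_right]
          have h2 : C.index ∣ (C ⊓ (P : Subgroup G)).index := Subgroup.index_dvd_of_le inf_le_left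
          rw [← h1] at h2
          exact Nat.le_of_dvd (Nat.pos_of_ne_zero fun h0 =>
            Subgroup.index_ne_zero_of_finite (H := C.subgroupOf (P : Subgroup G)) h0) (hcop.symm.dvd_of_dvd_mul_right h2)
      have hsur : Function.Surjective (fun q : (P : Subgroup G) ⧸ C.subgroupOf (P : Subgroup G) =>
          Quotient.liftOn' q (fun w => ((w : G) : G ⧸ C)) (fun u v huv => QuotientGroup.eq.2 (by
            rw [QuotientGroup.leftRel_apply] at huv
            exact huv))) := by
        refine ((Nat.bijective_iff_injective_and_card _).2 ⟨?_, htot⟩).2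
        intro u v huv
        induction u using Quotient.inductionOn with | h u => ?_
        induction v using Quotient.inductionOn with | h v => ?_
        have h5 : ((u : G) : G ⧸ C) = ((v : G) : G ⧸ C) := huv
        have h6 : (u : G)⁻¹ * (v : G) ∈ C := QuotientGroup.eq.1 h5
        exact Quotient.sound' (QuotientGroup.leftRel_apply.2 h6)
      obtain ⟨q, hq⟩ := hsur (e : G ⧸ C)
      induction q using Quotient.inductionOn with | h w => ?_
      have h3 : (w : G)⁻¹ * e ∈ C := QuotientGroup.eq.1 hq
      rw [hC, Subgroup.mem_centralizer_singleton_iff] at h3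
      refine ⟨w, w.2, ?_⟩
      calc e * x * e⁻¹ = (w : G) * (((w : G)⁻¹ * e) * x) * e⁻¹ := by group
        _ = (w : G) * (x * ((w : G)⁻¹ * e)) * e⁻¹ := by rw [h3]
        _ = _ := by group
    set Z := Subgroup.normalClosure ({x} : Set G) with hZ
    haveI hZn : Z.Normal := Subgroup.normalClosure_normal
    have hgen : ∀ y ∈ Group.conjugatesOfSet ({x} : Set G), ∃ w ∈ (P : Subgroup G), y = w * x * w⁻¹ := by
      intro y hy
      obtain ⟨x', hx', hyc⟩ := Group.mem_conjugatesOfSet_iff.1 hy
      obtain rfl : x' = x := hx'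
      obtain ⟨e, rfl⟩ := isConj_iff.1 hyc
      exact hconj e
    have hZP : Z ≤ (P : Subgroup G) := (Subgroup.closure_le _).2 fun y hy => by
      obtain ⟨w, hw, rfl⟩ := hgen y hy
      exact mul_mem (mul_mem hw hxP) (inv_mem hw)
    set Z1 := ⁅Z, (P : Subgroup G)⁆ with hZ1
    have hZ1le : Z1 ≤ Z := Subgroup.commutator_le_left _ _
    have hZ1lt : Z1 < Z := by
      refine lt_of_le_not_ge hZ1le fun hle => ?_
      obtain ⟨N, hN⟩ := (Subgroup.isNilpotent_iff_lowerCentralSeries (P : Subgroup G)).1 P.isPGroup'.isNilpotent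
      have hall : ∀ i, Z ≤ (P : Subgroup G).lowerCentralSeries i := by
        intro i
        induction i with
        | zero => exact hZP
        | succ i ih => exact hle.trans (Subgroup.commutator_mono ih le_rfl)
      have hbot := hall N
      rw [hN, le_bot_iff] at hbot
      have hx1 : x ∈ Z := Subgroup.subset_normalClosure rfl
      rw [hbot, Subgroup.mem_bot] at hx1
      rcases hx with h1 | ⟨h1, h2⟩
      · rw [hx1, orderOf_one] at h1; exact hp.ne_one h1.symm
      · rw [hx1, orderOf_one] at h2; omega
    have hself : Z ≤ Subgroup.normalizer (Z1 : Set G) := by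
      rw [Subgroup.le_normalizer_iff_commutator_le_left, hZ1]
      exact Subgroup.commutator_mono hZ1le hZP
    have hcomm : ∀ z ∈ Z, ∀ e : G, ⁅z, e⁆ ∈ Z1 := by
      intro z hz
      rw [hZ, Subgroup.normalClosure] at hz
      induction hz using Subgroup.closure_induction with
      | mem y hy =>
        intro e
        obtain ⟨v, hv, hyv⟩ := hgen y hy
        obtain ⟨w, hw, hew⟩ := hconj (e * v)
        have hyZ : y ∈ Z := Subgroup.subset_closure hy
        have heq : ⁅y, e⁆ = ⁅y, w * v⁻¹⁆ := by
          have h1 : e * y * e⁻¹ = (w * v⁻¹) * y * (w * v⁻¹)⁻¹ := by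
            rw [hyv, show e * (v * x * v⁻¹) * e⁻¹ = e * v * x * (e * v)⁻¹ by group, hew]; group
          have h2 : ∀ u : G, ⁅y, u⁆ = y * (u * y * u⁻¹)⁻¹ := fun u => by rw [commutatorElement_def]; group
          rw [h2, h2, h1]
        rw [heq]
        exact Subgroup.commutator_mem_commutator hyZ (mul_mem hw (inv_mem hv))
      | one => intro e; simp
      | mul u v hu hv ihu ihv =>
        intro e
        have e1 : ⁅u * v, e⁆ = u * ⁅v, e⁆ * u⁻¹ * ⁅u, e⁆ := by rw [commutatorElement_def, commutatorElement_def, commutatorElement_def]; group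
        rw [e1]
        exact mul_mem ((Subgroup.mem_normalizer_iff.1 (hself hu) _).1 (ihv e)) (ihu e)
      | inv u hu ihu =>
        intro e
        have e1 : ⁅u⁻¹, e⁆ = u⁻¹ * ⁅u, e⁆⁻¹ * u⁻¹⁻¹ := by rw [commutatorElement_def, commutatorElement_def]; group
        rw [e1]
        exact (Subgroup.mem_normalizer_iff.1 (hself (Subgroup.inv_mem _ hu)) _).1 (inv_mem (ihu e))
    haveI hZ1n : Z1.Normal := by
      refine ⟨fun z hz e => ?_⟩
      have h1 := hcomm z (hZ1le hz) e
      rw [show e * z * e⁻¹ = (⁅z, e⁆)⁻¹ * z by rw [commutatorElement_def]; group]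
      exact mul_mem (inv_mem h1) hz
    have hfix1 : ∀ z ∈ Z1, g * z * g⁻¹ = z := by
      refine Cfsg.Agent.Lib.LocalFusion.centralizes_of_fix_small hg Z1
        (P.isPGroup'.to_le (hZ1le.trans hZP)) ?_ ?_
      · rw [Subgroup.normalizer_eq_top (H := Z1)]; exact Subgroup.mem_top g
      intro y hy hyo
      by_cases hy1 : y = 1
      · subst hy1; simp
      have hyord : orderOf y = p ∨ (p = 2 ∧ orderOf y = 4) := by
        rcases hyo with h1 | ⟨h1, h2⟩
        · exact Or.inl (orderOf_eq_prime h1 hy1)
        · subst h1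
          have h3 := orderOf_dvd_of_pow_eq_one h2
          obtain ⟨i, hi, hio⟩ := (Nat.dvd_prime_pow Nat.prime_two).1 (show orderOf y ∣ 2 ^ 2 from h3)
          interval_cases i
          · exact absurd (orderOf_eq_one_iff.1 (by simpa using hio)) hy1
          · exact Or.inl (by simpa using hio)
          · exact Or.inr ⟨rfl, by simpa using hio⟩
      refine ih _ ?_ y rfl hyord g hg
      have hle : Subgroup.normalClosure ({y} : Set G) ≤ Z1 :=
        Subgroup.normalClosure_le_normal (Set.singleton_subset_iff.2 hy)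
      rw [← hn]
      exact lt_of_le_of_lt (Subgroup.card_le_of_le hle)
        (Set.ncard_lt_ncard (SetLike.coe_ssubset_coe.2 hZ1lt) (Set.toFinite _))
    set c := x⁻¹ * (g * x * g⁻¹) with hc
    have hcZ : c ∈ Z1 := by
      have h1 := hcomm x⁻¹ (inv_mem (Subgroup.subset_normalClosure rfl)) g
      rw [commutatorElement_def, inv_inv] at h1
      simpa [hc, mul_assoc] using h1
    have hj : ∀ j : ℕ, g ^ j * x * (g ^ j)⁻¹ = x * c ^ j := by
      intro j
      induction j with
      | zero => simp
      | succ j ihj =>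
        calc g ^ (j + 1) * x * (g ^ (j + 1))⁻¹ = g * (g ^ j * x * (g ^ j)⁻¹) * g⁻¹ := by rw [pow_succ']; group
          _ = (g * x * g⁻¹) * (g * c ^ j * g⁻¹) := by rw [ihj]; group
          _ = (x * c) * c ^ j := by rw [hfix1 _ (pow_mem hcZ j), hc, mul_inv_cancel_left]
          _ = _ := by rw [pow_succ', mul_assoc]
    have h1 := hj (orderOf g)
    rw [pow_orderOf_eq_one, one_mul, inv_one, mul_one, left_eq_mul] at h1
    obtain ⟨k, hk⟩ := IsPGroup.iff_orderOf.1 P.isPGroup' ⟨c, hZP (hZ1le hcZ)⟩
    rw [Subgroup.orderOf_mk] at hk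
    have hc1 : c = 1 := orderOf_eq_one_iff.1
      (Nat.eq_one_of_dvd_coprimes (hg.pow_right k) (orderOf_dvd_of_pow_eq_one h1) hk.dvd)
    rw [hc, inv_mul_eq_one] at hc1
    exact hc1.symm
  refine Cfsg.Agent.Lib.Transfer.frobenius_criterion fun Q hQ g hgN hgo => ?_
  rw [Subgroup.mem_centralizer_iff]
  intro q hq
  refine (mul_inv_eq_iff_eq_mul.1 (Cfsg.Agent.Lib.LocalFusion.centralizes_of_fix_small hgo Q hQ hgN ?_ q hq)).symm
  intro y _ hyo
  by_cases hy1 : y = 1
  · subst hy1; simp
  refine hsmall _ y rfl ?_ g hgo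
  rcases hyo with h1 | ⟨h1, h2⟩
  · exact Or.inl (orderOf_eq_prime h1 hy1)
  · subst h1
    have h3 := orderOf_dvd_of_pow_eq_one h2
    obtain ⟨i, hi, hio⟩ := (Nat.dvd_prime_pow Nat.prime_two).1 (show orderOf y ∣ 2 ^ 2 from h3)
    interval_cases i
    · exact absurd (orderOf_eq_one_iff.1 (by simpa using hio)) hy1
    · exact Or.inl (by simpa using hio)
    · exact Or.inr ⟨rfl, by simpa using hio⟩

end Cfsg.Agent.S4126
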