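import Cfsg.Statements.S4130
import Cfsg.Agent.Lib.ClassSize.SquareFreeFusion
import Cfsg.Agent.Lib.Hall.Solvable
import Cfsg.Agent.Lib.Hall.Supersolvable
import Cfsg.Agent.Lib.Coprime.Basic
import Cfsg.Agent.Lib.Transfer.Fusion

set_option autoImplicit false
open Cfsg

namespace Cfsg.Agent.S4130

open Subgroup
open scoped commutatorElement
open Cfsg.Agent.Lib.ClassSize

universe v

/-- Class sizes are square-free. -/
def SqClass (G : Type*) [Group G] : Prop :=
  ∀ x : G, Squarefree (centralizer ({x} : Set G)).index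

theorem relIndex_dvd_index_left {G : Type*} [Group G] [Finite G] (H N : Subgroup G) [N.Normal] :
    H.relIndex N ∣ H.index := by
  have h1 := Lib.Coprime.card_sup_mul_card_inf N H
  have h2 : Nat.card (H.subgroupOf N) * H.relIndex N = Nat.card N := card_mul_index _
  rw [Lib.Coprime.card_subgroupOf_inf] at h2
  have h3 := card_mul_index (H ⊔ N)
  have h4 := card_mul_index H
  have hH : 0 < Nat.card H := Nat.card_pos
  have hI : 0 < Nat.card (H ⊓ N : Subgroup G) := Nat.card_pos
  refine ⟨(H ⊔ N).index, Nat.eq_of_mul_eq_mul_left hH (Nat.eq_of_mul_eq_mul_left hI ?_)⟩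
  calc Nat.card (H ⊓ N : Subgroup G) * (Nat.card H * H.index)
      = Nat.card (H ⊓ N : Subgroup G) * (Nat.card (H ⊔ N : Subgroup G) * (H ⊔ N).index) := by
        rw [h4, h3]
    _ = (Nat.card (H ⊔ N : Subgroup G) * Nat.card (H ⊓ N : Subgroup G)) * (H ⊔ N).index := by ring
    _ = Nat.card N * Nat.card H * (H ⊔ N).index := by rw [h1]; ring
    _ = _ := by rw [← h2]; ring

theorem SqClass.normal {G : Type*} [Group G] [Finite G] (h : SqClass G) (N : Subgroup G)
    [N.Normal] : SqClass N := by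
  intro x
  refine Squarefree.squarefree_of_dvd ?_ (h (x : G))
  have : centralizer ({x} : Set N) = (centralizer ({(x : G)} : Set G)).subgroupOf N := by
    ext y
    rw [mem_subgroupOf, mem_centralizer_singleton_iff, mem_centralizer_singleton_iff, Subtype.ext_iff]
    rfl
  rw [this]
  exact relIndex_dvd_index_left _ N

theorem SqClass.quotient {G : Type*} [Group G] [Finite G] (h : SqClass G) (N : Subgroup G)
    [N.Normal] : SqClass (G ⧸ N) := by
  intro x
  obtain ⟨g, rfl⟩ := QuotientGroup.mk_surjective x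
  refine Squarefree.squarefree_of_dvd ?_ (h g)
  refine (index_dvd_of_le (H := (centralizer ({g} : Set G)).map (QuotientGroup.mk' N)) ?_).trans
    (index_map_dvd _ (QuotientGroup.mk'_surjective N))
  rintro _ ⟨y, hy, rfl⟩
  rw [mem_centralizer_singleton_iff, QuotientGroup.mk'_apply, ← QuotientGroup.mk_mul,
    ← QuotientGroup.mk_mul, mem_centralizer_singleton_iff.1 hy]

theorem isSolvable_aux (n : ℕ) : ∀ (G : Type v) [Group G] [Finite G], Nat.card G = n → SqClass G →
    Group.IsSolvable G := by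
  induction n using Nat.strong_induction_on with
  | _ n ih =>
  intro G _ _ hn h
  rcases subsingleton_or_nontrivial G with hs | hs
  · infer_instance
  set p := (Nat.card G).minFac with hpdef
  have hp : p.Prime := Nat.minFac_prime Finite.one_lt_card.ne'
  have : Fact p.Prime := ⟨hp⟩
  obtain ⟨T⟩ : Nonempty (Sylow p G) := inferInstance
  have hG : ∀ g : G, Nat.card (T : Subgroup G) ∣ p * Nat.card (centralizer ({g} : Set G)) := by
    intro g
    obtain ⟨a, ha⟩ := IsPGroup.iff_card.1 T.2
    have hd : p ^ a ∣ (centralizer ({g} : Set G)).index * Nat.card (centralizer ({g} : Set G)) := by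
      rw [index_mul_card, ← ha]
      exact card_subgroup_dvd_card _
    obtain ⟨x, y, hx, hy, hxy⟩ := exists_dvd_and_dvd_of_dvd_mul hd
    rw [ha, hxy]
    refine mul_dvd_mul ?_ hy
    obtain ⟨i, -, rfl⟩ := (Nat.dvd_prime_pow hp).1 (show x ∣ p ^ a from ⟨y, hxy⟩)
    rcases Nat.lt_or_ge i 2 with hi | hi
    · calc p ^ i ∣ p ^ 1 := pow_dvd_pow p (by omega)
        _ = p := pow_one p
    · exfalso
      have hpp : p * p ∣ (centralizer ({g} : Set G)).index := by
        rw [← sq]; exact (pow_dvd_pow p hi).trans hx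
      exact hp.ne_one (Nat.isUnit_iff.1 (h g p hpp))
  have hcf := SquareFreeFusion.controlsFusion T hG
    (fun r hr hrd => Nat.minFac_le_of_dvd hr.two_le hrd)
  have hne : commutator G ≠ ⊤ := by
    intro htop
    have heq := Lib.Transfer.commutator_inf_eq_of_controlsFusion T le_rfl hcf
    rw [htop, top_inf_eq] at heq
    have hTne : (T : Subgroup G) ≠ ⊥ := T.ne_bot_of_dvd_card (Nat.minFac_dvd _)
    have : Group.IsNilpotent (T : Subgroup G) := T.2.isNilpotent
    exact (Lib.Hall.commutator_lt_of_solvable hTne).ne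
      (le_antisymm (Lib.Hall.commutator_lt_of_solvable hTne).le (heq.le.trans inf_le_left))
  have hlt : Nat.card (commutator G) < n := hn ▸ Lib.Coprime.card_lt_of_ne_top hne
  have := ih _ hlt (commutator G) rfl (h.normal _)
  exact (Group.isSolvable_iff_subgroup_quotient (commutator G)).mpr
    ⟨this, Group.isSolvable_of_comm (G := Abelianization G) mul_comm⟩

section Line

variable {G : Type*} [Group G] [Finite G] (N : Subgroup G) [hNn : N.Normal] [hNc : IsMulCommutative N]

/-- `n ↦ a n a⁻¹ n⁻¹` on an abelian normal subgroup. -/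
def phi (a : G) : N →* G where
  toFun n := a * (n : G) * a⁻¹ * (n : G)⁻¹
  map_one' := by simp
  map_mul' n k := by
    have hc : ∀ x ∈ N, ∀ y ∈ N, x * y = y * x := fun x hx y hy =>
      congrArg Subtype.val (hNc.is_comm.comm (⟨x, hx⟩ : N) ⟨y, hy⟩)
    have h1 : (a * (k : G) * a⁻¹ * (k : G)⁻¹) * (n : G)⁻¹ = (n : G)⁻¹ * (a * (k : G) * a⁻¹ * (k : G)⁻¹) :=
      hc _ (mul_mem (hNn.conj_mem _ k.2 a) (inv_mem k.2)) _ (inv_mem n.2)
    push_cast
    calc a * ((n : G) * k) * a⁻¹ * ((n : G) * k)⁻¹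
        = a * n * a⁻¹ * ((a * k * a⁻¹ * (k : G)⁻¹) * (n : G)⁻¹) := by group
      _ = _ := by rw [h1]; group

theorem phi_apply (a : G) (n : N) : phi N a n = a * (n : G) * a⁻¹ * (n : G)⁻¹ := rfl

theorem phi_mem (a : G) (n : N) : phi N a n ∈ N :=
  mul_mem (hNn.conj_mem _ n.2 a) (inv_mem n.2)

theorem range_le (a : G) : (phi N a).range ≤ N := by
  rintro _ ⟨n, rfl⟩
  exact phi_mem N a n

theorem comm_N {x y : G} (hx : x ∈ N) (hy : y ∈ N) : x * y = y * x :=
  congrArg Subtype.val (hNc.is_comm.comm (⟨x, hx⟩ : N) ⟨y, hy⟩)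

theorem card_range_dvd (h : SqClass G) {r : ℕ} [hr : Fact r.Prime] (hN : IsPGroup r N) (a : G) :
    Nat.card (phi N a).range ∣ r := by
  have hker : (phi N a).ker = (centralizer ({a} : Set G)).subgroupOf N := by
    ext n
    rw [MonoidHom.mem_ker, mem_subgroupOf, mem_centralizer_singleton_iff, phi_apply,
      mul_inv_eq_one, mul_inv_eq_iff_eq_mul]
    exact eq_comm
  have hd : Nat.card (phi N a).range ∣ (centralizer ({a} : Set G)).index := by
    rw [← index_ker, hker]
    exact relIndex_dvd_index_left _ N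
  obtain ⟨i, hi⟩ := IsPGroup.iff_card.1 (hN.to_le (range_le N a))
  rw [hi] at hd ⊢
  rcases Nat.lt_or_ge i 2 with h2 | h2
  · calc r ^ i ∣ r ^ 1 := pow_dvd_pow r (by omega)
      _ = r := pow_one r
  · exfalso
    have hpp : r * r ∣ (centralizer ({a} : Set G)).index := by
      rw [← sq]; exact (pow_dvd_pow r h2).trans hd
    exact hr.out.ne_one (Nat.isUnit_iff.1 (h a r hpp))

theorem fixed_range_eq_one {r : ℕ} [hr : Fact r.Prime] (hN : IsPGroup r N) {a : G} {s : ℕ}
    (hs : ¬ r ∣ s) (has : a ^ s ∈ centralizer (N : Set G)) {x : G} (hx : x ∈ (phi N a).range)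
    (hfix : a * x * a⁻¹ = x) : x = 1 := by
  obtain ⟨n, rfl⟩ := hx
  set b := phi N a n with hb
  have h1 : a * (n : G) * a⁻¹ = b * n := by rw [hb, phi_apply, inv_mul_cancel_right]
  have hj : ∀ j : ℕ, a ^ j * (n : G) * (a ^ j)⁻¹ = b ^ j * n := by
    intro j
    induction j with
    | zero => simp
    | succ j ih =>
      calc a ^ (j + 1) * (n : G) * (a ^ (j + 1))⁻¹ = a * (a ^ j * n * (a ^ j)⁻¹) * a⁻¹ := by
            rw [pow_succ']; group
        _ = (a * b ^ j * a⁻¹) * (a * n * a⁻¹) := by rw [ih]; group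
        _ = b ^ j * (b * n) := by rw [← conj_pow, hfix, h1]
        _ = b ^ (j + 1) * n := by rw [pow_succ]; group
  have h2 := hj s
  rw [mem_centralizer_iff] at has
  rw [← has n n.2, mul_inv_cancel_right, right_eq_mul, ← orderOf_dvd_iff_pow_eq_one] at h2
  obtain ⟨i, hi⟩ := IsPGroup.iff_card.1 hN
  have h3 : orderOf b ∣ r ^ i := by
    have := orderOf_dvd_natCard (⟨b, phi_mem N a n⟩ : N)
    rw [hi, Subgroup.orderOf_mk] at this
    exact this
  exact orderOf_eq_one_iff.1 (Nat.eq_one_of_dvd_coprimes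
    (Nat.Coprime.pow_left i (hr.out.coprime_iff_not_dvd.2 hs)) h3 h2)

/-- All nontrivial lines coincide. -/
theorem same_line (h : SqClass G) {r : ℕ} [hr : Fact r.Prime] (hN : IsPGroup r N) {a b : G} {s : ℕ}
    (hs : ¬ r ∣ s) (has : a ^ s ∈ centralizer (N : Set G))
    (hab : ⁅a, b⁆ ∈ centralizer (N : Set G)) (hne : (phi N a).range ≠ ⊥) :
    (phi N b).range ≤ (phi N a).range := by
  by_contra hnle
  set L := (phi N a).range with hL
  set M := (phi N b).range with hM
  have hcomm : ∀ n ∈ N, a * (b * n * b⁻¹) * a⁻¹ = b * (a * n * a⁻¹) * b⁻¹ := by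
    intro n hn
    rw [mem_centralizer_iff] at hab
    have h1 := hab _ (hNn.conj_mem _ (hNn.conj_mem n hn a) b)
    rw [commutatorElement_def] at h1
    calc a * (b * n * b⁻¹) * a⁻¹
        = (a * b * a⁻¹ * b⁻¹) * (b * (a * n * a⁻¹) * b⁻¹) * (a * b * a⁻¹ * b⁻¹)⁻¹ := by group
      _ = _ := by rw [← h1, mul_inv_cancel_right]
  have hLc : Nat.card L = r := by
    rcases (Nat.dvd_prime hr.out).1 (card_range_dvd N h hN a) with h1 | h1
    · exact absurd (Subgroup.eq_bot_of_card_eq _ h1) hne
    · exact h1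
  have hMc : Nat.card M = r := by
    rcases (Nat.dvd_prime hr.out).1 (card_range_dvd N h hN b) with h1 | h1
    · exact absurd (le_of_eq_of_le (Subgroup.eq_bot_of_card_eq _ h1) bot_le) hnle
    · exact h1
  have hinf : L ⊓ M = ⊥ := by
    have hd : Nat.card (L ⊓ M : Subgroup G) ∣ r := hMc ▸ card_dvd_of_le inf_le_right
    rcases (Nat.dvd_prime hr.out).1 hd with h1 | h1
    · exact Subgroup.eq_bot_of_card_eq _ h1
    · refine absurd ?_ hnle
      rw [← eq_of_le_of_card_ge (inf_le_right : L ⊓ M ≤ M) (le_of_eq (hMc.trans h1.symm))]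
      exact inf_le_left
  have hMfix : ∀ x ∈ M, a * x * a⁻¹ = x := by
    intro x hx
    obtain ⟨n, rfl⟩ := hx
    have h1 : a * (phi N b n) * a⁻¹ * (phi N b n)⁻¹ ∈ L ⊓ M := by
      refine ⟨⟨⟨_, phi_mem N b n⟩, rfl⟩, ⟨⟨_, phi_mem N a n⟩, ?_⟩⟩
      show b * (a * n * a⁻¹ * (n : G)⁻¹) * b⁻¹ * (a * n * a⁻¹ * (n : G)⁻¹)⁻¹ =
        a * (b * n * b⁻¹ * (n : G)⁻¹) * a⁻¹ * (b * n * b⁻¹ * (n : G)⁻¹)⁻¹
      have hA : a * (n : G) * a⁻¹ ∈ N := hNn.conj_mem _ n.2 a
      have hB : b * (n : G) * b⁻¹ ∈ N := hNn.conj_mem _ n.2 b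
      have hBA : b * (a * (n : G) * a⁻¹) * b⁻¹ ∈ N := hNn.conj_mem _ hA b
      calc b * (a * n * a⁻¹ * (n : G)⁻¹) * b⁻¹ * (a * n * a⁻¹ * (n : G)⁻¹)⁻¹
          = b * (a * n * a⁻¹) * b⁻¹ * ((b * n * b⁻¹)⁻¹ * n) * (a * n * a⁻¹)⁻¹ := by group
        _ = b * (a * n * a⁻¹) * b⁻¹ * ((a * n * a⁻¹)⁻¹ * ((b * n * b⁻¹)⁻¹ * n)) := by
          rw [mul_assoc, comm_N N (mul_mem (inv_mem hB) n.2) (inv_mem hA)]
        _ = b * (a * n * a⁻¹) * b⁻¹ * ((a * n * a⁻¹)⁻¹ * (n * (b * n * b⁻¹)⁻¹)) := by
          rw [comm_N N n.2 (inv_mem hB)]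
        _ = _ := by rw [← hcomm n n.2]; group
    rw [hinf, mem_bot, mul_inv_eq_one] at h1
    exact h1
  have hLfix : ∀ x ∈ L, b * x * b⁻¹ = x := by
    intro x hx
    obtain ⟨n, rfl⟩ := hx
    have h1 : b * (phi N a n) * b⁻¹ * (phi N a n)⁻¹ ∈ L ⊓ M := by
      refine ⟨⟨⟨_, phi_mem N b n⟩, ?_⟩, ⟨⟨_, phi_mem N a n⟩, rfl⟩⟩
      show a * (b * n * b⁻¹ * (n : G)⁻¹) * a⁻¹ * (b * n * b⁻¹ * (n : G)⁻¹)⁻¹ =
        b * (a * n * a⁻¹ * (n : G)⁻¹) * b⁻¹ * (a * n * a⁻¹ * (n : G)⁻¹)⁻¹
      have hA : a * (n : G) * a⁻¹ ∈ N := hNn.conj_mem _ n.2 a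
      have hB : b * (n : G) * b⁻¹ ∈ N := hNn.conj_mem _ n.2 b
      calc a * (b * n * b⁻¹ * (n : G)⁻¹) * a⁻¹ * (b * n * b⁻¹ * (n : G)⁻¹)⁻¹
          = a * (b * n * b⁻¹) * a⁻¹ * ((a * n * a⁻¹)⁻¹ * n) * (b * n * b⁻¹)⁻¹ := by group
        _ = a * (b * n * b⁻¹) * a⁻¹ * ((b * n * b⁻¹)⁻¹ * ((a * n * a⁻¹)⁻¹ * n)) := by
          rw [mul_assoc, comm_N N (mul_mem (inv_mem hA) n.2) (inv_mem hB)]
        _ = a * (b * n * b⁻¹) * a⁻¹ * ((b * n * b⁻¹)⁻¹ * (n * (a * n * a⁻¹)⁻¹)) := by
          rw [comm_N N n.2 (inv_mem hA)]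
        _ = _ := by rw [hcomm n n.2]; group
    rw [hinf, mem_bot, mul_inv_eq_one] at h1
    exact h1
  have hLle : L ≤ (phi N (a * b)).range := by
    let f : L → L := fun l => ⟨a * (l : G) * a⁻¹ * (l : G)⁻¹, ⟨⟨l, range_le N a l.2⟩, rfl⟩⟩
    have hf : Function.Injective f := by
      intro x y hxy
      have hxy' : a * (x : G) * a⁻¹ * (x : G)⁻¹ = a * (y : G) * a⁻¹ * (y : G)⁻¹ :=
        congrArg Subtype.val hxy
      have hx := range_le N a x.2
      have hy := range_le N a y.2
      have hz : a * ((y : G)⁻¹ * x) * a⁻¹ = (y : G)⁻¹ * x := by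
        calc a * ((y : G)⁻¹ * x) * a⁻¹ = (a * y * a⁻¹)⁻¹ * ((a * x * a⁻¹ * (x : G)⁻¹) * x) := by group
          _ = (a * y * a⁻¹)⁻¹ * ((a * y * a⁻¹ * (y : G)⁻¹) * x) := by rw [hxy']
          _ = _ := by group
      have := fixed_range_eq_one N hN hs has (mul_mem (inv_mem y.2) x.2) hz
      exact Subtype.ext (inv_mul_eq_one.1 this).symm
    intro l hl
    obtain ⟨x, hx⟩ := (Finite.injective_iff_surjective.1 hf) ⟨l, hl⟩
    refine ⟨⟨x, range_le N a x.2⟩, ?_⟩
    show a * b * (x : G) * (a * b)⁻¹ * (x : G)⁻¹ = l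
    calc a * b * (x : G) * (a * b)⁻¹ * (x : G)⁻¹ = a * (b * x * b⁻¹) * a⁻¹ * (x : G)⁻¹ := by group
      _ = a * x * a⁻¹ * (x : G)⁻¹ := by rw [hLfix _ x.2]
      _ = l := congrArg Subtype.val hx
  have hMle : M ≤ (phi N (a * b)).range := by
    rintro _ ⟨n, rfl⟩
    have h1 : phi N (a * b) n = phi N b n * phi N a n := by
      have := hMfix _ ⟨n, rfl⟩
      calc phi N (a * b) n
          = (a * (phi N b n) * a⁻¹) * (a * n * a⁻¹ * (n : G)⁻¹) := by
            simp only [phi_apply]; group
        _ = phi N b n * phi N a n := by rw [this, phi_apply N a]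
    have h2 : phi N b n = phi N (a * b) n * (phi N a n)⁻¹ := by rw [h1, mul_inv_cancel_right]
    rw [h2]
    exact mul_mem ⟨n, rfl⟩ (inv_mem (hLle ⟨n, rfl⟩))
  have hd := card_range_dvd N h hN (a * b)
  have hLM : Nat.card (phi N (a * b)).range = r :=
    (Nat.dvd_prime hr.out).1 hd |>.resolve_left fun h1 => by
      have := card_dvd_of_le hLle
      rw [h1, hLc] at this
      exact hr.out.ne_one (Nat.dvd_one.1 this)
  have e1 := eq_of_le_of_card_ge hLle (le_of_eq (hLM.trans hLc.symm))
  exact hnle (e1 ▸ hMle)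

end Line

theorem supersolvable_aux (n : ℕ) : ∀ (G : Type v) [Group G] [Finite G], Nat.card G = n →
    SqClass G → IsSupersolvable G := by
  induction n using Nat.strong_induction_on with
  | _ n ih =>
  intro G _ _ hn h
  rcases subsingleton_or_nontrivial G with hs | hs
  · exact Lib.Hall.ss_of_subsingleton
  have := isSolvable_aux _ G rfl h
  obtain ⟨N, hNn, hNne, -, hmin⟩ := Lib.Hall.exists_minimal_normal_le (N := (⊤ : Subgroup G)) top_ne_bot
  obtain ⟨hNc, r, hr, hpow⟩ := Lib.Hall.minimal_normal_solvable N hNne hmin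
  have := hNc
  have : Fact r.Prime := ⟨hr⟩
  have hNp : IsPGroup r N := Lib.Hall.isPGroup_of_pow_eq_one hpow
  have hss := ih _ (hn ▸ Lib.Coprime.card_quotient_lt hNne) (G ⧸ N) rfl (h.quotient N)
  suffices hcard : Nat.card N = r by exact Lib.Hall.ss_of_prime_normal hr hcard hss
  have horder : ∀ x ∈ N, x ≠ 1 → Nat.card (zpowers x) = r := fun x hx hx1 => by
    rw [Nat.card_zpowers, orderOf_eq_prime (hpow x hx) hx1]
  set C := centralizer (N : Set G)
  by_cases hC : C = ⊤
  · obtain ⟨⟨x, hx⟩, hx1⟩ := Subgroup.ne_bot_iff_exists_ne_one.1 hNne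
    have hZ : (zpowers x).Normal := ⟨fun y hy g => by
      have hg : g ∈ C := hC ▸ mem_top g
      rw [mem_centralizer_iff] at hg
      rw [← hg y (zpowers_le.2 hx hy), mul_inv_cancel_right]
      exact hy⟩
    have hxne : x ≠ 1 := fun e => hx1 (Subtype.ext e)
    rcases hmin _ hZ (zpowers_le.2 hx) with h1 | h1
    · exact absurd (zpowers_eq_bot.1 h1) hxne
    · rw [← h1]; exact horder x hx hxne
  have hCn : C.Normal := inferInstance
  have : Nontrivial (G ⧸ C) := QuotientGroup.nontrivial_iff.2 hC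
  have : Group.IsSolvable (G ⧸ C) := inferInstance
  obtain ⟨Kb, hKn, hKne, -, hKmin⟩ :=
    Lib.Hall.exists_minimal_normal_le (N := (⊤ : Subgroup (G ⧸ C))) top_ne_bot
  obtain ⟨hKc, s, hs', hKpow⟩ := Lib.Hall.minimal_normal_solvable Kb hKne hKmin
  set K := Kb.comap (QuotientGroup.mk' C) with hK
  have hKpowC : ∀ a ∈ K, a ^ s ∈ C := fun a ha =>
    (QuotientGroup.eq_one_iff _).1 (by rw [QuotientGroup.mk_pow]; exact hKpow _ ha)
  have hKcomm : ∀ a ∈ K, ∀ b ∈ K, ⁅a, b⁆ ∈ C := fun a ha b hb => by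
    refine (QuotientGroup.eq_one_iff _).1 ?_
    show QuotientGroup.mk' C ⁅a, b⁆ = 1
    rw [map_commutatorElement, commutatorElement_eq_one_iff_mul_comm]
    exact congrArg Subtype.val (hKc.is_comm.comm (⟨_, ha⟩ : Kb) ⟨_, hb⟩)
  have hKnle : ¬ K ≤ C := fun hle => hKne (by
    rw [eq_bot_iff]
    intro x hx
    obtain ⟨g, rfl⟩ := QuotientGroup.mk_surjective x
    exact mem_bot.2 ((QuotientGroup.eq_one_iff g).2 (hle hx)))
  have hrange : ∀ a : G, a ∉ C → (phi N a).range ≠ ⊥ := by
    intro a ha hbot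
    apply ha
    rw [mem_centralizer_iff]
    intro n hn'
    have h1 : phi N a ⟨n, hn'⟩ ∈ (phi N a).range := ⟨_, rfl⟩
    rw [hbot, mem_bot, phi_apply, mul_inv_eq_one, mul_inv_eq_iff_eq_mul] at h1
    exact h1.symm
  have hsr : s ≠ r := by
    rintro rfl
    apply hKnle
    obtain ⟨T⟩ : Nonempty (Sylow s K) := inferInstance
    set T' := (T : Subgroup K).map K.subtype
    have hT'p : IsPGroup s T' := T.2.map _
    letI act : MulAction T' N :=
      { smul := fun t n => ⟨(t : G) * n * (t : G)⁻¹, hNn.conj_mem _ n.2 _⟩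
        one_smul := fun n => Subtype.ext (by show (1 : G) * _ * (1 : G)⁻¹ = _; group)
        mul_smul := fun x y n => Subtype.ext (by
          show ((x * y : T') : G) * _ * ((x * y : T') : G)⁻¹ = (x : G) * ((y : G) * _ * (y : G)⁻¹) * (x : G)⁻¹
          push_cast
          group) }
    have hfix := hT'p.card_modEq_card_fixedPoints N
    obtain ⟨i, hi⟩ := IsPGroup.iff_card.1 hNp
    have hi0 : i ≠ 0 := fun h0 => hNne (Subgroup.eq_bot_of_card_eq _ (by rw [hi, h0, pow_zero]))
    have h0 : Nat.card N ≡ 0 [MOD s] := Nat.modEq_zero_iff_dvd.2 (hi ▸ dvd_pow_self s hi0)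
    have hne1 : Nat.card (MulAction.fixedPoints T' N) ≠ 1 := fun h1 => by
      rw [h1] at hfix
      exact hr.ne_one (Nat.dvd_one.1 (Nat.modEq_zero_iff_dvd.1 (hfix.symm.trans h0)))
    have hone : (1 : N) ∈ MulAction.fixedPoints T' N := fun t =>
      Subtype.ext (by show (t : G) * 1 * (t : G)⁻¹ = 1; group)
    have : Nontrivial (MulAction.fixedPoints T' N) := by
      rw [← Finite.one_lt_card_iff_nontrivial]
      have : Nonempty (MulAction.fixedPoints T' N) := ⟨⟨1, hone⟩⟩
      have : 0 < Nat.card (MulAction.fixedPoints T' N) := Nat.card_pos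
      omega
    obtain ⟨⟨y, hy⟩, hy1⟩ := exists_ne (⟨1, hone⟩ : MulAction.fixedPoints T' N)
    have hKC : ∀ k ∈ K, (y : G) * k = k * y := by
      intro k hk
      set k' : K := ⟨k, hk⟩
      have hsup : (C.subgroupOf K) ⊔ (T : Subgroup K) = ⊤ := by
        refine Lib.Transfer.sup_sylow_eq_top_of_isPGroup_quotient T ?_
        refine fun x => ⟨1, ?_⟩
        obtain ⟨x, rfl⟩ := QuotientGroup.mk_surjective x
        rw [pow_one, ← QuotientGroup.mk_pow, QuotientGroup.eq_one_iff, mem_subgroupOf]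
        exact hKpowC _ x.2
      obtain ⟨c, hc, t, ht, hct⟩ := mem_sup_of_normal_left.1 (hsup ▸ mem_top k')
      have e : k = (c : G) * (t : G) := (congrArg Subtype.val hct).symm
      have ht' : (t : G) * (y : G) * (t : G)⁻¹ = y :=
        congrArg Subtype.val (hy ⟨(t : G), ⟨t, ht, rfl⟩⟩)
      have hc' : (c : G) ∈ C := hc
      rw [mem_centralizer_iff] at hc'
      rw [e, ← mul_assoc, hc' y y.2, mul_assoc, mul_assoc, ← mul_inv_eq_iff_eq_mul.1 ht']
    have hfixN : N ⊓ centralizer (K : Set G) = N := by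
      refine (hmin _ inferInstance inf_le_left).resolve_left fun hb => hy1 ?_
      have : (y : G) ∈ N ⊓ centralizer (K : Set G) :=
        ⟨y.2, mem_centralizer_iff.2 fun k hk => (hKC k hk).symm⟩
      rw [hb, mem_bot] at this
      exact Subtype.ext (Subtype.ext this)
    intro k hk
    rw [mem_centralizer_iff]
    intro n hn'
    have : n ∈ centralizer (K : Set G) := ((hfixN.symm ▸ hn' : n ∈ N ⊓ centralizer (K : Set G))).2
    exact (mem_centralizer_iff.1 this k hk).symm
  have hrs : ¬ r ∣ s := fun hd => hsr ((Nat.prime_dvd_prime_iff_eq hr hs').1 hd).symm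
  obtain ⟨a₀, ha₀, ha₀C⟩ := SetLike.not_le_iff_exists.1 hKnle
  set L := (phi N a₀).range
  have hLn : L.Normal := ⟨fun x hx g => by
    obtain ⟨n, rfl⟩ := hx
    have hKK : g * a₀ * g⁻¹ ∈ K := (inferInstance : K.Normal).conj_mem _ ha₀ g
    refine same_line N h hNp hrs (hKpowC a₀ ha₀) (hKcomm _ ha₀ _ hKK) (hrange a₀ ha₀C)
      ⟨⟨g * n * g⁻¹, hNn.conj_mem _ n.2 g⟩, ?_⟩
    show g * a₀ * g⁻¹ * (g * n * g⁻¹) * (g * a₀ * g⁻¹)⁻¹ * (g * n * g⁻¹)⁻¹ =
      g * (a₀ * n * a₀⁻¹ * (n : G)⁻¹) * g⁻¹
    group⟩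
  rcases hmin L hLn (range_le N a₀) with h1 | h1
  · exact absurd h1 (hrange a₀ ha₀C)
  · rcases (Nat.dvd_prime hr).1 (card_range_dvd N h hNp a₀) with h2 | h2
    · exact absurd (Subgroup.eq_bot_of_card_eq _ h2) (hrange a₀ ha₀C)
    · rw [← h1]; exact h2

/-- Knoche's theorem. -/
theorem knoche {G : Type*} [Group G] [Finite G] {p : ℕ} [hp : Fact p.Prime] (hP : IsPGroup p G)
    (h : SqClass G) : Nat.card (commutator G) ∣ p := by
  have hidx : ∀ u : G, (centralizer ({u} : Set G)).index ∣ p := fun u => by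
    obtain ⟨i, hi⟩ := hP.index (centralizer ({u} : Set G))
    rw [hi]
    rcases Nat.lt_or_ge i 2 with h2 | h2
    · calc p ^ i ∣ p ^ 1 := pow_dvd_pow p (by omega)
        _ = p := pow_one p
    · exfalso
      exact hp.out.ne_one (Nat.isUnit_iff.1 (h u p (by rw [← sq, hi]; exact pow_dvd_pow p h2)))
  have hcent : commutator G ≤ center G := by
    intro c hc
    rw [mem_center_iff]
    intro u
    suffices c ∈ centralizer ({u} : Set G) from (mem_centralizer_singleton_iff.1 this).symm
    rcases (Nat.dvd_prime hp.out).1 (hidx u) with h1 | h1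
    · rw [index_eq_one.1 h1]; trivial
    · have : (centralizer ({u} : Set G)).Normal := by
        refine normal_of_index_eq_minFac_card ?_
        obtain ⟨n, hn⟩ := IsPGroup.iff_card.1 hP
        have hn0 : n ≠ 0 := by
          rintro rfl
          have := (centralizer ({u} : Set G)).index_dvd_card
          rw [h1, hn, pow_zero] at this
          exact hp.out.ne_one (Nat.dvd_one.1 this)
        rw [h1, hn, Nat.pow_minFac hn0, hp.out.minFac_eq]
      have : IsCyclic (G ⧸ centralizer ({u} : Set G)) :=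
        isCyclic_of_prime_card (p := p) (by rw [← index_eq_card, h1])
      letI := IsCyclic.commGroup (α := G ⧸ centralizer ({u} : Set G))
      have h3 := Abelianization.commutator_subset_ker (QuotientGroup.mk' (centralizer ({u} : Set G))) hc
      rwa [QuotientGroup.ker_mk'] at h3
  have hcc : ∀ a b x : G, x * ⁅a, b⁆ = ⁅a, b⁆ * x := fun a b x =>
    mem_center_iff.1 (hcent (commutator_mem_commutator (mem_top a) (mem_top b))) x
  let ψ : G → G →* G := fun u =>
    { toFun := fun x => ⁅u, x⁆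
      map_one' := by simp
      map_mul' := fun x y => by
        calc ⁅u, x * y⁆ = ⁅u, x⁆ * (x * ⁅u, y⁆ * x⁻¹) := by simp [commutatorElement_def, mul_assoc]
          _ = ⁅u, x⁆ * ⁅u, y⁆ := by rw [hcc, mul_inv_cancel_right] }
  have hψ : ∀ u x : G, ψ u x = ⁅u, x⁆ := fun _ _ => rfl
  have hker : ∀ u, (ψ u).ker = centralizer ({u} : Set G) := fun u => by
    ext x
    rw [MonoidHom.mem_ker, hψ, commutatorElement_eq_one_iff_mul_comm, mem_centralizer_singleton_iff]
    exact eq_comm
  have hcard : ∀ u x : G, ⁅u, x⁆ ≠ 1 → Nat.card (ψ u).range = p := fun u x hux => by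
    have h1 := hidx u
    rw [← hker, index_ker] at h1
    rcases (Nat.dvd_prime hp.out).1 h1 with h2 | h2
    · exfalso
      have : ψ u x ∈ (ψ u).range := ⟨x, rfl⟩
      rw [Subgroup.eq_bot_of_card_eq _ h2, mem_bot] at this
      exact hux this
    · exact h2
  have hline : ∀ {u v : G} {z : G}, Nat.card (ψ u).range = p → Nat.card (ψ v).range = p →
      z ≠ 1 → z ∈ (ψ u).range → z ∈ (ψ v).range → (ψ u).range = (ψ v).range := by
    intro u v z hu hv hz hzu hzv
    have hi : (ψ u).range ⊓ (ψ v).range ≠ ⊥ := fun hb => hz (by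
      have : z ∈ (ψ u).range ⊓ (ψ v).range := ⟨hzu, hzv⟩
      rwa [hb, mem_bot] at this)
    have hd : Nat.card ((ψ u).range ⊓ (ψ v).range : Subgroup G) = p :=
      ((Nat.dvd_prime hp.out).1 (hu ▸ card_dvd_of_le inf_le_left)).resolve_left
        fun h1 => hi (Subgroup.eq_bot_of_card_eq _ h1)
    exact (eq_of_le_of_card_ge (inf_le_left : (ψ u).range ⊓ (ψ v).range ≤ _) (hu.trans hd.symm).le).symm.trans
      (eq_of_le_of_card_ge (inf_le_right : (ψ u).range ⊓ (ψ v).range ≤ _) (hv.trans hd.symm).le)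
  have key : ∀ u v x y : G, ⁅u, x⁆ ≠ 1 → ⁅v, y⁆ ≠ 1 → (ψ u).range = (ψ v).range := by
    intro u v x y hux hvy
    by_cases hC : ∀ w : G, ⁅v, w⁆ = 1 → ⁅u, w⁆ = 1
    · -- equal centralisers
      have hle : (ψ v).ker ≤ (ψ u).ker := fun w hw => hC w hw
      have hu1 : (ψ u).ker.index = p := by rw [index_ker]; exact hcard u x hux
      have hv1 : (ψ v).ker.index = p := by rw [index_ker]; exact hcard v y hvy
      have heq : (ψ v).ker = (ψ u).ker := by
        refine eq_of_le_of_card_ge hle (le_of_eq ?_)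
        have e1 := card_mul_index (ψ u).ker
        have e2 := card_mul_index (ψ v).ker
        rw [hu1] at e1
        rw [hv1, ← e1] at e2
        exact (Nat.eq_of_mul_eq_mul_right hp.out.pos e2).symm
      have hvx : ⁅v, x⁆ ≠ 1 := fun e => hux (hC x e)
      have hxu : ⁅x, u⁆ ≠ 1 := fun e => hux (by rw [← commutatorElement_inv, e, inv_one])
      have hcx := hcard x u hxu
      have hu : ⁅u, x⁆⁻¹ ∈ (ψ x).range := ⟨u, (commutatorElement_inv u x).symm⟩
      have hv : ⁅v, x⁆⁻¹ ∈ (ψ x).range := ⟨v, (commutatorElement_inv v x).symm⟩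
      rw [hline (hcard u x hux) hcx hux ⟨x, rfl⟩ (inv_mem_iff.1 hu),
        hline (hcard v y hvy) hcx hvx ⟨x, rfl⟩ (inv_mem_iff.1 hv)]
    · push Not at hC
      obtain ⟨w, hvw, huw⟩ := hC
      by_cases hC2 : ∀ w' : G, ⁅u, w'⁆ = 1 → ⁅v, w'⁆ = 1
      · exfalso
        have hle : (ψ u).ker ≤ (ψ v).ker := fun z hz => hC2 z hz
        have e1 := card_mul_index (ψ u).ker
        have e2 := card_mul_index (ψ v).ker
        rw [index_ker, hcard u x hux] at e1
        rw [index_ker, hcard v y hvy, ← e1] at e2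
        have heq := eq_of_le_of_card_ge hle (Nat.eq_of_mul_eq_mul_right hp.out.pos e2).le
        have hw : w ∈ (ψ v).ker := hvw
        rw [← heq] at hw
        exact huw hw
      push Not at hC2
      obtain ⟨w', huw', hvw'⟩ := hC2
      have e1 : ∀ z : G, ⁅u * v, z⁆ = u * ⁅v, z⁆ * u⁻¹ * ⁅u, z⁆ := fun z => by
        simp [commutatorElement_def, mul_assoc]
      have h1 : ⁅u * v, w⁆ = ⁅u, w⁆ := by rw [e1, hvw]; group
      have h2 : ⁅u * v, w'⁆ = ⁅v, w'⁆ := by rw [e1, huw', hcc, mul_inv_cancel_right, mul_one]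
      have hcuv := hcard (u * v) w (by rw [h1]; exact huw)
      rw [hline (hcard u x hux) hcuv huw ⟨w, rfl⟩ ⟨w, h1⟩,
        hline (hcard v y hvy) hcuv hvw' ⟨w', rfl⟩ ⟨w', h2⟩]
  by_cases habel : ∀ u x : G, ⁅u, x⁆ = 1
  · have : commutator G = ⊥ := by
      rw [eq_bot_iff, _root_.commutator_def, commutator_le]
      exact fun a _ b _ => mem_bot.2 (habel a b)
    rw [this, card_bot]; exact one_dvd p
  push Not at habel
  obtain ⟨u₀, x₀, hu₀⟩ := habel
  have hle : commutator G ≤ (ψ u₀).range := by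
    rw [_root_.commutator_def, commutator_le]
    intro a _ b _
    by_cases hab : ⁅a, b⁆ = 1
    · rw [hab]; exact one_mem _
    · rw [← key a u₀ b x₀ hab hu₀]; exact ⟨b, rfl⟩
  exact hcard u₀ x₀ hu₀ ▸ card_dvd_of_le hle

/-- The case of a trivial `p'`-core. -/
theorem card_commutator_dvd {G : Type*} [Group G] [Finite G] {p : ℕ} [hp : Fact p.Prime]
    (h : SqClass G) (hss : IsSupersolvable G) (hO : pPrimeCore p G = ⊥) :
    Nat.card (commutator G) ∣ p := by
  have hsol := Lib.Hall.ss_isSolvable hss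
  have hnil := Lib.Hall.commutator_isNilpotent_of_supersolvable hss
  set P := pCore p G with hPdef
  have hF : fittingSubgroup G ≤ P := by
    rw [Lib.Hall.fittingSubgroup_eq_iSup_pCore]
    refine iSup_le fun q => ?_
    by_cases hq : (q : ℕ) = p
    · rw [hPdef, hq]
    · have : Fact (q : ℕ).Prime := ⟨q.2⟩
      obtain ⟨k, hk⟩ := IsPGroup.iff_card.mp (Lib.Hall.isPGroup_pCore (G := G) (q : ℕ))
      refine le_trans (Lib.Hall.le_pPrimeCore (p := p) ?_) (hO.le.trans bot_le)
      rw [hk]
      exact Nat.Coprime.pow_left k ((Nat.coprime_primes q.2 hp.out).mpr hq)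
  have hGP : commutator G ≤ P := (Lib.Hall.le_fittingSubgroup hnil).trans hF
  have hCP : centralizer (P : Set G) ≤ P := Lib.Hall.centralizer_pCore_le p hO
  obtain ⟨T⟩ : Nonempty (Sylow p G) := inferInstance
  have hPT : (P : Subgroup G) = (T : Subgroup G) := by
    refine le_antisymm (Lib.Hall.pCore_le_sylow T) ?_
    have : (T : Subgroup G).Normal := ⟨fun x hx g => by
      have h1 : g * x * g⁻¹ * x⁻¹ ∈ (T : Subgroup G) :=
        Lib.Hall.pCore_le_sylow T (hGP (commutator_mem_commutator (mem_top g) (mem_top x)))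
      have := mul_mem h1 hx
      rwa [inv_mul_cancel_right] at this⟩
    exact Lib.Hall.le_pCore T.2
  have hPp : IsPGroup p P := Lib.Hall.isPGroup_pCore p
  by_cases hall : P = ⊤
  · refine knoche ?_ h
    intro g
    obtain ⟨k, hk⟩ := hPp ⟨g, hall ▸ mem_top g⟩
    exact ⟨k, congrArg Subtype.val hk⟩
  set A := Nat.card (T : Subgroup G) with hA
  set m := (T : Subgroup G).index with hm
  have hcop : Nat.Coprime A m := SquareFreeFusion.coprime_card_index T
  obtain ⟨e, he1, he0⟩ := Nat.chineseRemainder hcop 1 0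
  obtain ⟨f, hf0, hf1⟩ := Nat.chineseRemainder hcop 0 1
  have hsplit : ∀ x : G, x ^ e * x ^ f = x := fun x => by
    have hxG : x ^ (A * m) = 1 := by rw [card_mul_index]; exact pow_card_eq_one'
    rw [← pow_add]
    conv_rhs => rw [← pow_one x]
    rw [pow_eq_pow_mod _ hxG, pow_eq_pow_mod 1 hxG]
    congr 1
    exact (Nat.modEq_and_modEq_iff_modEq_mul hcop).1
      ⟨by simpa using he1.add hf0, by simpa using he0.add hf1⟩
  have hfm : ∀ x : G, (x ^ f) ^ m = 1 := fun x => by
    have hxG : x ^ (A * m) = 1 := by rw [card_mul_index]; exact pow_card_eq_one'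
    rw [← pow_mul, ← orderOf_dvd_iff_pow_eq_one]
    exact (orderOf_dvd_of_pow_eq_one hxG).trans
      (Nat.mul_dvd_mul_right (Nat.modEq_zero_iff_dvd.1 hf0) m)
  have heP : ∀ x : G, x ^ e ∈ P := fun x => by
    have hxG : x ^ (A * m) = 1 := by rw [card_mul_index]; exact pow_card_eq_one'
    obtain ⟨a, ha⟩ := IsPGroup.iff_card.1 T.2
    have h4 : orderOf (x ^ e) ∣ p ^ a := by
      rw [← ha, ← hA, orderOf_dvd_iff_pow_eq_one, ← pow_mul, ← orderOf_dvd_iff_pow_eq_one, mul_comm]
      exact (orderOf_dvd_of_pow_eq_one hxG).trans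
        (Nat.mul_dvd_mul_left A (Nat.modEq_zero_iff_dvd.1 he0))
    obtain ⟨i, -, hi⟩ := (Nat.dvd_prime_pow hp.out).1 h4
    obtain ⟨Q, hQ⟩ := (IsPGroup.of_card (n := i) (show Nat.card (zpowers (x ^ e)) = p ^ i by
      rw [Nat.card_zpowers, hi])).exists_le_sylow
    obtain ⟨g, hg⟩ := MulAction.exists_smul_eq G T Q
    have hx := hQ (mem_zpowers (x ^ e))
    rw [← hg, Lib.Transfer.mem_smul_sylow, ← hPT] at hx
    have hPn : P.Normal := inferInstance
    simpa [mul_assoc] using hPn.conj_mem _ hx g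
  have hPA : ∀ d ∈ P, d ^ A = 1 := fun d hd => by
    have := pow_card_eq_one' (x := (⟨d, hPT ▸ hd⟩ : ↥(T : Subgroup G)))
    exact congrArg Subtype.val this
  obtain ⟨h0, h0m, h0P⟩ : ∃ h0 : G, h0 ^ m = 1 ∧ h0 ∉ P := by
    by_contra hcon
    push Not at hcon
    exact hall (eq_top_iff.2 fun x _ => hsplit x ▸ mul_mem (heP x) (hcon _ (hfm x)))
  have hrel : ∀ g : G, (centralizer ({g} : Set G)).relIndex P ∣ p := fun g => by
    have hd := relIndex_dvd_index_left (centralizer ({g} : Set G)) P
    obtain ⟨i, hi⟩ := hPp.index ((centralizer ({g} : Set G)).subgroupOf P)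
    change (centralizer ({g} : Set G)).relIndex P = p ^ i at hi
    rw [hi] at hd ⊢
    rcases Nat.lt_or_ge i 2 with h2 | h2
    · calc p ^ i ∣ p ^ 1 := pow_dvd_pow p (by omega)
        _ = p := pow_one p
    · exfalso
      exact hp.out.ne_one (Nat.isUnit_iff.1 (h g p (by rw [← sq]; exact (pow_dvd_pow p h2).trans hd)))
  set D := centralizer ({h0} : Set G) ⊓ P with hD
  have hcardD : ∀ g : G, Nat.card (centralizer ({g} : Set G) ⊓ P : Subgroup G) *
      (centralizer ({g} : Set G)).relIndex P = Nat.card P := fun g => by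
    rw [← Lib.Coprime.card_subgroupOf_inf]
    exact card_mul_index _
  have hD1 : (centralizer ({h0} : Set G)).relIndex P = p := by
    rcases (Nat.dvd_prime hp.out).1 (hrel h0) with h1 | h1
    · exfalso
      apply h0P
      apply hCP
      rw [mem_centralizer_iff]
      intro x hx
      exact mem_centralizer_singleton_iff.1 ((relIndex_eq_one.1 h1) hx)
    · exact h1
  have hcD : Nat.card D * p = Nat.card P := hD1 ▸ hcardD h0
  have hDab : ∀ d ∈ D, ∀ d' ∈ D, d' * d = d * d' := by
    intro d hd d' hd'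
    have hdh : Commute d h0 := mem_centralizer_singleton_iff.1 hd.1
    have hpow : (d * h0) ^ e = d := by
      rw [hdh.mul_pow, pow_eq_pow_mod e (hPA d hd.2), he1, ← pow_eq_pow_mod 1 (hPA d hd.2), pow_one,
        pow_eq_pow_mod e h0m, he0, ← pow_eq_pow_mod 0 h0m, pow_zero, mul_one]
    have hle : centralizer ({d * h0} : Set G) ⊓ P ≤ D := by
      rintro y ⟨hy, hyP⟩
      refine ⟨mem_centralizer_singleton_iff.2 ?_, hyP⟩
      have h1 : Commute y (d * h0) := mem_centralizer_singleton_iff.1 hy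
      have h2 : Commute y d := hpow ▸ h1.pow_right e
      have h3 : Commute y (d⁻¹ * (d * h0)) := (h2.inv_right).mul_right h1
      rw [inv_mul_cancel_left] at h3
      exact h3.eq
    have hge : Nat.card D ≤ Nat.card (centralizer ({d * h0} : Set G) ⊓ P : Subgroup G) := by
      refine Nat.le_of_mul_le_mul_right ?_ hp.out.pos
      rw [hcD, ← hcardD (d * h0)]
      exact Nat.mul_le_mul_left _ (Nat.le_of_dvd hp.out.pos (hrel _))
    have heq := eq_of_le_of_card_ge hle hge
    have hy : d' ∈ centralizer ({d * h0} : Set G) ⊓ P := heq.symm ▸ hd'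
    have h1 : Commute d' (d * h0) := mem_centralizer_singleton_iff.1 hy.1
    exact (hpow ▸ h1.pow_right e : Commute d' d).eq
  have hPn : P.Normal := inferInstance
  -- `P` is abelian
  have hDP : (D.subgroupOf P).Normal := by
    refine normal_of_index_eq_minFac_card ?_
    have hidx : (D.subgroupOf P).index = p := by
      show D.relIndex P = p
      rw [hD, inf_relIndex_right]
      exact hD1
    obtain ⟨n, hn⟩ := IsPGroup.iff_card.1 hPp
    have hn0 : n ≠ 0 := by
      rintro rfl
      rw [hn, pow_zero] at hcD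
      exact hp.out.ne_one (Nat.eq_one_of_mul_eq_one_left hcD)
    rw [hidx, hn, Nat.pow_minFac hn0, hp.out.minFac_eq]
  have hDle : D ≤ P := inf_le_right
  obtain ⟨u, huP, huD⟩ : ∃ u ∈ P, u ∉ D := by
    by_contra hcon
    push Not at hcon
    have : D = P := le_antisymm hDle hcon
    rw [this] at hcD
    have h1 : 0 < Nat.card P := Nat.card_pos
    have h2 := hp.out.two_le
    nlinarith
  set l := u⁻¹ * h0 * u * h0⁻¹ with hl
  have hlP : l ∈ P := by
    have e : l = u⁻¹ * (h0 * u * h0⁻¹) := by rw [hl]; group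
    rw [e]
    exact mul_mem (inv_mem huP) (hPn.conj_mem u huP h0)
  have hlD' : ∀ d ∈ D, l * d = d * l := by
    intro d hd
    have hd' : u * d * u⁻¹ ∈ D := by
      have := hDP.conj_mem ⟨d, hd.2⟩ hd ⟨u, huP⟩
      exact this
    have c1 : h0 * d = d * h0 := (mem_centralizer_singleton_iff.1 hd.1).symm
    have c2 : h0 * (u * d * u⁻¹) = u * d * u⁻¹ * h0 := (mem_centralizer_singleton_iff.1 hd'.1).symm
    calc l * d = u⁻¹ * h0 * u * (h0⁻¹ * (d * h0)) * h0⁻¹ := by rw [hl]; group
      _ = u⁻¹ * h0 * u * d * h0⁻¹ := by rw [← c1, inv_mul_cancel_left]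
      _ = u⁻¹ * (h0 * (u * d * u⁻¹)) * u * h0⁻¹ := by group
      _ = d * l := by rw [c2, hl]; group
  have hlD : l ∉ D := by
    intro hlD
    apply huD
    have hc : h0 * l = l * h0 := (mem_centralizer_singleton_iff.1 hlD.1).symm
    have h1 : h0 * u * h0⁻¹ = u * l := by rw [hl]; group
    have hj : ∀ j : ℕ, h0 ^ j * u * (h0 ^ j)⁻¹ = u * l ^ j := by
      intro j
      induction j with
      | zero => simp
      | succ j ih =>
        have hlj : h0 * l ^ j * h0⁻¹ = l ^ j :=
          mul_inv_eq_iff_eq_mul.2 ((Commute.pow_right hc j).eq)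
        calc h0 ^ (j + 1) * u * (h0 ^ (j + 1))⁻¹ = h0 * (h0 ^ j * u * (h0 ^ j)⁻¹) * h0⁻¹ := by
              rw [pow_succ']; group
          _ = (h0 * u * h0⁻¹) * (h0 * l ^ j * h0⁻¹) := by rw [ih]; group
          _ = u * l ^ (j + 1) := by rw [h1, hlj, pow_succ']; group
    have h2 := hj m
    rw [h0m, one_mul, inv_one, mul_one, left_eq_mul, ← orderOf_dvd_iff_pow_eq_one] at h2
    have h3 : l = 1 := orderOf_eq_one_iff.1 (Nat.eq_one_of_dvd_coprimes hcop
      (orderOf_dvd_of_pow_eq_one (hPA l hlP)) h2)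
    refine ⟨mem_centralizer_singleton_iff.2 ?_, huP⟩
    rw [h3, mul_one, mul_inv_eq_iff_eq_mul] at h1
    exact h1.symm
  have hgen : D ⊔ zpowers l = P := by
    refine eq_of_le_of_card_ge (sup_le hDle (zpowers_le.2 hlP)) ?_
    have h1 : Nat.card D ∣ Nat.card (D ⊔ zpowers l : Subgroup G) := card_dvd_of_le le_sup_left
    have h2 : Nat.card (D ⊔ zpowers l : Subgroup G) ∣ Nat.card P :=
      card_dvd_of_le (sup_le hDle (zpowers_le.2 hlP))
    obtain ⟨k, hk⟩ := h1
    rw [hk, ← hcD] at h2
    have hk2 : k ∣ p := Nat.dvd_of_mul_dvd_mul_left Nat.card_pos h2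
    rcases (Nat.dvd_prime hp.out).1 hk2 with hk1 | hk1
    · exfalso
      apply hlD
      rw [hk1, mul_one] at hk
      rw [eq_of_le_of_card_ge (le_sup_left : D ≤ D ⊔ zpowers l) hk.le]
      exact mem_sup_right (mem_zpowers l)
    · rw [hk, hk1, hcD]
  have hPc : IsMulCommutative P := by
    have h1 : P ≤ centralizer (P : Set G) := by
      have hsing : D ⊔ zpowers l ≤ centralizer ((D : Set G) ∪ {l}) := by
        refine sup_le ?_ (zpowers_le.2 ?_)
        · intro d hd
          rw [mem_centralizer_iff]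
          rintro x (hx | rfl)
          · exact hDab d hd x hx
          · exact hlD' d hd
        · rw [mem_centralizer_iff]
          rintro x (hx | rfl)
          · exact (hlD' x hx).symm
          · rfl
      intro x hx
      rw [← hgen] at hx
      have hx' := hsing hx
      rw [mem_centralizer_iff] at hx'
      have hP' : P ≤ centralizer ({x} : Set G) := by
        rw [← hgen]
        refine sup_le (fun d hd => mem_centralizer_singleton_iff.2 (hx' d (Or.inl hd)))
          (zpowers_le.2 (mem_centralizer_singleton_iff.2 (hx' l (Or.inr rfl))))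
      rw [mem_centralizer_iff]
      intro y hy
      exact mem_centralizer_singleton_iff.1 (hP' hy)
    exact ⟨⟨fun a b => Subtype.ext (mem_centralizer_iff.1 (h1 b.2) a a.2)⟩⟩
  set L := (phi P h0).range with hL
  have hPC : P ≤ centralizer (P : Set G) := fun x hx =>
    mem_centralizer_iff.2 fun y hy => comm_N P hy hx
  have hLne : L ≠ ⊥ := by
    intro hb
    apply h0P
    apply hCP
    rw [mem_centralizer_iff]
    intro n hn
    have h1 : phi P h0 ⟨n, hn⟩ ∈ L := ⟨_, rfl⟩
    rw [hb, mem_bot, phi_apply, mul_inv_eq_one, mul_inv_eq_iff_eq_mul] at h1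
    exact h1.symm
  have hall' : ∀ g : G, (phi P g).range ≤ L := fun g => by
    refine same_line P h hPp T.not_dvd_index ?_
      (hPC (hGP (commutator_mem_commutator (mem_top h0) (mem_top g)))) hLne
    rw [h0m]
    exact one_mem _
  have hLn : L.Normal := ⟨fun x hx g => by
    obtain ⟨n, rfl⟩ := hx
    refine hall' (g * h0 * g⁻¹) ⟨⟨g * n * g⁻¹, hPn.conj_mem _ n.2 g⟩, ?_⟩
    show g * h0 * g⁻¹ * (g * n * g⁻¹) * (g * h0 * g⁻¹)⁻¹ * (g * n * g⁻¹)⁻¹ =
      g * (h0 * n * h0⁻¹ * (n : G)⁻¹) * g⁻¹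
    group⟩
  have hGL : commutator G ≤ L := by
    set π := QuotientGroup.mk' L
    have hcen : ∀ n ∈ P, ∀ g : G, π g * π n = π n * π g := by
      intro n hn g
      have h1 : π (g * n * g⁻¹ * n⁻¹) = 1 :=
        (QuotientGroup.eq_one_iff _).2 (hall' g ⟨⟨n, hn⟩, rfl⟩)
      rw [map_mul, map_mul, map_mul, map_inv, map_inv, mul_inv_eq_one, mul_inv_eq_iff_eq_mul] at h1
      exact h1
    have hp' : ∀ x y : G, π (x ^ f) * π (y ^ f) = π (y ^ f) * π (x ^ f) := by
      intro x y
      set a := π (x ^ f) with ha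
      set b := π (y ^ f)
      set c := ⁅x ^ f, y ^ f⁆ with hc
      have hcP : c ∈ P := hGP (commutator_mem_commutator (mem_top _) (mem_top _))
      have h1 : a * b * a⁻¹ = π c * b := by
        rw [hc, map_commutatorElement, commutatorElement_def, inv_mul_cancel_right]
      have hj : ∀ j : ℕ, a ^ j * b * (a ^ j)⁻¹ = π c ^ j * b := by
        intro j
        induction j with
        | zero => simp
        | succ j ih =>
          have hca : a * π c ^ j * a⁻¹ = π c ^ j :=
            mul_inv_eq_iff_eq_mul.2 ((Commute.pow_right (hcen c hcP _) j).eq)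
          calc a ^ (j + 1) * b * (a ^ (j + 1))⁻¹ = a * (a ^ j * b * (a ^ j)⁻¹) * a⁻¹ := by
                rw [pow_succ']; group
            _ = (a * π c ^ j * a⁻¹) * (a * b * a⁻¹) := by rw [ih]; group
            _ = π c ^ (j + 1) * b := by rw [hca, h1, pow_succ, mul_assoc]
      have h2 := hj m
      rw [show a ^ m = 1 by rw [ha, ← map_pow, hfm, map_one], one_mul, inv_one, mul_one,
        right_eq_mul] at h2
      have h3 : π c ^ A = 1 := by rw [← map_pow, hPA c hcP, map_one]
      have h4 : π c = 1 := orderOf_eq_one_iff.1 (Nat.eq_one_of_dvd_coprimes hcop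
        (orderOf_dvd_of_pow_eq_one h3) (orderOf_dvd_of_pow_eq_one h2))
      rw [h4, one_mul, mul_inv_eq_iff_eq_mul] at h1
      exact h1
    rw [_root_.commutator_def, commutator_le]
    intro x _ y _
    refine (QuotientGroup.eq_one_iff _).1 ?_
    show π ⁅x, y⁆ = 1
    rw [map_commutatorElement, commutatorElement_eq_one_iff_mul_comm]
    have hx1 : π x = π (x ^ e) * π (x ^ f) := by rw [← map_mul, hsplit]
    have hy1 : π y = π (y ^ e) * π (y ^ f) := by rw [← map_mul, hsplit]
    have c1 : Commute (π (x ^ e)) (π y) := (hcen _ (heP x) y).symm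
    have c2 : Commute (π (x ^ f)) (π (y ^ e)) := hcen _ (heP y) _
    have c3 : Commute (π (x ^ f)) (π y) := by rw [hy1]; exact c2.mul_right (hp' x y)
    rw [hx1]
    exact c1.mul_left c3
  exact (card_dvd_of_le hGL).trans (card_range_dvd P h hPp h0)

/-- Let G be a finite group all of whose conjugacy class sizes are square-free. Then G is supersolvable, G/F(G) and the derived subgroup G′ are cyclic of square-free order (F(G) the Fitting subgroup, which is normal), F(G) has nilpotency class at most 2, and G is metabelian. -/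
theorem result {G : Type*} [Group G] [Finite G]
    (h : ∀ x : G, Squarefree (Subgroup.centralizer ({x} : Set G)).index) :
    Cfsg.IsSupersolvable G ∧ (Cfsg.fittingSubgroup G).Normal ∧
    (∀ _h : (Cfsg.fittingSubgroup G).Normal, IsCyclic (G ⧸ Cfsg.fittingSubgroup G) ∧ Squarefree (Cfsg.fittingSubgroup G).index) ∧
    IsCyclic (commutator G) ∧ Squarefree (Nat.card (commutator G)) ∧
    Subgroup.upperCentralSeries ↥(Cfsg.fittingSubgroup G) 2 = ⊤ ∧ commutator ↥(commutator G) = ⊥ := by
  have hsq : SqClass G := h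
  have hss := supersolvable_aux _ G rfl hsq
  have hnil := Lib.Hall.commutator_isNilpotent_of_supersolvable hss
  -- the derived group has square-free order
  have hsf : Squarefree (Nat.card (commutator G)) := by
    rw [Nat.squarefree_iff_prime_squarefree]
    intro p hp hpp
    have : Fact p.Prime := ⟨hp⟩
    set O := pPrimeCore p G
    set π := QuotientGroup.mk' O
    have hO : pPrimeCore p (G ⧸ O) = ⊥ := by
      set M := (pPrimeCore p (G ⧸ O)).comap π
      have hmap : M.map π = pPrimeCore p (G ⧸ O) :=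
        map_comap_eq_self_of_surjective (QuotientGroup.mk'_surjective O) _
      have hM : (Nat.card M).Coprime p := by
        have h1 := Lib.Coprime.card_map_mul_card_inf_ker π M
        rw [hmap, QuotientGroup.ker_mk'] at h1
        rw [← h1]
        exact Nat.Coprime.mul_left (Lib.Hall.coprime_card_pPrimeCore p)
          (Nat.Coprime.coprime_dvd_left (card_dvd_of_le inf_le_right)
            (Lib.Hall.coprime_card_pPrimeCore p))
      rw [← hmap, Subgroup.map_eq_bot_iff, QuotientGroup.ker_mk']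
      exact Lib.Hall.le_pPrimeCore hM
    have hd := card_commutator_dvd (p := p) (hsq.quotient O) (Lib.Hall.ss_quotient hss O) hO
    have hmapc : (commutator G).map π = commutator (G ⧸ O) := by
      rw [_root_.commutator_def, _root_.commutator_def, Subgroup.map_commutator,
        Subgroup.map_top_of_surjective _ (QuotientGroup.mk'_surjective O)]
    have h1 := Lib.Coprime.card_map_mul_card_inf_ker π (commutator G)
    rw [hmapc, QuotientGroup.ker_mk'] at h1
    rw [← h1] at hpp
    have hcop : (p * p).Coprime (Nat.card (commutator G ⊓ O : Subgroup G)) := by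
      have hc : (Nat.card (commutator G ⊓ O : Subgroup G)).Coprime p :=
        Nat.Coprime.coprime_dvd_left (card_dvd_of_le inf_le_right)
          (Lib.Hall.coprime_card_pPrimeCore p)
      exact Nat.Coprime.mul_left hc.symm hc.symm
    have h2 := (hcop.dvd_of_dvd_mul_right hpp).trans hd
    have h3 := Nat.le_of_dvd hp.pos h2
    have h4 := hp.two_le
    nlinarith
  have hz : IsZGroup (commutator G) := IsZGroup.of_squarefree hsf
  have hcyc : IsCyclic (commutator G) := inferInstance
  have hcomm : ∀ a ∈ commutator G, ∀ b ∈ commutator G, a * b = b * a := fun a ha b hb =>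
    congrArg Subtype.val ((IsCyclic.isMulCommutative (α := commutator G)).is_comm.comm ⟨a, ha⟩ ⟨b, hb⟩)
  set F := fittingSubgroup G
  have hFn : F.Normal := Lib.Hall.fittingSubgroup_normal
  have hGF : commutator G ≤ F := Lib.Hall.le_fittingSubgroup hnil
  have hFnil : Group.IsNilpotent F := Lib.Hall.fittingSubgroup_isNilpotent
  refine ⟨hss, hFn, fun _ => ?_, hcyc, hsf, ?_, ?_⟩
  · -- the Fitting quotient
    obtain ⟨g0, hg0⟩ := hcyc.exists_generator
    set C := centralizer ((commutator G : Subgroup G) : Set G)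
    have hC : C = centralizer ({(g0 : G)} : Set G) := by
      ext x
      rw [mem_centralizer_iff, mem_centralizer_singleton_iff]
      refine ⟨fun hx => (hx _ g0.2).symm, fun hx c hc => ?_⟩
      obtain ⟨k, hk⟩ := mem_zpowers_iff.1 (hg0 ⟨c, hc⟩)
      have e : c = (g0 : G) ^ k := (congrArg Subtype.val hk).symm
      rw [e]
      exact ((Commute.zpow_right hx k).eq).symm
    have hGC : commutator G ≤ C := fun a ha => mem_centralizer_iff.2 fun b hb => hcomm b hb a ha
    have hCnil : Group.IsNilpotent C := by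
      have hker : ((Abelianization.of (G := G)).comp C.subtype).ker ≤ center C := by
        intro x hx
        have hx' : (x : G) ∈ commutator G := by
          rw [← Abelianization.ker_of]; exact hx
        rw [mem_center_iff]
        intro y
        exact Subtype.ext ((mem_centralizer_iff.1 y.2 _ hx').symm)
      exact Subgroup.isNilpotent_of_ker_le_center _ hker
    have hCF : C ≤ F := Lib.Hall.le_fittingSubgroup hCnil
    have hidx : Squarefree F.index :=
      Squarefree.squarefree_of_dvd ((index_dvd_of_le hCF).trans (dvd_of_eq (by rw [hC]))) (h (g0 : G))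
    refine ⟨?_, hidx⟩
    have hz' : IsZGroup (G ⧸ F) := IsZGroup.of_squarefree (by rw [← index_eq_card]; exact hidx)
    have hcm : ∀ a b : G ⧸ F, a * b = b * a := fun a b => by
      obtain ⟨x, rfl⟩ := QuotientGroup.mk_surjective a
      obtain ⟨y, rfl⟩ := QuotientGroup.mk_surjective b
      rw [← commutatorElement_eq_one_iff_mul_comm]
      show ⁅QuotientGroup.mk' F x, QuotientGroup.mk' F y⁆ = 1
      rw [← map_commutatorElement]
      exact (QuotientGroup.eq_one_iff _).2
        (hGF (commutator_mem_commutator (mem_top x) (mem_top y)))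
    have hn : Group.IsNilpotent (G ⧸ F) :=
      Subgroup.isNilpotent_of_ker_le_center (Abelianization.of (G := G ⧸ F))
        (fun a _ => mem_center_iff.2 fun b => hcm b a)
    infer_instance
  · -- class at most two
    have hcen : commutator G ≤ centralizer (F : Set G) := by
      by_contra hne
      set Y := commutator G ⊓ centralizer (F : Set G)
      have hYne : Y.relIndex (commutator G) ≠ 1 := fun e1 => hne ((relIndex_eq_one.1 e1).trans inf_le_right)
      obtain ⟨p, hp, hpd⟩ := Nat.exists_prime_and_dvd hYne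
      have : Fact p.Prime := ⟨hp⟩
      have hmul : Nat.card Y * Y.relIndex (commutator G) = Nat.card (commutator G) := by
        have := card_mul_index (Y.subgroupOf (commutator G))
        rw [Lib.Coprime.card_subgroupOf inf_le_left] at this
        exact this
      obtain ⟨a, ha⟩ := exists_prime_orderOf_dvd_card' p
        (hpd.trans (hmul ▸ dvd_mul_left _ _) : p ∣ Nat.card (commutator G))
      have hao : orderOf (a : G) = p := by rw [orderOf_coe, ha]
      set B := zpowers (a : G)
      have hBc : Nat.card B = p := by rw [Nat.card_zpowers, hao]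
      have hroots : ∀ x ∈ commutator G, x ^ p = 1 → x ∈ B := by
        intro x hx hxp
        classical
        have := Fintype.ofFinite (commutator G)
        have h1 := IsCyclic.card_pow_eq_one_le (α := commutator G) hp.pos
        have hsub : (Finset.univ.filter fun y : commutator G => y ∈ zpowers a) ⊆
            Finset.univ.filter fun y : commutator G => y ^ p = 1 := by
          intro y hy
          simp only [Finset.mem_filter, Finset.mem_univ, true_and] at hy ⊢
          rw [← orderOf_dvd_iff_pow_eq_one, ← ha]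
          exact orderOf_dvd_of_mem_zpowers hy
        have h2 : (Finset.univ.filter fun y : commutator G => y ∈ zpowers a).card = p := by
          rw [← Fintype.card_subtype, ← Nat.card_eq_fintype_card, Nat.card_zpowers, ha]
        have h3 := Finset.eq_of_subset_of_card_le hsub (h2.symm ▸ h1)
        have h4 : (⟨x, hx⟩ : commutator G) ∈ Finset.univ.filter (fun y : commutator G => y ^ p = 1) := by
          simp only [Finset.mem_filter, Finset.mem_univ, true_and]
          exact Subtype.ext hxp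
        rw [← h3, Finset.mem_filter] at h4
        obtain ⟨k, hk⟩ := mem_zpowers_iff.1 h4.2
        exact mem_zpowers_iff.2 ⟨k, congrArg Subtype.val hk⟩
      have hBG : B ≤ commutator G := zpowers_le.2 a.2
      have hBF : B ≤ F := hBG.trans hGF
      set B' := B.subgroupOf F
      have hB'n : B'.Normal := ⟨fun x hx g => by
        rw [mem_subgroupOf] at hx ⊢
        refine hroots _ ((inferInstance : (commutator G).Normal).conj_mem _ (hBG hx) _) ?_
        rw [Subgroup.coe_mul, Subgroup.coe_mul, Subgroup.coe_inv, conj_pow, show (x : G) ^ p = 1 from orderOf_dvd_iff_pow_eq_one.1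
          (hao ▸ orderOf_dvd_of_mem_zpowers hx)]
        group⟩
      have hle : ⁅B', (⊤ : Subgroup F)⁆ ≤ B' := Subgroup.commutator_le_left _ _
      have hB'c : Nat.card B' = p := by rw [Lib.Coprime.card_subgroupOf hBF, hBc]
      have hbot : ⁅B', (⊤ : Subgroup F)⁆ = ⊥ := by
        rcases (Nat.dvd_prime hp).1 (hB'c ▸ card_dvd_of_le hle) with h1 | h1
        · exact Subgroup.eq_bot_of_card_eq _ h1
        · exfalso
          have he := eq_of_le_of_card_ge hle (hB'c.trans h1.symm).le
          have hb := Lib.Transfer.eq_bot_of_le_commutator_top (N := B') he.ge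
          rw [hb, card_bot] at hB'c
          exact hp.ne_one hB'c.symm
      have haY : (a : G) ∈ Y := by
        refine ⟨a.2, mem_centralizer_iff.2 fun y hy => ?_⟩
        have : ⁅(⟨(a : G), hBF (mem_zpowers _)⟩ : F), (⟨y, hy⟩ : F)⁆ = 1 := by
          rw [← mem_bot, ← hbot]
          exact commutator_mem_commutator (mem_zpowers (a : G)) (mem_top _)
        exact (congrArg Subtype.val (commutatorElement_eq_one_iff_mul_comm.1 this)).symm
      have hpY : p ∣ Nat.card Y := by
        rw [← hao, ← Subgroup.orderOf_mk (a : G) haY]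
        exact orderOf_dvd_natCard _
      have h2 : p * p ∣ Nat.card (commutator G) := hmul ▸ mul_dvd_mul hpY hpd
      exact hp.ne_one (Nat.isUnit_iff.1 (hsf p h2))
    rw [eq_top_iff]
    intro x _
    rw [Subgroup.mem_upperCentralSeries_succ_iff]
    intro y
    rw [Subgroup.upperCentralSeries_one, mem_center_iff]
    intro z
    have hxy : ((⁅x, y⁆ : F) : G) ∈ commutator G :=
      commutator_mem_commutator (mem_top (x : G)) (mem_top (y : G))
    exact Subtype.ext (mem_centralizer_iff.1 (hcen hxy) z z.2)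
  · rw [eq_bot_iff, _root_.commutator_def (G := ↥(commutator G)), commutator_le]
    intro a _ b _
    rw [mem_bot, commutatorElement_eq_one_iff_mul_comm]
    exact Subtype.ext (hcomm _ a.2 _ b.2)

end Cfsg.Agent.S4130
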