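import Cfsg.Statements.S4134
import Cfsg.Agent.Lib.Hall.TwoClassSizes

set_option autoImplicit false
open Cfsg

namespace Cfsg.Agent.S4134

open Subgroup Cfsg.Agent.Lib.Hall


/-- Let G be a finite group whose conjugacy classes have exactly two sizes, 1 and n > 1. Then n is a power of a prime p and G is the direct product of a p-group and an abelian group of order prime to p: its Sylow p-subgroup P is normal with an abelian normal complement centralizing it; moreover P has an abelian normal subgroup A with P/A of exponent dividing p. -/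
theorem result {G : Type*} [Group G] [Finite G] (n : ℕ) (hn : 1 < n)
    (h : ∀ x : G, (Subgroup.centralizer ({x} : Set G)).index = 1 ∨ (Subgroup.centralizer ({x} : Set G)).index = n) (hex : ∃ x : G, (Subgroup.centralizer ({x} : Set G)).index = n) :
    ∃ (p : ℕ) (_ : Fact p.Prime) (a : ℕ), n = p ^ a ∧ ∀ P : Sylow p G, (P : Subgroup G).Normal ∧
      (∃ N : Subgroup G, N.Normal ∧ N.IsComplement' (P : Subgroup G) ∧ IsMulCommutative N ∧
        ∀ x ∈ N, ∀ y ∈ (P : Subgroup G), x * y = y * x) ∧
      ∃ A : Subgroup (P : Subgroup G), A.Normal ∧ IsMulCommutative A ∧ ∀ y : (P : Subgroup G), y ^ p ∈ A := by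
  classical
  have hcond : TwoClass.Cond G n := by
    intro x hx
    rcases h x with h1 | h1
    · exact absurd (TwoClass.mem_center_of_C1 (index_eq_one.1 h1)) hx
    · exact h1
  obtain ⟨x₀, hx₀⟩ := hex
  have hex' : ∃ x : G, x ∉ center G := ⟨x₀, fun hc => by
    have htop : Subgroup.centralizer ({x₀} : Set G) = ⊤ :=
      eq_top_iff.2 fun g _ => mem_centralizer_singleton_iff.2 (mem_center_iff.1 hc g)
    rw [htop, index_top] at hx₀
    omega⟩
  obtain ⟨p, hp, hpn⟩ := Nat.exists_prime_and_dvd (by omega : n ≠ 1)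
  haveI := Fact.mk hp
  have hpow : n = p ^ n.primeFactorsList.length := Nat.eq_prime_pow_of_unique_prime_dvd (by omega)
    fun {d} hd hdn => TwoClass.one_prime hcond hex' hd hp hdn hpn
  refine ⟨p, inferInstance, _, hpow, fun P => ?_⟩
  have hother : ∀ (r : ℕ) [Fact r.Prime], r ≠ p → ∀ R : Sylow r G, (R : Subgroup G) ≤ center G := by
    intro r hr hrp R
    exact (TwoClass.sylow_central_iff hcond hex' R).2 fun hd =>
      hrp (TwoClass.one_prime hcond hex' hr.out hp hd hpn)
  have hPZ : (P : Subgroup G) ⊔ center G = ⊤ := Cfsg.Agent.Lib.Components.eq_top_of_forall_sylow_le fun r hr => by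
    haveI := Fact.mk hr
    by_cases hrp : r = p
    · subst hrp; exact ⟨P, le_sup_left⟩
    · exact ⟨default, (hother r hrp default).trans le_sup_right⟩
  have hPn : (P : Subgroup G).Normal := by
    rw [← normalizer_eq_top_iff, eq_top_iff, ← hPZ, sup_le_iff]
    refine ⟨le_normalizer, fun z hz => Cfsg.Agent.Lib.Components.centralizer_le_normalizer _ ?_⟩
    exact mem_centralizer_iff.2 fun t _ => mem_center_iff.1 hz t
  haveI := hPn
  obtain ⟨K, hK⟩ := exists_right_complement'_of_coprime (N := (P : Subgroup G)) P.card_coprime_index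
  have hKc : K ≤ center G := TwoClass.le_of_prime_power_mem fun r hr c hc ⟨k, hk⟩ => by
    haveI := Fact.mk hr
    by_cases hrp : r = p
    · subst hrp
      rcases Nat.eq_zero_or_pos k with h0 | h0
      · rw [h0, pow_zero, orderOf_eq_one_iff] at hk
        exact hk ▸ one_mem _
      · exfalso
        have h1 : r ∣ Nat.card K := ((dvd_pow_self r h0.ne').trans (hk ▸ dvd_rfl)).trans (Subgroup.orderOf_dvd_natCard K hc)
        rw [← hK.symm.index_eq_card] at h1
        exact P.not_dvd_index h1
    · obtain ⟨R, hR⟩ := (IsPGroup.of_card (p := r) (n := k) (by rw [Nat.card_zpowers, hk]) :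
        IsPGroup r ↥(zpowers c)).exists_le_sylow
      exact hother r hrp R (hR (mem_zpowers c))
  refine ⟨hPn, ⟨K, ⟨fun c hc g => ?_⟩, hK.symm, ⟨⟨fun a b => Subtype.ext ?_⟩⟩,
    fun x hx y _ => (mem_center_iff.1 (hKc hx) y).symm⟩, ?_⟩
  · rwa [mem_center_iff.1 (hKc hc) g, mul_inv_cancel_right]
  · exact mem_center_iff.1 (hKc b.2) a
  · refine TwoClass.exists_abelian_pow hcond (fun x => ?_) P fun hPc =>
      (TwoClass.sylow_central_iff hcond hex' P).1 hPc hpn
    obtain ⟨t, ht, z, hz, rfl⟩ := mem_sup_of_normal_left.1 (hPZ ▸ mem_top x)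
    obtain ⟨k, hk⟩ := P.2 ⟨t, ht⟩
    refine ⟨k, ?_⟩
    rw [(show Commute t z from (mem_center_iff.1 hz t)).mul_pow,
      show t ^ p ^ k = 1 from congrArg Subtype.val hk, one_mul]
    exact pow_mem hz _

end Cfsg.Agent.S4134
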