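import Cfsg.Statements.S4138
import Cfsg.Agent.Lib.ClassGraph.TwoTop

set_option autoImplicit false
open Cfsg

namespace Cfsg.Agent.S4138

/-- Let G be a finite group whose two largest conjugacy class sizes m > n > 1 are coprime, and let x, y ∈ G have classes of sizes n and m respectively. Then C_G(x) and C_G(y) are abelian, and G/Z(G) is a Frobenius group with kernel C_G(x)/Z(G) and complement C_G(y)/Z(G). -/
theorem result {G : Type*} [Group G] [Finite G] (m n : ℕ) (hmn : n < m) (hn : 1 < n)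
    (hcop : m.Coprime n) (htop : ∀ z : G, (Subgroup.centralizer ({z} : Set G)).index ≤ m) (hsecond : ∀ z : G, (Subgroup.centralizer ({z} : Set G)).index < m → (Subgroup.centralizer ({z} : Set G)).index ≤ n)
    (x y : G) (hx : (Subgroup.centralizer ({x} : Set G)).index = n) (hy : (Subgroup.centralizer ({y} : Set G)).index = m) :
    IsMulCommutative (Subgroup.centralizer ({x} : Set G)) ∧ IsMulCommutative (Subgroup.centralizer ({y} : Set G)) ∧
    Cfsg.IsFrobeniusComplement ((Subgroup.centralizer ({y} : Set G)).map (QuotientGroup.mk' (Subgroup.center G))) ∧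
    Cfsg.frobeniusKernel ((Subgroup.centralizer ({y} : Set G)).map (QuotientGroup.mk' (Subgroup.center G))) =
      ((Subgroup.centralizer ({x} : Set G)).map (QuotientGroup.mk' (Subgroup.center G)) : Set (G ⧸ Subgroup.center G)) := by
  classical
  have ht : Lib.ClassGraph.Top m n x y := ⟨hmn, hn, hcop, htop, hsecond, hx, hy⟩
  obtain ⟨g₀, p, k, hp, hpn, hgk₀, hg₀⟩ := ht.exists_g
  obtain ⟨u₀, hu₀⟩ := (ht.main hp hpn hgk₀ hg₀).1 y hy
  set g := u₀ * g₀ * u₀⁻¹ with hgdef
  have hgk : g ^ p ^ k = 1 := by rw [hgdef, conj_pow, hgk₀, mul_one, mul_inv_cancel]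
  have hg : Lib.ClassGraph.cls g = m := (Lib.ClassGraph.cls_conj u₀ g₀).trans hg₀
  obtain ⟨-, hcomm, hK, hfac, hMH, hsur, hfpf⟩ := ht.main hp hpn hgk hg
  have hyg : Subgroup.centralizer ({y} : Set G) = Lib.Hall.TwoClass.C1 g := hu₀
  rw [hyg]
  set H := Lib.Hall.TwoClass.C1 g
  set M := Lib.ClassGraph.topM G m
  set π := QuotientGroup.mk' (Subgroup.center G) with hπ
  have hZH : Subgroup.center G ≤ H := Lib.Hall.TwoClass.center_le_C1 g
  have hmemH : ∀ v : G, π v ∈ H.map π → v ∈ H := by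
    rintro v ⟨h, hh, e⟩
    have h1 : h⁻¹ * v ∈ Subgroup.center G := QuotientGroup.eq.1 e
    have := H.mul_mem hh (hZH h1)
    rwa [mul_inv_cancel_left] at this
  refine ⟨⟨⟨fun a b => Subtype.ext ?_⟩⟩, ⟨⟨fun a b => Subtype.ext (hcomm a b a.2 b.2)⟩⟩, ⟨?_, ?_, fun v hv => ?_⟩, ?_⟩
  · obtain ⟨c, hc, z, hz, ea⟩ := (hK a).1 a.2
    obtain ⟨d, hd, w, hw, eb⟩ := (hK b).1 b.2
    show (a : G) * b = b * a
    have hcd : Commute c d := ht.comm_topM hc hd
    have hza : ∀ t : G, Commute t z := fun t => Subgroup.mem_center_iff.1 hz t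
    have hwa : ∀ t : G, Commute t w := fun t => Subgroup.mem_center_iff.1 hw t
    rw [ea, eb]
    exact (((hcd.mul_right (hwa c)).mul_left ((hza d).symm.mul_right (hwa z)))).eq
  · intro e
    have h1 : π g ∈ (⊥ : Subgroup (G ⧸ Subgroup.center G)) :=
      e ▸ ⟨g, Lib.Hall.TwoClass.self_mem_C1 g, rfl⟩
    have h2 : g ∈ Subgroup.center G := (QuotientGroup.eq_one_iff g).1 (Subgroup.mem_bot.1 h1)
    have h3 : Lib.ClassGraph.cls g = 1 := Subgroup.index_eq_one.2
      (eq_top_iff.2 fun w _ => Lib.Hall.TwoClass.mem_C1.2 (Subgroup.mem_center_iff.1 h2 w))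
    rw [hg] at h3
    omega
  · intro e
    have htopH : H = ⊤ := eq_top_iff.2 fun v _ => hmemH v (e ▸ Subgroup.mem_top _)
    have h3 : Lib.ClassGraph.cls g = 1 := Subgroup.index_eq_one.2 htopH
    rw [hg] at h3
    omega
  · obtain ⟨v, rfl⟩ := QuotientGroup.mk'_surjective (Subgroup.center G) v
    rw [eq_bot_iff]
    rintro t ⟨ht', ht''⟩
    replace ht'' := Subgroup.mem_pointwise_smul_iff_inv_smul_mem.1 ht''
    obtain ⟨s, hs, rfl⟩ := ht'
    rw [MulAut.smul_def, ← map_inv, MulAut.conj_apply, inv_inv, ← map_inv, ← map_mul, ← map_mul] at ht''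
    have hs' := hmemH _ ht''
    obtain ⟨c, hc, h', hh', rfl⟩ := hfac v
    have hcH : c ∉ H := fun h => hv ⟨c * h', H.mul_mem h hh', rfl⟩
    have h2 : c⁻¹ * s * c ∈ H := by
      have := H.mul_mem (H.mul_mem hh' hs') (H.inv_mem hh')
      convert this using 1
      group
    have h3 : s⁻¹ * (c⁻¹ * s * c) = 1 := hMH _ (by
      have h4 := Lib.ClassGraph.topM_normal.conj_mem _ (inv_mem hc) s⁻¹
      rw [inv_inv] at h4
      have := mul_mem h4 hc
      convert this using 1
      group) (H.mul_mem (H.inv_mem hs) h2)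
    rw [inv_mul_eq_one] at h3
    refine Subgroup.mem_bot.2 ((QuotientGroup.eq_one_iff s).2 ?_)
    by_contra hsc
    have := hfpf s hs hsc c hc (by
      calc s * c = c * (c⁻¹ * s * c) := by group
        _ = c * s := by rw [← h3])
    exact hcH (this ▸ H.one_mem)
  · ext v
    obtain ⟨v, rfl⟩ := QuotientGroup.mk'_surjective (Subgroup.center G) v
    constructor
    · rintro (h1 | hv)
      · exact h1 ▸ Subgroup.one_mem _
      obtain ⟨c, hc, h, hh, rfl⟩ := hfac v
      by_cases hhc : h ∈ Subgroup.center G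
      · exact ⟨c * h, (hK _).2 ⟨c, hc, h, hhc, rfl⟩, rfl⟩
      obtain ⟨d, hd, e⟩ := hsur h hh hhc (h⁻¹ * c * h) (by
        have := Lib.ClassGraph.topM_normal.conj_mem _ hc h⁻¹
        rwa [inv_inv] at this)
      refine absurd ?_ (hv (π d))
      rw [Subgroup.mem_pointwise_smul_iff_inv_smul_mem, MulAut.smul_def, ← map_inv, MulAut.conj_apply,
        inv_inv, ← map_inv, ← map_mul, ← map_mul]
      refine ⟨h, hh, congrArg π ?_⟩
      rw [show c * h = h * (h⁻¹ * c * h) by group, ← e]
      group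
    · rintro ⟨s, hs, hsv⟩
      rw [← hsv]
      obtain ⟨c, hc, z, hz, rfl⟩ := (hK s).1 hs
      by_contra hne
      simp only [Cfsg.frobeniusKernel, Set.mem_setOf_eq, not_or, not_forall, not_not] at hne
      obtain ⟨hne1, w, hw⟩ := hne
      obtain ⟨w, rfl⟩ := QuotientGroup.mk'_surjective (Subgroup.center G) w
      rw [Subgroup.mem_pointwise_smul_iff_inv_smul_mem, MulAut.smul_def, ← map_inv, MulAut.conj_apply,
        inv_inv, ← map_inv, ← map_mul, ← map_mul] at hw
      have h1 := hmemH _ hw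
      have h2 : w⁻¹ * c * w ∈ H := by
        have h3 := H.mul_mem h1 (H.inv_mem (hZH hz))
        have hzw : z * w = w * z := (Subgroup.mem_center_iff.1 hz w).symm
        rwa [show w⁻¹ * (c * z) * w * z⁻¹ = w⁻¹ * c * w by
          rw [show w⁻¹ * (c * z) * w * z⁻¹ = w⁻¹ * c * (z * w) * z⁻¹ by group, hzw]; group] at h3
      have h4 := hMH _ (by
        have := Lib.ClassGraph.topM_normal.conj_mem _ hc w⁻¹
        rwa [inv_inv] at this) h2
      have h5 : c = 1 := by
        calc c = w * (w⁻¹ * c * w) * w⁻¹ := by group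
          _ = 1 := by rw [h4]; group
      refine hne1 ((QuotientGroup.eq_one_iff _).2 ?_)
      rw [h5, one_mul]
      exact hz

end Cfsg.Agent.S4138
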