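import Cfsg.Statements.S4139
import Cfsg.Agent.Lib.GS.Sylow

set_option autoImplicit false
open Cfsg

namespace Cfsg.Agent.S4139


open Subgroup

/-- Class size. -/
noncomputable abbrev cs {G : Type*} [Group G] (x : G) : ℕ := (Subgroup.centralizer ({x} : Set G)).index

/-- Equal multisets of class sizes give equal counts of elements with prescribed class sizes. -/
lemma count_eq {G H : Type*} [Group G] [Finite G] [Group H] [Finite H]
    (h : ∀ k : ℕ, Nat.card {C : ConjClasses G // Nat.card C.carrier = k} =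
      Nat.card {C : ConjClasses H // Nat.card C.carrier = k}) (P : ℕ → Prop) :
    Nat.card {x : G // P (cs x)} = Nat.card {x : H // P (cs x)} := by
  classical
  let e : ConjClasses G ≃ ConjClasses H := Equiv.ofFiberEquiv
    (f := fun C => Nat.card C.carrier) (g := fun C => Nat.card C.carrier)
    (fun k => (Finite.card_eq.1 (h k)).some)
  have he : ∀ C, Nat.card (e C).carrier = Nat.card C.carrier := fun C =>
    Equiv.ofFiberEquiv_map (f := fun C : ConjClasses G => Nat.card C.carrier) (g := fun C : ConjClasses H => Nat.card C.carrier) _ C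
  have key : ∀ (K : Type _) [Group K] [Finite K],
      Nonempty ({x : K // P (cs x)} ≃ Σ C : {C : ConjClasses K // P (Nat.card C.carrier)}, C.1.carrier) := by
    intro K _ _
    have hx : ∀ x : K, cs x = Nat.card (ConjClasses.mk x).carrier := fun x => by
      rw [Nat.card_coe_set_eq, Cfsg.Agent.Lib.GS.ncard_carrier_eq_index]
    refine ⟨⟨fun x => ⟨⟨ConjClasses.mk x.1, by rw [← hx]; exact x.2⟩, ⟨x.1, ConjClasses.mem_carrier_mk⟩⟩,
      fun s => ⟨s.2.1, ?_⟩, fun x => rfl, ?_⟩⟩
    · rw [hx, ConjClasses.mem_carrier_iff_mk_eq.1 s.2.2]; exact s.1.2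
    · rintro ⟨⟨C, hC⟩, ⟨x, hxC⟩⟩
      obtain rfl := ConjClasses.mem_carrier_iff_mk_eq.1 hxC
      rfl
  have key2 : ∀ (K : Type _) [Group K] [Finite K],
      Nonempty ({x : K // P (cs x)} ≃ Σ C : {C : ConjClasses K // P (Nat.card C.carrier)}, C.1.carrier) := by
    intro K _ _
    have hx : ∀ x : K, cs x = Nat.card (ConjClasses.mk x).carrier := fun x => by
      rw [Nat.card_coe_set_eq, Cfsg.Agent.Lib.GS.ncard_carrier_eq_index]
    refine ⟨⟨fun x => ⟨⟨ConjClasses.mk x.1, by rw [← hx]; exact x.2⟩, ⟨x.1, ConjClasses.mem_carrier_mk⟩⟩,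
      fun s => ⟨s.2.1, ?_⟩, fun x => rfl, ?_⟩⟩
    · rw [hx, ConjClasses.mem_carrier_iff_mk_eq.1 s.2.2]; exact s.1.2
    · rintro ⟨⟨C, hC⟩, ⟨x, hxC⟩⟩
      obtain rfl := ConjClasses.mem_carrier_iff_mk_eq.1 hxC
      rfl
  obtain ⟨eG⟩ := key G
  obtain ⟨eH⟩ := key2 H
  refine Nat.card_congr (eG.trans ((Equiv.sigmaCongr
    (e.subtypeEquiv (p := fun C => P (Nat.card C.carrier)) (q := fun C => P (Nat.card C.carrier))
      fun C => by rw [he]) fun C => (Finite.card_eq.1 (he C.1).symm).some).trans eH.symm))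

lemma cs_eq_one {G : Type*} [Group G] (x : G) : cs x = 1 ↔ x ∈ center G := by
  rw [cs, index_eq_one, mem_center_iff, eq_top_iff']
  simp only [mem_centralizer_singleton_iff]

lemma card_sup {G : Type*} [Group G] [Finite G] (H K : Subgroup G) [K.Normal] :
    Nat.card ↥(H ⊔ K) * Nat.card ↥(H ⊓ K) = Nat.card ↥H * Nat.card ↥K := by
  have h1 := (K.subgroupOf (H ⊔ K)).card_mul_index
  have h2 := (K.subgroupOf H).card_mul_index
  rw [Nat.card_congr (subgroupOfEquivOfLe le_sup_right).toEquiv] at h1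
  change Nat.card ↥K * K.relIndex (H ⊔ K) = _ at h1
  rw [relIndex_sup_right] at h1
  change _ * K.relIndex H = _ at h2
  have h3 : Nat.card ↥(K.subgroupOf H) = Nat.card ↥(H ⊓ K) := by
    rw [← inf_subgroupOf_left K H]
    exact Nat.card_congr (subgroupOfEquivOfLe inf_le_left).toEquiv
  rw [h3] at h2
  rw [← h1, ← h2]; ring

/-- The `p`-part of the centre. -/
lemma card_center_inf {G : Type*} [Group G] [Finite G] {p : ℕ} [Fact p.Prime] (P : Sylow p G) :
    Nat.card ↥(center G ⊓ (P : Subgroup G)) = p ^ (Nat.card ↥(center G)).factorization p := by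
  obtain ⟨Q⟩ : Nonempty (Sylow p ↥(center G)) := inferInstance
  rw [← Q.card_eq_multiplicity, ← card_map_of_injective (center G).subtype_injective]
  congr 1
  suffices h : center G ⊓ (P : Subgroup G) = (Q : Subgroup ↥(center G)).map (center G).subtype by rw [h]
  apply le_antisymm
  · have hp : IsPGroup p ↥((P : Subgroup G).subgroupOf (center G)) :=
      P.isPGroup'.comap_of_injective _ (center G).subtype_injective
    obtain ⟨R, hR⟩ := hp.exists_le_sylow
    have hn : (Q : Subgroup ↥(center G)).Normal := ⟨fun n hn g => by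
      have : g * n * g⁻¹ = n := Subtype.ext (by
        rw [Subgroup.coe_mul, Subgroup.coe_mul, Subgroup.coe_inv, mem_center_iff.1 n.2 g, mul_inv_cancel_right])
      rwa [this]⟩
    have := Sylow.unique_of_normal Q hn
    rintro x ⟨hx1, hx2⟩
    refine ⟨⟨x, hx1⟩, ?_, rfl⟩
    rw [Subsingleton.elim Q R]
    exact hR hx2
  · refine le_inf (map_subtype_le _) ?_
    have : ((Q : Subgroup ↥(center G)).map (center G).subtype).Normal := ⟨fun n hn g => by
      have h1 : g * n * g⁻¹ = n := by
        rw [mem_center_iff.1 (map_subtype_le _ hn) g, mul_inv_cancel_right]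
      rwa [h1]⟩
    have h2 := Q.isPGroup'.map (center G).subtype
    exact le_trans le_sup_right (P.is_maximal' (P.isPGroup'.to_sup_of_normal_right h2) le_sup_left).le

/-- A `p`-element commuting with a Sylow `p`-subgroup lies in it. -/
lemma mem_of_commutes {G : Type*} [Group G] [Finite G] {p : ℕ} [Fact p.Prime] (P : Sylow p G) {x : G}
    {k : ℕ} (hx : orderOf x = p ^ k) (hc : x ∈ centralizer ((P : Subgroup G) : Set G)) :
    x ∈ (P : Subgroup G) := by
  have h1 : IsPGroup p ↥(zpowers x) := IsPGroup.of_card (by rw [Nat.card_zpowers, hx])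
  have h2 : (P : Subgroup G) ≤ normalizer (zpowers x : Set G) := by
    refine le_trans ?_ (centralizer_le_normalizer _)
    rw [le_centralizer_iff, zpowers_le]; exact hc
  have h3 := P.isPGroup'.to_sup_of_normal_right' h1 h2
  exact le_trans le_sup_right (P.is_maximal' h3 le_sup_left).le (mem_zpowers x)

/-- `p` does not divide the class size iff some Sylow `p`-subgroup centralises the element. -/
lemma not_dvd_cs_iff {G : Type*} [Group G] [Finite G] {p : ℕ} [Fact p.Prime] (x : G) :
    ¬ p ∣ cs x ↔ ∃ P : Sylow p G, x ∈ centralizer ((P : Subgroup G) : Set G) := by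
  constructor
  · intro h
    obtain ⟨Q⟩ : Nonempty (Sylow p ↥(centralizer ({x} : Set G))) := inferInstance
    obtain ⟨P, hP⟩ := (Q.isPGroup'.map (centralizer ({x} : Set G)).subtype).exists_le_sylow
    have hle : (Q : Subgroup _).map (centralizer ({x} : Set G)).subtype = (P : Subgroup G) := by
      refine eq_of_le_of_card_ge hP ?_
      rw [card_map_of_injective (centralizer ({x} : Set G)).subtype_injective, P.card_eq_multiplicity,
        Q.card_eq_multiplicity]
      refine Nat.pow_le_pow_right (Fact.out : p.Prime).pos (le_of_eq ?_)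
      have := (centralizer ({x} : Set G)).card_mul_index
      rw [← this, Nat.factorization_mul Nat.card_pos.ne' index_ne_zero_of_finite,
        Finsupp.add_apply, Nat.factorization_eq_zero_of_not_dvd h, add_zero]
    refine ⟨P, fun y hy => ?_⟩
    have : y ∈ centralizer ({x} : Set G) := map_subtype_le _ (hle ▸ hy : y ∈ (Q : Subgroup _).map _)
    exact mem_centralizer_singleton_iff.1 this
  · rintro ⟨P, hP⟩ h
    refine P.not_dvd_index (h.trans (index_dvd_of_le fun y hy => ?_))
    exact mem_centralizer_singleton_iff.2 (hP y hy)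

/-- In a nilpotent group everything is controlled by the Sylow subgroup. -/
lemma nilpotent_facts {H : Type*} [Group H] [Finite H] [hn : Group.IsNilpotent H] {p : ℕ}
    [Fact p.Prime] (P : Sylow p H) :
    Nat.card {x : H // ¬ p ∣ cs x} * Nat.card ↥(P : Subgroup H) =
        Nat.card H * Nat.card ↥(center H ⊓ (P : Subgroup H)) ∧
      Nat.card ↥((P : Subgroup H) ⊔ center H) ≤
        Nat.card {x : H // ∀ q : ℕ, q.Prime → q ≠ p → ¬ q ∣ cs x} := by
  have hsn : ∀ (q : ℕ) [Fact q.Prime] (Q : Sylow q H), (Q : Subgroup H).Normal :=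
    fun q hq Q => (Group.isNilpotent_of_finite_tfae.out 0 3 rfl rfl |>.mp hn) q hq Q
  have hcomm : ∀ (q : ℕ) [Fact q.Prime] (Q : Sylow q H), q ≠ p →
      ∀ a ∈ (P : Subgroup H), ∀ b ∈ (Q : Subgroup H), a * b = b * a := by
    intro q _ Q hqp a ha b hb
    exact commute_of_normal_of_disjoint _ _ (hsn p P) (hsn q Q)
      (IsPGroup.disjoint_of_ne p q hqp.symm _ _ P.isPGroup' Q.isPGroup') a b ha hb
  have := hsn p P
  set C := centralizer ((P : Subgroup H) : Set H) with hC
  have htop : (P : Subgroup H) ⊔ C = ⊤ := by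
    refine Cfsg.Agent.Lib.GS.eq_top_of_prime_power_elements fun x q b hq hx => ?_
    have := Fact.mk hq
    rcases eq_or_ne q p with rfl | hqp
    · exact mem_sup_left (Cfsg.Agent.Lib.GS.mem_of_normal_sylow P (hsn q P) hx)
    · obtain ⟨Q⟩ : Nonempty (Sylow q H) := inferInstance
      have hxQ := Cfsg.Agent.Lib.GS.mem_of_normal_sylow Q (hsn q Q) hx
      exact mem_sup_right fun a ha => hcomm q Q hqp a ha x hxQ
  have hZ : (P : Subgroup H) ⊓ C = center H ⊓ (P : Subgroup H) := by
    apply le_antisymm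
    · rintro z ⟨hz1, hz2⟩
      refine ⟨mem_center_iff.2 fun g => ?_, hz1⟩
      have hle : (P : Subgroup H) ⊔ C ≤ centralizer {z} :=
        sup_le (fun a ha => mem_centralizer_singleton_iff.2 (hz2 a ha))
          (fun c hc => mem_centralizer_singleton_iff.2 (hc z hz1).symm)
      rw [htop] at hle
      exact mem_centralizer_singleton_iff.1 (hle (mem_top g))
    · exact fun z hz => ⟨hz.2, fun a _ => mem_center_iff.1 hz.1 a⟩
  refine ⟨?_, ?_⟩
  · have hset : ∀ x : H, ¬ p ∣ cs x ↔ x ∈ C := fun x => by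
      rw [not_dvd_cs_iff]
      refine ⟨fun ⟨Q, hQ⟩ => ?_, fun hx => ⟨P, hx⟩⟩
      have := Sylow.unique_of_normal P (hsn p P)
      rwa [Subsingleton.elim Q P] at hQ
    have h1 : Nat.card {x : H // ¬ p ∣ cs x} = Nat.card ↥C :=
      Nat.card_congr (Equiv.subtypeEquivRight hset)
    have : C.Normal := by rw [hC]; infer_instance
    have h2 := card_sup (P : Subgroup H) C
    rw [htop, hZ, card_top] at h2
    rw [h1, h2]; ring
  · refine Nat.card_le_card_of_injective (fun x => ⟨x.1, ?_⟩) (fun x y h => Subtype.ext (Subtype.ext_iff.1 h :))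
    intro q hq hqp
    have := Fact.mk hq
    obtain ⟨Q⟩ : Nonempty (Sylow q H) := inferInstance
    rw [not_dvd_cs_iff]
    refine ⟨Q, ?_⟩
    have hle : (P : Subgroup H) ⊔ center H ≤ centralizer ((Q : Subgroup H) : Set H) :=
      sup_le (fun a ha b hb => (hcomm q Q hqp a ha b hb).symm) (fun z hz b _ => mem_center_iff.1 hz b)
    exact hle x.2

/-- If the elements with `p'`-class number `|G|·|Z_p|/|P|`, then `Z(P) = Z(G)_p`. -/
lemma center_sylow_central {G : Type*} [Group G] [Finite G] {p : ℕ} [hp : Fact p.Prime] (P : Sylow p G)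
    (hX : Nat.card {x : G // ¬ p ∣ cs x} * Nat.card ↥(P : Subgroup G) =
      Nat.card G * Nat.card ↥(center G ⊓ (P : Subgroup G)))
    {z : G} (hz : z ∈ (P : Subgroup G)) (hzc : z ∈ centralizer ((P : Subgroup G) : Set G)) :
    z ∈ center G := by
  classical
  set Z := center G ⊓ (P : Subgroup G) with hZdef
  have hZn : Z.Normal := ⟨fun n hn g => by
    have h1 : g * n * g⁻¹ = n := by rw [mem_center_iff.1 hn.1 g, mul_inv_cancel_right]
    rwa [h1]⟩
  let π := QuotientGroup.mk' Z
  -- translation invariance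
  have hinv : ∀ x : G, ∀ w ∈ Z, cs (x * w) = cs x := fun x w hw => by
    have : centralizer ({x * w} : Set G) = centralizer {x} := by
      ext g
      simp only [mem_centralizer_singleton_iff]
      rw [← mul_assoc, show x * w * g = x * g * w by
        rw [mul_assoc, ← mem_center_iff.1 hw.1 g, ← mul_assoc]]
      exact mul_left_inj w
    rw [cs, cs, this]
  let T : Set (G ⧸ Z) := π '' {x | ¬ p ∣ cs x}
  have hpre : π ⁻¹' T = {x | ¬ p ∣ cs x} := by
    ext x
    constructor
    · rintro ⟨y, hy, hyx⟩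
      obtain ⟨w, hw, rfl⟩ : ∃ w ∈ Z, y * w = x :=
        ⟨y⁻¹ * x, QuotientGroup.eq.1 hyx, mul_inv_cancel_left y x⟩
      simpa [hinv y w hw] using hy
    · intro hx; exact ⟨x, hx, rfl⟩
  have hTcard : Nat.card ↥Z * Nat.card T = Nat.card {x : G // ¬ p ∣ cs x} := by
    rw [← Nat.card_prod, ← Nat.card_congr (QuotientGroup.preimageMkEquivSubgroupProdSet Z T)]
    exact Nat.card_congr (Equiv.setCongr hpre)
  have hTidx : Nat.card T = (P : Subgroup G).index := by
    have h1 := (P : Subgroup G).card_mul_index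
    rw [← hTcard, ← h1] at hX
    have h2 : (Nat.card ↥Z * Nat.card ↥(P : Subgroup G)) * Nat.card T =
        (Nat.card ↥Z * Nat.card ↥(P : Subgroup G)) * (P : Subgroup G).index := by
      linarith [hX]
    exact Nat.eq_of_mul_eq_mul_left (Nat.mul_pos Nat.card_pos Nat.card_pos) h2
  -- conjugation action of `P` on `T`
  have hconjT : ∀ (g : G) (t : G ⧸ Z), t ∈ T → π g * t * (π g)⁻¹ ∈ T := by
    rintro g _ ⟨x, hx, rfl⟩
    refine ⟨g * x * g⁻¹, ?_, by simp [π]⟩
    show ¬ p ∣ cs (g * x * g⁻¹)
    rw [cs, ← Cfsg.Agent.Lib.GS.ncard_carrier_eq_index,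
      ← ConjClasses.mk_eq_mk_iff_isConj.2 (isConj_iff.2 ⟨g, rfl⟩),
      Cfsg.Agent.Lib.GS.ncard_carrier_eq_index]
    exact hx
  let : MulAction ↥(P : Subgroup G) T :=
    { smul := fun g t => ⟨π (g : G) * t.1 * (π (g : G))⁻¹, hconjT _ _ t.2⟩
      one_smul := fun t => Subtype.ext (by show π ((1 : ↥(P : Subgroup G)) : G) * _ * _ = _; simp)
      mul_smul := fun g h t => Subtype.ext (by
        show π ((g * h : ↥(P : Subgroup G)) : G) * t.1 * _ = π (g : G) * (π (h : G) * t.1 * _) * _
        simp [mul_assoc]) }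
  have hmod := P.isPGroup'.card_modEq_card_fixedPoints (T : Type _)
  set CP := centralizer ((P : Subgroup G) : Set G) with hCP
  have hfix : Nat.card (MulAction.fixedPoints ↥(P : Subgroup G) T) = Nat.card ↥(CP.map π) := by
    refine Nat.card_congr ⟨fun t => ⟨t.1.1, ?_⟩, fun c => ⟨⟨c.1, ?_⟩, ?_⟩, fun t => rfl, fun c => rfl⟩
    · obtain ⟨⟨_, x, hx, rfl⟩, ht⟩ := t
      refine ⟨x, ?_, rfl⟩
      obtain ⟨Q, hQ⟩ := (not_dvd_cs_iff x).1 hx
      intro g hg
      have h1 : π g * π x * (π g)⁻¹ = π x := congrArg Subtype.val (ht ⟨g, hg⟩)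
      rw [← map_inv, ← map_mul, ← map_mul] at h1
      set w := x⁻¹ * (g * x * g⁻¹) with hw
      have hwZ : w ∈ Z := QuotientGroup.eq.1 h1.symm
      have hgx : g * x * g⁻¹ = x * w := by rw [hw, mul_inv_cancel_left]
      have hxwQ : x * w ∈ centralizer ((Q : Subgroup G) : Set G) :=
        mul_mem hQ (fun a _ => mem_center_iff.1 hwZ.1 a)
      obtain ⟨n, hn, hnx⟩ := Q.conj_eq_normalizer_conj_of_mem_centralizer x g⁻¹ hQ
        (by rw [inv_inv, hgx]; exact hxwQ)
      rw [inv_inv, hgx] at hnx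
      have hnk : ∀ k : ℕ, (n⁻¹) ^ k * x * ((n⁻¹) ^ k)⁻¹ = x * w ^ k := by
        intro k
        induction k with
        | zero => simp
        | succ k ih =>
          rw [pow_succ', pow_succ w, mul_inv_rev,
            show n⁻¹ * n⁻¹ ^ k * x * ((n⁻¹ ^ k)⁻¹ * n⁻¹⁻¹) = n⁻¹ * (n⁻¹ ^ k * x * (n⁻¹ ^ k)⁻¹) * n by group,
            ih]
          have hcw : n⁻¹ * w ^ k = w ^ k * n⁻¹ := mem_center_iff.1 (pow_mem hwZ.1 k) n⁻¹
          calc n⁻¹ * (x * w ^ k) * n = n⁻¹ * x * (w ^ k * n) := by group
            _ = n⁻¹ * x * (n * w ^ k) := by rw [mem_center_iff.1 (pow_mem hwZ.1 k) n]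
            _ = (n⁻¹ * x * n) * w ^ k := by group
            _ = x * w * w ^ k := by rw [← hnx]
            _ = x * (w ^ k * w) := by rw [mul_assoc, ← pow_succ', pow_succ]
      obtain ⟨b, r, hr, hord⟩ : ∃ b r, ¬ p ∣ r ∧ orderOf n⁻¹ = p ^ b * r :=
        ⟨_, _, Nat.not_dvd_ordCompl hp.out (orderOf_pos _).ne', (Nat.ordProj_mul_ordCompl_eq_self _ p).symm⟩
      have hpow : (n⁻¹ ^ r) ∈ (Q : Subgroup G) := by
        have ho : orderOf (n⁻¹ ^ r) = p ^ b := by
          rw [orderOf_pow' _ (fun h => hr (by rw [h]; exact dvd_zero p)), hord, Nat.gcd_eq_right (dvd_mul_left r _),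
            Nat.mul_div_cancel _ (Nat.pos_of_ne_zero (fun h => hr (by rw [h]; exact dvd_zero p)))]
        have h1 : IsPGroup p ↥(zpowers (n⁻¹ ^ r)) := IsPGroup.of_card (by rw [Nat.card_zpowers, ho])
        have h2 : zpowers (n⁻¹ ^ r) ≤ normalizer ((Q : Subgroup G) : Set G) :=
          zpowers_le.2 (pow_mem (inv_mem hn) r)
        exact le_trans le_sup_left
          (Q.is_maximal' (h1.to_sup_of_normal_right' Q.isPGroup' h2) le_sup_right).le (mem_zpowers _)
      have hwr : w ^ r = 1 := by
        have h2 := hnk r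
        rw [hQ _ hpow, mul_inv_cancel_right, left_eq_mul] at h2
        exact h2
      have hw1 : w = 1 := by
        obtain ⟨j, hj⟩ := IsPGroup.iff_orderOf.1 P.isPGroup' ⟨w, hwZ.2⟩
        rw [← Subgroup.orderOf_coe] at hj
        have h3 : orderOf w ∣ r := orderOf_dvd_of_pow_eq_one hwr
        rw [hj] at h3
        rcases Nat.eq_zero_or_pos j with rfl | hj0
        · exact orderOf_eq_one_iff.1 hj
        · exact absurd ((dvd_pow_self p hj0.ne').trans h3) hr
      rw [hw1, mul_one] at hgx
      exact mul_inv_eq_iff_eq_mul.1 hgx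
    · obtain ⟨x, hx, hxc⟩ := c.2
      exact ⟨x, (not_dvd_cs_iff x).2 ⟨P, hx⟩, hxc⟩
    · intro g
      obtain ⟨_, x, hx, rfl⟩ := c
      refine Subtype.ext ?_
      show π (g : G) * π x * (π (g : G))⁻¹ = π x
      rw [← map_inv, ← map_mul, ← map_mul, hx g g.2, mul_inv_cancel_right]
  by_contra hzn
  have hdvd : p ∣ Nat.card ↥(CP.map π) := by
    have hmem : π z ∈ CP.map π := mem_map_of_mem _ hzc
    refine dvd_trans ?_ (Subgroup.orderOf_dvd_natCard _ hmem)
    obtain ⟨k, hk⟩ := IsPGroup.iff_orderOf.1 P.isPGroup' ⟨z, hz⟩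
    rw [← Subgroup.orderOf_coe] at hk
    obtain ⟨i, -, hi⟩ := (Nat.dvd_prime_pow hp.out).1 (hk ▸ orderOf_map_dvd π z)
    rcases Nat.eq_zero_or_pos i with rfl | hi0
    · have h1 : π z = 1 := orderOf_eq_one_iff.1 (by rw [hi, pow_zero])
      exact absurd ((QuotientGroup.eq_one_iff z).1 h1).1 hzn
    · rw [hi]; exact dvd_pow_self p hi0.ne'
  rw [hfix, hTidx] at hmod
  exact P.not_dvd_index (Nat.modEq_zero_iff_dvd.1 (hmod.trans (Nat.modEq_zero_iff_dvd.2 hdvd)))

/-- A `p`-element of `p`-power class size lies in every Sylow `p`-subgroup. -/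
lemma mem_all_sylow {G : Type*} [Group G] [Finite G] {p : ℕ} [hp : Fact p.Prime] {x : G} {k : ℕ}
    (hx : orderOf x = p ^ k) (hc : ∀ q : ℕ, q.Prime → q ≠ p → ¬ q ∣ cs x) (P : Sylow p G) :
    ∀ g : G, g * x * g⁻¹ ∈ (P : Subgroup G) := by
  have h1 : IsPGroup p ↥(zpowers x) := IsPGroup.of_card (by rw [Nat.card_zpowers, hx])
  obtain ⟨S, hS⟩ := h1.exists_le_sylow
  set C := centralizer ({x} : Set G) with hC
  obtain ⟨m, hm⟩ : ∃ m, C.index = p ^ m :=
    ⟨_, Nat.eq_prime_pow_of_unique_prime_dvd index_ne_zero_of_finite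
      fun {d} hd hdd => by_contra fun hne => hc d hd hne hdd⟩
  have hrel : C.relIndex (S : Subgroup G) = C.index := by
    refine le_antisymm (Nat.le_of_dvd ?_ ?_) ?_ |>.symm |>.symm
    · exact Nat.pos_of_ne_zero index_ne_zero_of_finite
    · obtain ⟨i, hi⟩ := IsPGroup.index (hp := hp) S.isPGroup' (C.subgroupOf (S : Subgroup G))
      have hh := (C.subgroupOf (S : Subgroup G)).card_mul_index
      obtain ⟨j, hj⟩ := IsPGroup.iff_card.1 S.isPGroup'
      have hle : C.relIndex (S : Subgroup G) ≤ C.index := by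
        rw [← relIndex_top_right]; exact relIndex_le_of_le_right le_top (by rw [relIndex_top_right]; exact index_ne_zero_of_finite)
      rw [show C.relIndex (S : Subgroup G) = p ^ i from hi, hm] at hle ⊢
      exact pow_dvd_pow p ((Nat.pow_le_pow_iff_right hp.out.one_lt).1 hle)
    · have hSC : Nat.card ↥(C.subgroupOf (S : Subgroup G)) * C.index ∣ Nat.card G := by
        rw [← C.card_mul_index]
        refine Nat.mul_dvd_mul_right ?_ _
        rw [← card_map_of_injective (S : Subgroup G).subtype_injective, subgroupOf_map_subtype]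
        exact card_dvd_of_le inf_le_left
      obtain ⟨i, hi⟩ := IsPGroup.iff_card.1 (S.isPGroup'.to_subgroup (C.subgroupOf (S : Subgroup G)))
      rw [hi, hm, ← pow_add] at hSC
      have h2 : p ^ (i + m) ∣ Nat.card ↥(S : Subgroup G) := by
        rw [S.card_eq_multiplicity]
        exact pow_dvd_pow p ((hp.out.pow_dvd_iff_le_factorization Nat.card_pos.ne').1 hSC)
      rw [← (C.subgroupOf (S : Subgroup G)).card_mul_index, hi, pow_add, ← hm] at h2
      exact Nat.le_of_dvd (Nat.pos_of_ne_zero index_ne_zero_of_finite)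
        (Nat.dvd_of_mul_dvd_mul_left (pow_pos hp.out.pos i) h2)
  let f : ↥(S : Subgroup G) ⧸ C.subgroupOf (S : Subgroup G) → G ⧸ C :=
    Quotient.map' (fun s => (s : G)) fun a b hab => by
      rw [QuotientGroup.leftRel_apply] at hab ⊢
      exact hab
  have hf : Function.Surjective f := by
    refine ((Nat.bijective_iff_injective_and_card f).2 ⟨?_, hrel⟩).2
    intro a b hab
    induction a using QuotientGroup.induction_on with
    | H a =>
      induction b using QuotientGroup.induction_on with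
      | H b =>
        have h : ((a : G) : G ⧸ C) = ((b : G) : G ⧸ C) := hab
        rw [QuotientGroup.eq] at h
        refine QuotientGroup.eq.2 (mem_subgroupOf.2 ?_)
        simpa using h
  have hall : ∀ g : G, g * x * g⁻¹ ∈ (S : Subgroup G) := by
    intro g
    obtain ⟨s, hs⟩ := hf (g : G ⧸ C)
    induction s using QuotientGroup.induction_on with
    | H s =>
      obtain ⟨c, hc, rfl⟩ : ∃ c ∈ C, (s : G) * c = g :=
        ⟨_, QuotientGroup.eq.1 hs, mul_inv_cancel_left _ _⟩
      have hcx : c * x * c⁻¹ = x := by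
        rw [mem_centralizer_singleton_iff.1 hc, mul_inv_cancel_right]
      rw [show (s : G) * c * x * ((s : G) * c)⁻¹ = s * (c * x * c⁻¹) * (s : G)⁻¹ by group, hcx]
      exact mul_mem (mul_mem s.2 (hS (mem_zpowers x))) (inv_mem s.2)
  intro g
  obtain ⟨a, rfl⟩ := MulAction.exists_smul_eq G S P
  rw [Sylow.coe_subgroup_smul]
  have := Subgroup.smul_mem_pointwise_smul _ (MulAut.conj a) _ (hall (a⁻¹ * g))
  simpa [mul_assoc] using this

/-- Let G and H be finite groups such that for every natural number k, G and H have the same number of conjugacy classes of size k. If H is nilpotent then G is nilpotent. -/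
theorem result {G H : Type*} [Group G] [Finite G] [Group H] [Finite H]
    (hH : Group.IsNilpotent H)
    (h : ∀ k : ℕ, Nat.card {C : ConjClasses G // Nat.card C.carrier = k} = Nat.card {C : ConjClasses H // Nat.card C.carrier = k}) :
    Group.IsNilpotent G := by
  classical
  have := hH
  have hcard : Nat.card G = Nat.card H := by
    have := count_eq h (fun _ => True)
    rwa [Nat.card_congr (Equiv.subtypeUnivEquiv fun _ => trivial),
      Nat.card_congr (Equiv.subtypeUnivEquiv fun _ => trivial)] at this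
  have hcen : Nat.card ↥(Subgroup.center G) = Nat.card ↥(Subgroup.center H) := by
    have := count_eq h (fun k => k = 1)
    rwa [Nat.card_congr (Equiv.subtypeEquivRight cs_eq_one),
      Nat.card_congr (Equiv.subtypeEquivRight cs_eq_one)] at this
  refine Group.isNilpotent_of_finite_tfae.out 3 0 rfl rfl |>.mp fun p hp P => ?_
  -- the centre of every Sylow subgroup is central
  have key : ∀ (q : ℕ) [Fact q.Prime] (Q : Sylow q G) (z : G), z ∈ (Q : Subgroup G) →
      z ∈ Subgroup.centralizer ((Q : Subgroup G) : Set G) → z ∈ Subgroup.center G := by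
    intro q _ Q z hz hzc
    refine center_sylow_central Q ?_ hz hzc
    obtain ⟨R⟩ : Nonempty (Sylow q H) := inferInstance
    have h1 := (nilpotent_facts R).1
    rw [R.card_eq_multiplicity, card_center_inf] at h1
    rw [count_eq h (fun k => ¬ q ∣ k), Q.card_eq_multiplicity, card_center_inf, hcard, hcen]
    exact h1
  obtain ⟨R⟩ : Nonempty (Sylow p H) := inferInstance
  set N := (P : Subgroup G).normalCore with hN
  have hY : ∀ x : G, (∀ q : ℕ, q.Prime → q ≠ p → ¬ q ∣ cs x) → x ∈ N ⊔ Subgroup.center G := by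
    intro x hx
    refine (Cfsg.Agent.Lib.GS.le_of_prime_power_elements (H := Subgroup.zpowers x) fun y hy q b hq hyo => ?_)
      (Subgroup.mem_zpowers x)
    have hy' : ∀ r : ℕ, r.Prime → r ≠ p → ¬ r ∣ cs y := fun r hr hrp hd =>
      hx r hr hrp (hd.trans (Subgroup.index_dvd_of_le fun g hg => by
        rw [Subgroup.mem_centralizer_singleton_iff] at hg ⊢
        obtain ⟨k, rfl⟩ := Subgroup.mem_zpowers_iff.1 hy
        exact (Commute.zpow_right (show Commute g x from hg) k)))
    have := Fact.mk hq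
    rcases eq_or_ne q p with rfl | hqp
    · exact Subgroup.mem_sup_left (mem_all_sylow hyo hy' P)
    · obtain ⟨Q, hQ⟩ := (not_dvd_cs_iff (p := q) y).1 (hy' q hq hqp)
      exact Subgroup.mem_sup_right (key q Q y (mem_of_commutes Q hyo hQ) hQ)
  have hle : Nat.card ↥((R : Subgroup H) ⊔ Subgroup.center H) ≤ Nat.card ↥(N ⊔ Subgroup.center G) := by
    refine (nilpotent_facts R).2.trans ?_
    rw [← count_eq h (fun k => ∀ q : ℕ, q.Prime → q ≠ p → ¬ q ∣ k)]
    exact Nat.card_le_card_of_injective (fun x => ⟨x.1, hY x.1 x.2⟩)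
      fun a b hab => Subtype.ext (Subtype.ext_iff.1 hab :)
  have hNZ : N ⊓ Subgroup.center G = Subgroup.center G ⊓ (P : Subgroup G) := by
    refine le_antisymm (fun z hz => ⟨hz.2, Subgroup.normalCore_le _ hz.1⟩) (fun z hz => ⟨?_, hz.1⟩)
    intro g
    rw [Subgroup.mem_center_iff.1 hz.1 g, mul_inv_cancel_right]
    exact hz.2
  have h1 := card_sup (R : Subgroup H) (Subgroup.center H)
  have h2 := card_sup N (Subgroup.center G)
  rw [hNZ, card_center_inf] at h2
  rw [inf_comm, card_center_inf, ← hcen] at h1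
  have hPR : Nat.card ↥(R : Subgroup H) = Nat.card ↥(P : Subgroup G) := by
    rw [R.card_eq_multiplicity, P.card_eq_multiplicity, hcard]
  have hPN : Nat.card ↥(P : Subgroup G) ≤ Nat.card ↥N := by
    have h3 := Nat.mul_le_mul_right (p ^ (Nat.card ↥(Subgroup.center G)).factorization p) hle
    rw [h1, h2, hPR] at h3
    exact Nat.le_of_mul_le_mul_right h3 Nat.card_pos
  rw [← Subgroup.eq_of_le_of_card_ge (Subgroup.normalCore_le _) hPN]
  exact Subgroup.normalCore_normal _

end Cfsg.Agent.S4139
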