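import Cfsg.Statements.S4140
import Cfsg.Agent.Lib.Camina.Basic

set_option autoImplicit false
open Cfsg

namespace Cfsg.Agent.S4140


open Subgroup

universe u

theorem aux {G : Type u} [Group G] [Finite G] {N : Subgroup G} [N.Normal] (hcam : Lib.Camina.IsCamina N)
    (hN1 : N ≠ ⊥) (hN2 : N ≠ ⊤) :
    (∀ x ∈ N, x ≠ 1 → centralizer ({x} : Set G) ≤ N) ∨ IsPrimePow (Nat.card N) ∨ IsPrimePow N.index := by
  classical
  by_cases hco : Nat.Coprime (Nat.card N) N.index
  · left
    intro x hx hx1 g hg
    by_contra hgN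
    apply hx1
    rw [← orderOf_eq_one_iff]
    refine Nat.eq_one_of_dvd_coprimes hco (Subgroup.orderOf_dvd_natCard N hx) ?_
    have h1 : x ∈ centralizer ({g} : Set G) :=
      mem_centralizer_singleton_iff.mpr (mem_centralizer_singleton_iff.mp hg).symm
    have h2 := Subgroup.orderOf_dvd_natCard _ h1
    rw [Lib.Camina.card_centralizer_eq hcam hgN] at h2
    rw [index_eq_card]
    exact h2.trans (card_subgroup_dvd_card _)
  obtain ⟨p, hp, hpN, hpI⟩ := Nat.Prime.not_coprime_iff_dvd.mp hco
  haveI := Fact.mk hp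
  by_cases hpp : IsPrimePow N.index
  · exact Or.inr (Or.inr hpp)
  obtain ⟨q, hq, hqI, hqp⟩ : ∃ q, q.Prime ∧ q ∣ N.index ∧ q ≠ p := by
    by_contra hc
    push Not at hc
    apply hpp
    have hidx : N.index ≠ 0 := index_ne_zero_of_finite
    obtain ⟨k, hk⟩ : ∃ k, N.index = p ^ k :=
      ⟨_, Nat.eq_prime_pow_of_unique_prime_dvd hidx (fun {d} hd hdd => hc d hd hdd)⟩
    rw [hk] at hpI ⊢
    refine hp.isPrimePow.pow ?_
    rintro rfl
    exact hp.one_lt.ne' (Nat.dvd_one.mp (by simpa using hpI))
  haveI := Fact.mk hq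
  right; left
  by_cases hqN : q ∣ Nat.card N
  · exfalso
    obtain ⟨P, Kp, hKp, hKpc⟩ := Lib.Camina.hasNormalPComplement hcam (p := p) hpI
    obtain ⟨Q, Kq, hKq, hKqc⟩ := Lib.Camina.hasNormalPComplement hcam (p := q) hqI
    -- the complements are characteristic
    have hchar : ∀ (r : ℕ) [Fact r.Prime] (R : Sylow r N) (K : Subgroup N), K.Normal →
        K.IsComplement' (R : Subgroup N) → ∀ φ : MulAut N, K.map φ.toMonoidHom ≤ K := by
      intro r _ R K hK hKc φ
      rintro _ ⟨k, hk, rfl⟩
      rw [← QuotientGroup.eq_one_iff, ← orderOf_eq_one_iff]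
      have hKcard : (Nat.card K).Coprime r := by
        rw [← hKc.index_eq_card]
        exact ((Fact.out : r.Prime).coprime_iff_not_dvd.mpr R.not_dvd_index).symm
      obtain ⟨a, ha⟩ := R.2.exists_card_eq
      refine Nat.eq_one_of_dvd_coprimes (hKcard.pow_right a) ?_ ?_
      · exact (orderOf_map_dvd (QuotientGroup.mk' K) _).trans
          ((orderOf_map_dvd φ.toMonoidHom k).trans (Subgroup.orderOf_dvd_natCard K hk))
      · rw [← ha, ← hKc.symm.index_eq_card, index_eq_card]
        exact orderOf_dvd_natCard _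
    let M : Subgroup G := (Kp ⊓ Kq).map N.subtype
    haveI hM : M.Normal := by
      constructor
      rintro _ ⟨k, hk, rfl⟩ g
      refine ⟨MulAut.conjNormal g k, ⟨hchar p P Kp hKp hKpc _ (mem_map_of_mem _ hk.1),
        hchar q Q Kq hKq hKqc _ (mem_map_of_mem _ hk.2)⟩, ?_⟩
      simp [MulAut.conjNormal_apply]
    have hMN : M ≤ N := map_subtype_le _
    let Nb : Subgroup (G ⧸ M) := N.map (QuotientGroup.mk' M)
    haveI : Nb.Normal := Normal.map inferInstance _ (QuotientGroup.mk'_surjective M)
    have hcomap : ∀ g : G, (g : G ⧸ M) ∈ Nb ↔ g ∈ N := by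
      intro g
      constructor
      · rintro ⟨n, hn, he⟩
        have := hMN (QuotientGroup.eq.mp he)
        simpa using N.mul_mem hn this
      · intro h; exact ⟨g, h, rfl⟩
    have hcamb : Lib.Camina.IsCamina Nb := by
      intro g hg n hn
      obtain ⟨g, rfl⟩ := QuotientGroup.mk_surjective g
      obtain ⟨n, hn', rfl⟩ := hn
      obtain ⟨x, hx⟩ := hcam g (fun h => hg ((hcomap g).mpr h)) n hn'
      exact ⟨(x : G ⧸ M), by rw [← QuotientGroup.mk_inv, ← QuotientGroup.mk_mul, ← QuotientGroup.mk_mul, hx]; rfl⟩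
    have hidx : Nb.index = N.index := by
      rw [index_map_eq _ (QuotientGroup.mk'_surjective M) (by rwa [QuotientGroup.ker_mk'])]
    -- the image of `N` is `N / (Kp ⊓ Kq)`
    have hker : ((QuotientGroup.mk' M).comp N.subtype).ker = Kp ⊓ Kq := by
      rw [← MonoidHom.comap_ker, QuotientGroup.ker_mk']
      exact comap_map_eq_self_of_injective N.subtype_injective _
    haveI := hKp
    haveI := hKq
    let eN : (N ⧸ (Kp ⊓ Kq)) ≃* Nb :=
      ((QuotientGroup.quotientMulEquivOfEq hker.symm).trans
        (QuotientGroup.quotientKerEquivRange _)).trans (MulEquiv.subgroupCongr (by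
          rw [MonoidHom.range_comp, range_subtype]))
    haveI : Group.IsNilpotent Nb := by
      have hp' : IsPGroup p (N ⧸ Kp) := by
        obtain ⟨a, ha⟩ := P.2.exists_card_eq
        exact IsPGroup.of_card (n := a) (by rw [← index_eq_card, hKpc.symm.index_eq_card, ha])
      have hq' : IsPGroup q (N ⧸ Kq) := by
        obtain ⟨a, ha⟩ := Q.2.exists_card_eq
        exact IsPGroup.of_card (n := a) (by rw [← index_eq_card, hKqc.symm.index_eq_card, ha])
      haveI := hp'.isNilpotent
      haveI := hq'.isNilpotent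
      let f : (N ⧸ (Kp ⊓ Kq)) →* (N ⧸ Kp) × (N ⧸ Kq) :=
        QuotientGroup.lift _ ((QuotientGroup.mk' Kp).prod (QuotientGroup.mk' Kq)) (fun x hx =>
          Prod.ext ((QuotientGroup.eq_one_iff x).mpr hx.1) ((QuotientGroup.eq_one_iff x).mpr hx.2))
      have hf : Function.Injective f := by
        rw [injective_iff_map_eq_one]
        intro x hx
        obtain ⟨x, rfl⟩ := QuotientGroup.mk_surjective x
        exact (QuotientGroup.eq_one_iff x).mpr ⟨(QuotientGroup.eq_one_iff x).mp (congrArg Prod.fst hx :),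
          (QuotientGroup.eq_one_iff x).mp (congrArg Prod.snd hx :)⟩
      haveI : Group.IsNilpotent (f.range) := Subgroup.isNilpotent _
      haveI : Group.IsNilpotent (N ⧸ (Kp ⊓ Kq)) :=
        Group.nilpotent_of_surjective (MonoidHom.ofInjective hf).symm.toMonoidHom
          (MonoidHom.ofInjective hf).symm.surjective
      exact Group.nilpotent_of_surjective eN.toMonoidHom eN.surjective
    have hdvd : ∀ (r : ℕ) [Fact r.Prime] (R : Sylow r N) (K : Subgroup N), K.IsComplement' (R : Subgroup N) →
        Kp ⊓ Kq ≤ K → r ∣ Nat.card N → r ∣ Nat.card Nb := by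
      intro r _ R K hKc hle hrN
      rw [← Nat.card_congr eN.toEquiv, ← index_eq_card]
      refine dvd_trans ?_ (index_dvd_of_le hle)
      rw [hKc.symm.index_eq_card]
      exact R.dvd_card_of_dvd_card hrN
    exact hqp (Lib.Camina.eq_of_nilpotent hcamb (p := p) (r := q) (hidx ▸ hpI)
      (hdvd p P Kp hKpc inf_le_left hpN) (hdvd q Q Kq hKqc inf_le_right hqN))
  · -- an element of order `q` outside acts without fixed points
    obtain ⟨y, hy⟩ := exists_prime_orderOf_dvd_card' (G := G) q (hqI.trans N.index_dvd_card)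
    have hyN : y ∉ N := fun h => hqN (hy ▸ Subgroup.orderOf_dvd_natCard N h)
    have hyq : y ^ q = 1 := hy ▸ pow_orderOf_eq_one y
    haveI : Group.IsNilpotent N := Lib.FPF.isNilpotent_of_prime_element hq hyq fun n hn e =>
      Lib.Camina.eq_one_of_fixed hcam (p := q) hyN ⟨1, by rw [pow_one, ← QuotientGroup.mk_pow, hyq]; rfl⟩ hn e
        ((hq.coprime_iff_not_dvd.mpr (fun h => hqN (h.trans (Subgroup.orderOf_dvd_natCard N hn)))).symm)
    obtain ⟨k, hk⟩ : ∃ k, Nat.card N = p ^ k :=
      ⟨_, Nat.eq_prime_pow_of_unique_prime_dvd (Nat.card_pos).ne' (fun {d} hd hdd => by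
        haveI := Fact.mk hd
        exact Lib.Camina.eq_of_nilpotent hcam (p := p) (r := d) hpI hpN hdd)⟩
    rw [hk] at hpN ⊢
    refine hp.isPrimePow.pow ?_
    rintro rfl
    exact hp.one_lt.ne' (Nat.dvd_one.mp (by simpa using hpN))


/-- Let G be a finite group and N a proper non-trivial normal subgroup such that for every g outside N the conjugacy class of g is a union of cosets of N (equivalently gn is conjugate to g for every n ∈ N). Then either every element of G outside N acts fixed-point-freely on N (C_G(x) ≤ N for all x ∈ N, x ≠ 1, so G is a Frobenius group with kernel N), or N has prime-power order, or G/N has prime-power order. -/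
theorem result {G : Type*} [Group G] [Finite G] (N : Subgroup G) [N.Normal] (hN1 : N ≠ ⊥) (hN2 : N ≠ ⊤)
    (hcam : ∀ g : G, g ∉ N → ∀ n ∈ N, ∃ x : G, x * g * x⁻¹ = g * n) :
    (∀ x ∈ N, x ≠ 1 → Subgroup.centralizer ({x} : Set G) ≤ N) ∨ IsPrimePow (Nat.card N) ∨ IsPrimePow N.index := by
  exact aux hcam hN1 hN2

end Cfsg.Agent.S4140
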