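import Cfsg.Statements.S4142
import Mathlib
-- import your own Cfsg.Agent.* helpers here

set_option autoImplicit false
open Cfsg

namespace Cfsg.Agent.S4142

/-- Let G be a finite group and N a normal subgroup. Then the conjugacy class of every element g outside N is a union of cosets of N (gn is conjugate to g for all n ∈ N) if and only if for every g outside N the centralizer of g in G has the same order as the centralizer of gN in G/N. -/
theorem result {G : Type*} [Group G] [Finite G] (N : Subgroup G) [N.Normal] :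
    (∀ g : G, g ∉ N → ∀ n ∈ N, ∃ x : G, x * g * x⁻¹ = g * n) ↔
      ∀ g : G, g ∉ N → Nat.card (Subgroup.centralizer ({g} : Set G)) =
        Nat.card (Subgroup.centralizer ({(QuotientGroup.mk g : G ⧸ N)} : Set (G ⧸ N))) := by
  classical
  have : Fintype G := Fintype.ofFinite G
  let C : G → Subgroup G := fun g => Subgroup.centralizer ({g} : Set G)
  let Cb : G → Subgroup (G ⧸ N) := fun g => Subgroup.centralizer ({(QuotientGroup.mk g : G ⧸ N)} : Set (G ⧸ N))
  let D : G → Subgroup G := fun g => (Cb g).comap (QuotientGroup.mk' N)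
  have hD : ∀ g, Nat.card (D g) = Nat.card (Cb g) * Nat.card N := by
    intro g
    have h1 := Subgroup.relIndex_mul_relIndex ⊥ N (D g) bot_le (fun n hn => by
      show QuotientGroup.mk' N n ∈ Cb g
      rw [show QuotientGroup.mk' N n = 1 from (QuotientGroup.eq_one_iff n).2 hn]; exact one_mem _)
    rw [Subgroup.relIndex_bot_left, Subgroup.relIndex_bot_left] at h1
    have h2 : N.relIndex (D g) = Nat.card (Cb g) := by
      have := Subgroup.relIndex_comap (⊥ : Subgroup (G ⧸ N)) (QuotientGroup.mk' N) (D g)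
      rw [MonoidHom.comap_bot, QuotientGroup.ker_mk', Subgroup.map_comap_eq_self_of_surjective (QuotientGroup.mk'_surjective N), Subgroup.relIndex_bot_left] at this
      exact this
    rw [← h1, h2, mul_comm]
  have hmem : ∀ g x : G, x ∈ D g ↔ g⁻¹ * (x * g * x⁻¹) ∈ N := by
    intro g x
    rw [Subgroup.mem_comap, Subgroup.mem_centralizer_singleton_iff, ← QuotientGroup.eq (s := N), QuotientGroup.mk'_apply]
    constructor
    · intro e
      rw [QuotientGroup.mk_mul, QuotientGroup.mk_mul, e, QuotientGroup.mk_inv, mul_inv_cancel_right]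
    · intro e
      rw [QuotientGroup.mk_mul, QuotientGroup.mk_mul, QuotientGroup.mk_inv] at e
      nth_rewrite 2 [e]
      rw [inv_mul_cancel_right]
  have hCD : ∀ g, C g ≤ D g := by
    intro g x hx
    rw [hmem, Subgroup.mem_centralizer_singleton_iff.1 hx, mul_inv_cancel_right, inv_mul_cancel]
    exact one_mem N
  -- the orbit of g under D g inside the coset gN
  let f : ∀ g, ↥(D g) → N := fun g x => ⟨g⁻¹ * ((x : G) * g * (x : G)⁻¹), (hmem g x).1 x.2⟩
  have hiff : ∀ g, (∀ n ∈ N, ∃ x : G, x * g * x⁻¹ = g * n) ↔ Function.Surjective (f g) := by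
    intro g
    constructor
    · rintro h ⟨n, hn⟩
      obtain ⟨x, hx⟩ := h n hn
      have hxD : x ∈ D g := by rw [hmem, hx, inv_mul_cancel_left]; exact hn
      exact ⟨⟨x, hxD⟩, Subtype.ext (by show g⁻¹ * (x * g * x⁻¹) = n; rw [hx, inv_mul_cancel_left])⟩
    · intro h n hn
      obtain ⟨x, hx⟩ := h ⟨n, hn⟩
      exact ⟨x, by
        have e : g⁻¹ * ((x : G) * g * (x : G)⁻¹) = n := congrArg Subtype.val hx
        rw [← e, mul_inv_cancel_left]⟩
  have hrel : ∀ g, (C g).relIndex (D g) = Nat.card (Set.range (f g)) := by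
    intro g
    rw [Subgroup.relIndex, Subgroup.index]
    have key : ∀ x y : D g, x⁻¹ * y ∈ (C g).subgroupOf (D g) ↔ f g x = f g y := by
      intro x y
      rw [Subgroup.mem_subgroupOf, Subgroup.mem_centralizer_singleton_iff, Subtype.ext_iff]
      show _ ↔ g⁻¹ * ((x : G) * g * (x : G)⁻¹) = g⁻¹ * ((y : G) * g * (y : G)⁻¹)
      rw [mul_right_inj, Subgroup.coe_mul, Subgroup.coe_inv]
      constructor
      · intro e
        calc (x : G) * g * (x : G)⁻¹ = (x : G) * (g * ((x : G)⁻¹ * y)) * (y : G)⁻¹ := by group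
          _ = (x : G) * ((x : G)⁻¹ * y * g) * (y : G)⁻¹ := by rw [e]
          _ = _ := by group
      · intro e
        calc (x : G)⁻¹ * y * g = (x : G)⁻¹ * ((y : G) * g * (y : G)⁻¹) * y := by group
          _ = (x : G)⁻¹ * ((x : G) * g * (x : G)⁻¹) * y := by rw [e]
          _ = _ := by group
    let F : D g ⧸ (C g).subgroupOf (D g) → Set.range (f g) := Quotient.lift (fun x => ⟨f g x, x, rfl⟩)
      (fun x y e => Subtype.ext ((key x y).1 (QuotientGroup.leftRel_apply.1 e)))
    refine Nat.card_eq_of_bijective F ⟨fun u v => Quotient.inductionOn₂ u v fun x y e => Quotient.sound (QuotientGroup.leftRel_apply.2 ((key x y).2 (congrArg Subtype.val e))), ?_⟩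
    rintro ⟨_, x, rfl⟩
    exact ⟨QuotientGroup.mk x, rfl⟩
  have hcard : ∀ g, Nat.card (C g) * (C g).relIndex (D g) = Nat.card (Cb g) * Nat.card N := by
    intro g
    rw [← hD]
    have h1 := Subgroup.relIndex_mul_relIndex ⊥ (C g) (D g) bot_le (hCD g)
    rwa [Subgroup.relIndex_bot_left, Subgroup.relIndex_bot_left] at h1
  refine forall₂_congr fun g _ => (hiff g).trans ?_
  have hc := hcard g
  rw [hrel] at hc
  show _ ↔ Nat.card (C g) = Nat.card (Cb g)
  constructor
  · intro h
    rw [Set.range_eq_univ.2 h, Nat.card_univ] at hc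
    exact Nat.eq_of_mul_eq_mul_right Nat.card_pos hc
  · intro h
    rw [h] at hc
    have := Nat.eq_of_mul_eq_mul_left Nat.card_pos hc
    intro n
    obtain ⟨x, hx⟩ := ((Nat.bijective_iff_injective_and_card (Subtype.val : Set.range (f g) → N)).2 ⟨Subtype.val_injective, this⟩).2 n
    exact hx ▸ x.2

end Cfsg.Agent.S4142
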