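import Cfsg.Statements.S4145
import Mathlib
import Cfsg.Agent.Lib.Transfer.Fusion

set_option autoImplicit false
open Cfsg

namespace Cfsg.Agent.S4145

open Cfsg Subgroup

/-- The transfer to a cyclic Sylow subgroup with a nontrivial central part is injective on it. -/
theorem exists_retraction {C : Type*} [Group C] [Finite C] {p : ℕ} [hp : Fact p.Prime] (P : Sylow p C)
    (hP : IsCyclic (P : Subgroup C)) (Q : Subgroup C) (hQP : Q ≤ (P : Subgroup C)) (hQ : Q ≠ ⊥)
    (hQc : Q ≤ center C) :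
    ∃ τ : C →* (P : Subgroup C), ∀ x ∈ (P : Subgroup C), τ x = 1 → x = 1 := by
  letI : CommGroup (P : Subgroup C) := IsCyclic.commGroup
  let τ : C →* (P : Subgroup C) := MonoidHom.transfer (MonoidHom.id (P : Subgroup C))
  refine ⟨τ, fun x hx hx1 => ?_⟩
  by_contra hne
  obtain ⟨k, hk⟩ := IsPGroup.iff_orderOf.1 P.2 ⟨x, hx⟩
  rw [Subgroup.orderOf_mk] at hk
  obtain ⟨m, rfl⟩ : ∃ m, k = m + 1 := ⟨k - 1, by
    rcases k with _ | k
    · exact absurd (orderOf_eq_one_iff.1 (by simpa using hk)) hne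
    · rfl⟩
  set y := x ^ p ^ m with hy
  have hyo : orderOf y = p := by
    rw [hy, orderOf_pow_of_dvd (pow_ne_zero _ hp.out.ne_zero) (hk ▸ pow_dvd_pow p (Nat.le_succ m)), hk,
      pow_succ, Nat.mul_div_cancel_left _ (pow_pos hp.out.pos m)]
  -- `y` lies in `Q`
  obtain ⟨j, hj⟩ := IsPGroup.iff_card.1 (P.2.to_le hQP)
  have hj0 : j ≠ 0 := fun h => hQ (Subgroup.eq_bot_of_card_eq Q (by rw [hj, h, pow_zero]))
  obtain ⟨z, hz⟩ := exists_prime_orderOf_dvd_card' (G := Q) p (hj ▸ dvd_pow_self p hj0)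
  have hzy : y ∈ zpowers (z : C) := by
    classical
    haveI := Fintype.ofFinite (P : Subgroup C)
    haveI := Fintype.ofFinite (zpowers (⟨z, hQP z.2⟩ : (P : Subgroup C)))
    set w : (P : Subgroup C) := ⟨z, hQP z.2⟩ with hw
    have hwo : orderOf w = p := by rw [hw, Subgroup.orderOf_mk, orderOf_coe, hz]
    have hsub : (Finset.univ.filter (fun a : (P : Subgroup C) => a ∈ zpowers w)) =
        Finset.univ.filter (fun a : (P : Subgroup C) => a ^ p = 1) := by
      refine Finset.eq_of_subset_of_card_le ?_ ?_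
      · intro a ha
        simp only [Finset.mem_filter, Finset.mem_univ, true_and] at ha ⊢
        have h := orderOf_dvd_natCard _ ha
        rw [Nat.card_zpowers, hwo] at h
        exact orderOf_dvd_iff_pow_eq_one.1 h
      · refine (IsCyclic.card_pow_eq_one_le hp.out.pos).trans (le_of_eq ?_)
        rw [← Fintype.card_subtype, ← Nat.card_eq_fintype_card]
        exact (hwo.symm.trans (Nat.card_zpowers w).symm)
    have hyw : (⟨y, pow_mem hx _⟩ : (P : Subgroup C)) ∈ zpowers w := by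
      have : (⟨y, pow_mem hx _⟩ : (P : Subgroup C)) ∈ Finset.univ.filter (fun a : (P : Subgroup C) => a ∈ zpowers w) := by
        rw [hsub, Finset.mem_filter]
        refine ⟨Finset.mem_univ _, Subtype.ext ?_⟩
        show y ^ p = 1
        rw [← hyo]; exact pow_orderOf_eq_one y
      exact (Finset.mem_filter.1 this).2
    obtain ⟨i, hi⟩ := mem_zpowers_iff.1 hyw
    exact mem_zpowers_iff.2 ⟨i, congrArg Subtype.val hi⟩
  have hyc : y ∈ center C := hQc (zpowers_le.2 z.2 hzy)
  have hkey : ∀ (k : ℕ) (g₀ : C), g₀⁻¹ * y ^ k * g₀ ∈ (P : Subgroup C) → g₀⁻¹ * y ^ k * g₀ = y ^ k := by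
    intro k g₀ _
    rw [mul_assoc, ← mem_center_iff.1 (pow_mem hyc k) g₀, inv_mul_cancel_left]
  have h2 := MonoidHom.transfer_eq_pow (MonoidHom.id (P : Subgroup C)) y hkey
  have hτy : τ y = 1 := by rw [hy, map_pow, hx1, one_pow]
  rw [show MonoidHom.transfer (MonoidHom.id (P : Subgroup C)) y = τ y from rfl, hτy] at h2
  have h3 : y ^ (P : Subgroup C).index = 1 := (congrArg Subtype.val h2).symm
  have h4 := orderOf_dvd_of_pow_eq_one h3
  rw [hyo] at h4
  exact P.not_dvd_index h4

theorem mem_iff_coprime {C : Type*} [Group C] [Finite C] {p : ℕ} [hp : Fact p.Prime] {K : Subgroup C}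
    [K.Normal] (hK : (Nat.card K).Coprime p) {j : ℕ} (hj : K.index = p ^ j) (x : C) :
    x ∈ K ↔ (orderOf x).Coprime p := by
  constructor
  · exact fun hx => hK.coprime_dvd_left (orderOf_dvd_natCard K hx)
  · intro hx
    have h1 : orderOf (QuotientGroup.mk' K x) ∣ p ^ j := hj ▸ orderOf_dvd_natCard _
    have h2 : orderOf (QuotientGroup.mk' K x) ∣ orderOf x := orderOf_map_dvd _ _
    exact (QuotientGroup.eq_one_iff x).1
      (orderOf_eq_one_iff.1 (Nat.eq_one_of_dvd_coprimes (hx.pow_right j) h2 h1))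

/-- Let G be a finite group with a cyclic Sylow p-subgroup and H a normal subgroup such that p divides both the order of H and the index of H. Then H has a normal p-complement and G is p-solvable. -/
theorem result {G : Type*} [Group G] [Finite G] (p : ℕ) [Fact p.Prime]
    (P : Sylow p G) (hP : IsCyclic (P : Subgroup G)) (H : Subgroup G) [H.Normal] (h1 : p ∣ Nat.card H) (h2 : p ∣ H.index) :
    Cfsg.HasNormalPComplement p H ∧ Cfsg.IsPSolvable p G := by
  classical
  have hp := (Fact.out : p.Prime)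
  -- the Sylow subgroup of `H`
  set Q := (P : Subgroup G) ⊓ H with hQdef
  obtain ⟨T, hT⟩ := Cfsg.Agent.Lib.Transfer.exists_sylow_inf P H
  have hTQ : (T : Subgroup H) = Q.subgroupOf H := by rw [hT, hQdef, inf_subgroupOf_right]
  have hQP : Q ≤ (P : Subgroup G) := inf_le_left
  have hcardT : Nat.card T = Nat.card Q := by
    rw [show Nat.card T = Nat.card (T : Subgroup H) from rfl, hTQ, Nat.card_congr (subgroupOfEquivOfLe (inf_le_right : Q ≤ H)).toEquiv]
  obtain ⟨r, hr⟩ := IsPGroup.iff_card.1 (P.2.to_le hQP)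
  have hr0 : r ≠ 0 := by
    intro h0
    have h3 := T.card_eq_multiplicity
    rw [hcardT, hr, h0] at h3
    have h4 := Nat.pow_right_injective hp.two_le h3.symm
    exact absurd (hp.factorization_pos_of_dvd Nat.card_pos.ne' h1) (by omega)
  have hQne : Q ≠ ⊥ := fun h => hr0 (by
    have := Subgroup.card_bot (G := G); rw [← h, hr] at this
    exact Nat.pow_right_injective hp.two_le (this.trans (pow_zero p).symm))
  set N := normalizer (Q : Set G) with hNdef
  set Cs := centralizer (Q : Set G) with hCdef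
  haveI hcP : IsMulCommutative (P : Subgroup G) := inferInstance
  have hPC : (P : Subgroup G) ≤ Cs := fun x hx => mem_centralizer_iff.2 fun y hy =>
    congrArg Subtype.val (IsMulCommutative.is_comm.comm (⟨y, hQP hy⟩ : (P : Subgroup G)) ⟨x, hx⟩)
  let PC : Sylow p Cs := P.subtype hPC
  have hPCc : IsCyclic (PC : Subgroup Cs) :=
    (subgroupOfEquivOfLe hPC).symm.toMonoidHom |> fun _ => isCyclic_of_surjective _ (subgroupOfEquivOfLe hPC).symm.surjective
  obtain ⟨τ, hτ⟩ := exists_retraction PC hPCc (Q.subgroupOf Cs) (subgroupOf_mono Cs hQP) (by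
      rw [Ne, subgroupOf_eq_bot, disjoint_iff, inf_eq_left.2 (hQP.trans hPC)]
      exact hQne) (by
      intro a ha
      rw [mem_center_iff]
      intro b
      exact Subtype.ext (mem_centralizer_iff.1 b.2 a ha).symm)
  have hNC : ∀ n ∈ N, ∀ x ∈ Cs, n * x * n⁻¹ ∈ Cs := by
    intro n hn x hx
    rw [mem_centralizer_iff] at hx ⊢
    intro q hq
    have h3 : n⁻¹ * q * n ∈ Q := (mem_normalizer_iff''.1 hn q).1 hq
    have h4 := hx _ h3
    have h5 := congrArg (fun t => n * t * n⁻¹) h4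
    simpa [mul_assoc] using h5
  -- the image of `H ∩ C`
  have hHC : ∀ y : Cs, (y : G) ∈ H → ∃ q : Cs, (q : G) ∈ Q ∧ τ y = τ q := by
    intro y hy
    have hle : (Q.subgroupOf Cs).map τ ≤ (H.subgroupOf Cs).map τ :=
      map_mono (subgroupOf_mono Cs inf_le_right)
    have hinj : Nat.card ((Q.subgroupOf Cs).map τ) = p ^ r := by
      rw [← hr, ← Nat.card_congr (subgroupOfEquivOfLe (hQP.trans hPC)).toEquiv]
      refine (Nat.card_congr (Equiv.Set.imageOfInjOn τ _ ?_)).symm
      intro a ha b hb hab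
      have h6 := hτ (a * b⁻¹) (mul_mem (show (a : G) ∈ (P : Subgroup G) from hQP ha)
        (inv_mem (show (b : G) ∈ (P : Subgroup G) from hQP hb))) (by rw [map_mul, map_inv, hab, mul_inv_cancel])
      exact mul_inv_eq_one.1 h6
    obtain ⟨j, hj⟩ := IsPGroup.iff_card.1 (PC.2.to_subgroup ((H.subgroupOf Cs).map τ))
    have hdvd : p ^ j ∣ Nat.card H := by
      rw [← hj]
      exact (card_map_dvd _ τ).trans (card_comap_dvd_of_injective _ _ Cs.subtype_injective)
    have hjr : j ≤ r := by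
      rw [← Nat.pow_dvd_pow_iff_le_right hp.one_lt, ← hr, ← hcardT, T.card_eq_multiplicity,
        Nat.pow_dvd_pow_iff_le_right hp.one_lt]
      exact (hp.pow_dvd_iff_le_factorization Nat.card_pos.ne').1 hdvd
    have heq := Subgroup.eq_of_le_of_card_ge hle (by rw [hinj, hj]; exact Nat.pow_le_pow_right hp.pos hjr)
    have : τ y ∈ (Q.subgroupOf Cs).map τ := heq.symm ▸ mem_map_of_mem τ hy
    obtain ⟨q, hq, he⟩ := this
    exact ⟨q, hq, he.symm⟩
  -- `p'`-elements of `N ∩ H` centralise `Q`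
  obtain ⟨⟨x0, hx0⟩, hgen⟩ := hP.exists_generator
  set i := (Q.subgroupOf (P : Subgroup G)).index with hidef
  obtain ⟨e, he⟩ := P.2.index (Q.subgroupOf (P : Subgroup G))
  have he0 : e ≠ 0 := by
    intro h0
    rw [h0, pow_zero, index_eq_one, subgroupOf_eq_top] at he
    have hPH : (P : Subgroup G) ≤ H := he.trans inf_le_right
    exact P.not_dvd_index (h2.trans (index_dvd_of_le hPH))
  set z := x0 ^ i with hz
  have hzQ : z ∈ Q := (Q.subgroupOf (P : Subgroup G)).pow_index_mem ⟨x0, hx0⟩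
  have hQgen : ∀ q ∈ Q, ∃ k : ℤ, q = z ^ k := by
    intro q hq
    have hzc : Nat.card (zpowers z) = Nat.card Q := by
      rw [Nat.card_zpowers, hz]
      have ho : orderOf x0 = Nat.card (P : Subgroup G) := by
        rw [← orderOf_eq_card_of_forall_mem_zpowers hgen, Subgroup.orderOf_mk]
      have hmul := (Q.subgroupOf (P : Subgroup G)).card_mul_index
      rw [Nat.card_congr (subgroupOfEquivOfLe hQP).toEquiv, ← hidef, ← ho] at hmul
      have hi0 : i ≠ 0 := by rw [hidef]; exact index_ne_zero_of_finite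
      rw [orderOf_pow_of_dvd hi0 (hmul ▸ dvd_mul_left _ _), ← hmul, Nat.mul_div_cancel _ (Nat.pos_of_ne_zero hi0)]
    have := eq_of_le_of_card_ge (zpowers_le.2 hzQ) hzc.ge
    rw [← this] at hq
    obtain ⟨k, hk⟩ := mem_zpowers_iff.1 hq
    exact ⟨k, hk.symm⟩
  have key : ∀ n ∈ N, n ∈ H → (orderOf n).Coprime p → n ∈ Cs := by
    intro n hn hnH hcop
    have hcm : (⟨n * x0 * n⁻¹, hNC n hn x0 (hPC hx0)⟩ * ⟨x0, hPC hx0⟩⁻¹ : Cs).1 ∈ H := by
      show n * x0 * n⁻¹ * x0⁻¹ ∈ H
      rw [show n * x0 * n⁻¹ * x0⁻¹ = n * (x0 * n⁻¹ * x0⁻¹) by group]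
      exact mul_mem hnH ((inferInstance : H.Normal).conj_mem _ (inv_mem hnH) _)
    obtain ⟨q, hq, hτq⟩ := hHC _ hcm
    rw [map_mul, map_inv, mul_inv_eq_iff_eq_mul] at hτq
    obtain ⟨k, hk⟩ := hQgen q hq
    have hconj : n * z * n⁻¹ = z ^ (k * i + 1) := by
      have hzQ' : n * z * n⁻¹ ∈ Q := (mem_normalizer_iff.1 hn z).1 hzQ
      have hzk : z ^ (k * i + 1) ∈ Q := zpow_mem hzQ _
      have h3 : τ (⟨n * x0 * n⁻¹, hNC n hn x0 (hPC hx0)⟩ ^ i) = τ (q ^ i * ⟨x0, hPC hx0⟩ ^ i) := by
        rw [map_mul, map_pow, map_pow, map_pow, hτq]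
        letI : CommGroup (PC : Subgroup Cs) := IsCyclic.commGroup
        exact mul_pow _ _ _
      have h4 := hτ ((⟨n * x0 * n⁻¹, hNC n hn x0 (hPC hx0)⟩ : Cs) ^ i * (q ^ i * ⟨x0, hPC hx0⟩ ^ i)⁻¹) (by
          show (((⟨n * x0 * n⁻¹, hNC n hn x0 (hPC hx0)⟩ : Cs) ^ i * (q ^ i * ⟨x0, hPC hx0⟩ ^ i)⁻¹ : Cs) : G) ∈ (P : Subgroup G)
          push_cast
          rw [conj_pow, ← hz]
          exact mul_mem (hQP hzQ') (inv_mem (mul_mem (pow_mem (hQP hq) _) (hQP hzQ))))
        (by rw [map_mul, map_inv, h3, mul_inv_cancel])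
      have h5 := congrArg Subtype.val (mul_inv_eq_one.1 h4)
      push_cast at h5
      rw [conj_pow, ← hz, hk] at h5
      rw [h5, zpow_add, zpow_one, zpow_mul, zpow_natCast]
    have hiter : ∀ j : ℕ, n ^ j * z * (n ^ j)⁻¹ = z ^ ((k * i + 1) ^ j) := by
      intro j
      induction j with
      | zero => simp
      | succ j ih =>
        rw [pow_succ' n, show n * n ^ j * z * (n * n ^ j)⁻¹ = n * (n ^ j * z * (n ^ j)⁻¹) * n⁻¹ by group, ih,
          ← conj_zpow, hconj, ← zpow_mul, pow_succ' (k * (i : ℤ) + 1)]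
    have hfix : n ^ p ^ r * z * (n ^ p ^ r)⁻¹ = z := by
      rw [hiter]
      have hdvd : (p : ℤ) ∣ (k * i + 1) - 1 := by
        rw [add_sub_cancel_right]
        refine Dvd.dvd.mul_left ?_ k
        rw [show i = p ^ e from he]
        exact_mod_cast dvd_pow_self p he0
      have h6 := dvd_sub_pow_of_dvd_sub hdvd r
      rw [one_pow] at h6
      have h7 : z ^ ((p : ℤ) ^ (r + 1)) = 1 := by
        rw [← Nat.cast_pow, zpow_natCast, pow_succ, pow_mul, ← hr]
        have : z ^ Nat.card Q = 1 := by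
          exact congrArg Subtype.val (pow_card_eq_one' (G := Q) (x := ⟨z, hzQ⟩))
        rw [this, one_pow]
      obtain ⟨w, hw⟩ := h6
      rw [show ((k * i + 1 : ℤ)) ^ p ^ r = (p : ℤ) ^ (r + 1) * w + 1 by omega, zpow_add, zpow_mul, h7,
        one_zpow, zpow_one, one_mul]
    obtain ⟨m, hm⟩ := exists_pow_eq_self_of_coprime (x := n) (n := p ^ r) (hcop.symm.pow_left r)
    rw [mem_centralizer_iff]
    intro y hy
    obtain ⟨l, rfl⟩ := hQgen y hy
    have h8 : Commute (n ^ p ^ r) z := by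
      have := mul_inv_eq_iff_eq_mul.1 hfix
      exact this
    exact ((hm ▸ h8.pow_left m : Commute n z).zpow_right l).eq.symm
  -- normal `p`-complement of `H`
  have hHc : HasNormalPComplement p H := by
    refine Cfsg.Agent.Lib.Transfer.hasNormalPComplement_of_normalizer_le_centralizer T ?_
    intro n hn
    have hnG : (n : G) ∈ N := by
      rw [hNdef, mem_normalizer_iff]
      intro y
      constructor
      · intro hy
        have h9 := (mem_normalizer_iff.1 hn ⟨y, (inf_le_right : Q ≤ H) hy⟩).1 (by rw [hTQ]; exact hy)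
        rw [hTQ] at h9
        exact h9
      · intro hy
        have hyH : y ∈ H := by
          have := mul_mem (mul_mem (inv_mem n.2) ((inf_le_right : Q ≤ H) hy)) n.2
          simpa [mul_assoc] using this
        have h9 := (mem_normalizer_iff.1 hn ⟨y, hyH⟩).2 (by rw [hTQ]; exact hy)
        rw [hTQ] at h9
        exact h9
    -- split `n` into `p`-part and `p'`-part
    haveI hTn : ((T : Subgroup H).subgroupOf (normalizer ((T : Subgroup H) : Set H))).Normal := normal_in_normalizer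
    set W := normalizer ((T : Subgroup H) : Set H)
    let TW : Sylow p W := T.subtype le_normalizer
    haveI hTWn : (TW : Subgroup W).Normal := hTn
    have hidx : (TW : Subgroup W).index.Coprime p := (hp.coprime_iff_not_dvd.2 TW.not_dvd_index).symm
    have hsub : (T : Subgroup H) ≤ centralizer ((T : Subgroup H) : Set H) := by
      intro a ha
      rw [mem_centralizer_iff]
      intro b hb
      rw [SetLike.mem_coe, hTQ] at hb
      rw [hTQ] at ha
      exact Subtype.ext (mem_centralizer_iff.1 (hPC (hQP ha)) b hb)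
    obtain ⟨d, hd⟩ : ∃ d, orderOf n = d := ⟨_, rfl⟩
    have hd0 : d ≠ 0 := hd ▸ (orderOf_pos n).ne'
    obtain ⟨s, m, hm, hfac⟩ := Nat.exists_eq_pow_mul_and_not_dvd hd0 p hp.ne_one
    have hn1 : n ^ m ∈ (T : Subgroup H) := by
      have hord : (n ^ m) ^ p ^ s = 1 := by rw [← pow_mul, mul_comm, ← hfac, ← hd, pow_orderOf_eq_one]
      have h10 : IsPGroup p (zpowers (⟨n ^ m, pow_mem hn m⟩ : W)) := by
        obtain ⟨t, ht, hto⟩ := (Nat.dvd_prime_pow hp).1 (orderOf_dvd_of_pow_eq_one (x := (⟨n ^ m, pow_mem hn m⟩ : W)) (Subtype.ext hord))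
        exact IsPGroup.of_card (n := t) (by rw [Nat.card_zpowers, hto])
      obtain ⟨Sy, hSy⟩ := h10.exists_le_sylow
      haveI := Sylow.unique_of_normal TW hTn
      have := hSy (mem_zpowers _)
      rw [Subsingleton.elim Sy TW] at this
      exact this
    have hn2 : n ^ p ^ s ∈ centralizer ((T : Subgroup H) : Set H) := by
      have h11 : ((n ^ p ^ s : H) : G) ∈ Cs := by
        refine key _ (by push_cast; exact pow_mem hnG _) (SetLike.coe_mem _) ?_
        rw [orderOf_coe, orderOf_pow_of_dvd (pow_ne_zero _ hp.ne_zero) (hd ▸ hfac ▸ dvd_mul_right _ _), hd, hfac,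
          Nat.mul_div_cancel_left _ (pow_pos hp.pos s)]
        exact ((hp.coprime_iff_not_dvd).2 hm).symm
      rw [mem_centralizer_iff]
      intro b hb
      rw [SetLike.mem_coe, hTQ] at hb
      exact Subtype.ext (mem_centralizer_iff.1 h11 b hb)
    have hbez := Nat.gcd_eq_gcd_ab (p ^ s) m
    rw [Nat.Coprime.gcd_eq_one (((hp.coprime_iff_not_dvd).2 hm).pow_left s)] at hbez
    have hsplit : n = (n ^ p ^ s) ^ Nat.gcdA (p ^ s) m * (n ^ m) ^ Nat.gcdB (p ^ s) m := by
      rw [← zpow_natCast, ← zpow_natCast n m, ← zpow_mul, ← zpow_mul, ← zpow_add, ← hbez, Nat.cast_one, zpow_one]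
    rw [hsplit]
    exact mul_mem (zpow_mem hn2 _) (zpow_mem (hsub hn1) _)
  refine ⟨hHc, ?_⟩
  obtain ⟨S, KH, hKHn, hKH⟩ := hHc
  haveI := hKHn
  obtain ⟨jH, hjH⟩ := IsPGroup.iff_card.1 S.2
  have hKHidx : KH.index = p ^ jH := by rw [hKH.symm.index_eq_card, hjH]
  have hKHcop : (Nat.card KH).Coprime p := by
    have := S.not_dvd_index
    rw [hKH.index_eq_card] at this
    exact ((hp.coprime_iff_not_dvd).2 this).symm
  set K1 := KH.map H.subtype with hK1
  haveI hK1n : K1.Normal := by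
    constructor
    rintro _ ⟨a, ha, rfl⟩ g
    refine ⟨⟨g * a * g⁻¹, (inferInstance : H.Normal).conj_mem _ a.2 g⟩, ?_, rfl⟩
    replace ha := (mem_iff_coprime hKHcop hKHidx a).1 ha
    apply (mem_iff_coprime hKHcop hKHidx _).2
    rw [← orderOf_coe] at ha ⊢
    show (orderOf (MulAut.conj g (a : G))).Coprime p
    rwa [MulEquiv.orderOf_eq]
  obtain ⟨jC, hjC⟩ := IsPGroup.iff_card.1 PC.2
  have hτs : Function.Surjective τ := by
    have hf : Function.Injective (fun a : (PC : Subgroup Cs) => τ a) := by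
      intro a b hab
      have := hτ _ ((a * b⁻¹).2) (by simp [hab])
      exact Subtype.ext (mul_inv_eq_one.1 this)
    exact fun t => by obtain ⟨a, ha⟩ := (Finite.injective_iff_surjective.1 hf) t; exact ⟨a, ha⟩
  have hkidx : τ.ker.index = p ^ jC := by
    rw [index_ker, MonoidHom.range_eq_top.2 hτs, card_top, hjC]
  have hkcop : (Nat.card τ.ker).Coprime p := by
    refine ((hp.coprime_iff_not_dvd).2 fun hd => ?_).symm
    obtain ⟨a, ha⟩ := exists_prime_orderOf_dvd_card' p hd
    have hpga : IsPGroup p (zpowers (a : Cs)) := IsPGroup.of_card (n := 1) (by rw [Nat.card_zpowers, orderOf_coe, ha, pow_one])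
    obtain ⟨Sy, hSy⟩ := hpga.exists_le_sylow
    obtain ⟨c, hc⟩ := MulAction.exists_smul_eq Cs Sy PC
    have hmem : c * a * c⁻¹ ∈ (PC : Subgroup Cs) :=
      (congrArg (fun S : Sylow p Cs => c * (a : Cs) * c⁻¹ ∈ (S : Subgroup Cs)) hc).mp
        (Cfsg.Agent.Lib.Transfer.mem_smul_sylow.2 (by simpa [mul_assoc] using hSy (mem_zpowers (a : Cs))))
    have h12 := hτ _ hmem (by
      have h0 : τ (a : Cs) = 1 := a.2
      simp [h0])
    rw [conj_eq_one_iff, OneMemClass.coe_eq_one] at h12
    rw [h12, orderOf_one] at ha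
    exact hp.one_lt.ne ha
  set K := τ.ker.map Cs.subtype with hKdef
  have hconjK : ∀ n ∈ N, ∀ a ∈ K, n * a * n⁻¹ ∈ K := by
    rintro n hn _ ⟨a, ha, rfl⟩
    refine ⟨⟨n * a * n⁻¹, hNC n hn a a.2⟩, ?_, rfl⟩
    have h13 := (mem_iff_coprime hkcop hkidx a).1 ha
    apply (mem_iff_coprime hkcop hkidx _).2
    rw [← orderOf_coe] at h13 ⊢
    show (orderOf (MulAut.conj n (a : G))).Coprime p
    rwa [MulEquiv.orderOf_eq]
  -- Frattini argument
  have hfr : ∀ g : G, ∃ h ∈ H, ∃ n ∈ N, g = h * n := by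
    intro g
    have h14 := Sylow.normalizer_sup_eq_top T
    rw [hTQ, map_subgroupOf_eq_of_le (inf_le_right : Q ≤ H), sup_comm] at h14
    obtain ⟨h', hh', n, hn, he⟩ := mem_sup_of_normal_left.1 (show g ∈ H ⊔ N from h14 ▸ mem_top g)
    exact ⟨h', hh', n, hn, he.symm⟩
  have hsupn : ∀ A : Subgroup G, (∀ n ∈ N, ∀ a ∈ A, n * a * n⁻¹ ∈ A) → (H ⊔ A).Normal := by
    intro A hA
    constructor
    intro a ha g
    obtain ⟨h', hh', n, hn, rfl⟩ := hfr g
    obtain ⟨u, hu, v, hv, rfl⟩ := mem_sup_of_normal_left.1 ha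
    rw [show h' * n * (u * v) * (h' * n)⁻¹ = h' * ((n * u * n⁻¹) * (n * v * n⁻¹)) * h'⁻¹ by group]
    exact mul_mem (mul_mem (mem_sup_left hh') (mul_mem (mem_sup_left ((inferInstance : H.Normal).conj_mem u hu n))
      (mem_sup_right (hA n hn v hv)))) (mem_sup_left (inv_mem hh'))
  haveI hn2' : (H ⊔ K).Normal := hsupn K hconjK
  haveI hn3 : (H ⊔ Cs).Normal := hsupn Cs fun n hn a ha => hNC n hn a ha
  have hKC : K ≤ Cs := map_subtype_le _
  refine ⟨5, ![⊥, K1, H, H ⊔ K, H ⊔ Cs, ⊤], rfl, rfl, ?_, ?_, ?_⟩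
  · refine Fin.monotone_iff_le_succ.2 fun i => ?_
    fin_cases i
    · exact bot_le
    · exact map_subtype_le _
    · exact le_sup_left
    · exact sup_le_sup le_rfl hKC
    · exact le_top
  · intro i
    fin_cases i
    · exact Subgroup.normal_bot
    · exact hK1n
    · show H.Normal
      infer_instance
    · exact hn2'
    · exact hn3
    · exact Subgroup.normal_top
  · intro i
    fin_cases i
    · right
      show ((⊥ : Subgroup G).relIndex K1).Coprime p
      rw [relIndex_bot_left, hK1, card_map_of_injective H.subtype_injective]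
      exact hKHcop
    · left
      refine ⟨jH, ?_⟩
      show K1.relIndex H = p ^ jH
      rw [← hKHidx, hK1, relIndex, subgroupOf, comap_map_eq_self_of_injective H.subtype_injective]
    · right
      show (H.relIndex (H ⊔ K)).Coprime p
      rw [sup_comm, relIndex_sup_right]
      refine Nat.Coprime.coprime_dvd_left (relIndex_dvd_card ..) ?_
      rw [hKdef, card_map_of_injective Cs.subtype_injective]
      exact hkcop
    · left
      show ∃ m : ℕ, (H ⊔ K).relIndex (H ⊔ Cs) = p ^ m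
      have h16 : (H ⊔ K).relIndex (H ⊔ Cs) = (H ⊔ K).relIndex Cs := by
        rw [show H ⊔ Cs = Cs ⊔ (H ⊔ K) by
          rw [← sup_assoc, sup_comm Cs H, sup_assoc, sup_eq_left.2 hKC], relIndex_sup_right]
      have h17 : (H ⊔ K).relIndex Cs ∣ p ^ jC := by
        refine (relIndex_dvd_of_le_left _ (le_sup_right : K ≤ H ⊔ K)).trans (dvd_of_eq ?_)
        rw [← hkidx, hKdef, relIndex, subgroupOf, comap_map_eq_self_of_injective Cs.subtype_injective]
      obtain ⟨t, -, ht⟩ := (Nat.dvd_prime_pow hp).1 h17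
      exact ⟨t, h16.trans ht⟩
    · right
      show ((H ⊔ Cs).relIndex ⊤).Coprime p
      rw [relIndex_top_right]
      exact ((hp.coprime_iff_not_dvd).2 fun hd => P.not_dvd_index (hd.trans (index_dvd_of_le (hPC.trans le_sup_right)))).symm

end Cfsg.Agent.S4145
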