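import Cfsg.Statements.S4146
import Cfsg.Agent.Lib.ClassNMN.Alpha
import Cfsg.Agent.Lib.ClassNMN.Beta

set_option autoImplicit false
open Cfsg

namespace Cfsg.Agent.S4146

open Subgroup Lib.ClassOMN Lib.ClassNMN

theorem main {G : Type*} [Group G] [Finite G] {n m : ℕ} (h : Lib.ClassNMN.Hyp G n m) {t : ℕ} (ht : t.Prime)
    {y : G} (hyt : IsEl t y) (hy : idx y = m) (htn : ¬ t ∣ n) :
    Group.IsNilpotent G ∧ IsPrimePow n ∧ IsPrimePow m := by
  obtain ⟨r, hr, x, hxr, hx⟩ := h.primary_of_n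
  have hn := (h.prime_of_alpha ht hr hyt hy htn hxr hx).2
  obtain ⟨r', hr', hr'n⟩ := Nat.exists_prime_and_dvd h.hn.ne'
  have hrn : r ∣ n := hn r' hr' hr'n ▸ hr'n
  obtain ⟨q, hq, y0, hy0q, hy0⟩ := h.symm.primary_of_n
  have hm := (h.symm.prime_of_alpha hr hq hxr hx (h.not_dvd hr hrn) hy0q hy0).2
  obtain ⟨q', hq', hq'm⟩ := Nat.exists_prime_and_dvd h.hm.ne'
  have hqm : q ∣ m := hm q' hq' hq'm ▸ hq'm
  have hpow : ∀ {k p : ℕ}, 1 < k → p.Prime → (∀ s, s.Prime → s ∣ k → s = p) → IsPrimePow k := by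
    intro k p hk hp hall
    have e := Nat.eq_prime_pow_of_unique_prime_dvd (n := k) (p := p) (by omega)
      fun {d} hd hdk => hall d hd hdk
    rw [e]
    exact hp.isPrimePow.pow (fun e0 => by rw [e0, pow_zero] at e; omega)
  refine ⟨?_, hpow h.hn hr hn, hpow h.hm hq hm⟩
  refine Group.isNilpotent_of_finite_tfae.out 3 0 rfl rfl |>.mp fun s hs S => ?_
  have := hs
  have := Fact.mk hr
  have := Fact.mk hq
  by_cases hsn : s = r
  · subst hsn
    exact h.symm.normal_sylow hqm hrn hy0q hy0 hxr hx S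
  by_cases hsm : s = q
  · subst hsm
    exact h.normal_sylow hrn hqm hxr hx hy0q hy0 S
  have hcen : Subgroup.centralizer ((S : Subgroup G) : Set G) = ⊤ := by
    by_contra hne
    obtain ⟨g, hg⟩ := Lib.Hall.TwoClass.exists_not_conj_mem hne
    obtain ⟨S', hS'⟩ := exists_sylow_le (r := s) (H := cl g) fun hd => by
      rcases hs.out.dvd_mul.1 (hd.trans (h.dvd_nm g)) with hd | hd
      exacts [hsn (hn s hs.out hd), hsm (hm s hs.out hd)]
    obtain ⟨k, hk⟩ := sylow_eq_cj S S'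
    refine hg k (mem_centralizer_iff.2 fun a ha => ?_)
    have e := mem_cl.1 (hS' (hk ▸ (mem_cj.2 (by simpa [mul_assoc] using (SetLike.mem_coe.1 ha)) :
      k * a * k⁻¹ ∈ cj k (S : Subgroup G))))
    calc a * (k⁻¹ * g * k) = k⁻¹ * (k * a * k⁻¹ * g) * k := by group
      _ = k⁻¹ * (g * (k * a * k⁻¹)) * k := by rw [e]
      _ = _ := by group
  refine ⟨fun a ha g => ?_⟩
  have e := mem_centralizer_iff.1 (hcen ▸ mem_top g) a ha
  rwa [← e, mul_inv_cancel_right]

/-- Let G be a finite group whose conjugacy class sizes are exactly 1, n, m and nm for coprime integers n, m > 1. Then G is nilpotent and n and m are prime powers. -/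
theorem result {G : Type*} [Group G] [Finite G] (n m : ℕ) (hn : 1 < n) (hm : 1 < m) (hcop : n.Coprime m)
    (h : Set.range (fun x : G => (Subgroup.centralizer ({x} : Set G)).index) = ({1, n, m, n * m} : Set ℕ)) :
    Group.IsNilpotent G ∧ IsPrimePow n ∧ IsPrimePow m := by
  have hh : Lib.ClassNMN.Hyp G n m := ⟨hn, hm, hcop, h⟩
  by_cases hb : Crossed G n m
  · exact (hb.false hh).elim
  simp only [Crossed, not_and_or] at hb
  push Not at hb
  rcases hb with ⟨t, y, ht, hyt, hy, htn⟩ | ⟨t, y, ht, hyt, hy, htm⟩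
  · exact main hh ht hyt hy htn
  · obtain ⟨h1, h2, h3⟩ := main hh.symm ht hyt hy htm
    exact ⟨h1, h3, h2⟩

end Cfsg.Agent.S4146
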