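import Cfsg.Statements.S4160
import Cfsg.Agent.Lib.Transfer.Fusion
import Cfsg.Agent.Lib.Coprime.Abelian
import Mathlib

set_option autoImplicit false
open Cfsg

namespace Cfsg.Agent.S4160

open scoped Pointwise

/-- an element whose class size is prime to `r` centralizes a Sylow `r`-subgroup -/
lemma conj_mem_centralizer {G : Type*} [Group G] [Finite G] {r : ℕ} [Fact r.Prime] (R : Sylow r G) (x : G)
    (hx : ¬ r ∣ (Subgroup.centralizer ({x} : Set G)).index) :
    ∃ c : G, c⁻¹ * x * c ∈ Subgroup.centralizer ((R : Subgroup G) : Set G) := by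
  obtain ⟨T⟩ := (inferInstance : Nonempty (Sylow r (Subgroup.centralizer ({x} : Set G))))
  obtain ⟨S, hS⟩ := (T.isPGroup'.map (Subgroup.centralizer ({x} : Set G)).subtype).exists_le_sylow
  have heq : (T : Subgroup (Subgroup.centralizer ({x} : Set G))).map (Subgroup.centralizer ({x} : Set G)).subtype = (S : Subgroup G) := by
    refine Subgroup.eq_of_le_of_card_ge hS ?_
    rw [Nat.card_congr (Subgroup.equivMapOfInjective _ _ (Subgroup.subtype_injective _)).toEquiv.symm,
      T.card_eq_multiplicity, S.card_eq_multiplicity]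
    conv_lhs => rw [← (Subgroup.centralizer ({x} : Set G)).card_mul_index]
    rw [Nat.factorization_mul Nat.card_pos.ne' Subgroup.index_ne_zero_of_finite, Finsupp.add_apply,
      Nat.factorization_eq_zero_of_not_dvd hx, add_zero]
  obtain ⟨c, hc⟩ := MulAction.exists_smul_eq G R S
  refine ⟨c, Subgroup.mem_centralizer_iff.2 fun s hs => ?_⟩
  have hm : c * s * c⁻¹ ∈ Subgroup.centralizer ({x} : Set G) := by
    refine Subgroup.map_subtype_le (T : Subgroup (Subgroup.centralizer ({x} : Set G))) ?_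
    rw [heq, ← hc, Sylow.coe_subgroup_smul]
    exact ⟨s, hs, rfl⟩
  have h2 := Subgroup.mem_centralizer_singleton_iff.1 hm
  calc s * (c⁻¹ * x * c) = c⁻¹ * ((c * s * c⁻¹) * x) * c := by group
    _ = c⁻¹ * (x * (c * s * c⁻¹)) * c := by rw [h2]
    _ = _ := by group

/-- nontrivial elements of the conjugates of `C(R)` -/
lemma exists_param {G : Type*} [Group G] (R : Subgroup G) {x : G} (hx : x ≠ 1) {c : G}
    (hc : c⁻¹ * x * c ∈ Subgroup.centralizer (R : Set G)) :
    ∃ (k : G ⧸ Subgroup.normalizer (R : Set G)) (y : {y : Subgroup.centralizer (R : Set G) // y ≠ 1}),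
      k.out * (y.1 : G) * k.out⁻¹ = x := by
  obtain ⟨h', hh'⟩ := QuotientGroup.mk_out_eq_mul (Subgroup.normalizer (R : Set G)) c
  have hmem : (h' : G)⁻¹ * (c⁻¹ * x * c) * h' ∈ Subgroup.centralizer (R : Set G) := by
    have := (Subgroup.mem_normalizer_iff.1 (Cfsg.Agent.Lib.Coprime.normalizer_le_normalizer_centralizer R (inv_mem h'.2)) _).1 hc
    simpa using this
  refine ⟨(c : G ⧸ Subgroup.normalizer (R : Set G)), ⟨⟨_, hmem⟩, fun h1 => hx ?_⟩, ?_⟩
  · have h2 : (h' : G)⁻¹ * (c⁻¹ * x * c) * h' = 1 := congrArg Subtype.val h1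
    calc x = c * h' * ((h' : G)⁻¹ * (c⁻¹ * x * c) * h') * (c * h')⁻¹ := by group
      _ = 1 := by rw [h2]; group
  · show (c : G ⧸ Subgroup.normalizer (R : Set G)).out * ((h' : G)⁻¹ * (c⁻¹ * x * c) * h') * (c : G ⧸ Subgroup.normalizer (R : Set G)).out⁻¹ = x
    rw [hh']; group

lemma count_le {G : Type*} [Group G] [Finite G] (R : Subgroup G)
    (hne : ¬ Subgroup.normalizer (R : Set G) ≤ Subgroup.centralizer (R : Set G)) :
    2 * ((Subgroup.normalizer (R : Set G)).index * (Nat.card (Subgroup.centralizer (R : Set G)) - 1)) + 2 ≤ Nat.card G := by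
  set N := Subgroup.normalizer (R : Set G)
  set C := Subgroup.centralizer (R : Set G)
  have hCN : C ≤ N := Subgroup.centralizer_le_normalizer _
  obtain ⟨d, hd⟩ := Subgroup.card_dvd_of_le hCN
  have hd2 : 2 ≤ d := by
    rcases d with _ | _ | d
    · rw [mul_zero] at hd; exact absurd hd Nat.card_pos.ne'
    · exact absurd (Subgroup.eq_of_le_of_card_ge hCN (by rw [hd]; simp)).ge hne
    · omega
  have hG : Nat.card G = N.index * (Nat.card C * d) := by rw [← hd, mul_comm]; exact N.card_mul_index.symm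
  have hi : 1 ≤ N.index := Nat.pos_of_ne_zero Subgroup.index_ne_zero_of_finite
  have hc : 1 ≤ Nat.card C := Nat.card_pos
  obtain ⟨k, hk⟩ := Nat.exists_eq_add_of_le hc
  rw [hG, hk, Nat.add_sub_cancel_left]
  nlinarith [Nat.mul_le_mul_left (N.index * (1 + k)) hd2]

/-- Let G be a finite group and p ≠ q primes each dividing the size of some conjugacy class of G, such that no conjugacy class size is divisible by pq. Then G has a normal p-complement or a normal q-complement. -/
theorem result {G : Type*} [Group G] [Finite G] (p q : ℕ) (hp : p.Prime) (hq : q.Prime) (hpq : p ≠ q)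
    (hp' : ∃ x : G, p ∣ (Subgroup.centralizer ({x} : Set G)).index) (hq' : ∃ x : G, q ∣ (Subgroup.centralizer ({x} : Set G)).index) (h : ∀ x : G, ¬ p * q ∣ (Subgroup.centralizer ({x} : Set G)).index) :
    Cfsg.HasNormalPComplement p G ∨ Cfsg.HasNormalPComplement q G := by
  classical
  haveI := Fact.mk hp
  haveI := Fact.mk hq
  obtain ⟨P⟩ := (inferInstance : Nonempty (Sylow p G))
  obtain ⟨Q⟩ := (inferInstance : Nonempty (Sylow q G))
  by_contra hcon
  push Not at hcon
  have hP : ¬ Subgroup.normalizer ((P : Subgroup G) : Set G) ≤ Subgroup.centralizer ((P : Subgroup G) : Set G) :=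
    fun hle => hcon.1 (Cfsg.Agent.Lib.Transfer.hasNormalPComplement_of_normalizer_le_centralizer P hle)
  have hQ : ¬ Subgroup.normalizer ((Q : Subgroup G) : Set G) ≤ Subgroup.centralizer ((Q : Subgroup G) : Set G) :=
    fun hle => hcon.2 (Cfsg.Agent.Lib.Transfer.hasNormalPComplement_of_normalizer_le_centralizer Q hle)
  let f : (G ⧸ Subgroup.normalizer ((P : Subgroup G) : Set G)) × {y : Subgroup.centralizer ((P : Subgroup G) : Set G) // y ≠ 1} ⊕
      (G ⧸ Subgroup.normalizer ((Q : Subgroup G) : Set G)) × {y : Subgroup.centralizer ((Q : Subgroup G) : Set G) // y ≠ 1} →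
      {x : G // x ≠ 1} := fun a => match a with
    | Sum.inl a => ⟨a.1.out * (a.2.1 : G) * a.1.out⁻¹, fun h1 => a.2.2 (Subtype.ext (conj_eq_one_iff.1 h1))⟩
    | Sum.inr a => ⟨a.1.out * (a.2.1 : G) * a.1.out⁻¹, fun h1 => a.2.2 (Subtype.ext (conj_eq_one_iff.1 h1))⟩
  have hf : Function.Surjective f := by
    rintro ⟨x, hx⟩
    by_cases hpx : p ∣ (Subgroup.centralizer ({x} : Set G)).index
    · have hqx : ¬ q ∣ (Subgroup.centralizer ({x} : Set G)).index := fun hd =>
        h x (((Nat.coprime_primes hp hq).2 hpq).mul_dvd_of_dvd_of_dvd hpx hd)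
      obtain ⟨c, hc⟩ := conj_mem_centralizer Q x hqx
      obtain ⟨k, y, hky⟩ := exists_param _ hx hc
      exact ⟨Sum.inr (k, y), Subtype.ext hky⟩
    · obtain ⟨c, hc⟩ := conj_mem_centralizer P x hpx
      obtain ⟨k, y, hky⟩ := exists_param _ hx hc
      exact ⟨Sum.inl (k, y), Subtype.ext hky⟩
  have hle := Nat.card_le_card_of_surjective f hf
  cases nonempty_fintype G
  rw [Nat.card_sum, Nat.card_prod, Nat.card_prod, ← Subgroup.index_eq_card, ← Subgroup.index_eq_card] at hle
  simp only [Nat.card_eq_fintype_card, Fintype.card_subtype_compl, Fintype.card_subtype_eq] at hle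
  have h1 := count_le _ hP
  have h2 := count_le _ hQ
  simp only [Nat.card_eq_fintype_card] at h1 h2
  omega

end Cfsg.Agent.S4160
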