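import Cfsg.Statements.S4149
import Cfsg.Agent.S4160

set_option autoImplicit false
open Cfsg

namespace Cfsg.Agent.S4149

/-- at least half of the elements of a group without normal `p`-complement have class size divisible by `p` -/
lemma half_le {G : Type*} [Group G] [Fintype G] {p : ℕ} [Fact p.Prime] (hnc : ¬ Cfsg.HasNormalPComplement p G)
    [DecidablePred fun x : G => p ∣ (Subgroup.centralizer ({x} : Set G)).index] :
    Fintype.card G ≤ 2 * (Finset.univ.filter fun x : G => p ∣ (Subgroup.centralizer ({x} : Set G)).index).card := by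
  classical
  obtain ⟨P⟩ := (inferInstance : Nonempty (Sylow p G))
  have hne : ¬ Subgroup.normalizer ((P : Subgroup G) : Set G) ≤ Subgroup.centralizer ((P : Subgroup G) : Set G) :=
    fun hle => hnc (Cfsg.Agent.Lib.Transfer.hasNormalPComplement_of_normalizer_le_centralizer P hle)
  have hcnt := Cfsg.Agent.S4160.count_le _ hne
  let f : (G ⧸ Subgroup.normalizer ((P : Subgroup G) : Set G)) ×
      {y : Subgroup.centralizer ((P : Subgroup G) : Set G) // y ≠ 1} → G :=
    fun a => a.1.out * (a.2.1 : G) * a.1.out⁻¹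
  have hsub : (Finset.univ.filter fun x : G => ¬ p ∣ (Subgroup.centralizer ({x} : Set G)).index) ⊆
      insert 1 (Finset.univ.image f) := by
    intro x hx
    rw [Finset.mem_insert]
    by_cases hx1 : x = 1
    · exact Or.inl hx1
    · obtain ⟨c, hc⟩ := Cfsg.Agent.S4160.conj_mem_centralizer P x (Finset.mem_filter.1 hx).2
      obtain ⟨k, y, hky⟩ := Cfsg.Agent.S4160.exists_param _ hx1 hc
      exact Or.inr (Finset.mem_image.2 ⟨(k, y), Finset.mem_univ _, hky⟩)
  have h1 := (Finset.card_le_card hsub).trans (Finset.card_insert_le _ _)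
  have h2 : (Finset.univ.image f).card ≤ _ := Finset.card_image_le
  have h3 := Finset.card_filter_add_card_filter_not (s := (Finset.univ : Finset G))
    (fun x : G => p ∣ (Subgroup.centralizer ({x} : Set G)).index)
  rw [Finset.card_univ, Fintype.card_prod, ← Nat.card_eq_fintype_card, ← Subgroup.index_eq_card,
    Fintype.card_subtype_compl, Fintype.card_subtype_eq, ← Nat.card_eq_fintype_card] at h2
  rw [Finset.card_univ] at h3
  rw [Nat.card_eq_fintype_card (α := G)] at hcnt
  omega

/-- Let G be a finite group that has a normal p-complement for at most one prime p dividing its order, and let σ be a natural number such that every conjugacy class size of G has at most σ distinct prime divisors. Then the number of primes dividing at least one conjugacy class size of G is at most 2σ. -/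
theorem result {G : Type*} [Group G] [Finite G] (σ : ℕ)
    (hσ : ∀ x : G, ((Subgroup.centralizer ({x} : Set G)).index).primeFactors.card ≤ σ)
    (hnil : ∀ p q : ℕ, p.Prime → q.Prime → p ∣ Nat.card G → q ∣ Nat.card G →
      Cfsg.HasNormalPComplement p G → Cfsg.HasNormalPComplement q G → p = q) :
    Nat.card {p : ℕ | p.Prime ∧ ∃ x : G, p ∣ (Subgroup.centralizer ({x} : Set G)).index} ≤ 2 * σ := by
  classical
  cases nonempty_fintype G
  set V : Finset ℕ := (Nat.card G).divisors.filter
    (fun p => p.Prime ∧ ∃ x : G, p ∣ (Subgroup.centralizer ({x} : Set G)).index) with hV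
  have hset : {p : ℕ | p.Prime ∧ ∃ x : G, p ∣ (Subgroup.centralizer ({x} : Set G)).index} = (V : Set ℕ) := by
    ext p
    simp only [hV, Set.mem_setOf_eq, Finset.coe_filter, Nat.mem_divisors]
    constructor
    · rintro ⟨hp, x, hx⟩
      exact ⟨⟨hx.trans (Subgroup.index_dvd_card _), Nat.card_pos.ne'⟩, hp, x, hx⟩
    · rintro ⟨-, h⟩; exact h
  rw [hset, Nat.card_coe_set_eq, Set.ncard_coe_finset]
  let c : ℕ → ℕ := fun p => (Finset.univ.filter fun x : G => p ∣ (Subgroup.centralizer ({x} : Set G)).index).card
  -- upper bound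
  have hup : ∑ p ∈ V, c p ≤ (Fintype.card G - 1) * σ := by
    have hcomm : ∑ p ∈ V, c p = ∑ x : G, (V.filter fun p => p ∣ (Subgroup.centralizer ({x} : Set G)).index).card := by
      simp only [c, Finset.card_filter]
      exact Finset.sum_comm
    rw [hcomm, ← Finset.add_sum_erase Finset.univ _ (Finset.mem_univ (1 : G))]
    have h1 : (V.filter fun p => p ∣ (Subgroup.centralizer ({(1 : G)} : Set G)).index).card = 0 := by
      rw [Finset.card_eq_zero, Finset.filter_eq_empty_iff]
      intro p hp hd
      have hidx : (Subgroup.centralizer ({(1 : G)} : Set G)).index = 1 := by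
        rw [Subgroup.index_eq_one, eq_top_iff]
        intro g _
        rw [Subgroup.mem_centralizer_singleton_iff]; simp
      rw [hidx, Nat.dvd_one] at hd
      exact (Finset.mem_filter.1 hp).2.1.ne_one hd
    rw [h1, zero_add]
    refine (Finset.sum_le_card_nsmul _ _ σ fun x _ => ?_).trans ?_
    · refine (Finset.card_le_card ?_).trans (hσ x)
      intro p hp
      rw [Finset.mem_filter] at hp
      exact Nat.mem_primeFactors.2 ⟨(Finset.mem_filter.1 hp.1).2.1, hp.2, Subgroup.index_ne_zero_of_finite⟩
    · rw [smul_eq_mul, Finset.card_erase_of_mem (Finset.mem_univ _), Finset.card_univ]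
  rcases V.eq_empty_or_nonempty with h0 | hne
  · simp [h0]
  -- the possible exceptional prime
  obtain ⟨p0, hp0, hothers⟩ : ∃ p0 ∈ V, ∀ p ∈ V, p ≠ p0 → ¬ Cfsg.HasNormalPComplement p G := by
    by_cases hex : ∃ p ∈ V, Cfsg.HasNormalPComplement p G
    · obtain ⟨p0, hp0, hh⟩ := hex
      refine ⟨p0, hp0, fun p hp hne hh' => hne ?_⟩
      have a := Finset.mem_filter.1 hp
      have b := Finset.mem_filter.1 hp0
      exact hnil p p0 a.2.1 b.2.1 (Nat.dvd_of_mem_divisors a.1) (Nat.dvd_of_mem_divisors b.1) hh' hh
    · obtain ⟨p0, hp0⟩ := hne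
      exact ⟨p0, hp0, fun p hp _ hh => hex ⟨p, hp, hh⟩⟩
  rw [← Finset.add_sum_erase V c hp0] at hup
  have hc0 : 1 ≤ c p0 := by
    obtain ⟨x, hx⟩ := (Finset.mem_filter.1 hp0).2.2
    exact Finset.card_pos.2 ⟨x, Finset.mem_filter.2 ⟨Finset.mem_univ _, hx⟩⟩
  have hlow : (V.erase p0).card * Fintype.card G ≤ 2 * ∑ p ∈ V.erase p0, c p := by
    rw [Finset.mul_sum]
    refine le_of_eq_of_le (smul_eq_mul ..).symm (Finset.card_nsmul_le_sum _ _ _ fun p hp => ?_)
    haveI : Fact p.Prime := ⟨(Finset.mem_filter.1 (Finset.mem_of_mem_erase hp)).2.1⟩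
    exact half_le (hothers p (Finset.mem_of_mem_erase hp) (Finset.ne_of_mem_erase hp))
  rw [Finset.card_erase_of_mem hp0] at hlow
  by_contra hcon
  push Not at hcon
  have h4 : 2 * σ * Fintype.card G ≤ (V.card - 1) * Fintype.card G := Nat.mul_le_mul_right _ (by omega)
  have h5 : (Fintype.card G - 1) * σ ≤ Fintype.card G * σ := Nat.mul_le_mul_right _ (Nat.sub_le _ _)
  rcases Nat.eq_zero_or_pos σ with hs | hs
  · subst hs; simp at hup; omega
  have h6 : (Fintype.card G - 1) * σ + σ = Fintype.card G * σ := by
    rw [← Nat.succ_mul]; congr 1; have := Fintype.card_pos (α := G); omega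
  have h7 : 2 * σ * Fintype.card G = 2 * (Fintype.card G * σ) := by ring
  omega

end Cfsg.Agent.S4149
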