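import Cfsg.Statements.S4150
import Cfsg.Agent.Lib.GenStruct.TwoPrimeCycles.Main
import Cfsg.Agent.Lib.GenStruct.TwoPrimeCycles.Primes
import Mathlib

set_option autoImplicit false
open Cfsg

namespace Cfsg.Agent.S4150

/-- Let m ≥ 5. Then there are primes p < q with m/2 ≤ p and q ≤ m such that any two elements x, y of the alternating group of degree m with x of order p and y of order q generate a subgroup isomorphic to an alternating group of some degree d ≥ 5. -/
theorem result (m : ℕ) (hm : 5 ≤ m) :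
    ∃ p q : ℕ, p.Prime ∧ q.Prime ∧ m ≤ 2 * p ∧ p < q ∧ q ≤ m ∧
      ∀ x y : alternatingGroup (Fin m), orderOf x = p → orderOf y = q →
        ∃ d : ℕ, 5 ≤ d ∧ Nonempty (Subgroup.closure ({x, y} : Set (alternatingGroup (Fin m))) ≃* alternatingGroup (Fin d)) := by
  classical
  open Cfsg.Agent.Lib.GenStruct.TwoPrimeCycles in
  obtain ⟨p, q, hp, hq, hm2, hpq, hqm, hgood, hdbl⟩ : ∃ p q : ℕ, p.Prime ∧ q.Prime ∧ m ≤ 2 * p ∧ p < q ∧ q ≤ m ∧
      GoodPair p q ∧ (m = 2 * p → q + 3 ≤ 2 * p ∨ p = 3) := by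
    rcases Nat.lt_or_ge m 17 with h | h
    · have : (5 ≤ m ∧ m ≤ 6) ∨ (7 ≤ m ∧ m ≤ 10) ∨ (11 ≤ m ∧ m ≤ 14) ∨ (15 ≤ m ∧ m ≤ 16) := by omega
      rcases this with h | h | h | h
      · exact ⟨3, 5, by norm_num, by norm_num, by omega, by norm_num, h.1, Or.inr (Or.inl ⟨rfl, rfl⟩), fun _ => Or.inr rfl⟩
      · exact ⟨5, 7, by norm_num, by norm_num, by omega, by norm_num, h.1, Or.inr (Or.inr (Or.inl ⟨rfl, rfl⟩)), fun _ => Or.inl (by norm_num)⟩
      · exact ⟨7, 11, by norm_num, by norm_num, by omega, by norm_num, h.1, Or.inl (by norm_num), fun _ => Or.inl (by norm_num)⟩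
      · exact ⟨11, 13, by norm_num, by norm_num, by omega, by norm_num, by omega, Or.inr (Or.inr (Or.inr ⟨rfl, rfl⟩)), fun _ => Or.inl (by norm_num)⟩
    · obtain ⟨p, q, hp, hq, h1, h2, h3⟩ := exists_separated_primes m h
      exact ⟨p, q, hp, hq, h1.le, by omega, h3, Or.inl h2, fun h' => absurd h' (by omega)⟩
  refine ⟨p, q, hp, hq, hm2, hpq, hqm, fun x y hx hy => ?_⟩
  have hq5 : 5 ≤ q := by
    rcases hgood with h | ⟨-, rfl⟩ | ⟨-, rfl⟩ | ⟨-, rfl⟩
    · have := hp.two_le; omega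
    · norm_num
    · norm_num
    · norm_num
  obtain ⟨d, hd, ⟨e⟩⟩ := Cfsg.Agent.Lib.GenStruct.TwoPrimeCycles.two_prime_generation (α := Fin m) p q hp hq
    (by rwa [Fintype.card_fin]) hpq hq5 hgood (by rwa [Fintype.card_fin]) x.2 y.2
    (by rwa [Subgroup.orderOf_coe]) (by rwa [Subgroup.orderOf_coe])
  have hmap : (Subgroup.closure ({x, y} : Set (alternatingGroup (Fin m)))).map (alternatingGroup (Fin m)).subtype =
      Subgroup.closure ({(x : Equiv.Perm (Fin m)), (y : Equiv.Perm (Fin m))} : Set (Equiv.Perm (Fin m))) := by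
    rw [MonoidHom.map_closure, Set.image_pair]
    rfl
  exact ⟨d, hd, ⟨((Subgroup.equivMapOfInjective _ _ (Subgroup.subtype_injective _)).trans (MulEquiv.subgroupCongr hmap)).trans e⟩⟩

end Cfsg.Agent.S4150
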