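import Cfsg.Statements.S4152
import Cfsg.Agent.Lib.GS.Sylow

set_option autoImplicit false
open Cfsg

namespace Cfsg.Agent.S4152

lemma count {G : Type*} [Group G] [Finite G] (π : Set ℕ) (A : ℕ)
    (hA : ∀ g : G, (∀ q : ℕ, q.Prime → q ∣ orderOf g → q ∈ π) ↔ g ^ A = 1) :
    Nat.card {x : G × G // x.1 ^ A = 1 ∧ x.1 * x.2 = x.2 * x.1} =
      Nat.card {C : ConjClasses G // ∀ q : ℕ, q.Prime → (∃ g : G, ConjClasses.mk g = C ∧ q ∣ orderOf g) → q ∈ π} * Nat.card G := by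
  classical
  cases nonempty_fintype G
  have hiff : ∀ g : G, g ^ A = 1 ↔ ∀ q : ℕ, q.Prime → (∃ h : G, ConjClasses.mk h = ConjClasses.mk g ∧ q ∣ orderOf h) → q ∈ π := by
    intro g
    rw [← hA g]
    refine ⟨fun h q hq ⟨k, hk, hkq⟩ => ?_, fun h q hq hqd => h q hq ⟨g, rfl, hqd⟩⟩
    obtain ⟨c, hc⟩ := isConj_iff.1 (ConjClasses.mk_eq_mk_iff_isConj.1 hk)
    refine h q hq ?_
    rwa [← hc, ← MulAut.conj_apply, MulEquiv.orderOf_eq]
  have e1 : Nat.card {x : G × G // x.1 ^ A = 1 ∧ x.1 * x.2 = x.2 * x.1} =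
      Nat.card (Σ y : {y : G // y ^ A = 1}, Subgroup.centralizer ({(y : G)} : Set G)) := by
    refine Nat.card_congr
      { toFun := fun x => ⟨⟨x.1.1, x.2.1⟩, x.1.2, Subgroup.mem_centralizer_singleton_iff.2 x.2.2.symm⟩
        invFun := fun x => ⟨((x.1 : G), (x.2 : G)), x.1.2, (Subgroup.mem_centralizer_singleton_iff.1 x.2.2).symm⟩
        left_inv := fun x => rfl
        right_inv := fun x => rfl }
  rw [e1, Nat.card_sigma]
  let f : {y : G // y ^ A = 1} → {C : ConjClasses G // ∀ q : ℕ, q.Prime → (∃ g : G, ConjClasses.mk g = C ∧ q ∣ orderOf g) → q ∈ π} :=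
    fun y => ⟨ConjClasses.mk y.1, (hiff y.1).1 y.2⟩
  rw [← Finset.sum_fiberwise Finset.univ f, Nat.card_eq_fintype_card (α := {C : ConjClasses G // _}),
    ← Finset.card_univ, ← smul_eq_mul, ← Finset.sum_const]
  refine Finset.sum_congr rfl ?_
  rintro ⟨C, hC⟩ -
  obtain ⟨g, rfl⟩ := ConjClasses.exists_rep C
  have hconst : ∀ y ∈ Finset.univ.filter (fun y => f y = ⟨ConjClasses.mk g, hC⟩),
      Nat.card (Subgroup.centralizer ({(y : G)} : Set G)) * (ConjClasses.mk g).carrier.ncard = Nat.card G := by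
    intro y hy
    have h2 : ConjClasses.mk (y : G) = ConjClasses.mk g := congrArg Subtype.val (Finset.mem_filter.1 hy).2
    rw [← h2, Cfsg.Agent.Lib.GS.ncard_carrier_eq_index]
    exact Subgroup.card_mul_index _
  have hcard : (Finset.univ.filter (fun y => f y = ⟨ConjClasses.mk g, hC⟩)).card = (ConjClasses.mk g).carrier.ncard := by
    refine Eq.trans ?_ (Set.ncard_eq_toFinset_card' _).symm
    refine Finset.card_bij (fun y _ => (y : G)) ?_ ?_ ?_
    · intro y hy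
      rw [Set.mem_toFinset, ConjClasses.mem_carrier_iff_mk_eq]
      exact congrArg Subtype.val (Finset.mem_filter.1 hy).2
    · exact fun a _ b _ h => Subtype.ext h
    · intro b hb
      rw [Set.mem_toFinset, ConjClasses.mem_carrier_iff_mk_eq] at hb
      refine ⟨⟨b, (hiff b).2 (by rw [hb]; exact hC)⟩, ?_, rfl⟩
      exact Finset.mem_filter.2 ⟨Finset.mem_univ _, Subtype.ext hb⟩
  have hpos : 0 < (ConjClasses.mk g).carrier.ncard := (Set.ncard_pos (Set.toFinite _)).2 ⟨g, ConjClasses.mem_carrier_mk⟩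
  refine Nat.eq_of_mul_eq_mul_right hpos ?_
  rw [Finset.sum_mul, Finset.sum_congr rfl hconst, Finset.sum_const, hcard, smul_eq_mul, mul_comm]

lemma pow_iff {G : Type*} [Group G] [Finite G] (π : Set ℕ) (A B : ℕ) (hA : ∀ q : ℕ, q.Prime → q ∣ A → q ∈ π)
    (hB : ∀ q : ℕ, q.Prime → q ∣ B → q ∉ π) (g : G) (hg : orderOf g ∣ A * B) :
    (∀ q : ℕ, q.Prime → q ∣ orderOf g → q ∈ π) ↔ g ^ A = 1 := by
  rw [← orderOf_dvd_iff_pow_eq_one]
  refine ⟨fun h => ?_, fun h q hq hqd => hA q hq (hqd.trans h)⟩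
  refine Nat.Coprime.dvd_of_dvd_mul_right ?_ hg
  exact Nat.coprime_of_dvd fun q hq hq1 hq2 => hB q hq hq2 (h q hq hq1)

/-- the commuting pairs lying over one `π`-element of the quotient -/
lemma fibre_le {G : Type*} [Group G] [Finite G] (N : Subgroup G) [N.Normal] (A B : ℕ) (s t : ℤ)
    (hst : (A : ℤ) * s + (B : ℤ) * t = 1) (hAB : ∀ g : G, g ^ ((A : ℤ) * (B : ℤ)) = 1) (c : G ⧸ N) (hc : c ^ A = 1) :
    Nat.card {z : G × G // (z.1 : G ⧸ N) = c ∧ z.1 ^ A = 1 ∧ z.2 ∈ N ∧ z.1 * z.2 = z.2 * z.1} ≤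
      Nat.card {z : N × N // z.1 ^ A = 1 ∧ z.1 * z.2 = z.2 * z.1} := by
  -- (y, n) goes to (π-part of n, y * π'-part of n); this is injective
  let P : G → G := fun g => g ^ ((B : ℤ) * t)
  let Q : G → G := fun g => g ^ ((A : ℤ) * s)
  have hPQ : ∀ g, P g * Q g = g := fun g => by
    simp only [P, Q]; rw [← zpow_add, add_comm, hst, zpow_one]
  have hPA : ∀ g, P g ^ A = 1 := fun g => by
    simp only [P]
    rw [← zpow_natCast, ← zpow_mul, show (B : ℤ) * t * (A : ℤ) = ((A : ℤ) * B) * t by ring, zpow_mul, hAB, one_zpow]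
  have hQB : ∀ g, Q g ^ B = 1 := fun g => by
    simp only [Q]
    rw [← zpow_natCast, ← zpow_mul, show (A : ℤ) * s * (B : ℤ) = ((A : ℤ) * B) * s by ring, zpow_mul, hAB, one_zpow]
  have hPrec : ∀ y b : G, y ^ A = 1 → b ^ B = 1 → Commute y b → P (y * b) = y := by
    intro y b hy hb hyb
    simp only [P]
    rw [hyb.mul_zpow, zpow_mul b, zpow_natCast, hb, one_zpow, mul_one,
      show (B : ℤ) * t = 1 - (A : ℤ) * s by linarith, zpow_sub, zpow_one, zpow_mul, zpow_natCast, hy, one_zpow, inv_one, mul_one]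
  have hstep : ∀ z : {z : G × G // (z.1 : G ⧸ N) = c ∧ z.1 ^ A = 1 ∧ z.2 ∈ N ∧ z.1 * z.2 = z.2 * z.1},
      P z.1.2 ∈ N ∧ ((z.1.1 * Q z.1.2 : G) : G ⧸ N) = c ∧ Commute (P z.1.2) (z.1.1 * Q z.1.2) := by
    rintro ⟨⟨y, n⟩, h1, h2, h3, h4⟩
    refine ⟨N.zpow_mem h3 _, ?_, ?_⟩
    · rw [QuotientGroup.mk_mul, (QuotientGroup.eq_one_iff _).2 (N.zpow_mem h3 _), mul_one]; exact h1
    · exact ((Commute.zpow_left (Commute.symm h4) _).mul_right ((Commute.refl n).zpow_zpow _ _))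
  let S := {z : G × G // z.1 ∈ N ∧ z.1 ^ A = 1 ∧ (z.2 : G ⧸ N) = c ∧ Commute z.1 z.2}
  let f : {z : G × G // (z.1 : G ⧸ N) = c ∧ z.1 ^ A = 1 ∧ z.2 ∈ N ∧ z.1 * z.2 = z.2 * z.1} → S :=
    fun z => ⟨(P z.1.2, z.1.1 * Q z.1.2), (hstep z).1, hPA _, (hstep z).2.1, (hstep z).2.2⟩
  have hinj : Function.Injective f := by
    intro z w h
    have h' : (P z.1.2, z.1.1 * Q z.1.2) = (P w.1.2, w.1.1 * Q w.1.2) := congrArg Subtype.val h
    obtain ⟨ha, hb⟩ := Prod.mk.injEq .. |>.mp h'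
    have hy : z.1.1 = w.1.1 := by
      rw [← hPrec z.1.1 (Q z.1.2) z.2.2.1 (hQB _) ((show Commute z.1.1 z.1.2 from z.2.2.2.2).zpow_right _),
        ← hPrec w.1.1 (Q w.1.2) w.2.2.1 (hQB _) ((show Commute w.1.1 w.1.2 from w.2.2.2.2).zpow_right _), hb]
    have hn : z.1.2 = w.1.2 := by
      rw [hy, mul_left_cancel_iff] at hb
      rw [← hPQ z.1.2, ← hPQ w.1.2, ha, hb]
    exact Subtype.ext (Prod.ext hy hn)
  refine (Nat.card_le_card_of_injective f hinj).trans ?_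
  -- translate the second coordinate back into N
  have hex : ∀ a : G, (∃ m : G, (m : G ⧸ N) = c ∧ Commute a m) → ∃ m : G, (m : G ⧸ N) = c ∧ Commute a m := fun a h => h
  classical
  let base : G → G := fun a => if h : ∃ m : G, (m : G ⧸ N) = c ∧ Commute a m then h.choose else 1
  have hbase : ∀ z : S, (base z.1.1 : G ⧸ N) = c ∧ Commute z.1.1 (base z.1.1) := by
    intro z
    have h : ∃ m : G, (m : G ⧸ N) = c ∧ Commute z.1.1 m := ⟨z.1.2, z.2.2.2.1, z.2.2.2.2⟩
    simp only [base, dif_pos h]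
    exact h.choose_spec
  let g : S → {z : N × N // z.1 ^ A = 1 ∧ z.1 * z.2 = z.2 * z.1} := fun z =>
    ⟨(⟨z.1.1, z.2.1⟩, ⟨(base z.1.1)⁻¹ * z.1.2, QuotientGroup.eq.1 ((hbase z).1.trans z.2.2.2.1.symm)⟩),
      Subtype.ext (by rw [Subgroup.coe_pow]; exact z.2.2.1),
      Subtype.ext ((hbase z).2.inv_right.mul_right z.2.2.2.2)⟩
  refine Nat.card_le_card_of_injective g ?_
  intro z w h
  have h1 : z.1.1 = w.1.1 := congrArg (fun x => ((x.1.1 : N) : G)) h
  have h2 : (base z.1.1)⁻¹ * z.1.2 = (base w.1.1)⁻¹ * w.1.2 := congrArg (fun x => ((x.1.2 : N) : G)) h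
  rw [h1, mul_left_cancel_iff] at h2
  exact Subtype.ext (Prod.ext h1 h2)

/-- Let G be a finite group, N a normal subgroup and π a set of primes. Then the number of conjugacy classes of π-elements of G (elements whose order is divisible only by primes in π) is at most the number of conjugacy classes of π-elements of N (under conjugation by N) times the number of conjugacy classes of π-elements of G/N. -/
theorem result {G : Type*} [Group G] [Finite G] (N : Subgroup G) [N.Normal] (π : Set ℕ) :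
    Nat.card {C : ConjClasses G // ∀ q : ℕ, q.Prime → (∃ g : G, ConjClasses.mk g = C ∧ q ∣ orderOf g) → q ∈ π} ≤ Nat.card {C : ConjClasses N // ∀ q : ℕ, q.Prime → (∃ g : N, ConjClasses.mk g = C ∧ q ∣ orderOf g) → q ∈ π} * Nat.card {C : ConjClasses (G ⧸ N) // ∀ q : ℕ, q.Prime → (∃ g : (G ⧸ N), ConjClasses.mk g = C ∧ q ∣ orderOf g) → q ∈ π} := by
  classical
  -- split the order of G into its π-part and π'-part
  set n := Nat.card G with hn
  have hn0 : n ≠ 0 := Nat.card_pos.ne'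
  let A := ∏ q ∈ n.primeFactors.filter (· ∈ π), q ^ n.factorization q
  let B := ∏ q ∈ n.primeFactors.filter (· ∉ π), q ^ n.factorization q
  have hA : ∀ q : ℕ, q.Prime → q ∣ A → q ∈ π := by
    intro q hq hd
    obtain ⟨r, hr, hqr⟩ := (hq.prime.dvd_finsetProd_iff _).1 hd
    have hr' := (Finset.mem_filter.1 hr)
    rw [(Nat.prime_dvd_prime_iff_eq hq (Nat.prime_of_mem_primeFactors hr'.1)).1 (hq.dvd_of_dvd_pow hqr)]
    exact hr'.2
  have hB : ∀ q : ℕ, q.Prime → q ∣ B → q ∉ π := by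
    intro q hq hd
    obtain ⟨r, hr, hqr⟩ := (hq.prime.dvd_finsetProd_iff _).1 hd
    have hr' := (Finset.mem_filter.1 hr)
    rw [(Nat.prime_dvd_prime_iff_eq hq (Nat.prime_of_mem_primeFactors hr'.1)).1 (hq.dvd_of_dvd_pow hqr)]
    exact hr'.2
  have hAB : A * B = n := by
    rw [Finset.prod_filter_mul_prod_filter_not, ← Nat.support_factorization]
    exact Nat.prod_factorization_pow_eq_self hn0
  have hcop : IsCoprime (A : ℤ) (B : ℤ) :=
    Nat.isCoprime_iff_coprime.2 (Nat.coprime_of_dvd fun q hq h1 h2 => hB q hq h2 (hA q hq h1))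
  obtain ⟨s, t, hst⟩ := hcop
  rw [mul_comm s, mul_comm t] at hst
  have hpowG : ∀ g : G, g ^ ((A : ℤ) * (B : ℤ)) = 1 := fun g => by
    rw [← Nat.cast_mul, zpow_natCast, hAB]; exact pow_card_eq_one'
  have cG := count (G := G) π A fun g => pow_iff π A B hA hB g (hAB ▸ orderOf_dvd_natCard g)
  have cN := count (G := N) π A fun g => pow_iff π A B hA hB g
    (hAB ▸ (orderOf_dvd_natCard g).trans (Subgroup.card_subgroup_dvd_card N))
  have cQ := count (G := G ⧸ N) π A fun g => pow_iff π A B hA hB g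
    (hAB ▸ (orderOf_dvd_natCard g).trans (Subgroup.card_quotient_dvd_card N))
  let TG := {x : G × G // x.1 ^ A = 1 ∧ x.1 * x.2 = x.2 * x.1}
  let TN := {x : N × N // x.1 ^ A = 1 ∧ x.1 * x.2 = x.2 * x.1}
  let TQ := {x : (G ⧸ N) × (G ⧸ N) // x.1 ^ A = 1 ∧ x.1 * x.2 = x.2 * x.1}
  let φ : TG → TQ := fun x => ⟨((x.1.1 : G ⧸ N), (x.1.2 : G ⧸ N)), by
    rw [← QuotientGroup.mk_pow, x.2.1, QuotientGroup.mk_one],
    by rw [← QuotientGroup.mk_mul, ← QuotientGroup.mk_mul, x.2.2]⟩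
  have hle : Nat.card TG ≤ Nat.card TQ * Nat.card TN := by
    cases nonempty_fintype TQ
    rw [← Nat.card_congr (Equiv.sigmaFiberEquiv φ), Nat.card_sigma, Nat.card_eq_fintype_card (α := TQ),
      ← Finset.card_univ, ← smul_eq_mul, ← Finset.sum_const]
    refine Finset.sum_le_sum ?_
    rintro ⟨⟨c, d⟩, hc, hcd⟩ -
    -- a fibre is, for every y over c, a subset of a coset of C_N(y)
    refine le_trans ?_ (fibre_le N A B s t hst hpowG c hc)
    let base : G → G := fun y => if h : ∃ x : G, (x : G ⧸ N) = d ∧ y * x = x * y then h.choose else 1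
    let F := {a : TG // φ a = ⟨(c, d), hc, hcd⟩}
    have hbase : ∀ a : F, (base a.1.1.1 : G ⧸ N) = d ∧ a.1.1.1 * base a.1.1.1 = base a.1.1.1 * a.1.1.1 := by
      intro a
      have h : ∃ x : G, (x : G ⧸ N) = d ∧ a.1.1.1 * x = x * a.1.1.1 :=
        ⟨a.1.1.2, congrArg (fun z : TQ => z.1.2) a.2, a.1.2.2⟩
      simp only [base, dif_pos h]
      exact h.choose_spec
    let g : F → {z : G × G // (z.1 : G ⧸ N) = c ∧ z.1 ^ A = 1 ∧ z.2 ∈ N ∧ z.1 * z.2 = z.2 * z.1} := fun a =>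
      ⟨(a.1.1.1, (base a.1.1.1)⁻¹ * a.1.1.2), congrArg (fun z : TQ => z.1.1) a.2, a.1.2.1,
        QuotientGroup.eq.1 ((hbase a).1.trans (congrArg (fun z : TQ => z.1.2) a.2).symm),
        (Commute.inv_right (hbase a).2).mul_right a.1.2.2⟩
    refine Nat.card_le_card_of_injective g ?_
    intro a b h
    have h' : (a.1.1.1, (base a.1.1.1)⁻¹ * a.1.1.2) = (b.1.1.1, (base b.1.1.1)⁻¹ * b.1.1.2) := congrArg Subtype.val h
    obtain ⟨h1, h2⟩ := Prod.mk.injEq .. |>.mp h'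
    rw [h1, mul_left_cancel_iff] at h2
    exact Subtype.ext (Subtype.ext (Prod.ext h1 h2))
  simp only [TG, TN, TQ] at hle
  rw [cG, cN, cQ] at hle
  refine Nat.le_of_mul_le_mul_right ?_ (Nat.card_pos : 0 < Nat.card G)
  refine hle.trans (le_of_eq ?_)
  rw [Subgroup.card_eq_card_quotient_mul_card_subgroup N]
  ring

end Cfsg.Agent.S4152
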