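import Cfsg.Statements.S4153
import Mathlib
-- import your own Cfsg.Agent.* helpers here

set_option autoImplicit false
open Cfsg

namespace Cfsg.Agent.S4153

lemma isP_iff {G : Type*} [Group G] [Finite G] (p : ℕ) [Fact p.Prime] (g : G) :
    (∃ k : ℕ, orderOf g = p ^ k) ↔ IsPGroup p (Subgroup.zpowers g) := by
  rw [IsPGroup.iff_card, Nat.card_zpowers]

lemma mem_pow_of_mem_sylow {G : Type*} [Group G] [Finite G] {p : ℕ} [Fact p.Prime] (Q : Sylow p G) {g : G}
    (h : g ∈ (Q : Subgroup G)) : ∃ k : ℕ, orderOf g = p ^ k :=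
  (isP_iff p g).2 (Q.isPGroup'.to_le (Subgroup.zpowers_le.2 h))

/-- Let G be a finite group, p a prime, N a normal subgroup, P a Sylow p-subgroup of G and P̄ a Sylow p-subgroup of G/N. Count the elements of p-power order, the identity included. Then (number of such elements of G/N)/#P̄ ≤ (number of such elements of G)/#P, stated as a cross-multiplied inequality, with equality when N is central. -/
theorem result {G : Type*} [Group G] [Finite G] (p : ℕ) [Fact p.Prime] (N : Subgroup G) [N.Normal]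
    (P : Sylow p G) (Pbar : Sylow p (G ⧸ N)) :
    Nat.card {g : (G ⧸ N) // ∃ k : ℕ, orderOf g = p ^ k} * Nat.card (P : Subgroup G) ≤ Nat.card {g : G // ∃ k : ℕ, orderOf g = p ^ k} * Nat.card (Pbar : Subgroup (G ⧸ N)) ∧
    (N ≤ Subgroup.center G → Nat.card {g : (G ⧸ N) // ∃ k : ℕ, orderOf g = p ^ k} * Nat.card (P : Subgroup G) = Nat.card {g : G // ∃ k : ℕ, orderOf g = p ^ k} * Nat.card (Pbar : Subgroup (G ⧸ N))) := by
  classical
  have hmap := QuotientGroup.mk'_surjective N
  set π := QuotientGroup.mk' N with hπ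
  let P' : Sylow p (G ⧸ N) := P.mapSurjective hmap
  have hPb : Nat.card (Pbar : Subgroup (G ⧸ N)) = Nat.card (P' : Subgroup (G ⧸ N)) := Nat.card_congr (Pbar.equiv P').toEquiv
  have hcardP : Nat.card (P : Subgroup G) = Nat.card (P' : Subgroup (G ⧸ N)) * Nat.card ↥((P : Subgroup G) ⊓ N) := by
    rw [Sylow.coe_mapSurjective]
    set res : (P : Subgroup G) →* G ⧸ N := π.comp (P : Subgroup G).subtype
    have hr : res.range = (P : Subgroup G).map π := by rw [MonoidHom.range_comp, Subgroup.range_subtype]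
    have hk : res.ker = N.subgroupOf (P : Subgroup G) := by
      ext z; simp [res, π, Subgroup.mem_subgroupOf]
    rw [← hr, ← Nat.card_congr (QuotientGroup.quotientKerEquivRange res).toEquiv, Subgroup.card_eq_card_quotient_mul_card_subgroup res.ker]
    congr 1
    rw [hk, ← Subgroup.inf_subgroupOf_left]
    exact Nat.card_congr (Subgroup.subgroupOfEquivOfLe inf_le_left).toEquiv
  -- every p-element of the quotient lifts into some Sylow subgroup
  have hlift : ∀ q : {g : G ⧸ N // ∃ k : ℕ, orderOf g = p ^ k}, ∃ g : G, ∃ x ∈ (P : Subgroup G), π (g * x * g⁻¹) = q.1 := by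
    rintro ⟨q, hq⟩
    obtain ⟨Q, hQ⟩ := ((isP_iff p q).1 hq).exists_le_sylow
    obtain ⟨c, hc⟩ := MulAction.exists_smul_eq (G ⧸ N) P' Q
    obtain ⟨g, rfl⟩ := hmap c
    have hqQ : q ∈ (Q : Subgroup (G ⧸ N)) := hQ (Subgroup.mem_zpowers q)
    rw [← hc, Sylow.coe_subgroup_smul] at hqQ
    obtain ⟨_, ⟨x, hx, rfl⟩, hz⟩ := hqQ
    refine ⟨g, x, hx, ?_⟩
    rw [map_mul, map_mul, map_inv]
    exact hz
  choose g x hx hgx using hlift
  let F : {g : G ⧸ N // ∃ k : ℕ, orderOf g = p ^ k} × ↥((P : Subgroup G) ⊓ N) → {g : G // ∃ k : ℕ, orderOf g = p ^ k} :=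
    fun a => ⟨g a.1 * (x a.1 * a.2) * (g a.1)⁻¹, by
      rw [← MulAut.conj_apply, MulEquiv.orderOf_eq]
      exact mem_pow_of_mem_sylow P (mul_mem (hx a.1) a.2.2.1)⟩
  have hF : ∀ a, π (F a).1 = a.1.1 := by
    intro a
    have hn : π (a.2 : G) = 1 := (QuotientGroup.eq_one_iff _).2 a.2.2.2
    rw [← hgx a.1]
    simp only [F, map_mul, map_inv, hn, mul_one]
  have hinj : Function.Injective F := by
    rintro ⟨q, n⟩ ⟨q', n'⟩ e
    have : q = q' := by
      apply Subtype.ext
      rw [← hF (q, n), ← hF (q', n'), e]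
    subst this
    have e' := congrArg Subtype.val e
    simp only [F, mul_left_inj, mul_right_inj] at e'
    rw [Subtype.ext e']
  have h1 := Nat.card_le_card_of_injective F hinj
  rw [Nat.card_prod] at h1
  refine ⟨?_, fun hN => ?_⟩
  · rw [hcardP, hPb]
    calc _ = Nat.card {g : G ⧸ N // ∃ k : ℕ, orderOf g = p ^ k} * Nat.card ↥((P : Subgroup G) ⊓ N) * Nat.card (P' : Subgroup (G ⧸ N)) := by ring
      _ ≤ _ := Nat.mul_le_mul_right _ h1
  · have hs : Function.Surjective F := by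
      rintro ⟨y, hy⟩
      have hq : ∃ k : ℕ, orderOf (π y) = p ^ k := by
        obtain ⟨k, hk⟩ := hy
        obtain ⟨j, -, hj⟩ := (Nat.dvd_prime_pow Fact.out).1 (hk ▸ orderOf_map_dvd π y)
        exact ⟨j, hj⟩
      set q : {g : G ⧸ N // ∃ k : ℕ, orderOf g = p ^ k} := ⟨π y, hq⟩
      set y0 := g q * x q * (g q)⁻¹ with hy0
      have hy0' : ∃ k : ℕ, orderOf y0 = p ^ k := by
        rw [hy0, ← MulAut.conj_apply, MulEquiv.orderOf_eq]
        exact mem_pow_of_mem_sylow P (hx q)
      have hn : y0⁻¹ * y ∈ N := (QuotientGroup.eq).1 (hgx q)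
      have hc : Commute y0 y := by
        have := (Subgroup.mem_center_iff.1 (hN hn) y0)
        show y0 * y = y * y0
        calc y0 * y = y0 * (y0 * (y0⁻¹ * y)) := by group
          _ = y0 * ((y0⁻¹ * y) * y0) := by rw [this]
          _ = _ := by group
      have hnp : ∃ k : ℕ, orderOf (y0⁻¹ * y) = p ^ k := by
        obtain ⟨a, ha⟩ := hy0'
        obtain ⟨b, hb⟩ := hy
        have hd : orderOf (y0⁻¹ * y) ∣ p ^ (a + b) := by
          refine (hc.inv_left.orderOf_mul_dvd_lcm).trans ?_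
          rw [orderOf_inv, ha, hb]
          exact Nat.lcm_dvd (Nat.pow_dvd_pow p (by omega)) (Nat.pow_dvd_pow p (by omega))
        obtain ⟨j, -, hj⟩ := (Nat.dvd_prime_pow Fact.out).1 hd
        exact ⟨j, hj⟩
      have hnP : y0⁻¹ * y ∈ (P : Subgroup G) := by
        have hZ : Subgroup.zpowers (y0⁻¹ * y) ≤ Subgroup.normalizer ((P : Subgroup G) : Set G) :=
          (Subgroup.zpowers_le.2 (hN hn)).trans (Subgroup.center_le_normalizer _)
        have := ((isP_iff p _).1 hnp).to_sup_of_normal_right' P.isPGroup' hZ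
        exact P.3 this le_sup_right ▸ Subgroup.mem_sup_left (Subgroup.mem_zpowers _)
      refine ⟨(q, ⟨y0⁻¹ * y, hnP, hn⟩), Subtype.ext ?_⟩
      show g q * (x q * (y0⁻¹ * y)) * (g q)⁻¹ = y
      calc g q * (x q * (y0⁻¹ * y)) * (g q)⁻¹ = y0 * (g q * (y0⁻¹ * y)) * (g q)⁻¹ := by rw [hy0]; group
        _ = y0 * ((y0⁻¹ * y) * g q) * (g q)⁻¹ := by rw [Subgroup.mem_center_iff.1 (hN hn) (g q)]
        _ = y := by group
    have h2 := Nat.card_eq_of_bijective F ⟨hinj, hs⟩
    rw [Nat.card_prod] at h2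
    rw [hcardP, hPb, ← h2]
    ring

end Cfsg.Agent.S4153
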