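import Cfsg.Statements.S4154
import Mathlib
-- import your own Cfsg.Agent.* helpers here

set_option autoImplicit false
open Cfsg

namespace Cfsg.Agent.S4154

/-- Let G be a finite group and α an automorphism of G such that every element of G is the product of an element fixed by α and an element of the form g⁻¹α(g). If N is a normal α-invariant subgroup, then the automorphism ᾱ induced on G/N has the same property, and every coset fixed by ᾱ contains an element fixed by α (so the fixed points of ᾱ are the images of the fixed points of α). -/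
theorem result {G : Type*} [Group G] [Finite G] (α : MulAut G)
    (hccp : ∀ x : G, ∃ c g : G, α c = c ∧ x = c * (g⁻¹ * α g))
    (N : Subgroup G) [N.Normal] (hN : ∀ n ∈ N, α n ∈ N) :
    (∀ x : G, ∃ c g : G, c⁻¹ * α c ∈ N ∧ x⁻¹ * (c * (g⁻¹ * α g)) ∈ N) ∧
    (∀ x : G, x⁻¹ * α x ∈ N → ∃ c : G, α c = c ∧ c⁻¹ * x ∈ N) := by
  refine ⟨fun x => ?_, fun x hx => ?_⟩
  · obtain ⟨c, g, hc, rfl⟩ := hccp x
    exact ⟨c, g, by simp [hc], by simp⟩
  have hNα : N ≤ N.comap (α : G →* G) := fun n hn => hN n hn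
  let β : G ⧸ N →* G ⧸ N := QuotientGroup.map N N (α : G →* G) hNα
  let F : Subgroup G := MonoidHom.eqLocus (α : G →* G) (MonoidHom.id G)
  let Fb : Subgroup (G ⧸ N) := F.map (QuotientGroup.mk' N)
  let X : Subgroup (G ⧸ N) := MonoidHom.eqLocus β (MonoidHom.id _)
  have hFX : Fb ≤ X := by
    rintro _ ⟨c, hc, rfl⟩
    show β (QuotientGroup.mk' N c) = QuotientGroup.mk' N c
    exact congrArg (QuotientGroup.mk' N) (hc : α c = c)
  let K : Set (G ⧸ N) := Set.range fun y : G ⧸ N => y * β y⁻¹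
  have hK : Nat.card K ≤ X.index := by
    let f : (G ⧸ N) ⧸ X → K := Quotient.lift (fun y => ⟨y * β y⁻¹, y, rfl⟩) (fun u v huv => by
      apply Subtype.ext
      have h' : β (u⁻¹ * v) = u⁻¹ * v := QuotientGroup.leftRel_apply.1 huv
      show u * β u⁻¹ = v * β v⁻¹
      calc u * β u⁻¹ = u * β ((u⁻¹ * v) * v⁻¹) := by group
        _ = u * (u⁻¹ * v * β v⁻¹) := by rw [map_mul, h']
        _ = _ := by group)
    refine Nat.card_le_card_of_surjective f ?_
    rintro ⟨z, y, rfl⟩
    exact ⟨QuotientGroup.mk y, rfl⟩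
  have hsurj : Function.Surjective (fun ck : Fb × K => (ck.1 : G ⧸ N) * ck.2) := by
    intro q
    obtain ⟨z, rfl⟩ := QuotientGroup.mk'_surjective N q
    obtain ⟨c, g, hc, rfl⟩ := hccp z
    refine ⟨(⟨QuotientGroup.mk' N c, c, hc, rfl⟩, ⟨QuotientGroup.mk' N (g⁻¹ * α g), (QuotientGroup.mk' N g)⁻¹, ?_⟩), (map_mul _ c _).symm⟩
    show (QuotientGroup.mk' N g)⁻¹ * β ((QuotientGroup.mk' N g)⁻¹)⁻¹ = QuotientGroup.mk' N (g⁻¹ * α g)
    rw [inv_inv, map_mul, map_inv]
    rfl
  have hcard := Nat.card_le_card_of_surjective _ hsurj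
  rw [Nat.card_prod, ← X.card_mul_index] at hcard
  have hle : Nat.card X ≤ Nat.card Fb := by
    by_contra hlt
    push Not at hlt
    have h1 : Nat.card Fb * Nat.card K ≤ Nat.card Fb * X.index := Nat.mul_le_mul_left _ hK
    have h2 : Nat.card Fb * X.index < Nat.card X * X.index :=
      Nat.mul_lt_mul_of_pos_right hlt (Nat.pos_of_ne_zero X.index_ne_zero_of_finite)
    omega
  have heq : Fb = X := Subgroup.eq_of_le_of_card_ge hFX hle
  have hxX : QuotientGroup.mk' N x ∈ X := by
    show β (QuotientGroup.mk' N x) = QuotientGroup.mk' N x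
    exact ((QuotientGroup.eq).2 hx).symm
  rw [← heq] at hxX
  obtain ⟨c, hc, hcx⟩ := hxX
  exact ⟨c, hc, (QuotientGroup.eq).1 hcx⟩

end Cfsg.Agent.S4154
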