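import Cfsg.Statements.S4155
import Cfsg.Agent.Lib.Hall.Basic
import Cfsg.Agent.Lib.Transfer.Hall
import Cfsg.Agent.S0040

set_option autoImplicit false
open Cfsg

namespace Cfsg.Agent.S4155

open Cfsg.Agent.Lib

theorem exists_central {K : Type*} [Group K] [Finite K] [Group.IsNilpotent K] {r : ℕ} [Fact r.Prime]
    (hr : r ∣ Nat.card K) : ∃ z : K, orderOf z = r ∧ z ∈ Subgroup.center K := by
  obtain ⟨P⟩ : Nonempty (Sylow r K) := inferInstance
  haveI : Nontrivial (P : Subgroup K) := (Subgroup.nontrivial_iff_ne_bot _).2 (P.ne_bot_of_dvd_card hr)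
  haveI := P.isPGroup'.center_nontrivial
  obtain ⟨z, hz⟩ := exists_prime_orderOf_dvd_card' (G := Subgroup.center (P : Subgroup K)) r
    (((P.isPGroup'.to_subgroup _).card_eq_or_dvd).resolve_left Finite.one_lt_card.ne')
  rw [← Subgroup.orderOf_coe, ← Subgroup.orderOf_coe] at hz
  set y : K := ((z : (P : Subgroup K)) : K)
  refine ⟨y, hz, ?_⟩
  suffices h : Subgroup.centralizer ({y} : Set K) = ⊤ by
    rw [Subgroup.mem_center_iff]
    intro g
    exact Subgroup.mem_centralizer_singleton_iff.1 (h ▸ Subgroup.mem_top g)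
  rw [← Subgroup.index_eq_one, Nat.eq_one_iff_not_exists_prime_dvd]
  intro s hs hdvd
  haveI : Fact s.Prime := ⟨hs⟩
  obtain ⟨S⟩ : Nonempty (Sylow s K) := inferInstance
  have key : ∀ T : Sylow s K, (T : Subgroup K) ≤ Subgroup.centralizer ({y} : Set K) → False := fun T hT =>
    T.not_dvd_index (hdvd.trans (Subgroup.index_dvd_of_le hT))
  by_cases hsr : s = r
  · subst hsr
    refine key P fun x hx => Subgroup.mem_centralizer_singleton_iff.2 ?_
    exact congrArg Subtype.val (Subgroup.mem_center_iff.1 z.2 ⟨x, hx⟩)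
  · refine key S fun x hx => Subgroup.mem_centralizer_singleton_iff.2 ?_
    obtain ⟨k, hk⟩ := IsPGroup.iff_orderOf.1 S.isPGroup' ⟨x, hx⟩
    rw [← Subgroup.orderOf_coe] at hk
    refine (Transfer.commute_of_coprime_orderOf ?_).eq
    rw [show orderOf x = s ^ k from hk, show orderOf y = r from hz]
    exact ((Nat.coprime_primes hs Fact.out).2 hsr).pow_left k


/-- Let G be a finite group and N a proper non-trivial normal nilpotent subgroup whose order is not a prime power, such that for every x outside N all elements of the coset xN have the same order as x. Then N is the Fitting subgroup of G, and for every prime q every Sylow q-subgroup of G/N is cyclic or generalized quaternion. -/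
theorem result {G : Type*} [Group G] [Finite G] (N : Subgroup G) [N.Normal] (hN1 : N ≠ ⊥) (hN2 : N ≠ ⊤)
    (heq : ∀ x : G, x ∉ N → ∀ n ∈ N, orderOf (x * n) = orderOf x)
    (hnil : Group.IsNilpotent N) (hnpp : ¬ IsPrimePow (Nat.card N)) :
    N = Cfsg.fittingSubgroup G ∧
    ∀ (q : ℕ) [Fact q.Prime] (Q : Sylow q (G ⧸ N)), IsCyclic (Q : Subgroup (G ⧸ N)) ∨ ∃ n : ℕ, Nonempty ((Q : Subgroup (G ⧸ N)) ≃* QuaternionGroup (2 ^ n)) := by
  classical
  haveI := hnil
  have hpar : ∀ (x : G), x ∉ N → ∀ m ∈ N, m ≠ 1 → Commute x m → (orderOf x).Coprime (orderOf m) → False := by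
    intro x hx m hm hm1 hc hco
    have h := heq x hx m hm
    rw [hc.orderOf_mul_eq_mul_orderOf_of_coprime hco] at h
    exact hm1 (orderOf_eq_one_iff.1 (by nlinarith [orderOf_pos x, orderOf_pos m]))
  have hN1' : 1 < Nat.card N := N.one_lt_card_iff_ne_bot.2 hN1
  have hother : ∀ q : ℕ, q.Prime → ∃ r : ℕ, r.Prime ∧ r ≠ q ∧ r ∣ Nat.card N := by
    intro q hq
    by_contra hcon
    push Not at hcon
    refine hnpp ?_
    have h2 := Nat.eq_prime_pow_of_unique_prime_dvd (p := q) Nat.card_pos.ne' fun {d} hd hdd => by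
      by_contra hne
      exact hcon d hd hne hdd
    rw [isPrimePow_nat_iff]
    refine ⟨q, _, hq, Nat.pos_of_ne_zero fun h0 => ?_, h2.symm⟩
    rw [h0, pow_zero] at h2
    omega
  refine ⟨le_antisymm (Hall.le_fittingSubgroup hnil) ?_, ?_⟩
  · by_contra hle
    obtain ⟨y, hyF, hyN⟩ := SetLike.not_le_iff_exists.1 hle
    haveI : Group.IsNilpotent (Cfsg.fittingSubgroup G) := Hall.fittingSubgroup_isNilpotent
    have hNF : N ≤ Cfsg.fittingSubgroup G := Hall.le_fittingSubgroup hnil
    set N' := N.subgroupOf (Cfsg.fittingSubgroup G)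
    have hidx : N'.index ≠ 1 := fun h => hyN (by
      rw [Subgroup.index_eq_one] at h
      exact (show (⟨y, hyF⟩ : Cfsg.fittingSubgroup G) ∈ N' from h ▸ trivial))
    obtain ⟨q, hq, hqd⟩ := Nat.exists_prime_and_dvd hidx
    haveI : Fact q.Prime := ⟨hq⟩
    obtain ⟨Q⟩ : Nonempty (Sylow q (Cfsg.fittingSubgroup G)) := inferInstance
    obtain ⟨x, hxQ, hxN⟩ := SetLike.not_le_iff_exists.1 fun h : (Q : Subgroup _) ≤ N' => Q.not_dvd_index (hqd.trans (Subgroup.index_dvd_of_le h))
    obtain ⟨r, hr, hrq, hrN⟩ := hother q hq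
    haveI : Fact r.Prime := ⟨hr⟩
    obtain ⟨m, hm⟩ := exists_prime_orderOf_dvd_card' (G := N) r hrN
    obtain ⟨k, hk⟩ := IsPGroup.iff_orderOf.1 Q.isPGroup' ⟨x, hxQ⟩
    rw [← Subgroup.orderOf_coe] at hk
    change orderOf x = q ^ k at hk
    have hco : (orderOf x).Coprime (orderOf (⟨(m : G), hNF m.2⟩ : Cfsg.fittingSubgroup G)) := by
      rw [← Subgroup.orderOf_coe (⟨(m : G), hNF m.2⟩ : Cfsg.fittingSubgroup G), Subgroup.orderOf_coe m, hm, hk]
      exact ((Nat.coprime_primes hq hr).2 hrq.symm).pow_left k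
    have hc := congrArg Subtype.val (Transfer.commute_of_coprime_orderOf hco).eq
    refine hpar (x : G) hxN m m.2 (fun h => ?_) hc ?_
    · rw [← Subgroup.orderOf_coe, h, orderOf_one] at hm
      exact hr.ne_one hm.symm
    · rw [Subgroup.orderOf_coe, Subgroup.orderOf_coe, hm, hk]
      exact ((Nat.coprime_primes hq hr).2 hrq.symm).pow_left k
  intro q hqf Q
  obtain ⟨r, hr, hrq, hrN⟩ := hother q hqf.out
  haveI : Fact r.Prime := ⟨hr⟩
  -- the elementary central part
  let M : Subgroup G :=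
    { carrier := {m | m ∈ N ∧ (∀ n ∈ N, n * m = m * n) ∧ m ^ r = 1}
      one_mem' := ⟨N.one_mem, fun n _ => by simp, one_pow r⟩
      mul_mem' := fun {a b} ha hb => ⟨N.mul_mem ha.1 hb.1,
        fun n hn => ((show Commute n a from ha.2.1 n hn).mul_right (hb.2.1 n hn)).eq,
        by rw [(show Commute a b from hb.2.1 a ha.1).mul_pow, ha.2.2, hb.2.2, one_mul]⟩
      inv_mem' := fun {a} ha => ⟨N.inv_mem ha.1,
        fun n hn => ((show Commute n a from ha.2.1 n hn).inv_right).eq, by rw [inv_pow, ha.2.2, inv_one]⟩ }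
  haveI : M.Normal := ⟨fun m hm g => ⟨‹N.Normal›.conj_mem m hm.1 g, fun n hn => by
      have h := hm.2.1 (g⁻¹ * n * g) (by simpa using ‹N.Normal›.conj_mem n hn g⁻¹)
      calc n * (g * m * g⁻¹) = g * ((g⁻¹ * n * g) * m) * g⁻¹ := by group
        _ = g * (m * (g⁻¹ * n * g)) * g⁻¹ := by rw [h]
        _ = _ := by group,
    by rw [conj_pow, hm.2.2, mul_one, mul_inv_cancel]⟩⟩
  let φ : G ⧸ N →* MulAut M := QuotientGroup.lift N MulAut.conjNormal fun n hn => by
    rw [MonoidHom.mem_ker]
    refine MulEquiv.ext fun m => Subtype.ext ?_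
    rw [MulAut.conjNormal_apply, MulAut.one_apply, m.2.2.1 n hn, mul_inv_cancel_right]
  let ψ : ↥(Q : Subgroup (G ⧸ N)) →* MulAut M := φ.comp (Q : Subgroup (G ⧸ N)).subtype
  let S := M ⋊[ψ] ↥(Q : Subgroup (G ⧸ N))
  set K := (SemidirectProduct.inl : M →* S).range
  set H := (SemidirectProduct.inr : ↥(Q : Subgroup (G ⧸ N)) →* S).range
  have hK : K = (SemidirectProduct.rightHom : S →* _).ker := SemidirectProduct.range_inl_eq_ker_rightHom
  haveI : K.Normal := hK ▸ inferInstance
  haveI : Finite S := Finite.of_equiv _ SemidirectProduct.equivProd.symm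
  have hKH : Subgroup.IsComplement' K H := by
    refine Subgroup.isComplement'_of_disjoint_and_mul_eq_univ ?_ ?_
    · rw [Subgroup.disjoint_def]
      rintro x ⟨m, rfl⟩ ⟨a, ha⟩
      have := congrArg SemidirectProduct.rightHom ha
      rw [SemidirectProduct.rightHom_inr, SemidirectProduct.rightHom_inl] at this
      rw [← ha, this, map_one]
    · refine Set.eq_univ_of_forall fun x => ?_
      exact ⟨_, ⟨x.left, rfl⟩, _, ⟨x.right, rfl⟩, SemidirectProduct.inl_left_mul_inr_right x⟩
  have hKne : K ≠ ⊥ := by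
    obtain ⟨z, hz, hzc⟩ := exists_central (K := N) hrN
    have hzM : (z : G) ∈ M := ⟨z.2, fun n hn => congrArg Subtype.val (Subgroup.mem_center_iff.1 hzc ⟨n, hn⟩),
      by rw [← Subgroup.coe_pow, ← hz, pow_orderOf_eq_one, Subgroup.coe_one]⟩
    intro hbot
    have h1 : (SemidirectProduct.inl (⟨z, hzM⟩ : M) : S) ∈ K := ⟨_, rfl⟩
    rw [hbot, Subgroup.mem_bot, ← map_one (SemidirectProduct.inl : M →* S)] at h1
    have h2 := congrArg Subtype.val (SemidirectProduct.inl_injective h1)
    rw [show z = 1 from Subtype.ext h2, orderOf_one] at hz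
    exact hr.ne_one hz.symm
  have hfpf : ∀ h ∈ H, h ≠ 1 → K ⊓ Subgroup.centralizer {h} = ⊥ := by
    rintro h ⟨a, rfl⟩ ha1
    rw [eq_bot_iff]
    rintro x ⟨⟨m, rfl⟩, hx⟩
    replace hx := (Subgroup.mem_centralizer_singleton_iff (g := SemidirectProduct.inr a)).1 hx
    have hfix : ψ a m = m := by
      have := congrArg SemidirectProduct.left hx
      simp only [SemidirectProduct.mul_left, SemidirectProduct.left_inl, SemidirectProduct.left_inr, SemidirectProduct.right_inl,
        SemidirectProduct.right_inr, map_one, MulAut.one_apply, one_mul, mul_one] at this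
      first
        | exact this
        | exact this.symm
    rw [Subgroup.mem_bot]
    suffices hm1 : (m : G) = 1 by rw [show m = 1 from Subtype.ext hm1, map_one]
    by_contra hm1
    obtain ⟨y, hy⟩ := QuotientGroup.mk'_surjective N (a : G ⧸ N)
    obtain ⟨k, hk⟩ := IsPGroup.iff_orderOf.1 Q.isPGroup' a
    set o := orderOf y
    obtain ⟨i, t, hqt, hot⟩ := Nat.exists_eq_pow_mul_and_not_dvd (orderOf_pos y).ne' q hqf.out.ne_one
    have hy' : y ^ t ∉ N := by
      intro hyt
      have h1 : (a : G ⧸ N) ^ t = 1 := by rw [← hy, ← map_pow]; exact (QuotientGroup.eq_one_iff _).2 hyt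
      have h2 : orderOf a ∣ t := orderOf_dvd_of_pow_eq_one (Subtype.ext (by rw [Subgroup.coe_pow]; exact h1))
      rw [hk] at h2
      rcases k with _ | k
      · rw [pow_zero, orderOf_eq_one_iff] at hk
        exact ha1 (by rw [hk, map_one])
      · exact hqt ((dvd_pow_self q k.succ_ne_zero).trans h2)
    have hcy : Commute y (m : G) := by
      have : φ (QuotientGroup.mk' N y) m = m := by rw [hy]; exact hfix
      have h3 : y * (m : G) * y⁻¹ = m := congrArg Subtype.val this
      exact mul_inv_eq_iff_eq_mul.1 h3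
    refine hpar _ hy' m m.2.1 hm1 (hcy.pow_left t) ?_
    have hmr : orderOf (m : G) = r := orderOf_eq_prime m.2.2.2 hm1
    have hyq : orderOf (y ^ t) ∣ q ^ i := orderOf_dvd_of_pow_eq_one (by rw [← pow_mul, mul_comm, ← hot]; exact pow_orderOf_eq_one y)
    rw [hmr]
    exact (((Nat.coprime_primes hqf.out hr).2 hrq.symm).pow_left i).coprime_dvd_left hyq
  let e : ↥(Q : Subgroup (G ⧸ N)) ≃* H := MonoidHom.ofInjective SemidirectProduct.inr_injective
  obtain ⟨P⟩ : Nonempty (Sylow q H) := inferInstance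
  have htop : (P : Subgroup H) = ⊤ := (P.3 ((Q.isPGroup'.of_equiv e).to_subgroup ⊤) le_top).symm
  let e' : ↥(P : Subgroup H) ≃* ↥(Q : Subgroup (G ⧸ N)) := ((MulEquiv.subgroupCongr htop).trans Subgroup.topEquiv).trans e.symm
  rcases S0040.result K H hKH hKne hfpf q P with hc | ⟨n, ⟨f⟩⟩
  · exact Or.inl (e'.isCyclic.1 hc)
  · exact Or.inr ⟨n, ⟨e'.symm.trans f⟩⟩

end Cfsg.Agent.S4155
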