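import Cfsg.Statements.S4156
import Mathlib

set_option autoImplicit false
open Cfsg

namespace Cfsg.Agent.S4156

section
variable (n : ℕ) (F : Type*) [Field F]

/-- the sum-zero module -/
noncomputable def sumZero : Submodule F (Fin (n + 1) → F) :=
  LinearMap.ker (∑ i, LinearMap.proj i : (Fin (n + 1) → F) →ₗ[F] F)

theorem mem_sumZero {v : Fin (n + 1) → F} : v ∈ sumZero n F ↔ ∑ i, v i = 0 := by
  simp [sumZero, LinearMap.mem_ker]

theorem finrank_sumZero : Module.finrank F (sumZero n F) = n := by
  have h := (∑ i, LinearMap.proj i : (Fin (n + 1) → F) →ₗ[F] F).finrank_range_add_finrank_ker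
  have hr : LinearMap.range (∑ i, LinearMap.proj i : (Fin (n + 1) → F) →ₗ[F] F) = ⊤ := by
    rw [LinearMap.range_eq_top]
    intro c
    refine ⟨Pi.single 0 c, ?_⟩
    simp
  rw [hr, finrank_top, Module.finrank_self, Module.finrank_fintype_fun_eq_card, Fintype.card_fin] at h
  unfold sumZero
  omega

/-- permutations acting on the sum-zero module -/
noncomputable def permAct : Equiv.Perm (Fin (n + 1)) →* Module.End F (sumZero n F) where
  toFun σ :=
    { toFun := fun v => ⟨fun i => v.1 (σ⁻¹ i), by
        rw [mem_sumZero, Equiv.sum_comp σ⁻¹ v.1]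
        exact (mem_sumZero n F).1 v.2⟩
      map_add' := fun u v => rfl
      map_smul' := fun c v => rfl }
  map_one' := rfl
  map_mul' σ τ := by
    ext v i
    simp

end


/-- Let n ≥ 5 and F a finite field. Then the projective special linear group PSL_n(F) contains a subgroup isomorphic to the alternating group of degree n + 1. -/
theorem result (n : ℕ) (hn : 5 ≤ n) (F : Type*) [Field F] [Finite F] :
    ∃ f : alternatingGroup (Fin (n + 1)) →* Matrix.ProjectiveSpecialLinearGroup (Fin n) F, Function.Injective f := by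
  classical
  let b : Module.Basis (Fin n) F (sumZero n F) := Module.finBasisOfFinrankEq F _ (finrank_sumZero n F)
  let M : alternatingGroup (Fin (n + 1)) →* Matrix (Fin n) (Fin n) F :=
    ((LinearMap.toMatrixAlgEquiv b).toRingEquiv.toMonoidHom.comp (permAct n F)).comp
      (alternatingGroup (Fin (n + 1))).subtype
  have : IsSimpleGroup (alternatingGroup (Fin (n + 1))) :=
    alternatingGroup.isSimpleGroup (by rw [Nat.card_fin]; omega)
  -- a non-trivial value
  obtain ⟨g, hg⟩ : ∃ g, M g ≠ 1 := by
    let i0 : Fin (n + 1) := ⟨0, by omega⟩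
    let i1 : Fin (n + 1) := ⟨1, by omega⟩
    let i2 : Fin (n + 1) := ⟨2, by omega⟩
    have h01 : i0 ≠ i1 := by simp [i0, i1]
    have h02 : i0 ≠ i2 := by simp [i0, i2]
    have h12 : i1 ≠ i2 := by simp [i1, i2]
    have hmem : Equiv.swap i0 i1 * Equiv.swap i0 i2 ∈ alternatingGroup (Fin (n + 1)) := by
      rw [Equiv.Perm.mem_alternatingGroup, Equiv.Perm.sign_mul, Equiv.Perm.sign_swap h01,
        Equiv.Perm.sign_swap h02]
      decide
    refine ⟨⟨_, hmem⟩, fun h => ?_⟩
    have h' : permAct n F (Equiv.swap i0 i1 * Equiv.swap i0 i2) = 1 := by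
      apply (LinearMap.toMatrixAlgEquiv b).injective
      rw [map_one]
      exact h
    have hv : (Pi.single i1 1 - Pi.single i0 1 : Fin (n + 1) → F) ∈ sumZero n F := by
      rw [mem_sumZero]; simp
    have e := congrArg (fun v : sumZero n F => v.1 i1) (LinearMap.congr_fun h' ⟨_, hv⟩)
    have hs : (Equiv.swap i0 i1 * Equiv.swap i0 i2)⁻¹ i1 = i2 := by
      rw [Equiv.Perm.inv_eq_iff_eq]
      simp [Equiv.Perm.mul_apply]
    have e' : (Pi.single i1 1 - Pi.single i0 1 : Fin (n + 1) → F) ((Equiv.swap i0 i1 * Equiv.swap i0 i2)⁻¹ i1) =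
        (Pi.single i1 1 - Pi.single i0 1 : Fin (n + 1) → F) i1 := e
    rw [hs] at e'
    simp [h01, h01.symm, h02, h02.symm, h12, h12.symm] at e'
  -- homomorphisms with commutative image are trivial
  have hperfect : ∀ {A : Type _} [Monoid A] (f : alternatingGroup (Fin (n + 1)) →* A),
      (∀ x y, f x * f y = f y * f x) → ∀ x, f x = 1 := by
    intro A _ f hf x
    rcases Subgroup.Normal.eq_bot_or_eq_top (inferInstance : (MonoidHom.ker f).Normal) with h | h
    · exfalso
      have hc : ∀ u v : alternatingGroup (Fin (n + 1)), u * v = v * u := fun u v => by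
        apply (MonoidHom.ker_eq_bot_iff f).1 h
        rw [map_mul, map_mul, hf]
      have := alternatingGroup.center_eq_bot (α := Fin (n + 1)) (by rw [Nat.card_fin]; omega)
      have hg1 : g ∈ Subgroup.center (alternatingGroup (Fin (n + 1))) :=
        Subgroup.mem_center_iff.2 fun v => hc v g
      rw [this, Subgroup.mem_bot] at hg1
      exact hg (by rw [hg1, map_one])
    · have : x ∈ MonoidHom.ker f := h ▸ Subgroup.mem_top x
      exact this
  -- determinant one
  have hdet : ∀ x, (M x).det = 1 := fun x =>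
    hperfect (Matrix.detMonoidHom.comp M) (fun u v => mul_comm _ _) x
  let S : alternatingGroup (Fin (n + 1)) →* Matrix.SpecialLinearGroup (Fin n) F :=
    { toFun := fun x => ⟨M x, hdet x⟩
      map_one' := Subtype.ext (map_one M)
      map_mul' := fun u v => Subtype.ext (map_mul M u v) }
  refine ⟨(QuotientGroup.mk' (Subgroup.center (Matrix.SpecialLinearGroup (Fin n) F))).comp S, ?_⟩
  rw [← MonoidHom.ker_eq_bot_iff]
  refine (Subgroup.Normal.eq_bot_or_eq_top inferInstance).resolve_right fun h => hg ?_
  have hcen : ∀ x, S x ∈ Subgroup.center (Matrix.SpecialLinearGroup (Fin n) F) := fun x => by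
    have hx : x ∈ MonoidHom.ker ((QuotientGroup.mk' (Subgroup.center
        (Matrix.SpecialLinearGroup (Fin n) F))).comp S) := h ▸ Subgroup.mem_top x
    exact (QuotientGroup.eq_one_iff _).1 hx
  exact congrArg Subtype.val (hperfect S (fun u v => Subgroup.mem_center_iff.1 (hcen v) (S u)) g)

end Cfsg.Agent.S4156
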