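import Cfsg.Statements.S4157
import Cfsg.Agent.Lib.KulakoffTwo
import Cfsg.Agent.S0115

set_option autoImplicit false
open Cfsg

namespace Cfsg.Agent.S4157

/-- Let G be a finite p-group of order p^m that is not cyclic and, when p = 2, not of maximal class (nilpotency class m − 1). Then for every 1 ≤ k < m the number of subgroups of G of order p^k is congruent to 1 + p modulo p². -/
theorem result {G : Type*} [Group G] [Finite G] {p : ℕ} [Fact p.Prime] (m : ℕ)
    (hG : Nat.card G = p ^ m) (hnc : ¬ IsCyclic G) (h2 : p = 2 → Group.nilpotencyClass G ≠ m - 1)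
    (k : ℕ) (hk1 : 1 ≤ k) (hk2 : k < m) :
    Nat.card {H : Subgroup G // Nat.card H = p ^ k} ≡ 1 + p [MOD p ^ 2] := by
  classical
  rw [← Lib.CountModSq.card_subs_top]
  by_cases hp2 : p = 2
  swap
  · exact Lib.CountModSq.kulakoff hp2 m ⊤ (by rw [Subgroup.card_top]; exact hG)
      (Lib.CountModSq.not_cyclic_top hnc) k hk1 hk2
  subst hp2
  refine (Lib.CountModSq.kulakoff_two m G hG hnc k hk1 hk2).2 ?_
  by_cases hkm : k + 1 = m
  · exact Or.inr hkm
  refine Or.inl fun hmc => h2 rfl ?_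
  obtain ⟨h8, h4⟩ := hmc
  have hm3 : 3 ≤ m := by omega
  refine (Cfsg.Agent.S0115.result m hm3 hG).mpr ?_
  obtain ⟨C, hC, hCi⟩ := Lib.Thompson.exists_cyclic_index_two hm3 hG h4
  obtain ⟨j, rfl⟩ : ∃ j, m = j + 1 := ⟨m - 1, by omega⟩
  obtain ⟨S, -⟩ := Lib.CountModSq.exists_setup (by omega) hG hnc C hC hCi
  have hD : commutator G = S.D :=
    Subgroup.eq_of_le_of_card_ge S.commutator_le (le_of_eq (Nat.eq_of_mul_eq_mul_right
      (show 0 < 4 by norm_num) (by
        conv_lhs => rw [← S.index_D]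
        conv_rhs => rw [← h4]
        rw [Subgroup.card_mul_index, Subgroup.card_mul_index])))
  haveI : Nontrivial (G ⧸ commutator G) :=
    Finite.one_lt_card_iff_nontrivial.mp (by rw [← Subgroup.index_eq_card, h4]; norm_num)
  refine ⟨by rw [← Subgroup.index_eq_card, h4], ?_⟩
  refine (Nat.prime_two.eq_one_or_self_of_dvd _ (Monoid.exponent_dvd_of_forall_pow_eq_one fun q => ?_)).resolve_left
    fun h => ?_
  · obtain ⟨x, rfl⟩ := QuotientGroup.mk'_surjective _ q
    rw [← map_pow, QuotientGroup.mk'_apply, QuotientGroup.eq_one_iff, hD]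
    exact S.elemQuot_D.2.2 x (Subgroup.mem_top x)
  · rw [Monoid.exp_eq_one_iff] at h
    exact not_subsingleton (G ⧸ commutator G) h

end Cfsg.Agent.S4157
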