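import Cfsg.Statements.S4163
import Mathlib
-- import your own Cfsg.Agent.* helpers here

set_option autoImplicit false
open Cfsg
open scoped commutatorElement

namespace Cfsg.Agent.S4163

lemma gen_comm {G : Type*} [Group G] [Finite G] (A : Subgroup G) [A.Normal] (hA : IsMulCommutative A)
    (m : ℕ) (hmin : ∀ x : G, 1 < (Subgroup.centralizer ({x} : Set G)).index → m ≤ (Subgroup.centralizer ({x} : Set G)).index)
    (x : G) (hx : (Subgroup.centralizer ({x} : Set G)).index ≤ m) (b : G) (hb : b ∈ A) :
    ⁅b, x⁆ ∈ Subgroup.center G := by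
  classical
  by_contra hnc
  set C := Subgroup.centralizer ({x} : Set G) with hC
  set D := C ⊔ A
  set a := ⁅b, x⁆ with ha
  set Ca := Subgroup.centralizer ({a} : Set G) with hCa
  have hne : Ca.index ≠ 1 := by
    intro h
    rw [Subgroup.index_eq_one] at h
    apply hnc
    rw [Subgroup.mem_center_iff]
    intro g
    exact Subgroup.mem_centralizer_singleton_iff.1 (h ▸ Subgroup.mem_top g : g ∈ Ca)
  have hge : m ≤ Ca.index := hmin a (by have := Ca.index_ne_zero_of_finite; change 1 < Ca.index; omega)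
  have haA : a ∈ A := Subgroup.commutator_le_left A ⊤ (Subgroup.commutator_mem_commutator hb (Subgroup.mem_top x))
  have hcomm : ∀ u ∈ A, ∀ v ∈ A, u * v = v * u := fun u hu v hv => congrArg Subtype.val (hA.is_comm.comm ⟨u, hu⟩ ⟨v, hv⟩)
  have hACa : A ≤ Ca := fun u hu => Subgroup.mem_centralizer_singleton_iff.2 (hcomm u hu a haA)
  have key : Ca.relIndex D < C.relIndex D := by
    set S : Set G := (fun u => ⁅u, x⁆) '' (A : Set G) with hS
    have hcS : ∀ u v : G, ⁅u, x⁆ = ⁅v, x⁆ ↔ u⁻¹ * v ∈ C := by
      intro u v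
      rw [hC, Subgroup.mem_centralizer_singleton_iff, commutatorElement_def, commutatorElement_def]
      constructor
      · intro h
        calc u⁻¹ * v * x = u⁻¹ * (v * x * v⁻¹ * x⁻¹) * x * v := by group
          _ = u⁻¹ * (u * x * u⁻¹ * x⁻¹) * x * v := by rw [h]
          _ = x * (u⁻¹ * v) := by group
      · intro h
        calc u * x * u⁻¹ * x⁻¹ = u * (x * (u⁻¹ * v)) * v⁻¹ * x⁻¹ := by group
          _ = u * (u⁻¹ * v * x) * v⁻¹ * x⁻¹ := by rw [h]
          _ = _ := by group
    have h2 : S.ncard ≤ C.relIndex A := by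
      rw [← Nat.card_coe_set_eq, Subgroup.relIndex, Subgroup.index]
      let f : ↥A ⧸ C.subgroupOf A → S := Quotient.lift (fun u => ⟨⁅(u : G), x⁆, u, u.2, rfl⟩)
        (fun u v huv => by
          have : (u : G)⁻¹ * v ∈ C := (QuotientGroup.leftRel_apply (s := C.subgroupOf A)).1 huv
          exact Subtype.ext ((hcS _ _).2 this))
      refine Nat.card_le_card_of_surjective f ?_
      rintro ⟨y, u, hu, rfl⟩
      exact ⟨QuotientGroup.mk ⟨u, hu⟩, rfl⟩
    have h1 : Ca.relIndex D ≤ (S \ {1}).ncard := by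
      rw [← Nat.card_coe_set_eq, Subgroup.relIndex, Subgroup.index]
      have hmem : ∀ d : ↥D, (d : G) * a * (d : G)⁻¹ ∈ S \ {1} := by
        rintro ⟨d, hd⟩
        rw [show D = A ⊔ C from sup_comm _ _, ← SetLike.mem_coe, Subgroup.normal_mul] at hd
        obtain ⟨u, hu, c, hc, rfl⟩ := Set.mem_mul.1 hd
        have hu' : u ∈ A := hu
        have hcx : c * x * c⁻¹ = x := by
          rw [SetLike.mem_coe, hC, Subgroup.mem_centralizer_singleton_iff] at hc
          rw [hc]; group
        have hcb : c * b * c⁻¹ ∈ A := Subgroup.Normal.conj_mem inferInstance b hb c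
        have e : c * a * c⁻¹ = ⁅c * b * c⁻¹, x⁆ := by
          rw [ha, commutatorElement_def, commutatorElement_def]
          calc c * (b * x * b⁻¹ * x⁻¹) * c⁻¹ = c * b * c⁻¹ * (c * x * c⁻¹) * (c * b * c⁻¹)⁻¹ * (c * x * c⁻¹)⁻¹ := by group
            _ = _ := by rw [hcx]
        have e2 : u * c * a * (u * c)⁻¹ = c * a * c⁻¹ := by
          rw [show u * c * a * (u * c)⁻¹ = u * (c * a * c⁻¹) * u⁻¹ by group,
            hcomm u hu' _ (Subgroup.Normal.conj_mem inferInstance a haA c)]
          group
        refine ⟨?_, ?_⟩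
        · rw [e2, e]; exact ⟨_, hcb, rfl⟩
        · intro h1
          rw [Set.mem_singleton_iff, mul_inv_eq_one] at h1
          exact hnc (mul_eq_left.1 h1 ▸ one_mem _)
      let f : ↥D ⧸ Ca.subgroupOf D → ↥(S \ {1}) := Quotient.lift (fun d => ⟨(d : G) * a * (d : G)⁻¹, hmem d⟩)
        (fun u v huv => by
          have : (u : G)⁻¹ * v ∈ Ca := (QuotientGroup.leftRel_apply (s := Ca.subgroupOf D)).1 huv
          rw [hCa, Subgroup.mem_centralizer_singleton_iff] at this
          apply Subtype.ext
          show (u : G) * a * (u : G)⁻¹ = (v : G) * a * (v : G)⁻¹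
          calc (u : G) * a * (u : G)⁻¹ = (u : G) * (a * ((u : G)⁻¹ * v)) * (v : G)⁻¹ := by group
            _ = (u : G) * ((u : G)⁻¹ * v * a) * (v : G)⁻¹ := by rw [this]
            _ = _ := by group)
      refine Nat.card_le_card_of_injective f ?_
      intro u v
      refine Quotient.inductionOn₂ u v fun u v huv => Quotient.sound ?_
      have h : (u : G) * a * (u : G)⁻¹ = (v : G) * a * (v : G)⁻¹ := congrArg Subtype.val huv
      apply QuotientGroup.leftRel_apply.2
      show (u : G)⁻¹ * v ∈ Ca
      rw [hCa, Subgroup.mem_centralizer_singleton_iff]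
      calc (u : G)⁻¹ * v * a = (u : G)⁻¹ * ((v : G) * a * (v : G)⁻¹) * v := by group
        _ = (u : G)⁻¹ * ((u : G) * a * (u : G)⁻¹) * v := by rw [h]
        _ = _ := by group
    have h3 : (S \ {1}).ncard < S.ncard :=
      Set.ncard_sdiff_singleton_lt_of_mem ⟨1, one_mem A, commutatorElement_one_left x⟩
    have h4 : C.relIndex A ≤ C.relIndex D := Subgroup.relIndex_le_of_le_right le_sup_right Subgroup.FiniteIndex.index_ne_zero
    omega
  have : Ca.index ≤ (Ca ⊓ D).index := Subgroup.index_antitone inf_le_left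
  have e1 : (Ca ⊓ D).index = Ca.relIndex D * D.index := by
    rw [← Subgroup.inf_relIndex_right, Subgroup.relIndex_mul_index inf_le_right]
  have e2 : C.index = C.relIndex D * D.index := (Subgroup.relIndex_mul_index le_sup_left).symm
  have : Ca.relIndex D * D.index < C.relIndex D * D.index :=
    Nat.mul_lt_mul_of_pos_right key (Nat.pos_of_ne_zero D.index_ne_zero_of_finite)
  omega

/-- Let G be a finite group with a normal abelian subgroup A satisfying C_G(A) = A. Suppose some conjugacy class of G has size greater than 1, let m be the smallest such size, and let M be the subgroup generated by the elements whose class has size 1 or m. Then M is nilpotent of class at most 3. -/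
theorem result {G : Type*} [Group G] [Finite G]
    (A : Subgroup G) [A.Normal] (hA : IsMulCommutative A) (hCA : Subgroup.centralizer (A : Set G) = A)
    (m : ℕ) (hm1 : 1 < m) (hm : ∃ x : G, (Subgroup.centralizer ({x} : Set G)).index = m) (hmin : ∀ x : G, 1 < (Subgroup.centralizer ({x} : Set G)).index → m ≤ (Subgroup.centralizer ({x} : Set G)).index) :
    Subgroup.upperCentralSeries ↥(Subgroup.closure {x : G | (Subgroup.centralizer ({x} : Set G)).index = 1 ∨ (Subgroup.centralizer ({x} : Set G)).index = m}) 3 = ⊤ := by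
  classical
  set X := {x : G | (Subgroup.centralizer ({x} : Set G)).index = 1 ∨ (Subgroup.centralizer ({x} : Set G)).index = m} with hX
  set M := Subgroup.closure X
  set Z := Subgroup.center G
  have hAM : ⁅A, M⁆ ≤ Z := by
    let T : Subgroup G := (Subgroup.centralizer ((A.map (QuotientGroup.mk' Z) : Subgroup (G ⧸ Z)) : Set (G ⧸ Z))).comap (QuotientGroup.mk' Z)
    have hT : ∀ g : G, g ∈ T ↔ ∀ u ∈ A, ⁅u, g⁆ ∈ Z := by
      intro g
      simp only [T, Subgroup.mem_comap, Subgroup.mem_centralizer_iff, Subgroup.coe_map, Set.forall_mem_image, SetLike.mem_coe]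
      refine forall₂_congr fun u _ => ?_
      rw [← QuotientGroup.eq_one_iff, ← QuotientGroup.mk'_apply, map_commutatorElement, commutatorElement_eq_one_iff_mul_comm]
    have hMT : M ≤ T := by
      rw [Subgroup.closure_le]
      intro x hx
      rw [SetLike.mem_coe, hT]
      intro u hu
      refine gen_comm A hA m hmin x ?_ u hu
      rcases hx with h | h <;> omega
    rw [Subgroup.commutator_le]
    exact fun u hu g hg => (hT g).1 (hMT hg) u hu
  have h1 : ⁅⁅M, A⁆, M⁆ = ⊥ := by
    rw [Subgroup.commutator_comm M A, eq_bot_iff, Subgroup.commutator_le]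
    intro z hz g _
    rw [Subgroup.mem_bot, commutatorElement_eq_one_iff_mul_comm]
    exact (Subgroup.mem_center_iff.1 (hAM hz) g).symm
  have h2 : ⁅⁅A, M⁆, M⁆ = ⊥ := by rwa [Subgroup.commutator_comm A M]
  have h3 : ⁅⁅M, M⁆, A⁆ = ⊥ := Subgroup.commutator_commutator_eq_bot_of_rotate h1 h2
  have h4 : ⁅M, M⁆ ≤ A := hCA ▸ Subgroup.commutator_eq_bot_iff_le_centralizer.1 h3
  have h5 : ⁅⁅M, M⁆, M⁆ ≤ Z := (Subgroup.commutator_mono h4 le_rfl).trans hAM
  have h6 : ⁅⁅⁅M, M⁆, M⁆, M⁆ = ⊥ := by
    rw [eq_bot_iff, Subgroup.commutator_le]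
    intro z hz g _
    rw [Subgroup.mem_bot, commutatorElement_eq_one_iff_mul_comm]
    exact (Subgroup.mem_center_iff.1 (h5 hz) g).symm
  refine Subgroup.lowerCentralSeries_eq_bot_iff_upperCentralSeries_eq_top.1 ?_
  apply (Subgroup.map_eq_bot_iff_of_injective _ (Subgroup.subtype_injective M)).1
  rw [Subgroup.top_subtype_lowerCentralSeries]
  exact h6

end Cfsg.Agent.S4163
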