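import Cfsg.Statements.S4169
import Cfsg.Agent.S4163
-- import your own Cfsg.Agent.* helpers here

set_option autoImplicit false
open Cfsg
open scoped commutatorElement

namespace Cfsg.Agent.S4169

lemma exists_self_centralizing {P : Type*} [Group P] [Finite P] {p : ℕ} [Fact p.Prime] (hP : IsPGroup p P) :
    ∃ A : Subgroup P, A.Normal ∧ IsMulCommutative A ∧ Subgroup.centralizer (A : Set P) = A := by
  have h0 : (⊥ : Subgroup P) ∈ {A : Subgroup P | A.Normal ∧ A ≤ Subgroup.centralizer (A : Set P)} :=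
    ⟨inferInstance, bot_le⟩
  obtain ⟨A, -, ⟨hAn, hAc⟩, hmax⟩ := (Set.toFinite {A : Subgroup P | A.Normal ∧ A ≤ Subgroup.centralizer (A : Set P)}).exists_le_maximal h0
  refine ⟨A, hAn, Subgroup.le_centralizer_iff_isMulCommutative.1 hAc, le_antisymm ?_ hAc⟩
  by_contra hlt
  set C := Subgroup.centralizer (A : Set P) with hC
  set Cb := C.map (QuotientGroup.mk' A)
  have : C.Normal := Subgroup.normal_centralizer
  have hne : Cb ≠ ⊥ := by
    intro h
    rw [Subgroup.map_eq_bot_iff, QuotientGroup.ker_mk'] at h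
    exact hlt h
  have : Cb.Normal := Subgroup.Normal.map this _ (QuotientGroup.mk'_surjective A)
  have hPA : IsPGroup p (P ⧸ A) := hP.to_quotient A
  obtain ⟨z, ⟨hzC, hzZ⟩, hz1⟩ : ∃ z, z ∈ Cb ⊓ Subgroup.center (P ⧸ A) ∧ z ≠ 1 := by
    have : Nontrivial Cb := (Subgroup.nontrivial_iff_ne_bot _).2 hne
    obtain ⟨n, hn0, hn⟩ := (IsPGroup.nontrivial_iff_card (hPA.to_subgroup Cb)).1 this
    have h1 : (1 : Cb) ∈ MulAction.fixedPoints (ConjAct (P ⧸ A)) Cb := fun g => smul_one g
    obtain ⟨z, hz, hz1⟩ := (hPA.of_equiv ConjAct.toConjAct).exists_fixed_point_of_prime_dvd_card_of_fixed_point Cb (hn ▸ dvd_pow_self p hn0.ne') h1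
    refine ⟨z, ⟨z.2, ?_⟩, fun h => hz1 (Subtype.ext h.symm)⟩
    show (z : P ⧸ A) ∈ Subgroup.center (P ⧸ A)
    rw [Subgroup.mem_center_iff]
    intro g
    have := congrArg Subtype.val (hz (ConjAct.toConjAct g))
    rw [ConjAct.Subgroup.val_conj_smul, ConjAct.smul_def, ConjAct.ofConjAct_toConjAct] at this
    exact mul_inv_eq_iff_eq_mul.1 this
  obtain ⟨c, hc, rfl⟩ := hzC
  let B := (Subgroup.zpowers (QuotientGroup.mk' A c)).comap (QuotientGroup.mk' A)
  have hBn : B.Normal := by
    refine Subgroup.Normal.comap ⟨fun n hn g => ?_⟩ _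
    have : n ∈ Subgroup.center (P ⧸ A) := (Subgroup.zpowers_le.2 hzZ) hn
    rw [Subgroup.mem_center_iff.1 this g, mul_inv_cancel_right]
    exact hn
  have hAB : A ≤ B := fun a ha => by
    simp only [B, Subgroup.mem_comap]
    rw [show QuotientGroup.mk' A a = 1 from (QuotientGroup.eq_one_iff a).2 ha]
    exact one_mem _
  have hBc : B ≤ Subgroup.centralizer (B : Set P) := by
    intro u hu v hv
    obtain ⟨i, hi⟩ := Subgroup.mem_zpowers_iff.1 hu
    obtain ⟨j, hj⟩ := Subgroup.mem_zpowers_iff.1 hv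
    rw [← map_zpow] at hi hj
    have hu' : u * (c ^ i)⁻¹ ∈ A := by
      rw [← QuotientGroup.eq_one_iff, ← QuotientGroup.mk'_apply, map_mul, map_inv, hi, mul_inv_cancel]
    have hv' : v * (c ^ j)⁻¹ ∈ A := by
      rw [← QuotientGroup.eq_one_iff, ← QuotientGroup.mk'_apply, map_mul, map_inv, hj, mul_inv_cancel]
    have hca : ∀ a ∈ A, Commute c a := fun a ha => (Subgroup.mem_centralizer_iff.1 hc a ha).symm
    have h1 : Commute (v * (c ^ j)⁻¹) (u * (c ^ i)⁻¹) := hAc hu' _ hv'
    have h2 : Commute (c ^ j) (u * (c ^ i)⁻¹) := (hca _ hu').zpow_left j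
    have h3 : Commute (c ^ j) (c ^ i) := Commute.zpow_zpow_self c j i
    have h4 : Commute (v * (c ^ j)⁻¹) (c ^ i) := ((hca _ hv').zpow_left i).symm
    have h5 := (h1.mul_left h2).mul_right (h4.mul_left h3)
    rwa [inv_mul_cancel_right, inv_mul_cancel_right] at h5
  have hBA : B ≤ A := hmax ⟨hBn, hBc⟩ hAB
  exact hz1 ((QuotientGroup.eq_one_iff c).2 (hBA (Subgroup.mem_zpowers (QuotientGroup.mk' A c))))

set_option linter.deprecated false in
/-- Let P be a finite p-group whose conjugacy classes have exactly two sizes (1 and one other value). Then P has nilpotency class at most 3. -/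
theorem result {P : Type*} [Group P] [Finite P] {p : ℕ} [Fact p.Prime] (hP : IsPGroup p P)
    (m : ℕ) (hm : 1 < m) (h : ∀ x : P, (Subgroup.centralizer ({x} : Set P)).index = 1 ∨ (Subgroup.centralizer ({x} : Set P)).index = m) :
    upperCentralSeries P 3 = ⊤ := by
  obtain ⟨A, hAn, hA, hCA⟩ := exists_self_centralizing hP
  by_cases hex : ∃ x : P, (Subgroup.centralizer ({x} : Set P)).index = m
  · have hc : Subgroup.closure {x : P | (Subgroup.centralizer ({x} : Set P)).index = 1 ∨ (Subgroup.centralizer ({x} : Set P)).index = m} = ⊤ := by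
      convert Subgroup.closure_univ (G := P)
      exact Set.eq_univ_of_forall (fun x => h x)
    have h3 := Cfsg.Agent.S4163.result A hA hCA m hm hex (fun x hx => by rcases h x with e | e <;> omega)
    rw [hc] at h3
    have := Subgroup.comap_upperCentralSeries (Subgroup.topEquiv : (⊤ : Subgroup P) ≃* P) 3
    rw [h3] at this
    exact Subgroup.comap_injective (f := ((Subgroup.topEquiv : (⊤ : Subgroup P) ≃* P) : (⊤ : Subgroup P) →* P)) (Subgroup.topEquiv : (⊤ : Subgroup P) ≃* P).surjective (this.trans (Subgroup.comap_top _).symm)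
  · push Not at hex
    have hc : Subgroup.center P = ⊤ := by
      rw [eq_top_iff]
      intro z _
      rw [Subgroup.mem_center_iff]
      intro g
      have := Subgroup.index_eq_one.1 ((h g).resolve_right (hex g))
      exact (Subgroup.mem_centralizer_singleton_iff.1 (this ▸ Subgroup.mem_top z : z ∈ _)).symm
    refine top_unique ?_
    rw [← hc, ← Subgroup.upperCentralSeries_one]
    exact Subgroup.upperCentralSeries_mono P (by norm_num)

end Cfsg.Agent.S4169
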