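import Cfsg.Statements.S4170
import Cfsg.Agent.Lib.SylowFix.Basic
-- import your own Cfsg.Agent.* helpers here

set_option autoImplicit false
open scoped Pointwise
open Cfsg

namespace Cfsg.Agent.S4170

/-- Let p be an odd prime and G a nontrivial group of permutations of a finite set Ω that is generated by its elements of p-power order. Then Ω has two disjoint nonempty subsets Δ₁ and Δ₂ such that the index in G of the subgroup of elements mapping Δ₁ onto Δ₁ and Δ₂ onto Δ₂ (and hence also the complement of their union onto itself) is divisible by p. -/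
theorem result {Ω : Type*} [Fintype Ω] (p : ℕ) [Fact p.Prime] (hp : p ≠ 2) (G : Subgroup (Equiv.Perm Ω)) (hG : G ≠ ⊥) (hgen : Subgroup.closure {g : G | ∃ k : ℕ, orderOf g = p ^ k} = ⊤) :
    ∃ Δ₁ Δ₂ : Set Ω, Δ₁.Nonempty ∧ Δ₂.Nonempty ∧ Disjoint Δ₁ Δ₂ ∧ p ∣ (MulAction.stabilizer G Δ₁ ⊓ MulAction.stabilizer G Δ₂).index := by
  classical
  obtain ⟨x, hx, hx1⟩ : ∃ x : G, (∃ k : ℕ, orderOf x = p ^ k) ∧ x ≠ 1 := by
    by_contra h
    push Not at h
    have hbot : (⊤ : Subgroup G) ≤ ⊥ := hgen ▸ (Subgroup.closure_le _).2 fun g ⟨k, hk⟩ =>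
      Subgroup.mem_bot.2 (h g ⟨k, hk⟩)
    exact hG ((Subgroup.eq_bot_iff_forall _).2 fun g hg => by
      simpa using congrArg Subtype.val (Subgroup.mem_bot.1 (hbot (Subgroup.mem_top (⟨g, hg⟩ : G)))))
  obtain ⟨k, hk⟩ := hx
  have hp' := (Fact.out : p.Prime)
  have hk0 : k ≠ 0 := by
    rintro rfl
    rw [pow_zero, orderOf_eq_one_iff] at hk
    exact hx1 hk
  set y : G := x ^ (p ^ (k - 1)) with hy
  have hyord : orderOf y = p := by
    rw [hy, orderOf_pow_of_dvd (pow_pos hp'.pos _).ne' (hk ▸ pow_dvd_pow p (Nat.sub_le k 1)), hk,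
      Nat.pow_div (Nat.sub_le k 1) hp'.pos, show k - (k - 1) = 1 by omega, pow_one]
  have hy1 : y ≠ 1 := fun e => hp'.one_lt.ne (by simpa [e] using hyord)
  obtain ⟨a, ha⟩ : ∃ a : Ω, y • a ≠ a := by
    by_contra h
    push Not at h
    exact hy1 (FaithfulSMul.eq_of_smul_eq_smul (α := Ω) fun a => by rw [h a, one_smul])
  set C : Finset Ω := (Finset.range p).image fun i => y ^ i • a with hC
  have hyC : ∀ z ∈ C, y • z ∈ C := by
    intro z hz
    obtain ⟨i, hi, rfl⟩ := Finset.mem_image.1 hz
    rw [Finset.mem_range] at hi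
    rw [← mul_smul, ← pow_succ']
    by_cases h : i + 1 = p
    · rw [h, ← hyord, pow_orderOf_eq_one, one_smul]
      exact Finset.mem_image.2 ⟨0, Finset.mem_range.2 hp'.pos, by simp⟩
    · exact Finset.mem_image.2 ⟨i + 1, Finset.mem_range.2 (by omega), rfl⟩
  have haC : a ∈ C := Finset.mem_image.2 ⟨0, Finset.mem_range.2 hp'.pos, by simp⟩
  have hCcard : C.card ≤ p := Finset.card_image_le.trans (Finset.card_range p).le
  have hne : (C.erase a).Nonempty := ⟨y • a, Finset.mem_erase.2 ⟨ha, hyC a haC⟩⟩
  refine ⟨{a}, ↑(C.erase a), Set.singleton_nonempty a, Finset.coe_nonempty.2 hne, ?_, ?_⟩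
  · simp
  by_contra hdvd
  set M := MulAction.stabilizer G ({a} : Set Ω) ⊓ MulAction.stabilizer G (↑(C.erase a) : Set Ω) with hM
  obtain ⟨R⟩ : Nonempty (Sylow p M) := inferInstance
  have hR : IsPGroup p ((R : Subgroup M).map M.subtype) := R.isPGroup'.map _
  obtain ⟨Q, hQ⟩ := hR.exists_le_sylow
  have hRQ : (R : Subgroup M).map M.subtype = (Q : Subgroup G) := by
    refine Subgroup.eq_of_le_of_card_ge hQ ?_
    rw [Subgroup.card_map_of_injective M.subtype_injective, R.card_eq_multiplicity,
      Q.card_eq_multiplicity, ← Subgroup.card_mul_index M, Nat.factorization_mul Nat.card_pos.ne'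
      Subgroup.index_ne_zero_of_finite]
    simp [Nat.factorization_eq_zero_of_not_dvd hdvd]
  have hQM : (Q : Subgroup G) ≤ M := hRQ ▸ Subgroup.map_subtype_le _
  -- a Sylow subgroup fixes the cycle pointwise
  let D : Subgroup G :=
    { carrier := {g | ∀ z ∈ C, g • z = z}
      one_mem' := fun z _ => one_smul _ z
      mul_mem' := fun {g h} hg hh z hz => by rw [mul_smul, hh z hz, hg z hz]
      inv_mem' := fun {g} hg z hz => inv_smul_eq_iff.2 (hg z hz).symm }
  have hQD : (Q : Subgroup G) ≤ D := by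
    intro g hg
    have hga : g • a = a := by
      have h1 : g • ({a} : Set Ω) = {a} := (hQM hg).1
      rwa [Set.smul_set_singleton, Set.singleton_eq_singleton_iff] at h1
    have hge : ∀ z ∈ C.erase a, g • z ∈ C.erase a := fun z hz => by
      have h2 : g • (↑(C.erase a) : Set Ω) = ↑(C.erase a) := (hQM hg).2
      rw [← Finset.mem_coe, ← h2]
      exact Set.smul_mem_smul_set (Finset.mem_coe.2 hz)
    intro z hz
    by_cases hza : z = a
    · rw [hza, hga]
    by_contra hmove
    obtain ⟨j, hj⟩ := Q.isPGroup' ⟨g, hg⟩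
    have hgj : g ^ p ^ j = 1 := by simpa using congrArg Subtype.val hj
    set f := fun w : Ω => g • w with hf
    have hper : Function.IsPeriodicPt f (p ^ j) z := by
      show f^[p ^ j] z = z
      rw [hf, smul_iterate_apply, hgj, one_smul]
    obtain ⟨i, -, hi⟩ := (Nat.dvd_prime_pow hp').1 hper.minimalPeriod_dvd
    have hi0 : i ≠ 0 := by
      rintro rfl
      rw [pow_zero, Function.minimalPeriod_eq_one_iff_isFixedPt] at hi
      exact hmove hi
    have hit : ∀ n : ℕ, f^[n] z ∈ C.erase a := by
      intro n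
      induction n with
      | zero => simpa using Finset.mem_erase.2 ⟨hza, hz⟩
      | succ n ih => rw [Function.iterate_succ_apply']; exact hge _ ih
    have hle : (Finset.range (Function.minimalPeriod f z)).card ≤ (C.erase a).card := by
      refine Finset.card_le_card_of_injOn (fun n => f^[n] z) (fun n _ => hit n) ?_
      rw [Finset.coe_range]
      exact Function.iterate_injOn_Iio_minimalPeriod
    rw [Finset.card_range, hi, Finset.card_erase_of_mem haC] at hle
    have := Nat.le_self_pow hi0 p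
    have := hp'.two_le
    omega
  have hnorm : y ∈ Subgroup.normalizer (D : Set G) := by
    rw [Subgroup.mem_normalizer_iff]
    have hyinv : ∀ z ∈ C, y⁻¹ • z ∈ C := by
      intro z hz
      have hy' : y⁻¹ = y ^ (p - 1) := by
        rw [inv_eq_iff_mul_eq_one, ← pow_succ', Nat.sub_add_cancel hp'.one_lt.le, ← hyord,
          pow_orderOf_eq_one]
      rw [hy']
      generalize p - 1 = n
      induction n with
      | zero => simpa using hz
      | succ n ih => rw [pow_succ', mul_smul]; exact hyC _ ih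
    intro g
    constructor
    · intro hg z hz
      have e : g • y⁻¹ • z = y⁻¹ • z := hg _ (hyinv z hz)
      rw [mul_smul, mul_smul, e, smul_inv_smul]
    · intro hg z hz
      have e : (y * g * y⁻¹) • y • z = y • z := hg _ (hyC z hz)
      rw [mul_smul, mul_smul, inv_smul_smul] at e
      exact smul_left_cancel _ e
  exact ha (Lib.SylowFix.mem_of_norm ⟨Q, hQD⟩
    ⟨1, by rw [pow_one, ← hyord, pow_orderOf_eq_one]⟩ hnorm a haC)

end Cfsg.Agent.S4170
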