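import Cfsg.Statements.S4172
import Cfsg.Agent.Lib.GenStruct.TwoGenSylow
-- import your own Cfsg.Agent.* helpers here

set_option autoImplicit false
open Cfsg

namespace Cfsg.Agent.S4172

/-- Let p be a prime and G a finite group with a non-commutative Sylow p-subgroup P whose Frattini subgroup has index p² in P (P is generated by two elements). Suppose G has no nontrivial normal subgroup of order prime to p and the Frattini subgroup of P contains no nontrivial normal subgroup of G. Then the generalized Fitting subgroup F*(G) is the unique minimal normal subgroup of G, the image of P in G/F*(G) is cyclic, and if F*(G) is not commutative then P permutes the components of G transitively by conjugation. -/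
theorem result {G : Type*} [Group G] [Finite G] (p : ℕ) [Fact p.Prime] (P : Sylow p G) (hna : ¬ IsMulCommutative (P : Subgroup G)) (hgen : (frattini ↥(P : Subgroup G)).index = p ^ 2) (hcore : Cfsg.pPrimeCore p G = ⊥) (hfrat : ((frattini ↥(P : Subgroup G)).map (P : Subgroup G).subtype).normalCore = ⊥) [hFn : (Cfsg.generalizedFittingSubgroup G).Normal] :
    (Cfsg.generalizedFittingSubgroup G ≠ ⊥ ∧ ∀ K : Subgroup G, K.Normal → K ≠ ⊥ → Cfsg.generalizedFittingSubgroup G ≤ K) ∧
      IsCyclic ↥((P : Subgroup G).map (QuotientGroup.mk' (Cfsg.generalizedFittingSubgroup G))) ∧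
      (¬ IsMulCommutative (Cfsg.generalizedFittingSubgroup G) → ∀ K L : Subgroup G, Cfsg.IsComponent K → Cfsg.IsComponent L → ∃ x ∈ (P : Subgroup G), L = K.map (MulAut.conj x).toMonoidHom) := by
  obtain ⟨N, hNn, hN, -, hmin⟩ := Cfsg.Agent.Lib.Hall.exists_minimal_normal_le (N := (⊤ : Subgroup G))
    (by
      intro h
      refine hna ⟨⟨fun a b => Subtype.ext ?_⟩⟩
      have ha : (a : G) ∈ (⊥ : Subgroup G) := h ▸ Subgroup.mem_top _
      rw [Subgroup.mem_bot] at ha
      simp [ha])
  have hle : ∀ K : Subgroup G, K.Normal → K ≠ ⊥ → N ≤ K := fun K hK hK' => by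
    rcases hmin (N ⊓ K) inferInstance inf_le_left with h | h
    · exact absurd h (Cfsg.Agent.Lib.TwoGenSylow.unique_normal P hna hgen hcore hfrat N K hN hK')
    · exact inf_eq_left.1 h
  obtain ⟨hF, hE⟩ := Cfsg.Agent.Lib.TwoGenSylow.generalizedFitting_eq P hna hgen hcore hfrat N hN hle
  refine ⟨⟨hF ▸ hN, hF ▸ hle⟩, ?_, fun hc K L hK hL => ?_⟩
  · obtain ⟨g, hg, hPg⟩ := Cfsg.Agent.Lib.TwoGenSylow.map_cyclic P hna hgen N
      (Cfsg.Agent.Lib.TwoGenSylow.not_le_phi P hcore hfrat N hN)
    have hle' : (P : Subgroup G).map (QuotientGroup.mk' (Cfsg.generalizedFittingSubgroup G)) ≤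
        Subgroup.zpowers (QuotientGroup.mk' (Cfsg.generalizedFittingSubgroup G) g) := ?_
    · exact Subgroup.isCyclic_of_le hle'
    rintro _ ⟨x, hx, rfl⟩
    obtain ⟨u, hu, v, hv, rfl⟩ := Subgroup.mem_sup_of_normal_left.1 (hPg hx)
    obtain ⟨i, rfl⟩ := Subgroup.mem_zpowers_iff.1 hv
    have hu' : QuotientGroup.mk' (Cfsg.generalizedFittingSubgroup G) u = 1 :=
      (QuotientGroup.eq_one_iff u).2 (hF.ge hu)
    rw [map_mul, map_zpow, hu', one_mul]
    exact Subgroup.zpow_mem_zpowers _ i
  · have hcN : ¬ IsMulCommutative N := fun h => hc (hF ▸ h)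
    exact Cfsg.Agent.Lib.TwoGenSylow.comps_transitive P hna hgen hcore N hN hcN hle (hE hcN) K L hK hL

end Cfsg.Agent.S4172
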