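import Cfsg.Statements.S4176
import Mathlib
import Cfsg.Agent.Lib.GenStruct.PHall

set_option autoImplicit false
open Cfsg

namespace Cfsg.Agent.S4176

open MulAction in
/-- A vector fixed by a subgroup `X` with the same orbit on `a` is a multiple of the orbit sum. -/
theorem fixed_mem_span {k V H : Type*} [Field k] {p : ℕ} [hp : Fact p.Prime] [CharP k p] [AddCommGroup V]
    [Module k V] [Group H] [Finite H] (ρ : Representation k H V) (a : V)
    (hspan : Submodule.span k {u : V | ∃ h : H, ρ h a = u} = ⊤) (K : Subgroup H)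
    (hK : (Nat.card K).Coprime p) (horb : ∀ h : H, ∃ x ∈ K, ρ x a = ρ h a)
    (v : V) (hv : ∀ x ∈ K, ρ x v = v) :
    v ∈ Submodule.span k {∑ᶠ u ∈ {u : V | ∃ h : H, ρ h a = u}, u} := by
  classical
  haveI := Fintype.ofFinite K
  haveI := Fintype.ofFinite H
  set O : Finset V := Finset.univ.image (fun h : H => ρ h a) with hO
  have hOset : {u : V | ∃ h : H, ρ h a = u} = (O : Set V) := by ext u; simp [hO]
  rw [hOset] at hspan ⊢
  rw [finsum_mem_coe_finset]
  set s := ∑ u ∈ O, u with hs
  let L : V →ₗ[k] V := ∑ x : K, ρ (x : H)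
  have hL : ∀ w, L w = ∑ x : K, ρ (x : H) w := fun w => by simp [L, LinearMap.sum_apply]
  have hLO : ∀ u ∈ (O : Set V), ∃ c : ℕ, L u = (c : k) • s := by
    intro u hu
    have hmem : ∀ x : K, ρ (x : H) u ∈ O := by
      intro x
      obtain ⟨h, -, rfl⟩ := Finset.mem_image.1 hu
      exact Finset.mem_image.2 ⟨x * h, Finset.mem_univ _, by rw [map_mul]; rfl⟩
    refine ⟨(Finset.univ.filter (fun x : K => ρ (x : H) u = u)).card, ?_⟩
    rw [hL, ← Finset.sum_fiberwise_of_maps_to (t := O) (g := fun x : K => ρ (x : H) u) (fun x _ => hmem x),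
      hs, Finset.smul_sum]
    refine Finset.sum_congr rfl fun w hw => ?_
    rw [Finset.sum_congr rfl (g := fun _ => w) (fun x hx => (Finset.mem_filter.1 hx).2), Finset.sum_const]
    rw [Nat.cast_smul_eq_nsmul k]
    congr 1
    obtain ⟨h, -, rfl⟩ := Finset.mem_image.1 hw
    obtain ⟨h', -, rfl⟩ := Finset.mem_image.1 hu
    obtain ⟨x1, hx1, e1⟩ := horb h
    obtain ⟨x2, hx2, e2⟩ := horb h'
    set y : K := ⟨x1, hx1⟩ * ⟨x2, hx2⟩⁻¹ with hy
    have hyu : ρ (y : H) (ρ h' a) = ρ h a := by
      rw [← e2, ← e1, hy, ← Module.End.mul_apply, ← map_mul]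
      simp [mul_assoc]
    refine (Finset.card_equiv (Equiv.mulLeft y) fun x => ?_).symm
    simp only [Finset.mem_filter, Finset.mem_univ, true_and, Equiv.coe_mulLeft, Subgroup.coe_mul, map_mul,
      Module.End.mul_apply]
    rw [← hyu]
    constructor
    · intro hx; rw [hx]
    · intro hx
      have := congrArg (ρ ((y : H)⁻¹)) hx
      simpa [← Module.End.mul_apply, ← map_mul] using this
  have hrange : LinearMap.range L ≤ Submodule.span k {s} := by
    rw [LinearMap.range_eq_map, ← hspan, Submodule.map_span, Submodule.span_le]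
    rintro _ ⟨u, hu, rfl⟩
    obtain ⟨c, hc⟩ := hLO u hu
    rw [SetLike.mem_coe, hc]
    exact Submodule.smul_mem _ _ (Submodule.mem_span_singleton_self s)
  have hne : ((Fintype.card K : ℕ) : k) ≠ 0 := by
    rw [Ne, CharP.cast_eq_zero_iff k p, ← Nat.card_eq_fintype_card]
    exact (hp.out.coprime_iff_not_dvd).1 hK.symm
  have hLv : L v = (Fintype.card K : k) • v := by
    rw [hL, Finset.sum_congr rfl (g := fun _ => v) (fun (x : K) _ => hv x x.2), Finset.sum_const, Finset.card_univ,
      Nat.cast_smul_eq_nsmul k]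
  have := Submodule.smul_mem (Submodule.span k {s}) ((Fintype.card K : k))⁻¹ (hrange ⟨v, hLv⟩)
  rwa [smul_smul, inv_mul_cancel₀ hne, one_smul] at this

/-- Let k be a field of prime characteristic p, H a finite p-soluble group and ρ a k-linear representation of H on V. Let a be a vector that is fixed by some Sylow p-subgroup of H and whose H-orbit spans V. Then the space of H-fixed vectors has dimension at most 1, and every vector b whose H-orbit has size coprime to the size of the orbit of a is fixed by H. -/
theorem result {k V H : Type*} [Field k] (p : ℕ) [Fact p.Prime] [CharP k p] [AddCommGroup V] [Module k V]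
    [Group H] [Finite H] (hsol : Cfsg.IsPSolvable p H) (ρ : Representation k H V) (a : V)
    (hfix : ∃ P : Sylow p H, ∀ x : H, x ∈ (P : Subgroup H) → ρ x a = a)
    (hspan : Submodule.span k {u : V | ∃ h : H, ρ h a = u} = ⊤) :
    Module.finrank k ρ.invariants ≤ 1 ∧
    ∀ b : V, (Nat.card {u : V | ∃ h : H, ρ h a = u}).Coprime (Nat.card {u : V | ∃ h : H, ρ h b = u}) → ∀ h : H, ρ h b = b := by
  classical
  have hp := (Fact.out : p.Prime)
  set O : Set V := {u : V | ∃ h : H, ρ h a = u} with hO
  set s := ∑ᶠ u ∈ O, u with hs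
  obtain ⟨P, hP⟩ := hfix
  let A : Subgroup H :=
    { carrier := {h | ρ h a = a}
      one_mem' := by simp
      mul_mem' := fun {x y} (hx : ρ x a = a) (hy : ρ y a = a) => by
        show ρ (x * y) a = a
        rw [map_mul, Module.End.mul_apply, hy, hx]
      inv_mem' := fun {x} (hx : ρ x a = a) => by
        show ρ x⁻¹ a = a
        conv_lhs => rw [← hx, ← Module.End.mul_apply, ← map_mul, inv_mul_cancel, map_one]
        rfl }
  have hPA : (P : Subgroup H) ≤ A := hP
  have hAidx : ¬ p ∣ A.index := fun h => P.not_dvd_index (h.trans (Subgroup.index_dvd_of_le hPA))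
  have hcardO : ∀ v : V, ∀ B : Subgroup H, (∀ h, h ∈ B ↔ ρ h v = v) →
      Nat.card {u : V | ∃ h : H, ρ h v = u} = B.index := by
    intro v B hB
    refine (Nat.card_congr (Equiv.ofBijective
      (Quotient.lift (fun h : H => (⟨ρ h v, h, rfl⟩ : {u : V | ∃ h : H, ρ h v = u})) ?_) ⟨?_, ?_⟩)).symm
    · intro x y hxy
      have := (hB _).1 (QuotientGroup.leftRel_apply.1 hxy)
      apply Subtype.ext
      show ρ x v = ρ y v
      conv_lhs => rw [← this, ← Module.End.mul_apply, ← map_mul, mul_inv_cancel_left]
    · intro x y hxy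
      induction x using Quotient.inductionOn with | h x => ?_
      induction y using Quotient.inductionOn with | h y => ?_
      have h1 : ρ x v = ρ y v := congrArg Subtype.val hxy
      refine Quotient.sound (QuotientGroup.leftRel_apply.2 ((hB _).2 ?_))
      rw [map_mul, Module.End.mul_apply, ← h1, ← Module.End.mul_apply, ← map_mul, inv_mul_cancel, map_one]
      rfl
    · rintro ⟨_, h, rfl⟩
      exact ⟨Quotient.mk _ h, rfl⟩
  -- `X` with coprime index to `A` contains a suitable `K`
  have key : ∀ B : Subgroup H, A.index.Coprime B.index → ∃ K : Subgroup H, K ≤ B ∧ (Nat.card K).Coprime p ∧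
      ∀ h : H, ∃ x ∈ K, ρ x a = ρ h a := by
    intro B hcop
    obtain ⟨K0, hK0, m, hm⟩ := Cfsg.Agent.Lib.GenStruct.PHall.exists_pPrime_hall
      (Cfsg.Agent.Lib.GenStruct.PHall.isPSolvable_subgroup hsol B)
    refine ⟨K0.map B.subtype, Subgroup.map_subtype_le _, ?_, ?_⟩
    · rwa [Subgroup.card_map_of_injective B.subtype_injective]
    intro h
    set K := K0.map B.subtype with hKdef
    have hKidx : K.index = p ^ m * B.index := by
      rw [hKdef, Subgroup.index_map_of_injective K0 B.subtype_injective, hm, Subgroup.range_subtype]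
    have hAK : A.index.Coprime K.index := by
      rw [hKidx]
      exact (Nat.Coprime.pow_right m ((hp.coprime_iff_not_dvd).2 hAidx).symm).mul_right hcop
    have htot : A.relIndex K = A.index := by
      refine le_antisymm ?_ ?_
      · rw [← Subgroup.relIndex_top_right A]
        exact Subgroup.relIndex_le_of_le_right le_top (by rw [Subgroup.relIndex_top_right]; exact Subgroup.index_ne_zero_of_finite)
      have h1 : A.relIndex K * K.index = (A ⊓ K).index := by
        rw [← Subgroup.inf_relIndex_right A K, Subgroup.relIndex_mul_index inf_le_right]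
      have h2 : A.index ∣ (A ⊓ K).index := Subgroup.index_dvd_of_le inf_le_left
      rw [← h1] at h2
      exact Nat.le_of_dvd (Nat.pos_of_ne_zero fun h0 => by
        have := Subgroup.index_ne_zero_of_finite (H := A.subgroupOf K)
        exact this h0) (hAK.dvd_of_dvd_mul_right h2)
    have hsur : Function.Surjective (Quotient.map' (Subtype.val : K → H) (fun x y hxy => by
        rw [QuotientGroup.leftRel_apply] at hxy ⊢
        exact hxy) : K ⧸ A.subgroupOf K → H ⧸ A) := by
      refine ((Nat.bijective_iff_injective_and_card _).2 ⟨?_, ?_⟩).2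
      · intro x y hxy
        induction x using Quotient.inductionOn with | h x => ?_
        induction y using Quotient.inductionOn with | h y => ?_
        have h5 : ((x : H) : H ⧸ A) = ((y : H) : H ⧸ A) := hxy
        have h6 : (x : H)⁻¹ * (y : H) ∈ A := QuotientGroup.eq.1 h5
        exact Quotient.sound' (QuotientGroup.leftRel_apply.2 h6)
      · exact htot
    obtain ⟨q, hq⟩ := hsur (h : H ⧸ A)
    induction q using Quotient.inductionOn with | h x => ?_
    have h3 : (x : H)⁻¹ * h ∈ A := QuotientGroup.eq.1 hq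
    refine ⟨x, x.2, ?_⟩
    have h4 : ρ ((x : H)⁻¹ * h) a = a := h3
    conv_lhs => rw [← h4, ← Module.End.mul_apply, ← map_mul, mul_inv_cancel_left]
  have hsfix : ∀ h : H, ρ h s = s := by
    intro h
    have hfin : O.Finite := (Set.finite_range (fun x : H => ρ x a)).subset (by rintro u ⟨x, rfl⟩; exact ⟨x, rfl⟩)
    rw [hs, finsum_mem_eq_finite_toFinset_sum _ hfin, map_sum]
    refine Finset.sum_nbij' (fun u => ρ h u) (fun u => ρ h⁻¹ u) ?_ ?_ ?_ ?_ ?_
    · intro u hu
      rw [Set.Finite.mem_toFinset] at hu ⊢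
      obtain ⟨x, rfl⟩ := hu
      exact ⟨h * x, by rw [map_mul]; rfl⟩
    · intro u hu
      rw [Set.Finite.mem_toFinset] at hu ⊢
      obtain ⟨x, rfl⟩ := hu
      exact ⟨h⁻¹ * x, by rw [map_mul]; rfl⟩
    · intro u _; simp [← Module.End.mul_apply, ← map_mul]
    · intro u _; simp [← Module.End.mul_apply, ← map_mul]
    · intro u _; rfl
  refine ⟨?_, ?_⟩
  · obtain ⟨K, -, hKc, hKo⟩ := key ⊤ (by simp)
    have hle : ρ.invariants ≤ Submodule.span k {s} := fun v hv =>
      fixed_mem_span ρ a hspan K hKc hKo v fun x _ => (Representation.mem_invariants ρ v).1 hv x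
    haveI : Module.Finite k (Submodule.span k ({s} : Set V)) := Module.Finite.span_singleton k s
    refine (Submodule.finrank_mono hle).trans ?_
    refine (finrank_span_le_card ({s} : Set V)).trans ?_
    simp
  · intro b hb h
    let B : Subgroup H :=
      { carrier := {h | ρ h b = b}
        one_mem' := by simp
        mul_mem' := fun {x y} (hx : ρ x b = b) (hy : ρ y b = b) => by
          show ρ (x * y) b = b
          rw [map_mul, Module.End.mul_apply, hy, hx]
        inv_mem' := fun {x} (hx : ρ x b = b) => by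
          show ρ x⁻¹ b = b
          conv_lhs => rw [← hx, ← Module.End.mul_apply, ← map_mul, inv_mul_cancel, map_one]
          rfl }
    rw [hcardO a A (fun _ => Iff.rfl), hcardO b B (fun _ => Iff.rfl)] at hb
    obtain ⟨K, hKB, hKc, hKo⟩ := key B hb
    obtain ⟨c, hc⟩ := Submodule.mem_span_singleton.1
      (fixed_mem_span ρ a hspan K hKc hKo b fun x hx => hKB hx)
    rw [← hc, map_smul, hsfix]

end Cfsg.Agent.S4176
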