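import Cfsg.Statements.S4177
import Mathlib
-- import your own Cfsg.Agent.* helpers here

set_option autoImplicit false
open Cfsg

namespace Cfsg.Agent.S4177


/-- Let k be a field whose characteristic does not divide the order of the finite group H (for instance a field of characteristic zero), and ρ a k-linear representation of H on V. Let a be a vector whose H-orbit spans V. Then the space of H-fixed vectors has dimension at most 1, and every vector b whose H-orbit has size coprime to the size of the orbit of a is fixed by H. -/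
theorem result {k V H : Type*} [Field k] [AddCommGroup V] [Module k V] [Group H] [Finite H]
    (hchar : ¬ ringChar k ∣ Nat.card H) (ρ : Representation k H V) (a : V)
    (hspan : Submodule.span k {u : V | ∃ h : H, ρ h a = u} = ⊤) :
    Module.finrank k ρ.invariants ≤ 1 ∧
    ∀ b : V, (Nat.card {u : V | ∃ h : H, ρ h a = u}).Coprime (Nat.card {u : V | ∃ h : H, ρ h b = u}) → ∀ h : H, ρ h b = b := by
  classical
  have : Fintype H := Fintype.ofFinite H
  have hcard : (Nat.card H : k) ≠ 0 := fun h => hchar ((ringChar.spec k _).1 h)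
  have hmul : ∀ (h g : H) (v : V), ρ h (ρ g v) = ρ (h * g) v := fun h g v => by rw [map_mul]; rfl
  set A : V := ∑ h : H, ρ h a with hA
  have hAfix : ∀ g : H, ρ g A = A := by
    intro g
    rw [hA, map_sum]
    simp only [hmul]
    exact Fintype.sum_equiv (Equiv.mulLeft g) _ _ fun x => rfl
  have hinv : ρ.invariants ≤ Submodule.span k {A} := by
    intro v hv
    rw [Representation.mem_invariants] at hv
    have h1 : ∀ w : V, (∑ h : H, ρ h w) ∈ Submodule.span k {A} := by
      intro w
      have hw : w ∈ Submodule.span k {u : V | ∃ h : H, ρ h a = u} := hspan ▸ Submodule.mem_top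
      induction hw using Submodule.span_induction with
      | mem u hu =>
        obtain ⟨g, rfl⟩ := hu
        have : ∑ h : H, ρ h (ρ g a) = A := by
          simp only [hmul]
          exact Fintype.sum_equiv (Equiv.mulRight g) _ _ fun x => rfl
        rw [this]
        exact Submodule.mem_span_singleton_self A
      | zero => simp
      | add u v _ _ hu hv => simpa [map_add, Finset.sum_add_distrib] using add_mem hu hv
      | smul c u _ hu => simpa [map_smul, ← Finset.smul_sum] using Submodule.smul_mem _ c hu
    have h2 := h1 v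
    simp only [hv, Finset.sum_const, Finset.card_univ] at h2
    rw [← Nat.cast_smul_eq_nsmul k, ← Nat.card_eq_fintype_card] at h2
    exact (Submodule.smul_mem_iff _ hcard).1 h2
  refine ⟨?_, fun b hb g => ?_⟩
  · exact (Submodule.finrank_mono hinv).trans ((finrank_span_le_card ({A} : Set V)).trans (by simp))
  let _ : MulAction H V := MulAction.compHom V (ρ : H →* _)
  let K : Subgroup H := { carrier := {h | ρ h b = b}, one_mem' := by simp, mul_mem' := fun {x y} hx hy => by show ρ (x * y) b = b; rw [← hmul]; rw [hy, hx], inv_mem' := fun {x} hx => by show ρ x⁻¹ b = b; nth_rewrite 1 [← hx]; rw [hmul, inv_mul_cancel, map_one]; rfl }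
  let S : Subgroup H := { carrier := {h | ρ h a = a}, one_mem' := by simp, mul_mem' := fun {x y} hx hy => by show ρ (x * y) a = a; rw [← hmul]; rw [hy, hx], inv_mem' := fun {x} hx => by show ρ x⁻¹ a = a; nth_rewrite 1 [← hx]; rw [hmul, inv_mul_cancel, map_one]; rfl }
  have horb : ∀ (L : Subgroup H) (v : V) (hL : ∀ h : H, h ∈ L ↔ ρ h v = v), L.index = Nat.card {u : V | ∃ h : H, ρ h v = u} := by
    intro L v hL
    have hrel : ∀ h h' : H, h⁻¹ * h' ∈ L ↔ ρ h v = ρ h' v := by
      intro h h'
      rw [hL, ← hmul]
      constructor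
      · intro e
        nth_rewrite 1 [← e]
        rw [hmul, mul_inv_cancel, map_one]; rfl
      · intro e
        rw [← e, hmul, inv_mul_cancel, map_one]; rfl
    let f : H ⧸ L → {u : V | ∃ h : H, ρ h v = u} := Quotient.lift (fun h => ⟨ρ h v, h, rfl⟩)
      (fun h h' e => Subtype.ext ((hrel h h').1 (QuotientGroup.leftRel_apply.1 e)))
    refine Nat.card_eq_of_bijective f ⟨fun x y => ?_, ?_⟩
    · refine Quotient.inductionOn₂ x y fun h h' e => Quotient.sound (QuotientGroup.leftRel_apply.2 ((hrel h h').2 (congrArg Subtype.val e)))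
    · rintro ⟨u, h, rfl⟩; exact ⟨QuotientGroup.mk h, rfl⟩
  have hcop : S.index.Coprime K.index := by
    rw [horb S a fun _ => Iff.rfl, horb K b fun _ => Iff.rfl]; exact hb
  have htrans : ∀ h : H, ∃ c ∈ K, ρ c a = ρ h a := by
    have hrel : S.relIndex K = S.index := by
      refine le_antisymm (Subgroup.relIndex_le_of_le_right le_top (by simp [Subgroup.index_ne_zero_of_finite]) |>.trans (le_of_eq S.relIndex_top_right)) ?_
      have h1 : (S ⊓ K).index = S.relIndex K * K.index := by
        rw [← Subgroup.inf_relIndex_right, Subgroup.relIndex_mul_index inf_le_right]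
      have h2 : S.index ∣ (S ⊓ K).index := Subgroup.index_dvd_of_le inf_le_left
      rw [h1] at h2
      exact Nat.le_of_dvd (Nat.pos_of_ne_zero Subgroup.FiniteIndex.index_ne_zero) (hcop.dvd_of_dvd_mul_right h2)
    intro h
    let f : K ⧸ S.subgroupOf K → H ⧸ S := Quotient.map' (fun c => (c : H)) fun c d e => by
      rw [QuotientGroup.leftRel_apply] at e ⊢
      simpa [Subgroup.mem_subgroupOf] using e
    have hf : Function.Injective f := by
      intro x y
      refine Quotient.inductionOn₂' x y fun c d e => Quotient.sound' ?_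
      have e' := Quotient.eq''.1 e
      rw [QuotientGroup.leftRel_apply] at e' ⊢
      simpa [Subgroup.mem_subgroupOf] using e'
    obtain ⟨q, hq⟩ := ((Nat.bijective_iff_injective_and_card f).2 ⟨hf, hrel⟩).2 (QuotientGroup.mk h)
    obtain ⟨c, rfl⟩ := Quotient.exists_rep q
    refine ⟨c, c.2, ?_⟩
    have e : (c : H)⁻¹ * h ∈ S := QuotientGroup.eq.1 hq
    show ρ c a = ρ h a
    have e' : ρ ((c : H)⁻¹ * h) a = a := e
    nth_rewrite 1 [← e']
    rw [hmul]
    group
  set B : V := ∑ c : K, ρ c a with hB
  have hBfix : ρ g B = B := by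
    have h1 : ∑ h : H, ∑ c : K, ρ c (ρ h a) = (Fintype.card H) • B := by
      rw [← Finset.card_univ, ← Finset.sum_const]
      refine Finset.sum_congr rfl fun h _ => ?_
      obtain ⟨d, hd, e⟩ := htrans h
      rw [← e, hB]
      simp only [hmul]
      exact Fintype.sum_equiv (Equiv.mulRight (⟨d, hd⟩ : K)) _ _ fun x => rfl
    have h2 : ∑ h : H, ∑ c : K, ρ c (ρ h a) = (Fintype.card K) • A := by
      rw [Finset.sum_comm, ← Finset.card_univ, ← Finset.sum_const]
      refine Finset.sum_congr rfl fun c _ => ?_
      rw [← map_sum, ← hA, hAfix]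
    have h3 : ρ g ((Fintype.card H) • B) = (Fintype.card H) • B := by
      rw [← h1, h2, map_nsmul, hAfix]
    rw [map_nsmul, ← Nat.cast_smul_eq_nsmul k, ← Nat.cast_smul_eq_nsmul k, ← Nat.card_eq_fintype_card] at h3
    exact (smul_right_injective V hcard) h3
  have hspanB0 : ∀ w : V, (∑ c : K, ρ c w) ∈ Submodule.span k {B} := by
    intro w
    have hw : w ∈ Submodule.span k {u : V | ∃ h : H, ρ h a = u} := hspan ▸ Submodule.mem_top
    induction hw using Submodule.span_induction with
    | mem u hu =>
      obtain ⟨h, rfl⟩ := hu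
      obtain ⟨d, hd, e⟩ := htrans h
      have : ∑ c : K, ρ c (ρ h a) = B := by
        rw [← e, hB]
        simp only [hmul]
        exact Fintype.sum_equiv (Equiv.mulRight (⟨d, hd⟩ : K)) _ _ fun x => rfl
      rw [this]
      exact Submodule.mem_span_singleton_self B
    | zero => simp
    | add u v _ _ hu hv => simpa [map_add, Finset.sum_add_distrib] using add_mem hu hv
    | smul c u _ hu => simpa [map_smul, ← Finset.smul_sum] using Submodule.smul_mem _ c hu
  have hspanB := hspanB0 b
  have hsum : ∑ c : K, ρ c b = (Nat.card K : k) • b := by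
    rw [Nat.cast_smul_eq_nsmul k, Nat.card_eq_fintype_card, ← Finset.card_univ, ← Finset.sum_const]
    exact Finset.sum_congr rfl fun c _ => c.2
  have hK0 : (Nat.card K : k) ≠ 0 := fun h => hchar (((ringChar.spec k _).1 h).trans K.card_subgroup_dvd_card)
  rw [hsum, Submodule.smul_mem_iff _ hK0, Submodule.mem_span_singleton] at hspanB
  obtain ⟨t, ht⟩ := hspanB
  rw [← ht, map_smul, hBfix]

end Cfsg.Agent.S4177
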