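import Cfsg.Statements.S4178
import Mathlib
-- import your own Cfsg.Agent.* helpers here

set_option autoImplicit false
open Cfsg

namespace Cfsg.Agent.S4178

lemma index_le {F V : Type*} [Field F] [Fintype F] [AddCommGroup V] [Module F V] [FiniteDimensional F V]
    {G : Type*} [Group G] [Finite G] (R : Subgroup G) {U : Type*} [Finite U] (act : G → U → U)
    (hmul : ∀ g h u, act (g * h) u = act g (act h u)) (hone : ∀ u, act 1 u = u)
    (u₀ : U) (bad : U) (hbad : ∀ g, act g u₀ ≠ bad) (hstab : ∀ g, act g u₀ = u₀ → g ∈ R) :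
    R.index ≤ Nat.card U - 1 := by
  let S : Subgroup G :=
    { carrier := {g | act g u₀ = u₀}
      one_mem' := hone u₀
      mul_mem' := fun {a b} ha hb => by show act (a * b) u₀ = u₀; rw [hmul, hb, ha]
      inv_mem' := fun {a} ha => by show act a⁻¹ u₀ = u₀; nth_rewrite 1 [← ha]; rw [← hmul, inv_mul_cancel, hone] }
  have h1 : R.index ≤ S.index := Subgroup.index_antitone fun g hg => hstab g hg
  have h2 : S.index ≤ ({bad}ᶜ : Set U).ncard := by
    rw [← Nat.card_coe_set_eq]
    let f : G ⧸ S → ({bad}ᶜ : Set U) := Quotient.lift (fun g => ⟨act g u₀, hbad g⟩) (fun a b e => by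
      have e' : act (a⁻¹ * b) u₀ = u₀ := QuotientGroup.leftRel_apply.1 e
      apply Subtype.ext
      show act a u₀ = act b u₀
      nth_rewrite 1 [← e']
      rw [← hmul, mul_inv_cancel_left])
    refine Nat.card_le_card_of_injective f fun x y => Quotient.inductionOn₂ x y fun a b e => Quotient.sound (QuotientGroup.leftRel_apply.2 ?_)
    show act (a⁻¹ * b) u₀ = u₀
    have e' : act a u₀ = act b u₀ := congrArg Subtype.val e
    rw [hmul, ← e', ← hmul, inv_mul_cancel, hone]
  rw [Set.ncard_compl, Set.ncard_singleton] at h2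
  omega

/-- Let F be a finite field with q elements, V a non-zero finite-dimensional F-space of dimension d, H a group of invertible linear maps of V, and R the subgroup of H generated by the elements of H that fix some non-zero vector (have eigenvalue 1). Then the index of R in H is at most q^d − 1; and if H leaves invariant some proper non-zero subspace, the index is at most q^(d/2) − 1. -/
theorem result {F V : Type*} [Field F] [Fintype F] [AddCommGroup V] [Module F V] [FiniteDimensional F V] [Nontrivial V]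
    (H : Subgroup (V ≃ₗ[F] V)) :
    (Subgroup.closure {h : ↥H | ∃ v : V, v ≠ 0 ∧ (h : V ≃ₗ[F] V) v = v}).index ≤ Fintype.card F ^ Module.finrank F V - 1 ∧
    ((∃ W : Submodule F V, W ≠ ⊥ ∧ W ≠ ⊤ ∧ ∀ h ∈ H, ∀ w ∈ W, h w ∈ W) →
      ((Subgroup.closure {h : ↥H | ∃ v : V, v ≠ 0 ∧ (h : V ≃ₗ[F] V) v = v}).index : ℝ) ≤ Real.sqrt ((Fintype.card F : ℝ) ^ Module.finrank F V) - 1) := by
  classical
  have : Finite V := Module.finite_of_finite F
  set R := Subgroup.closure {h : ↥H | ∃ v : V, v ≠ 0 ∧ (h : V ≃ₗ[F] V) v = v}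
  have : Finite (V ≃ₗ[F] V) := Finite.of_injective (fun e : V ≃ₗ[F] V => (e : V → V)) DFunLike.coe_injective
  obtain ⟨v, hv⟩ := exists_ne (0 : V)
  have hV : Nat.card V = Fintype.card F ^ Module.finrank F V := by
    rw [Module.natCard_eq_pow_finrank (K := F), Nat.card_eq_fintype_card]
  refine ⟨?_, ?_⟩
  · rw [← hV]
    exact index_le (F := F) (V := V) R (fun (h : H) (w : V) => (h : V ≃ₗ[F] V) w) (fun _ _ _ => rfl) (fun _ => rfl) v 0
      (fun h => by simpa using hv) (fun h hh => Subgroup.subset_closure ⟨v, hv, hh⟩)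
  rintro ⟨W, hW0, hWT, hWH⟩
  obtain ⟨w, hwW, hw⟩ := Submodule.exists_mem_ne_zero_of_ne_bot hW0
  obtain ⟨x, -, hxW⟩ := SetLike.exists_of_lt (lt_top_iff_ne_top.2 hWT)
  have h1 : R.index ≤ Nat.card W - 1 :=
    index_le (F := F) (V := V) R (fun (h : H) (u : W) => (⟨(h : V ≃ₗ[F] V) u, hWH h h.2 u u.2⟩ : W)) (fun _ _ _ => rfl) (fun _ => rfl)
      ⟨w, hwW⟩ 0 (fun h e => hw (by simpa using congrArg Subtype.val e))
      (fun h hh => Subgroup.subset_closure ⟨w, hw, congrArg Subtype.val hh⟩)
  let m : H → (V ⧸ W) →ₗ[F] (V ⧸ W) := fun h => W.mapQ W ((h : V ≃ₗ[F] V) : V →ₗ[F] V) (fun u hu => hWH h h.2 u hu)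
  have : Finite (V ⧸ W) := Quotient.finite _
  have h2 : R.index ≤ Nat.card (V ⧸ W) - 1 := by
    refine index_le (F := F) (V := V) R (fun h u => m h u) ?_ ?_ (Submodule.Quotient.mk x) 0 ?_ ?_
    · intro g h u
      obtain ⟨u, rfl⟩ := Submodule.Quotient.mk_surjective W u
      rfl
    · intro u
      obtain ⟨u, rfl⟩ := Submodule.Quotient.mk_surjective W u
      rfl
    · intro h e
      have e' : (h : V ≃ₗ[F] V) x ∈ W := (Submodule.Quotient.mk_eq_zero W).1 e
      have := hWH _ (inv_mem h.2) _ e'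
      rw [← LinearEquiv.mul_apply, inv_mul_cancel] at this
      exact hxW this
    · intro h e
      have e' : (h : V ≃ₗ[F] V) x - x ∈ W := (Submodule.Quotient.eq W).1 e
      by_contra hR
      set T : V →ₗ[F] V := ((h : V ≃ₗ[F] V) : V →ₗ[F] V) - LinearMap.id
      have hinj : ∀ u, T u = 0 → u = 0 := fun u hu => by
        by_contra h0
        exact hR (Subgroup.subset_closure ⟨u, h0, sub_eq_zero.1 hu⟩)
      have hmaps : ∀ u ∈ W, T u ∈ W := fun u hu => W.sub_mem (hWH h h.2 u hu) hu
      have hinjW : Function.Injective (T.restrict hmaps) := by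
        rw [← LinearMap.ker_eq_bot, LinearMap.ker_eq_bot']
        intro u hu
        exact Subtype.ext (hinj u (congrArg Subtype.val hu))
      obtain ⟨u, hu⟩ := (LinearMap.injective_iff_surjective.1 hinjW) ⟨T x, e'⟩
      have hu' : T u = T x := congrArg Subtype.val hu
      have : (u : V) = x := sub_eq_zero.1 (hinj _ (by rw [map_sub, hu', sub_self]))
      exact hxW (this ▸ u.2)
  have hprod : Nat.card W * Nat.card (V ⧸ W) = Fintype.card F ^ Module.finrank F V := by
    rw [← hV]; exact (Submodule.card_eq_card_quotient_mul_card W).symm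
  have hR1 : 1 ≤ R.index := Nat.pos_of_ne_zero Subgroup.FiniteIndex.index_ne_zero
  have hsq : (R.index + 1) * (R.index + 1) ≤ Fintype.card F ^ Module.finrank F V := by
    rw [← hprod]; exact Nat.mul_le_mul (by omega) (by omega)
  have hsq' : ((R.index : ℝ) + 1) * ((R.index : ℝ) + 1) ≤ (Fintype.card F : ℝ) ^ Module.finrank F V := by exact_mod_cast hsq
  have := Real.abs_le_sqrt (x := (R.index : ℝ) + 1) (y := (Fintype.card F : ℝ) ^ Module.finrank F V) (by rw [sq]; exact hsq')
  rw [abs_of_nonneg (show (0 : ℝ) ≤ (R.index : ℝ) + 1 by positivity)] at this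
  change (R.index : ℝ) ≤ _
  linarith

end Cfsg.Agent.S4178
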