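import Cfsg.Statements.S4181
import Cfsg.Agent.Lib.SylowFix.Main
-- import your own Cfsg.Agent.* helpers here

set_option autoImplicit false
open Cfsg

namespace Cfsg.Agent.S4181

/-- Let p be a prime and G a finite group generated by its elements of p-power order, and let H be a proper subgroup of G containing a Sylow p-subgroup of G. Then 2p − 1 times the number of Sylow p-subgroups of H is at most p − 1 times the number of Sylow p-subgroups of G. -/
theorem result {G : Type*} [Group G] [Finite G] (p : ℕ) [Fact p.Prime] (hgen : Subgroup.closure {g : G | ∃ k : ℕ, orderOf g = p ^ k} = ⊤)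
    (H : Subgroup G) (hH : H ≠ ⊤) (P : Sylow p G) (hP : (P : Subgroup G) ≤ H) :
    (2 * p - 1) * Nat.card (Sylow p ↥H) ≤ (p - 1) * Nat.card (Sylow p G) := by
  classical
  have hK : Lib.SylowFix.pcl p (⊤ : Subgroup G) = ⊤ := by
    refine le_antisymm le_top (hgen.ge.trans ((Subgroup.closure_le _).2 fun g hg => ?_))
    obtain ⟨k, hk⟩ := hg
    exact Lib.SylowFix.mem_pcl (Subgroup.mem_top g) ⟨k, by rw [← hk]; exact pow_orderOf_eq_one g⟩
  have hnf : ∀ y : G ⧸ H, ∃ k ∈ (⊤ : Subgroup G), k • y ≠ y := by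
    intro y
    by_contra hc
    push Not at hc
    apply hH
    rw [eq_top_iff]
    intro g _
    obtain ⟨a, rfl⟩ := QuotientGroup.mk_surjective y
    have := hc (a * g * a⁻¹) (Subgroup.mem_top _)
    rw [MulAction.Quotient.smul_mk, smul_eq_mul, inv_mul_cancel_right, QuotientGroup.eq] at this
    have := H.inv_mem this
    simpa using this
  have hmain := Lib.SylowFix.fixed_le (X := G ⧸ H) ⊤ hK P le_top hnf
  set F := Nat.card {y : G ⧸ H // ∀ g ∈ (P : Subgroup G), g • y = y} with hFdef
  -- each coset is fixed by as many Sylow subgroups as lie in `H`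
  have e1 : ∀ y : G ⧸ H, Nat.card {Q : Sylow p G // ∀ g ∈ (Q : Subgroup G), g • y = y} =
      Nat.card (Sylow p H) := by
    intro y
    obtain ⟨a, rfl⟩ := QuotientGroup.mk_surjective y
    have key : ∀ g : G, g • (QuotientGroup.mk a : G ⧸ H) = QuotientGroup.mk a ↔
        a⁻¹ * g * a ∈ H := by
      intro g
      rw [MulAction.Quotient.smul_mk, QuotientGroup.eq, smul_eq_mul]
      constructor
      · intro h
        have := H.inv_mem h
        simpa [mul_assoc] using this
      · intro h
        have := H.inv_mem h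
        simpa [mul_assoc] using this
    refine (Nat.card_congr ?_).trans (Nat.card_eq_of_bijective
      (fun Q : {Q : Sylow p G // (Q : Subgroup G) ≤ H} => Q.1.subtype Q.2) ⟨?_, ?_⟩)
    · refine Equiv.subtypeEquiv (MulAction.toPerm a⁻¹) fun Q => ?_
      rw [MulAction.toPerm_apply, Sylow.coe_subgroup_smul]
      show _ ↔ Lib.SylowFix.cj a⁻¹ (Q : Subgroup G) ≤ H
      rw [← Lib.SylowFix.cj_inv_le]
      exact forall_congr' fun g => imp_congr_right fun _ => by
        rw [Lib.SylowFix.mem_cj, key]
    · rintro ⟨Q, hQ⟩ ⟨Q', hQ'⟩ e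
      exact Subtype.ext (Sylow.subtype_injective e)
    · intro R
      obtain ⟨k, hk⟩ := MulAction.exists_smul_eq H (P.subtype hP) R
      rw [Sylow.smul_subtype] at hk
      exact ⟨⟨k • P, Sylow.smul_le hP k⟩, hk⟩
  -- every Sylow subgroup fixes as many cosets as `P`
  have e2 : ∀ Q : Sylow p G,
      Nat.card {y : G ⧸ H // ∀ g ∈ (Q : Subgroup G), g • y = y} = F := by
    intro Q
    obtain ⟨k, rfl⟩ := MulAction.exists_smul_eq G P Q
    refine Nat.card_congr (Equiv.subtypeEquiv (MulAction.toPerm k⁻¹) fun y => ?_)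
    rw [MulAction.toPerm_apply, Sylow.coe_subgroup_smul]
    show (∀ g ∈ Lib.SylowFix.cj k (P : Subgroup G), g • y = y) ↔ _
    constructor
    · intro h g hg
      have := h (k * g * k⁻¹) (Lib.SylowFix.mem_cj.2 (by simpa [mul_assoc] using hg))
      rw [mul_smul, mul_smul] at this
      exact eq_inv_smul_iff.2 this
    · intro h g hg
      have := h (k⁻¹ * g * k) (Lib.SylowFix.mem_cj.1 hg)
      rw [mul_smul, mul_smul, smul_inv_smul] at this
      exact smul_left_cancel _ this
  have hcount : Nat.card (G ⧸ H) * Nat.card (Sylow p H) = Nat.card (Sylow p G) * F := by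
    haveI := Fintype.ofFinite (G ⧸ H)
    haveI := Fintype.ofFinite (Sylow p G)
    have l : Nat.card (Σ y : G ⧸ H, {Q : Sylow p G // ∀ g ∈ (Q : Subgroup G), g • y = y}) =
        Nat.card (G ⧸ H) * Nat.card (Sylow p H) := by
      rw [Nat.card_sigma, Finset.sum_congr rfl (fun y _ => e1 y), Finset.sum_const, smul_eq_mul,
        Finset.card_univ, ← Nat.card_eq_fintype_card]
    have r : Nat.card (Σ Q : Sylow p G, {y : G ⧸ H // ∀ g ∈ (Q : Subgroup G), g • y = y}) =
        Nat.card (Sylow p G) * F := by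
      rw [Nat.card_sigma, Finset.sum_congr rfl (fun y _ => e2 y), Finset.sum_const, smul_eq_mul,
        Finset.card_univ, ← Nat.card_eq_fintype_card]
    rw [← l, ← r]
    exact Nat.card_congr
      { toFun := fun x => ⟨x.2.1, x.1, x.2.2⟩
        invFun := fun x => ⟨x.2.1, x.1, x.2.2⟩
        left_inv := fun _ => rfl
        right_inv := fun _ => rfl }
  refine Nat.le_of_mul_le_mul_left ?_ (Nat.card_pos (α := G ⧸ H))
  calc Nat.card (G ⧸ H) * ((2 * p - 1) * Nat.card (Sylow p H))
      = (2 * p - 1) * F * Nat.card (Sylow p G) := by rw [mul_left_comm, hcount]; ring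
    _ ≤ (p - 1) * Nat.card (G ⧸ H) * Nat.card (Sylow p G) := Nat.mul_le_mul_right _ hmain
    _ = Nat.card (G ⧸ H) * ((p - 1) * Nat.card (Sylow p G)) := by ring

end Cfsg.Agent.S4181
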