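import Cfsg.Statements.S4182
import Mathlib

set_option autoImplicit false
open Cfsg

namespace Cfsg.Agent.S4182

/-- the subgroup generated by the `p`-elements of `S` -/
private def pgen {G : Type*} [Group G] (p : ℕ) (S : Subgroup G) : Subgroup G :=
  Subgroup.closure {g : G | g ∈ S ∧ ∃ k : ℕ, orderOf g = p ^ k}

private theorem pgen_le {G : Type*} [Group G] (p : ℕ) (S : Subgroup G) : pgen p S ≤ S :=
  (Subgroup.closure_le _).mpr fun _ h => h.1

private theorem mem_pgen {G : Type*} [Group G] {p : ℕ} {S : Subgroup G} {g : G} (hg : g ∈ S)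
    (hk : ∃ k : ℕ, orderOf g = p ^ k) : g ∈ pgen p S :=
  Subgroup.subset_closure ⟨hg, hk⟩

private theorem pgen_idem {G : Type*} [Group G] (p : ℕ) (S : Subgroup G) :
    pgen p (pgen p S) = pgen p S :=
  le_antisymm (pgen_le p _) ((Subgroup.closure_le _).mpr fun _ h => mem_pgen (mem_pgen h.1 h.2) h.2)

private theorem pgen_mono {G : Type*} [Group G] (p : ℕ) {S T : Subgroup G} (h : S ≤ T) :
    pgen p S ≤ pgen p T :=
  Subgroup.closure_mono fun _ hg => ⟨h hg.1, hg.2⟩

private theorem main {G : Type*} [Group G] [Finite G] (p : ℕ) (hp : p.Prime) {ι : Type*} [Fintype ι]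
    (K : ι → Subgroup G) (hcov : ∀ g : G, (∃ k : ℕ, orderOf g = p ^ k) → ∃ i, g ∈ K i)
    (H : Subgroup G) (hH : pgen p H = H) (hK : ∀ i, ¬ H ≤ K i) : p + 1 ≤ Fintype.card ι := by
  classical
  induction hn : Nat.card H using Nat.strong_induction_on generalizing H with
  | _ n ih =>
  by_contra hlt
  push Not at hlt
  -- every proper `p`-generated subgroup of `H` lies in some `K i`
  have hsmall : ∀ S : Subgroup G, pgen p S = S → S ≤ H → S ≠ H → ∃ i, S ≤ K i := by
    intro S hS hSH hne
    by_contra hno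
    push Not at hno
    have hcard : Nat.card S < n := by
      rw [← hn]
      refine lt_of_le_of_ne (Subgroup.card_le_of_le hSH) fun h => hne ?_
      exact Subgroup.eq_of_le_of_card_ge hSH h.ge
    exact absurd (ih _ hcard S hS hno rfl) (by omega)
  let L : ι → Subgroup G := fun i => pgen p (H ⊓ K i)
  have hLH : ∀ i, L i ≤ H := fun i => (pgen_le p _).trans inf_le_left
  have hLne : ∀ i, L i ≠ H := fun i h => hK i (h ▸ (pgen_le p _).trans inf_le_right)
  have hsmall' : ∀ S : Subgroup G, pgen p S = S → S ≤ H → S ≠ H → ∃ i, S ≤ L i := by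
    intro S hS hSH hne
    obtain ⟨i, hi⟩ := hsmall S hS hSH hne
    exact ⟨i, hS ▸ pgen_mono p (le_inf hSH hi)⟩
  let T : Finset (Subgroup G) :=
    (Finset.univ.image L).filter fun S => ∀ i, S ≤ L i → S = L i
  have hTcard : T.card ≤ p := (Finset.card_filter_le _ _).trans (Finset.card_image_le.trans
    (by rw [Finset.card_univ]; omega))
  have habove : ∀ i, ∃ S ∈ T, L i ≤ S := by
    intro i
    obtain ⟨S, hiS, hS⟩ := Set.Finite.exists_le_maximal (Set.finite_range L) (Set.mem_range_self i)
    obtain ⟨j, rfl⟩ := hS.1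
    exact ⟨L j, Finset.mem_filter.mpr ⟨Finset.mem_image_of_mem L (Finset.mem_univ j),
      fun k hk => le_antisymm hk (hS.2 (Set.mem_range_self k) hk)⟩, hiS⟩
  have hTmem : ∀ S ∈ T, ∃ i, S = L i := fun S hS => by
    obtain ⟨i, -, hi⟩ := Finset.mem_image.mp (Finset.mem_filter.mp hS).1
    exact ⟨i, hi.symm⟩
  have hTH : ∀ S ∈ T, S ≤ H ∧ S ≠ H ∧ pgen p S = S := fun S hS => by
    obtain ⟨i, rfl⟩ := hTmem S hS
    exact ⟨hLH i, hLne i, pgen_idem p _⟩
  have hTmax : ∀ S ∈ T, ∀ R : Subgroup G, pgen p R = R → R ≤ H → R ≠ H → S ≤ R → S = R := by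
    intro S hS R hR hRH hRne hSR
    obtain ⟨i, hi⟩ := hsmall' R hR hRH hRne
    have h := (Finset.mem_filter.mp hS).2 i (hSR.trans hi)
    exact le_antisymm hSR (h ▸ hi)
  have hmem : ∀ x ∈ H, (∃ k : ℕ, orderOf x = p ^ k) → ∃ S ∈ T, x ∈ S := by
    intro x hx hk
    obtain ⟨i, hi⟩ := hcov x hk
    obtain ⟨S, hS, hiS⟩ := habove i
    exact ⟨S, hS, hiS (mem_pgen (S := H ⊓ K i) ⟨hx, hi⟩ hk)⟩
  -- conjugation by elements of `H` permutes `T`
  have hconj : ∀ x ∈ H, ∀ S ∈ T, S.map (MulAut.conj x).toMonoidHom ∈ T := by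
    intro x hx S hS
    obtain ⟨hSH, hSne, hSp⟩ := hTH S hS
    have hpg : ∀ (y : G) (R : Subgroup G), pgen p R = R →
        pgen p (R.map (MulAut.conj y).toMonoidHom) = R.map (MulAut.conj y).toMonoidHom := by
      intro y R hR
      refine le_antisymm (pgen_le p _) ?_
      conv_lhs => rw [← hR]
      rw [pgen, MonoidHom.map_closure]
      refine Subgroup.closure_mono ?_
      rintro _ ⟨g, ⟨hg, k, hk⟩, rfl⟩
      exact ⟨Subgroup.mem_map_of_mem _ hg, k,
        by rw [orderOf_injective (MulAut.conj y).toMonoidHom (MulAut.conj y).injective]; exact hk⟩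
    have hmapH : ∀ y ∈ H, H.map (MulAut.conj y).toMonoidHom = H := by
      intro y hy
      refine Subgroup.eq_of_le_of_card_ge ?_ (by
        rw [Subgroup.card_map_of_injective (MulAut.conj y).injective])
      rintro _ ⟨g, hg, rfl⟩
      exact H.mul_mem (H.mul_mem hy hg) (H.inv_mem hy)
    have h1 : S.map (MulAut.conj x).toMonoidHom ≤ H := by
      rw [← hmapH x hx]; exact Subgroup.map_mono hSH
    have h2 : S.map (MulAut.conj x).toMonoidHom ≠ H := by
      intro h
      rw [← hmapH x hx] at h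
      exact hSne (Subgroup.map_injective (MulAut.conj x).injective h)
    obtain ⟨i, hi⟩ := hsmall' _ (hpg x S hSp) h1 h2
    obtain ⟨R, hR, hiR⟩ := habove i
    obtain ⟨hRH, hRne, hRp⟩ := hTH R hR
    have h3 : S ≤ R.map (MulAut.conj x⁻¹).toMonoidHom := by
      intro g hg
      refine ⟨x * g * x⁻¹, hiR (hi (Subgroup.mem_map_of_mem _ hg)), ?_⟩
      simp [MulAut.conj_apply, mul_assoc]
    have h4 := hTmax S hS _ (hpg _ R hRp)
      (by rw [← hmapH x⁻¹ (H.inv_mem hx)]; exact Subgroup.map_mono hRH)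
      (by rw [← hmapH x⁻¹ (H.inv_mem hx)]
          exact fun h => hRne (Subgroup.map_injective (MulAut.conj x⁻¹).injective h)) h3
    convert hR using 1
    rw [h4, Subgroup.map_map]
    convert Subgroup.map_id R using 2
    ext g
    simp [MulAut.conj_apply, mul_assoc]
  -- every member of `T` is normal in `H`
  have hnorm : ∀ S ∈ T, H ≤ Subgroup.normalizer (S : Set G) := by
    intro S hS
    rw [← hH]
    refine (Subgroup.closure_le _).mpr ?_
    rintro x ⟨hx, k, hk⟩
    obtain ⟨R, hR, hxR⟩ := hmem x hx ⟨k, hk⟩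
    have hfixR : R.map (MulAut.conj x).toMonoidHom = R := by
      refine Subgroup.eq_of_le_of_card_ge ?_ (by
        rw [Subgroup.card_map_of_injective (MulAut.conj x).injective])
      rintro _ ⟨g, hg, rfl⟩
      exact R.mul_mem (R.mul_mem hxR hg) (R.inv_mem hxR)
    let f : {R // R ∈ T} → {R // R ∈ T} := fun R => ⟨_, hconj x hx R.1 R.2⟩
    have hfinj : Function.Injective f := fun a b h => Subtype.ext
      (Subgroup.map_injective (MulAut.conj x).injective (congrArg Subtype.val h))
    let e : Equiv.Perm {R // R ∈ T} := Equiv.ofBijective f (Finite.injective_iff_bijective.mp hfinj)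
    have hiter : ∀ (j : ℕ) (R : {R // R ∈ T}),
        ((e ^ j) R).1 = R.1.map (MulAut.conj (x ^ j)).toMonoidHom := by
      intro j
      induction j with
      | zero =>
        intro R
        simp only [pow_zero, map_one, Equiv.Perm.coe_one, id_eq]
        exact (Subgroup.map_id R.1).symm
      | succ j ihj =>
        intro R
        rw [pow_succ', Equiv.Perm.mul_apply]
        show (((e ^ j) R).1).map _ = _
        rw [ihj, Subgroup.map_map, pow_succ', map_mul]
        rfl
    have he : e ^ (p ^ k) = 1 := by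
      refine Equiv.ext fun R => Subtype.ext ?_
      rw [hiter, ← hk, pow_orderOf_eq_one, map_one]
      exact Subgroup.map_id _
    have h1 : e = 1 := by
      by_contra hne
      obtain ⟨j, -, hj⟩ := (Nat.dvd_prime_pow hp).mp (orderOf_dvd_of_pow_eq_one he)
      -- a nontrivial cycle of `p`-power length already has at least `p` points
      have hfix : (⟨R, hR⟩ : {R // R ∈ T}) ∉ e.support := by
        rw [Equiv.Perm.mem_support, not_not]
        exact Subtype.ext hfixR
      have hcyc : p ≤ e.support.card := by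
        obtain ⟨c, hc⟩ := Multiset.exists_mem_of_ne_zero
          (show e.cycleType ≠ 0 by simpa [Equiv.Perm.cycleType_eq_zero] using hne)
        have h2 := Equiv.Perm.two_le_of_mem_cycleType hc
        have hdvd : c ∣ p ^ j := by rw [← hj]; exact Equiv.Perm.dvd_of_mem_cycleType hc
        obtain ⟨i, -, rfl⟩ := (Nat.dvd_prime_pow hp).mp hdvd
        refine le_trans ?_ (Equiv.Perm.le_card_support_of_mem_cycleType hc)
        refine Nat.le_self_pow ?_ p
        rintro rfl
        simp at h2
      have : e.support.card < Fintype.card {R // R ∈ T} :=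
        Finset.card_lt_univ_of_notMem hfix
      rw [Fintype.card_coe] at this
      omega
    rw [SetLike.mem_coe, Subgroup.mem_normalizer_iff]
    have hS' : S.map (MulAut.conj x).toMonoidHom = S := by
      have h := congrArg (fun π : Equiv.Perm {R // R ∈ T} => (π ⟨S, hS⟩).1) h1
      exact h
    intro g
    constructor
    · intro hg
      rw [← hS']; exact Subgroup.mem_map_of_mem _ hg
    · intro hg
      rw [← hS'] at hg
      obtain ⟨g', hg', he'⟩ := hg
      exact (MulAut.conj x).injective he' ▸ hg'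
  -- every member of `T` has index `p` in `H`
  have hidx : ∀ S ∈ T, S.relIndex H = p ∧ (S.subgroupOf H).Normal := by
    intro S hS
    obtain ⟨hSH, hSne, hSp⟩ := hTH S hS
    have hN : (S.subgroupOf H).Normal :=
      (Subgroup.normal_subgroupOf_iff_le_normalizer hSH).mpr (hnorm S hS)
    refine ⟨?_, hN⟩
    obtain ⟨y, hy, hyk, hyS⟩ : ∃ y ∈ H, (∃ k : ℕ, orderOf y = p ^ k) ∧ y ∉ S := by
      by_contra hno
      push Not at hno
      refine hSne (le_antisymm hSH ?_)
      rw [← hH]
      exact (Subgroup.closure_le _).mpr fun g hg => hno g hg.1 hg.2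
    have hgen : ∀ z ∈ H, (∃ k : ℕ, orderOf z = p ^ k) → z ∉ S → S ⊔ Subgroup.zpowers z = H := by
      intro z hz hzk hzS
      have hle : S ⊔ Subgroup.zpowers z ≤ H := sup_le hSH (Subgroup.zpowers_le.mpr hz)
      by_contra hne
      have hp' : pgen p (S ⊔ Subgroup.zpowers z) = S ⊔ Subgroup.zpowers z := by
        refine le_antisymm (pgen_le p _) (sup_le ?_ (Subgroup.zpowers_le.mpr
          (mem_pgen (Subgroup.mem_sup_right (Subgroup.mem_zpowers z)) hzk)))
        calc S = pgen p S := hSp.symm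
          _ ≤ _ := pgen_mono p le_sup_left
      exact hzS ((hTmax S hS _ hp' hle hne le_sup_left).symm ▸
        Subgroup.mem_sup_right (Subgroup.mem_zpowers z))
    have := hN
    set Q := (↥H) ⧸ (S.subgroupOf H)
    let q : ↥H →* Q := QuotientGroup.mk' _
    have hcyc : ∀ z : ↥H, (∃ k : ℕ, orderOf (z : G) = p ^ k) → q z ≠ 1 →
        Subgroup.zpowers (q z) = ⊤ := by
      intro z hzk hz1
      have hzS : (z : G) ∉ S := fun h => hz1 ((QuotientGroup.eq_one_iff z).mpr h)
      have h := hgen z z.2 hzk hzS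
      refine eq_top_iff.mpr fun w _ => ?_
      obtain ⟨w, rfl⟩ := QuotientGroup.mk'_surjective _ w
      have hw : (w : G) ∈ S ⊔ Subgroup.zpowers (z : G) := h.symm ▸ w.2
      have : S ⊔ Subgroup.zpowers (z : G) ≤ ((Subgroup.zpowers (q z)).comap q).map H.subtype := by
        refine sup_le (fun s hs => ⟨⟨s, hSH hs⟩, ?_, rfl⟩)
          (Subgroup.zpowers_le.mpr ⟨z, Subgroup.mem_zpowers (q z), rfl⟩)
        show q ⟨s, hSH hs⟩ ∈ Subgroup.zpowers (q z)
        rw [show q ⟨s, hSH hs⟩ = 1 from (QuotientGroup.eq_one_iff _).mpr hs]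
        exact Subgroup.one_mem _
      obtain ⟨w', hw', hww⟩ := this hw
      rw [show w = w' from (Subtype.ext hww).symm]
      exact hw'
    let y' : ↥H := ⟨y, hy⟩
    have hy1 : q y' ≠ 1 := fun h => hyS ((QuotientGroup.eq_one_iff y').mp h)
    obtain ⟨k, hk⟩ := hyk
    have hord : orderOf (q y') ∣ p ^ k := hk ▸ (by
      show orderOf (q y') ∣ orderOf (y' : G); rw [Subgroup.orderOf_coe y']; exact orderOf_map_dvd q y')
    obtain ⟨j, hjk, hj⟩ := (Nat.dvd_prime_pow hp).mp hord
    have hcard : Nat.card Q = p ^ j := by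
      rw [← hj, ← Nat.card_zpowers, hcyc y' ⟨k, hk⟩ hy1, Subgroup.card_top]
    have hj1 : j = 1 := by
      have hj0 : j ≠ 0 := fun h => hy1 (orderOf_eq_one_iff.mp (by rw [hj, h, pow_zero]))
      by_contra hj1
      have hne : q (y' ^ p) ≠ 1 := by
        rw [map_pow]
        intro h
        have h' := orderOf_dvd_of_pow_eq_one h
        rw [hj] at h'
        have h'' := Nat.le_of_dvd hp.pos h'
        have : p ^ 1 < p ^ j := Nat.pow_lt_pow_right hp.one_lt (by omega)
        rw [pow_one] at this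
        omega
      have hzk : ∃ i : ℕ, orderOf ((y' ^ p : ↥H) : G) = p ^ i := by
        have : orderOf ((y' ^ p : ↥H) : G) ∣ p ^ k := by
          rw [← hk]
          exact orderOf_pow_dvd p
        obtain ⟨i, -, hi⟩ := (Nat.dvd_prime_pow hp).mp this
        exact ⟨i, hi⟩
      have h1 : orderOf (q (y' ^ p)) = p ^ j := by
        rw [← hcard, ← Nat.card_zpowers, hcyc _ hzk hne, Subgroup.card_top]
      rw [map_pow, orderOf_pow, hj] at h1
      rw [Nat.gcd_eq_right (dvd_pow_self p hj0)] at h1
      have : p ^ j / p < p ^ j := Nat.div_lt_self (pow_pos hp.pos _) hp.one_lt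
      omega
    show (S.subgroupOf H).index = p
    rw [Subgroup.index_eq_card, show Nat.card Q = p ^ j from hcard, hj1, pow_one]
  -- `H` is the union of the members of `T`
  have hunion : ∀ h : ↥H, ∃ S ∈ T, h ∈ S.subgroupOf H := by
    intro h
    obtain ⟨k, c, hc, hkc⟩ := Nat.exists_eq_pow_mul_and_not_dvd (orderOf_pos (h : G)).ne' p hp.ne_one
    have hord : ∃ i : ℕ, orderOf ((h : G) ^ c) = p ^ i := by
      have : orderOf ((h : G) ^ c) ∣ p ^ k := by
        refine orderOf_dvd_of_pow_eq_one ?_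
        rw [← pow_mul, mul_comm, ← hkc, pow_orderOf_eq_one]
      obtain ⟨i, -, hi⟩ := (Nat.dvd_prime_pow hp).mp this
      exact ⟨i, hi⟩
    obtain ⟨S, hS, hmemS⟩ := hmem _ (H.pow_mem h.2 c) hord
    refine ⟨S, hS, ?_⟩
    obtain ⟨hp', hN⟩ := hidx S hS
    have hq1 : (QuotientGroup.mk' (S.subgroupOf H) h) ^ c = 1 := by
      rw [← map_pow]; exact (QuotientGroup.eq_one_iff _).mpr hmemS
    have hqp : (QuotientGroup.mk' (S.subgroupOf H) h) ^ p = 1 := by
      have hc' : Nat.card ((↥H) ⧸ S.subgroupOf H) = p := by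
        rw [← Subgroup.index_eq_card]; exact hp'
      conv_lhs => rw [← hc']
      exact pow_card_eq_one'
    have hg : Nat.gcd c p = 1 := Nat.Coprime.symm (hp.coprime_iff_not_dvd.mpr hc)
    have h1 : (QuotientGroup.mk' (S.subgroupOf H) h) ^ Nat.gcd c p = 1 := pow_gcd_eq_one.mpr ⟨hq1, hqp⟩
    rw [hg, pow_one] at h1
    exact (QuotientGroup.eq_one_iff h).mp h1
  have := Fintype.ofFinite ↥H
  let F : {R // R ∈ T} → Finset ↥H := fun R => (Finset.univ.filter (· ∈ R.1.subgroupOf H)).erase 1
  have hsub : (Finset.univ : Finset ↥H).erase 1 ⊆ T.attach.biUnion F := by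
    intro h hh
    obtain ⟨S, hS, hhS⟩ := hunion h
    exact Finset.mem_biUnion.mpr ⟨⟨S, hS⟩, Finset.mem_attach _ _,
      Finset.mem_erase.mpr ⟨(Finset.mem_erase.mp hh).1, Finset.mem_filter.mpr ⟨Finset.mem_univ _, hhS⟩⟩⟩
  have hFc : ∀ R : {R // R ∈ T}, p * ((F R).card + 1) = Fintype.card ↥H := by
    intro R
    have h1 : (F R).card + 1 = Nat.card (R.1.subgroupOf H) := by
      rw [Finset.card_erase_add_one (Finset.mem_filter.mpr ⟨Finset.mem_univ _, Subgroup.one_mem _⟩),
        Nat.card_eq_fintype_card, Fintype.card_subtype]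
    rw [h1, ← (hidx R.1 R.2).1, mul_comm, ← Nat.card_eq_fintype_card]
    exact Subgroup.card_mul_index _
  have hle := (Finset.card_le_card hsub).trans Finset.card_biUnion_le
  rw [Finset.card_erase_of_mem (Finset.mem_univ _), Finset.card_univ] at hle
  obtain ⟨S, hS, -⟩ := hunion 1
  have hS' := hFc ⟨S, hS⟩
  have heq : ∀ R ∈ T.attach, (F R).card = (F ⟨S, hS⟩).card := fun R _ =>
    Nat.add_right_cancel (Nat.eq_of_mul_eq_mul_left hp.pos ((hFc R).trans hS'.symm))
  rw [Finset.sum_congr rfl heq, Finset.sum_const, Finset.card_attach, smul_eq_mul] at hle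
  generalize (F ⟨S, hS⟩).card = f at hle hS'
  have h2 : T.card * f ≤ p * f := Nat.mul_le_mul_right _ hTcard
  rw [Nat.mul_add, mul_one] at hS'
  have := hp.two_le
  omega

/-- Let p be a prime and G a finite group generated by its p-elements. If a finite family of proper subgroups of G covers the set of p-elements of G (every element of p-power order lies in one of them), then the family has at least p + 1 members. -/
theorem result {G : Type*} [Group G] [Finite G] (p : ℕ) [Fact p.Prime] (hgen : Subgroup.closure {g : G | ∃ k : ℕ, orderOf g = p ^ k} = ⊤)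
    {ι : Type*} [Fintype ι] (K : ι → Subgroup G) (hK : ∀ i, K i ≠ ⊤)
    (hcov : ∀ g : G, (∃ k : ℕ, orderOf g = p ^ k) → ∃ i, g ∈ K i) :
    p + 1 ≤ Fintype.card ι := by
  refine main p Fact.out K hcov ⊤ ?_ fun i h => hK i (top_le_iff.mp h)
  refine top_le_iff.mp ?_
  conv_lhs => rw [← hgen]
  exact (Subgroup.closure_le _).mpr fun g hg => mem_pgen (Subgroup.mem_top g) hg

end Cfsg.Agent.S4182
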