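import Cfsg.Statements.S4184
import Mathlib

set_option autoImplicit false
open Cfsg

namespace Cfsg.Agent.S4184

/-- a group is not the union of the conjugates of a proper subgroup -/
lemma eq_top_of_conj {G : Type*} [Group G] [Finite G] (H : Subgroup G)
    (h : ∀ x : G, ∃ c : G, c⁻¹ * x * c ∈ H) : H = ⊤ := by
  classical
  let f : (G ⧸ H) × {y : H // y ≠ 1} → {x : G // x ≠ 1} := fun a =>
    ⟨a.1.out * (a.2.1 : G) * a.1.out⁻¹, fun h1 => a.2.2 (Subtype.ext (conj_eq_one_iff.1 h1))⟩
  have hf : Function.Surjective f := by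
    rintro ⟨x, hx⟩
    obtain ⟨c, hc⟩ := h x
    obtain ⟨h', hh'⟩ := QuotientGroup.mk_out_eq_mul H c
    have hmem : (h' : G)⁻¹ * (c⁻¹ * x * c) * h' ∈ H := mul_mem (mul_mem (inv_mem h'.2) hc) h'.2
    refine ⟨((c : G ⧸ H), ⟨⟨_, hmem⟩, fun h1 => hx ?_⟩), Subtype.ext ?_⟩
    · have := congrArg Subtype.val h1
      simp only [Subgroup.coe_one] at this
      have h2 : c⁻¹ * x * c = 1 := by
        have h3 := congrArg (fun u => (h' : G) * u * (h' : G)⁻¹) this
        simpa [mul_assoc] using h3
      have h4 := congrArg (fun u => c * u * c⁻¹) h2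
      simpa [mul_assoc] using h4
    · show (c : G ⧸ H).out * ((h' : G)⁻¹ * (c⁻¹ * x * c) * h') * (c : G ⧸ H).out⁻¹ = x
      rw [hh']
      group
  have hle := Nat.card_le_card_of_surjective f hf
  rw [Nat.card_prod, ← Subgroup.index_eq_card] at hle
  cases nonempty_fintype G
  have e1 : Nat.card {x : G // x ≠ 1} = Nat.card G - 1 := by
    rw [Nat.card_eq_fintype_card, Fintype.card_subtype_compl, Fintype.card_subtype_eq, Nat.card_eq_fintype_card]
  have e2 : Nat.card {y : H // y ≠ 1} = Nat.card H - 1 := by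
    rw [Nat.card_eq_fintype_card, Fintype.card_subtype_compl, Fintype.card_subtype_eq, Nat.card_eq_fintype_card]
  rw [e1, e2] at hle
  refine Subgroup.index_eq_one.1 ?_
  have hm := H.card_mul_index
  have hH : 1 ≤ Nat.card H := Nat.card_pos
  have hi : 1 ≤ H.index := Nat.pos_of_ne_zero Subgroup.index_ne_zero_of_finite
  rw [Nat.mul_sub, mul_one, mul_comm H.index, hm] at hle
  have hG : 1 ≤ Nat.card G := Nat.card_pos
  have : H.index ≤ Nat.card G := Nat.le_of_dvd hG H.index_dvd_card
  omega

noncomputable abbrev idx {G : Type*} [Group G] (x : G) : ℕ := (Subgroup.centralizer ({x} : Set G)).index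

lemma mem_cent_comm {G : Type*} [Group G] {x y : G} (h : y ∈ Subgroup.centralizer ({x} : Set G)) :
    x ∈ Subgroup.centralizer ({y} : Set G) := by
  rw [Subgroup.mem_centralizer_singleton_iff] at h ⊢
  exact h.symm

/-- a coprime commuting product has centralizer inside both centralizers -/
lemma idx_dvd {G : Type*} [Group G] [Finite G] {x y : G} (hc : Commute x y) (hco : (orderOf x).Coprime (orderOf y)) :
    idx x ∣ idx (x * y) ∧ idx y ∣ idx (x * y) := by
  have key : ∀ {x y : G}, Commute x y → (orderOf x).Coprime (orderOf y) →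
      Subgroup.centralizer ({x * y} : Set G) ≤ Subgroup.centralizer ({x} : Set G) := by
    intro x y hc hco g hg
    rw [Subgroup.mem_centralizer_singleton_iff] at hg ⊢
    obtain ⟨m, hm⟩ := exists_pow_eq_self_of_coprime hco.symm
    have h2 : ((x * y) ^ orderOf y) ^ m = x := by
      rw [hc.mul_pow, pow_orderOf_eq_one, mul_one, hm]
    rw [← h2]
    exact ((Commute.pow_right (Commute.pow_right (show Commute g (x * y) from hg) _) _)).eq
  refine ⟨Subgroup.index_dvd_of_le (key hc hco), ?_⟩
  have h := key hc.symm hco.symm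
  rw [← hc.eq] at h
  exact Subgroup.index_dvd_of_le h

/-- in a group with disconnected prime graph every class size is full on one of the two sides -/
lemma dicho {M : Type*} [Group M] [Finite M] (hZ : Subgroup.center M = ⊥) (A : Set ℕ)
    (hA : ∀ a ∈ A, ∀ b ∉ A, a.Prime → b.Prime → a ∣ Nat.card M → b ∣ Nat.card M → ¬ ∃ x : M, orderOf x = a * b)
    (g : M) (hg : g ≠ 1) :
    (∀ a : ℕ, a.Prime → a ∈ A → (idx g).factorization a = (Nat.card M).factorization a) ∨
    (∀ b : ℕ, b.Prime → b ∉ A → (idx g).factorization b = (Nat.card M).factorization b) := by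
  have hno : ∀ a b : ℕ, a.Prime → b.Prime → a ∈ A → b ∉ A → ∀ x y : M, orderOf x = a → orderOf y = b → ¬ Commute x y := by
    intro a b ha hb haA hbA x y hx hy hc
    refine hA a haA b hbA ha hb (hx ▸ orderOf_dvd_natCard x) (hy ▸ orderOf_dvd_natCard y) ⟨x * y, ?_⟩
    rw [hc.orderOf_mul_eq_mul_orderOf_of_coprime (by
      rw [hx, hy]; exact (Nat.coprime_primes ha hb).2 fun h => hbA (h ▸ haA)), hx, hy]
  obtain ⟨r, hr, hrg⟩ := Nat.exists_prime_and_dvd (mt orderOf_eq_one_iff.1 hg)
  have hgpow : orderOf (g ^ (orderOf g / r)) = r := orderOf_pow_orderOf_div (orderOf_pos g).ne' hrg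
  have full : ∀ q : ℕ, q.Prime → ¬ q ∣ Nat.card (Subgroup.centralizer ({g} : Set M)) →
      (idx g).factorization q = (Nat.card M).factorization q := by
    intro q hq hnd
    rw [← (Subgroup.centralizer ({g} : Set M)).card_mul_index,
      Nat.factorization_mul Nat.card_pos.ne' Subgroup.index_ne_zero_of_finite, Finsupp.add_apply,
      Nat.factorization_eq_zero_of_not_dvd hnd, zero_add]
  have hex : ∀ q : ℕ, q.Prime → q ∣ Nat.card (Subgroup.centralizer ({g} : Set M)) →
      ∃ y : M, orderOf y = q ∧ Commute y (g ^ (orderOf g / r)) := by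
    intro q hq hqd
    haveI := Fact.mk hq
    obtain ⟨y, hy⟩ := exists_prime_orderOf_dvd_card' q hqd
    exact ⟨y, by rw [Subgroup.orderOf_coe, hy], Commute.pow_right (Subgroup.mem_centralizer_singleton_iff.1 y.2) _⟩
  by_cases hrA : r ∈ A
  · refine Or.inr fun b hb hbA => full b hb fun hd => ?_
    obtain ⟨y, hy, hc⟩ := hex b hb hd
    exact hno r b hr hb hrA hbA _ _ hgpow hy hc.symm
  · refine Or.inl fun a ha haA => full a ha fun hd => ?_
    obtain ⟨y, hy, hc⟩ := hex a ha hd
    exact hno a r ha hr haA hrA _ _ hy hgpow hc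

lemma dvd_card_side {G : Type*} [Group G] [Finite G] {x : G} {n : ℕ} {a : ℕ} (ha : a.Prime)
    (h : (idx x).factorization a = n) : a ^ n ∣ Nat.card G :=
  (h ▸ Nat.ordProj_dvd (idx x) a).trans (Subgroup.centralizer ({x} : Set G)).index_dvd_card

/-- no prime can exceed its multiplicity in `|M|` -/
lemma no_excess {G : Type*} [Group G] [Finite G] (hZ : Subgroup.center G = ⊥) (m : ℕ) (hm : m ≠ 0) (A : Set ℕ)
    (hdvd : ∀ x : G, idx x ∣ m) (hne : ∀ x : G, idx x ≠ m)
    (hdich : ∀ x : G, x ≠ 1 → (∀ a : ℕ, a.Prime → a ∈ A → (idx x).factorization a = m.factorization a) ∨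
      (∀ b : ℕ, b.Prime → b ∉ A → (idx x).factorization b = m.factorization b))
    (hmG : m ∣ Nat.card G) (b : ℕ) (hb : b.Prime) (hbA : b ∉ A) (hbm : b ∣ m)
    (r : ℕ) (hr : r.Prime) (hrA : r ∈ A) : (Nat.card G).factorization r ≤ m.factorization r := by
  classical
  by_contra hlt
  push Not at hlt
  haveI := Fact.mk hr
  haveI := Fact.mk hb
  have hbr : b ≠ r := fun h => hbA (h ▸ hrA)
  have hG0 : Nat.card G ≠ 0 := Nat.card_pos.ne'
  have hle : ∀ (x : G) (q : ℕ), (idx x).factorization q ≤ m.factorization q := fun x q =>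
    (Nat.factorization_le_iff_dvd Subgroup.index_ne_zero_of_finite hm).2 (hdvd x) q
  have hcardC : ∀ (x : G) (q : ℕ), (Nat.card (Subgroup.centralizer ({x} : Set G))).factorization q + (idx x).factorization q = (Nat.card G).factorization q := by
    intro x q
    rw [← (Subgroup.centralizer ({x} : Set G)).card_mul_index,
      Nat.factorization_mul Nat.card_pos.ne' Subgroup.index_ne_zero_of_finite, Finsupp.add_apply]
  have hfree : ∀ {x : G} {q : ℕ} [Fact q.Prime] (T : Sylow q G), (T : Subgroup G) ≤ Subgroup.centralizer ({x} : Set G) →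
      (idx x).factorization q = 0 := by
    intro x q _ T hT
    have h1 := (Nat.factorization_le_iff_dvd (Nat.card_pos.ne') (Nat.card_pos.ne')).2 (Subgroup.card_dvd_of_le hT) q
    rw [T.card_eq_multiplicity, (Fact.out : q.Prime).factorization_pow, Finsupp.single_eq_same] at h1
    have := hcardC x q
    omega
  -- every element centralizes a nontrivial `r`-element
  have hsyl : ∀ (q : ℕ) [Fact q.Prime] (x : G), ∃ T S : Subgroup G, T ≤ Subgroup.centralizer ({x} : Set G) ∧
      Nat.card T = q ^ (Nat.card (Subgroup.centralizer ({x} : Set G))).factorization q ∧ T ≤ S ∧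
      ∃ S' : Sylow q G, (S' : Subgroup G) = S := by
    intro q _ x
    obtain ⟨T⟩ := (inferInstance : Nonempty (Sylow q (Subgroup.centralizer ({x} : Set G))))
    obtain ⟨S, hS⟩ := (T.isPGroup'.map (Subgroup.centralizer ({x} : Set G)).subtype).exists_le_sylow
    refine ⟨_, _, Subgroup.map_subtype_le _, ?_, hS, S, rfl⟩
    rw [Nat.card_congr (Subgroup.equivMapOfInjective _ _ (Subgroup.subtype_injective _)).toEquiv.symm, T.card_eq_multiplicity]
  -- the centre of a Sylow subgroup
  have hcen : ∀ (q : ℕ) [Fact q.Prime] (S : Sylow q G), q ∣ Nat.card G →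
      ∃ z : G, z ≠ 1 ∧ z ∈ (S : Subgroup G) ∧ (S : Subgroup G) ≤ Subgroup.centralizer ({z} : Set G) ∧ ∃ k, orderOf z = q ^ k := by
    intro q _ S hqG
    haveI : Nontrivial (S : Subgroup G) := (Subgroup.nontrivial_iff_ne_bot _).2 (S.ne_bot_of_dvd_card hqG)
    haveI := S.isPGroup'.center_nontrivial
    obtain ⟨z, hz⟩ := exists_ne (1 : Subgroup.center (S : Subgroup G))
    refine ⟨((z : (S : Subgroup G)) : G), fun h => hz (Subtype.ext (Subtype.ext h)), (z : (S : Subgroup G)).2, ?_, ?_⟩
    · intro s hs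
      rw [Subgroup.mem_centralizer_singleton_iff]
      exact congrArg Subtype.val (Subgroup.mem_center_iff.1 z.2 ⟨s, hs⟩)
    · obtain ⟨k, hk⟩ := IsPGroup.iff_orderOf.1 S.isPGroup' (z : (S : Subgroup G))
      exact ⟨k, by rw [Subgroup.orderOf_coe, hk]⟩
  have hcent : ∀ (q : ℕ) [Fact q.Prime] (T : Subgroup G), IsPGroup q T → 1 < Nat.card T →
      ∃ t : G, t ≠ 1 ∧ t ∈ T ∧ T ≤ Subgroup.centralizer ({t} : Set G) := by
    intro q _ T hT h1
    haveI : Nontrivial T := Finite.one_lt_card_iff_nontrivial.1 h1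
    haveI := hT.center_nontrivial
    obtain ⟨z, hz⟩ := exists_ne (1 : Subgroup.center T)
    refine ⟨((z : T) : G), fun h => hz (Subtype.ext (Subtype.ext h)), (z : T).2, fun s hs => ?_⟩
    rw [Subgroup.mem_centralizer_singleton_iff]
    exact congrArg Subtype.val (Subgroup.mem_center_iff.1 z.2 ⟨s, hs⟩)
  have habsorb : ∀ (q : ℕ) [Fact q.Prime] (S : Sylow q G) (T : Subgroup G), T ≤ (S : Subgroup G) → ∀ {t z : G},
      T ≤ Subgroup.centralizer ({t} : Set G) → z ∈ Subgroup.centralizer ({t} : Set G) → z ∈ (S : Subgroup G) →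
      q ^ (Nat.card (Subgroup.centralizer ({t} : Set G))).factorization q ≤ Nat.card T → z ∈ T := by
    intro q _ S T hTS t z hTC hzC hzS hge
    obtain ⟨i, hi⟩ := IsPGroup.iff_card.1 (S.isPGroup'.to_le (sup_le hTS (Subgroup.zpowers_le.2 hzS)))
    have hd : Nat.card ↥(T ⊔ Subgroup.zpowers z) ∣ Nat.card (Subgroup.centralizer ({t} : Set G)) :=
      Subgroup.card_dvd_of_le (sup_le hTC (Subgroup.zpowers_le.2 hzC))
    rw [hi] at hd
    have hle' := ((Fact.out : q.Prime).pow_dvd_iff_le_factorization Nat.card_pos.ne').1 hd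
    have heq : T = T ⊔ Subgroup.zpowers z := Subgroup.eq_of_le_of_card_ge le_sup_left (by
      rw [hi]; exact (Nat.pow_le_pow_right (Fact.out : q.Prime).pos hle').trans hge)
    rw [heq]
    exact Subgroup.mem_sup_right (Subgroup.mem_zpowers z)
  have hrG : r ∣ Nat.card G := Nat.dvd_of_factorization_pos (by omega)
  have hbG : b ∣ Nat.card G := hbm.trans hmG
  -- `r` divides `m`
  have hrm : 0 < m.factorization r := by
    by_contra h0
    obtain ⟨R⟩ := (inferInstance : Nonempty (Sylow r G))
    obtain ⟨z, hz1, hzR, hzC, -⟩ := hcen r R hrG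
    refine hz1 (Subgroup.mem_bot.1 (hZ ▸ ?_))
    have htop : Subgroup.centralizer ((R : Subgroup G) : Set G) = ⊤ := by
      refine eq_top_of_conj _ fun x => ?_
      obtain ⟨T, S, hTx, hTc, hTS, S', rfl⟩ := hsyl r x
      have hTS' : T = (S' : Subgroup G) := by
        refine Subgroup.eq_of_le_of_card_ge hTS ?_
        rw [hTc, S'.card_eq_multiplicity]
        refine Nat.pow_le_pow_right hr.pos ?_
        have := hcardC x r; have := hle x r; omega
      obtain ⟨c, hc⟩ := MulAction.exists_smul_eq G R S'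
      refine ⟨c, Subgroup.mem_centralizer_iff.2 fun s hs => ?_⟩
      have : c * s * c⁻¹ ∈ T := by
        rw [hTS', ← hc, Sylow.coe_subgroup_smul]
        exact ⟨s, hs, rfl⟩
      have h2 := Subgroup.mem_centralizer_singleton_iff.1 (hTx this)
      calc s * (c⁻¹ * x * c) = c⁻¹ * ((c * s * c⁻¹) * x) * c := by group
        _ = c⁻¹ * (x * (c * s * c⁻¹)) * c := by rw [h2]
        _ = _ := by group
    rw [Subgroup.mem_center_iff]
    intro g
    exact (Subgroup.mem_centralizer_iff.1 (htop ▸ Subgroup.mem_top g) z hzR).symm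
  have hbm' : 0 < m.factorization b := Nat.Prime.factorization_pos_of_dvd hb hm hbm
  obtain ⟨R⟩ := (inferInstance : Nonempty (Sylow r G))
  obtain ⟨z, hz1, hzR, hzC, zk, hzk⟩ := hcen r R hrG
  have hzr : (idx z).factorization r = 0 := hfree R hzC
  have hzB : ∀ q : ℕ, q.Prime → q ∉ A → (idx z).factorization q = m.factorization q := by
    refine (hdich z hz1).resolve_left fun h => ?_
    have := h r hr hrA
    omega
  -- a commuting pair of opposite types gives a class of size `m`
  have hpair : ∀ u w : G, Commute u w → (orderOf u).Coprime (orderOf w) →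
      (∀ q : ℕ, q.Prime → q ∉ A → (idx u).factorization q = m.factorization q) →
      (∀ q : ℕ, q.Prime → q ∈ A → (idx w).factorization q = m.factorization q) → False := by
    intro u w huw hco hu hw
    refine hne (u * w) (Nat.eq_of_factorization_eq Subgroup.index_ne_zero_of_finite hm fun q => ?_)
    refine le_antisymm (hle _ q) ?_
    by_cases hq : q.Prime
    · obtain ⟨d1, d2⟩ := idx_dvd huw hco
      by_cases hqA : q ∈ A
      · rw [← hw q hq hqA]
        exact (Nat.factorization_le_iff_dvd Subgroup.index_ne_zero_of_finite Subgroup.index_ne_zero_of_finite).2 d2 q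
      · rw [← hu q hq hqA]
        exact (Nat.factorization_le_iff_dvd Subgroup.index_ne_zero_of_finite Subgroup.index_ne_zero_of_finite).2 d1 q
    · rw [Nat.factorization_eq_zero_of_not_prime _ hq]; exact Nat.zero_le _
  have hordb : ∀ {x : G} {k : ℕ}, orderOf x = b ^ k → (orderOf z).Coprime (orderOf x) := fun h => by
    rw [hzk, h]; exact ((Nat.coprime_primes hr hb).2 hbr.symm).pow _ _
  have hzcard := hcardC z b
  have hzbm := hzB b hb hbA
  by_cases hk : (Nat.card (Subgroup.centralizer ({z} : Set G))).factorization b = 0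
  · -- `b` is exact; take a central `b`-element
    obtain ⟨S⟩ := (inferInstance : Nonempty (Sylow b G))
    obtain ⟨x, hx1, hxS, hxC, xk, hxk⟩ := hcen b S hbG
    have hxb : (idx x).factorization b = 0 := hfree S hxC
    have hxA : ∀ q : ℕ, q.Prime → q ∈ A → (idx x).factorization q = m.factorization q := by
      refine (hdich x hx1).resolve_right fun h => ?_
      have := h b hb hbA
      omega
    obtain ⟨T, R1, hTx, hTc, hTR, R', rfl⟩ := hsyl r x
    have hxr := hcardC x r
    have hxr' := hxA r hr hrA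
    obtain ⟨z', hz'1, hz'R, hz'C, -⟩ := hcen r R' hrG
    obtain ⟨t, ht1, htT, htC⟩ := hcent r T (R'.isPGroup'.to_le hTR) (by
      rw [hTc]; exact Nat.one_lt_pow (by omega) hr.one_lt)
    have htr : (idx t).factorization b < m.factorization b := by
      have hxt : x ∈ Subgroup.centralizer ({t} : Set G) := mem_cent_comm (hTx htT)
      have hd : b ∣ Nat.card (Subgroup.centralizer ({t} : Set G)) := by
        refine dvd_trans ?_ (Subgroup.orderOf_mk x hxt ▸ orderOf_dvd_natCard (⟨x, hxt⟩ : Subgroup.centralizer ({t} : Set G)))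
        rw [hxk]
        exact dvd_pow_self b fun h0 => hx1 (orderOf_eq_one_iff.1 (by rw [hxk, h0, pow_zero]))
      have := Nat.Prime.factorization_pos_of_dvd hb Nat.card_pos.ne' hd
      have := hcardC t b
      omega
    have htA : ∀ q : ℕ, q.Prime → q ∈ A → (idx t).factorization q = m.factorization q := by
      refine (hdich t ht1).resolve_right fun h => ?_
      have := h b hb hbA
      omega
    have htr' := htA r hr hrA
    have htr2 := hcardC t r
    have hz'T : z' ∈ T := habsorb r R' T hTR htC (mem_cent_comm (hz'C (hTR htT))) hz'R (by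
      rw [hTc]; refine Nat.pow_le_pow_right hr.pos ?_; omega)
    -- z' centralizes x
    have hz'x : x ∈ Subgroup.centralizer ({z'} : Set G) := mem_cent_comm (hTx hz'T)
    have hz'r : (idx z').factorization r = 0 := hfree R' hz'C
    have hd : b ∣ Nat.card (Subgroup.centralizer ({z'} : Set G)) := by
      refine dvd_trans ?_ (Subgroup.orderOf_mk x hz'x ▸ orderOf_dvd_natCard (⟨x, hz'x⟩ : Subgroup.centralizer ({z'} : Set G)))
      rw [hxk]
      exact dvd_pow_self b fun h0 => hx1 (orderOf_eq_one_iff.1 (by rw [hxk, h0, pow_zero]))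
    have := Nat.Prime.factorization_pos_of_dvd hb Nat.card_pos.ne' hd
    have := hcardC z' b
    rcases hdich z' hz'1 with h | h
    · have := h r hr hrA; omega
    · have := h b hb hbA; omega
  · obtain ⟨T, S1, hTz, hTc, hTS, S, rfl⟩ := hsyl b z
    obtain ⟨x, hx1, hxT, hxC⟩ := hcent b T (S.isPGroup'.to_le hTS) (by
      rw [hTc]; exact Nat.one_lt_pow hk hb.one_lt)
    have hzx : Commute z x := (Subgroup.mem_centralizer_singleton_iff.1 (hTz hxT)).symm
    obtain ⟨i, hi⟩ := IsPGroup.iff_orderOf.1 (S.isPGroup'.to_le hTS) ⟨x, hxT⟩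
    rw [Subgroup.orderOf_mk] at hi
    rcases hdich x hx1 with hxA | hxB
    · exact hpair z x hzx (hordb hi) hzB hxA
    obtain ⟨zb, hzb1, hzbS, hzbC, j, hzbo⟩ := hcen b S hbG
    have hxcard := hcardC x b
    have hxbm := hxB b hb hbA
    have hzbT : zb ∈ T := habsorb b S T hTS hxC (mem_cent_comm (hzbC (hTS hxT))) hzbS (by
      rw [hTc]; refine Nat.pow_le_pow_right hb.pos ?_; omega)
    have hzbA : ∀ q : ℕ, q.Prime → q ∈ A → (idx zb).factorization q = m.factorization q := by
      refine (hdich zb hzb1).resolve_right fun h => ?_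
      have := h b hb hbA
      have := hfree S hzbC
      omega
    exact hpair z zb ((Subgroup.mem_centralizer_singleton_iff.1 (hTz hzbT)).symm) (hordb hzbo) hzB hzbA

/-- Let G and M be finite groups with trivial centres and the same set of conjugacy class sizes, and suppose the prime graph of M is disconnected: the prime divisors of #M split into two non-empty parts such that M has no element of order pq with p in one part and q in the other. Then #G = #M. -/
theorem result {G M : Type*}
    [Group G] [Finite G] [Group M] [Finite M] (hZG : Subgroup.center G = ⊥) (hZM : Subgroup.center M = ⊥)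
    (h : Set.range (fun g : G => (Subgroup.centralizer ({g} : Set G)).index) = Set.range (fun g : M => (Subgroup.centralizer ({g} : Set M)).index))
    (hdisc : ∃ A : Set ℕ, (∃ a ∈ A, a.Prime ∧ a ∣ Nat.card M) ∧ (∃ b ∉ A, b.Prime ∧ b ∣ Nat.card M) ∧
      ∀ a ∈ A, ∀ b ∉ A, a.Prime → b.Prime → a ∣ Nat.card M → b ∣ Nat.card M → ¬ ∃ x : M, orderOf x = a * b) :
    Nat.card G = Nat.card M := by
  classical
  obtain ⟨A, ⟨a₀, ha₀, ha₀p, ha₀d⟩, ⟨b₀, hb₀, hb₀p, hb₀d⟩, hAB⟩ := hdisc
  have hM0 : Nat.card M ≠ 0 := Nat.card_pos.ne'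
  have hM1 : ∀ g : M, idx g ≠ Nat.card M := by
    intro g hg
    have h1 := (Subgroup.centralizer ({g} : Set M)).card_mul_index
    rw [show (Subgroup.centralizer ({g} : Set M)).index = Nat.card M from hg] at h1
    have h2 : Subgroup.centralizer ({g} : Set M) = ⊥ := Subgroup.card_eq_one.1 ((mul_eq_right₀ hM0).1 h1)
    have h3 : g = 1 := Subgroup.mem_bot.1 (h2 ▸ Subgroup.mem_centralizer_singleton_iff.2 rfl)
    subst h3
    have : idx (1 : M) = 1 := Subgroup.index_eq_one.2 (eq_top_iff.2 fun x _ => Subgroup.mem_centralizer_singleton_iff.2 (by simp))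
    rw [this] at hg
    exact ha₀p.ne_one (Nat.dvd_one.1 (hg ▸ ha₀d))
  have hG : ∀ x : G, ∃ g : M, idx x = idx g := fun x => by
    obtain ⟨g, hg⟩ := h.le ⟨x, rfl⟩
    exact ⟨g, hg.symm⟩
  have hdvdG : ∀ x : G, idx x ∣ Nat.card M := fun x => by
    obtain ⟨g, hg⟩ := hG x; rw [hg]; exact Subgroup.index_dvd_card _
  have hneG : ∀ x : G, idx x ≠ Nat.card M := fun x => by
    obtain ⟨g, hg⟩ := hG x; rw [hg]; exact hM1 g
  have hdichG : ∀ x : G, x ≠ 1 → (∀ a : ℕ, a.Prime → a ∈ A → (idx x).factorization a = (Nat.card M).factorization a) ∨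
      (∀ b : ℕ, b.Prime → b ∉ A → (idx x).factorization b = (Nat.card M).factorization b) := by
    intro x hx
    obtain ⟨g, hg⟩ := hG x
    rw [hg]
    refine dicho hZM A hAB g ?_
    rintro rfl
    have h1 : idx (1 : M) = 1 := Subgroup.index_eq_one.2 (eq_top_iff.2 fun x _ => Subgroup.mem_centralizer_singleton_iff.2 (by simp))
    rw [h1] at hg
    have h2 := Subgroup.index_eq_one.1 hg
    exact hx (Subgroup.mem_bot.1 (hZG ▸ Subgroup.mem_center_iff.2 fun y =>
      Subgroup.mem_centralizer_singleton_iff.1 (h2 ▸ Subgroup.mem_top y)))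
  -- `|M|` divides `|G|`
  have hMG : Nat.card M ∣ Nat.card G := by
    rw [← Nat.factorization_le_iff_dvd hM0 Nat.card_pos.ne']
    intro q
    by_cases hq : q.Prime
    swap
    · rw [Nat.factorization_eq_zero_of_not_prime _ hq]; exact Nat.zero_le _
    by_cases hq0 : (Nat.card M).factorization q = 0
    · omega
    have hqd : q ∣ Nat.card M := Nat.dvd_of_factorization_pos hq0
    have key : ∀ s : ℕ, s.Prime → s ∣ Nat.card M → (q ∈ A ↔ s ∉ A) → (Nat.card M).factorization q ≤ (Nat.card G).factorization q := by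
      intro s hs hsd hiff
      haveI := Fact.mk hs
      haveI := Fact.mk hq
      obtain ⟨g, hg⟩ := exists_prime_orderOf_dvd_card' s hsd
      obtain ⟨x, hx⟩ := h.ge ⟨g, rfl⟩
      have hfull : (idx g).factorization q = (Nat.card M).factorization q := by
        rw [← (Subgroup.centralizer ({g} : Set M)).card_mul_index,
          Nat.factorization_mul Nat.card_pos.ne' Subgroup.index_ne_zero_of_finite, Finsupp.add_apply]
        have hnd : ¬ q ∣ Nat.card (Subgroup.centralizer ({g} : Set M)) := by
          intro hd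
          obtain ⟨y, hy⟩ := exists_prime_orderOf_dvd_card' q hd
          have hc : Commute (y : M) g := Subgroup.mem_centralizer_singleton_iff.1 y.2
          have hne : q ≠ s := fun e => by subst e; tauto
          have ho : orderOf ((y : M) * g) = q * s := by
            rw [hc.orderOf_mul_eq_mul_orderOf_of_coprime (by rw [Subgroup.orderOf_coe, hy, hg]; exact (Nat.coprime_primes hq hs).2 hne), Subgroup.orderOf_coe, hy, hg]
          by_cases hqA : q ∈ A
          · exact hAB q hqA s (hiff.1 hqA) hq hs hqd hsd ⟨_, ho⟩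
          · exact hAB s (by tauto) q hqA hs hq hsd hqd ⟨(y : M) * g, by rw [ho, mul_comm]⟩
        rw [Nat.factorization_eq_zero_of_not_dvd hnd, zero_add]
      rw [← hfull, show idx g = idx x from hx.symm]
      exact (Nat.factorization_le_iff_dvd Subgroup.index_ne_zero_of_finite Nat.card_pos.ne').2 (Subgroup.index_dvd_card _) q
    by_cases hqA : q ∈ A
    · exact key b₀ hb₀p hb₀d (by tauto)
    · exact key a₀ ha₀p ha₀d (by tauto)
  refine Nat.dvd_antisymm ?_ hMG
  rw [← Nat.factorization_le_iff_dvd Nat.card_pos.ne' hM0]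
  intro q
  by_cases hq : q.Prime
  swap
  · rw [Nat.factorization_eq_zero_of_not_prime _ hq]; exact Nat.zero_le _
  by_cases hqA : q ∈ A
  · exact no_excess hZG _ hM0 A hdvdG hneG hdichG hMG b₀ hb₀p hb₀ hb₀d q hq hqA
  · refine no_excess hZG _ hM0 Aᶜ hdvdG hneG (fun x hx => ?_) hMG a₀ ha₀p (by simpa using ha₀) ha₀d q hq hqA
    rcases hdichG x hx with hh | hh
    · exact Or.inr fun b hb hbA => hh b hb (by simpa using hbA)
    · exact Or.inl hh

end Cfsg.Agent.S4184
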