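import Cfsg.Statements.S4186
import Mathlib
-- import your own Cfsg.Agent.* helpers here

set_option autoImplicit false
open Cfsg

namespace Cfsg.Agent.S4186

/-- Let T and X be subgroups of a group with T a finite 2-group normalizing X but not centralizing it. Then some element of T inverts some non-identity element of X under conjugation. -/
theorem result {G : Type*} [Group G] (T X : Subgroup G) [Finite ↥T] (hT : IsPGroup 2 ↥T) (hTN : T ≤ Subgroup.normalizer (X : Set G)) (hTC : ¬ T ≤ Subgroup.centralizer (X : Set G)) : ∃ t ∈ T, ∃ x ∈ X, x ≠ 1 ∧ t * x * t⁻¹ = x⁻¹ := by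
  classical
  have hex : ∃ t, t ∈ T ∧ t ∉ Subgroup.centralizer (X : Set G) := SetLike.not_le_iff_exists.1 hTC
  let P : ℕ → Prop := fun n => ∃ t ∈ T, t ∉ Subgroup.centralizer (X : Set G) ∧ orderOf t = n
  obtain ⟨t0, ht0, ht0'⟩ := hex
  have hP : ∃ n, P n := ⟨_, t0, ht0, ht0', rfl⟩
  obtain ⟨t, ht, htc, hto⟩ := Nat.find_spec hP
  obtain ⟨k, hk⟩ := hT ⟨t, ht⟩
  have hk' : t ^ 2 ^ k = 1 := by simpa using congrArg Subtype.val hk
  have hsq : t ^ 2 ∈ Subgroup.centralizer (X : Set G) := by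
    by_contra hn
    have hne : t ≠ 1 := fun h => htc (h ▸ one_mem _)
    have h2 : 2 ∣ orderOf t := by
      obtain ⟨j, -, hj⟩ := (Nat.dvd_prime_pow Nat.prime_two).1 (orderOf_dvd_of_pow_eq_one hk')
      rcases j with _ | j
      · exact absurd (orderOf_eq_one_iff.1 (by simpa using hj)) hne
      · exact hj ▸ dvd_pow_self 2 (by omega)
    have hpos : 0 < orderOf t := orderOf_pos_iff.2 (isOfFinOrder_iff_pow_eq_one.2 ⟨_, by positivity, hk'⟩)
    have hlt : orderOf (t ^ 2) < orderOf t := by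
      rw [orderOf_pow_of_dvd (by norm_num) h2]
      exact Nat.div_lt_self hpos (by norm_num)
    exact Nat.find_min hP (hto ▸ hlt) ⟨t ^ 2, pow_mem ht 2, hn, rfl⟩
  rw [Subgroup.mem_centralizer_iff] at htc hsq
  push Not at htc
  obtain ⟨x, hx, hxt⟩ := htc
  refine ⟨t, ht, x⁻¹ * (t * x * t⁻¹), mul_mem (inv_mem hx) ((Subgroup.mem_normalizer_iff.1 (hTN ht) x).1 hx), ?_, ?_⟩
  · intro h
    exact hxt (mul_inv_eq_iff_eq_mul.1 (inv_mul_eq_one.1 h).symm).symm
  · have h := hsq x hx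
    have h2 : t * t * x = x * (t * t) := by rw [← sq]; exact h.symm
    calc t * (x⁻¹ * (t * x * t⁻¹)) * t⁻¹ = t * x⁻¹ * t⁻¹ * ((t * t * x) * (t * t)⁻¹) := by group
      _ = t * x⁻¹ * t⁻¹ * x := by rw [h2]; group
      _ = _ := by group

end Cfsg.Agent.S4186
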