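import Cfsg.Statements.S4189
import Mathlib
import Cfsg.Agent.Lib.UniqueInvolution
import Cfsg.Agent.Lib.Transfer.Basic
import Cfsg.Agent.Lib.GenStruct.Regular

set_option autoImplicit false
open Cfsg
open scoped commutatorElement

namespace Cfsg.Agent.S4189

/-- Let P be a finite non-abelian 2-group whose commutator subgroup has index 4 and whose automorphism group is not a 2-group (some automorphism has order that is not a power of 2). Then P is isomorphic to the quaternion group of order 8. -/
theorem result {P : Type*} [Group P] [Finite P] (hP : IsPGroup 2 P) (hna : ¬ IsMulCommutative P) (h4 : (commutator P).index = 4) (haut : ¬ IsPGroup 2 (MulAut P)) : Nonempty (P ≃* QuaternionGroup 2) := by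
  classical
  have hD : (commutator P) = ⁅(⊤ : Subgroup P), ⊤⁆ := rfl
  set D := commutator P with hDdef
  let π := QuotientGroup.mk' D
  have hQ4 : Nat.card (P ⧸ D) = 4 := by rw [← Subgroup.index_eq_card, h4]
  haveI : Fact (Nat.Prime 2) := ⟨Nat.prime_two⟩
  -- squares lie in `D`
  have hsq : ∀ x : P, x * x ∈ D := by
    intro x
    by_contra hx
    apply hna
    have ho : orderOf (π x) = 4 := by
      have hd : orderOf (π x) ∣ 4 := hQ4 ▸ orderOf_dvd_natCard _
      obtain ⟨j, hj, hjo⟩ := (Nat.dvd_prime_pow Nat.prime_two).1 (show orderOf (π x) ∣ 2 ^ 2 from hd)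
      interval_cases j
      · exact absurd (by
          have : π x = 1 := orderOf_eq_one_iff.1 (by simpa using hjo)
          exact mul_mem ((QuotientGroup.eq_one_iff x).1 this) ((QuotientGroup.eq_one_iff x).1 this)) hx
      · exact absurd (by
          have : π (x * x) = 1 := by
            rw [map_mul, ← pow_two]
            exact orderOf_dvd_iff_pow_eq_one.1 (by rw [hjo]; norm_num)
          exact (QuotientGroup.eq_one_iff _).1 this) hx
      · simpa using hjo
    have htop : Subgroup.zpowers x = ⊤ := by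
      refine Cfsg.Agent.Lib.GenStruct.Regular.eq_top_of_sup_commutator hP ?_
      have h1 : Subgroup.zpowers (π x) = ⊤ :=
        Subgroup.eq_top_of_card_eq _ (by rw [Nat.card_zpowers, ho, hQ4])
      rw [← MonoidHom.map_zpowers] at h1
      have h2 := congrArg (Subgroup.comap π) h1
      rw [Subgroup.comap_map_eq, Subgroup.comap_top, QuotientGroup.ker_mk'] at h2
      exact h2
    haveI : IsCyclic P := ⟨x, fun y => Subgroup.mem_zpowers_iff.1 (by rw [htop]; exact Subgroup.mem_top y)⟩
    exact ⟨⟨fun a b => (IsCyclic.commGroup (α := P)).mul_comm a b⟩⟩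
  -- two generators
  obtain ⟨a, haD⟩ : ∃ a, a ∉ D := by
    by_contra! h
    have : D = ⊤ := Subgroup.eq_top_iff' D |>.2 h
    rw [this, Subgroup.index_top] at h4
    omega
  obtain ⟨b, hbD, hbaD⟩ : ∃ b, b ∉ D ∧ a⁻¹ * b ∉ D := by
    by_contra! h
    have hall2 : ∀ q : P ⧸ D, q ∈ ({1, π a} : Finset (P ⧸ D)) := by
      intro q
      obtain ⟨y, rfl⟩ := QuotientGroup.mk'_surjective D q
      by_cases hy : y ∈ D
      · simp only [Finset.mem_insert, Finset.mem_singleton]
        exact Or.inl ((QuotientGroup.eq_one_iff y).2 hy)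
      · simp only [Finset.mem_insert, Finset.mem_singleton]
        exact Or.inr (QuotientGroup.eq.2 (h y hy)).symm
    haveI := Fintype.ofFinite (P ⧸ D)
    have h2 : (Finset.univ : Finset (P ⧸ D)) ⊆ {1, π a} := fun q _ => hall2 q
    have h3 := (Finset.card_le_card h2).trans Finset.card_le_two
    rw [Finset.card_univ, ← Nat.card_eq_fintype_card, hQ4] at h3
    omega
  haveI := Fintype.ofFinite (P ⧸ D)
  have hA : π a ≠ 1 := fun h => haD ((QuotientGroup.eq_one_iff a).1 h)
  have hB : π b ≠ 1 := fun h => hbD ((QuotientGroup.eq_one_iff b).1 h)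
  have hAB : π a ≠ π b := fun h => hbaD (QuotientGroup.eq.1 h)
  have hQsq : ∀ q : P ⧸ D, q * q = 1 := by
    intro q
    obtain ⟨y, rfl⟩ := QuotientGroup.mk'_surjective D q
    rw [← map_mul]
    exact (QuotientGroup.eq_one_iff _).2 (hsq y)
  have hfour : ∀ q : P ⧸ D, q = 1 ∨ q = π a ∨ q = π b ∨ q = π a * π b := by
    intro q
    have hcard : ({1, π a, π b, π a * π b} : Finset (P ⧸ D)).card = 4 := by
      rw [Finset.card_eq_four]
      refine ⟨_, _, _, _, Ne.symm hA, Ne.symm hB, ?_, hAB, ?_, ?_, rfl⟩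
      · intro h
        exact hAB (mul_left_cancel (a := π a) ((hQsq (π a)).trans h))
      · intro h; exact hB (left_eq_mul.1 h)
      · intro h; exact hA (right_eq_mul.1 h)
    have huniv := Finset.eq_univ_of_card _ (hcard.trans (by rw [← Nat.card_eq_fintype_card, hQ4]))
    have : q ∈ ({1, π a, π b, π a * π b} : Finset (P ⧸ D)) := by rw [huniv]; exact Finset.mem_univ q
    simpa using this
  have hgen : Subgroup.closure ({a, b} : Set P) = ⊤ := by
    refine Cfsg.Agent.Lib.GenStruct.Regular.eq_top_of_sup_commutator hP (Subgroup.eq_top_iff' _ |>.2 fun x => ?_)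
    have haC : a ∈ Subgroup.closure ({a, b} : Set P) := Subgroup.subset_closure (by simp)
    have hbC : b ∈ Subgroup.closure ({a, b} : Set P) := Subgroup.subset_closure (by simp)
    have key : ∀ g ∈ Subgroup.closure ({a, b} : Set P), π x = π g →
        x ∈ Subgroup.closure ({a, b} : Set P) ⊔ D := by
      intro g hg he
      have h1 : g⁻¹ * x ∈ D := QuotientGroup.eq.1 he.symm
      have := mul_mem (Subgroup.mem_sup_left (T := D) hg) (Subgroup.mem_sup_right h1)
      simpa using this
    rcases hfour (π x) with h | h | h | h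
    · exact key 1 (one_mem _) (by rw [h, map_one])
    · exact key a haC h
    · exact key b hbC h
    · exact key (a * b) (mul_mem haC hbC) (by rw [h, map_mul])
  -- an automorphism of odd prime order
  obtain ⟨ℓ, hℓ, hℓ2, hℓd⟩ : ∃ ℓ : ℕ, ℓ.Prime ∧ ℓ ≠ 2 ∧ ℓ ∣ Nat.card (MulAut P) := by
    by_contra! h
    exact haut (IsPGroup.of_card (n := _) (Nat.eq_prime_pow_of_unique_prime_dvd Nat.card_pos.ne'
      (fun {q} hq hd => by by_contra hne; exact h q hq hne hd)))
  haveI := Fact.mk hℓ
  obtain ⟨α, hα⟩ := exists_prime_orderOf_dvd_card' ℓ hℓd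
  have hαD : ∀ x, α x ∈ D ↔ x ∈ D := by
    intro x
    have h1 := Subgroup.characteristic_iff_comap_eq.1 (inferInstance : D.Characteristic) α
    exact SetLike.ext_iff.1 h1 x
  -- it fixes no nontrivial class
  have hfree : ∀ x, x ∉ D → ¬ x⁻¹ * α x ∈ D := by
    intro x hx hfix
    have hℓodd : ℓ % 2 = 1 := hℓ.eq_two_or_odd.resolve_left hℓ2
    have hall : ∀ y, y⁻¹ * α y ∈ D := by
      intro y
      by_cases hy : y ∈ D
      · exact mul_mem (inv_mem hy) ((hαD y).2 hy)
      by_cases hyx : x⁻¹ * y ∈ D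
      · have e : y⁻¹ * α y = (x⁻¹ * y)⁻¹ * (x⁻¹ * α x) * α (x⁻¹ * y) := by simp [mul_assoc]
        rw [e]
        exact mul_mem (mul_mem (inv_mem hyx) hfix) ((hαD _).2 hyx)
      have hex : ∀ z, z ∉ D → x⁻¹ * z ∉ D → π z = π y ∨ π z = π x * π y := by
        intro z hz hzx
        have hz1 : π z ≠ 1 := fun h => hz ((QuotientGroup.eq_one_iff z).1 h)
        have hzx1 : π z ≠ π x := fun h => hzx (QuotientGroup.eq.1 h.symm)
        have hy1 : π y ≠ 1 := fun h => hy ((QuotientGroup.eq_one_iff y).1 h)
        have hyx1 : π y ≠ π x := fun h => hyx (QuotientGroup.eq.1 h.symm)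
        have hx1 : π x ≠ 1 := fun h => hx ((QuotientGroup.eq_one_iff x).1 h)
        by_contra hcon
        push Not at hcon
        have h5 : ({1, π x, π y, π x * π y, π z} : Finset (P ⧸ D)).card = 5 := by
          rw [Finset.card_insert_of_notMem, Finset.card_insert_of_notMem, Finset.card_insert_of_notMem,
            Finset.card_insert_of_notMem, Finset.card_singleton] <;>
            simp only [Finset.mem_insert, Finset.mem_singleton, not_or]
          · exact hcon.2.symm
          · exact ⟨fun h => hx1 (right_eq_mul.1 h), hcon.1.symm⟩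
          · exact ⟨hyx1.symm, fun h => hy1 (left_eq_mul.1 h), hzx1.symm⟩
          · exact ⟨hx1.symm, hy1.symm, fun h => hyx1 (mul_left_cancel (a := π x) ((hQsq (π x)).trans h)).symm, hz1.symm⟩
        have := Finset.card_le_univ ({1, π x, π y, π x * π y, π z} : Finset (P ⧸ D))
        rw [h5, ← Nat.card_eq_fintype_card, hQ4] at this
        omega
      have hαy : ∀ z, z ∉ D → x⁻¹ * z ∉ D → α z ∉ D ∧ x⁻¹ * α z ∉ D := by
        intro z hz hzx
        refine ⟨fun h => hz ((hαD z).1 h), fun h => hzx ((hαD _).1 ?_)⟩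
        have : α (x⁻¹ * z) = (x⁻¹ * α x)⁻¹ * (x⁻¹ * α z) := by simp [mul_assoc]
        rw [this]
        exact mul_mem (inv_mem hfix) h
      by_contra hne
      obtain ⟨h1, h1'⟩ := hαy y hy hyx
      have h2 : π (α y) = π x * π y := (hex _ h1 h1').resolve_left fun h => hne (QuotientGroup.eq.1 h.symm)
      -- `α` swaps the two classes, so has even order
      have hstep : ∀ j : ℕ, π ((α ^ j) y) = if j % 2 = 0 then π y else π x * π y := by
        intro j
        induction j with
        | zero => simp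
        | succ j ih =>
          have hlift : ∀ z, π z = π y → π (α z) = π x * π y := by
            intro z hz
            have h3 : y⁻¹ * z ∈ D := QuotientGroup.eq.1 hz.symm
            have h4 : π (α (y⁻¹ * z)) = 1 := (QuotientGroup.eq_one_iff _).2 ((hαD _).2 h3)
            rw [map_mul, map_mul, map_inv, map_inv, inv_mul_eq_one] at h4
            rw [← h4, h2]
          have hlift' : ∀ z, π z = π x * π y → π (α z) = π y := by
            intro z hz
            have h3 : (x * y)⁻¹ * z ∈ D := QuotientGroup.eq.1 (show π (x * y) = π z by rw [hz]; exact map_mul π x y)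
            have h4 : π (α ((x * y)⁻¹ * z)) = 1 := (QuotientGroup.eq_one_iff _).2 ((hαD _).2 h3)
            rw [map_mul, map_mul, map_inv, map_inv, inv_mul_eq_one] at h4
            rw [← h4, map_mul, map_mul, h2, show π (α x) = π x from (QuotientGroup.eq.2 hfix).symm,
              ← mul_assoc, hQsq, one_mul]
          rw [pow_succ', MulAut.mul_apply]
          rcases Nat.mod_two_eq_zero_or_one j with hj | hj
          · rw [if_pos hj] at ih
            rw [if_neg (by omega)]
            exact hlift _ ih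
          · rw [if_neg (by omega)] at ih
            rw [if_pos (by omega)]
            exact hlift' _ ih
      have h5 := hstep ℓ
      rw [← hα, pow_orderOf_eq_one, MulAut.one_apply, hα, if_neg (by omega)] at h5
      exact hx ((QuotientGroup.eq_one_iff x).1 (right_eq_mul.1 h5))
    -- a free action on lifted generators
    let X := {w : P × P // a⁻¹ * w.1 ∈ D ∧ b⁻¹ * w.2 ∈ D}
    letI : MulAction (Subgroup.zpowers α) (P × P) := MulAction.compHom _ (Subgroup.zpowers α).subtype
    have hXcard : Nat.card X = Nat.card D * Nat.card D := by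
      rw [← Nat.card_prod]
      exact Nat.card_congr
        { toFun := fun w => (⟨a⁻¹ * w.1.1, w.2.1⟩, ⟨b⁻¹ * w.1.2, w.2.2⟩)
          invFun := fun d => ⟨(a * d.1, b * d.2), by simpa using d.1.2, by simpa using d.2.2⟩
          left_inv := fun w => by simp
          right_inv := fun d => by simp }
    have hiter : ∀ (j : ℕ) (y : P), y⁻¹ * (α ^ j) y ∈ D := by
      intro j
      induction j with
      | zero => intro y; simp
      | succ j ih =>
        intro y
        rw [pow_succ', MulAut.mul_apply]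
        have := mul_mem (ih y) (hall ((α ^ j) y))
        simpa [mul_assoc] using this
    have hfixgen : ∀ (β : MulAut P) (w : X), β w.1.1 = w.1.1 → β w.1.2 = w.1.2 → β = 1 := by
      intro β w h1 h2
      have hgen' : Subgroup.closure ({w.1.1, w.1.2} : Set P) = ⊤ := by
        refine Cfsg.Agent.Lib.GenStruct.Regular.eq_top_of_sup_commutator hP ?_
        rw [eq_top_iff, ← hgen, Subgroup.closure_le]
        rintro g (rfl | rfl)
        · have := mul_mem (Subgroup.mem_sup_left (T := D) (Subgroup.subset_closure (show w.1.1 ∈ ({w.1.1, w.1.2} : Set P) by simp)))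
            (Subgroup.mem_sup_right (inv_mem w.2.1))
          simpa using this
        · have := mul_mem (Subgroup.mem_sup_left (T := D) (Subgroup.subset_closure (show w.1.2 ∈ ({w.1.1, w.1.2} : Set P) by simp)))
            (Subgroup.mem_sup_right (inv_mem w.2.2))
          simpa using this
      have : (β : P →* P) = MonoidHom.id P := MonoidHom.eq_of_eqOn_dense hgen' (by
        rintro g (rfl | rfl) <;> assumption)
      exact MulEquiv.ext fun g => DFunLike.congr_fun this g
    let e : Fin ℓ → X → X := fun j w => ⟨((α ^ (j : ℕ)) w.1.1, (α ^ (j : ℕ)) w.1.2), by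
      have h1 := mul_mem w.2.1 (hiter j w.1.1)
      have h2 := mul_mem w.2.2 (hiter j w.1.2)
      exact ⟨by simpa [mul_assoc] using h1, by simpa [mul_assoc] using h2⟩⟩
    letI act : MulAction (Subgroup.zpowers α) X :=
      { smul := fun g w => ⟨((g : MulAut P) w.1.1, (g : MulAut P) w.1.2), by
          obtain ⟨j, hj⟩ := (Submonoid.mem_powers_iff _ _).1 ((isOfFinOrder_of_finite α).mem_powers_iff_mem_zpowers.2 g.2)
          rw [← hj]
          exact ⟨by simpa [mul_assoc] using mul_mem w.2.1 (hiter j w.1.1),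
            by simpa [mul_assoc] using mul_mem w.2.2 (hiter j w.1.2)⟩⟩
        one_smul := fun w => rfl
        mul_smul := fun g h w => rfl }
    have hℓg : IsPGroup ℓ (Subgroup.zpowers α) := IsPGroup.of_card (n := 1) (by rw [Nat.card_zpowers, hα, pow_one])
    obtain ⟨k, hk⟩ := IsPGroup.iff_card.1 (hP.to_subgroup D)
    have hnd : ¬ ℓ ∣ Nat.card X := by
      rw [hXcard, hk, ← pow_add]
      intro h
      exact hℓ2 ((Nat.prime_dvd_prime_iff_eq hℓ Nat.prime_two).1 (hℓ.dvd_of_dvd_pow h))
    obtain ⟨w, hw⟩ := hℓg.nonempty_fixed_point_of_prime_not_dvd_card X hnd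
    have h6 := hw ⟨α, Subgroup.mem_zpowers α⟩
    have h7 := hfixgen α w (congrArg (fun w : X => w.1.1) h6) (congrArg (fun w : X => w.1.2) h6)
    rw [h7, orderOf_one] at hα
    exact hℓ.ne_one hα.symm
  have hchar : ∀ M : Subgroup P, M.Characteristic → D ≤ M → ∀ x ∈ M, x ∉ D → M = ⊤ := by
    intro M hM hDM x hxM hxD
    have hαx : α x ∈ M := by
      have h1 := Subgroup.characteristic_iff_comap_eq.1 hM α
      exact (SetLike.ext_iff.1 h1 x).2 hxM
    refine Subgroup.eq_top_iff' M |>.2 fun y => ?_
    have h1 : π x ≠ 1 := fun h => hxD ((QuotientGroup.eq_one_iff x).1 h)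
    have h2 : π (α x) ≠ 1 := fun h => hxD ((hαD x).1 ((QuotientGroup.eq_one_iff _).1 h))
    have h3 : π x ≠ π (α x) := fun h => hfree x hxD (QuotientGroup.eq.1 h)
    have key : ∀ g ∈ M, π y = π g → y ∈ M := by
      intro g hg he
      simpa using mul_mem hg (hDM (QuotientGroup.eq.1 he.symm))
    have hcard : ({1, π x, π (α x), π x * π (α x)} : Finset (P ⧸ D)).card = 4 := by
      rw [Finset.card_eq_four]
      refine ⟨_, _, _, _, Ne.symm h1, Ne.symm h2, ?_, h3, ?_, ?_, rfl⟩
      · intro h
        exact h3 (mul_left_cancel (a := π x) ((hQsq (π x)).trans h))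
      · intro h; exact h2 (left_eq_mul.1 h)
      · intro h; exact h1 (right_eq_mul.1 h)
    have huniv := Finset.eq_univ_of_card _ (hcard.trans (by rw [← Nat.card_eq_fintype_card, hQ4]))
    have hy : π y ∈ ({1, π x, π (α x), π x * π (α x)} : Finset (P ⧸ D)) := by rw [huniv]; exact Finset.mem_univ _
    simp only [Finset.mem_insert, Finset.mem_singleton] at hy
    rcases hy with h | h | h | h
    · exact key 1 (one_mem _) (by rw [h, map_one])
    · exact key x hxM h
    · exact key (α x) hαx h
    · exact key (x * α x) (mul_mem hxM hαx) (by rw [h, map_mul])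
  -- class two
  set W := ⁅D, (⊤ : Subgroup P)⁆ with hW
  set W2 := ⁅W, (⊤ : Subgroup P)⁆ with hW2
  let ρ := QuotientGroup.mk' W2
  have hWc : ∀ w ∈ W, ∀ y : P, Commute (ρ w) (ρ y) := by
    intro w hw y
    have : ρ ⁅w, y⁆ = 1 := (QuotientGroup.eq_one_iff _).2 (Subgroup.commutator_mem_commutator hw trivial)
    rw [map_commutatorElement, commutatorElement_eq_one_iff_commute] at this
    exact this
  set c := a⁻¹ * b⁻¹ * a * b with hc
  have hDgen : D ≤ Subgroup.zpowers c ⊔ W := by
    haveI : (Subgroup.zpowers c ⊔ W).Normal := by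
      constructor
      intro n hn g
      have hnD : n ∈ D := (sup_le (Subgroup.zpowers_le.2 (show c ∈ D by
        have := Subgroup.commutator_mem_commutator (Subgroup.mem_top a⁻¹) (Subgroup.mem_top b⁻¹)
        rw [commutatorElement_def, inv_inv, inv_inv] at this
        exact this)) (Subgroup.commutator_le_left _ _)) hn
      have : g * n * g⁻¹ = ⁅g, n⁆ * n := by rw [commutatorElement_def]; group
      rw [this]
      refine mul_mem (Subgroup.mem_sup_right ?_) hn
      rw [hW, Subgroup.commutator_comm]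
      exact Subgroup.commutator_mem_commutator trivial hnD
    have := Cfsg.Agent.Lib.GenStruct.Regular.commutator_closure_pair_le
      (S := Subgroup.zpowers c ⊔ W) (x := a) (y := b) (Subgroup.mem_sup_left (Subgroup.mem_zpowers c))
    rw [hgen] at this
    exact this
  have hcD : c ∈ D := by
    have := Subgroup.commutator_mem_commutator (Subgroup.mem_top a⁻¹) (Subgroup.mem_top b⁻¹)
    rw [commutatorElement_def, inv_inv, inv_inv] at this
    exact this
  -- each element either centralises `c` or has central square, modulo `W2`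
  have hkey : ∀ x : P, Commute (ρ x) (ρ c) ∨ ∀ y, Commute (ρ (x * x)) (ρ y) := by
    intro x
    obtain ⟨u, hu, w, hw, he⟩ := Subgroup.mem_sup_of_normal_right.1 (hDgen (hsq x))
    obtain ⟨i, rfl⟩ := Subgroup.mem_zpowers_iff.1 hu
    -- `c ^ 2` is central
    have hc2 : ∀ y, Commute (ρ (c ^ (2 : ℤ))) (ρ y) := by
      intro y
      have hz : ⁅y, c⁆ ∈ W := by
        rw [hW, Subgroup.commutator_comm]; exact Subgroup.commutator_mem_commutator trivial hcD
      have hyy : Commute (ρ (y * y)) (ρ c) := by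
        obtain ⟨u', hu', w', hw', he'⟩ := Subgroup.mem_sup_of_normal_right.1 (hDgen (hsq y))
        obtain ⟨i', rfl⟩ := Subgroup.mem_zpowers_iff.1 hu'
        rw [← he', map_mul, map_zpow]
        exact ((Commute.refl (ρ c)).zpow_left i').mul_left (hWc w' hw' c)
      set Z := ρ ⁅y, c⁆ with hZdef
      have e : ρ y * ρ c = Z * ρ c * ρ y := by
        rw [hZdef, map_commutatorElement, commutatorElement_def]; group
      have hzy : Z * ρ y = ρ y * Z := (hWc _ hz y).eq
      have hzc : Z * ρ c = ρ c * Z := (hWc _ hz c).eq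
      have hZ : Z * Z = 1 := by
        have h8 : ρ y * (ρ y * ρ c) = ρ c * ρ y * ρ y := by
          rw [← mul_assoc, ← map_mul ρ y y, hyy.eq, map_mul ρ y y, mul_assoc]
        rw [e, ← mul_assoc, ← mul_assoc, ← hzy, mul_assoc Z (ρ y), e] at h8
        simpa only [← mul_assoc, mul_left_inj, mul_eq_right] using h8
      rw [show c ^ (2 : ℤ) = c * c by rw [zpow_two], map_mul]
      refine (show ρ y * (ρ c * ρ c) = (ρ c * ρ c) * ρ y from ?_).symm
      calc ρ y * (ρ c * ρ c) = ρ y * ρ c * ρ c := (mul_assoc _ _ _).symm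
        _ = Z * ρ c * (ρ y * ρ c) := by rw [← mul_assoc (Z * ρ c), ← e]
        _ = Z * (ρ c * Z) * ρ c * ρ y := by rw [e]; simp only [mul_assoc]
        _ = _ := by rw [← hzc, ← mul_assoc Z Z, hZ, one_mul]
    rcases Int.even_or_odd i with ⟨j, rfl⟩ | ⟨j, rfl⟩
    · right
      intro y
      rw [← he, ← two_mul, zpow_mul, map_mul, map_zpow]
      exact ((hc2 y).zpow_left j).mul_left (hWc w hw y)
    · left
      have h1 : Commute (ρ x) (ρ (x * x)) := by rw [map_mul]; exact (Commute.refl _).mul_right (Commute.refl _)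
      rw [← he, zpow_add, zpow_mul, zpow_one, map_mul, map_mul, map_zpow] at h1
      have h2 : Commute (ρ x) ((ρ (c ^ (2 : ℤ))) ^ j) := ((hc2 x).zpow_left j).symm
      have h4 : Commute (ρ x) (ρ w) := (hWc w hw x).symm
      have h5 := ((h2.inv_right).mul_right h1).mul_right h4.inv_right
      simpa [mul_assoc] using h5
  let M : Subgroup P := (Subgroup.centralizer ((D.map ρ : Subgroup _) : Set (P ⧸ W2))).comap ρ
  have hMmem : ∀ x, x ∈ M ↔ ∀ d ∈ D, ⁅x, d⁆ ∈ W2 := by
    intro x
    rw [Subgroup.mem_comap, Subgroup.mem_centralizer_iff]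
    constructor
    · intro h d hd
      refine (QuotientGroup.eq_one_iff (N := W2) _).1 ?_
      show ρ ⁅x, d⁆ = 1
      rw [map_commutatorElement, commutatorElement_eq_one_iff_commute]
      exact (h _ ⟨d, hd, rfl⟩).symm
    · rintro h _ ⟨d, hd, rfl⟩
      have := (QuotientGroup.eq_one_iff (N := W2) _).2 (h d hd)
      change ρ ⁅x, d⁆ = 1 at this
      rw [map_commutatorElement, commutatorElement_eq_one_iff_commute] at this
      exact this.eq.symm
  have hMchar : M.Characteristic := by
    haveI hWch : W2.Characteristic := by rw [hW2, hW]; infer_instance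
    refine Subgroup.characteristic_iff_le_comap.2 fun φ x hx => ?_
    rw [Subgroup.mem_comap, hMmem]
    rw [hMmem] at hx
    intro d hd
    obtain ⟨d', rfl⟩ := φ.surjective d
    have hd' : d' ∈ D := (SetLike.ext_iff.1 (Subgroup.characteristic_iff_comap_eq.1 (inferInstance : D.Characteristic) φ) d').1 hd
    have h1 := hx d' hd'
    have h2 : φ.toMonoidHom ⁅x, d'⁆ ∈ W2 :=
      (SetLike.ext_iff.1 (Subgroup.characteristic_iff_comap_eq.1 hWch φ) _).2 h1
    rwa [map_commutatorElement] at h2
  have hDM : D ≤ M := by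
    intro x hx
    rw [hMmem]
    intro d hd
    have h1 := Cfsg.Agent.Lib.GenStruct.lcs_commutator_le (⊤ : Subgroup P) 1 1
    exact h1 (Subgroup.commutator_mem_commutator hx hd)
  obtain ⟨x, hxM, hxD⟩ : ∃ x ∈ M, x ∉ D := by
    have hcomm : ∀ x, Commute (ρ x) (ρ c) → x ∈ M := by
      intro x hx
      show ρ x ∈ Subgroup.centralizer _
      rw [Subgroup.mem_centralizer_iff]
      rintro _ ⟨d, hd, rfl⟩
      obtain ⟨u, hu, w, hw, rfl⟩ := Subgroup.mem_sup_of_normal_right.1 (hDgen hd)
      obtain ⟨i, rfl⟩ := Subgroup.mem_zpowers_iff.1 hu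
      rw [map_mul, map_zpow]
      exact ((hx.zpow_right i).mul_right (hWc w hw x).symm).eq.symm
    have habD : a * b ∉ D := fun h => hbaD (by
      have := mul_mem (inv_mem (hsq a)) h
      simpa [mul_assoc] using this)
    rcases hkey a with h | ha2
    · exact ⟨a, hcomm a h, haD⟩
    rcases hkey b with h | hb2
    · exact ⟨b, hcomm b h, hbD⟩
    refine ⟨a * b, hcomm _ ?_, habD⟩
    have e1 : ρ a * ρ c * (ρ a)⁻¹ = (ρ c)⁻¹ := by
      have h := (ha2 b⁻¹).eq
      simp only [hc, map_mul, map_inv] at h ⊢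
      calc _ = (ρ b)⁻¹ * (ρ a) * ρ b * (ρ a)⁻¹ := by group
        _ = (ρ b)⁻¹ * ((ρ a)⁻¹ * ((ρ a * ρ a) * (ρ b)⁻¹⁻¹) * (ρ a)⁻¹) := by group
        _ = (ρ b)⁻¹ * ((ρ a)⁻¹ * (ρ b * (ρ a * ρ a)) * (ρ a)⁻¹) := by
          have h' : (ρ a * ρ a) * (ρ b)⁻¹⁻¹ = ρ b * (ρ a * ρ a) := by
            have h'' := (ha2 b).eq
            simp only [map_mul] at h''
            rw [inv_inv]; exact h''
          rw [h']
        _ = _ := by group
    have e2 : ρ b * ρ c * (ρ b)⁻¹ = (ρ c)⁻¹ := by
      have h'' := (hb2 a⁻¹).eq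
      simp only [map_mul, map_inv] at h''
      simp only [hc, map_mul, map_inv]
      calc _ = ρ b * ((ρ a)⁻¹ * (ρ b)⁻¹ * ρ a) := by group
        _ = ρ b * ((ρ a)⁻¹ * ρ b * ((ρ b * ρ b)⁻¹ * ((ρ a)⁻¹)⁻¹) * 1) := by
          have h3 : (ρ b * ρ b)⁻¹ * ((ρ a)⁻¹)⁻¹ = ((ρ a)⁻¹)⁻¹ * (ρ b * ρ b)⁻¹ := by
            rw [← mul_inv_rev, ← mul_inv_rev, h'']
          rw [mul_one]
          congr 1
          rw [show (ρ b * ρ b)⁻¹ = (ρ b)⁻¹ * (ρ b)⁻¹ from mul_inv_rev _ _, inv_inv]
          group
        _ = ρ b * ((ρ a)⁻¹ * ρ b * (((ρ a)⁻¹)⁻¹ * (ρ b * ρ b)⁻¹) * 1) := by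
          rw [show (ρ b * ρ b)⁻¹ * ((ρ a)⁻¹)⁻¹ = ((ρ a)⁻¹)⁻¹ * (ρ b * ρ b)⁻¹ by
            rw [← mul_inv_rev, ← mul_inv_rev, h'']]
        _ = (ρ b * (ρ a)⁻¹ * ρ b * ρ a * (ρ b)⁻¹ * (ρ b)⁻¹) := by group
        _ = _ := by
          have h4 : (ρ b * ρ b) * ((ρ a)⁻¹ * ρ b * ρ a) = ((ρ a)⁻¹ * ρ b * ρ a) * (ρ b * ρ b) := by
            have := (hb2 (a⁻¹ * b * a)).eq
            simpa only [map_mul, map_inv] using this
          calc _ = (ρ b)⁻¹ * ((ρ b * ρ b) * ((ρ a)⁻¹ * ρ b * ρ a)) * (ρ b)⁻¹ * (ρ b)⁻¹ := by group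
            _ = (ρ b)⁻¹ * (((ρ a)⁻¹ * ρ b * ρ a) * (ρ b * ρ b)) * (ρ b)⁻¹ * (ρ b)⁻¹ := by rw [h4]
            _ = _ := by group
    have e3 : ρ (a * b) * ρ c * (ρ (a * b))⁻¹ = ρ c := by
      rw [map_mul]
      calc _ = ρ a * (ρ b * ρ c * (ρ b)⁻¹) * (ρ a)⁻¹ := by group
        _ = (ρ a * ρ c * (ρ a)⁻¹)⁻¹ := by rw [e2]; group
        _ = _ := by rw [e1, inv_inv]
    exact mul_inv_eq_iff_eq_mul.1 e3
  have hMtop := hchar M hMchar hDM x hxM hxD
  have hWbot : W = ⊥ := by
    haveI := hP.isNilpotent
    refine Cfsg.Agent.Lib.Transfer.eq_bot_of_le_commutator_top ?_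
    rw [← hW2, hW, Subgroup.commutator_le]
    intro d hd y _
    have hy : y ∈ M := hMtop ▸ Subgroup.mem_top y
    rw [hMmem] at hy
    rw [← commutatorElement_inv]
    exact inv_mem (hy d hd)
  have hcentral : ∀ d ∈ D, ∀ y : P, d * y = y * d := by
    intro d hd y
    have h1 : ⁅d, y⁆ ∈ W := Subgroup.commutator_mem_commutator hd trivial
    rw [hWbot, Subgroup.mem_bot, commutatorElement_eq_one_iff_commute] at h1
    exact h1
  have hc1 : c * c = 1 := by
    have h1 := hcentral _ (hsq a) b
    have h2 := hcentral c hcD a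
    have h3 : b * (a * a) * b⁻¹ = a * a := by rw [← h1]; group
    have h5 : a * a = a * a * (c * c) := by
      calc a * a = b⁻¹ * (a * a) * b := by
            conv_rhs => rw [← h3]
            group
        _ = (b⁻¹ * a * b) * (b⁻¹ * a * b) := by group
        _ = (a * c) * (a * c) := by rw [hc]; group
        _ = a * (c * a) * c := by group
        _ = a * (a * c) * c := by rw [h2]
        _ = _ := by group
    exact left_eq_mul.1 h5
  have hDcard : Nat.card D = 2 := by
    have hle : D ≤ Subgroup.zpowers c := by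
      have := hDgen
      rwa [hWbot, sup_bot_eq] at this
    have hne : D ≠ ⊥ := fun h => hna ⟨⟨fun u v => by
      have h1 : ⁅u, v⁆ ∈ D := Subgroup.commutator_mem_commutator trivial trivial
      rw [h, Subgroup.mem_bot, commutatorElement_eq_one_iff_commute] at h1
      exact h1⟩⟩
    have h2 : Nat.card (Subgroup.zpowers c) ∣ 2 := by
      rw [Nat.card_zpowers]; exact orderOf_dvd_of_pow_eq_one (by rw [pow_two, hc1])
    have h3 := (Subgroup.card_dvd_of_le hle).trans h2
    rcases (Nat.dvd_prime Nat.prime_two).1 h3 with h | h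
    · exact absurd (Subgroup.card_eq_one.1 h) hne
    · exact h
  have hcard8 : Nat.card P = 8 := by rw [← D.card_mul_index, hDcard, h4]
  have hinv : ∀ t : P, t * t = 1 → t ∈ D := by
    intro t ht
    by_contra htD
    apply hna
    have hsq1 : ∀ y : P, y * y = 1 := by
      have hαt : α t * α t = 1 := by rw [← map_mul, ht, map_one]
      have hd : ∀ d ∈ D, d * d = 1 := fun d hd => by
        have h9 : (⟨d, hd⟩ : D) ^ Nat.card D = 1 := pow_card_eq_one'
        rw [hDcard, pow_two] at h9
        exact congrArg Subtype.val h9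
      have key : ∀ g : P, g * g = 1 → ∀ y, π y = π g → y * y = 1 := by
        intro g hg y he
        have h1 : g⁻¹ * y ∈ D := QuotientGroup.eq.1 he.symm
        have e : y = g * (g⁻¹ * y) := by group
        rw [e, show g * (g⁻¹ * y) * (g * (g⁻¹ * y)) = g * ((g⁻¹ * y) * g) * (g⁻¹ * y) by group, hcentral _ h1 g,
          ← mul_assoc g g, hg, one_mul, hd _ h1]
      have hαt3 : α (α t) * α (α t) = 1 := by rw [← map_mul, hαt, map_one]
      intro y
      have h1 : π t ≠ 1 := fun h => htD ((QuotientGroup.eq_one_iff t).1 h)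
      have hαtD : α t ∉ D := fun h => htD ((hαD t).1 h)
      have h2 : π (α t) ≠ 1 := fun h => hαtD ((QuotientGroup.eq_one_iff _).1 h)
      have h22 : π (α (α t)) ≠ 1 := fun h => hαtD ((hαD _).1 ((QuotientGroup.eq_one_iff _).1 h))
      have h3 : π t ≠ π (α t) := fun h => hfree t htD (QuotientGroup.eq.1 h)
      have h33 : π (α t) ≠ π (α (α t)) := fun h => hfree _ hαtD (QuotientGroup.eq.1 h)
      have h34 : π t ≠ π (α (α t)) := by
        intro h
        -- otherwise `α` would swap two classes
        have h7 : (t * α t)⁻¹ * α (t * α t) ∈ D := by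
          refine QuotientGroup.eq.1 ?_
          show π (t * α t) = π (α (t * α t))
          rw [map_mul α, map_mul π, map_mul π, ← h]
          have hcm : ∀ u v : P ⧸ D, u * v = v * u := fun u v => (calc u * v = (u * v)⁻¹ := (inv_eq_of_mul_eq_one_right (hQsq _)).symm
            _ = v⁻¹ * u⁻¹ := mul_inv_rev u v
            _ = v * u := by rw [inv_eq_of_mul_eq_one_right (hQsq v), inv_eq_of_mul_eq_one_right (hQsq u)])
          exact hcm _ _
        refine hfree _ (fun hm => h3 ?_) h7
        have h8 : π (t * α t) = 1 := (QuotientGroup.eq_one_iff _).2 hm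
        rw [map_mul] at h8
        exact mul_left_cancel (a := π t) ((hQsq (π t)).trans h8.symm)
      have hcard : ({1, π t, π (α t), π (α (α t))} : Finset (P ⧸ D)).card = 4 := by
        rw [Finset.card_eq_four]
        exact ⟨_, _, _, _, Ne.symm h1, Ne.symm h2, Ne.symm h22, h3, h34, h33, rfl⟩
      have huniv := Finset.eq_univ_of_card _ (hcard.trans (by rw [← Nat.card_eq_fintype_card, hQ4]))
      have hy : π y ∈ ({1, π t, π (α t), π (α (α t))} : Finset (P ⧸ D)) := by rw [huniv]; exact Finset.mem_univ _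
      simp only [Finset.mem_insert, Finset.mem_singleton] at hy
      rcases hy with h | h | h | h
      · exact key 1 (one_mul 1) y (by rw [h, map_one])
      · exact key t ht y h
      · exact key _ hαt y h
      · exact key _ hαt3 y h
    refine ⟨⟨fun u v => ?_⟩⟩
    have hi : ∀ y : P, y⁻¹ = y := fun y => inv_eq_of_mul_eq_one_right (hsq1 y)
    calc u * v = (u * v)⁻¹ := (hi _).symm
      _ = v⁻¹ * u⁻¹ := mul_inv_rev u v
      _ = v * u := by rw [hi, hi]
  have huniq : ∀ H K : Subgroup P, Nat.card H = 2 → Nat.card K = 2 → H = K := by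
    have key : ∀ H : Subgroup P, Nat.card H = 2 → H = D := by
      intro H hH
      refine Subgroup.eq_of_le_of_card_ge (fun y hy => hinv y ?_) (by rw [hH, hDcard])
      have : (⟨y, hy⟩ : H) ^ Nat.card H = 1 := pow_card_eq_one'
      rw [hH, pow_two] at this
      exact congrArg Subtype.val this
    intro H K hH hK
    rw [key H hH, key K hK]
  rcases Cfsg.Agent.Lib.UniqueInvolution.isCyclic_or_quaternion hP huniq with hcy | ⟨-, n, hn, ⟨e⟩⟩
  · haveI := hcy
    exact absurd ⟨⟨fun u v => (IsCyclic.commGroup (α := P)).mul_comm u v⟩⟩ hna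
  · have h1 := Nat.card_congr e.toEquiv
    rw [hcard8, Nat.card_eq_fintype_card, QuaternionGroup.card] at h1
    obtain rfl : n = 1 := Nat.pow_right_injective (le_refl 2) (show 2 ^ n = 2 ^ 1 by omega)
    exact ⟨e⟩

end Cfsg.Agent.S4189
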