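import Cfsg.Statements.S4195
import Mathlib
-- import your own Cfsg.Agent.* helpers here

set_option autoImplicit false
open Cfsg

namespace Cfsg.Agent.S4195

/-- Let x be a non-identity element of a finite group G whose centralizer contains a Sylow 2-subgroup of G. If x is conjugate to its inverse, then x has order 2. -/
theorem result {G : Type*} [Group G] [Finite G] (x : G) (hx : x ≠ 1) (P : Sylow 2 G) (hP : (P : Subgroup G) ≤ Subgroup.centralizer ({x} : Set G)) (hreal : IsConj x x⁻¹) : orderOf x = 2 := by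
  obtain ⟨g, hg⟩ := isConj_iff.1 hreal
  by_contra ho
  have hxi : x ≠ x⁻¹ := by
    intro h
    exact ho (orderOf_eq_prime (p := 2) (by rw [sq]; nth_rewrite 2 [h]; exact mul_inv_cancel x) hx)
  set C := Subgroup.centralizer ({x} : Set G) with hC
  have hgC : g ∉ C := by
    intro h
    rw [hC, Subgroup.mem_centralizer_singleton_iff] at h
    apply hxi
    rw [← hg, h]; group
  have hconjC : ∀ c, c ∈ C ↔ c * x * c⁻¹ = x := by
    intro c
    rw [hC, Subgroup.mem_centralizer_singleton_iff]
    exact mul_inv_eq_iff_eq_mul.symm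
  let D : Subgroup G :=
    { carrier := {h | h * x * h⁻¹ = x ∨ h * x * h⁻¹ = x⁻¹}
      one_mem' := Or.inl (by group)
      mul_mem' := by
        intro a b ha hb
        have e : a * b * x * (a * b)⁻¹ = a * (b * x * b⁻¹) * a⁻¹ := by group
        have ai : a * x⁻¹ * a⁻¹ = (a * x * a⁻¹)⁻¹ := by group
        simp only [Set.mem_ofPred_eq] at ha hb ⊢
        rcases hb with hb | hb <;> rcases ha with ha | ha <;> rw [e, hb] <;> simp [ai, ha]
      inv_mem' := by
        intro a ha
        simp only [Set.mem_ofPred_eq] at ha ⊢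
        rcases ha with ha | ha
        · left; nth_rewrite 1 [← ha]; group
        · right
          have : x = a⁻¹ * x⁻¹ * a := by rw [← ha]; group
          calc a⁻¹ * x * a⁻¹⁻¹ = (a⁻¹ * x⁻¹ * a)⁻¹ := by group
            _ = x⁻¹ := by rw [← this] }
  have hCD : C ≤ D := fun c hc => Or.inl ((hconjC c).1 hc)
  have hg' : g ∈ D := Or.inr hg
  have h2 : C.relIndex D = 2 := by
    rw [Subgroup.relIndex, Subgroup.index_eq_two_iff']
    refine ⟨⟨g, hg'⟩, fun b => ?_⟩
    simp only [Subgroup.mem_subgroupOf, Subgroup.coe_mul, hconjC]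
    have e : g * (b : G) * x * (g * (b : G))⁻¹ = g * ((b : G) * x * (b : G)⁻¹) * g⁻¹ := by group
    rcases b.2 with hb | hb
    · exact Or.inr ⟨hb, fun h => hxi (by rw [e, hb, hg] at h; exact h.symm)⟩
    · refine Or.inl ⟨?_, fun h => hxi (h.symm.trans hb)⟩
      rw [e, hb, show g * x⁻¹ * g⁻¹ = (g * x * g⁻¹)⁻¹ by group, hg, inv_inv]
  have hd : (P : Subgroup G).relIndex D = (P : Subgroup G).relIndex C * 2 := by
    have := Subgroup.relIndex_mul_relIndex _ _ _ hP hCD
    rw [h2] at this
    exact this.symm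
  have : ¬ 2 ∣ (P : Subgroup G).relIndex D := fun h =>
    P.not_dvd_index (dvd_trans h (Subgroup.relIndex_dvd_index_of_le (hP.trans hCD)))
  exact this (hd ▸ dvd_mul_left 2 _)

end Cfsg.Agent.S4195
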