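import Cfsg.Statements.S4196
import Mathlib
import Cfsg.Agent.S4195
-- import your own Cfsg.Agent.* helpers here

set_option autoImplicit false
open Cfsg

namespace Cfsg.Agent.S4196

/-- A finite group G has elementary abelian Sylow 2-subgroups (commutative with every element squaring to the identity) if and only if every 2-element of G has a Sylow 2-subgroup in its centralizer and is conjugate to its inverse. -/
theorem result {G : Type*} [Group G] [Finite G] (P : Sylow 2 G) :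
    (IsMulCommutative (P : Subgroup G) ∧ ∀ x ∈ (P : Subgroup G), x ^ 2 = 1) ↔
      ∀ x : G, (∃ k : ℕ, orderOf x = 2 ^ k) → (∃ Q : Sylow 2 G, (Q : Subgroup G) ≤ Subgroup.centralizer ({x} : Set G)) ∧ IsConj x x⁻¹ := by
  constructor
  · rintro ⟨hab, hex⟩ x hx
    have hz : IsPGroup 2 (Subgroup.zpowers x) := by rw [IsPGroup.iff_card, Nat.card_zpowers]; exact hx
    obtain ⟨Q, hQ⟩ := hz.exists_le_sylow
    obtain ⟨g, hg⟩ := MulAction.exists_smul_eq G P Q
    have hmem : ∀ y ∈ (Q : Subgroup G), ∃ z ∈ (P : Subgroup G), g * z * g⁻¹ = y := fun y hy => by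
      rw [← hg, Sylow.coe_subgroup_smul] at hy
      obtain ⟨z, hz, e⟩ := hy
      exact ⟨z, hz, e⟩
    obtain ⟨x0, hx0, e0⟩ := hmem x (hQ (Subgroup.mem_zpowers x))
    refine ⟨⟨Q, fun y hy => ?_⟩, ?_⟩
    · obtain ⟨z, hz, e⟩ := hmem y hy
      rw [Subgroup.mem_centralizer_singleton_iff, ← e, ← e0]
      have hc : z * x0 = x0 * z := congrArg Subtype.val (hab.is_comm.comm ⟨z, hz⟩ ⟨x0, hx0⟩)
      calc g * z * g⁻¹ * (g * x0 * g⁻¹) = g * (z * x0) * g⁻¹ := by group
        _ = g * (x0 * z) * g⁻¹ := by rw [hc]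
        _ = _ := by group
    · have h2 : x * x = 1 := by
        rw [← e0, show g * x0 * g⁻¹ * (g * x0 * g⁻¹) = g * x0 ^ 2 * g⁻¹ by rw [sq]; group, hex x0 hx0]; group
      rw [← eq_inv_of_mul_eq_one_left h2]
  · intro h
    have hsq : ∀ x ∈ (P : Subgroup G), x ^ 2 = 1 := by
      intro x hx
      by_cases hx1 : x = 1
      · rw [hx1, one_pow]
      obtain ⟨k, hk⟩ := IsPGroup.iff_orderOf.1 P.isPGroup' ⟨x, hx⟩
      obtain ⟨⟨Q, hQ⟩, hreal⟩ := h x ⟨k, by rw [← hk, Subgroup.orderOf_mk]⟩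
      have := Cfsg.Agent.S4195.result x hx1 Q hQ hreal
      rw [← this, pow_orderOf_eq_one]
    refine ⟨⟨⟨fun a b => Subtype.ext ?_⟩⟩, hsq⟩
    have inv : ∀ x ∈ (P : Subgroup G), x⁻¹ = x := fun x hx => inv_eq_of_mul_eq_one_left (by rw [← sq]; exact hsq x hx)
    show (a : G) * b = b * a
    nth_rewrite 1 [← inv a a.2, ← inv b b.2, ← mul_inv_rev, inv _ (mul_mem b.2 a.2)]
    rfl

end Cfsg.Agent.S4196
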