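import Cfsg.Statements.S4216
import Mathlib

set_option autoImplicit false
open Cfsg

namespace Cfsg.Agent.S4216

open MulAction in
open scoped Classical in
lemma gruen_core {G : Type*} [Group G] [Finite G] {p : ℕ} [hp : Fact p.Prime] (P : Sylow p G)
    {A : Type*} [CommGroup A] (φ : (P : Subgroup G) →* A)
    (hφ1 : ∀ (z : G) (c : G) (hc : c ∈ (P : Subgroup G)),
      c ∈ (⁅(P : Subgroup G), (P : Subgroup G)⁆).map (MulAut.conj z).toMonoidHom → φ ⟨c, hc⟩ = 1)
    (hφ2 : ∀ (c : G) (hc : c ∈ (P : Subgroup G)),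
      c ∈ ⁅Subgroup.normalizer ((P : Subgroup G) : Set G), Subgroup.normalizer ((P : Subgroup G) : Set G)⁆ → φ ⟨c, hc⟩ = 1) :
    ∀ (x : G) (hx : x ∈ (P : Subgroup G)), x ∈ commutator G → φ ⟨x, hx⟩ = 1 := by
  intro x
  induction hn : orderOf x using Nat.strong_induction_on generalizing x with
  | _ n ih =>
  intro hxP hxG
  by_cases hx1 : x = 1
  · subst hx1; exact map_one φ
  haveI := Fintype.ofFinite (G ⧸ (P : Subgroup G))
  -- powers of conjugates of smaller order
  have small : ∀ (y : G) (hy : y ∈ (P : Subgroup G)), y ∈ commutator G → orderOf y < orderOf x →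
      φ ⟨y, hy⟩ = 1 := fun y hy hyG hlt => ih _ (hn ▸ hlt) y rfl hy hyG
  have hfix_iff : ∀ q : G ⧸ (P : Subgroup G), x • q = q ↔ q.out⁻¹ * x * q.out ∈ (P : Subgroup G) := by
    intro q
    have h1 : x • q = ((x * q.out : G) : G ⧸ (P : Subgroup G)) := by
      conv_lhs => rw [← q.out_eq]
      rfl
    conv_lhs => rw [h1]; rhs; rw [← q.out_eq]
    rw [eq_comm]
    exact QuotientGroup.eq.trans (by rw [← mul_assoc])
  let f : G ⧸ (P : Subgroup G) → A := fun q =>
    if h : q.out⁻¹ * x * q.out ∈ (P : Subgroup G) then φ ⟨_, h⟩ else 1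
  have hcG : ∀ y : G, y⁻¹ * x * y ∈ commutator G := fun y => by
    have := (inferInstance : (commutator G).Normal).conj_mem x hxG y⁻¹
    simpa using this
  have hord : ∀ y : G, orderOf (y⁻¹ * x * y) = orderOf x := fun y => by
    rw [show y⁻¹ * x * y = MulAut.conj y⁻¹ x by simp, MulEquiv.orderOf_eq]
  -- the transfer
  have hτ : MonoidHom.transfer φ x = 1 := by
    have : commutator G ≤ (MonoidHom.transfer φ).ker := Abelianization.commutator_subset_ker _
    exact this hxG
  haveI := Fintype.ofFinite (Quotient (orbitRel (Subgroup.zpowers x) (G ⧸ (P : Subgroup G))))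
  rw [MonoidHom.transfer_eq_prod_quotient_orbitRel_zpowers_quot] at hτ
  -- long orbits contribute trivially
  have hτ' : ∏ q : G ⧸ (P : Subgroup G), f q = 1 := by
    refine Eq.trans ?_ hτ
    have h1 : ∏ q : G ⧸ (P : Subgroup G), f q =
        ∏ q ∈ Finset.univ.filter (fun q : G ⧸ (P : Subgroup G) => x • q = q), f q := by
      symm
      refine Finset.prod_subset (Finset.subset_univ _) fun q _ hq => ?_
      simp only [Finset.mem_filter, Finset.mem_univ, true_and, hfix_iff] at hq
      simp [f, hq]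
    rw [h1]
    rw [← Finset.prod_filter_of_ne (s := (Finset.univ : Finset (Quotient (orbitRel (Subgroup.zpowers x) (G ⧸ (P : Subgroup G))))))
      (p := fun Ω => Function.minimalPeriod (x • ·) Ω.out = 1)]
    · have hfx : ∀ q : G ⧸ (P : Subgroup G), x • q = q →
          (Quotient.mk (orbitRel (Subgroup.zpowers x) _) q).out = q := by
        intro q hq
        have h2 : (Quotient.mk (orbitRel (Subgroup.zpowers x) _) q).out ∈ orbit (Subgroup.zpowers x) q :=
          (orbitRel_apply).1 (Quotient.mk_out q)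
        obtain ⟨⟨u, hu⟩, he⟩ := h2
        have hst : u ∈ stabilizer G q := (Subgroup.zpowers_le.2 (show x ∈ stabilizer G q from hq)) hu
        rw [← he]
        exact hst
      refine Finset.prod_nbij' (fun q => Quotient.mk (orbitRel (Subgroup.zpowers x) _) q)
        (fun Ω => Ω.out) ?_ ?_ ?_ ?_ ?_
      · intro q hq
        simp only [Finset.mem_filter, Finset.mem_univ, true_and] at hq ⊢
        rw [hfx q hq, Function.minimalPeriod_eq_one_iff_isFixedPt]
        exact hq
      · intro Ω hΩ
        simp only [Finset.mem_filter, Finset.mem_univ, true_and] at hΩ ⊢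
        exact Function.minimalPeriod_eq_one_iff_isFixedPt.1 hΩ
      · intro q hq
        simp only [Finset.mem_filter, Finset.mem_univ, true_and] at hq
        exact hfx q hq
      · intro Ω _
        exact Quotient.out_eq Ω
      · intro q hq
        simp only [Finset.mem_filter, Finset.mem_univ, true_and] at hq
        have h3 := hfx q hq
        have h4 : Function.minimalPeriod (x • ·) q = 1 := Function.minimalPeriod_eq_one_iff_isFixedPt.2 hq
        simp only [f, dif_pos ((hfix_iff q).1 hq)]
        congr 1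
        ext
        simp only [h3, h4, pow_one]
    · intro Ω _ hne
      by_contra h
      apply hne
      have hmem := QuotientGroup.out_conj_pow_minimalPeriod_mem (P : Subgroup G) x Ω.out
      refine small _ hmem ?_ ?_
      · have := (inferInstance : (commutator G).Normal).conj_mem _ (pow_mem hxG (Function.minimalPeriod (x • ·) Ω.out)) Ω.out.out⁻¹
        simpa using this
      · rw [show Ω.out.out⁻¹ * x ^ Function.minimalPeriod (x • ·) Ω.out * Ω.out.out =
          MulAut.conj Ω.out.out⁻¹ (x ^ Function.minimalPeriod (x • ·) Ω.out) by simp, MulEquiv.orderOf_eq]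
        have hdvd : Function.minimalPeriod (x • ·) Ω.out ∣ orderOf x := by
          apply Function.IsPeriodicPt.minimalPeriod_dvd
          show (x • ·)^[orderOf x] Ω.out = Ω.out
          simp [smul_iterate, pow_orderOf_eq_one]
        have hpos : 0 < orderOf x := orderOf_pos x
        have hm0 : Function.minimalPeriod (x • ·) Ω.out ≠ 0 := fun h0 => by
          rw [h0, zero_dvd_iff] at hdvd; omega
        rw [orderOf_pow_of_dvd hm0 hdvd]
        exact Nat.div_lt_self hpos (by omega)
  let S : Set (G ⧸ (P : Subgroup G)) := fixedPoints (P : Subgroup G) (G ⧸ (P : Subgroup G))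
  -- fixed cosets
  have hS : ∀ q ∈ S, f q = φ ⟨x, hxP⟩ := by
    intro q hq
    have hn' : ∀ u ∈ (P : Subgroup G), q.out⁻¹ * u * q.out ∈ (P : Subgroup G) := by
      intro u hu
      have h1 : ((u * q.out : G) : G ⧸ (P : Subgroup G)) = q := by
        have h2 : (⟨u, hu⟩ : (P : Subgroup G)) • q = q := hq _
        conv_rhs => rw [← h2, ← q.out_eq]
        rfl
      have h3 := QuotientGroup.eq.1 (h1.trans q.out_eq.symm).symm
      rwa [← mul_assoc] at h3
    have hN : q.out⁻¹ ∈ Subgroup.normalizer ((P : Subgroup G) : Set G) := by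
      rw [Subgroup.mem_normalizer_iff_conj_image_eq]
      refine Set.eq_of_subset_of_ncard_le ?_ ?_ (Set.toFinite _)
      · rintro _ ⟨u, hu, rfl⟩
        show MulAut.conj q.out⁻¹ u ∈ (P : Subgroup G)
        rw [MulAut.conj_apply, inv_inv]
        exact hn' u hu
      · rw [Set.ncard_image_of_injective _ (MulAut.conj q.out⁻¹).injective]
    have hmem := hn' x hxP
    simp only [f, dif_pos hmem]
    have h4 : φ (⟨x, hxP⟩⁻¹ * ⟨_, hmem⟩) = 1 := by
      refine hφ2 _ ((⟨x, hxP⟩⁻¹ * ⟨_, hmem⟩ : (P : Subgroup G))).2 ?_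
      have h5 := Subgroup.commutator_mem_commutator
        (Subgroup.inv_mem _ (Subgroup.le_normalizer hxP : x ∈ Subgroup.normalizer ((P : Subgroup G) : Set G))) hN
      simpa [commutatorElement_def, mul_assoc] using h5
    rw [map_mul, map_inv, inv_mul_eq_one] at h4
    exact h4.symm
  -- non-fixed cosets
  have hnS : ∏ q ∈ Finset.univ.filter (fun q => q ∉ S), f q = 1 := by
    rw [← Finset.prod_fiberwise _ (fun q => Quotient.mk (orbitRel (P : Subgroup G) (G ⧸ (P : Subgroup G))) q)]
    refine Finset.prod_eq_one fun Ω _ => ?_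
    by_contra hne
    obtain ⟨q0, hq0, hf0⟩ := Finset.exists_ne_one_of_prod_ne_one hne
    simp only [Finset.mem_filter, Finset.mem_univ, true_and] at hq0
    obtain ⟨hq0S, hq0Ω⟩ := hq0
    have hmem0 : q0.out⁻¹ * x * q0.out ∈ (P : Subgroup G) := by
      by_contra h; exact hf0 (by simp [f, h])
    -- constant on the orbit
    have hconst : ∀ q ∈ orbit (P : Subgroup G) q0, ∀ (h : q.out⁻¹ * x * q.out ∈ (P : Subgroup G)),
        φ ⟨_, h⟩ = φ ⟨_, hmem0⟩ := by
      rintro q ⟨⟨u, hu⟩, rfl⟩ h
      set w := ((⟨u, hu⟩ : (P : Subgroup G)) • q0).out with hw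
      have h1 : (u * q0.out)⁻¹ * w ∈ (P : Subgroup G) := by
        apply QuotientGroup.eq.1
        rw [hw, QuotientGroup.out_eq']
        conv_rhs => rw [← q0.out_eq]
        rfl
      set v := (u * q0.out)⁻¹ * w with hv
      have hwv : w = u * q0.out * v := by rw [hv]; group
      have hc : q0.out⁻¹ * (x⁻¹ * u⁻¹ * x * u) * q0.out ∈
          (⁅(P : Subgroup G), (P : Subgroup G)⁆).map (MulAut.conj q0.out⁻¹).toMonoidHom :=
        ⟨x⁻¹ * u⁻¹ * x * u, by
          have := Subgroup.commutator_mem_commutator (Subgroup.inv_mem _ hxP) (Subgroup.inv_mem _ hu)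
          simpa [commutatorElement_def] using this, by simp [mul_assoc]⟩
      have hcP : q0.out⁻¹ * (x⁻¹ * u⁻¹ * x * u) * q0.out ∈ (P : Subgroup G) := by
        have h5 : v * (w⁻¹ * x * w) * v⁻¹ ∈ (P : Subgroup G) :=
          mul_mem (mul_mem h1 h) (inv_mem h1)
        have h6 := mul_mem (inv_mem hmem0) h5
        convert h6 using 1
        rw [hwv]; group
      have h7 : (⟨w⁻¹ * x * w, h⟩ : (P : Subgroup G)) =
          ⟨v, h1⟩⁻¹ * (⟨_, hmem0⟩ * ⟨_, hcP⟩) * ⟨v, h1⟩ := by
        ext
        show w⁻¹ * x * w = v⁻¹ * ((q0.out⁻¹ * x * q0.out) * (q0.out⁻¹ * (x⁻¹ * u⁻¹ * x * u) * q0.out)) * v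
        rw [hwv]; group
      rw [h7, map_mul, map_mul, map_mul, hφ1 _ _ hcP hc, map_inv, mul_one, mul_comm _ (φ ⟨_, hmem0⟩),
        mul_assoc, inv_mul_cancel, mul_one]
    -- p-th power is trivial
    have hcp : φ ⟨_, hmem0⟩ ^ p = 1 := by
      rw [← map_pow]
      refine small _ (pow_mem hmem0 p) (pow_mem (hcG _) p) ?_
      obtain ⟨k, hk⟩ := IsPGroup.iff_orderOf.1 P.2 ⟨_, hmem0⟩
      rw [Subgroup.orderOf_mk, hord] at hk
      have hk0 : k ≠ 0 := fun h0 => hx1 (orderOf_eq_one_iff.1 (by rw [hk, h0, pow_zero]))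
      rw [orderOf_pow_of_dvd hp.out.ne_zero (by rw [hord, hk]; exact dvd_pow_self p hk0), hord]
      exact Nat.div_lt_self (orderOf_pos x) hp.out.one_lt
    -- counting
    let T : Finset (G ⧸ (P : Subgroup G)) :=
      Finset.univ.filter (fun q => q ∈ orbit (P : Subgroup G) q0 ∧ x • q = q)
    apply hne
    have h8 : ∏ q ∈ (Finset.univ.filter (fun q => q ∉ S)).filter
        (fun q => Quotient.mk (orbitRel (P : Subgroup G) (G ⧸ (P : Subgroup G))) q = Ω), f q = φ ⟨_, hmem0⟩ ^ T.card := by
      rw [← Finset.prod_const]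
      symm
      refine Eq.trans (Finset.prod_congr rfl fun q hq => ?_) (Finset.prod_subset ?_ ?_)
      · simp only [T, Finset.mem_filter, Finset.mem_univ, true_and] at hq
        show φ ⟨_, hmem0⟩ = f q
        simp only [f, dif_pos ((hfix_iff q).1 hq.2)]
        exact (hconst q hq.1 _).symm
      · intro q hq
        simp only [T, Finset.mem_filter, Finset.mem_univ, true_and] at hq ⊢
        refine ⟨fun hqS => hq0S ?_, ?_⟩
        · obtain ⟨u, hu⟩ := mem_orbit_symm.1 hq.1
          have : q0 = q := hu.symm.trans (hqS u)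
          rw [this]; exact hqS
        · rw [← hq0Ω]; exact Quotient.sound hq.1
      · intro q hq hqT
        simp only [T, Finset.mem_filter, Finset.mem_univ, true_and] at hq hqT
        have horb : q ∈ orbit (P : Subgroup G) q0 := Quotient.exact (hq.2.trans hq0Ω.symm)
        have : ¬ q.out⁻¹ * x * q.out ∈ (P : Subgroup G) := fun h => hqT ⟨horb, (hfix_iff q).2 h⟩
        simp [f, this]
    rw [h8]
    obtain ⟨k, hk⟩ := P.2.card_orbit q0
    have hk0 : k ≠ 0 := fun h0 => hq0S (mem_fixedPoints_iff_card_orbit_eq_one.2 (by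
      rw [← Nat.card_eq_fintype_card, hk, h0, pow_zero]))
    have hmod := (P.2.to_subgroup (Subgroup.zpowers (⟨x, hxP⟩ : (P : Subgroup G)))).card_modEq_card_fixedPoints
      (orbit (P : Subgroup G) q0)
    rw [hk] at hmod
    have hTc : Nat.card (fixedPoints (Subgroup.zpowers (⟨x, hxP⟩ : (P : Subgroup G))) (orbit (P : Subgroup G) q0)) = T.card := by
      rw [← Nat.card_eq_finsetCard]
      refine Nat.card_congr ⟨fun q => ⟨q.1.1, ?_⟩, fun q => ⟨⟨q.1, ?_⟩, ?_⟩, fun q => rfl, fun q => rfl⟩
      · simp only [T, Finset.mem_filter, Finset.mem_univ, true_and]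
        exact ⟨q.1.2, congrArg Subtype.val (q.2 ⟨_, Subgroup.mem_zpowers _⟩)⟩
      · have := q.2
        simp only [T, Finset.mem_filter, Finset.mem_univ, true_and] at this
        exact this.1
      · have hq2 := q.2
        simp only [T, Finset.mem_filter, Finset.mem_univ, true_and] at hq2
        rintro ⟨u, hu⟩
        have hst : u ∈ (stabilizer (P : Subgroup G) q.1) :=
          (Subgroup.zpowers_le.2 (show (⟨x, hxP⟩ : (P : Subgroup G)) ∈ stabilizer (P : Subgroup G) q.1 from hq2.2)) hu
        exact Subtype.ext hst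
    rw [hTc] at hmod
    have hpT : p ∣ T.card := by
      rw [← Nat.modEq_zero_iff_dvd]
      exact hmod.symm.trans (Nat.modEq_zero_iff_dvd.2 (dvd_pow_self p hk0))
    obtain ⟨m, hm⟩ := hpT
    rw [hm, pow_mul, hcp, one_pow]
  rw [← Finset.prod_filter_mul_prod_filter_not Finset.univ (fun q => q ∉ S), hnS, one_mul] at hτ'
  rw [Finset.prod_congr rfl fun q hq => hS q (by simpa using hq), Finset.prod_const] at hτ'
  have hcard : ¬ p ∣ (Finset.univ.filter (fun q : G ⧸ (P : Subgroup G) => ¬ q ∉ S)).card := by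
    intro h
    apply P.not_dvd_index
    have h2 := P.2.card_modEq_card_fixedPoints (G ⧸ (P : Subgroup G))
    rw [Subgroup.index_eq_card, ← Nat.modEq_zero_iff_dvd]
    refine h2.trans (Nat.modEq_zero_iff_dvd.2 ?_)
    convert h using 1
    rw [← Nat.card_eq_finsetCard]
    exact Nat.card_congr (Equiv.subtypeEquivRight fun q => by simp [S])
  have hφo : orderOf (φ ⟨x, hxP⟩) ∣ orderOf (⟨x, hxP⟩ : (P : Subgroup G)) := orderOf_map_dvd φ _
  obtain ⟨k, hk⟩ := IsPGroup.iff_orderOf.1 P.2 ⟨x, hxP⟩
  rw [hk] at hφo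
  rw [← orderOf_eq_one_iff]
  exact Nat.eq_one_of_dvd_coprimes
    (Nat.Coprime.pow_left k ((hp.out.coprime_iff_not_dvd).2 hcard)) hφo
    (orderOf_dvd_of_pow_eq_one hτ')

/-- Grün's first Theorem: if `P` is a Sylow `p`-subgroup of the finite group `G`, then `P ∩ G'` is the subgroup generated by `P ∩ N_G(P)'` together with the subgroups `P ∩ z P' z⁻¹` for all `z ∈ G`, where `'` denotes the derived subgroup and `N_G(P)` the normalizer of `P`. -/
theorem result {G : Type*} [Group G] [Finite G] {p : ℕ} [Fact p.Prime] (P : Sylow p G) : (P : Subgroup G) ⊓ commutator G = ((P : Subgroup G) ⊓ ⁅Subgroup.normalizer ((P : Subgroup G) : Set G), Subgroup.normalizer ((P : Subgroup G) : Set G)⁆) ⊔ ⨆ z : G, (P : Subgroup G) ⊓ (⁅(P : Subgroup G), (P : Subgroup G)⁆).map (MulAut.conj z).toMonoidHom := by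
  set N := Subgroup.normalizer ((P : Subgroup G) : Set G) with hN
  set D := ((P : Subgroup G) ⊓ ⁅N, N⁆) ⊔ ⨆ z : G, (P : Subgroup G) ⊓ (⁅(P : Subgroup G), (P : Subgroup G)⁆).map (MulAut.conj z).toMonoidHom with hD
  have hDP : D ≤ (P : Subgroup G) := sup_le inf_le_left (iSup_le fun z => inf_le_left)
  have hPD : ⁅(P : Subgroup G), (P : Subgroup G)⁆ ≤ D :=
    le_sup_of_le_left (le_inf (Subgroup.commutator_le.2 fun a ha b hb => by
      rw [commutatorElement_def]; exact mul_mem (mul_mem (mul_mem ha hb) (inv_mem ha)) (inv_mem hb))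
      (Subgroup.commutator_mono Subgroup.le_normalizer Subgroup.le_normalizer))
  have hle : D ≤ commutator G := sup_le (inf_le_right.trans (Subgroup.commutator_mono le_top le_top))
    (iSup_le fun z => inf_le_right.trans (by
      rw [Subgroup.map_commutator]; exact Subgroup.commutator_mono le_top le_top))
  refine le_antisymm (fun x hx => ?_) (le_inf hDP hle)
  haveI hnorm : (D.subgroupOf (P : Subgroup G)).Normal := by
    constructor
    intro a ha g
    have h1 : (g : G) * a * (g : G)⁻¹ * (a : G)⁻¹ ∈ D := hPD (by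
      have := Subgroup.commutator_mem_commutator g.2 a.2
      rwa [commutatorElement_def] at this)
    rw [Subgroup.mem_subgroupOf] at ha ⊢
    simpa using mul_mem h1 ha
  letI : CommGroup ((P : Subgroup G) ⧸ D.subgroupOf (P : Subgroup G)) :=
    { (inferInstance : Group ((P : Subgroup G) ⧸ D.subgroupOf (P : Subgroup G))) with
      mul_comm := fun a b => by
        induction a using QuotientGroup.induction_on with | _ a => ?_
        induction b using QuotientGroup.induction_on with | _ b => ?_
        show ((a * b : (P : Subgroup G)) : (P : Subgroup G) ⧸ D.subgroupOf (P : Subgroup G)) = ((b * a : (P : Subgroup G)) : _)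
        apply QuotientGroup.eq.2
        rw [Subgroup.mem_subgroupOf]
        apply hPD
        have := Subgroup.commutator_mem_commutator ((P : Subgroup G).inv_mem b.2) ((P : Subgroup G).inv_mem a.2)
        rw [commutatorElement_def] at this
        simpa [mul_assoc] using this }
  have := gruen_core P (QuotientGroup.mk' (D.subgroupOf (P : Subgroup G)))
    (fun z c hc hm => (QuotientGroup.eq_one_iff _).2 (Subgroup.mem_sup_right
      (Subgroup.mem_iSup_of_mem z ⟨hc, hm⟩)))
    (fun c hc hm => (QuotientGroup.eq_one_iff _).2 (Subgroup.mem_sup_left ⟨hc, hm⟩))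
    x hx.1 hx.2
  exact (QuotientGroup.eq_one_iff (⟨x, hx.1⟩ : (P : Subgroup G))).1 this

end Cfsg.Agent.S4216
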