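import Cfsg.Statements.S4230
import Mathlib

set_option autoImplicit false
open Cfsg

namespace Cfsg.Agent.S4230

/-- Let p be an odd prime, q a natural number not divisible by p, and e the multiplicative order of q modulo p. For a natural number f, p divides the value at q of the f-th cyclotomic polynomial if and only if f = e·p^j for some j ≥ 0. -/
theorem result (p q f : ℕ) (hp : p.Prime) (hp2 : p ≠ 2) (hpq : ¬ p ∣ q) :
    ((p : ℤ) ∣ (Polynomial.cyclotomic f ℤ).eval (q : ℤ)) ↔ ∃ j : ℕ, f = orderOf (q : ZMod p) * p ^ j := by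
  haveI := Fact.mk hp
  have hq0 : (q : ZMod p) ≠ 0 := by
    rwa [Ne, ZMod.natCast_eq_zero_iff]
  set e := orderOf (q : ZMod p) with he
  have hdvd : e ∣ p - 1 := ZMod.orderOf_dvd_card_sub_one hq0
  have hp1 : 0 < p - 1 := by have := hp.two_le; omega
  have he0 : 0 < e := Nat.pos_of_dvd_of_pos hdvd hp1
  have hpe : ¬ p ∣ e := fun h => by
    have := Nat.le_of_dvd hp1 (h.trans hdvd); omega
  rcases Nat.eq_zero_or_pos f with hf | hf
  · subst hf
    simp only [Polynomial.cyclotomic_zero, Polynomial.eval_one]
    constructor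
    · intro h
      exfalso
      have := Int.le_of_dvd one_pos h
      have := hp.two_le
      omega
    · rintro ⟨j, hj⟩
      exfalso
      have : 0 < e * p ^ j := Nat.mul_pos he0 (pow_pos hp.pos j)
      omega
  · obtain ⟨k, m, hm, hfm⟩ := Nat.exists_eq_pow_mul_and_not_dvd hf.ne' p hp.ne_one
    haveI : NeZero (m : ZMod p) := ⟨by rwa [Ne, ZMod.natCast_eq_zero_iff]⟩
    have key : ((p : ℤ) ∣ (Polynomial.cyclotomic f ℤ).eval (q : ℤ)) ↔
        (Polynomial.cyclotomic m (ZMod p)).IsRoot (q : ZMod p) := by
      rw [← ZMod.intCast_zmod_eq_zero_iff_dvd]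
      have : (((Polynomial.cyclotomic f ℤ).eval (q : ℤ) : ℤ) : ZMod p) =
          (Polynomial.cyclotomic f (ZMod p)).eval (q : ZMod p) := by
        rw [← Polynomial.map_cyclotomic_int f (ZMod p)]
        rw [Polynomial.eval_natCast_map]
        simp
      rw [this, Polynomial.IsRoot]
      rcases Nat.eq_zero_or_pos k with hk | hk
      · subst hk; simp at hfm; rw [hfm]
      · rw [hfm, Polynomial.cyclotomic_mul_prime_pow_eq (ZMod p) hm hk, Polynomial.eval_pow]
        have : 0 < p ^ k - p ^ (k - 1) := by
          have := Nat.pow_lt_pow_right hp.one_lt (show k - 1 < k by omega)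
          omega
        exact pow_eq_zero_iff this.ne'
    rw [key, Polynomial.isRoot_cyclotomic_iff]
    constructor
    · intro h
      exact ⟨k, by rw [hfm, h.eq_orderOf, he, mul_comm]⟩
    · rintro ⟨j, hj⟩
      have h1 : m = e := by
        have hcm : Nat.Coprime m p := (hp.coprime_iff_not_dvd.2 hm).symm
        have hce : Nat.Coprime e p := (hp.coprime_iff_not_dvd.2 hpe).symm
        have h2 : p ^ k * m = e * p ^ j := by rw [← hfm, hj]
        apply Nat.dvd_antisymm
        · exact (Nat.Coprime.pow_right j hcm).dvd_of_dvd_mul_right (h2 ▸ dvd_mul_left m (p ^ k))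
        · exact (Nat.Coprime.pow_right k hce).dvd_of_dvd_mul_left (h2.symm ▸ dvd_mul_right e (p ^ j))
      rw [h1]
      exact IsPrimitiveRoot.orderOf _

end Cfsg.Agent.S4230
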