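import Cfsg.Statements.S4231
import Cfsg.Agent.Lib.Alt.Aut
import Cfsg.Agent.S2119
import Mathlib

set_option autoImplicit false
open Cfsg

namespace Cfsg.Agent.S4231

open Cfsg.Agent.Lib Equiv

/-- A p-subgroup of a symmetric group of degree less than p² is abelian. -/
theorem abelian_of_lt {n p : ℕ} [hp : Fact p.Prime] (hn : n < p ^ 2) {Q : Type*} [Group Q] [Finite Q] (hQ : IsPGroup p Q)
    (f : Q →* Perm (Fin n)) (hf : Function.Injective f) : IsMulCommutative Q := by
  letI : MulAction Q (Fin n) := MulAction.compHom _ f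
  refine ⟨⟨fun a b => hf (Equiv.ext fun u => ?_)⟩⟩
  obtain ⟨e, he⟩ := hQ.card_orbit u
  have hle : Nat.card (MulAction.orbit Q u) ≤ n :=
    (Nat.card_le_card_of_injective _ Subtype.val_injective).trans_eq (Nat.card_fin n)
  rw [he] at hle
  have he1 : e ≤ 1 := by
    by_contra h
    have := Nat.pow_le_pow_right hp.out.pos (show 2 ≤ e by omega)
    omega
  set S := MulAction.stabilizer Q u with hS
  have hidx : S.index = p ^ e := by rw [hS, MulAction.index_stabilizer, ← Nat.card_coe_set_eq, he]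
  suffices h : (b * a)⁻¹ * (a * b) ∈ S by
    show (a * b) • u = (b * a) • u
    rw [MulAction.mem_stabilizer_iff, mul_smul, inv_smul_eq_iff] at h
    exact h
  rcases Nat.le_one_iff_eq_zero_or_eq_one.1 he1 with rfl | rfl
  · rw [pow_zero, Subgroup.index_eq_one] at hidx
    rw [hidx]; exact Subgroup.mem_top _
  · rw [pow_one] at hidx
    obtain ⟨m, hm⟩ := IsPGroup.iff_card.1 hQ
    have hm0 : m ≠ 0 := fun h0 => by
      have := S.index_dvd_card
      rw [hidx, hm, h0, pow_zero, Nat.dvd_one] at this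
      exact hp.out.ne_one this
    haveI : S.Normal := Subgroup.normal_of_index_eq_minFac_card (by
      rw [hidx, hm, Nat.pow_minFac hm0, hp.out.minFac_eq])
    haveI : Fact p.Prime := hp
    haveI : IsCyclic (Q ⧸ S) := isCyclic_of_prime_card (p := p) hidx
    letI := IsCyclic.commGroup (α := Q ⧸ S)
    rw [← QuotientGroup.eq, QuotientGroup.mk_mul, QuotientGroup.mk_mul, mul_comm]

/-- A 5-cycle on six points. -/
def ga : Perm (Fin 6) := Alt.Aut.cyc 0 1 2 * Alt.Aut.cyc 2 3 4
/-- A 3-cycle on six points. -/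
def gb : Perm (Fin 6) := Alt.Aut.cyc 3 4 5

theorem checks : Perm.sign ga = 1 ∧ Perm.sign gb = 1 ∧ ga ^ 5 = 1 ∧ gb ^ 3 = 1 ∧ (ga * gb) ^ 4 = 1 ∧
    (ga * gb) ^ 2 ≠ 1 ∧ (ga * (gb * gb)) ^ 5 = 1 ∧
    ga * ga * gb * ga * gb * ga * gb = Alt.Aut.cyc 4 5 0 ∧ gb * gb * ga * gb * ga * ga * gb * ga = Alt.Aut.cyc 4 5 1 ∧
    ga * gb * ga * gb * ga * ga * gb = Alt.Aut.cyc 4 5 2 ∧ gb = Alt.Aut.cyc 4 5 3 := by decide +kernel

set_option maxRecDepth 20000 in
theorem count5 : (Finset.univ.filter fun w : Perm (Fin 6) => Perm.sign w = 1 ∧ w ^ 5 = 1 ∧ w ≠ 1).card = 144 := by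
  decide +kernel

set_option maxRecDepth 20000 in
theorem count3 : (Finset.univ.filter fun w : Perm (Fin 6) => Perm.sign w = 1 ∧ w ^ 3 = 1 ∧
    (ga * w) ^ 4 = 1 ∧ (ga * w) ^ 2 ≠ 1 ∧ (ga * (w * w)) ^ 5 = 1).card = 10 := by
  decide +kernel

attribute [local irreducible] ga gb

theorem six : ∃ k, (k = 2 ∨ k = 4) ∧ Nat.card (MulAut (alternatingGroup (Fin 6))) = 360 * k := by
  classical
  let a : alternatingGroup (Fin 6) := ⟨ga, checks.1⟩
  let b : alternatingGroup (Fin 6) := ⟨gb, checks.2.1⟩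
  have hgen : ∀ (H : Subgroup (alternatingGroup (Fin 6))), a ∈ H → b ∈ H → H = ⊤ := by
    intro H ha hb
    rw [Subgroup.eq_top_iff']
    intro g
    obtain ⟨-, -, -, -, -, -, -, h0, h1, h2, h3⟩ := checks
    have hle : alternatingGroup (Fin 6) ≤ H.map (alternatingGroup (Fin 6)).subtype := by
      have hA : ga ∈ H.map (alternatingGroup (Fin 6)).subtype := ⟨a, ha, rfl⟩
      have hB : gb ∈ H.map (alternatingGroup (Fin 6)).subtype := ⟨b, hb, rfl⟩
      refine Alt.Aut.closure_cyc_eq (a := 4) (b := 5) (by decide) _ fun i h4 h5 => ?_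
      obtain rfl | rfl | rfl | rfl : i = 0 ∨ i = 1 ∨ i = 2 ∨ i = 3 := by
        revert i; decide
      · rw [← h0]
        exact mul_mem (mul_mem (mul_mem (mul_mem (mul_mem (mul_mem hA hA) hB) hA) hB) hA) hB
      · rw [← h1]
        exact mul_mem (mul_mem (mul_mem (mul_mem (mul_mem (mul_mem (mul_mem hB hB) hA) hB) hA) hA) hB) hA
      · rw [← h2]
        exact mul_mem (mul_mem (mul_mem (mul_mem (mul_mem (mul_mem hA hB) hA) hB) hA) hA) hB
      · rw [← h3]; exact hB
    obtain ⟨g', hg', e⟩ := hle g.2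
    rwa [← show g' = g from Subtype.ext e]
  haveI : Finite (MulAut (alternatingGroup (Fin 6))) :=
    Finite.of_injective (fun φ g => φ g) DFunLike.coe_injective
  set S5 := Finset.univ.filter fun w : Perm (Fin 6) => Perm.sign w = 1 ∧ w ^ 5 = 1 ∧ w ≠ 1
  set S3 := Finset.univ.filter fun w : Perm (Fin 6) => Perm.sign w = 1 ∧ w ^ 3 = 1 ∧
    (ga * w) ^ 4 = 1 ∧ (ga * w) ^ 2 ≠ 1 ∧ (ga * (w * w)) ^ 5 = 1
  have hA : Nat.card (alternatingGroup (Fin 6)) = 360 := by rw [nat_card_alternatingGroup, Nat.card_fin]; rfl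
  set c : Perm (Fin 6) →* MulAut (alternatingGroup (Fin 6)) := MulAut.conjNormal
  have hc : Function.Injective c := (injective_iff_map_eq_one c).2 fun g hg =>
    Alt.Aut.eq_one_of_centralizes (by simp) fun u hu => by
      have h1 := congrArg Subtype.val (DFunLike.congr_fun hg (⟨u, hu⟩ : alternatingGroup (Fin 6)))
      rw [MulAut.conjNormal_apply] at h1
      exact mul_inv_eq_iff_eq_mul.1 h1
  have h720 : 720 ∣ Nat.card (MulAut (alternatingGroup (Fin 6))) := by
    have := Subgroup.card_dvd_of_injective c hc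
    rwa [Nat.card_perm, Nat.card_fin] at this
  have hfiber : ∀ w : Perm (Fin 6), Perm.sign w = 1 → w ^ 5 = 1 → w ≠ 1 →
      Nat.card {φ : MulAut (alternatingGroup (Fin 6)) // ((φ a : alternatingGroup (Fin 6)) : Perm (Fin 6)) = w} ≤ 10 := by
    intro w hw1 hw5 hw
    obtain ⟨σ, hσ⟩ : ∃ σ : Perm (Fin 6), σ * w * σ⁻¹ = ga := by
      refine isConj_iff.1 (Perm.isConj_iff_cycleType_eq.2 ?_)
      have ht : ∀ v : Perm (Fin 6), v ^ 5 = 1 → v ≠ 1 → v.cycleType = {5} := by
        intro v h5 h1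
        have ho : orderOf v = 5 := orderOf_eq_prime (hp := ⟨by norm_num⟩) h5 h1
        obtain ⟨k, hk⟩ := Perm.cycleType_prime_order (σ := v) (by rw [ho]; norm_num)
        have hs : v.cycleType.sum ≤ 6 :=
          (Perm.sum_cycleType _).trans_le ((Finset.card_le_univ _).trans_eq (Fintype.card_fin 6))
        rw [hk, ho, Multiset.sum_replicate, smul_eq_mul] at hs
        rw [hk, ho, show k = 0 by omega]
        rfl
      rw [ht w hw5 hw, ht ga checks.2.2.1 (by decide +kernel)]
    refine (Nat.card_le_card_of_injective (fun φ => (⟨((c σ (φ.1 b) : alternatingGroup (Fin 6)) : Perm (Fin 6)), ?_⟩ : S3)) ?_).trans_eq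
      (by rw [Nat.card_eq_fintype_card, Fintype.card_coe]; exact count3)
    · obtain ⟨φ, hφ⟩ := φ
      obtain ⟨-, -, -, hb3, hab4, hab2, hab5, -⟩ := checks
      set ψ := c σ * φ
      have hψa : ((ψ a : alternatingGroup (Fin 6)) : Perm (Fin 6)) = ga := by
        show ((c σ (φ a) : alternatingGroup (Fin 6)) : Perm (Fin 6)) = ga
        rw [MulAut.conjNormal_apply, hφ, hσ]
      refine Finset.mem_filter.2 ⟨Finset.mem_univ _, (ψ b).2, ?_, ?_, ?_, ?_⟩
      · show (((ψ b) ^ 3 : alternatingGroup (Fin 6)) : Perm (Fin 6)) = 1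
        rw [← map_pow, show b ^ 3 = 1 from Subtype.ext hb3, map_one]; rfl
      · show (ga * ((ψ b : alternatingGroup (Fin 6)) : Perm (Fin 6))) ^ 4 = 1
        rw [← hψa, ← Subgroup.coe_mul, ← map_mul, ← SubmonoidClass.coe_pow, ← map_pow,
          show (a * b) ^ 4 = 1 from Subtype.ext hab4, map_one]; rfl
      · show (ga * ((ψ b : alternatingGroup (Fin 6)) : Perm (Fin 6))) ^ 2 ≠ 1
        rw [← hψa, ← Subgroup.coe_mul, ← map_mul, ← SubmonoidClass.coe_pow, ← map_pow]
        intro e
        have e2 : ψ ((a * b) ^ 2) = ψ 1 := Subtype.ext (e.trans (by rw [map_one]; rfl))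
        have e3 := congrArg (fun u : alternatingGroup (Fin 6) => (u : Perm (Fin 6))) (ψ.injective e2)
        simp only [SubmonoidClass.coe_pow, Subgroup.coe_mul, OneMemClass.coe_one] at e3
        exact hab2 e3
      · show (ga * (((ψ b : alternatingGroup (Fin 6)) : Perm (Fin 6)) * ((ψ b : alternatingGroup (Fin 6)) : Perm (Fin 6)))) ^ 5 = 1
        rw [← hψa, ← Subgroup.coe_mul, ← map_mul, ← Subgroup.coe_mul, ← map_mul, ← SubmonoidClass.coe_pow, ← map_pow,
          show (a * (b * b)) ^ 5 = 1 from Subtype.ext hab5, map_one]; rfl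
    · intro φ φ' e
      have e' := Subtype.ext_iff.1 e
      simp only at e'
      have h1 : φ.1 b = φ'.1 b := (c σ).injective (Subtype.ext e')
      have h2 : φ.1 a = φ'.1 a := Subtype.ext (φ.2.trans φ'.2.symm)
      have h3 := hgen (φ.1.toMonoidHom.eqLocus φ'.1.toMonoidHom) h2 h1
      exact Subtype.ext (MulEquiv.ext fun g => (h3 ▸ Subgroup.mem_top g :
        g ∈ φ.1.toMonoidHom.eqLocus φ'.1.toMonoidHom))
  have hupper : Nat.card (MulAut (alternatingGroup (Fin 6))) ≤ 1440 := by
    haveI := Fintype.ofFinite (MulAut (alternatingGroup (Fin 6)))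
    rw [Nat.card_eq_fintype_card, ← Finset.card_univ]
    refine (Finset.card_le_mul_card_image_of_maps_to (f := fun φ : MulAut (alternatingGroup (Fin 6)) =>
      ((φ a : alternatingGroup (Fin 6)) : Perm (Fin 6))) (t := S5) (fun φ _ => ?_) 10 fun w hw => ?_).trans ?_
    · refine Finset.mem_filter.2 ⟨Finset.mem_univ _, (φ a).2, ?_, ?_⟩
      · show (((φ a) ^ 5 : alternatingGroup (Fin 6)) : Perm (Fin 6)) = 1
        rw [← map_pow, show a ^ 5 = 1 from Subtype.ext checks.2.2.1, map_one]; rfl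
      · intro e
        have : φ a = φ 1 := Subtype.ext (e.trans (by rw [map_one]; rfl))
        exact (show ga ≠ 1 by decide +kernel) (congrArg Subtype.val (φ.injective this))
    · obtain ⟨-, h1, h2, h3⟩ := Finset.mem_filter.1 hw
      refine le_trans (le_of_eq ?_) (hfiber w h1 h2 h3)
      rw [Nat.card_eq_fintype_card, Fintype.card_subtype]
    · rw [show S5.card = 144 from count5]
  obtain ⟨k, hk⟩ := h720
  have hpos := Nat.card_pos (α := MulAut (alternatingGroup (Fin 6)))
  refine ⟨2 * k, by omega, by omega⟩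

/-- Let n ≥ 5, let G be a group between the inner and the full automorphism group of the alternating group of degree n, and p ≠ q primes with no element of order p·q in G. Then the Sylow p-subgroups or the Sylow q-subgroups of G are abelian. -/
theorem result (n : ℕ) (hn : 5 ≤ n) (G : Subgroup (MulAut (alternatingGroup (Fin n))))
    (hG : (MulAut.conj : alternatingGroup (Fin n) →* MulAut (alternatingGroup (Fin n))).range ≤ G)
    (p q : ℕ) [Fact p.Prime] [Fact q.Prime] (hpq : p ≠ q) (h : ∀ g : G, orderOf g ≠ p * q) :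
    (∀ P : Sylow p G, IsMulCommutative (P : Subgroup G)) ∨ (∀ Q : Sylow q G, IsMulCommutative (Q : Subgroup G)) := by
  classical
  haveI : Finite (MulAut (alternatingGroup (Fin n))) :=
    Finite.of_injective (fun φ g => φ g) DFunLike.coe_injective
  have hp : p.Prime := Fact.out
  have hq : q.Prime := Fact.out
  by_cases h6 : n = 6
  · subst h6
    obtain ⟨k, hk, hcard⟩ := six
    have key : ∀ (r : ℕ) [Fact r.Prime], r ≠ 2 → ∀ P : Sylow r G, IsMulCommutative (P : Subgroup G) := by
      intro r _ hr P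
      have hr' : r.Prime := Fact.out
      obtain ⟨e, he⟩ := IsPGroup.iff_card.1 P.2
      have he2 : e ≤ 2 := by
        by_contra h'
        have h1 : r ^ 3 ∣ 360 * k := hcard ▸ ((Nat.pow_dvd_pow r (show 3 ≤ e by omega)).trans
          (he ▸ ((P : Subgroup G).card_subgroup_dvd_card.trans G.card_subgroup_dvd_card)))
        have hr3 : 3 ≤ r := by have := hr'.two_le; omega
        have h2 : r ^ 3 ≤ 360 * k := Nat.le_of_dvd (by omega) h1
        have h3 : r ≤ 11 := by
          by_contra h4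
          have := Nat.pow_le_pow_left (show 12 ≤ r by omega) 3
          omega
        rcases hk with rfl | rfl <;> interval_cases r <;> first | (revert hr'; norm_num; done) | (revert h1; norm_num; done) | (revert h1; decide)
      interval_cases e
      · haveI : Subsingleton (P : Subgroup G) := (Nat.card_eq_one_iff_unique.1 he).1
        exact ⟨⟨fun a b => Subsingleton.elim _ _⟩⟩
      · haveI : IsCyclic (P : Subgroup G) := isCyclic_of_prime_card (p := r) (by rw [he, pow_one])
        letI := IsCyclic.commGroup (α := (P : Subgroup G))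
        exact ⟨⟨mul_comm⟩⟩
      · exact ⟨⟨IsPGroup.commutative_of_card_eq_prime_sq he⟩⟩
    by_cases hp2 : p = 2
    · exact Or.inr (key q fun h2 => hpq (hp2.trans h2.symm))
    · exact Or.inl (key p hp2)
  let e := MulEquiv.ofBijective _ (S2119.result n (by omega) h6)
  have key : ∀ (r : ℕ) [Fact r.Prime], n < r ^ 2 → ∀ P : Sylow r G, IsMulCommutative (P : Subgroup G) := fun r _ hr P =>
    abelian_of_lt hr P.2 ((e.symm.toMonoidHom.comp G.subtype).comp (P : Subgroup G).subtype)
      (e.symm.injective.comp (G.subtype_injective.comp (P : Subgroup G).subtype_injective))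
  by_contra hcon
  push Not at hcon
  have hpn : p ^ 2 ≤ n := by
    by_contra h'; exact hcon.1.elim fun P hP => hP (key p (by omega) P)
  have hqn : q ^ 2 ≤ n := by
    by_contra h'; exact hcon.2.elim fun P hP => hP (key q (by omega) P)
  obtain ⟨m, hsum, htwo, hev, hlcm⟩ : ∃ m : Multiset ℕ, m.sum ≤ n ∧ (∀ a ∈ m, 2 ≤ a) ∧
      Even (m.sum + Multiset.card m) ∧ m.lcm = p * q := by
    have hodd : ∀ r : ℕ, r.Prime → r ≠ 2 → Odd r := fun r hr h2 => hr.odd_of_ne_two h2
    have hmk : ∀ r : ℕ, r.Prime → r ≠ 2 → r ^ 2 ≤ n → ∃ m : Multiset ℕ, m.sum ≤ n ∧ (∀ a ∈ m, 2 ≤ a) ∧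
        Even (m.sum + Multiset.card m) ∧ m.lcm = r * 2 := by
      intro r hr h2 hrn
      refine ⟨{r, 2, 2}, ?_, ?_, ?_, ?_⟩
      · have := hr.two_le
        have : 3 * r ≤ r ^ 2 := by rw [sq]; exact Nat.mul_le_mul_right r (by omega)
        simp; omega
      · simp; exact hr.two_le
      · obtain ⟨t, ht⟩ := hodd r hr h2
        simp; exact ⟨t + 4, by omega⟩
      · simp only [Multiset.insert_eq_cons, Multiset.lcm_cons, Multiset.lcm_singleton]
        simp only [normalize_eq]
        rw [show lcm 2 2 = 2 from Nat.lcm_self 2]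
        exact ((Nat.coprime_primes hr Nat.prime_two).2 h2).lcm_eq_mul
    by_cases hp2 : p = 2
    · obtain ⟨m, h1, h2, h3, h4⟩ := hmk q hq (fun h' => hpq (hp2.trans h'.symm)) hqn
      exact ⟨m, h1, h2, h3, by rw [h4, hp2, mul_comm]⟩
    by_cases hq2 : q = 2
    · obtain ⟨m, h1, h2, h3, h4⟩ := hmk p hp hp2 hpn
      exact ⟨m, h1, h2, h3, by rw [h4, hq2]⟩
    refine ⟨{p, q}, ?_, ?_, ?_, ?_⟩
    · have := hp.two_le; have := hq.two_le
      have : 2 * p ≤ p ^ 2 := by rw [sq]; exact Nat.mul_le_mul_right p hp.two_le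
      have : 2 * q ≤ q ^ 2 := by rw [sq]; exact Nat.mul_le_mul_right q hq.two_le
      simp; omega
    · simp; exact ⟨hp.two_le, hq.two_le⟩
    · obtain ⟨t, ht⟩ := hodd p hp hp2
      obtain ⟨u, hu⟩ := hodd q hq hq2
      simp; exact ⟨t + u + 2, by omega⟩
    · simp only [Multiset.insert_eq_cons, Multiset.lcm_cons, Multiset.lcm_singleton]
      simp only [normalize_eq]
      exact ((Nat.coprime_primes hp hq).2 hpq).lcm_eq_mul
  obtain ⟨g, hg⟩ := (Perm.exists_with_cycleType_iff (Fin n)).2 ⟨by rwa [Fintype.card_fin], htwo⟩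
  have hgA : g ∈ alternatingGroup (Fin n) := by
    rw [Perm.mem_alternatingGroup, Perm.sign_of_cycleType, hg, hev.neg_one_pow]
  have hord : orderOf (⟨g, hgA⟩ : alternatingGroup (Fin n)) = p * q := by
    rw [← hlcm, ← hg, Perm.lcm_cycleType, Subgroup.orderOf_mk]
  have hinj : Function.Injective (MulAut.conj : alternatingGroup (Fin n) →* _) := (injective_iff_map_eq_one _).2 fun a ha =>
    Subtype.ext (Alt.Aut.eq_one_of_centralizes (by rw [Fintype.card_fin]; omega) fun u hu =>
      mul_inv_eq_iff_eq_mul.1 (congrArg Subtype.val (DFunLike.congr_fun ha (⟨u, hu⟩ : alternatingGroup (Fin n)))))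
  refine h ⟨MulAut.conj (⟨g, hgA⟩ : alternatingGroup (Fin n)), hG ⟨_, rfl⟩⟩ ?_
  rw [Subgroup.orderOf_mk, orderOf_injective MulAut.conj hinj, hord]

end Cfsg.Agent.S4231
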