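import Cfsg.Statements.S4234
import Cfsg.Agent.Lib.SmallSimple.Basic
import Cfsg.Agent.Lib.Classical.Order
import Mathlib.LinearAlgebra.Projectivization.PSL.PSL2

set_option autoImplicit false
open Cfsg

namespace Cfsg.Agent.S4234

open Subgroup
open Cfsg.Agent.Lib.SmallSimple

/-! ### Simple groups of order 1092 -/

section Simple

variable {Q : Type*} [Group Q] [Finite Q] [IsSimpleGroup Q] (hQ : Nat.card Q = 1092)

include hQ

private theorem na : ¬ IsMulCommutative Q :=
  not_isMulCommutative_of_card (by rw [hQ]; norm_num)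

private theorem index_ge {H : Subgroup Q} (hH : H ≠ ⊤) : 13 ≤ H.index := by
  by_contra h
  push Not at h
  have h2 := two_mul_card_dvd_factorial (na hQ) H hH
  have h3 : H.index.factorial ∣ (12 : ℕ).factorial := Nat.factorial_dvd_factorial (by omega)
  have h4 := h2.trans h3
  rw [hQ] at h4
  norm_num [Nat.factorial] at h4

private theorem card_normalizer_mul {p : ℕ} [Fact p.Prime] (P : Sylow p Q) :
    Nat.card (normalizer ((P : Subgroup Q) : Set Q)) * Nat.card (Sylow p Q) = 1092 := by
  rw [card_sylow_eq_index P, Subgroup.card_mul_index, hQ]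

private theorem card_sylow_prime {p : ℕ} [Fact p.Prime] (m : ℕ) (h : 1092 = p * m) (hm : ¬ p ∣ m)
    (P : Sylow p Q) : Nat.card (P : Subgroup Q) = p := by
  simpa using card_sylow_subgroup P (k := 1) (m := m) (by rw [hQ, pow_one]; exact h) hm

private theorem card_normalizer_thirteen [Fact (Nat.Prime 13)] (P : Sylow 13 Q) :
    Nat.card (normalizer ((P : Subgroup Q) : Set Q)) = 78 := by
  obtain ⟨h1, h2, -⟩ := card_sylow_facts (p := 13) (na hQ) (by rw [hQ]; norm_num)
  have h3 := P.card_dvd_index
  have hidx : (P : Subgroup Q).index = 84 := by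
    have := (P : Subgroup Q).card_mul_index
    rw [card_sylow_prime hQ 84 rfl (by norm_num) P, hQ] at this; omega
  rw [hidx] at h3
  have h4 := card_normalizer_mul hQ P
  have hle := Nat.le_of_dvd (by norm_num) h3
  generalize Nat.card (Sylow 13 Q) = n at *
  interval_cases n <;> omega

private theorem card_normalizer_seven [Fact (Nat.Prime 7)] (P : Sylow 7 Q) :
    Nat.card (normalizer ((P : Subgroup Q) : Set Q)) = 14 := by
  obtain ⟨h1, h2, -⟩ := card_sylow_facts (p := 7) (na hQ) (by rw [hQ]; norm_num)
  have h3 := P.card_dvd_index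
  have hidx : (P : Subgroup Q).index = 156 := by
    have := (P : Subgroup Q).card_mul_index
    rw [card_sylow_prime hQ 156 rfl (by norm_num) P, hQ] at this; omega
  rw [hidx] at h3
  have h4 := card_normalizer_mul hQ P
  have hle := Nat.le_of_dvd (by norm_num) h3
  generalize Nat.card (Sylow 7 Q) = n at *
  interval_cases n <;> omega

omit [IsSimpleGroup Q] in
/-- A subgroup with only one possible Sylow number is normalised only inside a Sylow normaliser. -/
private theorem exists_char_sylow {p : ℕ} [hp : Fact p.Prime] (H : Subgroup Q) (m : ℕ)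
    (hH : Nat.card H = p * m) (hQp : ∀ P : Sylow p Q, Nat.card (P : Subgroup Q) = p)
    (hm : ∀ d, d ∣ m → d % p = 1 → d = 1) (hpm : ¬ p ∣ m) :
    ∃ P : Sylow p Q, (P : Subgroup Q) ≤ H ∧
      normalizer (H : Set Q) ≤ normalizer ((P : Subgroup Q) : Set Q) := by
  let R : Sylow p H := default
  have hRc : Nat.card (R : Subgroup H) = p := by
    simpa using card_sylow_subgroup R (k := 1) (m := m) (by rw [hH, pow_one]) hpm
  have hidx : (R : Subgroup H).index = m := by
    have := (R : Subgroup H).card_mul_index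
    rw [hRc, hH] at this
    exact Nat.eq_of_mul_eq_mul_left hp.out.pos this
  have hn : Nat.card (Sylow p H) = 1 := by
    refine hm _ (hidx ▸ R.card_dvd_index) ?_
    have := card_sylow_modEq_one p H
    rwa [Nat.ModEq, Nat.mod_eq_of_lt hp.out.one_lt] at this
  set S : Subgroup Q := (R : Subgroup H).map H.subtype with hS
  have hScard : Nat.card S = p := by
    rw [hS, card_map_of_injective H.subtype_injective, hRc]
  have hSp : IsPGroup p S := IsPGroup.of_card (n := 1) (by rw [hScard, pow_one])
  obtain ⟨P, hP⟩ := hSp.exists_le_sylow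
  have hPS : (P : Subgroup Q) = S := (eq_of_le_of_card_ge hP (by rw [hQp P, hScard])).symm
  refine ⟨P, hPS ▸ map_subtype_le _, fun g hg => ?_⟩
  rw [hPS]
  have huniq : ∀ T : Subgroup Q, T ≤ H → Nat.card T = p → T = S := by
    intro T hT hTc
    have hT' : IsPGroup p (T.subgroupOf H) := IsPGroup.of_card (n := 1) (by
      rw [Nat.card_congr (subgroupOfEquivOfLe hT).toEquiv, hTc, pow_one])
    obtain ⟨R', hR'⟩ := hT'.exists_le_sylow
    have : Subsingleton (Sylow p H) := (Nat.card_eq_one_iff_unique.1 hn).1
    rw [Subsingleton.elim R' R] at hR'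
    refine eq_of_le_of_card_ge (fun t ht => ?_) (by rw [hTc, hScard])
    exact ⟨⟨t, hT ht⟩, hR' (show (⟨t, hT ht⟩ : H) ∈ T.subgroupOf H from ht), rfl⟩
  have hconj : S.map (MulAut.conj g).toMonoidHom = S := by
    refine huniq _ ?_ ?_
    · rintro _ ⟨x, hx, rfl⟩
      exact (mem_normalizer_iff.1 hg x).1 (map_subtype_le (R : Subgroup H) hx)
    · rw [card_map_of_injective (MulAut.conj g).injective, hScard]
  rw [mem_normalizer_iff]
  intro x
  constructor
  · intro hx
    rw [← hconj]
    exact ⟨x, hx, rfl⟩
  · intro hx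
    rw [← hconj] at hx
    obtain ⟨y, hy, hyx⟩ := hx
    have : y = x := (MulAut.conj g).injective hyx
    exact this ▸ hy

private theorem no_seven {H : Subgroup Q} (m : ℕ) (hH : Nat.card H = 7 * m)
    (hm : ∀ d, d ∣ m → d % 7 = 1 → d = 1) (hpm : ¬ 7 ∣ m) : m ≤ 2 := by
  have : Fact (Nat.Prime 7) := ⟨by norm_num⟩
  obtain ⟨P, -, hN⟩ := exists_char_sylow hQ H m hH (card_sylow_prime hQ 156 rfl (by norm_num)) hm hpm
  have h1 := card_le_of_le (le_normalizer.trans hN : H ≤ _)
  rw [card_normalizer_seven hQ P, hH] at h1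
  omega

private theorem no_thirteen {H : Subgroup Q} (m : ℕ) (hH : Nat.card H = 13 * m)
    (hm : ∀ d, d ∣ m → d % 13 = 1 → d = 1) (hpm : ¬ 13 ∣ m) : m ∣ 6 := by
  have : Fact (Nat.Prime 13) := ⟨by norm_num⟩
  obtain ⟨P, -, hN⟩ := exists_char_sylow hQ H m hH (card_sylow_prime hQ 84 rfl (by norm_num)) hm hpm
  have h1 := card_dvd_of_le (le_normalizer.trans hN : H ≤ _)
  rw [card_normalizer_thirteen hQ P, hH] at h1
  exact (Nat.mul_dvd_mul_iff_left (by norm_num : 0 < 13)).1 (by simpa using h1)

/-- The possible orders of the proper subgroups. -/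
private theorem card_cases {H : Subgroup Q} (hH : H ≠ ⊤) :
    Nat.card H ∈ [1, 2, 3, 4, 6, 7, 12, 13, 14, 26, 39, 78] := by
  have h1 := H.card_mul_index
  rw [hQ] at h1
  have h2 := index_ge hQ hH
  have hle : Nat.card H ≤ 84 := by
    by_contra h
    push Not at h
    have := Nat.mul_le_mul h h2
    omega
  have hd : Nat.card H ∣ 1092 := hQ ▸ Subgroup.card_subgroup_dvd_card H
  have hpos : 0 < Nat.card H := Nat.card_pos
  obtain ⟨c, hc⟩ : ∃ c, Nat.card H = c := ⟨_, rfl⟩
  rw [hc] at hd hle hpos ⊢
  interval_cases c <;> first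
    | (simp; done)
    | (exfalso; revert hd; norm_num; done)
    | (exfalso
       first
         | (have := no_seven hQ 3 (H := H) hc (fun d hd h1 => by
              have := Nat.le_of_dvd (by norm_num) hd; omega) (by norm_num); omega)
         | (have := no_seven hQ 4 (H := H) hc (fun d hd h1 => by
              have := Nat.le_of_dvd (by norm_num) hd; omega) (by norm_num); omega)
         | (have := no_seven hQ 6 (H := H) hc (fun d hd h1 => by
              have := Nat.le_of_dvd (by norm_num) hd; omega) (by norm_num); omega)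
         | (have := no_seven hQ 12 (H := H) hc (fun d hd h1 => by
              have := Nat.le_of_dvd (by norm_num) hd
              by_contra hne
              have : d = 8 := by omega
              subst this; norm_num at hd) (by norm_num); omega)
         | (have := no_thirteen hQ 4 (H := H) hc (fun d hd h1 => by
              have := Nat.le_of_dvd (by norm_num) hd; omega) (by norm_num)
            revert this; norm_num))

private theorem coatom_of_card {M : Subgroup Q}
    (hM : Nat.card M = 12 ∨ Nat.card M = 14 ∨ Nat.card M = 78) : IsCoatom M := by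
  have hne : M ≠ ⊤ := fun h => by rw [h, card_top, hQ] at hM; omega
  refine ⟨hne, fun X hX => ?_⟩
  by_contra hXt
  have h1 := card_cases hQ hXt
  have h2 := card_dvd_of_le hX.le
  have h3 : Nat.card M < Nat.card X := by
    refine lt_of_le_of_ne (card_le_of_le hX.le) fun h => hX.ne (eq_of_le_of_card_ge hX.le h.ge)
  simp only [List.mem_cons, List.not_mem_nil, or_false] at h1
  rcases hM with hM | hM | hM <;> rw [hM] at h2 h3 <;>
    rcases h1 with h | h | h | h | h | h | h | h | h | h | h | h <;> rw [h] at h2 h3 <;>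
    first | omega | (revert h2; norm_num)

private theorem centralizer_thirteen [Fact (Nat.Prime 13)] (P : Sylow 13 Q) :
    centralizer ((P : Subgroup Q) : Set Q) = (P : Subgroup Q) := by
  classical
  have hPc := card_sylow_prime hQ 84 rfl (by norm_num) P
  have hcard : Nat.card (Sylow 13 Q) = 14 := by
    have := card_normalizer_mul hQ P; rw [card_normalizer_thirteen hQ P] at this; omega
  have hab : IsMulCommutative (P : Subgroup Q) := by
    have : IsCyclic (P : Subgroup Q) := isCyclic_of_prime_card hPc
    infer_instance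
  have hPC : (P : Subgroup Q) ≤ centralizer ((P : Subgroup Q) : Set Q) := le_centralizer_iff_isMulCommutative.2 hab
  -- elements of order prime to 13 centralising the Sylow subgroup act trivially
  have hfix : ∀ y ∈ centralizer ((P : Subgroup Q) : Set Q), ∀ k, y ^ k = 1 → ¬ 13 ∣ k → y = 1 := by
    intro y hy k hk hk13
    have hstab : ∀ R : Sylow 13 Q, R ≠ P →
        ∀ u ∈ (P : Subgroup Q), u • R = R → u = 1 := by
      intro R hR u hu hfx
      have hun : u ∈ normalizer ((R : Subgroup Q) : Set Q) := Sylow.smul_eq_iff_mem_normalizer.1 hfx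
      have hz : IsPGroup 13 (zpowers u) := P.isPGroup'.to_le (zpowers_le.2 hu)
      have hsup : IsPGroup 13 ((R : Subgroup Q) ⊔ zpowers u : Subgroup Q) :=
        R.isPGroup'.to_sup_of_normal_left' hz (zpowers_le.2 hun)
      have heq := R.is_maximal' hsup le_sup_left
      have huR : u ∈ (R : Subgroup Q) := heq.le (le_sup_right (a := (R : Subgroup Q)) (mem_zpowers u))
      by_contra hu1
      apply hR
      have e1 : ∀ S : Sylow 13 Q, u ∈ (S : Subgroup Q) → (S : Subgroup Q) = zpowers u := by
        intro S hS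
        refine (eq_of_le_of_card_ge (zpowers_le.2 hS) ?_).symm
        rw [card_sylow_prime hQ 84 rfl (by norm_num) S, Nat.card_zpowers]
        have ho : orderOf u ∣ 13 :=
          card_sylow_prime hQ 84 rfl (by norm_num) S ▸ orderOf_dvd_natCard (S : Subgroup Q) hS
        rcases (Nat.dvd_prime Fact.out).1 ho with h | h
        · exact absurd (orderOf_eq_one_iff.1 h) hu1
        · omega
      exact Sylow.ext ((e1 R huR).trans (e1 P hu).symm)
    have hall : ∀ R : Sylow 13 Q, y • R = R := by
      have hyP : y • P = P := Sylow.smul_eq_iff_mem_normalizer.2 (centralizer_le_normalizer _ hy)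
      intro R
      by_cases hR : R = P
      · rw [hR]; exact hyP
      · -- the orbit of `R` under `P` contains everything except `P`
        have hinj : Function.Injective (fun u : (P : Subgroup Q) => (u : Q) • R) := by
          intro u v huv
          have : ((v : Q)⁻¹ * u) • R = R := by
            rw [mul_smul]; simp only at huv; rw [huv, inv_smul_smul]
          have := hstab R hR _ (mul_mem (inv_mem v.2) u.2) this
          exact Subtype.ext (inv_mul_eq_one.1 this).symm
        have hnP : ∀ u : (P : Subgroup Q), (u : Q) • R ≠ P := by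
          intro u h
          apply hR
          rw [← inv_smul_smul (u : Q) R, h]
          exact Sylow.smul_eq_iff_mem_normalizer.2 (le_normalizer (inv_mem u.2))
        have hsurj : ∀ S : Sylow 13 Q, S ≠ P → ∃ u : (P : Subgroup Q), (u : Q) • R = S := by
          intro S hS
          let f : Option (P : Subgroup Q) → Sylow 13 Q := fun o => o.elim P fun u => (u : Q) • R
          have hf : Function.Injective f := by
            rintro (_ | u) (_ | v) h
            · rfl
            · exact absurd h.symm (hnP v)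
            · exact absurd h (hnP u)
            · exact congrArg some (hinj h)
          have hb : Function.Bijective f := by
            refine (Nat.bijective_iff_injective_and_card f).2 ⟨hf, ?_⟩
            rw [Finite.card_option, hPc, hcard]
          obtain ⟨o, ho⟩ := hb.2 S
          cases o with
          | none => exact absurd ho.symm hS
          | some u => exact ⟨u, ho⟩
        have hyR : y • R ≠ P := fun h => hR (smul_left_cancel y (h.trans hyP.symm))
        obtain ⟨u, hu⟩ := hsurj (y • R) hyR
        have hcom : Commute y (u : Q) := (mem_centralizer_iff.1 hy u u.2).symm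
        have hiter : ∀ j : ℕ, (y ^ j) • R = ((u : Q) ^ j) • R := by
          intro j
          induction j with
          | zero => simp
          | succ j ih => rw [pow_succ, mul_smul, ← hu, ← mul_smul, (hcom.pow_left j).eq, mul_smul, ih,
              ← mul_smul, ← pow_succ']
        have h1 := hiter k
        rw [hk, one_smul] at h1
        have huk : (u : Q) ^ k = 1 := hstab R hR _ (pow_mem u.2 k) h1.symm
        have ho : orderOf (u : Q) ∣ 13 := (orderOf_dvd_natCard (P : Subgroup Q) u.2).trans (dvd_of_eq hPc)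
        have hu1 : (u : Q) = 1 := by
          rcases (Nat.dvd_prime Fact.out).1 ho with h | h
          · exact orderOf_eq_one_iff.1 h
          · exact absurd (h ▸ orderOf_dvd_of_pow_eq_one huk) hk13
        rw [← hu, hu1, one_smul]
    have hmem : y ∈ (normalizer ((P : Subgroup Q) : Set Q)).normalCore := by
      intro b
      have h := hall (b⁻¹ • P)
      refine Sylow.smul_eq_iff_mem_normalizer.1 ?_
      rw [mul_smul, mul_smul, h, smul_inv_smul]
    have hne := sylow_normalizer_ne_top (na hQ) P (by rw [hQ]; norm_num)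
    rcases (normalCore_normal (normalizer ((P : Subgroup Q) : Set Q))).eq_bot_or_eq_top with h | h
    · rwa [h, mem_bot] at hmem
    · exact absurd (top_le_iff.1 (h.ge.trans (normalCore_le _))) hne
  have hd : Nat.card (centralizer ((P : Subgroup Q) : Set Q)) ∣ 78 :=
    card_normalizer_thirteen hQ P ▸ card_dvd_of_le (centralizer_le_normalizer _)
  have hd13 := card_dvd_of_le hPC
  rw [hPc] at hd13
  obtain ⟨j, hj⟩ := hd13
  refine (eq_of_le_of_card_ge hPC ?_).symm
  rw [hPc, hj]
  by_contra hlt
  have hj1 : j ≠ 1 := by omega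
  obtain ⟨r, hr, hrj⟩ := Nat.exists_prime_and_dvd hj1
  have hr13 : r ≠ 13 := by
    rintro rfl
    have : 13 * 13 ∣ 78 := (Nat.mul_dvd_mul_left 13 hrj).trans (hj ▸ hd)
    norm_num at this
  have : Fact r.Prime := ⟨hr⟩
  obtain ⟨y, hy⟩ := exists_prime_orderOf_dvd_card' r
    (show r ∣ Nat.card (centralizer ((P : Subgroup Q) : Set Q)) from hj ▸ Dvd.dvd.mul_left hrj 13)
  have hy1 := hfix y y.2 r (by
      rw [← hy, ← Subgroup.orderOf_coe]; exact pow_orderOf_eq_one _)
    (fun h => hr13 ((Nat.prime_dvd_prime_iff_eq Fact.out hr).1 h).symm)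
  exact hr.ne_one (by rw [← hy, ← Subgroup.orderOf_coe, hy1, orderOf_one])

private theorem card_normalizer_three [Fact (Nat.Prime 3)] (P : Sylow 3 Q) :
    Nat.card (normalizer ((P : Subgroup Q) : Set Q)) = 12 := by
  obtain ⟨h1, h2, -⟩ := card_sylow_facts (p := 3) (na hQ) (by rw [hQ]; norm_num)
  have hPc := card_sylow_prime hQ 364 rfl (by norm_num) P
  have hab : IsMulCommutative (P : Subgroup Q) := by
    have : IsCyclic (P : Subgroup Q) := isCyclic_of_prime_card hPc
    infer_instance
  have hne := card_sylow_ne_index (na hQ) P (by rw [hQ]; norm_num) hab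
  have hidx : (P : Subgroup Q).index = 364 := by
    have := (P : Subgroup Q).card_mul_index; rw [hPc, hQ] at this; omega
  have h3 := P.card_dvd_index
  rw [hidx] at h3 hne
  have h4 := card_normalizer_mul hQ P
  have hc := card_cases hQ (sylow_normalizer_ne_top (na hQ) P (by rw [hQ]; norm_num))
  simp only [List.mem_cons, List.not_mem_nil, or_false] at hc
  obtain ⟨N, hN⟩ : ∃ N, Nat.card (normalizer ((P : Subgroup Q) : Set Q)) = N := ⟨_, rfl⟩
  rw [hN] at h4 hc ⊢
  rcases hc with rfl | rfl | rfl | rfl | rfl | rfl | rfl | rfl | rfl | rfl | rfl | rfl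
  all_goals first
    | rfl
    | omega
    | skip
  · -- order 39: the two normal Sylow subgroups would commute
    exfalso
    have : Fact (Nat.Prime 13) := ⟨by norm_num⟩
    obtain ⟨R, hRN, hNN⟩ := exists_char_sylow hQ _ 3 (p := 13) hN
      (card_sylow_prime hQ 84 rfl (by norm_num)) (fun d hd h1 => by
        have := Nat.le_of_dvd (by norm_num) hd; omega) (by norm_num)
    have hRP : (R : Subgroup Q) ⊓ (P : Subgroup Q) = ⊥ := by
      refine inf_eq_bot_of_coprime (Nat.Coprime.of_dvd dvd_rfl dvd_rfl ?_)
      rw [card_sylow_prime hQ 84 rfl (by norm_num) R, hPc]; norm_num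
    have hsub : (P : Subgroup Q) ≤ centralizer ((R : Subgroup Q) : Set Q) := by
      intro x hx
      rw [mem_centralizer_iff]
      intro r hr
      have hxR : x ∈ normalizer ((R : Subgroup Q) : Set Q) := hNN (le_normalizer (le_normalizer hx))
      have hrP : r ∈ normalizer ((P : Subgroup Q) : Set Q) := hRN hr
      have hc1 : r * x * r⁻¹ * x⁻¹ ∈ (R : Subgroup Q) ⊓ (P : Subgroup Q) := by
        refine ⟨?_, (P : Subgroup Q).mul_mem ((mem_normalizer_iff.1 hrP x).1 hx) ((P : Subgroup Q).inv_mem hx)⟩
        rw [show r * x * r⁻¹ * x⁻¹ = r * (x * r⁻¹ * x⁻¹) by group]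
        exact (R : Subgroup Q).mul_mem hr ((mem_normalizer_iff.1 hxR _).1 (inv_mem hr))
      rw [hRP, mem_bot, mul_inv_eq_one, mul_inv_eq_iff_eq_mul] at hc1
      exact hc1
    rw [centralizer_thirteen hQ R] at hsub
    have := card_dvd_of_le hsub
    rw [hPc, card_sylow_prime hQ 84 rfl (by norm_num) R] at this
    norm_num at this

private theorem card_normalizer_two [Fact (Nat.Prime 2)] (V : Sylow 2 Q) :
    Nat.card (normalizer ((V : Subgroup Q) : Set Q)) = 12 := by
  have hVc : Nat.card (V : Subgroup Q) = 4 := by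
    simpa using card_sylow_subgroup V (k := 2) (m := 273) (by rw [hQ]; norm_num) (by norm_num)
  have hab : IsMulCommutative (V : Subgroup Q) :=
    isMulCommutative_of_card_prime_sq (p := 2) _ (by simpa using hVc)
  have hne := card_sylow_ne_index (na hQ) V (by rw [hQ]; norm_num) hab
  have hidx : (V : Subgroup Q).index = 273 := by
    have := (V : Subgroup Q).card_mul_index; rw [hVc, hQ] at this; omega
  rw [hidx] at hne
  have h4 := card_normalizer_mul hQ V
  have hd := card_dvd_of_le (le_normalizer : (V : Subgroup Q) ≤ _)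
  rw [hVc] at hd
  have hc := card_cases hQ (sylow_normalizer_ne_top (na hQ) V (by rw [hQ]; norm_num))
  simp only [List.mem_cons, List.not_mem_nil, or_false] at hc
  obtain ⟨N, hN⟩ : ∃ N, Nat.card (normalizer ((V : Subgroup Q) : Set Q)) = N := ⟨_, rfl⟩
  rw [hN] at h4 hd hc ⊢
  rcases hc with rfl | rfl | rfl | rfl | rfl | rfl | rfl | rfl | rfl | rfl | rfl | rfl
  all_goals omega

private theorem card_centralizer_involution {s : Q} (hs : orderOf s = 2) :
    Nat.card (centralizer ({s} : Set Q)) = 12 := by
  have : Fact (Nat.Prime 2) := ⟨Nat.prime_two⟩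
  have : Fact (Nat.Prime 3) := ⟨Nat.prime_three⟩
  -- an involution centralising a Sylow 3-subgroup
  obtain ⟨P⟩ : Nonempty (Sylow 3 Q) := inferInstance
  have hPc := card_sylow_prime hQ 364 rfl (by norm_num) P
  have hN3 := card_normalizer_three hQ P
  have hPne : (P : Subgroup Q) ≠ ⊥ := fun h => by rw [h, card_bot] at hPc; omega
  obtain ⟨x, hx, hx1⟩ := (P : Subgroup Q).ne_bot_iff_exists_ne_one.1 hPne |> fun ⟨a, ha⟩ =>
    (⟨a.1, a.2, fun h => ha (Subtype.ext h)⟩ : ∃ a : Q, a ∈ (P : Subgroup Q) ∧ a ≠ 1)
  have hxo : orderOf x = 3 := by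
    have hd : orderOf x ∣ 3 := (orderOf_dvd_natCard (P : Subgroup Q) hx).trans (dvd_of_eq hPc)
    rcases (Nat.dvd_prime Nat.prime_three).1 hd with h | h
    · exact absurd (orderOf_eq_one_iff.1 h) hx1
    · exact h
  have hz : (P : Subgroup Q) = zpowers x :=
    (eq_of_le_of_card_ge (zpowers_le.2 hx) (by rw [Nat.card_zpowers, hxo, hPc])).symm
  obtain ⟨u, hu, hu2⟩ : ∃ u : Q, orderOf u = 2 ∧ Commute u x := by
    by_contra hcon
    push Not at hcon
    -- every element of even order of the normaliser inverts `x`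
    set N := normalizer ((P : Subgroup Q) : Set Q)
    have hinv : ∀ n ∈ N, n * x * n⁻¹ = x ∨ n * x * n⁻¹ = x⁻¹ := by
      intro n hn
      have h1 := (mem_normalizer_iff.1 hn x).1 hx
      rw [hz, mem_zpowers_iff] at h1
      obtain ⟨k, hk⟩ := h1
      rw [← zpow_mod_orderOf, hxo] at hk
      have hk' : k % (3 : ℕ) = 0 ∨ k % (3 : ℕ) = 1 ∨ k % (3 : ℕ) = 2 := by omega
      rcases hk' with h | h | h <;> rw [h] at hk
      · rw [zpow_zero] at hk
        exact absurd (conj_eq_one_iff.1 hk.symm) hx1
      · rw [zpow_one] at hk; exact Or.inl hk.symm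
      · right
        rw [← hk, eq_inv_iff_mul_eq_one, zpow_two, mul_assoc, ← pow_three]
        exact hxo ▸ pow_orderOf_eq_one x
    obtain ⟨V, hV⟩ : ∃ V : Subgroup N, Nat.card V = 4 := by
      obtain ⟨S⟩ : Nonempty (Sylow 2 N) := inferInstance
      have hS := card_sylow_subgroup S (k := 2) (m := 3) (by rw [hN3]; norm_num) (by norm_num)
      exact ⟨S, by simpa using hS⟩
    have hVab : IsMulCommutative V := isMulCommutative_of_card_prime_sq (p := 2) _ (by simpa using hV)
    -- two elements inverting `x` have product centralising it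
    have hodd : ∀ v : V, v ≠ 1 → ((v : N) : Q) * x * ((v : N) : Q)⁻¹ = x⁻¹ := by
      intro v hv
      rcases hinv _ (v : N).2 with h | h
      · exfalso
        have hcv : Commute ((v : N) : Q) x := mul_inv_eq_iff_eq_mul.1 h
        have hd : orderOf ((v : N) : Q) ∣ 2 ^ 2 := by
          rw [Subgroup.orderOf_coe, Subgroup.orderOf_coe]
          exact (hV ▸ orderOf_dvd_natCard v : orderOf v ∣ 4)
        obtain ⟨i, hi, ho⟩ := (Nat.dvd_prime_pow Nat.prime_two).1 hd
        have h2i : 2 ∣ orderOf ((v : N) : Q) := by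
          rw [ho]
          refine dvd_pow_self 2 fun h0 => hv ?_
          rw [h0, pow_zero, Subgroup.orderOf_coe, Subgroup.orderOf_coe] at ho
          exact orderOf_eq_one_iff.1 ho
        exact hcon _ (orderOf_pow_orderOf_div (orderOf_pos _).ne' h2i) (hcv.pow_left _)
      · exact h
    have : Finite V := inferInstance
    obtain ⟨a, b, ha, hb, hab'⟩ : ∃ a b : V, a ≠ 1 ∧ b ≠ 1 ∧ a * b ≠ 1 := by
      classical
      have := Fintype.ofFinite V
      have h3 : 2 < ((Finset.univ : Finset V).erase 1).card := by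
        rw [Finset.card_erase_of_mem (Finset.mem_univ _), Finset.card_univ, ← Nat.card_eq_fintype_card,
          hV]; norm_num
      obtain ⟨a, b, c, ha, hb, hc, hab, hac, hbc⟩ := Finset.two_lt_card_iff.1 h3
      rw [Finset.mem_erase] at ha hb hc
      by_cases h : a * b = 1
      · exact ⟨a, c, ha.1, hc.1, fun h' => hbc (mul_left_cancel (h.trans h'.symm))⟩
      · exact ⟨a, b, ha.1, hb.1, h⟩
    have h1 := hodd a ha
    have h2 := hodd b hb
    have h3 := hodd (a * b) hab'
    simp only [Subgroup.coe_mul] at h3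
    rw [mul_inv_rev, show ((a : N) : Q) * ((b : N) : Q) * x * (((b : N) : Q)⁻¹ * ((a : N) : Q)⁻¹) =
      ((a : N) : Q) * (((b : N) : Q) * x * ((b : N) : Q)⁻¹) * ((a : N) : Q)⁻¹ by group, h2,
      ← conj_inv, h1, inv_inv] at h3
    have : x ^ 2 = 1 := by
      rw [pow_two]; nth_rewrite 2 [h3]; exact mul_inv_cancel x
    have h23 := orderOf_dvd_of_pow_eq_one this
    rw [hxo] at h23
    norm_num at h23
  -- all involutions are conjugate to it
  obtain ⟨V, hV⟩ := ((IsPGroup.of_card (n := 1) (by rw [Nat.card_zpowers, hu, pow_one])) :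
    IsPGroup 2 (zpowers u)).exists_le_sylow
  have hVc : Nat.card (V : Subgroup Q) = 4 := by
    simpa using card_sylow_subgroup V (k := 2) (m := 273) (by rw [hQ]; norm_num) (by norm_num)
  have hab : IsMulCommutative (V : Subgroup Q) :=
    isMulCommutative_of_card_prime_sq (p := 2) _ (by simpa using hVc)
  have hconjV : ∀ w ∈ (V : Subgroup Q), w ≠ 1 → IsConj w u := by
    set N := normalizer ((V : Subgroup Q) : Set Q)
    obtain ⟨r, hr⟩ := exists_prime_orderOf_dvd_card' 3
      (show 3 ∣ Nat.card N by rw [card_normalizer_two hQ V]; norm_num)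
    have hro : orderOf (r : Q) = 3 := by rw [Subgroup.orderOf_coe, hr]
    have hr3 : (r : Q) ^ 3 = 1 := hro ▸ pow_orderOf_eq_one _
    -- some element of `V` is moved
    obtain ⟨w₀, hw₀, hmove⟩ : ∃ w₀ ∈ (V : Subgroup Q), (r : Q) * w₀ * (r : Q)⁻¹ ≠ w₀ := by
      by_contra hcon
      push Not at hcon
      refine not_normalizer_le_centralizer (na hQ) V (by rw [hQ]; norm_num) ?_
      have hC : (V : Subgroup Q) ≤ centralizer ((V : Subgroup Q) : Set Q) :=
        le_centralizer_iff_isMulCommutative.2 hab
      have hr' : (r : Q) ∈ centralizer ((V : Subgroup Q) : Set Q) :=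
        mem_centralizer_iff.2 fun h hh => (mul_inv_eq_iff_eq_mul.1 (hcon h hh)).symm
      have hle : (centralizer ((V : Subgroup Q) : Set Q)) ≤ N := centralizer_le_normalizer _
      refine (eq_of_le_of_card_ge hle ?_).ge
      have h4 := card_dvd_of_le hC
      have h3 : 3 ∣ Nat.card (centralizer ((V : Subgroup Q) : Set Q)) := hro ▸ orderOf_dvd_natCard _ hr'
      rw [hVc] at h4
      have : 12 ∣ Nat.card (centralizer ((V : Subgroup Q) : Set Q)) :=
        Nat.Coprime.mul_dvd_of_dvd_of_dvd (by norm_num : Nat.Coprime 4 3) h4 h3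
      rw [card_normalizer_two hQ V]
      exact Nat.le_of_dvd Nat.card_pos this
    classical
    have := Fintype.ofFinite Q
    let φ : Q → Q := fun z => (r : Q) * z * (r : Q)⁻¹
    have hφV : ∀ z ∈ (V : Subgroup Q), φ z ∈ (V : Subgroup Q) := fun z hz =>
      (mem_normalizer_iff.1 r.2 z).1 hz
    have hw1 : w₀ ≠ 1 := fun h => hmove (by rw [h]; group)
    have hφ3 : φ (φ (φ w₀)) = w₀ := by
      simp only [φ]
      calc _ = (r : Q) ^ 3 * w₀ * ((r : Q) ^ 3)⁻¹ := by rw [pow_three]; group
        _ = w₀ := by rw [hr3]; group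
    have hφinj : Function.Injective φ := fun a b h => by simpa [φ] using h
    have hdist : φ w₀ ≠ w₀ ∧ φ (φ w₀) ≠ w₀ ∧ φ (φ w₀) ≠ φ w₀ := by
      refine ⟨hmove, fun h => hmove ?_, fun h => hmove (hφinj h)⟩
      have : φ (φ (φ w₀)) = φ w₀ := by rw [h]
      rw [hφ3] at this
      exact this.symm
    have hφ1 : ∀ z, z ≠ 1 → φ z ≠ 1 := fun z hz h => hz (conj_eq_one_iff.1 h)
    have hcover : ((Finset.univ.filter fun z : Q => z ∈ (V : Subgroup Q)).erase 1) =
        {w₀, φ w₀, φ (φ w₀)} := by
      symm
      refine Finset.eq_of_subset_of_card_le ?_ ?_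
      · intro z hz
        simp only [Finset.mem_insert, Finset.mem_singleton] at hz
        simp only [Finset.mem_erase, Finset.mem_filter, Finset.mem_univ, true_and]
        rcases hz with rfl | rfl | rfl
        · exact ⟨hw1, hw₀⟩
        · exact ⟨hφ1 _ hw1, hφV _ hw₀⟩
        · exact ⟨hφ1 _ (hφ1 _ hw1), hφV _ (hφV _ hw₀)⟩
      · rw [Finset.card_erase_of_mem (by simp [(V : Subgroup Q).one_mem]), ← Fintype.card_subtype,
          ← Nat.card_eq_fintype_card, hVc, Finset.card_insert_of_notMem (by
            simp only [Finset.mem_insert, Finset.mem_singleton, not_or]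
            exact ⟨hdist.1.symm, hdist.2.1.symm⟩),
          Finset.card_insert_of_notMem (by simpa using hdist.2.2.symm), Finset.card_singleton]
    have hall : ∀ w ∈ (V : Subgroup Q), w ≠ 1 → IsConj w₀ w := by
      intro w hw hw1
      have : w ∈ ((Finset.univ.filter fun z : Q => z ∈ (V : Subgroup Q)).erase 1) := by simp [hw, hw1]
      rw [hcover] at this
      simp only [Finset.mem_insert, Finset.mem_singleton] at this
      rcases this with rfl | rfl | rfl
      · exact IsConj.refl _
      · exact isConj_iff.2 ⟨r, rfl⟩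
      · exact (isConj_iff.2 ⟨(r : Q), rfl⟩ : IsConj w₀ (φ w₀)).trans (isConj_iff.2 ⟨(r : Q), rfl⟩)
    have huV : u ∈ (V : Subgroup Q) := hV (mem_zpowers u)
    have hu1 : u ≠ 1 := fun h => by rw [h, orderOf_one] at hu; omega
    intro w hw hw1
    exact ((hall w hw hw1).symm).trans (hall u huV hu1)
  obtain ⟨V', hV'⟩ := ((IsPGroup.of_card (n := 1) (by rw [Nat.card_zpowers, hs, pow_one])) :
    IsPGroup 2 (zpowers s)).exists_le_sylow
  obtain ⟨g, hg⟩ := MulAction.exists_smul_eq Q V' V
  have hgs : g * s * g⁻¹ ∈ (V : Subgroup Q) := by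
    rw [← hg, Sylow.coe_subgroup_smul, ← SetLike.mem_coe, coe_pointwise_smul]
    exact ⟨s, hV' (mem_zpowers s), rfl⟩
  have hsu : IsConj s u := (isConj_iff.2 ⟨g, rfl⟩ : IsConj s (g * s * g⁻¹)).trans
    (hconjV _ hgs fun h => by rw [conj_eq_one_iff.1 h, orderOf_one] at hs; omega)
  obtain ⟨c, hc⟩ := isConj_iff.1 hsu
  -- centralizers of conjugate elements
  have hsame : Nat.card (centralizer ({s} : Set Q)) = Nat.card (centralizer ({u} : Set Q)) := by
    refine Nat.card_congr ((MulAut.conj c).toEquiv.subtypeEquiv fun z => ?_)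
    rw [mem_centralizer_singleton_iff, mem_centralizer_singleton_iff, ← hc]
    show z * s = s * z ↔ c * z * c⁻¹ * (c * s * c⁻¹) = c * s * c⁻¹ * (c * z * c⁻¹)
    rw [conj_mul, conj_mul]
    exact ⟨fun h => by rw [h], fun h => mul_left_cancel (mul_right_cancel h)⟩
  rw [hsame]
  have hVC : (V : Subgroup Q) ≤ centralizer ({u} : Set Q) := fun w hw =>
    mem_centralizer_singleton_iff.2
      (congrArg Subtype.val (mul_comm' (⟨w, hw⟩ : (V : Subgroup Q)) ⟨u, hV (mem_zpowers u)⟩))
  have h4 := card_dvd_of_le hVC
  rw [hVc] at h4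
  have h3 : 3 ∣ Nat.card (centralizer ({u} : Set Q)) :=
    hxo ▸ orderOf_dvd_natCard _ (mem_centralizer_singleton_iff.2 hu2.symm.eq)
  have h12 : 12 ∣ Nat.card (centralizer ({u} : Set Q)) :=
    Nat.Coprime.mul_dvd_of_dvd_of_dvd (by norm_num : Nat.Coprime 4 3) h4 h3
  have hne : centralizer ({u} : Set Q) ≠ ⊤ := by
    intro h
    have hu1 : u ≠ 1 := fun h => by rw [h, orderOf_one] at hu; omega
    have hcen : u ∈ center Q := mem_center_iff.2 fun g =>
      mem_centralizer_singleton_iff.1 (h ▸ mem_top g)
    rcases (inferInstance : (center Q).Normal).eq_bot_or_eq_top with h' | h'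
    · exact hu1 (mem_bot.1 (h' ▸ hcen))
    · exact na hQ (center_eq_top_iff.1 h')
  have hc := card_cases hQ hne
  simp only [List.mem_cons, List.not_mem_nil, or_false] at hc
  rcases hc with h | h | h | h | h | h | h | h | h | h | h | h <;> rw [h] at h12 ⊢ <;>
    first | rfl | (revert h12; norm_num)

/-- In a simple group of order 1092 all normalisers of nontrivial proper subgroups are maximal. -/
private theorem coatom_normalizer (H : Subgroup Q) (h1 : H ≠ ⊥) (h2 : H ≠ ⊤) :
    IsCoatom (normalizer (H : Set Q)) := by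
  have : Fact (Nat.Prime 2) := ⟨Nat.prime_two⟩
  have : Fact (Nat.Prime 3) := ⟨Nat.prime_three⟩
  have : Fact (Nat.Prime 7) := ⟨by norm_num⟩
  have : Fact (Nat.Prime 13) := ⟨by norm_num⟩
  have hne : normalizer (H : Set Q) ≠ ⊤ := fun h => by
    rcases (normalizer_eq_top_iff.1 h).eq_bot_or_eq_top with h' | h'
    · exact h1 h'
    · exact h2 h'
  have hc := card_cases hQ h2
  simp only [List.mem_cons, List.not_mem_nil, or_false] at hc
  -- a maximal subgroup inside a normaliser is the normaliser
  have self : (Nat.card H = 12 ∨ Nat.card H = 14 ∨ Nat.card H = 78) →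
      IsCoatom (normalizer (H : Set Q)) := by
    intro h
    have hH := coatom_of_card hQ h
    rcases (le_normalizer : H ≤ normalizer (H : Set Q)).eq_or_lt with he | hlt
    · rw [← he]; exact hH
    · exact absurd (hH.2 _ hlt) hne
  -- Sylow subgroups
  have syl : ∀ {p : ℕ} [Fact p.Prime] (P : Sylow p Q), Nat.card H = Nat.card (P : Subgroup Q) →
      IsPGroup p H → ∃ R : Sylow p Q, (R : Subgroup Q) = H := by
    intro p _ P hcard hp
    obtain ⟨R, hR⟩ := hp.exists_le_sylow
    exact ⟨R, (eq_of_le_of_card_ge hR (le_of_eq (by rw [hcard, Sylow.card_eq_multiplicity,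
      Sylow.card_eq_multiplicity]))).symm⟩
  have prime_case : ∀ {p : ℕ} [Fact p.Prime] (m N : ℕ), 1092 = p * m → ¬ p ∣ m → Nat.card H = p →
      (∀ P : Sylow p Q, Nat.card (normalizer ((P : Subgroup Q) : Set Q)) = N) →
      (N = 12 ∨ N = 14 ∨ N = 78) → IsCoatom (normalizer (H : Set Q)) := by
    intro p _ m N hm hpm hH hN hN'
    obtain ⟨P⟩ : Nonempty (Sylow p Q) := inferInstance
    obtain ⟨R, hR⟩ := syl P (by rw [hH, card_sylow_prime hQ m hm hpm P])
      (IsPGroup.of_card (n := 1) (by rw [hH, pow_one]))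
    subst hR
    exact coatom_of_card hQ (by rw [hN R]; exact hN')
  rcases hc with h | h | h | h | h | h | h | h | h | h | h | h
  · exact absurd (eq_bot_of_card_eq _ h) h1
  · -- order 2
    obtain ⟨x, hx⟩ := exists_prime_orderOf_dvd_card' 2 (show 2 ∣ Nat.card H by rw [h])
    have hxo : orderOf (x : Q) = 2 := by rw [Subgroup.orderOf_coe, hx]
    have hH : H = zpowers (x : Q) :=
      (eq_of_le_of_card_ge (zpowers_le.2 x.2) (by rw [Nat.card_zpowers, hxo, h])).symm
    have hN : normalizer (H : Set Q) = centralizer ({(x : Q)} : Set Q) := by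
      refine le_antisymm (fun g hg => mem_centralizer_singleton_iff.2 ?_) (fun g hg => ?_)
      · have h' := hH.le ((mem_normalizer_iff.1 hg x).1 x.2)
        obtain ⟨k, hk⟩ := mem_zpowers_iff.1 h'
        rw [← zpow_mod_orderOf, hxo] at hk
        have hk' : k % (2 : ℕ) = 0 ∨ k % (2 : ℕ) = 1 := by omega
        rcases hk' with h' | h' <;> rw [h'] at hk
        · rw [zpow_zero] at hk
          rw [conj_eq_one_iff.1 hk.symm, orderOf_one] at hxo
          omega
        · rw [zpow_one] at hk
          exact mul_inv_eq_iff_eq_mul.1 hk.symm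
      · rw [hH]
        refine centralizer_le_normalizer _ (mem_centralizer_iff.2 fun z hz => ?_)
        obtain ⟨k, rfl⟩ := mem_zpowers_iff.1 hz
        exact ((show Commute g (x : Q) from mem_centralizer_singleton_iff.1 hg).zpow_right k).eq.symm
    rw [hN]
    exact coatom_of_card hQ (Or.inl (card_centralizer_involution hQ hxo))
  · exact prime_case 364 12 rfl (by norm_num) h (card_normalizer_three hQ) (Or.inl rfl)
  · -- order 4
    obtain ⟨P⟩ : Nonempty (Sylow 2 Q) := inferInstance
    have hPc : Nat.card (P : Subgroup Q) = 4 := by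
      simpa using card_sylow_subgroup P (k := 2) (m := 273) (by rw [hQ]; norm_num) (by norm_num)
    obtain ⟨R, hR⟩ := syl P (by rw [h, hPc]) (IsPGroup.of_card (n := 2) (by rw [h]; norm_num))
    subst hR
    exact coatom_of_card hQ (Or.inl (card_normalizer_two hQ R))
  · -- order 6
    obtain ⟨P, hPH, hN⟩ := exists_char_sylow hQ H 2 (p := 3) h
      (card_sylow_prime hQ 364 rfl (by norm_num))
      (fun d hd h1 => by have := Nat.le_of_dvd (by norm_num) hd; omega) (by norm_num)
    have hle : H ≤ normalizer ((P : Subgroup Q) : Set Q) := le_normalizer.trans hN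
    have hrel : (H.subgroupOf (normalizer ((P : Subgroup Q) : Set Q))).index = 2 := by
      have := (H.subgroupOf (normalizer ((P : Subgroup Q) : Set Q))).card_mul_index
      rw [Nat.card_congr (subgroupOfEquivOfLe hle).toEquiv, h, card_normalizer_three hQ P] at this
      omega
    have hn := Subgroup.normal_of_index_eq_two hrel
    have heq := le_antisymm hN (normal_subgroupOf_iff_le_normalizer hle |>.1 hn)
    rw [heq]
    exact coatom_of_card hQ (Or.inl (card_normalizer_three hQ P))
  · exact prime_case 156 14 rfl (by norm_num) h (card_normalizer_seven hQ) (Or.inr (Or.inl rfl))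
  · exact self (Or.inl h)
  · exact prime_case 84 78 rfl (by norm_num) h (card_normalizer_thirteen hQ) (Or.inr (Or.inr rfl))
  · exact self (Or.inr (Or.inl h))
  case _ | _ =>
    obtain ⟨m, hm, hm2⟩ : ∃ m, Nat.card H = 13 * m ∧ (m = 2 ∨ m = 3) := by
      first
        | exact ⟨2, h, Or.inl rfl⟩
        | exact ⟨3, h, Or.inr rfl⟩
    obtain ⟨P, hPH, hN⟩ := exists_char_sylow hQ H m (p := 13) hm
      (card_sylow_prime hQ 84 rfl (by norm_num))
      (fun d hd h1 => by
        have := Nat.le_of_dvd (by omega) hd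
        have : d % 13 = d := Nat.mod_eq_of_lt (by omega)
        omega)
      (by rintro ⟨c, hc⟩; omega)
    have hle : H ≤ normalizer ((P : Subgroup Q) : Set Q) := le_normalizer.trans hN
    have hcyc : IsCyclic (P : Subgroup Q) :=
      isCyclic_of_prime_card (card_sylow_prime hQ 84 rfl (by norm_num) P)
    have heq : normalizer (H : Set Q) = normalizer ((P : Subgroup Q) : Set Q) := by
      refine le_antisymm hN fun n hn => ?_
      have key : ∀ n ∈ normalizer ((P : Subgroup Q) : Set Q), ∀ b ∈ H, n * b * n⁻¹ ∈ H := by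
        intro n hn b hb
        -- the commutator centralises the cyclic subgroup
        have hbN := hle hb
        obtain ⟨k, hk⟩ := MonoidHom.map_cyclic
          ({ toFun := fun y => ⟨n * (y : Q) * n⁻¹, (mem_normalizer_iff.1 hn _).1 y.2⟩
             map_one' := Subtype.ext (by simp)
             map_mul' := fun y z => Subtype.ext (by simp [mul_assoc]) } :
            (P : Subgroup Q) →* (P : Subgroup Q))
        obtain ⟨l, hl⟩ := MonoidHom.map_cyclic
          ({ toFun := fun y => ⟨b * (y : Q) * b⁻¹, (mem_normalizer_iff.1 hbN _).1 y.2⟩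
             map_one' := Subtype.ext (by simp)
             map_mul' := fun y z => Subtype.ext (by simp [mul_assoc]) } :
            (P : Subgroup Q) →* (P : Subgroup Q))
        have hk' : ∀ y ∈ (P : Subgroup Q), n * y * n⁻¹ = y ^ k := fun y hy => by
          simpa using congrArg Subtype.val (hk ⟨y, hy⟩)
        have hl' : ∀ y ∈ (P : Subgroup Q), b * y * b⁻¹ = y ^ l := fun y hy => by
          simpa using congrArg Subtype.val (hl ⟨y, hy⟩)
        have hcomm : ∀ y ∈ (P : Subgroup Q),
            (n * b) * y * (n * b)⁻¹ = (b * n) * y * (b * n)⁻¹ := by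
          intro y hy
          rw [show (n * b) * y * (n * b)⁻¹ = n * (b * y * b⁻¹) * n⁻¹ by group,
            show (b * n) * y * (b * n)⁻¹ = b * (n * y * n⁻¹) * b⁻¹ by group, hl' y hy, hk' y hy,
            hk' _ (zpow_mem hy l), hl' _ (zpow_mem hy k), ← zpow_mul, ← zpow_mul, mul_comm l k]
        have hmemC : (b * n)⁻¹ * (n * b) ∈ centralizer ((P : Subgroup Q) : Set Q) := by
          refine mem_centralizer_iff.2 fun y hy => ?_
          have := hcomm y hy
          calc y * ((b * n)⁻¹ * (n * b)) = (b * n)⁻¹ * ((b * n) * y * (b * n)⁻¹) * (n * b) := by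
                group
            _ = (b * n)⁻¹ * ((n * b) * y * (n * b)⁻¹) * (n * b) := by rw [this]
            _ = (b * n)⁻¹ * (n * b) * y := by group
        rw [centralizer_thirteen hQ P] at hmemC
        have hu : n * b * n⁻¹ =
            b * ((n) * ((b * n)⁻¹ * (n * b)) * n⁻¹) := by group
        rw [hu]
        exact H.mul_mem hb (hPH ((mem_normalizer_iff.1 hn _).1 hmemC))
      rw [mem_normalizer_iff]
      intro b
      refine ⟨key n hn b, fun hb => ?_⟩
      have := key n⁻¹ (inv_mem hn) _ hb
      simpa [mul_assoc] using this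
    rw [heq]
    exact coatom_of_card hQ (Or.inr (Or.inr (card_normalizer_thirteen hQ P)))
  · exact self (Or.inr (Or.inr h))

end Simple

/-- Passing to a group with a small central kernel. -/
private theorem coatom_lift {K Q : Type*} [Group K] [Group Q] (π : K →* Q)
    (hπ : Function.Surjective π) (hker : π.ker ≤ center K)
    (hsep : ∀ (H : Subgroup K) (g h z : K), h ∈ H → z ∈ π.ker → g * h * g⁻¹ * z ∈ H →
      g * h * g⁻¹ ∈ H)
    (hgood : ∀ L : Subgroup Q, L ≠ ⊥ → L ≠ ⊤ → IsCoatom (normalizer (L : Set Q)))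
    (H : Subgroup K) (hH : ¬ H.Normal) : IsCoatom (normalizer (H : Set K)) := by
  have hcent : ∀ z ∈ π.ker, ∀ k : K, z * k = k * z := fun z hz k =>
    (mem_center_iff.1 (hker hz) k).symm
  have h1 : H.map π ≠ ⊥ := by
    intro h
    apply hH
    have hle : H ≤ center K := ((Subgroup.map_eq_bot_iff H).1 h).trans hker
    exact ⟨fun n hn g => by
      rw [← (mem_center_iff.1 (hle hn) g).symm, mul_assoc, mul_inv_cancel, mul_one]; exact hn⟩
  have h2 : H.map π ≠ ⊤ := by
    intro h
    apply hH
    refine ⟨fun n hn g => ?_⟩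
    obtain ⟨a, ha, hag⟩ := (h ▸ mem_top (π g) : π g ∈ H.map π)
    have hz : a⁻¹ * g ∈ π.ker := by rw [MonoidHom.mem_ker, map_mul, map_inv, hag, inv_mul_cancel]
    have : g * n * g⁻¹ = a * ((a⁻¹ * g) * n * (a⁻¹ * g)⁻¹) * a⁻¹ := by group
    rw [this, hcent _ hz n, mul_inv_cancel_right]
    exact H.mul_mem (H.mul_mem ha hn) (H.inv_mem ha)
  have key : ∀ g : K, π g ∈ normalizer ((H.map π : Subgroup Q) : Set Q) →
      ∀ h ∈ H, g * h * g⁻¹ ∈ H := by
    intro g hg h hh
    obtain ⟨a, ha, hag⟩ := (mem_normalizer_iff.1 hg (π h)).1 (mem_map_of_mem π hh)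
    have hz : (g * h * g⁻¹)⁻¹ * a ∈ π.ker := by
      rw [MonoidHom.mem_ker, map_mul, map_inv, hag, map_mul, map_mul, map_inv, inv_mul_cancel]
    exact hsep H g h _ hh hz (by simpa [mul_assoc] using ha)
  have heq : normalizer (H : Set K) = (normalizer ((H.map π : Subgroup Q) : Set Q)).comap π := by
    refine le_antisymm (map_le_iff_le_comap.1 (le_normalizer_map π)) fun g hg => ?_
    rw [mem_normalizer_iff]
    intro h
    refine ⟨key g hg h, fun hh => ?_⟩
    have := key g⁻¹ (by rw [map_inv]; exact inv_mem hg) _ hh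
    simpa [mul_assoc] using this
  have hc := hgood _ h1 h2
  rw [heq]
  refine ⟨fun h => hc.1 ?_, fun X hX => ?_⟩
  · rw [← map_comap_eq_self_of_surjective hπ (normalizer ((H.map π : Subgroup Q) : Set Q)), h,
      map_top_of_surjective π hπ]
  · have hkX : π.ker ≤ X := (ker_le_comap π _).trans hX.le
    have hlt : normalizer ((H.map π : Subgroup Q) : Set Q) < X.map π := by
      rw [← comap_lt_comap_of_surjective hπ, comap_map_eq_self hkX]; exact hX
    rw [← comap_map_eq_self hkX, hc.2 _ hlt, comap_top]

private theorem card_psl : Nat.card (Matrix.ProjectiveSpecialLinearGroup (Fin 2) (ZMod 13)) = 1092 := by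
  have : Fact (Nat.Prime 13) := ⟨by norm_num⟩
  have h := Cfsg.Agent.Lib.Classical.card_PSL_two (F := ZMod 13)
  rw [ZMod.card, show Nat.gcd 2 (13 - 1) = 2 from rfl] at h
  omega

private theorem two_ne : (2 : ZMod 13) ≠ 0 := by decide

private theorem coatom_factor {K : Type*} [Group K] [Finite K]
    (hK : Nonempty (K ≃* Matrix.ProjectiveSpecialLinearGroup (Fin 2) (ZMod 13)) ∨
      Nonempty (K ≃* Matrix.SpecialLinearGroup (Fin 2) (ZMod 13)))
    (H : Subgroup K) (hH : ¬ H.Normal) : IsCoatom (normalizer (H : Set K)) := by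
  have : Fact (Nat.Prime 13) := ⟨by norm_num⟩
  have : Finite (Matrix.ProjectiveSpecialLinearGroup (Fin 2) (ZMod 13)) :=
    Nat.finite_of_card_ne_zero (by rw [card_psl]; norm_num)
  have : IsSimpleGroup (Matrix.ProjectiveSpecialLinearGroup (Fin 2) (ZMod 13)) :=
    Matrix.ProjectiveSpecialLinearGroup.rank_two_simple (by rw [Nat.card_zmod]; norm_num)
  rcases hK with he | he
  · refine he.elim fun e => ?_
    refine coatom_lift e.toMonoidHom e.surjective ?_ ?_ (coatom_normalizer card_psl) H hH
    · rw [(MonoidHom.ker_eq_bot_iff _).2 e.injective]; exact bot_le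
    · intro L g h z _ hz hm
      rw [(MonoidHom.ker_eq_bot_iff _).2 e.injective, mem_bot] at hz
      rwa [hz, mul_one] at hm
  · refine he.elim fun e => ?_
    let π : K →* Matrix.ProjectiveSpecialLinearGroup (Fin 2) (ZMod 13) :=
      (QuotientGroup.mk' (center (Matrix.SpecialLinearGroup (Fin 2) (ZMod 13)))).comp e.toMonoidHom
    have hkmem : ∀ z, z ∈ π.ker ↔ e z ∈ center (Matrix.SpecialLinearGroup (Fin 2) (ZMod 13)) :=
      fun z => by rw [MonoidHom.mem_ker]; exact QuotientGroup.eq_one_iff _
    have hker : π.ker ≤ center K := fun z hz => mem_center_iff.2 fun k =>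
      e.injective (by rw [map_mul, map_mul]; exact mem_center_iff.1 ((hkmem z).1 hz) (e k))
    have hscal : ∀ A : Matrix.SpecialLinearGroup (Fin 2) (ZMod 13), A ^ 2 = 1 → A ≠ 1 →
        (A : Matrix (Fin 2) (Fin 2) (ZMod 13)) = -1 := by
      intro A hA hA1
      have hinv : A⁻¹ = A := inv_eq_of_mul_eq_one_right (by rwa [← pow_two])
      have h := congrArg (fun M : Matrix.SpecialLinearGroup (Fin 2) (ZMod 13) =>
        (M : Matrix (Fin 2) (Fin 2) (ZMod 13))) hinv
      simp only [Matrix.SpecialLinearGroup.coe_inv, Matrix.adjugate_fin_two] at h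
      have h2 : (2 : ZMod 13) ≠ 0 := two_ne
      have e01 : A 0 1 = 0 := by
        have := congrFun (congrFun h 0) 1
        simp at this
        have h' : (2 : ZMod 13) * A 0 1 = 0 := by linear_combination (-1 : ZMod 13) * this
        exact (mul_eq_zero.1 h').resolve_left h2
      have e10 : A 1 0 = 0 := by
        have := congrFun (congrFun h 1) 0
        simp at this
        have h' : (2 : ZMod 13) * A 1 0 = 0 := by linear_combination (-1 : ZMod 13) * this
        exact (mul_eq_zero.1 h').resolve_left h2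
      have e11 : A 1 1 = A 0 0 := by
        have := congrFun (congrFun h 0) 0
        simpa using this
      have hdet := A.2
      rw [Matrix.det_fin_two, e01, e10, e11, mul_zero, sub_zero] at hdet
      have hsq : (A 0 0 - 1) * (A 0 0 + 1) = 0 := by linear_combination hdet
      rcases mul_eq_zero.1 hsq with h' | h'
      · exfalso
        apply hA1
        ext i j
        fin_cases i <;> fin_cases j <;> simp [e01, e10, e11, sub_eq_zero.1 h']
      · ext i j
        fin_cases i <;> fin_cases j <;> simp [e01, e10, e11, eq_neg_of_add_eq_zero_left h']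
    have huniq : ∀ a b : K, a ^ 2 = 1 → a ≠ 1 → b ^ 2 = 1 → b ≠ 1 → a = b := fun a b ha ha1 hb hb1 =>
      e.injective (Subtype.ext ((hscal _ (by rw [← map_pow, ha, map_one]) (by simpa using ha1)).trans
        (hscal _ (by rw [← map_pow, hb, map_one]) (by simpa using hb1)).symm))
    have hk2 : ∀ z ∈ π.ker, z ^ 2 = 1 := by
      intro z hz
      have hm := (hkmem z).1 hz
      rw [Matrix.SpecialLinearGroup.mem_center_iff] at hm
      obtain ⟨r, hr, hr'⟩ := hm
      apply e.injective
      rw [map_pow, map_one]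
      apply Subtype.ext
      simp only [Matrix.SpecialLinearGroup.coe_pow, Matrix.SpecialLinearGroup.coe_one, ← hr']
      rw [← map_pow]
      simp only [Fintype.card_fin] at hr
      rw [hr, map_one]
    refine coatom_lift π ((QuotientGroup.mk'_surjective _).comp e.surjective) hker ?_
      (coatom_normalizer card_psl) H hH
    intro L g h z hh hz hm
    rcases eq_or_ne z 1 with rfl | hz1
    · rwa [mul_one] at hm
    by_cases hzL : z ∈ L
    · simpa [mul_assoc] using L.mul_mem hm (L.inv_mem hzL)
    exfalso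
    have hodd : ∀ w ∈ L, Odd (orderOf w) := by
      intro w hw
      by_contra hev
      rw [Nat.not_odd_iff_even] at hev
      have ho := orderOf_pow_orderOf_div (orderOf_pos w).ne' hev.two_dvd
      refine hzL ?_
      rw [← huniq _ z (ho ▸ pow_orderOf_eq_one _) (fun h' => by rw [h', orderOf_one] at ho; omega)
        (hk2 z hz) hz1]
      exact L.pow_mem hw _
    set n := orderOf (g * h * g⁻¹ * z)
    have hn : Odd n := hodd _ hm
    have hzc : Commute (g * h * g⁻¹) z := (mem_center_iff.1 (hker hz) _)
    have h1 : g * h ^ n * g⁻¹ * z ^ n = 1 := by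
      rw [← conj_pow, ← hzc.mul_pow]; exact pow_orderOf_eq_one _
    obtain ⟨c, hc⟩ := hn
    have hzn : z ^ n = z := by rw [hc, pow_succ, pow_mul, hk2 z hz, one_pow, one_mul]
    rw [hzn, mul_eq_one_iff_eq_inv] at h1
    have hzi : z⁻¹ = z := inv_eq_of_mul_eq_one_right (by rw [← pow_two]; exact hk2 z hz)
    rw [hzi] at h1
    apply hzL
    have : h ^ n = z := by
      have := mul_inv_eq_iff_eq_mul.1 h1
      rw [← mem_center_iff.1 (hker hz) g] at this
      exact mul_left_cancel this
    rw [← this]
    exact L.pow_mem hh n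

theorem result {K S : Type*} [Group K] [CommGroup S] [Finite K] [Finite S]
    (hK : Nonempty (K ≃* Matrix.ProjectiveSpecialLinearGroup (Fin 2) (ZMod 13)) ∨
      Nonempty (K ≃* Matrix.SpecialLinearGroup (Fin 2) (ZMod 13)))
    (hKS : (Nat.card K).Coprime (Nat.card S)) (H : Subgroup (K × S)) (hH : ¬ H.Normal) :
    IsCoatom (Subgroup.normalizer (H : Set (K × S))) := by
  set L := H.map (MonoidHom.fst K S) with hL
  have hsplit : ∀ k : K, k ∈ L → (k, (1 : S)) ∈ H := by
    rintro k ⟨⟨a, b⟩, hab, rfl⟩
    obtain ⟨u, hu⟩ := exists_pow_eq_self_of_coprime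
      (hKS.symm.coprime_dvd_right (orderOf_dvd_natCard a))
    have := H.pow_mem hab (Nat.card S * u)
    rw [Prod.pow_mk] at this
    have ha : a ^ (Nat.card S * u) = a := by rw [pow_mul, hu]
    have hb : b ^ (Nat.card S * u) = 1 := by rw [pow_mul, pow_card_eq_one', one_pow]
    rwa [ha, hb] at this
  have key : ∀ x : K × S, x.1 ∈ normalizer (L : Set K) → ∀ h ∈ H, x * h * x⁻¹ ∈ H := by
    rintro ⟨g, s⟩ hg ⟨a, b⟩ hab
    have haL : a ∈ L := ⟨_, hab, rfl⟩
    have h1 : (g * a * g⁻¹, (1 : S)) ∈ H := hsplit _ ((mem_normalizer_iff.1 hg a).1 haL)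
    have h2 : ((a, b) : K × S) * (a, 1)⁻¹ ∈ H := H.mul_mem hab (H.inv_mem (hsplit a haL))
    have h3 := H.mul_mem h1 h2
    convert h3 using 1
    ext
    · simp
    · simp
  have heq : normalizer (H : Set (K × S)) = (normalizer (L : Set K)).comap (MonoidHom.fst K S) := by
    refine le_antisymm (map_le_iff_le_comap.1 (le_normalizer_map _)) fun x hx => ?_
    rw [mem_normalizer_iff]
    intro h
    refine ⟨key x hx h, fun hh => ?_⟩
    have := key x⁻¹ (inv_mem hx) _ hh
    simpa [mul_assoc] using this
  have hLn : ¬ L.Normal := fun hn => hH ⟨fun h hh x => key x (by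
    rw [normalizer_eq_top_iff.2 hn]; exact mem_top _) h hh⟩
  have hc := coatom_factor hK L hLn
  have hsur : Function.Surjective (MonoidHom.fst K S) := fun k => ⟨(k, 1), rfl⟩
  rw [heq]
  refine ⟨fun h => hc.1 ?_, fun X hX => ?_⟩
  · rw [← map_comap_eq_self_of_surjective hsur (normalizer (L : Set K)), h,
      map_top_of_surjective _ hsur]
  · have hkX : (MonoidHom.fst K S).ker ≤ X := (ker_le_comap _ _).trans hX.le
    have hlt : normalizer (L : Set K) < X.map (MonoidHom.fst K S) := by
      rw [← comap_lt_comap_of_surjective hsur, comap_map_eq_self hkX]; exact hX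
    rw [← comap_map_eq_self hkX, hc.2 _ hlt, comap_top]

end Cfsg.Agent.S4234
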