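import Cfsg.Statements.S4237
import Cfsg.Agent.Lib.Kulakoff
import Cfsg.Agent.Lib.SylowCountModSq

set_option autoImplicit false
open Cfsg

namespace Cfsg.Agent.S4237

/-- Let G be a finite group, p a prime and a a natural number such that p^(a+1) divides the order of G. Then the number of subgroups of G of order p^a is congruent to 1 or to 1 + p modulo p². -/
theorem result {G : Type*} [Group G] [Finite G] (p a : ℕ) (hp : p.Prime) (hdvd : p ^ (a + 1) ∣ Nat.card G) :
    Nat.card {H : Subgroup G // Nat.card H = p ^ a} ≡ 1 [MOD p ^ 2] ∨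
      Nat.card {H : Subgroup G // Nat.card H = p ^ a} ≡ 1 + p [MOD p ^ 2] := by
  classical
  haveI : Fact p.Prime := ⟨hp⟩
  rw [← Lib.CountModSq.card_subs_top]
  rcases hp.eq_two_or_odd with h2 | hodd
  · subst h2
    have h := Lib.CountModSq.card_subs_modEq_one (p := 2) (H := (⊤ : Subgroup G)) (k := a)
      (by rw [Subgroup.card_top]; exact (pow_dvd_pow 2 (Nat.le_succ a)).trans hdvd)
    generalize (Lib.CountModSq.subs 2 (⊤ : Subgroup G) a).card = n at h ⊢
    have h' : n % 2 = 1 % 2 := h
    have : n % 4 = 1 ∨ n % 4 = 3 := by omega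
    rcases this with h4 | h4
    · exact Or.inl (show n % 4 = 1 % 4 by omega)
    · exact Or.inr (show n % 4 = (1 + 2) % 4 by omega)
  · have hp2 : p ≠ 2 := by omega
    let P : Sylow p G := default
    obtain ⟨m, hm⟩ := IsPGroup.iff_card.mp P.2
    have hle : p ^ (a + 1) ≤ Nat.card (P : Subgroup G) := by
      refine Nat.le_of_dvd Nat.card_pos ?_
      rw [P.card_eq_multiplicity]
      exact pow_dvd_pow p ((hp.pow_dvd_iff_le_factorization Nat.card_pos.ne').mp hdvd)
    have hred := Lib.CountModSq.card_subs_top_modEq P hle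
    rw [hm] at hle
    have ham : a < m := (Nat.pow_le_pow_iff_right hp.one_lt).mp hle
    rcases Nat.eq_zero_or_pos a with rfl | ha0
    · left
      refine hred.trans ?_
      have h1 : Lib.CountModSq.subs p (P : Subgroup G) 0 = {⊥} := by
        ext K
        rw [Lib.CountModSq.mem_subs, Finset.mem_singleton, pow_zero, Subgroup.card_eq_one]
        exact ⟨And.right, fun h => ⟨h ▸ bot_le, h⟩⟩
      rw [h1, Finset.card_singleton]
    by_cases hc : IsCyclic (P : Subgroup G)
    · left
      rw [Lib.CountModSq.card_subs_of_isCyclic hm ham.le hc] at hred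
      exact hred
    · right
      exact hred.trans (Lib.CountModSq.kulakoff hp2 m _ hm hc a ha0 ham)

end Cfsg.Agent.S4237
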