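import Cfsg.Statements.S4238
import Cfsg.Agent.Lib.Hall.Schmidt
import Mathlib

set_option autoImplicit false
open Cfsg

namespace Cfsg.Agent.S4238

open Cfsg.Agent.Lib.Transfer

lemma pow_fix {G : Type*} [Group G] {x d u : G} (hd : x * d * x⁻¹ = d) (hu : x * u * x⁻¹ = u * d) :
    ∀ n : ℕ, x ^ n * u * (x ^ n)⁻¹ = u * d ^ n := by
  intro n
  induction n with
  | zero => simp
  | succ n ih =>
    have hdn : x * d ^ n * x⁻¹ = d ^ n := by rw [← conj_pow, hd]
    rw [pow_succ', show x * x ^ n * u * (x * x ^ n)⁻¹ = x * (x ^ n * u * (x ^ n)⁻¹) * x⁻¹ by group, ih,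
      show x * (u * d ^ n) * x⁻¹ = (x * u * x⁻¹) * (x * d ^ n * x⁻¹) by group, hu, hdn, mul_assoc, ← pow_succ']

/-- a group without normal `p`-complement has a reduced section without element of exponent order -/
lemma exists_bad_section {G : Type*} [Group G] [Finite G] (p : ℕ) [hpf : Fact p.Prime]
    (hG : ¬ Cfsg.HasNormalPComplement p G) :
    ∃ (H : Subgroup G) (N : Subgroup H) (_ : N.Normal), Cfsg.pPrimeCore p (H ⧸ N) = ⊥ ∧
      ∀ k : H ⧸ N, orderOf k ≠ Monoid.exponent (H ⧸ N) := by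
  classical
  have hp := hpf.out
  -- a minimal p-subgroup with a p'-element acting nontrivially on it
  let S := {U : Subgroup G | IsPGroup p U ∧ ∃ g ∈ Subgroup.normalizer (U : Set G), (orderOf g).Coprime p ∧ g ∉ Subgroup.centralizer (U : Set G)}
  obtain ⟨U0, hU0⟩ : S.Nonempty := by
    by_contra hno
    refine hG (frobenius_criterion fun Q hQ g hg hgo => ?_)
    by_contra hgC
    exact hno ⟨Q, hQ, g, hg, hgo, hgC⟩
  obtain ⟨U, hUS, hUmin⟩ := S.toFinite.exists_minimal ⟨U0, hU0⟩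
  obtain ⟨hUp, g, hgN, hgo, hgC⟩ := hUS
  obtain ⟨y, hyg, hyC, q, k, hq, hyo⟩ := Cfsg.Agent.Lib.Hall.exists_primePow_not_mem _ hgC
  haveI := Fact.mk hq
  have hyN : y ∈ Subgroup.normalizer (U : Set G) := Subgroup.zpowers_le.2 hgN hyg
  have hycop : (orderOf y).Coprime p := hgo.coprime_dvd_left (orderOf_dvd_of_mem_zpowers hyg)
  -- pass to the last power acting nontrivially
  have hex : ∃ i, y ^ q ^ i ∈ Subgroup.centralizer (U : Set G) := ⟨k, by rw [← hyo, pow_orderOf_eq_one]; exact one_mem _⟩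
  obtain ⟨i, hi⟩ : ∃ i, Nat.find hex = i + 1 := Nat.exists_eq_succ_of_ne_zero fun h0 => hyC (by
    have := Nat.find_spec hex; rwa [h0, pow_zero, pow_one] at this)
  set x := y ^ q ^ i with hx
  have hxC : x ∉ Subgroup.centralizer (U : Set G) := Nat.find_min hex (by omega)
  have hxqC : x ^ q ∈ Subgroup.centralizer (U : Set G) := by
    rw [hx, ← pow_mul, ← pow_succ, ← hi]; exact Nat.find_spec hex
  have hxN : x ∈ Subgroup.normalizer (U : Set G) := pow_mem hyN _
  have hxcop : (orderOf x).Coprime p := hycop.coprime_dvd_left (orderOf_pow_dvd _)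
  have hqp : q ≠ p := by
    rintro rfl
    have hk : k ≠ 0 := fun h0 => hyC (by rw [h0, pow_zero, orderOf_eq_one_iff] at hyo; rw [hyo]; exact one_mem _)
    rw [hyo] at hycop
    exact hq.ne_one (Nat.Coprime.eq_one_of_dvd hycop.symm (dvd_pow_self q hk))
  have hsmall : ∀ V : Subgroup G, V < U → x ∈ Subgroup.normalizer (V : Set G) → ∀ v ∈ V, x * v * x⁻¹ = v := by
    intro V hV hxV v hv
    by_contra hne
    refine hV.not_ge (hUmin (⟨hUp.to_le hV.le, x, hxV, hxcop, fun hc => hne ?_⟩ : V ∈ S) hV.le)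
    rw [← Subgroup.mem_centralizer_iff.1 hc v hv, mul_inv_cancel_right]
  -- the fixed points
  set D := U ⊓ Subgroup.centralizer ({x} : Set G) with hD
  have hDfix : ∀ d ∈ D, x * d * x⁻¹ = d := fun d hd => by
    rw [← Subgroup.mem_centralizer_singleton_iff.1 hd.2, mul_inv_cancel_right]
  have hDne : D < U := lt_of_le_of_ne inf_le_left fun h => hxC (Subgroup.mem_centralizer_iff.2 fun u hu =>
    Subgroup.mem_centralizer_singleton_iff.1 (h.ge hu).2)
  -- D is normal in U
  have hfixlift : ∀ u ∈ U, x * u * x⁻¹ * u⁻¹ ∈ D → u ∈ D := by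
    intro u hu hd
    set d := u⁻¹ * (x * u * x⁻¹) with hddef
    have hdU : d ∈ U := mul_mem (inv_mem hu) ((Subgroup.mem_normalizer_iff.1 hxN u).1 hu)
    have h1 : x * (x * u * x⁻¹ * u⁻¹) * x⁻¹ = x * u * x⁻¹ * u⁻¹ := hDfix _ hd
    set c := x * u * x⁻¹ * u⁻¹ with hc
    have h2 : x * u⁻¹ * x⁻¹ = u⁻¹ * c⁻¹ := by rw [hc]; group
    have h3 := pow_fix (x := x) (d := c⁻¹) (u := u⁻¹) (by rw [← conj_inv, h1]) h2 (orderOf x)
    rw [pow_orderOf_eq_one, one_mul, inv_one, mul_one, eq_comm, mul_eq_left, inv_pow, inv_eq_one] at h3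
    obtain ⟨j, hj⟩ := IsPGroup.iff_orderOf.1 hUp ⟨c, hd.1⟩
    rw [Subgroup.orderOf_mk] at hj
    have hc1 : orderOf c = 1 := Nat.eq_one_of_dvd_coprimes (hxcop.pow_right j) (orderOf_dvd_of_pow_eq_one h3) (hj ▸ dvd_refl _)
    rw [orderOf_eq_one_iff, hc, mul_inv_eq_one] at hc1
    refine ⟨hu, Subgroup.mem_centralizer_singleton_iff.2 ?_⟩
    exact (mul_inv_eq_iff_eq_mul.1 hc1).symm
  have hDnorm : U ≤ Subgroup.normalizer (D : Set G) := by
    -- the normalizer of D in U is x-invariant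
    by_contra hnot
    have hVlt : U ⊓ Subgroup.normalizer (D : Set G) < U := lt_of_le_of_ne inf_le_left fun h => hnot (h ▸ inf_le_right)
    have hxD : x ∈ Subgroup.normalizer (D : Set G) := Subgroup.mem_normalizer_iff.2 fun d =>
      ⟨fun hd => by rwa [hDfix d hd], fun hd => by
        have h := hDfix _ hd
        have h' : x * d * x⁻¹ = d := mul_left_cancel (mul_right_cancel h)
        rwa [h'] at hd⟩
    have hxV : x ∈ Subgroup.normalizer ((U ⊓ Subgroup.normalizer (D : Set G) : Subgroup G) : Set G) :=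
      Subgroup.inf_normalizer_le_normalizer_inf ⟨hxN, Subgroup.le_normalizer hxD⟩
    have hVD : U ⊓ Subgroup.normalizer (D : Set G) ≤ D := fun v hv =>
      ⟨hv.1, Subgroup.mem_centralizer_singleton_iff.2 (mul_inv_eq_iff_eq_mul.1 (hsmall _ hVlt hxV v hv)).symm⟩
    haveI := hUp.isNilpotent
    have hlt : D.subgroupOf U < ⊤ := lt_of_le_of_ne le_top fun h => hDne.not_ge (Subgroup.subgroupOf_eq_top.1 h)
    obtain ⟨v, hv, hvD⟩ := SetLike.exists_of_lt (Group.normalizerCondition_of_isNilpotent _ hlt)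
    refine hvD (Subgroup.mem_subgroupOf.2 (hVD ⟨v.2, Subgroup.mem_normalizer_iff.2 fun w => ?_⟩))
    constructor
    · intro hw
      exact (Subgroup.mem_normalizer_iff.1 hv ⟨w, hw.1⟩).1 hw
    · intro hw
      have hwU : w ∈ U := by simpa [mul_assoc] using mul_mem (mul_mem (inv_mem v.2) hw.1) v.2
      exact (Subgroup.mem_normalizer_iff.1 hv ⟨w, hwU⟩).2 hw
  -- the section
  set H := U ⊔ Subgroup.zpowers x with hH
  set M := D ⊔ Subgroup.zpowers (x ^ q) with hM
  have hMH : M ≤ H := sup_le (inf_le_left.trans le_sup_left) (Subgroup.zpowers_le.2 (Subgroup.mem_sup_right (pow_mem (Subgroup.mem_zpowers x) q)))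
  have hHn : H ≤ Subgroup.normalizer (M : Set G) := by
    have h1 : Subgroup.zpowers (x ^ q) ≤ Subgroup.centralizer (H : Set G) := by
      rw [Subgroup.zpowers_le, Subgroup.mem_centralizer_iff]
      have hle : H ≤ Subgroup.centralizer ({x ^ q} : Set G) := sup_le
        (fun u hu => Subgroup.mem_centralizer_singleton_iff.2 (Subgroup.mem_centralizer_iff.1 hxqC u hu))
        (Subgroup.zpowers_le.2 (Subgroup.mem_centralizer_singleton_iff.2 ((Commute.refl x).pow_right q).eq))
      exact fun z hz => Subgroup.mem_centralizer_singleton_iff.1 (hle hz)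
    have h2 : H ≤ Subgroup.normalizer (D : Set G) := sup_le hDnorm (Subgroup.zpowers_le.2 (Subgroup.mem_normalizer_iff.2 fun d =>
      ⟨fun hd => by rwa [hDfix d hd], fun hd => by
        have h := hDfix _ hd
        have h' : x * d * x⁻¹ = d := mul_left_cancel (mul_right_cancel h)
        rwa [h'] at hd⟩))
    have h3 : H ≤ Subgroup.normalizer ((Subgroup.zpowers (x ^ q) : Subgroup G) : Set G) := fun z hz =>
      Subgroup.centralizer_le_normalizer _ (Subgroup.mem_centralizer_iff.2 fun w hw =>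
        ((Subgroup.mem_centralizer_iff.1 (h1 hw)) z hz).symm)
    intro z hz
    rw [hM]
    refine Cfsg.Agent.Lib.Coprime.mem_normalizer_of_conj_smul_eq ?_
    rw [Subgroup.smul_sup, Cfsg.Agent.Lib.Coprime.conj_smul_eq_self (h2 hz), Cfsg.Agent.Lib.Coprime.conj_smul_eq_self (h3 hz)]
  haveI hNn : (M.subgroupOf H).Normal := Subgroup.normal_subgroupOf_iff_le_normalizer hMH |>.2 hHn
  refine ⟨H, M.subgroupOf H, hNn, ?_, ?_⟩
  all_goals
    set π := QuotientGroup.mk' (M.subgroupOf H)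
    set X : H ⧸ M.subgroupOf H := π ⟨x, Subgroup.mem_sup_right (Subgroup.mem_zpowers x)⟩ with hX
    let f : U →* H ⧸ M.subgroupOf H := π.comp (Subgroup.inclusion le_sup_left)
    have hXq : X ^ q = 1 := by
      rw [hX, ← map_pow]
      exact (QuotientGroup.eq_one_iff _).2 (Subgroup.mem_subgroupOf.2 (Subgroup.mem_sup_right (Subgroup.mem_zpowers (x ^ q))))
    -- the kernel of f is D
    have hker : ∀ u : U, f u = 1 → (u : G) ∈ D := by
      intro u hu
      have hm : (u : G) ∈ M := Subgroup.mem_subgroupOf.1 ((QuotientGroup.eq_one_iff (Subgroup.inclusion (le_sup_left : U ≤ H) u)).1 hu)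
      have hzn : Subgroup.zpowers (x ^ q) ≤ Subgroup.normalizer (D : Set G) := by
        refine Subgroup.zpowers_le.2 (Subgroup.mem_normalizer_iff.2 fun d => ?_)
        have hc : ∀ d ∈ U, x ^ q * d * (x ^ q)⁻¹ = d := fun d hd => by
          rw [← Subgroup.mem_centralizer_iff.1 hxqC d hd, mul_inv_cancel_right]
        refine ⟨fun hd => by rwa [hc d hd.1], fun hd => ?_⟩
        have h := hc _ hd.1
        have h' : x ^ q * d * (x ^ q)⁻¹ = d := mul_left_cancel (mul_right_cancel h)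
        rwa [h'] at hd
      rw [hM, sup_comm, ← SetLike.mem_coe, Subgroup.coe_mul_of_left_le_normalizer_right _ _ hzn] at hm
      obtain ⟨c, hc, d, hd, hcd : c * d = (u : G)⟩ := hm
      have hcU : c ∈ U := by
        have := mul_mem u.2 (inv_mem hd.1)
        rwa [← hcd, mul_inv_cancel_right] at this
      obtain ⟨j, hj⟩ := IsPGroup.iff_orderOf.1 hUp ⟨c, hcU⟩
      rw [Subgroup.orderOf_mk] at hj
      have : orderOf c = 1 := Nat.eq_one_of_dvd_coprimes (hxcop.pow_right j)
        ((orderOf_dvd_of_mem_zpowers hc).trans (orderOf_pow_dvd q)) (hj ▸ dvd_refl _)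
      rw [orderOf_eq_one_iff] at this
      rw [← hcd, this, one_mul]
      exact hd
    -- X has no fixed point on the image of U
    have hfpf : ∀ u : U, X * f u * X⁻¹ = f u → f u = 1 := by
      intro u hu
      have hxu : x * (u : G) * x⁻¹ ∈ U := (Subgroup.mem_normalizer_iff.1 hxN _).1 u.2
      have h1 : f (⟨x * (u : G) * x⁻¹, hxu⟩ * u⁻¹) = 1 := by
        rw [map_mul, map_inv, mul_inv_eq_one, ← hu]
        simp only [f, hX, MonoidHom.comp_apply, ← map_inv, ← map_mul]
        rfl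
      have h2 := hfixlift u u.2 (hker _ h1)
      exact (QuotientGroup.eq_one_iff _).2 (Subgroup.mem_subgroupOf.2 (Subgroup.mem_sup_left h2))
    obtain ⟨u0, hu0U, hu0D⟩ := SetLike.exists_of_lt hDne
    have hfu0 : f ⟨u0, hu0U⟩ ≠ 1 := fun h => hu0D (hker _ h)
    have hX1 : X ≠ 1 := fun h => hfu0 (hfpf _ (by rw [h, one_mul, inv_one, mul_one]))
    -- every element has the form `f u * X ^ i`
    have hdecomp : ∀ z : H ⧸ M.subgroupOf H, ∃ (u : U) (i : ℕ), z = f u * X ^ i := by
      intro z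
      obtain ⟨⟨z, hz⟩, rfl⟩ := QuotientGroup.mk'_surjective _ z
      have hz' := hz
      rw [hH, ← SetLike.mem_coe, Subgroup.coe_mul_of_right_le_normalizer_left _ _ (Subgroup.zpowers_le.2 hxN)] at hz'
      obtain ⟨u, hu, w, hw, huw : u * w = z⟩ := hz'
      obtain ⟨i, rfl⟩ := (mem_powers_iff_mem_zpowers (x := x)).2 hw
      refine ⟨⟨u, hu⟩, i, ?_⟩
      rw [hX, ← map_pow]
      simp only [f, MonoidHom.comp_apply, ← map_mul]
      exact congrArg _ (Subtype.ext (by simp [huw]))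
    have hnorm : ∀ (w : H ⧸ M.subgroupOf H) (u : U), ∃ u' : U, w * f u * w⁻¹ = f u' := by
      intro w u
      obtain ⟨⟨w, hw⟩, rfl⟩ := QuotientGroup.mk'_surjective _ w
      have hwN : w ∈ Subgroup.normalizer (U : Set G) := (sup_le Subgroup.le_normalizer (Subgroup.zpowers_le.2 hxN)) hw
      refine ⟨⟨w * u * w⁻¹, (Subgroup.mem_normalizer_iff.1 hwN _).1 u.2⟩, ?_⟩
      simp only [f, MonoidHom.comp_apply, ← map_inv, ← map_mul]
      rfl
    have hfo : ∀ u : U, ∃ j, orderOf (f u) ∣ p ^ j := fun u => by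
      obtain ⟨j, hj⟩ := IsPGroup.iff_orderOf.1 hUp u
      exact ⟨j, hj ▸ orderOf_map_dvd f u⟩
  · rw [Cfsg.pPrimeCore, sSup_eq_bot]
    rintro T ⟨hTn, hTc⟩
    rw [Subgroup.eq_bot_iff_forall]
    intro z hz
    have hTU : ∀ (u : U) (z : H ⧸ M.subgroupOf H), z ∈ T → z * f u = f u * z := by
      intro u z hz
      obtain ⟨u', hu'⟩ := hnorm z u
      have hmem : f (u' * u⁻¹) ∈ T := by
        rw [map_mul, map_inv, ← hu', show z * f u * z⁻¹ * (f u)⁻¹ = z * (f u * z⁻¹ * (f u)⁻¹) by group]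
        exact mul_mem hz (hTn.conj_mem _ (inv_mem hz) _)
      obtain ⟨j, hj⟩ := hfo (u' * u⁻¹)
      have h1 : orderOf (f (u' * u⁻¹)) = 1 := Nat.eq_one_of_dvd_coprimes (hTc.pow_right j)
        (by rw [← Subgroup.orderOf_mk _ hmem]; exact orderOf_dvd_natCard _) hj
      rw [orderOf_eq_one_iff, map_mul, map_inv, mul_inv_eq_one] at h1
      rw [h1] at hu'
      exact mul_inv_eq_iff_eq_mul.1 hu'
    obtain ⟨v, i, rfl⟩ := hdecomp z
    by_cases hiq : q ∣ i
    · obtain ⟨c, rfl⟩ := hiq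
      rw [pow_mul, hXq, one_pow, mul_one] at hz ⊢
      obtain ⟨j, hj⟩ := hfo v
      exact orderOf_eq_one_iff.1 (Nat.eq_one_of_dvd_coprimes (hTc.pow_right j)
        (by rw [← Subgroup.orderOf_mk _ hz]; exact orderOf_dvd_natCard _) hj)
    · exfalso
      obtain ⟨m, hm⟩ := exists_pow_eq_self_of_coprime (x := X) (n := i) (by
        rw [orderOf_eq_prime hXq hX1]; exact (hq.coprime_iff_not_dvd.2 hiq).symm)
      -- from commutation with `X ^ i` we get commutation with `X`
      have hXfix : ∀ u : U, Commute (X ^ i) (f u) → f u = 1 := fun u hc => hfpf u (by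
        have hc' := hc.pow_left m
        rw [hm] at hc'
        rw [hc'.eq, mul_inv_cancel_right])
      have hv : f v = 1 := hXfix v (mul_left_cancel (a := f v) (by
        rw [← mul_assoc]; exact hTU v _ hz))
      rw [hv, one_mul] at hz
      exact hfu0 (hXfix _ (hTU _ _ hz))
  · intro z hz
    have hordX : orderOf X = q := orderOf_eq_prime hXq hX1
    obtain ⟨j0, hj0⟩ := hfo ⟨u0, hu0U⟩
    have hpe : p ∣ Monoid.exponent (H ⧸ M.subgroupOf H) := by
      refine dvd_trans ?_ (Monoid.order_dvd_exponent (f ⟨u0, hu0U⟩))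
      obtain ⟨b, -, hb⟩ := (Nat.dvd_prime_pow hp).1 hj0
      rw [hb]
      exact dvd_pow_self p fun h0 => hfu0 (orderOf_eq_one_iff.1 (by rw [hb, h0, pow_zero]))
    have hqe : q ∣ Monoid.exponent (H ⧸ M.subgroupOf H) := hordX ▸ Monoid.order_dvd_exponent X
    rw [← hz] at hpe hqe
    have ha := orderOf_pow_orderOf_div (orderOf_pos z).ne' hpe
    have hb := orderOf_pow_orderOf_div (orderOf_pos z).ne' hqe
    have hab : Commute (z ^ (orderOf z / p)) (z ^ (orderOf z / q)) := (Commute.refl z).pow_pow _ _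
    generalize z ^ (orderOf z / p) = a at ha hab
    generalize z ^ (orderOf z / q) = b at hb hab
    -- powers of `f u * X ^ i`
    have hpow : ∀ (u : U) (i n : ℕ), ∃ u' : U, (f u * X ^ i) ^ n = f u' * X ^ (i * n) := by
      intro u i n
      induction n with
      | zero => exact ⟨1, by simp⟩
      | succ n ih =>
        obtain ⟨u', hu'⟩ := ih
        obtain ⟨w, hw⟩ := hnorm (X ^ (i * n)) u
        refine ⟨u' * w, ?_⟩
        rw [pow_succ, hu', map_mul, ← hw, Nat.mul_succ, pow_add]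
        group
    obtain ⟨ua, ia, rfl⟩ := hdecomp a
    have hqia : q ∣ ia := by
      by_contra hnd
      obtain ⟨u', hu'⟩ := hpow ua ia p
      rw [← ha, pow_orderOf_eq_one, ha] at hu'
      obtain ⟨j, hj⟩ := hfo u'
      rw [eq_inv_of_mul_eq_one_left hu'.symm, orderOf_inv] at hj
      have h1 : orderOf (X ^ (ia * p)) = 1 := Nat.eq_one_of_dvd_coprimes
        (((Nat.coprime_primes hq hp).2 hqp).pow_right j) (hordX ▸ orderOf_pow_dvd (x := X) (ia * p)) hj
      rw [orderOf_eq_one_iff, ← orderOf_dvd_iff_pow_eq_one, hordX] at h1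
      exact hnd ((Nat.Coprime.dvd_mul_right ((Nat.coprime_primes hq hp).2 hqp)).1 h1)
    obtain ⟨c, rfl⟩ := hqia
    rw [pow_mul, hXq, one_pow, mul_one] at ha hab
    obtain ⟨ub, ib, rfl⟩ := hdecomp b
    have hqib : ¬ q ∣ ib := by
      rintro ⟨c', rfl⟩
      rw [pow_mul, hXq, one_pow, mul_one] at hb
      obtain ⟨j, hj⟩ := hfo ub
      rw [hb] at hj
      exact hqp ((Nat.prime_dvd_prime_iff_eq hq hp).1 (hq.dvd_of_dvd_pow hj))
    obtain ⟨m, hm⟩ := exists_pow_eq_self_of_coprime (x := X) (n := ib) (by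
      rw [hordX]; exact (hq.coprime_iff_not_dvd.2 hqib).symm)
    have hXfix : ∀ u : U, Commute (X ^ ib) (f u) → f u = 1 := fun u hc => hfpf u (by
      have hc' := hc.pow_left m
      rw [hm] at hc'
      rw [hc'.eq, mul_inv_cancel_right])
    -- w ↦ [w, X ^ ib] is surjective on the image
    let θ : f.range → f.range := fun w => ⟨(w : H ⧸ M.subgroupOf H) * X ^ ib * (w : H ⧸ M.subgroupOf H)⁻¹ * (X ^ ib)⁻¹, by
      obtain ⟨u, hu⟩ := w.2
      obtain ⟨u', hu'⟩ := hnorm (X ^ ib) u⁻¹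
      refine ⟨u * u', ?_⟩
      rw [map_mul, ← hu', map_inv, hu]
      group⟩
    have hθ : Function.Injective θ := by
      intro w1 w2 h12
      have h12' : (w1 : H ⧸ M.subgroupOf H) * X ^ ib * (w1 : H ⧸ M.subgroupOf H)⁻¹ * (X ^ ib)⁻¹ = w2 * X ^ ib * (w2 : H ⧸ M.subgroupOf H)⁻¹ * (X ^ ib)⁻¹ := congrArg Subtype.val h12
      obtain ⟨u, hu⟩ := (w2⁻¹ * w1).2
      have h1 := hXfix u (by
        rw [hu, Subgroup.coe_mul, Subgroup.coe_inv]
        have h2 := congrArg (fun y => (w2 : H ⧸ M.subgroupOf H)⁻¹ * (y * X ^ ib) * (w1 : H ⧸ M.subgroupOf H)) h12'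
        simp only [mul_assoc, inv_mul_cancel, mul_one, inv_mul_cancel_left] at h2
        show _ = _
        rw [← h2, mul_assoc])
      rw [hu] at h1
      exact (inv_mul_eq_one.1 (OneMemClass.coe_eq_one.1 h1)).symm
    obtain ⟨w, hw⟩ := (Finite.injective_iff_surjective.1 hθ) ⟨f ub, ub, rfl⟩
    have hw' : (w : H ⧸ M.subgroupOf H) * X ^ ib * (w : H ⧸ M.subgroupOf H)⁻¹ * (X ^ ib)⁻¹ = f ub := congrArg Subtype.val hw
    rw [← hw', inv_mul_cancel_right] at hab
    obtain ⟨u', hu'⟩ := hnorm (w : H ⧸ M.subgroupOf H)⁻¹ ua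
    rw [inv_inv] at hu'
    have h2 := hXfix u' (by
      rw [← hu']
      have h3 := congrArg (fun y => (w : H ⧸ M.subgroupOf H)⁻¹ * y * w) hab.eq
      simp only [mul_assoc, inv_mul_cancel, mul_one, inv_mul_cancel_left] at h3 ⊢
      show _ = _
      simp only [mul_assoc]
      exact h3.symm)
    rw [← hu', mul_eq_one_iff_eq_inv, inv_mul_eq_iff_eq_mul, mul_inv_cancel] at h2
    rw [h2, orderOf_one] at ha
    exact hp.ne_one ha.symm

/-- Let G be a finite group and p a prime. Then G has a normal p-complement if and only if every section K = H/N of G (N a normal subgroup of a subgroup H) whose largest normal subgroup of order prime to p is trivial contains an element whose order equals the exponent of K. -/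
theorem result {G : Type*} [Group G] [Finite G] (p : ℕ) [Fact p.Prime] :
    Cfsg.HasNormalPComplement p G ↔
      ∀ (H : Subgroup G) (N : Subgroup H) [N.Normal], Cfsg.pPrimeCore p (H ⧸ N) = ⊥ →
        ∃ k : H ⧸ N, orderOf k = Monoid.exponent (H ⧸ N) := by
  classical
  constructor
  · intro hG H N _ hred
    have hKp := hasNormalPComplement_iff.1 hG
    set K := Cfsg.pResidual p G
    have hq : IsPGroup p (G ⧸ K) := isPGroup_quotient_pResidual
    have hle : (K.subgroupOf H).map (QuotientGroup.mk' N) ≤ ⊥ := by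
      rw [← hred, Cfsg.pPrimeCore]
      refine le_sSup ⟨Subgroup.Normal.map inferInstance _ (QuotientGroup.mk'_surjective N), Nat.Coprime.symm ?_⟩
      refine (Fact.out : p.Prime).coprime_iff_not_dvd.2 fun hd => hKp ?_
      refine hd.trans ((Subgroup.card_map_dvd _ _).trans ?_)
      exact (Subgroup.card_comap_dvd_of_injective K H.subtype H.subtype_injective)
    have hpg : IsPGroup p (H ⧸ N) := by
      intro z
      obtain ⟨h', rfl⟩ := QuotientGroup.mk'_surjective N z
      obtain ⟨j, hj⟩ := hq (QuotientGroup.mk' K (h' : G))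
      refine ⟨j, Subgroup.mem_bot.1 (hle ⟨h' ^ p ^ j, ?_, map_pow _ _ _⟩)⟩
      rw [← map_pow] at hj
      exact Subgroup.mem_subgroupOf.2 ((QuotientGroup.eq_one_iff _).1 hj)
    obtain ⟨k, hk⟩ := Finite.exists_max (fun z : H ⧸ N => orderOf z)
    refine ⟨k, Nat.dvd_antisymm (Monoid.order_dvd_exponent k) (Monoid.exponent_dvd_iff_forall_pow_eq_one.2 fun z => ?_)⟩
    obtain ⟨a, ha⟩ := IsPGroup.iff_orderOf.1 hpg k
    obtain ⟨b, hb⟩ := IsPGroup.iff_orderOf.1 hpg z
    refine orderOf_dvd_iff_pow_eq_one.1 ?_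
    rw [ha, hb]
    refine pow_dvd_pow p ((Nat.pow_le_pow_iff_right (Fact.out : p.Prime).one_lt).1 ?_)
    rw [← ha, ← hb]
    exact hk z
  · intro h
    by_contra hG
    obtain ⟨H, N, hN, hred, hbad⟩ := exists_bad_section p hG
    obtain ⟨k, hk⟩ := h H N hred
    exact hbad k hk

end Cfsg.Agent.S4238
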