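import Cfsg.Statements.S4242
import Cfsg.Agent.Lib.Transfer.Fusion
import Cfsg.Agent.Lib.Transfer.Hall

set_option autoImplicit false
open Cfsg

namespace Cfsg.Agent.S4242

open Cfsg.Agent.Lib.Transfer

lemma commute_in {G : Type*} [Group G] [Finite G] {H : Subgroup G} (hH : Group.IsNilpotent H)
    {x y : G} (hx : x ∈ H) (hy : y ∈ H) (hc : (orderOf x).Coprime (orderOf y)) : Commute x y := by
  have := hH
  have h := commute_of_coprime_orderOf (x := (⟨x, hx⟩ : H)) (y := ⟨y, hy⟩) (by rwa [Subgroup.orderOf_mk, Subgroup.orderOf_mk])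
  exact congrArg Subtype.val h.eq

lemma nilpotent_of_le {G : Type*} [Group G] [Finite G] {H K : Subgroup G} (hK : Group.IsNilpotent K) (h : H ≤ K) :
    Group.IsNilpotent H :=
  have := hK
  Group.nilpotent_of_mulEquiv (Subgroup.subgroupOfEquivOfLe h)

/-- a proper subgroup of order divisible by `p` is nilpotent -/
lemma nilpotent_proper {G : Type*} [Group G] [Finite G] {p : ℕ}
    (hM : ∀ M : Subgroup G, IsCoatom M → p ∣ Nat.card M → Group.IsNilpotent M) {H : Subgroup G} (hH : H ≠ ⊤)
    (hp : p ∣ Nat.card H) : Group.IsNilpotent H := by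
  obtain ⟨M, hM1, hHM⟩ := (eq_top_or_exists_le_coatom H).resolve_left hH
  exact nilpotent_of_le (hM M hM1 (hp.trans (Subgroup.card_dvd_of_le hHM))) hHM

lemma exists_bad {G : Type*} [Group G] [Finite G] (h1 : ¬ Group.IsNilpotent G) (h2 : ¬ Cfsg.IsMinimalNonNilpotent G) :
    ∃ M : Subgroup G, IsCoatom M ∧ ¬ Group.IsNilpotent M := by
  by_contra hno
  push Not at hno
  refine h2 ⟨h1, fun H hH => ?_⟩
  obtain ⟨M, hM1, hHM⟩ := (eq_top_or_exists_le_coatom H).resolve_left hH
  exact nilpotent_of_le (hno M hM1) hHM

/-- Let G be a finite group and p a prime dividing its order. Every maximal subgroup of G of order divisible by p is nilpotent if and only if G is nilpotent, or G is a minimal non-nilpotent group, or G is the internal direct product of a normal subgroup of order p and a normal minimal non-nilpotent subgroup of order prime to p. -/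
theorem result {G : Type*} [Group G] [Finite G] (p : ℕ) (hp : p.Prime) (hpG : p ∣ Nat.card G) :
    (∀ M : Subgroup G, IsCoatom M → p ∣ Nat.card M → Group.IsNilpotent M) ↔
      (Group.IsNilpotent G ∨ Cfsg.IsMinimalNonNilpotent G ∨
        ∃ Z K : Subgroup G, Z.Normal ∧ K.Normal ∧ Z ⊓ K = ⊥ ∧ Z ⊔ K = ⊤ ∧ Nat.card Z = p ∧
          Cfsg.IsMinimalNonNilpotent K ∧ ¬ p ∣ Nat.card K) := by
  haveI := Fact.mk hp
  constructor
  · intro hM
    by_contra hcon
    push Not at hcon
    obtain ⟨hnn, hnm, hsplit⟩ := hcon
    obtain ⟨M, hM1, hM2⟩ := exists_bad hnn hnm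
    have hpM : ¬ p ∣ Nat.card M := fun h => hM2 (hM M hM1 h)
    by_cases hU : ∃ U : Subgroup G, U.Normal ∧ IsPGroup p U ∧ U ≠ ⊥
    · obtain ⟨U, hUn, hUp, hUne⟩ := hU
      obtain ⟨a, ha⟩ := IsPGroup.iff_card.1 hUp
      have ha0 : a ≠ 0 := fun h0 => hUne (Subgroup.eq_bot_of_card_eq _ (by rw [ha, h0, pow_zero]))
      have hpU : p ∣ Nat.card U := ha ▸ dvd_pow_self p ha0
      have hdis : U ⊓ M = ⊥ := by
        refine Subgroup.inf_eq_bot_of_coprime ?_
        rw [ha]
        exact Nat.Coprime.pow_left a (hp.coprime_iff_not_dvd.2 hpM)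
      have hUM : U ⊔ M = ⊤ := hM1.2 _ (lt_of_le_of_ne le_sup_right fun heq =>
        hpM (hpU.trans (Subgroup.card_dvd_of_le (heq.symm ▸ le_sup_left))))
      have hsmall : ∀ L : Subgroup G, L ≤ M → L ≠ M → U ⊔ L ≠ ⊤ := by
        intro L hL hne htop
        apply hne
        refine le_antisymm hL fun m hm => ?_
        have : m ∈ (U ⊔ L) := htop ▸ Subgroup.mem_top m
        rw [← SetLike.mem_coe, Subgroup.normal_mul] at this
        obtain ⟨u, hu, l, hl, rfl⟩ := this
        have : u ∈ U ⊓ M := ⟨hu, by simpa using mul_mem hm (inv_mem (hL hl))⟩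
        rw [hdis, Subgroup.mem_bot] at this
        simpa [this] using hl
      have hcomm : ∀ u ∈ U, ∀ m ∈ M, Commute u m := by
        intro u hu m hm
        have hne : Subgroup.zpowers m ≠ M := fun heq => hM2 (heq ▸ (letI : CommGroup (Subgroup.zpowers m) := IsCyclic.commGroup; inferInstance))
        have hN := nilpotent_proper hM (hsmall _ (Subgroup.zpowers_le.2 hm) hne) (hpU.trans (Subgroup.card_dvd_of_le le_sup_left))
        refine commute_in hN (Subgroup.mem_sup_left hu) (Subgroup.mem_sup_right (Subgroup.mem_zpowers m)) ?_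
        obtain ⟨b, hb⟩ := IsPGroup.iff_orderOf.1 hUp ⟨u, hu⟩
        rw [Subgroup.orderOf_mk] at hb
        rw [hb]
        refine Nat.Coprime.pow_left b (hp.coprime_iff_not_dvd.2 fun hd => hpM (hd.trans ?_))
        rw [← Subgroup.orderOf_mk m hm]
        exact orderOf_dvd_natCard _
      have hMn : M.Normal := by
        have : Subgroup.normalizer (M : Set G) = ⊤ := by
          rw [eq_top_iff, ← hUM]
          refine sup_le (fun u hu => ?_) Subgroup.le_normalizer
          rw [Subgroup.mem_normalizer_iff]
          intro m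
          constructor
          · intro hm; rwa [(hcomm u hu m hm).eq, mul_inv_cancel_right]
          · intro hm
            have h := (hcomm u hu _ hm).eq
            have : u * m * u⁻¹ = m := by
              have h' : u * (u * m * u⁻¹) = u * m := by rw [h]; group
              exact mul_left_cancel h'
            rwa [this] at hm
        exact Subgroup.normalizer_eq_top_iff.1 this
      obtain ⟨V, hVc⟩ := Sylow.exists_subgroup_card_pow_prime p (n := 1) (G := U) (by rwa [pow_one])
      let Z : Subgroup G := V.map U.subtype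
      have hZc : Nat.card Z = p := by
        rw [Nat.card_congr (Subgroup.equivMapOfInjective _ _ U.subtype_injective).toEquiv.symm, hVc, pow_one]
      have hZU : Z ≤ U := Subgroup.map_subtype_le V
      have hZtop : Z ⊔ M = ⊤ := hM1.2 _ (lt_of_le_of_ne le_sup_right fun heq =>
        hpM ((hZc ▸ dvd_refl p : p ∣ Nat.card Z).trans (Subgroup.card_dvd_of_le (heq.symm ▸ le_sup_left))))
      have hZeq : Z = U := by
        refine le_antisymm hZU fun u hu => ?_
        have : u ∈ (Z ⊔ M) := hZtop ▸ Subgroup.mem_top u
        rw [← SetLike.mem_coe, Subgroup.mul_normal] at this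
        obtain ⟨z, hz, m, hm, rfl⟩ := this
        have : m ∈ U ⊓ M := ⟨by simpa using mul_mem (inv_mem (hZU hz)) hu, hm⟩
        rw [hdis, Subgroup.mem_bot] at this
        simpa [this] using hz
      refine hpM (hsplit U M hUn hMn hdis hUM (hZeq ▸ hZc) ⟨hM2, fun H hH => ?_⟩)
      have h1 : H.map M.subtype ≠ M := fun heq => hH <| Subgroup.map_injective M.subtype_injective <| by
        rw [heq, ← MonoidHom.range_eq_map, Subgroup.range_subtype]
      have hN := nilpotent_proper hM (hsmall _ (Subgroup.map_subtype_le H) h1) (hpU.trans (Subgroup.card_dvd_of_le le_sup_left))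
      haveI := nilpotent_of_le hN (le_sup_right : H.map M.subtype ≤ U ⊔ H.map M.subtype)
      exact Group.nilpotent_of_mulEquiv (Subgroup.equivMapOfInjective H _ M.subtype_injective).symm
    · push Not at hU
      obtain ⟨P, K, hKn, hKP⟩ : Cfsg.HasNormalPComplement p G := by
        refine frobenius_criterion fun Q hQ g hg hgo => ?_
        rw [Subgroup.mem_centralizer_iff]
        intro x hx
        by_cases hx1 : x = 1
        · simp [hx1]
        have hne : Subgroup.normalizer (Q : Set G) ≠ ⊤ := fun htop => hx1 (Subgroup.mem_bot.1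
          ((hU Q (Subgroup.normalizer_eq_top_iff.1 htop) hQ) ▸ hx))
        obtain ⟨b, hb⟩ := IsPGroup.iff_orderOf.1 hQ ⟨x, hx⟩
        rw [Subgroup.orderOf_mk] at hb
        have hN := nilpotent_proper hM hne (by
          have : orderOf x ∣ Nat.card (Subgroup.normalizer (Q : Set G)) := by
            rw [← Subgroup.orderOf_mk x (Subgroup.le_normalizer hx)]; exact orderOf_dvd_natCard _
          refine dvd_trans ?_ this
          rw [hb]
          exact dvd_pow_self p fun h0 => hx1 (orderOf_eq_one_iff.1 (by rw [hb, h0, pow_zero])))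
        exact commute_in hN (Subgroup.le_normalizer hx) hg (by rw [hb]; exact hgo.symm.pow_left b)
      have hPne : (P : Subgroup G) ≠ ⊥ := P.ne_bot_of_dvd_card hpG
      have hPdis : ∀ x ∈ K, x ∈ (P : Subgroup G) → x = 1 := fun x h1 h2 => by
        have := hKP.disjoint.le_bot ⟨h1, h2⟩
        simpa using this
      have hpK : ¬ p ∣ Nat.card K := by
        intro hd
        obtain ⟨k, hk⟩ := exists_prime_orderOf_dvd_card' p hd
        have hkp : IsPGroup p (Subgroup.zpowers (k : G)) :=
          IsPGroup.of_card (n := 1) (by rw [Nat.card_zpowers, Subgroup.orderOf_coe, hk, pow_one])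
        obtain ⟨P', hP'⟩ := hkp.exists_le_sylow
        obtain ⟨c, hc⟩ := MulAction.exists_smul_eq G P' P
        have h1 : c * (k : G) * c⁻¹ ∈ (P : Subgroup G) := by
          rw [← hc]
          rw [Sylow.coe_subgroup_smul]
          simpa using Subgroup.smul_mem_pointwise_smul (k : G) (MulAut.conj c) (P' : Subgroup G) (hP' (Subgroup.mem_zpowers _))
        have h2 := hPdis _ (hKn.conj_mem _ k.2 c) h1
        rw [conj_eq_one_iff, ← orderOf_eq_one_iff, Subgroup.orderOf_coe, hk] at h2
        exact hp.ne_one h2
      -- every element of K centralizes P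
      have hcent : K ≤ Subgroup.centralizer ((P : Subgroup G) : Set G) := by
        have hC : (Subgroup.centralizer ((P : Subgroup G) : Set G)).subgroupOf K = ⊤ := by
          refine Subgroup.eq_top_of_le_card _ (Nat.le_of_dvd Nat.card_pos ?_)
          refine (Nat.dvd_iff_prime_pow_dvd_dvd _ _).2 fun q k hq hqk => ?_
          haveI := Fact.mk hq
          obtain ⟨Q⟩ := (inferInstance : Nonempty (Sylow q K))
          set Q0 := (Q : Subgroup K).map K.subtype with hQ0
          have htop : Subgroup.normalizer (Q0 : Set G) ⊔ K = ⊤ := Q.normalizer_sup_eq_top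
          obtain ⟨T⟩ := (inferInstance : Nonempty (Sylow p (Subgroup.normalizer (Q0 : Set G))))
          obtain ⟨P', hP'⟩ := (T.isPGroup'.map (Subgroup.normalizer (Q0 : Set G)).subtype).exists_le_sylow
          have hTP : (T : Subgroup (Subgroup.normalizer (Q0 : Set G))).map (Subgroup.normalizer (Q0 : Set G)).subtype = (P' : Subgroup G) := by
            refine Subgroup.eq_of_le_of_card_ge hP' ?_
            rw [Nat.card_congr (Subgroup.equivMapOfInjective _ _ (Subgroup.subtype_injective _)).toEquiv.symm,
              P'.card_eq_multiplicity, T.card_eq_multiplicity]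
            refine Nat.pow_le_pow_right hp.pos ?_
            refine (hp.pow_dvd_iff_le_factorization Nat.card_pos.ne').1 ?_
            have h1 : Nat.card G ∣ Nat.card (Subgroup.normalizer (Q0 : Set G)) * Nat.card K := by
              have h3 : K.index ∣ Nat.card (Subgroup.normalizer (Q0 : Set G)) := by
                rw [← Subgroup.relIndex_top_right, ← htop, Subgroup.relIndex_sup_right]
                exact Subgroup.relIndex_dvd_card _ _
              rw [← K.card_mul_index, mul_comm]
              exact mul_dvd_mul_right h3 _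
            exact (Nat.Coprime.dvd_mul_right ((hp.coprime_iff_not_dvd.2 hpK).pow_left _)).1
              ((Nat.ordProj_dvd (Nat.card G) p).trans h1)
          obtain ⟨c, hc⟩ := MulAction.exists_smul_eq G P' P
          set Q1 := Q0.map (MulAut.conj c).toMonoidHom with hQ1
          have hQ1K : Q1 ≤ K := by
            rintro _ ⟨x, hx, rfl⟩
            exact hKn.conj_mem x (Subgroup.map_subtype_le _ hx) c
          have hPQ : (P : Subgroup G) ≤ Subgroup.normalizer (Q1 : Set G) := by
            rw [hQ1, ← Subgroup.map_equiv_normalizer_eq, ← hc]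
            intro x hx
            obtain ⟨y, hy, rfl⟩ := hx
            exact ⟨y, Subgroup.map_subtype_le _ (hTP ▸ hy), rfl⟩
          have hQ1q : IsPGroup q Q1 := (Q.isPGroup'.map _).map _
          have hQ1card : Nat.card Q1 = q ^ (Nat.card K).factorization q := by
            rw [hQ1, hQ0, Subgroup.map_map,
              Nat.card_congr (Subgroup.equivMapOfInjective _ _ ((MulAut.conj c).injective.comp K.subtype_injective)).toEquiv.symm,
              Q.card_eq_multiplicity]
          have hne : Q1 ⊔ (P : Subgroup G) ≠ ⊤ := by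
            intro htop1
            refine hM2 (nilpotent_of_le (H := M) (K := Q1) hQ1q.isNilpotent ?_)
            intro m hm
            have hmem : m ∈ Q1 ⊔ (P : Subgroup G) := htop1 ▸ Subgroup.mem_top m
            rw [← SetLike.mem_coe, Subgroup.coe_mul_of_right_le_normalizer_left _ _ hPQ] at hmem
            obtain ⟨u, hu, w, hw, rfl⟩ := hmem
            -- an element of the p'-subgroup M lies in K
            have hmK : u * w ∈ K := by
              have hcop : ((orderOf (u * w))).Coprime K.index := by
                rw [(Subgroup.IsComplement'.index_eq_card (Subgroup.IsComplement'.symm hKP)), P.card_eq_multiplicity]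
                refine Nat.Coprime.pow_right _ (Nat.coprime_comm.1 (hp.coprime_iff_not_dvd.2 fun hd => hpM (hd.trans ?_)))
                rw [← Subgroup.orderOf_mk _ hm]; exact orderOf_dvd_natCard _
              have h5 : orderOf (QuotientGroup.mk' K (u * w)) = 1 :=
                Nat.eq_one_of_dvd_coprimes hcop (orderOf_map_dvd _ _) (Subgroup.index_eq_card K ▸ orderOf_dvd_natCard _)
              exact (QuotientGroup.eq_one_iff _).1 (orderOf_eq_one_iff.1 h5)
            have hwK : w ∈ K := by simpa using mul_mem (inv_mem (hQ1K hu)) hmK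
            simpa [hPdis w hwK hw] using hu
          have hN := nilpotent_proper hM hne ((P.dvd_card_of_dvd_card hpG).trans (Subgroup.card_dvd_of_le le_sup_right))
          by_cases hqp : q = p
          · subst hqp
            rcases Nat.eq_zero_or_pos k with rfl | hk
            · simp
            exact absurd ((dvd_pow_self q hk.ne').trans hqk) hpK
          have hle : Q1.subgroupOf K ≤ (Subgroup.centralizer ((P : Subgroup G) : Set G)).subgroupOf K := by
            intro x hx
            rw [Subgroup.mem_subgroupOf, Subgroup.mem_centralizer_iff]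
            intro y hy
            refine (commute_in hN (Subgroup.mem_sup_left hx) (Subgroup.mem_sup_right hy) ?_).symm.eq
            obtain ⟨i, hi⟩ := IsPGroup.iff_orderOf.1 hQ1q ⟨(x : G), Subgroup.mem_subgroupOf.1 hx⟩
            obtain ⟨j, hj⟩ := IsPGroup.iff_orderOf.1 P.isPGroup' ⟨y, hy⟩
            rw [Subgroup.orderOf_mk] at hi hj
            rw [show K.subtype x = (x : G) from rfl, hi, hj]
            exact ((Nat.coprime_primes hq hp).2 hqp).pow i j
          refine dvd_trans ?_ (Subgroup.card_dvd_of_le hle)
          rw [Nat.card_congr (Subgroup.subgroupOfEquivOfLe hQ1K).toEquiv, hQ1card]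
          exact pow_dvd_pow q ((hq.pow_dvd_iff_le_factorization Nat.card_pos.ne').1 hqk)
        exact fun x hx => Subgroup.mem_subgroupOf.1 (hC ▸ Subgroup.mem_top (⟨x, hx⟩ : K))
      refine hPne (hU P (Subgroup.normalizer_eq_top_iff.1 ?_) P.isPGroup')
      rw [eq_top_iff, ← hKP.sup_eq_top]
      exact sup_le (hcent.trans (Subgroup.centralizer_le_normalizer _)) Subgroup.le_normalizer
  · rintro (h | h | ⟨Z, K, hZn, hKn, hdis, hsup, hZc, hKmin, hpK⟩) M hM hpM
    · exact nilpotent_of_le ((Group.isNilpotent_congr Subgroup.topEquiv).2 h) le_top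
    · exact h.2 M hM.1
    · haveI := hKn
      haveI := hZn
      obtain ⟨z, hz⟩ := exists_prime_orderOf_dvd_card' p hpM
      have hzZ : (z : G) ∈ Z := by
        have h5 : orderOf (QuotientGroup.mk' Z (z : G)) = 1 := by
          have hidx : Z.index = Nat.card K := (Subgroup.isComplement'_of_disjoint_and_mul_eq_univ
            (disjoint_iff.2 hdis) (by rw [← Subgroup.normal_mul, hsup, Subgroup.coe_top])).symm.index_eq_card
          refine Nat.eq_one_of_dvd_coprimes (hp.coprime_iff_not_dvd.2 hpK) ?_ (hidx ▸ Subgroup.index_eq_card Z ▸ orderOf_dvd_natCard _)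
          exact (orderOf_map_dvd _ _).trans (by rw [Subgroup.orderOf_coe, hz])
        exact (QuotientGroup.eq_one_iff _).1 (orderOf_eq_one_iff.1 h5)
      have hZM : Z ≤ M := by
        have h6 : Subgroup.zpowers (z : G) = Z := Subgroup.eq_of_le_of_card_ge (Subgroup.zpowers_le.2 hzZ)
          (by rw [Nat.card_zpowers, Subgroup.orderOf_coe, hz, hZc])
        exact h6 ▸ Subgroup.zpowers_le.2 z.2
      have hL : (M.subgroupOf K) ≠ ⊤ := by
        intro htop
        exact hM.1 (top_le_iff.1 (hsup ▸ sup_le hZM (Subgroup.subgroupOf_eq_top.1 htop)))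
      haveI := hKmin.2 _ hL
      haveI : Group.IsNilpotent Z := (IsPGroup.of_card (n := 1) (by rw [hZc, pow_one]) : IsPGroup p Z).isNilpotent
      let f : Z × (M.subgroupOf K) →* G :=
        MonoidHom.noncommCoprod Z.subtype (K.subtype.comp (M.subgroupOf K).subtype) fun a b =>
          Subgroup.commute_of_normal_of_disjoint Z K hZn hKn (disjoint_iff.2 hdis) _ _ a.2 b.1.2
      have hrange : M ≤ f.range := by
        intro m hm
        have : m ∈ (Z ⊔ K) := hsup ▸ Subgroup.mem_top m
        rw [← SetLike.mem_coe, Subgroup.normal_mul] at this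
        obtain ⟨a, ha, b, hb, rfl⟩ := this
        exact ⟨(⟨a, ha⟩, ⟨⟨b, hb⟩, by simpa [Subgroup.mem_subgroupOf] using mul_mem (inv_mem (hZM ha)) hm⟩), rfl⟩
      haveI : Group.IsNilpotent f.range := Group.nilpotent_of_surjective f.rangeRestrict f.rangeRestrict_surjective
      exact nilpotent_of_le inferInstance hrange

end Cfsg.Agent.S4242
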