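import Cfsg.Statements.S4244
import Mathlib
-- import your own Cfsg.Agent.* helpers here

set_option autoImplicit false
open Cfsg

namespace Cfsg.Agent.S4244

/-- Let H be a subnormal subgroup of a finite group G. Then for every subgroup K of G the index of H ∩ K in H divides the index of K in G. -/
theorem result {G : Type*} [Group G] [Finite G] (H : Subgroup G) (hH : H.IsSubnormal) (K : Subgroup G) :
    (H ⊓ K).relIndex H ∣ K.index := by
  rw [Subgroup.inf_relIndex_left]
  induction hH with
  | top => rw [Subgroup.relIndex_top_right]
  | step H L hle _ hN ih =>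
    refine dvd_trans ?_ ih
    set H' := H.subgroupOf L with hH'
    set J := K.subgroupOf L with hJ
    set S := H' ⊔ J with hS
    have h1 : J.relIndex H' = K.relIndex H := Subgroup.relIndex_subgroupOf hle
    have h2 : J.relIndex S = J.relIndex H' := by
      have a1 := Subgroup.relIndex_mul_relIndex ⊥ H' S bot_le le_sup_left
      have a2 := Subgroup.relIndex_mul_relIndex ⊥ J S bot_le le_sup_right
      have a3 := Subgroup.relIndex_mul_relIndex ⊥ (H' ⊓ J) H' bot_le inf_le_left
      have a4 := Subgroup.relIndex_mul_relIndex ⊥ (H' ⊓ J) J bot_le inf_le_right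
      rw [Subgroup.inf_relIndex_right] at a4
      rw [Subgroup.inf_relIndex_left] at a3
      rw [hS, sup_comm H' J, Subgroup.relIndex_sup_right] at a1
      simp only [Subgroup.relIndex_bot_left] at a1 a2 a3 a4
      rw [show J ⊔ H' = S from sup_comm J H'] at a1
      have hpos : 0 < Nat.card J := Nat.card_pos
      apply Nat.eq_of_mul_eq_mul_left hpos
      calc Nat.card J * J.relIndex S = Nat.card S := a2
        _ = Nat.card H' * H'.relIndex J := a1.symm
        _ = Nat.card ↥(H' ⊓ J) * J.relIndex H' * H'.relIndex J := by rw [a3]
        _ = Nat.card ↥(H' ⊓ J) * H'.relIndex J * J.relIndex H' := by ring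
        _ = _ := by rw [a4]
    rw [← h1, ← h2]
    exact Subgroup.relIndex_dvd_index_of_le le_sup_right

end Cfsg.Agent.S4244
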