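import Cfsg.Statements.S4245
import Cfsg.Agent.Lib.Char.Kazarin
import Cfsg.Agent.Lib.Char.Burnside
-- import your own Cfsg.Agent.* helpers here

set_option autoImplicit false
open Cfsg

namespace Cfsg.Agent.S4245

universe w

/-- The statement for all groups at once. -/
theorem main : ∀ (n : ℕ) (G : Type w) [Group G] [Finite G] (A : Subgroup G) (p s : ℕ)
    (B : Subgroup A) [B.Normal] (r : ℕ), Nat.card G = n → p.Prime → A.index ∣ p ^ s → IsCyclic B →
    IsCyclic (A ⧸ B) → Nat.card (A ⧸ B) ∣ 2 ^ r → Group.IsSolvable G := by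
  intro n
  induction n using Nat.strong_induction_on with
  | _ n ih =>
  intro G _ _ A p s B _ r hn hp hA hB hAB hr
  have : Fact p.Prime := ⟨hp⟩
  set C := B.map A.subtype with hC
  have hCA : C ≤ A := Subgroup.map_subtype_le B
  have hCidx : C.index ∣ 2 ^ r * p ^ s := by
    rw [hC, Subgroup.index_map_subtype]
    exact mul_dvd_mul (by rwa [Subgroup.index_eq_card]) hA
  by_cases hC1 : C = ⊥
  · rw [hC1, Subgroup.index_bot] at hCidx
    refine Lib.Char.isSolvable_of_card_eq_two_primes Nat.prime_two hp _ G rfl fun t ht hd => ?_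
    rcases ht.dvd_mul.1 (hd.trans hCidx) with h | h
    · exact Or.inl ((Nat.prime_dvd_prime_iff_eq ht Nat.prime_two).1 (ht.dvd_of_dvd_pow h))
    · exact Or.inr ((Nat.prime_dvd_prime_iff_eq ht hp).1 (ht.dvd_of_dvd_pow h))
  -- a suitable element with prime power class reduces the order
  have step : ∀ x : G, x ≠ 1 → ∀ t : ℕ, ∀ _ : Fact t.Prime, (∃ e, (Subgroup.centralizer ({x} : Set G)).index ∣ t ^ e) →
      Group.IsSolvable G := by
    rintro x hx t _ ⟨e, he⟩
    obtain ⟨j, -, hj⟩ := (Nat.dvd_prime_pow Fact.out).1 he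
    set L := Subgroup.normalClosure ({x} : Set G)
    have hL : Group.IsSolvable ↥L :=
      Lib.Kazarin.isSolvable_normalClosure _ G x t j rfl Fact.out hj
    have hLn : L.Normal := Subgroup.normalClosure_normal
    have hLb : L ≠ ⊥ := fun h => hx (Subgroup.mem_bot.1 (h ▸ Subgroup.subset_normalClosure rfl))
    have hlt : Nat.card (G ⧸ L) < n := by
      rw [← hn, Subgroup.card_eq_card_quotient_mul_card_subgroup L]
      exact lt_mul_of_one_lt_right Nat.card_pos (L.one_lt_card_iff_ne_bot.2 hLb)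
    let f := (QuotientGroup.mk' L).subgroupMap A
    have hf : Function.Surjective f := MonoidHom.subgroupMap_surjective _ _
    have hBn : (B.map f).Normal := Subgroup.Normal.map inferInstance f hf
    have hQ := ih _ hlt (G ⧸ L) (A.map (QuotientGroup.mk' L)) p s (B.map f) r rfl hp
      ((Subgroup.index_map_dvd A (QuotientGroup.mk'_surjective L)).trans hA)
      (isCyclic_of_surjective (f.subgroupMap B) (MonoidHom.subgroupMap_surjective _ _))
      (isCyclic_of_surjective (QuotientGroup.map B (B.map f) f (Subgroup.le_comap_map f B))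
        (fun a => by
          obtain ⟨a, rfl⟩ := QuotientGroup.mk_surjective a
          obtain ⟨b, rfl⟩ := hf a
          exact ⟨QuotientGroup.mk b, rfl⟩))
      (by
        rw [← Subgroup.index_eq_card] at hr ⊢
        exact (Subgroup.index_map_dvd B hf).trans hr)
    exact (Group.isSolvable_iff_subgroup_quotient L).2 ⟨hL, hQ⟩
  obtain ⟨⟨c, hc⟩⟩ : IsCyclic C :=
    isCyclic_of_surjective (A.subtype.subgroupMap B) (MonoidHom.subgroupMap_surjective _ _)
  have hcC : C = Subgroup.zpowers (c : G) := le_antisymm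
    (fun y hy => by
      obtain ⟨i, hi⟩ := hc ⟨y, hy⟩
      exact ⟨i, by simpa using congrArg Subtype.val hi⟩)
    (Subgroup.zpowers_le.2 c.2)
  have hc1 : (c : G) ≠ 1 := fun h => hC1 (by rw [hcC, h, Subgroup.zpowers_one_eq_bot])
  have hcz : Subgroup.zpowers (c : G) ≤ Subgroup.centralizer ({(c : G)} : Set G) := by
    rw [Subgroup.zpowers_le, Subgroup.mem_centralizer_singleton_iff]
  by_cases hp2 : p = 2
  · subst hp2
    refine step c hc1 2 inferInstance ⟨r + s, ?_⟩
    rw [pow_add]
    exact (Subgroup.index_dvd_of_le (hcC.le.trans hcz)).trans hCidx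
  by_cases hev : 2 ∣ orderOf (c : G)
  · set z := (c : G) ^ (orderOf (c : G) / 2) with hz
    have hzo : orderOf z = 2 := orderOf_pow_orderOf_div (orderOf_pos _).ne' hev
    refine step z (fun h => by rw [h, orderOf_one] at hzo; omega) p inferInstance ⟨s, ?_⟩
    refine (Subgroup.index_dvd_of_le (fun a ha => ?_)).trans hA
    rw [Subgroup.mem_centralizer_singleton_iff]
    have hzC : z ∈ C := C.pow_mem c.2 _
    have hz' : a * z * a⁻¹ ∈ C := by
      obtain ⟨b, hb, hbz⟩ := hzC
      exact ⟨⟨a, ha⟩ * b * ⟨a, ha⟩⁻¹, Subgroup.Normal.conj_mem inferInstance b hb _,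
        by simp [← hbz]⟩
    -- the involution of a cyclic group is unique
    have huniq : a * z * a⁻¹ = z := by
      have h2 : orderOf (a * z * a⁻¹) = 2 := by
        rw [show a * z * a⁻¹ = MulAut.conj a z from rfl, MulEquiv.orderOf_eq, hzo]
      rw [hcC] at hz'
      obtain ⟨i, hi : (c : G) ^ i = a * z * a⁻¹⟩ := hz'
      rw [← hi] at h2 ⊢
      have h4 : ((c : G) ^ i) ^ (2 : ℤ) = 1 := by
        have := pow_orderOf_eq_one ((c : G) ^ i)
        rw [h2] at this
        exact_mod_cast this
      rw [← zpow_mul, ← orderOf_dvd_iff_zpow_eq_one] at h4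
      have h1 : ¬ (orderOf (c : G) : ℤ) ∣ i := fun h => by
        rw [orderOf_dvd_iff_zpow_eq_one.1 h, orderOf_one] at h2
        omega
      obtain ⟨m, hm⟩ := hev
      have hm' : orderOf (c : G) / 2 = m := by omega
      rw [hz, hm', ← zpow_natCast, zpow_eq_zpow_iff_modEq]
      rw [hm] at h1 h4 ⊢
      obtain ⟨d, hd⟩ := h4
      push_cast at hd h1 ⊢
      have hid : i = m * d := by linarith
      obtain ⟨e, rfl | rfl⟩ := Int.even_or_odd' d
      · exact absurd ⟨e, by rw [hid]; ring⟩ h1
      · rw [Int.modEq_iff_dvd]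
        exact ⟨-e, by rw [hid]; ring⟩
    calc a * z = a * z * a⁻¹ * a := by group
      _ = z * a := by rw [huniq]
  -- odd cyclic part: a normal 2-complement
  obtain ⟨S⟩ : Nonempty (Sylow 2 ↥A) := inferInstance
  have h2 : ¬ 2 ∣ p := fun h => hp2 ((Nat.prime_dvd_prime_iff_eq Nat.prime_two hp).1 h).symm
  have hSi : ¬ 2 ∣ ((S : Subgroup ↥A).map A.subtype).index := by
    rw [Subgroup.index_map_subtype]
    intro h
    rcases Nat.prime_two.dvd_mul.1 h with h | h
    · exact S.not_dvd_index h
    · exact h2 (Nat.prime_two.dvd_of_dvd_pow (h.trans hA))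
  let T : Sylow 2 G := (S.isPGroup'.map A.subtype).toSylow hSi
  have hScyc : IsCyclic ↥(S : Subgroup ↥A) := by
    refine isCyclic_of_injective ((QuotientGroup.mk' B).comp (S : Subgroup ↥A).subtype) ?_
    rw [injective_iff_map_eq_one]
    intro y hy
    have hyB : (y : ↥A) ∈ B := (QuotientGroup.eq_one_iff _).1 hy
    obtain ⟨k, hk⟩ := (S.isPGroup' y)
    have hyC : ((y : ↥A) : G) ∈ C := Subgroup.mem_map_of_mem A.subtype hyB
    have hd : orderOf ((y : ↥A) : G) ∣ orderOf (c : G) := by
      rw [hcC] at hyC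
      obtain ⟨i, hi : (c : G) ^ i = ((y : ↥A) : G)⟩ := hyC
      rw [← hi]
      exact orderOf_dvd_of_pow_eq_one (by
        rw [← zpow_natCast, ← zpow_mul, mul_comm, zpow_mul, zpow_natCast, pow_orderOf_eq_one, one_zpow])
    have h1 : orderOf ((y : ↥A) : G) ∣ 2 ^ k := orderOf_dvd_of_pow_eq_one (by
      rw [← Subgroup.coe_pow, ← Subgroup.coe_pow, hk]; rfl)
    have : orderOf ((y : ↥A) : G) = 1 := Nat.eq_one_of_dvd_coprimes
      (Nat.Coprime.pow_left k ((Nat.prime_two.coprime_iff_not_dvd).2 hev)) h1 hd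
    exact Subtype.ext (Subtype.ext (orderOf_eq_one_iff.1 this))
  by_cases hG2 : 2 ∣ Nat.card G
  swap
  · refine step c hc1 p inferInstance ⟨s, ?_⟩
    refine (Nat.Coprime.dvd_mul_left ?_).1 ((Subgroup.index_dvd_of_le (hcC.le.trans hcz)).trans hCidx)
    exact Nat.Coprime.pow_right r ((Nat.coprime_comm.1 (Nat.prime_two.coprime_iff_not_dvd.2
      fun h => hG2 (h.trans (Subgroup.index_dvd_card _)))))
  have hTcyc : IsCyclic ↥(T : Subgroup G) := by
    show IsCyclic ↥((S : Subgroup ↥A).map A.subtype)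
    exact isCyclic_of_surjective (A.subtype.subgroupMap _) (MonoidHom.subgroupMap_surjective _ _)
  have hmin : (Nat.card G).minFac = 2 := (Nat.minFac_eq_two_iff _).2 hG2
  set K := (MonoidHom.transferSylow T (IsCyclic.normalizer_le_centralizer hmin hTcyc)).ker
  have hK : K.IsComplement' (T : Subgroup G) := IsCyclic.isComplement' hmin hTcyc
  have hKodd : ¬ 2 ∣ Nat.card K := MonoidHom.not_dvd_card_ker_transferSylow T _
  have hcK : (c : G) ∈ K := by
    have h0 : (QuotientGroup.mk' K) (c : G) = 1 := by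
      refine orderOf_eq_one_iff.1 ?_
      obtain ⟨k, hk⟩ := IsPGroup.iff_card.1 T.isPGroup'
      have h1 : orderOf (QuotientGroup.mk' K (c : G)) ∣ 2 ^ k := by
        refine (orderOf_dvd_natCard _).trans (dvd_of_eq ?_)
        rw [← Subgroup.index_eq_card, hK.symm.index_eq_card, hk]
      exact Nat.eq_one_of_dvd_coprimes
        (Nat.Coprime.pow_left k ((Nat.prime_two.coprime_iff_not_dvd).2 hev)) h1
        (orderOf_map_dvd _ _)
    exact (QuotientGroup.eq_one_iff _).1 h0
  let cK : ↥K := ⟨c, hcK⟩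
  have hCi : (Subgroup.zpowers cK).index ∣ p ^ s := by
    have e1 : Nat.card ↥(Subgroup.zpowers cK) * (Subgroup.zpowers cK).index = Nat.card K :=
      Subgroup.card_mul_index _
    have e2 : Nat.card K * Nat.card (T : Subgroup G) = Nat.card G := hK.card_mul
    have e3 : Nat.card C * C.index = Nat.card G := Subgroup.card_mul_index _
    have e4 : Nat.card ↥(Subgroup.zpowers cK) = Nat.card C := by
      rw [hcC, Nat.card_zpowers, Nat.card_zpowers, ← Subgroup.orderOf_coe]
    have hdvd : (Subgroup.zpowers cK).index * Nat.card (T : Subgroup G) = C.index := by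
      refine mul_left_cancel₀ (a := Nat.card C) Nat.card_pos.ne' ?_
      rw [e3, ← e2, ← e1, e4, mul_assoc]
    refine (Nat.Coprime.dvd_mul_left ?_).1 ((Dvd.intro _ hdvd).trans hCidx)
    exact Nat.Coprime.pow_right r (Nat.coprime_comm.1 (Nat.prime_two.coprime_iff_not_dvd.2
      fun h => hKodd (h.trans (Subgroup.index_dvd_card _))))
  obtain ⟨j, -, hj⟩ := (Nat.dvd_prime_pow hp).1 ((Subgroup.index_dvd_of_le
    (show Subgroup.zpowers cK ≤ Subgroup.centralizer ({cK} : Set ↥K) by
      rw [Subgroup.zpowers_le, Subgroup.mem_centralizer_singleton_iff])).trans hCi)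
  set L := Subgroup.normalClosure ({cK} : Set ↥K)
  have hL : Group.IsSolvable ↥L := Lib.Kazarin.isSolvable_normalClosure _ ↥K cK p j rfl hp hj
  have hLn : L.Normal := Subgroup.normalClosure_normal
  have hKL : Group.IsSolvable (↥K ⧸ L) := by
    obtain ⟨i, -, hi⟩ := (Nat.dvd_prime_pow hp).1 ((Subgroup.index_dvd_of_le
      (show Subgroup.zpowers cK ≤ L from Subgroup.zpowers_le.2 (Subgroup.subset_normalClosure rfl))).trans hCi)
    have : Group.IsNilpotent (↥K ⧸ L) :=
      (IsPGroup.of_card (p := p) (n := i) (by rw [← Subgroup.index_eq_card, hi])).isNilpotent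
    exact IsNilpotent.to_isSolvable
  have hKs : Group.IsSolvable ↥K := (Group.isSolvable_iff_subgroup_quotient L).2 ⟨hL, hKL⟩
  have hGK : Group.IsSolvable (G ⧸ K) := by
    obtain ⟨k, hk⟩ := IsPGroup.iff_card.1 T.isPGroup'
    have : Group.IsNilpotent (G ⧸ K) :=
      (IsPGroup.of_card (p := 2) (n := k) (by rw [← Subgroup.index_eq_card, hK.symm.index_eq_card, hk])).isNilpotent
    exact IsNilpotent.to_isSolvable
  exact (Group.isSolvable_iff_subgroup_quotient K).2 ⟨hKs, hGK⟩

/-- Let G be a finite group with a subgroup A of prime-power index. Suppose A has a normal cyclic subgroup B such that A/B is cyclic of order a power of 2. Then G is solvable. -/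
theorem result {G : Type*} [Group G] [Finite G] (A : Subgroup G) (p s : ℕ) (hp : p.Prime) (hA : A.index = p ^ s)
    (B : Subgroup A) [B.Normal] (hB : IsCyclic B) (hAB : IsCyclic (A ⧸ B)) (r : ℕ) (hr : Nat.card (A ⧸ B) = 2 ^ r) :
    Group.IsSolvable G := by
  exact main _ G A p s B r rfl hp hA.dvd hB hAB hr.dvd


end Cfsg.Agent.S4245
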