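import Cfsg.Statements.S4249
import Cfsg.Agent.Lib.FPF.Hughes

set_option autoImplicit false
open Cfsg

namespace Cfsg.Agent.S4249

/-- Let G be a finite group and p a prime such that G is not a p-group, and suppose the Hughes subgroup H_p(G), generated by all elements g with g^p ≠ 1, is a proper subgroup. Then H_p(G) is nilpotent and has index p in G. -/
theorem result {G : Type*} [Group G] [Finite G] (p : ℕ) (hp : p.Prime) (hG : ¬ IsPGroup p G)
    (hH : Subgroup.closure {g : G | g ^ p ≠ 1} ≠ ⊤) :
    Group.IsNilpotent (Subgroup.closure {g : G | g ^ p ≠ 1}) ∧ (Subgroup.closure {g : G | g ^ p ≠ 1}).index = p := by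
  have := Fact.mk hp
  set H := Subgroup.closure {g : G | g ^ p ≠ 1} with hdef
  have hout : ∀ g : G, g ∉ H → g ^ p = 1 := fun g hg => by
    by_contra h
    exact hg (Subgroup.subset_closure h)
  have hn : H.Normal := by
    refine ⟨fun x hx g => ?_⟩
    have hle : H ≤ H.comap (MulAut.conj g).toMonoidHom := by
      rw [hdef, Subgroup.closure_le]
      intro y hy
      refine Subgroup.subset_closure ?_
      show (g * y * g⁻¹) ^ p ≠ 1
      rw [conj_pow]
      exact fun e => hy (by simpa using e)
    exact hle hx
  exact ⟨Cfsg.Agent.Lib.FPF.hughes_nilpotent H hH hout, Cfsg.Agent.Lib.FPF.hughes_index H hH hout hG⟩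

end Cfsg.Agent.S4249
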