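import Cfsg.Statements.S4250
import Cfsg.Agent.Lib.GenStruct.AlperinFocal

set_option autoImplicit false
open Cfsg

namespace Cfsg.Agent.S4250

/-- Let P be a Sylow p-subgroup of a finite group G. Call an intersection H = P ∩ Q with a Sylow p-subgroup Q tame when N_P(H) and N_Q(H) are Sylow p-subgroups of N_G(H). Then P ∩ G′ is generated by [P, N_G(P)] together with the commutator subgroups [P ∩ Q, ⟨x⟩] for all tame intersections P ∩ Q and all p-elements x of N_G(P ∩ Q). -/
theorem result {G : Type*} [Group G] [Finite G] (p : ℕ) [Fact p.Prime] (P : Sylow p G) :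
    (P : Subgroup G) ⊓ commutator G =
      ⁅(P : Subgroup G), Subgroup.normalizer ((P : Subgroup G) : Set G)⁆ ⊔
        ⨆ (Q : Sylow p G) (_ : (¬ p ∣ ((P : Subgroup G) ⊓ Subgroup.normalizer (((P : Subgroup G) ⊓ (Q : Subgroup G) : Subgroup G) : Set G)).relIndex (Subgroup.normalizer (((P : Subgroup G) ⊓ (Q : Subgroup G) : Subgroup G) : Set G)) ∧ ¬ p ∣ ((Q : Subgroup G) ⊓ Subgroup.normalizer (((P : Subgroup G) ⊓ (Q : Subgroup G) : Subgroup G) : Set G)).relIndex (Subgroup.normalizer (((P : Subgroup G) ⊓ (Q : Subgroup G) : Subgroup G) : Set G))))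
          (x : G) (_ : x ∈ Subgroup.normalizer (((P : Subgroup G) ⊓ (Q : Subgroup G) : Subgroup G) : Set G) ∧ ∃ k : ℕ, orderOf x = p ^ k),
          ⁅(P : Subgroup G) ⊓ (Q : Subgroup G), Subgroup.zpowers x⁆ := by
  apply le_antisymm
  · set R := ⁅(P : Subgroup G), Subgroup.normalizer ((P : Subgroup G) : Set G)⁆ ⊔
        ⨆ (Q : Sylow p G) (_ : Cfsg.Agent.Lib.Transfer.TameInter P Q)
          (x : G) (_ : x ∈ Subgroup.normalizer (((P : Subgroup G) ⊓ (Q : Subgroup G) : Subgroup G) : Set G) ∧ ∃ k : ℕ, orderOf x = p ^ k),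
          ⁅(P : Subgroup G) ⊓ (Q : Subgroup G), Subgroup.zpowers x⁆ with hR
    show (P : Subgroup G) ⊓ commutator G ≤ R
    rw [inf_comm, Subgroup.commutator_inf_eq_focalSubgroup, Subgroup.focalSubgroup_def, Subgroup.closure_le]
    rintro _ ⟨hg, a, ha, u, rfl⟩
    have key := Cfsg.Agent.Lib.GenStruct.fusion_mem_of_tame P R ?_ ?_ _ ({a⁻¹} : Set G) le_rfl
      (Set.singleton_subset_iff.2 (inv_mem ha)) u⁻¹ ?_ a⁻¹ rfl
    · simpa [commutatorElement_def, mul_assoc] using key
    · intro d hd n hn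
      refine Subgroup.mem_sup_left ?_
      have := Subgroup.commutator_mem_commutator ((P : Subgroup G).inv_mem hd) (Subgroup.inv_mem _ hn)
      simpa [commutatorElement_def, mul_assoc] using this
    · intro Q hQ x hx hk d hd
      refine Subgroup.mem_sup_right (Subgroup.mem_iSup_of_mem Q (Subgroup.mem_iSup_of_mem hQ
        (Subgroup.mem_iSup_of_mem x (Subgroup.mem_iSup_of_mem ⟨hx, hk⟩ ?_))))
      have := Subgroup.commutator_mem_commutator (Subgroup.inv_mem _ hd) (Subgroup.inv_mem _ (Subgroup.mem_zpowers x))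
      simpa [commutatorElement_def, mul_assoc] using this
    · rintro _ ⟨_, rfl, rfl⟩
      show u⁻¹⁻¹ * a⁻¹ * u⁻¹ ∈ (P : Subgroup G)
      have := mul_mem (inv_mem ha) hg
      simpa [commutatorElement_def, mul_assoc] using this
  · refine sup_le (le_inf ?_ (Subgroup.commutator_mono le_top le_top))
      (iSup_le fun Q => iSup_le fun _ => iSup_le fun x => iSup_le fun hx => le_inf ?_ (Subgroup.commutator_mono le_top le_top))
    · exact Subgroup.le_normalizer_iff_commutator_le_left.1 le_rfl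
    · exact (Subgroup.le_normalizer_iff_commutator_le_left.1 (Subgroup.zpowers_le.2 hx.1)).trans inf_le_left

end Cfsg.Agent.S4250
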