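import Cfsg.Statements.S4251
import Cfsg.Agent.Lib.GenStruct.AlperinFocal

set_option autoImplicit false
open Cfsg

namespace Cfsg.Agent.S4251

/-- Let P be a Sylow p-subgroup of a finite group G. Call an intersection H = P ∩ Q with a Sylow p-subgroup Q tame when N_P(H) and N_Q(H) are Sylow p-subgroups of N_G(H). If N_G(H)/C_G(H) is a p-group for every nontrivial tame intersection H = P ∩ Q, then G has a normal p-complement. -/
theorem result {G : Type*} [Group G] [Finite G] (p : ℕ) [Fact p.Prime] (P : Sylow p G)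
    (h : ∀ Q : Sylow p G, (P : Subgroup G) ⊓ (Q : Subgroup G) ≠ ⊥ → (¬ p ∣ ((P : Subgroup G) ⊓ Subgroup.normalizer (((P : Subgroup G) ⊓ (Q : Subgroup G) : Subgroup G) : Set G)).relIndex (Subgroup.normalizer (((P : Subgroup G) ⊓ (Q : Subgroup G) : Subgroup G) : Set G)) ∧ ¬ p ∣ ((Q : Subgroup G) ⊓ Subgroup.normalizer (((P : Subgroup G) ⊓ (Q : Subgroup G) : Subgroup G) : Set G)).relIndex (Subgroup.normalizer (((P : Subgroup G) ⊓ (Q : Subgroup G) : Subgroup G) : Set G))) →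
      IsPGroup p (Subgroup.normalizer (((P : Subgroup G) ⊓ (Q : Subgroup G) : Subgroup G) : Set G) ⧸
        (Subgroup.centralizer (((P : Subgroup G) ⊓ (Q : Subgroup G) : Subgroup G) : Set G)).subgroupOf
          (Subgroup.normalizer (((P : Subgroup G) ⊓ (Q : Subgroup G) : Subgroup G) : Set G)))) :
    Cfsg.HasNormalPComplement p G := by
  refine Cfsg.Agent.Lib.Transfer.hasNormalPComplement_of_controlsFusion P ?_
  intro x hx g hg
  obtain ⟨l, hl, hgl⟩ := Cfsg.Agent.Lib.Transfer.alperin P ({x} : Set G) g⁻¹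
    (Set.singleton_subset_iff.2 hx) (by rintro _ ⟨_, rfl, rfl⟩; show g⁻¹⁻¹ * _ * g⁻¹ ∈ (P : Subgroup G); rwa [inv_inv])
  suffices key : ∀ (l : List (Sylow p G × G)) (y : G), Cfsg.Agent.Lib.Transfer.AlperinChain P l {y} →
      ∃ v ∈ (P : Subgroup G), v⁻¹ * y * v =
        (Cfsg.Agent.Lib.Transfer.chainProd l)⁻¹ * y * Cfsg.Agent.Lib.Transfer.chainProd l by
    obtain ⟨v, hv, he⟩ := key l x hl
    refine ⟨v⁻¹, inv_mem hv, ?_⟩
    rw [hgl] at he
    simpa using he
  intro l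
  induction l with
  | nil => intro y _; exact ⟨1, one_mem _, by simp [Cfsg.Agent.Lib.Transfer.chainProd]⟩
  | cons s l ih =>
    rintro y ⟨⟨hn, htame⟩, hyH, hl'⟩
    have hyH' : y ∈ (P : Subgroup G) ⊓ (s.1 : Subgroup G) := hyH rfl
    rw [Set.image_singleton] at hl'
    obtain ⟨v, hv, he⟩ := ih _ hl'
    suffices hstep : ∃ t ∈ (P : Subgroup G), t⁻¹ * y * t = s.2⁻¹ * y * s.2 by
      obtain ⟨t, ht, hte⟩ := hstep
      refine ⟨t * v, mul_mem ht hv, ?_⟩
      rw [show (t * v)⁻¹ * y * (t * v) = v⁻¹ * (t⁻¹ * y * t) * v by group, hte, he]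
      simp [Cfsg.Agent.Lib.Transfer.chainProd, mul_assoc]
    by_cases hbot : (P : Subgroup G) ⊓ (s.1 : Subgroup G) = ⊥
    · rw [hbot, Subgroup.mem_bot] at hyH'
      exact ⟨1, one_mem _, by simp [hyH']⟩
    have hquot := h s.1 hbot htame
    set H := (P : Subgroup G) ⊓ (s.1 : Subgroup G) with hH
    set N := Subgroup.normalizer (H : Set G) with hN
    have haut : Cfsg.Agent.Lib.Transfer.AutPGroup p H := by
      intro a ha hcop
      obtain ⟨k, hk⟩ := hquot (QuotientGroup.mk' _ (⟨a, ha⟩ : N))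
      have h1 := orderOf_dvd_of_pow_eq_one hk
      have h2 := (orderOf_map_dvd (QuotientGroup.mk' ((Subgroup.centralizer (H : Set G)).subgroupOf N)) (⟨a, ha⟩ : N))
      rw [Subgroup.orderOf_mk] at h2
      have h3 := Nat.eq_one_of_dvd_coprimes (Nat.Coprime.pow_right k hcop) h2 h1
      exact (QuotientGroup.eq_one_iff (⟨a, ha⟩ : N)).1 (orderOf_eq_one_iff.1 h3)
    obtain ⟨T, hT⟩ := Cfsg.Agent.Lib.GenStruct.exists_sylow_trace P N htame.1
    obtain ⟨c, hc, t, ht, hct⟩ := Cfsg.Agent.Lib.Transfer.normalizer_eq_centralizer_sup haut T hn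
    have ht' : (⟨(t : G), t.2⟩ : N) ∈ ((P : Subgroup G) ⊓ N).subgroupOf N := hT ▸ ht
    refine ⟨t, ht'.1, ?_⟩
    have hcy : y * c = c * y := Subgroup.mem_centralizer_iff.1 hc y hyH'
    calc (t : G)⁻¹ * y * t = (t : G)⁻¹ * c⁻¹ * (y * c) * t := by rw [hcy]; group
      _ = s.2⁻¹ * y * s.2 := by rw [hct]; group

end Cfsg.Agent.S4251
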