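import Cfsg.Statements.S4252

set_option autoImplicit false
open Cfsg Pointwise

namespace Cfsg.Agent.S4252

theorem conj_stab {G Ω : Type*} [Group G] [MulAction G Ω] (g : G) (α : Ω) :
    MulAut.conj g • MulAction.stabilizer G α = MulAction.stabilizer G (g • α) := by
  ext x
  rw [Subgroup.mem_pointwise_smul_iff_inv_smul_mem]
  simp only [MulAut.smul_def, ← map_inv, MulAut.conj_apply, inv_inv, MulAction.mem_stabilizer_iff, mul_smul]
  rw [inv_smul_eq_iff]

/-- Let a finite group G act on a finite set Ω with more than one point, transitively but not regularly, so that no non-identity element of G fixes two distinct points. Then the stabilizer H of any point is a Frobenius complement in G (nontrivial, proper, meeting its other conjugates trivially), and the Frobenius kernel of G with respect to H (the identity together with the elements lying in no conjugate of H) is exactly the set consisting of the identity and the elements fixing no point. -/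
theorem result {G Ω : Type*} [Group G] [Finite G] [Fintype Ω] [MulAction G Ω] (hΩ : 1 < Fintype.card Ω)
    (htrans : ∀ α β : Ω, ∃ g : G, g • α = β) (hnreg : ∃ g : G, g ≠ 1 ∧ ∃ α : Ω, g • α = α)
    (hfix : ∀ g : G, g ≠ 1 → ∀ α β : Ω, g • α = α → g • β = β → α = β) (α : Ω) :
    Cfsg.IsFrobeniusComplement (MulAction.stabilizer G α) ∧
      Cfsg.frobeniusKernel (MulAction.stabilizer G α) = {g : G | g = 1 ∨ ∀ ω : Ω, g • ω ≠ ω} := by
  have hpt : MulAction.IsPretransitive G Ω := ⟨htrans⟩
  refine ⟨⟨?_, ?_, ?_⟩, ?_⟩
  · obtain ⟨g, hg, β, hβ⟩ := hnreg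
    obtain ⟨x, rfl⟩ := htrans α β
    intro h
    have hm : g ∈ MulAction.stabilizer G (x • α) := hβ
    rw [← conj_stab, h, Subgroup.smul_bot, Subgroup.mem_bot] at hm
    exact hg hm
  · intro h
    obtain ⟨β, hβ⟩ := Fintype.exists_ne_of_one_lt_card hΩ α
    obtain ⟨x, rfl⟩ := htrans α β
    exact hβ (h ▸ Subgroup.mem_top x : x ∈ MulAction.stabilizer G α)
  · intro g hg
    rw [conj_stab, Subgroup.eq_bot_iff_forall]
    rintro x ⟨hx1, hx2⟩
    by_contra hx
    exact hg (hfix x hx α (g • α) hx1 hx2).symm
  · ext x
    show (x = 1 ∨ ∀ g : G, x ∉ MulAut.conj g • MulAction.stabilizer G α) ↔ _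
    refine or_congr Iff.rfl ⟨fun h ω hω => ?_, fun h g hg => ?_⟩
    · obtain ⟨g, rfl⟩ := htrans α ω
      exact h g (by rw [conj_stab]; exact hω)
    · rw [conj_stab] at hg
      exact h _ hg

end Cfsg.Agent.S4252
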