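import Cfsg.Statements.S4253

set_option autoImplicit false
open Cfsg Pointwise

namespace Cfsg.Agent.S4253

/-- Let H be a Frobenius complement in a finite group G (a nontrivial proper subgroup meeting each conjugate gHg⁻¹ with g outside H trivially). Then in the action of G on the left cosets of H by left multiplication, no non-identity element of G fixes two distinct cosets. -/
theorem result {G : Type*} [Group G] [Finite G] (H : Subgroup G) (hH : Cfsg.IsFrobeniusComplement H)
    (g : G) (hg : g ≠ 1) (a b : G ⧸ H) (ha : g • a = a) (hb : g • b = b) : a = b := by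
  obtain ⟨a', rfl⟩ := QuotientGroup.mk_surjective a
  obtain ⟨b', rfl⟩ := QuotientGroup.mk_surjective b
  rw [MulAction.Quotient.smul_mk, QuotientGroup.eq] at ha hb
  by_contra hne
  rw [QuotientGroup.eq] at hne
  have h1 : a'⁻¹ * g * a' ∈ H := by
    have := H.inv_mem ha
    simpa [mul_assoc] using this
  have h2 : b'⁻¹ * g * b' ∈ H := by
    have := H.inv_mem hb
    simpa [mul_assoc] using this
  have h3 : a'⁻¹ * g * a' ∈ H ⊓ MulAut.conj (a'⁻¹ * b') • H := by
    refine ⟨h1, ?_⟩
    show _ ∈ MulAut.conj (a'⁻¹ * b') • H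
    rw [Subgroup.mem_pointwise_smul_iff_inv_smul_mem]
    have : (a'⁻¹ * b')⁻¹ * (a'⁻¹ * g * a') * (a'⁻¹ * b') = b'⁻¹ * g * b' := by group
    simp only [MulAut.smul_def, ← map_inv, MulAut.conj_apply, inv_inv]
    rw [this]
    exact h2
  rw [hH.2.2 _ hne, Subgroup.mem_bot] at h3
  apply hg
  calc g = a' * (a'⁻¹ * g * a') * a'⁻¹ := by group
    _ = 1 := by rw [h3]; group

end Cfsg.Agent.S4253
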