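import Cfsg.Statements.S4260

set_option autoImplicit false
open Cfsg

namespace Cfsg.Agent.S4260

/-- Let H be a Hall subgroup of a finite group G (the order of H is coprime to its index) such that x^[G : H] lies in H for every x in G. Then H is normal in G. -/
theorem result {G : Type*} [Group G] [Finite G] (H : Subgroup G) (hHall : (Nat.card H).Coprime H.index)
    (hexp : ∀ x : G, x ^ H.index ∈ H) : H.Normal := by
  constructor
  intro h hh g
  set y := g * h * g⁻¹
  have ho : orderOf y = orderOf h := by
    simpa [y] using (orderOf_injective (MulAut.conj g).toMonoidHom (MulAut.conj g).injective h)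
  have hd : orderOf y ∣ Nat.card H := ho ▸ Subgroup.orderOf_dvd_natCard H hh
  obtain ⟨m, hm⟩ := exists_pow_eq_self_of_coprime ((Nat.Coprime.coprime_dvd_left hd hHall).symm)
  rw [← hm]
  exact H.pow_mem (hexp y) m

end Cfsg.Agent.S4260
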