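import Cfsg.Statements.S4261

import Cfsg.Agent.Lib.Struct4.Basic
import Cfsg.Agent.Lib.Hall.Solvable
set_option autoImplicit false
open Cfsg

namespace Cfsg.Agent.S4261

universe u

theorem index_primePow (n : ℕ) : ∀ (G : Type u) [Group G] [Finite G] [Group.IsSolvable G], Nat.card G = n →
    ∀ M : Subgroup G, IsCoatom M → ∃ p a : ℕ, p.Prime ∧ M.index = p ^ a := by
  induction n using Nat.strong_induction_on with
  | _ n ih =>
    intro G _ _ _ hn M hM
    rcases subsingleton_or_nontrivial G with hs | hnt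
    · exact absurd (Subsingleton.elim M ⊤) hM.1
    obtain ⟨p, hp, N, hN, hNb, hNp⟩ : ∃ p : ℕ, p.Prime ∧ ∃ N : Subgroup G, N.Normal ∧ N ≠ ⊥ ∧ IsPGroup p N := by
      obtain ⟨N, hN, hNb, -, hmin⟩ := Lib.Hall.exists_minimal_normal_le (G := G) (N := ⊤) top_ne_bot
      haveI := hN
      obtain ⟨-, p, hp, hpow⟩ := Lib.Hall.minimal_normal_solvable N hNb (fun K hK hKN => hmin K hK hKN)
      exact ⟨p, hp, N, hN, hNb, Lib.Hall.isPGroup_of_pow_eq_one hpow⟩
    haveI := hN
    by_cases hle : N ≤ M
    · have hker : (QuotientGroup.mk' N).ker ≤ M := by rwa [QuotientGroup.ker_mk']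
      have hidx := Subgroup.index_map_eq M (QuotientGroup.mk'_surjective N) hker
      have hlt : Nat.card (G ⧸ N) < n := by
        rw [← hn, ← N.card_mul_index]
        exact lt_mul_of_one_lt_left (Nat.pos_of_ne_zero Subgroup.index_ne_zero_of_finite)
          ((Subgroup.one_lt_card_iff_ne_bot N).2 hNb)
      rw [← hidx]
      refine ih _ hlt (G ⧸ N) rfl _ ⟨fun h => hM.1 ?_, fun K hK => ?_⟩
      · rwa [← Subgroup.index_eq_one, hidx, Subgroup.index_eq_one] at h
      · have h1 : M < K.comap (QuotientGroup.mk' N) := by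
          refine lt_of_le_of_ne (Subgroup.map_le_iff_le_comap.1 hK.le) fun h => hK.ne ?_
          rw [h, Subgroup.map_comap_eq_self_of_surjective (QuotientGroup.mk'_surjective N)]
        rw [← Subgroup.map_comap_eq_self_of_surjective (QuotientGroup.mk'_surjective N) K, hM.2 _ h1,
          Subgroup.map_top_of_surjective _ (QuotientGroup.mk'_surjective N)]
    · haveI := Fact.mk hp
      have htop : M ⊔ N = ⊤ := hM.2 _ (lt_of_le_of_ne le_sup_left fun h => hle (h ▸ le_sup_right))
      have h1 := Lib.Struct4.relIndex_sup_left_eq M N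
      rw [htop, Subgroup.relIndex_top_right] at h1
      obtain ⟨a, ha⟩ := IsPGroup.iff_card.1 hNp
      obtain ⟨b, -, hb⟩ := (Nat.dvd_prime_pow hp).1 (ha ▸ (h1 ▸ Subgroup.relIndex_dvd_card M N : M.index ∣ Nat.card N))
      exact ⟨p, b, hp, hb⟩

/-- Let M be a maximal subgroup of a finite solvable group G such that x^[G : M] lies in M for every x in G. Then M is normal in G. -/
theorem result {G : Type*} [Group G] [Finite G] (hG : Group.IsSolvable G) (M : Subgroup G) (hM : IsCoatom M)
    (hexp : ∀ x : G, x ^ M.index ∈ M) : M.Normal := by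
  haveI := hG
  obtain ⟨p, a, hp, hidx⟩ := index_primePow _ G rfl M hM
  haveI := Fact.mk hp
  rw [hidx] at hexp
  set K := Subgroup.closure {x : G | (orderOf x).Coprime p}
  have hK : K ≤ M := by
    rw [Subgroup.closure_le]
    intro x hx
    obtain ⟨m, hm⟩ := exists_pow_eq_self_of_coprime (n := p ^ a) (x := x) ((Nat.Coprime.pow_right a hx).symm)
    exact hm ▸ M.pow_mem (hexp x) m
  haveI hKn : K.Normal := by
    have e : K = Subgroup.normalClosure {x : G | (orderOf x).Coprime p} := by
      refine le_antisymm (Subgroup.closure_le _ |>.2 Subgroup.subset_normalClosure) ?_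
      rw [Subgroup.normalClosure, Subgroup.closure_le]
      intro y hy
      obtain ⟨b, hb, hby⟩ := Group.mem_conjugatesOfSet_iff.1 hy
      obtain ⟨c, rfl⟩ := isConj_iff.1 hby
      refine Subgroup.subset_closure ?_
      show (orderOf (c * b * c⁻¹)).Coprime p
      rw [show orderOf (c * b * c⁻¹) = orderOf b from
        orderOf_injective (MulAut.conj c).toMonoidHom (MulAut.conj c).injective b]
      exact hb
    rw [e]; exact Subgroup.normalClosure_normal
  have hpq : IsPGroup p (G ⧸ K) := by
    refine IsPGroup.of_card (n := (Nat.card (G ⧸ K)).primeFactorsList.length) ?_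
    refine Nat.eq_prime_pow_of_unique_prime_dvd Nat.card_pos.ne' ?_
    intro r hr hrd
    by_contra hrp
    haveI := Fact.mk hr
    obtain ⟨q, hq⟩ := exists_prime_orderOf_dvd_card' r hrd
    obtain ⟨x, rfl⟩ := QuotientGroup.mk'_surjective K q
    obtain ⟨k, m, hm, hkm⟩ := Nat.exists_eq_pow_mul_and_not_dvd (orderOf_pos x).ne' p hp.one_lt.ne'
    have h1 : x ^ (p ^ k) ∈ K := by
      apply Subgroup.subset_closure
      show (orderOf (x ^ (p ^ k))).Coprime p
      rw [orderOf_pow, hkm, Nat.gcd_mul_right_left, Nat.mul_div_cancel_left _ (pow_pos hp.pos k)]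
      exact (hp.coprime_iff_not_dvd.2 hm).symm
    have h2 : r ∣ p ^ k := by
      rw [← hq]
      refine orderOf_dvd_of_pow_eq_one ?_
      rw [← map_pow]
      exact (QuotientGroup.eq_one_iff _).2 h1
    exact hrp ((Nat.prime_dvd_prime_iff_eq hr hp).1 (hr.dvd_of_dvd_pow h2))
  have := hpq.isNilpotent
  have hker : (QuotientGroup.mk' K).ker ≤ M := by rwa [QuotientGroup.ker_mk']
  have hco : IsCoatom (M.map (QuotientGroup.mk' K)) := by
    refine ⟨fun h => hM.1 ?_, fun L hL => ?_⟩
    · rw [← Subgroup.comap_map_eq_self hker, h, Subgroup.comap_top]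
    · have h1 : M < L.comap (QuotientGroup.mk' K) := by
        refine lt_of_le_of_ne (Subgroup.map_le_iff_le_comap.1 hL.le) fun h => hL.ne ?_
        rw [h, Subgroup.map_comap_eq_self_of_surjective (QuotientGroup.mk'_surjective K)]
      rw [← Subgroup.map_comap_eq_self_of_surjective (QuotientGroup.mk'_surjective K) L, hM.2 _ h1,
        Subgroup.map_top_of_surjective _ (QuotientGroup.mk'_surjective K)]
  have hn := Subgroup.NormalizerCondition.normal_of_coatom (M.map (QuotientGroup.mk' K)) Group.normalizerCondition_of_isNilpotent hco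
  rw [← Subgroup.comap_map_eq_self hker]
  exact hn.comap _

end Cfsg.Agent.S4261
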