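import Cfsg.Statements.S4262

import Cfsg.Agent.Lib.Struct4.MaximalSylow
import Cfsg.Agent.Lib.Struct4.FrobeniusCons
import Cfsg.Agent.Lib.FPF.FrobeniusKernel
import Cfsg.Agent.Lib.Struct4.Basic
set_option autoImplicit false
open Cfsg

namespace Cfsg.Agent.S4262


open Subgroup

variable {G : Type*} [Group G] [Finite G]

local notation "CC" g => Subgroup.centralizer ({g} : Set G)

omit [Finite G] in
theorem mem_cc {g x : G} : x ∈ (CC g) ↔ x * g = g * x := Subgroup.mem_centralizer_singleton_iff

theorem exists_primary {g : G} (hg : g ∉ center G) :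
    ∃ (p : ℕ) (_ : Fact p.Prime) (r : ℕ), (∃ a, orderOf (g ^ r) = p ^ a) ∧ g ^ r ∉ center G := by
  have hm : orderOf (QuotientGroup.mk' (center G) g) ≠ 1 := fun h =>
    hg ((QuotientGroup.eq_one_iff g).1 (orderOf_eq_one_iff.1 h))
  obtain ⟨p, hp, hpm⟩ := Nat.exists_prime_and_dvd hm
  have := Fact.mk hp
  set n := orderOf g with hn
  have hn0 : n ≠ 0 := (orderOf_pos g).ne'
  refine ⟨p, this, n / p ^ n.factorization p, ⟨n.factorization p, ?_⟩, fun h => ?_⟩
  · rw [orderOf_pow' g (Nat.div_pos (Nat.le_of_dvd (Nat.pos_of_ne_zero hn0) (Nat.ordProj_dvd n p))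
      (pow_pos hp.pos _)).ne', ← hn, Nat.gcd_eq_right (Nat.div_dvd_of_dvd (Nat.ordProj_dvd n p)),
      Nat.div_div_self (Nat.ordProj_dvd n p) hn0]
  · have h1 : QuotientGroup.mk' (center G) g ^ (n / p ^ n.factorization p) = 1 := by
      rw [← map_pow]; exact (QuotientGroup.eq_one_iff _).2 h
    exact Nat.not_dvd_ordCompl hp hn0 (hpm.trans (orderOf_dvd_of_pow_eq_one h1))

theorem ccle (h : ∀ g : G, g ∉ center G → IsCoatom (CC g)) {g y : G} (hg : g ∉ center G)
    (hy : y ∈ (CC g)) (hco : (orderOf g).Coprime (orderOf y)) : (CC g) ≤ (CC y) := by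
  have hc : Commute g y := (mem_cc.1 hy).symm
  obtain ⟨k, hk⟩ : ∃ k : ℕ, g = (g * y) ^ k := by
    have h1 : 1 < orderOf g := by
      rcases Nat.eq_or_lt_of_le (orderOf_pos g) with e | e
      · exact absurd (orderOf_eq_one_iff.1 e.symm) fun e => hg (e ▸ one_mem _)
      · exact e
    obtain ⟨u, -, hu⟩ := Nat.exists_mul_mod_eq_one_of_coprime hco.symm h1
    exact ⟨orderOf y * u, by
      rw [hc.mul_pow, pow_mul y, pow_orderOf_eq_one, one_pow, mul_one, ← pow_mod_orderOf, hu, pow_one]⟩
  have hgy : g * y ∉ center G := fun hm => hg (hk ▸ pow_mem hm k)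
  have hle : (CC (g * y)) ≤ (CC g) := fun x hx => by
    rw [mem_cc, hk]
    exact (Commute.pow_right (mem_cc.1 hx) k).eq
  have heq : (CC (g * y)) = (CC g) :=
    ((h _ hgy).le_iff.1 hle).resolve_left (h _ hg).1 |>.symm
  intro x hx
  have h1 : Commute x (g * y) := mem_cc.1 (heq ▸ hx)
  have h2 : Commute x g := mem_cc.1 hx
  rw [mem_cc]
  have := (h2.inv_right).mul_right h1
  simpa using this.eq

theorem cc_eq (h : ∀ g : G, g ∉ center G → IsCoatom (CC g)) {M : Subgroup G}
    (hM : IsCoatom M) {y : G} (hy : y ∉ center G) (hle : M ≤ (CC y)) : (CC y) = M :=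
  (hM.le_iff.1 hle).resolve_left (h y hy).1

theorem nilpotent_maximal_normal {M : Subgroup G} [M.Normal] (hM : IsCoatom M)
    (hMs : Group.IsSolvable M) : Group.IsSolvable G := by
  obtain ⟨x, hx⟩ : ∃ x, x ∉ M := by
    by_contra hc
    push Not at hc
    exact hM.1 (eq_top_iff.2 fun x _ => hc x)
  have hsup : M ⊔ Subgroup.zpowers x = ⊤ :=
    hM.2 _ (lt_of_le_of_ne le_sup_left fun e =>
      hx (e.symm ▸ Subgroup.mem_sup_right (Subgroup.mem_zpowers x)))
  have hs : Function.Surjective ((QuotientGroup.mk' M).comp (Subgroup.zpowers x).subtype) := by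
    intro y
    obtain ⟨z, rfl⟩ := QuotientGroup.mk'_surjective M y
    obtain ⟨a, ha, b, hb, rfl⟩ := Subgroup.mem_sup_of_normal_left.1 (hsup ▸ Subgroup.mem_top z)
    refine ⟨⟨b, hb⟩, ?_⟩
    rw [MonoidHom.comp_apply, map_mul, show QuotientGroup.mk' M a = 1 from (QuotientGroup.eq_one_iff a).2 ha,
      one_mul]
    rfl
  have h2 : Group.IsSolvable (Subgroup.zpowers x) := Group.isSolvable_of_comm fun a b => mul_comm' a b
  have h3 : Group.IsSolvable (G ⧸ M) := Group.isSolvable_of_surjective hs
  exact Group.isSolvable_of_ker_le_range M.subtype (QuotientGroup.mk' M) (by simp)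

/-- Let G be a finite group in which the centralizer of every non-central element is a maximal subgroup of G. Then G is solvable. -/
theorem result {G : Type*} [Group G] [Finite G]
    (h : ∀ g : G, g ∉ Subgroup.center G → IsCoatom (Subgroup.centralizer ({g} : Set G))) :
    Group.IsSolvable G := by
  classical
  have hZs : Group.IsSolvable (center G) := Group.isSolvable_of_comm fun a b => mul_comm' a b
  have lift : Group.IsSolvable (G ⧸ center G) → Group.IsSolvable G := fun hq =>
    Group.isSolvable_of_ker_le_range (center G).subtype (QuotientGroup.mk' (center G)) (by simp)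
  by_contra hns
  -- solvable centralizers are not normal
  have hnn : ∀ g : G, g ∉ center G → Group.IsSolvable (Subgroup.centralizer ({g} : Set G)) →
      ¬ (Subgroup.centralizer ({g} : Set G)).Normal := fun g hg hs hn =>
    hns (nilpotent_maximal_normal (h g hg) hs)
  have hZle : ∀ g : G, center G ≤ Subgroup.centralizer ({g} : Set G) := fun g x hx =>
    mem_cc.2 ((mem_center_iff.1 hx g).symm)
  set π := QuotientGroup.mk' (center G) with hπ
  have hπs : Function.Surjective π := QuotientGroup.mk'_surjective _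
  have hπk : π.ker = center G := QuotientGroup.ker_mk' _
  -- no abelian centralizer
  have hA : ∀ g : G, g ∉ center G → ∀ (hab : ∀ a ∈ Subgroup.centralizer ({g} : Set G),
      ∀ b ∈ Subgroup.centralizer ({g} : Set G), a * b = b * a), False := by
    intro g hg hab
    set M := Subgroup.centralizer ({g} : Set G) with hM
    have hMs : Group.IsSolvable M := Group.isSolvable_of_comm fun a b => Subtype.ext (hab a a.2 b b.2)
    have hMn := hnn g hg hMs
    have hNM : normalizer (M : Set G) = M := by
      rcases (h g hg).le_iff.1 (le_normalizer (H := M)) with e | e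
      · exact absurd (normalizer_eq_top_iff.1 e) hMn
      · exact e
    have hmem : ∀ x, π x ∈ M.map π ↔ x ∈ M := fun x => by
      rw [← mem_comap, comap_map_eq_self (hπk.le.trans (hZle g))]
    have hFC : Cfsg.IsFrobeniusComplement (M.map π) := by
      refine ⟨fun e => ?_, fun e => (h g hg).1 (eq_top_iff.2 fun x _ => (hmem x).1 (e ▸ mem_top _)),
        fun q hq => ?_⟩
      · have hgm : π g ∈ M.map π := (hmem g).2 (mem_cc.2 rfl)
        rw [e, mem_bot] at hgm
        exact hg ((QuotientGroup.eq_one_iff g).1 hgm)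
      · obtain ⟨c, rfl⟩ := hπs q
        rw [eq_bot_iff]
        rintro y ⟨hy1, hy2⟩
        obtain ⟨x, rfl⟩ := hπs y
        replace hy1 : x ∈ M := (hmem x).1 hy1
        have hy2' : c⁻¹ * x * c ∈ M := by
          have h1 := Lib.Coprime.mem_conj_smul.1 hy2
          rwa [← map_inv, ← map_mul, ← map_mul, hmem] at h1
        rw [mem_bot]
        by_contra hx1
        have hxZ : x ∉ center G := fun hz => hx1 ((QuotientGroup.eq_one_iff x).2 hz)
        have hCx : Subgroup.centralizer ({x} : Set G) = M :=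
          cc_eq h (h g hg) hxZ fun z hz => mem_cc.2 (hab z hz x hy1)
        refine hq ((hmem c).2 ?_)
        rw [← hNM]
        refine Subgroup.mem_normalizer_iff.2 fun z => ?_
        have hcx : c⁻¹ * x * c ∉ center G := fun hz => hxZ (by
          have := Subgroup.Normal.conj_mem (inferInstance : (center G).Normal) _ hz c
          simpa [mul_assoc] using this)
        have hC2 : Subgroup.centralizer ({c⁻¹ * x * c} : Set G) = M :=
          cc_eq h (h g hg) hcx fun z hz => mem_cc.2 (hab z hz _ hy2')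
        rw [← hC2, mem_cc]
        conv_rhs => rw [hC2, ← hCx, mem_cc]
        constructor
        · intro e
          calc c * z * c⁻¹ * x = c * (z * (c⁻¹ * x * c)) * c⁻¹ := by group
            _ = c * (c⁻¹ * x * c * z) * c⁻¹ := by rw [e]
            _ = _ := by group
        · intro e
          calc z * (c⁻¹ * x * c) = c⁻¹ * (c * z * c⁻¹ * x) * c := by group
            _ = c⁻¹ * (x * (c * z * c⁻¹)) * c := by rw [e]
            _ = _ := by group
    obtain ⟨N, -, hN, hNc, hNnil⟩ := Lib.FPF.exists_frobenius_kernel_nilpotent hFC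
    have hs : Function.Surjective ((QuotientGroup.mk' N).comp (M.map π).subtype) := by
      intro y
      obtain ⟨z, rfl⟩ := QuotientGroup.mk'_surjective N y
      obtain ⟨⟨⟨a, ha⟩, b⟩, rfl⟩ := hNc.2 z
      refine ⟨b, ?_⟩
      rw [MonoidHom.comp_apply, map_mul, show QuotientGroup.mk' N a = 1 from (QuotientGroup.eq_one_iff a).2 ha,
        one_mul]
      rfl
    have : Group.IsSolvable (M.map π) := Group.isSolvable_of_surjective (π.subgroupMap_surjective M)
    have : Group.IsSolvable N := inferInstance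
    have : Group.IsSolvable ((G ⧸ center G) ⧸ N) := Group.isSolvable_of_surjective hs
    exact hns (lift (Group.isSolvable_of_ker_le_range N.subtype (QuotientGroup.mk' N) (by simp)))
  -- every centralizer is a `p`-group modulo the centre
  have hB : ∀ (p : ℕ) [Fact p.Prime] (g : G), g ∉ center G → (∃ a, orderOf g = p ^ a) →
      IsPGroup p ((Subgroup.centralizer ({g} : Set G)).map π) := by
    intro p _ g hg hga
    obtain ⟨a, ha⟩ := hga
    have hp : p.Prime := Fact.out
    set M := Subgroup.centralizer ({g} : Set G) with hM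
    have hcen : ∀ y ∈ M, ¬ p ∣ orderOf y → y ∈ center G := by
      intro y hy hpy
      by_contra hyZ
      obtain ⟨r, _, k, ⟨b, hb⟩, hykZ⟩ := exists_primary hyZ
      have hy' : y ^ k ∈ M := M.pow_mem hy k
      have hrp : r ≠ p := by
        rintro rfl
        have h1 : orderOf (y ^ k) ∣ orderOf y := orderOf_pow_dvd k
        rcases Nat.eq_zero_or_pos b with rfl | hb0
        · rw [pow_zero, orderOf_eq_one_iff] at hb
          exact hykZ (hb ▸ one_mem _)
        · exact hpy (((dvd_pow_self r hb0.ne').trans hb.symm.dvd).trans h1)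
      have hle1 : M ≤ Subgroup.centralizer ({y ^ k} : Set G) := ccle h hg hy' (by
        rw [ha, hb]
        exact ((Nat.coprime_primes hp Fact.out).2 (Ne.symm hrp)).pow _ _)
      have hMy := cc_eq h (h g hg) hykZ hle1
      refine hA g hg fun u hu v hv => ?_
      -- `u` is central in `M`
      have hp1 : ∀ w ∈ M, ¬ p ∣ orderOf w → M ≤ Subgroup.centralizer ({w} : Set G) := fun w hw hpw =>
        ccle h hg hw (by rw [ha]; exact (hp.coprime_iff_not_dvd.2 hpw).pow_left a)
      have hr1 : ∀ w ∈ M, ¬ r ∣ orderOf w → M ≤ Subgroup.centralizer ({w} : Set G) := fun w hw hrw => by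
        refine hMy.ge.trans (ccle h hykZ (by rw [hMy]; exact hw) ?_)
        rw [hb]
        exact ((Fact.out : r.Prime).coprime_iff_not_dvd.2 hrw).pow_left b
      set n := orderOf u with hn
      have hn0 : n ≠ 0 := (orderOf_pos u).ne'
      have hq : ∀ (q : ℕ), q.Prime → ¬ q ∣ orderOf (u ^ (q ^ n.factorization q)) := fun q hq => by
        rw [orderOf_pow' u (pow_ne_zero _ hq.ne_zero), ← hn, Nat.gcd_eq_right (Nat.ordProj_dvd n q)]
        exact Nat.not_dvd_ordCompl hq hn0
      have c1 : Commute v (u ^ (p ^ n.factorization p)) := mem_cc.1 (hp1 _ (M.pow_mem hu _) (hq p hp) hv)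
      have c2 : Commute v (u ^ (r ^ n.factorization r)) :=
        mem_cc.1 (hr1 _ (M.pow_mem hu _) (hq r Fact.out) hv)
      have hcop : Nat.Coprime (p ^ n.factorization p) (r ^ n.factorization r) :=
        ((Nat.coprime_primes hp Fact.out).2 (Ne.symm hrp)).pow _ _
      have c3 := (c1.zpow_right (Nat.gcdA (p ^ n.factorization p) (r ^ n.factorization r))).mul_right
        (c2.zpow_right (Nat.gcdB (p ^ n.factorization p) (r ^ n.factorization r)))
      rw [← zpow_natCast u, ← zpow_natCast u, ← zpow_mul, ← zpow_mul, ← zpow_add,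
        ← Nat.gcd_eq_gcd_ab, hcop, Nat.cast_one, zpow_one] at c3
      exact c3.eq.symm
    rintro ⟨_, u, hu, rfl⟩
    refine ⟨(orderOf u).factorization p, Subtype.ext ?_⟩
    rw [Subgroup.coe_pow, Subgroup.coe_one, ← map_pow]
    refine (QuotientGroup.eq_one_iff _).2 (hcen _ (M.pow_mem hu _) ?_)
    rw [orderOf_pow' u (pow_ne_zero _ hp.ne_zero), Nat.gcd_eq_right (Nat.ordProj_dvd (orderOf u) p)]
    exact Nat.not_dvd_ordCompl hp (orderOf_pos u).ne'
  refine hns (lift (Struct4.solvable_of_maximal_sylows fun p _ hpd P => ?_))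
  have hp : p.Prime := Fact.out
  obtain ⟨q, hq⟩ := exists_prime_orderOf_dvd_card' p hpd
  obtain ⟨g, rfl⟩ := hπs q
  have hg : g ∉ center G := fun hz => by
    rw [show π g = 1 from (QuotientGroup.eq_one_iff g).2 hz, orderOf_one] at hq
    exact hp.one_lt.ne hq
  obtain ⟨r, _, k, hrk, hgk⟩ := exists_primary hg
  set M := Subgroup.centralizer ({g ^ k} : Set G) with hM
  have hMp := hB r (g ^ k) hgk hrk
  have hgM : g ∈ M := mem_cc.2 (Commute.self_pow g k).eq
  have hrp : r = p := by
    obtain ⟨a, ha⟩ := IsPGroup.iff_orderOf.1 hMp ⟨π g, Subgroup.mem_map_of_mem π hgM⟩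
    rw [Subgroup.orderOf_mk, hq] at ha
    have hd : p ∣ r ^ a := ha ▸ dvd_rfl
    exact ((Nat.prime_dvd_prime_iff_eq hp Fact.out).1 (hp.dvd_of_dvd_pow hd)).symm
  subst hrp
  have hco := h (g ^ k) hgk
  have hmem : ∀ x, π x ∈ M.map π ↔ x ∈ M := fun x => by
    rw [← mem_comap, comap_map_eq_self (hπk.le.trans (hZle _))]
  have hMs : Group.IsSolvable M := by
    have h1 : Group.IsSolvable (M.map π) := Struct4.isSolvable_of_isPGroup hMp
    refine Group.isSolvable_of_ker_le_range
      (Subgroup.inclusion (hZle (g ^ k)) : center G →* M) (π.subgroupMap M) fun x hx => ?_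
    have : (x : G) ∈ center G := (QuotientGroup.eq_one_iff _).1 (congrArg Subtype.val hx)
    exact ⟨⟨x, this⟩, rfl⟩
  have hMn := hnn _ hgk hMs
  have hMmax : IsCoatom (M.map π) := by
    refine ⟨fun e => hco.1 (eq_top_iff.2 fun x _ => (hmem x).1 (e ▸ mem_top _)), fun K hK => ?_⟩
    have : M < K.comap π := by
      refine lt_of_le_of_ne (fun x hx => hK.le ((hmem x).2 hx)) fun e => hK.ne ?_
      rw [e, map_comap_eq_self_of_surjective hπs]
    rw [← map_comap_eq_self_of_surjective hπs K, hco.2 _ this, map_top_of_surjective _ hπs]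
  have hMbn : ¬ (M.map π).Normal := fun hn => hMn (by
    rw [← comap_map_eq_self (hπk.le.trans (hZle (g ^ k)))]
    exact hn.comap π)
  obtain ⟨P₀, hP₀⟩ := hMp.exists_le_sylow
  have hP₀n : (P₀ : Subgroup (G ⧸ center G)) ≠ ⊤ := fun e => hns (lift (by
    have h1 : Group.IsSolvable (P₀ : Subgroup (G ⧸ center G)) := Struct4.isSolvable_of_isPGroup P₀.isPGroup'
    rw [e] at h1
    exact Group.isSolvable_of_surjective (f := (⊤ : Subgroup (G ⧸ center G)).subtype) fun x => ⟨⟨x, trivial⟩, rfl⟩))
  have heq : (P₀ : Subgroup (G ⧸ center G)) = M.map π := (hMmax.le_iff.1 hP₀).resolve_left hP₀n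
  obtain ⟨c, hc⟩ := MulAction.exists_smul_eq (G ⧸ center G) P₀ P
  subst hc
  rw [Sylow.coe_subgroup_smul, heq]
  constructor
  · let e : Subgroup (G ⧸ center G) ≃o Subgroup (G ⧸ center G) := (MulAut.conj c).mapSubgroup
    exact (OrderIso.isCoatom_iff e _).2 hMmax
  · intro hn
    have h1 := hn.map (MulAut.conj c⁻¹).toMonoidHom (MulAut.conj c⁻¹).surjective
    refine hMbn ?_
    convert h1 using 1
    ext x
    rw [Subgroup.mem_map]
    constructor
    · intro hx
      exact ⟨c * x * c⁻¹, Lib.Coprime.mem_conj_smul.2 (by simpa [mul_assoc] using hx), by simp [mul_assoc]⟩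
    · rintro ⟨y, hy, rfl⟩
      simpa [mul_assoc] using Lib.Coprime.mem_conj_smul.1 hy

end Cfsg.Agent.S4262
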