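import Cfsg.Statements.S4263


set_option autoImplicit false
open Cfsg

namespace Cfsg.Agent.S4263

variable {G : Type*} [Group G] [Finite G]

theorem pow_index_of_normalizerCondition {K : Type*} [Group K] [Finite K]
    (hK : NormalizerCondition K) : ∀ (D : Subgroup K) (y : K), y ^ D.index ∈ D := by
  suffices ∀ (k : ℕ) (D : Subgroup K), D.index = k → ∀ y : K, y ^ k ∈ D from
    fun D y => this _ D rfl y
  intro k
  induction k using Nat.strong_induction_on with
  | _ k ih =>
    intro D hk y
    by_cases hD : D = ⊤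
    · simp [hD]
    · have hlt := hK D (lt_top_iff_ne_top.2 hD)
      set N := Subgroup.normalizer (D : Set K) with hN
      have hidx : D.relIndex N * N.index = D.index := Subgroup.relIndex_mul_index hlt.le
      have h1 : N.index < k := by
        rw [← hk]
        exact Subgroup.index_strictAnti hlt
      have h2 := ih _ h1 N rfl y
      have h3 : y ^ N.index ∈ N := h2
      have : (y ^ N.index) ^ D.relIndex N ∈ D := by
        have hn : (D.subgroupOf N).Normal := Subgroup.normal_in_normalizer
        have := Subgroup.pow_index_mem (D.subgroupOf N) (⟨y ^ N.index, h3⟩ : N)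
        exact this
      rw [← pow_mul, mul_comm, hidx, hk] at this
      exact this

theorem pCore_le_sylow (p : ℕ) [Fact p.Prime] (P : Sylow p G) :
    Cfsg.pCore p G ≤ (P : Subgroup G) := by
  refine sSup_le ?_
  rintro N ⟨hN, hp⟩
  obtain ⟨Q, hQ⟩ := hp.exists_le_sylow
  obtain ⟨g, rfl⟩ := MulAction.exists_smul_eq G Q P
  intro n hn
  rw [Sylow.coe_subgroup_smul, Subgroup.mem_pointwise_smul_iff_inv_smul_mem]
  apply hQ
  have := hN.conj_mem n hn g⁻¹
  simpa using this

theorem isPGroup_pCore (p : ℕ) [Fact p.Prime] : IsPGroup p (Cfsg.pCore p G) :=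
  (default : Sylow p G).isPGroup'.to_le (pCore_le_sylow p default)

omit [Finite G] in
theorem pCore_normal' (p : ℕ) : (Cfsg.pCore p G).Normal :=
  Subgroup.sSup_normal _ (fun _ h => h.1)

/-- elements of `G` with the property -/
def HasIndexPowers (x : G) : Prop := ∀ H : Subgroup G, x ^ H.index ∈ H

theorem hasIndexPowers_pCore (p : ℕ) [Fact p.Prime] (x : G) (hx : x ∈ Cfsg.pCore p G) :
    HasIndexPowers x := by
  intro H
  set N := Cfsg.pCore p G
  haveI : N.Normal := pCore_normal' p
  have hK : NormalizerCondition N := by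
    haveI := (isPGroup_pCore (G := G) p).isNilpotent
    exact Group.normalizerCondition_of_isNilpotent
  have h1 := pow_index_of_normalizerCondition hK (H.subgroupOf N) ⟨x, hx⟩
  have h2 : x ^ H.relIndex N ∈ H := h1
  have h3 : H.relIndex N ∣ H.index := by
    have e1 : H.relIndex (H ⊔ N) * N.relIndex H = N.relIndex H * H.relIndex N := by
      have a1 := Subgroup.relIndex_mul_relIndex (H ⊓ N) H (H ⊔ N) inf_le_left le_sup_left
      have a2 := Subgroup.relIndex_mul_relIndex (H ⊓ N) N (H ⊔ N) inf_le_right le_sup_right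
      rw [Subgroup.relIndex_sup_right] at a2
      rw [Subgroup.inf_relIndex_left] at a1
      rw [Subgroup.inf_relIndex_right] at a2
      rw [mul_comm] at a1
      rw [a1, ← a2, mul_comm]
    have hne : N.relIndex H ≠ 0 := Subgroup.index_ne_zero_of_finite
    have e2 : H.relIndex (H ⊔ N) = H.relIndex N := by
      apply mul_right_cancel₀ hne
      rw [e1, mul_comm]
    rw [← e2]
    exact Subgroup.relIndex_dvd_index_of_le le_sup_left
  obtain ⟨c, hc⟩ := h3
  rw [hc, pow_mul]
  exact H.pow_mem h2 _

theorem sup_pCore (s : Finset ℕ) (hs : ∀ p ∈ s, p.Prime) (x : G)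
    (hx : x ∈ s.sup fun p => Cfsg.pCore p G) : HasIndexPowers x := by
  induction s using Finset.induction_on generalizing x with
  | empty =>
    simp at hx
    subst hx
    intro H; simp
  | @insert p s hps ih =>
    rw [Finset.sup_insert] at hx
    haveI := pCore_normal' (G := G) p
    obtain ⟨y, hy, z, hz, rfl⟩ := Subgroup.mem_sup_of_normal_left.1 hx
    haveI : Fact p.Prime := ⟨hs p (Finset.mem_insert_self _ _)⟩
    have hcomm : (s.sup fun q => Cfsg.pCore q G) ≤ Subgroup.centralizer (Cfsg.pCore p G : Set G) := by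
      refine Finset.sup_le fun q hq => ?_
      haveI : Fact q.Prime := ⟨hs q (Finset.mem_insert_of_mem hq)⟩
      have hne : p ≠ q := fun h => hps (h ▸ hq)
      have hd : Disjoint (Cfsg.pCore p G) (Cfsg.pCore q G) :=
        IsPGroup.disjoint_of_ne p q hne _ _ (isPGroup_pCore p) (isPGroup_pCore q)
      intro b hb
      rw [Subgroup.mem_centralizer_iff]
      intro a ha
      exact Subgroup.commute_of_normal_of_disjoint _ _ (pCore_normal' p) (pCore_normal' q) hd a b ha hb
    have hc : Commute y z := Subgroup.mem_centralizer_iff.1 (hcomm hz) y hy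
    intro H
    rw [hc.mul_pow]
    exact H.mul_mem (hasIndexPowers_pCore p y hy H)
      (ih (fun q hq => hs q (Finset.mem_insert_of_mem hq)) z hz H)

theorem mem_pCore_of_hasIndexPowers (p : ℕ) [Fact p.Prime] (x : G) (hx : HasIndexPowers x)
    (hp : ∃ k, orderOf x = p ^ k) : x ∈ Cfsg.pCore p G := by
  obtain ⟨k, hk⟩ := hp
  have hall : ∀ (P : Sylow p G), x ∈ (P : Subgroup G) := by
    intro P
    have hcop : Nat.Coprime (P : Subgroup G).index (orderOf x) := by
      rw [hk]
      exact Nat.Coprime.pow_right _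
        (((Nat.Prime.coprime_iff_not_dvd Fact.out).2 P.not_dvd_index).symm)
    obtain ⟨m, hm⟩ := exists_pow_eq_self_of_coprime hcop
    exact hm ▸ (P : Subgroup G).pow_mem (hx _) m
  have hle : Subgroup.normalClosure {x} ≤ ((default : Sylow p G) : Subgroup G) := by
    rw [Subgroup.normalClosure, Subgroup.closure_le]
    intro y hy
    obtain ⟨a, ha, hay⟩ := Group.mem_conjugatesOfSet_iff.1 hy
    rw [Set.mem_singleton_iff] at ha
    subst ha
    obtain ⟨c, rfl⟩ := isConj_iff.1 hay
    have h := hall (c⁻¹ • (default : Sylow p G))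
    rw [Sylow.coe_subgroup_smul, Subgroup.mem_pointwise_smul_iff_inv_smul_mem] at h
    simp at h; exact h
  have h0 : Subgroup.normalClosure {x} ≤ Cfsg.pCore p G :=
    le_sSup ⟨Subgroup.normalClosure_normal, (default : Sylow p G).isPGroup'.to_le hle⟩
  exact h0 (Subgroup.subset_normalClosure (Set.mem_singleton x))

/-- A subgroup containing the prime-power parts of an element contains it. -/
theorem mem_of_forall_primePow (K : Subgroup G) (x : G)
    (h : ∀ (p k m : ℕ), p.Prime → orderOf (x ^ m) = p ^ k → x ^ m ∈ K) : x ∈ K := by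
  suffices ∀ n : ℕ, ∀ m : ℕ, orderOf (x ^ m) = n → x ^ m ∈ K by simpa using this _ 1 rfl
  intro n
  induction n using Nat.recOnPrimeCoprime with
  | zero => intro m hm; exact absurd hm (orderOf_pos _).ne'
  | prime_pow p k hp => intro m hm; exact h p k m hp hm
  | coprime a b ha hb hab iha ihb =>
    intro m hm
    have h1 : x ^ (m * a) ∈ K := by
      refine ihb _ ?_
      rw [pow_mul, orderOf_pow, hm, Nat.gcd_mul_right_left, Nat.mul_div_cancel_left _ (by omega)]
    have h2 : x ^ (m * b) ∈ K := by
      refine iha _ ?_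
      rw [pow_mul, orderOf_pow, hm, Nat.gcd_mul_left_left, Nat.mul_div_cancel _ (by omega)]
    have e := Nat.gcd_eq_gcd_ab a b
    rw [hab, Nat.cast_one] at e
    have : x ^ m = (x ^ (m * a)) ^ (Nat.gcdA a b) * (x ^ (m * b)) ^ (Nat.gcdB a b) := by
      rw [pow_mul, pow_mul]
      generalize x ^ m = w
      rw [← zpow_natCast w a, ← zpow_natCast w b, ← zpow_mul, ← zpow_mul, ← zpow_add, ← e, zpow_one]
    rw [this]
    exact K.mul_mem (K.zpow_mem h1 _) (K.zpow_mem h2 _)

theorem result {G : Type*} [Group G] [Finite G] (x : G) :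
    x ∈ Cfsg.fittingSubgroup G ↔ ∀ H : Subgroup G, x ^ H.index ∈ H := by
  classical
  constructor
  · intro hx
    refine sup_pCore (Nat.card G).primeFactors (fun p hp => Nat.prime_of_mem_primeFactors hp) x ?_
    revert x
    show Cfsg.fittingSubgroup G ≤ _
    refine sSup_le ?_
    rintro N ⟨hN, hnil⟩
    intro n hn
    apply mem_of_forall_primePow
    intro p k m hp hk
    haveI := Fact.mk hp
    by_cases hk0 : k = 0
    · subst hk0
      rw [pow_zero, orderOf_eq_one_iff] at hk
      rw [hk]; exact Subgroup.one_mem _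
    have hmem : p ∈ (Nat.card G).primeFactors := by
      rw [Nat.mem_primeFactors]
      refine ⟨hp, (dvd_pow_self p hk0).trans (hk ▸ orderOf_dvd_natCard _), Nat.card_pos.ne'⟩
    refine (Finset.le_sup (f := fun q => Cfsg.pCore q G) hmem) ?_
    obtain ⟨P, hP⟩ : ∃ P : Sylow p N, (⟨n ^ m, N.pow_mem hn m⟩ : N) ∈ (P : Subgroup N) := by
      have : IsPGroup p (Subgroup.zpowers (⟨n ^ m, N.pow_mem hn m⟩ : N)) := by
        refine IsPGroup.of_card (n := k) ?_
        rw [Nat.card_zpowers, ← hk, ← Subgroup.orderOf_coe]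
      obtain ⟨P, hP⟩ := this.exists_le_sylow
      exact ⟨P, hP (Subgroup.mem_zpowers _)⟩
    haveI := hnil
    haveI : (P : Subgroup N).Normal := inferInstance
    haveI : (P : Subgroup N).Characteristic := P.characteristic_of_normal inferInstance
    haveI := hN
    have hPn : ((P : Subgroup N).map N.subtype).Normal := inferInstance
    have : (P : Subgroup N).map N.subtype ≤ Cfsg.pCore p G :=
      le_sSup ⟨hPn, P.isPGroup'.map _⟩
    exact this ⟨_, hP, rfl⟩
  · intro hx
    apply mem_of_forall_primePow
    intro p k m hp hk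
    haveI := Fact.mk hp
    have h1 : x ^ m ∈ Cfsg.pCore p G := mem_pCore_of_hasIndexPowers p _ (fun H => by
      rw [← pow_mul, mul_comm, pow_mul]; exact H.pow_mem (hx H) m) ⟨k, hk⟩
    have h2 : Cfsg.pCore p G ≤ Cfsg.fittingSubgroup G :=
      le_sSup ⟨pCore_normal' p, (isPGroup_pCore p).isNilpotent⟩
    exact h2 h1

end Cfsg.Agent.S4263
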