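import Cfsg.Statements.S4269

set_option autoImplicit false
open Cfsg

namespace Cfsg.Agent.S4269

open scoped commutatorElement

theorem map_conj_mul {G : Type*} [Group G] (K : Subgroup G) (a b : G) :
    K.map (MulAut.conj (a * b)).toMonoidHom =
      (K.map (MulAut.conj b).toMonoidHom).map (MulAut.conj a).toMonoidHom := by
  rw [Subgroup.map_map]
  congr 1
  ext w
  simp [mul_assoc]

theorem map_conj_mem {G : Type*} [Group G] (K : Subgroup G) {a : G} (ha : a ∈ K) :
    K.map (MulAut.conj a).toMonoidHom = K :=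
  Subgroup.mem_normalizer_iff_map_conj_eq.1 (Subgroup.le_normalizer ha)

/-- Let G be a finite group, V an abelian normal subgroup and H a subgroup with HV = G. Then H is pronormal in G (H and gHg⁻¹ are conjugate inside the subgroup they generate, for every g) if and only if every H-invariant subgroup U of V satisfies U = N_U(H)·[H, U], that is, U is the join of U ∩ N_G(H) and the commutator subgroup [H, U]. -/
theorem result {G : Type*} [Group G] [Finite G]
    (V : Subgroup G) [V.Normal] (hV : IsMulCommutative ↥V) (H : Subgroup G) (hHV : H ⊔ V = ⊤) :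
    Cfsg.IsPronormal H ↔
      ∀ U : Subgroup G, U ≤ V → (∀ h ∈ H, U.map (MulAut.conj h).toMonoidHom = U) →
        U = (U ⊓ Subgroup.normalizer (H : Set G)) ⊔ ⁅H, U⁆ := by
  have hVc : ∀ a ∈ V, ∀ b ∈ V, a * b = b * a := fun a ha b hb =>
    congrArg Subtype.val (hV.is_comm.comm (⟨a, ha⟩ : V) ⟨b, hb⟩)
  -- the commutator `⁅H, U⁆` is normal
  have hCn : ∀ U : Subgroup G, U ≤ V → (∀ h ∈ H, ∀ u ∈ U, h * u * h⁻¹ ∈ U) → (⁅H, U⁆).Normal := by
    intro U hUV hU
    rw [← Subgroup.normalizer_eq_top_iff, eq_top_iff, ← hHV]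
    refine sup_le ?_ ?_
    · intro h hh
      refine Subgroup.mem_normalizer_iff_map_conj_eq.2 ?_
      rw [Subgroup.map_commutator, show H.map ((MulAut.conj h : G ≃* G) : G →* G) = H from map_conj_mem H hh]
      congr 1
      refine Subgroup.eq_of_le_of_card_ge ?_ (Nat.card_congr (Subgroup.equivMapOfInjective _ _ (MulAut.conj h).injective).toEquiv).le
      rintro _ ⟨u, hu, rfl⟩
      exact hU h hh u hu
    · intro v hv
      have hle : ⁅H, U⁆ ≤ V := Subgroup.commutator_le.2 fun h _ u hu =>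
        V.mul_mem ((inferInstance : V.Normal).conj_mem u (hUV hu) h) (V.inv_mem (hUV hu))
      refine Subgroup.centralizer_le_normalizer _ ?_
      rw [Subgroup.mem_centralizer_iff]
      exact fun c hc => hVc c (hle hc) v hv
  constructor
  · intro hpro U hUV hinv
    have hU : ∀ h ∈ H, ∀ u ∈ U, h * u * h⁻¹ ∈ U := by
      intro h hh u hu
      rw [← hinv h hh]
      exact ⟨u, hu, rfl⟩
    haveI := hCn U hUV hU
    refine le_antisymm ?_ (sup_le inf_le_left ?_)
    · intro u hu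
      obtain ⟨x, hx, hxe⟩ := hpro u
      have hJ : H ⊔ H.map (MulAut.conj u).toMonoidHom ≤ ⁅H, U⁆ ⊔ H := by
        refine sup_le le_sup_right ?_
        rintro _ ⟨h, hh, rfl⟩
        have e : (MulAut.conj u).toMonoidHom h = h * ⁅h⁻¹, u⁆ := by
          simp [commutatorElement_def, mul_assoc]
        rw [e]
        exact mul_mem (Subgroup.mem_sup_right hh)
          (Subgroup.mem_sup_left (Subgroup.commutator_mem_commutator (H.inv_mem hh) hu))
      obtain ⟨c, hc, h, hh, rfl⟩ := Subgroup.mem_sup_of_normal_left.1 (hJ hx)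
      rw [map_conj_mul, map_conj_mem H hh] at hxe
      have hcU : c ∈ U := by
        refine (Subgroup.commutator_le.2 fun h hh v hv => ?_ : ⁅H, U⁆ ≤ U) hc
        exact U.mul_mem (hU h hh v hv) (U.inv_mem hv)
      have hn : c⁻¹ * u ∈ U ⊓ Subgroup.normalizer (H : Set G) := by
        refine ⟨U.mul_mem (U.inv_mem hcU) hu, Subgroup.mem_normalizer_iff_map_conj_eq.2 ?_⟩
        show H.map (MulAut.conj (c⁻¹ * u)).toMonoidHom = H
        rw [map_conj_mul, hxe, ← map_conj_mul, inv_mul_cancel, map_conj_mem H H.one_mem]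
      have := mul_mem (Subgroup.mem_sup_right (S := U ⊓ Subgroup.normalizer (H : Set G)) hc)
        (Subgroup.mem_sup_left (T := ⁅H, U⁆) hn)
      simpa using this
    · exact Subgroup.commutator_le.2 fun h hh v hv => U.mul_mem (hU h hh v hv) (U.inv_mem hv)
  · intro hcond g
    have hg : g ∈ V ⊔ H := by rw [sup_comm, hHV]; exact Subgroup.mem_top g
    obtain ⟨v, hv, h, hh, rfl⟩ := Subgroup.mem_sup_of_normal_left.1 hg
    rw [map_conj_mul, map_conj_mem H hh]
    set J := H ⊔ H.map (MulAut.conj v).toMonoidHom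
    let W : Subgroup G :=
      { carrier := {u | u ∈ V ∧ ∀ h ∈ H, ⁅h, u⁆ ∈ J}
        one_mem' := ⟨V.one_mem, fun h _ => by simp⟩
        mul_mem' := by
          rintro a b ⟨ha, ha'⟩ ⟨hb, hb'⟩
          refine ⟨V.mul_mem ha hb, fun h hh => ?_⟩
          have hcb : ⁅h, b⁆ ∈ V := V.mul_mem ((inferInstance : V.Normal).conj_mem b hb h) (V.inv_mem hb)
          have e : ⁅h, a * b⁆ = ⁅h, a⁆ * (a * ⁅h, b⁆ * a⁻¹) := by simp [commutatorElement_def, mul_assoc]
          rw [e, hVc a ha _ hcb, mul_inv_cancel_right]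
          exact J.mul_mem (ha' h hh) (hb' h hh)
        inv_mem' := by
          rintro a ⟨ha, ha'⟩
          refine ⟨V.inv_mem ha, fun h hh => ?_⟩
          have hca : ⁅h, a⁆ ∈ V := V.mul_mem ((inferInstance : V.Normal).conj_mem a ha h) (V.inv_mem ha)
          have e : ⁅h, a⁻¹⁆ = a⁻¹ * ⁅h, a⁆⁻¹ * a := by simp [commutatorElement_def, mul_assoc]
          rw [e, hVc _ (V.inv_mem ha) _ (V.inv_mem hca), inv_mul_cancel_right]
          exact J.inv_mem (ha' h hh) }
    set U := Subgroup.closure {u | ∃ k ∈ H, k * v * k⁻¹ = u}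
    have hUW : U ≤ W := by
      rw [Subgroup.closure_le]
      rintro _ ⟨k, hk, rfl⟩
      refine ⟨(inferInstance : V.Normal).conj_mem v hv k, fun h hh => ?_⟩
      have hkJ : k ∈ J := Subgroup.mem_sup_left hk
      have e : ⁅h, k * v * k⁻¹⁆ = k * ((k⁻¹ * h * k) * (v * (k⁻¹ * h * k)⁻¹ * v⁻¹)) * k⁻¹ := by
        simp [commutatorElement_def, mul_assoc]
      rw [e]
      have hm : k⁻¹ * h * k ∈ H := H.mul_mem (H.mul_mem (H.inv_mem hk) hh) hk
      exact J.mul_mem (J.mul_mem hkJ (J.mul_mem (Subgroup.mem_sup_left hm)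
        (Subgroup.mem_sup_right ⟨_, H.inv_mem hm, rfl⟩))) (J.inv_mem hkJ)
    have hUV : U ≤ V := fun u hu => (hUW hu).1
    have hUinv : ∀ h ∈ H, U.map (MulAut.conj h).toMonoidHom = U := by
      intro h hh
      rw [MonoidHom.map_closure]
      congr 1
      ext u
      constructor
      · rintro ⟨_, ⟨k, hk, rfl⟩, rfl⟩
        exact ⟨h * k, H.mul_mem hh hk, by simp [mul_assoc]⟩
      · rintro ⟨k, hk, rfl⟩
        exact ⟨(h⁻¹ * k) * v * (h⁻¹ * k)⁻¹, ⟨_, H.mul_mem (H.inv_mem hh) hk, rfl⟩, by simp [mul_assoc]⟩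
    have hU' : ∀ h ∈ H, ∀ u ∈ U, h * u * h⁻¹ ∈ U := fun h hh u hu => hUinv h hh ▸ ⟨u, hu, rfl⟩
    haveI := hCn U hUV hU'
    have hvU : v ∈ U := Subgroup.subset_closure ⟨1, H.one_mem, by simp⟩
    have hv' : v ∈ ⁅H, U⁆ ⊔ (U ⊓ Subgroup.normalizer (H : Set G)) := by
      rw [sup_comm, ← hcond U hUV hUinv]; exact hvU
    obtain ⟨c, hc, n, hn, rfl⟩ := Subgroup.mem_sup_of_normal_left.1 hv'
    have hcJ : c ∈ J := (Subgroup.commutator_le.2 fun h hh u hu => (hUW hu).2 h hh : ⁅H, U⁆ ≤ J) hc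
    refine ⟨c, hcJ, ?_⟩
    rw [map_conj_mul]
    exact congrArg _ (Subgroup.mem_normalizer_iff_map_conj_eq.1 hn.2)

end Cfsg.Agent.S4269
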