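import Cfsg.Statements.S4271
import Cfsg.Agent.Lib.PronormalSylow
import Cfsg.Agent.Lib.Alt.Pronormal

set_option autoImplicit false
open Cfsg

namespace Cfsg.Agent.S4271

open Cfsg.Agent.Lib.PronormalSylow

/-- Let p be a prime and G a finite group with a normal subgroup A such that every subgroup of A containing a Sylow p-subgroup of A is pronormal in A, and the Sylow p-subgroups of G/A are self-normalizing. Let T be a Sylow p-subgroup of A. Then every subgroup of G containing a Sylow p-subgroup of G is pronormal in G if and only if every subgroup of N_G(T)/T containing a Sylow p-subgroup of N_G(T)/T is pronormal in N_G(T)/T. (Pronormal: H and gHg⁻¹ are conjugate inside the subgroup they generate, for every g.) -/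
theorem result {G : Type*} [Group G] [Finite G] {p : ℕ} [Fact p.Prime]
    (A : Subgroup G) [A.Normal] (hA : (∀ K : Subgroup ↥A, (∃ P : Sylow p ↥A, (P : Subgroup ↥A) ≤ K) → Cfsg.IsPronormal K))
    (hQ : ∀ P : Sylow p (G ⧸ A), Subgroup.normalizer ((P : Subgroup (G ⧸ A)) : Set (G ⧸ A)) = P)
    (T : Subgroup G) (hT : ∃ P : Sylow p ↥A, (P : Subgroup ↥A).map A.subtype = T) [(T.subgroupOf (Subgroup.normalizer (T : Set G))).Normal] :
    (∀ K : Subgroup G, (∃ P : Sylow p G, (P : Subgroup G) ≤ K) → Cfsg.IsPronormal K) ↔ (∀ K : Subgroup (↥(Subgroup.normalizer (T : Set G)) ⧸ T.subgroupOf (Subgroup.normalizer (T : Set G))), (∃ P : Sylow p (↥(Subgroup.normalizer (T : Set G)) ⧸ T.subgroupOf (Subgroup.normalizer (T : Set G))), (P : Subgroup (↥(Subgroup.normalizer (T : Set G)) ⧸ T.subgroupOf (Subgroup.normalizer (T : Set G)))) ≤ K) → Cfsg.IsPronormal K) := by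
  obtain ⟨S, rfl⟩ := hT
  have hTA : (S : Subgroup ↥A).map A.subtype ≤ A := Subgroup.map_subtype_le _
  have hT2 : ¬ p ∣ ((S : Subgroup ↥A).map A.subtype).relIndex A := by
    rw [Subgroup.relIndex, Subgroup.subgroupOf, Subgroup.comap_map_eq_self_of_injective A.subtype_injective]
    exact S.not_dvd_index
  have hQ' : ∀ K : Subgroup (G ⧸ A), (∃ P : Sylow p (G ⧸ A), (P : Subgroup (G ⧸ A)) ≤ K) → IsPronormal K := by
    rintro K ⟨P, hP⟩
    exact Cfsg.Agent.Lib.Alt.pronormal_of_normalizer_le P K hP (by rw [hQ P]; exact hP)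
  refine ⟨quot_pronormal A _ hTA (S.isPGroup'.map _) hT2, fun hN => pronormal_above A _ hTA (S.isPGroup'.map _) hT2 hA hQ' hN ?_⟩
  rintro K ⟨P, hP⟩
  set π := QuotientGroup.mk' A
  have hP' := Subgroup.map_mono (f := π) hP
  have hself : Subgroup.normalizer ((K.map π : Subgroup (G ⧸ A)) : Set (G ⧸ A)) ≤ K.map π := by
    intro x hx
    let Q := P.mapSurjective (QuotientGroup.mk'_surjective A)
    have hxQ : cj x (Q : Subgroup (G ⧸ A)) ≤ K.map π := (cj_mono x hP').trans (cj_eq_self_iff.2 hx).le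
    obtain ⟨k, hk, hke⟩ := sylow_conj_in (B := K.map π) hP' hxQ Q.isPGroup'
      (fun h => Q.not_dvd_index (h.trans (Subgroup.relIndex_dvd_index_of_le hP'))) (Q.isPGroup'.map _)
      (fun h => (x • Q).not_dvd_index (h.trans (Subgroup.relIndex_dvd_index_of_le hxQ)))
    have hn : k⁻¹ * x ∈ (Q : Subgroup (G ⧸ A)) := by
      rw [← hQ Q]
      refine cj_eq_self_iff.1 ?_
      rw [cj_mul]
      exact (congrArg (cj k⁻¹) hke.symm).trans (cj_inv_cancel _ _)
    simpa using mul_mem hk (hP' hn)
  refine le_antisymm ?_ (hself.trans (Subgroup.map_mono Subgroup.le_normalizer))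
  rintro _ ⟨n, hn, rfl⟩
  exact cj_eq_self_iff.1 (by rw [← cj_map, cj_eq_self_iff.2 hn])

end Cfsg.Agent.S4271
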