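import Cfsg.Statements.S4330
import Cfsg.Agent.Lib.AvoidConj.Main
import Cfsg.Agent.Lib.Fusion.Normal
import Cfsg.Agent.S0043
import Cfsg.Agent.Lib.Char2.Basic

set_option autoImplicit false
open Pointwise
open Cfsg

namespace Cfsg.Agent.S4330

universe u

private theorem core (p : ℕ) [Fact p.Prime] (hp : p ≠ 2) :
    ∀ (n : ℕ) (G : Type u) [Group G] [Finite G], Nat.card G = n → Group.IsSolvable G → ∀ A : Subgroup G,
      IsPGroup p A → (∀ c : G, ∃ g : G, IsConj c g ∧ IsPGroup p (A ⊔ MulAut.conj g • A : Subgroup G)) →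
      A ≤ Cfsg.pCore p G := by
  intro n
  induction n using Nat.strong_induction_on with
  | _ n ih =>
    intro G _ _ hn hG A hA h
    classical
    haveI := hG
    by_cases hA1 : A = ⊥
    · rw [hA1]; exact bot_le
    -- quotients inherit the hypothesis
    have hquot : ∀ (N : Subgroup G) [N.Normal], N ≠ ⊥ →
        A.map (QuotientGroup.mk' N) ≤ Cfsg.pCore p (G ⧸ N) := by
      intro N _ hN
      refine ih _ ?_ (G ⧸ N) rfl inferInstance _ (hA.map _) fun c => ?_
      · rw [← hn, Subgroup.card_eq_card_quotient_mul_card_subgroup N]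
        refine lt_mul_of_one_lt_right Nat.card_pos ?_
        haveI := (Subgroup.nontrivial_iff_ne_bot N).2 hN
        exact Finite.one_lt_card
      · obtain ⟨c, rfl⟩ := QuotientGroup.mk'_surjective N c
        obtain ⟨g, hcg, hg⟩ := h c
        refine ⟨QuotientGroup.mk' N g, (QuotientGroup.mk' N).map_isConj hcg, ?_⟩
        have e : A.map (QuotientGroup.mk' N) ⊔ MulAut.conj (QuotientGroup.mk' N g) • A.map (QuotientGroup.mk' N)
            = (A ⊔ MulAut.conj g • A).map (QuotientGroup.mk' N) := by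
          rw [Subgroup.map_sup]
          congr 1
          ext z
          simp only [Subgroup.mem_map, Subgroup.mem_smul_pointwise_iff_exists]
          constructor
          · rintro ⟨_, ⟨y, hy, rfl⟩, rfl⟩
            exact ⟨_, ⟨y, hy, rfl⟩, rfl⟩
          · rintro ⟨_, ⟨y, hy, rfl⟩, rfl⟩
            exact ⟨_, ⟨y, hy, rfl⟩, rfl⟩
        rw [e]
        exact hg.map _
    haveI hcoreN : (Cfsg.pCore p G).Normal := Cfsg.Agent.Lib.Fusion.pCore_normal
    by_cases hcore : Cfsg.pCore p G = ⊥
    swap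
    · intro a ha
      have h1 := hquot (Cfsg.pCore p G) hcore ⟨a, ha, rfl⟩
      haveI hn' : (Cfsg.pCore p (G ⧸ Cfsg.pCore p G)).Normal := Cfsg.Agent.Lib.Fusion.pCore_normal
      have hp1 : IsPGroup p ((Cfsg.pCore p (G ⧸ Cfsg.pCore p G)).comap
          (QuotientGroup.mk' (Cfsg.pCore p G))) :=
        Cfsg.Agent.Lib.Fusion.isPGroup_pCore.comap_of_ker_isPGroup _
          (by rw [QuotientGroup.ker_mk']; exact Cfsg.Agent.Lib.Fusion.isPGroup_pCore)
      exact Cfsg.Agent.Lib.Fusion.le_pCore (hn'.comap _) hp1 h1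
    -- a minimal normal subgroup
    exfalso
    obtain ⟨a, ha, ha1⟩ := A.bot_or_exists_ne_one.resolve_left hA1
    obtain ⟨N, hN⟩ := (Set.toFinite {N : Subgroup G | N.Normal ∧ N ≠ ⊥}).exists_minimal
      ⟨⊤, inferInstance, fun h => hA1 (eq_bot_iff.2 (h ▸ le_top))⟩
    obtain ⟨hNn, hN1⟩ := hN.1
    haveI := hNn
    obtain ⟨hcomm, q, hq, hqN⟩ := Cfsg.Agent.S0043.result N hN1 (fun M hM hle => by
      by_cases hb : M = ⊥
      · exact Or.inl hb
      · exact Or.inr (le_antisymm hle (hN.2 ⟨hM, hb⟩ hle)))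
    have hqp : q ≠ p := by
      rintro rfl
      exact hN1 (le_bot_iff.1 (hcore ▸ Cfsg.Agent.Lib.Fusion.le_pCore hNn
        (fun x => ⟨1, Subtype.ext (by simpa using hqN x x.2)⟩)))
    have hNq : IsPGroup q N := fun x => ⟨1, Subtype.ext (by simpa using hqN x x.2)⟩
    have hcop : p.Coprime (Nat.card N) := by
      haveI := Fact.mk hq
      obtain ⟨k, hk⟩ := IsPGroup.iff_card.1 hNq
      rw [hk]
      exact ((Nat.coprime_primes Fact.out hq).2 (Ne.symm hqp)).pow_right k
    -- every element of `N` has a conjugate centralised by `A`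
    have hfix : ∀ v ∈ N, ∃ t : G, ∀ b ∈ A, b * (t * v * t⁻¹) = t * v * t⁻¹ * b := by
      intro v hv
      obtain ⟨g, hcg, hg⟩ := h v
      obtain ⟨t, rfl⟩ := isConj_iff.1 hcg
      refine ⟨t, fun b hb => ?_⟩
      set w := t * v * t⁻¹ with hw
      have hwN : w ∈ N := hNn.conj_mem v hv t
      have h1 : b⁻¹ * (w * b * w⁻¹) ∈ A ⊔ MulAut.conj w • A :=
        mul_mem (Subgroup.mem_sup_left (inv_mem hb))
          (Subgroup.mem_sup_right ⟨b, hb, rfl⟩)
      have h2 : b⁻¹ * (w * b * w⁻¹) ∈ N := by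
        rw [← mul_assoc, ← mul_assoc]
        exact mul_mem (by simpa using hNn.conj_mem w hwN b⁻¹) (inv_mem hwN)
      obtain ⟨k, hk⟩ := hg ⟨_, h1⟩
      have hk' : (b⁻¹ * (w * b * w⁻¹)) ^ p ^ k = 1 := congrArg Subtype.val hk
      have ho1 : orderOf (b⁻¹ * (w * b * w⁻¹)) ∣ p ^ k := orderOf_dvd_of_pow_eq_one hk'
      have ho2 : orderOf (b⁻¹ * (w * b * w⁻¹)) ∣ Nat.card N := Subgroup.orderOf_dvd_natCard N h2
      have h3 : b⁻¹ * (w * b * w⁻¹) = 1 :=
        orderOf_eq_one_iff.1 (Nat.eq_one_of_dvd_coprimes (hcop.pow_left k) ho1 ho2)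
      calc b * w = b * (b⁻¹ * (w * b * w⁻¹)) * w := by rw [h3, mul_one]
        _ = w * b := by group
    -- the module
    letI : CommGroup N :=
      { (inferInstance : Group N) with mul_comm := hcomm.is_comm.comm }
    let act : G →* MulAut N := MulAut.conjNormal
    let ρ : G →* AddMonoid.End (Additive N) :=
      { toFun := fun g => MonoidHom.toAdditive (act g).toMonoidHom
        map_one' := AddMonoidHom.ext fun v => by simp [MonoidHom.toAdditive]; rfl
        map_mul' := fun g k => AddMonoidHom.ext fun v => by simp [MonoidHom.toAdditive]; rfl }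
    have hρ : ∀ (g : G) (v : N), ((Additive.toMul (ρ g (Additive.ofMul v)) : N) : G) = g * v * g⁻¹ :=
      fun g v => MulAut.conjNormal_apply g v
    -- the inverse image of the core of the quotient
    haveI hcN : (Cfsg.pCore p (G ⧸ N)).Normal := Cfsg.Agent.Lib.Fusion.pCore_normal
    let M : Subgroup G := (Cfsg.pCore p (G ⧸ N)).comap (QuotientGroup.mk' N)
    have hM : M.Normal := hcN.comap _
    have hAM : A ≤ M := fun b hb => hquot N hN1 ⟨b, hb, rfl⟩
    have hMp : IsPGroup p (M.map (QuotientGroup.mk' N)) :=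
      Cfsg.Agent.Lib.Fusion.isPGroup_pCore.to_le (Subgroup.map_comap_le _ _)
    let ρb : G ⧸ ρ.ker →* AddMonoid.End (Additive N) := QuotientGroup.lift ρ.ker ρ le_rfl
    have hNker : N ≤ ρ.ker := fun k hk => MonoidHom.mem_ker.2 (AddMonoidHom.ext fun v => by
      apply Additive.toMul.injective
      apply Subtype.ext
      show k * ((Additive.toMul v : N) : G) * k⁻¹ = _
      rw [show k * ((Additive.toMul v : N) : G) = ((Additive.toMul v : N) : G) * k from
        congrArg Subtype.val (mul_comm (⟨k, hk⟩ : N) (Additive.toMul v)), mul_inv_cancel_right]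
      rfl)
    have hPp : IsPGroup p (M.map (QuotientGroup.mk' ρ.ker)) := by
      have e : M.map (QuotientGroup.mk' ρ.ker) = (M.map (QuotientGroup.mk' N)).map
          (QuotientGroup.map N ρ.ker (MonoidHom.id G) (by simpa using hNker)) := by
        rw [Subgroup.map_map]; congr 1
      rw [e]; exact hMp.map _
    -- every element of `A` centralises `N`
    have hcent : ∀ b ∈ A, ∀ v : Additive N, ρ b v = v := by
      intro b hb v
      by_contra hv
      obtain ⟨v', hv'⟩ := Cfsg.Agent.Lib.AvoidConj.exists_moved_by_all_conj ρb hp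
        (M.map (QuotientGroup.mk' ρ.ker)) (hM.map _ (QuotientGroup.mk'_surjective _)) hPp
        (by rw [Nat.card_congr Additive.toMul]; exact hcop) (b : G ⧸ ρ.ker) ⟨b, hAM hb, rfl⟩ ⟨v, hv⟩
      obtain ⟨t, ht⟩ := hfix _ (Additive.toMul v' : N).2
      apply hv' ((t⁻¹ : G) : G ⧸ ρ.ker)
      show ρ (t⁻¹ * b * t⁻¹⁻¹) v' = v'
      apply Additive.toMul.injective
      apply Subtype.ext
      refine (hρ _ (Additive.toMul v')).trans ?_
      set x := ((Additive.toMul v' : N) : G)
      have h1 := ht b hb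
      calc t⁻¹ * b * t⁻¹⁻¹ * x * (t⁻¹ * b * t⁻¹⁻¹)⁻¹ = t⁻¹ * (b * (t * x * t⁻¹)) * b⁻¹ * t := by group
        _ = x := by rw [h1]; group
    -- the kernel part of `M` is nilpotent, so `A` lies in its core
    let L : Subgroup G := M ⊓ ρ.ker
    haveI : L.Normal := Subgroup.normal_inf_normal M ρ.ker
    have hAL : A ≤ L := fun b hb => ⟨hAM hb, MonoidHom.mem_ker.2 (AddMonoidHom.ext (hcent b hb))⟩
    have hLN : ∀ l ∈ L, ∀ k ∈ N, l * k = k * l := by
      intro l hl k hk
      have h1 : ρ l (Additive.ofMul ⟨k, hk⟩) = Additive.ofMul ⟨k, hk⟩ := by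
        rw [MonoidHom.mem_ker.1 hl.2]; rfl
      have h2 := hρ l ⟨k, hk⟩
      rw [h1] at h2
      change k = l * k * l⁻¹ at h2
      conv_rhs => rw [h2]
      group
    haveI : Group.IsNilpotent L := by
      let f : L →* M.map (QuotientGroup.mk' N) :=
        { toFun := fun l => ⟨QuotientGroup.mk' N (l : G), ⟨l, l.2.1, rfl⟩⟩
          map_one' := Subtype.ext (map_one (QuotientGroup.mk' N))
          map_mul' := fun a b => Subtype.ext (map_mul (QuotientGroup.mk' N) (a : G) (b : G)) }
      haveI : Group.IsNilpotent (M.map (QuotientGroup.mk' N)) := hMp.isNilpotent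
      refine Subgroup.isNilpotent_of_ker_le_center f ?_
      intro l hl
      have hlN : (l : G) ∈ N := (QuotientGroup.eq_one_iff _).1 (congrArg Subtype.val (MonoidHom.mem_ker.1 hl))
      exact Subgroup.mem_center_iff.2 fun k => Subtype.ext (hLN k k.2 l hlN)
    obtain ⟨S⟩ : Nonempty (Sylow p L) := inferInstance
    haveI : (S : Subgroup L).Normal := inferInstance
    haveI : (S : Subgroup L).Characteristic := S.characteristic_of_normal inferInstance
    have hSn : ((S : Subgroup L).map L.subtype).Normal := ConjAct.normal_of_characteristic_of_normal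
    have hS : (S : Subgroup L).map L.subtype = ⊥ :=
      le_bot_iff.1 (hcore ▸ Cfsg.Agent.Lib.Fusion.le_pCore hSn (S.isPGroup'.map _))
    obtain ⟨T, hT⟩ := (hA.comap_subtype (K := L)).exists_le_sylow
    haveI : Subsingleton (Sylow p L) := Sylow.unique_of_normal S inferInstance |>.instSubsingleton
    have haS : (⟨a, hAL ha⟩ : L) ∈ (S : Subgroup L) := by
      rw [Subsingleton.elim S T]; exact hT ha
    have : a ∈ (S : Subgroup L).map L.subtype := ⟨_, haS, rfl⟩
    rw [hS, Subgroup.mem_bot] at this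
    exact ha1 this

/-- Let G be a finite solvable group, p an odd prime and A a p-subgroup of G such that every conjugacy class of G contains an element g for which A is subnormal in the subgroup generated by A and its conjugate by g. Then A is contained in O_p(G). (The hypothesis that p is odd is needed.) -/
theorem result {G : Type*} [Group G] [Finite G]
    (hG : Group.IsSolvable G) (p : ℕ) [Fact p.Prime] (hp : p ≠ 2) (A : Subgroup G) (hA : IsPGroup p A)
    (h : ∀ c : G, ∃ g : G, IsConj c g ∧ (A.subgroupOf (A ⊔ MulAut.conj g • A)).IsSubnormal) :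
    A ≤ Cfsg.pCore p G := by
  refine core p hp _ G rfl hG A hA fun c => ?_
  obtain ⟨g, hcg, hsn⟩ := h c
  refine ⟨g, hcg, ?_⟩
  set J : Subgroup G := A ⊔ MulAut.conj g • A with hJ
  haveI hJn : (Cfsg.pCore p J).Normal := Cfsg.Agent.Lib.Fusion.pCore_normal
  have hle : A.subgroupOf J ≤ Cfsg.pCore p J :=
    Cfsg.Agent.Lib.Char2.subnormal_le_pCore hsn hA.comap_subtype
  have hJp : IsPGroup p (Cfsg.pCore p J ⊔ (MulAut.conj g • A).subgroupOf J : Subgroup J) :=
    IsPGroup.to_sup_of_normal_left Cfsg.Agent.Lib.Fusion.isPGroup_pCore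
      ((hA.map _).comap_subtype)
  have htop : (Cfsg.pCore p J ⊔ (MulAut.conj g • A).subgroupOf J : Subgroup J) = ⊤ := by
    rw [eq_top_iff]
    refine le_trans ?_ (sup_le_sup_right hle _)
    rw [← Subgroup.subgroupOf_sup le_sup_left le_sup_right, Subgroup.subgroupOf_self]
  rw [htop] at hJp
  exact hJp.of_equiv Subgroup.topEquiv

end Cfsg.Agent.S4330
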