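import Cfsg.Statements.S4331

import Cfsg.Agent.Lib.LocalChar.Subnormal
import Cfsg.Agent.Lib.LocalChar.Core
set_option autoImplicit false
open Cfsg

namespace Cfsg.Agent.S4331


open Matrix

abbrev V := Multiplicative (Fin 2 → ZMod 3)

/-- The linear action on the plane. -/
def phi : GL (Fin 2) (ZMod 3) →* MulAut V where
  toFun g :=
    { toFun := fun v => Multiplicative.ofAdd ((g : Matrix (Fin 2) (Fin 2) (ZMod 3)) *ᵥ v.toAdd)
      invFun := fun v => Multiplicative.ofAdd (((g⁻¹ : GL (Fin 2) (ZMod 3)) : Matrix (Fin 2) (Fin 2) (ZMod 3)) *ᵥ v.toAdd)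
      left_inv := fun v => by
        show Multiplicative.ofAdd (((g⁻¹ : GL (Fin 2) (ZMod 3)) : Matrix (Fin 2) (Fin 2) (ZMod 3)) *ᵥ ((g : Matrix (Fin 2) (Fin 2) (ZMod 3)) *ᵥ v.toAdd)) = v
        rw [Matrix.mulVec_mulVec, Units.inv_mul, Matrix.one_mulVec]; rfl
      right_inv := fun v => by
        show Multiplicative.ofAdd ((g : Matrix (Fin 2) (Fin 2) (ZMod 3)) *ᵥ (((g⁻¹ : GL (Fin 2) (ZMod 3)) : Matrix (Fin 2) (Fin 2) (ZMod 3)) *ᵥ v.toAdd)) = v
        rw [Matrix.mulVec_mulVec, Units.mul_inv, Matrix.one_mulVec]; rfl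
      map_mul' := fun v w => by rw [toAdd_mul, Matrix.mulVec_add]; rfl }
  map_one' := by
    refine MulEquiv.ext fun v => ?_
    show Multiplicative.ofAdd (_ *ᵥ v.toAdd) = v
    rw [Units.val_one, Matrix.one_mulVec]; rfl
  map_mul' g h := by
    refine MulEquiv.ext fun v => ?_
    show Multiplicative.ofAdd (((g * h : GL (Fin 2) (ZMod 3)) : Matrix (Fin 2) (Fin 2) (ZMod 3)) *ᵥ v.toAdd) =
      Multiplicative.ofAdd ((g : Matrix (Fin 2) (Fin 2) (ZMod 3)) *ᵥ ((h : Matrix (Fin 2) (Fin 2) (ZMod 3)) *ᵥ v.toAdd))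
    rw [Units.val_mul, Matrix.mulVec_mulVec]

theorem card_fix : ∀ u : Fin 2 → ZMod 3, u ≠ 0 → ((Finset.univ : Finset (Matrix (Fin 2) (Fin 2) (ZMod 3))).filter fun m =>
    m 0 0 * m 1 1 - m 0 1 * m 1 0 ≠ 0 ∧ m *ᵥ u = u).card = 6 := by
  decide +kernel

theorem card_stab (u : V) (hu : u ≠ 1) :
    Nat.card ((MulAction.stabilizer (MulAut V) u).comap phi) = 6 := by
  classical
  have e : (MulAction.stabilizer (MulAut V) u).comap phi ≃ {m : Matrix (Fin 2) (Fin 2) (ZMod 3) //
      m 0 0 * m 1 1 - m 0 1 * m 1 0 ≠ 0 ∧ m *ᵥ u.toAdd = u.toAdd} :=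
    { toFun := fun g => ⟨(g.1 : Matrix (Fin 2) (Fin 2) (ZMod 3)), by
        rw [← Matrix.det_fin_two]
        exact g.1.det_ne_zero, congrArg Multiplicative.toAdd g.2⟩
      invFun := fun m => ⟨Matrix.GeneralLinearGroup.mkOfDetNeZero m.1 (by rw [Matrix.det_fin_two]; exact m.2.1),
        congrArg Multiplicative.ofAdd m.2.2⟩
      left_inv := fun g => Subtype.ext (Units.ext rfl)
      right_inv := fun m => rfl }
  rw [Nat.card_congr e, Nat.card_eq_fintype_card, Fintype.card_subtype]
  exact card_fix u.toAdd hu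

theorem cube_eq_one (v : V) : v * v * v = 1 := by
  refine Multiplicative.toAdd.injective (funext fun i => ?_)
  simp only [toAdd_mul, toAdd_one, Pi.add_apply, Pi.zero_apply]
  generalize v.toAdd i = x
  revert x
  decide


/-- There is a finite solvable group G with a subgroup A of order 2 such that every conjugacy class of G contains an element g for which A is subnormal in the subgroup generated by A and g, and yet A is not contained in O_2(G). (So the corresponding criteria for odd primes fail at the prime 2, even for solvable groups.) -/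
theorem result :
    ∃ (G : Type) (_ : Group G) (_ : Finite G) (A : Subgroup G), Group.IsSolvable G ∧ Nat.card A = 2 ∧
      (∀ c : G, ∃ g : G, IsConj c g ∧ (A.subgroupOf (A ⊔ Subgroup.zpowers g)).IsSubnormal) ∧
      ¬ A ≤ Cfsg.pCore 2 G := by
  classical
  haveI : Fact (Nat.Prime 2) := ⟨Nat.prime_two⟩
  have hGL : Nat.card (GL (Fin 2) (ZMod 3)) = 48 := by
    have := @Matrix.card_GL_field (ZMod 3) _ _ 2
    rw [this, Fin.prod_univ_two, ZMod.card]
    norm_num
  obtain ⟨M, hM⟩ := Sylow.exists_subgroup_card_pow_prime 2 (n := 4) (G := GL (Fin 2) (ZMod 3))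
    (by rw [hGL]; norm_num)
  let ψ : M →* MulAut V := phi.comp M.subtype
  let inst : MulAction M V := MulAction.compHom V ψ
  have hsm : ∀ (m : M) (v : V), m • v = ψ m v := fun _ _ => rfl
  have hV : Nat.card V = 9 := by
    rw [Nat.card_eq_fintype_card]; rfl
  have hstab : ∀ u : V, u ≠ 1 → Nat.card (MulAction.stabilizer M u) = 2 ∧
      ∀ v : V, v ≠ 1 → v ∈ MulAction.orbit M u := by
    intro u hu
    have h6 : Nat.card (MulAction.stabilizer M u) ∣ 6 := by
      rw [← card_stab u hu, ← Subgroup.card_map_of_injective M.subtype_injective]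
      refine Subgroup.card_dvd_of_le ?_
      rintro _ ⟨m, hm, rfl⟩
      exact hm
    have h16 : Nat.card (MulAction.stabilizer M u) ∣ 2 ^ 4 := hM ▸ Subgroup.card_subgroup_dvd_card _
    have h2 : Nat.card (MulAction.stabilizer M u) ≤ 2 :=
      Nat.le_of_dvd (by norm_num) ((Nat.dvd_gcd h6 h16).trans (by norm_num))
    have hprod : Nat.card (MulAction.orbit M u) * Nat.card (MulAction.stabilizer M u) = 16 := by
      rw [Nat.card_congr (MulAction.orbitEquivQuotientStabilizer M u), ← Subgroup.index,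
        Subgroup.index_mul_card, hM]
      norm_num
    have hsub : MulAction.orbit M u ⊆ ({1}ᶜ : Set V) := by
      rintro _ ⟨m, rfl⟩ h
      exact hu ((MulEquiv.map_eq_one_iff (ψ m)).1 h)
    have h8 : ({1}ᶜ : Set V).ncard = 8 := by
      rw [Set.ncard_compl, hV, Set.ncard_singleton]
    have hle : Nat.card (MulAction.orbit M u) ≤ 8 := by
      rw [Nat.card_coe_set_eq, ← h8]
      exact Set.ncard_le_ncard hsub
    have hge : 8 ≤ Nat.card (MulAction.orbit M u) := by nlinarith
    refine ⟨by nlinarith, fun v hv => ?_⟩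
    have heq : MulAction.orbit M u = ({1}ᶜ : Set V) := by
      refine Set.eq_of_subset_of_ncard_le hsub ?_
      rw [h8, ← Nat.card_coe_set_eq]
      exact hge
    rw [heq]
    exact hv
  let u0 : V := Multiplicative.ofAdd ![1, 0]
  have hu0 : u0 ≠ 1 := by decide
  obtain ⟨⟨a, ha⟩, ha1, huniq⟩ : ∃ a : MulAction.stabilizer M u0, a ≠ 1 ∧ ∀ b, b ≠ 1 → b = a := by
    have h2 := (hstab u0 hu0).1
    obtain ⟨x, y, hxy, huniv⟩ := Nat.card_eq_two_iff.1 h2
    have hall : ∀ z, z = x ∨ z = y := fun z => by simpa using Set.eq_univ_iff_forall.1 huniv z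
    rcases hall 1 with h | h
    · exact ⟨y, fun hy => hxy (h ▸ hy.symm), fun b hb => (hall b).resolve_left fun e => hb (e.trans h.symm)⟩
    · exact ⟨x, fun hx => hxy (hx.trans h), fun b hb => (hall b).resolve_right fun e => hb (e.trans h.symm)⟩
  have ha1' : a ≠ 1 := fun h => ha1 (Subtype.ext h)
  have hoa : orderOf a = 2 := by
    have h : a * a = 1 := by
      by_contra hne
      have := huniq ⟨a * a, Subgroup.mul_mem _ ha ha⟩ fun h => hne (congrArg Subtype.val h)
      exact ha1' (mul_left_cancel (((congrArg Subtype.val this : a * a = a)).trans (mul_one a).symm))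
    exact orderOf_eq_prime (by rw [pow_two, h]) ha1'
  have hfix : ψ a u0 = u0 := ha
  have : Finite (V ⋊[ψ] M) := Finite.of_equiv _ SemidirectProduct.equivProd.symm
  have hMp : IsPGroup 2 M := IsPGroup.of_card hM
  have hMnil : Group.IsNilpotent M := hMp.isNilpotent
  have hdef : ∀ (m : M) (v : V), ψ m v = Multiplicative.ofAdd (((m : GL (Fin 2) (ZMod 3)) : Matrix (Fin 2) (Fin 2) (ZMod 3)) *ᵥ v.toAdd) :=
    fun _ _ => rfl
  refine ⟨(V ⋊[ψ] M), inferInstance, inferInstance, Subgroup.zpowers (SemidirectProduct.inr a), ?_, ?_, ?_, ?_⟩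
  · haveI : Group.IsSolvable M := inferInstance
    exact Group.isSolvable_of_ker_le_range (SemidirectProduct.inl : V →* (V ⋊[ψ] M)) (SemidirectProduct.rightHom : (V ⋊[ψ] M) →* M)
      (by rw [SemidirectProduct.range_inl_eq_ker_rightHom])
  · rw [Nat.card_zpowers, orderOf_injective _ SemidirectProduct.inr_injective, hoa]
  · intro c
    -- every class meets the complement or the centraliser of `a`
    obtain ⟨g, hg, hor⟩ : ∃ g : (V ⋊[ψ] M), IsConj c g ∧ (g.left = 1 ∨ Commute (SemidirectProduct.inr a) g) := by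
      by_cases hfp : ∀ v : V, ψ c.right v = v → v = 1
      · have hsurj : Function.Surjective fun v : V => v * (ψ c.right v)⁻¹ := by
          refine Finite.injective_iff_surjective.1 fun v w h => ?_
          refine inv_mul_eq_one.1 ((hfp (v⁻¹ * w) ?_))
          rw [map_mul, map_inv]
          calc (ψ c.right v)⁻¹ * ψ c.right w = v⁻¹ * (v * (ψ c.right v)⁻¹) * ψ c.right w := by group
            _ = v⁻¹ * (w * (ψ c.right w)⁻¹) * ψ c.right w :=
              congrArg (fun t => v⁻¹ * t * ψ c.right w) h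
            _ = v⁻¹ * w := by group
        obtain ⟨v, hv⟩ := hsurj c.left
        refine ⟨SemidirectProduct.inr c.right, isConj_iff.2 ⟨SemidirectProduct.inl v⁻¹, ?_⟩, Or.inl rfl⟩
        simp only at hv
        ext1
        · simp [← hv, mul_comm, mul_left_comm]
        · simp
      push Not at hfp
      obtain ⟨u, hu, hu1⟩ := hfp
      by_cases hc1 : c.right = 1
      · by_cases hw : c.left = 1
        · exact ⟨c, IsConj.refl c, Or.inl hw⟩
        obtain ⟨k, hk⟩ := (hstab c.left hw).2 u0 hu0
        refine ⟨SemidirectProduct.inl u0, isConj_iff.2 ⟨SemidirectProduct.inr k, ?_⟩, Or.inr ?_⟩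
        · ext1
          · simpa [hsm] using hk
          · simp [hc1]
        · ext1
          · simpa using hfix
          · simp
      obtain ⟨k, hk⟩ := (hstab u hu1).2 u0 hu0
      have hk' : ψ k u = u0 := hk
      have hka : k * c.right * k⁻¹ = a := by
        refine congrArg Subtype.val (huniq ⟨k * c.right * k⁻¹, ?_⟩ fun h => hc1 ?_)
        · show ψ (k * c.right * k⁻¹) u0 = u0
          rw [map_mul, map_mul, map_inv]
          show ψ k (ψ c.right ((ψ k).symm u0)) = u0
          rw [← hk', MulEquiv.symm_apply_apply, hu, hk']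
        · have := congrArg Subtype.val h
          simpa using this
      obtain ⟨c', hc'⟩ : ∃ c' : (V ⋊[ψ] M), SemidirectProduct.inr k * c * (SemidirectProduct.inr k)⁻¹ = c' := ⟨_, rfl⟩
      have hc'r : c'.right = a := by simp [← hc', hka]
      set w := c'.left
      have haa : ψ a (ψ a w) = w := by
        have h2 : a * a = 1 := by
          have := pow_orderOf_eq_one a
          rwa [hoa, pow_two] at this
        rw [← MulAut.mul_apply, ← map_mul, h2, map_one]
        rfl
      set y := (w * ψ a w)⁻¹ with hy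
      refine ⟨⟨y, a⟩, (isConj_iff.2 ⟨SemidirectProduct.inr k, hc'⟩).trans (isConj_iff.2
        ⟨SemidirectProduct.inl w, ?_⟩), Or.inr ?_⟩
      · ext1
        · simp only [map_inv, SemidirectProduct.mul_left, SemidirectProduct.mul_right, SemidirectProduct.left_inl,
            SemidirectProduct.right_inl, SemidirectProduct.inv_left, SemidirectProduct.inv_right, map_one,
            MulAut.one_apply, inv_one, one_mul, mul_one, hc'r]
          rw [hy]
          have h3 := cube_eq_one w
          rw [_root_.mul_inv_rev, mul_comm (ψ a w)⁻¹ w⁻¹]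
          congr 1
          exact eq_inv_of_mul_eq_one_left h3
        · simp [hc'r]
      · ext1
        · show (1 : V) * ψ a y = y * ψ a 1
          rw [map_one, one_mul, mul_one, hy, map_inv, map_mul, haa, mul_comm]
        · simp
    refine ⟨g, hg, ?_⟩
    set A := Subgroup.zpowers (SemidirectProduct.inr a : (V ⋊[ψ] M))
    set J := A ⊔ Subgroup.zpowers g
    rcases hor with h | h
    · have hle : J ≤ (SemidirectProduct.inr : M →* (V ⋊[ψ] M)).range := sup_le
        (Subgroup.zpowers_le.2 ⟨a, rfl⟩) (Subgroup.zpowers_le.2 ⟨g.right, by ext1 <;> simp [h]⟩)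
      have hp : IsPGroup 2 J := ((hMp.to_subgroup ⊤).map (SemidirectProduct.inr : M →* (V ⋊[ψ] M))).to_le (hle.trans_eq (MonoidHom.range_eq_map _))
      have := hp.isNilpotent
      exact Lib.LocalChar.isSubnormal_of_isNilpotent _
    · have hn : (A.subgroupOf J).Normal := by
        refine Lib.LocalChar.normal_subgroupOf ?_
        refine sup_le Subgroup.le_normalizer (Subgroup.zpowers_le.2 ?_)
        exact Subgroup.centralizer_le_normalizer _ (Subgroup.mem_centralizer_iff.2 fun x hx => by
          obtain ⟨i, rfl⟩ := Subgroup.mem_zpowers_iff.1 hx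
          exact (h.zpow_left i).eq)
      exact Subgroup.IsSubnormal.step _ ⊤ le_top Subgroup.IsSubnormal.top (by
        have := hn
        infer_instance)
  · intro hA
    have hmem : (SemidirectProduct.inr a : (V ⋊[ψ] M)) ∈ Cfsg.pCore 2 (V ⋊[ψ] M) := hA (Subgroup.mem_zpowers _)
    have hnorm : (Cfsg.pCore 2 (V ⋊[ψ] M)).Normal := Lib.LocalChar.pCore_normal
    have htriv : ∀ v : V, (ψ a) v = v := by
      intro v
      set z : (V ⋊[ψ] M) := SemidirectProduct.inl v * SemidirectProduct.inr a * (SemidirectProduct.inl v)⁻¹ *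
        (SemidirectProduct.inr a)⁻¹ with hz
      have hzm : z ∈ Cfsg.pCore 2 (V ⋊[ψ] M) :=
        Subgroup.mul_mem _ (hnorm.conj_mem _ hmem _) (Subgroup.inv_mem _ hmem)
      have hzeq : z = SemidirectProduct.inl (v * (ψ a v)⁻¹) := by
        rw [hz]
        ext1 <;> simp
      rw [hzeq] at hzm
      obtain ⟨k, hk⟩ := IsPGroup.iff_orderOf.1 (Lib.LocalChar.pCore_isPGroup (p := 2) (G := (V ⋊[ψ] M))) ⟨_, hzm⟩
      rw [Subgroup.orderOf_mk, orderOf_injective _ SemidirectProduct.inl_injective] at hk
      have h9 : 2 ^ k ∣ 9 := hk ▸ hV ▸ orderOf_dvd_natCard _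
      have hk0 : k = 0 := by
        by_contra h0
        exact absurd ((dvd_pow_self 2 h0).trans h9) (by norm_num)
      rw [hk0, pow_zero, orderOf_eq_one_iff, mul_inv_eq_one] at hk
      exact hk.symm
    refine ha1' (Subtype.ext (Units.ext ?_))
    refine Matrix.ext_of_mulVec_single fun i => ?_
    have := congrArg Multiplicative.toAdd (htriv (Multiplicative.ofAdd (Pi.single i 1)))
    rw [hdef] at this
    show (↑(a : GL (Fin 2) (ZMod 3)) : Matrix (Fin 2) (Fin 2) (ZMod 3)) *ᵥ _ = _
    exact this.trans (Matrix.one_mulVec _).symm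

end Cfsg.Agent.S4331
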