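import Cfsg.Statements.S4332

set_option autoImplicit false
open Pointwise
open Cfsg Pointwise

namespace Cfsg.Agent.S4332

abbrev P8 := Equiv.Perm (Fin 8)

def cyc (a b d : Fin 8) : P8 := Equiv.swap a b * Equiv.swap b d

theorem conj_cyc (c : P8) (a b d : Fin 8) : c * cyc a b d * c⁻¹ = cyc (c a) (c b) (c d) := by
  have h : c * cyc a b d * c⁻¹ = (c * Equiv.swap a b * c⁻¹) * (c * Equiv.swap b d * c⁻¹) := by
    unfold cyc; group
  rw [h, ← Equiv.swap_apply_apply, ← Equiv.swap_apply_apply]
  rfl

theorem isThreeCycle_cyc {a b d : Fin 8} (hab : a ≠ b) (had : a ≠ d) (hbd : b ≠ d) :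
    (cyc a b d).IsThreeCycle := by
  have := Equiv.Perm.isThreeCycle_swap_mul_swap_same hab.symm hbd had
  rwa [Equiv.swap_comm b a] at this

theorem cyc_rotate {a b d : Fin 8} (hab : a ≠ b) (had : a ≠ d) (hbd : b ≠ d) :
    cyc b d a = cyc a b d := by
  ext z
  simp only [cyc, Equiv.Perm.mul_apply, Equiv.swap_apply_def]
  split_ifs <;> simp_all

theorem cyc_inv {a b d : Fin 8} (hab : a ≠ b) (had : a ≠ d) (hbd : b ≠ d) :
    cyc b a d * cyc a b d = 1 ∧ cyc a b d * cyc b a d = 1 := by
  constructor <;>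
  · ext z
    simp only [cyc, Equiv.Perm.mul_apply, Equiv.swap_apply_def, Equiv.Perm.one_apply]
    split_ifs <;> simp_all

/-- the key combinatorial fact -/
theorem exists_threeCycle (c : P8) : ∃ τ : P8, τ.IsThreeCycle ∧ Commute (c * τ * c⁻¹) τ := by
  classical
  by_cases h2 : ∃ x f, c (c x) = x ∧ c x ≠ x ∧ c f = f
  · obtain ⟨x, f, hx, hne, hf⟩ := h2
    have h1 : x ≠ f := fun h => hne (h ▸ hf)
    have h3 : c x ≠ f := fun h => h1 (c.injective (h.trans hf.symm))
    refine ⟨cyc x (c x) f, isThreeCycle_cyc hne.symm h1 h3, ?_⟩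
    rw [conj_cyc, hx, hf]
    exact (cyc_inv hne.symm h1 h3).1.trans (cyc_inv hne.symm h1 h3).2.symm
  by_cases h3 : ∃ x, c (c (c x)) = x ∧ c x ≠ x
  · obtain ⟨x, hx, hne⟩ := h3
    have h1 : x ≠ c (c x) := fun h => hne ((congrArg c h).trans hx)
    have h4 : c x ≠ c (c x) := fun h => hne (c.injective h).symm
    refine ⟨cyc x (c x) (c (c x)), isThreeCycle_cyc hne.symm h1 h4, ?_⟩
    rw [conj_cyc, hx, cyc_rotate hne.symm h1 h4]
  by_cases hfix : 3 ≤ (Finset.univ.filter fun x => c x = x).card
  · obtain ⟨u, hu, hcu⟩ := Finset.exists_subset_card_eq hfix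
    obtain ⟨a, b, d, hab, had, hbd, rfl⟩ := Finset.card_eq_three.1 hcu
    have ha := (Finset.mem_filter.1 (hu (show a ∈ ({a, b, d} : Finset (Fin 8)) by simp))).2
    have hb := (Finset.mem_filter.1 (hu (show b ∈ ({a, b, d} : Finset (Fin 8)) by simp))).2
    have hd := (Finset.mem_filter.1 (hu (show d ∈ ({a, b, d} : Finset (Fin 8)) by simp))).2
    refine ⟨cyc a b d, isThreeCycle_cyc hab had hbd, ?_⟩
    rw [conj_cyc, ha, hb, hd]
  push Not at hfix
  suffices h : ∃ a b d, a ≠ b ∧ a ≠ d ∧ b ≠ d ∧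
      Disjoint ({c a, c b, c d} : Finset (Fin 8)) ({a, b, d} : Finset (Fin 8)) by
    obtain ⟨a, b, d, hab, had, hbd, hdis⟩ := h
    refine ⟨cyc a b d, isThreeCycle_cyc hab had hbd, ?_⟩
    rw [conj_cyc]
    refine Equiv.Perm.Disjoint.commute fun z => ?_
    simp only [Finset.disjoint_left, Finset.mem_insert, Finset.mem_singleton] at hdis
    by_cases hz : z = c a ∨ z = c b ∨ z = c d
    · right
      have := hdis hz
      push Not at this
      simp [cyc, Equiv.swap_apply_def, this]
    · left
      push Not at hz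
      simp [cyc, Equiv.swap_apply_def, hz]
  obtain ⟨M, -, hM⟩ := Finite.exists_le_maximal (α := Finset (Fin 8))
    (p := fun M => ∀ x ∈ M, c x ∉ M) (a := ∅) (by simp)
  obtain ⟨hMp, hMmax⟩ := hM
  by_cases hM3 : 3 ≤ M.card
  · obtain ⟨u, hu, hcu⟩ := Finset.exists_subset_card_eq hM3
    obtain ⟨a, b, d, hab, had, hbd, rfl⟩ := Finset.card_eq_three.1 hcu
    refine ⟨a, b, d, hab, had, hbd, ?_⟩
    have hh : ∀ x ∈ ({a, b, d} : Finset (Fin 8)), c x ∉ ({a, b, d} : Finset (Fin 8)) :=
      fun x hx hcx => hMp x (hu hx) (hu hcx)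
    rw [Finset.disjoint_left]
    intro z hz
    simp only [Finset.mem_insert, Finset.mem_singleton] at hz
    rcases hz with rfl | rfl | rfl <;> exact hh _ (by simp)
  have hcov : (Finset.univ.filter fun x => c x ≠ x) ⊆ M ∪ M.image c ∪ M.image c.symm := by
    intro x hx
    simp only [Finset.mem_filter, Finset.mem_univ, true_and] at hx
    by_contra hc
    simp only [Finset.mem_union, Finset.mem_image, not_or, not_exists, not_and] at hc
    obtain ⟨⟨h1, h2⟩, h3⟩ := hc
    refine h1 (hMmax (y := insert x M) ?_ (Finset.subset_insert _ _) (Finset.mem_insert_self _ _))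
    intro y hy
    rw [Finset.mem_insert] at hy ⊢
    rcases hy with rfl | hy
    · rintro (h | h)
      · exact hx h
      · exact h3 _ h (c.symm_apply_apply y)
    · rintro (h | h)
      · exact h2 y hy h
      · exact hMp y hy h
  have hmov : 6 ≤ (Finset.univ.filter fun x => c x ≠ x).card := by
    have := Finset.card_filter_add_card_filter_not (s := (Finset.univ : Finset (Fin 8))) (fun x => c x = x)
    rw [Finset.card_univ, Fintype.card_fin] at this
    simp only [ne_eq]
    omega
  have hmov6 : (Finset.univ.filter fun x => c x ≠ x).card ≤ 6 := by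
    have h1 := Finset.card_le_card hcov
    have h2 := Finset.card_union_le (M ∪ M.image c) (M.image c.symm)
    have h3 := Finset.card_union_le M (M.image c)
    have h4 := Finset.card_image_le (s := M) (f := c)
    have h5 := Finset.card_image_le (s := M) (f := c.symm)
    omega
  obtain ⟨f, hf⟩ : ∃ f, c f = f := by
    by_contra hc
    push Not at hc
    rw [Finset.filter_true_of_mem (fun x _ => hc x), Finset.card_univ, Fintype.card_fin] at hmov6
    omega
  push Not at h2 h3
  obtain ⟨x, hx⟩ : ∃ x, c x ≠ x := by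
    by_contra hc
    push Not at hc
    rw [Finset.filter_false_of_mem (fun x _ => not_not.2 (hc x)), Finset.card_empty] at hmov
    omega
  have hper : ∀ y, c y ≠ y → c (c y) ≠ y ∧ c (c (c y)) ≠ y :=
    fun y hy => ⟨fun h => h2 y f h hy hf, fun h => hy (h3 y h)⟩
  obtain ⟨hx2, hx3⟩ := hper x hx
  have h45 : c (c (c (c x))) ≠ x ∧ c (c (c (c (c x)))) ≠ x := by
    by_contra hc
    obtain ⟨O, hO, hOc, hOm⟩ : ∃ O : Finset (Fin 8), 4 ≤ O.card ∧ (∀ z ∈ O, c z ∈ O) ∧ (∀ z ∈ O, c z ≠ z) ∧ O.card ≤ 5 := by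
      refine ⟨{x, c x, c (c x), c (c (c x)), c (c (c (c x)))}, ?_, ?_, ?_, ?_⟩
      · refine le_trans ?_ (Finset.card_le_card (s := {x, c x, c (c x), c (c (c x))}) (by intro z; simp; tauto))
        rw [Finset.card_insert_of_notMem, Finset.card_insert_of_notMem, Finset.card_pair] <;>
          simp [c.injective.eq_iff, Ne.symm hx, Ne.symm hx2, Ne.symm hx3]
      · intro z hz
        simp only [Finset.mem_insert, Finset.mem_singleton] at hz ⊢
        rw [not_and_or, not_not, not_not] at hc
        rcases hz with rfl | rfl | rfl | rfl | rfl <;> (try tauto)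
      · intro z hz
        simp only [Finset.mem_insert, Finset.mem_singleton] at hz
        rcases hz with rfl | rfl | rfl | rfl | rfl <;> simp [c.injective.eq_iff, hx]
      · exact Finset.card_le_five
    obtain ⟨hOm, hO5⟩ := hOm
    have hsub : O ⊆ Finset.univ.filter fun z => c z ≠ z := fun z hz => by simp [hOm z hz]
    obtain ⟨y, hy, hyO⟩ := Finset.exists_mem_notMem_of_card_lt_card (lt_of_le_of_lt hO5 (by omega : 5 < (Finset.univ.filter fun z => c z ≠ z).card))
    simp only [Finset.mem_filter, Finset.mem_univ, true_and] at hy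
    obtain ⟨hy2, hy3⟩ := hper y hy
    have hout : ∀ z, z ∉ O → c z ∉ O := by
      intro z hz hcz
      have him : O.image c = O := Finset.eq_of_subset_of_card_le (Finset.image_subset_iff.2 hOc)
        (by rw [Finset.card_image_of_injective _ c.injective])
      rw [← him, Finset.mem_image] at hcz
      obtain ⟨w, hw, hwz⟩ := hcz
      exact hz (c.injective hwz ▸ hw)
    set Y : Finset (Fin 8) := {y, c y, c (c y), c (c (c y))}
    have hY : Y.card = 4 := by
      simp only [Y]
      rw [Finset.card_insert_of_notMem, Finset.card_insert_of_notMem, Finset.card_pair] <;>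
        simp [c.injective.eq_iff, Ne.symm hy, Ne.symm hy2, Ne.symm hy3]
    have hsubY : O ∪ Y ⊆ Finset.univ.filter fun z => c z ≠ z := by
      refine Finset.union_subset hsub fun z hz => ?_
      simp only [Y, Finset.mem_insert, Finset.mem_singleton] at hz
      rcases hz with rfl | rfl | rfl | rfl <;> simp [c.injective.eq_iff, hy]
    have hdisj : Disjoint O Y := by
      rw [Finset.disjoint_right]
      intro z hz
      simp only [Y, Finset.mem_insert, Finset.mem_singleton] at hz
      rcases hz with rfl | rfl | rfl | rfl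
      exacts [hyO, hout _ hyO, hout _ (hout _ hyO), hout _ (hout _ (hout _ hyO))]
    have := Finset.card_le_card hsubY
    rw [Finset.card_union_of_disjoint hdisj, hY] at this
    omega
  obtain ⟨hx4, hx5⟩ := h45
  refine ⟨x, c (c x), c (c (c (c x))), hx2.symm, hx4.symm, ?_, ?_⟩
  · simp [c.injective.eq_iff, hx2.symm]
  · rw [Finset.disjoint_left]
    intro z hz
    simp only [Finset.mem_insert, Finset.mem_singleton] at hz ⊢
    rcases hz with rfl | rfl | rfl <;> simp [c.injective.eq_iff, hx, Ne.symm hx, hx3, Ne.symm hx3, hx5, Ne.symm hx5]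

/-- In the symmetric group of degree 8, let A be the subgroup generated by a 3-cycle. Then every conjugacy class contains an element g for which A is subnormal in the subgroup generated by A and its conjugate by g, although O_3 of the symmetric group of degree 8 is trivial. -/
theorem result
    (σ : Equiv.Perm (Fin 8)) (hσ : σ.IsThreeCycle) :
    (∀ c : Equiv.Perm (Fin 8), ∃ g : Equiv.Perm (Fin 8), IsConj c g ∧
      ((Subgroup.zpowers σ).subgroupOf (Subgroup.zpowers σ ⊔ MulAut.conj g • Subgroup.zpowers σ)).IsSubnormal) ∧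
    Cfsg.pCore 3 (Equiv.Perm (Fin 8)) = ⊥ := by
  refine ⟨fun c => ?_, ?_⟩
  · obtain ⟨τ, hτ, hcomm⟩ := exists_threeCycle c
    obtain ⟨h, rfl⟩ := isConj_iff.1 (Equiv.Perm.isConj_iff_cycleType_eq.2 (hτ.cycleType.trans hσ.cycleType.symm))
    refine ⟨h * c * h⁻¹, isConj_iff.2 ⟨h, rfl⟩, ?_⟩
    refine Subgroup.Normal.isSubnormal ?_
    refine Subgroup.normal_subgroupOf_of_le_normalizer (sup_le Subgroup.le_normalizer ?_)
    refine le_trans ?_ (Subgroup.centralizer_le_normalizer _)
    intro z hz
    rw [Subgroup.mem_pointwise_smul_iff_inv_smul_mem] at hz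
    obtain ⟨i, hi⟩ := hz
    have hz' : z = ((h * c * h⁻¹) * (h * τ * h⁻¹) * (h * c * h⁻¹)⁻¹) ^ i := by
      have := congrArg (fun w => (MulAut.conj (h * c * h⁻¹)) • w) hi
      simp only [smul_inv_smul] at this
      rw [← this, MulAut.smul_def, map_zpow, MulAut.conj_apply]
    rw [Subgroup.mem_centralizer_iff]
    rintro _ ⟨j, rfl⟩
    rw [hz']
    have hc' : Commute ((h * c * h⁻¹) * (h * τ * h⁻¹) * (h * c * h⁻¹)⁻¹) (h * τ * h⁻¹) := by
      have := hcomm.map (MulAut.conj h).toMonoidHom
      simpa [mul_assoc] using this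
    exact ((hc'.zpow_zpow i j).symm : _)
  · refine le_bot_iff.1 (sSup_le ?_)
    rintro N ⟨hN, hNp⟩
    by_contra hb
    obtain ⟨n, hn, hn1⟩ : ∃ n ∈ N, n ≠ 1 := by
      by_contra hc
      push Not at hc
      exact hb fun n hn => Subgroup.mem_bot.2 (hc n hn)
    obtain ⟨a, ha⟩ : ∃ a, n a ≠ a := by
      by_contra hc
      push Not at hc
      exact hn1 (Equiv.ext hc)
    have hsurj : MulAction.orbit N a = Set.univ := by
      rw [Set.eq_univ_iff_forall]
      intro d
      rcases eq_or_ne d a with rfl | hda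
      · exact MulAction.mem_orbit_self d
      · refine ⟨⟨Equiv.swap (n a) d * n * (Equiv.swap (n a) d)⁻¹, hN.conj_mem n hn _⟩, ?_⟩
        show Equiv.swap (n a) d (n ((Equiv.swap (n a) d)⁻¹ a)) = d
        rw [Equiv.swap_inv, Equiv.swap_apply_of_ne_of_ne (Ne.symm ha) (Ne.symm hda), Equiv.swap_apply_left]
    have h1 := MulAction.index_stabilizer (G := N) (x := a)
    rw [hsurj, Set.ncard_univ, Nat.card_fin] at h1
    haveI : Fact (Nat.Prime 3) := ⟨Nat.prime_three⟩
    obtain ⟨k, hk⟩ := hNp.index (MulAction.stabilizer N a)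
    rw [h1] at hk
    have : 2 ∣ 3 ^ k := hk ▸ (by norm_num : 2 ∣ 8)
    exact absurd (Nat.prime_two.dvd_of_dvd_pow this) (by norm_num)

end Cfsg.Agent.S4332
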