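import Cfsg.Statements.S4333

import Cfsg.Agent.Lib.GS.Zipper
set_option autoImplicit false
open Pointwise
open Cfsg

namespace Cfsg.Agent.S4333


open Cfsg.Agent.Lib.GS

theorem main : ∀ (n : ℕ) (G : Type*) [Group G] [Finite G] (A : Subgroup G), Nat.card G = n →
    (∀ a ∈ A, ∀ g : G, (A.subgroupOf (A ⊔ cmap (g⁻¹ * a * g) A)).IsSubnormal) → A.IsSubnormal := by
  intro n
  induction n using Nat.strong_induction_on with
  | _ n ih => ?_
  intro G _ _ A hn h
  have hsub : ∀ H : Subgroup G, A ≤ H → H ≠ ⊤ → (A.subgroupOf H).IsSubnormal := by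
    intro H hAH hH
    have hlt : Nat.card H < n := hn ▸ lt_of_le_of_ne (Subgroup.card_le_card_group H)
      fun e => hH (Subgroup.eq_top_of_card_eq H e)
    refine ih _ hlt H (A.subgroupOf H) rfl fun a ha g => ?_
    have hmap : A ⊔ cmap ((g : G)⁻¹ * a * g) A =
        (A.subgroupOf H ⊔ cmap (g⁻¹ * a * g) (A.subgroupOf H)).map H.subtype := by
      rw [Subgroup.map_sup, Subgroup.map_subgroupOf_eq_of_le hAH]
      congr 1
      ext y
      rw [mem_cmap, Subgroup.mem_map]
      constructor
      · intro hy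
        have hyH : y ∈ H := by
          have := H.mul_mem (H.mul_mem (g⁻¹ * a * g).2 (hAH hy)) (H.inv_mem (g⁻¹ * a * g).2)
          simpa [mul_assoc] using this
        refine ⟨⟨y, hyH⟩, mem_cmap.2 ?_, rfl⟩
        exact Subgroup.mem_subgroupOf.2 (by simpa using hy)
      · rintro ⟨z, hz, rfl⟩
        simpa using Subgroup.mem_subgroupOf.1 (mem_cmap.1 hz)
    set J := A.subgroupOf H ⊔ cmap (g⁻¹ * a * g) (A.subgroupOf H)
    let φ : J →* (A ⊔ cmap ((g : G)⁻¹ * a * g) A : Subgroup G) :=
      (H.subtype.comp J.subtype).codRestrict _ fun x => by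
        rw [hmap]; exact ⟨x, x.2, rfl⟩
    have h2 := (h (a : G) (Subgroup.mem_subgroupOf.1 ha) g).comap φ
    convert h2 using 1
    ext x
    rfl
  rcases zipper A hsub with hsn | ⟨M, hM, hAM, huniq⟩
  · exact hsn
  by_contra hns
  have hMn : ¬ M.Normal := fun hN =>
    hns (Subgroup.IsSubnormal.trans hAM (hsub M hAM hM.1) hN.isSubnormal)
  have hw : ∀ a ∈ A, ∀ g : G, g⁻¹ * a * g ∈ M := by
    intro a ha g
    set w := g⁻¹ * a * g with hw
    have hne : A ⊔ cmap w A ≠ ⊤ := fun e => hns (by
      have h1 := h a ha g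
      rw [← hw] at h1
      rw [e] at h1
      have h2 := h1.map (f := (⊤ : Subgroup G).subtype) (fun y => ⟨⟨y, trivial⟩, rfl⟩)
      rwa [Subgroup.map_subgroupOf_eq_of_le le_top] at h2)
    obtain ⟨K, hK, hJK⟩ := (eq_top_or_exists_le_coatom _).resolve_left hne
    have hKM : K = M := huniq K hK (le_sup_left.trans hJK)
    subst hKM
    have h1 : A ≤ cmap w⁻¹ K := fun y hy => by
      rw [mem_cmap, inv_inv]
      exact (le_sup_right.trans hJK) ⟨y, hy, rfl⟩
    have h2 := huniq _ (isCoatom_cmap hK w⁻¹) h1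
    have h3 := mem_normalizer_of_cmap_le h2.le
    rw [coatom_normalizer hK hMn] at h3
    exact inv_mem_iff.1 h3
  refine hMn ⟨fun m hm g => ?_⟩
  have h1 : A ≤ cmap g M := fun a ha => mem_cmap.2 (hw a ha g)
  have h2 := huniq _ (isCoatom_cmap hM g) h1
  rw [← h2]
  exact ⟨m, hm, rfl⟩

/-- Let A be a subgroup of a finite group G. If A is subnormal in the subgroup generated by A and its conjugate by g⁻¹ a g, for every a ∈ A and every g ∈ G, then A is subnormal in G. (A sharpening of Wielandt's subnormality criterion: only conjugates of A by conjugates of elements of A are needed.) -/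
theorem result {G : Type*} [Group G] [Finite G]
    (A : Subgroup G)
    (h : ∀ a ∈ A, ∀ g : G, (A.subgroupOf (A ⊔ MulAut.conj (g⁻¹ * a * g) • A)).IsSubnormal) :
    A.IsSubnormal := by
  exact main _ G A rfl h

end Cfsg.Agent.S4333
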