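import Cfsg.Statements.S4334

import Cfsg.Agent.Lib.Struct4.WielandtHall
set_option autoImplicit false
open Cfsg

namespace Cfsg.Agent.S4334


open Struct4.WielandtHall


/-- Let σ and τ be disjoint sets of primes with union π. Suppose a finite group G has a Hall π-subgroup H which is the direct product of a nilpotent σ-subgroup and a τ-subgroup (two elementwise-commuting subgroups generating H), and that the maximal τ-subgroups of G are pairwise conjugate. Then the maximal π-subgroups of G are pairwise conjugate. -/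
theorem result {G : Type*} [Group G] [Finite G]
    (σ τ π : Set ℕ) (hπ : π = σ ∪ τ) (hd : Disjoint σ τ) (H Hs Ht : Subgroup G) (hH : Cfsg.IsPiHall π H)
    (hs : Cfsg.IsPiSubgroup σ Hs) (ht : Cfsg.IsPiSubgroup τ Ht) (hsn : Group.IsNilpotent Hs)
    (hjoin : Hs ⊔ Ht = H) (hcomm : ∀ a ∈ Hs, ∀ b ∈ Ht, a * b = b * a) (hD : Cfsg.IsDPiGroup τ G) :
    Cfsg.IsDPiGroup π G := by
  classical
  have hHs : Hs ≤ H := hjoin ▸ le_sup_left
  have hHt : Ht ≤ H := hjoin ▸ le_sup_right
  have hdis : ∀ r, r ∈ σ → r ∈ τ → False := fun r h1 h2 => hd.le_bot ⟨h1, h2⟩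
  have hcop : Nat.Coprime (Nat.card Hs) (Nat.card Ht) :=
    Nat.coprime_of_dvd fun r hr h1 h2 => hdis r (hs r hr h1) (ht r hr h2)
  have hle : Hs ≤ Subgroup.normalizer (Ht : Set G) := fun a ha => Subgroup.centralizer_le_normalizer _
    (Subgroup.mem_centralizer_iff.2 fun b hb => (hcomm a ha b hb).symm)
  have hcardH : Nat.card H = Nat.card Hs * Nat.card Ht := by
    rw [← hjoin]
    let f : Hs × Ht →* (Hs ⊔ Ht : Subgroup G) :=
      { toFun := fun p => ⟨(p.1 : G) * p.2, Subgroup.mul_mem_sup p.1.2 p.2.2⟩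
        map_one' := Subtype.ext (by simp)
        map_mul' := fun x y => Subtype.ext (by
          show ((x.1 : G) * y.1) * (x.2 * y.2) = (x.1 : G) * x.2 * (y.1 * y.2)
          calc _ = (x.1 : G) * ((y.1 : G) * x.2) * y.2 := by group
            _ = (x.1 : G) * ((x.2 : G) * y.1) * y.2 := by rw [hcomm _ y.1.2 _ x.2.2]
            _ = _ := by group) }
    rw [← Nat.card_prod]
    refine (Nat.card_congr (Equiv.ofBijective f ⟨?_, ?_⟩)).symm
    · rw [injective_iff_map_eq_one]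
      rintro ⟨a, b⟩ h
      have h1 : (a : G) * b = 1 := congrArg Subtype.val h
      have ha : (a : G) ∈ Hs ⊓ Ht := ⟨a.2, by rw [eq_inv_of_mul_eq_one_left h1]; exact Ht.inv_mem b.2⟩
      rw [(Subgroup.disjoint_of_coprime_natCard hcop).eq_bot, Subgroup.mem_bot] at ha
      rw [ha, one_mul] at h1
      exact Prod.ext (Subtype.ext ha) (Subtype.ext h1)
    · rintro ⟨x, hx⟩
      have hx' : x ∈ ((Hs ⊔ Ht : Subgroup G) : Set G) := hx
      rw [Subgroup.coe_mul_of_left_le_normalizer_right _ _ hle] at hx'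
      obtain ⟨a, ha, b, hb, rfl⟩ := hx'
      exact ⟨(⟨a, ha⟩, ⟨b, hb⟩), rfl⟩
  have hidx : ∀ (X : Subgroup G) (Y : Subgroup G), X ≤ H → Nat.card H = Nat.card X * Nat.card Y →
      ∀ r : ℕ, r.Prime → r ∈ π → ¬ r ∣ Nat.card Y → ¬ r ∣ X.index := by
    intro X Y hXH hc r hr hrπ hrY hd'
    rw [← Subgroup.relIndex_mul_index hXH] at hd'
    rcases (Nat.Prime.dvd_mul hr).1 hd' with h | h
    · have h1 : Nat.card X * X.relIndex H = Nat.card H := by
        rw [← Subgroup.card_mul_index (X.subgroupOf H),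
          Nat.card_congr (Subgroup.subgroupOfEquivOfLe hXH).toEquiv]
        rfl
      rw [Nat.eq_of_mul_eq_mul_left Nat.card_pos (h1.trans hc)] at h
      exact hrY h
    · exact hH.2 r hr hrπ h
  have his : ∀ r : ℕ, r.Prime → r ∈ σ → ¬ r ∣ Hs.index := fun r hr hrσ =>
    hidx Hs Ht hHs hcardH r hr (hπ ▸ Or.inl hrσ) fun h => hdis r hrσ (ht r hr h)
  have hit : ∀ r : ℕ, r.Prime → r ∈ τ → ¬ r ∣ Ht.index := fun r hr hrτ =>
    hidx Ht Hs hHt (hcardH.trans (mul_comm _ _)) r hr (hπ ▸ Or.inr hrτ) fun h => hdis r (hs r hr h) hrτ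
  have hmaxt : Maximal (Cfsg.IsPiSubgroup τ) Ht := by
    refine ⟨ht, fun K hK hle' => ?_⟩
    have h1 : Ht.relIndex K = 1 := by
      by_contra h
      obtain ⟨r, hr, hrd⟩ := Nat.exists_prime_and_dvd h
      refine hit r hr (hK r hr (hrd.trans ?_)) (hrd.trans ?_)
      · exact Subgroup.relIndex_dvd_card Ht K
      · exact Dvd.intro _ (Subgroup.relIndex_mul_index hle')
    exact Subgroup.relIndex_eq_one.1 h1
  have hE1 : ∀ B : Subgroup G, Cfsg.IsPiSubgroup τ B → ∃ c, B ≤ Ht.map (MulAut.conj c).toMonoidHom := by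
    intro B hB
    obtain ⟨K, hBK, hK⟩ := Finite.exists_le_maximal (p := Cfsg.IsPiSubgroup τ) hB
    obtain ⟨c, hc⟩ := hD Ht K hmaxt hK
    exact ⟨c, hc ▸ hBK⟩
  have hemb : ∀ K : Subgroup G, Cfsg.IsPiSubgroup π K → ∃ g, K ≤ H.map (MulAut.conj g).toMonoidHom := by
    intro K hK
    rw [← hjoin]
    refine embed_join σ τ hd Hs Ht hsn hcomm his hit hE1 (fun c M hcM A hAM hA => ?_) K (hπ ▸ hK)
    set Hc := Hs.map (MulAut.conj c).toMonoidHom with hHc
    have hcardc : Nat.card (Hc.subgroupOf M) = Nat.card Hs :=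
      (Nat.card_congr (Subgroup.subgroupOfEquivOfLe hcM).toEquiv).trans
        (Subgroup.card_map_of_injective (MulEquiv.injective _))
    have hidxc : ∀ r : ℕ, r.Prime → r ∈ σ → ¬ r ∣ (Hc.subgroupOf M).index := fun r hr hrσ h => by
      refine his r hr hrσ ?_
      rw [← index_conj Hs c]
      exact h.trans (Subgroup.relIndex_mul_index hcM ▸ dvd_mul_right _ _)
    obtain ⟨d, hd⟩ := embed_nilpotent _ M (Hc.subgroupOf M) rfl
      (by
        haveI := hsn
        exact Group.nilpotent_of_mulEquiv ((Hs.equivMapOfInjective _ (MulEquiv.injective _)).trans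
          (Subgroup.subgroupOfEquivOfLe hcM).symm))
      (by
        rw [hcardc]
        exact Nat.coprime_of_dvd fun r hr h1 h2 => hidxc r hr (hs r hr h1) h2)
      (A.subgroupOf M)
      (fun r hr hrd => by
        rw [hcardc]
        have hrσ : r ∈ σ := hA r hr (by rwa [Nat.card_congr (Subgroup.subgroupOfEquivOfLe hAM).toEquiv] at hrd)
        rcases (Nat.Prime.dvd_mul hr).1 (show r ∣ Nat.card Hs * Hs.index from (Subgroup.card_mul_index Hs).symm ▸
          (hrd.trans ((Subgroup.card_subgroup_dvd_card (A.subgroupOf M)).trans (Subgroup.card_subgroup_dvd_card M)))) with h | h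
        · exact h
        · exact absurd h (his r hr hrσ))
    refine ⟨d, d.2, fun a ha => ?_⟩
    obtain ⟨x, hx, hxa⟩ := hd (Subgroup.mem_subgroupOf.2 ha : (⟨a, hAM ha⟩ : M) ∈ A.subgroupOf M)
    obtain ⟨y, hy, hyx⟩ := Subgroup.mem_subgroupOf.1 hx
    refine ⟨y, hy, ?_⟩
    have hxa' : (d : G) * (x : G) * (d : G)⁻¹ = a := congrArg Subtype.val hxa
    rw [← hyx] at hxa'
    simp only [MulEquiv.coe_toMonoidHom, MulAut.conj_apply] at hxa' ⊢
    rw [← hxa']
    group
  intro K₁ K₂ h1 h2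
  have key : ∀ K, Maximal (Cfsg.IsPiSubgroup π) K → ∃ g, K = H.map (MulAut.conj g).toMonoidHom := by
    intro K hK
    obtain ⟨g, hg⟩ := hemb K hK.1
    exact ⟨g, le_antisymm hg (hK.2 (isPi_conj hH.1 g) hg)⟩
  obtain ⟨g₁, rfl⟩ := key K₁ h1
  obtain ⟨g₂, rfl⟩ := key K₂ h2
  refine ⟨g₂ * g₁⁻¹, ?_⟩
  rw [Subgroup.map_map]
  congr 1
  ext x
  simp [mul_assoc]

end Cfsg.Agent.S4334
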