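import Cfsg.Statements.S4337

import Cfsg.Agent.Lib.Struct4.Transpositions
import Cfsg.Agent.Lib.Char.Burnside
set_option autoImplicit false
open Cfsg

namespace Cfsg.Agent.S4337

open Cfsg.Agent.Lib.Struct4

/-- In a finite symmetric group, any three transpositions generate a solvable subgroup. -/
theorem result (n : ℕ) (a b c : Equiv.Perm (Fin n))
    (ha : a.IsSwap) (hb : b.IsSwap) (hc : c.IsSwap) :
    Group.IsSolvable (Subgroup.closure ({a, b, c} : Set (Equiv.Perm (Fin n)))) := by
  classical
  obtain ⟨a1, a2, -, rfl⟩ := ha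
  obtain ⟨b1, b2, -, rfl⟩ := hb
  obtain ⟨c1, c2, -, rfl⟩ := hc
  refine Lib.Char.isSolvable_of_card_eq_two_primes Nat.prime_two Nat.prime_three _ _ rfl fun r hr hd => ?_
  have := prime_le_of_dvd_card_closure [(a1, a2), (b1, b2), (c1, c2)] hr _ (by
    intro σ hσ
    rcases hσ with rfl | rfl | rfl
    · exact ⟨(a1, a2), by simp, rfl⟩
    · exact ⟨(b1, b2), by simp, rfl⟩
    · exact ⟨(c1, c2), by simp, rfl⟩) hd
  simp only [List.length_cons, List.length_nil] at this
  have := hr.two_le
  interval_cases r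
  · exact Or.inl rfl
  · exact Or.inr rfl
  · exact absurd hr (by decide)

end Cfsg.Agent.S4337
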