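import Cfsg.Statements.S4342

import Cfsg.Agent.Lib.Struct4.SylowCount
set_option autoImplicit false
open Cfsg

namespace Cfsg.Agent.S4342

open Cfsg.Agent.Lib.Struct4

/-- Let H be a normal subgroup of a finite group G and p a prime not dividing the index of H. Then the number of Sylow p-subgroups of H/Z(H) equals the number of Sylow p-subgroups of G. -/
theorem result {G : Type*} [Group G] [Finite G]
    (p : ℕ) [Fact p.Prime] (H : Subgroup G) [H.Normal] (hp : ¬ p ∣ H.index) :
    Nat.card (Sylow p (H ⧸ Subgroup.center H)) = Nat.card (Sylow p G) := by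
  obtain ⟨P⟩ : Nonempty (Sylow p G) := inferInstance
  have hPH : (P : Subgroup G) ≤ H := by
    have : (P : Subgroup G).map (QuotientGroup.mk' H) = ⊥ := by
      rw [← Subgroup.card_eq_one]
      obtain ⟨k, hk⟩ := IsPGroup.iff_card.1 (P.isPGroup'.map (QuotientGroup.mk' H))
      have hd : Nat.card ((P : Subgroup G).map (QuotientGroup.mk' H)) ∣ H.index :=
        (Subgroup.card_subgroup_dvd_card _)
      rw [hk] at hd ⊢
      cases k with
      | zero => rfl
      | succ k => exact absurd ((dvd_pow_self p k.succ_ne_zero).trans hd) hp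
    rw [Subgroup.map_eq_bot_iff, QuotientGroup.ker_mk'] at this
    exact this
  have h1 := card_sylow_quotient P H
  rw [sup_eq_right.2 hPH, ← card_sylow_of_le P H hPH] at h1
  have h0 : Nat.card (Sylow p (G ⧸ H)) = 1 := by
    have hsub : Subsingleton (Sylow p (G ⧸ H)) := by
      refine ⟨fun A B => Sylow.ext ?_⟩
      have : ∀ A : Sylow p (G ⧸ H), (A : Subgroup (G ⧸ H)) = ⊥ := by
        intro A
        rw [← Subgroup.card_eq_one]
        obtain ⟨k, hk⟩ := IsPGroup.iff_card.1 A.isPGroup'
        have hd : Nat.card (A : Subgroup (G ⧸ H)) ∣ H.index := Subgroup.card_subgroup_dvd_card _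
        rw [hk] at hd ⊢
        cases k with
        | zero => rfl
        | succ k => exact absurd ((dvd_pow_self p k.succ_ne_zero).trans hd) hp
      rw [this A, this B]
    exact Nat.card_of_subsingleton default
  rw [h1, h0, one_mul]
  set P' := P.subtype hPH
  have h2 := card_sylow_quotient P' (Subgroup.center H)
  have h3 : (P' : Subgroup H) ⊔ Subgroup.center H ≤ Subgroup.normalizer ((P' : Subgroup H) : Set H) :=
    sup_le Subgroup.le_normalizer (Subgroup.center_le_normalizer _)
  rw [Subgroup.relIndex_eq_one.2 h3, mul_one] at h2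
  exact h2.symm

end Cfsg.Agent.S4342
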