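import Cfsg.Statements.S4343

import Cfsg.Agent.Lib.Struct4.SylowSmall
set_option autoImplicit false
open Cfsg

namespace Cfsg.Agent.S4343

/-- Let S be a finite non-abelian simple group and p a prime dividing its order. If S has fewer than p² Sylow p-subgroups, then its Sylow p-subgroups have order p. -/
theorem result {S : Type*} [Group S] [Finite S]
    [IsSimpleGroup S] (hS : ¬ IsMulCommutative S) (p : ℕ) [Fact p.Prime] (hp : p ∣ Nat.card S)
    (hn : Nat.card (Sylow p S) < p ^ 2) (P : Sylow p S) : Nat.card P = p := by
  exact Cfsg.Agent.Lib.Struct4.card_sylow_eq_prime_of_simple hS hp hn P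

end Cfsg.Agent.S4343
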