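import Cfsg.Statements.S4344

import Cfsg.Agent.Lib.Struct4.Basic
set_option autoImplicit false
open Cfsg

namespace Cfsg.Agent.S4344

open Cfsg.Agent.Lib.Struct4

/-- Let S be a finite non-abelian simple group, M a maximal subgroup of S and C a cyclic normal subgroup of M. If a Sylow p-subgroup P of S (for a prime p dividing the order of S) is contained in C, then the number of Sylow p-subgroups of S equals the index of M. -/
theorem result {S : Type*} [Group S] [Finite S]
    [IsSimpleGroup S] (hS : ¬ IsMulCommutative S) (p : ℕ) [Fact p.Prime] (hp : p ∣ Nat.card S)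
    (M : Subgroup S) (hM : IsCoatom M) (C : Subgroup S) (hCM : C ≤ M) (hCn : (C.subgroupOf M).Normal)
    (hC : IsCyclic C) (P : Sylow p S) (hP : (P : Subgroup S) ≤ C) :
    Nat.card (Sylow p S) = M.index := by
  set N := Subgroup.normalizer ((P : Subgroup S) : Set S)
  have hMN : M ≤ N := by
    intro m hm
    refine Subgroup.mem_normalizer_iff_map_conj_eq.2 ?_
    refine Subgroup.eq_of_le_of_card_ge ?_ ?_
    · rintro _ ⟨x, hx, rfl⟩
      have hxC : x ∈ C := hP hx
      have hy : m * x * m⁻¹ ∈ C := by
        have := hCn.conj_mem ⟨x, hCM hxC⟩ hxC ⟨m, hm⟩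
        exact this
      refine mem_sylow_of_normalizer P ?_ ?_
      · refine Subgroup.mem_normalizer_iff_map_conj_eq.2 ?_
        haveI := hC
        have hc : ∀ z ∈ (P : Subgroup S), (m * x * m⁻¹) * z = z * (m * x * m⁻¹) := by
          intro z hz
          let _ := hC.commGroup
          exact congrArg Subtype.val (mul_comm (⟨_, hy⟩ : C) ⟨z, hP hz⟩)
        ext z
        simp only [Subgroup.mem_map]
        constructor
        · rintro ⟨z', hz', rfl⟩
          simp only [MonoidHom.coe_coe, MulAut.conj_apply, hc z' hz', mul_inv_cancel_right]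
          exact hz'
        · intro hz
          refine ⟨z, hz, ?_⟩
          simp only [MonoidHom.coe_coe, MulAut.conj_apply, hc z hz, mul_inv_cancel_right]
      · obtain ⟨k, hk⟩ := IsPGroup.iff_orderOf.1 P.isPGroup' ⟨x, hx⟩
        refine ⟨k, ?_⟩
        rw [← Subgroup.orderOf_coe] at hk
        rw [← hk]
        exact orderOf_injective (MulAut.conj m).toMonoidHom (MulAut.conj m).injective x
    · exact (Nat.card_congr (Subgroup.equivMapOfInjective _ _ (MulAut.conj m).injective).toEquiv).le
  have hne : N ≠ ⊤ := by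
    intro hN
    have hn : (P : Subgroup S).Normal := Subgroup.normalizer_eq_top_iff.1 hN
    rcases hn.eq_bot_or_eq_top with h | h
    · exact P.ne_bot_of_dvd_card hp h
    · refine hS ⟨⟨fun a b => ?_⟩⟩
      have hCt : C = ⊤ := top_le_iff.1 (h ▸ hP)
      let _ := hC.commGroup
      exact congrArg Subtype.val (mul_comm (⟨a, hCt ▸ Subgroup.mem_top a⟩ : C) ⟨b, hCt ▸ Subgroup.mem_top b⟩)
  rw [P.card_eq_index_normalizer]
  congr 1
  exact ((hM.le_iff.1 hMN).resolve_left hne)

end Cfsg.Agent.S4344
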