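import Cfsg.Statements.S4345

import Cfsg.Agent.Lib.Struct4.SylowParts
set_option autoImplicit false
open Cfsg
open scoped commutatorElement

namespace Cfsg.Agent.S4345

open Cfsg.Agent.Lib.Struct4

/-- Let G be a finite solvable group and p, ℓ primes. Then the largest power of ℓ dividing the number of Sylow p-subgroups of G is congruent to 1 modulo p. -/
theorem result {G : Type*} [Group G] [Finite G]
    (hG : Group.IsSolvable G) (p ℓ : ℕ) [Fact p.Prime] (hℓ : ℓ.Prime) :
    ℓ ^ (Nat.card (Sylow p G)).factorization ℓ ≡ 1 [MOD p] := by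
  have key := card_sylow_induction p (fun H _ _ => Group.IsSolvable H)
    (fun H _ _ hH K => haveI := hH; inferInstance) (fun H _ _ hH K _ => haveI := hH; inferInstance)
    (fun n => n ≠ 0 ∧ ∀ q : ℕ, q.Prime → q ^ n.factorization q ≡ 1 [MOD p])
    (fun a b ha hb => ⟨mul_ne_zero ha.1 hb.1, fun q hq => by
      rw [Nat.factorization_mul ha.1 hb.1, Finsupp.add_apply, pow_add]
      simpa using (ha.2 q hq).mul (hb.2 q hq)⟩)
    (fun n hn h => ⟨hn, h⟩)
    (fun H _ _ hH hs => by
      haveI := hH
      haveI := hs
      have hc : ∀ a b : H, a * b = b * a := by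
        intro a b
        have hb : commutator H = ⊥ :=
          (Subgroup.Normal.eq_bot_or_eq_top inferInstance).resolve_right
            (IsSolvable.commutator_lt_top_of_nontrivial H).ne
        have : ⁅a, b⁆ = (1 : H) := Subgroup.mem_bot.1 (hb ▸ Subgroup.commutator_mem_commutator (Subgroup.mem_top a) (Subgroup.mem_top b))
        exact commutatorElement_eq_one_iff_mul_comm.1 this
      have : Subsingleton (Sylow p H) := by
        have P : Sylow p H := default
        have hn : (P : Subgroup H).Normal := ⟨fun x hx g => by rw [hc g x, mul_assoc, mul_inv_cancel, mul_one]; exact hx⟩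
        have := Sylow.unique_of_normal P hn
        infer_instance
      rw [Nat.card_of_subsingleton (default : Sylow p H)]
      exact ⟨one_ne_zero, fun q hq => by simp [Nat.ModEq.refl]⟩)
    G hG
  exact key.2 ℓ hℓ

end Cfsg.Agent.S4345
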