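import Cfsg.Statements.S4346

import Cfsg.Agent.Lib.Struct4.SylowParts
import Cfsg.Agent.Lib.Struct4.TransferCriteria
import Cfsg.Agent.Lib.Struct4.SylowTwentyTwo
import Cfsg.Agent.Lib.Char.SelfCentPrime
set_option autoImplicit false
open Cfsg

namespace Cfsg.Agent.S4346


open Cfsg.Agent.Lib.Struct4 Cfsg.Agent.Struct4.TwentyTwo
open scoped commutatorElement

theorem smooth_gap : ∀ (a : Fin 20) (b : Fin 10) (c : Fin 4), let i := a.val; let j := b.val; let k := c.val
    ((2 ^ i * 3 ^ j * 7 ^ k) % 11 = 2 → 2 ^ i * 3 ^ j * 7 ^ k ≠ 2 →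
      (2 ^ 19 * 3 ^ 9 * 7 ^ 3) % (2 ^ i * 3 ^ j * 7 ^ k - 1) ≠ 0) ∧
    ((2 ^ i * 3 ^ j * 7 ^ k) % 11 = 9 →
      (2 ^ 19 * 3 ^ 9 * 7 ^ 3) % (2 ^ i * 3 ^ j * 7 ^ k + 1) ≠ 0) := by
  decide +kernel

theorem no_degrees {d θ : ℕ} (hd : d ∣ 2 ^ 19 * 3 ^ 9 * 7 ^ 3) (hθ : θ ∣ 2 ^ 19 * 3 ^ 9 * 7 ^ 3)
    (h1 : 1 < θ) (h : (d % 11 = 2 ∧ θ + 1 = d) ∨ (d % 11 = 9 ∧ θ = d + 1)) : False := by
  obtain ⟨u, v, hu, hv, rfl⟩ := exists_dvd_and_dvd_of_dvd_mul hd
  obtain ⟨u1, u2, hu1, hu2, rfl⟩ := exists_dvd_and_dvd_of_dvd_mul hu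
  obtain ⟨i, hi, rfl⟩ := (Nat.dvd_prime_pow Nat.prime_two).1 hu1
  obtain ⟨j, hj, rfl⟩ := (Nat.dvd_prime_pow Nat.prime_three).1 hu2
  obtain ⟨k, hk, rfl⟩ := (Nat.dvd_prime_pow (by norm_num : Nat.Prime 7)).1 hv
  obtain ⟨ha, hb⟩ : ((2 ^ i * 3 ^ j * 7 ^ k) % 11 = 2 → 2 ^ i * 3 ^ j * 7 ^ k ≠ 2 →
      (2 ^ 19 * 3 ^ 9 * 7 ^ 3) % (2 ^ i * 3 ^ j * 7 ^ k - 1) ≠ 0) ∧
      ((2 ^ i * 3 ^ j * 7 ^ k) % 11 = 9 → (2 ^ 19 * 3 ^ 9 * 7 ^ 3) % (2 ^ i * 3 ^ j * 7 ^ k + 1) ≠ 0) :=
    smooth_gap ⟨i, by omega⟩ ⟨j, by omega⟩ ⟨k, by omega⟩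
  rcases h with ⟨hm, he⟩ | ⟨hm, he⟩
  · exact ha hm (by omega) (Nat.mod_eq_zero_of_dvd ((show 2 ^ i * 3 ^ j * 7 ^ k - 1 = θ by omega) ▸ hθ))
  · exact hb hm (Nat.mod_eq_zero_of_dvd (he ▸ hθ))

theorem simple_ne_twentytwo {G : Type*} [Group G] [Finite G] [Fact (Nat.Prime 3)] [IsSimpleGroup G] :
    Nat.card (Sylow 3 G) ≠ 22 := by
  classical
  intro hn
  cases nonempty_fintype (Sylow 3 G)
  cases nonempty_fintype G
  haveI : Fact (Nat.Prime 11) := ⟨by norm_num⟩
  obtain ⟨R₀⟩ : Nonempty (Sylow 3 G) := inferInstance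
  set f := MulAction.toPermHom G (Sylow 3 G) with hf
  have hfinj : Function.Injective f := by
    rw [← MonoidHom.ker_eq_bot_iff]
    refine (Subgroup.Normal.eq_bot_or_eq_top inferInstance).resolve_right fun h => ?_
    have hs : Subsingleton (Sylow 3 G) := by
      refine ⟨fun A B => ?_⟩
      obtain ⟨g, rfl⟩ := MulAction.exists_smul_eq G A B
      have : f g = 1 := (MonoidHom.mem_ker).1 (h ▸ Subgroup.mem_top g)
      exact (congrArg (fun s : Equiv.Perm (Sylow 3 G) => s A) this).symm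
    rw [Nat.card_of_subsingleton R₀] at hn
    omega
  have hinj : ∀ g : G, (∀ R : Sylow 3 G, g • R = R) → g = 1 := fun g hg =>
    hfinj ((Equiv.ext hg : f g = 1).trans (map_one f).symm)
  have hnc : ¬ ∀ a b : G, a * b = b * a := by
    intro hc
    have hN : (R₀ : Subgroup G).Normal :=
      ⟨fun x hx g => by rw [hc g x, mul_assoc, mul_inv_cancel, mul_one]; exact hx⟩
    have := Sylow.unique_of_normal R₀ hN
    rw [Nat.card_unique] at hn
    omega
  have hsign : ∀ g : G, Equiv.Perm.sign (f g) = 1 := by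
    intro g
    rcases (inferInstance : (Equiv.Perm.sign.comp f).ker.Normal).eq_bot_or_eq_top with h | h
    · exfalso
      refine hnc fun a b => ?_
      apply (MonoidHom.ker_eq_bot_iff _).1 h
      rw [map_mul, map_mul, mul_comm]
    · have hg : g ∈ (Equiv.Perm.sign.comp f).ker := h ▸ Subgroup.mem_top g
      exact hg
  have hperf : commutator G = ⊤ := by
    refine ((inferInstance : (commutator G).Normal).eq_bot_or_eq_top).resolve_left fun h => hnc fun a b => ?_
    have hm : ⁅a, b⁆ ∈ commutator G :=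
      Subgroup.commutator_mem_commutator (Subgroup.mem_top a) (Subgroup.mem_top b)
    rw [h, Subgroup.mem_bot] at hm
    exact commutatorElement_eq_one_iff_mul_comm.1 hm
  have h22 : 22 ∣ Nat.card G := by
    rw [← hn, R₀.card_eq_index_normalizer]
    exact Subgroup.index_dvd_card _
  have h11 : 11 ∣ Nat.card G := (show 11 ∣ 22 by norm_num).trans h22
  have hfact : Nat.card G ∣ Nat.factorial 22 := by
    have h1 := Subgroup.card_dvd_of_injective f hfinj
    rwa [Nat.card_perm, hn] at h1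
  have hfree : ∀ g : G, orderOf g = 11 → ∀ R : Sylow 3 G, g • R ≠ R := by
    intro g hg R hR
    obtain ⟨a1, a2, a3⟩ := card_moved hn hinj (by norm_num) hg hR
    have := Nat.le_of_dvd a2 a1
    omega
  obtain ⟨P⟩ : Nonempty (Sylow 11 G) := inferInstance
  have hPcard : Nat.card (P : Subgroup G) = 11 := by
    obtain ⟨k, hk⟩ := IsPGroup.iff_card.1 P.isPGroup'
    have hd := P.dvd_card_of_dvd_card h11
    rw [hk] at hd ⊢
    have hle : Nat.card (P : Subgroup G) ≤ 22 := by
      rw [← hn]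
      refine Nat.card_le_card_of_injective (fun g : (P : Subgroup G) => (g : G) • R₀) fun a b hab => ?_
      by_contra hne
      have hfix : ((a⁻¹ * b : (P : Subgroup G)) : G) • R₀ = R₀ := by
        show ((a : G)⁻¹ * (b : G)) • R₀ = R₀
        rw [mul_smul, inv_smul_eq_iff]
        exact hab.symm
      set c := a⁻¹ * b with hcdef
      have hc1 : c ≠ 1 := fun h => hne (inv_mul_eq_one.1 h)
      obtain ⟨l, hl⟩ := IsPGroup.iff_orderOf.1 P.isPGroup' c
      rcases l with _ | l
      · exact hc1 (orderOf_eq_one_iff.1 (by simpa using hl))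
      have ho : orderOf ((c : G) ^ (11 ^ l)) = 11 := by
        rw [orderOf_pow_of_dvd (pow_ne_zero _ (by norm_num)) (by rw [Subgroup.orderOf_coe, hl, pow_succ]; exact dvd_mul_right _ _),
          Subgroup.orderOf_coe, hl, pow_succ, Nat.mul_div_cancel_left _ (pow_pos (by norm_num) _)]
      refine hfree _ ho R₀ ?_
      exact (MulAction.stabilizer G R₀).pow_mem hfix _
    rw [hk] at hle
    rcases k with _ | _ | k
    · simp at hd
    · exact pow_one 11
    · have := Nat.pow_le_pow_right (show 1 ≤ 11 by norm_num) (show 2 ≤ k + 1 + 1 by omega)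
      omega
  obtain ⟨⟨x, hxP⟩, hx⟩ := exists_prime_orderOf_dvd_card' 11 (show 11 ∣ Nat.card (P : Subgroup G) by rw [hPcard])
  rw [Subgroup.orderOf_mk] at hx
  have hxall : ∀ R : Sylow 3 G, x • R ≠ R := hfree x hx
  have h5 := not_five_dvd hn hinj
  have hpr : ∀ q : ℕ, q.Prime → q ∣ Nat.card G → q = 2 ∨ q = 3 ∨ q = 7 ∨ q = 11 := by
    intro q hq hd
    rcases prime_cases hn hinj hq hd with h | h | h | h | h
    · exact Or.inl h
    · exact Or.inr (Or.inl h)
    · exact absurd (h ▸ hd) h5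
    · exact Or.inr (Or.inr (Or.inl h))
    · exact Or.inr (Or.inr (Or.inr h))
  set C := Subgroup.centralizer ((P : Subgroup G) : Set G) with hC
  have hCpg : IsPGroup 11 C := by
    refine IsPGroup.of_card (n := (Nat.card C).primeFactorsList.length) ?_
    refine Nat.eq_prime_pow_of_unique_prime_dvd Nat.card_pos.ne' ?_
    intro r hr hrd
    by_contra hr11
    haveI := Fact.mk hr
    obtain ⟨⟨z, hzC⟩, hz⟩ := exists_prime_orderOf_dvd_card' r hrd
    rw [Subgroup.orderOf_mk] at hz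
    have hzx : Commute x z := Subgroup.mem_centralizer_iff.1 hzC x hxP
    have hz1 : z ≠ 1 := fun h => hr.ne_one (by rw [← hz, h, orderOf_one])
    have hF : 11 ∣ Nat.card {R : Sylow 3 G // z • R = R} := by
      refine dvd_card_of_no_fixed (Subgroup.zpowers x) (zpowers_isPGroup hx) _ ?_
        fun R _ => ⟨x, Subgroup.mem_zpowers x, hxall R⟩
      intro a ha R hR
      obtain ⟨m, rfl⟩ := Subgroup.mem_zpowers_iff.1 ha
      rw [← mul_smul, ← (hzx.zpow_left m).eq, mul_smul, hR]
    have hM : r ∣ Nat.card {R : Sylow 3 G // z • R ≠ R} := by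
      refine dvd_card_of_no_fixed (Subgroup.zpowers z) (zpowers_isPGroup hz) _ ?_
        fun R hR => ⟨z, Subgroup.mem_zpowers z, hR⟩
      intro a ha R hR h
      obtain ⟨m, rfl⟩ := Subgroup.mem_zpowers_iff.1 ha
      refine hR ?_
      apply MulAction.injective (z ^ m)
      show z ^ m • z • R = z ^ m • R
      rw [← mul_smul, ← (Commute.self_zpow z m).eq, mul_smul, h]
    have hadd := card_fixed_add hn z
    obtain ⟨c, hc⟩ := hF
    have hc2 : c ≤ 2 := by omega
    interval_cases c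
    · -- no fixed point at all
      have hM22 : r ∣ 22 := by
        rwa [show Nat.card {R : Sylow 3 G // z • R ≠ R} = 22 by omega] at hM
      have hr2 : r = 2 := by
        rcases (Nat.Prime.dvd_mul hr).1 (show r ∣ 2 * 11 from hM22) with h | h
        · exact (Nat.prime_dvd_prime_iff_eq hr Nat.prime_two).1 h
        · exact absurd ((Nat.prime_dvd_prime_iff_eq hr Fact.out).1 h) hr11
      subst hr2
      set σ := f z with hσdef
      have hσ : orderOf σ = 2 := by rw [← hz]; exact orderOf_injective f hfinj z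
      have hsupp : σ.support.card = 22 := by
        rw [← hn, Nat.card_eq_fintype_card, ← Finset.card_univ]
        congr 1
        refine Finset.eq_univ_iff_forall.2 fun R => Equiv.Perm.mem_support.2 fun h => ?_
        have hpos : 0 < Nat.card {R : Sylow 3 G // z • R = R} :=
          Nat.card_pos_iff.2 ⟨⟨⟨R, h⟩⟩, inferInstance⟩
        omega
      obtain ⟨n, hct⟩ := Equiv.Perm.cycleType_prime_order (hσ.symm ▸ Nat.prime_two)
      rw [hσ] at hct
      have hsum := σ.sum_cycleType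
      rw [hct, Multiset.sum_replicate, smul_eq_mul, hsupp] at hsum
      have := hsign z
      rw [← hσdef, Equiv.Perm.sign_of_cycleType, hct, show n = 10 by omega] at this
      simp at this
      exact absurd this (by decide)
    · have h1 : r ∣ 11 := by
        rwa [show Nat.card {R : Sylow 3 G // z • R ≠ R} = 11 by omega] at hM
      exact hr11 ((Nat.prime_dvd_prime_iff_eq hr Fact.out).1 h1)
    · refine hz1 (hinj z fun R => by_contra fun hR => ?_)
      have : 0 < Nat.card {R : Sylow 3 G // z • R ≠ R} := Nat.card_pos_iff.2 ⟨⟨⟨R, hR⟩⟩, inferInstance⟩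
      omega
  have hCP : C ≤ (P : Subgroup G) := by
    have hle : C ⊔ (P : Subgroup G) = (P : Subgroup G) :=
      P.is_maximal' (hCpg.to_sup_of_normal_right' P.isPGroup' (Subgroup.centralizer_le_normalizer _)) le_sup_right
    exact sup_eq_right.1 hle
  set N := Subgroup.normalizer ((P : Subgroup G) : Set G) with hN
  haveI hcyc : IsCyclic (P : Subgroup G) := isCyclic_of_prime_card hPcard
  have hrel : C.relIndex N ∣ 10 := by
    have key := Subgroup.card_dvd_of_injective _ (QuotientGroup.kerLift_injective (P : Subgroup G).normalizerMonoidHom)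
    rw [Subgroup.normalizerMonoidHom_ker, ← Subgroup.index, ← Subgroup.relIndex, hcyc.card_mulAut, hPcard,
      Nat.totient_prime (Fact.out : Nat.Prime 11)] at key
    exact key
  have hPC : (P : Subgroup G) ≤ C := fun a ha => Subgroup.mem_centralizer_iff.2 fun b hb => by
    obtain ⟨g, hg⟩ := hcyc.exists_generator
    obtain ⟨i, hi⟩ := Subgroup.mem_zpowers_iff.1 (hg ⟨a, ha⟩)
    obtain ⟨j, hj⟩ := Subgroup.mem_zpowers_iff.1 (hg ⟨b, hb⟩)
    have := congrArg (fun t : (P : Subgroup G) => (t : G))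
      (show (⟨b, hb⟩ : (P : Subgroup G)) * ⟨a, ha⟩ = ⟨a, ha⟩ * ⟨b, hb⟩ by
        rw [← hi, ← hj, ← zpow_add, ← zpow_add, add_comm])
    simpa using this
  have hCeq : C = (P : Subgroup G) := le_antisymm hCP hPC
  have hNcard : Nat.card N = 11 * C.relIndex N := by
    rw [← hPcard, ← hCeq, Subgroup.relIndex, Subgroup.index,
      ← Nat.card_congr (Subgroup.subgroupOfEquivOfLe (Subgroup.centralizer_le_normalizer _)).toEquiv]
    exact Subgroup.card_eq_card_quotient_mul_card_subgroup _ |>.trans (mul_comm _ _)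
  have hrel5 : ¬ 5 ∣ C.relIndex N := fun h =>
    h5 ((h.trans ⟨11, by rw [hNcard, mul_comm]⟩).trans (Subgroup.card_subgroup_dvd_card N))
  have he : C.relIndex N = 1 ∨ C.relIndex N = 2 := by
    have hle := Nat.le_of_dvd (by norm_num) hrel
    interval_cases (C.relIndex N) <;> simp_all
  rcases he with he | he
  · refine not_simple_of_normalizer_le_centralizer P ?_ ?_ ?_ inferInstance
    · intro h
      rw [h, Subgroup.card_bot] at hPcard
      norm_num at hPcard
    · intro h
      rw [h, Subgroup.card_top] at hPcard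
      rw [hPcard] at h22
      norm_num at h22
    · exact Subgroup.relIndex_eq_one.1 he
  obtain ⟨d, ε, s, a, hε, hdG, hd0, hd11, hsum, hchar, hdeg, -⟩ :=
    Lib.Char.exists_degrees (P := (P : Subgroup G)) (Fact.out : Nat.Prime 11) hPcard hCP hperf 2 5
      (by rw [hNcard, he]) (by norm_num) (by norm_num)
  have hs1 : s.card = 1 := by
    have h1 : ∀ χ ∈ s, (1 : ℤ) ≤ a χ * a χ := fun χ hχ => by
      have := (hchar χ hχ).1
      rcases lt_or_gt_of_ne this with h | h <;> nlinarith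
    have h2 := Finset.sum_le_sum h1
    rw [hsum] at h2
    simp at h2
    rcases Nat.eq_zero_or_pos s.card with h0 | h0
    · rw [Finset.card_eq_zero] at h0
      rw [h0] at hsum
      simp at hsum
    · omega
  obtain ⟨χ, rfl⟩ := Finset.card_eq_one.1 hs1
  rw [Finset.sum_singleton] at hsum hdeg
  obtain ⟨-, hθG, hθ1, hθ11⟩ := hchar χ (Finset.mem_singleton_self χ)
  generalize charDegree (χ : G → ℂ) = θ at *
  have hsmooth : ∀ t : ℕ, t ∣ Nat.card G → ¬ 11 ∣ t → t ∣ 2 ^ 19 * 3 ^ 9 * 7 ^ 3 := by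
    intro t ht ht11
    refine (Nat.Coprime.dvd_of_dvd_mul_right ?_ (n := 5 ^ 4 * 11 ^ 2 * 13 * 17 * 19)) ((ht.trans hfact).trans (by norm_num [Nat.factorial]))
    refine Nat.coprime_of_dvd fun q hq hqt hqR => ?_
    rcases hpr q hq (hqt.trans ht) with rfl | rfl | rfl | rfl
    · norm_num at hqR
    · norm_num at hqR
    · norm_num at hqR
    · exact ht11 hqt
  have hea : a χ = 1 ∨ a χ = -1 := Int.eq_one_or_neg_one_of_mul_eq_one (show a χ * a χ = 1 by rw [hsum]; norm_num)
  have hd' : ¬ 11 ∣ d := by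
    intro h
    rcases hε with rfl | rfl <;> omega
  have hθ' : ¬ 11 ∣ θ := by
    intro h
    rcases hea with h' | h' <;> rw [h'] at hθ11 <;> omega
  refine no_degrees (hsmooth d hdG hd') (hsmooth θ hθG hθ') hθ1 ?_
  rcases hε with rfl | rfl <;> rcases hea with h' | h' <;> rw [h'] at hdeg hθ11 <;> omega


/-- No finite group has exactly 22 Sylow 3-subgroups. -/
theorem result {G : Type*} [Group G] [Finite G] : Nat.card (Sylow 3 G) ≠ 22 := by
  haveI : Fact (Nat.Prime 3) := ⟨by norm_num⟩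
  refine (card_sylow_induction 3 (fun _ _ _ => True) (fun _ _ _ _ _ => trivial) (fun _ _ _ _ _ _ => trivial)
    (fun n => n % 3 = 1 ∧ n ≠ 22) ?_ ?_ ?_ G trivial).2
  · rintro a b ⟨ha, ha'⟩ ⟨hb, hb'⟩
    refine ⟨by rw [Nat.mul_mod, ha, hb], fun h => ?_⟩
    have hle : a ≤ 22 := Nat.le_of_dvd (by norm_num) (h ▸ dvd_mul_right a b)
    interval_cases a <;> omega
  · intro n hn h
    refine ⟨?_, ?_⟩
    · have h1 : ∏ q ∈ n.primeFactors, q ^ n.factorization q ≡ ∏ q ∈ n.primeFactors, 1 [MOD 3] :=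
        Nat.ModEq.prod fun q hq => h q (Nat.prime_of_mem_primeFactors hq)
      rw [Finset.prod_const_one] at h1
      have h2 : ∏ q ∈ n.primeFactors, q ^ n.factorization q = n := Nat.prod_factorization_pow_eq_self hn
      rwa [h2] at h1
    · rintro rfl
      have := h 2 Nat.prime_two
      rw [show (22 : ℕ).factorization 2 = 1 by
        rw [show 22 = 2 * 11 from rfl, Nat.factorization_mul (by norm_num) (by norm_num), Finsupp.add_apply,
          Nat.Prime.factorization_self Nat.prime_two,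
          Nat.factorization_eq_zero_of_not_dvd (by norm_num : ¬ 2 ∣ 11)]] at this
      exact absurd this (by decide)
  · intro H _ _ _ hs
    exact ⟨card_sylow_modEq_one 3 H, simple_ne_twentytwo⟩

end Cfsg.Agent.S4346
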