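import Cfsg.Statements.S4354

import Cfsg.Agent.Lib.Struct4.Basic
set_option autoImplicit false
open Cfsg

namespace Cfsg.Agent.S4354

open Cfsg.Agent.Lib.Struct4

/-- Let G be a finite group and p a prime such that the Sylow p-subgroups of G are non-abelian while every element of p-power order has conjugacy class size prime to p, and suppose no nontrivial proper normal subgroup N of G has this property and no quotient G/N by such an N has it. Then G is simple. -/
theorem result {G : Type*} [Group G] [Finite G]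
    (p : ℕ) [Fact p.Prime] (h : ((∃ P : Sylow p G, ¬ IsMulCommutative P) ∧ ∀ x : G, (∃ k : ℕ, orderOf x = p ^ k) → ¬ p ∣ (Subgroup.centralizer ({x} : Set G)).index))
    (hmin : ∀ (N : Subgroup G) [N.Normal], N ≠ ⊥ → N ≠ ⊤ →
      ¬ ((∃ P : Sylow p N, ¬ IsMulCommutative P) ∧ ∀ x : N, (∃ k : ℕ, orderOf x = p ^ k) → ¬ p ∣ (Subgroup.centralizer ({x} : Set N)).index) ∧
      ¬ ((∃ P : Sylow p (G ⧸ N), ¬ IsMulCommutative P) ∧ ∀ x : (G ⧸ N), (∃ k : ℕ, orderOf x = p ^ k) → ¬ p ∣ (Subgroup.centralizer ({x} : Set (G ⧸ N))).index)) :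
    IsSimpleGroup G := by
  obtain ⟨⟨P, hP⟩, hclass⟩ := h
  haveI : Nontrivial G := by
    by_contra hc
    haveI := not_nontrivial_iff_subsingleton.1 hc
    exact hP ⟨⟨fun a b => Subsingleton.elim _ _⟩⟩
  by_contra hs
  obtain ⟨N, hN, hb, ht⟩ : ∃ N : Subgroup G, N.Normal ∧ N ≠ ⊥ ∧ N ≠ ⊤ := by
    by_contra hc
    push Not at hc
    exact hs ⟨fun N hN => or_iff_not_imp_left.2 (hc N hN)⟩
  haveI := hN
  obtain ⟨hminN, hminQ⟩ := hmin N hb ht
  have hNab : ∀ T : Sylow p N, IsMulCommutative T := by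
    intro T
    by_contra hT
    refine hminN ⟨⟨T, hT⟩, ?_⟩
    rintro x ⟨k, hk⟩ hd
    refine hclass (x : G) ⟨k, by rw [Subgroup.orderOf_coe]; exact hk⟩ (hd.trans ?_)
    have e : Subgroup.centralizer ({x} : Set N) = (Subgroup.centralizer ({(x : G)} : Set G)).subgroupOf N := by
      ext y
      rw [Subgroup.mem_subgroupOf, Subgroup.mem_centralizer_iff, Subgroup.mem_centralizer_iff]
      constructor
      · rintro hy _ rfl
        exact congrArg Subtype.val (hy x rfl)
      · rintro hy _ rfl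
        exact Subtype.ext (hy _ rfl)
    rw [e]
    exact relIndex_dvd_index_of_normal_right _ N
  set f := QuotientGroup.mk' N
  have hf : Function.Surjective f := QuotientGroup.mk'_surjective N
  have hQab : ∀ T : Sylow p (G ⧸ N), IsMulCommutative T := by
    intro T
    by_contra hT
    refine hminQ ⟨⟨T, hT⟩, ?_⟩
    rintro x ⟨k, hk⟩ hd
    obtain ⟨y, hy⟩ := hf x
    obtain ⟨a, b, hb', hab⟩ := Nat.exists_eq_pow_mul_and_not_dvd (orderOf_pos y).ne' p (Fact.out : p.Prime).one_lt.ne'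
    have hcop : Nat.Coprime b (orderOf x) :=
      hk ▸ Nat.Coprime.pow_right k (((Fact.out : p.Prime).coprime_iff_not_dvd.2 hb').symm)
    obtain ⟨u, hu⟩ := exists_pow_eq_self_of_coprime hcop
    have hy' : f ((y ^ b) ^ u) = x := by rw [map_pow, map_pow, hy, hu]
    have hord : ∃ j, orderOf ((y ^ b) ^ u) = p ^ j := by
      obtain ⟨j, -, hj⟩ := (Nat.dvd_prime_pow (Fact.out : p.Prime)).1
        (show orderOf ((y ^ b) ^ u) ∣ p ^ a from orderOf_dvd_of_pow_eq_one (by
          rw [← pow_mul, ← pow_mul, show b * (u * p ^ a) = orderOf y * u by rw [hab]; ring,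
            pow_mul, pow_orderOf_eq_one, one_pow]))
      exact ⟨j, hj⟩
    refine hclass _ hord (hd.trans ?_)
    refine dvd_trans (Subgroup.index_dvd_of_le ?_) (Subgroup.index_map_dvd _ hf)
    rintro _ ⟨c, hc, rfl⟩
    rw [Subgroup.mem_centralizer_iff]
    rintro z hz
    rw [Set.mem_singleton_iff] at hz
    rw [hz, ← hy', ← map_mul, ← map_mul, Subgroup.mem_centralizer_iff.1 hc _ rfl]
  set Z := Subgroup.centralizer ((P : Subgroup G) : Set G) ⊓ (P : Subgroup G)
  have key : (P : Subgroup G) ≤ Z ⊔ N := by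
    intro a ha
    obtain ⟨k, hk⟩ := IsPGroup.iff_orderOf.1 P.isPGroup' ⟨a, ha⟩
    rw [Subgroup.orderOf_mk] at hk
    set C := Subgroup.centralizer ({a} : Set G)
    obtain ⟨R⟩ : Nonempty (Sylow p C) := inferInstance
    have hR : ¬ p ∣ ((R : Subgroup C).map C.subtype).index := by
      rw [Subgroup.index_map_subtype]
      exact (Fact.out : p.Prime).not_dvd_mul R.not_dvd_index (hclass a ⟨k, hk⟩)
    obtain ⟨g, hg⟩ := MulAction.exists_smul_eq G ((R.isPGroup'.map C.subtype).toSylow hR) P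
    have hcC : g * a * g⁻¹ ∈ Subgroup.centralizer ((P : Subgroup G) : Set G) := by
      rw [Subgroup.mem_centralizer_iff]
      intro z hz
      have hz' : z ∈ ((g • ((R.isPGroup'.map C.subtype).toSylow hR) : Sylow p G) : Subgroup G) := by
        rw [hg]; exact hz
      rw [mem_normal_smul_sylow] at hz'
      obtain ⟨r, -, hr⟩ := (hz' : g⁻¹ * z * g ∈ (R : Subgroup C).map C.subtype)
      have hra : a * (r : G) = r * a := Subgroup.mem_centralizer_iff.1 r.2 a rfl
      have e : (r : G) = g⁻¹ * z * g := hr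
      rw [e] at hra
      calc z * (g * a * g⁻¹) = g * ((g⁻¹ * z * g) * a) * g⁻¹ := by group
        _ = g * (a * (g⁻¹ * z * g)) * g⁻¹ := by rw [hra]
        _ = g * a * g⁻¹ * z := by group
    have hcP : g * a * g⁻¹ ∈ (P : Subgroup G) := by
      refine mem_sylow_of_normalizer P (Subgroup.centralizer_le_normalizer _ hcC) ⟨k, ?_⟩
      rw [← hk]
      exact orderOf_injective (MulAut.conj g).toMonoidHom (MulAut.conj g).injective a
    set Pb := P.mapSurjective hf
    haveI := hQab Pb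
    have hmem : ∀ y ∈ (P : Subgroup G), f y ∈ (Pb : Subgroup (G ⧸ N)) := fun y hy => ⟨y, hy, rfl⟩
    obtain ⟨nb, hnb, hnbe⟩ := Pb.conj_eq_normalizer_conj_of_mem (f a) (f g)⁻¹ (hmem a ha)
      (by rw [inv_inv, ← map_inv, ← map_mul, ← map_mul]; exact hmem _ hcP)
    rw [inv_inv] at hnbe
    obtain ⟨n, rfl⟩ := hf nb
    set U := (P : Subgroup G) ⊔ N
    have hnU : ((n • P : Sylow p G) : Subgroup G) ≤ U := by
      intro z hz
      rw [mem_normal_smul_sylow] at hz
      have h1 : f (n⁻¹ * z * n) ∈ (Pb : Subgroup (G ⧸ N)) := hmem _ hz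
      have h2 := (Subgroup.mem_normalizer_iff.1 hnb _).1 h1
      rw [← map_inv, ← map_mul, ← map_mul] at h2
      obtain ⟨w, hw, hwe⟩ := h2
      have h3 : w⁻¹ * z ∈ N := by
        have h4 : w⁻¹ * (n * (n⁻¹ * z * n) * n⁻¹) ∈ N := QuotientGroup.eq.1 hwe
        simpa [mul_assoc] using h4
      have h5 := mul_mem (Subgroup.mem_sup_left (T := N) hw) (Subgroup.mem_sup_right (S := (P : Subgroup G)) h3)
      simpa using h5
    obtain ⟨u, hu⟩ := MulAction.exists_smul_eq U (P.subtype le_sup_left) ((n • P).subtype hnU)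
    rw [Sylow.smul_subtype] at hu
    have hn' : (u : G)⁻¹ * n ∈ Subgroup.normalizer ((P : Subgroup G) : Set G) := by
      refine Sylow.smul_eq_iff_mem_normalizer.1 ?_
      rw [mul_smul, ← (Sylow.subtype_injective hu : (u : G) • P = n • P), inv_smul_smul]
    obtain ⟨v, hv, w, hw, hvw⟩ := Subgroup.mem_sup_of_normal_right.1 u.2
    have hfw : f w = 1 := (QuotientGroup.eq_one_iff w).2 hw
    set m := (u : G)⁻¹ * n
    have hn_eq : f n = f v * f m := by
      calc f n = f ((u : G) * m) := by simp [m]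
        _ = f v * f m := by rw [← hvw, map_mul, map_mul, hfw, mul_one]
    set c' := m⁻¹ * a * m
    have hc'P : c' ∈ (P : Subgroup G) := by
      have := (Subgroup.mem_normalizer_iff.1 (inv_mem hn') a).1 ha
      simpa [c'] using this
    have hcomm : Commute (f v) (f a) :=
      congrArg Subtype.val (IsMulCommutative.is_comm.comm (⟨f v, hmem v hv⟩ : (Pb : Subgroup (G ⧸ N))) ⟨f a, hmem a ha⟩)
    have he : f (g * a * g⁻¹) = f c' := by
      rw [map_mul, map_mul, map_inv, hnbe, hn_eq, map_mul, map_mul, map_inv, mul_inv_rev]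
      calc (f m)⁻¹ * (f v)⁻¹ * f a * (f v * f m) = (f m)⁻¹ * ((f v)⁻¹ * (f a * f v)) * f m := by group
        _ = _ := by rw [← hcomm.eq, inv_mul_cancel_left]; simp only [m, map_mul, map_inv]
    set z0 := m * (g * a * g⁻¹) * m⁻¹
    have hz0 : z0 ∈ Z := by
      refine ⟨?_, (Subgroup.mem_normalizer_iff.1 hn' _).1 hcP⟩
      show z0 ∈ Subgroup.centralizer ((P : Subgroup G) : Set G)
      rw [Subgroup.mem_centralizer_iff]
      intro z hz
      have hz' : m⁻¹ * z * m ∈ (P : Subgroup G) := by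
        have := (Subgroup.mem_normalizer_iff.1 (inv_mem hn') z).1 hz
        simpa using this
      have h1 := Subgroup.mem_centralizer_iff.1 hcC _ hz'
      calc z * z0 = m * ((m⁻¹ * z * m) * (g * a * g⁻¹)) * m⁻¹ := by simp only [z0]; group
        _ = m * ((g * a * g⁻¹) * (m⁻¹ * z * m)) * m⁻¹ := by rw [h1]
        _ = z0 * z := by simp only [z0]; group
    have hz0a : z0⁻¹ * a ∈ N := by
      rw [← QuotientGroup.eq]
      show f z0 = f a
      rw [map_mul, map_mul, map_inv, he, ← map_inv, ← map_mul, ← map_mul]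
      simp [c', mul_assoc]
    have := mul_mem (Subgroup.mem_sup_left (T := N) hz0) (Subgroup.mem_sup_right (S := Z) hz0a)
    simpa using this
  refine hP ⟨⟨fun a b => Subtype.ext ?_⟩⟩
  obtain ⟨za, hza, ma, hma, hae⟩ := Subgroup.mem_sup_of_normal_right.1 (key a.2)
  obtain ⟨zb, hzb, mb, hmb, hbe⟩ := Subgroup.mem_sup_of_normal_right.1 (key b.2)
  have hmaP : ma ∈ (P : Subgroup G) := by
    have := (P : Subgroup G).mul_mem ((P : Subgroup G).inv_mem hza.2) (hae ▸ a.2 : za * ma ∈ (P : Subgroup G))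
    simpa using this
  have hmbP : mb ∈ (P : Subgroup G) := by
    have := (P : Subgroup G).mul_mem ((P : Subgroup G).inv_mem hzb.2) (hbe ▸ b.2 : zb * mb ∈ (P : Subgroup G))
    simpa using this
  obtain ⟨T, hT⟩ := ((P.isPGroup'.to_le (inf_le_left : (P : Subgroup G) ⊓ N ≤ _)).of_equiv
    (Subgroup.subgroupOfEquivOfLe inf_le_right).symm).exists_le_sylow
  have hm : ma * mb = mb * ma := by
    haveI := hNab T
    have h1 : (⟨ma, hma⟩ : N) ∈ (T : Subgroup N) := hT (show ma ∈ (P : Subgroup G) ⊓ N from ⟨hmaP, hma⟩)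
    have h2 : (⟨mb, hmb⟩ : N) ∈ (T : Subgroup N) := hT (show mb ∈ (P : Subgroup G) ⊓ N from ⟨hmbP, hmb⟩)
    have := IsMulCommutative.is_comm.comm (⟨_, h1⟩ : (T : Subgroup N)) ⟨_, h2⟩
    exact congrArg (fun x : (T : Subgroup N) => ((x : N) : G)) this
  show (a : G) * b = b * a
  have c1 : ∀ y ∈ (P : Subgroup G), za * y = y * za := fun y hy => (Subgroup.mem_centralizer_iff.1 hza.1 y hy).symm
  have c2 : ∀ y ∈ (P : Subgroup G), zb * y = y * zb := fun y hy => (Subgroup.mem_centralizer_iff.1 hzb.1 y hy).symm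
  rw [← hae, ← hbe]
  calc za * ma * (zb * mb) = za * (zb * (ma * mb)) := by
        rw [mul_assoc, ← mul_assoc ma zb, ← c2 ma hmaP, mul_assoc]
    _ = za * (zb * (mb * ma)) := by rw [hm]
    _ = zb * (za * (mb * ma)) := by rw [← mul_assoc, c1 zb hzb.2, mul_assoc]
    _ = zb * mb * (za * ma) := by
        rw [← mul_assoc za mb, c1 mb hmbP, mul_assoc mb za, mul_assoc zb mb]

end Cfsg.Agent.S4354
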