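import Cfsg.Statements.S4359
import Cfsg.Agent.Lib.GlaubermanIndex.Main

set_option autoImplicit false
open Pointwise
open Cfsg

namespace Cfsg.Agent.S4359

/-- Let P be a subgroup of a finite group G and g an element such that P ∩ g⁻¹Pg is a normal subgroup of prime index p in g⁻¹Pg. Let n ≥ 1 and let K be the subgroup generated by P and its conjugates g⁻ⁱPgⁱ for i ≤ n. Suppose that g normalizes no non-identity normal subgroup of P and that P meets the center of K trivially. Then the order of P is pᵗ for some t with 1 ≤ t ≤ 3n and t ≠ 3n - 1. -/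
theorem result {G : Type*} [Group G] [Finite G]
    (P : Subgroup G) (g : G) (p : ℕ) (hp : p.Prime)
    (hN : ((P ⊓ MulAut.conj g⁻¹ • P).subgroupOf (MulAut.conj g⁻¹ • P)).Normal)
    (hidx : (P ⊓ MulAut.conj g⁻¹ • P).relIndex (MulAut.conj g⁻¹ • P) = p)
    (n : ℕ) (hn : 1 ≤ n) (K : Subgroup G) (hK : K = ⨆ i ∈ Finset.range (n + 1), MulAut.conj (g ^ i)⁻¹ • P)
    (h1 : ∀ Q : Subgroup G, Q ≤ P → (Q.subgroupOf P).Normal → MulAut.conj g • Q = Q → Q = ⊥)
    (h2 : P ⊓ (Subgroup.center K).map K.subtype = ⊥) :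
    ∃ t : ℕ, Nat.card P = p ^ t ∧ 1 ≤ t ∧ t ≤ 3 * n ∧ t ≠ 3 * n - 1 := by
  have hsm : ∀ (a : G) (Q : Subgroup G), MulAut.conj a • Q = Cfsg.Agent.Lib.LocalChar.cj a Q := fun a Q => by
    ext x
    rw [Cfsg.Agent.Lib.LocalChar.mem_cj, Subgroup.mem_pointwise_smul_iff_inv_smul_mem]
    simp [MulAut.smul_def]
  simp only [hsm] at hN hidx h1 hK
  have d : Cfsg.Agent.Lib.GlaubermanIndex.Data p P g⁻¹ := by
    refine ⟨hp, ?_, hN, fun Q hQ hQn hQh => h1 Q hQ (Subgroup.normal_subgroupOf_of_le_normalizer hQn) ?_⟩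
    · rwa [Subgroup.inf_relIndex_right] at hidx
    · conv_lhs => rw [← hQh, Cfsg.Agent.Lib.LocalChar.cj_cj, mul_inv_cancel,
        Cfsg.Agent.Lib.LocalChar.cj_one]
  refine Cfsg.Agent.Lib.GlaubermanIndex.bound d n hn fun x hx hc => ?_
  have hKc : K ≤ Subgroup.centralizer {x} := by
    rw [hK]
    refine iSup₂_le fun i hi => ?_
    have := hc i (Nat.lt_succ_iff.1 (Finset.mem_range.1 hi))
    rwa [zpow_natCast, inv_pow] at this
  have hxK : x ∈ K := by
    have h0 : Cfsg.Agent.Lib.LocalChar.cj (g ^ 0)⁻¹ P ≤ K := by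
      rw [hK]
      exact le_iSup₂_of_le 0 (Finset.mem_range.2 (Nat.succ_pos _)) le_rfl
    refine h0 ?_
    simpa using hx
  have hxb : x ∈ (⊥ : Subgroup G) := h2 ▸ ⟨hx, ⟨x, hxK⟩, Subgroup.mem_center_iff.2 fun y =>
    Subtype.ext (Subgroup.mem_centralizer_singleton_iff.1 (hKc y.2)), rfl⟩
  exact Subgroup.mem_bot.1 hxb

end Cfsg.Agent.S4359
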