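import Cfsg.Statements.S4365
import Mathlib

set_option autoImplicit false
open Cfsg

namespace Cfsg.Agent.S4365

set_option linter.style.haveILetI false
open Subgroup
open scoped commutatorElement

theorem pow_conj_prod {P : Type*} [Group P] (M : Subgroup P) [M.Normal] (hM : ∀ a b : M, a * b = b * a)
    (x : M) (u : P) : ∀ n : ℕ, ((x : P) * u) ^ n =
      ((letI : CommGroup M := { (inferInstance : Group M) with mul_comm := hM }
        ∏ i ∈ Finset.range n, (MulAut.conjNormal u : MulAut M) ^ i • x : M) : P) * u ^ n := by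
  letI : CommGroup M := { (inferInstance : Group M) with mul_comm := hM }
  intro n
  induction n with
  | zero => simp
  | succ n ih =>
    rw [pow_succ, ih, Finset.prod_range_succ, Subgroup.coe_mul, ← map_pow]
    rw [show ((MulAut.conjNormal (u ^ n) : MulAut M) • x) = MulAut.conjNormal (u ^ n) x from rfl,
      MulAut.conjNormal_apply, pow_succ]
    group

theorem conjNormal_eq_one {P : Type*} [Group P] (M : Subgroup P) [M.Normal] (hM : ∀ a b : M, a * b = b * a)
    {m : P} (hm : m ∈ M) : (MulAut.conjNormal m : MulAut M) = 1 := by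
  refine MulEquiv.ext fun y => Subtype.ext ?_
  rw [MulAut.conjNormal_apply]
  have := congrArg Subtype.val (hM ⟨m, hm⟩ y)
  simp only [Subgroup.coe_mul] at this
  rw [this, mul_inv_cancel_right]
  rfl

theorem norm_identity {M : Type*} [CommGroup M] {p : ℕ} (hp : p.Prime) (A B : MulAut M) (hAB : Commute A B)
    (hB : B ^ p = 1) (x : M) (Z : Subgroup M) (hfix : ∀ z ∈ Z, A • z = z)
    (hN : (∏ k ∈ Finset.range p, B ^ k • x) ∈ Z)
    (hall : ∀ i, (∏ j ∈ Finset.range p, (A * B ^ i) ^ j • x) ∈ Z) : x ^ p ∈ Z := by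
  set N := ∏ k ∈ Finset.range p, B ^ k • x
  have hfix' : ∀ j : ℕ, A ^ j • N = N := fun j => by
    induction j with
    | zero => rw [pow_zero, one_smul]
    | succ j ih => rw [pow_succ, mul_smul, hfix N hN, ih]
  have hperm : ∀ j, 0 < j → j < p → ∏ i ∈ Finset.range p, B ^ (i * j) • x = N := fun j hj hjp => by
    have hinj : Set.InjOn (fun i => (i * j) % p) (Finset.range p) := fun a ha b hb e => by
      simp only [Finset.coe_range, Set.mem_Iio] at ha hb
      simp only at e
      have hcop : Nat.Coprime p j :=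
        (Nat.Prime.coprime_iff_not_dvd hp).2 fun hd => absurd (Nat.le_of_dvd hj hd) (by omega)
      have := Nat.ModEq.cancel_right_of_coprime (m := p) hcop e
      unfold Nat.ModEq at this
      rwa [Nat.mod_eq_of_lt ha, Nat.mod_eq_of_lt hb] at this
    have himg : (Finset.range p).image (fun i => (i * j) % p) = Finset.range p :=
      Finset.eq_of_subset_of_card_le (fun a ha => by
        obtain ⟨b, -, rfl⟩ := Finset.mem_image.1 ha
        exact Finset.mem_range.2 (Nat.mod_lt _ hp.pos))
        (by rw [Finset.card_image_of_injOn hinj])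
    conv_rhs => rw [show N = ∏ k ∈ Finset.range p, B ^ k • x from rfl, ← himg, Finset.prod_image hinj]
    refine Finset.prod_congr rfl fun i _ => ?_
    rw [← pow_eq_pow_mod _ hB]
  have key : (∏ i ∈ Finset.range p, ∏ j ∈ Finset.range p, (A * B ^ i) ^ j • x) = x ^ p * N ^ (p - 1) := by
    rw [Finset.prod_comm]
    obtain ⟨q, rfl⟩ := Nat.exists_eq_add_of_le' hp.one_lt.le
    rw [Finset.prod_range_succ']
    have e1 : ∀ j ∈ Finset.range q, ∏ i ∈ Finset.range (q + 1), (A * B ^ i) ^ (j + 1) • x = N := fun j hj => by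
      rw [Finset.mem_range] at hj
      have : ∏ i ∈ Finset.range (q + 1), (A * B ^ i) ^ (j + 1) • x =
          A ^ (j + 1) • ∏ i ∈ Finset.range (q + 1), B ^ (i * (j + 1)) • x := by
        rw [Finset.smul_prod']
        refine Finset.prod_congr rfl fun i _ => ?_
        rw [(hAB.pow_right i).mul_pow, mul_smul, pow_mul]
      rw [this, hperm (j + 1) (by omega) (by omega), hfix']
    rw [Finset.prod_congr rfl e1, Finset.prod_const, Finset.card_range, Finset.prod_congr rfl
      (fun i _ => by rw [pow_zero, one_smul]), Finset.prod_const, Finset.card_range, Nat.add_sub_cancel,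
      mul_comm]
  have h1 : x ^ p * N ^ (p - 1) ∈ Z := key ▸ Subgroup.prod_mem Z fun i _ => hall i
  exact (Subgroup.mul_mem_cancel_right _ (pow_mem hN _)).1 h1

/-- Let P be a finite p-group whose conjugacy class sizes are exactly 1 and pᵃ for some a ≥ 1. Then every element of P has its p-th power in the center of P (P/Z(P) has exponent p). -/
theorem result {P : Type*} [Group P] [Finite P] (p : ℕ) [Fact p.Prime]
    (hP : IsPGroup p P) (a : ℕ) (ha : 1 ≤ a)
    (hcs : {k : ℕ | ∃ x : P, (Subgroup.centralizer ({x} : Set P)).index = k} = {1, p ^ a}) (x : P) :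
    x ^ p ∈ Subgroup.center P := by
  classical
  have hp : p.Prime := Fact.out
  set Z := center P
  by_contra hx
  have hidx : ∀ u : P, u ∉ Z → (centralizer ({u} : Set P)).index = p ^ a := fun u hu => by
    have : (centralizer ({u} : Set P)).index ∈ ({1, p ^ a} : Set ℕ) := hcs ▸ ⟨u, rfl⟩
    rcases this with e | e
    · refine absurd (mem_center_iff.2 fun g => ?_) hu
      have hg : g ∈ centralizer ({u} : Set P) := by rw [index_eq_one.1 e]; exact mem_top g
      exact mem_centralizer_singleton_iff.1 hg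
    · exact e
  have hcard : ∀ u v : P, u ∉ Z → v ∉ Z →
      Nat.card (centralizer ({u} : Set P)) = Nat.card (centralizer ({v} : Set P)) := fun u v hu hv => by
    have h1 := card_mul_index (centralizer ({u} : Set P))
    have h2 := card_mul_index (centralizer ({v} : Set P))
    rw [hidx u hu] at h1
    rw [hidx v hv] at h2
    exact Nat.eq_of_mul_eq_mul_right (pow_pos hp.pos a) (h1.trans h2.symm)
  have hx1 : x ∉ Z := fun e => hx (pow_mem e p)
  obtain ⟨y, hy, hyc, hyp⟩ : ∃ y, y ∉ Z ∧ (∀ g : P, ⁅g, y⁆ ∈ Z) ∧ y ^ p ∈ Z := by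
    haveI : Nontrivial (P ⧸ Z) := nontrivial_of_ne (x : P ⧸ Z) 1 fun e => hx1 ((QuotientGroup.eq_one_iff x).1 e)
    haveI := (hP.to_quotient Z).center_nontrivial
    obtain ⟨w, hw⟩ := exists_prime_orderOf_dvd_card' (G := center (P ⧸ Z)) p (by
      obtain ⟨j, hj⟩ := IsPGroup.iff_card.1 ((hP.to_quotient Z).to_subgroup (center (P ⧸ Z)))
      rw [hj]
      refine dvd_pow_self p fun e => ?_
      rw [e, pow_zero] at hj
      exact (Subgroup.nontrivial_iff_ne_bot _).1 inferInstance (Subgroup.card_eq_one.1 hj))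
    obtain ⟨y, hy⟩ := QuotientGroup.mk'_surjective Z (w : P ⧸ Z)
    refine ⟨y, fun e => ?_, fun g => ?_, ?_⟩
    · have : (w : P ⧸ Z) = 1 := hy ▸ (QuotientGroup.eq_one_iff y).2 e
      rw [← orderOf_coe, this, orderOf_one] at hw
      exact hp.one_lt.ne hw
    · refine (QuotientGroup.eq_one_iff _).1 ?_
      show QuotientGroup.mk' Z ⁅g, y⁆ = 1
      rw [map_commutatorElement, hy, commutatorElement_eq_one_iff_commute]
      exact mem_center_iff.1 w.2 _
    · refine (QuotientGroup.eq_one_iff _).1 ?_
      show QuotientGroup.mk' Z (y ^ p) = 1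
      rw [map_pow, hy, ← hw, ← orderOf_coe, pow_orderOf_eq_one]
  set M := centralizer ({y} : Set P)
  have hMmem : ∀ g, g ∈ M ↔ ⁅g, y⁆ = 1 := fun g => by
    rw [mem_centralizer_singleton_iff, commutatorElement_eq_one_iff_mul_comm]
  have hchom : ∀ g h, ⁅g * h, y⁆ = ⁅g, y⁆ * ⁅h, y⁆ := fun g h => by
    rw [show ⁅g * h, y⁆ = g * ⁅h, y⁆ * g⁻¹ * ⁅g, y⁆ by simp only [commutatorElement_def]; group,
      mem_center_iff.1 (hyc h) g, mul_inv_cancel_right, mem_center_iff.1 (hyc g) ⁅h, y⁆]
  let χ : P →* P := MonoidHom.mk' (fun g => ⁅g, y⁆) hchom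
  have hker : ∀ g, g ∈ M ↔ χ g = 1 := hMmem
  have hMcomm : ∀ g h : P, ⁅g, h⁆ ∈ M := fun g h => by
    rw [hker, map_commutatorElement, commutatorElement_eq_one_iff_commute]
    exact (mem_center_iff.1 (hyc h) _)
  haveI hMn : M.Normal := ⟨fun m hm g => by
    rw [show g * m * g⁻¹ = ⁅g, m⁆ * m by simp only [commutatorElement_def]; group]
    exact mul_mem (hMcomm g m) hm⟩
  have hpM : ∀ g : P, g ^ p ∈ M := fun g => by
    rw [hMmem]
    have h1 : g * y * g⁻¹ = ⁅g, y⁆ * y := by simp only [commutatorElement_def]; group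
    have hc : Commute ⁅g, y⁆ y := (mem_center_iff.1 (hyc g) y).symm
    have h2 : (g * y * g⁻¹) ^ p = y ^ p := by
      rw [conj_pow, mem_center_iff.1 hyp g, mul_inv_cancel_right]
    rw [h1, hc.mul_pow, mul_eq_right] at h2
    have := map_pow χ g p
    exact this.trans h2
  have hA : ∀ u, u ^ p ∉ Z → u ∈ M := fun u hu => by
    have hu1 : u ∉ Z := fun e => hu (pow_mem e p)
    have hle : centralizer ({u} : Set P) ≤ centralizer ({u ^ p} : Set P) := fun v hv => by
      rw [mem_centralizer_singleton_iff] at hv ⊢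
      exact ((show Commute v u from hv).pow_right p).eq
    have heq := eq_of_le_of_card_ge hle (hcard _ _ hu hu1).le
    have : y ∈ centralizer ({u} : Set P) := by
      rw [heq, mem_centralizer_singleton_iff]
      exact ((mem_centralizer_singleton_iff.1 (hpM u)) : u ^ p * y = y * u ^ p).symm
    rw [mem_centralizer_singleton_iff] at this ⊢
    exact this.symm
  have hout : ∀ g, g ∉ M → g ^ p ∈ Z := fun g hg => by by_contra h; exact hg (hA g h)
  have hMeq : ∀ u, u ^ p ∉ Z → centralizer ({u} : Set P) = M := fun u hu => by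
    refine eq_of_le_of_card_ge (fun g hg => ?_) (hcard y u hy (fun e => hu (pow_mem e p))).le
    by_contra hgM
    refine hu ?_
    have h1 := hout (g * u) fun e => hgM ((Subgroup.mul_mem_cancel_right _ (hA u hu)).1 e)
    rw [(show Commute g u from mem_centralizer_singleton_iff.1 hg).mul_pow] at h1
    exact (Subgroup.mul_mem_cancel_left _ (hout g hgM)).1 h1
  have hxM := hA x hx
  have hMab : ∀ m ∈ M, ∀ m' ∈ M, Commute m m' := by
    intro m hm m' hm'
    by_cases hmp : m ^ p ∈ Z
    · have hxm : Commute x m := (mem_centralizer_singleton_iff.1 ((hMeq x hx).ge hm) : m * x = x * m).symm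
      have hxm' : Commute x m' := (mem_centralizer_singleton_iff.1 ((hMeq x hx).ge hm') : m' * x = x * m').symm
      have h1 : (x * m) ^ p ∉ Z := fun e => hx (by
        rw [hxm.mul_pow] at e; exact (Subgroup.mul_mem_cancel_right _ hmp).1 e)
      have h2 : Commute (x * m) m' := (mem_centralizer_singleton_iff.1 ((hMeq _ h1).ge hm') : m' * (x * m) = x * m * m').symm
      have := hxm'.inv_left.mul_left h2
      rwa [inv_mul_cancel_left] at this
    · exact (mem_centralizer_singleton_iff.1 ((hMeq m hmp).ge hm') : m' * m = m * m').symm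
  obtain ⟨g, hg⟩ : ∃ g, g ∉ M := by
    by_contra hh
    push Not at hh
    exact hy (mem_center_iff.2 fun g => mem_centralizer_singleton_iff.1 (hh g))
  have hgZ : g ∉ Z := fun e => hg (by rw [mem_centralizer_singleton_iff]; exact (mem_center_iff.1 e y).symm)
  by_cases htop : zpowers g ⊔ M = ⊤
  · apply hx
    set π := QuotientGroup.mk' Z
    have hCg : centralizer ({g} : Set P) ≤ zpowers g ⊔ Z := by
      intro c hc
      obtain ⟨u, hu, m, hm, hum⟩ := mem_sup_of_normal_right.1 (htop ▸ mem_top c)
      obtain ⟨k, rfl⟩ := mem_zpowers_iff.1 hu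
      rw [← hum]
      refine mul_mem_sup hu (mem_center_iff.2 fun v => ?_)
      have hgm : Commute g m := by
        rw [← hum, mem_centralizer_singleton_iff] at hc
        have h3 : Commute g (g ^ k * m) := (hc : g ^ k * m * g = g * (g ^ k * m)).symm
        have := ((Commute.refl g).zpow_right k).inv_right.mul_right h3
        rwa [inv_mul_cancel_left] at this
      have : zpowers g ⊔ M ≤ centralizer ({m} : Set P) := sup_le
        (zpowers_le.2 (by rw [mem_centralizer_singleton_iff]; exact hgm.eq))
        (fun w hw => by rw [mem_centralizer_singleton_iff]; exact (hMab w hw m hm).eq)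
      exact mem_centralizer_singleton_iff.1 (this (htop ▸ mem_top v))
    have hZle : ∀ K : Subgroup P, Z ≤ K → Nat.card Z * Nat.card (K.map π) = Nat.card K := fun K hK => by
      have := relIndex_mul_relIndex ⊥ Z K bot_le hK
      rwa [relIndex_bot_left, relIndex_bot_left, show Z.relIndex K = Nat.card (K.map π) by
        rw [← relIndex_ker, QuotientGroup.ker_mk']] at this
    have hmapZ : Z.map π = ⊥ := by
      rw [Subgroup.map_eq_bot_iff, QuotientGroup.ker_mk']
    have h1 : Nat.card ((zpowers g ⊔ Z).map π) ≤ p := by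
      rw [Subgroup.map_sup, hmapZ, sup_bot_eq, MonoidHom.map_zpowers, Nat.card_zpowers]
      exact Nat.le_of_dvd hp.pos (orderOf_dvd_of_pow_eq_one (by
        rw [← map_pow]; exact (QuotientGroup.eq_one_iff _).2 (hout g hg)))
    have hMZ : Z ≤ M := fun z hz => by
      rw [mem_centralizer_singleton_iff]; exact (mem_center_iff.1 hz y).symm
    have h2 : Nat.card (M.map π) ≤ p := by
      refine Nat.le_of_mul_le_mul_left (?_ : Nat.card Z * _ ≤ Nat.card Z * p) Nat.card_pos
      rw [hZle M hMZ, hcard y g hy hgZ]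
      exact (card_le_of_le hCg).trans ((hZle _ le_sup_right).symm.le.trans (Nat.mul_le_mul_left _ h1))
    obtain ⟨j, hj⟩ := IsPGroup.iff_card.1 ((hP.to_quotient Z).to_subgroup (M.map π))
    have hj1 : j ≤ 1 := by
      rw [hj] at h2
      exact (Nat.pow_le_pow_iff_right hp.one_lt).1 (h2.trans (pow_one p).ge)
    refine (QuotientGroup.eq_one_iff _).1 ?_
    show π (x ^ p) = 1
    have := pow_card_eq_one' (x := (⟨π x, mem_map_of_mem π hxM⟩ : M.map π))
    rw [hj] at this
    have h3 : π x ^ p ^ j = 1 := congrArg Subtype.val this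
    rcases (show j = 0 ∨ j = 1 by omega) with rfl | rfl
    · rw [pow_zero, pow_one] at h3
      rw [map_pow, h3, one_pow]
    · rw [map_pow, ← pow_one p]; simpa using h3
  obtain ⟨h, hh⟩ : ∃ h, h ∉ zpowers g ⊔ M := by
    by_contra hh
    push Not at hh
    exact htop (eq_top_iff' _ |>.2 hh)
  have hhM : h ∉ M := fun e => hh (mem_sup_right e)
  letI : CommGroup M := { (inferInstance : Group M) with mul_comm := fun a b => Subtype.ext (hMab a a.2 b b.2).eq }
  have hM' : ∀ a b : M, a * b = b * a := fun a b => Subtype.ext (hMab a a.2 b b.2).eq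
  set A : MulAut M := MulAut.conjNormal g
  set B : MulAut M := MulAut.conjNormal h
  have hAB : Commute A B := by
    rw [← commutatorElement_eq_one_iff_commute, ← map_commutatorElement]
    exact conjNormal_eq_one M hM' (hMcomm g h)
  have hB : B ^ p = 1 := by rw [← map_pow]; exact conjNormal_eq_one M hM' (hpM h)
  have hnorm : ∀ (m : M) (u : P), u ∉ M →
      (∏ i ∈ Finset.range p, (MulAut.conjNormal u : MulAut M) ^ i • m) ∈ Z.subgroupOf M := fun m u hu => by
    have h1 := hout ((m : P) * u) fun e => hu ((Subgroup.mul_mem_cancel_left _ m.2).1 e)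
    rw [pow_conj_prod M hM' m u p] at h1
    exact (Subgroup.mul_mem_cancel_right _ (hout u hu)).1 h1
  refine hx (norm_identity hp A B hAB hB ⟨x, hxM⟩ (Z.subgroupOf M) (fun z hz => Subtype.ext ?_)
    (hnorm _ h hhM) fun i => ?_)
  · show ((MulAut.conjNormal g z : M) : P) = z
    rw [MulAut.conjNormal_apply, mem_center_iff.1 (show (z : P) ∈ Z from hz) g, mul_inv_cancel_right]
  · rw [← map_pow (MulAut.conjNormal (H := M)) h i, ← map_mul]
    refine hnorm _ _ fun e => ?_
    rcases Nat.eq_zero_or_pos (i % p) with hi | hi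
    · refine hg ((Subgroup.mul_mem_cancel_right _ ?_).1 e)
      obtain ⟨q, rfl⟩ := Nat.dvd_of_mod_eq_zero hi
      rw [pow_mul]; exact pow_mem (hpM h) q
    · apply hh
      have h1 : h ^ i ∈ zpowers g ⊔ M :=
        (Subgroup.mul_mem_cancel_left _ (mem_sup_left (mem_zpowers g))).1 (mem_sup_right e)
      have hcop : Nat.Coprime i p := ((Nat.Prime.coprime_iff_not_dvd hp).2 fun hd => by
        rw [Nat.dvd_iff_mod_eq_zero] at hd; omega).symm
      have hb := Nat.gcd_eq_gcd_ab i p
      rw [hcop.gcd_eq_one, Nat.cast_one] at hb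
      rw [← zpow_one h, hb, zpow_add, zpow_mul, zpow_mul, zpow_natCast, zpow_natCast]
      exact mul_mem (zpow_mem h1 _) (zpow_mem (mem_sup_right (hpM h)) _)

end Cfsg.Agent.S4365
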