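import Cfsg.Statements.S4370

import Cfsg.Agent.Lib.UniqueInvolution
set_option autoImplicit false
open Cfsg

namespace Cfsg.Agent.S4370


theorem two_torsion {n : ℕ} [NeZero n] (j : ZMod (2 * n)) (h : j + j = 0) : j = 0 ∨ j = (n : ZMod (2 * n)) := by
  haveI : NeZero (2 * n) := ⟨by have := NeZero.ne n; omega⟩
  have h1 : ((j.val + j.val : ℕ) : ZMod (2 * n)) = 0 := by
    rw [Nat.cast_add, ZMod.natCast_zmod_val, h]
  rw [ZMod.natCast_eq_zero_iff] at h1
  obtain ⟨c, hc⟩ := h1
  have hlt := j.val_lt
  have hc2 : c = 0 ∨ c = 1 := by
    rcases c with _ | _ | c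
    · exact Or.inl rfl
    · exact Or.inr rfl
    · exfalso; nlinarith
  rcases hc2 with rfl | rfl
  · left; rw [← ZMod.natCast_zmod_val j, show j.val = 0 by omega, Nat.cast_zero]
  · right; rw [← ZMod.natCast_zmod_val j, show j.val = n by omega]

theorem quaternion_centralizer {n : ℕ} [NeZero n] (q : QuaternionGroup n) (hq : q ∉ Subgroup.center (QuaternionGroup n)) :
    IsCyclic (Subgroup.centralizer ({q} : Set (QuaternionGroup n))) := by
  have hle : ∃ g, Subgroup.centralizer ({q} : Set (QuaternionGroup n)) ≤ Subgroup.zpowers g := by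
    cases q with
    | a i =>
      refine ⟨QuaternionGroup.a 1, fun g hg => ?_⟩
      have hg' := Subgroup.mem_centralizer_singleton_iff.1 hg
      cases g with
      | a j =>
        refine Subgroup.mem_zpowers_iff.2 ⟨j.val, ?_⟩
        rw [zpow_natCast, QuaternionGroup.a_one_pow, ZMod.natCast_zmod_val]
      | xa j =>
        exfalso
        rw [QuaternionGroup.a_mul_xa, QuaternionGroup.xa_mul_a, QuaternionGroup.xa.injEq] at hg'
        have h2 : i + i = 0 := by linear_combination hg'
        refine hq (Subgroup.mem_center_iff.2 fun g => ?_)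
        cases g with
        | a k => rw [QuaternionGroup.a_mul_a, QuaternionGroup.a_mul_a, add_comm]
        | xa k =>
          rw [QuaternionGroup.a_mul_xa, QuaternionGroup.xa_mul_a]
          congr 1
          linear_combination h2
    | xa i =>
      refine ⟨QuaternionGroup.xa i, fun g hg => ?_⟩
      have hg' := Subgroup.mem_centralizer_singleton_iff.1 hg
      have hn : QuaternionGroup.a (n : ZMod (2 * n)) ∈ Subgroup.zpowers (QuaternionGroup.xa i) :=
        QuaternionGroup.xa_sq i ▸ Subgroup.pow_mem _ (Subgroup.mem_zpowers _) 2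
      cases g with
      | a j =>
        rw [QuaternionGroup.a_mul_xa, QuaternionGroup.xa_mul_a, QuaternionGroup.xa.injEq] at hg'
        rcases two_torsion j (by linear_combination -hg') with rfl | rfl
        · exact Subgroup.one_mem _
        · exact hn
      | xa j =>
        rw [QuaternionGroup.xa_mul_xa, QuaternionGroup.xa_mul_xa, QuaternionGroup.a.injEq] at hg'
        rcases two_torsion (i - j) (by linear_combination hg') with h | h
        · rw [sub_eq_zero] at h
          rw [h]
          exact Subgroup.mem_zpowers _
        · have : QuaternionGroup.xa j = QuaternionGroup.a (n : ZMod (2 * n)) * QuaternionGroup.xa i := by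
            rw [QuaternionGroup.a_mul_xa, ← h, sub_sub_cancel]
          rw [this]
          exact Subgroup.mul_mem _ hn (Subgroup.mem_zpowers _)
  obtain ⟨g, hg⟩ := hle
  exact isCyclic_of_injective (Subgroup.inclusion hg) (Subgroup.inclusion_injective hg)

theorem eq_of_card_prime {C : Type*} [Group C] [Finite C] [IsCyclic C] {p : ℕ} (hp : p.Prime) (H K : Subgroup C)
    (hH : Nat.card H = p) (hK : Nat.card K = p) : H = K := by
  classical
  cases nonempty_fintype C
  set s := Finset.univ.filter fun a : C => a ^ p = 1
  have hs : s.card ≤ p := IsCyclic.card_pow_eq_one_le hp.pos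
  have key : ∀ L : Subgroup C, Nat.card L = p → (Finset.univ.filter fun a : C => a ∈ L) = s := by
    intro L hL
    refine Finset.eq_of_subset_of_card_le (fun a ha => ?_) ?_
    · rw [Finset.mem_filter] at ha ⊢
      refine ⟨ha.1, orderOf_dvd_iff_pow_eq_one.1 ?_⟩
      rw [← hL]
      exact Subgroup.orderOf_dvd_natCard L ha.2
    · refine hs.trans (le_of_eq ?_)
      rw [← hL, Nat.card_eq_fintype_card, Fintype.card_subtype]
  ext a
  have := (key H hH).trans (key K hK).symm
  simpa using Finset.ext_iff.1 this a


/-- Let G be a finite non-abelian nilpotent group. Then the centralizer of every non-central element of G is cyclic if and only if G is isomorphic to the direct product of a generalized quaternion group and a cyclic group of odd order. -/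
theorem result {G : Type*} [Group G] [Finite G] (hG : Group.IsNilpotent G)
    (hna : ¬ IsMulCommutative G) :
    (∀ x : G, x ∉ Subgroup.center G → IsCyclic (Subgroup.centralizer ({x} : Set G))) ↔
      ∃ (k m : ℕ), 1 ≤ k ∧ Odd m ∧ Nonempty (G ≃* QuaternionGroup (2 ^ k) × Multiplicative (ZMod m)) := by
  classical
  constructor
  · intro h
    -- a non-abelian Sylow subgroup
    obtain ⟨p, hp, P, hPna⟩ : ∃ (p : ℕ) (_ : p.Prime) (P : Sylow p G), ¬ IsMulCommutative (P : Subgroup G) := by
      by_contra hno
      push Not at hno
      refine hna ⟨⟨fun a b => ?_⟩⟩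
      have hZ : Subgroup.center G = ⊤ := by
        rw [← Subgroup.index_eq_one]
        by_contra h1
        obtain ⟨r, hr, hrd⟩ := Nat.exists_prime_and_dvd h1
        have := Fact.mk hr
        obtain ⟨R⟩ : Nonempty (Sylow r G) := inferInstance
        refine R.not_dvd_index (hrd.trans (Subgroup.index_dvd_of_le fun y hy => ?_))
        haveI := hG
        have htop : Subgroup.centralizer ({y} : Set G) = ⊤ := by
          rw [← Subgroup.index_eq_one]
          by_contra h2
          obtain ⟨s, hs, hsd⟩ := Nat.exists_prime_and_dvd h2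
          have := Fact.mk hs
          obtain ⟨T⟩ : Nonempty (Sylow s G) := inferInstance
          have hRn : (R : Subgroup G).Normal := Sylow.normal_of_normalizerCondition Group.normalizerCondition_of_isNilpotent R
          have hTn : (T : Subgroup G).Normal := Sylow.normal_of_normalizerCondition Group.normalizerCondition_of_isNilpotent T
          refine T.not_dvd_index (hsd.trans (Subgroup.index_dvd_of_le fun t ht => ?_))
          rw [Subgroup.mem_centralizer_singleton_iff]
          by_cases hsr : s = r
          · subst hsr
            have := Sylow.unique_of_normal R hRn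
            have hTR : T = R := Subsingleton.elim _ _
            rw [hTR] at ht
            exact congrArg Subtype.val ((hno s hs R).is_comm.comm ⟨t, ht⟩ ⟨y, hy⟩)
          · exact (Subgroup.commute_of_normal_of_disjoint _ _ hTn hRn
              (IsPGroup.disjoint_of_ne _ _ hsr _ _ T.isPGroup' R.isPGroup') t y ht hy).eq
        refine Subgroup.mem_center_iff.2 fun g => ?_
        exact Subgroup.mem_centralizer_singleton_iff.1 (htop ▸ Subgroup.mem_top g)
      exact (Subgroup.mem_center_iff.1 (hZ ▸ Subgroup.mem_top b) a)
    have := Fact.mk hp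
    haveI := hG
    have hPn : (P : Subgroup G).Normal := Sylow.normal_of_normalizerCondition Group.normalizerCondition_of_isNilpotent P
    obtain ⟨N, hN⟩ := Subgroup.exists_right_complement'_of_coprime (N := (P : Subgroup G)) P.card_coprime_index
    have hNp : ¬ p ∣ Nat.card N := by rw [← hN.symm.index_eq_card]; exact P.not_dvd_index
    have hcomm : ∀ a ∈ (P : Subgroup G), ∀ b ∈ N, a * b = b * a := by
      intro a ha b hb
      set C := Subgroup.centralizer ((P : Subgroup G) : Set G) with hC
      have hCn : C.Normal := by rw [hC]; infer_instance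
      suffices b ∈ C from Subgroup.mem_centralizer_iff.1 this a ha
      rw [← QuotientGroup.eq_one_iff, ← orderOf_eq_one_iff]
      by_contra h1
      obtain ⟨r, hr, hrd⟩ := Nat.exists_prime_and_dvd h1
      have hrb : r ∣ orderOf b := hrd.trans (orderOf_map_dvd (QuotientGroup.mk' C) b)
      have hrp : r ≠ p := fun e => hNp (e ▸ hrb.trans (Subgroup.orderOf_dvd_natCard _ hb))
      have := Fact.mk hr
      obtain ⟨R⟩ : Nonempty (Sylow r G) := inferInstance
      refine R.not_dvd_index ((hrd.trans (orderOf_dvd_natCard _)).trans (Subgroup.index_dvd_of_le fun x hx => ?_))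
      refine Subgroup.mem_centralizer_iff.2 fun v hv => ?_
      exact (Subgroup.commute_of_normal_of_disjoint _ _ hPn
        (Sylow.normal_of_normalizerCondition Group.normalizerCondition_of_isNilpotent R)
        (IsPGroup.disjoint_of_ne _ _ (Ne.symm hrp) _ _ P.isPGroup' R.isPGroup') v x hv hx).eq
    obtain ⟨⟨x, hx⟩, hxc⟩ : ∃ x : (P : Subgroup G), (x : G) ∉ Subgroup.center G := by
      by_contra hno
      push Not at hno
      exact hPna ⟨⟨fun a b => Subtype.ext (Subgroup.mem_center_iff.1 (hno b) a)⟩⟩
    have hNle : N ≤ Subgroup.centralizer ({x} : Set G) := fun b hb =>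
      Subgroup.mem_centralizer_singleton_iff.2 (hcomm x hx b hb).symm
    haveI hNc : IsCyclic N := by
      haveI := h x hxc
      exact isCyclic_of_injective (Subgroup.inclusion hNle) (Subgroup.inclusion_injective hNle)
    -- a unique subgroup of order `p`
    have huniq : ∀ H K : Subgroup (P : Subgroup G), Nat.card H = p → Nat.card K = p → H = K := by
      haveI : Nontrivial (P : Subgroup G) := ⟨⟨x, hx⟩, 1, fun e => hxc (by
        show x ∈ Subgroup.center G
        rw [show x = 1 from congrArg Subtype.val e]; exact Subgroup.one_mem _)⟩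
      haveI := IsPGroup.center_nontrivial P.isPGroup'
      obtain ⟨z, hz⟩ := exists_prime_orderOf_dvd_card' (G := Subgroup.center (P : Subgroup G)) p (by
        obtain ⟨k, hk⟩ := IsPGroup.iff_card.1 (P.isPGroup'.to_subgroup (Subgroup.center (P : Subgroup G)))
        have : 1 < Nat.card (Subgroup.center (P : Subgroup G)) := Finite.one_lt_card
        rcases k with _ | k
        · rw [hk, pow_zero] at this; omega
        · rw [hk]; exact dvd_pow_self p k.succ_ne_zero)
      suffices ∀ H : Subgroup (P : Subgroup G), Nat.card H = p → H = Subgroup.zpowers (z : (P : Subgroup G)) from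
        fun H K hH hK => (this H hH).trans (this K hK).symm
      intro H hH
      have hz' : orderOf (z : (P : Subgroup G)) = p := by rw [Subgroup.orderOf_coe, hz]
      obtain ⟨w, hwc, hwH⟩ : ∃ w : (P : Subgroup G), (w : G) ∉ Subgroup.center G ∧
          H.map (P : Subgroup G).subtype ≤ Subgroup.centralizer ({(w : G)} : Set G) := by
        by_cases hc : H.map (P : Subgroup G).subtype ≤ Subgroup.center G
        · exact ⟨⟨x, hx⟩, hxc, hc.trans (Subgroup.center_le_centralizer _)⟩
        · obtain ⟨_, ⟨w, hw, rfl⟩, hwc⟩ := SetLike.not_le_iff_exists.1 hc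
          refine ⟨w, hwc, ?_⟩
          rintro _ ⟨v, hv, rfl⟩
          haveI : IsCyclic H := isCyclic_of_prime_card hH
          let : CommGroup H := IsCyclic.commGroup
          rw [Subgroup.mem_centralizer_singleton_iff]
          exact congrArg (fun t : H => ((t : (P : Subgroup G)) : G)) (mul_comm (⟨v, hv⟩ : H) ⟨w, hw⟩)
      set C := Subgroup.centralizer ({(w : G)} : Set G)
      haveI : IsCyclic C := h w hwc
      have hzC : (Subgroup.zpowers (z : (P : Subgroup G))).map (P : Subgroup G).subtype ≤ C := by
        rw [MonoidHom.map_zpowers, Subgroup.zpowers_le, Subgroup.mem_centralizer_singleton_iff]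
        exact (congrArg Subtype.val (Subgroup.mem_center_iff.1 z.2 w)).symm
      have e := eq_of_card_prime hp ((H.map (P : Subgroup G).subtype).subgroupOf C)
        (((Subgroup.zpowers (z : (P : Subgroup G))).map (P : Subgroup G).subtype).subgroupOf C)
        (by rw [Nat.card_congr (Subgroup.subgroupOfEquivOfLe hwH).toEquiv,
          Subgroup.card_map_of_injective (P : Subgroup G).subtype_injective, hH])
        (by rw [Nat.card_congr (Subgroup.subgroupOfEquivOfLe hzC).toEquiv,
          Subgroup.card_map_of_injective (P : Subgroup G).subtype_injective, Nat.card_zpowers, hz'])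
      have e' := congrArg (Subgroup.map C.subtype) e
      rw [Subgroup.map_subgroupOf_eq_of_le hwH, Subgroup.map_subgroupOf_eq_of_le hzC] at e'
      exact Subgroup.map_injective (P : Subgroup G).subtype_injective e'
    rcases Lib.UniqueInvolution.isCyclic_or_quaternion P.isPGroup' huniq with hc | ⟨rfl, k, hk, ⟨e⟩⟩
    · exact absurd ⟨⟨fun a b => (IsCyclic.commGroup (α := (P : Subgroup G))).mul_comm a b⟩⟩ hPna
    refine ⟨k, Nat.card N, hk, Nat.odd_iff.2 (by omega), ⟨?_⟩⟩
    let f : ↥(P : Subgroup G) × ↥N →* G :=
      { toFun := fun t => (t.1 : G) * t.2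
        map_one' := by simp
        map_mul' := fun s t => by
          show ((s.1 : G) * t.1) * ((s.2 : G) * t.2) = (s.1 : G) * s.2 * ((t.1 : G) * t.2)
          calc _ = (s.1 : G) * ((t.1 : G) * s.2) * t.2 := by group
            _ = (s.1 : G) * ((s.2 : G) * t.1) * t.2 := by rw [hcomm _ t.1.2 _ s.2.2]
            _ = _ := by group }
    have hf : Function.Bijective f := hN
    exact (MulEquiv.ofBijective f hf).symm.trans (e.prodCongr (zmodCyclicMulEquiv hNc).symm)
  · rintro ⟨k, m, hk, hm, ⟨e⟩⟩ x hx
    haveI : NeZero m := ⟨by rintro rfl; simp at hm⟩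
    haveI : NeZero (2 ^ k) := ⟨by positivity⟩
    set C := Subgroup.centralizer ({x} : Set G)
    set q := (e x).1 with hqdef
    have hq : q ∉ Subgroup.center (QuaternionGroup (2 ^ k)) := by
      intro hq
      refine hx (Subgroup.mem_center_iff.2 fun g => e.injective ?_)
      rw [map_mul, map_mul]
      exact Prod.ext (Subgroup.mem_center_iff.1 hq _) (mul_comm _ _)
    haveI := quaternion_centralizer q hq
    haveI hprod : IsCyclic (Subgroup.centralizer ({q} : Set (QuaternionGroup (2 ^ k))) × Multiplicative (ZMod m)) := by
      refine Group.isCyclic_prod_iff.2 ⟨inferInstance, inferInstance, ?_⟩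
      refine Nat.Coprime.coprime_dvd_left (Subgroup.card_subgroup_dvd_card _) ?_
      rw [Nat.card_eq_fintype_card (α := QuaternionGroup (2 ^ k)), QuaternionGroup.card,
        Nat.card_congr Multiplicative.toAdd, Nat.card_zmod, show 4 * 2 ^ k = 2 ^ (k + 2) by ring]
      exact Nat.Coprime.pow_left _ (Nat.prime_two.coprime_iff_not_dvd.2 hm.not_two_dvd_nat)
    let g : C →* Subgroup.centralizer ({q} : Set (QuaternionGroup (2 ^ k))) × Multiplicative (ZMod m) :=
      { toFun := fun y => (⟨(e y).1, Subgroup.mem_centralizer_singleton_iff.2 (by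
          have h1 := congrArg (fun t => (e t).1) (Subgroup.mem_centralizer_singleton_iff.1 y.2)
          simpa [hqdef, map_mul] using h1)⟩, (e y).2)
        map_one' := Prod.ext (Subtype.ext (by simp)) (by simp)
        map_mul' := fun a b => Prod.ext (Subtype.ext (by simp)) (by simp) }
    refine isCyclic_of_injective g fun a b hab => Subtype.ext (e.injective (Prod.ext ?_ ?_))
    · exact congrArg (fun t => ((t.1 : Subgroup.centralizer ({q} : Set (QuaternionGroup (2 ^ k)))) : QuaternionGroup (2 ^ k))) hab
    · exact congrArg (fun t : Subgroup.centralizer ({q} : Set (QuaternionGroup (2 ^ k))) × Multiplicative (ZMod m) => t.2) hab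

end Cfsg.Agent.S4370
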