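import Cfsg.Statements.S4377

set_option autoImplicit false
open Cfsg

namespace Cfsg.Agent.S4377

theorem sum_eq {G : Type*} [Group G] [Finite G] (n : ℕ) (hn : n ≠ 0) :
    ∑ m ∈ n.divisors, Nat.card {g : G // orderOf g = m} = Nat.card {g : G // g ^ n = 1} := by
  classical
  cases nonempty_fintype G
  simp only [Nat.card_eq_fintype_card, Fintype.card_subtype]
  exact sum_card_orderOf_eq_card_pow_eq_one hn

theorem card_zero {G : Type*} [Group G] [Finite G] : Nat.card {g : G // orderOf g = 0} = 0 := by
  have : IsEmpty {g : G // orderOf g = 0} := ⟨fun g => (orderOf_pos g.1).ne' g.2⟩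
  exact Nat.card_of_isEmpty

theorem card_pow_mult {G : Type*} [Group G] [Finite G] (n : ℕ) (hn : Nat.card G ∣ n) :
    Nat.card {g : G // g ^ n = 1} = Nat.card G := by
  apply Nat.card_congr
  refine Equiv.subtypeUnivEquiv fun g => ?_
  exact orderOf_dvd_iff_pow_eq_one.1 ((orderOf_dvd_natCard g).trans hn)

/-- Two finite groups have the same number of elements of each order if and only if, for every n, they have the same number of elements g with gⁿ = 1. -/
theorem result {G H : Type*} [Group G] [Finite G] [Group H] [Finite H] :
    (∀ n : ℕ, Nat.card {g : G // orderOf g = n} = Nat.card {h : H // orderOf h = n}) ↔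
      ∀ n : ℕ, Nat.card {g : G // g ^ n = 1} = Nat.card {h : H // h ^ n = 1} := by
  constructor
  · intro h n
    rcases eq_or_ne n 0 with rfl | hn
    · have hN : Nat.card G * Nat.card H ≠ 0 := by simp [Nat.card_pos.ne']
      have e := sum_eq (G := G) _ hN
      rw [Finset.sum_congr rfl (fun m _ => h m), sum_eq _ hN, card_pow_mult _ (dvd_mul_left _ _),
        card_pow_mult _ (dvd_mul_right _ _)] at e
      rw [card_pow_mult 0 (dvd_zero _), card_pow_mult 0 (dvd_zero _)]
      exact e.symm
    · rw [← sum_eq n hn, ← sum_eq n hn]
      exact Finset.sum_congr rfl (fun m _ => h m)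
  · intro h n
    induction n using Nat.strong_induction_on with
    | _ n ih =>
      rcases eq_or_ne n 0 with rfl | hn
      · rw [card_zero, card_zero]
      have e := h n
      rw [← sum_eq n hn, ← sum_eq n hn, ← Nat.insert_self_properDivisors hn,
        Finset.sum_insert Nat.self_notMem_properDivisors, Finset.sum_insert Nat.self_notMem_properDivisors,
        Finset.sum_congr rfl (fun m hm => ih m (Nat.mem_properDivisors.1 hm).2)] at e
      omega

end Cfsg.Agent.S4377
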