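import Cfsg.Statements.S4376
import Cfsg.Agent.S4377
import Cfsg.Agent.Lib.Struct4.OrderTypeData
import Cfsg.Agent.Lib.Struct4.GL32

set_option autoImplicit false
open Cfsg

namespace Cfsg.Agent.S4376

open Cfsg.Agent.OrderType

theorem pos_ok : ∀ i, (posF i).a ∣ 84 ∧ (posF i).b ∣ 84 ∧ (posF i).c ∣ 84 ∧ ∀ j, ((posF i).C j).K.q ∣ 84 := by
  decide +kernel

theorem neg_ok : ∀ i, (negF i).a ∣ 84 ∧ (negF i).b ∣ 84 ∧ (negF i).c ∣ 84 ∧ ∀ j, ((negF i).C j).K.q ∣ 84 := by
  decide +kernel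

theorem numbers : ∀ n ∈ Finset.range 85, n ∣ 84 → ∏ i, (posF i).f n = l7 n * ∏ i, (negF i).f n := by
  decide +kernel

/-- The non-solvable side. -/
abbrev HG : Type := GL (Fin 3) (ZMod 2) × ∀ i, El (negF i)

theorem card_HG (n : ℕ) (hn : n ∣ 84) :
    Nat.card {g : HG // g ^ n = 1} = l7 n * ∏ i, (negF i).f n := by
  rw [← card_pow_GL n hn, ← card_pi_pow negF n, ← Nat.card_prod]
  exact Nat.card_congr ((Equiv.subtypeEquivRight fun g => by simp [Prod.ext_iff]).trans
    (Equiv.subtypeProdEquivProd (p := fun a : GL (Fin 3) (ZMod 2) => a ^ n = 1)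
      (q := fun b : ∀ i, El (negF i) => b ^ n = 1)))

theorem pow_GL_84 (g : GL (Fin 3) (ZMod 2)) : g ^ 84 = 1 := by
  classical
  have h1 : Nat.card {g : GL (Fin 3) (ZMod 2) // g ^ 84 = 1} = Nat.card (GL (Fin 3) (ZMod 2)) := by
    rw [card_pow_GL 84 dvd_rfl, Matrix.card_GL_field]
    simp only [Fin.prod_univ_three, ZMod.card]
    decide +kernel
  cases nonempty_fintype (GL (Fin 3) (ZMod 2))
  rw [Nat.card_eq_fintype_card, Nat.card_eq_fintype_card, Fintype.card_subtype,
    ← Finset.card_univ, Finset.card_filter_eq_iff] at h1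
  exact h1 g (Finset.mem_univ g)

theorem reduce {G : Type} [Monoid G] (h84 : ∀ g : G, g ^ 84 = 1) (n : ℕ) :
    Nat.card {g : G // g ^ n = 1} = Nat.card {g : G // g ^ n.gcd 84 = 1} :=
  Nat.card_congr (Equiv.subtypeEquivRight fun g =>
    ⟨fun h => pow_gcd_eq_one.2 ⟨h, h84 g⟩, fun h => (pow_gcd_eq_one.1 h).1⟩)

theorem pow_pos_84 (g : ∀ i, El (posF i)) : g ^ 84 = 1 := by
  funext i
  rw [Pi.pow_apply, Pi.one_apply]
  exact pow_84 (posF i) (pos_ok i) (g i)

theorem pow_HG_84 (g : HG) : g ^ 84 = 1 := by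
  apply Prod.ext
  · rw [Prod.pow_fst, Prod.fst_one]
    exact pow_GL_84 g.1
  · rw [Prod.pow_snd, Prod.snd_one]
    funext i
    rw [Pi.pow_apply, Pi.one_apply]
    exact pow_84 (negF i) (neg_ok i) (g.2 i)

/-- There are finite groups G and H having the same number of elements of each order (the same order type) with G solvable and H not solvable. -/
theorem result :
    ∃ (G : Type) (_ : Group G) (_ : Finite G) (H : Type) (_ : Group H) (_ : Finite H),
      Group.IsSolvable G ∧ ¬ Group.IsSolvable H ∧ ∀ n : ℕ, Nat.card {g : G // orderOf g = n} = Nat.card {h : H // orderOf h = n} := by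
  refine ⟨∀ i, El (posF i), inferInstance, inferInstance, HG, inferInstance, inferInstance,
    isSolvable_pi posF, fun hs => ?_, (S4377.result (G := ∀ i, El (posF i)) (H := HG)).2 fun n => ?_⟩
  · have := hs
    exact not_solvable_GL (Group.isSolvable_of_surjective
      (f := MonoidHom.fst (GL (Fin 3) (ZMod 2)) (∀ i, El (negF i))) Prod.fst_surjective)
  · have hd : n.gcd 84 ∣ 84 := Nat.gcd_dvd_right n 84
    rw [reduce pow_pos_84 n, reduce pow_HG_84 n,
      card_pi_pow posF (n.gcd 84), card_HG (n.gcd 84) hd]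
    refine numbers (n.gcd 84) ?_ hd
    rw [Finset.mem_range]
    have hle : n.gcd 84 ≤ 84 := Nat.le_of_dvd (Nat.succ_pos 83) hd
    omega

end Cfsg.Agent.S4376
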