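import Cfsg.Statements.S4381
import Cfsg.Agent.Lib.Coprime.Action
import Cfsg.Agent.Lib.InvForms
import Cfsg.Agent.Lib.PGroupFrattini
import Mathlib.GroupTheory.SemidirectProduct

set_option autoImplicit false
open Pointwise
open Cfsg

namespace Cfsg.Agent.S4381

open Subgroup SemidirectProduct
open scoped commutatorElement Pointwise

section
variable {A G : Type*} [Group A] [Finite A] [Group G] [Finite G] [MulDistribMulAction A G]

theorem exists_invariant_sylow' (hcop : (Nat.card A).Coprime (Nat.card G))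
    (hsol : Group.IsSolvable A ∨ Group.IsSolvable G) (p : ℕ) [Fact p.Prime] :
    ∃ P : Subgroup G, (∃ k, Nat.card P = p ^ k) ∧ ¬ p ∣ P.index ∧ ∀ a : A, ∀ x ∈ P, a • x ∈ P := by
  let φ := MulDistribMulAction.toMulAut A G
  let K := (inl : G →* G ⋊[φ] A).range
  let B := (inr : A →* G ⋊[φ] A).range
  haveI : Finite (G ⋊[φ] A) := Finite.of_equiv _ SemidirectProduct.equivProd.symm
  haveI hKn : K.Normal := by
    show (inl : G →* G ⋊[φ] A).range.Normal
    rw [range_inl_eq_ker_rightHom]; infer_instance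
  have hK : Nat.card K = Nat.card G := (Nat.card_congr (MonoidHom.ofInjective inl_injective).toEquiv).symm
  have hB : Nat.card B = Nat.card A := (Nat.card_congr (MonoidHom.ofInjective inr_injective).toEquiv).symm
  obtain ⟨P, hP⟩ := Cfsg.Agent.Lib.Coprime.exists_invariant_sylow (A := B) (K := K)
    (by rw [Subgroup.normalizer_eq_top]; exact le_top) (by rwa [hK, hB])
    (hsol.imp (fun (h : Group.IsSolvable A) => haveI := h; Group.isSolvable_of_surjective (f := (inr : A →* G ⋊[φ] A).rangeRestrict) (MonoidHom.rangeRestrict_surjective _))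
      fun (h : Group.IsSolvable G) => haveI := h; Group.isSolvable_of_surjective (f := (inl : G →* G ⋊[φ] A).rangeRestrict) (MonoidHom.rangeRestrict_surjective _)) p
  let e : G ≃* ↥K := MonoidHom.ofInjective inl_injective
  refine ⟨(P : Subgroup ↥K).comap e.toMonoidHom, ?_, ?_, fun a x hx => ?_⟩
  · obtain ⟨k, hk⟩ := IsPGroup.iff_card.mp P.2
    refine ⟨k, ?_⟩
    rw [← hk]
    exact Nat.card_congr (e.toEquiv.subtypeEquiv fun x => Iff.rfl)
  · rw [Subgroup.index_comap_of_surjective (P : Subgroup ↥K) (f := e.toMonoidHom) e.surjective]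
    exact P.not_dvd_index
  · have h1 : (inr a : G ⋊[φ] A) ∈ B := ⟨a, rfl⟩
    have h2 := (mem_normalizer_iff.mp (hP h1) (inl x)).mp ⟨e x, hx, rfl⟩
    obtain ⟨y, hy, hye⟩ := h2
    show e (a • x) ∈ (P : Subgroup ↥K)
    have : e (a • x) = y := Subtype.ext (by
      show (inl (a • x) : G ⋊[φ] A) = (y : G ⋊[φ] A)
      rw [show a • x = φ a x from rfl, inl_aut]
      rw [← map_inv] at hye
      exact hye.symm)
    rw [this]
    exact hy

/-- maximal among the invariant proper subgroups -/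
def MaxInv (A : Type*) {G : Type*} [Group A] [Group G] [MulDistribMulAction A G] (M : Subgroup G) : Prop :=
  M ≠ ⊤ ∧ (∀ a : A, ∀ x ∈ M, a • x ∈ M) ∧ ∀ L : Subgroup G, M < L → (∀ a : A, ∀ x ∈ L, a • x ∈ L) → L = ⊤

theorem exists_maxInv_ge (L : Subgroup G) (hL : L ≠ ⊤) (hLi : ∀ a : A, ∀ x ∈ L, a • x ∈ L) :
    ∃ M, MaxInv A M ∧ L ≤ M := by
  obtain ⟨M, hLM, hM⟩ := Finite.exists_le_maximal
    (p := fun M : Subgroup G => M ≠ ⊤ ∧ ∀ a : A, ∀ x ∈ M, a • x ∈ M) (a := L) ⟨hL, hLi⟩
  refine ⟨M, ⟨hM.prop.1, hM.prop.2, fun L' hlt hi => ?_⟩, hLM⟩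
  by_contra h
  exact hlt.not_ge (hM.le_of_ge ⟨h, hi⟩ hlt.le)

omit [Finite A] [Finite G] in
theorem sup_invariant {H K : Subgroup G} (hH : ∀ a : A, ∀ x ∈ H, a • x ∈ H) (hK : ∀ a : A, ∀ x ∈ K, a • x ∈ K) :
    ∀ a : A, ∀ x ∈ H ⊔ K, a • x ∈ H ⊔ K := by
  intro a x hx
  rw [sup_eq_closure] at hx
  induction hx using Subgroup.closure_induction with
  | mem y hy =>
    rcases hy with hy | hy
    · exact mem_sup_left (hH a y hy)
    · exact mem_sup_right (hK a y hy)
  | one => rw [smul_one]; exact one_mem _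
  | mul u v _ _ hu hv => rw [smul_mul']; exact mul_mem hu hv
  | inv u _ hu => rw [smul_inv']; exact inv_mem hu

omit [Finite A] [Finite G] in
theorem frattini_invariant : ∀ a : A, ∀ x ∈ frattini G, a • x ∈ frattini G := fun a x hx =>
  characteristic_iff_le_comap.mp (inferInstance : (frattini G).Characteristic)
    (MulDistribMulAction.toMulEquiv G a) hx

theorem frattini_le_maxInv {M : Subgroup G} (hM : MaxInv A M) : frattini G ≤ M := by
  by_contra h
  have h1 := hM.2.2 (M ⊔ frattini G) (lt_of_le_of_ne le_sup_left fun e => h (e ▸ le_sup_right))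
    (sup_invariant hM.2.1 frattini_invariant)
  exact hM.1 (frattini_nongenerating h1)

end


/-- Let the finite group A act by automorphisms on the finite group G with the orders of A and G coprime, and assume that A or G is solvable. Call a proper A-invariant subgroup of G maximal A-invariant when no A-invariant subgroup lies strictly between it and G. Then all maximal A-invariant subgroups of G are conjugate under elements of the fixed-point subgroup C_G(A) if and only if G is a p-group for some prime p and A leaves invariant no subgroup strictly between the Frattini subgroup of G and G. In that case, if G is nontrivial, the Frattini subgroup is the only maximal A-invariant subgroup (a trivial G has none). -/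
theorem result {A G : Type*} [Group A] [Finite A]
    [Group G] [Finite G] [MulDistribMulAction A G] (hcop : (Nat.card A).Coprime (Nat.card G)) (hsol : Group.IsSolvable A ∨ Group.IsSolvable G) :
    ((∀ M N : Subgroup G, (M ≠ ⊤ ∧ (∀ a : A, ∀ x ∈ M, a • x ∈ M) ∧ ∀ L : Subgroup G, M < L → (∀ a : A, ∀ x ∈ L, a • x ∈ L) → L = ⊤) → (N ≠ ⊤ ∧ (∀ a : A, ∀ x ∈ N, a • x ∈ N) ∧ ∀ L : Subgroup G, N < L → (∀ a : A, ∀ x ∈ L, a • x ∈ L) → L = ⊤) →
        ∃ c : G, (∀ a : A, a • c = c) ∧ N = MulAut.conj c • M) ↔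
      ((∃ p : ℕ, p.Prime ∧ IsPGroup p G) ∧ ∀ L : Subgroup G, frattini G < L → (∀ a : A, ∀ x ∈ L, a • x ∈ L) → L = ⊤)) ∧
    (((∃ p : ℕ, p.Prime ∧ IsPGroup p G) ∧ ∀ L : Subgroup G, frattini G < L → (∀ a : A, ∀ x ∈ L, a • x ∈ L) → L = ⊤) →
      ∀ M : Subgroup G, (M ≠ ⊤ ∧ (∀ a : A, ∀ x ∈ M, a • x ∈ M) ∧ ∀ L : Subgroup G, M < L → (∀ a : A, ∀ x ∈ L, a • x ∈ L) → L = ⊤) ↔ (M = frattini G ∧ M ≠ ⊤)) := by
  classical
  have honly : ((∃ p : ℕ, p.Prime ∧ IsPGroup p G) ∧ ∀ L : Subgroup G, frattini G < L → (∀ a : A, ∀ x ∈ L, a • x ∈ L) → L = ⊤) →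
      ∀ M : Subgroup G, MaxInv A M ↔ (M = frattini G ∧ M ≠ ⊤) := by
    rintro ⟨-, h⟩ M
    refine ⟨fun hM => ⟨?_, hM.1⟩, ?_⟩
    · rcases eq_or_lt_of_le (frattini_le_maxInv hM) with e | hlt
      · exact e.symm
      · exact absurd (h M hlt hM.2.1) hM.1
    · rintro ⟨rfl, hne⟩
      exact ⟨hne, frattini_invariant, h⟩
  refine ⟨⟨fun hconj => ?_, fun h M N hM hN => ?_⟩, fun h M => honly h M⟩
  swap
  · refine ⟨1, fun a => smul_one a, ?_⟩
    rw [((honly h M).mp hM).1, ((honly h N).mp hN).1, map_one, one_smul]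
  have hp : ∃ p : ℕ, p.Prime ∧ IsPGroup p G := by
    rcases Nat.lt_or_ge 1 (Nat.card G) with h1 | h1
    swap
    · exact ⟨2, Nat.prime_two, IsPGroup.of_card (n := 0) (le_antisymm h1 Nat.card_pos)⟩
    obtain ⟨p, hp, hpd⟩ := Nat.exists_prime_and_dvd h1.ne'
    refine ⟨p, hp, ?_⟩
    by_contra hnp
    have hproper : ∀ q : ℕ, q.Prime → ∃ M : Subgroup G, MaxInv A M ∧ ¬ q ∣ M.index := by
      intro q hq
      have := Fact.mk hq
      obtain ⟨P, ⟨k, hk⟩, hPi, hPinv⟩ := exists_invariant_sylow' hcop hsol q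
      have hPt : P ≠ ⊤ := fun e => hnp (by
        rw [e, card_top] at hk
        rw [hk] at hpd
        rw [(Nat.prime_dvd_prime_iff_eq hp hq).mp (hp.dvd_of_dvd_pow hpd)]
        exact IsPGroup.of_card hk)
      obtain ⟨M, hM, hPM⟩ := exists_maxInv_ge P hPt hPinv
      exact ⟨M, hM, fun h => hPi (h.trans (index_dvd_of_le (G := G) hPM))⟩
    obtain ⟨M₀, hM₀, -⟩ := hproper p hp
    obtain ⟨q, hq, hqd⟩ := Nat.exists_prime_and_dvd (fun e => hM₀.1 (index_eq_one.mp e))
    obtain ⟨M, hM, hqM⟩ := hproper q hq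
    obtain ⟨c, -, hc⟩ := hconj M M₀ hM hM₀
    refine hqM ?_
    rw [hc, show MulAut.conj c • M = M.map (MulAut.conj c).toMonoidHom from rfl] at hqd
    rwa [index_map_of_bijective (MulAut.conj c).bijective] at hqd
  refine ⟨hp, fun L hL hLi => ?_⟩
  obtain ⟨p, hp, hG⟩ := hp
  haveI := Fact.mk hp
  by_contra hLt
  obtain ⟨M, hM, hLM⟩ := exists_maxInv_ge L hLt hLi
  have hnorm : ∀ N : Subgroup G, frattini G ≤ N → N.Normal := fun N hN => ⟨fun n hn g => by
    rw [show g * n * g⁻¹ = ⁅g, n⁆ * n by rw [commutatorElement_def]; group]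
    exact mul_mem (hN (Lib.PGroupFrattini.commutator_le_frattini hG
      (commutator_mem_commutator (mem_top g) (mem_top n)))) hn⟩
  have huniq : ∀ N, MaxInv A N → N = M := by
    intro N hN
    obtain ⟨c, -, hc⟩ := hconj M N hM hN
    rw [hc]
    haveI := hnorm M (frattini_le_maxInv hM)
    exact Subgroup.Normal.conj_smul_eq_self c M
  -- an invariant complement of `L` modulo the Frattini subgroup
  haveI hΦn : (frattini G).Normal := inferInstance
  have hqc : ∀ u v : G ⧸ frattini G, u * v = v * u := fun u v => by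
    obtain ⟨u, rfl⟩ := QuotientGroup.mk_surjective u
    obtain ⟨v, rfl⟩ := QuotientGroup.mk_surjective v
    rw [← QuotientGroup.mk_mul, ← QuotientGroup.mk_mul, QuotientGroup.eq]
    have : (u * v)⁻¹ * (v * u) = ⁅v⁻¹, u⁻¹⁆ := by rw [commutatorElement_def]; group
    rw [this]
    exact Lib.PGroupFrattini.commutator_le_frattini hG
      (commutator_mem_commutator (mem_top _) (mem_top _))
  letI : CommGroup (G ⧸ frattini G) :=
    { (inferInstance : Group (G ⧸ frattini G)) with mul_comm := hqc }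
  let V := Additive (G ⧸ frattini G)
  have hexp : ∀ v : V, p • v = 0 := fun v => by
    obtain ⟨g, hg⟩ := QuotientGroup.mk_surjective (Additive.toMul v)
    apply Additive.toMul.injective
    show (Additive.toMul v) ^ p = 1
    rw [← hg, ← QuotientGroup.mk_pow, QuotientGroup.eq_one_iff]
    exact Lib.PGroupFrattini.pow_mem_frattini hG g
  letI instMod : Module (ZMod p) V := AddCommGroup.zmodModule (n := p) (G := V) hexp
  haveI : Module.Finite (ZMod p) V := Module.Finite.of_finite
  let f : A → (G ⧸ frattini G) →* (G ⧸ frattini G) := fun a =>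
    QuotientGroup.map _ _ (MulDistribMulAction.toMulEquiv G a).toMonoidHom fun x hx => frattini_invariant a x hx
  let r : A → Module.End (ZMod p) V := fun a => AddMonoidHom.toZModLinearMap p (MonoidHom.toAdditive (f a))
  have r1 : r 1 = 1 := by
    refine LinearMap.ext fun v => ?_
    obtain ⟨g, hg⟩ := QuotientGroup.mk_surjective (Additive.toMul v)
    apply Additive.toMul.injective
    show f 1 (Additive.toMul v) = Additive.toMul v
    rw [← hg]
    exact congrArg QuotientGroup.mk (one_smul A g)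
  have rmul : ∀ a b, r (a * b) = r a * r b := fun a b => by
    refine LinearMap.ext fun v => ?_
    obtain ⟨g, hg⟩ := QuotientGroup.mk_surjective (Additive.toMul v)
    apply Additive.toMul.injective
    show f (a * b) (Additive.toMul v) = f a (f b (Additive.toMul v))
    rw [← hg]
    exact congrArg QuotientGroup.mk (mul_smul a b g)
  let ρ0 : A →* Module.End (ZMod p) V := ⟨⟨r, r1⟩, rmul⟩
  let ρ : Representation (ZMod p) A V := ρ0
  let π : G →* G ⧸ frattini G := QuotientGroup.mk' _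
  let R : Submodule (ZMod p) V := AddSubgroup.toZModSubmodule p (Subgroup.toAddSubgroup (L.map π))
  have hR : Lib.InvForms.Inv ρ R := by
    rintro a v ⟨g, hg, hgv⟩
    exact ⟨a • g, hLi a g hg, by
      show π (a • g) = f a (Additive.toMul v)
      rw [← hgv]; rfl⟩
  have hA : (Nat.card A : ZMod p) ≠ 0 := by
    rw [Ne, ZMod.natCast_eq_zero_iff]
    intro hd
    have hne : L ≠ ⊥ := ne_bot_of_gt hL
    have hpG : p ∣ Nat.card G := by
      refine (hG.card_eq_or_dvd).resolve_left fun h => hne ?_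
      haveI := (Nat.card_eq_one_iff_unique.mp h).1
      exact Subsingleton.elim _ _
    have := Nat.eq_one_of_dvd_coprimes hcop hd hpG
    exact hp.one_lt.ne' this
  obtain ⟨C, hC, -, hdisj, hsup⟩ := Lib.InvForms.exists_compl hA hR (Y := ⊤) (fun _ _ _ => trivial) (fun _ _ => Submodule.mem_top)
  let L' : Subgroup G := (AddSubgroup.toSubgroup' C.toAddSubgroup).comap π
  have hL'i : ∀ a : A, ∀ x ∈ L', a • x ∈ L' := fun a x hx => hC a _ hx
  have hΦL' : frattini G ≤ L' := fun x hx => by
    show Additive.ofMul (π x) ∈ C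
    rw [show π x = 1 from (QuotientGroup.eq_one_iff x).mpr hx]
    exact C.zero_mem
  have htop : L ⊔ L' = ⊤ := eq_top_iff.mpr fun g _ => by
    have hg : Additive.ofMul (π g) ∈ C ⊔ R := hsup ▸ Submodule.mem_top
    obtain ⟨c, hc, r, ⟨l, hl, hlr⟩, hcr⟩ := Submodule.mem_sup.mp hg
    have hgl : g * l⁻¹ ∈ L' := by
      show Additive.ofMul (π (g * l⁻¹)) ∈ C
      have : c = Additive.ofMul (π g) - r := eq_sub_of_add_eq hcr
      have e : Additive.ofMul (π (g * l⁻¹)) = c := by
        rw [this, map_mul, map_inv, ofMul_mul, ofMul_inv, sub_eq_add_neg, hlr]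
        rfl
      rw [e]; exact hc
    have := mul_mem (mem_sup_right (S := L) hgl) (mem_sup_left (T := L') hl)
    rwa [inv_mul_cancel_right] at this
  by_cases hL't : L' = ⊤
  · obtain ⟨x, hx, hxΦ⟩ := SetLike.exists_of_lt hL
    refine hxΦ ((QuotientGroup.eq_one_iff x).mp ?_)
    have h1 : Additive.ofMul (π x) ∈ C := (hL't ▸ mem_top x : x ∈ L')
    exact Submodule.disjoint_def.mp hdisj _ h1 ⟨x, hx, rfl⟩
  · obtain ⟨M', hM', hL'M⟩ := exists_maxInv_ge L' hL't hL'i
    rw [huniq M' hM'] at hL'M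
    exact hM.1 (eq_top_iff.mpr (htop ▸ sup_le hLM hL'M))

end Cfsg.Agent.S4381
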