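import Cfsg.Statements.S4385
import Cfsg.Agent.Lib.SimsThree.Dihedral
import Cfsg.Agent.Lib.SimsThree.Klein

set_option autoImplicit false
open Pointwise
open Cfsg Subgroup
open Cfsg.Agent.Lib.SimsThree
open Cfsg.Agent.Lib.LocalChar (cj cj_cj cj_one card_cj cj_mono mem_cj conj_mem_cj cj_eq_of_mem_nz mem_nz_of_cj_eq)

namespace Cfsg.Agent.S4385

/-- Let H be a subgroup of a finite group G whose largest normal 2-subgroup O_2(H) is nontrivial and such that H/O_2(H) is a dihedral group of order at least 4. Let P be a Sylow 2-subgroup of H and S a Sylow 2-subgroup of G containing P. Suppose y ∈ S lies outside P, normalizes P, has y² in the product of P with the centralizer of P in G, and normalizes no non-identity normal subgroup of H contained in P. Then P has order 4, 8 or 16, and H modulo its largest normal subgroup of odd order is isomorphic to the four-group, to the symmetric group of degree 4, or to the direct product of the symmetric group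 of degree 4 with a group of order 2. -/
theorem result {G : Type*} [Group G] [Finite G]
    (H : Subgroup G) (hO : Cfsg.pCore 2 ↥H ≠ ⊥) (n : ℕ) (hn : 2 ≤ n) (hdih : Nonempty (↥H ⧸ Cfsg.pCore 2 ↥H ≃* DihedralGroup n))
    (P : Subgroup G) (hPH : P ≤ H) (hP : IsPGroup 2 P) (hPsyl : ¬ 2 ∣ P.relIndex H)
    (S : Sylow 2 G) (hPS : P ≤ (S : Subgroup G)) (y : G) (hyS : y ∈ (S : Subgroup G)) (hyP : y ∉ P)
    (hy2 : y ^ 2 ∈ P ⊔ Subgroup.centralizer (P : Set G)) (hyN : MulAut.conj y • P = P)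
    (hyQ : ∀ Q : Subgroup G, Q ≤ P → (Q.subgroupOf H).Normal → MulAut.conj y • Q = Q → Q = ⊥) :
    (Nat.card P = 4 ∨ Nat.card P = 8 ∨ Nat.card P = 16) ∧
    (Nonempty (↥H ⧸ Cfsg.oddCore ↥H ≃* Multiplicative (ZMod 2) × Multiplicative (ZMod 2)) ∨
     Nonempty (↥H ⧸ Cfsg.oddCore ↥H ≃* Equiv.Perm (Fin 4)) ∨
     Nonempty (↥H ⧸ Cfsg.oddCore ↥H ≃* Equiv.Perm (Fin 4) × Multiplicative (ZMod 2))) := by
  classical
  haveI : Fact (Nat.Prime 2) := ⟨Nat.prime_two⟩
  obtain ⟨e⟩ := hdih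
  have hy : cj y P = P := hyN
  have hyn := mem_nz_of_cj_eq hy
  set H' := cj y⁻¹ H with hH'
  have nobot : ∀ K : Subgroup G, K ≤ P → H ≤ normalizer (K : Set G) → H' ≤ normalizer (K : Set G) → K = ⊥ := by
    intro K hK h1 h2
    have hCK : P ⊔ centralizer (P : Set G) ≤ normalizer (K : Set G) :=
      sup_le (hPH.trans h1) (fun c hc => mem_nz_of_cj_eq (eq_of_le_of_card_ge (by
        rintro _ ⟨a, ha, rfl⟩
        show c * a * c⁻¹ ∈ K
        rw [← mem_centralizer_iff.1 hc a (hK ha), mul_inv_cancel_right]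
        exact ha) (card_cj c K).ge))
    have hyy : cj y (cj y K) = K := by
      rw [cj_cj, ← pow_two]
      exact cj_eq_of_mem_nz (hCK hy2)
    have hHy : ∀ x ∈ H, cj x (cj y K) = cj y K := by
      intro x hx
      have h3 : y⁻¹ * x * y ∈ normalizer (K : Set G) := h2 (mem_cj.2 (by group; exact hx))
      have h4 := congrArg (cj y) (cj_eq_of_mem_nz h3)
      rw [cj_cj] at h4
      rw [cj_cj]
      convert h4 using 2
      group
    set Q := K ⊔ cj y K with hQ
    have hQn : (Q.subgroupOf H).Normal := normal_subgroupOf_of_le_normalizer fun x hx =>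
      mem_nz_of_cj_eq (by rw [hQ, cj_sup, cj_eq_of_mem_nz (h1 hx), hHy x hx])
    have hQe : Q = ⊥ := hyQ Q (sup_le hK ((cj_mono hK).trans hy.le)) hQn (by
      show cj y Q = Q
      rw [hQ, cj_sup, hyy, sup_comm])
    exact le_bot_iff.1 (hQe ▸ le_sup_left)
  obtain ⟨hno, h, k, z, m, g, d, hmk, hcard, hcP, hO2⟩ :=
    exists_setting hP hPH hPsyl hn e hy nobot
  have hk : 2 ≤ k := by
    by_contra hk
    have h2 : 1 < Nat.card ↥(Cfsg.pCore 2 ↥H) := by
      haveI := nontrivial_iff_ne_bot _ |>.2 hO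
      exact Finite.one_lt_card
    have : 2 ^ k ≤ 2 ^ 1 := Nat.pow_le_pow_right two_pos (by omega)
    omega
  let f : ↥H ≃* ↥H' := H.equivMapOfInjective _ (MulAut.conj y⁻¹).injective
  have fin : ∀ {T : Type} [Group T], (∃ (R : Subgroup ↥H') (_ : R.Normal), R = Cfsg.oddCore ↥H' ∧
      3 * Nat.card ↥R = n ∧ Nonempty (↥H' ⧸ R ≃* T)) → Nonempty (↥H ⧸ Cfsg.oddCore ↥H ≃* T) := by
    rintro T _ ⟨R, hRn, hRe, -, ⟨e'⟩⟩
    exact ⟨(QuotientGroup.congr (Cfsg.oddCore ↥H) R f (by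
      rw [hRe]; exact Cfsg.Agent.Lib.Hall.map_pPrimeCore_equiv 2 f)).trans e'⟩
  have hcard' : Nat.card ↥H' = 2 ^ k * n := (card_cj _ _).trans hcard
  rcases g.bound d hmk with ⟨hk1, -⟩ | ⟨hk1, hm⟩ | ⟨hk1, hm⟩ | ⟨hk1, hm⟩
  · omega
  · subst hk1 hm
    refine ⟨Or.inl hcP, Or.inl ?_⟩
    let S2 : Sylow 2 ↥H := IsPGroup.toSylow (hP.comap_subtype : IsPGroup 2 ↥(P.subgroupOf H)) hPsyl
    have hS2 : (S2 : Subgroup ↥H) = P.subgroupOf H := rfl
    refine klein_quotient S2 ?_ ?_ (Cfsg.pCore 2 ↥H) (by omega)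
    · rw [hS2, Nat.card_congr (subgroupOfEquivOfLe hPH).toEquiv, hcP]; rfl
    · intro x hx
      have hx' : (x : G) ∈ I P h 2 1 (1 + 1) := by
        have := I_X P h 2
        norm_num at this ⊢
        rw [this]; exact hx
      have hc : Commute (z 1) (z (1 + 1)) := d.comm _ _ (by omega) (by omega)
      apply Subtype.ext
      show (x : G) * x = 1
      rcases g.mem_pair le_rfl hx' with e1 | e1 | e1 | e1 <;> rw [e1]
      · exact one_mul 1
      · exact g.sq _
      · exact g.sq _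
      · rw [mul_assoc (z 1), ← mul_assoc (z (1 + 1)), ← hc.eq, mul_assoc (z 1) (z (1 + 1)), g.sq, mul_one, g.sq]
  · exact ⟨Or.inr (Or.inl (by rw [hcP, hk1]; rfl)), Or.inr (Or.inl (fin (quotient_three g (hm ▸ d) hk1 hno hcard')))⟩
  · exact ⟨Or.inr (Or.inr (by rw [hcP, hk1]; rfl)), Or.inr (Or.inr (fin (quotient_four g (hm ▸ d) hk1 hno hcard')))⟩

end Cfsg.Agent.S4385
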