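import Cfsg.Statements.S4387

import Cfsg.Agent.Lib.Struct4.Basic
set_option autoImplicit false
open Pointwise
open Cfsg Pointwise

namespace Cfsg.Agent.S4387

open Cfsg.Agent.Lib.Struct4

/-- Let G be a non-trivial finite group in which any two maximal subgroups are conjugate. Then G is cyclic of prime-power order. -/
theorem result {G : Type*} [Group G] [Finite G] [Nontrivial G]
    (h : ∀ M N : Subgroup G, IsCoatom M → IsCoatom N → ∃ g : G, N = MulAut.conj g • M) :
    IsCyclic G ∧ IsPrimePow (Nat.card G) := by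
  obtain ⟨M, hM⟩ : ∃ M : Subgroup G, IsCoatom M := by
    obtain ⟨M, hM, _⟩ := (eq_top_or_exists_le_coatom (⊥ : Subgroup G)).resolve_left bot_ne_top
    exact ⟨M, hM⟩
  have hcyc : IsCyclic G := by
    obtain ⟨x, hx⟩ := exists_not_mem_conj M hM.1
    refine ⟨⟨x, fun y => ?_⟩⟩
    by_contra hy
    obtain ⟨M', hM', hle⟩ := (eq_top_or_exists_le_coatom (Subgroup.zpowers x)).resolve_left
      (fun h => hy (h ▸ Subgroup.mem_top y : y ∈ Subgroup.zpowers x))
    obtain ⟨g, rfl⟩ := h M M' hM hM'
    apply hx g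
    have h1 := hle (Subgroup.mem_zpowers x)
    rw [Subgroup.mem_pointwise_smul_iff_inv_smul_mem] at h1
    simpa [MulAut.smul_def, MulAut.conj_symm_apply] using h1
  refine ⟨hcyc, ?_⟩
  let _ := hcyc.commGroup
  have huniq : ∀ N : Subgroup G, IsCoatom N → N = M := by
    intro N hN
    obtain ⟨g, rfl⟩ := h M N hM hN
    ext y
    rw [Subgroup.mem_pointwise_smul_iff_inv_smul_mem]
    simp [MulAut.smul_def, MulAut.conj_symm_apply]
  by_contra hpp
  have hdvd : Nat.card G ∣ Nat.card M := by
    rw [Nat.dvd_iff_prime_pow_dvd_dvd]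
    intro p k hp hk
    haveI := Fact.mk hp
    obtain ⟨S, hS⟩ := Sylow.exists_subgroup_card_pow_prime p hk
    rcases eq_top_or_exists_le_coatom S with ht | ⟨N, hN, hle⟩
    · exfalso
      apply hpp
      rw [ht, Subgroup.card_top] at hS
      rw [hS]
      refine hp.isPrimePow.pow ?_
      rintro rfl
      exact (Finite.one_lt_card (α := G)).ne' (by simpa using hS)
    · rw [← hS, ← huniq N hN]
      exact Subgroup.card_dvd_of_le hle
  exact hM.1 (Subgroup.eq_top_of_card_eq M (Nat.dvd_antisymm (Subgroup.card_subgroup_dvd_card M) hdvd))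

end Cfsg.Agent.S4387
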