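import Cfsg.Statements.S4396

import Cfsg.Agent.Lib.Struct4.FreeComplement
import Cfsg.Agent.Lib.Hall.Frobenius
set_option autoImplicit false
open Cfsg

namespace Cfsg.Agent.S4396


universe u v w

open Struct4.FreeComplement


/-- Let the finite group A act faithfully and linearly on a finite-dimensional vector space V over a field k, and suppose A is a Frobenius group with nilpotent kernel F (every Frobenius kernel is nilpotent) and complement H such that F fixes no nonzero vector. Then V is free as a module for H: there is a subspace W with V the direct sum of the translates hW, h ∈ H. (No assumption on the characteristic of k.) -/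
theorem result {k V A : Type*} [Field k] [AddCommGroup V] [Module k V] [FiniteDimensional k V] [Group A] [Finite A] [DecidableEq A]
    (ρ : Representation k A V) (hρ : Function.Injective ρ)
    (Fk Hc : Subgroup A) [Fk.Normal] (hHc : Cfsg.IsFrobeniusComplement Hc) (hker : Cfsg.frobeniusKernel Hc = (Fk : Set A)) (hnil : Group.IsNilpotent ↥Fk)
    (hCF : ∀ v : V, (∀ f ∈ Fk, ρ f v = v) → v = 0) :
    ∃ W : Submodule k V, DirectSum.IsInternal (fun h : ↥Hc => W.map (ρ (h : A))) := by
  classical
  haveI : Fintype ↥Hc := Fintype.ofFinite _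
  have hfix : ∀ h ∈ Hc, h ≠ 1 → ∀ f ∈ Fk, h * f * h⁻¹ = f → f = 1 := by
    intro h hh h1 f hf he
    have hfH : f ∈ Hc := Lib.Hall.fc_centralizer_le hHc hh h1
      (Subgroup.mem_centralizer_singleton_iff.2 (mul_inv_eq_iff_eq_mul.1 he).symm)
    have hmem : f ∈ Cfsg.frobeniusKernel Hc := hker ▸ hf
    exact hmem.resolve_right fun h' => h' 1 (by simpa using hfH)
  obtain ⟨W, hW⟩ := free_of_frobenius Fk Hc hnil hfix _ V ρ rfl hCF
  refine ⟨W, DirectSum.isInternal_submodule_of_iSupIndep_of_iSup_eq_top ?_ ?_⟩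
  · rw [iSupIndep_iff_finset_sum_eq_zero_imp_eq_zero]
    intro s v hv hsum i hi
    have hv' : ∀ h : ↥Hc, ∃ w : W, ρ (h : A) (w : V) = (if h ∈ s then v h else 0) := by
      intro h
      by_cases hh : h ∈ s
      · obtain ⟨w, hw, hwe⟩ := hv h hh
        exact ⟨⟨w, hw⟩, by rw [if_pos hh]; exact hwe⟩
      · exact ⟨0, by rw [if_neg hh]; exact map_zero _⟩
    choose f hf using hv'
    obtain ⟨f₀, hf₀, hu⟩ := hW 0
    have h0 : (fun _ => 0 : ↥Hc → W) = f₀ := hu _ (by simp)
    have h1 : f = f₀ := hu _ (by
      show ∑ h : ↥Hc, ρ (h : A) (f h : V) = 0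
      simp only [hf]
      rwa [Finset.sum_ite_mem, Finset.univ_inter])
    have h2 := hf i
    rw [if_pos hi, h1, ← h0] at h2
    simpa using h2.symm
  · refine eq_top_iff.2 fun v _ => ?_
    obtain ⟨f, hf, -⟩ := hW v
    rw [← hf]
    exact Submodule.sum_mem _ fun h _ =>
      (le_iSup (fun h : ↥Hc => W.map (ρ (h : A))) h) ⟨_, (f h).2, rfl⟩

end Cfsg.Agent.S4396
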