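import Cfsg.Statements.S4397
import Cfsg.Agent.Lib.OddLocal.CoprimeOdd
import Cfsg.Agent.Lib.Transfer.Alperin

set_option autoImplicit false
open Cfsg Subgroup
open scoped commutatorElement

namespace Cfsg.Agent.S4397

variable {G : Type*} [Group G]

/-- The subgroup generated by the squares of a subgroup. -/
def sq (H : Subgroup G) : Subgroup G := closure ((fun x => x ^ 2) '' (H : Set G))

theorem sq_normal (H : Subgroup G) [H.Normal] : (sq H).Normal := by
  refine ⟨fun n hn g => ?_⟩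
  have h : sq H ≤ (sq H).comap (MulAut.conj g).toMonoidHom := by
    rw [sq, closure_le]
    rintro _ ⟨x, hx, rfl⟩
    exact subset_closure ⟨g * x * g⁻¹, Subgroup.Normal.conj_mem inferInstance x hx g, by simp [conj_pow]⟩
  exact h hn

theorem sq_le (H : Subgroup G) : sq H ≤ H := by
  rw [sq, closure_le]
  rintro _ ⟨x, hx, rfl⟩
  exact pow_mem hx 2

variable [Finite G]

theorem sq_le_frattini (h2 : IsPGroup 2 G) : sq (⊤ : Subgroup G) ≤ frattini G := by
  haveI : Fact (Nat.Prime 2) := ⟨Nat.prime_two⟩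
  haveI : Group.IsNilpotent G := h2.isNilpotent
  rw [sq, closure_le]
  rintro _ ⟨x, -, rfl⟩
  rw [SetLike.mem_coe, frattini, Order.radical, mem_iInf]
  intro M
  rw [mem_iInf]
  intro hM
  haveI : M.Normal := NormalizerCondition.normal_of_coatom M Group.normalizerCondition_of_isNilpotent hM
  haveI : IsSimpleGroup (G ⧸ M) := by
    haveI : Nontrivial (G ⧸ M) := QuotientGroup.nontrivial_iff.mpr hM.1
    refine ⟨fun K _ => ?_⟩
    rcases lt_or_eq_of_le (show M ≤ K.comap (QuotientGroup.mk' M) from fun y hy => by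
      rw [mem_comap, QuotientGroup.mk'_apply, (QuotientGroup.eq_one_iff y).mpr hy]; exact one_mem K) with h | h
    · refine Or.inr ?_
      rw [← map_comap_eq_self_of_surjective (QuotientGroup.mk'_surjective M) K, hM.2 _ h,
        ← MonoidHom.range_eq_map, MonoidHom.range_eq_top.mpr (QuotientGroup.mk'_surjective M)]
    · refine Or.inl ?_
      rw [← map_comap_eq_self_of_surjective (QuotientGroup.mk'_surjective M) K, ← h,
        QuotientGroup.map_mk'_self]
  have hc : IsPGroup 2 (G ⧸ M) := h2.to_quotient M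
  haveI : Group.IsNilpotent (G ⧸ M) := hc.isNilpotent
  haveI : IsMulCommutative (G ⧸ M) := IsSimpleGroup.comm_iff_isSolvable.mpr inferInstance |> fun h => ⟨⟨h⟩⟩
  letI : CommGroup (G ⧸ M) := { (inferInstance : Group (G ⧸ M)) with mul_comm := mul_comm' }
  haveI : Fact (Nat.card (G ⧸ M)).Prime := ⟨IsSimpleGroup.prime_card⟩
  obtain ⟨k, hk⟩ := IsPGroup.iff_card.mp hc
  have hp := (Fact.out : (Nat.card (G ⧸ M)).Prime)
  rw [hk] at hp
  have hk1 : k = 1 := by
    have := Nat.Prime.pow_eq_iff hp |>.mp rfl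
    exact this.2
  rw [← QuotientGroup.eq_one_iff (N := M), QuotientGroup.mk_pow]
  have h := pow_card_eq_one' (x := (x : G ⧸ M))
  rwa [hk, hk1, pow_one] at h

/-- Powers of a generator of a 2-group with odd exponent. -/
theorem mem_zpowers_pow_of_odd (h2 : IsPGroup 2 G) (b : G) {k : ℕ} (hk : Odd k) : b ∈ zpowers (b ^ k) := by
  obtain ⟨n, hn⟩ := IsPGroup.iff_orderOf.mp h2 b
  have hcop : k.Coprime (orderOf b) := hn ▸ (Nat.Coprime.pow_right _ ((Nat.coprime_two_right).mpr hk))
  obtain ⟨m, hm⟩ := exists_pow_eq_self_of_coprime hcop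
  exact ⟨m, by simpa using hm⟩

section classTwo

variable {a b c : G} (h2 : IsPGroup 2 G) (hr : Cfsg.SectionalPRankLE 2 2 G)
  (hc : ∀ g, Commute c g) (hc2 : c ^ 2 = 1) (hc1 : c ≠ 1) (hrel : b * a = c * a * b)

omit [Finite G] in
include hc hrel in
theorem pow_form (n : ℕ) : b ^ n * a = c ^ n * a * b ^ n ∧ (a * b) ^ n = a ^ n * b ^ n * c ^ (n.choose 2) :=
  Lib.OddLocal.mul_pow_of_central_commutator (hc a) (hc b) hrel n

omit [Finite G] in
include hc hrel hc2 in
theorem rel_symm : a * b = c * b * a := by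
  have h : c * c = 1 := by rw [← pow_two, hc2]
  rw [mul_assoc c b a, hrel, ← mul_assoc, ← mul_assoc, h, one_mul]

include h2 hr hc hc2 hc1 hrel in
/-- The abelian subgroup `⟨a², b, c⟩` is two-generated. -/
theorem relation : (∃ k l : ℕ, c = a ^ (2 * k) * b ^ (2 * l)) ∨
    (∃ k l : ℕ, Odd k ∧ a ^ (2 * k) = b ^ (2 * l)) := by
  have hab : Commute (a ^ 2) b := by
    have h := (pow_form (a := b) (b := a) hc (rel_symm hc hc2 hrel) 2).1
    rw [hc2, one_mul] at h
    exact h
  have hnb : ∀ k : ℕ, Odd k → ¬ Commute (b ^ k) a := by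
    intro k hk h
    obtain ⟨i, hi⟩ := mem_zpowers_pow_of_odd h2 b hk
    have h' : Commute b a := hi ▸ h.zpow_left i
    refine hc1 ?_
    have := h'.eq.symm.trans hrel
    rw [mul_assoc] at this
    exact mul_eq_right.mp this.symm
  let f : Multiplicative (ℕ × ℕ × ℕ) → G := fun u => (a ^ 2) ^ (Multiplicative.toAdd u).1 *
    b ^ (Multiplicative.toAdd u).2.1 * c ^ (Multiplicative.toAdd u).2.2
  have hf : ∀ i j k i' j' k', ((a ^ 2) ^ i * b ^ j * c ^ k) * ((a ^ 2) ^ i' * b ^ j' * c ^ k') =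
      (a ^ 2) ^ (i + i') * b ^ (j + j') * c ^ (k + k') := by
    intro i j k i' j' k'
    have e1 : Commute (c ^ k) ((a ^ 2) ^ i' * b ^ j') := ((hc _).pow_left k).mul_right ((hc _).pow_left k)
    rw [pow_add, pow_add, pow_add]
    calc (a ^ 2) ^ i * b ^ j * c ^ k * ((a ^ 2) ^ i' * b ^ j' * c ^ k')
        = (a ^ 2) ^ i * b ^ j * (c ^ k * ((a ^ 2) ^ i' * b ^ j')) * c ^ k' := by simp only [mul_assoc]
      _ = (a ^ 2) ^ i * b ^ j * ((a ^ 2) ^ i' * b ^ j' * c ^ k) * c ^ k' := by rw [e1.eq]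
      _ = (a ^ 2) ^ i * (b ^ j * (a ^ 2) ^ i') * b ^ j' * (c ^ k * c ^ k') := by simp only [mul_assoc]
      _ = (a ^ 2) ^ i * ((a ^ 2) ^ i' * b ^ j) * b ^ j' * (c ^ k * c ^ k') := by rw [((hab.pow_pow i' j).symm).eq]
      _ = _ := by simp only [mul_assoc]
  let H : Subgroup G := closure ({a ^ 2, b, c} : Set G)
  have hmemH : ∀ x ∈ H, ∃ i j k : ℕ, x = (a ^ 2) ^ i * b ^ j * c ^ k := by
    intro x hx
    rw [← mem_toSubmonoid, closure_toSubmonoid_of_finite] at hx
    induction hx using Submonoid.closure_induction with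
    | mem y hy =>
      rcases hy with rfl | rfl | rfl
      · exact ⟨1, 0, 0, by simp⟩
      · exact ⟨0, 1, 0, by simp⟩
      · exact ⟨0, 0, 1, by simp⟩
    | one => exact ⟨0, 0, 0, by simp⟩
    | mul u v _ _ hu hv =>
      obtain ⟨i, j, k, rfl⟩ := hu
      obtain ⟨i', j', k', rfl⟩ := hv
      exact ⟨_, _, _, hf i j k i' j' k'⟩
  have hcommH : ∀ x ∈ H, ∀ y ∈ H, x * y = y * x := by
    intro x hx y hy
    obtain ⟨i, j, k, rfl⟩ := hmemH x hx
    obtain ⟨i', j', k', rfl⟩ := hmemH y hy
    rw [hf, hf, add_comm i, add_comm j, add_comm k]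
  letI : CommGroup H := { (inferInstance : Group H) with
    mul_comm := fun x y => Subtype.ext (hcommH x x.2 y y.2) }
  let S : Subgroup H := (powMonoidHom 2 : H →* H).range
  have hA : ∀ q : H ⧸ S, q ^ 2 = 1 := by
    intro q
    induction q using QuotientGroup.induction_on with
    | H x => rw [← QuotientGroup.mk_pow, QuotientGroup.eq_one_iff]; exact ⟨x, rfl⟩
  have hcard : Nat.card (H ⧸ S) ≤ 2 ^ 2 := by
    have := hr H S ⊤ ⟨⟨fun x y => Subtype.ext (mul_comm _ _)⟩⟩ fun q _ => hA q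
    rwa [Nat.card_congr Subgroup.topEquiv.toEquiv] at this
  have hgenH : a ^ 2 ∈ H ∧ b ∈ H ∧ c ∈ H :=
    ⟨subset_closure (by simp), subset_closure (by simp), subset_closure (by simp)⟩
  let g : Bool × Bool × Bool → H ⧸ S := fun e =>
    ((⟨a ^ 2, hgenH.1⟩ ^ e.1.toNat * ⟨b, hgenH.2.1⟩ ^ e.2.1.toNat * ⟨c, hgenH.2.2⟩ ^ e.2.2.toNat : H) : H ⧸ S)
  obtain ⟨e, e', hne, heq⟩ : ∃ e e', e ≠ e' ∧ g e = g e' := by
    by_contra h
    push Not at h
    have hinj : Function.Injective g := fun x y hxy => by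
      by_contra hxy'
      exact h x y hxy' hxy
    have := Nat.card_le_card_of_injective g hinj
    simp at this
    omega
  rw [← div_eq_one, ← QuotientGroup.mk_div, QuotientGroup.eq_one_iff] at heq
  obtain ⟨⟨w, hw⟩, hwe⟩ := heq
  obtain ⟨i, j, k, rfl⟩ := hmemH w hw
  -- the resulting relation
  have hrel0 : ((a ^ 2) ^ i * b ^ j * c ^ k) ^ 2 * ((a ^ 2) ^ e'.1.toNat * b ^ e'.2.1.toNat * c ^ e'.2.2.toNat) =
      (a ^ 2) ^ e.1.toNat * b ^ e.2.1.toNat * c ^ e.2.2.toNat := by
    have h1 : (powMonoidHom 2 (⟨_, hw⟩ : H) : H) * (⟨a ^ 2, hgenH.1⟩ ^ e'.1.toNat * ⟨b, hgenH.2.1⟩ ^ e'.2.1.toNat *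
        ⟨c, hgenH.2.2⟩ ^ e'.2.2.toNat) = ⟨a ^ 2, hgenH.1⟩ ^ e.1.toNat * ⟨b, hgenH.2.1⟩ ^ e.2.1.toNat *
        ⟨c, hgenH.2.2⟩ ^ e.2.2.toNat := by rw [hwe, div_mul_cancel]
    simpa using congrArg Subtype.val h1
  rw [pow_two ((a ^ 2) ^ i * b ^ j * c ^ k), hf, hf] at hrel0
  set A := i + i + e'.1.toNat with hA'
  set B := j + j + e'.2.1.toNat with hB'
  -- move everything to one side
  obtain ⟨NA, hNA⟩ : ∃ n, orderOf (a ^ 2) = n ∧ 0 < n := ⟨_, rfl, orderOf_pos _⟩
  have hBeq : e.2.1 = e'.2.1 := by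
    by_contra hb
    have hodd : Odd (B + e.2.1.toNat) := by
      cases h1 : e.2.1 <;> cases h2 : e'.2.1 <;> simp_all [hB', parity_simps]
    -- `b` to an odd power commutes with `a`
    have hca : ∀ n : ℕ, Commute ((a ^ 2) ^ n) a := fun n => ((Commute.refl a).pow_left 2).pow_left n
    have hcc : ∀ n : ℕ, Commute (c ^ n) a := fun n => (hc a).pow_left n
    cases h1 : e.2.1 with
    | false =>
      rw [h1] at hrel0 hodd
      simp only [Bool.toNat_false, add_zero, pow_zero, mul_one] at hrel0 hodd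
      refine hnb B hodd ?_
      have : b ^ B = ((a ^ 2) ^ A)⁻¹ * ((a ^ 2) ^ e.1.toNat * c ^ e.2.2.toNat) * (c ^ (k + k + e'.2.2.toNat))⁻¹ := by
        rw [← hrel0]; group
      rw [this]
      exact (((hca _).inv_left).mul_left ((hca _).mul_left (hcc _))).mul_left (hcc _).inv_left
    | true =>
      have h2' : e'.2.1 = false := by
        cases h2 : e'.2.1 with
        | false => rfl
        | true => exact absurd (h1.trans h2.symm) hb
      rw [h1] at hrel0
      have hBeven : B = 2 * j := by rw [hB', h2', Bool.toNat_false]; ring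
      have hb2 : Commute (b ^ B) a := by
        rw [hBeven, pow_mul]
        have h := (pow_form hc hrel 2).1
        rw [hc2, one_mul] at h
        exact Commute.pow_left h _
      refine hnb 1 odd_one ?_
      have : b ^ 1 = ((a ^ 2) ^ e.1.toNat)⁻¹ * ((a ^ 2) ^ A * b ^ B * c ^ (k + k + e'.2.2.toNat)) * (c ^ e.2.2.toNat)⁻¹ := by
        rw [hrel0, Bool.toNat_true]; group
      rw [this]
      exact (((hca _).inv_left).mul_left (((hca _).mul_left hb2).mul_left (hcc _))).mul_left (hcc _).inv_left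
  rw [hBeq, hB', pow_add b (j + j)] at hrel0
  have hcanc : (a ^ 2) ^ A * b ^ (j + j) * c ^ (k + k + e'.2.2.toNat) = (a ^ 2) ^ e.1.toNat * c ^ e.2.2.toNat := by
    have e1 : ∀ x y z : G, Commute z y → x * y * z = x * z * y := fun x y z h => by
      rw [mul_assoc, mul_assoc, h.eq]
    rw [← mul_assoc, e1 ((a ^ 2) ^ A * b ^ (j + j)) (b ^ e'.2.1.toNat) _ ((hc _).pow_left _),
      e1 ((a ^ 2) ^ e.1.toNat) (b ^ e'.2.1.toNat) _ ((hc _).pow_left _)] at hrel0
    exact mul_right_cancel hrel0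
  rw [show k + k + e'.2.2.toNat = 2 * k + e'.2.2.toNat by ring, pow_add c, pow_mul c, hc2, one_pow, one_mul,
    show j + j = 2 * j by ring] at hcanc
  have hcinv : ∀ n : ℕ, (c ^ n)⁻¹ = c ^ n := fun n => by
    rw [inv_eq_iff_mul_eq_one, ← pow_two, ← pow_mul, mul_comm, pow_mul, hc2, one_pow]
  have hkey : (a ^ 2) ^ A * b ^ (2 * j) = (a ^ 2) ^ e.1.toNat * c ^ (e.2.2.toNat + e'.2.2.toNat) := by
    rw [pow_add c, ← mul_assoc, ← hcanc, mul_assoc _ (c ^ _) (c ^ _), ← pow_add c, ← two_mul, pow_mul c, hc2, one_pow, mul_one]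
  by_cases hce : e.2.2 = e'.2.2
  · -- no `c`: then the exponent of `a²` is odd
    have he1 : e.1 ≠ e'.1 := by
      intro h
      exact hne (Prod.ext h (Prod.ext hBeq hce))
    have hcc' : c ^ (e.2.2.toNat + e'.2.2.toNat) = 1 := by
      rw [hce, ← two_mul, pow_mul, hc2, one_pow]
    rw [hcc', mul_one] at hkey
    right
    obtain ⟨n, hn, hnpos⟩ : ∃ n, (a ^ 2) ^ n = 1 ∧ 0 < n := ⟨_, pow_orderOf_eq_one _, orderOf_pos (a ^ 2)⟩
    have hneven : Even n ∨ a ^ 2 = 1 := by
      by_cases ha : a ^ 2 = 1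
      · exact Or.inr ha
      left
      have hdvd : orderOf (a ^ 2) ∣ n := orderOf_dvd_of_pow_eq_one hn
      obtain ⟨t, ht⟩ := IsPGroup.iff_orderOf.mp h2 (a ^ 2)
      have ht0 : t ≠ 0 := by
        rintro rfl
        exact ha (orderOf_eq_one_iff.mp ht)
      exact (even_iff_two_dvd).mpr ((dvd_pow_self 2 ht0).trans (ht ▸ hdvd))
    obtain ⟨d, hd, hd2⟩ : ∃ d : ℕ, Odd d ∧ (a ^ 2) ^ d = (a ^ 2) ^ (A + (n * (e.1.toNat + 1) - e.1.toNat)) := by
      rcases hneven with hev | ha
      · refine ⟨_, ?_, rfl⟩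
        have hle : e.1.toNat ≤ n * (e.1.toNat + 1) := le_trans (Nat.le_succ _) (Nat.le_mul_of_pos_left _ hnpos)
        obtain ⟨n', rfl⟩ := hev
        cases h1 : e.1 <;> cases h3 : e'.1 <;> simp_all [hA', parity_simps] <;> simp [← Nat.not_odd_iff_even]
      · exact ⟨1, odd_one, by rw [ha, one_pow, one_pow]⟩
    obtain ⟨m, hm⟩ := (isOfFinOrder_of_finite (b ^ (2 * j))).mem_powers_iff_mem_zpowers.mpr
      (inv_mem (mem_zpowers (b ^ (2 * j))) : (b ^ (2 * j))⁻¹ ∈ zpowers (b ^ (2 * j)))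
    refine ⟨d, j * m, hd, ?_⟩
    have hle : e.1.toNat ≤ n * (e.1.toNat + 1) := le_trans (Nat.le_succ _) (Nat.le_mul_of_pos_left _ hnpos)
    rw [pow_mul a 2 d, hd2, pow_add, show b ^ (2 * (j * m)) = (b ^ (2 * j))⁻¹ by
      rw [← hm, ← mul_assoc, pow_mul]]
    rw [eq_inv_iff_mul_eq_one, mul_assoc, ((hab.pow_pow _ _).eq), ← mul_assoc, hkey, ← pow_add,
      Nat.add_sub_cancel' hle, pow_mul, hn, one_pow]
  · left
    have hcc' : c ^ (e.2.2.toNat + e'.2.2.toNat) = c := by
      cases h1 : e.2.2 <;> cases h3 : e'.2.2 <;> simp_all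
    rw [hcc'] at hkey
    obtain ⟨m, hm⟩ := (isOfFinOrder_of_finite (a ^ 2)).mem_powers_iff_mem_zpowers.mpr
      (inv_mem (pow_mem (mem_zpowers (a ^ 2)) e.1.toNat) : ((a ^ 2) ^ e.1.toNat)⁻¹ ∈ zpowers (a ^ 2))
    refine ⟨m + A, j, ?_⟩
    rw [pow_mul, pow_add, mul_assoc, hkey, show (a ^ 2) ^ m = ((a ^ 2) ^ e.1.toNat)⁻¹ from hm, inv_mul_cancel_left]

end classTwo

/-- In a class two quotient some generator squares onto the commutator. -/
theorem exists_good (h2 : IsPGroup 2 G) (hr : Cfsg.SectionalPRankLE 2 2 G) (a b c : G)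
    (hgen : closure ({a, b} : Set G) = ⊤)
    (hc : ∀ g, Commute c g) (hc2 : c ^ 2 = 1) (hrel : b * a = c * a * b) :
    ∃ x y : G, closure ({x, y} : Set G) = ⊤ ∧ c ∈ zpowers (x ^ 2) := by
  by_cases hc1 : c = 1
  · exact ⟨a, b, hgen, hc1 ▸ one_mem _⟩
  have swap : ∀ u v : G, closure ({u, v} : Set G) = ⊤ → closure ({v, u} : Set G) = ⊤ := fun u v h => by
    rwa [Set.pair_comm]
  have hgen2 : ∀ (k l : ℕ), Odd k → closure ({a ^ k * b ^ l, b} : Set G) = ⊤ := by
    intro k l hk
    rw [eq_top_iff, ← hgen, closure_le]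
    rintro z (rfl | rfl)
    · have h1 : z ^ k * b ^ l ∈ closure ({z ^ k * b ^ l, b} : Set G) := subset_closure (by simp)
      have h3 : b ∈ closure ({z ^ k * b ^ l, b} : Set G) := subset_closure (by simp)
      have h4 : z ^ k ∈ closure ({z ^ k * b ^ l, b} : Set G) := by
        simpa using mul_mem h1 (inv_mem (pow_mem h3 l))
      exact (zpowers_le.mpr h4) (mem_zpowers_pow_of_odd h2 z hk)
    · exact subset_closure (by simp)
  have hrel' := rel_symm hc hc2 hrel
  have hpow : ∀ k l n : ℕ, (a ^ k * b ^ l) ^ n = a ^ (k * n) * b ^ (l * n) * c ^ (k * l * n.choose 2) := by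
    intro k l n
    have h1 : b ^ l * a ^ k = c ^ (l * k) * a ^ k * b ^ l := by
      induction k with
      | zero => simp
      | succ k ih =>
        rw [pow_succ, ← mul_assoc, ih, mul_assoc _ (b ^ l) a, (pow_form hc hrel l).1, mul_add, mul_one, pow_add]
        have e : Commute (c ^ l) (a ^ k) := ((hc a).pow_pow l k)
        calc c ^ (l * k) * a ^ k * (c ^ l * a * b ^ l) = c ^ (l * k) * (a ^ k * c ^ l) * a * b ^ l := by
              simp only [mul_assoc]
          _ = _ := by rw [← e.eq]; simp only [mul_assoc]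
    obtain ⟨-, h3⟩ := Lib.OddLocal.mul_pow_of_central_commutator
      ((hc (a ^ k)).pow_left (l * k)) ((hc (b ^ l)).pow_left (l * k)) h1 n
    rw [h3, ← pow_mul, ← pow_mul, ← pow_mul, mul_comm l k]
  -- a generator of order two
  have inv : ∀ u v : G, closure ({u, v} : Set G) = ⊤ → u ^ 2 = 1 → v * u = c * u * v →
      ∃ x y : G, closure ({x, y} : Set G) = ⊤ ∧ c ∈ zpowers (x ^ 2) := by
    intro u v hg hu huv
    rcases relation (a := v) (b := u) h2 hr hc hc2 hc1 (rel_symm hc hc2 huv) with ⟨k, l, h⟩ | ⟨k, l, hk, h⟩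
    · refine ⟨v, u, swap u v hg, ?_⟩
      rw [pow_mul u 2, hu, one_pow, mul_one, pow_mul] at h
      rw [h]
      exact pow_mem (mem_zpowers _) k
    · have hv : v ^ 2 = 1 := by
        rw [pow_mul u 2, hu, one_pow, pow_mul] at h
        obtain ⟨i, hi⟩ := mem_zpowers_pow_of_odd h2 (v ^ 2) hk
        rw [← hi]
        show ((v ^ 2) ^ k) ^ i = 1
        rw [h, one_zpow]
      refine ⟨u * v, v, ?_, ?_⟩
      · rw [eq_top_iff, ← hg, closure_le]
        rintro z (rfl | rfl)
        · have h1 : z * v ∈ closure ({z * v, v} : Set G) := subset_closure (by simp)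
          have h3 : v ∈ closure ({z * v, v} : Set G) := subset_closure (by simp)
          simpa using mul_mem h1 (inv_mem h3)
        · exact subset_closure (by simp)
      · have h1 := (pow_form hc huv 2).2
        rw [hu, hv, Nat.choose_self, pow_one, one_mul, one_mul] at h1
        rw [h1]
        exact mem_zpowers _
  rcases relation h2 hr hc hc2 hc1 hrel with ⟨k, l, hkl⟩ | ⟨k, l, hk, hkl⟩
  · -- `c` is a product of squares
    by_cases hodd : Odd k ∧ Odd l
    · refine inv (a ^ k * b ^ l) b (hgen2 k l hodd.1) ?_ ?_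
      · rw [hpow, Nat.choose_self, mul_one, mul_comm k 2, mul_comm l 2, ← hkl]
        obtain ⟨r, hr'⟩ := hodd.1.mul hodd.2
        rw [hr', pow_succ, pow_mul, hc2, one_pow, one_mul, ← pow_two, hc2]
      · obtain ⟨r, hr'⟩ := hodd.1
        have h1 : b * a ^ k = c * a ^ k * b := by
          have := pow_form (a := b) (b := a) hc hrel' k
          rw [show c ^ k = c by rw [hr', pow_succ, pow_mul, hc2, one_pow, one_mul]] at this
          rw [mul_assoc, this.1, ← mul_assoc, ← mul_assoc, ← pow_two, hc2, one_mul]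
        rw [← mul_assoc, h1, mul_assoc _ b (b ^ l), ← pow_succ', pow_succ, ← mul_assoc, mul_assoc c]
    · -- strip the common power of two
      have main : ∀ (t k l : ℕ), (t = 0 → ¬ (Odd k ∧ Odd l)) → (Odd k ∨ Odd l) →
          c = a ^ (2 ^ (t + 1) * k) * b ^ (2 ^ (t + 1) * l) →
          ∃ x y : G, closure ({x, y} : Set G) = ⊤ ∧ c ∈ zpowers (x ^ 2) := by
        intro t k l ht hkl' h
        have heven : Even (k * l * (2 ^ (t + 1)).choose 2) := by
          rcases Nat.eq_zero_or_pos t with rfl | htp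
          · refine Even.mul_right (Nat.even_mul.mpr ?_) _
            have := ht rfl
            rw [← Nat.not_odd_iff_even, ← Nat.not_odd_iff_even]
            tauto
          · refine Even.mul_left ?_ _
            obtain ⟨t', rfl⟩ := Nat.exists_eq_succ_of_ne_zero htp.ne'
            rw [Nat.choose_two_right, show 2 ^ (t'.succ + 1) = 2 * (2 * 2 ^ t') by rw [pow_succ, pow_succ]; ring, mul_assoc 2,
              Nat.mul_div_cancel_left _ (by norm_num : 0 < 2), mul_assoc 2]
            exact even_two_mul _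
        obtain ⟨r, hr'⟩ := heven
        have hx : (a ^ k * b ^ l) ^ 2 ^ (t + 1) = c := by
          rw [hpow, hr', ← two_mul, pow_mul c, hc2, one_pow, mul_one, mul_comm k, mul_comm l, h]
        rcases hkl' with hk | hl
        · refine ⟨a ^ k * b ^ l, b, hgen2 k l hk, ?_⟩
          rw [← hx, show 2 ^ (t + 1) = 2 * 2 ^ t from pow_succ' 2 t, pow_mul]
          exact pow_mem (mem_zpowers _) _
        · refine ⟨a ^ k * b ^ l, a, ?_, ?_⟩
          · rw [eq_top_iff, ← hgen, closure_le]
            rintro z (rfl | rfl)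
            · exact subset_closure (by simp)
            · have h1 : a ^ k * z ^ l ∈ closure ({a ^ k * z ^ l, a} : Set G) := subset_closure (by simp)
              have h3 : a ∈ closure ({a ^ k * z ^ l, a} : Set G) := subset_closure (by simp)
              have h4 : z ^ l ∈ closure ({a ^ k * z ^ l, a} : Set G) := by
                simpa using mul_mem (inv_mem (pow_mem h3 k)) h1
              exact (zpowers_le.mpr h4) (mem_zpowers_pow_of_odd h2 z hl)
          · rw [← hx, show 2 ^ (t + 1) = 2 * 2 ^ t from pow_succ' 2 t, pow_mul]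
            exact pow_mem (mem_zpowers _) _
      by_cases h0 : k = 0 ∧ l = 0
      · exact absurd (by rw [hkl, h0.1, h0.2, mul_zero, pow_zero, pow_zero, mul_one]) hc1
      obtain ⟨t, k', l', hk', hl', hor⟩ : ∃ t k' l', k = 2 ^ t * k' ∧ l = 2 ^ t * l' ∧ (Odd k' ∨ Odd l') := by
        clear hkl hodd
        induction hn : k + l using Nat.strong_induction_on generalizing k l with
        | _ n ih =>
          by_cases h : Odd k ∨ Odd l
          · exact ⟨0, k, l, (one_mul _).symm, (one_mul _).symm, h⟩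
          · rw [not_or, Nat.not_odd_iff_even, Nat.not_odd_iff_even] at h
            obtain ⟨⟨k1, rfl⟩, ⟨l1, rfl⟩⟩ := h
            obtain ⟨t, k', l', e1, e2, e3⟩ := ih (k1 + l1) (by omega) k1 l1 (by omega) rfl
            exact ⟨t + 1, k', l', by rw [e1]; ring, by rw [e2]; ring, e3⟩
      refine main t k' l' ?_ hor ?_
      · rintro rfl
        rw [pow_zero, one_mul] at hk' hl'
        rwa [← hk', ← hl']
      · rw [hkl, hk', hl', pow_succ', mul_assoc 2, mul_assoc 2]
  · -- `a²` is a power of `b²`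
    obtain ⟨m, hm⟩ := mem_zpowers_pow_of_odd h2 (a ^ 2) hk
    have ha2 : ∃ j : ℕ, a ^ 2 = b ^ (2 * j) := by
      have : a ^ 2 ∈ zpowers (b ^ 2) := by
        rw [← hm]
        show ((a ^ 2) ^ k) ^ m ∈ _
        rw [← pow_mul, hkl, pow_mul]
        exact zpow_mem (pow_mem (mem_zpowers _) l) m
      obtain ⟨j, hj⟩ := (isOfFinOrder_of_finite (b ^ 2)).mem_powers_iff_mem_zpowers.mpr this
      exact ⟨j, by rw [pow_mul]; exact hj.symm⟩
    obtain ⟨j, hj⟩ := ha2
    obtain ⟨n, hn⟩ : ∃ n : ℕ, b ^ n = (b ^ j)⁻¹ := by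
      obtain ⟨n, hn⟩ := (isOfFinOrder_of_finite b).mem_powers_iff_mem_zpowers.mpr
        (inv_mem (pow_mem (mem_zpowers b) j) : (b ^ j)⁻¹ ∈ zpowers b)
      exact ⟨n, hn⟩
    set x := a ^ 1 * b ^ n with hxdef
    have hx2 : x ^ 2 = c ^ n := by
      rw [hxdef, hpow, Nat.choose_self, mul_one, one_mul, one_mul, hj, mul_comm n 2, ← pow_add, ← mul_add,
        mul_comm 2, pow_mul, pow_add, hn, mul_inv_cancel, one_pow, one_mul]
    rcases Nat.even_or_odd n with ⟨r, rfl⟩ | ⟨r, rfl⟩
    · refine inv x b (hgen2 1 _ odd_one) (by rw [hx2, ← two_mul, pow_mul, hc2, one_pow]) ?_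
      rw [hxdef, pow_one, ← mul_assoc, hrel, mul_assoc _ b, ← pow_succ', pow_succ, ← mul_assoc, mul_assoc c]
    · exact ⟨x, b, hgen2 1 _ odd_one, by rw [hx2, pow_succ, pow_mul, hc2, one_pow, one_mul]; exact mem_zpowers _⟩

/-- A finite 2-group of sectional 2-rank at most 2 (every section has no elementary abelian subgroup of order 8) is metacyclic: it has a cyclic normal subgroup with cyclic quotient. -/
theorem result {S : Type*} [Group S] [Finite S] (h2 : IsPGroup 2 S) (hr : Cfsg.SectionalPRankLE 2 2 S) : Cfsg.IsMetacyclic S := by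
  haveI : Fact (Nat.Prime 2) := ⟨Nat.prime_two⟩
  haveI : Group.IsNilpotent S := h2.isNilpotent
  -- two generators
  obtain ⟨a, b, hab⟩ : ∃ a b : S, closure ({a, b} : Set S) = ⊤ := by
    let Φ := sq (⊤ : Subgroup S)
    haveI : Φ.Normal := sq_normal _
    have hsq : ∀ q : S ⧸ Φ, q ^ 2 = 1 := by
      intro q
      induction q using QuotientGroup.induction_on with
      | H x => rw [← QuotientGroup.mk_pow, QuotientGroup.eq_one_iff]; exact subset_closure ⟨x, trivial, rfl⟩
    have hcomm : ∀ x y : S ⧸ Φ, x * y = y * x := fun x y => by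
      have e : ∀ z : S ⧸ Φ, z⁻¹ = z := fun z => inv_eq_of_mul_eq_one_right (by rw [← pow_two, hsq])
      rw [← e (x * y), mul_inv_rev, e, e]
    let e : S ⧸ Φ ≃* ↥(⊤ : Subgroup S) ⧸ (Φ.subgroupOf ⊤) :=
      QuotientGroup.congr Φ (Φ.subgroupOf ⊤) Subgroup.topEquiv.symm (by
        ext x
        simp only [mem_map, mem_subgroupOf]
        exact ⟨by rintro ⟨y, hy, rfl⟩; exact hy, fun hx => ⟨x, hx, rfl⟩⟩)
    have hcard : Nat.card (S ⧸ Φ) ≤ 4 := by
      have := hr ⊤ (Φ.subgroupOf ⊤) ⊤ ⟨⟨fun x y => Subtype.ext (e.symm.injective (by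
        rw [Subgroup.coe_mul, Subgroup.coe_mul, map_mul, map_mul, hcomm]))⟩⟩ fun q _ => e.symm.injective (by rw [map_pow, hsq, map_one])
      rw [Nat.card_congr Subgroup.topEquiv.toEquiv, ← Nat.card_congr e.toEquiv] at this
      exact this
    letI : CommGroup (S ⧸ Φ) := { (inferInstance : Group (S ⧸ Φ)) with mul_comm := hcomm }
    obtain ⟨u, v, huv⟩ : ∃ u v : S ⧸ Φ, closure ({u, v} : Set (S ⧸ Φ)) = ⊤ := by
      by_contra h
      push Not at h
      obtain ⟨u, hu⟩ : ∃ u : S ⧸ Φ, u ≠ 1 := by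
        by_contra h'
        push Not at h'
        exact h 1 1 (eq_top_iff.mpr fun z _ => by rw [h' z]; exact one_mem _)
      obtain ⟨v, hv⟩ : ∃ v : S ⧸ Φ, v ∉ closure ({u, 1} : Set (S ⧸ Φ)) := by
        by_contra h'
        push Not at h'
        exact h u 1 (eq_top_iff.mpr fun z _ => h' z)
      set K1 := closure ({u, 1} : Set (S ⧸ Φ))
      set K2 := closure ({u, v} : Set (S ⧸ Φ))
      have h12 : K1 < K2 := by
        refine lt_of_le_of_ne ((closure_le _).mpr ?_) fun e => hv (e ▸ subset_closure (by simp))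
        rintro z (rfl | rfl)
        · exact subset_closure (by simp)
        · exact one_mem _
      have hp : IsPGroup 2 (S ⧸ Φ) := h2.to_quotient Φ
      obtain ⟨k1, hk1⟩ := IsPGroup.iff_card.mp (hp.to_subgroup K1)
      obtain ⟨k2, hk2⟩ := IsPGroup.iff_card.mp (hp.to_subgroup K2)
      obtain ⟨k3, hk3⟩ := IsPGroup.iff_card.mp hp
      have e1 : Nat.card K1 < Nat.card K2 := lt_of_le_of_ne (card_le_of_le h12.le) fun e =>
        h12.ne (eq_of_le_of_card_ge h12.le e.ge)
      have e2 : Nat.card K2 < Nat.card (S ⧸ Φ) := lt_of_le_of_ne (card_le_card_group K2) fun e =>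
        h u v (eq_top_of_card_eq _ e)
      have e3 : Nat.card K1 ≠ 1 := fun e => hu (by
        have := card_eq_one.mp e
        have hu' : u ∈ K1 := subset_closure (by simp)
        rw [this, mem_bot] at hu'
        exact hu')
      rw [hk1, hk2] at e1
      rw [hk2, hk3] at e2
      rw [hk1] at e3
      rw [hk3] at hcard
      have := (Nat.pow_lt_pow_iff_right Nat.one_lt_two).mp e1
      have := (Nat.pow_lt_pow_iff_right Nat.one_lt_two).mp e2
      have := (Nat.pow_le_pow_iff_right Nat.one_lt_two).mp (hcard.trans_eq (by norm_num : (4 : ℕ) = 2 ^ 2))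
      have : k1 ≠ 0 := fun e => e3 (by rw [e, pow_zero])
      omega
    obtain ⟨a, rfl⟩ := QuotientGroup.mk_surjective u
    obtain ⟨b, rfl⟩ := QuotientGroup.mk_surjective v
    refine ⟨a, b, frattini_nongenerating (eq_top_iff.mpr ?_)⟩
    refine le_trans ?_ (sup_le_sup_left (sq_le_frattini h2) _)
    have h1 : (closure ({a, b} : Set S)).map (QuotientGroup.mk' Φ) = ⊤ := by
      rw [MonoidHom.map_closure, Set.image_pair]; exact huv
    have h3 := congrArg (Subgroup.comap (QuotientGroup.mk' Φ)) h1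
    rw [comap_map_eq, QuotientGroup.ker_mk', comap_top] at h3
    exact h3.ge
  -- pass to the class two quotient
  let D := commutator S
  haveI : D.Normal := inferInstance
  haveI : (sq D).Normal := sq_normal D
  let R := ⁅D, (⊤ : Subgroup S)⁆ ⊔ sq D
  haveI : R.Normal := inferInstance
  let π := QuotientGroup.mk' R
  have hπ : Function.Surjective π := QuotientGroup.mk'_surjective R
  have hRD : R ≤ D := sup_le (commutator_le_left D ⊤) (sq_le D)
  have hcentral : ∀ d ∈ D, ∀ g : S ⧸ R, Commute (π d) g := by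
    intro d hd g
    obtain ⟨g, rfl⟩ := hπ g
    rw [← commutatorElement_eq_one_iff_commute, ← map_commutatorElement, ← MonoidHom.mem_ker,
      QuotientGroup.ker_mk']
    exact mem_sup_left (commutator_mem_commutator hd (mem_top g))
  have hc2 : π ⁅b, a⁆ ^ 2 = 1 := by
    rw [← map_pow, ← MonoidHom.mem_ker, QuotientGroup.ker_mk']
    exact mem_sup_right (subset_closure ⟨_, commutator_mem_commutator (mem_top b) (mem_top a), rfl⟩)
  have hr' : Cfsg.SectionalPRankLE 2 2 (S ⧸ R) := by
    intro H K _ A hA1 hA2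
    let H' := H.comap π
    let φ : H' →* H ⧸ K := (QuotientGroup.mk' K).comp (π.subgroupComap H)
    have hφ : Function.Surjective φ := (QuotientGroup.mk'_surjective K).comp fun h => by
      obtain ⟨x, hx⟩ := hπ h.1
      exact ⟨⟨x, show π x ∈ H by rw [hx]; exact h.2⟩, Subtype.ext hx⟩
    let e := QuotientGroup.quotientKerEquivOfSurjective φ hφ
    haveI := hA1
    have := hr H' φ.ker (A.map e.symm.toMonoidHom) (map_isMulCommutative A _)
      (by rintro _ ⟨q, hq, rfl⟩; rw [← map_pow, hA2 q hq, map_one])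
    rwa [card_map_of_injective e.symm.injective] at this
  obtain ⟨x', y', hgen', hcx⟩ := exists_good (h2.to_quotient R) hr' (π a) (π b) (π ⁅b, a⁆)
    (by rw [← map_top_of_surjective π hπ, ← hab, MonoidHom.map_closure, Set.image_pair])
    (hcentral _ (commutator_mem_commutator (mem_top b) (mem_top a))) hc2
    (by rw [← map_mul, ← map_mul, ← map_mul]; congr 1; simp [commutatorElement_def, mul_assoc])
  obtain ⟨x, rfl⟩ := hπ x'
  obtain ⟨y, rfl⟩ := hπ y'
  have hDfrat : D ≤ frattini S := by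
    refine le_trans ?_ (sq_le_frattini h2)
    haveI := sq_normal (⊤ : Subgroup S)
    show commutator S ≤ sq (⊤ : Subgroup S)
    rw [_root_.commutator_def, commutator_le]
    intro u _ v _
    have e : ∀ z : S ⧸ sq (⊤ : Subgroup S), z⁻¹ = z := by
      intro z
      induction z using QuotientGroup.induction_on with
      | H w =>
        refine inv_eq_of_mul_eq_one_right ?_
        rw [← pow_two, ← QuotientGroup.mk_pow, QuotientGroup.eq_one_iff]
        exact subset_closure ⟨w, trivial, rfl⟩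
    rw [← QuotientGroup.eq_one_iff]
    have hq : ∀ p q : S ⧸ sq (⊤ : Subgroup S), p * q = q * p := fun p q => by
      rw [← e (p * q), mul_inv_rev, e, e]
    show ((u * v * u⁻¹ * v⁻¹ : S) : S ⧸ sq (⊤ : Subgroup S)) = 1
    rw [QuotientGroup.mk_mul, QuotientGroup.mk_mul, QuotientGroup.mk_mul, hq (u : S ⧸ sq (⊤ : Subgroup S)) v,
      QuotientGroup.mk_inv, QuotientGroup.mk_inv, mul_inv_cancel_right, mul_inv_cancel]
  have hgen : closure ({x, y} : Set S) = ⊤ := by
    refine frattini_nongenerating (eq_top_iff.mpr ?_)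
    refine le_trans ?_ (sup_le_sup_left (hRD.trans hDfrat) _)
    have h1 : (closure ({x, y} : Set S)).map π = ⊤ := by
      rw [MonoidHom.map_closure, Set.image_pair]; exact hgen'
    have h3 := congrArg (Subgroup.comap π) h1
    rw [comap_map_eq, QuotientGroup.ker_mk', comap_top] at h3
    exact h3.ge
  have hD : D ≤ zpowers (x ^ 2) ⊔ R := by
    haveI hn : ((zpowers (x ^ 2) ⊔ R) ⊓ D ⊔ R).Normal := by
      refine ⟨fun n hn g => ?_⟩
      have hnD : n ∈ D := (sup_le inf_le_right hRD) hn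
      have h1 : g * n * g⁻¹ * n⁻¹ ∈ R := by
        rw [← QuotientGroup.ker_mk' R, MonoidHom.mem_ker]
        show π (g * n * g⁻¹ * n⁻¹) = 1
        rw [map_mul, map_mul, map_mul, map_inv, map_inv, ← (hcentral n hnD (π g)).eq, mul_inv_cancel_right,
          mul_inv_cancel]
      simpa using mul_mem (mem_sup_right h1 : g * n * g⁻¹ * n⁻¹ ∈ (zpowers (x ^ 2) ⊔ R) ⊓ D ⊔ R) hn
    refine le_trans ?_ (sup_le inf_le_left le_sup_right :
      (zpowers (x ^ 2) ⊔ R) ⊓ D ⊔ R ≤ zpowers (x ^ 2) ⊔ R)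
    set M := (zpowers (x ^ 2) ⊔ R) ⊓ D ⊔ R with hM
    have hcM : ⁅b, a⁆ ∈ M := by
      refine mem_sup_left ⟨?_, commutator_mem_commutator (mem_top b) (mem_top a)⟩
      obtain ⟨i, hi⟩ := mem_zpowers_iff.mp hcx
      rw [← map_pow, ← map_zpow, eq_comm, ← inv_mul_eq_one, ← map_inv, ← map_mul, ← MonoidHom.mem_ker,
        QuotientGroup.ker_mk'] at hi
      have h := mul_mem (mem_sup_left (T := R) (zpow_mem (mem_zpowers (x ^ 2)) i))
        (mem_sup_right (S := zpowers (x ^ 2)) (inv_mem hi))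
      simpa using h
    have hcomm : Commute (QuotientGroup.mk' M b) (QuotientGroup.mk' M a) := by
      rw [← commutatorElement_eq_one_iff_commute, ← map_commutatorElement, ← MonoidHom.mem_ker,
        QuotientGroup.ker_mk']
      exact hcM
    have hall : ∀ u v : S ⧸ M, u * v = v * u := by
      have htop : closure ({QuotientGroup.mk' M a, QuotientGroup.mk' M b} : Set (S ⧸ M)) = ⊤ := by
        rw [← Set.image_pair, ← MonoidHom.map_closure, hab, map_top_of_surjective _ (QuotientGroup.mk'_surjective M)]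
      have hc' : IsMulCommutative (⊤ : Subgroup (S ⧸ M)) := htop ▸ Subgroup.isMulCommutative_closure (by
        rintro u (rfl | rfl) v (rfl | rfl)
        · rfl
        · exact hcomm.symm.eq
        · exact hcomm.eq
        · rfl)
      intro u v
      exact congrArg Subtype.val (hc'.is_comm.comm ⟨u, mem_top u⟩ ⟨v, mem_top v⟩)
    show commutator S ≤ M
    rw [_root_.commutator_def, commutator_le]
    intro u _ v _
    rw [← QuotientGroup.ker_mk' M, MonoidHom.mem_ker, map_commutatorElement, commutatorElement_eq_one_iff_commute]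
    exact hall _ _
  -- the cyclic normal subgroup
  let N := zpowers x ⊔ D
  haveI : N.Normal := Subgroup.Normal.of_commutator_le S (show _root_.commutator S ≤ N from le_sup_right)
  haveI : (sq N).Normal := sq_normal N
  have hDsq : D ≤ sq N := by
    let q := QuotientGroup.mk' (sq N)
    have h1 : D.map q = ⊥ := by
      haveI : (D.map q).Normal := Subgroup.Normal.map inferInstance q (QuotientGroup.mk'_surjective _)
      haveI : Group.IsNilpotent (S ⧸ sq N) := (h2.to_quotient (sq N)).isNilpotent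
      refine Lib.Transfer.eq_bot_of_le_commutator_top ?_
      have hle : D ≤ sq N ⊔ ⁅D, (⊤ : Subgroup S)⁆ := by
        refine hD.trans (sup_le ?_ (sup_le le_sup_right ?_))
        · exact le_trans (zpowers_le.mpr (show x ^ 2 ∈ sq N from subset_closure ⟨x, mem_sup_left (mem_zpowers x), rfl⟩)) le_sup_left
        · exact le_trans (closure_mono (Set.image_mono (SetLike.coe_subset_coe.mpr le_sup_right))) le_sup_left
      have h2' := map_mono (f := q) hle
      rw [Subgroup.map_sup, QuotientGroup.map_mk'_self, bot_sup_eq, Subgroup.map_commutator,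
        map_top_of_surjective q (QuotientGroup.mk'_surjective _)] at h2'
      exact h2'
    rwa [Subgroup.map_eq_bot_iff, QuotientGroup.ker_mk'] at h1
  refine ⟨N, inferInstance, ?_, ?_⟩
  · have hNtop : (zpowers (⟨x, mem_sup_left (mem_zpowers x)⟩ : N)) = ⊤ := by
      refine frattini_nongenerating (eq_top_iff.mpr fun w _ => ?_)
      have hle : N ≤ zpowers x ⊔ sq N := sup_le le_sup_left (hDsq.trans le_sup_right)
      obtain ⟨u, hu, v, hv, e⟩ := mem_sup_of_normal_right.mp (hle w.2)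
      obtain ⟨i, rfl⟩ := hu
      have hv' : (⟨v, sq_le N hv⟩ : N) ∈ sq (⊤ : Subgroup N) := by
        have hsq : sq N ≤ (sq (⊤ : Subgroup N)).map N.subtype := by
          rw [sq, sq, MonoidHom.map_closure, closure_le]
          rintro _ ⟨z, hz, rfl⟩
          exact subset_closure ⟨(⟨z, hz⟩ : N) ^ 2, ⟨(⟨z, hz⟩ : N), trivial, rfl⟩, rfl⟩
        obtain ⟨v', hv', e'⟩ := hsq hv
        rwa [show (⟨v, sq_le N hv⟩ : N) = v' from Subtype.ext e'.symm]
      have : w = (⟨x, mem_sup_left (mem_zpowers x)⟩ : N) ^ i * ⟨v, sq_le N hv⟩ := Subtype.ext (by simpa using e.symm)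
      rw [this]
      exact mul_mem (mem_sup_left (zpow_mem (mem_zpowers _) i))
        (mem_sup_right (sq_le_frattini (h2.to_subgroup N) hv'))
    exact ⟨⟨x, mem_sup_left (mem_zpowers x)⟩, fun w => by rw [← mem_zpowers_iff, hNtop]; exact mem_top w⟩
  · refine ⟨(y : S ⧸ N), fun q => ?_⟩
    obtain ⟨s, rfl⟩ := QuotientGroup.mk_surjective q
    have : closure ({x, y} : Set S) ≤ (zpowers (y : S ⧸ N)).comap (QuotientGroup.mk' N) := by
      rw [closure_le]
      rintro z (rfl | rfl)
      · show (z : S ⧸ N) ∈ zpowers (y : S ⧸ N)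
        rw [(QuotientGroup.eq_one_iff z).mpr (mem_sup_left (mem_zpowers z))]
        exact one_mem _
      · exact mem_zpowers _
    exact this (hgen ▸ mem_top s)

end Cfsg.Agent.S4397
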