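import Cfsg.Statements.S4400

import Cfsg.Agent.Lib.Struct4.TwoGroup
set_option autoImplicit false
open Cfsg

namespace Cfsg.Agent.S4400

open Cfsg.Agent.Lib.Struct4

theorem card_relIndex {S : Type*} [Group S] [Finite S] {A B : Subgroup S} (h : A ≤ B) :
    Nat.card A * A.relIndex B = Nat.card B := by
  rw [← (A.subgroupOf B).card_mul_index, Nat.card_congr (Subgroup.subgroupOfEquivOfLe h).toEquiv]
  rfl

/-- Let S be a finite 2-group of sectional 2-rank at most 4, and let P and Q be normal non-abelian subgroups of S whose centres have order 2 and are different. Then P and Q commute elementwise and intersect trivially, and PQ contains its own centralizer in S. -/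
theorem result {S : Type*} [Group S] [Finite S] (h2 : IsPGroup 2 S) (hr : Cfsg.SectionalPRankLE 2 4 S)
    (P Q : Subgroup S) [P.Normal] [Q.Normal] (hP : ¬ IsMulCommutative ↥P) (hQ : ¬ IsMulCommutative ↥Q)
    (hZP : Nat.card ↥(Subgroup.center ↥P) = 2) (hZQ : Nat.card ↥(Subgroup.center ↥Q) = 2)
    (hne : (Subgroup.center ↥P).map P.subtype ≠ (Subgroup.center ↥Q).map Q.subtype) :
    ⁅P, Q⁆ = ⊥ ∧ P ⊓ Q = ⊥ ∧ Subgroup.centralizer ((P ⊔ Q : Subgroup S) : Set S) ≤ P ⊔ Q := by
  haveI : Fact (Nat.Prime 2) := ⟨Nat.prime_two⟩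
  have hcen : ∀ (X : Subgroup S) [X.Normal], Nat.card ↥(Subgroup.center ↥X) = 2 →
      ∀ z, z ∈ X → z ≠ 1 → z ∈ Subgroup.center S →
        Subgroup.zpowers z = (Subgroup.center ↥X).map X.subtype := by
    intro X _ hX z hzX hz1 hz
    refine Subgroup.eq_of_le_of_card_ge ?_ ?_
    · rw [Subgroup.zpowers_le]
      exact ⟨⟨z, hzX⟩, Subgroup.mem_center_iff.2 fun g => Subtype.ext (Subgroup.mem_center_iff.1 hz g), rfl⟩
    · rw [← Nat.card_congr (Subgroup.equivMapOfInjective _ _ X.subtype_injective).toEquiv, hX, Nat.card_zpowers]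
      have := orderOf_pos z
      rcases Nat.lt_or_ge 1 (orderOf z) with h | h
      · exact h
      · exact absurd (orderOf_eq_one_iff.1 (by omega : orderOf z = 1)) hz1
  have hPQ : P ⊓ Q = ⊥ := by
    by_contra h
    obtain ⟨z, ⟨hzP, hzQ⟩, hz1, hz⟩ := exists_central_mem h2 (P ⊓ Q) h
    exact hne ((hcen P hZP z hzP hz1 hz).symm.trans (hcen Q hZQ z hzQ hz1 hz))
  have hcomm : ⁅P, Q⁆ = ⊥ := le_bot_iff.1 (hPQ ▸ Subgroup.commutator_le_inf P Q)
  have hc : ∀ a ∈ P, ∀ b ∈ Q, a * b = b * a := fun a ha b hb =>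
    Subgroup.commute_of_normal_of_disjoint P Q inferInstance inferInstance (disjoint_iff.2 hPQ) a b ha hb
  refine ⟨hcomm, hPQ, ?_⟩
  set U := P ⊔ Q
  intro c₀ hc₀
  by_contra hc₀U
  -- replace by an element whose square lies in `U`
  obtain ⟨c, hcC, hcU, hc2⟩ : ∃ c, c ∈ Subgroup.centralizer (U : Set S) ∧ c ∉ U ∧ c * c ∈ U := by
    by_contra hcon
    push Not at hcon
    have hall : ∀ k : ℕ, c₀ ^ (2 ^ k) ∉ U := by
      intro k
      induction k with
      | zero => simpa using hc₀U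
      | succ k ih =>
        rw [pow_succ, pow_mul, sq]
        exact hcon _ (Subgroup.pow_mem _ hc₀ _) ih
    obtain ⟨k, hk⟩ := h2 c₀
    exact hall k (hk ▸ U.one_mem)
  set N := sqSub P ⊔ sqSub Q
  have hNU : N ≤ U := sup_le ((sqSub_le P).trans le_sup_left) ((sqSub_le Q).trans le_sup_right)
  set D := U ⊔ Subgroup.zpowers c
  have hNorm : ∀ X : Subgroup S, X.Normal → ∀ g x : S, x ∈ sqSub X → g * x * g⁻¹ ∈ sqSub X :=
    fun X hX g x hx => sqSub_conj_mem X (fun y hy => hX.conj_mem y hy g) hx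
  haveI hNn : N.Normal := by
    haveI : (sqSub P).Normal := ⟨fun x hx g => hNorm P inferInstance g x hx⟩
    haveI : (sqSub Q).Normal := ⟨fun x hx g => hNorm Q inferInstance g x hx⟩
    infer_instance
  have hZsq : ∀ (X : Subgroup S), X.Normal → ¬ IsMulCommutative ↥X → Nat.card ↥(Subgroup.center ↥X) = 2 →
      (Subgroup.center ↥X).map X.subtype ≤ sqSub X := by
    intro X hX hXc hX2
    haveI := hX
    haveI : (sqSub X).Normal := ⟨fun x hx g => hNorm X hX g x hx⟩
    have hb : sqSub X ≠ ⊥ := by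
      intro hb
      refine hXc ⟨⟨fun a b => Subtype.ext ?_⟩⟩
      have h3 := commutator_mem_sqSub a.2 b.2
      rw [hb, Subgroup.mem_bot] at h3
      calc (a : S) * b = ((a : S) * b * (a : S)⁻¹ * (b : S)⁻¹) * (b * a) := by group
        _ = b * a := by rw [h3, one_mul]
    obtain ⟨z, hzX, hz1, hz⟩ := exists_central_mem h2 _ hb
    rw [← hcen X hX2 z (sqSub_le X hzX) hz1 hz]
    exact Subgroup.zpowers_le.2 hzX
  have hsqU : ∀ x ∈ U, x * x ∈ N := by
    intro x hx
    obtain ⟨a, ha, b, hb, rfl⟩ := (card_prod_le P Q hc hPQ).2 x hx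
    have : a * b * (a * b) = (a * a) * (b * b) := by
      rw [mul_assoc a b, ← mul_assoc b a b, ← hc a ha b hb]
      group
    rw [this]
    exact mul_mem (Subgroup.mem_sup_left (sq_mem_sqSub ha)) (Subgroup.mem_sup_right (sq_mem_sqSub hb))
  have hc2N : c * c ∈ N := by
    obtain ⟨a, ha, b, hb, hab⟩ := (card_prod_le P Q hc hPQ).2 _ hc2
    rw [← hab]
    have hcc : ∀ u ∈ U, u * (a * b) = (a * b) * u := by
      intro u hu
      rw [hab]
      exact Subgroup.mem_centralizer_iff.1 ((Subgroup.centralizer _).mul_mem hcC hcC) u hu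
    refine mul_mem (Subgroup.mem_sup_left (hZsq P inferInstance hP hZP ⟨⟨a, ha⟩, ?_, rfl⟩))
      (Subgroup.mem_sup_right (hZsq Q inferInstance hQ hZQ ⟨⟨b, hb⟩, ?_, rfl⟩))
    · refine Subgroup.mem_center_iff.2 fun g => Subtype.ext ?_
      have h3 := hcc g (Subgroup.mem_sup_left g.2)
      rw [← mul_assoc, mul_assoc a b, ← hc g g.2 b hb, ← mul_assoc] at h3
      exact mul_right_cancel h3
    · refine Subgroup.mem_center_iff.2 fun g => Subtype.ext ?_
      have h3 := hcc g (Subgroup.mem_sup_right g.2)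
      rw [← mul_assoc, ← hc a ha g g.2, mul_assoc, mul_assoc] at h3
      exact mul_left_cancel h3
  have hsqD : ∀ x ∈ D, x * x ∈ N := by
    intro x hx
    obtain ⟨u, hu, w, ⟨i, hw⟩, rfl⟩ := Subgroup.mem_sup_of_normal_left.1 hx
    simp only at hw
    subst hw
    have hcu : Commute (c ^ i) u := (show Commute c u from (Subgroup.mem_centralizer_iff.1 hcC u hu).symm).zpow_left i
    have : u * c ^ i * (u * c ^ i) = (u * u) * (c * c) ^ i := by
      rw [(Commute.refl c).mul_zpow, mul_assoc u (c ^ i), ← mul_assoc (c ^ i) u, hcu.eq]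
      group
    rw [this]
    exact mul_mem (hsqU u hu) (Subgroup.zpow_mem _ hc2N i)
  haveI : (N.subgroupOf D).Normal := hNn.subgroupOf D
  have hq2 : ∀ x : ↥D ⧸ N.subgroupOf D, x * x = 1 := by
    intro x
    obtain ⟨y, rfl⟩ := QuotientGroup.mk'_surjective _ x
    rw [← map_mul]
    exact (QuotientGroup.eq_one_iff _).2 (hsqD y y.2)
  have hinv : ∀ x : ↥D ⧸ N.subgroupOf D, x⁻¹ = x := fun x => inv_eq_of_mul_eq_one_right (hq2 x)
  have hcard := hr D (N.subgroupOf D) ⊤
    ⟨⟨fun a b => Subtype.ext (by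
      show (a : ↥D ⧸ N.subgroupOf D) * b = b * a
      rw [← hinv ((a : ↥D ⧸ N.subgroupOf D) * b), mul_inv_rev, hinv, hinv])⟩⟩
    (fun a _ => by rw [sq]; exact hq2 a)
  rw [Subgroup.card_top] at hcard
  change N.relIndex D ≤ 2 ^ 4 at hcard
  have hidx : ∀ X : Subgroup S, ¬ IsMulCommutative ↥X → 4 ≤ (sqSub X).relIndex X :=
    fun X hX => le_of_not_gt fun h => hX (isMulCommutative_of_sqSub h2 X h)
  have hUN : 16 ≤ N.relIndex U := by
    have e1 := card_relIndex hNU
    have e2 : Nat.card U = Nat.card P * Nat.card Q := (card_prod_le P Q hc hPQ).1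
    have e3 : Nat.card N = Nat.card (sqSub P) * Nat.card (sqSub Q) :=
      (card_prod_le _ _ (fun a ha b hb => hc a (sqSub_le P ha) b (sqSub_le Q hb))
        (le_bot_iff.1 (hPQ ▸ inf_le_inf (sqSub_le P) (sqSub_le Q)))).1
    have hmul : 16 * (Nat.card (sqSub P) * Nat.card (sqSub Q)) ≤ Nat.card P * Nat.card Q := by
      have p1 := card_relIndex (sqSub_le P)
      have q1 := card_relIndex (sqSub_le Q)
      have p2 := Nat.mul_le_mul_left (Nat.card (sqSub P)) (hidx P hP)
      have q2 := Nat.mul_le_mul_left (Nat.card (sqSub Q)) (hidx Q hQ)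
      nlinarith
    have hpos : 0 < Nat.card N := Nat.card_pos
    rw [e3] at e1 hpos
    rw [e2] at e1
    nlinarith
  have hDU : 2 ≤ U.relIndex D := by
    have h0 : U.relIndex D ≠ 0 := Subgroup.index_ne_zero_of_finite
    have h1 : U.relIndex D ≠ 1 := fun h => hcU
      (Subgroup.relIndex_eq_one.1 h (Subgroup.mem_sup_right (Subgroup.mem_zpowers c)))
    omega
  have hprod := Subgroup.relIndex_mul_relIndex N U D hNU le_sup_left
  nlinarith [Nat.mul_le_mul hUN hDU]

end Cfsg.Agent.S4400
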