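import Cfsg.Statements.S4401

import Cfsg.Agent.S4400
set_option autoImplicit false
open Cfsg

namespace Cfsg.Agent.S4401


universe u v

theorem sectional_of_injective {p k : ℕ} {T : Type u} {S : Type v} [Group T] [Group S] (f : T →* S)
    (hf : Function.Injective f) (h : Cfsg.SectionalPRankLE p k S) : Cfsg.SectionalPRankLE p k T := by
  intro H N _ A hA hAp
  let e : H ≃* H.map f := H.equivMapOfInjective f hf
  set N' := N.map e.toMonoidHom with hN'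
  haveI : N'.Normal := (inferInstance : N.Normal).map _ e.surjective
  let e' : H ⧸ N ≃* (H.map f) ⧸ N' := QuotientGroup.congr N N' e hN'.symm
  have h1 := h (H.map f) N' (A.map e'.toMonoidHom) ⟨⟨fun a b => ?_⟩⟩ fun a ha => ?_
  · exact (Subgroup.card_map_of_injective (K := A) (f := e'.toMonoidHom) e'.injective).symm.le.trans h1
  · obtain ⟨a, a₀, ha₀, rfl⟩ := a
    obtain ⟨b, b₀, hb₀, rfl⟩ := b
    refine Subtype.ext ?_
    show e'.toMonoidHom a₀ * e'.toMonoidHom b₀ = e'.toMonoidHom b₀ * e'.toMonoidHom a₀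
    rw [← map_mul, ← map_mul, show a₀ * b₀ = b₀ * a₀ from congrArg Subtype.val (hA.is_comm.comm ⟨a₀, ha₀⟩ ⟨b₀, hb₀⟩)]
  · obtain ⟨a₀, ha₀, rfl⟩ := ha
    rw [← map_pow, hAp a₀ ha₀, map_one]

theorem sectional_half {k : ℕ} {T : Type u} [Group T] [Finite T] (h : Cfsg.SectionalPRankLE 2 (2 * k) (T × T)) :
    Cfsg.SectionalPRankLE 2 k T := by
  intro H N _ A hA hAp
  let π : (H.prod H) →* (H ⧸ N) × (H ⧸ N) :=
    ((QuotientGroup.mk' N).prodMap (QuotientGroup.mk' N)).comp (H.prodEquiv H).toMonoidHom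
  have hπ : Function.Surjective π := by
    rintro ⟨a, b⟩
    obtain ⟨a, rfl⟩ := QuotientGroup.mk'_surjective N a
    obtain ⟨b, rfl⟩ := QuotientGroup.mk'_surjective N b
    exact ⟨(H.prodEquiv H).symm (a, b), by simp [π]⟩
  let e := QuotientGroup.quotientKerEquivOfSurjective π hπ
  have h1 := h (H.prod H) π.ker ((A.prod A).map e.symm.toMonoidHom) ⟨⟨fun a b => ?_⟩⟩ fun a ha => ?_
  · rw [Subgroup.card_map_of_injective e.symm.injective, Nat.card_congr (A.prodEquiv A).toEquiv, Nat.card_prod,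
      mul_comm 2 k, pow_mul, pow_two] at h1
    exact Nat.mul_self_le_mul_self_iff.1 h1
  · obtain ⟨a, ⟨a₁, a₂⟩, ⟨ha₁, ha₂⟩, rfl⟩ := a
    obtain ⟨b, ⟨b₁, b₂⟩, ⟨hb₁, hb₂⟩, rfl⟩ := b
    refine Subtype.ext ?_
    show e.symm.toMonoidHom (a₁, a₂) * e.symm.toMonoidHom (b₁, b₂) = _
    rw [← map_mul, show ((a₁, a₂) : (H ⧸ N) × (H ⧸ N)) * (b₁, b₂) = (b₁, b₂) * (a₁, a₂) from
      Prod.ext (congrArg Subtype.val (hA.is_comm.comm ⟨a₁, ha₁⟩ ⟨b₁, hb₁⟩))
        (congrArg Subtype.val (hA.is_comm.comm ⟨a₂, ha₂⟩ ⟨b₂, hb₂⟩)), map_mul]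
    rfl
  · obtain ⟨⟨a₁, a₂⟩, ⟨ha₁, ha₂⟩, rfl⟩ := ha
    rw [← map_pow, show ((a₁, a₂) : (H ⧸ N) × (H ⧸ N)) ^ 2 = 1 from Prod.ext (hAp a₁ ha₁) (hAp a₂ ha₂), map_one]

/-- Two conjugates with different centres, both normal in `T`, commute and contain their centralizer. -/
theorem two_normal {S : Type u} [Group S] [Finite S] (h2 : IsPGroup 2 S) (hr : Cfsg.SectionalPRankLE 2 4 S)
    (T P Q : Subgroup S) (hPT : P ≤ T) (hQT : Q ≤ T) (hPn : ∀ s ∈ T, ∀ x ∈ P, s * x * s⁻¹ ∈ P)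
    (hQn : ∀ s ∈ T, ∀ x ∈ Q, s * x * s⁻¹ ∈ Q)
    (hP : ∃ a ∈ P, ∃ b ∈ P, a * b ≠ b * a) (hQ : ∃ a ∈ Q, ∃ b ∈ Q, a * b ≠ b * a)
    (zP zQ : S) (hzP1 : zP ≠ 1) (hzQ1 : zQ ≠ 1)
    (hzP : ∀ a, (a ∈ P ∧ ∀ b ∈ P, b * a = a * b) ↔ a = 1 ∨ a = zP)
    (hzQ : ∀ a, (a ∈ Q ∧ ∀ b ∈ Q, b * a = a * b) ↔ a = 1 ∨ a = zQ) (hne : zP ≠ zQ) :
    (∀ a ∈ P, ∀ b ∈ Q, a * b = b * a) ∧ P ⊓ Q = ⊥ ∧
      ∀ c ∈ T, (∀ a ∈ P, c * a = a * c) → (∀ b ∈ Q, c * b = b * c) → ∃ a ∈ P, ∃ b ∈ Q, a * b = c := by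
  have hnc : ∀ X : Subgroup S, X ≤ T → (∃ a ∈ X, ∃ b ∈ X, a * b ≠ b * a) →
      ¬ IsMulCommutative ↥(X.subgroupOf T) := by
    rintro X hX ⟨a, ha, b, hb, hab⟩ hc
    exact hab (congrArg (fun t : X.subgroupOf T => ((t : T) : S))
      (hc.is_comm.comm ⟨⟨a, hX ha⟩, ha⟩ ⟨⟨b, hX hb⟩, hb⟩))
  have hcen : ∀ (X : Subgroup S) (z : S), X ≤ T → z ≠ 1 →
      (∀ a, (a ∈ X ∧ ∀ b ∈ X, b * a = a * b) ↔ a = 1 ∨ a = z) →
      Nat.card ↥(Subgroup.center ↥(X.subgroupOf T)) = 2 ∧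
      ∀ t : T, t ∈ (Subgroup.center ↥(X.subgroupOf T)).map (X.subgroupOf T).subtype ↔ ((t : S) = 1 ∨ (t : S) = z) := by
    intro X z hX hz1 hz
    have key : ∀ t : T, t ∈ (Subgroup.center ↥(X.subgroupOf T)).map (X.subgroupOf T).subtype ↔ ((t : S) = 1 ∨ (t : S) = z) := by
      intro t
      rw [← hz (t : S)]
      constructor
      · rintro ⟨y, hy, rfl⟩
        exact ⟨y.2, fun b hb =>
          congrArg (fun u : X.subgroupOf T => ((u : T) : S)) (Subgroup.mem_center_iff.1 hy ⟨⟨b, hX hb⟩, hb⟩)⟩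
      · rintro ⟨ht, hc⟩
        exact ⟨⟨t, ht⟩, Subgroup.mem_center_iff.2 fun g => Subtype.ext (Subtype.ext (hc _ g.2)), rfl⟩
    refine ⟨?_, key⟩
    rw [Nat.card_congr (Subgroup.equivMapOfInjective _ _ (X.subgroupOf T).subtype_injective).toEquiv]
    have hzX : z ∈ X := ((hz z).2 (Or.inr rfl)).1
    rw [Nat.card_eq_two_iff]
    refine ⟨⟨1, one_mem _⟩, ⟨⟨z, hX hzX⟩, (key _).2 (Or.inr rfl)⟩, ?_, ?_⟩
    · intro h
      exact hz1 (congrArg (fun u : (Subgroup.center ↥(X.subgroupOf T)).map (X.subgroupOf T).subtype => ((u : T) : S)) h).symm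
    · refine Set.eq_univ_iff_forall.2 fun t => ?_
      rcases (key t.1).1 t.2 with h | h
      · exact Or.inl (Subtype.ext (Subtype.ext h))
      · exact Or.inr (Subtype.ext (Subtype.ext h))
  haveI : (P.subgroupOf T).Normal := ⟨fun x hx g => hPn g g.2 x hx⟩
  haveI : (Q.subgroupOf T).Normal := ⟨fun x hx g => hQn g g.2 x hx⟩
  obtain ⟨hcP, hkP⟩ := hcen P zP hPT hzP1 hzP
  obtain ⟨hcQ, hkQ⟩ := hcen Q zQ hQT hzQ1 hzQ
  obtain ⟨hcomm, hinf, hC⟩ := S4400.result (S := T) (h2.to_subgroup T)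
    (sectional_of_injective T.subtype T.subtype_injective hr) (P.subgroupOf T) (Q.subgroupOf T)
    (hnc P hPT hP) (hnc Q hQT hQ) hcP hcQ (by
      intro he
      have h1 := (hkP ⟨zP, hPT ((hzP zP).2 (Or.inr rfl)).1⟩).2 (Or.inr rfl)
      rw [he, hkQ] at h1
      exact h1.elim hzP1 hne)
  have hc' : ∀ a ∈ P.subgroupOf T, ∀ b ∈ Q.subgroupOf T, a * b = b * a := fun a ha b hb =>
    Subgroup.mem_centralizer_iff.1 ((Subgroup.commutator_eq_bot_iff_le_centralizer.1 hcomm) ha) b hb |>.symm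
  refine ⟨fun a ha b hb => ?_, ?_, ?_⟩
  · exact congrArg Subtype.val (hc' ⟨a, hPT ha⟩ ha ⟨b, hQT hb⟩ hb)
  · refine le_bot_iff.1 fun x hx => ?_
    have : (⟨x, hPT hx.1⟩ : T) ∈ P.subgroupOf T ⊓ Q.subgroupOf T := ⟨hx.1, hx.2⟩
    rw [hinf, Subgroup.mem_bot] at this
    exact congrArg Subtype.val this
  · intro c hcT hcP hcQ
    have hmem : (⟨c, hcT⟩ : T) ∈ Subgroup.centralizer
        ((P.subgroupOf T ⊔ Q.subgroupOf T : Subgroup T) : Set T) := by
      rw [Subgroup.mem_centralizer_iff]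
      intro y hy
      have hle : P.subgroupOf T ⊔ Q.subgroupOf T ≤ Subgroup.centralizer {(⟨c, hcT⟩ : T)} :=
        sup_le (fun a ha => Subgroup.mem_centralizer_singleton_iff.2 (Subtype.ext (hcP a ha).symm))
          (fun a ha => Subgroup.mem_centralizer_singleton_iff.2 (Subtype.ext (hcQ a ha).symm))
      exact Subgroup.mem_centralizer_singleton_iff.1 (hle hy)
    obtain ⟨a, ha, b, hb, hab⟩ := Subgroup.mem_sup_of_normal_left.1 (hC hmem)
    exact ⟨a, ha, b, hb, congrArg Subtype.val hab⟩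


/-- Let S be a finite 2-group of sectional 2-rank at most 4 and P a proper non-abelian subgroup whose centre has order 2. Let S₀ be the centralizer in S of Z(P) and suppose P is normal in S₀. Then either S₀ = S, or P has sectional 2-rank at most 2 and S₀ has index 2 in S. -/
theorem result {S : Type*} [Group S] [Finite S] (h2 : IsPGroup 2 S) (hr : Cfsg.SectionalPRankLE 2 4 S)
    (P : Subgroup S) (hPlt : P ≠ ⊤) (hP : ¬ IsMulCommutative ↥P) (hZP : Nat.card ↥(Subgroup.center ↥P) = 2)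
    (S₀ : Subgroup S) (hS₀ : S₀ = Subgroup.centralizer (((Subgroup.center ↥P).map P.subtype : Subgroup S) : Set S))
    (hPn : ∀ s ∈ S₀, ∀ x ∈ P, s * x * s⁻¹ ∈ P) :
    S₀ = ⊤ ∨ (Cfsg.SectionalPRankLE 2 2 ↥P ∧ S₀.index = 2) := by
  haveI : Fact (Nat.Prime 2) := ⟨Nat.prime_two⟩
  by_cases htop : S₀ = ⊤
  · exact Or.inl htop
  right
  -- the centre of `P`
  obtain ⟨z, hz1, hzP⟩ : ∃ z : S, z ≠ 1 ∧ ∀ a, (a ∈ P ∧ ∀ b ∈ P, b * a = a * b) ↔ a = 1 ∨ a = z := by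
    obtain ⟨y, y', hy, huniv⟩ := Nat.card_eq_two_iff.1 hZP
    have hall : ∀ t : Subgroup.center P, t = y ∨ t = y' := fun t => by simpa using Set.eq_univ_iff_forall.1 huniv t
    obtain ⟨w, hw1, hw⟩ : ∃ w : Subgroup.center P, w ≠ 1 ∧ ∀ t, t = 1 ∨ t = w := by
      rcases hall 1 with h | h
      · exact ⟨y', fun e => hy (h.symm.trans e.symm), fun t => h ▸ hall t⟩
      · exact ⟨y, fun e => hy (e.trans h), fun t => h ▸ (hall t).symm⟩
    refine ⟨w.1.1, fun e => hw1 (Subtype.ext (Subtype.ext e)), fun a => ⟨fun ⟨ha, hc⟩ => ?_, ?_⟩⟩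
    · rcases hw ⟨⟨a, ha⟩, Subgroup.mem_center_iff.2 fun g => Subtype.ext (hc g g.2)⟩ with h | h
      · exact Or.inl (congrArg (fun t : Subgroup.center P => ((t : P) : S)) h)
      · exact Or.inr (congrArg (fun t : Subgroup.center P => ((t : P) : S)) h)
    · rintro (rfl | rfl)
      · exact ⟨P.one_mem, fun b _ => by simp⟩
      · exact ⟨w.1.2, fun b hb => congrArg Subtype.val (Subgroup.mem_center_iff.1 w.2 ⟨b, hb⟩)⟩
  have hPnc : ∃ a ∈ P, ∃ b ∈ P, a * b ≠ b * a := by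
    by_contra h
    push Not at h
    exact hP ⟨⟨fun a b => Subtype.ext (h a a.2 b b.2)⟩⟩
  have hS0 : ∀ s, s ∈ S₀ ↔ s * z * s⁻¹ = z := by
    intro s
    rw [hS₀, Subgroup.mem_centralizer_iff, mul_inv_eq_iff_eq_mul]
    constructor
    · intro h
      obtain ⟨hzmem, hzc⟩ := (hzP z).2 (Or.inr rfl)
      exact (h z ⟨⟨z, hzmem⟩, Subgroup.mem_center_iff.2 fun g => Subtype.ext (hzc g g.2), rfl⟩).symm
    · rintro h _ ⟨⟨a, ha⟩, hac, rfl⟩
      rcases (hzP a).1 ⟨ha, fun b hb => congrArg Subtype.val (Subgroup.mem_center_iff.1 hac ⟨b, hb⟩)⟩ with rfl | rfl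
      · simp
      · exact h.symm
  have hPS0 : P ≤ S₀ := fun a ha => (hS0 a).2 (mul_inv_eq_iff_eq_mul.2 (((hzP z).2 (Or.inr rfl)).2 a ha))
  set N := Subgroup.normalizer (S₀ : Set S) with hN
  haveI := h2.isNilpotent
  have hlt : S₀ < N := Group.normalizerCondition_of_isNilpotent S₀ (Ne.lt_top htop)
  obtain ⟨g, hgN, hg0⟩ := SetLike.exists_of_lt hlt
  -- conjugates of `P` under the normalizer
  let c : S → Subgroup S := fun n => P.map (MulAut.conj n).toMonoidHom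
  have hmemc : ∀ n x, x ∈ c n ↔ n⁻¹ * x * n ∈ P := by
    intro n x
    constructor
    · rintro ⟨a, ha, rfl⟩
      simpa [mul_assoc] using ha
    · intro h
      exact ⟨_, h, by simp [mul_assoc]⟩
  have hcle : ∀ n ∈ N, c n ≤ S₀ := by
    intro n hn x hx
    have h1 := (Subgroup.mem_normalizer_iff.1 hn _).1 (hPS0 ((hmemc n x).1 hx))
    simpa [mul_assoc] using h1
  have hcn : ∀ n ∈ N, ∀ s ∈ S₀, ∀ x ∈ c n, s * x * s⁻¹ ∈ c n := by
    intro n hn s hs x hx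
    rw [hmemc] at hx ⊢
    have h1 : n⁻¹ * s * n ∈ S₀ := by
      have := (Subgroup.mem_normalizer_iff.1 (inv_mem hn) s).1 hs
      simpa using this
    have h3 := hPn _ h1 _ hx
    rwa [show n⁻¹ * s * n * (n⁻¹ * x * n) * (n⁻¹ * s * n)⁻¹ = n⁻¹ * (s * x * s⁻¹) * n by group] at h3
  have hcz : ∀ n a, (a ∈ c n ∧ ∀ b ∈ c n, b * a = a * b) ↔ a = 1 ∨ a = n * z * n⁻¹ := by
    intro n a
    have h1 := hzP (n⁻¹ * a * n)
    constructor
    · rintro ⟨ha, hb⟩
      rcases h1.1 ⟨(hmemc n a).1 ha, fun b hbP => by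
        have h2 := hb (n * b * n⁻¹) ((hmemc n _).2 (by simpa [mul_assoc] using hbP))
        calc b * (n⁻¹ * a * n) = n⁻¹ * ((n * b * n⁻¹) * a) * n := by group
          _ = n⁻¹ * (a * (n * b * n⁻¹)) * n := by rw [h2]
          _ = _ := by group⟩ with h | h
      · left
        calc a = n * (n⁻¹ * a * n) * n⁻¹ := by group
          _ = 1 := by rw [h]; group
      · right
        calc a = n * (n⁻¹ * a * n) * n⁻¹ := by group
          _ = n * z * n⁻¹ := by rw [h]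
    · intro ha
      have h2 : n⁻¹ * a * n = 1 ∨ n⁻¹ * a * n = z := by
        rcases ha with rfl | rfl
        · left; group
        · right; group
      obtain ⟨h3, h4⟩ := h1.2 h2
      refine ⟨(hmemc n a).2 h3, fun b hb => ?_⟩
      calc b * a = n * ((n⁻¹ * b * n) * (n⁻¹ * a * n)) * n⁻¹ := by group
        _ = n * ((n⁻¹ * a * n) * (n⁻¹ * b * n)) * n⁻¹ := by rw [h4 _ ((hmemc n b).1 hb)]
        _ = a * b := by group
  have hcnc : ∀ n, ∃ a ∈ c n, ∃ b ∈ c n, a * b ≠ b * a := by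
    intro n
    obtain ⟨a, ha, b, hb, hab⟩ := hPnc
    refine ⟨n * a * n⁻¹, ⟨a, ha, rfl⟩, n * b * n⁻¹, ⟨b, hb, rfl⟩, fun h => hab ?_⟩
    calc a * b = n⁻¹ * ((n * a * n⁻¹) * (n * b * n⁻¹)) * n := by group
      _ = n⁻¹ * ((n * b * n⁻¹) * (n * a * n⁻¹)) * n := by rw [h]
      _ = b * a := by group
  have hne1 : ∀ n, n * z * n⁻¹ ≠ 1 := fun n h => hz1 (by simpa using h)
  have pair : ∀ n ∈ N, ∀ m ∈ N, n * z * n⁻¹ ≠ m * z * m⁻¹ →
      (∀ a ∈ c n, ∀ b ∈ c m, a * b = b * a) ∧ c n ⊓ c m = ⊥ ∧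
        ∀ x ∈ S₀, (∀ a ∈ c n, x * a = a * x) → (∀ b ∈ c m, x * b = b * x) → ∃ a ∈ c n, ∃ b ∈ c m, a * b = x :=
    fun n hn m hm hne => two_normal h2 hr S₀ (c n) (c m) (hcle n hn) (hcle m hm) (hcn n hn) (hcn m hm)
      (hcnc n) (hcnc m) _ _ (hne1 n) (hne1 m) (hcz n) (hcz m) hne
  have hc1 : c 1 = P := by ext x; rw [hmemc]; simp
  set Q := c g with hQ
  set z' := g * z * g⁻¹ with hz'
  have hzz' : z ≠ z' := fun h => hg0 ((hS0 g).2 h.symm)
  obtain ⟨hPQ, hinf, hcent⟩ : (∀ a ∈ P, ∀ b ∈ Q, a * b = b * a) ∧ P ⊓ Q = ⊥ ∧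
      ∀ x ∈ S₀, (∀ a ∈ P, x * a = a * x) → (∀ b ∈ Q, x * b = b * x) → ∃ a ∈ P, ∃ b ∈ Q, a * b = x := by
    have := pair 1 N.one_mem g hgN (by simpa using hzz')
    rwa [hc1] at this
  -- the centralizer of both
  have hW : ∀ x ∈ S₀, (∀ a ∈ P, x * a = a * x) → (∀ b ∈ Q, x * b = b * x) →
      ∃ a b, (a = 1 ∨ a = z) ∧ (b = 1 ∨ b = z') ∧ a * b = x := by
    intro x hx hxP hxQ
    obtain ⟨a, ha, b, hb, rfl⟩ := hcent x hx hxP hxQ
    refine ⟨a, b, (hzP a).1 ⟨ha, fun p hp => ?_⟩, (hcz g b).1 ⟨hb, fun q hq => ?_⟩, rfl⟩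
    · have h1 := hxP p hp
      have h2 : b * p = p * b := (hPQ p hp b hb).symm
      rw [mul_assoc, h2, ← mul_assoc, ← mul_assoc] at h1
      exact (mul_right_cancel h1).symm
    · have h1 := hxQ q hq
      have h2 : q * a = a * q := (hPQ a ha q hq).symm
      rw [← mul_assoc, h2, mul_assoc, mul_assoc] at h1
      exact (mul_left_cancel h1).symm
  have hinj : ∀ a ∈ P, ∀ b ∈ Q, a * b = 1 → a = 1 := by
    intro a ha b hb h
    have : a ∈ P ⊓ Q := ⟨ha, by rw [eq_inv_of_mul_eq_one_left h]; exact Q.inv_mem hb⟩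
    rwa [hinf, Subgroup.mem_bot] at this
  -- two conjugates of `z` only
  have htwo : ∀ n ∈ N, n * z * n⁻¹ = z ∨ n * z * n⁻¹ = z' := by
    intro n hn
    by_contra h
    push Not at h
    obtain ⟨h1, -, -⟩ := pair n hn 1 N.one_mem (by simpa using h.1)
    obtain ⟨h1', -, -⟩ := pair n hn g hgN h.2
    rw [hc1] at h1
    obtain ⟨a, ha, b, hb, hab⟩ := hcnc n
    obtain ⟨p, q, hp, hq, rfl⟩ := hW a (hcle n hn ha) (h1 a ha) (h1' a ha)
    refine hab ?_
    have hp' : Commute b p := by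
      rcases hp with rfl | rfl
      · exact Commute.one_right b
      · exact h1 b hb _ ((hzP _).2 (Or.inr rfl)).1
    have hq' : Commute b q := by
      rcases hq with rfl | rfl
      · exact Commute.one_right b
      · exact h1' b hb _ ((hcz g _).2 (Or.inr rfl)).1
    exact ((hp'.mul_right hq').eq).symm
  have hswap : ∀ n ∈ N, n ∉ S₀ → g⁻¹ * n ∈ S₀ := by
    intro n hn hn0
    have h1 : n * z * n⁻¹ = g * z * g⁻¹ := (htwo n hn).resolve_left fun h => hn0 ((hS0 n).2 h)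
    rw [hS0, show g⁻¹ * n * z * (g⁻¹ * n)⁻¹ = g⁻¹ * (n * z * n⁻¹) * g by group, h1]
    group
  have hrel : S₀.relIndex N = 2 := by
    rw [Subgroup.relIndex, Subgroup.index_eq_two_iff]
    refine ⟨⟨g, hgN⟩, fun n => ?_⟩
    simp only [Subgroup.mem_subgroupOf, Subgroup.coe_mul]
    by_cases h : (n : S) ∈ S₀
    · refine Or.inr ⟨h, fun h' => hg0 ?_⟩
      have := S₀.mul_mem (S₀.inv_mem h) h'
      simpa using this
    · refine Or.inl ⟨?_, h⟩
      have h1 := (Subgroup.mem_normalizer_iff.1 hgN (g⁻¹ * n)).1 (hswap n n.2 h)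
      have hgg : g * g ∈ S₀ := by
        by_contra hgg
        have := hswap _ (N.mul_mem hgN hgN) hgg
        exact hg0 (by simpa using this)
      have h2 := S₀.mul_mem h1 hgg
      rw [show g * (g⁻¹ * (n : S)) * g⁻¹ * (g * g) = (n : S) * g by group] at h2
      exact h2
  have hsec : Cfsg.SectionalPRankLE 2 2 ↥P := by
    let f : P × P →* S :=
      { toFun := fun p => (p.1 : S) * (g * p.2 * g⁻¹)
        map_one' := by simp
        map_mul' := fun x y => by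
          have h1 : ((y.1 : S)) * (g * x.2 * g⁻¹) = (g * x.2 * g⁻¹) * y.1 :=
            hPQ _ y.1.2 _ ⟨x.2, x.2.2, rfl⟩
          show ((x.1 : S) * y.1) * (g * ((x.2 : S) * y.2) * g⁻¹) =
            (x.1 : S) * (g * x.2 * g⁻¹) * ((y.1 : S) * (g * y.2 * g⁻¹))
          calc _ = (x.1 : S) * (((y.1 : S) * (g * x.2 * g⁻¹)) * (g * y.2 * g⁻¹)) := by group
            _ = _ := by rw [h1]; group }
    refine sectional_half (k := 2) (sectional_of_injective f ?_ hr)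
    rw [injective_iff_map_eq_one]
    rintro ⟨p, q⟩ h
    have hp : (p : S) = 1 := hinj p p.2 _ ⟨q, q.2, rfl⟩ h
    refine Prod.ext (Subtype.ext hp) (Subtype.ext ?_)
    change (p : S) * (g * q * g⁻¹) = 1 at h
    rw [hp, one_mul, conj_eq_one_iff] at h
    exact h
  refine ⟨hsec, ?_⟩
  suffices hNtop : N = ⊤ by
    rw [hNtop, Subgroup.relIndex_top_right] at hrel
    exact hrel
  by_contra hNne
  obtain ⟨h, hhM, hhN⟩ := SetLike.exists_of_lt (Group.normalizerCondition_of_isNilpotent N (Ne.lt_top hNne))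
  -- the product of the two central involutions is the only central involution of the normalizer
  set u := z * z' with hu
  have hzmem : z ∈ P := ((hzP z).2 (Or.inr rfl)).1
  have hz'mem : z' ∈ Q := ⟨z, hzmem, rfl⟩
  have hz2 : z * z = 1 := by
    have h1 := (hzP (z * z)).1 ⟨P.mul_mem hzmem hzmem, fun b hb => by
      have := ((hzP z).2 (Or.inr rfl)).2 b hb
      exact ((show Commute b z from this).mul_right this).eq⟩
    exact h1.resolve_right fun e => hz1 (mul_eq_left.1 e)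
  have hcom : Commute z z' := hPQ z hzmem z' hz'mem
  have hucomm : ∀ n ∈ N, n * u = u * n := by
    intro n hn
    have hw : ∀ m ∈ N, m * z' * m⁻¹ = z ∨ m * z' * m⁻¹ = z' := by
      intro m hm
      have := htwo (m * g) (N.mul_mem hm hgN)
      rwa [show m * g * z * (m * g)⁻¹ = m * z' * m⁻¹ by rw [hz']; group] at this
    have hne' : n * z * n⁻¹ ≠ n * z' * n⁻¹ := fun e => hzz' (by simpa using e)
    rw [← mul_inv_eq_iff_eq_mul, hu, show n * (z * z') * n⁻¹ = (n * z * n⁻¹) * (n * z' * n⁻¹) by group]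
    rcases htwo n hn with h1 | h1 <;> rcases hw n hn with h2 | h2 <;> rw [h1, h2] at hne' ⊢
    · exact absurd rfl hne'
    · exact hcom.eq.symm
    · exact absurd rfl hne'
  have hu_unique : ∀ x ∈ N, (∀ n ∈ N, n * x = x * n) → x = 1 ∨ x = u := by
    intro x hx hxc
    have hzN : z ∈ N := hlt.le (hPS0 hzmem)
    have hx0 : x ∈ S₀ := (hS0 x).2 (mul_inv_eq_iff_eq_mul.2 (hxc z hzN).symm)
    obtain ⟨a, b, ha, hb, rfl⟩ := hW x hx0 (fun p hp => (hxc p (hlt.le (hPS0 hp))).symm)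
      (fun q hq => (hxc q (hlt.le (hcle g hgN hq))).symm)
    have hgx : g * (a * b) * g⁻¹ = a * b := mul_inv_eq_iff_eq_mul.2 (hxc g hgN)
    rcases ha with rfl | rfl <;> rcases hb with rfl | rfl
    · exact Or.inl (one_mul 1)
    · exfalso
      rw [one_mul] at hgx
      exact hzz' ((MulAut.conj g).injective (hz'.symm.trans hgx.symm))
    · exfalso
      rw [mul_one] at hgx
      exact hzz' hgx.symm
    · exact Or.inr rfl
  have hu1 : u ≠ 1 := fun e => hzz' ((inv_eq_of_mul_eq_one_right hz2).symm.trans (inv_eq_of_mul_eq_one_right e))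
  have hhconj : ∀ n, n ∈ N ↔ h * n * h⁻¹ ∈ N := Subgroup.mem_normalizer_iff.1 hhM
  have hzN : z ∈ N := hlt.le (hPS0 hzmem)
  have hz'N : z' ∈ N := hlt.le (hcle g hgN hz'mem)
  have hhu : h * u * h⁻¹ = u := by
    refine (hu_unique _ ((hhconj u).1 (N.mul_mem hzN hz'N)) fun n hn => ?_).resolve_left fun e => hu1 (by simpa using e)
    have hm : h⁻¹ * n * h ∈ N := (hhconj _).2 (by rwa [show h * (h⁻¹ * n * h) * h⁻¹ = n by group])
    calc n * (h * u * h⁻¹) = h * ((h⁻¹ * n * h) * u) * h⁻¹ := by group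
      _ = h * (u * (h⁻¹ * n * h)) * h⁻¹ := by rw [hucomm _ hm]
      _ = _ := by group
  set x := h * z * h⁻¹ with hxdef
  have hxN : x ∈ N := (hhconj z).1 hzN
  have hxconj : ∀ n ∈ N, n * x * n⁻¹ = x ∨ n * x * n⁻¹ = x * u := by
    intro n hn
    have hm : h⁻¹ * n * h ∈ N := (hhconj _).2 (by rwa [show h * (h⁻¹ * n * h) * h⁻¹ = n by group])
    rw [show n * x * n⁻¹ = h * ((h⁻¹ * n * h) * z * (h⁻¹ * n * h)⁻¹) * h⁻¹ by rw [hxdef]; group]
    rcases htwo _ hm with e | e <;> rw [e]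
    · exact Or.inl rfl
    · right
      conv_rhs => rw [← hhu, hxdef]
      rw [show h * z * h⁻¹ * (h * u * h⁻¹) = h * (z * u) * h⁻¹ by group, hu, ← mul_assoc z z, hz2, one_mul]
  have huP : u ∉ P := fun e => by
    have h1 : z' ∈ P := by
      have := P.mul_mem (P.inv_mem hzmem) e
      simpa [hu] using this
    have h2 : z' ∈ P ⊓ Q := ⟨h1, hz'mem⟩
    rw [hinf, Subgroup.mem_bot] at h2
    exact hne1 g h2
  have huQ : u ∉ Q := fun e => by
    have h1 : z ∈ Q := by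
      have := Q.mul_mem e (Q.inv_mem hz'mem)
      simpa [hu] using this
    have h2 : z ∈ P ⊓ Q := ⟨hzmem, h1⟩
    rw [hinf, Subgroup.mem_bot] at h2
    exact hz1 h2
  by_cases hx0 : x ∈ S₀
  · -- `x` centralises both conjugates
    have key : ∀ X : Subgroup S, X ≤ S₀ → (∀ s ∈ S₀, ∀ a ∈ X, s * a * s⁻¹ ∈ X) → u ∉ X →
        ∀ a ∈ X, x * a = a * x := by
      intro X hX hXn huX a ha
      rcases hxconj a (hlt.le (hX ha)) with e | e
      · exact (mul_inv_eq_iff_eq_mul.1 e).symm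
      · exfalso
        refine huX ?_
        have h1 : x⁻¹ * a * x * a⁻¹ ∈ X := by
          refine X.mul_mem ?_ (X.inv_mem ha)
          have := hXn x⁻¹ (S₀.inv_mem hx0) a ha
          rwa [inv_inv] at this
        rwa [show x⁻¹ * a * x * a⁻¹ = x⁻¹ * (a * x * a⁻¹) by group, e, inv_mul_cancel_left] at h1
    obtain ⟨a, b, ha, hb, hab⟩ := hW x hx0 (key P hPS0 hPn huP) (key Q (hcle g hgN) (hcn g hgN) huQ)
    have hxne1 : x ≠ 1 := hne1 h
    have hback : ∀ y, h * y * h⁻¹ = x → y = z := fun y e => by simpa [hxdef] using e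
    have hh0 : ¬ h * z * h⁻¹ = z := fun e => hhN (hlt.le ((hS0 h).2 e))
    rcases ha with e1 | e1 <;> rcases hb with e2 | e2 <;> rw [e1, e2] at hab
    · exact hxne1 (by rw [← hab, one_mul])
    · rw [one_mul] at hab
      refine hhN ?_
      have h1 : g⁻¹ * h ∈ S₀ := (hS0 _).2 (by
        rw [show g⁻¹ * h * z * (g⁻¹ * h)⁻¹ = g⁻¹ * x * g by rw [hxdef]; group, ← hab, hz']
        group)
      simpa using N.mul_mem hgN (hlt.le h1)
    · exact hh0 (by rw [← hxdef, ← hab, mul_one])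
    · exact hzz' (by
        have h2 : z * z' = z := (hback _ (by rw [← hu, hhu, hu, hab])).trans rfl
        have h3 : z' = 1 := mul_eq_left.1 h2
        exact absurd h3 (hne1 g))
  · -- `x` interchanges the two conjugates, so `P` is of order two
    have hxP : ∀ p ∈ P, x * p * x⁻¹ ∈ Q := by
      intro p hp
      rw [hQ, hmemc]
      have := hPn _ (hswap x hxN hx0) p hp
      rwa [show g⁻¹ * (x * p * x⁻¹) * g = g⁻¹ * x * p * (g⁻¹ * x)⁻¹ by group]
    obtain ⟨a, ha, b, hb, hab⟩ := hPnc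
    have hP2 : ∀ p ∈ P, p = 1 ∨ p = z := by
      intro p hp
      have hq : x * p⁻¹ * x⁻¹ ∈ Q := hxP _ (P.inv_mem hp)
      rcases hxconj p (hlt.le (hPS0 hp)) with e | e
      · left
        refine hinj p hp _ hq ?_
        rw [show p * (x * p⁻¹ * x⁻¹) = p * x * p⁻¹ * x⁻¹ by group, e, mul_inv_cancel]
      · right
        have h1 : p * (x * p⁻¹ * x⁻¹) = z * z' := by
          rw [show p * (x * p⁻¹ * x⁻¹) = p * x * p⁻¹ * x⁻¹ by group, e, ← hucomm x hxN |>.symm, ← hu]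
          group
        have h2 : z⁻¹ * p * ((x * p⁻¹ * x⁻¹) * z'⁻¹) = 1 := by
          rw [show z⁻¹ * p * ((x * p⁻¹ * x⁻¹) * z'⁻¹) = z⁻¹ * (p * (x * p⁻¹ * x⁻¹)) * z'⁻¹ by group, h1]
          group
        exact (inv_mul_eq_one.1 (hinj _ (P.mul_mem (P.inv_mem hzmem) hp) _ (Q.mul_mem hq (Q.inv_mem hz'mem)) h2)).symm
    rcases hP2 a ha with e1 | e1 <;> rcases hP2 b hb with e2 | e2 <;> simp [e1, e2] at hab

end Cfsg.Agent.S4401
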