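import Cfsg.Statements.S4402
import Cfsg.Agent.Lib.SylowS8.Facts
import Cfsg.Agent.Lib.SylowS8.Twist

set_option autoImplicit false
open Cfsg

namespace Cfsg.Agent.S4402

open Cfsg.Agent.Lib.SylowS8 SemidirectProduct

universe u

variable {S : Type u} [Group S] [Finite S]

theorem C2_cases : ∀ z : C2, z = 1 ∨ z = one2 := by decide

theorem K_cases : ∀ k : K, k = 1 ∨ k = (one2, 1) ∨ k = (1, one2) ∨ k = (one2, 1) * (1, one2) := by decide

theorem adjust_u : ∀ u ∈ ([1, ga, gb, ga * gb] : List M), ∀ v : M, (InZ (gb' * v) ∨ InZ (ga' * v)) →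
    u * v = v * u := by decide +kernel

/-- A bound on the order of an abelian section of exponent two, from generators. -/
theorem section_bound (hr : Cfsg.SectionalPRankLE 2 4 S) (T : Set S) (W : Subgroup S)
    (hW : ∀ g ∈ T, ∀ w ∈ W, g * w = w * g) (hcomm : ∀ g ∈ T, ∀ h ∈ T, g * h * g⁻¹ * h⁻¹ ∈ W)
    (hsq : ∀ g ∈ T, g * g ∈ W) (hWT : W ≤ Subgroup.closure T) :
    Nat.card (Subgroup.closure T) ≤ 16 * Nat.card W := by
  set H := Subgroup.closure T
  have hcen : ∀ h ∈ H, ∀ w ∈ W, h * w = w * h := by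
    intro h hh w hw
    have : h ∈ Subgroup.centralizer (W : Set S) :=
      Subgroup.closure_le _ |>.2 (fun g hg => Subgroup.mem_centralizer_iff.2 fun v hv => (hW g hg v hv).symm) hh
    exact (Subgroup.mem_centralizer_iff.1 this w hw).symm
  haveI hN : (W.subgroupOf H).Normal := ⟨fun w hw g => by
    rw [Subgroup.mem_subgroupOf] at hw ⊢
    simpa [Subgroup.coe_mul, hcen g g.2 w hw] using hw⟩
  let q := QuotientGroup.mk' (W.subgroupOf H)
  let T' : Set H := Subtype.val ⁻¹' T
  have hT' : Subgroup.closure T' = ⊤ := Subgroup.closure_closure_coe_preimage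
  have hgen : ∀ z : H ⧸ W.subgroupOf H, z ∈ Subgroup.closure (q '' T') := by
    intro z
    obtain ⟨y, rfl⟩ := QuotientGroup.mk'_surjective _ z
    rw [← MonoidHom.map_closure, hT']
    exact Subgroup.mem_map_of_mem q (Subgroup.mem_top y)
  have hab : ∀ z w : H ⧸ W.subgroupOf H, z * w = w * z := by
    haveI : IsMulCommutative ↥(Subgroup.closure (q '' T')) := by
      refine Subgroup.isMulCommutative_closure ?_
      rintro _ ⟨g, hg, rfl⟩ _ ⟨h, hh, rfl⟩
      have : q (g * h * g⁻¹ * h⁻¹) = 1 := (QuotientGroup.eq_one_iff _).2 (by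
        rw [Subgroup.mem_subgroupOf]
        simpa using hcomm g hg h hh)
      rw [map_mul, map_mul, map_mul, map_inv, map_inv, mul_inv_eq_one, mul_inv_eq_iff_eq_mul] at this
      exact this
    exact fun z w => congrArg Subtype.val ((inferInstance : IsMulCommutative ↥(Subgroup.closure (q '' T'))).is_comm.comm
      ⟨z, hgen z⟩ ⟨w, hgen w⟩)
  have hexp : ∀ z : H ⧸ W.subgroupOf H, z ^ 2 = 1 := by
    intro z
    induction hgen z using Subgroup.closure_induction with
    | mem z hz =>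
      obtain ⟨g, hg, rfl⟩ := hz
      rw [← map_pow]
      exact (QuotientGroup.eq_one_iff _).2 (by rw [Subgroup.mem_subgroupOf, pow_two]; simpa using hsq g hg)
    | one => exact one_pow 2
    | mul a b _ _ ha hb => rw [(show Commute a b from hab a b).mul_pow, ha, hb, one_mul]
    | inv a _ ha => rw [inv_pow, ha, inv_one]
  have h16 := hr H (W.subgroupOf H) ⊤ ⟨⟨fun x y => Subtype.ext (hab x y)⟩⟩ fun z _ => hexp z
  rw [Nat.card_congr Subgroup.topEquiv.toEquiv] at h16
  rw [Subgroup.card_eq_card_quotient_mul_card_subgroup (W.subgroupOf H),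
    Nat.card_congr (Subgroup.subgroupOfEquivOfLe hWT).toEquiv]
  exact Nat.mul_le_mul_right _ (h16.trans (by norm_num))

/-- The standing data: the model embedded in `S` with image `P`. -/
structure Setup (ι : M →* S) : Prop where
  inj : Function.Injective ι
  two : IsPGroup 2 S
  rank : Cfsg.SectionalPRankLE 2 4 S

variable {ι : M →* S}

/-- `y` induces `θ` on the embedded model. -/
def Induces (ι : M →* S) (y : S) (θ : M ≃* M) : Prop := ∀ x : M, ι (θ x) = y * ι x * y⁻¹

theorem exists_induces (hs : Setup ι) {y : S} (hy : y ∈ Subgroup.normalizer (ι.range : Set S)) :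
    ∃ θ : M ≃* M, Induces ι y θ := by
  have h1 : ∀ x, y * ι x * y⁻¹ ∈ ι.range := fun x => (Subgroup.mem_normalizer_iff.1 hy _).1 ⟨x, rfl⟩
  choose f hf using h1
  let fh : M →* M := MonoidHom.mk' f fun a b => hs.inj (by rw [hf, map_mul, map_mul, hf, hf]; group)
  have hinj : Function.Injective fh := fun a b h => hs.inj (by
    have := congrArg ι h
    simp only [fh, MonoidHom.mk'_apply, hf] at this
    simpa using this)
  exact ⟨MulEquiv.ofBijective fh (Finite.injective_iff_bijective.1 hinj), hf⟩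

theorem induces_mul {y y' : S} {θ θ' : M ≃* M} (h : Induces ι y θ) (h' : Induces ι y' θ') :
    Induces ι (y * y') (θ'.trans θ) := fun x => by
  show ι (θ (θ' x)) = _
  rw [h, h']; group

theorem induces_self (m : M) : Induces ι (ι m) (MulAut.conj m) := fun x => by
  simp [MulAut.conj_apply]

/-- Elements centralizing the base lie in the image of `Wg`. -/
theorem base_step (hs : Setup ι) {y : S} {θ : M ≃* M} (hy : Induces ι y θ)
    (hfix : ∀ g ∈ ([ga, gb, ga', gb'] : List M), InW (g * θ g)) (hW : ∀ w, InW w → θ w = w)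
    (hsq : ∃ w, InW w ∧ ι w = y * y) : y ∈ ι.range := by
  by_contra hyP
  let T : Set S := insert y (ι '' {g | g ∈ ([ga, gb, ga', gb'] : List M)})
  have hyw : ∀ w ∈ Wg.map ι, y * w = w * y := by
    rintro _ ⟨w, hw, rfl⟩
    have := hy w
    rw [hW w hw] at this
    exact (eq_mul_inv_iff_mul_eq.1 this).symm
  have hyg : ∀ g ∈ ([ga, gb, ga', gb'] : List M), y * ι g * y⁻¹ * (ι g)⁻¹ ∈ Wg.map ι := by
    intro g hg
    refine ⟨θ g * g⁻¹, ?_, by rw [map_mul, map_inv, hy]⟩
    have h := inW_conj g⁻¹ (hfix g hg)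
    show InW (θ g * g⁻¹)
    have e : g⁻¹ * (g * θ g) * (g⁻¹)⁻¹ = θ g * g := by group
    rw [e] at h
    rwa [inv_eq_of_mul_eq_one_right (base_comm g hg).1]
  have hb := section_bound hs.rank T (Wg.map ι) ?_ ?_ ?_ ?_
  · let B0 := ((inl : N →* M).range.map ι)
    have hB0 : Nat.card B0 = 64 := by
      rw [Subgroup.card_map_of_injective hs.inj, ← Nat.card_congr (MonoidHom.ofInjective inl_injective).toEquiv,
        Nat.card_prod, DihedralGroup.nat_card]
    have hle : B0 ≤ Subgroup.closure T := by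
      rintro _ ⟨_, ⟨n, rfl⟩, rfl⟩
      obtain ⟨i, k, j, l, e⟩ := mem_base n
      have hmem : ∀ g ∈ ([ga, gb, ga', gb'] : List M), ι g ∈ Subgroup.closure T := fun g hg =>
        Subgroup.subset_closure (Or.inr ⟨g, hg, rfl⟩)
      rw [e]
      simp only [map_mul, map_pow]
      exact mul_mem (mul_mem (pow_mem (mul_mem (hmem _ (by simp)) (hmem _ (by simp))) _) (pow_mem (hmem _ (by simp)) _))
        (mul_mem (pow_mem (mul_mem (hmem _ (by simp)) (hmem _ (by simp))) _) (pow_mem (hmem _ (by simp)) _))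
    have hdvd := Subgroup.card_dvd_of_le hle
    rw [Subgroup.card_map_of_injective hs.inj, card_Wg] at hb
    rw [hB0] at hdvd
    have heq : B0 = Subgroup.closure T := Subgroup.eq_of_le_of_card_ge hle (by omega)
    have hy' : y ∈ B0 := heq ▸ Subgroup.subset_closure (Or.inl rfl)
    obtain ⟨m, -, hm⟩ := hy'
    exact hyP ⟨m, hm⟩
  · rintro g (rfl | ⟨g, hg, rfl⟩) w hw
    · exact hyw w hw
    · obtain ⟨w, hw, rfl⟩ := hw
      rw [← map_mul, ← map_mul, inW_base w hw g hg]
  · have hyg' : ∀ g ∈ ([ga, gb, ga', gb'] : List M), ι g * y * (ι g)⁻¹ * y⁻¹ ∈ Wg.map ι := fun g hg => by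
      convert inv_mem (hyg g hg) using 1
      group
    rintro g (rfl | ⟨g, hg, rfl⟩) h (rfl | ⟨h, hh, rfl⟩)
    · simp
    · exact hyg h hh
    · exact hyg' g hg
    · exact ⟨_, (base_comm g hg).2 h hh, by simp⟩
  · rintro g (rfl | ⟨g, hg, rfl⟩)
    · obtain ⟨w, hw, e⟩ := hsq
      exact ⟨w, hw, e⟩
    · rw [← map_mul, (base_comm g hg).1, map_one]
      exact one_mem _
  · intro w hw
    obtain ⟨w, hw, rfl⟩ := hw
    obtain ⟨n, hn⟩ : ∃ n : N, (inl n : M) = w := ⟨w.left, by ext1 <;> simp [hw.1.1]⟩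
    obtain ⟨i, k, j, l, e⟩ := mem_base n
    rw [← hn, e]
    have hmem : ∀ g ∈ ([ga, gb, ga', gb'] : List M), ι g ∈ Subgroup.closure T := fun g hg =>
      Subgroup.subset_closure (Or.inr ⟨g, hg, rfl⟩)
    simp only [map_mul, map_pow]
    exact mul_mem (mul_mem (pow_mem (mul_mem (hmem _ (by simp)) (hmem _ (by simp))) _) (pow_mem (hmem _ (by simp)) _))
      (mul_mem (pow_mem (mul_mem (hmem _ (by simp)) (hmem _ (by simp))) _) (pow_mem (hmem _ (by simp)) _))

theorem centralizer_step (hs : Setup ι) (k : ℕ) : ∀ y : S, y ^ 2 ^ k = 1 →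
    (∀ g ∈ ([ga, gb, ga', gb'] : List M), y * ι g * y⁻¹ = ι g) → y ∈ Subgroup.normalizer (ι.range : Set S) →
    ∃ w, InW w ∧ ι w = y := by
  have key : ∀ y : S, (∀ g ∈ ([ga, gb, ga', gb'] : List M), y * ι g * y⁻¹ = ι g) →
      ∀ m, ι m = y → ∃ w, InW w ∧ ι w = y := by
    intro y hy m hm
    have hc : ∀ g ∈ ([ga, gb, ga', gb'] : List M), m * g = g * m := fun g hg => hs.inj (by
      rw [map_mul, map_mul, hm]
      exact mul_inv_eq_iff_eq_mul.1 (hy g hg))
    exact ⟨m, centralizer_base m (hc _ (by simp)) (hc _ (by simp)) (hc _ (by simp)) (hc _ (by simp)), hm⟩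
  induction k with
  | zero =>
    intro y h _ _
    exact ⟨1, Wg.one_mem, by simpa using h.symm⟩
  | succ k ih =>
    intro y h hy hN
    obtain ⟨w, hw, e⟩ := ih (y * y) (by rw [← pow_two, ← pow_mul, ← pow_succ']; exact h) (fun g hg => by
      calc y * y * ι g * (y * y)⁻¹ = y * (y * ι g * y⁻¹) * y⁻¹ := by group
        _ = ι g := by rw [hy g hg, hy g hg]) (mul_mem hN hN)
    obtain ⟨θ, hθ⟩ := exists_induces hs hN
    have hfix : ∀ g ∈ ([ga, gb, ga', gb'] : List M), θ g = g := fun g hg => hs.inj ((hθ g).trans (hy g hg))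
    have hW : ∀ v, InW v → θ v = v := by
      intro v hv
      obtain ⟨n, hn⟩ : ∃ n : N, (inl n : M) = v := ⟨v.left, by ext1 <;> simp [hv.1.1]⟩
      obtain ⟨i, k, j, l, e⟩ := mem_base n
      rw [← hn, e]
      simp [hfix]
    obtain ⟨m, hm⟩ := base_step hs hθ (fun g hg => by
      rw [hfix g hg, (base_comm g hg).1]; exact Wg.one_mem) hW ⟨w, hw, e⟩
    exact key y hy m hm

/-- An element normalizing the image and fixing `V1` lies in the image. -/
theorem fix_mem (hs : Setup ι) {y : S} (hN : y ∈ Subgroup.normalizer (ι.range : Set S)) {θ : M ≃* M}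
    (hθ : Induces ι y θ) (hV : V1.map θ.toMonoidHom = V1) : y ∈ ι.range := by
  have main : ∀ (y : S) (θ : M ≃* M), y ∈ Subgroup.normalizer (ι.range : Set S) → Induces ι y θ →
      V1.map θ.toMonoidHom = V1 → θ gc = gc → y ∈ ι.range := by
    intro y θ hN hθ hV hc
    have hfix := fix_case θ hV hc
    have hW : ∀ w, InW w → θ w = w := by
      intro w hw
      rcases inW_cases w hw with rfl | rfl | rfl | rfl
      · exact map_one θ
      · exact hc
      · rw [gc_eq.2.1, map_mul, hc, map_gz]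
      · exact map_gz θ
    obtain ⟨k, hk⟩ := hs.two (y * y)
    refine base_step hs hθ hfix hW ?_
    refine centralizer_step hs k _ hk (fun g hg => ?_) (mul_mem hN hN)
    have h1 : θ g = g * (g * θ g) := by rw [← mul_assoc, (base_comm g hg).1, one_mul]
    have h2 : θ (θ g) = g := by
      calc θ (θ g) = θ (g * (g * θ g)) := congrArg θ h1
        _ = g * (g * θ g) * (g * θ g) := by rw [map_mul, hW _ (hfix g hg), ← h1]
        _ = g := by rw [mul_assoc, inV_sq _ (Or.inl (hfix g hg).1), mul_one]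
    exact (induces_mul hθ hθ g).symm.trans (congrArg ι h2)
  rcases map_gc θ with hc | hc
  · exact main y θ hN hθ hV hc
  · have ht := induces_mul (induces_self (ι := ι) gt) hθ
    have := main _ _ (mul_mem (Subgroup.le_normalizer ⟨gt, rfl⟩) hN) ht ?_ ?_
    · simpa using mul_mem (inv_mem (⟨gt, rfl⟩ : ι gt ∈ ι.range)) this
    · show V1.map ((MulAut.conj gt).toMonoidHom.comp θ.toMonoidHom) = V1
      rw [← Subgroup.map_map, hV]
      haveI : V1.Normal := ⟨fun x hx g => (inV_conj x (Or.inl hx) g).1 hx⟩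
      exact Subgroup.Normal.map_conj_eq V1 gt
    · show MulAut.conj gt (θ gc) = gc
      rw [hc, MulAut.conj_apply, inv_eq_of_mul_eq_one_right gen_facts.2.2.1]
      exact gc_eq.2.2

theorem swap_map (hs : Setup ι) {y : S} (hN : y ∈ Subgroup.normalizer (ι.range : Set S)) (hy : y ∉ ι.range)
    {θ : M ≃* M} (hθ : Induces ι y θ) : V1.map θ.toMonoidHom = V2 :=
  (map_V1 θ).resolve_left fun h => hy (fix_mem hs hN hθ h)

/-- The index-two step and the quotient. -/
theorem core (hs : Setup ι) (P : Subgroup S) (hP : ι.range = P) (htop : P ≠ ⊤) :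
    Subgroup.center S = (Subgroup.center ↥P).map P.subtype ∧
    Nat.card ↥(Subgroup.center S) = 2 ∧
    P.relIndex (Subgroup.normalizer (P : Set S)) = 2 ∧
    (∃ (_ : ((Subgroup.center S).subgroupOf (Subgroup.normalizer (P : Set S))).Normal),
      Nonempty (↥(Subgroup.normalizer (P : Set S)) ⧸
        (Subgroup.center S).subgroupOf (Subgroup.normalizer (P : Set S)) ≃* M)) ∧
    ∀ V : Subgroup S, V ≤ P → (∀ g ∈ P, ∀ v ∈ V, g * v * g⁻¹ ∈ V) →
      Cfsg.IsElementaryAbelian 2 V → Nat.card ↥V = 16 → Subgroup.normalizer (V : Set S) = P := by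
  subst hP
  haveI : Fact (Nat.Prime 2) := ⟨Nat.prime_two⟩
  haveI := hs.two.isNilpotent
  set P := ι.range with hP
  set Q := Subgroup.normalizer (P : Set S) with hQ
  have hPQ : P ≤ Q := Subgroup.le_normalizer
  -- the centre
  have hZ : ∀ z ∈ Subgroup.center S, z = 1 ∨ z = ι gz := by
    intro z hz
    have hzc := Subgroup.mem_center_iff.1 hz
    obtain ⟨k, hk⟩ := hs.two z
    obtain ⟨w, -, rfl⟩ := centralizer_step hs k z hk (fun g _ => by rw [← hzc, mul_inv_cancel_right])
      (Subgroup.center_le_normalizer _ hz)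
    have hc : ∀ g, w * g = g * w := fun g => hs.inj (by rw [map_mul, map_mul, ← hzc])
    rcases center_eq w (hc _) (hc _) (hc _) with h | h
    · exact Or.inl (by rw [h, map_one])
    · exact Or.inr (by rw [h])
  have hgz : ι gz ∈ Subgroup.center S := by
    haveI : Nontrivial S := by
      by_contra hnt
      haveI := not_nontrivial_iff_subsingleton.1 hnt
      exact htop (Subsingleton.elim _ _)
    haveI := hs.two.center_nontrivial
    obtain ⟨⟨z, hz⟩, hz1⟩ := exists_ne (1 : Subgroup.center S)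
    rcases hZ z hz with rfl | rfl
    · exact absurd rfl hz1
    · exact hz
  have hz1 : ι gz ≠ 1 := fun h => gen_facts.1.2.2.2.2.2.2.2.2.2.2.2.2 (hs.inj (h.trans (map_one ι).symm))
  have hcard : Nat.card ↥(Subgroup.center S) = 2 := by
    rw [Nat.card_eq_two_iff]
    refine ⟨1, ⟨ι gz, hgz⟩, fun h => hz1 (congrArg Subtype.val h).symm, ?_⟩
    ext ⟨z, hz⟩
    simp only [Set.mem_insert_iff, Set.mem_singleton_iff, Set.mem_univ, iff_true]
    rcases hZ z hz with h | h
    · exact Or.inl (Subtype.ext h)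
    · exact Or.inr (Subtype.ext h)
  have hcen : Subgroup.center S = (Subgroup.center ↥P).map P.subtype := by
    refine le_antisymm (fun z hz => ?_) ?_
    · have hzP : z ∈ P := by
        rcases hZ z hz with rfl | rfl
        · exact one_mem _
        · exact ⟨gz, rfl⟩
      exact ⟨⟨z, hzP⟩, Subgroup.mem_center_iff.2 fun g => Subtype.ext (Subgroup.mem_center_iff.1 hz g), rfl⟩
    · rintro _ ⟨⟨_, m, rfl⟩, hm, rfl⟩
      have hc : ∀ g, m * g = g * m := fun g => hs.inj (by
        have := congrArg Subtype.val (Subgroup.mem_center_iff.1 hm ⟨ι g, g, rfl⟩)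
        simp only [Subgroup.coe_mul] at this
        rw [map_mul, map_mul]; exact this.symm)
      rcases center_eq m (hc _) (hc _) (hc _) with rfl | rfl
      · simp
      · simpa using hgz
  -- an element outside
  obtain ⟨x₀, hx₀Q, hx₀⟩ := SetLike.exists_of_lt
    (Group.normalizerCondition_of_isNilpotent P (lt_top_iff_ne_top.2 htop))
  have hprod : ∀ u ∈ Q, ∀ v ∈ Q, u ∉ P → v ∉ P → u * v ∈ P := by
    intro u hu v hv huP hvP
    obtain ⟨θu, hθu⟩ := exists_induces hs hu
    obtain ⟨θv, hθv⟩ := exists_induces hs hv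
    refine fix_mem hs (mul_mem hu hv) (induces_mul hθu hθv) ?_
    show V1.map (θu.toMonoidHom.comp θv.toMonoidHom) = V1
    rw [← Subgroup.map_map, swap_map hs hv hvP hθv,
      (map_V2_of_map_V1 θu).2 (swap_map hs hu huP hθu)]
  have hidx : P.relIndex Q = 2 := by
    rw [Subgroup.relIndex_eq_two_iff]
    refine ⟨x₀, hx₀Q, fun b hb => ?_⟩
    by_cases hbP : b ∈ P
    · exact Or.inr ⟨hbP, fun h => hx₀ (by simpa using mul_mem (inv_mem hbP) h)⟩
    · exact Or.inl ⟨hprod b hb x₀ hx₀Q hbP hx₀, hbP⟩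
  refine ⟨hcen, hcard, hidx, ?_, ?_⟩
  swap
  · intro V hVP hVn hVe hV16
    set U := V.comap ι
    have hmap : U.map ι = V := Subgroup.map_comap_eq_self hVP
    have hUcases : U = V1 ∨ U = V2 := by
      refine classify U ⟨fun x hx g => ?_⟩ ?_ ?_ ?_
      · show ι (g * x * g⁻¹) ∈ V
        rw [map_mul, map_mul, map_inv]
        exact hVn _ ⟨g, rfl⟩ _ hx
      · intro x hx y hy
        haveI := hVe.1
        exact hs.inj (by rw [map_mul, map_mul]; exact congrArg Subtype.val (hVe.1.is_comm.comm ⟨ι x, hx⟩ ⟨ι y, hy⟩))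
      · intro x hx
        exact hs.inj (by rw [map_mul, map_one, ← pow_two]; exact hVe.2 _ hx)
      · rw [← Subgroup.card_map_of_injective hs.inj, hmap, hV16]
    have hle : P ≤ Subgroup.normalizer (V : Set S) := by
      intro g hg
      rw [Subgroup.mem_normalizer_iff]
      refine fun v => ⟨fun hv => hVn g hg v hv, fun hv => ?_⟩
      have := hVn _ (inv_mem hg) _ hv
      simpa [mul_assoc] using this
    by_contra hne
    set N₀ := Subgroup.normalizer (V : Set S)
    have hlt : P.subgroupOf N₀ < ⊤ := by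
      rw [lt_top_iff_ne_top, Ne, Subgroup.subgroupOf_eq_top]
      exact fun h => hne (le_antisymm h hle)
    obtain ⟨⟨y, hyN⟩, hy, hyP⟩ := SetLike.exists_of_lt (Group.normalizerCondition_of_isNilpotent _ hlt)
    have hyQ : y ∈ Q := by
      rw [hQ, Subgroup.mem_normalizer_iff]
      intro v
      have hy' := Subgroup.mem_normalizer_iff.1 hy
      constructor
      · intro hv
        exact (hy' ⟨v, hle hv⟩).1 hv
      · intro hv
        have hvN : v ∈ N₀ := by
          have := mul_mem (mul_mem (inv_mem hyN) (hle hv)) hyN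
          simpa [mul_assoc] using this
        exact (hy' ⟨v, hvN⟩).2 hv
    obtain ⟨θ, hθ⟩ := exists_induces hs hyQ
    have hUθ : ∀ x ∈ U, θ x ∈ U := fun x hx => by
      show ι (θ x) ∈ V
      rw [hθ]
      exact (Subgroup.mem_normalizer_iff.1 hyN _).1 hx
    have hsw := swap_map hs hyQ hyP hθ
    apply V1_ne_V2
    rcases hUcases with hU | hU
    · refine Subgroup.eq_of_le_of_card_ge ?_ (by rw [card_V1, card_V2]) |>.symm
      intro x hx
      obtain ⟨z, hz, rfl⟩ := hsw.ge hx
      exact hU ▸ hUθ z (hU.symm ▸ hz)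
    · refine Subgroup.eq_of_le_of_card_ge ?_ (by rw [card_V1, card_V2])
      intro x hx
      obtain ⟨z, hz, rfl⟩ := ((map_V2_of_map_V1 θ).2 hsw).ge hx
      exact hU ▸ hUθ z (hU.symm ▸ hz)
  -- the quotient
  haveI hZn : ((Subgroup.center S).subgroupOf Q).Normal := Subgroup.normal_subgroupOf
  refine ⟨hZn, ?_⟩
  -- normalize the outer element
  obtain ⟨x, hxQ, hxP, θ, hθ, e1, e2, e3, e4⟩ : ∃ x ∈ Q, x ∉ P ∧ ∃ θ : M ≃* M, Induces ι x θ ∧
      InZ (gb * θ ga) ∧ InZ (ga * θ gb) ∧ InZ (gb' * θ ga') ∧ InZ (ga' * θ gb') := by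
    obtain ⟨x₁, hx₁Q, hx₁, θ₁, hθ₁, hc⟩ : ∃ x ∈ Q, x ∉ P ∧ ∃ θ : M ≃* M, Induces ι x θ ∧ θ gc = gc := by
      obtain ⟨θ₀, hθ₀⟩ := exists_induces hs hx₀Q
      rcases map_gc θ₀ with hc | hc
      · exact ⟨x₀, hx₀Q, hx₀, θ₀, hθ₀, hc⟩
      · refine ⟨ι gt * x₀, mul_mem (hPQ ⟨gt, rfl⟩) hx₀Q, fun h => hx₀ ?_, _, induces_mul (induces_self gt) hθ₀, ?_⟩
        · simpa using mul_mem (inv_mem (⟨gt, rfl⟩ : ι gt ∈ P)) h
        · show MulAut.conj gt (θ₀ gc) = gc
          rw [hc, MulAut.conj_apply, inv_eq_of_mul_eq_one_right gen_facts.2.2.1]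
          exact gc_eq.2.2
    obtain ⟨hA, hB, hA', hB'⟩ := swap_case θ₁ (swap_map hs hx₁Q hx₁ hθ₁) hc
    have hsplit : ∀ g ∈ ([ga, gb, ga', gb'] : List M), ∀ v, v = g * (g * v) := fun g hg v => by
      rw [← mul_assoc, (base_comm g hg).1, one_mul]
    obtain ⟨⟨u, hu, u1, u2⟩, -⟩ := adjust _ hA _ hB
    obtain ⟨-, u', hu', u1', u2'⟩ := adjust _ hA' _ hB'
    refine ⟨ι (u * u') * x₁, mul_mem (hPQ ⟨_, rfl⟩) hx₁Q, fun h => hx₁ ?_, _,
      induces_mul (induces_self (u * u')) hθ₁, ?_⟩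
    · have := mul_mem (inv_mem (⟨u * u', rfl⟩ : ι (u * u') ∈ P)) h
      rwa [inv_mul_cancel_left] at this
    have k1 := adjust_comm _ hA u' hu'
    have k2 := adjust_comm _ hB u' hu'
    have k3 := adjust_comm' _ hA' u hu
    have k4 := adjust_comm' _ hB' u hu
    have hconj : ∀ a b v : M, a * v = v * a → b * v * b⁻¹ = b * (a * v * a⁻¹) * b⁻¹ := fun a b v h => by
      rw [h, mul_inv_cancel_right]
    have c1 : u * u' * θ₁ ga * (u * u')⁻¹ = u * (gb * (gb * θ₁ ga)) * u⁻¹ := by
      rw [hconj u' u _ k1.1, ← hsplit gb (by simp)]; group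
    have c2 : u * u' * θ₁ gb * (u * u')⁻¹ = u * (ga * (ga * θ₁ gb)) * u⁻¹ := by
      rw [hconj u' u _ k2.2, ← hsplit ga (by simp)]; group
    have c3 : u * u' * θ₁ ga' * (u * u')⁻¹ = u' * (gb' * (gb' * θ₁ ga')) * u'⁻¹ := by
      have huu : u * (u' * (gb' * (gb' * θ₁ ga')) * u'⁻¹) =
          u' * (gb' * (gb' * θ₁ ga')) * u'⁻¹ * u := adjust_u _ hu _ (Or.inl u1')
      rw [← hsplit gb' (by simp)] at huu ⊢
      calc u * u' * θ₁ ga' * (u * u')⁻¹ = u * (u' * θ₁ ga' * u'⁻¹) * u⁻¹ := by group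
        _ = u' * θ₁ ga' * u'⁻¹ := by rw [huu, mul_inv_cancel_right]
    have c4 : u * u' * θ₁ gb' * (u * u')⁻¹ = u' * (ga' * (ga' * θ₁ gb')) * u'⁻¹ := by
      have huu : u * (u' * (ga' * (ga' * θ₁ gb')) * u'⁻¹) =
          u' * (ga' * (ga' * θ₁ gb')) * u'⁻¹ * u := adjust_u _ hu _ (Or.inr u2')
      rw [← hsplit ga' (by simp)] at huu ⊢
      calc u * u' * θ₁ gb' * (u * u')⁻¹ = u * (u' * θ₁ gb' * u'⁻¹) * u⁻¹ := by group
        _ = u' * θ₁ gb' * u'⁻¹ := by rw [huu, mul_inv_cancel_right]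
    simp only [MulEquiv.trans_apply, MulAut.conj_apply, c1, c2, c3, c4]
    exact ⟨u1, u2, u1', u2'⟩
  have hxx : x * x ∈ P := hprod x hxQ x hxQ hxP hxP
  let ιQ : M →* ↥Q := ι.codRestrict Q fun m => hPQ ⟨m, rfl⟩
  let q := QuotientGroup.mk' ((Subgroup.center S).subgroupOf Q)
  let p : M →* ↥Q ⧸ (Subgroup.center S).subgroupOf Q := q.comp ιQ
  have hp1 : ∀ m, InZ m → p m = 1 := by
    intro m hm
    refine (QuotientGroup.eq_one_iff _).2 ?_
    rw [Subgroup.mem_subgroupOf]
    show ι m ∈ Subgroup.center S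
    rcases hm with rfl | rfl
    · rw [map_one]; exact one_mem _
    · exact hgz
  have hp2 : ∀ m, p m = 1 → InZ m := by
    intro m hm
    have h := Subgroup.mem_subgroupOf.1 ((QuotientGroup.eq_one_iff _).1 hm)
    rcases hZ _ h with h | h
    · exact Or.inl (hs.inj (h.trans (map_one ι).symm))
    · exact Or.inr (hs.inj h)
  set xb := q ⟨x, hxQ⟩ with hxb
  have hpθ : ∀ m, p (θ m) = xb * p m * xb⁻¹ := by
    intro m
    show q (ιQ (θ m)) = q ⟨x, hxQ⟩ * q (ιQ m) * (q ⟨x, hxQ⟩)⁻¹
    rw [← map_inv, ← map_mul, ← map_mul]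
    exact congrArg q (Subtype.ext (hθ m))
  have hmove : ∀ g ∈ ([ga, gb, ga', gb'] : List M), ∀ v, InZ (g * v) → p v = p g := by
    intro g hg v hv
    have h := hp1 _ hv
    rw [map_mul] at h
    calc p v = p g * (p g * p v) := by rw [← mul_assoc, ← map_mul, (base_comm g hg).1, map_one, one_mul]
      _ = p g := by rw [h, mul_one]
  have a1 := (hpθ ga).symm.trans (hmove gb (by simp) _ e1)
  have a2 := (hpθ gb).symm.trans (hmove ga (by simp) _ e2)
  have a3 := (hpθ ga').symm.trans (hmove gb' (by simp) _ e3)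
  have a4 := (hpθ gb').symm.trans (hmove ga' (by simp) _ e4)
  obtain ⟨-, -, gtt, -, gta, gtb⟩ : True ∧ True ∧ gt * gt = 1 ∧ gt * gc * gt = gc' ∧ gt * ga * gt = ga' ∧
      gt * gb * gt = gb' := ⟨trivial, trivial, gen_facts.2.2⟩
  have pta : p gt * p ga * p gt = p ga' := by rw [← map_mul, ← map_mul, gta]
  have ptb : p gt * p gb * p gt = p gb' := by rw [← map_mul, ← map_mul, gtb]
  have ptt : p gt * p gt = 1 := by rw [← map_mul, gtt, map_one]
  have hsqp : ∀ g ∈ ([ga, gb, ga', gb'] : List M), p g * p g = 1 := fun g hg => by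
    rw [← map_mul, (base_comm g hg).1, map_one]
  -- `x` commutes with the swap
  have hτ : InZ (gt * θ gt) := by
    have i1 : xb⁻¹ * p ga * xb = p gb := by rw [← a2]; group
    have i2 : xb⁻¹ * p gb * xb = p ga := by rw [← a1]; group
    have i3 : xb⁻¹ * p ga' * xb = p gb' := by rw [← a4]; group
    have i4 : xb⁻¹ * p gb' * xb = p ga' := by rw [← a3]; group
    have hti : (p gt)⁻¹ = p gt := inv_eq_of_mul_eq_one_right ptt
    have pta' : p gt * p ga' * p gt = p ga := by
      rw [← pta]; simp only [← mul_assoc, ptt, one_mul]; rw [mul_assoc, ptt, mul_one]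
    have ptb' : p gt * p gb' * p gt = p gb := by
      rw [← ptb]; simp only [← mul_assoc, ptt, one_mul]; rw [mul_assoc, ptt, mul_one]
    have step : ∀ g h k l : M, xb⁻¹ * p g * xb = p h → p gt * p h * p gt = p k → xb * p k * xb⁻¹ = p l →
        p l * p l = 1 → InZ (l * (θ gt * g * (θ gt)⁻¹)) := by
      intro g h k l r1 r2 r3 r4
      refine hp2 _ ?_
      rw [map_mul, map_mul, map_mul, map_inv, hpθ]
      calc p l * (xb * p gt * xb⁻¹ * p g * (xb * p gt * xb⁻¹)⁻¹)
          = p l * (xb * (p gt * (xb⁻¹ * p g * xb) * (p gt)⁻¹) * xb⁻¹) := by group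
        _ = 1 := by rw [r1, hti, r2, r3, r4]
    refine tau_eq (θ gt) (by rw [← map_mul, gtt, map_one]) ?_ ?_ ?_ ?_
    · exact step ga gb gb' ga' i1 ptb a4 (hsqp _ (by simp))
    · exact step gb ga ga' gb' i2 pta a3 (hsqp _ (by simp))
    · exact step ga' gb' gb ga i3 ptb' a2 (hsqp _ (by simp))
    · exact step gb' ga' ga gb i4 pta' a1 (hsqp _ (by simp))
  have axt : xb * p gt * xb⁻¹ = p gt := by
    have h := hp1 _ hτ
    rw [map_mul] at h
    rw [← hpθ]
    calc p (θ gt) = p gt * (p gt * p (θ gt)) := by rw [← mul_assoc, ptt, one_mul]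
      _ = p gt := by rw [h, mul_one]
  -- the square of `x`
  obtain ⟨m, hm⟩ := hxx
  have hxb2 : xb * xb = p m := by
    show q ⟨x, hxQ⟩ * q ⟨x, hxQ⟩ = q (ιQ m)
    rw [← map_mul]
    exact congrArg q (Subtype.ext hm.symm)
  have hmZ : InZ m := by
    have hmθ : ∀ v, θ (θ v) = m * v * m⁻¹ := fun v => hs.inj (by
      refine (induces_mul hθ hθ v).trans ?_
      rw [← hm, map_mul, map_mul, map_inv])
    have hmt : m * gt = gt * m := by
      have h2 : θ (θ gt) = gt := by
        rcases inZ_cases gt (by simp) _ hτ with h | h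
        · rw [h, h]
        · rw [h, map_mul, h, map_gz, mul_assoc, inV_sq gz (by decide), mul_one]
      exact mul_inv_eq_iff_eq_mul.1 ((hmθ gt).symm.trans h2)
    have step : ∀ g h : M, xb * p g * xb⁻¹ = p h → xb * p h * xb⁻¹ = p g → p g * p g = 1 →
        InZ (g * (m * g * m⁻¹)) := by
      intro g h r1 r2 r3
      refine hp2 _ ?_
      rw [map_mul, map_mul, map_mul, map_inv, ← hxb2]
      calc p g * (xb * xb * p g * (xb * xb)⁻¹) = p g * (xb * (xb * p g * xb⁻¹) * xb⁻¹) := by group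
        _ = 1 := by rw [r1, r2, r3]
    exact square_eq m hmt (step ga gb a1 a2 (hsqp _ (by simp))) (step gb ga a2 a1 (hsqp _ (by simp)))
      (step ga' gb' a3 a4 (hsqp _ (by simp))) (step gb' ga' a4 a3 (hsqp _ (by simp)))
  have hxx1 : xb * xb = 1 := hxb2.trans (hp1 m hmZ)
  have hcomm : Commute (p gt) xb := (mul_inv_eq_iff_eq_mul.1 axt).symm
  let fg : K →* ↥Q ⧸ (Subgroup.center S).subgroupOf Q :=
    (ofInvol (p gt) ptt).noncommCoprod (ofInvol xb hxx1) fun i j => by
      have hx := C2_cases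
      rcases hx i with rfl | rfl <;> rcases hx j with rfl | rfl <;> simp [ofInvol_one2, hcomm]
  let fn : N →* ↥Q ⧸ (Subgroup.center S).subgroupOf Q := p.comp inl
  have hti : (p gt)⁻¹ = p gt := inv_eq_of_mul_eq_one_right ptt
  have hfn : fn (.sr 0, 1) = p ga ∧ fn (.sr 1, 1) = p gb ∧ fn (1, .sr 0) = p ga' ∧ fn (1, .sr 1) = p gb' :=
    ⟨rfl, rfl, rfl, rfl⟩
  have pta' : p gt * p ga' * p gt = p ga := by
    rw [← pta]; simp only [← mul_assoc, ptt, one_mul]; rw [mul_assoc, ptt, mul_one]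
  have ptb' : p gt * p gb' * p gt = p gb := by
    rw [← ptb]; simp only [← mul_assoc, ptt, one_mul]; rw [mul_assoc, ptt, mul_one]
  have h1 : ∀ k : K, fn.comp (φK k).toMonoidHom = (MulAut.conj (fg k)).toMonoidHom.comp fn := by
    have hmul : ∀ k l : K, fn.comp (φK k).toMonoidHom = (MulAut.conj (fg k)).toMonoidHom.comp fn →
        fn.comp (φK l).toMonoidHom = (MulAut.conj (fg l)).toMonoidHom.comp fn →
        fn.comp (φK (k * l)).toMonoidHom = (MulAut.conj (fg (k * l))).toMonoidHom.comp fn := by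
      intro k l hk hl
      refine MonoidHom.ext fun n => ?_
      have hk' := DFunLike.congr_fun hk (φK l n)
      have hl' := DFunLike.congr_fun hl n
      simp only [MonoidHom.comp_apply, MulEquiv.coe_toMonoidHom, map_mul, MulAut.mul_apply] at hk' hl' ⊢
      rw [hk', hl']
    have hT : fn.comp (φK (one2, 1)).toMonoidHom = (MulAut.conj (fg (one2, 1))).toMonoidHom.comp fn := by
      have hk : fg (one2, 1) = p gt := by simp [fg, ofInvol_one2]
      have hφ : φK (one2, 1) = swapN := by simp [φK, ofInvol_one2]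
      rw [hk, hφ]
      refine N_ext ?_ ?_ ?_ ?_ <;>
        simp [swapN, hfn, MulAut.conj_apply, hti, pta, ptb, pta', ptb']
    have hX : fn.comp (φK (1, one2)).toMonoidHom = (MulAut.conj (fg (1, one2))).toMonoidHom.comp fn := by
      have hk : fg (1, one2) = xb := by simp [fg, ofInvol_one2]
      have hφ : φK (1, one2) = flipN := by simp [φK, ofInvol_one2]
      rw [hk, hφ]
      have hf : flipN (.sr 0, 1) = (.sr 1, 1) ∧ flipN (.sr 1, 1) = (.sr 0, 1) ∧
          flipN (1, .sr 0) = (1, .sr 1) ∧ flipN (1, .sr 1) = (1, .sr 0) := by decide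
      refine N_ext ?_ ?_ ?_ ?_ <;>
        simp [hf, hfn, MulAut.conj_apply, a1, a2, a3, a4]
    intro k
    rcases K_cases k with rfl | rfl | rfl | rfl
    · refine MonoidHom.ext fun n => ?_
      simp
    · exact hT
    · exact hX
    · exact hmul _ _ hT hX
  let ψ : R →* ↥Q ⧸ (Subgroup.center S).subgroupOf Q := SemidirectProduct.lift fn fg h1
  obtain ⟨h, hrange⟩ := gens_of_twist ψ (by
    show ψ (inl _) = 1
    rw [SemidirectProduct.lift_inl]
    exact hp1 _ (Or.inr rfl))
  have hψt : ψ (inr (one2, 1)) = p gt := by simp [ψ, fg, ofInvol_one2]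
  have hψx : ψ (inr (1, one2)) = xb := by simp [ψ, fg, ofInvol_one2]
  have hψn : ∀ n, ψ (inl n) = p (inl n) := fun n => SemidirectProduct.lift_inl _ _ _ n
  have hsurj : Function.Surjective h.hom := by
    have hin : ∀ n, p (inl n) ∈ h.hom.range := fun n => by rw [← hψn]; exact hrange _
    have hpall : ∀ w, p w ∈ h.hom.range := by
      have : h.hom.range.comap p = ⊤ :=
        M_gen _ (hin _) (hin _) (hin _) (hin _) (show p gt ∈ _ by rw [← hψt]; exact hrange _)
      exact fun w => (this.ge (Subgroup.mem_top w) : w ∈ h.hom.range.comap p)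
    intro v
    obtain ⟨⟨y, hy⟩, rfl⟩ := QuotientGroup.mk'_surjective _ v
    by_cases hyP : y ∈ P
    · obtain ⟨w, rfl⟩ := hyP
      exact hpall w
    · obtain ⟨w, hw⟩ := hprod y hy x hxQ hyP hxP
      have : q ⟨y, hy⟩ = p w * xb⁻¹ := by
        rw [eq_mul_inv_iff_mul_eq]
        show q _ * q _ = q _
        rw [← map_mul]
        exact congrArg q (Subtype.ext hw.symm)
      show q ⟨y, hy⟩ ∈ h.hom.range
      rw [this]
      exact mul_mem (hpall w) (inv_mem (hψx ▸ hrange _))
  have hQc : Nat.card (↥Q ⧸ (Subgroup.center S).subgroupOf Q) = Nat.card M := by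
    have hPc : Nat.card P = 128 := by
      rw [← Nat.card_congr (MonoidHom.ofInjective hs.inj).toEquiv, card_M]
    have hQ256 : Nat.card Q = 256 := by
      have := (P.subgroupOf Q).card_mul_index
      rw [Nat.card_congr (Subgroup.subgroupOfEquivOfLe hPQ).toEquiv, hPc] at this
      rw [← this, show (P.subgroupOf Q).index = 2 from hidx]
    have := ((Subgroup.center S).subgroupOf Q).card_mul_index
    rw [Nat.card_congr (Subgroup.subgroupOfEquivOfLe (Subgroup.center_le_normalizer _ : Subgroup.center S ≤ Q)).toEquiv, hcard, hQ256,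
      Subgroup.index_eq_card] at this
    rw [card_M]
    omega
  exact ⟨(MulEquiv.ofBijective h.hom ((Nat.bijective_iff_surjective_and_card _).2 ⟨hsurj, hQc.symm⟩)).symm⟩

/-- Let S be a finite 2-group of sectional 2-rank at most 4 and P a proper subgroup isomorphic to the wreath product of the dihedral group of order 8 by a group of order 2 (equivalently, to a Sylow 2-subgroup of the symmetric group of degree 8; order 128). Then Z(S) = Z(P) has order 2, P has index 2 in its normalizer N_S(P), N_S(P)/Z(S) is again isomorphic to that wreath product, and every elementary abelian subgroup V of order 16 that is normal in P satisfies N_S(V) = P. -/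
theorem result {S : Type*} [Group S] [Finite S] (h2 : IsPGroup 2 S) (hr : Cfsg.SectionalPRankLE 2 4 S)
    (P : Subgroup S) (hPlt : P ≠ ⊤) (hP : ∃ T : Sylow 2 (Equiv.Perm (Fin 8)), Nonempty (↥P ≃* ↥(T : Subgroup (Equiv.Perm (Fin 8))))) :
    Subgroup.center S = (Subgroup.center ↥P).map P.subtype ∧ Nat.card ↥(Subgroup.center S) = 2 ∧
    P.relIndex (Subgroup.normalizer (P : Set S)) = 2 ∧
    (∃ (_ : ((Subgroup.center S).subgroupOf (Subgroup.normalizer (P : Set S))).Normal) (T : Sylow 2 (Equiv.Perm (Fin 8))),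
      Nonempty (↥(Subgroup.normalizer (P : Set S)) ⧸ (Subgroup.center S).subgroupOf (Subgroup.normalizer (P : Set S)) ≃*
        ↥(T : Subgroup (Equiv.Perm (Fin 8))))) ∧
    ∀ V : Subgroup S, V ≤ P → (∀ g ∈ P, ∀ v ∈ V, g * v * g⁻¹ ∈ V) → Cfsg.IsElementaryAbelian 2 V → Nat.card ↥V = 16 →
      Subgroup.normalizer (V : Set S) = P := by
  obtain ⟨T, ⟨e⟩⟩ := hP
  obtain ⟨f⟩ := exists_sylow_equiv T
  let ι : M →* S := P.subtype.comp (f.trans e.symm).toMonoidHom
  have hr' : ι.range = P := by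
    rw [MonoidHom.range_comp, MonoidHom.range_eq_top_of_surjective _ (MulEquiv.surjective _),
      ← MonoidHom.range_eq_map, Subgroup.range_subtype]
  obtain ⟨h1, h3, h4, ⟨hn, ⟨g⟩⟩, h5⟩ :=
    core (ι := ι) ⟨P.subtype_injective.comp (MulEquiv.injective _), h2, hr⟩ P hr' hPlt
  exact ⟨h1, h3, h4, ⟨hn, T, ⟨g.trans f⟩⟩, h5⟩

end Cfsg.Agent.S4402
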