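import Cfsg.Statements.S4403
import Cfsg.Agent.Lib.Components.Bender

set_option autoImplicit false
open Cfsg

namespace Cfsg.Agent.S4403

open Subgroup Cfsg.Agent.Lib

/-- A perfect group with abelian Sylow `p`-subgroup has no central element of order `p`. -/
theorem center_p_trivial {X : Type*} [Group X] [Finite X] (hperf : commutator X = ⊤) {p : ℕ} [Fact p.Prime]
    (P : Sylow p X) (hab : IsMulCommutative ↥(P : Subgroup X)) {z : X} (hz : z ∈ center X)
    (hzp : z ^ p = 1) : z = 1 := by
  haveI := hab
  letI : CommGroup ↥(P : Subgroup X) := { (inferInstance : Group ↥(P : Subgroup X)) with mul_comm := fun a b => mul_comm' a b }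
  let V : X →* ↥(P : Subgroup X) := MonoidHom.transfer (MonoidHom.id _)
  have hker : commutator X ≤ V.ker := Abelianization.commutator_subset_ker V
  rw [hperf, top_le_iff] at hker
  have hV : V z = 1 := by rw [← MonoidHom.mem_ker, hker]; exact mem_top z
  have hkey : ∀ (k : ℕ) (g₀ : X), g₀⁻¹ * z ^ k * g₀ ∈ (P : Subgroup X) → g₀⁻¹ * z ^ k * g₀ = z ^ k := by
    intro k g₀ _
    rw [mul_assoc, ← (Subgroup.mem_center_iff.1 (pow_mem hz k) g₀), inv_mul_cancel_left]
  rw [show V z = _ from MonoidHom.transfer_eq_pow _ z hkey, MonoidHom.id_apply] at hV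
  have h1 : z ^ (P : Subgroup X).index = 1 := congrArg Subtype.val hV
  have h2 := Nat.dvd_gcd (orderOf_dvd_of_pow_eq_one h1) (orderOf_dvd_of_pow_eq_one hzp)
  rw [Nat.gcd_comm, ((Fact.out : p.Prime).coprime_iff_not_dvd.2 P.not_dvd_index).gcd_eq_one, Nat.dvd_one] at h2
  exact orderOf_eq_one_iff.1 h2

variable {K : Type*} [Group K] [Finite K] {p : ℕ} [Fact p.Prime]

theorem cyclic_of_pGroup (P : Sylow p K) (hP : IsCyclic ↥(P : Subgroup K)) {U : Subgroup K}
    (hU : IsPGroup p ↥U) : IsCyclic ↥U := by
  obtain ⟨Q, hQ⟩ := hU.exists_le_sylow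
  haveI : IsCyclic ↥(Q : Subgroup K) := isCyclic_of_surjective (P.equiv Q) (P.equiv Q).surjective
  exact isCyclic_of_injective (inclusion hQ) (inclusion_injective hQ)

/-- Commuting elements of order `p` generate the same subgroup when the Sylow subgroup is cyclic. -/
theorem zpowers_eq_of_commute (P : Sylow p K) (hP : IsCyclic ↥(P : Subgroup K)) {a b : K}
    (ha : orderOf a = p) (hb : orderOf b = p) (hab : a * b = b * a) : zpowers a = zpowers b := by
  classical
  have h1 : IsPGroup p ↥(zpowers a) := IsPGroup.of_card (n := 1) (by rw [Nat.card_zpowers, ha, pow_one])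
  have h2 : IsPGroup p ↥(zpowers b) := IsPGroup.of_card (n := 1) (by rw [Nat.card_zpowers, hb, pow_one])
  have hn : zpowers b ≤ normalizer (zpowers a : Set K) :=
    le_trans (zpowers_le.2 (mem_centralizer_iff.2 fun t ht => by
      obtain ⟨i, rfl⟩ := mem_zpowers_iff.1 ht
      exact (Commute.zpow_left hab i).eq)) (Components.centralizer_le_normalizer _)
  haveI := cyclic_of_pGroup P hP (h1.to_sup_of_normal_left' h2 hn)
  have key : ∀ {u v : K}, u ∈ zpowers a ⊔ zpowers b → v ∈ zpowers a ⊔ zpowers b → orderOf u = p →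
      orderOf v = p → u ∈ zpowers v := by
    intro u v hu hv huo hvo
    haveI := Fintype.ofFinite ↥(zpowers a ⊔ zpowers b)
    have hle := IsCyclic.card_pow_eq_one_le (α := ↥(zpowers a ⊔ zpowers b)) (Fact.out : p.Prime).pos
    have hsub : (zpowers (⟨v, hv⟩ : ↥(zpowers a ⊔ zpowers b)) : Set ↥(zpowers a ⊔ zpowers b)) ⊆
        {x | x ^ p = 1} := by
      intro x hx
      obtain ⟨i, rfl⟩ := mem_zpowers_iff.1 hx
      show (_ ^ i) ^ p = (1 : ↥(zpowers a ⊔ zpowers b))
      have hv1 : (⟨v, hv⟩ : ↥(zpowers a ⊔ zpowers b)) ^ p = 1 :=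
        Subtype.ext (by rw [← hvo]; exact pow_orderOf_eq_one v)
      rw [← zpow_natCast, zpow_comm, zpow_natCast, hv1, one_zpow]
    have heq := Set.eq_of_subset_of_ncard_le hsub (by
      rw [Set.ncard_eq_toFinset_card', ← Nat.card_coe_set_eq]
      show _ ≤ Nat.card (zpowers (⟨v, hv⟩ : ↥(zpowers a ⊔ zpowers b)))
      rw [Nat.card_zpowers, Subgroup.orderOf_mk, hvo, Set.toFinset_setOf]
      exact hle)
    have hu1 : (⟨u, hu⟩ : ↥(zpowers a ⊔ zpowers b)) ∈ {x | x ^ p = 1} :=
      Subtype.ext (by rw [← huo]; exact pow_orderOf_eq_one u)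
    rw [← heq] at hu1
    obtain ⟨i, hi⟩ := mem_zpowers_iff.1 hu1
    exact mem_zpowers_iff.2 ⟨i, congrArg Subtype.val hi⟩
  have hma := mem_sup_left (T := zpowers b) (mem_zpowers a)
  have hmb := mem_sup_right (S := zpowers a) (mem_zpowers b)
  exact le_antisymm (zpowers_le.2 (key hma hmb ha hb)) (zpowers_le.2 (key hmb hma hb ha))


/-- Let K be a finite group, p a prime dividing its order with O_{p'}(K) = 1 (no nontrivial normal subgroup of order prime to p), and P a cyclic Sylow p-subgroup of K. Then either P is normal and self-centralizing in K with K/P cyclic of order dividing p − 1 (so K is the semidirect product of P by a group of automorphisms of P of order dividing p − 1), or the generalized Fitting subgroup F*(K) is a non-abelian simple group and p does not divide the index of F*(K) in K. -/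
theorem result {K : Type*} [Group K] [Finite K] (p : ℕ) [Fact p.Prime] (hp : p ∣ Nat.card K) (hO : Cfsg.pPrimeCore p K = ⊥)
    (P : Sylow p K) (hP : IsCyclic ↥(P : Subgroup K)) :
    ((P : Subgroup K).Normal ∧ Subgroup.centralizer ((P : Subgroup K) : Set K) = (P : Subgroup K) ∧
      (∀ (_ : (P : Subgroup K).Normal), IsCyclic (K ⧸ (P : Subgroup K))) ∧ (P : Subgroup K).index ∣ p - 1) ∨
    (IsSimpleGroup ↥(Cfsg.generalizedFittingSubgroup K) ∧ ¬ IsMulCommutative ↥(Cfsg.generalizedFittingSubgroup K) ∧
      ¬ p ∣ (Cfsg.generalizedFittingSubgroup K).index) := by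
  classical
  haveI := hP
  haveI hab : IsMulCommutative ↥(P : Subgroup K) := inferInstance
  -- the Fitting subgroup is a `p`-group inside `P`
  set F := Cfsg.fittingSubgroup K with hF
  have hFp : IsPGroup p ↥F := by
    have hle : F ≤ Cfsg.pCore p K := by
      refine (Components.fittingSubgroup_le_sup p).trans ?_
      rw [hO, sup_bot_eq]
    exact (Components.pCore_isPGroup p).to_le hle
  have hFn : F.Normal := inferInstance
  have hFP : F ≤ (P : Subgroup K) := by
    obtain ⟨Q, hQ⟩ := hFp.exists_le_sylow
    obtain ⟨g, hg⟩ := MulAction.exists_smul_eq K Q P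
    intro x hx
    rw [← hg, Sylow.coe_subgroup_smul, Subgroup.mem_pointwise_smul_iff_inv_smul_mem]
    refine hQ ?_
    simpa [MulAut.smul_def, mul_assoc] using hFn.conj_mem x hx g⁻¹
  have hFcomm : ∀ x ∈ F, ∀ y ∈ (P : Subgroup K), x * y = y * x := fun x hx y hy =>
    congrArg Subtype.val (mul_comm' (⟨x, hFP hx⟩ : ↥(P : Subgroup K)) ⟨y, hy⟩)
  by_cases hcomp : ∃ L : Subgroup K, Cfsg.IsComponent L
  · obtain ⟨L, hL⟩ := hcomp
    right
    -- basic properties of a component
    have hprop : ∀ M : Subgroup K, Cfsg.IsComponent M →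
        Subgroup.center ↥M = ⊥ ∧ p ∣ Nat.card M := by
      intro M hM
      have hperf : commutator ↥M = ⊤ := hM.2.1.commutator_eq_top
      haveI : Group.IsNilpotent ↥(Subgroup.center ↥M) :=
        letI : CommGroup ↥(Subgroup.center ↥M) := { (inferInstance : Group ↥(Subgroup.center ↥M)) with
          mul_comm := fun a b => Subtype.ext (Subgroup.mem_center_iff.1 b.2 a) }
        CommGroup.isNilpotent
      have hZn : (Subgroup.center ↥M).map M.subtype ≤ F := Components.le_fittingSubgroup_of_subnormal
        (Subgroup.IsSubnormal.trans' (Subgroup.Normal.isSubnormal inferInstance) hM.1)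
        (Group.nilpotent_of_mulEquiv (equivMapOfInjective _ _ M.subtype_injective))
      refine ⟨?_, ?_⟩
      · rw [eq_bot_iff]
        intro z hz
        rw [mem_bot]
        by_contra hz1
        obtain ⟨k, hk⟩ := (hFp.to_le hZn) ⟨(z : K), ⟨z, hz, rfl⟩⟩
        have hk' : z ^ p ^ k = 1 := Subtype.ext (by simpa using congrArg Subtype.val hk)
        obtain ⟨i, -, hi⟩ := (Nat.dvd_prime_pow Fact.out).1 (orderOf_dvd_of_pow_eq_one hk')
        have hi0 : i ≠ 0 := fun h => hz1 (orderOf_eq_one_iff.1 (by rw [hi, h, pow_zero]))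
        obtain ⟨T⟩ : Nonempty (Sylow p ↥M) := inferInstance
        haveI : IsCyclic ↥(T : Subgroup ↥M) := by
          haveI := cyclic_of_pGroup P hP (T.2.map M.subtype)
          exact isCyclic_of_surjective (equivMapOfInjective _ _ M.subtype_injective).symm
            (MulEquiv.surjective _)
        have := center_p_trivial hperf T inferInstance (z := z ^ p ^ (i - 1)) (pow_mem hz _)
          (by rw [← pow_mul, ← pow_succ, show i - 1 + 1 = i by omega, ← hi, pow_orderOf_eq_one])
        have hd := orderOf_dvd_of_pow_eq_one this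
        rw [hi, Nat.pow_dvd_pow_iff_le_right (Fact.out : p.Prime).one_lt] at hd
        omega
      · by_contra hnd
        have := Components.le_pPrimeCore_of_subnormal hM.1
          ((Fact.out : p.Prime).coprime_iff_not_dvd.2 hnd).symm
        rw [hO, le_bot_iff] at this
        exact Components.comp_ne_bot hM this
    obtain ⟨hZL, hpL⟩ := hprop L hL
    haveI : IsSimpleGroup ↥L := by
      haveI : IsSimpleGroup (↥L ⧸ Subgroup.center ↥L) := hL.2.2
      let e : ↥L ≃* ↥L ⧸ Subgroup.center ↥L :=
        MulEquiv.ofBijective (QuotientGroup.mk' (Subgroup.center ↥L))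
          ⟨by rw [← MonoidHom.ker_eq_bot_iff, QuotientGroup.ker_mk', hZL], QuotientGroup.mk'_surjective _⟩
      exact e.isSimpleGroup
    have hLna : ¬ IsMulCommutative ↥L := fun h => Components.qs_center_ne_top hL.2
      (by rw [eq_top_iff]; exact fun a _ => Subgroup.mem_center_iff.2 fun b => mul_comm' b a)
    obtain ⟨⟨a, haL⟩, hao⟩ := exists_prime_orderOf_dvd_card' (G := ↥L) p hpL
    rw [Subgroup.orderOf_mk] at hao
    have hnob : ∀ b : K, orderOf b = p → a * b = b * a → b ∈ L := fun b hb hc =>
      zpowers_le.2 haL ((zpowers_eq_of_commute P hP hao hb hc).symm ▸ mem_zpowers b)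
    have hcentL : ∀ b ∈ L, (∀ c ∈ L, c * b = b * c) → b = 1 := by
      intro b hb hc
      have : (⟨b, hb⟩ : ↥L) ∈ Subgroup.center ↥L :=
        Subgroup.mem_center_iff.2 fun c => Subtype.ext (hc c c.2)
      rw [hZL, mem_bot] at this
      exact congrArg Subtype.val this
    have huniq : ∀ M : Subgroup K, Cfsg.IsComponent M → M = L := by
      intro M hM
      by_contra hne
      obtain ⟨⟨b, hbM⟩, hbo⟩ := exists_prime_orderOf_dvd_card' (G := ↥M) p (hprop M hM).2
      rw [Subgroup.orderOf_mk] at hbo
      have hcm := commutator_eq_bot_iff_le_centralizer.1 (Components.comp_commute hM hL hne) hbM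
      have hbL := hnob b hbo (mem_centralizer_iff.1 hcm a haL)
      have := hcentL b hbL fun c hc => mem_centralizer_iff.1 hcm c hc
      rw [this, orderOf_one] at hbo
      exact (Fact.out : p.Prime).ne_one hbo.symm
    have hlay : Cfsg.layer K = L := le_antisymm
      (Components.layer_le_iff.2 fun M hM => (huniq M hM).le) (Components.comp_le_layer hL)
    have hF1 : F = ⊥ := by
      by_contra hne
      have hpF : p ∣ Nat.card F := by
        obtain ⟨k, hk⟩ := IsPGroup.iff_card.1 hFp
        rcases Nat.eq_zero_or_pos k with h | h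
        · exact absurd (Subgroup.card_eq_one.1 (by rw [hk, h, pow_zero])) hne
        · exact hk ▸ dvd_pow_self p h.ne'
      obtain ⟨⟨b, hbF⟩, hbo⟩ := exists_prime_orderOf_dvd_card' (G := ↥F) p hpF
      rw [Subgroup.orderOf_mk] at hbo
      have hcm : ∀ c ∈ L, b * c = c * b := by
        have h0 := Components.layer_commute_fitting (G := K)
        rw [hlay] at h0
        intro c hc
        exact (mem_centralizer_iff.1 (commutator_eq_bot_iff_le_centralizer.1 h0 hc) b hbF)
      have hbL := hnob b hbo (hcm a haL).symm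
      have := hcentL b hbL fun c hc => (hcm c hc).symm
      rw [this, orderOf_one] at hbo
      exact (Fact.out : p.Prime).ne_one hbo.symm
    have hgfs : Cfsg.generalizedFittingSubgroup K = L := by
      show Cfsg.layer K ⊔ F = L
      rw [hlay, hF1, sup_bot_eq]
    haveI hLn : L.Normal := hgfs ▸ inferInstance
    rw [hgfs]
    refine ⟨inferInstance, hLna, fun hd => ?_⟩
    -- `H = L P` has derived subgroup `L`
    set H : Subgroup K := L ⊔ (P : Subgroup K) with hH
    let P' : Sylow p ↥H := P.subtype le_sup_right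
    haveI : IsCyclic ↥(P' : Subgroup ↥H) := isCyclic_of_surjective
      (Subgroup.subgroupOfEquivOfLe (le_sup_right : (P : Subgroup K) ≤ H)).symm (MulEquiv.surjective _)
    haveI : (L.subgroupOf H).Normal := inferInstance
    have hC : commutator ↥H = L.subgroupOf H := by
      refine le_antisymm ?_ fun x hx => ?_
      · have hcov : ∀ x : ↥H, ∃ t : ↥(P : Subgroup K),
            (QuotientGroup.mk x : ↥H ⧸ L.subgroupOf H) =
              QuotientGroup.mk ⟨t.1, (le_sup_right : (P : Subgroup K) ≤ H) t.2⟩ := by
          intro x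
          obtain ⟨l, hl, t, ht, he⟩ := Subgroup.mem_sup_of_normal_left.1 x.2
          refine ⟨⟨t, ht⟩, QuotientGroup.eq.2 ?_⟩
          rw [mem_subgroupOf]
          show (x : K)⁻¹ * t ∈ L
          rw [← he, mul_inv_rev, mul_assoc]
          simpa [mul_assoc] using hLn.conj_mem _ (inv_mem hl) t⁻¹
        refine Subgroup.Normal.quotient_commutative_iff_commutator_le.1 ⟨⟨?_⟩⟩
        intro u v
        obtain ⟨x, rfl⟩ := QuotientGroup.mk_surjective u
        obtain ⟨y, rfl⟩ := QuotientGroup.mk_surjective v
        obtain ⟨s, hs⟩ := hcov x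
        obtain ⟨t, ht⟩ := hcov y
        rw [hs, ht, ← QuotientGroup.mk_mul, ← QuotientGroup.mk_mul]
        exact congrArg QuotientGroup.mk (Subtype.ext (by
          show (s : K) * t = t * s
          exact congrArg Subtype.val (mul_comm' s t)))
      · have hx' : (x : K) ∈ L := hx
        rw [← Components.comp_perfect hL] at hx'
        have h2 : ⁅L, L⁆ ≤ (commutator ↥H).map H.subtype := by
          rw [_root_.commutator_def, map_commutator, ← MonoidHom.range_eq_map, range_subtype]
          exact commutator_mono le_sup_left le_sup_left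
        obtain ⟨y, hy, hyx⟩ := h2 hx'
        rwa [Subtype.ext (show (y : K) = x from hyx)] at hy
    rcases Sylow.not_dvd_card_commutator_or_not_dvd_index_commutator (P := P') with h | h
    · rw [hC, Nat.card_congr (Subgroup.subgroupOfEquivOfLe (le_sup_left : L ≤ H)).toEquiv] at h
      exact h hpL
    · rw [hC] at h
      have hPL : (P : Subgroup K) ≤ L := by
        intro x hx
        have hxH : x ∈ H := (le_sup_right : (P : Subgroup K) ≤ H) hx
        obtain ⟨k, hk⟩ := P.2 ⟨x, hx⟩
        have h1 : (QuotientGroup.mk ⟨x, hxH⟩ : ↥H ⧸ L.subgroupOf H) ^ p ^ k = 1 := by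
          rw [← QuotientGroup.mk_pow, QuotientGroup.eq_one_iff]
          show x ^ p ^ k ∈ L
          rw [show x ^ p ^ k = 1 from congrArg Subtype.val hk]
          exact one_mem L
        have h2 : orderOf (QuotientGroup.mk ⟨x, hxH⟩ : ↥H ⧸ L.subgroupOf H) ∣ (L.subgroupOf H).index :=
          orderOf_dvd_natCard _
        have h3 := Nat.dvd_gcd (orderOf_dvd_of_pow_eq_one h1) h2
        rw [(((Fact.out : p.Prime).coprime_iff_not_dvd.2 h).pow_left k).gcd_eq_one, Nat.dvd_one,
          orderOf_eq_one_iff, QuotientGroup.eq_one_iff] at h3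
        exact h3
      exact P.not_dvd_index (hd.trans (Subgroup.index_dvd_of_le hPL))
  · left
    have hlay : Cfsg.layer K = ⊥ := Components.layer_eq_bot_iff.2 fun L hL => hcomp ⟨L, hL⟩
    have hgfs : Cfsg.generalizedFittingSubgroup K = F := by
      show Cfsg.layer K ⊔ F = F
      rw [hlay, bot_sup_eq]
    have hCF := Components.centralizer_gfs_le (G := K)
    rw [hgfs] at hCF
    have hPF : (P : Subgroup K) = F := le_antisymm
      (fun y hy => hCF (mem_centralizer_iff.2 fun x hx => hFcomm x hx y hy)) hFP
    haveI hPn : (P : Subgroup K).Normal := hPF ▸ hFn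
    have hCP : Subgroup.centralizer ((P : Subgroup K) : Set K) = (P : Subgroup K) := by
      refine le_antisymm ?_ (fun y hy => mem_centralizer_iff.2 fun x hx =>
        congrArg Subtype.val (mul_comm' (⟨x, hx⟩ : ↥(P : Subgroup K)) ⟨y, hy⟩))
      rw [hPF]; exact hCF
    let φ : K →* MulAut ↥(P : Subgroup K) := MulAut.conjNormal
    have hker : φ.ker = (P : Subgroup K) := by
      refine Eq.trans ?_ hCP
      ext g
      rw [MonoidHom.mem_ker, mem_centralizer_iff, MulEquiv.ext_iff]
      refine ⟨fun h x hx => ?_, fun h x => Subtype.ext ?_⟩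
      · have := congrArg Subtype.val (h ⟨x, hx⟩)
        rw [MulAut.conjNormal_apply] at this
        exact (mul_inv_eq_iff_eq_mul.1 this).symm
      · rw [MulAut.conjNormal_apply]
        exact mul_inv_eq_iff_eq_mul.2 (h x x.2).symm
    obtain ⟨k, hk⟩ := IsPGroup.iff_card.1 P.2
    have hdvd : (P : Subgroup K).index ∣ p - 1 := by
      have h1 : (P : Subgroup K).index ∣ Nat.totient (p ^ k) := by
        haveI : NeZero (Nat.card ↥(P : Subgroup K)) := ⟨Nat.card_pos.ne'⟩
        rw [← hker, Subgroup.index_ker, ← hk, ← ZMod.card_units_eq_totient, ← Nat.card_eq_fintype_card,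
          ← Nat.card_congr (IsCyclic.mulAutMulEquiv ↥(P : Subgroup K)).toEquiv]
        exact Subgroup.card_subgroup_dvd_card _
      rcases Nat.eq_zero_or_pos k with h0 | h0
      · exfalso
        have := (P : Subgroup K).card_mul_index
        rw [hk, h0, pow_zero, one_mul] at this
        exact P.not_dvd_index (this.symm ▸ hp)
      · rw [Nat.totient_prime_pow Fact.out h0] at h1
        exact (((Fact.out : p.Prime).coprime_iff_not_dvd.2 P.not_dvd_index).symm.pow_right _).dvd_of_dvd_mul_left h1
    refine ⟨inferInstance, hCP, fun _ => ?_, hdvd⟩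
    haveI : IsCyclic (MulAut ↥(P : Subgroup K)) ∨ (P : Subgroup K).index = 1 := by
      by_cases h2 : p = 2
      · right; subst h2; exact Nat.dvd_one.1 hdvd
      · left
        haveI := ZMod.isCyclic_units_of_prime_pow p Fact.out h2 k
        haveI : IsCyclic (ZMod (Nat.card ↥(P : Subgroup K)))ˣ := by rw [hk]; infer_instance
        exact isCyclic_of_surjective (IsCyclic.mulAutMulEquiv _).symm (MulEquiv.surjective _)
    rcases this with hc | h1
    · haveI := hc
      let ψ : K ⧸ (P : Subgroup K) →* MulAut ↥(P : Subgroup K) := QuotientGroup.lift _ φ hker.ge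
      exact isCyclic_of_injective ψ (by
        rw [← MonoidHom.ker_eq_bot_iff, QuotientGroup.ker_lift, hker, QuotientGroup.map_mk'_self])
    · haveI : Subsingleton (K ⧸ (P : Subgroup K)) := (Finite.card_le_one_iff_subsingleton).1 (by
        rw [← Subgroup.index_eq_card, h1])
      infer_instance

end Cfsg.Agent.S4403
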