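import Cfsg.Statements.S4404
import Cfsg.Agent.Lib.FourMoved.Finish
import Cfsg.Agent.Lib.Hall.Solvable
import Cfsg.Agent.Lib.Thompson.RankTwo

set_option autoImplicit false
open Cfsg
open scoped IsMulCommutative

namespace Cfsg.Agent.S4404

open Subgroup Cfsg.Agent.Lib.FourMoved
open scoped Pointwise

/-- Let S be a finite solvable group and M a normal elementary abelian 2-subgroup of S. Suppose S contains an elementary abelian subgroup of order p³ for some odd prime p, and a cyclic 3-subgroup Q such that the cubes of the elements of Q centralize M and the commutator subgroup [Q, M] has order 4 (a four-group inside M). Then S contains an elementary abelian subgroup F of order r³, for some odd prime r, whose centralizer of [Q, M] in F — the subgroup C_F([Q, M]) — is not cyclic. -/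
theorem result {S : Type*} [Group S] [Finite S]
    [Group.IsSolvable S] (M : Subgroup S) [M.Normal] (hM : Cfsg.IsElementaryAbelian 2 M)
    (p : ℕ) (hp : p.Prime) (hp2 : p ≠ 2) (E : Subgroup S) (hE : Cfsg.IsElementaryAbelian p E) (hE3 : Nat.card ↥E = p ^ 3)
    (Q : Subgroup S) (hQc : IsCyclic ↥Q) (hQ3 : IsPGroup 3 ↥Q)
    (hQ1 : ∀ x ∈ Q, x ^ 3 ∈ Subgroup.centralizer (M : Set S)) (hQM : Nat.card ↥⁅Q, M⁆ = 4) :
    ∃ (r : ℕ) (F : Subgroup S), r.Prime ∧ r ≠ 2 ∧ Cfsg.IsElementaryAbelian r F ∧ Nat.card ↥F = r ^ 3 ∧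
      ¬ IsCyclic ↥(F ⊓ Subgroup.centralizer ((⁅Q, M⁆ : Subgroup S) : Set S)) := by
  classical
  haveI : Fact (Nat.Prime 3) := ⟨Nat.prime_three⟩
  haveI := hM.1
  have he : ∀ m : ↥M, m * m = 1 := fun m => Subtype.ext (by
    have := hM.2 m m.2
    rwa [pow_two] at this)
  obtain ⟨q, rfl⟩ := Subgroup.isCyclic_iff_exists_zpowers_eq_top Q |>.1 hQc
  have hV := mv_commutator (M := M) he q
  have hq : Four (cj M) q := by
    refine ⟨?_, by rw [← card_map_of_injective M.subtype_injective, hV, hQM]⟩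
    rw [← map_pow]
    refine MulEquiv.ext fun m => Subtype.ext ?_
    show q ^ 3 * m * (q ^ 3)⁻¹ = m
    rw [← mem_centralizer_iff.1 (hQ1 q (mem_zpowers q)) m m.2, mul_inv_cancel_right]
  rw [← hV]
  by_cases h27 : ∃ A : Subgroup S, IsElementaryAbelian 3 A ∧ Nat.card A = 3 ^ 3
  · obtain ⟨A, hA, hA3⟩ := h27
    obtain ⟨T, hQT⟩ := hQ3.exists_le_sylow
    obtain ⟨T', hAT'⟩ := (IsPGroup.of_card hA3 : IsPGroup 3 A).exists_le_sylow
    obtain ⟨g, hg⟩ := MulAction.exists_smul_eq S T' T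
    have hr : ¬ PRankLE 3 2 ↥(T : Subgroup S) := by
      intro hr
      set A' := A.map (MulAut.conj g).toMonoidHom with hA'
      have hA'T : A' ≤ (T : Subgroup S) := by
        rw [← hg]; exact map_mono hAT'
      have h1 := hr (A'.subgroupOf T) ⟨⟨?_⟩⟩ ?_
      · rw [Nat.card_congr (subgroupOfEquivOfLe hA'T).toEquiv, hA', card_map_of_injective (MulAut.conj g).injective,
          hA3] at h1
        norm_num at h1
      · rintro ⟨x, hx⟩ ⟨y, hy⟩
        obtain ⟨u, hu, hux⟩ := mem_map.1 (mem_subgroupOf.1 hx)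
        obtain ⟨v, hv, hvy⟩ := mem_map.1 (mem_subgroupOf.1 hy)
        refine Subtype.ext (Subtype.ext ?_)
        show (x : S) * y = y * x
        rw [← hux, ← hvy, ← map_mul, ← map_mul, show u * v = v * u from congrArg Subtype.val (hA.1.is_comm.comm ⟨u, hu⟩ ⟨v, hv⟩)]
      · intro x hx
        obtain ⟨u, hu, hux⟩ := mem_map.1 (mem_subgroupOf.1 hx)
        refine Subtype.ext ?_
        rw [SubmonoidClass.coe_pow, ← hux, ← map_pow, hA.2 u hu, map_one, OneMemClass.coe_one]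
    have hex : ∃ B : Subgroup ↥(T : Subgroup S), B.Normal ∧ IsMulCommutative B ∧ (∀ a ∈ B, a ^ 3 = 1) ∧
        Nat.card B = 3 ^ 3 := by
      by_contra hno
      push Not at hno
      exact hr (Lib.Thompson.pRankLE_two_of_no_normal (by norm_num) T.2 hno)
    obtain ⟨B, hBn, hBc, hB3, hBcard⟩ := hex
    haveI := hBn
    have hBe : IsElementaryAbelian 3 (B.map (T : Subgroup S).subtype) :=
      ⟨⟨⟨by
        rintro ⟨_, u, hu, rfl⟩ ⟨_, v, hv, rfl⟩
        exact Subtype.ext (congrArg (fun w : ↥B => ((w : ↥(T : Subgroup S)) : S)) (hBc.is_comm.comm ⟨u, hu⟩ ⟨v, hv⟩))⟩⟩,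
      by rintro _ ⟨u, hu, rfl⟩; rw [← map_pow, hB3 u hu, map_one]⟩
    have hFc : Nat.card ↥(B.map (T : Subgroup S).subtype) = 3 ^ 3 := by
      rw [card_map_of_injective (subtype_injective _), hBcard]
    refine ⟨3, _, Nat.prime_three, by norm_num, hBe, hFc, ?_⟩
    refine not_cyclic_of_inv (n := 4) _ hBe hFc le_rfl ?_ (le_of_eq hq.card) (by decide)
    rintro _ ⟨a, ha, rfl⟩
    exact map_eq_of_normal_abelian he _ T.2 B hBc (q := ⟨q, hQT (mem_zpowers q)⟩) hq ha
  push Not at h27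
  have hp5 : 5 ≤ p := by
    have h2 := hp.two_le
    have h3 : p ≠ 3 := fun h => h27 E (h ▸ hE) (h ▸ hE3)
    have h4 : p ≠ 4 := by rintro rfl; norm_num at hp
    omega
  haveI : Fact p.Prime := ⟨hp⟩
  -- a Hall subgroup of odd order
  obtain ⟨H, hH1, hH2⟩ := Lib.Hall.exists_piHall (G := S) {r | r ≠ 2}
  have hH2' : ¬ 2 ∣ Nat.card H := fun h => hH1 2 Nat.prime_two h rfl
  have hcop : ∀ {n : ℕ}, ¬ 2 ∣ n → n.Coprime H.index := by
    intro n hn
    refine Nat.coprime_of_dvd fun k hk hkn hki => ?_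
    by_cases h2 : k = 2
    · exact hn (h2 ▸ hkn)
    · exact hH2 k hk h2 hki
  have hQodd : ¬ 2 ∣ Nat.card ↥(zpowers q) := by
    obtain ⟨k, hk⟩ := IsPGroup.iff_card.1 hQ3
    rw [hk]; exact fun h => absurd (Nat.prime_two.dvd_of_dvd_pow h) (by norm_num)
  have hEodd : ¬ 2 ∣ Nat.card E := by
    rw [hE3]; exact fun h => hp2 ((Nat.prime_dvd_prime_iff_eq Nat.prime_two hp).1 (Nat.prime_two.dvd_of_dvd_pow h)).symm
  obtain ⟨g1, hg1⟩ := Lib.Hall.exists_le_conj (hcop hH2') (K := zpowers q) (hcop hQodd)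
  obtain ⟨g2, hg2⟩ := Lib.Hall.exists_le_conj (hcop hH2') (K := E) (hcop hEodd)
  set H' := MulAut.conj g1 • H with hH'
  have hH'odd : Odd (Nat.card H') := by
    rw [hH', Nat.card_congr (equivSMul (MulAut.conj g1) H).toEquiv.symm, Nat.odd_iff]
    omega
  set E' := E.map (MulAut.conj (g1 * g2⁻¹)).toMonoidHom with hE'
  have hE'H : E' ≤ H' := by
    rintro _ ⟨e, he', rfl⟩
    obtain ⟨h, hh, rfl⟩ := (mem_smul_pointwise_iff_exists _ _ _).1 (hg2 he')
    refine (mem_smul_pointwise_iff_exists _ _ _).2 ⟨h, hh, ?_⟩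
    simp [MulAut.smul_def, mul_assoc]
  have hE'e : IsElementaryAbelian p E' := ⟨⟨⟨by
      rintro ⟨_, u, hu, rfl⟩ ⟨_, v, hv, rfl⟩
      exact Subtype.ext (by
        show (MulAut.conj (g1 * g2⁻¹)) u * (MulAut.conj (g1 * g2⁻¹)) v = (MulAut.conj (g1 * g2⁻¹)) v * (MulAut.conj (g1 * g2⁻¹)) u
        rw [← map_mul, ← map_mul, show u * v = v * u from congrArg Subtype.val (hE.1.is_comm.comm ⟨u, hu⟩ ⟨v, hv⟩)])⟩⟩,
    by rintro _ ⟨u, hu, rfl⟩; rw [← map_pow, hE.2 u hu, map_one]⟩
  have hE'c : Nat.card E' = p ^ 3 := by rw [hE', card_map_of_injective (MulAut.conj (g1 * g2⁻¹)).injective, hE3]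
  -- the group generated by the conjugates of `q` under `E'`
  set K := closure {z | ∃ e ∈ E', z = e * q * e⁻¹} with hK
  have hqK : q ∈ K := subset_closure ⟨1, one_mem _, by simp⟩
  have hEK : ∀ e ∈ E', e ∈ normalizer (K : Set S) := by
    intro e he'
    refine mem_normalizer_fintype fun k hk => ?_
    induction hk using closure_induction with
    | mem z hz =>
      obtain ⟨f, hf, rfl⟩ := hz
      exact subset_closure ⟨e * f, mul_mem he' hf, by group⟩
    | one => simp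
    | mul x y _ _ hx hy => simpa [mul_assoc] using mul_mem hx hy
    | inv x _ hx => simpa [mul_assoc] using inv_mem hx
  set φ := (cj M).comp H'.subtype
  have hqH : q ∈ H' := hg1 (mem_zpowers q)
  have hgen : ∀ e ∈ E', Four (cj M) (e * q * e⁻¹) ∧ e * q * e⁻¹ ∈ H' := fun e he' =>
    ⟨hq.conj e, mul_mem (mul_mem (hE'H he') hqH) (inv_mem (hE'H he'))⟩
  -- a Sylow 3-subgroup of `K`
  have hQK : zpowers q ≤ K := zpowers_le.2 hqK
  obtain ⟨T, hT⟩ := (hQ3.comap_subtype : IsPGroup 3 ((zpowers q).subgroupOf K)).exists_le_sylow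
  set T' := (T : Subgroup ↥K).map K.subtype with hT'
  have hT'p : IsPGroup 3 T' := T.2.map _
  have hqT' : q ∈ T' := ⟨⟨q, hqK⟩, hT (mem_zpowers q), rfl⟩
  have hrT : PRankLE 3 2 ↥T' := by
    intro A hA hA3
    by_contra hlt
    haveI := hA
    have hAp : IsPGroup 3 A := hT'p.to_subgroup A
    obtain ⟨k, hk⟩ := IsPGroup.iff_card.1 hAp
    have hk3 : 3 ≤ k := by
      by_contra hk'
      exact hlt (hk ▸ Nat.pow_le_pow_right (by norm_num) (by omega))
    obtain ⟨A0, hA0⟩ := Sylow.exists_subgroup_card_pow_prime 3 (G := ↥A) (n := 3) (hk ▸ pow_dvd_pow 3 hk3)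
    refine h27 (((A0.map A.subtype).map T'.subtype)) ⟨⟨⟨?_⟩⟩, ?_⟩ ?_
    · rintro ⟨_, _, ⟨u, -, rfl⟩, rfl⟩ ⟨_, _, ⟨v, -, rfl⟩, rfl⟩
      exact Subtype.ext (congrArg (fun w : ↥A => ((w : ↥T') : S)) (hA.is_comm.comm u v))
    · rintro _ ⟨_, ⟨u, -, rfl⟩, rfl⟩
      rw [← map_pow]
      show ((A.subtype u ^ 3 : ↥T') : S) = 1
      rw [show (A.subtype u) ^ 3 = 1 from hA3 u u.2]
      rfl
    · rw [card_map_of_injective T'.subtype_injective, card_map_of_injective A.subtype_injective, hA0]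
  set W := mv (cj M) q
  have hfr : ∀ e ∈ E', ∃ k ∈ K, W.map (cj M e).toMonoidHom = W.map (cj M k).toMonoidHom := by
    intro e he'
    obtain ⟨y, hy⟩ := MulAction.exists_smul_eq ↥K T
      (T.mapSurjective (f := (normalizerMonoidHom K ⟨e, hEK e he'⟩).toMonoidHom) (MulEquiv.surjective _))
    set n := (y : S)⁻¹ * e with hn
    have hnT : n ∈ normalizer (T' : Set S) := by
      refine mem_normalizer_fintype fun x hx => ?_
      obtain ⟨t, ht, rfl⟩ := hx
      have h1 : normalizerMonoidHom K ⟨e, hEK e he'⟩ t ∈ y • T := by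
        rw [hy]; exact mem_map_of_mem _ ht
      obtain ⟨t', ht', hte⟩ := (mem_smul_pointwise_iff_exists _ _ _).1 h1
      refine ⟨t', ht', ?_⟩
      have h2 : (y : S) * (t' : S) * (y : S)⁻¹ = e * (t : S) * e⁻¹ := congrArg Subtype.val hte
      show (t' : S) = n * (t : S) * n⁻¹
      calc (t' : S) = (y : S)⁻¹ * ((y : S) * t' * (y : S)⁻¹) * y := by group
        _ = n * (t : S) * n⁻¹ := by rw [h2, hn]; group
    have hnK : n ∈ normalizer (K : Set S) := mul_mem (inv_mem (le_normalizer y.2)) (hEK e he')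
    have hpw : ∀ j : ℕ, n ^ j * (e ^ j)⁻¹ ∈ K := by
      intro j
      induction j with
      | zero => simp
      | succ j ih =>
        have h1 : n * (n ^ j * (e ^ j)⁻¹) * n⁻¹ ∈ K := (mem_normalizer_iff.1 hnK _).1 ih
        have h2 : n ^ (j + 1) * (e ^ (j + 1))⁻¹ = n * (n ^ j * (e ^ j)⁻¹) * n⁻¹ * (y : S)⁻¹ := by
          rw [pow_succ' n, pow_succ e, mul_inv_rev, hn]; group
        rw [h2]
        exact mul_mem h1 (inv_mem y.2)
    have hnp : n ^ p ∈ K := by simpa [hE'e.2 e he'] using hpw p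
    obtain ⟨a, m, hpm, hm⟩ := Nat.exists_eq_pow_mul_and_not_dvd (orderOf_pos n).ne' p hp.ne_one
    obtain ⟨u, hu⟩ := Nat.exists_mul_mod_eq_one_of_coprime ((hp.coprime_iff_not_dvd.2 hpm).symm) hp.one_lt
    obtain ⟨t, ht⟩ : ∃ t, m * u = p * t + 1 := ⟨m * u / p, by rw [← hu.2]; exact (Nat.div_add_mod _ _).symm⟩
    set n' := n ^ (m * u) with hn'
    have hn'T : n' ∈ normalizer (T' : Set S) := pow_mem hnT _
    have h1 : normalizerMonoidHom T' ⟨n', hn'T⟩ = 1 := by
      refine eq_one_of_rank_two hT'p hrT hp5 _ (k := a) ?_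
      rw [← map_pow, ← map_one (normalizerMonoidHom T')]
      congr 1
      refine Subtype.ext ?_
      show (n ^ (m * u)) ^ p ^ a = 1
      rw [← pow_mul, show m * u * p ^ a = orderOf n * u by rw [hm]; ring, pow_mul, pow_orderOf_eq_one, one_pow]
    have hfix : n' * q * n'⁻¹ = q := by
      have h2 : normalizerMonoidHom T' ⟨n', hn'T⟩ ⟨q, hqT'⟩ = (1 : MulAut ↥T') ⟨q, hqT'⟩ := by rw [h1]
      exact congrArg Subtype.val h2
    refine ⟨e * n'⁻¹, ?_, ?_⟩
    · have e1 : e * n'⁻¹ = (y : S) * (n ^ (p * t))⁻¹ := by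
        have e2 : n' = n ^ (p * t) * n := by rw [hn', ht, pow_succ]
        have e3 : e = (y : S) * n := by rw [hn, mul_inv_cancel_left]
        rw [e2, e3]; group
      rw [e1, pow_mul]
      exact mul_mem y.2 (inv_mem (pow_mem hnp t))
    · have h3 : W.map (cj M n').toMonoidHom = W := by
        show (mv (cj M) q).map _ = _
        rw [← mv_map, hfix]
      conv_rhs => rw [← h3]
      rw [Subgroup.map_map]
      congr 1
      ext w
      show _ = ((cj M (e * n'⁻¹) * cj M n') w : S)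
      rw [← map_mul, inv_mul_cancel_right]
      rfl
  refine ⟨p, E', hp, hp2, hE'e, hE'c, ?_⟩
  -- the stabilizer of a subgroup
  have hstab : ∀ U : Subgroup ↥M, (∀ e ∈ E', U.map (cj M (e * q * e⁻¹)).toMonoidHom = U) →
      ∀ k ∈ K, U.map (cj M k).toMonoidHom = U := by
    intro U hU k hk
    have hcomp : ∀ a b : S, (cj M a).toMonoidHom.comp (cj M b).toMonoidHom = (cj M (a * b)).toMonoidHom :=
      fun a b => by ext w; rw [map_mul]; rfl
    induction hk using closure_induction with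
    | mem z hz => obtain ⟨e, he', rfl⟩ := hz; exact hU e he'
    | one =>
      rw [map_one]
      exact Subgroup.map_id U
    | mul x y _ _ hx hy => rw [← hcomp, ← Subgroup.map_map, hy, hx]
    | inv x _ hx =>
      conv_lhs => rw [← hx]
      rw [Subgroup.map_map, hcomp, inv_mul_cancel, map_one]
      exact Subgroup.map_id U
  have hW4 : Nat.card W = 4 := hq.card
  have hqφ : Four φ ⟨q, hqH⟩ := ⟨hq.cube, hq.card⟩
  by_cases hall : ∀ e ∈ E', mv (cj M) (e * q * e⁻¹) = W ∨ W ⊓ mv (cj M) (e * q * e⁻¹) = ⊥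
  · refine not_cyclic_of_inv (n := 4) _ hE'e hE'c le_rfl ?_ hW4.le ?_
    · intro e he'
      obtain ⟨k, hk, hek⟩ := hfr e he'
      rw [hek]
      refine hstab W (fun f hf => ?_) k hk
      refine eq_of_le_of_card_ge ?_ (Nat.card_congr (equivMapOfInjective W _ (cj M (f * q * f⁻¹)).injective).toEquiv).le
      rintro _ ⟨w, hw, rfl⟩
      rcases hall f hf with h | h
      · exact apply_mem_of_mv_le (φ := cj M) he _ h.le hw
      · have hfx : Four φ ⟨f * q * f⁻¹, (hgen f hf).2⟩ := ⟨(hgen f hf).1.cube, (hgen f hf).1.card⟩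
        have h' : cj M (f * q * f⁻¹) w = w :=
          fix_of_disjoint (φ := φ) he hH'odd hfx hqφ (by rw [inf_comm]; exact h) hw
        show cj M (f * q * f⁻¹) w ∈ W
        rwa [h']
    · intro h
      have h5 := hp.dvd_factorial.1 ((dvd_pow_self p two_ne_zero).trans h)
      omega
  · push Not at hall
    obtain ⟨e0, he0, hne, hmeet⟩ := hall
    set W0 := mv (cj M) (e0 * q * e0⁻¹) with hW0
    set U := W ⊔ W0 with hU'
    have hy0 : Four φ ⟨e0 * q * e0⁻¹, (hgen e0 he0).2⟩ := ⟨(hgen e0 he0).1.cube, (hgen e0 he0).1.card⟩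
    have hmv : ∀ (g : S) (hg : g ∈ H'), mv φ ⟨g, hg⟩ = mv (cj M) g := fun _ _ => rfl
    have hφap : ∀ (g : S) (hg : g ∈ H'), φ ⟨g, hg⟩ = cj M g := fun _ _ => rfl
    have hKU : ∀ k ∈ K, U.map (cj M k).toMonoidHom = U := hstab U fun f hf => by
      have hne' : mv φ ⟨q, hqH⟩ ≠ mv φ ⟨e0 * q * e0⁻¹, (hgen e0 he0).2⟩ := by
        rw [hmv, hmv]; exact Ne.symm hne
      have hmeet' : mv φ ⟨q, hqH⟩ ⊓ mv φ ⟨e0 * q * e0⁻¹, (hgen e0 he0).2⟩ ≠ ⊥ := by
        rw [hmv, hmv]; exact hmeet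
      have h := map_space (φ := φ) he hH'odd hqφ hy0 (z := ⟨f * q * f⁻¹, (hgen f hf).2⟩)
        ⟨(hgen f hf).1.cube, (hgen f hf).1.card⟩ hne' hmeet'
      rw [hmv, hmv, hφap] at h
      exact h
    have hWe : ∀ e ∈ E', W.map (cj M e).toMonoidHom ≤ U := fun e he' => by
      obtain ⟨k, hk, hek⟩ := hfr e he'
      rw [hek, ← hKU k hk]
      exact map_mono le_sup_left
    have hU8 : Nat.card U ≤ 8 := by
      obtain ⟨c, ⟨hc, hc'⟩, hc1⟩ := (bot_or_exists_ne_one _).resolve_left hmeet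
      set d := cj M (e0 * q * e0⁻¹) c
      have hle : U ≤ W ⊔ zpowers d := sup_le le_sup_left fun u hu => by
        rcases (hgen e0 he0).1.elems he hc' hc1 hu with rfl | rfl | rfl | rfl
        exacts [one_mem _, mem_sup_left hc, mem_sup_right (mem_zpowers d),
          mul_mem (mem_sup_left hc) (mem_sup_right (mem_zpowers d))]
      let f : ↥W × ↥(zpowers d) → ↥(W ⊔ zpowers d) := fun x =>
        ⟨x.1.1 * x.2.1, mul_mem (mem_sup_left x.1.2) (mem_sup_right x.2.2)⟩
      have hf : Function.Surjective f := by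
        rintro ⟨u, hu⟩
        obtain ⟨a, ha, b, hb, rfl⟩ := mem_sup.1 hu
        exact ⟨(⟨a, ha⟩, ⟨b, hb⟩), rfl⟩
      refine (card_le_of_le hle).trans ((Nat.card_le_card_of_surjective f hf).trans ?_)
      rw [Nat.card_prod, hW4, Nat.card_zpowers]
      have : orderOf d ≤ 2 := Nat.le_of_dvd two_pos (orderOf_dvd_of_pow_eq_one (by rw [pow_two, he]))
      omega
    refine not_cyclic_of_inv (n := 8) _ hE'e hE'c le_sup_left ?_ hU8 ?_
    · intro e he'
      refine eq_of_le_of_card_ge ?_ (Nat.card_congr (equivMapOfInjective U _ (cj M e).injective).toEquiv).le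
      rw [Subgroup.map_sup]
      refine sup_le (hWe e he') ?_
      refine le_trans (le_of_eq ?_) (hWe (e * e0) (mul_mem he' he0))
      rw [hW0, mv_map, Subgroup.map_map]
      congr 1
      ext w
      rw [map_mul]
      rfl
    · intro h
      have h8 : p ≤ 8 := hp.dvd_factorial.1 ((dvd_pow_self p two_ne_zero).trans h)
      interval_cases p <;> first | (norm_num at hp; done) | (norm_num [Nat.factorial] at h; done)

end Cfsg.Agent.S4404
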