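import Cfsg.Statements.S4405

import Cfsg.Agent.Lib.Hall.Solvable
import Cfsg.Agent.Lib.Char.Burnside
set_option autoImplicit false
open Cfsg

namespace Cfsg.Agent.S4405


/-- Fixed points of an element of order five on a subgroup it normalises. -/
theorem card_mod_five {X : Type*} [Group X] [Finite X] (x : X) (hx : x ^ 5 = 1) (K : Set X)
    (hK : ∀ a, a ∈ K → x * a * x⁻¹ ∈ K) :
    Nat.card K ≡ Nat.card {a : K // x * (a : X) = (a : X) * x} [MOD 5] := by
  classical
  haveI : Fact (Nat.Prime 5) := ⟨by norm_num⟩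
  have hA : IsPGroup 5 (Subgroup.zpowers x) := by
    rintro ⟨a, ha⟩
    obtain ⟨i, rfl⟩ := Subgroup.mem_zpowers_iff.1 ha
    exact ⟨1, Subtype.ext (by
      show (x ^ i) ^ (5 ^ 1) = 1
      rw [pow_one, ← zpow_natCast, ← zpow_mul, mul_comm, zpow_mul, zpow_natCast, hx, one_zpow])⟩
  have hinv : ∀ n : ℕ, ∀ a, a ∈ K → x ^ n * a * (x ^ n)⁻¹ ∈ K := by
    intro n
    induction n with
    | zero => simp
    | succ n ih =>
      intro a ha
      have h1 := hK _ (ih a ha)
      rw [show x ^ (n + 1) * a * (x ^ (n + 1))⁻¹ = x * (x ^ n * a * (x ^ n)⁻¹) * x⁻¹ by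
        rw [pow_succ']; group]
      exact h1
  have hinv' : ∀ g ∈ Subgroup.zpowers x, ∀ a, a ∈ K → g * a * g⁻¹ ∈ K := by
    intro g hg a ha
    obtain ⟨n, rfl⟩ := (isOfFinOrder_of_finite x).mem_powers_iff_mem_zpowers.2 hg
    exact hinv n a ha
  let _ : MulAction (Subgroup.zpowers x) K :=
    { smul := fun g a => ⟨(g : X) * a * (g : X)⁻¹, hinv' g g.2 a a.2⟩
      one_smul := fun a => Subtype.ext (show (1 : X) * a * (1 : X)⁻¹ = a by simp)
      mul_smul := fun g h a => Subtype.ext (show ((g : X) * h) * a * ((g : X) * h)⁻¹ = _ by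
        show _ = (g : X) * ((h : X) * a * (h : X)⁻¹) * (g : X)⁻¹
        group) }
  refine (hA.card_modEq_card_fixedPoints K).trans (congrArg (· % 5) ?_)
  refine Nat.card_congr (Equiv.subtypeEquivRight fun a => ⟨fun h => ?_, fun h g => ?_⟩)
  · have h1 : x * (a : X) * x⁻¹ = a := congrArg Subtype.val (h ⟨x, Subgroup.mem_zpowers x⟩)
    exact mul_inv_eq_iff_eq_mul.1 h1
  · obtain ⟨i, hi⟩ := Subgroup.mem_zpowers_iff.1 g.2
    refine Subtype.ext (show (g : X) * a * (g : X)⁻¹ = a from ?_)
    rw [← hi, mul_inv_eq_iff_eq_mul]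
    exact ((Commute.zpow_left h i)).eq

theorem pow_cases {n : ℕ} {b : ℕ} (h : n ∣ 2 ^ b) (hb : b ≤ 5) :
    n = 1 ∨ n = 2 ∨ n = 4 ∨ n = 8 ∨ n = 16 ∨ n = 32 := by
  obtain ⟨i, hi, rfl⟩ := (Nat.dvd_prime_pow Nat.prime_two).1 h
  have : i ≤ 5 := hi.trans hb
  interval_cases i <;> norm_num


/-- Let G be a finite group of order 320 = 64·5 whose largest normal 2-subgroup H = O₂(G) equals the Fitting subgroup F(G) and is extraspecial of order 32 containing no elementary abelian subgroup of order 8 (so H is the central product of a quaternion group and a dihedral group of order 8). If T is an involution of G outside H whose centralizer in H contains an elementary abelian subgroup of order 4, then C_H(T) itself is elementary abelian of order 4. -/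
theorem result {G : Type*} [Group G] [Finite G]
    (hG : Nat.card G = 320) (hHF : Cfsg.pCore 2 G = Cfsg.fittingSubgroup G)
    (hex : Cfsg.IsExtraspecial 2 ↥(Cfsg.pCore 2 G)) (h32 : Nat.card ↥(Cfsg.pCore 2 G) = 32)
    (hminus : ∀ A : Subgroup G, A ≤ Cfsg.pCore 2 G → Cfsg.IsElementaryAbelian 2 A → Nat.card ↥A ≤ 4)
    (T : G) (hT : orderOf T = 2) (hTH : T ∉ Cfsg.pCore 2 G)
    (V : Subgroup G) (hV : V ≤ Cfsg.pCore 2 G ⊓ Subgroup.centralizer ({T} : Set G)) (hV4 : Nat.card ↥V = 4) (hVe : Cfsg.IsElementaryAbelian 2 V) :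
    Nat.card ↥(Cfsg.pCore 2 G ⊓ Subgroup.centralizer ({T} : Set G)) = 4 ∧
      Cfsg.IsElementaryAbelian 2 (Cfsg.pCore 2 G ⊓ Subgroup.centralizer ({T} : Set G)) := by
  classical
  haveI : Fact (Nat.Prime 2) := ⟨Nat.prime_two⟩
  haveI : Fact (Nat.Prime 5) := ⟨by norm_num⟩
  set H := Cfsg.pCore 2 G with hHdef
  obtain ⟨⟨hHp, hfr, hcom⟩, hzc⟩ := hex
  haveI hHn : H.Normal := by
    rw [hHF]; infer_instance
  haveI : Group.IsSolvable G :=
    Lib.Char.isSolvable_of_card_eq_two_primes Nat.prime_two (by norm_num : Nat.Prime 5) _ G rfl fun r hr hd => by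
      rw [hG] at hd
      rcases (Nat.Prime.dvd_mul hr).1 (show r ∣ 2 ^ 6 * 5 by simpa using hd) with h | h
      · exact Or.inl ((Nat.prime_dvd_prime_iff_eq hr Nat.prime_two).1 (hr.dvd_of_dvd_pow h))
      · exact Or.inr ((Nat.prime_dvd_prime_iff_eq hr (by norm_num)).1 h)
  have hself : Subgroup.centralizer (H : Set G) ≤ H := by
    rw [hHF]; exact Lib.Hall.centralizer_fittingSubgroup_le
  set Z : Subgroup G := H ⊓ Subgroup.centralizer (H : Set G) with hZdef
  haveI hZn : Z.Normal := by rw [hZdef]; infer_instance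
  have hZcard : Nat.card Z = 2 := by
    rw [← hzc]
    refine Nat.card_congr
      { toFun := fun a => ⟨⟨a.1, a.2.1⟩, Subgroup.mem_center_iff.2 fun b =>
          Subtype.ext (Subgroup.mem_centralizer_iff.1 a.2.2 b b.2)⟩
        invFun := fun a => ⟨a.1.1, a.1.2, Subgroup.mem_centralizer_iff.2 fun b hb =>
          congrArg Subtype.val (Subgroup.mem_center_iff.1 a.2 ⟨b, hb⟩)⟩
        left_inv := fun a => rfl
        right_inv := fun a => rfl }
  have hZ2 : ∀ a ∈ Z, a * a = 1 := by
    intro a ha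
    have := orderOf_dvd_natCard (⟨a, ha⟩ : Z)
    rw [hZcard, orderOf_dvd_iff_pow_eq_one, pow_two] at this
    exact congrArg Subtype.val this
  have hcomZ : ∀ a ∈ H, ∀ b ∈ H, a * b * a⁻¹ * b⁻¹ ∈ Z := by
    intro a ha b hb
    have h1 : (⟨a, ha⟩ : H) * ⟨b, hb⟩ * (⟨a, ha⟩ : H)⁻¹ * (⟨b, hb⟩ : H)⁻¹ ∈ Subgroup.center H := by
      rw [← hcom]
      exact Subgroup.commutator_mem_commutator (Subgroup.mem_top _) (Subgroup.mem_top _)
    exact ⟨Subgroup.mul_mem _ (Subgroup.mul_mem _ (Subgroup.mul_mem _ ha hb) (Subgroup.inv_mem _ ha))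
      (Subgroup.inv_mem _ hb), Subgroup.mem_centralizer_iff.2 fun c hc =>
        congrArg Subtype.val (Subgroup.mem_center_iff.1 h1 ⟨c, hc⟩)⟩
  have hsqZ : ∀ a ∈ H, a * a ∈ Z := by
    intro a ha
    refine ⟨Subgroup.mul_mem _ ha ha, Subgroup.mem_centralizer_iff.2 fun b hb => ?_⟩
    have hd := hcomZ a ha b hb
    set d := a * b * a⁻¹ * b⁻¹ with hddef
    have e1 : a * b = d * b * a := by rw [hddef]; group
    have hda : a * d = d * a := Subgroup.mem_centralizer_iff.1 hd.2 a ha
    calc b * (a * a) = (d * d) * b * (a * a) := by rw [hZ2 d hd, one_mul]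
      _ = d * (d * b * a) * a := by group
      _ = d * (a * b) * a := by rw [e1]
      _ = (d * a) * (b * a) := by group
      _ = (a * d) * (b * a) := by rw [hda]
      _ = a * (d * b * a) := by group
      _ = a * (a * b) := by rw [e1]
      _ = a * a * b := by group
  obtain ⟨x, hx⟩ := exists_prime_orderOf_dvd_card' (G := G) 5 (by rw [hG]; norm_num)
  have hx5 : x ^ 5 = 1 := hx ▸ pow_orderOf_eq_one x
  have hxH : x ∉ H := fun h => by
    have h1 := orderOf_dvd_natCard (⟨x, h⟩ : H)
    rw [Subgroup.orderOf_mk, hx, h32] at h1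
    norm_num at h1
  -- the fixed points of `x` on `H`
  have hCx : ∀ a ∈ H, x * a = a * x → a ∈ Z := by
    set K : Subgroup G := H ⊓ Subgroup.centralizer {x} with hK
    have hZK : Z ≤ K := fun a ha => ⟨ha.1, Subgroup.mem_centralizer_singleton_iff.2 (by
      have hfix : ∀ b ∈ Z, b ≠ 1 → b = a ∨ a = 1 := by
        intro b hb hb1
        by_cases ha1 : a = 1
        · exact Or.inr ha1
        obtain ⟨p, q, hpq, huniv⟩ := Nat.card_eq_two_iff.1 hZcard
        have hall : ∀ c : Z, c = p ∨ c = q := fun c => by simpa using Set.eq_univ_iff_forall.1 huniv c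
        rcases hall ⟨a, ha⟩ with h1 | h1 <;> rcases hall ⟨b, hb⟩ with h2 | h2 <;> rcases hall 1 with h3 | h3
        all_goals first
          | exact Or.inl (congrArg Subtype.val (h2.trans h1.symm))
          | exact absurd (congrArg Subtype.val (h1.trans h3.symm)) ha1
          | exact absurd (congrArg Subtype.val (h2.trans h3.symm)) hb1
      by_cases ha1 : a = 1
      · simp [ha1]
      have hne : x * a * x⁻¹ ≠ 1 := fun h => ha1 (by simpa using h)
      have := (hfix _ (hZn.conj_mem a ha x) hne).resolve_right ha1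
      exact (mul_inv_eq_iff_eq_mul.1 this).symm)⟩
    have hmod := card_mod_five x hx5 (H : Set G) fun a ha => hHn.conj_mem a ha x
    have hKcard : Nat.card {a : (H : Set G) // x * (a : G) = (a : G) * x} = Nat.card K :=
      Nat.card_congr ((Equiv.subtypeSubtypeEquivSubtypeInter (fun a => a ∈ (H : Set G))
        (fun a => x * a = a * x)).trans (Equiv.subtypeEquivRight fun a => by
          show (a ∈ H ∧ x * a = a * x) ↔ a ∈ K
          rw [hK, Subgroup.mem_inf, Subgroup.mem_centralizer_singleton_iff, eq_comm]))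
    rw [hKcard, show Nat.card (H : Set G) = 32 from h32] at hmod
    have hK2 : Nat.card K = 2 := by
      have hdvd : Nat.card K ∣ 2 ^ 5 := (Subgroup.card_dvd_of_le inf_le_left).trans (by rw [h32]; norm_num)
      rcases pow_cases hdvd le_rfl with h | h | h | h | h | h <;> rw [h] at hmod
      · exact absurd hmod (by decide)
      · exact h
      · exact absurd hmod (by decide)
      · exact absurd hmod (by decide)
      · exact absurd hmod (by decide)
      · exfalso
        have hKH : K = H := Subgroup.eq_of_le_of_card_ge inf_le_left (by rw [h, h32])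
        refine hxH (hself (Subgroup.mem_centralizer_iff.2 fun a ha => ?_))
        exact Subgroup.mem_centralizer_singleton_iff.1 (hKH.symm.le ha).2
    have hKZ : Z = K := Subgroup.eq_of_le_of_card_ge hZK (by rw [hK2, hZcard])
    exact fun a ha hax => hKZ ▸ (⟨ha, Subgroup.mem_centralizer_singleton_iff.2 hax.symm⟩ : a ∈ K)
  have hxZ : ∀ a ∈ Z, x * a = a * x := by
    intro a ha
    have hmod := card_mod_five x hx5 (Z : Set G) fun a ha => hZn.conj_mem a ha x
    rw [show Nat.card (Z : Set G) = 2 from hZcard] at hmod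
    have hle : Nat.card {a : (Z : Set G) // x * (a : G) = (a : G) * x} ≤ 2 := by
      rw [← hZcard]
      exact Nat.card_le_card_of_injective _ Subtype.val_injective
    have h2 : Nat.card {a : (Z : Set G) // x * (a : G) = (a : G) * x} = 2 := by
      interval_cases hc : Nat.card {a : (Z : Set G) // x * (a : G) = (a : G) * x}
      · exact absurd hmod (by decide)
      · exact absurd hmod (by decide)
      · rfl
    have hb : Function.Bijective (Subtype.val : {a : (Z : Set G) // x * (a : G) = (a : G) * x} → (Z : Set G)) := by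
      rw [Nat.bijective_iff_injective_and_card]
      exact ⟨Subtype.val_injective, by rw [h2]; exact hZcard.symm⟩
    obtain ⟨b, hb'⟩ := hb.2 ⟨a, ha⟩
    have := b.2
    rwa [hb'] at this
  -- pass to the quotient by the centre of `H`
  set π := QuotientGroup.mk' Z
  set W := H.map π with hW
  set t := π T
  set ξ := π x
  have hWcard : Nat.card W = 16 := by
    have h1 := Subgroup.card_mul_index (Z.subgroupOf H)
    have h2 : (Z.subgroupOf H).index = Nat.card W := by
      have : (Z.subgroupOf H) = ((π.comp H.subtype)).ker := by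
        ext a
        rw [Subgroup.mem_subgroupOf, MonoidHom.mem_ker]
        exact (QuotientGroup.eq_one_iff _).symm
      rw [this, Subgroup.index_ker, MonoidHom.range_comp, Subgroup.range_subtype]
    rw [h2, h32, Nat.card_congr (Subgroup.subgroupOfEquivOfLe (inf_le_left : Z ≤ H)).toEquiv, hZcard] at h1
    omega
  have hWn : W.Normal := hHn.map π (QuotientGroup.mk'_surjective Z)
  have hWc : ∀ a ∈ W, ∀ b ∈ W, a * b = b * a := by
    rintro _ ⟨a, ha, rfl⟩ _ ⟨b, hb, rfl⟩
    have := (QuotientGroup.eq_one_iff _).2 (hcomZ a ha b hb)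
    change π (a * b * a⁻¹ * b⁻¹) = 1 at this
    rw [map_mul, map_mul, map_mul, map_inv, map_inv] at this
    rwa [mul_inv_eq_one, mul_inv_eq_iff_eq_mul] at this
  have hW2 : ∀ a ∈ W, a * a = 1 := by
    rintro _ ⟨a, ha, rfl⟩
    rw [← map_mul]
    exact (QuotientGroup.eq_one_iff _).2 (hsqZ a ha)
  have hξ5 : ξ ^ 5 = 1 := by rw [← map_pow, hx5, map_one]
  have hfpf : ∀ a ∈ W, ξ * a = a * ξ → a = 1 := by
    rintro _ ⟨h, hh, rfl⟩ he
    rw [← map_mul, ← map_mul, eq_comm] at he
    change ((h * x : G) : G ⧸ Z) = ((x * h : G) : G ⧸ Z) at he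
    rw [QuotientGroup.eq] at he
    set d := (h * x)⁻¹ * (x * h) with hd
    have e1 : x⁻¹ * h * x = h * d⁻¹ := by rw [hd]; group
    have hdh : h * d⁻¹ = d⁻¹ * h := Subgroup.mem_centralizer_iff.1 (Subgroup.inv_mem _ he.2) h hh
    have e2 : ∀ n : ℕ, (x ^ n)⁻¹ * h * x ^ n = h * (d⁻¹) ^ n := by
      intro n
      induction n with
      | zero => simp
      | succ n ih =>
        have hxd : Commute x ((d⁻¹) ^ n) := (Commute.pow_right (hxZ _ (Subgroup.inv_mem _ he)) n)
        calc (x ^ (n + 1))⁻¹ * h * x ^ (n + 1) = x⁻¹ * ((x ^ n)⁻¹ * h * x ^ n) * x := by rw [pow_succ]; group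
          _ = x⁻¹ * (h * (d⁻¹) ^ n) * x := by rw [ih]
          _ = (x⁻¹ * h * x) * (d⁻¹) ^ n := by rw [mul_assoc, mul_assoc h, ← hxd.eq]; group
          _ = h * d⁻¹ * (d⁻¹) ^ n := by rw [e1]
          _ = h * (d⁻¹) ^ (n + 1) := by rw [pow_succ']; group
    have e3 := e2 5
    rw [hx5, inv_one, one_mul, mul_one] at e3
    have e4 : (d⁻¹) ^ 5 = 1 := mul_left_cancel (e3.symm.trans (mul_one h).symm)
    have e5 : (d⁻¹) ^ 2 = 1 := by rw [pow_two]; exact hZ2 _ (Subgroup.inv_mem _ he)
    have e6 : d⁻¹ = 1 := by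
      rwa [show (d⁻¹) ^ 5 = ((d⁻¹) ^ 2) ^ 2 * d⁻¹ by rw [← pow_mul, ← pow_succ], e5, one_pow, one_mul] at e4
    rw [e6, mul_one, mul_assoc, inv_mul_eq_iff_eq_mul] at e1
    exact (QuotientGroup.eq_one_iff _).2 (hCx h hh e1.symm)
  have hmodW : ∀ K : Subgroup (G ⧸ Z), K ≤ W → (∀ a ∈ K, ξ * a * ξ⁻¹ ∈ K) → Nat.card K = 1 ∨ Nat.card K = 16 := by
    intro K hKW hinv
    have hmod := card_mod_five ξ hξ5 (K : Set (G ⧸ Z)) hinv
    have h1 : Nat.card {a : (K : Set (G ⧸ Z)) // ξ * (a : G ⧸ Z) = (a : G ⧸ Z) * ξ} = 1 := by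
      rw [Nat.card_eq_one_iff_unique]
      exact ⟨⟨fun a b => Subtype.ext (Subtype.ext ((hfpf _ (hKW a.1.2) a.2).trans (hfpf _ (hKW b.1.2) b.2).symm))⟩,
        ⟨⟨⟨1, K.one_mem⟩, by simp⟩⟩⟩
    rw [h1] at hmod
    change Nat.card K ≡ 1 [MOD 5] at hmod
    have hdvd : Nat.card K ∣ 2 ^ 4 := (Subgroup.card_dvd_of_le hKW).trans (by rw [hWcard]; norm_num)
    rcases pow_cases hdvd (by norm_num) with h | h | h | h | h | h
    · exact Or.inl h
    · rw [h] at hmod; exact absurd hmod (by decide)
    · rw [h] at hmod; exact absurd hmod (by decide)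
    · rw [h] at hmod; exact absurd hmod (by decide)
    · exact Or.inr h
    · rw [h] at hdvd; norm_num at hdvd
  have hT2 : T * T = 1 := by rw [← pow_two, ← hT, pow_orderOf_eq_one]
  have ht2 : t * t = 1 := by rw [← map_mul, hT2, map_one]
  have htinv : t⁻¹ = t := inv_eq_of_mul_eq_one_right ht2
  set D := W ⊓ Subgroup.centralizer {t} with hD
  -- the map `w ↦ [w, t]`
  let f : W →* W :=
    { toFun := fun w => ⟨(w : G ⧸ Z) * (t * w * t), W.mul_mem w.2 (by
          have := hWn.conj_mem _ w.2 t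
          rwa [htinv] at this)⟩
      map_one' := Subtype.ext (by simp [ht2])
      map_mul' := fun a b => Subtype.ext (by
        have hc : t * (a : G ⧸ Z) * t ∈ W := by
          have := hWn.conj_mem _ a.2 t
          rwa [htinv] at this
        show (a : G ⧸ Z) * b * (t * ((a : G ⧸ Z) * b) * t) =
          (a : G ⧸ Z) * (t * a * t) * ((b : G ⧸ Z) * (t * b * t))
        calc (a : G ⧸ Z) * b * (t * ((a : G ⧸ Z) * b) * t)
            = (a : G ⧸ Z) * b * (t * a * 1 * b * t) := by group
          _ = (a : G ⧸ Z) * b * (t * a * (t * t) * b * t) := by rw [ht2]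
          _ = (a : G ⧸ Z) * ((b : G ⧸ Z) * (t * a * t)) * (t * b * t) := by group
          _ = (a : G ⧸ Z) * ((t * a * t) * b) * (t * b * t) := by rw [hWc _ b.2 _ hc]
          _ = _ := by group) }
  have hker : f.ker = D.subgroupOf W := by
    ext ⟨w, hw⟩
    rw [MonoidHom.mem_ker, Subgroup.mem_subgroupOf, hD, Subgroup.mem_inf, and_iff_right hw,
      Subgroup.mem_centralizer_singleton_iff, Subtype.ext_iff]
    show w * (t * w * t) = 1 ↔ w * t = t * w
    constructor
    · intro h
      have h1 : t * w * t = w := by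
        rw [← inv_eq_of_mul_eq_one_right h]
        exact inv_eq_of_mul_eq_one_right (hW2 w hw)
      calc w * t = t * w * t * t := by rw [h1]
        _ = t * w := by rw [mul_assoc, ht2, mul_one]
    · intro h
      rw [← h, mul_assoc w t t, ht2, mul_one, hW2 w hw]
  have hrange : f.range ≤ D.subgroupOf W := by
    rintro _ ⟨⟨w, hw⟩, rfl⟩
    rw [Subgroup.mem_subgroupOf, hD, Subgroup.mem_inf]
    refine ⟨(f ⟨w, hw⟩).2, Subgroup.mem_centralizer_singleton_iff.2 ?_⟩
    have hc : t * w * t ∈ W := by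
      have := hWn.conj_mem _ hw t
      rwa [htinv] at this
    show w * (t * w * t) * t = t * (w * (t * w * t))
    calc w * (t * w * t) * t = w * (t * w * (t * t)) := by group
      _ = (t * t) * (w * t * w) := by rw [ht2]; group
      _ = t * ((t * w * t) * w) := by group
      _ = t * (w * (t * w * t)) := by rw [hWc _ hc _ hw]
  have hDW : Nat.card (D.subgroupOf W) = Nat.card D :=
    Nat.card_congr (Subgroup.subgroupOfEquivOfLe inf_le_left).toEquiv
  have hD4 : 4 ≤ Nat.card D := by
    have h1 := Subgroup.card_mul_index f.ker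
    rw [Subgroup.index_ker, hWcard, hker, hDW] at h1
    have h2 : Nat.card f.range ≤ Nat.card D := hDW ▸ Subgroup.card_le_of_le hrange
    nlinarith
  -- `x` does not commute with `T` modulo `H`
  have hnc : T⁻¹ * (x * T * x⁻¹) ∉ H := by
    intro hcase
    obtain ⟨S, hST, hSx⟩ : ∃ S : G, T⁻¹ * S ∈ H ∧ x * S = S * x := by
      have hmod := card_mod_five x hx5 {g : G | T⁻¹ * g ∈ H} fun g hg => by
        show T⁻¹ * (x * g * x⁻¹) ∈ H
        rw [show T⁻¹ * (x * g * x⁻¹) = T⁻¹ * (x * T * x⁻¹) * (x * (T⁻¹ * g) * x⁻¹) by group]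
        exact H.mul_mem hcase (hHn.conj_mem _ hg x)
      have h32' : Nat.card {g : G | T⁻¹ * g ∈ H} = 32 := by
        rw [← h32]
        exact Nat.card_congr (Equiv.subtypeEquiv (Equiv.mulLeft T⁻¹) fun g => Iff.rfl)
      rw [h32'] at hmod
      by_contra hno
      push Not at hno
      have : IsEmpty {a : {g : G | T⁻¹ * g ∈ H} // x * (a : G) = (a : G) * x} :=
        ⟨fun a => hno a.1.1 a.1.2 a.2⟩
      rw [Nat.card_of_isEmpty] at hmod
      exact absurd hmod (by decide)
    have hS : ∀ a ∈ W, π S * a = t * a * (π (T⁻¹ * S)) := by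
      intro a ha
      rw [mul_assoc t a, hWc a ha _ ⟨_, hST, rfl⟩, ← mul_assoc, ← map_mul, mul_inv_cancel_left]
    have hSξ : ξ * π S = π S * ξ := by rw [← map_mul, ← map_mul, hSx]
    have hDS : ∀ a ∈ W, (π S * a = a * π S ↔ a ∈ D) := by
      intro a ha
      rw [hD, Subgroup.mem_inf, and_iff_right ha, Subgroup.mem_centralizer_singleton_iff, hS a ha,
        show π S = t * π (T⁻¹ * S) by rw [← map_mul, mul_inv_cancel_left], ← mul_assoc, eq_comm]
      exact mul_left_inj _
    have hDinv : ∀ a ∈ D, ξ * a * ξ⁻¹ ∈ D := by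
      intro a ha
      have haW : a ∈ W := ha.1
      refine (hDS _ (hWn.conj_mem a haW ξ)).1 ?_
      have h1 := (hDS a haW).2 ha
      calc π S * (ξ * a * ξ⁻¹) = (π S * ξ) * a * ξ⁻¹ := by group
        _ = ξ * (π S * a) * ξ⁻¹ := by rw [← hSξ]; group
        _ = ξ * (a * π S) * ξ⁻¹ := by rw [h1]
        _ = ξ * a * ξ⁻¹ * (ξ * π S) * ξ⁻¹ := by group
        _ = ξ * a * ξ⁻¹ * (π S * ξ) * ξ⁻¹ := by rw [hSξ]
        _ = ξ * a * ξ⁻¹ * π S := by group
    have hDtop : D = W := by
      rcases hmodW D inf_le_left hDinv with h | h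
      · omega
      · exact Subgroup.eq_of_le_of_card_ge inf_le_left (by rw [h, hWcard])
    have hmem : ∀ h : H, S * h * S⁻¹ * (h : G)⁻¹ ∈ Z := by
      intro h
      have hw : π h ∈ W := ⟨h, h.2, rfl⟩
      have := (hDS _ hw).2 (hDtop.symm.le hw)
      refine (QuotientGroup.eq_one_iff _).1 ?_
      show π (S * h * S⁻¹ * (h : G)⁻¹) = 1
      rw [map_mul, map_mul, map_mul, map_inv, map_inv, this, mul_inv_cancel_right, mul_inv_cancel]
    let g : H →* Z :=
      { toFun := fun h => ⟨S * h * S⁻¹ * (h : G)⁻¹, hmem h⟩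
        map_one' := Subtype.ext (by simp)
        map_mul' := fun a b => Subtype.ext (by
          have hc := Subgroup.mem_centralizer_iff.1 (hmem b).2 a a.2
          show S * ((a : G) * b) * S⁻¹ * ((a : G) * b)⁻¹ =
            S * (a : G) * S⁻¹ * (a : G)⁻¹ * (S * (b : G) * S⁻¹ * (b : G)⁻¹)
          calc S * ((a : G) * b) * S⁻¹ * ((a : G) * b)⁻¹
              = S * (a : G) * S⁻¹ * ((S * (b : G) * S⁻¹ * (b : G)⁻¹) * (a : G)⁻¹) := by group
            _ = S * (a : G) * S⁻¹ * ((a : G)⁻¹ * (S * (b : G) * S⁻¹ * (b : G)⁻¹)) := by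
                congr 1
                rw [eq_inv_mul_iff_mul_eq, ← mul_assoc, hc, mul_inv_cancel_right]
            _ = _ := by group) }
    have h16 : 16 ≤ Nat.card g.ker := by
      have h1 := Subgroup.card_mul_index g.ker
      rw [Subgroup.index_ker, h32] at h1
      have h2 : Nat.card g.range ≤ 2 := hZcard ▸ Subgroup.card_le_card_group _
      nlinarith
    set L : Subgroup G := H ⊓ Subgroup.centralizer {S} with hL
    have hLker : Nat.card g.ker ≤ Nat.card L := by
      refine Nat.card_le_card_of_injective (fun h => ⟨(h.1 : G), h.1.2, Subgroup.mem_centralizer_singleton_iff.2 ?_⟩)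
        fun a b hab => Subtype.ext (Subtype.ext (congrArg (fun u : L => (u : G)) hab))
      have h3 : S * (h.1 : G) * S⁻¹ * (h.1 : G)⁻¹ = 1 := congrArg Subtype.val h.2
      rw [mul_inv_eq_one, mul_inv_eq_iff_eq_mul] at h3
      exact h3.symm
    have hLinv : ∀ a ∈ L, x * a * x⁻¹ ∈ L := by
      intro a ha
      refine ⟨hHn.conj_mem a ha.1 x, Subgroup.mem_centralizer_singleton_iff.2 ?_⟩
      have h1 : a * S = S * a := Subgroup.mem_centralizer_singleton_iff.1 ha.2
      calc x * a * x⁻¹ * S = x * a * x⁻¹ * (S * x) * x⁻¹ := by group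
        _ = x * (a * S) * x⁻¹ := by rw [← hSx]; group
        _ = (x * S) * a * x⁻¹ := by rw [h1]; group
        _ = S * (x * a * x⁻¹) := by rw [hSx]; group
    have hmod := card_mod_five x hx5 (L : Set G) hLinv
    have hfix : Nat.card {a : (L : Set G) // x * (a : G) = (a : G) * x} ≤ 2 := by
      rw [← hZcard]
      exact Nat.card_le_card_of_injective (fun a => (⟨a.1.1, hCx _ a.1.2.1 a.2⟩ : Z))
        fun a b hab => Subtype.ext (Subtype.ext (congrArg (fun u : Z => (u : G)) hab))
    have hdvd : Nat.card L ∣ 2 ^ 5 := (Subgroup.card_dvd_of_le inf_le_left).trans (by rw [h32]; norm_num)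
    change Nat.card L ≡ _ [MOD 5] at hmod
    rcases pow_cases hdvd le_rfl with h | h | h | h | h | h
    iterate 4 omega
    · rw [h] at hmod
      unfold Nat.ModEq at hmod
      interval_cases hc : Nat.card {a : (L : Set G) // x * (a : G) = (a : G) * x}
      · omega
      · -- one fixed point: the identity, but the centre is centralised too
        have h2 : Nat.card Z ≤ 1 := by
          rw [← hc]
          refine Nat.card_le_card_of_injective (fun a => (⟨⟨a.1, a.2.1, Subgroup.mem_centralizer_singleton_iff.2 ?_⟩,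
            hxZ _ a.2⟩ : {a : (L : Set G) // x * (a : G) = (a : G) * x}))
            fun a b hab => Subtype.ext (congrArg (fun u : {a : (L : Set G) // x * (a : G) = (a : G) * x} => (u.1 : G)) hab)
          have hSa : S * (a : G) * S⁻¹ ∈ Z := hZn.conj_mem _ a.2 S
          by_cases ha1 : (a : G) = 1
          · simp [ha1]
          obtain ⟨p, q, -, huniv⟩ := Nat.card_eq_two_iff.1 hZcard
          have hall : ∀ c : Z, c = p ∨ c = q := fun c => by simpa using Set.eq_univ_iff_forall.1 huniv c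
          rcases hall a with h1 | h1 <;> rcases hall ⟨_, hSa⟩ with h2 | h2 <;> rcases hall 1 with h3 | h3
          all_goals first
            | exact (mul_inv_eq_iff_eq_mul.1 (congrArg Subtype.val (h2.trans h1.symm) : S * (a : G) * S⁻¹ = a)).symm
            | exact absurd (congrArg Subtype.val (h1.trans h3.symm)) ha1
            | exact absurd (show S * (a : G) * S⁻¹ = 1 from congrArg Subtype.val (h2.trans h3.symm))
                (fun h => ha1 (by simpa using h))
        omega
      · omega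
    · have hLH : L = H := Subgroup.eq_of_le_of_card_ge inf_le_left (by rw [h, h32])
      refine hTH ?_
      have hSH : S ∈ H := hself (Subgroup.mem_centralizer_iff.2 fun a ha =>
        Subgroup.mem_centralizer_singleton_iff.1 (hLH.symm.le ha).2)
      have := H.mul_mem hSH (H.inv_mem hST)
      simpa using this
  -- so `D` meets its conjugate trivially
  have hDle : Nat.card D ≤ 4 := by
    haveI : (H ⊔ Subgroup.zpowers x).Normal := by
      refine Subgroup.normal_of_index_eq_two ?_
      have hle5 : H < H ⊔ Subgroup.zpowers x := lt_of_le_not_ge le_sup_left fun h =>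
        hxH (h ((le_sup_right : Subgroup.zpowers x ≤ _) (Subgroup.mem_zpowers x)))
      have h5 : 5 ∣ Nat.card ↥(H ⊔ Subgroup.zpowers x) := by
        have := Subgroup.card_dvd_of_le (le_sup_right : Subgroup.zpowers x ≤ H ⊔ Subgroup.zpowers x)
        rwa [Nat.card_zpowers, hx] at this
      have hdvd : Nat.card ↥(H ⊔ Subgroup.zpowers x) ∣ Nat.card H * 5 := by
        set J := H ⊔ Subgroup.zpowers x with hJ
        let m := (QuotientGroup.mk' H).comp J.subtype
        have h1 := Subgroup.card_mul_index m.ker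
        rw [Subgroup.index_ker] at h1
        rw [← h1]
        refine Nat.mul_dvd_mul ?_ ?_
        · refine Subgroup.card_dvd_of_injective
            ((J.subtype.comp m.ker.subtype).codRestrict H fun a => (QuotientGroup.eq_one_iff _).1 a.2)
            fun a b h => Subtype.ext (Subtype.ext (congrArg (fun u : H => (u : G)) h))
        · rw [MonoidHom.range_comp, Subgroup.range_subtype, hJ, Subgroup.map_sup, QuotientGroup.map_mk'_self,
            bot_sup_eq, MonoidHom.map_zpowers, Nat.card_zpowers]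
          exact orderOf_dvd_of_pow_eq_one (by rw [← map_pow, hx5, map_one])
      have h32d : 32 ∣ Nat.card ↥(H ⊔ Subgroup.zpowers x) := h32 ▸ Subgroup.card_dvd_of_le le_sup_left
      have h160 : Nat.card ↥(H ⊔ Subgroup.zpowers x) = 160 :=
        Nat.dvd_antisymm (by rw [h32] at hdvd; exact hdvd)
          ((show Nat.Coprime 32 5 by norm_num).mul_dvd_of_dvd_of_dvd h32d h5)
      have := Subgroup.card_mul_index (H ⊔ Subgroup.zpowers x)
      rw [h160, hG] at this
      omega
    have hu : T⁻¹ * (x * T * x⁻¹) ∈ H ⊔ Subgroup.zpowers x := by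
      rw [show T⁻¹ * (x * T * x⁻¹) = (T⁻¹ * x * T) * x⁻¹ by group]
      refine Subgroup.mul_mem _ ?_ (Subgroup.inv_mem _ (Subgroup.mem_sup_right (Subgroup.mem_zpowers x)))
      have := (inferInstance : (H ⊔ Subgroup.zpowers x).Normal).conj_mem x
        (Subgroup.mem_sup_right (Subgroup.mem_zpowers x)) T⁻¹
      rwa [inv_inv] at this
    obtain ⟨h0, hh0, g0, hg0, hprod⟩ := Subgroup.mem_sup_of_normal_left.1 hu
    obtain ⟨n, rfl⟩ := (isOfFinOrder_of_finite x).mem_powers_iff_mem_zpowers.2 hg0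
    have hn5 : Nat.Coprime n 5 := by
      refine ((Nat.Prime.coprime_iff_not_dvd (by norm_num)).2 fun hdvd => hnc ?_).symm
      obtain ⟨m, rfl⟩ := hdvd
      have : x ^ (5 * m) = 1 := by rw [pow_mul, hx5, one_pow]
      rw [← hprod, show (fun x_1 => x ^ x_1) (5 * m) = x ^ (5 * m) from rfl, this, mul_one]
      exact hh0
    have hinter : ∀ a ∈ D, ξ⁻¹ * a * ξ ∈ D → a = 1 := by
      intro a ha hb
      have haW : a ∈ W := ha.1
      have h1 : a * t = t * a := Subgroup.mem_centralizer_singleton_iff.1 ha.2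
      have h2 : ξ⁻¹ * a * ξ * t = t * (ξ⁻¹ * a * ξ) := Subgroup.mem_centralizer_singleton_iff.1 hb.2
      have h3 : Commute a (ξ * t * ξ⁻¹) := by
        show a * (ξ * t * ξ⁻¹) = ξ * t * ξ⁻¹ * a
        calc a * (ξ * t * ξ⁻¹) = ξ * (ξ⁻¹ * a * ξ * t) * ξ⁻¹ := by group
          _ = ξ * (t * (ξ⁻¹ * a * ξ)) * ξ⁻¹ := by rw [h2]
          _ = _ := by group
      have h4 : Commute a (π (h0 * x ^ n)) := by
        rw [show h0 * x ^ n = T⁻¹ * (x * T * x⁻¹) from hprod, map_mul, map_mul, map_mul, map_inv, map_inv]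
        exact ((show Commute a t from h1).inv_right).mul_right h3
      rw [map_mul] at h4
      have h5 : Commute a (π h0) := hWc a haW _ ⟨h0, hh0, rfl⟩
      have h6 : Commute a (π (x ^ n)) := by
        have := h5.inv_right.mul_right h4
        rwa [inv_mul_cancel_left] at this
      rw [map_pow] at h6
      refine hfpf a haW ?_
      obtain ⟨m, hm⟩ := exists_pow_eq_self_of_coprime (x := ξ) (hn5.coprime_dvd_right
        (orderOf_dvd_of_pow_eq_one hξ5))
      rw [← hm]
      exact (h6.pow_right m).symm.eq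
    have hinj : Function.Injective (fun p : D × D => (⟨(p.1 : G ⧸ Z) * (ξ * p.2 * ξ⁻¹),
        W.mul_mem p.1.2.1 (hWn.conj_mem _ p.2.2.1 ξ)⟩ : W)) := by
      rintro ⟨a, b⟩ ⟨a', b'⟩ h
      have h' := congrArg Subtype.val h
      simp only at h'
      have e1 : (a' : G ⧸ Z)⁻¹ * a = ξ * ((b' : G ⧸ Z) * (b : G ⧸ Z)⁻¹) * ξ⁻¹ := by
        rw [show ξ * ((b' : G ⧸ Z) * (b : G ⧸ Z)⁻¹) * ξ⁻¹ = (a' : G ⧸ Z)⁻¹ * ((a' : G ⧸ Z) * (ξ * b' * ξ⁻¹)) * (ξ * b * ξ⁻¹)⁻¹ by group,
          ← h']
        group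
      have e2 : (a' : G ⧸ Z)⁻¹ * a = 1 := by
        refine hinter _ (D.mul_mem (D.inv_mem a'.2) a.2) ?_
        rw [e1, show ξ⁻¹ * (ξ * ((b' : G ⧸ Z) * (b : G ⧸ Z)⁻¹) * ξ⁻¹) * ξ = (b' : G ⧸ Z) * (b : G ⧸ Z)⁻¹ by group]
        exact D.mul_mem b'.2 (D.inv_mem b.2)
      rw [e2, eq_comm, conj_eq_one_iff, mul_inv_eq_one] at e1
      exact Prod.ext (Subtype.ext (inv_mul_eq_one.1 e2).symm) (Subtype.ext e1.symm)
    have := Nat.card_le_card_of_injective _ hinj
    rw [Nat.card_prod, hWcard] at this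
    nlinarith
  -- conclusion
  set C := H ⊓ Subgroup.centralizer ({T} : Set G) with hC
  have hVC : V ≤ C := hV
  have hZV : Z ≤ V := by
    intro a ha
    by_contra haV
    set A := V ⊔ Subgroup.zpowers a with hA
    have hAH : A ≤ H := sup_le (fun v hv => (hV hv).1) (Subgroup.zpowers_le.2 ha.1)
    have hVc : V ≤ Subgroup.centralizer ((Subgroup.zpowers a : Subgroup G) : Set G) := fun v hv =>
      Subgroup.mem_centralizer_iff.2 fun b hb => by
        obtain ⟨i, rfl⟩ := Subgroup.mem_zpowers_iff.1 hb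
        exact (Commute.zpow_left (show Commute a v from (Subgroup.mem_centralizer_iff.1 ha.2 v (hV hv).1).symm) i).eq
    have hmemA : ∀ g ∈ A, ∃ v ∈ V, ∃ i : ℤ, v * a ^ i = g := by
      intro g hg
      have hg' : g ∈ ((V ⊔ Subgroup.zpowers a : Subgroup G) : Set G) := hg
      rw [Subgroup.coe_mul_of_left_le_normalizer_right V _ (hVc.trans (Subgroup.centralizer_le_normalizer _))] at hg'
      obtain ⟨v, hv, b, hb, rfl⟩ := hg'
      obtain ⟨i, rfl⟩ := Subgroup.mem_zpowers_iff.1 hb
      exact ⟨v, hv, i, rfl⟩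
    have hca : ∀ v ∈ V, ∀ i : ℤ, Commute v (a ^ i) := fun v hv i =>
      (show Commute v a from Subgroup.mem_centralizer_iff.1 ha.2 v (hV hv).1).zpow_right i
    have hAe : Cfsg.IsElementaryAbelian 2 A := by
      refine ⟨⟨⟨fun g g' => Subtype.ext ?_⟩⟩, fun g hg => ?_⟩
      · obtain ⟨v, hv, i, hg⟩ := hmemA _ g.2
        obtain ⟨v', hv', i', hg'⟩ := hmemA _ g'.2
        show (g : G) * g' = g' * g
        rw [← hg, ← hg']
        have hvv : Commute v v' := congrArg Subtype.val (hVe.1.is_comm.comm ⟨v, hv⟩ ⟨v', hv'⟩)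
        exact ((hvv.mul_right (hca v hv i')).mul_left ((hca v' hv' i).symm.mul_right (Commute.zpow_zpow_self a i i'))).eq
      · obtain ⟨v, hv, i, rfl⟩ := hmemA _ hg
        rw [(hca v hv i).mul_pow, hVe.2 v hv, one_mul, ← zpow_natCast, ← zpow_mul, mul_comm, zpow_mul,
          zpow_natCast, pow_two, hZ2 a ha, one_zpow]
    have h1 := hminus A hAH hAe
    have h2 : V < A := lt_of_le_not_ge le_sup_left fun h =>
      haV (h (Subgroup.mem_sup_right (Subgroup.mem_zpowers a)))
    exact h2.ne (Subgroup.eq_of_le_of_card_ge le_sup_left (by rw [hV4]; exact h1))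
  have hCD : C.map π ≤ D := by
    rintro _ ⟨c, hc, rfl⟩
    refine ⟨⟨c, hc.1, rfl⟩, Subgroup.mem_centralizer_singleton_iff.2 ?_⟩
    rw [← map_mul, ← map_mul, Subgroup.mem_centralizer_singleton_iff.1 hc.2]
  set DD := H ⊓ D.comap π with hDD
  have hDDcard : Nat.card DD ≤ 8 := by
    let p : DD →* D := (π.comp DD.subtype).codRestrict D fun d => d.2.2
    have h1 := Subgroup.card_mul_index p.ker
    rw [Subgroup.index_ker] at h1
    have h2 : Nat.card p.ker ≤ 2 := by
      rw [← hZcard]
      refine Nat.card_le_card_of_injective (fun d => (⟨(d.1 : G), (QuotientGroup.eq_one_iff _).1 ?_⟩ : Z))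
        fun a b h => Subtype.ext (Subtype.ext (congrArg (fun u : Z => (u : G)) h))
      exact congrArg Subtype.val d.2
    have h3 : Nat.card p.range ≤ Nat.card D := Subgroup.card_le_card_group _
    calc Nat.card DD = Nat.card p.ker * Nat.card p.range := h1.symm
      _ ≤ 2 * 4 := Nat.mul_le_mul h2 (h3.trans hDle)
      _ = 8 := by norm_num
  have hCDD : C ≤ DD := fun c hc => ⟨hc.1, hCD ⟨c, hc, rfl⟩⟩
  have hC4 : Nat.card C = 4 := by
    have h4 : 4 ∣ Nat.card C := hV4 ▸ Subgroup.card_dvd_of_le hVC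
    obtain ⟨k, hk⟩ := h4
    have hle := (Subgroup.card_le_of_le hCDD).trans hDDcard
    rcases (show k = 0 ∨ k = 1 ∨ k = 2 by omega) with rfl | rfl | rfl
    · exact absurd hk (by simp [Nat.card_pos.ne'])
    · simpa using hk
    exfalso
    have hCeq : C = DD := Subgroup.eq_of_le_of_card_ge hCDD (by rw [hk]; exact hDDcard)
    -- the commutator image is the whole of `D`
    have hrangeD : f.range = D.subgroupOf W := by
      refine Subgroup.eq_of_le_of_card_ge hrange ?_
      have h1 := Subgroup.card_mul_index f.ker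
      rw [Subgroup.index_ker, hWcard, hker, hDW] at h1
      rw [hDW]
      nlinarith
    have hsq : ∀ c ∈ C, c ^ 2 = 1 := by
      intro c hc
      have hcD : (⟨π c, (hCD ⟨c, hc, rfl⟩).1⟩ : W) ∈ D.subgroupOf W :=
        Subgroup.mem_subgroupOf.2 (hCD ⟨c, hc, rfl⟩)
      rw [← hrangeD] at hcD
      obtain ⟨⟨_, h, hh, rfl⟩, hfh⟩ := hcD
      have hfh' : π h * (t * π h * t) = π c := congrArg Subtype.val hfh
      set k := h⁻¹ * (T * h * T) with hk'
      have hkc : π k = π c := by
        rw [hk', map_mul, map_inv, map_mul, map_mul, ← hfh']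
        congr 1
        exact inv_eq_of_mul_eq_one_right (hW2 _ ⟨h, hh, rfl⟩)
      have hkH : k ∈ H := by
        refine H.mul_mem (H.inv_mem hh) ?_
        have := hHn.conj_mem h hh T
        rwa [inv_eq_of_mul_eq_one_right hT2] at this
      have hkC : k ∈ C := by
        rw [hCeq]
        exact ⟨hkH, show π k ∈ D by rw [hkc]; exact hCD ⟨c, hc, rfl⟩⟩
      have hkT : k * T = T * k := Subgroup.mem_centralizer_singleton_iff.1 hkC.2
      have hk2 : k * k = 1 := by
        have e : T * k * T = k⁻¹ := by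
          rw [hk', mul_inv_rev, mul_inv_rev, mul_inv_rev, inv_inv, inv_eq_of_mul_eq_one_right hT2]
          calc T * (h⁻¹ * (T * h * T)) * T = T * h⁻¹ * T * h * (T * T) := by group
            _ = T * h⁻¹ * T * h := by rw [hT2, mul_one]
            _ = _ := by group
        rw [← hkT, mul_assoc, hT2, mul_one] at e
        nth_rewrite 2 [e]
        exact mul_inv_cancel k
      have hz : k⁻¹ * c ∈ Z := QuotientGroup.eq.1 hkc
      have hcomm' : Commute k (k⁻¹ * c) := Subgroup.mem_centralizer_iff.1 hz.2 k hkH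
      rw [show c = k * (k⁻¹ * c) by group, hcomm'.mul_pow, pow_two, pow_two, hk2, hZ2 _ hz, mul_one]
    have hCe : Cfsg.IsElementaryAbelian 2 C := by
      refine ⟨⟨⟨fun a b => Subtype.ext ?_⟩⟩, hsq⟩
      have hinv : ∀ c ∈ C, c⁻¹ = c := fun c hc => inv_eq_of_mul_eq_one_right (by rw [← pow_two]; exact hsq c hc)
      show (a : G) * b = b * a
      rw [← hinv _ (C.mul_mem a.2 b.2), mul_inv_rev, hinv _ a.2, hinv _ b.2]
    have := hminus C inf_le_left hCe
    omega
  have hCV : C = V := (Subgroup.eq_of_le_of_card_ge hVC (by rw [hC4, hV4])).symm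
  exact ⟨hC4, hCV ▸ hVe⟩

end Cfsg.Agent.S4405
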