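import Cfsg.Statements.S4406

set_option autoImplicit false
open Cfsg

namespace Cfsg.Agent.S4406

open Equiv

set_option maxRecDepth 100000

theorem a4_sq : ∀ x : ↥(alternatingGroup (Fin 4)), x ^ 4 = 1 → x * x = 1 := by
  decide +kernel

theorem a4_cube : ∀ x : ↥(alternatingGroup (Fin 4)), x ^ 9 = 1 → x * x * x = 1 := by
  decide +kernel

theorem a4_move : ∀ a x : ↥(alternatingGroup (Fin 4)), a * a * a = 1 → a ≠ 1 → x * x = 1 → x ≠ 1 →
    a * x * a⁻¹ ≠ x ∧ a * (a * x * a⁻¹) * a⁻¹ ≠ x := by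
  decide +kernel

set_option synthInstance.maxSize 5000 in
theorem a4_cover_dec : ∀ a : ↥(alternatingGroup (Fin 4)), a * a * a = 1 → a ≠ 1 →
    ∀ x : ↥(alternatingGroup (Fin 4)), x * x = 1 → x ≠ 1 → ∀ y : ↥(alternatingGroup (Fin 4)), y * y = 1 → y ≠ 1 →
    y = x ∨ y = a * x * a⁻¹ ∨ y = a * (a * x * a⁻¹) * a⁻¹ := by
  decide +kernel

theorem a4_cover (a x y : ↥(alternatingGroup (Fin 4))) (ha : a * a * a = 1) (ha1 : a ≠ 1) (hx : x * x = 1)
    (hx1 : x ≠ 1) (hy : y * y = 1) (hy1 : y ≠ 1) :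
    y = x ∨ y = a * x * a⁻¹ ∨ y = a * (a * x * a⁻¹) * a⁻¹ :=
  a4_cover_dec a ha ha1 x hx hx1 y hy hy1

theorem a4_inv : (Finset.univ.filter fun x : ↥(alternatingGroup (Fin 4)) => x * x = 1).card = 4 := by
  decide +kernel

theorem a4_three : (Finset.univ.filter fun x : ↥(alternatingGroup (Fin 4)) => x * x * x = 1).card = 9 := by
  decide +kernel

theorem card_three (Y : Subgroup ↥(alternatingGroup (Fin 4))) (hY : IsPGroup 3 Y) : Nat.card Y ≤ 3 := by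
  haveI : Fact (Nat.Prime 3) := ⟨Nat.prime_three⟩
  obtain ⟨n, hn⟩ := IsPGroup.iff_card.1 hY
  have hd : Nat.card Y ∣ 12 := by
    have h := Subgroup.card_subgroup_dvd_card Y
    rwa [Nat.card_eq_fintype_card (α := ↥(alternatingGroup (Fin 4))),
      show Fintype.card ↥(alternatingGroup (Fin 4)) = 12 by decide +kernel] at h
  rw [hn] at hd ⊢
  rcases n with _ | _ | n
  · norm_num
  · norm_num
  · exact absurd ((pow_dvd_pow 3 (by omega : 2 ≤ n + 2)).trans hd) (by norm_num)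

theorem rigid (a b : ↥(alternatingGroup (Fin 4))) (ha : a * a * a = 1) (ha1 : a ≠ 1) (hb : b * b * b = 1) (hb1 : b ≠ 1)
    (f : ↥(alternatingGroup (Fin 4)) → ↥(alternatingGroup (Fin 4)))
    (h1 : f 1 = 1) (hf : ∀ x, x * x = 1 → f x * f x = 1)
    (hinj : ∀ x y, x * x = 1 → y * y = 1 → f x = f y → x = y) :
    (∀ x, x * x = 1 → f (a * x * a⁻¹) = b * f x * b⁻¹) ∨ (∀ x, x * x = 1 → f (a * x * a⁻¹) = b⁻¹ * f x * b) := by
  obtain ⟨x₀, hx₀, hx₀1⟩ : ∃ x : ↥(alternatingGroup (Fin 4)), x * x = 1 ∧ x ≠ 1 := by decide +kernel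
  set x₁ := a * x₀ * a⁻¹ with hx₁
  set x₂ := a * x₁ * a⁻¹ with hx₂
  have sq1 : ∀ x, x * x = 1 → a * x * a⁻¹ * (a * x * a⁻¹) = 1 := fun x hx => by
    rw [show a * x * a⁻¹ * (a * x * a⁻¹) = a * (x * x) * a⁻¹ by group, hx, mul_one, mul_inv_cancel]
  have ne1 : ∀ x, x ≠ 1 → a * x * a⁻¹ ≠ 1 := fun x hx h => hx (conj_eq_one_iff.1 h)
  have hy : ∀ x, x * x = 1 → x ≠ 1 → f x ≠ 1 := fun x hx hx1 h => hx1 (hinj x 1 hx (one_mul 1) (h.trans h1.symm))
  have hs1 := sq1 x₀ hx₀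
  have hs2 := sq1 x₁ hs1
  obtain ⟨m1, m2⟩ := a4_move a x₀ ha ha1 hx₀ hx₀1
  obtain ⟨m3, m4⟩ := a4_move a x₁ ha ha1 hs1 (ne1 _ hx₀1)
  have a3 : a * (a * (a * x₀ * a⁻¹) * a⁻¹) * a⁻¹ = x₀ := by
    rw [show a * (a * (a * x₀ * a⁻¹) * a⁻¹) * a⁻¹ = (a * a * a) * x₀ * (a * a * a)⁻¹ by group, ha, one_mul, inv_one, mul_one]
  have c1 := a4_cover b (f x₀) (f x₁) hb hb1 (hf _ hx₀) (hy _ hx₀ hx₀1) (hf _ hs1) (hy _ hs1 (ne1 _ hx₀1))
  have c2 := a4_cover b (f x₀) (f x₂) hb hb1 (hf _ hx₀) (hy _ hx₀ hx₀1) (hf _ hs2) (hy _ hs2 (ne1 _ (ne1 _ hx₀1)))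
  have d01 : f x₁ ≠ f x₀ := fun h => m1 (hinj _ _ hs1 hx₀ h)
  have d02 : f x₂ ≠ f x₀ := fun h => m2 (hinj _ _ hs2 hx₀ h)
  have d12 : f x₂ ≠ f x₁ := fun h => m3 (hinj _ _ hs2 hs1 h)
  have b3 : ∀ z, b * (b * (b * z * b⁻¹) * b⁻¹) * b⁻¹ = z := fun z => by
    rw [show b * (b * (b * z * b⁻¹) * b⁻¹) * b⁻¹ = (b * b * b) * z * (b * b * b)⁻¹ by group, hb, one_mul, inv_one, mul_one]
  have bi : ∀ z, b⁻¹ * z * b = b * (b * z * b⁻¹) * b⁻¹ := fun z => by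
    rw [show b * (b * z * b⁻¹) * b⁻¹ = (b * b) * z * (b * b)⁻¹ by group, eq_inv_of_mul_eq_one_left hb, inv_inv]
  rcases c1.resolve_left d01 with e1 | e1
  · have e2 := (c2.resolve_left d02).resolve_left fun h => d12 (h.trans e1.symm)
    left
    intro x hx
    by_cases hx1 : x = 1
    · subst hx1; simp [h1]
    rcases a4_cover a x₀ x ha ha1 hx₀ hx₀1 hx hx1 with rfl | rfl | rfl
    · exact e1
    · rw [← hx₂, e2, e1]
    · rw [a3, ← hx₂, e2, b3]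
  · have e2 := (c2.resolve_left d02).resolve_right fun h => d12 (h.trans e1.symm)
    right
    intro x hx
    by_cases hx1 : x = 1
    · subst hx1; simp [h1]
    rcases a4_cover a x₀ x ha ha1 hx₀ hx₀1 hx hx1 with rfl | rfl | rfl
    · rw [bi]; exact e1
    · rw [← hx₂, e2, e1, bi, b3]
    · rw [a3, ← hx₂, e2, bi, b3]


/-- In the direct product P = A₄ × A₄, let X be the Sylow 2-subgroup, X₁ and X₂ its intersections with the two direct factors, Q a Sylow 3-subgroup and Q₁, Q₂ its intersections with the two factors. Then every subgroup B of X of order 4 either meets X₁ or X₂ nontrivially, or is normalized by one of the two subgroups of Q of order 3 other than Q₁ and Q₂. -/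
theorem result
    (X : Sylow 2 (↥(alternatingGroup (Fin 4)) × ↥(alternatingGroup (Fin 4))))
    (Q : Sylow 3 (↥(alternatingGroup (Fin 4)) × ↥(alternatingGroup (Fin 4))))
    (B : Subgroup (↥(alternatingGroup (Fin 4)) × ↥(alternatingGroup (Fin 4)))) (hBX : B ≤ (X : Subgroup _)) (hB4 : Nat.card ↥B = 4) :
    B ⊓ ((X : Subgroup _) ⊓ Subgroup.prod ⊤ ⊥) ≠ ⊥ ∨ B ⊓ ((X : Subgroup _) ⊓ Subgroup.prod ⊥ ⊤) ≠ ⊥ ∨
      ∃ R : Subgroup (↥(alternatingGroup (Fin 4)) × ↥(alternatingGroup (Fin 4))), R ≤ (Q : Subgroup _) ∧ Nat.card ↥R = 3 ∧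
        R ≠ (Q : Subgroup _) ⊓ Subgroup.prod ⊤ ⊥ ∧ R ≠ (Q : Subgroup _) ⊓ Subgroup.prod ⊥ ⊤ ∧ R ≤ Subgroup.normalizer (B : Set _) := by
  classical
  haveI : Fact (Nat.Prime 2) := ⟨Nat.prime_two⟩
  haveI : Fact (Nat.Prime 3) := ⟨Nat.prime_three⟩
  have hA : Fintype.card ↥(alternatingGroup (Fin 4)) = 12 := by decide +kernel
  have hXV : ∀ z ∈ (X : Subgroup (↥(alternatingGroup (Fin 4)) × ↥(alternatingGroup (Fin 4)))),
      z.1 * z.1 = 1 ∧ z.2 * z.2 = 1 := by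
    intro z hz
    obtain ⟨k, hk⟩ := IsPGroup.iff_orderOf.1 X.isPGroup' ⟨z, hz⟩
    rw [Subgroup.orderOf_mk] at hk
    have h4 : ∀ y : ↥(alternatingGroup (Fin 4)), orderOf y ∣ 2 ^ k → y ^ 4 = 1 := by
      intro y hy
      have h12 : orderOf y ∣ 12 := hA ▸ orderOf_dvd_card
      obtain ⟨j, -, hj⟩ := (Nat.dvd_prime_pow Nat.prime_two).1 hy
      rw [hj] at h12
      have hj2 : j ≤ 2 := by
        by_contra h
        exact absurd ((pow_dvd_pow 2 (show 3 ≤ j by omega)).trans h12) (by norm_num)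
      exact orderOf_dvd_iff_pow_eq_one.1 (hj ▸ (pow_dvd_pow 2 hj2))
    exact ⟨a4_sq _ (h4 _ (hk ▸ orderOf_map_dvd (MonoidHom.fst _ _) z)),
      a4_sq _ (h4 _ (hk ▸ orderOf_map_dvd (MonoidHom.snd _ _) z))⟩
  by_contra hcon
  rw [not_or, not_or, not_not, not_not] at hcon
  obtain ⟨hB1, hB2, hR⟩ := hcon
  refine hR ?_
  -- `B` is the graph of a bijection
  have hinj1 : ∀ z ∈ B, z.1 = 1 → z = 1 := fun z hz h => by
    have : z ∈ B ⊓ ((X : Subgroup _) ⊓ Subgroup.prod ⊥ ⊤) :=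
      ⟨hz, hBX hz, Subgroup.mem_bot.2 h, trivial⟩
    rwa [hB2, Subgroup.mem_bot] at this
  have hinj2 : ∀ z ∈ B, z.2 = 1 → z = 1 := fun z hz h => by
    have : z ∈ B ⊓ ((X : Subgroup _) ⊓ Subgroup.prod ⊤ ⊥) :=
      ⟨hz, hBX hz, trivial, Subgroup.mem_bot.2 h⟩
    rwa [hB1, Subgroup.mem_bot] at this
  let pr : B → {x : ↥(alternatingGroup (Fin 4)) // x * x = 1} := fun z => ⟨z.1.1, (hXV _ (hBX z.2)).1⟩
  have hpr : Function.Bijective pr := by
    rw [Fintype.bijective_iff_injective_and_card]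
    refine ⟨fun u v h => ?_, ?_⟩
    · have h' : u.1.1 = v.1.1 := congrArg Subtype.val h
      refine Subtype.ext ?_
      have := hinj1 _ (B.mul_mem u.2 (B.inv_mem v.2)) (by simp [h'])
      exact mul_inv_eq_one.1 this
    · rw [← Nat.card_eq_fintype_card, hB4, Fintype.card_subtype, a4_inv]
  choose f hf using hpr.2
  let φ : ↥(alternatingGroup (Fin 4)) → ↥(alternatingGroup (Fin 4)) := fun x =>
    if h : x * x = 1 then (f ⟨x, h⟩).1.2 else 1
  have hmem : ∀ x, x * x = 1 → ((x, φ x) : ↥(alternatingGroup (Fin 4)) × ↥(alternatingGroup (Fin 4))) ∈ B := by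
    intro x hx
    have h1 : (f ⟨x, hx⟩).1.1 = x := congrArg Subtype.val (hf ⟨x, hx⟩)
    have h2 : φ x = (f ⟨x, hx⟩).1.2 := dif_pos hx
    have : (f ⟨x, hx⟩).1 = (x, φ x) := Prod.ext h1 h2.symm
    exact this ▸ (f ⟨x, hx⟩).2
  have huniq : ∀ z ∈ B, z.2 = φ z.1 := fun z hz => by
    have hx := (hXV _ (hBX hz)).1
    have := hpr.1 (a₁ := ⟨z, hz⟩) (a₂ := ⟨_, hmem z.1 hx⟩) (Subtype.ext rfl)
    exact congrArg (fun t : B => t.1.2) this
  -- the Sylow `3`-subgroup is a product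
  set Y₁ := (Q : Subgroup _).map (MonoidHom.fst ↥(alternatingGroup (Fin 4)) ↥(alternatingGroup (Fin 4)))
  set Y₂ := (Q : Subgroup _).map (MonoidHom.snd ↥(alternatingGroup (Fin 4)) ↥(alternatingGroup (Fin 4)))
  have hQ9 : 9 ≤ Nat.card (Q : Subgroup (↥(alternatingGroup (Fin 4)) × ↥(alternatingGroup (Fin 4)))) := by
    refine Nat.le_of_dvd Nat.card_pos (Q.pow_dvd_card_of_pow_dvd_card (n := 2) ?_)
    rw [Nat.card_prod, Nat.card_eq_fintype_card, hA]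
    norm_num
  have hQeq : (Q : Subgroup _) = Y₁.prod Y₂ := by
    refine Subgroup.eq_of_le_of_card_ge (fun z hz => ⟨⟨z, hz, rfl⟩, ⟨z, hz, rfl⟩⟩) ?_
    rw [Nat.card_congr (Y₁.prodEquiv Y₂).toEquiv, Nat.card_prod]
    refine le_trans ?_ hQ9
    exact Nat.mul_le_mul (card_three _ (Q.isPGroup'.map _)) (card_three _ (Q.isPGroup'.map _))
  have hY : ∀ Y : Subgroup ↥(alternatingGroup (Fin 4)), IsPGroup 3 Y → 2 ≤ Nat.card Y →
      ∃ a ∈ Y, a * a * a = 1 ∧ a ≠ 1 := by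
    intro Y hY h2
    obtain ⟨k, hk⟩ := IsPGroup.iff_card.1 hY
    have hk1 : k = 1 := by
      have := card_three Y hY
      rcases k with _ | _ | k
      · omega
      · rfl
      · rw [hk] at this
        have := Nat.pow_le_pow_right (show 1 ≤ 3 by norm_num) (show 2 ≤ k + 1 + 1 by omega)
        omega
    obtain ⟨⟨a, ha⟩, hao⟩ := exists_prime_orderOf_dvd_card' (G := Y) 3 (by rw [hk, hk1]; norm_num)
    rw [Subgroup.orderOf_mk] at hao
    refine ⟨a, ha, ?_, fun h => by rw [h, orderOf_one] at hao; omega⟩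
    rw [show a * a * a = a ^ 3 by rw [pow_succ, pow_two], ← hao, pow_orderOf_eq_one]
  have hprod : 9 ≤ Nat.card Y₁ * Nat.card Y₂ := by
    rw [hQeq, Nat.card_congr (Y₁.prodEquiv Y₂).toEquiv, Nat.card_prod] at hQ9
    exact hQ9
  have l1 := card_three Y₁ (Q.isPGroup'.map _)
  have l2 := card_three Y₂ (Q.isPGroup'.map _)
  obtain ⟨a, haY, ha, ha1⟩ := hY Y₁ (Q.isPGroup'.map _) (by nlinarith)
  obtain ⟨b, hbY, hb, hb1⟩ := hY Y₂ (Q.isPGroup'.map _) (by nlinarith)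
  have key : ∀ c, c ∈ Y₂ → c ≠ 1 → c * c * c = 1 →
      (∀ x, x * x = 1 → φ (a * x * a⁻¹) = c * φ x * c⁻¹) →
      ∃ R : Subgroup (↥(alternatingGroup (Fin 4)) × ↥(alternatingGroup (Fin 4))), R ≤ (Q : Subgroup _) ∧ Nat.card ↥R = 3 ∧
        R ≠ (Q : Subgroup _) ⊓ Subgroup.prod ⊤ ⊥ ∧ R ≠ (Q : Subgroup _) ⊓ Subgroup.prod ⊥ ⊤ ∧
        R ≤ Subgroup.normalizer (B : Set _) := by
    intro c hcY hc1 hc hφ
    have hmemR : ((a, c) : ↥(alternatingGroup (Fin 4)) × ↥(alternatingGroup (Fin 4))) ∈ (Q : Subgroup _) := by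
      rw [hQeq, Subgroup.mem_prod]; exact ⟨haY, hcY⟩
    refine ⟨Subgroup.zpowers (a, c), Subgroup.zpowers_le.2 hmemR, ?_, ?_, ?_, Subgroup.zpowers_le.2 ?_⟩
    · rw [Nat.card_zpowers]
      refine orderOf_eq_prime (Prod.ext ?_ ?_) fun h => ha1 (congrArg Prod.fst h)
      · show a ^ 3 = 1
        rw [pow_succ, pow_two]; exact ha
      · show c ^ 3 = 1
        rw [pow_succ, pow_two]; exact hc
    · intro h
      exact hc1 (Subgroup.mem_bot.1 (Subgroup.mem_prod.1 (h ▸ Subgroup.mem_zpowers (a, c)).2).2)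
    · intro h
      exact ha1 (Subgroup.mem_bot.1 (Subgroup.mem_prod.1 (h ▸ Subgroup.mem_zpowers (a, c)).2).1)
    · refine Subgroup.mem_normalizer_iff_map_conj_eq.2 (Subgroup.eq_of_le_of_card_ge ?_ ?_)
      · rintro _ ⟨z, hz, rfl⟩
        have hx := (hXV _ (hBX hz)).1
        have e : (a * z.1 * a⁻¹, c * z.2 * c⁻¹) = (a * z.1 * a⁻¹, φ (a * z.1 * a⁻¹)) := by
          rw [hφ _ hx, huniq z hz]
        show (a * z.1 * a⁻¹, c * z.2 * c⁻¹) ∈ B
        rw [e]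
        refine hmem _ ?_
        rw [show a * z.1 * a⁻¹ * (a * z.1 * a⁻¹) = a * (z.1 * z.1) * a⁻¹ by group, hx, mul_one, mul_inv_cancel]
      · rw [Subgroup.card_map_of_injective (MulEquiv.injective _)]
  rcases rigid a b ha ha1 hb hb1 φ (by
      have h := huniq 1 B.one_mem
      simpa using h.symm)
    (fun x hx => (hXV _ (hBX (hmem x hx))).2)
    (fun x y hx hy he => by
      have h := hinj2 _ (B.mul_mem (hmem x hx) (B.inv_mem (hmem y hy))) (by simp [he])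
      exact mul_inv_eq_one.1 (congrArg Prod.fst h)) with h | h
  · exact key b hbY hb1 hb h
  · refine key b⁻¹ (Y₂.inv_mem hbY) (inv_ne_one.2 hb1) ?_ (fun x hx => by rw [inv_inv]; exact h x hx)
    rw [← mul_inv_rev, ← mul_inv_rev, ← mul_assoc, hb, inv_one]

end Cfsg.Agent.S4406
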