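import Cfsg.Statements.S4407
-- import your own Cfsg.Agent.* helpers here

set_option autoImplicit false
open Cfsg

namespace Cfsg.Agent.S4407


theorem gen9 {S : Type*} [Group S] [Finite S] {A : Subgroup S} (hA9 : Nat.card A = 9) {c d : S}
    (hc : c ∈ A) (hd : d ∈ A) (hco : orderOf c = 3) (hdn : d ∉ Subgroup.zpowers c) :
    A = Subgroup.zpowers c ⊔ Subgroup.zpowers d := by
  set H := Subgroup.zpowers c ⊔ Subgroup.zpowers d with hH
  have hle : H ≤ A := sup_le (Subgroup.zpowers_le.mpr hc) (Subgroup.zpowers_le.mpr hd)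
  refine (Subgroup.eq_of_le_of_card_ge hle ?_).symm
  have h1 : Nat.card H ∣ 9 := hA9 ▸ Subgroup.card_dvd_of_le hle
  have h2 : 3 ≤ Nat.card H := by
    rw [← hco, ← Nat.card_zpowers]
    exact Subgroup.card_le_of_le le_sup_left
  have h3 : Nat.card H ≠ 3 := by
    intro h
    have : Subgroup.zpowers c = H := Subgroup.eq_of_le_of_card_ge le_sup_left
      (by rw [Nat.card_zpowers, hco, h])
    exact hdn (this.symm ▸ (le_sup_right : Subgroup.zpowers d ≤ H) (Subgroup.mem_zpowers d))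
  have h4 := Nat.le_of_dvd (by norm_num) h1
  rw [hA9]
  generalize Nat.card H = n at h1 h2 h3 h4 ⊢
  interval_cases n <;> omega

open DihedralGroup in
/-- The four-group `{1, r², sr k, sr (k+2)}` of the dihedral group of order 8. -/
def vier (k : ZMod 4) : Subgroup (DihedralGroup 4) where
  carrier := {x | x = r 0 ∨ x = r 2 ∨ x = sr k ∨ x = sr (k + 2)}
  one_mem' := Or.inl rfl
  mul_mem' := by
    intro a b
    simp only [Set.mem_setOf_eq]
    revert a b k
    decide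
  inv_mem' := by
    intro a
    simp only [Set.mem_setOf_eq]
    revert a k
    decide

theorem mem_vier {k : ZMod 4} {x : DihedralGroup 4} :
    x ∈ vier k ↔ x = DihedralGroup.r 0 ∨ x = DihedralGroup.r 2 ∨ x = DihedralGroup.sr k ∨
      x = DihedralGroup.sr (k + 2) := Iff.rfl

theorem card_vier (k : ZMod 4) : Nat.card (vier k) = 4 := by
  have h1 : Nat.card (vier k) = Fintype.card {x : DihedralGroup 4 //
      x = DihedralGroup.r 0 ∨ x = DihedralGroup.r 2 ∨ x = DihedralGroup.sr k ∨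
      x = DihedralGroup.sr (k + 2)} := by
    rw [← Nat.card_eq_fintype_card]
    exact Nat.card_congr (Equiv.subtypeEquivRight fun _ => Iff.rfl)
  rw [h1]
  clear h1
  revert k
  decide

theorem vier_sq {k : ZMod 4} {x : DihedralGroup 4} (hx : x ∈ vier k) : x ^ 2 = 1 := by
  rw [mem_vier] at hx
  rw [pow_two]
  revert hx x k
  decide

theorem vier_cases (D : Subgroup (DihedralGroup 4)) (hD : ∀ x ∈ D, x ^ 2 = 1) (k : ZMod 4) :
    D ≤ vier k ∨ D ≤ vier (k + 1) := by
  by_cases h : DihedralGroup.sr k ∈ D ∨ DihedralGroup.sr (k + 2) ∈ D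
  · left
    intro y hy
    rw [mem_vier]
    have hy2 := hD y hy
    rw [pow_two] at hy2
    rcases h with hx | hx
    · have hxy := hD _ (D.mul_mem hx hy)
      rw [pow_two] at hxy
      revert hxy hy2
      clear hx hy hD
      revert y k
      decide
    · have hxy := hD _ (D.mul_mem hx hy)
      rw [pow_two] at hxy
      revert hxy hy2
      clear hx hy hD
      revert y k
      decide
  · right
    intro y hy
    rw [mem_vier]
    have hy2 := hD y hy
    rw [pow_two] at hy2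
    have h1 : y ≠ DihedralGroup.sr k := fun e => h (Or.inl (e ▸ hy))
    have h2 : y ≠ DihedralGroup.sr (k + 2) := fun e => h (Or.inr (e ▸ hy))
    revert hy2 h1 h2
    clear hy hD h
    revert y k
    decide

theorem sr_sq (k : ZMod 4) : DihedralGroup.sr k * DihedralGroup.sr k = 1 := by
  revert k; decide

theorem z2_cases (a : ZMod 2) : a = 0 ∨ a = 1 := by
  revert a; decide

variable {S : Type*} [Group S]

/-- `R²` inverts `A`. -/
theorem inverts [Finite S] {A : Subgroup S} (hAn : A.Normal)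
    (hcomm : ∀ a ∈ A, ∀ b ∈ A, a * b = b * a) (h3 : ∀ a ∈ A, a ^ 3 = 1) (hA9 : Nat.card A = 9)
    (R : S) (hR4 : R ^ 4 = 1) (hz : ∃ b ∈ A, R ^ 2 * b * (R ^ 2)⁻¹ ≠ b) :
    ∀ a ∈ A, R ^ 2 * a * (R ^ 2)⁻¹ = a⁻¹ := by
  intro a ha
  by_contra hne
  obtain ⟨f, hf⟩ : ∃ f : S ≃* S, ∀ x, f x = R * x * R⁻¹ := ⟨MulAut.conj R, fun x => rfl⟩
  have hff : ∀ x, f (f x) = R ^ 2 * x * (R ^ 2)⁻¹ := by
    intro x; rw [hf, hf]; simp only [pow_two, mul_inv_rev, mul_assoc]
  rw [← hff] at hne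
  obtain ⟨b, hb, hb'⟩ := hz
  rw [← hff] at hb'
  have h4 : ∀ x, f (f (f (f x))) = x := by
    intro x
    rw [hff, hff]
    have : R ^ 2 * R ^ 2 = 1 := by rw [← pow_add]; exact hR4
    calc R ^ 2 * (R ^ 2 * x * (R ^ 2)⁻¹) * (R ^ 2)⁻¹
        = (R ^ 2 * R ^ 2) * x * (R ^ 2 * R ^ 2)⁻¹ := by simp only [mul_inv_rev, mul_assoc]
      _ = x := by rw [this]; simp
  have hfA : ∀ x ∈ A, f x ∈ A := fun x hx => by rw [hf]; exact hAn.conj_mem x hx R
  set ε := a * f (f a) with hε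
  set ι := b⁻¹ * f (f b) with hι
  have hεA : ε ∈ A := A.mul_mem ha (hfA _ (hfA _ ha))
  have hιA : ι ∈ A := A.mul_mem (A.inv_mem hb) (hfA _ (hfA _ hb))
  have hε1 : ε ≠ 1 := fun h => hne (eq_inv_of_mul_eq_one_right h)
  have hι1 : ι ≠ 1 := fun h => hb' (inv_mul_eq_one.mp h).symm
  have hεf : f (f ε) = ε := by
    rw [hε, map_mul, map_mul, h4]
    exact hcomm _ (hfA _ (hfA _ ha)) _ ha
  have hιf : f (f ι) = ι⁻¹ := by
    rw [hι, map_mul, map_mul, map_inv, map_inv, h4, mul_inv_rev, inv_inv]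
  have hεo : orderOf ε = 3 := orderOf_eq_prime (h3 _ hεA) hε1
  have hni : ι ∉ Subgroup.zpowers ε := by
    rintro ⟨i, hi⟩
    have hi' : ε ^ i = ι := hi
    have h1 : f (f ι) = ι := by
      rw [← hi', map_zpow, map_zpow, hεf]
    rw [hιf, inv_eq_iff_mul_eq_one, ← pow_two] at h1
    have h2 := h3 _ hιA
    rw [pow_succ, h1, one_mul] at h2
    exact hι1 h2
  have hA : A = Subgroup.zpowers ε ⊔ Subgroup.zpowers ι := gen9 hA9 hεA hιA hεo hni
  have hdec : ∀ x ∈ A, ∃ i j : ℤ, x = ε ^ i * ι ^ j := by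
    intro x hx
    haveI : IsMulCommutative A := ⟨⟨fun p q => Subtype.ext (hcomm _ p.2 _ q.2)⟩⟩
    let K : Subgroup S :=
      { carrier := {y | ∃ i j : ℤ, y = ε ^ i * ι ^ j}
        one_mem' := ⟨0, 0, by simp⟩
        mul_mem' := by
          rintro p q ⟨i, j, rfl⟩ ⟨k, l, rfl⟩
          refine ⟨i + k, j + l, ?_⟩
          have hc : Commute (ι ^ j) (ε ^ k) :=
            hcomm _ (A.zpow_mem hιA j) _ (A.zpow_mem hεA k)
          rw [zpow_add, zpow_add, mul_assoc, ← mul_assoc (ι ^ j), hc.eq]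
          simp only [mul_assoc]
        inv_mem' := by
          rintro p ⟨i, j, rfl⟩
          refine ⟨-i, -j, ?_⟩
          rw [mul_inv_rev, zpow_neg, zpow_neg]
          exact hcomm _ (A.inv_mem (A.zpow_mem hιA j)) _ (A.inv_mem (A.zpow_mem hεA i)) }
    have hle : Subgroup.zpowers ε ⊔ Subgroup.zpowers ι ≤ K :=
      sup_le (Subgroup.zpowers_le.mpr ⟨1, 0, by simp⟩) (Subgroup.zpowers_le.mpr ⟨0, 1, by simp⟩)
    exact hle (hA ▸ hx)
  -- the inverted elements are the powers of `ι`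
  have hinv : ∀ x ∈ A, f (f x) = x⁻¹ → x ∈ Subgroup.zpowers ι := by
    intro x hx hx'
    obtain ⟨i, j, hij⟩ := hdec x hx
    have h1 : f (f x) = ε ^ i * ι ^ (-j) := by
      rw [hij, map_mul, map_mul, map_zpow, map_zpow, map_zpow, map_zpow, hεf, hιf, inv_zpow,
        zpow_neg]
    rw [hx', hij, mul_inv_rev, zpow_neg,
      hcomm _ (A.inv_mem (A.zpow_mem hιA j)) _ (A.inv_mem (A.zpow_mem hεA i))] at h1
    have h2 : (ε ^ i)⁻¹ = ε ^ i := mul_right_cancel h1
    rw [inv_eq_iff_mul_eq_one, ← pow_two] at h2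
    have h3' := h3 _ (A.zpow_mem hεA i)
    rw [pow_succ, h2, one_mul] at h3'
    exact ⟨j, by rw [hij, h3', one_mul]⟩
  obtain ⟨j, hj⟩ := Subgroup.mem_zpowers_iff.mp (hinv (f ι) (hfA _ hιA) (by
    rw [hιf, map_inv]))
  have h5 : f (f ι) = ι ^ (j * j) := by rw [← hj, map_zpow, ← hj, ← zpow_mul]
  rw [hιf] at h5
  have hιo : orderOf ι = 3 := orderOf_eq_prime (h3 _ hιA) hι1
  rw [← zpow_neg_one, zpow_eq_zpow_iff_modEq, hιo, Int.modEq_iff_dvd] at h5
  have key : ∀ y : ZMod 3, y * y + 1 ≠ 0 := by decide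
  apply key (j : ZMod 3)
  have h6 : ((j * j - -1 : ℤ) : ZMod 3) = 0 := by
    rw [ZMod.intCast_zmod_eq_zero_iff_dvd]; exact h5
  push_cast at h6
  simpa using h6

section
variable {M : Type*} [AddCommGroup M] [Module (ZMod 2) M]

theorem rmul (ρ : Representation (ZMod 2) S M) (g h : S) (m : M) :
    ρ (g * h) m = ρ g (ρ h m) := by
  rw [map_mul]; rfl

theorem rinv (ρ : Representation (ZMod 2) S M) (g : S) (m : M) : ρ g⁻¹ (ρ g m) = m := by
  rw [← rmul, inv_mul_cancel, map_one]; rfl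

theorem rfix_inv (ρ : Representation (ZMod 2) S M) {g : S} {m : M} (h : ρ g m = m) :
    ρ g⁻¹ m = m := by
  conv_lhs => rw [← h]
  exact rinv ρ g m

theorem add_self2 (m : M) : m + m = 0 := by
  rw [← two_smul (ZMod 2) m, show (2 : ZMod 2) = 0 from rfl, zero_smul]

theorem fix_zero {A : Subgroup S} (hAn : A.Normal) (ρ : Representation (ZMod 2) S M)
    (hinj : Function.Injective ρ)
    (hirr : ∀ N : Submodule (ZMod 2) M, (∀ s : S, ∀ m ∈ N, ρ s m ∈ N) → N = ⊥ ∨ N = ⊤)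
    (hAne : ∃ a ∈ A, a ≠ 1) (m : M) (h : ∀ a ∈ A, ρ a m = m) : m = 0 := by
  let N : Submodule (ZMod 2) M :=
    { carrier := {x | ∀ a ∈ A, ρ a x = x}
      add_mem' := fun {x y} hx hy a ha => by rw [map_add, hx a ha, hy a ha]
      zero_mem' := fun a _ => map_zero _
      smul_mem' := fun c x hx a ha => by rw [map_smul, hx a ha] }
  rcases hirr N (fun s x hx a ha => by
    have hb : s⁻¹ * a * s ∈ A := by simpa using hAn.conj_mem a ha s⁻¹
    have e : a * s = s * (s⁻¹ * a * s) := by group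
    rw [← rmul, e, rmul, hx _ hb]) with hN | hN
  · have : m ∈ N := h
    rwa [hN, Submodule.mem_bot] at this
  · exfalso
    obtain ⟨a, ha, ha1⟩ := hAne
    apply ha1
    apply hinj
    rw [map_one]
    refine LinearMap.ext fun x => ?_
    have hx : x ∈ N := hN ▸ Submodule.mem_top
    exact hx a ha

theorem core [Finite S] [Finite M] {A X : Subgroup S} (hAn : A.Normal)
    (hcomm : ∀ a ∈ A, ∀ b ∈ A, a * b = b * a) (h3 : ∀ a ∈ A, a ^ 3 = 1) (hA9 : Nat.card A = 9)
    (hAX : A ⊔ X = ⊤) (e : X ≃* DihedralGroup 4) (k : ZMod 4)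
    (R T : S) (hR : (e.symm (DihedralGroup.r 1) : S) = R)
    (hT : (e.symm (DihedralGroup.sr k) : S) = T)
    (hz : ∀ a ∈ A, R ^ 2 * a * (R ^ 2)⁻¹ = a⁻¹)
    (ρ : Representation (ZMod 2) S M)
    (hirr : ∀ N : Submodule (ZMod 2) M, (∀ s : S, ∀ m ∈ N, ρ s m ∈ N) → N = ⊥ ∨ N = ⊤)
    (hfix0 : ∀ m : M, (∀ a ∈ A, ρ a m = m) → m = 0)
    (c : S) (hc : c ∈ A) (hc1 : c ≠ 1) (hTc : T * c * T⁻¹ = c)
    (v0 : M) (hv0 : v0 ≠ 0) (hcv0 : ρ c v0 = v0) :
    Nat.card M = 16 ∧
      ∃! B : Subgroup S, B ≤ X ∧ Nat.card ↥B = 4 ∧ (∀ b ∈ B, b ^ 2 = 1) ∧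
        Nat.card {m : M // ∀ b ∈ B, ρ b m = m} = 2 := by
  classical
  obtain ⟨ψ, hψ⟩ : ∃ ψ : DihedralGroup 4 →* S, ∀ x, ψ x = (e.symm x : S) :=
    ⟨X.subtype.comp e.symm.toMonoidHom, fun x => rfl⟩
  have hψi : Function.Injective ψ := by
    intro x y hxy
    rw [hψ, hψ] at hxy
    exact e.symm.injective (Subtype.ext hxy)
  rw [← hψ] at hR hT
  have hR4 : R ^ 4 = 1 := by
    rw [← hR, ← map_pow, show (DihedralGroup.r (1 : ZMod 4)) ^ 4 = 1 by decide, map_one]
  have hT2 : T * T = 1 := by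
    rw [← hT, ← map_mul, sr_sq, map_one]
  have hTR : T * R = R⁻¹ * T := by
    rw [← hT, ← hR, ← map_inv, ← map_mul, ← map_mul]
    congr 1
    clear hR hT
    revert k; decide
  have hzz : R ^ 2 * R ^ 2 = 1 := by rw [← pow_add]; exact hR4
  have hTz : T * R ^ 2 = R ^ 2 * T := by
    have hRi : R⁻¹ * R⁻¹ = R ^ 2 := by
      rw [← mul_inv_rev, ← pow_two, inv_eq_iff_mul_eq_one]; exact hzz
    calc T * R ^ 2 = T * R * R := by rw [pow_two, mul_assoc]
      _ = R⁻¹ * (T * R) := by rw [hTR, mul_assoc, hTR]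
      _ = R ^ 2 * T := by rw [hTR, ← mul_assoc, hRi]
  -- the second generator
  obtain ⟨d, hd⟩ : ∃ d, d = R * c * R⁻¹ := ⟨_, rfl⟩
  have hdA : d ∈ A := hd ▸ hAn.conj_mem c hc R
  have hRd : R * d * R⁻¹ = c⁻¹ := by
    rw [hd, ← hz c hc]; simp only [pow_two, mul_inv_rev, mul_assoc]
  have hc2 : c * c ≠ 1 := fun h => hc1 (by
    have h' := h3 c hc
    rwa [pow_succ, pow_two, h, one_mul] at h')
  have hdn : d ∉ Subgroup.zpowers c := by
    rintro ⟨i, hi⟩
    have hi' : c ^ i = d := hi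
    have h1 : R * d * R⁻¹ = c ^ (i * i) := by
      rw [← hi', ← conj_zpow, ← hd, ← hi', ← zpow_mul]
    rw [hRd, ← zpow_neg_one, zpow_eq_zpow_iff_modEq, orderOf_eq_prime (h3 c hc) hc1,
      Int.modEq_iff_dvd] at h1
    have key : ∀ y : ZMod 3, y * y + 1 ≠ 0 := by decide
    apply key (i : ZMod 3)
    have h6 : ((i * i - -1 : ℤ) : ZMod 3) = 0 := by
      rw [ZMod.intCast_zmod_eq_zero_iff_dvd]; exact h1
    push_cast at h6
    simpa using h6
  have hA : A = Subgroup.zpowers c ⊔ Subgroup.zpowers d :=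
    gen9 hA9 hc hdA (orderOf_eq_prime (h3 c hc) hc1) hdn
  have hTd : T * d = d⁻¹ * T := by
    have hdi : d⁻¹ = R⁻¹ * c * R := by
      have : c = R * d⁻¹ * R⁻¹ := by rw [← conj_inv, hRd, inv_inv]
      rw [this]; group
    have hTc' : T * c = c * T := by
      conv_rhs => rw [← hTc]
      group
    calc T * d = (T * R) * c * R⁻¹ := by rw [hd]; simp only [mul_assoc]
      _ = R⁻¹ * (T * c) * R⁻¹ := by rw [hTR]; simp only [mul_assoc]
      _ = R⁻¹ * c * (T * R⁻¹) := by rw [hTc']; simp only [mul_assoc]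
      _ = R⁻¹ * c * (R * T) := by
        congr 1
        have h := congrArg (fun x => R * x * R⁻¹) hTR
        calc T * R⁻¹ = R * (R⁻¹ * T) * R⁻¹ := by group
          _ = R * (T * R) * R⁻¹ := h.symm
          _ = R * T := by group
      _ = d⁻¹ * T := by rw [hdi]; simp only [mul_assoc]
  have hTc' : c * T = T * c := by
    conv_lhs => rw [← hTc]
    group
  have hzc : c * R ^ 2 = R ^ 2 * c⁻¹ := by
    conv_rhs => rw [← hz c hc]
    calc c * R ^ 2 = (R ^ 2 * R ^ 2) * c * (R ^ 2 * R ^ 2)⁻¹ * R ^ 2 := by rw [hzz, inv_one, one_mul, mul_one]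
      _ = R ^ 2 * (R ^ 2 * c * (R ^ 2)⁻¹) := by group
  have hzd : R ^ 2 * d = d⁻¹ * R ^ 2 := by
    conv_rhs => rw [← hz d hdA]
    group
  -- a vector fixed by `c`, `T` and `R²`
  obtain ⟨u, hu0, hcu, hTu⟩ : ∃ u, u ≠ 0 ∧ ρ c u = u ∧ ρ T u = u := by
    by_cases h : v0 + ρ T v0 = 0
    · refine ⟨v0, hv0, hcv0, ?_⟩
      calc ρ T v0 = v0 + (v0 + ρ T v0) := by rw [← add_assoc, add_self2, zero_add]
        _ = v0 := by rw [h, add_zero]
    · refine ⟨v0 + ρ T v0, h, ?_, ?_⟩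
      · rw [map_add, hcv0, ← rmul, hTc', rmul, hcv0]
      · rw [map_add, ← rmul, hT2, map_one]
        exact add_comm _ _
  obtain ⟨v, hv0', hcv, hTv, hzv⟩ : ∃ v, v ≠ 0 ∧ ρ c v = v ∧ ρ T v = v ∧ ρ (R ^ 2) v = v := by
    by_cases h : u + ρ (R ^ 2) u = 0
    · refine ⟨u, hu0, hcu, hTu, ?_⟩
      calc ρ (R ^ 2) u = u + (u + ρ (R ^ 2) u) := by rw [← add_assoc, add_self2, zero_add]
        _ = u := by rw [h, add_zero]
    · refine ⟨u + ρ (R ^ 2) u, h, ?_, ?_, ?_⟩
      · rw [map_add, hcu, ← rmul, hzc, rmul, rfix_inv ρ hcu]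
      · rw [map_add, hTu, ← rmul, hTz, rmul, hTu]
      · rw [map_add, ← rmul, hzz, map_one]
        exact add_comm _ _
  obtain ⟨w, hw⟩ : ∃ w, w = ρ d v := ⟨_, rfl⟩
  obtain ⟨v', hv'⟩ : ∃ v', v' = ρ R v := ⟨_, rfl⟩
  obtain ⟨w', hw'⟩ : ∃ w', w' = ρ R w := ⟨_, rfl⟩
  have hd3 : d * (d * d) = 1 := by
    have := h3 d hdA
    rwa [pow_succ', pow_two] at this
  have hcd : c * d = d * c := hcomm c hc d hdA
  have hcw : ρ c w = w := by rw [hw, ← rmul, hcd, rmul, hcv]
  have hdw : ρ d w = v + w := by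
    have hfix : ∀ a ∈ A, ρ a (v + w + ρ d w) = v + w + ρ d w := by
      intro a ha
      let K : Subgroup S :=
        { carrier := {y | ρ y (v + w + ρ d w) = v + w + ρ d w}
          one_mem' := by simp
          mul_mem' := fun {p q} hp hq => by
            show ρ (p * q) _ = _
            rw [rmul]
            exact (congrArg (ρ p) hq).trans hp
          inv_mem' := fun {p} hp => rfix_inv ρ hp }
      have h1 : c ∈ K := by
        show ρ c (v + w + ρ d w) = _
        rw [map_add, map_add, hcv, hcw, ← rmul, hcd, rmul, hcw]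
      have h2 : d ∈ K := by
        show ρ d (v + w + ρ d w) = _
        rw [map_add, map_add, ← hw, hw, ← rmul, ← rmul, hd3, map_one]
        show ρ d v + ρ (d * d) v + v = v + ρ d v + ρ (d * d) v
        abel
      exact (sup_le (Subgroup.zpowers_le.mpr h1) (Subgroup.zpowers_le.mpr h2) :
        Subgroup.zpowers c ⊔ Subgroup.zpowers d ≤ K) (hA ▸ ha)
    have h0 := hfix0 _ hfix
    calc ρ d w = (v + w) + (v + w + ρ d w) := by rw [← add_assoc, add_self2, zero_add]
      _ = v + w := by rw [h0, add_zero]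
  have hdiv : ρ d⁻¹ v = v + w := by
    rw [inv_eq_of_mul_eq_one_right hd3, rmul, ← hw, hdw]
  have hRR : ∀ m, ρ R (ρ R m) = ρ (R ^ 2) m := fun m => by rw [pow_two, rmul]
  have hzw : ρ (R ^ 2) w = v + w := by rw [hw, ← rmul, hzd, rmul, hzv, hdiv, ← hw]
  have hRw' : ρ R w' = v + w := by rw [hw', hRR, hzw]
  have hRv' : ρ R v' = v := by rw [hv', hRR, hzv]
  have hcR : c * R = R * d⁻¹ := by
    have : c = R * d⁻¹ * R⁻¹ := by rw [← conj_inv, hRd, inv_inv]
    conv_lhs => rw [this]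
    group
  have hdR : d * R = R * c := by rw [hd]; group
  have hcv' : ρ c v' = v' + w' := by
    rw [hv', ← rmul, hcR, rmul, hdiv, map_add, ← hw']
  have hcw' : ρ c w' = v' := by
    rw [hw', ← rmul, hcR, rmul, hw, rinv, ← hv']
  have hdv' : ρ d v' = v' := by rw [hv', ← rmul, hdR, rmul, hcv]
  have hdw' : ρ d w' = w' := by rw [hw', ← rmul, hdR, rmul, hcw]
  have hTw : ρ T w = v + w := by rw [hw, ← rmul, hTd, rmul, hTv, hdiv, ← hw]
  have hRi : R⁻¹ = R * R ^ 2 := by
    rw [inv_eq_of_mul_eq_one_right]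
    rw [← pow_succ', ← pow_succ']; exact hR4
  have hTv' : ρ T v' = v' := by rw [hv', ← rmul, hTR, rmul, hTv, hRi, rmul, hzv]
  have hTw' : ρ T w' = w' := by
    rw [hw', ← rmul, hTR, rmul, hTw, hRi, rmul, map_add (ρ (R ^ 2)), hzv, hzw, ← add_assoc,
      add_self2, zero_add]
  have hzv' : ρ (R ^ 2) v' = v' := by
    rw [hv', ← rmul, ← pow_succ, pow_succ', rmul, hzv]
  have hzw' : ρ (R ^ 2) w' = v' + w' := by
    rw [hw', ← rmul, ← pow_succ, pow_succ', rmul, hzw, map_add, ← hv', ← hw']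
  -- coordinates
  let φ : ((ZMod 2 × ZMod 2) × (ZMod 2 × ZMod 2)) →ₗ[ZMod 2] M :=
    ((LinearMap.toSpanSingleton (ZMod 2) M v).coprod
      (LinearMap.toSpanSingleton (ZMod 2) M w)).coprod
    ((LinearMap.toSpanSingleton (ZMod 2) M v').coprod
      (LinearMap.toSpanSingleton (ZMod 2) M w'))
  have hφ : ∀ a b g h, φ ((a, b), (g, h)) = a • v + b • w + (g • v' + h • w') :=
    fun a b g h => rfl
  have stc : ∀ a b g h, ρ c (φ ((a, b), (g, h))) = φ ((a, b), (g + h, g)) := by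
    intro a b g h
    simp only [hφ, map_add, map_smul, hcv, hcw, hcv', hcw', smul_add, add_smul]
    abel
  have std : ∀ a b g h, ρ d (φ ((a, b), (g, h))) = φ ((b, a + b), (g, h)) := by
    intro a b g h
    simp only [hφ, map_add, map_smul, ← hw, hdw, hdv', hdw', smul_add, add_smul]
    abel
  have stR : ∀ a b g h, ρ R (φ ((a, b), (g, h))) = φ ((g + h, h), (a, b)) := by
    intro a b g h
    simp only [hφ, map_add, map_smul, ← hv', ← hw', hRv', hRw', smul_add, add_smul]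
    abel
  have stT : ∀ a b g h, ρ T (φ ((a, b), (g, h))) = φ ((a + b, b), (g, h)) := by
    intro a b g h
    simp only [hφ, map_add, map_smul, hTv, hTw, hTv', hTw', smul_add, add_smul]
    abel
  have stz : ∀ a b g h, ρ (R ^ 2) (φ ((a, b), (g, h))) = φ ((a + b, b), (g + h, h)) := by
    intro a b g h
    simp only [hφ, map_add, map_smul, hzv, hzw, hzv', hzw', smul_add, add_smul]
    abel
  -- surjectivity
  let K : Subgroup S :=
    { carrier := {y | ∀ p, ∃ q, ρ y (φ p) = φ q}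
      one_mem' := fun p => ⟨p, by simp⟩
      mul_mem' := fun {y y'} hy hy' p => by
        obtain ⟨q, hq⟩ := hy' p
        obtain ⟨q', hq'⟩ := hy q
        exact ⟨q', by rw [rmul, hq, hq']⟩
      inv_mem' := fun {y} hy => by
        have hpow : ∀ n : ℕ, ∀ p, ∃ q, ρ (y ^ n) (φ p) = φ q := by
          intro n
          induction n with
          | zero => intro p; exact ⟨p, by simp⟩
          | succ n ih =>
            intro p
            obtain ⟨q, hq⟩ := hy p
            obtain ⟨q', hq'⟩ := ih q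
            exact ⟨q', by rw [pow_succ, rmul, hq, hq']⟩
        have h1 : y⁻¹ = y ^ (orderOf y - 1) := by
          rw [inv_eq_iff_mul_eq_one, ← pow_succ',
            Nat.sub_add_cancel (orderOf_pos y), pow_orderOf_eq_one]
        show ∀ p, ∃ q, ρ y⁻¹ (φ p) = φ q
        rw [h1]
        exact hpow _ }
  have hK : K = ⊤ := by
    have kc : c ∈ K := fun ⟨⟨a, b⟩, g, h⟩ => ⟨_, stc a b g h⟩
    have kd : d ∈ K := fun ⟨⟨a, b⟩, g, h⟩ => ⟨_, std a b g h⟩
    have kR : R ∈ K := fun ⟨⟨a, b⟩, g, h⟩ => ⟨_, stR a b g h⟩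
    have kT : T ∈ K := fun ⟨⟨a, b⟩, g, h⟩ => ⟨_, stT a b g h⟩
    refine top_le_iff.mp (hAX ▸ sup_le ?_ ?_)
    · rw [hA]
      exact sup_le (Subgroup.zpowers_le.mpr kc) (Subgroup.zpowers_le.mpr kd)
    · intro x hx
      have hall : ∀ k : ZMod 4, ∀ y : DihedralGroup 4, ∃ i : Fin 4, ∃ j : Fin 2,
          y = DihedralGroup.sr k ^ (j : ℕ) * DihedralGroup.r 1 ^ (i : ℕ) := by decide
      obtain ⟨i, j, hij⟩ := hall k (e ⟨x, hx⟩)
      have hx' : x = T ^ (j : ℕ) * R ^ (i : ℕ) := by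
        rw [← hT, ← hR, ← map_pow, ← map_pow, ← map_mul, ← hij, hψ, MulEquiv.symm_apply_apply]
      rw [hx']
      exact K.mul_mem (K.pow_mem kT _) (K.pow_mem kR _)
  have hsur : Function.Surjective φ := by
    rcases hirr (LinearMap.range φ) (fun s m hm => by
      obtain ⟨p, rfl⟩ := hm
      obtain ⟨q, hq⟩ := (hK ▸ Subgroup.mem_top s : s ∈ K) p
      exact ⟨q, hq.symm⟩) with hN | hN
    · exfalso
      apply hv0'
      have : φ ((1, 0), (0, 0)) ∈ LinearMap.range φ := LinearMap.mem_range_self _ _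
      rw [hN, Submodule.mem_bot, hφ] at this
      simpa using this
    · exact LinearMap.range_eq_top.mp hN
  -- injectivity
  have hwv : w ≠ v := by
    intro h
    apply hv0'
    apply hfix0
    intro a ha
    let L : Subgroup S :=
      { carrier := {y | ρ y v = v}
        one_mem' := by simp
        mul_mem' := fun {p q} hp hq => by
          show ρ (p * q) _ = _
          rw [rmul]
          exact (congrArg (ρ p) hq).trans hp
        inv_mem' := fun {p} hp => rfix_inv ρ hp }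
    exact (sup_le (Subgroup.zpowers_le.mpr (show c ∈ L from hcv))
      (Subgroup.zpowers_le.mpr (show d ∈ L from hw.symm.trans h)) :
        Subgroup.zpowers c ⊔ Subgroup.zpowers d ≤ L) (hA ▸ ha)
  have hindep : ∀ a b : ZMod 2, a • v + b • w = 0 → a = 0 ∧ b = 0 := by
    intro a b h
    rcases z2_cases a with rfl | rfl <;> rcases z2_cases b with rfl | rfl
    · exact ⟨rfl, rfl⟩
    · simp only [zero_smul, one_smul, zero_add] at h
      exfalso; apply hv0'
      rw [← rinv ρ d v, ← hw, h, map_zero]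
    · simp only [zero_smul, one_smul, add_zero] at h
      exact absurd h hv0'
    · simp only [one_smul] at h
      exfalso; apply hwv
      calc w = v + (v + w) := by rw [← add_assoc, add_self2, zero_add]
        _ = v := by rw [h, add_zero]
  have hinjφ : Function.Injective φ := by
    rw [← LinearMap.ker_eq_bot, LinearMap.ker_eq_bot']
    rintro ⟨⟨a, b⟩, g, h⟩ h0
    have h1 := stc a b g h
    rw [h0, map_zero] at h1
    have h2 : φ (((a, b), (g + h, g)) - ((a, b), (g, h))) = 0 := by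
      rw [map_sub, ← h1, h0, sub_zero]
    replace h2 : φ ((0, 0), (g + h - g, g - h)) = 0 := by
      simpa only [Prod.mk_sub_mk, sub_self, Prod.mk_zero_zero] using h2
    have h3' : ρ R (φ ((g + h - g, g - h), (0, 0))) = 0 := by
      rw [stR]
      simpa using h2
    have h4 : φ ((g + h - g, g - h), (0, 0)) = 0 := by
      rw [← rinv ρ R (φ _), h3', map_zero]
    rw [hφ] at h4
    obtain ⟨e1, e2⟩ := hindep _ _ (by simpa using h4)
    have hh : h = 0 := by simpa using e1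
    have hg : g = 0 := by simpa [hh] using e2
    subst hh hg
    rw [hφ] at h0
    obtain ⟨e3, e4⟩ := hindep a b (by simpa using h0)
    subst e3 e4
    rfl
  let Φ : ((ZMod 2 × ZMod 2) × (ZMod 2 × ZMod 2)) ≃ M := Equiv.ofBijective φ ⟨hinjφ, hsur⟩
  refine ⟨?_, ?_⟩
  · rw [← Nat.card_congr Φ, Nat.card_eq_fintype_card]
    rfl
  -- fixed points of the two four-groups
  have hcount : ∀ (j : ZMod 4), Nat.card {m : M // ∀ b ∈ (vier j).map ψ, ρ b m = m} =
      Nat.card {p // ρ (R ^ 2) (φ p) = φ p ∧ ρ (ψ (DihedralGroup.sr j)) (φ p) = φ p} := by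
    intro j
    refine Nat.card_congr (Equiv.subtypeEquiv Φ (fun p => ?_)).symm
    constructor
    · rintro ⟨h1, h2⟩ b ⟨y, hy, rfl⟩
      have hr2 : ψ (DihedralGroup.r 2) = R ^ 2 := by
        rw [← hR, ← map_pow]; rfl
      rw [SetLike.mem_coe, mem_vier] at hy
      show ρ (ψ y) (φ p) = φ p
      rcases hy with rfl | rfl | rfl | rfl
      · rw [← DihedralGroup.one_def, map_one, map_one]; rfl
      · rw [hr2]; exact h1
      · exact h2
      · rw [show DihedralGroup.sr (j + 2) = DihedralGroup.sr j * DihedralGroup.r 2 from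
          (DihedralGroup.sr_mul_r j 2).symm, map_mul, rmul, hr2, h1, h2]
    · intro h
      refine ⟨?_, ?_⟩
      · apply h (R ^ 2)
        refine ⟨DihedralGroup.r 2, Or.inr (Or.inl rfl), ?_⟩
        rw [← hR, ← map_pow]; rfl
      · exact h _ ⟨_, Or.inr (Or.inr (Or.inl rfl)), rfl⟩
  have hc1' : Nat.card {m : M // ∀ b ∈ (vier k).map ψ, ρ b m = m} = 4 := by
    rw [hcount]
    rw [Nat.card_congr (Equiv.subtypeEquivRight (q := fun p :
      (ZMod 2 × ZMod 2) × (ZMod 2 × ZMod 2) => p.1.2 = 0 ∧ p.2.2 = 0) ?_),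
      Nat.card_eq_fintype_card]
    · decide
    · rintro ⟨⟨a, b⟩, g, h⟩
      rw [hT, stz, stT, hinjφ.eq_iff, hinjφ.eq_iff]
      simp only [Prod.mk.injEq]
      revert a b g h
      decide
  have hc2' : Nat.card {m : M // ∀ b ∈ (vier (k + 1)).map ψ, ρ b m = m} = 2 := by
    rw [hcount]
    rw [Nat.card_congr (Equiv.subtypeEquivRight (q := fun p :
      (ZMod 2 × ZMod 2) × (ZMod 2 × ZMod 2) => p.1.2 = 0 ∧ p.2.2 = 0 ∧ p.1.1 = p.2.1) ?_),
      Nat.card_eq_fintype_card]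
    · decide
    · rintro ⟨⟨a, b⟩, g, h⟩
      rw [← DihedralGroup.sr_mul_r, map_mul, hT, hR, rmul, stz, stR, stT, hinjφ.eq_iff,
        hinjφ.eq_iff]
      simp only [Prod.mk.injEq]
      revert a b g h
      decide
  have hmap_le : ∀ j, (vier j).map ψ ≤ X := by
    rintro j b ⟨y, -, rfl⟩
    rw [hψ]; exact (e.symm y).2
  have hmap_card : ∀ j, Nat.card ↥((vier j).map ψ) = 4 := fun j => by
    rw [Subgroup.card_map_of_injective hψi, card_vier]
  refine ⟨(vier (k + 1)).map ψ, ⟨hmap_le _, hmap_card _, ?_, hc2'⟩, ?_⟩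
  · rintro b ⟨y, hy, rfl⟩
    rw [← map_pow, vier_sq hy, map_one]
  · rintro B ⟨hBX, hB4, hB2, hBf⟩
    have hB : (B.comap ψ).map ψ = B := by
      refine Subgroup.map_comap_eq_self ?_
      intro b hb
      exact ⟨e ⟨b, hBX hb⟩, by rw [hψ, MulEquiv.symm_apply_apply]⟩
    rcases vier_cases (B.comap ψ) (fun y hy => hψi (by
      rw [map_pow, map_one]; exact hB2 _ hy)) k with h | h
    · exfalso
      have : B = (vier k).map ψ :=
        Subgroup.eq_of_le_of_card_ge (hB ▸ Subgroup.map_mono h) (by rw [hmap_card, hB4])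
      subst this
      omega
    · exact Subgroup.eq_of_le_of_card_ge (hB ▸ Subgroup.map_mono h) (by rw [hmap_card, hB4])

end

/-- Let S be a finite group with a normal elementary abelian subgroup A of order 9 that is self-centralizing (C_S(A) = A), and a dihedral subgroup X of order 8 with S = AX. Let M be a finite-dimensional module for S over the field with two elements that is faithful and irreducible. Then M has 16 elements, and X contains exactly one subgroup B of order 4 and exponent 2 whose fixed points on M form a subspace with exactly 2 elements (equivalently, M is free of rank one over the group algebra of B). -/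
theorem result {S : Type*} [Group S] [Finite S]
    (A : Subgroup S) [A.Normal] (hA : Cfsg.IsElementaryAbelian 3 A) (hA9 : Nat.card ↥A = 9)
    (hAC : Subgroup.centralizer (A : Set S) = A) (X : Subgroup S) (hX : Nonempty (↥X ≃* DihedralGroup 4)) (hAX : A ⊔ X = ⊤)
    {M : Type*} [AddCommGroup M] [Module (ZMod 2) M] [Finite M] (ρ : Representation (ZMod 2) S M)
    (hfaith : Function.Injective ρ)
    (hirr : ∀ N : Submodule (ZMod 2) M, (∀ s : S, ∀ m ∈ N, ρ s m ∈ N) → N = ⊥ ∨ N = ⊤) (hM : Nontrivial M) :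
    Nat.card M = 16 ∧
      ∃! B : Subgroup S, B ≤ X ∧ Nat.card ↥B = 4 ∧ (∀ b ∈ B, b ^ 2 = 1) ∧
        Nat.card {m : M // ∀ b ∈ B, ρ b m = m} = 2 := by
  classical
  obtain ⟨hcomm', h3⟩ := hA
  have hcomm : ∀ a ∈ A, ∀ b ∈ A, a * b = b * a := by
    intro a ha b hb
    have := hcomm'.is_comm.comm (⟨a, ha⟩ : A) ⟨b, hb⟩
    exact congrArg Subtype.val this
  have hAn : A.Normal := inferInstance
  obtain ⟨e⟩ := hX
  obtain ⟨R, hR⟩ : ∃ R : S, (e.symm (DihedralGroup.r 1) : S) = R := ⟨_, rfl⟩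
  obtain ⟨s, hs⟩ : ∃ s : S, (e.symm (DihedralGroup.sr 0) : S) = s := ⟨_, rfl⟩
  obtain ⟨ψ, hψ⟩ : ∃ ψ : DihedralGroup 4 →* S, ∀ x, ψ x = (e.symm x : S) :=
    ⟨X.subtype.comp e.symm.toMonoidHom, fun x => rfl⟩
  have hψi : Function.Injective ψ := fun x y hxy => by
    rw [hψ, hψ] at hxy
    exact e.symm.injective (Subtype.ext hxy)
  have hR' : ψ (DihedralGroup.r 1) = R := (hψ _).trans hR
  have hs' : ψ (DihedralGroup.sr 0) = s := (hψ _).trans hs
  -- `X ∩ A` is trivial and `X` acts faithfully on `A`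
  have hfaithA : ∀ y : DihedralGroup 4, (∀ a ∈ A, ψ y * a * (ψ y)⁻¹ = a) → y = 1 := by
    intro y hy
    have hyA : ψ y ∈ A := by
      rw [← hAC, Subgroup.mem_centralizer_iff]
      intro a ha
      conv_lhs => rw [← hy a ha]
      group
    have hy8 : y ^ 8 = 1 := by
      have := pow_card_eq_one (G := DihedralGroup 4) (x := y)
      rwa [DihedralGroup.card] at this
    have hy3 : y ^ 3 = 1 := hψi (by rw [map_pow, map_one]; exact h3 _ hyA)
    have hy9 : (y ^ 3) ^ 3 = y ^ 8 * y := by rw [← pow_mul, ← pow_succ]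
    rw [hy3, hy8, one_pow, one_mul] at hy9
    exact hy9.symm
  have hz : ∀ a ∈ A, R ^ 2 * a * (R ^ 2)⁻¹ = a⁻¹ := by
    refine inverts hAn hcomm h3 hA9 R ?_ ?_
    · rw [← hR', ← map_pow, show (DihedralGroup.r (1 : ZMod 4)) ^ 4 = 1 by decide, map_one]
    · by_contra hcon
      push Not at hcon
      have := hfaithA (DihedralGroup.r 1 ^ 2) (fun a ha => by rw [map_pow, hR']; exact hcon a ha)
      exact absurd this (by decide)
  -- `s` centralises some nontrivial element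
  have hs2 : s * s = 1 := by
    rw [← hs', ← map_mul, show DihedralGroup.sr (0 : ZMod 4) * DihedralGroup.sr 0 = 1 by decide,
      map_one]
  obtain ⟨a, ha, ha1, hsa⟩ : ∃ a ∈ A, a ≠ 1 ∧ s * a * s⁻¹ = a := by
    by_contra hcon
    push Not at hcon
    have hinv : ∀ x ∈ A, s * x * s⁻¹ = x⁻¹ := by
      intro x hx
      have hxA : s * x * s⁻¹ ∈ A := hAn.conj_mem x hx s
      by_contra hne
      refine hcon (x * (s * x * s⁻¹)) (A.mul_mem hx hxA)
        (fun h => hne (eq_inv_of_mul_eq_one_right h)) ?_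
      rw [hcomm x hx _ hxA]
      have hsi : s⁻¹ = s := inv_eq_of_mul_eq_one_right hs2
      calc s * (s * x * s⁻¹ * x) * s⁻¹ = (s * s) * x * s⁻¹ * x * s⁻¹ := by group
        _ = x * (s * x * s⁻¹) := by rw [hs2, hsi, one_mul]; group
        _ = s * x * s⁻¹ * x := hcomm x hx _ hxA
    have := hfaithA (DihedralGroup.sr 0 * DihedralGroup.r 1 ^ 2) (fun x hx => by
      rw [map_mul, map_pow, hs', hR']
      calc s * R ^ 2 * x * (s * R ^ 2)⁻¹ = s * (R ^ 2 * x * (R ^ 2)⁻¹) * s⁻¹ := by group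
        _ = x := by rw [hz x hx, hinv _ (A.inv_mem hx), inv_inv])
    exact absurd this (by decide)
  -- the four reflections and their fixed elements
  obtain ⟨b, hb⟩ : ∃ b, b = R * a * R⁻¹ := ⟨_, rfl⟩
  have hbA : b ∈ A := hb ▸ hAn.conj_mem a ha R
  have hb1 : b ≠ 1 := fun h => ha1 (conj_eq_one_iff.mp (hb ▸ h))
  have hRb : R * b * R⁻¹ = a⁻¹ := by
    rw [hb, ← hz a ha]; simp only [pow_two, mul_inv_rev, mul_assoc]
  have hsR : s * R = R⁻¹ * s := by
    rw [← hs', ← hR', ← map_inv, ← map_mul, ← map_mul]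
    congr 1
  have hsb : s * b * s⁻¹ = b⁻¹ := by
    have hRa : R⁻¹ * a * R = b⁻¹ := by
      have : a = R * b⁻¹ * R⁻¹ := by rw [← conj_inv, hRb, inv_inv]
      conv_lhs => rw [this]
      group
    calc s * b * s⁻¹ = (s * R) * a * (s * R)⁻¹ := by rw [hb]; group
      _ = R⁻¹ * (s * a * s⁻¹) * R := by rw [hsR]; group
      _ = b⁻¹ := by rw [hsa, hRa]
  -- `T_k` for `k = 0, 1, 2, 3`
  have hsr : ∀ n : ℕ, (e.symm (DihedralGroup.sr (n : ZMod 4)) : S) = s * R ^ n := by
    intro n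
    rw [← hψ, ← hs', ← hR', ← map_pow, ← map_mul, DihedralGroup.r_one_pow, DihedralGroup.sr_mul_r,
      zero_add]
  have hab : a * b = b * a := hcomm a ha b hbA
  -- one of four elements fixes a nonzero vector
  have hfix0 : ∀ m : M, (∀ x ∈ A, ρ x m = m) → m = 0 :=
    fix_zero hAn ρ hfaith hirr ⟨a, ha, ha1⟩
  have hAgen : A = Subgroup.zpowers a ⊔ Subgroup.zpowers b := by
    refine gen9 hA9 ha hbA (orderOf_eq_prime (h3 a ha) ha1) ?_
    rintro ⟨i, hi⟩
    have hi' : a ^ i = b := hi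
    have h1 : s * b * s⁻¹ = b := by rw [← hi', ← conj_zpow, hsa]
    rw [hsb, inv_eq_iff_mul_eq_one, ← pow_two] at h1
    have h2 := h3 b hbA
    rw [pow_succ, h1, one_mul] at h2
    exact hb1 h2
  obtain ⟨m, hm⟩ := exists_ne (0 : M)
  obtain ⟨c, hc, v0, hv0, hcv0⟩ : ∃ c ∈ ({a, b, a * b, a * b⁻¹} : Set S), ∃ v : M,
      v ≠ 0 ∧ ρ c v = v := by
    by_contra hcon
    push Not at hcon
    have hN : ∀ c ∈ ({a, b, a * b, a * b⁻¹} : Set S), c ∈ A → ∀ x : M,
        x + ρ c x + ρ c (ρ c x) = 0 := by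
      intro c hc hcA x
      by_contra hne
      apply hcon c hc _ hne
      have h := h3 c hcA
      rw [pow_succ', pow_two] at h
      rw [map_add, map_add, ← rmul, ← rmul, h, map_one]
      show ρ c x + ρ (c * c) x + x = x + ρ c x + ρ (c * c) x
      abel
    have n1 := hN a (by simp) ha
    have n2 := hN b (by simp) hbA
    have n3 := hN (a * b) (by simp) (A.mul_mem ha hbA) m
    have n4 := hN (a * b⁻¹) (by simp) (A.mul_mem ha (A.inv_mem hbA)) m
    have hbi : b⁻¹ = b * b := inv_eq_of_mul_eq_one_right (by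
      have := h3 b hbA; rwa [pow_succ', pow_two] at this)
    have hab' : ∀ x : M, ρ b (ρ a x) = ρ a (ρ b x) := fun x => by rw [← rmul, ← rmul, hab]
    have hb3 : ∀ x : M, ρ b (ρ b (ρ b x)) = x := fun x => by
      rw [← rmul ρ b b, ← hbi]; exact rinv ρ b x
    rw [hbi] at n4
    simp only [rmul, hab', hb3, map_add] at n3 n4
    have f1 := n1 m
    have f2 := n2 m
    have f3 := n2 (ρ a m)
    have f4 := n2 (ρ a (ρ a m))
    simp only [hab'] at f3 f4
    apply hm
    -- the four norms add up to `m` plus the norm of `A`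
    have e0 : m = (m + ρ a m + ρ a (ρ a m)) + (m + ρ b m + ρ b (ρ b m))
        + (m + ρ a (ρ b m) + ρ a (ρ a (ρ b (ρ b m))))
        + (m + ρ a (ρ b (ρ b m)) + ρ a (ρ a (ρ b m)))
        + ((m + ρ b m + ρ b (ρ b m)) + (ρ a m + ρ a (ρ b m) + ρ a (ρ b (ρ b m)))
          + (ρ a (ρ a m) + ρ a (ρ a (ρ b m)) + ρ a (ρ a (ρ b (ρ b m))))) := by
      have two : ∀ x : M, x + x = 0 := add_self2
      calc m = m + ((m + m) + (m + m) + (ρ a m + ρ a m) + (ρ a (ρ a m) + ρ a (ρ a m))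
            + (ρ b m + ρ b m) + (ρ b (ρ b m) + ρ b (ρ b m))
            + (ρ a (ρ b m) + ρ a (ρ b m))
            + (ρ a (ρ a (ρ b (ρ b m))) + ρ a (ρ a (ρ b (ρ b m))))
            + (ρ a (ρ b (ρ b m)) + ρ a (ρ b (ρ b m)))
            + (ρ a (ρ a (ρ b m)) + ρ a (ρ a (ρ b m)))) := by simp only [two, add_zero]
        _ = _ := by abel
    rw [e0, f1, f2, f3, f4, n3, n4]
    simp
  have hsa' : s * a = a * s := by
    conv_rhs => rw [← hsa]
    group
  rcases hc with rfl | rfl | rfl | rfl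
  · exact core hAn hcomm h3 hA9 hAX e 0 R s hR hs hz ρ hirr hfix0 c ha ha1 hsa v0 hv0 hcv0
  · refine core hAn hcomm h3 hA9 hAX e ((2 : ℕ) : ZMod 4) R (s * R ^ 2) hR (hsr 2) hz ρ hirr
      hfix0 c hbA hb1 ?_ v0 hv0 hcv0
    calc s * R ^ 2 * c * (s * R ^ 2)⁻¹ = s * (R ^ 2 * c * (R ^ 2)⁻¹) * s⁻¹ := by group
      _ = c := by rw [hz c hbA, ← conj_inv, hsb, inv_inv]
  · refine core hAn hcomm h3 hA9 hAX e ((3 : ℕ) : ZMod 4) R (s * R ^ 3) hR (hsr 3) hz ρ hirr
      hfix0 (a * b) (A.mul_mem ha hbA) ?_ ?_ v0 hv0 hcv0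
    · intro h
      rw [mul_eq_one_iff_eq_inv] at h
      have h' := hsa
      rw [h, ← conj_inv, hsb, inv_inv] at h'
      have h2 := h3 b hbA
      rw [pow_succ, pow_two, inv_eq_iff_mul_eq_one.mp h'.symm, one_mul] at h2
      exact hb1 h2
    · have e1 : R ^ 3 * (a * b) * (R ^ 3)⁻¹ = a * b⁻¹ := by
        calc R ^ 3 * (a * b) * (R ^ 3)⁻¹
            = R ^ 2 * ((R * a * R⁻¹) * (R * b * R⁻¹)) * (R ^ 2)⁻¹ := by group
          _ = a * b⁻¹ := by
            rw [← hb, hRb, hz _ (A.mul_mem hbA (A.inv_mem ha)), mul_inv_rev, inv_inv]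
      calc s * R ^ 3 * (a * b) * (s * R ^ 3)⁻¹ = s * (R ^ 3 * (a * b) * (R ^ 3)⁻¹) * s⁻¹ := by
            group
        _ = (s * a * s⁻¹) * (s * b⁻¹ * s⁻¹) := by rw [e1]; group
        _ = a * b := by rw [hsa, ← conj_inv, hsb, inv_inv]
  · refine core hAn hcomm h3 hA9 hAX e ((1 : ℕ) : ZMod 4) R (s * R ^ 1) hR (hsr 1) hz ρ hirr
      hfix0 (a * b⁻¹) (A.mul_mem ha (A.inv_mem hbA)) ?_ ?_ v0 hv0 hcv0
    · intro h
      rw [mul_inv_eq_one] at h
      have h' := hsa
      rw [h, hsb] at h'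
      have h2 := h3 b hbA
      rw [pow_succ, pow_two, inv_eq_iff_mul_eq_one.mp h', one_mul] at h2
      exact hb1 h2
    · calc s * R ^ 1 * (a * b⁻¹) * (s * R ^ 1)⁻¹
          = s * ((R * a * R⁻¹) * (R * b * R⁻¹)⁻¹) * s⁻¹ := by group
        _ = (s * b * s⁻¹) * (s * a * s⁻¹) := by rw [← hb, hRb, inv_inv]; group
        _ = a * b⁻¹ := by rw [hsa, hsb, hcomm _ (A.inv_mem hbA) a ha]


end Cfsg.Agent.S4407
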