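import Cfsg.Statements.S4408

import Cfsg.Agent.Lib.Coprime.Abelian
import Cfsg.Agent.Lib.Hall.Solvable
set_option autoImplicit false
open Cfsg

namespace Cfsg.Agent.S4408


open scoped Pointwise

theorem eq_one_of_odd {S : Type*} [Group S] [Finite S] {F : Subgroup S} (hF : Odd (Nat.card F)) {u : S}
    (hu : u ∈ F) (h : u * u = 1) : u = 1 := by
  have h1 : orderOf u ∣ 2 := orderOf_dvd_of_pow_eq_one (by rw [pow_two, h])
  have h2 := Subgroup.orderOf_dvd_natCard F hu
  rcases (Nat.dvd_prime Nat.prime_two).1 h1 with e | e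
  · exact orderOf_eq_one_iff.1 e
  · exact absurd (e ▸ h2) hF.not_two_dvd_nat

/-- A common eigenvector of an elementary abelian `2`-group moved by a given element. -/
theorem exists_eigen {S : Type*} [Group S] [Finite S] {F : Subgroup S} (hFodd : Odd (Nat.card F)) (n : ℕ) :
    ∀ (I Y : Subgroup S), Nat.card I + Nat.card Y ≤ n → (∀ a ∈ I, ∀ b ∈ I, a * b = b * a) → (∀ a ∈ I, a * a = 1) →
      I ≤ Subgroup.normalizer (Y : Set S) → Y ≤ F → ∀ j ∈ I, (∃ y ∈ Y, j * y * j⁻¹ ≠ y) →
      ∃ u ∈ Y, u ≠ 1 ∧ (∀ i ∈ I, i * u * i⁻¹ = u ∨ i * u * i⁻¹ = u⁻¹) ∧ j * u * j⁻¹ = u⁻¹ := by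
  induction n using Nat.strong_induction_on with
  | _ n ih =>
  intro I Y hn hc hsq hN hYF j hj hmove
  have hinvI : ∀ a ∈ I, a⁻¹ = a := fun a ha => inv_eq_of_mul_eq_one_right (hsq a ha)
  have hYodd : Odd (Nat.card Y) := hFodd.of_dvd_nat (Subgroup.card_dvd_of_le hYF)
  by_cases hsmall : ∀ b ∈ I, b = 1 ∨ b = j
  · obtain ⟨w, hw, hwj⟩ := hmove
    have hjw : j * w * j⁻¹ ∈ Y := (Subgroup.mem_normalizer_iff.1 (hN hj) w).1 hw
    refine ⟨w⁻¹ * (j * w * j⁻¹), Y.mul_mem (Y.inv_mem hw) hjw, fun h => hwj (inv_mul_eq_one.1 h).symm, ?_, ?_⟩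
    · intro i hi
      rcases hsmall i hi with rfl | rfl
      · left; group
      · right
        rw [hinvI i hi]
        calc i * (w⁻¹ * (i * w * i)) * i = i * w⁻¹ * i * w * (i * i) := by group
          _ = i * w⁻¹ * i * w := by rw [hsq i hi, mul_one]
          _ = i⁻¹ * w⁻¹ * i⁻¹ * w := by rw [hinvI i hi]
          _ = (w⁻¹ * (i * w * i))⁻¹ := by group
    · rw [hinvI j hj]
      calc j * (w⁻¹ * (j * w * j)) * j = j * w⁻¹ * j * w * (j * j) := by group
        _ = j * w⁻¹ * j * w := by rw [hsq j hj, mul_one]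
        _ = j⁻¹ * w⁻¹ * j⁻¹ * w := by rw [hinvI j hj]
        _ = (w⁻¹ * (j * w * j))⁻¹ := by group
  push Not at hsmall
  obtain ⟨b₀, hb₀, hb₀1, hb₀j⟩ := hsmall
  have hj1 : j ≠ 1 := by
    rintro rfl
    obtain ⟨w, -, hwj⟩ := hmove
    simp at hwj
  -- a four subgroup
  have hjb : j * b₀ = b₀ * j := hc j hj b₀ hb₀
  let B : Subgroup S :=
    { carrier := {1, j, b₀, j * b₀}
      one_mem' := by simp
      mul_mem' := by
        have e1 : j * (j * b₀) = b₀ := by rw [← mul_assoc, hsq j hj, one_mul]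
        have e2 : j * b₀ * j = b₀ := by rw [hjb, mul_assoc, hsq j hj, mul_one]
        have e3 : b₀ * (j * b₀) = j := by rw [hjb, ← mul_assoc, hsq b₀ hb₀, one_mul]
        have e4 : j * b₀ * b₀ = j := by rw [mul_assoc, hsq b₀ hb₀, mul_one]
        have e5 : j * b₀ * (j * b₀) = 1 := hsq _ (I.mul_mem hj hb₀)
        rintro a b (ea | ea | ea | ea) (eb | eb | eb | eb)
        all_goals
          rw [ea, eb]
          simp only [Set.mem_insert_iff, Set.mem_singleton_iff, one_mul, mul_one, e1, e2, e3, e4, e5,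
            hsq j hj, hsq b₀ hb₀, ← hjb, true_or, or_true]
      inv_mem' := by
        rintro a (ea | ea | ea | ea)
        all_goals
          rw [ea]
          simp only [Set.mem_insert_iff, Set.mem_singleton_iff, inv_one, hinvI j hj, hinvI b₀ hb₀,
            hinvI _ (I.mul_mem hj hb₀), true_or, or_true] }
  have hBI : B ≤ I := by
    rintro a (ea | ea | ea | ea) <;> rw [ea]
    exacts [I.one_mem, hj, hb₀, I.mul_mem hj hb₀]
  have hB4 : Nat.card B = 2 ^ 2 := by
    classical
    have hne : ({1, j, b₀, j * b₀} : Finset S).card = 4 := by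
      have n1 : b₀ ≠ 1 := hb₀1
      have n2 : b₀ ≠ j := hb₀j
      have n3 : j * b₀ ≠ 1 := fun h => n2 (by rw [← hinvI j hj]; exact eq_inv_of_mul_eq_one_right h)
      have n4 : j * b₀ ≠ j := fun h => n1 (mul_eq_left.1 h)
      have n5 : j * b₀ ≠ b₀ := fun h => hj1 (mul_eq_right.1 h)
      rw [Finset.card_insert_of_notMem, Finset.card_insert_of_notMem, Finset.card_pair n5.symm] <;>
        simp [hj1.symm, n1.symm, n3.symm, n2.symm, n4.symm]
    calc Nat.card B = Nat.card ↥(({1, j, b₀, j * b₀} : Finset S) : Set S) :=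
          Nat.card_congr (Equiv.subtypeEquivRight fun a => by
            show a ∈ ({1, j, b₀, j * b₀} : Set S) ↔ _
            simp)
      _ = 4 := by rw [Nat.card_coe_set_eq, Set.ncard_coe_finset, hne]
      _ = 2 ^ 2 := by norm_num
  have hcop : (Nat.card B).Coprime (Nat.card Y) := by
    rw [hB4]
    exact Nat.Coprime.pow_left 2 (Nat.prime_two.coprime_iff_not_dvd.2 hYodd.not_two_dvd_nat)
  have hgen := Lib.Coprime.fixGen_eq_of_elementary (B := B) (K := Y) Nat.prime_two
    (fun a ha b hb => hc a (hBI ha) b (hBI hb)) (fun a ha => by rw [pow_two]; exact hsq a (hBI ha))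
    hB4 (hBI.trans hN) hcop
  obtain ⟨b, hbB, hb1, y, hy, hyb, hyj⟩ : ∃ b ∈ B, b ≠ 1 ∧ ∃ y ∈ Y, b * y = y * b ∧ j * y * j⁻¹ ≠ y := by
    by_contra hno
    push Not at hno
    obtain ⟨w, hw, hwj⟩ := hmove
    have hle : Lib.Coprime.fixGen B Y ≤ Subgroup.centralizer {j} := by
      refine iSup₂_le fun b hb => fun y hy => Subgroup.mem_centralizer_singleton_iff.2 ?_
      exact (mul_inv_eq_iff_eq_mul.1 (hno b hb.1 hb.2 y hy.1 (Subgroup.mem_centralizer_singleton_iff.1 hy.2).symm)).symm
    rw [hgen] at hle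
    exact hwj (mul_inv_eq_iff_eq_mul.2 (Subgroup.mem_centralizer_singleton_iff.1 (hle hw)).symm)
  have hbI := hBI hbB
  set Y' := Y ⊓ Subgroup.centralizer {b} with hY'
  have hY'N : I ≤ Subgroup.normalizer (Y' : Set S) := by
    intro i hi
    have key : ∀ i ∈ I, ∀ a ∈ Y', i * a * i⁻¹ ∈ Y' := by
      intro i hi a ha
      refine ⟨(Subgroup.mem_normalizer_iff.1 (hN hi) a).1 ha.1, Subgroup.mem_centralizer_singleton_iff.2 ?_⟩
      have e1 : a * b = b * a := Subgroup.mem_centralizer_singleton_iff.1 ha.2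
      have e2 : i⁻¹ * b = b * i⁻¹ := by rw [hinvI i hi]; exact hc i hi b hbI
      calc i * a * i⁻¹ * b = i * a * (b * i⁻¹) := by rw [mul_assoc (i * a), e2]
        _ = i * (b * a) * i⁻¹ := by rw [← e1]; group
        _ = b * (i * a * i⁻¹) := by rw [← mul_assoc i, hc i hi b hbI]; group
    refine Subgroup.mem_normalizer_iff.2 fun a => ⟨key i hi a, fun ha => ?_⟩
    have := key i⁻¹ (I.inv_mem hi) _ ha
    simpa [mul_assoc] using this
  have hy' : y ∈ Y' := ⟨hy, Subgroup.mem_centralizer_singleton_iff.2 hyb.symm⟩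
  by_cases hYY : Y' = Y
  · -- `b` centralises `Y`: pass to a complement
    have hbY : ∀ a ∈ Y, b * a * b⁻¹ = a := fun a ha => by
      rw [← hYY] at ha
      exact mul_inv_eq_iff_eq_mul.2 (Subgroup.mem_centralizer_singleton_iff.1 ha.2).symm
    let : CommGroup I := { (inferInstance : Group I) with mul_comm := fun a c => Subtype.ext (hc a a.2 c c.2) }
    obtain ⟨K, hKI, hKb, hKsup⟩ : ∃ K : Subgroup S, K ≤ I ∧ b ∉ K ∧ ∀ i ∈ I, i ∈ K ∨ i * b ∈ K := by
      obtain ⟨M, hbM, hMmax⟩ := Finite.exists_le_maximal (p := fun M : Subgroup S => M ≤ I ∧ b ∉ M) (a := ⊥)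
        ⟨bot_le, fun h => hb1 (Subgroup.mem_bot.1 h)⟩
      refine ⟨M, hMmax.1.1, hMmax.1.2, fun i hi => ?_⟩
      by_contra hnot
      push Not at hnot
      let M' : Subgroup S :=
        { carrier := {a | a ∈ M ∨ a * i ∈ M} ∩ I
          one_mem' := ⟨Or.inl M.one_mem, I.one_mem⟩
          mul_mem' := by
            rintro a c ⟨ha, haI⟩ ⟨hc', hcI⟩
            refine ⟨?_, I.mul_mem haI hcI⟩
            rcases ha with ha | ha <;> rcases hc' with hc' | hc'
            · exact Or.inl (M.mul_mem ha hc')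
            · exact Or.inr (by rw [mul_assoc]; exact M.mul_mem ha hc')
            · refine Or.inr ?_
              rw [mul_assoc, hc c hcI i hi, ← mul_assoc]
              exact M.mul_mem ha hc'
            · refine Or.inl ?_
              have := M.mul_mem ha hc'
              rwa [show a * i * (c * i) = a * c by
                rw [hc c hcI i hi, mul_assoc, ← mul_assoc i, hsq i hi, one_mul]] at this
          inv_mem' := by
            rintro a ⟨ha, haI⟩
            rw [hinvI a haI]
            exact ⟨ha, haI⟩ }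
      have hlt : M ≤ M' := fun a ha => ⟨Or.inl ha, hMmax.1.1 ha⟩
      have hiM : i ∈ M' := ⟨Or.inr (by rw [hsq i hi]; exact M.one_mem), hi⟩
      have := hMmax.2 (y := M') ⟨fun a ha => ha.2, fun h => h.1.elim hMmax.1.2 fun h' => hnot.2 (by rwa [hc i hi b hbI])⟩ hlt
      exact hnot.1 (this hiM)
    obtain ⟨j', hj'K, hj'⟩ : ∃ j' ∈ K, ∀ a ∈ Y, j' * a * j'⁻¹ = j * a * j⁻¹ := by
      rcases hKsup j hj with h | h
      · exact ⟨j, h, fun a _ => rfl⟩
      · refine ⟨j * b, h, fun a ha => ?_⟩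
        calc j * b * a * (j * b)⁻¹ = j * (b * a * b⁻¹) * j⁻¹ := by group
          _ = _ := by rw [hbY a ha]
    have hlt : Nat.card K < Nat.card I := by
      refine lt_of_le_of_ne (Subgroup.card_le_of_le hKI) fun h => hKb ?_
      rw [Subgroup.eq_of_le_of_card_ge hKI h.ge]
      exact hbI
    obtain ⟨u, hu, hu1, huK, huj⟩ := ih (Nat.card K + Nat.card Y) (by omega) K Y le_rfl
      (fun a ha c hc' => hc a (hKI ha) c (hKI hc')) (fun a ha => hsq a (hKI ha)) (hKI.trans hN) hYF j' hj'K
      ⟨y, hy, by rw [hj' y hy]; exact hyj⟩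
    refine ⟨u, hu, hu1, fun i hi => ?_, by rw [← hj' u hu]; exact huj⟩
    rcases hKsup i hi with h | h
    · exact huK i h
    · have h2 := huK _ h
      rwa [show i * b * u * (i * b)⁻¹ = i * u * i⁻¹ by
        rw [show i * b * u * (i * b)⁻¹ = i * (b * u * b⁻¹) * i⁻¹ by group, hbY u hu]] at h2
  · have hlt : Nat.card Y' < Nat.card Y := by
      refine lt_of_le_of_ne (Subgroup.card_le_of_le inf_le_left) fun h => hYY ?_
      exact Subgroup.eq_of_le_of_card_ge inf_le_left h.ge
    obtain ⟨u, hu, hu1, huI, huj⟩ := ih (Nat.card I + Nat.card Y') (by omega) I Y' le_rfl hc hsq hY'N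
      (inf_le_left.trans hYF) j hj ⟨y, hy', hyj⟩
    exact ⟨u, hu.1, hu1, huI, huj⟩

/-- An involution centralising a subgroup of a nilpotent group of odd order and its centraliser. -/
theorem centralizes_of_centralizes {S : Type*} [Group S] [Finite S] {F : Subgroup S} [F.Normal]
    (hFodd : Odd (Nat.card F)) (hnil : Group.IsNilpotent F) {t : S} (ht : t * t = 1) (A : Set S) (hA : A ⊆ F)
    (htA : ∀ a ∈ A, t * a = a * t) (htC : ∀ c ∈ F, (∀ a ∈ A, c * a = a * c) → t * c = c * t) :
    ∀ f ∈ F, t * f = f * t := by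
  have hti : t⁻¹ = t := inv_eq_of_mul_eq_one_right ht
  set N := (Subgroup.centralizer {t}).subgroupOf F with hN
  suffices N = ⊤ from fun f hf =>
    (Subgroup.mem_centralizer_singleton_iff.1 (this ▸ Subgroup.mem_top (⟨f, hf⟩ : F) : (⟨f, hf⟩ : F) ∈ N)).symm
  by_contra hne
  haveI := hnil
  obtain ⟨g, hg, hgN⟩ := SetLike.exists_of_lt (Group.normalizerCondition_of_isNilpotent (G := F) N (Ne.lt_top hne))
  refine hgN ?_
  set u : S := (g : S)⁻¹ * t * g * t with hu
  have huF : u ∈ F := by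
    have : t * (g : S) * t ∈ F := by
      have := (inferInstance : F.Normal).conj_mem _ g.2 t
      rwa [hti] at this
    rw [hu, show (g : S)⁻¹ * t * g * t = (g : S)⁻¹ * (t * g * t) by group]
    exact F.mul_mem (F.inv_mem g.2) this
  have huA : ∀ a ∈ A, u * a = a * u := by
    intro a ha
    have ha' : (⟨a, hA ha⟩ : F) ∈ N := Subgroup.mem_subgroupOf.2 (Subgroup.mem_centralizer_singleton_iff.2 (htA a ha).symm)
    have hga : g * ⟨a, hA ha⟩ * g⁻¹ ∈ N := (Subgroup.mem_normalizer_iff.1 hg _).1 ha'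
    have e1 : (g : S) * a * (g : S)⁻¹ * t = t * ((g : S) * a * (g : S)⁻¹) := Subgroup.mem_centralizer_singleton_iff.1 hga
    have e0 := htA a ha
    calc u * a = (g : S)⁻¹ * t * g * (t * a) := by rw [hu]; group
      _ = (g : S)⁻¹ * t * g * (a * t) := by rw [e0]
      _ = (g : S)⁻¹ * (t * ((g : S) * a * (g : S)⁻¹)) * g * t := by group
      _ = (g : S)⁻¹ * ((g : S) * a * (g : S)⁻¹ * t) * g * t := by rw [e1]
      _ = a * u := by rw [hu]; group
  have htu := htC u huF huA
  have hinv : t * u * t = u⁻¹ := by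
    rw [hu]
    calc t * ((g : S)⁻¹ * t * g * t) * t = t * (g : S)⁻¹ * t * g * (t * t) := by group
      _ = t * (g : S)⁻¹ * t * g := by rw [ht, mul_one]
      _ = _ := by rw [mul_inv_rev, mul_inv_rev, mul_inv_rev, inv_inv, hti]; group
  have hu2 : u * u = 1 := by
    rw [htu, mul_assoc, ht, mul_one] at hinv
    nth_rewrite 2 [hinv]
    exact mul_inv_cancel u
  have hu1 := eq_one_of_odd hFodd huF hu2
  refine Subgroup.mem_subgroupOf.2 (Subgroup.mem_centralizer_singleton_iff.2 ?_)
  calc (g : S) * t = t * (g : S) * ((g : S)⁻¹ * t * g * t) := by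
        rw [show t * (g : S) * ((g : S)⁻¹ * t * g * t) = t * t * g * t by group, ht, one_mul]
    _ = t * g := by rw [← hu, hu1, mul_one]


/-- Let S be a finite solvable group whose Fitting subgroup F(S) has odd order, and let I be an elementary abelian 2-subgroup of S of order 2ⁿ with n ≥ 1. Then F(S) contains subgroups A₁, …, Aₙ of prime order, each normalized by I, pairwise commuting and generating a subgroup A of order |A₁|⋯|Aₙ| (their internal direct product), such that no non-identity element of I centralizes A. -/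
theorem result {S : Type*} [Group S] [Finite S]
    [Group.IsSolvable S] (hF : Odd (Nat.card ↥(Cfsg.fittingSubgroup S)))
    (I : Subgroup S) (hI : Cfsg.IsElementaryAbelian 2 I) (n : ℕ) (hn : 1 ≤ n) (hIn : Nat.card ↥I = 2 ^ n) :
    ∃ f : Fin n → Subgroup S, (∀ i, (Nat.card ↥(f i)).Prime) ∧ (∀ i, f i ≤ Cfsg.fittingSubgroup S) ∧
      (∀ i, I ≤ Subgroup.normalizer ((f i) : Set S)) ∧ (∀ i j, i ≠ j → ∀ a ∈ f i, ∀ b ∈ f j, a * b = b * a) ∧
      Nat.card ↥(⨆ i, f i) = ∏ i, Nat.card ↥(f i) ∧ I ⊓ Subgroup.centralizer ((⨆ i, f i : Subgroup S) : Set S) = ⊥ := by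
  classical
  set F := Cfsg.fittingSubgroup S with hFdef
  have hnil : Group.IsNilpotent F := Lib.Hall.fittingSubgroup_isNilpotent
  obtain ⟨hcI, hsqI⟩ := hI
  have hc : ∀ a ∈ I, ∀ b ∈ I, a * b = b * a := fun a ha b hb =>
    congrArg Subtype.val (hcI.is_comm.comm ⟨a, ha⟩ ⟨b, hb⟩)
  have hsq : ∀ a ∈ I, a * a = 1 := fun a ha => by rw [← pow_two]; exact hsqI a ha
  have main : ∀ m ≤ n, ∃ f : Fin m → S, (∀ i, f i ∈ F ∧ (orderOf (f i)).Prime) ∧
      (∀ i, ∀ x ∈ I, x * f i * x⁻¹ = f i ∨ x * f i * x⁻¹ = (f i)⁻¹) ∧ (∀ i k, f i * f k = f k * f i) ∧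
      Nat.card ↥(⨆ i, Subgroup.zpowers (f i)) = ∏ i, orderOf (f i) ∧
      Nat.card ↥(I ⊓ Subgroup.centralizer (Set.range f)) * 2 ^ m = 2 ^ n := by
    intro m
    induction m with
    | zero =>
      intro _
      refine ⟨Fin.elim0, fun i => i.elim0, fun i => i.elim0, fun i => i.elim0, ?_, ?_⟩
      · simp
      · rw [show (Set.range (Fin.elim0 : Fin 0 → S)) = ∅ from Set.range_eq_empty _,
          show Subgroup.centralizer (∅ : Set S) = ⊤ from by ext x; simp [Subgroup.mem_centralizer_iff],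
          inf_top_eq, hIn, pow_zero, mul_one]
    | succ m ih =>
      intro hm
      obtain ⟨f, hf1, hf2, hf3, hf4, hf5⟩ := ih (by omega)
      set J := I ⊓ Subgroup.centralizer (Set.range f) with hJ
      have hJ1 : 1 < Nat.card J := by
        by_contra h
        have h2 : 2 ^ n ≤ 2 ^ m := by
          rw [← hf5]
          calc Nat.card J * 2 ^ m ≤ 1 * 2 ^ m := Nat.mul_le_mul_right _ (by omega)
            _ = 2 ^ m := one_mul _
        have := (Nat.pow_le_pow_iff_right (by norm_num : 1 < 2)).1 h2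
        omega
      set Y := F ⊓ Subgroup.centralizer (Set.range f) with hY
      have hYN : I ≤ Subgroup.normalizer (Y : Set S) := by
        intro x hx
        have key : ∀ x ∈ I, ∀ a ∈ Y, x * a * x⁻¹ ∈ Y := by
          intro x hx a ha
          refine ⟨(inferInstance : F.Normal).conj_mem a ha.1 x, Subgroup.mem_centralizer_iff.2 ?_⟩
          rintro _ ⟨i, rfl⟩
          have hxi := hf2 i x⁻¹ (I.inv_mem hx)
          rw [inv_inv] at hxi
          have h1 : (x⁻¹ * f i * x) * a = a * (x⁻¹ * f i * x) := by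
            rcases hxi with e | e <;> rw [e]
            · exact Subgroup.mem_centralizer_iff.1 ha.2 _ ⟨i, rfl⟩
            · exact (Commute.inv_left (Subgroup.mem_centralizer_iff.1 ha.2 _ ⟨i, rfl⟩)).eq
          calc f i * (x * a * x⁻¹) = x * ((x⁻¹ * f i * x) * a) * x⁻¹ := by group
            _ = x * (a * (x⁻¹ * f i * x)) * x⁻¹ := by rw [h1]
            _ = _ := by group
        refine Subgroup.mem_normalizer_iff.2 fun a => ⟨key x hx a, fun ha => ?_⟩
        have := key x⁻¹ (I.inv_mem hx) _ ha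
        simpa [mul_assoc] using this
      obtain ⟨j, hjJ, hj1⟩ : ∃ j ∈ J, j ≠ 1 := by
        haveI := Finite.one_lt_card_iff_nontrivial.1 hJ1
        obtain ⟨j, hj⟩ := exists_ne (1 : J)
        exact ⟨j, j.2, fun h => hj (Subtype.ext h)⟩
      have hmove : ∃ y ∈ Y, j * y * j⁻¹ ≠ y := by
        by_contra hno
        push Not at hno
        refine hj1 ?_
        have hcent := centralizes_of_centralizes hF hnil (hsq j hjJ.1) (Set.range f)
          (by rintro _ ⟨i, rfl⟩; exact (hf1 i).1)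
          (fun a ha => (Subgroup.mem_centralizer_iff.1 hjJ.2 a ha).symm)
          (fun c hcF hcA => mul_inv_eq_iff_eq_mul.1 (hno c ⟨hcF, Subgroup.mem_centralizer_iff.2 fun a ha => (hcA a ha).symm⟩))
        have hjF : j ∈ F := Lib.Hall.centralizer_fittingSubgroup_le
          (Subgroup.mem_centralizer_iff.2 fun a ha => (hcent a ha).symm)
        exact eq_one_of_odd hF hjF (hsq j hjJ.1)
      obtain ⟨u, huY, hu1, huI, huj⟩ := exists_eigen hF _ I Y le_rfl hc hsq hYN inf_le_left j hjJ.1 hmove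
      obtain ⟨p, hp, hpd⟩ := Nat.exists_prime_and_dvd (fun h => hu1 (orderOf_eq_one_iff.1 h))
      set a := u ^ (orderOf u / p) with ha
      have hao : orderOf a = p := by
        rw [ha, orderOf_pow_of_dvd (Nat.div_pos (Nat.le_of_dvd (orderOf_pos u) hpd) hp.pos).ne' (Nat.div_dvd_of_dvd hpd),
          Nat.div_div_self hpd (orderOf_pos u).ne']
      have haY : a ∈ Y := Y.pow_mem huY _
      have haI : ∀ x ∈ I, x * a * x⁻¹ = a ∨ x * a * x⁻¹ = a⁻¹ := fun x hx => by
        rw [ha, ← conj_pow, ← inv_pow]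
        rcases huI x hx with e | e <;> rw [e]
        · exact Or.inl rfl
        · exact Or.inr rfl
      have haj : j * a * j⁻¹ = a⁻¹ := by rw [ha, ← conj_pow, huj, inv_pow]
      have hane : a ≠ a⁻¹ := fun h => by
        have h2 : a * a = 1 := by
          nth_rewrite 2 [h]
          exact mul_inv_cancel a
        have := eq_one_of_odd hF haY.1 h2
        rw [this, orderOf_one] at hao
        exact hp.ne_one hao.symm
      have hfa : ∀ i, f i * a = a * f i := fun i => Subgroup.mem_centralizer_iff.1 haY.2 _ ⟨i, rfl⟩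
      set A := ⨆ i, Subgroup.zpowers (f i) with hA
      have hjA : A ≤ Subgroup.centralizer {j} := iSup_le fun i => Subgroup.zpowers_le.2
        (Subgroup.mem_centralizer_singleton_iff.2 (Subgroup.mem_centralizer_iff.1 hjJ.2 _ ⟨i, rfl⟩))
      have haA : A ⊓ Subgroup.zpowers a = ⊥ := by
        refine le_bot_iff.1 fun x hx => Subgroup.mem_bot.2 ?_
        obtain ⟨k, rfl⟩ := Subgroup.mem_zpowers_iff.1 hx.2
        have h1 : a ^ k * j = j * a ^ k := Subgroup.mem_centralizer_singleton_iff.1 (hjA hx.1)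
        have h2 : a ^ k = (a ^ k)⁻¹ := by
          calc a ^ k = j * a ^ k * j⁻¹ := by rw [← h1, mul_inv_cancel_right]
            _ = (j * a * j⁻¹) ^ k := by rw [conj_zpow]
            _ = _ := by rw [haj, inv_zpow]
        refine eq_one_of_odd hF (Y.zpow_mem haY k).1 ?_
        nth_rewrite 2 [h2]
        exact mul_inv_cancel _
      have hnorm : Subgroup.zpowers a ≤ Subgroup.normalizer (A : Set S) :=
        Subgroup.zpowers_le.2 (Subgroup.centralizer_le_normalizer _ (Subgroup.mem_centralizer_iff.2 fun x hx =>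
          (Subgroup.mem_centralizer_singleton_iff.1
            ((iSup_le fun i => Subgroup.zpowers_le.2 (Subgroup.mem_centralizer_singleton_iff.2 (hfa i)) :
              A ≤ Subgroup.centralizer {a}) hx))))
      refine ⟨Fin.snoc f a, ?_, ?_, ?_, ?_, ?_⟩
      · intro i
        refine Fin.lastCases ?_ (fun i => ?_) i
        · rw [Fin.snoc_last]; exact ⟨haY.1, hao ▸ hp⟩
        · rw [Fin.snoc_castSucc]; exact hf1 i
      · intro i
        refine Fin.lastCases ?_ (fun i => ?_) i
        · rw [Fin.snoc_last]; exact haI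
        · rw [Fin.snoc_castSucc]; exact hf2 i
      · intro i k
        refine Fin.lastCases ?_ (fun i => ?_) i <;> refine Fin.lastCases ?_ (fun k => ?_) k
        · rfl
        · rw [Fin.snoc_last, Fin.snoc_castSucc]; exact (hfa k).symm
        · rw [Fin.snoc_last, Fin.snoc_castSucc]; exact hfa i
        · rw [Fin.snoc_castSucc, Fin.snoc_castSucc]; exact hf3 i k
      · have e : (⨆ i, Subgroup.zpowers ((Fin.snoc f a : Fin (m + 1) → S) i)) = Subgroup.zpowers a ⊔ A := by
          refine le_antisymm (iSup_le fun i => ?_) (sup_le ?_ (iSup_le fun i => ?_))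
          · refine Fin.lastCases ?_ (fun i => ?_) i
            · rw [Fin.snoc_last]; exact le_sup_left
            · rw [Fin.snoc_castSucc]; exact (le_iSup (fun i => Subgroup.zpowers (f i)) i).trans le_sup_right
          · refine le_iSup_of_le (Fin.last m) ?_
            rw [Fin.snoc_last]
          · refine le_iSup_of_le i.castSucc ?_
            rw [Fin.snoc_castSucc]
        have h1 := Lib.Coprime.card_sup_mul_card_inf_of_le_normalizer hnorm
        rw [inf_comm, haA, Subgroup.card_bot, mul_one, Nat.card_zpowers, hf4] at h1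
        rw [e, h1, Fin.prod_univ_castSucc]
        simp [mul_comm]
      · set J' := I ⊓ Subgroup.centralizer (Set.range (Fin.snoc f a : Fin (m + 1) → S)) with hJ'
        have hrange : ∀ x, x ∈ Subgroup.centralizer (Set.range (Fin.snoc f a : Fin (m + 1) → S)) ↔
            x ∈ Subgroup.centralizer (Set.range f) ∧ x * a * x⁻¹ = a := by
          intro x
          rw [Subgroup.mem_centralizer_iff, Subgroup.mem_centralizer_iff, mul_inv_eq_iff_eq_mul]
          constructor
          · intro h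
            refine ⟨?_, ?_⟩
            · rintro _ ⟨i, rfl⟩
              exact h _ ⟨i.castSucc, Fin.snoc_castSucc _ _ _⟩
            · exact (h _ ⟨Fin.last m, Fin.snoc_last _ _⟩).symm
          · rintro ⟨h1, h2⟩ _ ⟨i, rfl⟩
            refine Fin.lastCases ?_ (fun i => ?_) i
            · rw [Fin.snoc_last]; exact h2.symm
            · rw [Fin.snoc_castSucc]; exact h1 _ ⟨i, rfl⟩
        have hJJ : J' ≤ J := fun x hx => ⟨hx.1, ((hrange x).1 hx.2).1⟩
        have h2 : (J'.subgroupOf J).index = 2 := by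
          rw [Subgroup.index_eq_two_iff]
          refine ⟨⟨j, hjJ⟩, fun x => ?_⟩
          simp only [Subgroup.mem_subgroupOf, Subgroup.coe_mul, hJ', Subgroup.mem_inf, hrange]
          have hxj : (x : S) * j * a * ((x : S) * j)⁻¹ = ((x : S) * a * (x : S)⁻¹)⁻¹ := by
            rw [show (x : S) * j * a * ((x : S) * j)⁻¹ = (x : S) * (j * a * j⁻¹) * (x : S)⁻¹ by group, haj]
            group
          rcases haI x x.2.1 with e | e
          · refine Or.inr ⟨⟨x.2.1, x.2.2, e⟩, fun h => hane ?_⟩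
            have h3 := h.2.2
            rw [hxj, e] at h3
            exact h3.symm
          · refine Or.inl ⟨⟨I.mul_mem x.2.1 hjJ.1, Subgroup.mul_mem _ x.2.2 hjJ.2, ?_⟩, fun h => hane ?_⟩
            · rw [hxj, e, inv_inv]
            · exact h.2.2.symm.trans e
        have h3 := Subgroup.card_mul_index (J'.subgroupOf J)
        rw [h2, Nat.card_congr (Subgroup.subgroupOfEquivOfLe hJJ).toEquiv] at h3
        rw [pow_succ, ← hf5, ← h3]
        ring
  obtain ⟨f, hf1, hf2, hf3, hf4, hf5⟩ := main n le_rfl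
  refine ⟨fun i => Subgroup.zpowers (f i), fun i => ?_, fun i => Subgroup.zpowers_le.2 (hf1 i).1, fun i => ?_, ?_, ?_, ?_⟩
  · rw [Nat.card_zpowers]; exact (hf1 i).2
  · intro x hx
    refine Subgroup.mem_normalizer_iff_map_conj_eq.2 ?_
    rw [MonoidHom.map_zpowers]
    show Subgroup.zpowers (x * f i * x⁻¹) = _
    rcases hf2 i x hx with e | e <;> rw [e]
    rw [Subgroup.zpowers_inv]
  · intro i k _ a ha b hb
    obtain ⟨r, rfl⟩ := Subgroup.mem_zpowers_iff.1 ha
    obtain ⟨s, rfl⟩ := Subgroup.mem_zpowers_iff.1 hb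
    exact ((show Commute (f i) (f k) from hf3 i k).zpow_zpow r s).eq
  · rw [hf4]; simp [Nat.card_zpowers]
  · have h1 : Nat.card ↥(I ⊓ Subgroup.centralizer (Set.range f)) = 1 := by
      have := Nat.eq_of_mul_eq_mul_right (Nat.two_pow_pos n) (hf5.trans (one_mul _).symm)
      exact this
    rw [Subgroup.card_eq_one] at h1
    refine le_bot_iff.1 (h1 ▸ inf_le_inf_left I (Subgroup.centralizer_le ?_))
    rintro _ ⟨i, rfl⟩
    exact (le_iSup (fun i => Subgroup.zpowers (f i)) i) (Subgroup.mem_zpowers _)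

end Cfsg.Agent.S4408
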