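import Cfsg.Statements.S4409
import Cfsg.Agent.Lib.Coprime.Action
import Cfsg.Agent.Lib.Coprime.Abelian
import Cfsg.Agent.Lib.Hall.Solvable
import Cfsg.Agent.Lib.Components.Basic
import Cfsg.Agent.Lib.PGroupFrattini
import Cfsg.Agent.Lib.Involution.DihedralHom

set_option autoImplicit false
open Cfsg

namespace Cfsg.Agent.S4409

open Subgroup Cfsg.Agent.Lib
open scoped commutatorElement

variable {G : Type*} [Group G]

theorem exists_ne_one_of_one_lt' [Finite G] (H : Subgroup G) (h : 1 < Nat.card H) :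
    ∃ a : H, a ≠ 1 := by
  haveI : Nontrivial H := Finite.one_lt_card_iff_nontrivial.1 h
  exact exists_ne 1

/-- `R` contains a noncyclic abelian subgroup of order at least 8, witnessed by a four-group and a
further element commuting with it. -/
def Bad (R : Subgroup G) : Prop :=
  ∃ u v c : G, u ∈ R ∧ v ∈ R ∧ c ∈ R ∧ u ≠ 1 ∧ v ≠ 1 ∧ u ≠ v ∧ u * u = 1 ∧ v * v = 1 ∧
    u * v = v * u ∧ u * c = c * u ∧ v * c = c * v ∧ c ≠ 1 ∧ c ≠ u ∧ c ≠ v ∧ c ≠ u * v

theorem Bad.mono {R R' : Subgroup G} (h : Bad R) (hle : R ≤ R') : Bad R' := by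
  obtain ⟨u, v, c, hu, hv, hc, r⟩ := h
  exact ⟨u, v, c, hle hu, hle hv, hle hc, r⟩

theorem k1 {R : Subgroup G} (h : ¬ Bad R) {u v c : G} (hu : u ∈ R) (hv : v ∈ R) (hc : c ∈ R)
    (hu1 : u ≠ 1) (hv1 : v ≠ 1) (huv : u ≠ v) (hu2 : u * u = 1) (hv2 : v * v = 1)
    (c1 : u * v = v * u) (c2 : u * c = c * u) (c3 : v * c = c * v) :
    c = 1 ∨ c = u ∨ c = v ∨ c = u * v := by
  by_contra! hne
  exact h ⟨u, v, c, hu, hv, hc, hu1, hv1, huv, hu2, hv2, c1, c2, c3, hne.1, hne.2.1, hne.2.2.1, hne.2.2.2⟩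

theorem k2 {R : Subgroup G} (h : ¬ Bad R) {i c : G} (hi : i ∈ R) (hc : c ∈ R) (hi1 : i * i ≠ 1)
    (hi4 : (i * i) * (i * i) = 1) (hci : i * c = c * i) (hc2 : c * c = 1 ∨ c * c = i * i) :
    c ∈ zpowers i := by
  have hz : Commute (i * i) c := (show Commute i c from hci).mul_left hci
  have hiim : i * i ∈ zpowers i := mul_mem (mem_zpowers i) (mem_zpowers i)
  have h4 : i * (i * i) * i = 1 := by rw [← hi4]; group
  have case1 : ∀ d ∈ R, i * d = d * i → d * d = 1 → d ∈ zpowers i := by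
    intro d hd hdi hd2
    have hzd : Commute (i * i) d := (show Commute i d from hdi).mul_left hdi
    by_cases h1 : d = 1
    · exact h1 ▸ one_mem _
    by_cases h2 : d = i * i
    · exact h2 ▸ hiim
    rcases k1 h (mul_mem hi hi) hd hi hi1 h1 (Ne.symm h2) hi4 hd2 hzd.eq (mul_assoc i i i) hdi.symm
      with e | e | e | e
    · exact absurd (by rw [e, one_mul]) hi1
    · exact absurd (by rw [mul_left_cancel (e.symm.trans (mul_one i).symm), one_mul]) hi1
    · exact e ▸ mem_zpowers i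
    · have : d = (i * i)⁻¹ * i := eq_inv_mul_of_mul_eq e.symm
      rw [this]; exact mul_mem (inv_mem hiim) (mem_zpowers i)
  rcases hc2 with e | e
  · exact case1 c hc hci e
  · have hd : i * c ∈ zpowers i := case1 (i * c) (mul_mem hi hc)
      (by rw [hci, ← mul_assoc, hci]) (by
        calc (i * c) * (i * c) = i * (c * i) * c := by group
          _ = (i * i) * (c * c) := by rw [← hci]; group
          _ = 1 := by rw [e, hi4])
    have := mul_mem (inv_mem (mem_zpowers i)) hd
    rwa [inv_mul_cancel_left] at this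

theorem two_pow_le_of_lt {R : Subgroup G} [Finite G] (hR : IsPGroup 2 R) {m : ℕ}
    (h : 2 ^ m < Nat.card R) : 2 ^ (m + 1) ≤ Nat.card R := by
  obtain ⟨n, hn⟩ := IsPGroup.iff_card.1 hR
  rw [hn] at h ⊢
  exact Nat.pow_le_pow_right (by norm_num) ((Nat.pow_lt_pow_iff_right (by norm_num)).1 h)

/-- A bad subgroup contains a noncyclic abelian subgroup of order 8. -/
theorem Bad.exists_eight [Finite G] {R : Subgroup G} (hR : IsPGroup 2 R) (h : Bad R) :
    ∃ A : Subgroup G, A ≤ R ∧ IsMulCommutative A ∧ ¬ IsCyclic A ∧ Nat.card A = 8 := by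
  haveI := Fact.mk Nat.prime_two
  obtain ⟨u, v, c, hu, hv, hc, hu1, hv1, huv, hu2, hv2, c1, c2, c3, n1, n2, n3, n4⟩ := h
  have huv' : v * u = u * v := c1.symm
  have f1 : u * (u * v) = v := by rw [← mul_assoc, hu2, one_mul]
  have f2 : v * (u * v) = u := by rw [← mul_assoc, huv', mul_assoc, hv2, mul_one]
  have f3 : u * v * u = v := by rw [mul_assoc, huv', f1]
  have f4 : u * v * v = u := by rw [mul_assoc, hv2, mul_one]
  have f5 : u * v * (u * v) = 1 := by rw [← mul_assoc, f3, hv2]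
  let V : Subgroup G :=
    { carrier := {1, u, v, u * v}
      one_mem' := by simp
      mul_mem' := by
        rintro a b (rfl | rfl | rfl | rfl) (rfl | rfl | rfl | rfl) <;>
          simp [hu2, hv2, huv', f1, f2, f3, f4, f5]
      inv_mem' := by
        have e1 : u⁻¹ = u := inv_eq_of_mul_eq_one_right hu2
        have e2 : v⁻¹ = v := inv_eq_of_mul_eq_one_right hv2
        rintro a (rfl | rfl | rfl | rfl) <;> simp [e1, e2, huv'] }
  have hmV : ∀ x, x ∈ V ↔ x = 1 ∨ x = u ∨ x = v ∨ x = u * v := fun x => Iff.rfl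
  have hVR : V ≤ R := fun x hx => by
    rcases (hmV x).1 hx with rfl | rfl | rfl | rfl
    exacts [one_mem _, hu, hv, mul_mem hu hv]
  have hV4 : Nat.card V = 4 := by
    have h1 : u * v ≠ 1 := fun e => huv (by rw [eq_inv_of_mul_eq_one_left e, inv_eq_of_mul_eq_one_right hv2])
    have h2 : u * v ≠ u := fun e => hv1 (mul_eq_left.1 e)
    have h3 : u * v ≠ v := fun e => hu1 (mul_eq_right.1 e)
    rw [show Nat.card V = ({1, u, v, u * v} : Set G).ncard from Nat.card_coe_set_eq _,
      Set.ncard_eq_succ]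
    exact ⟨1, {u, v, u * v}, by simp [hu1.symm, hv1.symm, h1.symm], rfl,
      Set.ncard_eq_three.2 ⟨u, v, u * v, huv, h2.symm, h3.symm, rfl⟩⟩
  set A₀ := V ⊔ zpowers c with hA₀
  have hVc : V ≤ centralizer {c} := fun x hx => by
    rw [mem_centralizer_singleton_iff]
    rcases (hmV x).1 hx with rfl | rfl | rfl | rfl
    · simp
    · exact c2
    · exact c3
    · rw [mul_assoc, c3, ← mul_assoc, c2, mul_assoc]
  have hA₀c : A₀ ≤ centralizer (A₀ : Set G) := by
    have hVV : V ≤ centralizer (V : Set G) := fun x hx => mem_centralizer_iff.2 fun y hy => by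
      rcases (hmV x).1 hx with rfl | rfl | rfl | rfl <;>
        rcases (hmV y).1 hy with rfl | rfl | rfl | rfl <;>
        simp [hu2, hv2, huv', f1, f2, f3, f4, f5]
    have hcA : A₀ ≤ centralizer {c} := sup_le hVc (zpowers_le.2 (mem_centralizer_singleton_iff.2 rfl))
    refine sup_le (fun x hx => ?_) (zpowers_le.2 ?_)
    · have : A₀ ≤ centralizer {x} := sup_le
        (fun y hy => mem_centralizer_singleton_iff.2 (mem_centralizer_iff.1 (hVV hx) y hy))
        (zpowers_le.2 (mem_centralizer_singleton_iff.2 (mem_centralizer_singleton_iff.1 (hVc hx)).symm))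
      exact mem_centralizer_iff.2 fun y hy => mem_centralizer_singleton_iff.1 (this hy)
    · exact mem_centralizer_iff.2 fun y hy => mem_centralizer_singleton_iff.1 (hcA hy)
  haveI hcomm : IsMulCommutative A₀ := Subgroup.le_centralizer_iff_isMulCommutative.1 hA₀c
  have hA₀R : A₀ ≤ R := sup_le hVR (zpowers_le.2 hc)
  have hA₀p : IsPGroup 2 A₀ := hR.to_le hA₀R
  have hlt : 2 ^ 2 < Nat.card A₀ := by
    by_contra! hle
    have heq : V = A₀ := Subgroup.eq_of_le_of_card_ge le_sup_left (hle.trans (by rw [hV4]; norm_num))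
    rcases (hmV c).1 (heq ▸ mem_sup_right (mem_zpowers c) : c ∈ V) with e | e | e | e
    exacts [n1 e, n2 e, n3 e, n4 e]
  have h8 : 2 ^ (2 + 1) ∣ Nat.card A₀ := by
    obtain ⟨n, hn⟩ := IsPGroup.iff_card.1 hA₀p
    rw [hn] at hlt ⊢
    exact pow_dvd_pow 2 ((Nat.pow_lt_pow_iff_right (by norm_num)).1 hlt)
  obtain ⟨K, hK, hVK⟩ := Sylow.exists_subgroup_card_pow_succ (G := A₀) h8
    (show Nat.card (V.subgroupOf A₀) = 2 ^ 2 by rw [Coprime.card_subgroupOf le_sup_left, hV4]; norm_num)
  refine ⟨K.map A₀.subtype, (map_subtype_le _).trans hA₀R, ?_, fun hcyc => ?_, ?_⟩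
  · refine Subgroup.le_centralizer_iff_isMulCommutative.1 ?_
    exact (map_subtype_le _).trans (hA₀c.trans (centralizer_le (SetLike.coe_subset_coe.2 (map_subtype_le _))))
  · haveI := hcyc
    have hVK' : V ≤ K.map A₀.subtype := by
      have := map_mono (f := A₀.subtype) hVK
      rwa [map_subgroupOf_eq_of_le le_sup_left] at this
    haveI : IsCyclic V := isCyclic_of_injective (inclusion hVK') (inclusion_injective hVK')
    obtain ⟨⟨g, hg⟩, hgen⟩ := IsCyclic.exists_generator (α := V)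
    have hg2 : g * g = 1 := by
      rcases (hmV g).1 hg with rfl | rfl | rfl | rfl
      · exact one_mul 1
      · exact hu2
      · exact hv2
      · calc u * v * (u * v) = u * (v * u) * v := by group
          _ = (u * u) * (v * v) := by rw [huv']; group
          _ = 1 := by rw [hu2, hv2, one_mul]
    have hle : orderOf (⟨g, hg⟩ : V) ≤ 2 :=
      orderOf_le_of_pow_eq_one (by norm_num) (Subtype.ext (by simp [pow_two, hg2]))
    rw [orderOf_eq_card_of_forall_mem_zpowers hgen, hV4] at hle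
    norm_num at hle
  · rw [← Nat.card_congr (K.equivMapOfInjective _ A₀.subtype_injective).toEquiv, hK]; norm_num

/-- Conversely. -/
theorem bad_of_eight [Finite G] {R A : Subgroup G} (hAR : A ≤ R) (hAc : IsMulCommutative A)
    (hcyc : ¬ IsCyclic A) (hA : Nat.card A = 8) : Bad R := by
  haveI := hAc
  obtain ⟨r, B, hr, hBA, hexp, hB⟩ := Coprime.exists_elementary_sq hcyc
  have hr2 : r = 2 := by
    have h1 : r ∣ 2 ^ 3 := by
      rw [show (2 : ℕ) ^ 3 = 8 by norm_num, ← hA]
      exact (dvd_pow_self r two_ne_zero).trans (hB ▸ Subgroup.card_dvd_of_le hBA)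
    exact (Nat.prime_dvd_prime_iff_eq hr Nat.prime_two).1 (hr.dvd_of_dvd_pow h1)
  subst hr2
  have hAcm : ∀ a ∈ A, ∀ b ∈ A, a * b = b * a := fun a ha b hb =>
    congrArg Subtype.val (hAc.is_comm.comm (⟨a, ha⟩ : A) ⟨b, hb⟩)
  obtain ⟨⟨u, huB⟩, hu1⟩ := exists_ne_one_of_one_lt' B (by rw [hB]; norm_num)
  obtain ⟨v, hvB, hvu⟩ : ∃ v ∈ B, v ∉ ({1, u} : Set G) := by
    refine Set.exists_mem_notMem_of_ncard_lt_ncard ?_ (Set.toFinite _)
    rw [← Nat.card_coe_set_eq (B : Set G)]
    calc ({1, u} : Set G).ncard ≤ 2 := (Set.ncard_insert_le _ _).trans (by simp)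
      _ < _ := by rw [SetLike.coe_sort_coe, hB]; norm_num
  simp only [Set.mem_insert_iff, Set.mem_singleton_iff, not_or] at hvu
  have hu1' : u ≠ 1 := fun e => hu1 (Subtype.ext e)
  obtain ⟨c, hcA, hcn⟩ : ∃ c ∈ A, c ∉ ({1, u, v, u * v} : Set G) := by
    refine Set.exists_mem_notMem_of_ncard_lt_ncard ?_ (Set.toFinite _)
    rw [← Nat.card_coe_set_eq (A : Set G)]
    calc ({1, u, v, u * v} : Set G).ncard ≤ 4 := by
          refine (Set.ncard_insert_le _ _).trans ?_
          refine Nat.succ_le_succ ((Set.ncard_insert_le _ _).trans ?_)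
          exact Nat.succ_le_succ ((Set.ncard_insert_le _ _).trans (by simp))
      _ < _ := by rw [SetLike.coe_sort_coe, hA]; norm_num
  simp only [Set.mem_insert_iff, Set.mem_singleton_iff, not_or] at hcn
  exact ⟨u, v, c, hAR (hBA huB), hAR (hBA hvB), hAR hcA, hu1', hvu.1, Ne.symm hvu.2,
    by rw [← pow_two]; exact hexp u huB, by rw [← pow_two]; exact hexp v hvB,
    hAcm _ (hBA huB) _ (hBA hvB), hAcm _ (hBA huB) _ hcA, hAcm _ (hBA hvB) _ hcA,
    hcn.1, hcn.2.1, hcn.2.2.1, hcn.2.2.2⟩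

variable {W : Subgroup G}

/-- `[X, W] = X` forbids invariant subgroups of index two. -/
theorem no_index_two {X R₁ : Subgroup G} (hX : ⁅X, W⁆ = X) (hW : W ≤ normalizer (X : Set G))
    (hWR : W ≤ normalizer (R₁ : Set G))
    (h2 : ∀ a ∈ X, ∀ b ∈ X, a ∉ R₁ → b ∉ R₁ → a⁻¹ * b ∈ R₁) : X ≤ R₁ := by
  conv_lhs => rw [← hX]
  refine commutator_le.2 fun a ha w hw => ?_
  have hb : w * a⁻¹ * w⁻¹ ∈ X := (mem_normalizer_iff.1 (hW hw) _).1 (inv_mem ha)
  have hiff := mem_normalizer_iff.1 (hWR hw) a⁻¹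
  rw [commutatorElement_def, show a * w * a⁻¹ * w⁻¹ = a * (w * a⁻¹ * w⁻¹) by group]
  by_cases h : a⁻¹ ∈ R₁
  · exact mul_mem (by simpa using inv_mem h) (hiff.1 h)
  · have := h2 a⁻¹ (inv_mem ha) _ hb h (fun h' => h (hiff.2 h'))
    rwa [inv_inv] at this

/-- An element commuting with `W` all whose commutators with `X = [X, W]` commute with `W`
centralizes `X`. -/
theorem cent_of_fixed {X : Subgroup G} (hX : ⁅X, W⁆ = X) {k : G}
    (hk : k ∈ centralizer (W : Set G)) (hc : ∀ x ∈ X, ⁅k, x⁆ ∈ centralizer (W : Set G)) :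
    k ∈ centralizer (X : Set G) := by
  have hle : ⁅X, W⁆ ≤ centralizer {k} := commutator_le.2 fun a ha w hw => by
    refine mem_centralizer_singleton_iff.2 ?_
    have hkw : w * k = k * w := mem_centralizer_iff.1 hk w hw
    have hd : w * ⁅k, a⁻¹⁆ = ⁅k, a⁻¹⁆ * w := mem_centralizer_iff.1 (hc a⁻¹ (inv_mem ha)) w hw
    rw [commutatorElement_def, inv_inv] at hd
    rw [commutatorElement_def]
    have hd' : w * (k * a⁻¹ * k⁻¹ * a) * w⁻¹ = k * a⁻¹ * k⁻¹ * a := by rw [hd, mul_inv_cancel_right]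
    have hk' : w * k * w⁻¹ = k := by rw [hkw, mul_inv_cancel_right]
    have e : k * (w * a⁻¹ * w⁻¹) * k⁻¹ = (k * a⁻¹ * k⁻¹ * a) * (w * a⁻¹ * w⁻¹) := by
      calc k * (w * a⁻¹ * w⁻¹) * k⁻¹ = (w * k * w⁻¹) * (w * a⁻¹ * w⁻¹) * (w * k * w⁻¹)⁻¹ := by rw [hk']
        _ = (w * (k * a⁻¹ * k⁻¹ * a) * w⁻¹) * (w * a⁻¹ * w⁻¹) := by group
        _ = _ := by rw [hd']
    calc a * w * a⁻¹ * w⁻¹ * k = (k * a * k⁻¹) * ((k * a⁻¹ * k⁻¹ * a) * (w * a⁻¹ * w⁻¹)) * k := by group
      _ = k * (a * w * a⁻¹ * w⁻¹) := by rw [← e]; group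
  rw [hX] at hle
  exact mem_centralizer_iff.2 fun x hx => mem_centralizer_singleton_iff.1 (hle hx)

/-- The commutator with a 2-group does not fill a section. -/
theorem not_full [Finite G] {R T Z : Subgroup G} (hp : IsPGroup 2 ↥(T ⊔ R)) (hRZ : R ≤ normalizer (Z : Set G))
    (hTZ : T ≤ normalizer (Z : Set G)) (hZR : Z ≤ R) (h : ⁅R, T⁆ ⊔ Z = R) : R = Z := by
  haveI := Fact.mk Nat.prime_two
  set Γ := T ⊔ R with hΓ
  obtain ⟨n, hn⟩ := (Subgroup.isNilpotent_iff_lowerCentralSeries _).1 hp.isNilpotent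
  have hΓZ : Γ ≤ normalizer (Z : Set G) := sup_le hTZ hRZ
  have key : ∀ n, R ≤ Γ.lowerCentralSeries n ⊔ Z := by
    intro n
    induction n with
    | zero => exact le_sup_right.trans (le_sup_left (b := Z))
    | succ n ih =>
      conv_lhs => rw [← h]
      refine sup_le (commutator_le.2 fun r hr t ht => ?_) le_sup_right
      have hr' : r ∈ Z ⊔ Γ.lowerCentralSeries n := by rw [sup_comm]; exact ih hr
      have hnn : Z ≤ normalizer (Γ.lowerCentralSeries n : Set G) :=
        (hZR.trans le_sup_right).trans (Subgroup.self_le_normalizer_lowerCentralSeries Γ n)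
      obtain ⟨z, hz, a, ha, rfl⟩ := (Coprime.mem_sup_of_le_normalizer hnn).1 hr'
      have e : ⁅z * a, t⁆ = (z * ⁅a, t⁆ * z⁻¹) * ⁅z, t⁆ := by
        simp only [commutatorElement_def]; group
      rw [e]
      refine mul_mem (mem_sup_left ?_) (mem_sup_right ?_)
      · refine (mem_normalizer_iff.1 (Subgroup.self_le_normalizer_lowerCentralSeries Γ (n + 1)
          (le_sup_right (a := T) (hZR hz))) _).1 ?_
        rw [Subgroup.lowerCentralSeries_succ]
        exact commutator_mem_commutator ha (mem_sup_left ht)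
      · rw [commutatorElement_def, show z * t * z⁻¹ * t⁻¹ = z * (t * z⁻¹ * t⁻¹) by group]
        exact mul_mem hz ((mem_normalizer_iff.1 (hTZ ht) _).1 (inv_mem hz))
  have := key n
  rw [hn, bot_sup_eq] at this
  exact le_antisymm this hZR

theorem inv_mul_mem_of_card [Finite G] {H K : Subgroup G} (hle : H ≤ K)
    (h : Nat.card K ≤ 2 * Nat.card H) {a b : G} (ha : a ∈ K) (hb : b ∈ K) (haH : a ∉ H) (hbH : b ∉ H) :
    a⁻¹ * b ∈ H := by
  have h1 : (H.subgroupOf K).index ≤ 2 := by
    have := (H.subgroupOf K).card_mul_index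
    rw [Coprime.card_subgroupOf hle] at this
    have hpos : 0 < Nat.card H := Nat.card_pos
    nlinarith
  have h2 : (H.subgroupOf K).index = 2 := by
    have hne : (H.subgroupOf K).index ≠ 1 := fun e => haH (subgroupOf_eq_top.1 (index_eq_one.1 e) ha)
    have := (H.subgroupOf K).index_ne_zero_of_finite
    omega
  have hiff := Subgroup.mul_mem_iff_of_index_two h2 (a := (⟨a⁻¹, inv_mem ha⟩ : K)) (b := ⟨b, hb⟩)
  simp only [mem_subgroupOf, Subgroup.coe_mul] at hiff
  exact hiff.2 ⟨fun h => absurd (by simpa using inv_mem h) haH, fun h => absurd h hbH⟩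

/-- An invariant 2-group acts trivially on a `W`-irreducible section of order four. -/
theorem fix_four [Finite G] {R T Z : Subgroup G} (hR : ⁅R, W⁆ = R) (hWR : W ≤ normalizer (R : Set G))
    (hWZ : W ≤ normalizer (Z : Set G)) (hWT : W ≤ normalizer (T : Set G))
    (hp : IsPGroup 2 ↥(T ⊔ R)) (hRZ : R ≤ normalizer (Z : Set G)) (hTZ : T ≤ normalizer (Z : Set G))
    (hTR : T ≤ normalizer (R : Set G)) (hZR : Z ≤ R) (hcard : Nat.card R ≤ 4 * Nat.card Z) :
    ∀ r ∈ R, ∀ t ∈ T, ⁅r, t⁆ ∈ Z := by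
  haveI := Fact.mk Nat.prime_two
  set R₁ := ⁅R, T⁆ ⊔ Z with hR₁
  have hR₁R : R₁ ≤ R := sup_le (Coprime.commutator_le_of_le_normalizer' hTR) hZR
  intro r hr t ht
  have hmem : ⁅r, t⁆ ∈ R₁ := mem_sup_left (commutator_mem_commutator hr ht)
  by_cases hfull : R₁ = R
  · exact (not_full hp hRZ hTZ hZR hfull) ▸ hR₁R hmem
  by_cases hZ : R₁ = Z
  · exact hZ ▸ hmem
  exfalso
  obtain ⟨i, hi⟩ := IsPGroup.iff_card.1 (hp.to_le (hR₁R.trans le_sup_right))
  obtain ⟨j, hj⟩ := IsPGroup.iff_card.1 (hp.to_le (hZR.trans le_sup_right))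
  have hlt : 2 * Nat.card Z ≤ Nat.card R₁ := by
    have hlt' : Nat.card Z < Nat.card R₁ := by
      by_contra! hc
      exact hZ (Subgroup.eq_of_le_of_card_ge le_sup_right hc).symm
    rw [hi, hj] at hlt' ⊢
    rw [← pow_succ']
    exact Nat.pow_le_pow_right (by norm_num) ((Nat.pow_lt_pow_iff_right (by norm_num)).1 hlt')
  have hWR₁ : W ≤ normalizer (R₁ : Set G) := by
    intro w hw
    have h1 := hWR hw
    have h2 := hWT hw
    have hconj : ∀ g ∈ W, ∀ x ∈ R₁, g * x * g⁻¹ ∈ R₁ := by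
      intro g hg
      have hle : R₁ ≤ R₁.comap (MulAut.conj g).toMonoidHom := by
        refine sup_le (commutator_le.2 fun a ha b hb => ?_) fun z hz => ?_
        · show g * ⁅a, b⁆ * g⁻¹ ∈ R₁
          rw [show g * ⁅a, b⁆ * g⁻¹ = ⁅g * a * g⁻¹, g * b * g⁻¹⁆ by
            simp only [commutatorElement_def]; group]
          exact mem_sup_left (commutator_mem_commutator ((mem_normalizer_iff.1 (hWR hg) a).1 ha)
            ((mem_normalizer_iff.1 (hWT hg) b).1 hb))
        · exact mem_sup_right ((mem_normalizer_iff.1 (hWZ hg) z).1 hz)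
      exact fun x hx => hle hx
    rw [mem_normalizer_iff]
    refine fun x => ⟨hconj w hw x, fun hx => ?_⟩
    have := hconj w⁻¹ (inv_mem hw) _ hx
    simpa [mul_assoc] using this
  exact hfull (le_antisymm hR₁R (no_index_two hR hWR hWR₁ fun a ha b hb haH hbH =>
    inv_mul_mem_of_card hR₁R (by omega) ha hb haH hbH))

/-- The Frattini subgroup of a subgroup, in the ambient group. -/
def phi (X : Subgroup G) : Subgroup G := (frattini ↥X).map X.subtype

theorem normalizer_le_phi (X : Subgroup G) :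
    normalizer (X : Set G) ≤ normalizer (phi X : Set G) := by
  intro g hg
  have hconj : ∀ g ∈ normalizer (X : Set G), ∀ x ∈ phi X, g * x * g⁻¹ ∈ phi X := by
    rintro g hg _ ⟨x, hx, rfl⟩
    refine ⟨X.normalizerMonoidHom ⟨g, hg⟩ x, ?_, by simp⟩
    have hc : (frattini ↥X).map (X.normalizerMonoidHom ⟨g, hg⟩).toMonoidHom = frattini ↥X :=
      characteristic_iff_map_eq.1 inferInstance _
    rw [← hc]
    exact mem_map_of_mem _ hx
  rw [mem_normalizer_iff]
  refine fun x => ⟨hconj g hg x, fun hx => ?_⟩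
  have := hconj g⁻¹ (inv_mem hg) _ hx
  simpa [mul_assoc] using this

theorem phi_lt [Finite G] {X : Subgroup G} (hX : X ≠ ⊥) : phi X ≠ X := by
  intro h
  haveI : Nontrivial X := (nontrivial_iff_ne_bot X).2 hX
  obtain ⟨M, hM⟩ := (Finite.exists_le_maximal (p := fun K : Subgroup X => K ≠ ⊤) (a := ⊥)
    bot_ne_top).imp fun M h => h.2
  have hco : IsCoatom M := ⟨hM.prop, fun K hK => by
    by_contra hKT
    exact hK.not_ge (hM.2 hKT hK.le)⟩
  refine hM.prop (eq_top_iff.2 fun x _ => frattini_le_coatom hco ?_)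
  obtain ⟨y, hy, hyx⟩ : (x : G) ∈ phi X := h.symm ▸ x.2
  exact (Subtype.ext hyx : y = x) ▸ hy

theorem commutator_mem_phi [Finite G] {X : Subgroup G} (hX : IsPGroup 2 X) {a b : G} (ha : a ∈ X)
    (hb : b ∈ X) : ⁅a, b⁆ ∈ phi X := by
  haveI := Fact.mk Nat.prime_two
  refine ⟨⁅(⟨a, ha⟩ : X), ⟨b, hb⟩⁆, PGroupFrattini.commutator_le_frattini hX ?_, rfl⟩
  rw [_root_.commutator_def]
  exact commutator_mem_commutator (mem_top _) (mem_top _)

theorem sq_mem_phi [Finite G] {X : Subgroup G} (hX : IsPGroup 2 X) {a : G} (ha : a ∈ X) :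
    a * a ∈ phi X := by
  haveI := Fact.mk Nat.prime_two
  exact ⟨(⟨a, ha⟩ : X) ^ 2, PGroupFrattini.pow_mem_frattini hX _, by simp [pow_two]⟩

/-- `Φ(X)` lies in any subgroup containing all commutators and squares. -/
theorem phi_le [Finite G] {X N : Subgroup G} (hc : ∀ a ∈ X, ∀ b ∈ X, ⁅a, b⁆ ∈ N)
    (hs : ∀ a ∈ X, a * a ∈ N) : phi X ≤ N := by
  refine map_le_iff_le_comap.2 (PGroupFrattini.frattini_le Nat.prime_two _ ?_ fun x => ?_)
  · rw [_root_.commutator_def]
    exact commutator_le.2 fun a _ b _ => hc a a.2 b b.2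
  · show ((x ^ 2 : X) : G) ∈ N
    rw [SubmonoidClass.coe_pow, pow_two]; exact hs x x.2

/-- The fixed points of `W` on `X = [X, W]` lie in `Φ(X)`. -/
theorem fixed_mem_phi [Finite G] (hW : Odd (Nat.card W)) {X : Subgroup G} (hX2 : IsPGroup 2 X)
    (hXW : ⁅X, W⁆ = X) (hWX : W ≤ normalizer (X : Set G)) {x : G} (hx : x ∈ X)
    (hfix : x ∈ centralizer (W : Set G)) : x ∈ phi X := by
  classical
  haveI := Fact.mk Nat.prime_two
  haveI : IsMulCommutative (↥X ⧸ frattini ↥X) :=
    Subgroup.Normal.quotient_commutative_iff_commutator_le.2 (PGroupFrattini.commutator_le_frattini hX2)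
  open scoped IsMulCommutative in
  haveI : Fintype W := Fintype.ofFinite W
  let c : W → MulAut X := fun w => X.normalizerMonoidHom ⟨w, hWX w.2⟩
  have hc : ∀ (w : W) (a : X), ((c w a : X) : G) = (w : G) * a * (w : G)⁻¹ := fun w a => by simp [c]
  let π : X →* ↥X ⧸ frattini ↥X := QuotientGroup.mk' (frattini ↥X)
  open scoped IsMulCommutative in
  let ψ : X →* ↥X ⧸ frattini ↥X :=
    { toFun := fun a => ∏ w : W, π (c w a)
      map_one' := by simp
      map_mul' := fun a b => by simp [Finset.prod_mul_distrib] }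
  have hinv : ∀ (v : W) (a : X), ψ (c v a) = ψ a := fun v a =>
    Fintype.prod_equiv (Equiv.mulRight v) _ _ fun w => by
      refine congrArg π (Subtype.ext ?_)
      simp [hc, mul_assoc]
  have hker : ⁅X, W⁆ ≤ ψ.ker.map X.subtype := commutator_le.2 fun a ha w hw => by
    refine ⟨(⟨a, ha⟩ : X) * c ⟨w, hw⟩ ⟨a, ha⟩⁻¹, ?_, ?_⟩
    · rw [SetLike.mem_coe, MonoidHom.mem_ker, map_mul, hinv, ← map_mul, mul_inv_cancel, map_one]
    · simp [hc, commutatorElement_def, mul_assoc]
  rw [hXW] at hker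
  obtain ⟨a, ha, hax⟩ := hker hx
  have haeq : a = ⟨x, hx⟩ := Subtype.ext hax
  rw [haeq] at ha
  have h1 : π ⟨x, hx⟩ ^ Nat.card W = 1 := by
    rw [Nat.card_eq_fintype_card, ← Finset.card_univ, ← Finset.prod_const]
    refine (Finset.prod_congr rfl fun w _ => congrArg π (Subtype.ext ?_)).trans ha
    rw [hc]
    exact (eq_mul_inv_of_mul_eq (mem_centralizer_iff.1 hfix w w.2).symm)
  have h2 : π ⟨x, hx⟩ ^ 2 = 1 := by
    rw [← map_pow]; exact (QuotientGroup.eq_one_iff _).2 (PGroupFrattini.pow_mem_frattini hX2 _)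
  obtain ⟨k, hk⟩ := hW
  rw [hk, pow_succ, pow_mul, h2, one_pow, one_mul] at h1
  exact ⟨⟨x, hx⟩, (QuotientGroup.eq_one_iff _).1 h1, rfl⟩

/-- `X` is elementary of order four. -/
def IsE4 (X : Subgroup G) : Prop :=
  Nat.card X = 4 ∧ (∀ x ∈ X, x * x = 1) ∧ ∀ a ∈ X, ∀ b ∈ X, a * b = b * a

/-- `X` is quaternion of order 8 with involution `z`. -/
def IsQ8 (X : Subgroup G) (z : G) : Prop :=
  z ∈ X ∧ z ≠ 1 ∧ z * z = 1 ∧ Nat.card X = 8 ∧ X ⊓ centralizer (X : Set G) = zpowers z ∧
    ∀ x ∈ X, x ∉ zpowers z → x * x = z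

/-- The general structure. -/
def Shape (X : Subgroup G) : Prop :=
  (∀ a ∈ X, ∀ b ∈ X, a * b = b * a) ∨
    (⁅X, X⁆ = X ⊓ centralizer (X : Set G) ∧ phi X = X ⊓ centralizer (X : Set G) ∧
      (∀ z ∈ X ⊓ centralizer (X : Set G), z * z = 1) ∧
      (Nat.card ↥(X ⊓ centralizer (X : Set G)) = 2 ∨ Nat.card ↥(X ⊓ centralizer (X : Set G)) = 4))

theorem mem_zpowers_invol {z x : G} (hz : z * z = 1) (hx : x ∈ zpowers z) : x = 1 ∨ x = z := by
  obtain ⟨n, rfl⟩ := mem_zpowers_iff.1 hx
  rcases Int.even_or_odd n with ⟨m, rfl⟩ | ⟨m, rfl⟩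
  · left; rw [← two_mul, zpow_mul, zpow_two, hz, one_zpow]
  · right; rw [zpow_add, zpow_one, zpow_mul, zpow_two, hz, one_zpow, one_mul]

theorem conj_mem_inf_centralizer {X : Subgroup G} {g : G} (hg : g ∈ normalizer (X : Set G)) :
    g ∈ normalizer ((X ⊓ centralizer (X : Set G) : Subgroup G) : Set G) := by
  have key : ∀ g ∈ normalizer (X : Set G), ∀ x ∈ X ⊓ centralizer (X : Set G),
      g * x * g⁻¹ ∈ X ⊓ centralizer (X : Set G) := by
    intro g hg x hx
    refine Subgroup.mem_inf.2 ⟨(mem_normalizer_iff.1 hg x).1 hx.1, mem_centralizer_iff.2 fun y hy => ?_⟩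
    have hy' : g⁻¹ * y * g ∈ X := by
      have := (mem_normalizer_iff.1 (inv_mem hg) y).1 hy
      rwa [inv_inv] at this
    calc y * (g * x * g⁻¹) = g * ((g⁻¹ * y * g) * x) * g⁻¹ := by group
      _ = g * x * g⁻¹ * y := by rw [mem_centralizer_iff.1 hx.2 _ hy']; group
  rw [mem_normalizer_iff]
  refine fun x => ⟨key g hg x, fun hx => ?_⟩
  have := key g⁻¹ (inv_mem hg) _ hx
  simpa [mul_assoc] using this

/-- The possible shapes of `X = [X, W] ≠ 1` without a noncyclic abelian subgroup of order 8. -/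
theorem small_of_shape [Finite G] (hW : Odd (Nat.card W)) {X : Subgroup G} (hX2 : IsPGroup 2 X)
    (hXW : ⁅X, W⁆ = X) (hWX : W ≤ normalizer (X : Set G)) (hne : X ≠ ⊥) (hB : ¬ Bad X)
    (hs : Shape X) : IsE4 X ∨ ∃ z, IsQ8 X z := by
  haveI := Fact.mk Nat.prime_two
  rcases hs with hab | ⟨hcomm, hphi, hexp, hcard⟩
  · left
    haveI : IsMulCommutative X := ⟨⟨fun a b => Subtype.ext (hab a a.2 b b.2)⟩⟩
    by_cases hcyc : IsCyclic X
    · exfalso
      obtain ⟨g, hg⟩ := IsCyclic.exists_generator (α := X)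
      set R₁ := zpowers ((g : G) * g) with hR₁
      have hsq : ∀ a ∈ X, a * a ∈ R₁ := fun a ha => by
        obtain ⟨n, hn⟩ := mem_zpowers_iff.1 (hg ⟨a, ha⟩)
        have : a = (g : G) ^ n := by rw [← SubgroupClass.coe_zpow, hn]
        refine mem_zpowers_iff.2 ⟨n, ?_⟩
        rw [this, (Commute.refl (g : G)).mul_zpow]
      have hconj : ∀ w ∈ W, ∀ x ∈ R₁, w * x * w⁻¹ ∈ R₁ := by
        intro w hw x hx
        obtain ⟨n, rfl⟩ := mem_zpowers_iff.1 hx
        rw [← conj_zpow]
        refine zpow_mem ?_ n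
        rw [show w * ((g : G) * g) * w⁻¹ = (w * g * w⁻¹) * (w * g * w⁻¹) by group]
        exact hsq _ ((mem_normalizer_iff.1 (hWX hw) _).1 g.2)
      have hWR : W ≤ normalizer (R₁ : Set G) := fun w hw => mem_normalizer_iff.2 fun x =>
        ⟨hconj w hw x, fun hx => by simpa [mul_assoc] using hconj w⁻¹ (inv_mem hw) _ hx⟩
      have hle := no_index_two hXW hWX hWR fun a ha b hb haR hbR => by
        obtain ⟨n, hn⟩ := mem_zpowers_iff.1 (hg ⟨a, ha⟩)
        obtain ⟨m, hm⟩ := mem_zpowers_iff.1 (hg ⟨b, hb⟩)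
        have ea : a = (g : G) ^ n := by rw [← SubgroupClass.coe_zpow, hn]
        have eb : b = (g : G) ^ m := by rw [← SubgroupClass.coe_zpow, hm]
        have hev : ∀ n : ℤ, Even n → (g : G) ^ n ∈ R₁ := by
          rintro _ ⟨j, rfl⟩
          exact mem_zpowers_iff.2 ⟨j, by rw [(Commute.refl (g : G)).mul_zpow, ← zpow_add]⟩
        rw [ea, eb, ← zpow_neg, ← zpow_add]
        refine hev _ ?_
        rw [Int.even_add, even_neg]
        exact iff_of_false (fun e => haR (ea ▸ hev n e)) (fun e => hbR (eb ▸ hev m e))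
      have hgR : (g : G) ∈ R₁ := hle g.2
      obtain ⟨n, hn⟩ := mem_zpowers_iff.1 hgR
      have h1 : (g : G) ^ (2 * n - 1) = 1 := by
        rw [zpow_sub, zpow_one, zpow_mul, zpow_two, hn, mul_inv_cancel]
      obtain ⟨k, hk⟩ := IsPGroup.iff_orderOf.1 hX2 g
      rw [← Subgroup.orderOf_coe] at hk
      have hdvd : (orderOf (g : G) : ℤ) ∣ 2 * n - 1 := orderOf_dvd_iff_zpow_eq_one.2 h1
      rw [hk] at hdvd
      rcases k with - | k
      · rw [pow_zero, orderOf_eq_one_iff] at hk
        refine hne ((eq_bot_iff_forall _).2 fun a ha => ?_)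
        obtain ⟨j, hj⟩ := mem_zpowers_iff.1 (hg ⟨a, ha⟩)
        have : a = (g : G) ^ j := by rw [← SubgroupClass.coe_zpow, hj]
        rw [this, hk, one_zpow]
      · have : (2 : ℤ) ∣ 2 * n - 1 := dvd_trans ⟨2 ^ k, by push_cast; ring⟩ hdvd
        omega
    · obtain ⟨r, V, hr, hVX, hexp', hV⟩ := Coprime.exists_elementary_sq hcyc
      have hr2 : r = 2 := by
        obtain ⟨n, hn⟩ := IsPGroup.iff_card.1 hX2
        exact (Nat.prime_dvd_prime_iff_eq hr Nat.prime_two).1 (hr.dvd_of_dvd_pow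
          (hn ▸ (dvd_pow_self r two_ne_zero).trans (hV ▸ Subgroup.card_dvd_of_le hVX)))
      subst hr2
      have hXV : X = V := by
        refine le_antisymm (fun c hc => ?_) hVX
        obtain ⟨⟨u, hu⟩, hu1⟩ := exists_ne_one_of_one_lt' V (by rw [hV]; norm_num)
        obtain ⟨v, hv, hvu⟩ : ∃ v ∈ V, v ∉ ({1, u} : Set G) := by
          refine Set.exists_mem_notMem_of_ncard_lt_ncard ?_ (Set.toFinite _)
          rw [← Nat.card_coe_set_eq (V : Set G)]
          calc ({1, u} : Set G).ncard ≤ 2 := (Set.ncard_insert_le _ _).trans (by simp)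
            _ < _ := by rw [SetLike.coe_sort_coe, hV]; norm_num
        simp only [Set.mem_insert_iff, Set.mem_singleton_iff, not_or] at hvu
        rcases k1 hB (hVX hu) (hVX hv) hc (fun e => hu1 (Subtype.ext e)) hvu.1 (Ne.symm hvu.2)
          (by rw [← pow_two]; exact hexp' u hu) (by rw [← pow_two]; exact hexp' v hv)
          (hab _ (hVX hu) _ (hVX hv)) (hab _ (hVX hu) _ hc) (hab _ (hVX hv) _ hc) with e | e | e | e
        all_goals rw [e]
        exacts [one_mem _, hu, hv, mul_mem hu hv]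
      exact ⟨by rw [hXV, hV]; norm_num, fun x hx => by rw [← pow_two]; exact hexp' x (hXV ▸ hx), hab⟩
  · set Z := X ⊓ centralizer (X : Set G) with hZ
    have hZc : ∀ z ∈ Z, ∀ a ∈ X, a * z = z * a := fun z hz a ha => mem_centralizer_iff.1 hz.2 a ha
    have hsqZ : ∀ a ∈ X, a * a ∈ Z := fun a ha => hphi ▸ sq_mem_phi hX2 ha
    have hcomZ : ∀ a ∈ X, ∀ b ∈ X, ⁅a, b⁆ ∈ Z := fun a ha b hb =>
      hphi ▸ commutator_mem_phi hX2 ha hb
    rcases hcard with hZ2 | hZ4
    · right
      obtain ⟨⟨z, hz⟩, hz1⟩ := exists_ne_one_of_one_lt' Z (by rw [hZ2]; norm_num)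
      have hz1' : z ≠ 1 := fun e => hz1 (Subtype.ext e)
      have hzz : z * z = 1 := hexp z hz
      have hZz : Z = zpowers z := by
        refine (Subgroup.eq_of_le_of_card_ge (zpowers_le.2 hz) ?_).symm
        rw [hZ2, Nat.card_zpowers, orderOf_eq_prime (p := 2) (by rw [pow_two]; exact hzz) hz1']
      have hsq : ∀ a ∈ X, a * a = 1 ∨ a * a = z := fun a ha =>
        mem_zpowers_invol hzz (hZz ▸ hsqZ a ha)
      have hcom : ∀ a ∈ X, ∀ b ∈ X, ⁅a, b⁆ = 1 ∨ ⁅a, b⁆ = z := fun a ha b hb =>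
        mem_zpowers_invol hzz (hZz ▸ hcomZ a ha b hb)
      -- centralizers of noncentral elements
      have hcent : ∀ x ∈ X, x ∉ Z → ∀ c ∈ X, x * c = c * x → c ∈ zpowers x ⊔ Z := by
        intro x hx hxZ c hc hxc
        rcases hsq x hx with e | e
        · rcases k1 hB hz.1 hx hc hz1' (fun e' => hxZ (e' ▸ one_mem Z)) (fun e' => hxZ (e' ▸ hz))
            hzz e (hZc z hz x hx).symm (hZc z hz c hc).symm hxc with h | h | h | h
          all_goals rw [h]
          · exact one_mem _
          · exact mem_sup_right hz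
          · exact mem_sup_left (mem_zpowers x)
          · exact mul_mem (mem_sup_right hz) (mem_sup_left (mem_zpowers x))
        · refine mem_sup_left (k2 hB hx hc (by rw [e]; exact hz1') (by rw [e]; exact hzz) hxc ?_)
          rw [e]; exact hsq c hc
      obtain ⟨x, hx, hxZ⟩ : ∃ x ∈ X, x ∉ Z := by
        by_contra! hall
        refine hne (le_bot_iff.1 (hXW ▸ commutator_le.2 fun a ha w hw => ?_))
        -- `X` would be central of order two, so fixed by `W`
        have hb : w * a⁻¹ * w⁻¹ ∈ X := (mem_normalizer_iff.1 (hWX hw) _).1 (inv_mem ha)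
        rw [mem_bot, commutatorElement_def, show a * w * a⁻¹ * w⁻¹ = a * (w * a⁻¹ * w⁻¹) by group]
        rcases mem_zpowers_invol hzz (hZz ▸ hall _ (inv_mem ha)) with e | e
        · rw [e, inv_eq_one.1 e]; simp
        · rcases mem_zpowers_invol hzz (hZz ▸ hall _ hb) with e' | e'
          · rw [mul_inv_eq_one, ← eq_inv_mul_iff_mul_eq] at e'
            rw [inv_mul_cancel] at e'
            exact absurd (e ▸ e') hz1'
          · rw [e', ← inv_inv a, e, inv_eq_of_mul_eq_one_right hzz, hzz]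
      obtain ⟨y, hy, hxy⟩ : ∃ y ∈ X, x * y ≠ y * x := by
        by_contra! hall
        exact hxZ ⟨hx, mem_centralizer_iff.2 fun y hy => (hall y hy).symm⟩
      have hxyz : ⁅x, y⁆ = z := (hcom x hx y hy).resolve_left
        fun e => hxy (commutatorElement_eq_one_iff_mul_comm.1 e)
      -- a square root of `z`
      obtain ⟨i, hiX, hiZ, hi2⟩ : ∃ i ∈ X, i ∉ Z ∧ i * i = z := by
        rcases hsq x hx with ex | ex
        · rcases hsq y hy with ey | ey
          · refine ⟨x * y, mul_mem hx hy, fun h => hxy ?_, ?_⟩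
            · have := hZc _ h x hx
              rwa [mul_assoc x y x, mul_right_inj] at this
            · rw [← hxyz, commutatorElement_def, inv_eq_of_mul_eq_one_right ex,
                inv_eq_of_mul_eq_one_right ey]
              simp only [mul_assoc]
          · exact ⟨y, hy, fun h => hxy (hZc _ h x hx), ey⟩
        · exact ⟨x, hx, hxZ, ex⟩
      have hZi : Z ≤ zpowers i := by
        rw [hZz, zpowers_le, ← hi2]; exact mul_mem (mem_zpowers i) (mem_zpowers i)
      have hcenti : ∀ c ∈ X, i * c = c * i → c ∈ zpowers i := fun c hc h => by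
        have := hcent i hiX hiZ c hc h
        rwa [sup_eq_left.2 hZi] at this
      have h2cl : ∀ a ∈ X, ∀ b ∈ X, a ∉ zpowers i → b ∉ zpowers i → a⁻¹ * b ∈ zpowers i := by
        intro a ha b hb hai hbi
        refine hcenti _ (mul_mem (inv_mem ha) hb) ?_
        have ha' : ⁅a, i⁆ = z := (hcom a ha i hiX).resolve_left fun e =>
          hai (hcenti a ha (commutatorElement_eq_one_iff_mul_comm.1 e).symm)
        have hb' : ⁅b, i⁆ = z := (hcom b hb i hiX).resolve_left fun e =>
          hbi (hcenti b hb (commutatorElement_eq_one_iff_mul_comm.1 e).symm)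
        rw [commutatorElement_def, mul_inv_eq_iff_eq_mul] at ha' hb'
        have e : a * i * a⁻¹ = b * i * b⁻¹ := ha'.trans hb'.symm
        calc i * (a⁻¹ * b) = a⁻¹ * (a * i * a⁻¹) * b := by group
          _ = a⁻¹ * b * i := by rw [e]; group
      have hio : orderOf i = 4 := by
        have hi4 : i ^ 2 ^ (1 + 1) = 1 := by
          rw [show 2 ^ (1 + 1) = 2 * 2 by norm_num, pow_mul, pow_two, pow_two, hi2, hzz]
        have := orderOf_eq_prime_pow (p := 2) (n := 1) (by rw [pow_one, pow_two, hi2]; exact hz1') hi4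
        simpa using this
      obtain ⟨b, hb, hbi⟩ : ∃ b ∈ X, b ∉ zpowers i := by
        by_contra! hall
        refine hiZ ⟨hiX, mem_centralizer_iff.2 fun y hy => ?_⟩
        obtain ⟨n, rfl⟩ := mem_zpowers_iff.1 (hall y hy)
        exact (Commute.zpow_left (Commute.refl i) n).eq
      have hIX : zpowers i ≤ X := zpowers_le.2 hiX
      have hidx : ((zpowers i).subgroupOf X).index = 2 := by
        refine Subgroup.index_eq_two_iff.2 ⟨⟨b, hb⟩⁻¹, fun a => ?_⟩
        by_cases ha : (a : G) ∈ zpowers i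
        · refine Or.inr ⟨mem_subgroupOf.2 ha, fun h => hbi ?_⟩
          have h' : (a : G) * b⁻¹ ∈ zpowers i := mem_subgroupOf.1 h
          have := mul_mem (inv_mem ha) h'
          rw [inv_mul_cancel_left] at this
          simpa using inv_mem this
        · refine Or.inl ⟨?_, fun h => ha (mem_subgroupOf.1 h)⟩
          refine mem_subgroupOf.2 ?_
          show (a : G) * b⁻¹ ∈ zpowers i
          have := h2cl (a : G)⁻¹ (inv_mem a.2) b⁻¹ (inv_mem hb) (fun h => ha (by simpa using inv_mem h))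
            (fun h => hbi (by simpa using inv_mem h))
          rwa [inv_inv] at this
      have h8 : Nat.card X = 8 := by
        have := ((zpowers i).subgroupOf X).card_mul_index
        rw [hidx, Coprime.card_subgroupOf hIX, Nat.card_zpowers, hio] at this
        omega
      refine ⟨z, hz.1, hz1', hzz, h8, hZz, fun a ha haz => ?_⟩
      rcases hsq a ha with e | e
      swap
      · exact e
      exfalso
      have hai : a ∉ zpowers i := by
        intro h
        obtain ⟨n, hn⟩ := mem_zpowers_iff.1 h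
        rcases Int.even_or_odd n with ⟨m, rfl⟩ | ⟨m, rfl⟩
        · exact haz (hn ▸ mem_zpowers_iff.2 ⟨m, by rw [← hi2, (Commute.refl i).mul_zpow, ← zpow_add]⟩)
        · apply hz1'
          rw [← hn, ← zpow_add, show 2 * m + 1 + (2 * m + 1) = 2 * (2 * m + 1) by ring, zpow_mul,
            zpow_two, hi2, zpow_add, zpow_mul, zpow_two, hzz, one_zpow, one_mul, zpow_one] at e
          exact e
      -- outside `⟨i⟩` everything is an involution
      have hout : ∀ c ∈ X, c ∉ zpowers i → c * c = 1 := by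
        intro c hc hci
        have hz' : ⁅a, i⁆ = z := (hcom a ha i hiX).resolve_left fun e =>
          hai (hcenti a ha (commutatorElement_eq_one_iff_mul_comm.1 e).symm)
        obtain ⟨n, hn⟩ := mem_zpowers_iff.1 (h2cl a ha c hc hai hci)
        have hc' : c = a * i ^ n := by rw [hn, mul_inv_cancel_left]
        have hai' : a * i * a⁻¹ = i⁻¹ := by
          rw [commutatorElement_def, mul_inv_eq_iff_eq_mul] at hz'
          rw [hz', eq_inv_iff_mul_eq_one, mul_assoc, hi2, hzz]
        calc c * c = (a * i ^ n * a⁻¹) * (a * a) * i ^ n := by rw [hc']; group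
          _ = 1 := by rw [e, mul_one, ← conj_zpow, hai', inv_zpow, inv_mul_cancel]
      have hWi : W ≤ normalizer (zpowers i : Set G) := by
        have hconj : ∀ w ∈ W, ∀ c ∈ zpowers i, w * c * w⁻¹ ∈ zpowers i := by
          intro w hw c hc
          obtain ⟨n, rfl⟩ := mem_zpowers_iff.1 hc
          rw [← conj_zpow]
          refine zpow_mem (by_contra fun h => ?_) n
          have := hout _ ((mem_normalizer_iff.1 (hWX hw) i).1 hiX) h
          apply hz1'
          rw [show w * i * w⁻¹ * (w * i * w⁻¹) = w * (i * i) * w⁻¹ by group, hi2,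
            mul_inv_eq_one, mul_eq_left] at this
          exact this
        exact fun w hw => mem_normalizer_iff.2 fun c =>
          ⟨hconj w hw c, fun hc => by simpa [mul_assoc] using hconj w⁻¹ (inv_mem hw) _ hc⟩
      exact hbi (no_index_two hXW hWX hWi h2cl hb)
    · exfalso
      obtain ⟨⟨u, hu⟩, hu1⟩ := exists_ne_one_of_one_lt' Z (by rw [hZ4]; norm_num)
      obtain ⟨v, hv, hvu⟩ : ∃ v ∈ Z, v ∉ ({1, u} : Set G) := by
        refine Set.exists_mem_notMem_of_ncard_lt_ncard ?_ (Set.toFinite _)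
        rw [← Nat.card_coe_set_eq (Z : Set G)]
        calc ({1, u} : Set G).ncard ≤ 2 := (Set.ncard_insert_le _ _).trans (by simp)
          _ < _ := by rw [SetLike.coe_sort_coe, hZ4]; norm_num
      simp only [Set.mem_insert_iff, Set.mem_singleton_iff, not_or] at hvu
      have hXZ : X ≤ Z := fun c hc => by
        rcases k1 hB hu.1 hv.1 hc (fun e => hu1 (Subtype.ext e)) hvu.1 (Ne.symm hvu.2)
          (hexp u hu) (hexp v hv) (hZc v hv u hu.1) (hZc u hu c hc).symm (hZc v hv c hc).symm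
          with e | e | e | e
        all_goals rw [e]
        exacts [one_mem _, hu, hv, mul_mem hu hv]
      refine phi_lt hne ?_
      rw [hphi]
      exact le_antisymm inf_le_left hXZ

theorem zpowers_fixed {X : Subgroup G} {z : G} (hzz : z * z = 1) (hz : zpowers z = X ⊓ centralizer (X : Set G))
    (hWX : W ≤ normalizer (X : Set G)) : z ∈ centralizer (W : Set G) := by
  refine mem_centralizer_iff.2 fun w hw => ?_
  have hw' := conj_mem_inf_centralizer (hWX hw)
  rw [← hz] at hw'
  rcases mem_zpowers_invol hzz ((mem_normalizer_iff.1 hw' z).1 (mem_zpowers z)) with e | e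
  · rw [mul_inv_eq_one, mul_eq_left] at e; simp [e]
  · exact mul_inv_eq_iff_eq_mul.1 e

/-- The centralizer of `W` in `K` is absorbed by `[K, W]`. -/
theorem absorb_aux [Finite G] (hW : Odd (Nat.card W)) {R C : Subgroup G} (hRW : ⁅R, W⁆ = R)
    (hWR : W ≤ normalizer (R : Set G)) (hCW : C ≤ centralizer (W : Set G))
    (hCR : C ≤ normalizer (R : Set G)) (hp : IsPGroup 2 ↥(C ⊔ R))
    (hs : IsE4 R ∨ ∃ z, IsQ8 R z) : C ≤ centralizer (R : Set G) := by
  intro c hc
  have hWC : W ≤ normalizer (C : Set G) := fun w hw => mem_normalizer_iff.2 fun x => by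
    constructor
    · intro hx
      rw [mem_centralizer_iff.1 (hCW hx) w hw, mul_inv_cancel_right]; exact hx
    · intro hx
      have h := mem_centralizer_iff.1 (hCW hx) w hw
      have : w * x * w⁻¹ = x := by
        have e : w * (w * x * w⁻¹) = w * x := by rw [h]; group
        exact mul_left_cancel e
      rwa [this] at hx
  rcases hs with ⟨h4, hexp, hab⟩ | ⟨z, hzR, hz1, hzz, h8, hzc, hsq⟩
  · have hfix := fix_four (Z := ⊥) hRW hWR (by rw [normalizer_eq_top_iff.2 inferInstance]; exact le_top)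
      hWC hp (by rw [normalizer_eq_top_iff.2 inferInstance]; exact le_top)
      (by rw [normalizer_eq_top_iff.2 inferInstance]; exact le_top) hCR bot_le
      (by rw [h4, card_bot]) 
    exact mem_centralizer_iff.2 fun r hr =>
      commutatorElement_eq_one_iff_mul_comm.1 (mem_bot.1 (hfix r hr c hc))
  · have hnR : normalizer (R : Set G) ≤ normalizer (zpowers z : Set G) := fun g hg => by
      rw [← hzc]; exact conj_mem_inf_centralizer hg
    have hfix := fix_four (Z := zpowers z) hRW hWR (hWR.trans hnR) hWC hp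
      (le_normalizer.trans hnR) (hCR.trans hnR) hCR (zpowers_le.2 hzR)
      (by rw [h8, Nat.card_zpowers, orderOf_eq_prime (p := 2) (by rw [pow_two]; exact hzz) hz1])
    refine cent_of_fixed hRW (hCW hc) fun r hr => ?_
    have := inv_mem (hfix r hr c hc)
    rw [commutatorElement_inv] at this
    exact zpowers_le.2 (zpowers_fixed hzz hzc.symm hWR) this

/-- If `K` has no noncyclic abelian subgroup of order 8 then `K = [K, W]`. -/
theorem absorb [Finite G] (hW : Odd (Nat.card W)) (hsW : Group.IsSolvable W) {K : Subgroup G}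
    (hK2 : IsPGroup 2 K) (hWK : W ≤ normalizer (K : Set G)) (hB : ¬ Bad K)
    (hs : IsE4 ⁅K, W⁆ ∨ ∃ z, IsQ8 ⁅K, W⁆ z) : ⁅K, W⁆ = K := by
  haveI := Fact.mk Nat.prime_two
  have hcop : (Nat.card W).Coprime (Nat.card K) := by
    obtain ⟨n, hn⟩ := IsPGroup.iff_card.1 hK2
    rw [hn]; exact Nat.Coprime.pow_right n (Nat.coprime_two_right.2 hW)
  set R := ⁅K, W⁆ with hR
  have hRK : R ≤ K := Coprime.commutator_le_of_le_normalizer' hWK
  have hdec := Coprime.commutator_sup_centralizer hWK hcop (Or.inl hsW)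
  have hCR : K ⊓ centralizer (W : Set G) ≤ normalizer (R : Set G) :=
    inf_le_left.trans (Coprime.left_le_normalizer_commutator K W)
  have hcent := absorb_aux hW (Coprime.commutator_commutator hWK hcop (Or.inl hsW))
    (Coprime.right_le_normalizer_commutator K W) inf_le_right hCR
    (hK2.to_le (sup_le inf_le_left hRK)) hs
  suffices hC : K ⊓ centralizer (W : Set G) ≤ R by
    calc R = R ⊔ (K ⊓ centralizer (W : Set G)) := (sup_eq_left.2 hC).symm
      _ = K := hdec
  rcases hs with ⟨h4, hexp, hab⟩ | ⟨z, hzR, hz1, hzz, h8, hzc, hsq⟩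
  · intro c hc
    obtain ⟨⟨u, hu⟩, hu1⟩ := exists_ne_one_of_one_lt' R (by rw [h4]; norm_num)
    obtain ⟨v, hv, hvu⟩ : ∃ v ∈ R, v ∉ ({1, u} : Set G) := by
      refine Set.exists_mem_notMem_of_ncard_lt_ncard ?_ (Set.toFinite _)
      rw [← Nat.card_coe_set_eq (R : Set G)]
      calc ({1, u} : Set G).ncard ≤ 2 := (Set.ncard_insert_le _ _).trans (by simp)
        _ < _ := by rw [SetLike.coe_sort_coe, h4]; norm_num
    simp only [Set.mem_insert_iff, Set.mem_singleton_iff, not_or] at hvu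
    rcases k1 hB (hRK hu) (hRK hv) hc.1 (fun e => hu1 (Subtype.ext e)) hvu.1 (Ne.symm hvu.2)
      (hexp u hu) (hexp v hv) (hab u hu v hv) (mem_centralizer_iff.1 (hcent hc) u hu)
      (mem_centralizer_iff.1 (hcent hc) v hv) with e | e | e | e
    all_goals rw [e]
    exacts [one_mem _, hu, hv, mul_mem hu hv]
  · obtain ⟨i, hiR, hiz⟩ : ∃ i ∈ R, i ∉ zpowers z := by
      by_contra! hall
      have := Nat.card_le_card_of_injective _ (inclusion_injective (show R ≤ zpowers z from hall))
      rw [h8, Nat.card_zpowers, orderOf_eq_prime (p := 2) (by rw [pow_two]; exact hzz) hz1] at this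
      omega
    intro c hc
    obtain ⟨k, hk⟩ := IsPGroup.iff_orderOf.1 hK2 ⟨c, hc.1⟩
    rw [Subgroup.orderOf_mk] at hk
    have key : ∀ k : ℕ, ∀ c ∈ K ⊓ centralizer (W : Set G), c ^ 2 ^ k = 1 → c ∈ zpowers z := by
      intro k
      induction k with
      | zero => intro c _ h; rw [pow_zero, pow_one] at h; rw [h]; exact one_mem _
      | succ k ih =>
        intro c hc h
        have hcc : (c * c) ∈ zpowers z := ih _ (mul_mem hc hc) (by
          rw [← pow_two, ← pow_mul, ← pow_succ']; exact h)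
        have hci : i * c = c * i := mem_centralizer_iff.1 (hcent hc) i hiR
        have hmem := k2 hB (hRK hiR) hc.1 (by rw [hsq i hiR hiz]; exact hz1)
          (by rw [hsq i hiR hiz]; exact hzz) hci (by
            rw [hsq i hiR hiz]; exact mem_zpowers_invol hzz hcc)
        rw [← hzc]
        exact ⟨zpowers_le.2 hiR hmem, hcent hc⟩
    exact zpowers_le.2 hzR (key k c hc (hk ▸ pow_orderOf_eq_one c))

/-- The structure theorem. -/
theorem main [Finite G] (hW : Odd (Nat.card W)) (hsW : Group.IsSolvable W) :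
    ∀ (n : ℕ) (X : Subgroup G), Nat.card X = n → IsPGroup 2 X → ⁅X, W⁆ = X →
      W ≤ normalizer (X : Set G) →
      (∀ Y : Subgroup G, Y ≤ X → Y ≠ X → W ≤ normalizer (Y : Set G) → ¬ Bad Y) → Shape X := by
  haveI := Fact.mk Nat.prime_two
  intro n
  induction n using Nat.strong_induction_on with
  | _ n ih =>
  intro X hn hX2 hXW hWX hprop
  by_cases hab : ∀ a ∈ X, ∀ b ∈ X, a * b = b * a
  · exact Or.inl hab
  right
  have hXne : X ≠ ⊥ := fun e => hab fun a ha b hb => by
    rw [e, mem_bot] at ha hb; rw [ha, hb]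
  set K := phi X with hK
  set Z := X ⊓ centralizer (X : Set G) with hZ
  have hKX : K ≤ X := map_subtype_le _
  have hWK : W ≤ normalizer (K : Set G) := hWX.trans (normalizer_le_phi X)
  have hXK : X ≤ normalizer (K : Set G) := le_normalizer.trans (normalizer_le_phi X)
  have hZX : Z ≠ X := fun e => hab fun a ha b hb => mem_centralizer_iff.1 ((e ▸ hb : b ∈ Z).2) a ha
  have hWZ : W ≤ normalizer (Z : Set G) := fun w hw => conj_mem_inf_centralizer (hWX hw)
  -- shapes of moved invariant proper subgroups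
  have small : ∀ Y : Subgroup G, Y ≤ X → Y ≠ X → W ≤ normalizer (Y : Set G) → ⁅Y, W⁆ ≠ ⊥ →
      ⁅Y, W⁆ = Y ∧ (IsE4 Y ∨ ∃ z, IsQ8 Y z) := by
    intro Y hYX hne hWY hmove
    have hcop : (Nat.card W).Coprime (Nat.card Y) := by
      obtain ⟨m, hm⟩ := IsPGroup.iff_card.1 (hX2.to_le hYX)
      rw [hm]; exact Nat.Coprime.pow_right m (Nat.coprime_two_right.2 hW)
    have hle : ⁅Y, W⁆ ≤ Y := Coprime.commutator_le_of_le_normalizer' hWY
    have hYB := hprop Y hYX hne hWY
    have hlt : Nat.card ↥⁅Y, W⁆ < n := by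
      rw [← hn]
      by_contra! hc
      exact hne (le_antisymm hYX ((Subgroup.eq_of_le_of_card_ge (hle.trans hYX) hc).ge.trans hle))
    have hWR := Coprime.right_le_normalizer_commutator Y W
    have hRW := Coprime.commutator_commutator hWY hcop (Or.inl hsW)
    have hR2 : IsPGroup 2 ↥⁅Y, W⁆ := hX2.to_le (hle.trans hYX)
    have hshape := ih _ hlt _ rfl hR2 hRW hWR fun Y' h1 _ h3 hb => hYB (hb.mono (h1.trans hle))
    have hs := small_of_shape hW hR2 hRW hWR hmove (fun hb => hYB (hb.mono hle)) hshape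
    have heq := absorb hW hsW (hX2.to_le hYX) hWY hYB hs
    exact ⟨heq, by rwa [heq] at hs⟩
  -- `K` is central
  have hKZ : K ≤ Z := by
    refine le_inf hKX ?_
    by_cases hmove : ⁅K, W⁆ = ⊥
    · intro k hk
      have hKC : K ≤ centralizer (W : Set G) := commutator_eq_bot_iff_le_centralizer.1 hmove
      exact cent_of_fixed hXW (hKC hk) fun x hx => hKC (commutator_mem_phi hX2 (hKX hk) hx)
    · obtain ⟨hKW, hs⟩ := small K hKX (phi_lt hXne) hWK hmove
      rcases hs with ⟨h4, hexp, hKab⟩ | ⟨z, hzK, hz1, hzz, h8, hzc, hsq⟩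
      · have hfix := fix_four (Z := ⊥) (T := X) hKW hWK
          (by rw [normalizer_eq_top_iff.2 inferInstance]; exact le_top) hWX
          (hX2.to_le (sup_le le_rfl hKX))
          (by rw [normalizer_eq_top_iff.2 inferInstance]; exact le_top)
          (by rw [normalizer_eq_top_iff.2 inferInstance]; exact le_top) hXK bot_le
          (by rw [h4, card_bot])
        exact fun k hk => mem_centralizer_iff.2 fun x hx =>
          (commutatorElement_eq_one_iff_mul_comm.1 (mem_bot.1 (hfix k hk x hx))).symm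
      · exfalso
        have hnK : normalizer (K : Set G) ≤ normalizer (zpowers z : Set G) := fun g hg => by
          rw [← hzc]; exact conj_mem_inf_centralizer hg
        have hfix := fix_four (Z := zpowers z) (T := X) hKW hWK (hWK.trans hnK) hWX
          (hX2.to_le (sup_le le_rfl hKX)) (le_normalizer.trans hnK) (hXK.trans hnK) hXK
          (zpowers_le.2 hzK)
          (by rw [h8, Nat.card_zpowers, orderOf_eq_prime (p := 2) (by rw [pow_two]; exact hzz) hz1])
        have hzX : ∀ g ∈ X, g * z = z * g := fun g hg => by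
          rcases mem_zpowers_invol hzz ((mem_normalizer_iff.1 (hnK (hXK hg)) z).1 (mem_zpowers z))
            with e | e
          · rw [mul_inv_eq_one, mul_eq_left] at e; exact absurd e hz1
          · exact mul_inv_eq_iff_eq_mul.1 e
        have hcen : K ≤ centralizer (K : Set G) := by
          refine phi_le (fun a ha b hb => ?_) fun a ha => ?_
          · refine mem_centralizer_iff.2 fun k hk => ?_
            obtain ⟨za, hza, ea⟩ : ∃ za ∈ zpowers z, k * a * k⁻¹ = za * a :=
              ⟨_, hfix k hk a ha, by simp only [commutatorElement_def]; group⟩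
            obtain ⟨zb, hzb, eb⟩ : ∃ zb ∈ zpowers z, k * b * k⁻¹ = zb * b :=
              ⟨_, hfix k hk b hb, by simp only [commutatorElement_def]; group⟩
            have cz : ∀ u ∈ zpowers z, ∀ g ∈ X, g * u = u * g := fun u hu g hg => by
              rcases mem_zpowers_invol hzz hu with rfl | rfl
              · simp
              · exact hzX g hg
            have e : k * ⁅a, b⁆ * k⁻¹ = ⁅a, b⁆ := by
              have hzX' : ∀ u ∈ zpowers z, u ∈ X := fun u hu => hKX (zpowers_le.2 hzK hu)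
              calc k * ⁅a, b⁆ * k⁻¹ = ⁅k * a * k⁻¹, k * b * k⁻¹⁆ := by
                    simp only [commutatorElement_def]; group
                _ = za * (a * zb) * b * a⁻¹ * za⁻¹ * b⁻¹ * zb⁻¹ := by
                    rw [ea, eb]; simp only [commutatorElement_def]; group
                _ = za * zb * (a * b * a⁻¹) * (za⁻¹ * b⁻¹) * zb⁻¹ := by rw [cz zb hzb a ha]; group
                _ = za * zb * (a * b * a⁻¹ * b⁻¹) * (zb * za)⁻¹ := by
                    rw [← cz za⁻¹ (inv_mem hza) b⁻¹ (inv_mem hb)]; group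
                _ = ⁅a, b⁆ := by
                    have hab' : a * b * a⁻¹ * b⁻¹ ∈ X :=
                      mul_mem (mul_mem (mul_mem ha hb) (inv_mem ha)) (inv_mem hb)
                    rw [← cz _ (mul_mem hza hzb) _ hab', ← cz zb hzb za (hzX' za hza),
                      commutatorElement_def]
                    group
            exact mul_inv_eq_iff_eq_mul.1 e
          · refine mem_centralizer_iff.2 fun k hk => ?_
            obtain ⟨za, hza, ea⟩ : ∃ za ∈ zpowers z, k * a * k⁻¹ = za * a :=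
              ⟨_, hfix k hk a ha, by simp only [commutatorElement_def]; group⟩
            have e : k * (a * a) * k⁻¹ = a * a := by
              calc k * (a * a) * k⁻¹ = (k * a * k⁻¹) * (k * a * k⁻¹) := by group
                _ = za * (a * za) * a := by rw [ea]; group
                _ = a * a := by
                  rcases mem_zpowers_invol hzz hza with rfl | rfl
                  · simp
                  · rw [hzX a ha, ← mul_assoc, hzz, one_mul]
            exact mul_inv_eq_iff_eq_mul.1 e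
        have hle : K ≤ zpowers z := hzc ▸ le_inf le_rfl hcen
        have := Nat.card_le_card_of_injective _ (inclusion_injective hle)
        rw [h8, Nat.card_zpowers, orderOf_eq_prime (p := 2) (by rw [pow_two]; exact hzz) hz1] at this
        omega
  have hKne : K ≠ ⊥ := fun e => hab fun a ha b hb =>
    commutatorElement_eq_one_iff_mul_comm.1 ((eq_bot_iff_forall _).1 e _ (commutator_mem_phi hX2 ha hb))
  have hcomle : ⁅X, X⁆ ≤ K := commutator_le.2 fun a ha b hb => commutator_mem_phi hX2 ha hb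
  have hcomne : ⁅X, X⁆ ≠ ⊥ := fun e => hab fun a ha b hb =>
    commutatorElement_eq_one_iff_mul_comm.1
      ((eq_bot_iff_forall _).1 e _ (commutator_mem_commutator ha hb))
  have hWcom : W ≤ normalizer ((⁅X, X⁆ : Subgroup G) : Set G) := fun w hw => by
    have key : ∀ g ∈ W, ∀ x ∈ ⁅X, X⁆, g * x * g⁻¹ ∈ ⁅X, X⁆ := by
      intro g hg
      have hle : ⁅X, X⁆ ≤ (⁅X, X⁆ : Subgroup G).comap (MulAut.conj g).toMonoidHom :=
        commutator_le.2 fun a ha b hb => by
          show g * ⁅a, b⁆ * g⁻¹ ∈ ⁅X, X⁆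
          rw [show g * ⁅a, b⁆ * g⁻¹ = ⁅g * a * g⁻¹, g * b * g⁻¹⁆ by
            simp only [commutatorElement_def]; group]
          exact commutator_mem_commutator ((mem_normalizer_iff.1 (hWX hg) a).1 ha)
            ((mem_normalizer_iff.1 (hWX hg) b).1 hb)
      exact fun x hx => hle hx
    rw [mem_normalizer_iff]
    exact fun x => ⟨key w hw x, fun hx => by simpa [mul_assoc] using key w⁻¹ (inv_mem hw) _ hx⟩
  by_cases hmove : ⁅Z, W⁆ = ⊥
  · have hZW : Z ≤ centralizer (W : Set G) := commutator_eq_bot_iff_le_centralizer.1 hmove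
    have hZK : Z = K := le_antisymm (fun z hz => fixed_mem_phi hW hX2 hXW hWX hz.1 (hZW hz)) hKZ
    have hcomc : ∀ a ∈ X, ∀ b ∈ X, ∀ g ∈ X, g * ⁅a, b⁆ = ⁅a, b⁆ * g := fun a ha b hb g hg =>
      mem_centralizer_iff.1 (hKZ (commutator_mem_phi hX2 ha hb)).2 g hg
    -- squares are products of commutators
    have hsqc : ∀ a ∈ X, a * a ∈ ⁅X, X⁆ := by
      let T : Subgroup G :=
        { carrier := {a | a ∈ X ∧ a * a ∈ ⁅X, X⁆}
          one_mem' := ⟨one_mem _, by simp⟩
          mul_mem' := fun {a b} ha hb => ⟨mul_mem ha.1 hb.1, by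
            rw [show a * b * (a * b) = (a * ⁅b, a⁆ * a) * (b * b) by
              simp only [commutatorElement_def]; group, hcomc b hb.1 a ha.1 a ha.1, mul_assoc ⁅b, a⁆]
            exact mul_mem (mul_mem (commutator_mem_commutator hb.1 ha.1) ha.2) hb.2⟩
          inv_mem' := fun {a} ha => ⟨inv_mem ha.1, by
            rw [← mul_inv_rev]; exact inv_mem ha.2⟩ }
      have hT : X ≤ T := hXW ▸ commutator_le.2 fun a ha w hw => by
        have hb : w * a⁻¹ * w⁻¹ ∈ X := (mem_normalizer_iff.1 (hWX hw) _).1 (inv_mem ha)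
        have hsqfix : w * (a⁻¹ * a⁻¹) * w⁻¹ = a⁻¹ * a⁻¹ := by
          rw [mem_centralizer_iff.1 (hZW (hKZ (sq_mem_phi hX2 (inv_mem ha)))) w hw,
            mul_inv_cancel_right]
        refine ⟨by rw [show ⁅a, w⁆ = a * (w * a⁻¹ * w⁻¹) by
          simp only [commutatorElement_def]; group]; exact mul_mem ha hb, ?_⟩
        set b := w * a⁻¹ * w⁻¹
        have hbb : b * b = a⁻¹ * a⁻¹ := by
          rw [show b * b = w * (a⁻¹ * a⁻¹) * w⁻¹ by simp only [b]; group, hsqfix]
        rw [show ⁅a, w⁆ = a * b by simp only [commutatorElement_def, b]; group,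
          show a * b * (a * b) = (a * ⁅b, a⁆ * a) * (b * b) by
            simp only [commutatorElement_def]; group, hbb, hcomc b hb a ha a ha]
        rw [show ⁅b, a⁆ * a * a * (a⁻¹ * a⁻¹) = ⁅b, a⁆ by group]
        exact commutator_mem_commutator hb ha
      exact fun a ha => (hT ha).2
    have hKcom : K ≤ ⁅X, X⁆ := phi_le (fun a ha b hb => commutator_mem_commutator ha hb) hsqc
    have hcomeq : ⁅X, X⁆ = Z := hZK ▸ le_antisymm hcomle hKcom
    have hexp : ∀ z ∈ Z, z * z = 1 := by
      let T : Subgroup G :=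
        { carrier := {z | z ∈ Z ∧ z * z = 1}
          one_mem' := ⟨one_mem _, one_mul 1⟩
          mul_mem' := fun {a b} ha hb => ⟨mul_mem ha.1 hb.1, by
            calc a * b * (a * b) = a * (b * a) * b := by group
              _ = (a * a) * (b * b) := by rw [mem_centralizer_iff.1 ha.1.2 b hb.1.1]; group
              _ = 1 := by rw [ha.2, hb.2, one_mul]⟩
          inv_mem' := fun {a} ha => ⟨inv_mem ha.1, by rw [← mul_inv_rev, ha.2, inv_one]⟩ }
      have hT : ⁅X, X⁆ ≤ T := commutator_le.2 fun a ha b hb => by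
        refine ⟨hKZ (commutator_mem_phi hX2 ha hb), ?_⟩
        have hbb : a * (b * b) = b * b * a :=
          mem_centralizer_iff.1 (hKZ (sq_mem_phi hX2 hb)).2 a ha
        calc ⁅a, b⁆ * ⁅a, b⁆ = ⁅a, b⁆ * (b * ⁅a, b⁆ * b⁻¹) := by
              rw [hcomc a ha b hb b hb, mul_inv_cancel_right]
          _ = a * (b * b) * a⁻¹ * (b * b)⁻¹ := by simp only [commutatorElement_def]; group
          _ = 1 := by rw [hbb]; group
      exact fun z hz => (hT (hcomeq.symm ▸ hz)).2
    refine ⟨hcomeq, hZK.symm, hexp, ?_⟩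
    obtain ⟨m, hm⟩ := IsPGroup.iff_card.1 (hX2.to_le (inf_le_left : Z ≤ X))
    have hm3 : m ≤ 2 := by
      by_contra! hm3
      refine hprop Z inf_le_left hZX hWZ ?_
      haveI : IsMulCommutative Z := ⟨⟨fun a b => Subtype.ext (mem_centralizer_iff.1 b.2.2 a a.2.1)⟩⟩
      have h8 : 2 ^ 3 ∣ Nat.card Z := hm ▸ pow_dvd_pow 2 hm3
      obtain ⟨A, hA⟩ := Sylow.exists_subgroup_card_pow_prime 2 h8
      refine bad_of_eight (A := A.map Z.subtype) (map_subtype_le _) ?_ ?_ ?_
      · exact ⟨⟨fun a b => Subtype.ext (mem_centralizer_iff.1 (map_subtype_le _ b.2).2 a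
          (map_subtype_le _ a.2).1)⟩⟩
      · intro hcyc
        obtain ⟨⟨g, hg⟩, hgen⟩ := IsCyclic.exists_generator (α := ↥(A.map Z.subtype))
        have h2 : orderOf (⟨g, hg⟩ : ↥(A.map Z.subtype)) ≤ 2 :=
          orderOf_le_of_pow_eq_one (by norm_num) (Subtype.ext (by
            simp [pow_two, hexp g (map_subtype_le _ hg)]))
        rw [orderOf_eq_card_of_forall_mem_zpowers hgen,
          ← Nat.card_congr (A.equivMapOfInjective _ Z.subtype_injective).toEquiv, hA] at h2
        norm_num at h2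
      · rw [← Nat.card_congr (A.equivMapOfInjective _ Z.subtype_injective).toEquiv, hA]; norm_num
    have hm1 : m ≠ 0 := fun e => hKne (le_bot_iff.1 (hKZ.trans
      (Subgroup.card_eq_one.1 (by rw [hm, e, pow_zero])).le))
    interval_cases m
    · exact absurd rfl hm1
    · left; rw [hm]; norm_num
    · right; rw [hm]; norm_num
  · obtain ⟨hZW, hs⟩ := small Z inf_le_left hZX hWZ hmove
    rcases hs with ⟨h4, hexp, -⟩ | ⟨z, -, hz1, hzz, h8, hzc, -⟩
    · have key : ∀ Y : Subgroup G, Y ≤ Z → Y ≠ ⊥ → W ≤ normalizer (Y : Set G) → Y = Z := by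
        intro Y hYZ hYne hWY
        have h2 : 2 ≤ Nat.card Y := Y.one_lt_card_iff_ne_bot.2 hYne
        exact le_antisymm hYZ (no_index_two hZW hWZ hWY fun a ha b hb haY hbY =>
          inv_mul_mem_of_card hYZ (by omega) ha hb haY hbY)
      exact ⟨key _ (hcomle.trans hKZ) hcomne hWcom, key K hKZ hKne hWK, hexp, Or.inr h4⟩
    · exfalso
      have hle : Z ≤ zpowers z := hzc ▸ le_inf le_rfl fun a ha =>
        mem_centralizer_iff.2 fun b hb => mem_centralizer_iff.1 ha.2 b hb.1
      have := Nat.card_le_card_of_injective _ (inclusion_injective hle)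
      rw [h8, Nat.card_zpowers, orderOf_eq_prime (p := 2) (by rw [pow_two]; exact hzz) hz1] at this
      omega



theorem inner_of_trivial [Finite G] {Q : Subgroup G} {z : G} (hzQ : z ∈ Q) (hzz : z * z = 1)
    (h8 : Nat.card Q = 8) (hzc : Q ⊓ centralizer (Q : Set G) = zpowers z)
    (hsq : ∀ x ∈ Q, x ∉ zpowers z → x * x = z) (hCQ : centralizer (Q : Set G) ≤ Q)
    (hzG : ∀ g : G, g * z = z * g) {a : G} (h : ∀ y ∈ Q, ⁅y, a⁆ ∈ zpowers z) : a ∈ Q := by
  have hcl : Nat.card ↥(zpowers z) ≤ 2 := by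
    rw [Nat.card_zpowers]; exact orderOf_le_of_pow_eq_one (by norm_num) (by rw [pow_two]; exact hzz)
  obtain ⟨i, hi, hiz⟩ : ∃ i ∈ Q, i ∉ zpowers z := SetLike.not_le_iff_exists.1 fun h => by
    have := Nat.card_le_card_of_injective _ (inclusion_injective h)
    omega
  have hio : Nat.card ↥(zpowers i) = 4 := by
    have hz1 : z ≠ 1 := fun e => by
      subst e
      rw [zpowers_one_eq_bot] at hzc hiz
      have hsq' : ∀ x ∈ Q, x * x = 1 := fun x hx => by
        by_cases hx1 : x = 1
        · simp [hx1]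
        · exact hsq x hx (by rw [zpowers_one_eq_bot, mem_bot]; exact hx1)
      have : i ∈ Q ⊓ centralizer (Q : Set G) := Subgroup.mem_inf.2 ⟨hi, mem_centralizer_iff.2 fun g hg => by
        have e1 := inv_eq_of_mul_eq_one_right (hsq' g hg)
        have e2 := inv_eq_of_mul_eq_one_right (hsq' i hi)
        have e3 := inv_eq_of_mul_eq_one_right (hsq' _ (mul_mem hg hi))
        rw [mul_inv_rev, e1, e2] at e3
        exact e3.symm⟩
      rw [hzc] at this
      exact hiz this
    haveI := Fact.mk Nat.prime_two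
    have hi4 : i ^ 2 ^ (1 + 1) = 1 := by
      rw [show 2 ^ (1 + 1) = 2 * 2 by norm_num, pow_mul, pow_two, pow_two, hsq i hi hiz, hzz]
    have := orderOf_eq_prime_pow (p := 2) (n := 1) (by rw [pow_one, pow_two, hsq i hi hiz]; exact hz1) hi4
    rw [Nat.card_zpowers]; simpa using this
  obtain ⟨x, hx, hxi⟩ : ∃ x ∈ Q, x ∉ zpowers i := SetLike.not_le_iff_exists.1 fun h => by
    have := Nat.card_le_card_of_injective _ (inclusion_injective h)
    omega
  have hgen : ∀ q ∈ Q, q ∈ zpowers i ∨ x⁻¹ * q ∈ zpowers i := fun q hq => by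
    by_cases hqi : q ∈ zpowers i
    · exact Or.inl hqi
    · exact Or.inr (inv_mul_mem_of_card (zpowers_le.2 hi) (by rw [hio]; omega) hx hq hxi hqi)
  have hix : i * x = z * (x * i) := by
    have hne : x * i ∉ zpowers z := fun e => hxi (by
      have hzi : zpowers z ≤ zpowers i := by
        rw [zpowers_le, ← hsq i hi hiz]; exact mul_mem (mem_zpowers i) (mem_zpowers i)
      simpa using mul_mem (hzi e) (inv_mem (mem_zpowers i)))
    have e1 := hsq (x * i) (mul_mem hx hi) hne
    have hxz : x ∉ zpowers z := fun e => hxi (by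
      rw [show zpowers z = zpowers (i * i) by rw [hsq i hi hiz]] at e
      exact zpowers_le.2 (mul_mem (mem_zpowers i) (mem_zpowers i)) e)
    have e2 := hsq x hx hxz
    have e3 := hsq i hi hiz
    calc i * x = x⁻¹ * (x * i * (x * i)) * i⁻¹ := by group
      _ = (x⁻¹ * z) * i⁻¹ := by rw [e1]
      _ = (x⁻¹ * (x * x)) * i⁻¹ := by rw [e2]
      _ = x * i⁻¹ := by group
      _ = x * (i * (i⁻¹ * i⁻¹)) := by group
      _ = z * (x * i) := by
        rw [show i⁻¹ * i⁻¹ = (i * i)⁻¹ by group, e3, inv_eq_of_mul_eq_one_right hzz, hzG i,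
          ← mul_assoc, hzG x, mul_assoc]
  -- adjust `a` by an element of `Q`
  have hcase : ∀ y ∈ Q, a * y = y * a ∨ a * y = z * (y * a) := fun y hy => by
    rcases mem_zpowers_invol hzz (h y hy) with e | e
    · left; exact (commutatorElement_eq_one_iff_mul_comm.1 e).symm
    · right
      rw [commutatorElement_def, mul_inv_eq_iff_eq_mul, mul_inv_eq_iff_eq_mul] at e
      rw [e, mul_assoc z a y, ← mul_assoc, ← mul_assoc, hzz, one_mul]
  have hxiz : x * i = z * (i * x) := by rw [hix, ← mul_assoc, hzz, one_mul]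
  -- multiplication on the right by an element anticommuting with `y`
  have hflip : ∀ a' q y : G, a' * y = z * (y * a') → q * y = z * (y * q) → a' * q * y = y * (a' * q) := by
    intro a' q y h1 h2
    calc a' * q * y = a' * (q * y) := mul_assoc _ _ _
      _ = a' * z * (y * q) := by rw [h2]; group
      _ = z * (a' * y) * q := by rw [hzG a']; group
      _ = (z * z) * y * a' * q := by rw [h1]; group
      _ = y * (a' * q) := by rw [hzz, one_mul, mul_assoc]
  have hkeep : ∀ a' q y : G, a' * y = y * a' → q * y = y * q → a' * q * y = y * (a' * q) := by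
    intro a' q y h1 h2
    rw [mul_assoc, h2, ← mul_assoc, h1, mul_assoc]
  -- first fix `x`, then `i`
  obtain ⟨q₁, hq₁, hx₁, hy₁⟩ : ∃ q ∈ Q, a * q * x = x * (a * q) ∧
      (a * q * i = i * (a * q) ∨ a * q * i = z * (i * (a * q))) := by
    rcases hcase x hx with e | e
    · exact ⟨1, one_mem Q, by simpa using e, by simpa using hcase i hi⟩
    · refine ⟨i, hi, hflip a i x e hix, ?_⟩
      rcases hcase i hi with e' | e'
      · exact Or.inl (hkeep a i i e' rfl)
      · refine Or.inr ?_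
        calc a * i * i = z * (i * a) * i := by rw [e']
          _ = z * (i * (a * i)) := by group
  obtain ⟨q, hq, hqx, hqi⟩ : ∃ q ∈ Q, a * q * x = x * (a * q) ∧ a * q * i = i * (a * q) := by
    rcases hy₁ with e | e
    · exact ⟨q₁, hq₁, hx₁, e⟩
    · refine ⟨q₁ * x, mul_mem hq₁ hx, ?_, ?_⟩
      · rw [← mul_assoc a q₁ x]; exact hkeep _ x x hx₁ rfl
      · rw [← mul_assoc a q₁ x]; exact hflip _ x i e hxiz
  have hC : a * q ∈ Q := hCQ (mem_centralizer_iff.2 fun y hy => by
    have hI : zpowers i ≤ centralizer {a * q} :=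
      zpowers_le.2 (mem_centralizer_singleton_iff.2 hqi.symm)
    rcases hgen y hy with h' | h'
    · exact mem_centralizer_singleton_iff.1 (hI h')
    · have h'' := mem_centralizer_singleton_iff.1 (hI h')
      set d := x⁻¹ * y
      rw [show y = x * d by simp only [d]; group, mul_assoc, h'', ← mul_assoc, ← hqx]
      group)
  simpa using mul_mem hC (inv_mem hq)

theorem card_inf_ge [Finite G] {A Q : Subgroup G} (hA : Nat.card A = 8)
    (h : ∀ a ∈ A, a ∉ Q → ∀ b ∈ A, b ∉ Q → a * b ∈ Q) : 4 ≤ Nat.card ↥(A ⊓ Q) := by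
  have hinf : (A ⊓ Q).subgroupOf A = Q.subgroupOf A := by
    ext x; simp [mem_subgroupOf]
  have hidx : ((A ⊓ Q).subgroupOf A).index ≤ 2 := by
    rw [hinf]
    by_cases hAQ : A ≤ Q
    · rw [subgroupOf_eq_top.2 hAQ, index_top]; norm_num
    · obtain ⟨a, ha, haQ⟩ := SetLike.not_le_iff_exists.1 hAQ
      refine le_of_eq (Subgroup.index_eq_two_iff.2 ⟨⟨a, ha⟩, fun b => ?_⟩)
      simp only [mem_subgroupOf, Subgroup.coe_mul]
      by_cases hb : (b : G) ∈ Q
      · exact Or.inr ⟨hb, fun h' => haQ (by simpa using mul_mem (inv_mem hb) h')⟩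
      · exact Or.inl ⟨h b b.2 hb a ha haQ, hb⟩
  have h2 := ((A ⊓ Q).subgroupOf A).card_mul_index
  rw [Coprime.card_subgroupOf inf_le_left, hA] at h2
  nlinarith

/-- A quaternion or four-group `Q ⊇ C(Q)` does not extend to a group with a noncyclic abelian
subgroup of order 8. -/
theorem no_bad_above [Finite G] {Q : Subgroup G} (hQn : Q.Normal) (hQ2 : IsPGroup 2 Q)
    (hCQ : centralizer (Q : Set G) ≤ Q) (hQB : ¬ Bad Q) (hs : IsE4 Q ∨ ∃ z, IsQ8 Q z)
    {A : Subgroup G} (hAc : IsMulCommutative A) (hAcyc : ¬ IsCyclic A) (hA : Nat.card A = 8) :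
    False := by
  haveI := Fact.mk Nat.prime_two
  haveI := hQn
  have hA2 : IsPGroup 2 A := IsPGroup.of_card (n := 3) (by rw [hA]; norm_num)
  have hp : IsPGroup 2 ↥(A ⊔ Q) := Hall.isPGroup_sup_of_normal hA2 hQ2
  have hAcm : ∀ a ∈ A, ∀ b ∈ A, a * b = b * a := fun a ha b hb =>
    congrArg Subtype.val (hAc.is_comm.comm (⟨a, ha⟩ : A) ⟨b, hb⟩)
  have hnQA : ∀ H : Subgroup G, H ≤ normalizer (Q : Set G) := fun H => by
    rw [normalizer_eq_top_iff.2 hQn]; exact le_top
  have hnotle : ¬ A ≤ Q := fun h => hQB (bad_of_eight h hAc hAcyc hA)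
  rcases hs with ⟨h4, hexp, hab⟩ | ⟨z, hzQ, hz1, hzz, h8, hzc, hsq⟩
  · -- four group
    set J := ⁅Q, A⁆ with hJ
    have hJQ : J ≤ Q := Coprime.commutator_le_of_le_normalizer' (hnQA A)
    have hJne : J ≠ Q := fun e => by
      have := not_full (Z := ⊥) hp (by rw [normalizer_eq_top_iff.2 inferInstance]; exact le_top)
        (by rw [normalizer_eq_top_iff.2 inferInstance]; exact le_top) bot_le (by rw [sup_bot_eq]; exact e)
      rw [this, card_bot] at h4
      omega
    have hJ2 : Nat.card J ≤ 2 := by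
      obtain ⟨i, hi⟩ := IsPGroup.iff_card.1 (hQ2.to_le hJQ)
      have hlt : Nat.card J < 4 := by
        by_contra! hc
        exact hJne (Subgroup.eq_of_le_of_card_ge hJQ (h4.le.trans hc))
      rw [hi] at hlt ⊢
      have : i < 2 := (Nat.pow_lt_pow_iff_right (by norm_num)).1 (hlt.trans_le (by norm_num))
      calc 2 ^ i ≤ 2 ^ 1 := Nat.pow_le_pow_right (by norm_num) (by omega)
        _ = 2 := by norm_num
    have hmul : ∀ a ∈ A, a ∉ Q → ∀ b ∈ A, b ∉ Q → a * b ∈ Q := by
      intro a ha haQ b hb hbQ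
      refine hCQ (mem_centralizer_iff.2 fun x hx => ?_)
      have hJc : ∀ d ∈ J, ∀ g ∈ A, g * d = d * g := by
        intro d hd g hg
        have hd' : g * d * g⁻¹ ∈ J :=
          (mem_normalizer_iff.1 (Coprime.right_le_normalizer_commutator Q A hg) d).1 hd
        by_cases h1 : d = 1
        · simp [h1]
        by_cases h2 : g * d * g⁻¹ = 1
        · exact absurd (conj_eq_one_iff.1 h2) h1
        have : g * d * g⁻¹ = d := by
          by_contra hne
          have hsub : ({1, d, g * d * g⁻¹} : Set G) ⊆ (J : Set G) := by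
            rintro y (rfl | rfl | rfl)
            exacts [one_mem _, hd, hd']
          have := (Set.ncard_le_ncard hsub (Set.toFinite _))
          rw [Set.ncard_eq_three.2 ⟨1, d, g * d * g⁻¹, Ne.symm h1, Ne.symm h2, Ne.symm hne, rfl⟩,
            ← Nat.card_coe_set_eq, SetLike.coe_sort_coe] at this
          omega
        exact mul_inv_eq_iff_eq_mul.1 this
      have hj : ∀ g ∈ A, ∃ d ∈ J, g * x * g⁻¹ = d * x := fun g hg =>
        ⟨⁅g, x⁆, (Subgroup.commutator_comm A Q).le (commutator_mem_commutator hg hx), by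
          simp only [commutatorElement_def]; group⟩
      obtain ⟨da, hda, ea⟩ := hj a ha
      obtain ⟨db, hdb, eb⟩ := hj b hb
      have hxJ : ∀ g ∈ A, g ∉ Q → x ∈ J ∨ g * x * g⁻¹ ≠ x := by
        intro g hg hgQ
        by_cases hxJ' : x ∈ J
        · exact Or.inl hxJ'
        refine Or.inr fun e => hgQ (hCQ (mem_centralizer_iff.2 fun y hy => ?_))
        by_cases hyJ : y ∈ J
        · exact (hJc y hyJ g hg).symm
        by_cases hJbot : J = ⊥
        · exact mem_centralizer_iff.1 ((commutator_eq_bot_iff_le_centralizer.1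
            (show ⁅A, Q⁆ = ⊥ by rw [commutator_comm]; exact hJbot)) hg) y hy
        have h2 : 2 ≤ Nat.card J := J.one_lt_card_iff_ne_bot.2 hJbot
        have hmem := inv_mul_mem_of_card hJQ (by omega) hx hy hxJ' hyJ
        have h3 := hJc _ hmem g hg
        have e' : g * x = x * g := mul_inv_eq_iff_eq_mul.1 e
        calc y * g = x * ((x⁻¹ * y) * g) := by group
          _ = (x * g) * (x⁻¹ * y) := by rw [← h3]; group
          _ = g * y := by rw [← e']; group
      have key : x * (a * b) = a * b * x := by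
        rcases hxJ a ha haQ with hxJ' | hane
        · exact (hJc x hxJ' (a * b) (mul_mem ha hb)).symm
        rcases hxJ b hb hbQ with hxJ' | hbne
        · exact (hJc x hxJ' (a * b) (mul_mem ha hb)).symm
        have hda1 : da ≠ 1 := fun e => hane (by rw [ea, e, one_mul])
        have hdb1 : db ≠ 1 := fun e => hbne (by rw [eb, e, one_mul])
        have hdd : da = db := by
          by_contra hne
          have hsub : ({1, da, db} : Set G) ⊆ (J : Set G) := by
            rintro y (rfl | rfl | rfl)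
            exacts [one_mem _, hda, hdb]
          have := (Set.ncard_le_ncard hsub (Set.toFinite _))
          rw [Set.ncard_eq_three.2 ⟨1, da, db, Ne.symm hda1, Ne.symm hdb1, hne, rfl⟩,
            ← Nat.card_coe_set_eq, SetLike.coe_sort_coe] at this
          omega
        have : a * b * x * (a * b)⁻¹ = x := by
          calc a * b * x * (a * b)⁻¹ = (a * db) * a⁻¹ * (a * x * a⁻¹) := by
                rw [show a * b * x * (a * b)⁻¹ = a * (b * x * b⁻¹) * a⁻¹ by group, eb]; group
            _ = x := by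
              rw [hJc db hdb a ha, mul_inv_cancel_right, ea, hdd, ← mul_assoc,
                hexp db (hJQ hdb), one_mul]
        exact (mul_inv_eq_iff_eq_mul.1 this).symm
      exact key
    have hAQ : 4 ≤ Nat.card ↥(A ⊓ Q) := card_inf_ge hA hmul
    have heq : A ⊓ Q = Q := Subgroup.eq_of_le_of_card_ge inf_le_right (h4.le.trans hAQ)
    have hQA : Q ≤ A := heq ▸ inf_le_left
    exact hnotle fun a ha => hCQ (mem_centralizer_iff.2 fun x hx => hAcm x (hQA hx) a ha)
  · -- quaternion group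
    have hzo : Nat.card ↥(zpowers z) = 2 := by
      rw [Nat.card_zpowers, orderOf_eq_prime (p := 2) (by rw [pow_two]; exact hzz) hz1]
    have hnz : normalizer (Q : Set G) ≤ normalizer (zpowers z : Set G) := fun g hg => by
      rw [← hzc]; exact conj_mem_inf_centralizer hg
    have hzG : ∀ g : G, g * z = z * g := fun g => by
      rcases mem_zpowers_invol hzz ((mem_normalizer_iff.1 (hnz ((hnQA ⊤) (mem_top g))) z).1 (mem_zpowers z))
        with e | e
      · rw [mul_inv_eq_one, mul_eq_left] at e; exact absurd e hz1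
      · exact mul_inv_eq_iff_eq_mul.1 e
    set J := ⁅Q, A⁆ ⊔ zpowers z with hJ
    have hJQ : J ≤ Q := sup_le (Coprime.commutator_le_of_le_normalizer' (hnQA A)) (zpowers_le.2 hzQ)
    have hJne : J ≠ Q := fun e => by
      have := not_full (Z := zpowers z) hp ((hnQA Q).trans hnz) ((hnQA A).trans hnz) (zpowers_le.2 hzQ) e
      rw [this, hzo] at h8
      omega
    have hJ4 : Nat.card J ≤ 4 := by
      obtain ⟨i, hi⟩ := IsPGroup.iff_card.1 (hQ2.to_le hJQ)
      have hlt : Nat.card J < 8 := by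
        by_contra! hc
        exact hJne (Subgroup.eq_of_le_of_card_ge hJQ (h8.le.trans hc))
      rw [hi] at hlt ⊢
      have : i < 3 := (Nat.pow_lt_pow_iff_right (by norm_num)).1 (hlt.trans_le (by norm_num))
      calc 2 ^ i ≤ 2 ^ 2 := Nat.pow_le_pow_right (by norm_num) (by omega)
        _ = 4 := by norm_num
    -- commutators with `A`
    have hcomJ : ∀ x ∈ Q, ∀ a ∈ A, ⁅x, a⁆ ∈ J := fun x hx a ha =>
      mem_sup_left (commutator_mem_commutator hx ha)
    have hzJ : zpowers z ≤ J := le_sup_right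
    obtain ⟨i, hiJ, hiz⟩ : ∃ i ∈ J, i ∉ zpowers z := by
      by_contra! hall
      exact hnotle fun a ha => inner_of_trivial hzQ hzz h8 hzc hsq hCQ hzG fun x hx =>
        hall _ (hcomJ x hx a ha)
    obtain ⟨x, hx, hxJ⟩ : ∃ x ∈ Q, x ∉ J := SetLike.not_le_iff_exists.1 fun h => hJne (le_antisymm hJQ h)
    have hJmul : ∀ d ∈ J, ∀ e ∈ J, d ∉ zpowers z → e ∉ zpowers z → d * e ∈ zpowers z := by
      intro d hd e he hdz hez
      have := inv_mul_mem_of_card hzJ (by rw [hzo]; exact hJ4) (inv_mem hd) he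
        (fun h => hdz (by simpa using inv_mem h)) hez
      rwa [inv_inv] at this
    have hgJ : ∀ a ∈ A, ∀ d ∈ J, a * d * a⁻¹ ∈ J := fun a ha d hd => by
      refine (show J ≤ J.comap (MulAut.conj a).toMonoidHom from sup_le (fun u hu => ?_)
        (zpowers_le.2 ?_)) hd
      · exact mem_sup_left ((mem_normalizer_iff.1 (Coprime.right_le_normalizer_commutator Q A ha) u).1 hu)
      · show a * z * a⁻¹ ∈ J
        rw [hzG a, mul_inv_cancel_right]; exact hzJ (mem_zpowers z)
    have htriv : ∀ a ∈ A, ⁅x, a⁆ ∈ zpowers z → a ∈ Q := by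
      intro a ha hxa
      refine inner_of_trivial hzQ hzz h8 hzc hsq hCQ hzG fun y hy => ?_
      have hJtriv : ∀ d ∈ J, ⁅d, a⁆ ∈ zpowers z := by
        intro d hd
        have e : ⁅d, a⁆ = d * (a * d⁻¹ * a⁻¹) := by simp only [commutatorElement_def]; group
        by_cases hdz : d ∈ zpowers z
        · rcases mem_zpowers_invol hzz hdz with rfl | rfl
          · simp
          · rw [e, inv_eq_of_mul_eq_one_right hzz, hzG a, mul_inv_cancel_right, hzz]; exact one_mem _
        · rw [e]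
          refine hJmul d hd _ (hgJ a ha _ (inv_mem hd)) hdz fun h => hdz ?_
          rcases mem_zpowers_invol hzz h with h' | h'
          · rw [inv_eq_one.1 (conj_eq_one_iff.1 h')]; exact one_mem _
          · have h'' : d⁻¹ = z := by
              have h1 := mul_inv_eq_iff_eq_mul.1 h'
              rw [← hzG a] at h1
              exact mul_left_cancel h1
            rw [← inv_inv d, h'']; exact inv_mem (mem_zpowers z)
      by_cases hyJ : y ∈ J
      · exact hJtriv y hyJ
      have hd : x⁻¹ * y ∈ J := inv_mul_mem_of_card hJQ (by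
        have : Nat.card J = 4 := by
          by_contra hne
          have h2 : 2 ^ 1 < Nat.card J := by
            rw [pow_one, ← hzo]
            by_contra! hc
            exact hiz ((Subgroup.eq_of_le_of_card_ge hzJ hc).symm ▸ hiJ)
          have := two_pow_le_of_lt (hQ2.to_le hJQ) h2
          omega
        omega) hx hy hxJ hyJ
      have hjd := hJtriv _ hd
      set d := x⁻¹ * y
      rw [show y = x * d by simp only [d]; group,
        show ⁅x * d, a⁆ = (x * ⁅d, a⁆ * x⁻¹) * ⁅x, a⁆ by simp only [commutatorElement_def]; group]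
      refine mul_mem ?_ hxa
      rcases mem_zpowers_invol hzz hjd with e | e <;> rw [e]
      · simp
      · rw [hzG x, mul_inv_cancel_right]; exact mem_zpowers z
    have hmul : ∀ a ∈ A, a ∉ Q → ∀ b ∈ A, b ∉ Q → a * b ∈ Q := by
      intro a ha haQ b hb hbQ
      refine htriv _ (mul_mem ha hb) ?_
      have e : ⁅x, a * b⁆ = ⁅x, a⁆ * (a * ⁅x, b⁆ * a⁻¹) := by simp only [commutatorElement_def]; group
      rw [e]
      refine hJmul _ (hcomJ x hx a ha) _ (hgJ a ha _ (hcomJ x hx b hb)) (fun h => haQ (htriv a ha h))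
        fun h => hbQ (htriv b hb ?_)
      rcases mem_zpowers_invol hzz h with h' | h'
      · rw [conj_eq_one_iff.1 h']; exact one_mem _
      · have h1 := mul_inv_eq_iff_eq_mul.1 h'
        rw [← hzG a] at h1
        rw [mul_left_cancel h1]; exact mem_zpowers z
    have hAQ : 4 ≤ Nat.card ↥(A ⊓ Q) := card_inf_ge hA hmul
    obtain ⟨j, hj, hjz⟩ : ∃ j ∈ A ⊓ Q, j ∉ zpowers z := by
      by_contra! hall
      have := Nat.card_le_card_of_injective _ (inclusion_injective (show A ⊓ Q ≤ zpowers z from hall))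
      omega
    -- an involution of `A` outside `Q`
    obtain ⟨u, v, c, hu, hv, -, hu1, hv1, huv, hu2, hv2, -⟩ := bad_of_eight le_rfl hAc hAcyc hA
    obtain ⟨b, hb, hb2, hbQ⟩ : ∃ b ∈ A, b * b = 1 ∧ b ∉ Q := by
      by_contra! hall
      have key : ∀ b ∈ A, b * b = 1 → b ≠ 1 → b = z := fun b hb hb2 hb1 => by
        by_contra hne
        have := hsq b (hall b hb hb2) fun h => (mem_zpowers_invol hzz h).elim hb1 hne
        exact hz1 (this.symm.trans hb2)
      exact huv ((key u hu hu2 hu1).trans (key v hv hv2 hv1).symm)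
    have hjj : j * j = z := hsq j hj.2 hjz
    have hj4 : orderOf j = 4 := by
      have h4' : j ^ 2 ^ (1 + 1) = 1 := by
        rw [show 2 ^ (1 + 1) = 2 * 2 by norm_num, pow_mul, pow_two, pow_two, hjj, hzz]
      have := orderOf_eq_prime_pow (p := 2) (n := 1) (by rw [pow_one, pow_two, hjj]; exact hz1) h4'
      simpa using this
    obtain ⟨y, hy, hyj⟩ : ∃ y ∈ Q, y ∉ zpowers j := by
      refine SetLike.not_le_iff_exists.1 fun h => ?_
      have := Nat.card_le_card_of_injective _ (inclusion_injective h)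
      rw [h8, Nat.card_zpowers, hj4] at this
      omega
    have hbi : b⁻¹ = b := inv_eq_of_mul_eq_one_right hb2
    have hbj : b * j = j * b := hAcm b hb j hj.1
    have hy' : b * y * b⁻¹ ∈ Q := hQn.conj_mem y hy b
    have hy'j : b * y * b⁻¹ ∉ zpowers j := fun h => hyj (by
      obtain ⟨n, hn⟩ := mem_zpowers_iff.1 h
      refine mem_zpowers_iff.2 ⟨n, ?_⟩
      have hc : Commute b (j ^ n) := (show Commute b j from hbj).zpow_right n
      calc j ^ n = b⁻¹ * (b * j ^ n) := by group
        _ = b⁻¹ * (j ^ n * b) := by rw [hc.eq]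
        _ = y := by rw [hn]; group)
    have hd := inv_mul_mem_of_card (H := zpowers j) (zpowers_le.2 hj.2)
      (by rw [h8, Nat.card_zpowers, hj4]) hy hy' hyj hy'j
    obtain ⟨n, hn⟩ := mem_zpowers_iff.1 hd
    have hdd : j ^ n * j ^ n = 1 := by
      have e1 : b * y * b⁻¹ = y * j ^ n := by rw [hn]; group
      have e2 : b * (y * j ^ n) * b⁻¹ = y := by
        rw [← e1]
        calc b * (b * y * b⁻¹) * b⁻¹ = (b * b) * y * (b * b)⁻¹ := by group
          _ = y := by rw [hb2]; group
      have hc : Commute b (j ^ n) := (show Commute b j from hbj).zpow_right n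
      rw [show b * (y * j ^ n) * b⁻¹ = (b * y * b⁻¹) * (b * j ^ n * b⁻¹) by group, e1, hc.eq,
        mul_inv_cancel_right, mul_assoc] at e2
      exact mul_eq_left.1 e2
    have hdz : j ^ n ∈ zpowers z := by
      by_contra h
      exact hz1 ((hsq _ (zpow_mem (K := Q) hj.2 n) h).symm.trans hdd)
    refine hbQ (inner_of_trivial hzQ hzz h8 hzc hsq hCQ hzG fun q hq => ?_)
    have hjt : ∀ d ∈ zpowers j, ⁅d, b⁆ = 1 := fun d hd => by
      obtain ⟨m, rfl⟩ := mem_zpowers_iff.1 hd
      exact commutatorElement_eq_one_iff_mul_comm.2 ((show Commute b j from hbj).zpow_right m).eq.symm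
    have hyb : ⁅y, b⁆ ∈ zpowers z := by
      rw [show ⁅y, b⁆ = (y * (j ^ n)⁻¹ * y⁻¹) by
        rw [hn]; simp only [commutatorElement_def]; group]
      rcases mem_zpowers_invol hzz hdz with e | e <;> rw [e]
      · simp
      · rw [inv_eq_of_mul_eq_one_right hzz, hzG y, mul_inv_cancel_right]; exact mem_zpowers z
    by_cases hqj : q ∈ zpowers j
    · rw [hjt q hqj]; exact one_mem _
    · have hd' := inv_mul_mem_of_card (H := zpowers j) (zpowers_le.2 hj.2)
        (by rw [h8, Nat.card_zpowers, hj4]) hy hq hyj hqj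
      have hjd := hjt _ hd'
      set d := y⁻¹ * q
      rw [show q = y * d by simp only [d]; group,
        show ⁅y * d, b⁆ = (y * ⁅d, b⁆ * y⁻¹) * ⁅y, b⁆ by simp only [commutatorElement_def]; group,
        hjd]
      simpa using hyb

theorem A_le_of_normal [Finite G] {Q A : Subgroup G} (hQn : Q.Normal) (hQ2 : IsPGroup 2 Q)
    (hQW : Q ⊔ W = ⊤) (hW : Odd (Nat.card W)) (hA : Nat.card A = 8) : A ≤ Q := by
  haveI := hQn
  intro a ha
  obtain ⟨w, hw, y, hy, hwy⟩ := (Coprime.mem_sup_of_le_normalizer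
    (show W ≤ normalizer (Q : Set G) by rw [normalizer_eq_top_iff.2 hQn]; exact le_top)).1
    (show a ∈ W ⊔ Q by rw [sup_comm, hQW]; exact mem_top a)
  have hπy : QuotientGroup.mk' Q y = 1 := (QuotientGroup.eq_one_iff y).2 hy
  have e : QuotientGroup.mk' Q a = QuotientGroup.mk' Q w := by rw [← hwy, map_mul, hπy, mul_one]
  have h1 : orderOf (QuotientGroup.mk' Q a) ∣ 2 ^ 3 := by
    refine (orderOf_map_dvd _ a).trans ?_
    rw [show (2 : ℕ) ^ 3 = Nat.card A by rw [hA]; norm_num]
    exact Subgroup.orderOf_dvd_natCard A ha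
  have h2 : orderOf (QuotientGroup.mk' Q a) ∣ Nat.card W := by
    rw [e]; exact (orderOf_map_dvd _ w).trans (Subgroup.orderOf_dvd_natCard W hw)
  exact (QuotientGroup.eq_one_iff a).1 (orderOf_eq_one_iff.1
    (Nat.eq_one_of_dvd_coprimes ((Nat.coprime_two_right.2 hW).pow_right 3) h2 h1))

/-- An extraspecial 2-group has order different from 16. -/
theorem thirty_two_le [Finite G] {X Z : Subgroup G} (hX : IsPGroup 2 X)
    (hZ : Z = X ⊓ centralizer (X : Set G)) (hZ2 : Nat.card Z = 2)
    (hcom : ∀ a ∈ X, ∀ b ∈ X, ⁅a, b⁆ ∈ Z) (hcard : 8 < Nat.card X) : 32 ≤ Nat.card X := by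
  haveI := Fact.mk Nat.prime_two
  obtain ⟨⟨z, hz⟩, hz1⟩ := exists_ne_one_of_one_lt' Z (by rw [hZ2]; norm_num)
  have hz1' : z ≠ 1 := fun e => hz1 (Subtype.ext e)
  have hZle : ∀ d ∈ Z, d = 1 ∨ d = z := by
    intro d hd
    by_contra! hne
    have hsub : ({1, z, d} : Set G) ⊆ (Z : Set G) := by
      rintro y (rfl | rfl | rfl)
      exacts [one_mem _, hz, hd]
    have := (Set.ncard_le_ncard hsub (Set.toFinite _))
    rw [Set.ncard_eq_three.2 ⟨1, z, d, Ne.symm hz1', Ne.symm hne.1, Ne.symm hne.2, rfl⟩,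
      ← Nat.card_coe_set_eq, SetLike.coe_sort_coe, hZ2] at this
    omega
  have hzz : z * z = 1 := (hZle _ (mul_mem hz hz)).resolve_right fun e => hz1' (mul_eq_left.1 e)
  have hzX : ∀ g ∈ X, g * z = z * g := fun g hg => mem_centralizer_iff.1 (hZ ▸ hz).2 g hg
  have hdich : ∀ a ∈ X, ∀ g ∈ X, a * g = g * a ∨ a * g = z * (g * a) := by
    intro a ha g hg
    have e : a * g = ⁅a, g⁆ * (g * a) := by simp only [commutatorElement_def]; group
    rcases hZle _ (hcom a ha g hg) with h | h <;> rw [h] at e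
    · left; rw [e, one_mul]
    · right; exact e
  have hnc : ∀ a ∈ X, a ∉ Z → ∃ b ∈ X, a * b ≠ b * a := by
    intro a ha haZ
    by_contra! hall
    exact haZ (hZ ▸ ⟨ha, mem_centralizer_iff.2 fun b hb => (hall b hb).symm⟩)
  -- for `g` noncommuting with `a`, `g * b` commutes
  have hfix : ∀ a ∈ X, ∀ g ∈ X, ∀ b ∈ X, a * g ≠ g * a → a * b ≠ b * a → a * (g * b) = g * b * a := by
    intro a ha g hg b hb h1 h2
    have e1 := (hdich a ha g hg).resolve_left h1
    have e2 := (hdich a ha b hb).resolve_left h2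
    calc a * (g * b) = z * g * (a * b) := by rw [← mul_assoc, e1]; group
      _ = z * (g * z) * b * a := by rw [e2]; group
      _ = (z * z) * g * b * a := by rw [hzX g hg]; group
      _ = g * b * a := by rw [hzz, one_mul]
  obtain ⟨a, ha, haZ⟩ : ∃ a ∈ X, a ∉ Z := SetLike.not_le_iff_exists.1 fun h => by
    have := Nat.card_le_card_of_injective _ (inclusion_injective h); omega
  obtain ⟨b, hb, hab⟩ := hnc a ha haZ
  have hbb : b * a ≠ a * b := Ne.symm hab
  set D := X ⊓ (centralizer ({a} : Set G) ⊓ centralizer ({b} : Set G)) with hD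
  have hDa : ∀ d ∈ D, a * d = d * a := fun d hd => (mem_centralizer_singleton_iff.1 hd.2.1).symm
  have hDb : ∀ d ∈ D, b * d = d * b := fun d hd => (mem_centralizer_singleton_iff.1 hd.2.2).symm
  -- every element is `d * a^i * b^j`
  have hdec : ∀ g ∈ X, ∃ i j : Fin 2, ∃ d ∈ D, g * b ^ (i : ℕ) * a ^ (j : ℕ) = d := by
    intro g hg
    obtain ⟨i, hi⟩ : ∃ i : Fin 2, a * (g * b ^ (i : ℕ)) = g * b ^ (i : ℕ) * a := by
      by_cases h : a * g = g * a
      · exact ⟨0, by simpa using h⟩
      · exact ⟨1, by simpa using hfix a ha g hg b hb h hab⟩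
    have hg' : g * b ^ (i : ℕ) ∈ X := mul_mem hg (pow_mem hb _)
    by_cases h : b * (g * b ^ (i : ℕ)) = g * b ^ (i : ℕ) * b
    · exact ⟨i, 0, _, Subgroup.mem_inf.2 ⟨hg', Subgroup.mem_inf.2
        ⟨mem_centralizer_singleton_iff.2 hi.symm, mem_centralizer_singleton_iff.2 h.symm⟩⟩, by simp⟩
    · refine ⟨i, 1, _, Subgroup.mem_inf.2 ⟨mul_mem hg' ha, Subgroup.mem_inf.2
        ⟨mem_centralizer_singleton_iff.2 ?_, mem_centralizer_singleton_iff.2 ?_⟩⟩, by simp⟩
      · rw [← mul_assoc a, hi]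
      · exact (hfix b hb _ hg' a ha h hbb).symm
  have hD3 : 2 < Nat.card D := by
    by_contra! hle
    have hsurj : Nat.card X ≤ Nat.card (Fin 2 × Fin 2 × D) := by
      refine Nat.card_le_card_of_injective (fun g : X =>
        ((hdec g g.2).choose, (hdec g g.2).choose_spec.choose,
          (⟨_, (hdec g g.2).choose_spec.choose_spec.choose_spec.1⟩ : D))) ?_
      intro g g' he
      simp only [Prod.mk.injEq, Subtype.mk.injEq] at he
      obtain ⟨h1, h2, h3⟩ := he
      have s1 := (hdec g g.2).choose_spec.choose_spec.choose_spec.2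
      have s2 := (hdec g' g'.2).choose_spec.choose_spec.choose_spec.2
      rw [← h3, ← h2, ← h1] at s2
      exact Subtype.ext (mul_right_cancel (mul_right_cancel (s1.trans s2.symm)))
    simp only [Nat.card_prod, Nat.card_fin] at hsurj
    omega
  have hZD : Z ≤ D := fun d hd => by
    have hd' : d ∈ X ⊓ centralizer (X : Set G) := hZ ▸ hd
    exact Subgroup.mem_inf.2 ⟨hd'.1, Subgroup.mem_inf.2
      ⟨mem_centralizer_singleton_iff.2 (mem_centralizer_iff.1 hd'.2 a ha).symm,
        mem_centralizer_singleton_iff.2 (mem_centralizer_iff.1 hd'.2 b hb).symm⟩⟩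
  obtain ⟨c, hc, hcZ⟩ : ∃ c ∈ D, c ∉ Z := SetLike.not_le_iff_exists.1 fun h => by
    have := Nat.card_le_card_of_injective _ (inclusion_injective h); omega
  obtain ⟨e, he, hce⟩ := hnc c hc.1 hcZ
  obtain ⟨i, j, d, hd, hde⟩ := hdec e he
  have hcd : c * d ≠ d * c := by
    intro h
    apply hce
    have hcb : Commute c (b ^ (i : ℕ)) := (show Commute c b from (hDb c hc).symm).pow_right _
    have hca : Commute c (a ^ (j : ℕ)) := (show Commute c a from (hDa c hc).symm).pow_right _
    have hee : e = d * (a ^ (j : ℕ))⁻¹ * (b ^ (i : ℕ))⁻¹ := by rw [← hde]; group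
    rw [hee]
    exact (((show Commute c d from h).mul_right hca.inv_right).mul_right hcb.inv_right).eq
  have hD8 : 2 ^ 2 < Nat.card D := by
    -- `1, z, c, d, c * d` are five elements
    have hz' : z ∈ D := hZD hz
    have n1 : c ≠ 1 := fun e => hcd (by simp [e])
    have n2 : d ≠ 1 := fun e => hcd (by simp [e])
    have n3 : c ≠ z := fun e => hcd (e ▸ (hzX d hd.1).symm)
    have n4 : d ≠ z := fun e => hcd (e ▸ hzX c hc.1)
    have n5 : c ≠ d := fun e => hcd (e ▸ rfl)
    have n6 : c * d ≠ 1 := fun e => hcd (by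
      rw [e, eq_inv_of_mul_eq_one_left e, mul_inv_cancel])
    have n7 : c * d ≠ z := fun e => hcd (by
      have : d = c⁻¹ * z := by rw [← e]; group
      rw [this, mul_inv_cancel_left, mul_assoc, ← hzX c hc.1, inv_mul_cancel_left])
    have n8 : c * d ≠ c := fun e => n2 (mul_eq_left.1 e)
    have n9 : c * d ≠ d := fun e => n1 (mul_eq_right.1 e)
    have hsub : ({1, z, c, d, c * d} : Set G) ⊆ (D : Set G) := by
      rintro y (rfl | rfl | rfl | rfl | rfl)
      exacts [one_mem _, hz', hc, hd, mul_mem hc hd]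
    have := Set.ncard_le_ncard hsub (Set.toFinite _)
    rw [← Nat.card_coe_set_eq (D : Set G), SetLike.coe_sort_coe] at this
    have h5 : ({1, z, c, d, c * d} : Set G).ncard = 5 := by
      rw [Set.ncard_insert_of_notMem (by simp [Ne.symm hz1', Ne.symm n1, Ne.symm n2, Ne.symm n6])
        (Set.toFinite _), Set.ncard_insert_of_notMem (by simp [Ne.symm n3, Ne.symm n4, Ne.symm n7])
        (Set.toFinite _), Set.ncard_eq_three.2 ⟨c, d, c * d, n5, Ne.symm n8, Ne.symm n9, rfl⟩]
    omega
  have hD8' := two_pow_le_of_lt (R := D) (hX.to_le inf_le_left) hD8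
  have hinj : Nat.card (Fin 2 × Fin 2 × D) ≤ Nat.card X := by
    refine Nat.card_le_card_of_injective (fun p =>
      (⟨a ^ (p.1 : ℕ) * b ^ (p.2.1 : ℕ) * (p.2.2 : G),
        mul_mem (mul_mem (pow_mem ha _) (pow_mem hb _)) p.2.2.2.1⟩ : X)) ?_
    rintro ⟨i, j, d⟩ ⟨i', j', d'⟩ he
    simp only [Subtype.mk.injEq] at he
    -- commutation with `b` determines `i`, with `a` determines `j`
    have sep : ∀ (i : Fin 2) (j : Fin 2) (d : D),
        (a * (a ^ (i : ℕ) * b ^ (j : ℕ) * d) = a ^ (i : ℕ) * b ^ (j : ℕ) * d * a ↔ j = 0) ∧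
        (b * (a ^ (i : ℕ) * b ^ (j : ℕ) * d) = a ^ (i : ℕ) * b ^ (j : ℕ) * d * b ↔ i = 0) := by
      intro i j d
      have ea := hDa d d.2
      have eb := hDb d d.2
      fin_cases i <;> fin_cases j <;> simp only [Fin.isValue, pow_zero, pow_one, one_mul, mul_one]
      · simp [ea, eb]
      · refine ⟨iff_of_false (fun h => hab ?_) (by decide), iff_of_true ?_ rfl⟩
        · apply mul_right_cancel (b := (d : G))
          rw [mul_assoc, h, mul_assoc b (d : G) a, ← ea, ← mul_assoc]
        · rw [mul_assoc, ← eb]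
      · refine ⟨iff_of_true ?_ rfl, iff_of_false (fun h => hbb ?_) (by decide)⟩
        · rw [mul_assoc a (d : G) a, ← ea]
        · apply mul_right_cancel (b := (d : G))
          rw [mul_assoc, h, mul_assoc a (d : G) b, ← eb, ← mul_assoc]
      · refine ⟨iff_of_false (fun h => hab ?_) (by decide), iff_of_false (fun h => hbb ?_) (by decide)⟩
        · apply mul_left_cancel (a := a)
          apply mul_right_cancel (b := (d : G))
          rw [show a * (a * b) * (d : G) = a * (a * b * d) by group, h,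
            show a * b * (d : G) * a = a * b * ((d : G) * a) by group, ← ea]
          group
        · apply mul_right_cancel (b := b)
          apply mul_right_cancel (b := (d : G))
          rw [show b * a * b * (d : G) = b * (a * b * d) by group, h,
            show a * b * (d : G) * b = a * b * ((d : G) * b) by group, ← eb]
          group
    have h1 := (sep i j d).1
    have h2 := (sep i j d).2
    have h1' := (sep i' j' d').1
    have h2' := (sep i' j' d').2
    rw [← he] at h1' h2'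
    have hj : j = j' := by
      have := h1.symm.trans h1'
      fin_cases j <;> fin_cases j' <;> simp at this ⊢
    have hi : i = i' := by
      have := h2.symm.trans h2'
      fin_cases i <;> fin_cases i' <;> simp at this ⊢
    subst hi hj
    exact Prod.ext rfl (Prod.ext rfl (Subtype.ext (mul_left_cancel he)))
  simp only [Nat.card_prod, Nat.card_fin] at hinj
  omega

theorem final_cases [Finite G] {Q A : Subgroup G} (hQ2 : IsPGroup 2 Q) (hs : Shape Q) (hAQ : A ≤ Q)
    (hAc : IsMulCommutative A) (hA : Nat.card A = 8) :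
    IsMulCommutative ↥Q ∨
      (Cfsg.IsExtraspecial 2 ↥Q ∧ 32 ≤ Nat.card ↥Q) ∨
      (∃ (X₀ : Subgroup G) (k : ℕ), X₀ ≤ Q ∧ X₀.relIndex Q = 2 ∧
        Nonempty (↥X₀ ≃* QuaternionGroup (2 ^ (k + 1))) ∧ X₀ ⊔ (Q ⊓ centralizer (X₀ : Set G)) = Q) ∨
      (Cfsg.IsSpecial 2 ↥Q ∧ Nat.card ↥(center ↥Q) = 4) := by
  haveI := Fact.mk Nat.prime_two
  rcases hs with hab | ⟨hcom, hphi, hexp, hcard⟩
  · exact Or.inl ⟨⟨fun a b => Subtype.ext (hab a a.2 b b.2)⟩⟩
  have hmap := Components.map_center_eq Q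
  have hfr : frattini ↥Q = center ↥Q := map_injective Q.subtype_injective (hphi.trans hmap.symm)
  have hco : commutator ↥Q = center ↥Q := map_injective Q.subtype_injective
    ((map_subtype_commutator Q).trans (hcom.trans hmap.symm))
  have hcz : Nat.card ↥(center ↥Q) = Nat.card ↥(Q ⊓ centralizer (Q : Set G)) := by
    rw [← hmap, ← Nat.card_congr ((center ↥Q).equivMapOfInjective _ Q.subtype_injective).toEquiv]
  rcases hcard with h2 | h4
  · refine Or.inr (Or.inl ⟨⟨⟨hQ2, hfr, hco⟩, by rw [hcz, h2]⟩, ?_⟩)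
    refine thirty_two_le hQ2 rfl h2 (fun a ha b hb => hcom ▸ commutator_mem_commutator ha hb) ?_
    by_contra! hle
    have hQA : A = Q := Subgroup.eq_of_le_of_card_ge hAQ (hle.trans hA.ge)
    subst hQA
    have := Subgroup.le_centralizer_iff_isMulCommutative.2 hAc
    rw [inf_eq_left.2 this] at h2
    omega
  · exact Or.inr (Or.inr (Or.inr ⟨⟨hQ2, hfr, hco⟩, by rw [hcz, h4]⟩))

/-- `Q = [Q, W] C_Q(W)` with `[Q, W] ≠ Q`. -/
theorem decomposed_case [Finite G] (hW : Odd (Nat.card W)) {Q R : Subgroup G} (hQ2 : IsPGroup 2 Q)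
    (hRQ : R ≤ Q) (hRW : ⁅R, W⁆ = R) (hWR : W ≤ normalizer (R : Set G))
    (hQR : Q ≤ normalizer (R : Set G))
    (hdec : R ⊔ (Q ⊓ centralizer (W : Set G)) = Q) (hne : R ≠ Q) (hs : IsE4 R ∨ ∃ z, IsQ8 R z)
    (hfull : ∀ Y : Subgroup G, Y ≤ Q → W ≤ normalizer (Y : Set G) → Bad Y → Y = Q) :
    IsMulCommutative ↥Q ∨
      (Cfsg.IsExtraspecial 2 ↥Q ∧ 32 ≤ Nat.card ↥Q) ∨
      (∃ (X₀ : Subgroup G) (k : ℕ), X₀ ≤ Q ∧ X₀.relIndex Q = 2 ∧
        Nonempty (↥X₀ ≃* QuaternionGroup (2 ^ (k + 1))) ∧ X₀ ⊔ (Q ⊓ centralizer (X₀ : Set G)) = Q) ∨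
      (Cfsg.IsSpecial 2 ↥Q ∧ Nat.card ↥(center ↥Q) = 4) := by
  haveI := Fact.mk Nat.prime_two
  set C := Q ⊓ centralizer (W : Set G) with hC
  have hcent := absorb_aux hW hRW hWR inf_le_right (inf_le_left.trans hQR)
    (hQ2.to_le (sup_le inf_le_left hRQ)) hs
  obtain ⟨c₀, hc₀, hc₀R⟩ : ∃ c ∈ C, c ∉ R := SetLike.not_le_iff_exists.1 fun h => hne (by
    rw [← hdec, sup_eq_left.2 h])
  have hWinv : ∀ c ∈ C, W ≤ normalizer ((R ⊔ zpowers c : Subgroup G) : Set G) := by
    intro c hc w hw
    have hle : ∀ g ∈ W, R ⊔ zpowers c ≤ (R ⊔ zpowers c).comap (MulAut.conj g).toMonoidHom :=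
      fun g hg => sup_le (fun r hr => mem_sup_left ((mem_normalizer_iff.1 (hWR hg) r).1 hr))
        (zpowers_le.2 (by
          show g * c * g⁻¹ ∈ R ⊔ zpowers c
          rw [mem_centralizer_iff.1 hc.2 g hg, mul_inv_cancel_right]
          exact mem_sup_right (mem_zpowers c)))
    rw [mem_normalizer_iff]
    exact fun x => ⟨fun hx => hle w hw hx, fun hx => by
      simpa [mul_assoc] using hle w⁻¹ (inv_mem hw) hx⟩
  rcases hs with ⟨h4, hexp, hab⟩ | ⟨z, hzR, hz1, hzz, h8, hzc, hsq⟩
  · left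
    have hBad : Bad (R ⊔ zpowers c₀) := by
      obtain ⟨⟨u, hu⟩, hu1⟩ := exists_ne_one_of_one_lt' R (by rw [h4]; norm_num)
      obtain ⟨v, hv, hvu⟩ : ∃ v ∈ R, v ∉ ({1, u} : Set G) := by
        refine Set.exists_mem_notMem_of_ncard_lt_ncard ?_ (Set.toFinite _)
        rw [← Nat.card_coe_set_eq (R : Set G)]
        calc ({1, u} : Set G).ncard ≤ 2 := (Set.ncard_insert_le _ _).trans (by simp)
          _ < _ := by rw [SetLike.coe_sort_coe, h4]; norm_num
      simp only [Set.mem_insert_iff, Set.mem_singleton_iff, not_or] at hvu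
      exact ⟨u, v, c₀, mem_sup_left hu, mem_sup_left hv, mem_sup_right (mem_zpowers c₀),
        fun e => hu1 (Subtype.ext e), hvu.1, Ne.symm hvu.2, hexp u hu, hexp v hv, hab u hu v hv,
        mem_centralizer_iff.1 (hcent hc₀) u hu, mem_centralizer_iff.1 (hcent hc₀) v hv,
        fun e => hc₀R (e ▸ one_mem R), fun e => hc₀R (e ▸ hu), fun e => hc₀R (e ▸ hv),
        fun e => hc₀R (e ▸ mul_mem hu hv)⟩
    have hQ := hfull _ (sup_le hRQ (zpowers_le.2 hc₀.1)) (hWinv c₀ hc₀) hBad
    refine Subgroup.le_centralizer_iff_isMulCommutative.1 ?_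
    rw [← hQ, Subgroup.le_centralizer_iff]
    have hc : R ⊔ zpowers c₀ ≤ centralizer {c₀} := sup_le
      (fun r hr => mem_centralizer_singleton_iff.2 (mem_centralizer_iff.1 (hcent hc₀) r hr))
      (zpowers_le.2 (mem_centralizer_singleton_iff.2 rfl))
    refine sup_le (fun r hr => mem_centralizer_iff.2 fun y hy => ?_)
      (zpowers_le.2 (mem_centralizer_iff.2 fun y hy => mem_centralizer_singleton_iff.1 (hc hy)))
    have : R ⊔ zpowers c₀ ≤ centralizer {r} := sup_le
      (fun r' hr' => mem_centralizer_singleton_iff.2 (hab r' hr' r hr))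
      (zpowers_le.2 (mem_centralizer_singleton_iff.2 (mem_centralizer_iff.1 (hcent hc₀) r hr).symm))
    exact mem_centralizer_singleton_iff.1 (this hy)
  · obtain ⟨i, hiR, hiz⟩ : ∃ i ∈ R, i ∉ zpowers z := SetLike.not_le_iff_exists.1 fun h => by
      have := Nat.card_le_card_of_injective _ (inclusion_injective h)
      rw [h8, Nat.card_zpowers, orderOf_eq_prime (p := 2) (by rw [pow_two]; exact hzz) hz1] at this
      omega
    have hii : i * i = z := hsq i hiR hiz
    refine Or.inr (Or.inr (Or.inl ⟨R, 0, hRQ, ?_, ?_, ?_⟩))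
    · -- pick `c` with `c * c ∈ R`
      obtain ⟨c, hc, hcR, hcc⟩ : ∃ c ∈ C, c ∉ R ∧ c * c ∈ R := by
        obtain ⟨k, hk⟩ := IsPGroup.iff_orderOf.1 hQ2 ⟨c₀, hc₀.1⟩
        rw [Subgroup.orderOf_mk] at hk
        have key : ∀ k : ℕ, ∀ c ∈ C, c ∉ R → c ^ 2 ^ k = 1 → ∃ c ∈ C, c ∉ R ∧ c * c ∈ R := by
          intro k
          induction k with
          | zero => intro c _ hcR h; rw [pow_zero, pow_one] at h; exact absurd (h ▸ one_mem R) hcR
          | succ k ih =>
            intro c hc hcR h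
            by_cases h2 : c * c ∈ R
            · exact ⟨c, hc, hcR, h2⟩
            · exact ih _ (mul_mem hc hc) h2 (by rw [← pow_two, ← pow_mul, ← pow_succ']; exact h)
        exact key k c₀ hc₀ hc₀R (hk ▸ pow_orderOf_eq_one c₀)
      have hcz : c * c = 1 ∨ c * c = z := mem_zpowers_invol hzz
        (hzc ▸ (Subgroup.mem_inf.2 ⟨hcc, hcent (mul_mem hc hc)⟩))
      have hBad : Bad (R ⊔ zpowers c) := by
        have hci : i * c = c * i := mem_centralizer_iff.1 (hcent hc) i hiR
        by_contra hnb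
        refine hcR (zpowers_le.2 hiR (k2 hnb (mem_sup_left hiR) (mem_sup_right (mem_zpowers c))
          (by rw [hii]; exact hz1) (by rw [hii]; exact hzz) hci (by rw [hii]; exact hcz)))
      have hQ := hfull _ (sup_le hRQ (zpowers_le.2 hc.1)) (hWinv c hc) hBad
      refine Subgroup.index_eq_two_iff.2 ⟨⟨c, hc.1⟩, fun q => ?_⟩
      have hq : (q : G) ∈ zpowers c ⊔ R := by rw [sup_comm, hQ]; exact q.2
      obtain ⟨d, hd, r, hr, hdr⟩ := (Coprime.mem_sup_of_le_normalizer
        (show zpowers c ≤ normalizer (R : Set G) from zpowers_le.2 (hQR hc.1))).1 hq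
      obtain ⟨n, rfl⟩ := mem_zpowers_iff.1 hd
      have hcr : ∀ r ∈ R, c * r = r * c := fun r hr => (mem_centralizer_iff.1 (hcent hc) r hr).symm
      simp only [mem_subgroupOf, Subgroup.coe_mul]
      have hev : ∀ m : ℤ, c ^ (2 * m) ∈ R := fun m => by
        rw [zpow_mul, zpow_two]; exact zpow_mem hcc m
      rcases Int.even_or_odd n with ⟨m, rfl⟩ | ⟨m, rfl⟩
      · right
        have hqR : (q : G) ∈ R := by rw [← hdr, ← two_mul]; exact mul_mem (hev m) hr
        exact ⟨hqR, fun h => hcR (by simpa using mul_mem (inv_mem hqR) h)⟩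
      · left
        refine ⟨?_, fun h => hcR ?_⟩
        · rw [← hdr, mul_assoc, ← hcr r hr, ← mul_assoc, zpow_add, zpow_one, mul_assoc (c ^ (2 * m)) c c]
          exact mul_mem (mul_mem (hev m) hcc) hr
        · rw [← hdr, zpow_add, zpow_one] at h
          have h1 := mul_mem (inv_mem (hev m)) (mul_mem h (inv_mem hr))
          rwa [mul_inv_cancel_right, inv_mul_cancel_left] at h1
    · -- `R` is quaternion
      have hio : orderOf i = 2 * 2 := by
        have hi4 : i ^ 2 ^ (1 + 1) = 1 := by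
          rw [show 2 ^ (1 + 1) = 2 * 2 by norm_num, pow_mul, pow_two, pow_two, hii, hzz]
        have := orderOf_eq_prime_pow (p := 2) (n := 1) (by rw [pow_one, pow_two, hii]; exact hz1) hi4
        simpa using this
      obtain ⟨b, hb, hbi⟩ : ∃ b ∈ R, b ∉ zpowers i := SetLike.not_le_iff_exists.1 fun h => by
        have := Nat.card_le_card_of_injective _ (inclusion_injective h)
        rw [h8, Nat.card_zpowers, hio] at this
        omega
      have hzi : zpowers z ≤ zpowers i := by
        rw [zpowers_le, ← hii]; exact mul_mem (mem_zpowers i) (mem_zpowers i)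
      have hbz : b * b = z := hsq b hb fun h => hbi (hzi h)
      have hbiz : b * i ∉ zpowers z := fun h => hbi (by
        simpa using mul_mem (hzi h) (inv_mem (mem_zpowers i)))
      have hbii := hsq (b * i) (mul_mem hb hiR) hbiz
      refine Involution.iso_quaternion hiR hb hio (by rw [hbz, zero_add, pow_one, pow_two, hii]) hbi ?_ (by rw [h8]; norm_num)
      calc b * i * b⁻¹ = (b * i * (b * i)) * i⁻¹ * (b * b)⁻¹ := by group
        _ = z * i⁻¹ * z⁻¹ := by rw [hbii, hbz]
        _ = i⁻¹ := by rw [← hii]; group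
    · refine le_antisymm (sup_le hRQ inf_le_left) ?_
      calc Q = R ⊔ C := hdec.symm
        _ ≤ _ := sup_le_sup_left (le_inf inf_le_left hcent) R


/-- Let S be a finite solvable group with O_{2'}(S) = 1 that contains a non-cyclic abelian subgroup of order 8, while no proper subgroup of S of 2-power index contains one. Then a Sylow 2-subgroup X of S is normal in S, and one of the following holds: X is abelian; X is extraspecial of order at least 32; X has a generalized quaternion subgroup X₀ of index 2 with X = X₀·C_X(X₀); or X is special with centre of order 4. -/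
theorem result {S : Type*} [Group S] [Finite S]
    [Group.IsSolvable S] (hO : Cfsg.pPrimeCore 2 S = ⊥)
    (h8 : ∃ A : Subgroup S, IsMulCommutative ↥A ∧ ¬ IsCyclic ↥A ∧ Nat.card ↥A = 8)
    (hmin : ∀ R : Subgroup S, R ≠ ⊤ → (∃ k : ℕ, R.index = 2 ^ k) →
      ¬ ∃ A : Subgroup S, A ≤ R ∧ IsMulCommutative ↥A ∧ ¬ IsCyclic ↥A ∧ Nat.card ↥A = 8)
    (X : Sylow 2 S) :
    (X : Subgroup S).Normal ∧
      (IsMulCommutative ↥X ∨
        (Cfsg.IsExtraspecial 2 ↥X ∧ 32 ≤ Nat.card ↥X) ∨
        (∃ (X₀ : Subgroup S) (k : ℕ), X₀ ≤ (X : Subgroup S) ∧ X₀.relIndex (X : Subgroup S) = 2 ∧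
          Nonempty (↥X₀ ≃* QuaternionGroup (2 ^ (k + 1))) ∧ X₀ ⊔ ((X : Subgroup S) ⊓ Subgroup.centralizer (X₀ : Set S)) = (X : Subgroup S)) ∨
        (Cfsg.IsSpecial 2 ↥X ∧ Nat.card ↥(Subgroup.center ↥X) = 4)) := by
  haveI := Fact.mk Nat.prime_two
  obtain ⟨k, m, hm, hkm⟩ := Nat.exists_eq_two_pow_mul_odd (Nat.card_pos (α := S)).ne'
  obtain ⟨W, hWm⟩ := Lib.Hall.exists_subgroup_card_eq (G := S) (m := m) (n := 2 ^ k)
    (by rw [hkm, mul_comm]) ((Nat.coprime_two_right.2 hm).pow_right k)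
  have hW : Odd (Nat.card W) := hWm ▸ hm
  have hsW : Group.IsSolvable W := inferInstance
  set Q := Cfsg.pCore 2 S with hQ
  have hQn : Q.Normal := Lib.Hall.pCore_normal 2
  have hQ2 : IsPGroup 2 Q := Lib.Hall.isPGroup_pCore 2
  have hCQ : centralizer (Q : Set S) ≤ Q := Lib.Hall.centralizer_pCore_le 2 hO
  have hNQ : ∀ H : Subgroup S, H ≤ normalizer (Q : Set S) := fun H => by
    rw [normalizer_eq_top_iff.2 hQn]; exact le_top
  have hprop : ∀ Y : Subgroup S, IsPGroup 2 Y → Y ⊔ W ≠ ⊤ → ¬ Bad Y := by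
    intro Y hY hne hb
    obtain ⟨A, hA, r1, r2, r3⟩ := hb.exists_eight hY
    refine hmin (Y ⊔ W) hne ?_ ⟨A, hA.trans le_sup_left, r1, r2, r3⟩
    have hWi : W.index = 2 ^ k := by
      have := W.card_mul_index
      rw [hWm, hkm, mul_comm (2 ^ k) m] at this
      exact Nat.eq_of_mul_eq_mul_left hm.pos this
    obtain ⟨j, -, hj⟩ := (Nat.dvd_prime_pow Nat.prime_two).1
      (hWi ▸ index_dvd_of_le (le_sup_right : W ≤ Y ⊔ W))
    exact ⟨j, hj⟩
  have hdis : ∀ x ∈ Q, x ∈ W → x = 1 := fun x hxQ hxW => by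
    obtain ⟨i, hi⟩ := IsPGroup.iff_orderOf.1 hQ2 ⟨x, hxQ⟩
    rw [Subgroup.orderOf_mk] at hi
    exact orderOf_eq_one_iff.1 (Nat.eq_one_of_dvd_coprimes ((Nat.coprime_two_right.2 hW).pow_right i)
      (Subgroup.orderOf_dvd_natCard W hxW) (hi ▸ dvd_rfl))
  have hsupQ : ∀ Y : Subgroup S, Y ≤ Q → W ≤ normalizer (Y : Set S) → Y ≠ Q → Y ⊔ W ≠ ⊤ := by
    intro Y hYQ hWY hne htop
    refine hne (le_antisymm hYQ fun x hx => ?_)
    have : x ∈ W ⊔ Y := by rw [sup_comm, htop]; exact mem_top x
    obtain ⟨w, hw, y, hy, rfl⟩ := (Lib.Coprime.mem_sup_of_le_normalizer hWY).1 this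
    have hwQ : w ∈ Q := by simpa using mul_mem hx (inv_mem (hYQ hy))
    rw [hdis w hwQ hw, one_mul]; exact hy
  have hcop : (Nat.card W).Coprime (Nat.card Q) := by
    obtain ⟨i, hi⟩ := IsPGroup.iff_card.1 hQ2
    rw [hi]; exact Nat.Coprime.pow_right i (Nat.coprime_two_right.2 hW)
  -- if `W` centralizes `Q` then it is trivial
  have hW1 : ⁅Q, W⁆ = ⊥ → W = ⊥ := fun h => (eq_bot_iff_forall _).2 fun w hw =>
    hdis w (hCQ ((commutator_eq_bot_iff_le_centralizer.1 (by rwa [commutator_comm])) hw)) hw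
  obtain ⟨A, hAc, hAcyc, hA8⟩ := h8
  -- `S = Q W`
  have hQW : Q ⊔ W = ⊤ := by
    by_contra hne
    have hQB := hprop Q hQ2 hne
    have hmove : ⁅Q, W⁆ ≠ ⊥ := fun h => by
      have hWb := hW1 h
      have hm1 : m = 1 := by rw [← hWm, hWb, card_bot]
      have hp : IsPGroup 2 S := IsPGroup.of_card (n := k) (by rw [hkm, hm1, mul_one])
      refine hne (top_le_iff.1 (le_trans ?_ le_sup_left))
      exact Lib.Hall.le_pCore (hp.to_subgroup ⊤)
    have hle : ⁅Q, W⁆ ≤ Q := Lib.Coprime.commutator_le_of_le_normalizer' (hNQ W)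
    have hR2 : IsPGroup 2 ↥⁅Q, W⁆ := hQ2.to_le hle
    have hRW := Lib.Coprime.commutator_commutator (hNQ W) hcop (Or.inl hsW)
    have hWR := Lib.Coprime.right_le_normalizer_commutator Q W
    have hs := small_of_shape hW hR2 hRW hWR hmove (fun hb => hQB (hb.mono hle))
      (main hW hsW _ _ rfl hR2 hRW hWR fun Y h _ _ hb => hQB (hb.mono (h.trans hle)))
    have hQR := absorb hW hsW hQ2 (hNQ W) hQB hs
    rw [hQR] at hs
    exact no_bad_above hQn hQ2 hCQ hQB hs hAc hAcyc hA8
  -- `X = Q`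
  have hXQ : (X : Subgroup S) = Q := by
    refine le_antisymm (fun x hx => ?_) (Lib.Hall.pCore_le_sylow X)
    have : x ∈ W ⊔ Q := by rw [sup_comm, hQW]; exact mem_top x
    obtain ⟨w, hw, y, hy, rfl⟩ := (Lib.Coprime.mem_sup_of_le_normalizer (hNQ W)).1 this
    have hwX : w ∈ (X : Subgroup S) := by
      simpa using mul_mem hx (inv_mem (Lib.Hall.pCore_le_sylow X hy))
    obtain ⟨i, hi⟩ := IsPGroup.iff_orderOf.1 X.2 ⟨w, hwX⟩
    rw [Subgroup.orderOf_mk] at hi
    rw [orderOf_eq_one_iff.1 (Nat.eq_one_of_dvd_coprimes ((Nat.coprime_two_right.2 hW).pow_right i)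
      (Subgroup.orderOf_dvd_natCard W hw) (hi ▸ dvd_rfl)), one_mul]
    exact hy
  show (X : Subgroup S).Normal ∧
    (IsMulCommutative ↥(X : Subgroup S) ∨
      (Cfsg.IsExtraspecial 2 ↥(X : Subgroup S) ∧ 32 ≤ Nat.card ↥(X : Subgroup S)) ∨
      (∃ (X₀ : Subgroup S) (k : ℕ), X₀ ≤ (X : Subgroup S) ∧ X₀.relIndex (X : Subgroup S) = 2 ∧
        Nonempty (↥X₀ ≃* QuaternionGroup (2 ^ (k + 1))) ∧ X₀ ⊔ ((X : Subgroup S) ⊓ Subgroup.centralizer (X₀ : Set S)) = (X : Subgroup S)) ∨
      (Cfsg.IsSpecial 2 ↥(X : Subgroup S) ∧ Nat.card ↥(Subgroup.center ↥(X : Subgroup S)) = 4))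
  rw [hXQ]
  refine ⟨hQn, ?_⟩
  by_cases hmove : ⁅Q, W⁆ = ⊥
  · left
    have hWb := hW1 hmove
    rw [hWb, sup_bot_eq] at hQW
    have hp : IsPGroup 2 S := by
      have := hQ2
      rw [hQW] at this
      exact this.of_equiv Subgroup.topEquiv
    have hAtop : A = ⊤ := by
      by_contra hne
      refine hmin A hne ?_ ⟨A, le_rfl, hAc, hAcyc, hA8⟩
      obtain ⟨i, hi⟩ := IsPGroup.iff_card.1 hp
      obtain ⟨j, -, hj⟩ := (Nat.dvd_prime_pow Nat.prime_two).1 (hi ▸ A.index_dvd_card)
      exact ⟨j, hj⟩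
    exact ⟨⟨fun a b => Subtype.ext (show (a : S) * b = b * a from congrArg Subtype.val
      (hAc.is_comm.comm (⟨a, hAtop.symm ▸ mem_top _⟩ : A) ⟨b, hAtop.symm ▸ mem_top _⟩))⟩⟩
  have hle : ⁅Q, W⁆ ≤ Q := Lib.Coprime.commutator_le_of_le_normalizer' (hNQ W)
  have hR2 : IsPGroup 2 ↥⁅Q, W⁆ := hQ2.to_le hle
  have hRW := Lib.Coprime.commutator_commutator (hNQ W) hcop (Or.inl hsW)
  have hWR := Lib.Coprime.right_le_normalizer_commutator Q W
  by_cases hfull : ⁅Q, W⁆ = Q
  · have hQA : ∀ Y : Subgroup S, Y ≤ Q → Y ≠ Q → W ≤ normalizer (Y : Set S) → ¬ Bad Y :=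
      fun Y hY hne hWY => hprop Y (hQ2.to_le hY) (hsupQ Y hY hWY hne)
    exact final_cases hQ2 (main hW hsW _ Q rfl hQ2 hfull (hNQ W) hQA)
      (A_le_of_normal hQn hQ2 hQW hW hA8) hAc hA8
  · set R := ⁅Q, W⁆ with hR
    have hRB : ¬ Bad R := hprop R hR2 (hsupQ R hle hWR hfull)
    have hs := small_of_shape hW hR2 hRW hWR hmove hRB
      (main hW hsW _ _ rfl hR2 hRW hWR fun Y h _ _ hb => hRB (hb.mono h))
    exact decomposed_case hW hQ2 hle hRW hWR (Lib.Coprime.left_le_normalizer_commutator Q W)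
      (Lib.Coprime.commutator_sup_centralizer (hNQ W) hcop (Or.inl hsW)) hfull hs
      fun Y hY hWY hb => by
        by_contra hne
        exact hprop Y (hQ2.to_le hY) (hsupQ Y hY hWY hne) hb

end Cfsg.Agent.S4409
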