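import Cfsg.Statements.S4410
import Cfsg.Agent.Lib.Hall.Solvable
import Mathlib.LinearAlgebra.Matrix.GeneralLinearGroup.Card
import Mathlib.GroupTheory.Sylow
import Mathlib.Tactic.LinearCombination
import Mathlib.Tactic.Abel
import Mathlib.FieldTheory.Finite.Basic

set_option autoImplicit false
open Cfsg Subgroup

namespace Cfsg.Agent.S4410

open Cfsg.Agent.Lib

variable {V : Type*} [AddCommGroup V] [Module (ZMod 2) V] [Finite V]

/-- The automorphisms trivial modulo `W`. -/
def congMod (W : Submodule (ZMod 2) V) : Subgroup (V ≃ₗ[ZMod 2] V) where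
  carrier := {g | (∀ v, g v - v ∈ W) ∧ ∀ v, g.symm v - v ∈ W}
  one_mem' := ⟨fun v => by simp, fun v => by
    change v - v ∈ W
    simp⟩
  mul_mem' := fun {a b} ha hb => ⟨fun v => by
      show a (b v) - v ∈ W
      have := W.add_mem (ha.1 (b v)) (hb.1 v)
      simpa using this, fun v => by
      show b.symm (a.symm v) - v ∈ W
      have := W.add_mem (hb.2 (a.symm v)) (ha.2 v)
      simpa using this⟩
  inv_mem' := fun {a} ha => ⟨ha.2, fun v => by
    show a v - v ∈ W
    exact ha.1 v⟩

theorem mem_congMod {W : Submodule (ZMod 2) V} {g : V ≃ₗ[ZMod 2] V} (h : ∀ v, g v - v ∈ W) : g ∈ congMod W := by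
  refine ⟨h, fun v => ?_⟩
  have := W.neg_mem (h (g.symm v))
  simpa using this

/-- An odd order group trivial modulo `W` embeds into `GL(W)`. -/
theorem card_dvd_glCard (W : Submodule (ZMod 2) V) (K : Subgroup (V ≃ₗ[ZMod 2] V)) (hK : K ≤ congMod W)
    (hodd : ¬ 2 ∣ Nat.card K) :
    Nat.card K ∣ ∏ i : Fin (Module.finrank (ZMod 2) W), (2 ^ (Module.finrank (ZMod 2) W) - 2 ^ (i : ℕ)) := by
  have hinv : ∀ g ∈ K, ∀ w ∈ W, g w ∈ W := fun g hg w hw => by
    simpa using W.add_mem ((hK hg).1 w) hw
  let ρ : K →* (W →ₗ[ZMod 2] W)ˣ :=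
    MonoidHom.toHomUnits
      { toFun := fun g => ((g : V ≃ₗ[ZMod 2] V) : V →ₗ[ZMod 2] V).restrict (fun w hw => hinv g g.2 w hw)
        map_one' := by ext w; simp
        map_mul' := fun g h => by ext w; simp }
  have hinj : Function.Injective ρ := by
    rw [injective_iff_map_eq_one]
    intro g hg
    have hfix : ∀ w ∈ W, (g : V ≃ₗ[ZMod 2] V) w = w := fun w hw =>
      congrArg Subtype.val (LinearMap.congr_fun (congrArg Units.val hg) ⟨w, hw⟩)
    have h2 : g ^ 2 = 1 := by
      refine Subtype.ext (LinearEquiv.ext fun v => ?_)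
      show (g : V ≃ₗ[ZMod 2] V) ((g : V ≃ₗ[ZMod 2] V) v) = v
      have h := hfix _ ((hK g.2).1 v)
      rw [map_sub] at h
      have e : (g : V ≃ₗ[ZMod 2] V) ((g : V ≃ₗ[ZMod 2] V) v) - v =
          (2 : ZMod 2) • ((g : V ≃ₗ[ZMod 2] V) v - v) := by
        rw [two_smul]
        linear_combination (norm := abel) h
      rw [show (2 : ZMod 2) = 0 from rfl, zero_smul, sub_eq_zero] at e
      exact e
    have hord : orderOf g ∣ 2 := orderOf_dvd_of_pow_eq_one h2
    rcases (Nat.dvd_prime Nat.prime_two).mp hord with h | h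
    · exact orderOf_eq_one_iff.mp h
    · exact absurd ((dvd_of_eq h.symm).trans (_root_.orderOf_dvd_natCard g)) hodd
  let b := Module.finBasis (ZMod 2) W
  let e : (W →ₗ[ZMod 2] W)ˣ ≃* GL (Fin (Module.finrank (ZMod 2) W)) (ZMod 2) :=
    Units.mapEquiv (LinearMap.toMatrixAlgEquiv b).toMulEquiv
  have h := card_dvd_of_injective (e.toMonoidHom.comp ρ) (e.injective.comp hinj)
  rwa [Matrix.card_GL_field, ZMod.card] at h

/-- Let V be a finite-dimensional vector space over the field with two elements and S a solvable group of linear automorphisms of V with O₂(S) = 1. If P ∈ S has order 4 and (P − 1)³ = 0 on V, then the image of (P − 1)² has at least 4 elements; equivalently, in the decomposition of V into indecomposable modules for the cyclic group generated by P, at least two summands have dimension 3. -/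
theorem result
    {V : Type*} [AddCommGroup V] [Module (ZMod 2) V] [Finite V]
    (S : Subgroup (V ≃ₗ[ZMod 2] V)) (hS : Group.IsSolvable ↥S) (hO2 : Cfsg.pCore 2 ↥S = ⊥)
    (P : V ≃ₗ[ZMod 2] V) (hPS : P ∈ S) (hP4 : orderOf P = 4)
    (hcub : ((P : V →ₗ[ZMod 2] V) - LinearMap.id) ^ 3 = 0) :
    4 ≤ Nat.card ↥(LinearMap.range (((P : V →ₗ[ZMod 2] V) - LinearMap.id) ^ 2)) := by
  classical
  haveI : Fact (Nat.Prime 2) := ⟨Nat.prime_two⟩
  haveI : Fact (Nat.Prime 3) := ⟨Nat.prime_three⟩
  haveI : Finite (V ≃ₗ[ZMod 2] V) := Finite.of_injective _ DFunLike.coe_injective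
  set A := (P : V →ₗ[ZMod 2] V) - LinearMap.id with hA
  have hT : ∀ v, (A ^ 2) v = P (P v) - v := by
    intro v
    have h2 : (2 : ZMod 2) • P v = 0 := by rw [show (2 : ZMod 2) = 0 from rfl, zero_smul]
    have h2' : (2 : ZMod 2) • v = 0 := by rw [show (2 : ZMod 2) = 0 from rfl, zero_smul]
    rw [two_smul] at h2 h2'
    show A (A v) = _
    simp only [hA, LinearMap.sub_apply, LinearMap.id_apply, LinearEquiv.coe_coe, map_sub]
    linear_combination (norm := abel) h2' - h2
  by_contra hlt
  set R := LinearMap.range (A ^ 2) with hR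
  have hrk : Module.finrank (ZMod 2) R ≤ 1 := by
    have h := Module.natCard_eq_pow_finrank (K := ZMod 2) (V := R)
    rw [Nat.card_zmod] at h
    by_contra h1
    have : 2 ^ 2 ≤ 2 ^ Module.finrank (ZMod 2) R := Nat.pow_le_pow_right (by norm_num) (by omega)
    omega
  obtain ⟨c, hc⟩ := finrank_le_one_iff.mp hrk
  have hτ : ∀ v, P (P v) - v ∈ Submodule.span (ZMod 2) {(c : V)} := by
    intro v
    obtain ⟨k, hk⟩ := hc ⟨(A ^ 2) v, LinearMap.mem_range_self _ v⟩
    rw [← hT, Submodule.mem_span_singleton]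
    exact ⟨k, congrArg Subtype.val hk⟩
  have hPc : P (c : V) = c := by
    obtain ⟨v, hv⟩ := c.2
    have h3 : A ((A ^ 2) v) = 0 := by
      rw [← Module.End.mul_apply, ← pow_succ', hcub, LinearMap.zero_apply]
    rw [hv] at h3
    exact sub_eq_zero.mp h3
  set τ : S := ⟨P * P, mul_mem hPS hPS⟩ with hτdef
  have hτ2 : τ * τ = 1 := Subtype.ext (by
    show P * P * (P * P) = 1
    rw [← pow_orderOf_eq_one P, hP4]; simp [pow_succ, mul_assoc])
  have hτ1 : τ ≠ 1 := fun h => by
    have : P ^ 2 = 1 := by rw [pow_two]; exact congrArg Subtype.val h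
    have := orderOf_dvd_of_pow_eq_one this
    rw [hP4] at this
    norm_num at this
  haveI := hS
  set F := fittingSubgroup S with hF
  haveI : F.Normal := Hall.fittingSubgroup_normal
  haveI hFn : Group.IsNilpotent F := Hall.fittingSubgroup_isNilpotent
  have hodd : ¬ 2 ∣ Nat.card F := by
    obtain ⟨Q⟩ := (inferInstance : Nonempty (Sylow 2 F))
    have hQn : (Q : Subgroup F).Normal := Q.normal_of_normalizerCondition Group.normalizerCondition_of_isNilpotent
    haveI := Q.characteristic_of_normal hQn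
    haveI : ((Q : Subgroup F).map F.subtype).Normal := ConjAct.normal_of_characteristic_of_normal
    have hle : (Q : Subgroup F).map F.subtype ≤ pCore 2 S := le_sSup ⟨inferInstance, Q.2.map _⟩
    rw [hO2, le_bot_iff, Subgroup.map_eq_bot_iff_of_injective _ F.subtype_injective] at hle
    intro hd
    apply Q.not_dvd_index
    rwa [hle, index_bot]
  obtain ⟨q, hq, hqτ⟩ : ∃ q ∈ F, q * τ ≠ τ * q := by
    by_contra h
    push Not at h
    have : τ ∈ F := Hall.centralizer_fittingSubgroup_le (mem_centralizer_iff.mpr fun q hq => h q hq)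
    apply hodd
    have h2 : orderOf (⟨τ, this⟩ : F) = 2 := orderOf_eq_prime (Subtype.ext (by rw [SubmonoidClass.coe_pow, pow_two]; exact hτ2))
      fun e => hτ1 (congrArg Subtype.val e)
    exact (dvd_of_eq h2.symm).trans (_root_.orderOf_dvd_natCard (⟨τ, this⟩ : F))
  have hτinv : τ⁻¹ = τ := inv_eq_of_mul_eq_one_right hτ2
  set x : S := q⁻¹ * τ * q * τ with hx
  have hxF : x ∈ F := by
    have h1 := (inferInstance : F.Normal).conj_mem q hq τ
    rw [hτinv] at h1
    have := mul_mem (inv_mem hq) h1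
    simpa [hx, mul_assoc] using this
  have hx1 : x ≠ 1 := fun h => hqτ (by
    have h' : τ * q * τ = q := by
      have := congrArg (fun z => q * z) h
      simpa [hx, mul_assoc] using this
    calc q * τ = τ * q * τ * τ := by rw [h']
      _ = τ * q := by rw [mul_assoc, hτ2, mul_one])
  have hinv : τ * x * τ = x⁻¹ := by
    rw [hx, mul_inv_rev, mul_inv_rev, mul_inv_rev, inv_inv, hτinv]
    simp only [mul_assoc, hτ2, mul_one]
  set y : S := ⟨P, hPS⟩ * x * (⟨P, hPS⟩ : S)⁻¹ with hy
  have hyF : y ∈ F := (inferInstance : F.Normal).conj_mem x hxF _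
  set c' : V := (q : V ≃ₗ[ZMod 2] V).symm c with hc'
  have hxv : ∀ v, (x : V ≃ₗ[ZMod 2] V) v - v ∈ Submodule.span (ZMod 2) {(c : V), c'} := by
    intro v
    show (q : V ≃ₗ[ZMod 2] V).symm (P (P ((q : V ≃ₗ[ZMod 2] V) (P (P v))))) - v ∈ _
    obtain ⟨k, hk⟩ := Submodule.mem_span_singleton.mp (hτ ((q : V ≃ₗ[ZMod 2] V) (P (P v))))
    obtain ⟨l, hl⟩ := Submodule.mem_span_singleton.mp (hτ v)
    rw [Submodule.mem_span_pair]
    refine ⟨l, k, ?_⟩
    rw [hc', ← map_smul, hk, map_sub, LinearEquiv.symm_apply_apply, hl]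
    abel
  have hsmall : ∀ a b : V, Module.finrank (ZMod 2) (Submodule.span (ZMod 2) {a, b}) ≤ 2 := fun a b => by
    have := finrank_span_finset_le_card (R := ZMod 2) ({a, b} : Finset V)
    simp only [Finset.coe_insert, Finset.coe_singleton] at this
    exact this.trans Finset.card_le_two
  have hoddK : ∀ K : Subgroup S, K ≤ F → ¬ 2 ∣ Nat.card (K.map S.subtype) := fun K hK hd => hodd (by
    rw [card_map_of_injective S.subtype_injective] at hd
    exact hd.trans (card_dvd_of_le hK))
  have hox : orderOf x = 3 := by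
    have h := card_dvd_glCard _ ((zpowers x).map S.subtype)
      (by rw [MonoidHom.map_zpowers, zpowers_le]; exact mem_congMod hxv) (hoddK _ (zpowers_le.mpr hxF))
    rw [card_map_of_injective S.subtype_injective, Nat.card_zpowers] at h
    have hodd' : ¬ 2 ∣ orderOf x := fun hd => hoddK _ (zpowers_le.mpr hxF) (by
      rw [card_map_of_injective S.subtype_injective, Nat.card_zpowers]; exact hd)
    have h6 : orderOf x ∣ 6 := by
      have := hsmall (c : V) c'
      interval_cases hd : Module.finrank (ZMod 2) (Submodule.span (ZMod 2) {(c : V), c'}) <;>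
        simp [Fin.prod_univ_two] at h ⊢
      all_goals first | exact h | simp [h]
    have h1 : orderOf x ≠ 1 := fun e => hx1 (orderOf_eq_one_iff.mp e)
    have hle := Nat.le_of_dvd (by norm_num) h6
    interval_cases orderOf x <;> omega
  have hoy : orderOf y = 3 := by
    rw [hy, ← hox]
    exact MulEquiv.orderOf_eq (MulAut.conj (⟨P, hPS⟩ : S)) x
  set K := Subgroup.closure ({x, y} : Set S) with hK
  have hKF : K ≤ F := (closure_le _).mpr (by rintro z (rfl | rfl); exacts [hxF, hyF])
  have hK3 : IsPGroup 3 K := by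
    obtain ⟨Q⟩ := (inferInstance : Nonempty (Sylow 3 F))
    have hQn : (Q : Subgroup F).Normal := Q.normal_of_normalizerCondition Group.normalizerCondition_of_isNilpotent
    haveI := Sylow.unique_of_normal Q hQn
    have key : ∀ z (hz : z ∈ F), orderOf z = 3 → z ∈ (Q : Subgroup F).map F.subtype := by
      intro z hz hzo
      have hp : IsPGroup 3 (zpowers (⟨z, hz⟩ : F)) := IsPGroup.of_card (n := 1) (by
        rw [Nat.card_zpowers, Subgroup.orderOf_mk, hzo, pow_one])
      obtain ⟨Q', hQ'⟩ := hp.exists_le_sylow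
      rw [Subsingleton.elim Q' Q] at hQ'
      exact ⟨⟨z, hz⟩, hQ' (mem_zpowers _), rfl⟩
    refine (Q.2.map F.subtype).to_le ((closure_le _).mpr ?_)
    rintro z (rfl | rfl)
    exacts [key _ hxF hox, key _ hyF hoy]
  set W := Submodule.span (ZMod 2) {(c : V), c', P c'} with hW
  have hKW : K.map S.subtype ≤ congMod W := by
    rw [hK, MonoidHom.map_closure, Set.image_pair, closure_le]
    rintro z (rfl | rfl)
    · exact mem_congMod fun v => Submodule.span_mono (by intro t ht; simp only [Set.mem_insert_iff, Set.mem_singleton_iff] at ht ⊢; tauto) (hxv v)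
    · refine mem_congMod fun v => ?_
      show P ((x : V ≃ₗ[ZMod 2] V) (P.symm v)) - v ∈ W
      obtain ⟨k, l, hkl⟩ := Submodule.mem_span_pair.mp (hxv (P.symm v))
      have e : P ((x : V ≃ₗ[ZMod 2] V) (P.symm v)) - v = k • (c : V) + l • P c' := by
        have := congrArg P hkl
        rw [map_add, map_smul, map_smul, map_sub, LinearEquiv.apply_symm_apply, hPc] at this
        exact this.symm
      rw [e]
      exact W.add_mem (W.smul_mem _ (Submodule.subset_span (by simp))) (W.smul_mem _ (Submodule.subset_span (by simp)))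
  have hKc : Nat.card K ≤ 3 := by
    have h := card_dvd_glCard W _ hKW (hoddK K hKF)
    rw [card_map_of_injective S.subtype_injective] at h
    have hd3 : Module.finrank (ZMod 2) W ≤ 3 := by
      have := finrank_span_finset_le_card (R := ZMod 2) ({(c : V), c', P c'} : Finset V)
      simp only [Finset.coe_insert, Finset.coe_singleton] at this
      exact this.trans Finset.card_le_three
    obtain ⟨k, hk⟩ := IsPGroup.iff_card.mp hK3
    have h168 : 3 ^ k ∣ 168 := by
      rw [← hk]
      interval_cases hd : Module.finrank (ZMod 2) W <;>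
        simp [Fin.prod_univ_two, Fin.prod_univ_three] at h ⊢
      all_goals first | exact h | exact h.trans (by norm_num) | simp [h]
    rw [hk]
    rcases Nat.lt_or_ge k 2 with hk2 | hk2
    · calc 3 ^ k ≤ 3 ^ 1 := Nat.pow_le_pow_right (by norm_num) (by omega)
        _ = 3 := by norm_num
    · exact absurd ((pow_dvd_pow 3 hk2).trans h168) (by norm_num)
  have hKx : zpowers x = K := eq_of_le_of_card_ge (zpowers_le.mpr (subset_closure (by simp)))
    (by rw [Nat.card_zpowers, hox]; exact hKc)
  obtain ⟨i, hi⟩ := mem_zpowers_iff.mp (show y ∈ zpowers x from hKx ▸ subset_closure (by simp))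
  -- conjugation by the square fixes `x`
  have hτx : τ * x * τ = x := by
    have hPP : τ = ⟨P, hPS⟩ * ⟨P, hPS⟩ := Subtype.ext rfl
    have e : τ * x * τ⁻¹ = x ^ (i * i) := by
      have e2 : ⟨P, hPS⟩ * y * (⟨P, hPS⟩ : S)⁻¹ = x ^ (i * i) := by
        rw [← hi, ← conj_zpow, ← hy, ← hi, ← zpow_mul]
      rw [← e2, hy, hPP, mul_inv_rev]
      simp only [mul_assoc]
    rw [hτinv] at e
    rw [e]
    have hmod : (i * i) % 3 = 1 % 3 := by
      have hi3 : i % 3 ≠ 0 := fun h0 => by
        have : y = 1 := by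
          rw [← hi, ← Int.mul_ediv_add_emod i 3, h0, add_zero, zpow_mul, zpow_ofNat, ← hox, pow_orderOf_eq_one, one_zpow]
        rw [this, orderOf_one] at hoy
        norm_num at hoy
      rw [Int.mul_emod]
      have h1 := Int.emod_nonneg i (by norm_num : (3 : ℤ) ≠ 0)
      have h2 := Int.emod_lt_of_pos i (by norm_num : (0 : ℤ) < 3)
      interval_cases hr : i % 3 <;> simp_all
    calc x ^ (i * i) = x ^ (1 : ℤ) := zpow_eq_zpow_iff_modEq.mpr (by rw [hox]; exact hmod)
      _ = x := zpow_one x
  rw [hτx] at hinv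
  have hx2 : x ^ 2 = 1 := by rw [pow_two]; nth_rw 2 [hinv]; exact mul_inv_cancel x
  have := orderOf_dvd_of_pow_eq_one hx2
  rw [hox] at this
  norm_num at this

end Cfsg.Agent.S4410
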