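import Cfsg.Statements.S4412
import Cfsg.Agent.Lib.PGroupFrattini

set_option autoImplicit false
open Cfsg

namespace Cfsg.Agent.S4412

open scoped commutatorElement

variable {P : Type*} [Group P] [Finite P]

def Fixd (T : MulAut P) : Subgroup P := T.toMonoidHom.eqLocus (MonoidHom.id P)

omit [Finite P] in
theorem mem_Fixd {T : MulAut P} {x : P} : x ∈ Fixd T ↔ T x = x := Iff.rfl

/-- The fixed points of `T` do not form a cyclic group. -/
def Broad (T : MulAut P) : Prop := ¬ ∃ g : P, ∀ x : P, (T x = x ↔ x ∈ Subgroup.zpowers g)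

theorem root_eq {k : ℕ} (hk : Nat.card P = 2 * k + 1) (y : P) : (y ^ (k + 1)) ^ 2 = y := by
  rw [← pow_mul, show (k + 1) * 2 = Nat.card P + 1 by omega, pow_succ, pow_card_eq_one', one_mul]

theorem root_of_sq {k : ℕ} (hk : Nat.card P = 2 * k + 1) (y : P) : (y ^ 2) ^ (k + 1) = y := by
  rw [← pow_mul, mul_comm, pow_mul, root_eq hk]

theorem lift_fixed (hodd : Odd (Nat.card P)) (T : MulAut P) (hT : ∀ x, T (T x) = x)
    (N : Subgroup P) (x : P) (h : (T x)⁻¹ * x ∈ N) : ∃ f, T f = f ∧ f⁻¹ * x ∈ N := by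
  obtain ⟨k, hk⟩ := hodd
  set y := (T x)⁻¹ * x with hy
  have hTy : T y = y⁻¹ := by rw [hy, map_mul, map_inv, hT]; group
  set u := y ^ (k + 1) with hu
  have hTu : T u = u⁻¹ := by rw [hu, map_pow, hTy, inv_pow]
  have huu : u * u = y := by rw [← pow_two, hu, root_eq hk]
  refine ⟨x * u⁻¹, ?_, ?_⟩
  · rw [map_mul, map_inv, hTu, inv_inv]
    have : T x * (u * u) = x := by rw [huu, hy]; group
    calc T x * u = T x * (u * u) * u⁻¹ := by group
      _ = x * u⁻¹ := by rw [this]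
  · have : (x * u⁻¹)⁻¹ * x = u := by group
    rw [this]
    exact N.pow_mem h _

theorem dich {p : ℕ} [Fact p.Prime] (hP : IsPGroup p P) (hp2 : p ≠ 2) (T : MulAut P)
    (hT : ∀ x, T (T x) = x) (x : P) (hx : T x ∈ Subgroup.zpowers x) : T x = x ∨ T x = x⁻¹ := by
  obtain ⟨k, hk⟩ := Subgroup.mem_zpowers_iff.1 hx
  have hkk : x ^ (k * k) = x := by
    rw [zpow_mul, hk, ← map_zpow, hk, hT]
  have hd : (orderOf x : ℤ) ∣ (k - 1) * (k + 1) := by
    rw [orderOf_dvd_iff_zpow_eq_one, show (k - 1) * (k + 1) = k * k - 1 by ring, zpow_sub, hkk,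
      zpow_one, mul_inv_cancel]
  obtain ⟨n, hn⟩ := IsPGroup.iff_orderOf.mp hP x
  have hpp : Prime (p : ℤ) := Nat.prime_iff_prime_int.mp (Fact.out : p.Prime)
  have hcast : (orderOf x : ℤ) = (p : ℤ) ^ n := by rw [hn]; push_cast; ring
  rw [hcast] at hd
  by_cases h1 : (p : ℤ) ∣ k - 1
  · have h2 : ¬ (p : ℤ) ∣ k + 1 := by
      intro h
      have : (p : ℤ) ∣ ((2 : ℕ) : ℤ) := by
        have := dvd_sub h h1
        simpa using this
      have := Int.natCast_dvd_natCast.1 this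
      exact hp2 ((Nat.prime_dvd_prime_iff_eq (Fact.out : p.Prime) Nat.prime_two).1 this)
    have h3 : (p : ℤ) ^ n ∣ k - 1 :=
      ((hpp.coprime_iff_not_dvd.2 h2).pow_left).dvd_of_dvd_mul_right hd
    rw [← hcast, orderOf_dvd_iff_zpow_eq_one, zpow_sub, zpow_one, mul_inv_eq_one] at h3
    exact Or.inl (hk.symm.trans h3)
  · have h3 : (p : ℤ) ^ n ∣ k + 1 :=
      ((hpp.coprime_iff_not_dvd.2 h1).pow_left).dvd_of_dvd_mul_left hd
    rw [← hcast, orderOf_dvd_iff_zpow_eq_one, zpow_add, zpow_one, mul_eq_one_iff_eq_inv] at h3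
    exact Or.inr (hk.symm.trans h3)

theorem gen_top {p : ℕ} [Fact p.Prime] (hP : IsPGroup p P) (hodd : Odd (Nat.card P))
    (H : Subgroup P) (s t : MulAut P) (hs : ∀ x, s (s x) = x) (ht : ∀ x, t (t x) = x)
    (hst : s * t = t * s) (h1 : Fixd s ≤ H) (h2 : Fixd t ≤ H) (h3 : Fixd (s * t) ≤ H) : H = ⊤ := by
  set q := QuotientGroup.mk' (frattini P) with hq
  haveI : IsMulCommutative (P ⧸ frattini P) :=
    Subgroup.Normal.quotient_commutative_iff_commutator_le.mpr
      (Lib.PGroupFrattini.commutator_le_frattini hP)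
  have hc : ∀ a b : P ⧸ frattini P, a * b = b * a := fun a b => mul_comm' a b
  set M := H.map q with hM
  have hc' : ∀ x, s (t x) = t (s x) := fun x => DFunLike.congr_fun hst x
  have key : ∀ T : MulAut P, (∀ x, T (T x) = x) → Fixd T ≤ H → ∀ x, q (x * T x) ∈ M := by
    intro T hT hTH x
    have h : (T (x * T x))⁻¹ * (x * T x) ∈ frattini P := by
      rw [← QuotientGroup.eq]
      change q (T (x * T x)) = q (x * T x)
      rw [map_mul T, hT, map_mul q, map_mul q, hc]
    obtain ⟨f, hf, hfx⟩ := lift_fixed hodd T hT _ _ h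
    have : q f = q (x * T x) := QuotientGroup.eq.2 hfx
    rw [← this]
    exact Subgroup.mem_map_of_mem _ (hTH hf)
  obtain ⟨k, hk⟩ := id hodd
  have hall : ∀ x, q x ∈ M := by
    intro x
    have hstinv : ∀ x, (s * t) ((s * t) x) = x := fun x => by
      simp only [MulAut.mul_apply]; rw [hc' (s (t x)), hs, ht]
    have a := key s hs h1 x
    have b := key t ht h2 x
    have c := key (s * t) hstinv h3 x
    have d := key s hs h1 (x * t x)
    have e : q (x ^ 2) = q (x * s x) * q (x * t x) * q (x * (s * t) x) *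
        (q (x * t x * s (x * t x)))⁻¹ := by
      simp only [map_mul, MulAut.mul_apply, pow_two]
      generalize q x = A
      generalize q (s x) = B
      generalize q (t x) = C
      generalize q (s (t x)) = D
      letI : CommGroup (P ⧸ frattini P) := { (inferInstance : Group (P ⧸ frattini P)) with mul_comm := hc }
      rw [eq_mul_inv_iff_mul_eq]
      ac_rfl
    have e2 : q (x ^ 2) ∈ M := by
      rw [e]; exact mul_mem (mul_mem (mul_mem a b) c) (inv_mem d)
    rw [← root_of_sq hk x, map_pow]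
    exact pow_mem e2 _
  apply frattini_nongenerating
  rw [eq_top_iff]
  intro x _
  have : x ∈ (H.map q).comap q := hall x
  rwa [Subgroup.comap_map_eq, QuotientGroup.ker_mk'] at this

theorem eq_bot_of_le_commutator [Group.IsNilpotent P] {C : Subgroup P} (h : C ≤ ⁅C, (⊤ : Subgroup P)⁆) :
    C = ⊥ := by
  obtain ⟨n, hn⟩ := Subgroup.nilpotent_iff_lowerCentralSeries.mp (inferInstance : Group.IsNilpotent P)
  have : ∀ m, C ≤ (⊤ : Subgroup P).lowerCentralSeries m := by
    intro m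
    induction m with
    | zero => exact le_top
    | succ m ih =>
      rw [Subgroup.lowerCentralSeries_succ]
      exact h.trans (Subgroup.commutator_mono ih le_rfl)
  exact le_bot_iff.1 (hn ▸ this n)

theorem commutator_inv_inv {R : Type*} [Group R] (a b : R) (h : ∀ g : R, g * ⁅a, b⁆ = ⁅a, b⁆ * g) :
    ⁅a⁻¹, b⁻¹⁆ = ⁅a, b⁆ := by
  have h1 : ⁅a⁻¹, b⁻¹⁆ = (b * a)⁻¹ * ⁅a, b⁆ * (b * a) := by
    simp only [commutatorElement_def]; group
  rw [h1, mul_assoc, ← h (b * a), ← mul_assoc, inv_mul_cancel, one_mul]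

/-- Three elements, each inverted by one commuting automorphism and fixed by the other two,
and with a further one fixing exactly the cyclic group of the third. -/
theorem commute_of_triple {p : ℕ} [Fact p.Prime] (hP : IsPGroup p P) (hodd : Odd (Nat.card P))
    (x : Fin 3 → P) (hgen : Subgroup.closure (Set.range x) = ⊤) (K b : Fin 3 → MulAut P)
    (hKinv : ∀ i y, K i (K i y) = y) (hfix : ∀ i y, K i y = y ↔ y ∈ Subgroup.zpowers (x i))
    (hK : ∀ i j, i ≠ j → K j (x i) = (x i)⁻¹) (hb1 : ∀ i, b i (x i) = (x i)⁻¹)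
    (hb2 : ∀ i j, i ≠ j → b j (x i) = x i) : ∀ u v : P, u * v = v * u := by
  set C := commutator P with hC
  set N := ⁅C, (⊤ : Subgroup P)⁆ with hN
  haveI hNn : N.Normal := Subgroup.commutator_normal _ _
  have hNinv : ∀ (T : MulAut P) {y : P}, y ∈ N → T y ∈ N := by
    intro T y hy
    have h1 : N.map T.toMonoidHom ≤ N := by
      rw [hN, Subgroup.map_commutator]
      refine Subgroup.commutator_mono ?_ le_top
      rw [hC, commutator_def, Subgroup.map_commutator]
      exact Subgroup.commutator_mono le_top le_top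
    exact h1 ⟨y, hy, rfl⟩
  set q := QuotientGroup.mk' N
  have hcent : ∀ a c : P, ∀ g, g * q ⁅a, c⁆ = q ⁅a, c⁆ * g := by
    intro a c g
    obtain ⟨g, rfl⟩ := QuotientGroup.mk'_surjective N g
    symm
    rw [← commutatorElement_eq_one_iff_mul_comm, ← map_commutatorElement]
    refine (QuotientGroup.eq_one_iff _).2 (Subgroup.commutator_mem_commutator ?_ trivial)
    exact Subgroup.commutator_mem_commutator trivial trivial
  obtain ⟨m, hm⟩ := id hodd
  have hpair : ∀ i j, i ≠ j → ⁅x i, x j⁆ ∈ N := by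
    intro i j hij
    obtain ⟨k, hki, hkj⟩ : ∃ k, k ≠ i ∧ k ≠ j := by revert i j; decide
    set w := ⁅x i, x j⁆ with hw
    have hTw : K k w = ⁅(x i)⁻¹, (x j)⁻¹⁆ := by
      rw [hw, map_commutatorElement, hK i k hki.symm, hK j k hkj.symm]
    have h1 : (K k w)⁻¹ * w ∈ N := by
      rw [← QuotientGroup.eq]
      change q (K k w) = q w
      rw [hTw, map_commutatorElement, map_inv, map_inv, hw, map_commutatorElement]
      refine commutator_inv_inv _ _ fun g => ?_
      rw [← map_commutatorElement]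
      exact hcent _ _ g
    obtain ⟨f, hf, hfw⟩ := lift_fixed hodd (K k) (hKinv k) N w h1
    have hbw : b k w = w := by
      rw [hw, map_commutatorElement, hb2 i k hki.symm, hb2 j k hkj.symm]
    have hbf : b k f = f⁻¹ := by
      obtain ⟨z, rfl⟩ := Subgroup.mem_zpowers_iff.1 ((hfix k f).1 hf)
      rw [map_zpow, hb1 k, inv_zpow]
    have h2 : f * w ∈ N := by
      have := hNinv (b k) hfw
      rwa [map_mul, map_inv, hbf, hbw, inv_inv] at this
    have h3 : f ^ 2 ∈ N := by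
      have := mul_mem h2 (inv_mem hfw)
      have e : f * w * (f⁻¹ * w)⁻¹ = f ^ 2 := by rw [pow_two]; group
      rwa [e] at this
    have h4 : f ∈ N := by rw [← root_of_sq hm f]; exact pow_mem h3 _
    simpa using mul_mem h4 hfw
  have hcomm : ∀ i j, q (x i) * q (x j) = q (x j) * q (x i) := by
    intro i j
    rcases eq_or_ne i j with rfl | hij
    · rfl
    · rw [← commutatorElement_eq_one_iff_mul_comm, ← map_commutatorElement]
      exact (QuotientGroup.eq_one_iff _).2 (hpair i j hij)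
  have htop : Subgroup.closure (Set.range fun i => q (x i)) = ⊤ := by
    rw [show (Set.range fun i => q (x i)) = q '' Set.range x by rw [← Set.range_comp]; rfl,
      ← MonoidHom.map_closure, hgen]
    exact Subgroup.map_top_of_surjective _ (QuotientGroup.mk'_surjective N)
  have hCN : C ≤ N := by
    haveI : IsMulCommutative (P ⧸ N) := by
      have h : IsMulCommutative ↥(Subgroup.closure (Set.range fun i => q (x i))) := by
        apply Subgroup.isMulCommutative_closure
        rintro _ ⟨i, rfl⟩ _ ⟨j, rfl⟩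
        exact hcomm i j
      refine ⟨⟨fun a c => ?_⟩⟩
      rw [htop] at h
      exact congrArg Subtype.val (h.is_comm.comm ⟨a, trivial⟩ ⟨c, trivial⟩)
    exact Subgroup.Normal.quotient_commutative_iff_commutator_le.mp inferInstance
  haveI := hP.isNilpotent
  have hbot := eq_bot_of_le_commutator hCN
  intro u v
  have : ⁅u, v⁆ ∈ C := Subgroup.commutator_mem_commutator trivial trivial
  rw [hbot, Subgroup.mem_bot] at this
  exact commutatorElement_eq_one_iff_mul_comm.1 this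

/-- An abelian group with three such generators needs three generators. -/
theorem not_two_gen {p : ℕ} [Fact p.Prime] (hP : IsPGroup p P) (hodd : Odd (Nat.card P))
    (hab : ∀ u v : P, u * v = v * u) (x : Fin 3 → P) (b : Fin 3 → MulAut P)
    (hne : ∀ i, x i ≠ 1) (hb1 : ∀ i, b i (x i) = (x i)⁻¹) (hb2 : ∀ i j, i ≠ j → b j (x i) = x i) :
    ¬ ∃ u v : P, Subgroup.closure {u, v} = ⊤ := by
  rintro ⟨u, v, huv⟩
  letI : CommGroup P := { (inferInstance : Group P) with mul_comm := hab }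
  set Ω := (powMonoidHom p : P →* P).ker with hΩ
  set R := (powMonoidHom p : P →* P).range with hR
  obtain ⟨m, hm⟩ := id hodd
  have hp := (Fact.out : p.Prime)
  have hy : ∀ i, ∃ y : P, y ∈ Subgroup.zpowers (x i) ∧ orderOf y = p := by
    intro i
    have hd : p ∣ Nat.card (Subgroup.zpowers (x i)) := by
      obtain ⟨n, hn⟩ := IsPGroup.iff_orderOf.mp hP (x i)
      rw [Nat.card_zpowers, hn]
      refine dvd_pow_self p fun h0 => hne i ?_
      rw [h0, pow_zero, orderOf_eq_one_iff] at hn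
      exact hn
    obtain ⟨y, hy⟩ := exists_prime_orderOf_dvd_card' p hd
    exact ⟨y, y.2, by rw [Subgroup.orderOf_coe]; exact hy⟩
  choose y hyx hyp using hy
  have hb1' : ∀ i z, z ∈ Subgroup.zpowers (y i) → b i z = z⁻¹ := by
    intro i z hz
    obtain ⟨e, rfl⟩ := Subgroup.mem_zpowers_iff.1 (Subgroup.zpowers_le.2 (hyx i) hz)
    rw [map_zpow, hb1, inv_zpow]
  have hb2' : ∀ i j, i ≠ j → ∀ z, z ∈ Subgroup.zpowers (y i) → b j z = z := by
    intro i j hij z hz
    obtain ⟨e, rfl⟩ := Subgroup.mem_zpowers_iff.1 (Subgroup.zpowers_le.2 (hyx i) hz)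
    rw [map_zpow, hb2 i j hij]
  have hyΩ : ∀ i z, z ∈ Subgroup.zpowers (y i) → z ∈ Ω := by
    intro i z hz
    have : Subgroup.zpowers (y i) ≤ Ω := Subgroup.zpowers_le.2 (by
      rw [hΩ, MonoidHom.mem_ker, powMonoidHom_apply, ← hyp i, pow_orderOf_eq_one])
    exact this hz
  let f : (∀ i : Fin 3, Subgroup.zpowers (y i)) →* Ω :=
    { toFun := fun a => ⟨∏ i, ((a i : P)), Subgroup.prod_mem _ fun i _ => hyΩ i _ (a i).2⟩
      map_one' := by ext; simp
      map_mul' := fun a c => by ext; simp [Finset.prod_mul_distrib] }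
  have hf : Function.Injective f := by
    rw [injective_iff_map_eq_one]
    intro a ha
    have hs : ∏ i, ((a i : P)) = 1 := congrArg Subtype.val ha
    funext i
    have h2 := congrArg (b i) hs
    rw [map_prod, map_one, ← Finset.mul_prod_erase _ _ (Finset.mem_univ i), hb1' i _ (a i).2,
      Finset.prod_congr rfl (fun j hj => hb2' j i (Finset.ne_of_mem_erase hj) _ (a j).2)] at h2
    rw [← Finset.mul_prod_erase _ _ (Finset.mem_univ i)] at hs
    have h3 : ((a i : P)) ^ 2 = 1 := by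
      have := hs.trans h2.symm
      rw [mul_left_inj] at this
      rw [pow_two]; nth_rewrite 1 [this]; exact inv_mul_cancel _
    apply Subtype.ext
    rw [← root_of_sq hm (a i : P), h3, one_pow]; rfl
  have hge : p ^ 3 ≤ Nat.card Ω := by
    refine le_trans ?_ (Nat.card_le_card_of_injective f hf)
    rw [Nat.card_pi]
    simp only [Nat.card_zpowers, hyp, Finset.prod_const, Finset.card_univ, Fintype.card_fin]
    exact le_rfl
  have hidx : R.index = Nat.card Ω := by
    have h1 := Ω.card_mul_index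
    have h2 := R.card_mul_index
    rw [hΩ, Subgroup.index_ker, ← hR] at h1
    rw [← hΩ, mul_comm] at h1
    exact Nat.eq_of_mul_eq_mul_left Nat.card_pos (h2.trans h1.symm)
  have hle : R.index ≤ p ^ 2 := by
    rw [Subgroup.index_eq_card]
    set q := QuotientGroup.mk' R
    let g : Subgroup.zpowers (q u) × Subgroup.zpowers (q v) → P ⧸ R := fun a => a.1.1 * a.2.1
    have hg : Function.Surjective g := by
      intro z
      have hz : z ∈ (Subgroup.closure {u, v}).map q := by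
        rw [huv, Subgroup.map_top_of_surjective _ (QuotientGroup.mk'_surjective R)]; trivial
      rw [MonoidHom.map_closure, Set.image_pair, Subgroup.mem_closure_pair] at hz
      obtain ⟨i, j, rfl⟩ := hz
      exact ⟨(⟨_, ⟨i, rfl⟩⟩, ⟨_, ⟨j, rfl⟩⟩), rfl⟩
    have hle1 : ∀ a : P, Nat.card (Subgroup.zpowers (q a)) ≤ p := by
      intro a
      rw [Nat.card_zpowers]
      apply orderOf_le_of_pow_eq_one hp.pos
      rw [← map_pow]
      exact (QuotientGroup.eq_one_iff _).2 ⟨a, rfl⟩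
    refine (Nat.card_le_card_of_surjective g hg).trans ?_
    rw [Nat.card_prod, pow_two]
    exact Nat.mul_le_mul (hle1 u) (hle1 v)
  have : p ^ 3 ≤ p ^ 2 := hge.trans (hidx ▸ hle)
  have h32 := Nat.pow_lt_pow_right hp.one_lt (show 2 < 3 by norm_num)
  omega

theorem others3 : ∀ k : Fin 3, ∃ i j : Fin 3, i ≠ j ∧ k ≠ i ∧ k ≠ j := by decide

theorem exists_klein {I I₀ : Subgroup (MulAut P)} (hI8 : Nat.card ↥I = 8)
    (hsq : ∀ T ∈ I, T * T = 1) (hcm : ∀ S ∈ I, ∀ T ∈ I, S * T = T * S) (hle : I₀ ≤ I) (hI₀4 : Nat.card ↥I₀ ≤ 4)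
    (hdisj : ∀ T ∈ I₀, T ≠ 1 → ¬ Broad T)
    (hprod : ∀ T ∈ I, ∀ T' ∈ I, T ≠ 1 → T' ≠ 1 → Broad T → Broad T' → T * T' ∈ I₀) :
    ∃ s ∈ I, ∃ t ∈ I, s ≠ 1 ∧ t ≠ 1 ∧ s * t ≠ 1 ∧ ¬ Broad s ∧ ¬ Broad t ∧ ¬ Broad (s * t) := by
  classical
  haveI : Finite ↥I := Nat.finite_of_card_ne_zero (by omega)
  obtain ⟨b, hb, hB⟩ : ∃ b ∈ I, ∀ T ∈ I, T ≠ 1 → Broad T → ∃ i ∈ I₀, T = b * i := by
    by_cases h : ∃ b ∈ I, b ≠ 1 ∧ Broad b
    · obtain ⟨b, hb, hb1, hbB⟩ := h
      refine ⟨b, hb, fun T hT hT1 hTB => ⟨b * T, hprod b hb T hT hb1 hT1 hbB hTB, ?_⟩⟩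
      rw [← mul_assoc, hsq b hb, one_mul]
    · exact ⟨1, one_mem _, fun T hT hT1 hTB => absurd ⟨T, hT, hT1, hTB⟩ h⟩
  set C : Set (MulAut P) := (fun i => b * i) '' (I₀ : Set (MulAut P)) with hC
  have hfinI : (I : Set (MulAut P)).Finite := Set.toFinite _
  have hIc : (I : Set (MulAut P)).ncard = 8 := by rw [← Nat.card_coe_set_eq]; exact hI8
  have hCc : C.ncard ≤ Nat.card ↥I₀ := by
    refine (Set.ncard_image_le (hfinI.subset hle)).trans ?_
    rw [← Nat.card_coe_set_eq]; exact le_rfl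
  have hCfin : C.Finite := (hfinI.subset hle).image _
  have notB : ∀ T ∈ I, T ≠ 1 → T ∉ C → ¬ Broad T := fun T hT hT1 hTC hTB =>
    hTC (by obtain ⟨i, hi, rfl⟩ := hB T hT hT1 hTB; exact ⟨i, hi, rfl⟩)
  have pick : ∀ A : Set (MulAut P), A.Finite → A.ncard < 8 → ∃ T ∈ I, T ∉ A := fun A hA h =>
    Set.exists_mem_notMem_of_ncard_lt_ncard (hIc.symm ▸ h) hA
  have hne : ∀ s ∈ I, ∀ t : MulAut P, t ≠ s → s * t ≠ 1 := fun s hs t h e => h (by
    have := congrArg (s * ·) e
    simpa [← mul_assoc, hsq s hs] using this)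
  by_cases h0 : ∃ s ∈ I₀, s ≠ 1
  · obtain ⟨s, hs, hs1⟩ := h0
    obtain ⟨t, ht, htA⟩ := pick ({1, s} ∪ C) ((Set.toFinite _).union hCfin) (by
      refine lt_of_le_of_lt (Set.ncard_union_le _ _) ?_
      have : ({1, s} : Set (MulAut P)).ncard ≤ 2 := (Set.ncard_insert_le _ _).trans (by simp)
      omega)
    simp only [Set.mem_union, Set.mem_insert_iff, Set.mem_singleton_iff, not_or] at htA
    obtain ⟨⟨ht1, hts⟩, htC⟩ := htA
    refine ⟨s, hle hs, t, ht, hs1, ht1, hne s (hle hs) t hts, hdisj s hs hs1, notB t ht ht1 htC,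
      notB _ (mul_mem (hle hs) ht) (hne s (hle hs) t hts) ?_⟩
    rintro ⟨i, hi, he⟩
    refine htC ⟨s * i, mul_mem hs hi, ?_⟩
    have := congrArg (s * ·) he
    simp only [← mul_assoc, hsq s (hle hs), one_mul] at this
    rw [← this]
    simp only [← mul_assoc, hcm s (hle hs) b hb]
  · push_neg at h0
    have hC1 : ∀ T ∈ C, T = b := by rintro T ⟨i, hi, rfl⟩; simp [h0 i hi]
    obtain ⟨s, hs, hsA⟩ := pick {1, b} (Set.toFinite _) (by
      refine lt_of_le_of_lt (Set.ncard_insert_le _ _) ?_; simp)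
    simp only [Set.mem_insert_iff, Set.mem_singleton_iff, not_or] at hsA
    obtain ⟨t, ht, htA⟩ := pick {1, s, b, s * b} (Set.toFinite _) (by
      refine lt_of_le_of_lt ((Set.ncard_insert_le _ _).trans (Nat.succ_le_succ
        ((Set.ncard_insert_le _ _).trans (Nat.succ_le_succ (Set.ncard_insert_le _ _))))) ?_
      simp)
    simp only [Set.mem_insert_iff, Set.mem_singleton_iff, not_or] at htA
    obtain ⟨ht1, hts, htb, htsb⟩ := htA
    refine ⟨s, hs, t, ht, hsA.1, ht1, hne s hs t hts, notB s hs hsA.1 (fun h => hsA.2 (hC1 _ h)),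
      notB t ht ht1 (fun h => htb (hC1 _ h)),
      notB _ (mul_mem hs ht) (hne s hs t hts) (fun h => htsb ?_)⟩
    rw [← hC1 _ h, ← mul_assoc, hsq s hs, one_mul]

theorem result
    {P : Type*} [Group P] [Finite P] (p : ℕ) (hp : p.Prime) (hp2 : p ≠ 2) (hP : IsPGroup p P)
    (I : Subgroup (MulAut P)) (hI : Cfsg.IsElementaryAbelian 2 I) (hI8 : Nat.card ↥I = 8)
    (I₀ : Subgroup (MulAut P)) (hI₀ : I₀ < I)
    (hdisj : ∀ T ∈ I₀, T ≠ 1 → ∃ g : P, ∀ x : P, (T x = x ↔ x ∈ Subgroup.zpowers g))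
    (hprod : ∀ T ∈ I, ∀ T' ∈ I, T ≠ 1 → T' ≠ 1 → (¬ ∃ g : P, ∀ x : P, (T x = x ↔ x ∈ Subgroup.zpowers g)) →
      (¬ ∃ g : P, ∀ x : P, (T' x = x ↔ x ∈ Subgroup.zpowers g)) → T * T' ∈ I₀) :
    IsMulCommutative P ∧ (∃ a b c : P, Subgroup.closure {a, b, c} = ⊤) ∧ (¬ ∃ a b : P, Subgroup.closure {a, b} = ⊤) ∧
      Nat.card {T : MulAut P // T ∈ I ∧ T ≠ 1 ∧ ¬ ∃ g : P, ∀ x : P, (T x = x ↔ x ∈ Subgroup.zpowers g)} = 3 ∧
      Subgroup.closure {T : MulAut P | T ∈ I ∧ T ≠ 1 ∧ ¬ ∃ g : P, ∀ x : P, (T x = x ↔ x ∈ Subgroup.zpowers g)} = I ∧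
      (I₀ : Set (MulAut P)) = {S : MulAut P | ∃ T T' : MulAut P, T ∈ I ∧ T' ∈ I ∧ T ≠ 1 ∧ T' ≠ 1 ∧
        (¬ ∃ g : P, ∀ x : P, (T x = x ↔ x ∈ Subgroup.zpowers g)) ∧ (¬ ∃ g : P, ∀ x : P, (T' x = x ↔ x ∈ Subgroup.zpowers g)) ∧ S = T * T'} := by
  classical
  haveI := Fact.mk hp
  obtain ⟨hIc, hI2⟩ := hI
  haveI : Finite ↥I := Nat.finite_of_card_ne_zero (by omega)
  have hcm : ∀ S ∈ I, ∀ T ∈ I, S * T = T * S := fun S hS T hT =>
    congrArg Subtype.val (hIc.is_comm.comm ⟨S, hS⟩ ⟨T, hT⟩)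
  have hsq : ∀ T ∈ I, T * T = 1 := fun T hT => by rw [← pow_two]; exact hI2 T hT
  have hinv : ∀ T ∈ I, ∀ x, T (T x) = x := fun T hT x => DFunLike.congr_fun (hsq T hT) x
  have hodd : Odd (Nat.card P) := by
    obtain ⟨n, hn⟩ := IsPGroup.iff_card.mp hP
    rw [hn]; exact (hp.odd_of_ne_two hp2).pow
  obtain ⟨m, hm⟩ := id hodd
  have hle : I₀ ≤ I := hI₀.le
  haveI : Finite ↥I₀ := Finite.of_injective _ (Subgroup.inclusion_injective hle)
  have hI₀4 : Nat.card ↥I₀ ≤ 4 := by
    have hd := Subgroup.card_dvd_of_le hle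
    have h8 : Nat.card ↥I₀ ≠ 8 := fun h =>
      hI₀.ne (Subgroup.eq_of_le_of_card_ge hle (by omega))
    rw [hI8] at hd
    have := Nat.le_of_dvd (by norm_num) hd
    interval_cases h : Nat.card ↥I₀ <;> omega
  obtain ⟨s, hs, t, ht, hs1, ht1, hst1, hsB, htB, hstB⟩ :=
    exists_klein hI8 hsq hcm hle hI₀4 (fun T hT hT1 hB => hB (hdisj T hT hT1))
      (fun T hT T' hT' h1 h1' hB hB' => hprod T hT T' hT' h1 h1' hB hB')
  set K : Fin 3 → MulAut P := ![s, t, s * t] with hKdef
  have hKI : ∀ i, K i ∈ I := by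
    intro i; fin_cases i
    · exact hs
    · exact ht
    · exact mul_mem hs ht
  have hK1 : ∀ i, K i ≠ 1 := by
    intro i; fin_cases i
    · exact hs1
    · exact ht1
    · exact hst1
  have hKB : ∀ i, ∃ g : P, ∀ x : P, (K i x = x ↔ x ∈ Subgroup.zpowers g) := by
    intro i
    fin_cases i
    · exact not_not.1 hsB
    · exact not_not.1 htB
    · exact not_not.1 hstB
  choose x hfix using hKB
  have hgen : Subgroup.closure (Set.range x) = ⊤ := by
    have h : ∀ i, Fixd (K i) ≤ Subgroup.closure (Set.range x) := fun i y hy =>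
      (Subgroup.zpowers_le.2 (Subgroup.subset_closure (Set.mem_range_self i))) ((hfix i y).1 hy)
    exact gen_top hP hodd _ s t (hinv s hs) (hinv t ht) (hcm s hs t ht) (h 0) (h 1) (h 2)
  have hdich : ∀ T ∈ I, ∀ i, T (x i) = x i ∨ T (x i) = (x i)⁻¹ := by
    intro T hT i
    refine dich hP hp2 T (hinv T hT) (x i) ((hfix i _).1 ?_)
    have h1 : K i (x i) = x i := (hfix i _).2 (Subgroup.mem_zpowers _)
    calc K i (T (x i)) = T (K i (x i)) := DFunLike.congr_fun (hcm _ (hKI i) _ hT) (x i)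
      _ = T (x i) := by rw [h1]
  have hext : ∀ S T : MulAut P, (∀ i, S (x i) = T (x i)) → S = T := by
    intro S T h
    have : Subgroup.closure (Set.range x) ≤ S.toMonoidHom.eqLocus T.toMonoidHom := by
      rw [Subgroup.closure_le]; rintro _ ⟨i, rfl⟩; exact h i
    rw [hgen] at this
    exact MulEquiv.ext fun y => this (Subgroup.mem_top y)
  let σ : ↥I → (Fin 3 → Bool) := fun T i => decide ((T : MulAut P) (x i) = x i)
  have hσinj : Function.Injective σ := by
    intro S T h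
    apply Subtype.ext
    refine hext _ _ fun i => ?_
    have hi : ((S : MulAut P) (x i) = x i) ↔ ((T : MulAut P) (x i) = x i) := by
      have := congrFun h i; simpa [σ] using this
    by_cases h1 : (S : MulAut P) (x i) = x i
    · rw [h1, hi.1 h1]
    · rw [(hdich S S.2 i).resolve_left h1, (hdich T T.2 i).resolve_left (mt hi.2 h1)]
  have hσ : Function.Bijective σ := by
    rw [Nat.bijective_iff_injective_and_card]
    exact ⟨hσinj, by rw [hI8]; simp⟩
  have hb : ∀ i : Fin 3, ∃ b ∈ I, b (x i) = (x i)⁻¹ ∧ b (x i) ≠ x i ∧ ∀ j, j ≠ i → b (x j) = x j := by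
    intro i
    obtain ⟨b, hb⟩ := hσ.2 (fun j => decide (j ≠ i))
    refine ⟨b, b.2, ?_, ?_, fun j hj => ?_⟩
    · have := congrFun hb i
      simp [σ] at this
      exact (hdich b b.2 i).resolve_left this
    · have := congrFun hb i
      simpa [σ] using this
    · have := congrFun hb j
      simpa [σ, hj] using this
  choose b hbI hb1 hb1' hb2 using hb
  have hne : ∀ i, x i ≠ 1 := fun i h => hb1' i (by rw [h, map_one])
  have hsqne : ∀ i, (x i)⁻¹ ≠ x i := fun i h => hb1' i ((hb1 i).trans h)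
  have hK : ∀ i j, i ≠ j → K j (x i) = (x i)⁻¹ := by
    intro i j hij
    refine (hdich _ (hKI j) i).resolve_left fun h => hb1' i ?_
    obtain ⟨z, hz⟩ := Subgroup.mem_zpowers_iff.1 ((hfix j _).1 h)
    rw [← hz, map_zpow, hb2 i j hij.symm]
  have hab := commute_of_triple hP hodd x hgen K b (fun i => hinv _ (hKI i)) hfix hK hb1
    (fun i j hij => hb2 j i hij)
  obtain ⟨c, hc⟩ := hσ.2 (fun _ => false)
  have hcx : ∀ i, (c : MulAut P) (x i) = (x i)⁻¹ := fun i => by
    have := congrFun hc i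
    simp [σ] at this
    exact (hdich c c.2 i).resolve_left this
  have hcnb : ¬ Broad (c : MulAut P) := by
    refine fun h => h ⟨1, fun y => ?_⟩
    have hall : (c : MulAut P) y = y⁻¹ := by
      have hy : y ∈ Subgroup.closure (Set.range x) := hgen ▸ Subgroup.mem_top y
      induction hy using Subgroup.closure_induction with
      | mem z hz => obtain ⟨i, rfl⟩ := hz; exact hcx i
      | one => simp
      | mul u v _ _ hu hv => rw [map_mul, hu, hv, mul_inv_rev, hab]
      | inv u _ hu => rw [map_inv, hu]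
    rw [Subgroup.zpowers_one_eq_bot, Subgroup.mem_bot, hall]
    constructor
    · intro hy
      have : y ^ 2 = 1 := by rw [pow_two]; nth_rewrite 1 [← hy]; exact inv_mul_cancel y
      rw [← root_of_sq hm y, this, one_pow]
    · rintro rfl; exact inv_one
  have hbB : ∀ i, Broad (b i) := by
    rintro i ⟨g, hg⟩
    obtain ⟨j, k, hjk, hij, hik⟩ := others3 i
    have hji := hij.symm
    have hki := hik.symm
    have h1 := (hg (x j)).1 (hb2 i j hji)
    have h2 := (hg (x k)).1 (hb2 i k hki)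
    -- `b j` fixes `x k` and acts on the cyclic group `⟨g⟩` as a sign
    have hfx : b i (b j g) = b j g := by
      calc b i (b j g) = b j (b i g) := DFunLike.congr_fun (hcm _ (hbI i) _ (hbI j)) g
        _ = b j g := by rw [(hg g).2 (Subgroup.mem_zpowers _)]
    rcases dich hP hp2 (b j) (hinv _ (hbI j)) g ((hg _).1 hfx) with h | h
    · obtain ⟨z, hz⟩ := Subgroup.mem_zpowers_iff.1 h1
      exact hb1' j (by rw [← hz, map_zpow, h])
    · obtain ⟨z, hz⟩ := Subgroup.mem_zpowers_iff.1 h2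
      apply hsqne k
      rw [← hz, ← inv_zpow, ← h, ← map_zpow, hz, hb2 j k hjk.symm]
  have hb1ne : ∀ i, b i ≠ 1 := fun i h => hb1' i (by rw [h]; rfl)
  have hbbI₀ : ∀ i j, b i * b j ∈ I₀ := fun i j =>
    hprod _ (hbI i) _ (hbI j) (hb1ne i) (hb1ne j) (hbB i) (hbB j)
  have hKeq : ∀ i j k : Fin 3, i ≠ j → k ≠ i → k ≠ j → K k = b i * b j := by
    intro i j k hij hki hkj
    refine hext _ _ fun l => ?_
    have hl : l = i ∨ l = j ∨ l = k := by revert i j k l; decide
    rcases hl with rfl | rfl | rfl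
    · rw [MulAut.mul_apply, hb2 j l hij, hb1 l, hK l k hki.symm]
    · rw [MulAut.mul_apply, hb1 l, map_inv, hb2 i l hij.symm, hK l k hkj.symm]
    · rw [MulAut.mul_apply, hb2 j l hkj, hb2 i l hki, (hfix l _).2 (Subgroup.mem_zpowers _)]
  have hKI₀ : ∀ k, K k ∈ I₀ := by
    intro k
    obtain ⟨i, j, hij, hki, hkj⟩ := others3 k
    rw [hKeq i j k hij hki hkj]; exact hbbI₀ i j
  -- classification of all eight elements
  have hall : ∀ T ∈ I, T = 1 ∨ (∃ i, T = K i) ∨ (∃ i, T = b i) ∨ T = (c : MulAut P) := by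
    intro T hT
    have hval : ∀ i, T (x i) = if σ ⟨T, hT⟩ i then x i else (x i)⁻¹ := by
      intro i
      by_cases h : T (x i) = x i
      · simp [σ, h]
      · simp [σ, h, (hdich T hT i).resolve_left h]
    have hcases : ∀ f : Fin 3 → Bool, (∀ i, f i = true) ∨ (∃ i, f i = true ∧ ∀ j, j ≠ i → f j = false) ∨
        (∃ i, f i = false ∧ ∀ j, j ≠ i → f j = true) ∨ (∀ i, f i = false) := by decide
    rcases hcases (σ ⟨T, hT⟩) with h | ⟨i, h1, h2⟩ | ⟨i, h1, h2⟩ | h
    · exact Or.inl (hext _ _ fun i => by rw [hval, h i]; rfl)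
    · refine Or.inr (Or.inl ⟨i, hext _ _ fun j => ?_⟩)
      rcases eq_or_ne j i with rfl | hj
      · rw [hval, h1, (hfix j _).2 (Subgroup.mem_zpowers _)]; rfl
      · rw [hval, h2 j hj, hK j i hj]; rfl
    · refine Or.inr (Or.inr (Or.inl ⟨i, hext _ _ fun j => ?_⟩))
      rcases eq_or_ne j i with rfl | hj
      · rw [hval, h1, hb1]; rfl
      · rw [hval, h2 j hj, hb2 i j hj]; rfl
    · exact Or.inr (Or.inr (Or.inr (hext _ _ fun i => by rw [hval, h i, hcx i]; rfl)))
  have hset : ∀ T : MulAut P, (T ∈ I ∧ T ≠ 1 ∧ Broad T) ↔ ∃ i, T = b i := by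
    intro T
    constructor
    · rintro ⟨hT, hT1, hTB⟩
      rcases hall T hT with h | ⟨i, rfl⟩ | h | h
      · exact absurd h hT1
      · exact absurd ⟨x i, hfix i⟩ hTB
      · exact h
      · exact absurd (h ▸ hTB) hcnb
    · rintro ⟨i, rfl⟩
      exact ⟨hbI i, hb1ne i, hbB i⟩
  have hbinj : Function.Injective b := by
    intro i j h
    by_contra hij
    exact hb1' i (by rw [h]; exact hb2 j i hij)
  have hSeq : {T : MulAut P | T ∈ I ∧ T ≠ 1 ∧ Broad T} = Set.range b := by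
    ext T; simp only [Set.mem_ofPred_eq, Set.mem_range]; rw [hset]
    exact exists_congr fun i => eq_comm
  refine ⟨⟨⟨hab⟩⟩, ⟨x 0, x 1, x 2, ?_⟩,
    not_two_gen hP hodd hab x b hne hb1 (fun i j hij => hb2 j i hij), ?_, ?_, ?_⟩
  · rw [← hgen]; congr 1
    ext y
    simp only [Set.mem_range, Fin.exists_fin_succ, Set.mem_insert_iff, Set.mem_singleton_iff]
    simp [eq_comm]
  · change Nat.card ↥{T : MulAut P | T ∈ I ∧ T ≠ 1 ∧ Broad T} = 3
    rw [hSeq, Nat.card_range_of_injective hbinj]; simp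
  · change Subgroup.closure {T : MulAut P | T ∈ I ∧ T ≠ 1 ∧ Broad T} = I
    rw [hSeq]
    refine le_antisymm (Subgroup.closure_le _ |>.2 (by rintro _ ⟨i, rfl⟩; exact hbI i)) fun T hT => ?_
    have hmem : ∀ i, b i ∈ Subgroup.closure (Set.range b) := fun i => Subgroup.subset_closure ⟨i, rfl⟩
    rcases hall T hT with rfl | ⟨k, rfl⟩ | ⟨i, rfl⟩ | rfl
    · exact one_mem _
    · obtain ⟨i, j, hij, hki, hkj⟩ := others3 k
      rw [hKeq i j k hij hki hkj]; exact mul_mem (hmem i) (hmem j)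
    · exact hmem i
    · have : (c : MulAut P) = b 0 * b 1 * b 2 := by
        refine hext _ _ fun i => ?_
        rw [hcx, MulAut.mul_apply, MulAut.mul_apply]
        fin_cases i
        · simp [hb1 0, hb2 1 0 (by decide), hb2 2 0 (by decide)]
        · simp [hb1 1, hb2 0 1 (by decide), hb2 2 1 (by decide)]
        · simp [hb1 2, hb2 0 2 (by decide), hb2 1 2 (by decide)]
      rw [this]; exact mul_mem (mul_mem (hmem 0) (hmem 1)) (hmem 2)
  · ext S
    simp only [SetLike.mem_coe, Set.mem_ofPred_eq]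
    constructor
    · intro hS
      rcases hall S (hle hS) with rfl | ⟨k, rfl⟩ | ⟨i, rfl⟩ | rfl
      · exact ⟨b 0, b 0, hbI 0, hbI 0, hb1ne 0, hb1ne 0, hbB 0, hbB 0, (hsq _ (hbI 0)).symm⟩
      · obtain ⟨i, j, hij, hki, hkj⟩ := others3 k
        exact ⟨b i, b j, hbI i, hbI j, hb1ne i, hb1ne j, hbB i, hbB j, hKeq i j k hij hki hkj⟩
      · exact absurd (hdisj _ hS (hb1ne i)) (hbB i)
      · exfalso
        -- `c · K 0 = b 0`
        have h : (c : MulAut P) * K 0 = b 0 := by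
          refine hext _ _ fun i => ?_
          rw [MulAut.mul_apply]
          rcases eq_or_ne i 0 with rfl | hi
          · rw [(hfix 0 _).2 (Subgroup.mem_zpowers _), hcx, hb1]
          · rw [hK i 0 hi, map_inv, hcx, inv_inv, hb2 0 i hi]
        exact hbB 0 (hdisj _ (h ▸ mul_mem hS (hKI₀ 0)) (hb1ne 0))
    · rintro ⟨T, T', hT, hT', h1, h1', hB, hB', rfl⟩
      exact hprod T hT T' hT' h1 h1' hB hB'

end Cfsg.Agent.S4412
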