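import Cfsg.Statements.S5432
import Cfsg.Agent.Lib.Classical.ExtraOut

open QuadraticMap Cfsg.Agent.Lib.Thompson.Extra Cfsg.Agent.Lib.Classical.Quad
open Cfsg.Agent.Lib.Classical.QuadOmega Cfsg.Agent.Lib.Classical.QuadF2 Cfsg.Agent.Lib.Classical.ExtraOut
open scoped commutatorElement

set_option autoImplicit false
open Cfsg

namespace Cfsg.Agent.S5432

attribute [local instance] _root_.Classical.propDecidable

lemma main {E : Type*} [Group E] [Finite E] {z : E} (d : Data 2 z) {n : ℕ} {a b : Fin n → E}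
    (hP : Pairs z a b) (hC : cen a b ≤ Subgroup.zpowers z) (hn : 1 ≤ n)
    (hcard : Nat.card E = 2 ^ (2 * n + 1)) :
    ((∃ A : Subgroup E, Cfsg.IsElementaryAbelian 2 A ∧ Nat.card ↥A = 2 ^ (n + 1)) →
      Nonempty (Cfsg.Out E ≃* Cfsg.isometryGroup (ZMod 2) (Cfsg.quadFormPlus n (ZMod 2)))) ∧
    ((¬ ∃ A : Subgroup E, Cfsg.IsElementaryAbelian 2 A ∧ Nat.card ↥A = 2 ^ (n + 1)) →
      Nonempty (Cfsg.Out E ≃* Cfsg.isometryGroup (ZMod 2) (Cfsg.quadFormMinus (n - 1) (ZMod 2) 1 1))) := by
  obtain ⟨e0⟩ := out_equiv d hP hC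
  have hq := sqForm_pol d hP hC
  have hplus : IsPlus n (sqForm d hP hC) →
      Nonempty (Cfsg.Out E ≃* Cfsg.isometryGroup (ZMod 2) (Cfsg.quadFormPlus n (ZMod 2))) := fun ⟨g, hg⟩ =>
    ⟨e0.trans ((isoEquiv (sqForm d hP hC) (Q := plusQ n (ZMod 2)) g.symm fun v => by
      rw [hg, g.apply_symm_apply, plusQ_apply]).trans
        (isoEquiv (Cfsg.quadFormPlus n (ZMod 2)) (Q := plusQ n (ZMod 2)) (LinearEquiv.refl _ _)
          fun v => (plusQ_apply n v).symm).symm)⟩
  have hminus : IsMinus n (sqForm d hP hC) →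
      Nonempty (Cfsg.Out E ≃* Cfsg.isometryGroup (ZMod 2) (Cfsg.quadFormMinus (n - 1) (ZMod 2) 1 1)) :=
    fun ⟨g, hg⟩ => ⟨e0.trans ((isoEquiv (sqForm d hP hC) (Q := minusQ (n - 1) (1 : ZMod 2) 1) g.symm fun v => by
      rw [hg, g.apply_symm_apply, minusQ_apply]).trans
        (isoEquiv (Cfsg.quadFormMinus (n - 1) (ZMod 2) 1 1) (Q := minusQ (n - 1) (1 : ZMod 2) 1)
          (LinearEquiv.refl _ _) fun v => (minusQ_apply (n - 1) 1 1 v).symm).symm)⟩
  let π : E →* Multiplicative (V2 n) := MonoidHom.mk' (fun g => Multiplicative.ofAdd (coords a b g))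
    fun g h => by rw [coords_mul d]; rfl
  have hmem : ∀ g, π g = 1 → g ∈ Subgroup.zpowers z := fun g hg =>
    mem_of_coords_eq_zero d hP hC (Multiplicative.ofAdd.injective hg)
  constructor
  · rintro ⟨A, ⟨hAc, hA2⟩, hA⟩
    refine hplus ((hq.isPlus_or_isMinus hn).resolve_right fun ⟨g, hg⟩ => ?_)
    let U : Submodule (ZMod 2) (V2 n) :=
      AddSubgroup.toZModSubmodule 2 (A.map π).toAddSubgroup'
    have hU : ∀ u ∈ U, sqForm d hP hC u = 0 := by
      rintro u ⟨x, hx, hxu⟩
      rw [show u = coords a b x from (congrArg Multiplicative.toAdd hxu).symm, sqForm_coords,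
        hA2 x hx, chi_one]
    have hcardU : 2 ^ n ≤ Nat.card U := by
      let f := π.comp A.subtype
      have h1 := f.ker.card_mul_index
      rw [Subgroup.index_ker, hA] at h1
      have h2 : Nat.card f.ker ≤ 2 := by
        refine le_trans (Nat.card_le_card_of_injective
          (fun x : f.ker => (⟨(x.1 : E), hmem _ x.2⟩ : Subgroup.zpowers z)) fun x y h =>
            Subtype.ext (Subtype.ext (congrArg Subtype.val h :))) (le_of_eq ?_)
        rw [Nat.card_zpowers, d.ord]
      have h3 : Nat.card f.range ≤ Nat.card U :=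
        Nat.card_le_card_of_injective (fun x => ⟨Multiplicative.toAdd x.1, by
          obtain ⟨⟨y, hy⟩, hyx⟩ := x.2
          exact ⟨y, hy, hyx⟩⟩) fun x y h => Subtype.ext (congrArg Subtype.val h :)
      rw [pow_succ'] at h1
      nlinarith
    have h4 := finrank_le_of_minus aniso_one_one (n - 1) (U.map g.toLinearMap) (by
      rintro _ ⟨u, hu, rfl⟩
      rw [LinearEquiv.coe_coe, ← hg, hU u hu])
    rw [LinearEquiv.finrank_map_eq] at h4
    rw [Module.natCard_eq_pow_finrank (K := ZMod 2), Nat.card_zmod] at hcardU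
    have := (Nat.pow_le_pow_iff_right (by norm_num : 1 < 2)).1 hcardU
    omega
  · intro hno
    refine hminus ((hq.isPlus_or_isMinus hn).resolve_left fun ⟨g, hg⟩ => hno ?_)
    let U : Submodule (ZMod 2) (V2 n) := (yPlane n (ZMod 2)).map g.symm.toLinearMap
    have hU : ∀ u ∈ U, sqForm d hP hC u = 0 := by
      rintro _ ⟨v, hv, rfl⟩
      rw [LinearEquiv.coe_coe, hg, g.apply_symm_apply]
      exact ((maxTS_iff n _).1 (maxTS_yPlane n)).2 v hv
    refine ⟨(AddSubgroup.toSubgroup U.toAddSubgroup).comap π, ⟨⟨⟨fun x y => Subtype.ext ?_⟩⟩, fun x hx => ?_⟩, ?_⟩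
    · refine commutatorElement_eq_one_iff_commute.1 (chi_inj d (d.comm _ _) (one_mem _) ?_)
      have hx : coords a b x.1 ∈ U := x.2
      have hy : coords a b y.1 ∈ U := y.2
      have := hq (coords a b x.1) (coords a b y.1)
      rw [hU _ hx, hU _ hy, hU _ (add_mem hx hy)] at this
      rw [chi_bracket d hP hC, chi_one]
      simpa using this.symm
    · have hx : coords a b x ∈ U := hx
      refine chi_inj d (d.pow x) (one_mem _) ?_
      rw [← sqForm_coords d hP hC, hU _ hx, chi_one]
    · set B := AddSubgroup.toSubgroup U.toAddSubgroup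
      have hs : Function.Surjective π := fun v => by
        obtain ⟨g, hg⟩ := coords_surjective d hP hC (Multiplicative.toAdd v)
        exact ⟨g, congrArg Multiplicative.ofAdd hg⟩
      have h1 := (B.comap π).card_mul_index
      rw [Subgroup.index_comap_of_surjective _ hs, hcard] at h1
      have h2 := B.card_mul_index
      have hB : Nat.card B = 2 ^ n := by
        rw [show Nat.card B = Nat.card U from rfl, Module.natCard_eq_pow_finrank (K := ZMod 2), Nat.card_zmod,
          LinearEquiv.finrank_map_eq, ((maxTS_iff n _).1 (maxTS_yPlane n)).1]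
      rw [hB, Nat.card_congr Multiplicative.toAdd, Nat.card_fun, Nat.card_sum, Nat.card_fin, Nat.card_zmod,
        pow_add] at h2
      have hi : B.index = 2 ^ n := Nat.eq_of_mul_eq_mul_left (Nat.two_pow_pos n) h2
      rw [hi, show 2 * n + 1 = (n + 1) + n by omega, pow_add 2 (n + 1) n] at h1
      exact Nat.eq_of_mul_eq_mul_right (Nat.two_pow_pos n) h1

/-- Let E be an extraspecial 2-group of order 2^(2n+1), n ≥ 1. If E contains an elementary abelian subgroup of order 2^(n+1) (plus type), then its outer automorphism group is isomorphic to the full isometry group of the hyperbolic quadratic form in dimension 2n over the field with two elements; otherwise (minus type) it is isomorphic to the full isometry group of the elliptic quadratic form in dimension 2n over that field. -/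
theorem result {E : Type*} [Group E] [Finite E] (hE : Cfsg.IsExtraspecial 2 E) (n : ℕ) (hn : 1 ≤ n) (hcard : Nat.card E = 2 ^ (2 * n + 1)) : ((∃ A : Subgroup E, Cfsg.IsElementaryAbelian 2 A ∧ Nat.card ↥A = 2 ^ (n + 1)) → Nonempty (Cfsg.Out E ≃* Cfsg.isometryGroup (ZMod 2) (Cfsg.quadFormPlus n (ZMod 2)))) ∧ ((¬ ∃ A : Subgroup E, Cfsg.IsElementaryAbelian 2 A ∧ Nat.card ↥A = 2 ^ (n + 1)) → Nonempty (Cfsg.Out E ≃* Cfsg.isometryGroup (ZMod 2) (Cfsg.quadFormMinus (n - 1) (ZMod 2) 1 1))) := by
  have := Fact.mk Nat.prime_two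
  obtain ⟨z, d⟩ := exists_data hE
  obtain ⟨a, b, hP, hC⟩ : ∃ a b : Fin n → E, Pairs z a b ∧ cen a b ≤ Subgroup.zpowers z := by
    rcases two_types d with ⟨k, a, b, hP, hC, -⟩ | ⟨k, a, b, hP, hC, -⟩
    · obtain rfl : n = k := by
        have h := (card_cons_le d hP hC).symm.trans hcard
        have := Nat.pow_right_injective le_rfl h
        omega
      exact ⟨a, b, hP, hC⟩
    · obtain rfl : n = k + 1 := by
        have h := (card_cons_le d hP hC).symm.trans hcard
        have := Nat.pow_right_injective le_rfl h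
        omega
      exact ⟨a, b, hP, hC⟩
  exact main d hP hC hn hcard

end Cfsg.Agent.S5432
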