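import Cfsg.Statements.S4413
import Cfsg.Agent.S0824
import Cfsg.Agent.S5432
import Cfsg.Agent.Lib.Classical.ExtraTwo

open Cfsg.Agent.Lib.Thompson.Extra Cfsg.Agent.Lib.Classical.QuadF2 Cfsg.Agent.Lib.Classical.ExtraOut Cfsg.Agent.Lib.Classical.ExtraTwo

set_option autoImplicit false
open Cfsg

namespace Cfsg.Agent.S4413

/-- Let P be an extraspecial 2-group of order 32 with no elementary abelian subgroup of order 8 (the central product of a dihedral and a quaternion group of order 8). Then the inner automorphism group of P has order 16 and the outer automorphism group Aut(P)/Inn(P) is isomorphic to the symmetric group of degree 5; in particular Aut(P) has order 1920. -/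
theorem result {P : Type*} [Group P] [Finite P]
    (hex : Cfsg.IsExtraspecial 2 P) (h32 : Nat.card P = 32)
    (hminus : ∀ A : Subgroup P, Cfsg.IsElementaryAbelian 2 A → Nat.card ↥A ≤ 4)
    [(MulAut.conj : P →* MulAut P).range.Normal] :
    Nat.card ↥(MulAut.conj : P →* MulAut P).range = 16 ∧ Nat.card (MulAut P) = 1920 ∧
      Nonempty ((MulAut P ⧸ (MulAut.conj : P →* MulAut P).range) ≃* Equiv.Perm (Fin 5)) := by
  obtain ⟨z, d, m, a, b, hP, hC, hm, hcard⟩ := exists_setup hex
  obtain rfl : m = 2 := by
    have := Nat.pow_right_injective (le_refl 2) (hcard.symm.trans (h32.trans (show 32 = 2 ^ 5 by norm_num)))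
    omega
  have hno : ¬ ∃ A : Subgroup P, Cfsg.IsElementaryAbelian 2 A ∧ Nat.card ↥A = 2 ^ (2 + 1) := fun ⟨A, hA, hA8⟩ => by
    have := hminus A hA
    omega
  obtain ⟨e⟩ := (Cfsg.Agent.S5432.main d hP hC hm hcard).2 hno
  obtain ⟨e'⟩ := Cfsg.Agent.S0824.result (F := ZMod 2) (ZMod.card 2)
  have hk : (MulAut.conj : P →* MulAut P).ker = Subgroup.center P := by
    ext g
    rw [MonoidHom.mem_ker, Subgroup.mem_center_iff]
    refine ⟨fun h x => ?_, fun h => MulEquiv.ext fun x => ?_⟩
    · have := congrArg (fun φ : MulAut P => φ x) h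
      simp only [MulAut.conj_apply, MulAut.one_apply] at this
      exact (mul_inv_eq_iff_eq_mul.1 this).symm
    · rw [MulAut.conj_apply, MulAut.one_apply, ← h x, mul_inv_cancel_right]
  have h16 : Nat.card ↥(MulAut.conj : P →* MulAut P).range = 16 := by
    have h := (MulAut.conj : P →* MulAut P).ker.card_mul_index
    rw [Subgroup.index_ker, hk, hex.2, h32] at h
    omega
  let e'' : (MulAut P ⧸ (MulAut.conj : P →* MulAut P).range) ≃* Equiv.Perm (Fin 5) := e.trans e'
  refine ⟨h16, ?_, ⟨e''⟩⟩
  rw [Subgroup.card_eq_card_quotient_mul_card_subgroup (MulAut.conj : P →* MulAut P).range,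
    Nat.card_congr e''.toEquiv, Nat.card_perm, Nat.card_fin, h16]
  rfl

end Cfsg.Agent.S4413
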