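import Cfsg.Statements.S4414
import Mathlib.LinearAlgebra.Eigenspace.Pi
import Mathlib.LinearAlgebra.Eigenspace.Triangularizable
import Mathlib.LinearAlgebra.TensorProduct.Basis
import Mathlib.FieldTheory.IsAlgClosed.AlgebraicClosure
import Mathlib.FieldTheory.Finiteness
import Mathlib.Algebra.Field.ZMod
import Mathlib.Algebra.CharP.Algebra
import Mathlib.FieldTheory.Finite.Basic
import Mathlib.GroupTheory.PGroup
import Mathlib.RepresentationTheory.Basic

set_option autoImplicit false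
open Cfsg

namespace Cfsg.Agent.S4414

open scoped Pointwise TensorProduct
open MulAction
open scoped commutatorElement

section

variable {K W : Type*} [Field K] [AddCommGroup W] [Module K W]

/-- The sum of the members of a family indexed by a set. -/
def U {O : Type*} (t : O → Submodule K W) (A : Set O) : Submodule K W := ⨆ i ∈ A, t i

theorem U_mono {O : Type*} (t : O → Submodule K W) {A B : Set O} (h : A ⊆ B) : U t A ≤ U t B :=
  biSup_mono h

theorem U_union {O : Type*} (t : O → Submodule K W) (A B : Set O) : U t (A ∪ B) = U t A ⊔ U t B :=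
  iSup_union

theorem U_inter {O : Type*} {t : O → Submodule K W} (ht : iSupIndep t) (A B : Set O) :
    U t A ⊓ U t B ≤ U t (A ∩ B) := by
  rintro v ⟨hA, hB⟩
  rw [SetLike.mem_coe, show A = A ∩ B ∪ A \ B from (Set.inter_union_sdiff A B).symm, U_union,
    Submodule.mem_sup] at hA
  obtain ⟨a, ha, c, hc, rfl⟩ := hA
  have hcB : c ∈ U t B := by
    simpa using sub_mem hB (U_mono t Set.inter_subset_right ha)
  have hc0 : c = 0 := Submodule.disjoint_def.1
    (ht.disjoint_biSup_biSup (s := A \ B) (t := B) Set.disjoint_sdiff_left) c hc hcB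
  rw [hc0, add_zero]
  exact ha

theorem mem_U_smul {O Γ : Type*} [Group Γ] [MulAction Γ O] {σ : Representation K Γ W}
    {t : O → Submodule K W} (hσ : ∀ (g : Γ) (i : O), ∀ w ∈ t i, σ g w ∈ t (g • i))
    (g : Γ) {A : Set O} {w : W} (hw : w ∈ U t A) : σ g w ∈ U t (g • A) := by
  have : U t A ≤ (U t (g • A)).comap (σ g) := iSup₂_le fun i hi v hv =>
    le_iSup₂ (f := fun j (_ : j ∈ g • A) => t j) (g • i) (Set.smul_mem_smul_set hi) (hσ g i v hv)
  exact this hw

/-- A nonzero fixed vector of an orbit has full support. -/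
theorem full_support {O Γ : Type*} [Group Γ] [MulAction Γ O] {σ : Representation K Γ W}
    {t : O → Submodule K W} (ht : iSupIndep t)
    (hσ : ∀ (g : Γ) (i : O), ∀ w ∈ t i, σ g w ∈ t (g • i)) {H : Subgroup Γ} [Finite H]
    {v : W} (hv : v ≠ 0) (hfix : ∀ h ∈ H, σ h v = v) {ω A : Set O}
    (hω : ∀ i ∈ ω, ∀ j ∈ ω, ∃ h ∈ H, h • i = j) (hvω : v ∈ U t ω) (hvA : v ∈ U t A) : ω ⊆ A := by
  classical
  intro μ hμ
  by_contra hμA
  have key : ∀ T : Finset H, v ∈ U t (ω ∩ {j | ∀ h ∈ T, j ∈ (h : Γ) • A}) := by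
    intro T
    induction T using Finset.induction_on with
    | empty => simpa using hvω
    | insert h T _ ih =>
      have h1 : v ∈ U t ((h : Γ) • A) := by
        have := mem_U_smul hσ (h : Γ) hvA
        rwa [hfix _ h.2] at this
      refine U_mono t ?_ (U_inter ht _ _ ⟨ih, h1⟩)
      rintro j ⟨⟨hj, hjT⟩, hjh⟩
      refine ⟨hj, fun h' hh' => ?_⟩
      rcases Finset.mem_insert.1 hh' with rfl | h''
      · exact hjh
      · exact hjT _ h''
  haveI := Fintype.ofFinite H
  have hempty : ω ∩ {j | ∀ h ∈ (Finset.univ : Finset H), j ∈ (h : Γ) • A} = ∅ := by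
    refine Set.eq_empty_of_forall_notMem fun j hj => ?_
    obtain ⟨h, hh, rfl⟩ := hω μ hμ j hj.1
    exact hμA (Set.smul_mem_smul_set_iff.1 (hj.2 ⟨h, hh⟩ (Finset.mem_univ _)))
  have := key Finset.univ
  rw [hempty] at this
  simp [U] at this
  exact hv this

/-- Commuting operators over an algebraically closed field have a common eigenvector. -/
theorem exists_common [IsAlgClosed K] [FiniteDimensional K W] {ι : Type*}
    (f : ι → Module.End K W) (hc : ∀ i j, Commute (f i) (f j)) (T : Finset ι) (D : Submodule K W)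
    (hD : D ≠ ⊥) (hinv : ∀ i, ∀ v ∈ D, f i v ∈ D) :
    ∃ D' ≤ D, D' ≠ ⊥ ∧ (∀ i, ∀ v ∈ D', f i v ∈ D') ∧ ∀ i ∈ T, ∃ c : K, ∀ v ∈ D', f i v = c • v := by
  classical
  induction T using Finset.induction_on with
  | empty => exact ⟨D, le_rfl, hD, hinv, fun i hi => absurd hi (Finset.notMem_empty i)⟩
  | insert a T _ ih =>
    obtain ⟨D', hD', hne, hinv', hsc⟩ := ih
    haveI : Nontrivial D' := Submodule.nontrivial_iff_ne_bot.2 hne
    obtain ⟨c, hc'⟩ := Module.End.exists_eigenvalue ((f a).restrict (hinv' a))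
    obtain ⟨w, hw⟩ := hc'.exists_hasEigenvector
    refine ⟨D' ⊓ LinearMap.ker (f a - c • 1), inf_le_left.trans hD', ?_, ?_, ?_⟩
    · intro h
      have hw1 : (w : W) ∈ D' ⊓ LinearMap.ker (f a - c • 1) := by
        refine ⟨w.2, ?_⟩
        have := congrArg Subtype.val hw.apply_eq_smul
        simpa [sub_eq_zero] using this
      rw [h, Submodule.mem_bot] at hw1
      exact hw.2 (Subtype.ext hw1)
    · rintro i v ⟨hv1, hv2⟩
      refine ⟨hinv' i v hv1, ?_⟩
      simp only [SetLike.mem_coe, LinearMap.mem_ker, LinearMap.sub_apply, LinearMap.smul_apply,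
        Module.End.one_apply, sub_eq_zero] at hv2 ⊢
      rw [show f a (f i v) = f i (f a v) from LinearMap.congr_fun (hc a i).eq v, hv2, map_smul]
    · intro i hi
      rcases Finset.mem_insert.1 hi with rfl | hi'
      · exact ⟨c, fun v hv => by simpa [sub_eq_zero] using hv.2⟩
      · obtain ⟨d, hd⟩ := hsc i hi'
        exact ⟨d, fun v hv => hd v hv.1⟩

end

/-- Let S be a finite solvable group whose order is divisible only by the primes 2, p, q (p, q distinct odd primes), with a Sylow system S₂, S_p, S_q (pairwise permutable Sylow subgroups) such that: S_p is a minimal normal subgroup of S of order p or p²; S_q has order q and [S_p, S_q] = S_p; and O₂(S) = 1. Let E be an irreducible module for S over the field with two elements on which S_p acts faithfully, and E₀ the subspace of fixed points of S₂. Then either E₀ has at least 8 elements, or E₀ has exactly 4 elements and S_q does not leave E₀ invariant. -/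
theorem result {S : Type*} [Group S] [Finite S]
    [Group.IsSolvable S] (p q : ℕ) (hp : p.Prime) (hq : q.Prime) (hp2 : p ≠ 2) (hq2 : q ≠ 2) (hpq : p ≠ q)
    (hπ : ∀ r : ℕ, r.Prime → r ∣ Nat.card S → r = 2 ∨ r = p ∨ r = q)
    (S₂ : Sylow 2 S) (Sp : Sylow p S) (Sq : Sylow q S)
    (h2q : Nat.card ↥((S₂ : Subgroup S) ⊔ (Sq : Subgroup S)) = Nat.card ↥S₂ * Nat.card ↥Sq)
    (h2p : Nat.card ↥((S₂ : Subgroup S) ⊔ (Sp : Subgroup S)) = Nat.card ↥S₂ * Nat.card ↥Sp)
    (hpq' : Nat.card ↥((Sp : Subgroup S) ⊔ (Sq : Subgroup S)) = Nat.card ↥Sp * Nat.card ↥Sq)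
    (hSpN : (Sp : Subgroup S).Normal) (hSpmin : ∀ N : Subgroup S, N.Normal → N ≤ (Sp : Subgroup S) → N = ⊥ ∨ N = (Sp : Subgroup S))
    (hSpcard : Nat.card ↥Sp = p ∨ Nat.card ↥Sp = p ^ 2)
    (hSq : Nat.card ↥Sq = q) (hcomm : ⁅(Sp : Subgroup S), (Sq : Subgroup S)⁆ = (Sp : Subgroup S))
    (hO2 : Cfsg.pCore 2 S = ⊥)
    {E : Type*} [AddCommGroup E] [Module (ZMod 2) E] [Finite E] (ρ : Representation (ZMod 2) S E) (hE : Nontrivial E)
    (hirr : ∀ N : Submodule (ZMod 2) E, (∀ s : S, ∀ m ∈ N, ρ s m ∈ N) → N = ⊥ ∨ N = ⊤)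
    (hfaith : ∀ x ∈ (Sp : Subgroup S), ρ x = 1 → x = 1) :
    8 ≤ Nat.card {v : E // ∀ s ∈ (S₂ : Subgroup S), ρ s v = v} ∨
      (Nat.card {v : E // ∀ s ∈ (S₂ : Subgroup S), ρ s v = v} = 4 ∧
        ∃ x ∈ (Sq : Subgroup S), ∃ v : E, (∀ s ∈ (S₂ : Subgroup S), ρ s v = v) ∧ ¬ ∀ s ∈ (S₂ : Subgroup S), ρ s (ρ x v) = ρ x v) := by
  classical
  haveI := Fact.mk hp
  haveI := Fact.mk hq
  haveI := hSpN
  haveI : Fact (Nat.Prime 2) := ⟨Nat.prime_two⟩
  let SP : Subgroup S := Sp
  let SQ : Subgroup S := Sq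
  have hSpcard : Nat.card SP = p ∨ Nat.card SP = p ^ 2 := hSpcard
  have hSq : Nat.card SQ = q := hSq
  have hcomm : ⁅SP, SQ⁆ = SP := hcomm
  haveI : SP.Normal := hSpN
  set K := AlgebraicClosure (ZMod 2)
  let σ : Representation K S (K ⊗[ZMod 2] E) :=
    { toFun := fun s => (ρ s).baseChange K
      map_one' := by rw [map_one]; exact LinearMap.baseChange_one _ _
      map_mul' := fun s t => by rw [map_mul]; exact LinearMap.baseChange_mul _ _ }
  have hσt : ∀ s (c : K) (e : E), σ s (c ⊗ₜ e) = c ⊗ₜ ρ s e := fun s c e => rfl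
  haveI : Module.Finite (ZMod 2) E := Module.Finite.of_finite
  -- `Sp` is abelian
  have hSpc : ∀ a b : SP, a * b = b * a := by
    rcases hSpcard with h | h
    · intro a b
      haveI := isCyclic_of_prime_card h
      letI := IsCyclic.commGroup (α := SP)
      exact mul_comm a b
    · letI := IsPGroup.commGroupOfCardEqPrimeSq h
      exact fun a b => mul_comm a b
  let f : SP → Module.End K (K ⊗[ZMod 2] E) := fun a => σ (a : S)
  have hf : ∀ a b, Commute (f a) (f b) := fun a b => by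
    show σ (a : S) * σ (b : S) = σ (b : S) * σ (a : S)
    rw [← map_mul, ← map_mul]
    exact congrArg σ (congrArg Subtype.val (hSpc a b))
  have hSpne : SP ≠ ⊥ := fun h => by
    rw [h, Subgroup.card_bot] at hSpcard
    rcases hSpcard with h' | h'
    · exact hp.one_lt.ne h'
    · exact (Nat.one_lt_pow two_ne_zero hp.one_lt).ne h'
  obtain ⟨a₀, ha₀, ha₀1⟩ := (Subgroup.bot_or_exists_ne_one SP).resolve_left hSpne
  obtain ⟨κ⟩ : Nonempty (Module.Free.ChooseBasisIndex (ZMod 2) K) := inferInstance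
  let κb := Module.Free.chooseBasis (ZMod 2) K
  let e := TensorProduct.equivFinsuppOfBasisLeft (N := E) κb
  have heq : ∀ s w i, e (σ s w) i = ρ s (e w i) := by
    intro s w i
    induction w using TensorProduct.induction_on with
    | zero => simp
    | tmul c v => simp [e, hσt, TensorProduct.equivFinsuppOfBasisLeft_apply_tmul_apply]
    | add x y hx hy => simp [hx, hy]
  -- `a₀` acts nontrivially
  set A := f ⟨a₀, ha₀⟩ - 1 with hA
  have hAne : LinearMap.range A ≠ ⊥ := by
    intro h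
    rw [LinearMap.range_eq_bot, hA] at h
    replace h : f ⟨a₀, ha₀⟩ = 1 := sub_eq_zero.1 h
    refine ha₀1 (hfaith a₀ ha₀ (LinearMap.ext fun v => ?_))
    have h1 : σ a₀ (κb κ ⊗ₜ v) = κb κ ⊗ₜ v := LinearMap.congr_fun h _
    have := congrArg (fun w => e w κ) h1
    simp only [heq] at this
    simpa [e, TensorProduct.equivFinsuppOfBasisLeft_apply_tmul_apply] using this
  have hAinv : ∀ b, ∀ v ∈ LinearMap.range A, f b v ∈ LinearMap.range A := by
    rintro b _ ⟨u, rfl⟩
    refine ⟨f b u, ?_⟩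
    have hc' : f ⟨a₀, ha₀⟩ (f b u) = f b (f ⟨a₀, ha₀⟩ u) := LinearMap.congr_fun (hf ⟨a₀, ha₀⟩ b).eq u
    simp [hA, hc']
  haveI := Fintype.ofFinite SP
  obtain ⟨D', hD', hD'ne, -, hsc⟩ := exists_common f hf Finset.univ _ hAne hAinv
  choose c hcs using fun b => hsc b (Finset.mem_univ b)
  obtain ⟨v₀, hv₀, hv₀0⟩ := (Submodule.ne_bot_iff _).1 hD'ne
  have hc0 : c ⟨a₀, ha₀⟩ ≠ 1 := by
    intro h
    obtain ⟨u, hu⟩ := hD' hv₀
    have hfix : σ a₀ v₀ = v₀ := by simpa [h, f] using hcs ⟨a₀, ha₀⟩ v₀ hv₀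
    have hu' : σ a₀ u = u + v₀ := by rw [← hu, hA]; simp [f]
    have hn : ∀ n : ℕ, σ (a₀ ^ n) u = u + (n : K) • v₀ := by
      intro n
      induction n with
      | zero => simp
      | succ n ih => rw [pow_succ', map_mul, Module.End.mul_apply, ih, map_add, map_smul, hfix, hu',
          Nat.cast_succ, add_smul, one_smul, add_assoc, add_comm v₀]
    have h0 := hn (orderOf a₀)
    rw [pow_orderOf_eq_one, map_one, Module.End.one_apply, left_eq_add, smul_eq_zero,
      CharP.cast_eq_zero_iff K 2] at h0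
    refine hv₀0 (h0.resolve_left fun h2 => ?_)
    obtain ⟨k, hk⟩ := IsPGroup.iff_orderOf.1 Sp.2 ⟨a₀, ha₀⟩
    rw [Subgroup.orderOf_mk] at hk
    rw [hk] at h2
    exact hp2 ((Nat.prime_dvd_prime_iff_eq Nat.prime_two hp).1 (Nat.prime_two.dvd_of_dvd_pow h2)).symm
  -- the action on functions `Sp → K`
  letI : MulAction S (SP → K) :=
    { smul := fun s μ a => μ (MulAut.conjNormal s⁻¹ a)
      one_smul := fun μ => funext fun a => by
        show μ (MulAut.conjNormal (1 : S)⁻¹ a) = μ a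
        simp
      mul_smul := fun s t μ => funext fun a => by
        show μ (MulAut.conjNormal (s * t)⁻¹ a) = μ (MulAut.conjNormal t⁻¹ (MulAut.conjNormal s⁻¹ a))
        rw [mul_inv_rev, map_mul, MulAut.mul_apply] }
  have hsmul : ∀ (s : S) (μ : SP → K) a, (s • μ) a = μ (MulAut.conjNormal s⁻¹ a) :=
    fun _ _ _ => rfl
  let Wt : (SP → K) → Submodule K (K ⊗[ZMod 2] E) := fun μ =>
    ⨅ a, LinearMap.ker (f a - μ a • 1)
  have hWt : ∀ μ w, w ∈ Wt μ ↔ ∀ a, f a w = μ a • w := fun μ w => by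
    simp [Wt, Submodule.mem_iInf, sub_eq_zero]
  have hWind : iSupIndep Wt := by
    refine (Module.End.independent_iInf_maxGenEigenspace_of_forall_mapsTo f fun i j φ =>
      Module.End.mapsTo_maxGenEigenspace_of_comm (hf j i) φ).mono fun μ => iInf_mono fun a => ?_
    intro w hw
    rw [Module.End.mem_maxGenEigenspace]
    exact ⟨1, by simpa using hw⟩
  have hWσ : ∀ (s : S) μ w, w ∈ Wt μ → σ s w ∈ Wt (s • μ) := by
    intro s μ w hw
    rw [hWt] at hw ⊢
    intro a
    have h1 : f a (σ s w) = σ s (f (MulAut.conjNormal s⁻¹ a) w) := by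
      show σ (a : S) (σ s w) = σ s (σ _ w)
      rw [← Module.End.mul_apply, ← Module.End.mul_apply, ← map_mul, ← map_mul]
      congr 2
      rw [MulAut.conjNormal_apply]
      group
    rw [h1, hw, map_smul, hsmul]
  set O := orbit S c
  let t : O → Submodule K (K ⊗[ZMod 2] E) := fun i => Wt i
  have ht : iSupIndep t := hWind.comp Subtype.val_injective
  have htσ : ∀ (g : S) (i : O), ∀ w ∈ t i, σ g w ∈ t (g • i) := fun g i w hw => hWσ g i w hw
  have htne : ∀ i : O, ∃ w ∈ t i, w ≠ 0 := by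
    rintro ⟨_, s, rfl⟩
    refine ⟨σ s v₀, hWσ s c v₀ ((hWt _ _).2 fun a => hcs a v₀ hv₀), fun h => hv₀0 ?_⟩
    have := congrArg (σ s⁻¹) h
    rwa [← Module.End.mul_apply, ← map_mul, inv_mul_cancel, map_one, Module.End.one_apply, map_zero] at this
  -- `Sq` acts freely
  have hfree : ∀ y ∈ SQ, ∀ i : O, y • i = i → y = 1 := by
    intro y hy i hyi
    by_contra hy1
    have hgen : SQ ≤ Subgroup.zpowers y := by
      refine (Subgroup.eq_of_le_of_card_ge (Subgroup.zpowers_le.2 hy) ?_).ge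
      rw [hSq, Nat.card_zpowers]
      have h := Subgroup.orderOf_dvd_natCard _ hy
      rw [hSq] at h
      rcases (Nat.dvd_prime hq).1 h with h' | h'
      · exact absurd (orderOf_eq_one_iff.1 h') hy1
      · exact h'.ge
    have hstab : ∀ x ∈ SQ, x • (i : SP → K) = i := fun x hx => by
      have h1 : y ∈ stabilizer S (i : SP → K) := congrArg Subtype.val hyi
      exact Subgroup.zpowers_le.2 h1 (hgen hx)
    obtain ⟨w, hw, hw0⟩ := htne i
    rw [hWt] at hw
    have hmul : ∀ a b, (i : SP → K) (a * b) = i.1 a * i.1 b := fun a b => by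
      apply smul_left_injective K hw0
      show i.1 (a * b) • w = (i.1 a * i.1 b) • w
      rw [← hw, mul_smul, show f (a * b) = f a * f b from map_mul σ _ _, Module.End.mul_apply, hw,
        map_smul, hw, smul_comm]
    have hone : i.1 (1 : SP) = 1 := by
      apply smul_left_injective K hw0
      show i.1 (1 : SP) • w = (1 : K) • w
      rw [← hw, one_smul, show f 1 = 1 from map_one σ, Module.End.one_apply]
    let N : Subgroup S :=
      { carrier := {a | ∃ h : a ∈ SP, i.1 ⟨a, h⟩ = 1}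
        one_mem' := ⟨one_mem _, hone⟩
        mul_mem' := by
          rintro a b ⟨ha, ha'⟩ ⟨hb, hb'⟩
          exact ⟨mul_mem ha hb, by
            rw [show (⟨a * b, mul_mem ha hb⟩ : SP) = ⟨a, ha⟩ * ⟨b, hb⟩ from rfl, hmul, ha', hb', one_mul]⟩
        inv_mem' := by
          rintro a ⟨ha, ha'⟩
          refine ⟨inv_mem ha, ?_⟩
          have := hmul ⟨a, ha⟩ ⟨a, ha⟩⁻¹
          rw [mul_inv_cancel, hone, ha', one_mul] at this
          exact this.symm }
    have hle : ⁅SP, SQ⁆ ≤ N := Subgroup.commutator_le.2 fun a ha x hx => by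
      have hx' := congrFun (hstab x⁻¹ (inv_mem hx)) (⟨a, ha⟩⁻¹ : SP)
      rw [hsmul, inv_inv] at hx'
      set b : SP := MulAut.conjNormal x (⟨a, ha⟩⁻¹ : SP)
      have hval : ((⟨a, ha⟩ * b : SP) : S) = ⁅a, x⁆ := by
        simp [b, MulAut.conjNormal_apply, commutatorElement_def, mul_assoc]
      refine ⟨hval ▸ SetLike.coe_mem _, ?_⟩
      rw [show (⟨⁅a, x⁆, _⟩ : SP) = ⟨a, ha⟩ * b from Subtype.ext hval.symm, hmul, hx',
        ← hmul, mul_inv_cancel, hone]
    rw [hcomm] at hle
    obtain ⟨j, s, hs⟩ : ∃ (j : O) (s : S), i = j ∧ (j : SP → K) = s • c := by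
      obtain ⟨s, hs⟩ := i.2
      exact ⟨i, s, rfl, hs.symm⟩
    obtain ⟨_, h1⟩ := hle (MulAut.conjNormal s (⟨a₀, ha₀⟩ : SP)).2
    rw [hs.1, hs.2, hsmul] at h1
    refine hc0 (Eq.trans (congrArg c ?_) h1)
    apply Subtype.ext
    simp [MulAut.conjNormal_apply, mul_assoc]
  haveI : Finite O := Set.Finite.to_subtype (Set.finite_range _)
  -- no nontrivial element of `Sq` fixes a set of 2-power size
  have hnofix : ∀ (ω : Set O) (k : ℕ), Nat.card ω = 2 ^ k → ∀ y ∈ SQ, y ≠ 1 →
      y • ω = ω → False := by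
    intro ω k hω y hy hy1 hyω
    let P := Subgroup.zpowers y
    have hP : ∀ g ∈ P, ∀ i ∈ ω, g • i ∈ ω := by
      intro g hg i hi
      have : g • ω = ω := Subgroup.zpowers_le.2 (show y ∈ stabilizer S ω from hyω) hg
      exact this ▸ Set.smul_mem_smul_set hi
    letI : MulAction P ω :=
      { smul := fun g i => ⟨(g : S) • i.1, hP g g.2 i.1 i.2⟩
        one_smul := fun i => Subtype.ext (one_smul S i.1)
        mul_smul := fun g h i => Subtype.ext (mul_smul (g : S) h i.1) }
    have hPq : IsPGroup q P := Sq.2.to_le (Subgroup.zpowers_le.2 hy)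
    have h1 := hPq.card_modEq_card_fixedPoints ω
    have h0 : IsEmpty (fixedPoints P ω) := ⟨fun i => hy1 (hfree y hy i.1.1
      (congrArg Subtype.val (i.2 ⟨y, Subgroup.mem_zpowers y⟩)))⟩
    rw [Nat.card_of_isEmpty (α := fixedPoints P ω), hω, Nat.modEq_zero_iff_dvd] at h1
    exact hq2 ((Nat.prime_dvd_prime_iff_eq hq Nat.prime_two).1 (hq.dvd_of_dvd_pow h1))
  let H := (S₂ : Subgroup S)
  have hH2 : IsPGroup 2 H := S₂.2
  let R := orbitRel.Quotient H O
  let ω : R → Set O := fun r => orbitRel.Quotient.orbit r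
  have hωH : ∀ r, ∀ i ∈ ω r, ∀ j ∈ ω r, ∃ h ∈ H, h • i = j := by
    intro r i hi j hj
    rw [orbitRel.Quotient.mem_orbit] at hi hj
    obtain ⟨h, hh⟩ : j ∈ orbit H i := Quotient.exact (hj.trans hi.symm)
    exact ⟨h, h.2, hh⟩
  have hωne : ∀ r, ∃ i, i ∈ ω r := fun r => by
    obtain ⟨i, rfl⟩ := Quotient.exists_rep r
    exact ⟨i, orbitRel.Quotient.mem_orbit.2 rfl⟩
  have hωcard : ∀ r, ∃ k, Nat.card (ω r) = 2 ^ k := fun r => by
    obtain ⟨i, rfl⟩ := Quotient.exists_rep r
    exact hH2.card_orbit i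
  have hωdis : ∀ r r', r ≠ r' → Disjoint (ω r) (ω r') := fun r r' h => Set.disjoint_left.2 fun i hi hi' =>
    h ((orbitRel.Quotient.mem_orbit.1 hi).symm.trans (orbitRel.Quotient.mem_orbit.1 hi'))
  -- fixed vectors
  have hfixvec : ∀ r, ∃ v ∈ U t (ω r), v ≠ 0 ∧ ∀ h ∈ H, σ h v = v := by
    intro r
    obtain ⟨i, hi⟩ := hωne r
    obtain ⟨w, hw, hw0⟩ := htne i
    let M : Submodule (ZMod 2) (K ⊗[ZMod 2] E) := Submodule.span (ZMod 2) (Set.range fun h : H => σ h w)
    haveI : Module.Finite (ZMod 2) M := Module.Finite.span_of_finite _ (Set.finite_range _)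
    haveI : Finite M := Module.finite_of_finite (ZMod 2)
    have hMinv : ∀ g : H, ∀ v ∈ M, σ g v ∈ M := fun g v hv => by
      refine (Submodule.span_le.2 ?_ : M ≤ M.comap ((σ (g : S)).restrictScalars (ZMod 2))) hv
      rintro _ ⟨h, rfl⟩
      refine Submodule.subset_span ⟨g * h, ?_⟩
      simp [map_mul]
    letI : MulAction H M :=
      { smul := fun g v => ⟨σ g v.1, hMinv g v.1 v.2⟩
        one_smul := fun v => Subtype.ext (show σ ((1 : H) : S) v.1 = v.1 by simp)
        mul_smul := fun g h v => Subtype.ext (show σ ((g * h : H) : S) v.1 = σ g (σ h v.1) by simp) }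
    have hwM : w ∈ M := Submodule.subset_span ⟨1, by simp⟩
    haveI : Nontrivial M := ⟨⟨⟨w, hwM⟩, 0, fun h => hw0 (congrArg Subtype.val h)⟩⟩
    have h2 : 2 ∣ Nat.card M := by
      rw [Module.natCard_eq_pow_finrank (K := ZMod 2), Nat.card_zmod]
      exact dvd_pow_self 2 Module.finrank_pos.ne'
    obtain ⟨v, hv, hv0⟩ := hH2.exists_fixed_point_of_prime_dvd_card_of_fixed_point M h2
      (show (0 : M) ∈ fixedPoints H M from fun g => Subtype.ext (map_zero (σ (g : S))))
    have hMU : M ≤ (U t (ω r)).restrictScalars (ZMod 2) := Submodule.span_le.2 (by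
      rintro _ ⟨h, rfl⟩
      refine le_iSup₂ (f := fun j (_ : j ∈ ω r) => t j) ((h : S) • i) ?_ (htσ h i w hw)
      rw [orbitRel.Quotient.mem_orbit] at hi ⊢
      rw [← hi]
      exact Quotient.sound ⟨h, rfl⟩)
    exact ⟨v.1, hMU v.2, fun h => hv0 (Subtype.ext h.symm), fun h hh => congrArg Subtype.val (hv ⟨h, hh⟩)⟩
  choose F hFU hF0 hFfix using hfixvec
  have hUind : iSupIndep fun r => U t (ω r) := by
    rw [iSupIndep_def]
    intro r
    refine (ht.disjoint_biSup_biSup (s := ω r) (t := (ω r)ᶜ) disjoint_compl_right).mono_right ?_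
    exact iSup₂_le fun r' hr' => U_mono t (Set.subset_compl_iff_disjoint_right.2 (hωdis r' r hr'))
  have hli : LinearIndependent K F := hUind.linearIndependent _ hFU hF0
  -- descend to `E`
  let E₀ : Submodule (ZMod 2) E :=
    { carrier := {v | ∀ s ∈ H, ρ s v = v}
      zero_mem' := fun s _ => map_zero _
      add_mem' := fun ha hb s hs => by rw [map_add, ha s hs, hb s hs]
      smul_mem' := fun a v hv s hs => by rw [map_smul, hv s hs] }
  have hcard : Nat.card {v : E // ∀ s ∈ (S₂ : Subgroup S), ρ s v = v} = 2 ^ Module.finrank (ZMod 2) E₀ := by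
    refine Eq.trans ?_ ((Module.natCard_eq_pow_finrank (K := ZMod 2) (V := E₀)).trans (by rw [Nat.card_zmod]))
    rfl
  let B := LinearMap.range (E₀.subtype.baseChange K)
  have hfixB : ∀ w, (∀ h ∈ H, σ h w = w) → w ∈ B := by
    intro w hw
    rw [← e.symm_apply_apply w, TensorProduct.equivFinsuppOfBasisLeft_symm_apply]
    refine Submodule.sum_mem _ fun i _ => ⟨κb i ⊗ₜ ⟨e w i, fun s hs => ?_⟩, rfl⟩
    rw [← heq, hw s hs]
  have hBdim : Module.finrank K B ≤ Module.finrank (ZMod 2) E₀ :=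
    (LinearMap.finrank_range_le _).trans (Module.finrank_baseChange (R := K)).le
  haveI : Finite R := Quotient.finite _
  haveI := Fintype.ofFinite R
  have hRle : Nat.card R ≤ Module.finrank K B := by
    have h1 : LinearIndependent K (fun r => (⟨F r, hfixB _ (hFfix r)⟩ : B)) :=
      LinearIndependent.of_comp B.subtype hli
    rw [Nat.card_eq_fintype_card]
    exact h1.fintype_card_le_finrank
  have hR2 : 2 ≤ Nat.card R := by
    by_contra! hlt
    haveI : Nonempty R := ⟨Quotient.mk'' ⟨c, mem_orbit_self c⟩⟩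
    haveI : Subsingleton R := Finite.card_le_one_iff_subsingleton.1 (by omega)
    obtain ⟨r⟩ : Nonempty R := inferInstance
    obtain ⟨k, hk⟩ := hωcard r
    have huniv : ω r = Set.univ :=
      Set.eq_univ_of_forall fun i => orbitRel.Quotient.mem_orbit.2 (Subsingleton.elim _ _)
    obtain ⟨y, hy, hy1⟩ := (Subgroup.bot_or_exists_ne_one SQ).resolve_left
      (fun h => by rw [h, Subgroup.card_bot] at hSq; exact hq.one_lt.ne hSq)
    exact hnofix _ k hk y hy hy1 (by rw [huniv, Set.smul_set_univ])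
  rw [hcard]
  rcases le_or_gt 3 (Module.finrank (ZMod 2) E₀) with h3 | h3
  · exact Or.inl (le_of_eq_of_le (by norm_num : 8 = 2 ^ 3) (Nat.pow_le_pow_right (by norm_num) h3))
  have hd2 : Module.finrank (ZMod 2) E₀ = 2 := by omega
  refine Or.inr ⟨by rw [hd2]; norm_num, ?_⟩
  have hR : Nat.card R = 2 := by omega
  obtain ⟨x, hx, hx1⟩ := (Subgroup.bot_or_exists_ne_one SQ).resolve_left
    (fun h => by rw [h, Subgroup.card_bot] at hSq; exact hq.one_lt.ne hSq)
  refine ⟨x, hx, ?_⟩
  by_contra! hinv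
  -- the two orbits, the first not larger
  obtain ⟨r₁, r₂, hne, hall, hle⟩ : ∃ r₁ r₂ : R, r₁ ≠ r₂ ∧ (∀ r, r = r₁ ∨ r = r₂) ∧
      (ω r₁).ncard ≤ (ω r₂).ncard := by
    obtain ⟨a, b, hab, huniv⟩ := Nat.card_eq_two_iff.1 hR
    have hall : ∀ r, r = a ∨ r = b := fun r => by simpa using Set.eq_univ_iff_forall.1 huniv r
    rcases le_total (ω a).ncard (ω b).ncard with h | h
    · exact ⟨a, b, hab, hall, h⟩
    · exact ⟨b, a, hab.symm, fun r => (hall r).symm, h⟩
  have hspan : B ≤ Submodule.span K (Set.range F) := by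
    refine (Submodule.eq_of_le_of_finrank_le (Submodule.span_le.2 ?_) ?_).ge
    · rintro _ ⟨r, rfl⟩; exact hfixB _ (hFfix r)
    · rw [finrank_span_eq_card hli, ← Nat.card_eq_fintype_card]; omega
  have hxB : σ x (F r₁) ∈ B := by
    refine hfixB _ fun s hs => ?_
    obtain ⟨z, hz⟩ := hfixB _ (hFfix r₁)
    rw [← hz]
    clear hz
    induction z using TensorProduct.induction_on with
    | zero => simp
    | tmul a v => simp [hσt, hinv v.1 v.2 s hs]
    | add u v hu hv => simp [hu, hv]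
  have hrange : Set.range F = {F r₁, F r₂} := by
    ext v; constructor
    · rintro ⟨r, rfl⟩; rcases hall r with rfl | rfl <;> simp
    · rintro (rfl | rfl)
      exacts [⟨r₁, rfl⟩, ⟨r₂, rfl⟩]
  have hmem := hspan hxB
  rw [hrange, Submodule.mem_span_pair] at hmem
  obtain ⟨a, b, hab⟩ := hmem
  have hxU : σ x (F r₁) ∈ U t (x • ω r₁) := mem_U_smul htσ x (hFU r₁)
  haveI : Finite H := inferInstance
  have step : ∀ (a b : K) (i j : R), i ≠ j → a ≠ 0 → a • F i + b • F j = σ x (F r₁) →
      ω i ⊆ x • ω r₁ := by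
    intro a b i j hij ha h
    have hm : F i ∈ U t (x • ω r₁ ∪ ω j) := by
      have e1 : F i = a⁻¹ • (σ x (F r₁) - b • F j) := by
        rw [← h, add_sub_cancel_right, inv_smul_smul₀ ha]
      rw [e1, U_union]
      exact Submodule.smul_mem _ _ (sub_mem (Submodule.mem_sup_left hxU)
        (Submodule.smul_mem _ _ (Submodule.mem_sup_right (hFU j))))
    intro μ hμ
    rcases full_support ht htσ (hF0 i) (hFfix i) (hωH i) (hFU i) hm hμ with h' | h'
    · exact h'
    · exact absurd h' (Set.disjoint_left.1 (hωdis i j hij) hμ)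
  have hcardx : (x • ω r₁).ncard = (ω r₁).ncard := by
    rw [← Set.image_smul, Set.ncard_image_of_injective _ (MulAction.injective x)]
  obtain ⟨k, hk⟩ := hωcard r₁
  have hc2 : (ω r₁)ᶜ = ω r₂ := by
    ext i; constructor
    · intro hi
      rcases hall (Quotient.mk'' i) with h | h
      · exact absurd (orbitRel.Quotient.mem_orbit.2 h) hi
      · exact orbitRel.Quotient.mem_orbit.2 h
    · intro hi hi'
      exact Set.disjoint_left.1 (hωdis r₁ r₂ hne) hi' hi
  by_cases ha : a = 0
  · have hb : b ≠ 0 := by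
      intro hb
      rw [ha, hb, zero_smul, zero_smul, add_zero] at hab
      have := congrArg (σ x⁻¹) hab.symm
      rw [← Module.End.mul_apply, ← map_mul, inv_mul_cancel, map_one, Module.End.one_apply, map_zero] at this
      exact hF0 r₁ this
    have hsub := step b a r₂ r₁ hne.symm hb (by rw [add_comm]; exact hab)
    have he : ω r₂ = x • ω r₁ := Set.eq_of_subset_of_ncard_le hsub (by omega) (Set.toFinite _)
    refine hnofix _ k hk (x * x) (mul_mem hx hx) (fun h => ?_) ?_
    · have h2 : orderOf x ∣ 2 := orderOf_dvd_of_pow_eq_one (by rw [pow_two, h])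
      have h3 := Subgroup.orderOf_dvd_natCard _ hx
      rw [hSq] at h3
      exact hx1 (orderOf_eq_one_iff.1 (Nat.eq_one_of_dvd_coprimes
        ((Nat.coprime_primes Nat.prime_two hq).2 (Ne.symm hq2)) h2 h3))
    · rw [mul_smul, ← he, ← hc2, Set.smul_set_compl, ← he, ← hc2, compl_compl]
  · have hsub := step a b r₁ r₂ hne ha hab
    exact hnofix _ k hk x hx hx1 (Set.eq_of_subset_of_ncard_le hsub hcardx.le (Set.toFinite _)).symm

end Cfsg.Agent.S4414
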