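import Cfsg.Statements.S4415
import Cfsg.Agent.Lib.CubicBlock.Structure
import Cfsg.Agent.Lib.Hall.Solvable
import Cfsg.Agent.Lib.OddLocal.PLengthOne
import Cfsg.Agent.Lib.Coprime.Action

set_option autoImplicit false
open Cfsg

namespace Cfsg.Agent.S4415

open scoped commutatorElement

theorem map_center' {A B : Type*} [Group A] [Group B] (e : A ≃* B) :
    (Subgroup.center A).map e.toMonoidHom = Subgroup.center B := by
  ext y
  rw [Subgroup.mem_map_equiv, Subgroup.mem_center_iff, Subgroup.mem_center_iff]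
  constructor
  · intro h g; apply e.symm.injective; rw [map_mul, map_mul]; exact h (e.symm g)
  · intro h g; apply e.injective; simp [h (e g)]

theorem transfer {S : Type*} [Group S] {L R : Subgroup S} (hRL : R ≤ L)
    (h : Cfsg.Agent.CubicBlock.Good (R.subgroupOf L)) :
    (Cfsg.IsElementaryAbelian 2 R ∧ Nat.card R = 4) ∨
      (Cfsg.IsExtraspecial 2 R ∧ Nat.card R = 32 ∧
        ∃ A : Subgroup S, A ≤ R ∧ Cfsg.IsElementaryAbelian 2 A ∧ Nat.card A = 8) := by
  set e := Subgroup.subgroupOfEquivOfLe hRL with he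
  rcases h with ⟨⟨hc, hp⟩, hcard⟩ | ⟨⟨⟨hP, hF, hC⟩, hZ⟩, hcard, A, hAR, ⟨hAc, hA2⟩, hA8⟩
  · left
    refine ⟨⟨⟨⟨fun a c => e.symm.injective (by
      rw [map_mul, map_mul]; exact hc.is_comm.comm _ _)⟩⟩, fun a ha => ?_⟩,
      by rw [← Nat.card_congr e.toEquiv]; exact hcard⟩
    exact congrArg Subtype.val (hp ⟨a, hRL ha⟩ ha)
  · right
    refine ⟨⟨⟨hP.of_equiv e, ?_, ?_⟩, ?_⟩, by rw [← Nat.card_congr e.toEquiv]; exact hcard,
      A.map L.subtype, ?_, ⟨⟨⟨fun a c => ?_⟩⟩, ?_⟩, ?_⟩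
    · have h1 : (frattini ↥(R.subgroupOf L)).map e.toMonoidHom = frattini R :=
        OrderIso.map_radical e.mapSubgroup
      rw [← h1, hF]
      exact map_center' e
    · have h1 : (commutator ↥(R.subgroupOf L)).map e.toMonoidHom = commutator R := by
        rw [commutator_def, Subgroup.map_commutator, Subgroup.map_top_of_surjective _ e.surjective,
          ← commutator_def]
      rw [← h1, hC]
      exact map_center' e
    · rw [← map_center' e,
        ← Nat.card_congr ((Subgroup.center _).equivMapOfInjective e.toMonoidHom e.injective).toEquiv]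
      exact hZ
    · rintro _ ⟨a, ha, rfl⟩; exact hAR ha
    · obtain ⟨_, a', ha', rfl⟩ := a
      obtain ⟨_, c', hc', rfl⟩ := c
      refine Subtype.ext ?_
      change L.subtype a' * L.subtype c' = L.subtype c' * L.subtype a'
      rw [← map_mul, ← map_mul]
      exact congrArg L.subtype (congrArg Subtype.val (hAc.is_comm.comm ⟨a', ha'⟩ ⟨c', hc'⟩))
    · rintro _ ⟨a, ha, rfl⟩
      rw [← map_pow, hA2 a ha, map_one]
    · rw [← Nat.card_congr (A.equivMapOfInjective L.subtype L.subtype_injective).toEquiv]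
      exact hA8

/-- Let S be a finite solvable group acting faithfully on a finite-dimensional space E over the field with three elements, with O₃(S) = 1. Let B ≤ S have order 3 and suppose: E = E₀ ⊕ E₁ with B fixing E₁ pointwise, E₀ B-invariant of order 27 and indecomposable under B (a generator of B has a single Jordan block on E₀); B normalizes but does not centralize some subgroup Q of S that is elementary abelian of order 4; and B is the centre of a Sylow 3-subgroup of S. Put R = [O_{3'}(S), B]. Then R is elementary abelian of order 4 or extraspecial of order 32 containing an elementary abelian subgroup of order 8 (a central product of two quaternion groups), and E is the direct sum of a subspace fixed pointwise by R and an RB-invariant subspace on which the subgroup RB acts faithfully and irreducibly. -/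
theorem result {S : Type*} [Group S] [Finite S]
    [Group.IsSolvable S] {E : Type*} [AddCommGroup E] [Module (ZMod 3) E] [Finite E] (ρ : Representation (ZMod 3) S E)
    (hfaith : Function.Injective ρ) (hO3 : Cfsg.pCore 3 S = ⊥)
    (B : Subgroup S) (hB : Nat.card ↥B = 3) (b : S) (hb : Subgroup.zpowers b = B)
    (E₀ E₁ : Submodule (ZMod 3) E) (hE01 : E₀ ⊓ E₁ = ⊥) (hE01' : E₀ ⊔ E₁ = ⊤)
    (hE1 : ∀ v ∈ E₁, ρ b v = v) (hE0inv : ∀ v ∈ E₀, ρ b v ∈ E₀) (hE0 : Nat.card ↥E₀ = 27)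
    (hind : ∃ v ∈ E₀, ρ b (ρ b v - v) - (ρ b v - v) ≠ 0)
    (Q : Subgroup S) (hQ : Cfsg.IsElementaryAbelian 2 Q) (hQ4 : Nat.card ↥Q = 4)
    (hBQ : B ≤ Subgroup.normalizer (Q : Set S)) (hBQ' : ¬ B ≤ Subgroup.centralizer (Q : Set S))
    (P : Sylow 3 S) (hBZ : (Subgroup.center ↥(P : Subgroup S)).map (P : Subgroup S).subtype = B) :
    ((Cfsg.IsElementaryAbelian 2 ⁅Cfsg.pPrimeCore 3 S, B⁆ ∧ Nat.card ↥⁅Cfsg.pPrimeCore 3 S, B⁆ = 4) ∨
      (Cfsg.IsExtraspecial 2 ↥⁅Cfsg.pPrimeCore 3 S, B⁆ ∧ Nat.card ↥⁅Cfsg.pPrimeCore 3 S, B⁆ = 32 ∧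
        ∃ A : Subgroup S, A ≤ ⁅Cfsg.pPrimeCore 3 S, B⁆ ∧ Cfsg.IsElementaryAbelian 2 A ∧ Nat.card ↥A = 8)) ∧
    ∃ F₀ F₁ : Submodule (ZMod 3) E, F₀ ⊓ F₁ = ⊥ ∧ F₀ ⊔ F₁ = ⊤ ∧
      (∀ r ∈ ⁅Cfsg.pPrimeCore 3 S, B⁆, ∀ v ∈ F₁, ρ r v = v) ∧ (∀ r ∈ ⁅Cfsg.pPrimeCore 3 S, B⁆ ⊔ B, ∀ v ∈ F₀, ρ r v ∈ F₀) ∧
      (∀ r ∈ ⁅Cfsg.pPrimeCore 3 S, B⁆ ⊔ B, (∀ v ∈ F₀, ρ r v = v) → r = 1) ∧
      (∀ N : Submodule (ZMod 3) E, N ≤ F₀ → (∀ r ∈ ⁅Cfsg.pPrimeCore 3 S, B⁆ ⊔ B, ∀ v ∈ N, ρ r v ∈ N) → N = ⊥ ∨ N = F₀) := by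
  classical
  haveI : Fact (Nat.Prime 3) := ⟨Nat.prime_three⟩
  set W := Cfsg.pPrimeCore 3 S with hW
  haveI hWn : W.Normal := Subgroup.sSup_normal _ fun _ h => h.1
  have hWcop : (Nat.card W).Coprime 3 := Cfsg.Agent.Lib.Hall.coprime_card_pPrimeCore 3
  set R := ⁅W, B⁆ with hR
  have hBN : B ≤ Subgroup.normalizer (W : Set S) := by
    rw [Subgroup.normalizer_eq_top]; exact le_top
  have hRW : R ≤ W := Cfsg.Agent.Lib.Coprime.commutator_le_of_le_normalizer' hBN
  have hbB : b ∈ B := hb ▸ Subgroup.mem_zpowers b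
  have hb3 : b ^ 3 = 1 := by
    have h : (⟨b, hbB⟩ : B) ^ Nat.card B = 1 := pow_card_eq_one'
    rw [hB] at h; exact congrArg Subtype.val h
  -- `b` lies in `O_{3',3}`
  have hbcore : QuotientGroup.mk' W b ∈ Cfsg.pCore 3 (S ⧸ W) := by
    refine Cfsg.Agent.Lib.Hall.centralizer_pCore_le 3
      (Cfsg.Agent.Lib.OddLocal.pPrimeCore_quotient_eq_bot 3) ?_
    rw [Subgroup.mem_centralizer_iff]
    intro g hg
    have hgP : g ∈ (P.mapSurjective (QuotientGroup.mk'_surjective W) : Subgroup (S ⧸ W)) :=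
      Cfsg.Agent.Lib.Hall.pCore_le_sylow _ hg
    rw [Sylow.coe_mapSurjective] at hgP
    obtain ⟨p, hp, rfl⟩ := hgP
    have hbZ : b ∈ (Subgroup.center ↥(P : Subgroup S)).map (P : Subgroup S).subtype := hBZ ▸ hbB
    obtain ⟨c, hc, hcb⟩ := hbZ
    rw [← map_mul, ← map_mul, ← hcb]
    congr 1
    exact congrArg Subtype.val (Subgroup.mem_center_iff.mp hc ⟨p, hp⟩)
  -- the four-group lies in `W`
  have hQcomm : ∀ p ∈ Q, ∀ q ∈ Q, p * q = q * p := fun p hp q hq =>
    congrArg Subtype.val (hQ.1.is_comm.comm ⟨p, hp⟩ ⟨q, hq⟩)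
  have hQ2 : ∀ p ∈ Q, p * p = 1 := fun p hp => by rw [← pow_two]; exact hQ.2 p hp
  have hbQ : ∀ p ∈ Q, b * p * b⁻¹ ∈ Q := fun p hp =>
    (Subgroup.mem_normalizer_iff.mp (hBQ hbB) p).mp hp
  obtain ⟨x, hxQ, hxb⟩ : ∃ x ∈ Q, b * x ≠ x * b := by
    by_contra hno
    push Not at hno
    refine hBQ' ?_
    rw [← hb, Subgroup.zpowers_le, Subgroup.mem_centralizer_iff]
    exact fun q hq => (hno q hq).symm
  set x' := b * x * b⁻¹ with hx'
  have hx'Q : x' ∈ Q := hbQ x hxQ
  have hne : x' ≠ x := fun h => hxb (by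
    have h' : b * x * b⁻¹ = x := h
    nth_rw 2 [← h']; group)
  have hx1 : x ≠ 1 := fun h => hxb (by simp [h])
  have hx'1 : x' ≠ 1 := fun h => hx1 (conj_eq_one_iff.mp h)
  have hxx' : x * x' ≠ 1 := fun h => hne (mul_left_cancel (h.trans (hQ2 x hxQ).symm))
  have hQall : ∀ q ∈ Q, q = 1 ∨ q = x ∨ q = x' ∨ q = x * x' := by
    haveI := Fintype.ofFinite Q
    let f : Fin 4 → Q := ![1, ⟨x, hxQ⟩, ⟨x', hx'Q⟩, ⟨x * x', Q.mul_mem hxQ hx'Q⟩]
    have hf : Function.Injective f := by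
      intro i j h
      have h' := congrArg Subtype.val h
      fin_cases i <;> fin_cases j <;>
        first
        | rfl
        | (simp [f, hx1, Ne.symm hx1, hx'1, Ne.symm hx'1, hxx', Ne.symm hxx', hne, Ne.symm hne]
            at h'; done)
    have hb4 : Function.Bijective f := (Fintype.bijective_iff_injective_and_card f).mpr
      ⟨hf, by rw [Fintype.card_fin, ← Nat.card_eq_fintype_card, hQ4]⟩
    intro q hq
    obtain ⟨i, hi⟩ := hb4.2 ⟨q, hq⟩
    have h' := congrArg Subtype.val hi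
    fin_cases i <;> simp [f] at h' <;> simp [← h']
  have hx'' : b * x' * b⁻¹ = x * x' := by
    rcases hQall _ (hbQ x' hx'Q) with h | h | h | h
    · exact absurd (conj_eq_one_iff.mp h) hx'1
    · exfalso
      apply hne
      calc x' = b * x * b⁻¹ := hx'
        _ = b * (b * (b * x * b⁻¹) * b⁻¹) * b⁻¹ := by rw [← hx', h]
        _ = b ^ 3 * x * (b ^ 3)⁻¹ := by simp [pow_succ, mul_assoc]
        _ = x := by rw [hb3]; group
    · exfalso
      apply hne
      have : b * x' * b⁻¹ = b * x * b⁻¹ := h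
      exact mul_left_cancel (mul_right_cancel this)
    · exact h
  have inW : ∀ q ∈ Q, ⁅q, b⁆ ∈ W := by
    intro q hq
    have hc2 : ⁅q, b⁆ ∈ Q := by
      rw [commutatorElement_def, show q * b * q⁻¹ * b⁻¹ = q * (b * q⁻¹ * b⁻¹) by group]
      exact Q.mul_mem hq (hbQ _ (Q.inv_mem hq))
    haveI : (Cfsg.pCore 3 (S ⧸ W)).Normal := Subgroup.sSup_normal _ fun _ h => h.1
    set g := QuotientGroup.mk' W ⁅q, b⁆ with hg
    have hgcore : g ∈ Cfsg.pCore 3 (S ⧸ W) := by
      rw [hg, map_commutatorElement, commutatorElement_def]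
      exact Subgroup.mul_mem _
        ((inferInstance : (Cfsg.pCore 3 (S ⧸ W)).Normal).conj_mem _ hbcore _)
        (Subgroup.inv_mem _ hbcore)
    obtain ⟨k, hk⟩ := Cfsg.Agent.Lib.Hall.isPGroup_pCore 3 ⟨g, hgcore⟩
    have hg3 : g ^ 3 ^ k = 1 := congrArg Subtype.val hk
    have hg2 : g ^ 2 = 1 := by rw [hg, ← map_pow, hQ.2 _ hc2, map_one]
    have : g = 1 := by
      refine orderOf_eq_one_iff.mp (Nat.eq_one_of_dvd_coprimes ?_ (orderOf_dvd_of_pow_eq_one hg2)
        (orderOf_dvd_of_pow_eq_one hg3))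
      exact Nat.Coprime.pow_right _ (by norm_num)
    exact (QuotientGroup.eq_one_iff _).mp this
  have e1 : ⁅x', b⁆ = x := by
    rw [commutatorElement_def, show x' * b * x'⁻¹ * b⁻¹ = x' * (b * x' * b⁻¹)⁻¹ by group, hx'',
      mul_inv_rev, mul_inv_cancel_left, inv_eq_of_mul_eq_one_right (hQ2 x hxQ)]
  have hx'W : x' ∈ W := by
    have h : x ∈ W := e1 ▸ inW x' hx'Q
    exact hWn.conj_mem x h b
  have hxR : x ∈ R := e1 ▸ Subgroup.commutator_mem_commutator hx'W hbB
  -- the subgroup `L = RB`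
  set L := R ⊔ B with hL
  have hRL : R ≤ L := le_sup_left
  have hbL : b ∈ L := Subgroup.mem_sup_right hbB
  have hLN : L ≤ Subgroup.normalizer (R : Set S) :=
    sup_le Subgroup.le_normalizer (Cfsg.Agent.Lib.Coprime.right_le_normalizer_commutator W B)
  have hRB : ⁅R, B⁆ = R := by
    refine Cfsg.Agent.Lib.Coprime.commutator_commutator hBN ?_ (Or.inr inferInstance)
    rw [hB]; exact hWcop.symm
  have hRcop : ¬ 3 ∣ Nat.card R := fun h => by
    have := Nat.eq_one_of_dvd_coprimes hWcop (h.trans (Subgroup.card_dvd_of_le hRW)) dvd_rfl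
    omega
  haveI hRn : (R.subgroupOf L).Normal :=
    ⟨fun r hr g => (Subgroup.mem_normalizer_iff.mp (hLN g.2) _).mp hr⟩
  -- the module
  haveI := Fintype.ofFinite R
  have hcard : (Fintype.card R : ZMod 3) ≠ 0 := by
    rw [Ne, ZMod.natCast_eq_zero_iff, ← Nat.card_eq_fintype_card]; exact hRcop
  let av : E →ₗ[ZMod 3] E := (Fintype.card R : ZMod 3)⁻¹ • ∑ r : R, ρ (r : S)
  have happ : ∀ g h : S, ∀ v, ρ g (ρ h v) = ρ (g * h) v := fun g h v => by rw [map_mul]; rfl
  have hone : ∀ v, ρ 1 v = v := fun v => by rw [map_one]; rfl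
  have hav : ∀ v, av v = (Fintype.card R : ZMod 3)⁻¹ • ∑ r : R, ρ (r : S) v := fun v => by
    simp [av]
  have hfixav : ∀ r ∈ R, ∀ v, ρ r (av v) = av v := by
    intro r hr v
    rw [hav, map_smul, map_sum]
    congr 1
    exact Fintype.sum_equiv (Equiv.mulLeft (⟨r, hr⟩ : R)) _ _ (fun i => by rw [happ]; rfl)
  have havfix : ∀ v, (∀ r ∈ R, ρ r v = v) → av v = v := by
    intro v hv
    rw [hav, Finset.sum_congr rfl (fun (r : R) _ => hv r r.2), Finset.sum_const, Finset.card_univ,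
      ← Nat.cast_smul_eq_nsmul (ZMod 3), inv_smul_smul₀ hcard]
  have havcomm : ∀ g ∈ L, ∀ v, av (ρ g v) = ρ g (av v) := by
    intro g hg v
    rw [hav, hav, map_smul, map_sum]
    congr 1
    let c : R ≃ R :=
      { toFun := fun r => ⟨g⁻¹ * r * g, (Subgroup.mem_normalizer_iff''.mp (hLN hg) _).mp r.2⟩
        invFun := fun r => ⟨g * r * g⁻¹, (Subgroup.mem_normalizer_iff.mp (hLN hg) _).mp r.2⟩
        left_inv := fun r => Subtype.ext (by simp [mul_assoc])
        right_inv := fun r => Subtype.ext (by simp [mul_assoc]) }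
    refine Fintype.sum_equiv c _ _ (fun r => ?_)
    rw [happ, happ]; congr 2; simp [c, mul_assoc]
  set F₀ : Submodule (ZMod 3) E := LinearMap.range (LinearMap.id - av) with hF₀
  set F₁ : Submodule (ZMod 3) E := LinearMap.range av with hF₁
  have hF₁fix : ∀ r ∈ R, ∀ v ∈ F₁, ρ r v = v := by
    rintro r hr _ ⟨u, rfl⟩; exact hfixav r hr u
  have hF₀av : ∀ v ∈ F₀, av v = 0 := by
    rintro _ ⟨u, rfl⟩
    rw [LinearMap.sub_apply, LinearMap.id_apply, map_sub, havfix (av u) (fun r hr => hfixav r hr u),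
      sub_self]
  have hinf : F₀ ⊓ F₁ = ⊥ := by
    rw [eq_bot_iff]
    rintro v ⟨h0, u, rfl⟩
    rw [Submodule.mem_bot, ← havfix (av u) (fun r hr => hfixav r hr u)]
    exact hF₀av _ h0
  have hsup : F₀ ⊔ F₁ = ⊤ := by
    rw [eq_top_iff]
    intro v _
    exact Submodule.mem_sup.mpr ⟨v - av v, ⟨v, rfl⟩, av v, ⟨v, rfl⟩, sub_add_cancel _ _⟩
  have hF₀inv : ∀ g ∈ L, ∀ v ∈ F₀, ρ g v ∈ F₀ := by
    rintro g hg _ ⟨u, rfl⟩
    refine ⟨ρ g u, ?_⟩
    simp [havcomm g hg]
  have hRfaith : ∀ r ∈ R, (∀ v ∈ F₀, ρ r v = v) → r = 1 := by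
    intro r hr h
    apply hfaith
    refine LinearMap.ext fun v => ?_
    rw [hone]
    obtain ⟨p, hp, q, hq, rfl⟩ := Submodule.mem_sup.mp (hsup ▸ Submodule.mem_top : v ∈ F₀ ⊔ F₁)
    rw [map_add, h p hp, hF₁fix r hr q hq]
  -- elements of `L`
  have hdec : ∀ g ∈ L, ∃ r ∈ R, ∃ k : ℤ, g = r * b ^ k := by
    intro g hg
    haveI := hRn
    have htop : (R.subgroupOf L) ⊔ (B.subgroupOf L) = ⊤ := by
      rw [← Subgroup.subgroupOf_sup le_sup_left le_sup_right, Subgroup.subgroupOf_self]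
    obtain ⟨r, hr, c, hc, e⟩ := Subgroup.mem_sup_of_normal_left.mp
      (htop ▸ Subgroup.mem_top (⟨g, hg⟩ : L) : (⟨g, hg⟩ : L) ∈ R.subgroupOf L ⊔ B.subgroupOf L)
    obtain ⟨k, hk⟩ : ∃ k : ℤ, b ^ k = (c : S) := by
      have : (c : S) ∈ Subgroup.zpowers b := hb ▸ hc
      exact Subgroup.mem_zpowers_iff.mp this
    exact ⟨r, hr, k, by rw [hk]; exact (congrArg Subtype.val e).symm⟩
  have hbF : ∃ v ∈ F₀, ρ b v ≠ v := by
    by_contra hno
    push Not at hno
    refine hne ?_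
    have h1 : (b * x * b⁻¹) * x⁻¹ = 1 := by
      refine hRfaith _ (R.mul_mem ((Subgroup.mem_normalizer_iff.mp (hLN hbL) x).mp hxR)
        (R.inv_mem hxR)) fun v hv => ?_
      have h2 : ∀ w ∈ F₀, ρ b⁻¹ w = w := fun w hw => by
        nth_rw 1 [← hno w hw]; rw [happ, inv_mul_cancel, hone]
      rw [← happ, ← happ, ← happ,
        h2 _ (hF₀inv x⁻¹ (L.inv_mem (hRL hxR)) v hv), hno _ ?_, happ, mul_inv_cancel, hone]
      exact hF₀inv x (hRL hxR) _ (hF₀inv x⁻¹ (L.inv_mem (hRL hxR)) v hv)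
    exact mul_inv_eq_one.mp h1
  have hLfaith : ∀ g ∈ L, (∀ v ∈ F₀, ρ g v = v) → g = 1 := by
    intro g hg h
    obtain ⟨r, hr, k, rfl⟩ := hdec g hg
    by_cases hk : b ^ k = 1
    · rw [hk, mul_one] at h ⊢; exact hRfaith r hr h
    exfalso
    obtain ⟨v, hv, hvb⟩ := hbF
    apply hvb
    have hpow : ∀ (n : ℕ) w, w ∈ F₀ → ρ ((b ^ k) ^ n) w = ρ (r⁻¹ ^ n) w := by
      intro n
      induction n with
      | zero => intro w _; simp
      | succ n ih =>
        intro w hw
        rw [pow_succ, ← happ, pow_succ, ← happ]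
        have hbk : ρ (b ^ k) w = ρ r⁻¹ w := by
          have := congrArg (ρ r⁻¹) (h w hw)
          rwa [happ, inv_mul_cancel_left] at this
        rw [hbk, ih _ (hF₀inv _ (L.inv_mem (hRL hr)) w hw)]
    have hfixn : ρ ((b ^ k) ^ Nat.card R) v = v := by
      rw [hpow _ v hv]
      have : (r⁻¹) ^ Nat.card R = 1 := by
        have h' : (⟨r, hr⟩ : R) ^ Nat.card R = 1 := pow_card_eq_one'
        rw [inv_pow, inv_eq_one]; exact congrArg Subtype.val h'
      rw [this, hone]
    -- `b` is a power of `(b ^ k) ^ |R|`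
    have ho : orderOf b = 3 := orderOf_eq_prime hb3 fun h1 => hk (by rw [h1, one_zpow])
    have hmem : (b ^ k) ^ Nat.card R ∈ B := B.pow_mem (B.zpow_mem hbB k) _
    have hne1 : (b ^ k) ^ Nat.card R ≠ 1 := fun h1 => hk (by
      have h3 : (b ^ k) ^ 3 = 1 := by
        rw [← zpow_natCast, ← zpow_mul, mul_comm, zpow_mul, zpow_natCast, hb3, one_zpow]
      have hg1 := pow_gcd_eq_one.mpr ⟨h1, h3⟩
      rwa [show Nat.gcd (Nat.card R) 3 = 1 from
        (Nat.prime_three.coprime_iff_not_dvd.mpr hRcop).symm, pow_one] at hg1)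
    have htop : Subgroup.zpowers (⟨_, hmem⟩ : B) = ⊤ :=
      zpowers_eq_top_of_prime_card hB fun h1 => hne1 (congrArg Subtype.val h1)
    obtain ⟨i, hi⟩ := (mem_powers_iff_mem_zpowers.mpr
      (htop ▸ Subgroup.mem_top (⟨b, hbB⟩ : B)) : (⟨b, hbB⟩ : B) ∈ Submonoid.powers ⟨_, hmem⟩)
    have hbi : ((b ^ k) ^ Nat.card R) ^ i = b := congrArg Subtype.val hi
    rw [← hbi]
    clear hbi hi
    induction i with
    | zero => rw [pow_zero, hone]
    | succ i ih => rw [pow_succ, ← happ, hfixn, ih]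
  -- apply the structure theorem
  let ψ : L →* Module.End (ZMod 3) F₀ :=
    { toFun := fun g => (ρ (g : S)).restrict (hF₀inv g g.2)
      map_one' := LinearMap.ext fun v => Subtype.ext (hone v)
      map_mul' := fun g h => LinearMap.ext fun v => Subtype.ext (happ g h v).symm }
  have hψ : ∀ (g : L) (v : F₀), ((ψ g v : F₀) : E) = ρ (g : S) v := fun _ _ => rfl
  have hh : Cfsg.Agent.CubicBlock.Hyp ψ (R.subgroupOf L) ⟨b, hbL⟩ ⟨x, hRL hxR⟩ := by
    refine ⟨?_, ?_, hRn, ?_, ?_, Subtype.ext hb3, hxR, Subtype.ext (hQ2 x hxQ), ?_, ?_,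
      Subtype.ext (hQcomm x hxQ x' hx'Q), Subtype.ext hx'', ?_, ?_⟩
    · rw [injective_iff_map_eq_one]
      intro g hg
      refine Subtype.ext (hLfaith g g.2 fun v hv => ?_)
      exact congrArg Subtype.val (LinearMap.congr_fun hg ⟨v, hv⟩)
    · intro H hRH hbH
      rw [eq_top_iff]
      rintro ⟨g, hg⟩ -
      obtain ⟨r, hr, k, rfl⟩ := hdec g hg
      have e : (⟨r * b ^ k, hg⟩ : L) = ⟨r, hRL hr⟩ * (⟨b, hbL⟩ : L) ^ k := Subtype.ext (by simp)
      rw [e]
      exact H.mul_mem (hRH (Subgroup.mem_subgroupOf.mpr hr)) (H.zpow_mem hbH k)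
    · rw [Nat.card_congr (Subgroup.subgroupOfEquivOfLe hRL).toEquiv]; exact hRcop
    · apply Subgroup.map_injective L.subtype_injective
      rw [Subgroup.map_commutator, MonoidHom.map_zpowers, Subgroup.map_subgroupOf_eq_of_le hRL,
        Subgroup.coe_subtype, hb, hRB]
    · exact fun h => hx1 (congrArg Subtype.val h)
    · exact fun h => hne (congrArg Subtype.val h)
    · intro v hv
      refine Subtype.ext ?_
      have h1 := hF₀av v v.2
      rw [havfix v (fun r hr => congrArg Subtype.val (hv ⟨r, hRL hr⟩ hr))] at h1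
      exact h1
    · -- rank
      set D : E →ₗ[ZMod 3] E := ρ b - 1 with hD
      have hDE : LinearMap.range D ≤ E₀.map D := by
        rintro _ ⟨v, rfl⟩
        obtain ⟨p, hp, q, hq, rfl⟩ :=
          Submodule.mem_sup.mp (hE01' ▸ Submodule.mem_top : v ∈ E₀ ⊔ E₁)
        refine ⟨p, hp, ?_⟩
        rw [map_add, hD]
        simp [hE1 q hq]
      have hd3 : Module.finrank (ZMod 3) E₀ = 3 := by
        have h := Module.natCard_eq_pow_finrank (K := ZMod 3) (V := E₀)
        rw [hE0, Nat.card_zmod] at h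
        exact (Nat.pow_right_injective (le_refl 2 |>.trans (by norm_num)) (show 3 ^ 3 = _ from h)).symm
      have hle2 : Module.finrank (ZMod 3) (E₀.map D) ≤ 2 := by
        let N : E₀ →ₗ[ZMod 3] E₀ := D.restrict (p := E₀) (q := E₀) (fun v hv => by
          rw [hD, LinearMap.sub_apply, Module.End.one_apply]
          exact E₀.sub_mem (hE0inv v hv) hv)
        have hN3 : ∀ v, N (N (N v)) = 0 := by
          intro v
          refine Subtype.ext ?_
          change D (D (D (v : E))) = 0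
          have hb3v : ∀ u, ρ b (ρ b (ρ b u)) = u := fun u => by
            rw [happ, happ, ← pow_three' b, hb3, hone]
          have hDv : ∀ u, D u = ρ b u - u := fun u => rfl
          simp only [hDv, map_sub, hb3v]
          have h := Cfsg.Agent.CubicBlock.three_zero (ρ b (v : E))
          have h' := Cfsg.Agent.CubicBlock.three_zero (ρ b (ρ b (v : E)))
          rw [show (v : E) - ρ b (ρ b v) - (ρ b (ρ b v) - ρ b v) - (ρ b (ρ b v) - ρ b v - (ρ b v - v))
            = (ρ b v + ρ b v + ρ b v) - (ρ b (ρ b v) + ρ b (ρ b v) + ρ b (ρ b v)) by abel, h, h',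
            sub_zero]
        have hmap : E₀.map D = (LinearMap.range N).map E₀.subtype := by
          ext w
          constructor
          · rintro ⟨p, hp, rfl⟩; exact ⟨N ⟨p, hp⟩, LinearMap.mem_range_self _ _, rfl⟩
          · rintro ⟨_, ⟨p, rfl⟩, rfl⟩; exact ⟨p, p.2, rfl⟩
        rw [hmap, LinearEquiv.finrank_eq
          (Submodule.equivMapOfInjective _ E₀.injective_subtype _).symm]
        by_contra hgt
        have htop : LinearMap.range N = ⊤ := Submodule.eq_top_of_finrank_eq (le_antisymm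
          (Submodule.finrank_le _) (by omega))
        have hsurj := LinearMap.range_eq_top.mp htop
        have hzero : ∀ v : E₀, v = 0 := fun v => by
          obtain ⟨u, rfl⟩ := hsurj v
          obtain ⟨w, rfl⟩ := hsurj u
          obtain ⟨z, rfl⟩ := hsurj w
          exact hN3 z
        haveI : Subsingleton E₀ := ⟨fun p q => (hzero p).trans (hzero q).symm⟩
        rw [Module.finrank_zero_of_subsingleton] at hd3
        omega
      have hrange : (LinearMap.range (ψ ⟨b, hbL⟩ - 1)).map F₀.subtype ≤ LinearMap.range D := by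
        rintro _ ⟨_, ⟨v, rfl⟩, rfl⟩
        exact ⟨v, rfl⟩
      have h := (Submodule.finrank_mono hrange).trans ((Submodule.finrank_mono hDE).trans hle2)
      rwa [← LinearEquiv.finrank_eq (Submodule.equivMapOfInjective _ F₀.injective_subtype _)] at h
  refine ⟨?_, F₀, F₁, hinf, hsup, fun r hr => hF₁fix r hr, fun r hr => hF₀inv r hr,
    fun r hr => hLfaith r hr, ?_⟩
  · exact transfer hRL hh.good
  · intro N hN hNinv
    have key : ∀ g : L, ∀ v ∈ N.comap F₀.subtype, ψ g v ∈ N.comap F₀.subtype :=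
      fun g v hv => hNinv g g.2 _ hv
    rcases hh.irred (N.comap F₀.subtype) key with h | h
    · left
      rw [eq_bot_iff]
      intro v hv
      have : (⟨v, hN hv⟩ : F₀) ∈ N.comap F₀.subtype := hv
      rw [h, Submodule.mem_bot] at this
      exact congrArg Subtype.val this
    · right
      refine le_antisymm hN fun v hv => ?_
      exact (h ▸ Submodule.mem_top : (⟨v, hv⟩ : F₀) ∈ N.comap F₀.subtype)


end Cfsg.Agent.S4415
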