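import Cfsg.Statements.S4417
import Mathlib
import Cfsg.Agent.Lib.GS.PLinearDerived
import Cfsg.Agent.S4010

set_option autoImplicit false
open Cfsg

namespace Cfsg.Agent.S4417

open Cfsg.Agent.Lib.GS.PLinearDerived

universe u v w

/-- An irreducible faithful case: the scalars grow to a field containing a `p`-th root of unity. -/
theorem acts_irred {F : Type w} [Field F] [Finite F] {p : ℕ} [Fact p.Prime] {Q : Type u} [Group Q] [Finite Q]
    (hQ : IsPGroup p Q) [Nontrivial Q] {V : Type v} [AddCommGroup V] [Module F V] [FiniteDimensional F V]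
    (σ : Representation F Q V) (hσ : Function.Injective σ)
    (hirr : ∀ W : Submodule F V, (∀ g, ∀ x ∈ W, σ g x ∈ W) → W = ⊥ ∨ W = ⊤) {k : ℕ}
    (he : 0 < orderOf (Nat.card F : ZMod p))
    (hlt : Module.finrank F V / orderOf (Nat.card F : ZMod p) < 2 ^ k) : derivedSeries Q k = ⊥ := by
  classical
  have hp : p.Prime := Fact.out
  have : Nontrivial (Subgroup.center Q) := hQ.center_nontrivial
  obtain ⟨d, hd0, hd⟩ := (hQ.to_subgroup (Subgroup.center Q)).nontrivial_iff_card.1 inferInstance
  obtain ⟨⟨z, hzc⟩, hz⟩ := exists_prime_orderOf_dvd_card' (G := Subgroup.center Q) p (hd ▸ dvd_pow_self p hd0.ne')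
  rw [Subgroup.orderOf_mk] at hz
  let A := Algebra.adjoin F ({σ z} : Set (Module.End F V))
  have hcomm : ∀ a ∈ A, ∀ g : Q, a * σ g = σ g * a := by
    intro a ha
    induction ha using Algebra.adjoin_induction with
    | mem x hx =>
      intro g
      rw [Set.mem_singleton_iff.1 hx, ← map_mul, ← map_mul, (Subgroup.mem_center_iff.1 hzc g)]
    | algebraMap r => intro g; exact Algebra.commutes r (σ g)
    | add x y _ _ hx hy => intro g; rw [add_mul, mul_add, hx g, hy g]
    | mul x y _ _ hx hy => intro g; rw [mul_assoc, hy g, ← mul_assoc, hx g, mul_assoc]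
  have hz1 : σ z ≠ 1 := fun h => hp.ne_one (by rw [← hz, orderOf_eq_one_iff]; exact hσ (h.trans (map_one σ).symm))
  have hVnt : Nontrivial V := by
    by_contra h
    rw [not_nontrivial_iff_subsingleton] at h
    exact hz1 (LinearMap.ext fun x => Subsingleton.elim _ _)
  have : Finite V := Module.finite_of_finite F
  have : Finite (Module.End F V) := Finite.of_injective (fun f : Module.End F V => (f : V → V)) DFunLike.coe_injective
  have : Finite A := Subtype.finite
  let _ : CommRing A := { (inferInstance : Ring A) with mul_comm := fun a b => mul_comm' a b }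
  have : NoZeroDivisors A := ⟨fun {a b} hab => by
    by_contra h
    push Not at h
    obtain ⟨ha, hb⟩ := h
    apply hb
    have hker : LinearMap.ker (a : Module.End F V) = ⊥ := by
      refine (hirr _ fun g x hx => ?_).resolve_right fun ht => ha (Subtype.ext (LinearMap.ext fun x => ?_))
      · rw [LinearMap.mem_ker] at hx ⊢
        rw [← Module.End.mul_apply, hcomm _ a.2 g, Module.End.mul_apply, hx, map_zero]
      · exact (ht ▸ Submodule.mem_top : x ∈ LinearMap.ker (a : Module.End F V))
    refine Subtype.ext (LinearMap.ext fun x => LinearMap.ker_eq_bot.1 hker ?_)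
    have := LinearMap.congr_fun (congrArg Subtype.val hab) x
    simpa using this⟩
  have : Nontrivial A := ⟨⟨0, 1, fun h => by
    obtain ⟨x, y, hxy⟩ := hVnt
    exact hxy (by
      have h' := congrArg Subtype.val h
      rw [show x = (1 : Module.End F V) x from rfl, show y = (1 : Module.End F V) y from rfl]
      simp only [ZeroMemClass.coe_zero, OneMemClass.coe_one] at h'
      rw [← h']; rfl)⟩⟩
  have : IsDomain A := NoZeroDivisors.to_isDomain A
  let _ : Field A := (Finite.isField_of_domain A).toField
  have : IsScalarTower F A V := ⟨fun r a x => rfl⟩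
  have : FiniteDimensional A V := Module.Finite.of_restrictScalars_finite F A V
  -- the degree of the new field
  let u : Aˣ :=
    { val := ⟨σ z, Algebra.subset_adjoin rfl⟩
      inv := ⟨σ z ^ (p - 1), A.pow_mem (Algebra.subset_adjoin rfl) _⟩
      val_inv := Subtype.ext (show σ z * σ z ^ (p - 1) = 1 by
        rw [← pow_succ', Nat.sub_add_cancel hp.one_le, ← map_pow, ← hz, pow_orderOf_eq_one, map_one])
      inv_val := Subtype.ext (show σ z ^ (p - 1) * σ z = 1 by
        rw [← pow_succ, Nat.sub_add_cancel hp.one_le, ← map_pow, ← hz, pow_orderOf_eq_one, map_one]) }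
  have hu : orderOf u = p := by
    refine orderOf_eq_prime (Units.ext (Subtype.ext ?_)) fun h => hz1 ?_
    · simp only [Units.val_pow_eq_pow_val, SubmonoidClass.coe_pow, Units.val_one, OneMemClass.coe_one, u]
      rw [← map_pow, ← hz, pow_orderOf_eq_one, map_one]
    · exact congrArg (fun w : Aˣ => ((w : A) : Module.End F V)) h
  have hdvd : orderOf (Nat.card F : ZMod p) ∣ Module.finrank F A := by
    rw [orderOf_dvd_iff_pow_eq_one]
    have h1 : p ∣ Nat.card F ^ Module.finrank F A - 1 := by
      rw [← Module.natCard_eq_pow_finrank (K := F) (V := A), ← hu, ← Nat.card_units]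
      exact orderOf_dvd_natCard u
    have hpos : 1 ≤ Nat.card F ^ Module.finrank F A := Nat.one_le_pow _ _ Nat.card_pos
    have h2 : ((Nat.card F ^ Module.finrank F A - 1 : ℕ) : ZMod p) = 0 := (ZMod.natCast_eq_zero_iff _ p).2 h1
    rw [Nat.cast_sub hpos, sub_eq_zero] at h2
    push_cast at h2
    exact h2
  have hm : Module.finrank A V < 2 ^ k := by
    have h1 := Module.finrank_mul_finrank F A V
    have hA : 0 < Module.finrank F A := Module.finrank_pos
    have h2 := Nat.le_of_dvd hA hdvd
    refine lt_of_le_of_lt ?_ hlt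
    rw [Nat.le_div_iff_mul_le he, ← h1, mul_comm (Module.finrank F A)]
    exact Nat.mul_le_mul_left _ h2
  let τ : Q →* Module.End A V :=
    { toFun := fun g =>
        { toFun := σ g
          map_add' := map_add _
          map_smul' := fun a x => (LinearMap.congr_fun (hcomm _ a.2 g) x).symm }
      map_one' := LinearMap.ext fun x => by simp
      map_mul' := fun g h => LinearMap.ext fun x => by simp }
  let b := Module.finBasis A V
  let ρ : Q →* Matrix.GeneralLinearGroup (Fin (Module.finrank A V)) A :=
    (Units.map (LinearMap.toMatrixAlgEquiv b).toMonoidHom).comp τ.toHomUnits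
  have hρ : Function.Injective ρ := fun g h e => hσ (LinearMap.ext fun x => by
    have h1 : τ g = τ h := (LinearMap.toMatrixAlgEquiv b).injective (congrArg Units.val e)
    exact LinearMap.congr_fun h1 x)
  have hm1 : 1 ≤ Module.finrank A V := Module.finrank_pos
  have h1 := Cfsg.Agent.S4010.result p hQ A (Module.finrank A V) hm1 ρ hρ
  have h2 : Nat.log 2 (Module.finrank A V) + 1 ≤ k := by
    have := Nat.log_lt_of_lt_pow (by omega) hm
    omega
  exact le_bot_iff.1 (h1 ▸ derivedSeries_antitone Q h2)

/-- The derived length in coprime characteristic over a finite field. -/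
theorem acts_finite {F : Type w} [Field F] [Finite F] {p : ℕ} [Fact p.Prime] (hpF : (p : F) ≠ 0)
    (he : 0 < orderOf (Nat.card F : ZMod p)) : ∀ (n k : ℕ) {P : Type u} [Group P] [Finite P], IsPGroup p P →
    ∀ {V : Type v} [AddCommGroup V] [Module F V] [FiniteDimensional F V] (ρ : Representation F P V),
      Module.finrank F V = n → n / orderOf (Nat.card F : ZMod p) < 2 ^ k → Acts ρ k := by
  classical
  intro n
  induction n using Nat.strong_induction_on with
  | _ n ihn =>
  intro k P _ _ hP V _ _ _ ρ hn hlt
  by_cases hirr : ∀ W : Submodule F V, (∀ g, ∀ x ∈ W, ρ g x ∈ W) → W = ⊥ ∨ W = ⊤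
  · let N : Subgroup P := MonoidHom.ker ρ
    by_cases hN : N = ⊤
    · exact fun g _ => (hN ▸ Subgroup.mem_top g : g ∈ N)
    let σ : Representation F (P ⧸ N) V := QuotientGroup.lift N ρ le_rfl
    have hσmk : ∀ g : P, σ (g : P ⧸ N) = ρ g := fun g => rfl
    have hσ : Function.Injective σ := by
      intro a b
      refine QuotientGroup.induction_on a fun a => QuotientGroup.induction_on b fun b h => ?_
      rw [hσmk, hσmk] at h
      rw [QuotientGroup.eq]
      show ρ (a⁻¹ * b) = 1
      rw [map_mul, ← h, ← map_mul, inv_mul_cancel, map_one]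
    have : Nontrivial (P ⧸ N) := QuotientGroup.nontrivial_iff.2 hN
    have h := acts_irred (hP.to_quotient N) σ hσ (fun W hW => hirr W fun g x hx => hW (g : P ⧸ N) x hx) he
      (hn ▸ hlt)
    intro g hg
    have hq : (g : P ⧸ N) ∈ derivedSeries (P ⧸ N) k :=
      map_derivedSeries_le_derivedSeries (QuotientGroup.mk' N) k ⟨g, hg, rfl⟩
    rw [h, Subgroup.mem_bot] at hq
    rw [← hσmk, hq, map_one]
  · push Not at hirr
    obtain ⟨W, hW, hW0, hW1⟩ := hirr
    have h2 := W.finrank_quotient_add_finrank
    have hlt1 : Module.finrank F W < n := hn ▸ Submodule.finrank_lt hW1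
    have hpos : 0 < Module.finrank F W :=
      Nat.pos_of_ne_zero fun h => hW0 (Submodule.finrank_eq_zero.1 h)
    have hmono : ∀ m ≤ n, m / orderOf (Nat.card F : ZMod p) < 2 ^ k := fun m hm =>
      lt_of_le_of_lt (Nat.div_le_div_right hm) hlt
    intro g hg
    obtain ⟨g1, g2⟩ := deep (k := k) (ihn _ hlt1 k hP (sub ρ W hW) rfl (hmono _ hlt1.le))
      (ihn _ (by omega) k hP (quot ρ W hW) rfl (hmono _ (by omega))) hg
    obtain ⟨j, hj⟩ := hP g
    have hpow : ∀ (i : ℕ) (x : V), ρ (g ^ i) x = x + i • (ρ g x - x) := by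
      intro i x
      induction i with
      | zero => simp
      | succ i ihi =>
        rw [pow_succ', map_mul, Module.End.mul_apply, ihi, map_add, map_nsmul, g1 _ (g2 x), succ_nsmul]
        abel
    ext x
    have h := hpow (p ^ j) x
    rw [hj, map_one, Module.End.one_apply] at h
    have h0 : ((p ^ j : ℕ) : F) • (ρ g x - x) = 0 := by
      rw [Nat.cast_smul_eq_nsmul]
      exact add_left_cancel (a := x) (by rw [← h, add_zero])
    rcases smul_eq_zero.1 h0 with h3 | h3
    · exact absurd (by exact_mod_cast h3) (pow_ne_zero j hpF)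
    · exact sub_eq_zero.1 h3


/-- Let F be a field with q elements, p a prime not dividing q, and e the multiplicative order of q modulo p; assume e ≤ n. Then every p-subgroup of GL_n(F) has derived length at most ⌊log₂(n/e)⌋ + 1: that term of its derived series is trivial (n/e is the integer quotient). -/
theorem result {F : Type*} [Field F] [Fintype F] (q : ℕ) (hF : Fintype.card F = q) (p : ℕ) [Fact p.Prime] (hpq : ¬ p ∣ q) (n e : ℕ) (he : e = orderOf (q : ZMod p)) (hen : e ≤ n) (P : Subgroup (GL (Fin n) F)) (hP : IsPGroup p P) : derivedSeries ↥P (Nat.log 2 (n / e) + 1) = ⊥ := by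
  classical
  have hp : p.Prime := Fact.out
  have hq : Nat.card F = q := by rw [Nat.card_eq_fintype_card, hF]
  have hqp : (q : ZMod p) ≠ 0 := fun h => hpq ((ZMod.natCast_eq_zero_iff q p).1 h)
  have he0 : 0 < orderOf (Nat.card F : ZMod p) := by
    rw [hq, orderOf_pos_iff, isOfFinOrder_iff_pow_eq_one]
    exact ⟨p - 1, by have := hp.two_le; omega, ZMod.pow_card_sub_one_eq_one hqp⟩
  have hpF : (p : F) ≠ 0 := by
    intro h
    obtain ⟨r, hr⟩ := CharP.exists F
    obtain ⟨a, hrp, ha⟩ := FiniteField.card F r
    have hrd : r ∣ p := (CharP.cast_eq_zero_iff F r p).1 h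
    obtain rfl := (Nat.prime_dvd_prime_iff_eq hrp hp).1 hrd
    exact hpq (by rw [← hF, ha]; exact dvd_pow_self _ a.ne_zero)
  let σ : Representation F P (Fin n → F) :=
    ((Matrix.toLinAlgEquiv' : Matrix (Fin n) (Fin n) F ≃ₐ[F] _).toMonoidHom.comp
      (Units.coeHom _)).comp P.subtype
  have hσ : Function.Injective σ := fun a b h =>
    Subtype.ext (Units.ext ((Matrix.toLinAlgEquiv' : Matrix (Fin n) (Fin n) F ≃ₐ[F] _).injective h))
  have key := acts_finite hpF he0 n (Nat.log 2 (n / e) + 1) hP σ (Module.finrank_fin_fun F)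
    (by rw [hq, ← he]; exact Nat.lt_pow_succ_log_self Nat.one_lt_two _)
  rw [eq_bot_iff]
  intro g hg
  exact Subgroup.mem_bot.2 (hσ ((key g hg).trans (map_one σ).symm))

end Cfsg.Agent.S4417
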