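import Cfsg.Statements.S4420

import Mathlib
set_option autoImplicit false
open Cfsg

namespace Cfsg.Agent.S4420

/-- Structure of groups in which every element outside some proper subgroup has square 1. Let H be a finite group with a proper subgroup A such that every element outside A has square 1. Then H has an abelian normal subgroup B of index 2 such that every element outside B is an involution inverting every element of B; and if H is not an elementary abelian 2-group, B is the only abelian normal subgroup of index 2 with this property. -/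
theorem result {H : Type*} [Group H] [Finite H] (A : Subgroup H) (hA : A ≠ ⊤) (hD : ∀ x : H, x ∉ A → x ^ 2 = 1) :
    ∃ B : Subgroup H, B.Normal ∧ IsMulCommutative ↥B ∧ B.index = 2 ∧
      (∀ x : H, x ∉ B → x ^ 2 = 1 ∧ ∀ b ∈ B, x * b * x⁻¹ = b⁻¹) ∧
      (¬ (IsMulCommutative H ∧ ∀ x : H, x ^ 2 = 1) →
        ∀ B' : Subgroup H, B'.Normal → IsMulCommutative ↥B' → B'.index = 2 →
          (∀ x : H, x ∉ B' → x ^ 2 = 1 ∧ ∀ b ∈ B', x * b * x⁻¹ = b⁻¹) → B' = B) := by
  classical
  have hinv : ∀ x, x ∉ A → ∀ a ∈ A, x * a * x⁻¹ = a⁻¹ := fun x hx a ha => by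
    have h1 : (x * a) * (x * a) = 1 := by
      rw [← sq]
      exact hD _ fun h => hx (by simpa using A.mul_mem h (A.inv_mem ha))
    have h2 : x⁻¹ = x := inv_eq_of_mul_eq_one_right (by rw [← sq]; exact hD x hx)
    rw [h2, eq_inv_iff_mul_eq_one, mul_assoc]
    exact h1
  obtain ⟨x₀, hx₀⟩ : ∃ x₀, x₀ ∉ A := by
    by_contra h
    push Not at h
    exact hA (eq_top_iff.2 fun x _ => h x)
  have hab : ∀ a ∈ A, ∀ b ∈ A, a * b = b * a := fun a ha b hb => by
    have h : x₀ * (a * b) * x₀⁻¹ = (x₀ * a * x₀⁻¹) * (x₀ * b * x₀⁻¹) := by group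
    rw [hinv _ hx₀ _ (A.mul_mem ha hb), hinv _ hx₀ _ ha, hinv _ hx₀ _ hb, ← mul_inv_rev, inv_inj] at h
    exact h
  by_cases hall : ∀ a ∈ A, a ^ 2 = 1
  · have hsq : ∀ x : H, x ^ 2 = 1 := fun x => by
      by_cases hx : x ∈ A
      · exact hall x hx
      · exact hD x hx
    have hinv' : ∀ x : H, x⁻¹ = x := fun x => inv_eq_of_mul_eq_one_right (by rw [← sq]; exact hsq x)
    have hcomm : ∀ x y : H, x * y = y * x := fun x y => by
      rw [← hinv' (x * y), mul_inv_rev, hinv', hinv']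
    have hp : IsPGroup 2 H := fun x => ⟨1, by rw [pow_one]; exact hsq x⟩
    obtain ⟨n, hn⟩ := IsPGroup.iff_card.1 hp
    have : Fact (Nat.Prime 2) := ⟨Nat.prime_two⟩
    obtain ⟨m, rfl⟩ : ∃ m, n = m + 1 := by
      refine ⟨n - 1, ?_⟩
      rcases n with _ | n
      · exfalso
        have := Finite.one_lt_card_iff_nontrivial.2 ⟨⟨x₀, 1, fun h => hx₀ (h ▸ A.one_mem)⟩⟩
        rw [hn] at this
        simp at this
      · rfl
    obtain ⟨B, hB⟩ := Sylow.exists_subgroup_card_pow_prime 2 (n := m) (G := H) (hn ▸ pow_dvd_pow 2 (Nat.le_succ m))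
    refine ⟨B, ⟨fun b hb g => by rw [hcomm g b, mul_assoc, mul_inv_cancel, mul_one]; exact hb⟩,
      ⟨⟨fun a b => Subtype.ext (hcomm _ _)⟩⟩, ?_,
      fun x _ => ⟨hsq x, fun b _ => by rw [hcomm x b, mul_assoc, mul_inv_cancel, mul_one, hinv']⟩,
      fun h => absurd ⟨⟨⟨hcomm⟩⟩, hsq⟩ h⟩
    have := B.card_mul_index
    rw [hB, hn, pow_succ] at this
    exact Nat.eq_of_mul_eq_mul_left (by positivity) this
  · push Not at hall
    obtain ⟨a, ha, ha2⟩ := hall
    have hidx : A.index = 2 := by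
      rw [Subgroup.index_eq_two_iff]
      refine ⟨x₀, fun b => ?_⟩
      by_cases hb : b ∈ A
      · exact Or.inr ⟨hb, fun h => hx₀ (by simpa using A.mul_mem (A.inv_mem hb) h)⟩
      · refine Or.inl ⟨?_, hb⟩
        by_contra hbx
        refine ha2 ?_
        have h : (b * x₀) * a * (b * x₀)⁻¹ = b * (x₀ * a * x₀⁻¹) * b⁻¹ := by group
        rw [hinv _ hbx _ ha, hinv _ hx₀ _ ha, hinv _ hb _ (A.inv_mem ha), inv_inv] at h
        rw [sq]
        exact mul_eq_one_iff_eq_inv.2 h.symm
    refine ⟨A, Subgroup.normal_of_index_eq_two hidx, ⟨⟨fun u v => Subtype.ext (hab _ u.2 _ v.2)⟩⟩,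
      hidx, fun x hx => ⟨hD x hx, hinv x hx⟩, fun _ B' _ _ hB'i hB' => ?_⟩
    have haB : a ∈ B' := by_contra fun h => ha2 (hB' a h).1
    have hle : A ≤ B' := fun x hx => by
      by_contra hxB
      have h := (hB' x hxB).2 a haB
      rw [hab x hx a ha, mul_assoc, mul_inv_cancel, mul_one] at h
      exact ha2 (by rw [sq]; exact mul_eq_one_iff_eq_inv.2 h)
    refine (Subgroup.eq_of_le_of_card_ge hle ?_).symm
    have h1 := A.card_mul_index
    have h2 := B'.card_mul_index
    rw [hidx] at h1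
    rw [hB'i] at h2
    omega

end Cfsg.Agent.S4420
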