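import Cfsg.Statements.S4518
import Cfsg.Agent.Lib.CharGalois
import Cfsg.Agent.Lib.Char.Clifford

set_option autoImplicit false
open Cfsg

namespace Cfsg.Agent.S4518

/-- Let N be a normal subgroup of the finite group G whose index is not divisible by the prime p, and let k be coprime to the order of G with k ^ (p ^ e) ≡ 1 modulo the order of G for some e (so g ↦ g ^ k induces a field automorphism of p-power order on character values). If an irreducible character χ of G satisfies χ (g ^ k) = χ g for all g, then every irreducible constituent θ of the restriction of χ to N satisfies θ (n ^ k) = θ n for all n. -/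
theorem result {G : Type*} [Group G] [Fintype G] (p : ℕ) [Fact p.Prime] (N : Subgroup G) [N.Normal] [Fintype N] (hidx : ¬ p ∣ N.index) (k e : ℕ) (hk : Nat.Coprime k (Nat.card G)) (hke : k ^ (p ^ e) ≡ 1 [MOD Nat.card G]) (χ : Cfsg.IrrCharacter G) (hχ : ∀ g : G, (χ : G → ℂ) (g ^ k) = (χ : G → ℂ) g) (θ : Cfsg.IrrCharacter N) (hθ : Cfsg.classInner (fun n : N => (χ : G → ℂ) n) (θ : N → ℂ) ≠ 0) : ∀ n : N, (θ : N → ℂ) (n ^ k) = (θ : N → ℂ) n := by
  classical
  have hp : p.Prime := Fact.out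
  have hkN : Nat.Coprime k (Nat.card N) := Nat.Coprime.coprime_dvd_right (Subgroup.card_subgroup_dvd_card N) hk
  set O := Lib.Char.orbit N (θ : N → ℂ) with hO
  have hmem : ∀ ψ ∈ O, Cfsg.IsIrrCharacter N ψ ∧ Cfsg.classInner (fun n : N => (χ : G → ℂ) n) ψ ≠ 0 := by
    intro ψ hψ
    obtain ⟨g, rfl⟩ := (Lib.Char.mem_orbit N).1 hψ
    refine ⟨Lib.Char.isIrrCharacter_conjChar N g θ.2, ?_⟩
    have e := Lib.Char.conjChar_restrict N (Lib.Char.isClassFunction_of_isIrr χ.2) g
    rw [← e, Lib.Char.classInner_conjChar]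
    exact hθ
  have hclosed : ∀ ψ ∈ O, (fun n : N => ψ (n ^ k)) ∈ O := by
    intro ψ hψ
    obtain ⟨h1, h2⟩ := hmem ψ hψ
    refine (Lib.Char.mem_orbit N).2 (Lib.Char.conjugate_of_constituents N χ.2 θ.2
      (Lib.CharGalois.isIrrCharacter_pow hkN h1) hθ ?_)
    have e : Cfsg.classInner (fun n : N => (χ : G → ℂ) n) (fun n : N => ψ (n ^ k)) =
        Cfsg.classInner (fun n : N => (χ : G → ℂ) n) ψ := by
      simp only [Cfsg.classInner]
      congr 1
      refine Fintype.sum_equiv (powCoprime (G := N) hkN.symm) _ _ fun n => ?_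
      show (χ : G → ℂ) n * _ = (χ : G → ℂ) ((n ^ k : N) : G) * _
      rw [Subgroup.coe_pow, hχ]
      rfl
    rw [e]; exact h2
  set f : Function.End O := fun ψ => ⟨fun n : N => ψ.1 (n ^ k), hclosed ψ.1 ψ.2⟩ with hf
  have hit : ∀ (m : ℕ) (ψ : O) (n : N), ((f ^ m) ψ).1 n = ψ.1 (n ^ (k ^ m)) := by
    intro m
    induction m with
    | zero => intro ψ n; rw [pow_zero, pow_zero, pow_one]; rfl
    | succ m ih =>
      intro ψ n
      rw [pow_succ']
      show ((f ^ m) ψ).1 (n ^ k) = _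
      rw [ih, ← pow_mul, pow_succ, mul_comm]
  have hf1 : f ^ p ^ e = 1 := by
    funext ψ
    refine Subtype.ext (funext fun n => ?_)
    rw [hit]
    show ψ.1 _ = ψ.1 n
    refine congrArg ψ.1 ?_
    conv_rhs => rw [← pow_one n]
    refine (pow_eq_pow_iff_modEq (x := n)).2 (hke.of_dvd ?_)
    rw [← Subgroup.orderOf_coe]
    exact orderOf_dvd_natCard _
  have hmod := Equiv.Perm.card_fixedPoints_modEq hf1
  have hfix : ∃ ψ : O, f ψ = ψ := by
    by_contra hne
    push Not at hne
    have h0 : Fintype.card f.fixedPoints = 0 := Fintype.card_eq_zero_iff.2 ⟨fun x => hne x.1 x.2⟩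
    rw [h0, Nat.modEq_zero_iff_dvd, Fintype.card_coe, hO,
      Lib.Char.card_orbit N _ (Lib.Char.irr_degree_ne_zero θ.2)] at hmod
    exact hidx (hmod.trans (Subgroup.index_dvd_of_le
      (Lib.Char.le_inertia N (Lib.Char.isClassFunction_of_isIrr θ.2))))
  obtain ⟨⟨ψ, hψO⟩, hψ⟩ := hfix
  obtain ⟨g, rfl⟩ := (Lib.Char.mem_orbit N).1 hψO
  intro n
  set m : N := ⟨g⁻¹ * n * g, by simpa using (inferInstance : N.Normal).conj_mem (n : G) n.2 g⁻¹⟩
  have h := congrFun (congrArg Subtype.val hψ) m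
  simp only [hf, Lib.Char.conjChar_apply] at h
  convert h using 2 <;> apply Subtype.ext
  · show ((n ^ k : N) : G) = g * ((m ^ k : N) : G) * g⁻¹
    simp only [Subgroup.coe_pow]
    simp only [m]
    rw [show g⁻¹ * (n : G) * g = g⁻¹ * n * (g⁻¹)⁻¹ by group, conj_pow]
    group
  · simp only [m]; group

end Cfsg.Agent.S4518
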