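import Cfsg.Statements.S4520
import Cfsg.Agent.Lib.Block.PrincipalCover
import Cfsg.Agent.Lib.RealOdd.Galois
import Cfsg.Agent.Lib.Char.Degree
-- import your own Cfsg.Agent.* helpers here

set_option autoImplicit false
open Cfsg

open Cfsg Cfsg.Agent.Lib.Block
open Cfsg.Agent.Lib

namespace Cfsg.Agent.S4520

/-- Let N be a normal subgroup of odd index in the finite group G, M a maximal ideal of the algebraic integers containing 2, and k coprime to the order of G with k ^ (2 ^ e) ≡ 1 modulo the order of G for some e and g ^ k = g⁻¹ for every element g of odd order. Let θ be an irreducible character of N and χ an irreducible character of G over θ, both unchanged by composing with g ↦ g ^ k. Then χ lies in the principal 2-block of G if and only if θ lies in the principal 2-block of N. -/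
theorem result {G : Type*} [Group G] [Fintype G] (M : Ideal Cfsg.AlgInt) (hM : Cfsg.IsPModular 2 M) (N : Subgroup G) [N.Normal] [Fintype N] (hidx : Odd N.index) (k e : ℕ) (hk : Nat.Coprime k (Nat.card G)) (hke : k ^ (2 ^ e) ≡ 1 [MOD Nat.card G]) (hk₂ : ∀ g : G, Odd (orderOf g) → g ^ k = g⁻¹) (θ : Cfsg.IrrCharacter N) (hθ : ∀ n : N, (θ : N → ℂ) (n ^ k) = (θ : N → ℂ) n) (χ : Cfsg.IrrCharacter G) (hχ : ∀ g : G, (χ : G → ℂ) (g ^ k) = (χ : G → ℂ) g) (hover : Cfsg.classInner (fun n : N => (χ : G → ℂ) n) (θ : N → ℂ) ≠ 0) : χ ∈ Cfsg.principalBlock M G ↔ θ ∈ Cfsg.principalBlock M N := by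
  haveI := hM.2.1.isPrime
  classical
  refine ⟨fun h => constituent_mem_principal h hover, fun h => ?_⟩
  obtain ⟨ψ, hsb, hψ⟩ := exists_sameBlock_trivial_on hM N h hover
  haveI := Fintype.ofFinite (G ⧸ N)
  obtain ⟨ψ', hψ', he⟩ := Char.exists_irr_deflation ψ.2 N hψ
  have hdeg : ¬ 2 ∣ Cfsg.charDegree (ψ : G → ℂ) := by
    intro hd
    have h1 : ψ' 1 = (Cfsg.charDegree (ψ : G → ℂ) : ℂ) := by
      rw [← QuotientGroup.mk_one, he 1]
      exact irr_one_eq_natCast ψ
    have h2 := Char.irr_degree_dvd_card hψ' h1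
    rw [← Subgroup.index_eq_card] at h2
    exact Nat.not_even_iff_odd.2 hidx (even_iff_two_dvd.2 (hd.trans h2))
  have hmem : ψ ∈ Cfsg.principalBlock M G := by
    refine RealOdd.mem_principal_of_inv hM hdeg fun g hg => ?_
    rw [← sameBlock_iff.1 hsb, ← sameBlock_iff.1 hsb]
    congr 1
    have hg' : (χ : G → ℂ) g⁻¹ = (χ : G → ℂ) g := by
      rw [← hk₂ g (Nat.odd_iff.2 (by omega)), hχ]
    simp only [Cfsg.centralChar, RealOdd.centralizer_inv, hg']
  exact sameBlock_trans (show SameBlock M (oneIrr G : G → ℂ) (ψ : G → ℂ) from hmem)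
    (sameBlock_symm hsb)

end Cfsg.Agent.S4520
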