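import Cfsg.Statements.S4521
import Cfsg.Agent.Lib.Char.Prod
import Cfsg.Agent.Lib.Char.Integral
import Cfsg.Agent.Lib.Block.Principal
import Cfsg.Agent.Lib.Block.Osima
import Cfsg.Agent.Lib.Block.Singular
import Cfsg.Agent.Lib.Char.Kernel
import Mathlib

set_option autoImplicit false
open Cfsg

namespace Cfsg.Agent.S4521

/-- Let the finite group G be generated by subgroups U₁ and U₂ that commute elementwise and whose intersection is a p-group, and let M be a maximal ideal of the algebraic integers containing the prime p. If the irreducible character χ of G has the irreducible constituents ψ₁ on U₁ and ψ₂ on U₂, then χ lies in the principal block of G if and only if ψ₁ and ψ₂ lie in the principal blocks of U₁ and U₂. -/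
theorem result {G : Type*} [Group G] [Fintype G] (p : ℕ) [Fact p.Prime] (M : Ideal Cfsg.AlgInt) (hM : Cfsg.IsPModular p M) (U₁ U₂ : Subgroup G) [Fintype U₁] [Fintype U₂] (hcomm : ∀ u ∈ U₁, ∀ v ∈ U₂, u * v = v * u) (hgen : U₁ ⊔ U₂ = ⊤) (hZ : IsPGroup p ↥(U₁ ⊓ U₂)) (χ : Cfsg.IrrCharacter G) (ψ₁ : Cfsg.IrrCharacter U₁) (ψ₂ : Cfsg.IrrCharacter U₂) (h₁ : Cfsg.classInner (fun u : U₁ => (χ : G → ℂ) u) (ψ₁ : U₁ → ℂ) ≠ 0) (h₂ : Cfsg.classInner (fun u : U₂ => (χ : G → ℂ) u) (ψ₂ : U₂ → ℂ) ≠ 0) : χ ∈ Cfsg.principalBlock M G ↔ (ψ₁ ∈ Cfsg.principalBlock M U₁ ∧ ψ₂ ∈ Cfsg.principalBlock M U₂) := by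
  classical
  haveI := hM.2.1
  have hp : p.Prime := Fact.out
  have hco : ∀ (a : U₁) (b : U₂), Commute (U₁.subtype a) (U₂.subtype b) := fun a b => hcomm a a.2 b b.2
  set π : U₁ × U₂ →* G := MonoidHom.noncommCoprod U₁.subtype U₂.subtype hco with hπdef
  have hπ : ∀ x : U₁ × U₂, π x = (x.1 : G) * (x.2 : G) := fun x => rfl
  have hsurj : Function.Surjective π := by
    rw [← MonoidHom.range_eq_top, hπdef, MonoidHom.noncommCoprod_range, Subgroup.range_subtype,
      Subgroup.range_subtype, hgen]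
  obtain ⟨φ₁, φ₂, hφ₁, hφ₂, hprod⟩ :=
    Lib.Char.exists_prod_eq (Lib.Char.isIrrCharacter_comp χ.2 π hsurj)
  have hval : ∀ (u : U₁) (v : U₂), (χ : G → ℂ) ((u : G) * (v : G)) = φ₁ u * φ₂ v := fun u v =>
    congrFun hprod (u, v)
  have hd₁ : φ₁ 1 ≠ 0 := Lib.Char.irr_degree_ne_zero hφ₁
  have hd₂ : φ₂ 1 ≠ 0 := Lib.Char.irr_degree_ne_zero hφ₂
  have hone : (χ : G → ℂ) 1 = φ₁ 1 * φ₂ 1 := by simpa using hval 1 1
  have hre₁ : (fun u : U₁ => (χ : G → ℂ) u) = φ₂ 1 • φ₁ := funext fun u => by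
    rw [Pi.smul_apply, smul_eq_mul, mul_comm, ← hval u 1, Subgroup.coe_one, mul_one]
  have hre₂ : (fun v : U₂ => (χ : G → ℂ) v) = φ₁ 1 • φ₂ := funext fun v => by
    rw [Pi.smul_apply, smul_eq_mul, ← hval 1 v, Subgroup.coe_one, one_mul]
  have he₁ : (ψ₁ : U₁ → ℂ) = φ₁ := by
    rw [hre₁, Lib.Char.classInner_smul_left, Lib.Char.classInner_irr hφ₁ ψ₁.2] at h₁
    by_contra hne
    rw [if_neg (Ne.symm hne), mul_zero] at h₁
    exact h₁ rfl
  have he₂ : (ψ₂ : U₂ → ℂ) = φ₂ := by
    rw [hre₂, Lib.Char.classInner_smul_left, Lib.Char.classInner_irr hφ₂ ψ₂.2] at h₂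
    by_contra hne
    rw [if_neg (Ne.symm hne), mul_zero] at h₂
    exact h₂ rfl
  have hidx : ∀ (u : U₁) (v : U₂), (∀ (u' u'' : U₁) (v' v'' : U₂), IsConj u' u → IsConj u'' u →
      IsConj v' v → IsConj v'' v → (u' : G) * v' = u'' * v'' → u' = u'' ∧ v' = v'') →
      (Subgroup.centralizer ({(u : G) * (v : G)} : Set G)).index =
        (Subgroup.centralizer ({u} : Set U₁)).index * (Subgroup.centralizer ({v} : Set U₂)).index := by
    intro u v hinj
    rw [← Lib.Char.card_conjClass_eq_index, ← Lib.Char.card_conjClass_eq_index,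
      ← Lib.Char.card_conjClass_eq_index, ← Finset.card_product]
    refine (Finset.card_bij (fun x _ => π x) ?_ ?_ ?_).symm
    · intro x hx
      simp only [Finset.mem_product, Finset.mem_filter, Finset.mem_univ, true_and] at hx ⊢
      obtain ⟨a, ha⟩ := isConj_iff.1 hx.1
      obtain ⟨b, hb⟩ := isConj_iff.1 hx.2
      have : π ((a, b) * x * (a, b)⁻¹) = π (u, v) := by rw [← ha, ← hb]; rfl
      rw [hπ (u, v)] at this
      rw [← this, map_mul, map_mul, map_inv]
      exact isConj_iff.2 ⟨_, rfl⟩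
    · intro x hx y hy h
      simp only [Finset.mem_product, Finset.mem_filter, Finset.mem_univ, true_and] at hx hy
      obtain ⟨e1, e2⟩ := hinj x.1 y.1 x.2 y.2 hx.1 hy.1 hx.2 hy.2 h
      exact Prod.ext e1 e2
    · intro g hg
      simp only [Finset.mem_filter, Finset.mem_univ, true_and] at hg
      obtain ⟨c, hc⟩ := isConj_iff.1 hg.symm
      obtain ⟨⟨a, b⟩, rfl⟩ := hsurj c
      refine ⟨(a, b) * (u, v) * (a, b)⁻¹, ?_, ?_⟩
      · simp only [Finset.mem_product, Finset.mem_filter, Finset.mem_univ, true_and]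
        exact ⟨(isConj_iff.2 ⟨a, rfl⟩).symm, (isConj_iff.2 ⟨b, rfl⟩).symm⟩
      · rw [map_mul, map_mul, map_inv, ← hc, hπ (u, v)]
  have hcc : ∀ (u : U₁) (v : U₂), (∀ (u' u'' : U₁) (v' v'' : U₂), IsConj u' u → IsConj u'' u →
      IsConj v' v → IsConj v'' v → (u' : G) * v' = u'' * v'' → u' = u'' ∧ v' = v'') →
      Cfsg.centralChar (χ : G → ℂ) ((u : G) * (v : G)) =
        Cfsg.centralChar φ₁ u * Cfsg.centralChar φ₂ v := by
    intro u v h
    simp only [Cfsg.centralChar]
    rw [hidx u v h, hval, hone]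
    push_cast
    field_simp
  have hcone₁ : ∀ u : U₁, Cfsg.centralChar φ₁ u = Cfsg.centralChar (χ : G → ℂ) (u : G) ∧
      (Subgroup.centralizer ({(u : G)} : Set G)).index = (Subgroup.centralizer ({u} : Set U₁)).index := by
    intro u
    have h : ∀ (u' u'' : U₁) (v' v'' : U₂), IsConj u' u → IsConj u'' u →
        IsConj v' 1 → IsConj v'' 1 → (u' : G) * v' = u'' * v'' → u' = u'' ∧ v' = v'' := by
      intro u' u'' v' v'' _ _ h1 h2 h
      rw [isConj_one_left] at h1 h2
      subst h1 h2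
      exact ⟨Subtype.ext (by simpa using h), rfl⟩
    constructor
    · have := hcc u 1 h
      rw [Subgroup.coe_one, mul_one] at this
      rw [this]
      simp [Cfsg.centralChar, hd₂, Subgroup.centralizer_eq_top_iff_subset.2 (show ({1} : Set U₂) ⊆ Subgroup.center U₂ by simp [Subgroup.one_mem])]
    · have := hidx u 1 h
      rw [Subgroup.coe_one, mul_one] at this
      simpa [Subgroup.centralizer_eq_top_iff_subset.2 (show ({1} : Set U₂) ⊆ Subgroup.center U₂ by simp [Subgroup.one_mem])] using this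
  have hcone₂ : ∀ v : U₂, Cfsg.centralChar φ₂ v = Cfsg.centralChar (χ : G → ℂ) (v : G) ∧
      (Subgroup.centralizer ({(v : G)} : Set G)).index = (Subgroup.centralizer ({v} : Set U₂)).index := by
    intro v
    have h : ∀ (u' u'' : U₁) (v' v'' : U₂), IsConj u' 1 → IsConj u'' 1 →
        IsConj v' v → IsConj v'' v → (u' : G) * v' = u'' * v'' → u' = u'' ∧ v' = v'' := by
      intro u' u'' v' v'' h1 h2 _ _ h
      rw [isConj_one_left] at h1 h2
      subst h1 h2
      exact ⟨rfl, Subtype.ext (by simpa using h)⟩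
    constructor
    · have := hcc 1 v h
      rw [Subgroup.coe_one, one_mul] at this
      rw [this]
      simp [Cfsg.centralChar, hd₁, Subgroup.centralizer_eq_top_iff_subset.2 (show ({1} : Set U₁) ⊆ Subgroup.center U₁ by simp [Subgroup.one_mem])]
    · have := hidx 1 v h
      rw [Subgroup.coe_one, one_mul] at this
      simpa [Subgroup.centralizer_eq_top_iff_subset.2 (show ({1} : Set U₁) ⊆ Subgroup.center U₁ by simp [Subgroup.one_mem])] using this
  constructor
  · intro hχ
    refine ⟨fun u => ?_, fun v => ?_⟩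
    · have h := hχ (u : G)
      rw [he₁, (hcone₁ u).1]
      simp only [Cfsg.centralChar, mul_one, div_one] at h ⊢
      rwa [← (hcone₁ u).2]
    · have h := hχ (v : G)
      rw [he₂, (hcone₂ v).1]
      simp only [Cfsg.centralChar, mul_one, div_one] at h ⊢
      rwa [← (hcone₂ v).2]
  · rintro ⟨hψ₁, hψ₂⟩
    haveI := Fintype.ofFinite (ConjClasses G)
    have hB : Cfsg.IsPBlock M (Cfsg.principalBlock M G) := Lib.Block.isPBlock_principalBlock
    have e1 := Lib.Block.redC_omega_eq_sum (M := M) χ (Lib.Block.isClassCoeff_eIdem (Cfsg.principalBlock M G))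
      (Lib.Block.intR_eIdem hB)
    have e2 := Lib.Block.redC_omega_eq_sum (M := M) (Lib.Block.oneIrr G)
      (Lib.Block.isClassCoeff_eIdem (Cfsg.principalBlock M G)) (Lib.Block.intR_eIdem hB)
    have heq : ∀ g : G, ¬ p ∣ orderOf g →
        Lib.Block.redC M (Cfsg.centralChar (χ : G → ℂ) g) =
          Lib.Block.redC M (Cfsg.centralChar (Lib.Block.oneIrr G : G → ℂ) g) := by
      intro g hg
      obtain ⟨⟨u₀, v₀⟩, rfl⟩ := hsurj g
      set N := (Nat.card G).factorization p
      have hm : ¬ p ∣ Nat.card G / p ^ N := Nat.not_dvd_ordCompl hp Nat.card_pos.ne'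
      obtain ⟨n, hn1, hn0⟩ := Nat.chineseRemainder
        (((hp.coprime_iff_not_dvd.2 hg).pow_left N).symm) 1 0
      obtain ⟨j, hj⟩ := Nat.modEq_zero_iff_dvd.1 hn0
      have hgn : π (u₀, v₀) ^ n = π (u₀, v₀) := by
        conv_rhs => rw [← pow_one (π (u₀, v₀))]
        exact pow_eq_pow_iff_modEq.2 hn1
      rw [← hgn, ← map_pow]
      have hpr : ∀ x : G, ¬ p ∣ orderOf (x ^ n) := by
        intro x hd
        apply hm
        refine hd.trans (orderOf_dvd_of_pow_eq_one ?_)
        rw [← pow_mul, hj, mul_right_comm, Nat.ordProj_mul_ordCompl_eq_self, pow_mul,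
          pow_card_eq_one', one_pow]
      set u : U₁ := u₀ ^ n
      set v : U₂ := v₀ ^ n
      have hu : ¬ p ∣ orderOf (u : G) := by rw [Subgroup.coe_pow]; exact hpr _
      have hv : ¬ p ∣ orderOf (v : G) := by rw [Subgroup.coe_pow]; exact hpr _
      have hinj : ∀ (u' u'' : U₁) (v' v'' : U₂), IsConj u' u → IsConj u'' u →
          IsConj v' v → IsConj v'' v → (u' : G) * v' = u'' * v'' → u' = u'' ∧ v' = v'' := by
        intro u' u'' v' v'' h1 h2 h3 h4 h
        have hz : (u'' : G)⁻¹ * u' = v'' * (v' : G)⁻¹ := by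
          rw [eq_mul_inv_iff_mul_eq, mul_assoc, h, inv_mul_cancel_left]
        have hzZ : (u'' : G)⁻¹ * u' ∈ U₁ ⊓ U₂ :=
          ⟨U₁.mul_mem (U₁.inv_mem u''.2) u'.2, hz ▸ U₂.mul_mem v''.2 (U₂.inv_mem v'.2)⟩
        have hzp := Lib.Block.isPElem_of_mem hZ hzZ
        have ho : ∀ {w : U₁}, IsConj w u → ¬ p ∣ orderOf (w : G) := fun {w} hw => by
          rw [Subgroup.orderOf_coe, ← Lib.Block.orderOf_of_isConj hw, ← Subgroup.orderOf_coe]; exact hu
        -- `u'` and `u''` differ by a central element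
        have hcen : Commute ((u'' : G)⁻¹ * u') (u'' : G) := (hcomm _ u''.2 _ hzZ.2).symm
        have hreg : ¬ p ∣ orderOf ((u'' : G)⁻¹ * u') := by
          intro hd
          have hc2 : Commute (u'' : G)⁻¹ (u' : G) := by
            have h5 := ((Commute.refl (u'' : G)).mul_right hcen.symm).inv_left
            rwa [mul_inv_cancel_left] at h5
          have hd' := hd.trans hc2.orderOf_mul_dvd_mul_orderOf
          rw [orderOf_inv] at hd'
          rcases hp.dvd_mul.1 hd' with h' | h'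
          · exact ho h2 h'
          · exact ho h1 h'
        have hz1 := Lib.Block.eq_one_of_isPElem_of_regular hzp hreg
        have e1 : u' = u'' := Subtype.ext (inv_mul_eq_one.1 hz1).symm
        refine ⟨e1, Subtype.ext ?_⟩
        rw [e1] at h
        exact mul_left_cancel h
      have hcu := hcc u v hinj
      rw [show π ((u₀, v₀) ^ n) = (u : G) * (v : G) from rfl, hcu, ← he₁, ← he₂,
        Lib.Block.redC_mul (Lib.Block.centralChar_mem_locRing ψ₁ u)
          (Lib.Block.centralChar_mem_locRing ψ₂ v)]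
      have s1 := Lib.Block.sameBlock_iff.1 (show Cfsg.SameBlock M (Lib.Block.oneIrr U₁ : U₁ → ℂ) (ψ₁ : U₁ → ℂ) from hψ₁) u
      have s2 := Lib.Block.sameBlock_iff.1 (show Cfsg.SameBlock M (Lib.Block.oneIrr U₂ : U₂ → ℂ) (ψ₂ : U₂ → ℂ) from hψ₂) v
      rw [← s1, ← s2]
      simp only [Cfsg.centralChar, Lib.Block.oneIrr_apply, mul_one, div_one, hidx u v hinj, Nat.cast_mul]
      rw [Lib.Block.redC_mul (natCast_mem _ _) (natCast_mem _ _)]
    have hsum : Lib.Block.redC M (Lib.Block.omega (χ : G → ℂ) (Lib.Block.eIdem (Cfsg.principalBlock M G))) =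
        Lib.Block.redC M (Lib.Block.omega (Lib.Block.oneIrr G : G → ℂ) (Lib.Block.eIdem (Cfsg.principalBlock M G))) := by
      rw [e1, e2]
      refine Finset.sum_congr rfl fun C _ => ?_
      by_cases hC : p ∣ orderOf C.out
      · rw [Lib.Block.coeff_eIdem, Lib.Block.blockCoeff_eq_zero_of_singular hM hB hC,
          Lib.Block.redC_zero, zero_mul, zero_mul]
      · rw [heq _ hC]
    rw [Lib.Block.omega_eIdem, Lib.Block.omega_eIdem, if_pos Lib.Block.oneIrr_mem] at hsum
    by_contra hn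
    rw [if_neg hn, Lib.Block.redC_zero, Lib.Block.redC_one] at hsum
    exact zero_ne_one hsum

end Cfsg.Agent.S4521
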