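import Cfsg.Statements.S4549
import Cfsg.Agent.Lib.CharGaloisOver.CubedFixed

set_option autoImplicit false
set_option linter.style.haveILetI false
open Cfsg Cfsg.Agent.Lib Cfsg.Agent.Lib.Char

namespace Cfsg.Agent.S4549

theorem result {G : Type*} [Group G] [Finite G] (M : Ideal Cfsg.AlgInt) (hM : Cfsg.IsPModular 2 M) (k : ℕ) (hk₁ : ∀ g : G, (∃ j : ℕ, orderOf g = 2 ^ j) → g ^ k = g ^ 3) (hk₂ : ∀ g : G, Odd (orderOf g) → g ^ k = g) : Cfsg.HasNormalPComplement 2 G ↔ ∀ χ ∈ Cfsg.principalBlock M G, Odd (Cfsg.charDegree (χ : G → ℂ)) → (∀ g : G, (χ : G → ℂ) (g ^ k) = (χ : G → ℂ) g) → Cfsg.charDegree (χ : G → ℂ) = 1 := by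
  classical
  haveI := hM.2.1.isPrime
  haveI : Fact (Nat.Prime 2) := ⟨Nat.prime_two⟩
  haveI := Fintype.ofFinite G
  constructor
  · rintro ⟨P, N, hN, hc⟩ χ hχ hd -
    haveI := hN
    haveI := Fintype.ofFinite N
    have hidx : N.index = Nat.card (P : Subgroup G) := by
      have h1 := hc.card_mul
      rw [← N.card_mul_index] at h1
      exact (Nat.eq_of_mul_eq_mul_left Nat.card_pos h1).symm
    have hNodd : ¬ 2 ∣ Nat.card N := by
      have h1 : Nat.card N = (P : Subgroup G).index := by
        have h1 := hc.card_mul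
        rw [← (P : Subgroup G).index_mul_card] at h1
        exact Nat.eq_of_mul_eq_mul_right Nat.card_pos h1
      rw [h1]
      exact P.not_dvd_index
    -- every constituent on `N` is trivial
    have hone : ∀ θ : IrrCharacter N, classInner (fun n : N => (χ : G → ℂ) n) (θ : N → ℂ) ≠ 0 →
        θ = Block.oneIrr N := fun θ hθ =>
      (Block.eq_of_sameBlock_pPrime hM hNodd
        (show SameBlock M (Block.oneIrr N : N → ℂ) (θ : N → ℂ) from
          Block.constituent_mem_principal hχ hθ)).symm
    have hres : ∀ n : N, (χ : G → ℂ) n = (charDegree (χ : G → ℂ) : ℂ) := by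
      have hexp := eq_sum_classInner_smul
        (isClassFunction_of_isCharacter (isCharacter_restrict (isCharacter_of_isIrr χ.2) N))
      have hval : ∀ n : N, (χ : G → ℂ) n =
          classInner (fun n : N => (χ : G → ℂ) n) (Block.oneIrr N : N → ℂ) := by
        intro n
        have h := congrFun hexp n
        rw [Finset.sum_apply, Finset.sum_eq_single (Block.oneIrr N)] at h
        · simpa [Block.oneIrr_apply] using h
        · intro θ _ hne
          have : classInner (fun n : N => (χ : G → ℂ) n) (θ : N → ℂ) = 0 := by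
            by_contra h0; exact hne (hone θ h0)
          rw [Pi.smul_apply, this, zero_smul]
        · simp
      intro n
      rw [hval n, ← hval 1]
      exact apply_one_eq_charDegree (isCharacter_of_isIrr χ.2)
    have hdvd : charDegree (χ : G → ℂ) ∣ N.index :=
      CharClifford.ramification_dvd_index N χ.2 (θ := fun _ => (1 : ℂ)) isIrrCharacter_one _
        (fun n => by rw [hres n, mul_one])
    obtain ⟨a, ha⟩ := IsPGroup.iff_card.1 P.2
    obtain ⟨i, -, hi⟩ := (Nat.dvd_prime_pow Nat.prime_two).1 (ha ▸ hidx ▸ hdvd)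
    rw [hi] at hd ⊢
    rcases Nat.eq_zero_or_pos i with rfl | hi0
    · exact pow_zero 2
    · exact absurd hd (Nat.not_odd_iff_even.2 ((Nat.even_pow' hi0.ne').2 even_two))
  · intro h
    by_cases hev : Even (Nat.card (pResidual 2 G))
    · obtain ⟨χ, hB, hd, hf, hne⟩ := CharGaloisOver.exists_nonlinear_fixed hM k hk₁ hk₂ hev
      exact absurd (h χ hB hd hf) hne
    · let P : Sylow 2 G := default
      refine ⟨P, pResidual 2 G, inferInstance, ?_⟩
      have hcop : Nat.Coprime (Nat.card (pResidual 2 G)) (Nat.card (P : Subgroup G)) := by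
        obtain ⟨a, ha⟩ := IsPGroup.iff_card.1 P.2
        rw [ha]
        exact (Nat.coprime_two_right.2 (Nat.not_even_iff_odd.1 hev)).pow_right a
      refine Subgroup.isComplement'_of_disjoint_and_mul_eq_univ ?_ ?_
      · rw [disjoint_iff]
        exact Subgroup.inf_eq_bot_of_coprime hcop
      · rw [← Subgroup.normal_mul, Transfer.pResidual_sup_sylow, Subgroup.coe_top]

end Cfsg.Agent.S4549
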