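import Cfsg.Statements.S4551
import Cfsg.Agent.Lib.Block.PrincipalRestrict
-- import your own Cfsg.Agent.* helpers here

set_option autoImplicit false
open Cfsg

open Cfsg Cfsg.Agent.Lib.Block
open Cfsg.Agent.Lib

namespace Cfsg.Agent.S4551

/-- Let N be a normal subgroup of the finite group G of index prime to p, P a Sylow p-subgroup of G with G = N·C_G(P), and M a maximal ideal of the algebraic integers containing p. Then restriction to N is a bijection from the principal p-block of G onto the principal p-block of N: every member of the principal block of G restricts to a member of the principal block of N, and every member of the principal block of N is the restriction of exactly one member of the principal block of G. -/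
theorem result {G : Type*} [Group G] [Finite G] (p : ℕ) [Fact p.Prime] (M : Ideal Cfsg.AlgInt) (hM : Cfsg.IsPModular p M) (N : Subgroup G) [N.Normal] (hidx : ¬ p ∣ N.index) (P : Sylow p G) (hsup : N ⊔ Subgroup.centralizer ((P : Subgroup G) : Set G) = ⊤) : (∀ χ ∈ Cfsg.principalBlock M G, ∃ θ ∈ Cfsg.principalBlock M ↥N, ∀ n : N, (χ : G → ℂ) n = (θ : N → ℂ) n) ∧ ∀ θ ∈ Cfsg.principalBlock M ↥N, ∃! χ : Cfsg.IrrCharacter G, χ ∈ Cfsg.principalBlock M G ∧ ∀ n : N, (χ : G → ℂ) n = (θ : N → ℂ) n := by
  haveI := hM.2.1.isPrime
  haveI := Fintype.ofFinite N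
  have hPN : (P : Subgroup G) ≤ N := by
    intro x hx
    obtain ⟨k, hk⟩ := P.2 ⟨x, hx⟩
    rw [← QuotientGroup.eq_one_iff (N := N), ← orderOf_eq_one_iff]
    refine Nat.eq_one_of_dvd_coprimes (Nat.Coprime.pow_left k
      ((Fact.out : p.Prime).coprime_iff_not_dvd.2 hidx)) (orderOf_dvd_of_pow_eq_one ?_) ?_
    · rw [← QuotientGroup.mk_pow, show x ^ p ^ k = 1 from congrArg Subtype.val hk]
      rfl
    · rw [Subgroup.index_eq_card]
      exact orderOf_dvd_natCard _
  exact Lib.Block.PrincipalRestrict.restriction_bijective hM
    ⟨inferInstance, P.2, hPN, P.not_dvd_index, hsup⟩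

end Cfsg.Agent.S4551
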