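import Cfsg.Statements.S4552
import Cfsg.Agent.Lib.FreeInertial.Homocyclic

set_option autoImplicit false
open Cfsg Cfsg.Agent.Lib Cfsg.Agent.Lib.Block Cfsg.Agent.Lib.BrauerPairs

namespace Cfsg.Agent.S4552

/-- Let B be a 2-block of the finite group G (relative to a maximal ideal M of the algebraic integers containing 2) whose defect group D is the direct product of two cyclic groups of the same order 2 ^ m, m ≥ 2. Then either B has 2-regular rank one and exactly 4 ^ m irreducible characters, or B has 2-regular rank three and exactly (4 ^ m + 8) / 3 irreducible characters. -/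
theorem result {G : Type*} [Group G] [Finite G] (M : Ideal Cfsg.AlgInt) (hM : Cfsg.IsPModular 2 M) (B : Set (Cfsg.IrrCharacter G)) (hB : Cfsg.IsPBlock M B) (D : Subgroup G) (hD : Cfsg.IsDefectGroup 2 M B D) (m : ℕ) (hm : 2 ≤ m) (hiso : Nonempty (D ≃* Multiplicative (ZMod (2 ^ m) × ZMod (2 ^ m)))) : (Cfsg.blockRank 2 B = 1 ∧ Nat.card B = 4 ^ m) ∨ (Cfsg.blockRank 2 B = 3 ∧ 3 * Nat.card B = 4 ^ m + 8) := by
  classical
  haveI : M.IsPrime := hM.2.1.isPrime
  haveI : Fact (Nat.Prime 2) := ⟨Nat.prime_two⟩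
  haveI : NeZero (2 ^ m) := ⟨pow_ne_zero _ two_ne_zero⟩
  obtain ⟨iso⟩ := hiso
  obtain ⟨g, hg⟩ := exists_pair_on_defect hM hB hD
  obtain ⟨hP, hDc, -⟩ := IsDefectGroup.props hM hB hD
  have hmax : IsMaximalBrauerPair 2 M B D g := isMaximal_of_card hM hg hDc
  have hab : ∀ x ∈ D, ∀ y ∈ D, x * y = y * x := fun x hx y hy =>
    congrArg Subtype.val (iso.injective (by rw [map_mul, map_mul, mul_comm]) :
      (⟨x, hx⟩ : D) * ⟨y, hy⟩ = ⟨y, hy⟩ * ⟨x, hx⟩)
  have hcard : Nat.card D = 4 ^ m := by
    rw [Nat.card_congr (iso.toEquiv.trans Multiplicative.toAdd), Nat.card_prod, Nat.card_zmod,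
      ← mul_pow]; norm_num
  have hbig : 16 ≤ 4 ^ m := le_trans (by norm_num) (Nat.pow_le_pow_right (by norm_num) hm)
  have hne : D ≠ ⊥ := fun h => by
    rw [h, Subgroup.card_bot] at hcard
    omega
  letI : CommGroup D :=
    { (inferInstance : Group D) with mul_comm := fun a b => Subtype.ext (hab _ a.2 _ b.2) }
  let φ : stab M D g →* MulAut D :=
    { toFun := fun t => normEquiv t.2.1
      map_one' := MulEquiv.ext fun z => Subtype.ext (by rw [coe_normEquiv]; simp)
      map_mul' := fun s t => MulEquiv.ext fun z => Subtype.ext (by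
        simp only [MulAut.mul_apply, coe_normEquiv, Subgroup.coe_mul]
        group) }
  have hφ : ∀ (t : stab M D g) (z : D), ((φ t z : D) : G) = (t : G) * z * (t : G)⁻¹ :=
    fun t z => coe_normEquiv t.2.1 z
  have hker : φ.ker = (Subgroup.centralizer (D : Set G)).subgroupOf (stab M D g) := by
    ext t
    rw [MonoidHom.mem_ker, Subgroup.mem_subgroupOf, Subgroup.mem_centralizer_iff]
    constructor
    · intro h z hz
      have h1 : (t : G) * z * (t : G)⁻¹ = z := by
        rw [← hφ t ⟨z, hz⟩, h, MulAut.one_apply]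
      conv_lhs => rw [← h1]
      group
    · intro h
      refine MulEquiv.ext fun z => Subtype.ext ?_
      rw [MulAut.one_apply, hφ, ← h z z.2, mul_inv_cancel_right]
  have hrel : Nat.card φ.range = (Subgroup.centralizer (D : Set G)).relIndex (stab M D g) := by
    rw [← Subgroup.index_ker, hker]
    rfl
  have hodd : Odd (Nat.card φ.range) := by
    rw [hrel]
    exact Nat.odd_iff.2 (Nat.two_dvd_ne_zero.1 (not_dvd_inertial hM hmax hab))
  obtain ⟨a, b, c, hab', hac, hbc, ha, hb, hc, hall⟩ :=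
    Lib.Block.Homocyclic.three_involutions (by omega : 1 ≤ m) iso
  obtain ⟨h13, hfree⟩ :=
    Lib.FreeInertial.free_of_three hP hab' hac hbc ha hb hc hall φ.range hodd
  have hfr : ∀ t ∈ stab M D g, ∀ x ∈ D, x ≠ 1 → t * x * t⁻¹ = x →
      t ∈ Subgroup.centralizer (D : Set G) := by
    intro t ht x hx hx1 hfx
    have h1 := hfree _ ⟨⟨t, ht⟩, rfl⟩ ⟨x, hx⟩ (fun h => hx1 (congrArg Subtype.val h))
      (Subtype.ext (by rw [hφ]; exact hfx))
    have h2 : (⟨t, ht⟩ : stab M D g) ∈ φ.ker := h1
    rw [hker] at h2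
    exact h2
  obtain ⟨j, -, hq, hkl, hle, h710⟩ :=
    Lib.FreeInertial.counts hM hmax hab hne hfr hrel.symm
  rw [hcard] at hq
  have hl := blockRank_pos hB hM.1
  rcases h13 with h1 | h3
  · rw [h1] at hq hle
    left
    constructor <;> omega
  · rw [h3] at hq hle h710
    right
    have h4 : (4 ^ m) % 4 = 0 := by
      obtain ⟨m', rfl⟩ : ∃ m', m = m' + 1 := ⟨m - 1, by omega⟩
      rw [pow_succ, Nat.mul_mod_left]
    have heq : ¬ Nat.card B < 3 + j := fun hlt => by
      rcases h710 le_rfl hlt with h | h | h <;> omega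
    constructor <;> omega

end Cfsg.Agent.S4552
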