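import Cfsg.Statements.S4558
import Cfsg.Agent.Lib.Block.Apply
import Cfsg.Agent.Lib.Block.Exist
import Cfsg.Agent.Lib.Block.Defect
-- import your own Cfsg.Agent.* helpers here

set_option autoImplicit false
open Cfsg

open Cfsg Cfsg.Agent.Lib.Block
open Cfsg.Agent.Lib

namespace Cfsg.Agent.S4558

/-- Let χ be a character of the finite group G and g an element of p-power order for the prime p. If χ g = 0, then p divides the degree of χ. -/
theorem result {G : Type*} [Group G] [Finite G] (p : ℕ) [Fact p.Prime] (χ : G → ℂ) (hχ : Cfsg.IsCharacter G χ) (g : G) (hg : ∃ j : ℕ, orderOf g = p ^ j) (h0 : χ g = 0) : p ∣ Cfsg.charDegree χ := by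
  obtain ⟨M, hM⟩ := exists_isPModular (Fact.out : p.Prime)
  haveI := hM.2.1.isPrime
  obtain ⟨n, hn⟩ := Char.exists_natDegree hχ
  have hd : Cfsg.charDegree χ = n := by simp [Cfsg.charDegree, hn]
  have h := redC_char_pPart hM hχ (Commute.one_right g) hg (y := 1) regular_one
  rw [mul_one, h0, redC_zero, hn] at h
  rw [hd]
  exact (redC_natCast_eq_zero_iff hM).1 h.symm

end Cfsg.Agent.S4558
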