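import Cfsg.Statements.S4560
import Cfsg.Agent.Lib.CharSmallPerm.Elements
-- import your own Cfsg.Agent.* helpers here

set_option autoImplicit false
set_option linter.style.haveILetI false
open Cfsg

open Cfsg Cfsg.Agent.Lib.CharSmallPerm
open Cfsg.Agent.Lib

namespace Cfsg.Agent.S4560

/-- For n ≥ 7 the alternating group on n letters has an irreducible character that vanishes at some 2-element and is the restriction of an irreducible character of the symmetric group, and an irreducible character that vanishes at some element of order 3 and is the restriction of an irreducible character of the symmetric group. -/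
theorem result (n : ℕ) (hn : 7 ≤ n) : (∃ χ : Cfsg.IrrCharacter (alternatingGroup (Fin n)), (∃ x : alternatingGroup (Fin n), (∃ j : ℕ, orderOf x = 2 ^ j) ∧ (χ : alternatingGroup (Fin n) → ℂ) x = 0) ∧ ∃ ψ : Cfsg.IrrCharacter (Equiv.Perm (Fin n)), ∀ x : alternatingGroup (Fin n), (ψ : Equiv.Perm (Fin n) → ℂ) x = (χ : alternatingGroup (Fin n) → ℂ) x) ∧ (∃ χ : Cfsg.IrrCharacter (alternatingGroup (Fin n)), (∃ y : alternatingGroup (Fin n), orderOf y = 3 ∧ (χ : alternatingGroup (Fin n) → ℂ) y = 0) ∧ ∃ ψ : Cfsg.IrrCharacter (Equiv.Perm (Fin n)), ∀ x : alternatingGroup (Fin n), (ψ : Equiv.Perm (Fin n) → ℂ) x = (χ : alternatingGroup (Fin n) → ℂ) x) := by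
  classical
  have hA : ∀ k ≤ 4, MulAction.IsPretransitive (alternatingGroup (Fin n)) (Fin k ↪ Fin n) := by
    intro k hk
    haveI h := alternatingGroup.isMultiplyPretransitive (Fin n)
    haveI := MulAction.isMultiplyPretransitive_of_le (G := alternatingGroup (Fin n)) (α := Fin n)
      (m := k) (n := Nat.card (Fin n) - 2) (by simp; omega) (by simp)
    infer_instance
  have hS : ∀ k ≤ 4, MulAction.IsPretransitive (Equiv.Perm (Fin n)) (Fin k ↪ Fin n) := fun k _ => by
    haveI := Equiv.Perm.isMultiplyPretransitive (Fin n) k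
    infer_instance
  have h4 : 4 ≤ Fintype.card (Fin n) := by rw [Fintype.card_fin]; omega
  obtain ⟨a1, a2, a3⟩ := isIrr_three (G := alternatingGroup (Fin n)) (α := Fin n) hA h4
  obtain ⟨b1, b2, b3⟩ := isIrr_three (G := Equiv.Perm (Fin n)) (α := Fin n) hS h4
  have key : ∀ (P : alternatingGroup (Fin n) → Prop) (F : ℕ → ℕ → ℂ) (m f U : ℕ),
      IsIrrCharacter (alternatingGroup (Fin n)) (fun g => F (fp (Fin n) g) (sw (Fin n) g)) →
      IsIrrCharacter (Equiv.Perm (Fin n)) (fun g => F (fp (Fin n) g) (sw (Fin n) g)) →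
      F f U = 0 → Good m n f U 1 → f < n →
      (∀ x : alternatingGroup (Fin n), x ^ m = 1 → x ≠ 1 → P x) →
      ∃ χ : IrrCharacter (alternatingGroup (Fin n)),
        (∃ x : alternatingGroup (Fin n), P x ∧ (χ : alternatingGroup (Fin n) → ℂ) x = 0) ∧
        ∃ ψ : IrrCharacter (Equiv.Perm (Fin n)), ∀ x : alternatingGroup (Fin n),
          (ψ : Equiv.Perm (Fin n) → ℂ) x = (χ : alternatingGroup (Fin n) → ℂ) x := by
    intro P F m f U hχ hψ hF ⟨g, hg, hf, hU, hs⟩ hfn hP
    have hmem : g ∈ alternatingGroup (Fin n) := Equiv.Perm.mem_alternatingGroup.2 hs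
    refine ⟨⟨_, hχ⟩, ⟨⟨g, hmem⟩, hP _ (Subtype.ext hg) (fun h => ?_), ?_⟩, ⟨_, hψ⟩, fun x => rfl⟩
    · have h1 : g = 1 := congrArg Subtype.val h
      rw [h1, fp_one, Fintype.card_fin] at hf
      omega
    · show F (fp (Fin n) (⟨g, hmem⟩ : alternatingGroup (Fin n))) (sw (Fin n) _) = 0
      rw [fp_subgroup, sw_subgroup]
      dsimp only
      rw [hf, hU]
      exact hF
  constructor
  · have hP : ∀ x : alternatingGroup (Fin n), x ^ 8 = 1 → x ≠ 1 → ∃ j : ℕ, orderOf x = 2 ^ j :=
      fun x h _ => by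
        obtain ⟨j, -, hj⟩ := (Nat.dvd_prime_pow Nat.prime_two).1
          (show orderOf x ∣ 2 ^ 3 from orderOf_dvd_of_pow_eq_one h)
        exact ⟨j, hj⟩
    rcases good_even_eight hn with h | ⟨U, h⟩ | h
    · exact key _ (fun f U => ((f : ℂ) ^ 2 - 3 * f + U) / 2) 8 0 0 a2 b2 (by norm_num) h (by omega) hP
    · exact key _ (fun f _ => (f : ℂ) - 1) 8 1 U a1 b1 (by norm_num) h (by omega) hP
    · exact key _ (fun f U => ((f : ℂ) ^ 2 - 3 * f + 2 - U) / 2) 8 0 2 a3 b3 (by norm_num) h (by omega) hP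
  · have hP : ∀ x : alternatingGroup (Fin n), x ^ 3 = 1 → x ≠ 1 → orderOf x = 3 := fun x h h1 => by
      haveI : Fact (Nat.Prime 3) := ⟨Nat.prime_three⟩
      exact orderOf_eq_prime h h1
    rcases good_even_three n with h | ⟨U, h⟩ | h
    · exact key _ (fun f U => ((f : ℂ) ^ 2 - 3 * f + U) / 2) 3 0 0 a2 b2 (by norm_num) h (by omega) hP
    · exact key _ (fun f _ => (f : ℂ) - 1) 3 1 U a1 b1 (by norm_num) h (by omega) hP
    · exact key _ (fun f U => ((f : ℂ) ^ 2 - 3 * f + 2 - U) / 2) 3 2 0 a3 b3 (by norm_num) h (by omega) hP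

end Cfsg.Agent.S4560
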