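import Cfsg.Statements.S4563
import Cfsg.Agent.Lib.CharClifford.FullyRamifiedFree
import Cfsg.Agent.Lib.Hall.Converse
-- import your own Cfsg.Agent.* helpers here

set_option autoImplicit false
open Cfsg

open Cfsg Cfsg.Agent.Lib.Block
open Cfsg.Agent.Lib

namespace Cfsg.Agent.S4563

/-- Let χ be an irreducible character of the finite group H that is fully ramified over the normal subgroup Z: the restriction of χ to Z is e times an irreducible character of Z with e ^ 2 equal to the index of Z. If K is a proper normal subgroup of H containing Z and χ is induced from a character of K, then H/K is solvable; in particular, if K is solvable then so is H. -/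
theorem result {H : Type*} [Group H] [Fintype H] (Z : Subgroup H) [Z.Normal] (χ : Cfsg.IrrCharacter H) (hfr : ∃ (θ : Cfsg.IrrCharacter ↥Z) (e : ℕ), e ^ 2 = Z.index ∧ ∀ z : ↥Z, (χ : H → ℂ) z = (e : ℂ) * (θ : ↥Z → ℂ) z) (K : Subgroup H) [K.Normal] [Fintype K] (hZK : Z ≤ K) (hK : K ≠ ⊤) (φ : ↥K → ℂ) (hφ : Cfsg.IsCharacter ↥K φ) (hind : Cfsg.indFun K φ = (χ : H → ℂ)) : Group.IsSolvable (H ⧸ K) ∧ (Group.IsSolvable ↥K → Group.IsSolvable H) := by
  haveI := Fintype.ofFinite Z
  obtain ⟨θ, e, he, hres⟩ := hfr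
  have hsolv : Group.IsSolvable (H ⧸ K) := by
    refine Lib.Hall.isSolvable_of_complements fun p hp => ?_
    haveI := Fact.mk hp
    let S : Sylow p H := default
    let P : Sylow p (H ⧸ K) := default
    obtain ⟨M, -, hM⟩ := Lib.CharClifford.FullyRamified.exists_complement_of_free
      ⟨θ.2, χ.2, e, he, hres⟩ hZK S
      (Lib.CharClifford.FullyRamified.free_of_induced ⟨θ.2, χ.2, e, he, hres⟩ hZK S hφ hind) P
    exact ⟨M, by rw [hM, P.card_eq_multiplicity]⟩
  exact ⟨hsolv, fun hKs => (Group.isSolvable_iff_subgroup_quotient K).mpr ⟨hKs, hsolv⟩⟩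

end Cfsg.Agent.S4563
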