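import Cfsg.Statements.S4564
import Cfsg.Agent.Lib.CharClifford.FullyRamifiedFree
-- import your own Cfsg.Agent.* helpers here

set_option autoImplicit false
open Cfsg

open Cfsg Cfsg.Agent.Lib.Block
open Cfsg.Agent.Lib

namespace Cfsg.Agent.S4564

/-- Let χ be an irreducible character of the finite group H that is fully ramified over the normal subgroup Z: the restriction of χ to Z is e times an irreducible character of Z with e ^ 2 equal to the index of Z. Let K be a normal subgroup of H containing Z and P a cyclic Sylow p-subgroup of H/K. Then P has a complement in H/K: a subgroup meeting P trivially whose product with P is the whole group. -/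
theorem result {H : Type*} [Group H] [Finite H] (Z : Subgroup H) [Z.Normal] (χ : Cfsg.IrrCharacter H) (hfr : ∃ (θ : Cfsg.IrrCharacter ↥Z) (e : ℕ), e ^ 2 = Z.index ∧ ∀ z : ↥Z, (χ : H → ℂ) z = (e : ℂ) * (θ : ↥Z → ℂ) z) (K : Subgroup H) [K.Normal] (hZK : Z ≤ K) (p : ℕ) [Fact p.Prime] (P : Sylow p (H ⧸ K)) (hcyc : IsCyclic P) : ∃ M : Subgroup (H ⧸ K), M.IsComplement' (P : Subgroup (H ⧸ K)) := by
  haveI := Fintype.ofFinite H
  haveI := Fintype.ofFinite Z
  obtain ⟨θ, e, he, hres⟩ := hfr
  let S : Sylow p H := default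
  have hS0 : IsPGroup p ((S : Subgroup H).map (QuotientGroup.mk' K)) := S.2.map _
  have hS0i : ¬ p ∣ ((S : Subgroup H).map (QuotientGroup.mk' K)).index := fun hd =>
    S.not_dvd_index (hd.trans (Subgroup.index_map_dvd _ (QuotientGroup.mk'_surjective K)))
  obtain ⟨g, hg⟩ := MulAction.exists_smul_eq (H ⧸ K) P (hS0.toSylow hS0i)
  have hcyc' : IsCyclic ((S : Subgroup H).map (QuotientGroup.mk' K)) := by
    have e : (P : Subgroup (H ⧸ K)) ≃* ((g • P : Sylow p (H ⧸ K)) : Subgroup (H ⧸ K)) :=
      Subgroup.equivSMul (MulAut.conj g) (P : Subgroup (H ⧸ K))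
    rw [hg] at e
    haveI := hcyc
    exact isCyclic_of_surjective e.toMonoidHom e.surjective
  obtain ⟨M, hM, -⟩ := Lib.CharClifford.FullyRamified.exists_complement_of_free
    ⟨θ.2, χ.2, e, he, hres⟩ hZK S
    (Lib.CharClifford.FullyRamified.free_of_cyclic ⟨θ.2, χ.2, e, he, hres⟩ hZK S hcyc') P
  exact ⟨M, hM⟩

end Cfsg.Agent.S4564
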