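import Cfsg.Statements.S4566
import Cfsg.Agent.Lib.Char.Scalar
import Cfsg.Agent.Lib.Char.Linear
import Cfsg.Agent.Lib.Ito
-- import your own Cfsg.Agent.* helpers here

set_option autoImplicit false
open Cfsg

open Cfsg
open Cfsg.Agent.Lib

namespace Cfsg.Agent.S4566

/-- Let N be a central subgroup of the finite group G, ψ a faithful irreducible (hence degree-one) character of N, and χ an irreducible character of G whose restriction to N contains ψ. If g ∈ G and some x ∈ G has commutator x⁻¹ g⁻¹ x g in N but different from 1, then χ g = 0. -/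
theorem result {G : Type*} [Group G] [Fintype G] (N : Subgroup G) [Fintype N] (hN : N ≤ Subgroup.center G) (ψ : Cfsg.IrrCharacter ↥N) (hfaith : ∀ n : ↥N, (ψ : ↥N → ℂ) n = (ψ : ↥N → ℂ) 1 → n = 1) (χ : Cfsg.IrrCharacter G) (hover : Cfsg.classInner (fun n : ↥N => (χ : G → ℂ) n) (ψ : ↥N → ℂ) ≠ 0) (g x : G) (hcomm : x⁻¹ * g⁻¹ * x * g ∈ N) (hne : x⁻¹ * g⁻¹ * x * g ≠ 1) : (χ : G → ℂ) g = 0 := by
  classical
  have hc := Char.isCharacter_of_isIrr χ.2
  have hNcomm : ∀ a b : ↥N, a * b = b * a := fun a b =>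
    Subtype.ext (Subgroup.mem_center_iff.1 (hN b.2) a)
  have hψ1 := Ito.apply_one_of_abelian hNcomm ψ.2
  obtain ⟨l, hl⟩ := Char.exists_hom_of_degree_one (Char.isCharacter_of_isIrr ψ.2) hψ1
  have hd0 : (χ : G → ℂ) 1 ≠ 0 := Char.irr_degree_ne_zero χ.2
  have hmul : ∀ (n : ↥N) (y : G), (χ : G → ℂ) (y * n) * (χ : G → ℂ) 1
      = (χ : G → ℂ) n * (χ : G → ℂ) y := fun n y =>
    (Char.apply_mul_of_norm_eq hc (Char.norm_char_of_mem_center χ.2 (hN n.2)) y).2
  have hres : ∀ m : ↥N, (χ : G → ℂ) m = (χ : G → ℂ) 1 * (l m : ℂ) := by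
    intro m
    unfold Cfsg.classInner at hover
    have hS : ∑ n : ↥N, (χ : G → ℂ) n * (starRingEnd ℂ) ((ψ : ↥N → ℂ) n) ≠ 0 :=
      fun h => hover (by rw [h, mul_zero])
    set S := ∑ n : ↥N, (χ : G → ℂ) n * (starRingEnd ℂ) ((ψ : ↥N → ℂ) n) with hSdef
    have h2 : (χ : G → ℂ) 1 * S
        = (χ : G → ℂ) m * (starRingEnd ℂ) (l m : ℂ) * S := by
      conv_lhs => rw [hSdef, ← Equiv.sum_comp (Equiv.mulRight m)]
      rw [hSdef, Finset.mul_sum, Finset.mul_sum]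
      refine Finset.sum_congr rfl fun n _ => ?_
      simp only [Equiv.coe_mulRight, Subgroup.coe_mul, hl, map_mul, Units.val_mul]
      linear_combination ((starRingEnd ℂ) (l n : ℂ) * (starRingEnd ℂ) (l m : ℂ)) * hmul m n
    have h3 := mul_right_cancel₀ hS h2
    have hfin : IsOfFinOrder m := isOfFinOrder_of_finite m
    have h4 : (starRingEnd ℂ) (l m : ℂ) * (l m : ℂ) = 1 := by
      rw [mul_comm, Complex.mul_conj, ← Complex.sq_norm]
      have : ‖(l m : ℂ)‖ = 1 :=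
        ((Units.coeHom ℂ).comp l).isOfFinOrder hfin |>.norm_eq_one
      simp [this]
    rw [h3, mul_assoc, h4, mul_one]
  set z : ↥N := ⟨_, hcomm⟩ with hz
  have hzC := Subgroup.mem_center_iff.1 (hN hcomm)
  have hconj : x⁻¹ * g * x = g * (z⁻¹ : ↥N) := by
    rw [Subgroup.coe_inv, hz]
    simp [mul_assoc]
  have h1 : (χ : G → ℂ) (g * (z⁻¹ : ↥N)) = (χ : G → ℂ) g := by
    rw [← hconj]
    simpa using Char.isClassFunction_of_isIrr χ.2 g x⁻¹
  have h2 := hmul z⁻¹ g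
  rw [h1, hres, mul_comm _ (l z⁻¹ : ℂ), mul_assoc, mul_comm ((χ : G → ℂ) g)] at h2
  have hlz : (l z⁻¹ : ℂ) ≠ 1 := by
    intro h
    have := hfaith z⁻¹ (by rw [hl, hψ1, h])
    exact hne (by simpa [hz] using congrArg Subtype.val (inv_eq_one.1 this))
  have h5 : ((l z⁻¹ : ℂ) - 1) * ((χ : G → ℂ) 1 * (χ : G → ℂ) g) = 0 := by linear_combination -h2
  exact (mul_eq_zero.1 ((mul_eq_zero.1 h5).resolve_left (sub_ne_zero.2 hlz))).resolve_left hd0

end Cfsg.Agent.S4566
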