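import Cfsg.Statements.S4567
import Cfsg.Agent.Lib.Block.CentralRamified
-- import your own Cfsg.Agent.* helpers here

set_option autoImplicit false
open Cfsg

open Cfsg Cfsg.Agent.Lib.Block
open Cfsg.Agent.Lib

namespace Cfsg.Agent.S4567

/-- Let N be a central subgroup of the finite group G and ψ a faithful irreducible (hence degree-one) character of N. Call a coset g N special when every x ∈ G whose commutator x⁻¹ g⁻¹ x g lies in N actually commutes with g (this depends only on the coset). Then the number of irreducible characters of G whose restriction to N contains ψ equals the number of conjugacy classes of G/N consisting of special cosets. -/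
theorem result {G : Type*} [Group G] [Fintype G] (N : Subgroup G) [N.Normal] [Fintype N] (hN : N ≤ Subgroup.center G) (ψ : Cfsg.IrrCharacter ↥N) (hfaith : ∀ n : ↥N, (ψ : ↥N → ℂ) n = (ψ : ↥N → ℂ) 1 → n = 1) : Nat.card {χ : Cfsg.IrrCharacter G // Cfsg.classInner (fun n : ↥N => (χ : G → ℂ) n) (ψ : ↥N → ℂ) ≠ 0} = Nat.card {C : ConjClasses (G ⧸ N) // ∃ g : G, ConjClasses.mk (g : G ⧸ N) = C ∧ ∀ x : G, x⁻¹ * g⁻¹ * x * g ∈ N → x * g = g * x} := by
  classical
  have hNcomm : ∀ a b : ↥N, a * b = b * a := fun a b =>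
    Subtype.ext (Subgroup.mem_center_iff.1 (hN b.2) a)
  have hψ1 := Ito.apply_one_of_abelian hNcomm ψ.2
  obtain ⟨l, hl⟩ := Char.exists_hom_of_degree_one (Char.isCharacter_of_isIrr ψ.2) hψ1
  have hinj : Function.Injective l := by
    rw [← MonoidHom.ker_eq_bot_iff, eq_bot_iff]
    intro n hn
    exact Subgroup.mem_bot.2 (hfaith n (by rw [hl, hψ1, MonoidHom.mem_ker.1 hn, Units.val_one]))
  have hψ : (ψ : ↥N → ℂ) = fun n => (l n : ℂ) := funext hl
  rw [hψ]
  haveI := Fintype.ofFinite (Cfsg.IrrCharacter G)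
  set T := Finset.univ.filter fun χ : Cfsg.IrrCharacter G =>
    Cfsg.classInner (fun n : ↥N => (χ : G → ℂ) n) (fun n => (l n : ℂ)) ≠ 0 with hT
  have hcard : Nat.card {χ : Cfsg.IrrCharacter G //
      Cfsg.classInner (fun n : ↥N => (χ : G → ℂ) n) (fun n => (l n : ℂ)) ≠ 0} = T.card := by
    rw [Nat.card_eq_fintype_card, Fintype.card_subtype]
  rw [hcard]
  have hTmem : ∀ χ, χ ∈ T ↔
      Cfsg.classInner (fun n : ↥N => (χ : G → ℂ) n) (fun n => (l n : ℂ)) ≠ 0 := fun χ => by
    simp [hT]
  have hself : ∀ χ : Cfsg.IrrCharacter G,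
      ∑ g : G, (χ : G → ℂ) g * (starRingEnd ℂ) ((χ : G → ℂ) g) = (Nat.card G : ℂ) := fun χ => by
    have h := Char.classInner_irr_self χ.2
    unfold Cfsg.classInner at h
    exact (inv_mul_eq_one₀ (Nat.cast_ne_zero.2 Nat.card_pos.ne')).1 h |>.symm
  have key : ((T.card * (Nat.card G * Nat.card N) : ℕ) : ℂ) =
      ((∑ g ∈ Finset.univ.filter (CentralRamified.Special N),
        Nat.card (Subgroup.centralizer ({g} : Set G)) : ℕ) : ℂ) := by
    rw [Nat.cast_sum, Finset.sum_filter,
      ← Finset.sum_congr rfl fun g _ => CentralRamified.sum_normSq_over N hN l hinj T hTmem g,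
      ← Finset.mul_sum, Finset.sum_comm, Finset.sum_congr rfl fun χ _ => hself χ,
      Finset.sum_const, nsmul_eq_mul]
    push_cast
    ring
  have key' := Nat.cast_injective key
  rw [CentralRamified.sum_special N hN] at key'
  exact Nat.eq_of_mul_eq_mul_right (Nat.mul_pos Nat.card_pos Nat.card_pos) key'

end Cfsg.Agent.S4567
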