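import Cfsg.Statements.S4574
import Cfsg.Agent.Lib.Char.Scalar
import Cfsg.Agent.Lib.CharGalois
import Cfsg.Agent.Lib.Block.CentralDefect
-- import your own Cfsg.Agent.* helpers here

set_option autoImplicit false
open Cfsg

open Cfsg Cfsg.Agent.Lib.Block
open Cfsg.Agent.Lib

namespace Cfsg.Agent.S4574

/-- Let χ be an irreducible character of the finite group G, of degree d, and let Z(χ) be the set of elements g with |χ g| = d (the centre of χ). Then χ vanishes on at least (d ^ 2 - 1) · |Z(χ)| elements of G, with equality when every value |χ g| is 0, 1 or d. -/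
theorem result {G : Type*} [Group G] [Fintype G] [DecidableEq G] (χ : G → ℂ) (hχ : Cfsg.IsIrrCharacter G χ) : (Cfsg.charDegree χ ^ 2 - 1) * (Finset.univ.filter (fun g : G => ‖χ g‖ = (Cfsg.charDegree χ : ℝ))).card ≤ (Finset.univ.filter (fun g : G => χ g = 0)).card ∧ ((∀ g : G, ‖χ g‖ = 0 ∨ ‖χ g‖ = 1 ∨ ‖χ g‖ = (Cfsg.charDegree χ : ℝ)) → (Cfsg.charDegree χ ^ 2 - 1) * (Finset.univ.filter (fun g : G => ‖χ g‖ = (Cfsg.charDegree χ : ℝ))).card = (Finset.univ.filter (fun g : G => χ g = 0)).card) := by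
  classical
  have hc := Char.isCharacter_of_isIrr hχ
  set d := Cfsg.charDegree χ with hd
  obtain ⟨m, hm⟩ := Char.exists_natDegree hc
  have hdm : d = m := by simp [hd, Cfsg.charDegree, hm]
  subst hdm
  have hd0 : d ≠ 0 := fun h => Char.irr_degree_ne_zero hχ (by rw [hm, h, Nat.cast_zero])
  have hn1 : ‖χ 1‖ = (d : ℝ) := by rw [hm, Complex.norm_natCast]
  set Z := Finset.univ.filter (fun g : G => ‖χ g‖ = (d : ℝ)) with hZ
  have hZpow : ∀ g ∈ Z, ∀ k : ℕ, g ^ k ∈ Z := by
    intro g hg k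
    simp only [hZ, Finset.mem_filter, Finset.mem_univ, true_and] at hg ⊢
    induction k with
    | zero => rw [pow_zero, hn1]
    | succ k ih =>
      have h := (Char.apply_mul_of_norm_eq hc (hg.trans hn1.symm) (g ^ k)).2
      rw [← pow_succ] at h
      have h2 := congrArg norm h
      rw [norm_mul, norm_mul, hn1, hg, ih] at h2
      exact mul_right_cancel₀ (Nat.cast_ne_zero.2 hd0) h2
  have hS : ∀ g ∈ Zᶜ, ∀ k : ℕ, Nat.Coprime k (Nat.card G) → g ^ k ∈ Zᶜ := by
    intro g hg k hk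
    rw [Finset.mem_compl] at hg ⊢
    intro h
    obtain ⟨j, hj⟩ := exists_pow_eq_self_of_coprime (x := g)
      (Nat.Coprime.coprime_dvd_right (orderOf_dvd_natCard g) hk)
    exact hg (hj ▸ hZpow _ h j)
  have hineq := CharGalois.card_nonzero_le_sum_normSq hc Zᶜ hS
  have hsum : (d : ℝ) ^ 2 * Z.card + ∑ g ∈ Zᶜ, Complex.normSq (χ g) = Fintype.card G := by
    have h1 := sum_normSq_irr ⟨χ, hχ⟩
    simp only [Nat.card_eq_fintype_card] at h1
    rw [← h1, ← Finset.sum_add_sum_compl Z]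
    congr 1
    rw [Finset.sum_congr rfl fun g hg => ?_, Finset.sum_const, nsmul_eq_mul, mul_comm]
    rw [Complex.normSq_eq_norm_sq, (Finset.mem_filter.1 hg).2]
  have hzero : Finset.univ.filter (fun g : G => χ g = 0) = Zᶜ.filter (fun g => χ g = 0) := by
    ext g
    simp only [Finset.mem_filter, Finset.mem_univ, true_and, Finset.mem_compl]
    refine ⟨fun h => ⟨fun hg => ?_, h⟩, fun h => h.2⟩
    have := (Finset.mem_filter.1 hg).2
    rw [h, norm_zero] at this
    exact hd0 (by exact_mod_cast this.symm)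
  have hsplit : (Fintype.card G : ℝ) = Z.card
      + ((Zᶜ.filter (fun g => χ g = 0)).card : ℝ) + ((Zᶜ.filter (fun g => χ g ≠ 0)).card : ℝ) := by
    rw [add_assoc, ← Nat.cast_add, Finset.card_filter_add_card_filter_not, ← Nat.cast_add,
      Finset.card_add_card_compl]
  have hd1 : 1 ≤ d ^ 2 := Nat.one_le_pow _ _ (Nat.pos_of_ne_zero hd0)
  rw [hzero]
  refine ⟨?_, fun hall => ?_⟩
  · rw [← Nat.cast_le (α := ℝ), Nat.cast_mul, Nat.cast_sub hd1, Nat.cast_pow, Nat.cast_one]
    linarith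
  · have heq : ∑ g ∈ Zᶜ, Complex.normSq (χ g) = ((Zᶜ.filter (fun g => χ g ≠ 0)).card : ℝ) := by
      rw [← Finset.sum_boole]
      refine Finset.sum_congr rfl fun g hg => ?_
      rcases hall g with h | h | h
      · rw [norm_eq_zero] at h; simp [h]
      · have hne : χ g ≠ 0 := fun h0 => by rw [h0, norm_zero] at h; exact one_ne_zero h.symm
        rw [if_pos hne, Complex.normSq_eq_norm_sq, h, one_pow]
      · exact absurd (Finset.mem_filter.2 ⟨Finset.mem_univ g, h⟩) (Finset.mem_compl.1 hg)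
    rw [← Nat.cast_inj (R := ℝ), Nat.cast_mul, Nat.cast_sub hd1, Nat.cast_pow, Nat.cast_one]
    linarith

end Cfsg.Agent.S4574
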