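import Cfsg.Statements.S4580
import Cfsg.Agent.Lib.RealOdd.Galois
import Cfsg.Agent.Lib.CharClifford.Gallagher
import Cfsg.Agent.Lib.Char.Linear
-- import your own Cfsg.Agent.* helpers here

set_option autoImplicit false
open Cfsg

open Cfsg Cfsg.Agent.Lib.Block
open Cfsg.Agent.Lib

namespace Cfsg.Agent.S4580

/-- Let N be a normal subgroup of the finite group G, M a maximal ideal of the algebraic integers containing 2, and θ a real-valued irreducible character of N of odd degree that extends to G (some irreducible character of G restricts to θ). Then θ has an extension to G lying in the principal 2-block of G. -/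
theorem result {G : Type*} [Group G] [Finite G] (N : Subgroup G) [N.Normal] (M : Ideal Cfsg.AlgInt) (hM : Cfsg.IsPModular 2 M) (θ : Cfsg.IrrCharacter N) (hreal : ∀ n : N, ((θ : N → ℂ) n).im = 0) (hodd : Odd (Cfsg.charDegree (θ : N → ℂ))) (hext : ∃ η : Cfsg.IrrCharacter G, ∀ n : N, (η : G → ℂ) n = (θ : N → ℂ) n) :
    ∃ η : Cfsg.IrrCharacter G, (∀ n : N, (η : G → ℂ) n = (θ : N → ℂ) n) ∧ η ∈ Cfsg.principalBlock M G := by
  classical
  haveI := hM.2.1.isPrime
  haveI := Fintype.ofFinite G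
  haveI := Fintype.ofFinite N
  obtain ⟨η, hη⟩ := hext
  have hc := Char.isCharacter_of_isIrr η.2
  have hbar := Char.isIrrCharacter_conj η.2
  obtain ⟨l, hl, hle⟩ := CharClifford.extension_unique_mul_linear N θ.2 η.2 hη hbar
    (fun n => by
      show (starRingEnd ℂ) ((η : G → ℂ) n) = (θ : N → ℂ) n
      rw [hη]
      exact Complex.conj_eq_iff_im.2 (hreal n))
  set m := Nat.card G / 2 ^ (Nat.card G).factorization 2 with hm
  have hmodd : ¬ 2 ∣ m := Nat.not_dvd_ordCompl Nat.prime_two Nat.card_pos.ne'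
  set μ : G →* ℂˣ := l ^ ((m + 1) / 2) with hμ
  let η' : Cfsg.IrrCharacter G := ⟨_, Char.isIrrCharacter_linear_mul η.2 μ⟩
  refine ⟨η', fun n => ?_, ?_⟩
  · show (μ n : ℂ) * (η : G → ℂ) n = _
    rw [hμ, MonoidHom.pow_apply, hl, one_pow, Units.val_one, one_mul, hη]
  have hinv : ∀ g : G, ¬ 2 ∣ orderOf g → (η' : G → ℂ) g⁻¹ = (η' : G → ℂ) g := by
    intro g hg
    show (μ g⁻¹ : ℂ) * (η : G → ℂ) g⁻¹ = (μ g : ℂ) * (η : G → ℂ) g
    have h1 : (η : G → ℂ) g⁻¹ = (l g : ℂ) * (η : G → ℂ) g := by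
      rw [Char.char_inv hc]
      exact congrFun hle g
    have hgm : g ^ m = 1 := by
      apply orderOf_dvd_iff_pow_eq_one.1
      refine Nat.Coprime.dvd_of_dvd_mul_left
        (Nat.Coprime.pow_right ((Nat.card G).factorization 2)
          ((Nat.prime_two.coprime_iff_not_dvd).2 hg).symm) ?_
      rw [hm, Nat.ordProj_mul_ordCompl_eq_self]
      exact orderOf_dvd_natCard g
    have h2 : μ g * μ g = l g := by
      rw [hμ, MonoidHom.pow_apply, ← pow_add, show (m + 1) / 2 + (m + 1) / 2 = m + 1 by omega,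
        pow_succ, ← map_pow, hgm, map_one, one_mul]
    rw [h1, ← mul_assoc, map_inv, ← Units.val_mul, ← h2, inv_mul_cancel_left]
  refine RealOdd.mem_principal_of_inv hM ?_ fun g hg => ?_
  · have h1 : (η' : G → ℂ) 1 = (θ : N → ℂ) 1 := by
      show (μ 1 : ℂ) * (η : G → ℂ) 1 = _
      rw [map_one, Units.val_one, one_mul]
      exact hη 1
    have h2 : Cfsg.charDegree (η' : G → ℂ) = Cfsg.charDegree (θ : N → ℂ) := by
      rw [Cfsg.charDegree, Cfsg.charDegree, h1]
    rw [h2]
    exact fun h => Nat.not_odd_iff_even.2 (even_iff_two_dvd.2 h) hodd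
  · simp only [Cfsg.centralChar, RealOdd.centralizer_inv, hinv g hg]

end Cfsg.Agent.S4580
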