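import Cfsg.Statements.S4581
import Cfsg.Agent.Lib.CharRealSolvable.Main
-- import your own Cfsg.Agent.* helpers here

set_option autoImplicit false
open Cfsg

open Cfsg
open Cfsg.Agent.Lib

namespace Cfsg.Agent.S4581

/-- Let G be a finite solvable group, P a Sylow 2-subgroup and N its normalizer. Then G and N have the same number of real-valued irreducible characters of odd degree; and every odd-degree irreducible character of G is real-valued exactly when the derived subgroup of P equals the Frattini subgroup of P and P is its own normalizer in G. -/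
theorem result {G : Type*} [Group G] [Finite G] [Group.IsSolvable G] (P : Sylow 2 G) :
    Nat.card {χ : Cfsg.IrrCharacter G // (∀ g : G, ((χ : G → ℂ) g).im = 0) ∧ Odd (Cfsg.charDegree (χ : G → ℂ))} =
      Nat.card {ψ : Cfsg.IrrCharacter (Subgroup.normalizer ((P : Subgroup G) : Set G)) // (∀ g, ((ψ : Subgroup.normalizer ((P : Subgroup G) : Set G) → ℂ) g).im = 0) ∧ Odd (Cfsg.charDegree (ψ : Subgroup.normalizer ((P : Subgroup G) : Set G) → ℂ))} ∧
    ((∀ χ : Cfsg.IrrCharacter G, Odd (Cfsg.charDegree (χ : G → ℂ)) → ∀ g : G, ((χ : G → ℂ) g).im = 0) ↔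
      (commutator (P : Subgroup G) = frattini (P : Subgroup G) ∧ Subgroup.normalizer ((P : Subgroup G) : Set G) = (P : Subgroup G))) := by
  haveI : Fact (Nat.Prime 2) := ⟨Nat.prime_two⟩
  obtain ⟨h1, h2⟩ := CharRealSolvable.claim (Nat.card G + 1) G (Nat.lt_succ_self _) P
  refine ⟨h1, ⟨fun hall => ?_, fun ⟨hc, hn⟩ χ ho => ?_⟩⟩
  · obtain ⟨hel, hnp⟩ := h2.1 fun χ ho _ => hall χ ho
    exact ⟨(CharRealSolvable.elemMod_iff _ P.isPGroup').1 hel,
      le_antisymm hnp Subgroup.le_normalizer⟩
  · exact h2.2 ⟨(CharRealSolvable.elemMod_iff _ P.isPGroup').2 hc, hn.le⟩ χ ho fun k hk => by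
      rw [Subgroup.mem_bot.1 hk]

end Cfsg.Agent.S4581
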