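import Cfsg.Statements.S4582
import Cfsg.Agent.Lib.CharTate.Real
-- import your own Cfsg.Agent.* helpers here

set_option autoImplicit false
open Cfsg

namespace Cfsg.Agent.S4582

/-- Let N be a normal subgroup of the finite group G, P a Sylow 2-subgroup of G and Q = P ∩ N. Suppose that P/QP' and Q/Q' are elementary abelian (every square of an element of P lies in the subgroup generated by Q and the derived subgroup of P, and every square of an element of Q lies in the derived subgroup of Q), and that the commutator factor group N/N' has odd order. Then P/P' is elementary abelian. -/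
theorem result {G : Type*} [Group G] [Finite G] (N : Subgroup G) [N.Normal] (P : Sylow 2 G)
    (hP : ∀ x ∈ (P : Subgroup G), x ^ 2 ∈ ((P : Subgroup G) ⊓ N) ⊔ ⁅(P : Subgroup G), (P : Subgroup G)⁆)
    (hQ : ∀ x ∈ (P : Subgroup G) ⊓ N, x ^ 2 ∈ ⁅(P : Subgroup G) ⊓ N, (P : Subgroup G) ⊓ N⁆)
    (hodd : Odd (Nat.card (Abelianization N))) :
    ∀ x ∈ (P : Subgroup G), x ^ 2 ∈ ⁅(P : Subgroup G), (P : Subgroup G)⁆ := by
  classical
  intro x hx
  haveI : Fintype G := Fintype.ofFinite G
  haveI : Fact (Nat.Prime 2) := ⟨Nat.prime_two⟩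
  set S : Subgroup G := (P : Subgroup G) with hS
  by_contra hne
  rw [← Subgroup.map_subtype_commutator] at hne
  have hne' : (⟨x, hx⟩ : S) ^ 2 ∉ commutator S := fun h => hne ⟨_, h, by simp⟩
  obtain ⟨l, hl⟩ := Cfsg.Agent.Lib.CharTools.exists_linear_ne_one hne'
  set K : Subgroup G := S ⊔ N with hK
  have hSK : S ≤ K := le_sup_left
  have hNK : N ≤ K := le_sup_right
  haveI : (N.subgroupOf K).Normal := (inferInstance : N.Normal).subgroupOf K
  let e := Subgroup.subgroupOfEquivOfLe hSK
  let eN := Subgroup.subgroupOfEquivOfLe hNK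
  have hab : ∀ d : N.subgroupOf K →* ℂˣ, (∀ n, d n ^ 2 = 1) → ∀ n, d n = 1 := by
    intro d hd n
    set d' : N →* ℂˣ := d.comp eN.symm.toMonoidHom with hd'
    have h1 : d' (eN n) ^ Nat.card (Abelianization N) = 1 := by
      rw [← Abelianization.lift_apply_of d', ← map_pow, pow_card_eq_one', map_one]
    have h2 : d' (eN n) = d n := by simp [hd']
    rw [h2] at h1
    obtain ⟨j, hj⟩ := hodd
    rw [hj, pow_succ, pow_mul, hd, one_pow, one_mul] at h1
    exact h1
  have hker : ∀ κ : S →* ℂˣ, (∀ q : S, (q : G) ∈ N → κ q = 1) → κ (⟨x, hx⟩ ^ 2) = 1 := by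
    intro κ hκ
    have hle : (S ⊓ N) ⊔ ⁅S, S⁆ ≤ κ.ker.map S.subtype := by
      refine sup_le (fun q hq => ?_) ?_
      · exact ⟨⟨q, hq.1⟩, hκ _ hq.2, rfl⟩
      · rw [← Subgroup.map_subtype_commutator]
        exact Subgroup.map_mono (Abelianization.commutator_subset_ker κ)
    obtain ⟨y, hy, hyx⟩ := hle (hP x hx)
    have : y = ⟨x, hx⟩ ^ 2 := Subtype.ext hyx
    rw [← this]
    exact hy
  refine hl ?_
  have h := Cfsg.Agent.Lib.CharTate.sq_apply_eq_one (N.subgroupOf K) (S.subgroupOf K)
    ((P.subtype hSK).isPGroup') ?_ ?_ hab (l.comp e.toMonoidHom) ?_ (e.symm ⟨x, hx⟩) ?_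
  · simpa using h
  · rw [Nat.odd_iff, ← Nat.two_dvd_ne_zero]
    exact (P.subtype hSK).not_dvd_index
  · rw [← Subgroup.subgroupOf_sup hSK hNK]
    exact Subgroup.subgroupOf_self K
  · intro q hq
    have hq' : ((e q : S) : G) ∈ N := hq
    have h2 := hQ ((e q : S) : G) ⟨(e q).2, hq'⟩
    have h3 : (e q) ^ 2 ∈ commutator S := by
      have := Subgroup.commutator_mono (inf_le_left : S ⊓ N ≤ S) (inf_le_left : S ⊓ N ≤ S) h2
      rw [← Subgroup.map_subtype_commutator] at this
      obtain ⟨y, hy, hyx⟩ := this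
      have hy' : y = (e q) ^ 2 := Subtype.ext hyx
      rwa [← hy']
    rw [MonoidHom.comp_apply, ← map_pow]
    exact Cfsg.Agent.Lib.CharTools.linear_commutator h3
  · intro κ hκ
    have := hker (κ.comp e.symm.toMonoidHom) fun q hq => hκ (e.symm q) hq
    rw [MonoidHom.comp_apply, map_pow] at this
    exact this

end Cfsg.Agent.S4582
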