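import Cfsg.Statements.S4583
import Cfsg.Agent.Lib.Block.PrincipalCover
-- import your own Cfsg.Agent.* helpers here

set_option autoImplicit false
open Cfsg

open Cfsg Cfsg.Agent.Lib.Block
open Cfsg.Agent.Lib

namespace Cfsg.Agent.S4583

/-- Let N be a normal subgroup of the finite group G, p a prime, M a maximal ideal of the algebraic integers containing p, and P a Sylow p-subgroup of G. Let θ be an irreducible character of N of degree prime to p lying in the principal p-block of N, and suppose θ extends to the subgroup NP (some irreducible character of NP restricts to θ). Then some irreducible character χ of G of degree prime to p in the principal p-block of G lies over θ (θ is a constituent of the restriction of χ to N). -/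
theorem result {G : Type*} [Group G] [Finite G] (N : Subgroup G) [N.Normal] (p : ℕ) [Fact p.Prime] (M : Ideal Cfsg.AlgInt) (hM : Cfsg.IsPModular p M) (P : Sylow p G)
    (θ : Cfsg.IrrCharacter N) (hθ : θ ∈ Cfsg.principalBlock M N) (hdeg : ¬ p ∣ Cfsg.charDegree (θ : N → ℂ))
    (hext : ∃ η : Cfsg.IrrCharacter ↥(N ⊔ (P : Subgroup G)), ∀ n : N, (η : ↥(N ⊔ (P : Subgroup G)) → ℂ) (Subgroup.inclusion le_sup_left n) = (θ : N → ℂ) n) :
    ∃ χ : Cfsg.IrrCharacter G, χ ∈ Cfsg.principalBlock M G ∧ ¬ p ∣ Cfsg.charDegree (χ : G → ℂ) ∧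
      haveI := Fintype.ofFinite N; Cfsg.classInner (fun n : N => (χ : G → ℂ) n) (θ : N → ℂ) ≠ 0 := by
  haveI := hM.2.1.isPrime
  classical
  haveI := Fintype.ofFinite G
  letI := Fintype.ofFinite N
  obtain ⟨η, hη⟩ := hext
  haveI := Fintype.ofFinite ↥(N ⊔ (P : Subgroup G))
  set N' := N.subgroupOf (N ⊔ (P : Subgroup G)) with hN'
  haveI := Fintype.ofFinite N'
  set e := Subgroup.subgroupOfEquivOfLe (le_sup_left : N ≤ N ⊔ (P : Subgroup G)) with he
  set θ' : Cfsg.IrrCharacter N' := BrauerPairs.mapIrr e.symm θ with hθ'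
  have hres : (fun n : N' => (η : ↥(N ⊔ (P : Subgroup G)) → ℂ) n) = (θ' : N' → ℂ) := by
    funext n
    have h1 := hη (e n)
    rw [hθ', ← e.symm_apply_apply n, BrauerPairs.mapIrr_apply, ← h1, e.symm_apply_apply]
    rfl
  have hcon : Cfsg.classInner (fun n : N' => (η : ↥(N ⊔ (P : Subgroup G)) → ℂ) n) (θ' : N' → ℂ) ≠ 0 := by
    rw [hres, Char.classInner_irr_self θ'.2]; exact one_ne_zero
  have hθ'mem : θ' ∈ Cfsg.principalBlock M N' := (mapIrr_mem_principal_iff e.symm).2 hθ
  obtain ⟨k, hk⟩ : ∃ k, N'.index = p ^ k := by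
    obtain ⟨j, hj⟩ := IsPGroup.iff_card.1 P.2
    have h1 : N.relIndex (N ⊔ (P : Subgroup G)) ∣ p ^ j := by
      rw [Subgroup.relIndex_sup_left, ← hj]
      exact Subgroup.relIndex_dvd_card _ _
    obtain ⟨k, -, hk⟩ := (Nat.dvd_prime_pow (Fact.out : p.Prime)).1 h1
    exact ⟨k, hk⟩
  have hone : Cfsg.classInner (fun n : N' => ((oneIrr ↥(N ⊔ (P : Subgroup G))) : ↥(N ⊔ (P : Subgroup G)) → ℂ) n)
      (oneIrr N' : N' → ℂ) ≠ 0 := by
    rw [show (fun n : N' => ((oneIrr ↥(N ⊔ (P : Subgroup G))) : ↥(N ⊔ (P : Subgroup G)) → ℂ) n) = (oneIrr N' : N' → ℂ) from rfl,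
      Char.classInner_irr_self (oneIrr N').2]
    exact one_ne_zero
  have hηmem : η ∈ Cfsg.principalBlock M ↥(N ⊔ (P : Subgroup G)) :=
    sameBlock_of_constituent N' hM hk hone hcon hθ'mem
  have hdegη : ¬ p ∣ Cfsg.charDegree (η : ↥(N ⊔ (P : Subgroup G)) → ℂ) := by
    have h1 : (η : ↥(N ⊔ (P : Subgroup G)) → ℂ) 1 = (θ : N → ℂ) 1 := by
      have := hη 1; rwa [map_one] at this
    simpa [Cfsg.charDegree, h1] using hdeg
  obtain ⟨χ, hχ, hd, hover⟩ := exists_principal_over hM (N ⊔ (P : Subgroup G))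
    (fun h => P.not_dvd_index (h.trans (Subgroup.index_dvd_of_le le_sup_right))) hηmem hdegη
  refine ⟨χ, hχ, hd, ?_⟩
  rw [show (fun n : N => (χ : G → ℂ) n) =
    (fun n : N => (fun h : ↥(N ⊔ (P : Subgroup G)) => (χ : G → ℂ) h) (Subgroup.inclusion le_sup_left n)) from rfl]
  exact classInner_restrict_ne_zero (Subgroup.inclusion le_sup_left)
    (Char.isCharacter_restrict (Char.isCharacter_of_isIrr χ.2) _) η θ.2 hη hover

end Cfsg.Agent.S4583
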