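import Cfsg.Statements.S4584
import Cfsg.Agent.Lib.Block.SmallPGroup
-- import your own Cfsg.Agent.* helpers here

set_option autoImplicit false
open Cfsg

open Cfsg Cfsg.Agent.Lib.Block
open Cfsg.Agent.Lib
open scoped commutatorElement

namespace Cfsg.Agent.S4584

/-- Let p be a prime and P a group of order p^4. Then the derived subgroup P' has order p if and only if the centre Z(P) has index p^2 in P. -/
theorem result {P : Type*} [Group P] [Finite P] (p : ℕ) [Fact p.Prime] (hP : Nat.card P = p ^ 4) :
    Nat.card (commutator P) = p ↔ (Subgroup.center P).index = p ^ 2 := by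
  have hp : p.Prime := Fact.out
  have hPp : IsPGroup p P := IsPGroup.of_card hP
  constructor
  · intro h
    refine le_antisymm (SmallPGroup.index_center_le hP h) (SmallPGroup.sq_le_index_center_of_ne hPp ?_)
    intro e
    rw [e, Subgroup.card_bot] at h
    exact hp.one_lt.ne h
  · intro h
    refine le_antisymm (SmallPGroup.card_commutator_le hPp h.le) ?_
    have hne : commutator P ≠ ⊥ := by
      intro e
      have hc : Subgroup.center P = ⊤ := by
        refine eq_top_iff.2 fun x _ => Subgroup.mem_center_iff.2 fun g => ?_
        have h1 : ⁅g, x⁆ ∈ commutator P :=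
          Subgroup.commutator_mem_commutator (Subgroup.mem_top g) (Subgroup.mem_top x)
        rw [e, Subgroup.mem_bot] at h1
        exact commutatorElement_eq_one_iff_mul_comm.1 h1
      rw [hc, Subgroup.index_top] at h
      exact (Nat.one_lt_pow two_ne_zero hp.one_lt).ne h
    obtain ⟨k, hk⟩ := IsPGroup.iff_card.1 (hPp.to_subgroup (commutator P))
    rw [hk]
    refine Nat.le_self_pow ?_ p
    rintro rfl
    exact hne (Subgroup.card_eq_one.1 (by simpa using hk))

end Cfsg.Agent.S4584
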