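import Cfsg.Statements.S4585
import Cfsg.Agent.Lib.Block.SmallPGroup
-- import your own Cfsg.Agent.* helpers here

set_option autoImplicit false
open Cfsg

open Cfsg Cfsg.Agent.Lib.Block
open Cfsg.Agent.Lib
open scoped commutatorElement

namespace Cfsg.Agent.S4585

/-- Let p be a prime and P a group of order p^4. Then P' has index p^2 in P if and only if P has maximal nilpotency class, that is, nilpotency class exactly 3. -/
theorem result {P : Type*} [Group P] [Finite P] (p : ℕ) [Fact p.Prime] (hP : Nat.card P = p ^ 4) :
    (commutator P).index = p ^ 2 ↔ Group.nilpotencyClass P = 3 := by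
  have hp : p.Prime := Fact.out
  have hPp : IsPGroup p P := IsPGroup.of_card hP
  have hnil : Group.IsNilpotent P := hPp.isNilpotent
  constructor
  · intro h
    refine le_antisymm ?_ ?_
    · rw [← Subgroup.lowerCentralSeries_eq_bot_iff_nilpotencyClass_le]
      exact Thompson.lcs_eq_bot hP (by norm_num) (by norm_num)
    · by_contra hc
      have h2 : (⊤ : Subgroup P).lowerCentralSeries 2 = ⊥ := by
        rw [Subgroup.lowerCentralSeries_eq_bot_iff_nilpotencyClass_le]; omega
      rw [Subgroup.lowerCentralSeries_succ, Subgroup.top_lowerCentralSeries_one,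
        Subgroup.commutator_eq_bot_iff_le_centralizer] at h2
      have hz : commutator P ≤ Subgroup.center P := by
        simpa [Subgroup.centralizer_univ] using h2
      have hi : (Subgroup.center P).index ≤ p ^ 2 :=
        h ▸ Nat.le_of_dvd (Nat.pos_of_ne_zero Subgroup.index_ne_zero_of_finite)
          (Subgroup.index_dvd_of_le hz)
      have h3 := SmallPGroup.card_commutator_le hPp hi
      have h4 := (commutator P).card_mul_index
      rw [h, hP] at h4
      have : p ^ 4 ≤ p * p ^ 2 := h4 ▸ Nat.mul_le_mul_right _ h3
      rw [← pow_succ', Nat.pow_le_pow_iff_right hp.one_lt] at this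
      omega
  · intro h
    have := Thompson.index_lcs_of_maxClass hP (by norm_num) (by simpa using h) (k := 1) le_rfl (by norm_num)
    rwa [Subgroup.top_lowerCentralSeries_one] at this

end Cfsg.Agent.S4585
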