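import Cfsg.Statements.S4586
import Cfsg.Agent.Lib.Thompson.PGroup
-- import your own Cfsg.Agent.* helpers here

set_option autoImplicit false
open Cfsg

open Cfsg
open Cfsg.Agent.Lib
open scoped commutatorElement

namespace Cfsg.Agent.S4586

/-- Let p be a prime, P a finite p-group and N a normal subgroup of P of index p. For x ∈ P write c(x) for the number of elements n of N whose commutator x n x⁻¹ n⁻¹ lies in the derived subgroup N' (so c(x)/#N' is the order of the centralizer of x acting on N/N'). Then [P : P'] = p² if and only if c(x) = p·#N' for every x ∈ P outside N, and also if and only if c(x) = p·#N' for some x ∈ P outside N. -/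
theorem result {P : Type*} [Group P] [Finite P] (p : ℕ) [Fact p.Prime] (hP : IsPGroup p P) (N : Subgroup P) [N.Normal] (hN : N.index = p) :
    ((commutator P).index = p ^ 2 ↔ ∀ x : P, x ∉ N →
        Nat.card {n : N // x * n * x⁻¹ * (n : P)⁻¹ ∈ (commutator N).map N.subtype} = p * Nat.card (commutator N)) ∧
    ((commutator P).index = p ^ 2 ↔ ∃ x : P, x ∉ N ∧
        Nat.card {n : N // x * n * x⁻¹ * (n : P)⁻¹ ∈ (commutator N).map N.subtype} = p * Nat.card (commutator N)) := by
  classical
  have hp : p.Prime := Fact.out
  have hNle : commutator P ≤ N := by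
    haveI : IsCyclic (P ⧸ N) := isCyclic_of_prime_card (p := p) (by rw [← Subgroup.index_eq_card, hN])
    rw [commutator_def, Subgroup.commutator_le]
    intro a _ b _
    rw [← QuotientGroup.eq_one_iff]
    show QuotientGroup.mk' N ⁅a, b⁆ = 1
    rw [map_commutatorElement, commutatorElement_eq_one_iff_commute]
    exact IsCyclic.isMulCommutative.is_comm.comm _ _
  have hmax : ∀ x : P, x ∉ N → ∀ H : Subgroup P, x ∈ H → N ≤ H → H = ⊤ := by
    intro x hx H hxH hle
    have hlt : N < H := lt_of_le_of_ne hle fun e => hx (e ▸ hxH)
    have h := Thompson.card_mul_p_le hP hlt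
    refine Subgroup.eq_top_of_card_eq _ (le_antisymm (Subgroup.card_le_card_group _) ?_)
    rwa [← N.card_mul_index, hN, mul_comm]
  have key : ∀ x : P, x ∉ N →
      Nat.card {n : N // x * n * x⁻¹ * (n : P)⁻¹ ∈ (commutator N).map N.subtype} *
        Nat.card (commutator P) = Nat.card N * Nat.card (commutator N) := by
    intro x hx
    let c : N →* N := ((MulAut.conjNormal (H := N)) x).toMonoidHom
    let φ : N →* Abelianization N :=
      { toFun := fun n => Abelianization.of (c n) * (Abelianization.of n)⁻¹
        map_one' := by simp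
        map_mul' := fun a b => by
          simp only [map_mul, mul_inv, mul_mul_mul_comm] }
    have hφ : ∀ n, φ n = Abelianization.of (c n * n⁻¹) := fun n => by
      show Abelianization.of (c n) * (Abelianization.of n)⁻¹ = _
      rw [map_mul, map_inv]
    have hof : ∀ m : N, Abelianization.of m = 1 ↔ m ∈ commutator N := fun m => by
      rw [← MonoidHom.mem_ker, Abelianization.ker_of]
    have hcv : ∀ n : N, ((c n * n⁻¹ : N) : P) = x * n * x⁻¹ * (n : P)⁻¹ := fun n => rfl
    have hker : Nat.card {n : N // x * n * x⁻¹ * (n : P)⁻¹ ∈ (commutator N).map N.subtype}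
        = Nat.card φ.ker := by
      refine Nat.card_congr (Equiv.subtypeEquivRight fun n => ?_)
      rw [MonoidHom.mem_ker, hφ, hof, ← hcv]
      exact ⟨fun ⟨m, hm, he⟩ => Subtype.ext he ▸ hm, fun h => ⟨_, h, rfl⟩⟩
    set K : Subgroup N := φ.range.comap Abelianization.of with hK
    have hNK : commutator N ≤ K := fun m hm => by
      rw [hK, Subgroup.mem_comap, (hof m).2 hm]; exact one_mem _
    have hKcard : Nat.card K = Nat.card (commutator N) * Nat.card φ.range := by
      have hiK : K.index = φ.range.index := Subgroup.index_comap_of_surjective _ (QuotientGroup.mk'_surjective (commutator N))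
      have hab : Nat.card (Abelianization N) = (commutator N).index := rfl
      refine Nat.eq_of_mul_eq_mul_right (Nat.pos_of_ne_zero (Subgroup.index_ne_zero_of_finite (H := K))) ?_
      rw [K.card_mul_index, hiK, mul_assoc, φ.range.card_mul_index, hab, Subgroup.card_mul_index]
    have hmem : ∀ m : P, m ∈ K.map N.subtype → x * m * x⁻¹ ∈ K.map N.subtype := by
      rintro _ ⟨m, hm, rfl⟩
      refine ⟨c m, ?_, rfl⟩
      obtain ⟨n, hn⟩ := hm
      refine ⟨c n, ?_⟩
      rw [hφ, show c (c n) * (c n)⁻¹ = c (c n * n⁻¹) by rw [map_mul, map_inv]]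
      have h1 : Abelianization.map c (φ n) = Abelianization.map c (Abelianization.of m) :=
        congrArg _ hn
      rwa [hφ, Abelianization.map_of, Abelianization.map_of] at h1
    haveI hKN : K.Normal := by
      refine ⟨fun m hm g => ?_⟩
      rw [hK, Subgroup.mem_comap] at hm ⊢
      simpa using hm
    haveI hK'n : (K.map N.subtype).Normal := by
      rw [← Subgroup.normalizer_eq_top_iff]
      refine hmax x hx _ ?_ ?_
      · have hfin : Subgroup.map (MulAut.conj x).toMonoidHom (K.map N.subtype) = K.map N.subtype := by
          refine Subgroup.eq_of_le_of_card_ge ?_ ?_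
          · rintro _ ⟨m, hm, rfl⟩
            exact hmem m hm
          · exact le_of_eq (Subgroup.card_map_of_injective (MulAut.conj x).injective).symm
        rw [Subgroup.mem_normalizer_iff]
        intro m
        refine ⟨hmem m, fun h => ?_⟩
        rw [← hfin] at h
        obtain ⟨m', hm', he⟩ := h
        have : m' = m := (MulAut.conj x).injective he
        exact this ▸ hm'
      · intro g hg
        rw [Subgroup.mem_normalizer_iff]
        intro m
        constructor
        · rintro ⟨m', hm', rfl⟩
          exact ⟨⟨g, hg⟩ * m' * (⟨g, hg⟩ : N)⁻¹, hKN.conj_mem m' hm' _, rfl⟩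
        · rintro ⟨m', hm', he⟩
          refine ⟨(⟨g, hg⟩ : N)⁻¹ * m' * ⟨g, hg⟩, by simpa using hKN.conj_mem m' hm' (⟨g, hg⟩ : N)⁻¹, ?_⟩
          simp only [Subgroup.coe_subtype, Subgroup.coe_mul, InvMemClass.coe_inv] at he ⊢
          rw [he]; group
    have heq : commutator P = K.map N.subtype := by
      refine le_antisymm ?_ ?_
      · set q := QuotientGroup.mk' (K.map N.subtype)
        have hxn : ∀ n : N, Commute (q x) (q n) := fun n => by
          rw [← commutatorElement_eq_one_iff_commute, ← map_commutatorElement,
            QuotientGroup.mk'_apply, QuotientGroup.eq_one_iff, commutatorElement_def, ← hcv]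
          exact ⟨_, ⟨n, hφ n⟩, rfl⟩
        have hnn : ∀ a b : N, Commute (q a) (q b) := fun a b => by
          rw [← commutatorElement_eq_one_iff_commute, ← map_commutatorElement,
            QuotientGroup.mk'_apply, QuotientGroup.eq_one_iff]
          exact ⟨⁅a, b⁆, hNK (Subgroup.commutator_mem_commutator (Subgroup.mem_top a) (Subgroup.mem_top b)), rfl⟩
        have cent : ∀ z, Commute (q x) z → (∀ m : N, Commute (q m) z) → ∀ y, Commute (q y) z := by
          intro z hz hm y
          have : (Subgroup.centralizer ({z} : Set (P ⧸ K.map N.subtype))).comap q = ⊤ :=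
            hmax x hx _ (Subgroup.mem_centralizer_singleton_iff.2 hz.eq)
              fun m hm' => Subgroup.mem_centralizer_singleton_iff.2 (hm ⟨m, hm'⟩).eq
          exact Subgroup.mem_centralizer_singleton_iff.1
            (Subgroup.mem_comap.1 (this.ge (Subgroup.mem_top y)))
        have h1 : ∀ n : N, ∀ y, Commute (q n) (q y) := fun n y =>
          (cent (q n) (hxn n) (fun m => hnn m n) y).symm
        have h2 : ∀ y, Commute (q x) (q y) := fun y =>
          (cent (q x) (Commute.refl _) (fun m => (hxn m).symm) y).symm
        rw [commutator_def, Subgroup.commutator_le]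
        intro a _ b _
        rw [← QuotientGroup.eq_one_iff]
        show q ⁅a, b⁆ = 1
        rw [map_commutatorElement, commutatorElement_eq_one_iff_commute]
        exact cent (q b) (h2 b) (fun m => h1 m b) a
      · rintro _ ⟨m, ⟨n, hn⟩, rfl⟩
        rw [hφ, ← mul_inv_eq_one, ← map_inv, ← map_mul, hof] at hn
        have h1 : ((c n * n⁻¹ * m⁻¹ : N) : P) ∈ commutator P := by
          have : commutator N ≤ (commutator P).comap N.subtype := by
            rw [commutator_def, Subgroup.commutator_le]
            intro a _ b _
            exact Subgroup.commutator_mem_commutator (Subgroup.mem_top _) (Subgroup.mem_top _)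
          exact this hn
        have h2 : ((c n * n⁻¹ : N) : P) ∈ commutator P := by
          rw [hcv, ← commutatorElement_def]
          exact Subgroup.commutator_mem_commutator (Subgroup.mem_top _) (Subgroup.mem_top _)
        have h3 := mul_mem (inv_mem h1) h2
        simpa [mul_assoc] using h3
    rw [hker, heq, Subgroup.card_map_of_injective N.subtype_injective, hKcard,
      mul_left_comm, ← Subgroup.index_ker, Subgroup.card_mul_index, mul_comm]
  obtain ⟨x₀, hx₀⟩ : ∃ x, x ∉ N := by
    by_contra! h
    rw [(Subgroup.eq_top_iff' N).2 h, Subgroup.index_top] at hN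
    exact hp.ne_one hN.symm
  have iff1 : ∀ x : P, x ∉ N → ((commutator P).index = p ^ 2 ↔
      Nat.card {n : N // x * n * x⁻¹ * (n : P)⁻¹ ∈ (commutator N).map N.subtype}
        = p * Nat.card (commutator N)) := by
    intro x hx
    have h := key x hx
    set c := Nat.card {n : N // x * n * x⁻¹ * (n : P)⁻¹ ∈ (commutator N).map N.subtype}
    have h1 := (commutator P).card_mul_index
    have h2 := N.card_mul_index
    rw [hN] at h2
    have hpos : 0 < Nat.card (commutator P) := Nat.card_pos
    have hpos' : 0 < Nat.card (commutator N) := Nat.card_pos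
    constructor
    · intro hi
      rw [hi, ← h2] at h1
      refine Nat.eq_of_mul_eq_mul_right hpos ?_
      rw [h]
      refine Nat.eq_of_mul_eq_mul_right hp.pos ?_
      calc Nat.card N * Nat.card (commutator N) * p
          = (Nat.card N * p) * Nat.card (commutator N) := by ring
        _ = _ := by rw [← h1]; ring
    · intro hc
      rw [hc] at h
      have h3 : p * Nat.card (commutator P) = Nat.card N :=
        Nat.eq_of_mul_eq_mul_right hpos' (by rw [← h]; ring)
      refine Nat.eq_of_mul_eq_mul_left hpos ?_
      rw [h1, ← h2, ← h3]; ring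
  exact ⟨⟨fun h x hx => (iff1 x hx).1 h, fun h => (iff1 x₀ hx₀).2 (h x₀ hx₀)⟩,
    ⟨fun h => ⟨x₀, hx₀, (iff1 x₀ hx₀).1 h⟩, fun ⟨x, hx, h⟩ => (iff1 x hx).2 h⟩⟩

end Cfsg.Agent.S4586
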