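import Cfsg.Statements.S4587
import Cfsg.Agent.Lib.CharSquareAb.Main
-- import your own Cfsg.Agent.* helpers here

set_option autoImplicit false
open Cfsg

namespace Cfsg.Agent.S4587

/-- Let G be a finite group, p a prime and P a Sylow p-subgroup of order at least p². Assume that G has no nontrivial normal subgroup of order prime to p, that the derived subgroup P' of P contains no nontrivial normal subgroup of G, and that G is not almost simple (there is no non-abelian simple normal subgroup of G with trivial centralizer). Then [P : P'] = p² if and only if some p-element x of G has centralizer whose order has p-part exactly p². -/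
theorem result {G : Type*} [Group G] [Finite G] (p : ℕ) [Fact p.Prime] (P : Sylow p G) (hbig : p ^ 2 ∣ Nat.card G) (hcore : Cfsg.pPrimeCore p G = ⊥)
    (hcore' : (⁅(P : Subgroup G), (P : Subgroup G)⁆).normalCore = ⊥) (hnas : ¬ ∃ S : Subgroup G, S.Normal ∧ IsSimpleGroup S ∧ ¬ IsMulCommutative S ∧ Subgroup.centralizer (S : Set G) = ⊥) :
    (⁅(P : Subgroup G), (P : Subgroup G)⁆).relIndex (P : Subgroup G) = p ^ 2 ↔
      ∃ x : G, (∃ k : ℕ, orderOf x = p ^ k) ∧ (Nat.card (Subgroup.centralizer ({x} : Set G))).factorization p = 2 := by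
  have hrel : (⁅(P : Subgroup G), (P : Subgroup G)⁆).relIndex (P : Subgroup G) =
      (commutator (P : Subgroup G)).index := by
    rw [← Subgroup.map_subtype_commutator, Subgroup.relIndex, Subgroup.subgroupOf,
      Subgroup.comap_map_eq_self_of_injective (P : Subgroup G).subtype_injective]
  rw [hrel]
  refine ⟨fun h => Cfsg.Agent.Lib.CharSquareAb.exists_small_centralizer P hcore hcore' hnas h, ?_⟩
  rintro ⟨x, ⟨k, hk⟩, hfac⟩
  set C := Subgroup.centralizer ({x} : Set G) with hC
  obtain ⟨R⟩ := (inferInstance : Nonempty (Sylow p C))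
  have hR : Nat.card (R : Subgroup C) = p ^ 2 := by rw [R.card_eq_multiplicity, hfac]
  set c₀ : C := ⟨x, Subgroup.mem_centralizer_singleton_iff.2 rfl⟩
  haveI : (Subgroup.zpowers c₀).Normal := by
    refine ⟨fun z hz c => ?_⟩
    obtain ⟨i, rfl⟩ := hz
    have hc : Commute c c₀ := Subtype.ext (Subgroup.mem_centralizer_singleton_iff.1 c.2)
    exact ⟨i, by rw [(hc.zpow_right i).eq, mul_inv_cancel_right]⟩
  have hz : IsPGroup p (Subgroup.zpowers c₀) := IsPGroup.of_card (n := k) (by
    rw [Nat.card_zpowers, ← hk, ← Subgroup.orderOf_coe c₀])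
  have hxR : c₀ ∈ (R : Subgroup C) :=
    (R.3 (R.2.to_sup_of_normal_right hz) le_sup_left).le
      (le_sup_right (a := (R : Subgroup C)) (Subgroup.mem_zpowers _))
  obtain ⟨g, hg⟩ := Cfsg.Agent.Lib.CharSquareAb.sylow_conj_le P (R.2.map C.subtype)
  set y : (P : Subgroup G) := ⟨g * x * g⁻¹, hg _ ⟨c₀, hxR, rfl⟩⟩
  refine Cfsg.Agent.Lib.CharSquareAb.index_commutator_of_centralizer P.2 (x := y) ?_
  set Cy := Subgroup.centralizer ({y} : Set (P : Subgroup G))
  refine le_antisymm ?_ ?_
  · obtain ⟨n, hn⟩ := (P.2.to_subgroup Cy).exists_card_eq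
    have hdvd : Nat.card Cy ∣ Nat.card C := by
      let f : Cy →* C :=
        { toFun := fun q => ⟨g⁻¹ * ((q : (P : Subgroup G)) : G) * g, by
            rw [hC, Subgroup.mem_centralizer_singleton_iff]
            have h := congrArg Subtype.val (Subgroup.mem_centralizer_singleton_iff.1 q.2)
            change ((q : (P : Subgroup G)) : G) * (g * x * g⁻¹) = g * x * g⁻¹ * ((q : (P : Subgroup G)) : G) at h
            calc g⁻¹ * ((q : (P : Subgroup G)) : G) * g * x
                = g⁻¹ * (((q : (P : Subgroup G)) : G) * (g * x * g⁻¹)) * g := by group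
              _ = g⁻¹ * (g * x * g⁻¹ * ((q : (P : Subgroup G)) : G)) * g := by rw [h]
              _ = x * (g⁻¹ * ((q : (P : Subgroup G)) : G) * g) := by group⟩
          map_one' := Subtype.ext (by simp)
          map_mul' := fun a b => Subtype.ext (by simp [mul_assoc]) }
      exact Subgroup.card_dvd_of_injective f fun a b h => Subtype.ext (Subtype.ext
        (mul_left_cancel (mul_right_cancel (congrArg Subtype.val h))))
    rw [hn, (Fact.out : p.Prime).pow_dvd_iff_le_factorization Nat.card_pos.ne', hfac] at hdvd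
    rw [hn]
    exact Nat.pow_le_pow_right (Fact.out : p.Prime).pos hdvd
  · rw [← hR]
    refine Nat.card_le_card_of_injective
      (fun r => (⟨⟨g * ((r : C) : G) * g⁻¹, hg _ ⟨_, r.2, rfl⟩⟩, ?_⟩ : Cy)) fun a b h => ?_
    · rw [Subgroup.mem_centralizer_singleton_iff]
      refine Subtype.ext ?_
      show g * ((r : C) : G) * g⁻¹ * (g * x * g⁻¹) = g * x * g⁻¹ * (g * ((r : C) : G) * g⁻¹)
      have hcomm : ((r : C) : G) * x = x * ((r : C) : G) :=
        Subgroup.mem_centralizer_singleton_iff.1 r.1.2
      calc g * ((r : C) : G) * g⁻¹ * (g * x * g⁻¹) = g * (((r : C) : G) * x) * g⁻¹ := by group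
        _ = g * (x * ((r : C) : G)) * g⁻¹ := by rw [hcomm]
        _ = _ := by group
    · have h' : g * ((a : C) : G) * g⁻¹ = g * ((b : C) : G) * g⁻¹ :=
        congrArg (fun z : Cy => ((z : (P : Subgroup G)) : G)) h
      exact Subtype.ext (Subtype.ext (mul_left_cancel (mul_right_cancel h')))

end Cfsg.Agent.S4587
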