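import Cfsg.Statements.S4588
import Cfsg.Agent.Lib.Block.BrauerFeit
-- import your own Cfsg.Agent.* helpers here

set_option autoImplicit false
open Cfsg

open Cfsg Cfsg.Agent.Lib.Block
open Cfsg.Agent.Lib

namespace Cfsg.Agent.S4588

/-- Let G be a finite group, p a prime and M a maximal ideal of the algebraic integers containing p. If some p-element x of G (possibly x = 1) has centralizer whose order has p-part at most p², then the principal p-block of G contains at most p² irreducible characters of degree prime to p. -/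
theorem result {G : Type*} [Group G] [Finite G] (p : ℕ) [Fact p.Prime] (M : Ideal Cfsg.AlgInt) (hM : Cfsg.IsPModular p M)
    (hx : ∃ x : G, (∃ k : ℕ, orderOf x = p ^ k) ∧ (Nat.card (Subgroup.centralizer ({x} : Set G))).factorization p ≤ 2) :
    Nat.card {χ : Cfsg.IrrCharacter G // χ ∈ Cfsg.principalBlock M G ∧ ¬ p ∣ Cfsg.charDegree (χ : G → ℂ)} ≤ p ^ 2 := by
  classical
  haveI := hM.2.1.isPrime
  haveI := Fintype.ofFinite G
  obtain ⟨x, hxe, he⟩ := hx
  have hp := hM.1
  have hB : IsPBlock M (principalBlock M G) := isPBlock_principalBlock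
  have hdef : ∀ (H : Type _) [Group H] [Finite H],
      blockDefect p (principalBlock M H) = (Nat.card H).factorization p := by
    intro H _ _
    have h1 : charDegree (oneIrr H : H → ℂ) = 1 := by
      have h := irr_one_eq_natCast (oneIrr H)
      rw [oneIrr_apply] at h
      exact_mod_cast h.symm
    have h2 : blockHeight p (principalBlock M H) (oneIrr H : H → ℂ) = 0 := by
      rw [blockHeight, h1, Nat.factorization_one, Finsupp.coe_zero, Pi.zero_apply, Nat.zero_sub]
    rw [blockDefect_eq_of_min oneIrr_mem h2, h1, Nat.factorization_one, Finsupp.coe_zero,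
      Pi.zero_apply, Nat.sub_zero]
  rcases eq_or_ne x 1 with rfl | hx1
  · have h1 : Subgroup.centralizer ({(1 : G)} : Set G) = ⊤ :=
      eq_top_iff.2 fun g _ => Subgroup.mem_centralizer_singleton_iff.2 (by simp)
    rw [h1, Subgroup.card_top] at he
    refine le_trans (Nat.card_le_card_of_injective (fun χ => (⟨χ.1, χ.2.1⟩ : principalBlock M G))
      fun a b h => Subtype.ext (congrArg Subtype.val h :)) ?_
    exact ((card_block_le_pow hM _ hB (hdef G)).1 he).trans (Nat.pow_le_pow_right hp.pos he)
  haveI := Fintype.ofFinite (Subgroup.centralizer ({x} : Set G))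
  set b := principalBlock M (Subgroup.centralizer ({x} : Set G)) with hbdef
  have hb : IsPBlock M b := isPBlock_principalBlock
  have hind : IsInducedBlock M (Subgroup.centralizer ({x} : Set G)) b (principalBlock M G) := by
    obtain ⟨B, hB'⟩ := inducedBlockDefined_centralizer hM hxe hb
    rwa [← (induced_principal_iff hM hB').mpr rfl]
  set e := (Nat.card (Subgroup.centralizer ({x} : Set G))).factorization p with hedef
  have hbd : blockDefect p b = e := hdef _
  have hhb : ∀ ξ ∈ b, blockHeight p b (ξ : Subgroup.centralizer ({x} : Set G) → ℂ) = 0 := by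
    intro ξ hξ
    obtain ⟨-, hht⟩ := S4710.result p M hM b hb e hbd
    rcases le_or_gt 2 e with h | h
    · have := (hht ξ hξ).2 h; omega
    · exact (hht ξ hξ).1 (by omega)
  refine le_trans (Nat.card_le_card_of_injective
    (fun χ => (⟨χ.1, χ.2.1, by
      rw [blockHeight, Nat.factorization_eq_zero_of_not_dvd χ.2.2, Nat.zero_sub]⟩ :
        {χ : IrrCharacter G // χ ∈ principalBlock M G ∧
          blockHeight p (principalBlock M G) (χ : G → ℂ) = 0}))
    fun a b h => Subtype.ext (congrArg Subtype.val h :)) ?_
  obtain ⟨j, hj⟩ := hxe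
  set z : Subgroup.centralizer ({x} : Set G) := ⟨x, self_mem_centralizer x⟩ with hzdef
  have hz : z ∈ Subgroup.center (Subgroup.centralizer ({x} : Set G)) :=
    Subgroup.mem_center_iff.2 fun c => Subtype.ext (Subgroup.mem_centralizer_singleton_iff.1 c.2)
  have hzp : orderOf z = p ^ j := by rw [hzdef, Subgroup.orderOf_mk, hj]
  have hje : j ≤ e := by
    rw [hedef, ← hp.pow_dvd_iff_le_factorization Nat.card_pos.ne', ← hzp]
    exact orderOf_dvd_natCard z
  have hj0 : j ≠ 0 := fun h => hx1 (orderOf_eq_one_iff.1 (by rw [hj, h, pow_zero]))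
  rcases (show j = e ∨ (j = 1 ∧ e = 2) by omega) with rfl | ⟨rfl, he2⟩
  · have h := card_height_zero_sq_le hM ⟨_, hj⟩ hind hbd
    rw [blockRank_eq_one_of_orderOf_eq hM hb hbd hz hzp hhb, mul_one, pow_mul'] at h
    exact ((Nat.pow_le_pow_iff_left two_ne_zero).1 h).trans (Nat.pow_le_pow_right hp.pos he)
  · exact card_le_sq_of_subsection hM (hj.trans (pow_one p)) hind (hbd.trans he2) hhb

end Cfsg.Agent.S4588
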