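import Cfsg.Statements.S4591
import Cfsg.Agent.Lib.Block.ModP
import Cfsg.Agent.Lib.Block.Exist
import Cfsg.Agent.Lib.Block.Defect
import Cfsg.Agent.Lib.Char.Integral
import Cfsg.Agent.Lib.Char.Induced
import Cfsg.Agent.Lib.Char.Kernel
import Cfsg.Agent.Lib.CharClifford.Basic
import Cfsg.Agent.Lib.Char.Ito
import Cfsg.Agent.Lib.Transfer.Tate
import Cfsg.Agent.Lib.PGroupFrattini
import Cfsg.Agent.Lib.Components.Cores
import Cfsg.Agent.Lib.CharTools.Basic
import Cfsg.Agent.Lib.Struct4.Basic
-- import your own Cfsg.Agent.* helpers here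

set_option autoImplicit false
open Cfsg

namespace Cfsg.Agent.S4591

open scoped ComplexConjugate
open Cfsg.Agent.Lib
open scoped commutatorElement

universe w

set_option maxHeartbeats 1000000

variable {H : Type w} [Group H] [Finite H]

/-- A nonzero trace sum over a subgroup gives a fixed vector. -/
theorem exists_fixed {n : ℕ} (ρ : Representation ℂ H (Fin n → ℂ)) (L : Subgroup H) [Fintype L]
    (h : (∑ l : L, ρ.character l) ≠ 0) : ∃ v : Fin n → ℂ, v ≠ 0 ∧ ∀ l ∈ L, ρ l v = v := by
  set E : Module.End ℂ (Fin n → ℂ) := ∑ l : L, ρ (l : H) with hE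
  have hE0 : E ≠ 0 := fun h0 => h (by
    have := congrArg (LinearMap.trace ℂ (Fin n → ℂ)) h0
    rw [hE, map_sum, map_zero] at this
    exact this)
  obtain ⟨w, hw⟩ : ∃ w, E w ≠ 0 := by
    by_contra hc
    push Not at hc
    exact hE0 (LinearMap.ext hc)
  refine ⟨E w, hw, fun l hl => ?_⟩
  rw [hE, LinearMap.sum_apply, map_sum]
  refine Fintype.sum_equiv (Equiv.mulLeft (⟨l, hl⟩ : L)) _ _ fun x => ?_
  simp [map_mul]

/-- A normal subgroup fixing a nonzero vector of an irreducible module acts trivially. -/
theorem apply_eq_one_of_fixed {n : ℕ} (ρ : Representation ℂ H (Fin n → ℂ)) [ρ.IsIrreducible]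
    (K : Subgroup H) [K.Normal] {v : Fin n → ℂ} (hv : v ≠ 0) (hfix : ∀ k ∈ K, ρ k v = v) :
    ∀ k ∈ K, ρ k = 1 := by
  classical
  have := Fintype.ofFinite K
  set E : Module.End ℂ (Fin n → ℂ) := ∑ l : K, ρ (l : H) with hE
  obtain ⟨c, hc⟩ := CharClifford.exists_smul_of_commute ρ E fun g => by
    rw [hE, Finset.mul_sum, Finset.sum_mul]
    refine (Fintype.sum_equiv ((MulAut.conjNormal g).toEquiv) _ _ fun x => ?_).symm
    show ρ g * ρ (x : H) = ρ ((MulAut.conjNormal g x : K) : H) * ρ g
    rw [MulAut.conjNormal_apply, ← map_mul, ← map_mul, inv_mul_cancel_right]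
  have hcK : c = Nat.card K := by
    have h1 : E v = (Nat.card K : ℂ) • v := by
      rw [hE, LinearMap.sum_apply, Finset.sum_congr rfl (fun (l : K) _ => hfix l l.2),
        Finset.sum_const, Finset.card_univ, Nat.card_eq_fintype_card, Nat.cast_smul_eq_nsmul]
    rw [hc, LinearMap.smul_apply, Module.End.one_apply] at h1
    exact smul_left_injective ℂ hv h1
  intro k hk
  have h2 : ρ k * E = E := by
    rw [hE, Finset.mul_sum]
    refine Fintype.sum_equiv (Equiv.mulLeft (⟨k, hk⟩ : K)) _ _ fun x => ?_
    simp [map_mul]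
  rw [hc, mul_smul_comm, mul_one, hcK] at h2
  exact smul_right_injective _ (Nat.cast_ne_zero.2 Nat.card_pos.ne') h2

/-- A linear character of a subgroup of `p'`-index lies below a character of `p'`-degree. -/
theorem exists_pprime_above [Fintype H] {p : ℕ} (U : Subgroup H) [Fintype U] (hU : ¬ p ∣ U.index)
    (l : U →* ℂˣ) : ∃ χ : Cfsg.IrrCharacter H, ¬ p ∣ Cfsg.charDegree (χ : H → ℂ) ∧
      Cfsg.classInner (fun u : U => (χ : H → ℂ) u) (fun u : U => (l u : ℂ)) ≠ 0 := by
  classical
  have hl := Char.isCharacter_of_isIrr (Char.isIrrCharacter_linear l)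
  obtain ⟨n, hn⟩ := Char.isCharacter_eq_sum (Char.isCharacter_indFun U hl)
  have h1 := congrFun hn 1
  rw [Char.indFun_one, map_one, Units.val_one, mul_one, Finset.sum_apply,
    Finset.sum_congr rfl (fun χ _ => by
      rw [Pi.smul_apply, smul_eq_mul, Char.apply_one_eq_charDegree (Char.isCharacter_of_isIrr χ.2)])] at h1
  have h2 : U.index = ∑ χ : Cfsg.IrrCharacter H, n χ * Cfsg.charDegree (χ : H → ℂ) := by exact_mod_cast h1
  obtain ⟨χ, -, hχ⟩ : ∃ χ ∈ (Finset.univ : Finset (Cfsg.IrrCharacter H)),
      ¬ p ∣ n χ * Cfsg.charDegree (χ : H → ℂ) := by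
    by_contra hc
    push Not at hc
    exact hU (h2 ▸ Finset.dvd_sum hc)
  refine ⟨χ, fun h => hχ (h.mul_left _), ?_⟩
  rw [← Char.classInner_indFun_right U _ (Char.isClassFunction_of_isIrr χ.2), hn,
    Char.classInner_sum_right, Finset.sum_eq_single χ (fun b _ hb => by
      rw [Char.classInner_smul_right, Char.classInner_irr_ne χ.2 b.2 (fun e => hb (Subtype.ext e.symm)), mul_zero])
    (by simp), Char.classInner_smul_right, Char.classInner_irr_self χ.2, mul_one, map_natCast,
    Nat.cast_ne_zero]
  exact fun h => hχ (by rw [h, zero_mul]; exact dvd_zero p)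

/-- An element outside the derived subgroup of a subgroup of `p'`-index is seen by a character of
`p'`-degree. -/
theorem exists_pprime_moving [Fintype H] {p : ℕ} (U : Subgroup H) [Fintype U] (hU : ¬ p ∣ U.index)
    {x : U} (hx : x ∉ commutator U) :
    ∃ χ : Cfsg.IrrCharacter H, ¬ p ∣ Cfsg.charDegree (χ : H → ℂ) ∧ (χ : H → ℂ) x ≠ (χ : H → ℂ) 1 := by
  obtain ⟨l, hl⟩ := CharTools.exists_linear_ne_one hx
  obtain ⟨χ, hχd, hχ⟩ := exists_pprime_above U hU l
  refine ⟨χ, hχd, fun he => hχ ?_⟩
  set I := Cfsg.classInner (fun u : U => (χ : H → ℂ) u) (fun u : U => (l u : ℂ)) with hI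
  have h1 : I = conj (l x : ℂ) * I := by
    rw [hI]
    simp only [Cfsg.classInner, Finset.mul_sum]
    refine (Fintype.sum_equiv (Equiv.mulRight x) _ _ fun u => ?_).symm
    simp only [Equiv.coe_mulRight, map_mul, Units.val_mul, Subgroup.coe_mul,
      (Char.char_mul_of_eq_one (Char.isCharacter_of_isIrr χ.2) he (u : H)).2]
    ring
  have h2 : (1 - conj (l x : ℂ)) * I = 0 := by linear_combination h1
  refine (mul_eq_zero.1 h2).resolve_left fun h3 => hl (Units.ext ?_)
  have h4 := congrArg conj (sub_eq_zero.1 h3).symm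
  simpa using h4

/-- Let G be a finite group, p a prime and P a Sylow p-subgroup, and let N be the largest normal subgroup of G in which P has trivial centralizer (N is normal with C_N(P) = 1 and contains every normal subgroup with that property). Then the intersection of the kernels of the irreducible characters of G of degree prime to p is the normal core in G of the subgroup N·P' (P' the derived subgroup of P). In particular, when G has no nontrivial normal subgroup of order prime to p, that intersection is the normal core of P'. -/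
theorem result {G : Type*} [Group G] [Finite G] (p : ℕ) [Fact p.Prime] (P : Sylow p G) (N : Subgroup G) [N.Normal]
    (hN : N ⊓ Subgroup.centralizer ((P : Subgroup G) : Set G) = ⊥)
    (hmax : ∀ L : Subgroup G, L.Normal → L ⊓ Subgroup.centralizer ((P : Subgroup G) : Set G) = ⊥ → L ≤ N) :
    {g : G | ∀ χ : Cfsg.IrrCharacter G, ¬ p ∣ Cfsg.charDegree (χ : G → ℂ) → (χ : G → ℂ) g = (χ : G → ℂ) 1} =
      ((N ⊔ ⁅(P : Subgroup G), (P : Subgroup G)⁆).normalCore : Set G) := by
  classical
  have := Fintype.ofFinite G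
  have hp : p.Prime := Fact.out
  obtain ⟨M, hM⟩ := Block.exists_isPModular hp
  have : M.IsMaximal := hM.2.1
  have := Block.resField_charP hM
  set P' : Subgroup G := ⁅(P : Subgroup G), (P : Subgroup G)⁆ with hP'
  have hP'map : P' = (commutator ↥(P : Subgroup G)).map (P : Subgroup G).subtype := by
    rw [hP', Subgroup.map_subtype_commutator]
  apply Set.Subset.antisymm
  · -- the common kernel lies in the core
    set T := {g : G | ∀ χ : Cfsg.IrrCharacter G, ¬ p ∣ Cfsg.charDegree (χ : G → ℂ) →
      (χ : G → ℂ) g = (χ : G → ℂ) 1} with hT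
    let L : Subgroup G := ⨅ χ : {χ : Cfsg.IrrCharacter G // ¬ p ∣ Cfsg.charDegree (χ : G → ℂ)},
      Char.charKer (χ.1 : G → ℂ)
    have hL : ∀ g, g ∈ L ↔ g ∈ T := fun g => by
      simp only [L, Subgroup.mem_iInf, hT, Set.mem_ofPred_eq]
      exact ⟨fun h χ hχ => (Char.mem_charKer (Char.isCharacter_of_isIrr χ.2)).1 (h ⟨χ, hχ⟩),
        fun h χ => (Char.mem_charKer (Char.isCharacter_of_isIrr χ.1.2)).2 (h χ.1 χ.2)⟩
    have hLn : L.Normal :=
      Subgroup.normal_iInf_normal fun χ : {χ : Cfsg.IrrCharacter G // ¬ p ∣ Cfsg.charDegree (χ : G → ℂ)} =>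
        Char.charKer_normal (Char.isCharacter_of_isIrr χ.val.property)
    have hLP : L ⊓ (P : Subgroup G) ≤ P' := by
      rintro x ⟨hxL, hxP⟩
      rw [hP'map]
      refine ⟨⟨x, hxP⟩, ?_, rfl⟩
      by_contra hx
      obtain ⟨χ, hχd, hχ⟩ := exists_pprime_moving (P : Subgroup G) P.not_dvd_index hx
      exact hχ ((hL x).1 hxL χ hχd)
    have hnpc : Cfsg.HasNormalPComplement p ↥L := by
      refine Transfer.tate P L (hLP.trans ?_)
      rw [hP'map]
      exact Subgroup.map_mono (PGroupFrattini.commutator_le_frattini P.2)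
    obtain ⟨Q, R₀, hR₀n, hR₀⟩ := hnpc
    set R : Subgroup G := (Cfsg.pPrimeCore p ↥L).map L.subtype with hR
    have hRn : R.Normal := ConjAct.normal_of_characteristic_of_normal
    have hRcard : ¬ p ∣ Nat.card R := by
      rw [hR, Subgroup.card_map_of_injective L.subtype_injective]
      intro h
      exact hp.not_dvd_one ((Nat.Coprime.gcd_eq_one (Components.pPrimeCore_coprime (G := ↥L) p)) ▸
        Nat.dvd_gcd h dvd_rfl)
    have hidx : ∃ m, (Cfsg.pPrimeCore p ↥L).index ∣ p ^ m := by
      obtain ⟨m, hm⟩ := IsPGroup.iff_card.1 Q.2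
      refine ⟨m, (Subgroup.index_dvd_of_le (Components.le_pPrimeCore (N := R₀) (hN := hR₀n) ?_)).trans (dvd_of_eq ?_)⟩
      · refine (Nat.coprime_comm.1 (hp.coprime_iff_not_dvd.2 ?_))
        have := Q.not_dvd_index
        rwa [hR₀.index_eq_card] at this
      · rw [hR₀.symm.index_eq_card, hm]
    have hsup : L ≤ R ⊔ (L ⊓ (P : Subgroup G)) := by
      set W := Cfsg.pPrimeCore p ↥L ⊔ (P : Subgroup G).subgroupOf L with hW
      have hW1 : W.index = 1 := by
        obtain ⟨m, hm⟩ := hidx
        refine Nat.eq_one_of_dvd_coprimes (a := p ^ m) (b := ((P : Subgroup G).subgroupOf L).index) ?_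
          ((Subgroup.index_dvd_of_le le_sup_left).trans hm) (Subgroup.index_dvd_of_le le_sup_right)
        refine Nat.Coprime.pow_left m (hp.coprime_iff_not_dvd.2 fun h => P.not_dvd_index ?_)
        exact h.trans (Struct4.relIndex_dvd_index_of_normal_right (P : Subgroup G) L)
      rw [Subgroup.index_eq_one] at hW1
      intro x hx
      have : (⟨x, hx⟩ : ↥L) ∈ W := by rw [hW1]; exact Subgroup.mem_top _
      have h := Subgroup.mem_map_of_mem L.subtype this
      rw [hW, Subgroup.map_sup, Subgroup.subgroupOf_map_subtype, inf_comm] at h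
      exact h
    have hRC : R ⊓ Subgroup.centralizer ((P : Subgroup G) : Set G) = ⊥ := by
      rw [eq_bot_iff]
      rintro c ⟨hcR, hcC⟩
      rw [Subgroup.mem_bot]
      by_contra hc1
      set U := Subgroup.zpowers c ⊔ (P : Subgroup G) with hU
      have hUidx : ¬ p ∣ U.index := fun h =>
        P.not_dvd_index (h.trans (Subgroup.index_dvd_of_le le_sup_right))
      have hcU : c ∈ U := Subgroup.mem_sup_left (Subgroup.mem_zpowers c)
      have hnot : (⟨c, hcU⟩ : ↥U) ∉ commutator ↥U := by
        intro h
        have h1 := Subgroup.mem_map_of_mem U.subtype h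
        rw [Subgroup.map_subtype_commutator] at h1
        have h2 : ⁅U, U⁆ ≤ P' := by
          rw [Subgroup.commutator_le]
          intro a ha b hb
          rw [← SetLike.mem_coe, hU, Subgroup.coe_mul_of_left_le_normalizer_right _ _ (Subgroup.zpowers_le.2 (by
            refine Subgroup.mem_normalizer_iff.2 fun n => ?_
            constructor
            · intro hn
              rwa [← Subgroup.mem_centralizer_iff.1 hcC n hn, mul_inv_cancel_right]
            · intro hn
              have := Subgroup.mem_centralizer_iff.1 hcC _ hn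
              rw [show c * n * c⁻¹ * c = c * n by group] at this
              rwa [← mul_left_cancel this] at hn))] at ha hb
          obtain ⟨a₁, ⟨i, rfl⟩, a₂, ha₂, rfl⟩ := ha
          obtain ⟨b₁, ⟨j, rfl⟩, b₂, hb₂, rfl⟩ := hb
          have hca : Commute (c ^ i) a₂ := (Commute.zpow_left (Subgroup.mem_centralizer_iff.1 hcC a₂ ha₂).symm i)
          have hcb : Commute (c ^ j) b₂ := (Commute.zpow_left (Subgroup.mem_centralizer_iff.1 hcC b₂ hb₂).symm j)
          have hca' : Commute (c ^ j) a₂ := (Commute.zpow_left (Subgroup.mem_centralizer_iff.1 hcC a₂ ha₂).symm j)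
          have hcb' : Commute (c ^ i) b₂ := (Commute.zpow_left (Subgroup.mem_centralizer_iff.1 hcC b₂ hb₂).symm i)
          have hij : Commute (c ^ i) (c ^ j) := (Commute.refl c).zpow_zpow i j
          have e1 : c ^ i * a₂ * (c ^ j * b₂) = c ^ i * c ^ j * (a₂ * b₂) := hca'.symm.mul_mul_mul_comm _ _
          have e2 : c ^ j * b₂ * (c ^ i * a₂) = c ^ i * c ^ j * (b₂ * a₂) := by
            rw [hcb'.symm.mul_mul_mul_comm, hij.eq]
          have : ⁅c ^ i * a₂, c ^ j * b₂⁆ = ⁅a₂, b₂⁆ := by
            have hk : Commute (c ^ i * c ^ j) (a₂ * b₂ * (b₂ * a₂)⁻¹) :=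
              ((hca.mul_left hca').mul_right (hcb'.mul_left hcb)).mul_right
                ((hcb'.mul_left hcb).mul_right (hca.mul_left hca')).inv_right
            rw [commutatorElement_def, mul_assoc _ (c ^ i * a₂)⁻¹, ← mul_inv_rev, e1, e2, mul_inv_rev,
              ← mul_assoc, mul_assoc (c ^ i * c ^ j) (a₂ * b₂), hk.eq, mul_inv_cancel_right,
              commutatorElement_def]
            group
          rw [this]
          exact Subgroup.commutator_mem_commutator ha₂ hb₂
        have h3 : c ∈ (P : Subgroup G) := by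
          have := h2 h1
          rw [hP'map] at this
          exact Subgroup.map_subtype_le _ this
        refine hc1 ?_
        have h4 : c ∈ R ⊓ (P : Subgroup G) := ⟨hcR, h3⟩
        obtain ⟨m, hm⟩ := IsPGroup.iff_card.1 P.2
        rw [Subgroup.inf_eq_bot_of_coprime (by
          rw [hm]; exact (Nat.coprime_comm.1 (hp.coprime_iff_not_dvd.2 hRcard)).pow_right m), Subgroup.mem_bot] at h4
        exact h4
      obtain ⟨χ, hχd, hχ⟩ := exists_pprime_moving U hUidx hnot
      exact hχ ((hL c).1 (Subgroup.map_subtype_le _ hcR) χ hχd)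
    have hle : L ≤ (N ⊔ P').normalCore :=
      Subgroup.normal_le_normalCore.2 (hsup.trans (sup_le_sup (hmax R hRn hRC) hLP))
    exact fun g hg => hle ((hL g).2 hg)
  · -- the core lies in every kernel
    intro g hg χ hχd
    obtain ⟨_, n, ρ, hρ, rfl⟩ := χ
    dsimp only at hχd ⊢
    have := hρ
    have hn : ¬ p ∣ n := by simpa [Cfsg.charDegree, Module.finrank_fin_fun] using hχd
    have hred : ∀ y : G, ρ.character y ∈ Block.locRing M := fun y =>
      Block.integral_mem_locRing (Char.isIntegral_character ρ y)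
    -- `N` acts trivially
    have hNk : ∀ y ∈ N, ρ y = 1 := by
      let _ : MulAction ↥(P : Subgroup G) ↥N :=
        MulAction.compHom _ ((MulAut.conjNormal : G →* MulAut N).comp (P : Subgroup G).subtype)
      have hsum : (∑ y : N, ρ.character y) ≠ 0 := by
        intro h0
        have h1 := congrArg (Block.redC M) h0
        rw [Block.redC_zero, Block.redC_sum _ (f := fun y : N => ρ.character (y : G)) (fun y _ => hred y),
          Block.sum_eq_sum_fixed (p := p) P.2 (fun y : N => Block.redC M (ρ.character y)) (fun u y => by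
            show Block.redC M (ρ.character ((MulAut.conjNormal (u : G) y : N) : G)) = _
            rw [MulAut.conjNormal_apply, Representation.char_conj])] at h1
        rw [Finset.sum_eq_single_of_mem (1 : N) (by
            simp only [Finset.mem_filter, Finset.mem_univ, true_and]
            intro u
            show MulAut.conjNormal (u : G) (1 : N) = 1
            rw [map_one]) (fun y hy hy1 => absurd (Subtype.ext (Subgroup.mem_bot.1 (hN ▸
              Subgroup.mem_inf.2 ⟨y.2, Subgroup.mem_centralizer_iff.2 fun u hu => ?_⟩))) hy1)] at h1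
        · rw [Subgroup.coe_one, Representation.char_one, Module.finrank_fin_fun,
            Block.redC_natCast_eq_zero_iff hM] at h1
          exact hn h1
        · have h2 : MulAut.conjNormal u y = y := (Finset.mem_filter.1 hy).2 ⟨u, hu⟩
          have h3 := congrArg Subtype.val h2
          rw [MulAut.conjNormal_apply] at h3
          exact mul_inv_eq_iff_eq_mul.1 h3
      obtain ⟨v, hv, hfix⟩ := exists_fixed ρ N hsum
      exact apply_eq_one_of_fixed ρ N hv hfix
    -- `P'` fixes a vector
    have hres := Char.isCharacter_restrict (Char.isCharacter_character ρ) (P : Subgroup G)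
    obtain ⟨c, hc⟩ := Char.isCharacter_eq_sum hres
    obtain ⟨ψ, hcψ, hψ1⟩ : ∃ ψ : Cfsg.IrrCharacter ↥(P : Subgroup G), c ψ ≠ 0 ∧ (ψ : ↥(P : Subgroup G) → ℂ) 1 = 1 := by
      by_contra hcon
      push Not at hcon
      have h1 := congrFun hc 1
      simp only [Subgroup.coe_one, Representation.char_one, Module.finrank_fin_fun, Finset.sum_apply,
        Pi.smul_apply, smul_eq_mul] at h1
      rw [Finset.sum_congr rfl (fun ψ _ => by
        rw [Char.apply_one_eq_charDegree (Char.isCharacter_of_isIrr ψ.2)])] at h1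
      have h2 : n = ∑ ψ : Cfsg.IrrCharacter ↥(P : Subgroup G), c ψ * Cfsg.charDegree (ψ : ↥(P : Subgroup G) → ℂ) := by
        exact_mod_cast h1
      refine hn (h2 ▸ Finset.dvd_sum fun ψ _ => ?_)
      by_cases h0 : c ψ = 0
      · rw [h0, zero_mul]; exact dvd_zero p
      refine Dvd.dvd.mul_left ?_ _
      have hψd := Char.apply_one_eq_charDegree (Char.isCharacter_of_isIrr ψ.2)
      have hdvd := Char.irr_degree_dvd_card ψ.2 hψd
      obtain ⟨m, hm⟩ := IsPGroup.iff_card.1 P.2
      rw [hm] at hdvd
      obtain ⟨j, -, hj⟩ := (Nat.dvd_prime_pow hp).1 hdvd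
      rw [hj]
      refine dvd_pow_self p fun hj0 => hcon ψ h0 ?_
      rw [hψd, hj, hj0, pow_zero, Nat.cast_one]
    obtain ⟨l, hl⟩ := Char.exists_hom_of_degree_one (Char.isCharacter_of_isIrr ψ.2) hψ1
    have hsum : (∑ y : P', ρ.character y) ≠ 0 := by
      have hPP : P' ≤ (P : Subgroup G) := hP'map ▸ Subgroup.map_subtype_le _
      let D : Subgroup ↥(P : Subgroup G) := P'.subgroupOf (P : Subgroup G)
      have hD : ∀ ψ' : Cfsg.IrrCharacter ↥(P : Subgroup G),
          ∃ a : ℕ, (∑ y : D, (ψ' : ↥(P : Subgroup G) → ℂ) y) = a * Nat.card D := by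
        intro ψ'
        obtain ⟨a, ha⟩ := Char.classInner_natCast (G := D)
          (Char.isCharacter_restrict (Char.isCharacter_of_isIrr ψ'.2) D) Char.isCharacter_one
        refine ⟨a, ?_⟩
        rw [← ha, Cfsg.classInner, mul_comm, ← mul_assoc, mul_inv_cancel₀ (Char.card_ne_zero_complex D), one_mul]
        simp
      choose a ha using hD
      have hψsum : (∑ y : D, (ψ : ↥(P : Subgroup G) → ℂ) y) = Nat.card D := by
        rw [Finset.sum_congr rfl (g := fun _ => (1 : ℂ)) fun y _ => ?_, Finset.sum_const,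
          Finset.card_univ, Nat.card_eq_fintype_card, nsmul_eq_mul, mul_one]
        have hy : (y : ↥(P : Subgroup G)) ∈ commutator ↥(P : Subgroup G) := by
          obtain ⟨z, hz, hzy⟩ := hP'map.le (Subgroup.mem_subgroupOf.1 y.2)
          rwa [← Subtype.ext hzy]
        rw [hl, MonoidHom.mem_ker.1 (Abelianization.commutator_subset_ker l hy), Units.val_one]
      have e : (∑ y : P', ρ.character y) = ((∑ ψ', c ψ' * a ψ' : ℕ) : ℂ) * Nat.card D := by
        have hy : ∀ y : D, ρ.character ((y : ↥(P : Subgroup G)) : G) =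
            ∑ ψ', (c ψ' : ℂ) * (ψ' : ↥(P : Subgroup G) → ℂ) y := fun y => by
          have := congrFun hc y
          simpa [Finset.sum_apply] using this
        rw [← (Subgroup.subgroupOfEquivOfLe hPP).toEquiv.sum_comp]
        simp only [MulEquiv.toEquiv_eq_coe, MulEquiv.coe_toEquiv, Subgroup.subgroupOfEquivOfLe_apply_coe]
        rw [Finset.sum_congr rfl (fun y _ => hy y), Finset.sum_comm, Nat.cast_sum, Finset.sum_mul]
        refine Finset.sum_congr rfl fun ψ' _ => ?_
        rw [← Finset.mul_sum, ha ψ', Nat.cast_mul, mul_assoc]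
      rw [e]
      refine mul_ne_zero (Nat.cast_ne_zero.2 ?_) (Char.card_ne_zero_complex D)
      refine fun h0 => hcψ ((mul_eq_zero.1 ((Finset.sum_eq_zero_iff.1 h0) ψ (Finset.mem_univ _))).resolve_right ?_)
      intro ha0
      have := ha ψ
      rw [hψsum, ha0, Nat.cast_zero, zero_mul] at this
      exact Char.card_ne_zero_complex D this
    obtain ⟨v, hv, hfix⟩ := exists_fixed ρ P' hsum
    have hall : N ⊔ P' ≤ (
      { carrier := {y | ρ y v = v}
        one_mem' := by simp
        mul_mem' := fun {a b} ha hb => by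
          simp only [Set.mem_ofPred_eq] at ha hb ⊢
          rw [map_mul, Module.End.mul_apply, hb, ha]
        inv_mem' := fun {a} ha => by
          simp only [Set.mem_ofPred_eq] at ha ⊢
          conv_lhs => rw [← ha]
          rw [← Module.End.mul_apply, ← map_mul, inv_mul_cancel, map_one, Module.End.one_apply] } : Subgroup G) :=
      sup_le (fun y hy => show ρ y v = v by rw [hNk y hy]; rfl) hfix
    have h1 := apply_eq_one_of_fixed ρ (N ⊔ P').normalCore hv
      (fun k hk => hall (Subgroup.normalCore_le _ hk)) g hg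
    rw [Representation.char_one]
    exact (Char.character_eq_degree_iff ρ g).2 h1


end Cfsg.Agent.S4591
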