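import Cfsg.Statements.S4593
import Cfsg.Agent.Lib.Involution.ZStarElement
import Cfsg.Agent.Lib.Hall.Basic

set_option autoImplicit false
open Cfsg

namespace Cfsg.Agent.S4593

open Cfsg.Agent.Lib.Involution
open Subgroup
open scoped commutatorElement

universe u

theorem main {G : Type u} [Group G] [Finite G] (hcore : Cfsg.pPrimeCore 2 G = ⊥) (P : Sylow 2 G)
    (hab : IsMulCommutative (P : Subgroup G)) (α : MulAut G) (h2 : ∃ j : ℕ, orderOf α = 2 ^ j)
    (hfix : ∀ x ∈ (P : Subgroup G), α x = x) :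
    ∃ g : G, ∀ x : G, α x = g * x * g⁻¹ := by
  classical
  haveI : Fact (Nat.Prime 2) := ⟨Nat.prime_two⟩
  obtain ⟨j, hj⟩ := h2
  haveI hfinA : Finite (MulAut G) := Finite.of_injective (fun e : MulAut G => (e : G → G)) DFunLike.coe_injective
  set φ : zpowers α →* MulAut G := (zpowers α).subtype with hφ
  have hfixA : ∀ a : zpowers α, ∀ x ∈ (P : Subgroup G), φ a x = x := by
    intro a
    have h : zpowers α ≤ fixingSubgroup (MulAut G) ((P : Subgroup G) : Set G) :=
      zpowers_le.mpr ((mem_fixingSubgroup_iff _).mpr fun x hx => hfix x hx)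
    exact fun x hx => (mem_fixingSubgroup_iff _).mp (h a.2) x hx
  haveI : Finite (G ⋊[φ] zpowers α) :=
    Finite.of_equiv (G × zpowers α) SemidirectProduct.equivProd.symm
  let T : Subgroup (G ⋊[φ] zpowers α) :=
    { carrier := {v | v.left ∈ (P : Subgroup G)}
      one_mem' := by simpa using one_mem (P : Subgroup G)
      mul_mem' := fun {v w} hv hw => by
        simp only [Set.mem_setOf_eq, SemidirectProduct.mul_left] at hv hw ⊢
        rw [hfixA _ _ hw]; exact mul_mem hv hw
      inv_mem' := fun {v} hv => by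
        simp only [Set.mem_setOf_eq, SemidirectProduct.inv_left] at hv ⊢
        rw [hfixA _ _ (inv_mem hv)]; exact inv_mem hv }
  have hmemT : ∀ v, v ∈ T ↔ v.left ∈ (P : Subgroup G) := fun v => Iff.rfl
  have hTcomm : ∀ v ∈ T, ∀ w ∈ T, v * w = w * v := by
    intro v hv w hw
    refine SemidirectProduct.ext ?_ ?_
    · simp only [SemidirectProduct.mul_left]
      rw [hfixA _ _ hw, hfixA _ _ hv]
      exact congrArg Subtype.val (hab.is_comm.comm ⟨_, hv⟩ ⟨_, hw⟩)
    · simp only [SemidirectProduct.mul_right]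
      exact mul_comm' v.right w.right
  have hcardX : Nat.card (G ⋊[φ] zpowers α) = Nat.card G * 2 ^ j := by
    rw [Nat.card_congr SemidirectProduct.equivProd, Nat.card_prod, Nat.card_zpowers, hj]
  have hcardT : Nat.card T = Nat.card (P : Subgroup G) * 2 ^ j := by
    rw [← hj, ← Nat.card_zpowers, ← Nat.card_prod]
    exact Nat.card_congr
      { toFun := fun v => (⟨v.1.left, v.2⟩, v.1.right)
        invFun := fun p => ⟨⟨p.1.1, p.2⟩, p.1.2⟩
        left_inv := fun v => rfl
        right_inv := fun p => rfl }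
  have hTidx : T.index = (P : Subgroup G).index := by
    have h := T.card_mul_index
    rw [hcardT, hcardX, ← (P : Subgroup G).card_mul_index, mul_right_comm,
      mul_assoc (Nat.card (P : Subgroup G)), mul_assoc (Nat.card (P : Subgroup G))] at h
    have h' := Nat.eq_of_mul_eq_mul_left Nat.card_pos h
    rw [mul_comm] at h'
    exact Nat.eq_of_mul_eq_mul_left (pow_pos two_pos j) (by linarith)
  obtain ⟨k, hk⟩ := IsPGroup.iff_card.mp P.2
  have hTp : IsPGroup 2 T := IsPGroup.of_card (n := k + j) (by rw [hcardT, hk, pow_add])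
  have hodd : ¬ 2 ∣ T.index := by rw [hTidx]; exact P.not_dvd_index
  set TS : Sylow 2 (G ⋊[φ] zpowers α) := hTp.toSylow hodd with hTS
  have hTScoe : (TS : Subgroup (G ⋊[φ] zpowers α)) = T := rfl
  haveI hTSab : IsMulCommutative (TS : Subgroup (G ⋊[φ] zpowers α)) :=
    ⟨⟨fun a b => Subtype.ext (hTcomm _ a.2 _ b.2)⟩⟩
  set N := normalizer (T : Set (G ⋊[φ] zpowers α)) with hN
  set a₀ : G ⋊[φ] zpowers α := SemidirectProduct.inr ⟨α, mem_zpowers α⟩ with ha₀
  have ha₀T : a₀ ∈ T := by rw [hmemT, ha₀, SemidirectProduct.left_inr]; exact one_mem _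
  set K := T.subgroupOf N with hKdef
  letI : CommGroup T := { (inferInstance : Group T) with
    mul_comm := fun a b => Subtype.ext (hTcomm _ a.2 _ b.2) }
  let f : N → T := fun m => ⟨(m : G ⋊[φ] zpowers α) * a₀ * (m : G ⋊[φ] zpowers α)⁻¹,
    (mem_normalizer_iff.mp m.2 a₀).mp ha₀T⟩
  haveI : Fintype (N ⧸ K) := Fintype.ofFinite _
  let F : N ⧸ K → T := fun q => f q.out
  have hFmk : ∀ m : N, F (QuotientGroup.mk m) = f m := by
    intro m
    obtain ⟨t, ht⟩ := QuotientGroup.mk_out_eq_mul K m
    have htT : (t : N).1 ∈ T := mem_subgroupOf.mp t.2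
    apply Subtype.ext
    show ((QuotientGroup.mk m : N ⧸ K).out : G ⋊[φ] zpowers α) * a₀ * _ = _
    rw [ht, Subgroup.coe_mul, mul_assoc (m : G ⋊[φ] zpowers α), hTcomm _ htT _ ha₀T, mul_inv_rev]
    simp only [f, mul_assoc, mul_inv_cancel_left]
  let β : T := ∏ q : N ⧸ K, F q
  have hβfix : ∀ m : N, (m : G ⋊[φ] zpowers α) * (β : G ⋊[φ] zpowers α) * (m : G ⋊[φ] zpowers α)⁻¹
      = (β : G ⋊[φ] zpowers α) := by
    intro m
    let c : T →* T :=
      { toFun := fun t => ⟨(m : G ⋊[φ] zpowers α) * t * (m : G ⋊[φ] zpowers α)⁻¹,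
          (mem_normalizer_iff.mp m.2 _).mp t.2⟩
        map_one' := Subtype.ext (by simp)
        map_mul' := fun a b => Subtype.ext (conj_mul).symm }
    have hc : c β = β := by
      show c (∏ q : N ⧸ K, F q) = _
      rw [map_prod]
      have hcF : ∀ q : N ⧸ K, c (F q) = F (m • q) := by
        intro q
        obtain ⟨r, rfl⟩ := QuotientGroup.mk_surjective q
        rw [MulAction.Quotient.smul_mk, hFmk, hFmk]
        exact Subtype.ext (by simp [c, f, mul_assoc])
      simp only [hcF]
      exact Equiv.prod_comp (MulAction.toPerm m) F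
    exact congrArg Subtype.val hc
  letI : CommGroup (zpowers α) := { (inferInstance : Group (zpowers α)) with mul_comm := mul_comm' }
  let π : T →* zpowers α := SemidirectProduct.rightHom.comp T.subtype
  have hπF : ∀ q : N ⧸ K, π (F q) = ⟨α, mem_zpowers α⟩ := by
    intro q
    show SemidirectProduct.rightHom (((q.out : N) : G ⋊[φ] zpowers α) * a₀ * _) = _
    rw [map_mul, map_mul, map_inv, ha₀, SemidirectProduct.rightHom_inr, mul_comm' _ (⟨α, _⟩ : zpowers α),
      mul_inv_cancel_right]
  have hπβ : (β : G ⋊[φ] zpowers α).right = (⟨α, mem_zpowers α⟩ : zpowers α) ^ Fintype.card (N ⧸ K) := by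
    show π β = _
    simp only [β, map_prod, hπF, Finset.prod_const, Finset.card_univ]
  have hqodd : Odd (Fintype.card (N ⧸ K)) := by
    rw [← Nat.card_eq_fintype_card, Nat.odd_iff, ← Nat.two_dvd_ne_zero]
    intro h
    exact hodd (h.trans (Subgroup.relIndex_dvd_index_of_le le_normalizer))
  have hFI : FixedIn (TS : Subgroup (G ⋊[φ] zpowers α)) (β : G ⋊[φ] zpowers α) := by
    refine ⟨β.2, fun g hg => ?_⟩
    obtain ⟨m, hm, he⟩ := TS.conj_eq_normalizer_conj_of_mem (β : G ⋊[φ] zpowers α) g⁻¹
      β.2 (by rw [inv_inv]; exact hg)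
    rw [inv_inv] at he
    rw [he]
    simpa using hβfix ⟨m⁻¹, inv_mem hm⟩
  have hbot : oddCore (G ⋊[φ] zpowers α) = ⊥ := by
    rw [oddCore_eq_bot_iff]
    intro M hM hMo
    rw [eq_bot_iff]
    intro v hv
    have hr : v.right = 1 := by
      have hd : orderOf v.right ∣ 2 ^ j := by
        have h := _root_.orderOf_dvd_natCard v.right
        rwa [Nat.card_zpowers, hj] at h
      have hd2 : orderOf v.right ∣ Nat.card M :=
        (orderOf_map_dvd SemidirectProduct.rightHom v).trans
          ((Subgroup.orderOf_mk v hv).symm.dvd.trans (orderOf_dvd_natCard _))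
      exact orderOf_eq_one_iff.mp (Nat.eq_one_of_dvd_coprimes
        ((Nat.coprime_two_left.mpr hMo).pow_left j) hd hd2)
    have hv' : v = SemidirectProduct.inl v.left := by ext <;> simp [hr]
    have hle : M.comap SemidirectProduct.inl ≤ Cfsg.pPrimeCore 2 G := by
      haveI := hM
      refine Cfsg.Agent.Lib.Hall.le_pPrimeCore (Nat.coprime_two_right.mpr (hMo.of_dvd_nat ?_))
      exact Subgroup.card_dvd_of_injective (SemidirectProduct.inl.subgroupComap M)
        (fun a b h => Subtype.ext (SemidirectProduct.inl_injective (congrArg Subtype.val h)))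
    have hvl : v.left ∈ M.comap SemidirectProduct.inl := by rw [mem_comap, ← hv']; exact hv
    rw [hcore] at hle
    rw [mem_bot, hv', mem_bot.mp (hle hvl), map_one]
  have hcent : ∀ g : G, (β : G ⋊[φ] zpowers α).left * φ ((β : G ⋊[φ] zpowers α).right) g
      * (β : G ⋊[φ] zpowers α).left⁻¹ = g := by
    intro g
    have h := zstar_element TS hFI (SemidirectProduct.inl g)
    rw [hbot, mem_bot, mul_inv_eq_one, mul_inv_eq_iff_eq_mul] at h
    have h' := congrArg SemidirectProduct.left h
    simp only [SemidirectProduct.mul_left, SemidirectProduct.left_inl, SemidirectProduct.right_inl,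
      map_one, MulAut.one_apply] at h'
    rw [h', mul_inv_cancel_right]
  have hmem : α ^ Fintype.card (N ⧸ K) ∈ (MulAut.conj : G →* MulAut G).range := by
    refine ⟨(β : G ⋊[φ] zpowers α).left⁻¹, MulEquiv.ext fun g => ?_⟩
    have h := hcent g
    rw [hπβ, map_pow] at h
    simp only [hφ, Subgroup.coe_subtype] at h
    rw [MulAut.conj_apply, inv_inv]
    conv_lhs => rw [← h]
    group
  obtain ⟨m, hm⟩ := exists_pow_eq_self_of_coprime (x := α) (n := Fintype.card (N ⧸ K))
    (by rw [hj]; exact (Nat.coprime_two_right.mpr hqodd).pow_right j)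
  obtain ⟨g, hg⟩ := pow_mem hmem m
  exact ⟨g, fun x => by rw [← hm, ← hg, MulAut.conj_apply]⟩

/-- Let G be a finite group with trivial centre and no nontrivial normal subgroup of odd order, whose Sylow 2-subgroups are abelian, and let P be a Sylow 2-subgroup. Every automorphism of G of 2-power order that fixes P elementwise is inner. -/
theorem result {G : Type*} [Group G] [Finite G] (hZ : Subgroup.center G = ⊥) (hcore : Cfsg.pPrimeCore 2 G = ⊥) (P : Sylow 2 G) (hab : IsMulCommutative (P : Subgroup G))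
    (α : MulAut G) (h2 : ∃ j : ℕ, orderOf α = 2 ^ j) (hfix : ∀ x ∈ (P : Subgroup G), α x = x) :
    ∃ g : G, ∀ x : G, α x = g * x * g⁻¹ := by
  exact main hcore P hab α h2 hfix

end Cfsg.Agent.S4593
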