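import Cfsg.Prelude
import Cfsg.Agent.Lib.Coprime.Action

set_option autoImplicit false

namespace Cfsg.Agent.S4601

open Subgroup
open scoped Pointwise
open Cfsg.Agent.Lib.Coprime

variable {G : Type*} [Group G] [Finite G]

private theorem sylow_card {p : ℕ} [Fact p.Prime] (P : Sylow p G) :
    Nat.card (P : Subgroup G) = p ^ (Nat.card G).factorization p :=
  Sylow.card_eq_multiplicity P

/-- A Sylow subgroup of the group meets a normal subgroup in a Sylow subgroup of it. -/
private theorem sylow_inter_normal {p : ℕ} [Fact p.Prime] (P : Sylow p G) (N : Subgroup G)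
    [N.Normal] : ¬ p ∣ ((P : Subgroup G).subgroupOf N).index := by
  intro hd
  have hPN : (P : Subgroup G) ≤ normalizer (N : Set G) := by
    rw [normalizer_eq_top_iff.mpr (inferInstance : N.Normal)]; exact le_top
  have h1 := card_sup_mul_card_inf_of_le_normalizer hPN
  have h2 := ((P : Subgroup G).subgroupOf N).index_mul_card
  have h3 : Nat.card ((P : Subgroup G).subgroupOf N) = Nat.card ((P : Subgroup G) ⊓ N : Subgroup G) := by
    rw [← inf_subgroupOf_right, card_subgroupOf inf_le_right]
  rw [h3] at h2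
  rw [← h2, ← mul_assoc] at h1
  have h4 := mul_right_cancel₀ Nat.card_pos.ne' h1
  have h5 := card_subgroup_dvd_card ((P : Subgroup G) ⊔ N)
  rw [h4, ← (P : Subgroup G).card_mul_index] at h5
  exact P.not_dvd_index (hd.trans ((Nat.mul_dvd_mul_iff_left Nat.card_pos).mp h5))

/-- The step through one normal subgroup. -/
private theorem step {p q : ℕ} [Fact p.Prime] [Fact q.Prime] (hpq : p ≠ q)
    (h : ∀ y : G, (∃ k : ℕ, orderOf y = q ^ k) → ¬ p ∣ (centralizer ({y} : Set G)).index)
    (N : Subgroup G) [N.Normal] (hN : ¬ p ∣ Nat.card N ∨ ¬ q ∣ Nat.card N)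
    (P : Sylow p G) (Q : Sylow q G)
    (hPQ : (P : Subgroup G) ≤ normalizer ((N ⊔ (Q : Subgroup G) : Subgroup G) : Set G)) :
    ∃ (P : Sylow p G) (Q : Sylow q G),
      (P : Subgroup G) ≤ normalizer ((Q : Subgroup G) : Set G) := by
  have hp : p.Prime := Fact.out
  have hq : q.Prime := Fact.out
  have hQN : (Q : Subgroup G) ≤ normalizer (N : Set G) := by
    rw [normalizer_eq_top_iff.mpr (inferInstance : N.Normal)]; exact le_top
  have hprod := card_sup_mul_card_inf_of_le_normalizer hQN
  rcases hN with hpN | hqN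
  · have hX : ¬ p ∣ Nat.card (N ⊔ (Q : Subgroup G) : Subgroup G) := by
      intro hd
      have h2 : p ∣ Nat.card (Q : Subgroup G) * Nat.card N :=
        hprod ▸ (by rw [sup_comm]; exact dvd_mul_of_dvd_left hd _)
      rcases hp.dvd_mul.mp h2 with h3 | h3
      · obtain ⟨n, hn⟩ := IsPGroup.iff_card.mp Q.isPGroup'
        exact hpq ((Nat.prime_dvd_prime_iff_eq hp hq).mp (hp.dvd_of_dvd_pow (hn ▸ h3)))
      · exact hpN h3
    have hcop : (Nat.card (P : Subgroup G)).Coprime
        (Nat.card (N ⊔ (Q : Subgroup G) : Subgroup G)) := by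
      rw [sylow_card P]; exact (hp.coprime_iff_not_dvd.mpr hX).pow_left _
    have hPsol : Group.IsSolvable (P : Subgroup G) :=
      haveI := P.isPGroup'.isNilpotent
      inferInstance
    obtain ⟨R, hR⟩ := exists_invariant_sylow hPQ hcop (Or.inl hPsol) q
    have hcard : Nat.card ((R : Subgroup _).map (N ⊔ (Q : Subgroup G)).subtype : Subgroup G) =
        q ^ (Nat.card G).factorization q := by
      rw [Nat.card_congr (equivMapOfInjective _ _ (subtype_injective _)).toEquiv.symm,
        Sylow.card_eq_multiplicity R]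
      congr 1
      refine le_antisymm ?_ ?_
      · exact Nat.factorization_le_iff_dvd Nat.card_pos.ne' Nat.card_pos.ne' |>.mpr
          (card_subgroup_dvd_card _) q
      · have h4 : q ^ (Nat.card G).factorization q ∣ Nat.card (N ⊔ (Q : Subgroup G) : Subgroup G) :=
          sylow_card Q ▸ card_dvd_of_le le_sup_right
        exact (hq.pow_dvd_iff_le_factorization Nat.card_pos.ne').mp h4
    exact ⟨P, Sylow.ofCard _ hcard, hR⟩
  · have hcop : (Nat.card (Q : Subgroup G)).Coprime (Nat.card N) := by
      rw [sylow_card Q]; exact (hq.coprime_iff_not_dvd.mpr hqN).pow_left _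
    have hQsol : Group.IsSolvable (Q : Subgroup G) :=
      haveI := Q.isPGroup'.isNilpotent
      inferInstance
    obtain ⟨P₀, hP₀⟩ := exists_invariant_sylow hQN hcop (Or.inl hQsol) p
    have hcen : ∀ y ∈ (Q : Subgroup G), ∀ x ∈ ((P₀ : Subgroup N).map N.subtype : Subgroup G),
        y * x = x * y := by
      intro y hy
      obtain ⟨k, hk⟩ := IsPGroup.iff_orderOf.mp Q.isPGroup' ⟨y, hy⟩
      rw [← orderOf_coe] at hk
      have hC := h y ⟨k, hk⟩
      obtain ⟨S⟩ : Nonempty (Sylow p (centralizer ({y} : Set G))) := inferInstance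
      have hScard : Nat.card ((S : Subgroup _).map (centralizer ({y} : Set G)).subtype : Subgroup G) =
          p ^ (Nat.card G).factorization p := by
        rw [Nat.card_congr (equivMapOfInjective _ _ (subtype_injective _)).toEquiv.symm,
          Sylow.card_eq_multiplicity S]
        congr 1
        have e := (centralizer ({y} : Set G)).card_mul_index
        have e2 := congrArg (fun n => n.factorization p) e
        simp only [Nat.factorization_mul Nat.card_pos.ne' index_ne_zero_of_finite,
          Finsupp.add_apply, Nat.factorization_eq_zero_of_not_dvd hC] at e2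
        simpa using e2
      let Py : Sylow p G := Sylow.ofCard _ hScard
      have hPyp : IsPGroup p ((Py : Subgroup G).subgroupOf N) := Py.isPGroup'.comap_subtype
      let T : Sylow p N := hPyp.toSylow (sylow_inter_normal Py N)
      have hTy : ∀ x ∈ ((T : Subgroup N).map N.subtype : Subgroup G), y * x = x * y := by
        rintro _ ⟨n, hn, rfl⟩
        have hn' : (n : G) ∈ (Py : Subgroup G) := hn
        obtain ⟨c, -, hc⟩ := Subgroup.mem_map.mp hn'
        have := mem_centralizer_singleton_iff.mp c.2
        simp only [coe_subtype] at hc ⊢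
        rw [← hc]; exact this.symm
      have hA : zpowers y ≤ (Q : Subgroup G) := zpowers_le.mpr hy
      have hAsol : Group.IsSolvable (zpowers y) := isSolvable_of_le hA hQsol
      have hTinv : zpowers y ≤
          normalizer ((((T : Subgroup N).map N.subtype : Subgroup G)) : Set G) := by
        rw [zpowers_le, mem_normalizer_iff]
        intro x
        constructor
        · intro hx; rw [hTy x hx, mul_inv_cancel_right]; exact hx
        · intro hx
          have h5 := hTy _ hx
          have h6 : x = y * x * y⁻¹ := by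
            have h7 : y⁻¹ * (y * (y * x * y⁻¹)) = y⁻¹ * (y * x * y⁻¹ * y) := congrArg (y⁻¹ * ·) h5
            simpa [mul_assoc] using h7.symm
          rwa [h6]
      obtain ⟨c, hc, hcT⟩ := exists_centralizer_conj_sylow (hA.trans hQN)
        (hcop.coprime_dvd_left (card_dvd_of_le hA)) (Or.inl hAsol) T P₀ hTinv (hA.trans hP₀)
      rintro _ ⟨n, hn, rfl⟩
      have hn2 : n ∈ MulAut.conj c • (T : Subgroup N) := by
        rw [← hcT] at hn
        exact hn
      obtain ⟨t, ht, rfl⟩ := hn2
      have hty := hTy _ ⟨t, ht, rfl⟩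
      have hcy : y * (c : G) = (c : G) * y := mem_centralizer_iff.mp hc y (mem_zpowers y)
      simp only [coe_subtype] at hty ⊢
      show y * ((c * t * c⁻¹ : N) : G) = ((c * t * c⁻¹ : N) : G) * y
      have c1 : Commute y (c : G) := hcy
      have c2 : Commute y (t : G) := hty
      push_cast
      exact (((c1.mul_right c2).mul_right c1.inv_right)).eq
    have hP₀K : ((P₀ : Subgroup N).map N.subtype : Subgroup G) ≤
        normalizer ((Q : Subgroup G) : Set G) := by
      intro x hx
      rw [mem_normalizer_iff]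
      intro y
      constructor
      · intro hy
        rwa [← hcen y hy x hx, mul_inv_cancel_right]
      · intro hy
        have h5 := hcen _ hy x hx
        have h6 : y = x * y * x⁻¹ := by
          have h7 : x⁻¹ * (x * y * x⁻¹ * x) = x⁻¹ * (x * (x * y * x⁻¹)) := congrArg (x⁻¹ * ·) h5
          simpa [mul_assoc] using h7
        rwa [h6]
    let K := normalizer ((Q : Subgroup G) : Set G)
    have hPle : (P : Subgroup G) ≤ N ⊔ K := by
      intro g hg
      have hQX : (Q : Subgroup G) ≤ N ⊔ (Q : Subgroup G) := le_sup_right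
      obtain ⟨k, hk, hkg⟩ := exists_mem_conj_eq_of_sylow (Q.subtype hQX)
        (U := MulAut.conj g • (Q : Subgroup G))
        (by
          rw [← conj_smul_eq_self (hPQ hg)]
          exact pointwise_smul_le_pointwise_smul_iff.mpr hQX)
        (by rw [card_conj_smul, Sylow.coe_subtype, card_subgroupOf hQX])
      rw [Sylow.coe_subtype, map_subgroupOf_eq_of_le hQX] at hkg
      have hkK : k⁻¹ * g ∈ K := mem_normalizer_of_conj_smul_eq (by
        rw [conj_smul_mul, ← hkg, conj_inv_smul_smul])
      have hk2 : k ∈ N ⊔ K := (sup_le_sup_left (le_normalizer) N) hk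
      have := (N ⊔ K).mul_mem hk2 (mem_sup_right hkK)
      rwa [mul_inv_cancel_left] at this
    have hKN : K ≤ normalizer (N : Set G) := by
      rw [normalizer_eq_top_iff.mpr (inferInstance : N.Normal)]; exact le_top
    have hKprod := card_sup_mul_card_inf_of_le_normalizer hKN
    have hfull : p ^ (Nat.card G).factorization p ∣ Nat.card K := by
      rw [hp.pow_dvd_iff_le_factorization Nat.card_pos.ne']
      have e := congrArg (fun n => n.factorization p) hKprod
      simp only [Nat.factorization_mul Nat.card_pos.ne' Nat.card_pos.ne', Finsupp.add_apply] at e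
      have hu : (Nat.card G).factorization p ≤ (Nat.card (K ⊔ N : Subgroup G)).factorization p :=
        (hp.pow_dvd_iff_le_factorization Nat.card_pos.ne').mp
          (sylow_card P ▸ card_dvd_of_le (sup_comm K N ▸ hPle))
      have hi : (Nat.card N).factorization p ≤ (Nat.card (K ⊓ N : Subgroup G)).factorization p := by
        refine (hp.pow_dvd_iff_le_factorization Nat.card_pos.ne').mp ?_
        rw [← Sylow.card_eq_multiplicity P₀,
          Nat.card_congr (equivMapOfInjective _ _ (subtype_injective _)).toEquiv]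
        exact card_dvd_of_le (le_inf hP₀K (map_subtype_le _))
      omega
    obtain ⟨P', hP'⟩ := Sylow.exists_subgroup_card_pow_prime p hfull
    refine ⟨Sylow.ofCard (P'.map K.subtype) ?_, Q, map_subtype_le P'⟩
    rw [Nat.card_congr (equivMapOfInjective _ _ (subtype_injective _)).toEquiv.symm, hP']

/-- The hypothesis passes to quotients. -/
private theorem quotient_hyp {p q : ℕ} [Fact q.Prime]
    (h : ∀ y : G, (∃ k : ℕ, orderOf y = q ^ k) → ¬ p ∣ (centralizer ({y} : Set G)).index)
    (N : Subgroup G) [N.Normal] :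
    ∀ y : G ⧸ N, (∃ k : ℕ, orderOf y = q ^ k) → ¬ p ∣ (centralizer ({y} : Set (G ⧸ N))).index := by
  have hq : q.Prime := Fact.out
  rintro y' ⟨k, hk⟩ hd
  obtain ⟨y0, rfl⟩ := QuotientGroup.mk'_surjective N y'
  obtain ⟨a, m, hm, ham⟩ :=
    Nat.exists_eq_pow_mul_and_not_dvd (orderOf_pos y0).ne' q hq.ne_one
  have hcop : m.Coprime (orderOf (QuotientGroup.mk' N y0)) := by
    rw [hk]; exact ((hq.coprime_iff_not_dvd.mpr hm).symm).pow_right _
  obtain ⟨j, hj⟩ := exists_pow_eq_self_of_coprime hcop
  let y := (y0 ^ m) ^ j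
  have hy : QuotientGroup.mk' N y = QuotientGroup.mk' N y0 := by
    simp only [y, map_pow]; exact hj
  have hord : orderOf y ∣ q ^ a := by
    refine orderOf_dvd_of_pow_eq_one ?_
    simp only [y, ← pow_mul]
    rw [mul_assoc, mul_comm j, ← mul_assoc, mul_comm m, ← ham, pow_mul, pow_orderOf_eq_one,
      one_pow]
  obtain ⟨i, -, hi⟩ := (Nat.dvd_prime_pow hq).mp hord
  refine h y ⟨i, hi⟩ (hd.trans ((index_dvd_of_le ?_).trans
    ((centralizer ({y} : Set G)).index_map_dvd (QuotientGroup.mk'_surjective N))))
  rintro _ ⟨c, hc, rfl⟩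
  rw [mem_centralizer_singleton_iff, ← hy, ← map_mul, ← map_mul,
    mem_centralizer_singleton_iff.mp hc]

/-- Let p and q be primes and G a finite group that is p-solvable or q-solvable, in which no q-element has conjugacy class size divisible by p. Then some Sylow p-subgroup of G normalizes some Sylow q-subgroup of G. -/
theorem result {G : Type*} [Group G] [Finite G] (p q : ℕ) [Fact p.Prime] [Fact q.Prime] (hsolv : Cfsg.IsPSolvable p G ∨ Cfsg.IsPSolvable q G)
    (h : ∀ y : G, (∃ k : ℕ, orderOf y = q ^ k) → ¬ p ∣ (Subgroup.centralizer ({y} : Set G)).index) :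
    ∃ (P : Sylow p G) (Q : Sylow q G), (P : Subgroup G) ≤ Subgroup.normalizer ((Q : Subgroup G) : Set G) := by
  have hp : p.Prime := Fact.out
  have hq : q.Prime := Fact.out
  by_cases hpq : p = q
  · subst hpq
    obtain ⟨P⟩ : Nonempty (Sylow p G) := inferInstance
    exact ⟨P, P, le_normalizer⟩
  obtain ⟨n, H, h0, hn, -, hnor, hfac⟩ : ∃ (n : ℕ) (H : Fin (n + 1) → Subgroup G),
      H 0 = ⊥ ∧ H (Fin.last n) = ⊤ ∧ Monotone H ∧ (∀ i, (H i).Normal) ∧
      ∀ i : Fin n, ¬ p ∣ (H i.castSucc).relIndex (H i.succ) ∨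
        ¬ q ∣ (H i.castSucc).relIndex (H i.succ) := by
    rcases hsolv with ⟨n, H, a, b, c, d, e⟩ | ⟨n, H, a, b, c, d, e⟩
    · refine ⟨n, H, a, b, c, d, fun i => ?_⟩
      rcases e i with ⟨m, hm⟩ | hc
      · exact Or.inr fun hd => hpq ((Nat.prime_dvd_prime_iff_eq hq hp).mp
          (hq.dvd_of_dvd_pow (hm ▸ hd))).symm
      · exact Or.inl (hp.coprime_iff_not_dvd.mp hc.symm)
    · refine ⟨n, H, a, b, c, d, fun i => ?_⟩
      rcases e i with ⟨m, hm⟩ | hc
      · exact Or.inl fun hd => hpq ((Nat.prime_dvd_prime_iff_eq hp hq).mp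
          (hp.dvd_of_dvd_pow (hm ▸ hd)))
      · exact Or.inr (hq.coprime_iff_not_dvd.mp hc.symm)
  suffices key : ∀ i : Fin (n + 1), ∃ (P : Sylow p G) (Q : Sylow q G),
      (P : Subgroup G) ≤ normalizer ((H i ⊔ (Q : Subgroup G) : Subgroup G) : Set G) by
    obtain ⟨P, Q, hPQ⟩ := key 0
    rw [h0, bot_sup_eq] at hPQ
    exact ⟨P, Q, hPQ⟩
  intro i
  induction i using Fin.reverseInduction with
  | last =>
    obtain ⟨P⟩ : Nonempty (Sylow p G) := inferInstance
    obtain ⟨Q⟩ : Nonempty (Sylow q G) := inferInstance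
    refine ⟨P, Q, ?_⟩
    rw [hn, top_sup_eq]
    exact le_top.trans_eq (normalizer_eq_top_iff.mpr inferInstance).symm
  | cast i ih =>
    obtain ⟨P, Q, hPQ⟩ := ih
    haveI := hnor i.castSucc
    haveI := hnor i.succ
    let π := QuotientGroup.mk' (H i.castSucc)
    have hsur : Function.Surjective π := QuotientGroup.mk'_surjective _
    haveI : ((H i.succ).map π).Normal := (hnor i.succ).map π hsur
    have hcard : Nat.card ((H i.succ).map π) = (H i.castSucc).relIndex (H i.succ) := by
      rw [← relIndex_bot_left, ← relIndex_comap ⊥ π (H i.succ), MonoidHom.comap_bot,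
        QuotientGroup.ker_mk']
    obtain ⟨P₁, Q₁, h₁⟩ := step hpq (quotient_hyp h (H i.castSucc)) ((H i.succ).map π)
      (hcard ▸ hfac i) (P.mapSurjective hsur) (Q.mapSurjective hsur) (by
        rw [Sylow.coe_mapSurjective, Sylow.coe_mapSurjective, ← Subgroup.map_sup]
        exact (map_mono hPQ).trans (le_normalizer_map π))
    obtain ⟨P₂, rfl⟩ := Sylow.mapSurjective_surjective hsur p P₁
    obtain ⟨Q₂, rfl⟩ := Sylow.mapSurjective_surjective hsur q Q₁
    refine ⟨P₂, Q₂, ?_⟩
    rw [Sylow.coe_mapSurjective, Sylow.coe_mapSurjective, map_le_iff_le_comap,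
      comap_normalizer_eq_of_surjective _ hsur, comap_map_eq, QuotientGroup.ker_mk'] at h₁
    rwa [sup_comm]

end Cfsg.Agent.S4601
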