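import Cfsg.Statements.S4604
import Cfsg.Agent.Lib.Block.Apply
import Cfsg.Agent.Lib.Block.Exist
import Cfsg.Agent.Lib.Block.DefectClass
import Cfsg.Agent.Lib.CharTools.Basic
import Cfsg.Agent.Lib.CharGalois

set_option autoImplicit false
open Cfsg

namespace Cfsg.Agent.S4604

theorem sum_pow_sub_sum_pow {p : ℕ} (hp : p.Prime) (a : ℕ) {ι : Type*} (s : Finset ι)
    (f : ι → Cfsg.AlgInt) :
    (p : Cfsg.AlgInt) ∣ (∑ i ∈ s, f i) ^ p ^ a - ∑ i ∈ s, f i ^ p ^ a := by
  classical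
  induction s using Finset.induction_on with
  | empty => simp [zero_pow (pow_ne_zero a hp.ne_zero)]
  | insert i s hi ih =>
    rw [Finset.sum_insert hi, Finset.sum_insert hi]
    obtain ⟨r, hr⟩ := exists_add_pow_prime_pow_eq hp (f i) (∑ j ∈ s, f j) a
    obtain ⟨q, hq⟩ := ih
    exact ⟨q + f i * (∑ j ∈ s, f j) * r, by linear_combination hr + hq⟩

open scoped ComplexConjugate in
open Lib.Block in
theorem isConj_of_redC {G : Type*} [Group G] [Finite G] {p : ℕ} {M : Ideal Cfsg.AlgInt} [M.IsPrime]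
    (hM : Cfsg.IsPModular p M) {s t : G} (hs : ¬ p ∣ orderOf s) (ht : ¬ p ∣ orderOf t)
    (h : ∀ χ : Cfsg.IrrCharacter G, redC M ((χ : G → ℂ) s) = redC M ((χ : G → ℂ) t)) :
    IsConj s t := by
  classical
  by_contra hne
  haveI : Fact p.Prime := ⟨hM.1⟩
  haveI := Fintype.ofFinite G
  set C := Subgroup.centralizer ({s} : Set G) with hC
  obtain ⟨S₀⟩ := (inferInstance : Nonempty (Sylow p C))
  obtain ⟨hle, hcard⟩ := (isSylowOf_iff (P := (S₀ : Subgroup C).map C.subtype)).2 ⟨S₀, rfl⟩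
  have hpg : IsPGroup p ((S₀ : Subgroup C).map C.subtype) := IsPGroup.of_card hcard
  set S := (S₀ : Subgroup C).map C.subtype with hS
  haveI := Fintype.ofFinite S
  have hcomm : ∀ u ∈ S, Commute s u := fun u hu =>
    (Subgroup.mem_centralizer_singleton_iff.1 (hle hu)).symm
  set a : Cfsg.IrrCharacter G → ℂ := fun χ =>
    conj ((Nat.card S : ℂ)⁻¹ * ∑ u : S, (χ : G → ℂ) (s * u)) with ha
  have hint : ∀ χ, a χ ∈ locRing M := fun χ => integral_mem_locRing (Lib.CharGalois.isIntegral_conj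
    (isIntegral_average (Lib.Char.isCharacter_of_isIrr χ.2) hcomm))
  have hone : ∀ w : G, ¬ p ∣ orderOf w → ∀ u : S, IsConj w (s * u) → u = 1 := by
    intro w hw u hc
    obtain ⟨c, hc⟩ := isConj_iff.1 hc
    have hsu : ¬ p ∣ orderOf ((u : G) * s) := by
      rw [← (hcomm u u.2).eq, ← hc, orderOf_conj_eq]
      exact hw
    have h1 := isPPart_mul (isPElem_of_mem hpg u.2) hs (hcomm u u.2).symm
    have h2 := isPPart_mul (p := p) (show IsPElem p (1 : G) from ⟨0, by simp⟩) hsu (Commute.one_left _)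
    rw [one_mul] at h2
    exact Subtype.ext (IsPPart.unique h1 h2)
  have hval : ∀ w : G, ¬ p ∣ orderOf w → ∑ χ : Cfsg.IrrCharacter G, a χ * (χ : G → ℂ) w =
      if IsConj w s then (Nat.card S : ℂ)⁻¹ * (Nat.card C : ℂ) else 0 := by
    intro w hw
    simp only [ha, map_mul, map_inv₀, map_natCast, map_sum, Finset.mul_sum, Finset.sum_mul]
    rw [Finset.sum_comm, Finset.sum_eq_single (1 : S)]
    · have e := Lib.CharTools.sum_irr_mul_conj' w s
      simp only [Subgroup.coe_one, mul_one]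
      rw [show (∑ χ : Cfsg.IrrCharacter G, (Nat.card S : ℂ)⁻¹ * conj ((χ : G → ℂ) s) *
          (χ : G → ℂ) w) = (Nat.card S : ℂ)⁻¹ * ∑ χ : Cfsg.IrrCharacter G,
            (χ : G → ℂ) w * conj ((χ : G → ℂ) s) by
        rw [Finset.mul_sum]; exact Finset.sum_congr rfl fun χ _ => by ring, e, hC]
      split_ifs <;> simp
    · intro u _ hu
      have e := Lib.CharTools.sum_irr_mul_conj' w (s * (u : G))
      rw [if_neg fun hc => hu (hone w hw u hc)] at e
      rw [show (∑ χ : Cfsg.IrrCharacter G, (Nat.card S : ℂ)⁻¹ * conj ((χ : G → ℂ) (s * (u : G))) *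
          (χ : G → ℂ) w) = (Nat.card S : ℂ)⁻¹ * ∑ χ : Cfsg.IrrCharacter G,
            (χ : G → ℂ) w * conj ((χ : G → ℂ) (s * (u : G))) by
        rw [Finset.mul_sum]; exact Finset.sum_congr rfl fun χ _ => by ring, e, mul_zero]
    · simp
  have h1 := congrArg (redC M) (hval s hs)
  have h2 := congrArg (redC M) (hval t ht)
  rw [if_pos (IsConj.refl s), redC_sum _ fun χ _ => mul_mem (hint χ) (irr_mem_locRing χ s)] at h1
  rw [if_neg fun hc => hne hc.symm, redC_sum _ fun χ _ => mul_mem (hint χ) (irr_mem_locRing χ t),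
    redC_zero] at h2
  have hd := natDiv_aux (M := M) hM (a := Nat.card C) (b := Nat.card S) Nat.card_pos.ne'
    Nat.card_pos.ne' (by rw [hcard, hM.1.factorization_pow, Finsupp.single_eq_same])
  have hne0 : redC M ((Nat.card S : ℂ)⁻¹ * (Nat.card C : ℂ)) ≠ 0 := fun h0 => by
    rw [inv_mul_eq_div] at h0
    have := hd.2.1 h0
    rw [hcard, hM.1.factorization_pow, Finsupp.single_eq_same] at this
    omega
  refine hne0 ?_
  rw [← h1, ← h2]
  exact Finset.sum_congr rfl fun χ _ => by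
    rw [redC_mul (hint χ) (irr_mem_locRing χ s), redC_mul (hint χ) (irr_mem_locRing χ t), h χ]

/-- Let G be a finite group, p a prime and p^a the p-part of the order of G. Let x, y ∈ G and let x′, y′ be their p-regular parts: x′ has order prime to p, commutes with x·x′⁻¹, and x·x′⁻¹ has p-power order (likewise for y). Then x′ and y′ are conjugate in G if and only if for every irreducible character χ of G the algebraic integer χ(x)^(p^a) − χ(y)^(p^a) is p times an algebraic integer. -/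
theorem result {G : Type*} [Group G] [Finite G] (p : ℕ) [Fact p.Prime] (x y x' y' : G)
    (hx : (∃ k : ℕ, orderOf (x * x'⁻¹) = p ^ k) ∧ Commute (x * x'⁻¹) x' ∧ ¬ p ∣ orderOf x')
    (hy : (∃ k : ℕ, orderOf (y * y'⁻¹) = p ^ k) ∧ Commute (y * y'⁻¹) y' ∧ ¬ p ∣ orderOf y') :
    IsConj x' y' ↔ ∀ χ : Cfsg.IrrCharacter G, ∃ γ : Cfsg.AlgInt,
      (χ : G → ℂ) x ^ (p ^ (Nat.card G).factorization p) - (χ : G → ℂ) y ^ (p ^ (Nat.card G).factorization p) = (p : ℂ) * (γ : ℂ) := by
  classical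
  haveI := Fintype.ofFinite G
  have hp : p.Prime := Fact.out
  set a := (Nat.card G).factorization p with ha
  set P := p ^ a with hP
  obtain ⟨⟨k, hk⟩, hcx, hxr⟩ := hx
  obtain ⟨⟨l, hl⟩, hcy, hyr⟩ := hy
  have hpow : ∀ (g g' : G) (k : ℕ), orderOf (g * g'⁻¹) = p ^ k → Commute (g * g'⁻¹) g' →
      g ^ P = g' ^ P := by
    intro g g' k hk hc
    have hka : k ≤ a := (hp.pow_dvd_iff_le_factorization Nat.card_pos.ne').1
      (hk ▸ orderOf_dvd_natCard _)
    have h1 : (g * g'⁻¹) ^ P = 1 := orderOf_dvd_iff_pow_eq_one.1 (hk ▸ pow_dvd_pow p hka)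
    conv_lhs => rw [show g = (g * g'⁻¹) * g' by group]
    rw [hc.mul_pow, h1, one_mul]
  have hxP := hpow x x' k hk hcx
  have hyP := hpow y y' l hl hcy
  have hfrob : ∀ (χ : Cfsg.IrrCharacter G) (g : G), ∃ γ : Cfsg.AlgInt,
      (χ : G → ℂ) g ^ P - (χ : G → ℂ) (g ^ P) = (p : ℂ) * (γ : ℂ) := by
    intro χ g
    obtain ⟨χ, n, ρ, hρ, rfl⟩ := χ
    obtain ⟨b, μ, h1, -, hch⟩ := Lib.Char.exists_eigenbasis ρ g
    let f : Fin (Module.finrank ℂ (Fin n → ℂ)) → Cfsg.AlgInt := fun i =>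
      ⟨μ i, IsIntegral.of_pow (orderOf_pos g) (by rw [h1]; exact isIntegral_one)⟩
    obtain ⟨γ, hγ⟩ := sum_pow_sub_sum_pow hp a Finset.univ f
    refine ⟨γ, ?_⟩
    have h := congrArg (fun z : Cfsg.AlgInt => (z : ℂ)) hγ
    simp only [f] at h
    push_cast at h
    have e1 : ρ.character g = ∑ i, μ i := by simpa using hch 1
    show ρ.character g ^ P - ρ.character (g ^ P) = _
    rw [e1, hch P]
    exact h
  constructor
  · intro hc χ
    obtain ⟨γ₁, h₁⟩ := hfrob χ x
    obtain ⟨γ₂, h₂⟩ := hfrob χ y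
    refine ⟨γ₁ - γ₂, ?_⟩
    have he : (χ : G → ℂ) (x ^ P) = (χ : G → ℂ) (y ^ P) := by
      rw [hxP, hyP]
      obtain ⟨c, hc⟩ := isConj_iff.1 hc
      rw [← hc, conj_pow, Lib.Char.isClassFunction_of_isIrr χ.2 (x' ^ P) c]
    push_cast
    linear_combination h₁ - h₂ + he
  · intro h
    obtain ⟨M, hM⟩ := Lib.Block.exists_isPModular hp
    haveI : M.IsPrime := hM.2.1.isPrime
    haveI := Lib.Block.resField_charP (M := M) hM
    haveI : ExpChar (Lib.Block.ResField M) p := ExpChar.prime hp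
    refine isConj_of_redC hM hxr hyr fun χ => ?_
    obtain ⟨γ, hγ⟩ := h χ
    have hx' : Lib.Block.redC M ((χ : G → ℂ) x) = Lib.Block.redC M ((χ : G → ℂ) x') := by
      conv_lhs => rw [show x = (x * x'⁻¹) * x' by group]
      exact Lib.Block.redC_char_pPart hM (Lib.Char.isCharacter_of_isIrr χ.2) hcx ⟨k, hk⟩ hxr
    have hy' : Lib.Block.redC M ((χ : G → ℂ) y) = Lib.Block.redC M ((χ : G → ℂ) y') := by
      conv_lhs => rw [show y = (y * y'⁻¹) * y' by group]
      exact Lib.Block.redC_char_pPart hM (Lib.Char.isCharacter_of_isIrr χ.2) hcy ⟨l, hl⟩ hyr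
    have hxm := Lib.Block.irr_mem_locRing (M := M) χ x
    have hym := Lib.Block.irr_mem_locRing (M := M) χ y
    have h0 := congrArg (Lib.Block.redC M) hγ
    rw [Lib.Block.redC_sub (pow_mem hxm _) (pow_mem hym _), Lib.Block.redC_pow hxm,
      Lib.Block.redC_pow hym, Lib.Block.redC_mul (Lib.Block.nat_mem p) (Lib.Block.algInt_mem_locRing γ),
      (Lib.Block.redC_natCast_eq_zero_iff hM).2 dvd_rfl, zero_mul, ← sub_pow_char_pow] at h0
    rw [← hx', ← hy']
    exact sub_eq_zero.1 (eq_zero_of_pow_eq_zero h0)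

end Cfsg.Agent.S4604
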