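import Cfsg.Statements.S4733
import Cfsg.Agent.Lib.Block.Contrib
import Mathlib.LinearAlgebra.Dimension.OrzechProperty

set_option autoImplicit false
open Cfsg

namespace Cfsg.Agent.S4733

/-- Let p be a prime, M a maximal ideal of the algebraic integers containing p, and B a p-block of the finite group G with k irreducible characters and p-regular rank l (the number of irreducible Brauer characters). Then l ≤ k, and the following are equivalent: B has defect 0; k = l = 1; k = l. -/
theorem result {G : Type*} [Group G] [Finite G] (p : ℕ) [Fact p.Prime] (M : Ideal Cfsg.AlgInt) (hM : Cfsg.IsPModular p M) (B : Set (Cfsg.IrrCharacter G)) (hB : Cfsg.IsPBlock M B) : Cfsg.blockRank p B ≤ Nat.card B ∧ (Cfsg.blockDefect p B = 0 ↔ (Nat.card B = 1 ∧ Cfsg.blockRank p B = 1)) ∧ (Cfsg.blockDefect p B = 0 ↔ Nat.card B = Cfsg.blockRank p B) := by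
  classical
  haveI : M.IsPrime := hM.2.1.isPrime
  haveI := Fintype.ofFinite G
  haveI := Fintype.ofFinite B
  have hp : p.Prime := hM.1
  set v : B → (G → ℂ) := fun χ => Cfsg.pRegularPart p ((χ : Cfsg.IrrCharacter G) : G → ℂ) with hv
  have hrange : (fun χ : Cfsg.IrrCharacter G => Cfsg.pRegularPart p (χ : G → ℂ)) '' B =
      Set.range v := Set.image_eq_range _ _
  have hle : Cfsg.blockRank p B ≤ Nat.card B := by
    rw [Cfsg.blockRank, hrange, Nat.card_eq_fintype_card]
    exact finrank_range_le_card v
  obtain ⟨χ, hχ, hχ0⟩ := Lib.Block.exists_height_zero hB p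
  -- defect zero
  have h0 : Cfsg.blockDefect p B = 0 → Nat.card B = 1 ∧ Cfsg.blockRank p B = 1 := by
    intro hd
    choose z hz using fun η : Cfsg.IrrCharacter G =>
      Lib.Block.exists_int_regInner (η := η) hM hB hd hχ
    have hne : ∀ η ∈ B, z η ≠ 0 := fun η hη h =>
      Lib.Block.regInner_ne_zero_of_height_zero hM hB hχ hη hχ0 (by
        rw [Lib.Block.regInner_comm hp η χ]
        simpa [h] using hz η)
    have hsum : ∑ η : Cfsg.IrrCharacter G,
        (if η ∈ B then z η * z η else 0) = z χ := by
      have hexp := Lib.Block.pRegularPart_eq_sum hM hB hχ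
      have h : ((∑ η : Cfsg.IrrCharacter G, if η ∈ B then z η * z η else 0 : ℤ) : ℂ) = (z χ : ℂ) := by
        rw [← hz χ, pow_zero, one_mul]
        conv_rhs => rw [Lib.Block.regInner_eq_classInner]
        have e : Cfsg.classInner (Cfsg.pRegularPart p (χ : G → ℂ)) (χ : G → ℂ) =
            Cfsg.classInner (Cfsg.pRegularPart p (χ : G → ℂ)) (Cfsg.pRegularPart p (χ : G → ℂ)) := by
          rw [← Lib.Block.regInner_eq_classInner, Lib.Block.classInner_pRegularPart]
        rw [e]
        conv_rhs => arg 1; rw [hexp]
        rw [Lib.Char.classInner_sum_left, Int.cast_sum]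
        refine Finset.sum_congr rfl fun η _ => ?_
        split_ifs
        · rw [Lib.Char.classInner_smul_left,
            Lib.Char.classInner_conj_symm (Cfsg.pRegularPart p (χ : G → ℂ)),
            ← Lib.Block.regInner_eq_classInner, Int.cast_mul]
          have hzη := hz η
          rw [pow_zero, one_mul] at hzη
          rw [hzη, map_intCast]
        · rw [Lib.Char.classInner_zero_left, Int.cast_zero]
      exact_mod_cast h
    have hsub : ∀ η ∈ B, η = χ := by
      intro η hη
      by_contra hηχ
      have h1 : (if χ ∈ B then z χ * z χ else 0) + (if η ∈ B then z η * z η else 0) ≤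
          ∑ θ : Cfsg.IrrCharacter G, if θ ∈ B then z θ * z θ else 0 := by
        refine le_trans (le_of_eq (Finset.sum_pair (f := fun θ => if θ ∈ B then z θ * z θ else 0) (Ne.symm hηχ)).symm)
          (Finset.sum_le_sum_of_subset_of_nonneg (Finset.subset_univ _) fun θ _ _ => ?_)
        split_ifs
        · exact mul_self_nonneg _
        · exact le_rfl
      rw [hsum, if_pos hχ, if_pos hη] at h1
      have h2 : 0 < z η * z η := mul_self_pos.2 (hne η hη)
      nlinarith [hne χ hχ, sq_nonneg (z χ - 1)]
    have hk : Nat.card B = 1 := by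
      rw [Nat.card_eq_one_iff_unique]
      exact ⟨⟨fun a c => Subtype.ext ((hsub a a.2).trans (hsub c c.2).symm)⟩, ⟨⟨χ, hχ⟩⟩⟩
    refine ⟨hk, le_antisymm (hk ▸ hle) ?_⟩
    rw [Cfsg.blockRank, Nat.one_le_iff_ne_zero, ne_eq, Submodule.finrank_eq_zero, Submodule.span_eq_bot]
    intro h
    have h1 := congrFun (h _ ⟨χ, hχ, rfl⟩) 1
    simp only [Lib.Block.pRegularPart_apply, orderOf_one, Nat.dvd_one, hp.ne_one, if_false,
      Pi.zero_apply] at h1
    exact Lib.Block.deg_ne_zero χ h1
  have hkl : Nat.card B = Cfsg.blockRank p B → Cfsg.blockDefect p B = 0 := by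
    intro h
    have hli : LinearIndependent ℂ v := by
      rw [linearIndependent_iff_card_eq_finrank_span, ← Nat.card_eq_fintype_card, h,
        Cfsg.blockRank, hrange, Set.finrank]
    rw [Fintype.linearIndependent_iff] at hli
    have hexp := Lib.Block.pRegularPart_eq_sum hM hB hχ
    have hcoef := hli (fun η => Lib.Block.regInner p (χ : G → ℂ) ((η : Cfsg.IrrCharacter G) : G → ℂ) -
      (if (η : Cfsg.IrrCharacter G) = χ then 1 else 0)) (by
        funext w
        simp only [Finset.sum_apply, Pi.smul_apply, smul_eq_mul, Pi.zero_apply, sub_mul,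
          Finset.sum_sub_distrib, ite_mul, one_mul, zero_mul]
        rw [Finset.sum_eq_single (⟨χ, hχ⟩ : B) (fun c _ hc => if_neg fun e => hc (Subtype.ext e))
          (by simp), if_pos rfl, sub_eq_zero]
        have hw := congrFun hexp w
        simp only [hv, Lib.Block.pRegularPart_apply, Finset.sum_apply] at hw ⊢
        by_cases hp' : p ∣ orderOf w
        · simp [hp']
        · simp only [hp', if_false] at hw ⊢
          rw [hw, ← Finset.sum_subtype (Finset.univ.filter (· ∈ B)) (p := (· ∈ B)) (by simp)
            (fun c => Lib.Block.regInner p (χ : G → ℂ) (c : G → ℂ) * (c : G → ℂ) w), Finset.sum_filter]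
          exact Finset.sum_congr rfl fun c _ => by split_ifs <;> simp)
    have hsing : ∀ w : G, p ∣ orderOf w → (χ : G → ℂ) w = 0 := by
      intro w hw
      have h1 := congrFun hexp w
      rw [Lib.Block.pRegularPart_apply, if_pos hw, Finset.sum_apply, Finset.sum_eq_single χ] at h1
      · have hcχ := hcoef ⟨χ, hχ⟩
        rw [if_pos rfl, sub_eq_zero] at hcχ
        simpa [hχ, hcχ] using h1.symm
      · intro η _ hne
        by_cases hη : η ∈ B
        · have hcη := hcoef ⟨η, hη⟩
          rw [if_neg hne, sub_zero] at hcη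
          simp [hη, hcη]
        · simp [hη]
      · simp
    obtain ⟨S⟩ := (inferInstance : Nonempty (Sylow p G))
    haveI := Fintype.ofFinite (S : Subgroup G)
    have hint := Lib.Block.isIntegral_average (G := G) (Lib.Char.isCharacter_of_isIrr χ.2)
      (S := (S : Subgroup G)) (g := 1) fun s _ => Commute.one_left s
    simp only [one_mul] at hint
    rw [Finset.sum_eq_single (1 : (S : Subgroup G)) ?_ (by simp), Subgroup.coe_one,
      Lib.Block.irr_one_eq_natCast χ, inv_mul_eq_div] at hint
    · have hdvd := Lib.Char.dvd_of_isIntegral_div Nat.card_pos.ne' hint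
      rw [Sylow.card_eq_multiplicity] at hdvd
      have hle' := (Nat.Prime.pow_dvd_iff_le_factorization hp (Lib.Block.charDegree_pos χ).ne').1 hdvd
      rw [Lib.Block.blockDefect_eq_of_min hχ hχ0]
      omega
    · intro s _ hs1
      obtain ⟨k, hk⟩ := Lib.Block.isPElem_of_mem S.2 s.2
      refine hsing _ ?_
      rcases Nat.eq_zero_or_pos k with rfl | hk0
      · exact absurd (Subtype.ext (orderOf_eq_one_iff.1 (by simpa using hk))) hs1
      · exact hk ▸ dvd_pow_self p hk0.ne'
  exact ⟨hle, ⟨h0, fun h => hkl (h.1.trans h.2.symm)⟩,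
    ⟨fun h => (h0 h).1.trans (h0 h).2.symm, hkl⟩⟩

end Cfsg.Agent.S4733
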