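import Cfsg.Statements.S4607
import Cfsg.Agent.Lib.Block.OneSimpleCount
import Cfsg.Agent.Lib.Block.BrauerFeit
import Cfsg.Agent.Lib.Block.DefectTwo
import Cfsg.Agent.S4733
-- import your own Cfsg.Agent.* helpers here

set_option autoImplicit false
open Cfsg Cfsg.Agent

namespace Cfsg.Agent.S4607

/-- Let G be a finite group, p a prime, M a maximal ideal of the algebraic integers containing p, and B a p-block of G with defect group D. Then B contains exactly two irreducible characters if and only if D has order 2. -/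
theorem result {G : Type*} [Group G] [Finite G] (p : ℕ) [Fact p.Prime] (M : Ideal Cfsg.AlgInt) (hM : Cfsg.IsPModular p M) (B : Set (Cfsg.IrrCharacter G)) (hB : Cfsg.IsPBlock M B) (D : Subgroup G) (hD : Cfsg.IsDefectGroup p M B D) : Nat.card B = 2 ↔ Nat.card D = 2 := by
  classical
  haveI : M.IsPrime := hM.2.1.isPrime
  haveI := Fintype.ofFinite G
  have hcard : Nat.card D = p ^ Cfsg.blockDefect p B := (Lib.Block.IsDefectGroup.props hM hB hD).2.1
  constructor
  · intro hk
    obtain ⟨hle, h0, hkl⟩ := Cfsg.Agent.S4733.result p M hM B hB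
    have hd : Cfsg.blockDefect p B ≠ 0 := fun h => by
      have := (h0.1 h).1
      omega
    have hl1 : Cfsg.blockRank p B ≠ 0 := by
      intro h
      rw [Cfsg.blockRank, Submodule.finrank_eq_zero, Submodule.span_eq_bot] at h
      obtain ⟨χ, hχ⟩ := Lib.Block.isPBlock_nonempty hB
      have h1 := congrFun (h _ ⟨χ, hχ, rfl⟩) 1
      simp only [Lib.Block.pRegularPart_apply, orderOf_one, Nat.dvd_one, hM.1.ne_one, if_false,
        Pi.zero_apply] at h1
      exact Lib.Block.deg_ne_zero χ h1
    have hl2 : Cfsg.blockRank p B ≠ 2 := fun h => hd (hkl.2 (hk.trans h.symm))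
    rw [hcard]
    exact Lib.Block.OneSimple.pow_defect_eq_two hM hB (by omega) hk hd
  · intro hD2
    have hp2 : p = 2 := by
      rcases Nat.eq_zero_or_pos (Cfsg.blockDefect p B) with h | h
      · rw [hcard, h, pow_zero] at hD2; omega
      · exact (Nat.prime_dvd_prime_iff_eq hM.1 Nat.prime_two).1
          (hD2 ▸ hcard ▸ dvd_pow_self p h.ne')
    subst hp2
    haveI : IsCyclic D := isCyclic_of_prime_card hD2
    obtain ⟨⟨x, hxD⟩, hgen⟩ := IsCyclic.exists_generator (α := D)
    have hDx : D = Subgroup.zpowers x := by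
      refine le_antisymm (fun y hy => ?_) ((Subgroup.zpowers_le).2 hxD)
      obtain ⟨m, hm⟩ := Subgroup.mem_zpowers_iff.1 (hgen ⟨y, hy⟩)
      exact Subgroup.mem_zpowers_iff.2 ⟨m, by simpa using congrArg Subtype.val hm⟩
    have hx : orderOf x = 2 := by
      rw [← Nat.card_zpowers, ← hDx, hD2]
    obtain ⟨b, hb, -⟩ := Lib.Block.exists_major_block hM hB hD hxD (fun w hw => by
      rw [hDx] at hw
      obtain ⟨m, rfl⟩ := hw
      exact ((Commute.refl x).zpow_right m).eq)
    have hz : (⟨x, Subgroup.mem_centralizer_singleton_iff.2 rfl⟩ :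
        Subgroup.centralizer ({x} : Set G)) ∈ Subgroup.center _ :=
      Subgroup.mem_center_iff.2 fun c =>
        Subtype.ext (Subgroup.mem_centralizer_singleton_iff.1 c.2)
    obtain ⟨θ, hθ, hθx⟩ := Lib.Block.exists_trivial_mem hM hb.1 hz
      ⟨1, by rw [Subgroup.orderOf_mk, hx, pow_one]⟩
    rw [hDx] at hD
    obtain ⟨χ₁, h1, χ₂, h2, hne, hall, -⟩ :=
      Lib.Block.defect_two_aux hM hx hB hD rfl hb hθ (fun z hzx => by
        rw [show z = ⟨x, Subgroup.mem_centralizer_singleton_iff.2 rfl⟩ from Subtype.ext hzx]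
        exact hθx)
    have hBeq : B = {χ₁, χ₂} := Set.ext fun χ => ⟨fun h => hall χ h, fun h => by
      rcases h with rfl | h
      · exact h1
      · exact (Set.mem_singleton_iff.1 h) ▸ h2⟩
    rw [hBeq, Nat.card_coe_set_eq, Set.ncard_pair hne]


end Cfsg.Agent.S4607
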