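import Cfsg.Statements.S4610
import Cfsg.Agent.Lib.Block.PrincipalMeet
-- import your own Cfsg.Agent.* helpers here

set_option autoImplicit false
open Cfsg

namespace Cfsg.Agent.S4610

/-- Let G be a finite group and p a prime dividing its order; fix for every prime r a maximal ideal M r of the algebraic integers containing r. Then, for every prime q ≠ p dividing the order of G, the principal p-block and the principal q-block of G have only the principal character in common, if and only if a Sylow p-subgroup P of G is normal and G is generated by P and its largest normal subgroup of order prime to p (that is, G is the direct product of P and that subgroup). -/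
theorem result {G : Type*} [Group G] [Finite G] (p : ℕ) [Fact p.Prime] (hp : p ∣ Nat.card G) (M : ℕ → Ideal Cfsg.AlgInt) (hM : ∀ r : ℕ, r.Prime → Cfsg.IsPModular r (M r)) (P : Sylow p G) :
    (∀ q : ℕ, q.Prime → q ≠ p → q ∣ Nat.card G →
        ∀ χ : Cfsg.IrrCharacter G, χ ∈ Cfsg.principalBlock (M p) G → χ ∈ Cfsg.principalBlock (M q) G → (χ : G → ℂ) = fun _ => 1) ↔
      ((P : Subgroup G).Normal ∧ (P : Subgroup G) ⊔ Cfsg.pPrimeCore p G = ⊤) := by
  open Cfsg.Agent.Lib.Block in
  have key : ∀ q : ℕ, (hq : q.Prime) → q ≠ p →
      (∀ q : ℕ, q.Prime → q ≠ p → q ∣ Nat.card G →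
        ∀ χ : Cfsg.IrrCharacter G, χ ∈ Cfsg.principalBlock (M p) G → χ ∈ Cfsg.principalBlock (M q) G →
          (χ : G → ℂ) = fun _ => 1) →
      q ∣ Nat.card G →
      (∀ v : G, IsPElem q v → p ^ (Nat.card G).factorization p ∣ Nat.card (Subgroup.centralizer ({v} : Set G))) ∧
      (∀ v : G, IsPElem p v → q ^ (Nat.card G).factorization q ∣ Nat.card (Subgroup.centralizer ({v} : Set G))) := by
    intro q hq hne h hqd
    haveI := (hM p Fact.out).2.1.isPrime
    haveI := (hM q hq).2.1.isPrime
    refine ⟨fun v hv => Meet.pow_dvd_card_centralizer (hM p Fact.out) (hM q hq)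
      (fun χ h1 h2 => Subtype.ext (h q hq hne hqd χ h1 h2)) hv,
      fun v hv => Meet.pow_dvd_card_centralizer (hM q hq) (hM p Fact.out)
      (fun χ h1 h2 => Subtype.ext (h q hq hne hqd χ h2 h1)) hv⟩
  constructor
  · intro h
    refine Cfsg.Agent.Lib.Block.Meet.direct_factor P (fun x hx r hr hne => ?_) (fun r hr hne y hy => ?_)
    · by_cases hd : r ∣ Nat.card G
      · haveI := Fact.mk hr
        exact Cfsg.Agent.Lib.Block.Meet.not_dvd_index_centralizer ((key r hr hne h hd).2 x hx)
      · exact fun h' => hd (h'.trans (Subgroup.index_dvd_card _))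
    · by_cases hd : r ∣ Nat.card G
      · exact (key r hr hne h hd).1 y hy
      · obtain ⟨k, hk⟩ := hy
        have hy1 : y = 1 := by
          rw [← orderOf_eq_one_iff, hk]
          rcases Nat.eq_zero_or_pos k with rfl | hk0
          · exact pow_zero r
          · exact absurd ((dvd_pow_self r hk0.ne').trans (hk ▸ orderOf_dvd_natCard y)) hd
        rw [show Subgroup.centralizer ({y} : Set G) = ⊤ from by
          rw [hy1]; exact top_le_iff.1 fun g _ => Subgroup.mem_centralizer_singleton_iff.2 (by simp),
          Subgroup.card_top]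
        exact Nat.ordProj_dvd _ _
  · rintro ⟨hn, htop⟩ q hq hne - χ h1 h2
    haveI := Fact.mk hq
    haveI := (hM p Fact.out).2.1.isPrime
    haveI := (hM q hq).2.1.isPrime
    exact congrArg Subtype.val (Cfsg.Agent.Lib.Block.Meet.trivial_of_direct (hM p Fact.out) (hM q hq) hne P hn htop h1 h2)

end Cfsg.Agent.S4610
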