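import Cfsg.Statements.S4611
import Cfsg.Agent.Lib.Block.PrincipalSolvable
import Cfsg.Agent.Lib.HallHigman.Solvable
import Cfsg.Agent.Lib.Char.Linear
-- import your own Cfsg.Agent.* helpers here

set_option autoImplicit false
open Cfsg

namespace Cfsg.Agent.S4611

/-- Let G be a finite solvable group and π a nonempty set of primes, each dividing the order of G; fix for each p in π a maximal ideal M p of the algebraic integers containing p. Then the only irreducible character lying in the principal p-block for every p in π is the principal character if and only if G is generated by the subgroups O_{p'}(G), p in π (the largest normal subgroups of order prime to p). -/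
theorem result {G : Type*} [Group G] [Finite G] [Group.IsSolvable G] (π : Set ℕ) (hπ : ∀ p ∈ π, p.Prime ∧ p ∣ Nat.card G) (hne : π.Nonempty) (M : ℕ → Ideal Cfsg.AlgInt) (hM : ∀ p ∈ π, Cfsg.IsPModular p (M p)) :
    (∀ χ : Cfsg.IrrCharacter G, (∀ p ∈ π, χ ∈ Cfsg.principalBlock (M p) G) → (χ : G → ℂ) = fun _ => 1) ↔
      ⨆ p ∈ π, Cfsg.pPrimeCore p G = ⊤ := by
  classical
  haveI : Fintype G := Fintype.ofFinite G
  have hiff : ∀ p ∈ π, ∀ χ : Cfsg.IrrCharacter G, (χ ∈ Cfsg.principalBlock (M p) G ↔
      ∀ n ∈ Cfsg.pPrimeCore p G, (χ : G → ℂ) n = (χ : G → ℂ) 1) := fun p hp χ => by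
    haveI : Fact p.Prime := ⟨(hπ p hp).1⟩
    haveI : (M p).IsPrime := (hM p hp).2.1.isPrime
    exact Lib.Block.mem_principalBlock_iff_trivial (hM p hp)
      (Lib.HallHigman.isPSolvable_of_isSolvable p) χ
  set K := ⨆ p ∈ π, Cfsg.pPrimeCore p G with hK
  constructor
  · intro h
    by_contra hne
    haveI hKn : K.Normal := by
      have hK' : K = sSup ((fun p => Cfsg.pPrimeCore p G) '' π) := by rw [hK, sSup_image]
      rw [hK']
      exact Subgroup.sSup_normal _ fun N hN => by
        obtain ⟨p, -, rfl⟩ := hN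
        infer_instance
    haveI : Nontrivial (G ⧸ K) := QuotientGroup.nontrivial_iff.2 hne
    have hcard : 1 < Nat.card (Abelianization (G ⧸ K)) := by
      have hlt : commutator (G ⧸ K) < ⊤ := Group.IsSolvable.commutator_lt_top_of_nontrivial _
      show 1 < (commutator (G ⧸ K)).index
      have h0 := Subgroup.index_ne_zero_of_finite (H := commutator (G ⧸ K))
      have h1 : (commutator (G ⧸ K)).index ≠ 1 := fun e => hlt.ne (Subgroup.index_eq_one.1 e)
      omega
    haveI : Nontrivial (Abelianization (G ⧸ K)) := Finite.one_lt_card_iff_nontrivial.1 hcard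
    obtain ⟨x, hx⟩ := exists_ne (1 : Abelianization (G ⧸ K))
    obtain ⟨φ, hφ⟩ := CommGroup.exists_apply_ne_one_of_hasEnoughRootsOfUnity
      (Abelianization (G ⧸ K)) ℂ hx
    let l : G →* ℂˣ := (φ.comp Abelianization.of).comp (QuotientGroup.mk' K)
    let χ : Cfsg.IrrCharacter G := ⟨fun g => (l g : ℂ), Lib.Char.isIrrCharacter_linear l⟩
    have h1 := h χ fun p hp => (hiff p hp χ).2 fun n hn => by
      have hnK : n ∈ K := le_biSup (fun p => Cfsg.pPrimeCore p G) hp hn
      have hn1 : (QuotientGroup.mk' K) n = 1 := (QuotientGroup.eq_one_iff n).2 hnK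
      show (l n : ℂ) = (l 1 : ℂ)
      simp only [l, MonoidHom.comp_apply, hn1, map_one]
    obtain ⟨q, hq⟩ := Quotient.mk_surjective x
    obtain ⟨g, rfl⟩ := QuotientGroup.mk_surjective q
    apply hφ
    have h2 : (l g : ℂ) = 1 := congrFun h1 g
    have h3 : l g = 1 := Units.ext h2
    rw [← hq]
    exact h3
  · intro h χ hχ
    have hle : K ≤ Lib.Char.charKer (χ : G → ℂ) := iSup₂_le fun p hp n hn =>
      (Lib.Char.mem_charKer (Lib.Char.isCharacter_of_isIrr χ.2)).2 ((hiff p hp χ).1 (hχ p hp) n hn)
    rw [h] at hle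
    have hall : ∀ g, (χ : G → ℂ) g = (χ : G → ℂ) 1 := fun g =>
      (Lib.Char.mem_charKer (Lib.Char.isCharacter_of_isIrr χ.2)).1 (hle (Subgroup.mem_top g))
    have h1 := Lib.Char.classInner_irr χ.2 Lib.Char.isIrrCharacter_one
    have hne : Cfsg.classInner (χ : G → ℂ) (fun _ : G => (1 : ℂ)) = (χ : G → ℂ) 1 := by
      simp [Cfsg.classInner, hall, Lib.Char.card_ne_zero_complex G]
    rw [hne] at h1
    split_ifs at h1 with he
    · exact he
    · exact absurd h1 (Lib.Char.irr_degree_ne_zero χ.2)


end Cfsg.Agent.S4611
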