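import Cfsg.Statements.S4613
import Cfsg.Agent.Lib.BN.FixSylow.Classical
import Cfsg.Agent.Lib.BN.FixSylow.Exceptional
import Cfsg.Agent.Lib.BN.FixSylow.Rest
import Cfsg.Agent.Lib.Suz.Bridge

set_option autoImplicit false
open Cfsg

namespace Cfsg.Agent.S4613

open Cfsg.Agent.Lib Cfsg.Agent.Lib.BN.FixSylow

/-- Let G be a finite simple group of Lie type in characteristic p and α an automorphism of G of order prime to p that fixes some Sylow p-subgroup of G elementwise. Then α is the identity. -/
theorem result {G : Type*} [Group G] [Finite G] [IsSimpleGroup G] (p : ℕ) [Fact p.Prime] (hG : Cfsg.IsLieTypeChar p G) (α : MulAut G) (hα : ¬ p ∣ orderOf α) (U : Sylow p G) (hfix : ∀ x ∈ (U : Subgroup G), α x = x) : α = 1 := by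
  classical
  suffices Triv p G from this α hα U U.isPGroup' U.not_dvd_index hfix
  have key : ∀ {H : Type} [Group H], Nonempty (G ≃* H) → Nonempty (PData p H) → Triv p G := by
    intro H _ he hd
    obtain ⟨e⟩ := he
    obtain ⟨D⟩ := hd
    haveI : Finite H := Finite.of_equiv G e.toEquiv
    haveI : Nontrivial H := e.symm.toEquiv.nontrivial
    haveI : IsSimpleGroup H := IsSimpleGroup.isSimpleGroup_of_surjective e.toMonoidHom e.surjective
    exact (PData.triv D).of_equiv e
  rcases hG with ⟨F, _, _, _, n, hn, -, he⟩ | ⟨F, _, _, _, m, hm, -, he⟩ |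
    ⟨F, _, _, _, n, q, hF, hn, -, he⟩ | ⟨F, _, _, _, m, hm, hodd, he⟩ | ⟨F, _, _, _, m, hm, he⟩ |
    ⟨F, _, _, _, m, a, b, hm, hab, he⟩ | ⟨F, _, _, _, h⟩ | ⟨K, _, _, _, q, hq, h⟩ |
    ⟨rfl, F, _, _, m, hm, hF, he⟩ | ⟨rfl, K, _, _, m, hm, hK, he⟩ | ⟨rfl, K, _, _, m, hm, hK, he⟩
  · exact key he (nonempty_psl hn)
  · exact key he (nonempty_psp hm)
  · exact key he (nonempty_psu hn hF)
  · exact key he (nonempty_odd (by omega) (by
      intro h2
      have hch : ringChar F = 2 := by
        by_contra h
        exact Ring.two_ne_zero h h2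
      exact (Nat.not_even_iff_odd.2 hodd) (FiniteField.even_card_of_char_two hch |> Nat.even_iff.2)))
  · exact key he (nonempty_plus (by omega))
  · exact key he (nonempty_minus (by omega) hab)
  · rcases h with ⟨-, he⟩ | he | he | he | he
    · exact key he (nonempty_chev Chev.G2.checked (by decide +kernel))
    · exact key he (nonempty_chev Chev.F4.checked (by decide +kernel))
    · exact key he (nonempty_chev Chev.E6.checked (by decide +kernel))
    · exact key he (nonempty_chev Chev.E7.checked (by decide +kernel))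
    · exact key he (nonempty_chev Chev.E8.checked (by decide +kernel))
  · rcases h with ⟨hK, he⟩ | ⟨hK, he⟩
    · exact key he (nonempty_E6 hq hK)
    · exact key he (nonempty_D4 hq hK)
  · have c : Suz.Ctx F m := ⟨hm, hF⟩
    haveI := Suz.charP_two c
    obtain ⟨e⟩ := he
    exact key ⟨e.trans (Suz.lieEquiv c).symm⟩ (nonempty_suz c)
  · haveI : CharP K 2 := charP_of_card_eq_prime_pow hK
    exact key he (nonempty_F4Ree hK)
  · haveI : CharP K 3 := charP_of_card_eq_prime_pow hK
    exact key he (nonempty_G2Ree hK)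

end Cfsg.Agent.S4613
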