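import Cfsg.Statements.S4620

set_option autoImplicit false
open scoped Pointwise
open Cfsg

namespace Cfsg.Agent.S4620


section
variable {H : Type*} [Group H] [Finite H] {p : ℕ} [Fact p.Prime] (P : Sylow p H)

theorem mem_of_pElement_normalizer {x : H} (hxN : x ∈ Subgroup.normalizer ((P : Subgroup H) : Set H))
    (hx : ∃ k : ℕ, x ^ (p ^ k) = 1) : x ∈ (P : Subgroup H) := by
  obtain ⟨k, hk⟩ := hx
  have hz : IsPGroup p (Subgroup.zpowers x) := by
    obtain ⟨j, -, hj⟩ := (Nat.dvd_prime_pow (Fact.out : p.Prime)).mp (orderOf_dvd_of_pow_eq_one hk)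
    exact IsPGroup.of_card (n := j) (by rw [Nat.card_zpowers, hj])
  have h1 : IsPGroup p (Subgroup.zpowers x ⊔ (P : Subgroup H) : Subgroup H) :=
    hz.to_sup_of_normal_right' P.isPGroup' (by rwa [Subgroup.zpowers_le])
  exact P.is_maximal' h1 le_sup_right ▸ (le_sup_left : Subgroup.zpowers x ≤ _) (Subgroup.mem_zpowers x)

theorem exists_mem_sylow_of_dvd {K : Subgroup H} (hK : p ∣ Nat.card K) :
    ∃ (g : H) (y : H), y ∈ K ∧ y ≠ 1 ∧ g * y * g⁻¹ ∈ (P : Subgroup H) := by
  obtain ⟨x, hx⟩ := exists_prime_orderOf_dvd_card' (G := K) p hK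
  have hz : IsPGroup p (Subgroup.zpowers (x : H)) :=
    IsPGroup.of_card (n := 1) (by rw [Nat.card_zpowers, Subgroup.orderOf_coe, hx, pow_one])
  obtain ⟨R, hR⟩ := hz.exists_le_sylow
  obtain ⟨g, hg⟩ := MulAction.exists_smul_eq H R P
  refine ⟨g, x, x.2, ?_, ?_⟩
  · intro h
    have h' : orderOf (x : H) = p := by rw [Subgroup.orderOf_coe, hx]
    rw [h, orderOf_one] at h'
    exact (Fact.out : p.Prime).one_lt.ne h'
  · rw [← hg]
    have := Subgroup.smul_mem_pointwise_smul (x : H) (MulAut.conj g) (R : Subgroup H) (hR (Subgroup.mem_zpowers _))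
    exact this

variable (hTI : ∀ g : H, g ∉ Subgroup.normalizer ((P : Subgroup H) : Set H) →
  (P : Subgroup H) ⊓ (MulAut.conj g • (P : Subgroup H)) = ⊥)
include hTI

theorem mem_normalizer_of_commute {x y : H} (hy : y ∈ (P : Subgroup H)) (hy1 : y ≠ 1)
    (hc : x * y = y * x) : x ∈ Subgroup.normalizer ((P : Subgroup H) : Set H) := by
  by_contra hn
  have h1 : y ∈ (P : Subgroup H) ⊓ (MulAut.conj x • (P : Subgroup H)) := by
    refine ⟨hy, ?_⟩
    have h2 := Subgroup.smul_mem_pointwise_smul y (MulAut.conj x) (P : Subgroup H) hy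
    have : MulAut.conj x • y = y := by
      rw [MulAut.smul_def, MulAut.conj_apply, hc]; group
    rwa [this] at h2
  rw [hTI x hn] at h1
  exact hy1 (Subgroup.mem_bot.mp h1)

omit hTI in
theorem pow_eq_one_of_mem {y : H} (hy : y ∈ (P : Subgroup H)) : ∃ k : ℕ, y ^ (p ^ k) = 1 := by
  obtain ⟨k, hk⟩ := P.isPGroup' ⟨y, hy⟩
  exact ⟨k, congrArg Subtype.val hk⟩

theorem le_normalCore_or_eq_bot {L : Subgroup H} (hL : L.Normal) {y : H} (hy : y ∈ (P : Subgroup H))
    (hy1 : y ≠ 1) (hc : ∀ l ∈ L, l * y = y * l) :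
    L ⊓ (P : Subgroup H) ≤ (P : Subgroup H).normalCore := by
  intro z hz g
  refine mem_of_pElement_normalizer P (mem_normalizer_of_commute P hTI hy hy1 (hc _ (hL.conj_mem z hz.1 g))) ?_
  obtain ⟨k, hk⟩ := pow_eq_one_of_mem P hz.2
  exact ⟨k, by rw [conj_pow, hk]; group⟩

end

/-- Let H be a finite group with no nontrivial normal p-subgroup and no nontrivial normal subgroup of order prime to p, whose Sylow p-subgroup P is nontrivial and a trivial-intersection set (P meets its conjugates by elements outside N_H(P) trivially). Then H has a unique minimal normal subgroup N; N is non-abelian simple with trivial centralizer in H (so H embeds in Aut(N)), and a Sylow p-subgroup of N is again a nontrivial trivial-intersection set in N. -/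
theorem result {H : Type*} [Group H] [Finite H] (p : ℕ) [Fact p.Prime] (hOp : Cfsg.pCore p H = ⊥) (hOp' : Cfsg.pPrimeCore p H = ⊥) (P : Sylow p H) (hP1 : (P : Subgroup H) ≠ ⊥)
    (hTI : ∀ g : H, g ∉ Subgroup.normalizer ((P : Subgroup H) : Set H) → (P : Subgroup H) ⊓ (MulAut.conj g • (P : Subgroup H)) = ⊥) :
    ∃ N : Subgroup H, N.Normal ∧ N ≠ ⊥ ∧ (∀ K : Subgroup H, K.Normal → K ≠ ⊥ → N ≤ K) ∧
      IsSimpleGroup N ∧ ¬ IsMulCommutative N ∧ Subgroup.centralizer (N : Set H) = ⊥ ∧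
      ∀ Q : Sylow p N, (Q : Subgroup N) ≠ ⊥ ∧
        ∀ n : N, n ∉ Subgroup.normalizer ((Q : Subgroup N) : Set N) → (Q : Subgroup N) ⊓ (MulAut.conj n • (Q : Subgroup N)) = ⊥ := by

  have hp : p.Prime := Fact.out
  have hcore : (P : Subgroup H).normalCore = ⊥ := by
    rw [eq_bot_iff, ← hOp]
    exact le_sSup ⟨Subgroup.normalCore_normal _, P.isPGroup'.to_le (Subgroup.normalCore_le _)⟩
  have hdvd : ∀ K : Subgroup H, K.Normal → K ≠ ⊥ → p ∣ Nat.card K := by
    intro K hK hK1
    by_contra h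
    apply hK1
    rw [eq_bot_iff, ← hOp']
    exact le_sSup ⟨hK, Nat.Coprime.symm ((Nat.Prime.coprime_iff_not_dvd hp).mpr h)⟩
  have hmeet : ∀ K : Subgroup H, K.Normal → K ≠ ⊥ → ∃ y ∈ K, y ≠ 1 ∧ y ∈ (P : Subgroup H) := by
    intro K hK hK1
    obtain ⟨g, y, hyK, hy1, hyP⟩ := exists_mem_sylow_of_dvd P (hdvd K hK hK1)
    exact ⟨g * y * g⁻¹, hK.conj_mem y hyK g, by simpa using hy1, hyP⟩
  have lemA : ∀ L : Subgroup H, L.Normal → ∀ y ∈ (P : Subgroup H), y ≠ 1 →
      (∀ l ∈ L, l * y = y * l) → L = ⊥ := by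
    intro L hL y hy hy1 hc
    by_contra hL1
    obtain ⟨z, hzL, hz1, hzP⟩ := hmeet L hL hL1
    have := le_normalCore_or_eq_bot P hTI hL hy hy1 hc ⟨hzL, hzP⟩
    rw [hcore] at this
    exact hz1 (Subgroup.mem_bot.mp this)
  have hne : {K : Subgroup H | K.Normal ∧ K ≠ ⊥}.Nonempty := by
    refine ⟨⊤, inferInstance, ?_⟩
    intro h
    exact hP1 (eq_bot_iff.mpr (h ▸ le_top))
  obtain ⟨N, ⟨hN, hN1⟩, hmin⟩ := (Set.toFinite {K : Subgroup H | K.Normal ∧ K ≠ ⊥}).exists_minimal hne
  have huniq : ∀ K : Subgroup H, K.Normal → K ≠ ⊥ → N ≤ K := by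
    intro K hK hK1
    by_contra hNK
    have hdis : N ⊓ K = ⊥ := by
      by_contra h
      exact hNK ((hmin (y := N ⊓ K) ⟨Subgroup.normal_inf_normal N K, h⟩ inf_le_left).trans inf_le_right)
    obtain ⟨y, hyK, hy1, hyP⟩ := hmeet K hK hK1
    exact hN1 (lemA N hN y hyP hy1 fun l hl =>
      Subgroup.commute_of_normal_of_disjoint N K hN hK (disjoint_iff.mpr hdis) l y hl hyK)
  obtain ⟨y₀, hy₀N, hy₀1, hy₀P⟩ := hmeet N hN hN1
  have hcent : Subgroup.centralizer (N : Set H) = ⊥ :=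
    lemA _ inferInstance y₀ hy₀P hy₀1 fun l hl => (hl y₀ hy₀N).symm
  have hnc : ¬ IsMulCommutative N := by
    intro hc
    apply hN1
    rw [eq_bot_iff, ← hcent]
    intro x hx z hz
    exact congrArg Subtype.val (hc.is_comm.comm (⟨z, hz⟩ : N) ⟨x, hx⟩)
  -- subgroups of N normalized by N
  let Inv : Subgroup H → Prop := fun K => K ≤ N ∧ ∀ n ∈ N, ∀ k ∈ K, n * k * n⁻¹ ∈ K
  have hInvMap : ∀ (g : H) K, Inv K → Inv (K.map (MulAut.conj g).toMonoidHom) := by
    intro g K hK
    refine ⟨?_, ?_⟩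
    · rintro x ⟨k, hk, rfl⟩
      exact hN.conj_mem k (hK.1 hk) g
    · rintro n hn x ⟨k, hk, rfl⟩
      refine ⟨(g⁻¹ * n * g) * k * (g⁻¹ * n * g)⁻¹, hK.2 _ (by simpa using hN.conj_mem n hn g⁻¹) k hk, ?_⟩
      simp [mul_assoc]
  have hcardMap : ∀ (g : H) (K : Subgroup H), Nat.card (K.map (MulAut.conj g).toMonoidHom) = Nat.card K :=
    fun g K => Subgroup.card_map_of_injective (MulEquiv.injective _)
  have hInvP : ∀ K, Inv K → K ≠ ⊥ → p ∣ Nat.card K := by
    intro K hK hK1
    by_contra hKd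
    let S : Set (Subgroup H) := {L | Inv L ∧ ¬ p ∣ Nat.card L}
    obtain ⟨O, hKO, ⟨hO, hOd⟩, hmax⟩ := (Set.toFinite S).exists_le_maximal (a := K) ⟨hK, hKd⟩
    have hOn : O.Normal := by
      refine ⟨fun o ho g => ?_⟩
      let O' := O.map (MulAut.conj g).toMonoidHom
      have hO' : Inv O' := hInvMap g O hO
      have hj : Inv (O ⊔ O') := by
        refine ⟨sup_le hO.1 hO'.1, fun n hn => ?_⟩
        have : O ⊔ O' ≤ (O ⊔ O').comap (MulAut.conj n).toMonoidHom := by
          refine sup_le (fun x hx => ?_) (fun x hx => ?_)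
          · exact Subgroup.mem_sup_left (hO.2 n hn x hx)
          · exact Subgroup.mem_sup_right (hO'.2 n hn x hx)
        exact fun k hk => this hk
      have hd : ¬ p ∣ Nat.card (O ⊔ O' : Subgroup H) := by
        have hle : O' ≤ Subgroup.normalizer (O : Set H) := by
          intro x hx
          rw [Subgroup.mem_normalizer_iff]
          refine fun z => ⟨fun hz => hO.2 x (hO'.1 hx) z hz, fun hz => ?_⟩
          have := hO.2 x⁻¹ (N.inv_mem (hO'.1 hx)) _ hz
          simpa [mul_assoc] using this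
        intro hd
        have h2 : Nat.card (O ⊔ O' : Subgroup H) ∣ Nat.card O * Nat.card O' := by
          rw [← Subgroup.card_mul_index (O.subgroupOf (O ⊔ O')),
            Nat.card_congr (Subgroup.subgroupOfEquivOfLe (le_sup_left : O ≤ O ⊔ O')).toEquiv]
          apply Nat.mul_dvd_mul_left
          rw [← Subgroup.relIndex]
          haveI hOnN : (O.subgroupOf N).Normal := ⟨fun x hx n => hO.2 n n.2 x hx⟩
          have e : O.relIndex (O ⊔ O') = O.relIndex O' := by
            have e1 := Subgroup.relIndex_subgroupOf (H := O) (K := O ⊔ O') (L := N) (sup_le hO.1 hO'.1)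
            have e2 := Subgroup.relIndex_subgroupOf (H := O) (K := O') (L := N) hO'.1
            rw [← e1, ← e2, Subgroup.subgroupOf_sup hO.1 hO'.1, sup_comm, Subgroup.relIndex_sup_right]
          rw [e]
          exact Subgroup.relIndex_dvd_card (H := O) (K := O')
        rcases (Nat.Prime.dvd_mul hp).mp (hd.trans h2) with h3 | h3
        · exact hOd h3
        · exact hOd (hcardMap g O ▸ h3)
      have := hmax (y := O ⊔ O') ⟨hj, hd⟩ le_sup_left
      exact this (Subgroup.mem_sup_right ⟨o, ho, rfl⟩)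
    by_cases hO1 : O = ⊥
    · exact hK1 (eq_bot_iff.mpr (hO1 ▸ hKO))
    · exact hOd (hdvd O hOn hO1)
  have hInvMeet : ∀ K, Inv K → K ≠ ⊥ → ∃ y ∈ K, y ≠ 1 ∧ ∃ g : H, g * y * g⁻¹ ∈ (P : Subgroup H) := by
    intro K hK hK1
    obtain ⟨g, y, h1, h2, h3⟩ := exists_mem_sylow_of_dvd P (hInvP K hK hK1)
    exact ⟨y, h1, h2, g, h3⟩
  have hsimple : ∀ K, Inv K → K ≠ ⊥ → N ≤ K := by
    intro K hK hK1
    let S : Set (Subgroup H) := {L | Inv L ∧ L ≠ ⊥}
    obtain ⟨M, hMK, ⟨hM, hM1⟩, hMmin⟩ := (Set.toFinite S).exists_le_minimal (a := K) ⟨hK, hK1⟩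
    refine le_trans ?_ hMK
    by_cases hMn : M.Normal
    · exact huniq M hMn hM1
    exfalso
    obtain ⟨g₀, hg₀⟩ : ∃ g : H, M.map (MulAut.conj g).toMonoidHom ≠ M := by
      by_contra hc
      push Not at hc
      exact hMn ⟨fun m hm g => (hc g) ▸ (⟨m, hm, rfl⟩ : g * m * g⁻¹ ∈ M.map (MulAut.conj g).toMonoidHom)⟩
    -- distinct conjugates of M centralize each other
    have hconj : ∀ a b : H, M.map (MulAut.conj a).toMonoidHom ≠ M.map (MulAut.conj b).toMonoidHom →
        ∀ x ∈ M.map (MulAut.conj a).toMonoidHom, ∀ z ∈ M.map (MulAut.conj b).toMonoidHom, x * z = z * x := by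
      intro a b hab x hx z hz
      have hA := hInvMap a M hM
      have hB := hInvMap b M hM
      by_contra hxz
      set A := M.map (MulAut.conj a).toMonoidHom
      set B := M.map (MulAut.conj b).toMonoidHom
      have hc : x * z * x⁻¹ * z⁻¹ ∈ A ⊓ B := by
        refine ⟨?_, ?_⟩
        · have := A.mul_mem hx (hA.2 z (hB.1 hz) x⁻¹ (A.inv_mem hx))
          simpa [mul_assoc] using this
        · exact B.mul_mem (hB.2 x (hA.1 hx) z hz) (B.inv_mem hz)
      have hne : A ⊓ B ≠ ⊥ := by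
        intro h
        rw [h, Subgroup.mem_bot, mul_inv_eq_one, mul_inv_eq_iff_eq_mul] at hc
        exact hxz hc
      have hI : Inv ((A ⊓ B).map (MulAut.conj a⁻¹).toMonoidHom) :=
        hInvMap a⁻¹ _ ⟨inf_le_left.trans hA.1, fun n hn k hk => ⟨hA.2 n hn k hk.1, hB.2 n hn k hk.2⟩⟩
      have hle : (A ⊓ B).map (MulAut.conj a⁻¹).toMonoidHom ≤ M := by
        rintro w ⟨v, hv, rfl⟩
        obtain ⟨m, hm, rfl⟩ := hv.1
        simpa [mul_assoc] using hm
      have h0 : (A ⊓ B).map (MulAut.conj a⁻¹).toMonoidHom ≠ ⊥ := by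
        rw [Ne, Subgroup.map_eq_bot_iff_of_injective _ (MulEquiv.injective _)]; exact hne
      have h1 := Subgroup.card_le_of_le (hMmin (y := (A ⊓ B).map (MulAut.conj a⁻¹).toMonoidHom) ⟨hI, h0⟩ hle)
      rw [hcardMap] at h1
      have e1 : A ⊓ B = A := Subgroup.eq_of_le_of_card_ge inf_le_left (by rw [hcardMap]; exact h1)
      have e2 : A ⊓ B = B := Subgroup.eq_of_le_of_card_ge inf_le_right (by rw [hcardMap]; exact h1)
      exact hab (e1.symm.trans e2)
    -- some conjugate of M meets P nontrivially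
    obtain ⟨y, hyM, hy1, g₁, hg₁⟩ := hInvMeet M hM hM1
    -- a conjugate distinct from the conjugate M₁
    obtain ⟨b, hb⟩ : ∃ b : H, M.map (MulAut.conj b).toMonoidHom ≠ M.map (MulAut.conj g₁).toMonoidHom := by
      by_contra hc
      push Not at hc
      exact hg₀ ((hc g₀).trans ((hc 1).symm.trans (by ext; simp)))
    set M₁ := M.map (MulAut.conj g₁).toMonoidHom
    have hy' : g₁ * y * g₁⁻¹ ∈ M₁ := ⟨y, hyM, rfl⟩
    have hy'1 : g₁ * y * g₁⁻¹ ≠ 1 := by simpa using hy1
    -- every other conjugate normalizes P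
    have hother : ∀ c : H, M.map (MulAut.conj c).toMonoidHom ≠ M₁ →
        M.map (MulAut.conj c).toMonoidHom ≤ Subgroup.normalizer ((P : Subgroup H) : Set H) := fun c hc x hx =>
      mem_normalizer_of_commute P hTI hg₁ hy'1 (hconj c g₁ hc x hx _ hy')
    -- hence each of them is contained in P
    set M₂ := M.map (MulAut.conj b).toMonoidHom
    have hM₂ := hInvMap b M hM
    have hM₂n := hother b hb
    have hM₂1 : M₂ ≠ ⊥ := by
      rw [Ne, Subgroup.map_eq_bot_iff_of_injective _ (MulEquiv.injective _)]; exact hM1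
    have hpel : ∀ K : Subgroup H, K ≤ Subgroup.normalizer ((P : Subgroup H) : Set H) →
        ∀ x ∈ K, (∃ k : ℕ, x ^ (p ^ k) = 1) → x ∈ (P : Subgroup H) :=
      fun K hK x hx hk => mem_of_pElement_normalizer P (hK hx) hk
    have hM₂P : M₂ ≤ (P : Subgroup H) := by
      let Q := M₂ ⊓ (P : Subgroup H)
      have hQ : Inv Q := by
        refine ⟨inf_le_left.trans hM₂.1, fun n hn k hk => ?_⟩
        obtain ⟨j, hj⟩ := pow_eq_one_of_mem P hk.2
        exact ⟨hM₂.2 n hn k hk.1, hpel M₂ hM₂n _ (hM₂.2 n hn k hk.1) ⟨j, by rw [conj_pow, hj]; group⟩⟩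
      have hQ1 : Q ≠ ⊥ := by
        intro h
        obtain ⟨z, hz⟩ := exists_prime_orderOf_dvd_card' (G := M₂) p (hInvP M₂ hM₂ hM₂1)
        have hzQ : (z : H) ∈ Q := ⟨z.2, hpel M₂ hM₂n _ z.2 ⟨1, by rw [pow_one, ← hz]; exact congrArg Subtype.val (pow_orderOf_eq_one z)⟩⟩
        rw [h, Subgroup.mem_bot] at hzQ
        have : z = 1 := Subtype.ext hzQ
        rw [this, orderOf_one] at hz
        exact hp.one_lt.ne hz
      have hle : Q.map (MulAut.conj b⁻¹).toMonoidHom ≤ M := by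
        rintro w ⟨v, hv, rfl⟩
        obtain ⟨m, hm, rfl⟩ := hv.1
        simpa [mul_assoc] using hm
      have h0 : Q.map (MulAut.conj b⁻¹).toMonoidHom ≠ ⊥ := by
        rw [Ne, Subgroup.map_eq_bot_iff_of_injective _ (MulEquiv.injective _)]; exact hQ1
      have h1 := Subgroup.card_le_of_le (hMmin (y := Q.map (MulAut.conj b⁻¹).toMonoidHom) ⟨hInvMap _ _ hQ, h0⟩ hle)
      rw [hcardMap] at h1
      have : Q = M₂ := Subgroup.eq_of_le_of_card_ge inf_le_left (by rw [hcardMap]; exact h1)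
      exact this ▸ inf_le_right
    have hpM : IsPGroup p M := by
      refine (P.isPGroup'.to_le hM₂P).of_equiv ?_
      exact (Subgroup.equivMapOfInjective M (MulAut.conj b).toMonoidHom (MulEquiv.injective _)).symm
    -- every conjugate is contained in P
    have hall : ∀ c : H, M.map (MulAut.conj c).toMonoidHom ≤ (P : Subgroup H) := by
      intro c x hx
      have hk : ∃ k : ℕ, x ^ (p ^ k) = 1 := by
        obtain ⟨m, hm, rfl⟩ := hx
        obtain ⟨k, hk⟩ := hpM ⟨m, hm⟩
        exact ⟨k, by rw [← map_pow]; simp [show m ^ (p ^ k) = 1 from congrArg Subtype.val hk]⟩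
      by_cases hc : M.map (MulAut.conj c).toMonoidHom = M₁
      · obtain ⟨w, hw, hw1⟩ := (Subgroup.ne_bot_iff_exists_ne_one).mp hM₂1 |>.elim fun w hw =>
          (⟨(w : H), w.2, fun h => hw (Subtype.ext h)⟩ : ∃ w, w ∈ M₂ ∧ w ≠ 1)
        refine mem_of_pElement_normalizer P (mem_normalizer_of_commute P hTI (hM₂P hw) hw1 ?_) hk
        exact hconj c b (hc ▸ hb.symm) x hx w hw
      · exact mem_of_pElement_normalizer P (hother c hc hx) hk
    apply hM1
    rw [eq_bot_iff, ← hcore]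
    intro m hm g
    exact hall g ⟨m, hm, rfl⟩
  haveI := hN
  refine ⟨N, hN, hN1, huniq, ?_, hnc, hcent, ?_⟩
  · haveI : Nontrivial N := (Subgroup.nontrivial_iff_ne_bot N).mpr hN1
    refine ⟨fun K hK => ?_⟩
    by_cases hK1 : K = ⊥
    · exact Or.inl hK1
    right
    have hI : Inv (K.map N.subtype) := by
      refine ⟨Subgroup.map_subtype_le K, ?_⟩
      rintro n hn x ⟨k, hk, rfl⟩
      exact ⟨⟨n, hn⟩ * k * ⟨n, hn⟩⁻¹, hK.conj_mem k hk _, rfl⟩
    have := hsimple _ hI (by rwa [Ne, Subgroup.map_eq_bot_iff_of_injective _ N.subtype_injective])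
    rw [eq_top_iff]
    intro x _
    obtain ⟨k, hk, hkx⟩ := this x.2
    exact (Subtype.ext hkx : k = x) ▸ hk
  · intro Q
    have hQ1 : (Q : Subgroup N) ≠ ⊥ := Sylow.ne_bot_of_dvd_card Q (hdvd N hN hN1)
    refine ⟨hQ1, fun n hn => ?_⟩
    obtain ⟨R, hR⟩ := (Q.isPGroup'.map N.subtype).exists_le_sylow
    obtain ⟨g, hg⟩ := MulAction.exists_smul_eq H P R
    have hQeq : (Q : Subgroup N) = (R : Subgroup H).subgroupOf N := by
      refine (Q.is_maximal' ?_ (fun x hx => hR ⟨x, hx, rfl⟩)).symm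
      exact R.isPGroup'.comap_of_injective N.subtype N.subtype_injective
    have hnR : (n : H) ∉ Subgroup.normalizer ((R : Subgroup H) : Set H) := by
      intro h
      apply hn
      rw [Subgroup.mem_normalizer_iff]
      intro x
      rw [hQeq]
      simp only [Subgroup.mem_subgroupOf]
      exact (Subgroup.mem_normalizer_iff.mp h (x : H))
    have hTI' : (R : Subgroup H) ⊓ (MulAut.conj (n : H) • (R : Subgroup H)) = ⊥ := by
      have hRg : (R : Subgroup H) = MulAut.conj g • (P : Subgroup H) := by rw [← hg]; rfl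
      have hnP : g⁻¹ * n * g ∉ Subgroup.normalizer ((P : Subgroup H) : Set H) := by
        intro h
        apply hnR
        rw [Subgroup.mem_normalizer_iff] at h ⊢
        intro x
        rw [hRg, Subgroup.mem_pointwise_smul_iff_inv_smul_mem, Subgroup.mem_pointwise_smul_iff_inv_smul_mem]
        have := h ((MulAut.conj g)⁻¹ • x)
        simpa [MulAut.smul_def, mul_assoc] using this
      have h2 := congrArg (fun K : Subgroup H => MulAut.conj g • K) (hTI _ hnP)
      simp only [Subgroup.smul_inf, Subgroup.smul_bot, smul_smul, ← map_mul] at h2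
      rw [hRg, smul_smul, ← map_mul]
      simpa [mul_assoc] using h2
    rw [eq_bot_iff]
    rintro x ⟨hx1, hx2⟩
    have h3 : (x : H) ∈ (R : Subgroup H) ⊓ (MulAut.conj (n : H) • (R : Subgroup H)) := by
      refine ⟨?_, ?_⟩
      · have := hQeq ▸ hx1; exact this
      · refine Subgroup.mem_pointwise_smul_iff_inv_smul_mem.mpr ?_
        have h4 : ((MulAut.conj n)⁻¹ • x : N) ∈ (R : Subgroup H).subgroupOf N := by
          rw [← hQeq]; rwa [← Subgroup.mem_pointwise_smul_iff_inv_smul_mem]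
        exact h4
    rw [hTI', Subgroup.mem_bot] at h3
    exact Subgroup.mem_bot.mpr (Subtype.ext h3)

end Cfsg.Agent.S4620
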