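import Cfsg.Statements.S4624
import Mathlib
import Cfsg.Agent.Lib.GS.SylowGoodVal
import Cfsg.Agent.Lib.Classical.SympOrder

set_option autoImplicit false
open Cfsg

namespace Cfsg.Agent.S4624

open Matrix Cfsg.Agent.Lib.GS Cfsg.Agent.S4623
open scoped MatrixGroups commutatorElement

variable {F : Type*} [Field F]

def eSum (n : ℕ) : Fin 2 × Fin n ≃ Fin n ⊕ Fin n :=
  (Equiv.prodCongr finTwoEquiv (Equiv.refl _)).trans (Equiv.boolProdEquivSum _)

theorem J_eq (n : ℕ) : Matrix.J (Fin n) F =
    (blockDiagonal fun _ : Fin n => !![(0 : F), -1; 1, 0]).submatrix (eSum n).symm (eSum n).symm := by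
  ext i j
  rcases i with i | i <;> rcases j with j | j <;>
    simp [Matrix.J, eSum, blockDiagonal_apply, Matrix.one_apply, finTwoEquiv, apply_ite]

theorem mem_sp {n : ℕ} {M : Matrix (Fin 2 × Fin n) (Fin 2 × Fin n) F}
    (h : M * (blockDiagonal fun _ : Fin n => !![(0 : F), -1; 1, 0]) * Mᵀ =
      blockDiagonal fun _ : Fin n => !![(0 : F), -1; 1, 0]) :
    M.submatrix (eSum n).symm (eSum n).symm ∈ symplecticGroup (Fin n) F := by
  rw [SymplecticGroup.mem_iff, J_eq, transpose_submatrix, submatrix_mul_equiv, submatrix_mul_equiv, h]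

/-- Block diagonal embedding. -/
def phiSp (F : Type*) [Field F] (n : ℕ) : (Fin n → SL(2, F)) →* symplecticGroup (Fin n) F where
  toFun f := ⟨(blockDiagonal fun k => (f k : Matrix (Fin 2) (Fin 2) F)).submatrix (eSum n).symm (eSum n).symm,
    mem_sp (by
      rw [blockDiagonal_transpose, ← blockDiagonal_mul, ← blockDiagonal_mul]
      congr 1
      funext k
      have hd : det (f k : Matrix (Fin 2) (Fin 2) F) = 1 := (f k).2
      rw [det_fin_two] at hd
      ext a b
      fin_cases a <;> fin_cases b <;> simp [Matrix.mul_apply, Fin.sum_univ_two] <;> grind)⟩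
  map_one' := Subtype.ext (by
    change (blockDiagonal (1 : Fin n → Matrix (Fin 2) (Fin 2) F)).submatrix _ _ = 1
    rw [blockDiagonal_one, submatrix_one_equiv])
  map_mul' f g := Subtype.ext (by
    change (blockDiagonal fun k => (f k : Matrix (Fin 2) (Fin 2) F) * (g k : Matrix (Fin 2) (Fin 2) F)).submatrix _ _ = _
    rw [blockDiagonal_mul, Submonoid.coe_mul, submatrix_mul_equiv])

/-- Block permutation embedding. -/
def psiSp (F : Type*) [Field F] (n : ℕ) : Equiv.Perm (Fin n) →* symplecticGroup (Fin n) F where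
  toFun σ := ⟨(pBlock F n σ : Matrix (Fin 2 × Fin n) (Fin 2 × Fin n) F).submatrix (eSum n).symm (eSum n).symm,
    mem_sp (by
      have hc : (pBlock F n σ : Matrix (Fin 2 × Fin n) (Fin 2 × Fin n) F) *
          (blockDiagonal fun _ : Fin n => !![(0 : F), -1; 1, 0]) =
          (blockDiagonal fun _ : Fin n => !![(0 : F), -1; 1, 0]) *
            (pBlock F n σ : Matrix (Fin 2 × Fin n) (Fin 2 × Fin n) F) := by
        ext ⟨a, k⟩ ⟨b, l⟩
        rw [pBlock_mul_apply, mul_pBlock_apply]
        simp only [blockDiagonal_apply, Equiv.symm_apply_eq]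
      have ho : (pBlock F n σ : Matrix (Fin 2 × Fin n) (Fin 2 × Fin n) F) *
          (pBlock F n σ : Matrix (Fin 2 × Fin n) (Fin 2 × Fin n) F)ᵀ = 1 := by
        ext x y
        rw [pBlock_mul_apply]
        have h1 := pBlock_mul_apply (F := F) σ 1 y (x.1, σ.symm x.2)
        rw [mul_one] at h1
        rw [transpose_apply, h1]
        simp only [Matrix.one_apply, Prod.ext_iff, Equiv.apply_eq_iff_eq, eq_comm]
      rw [hc, Matrix.mul_assoc, ho, Matrix.mul_one])⟩
  map_one' := Subtype.ext (by simp)
  map_mul' σ τ := Subtype.ext (by simp [submatrix_mul_equiv])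


/-- Let F be a finite field of odd order and n ≥ 1. A Sylow 2-subgroup P of the symplectic group Sp_{2n}(F) has P/P' elementary abelian: the square of every element of P lies in the derived subgroup of P. -/
theorem result {F : Type*} [Field F] [Fintype F] (hF : Odd (Fintype.card F)) (n : ℕ) (hn : 1 ≤ n) (P : Sylow 2 (Matrix.symplecticGroup (Fin n) F)) :
    ∀ x : (P : Subgroup (Matrix.symplecticGroup (Fin n) F)), x ^ 2 ∈ commutator (P : Subgroup (Matrix.symplecticGroup (Fin n) F)) := by
  classical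
  have : Fact (Nat.Prime 2) := ⟨Nat.prime_two⟩
  obtain ⟨W, hWc, hWg, -⟩ := exists_good 2 n
  obtain ⟨Q⟩ : Nonempty (Sylow 2 SL(2, F)) := inferInstance
  have hval : ∀ f σ, (phiSp F n f * psiSp F n σ : symplecticGroup (Fin n) F).1 =
      ((dBlock F n (fun k => SpecialLinearGroup.toGL (f k)) * pBlock F n σ : GL (Fin 2 × Fin n) F) :
        Matrix (Fin 2 × Fin n) (Fin 2 × Fin n) F).submatrix (eSum n).symm (eSum n).symm := by
    intro f σ
    rw [Submonoid.coe_mul, Units.val_mul]
    exact submatrix_mul_equiv (M := (dBlock F n (fun k => SpecialLinearGroup.toGL (f k)) :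
      Matrix (Fin 2 × Fin n) (Fin 2 × Fin n) F)) ..
  have hconj : ∀ σ f, psiSp F n σ * phiSp F n f * (psiSp F n σ)⁻¹ = phiSp F n (fun i => f (σ.symm i)) := by
    intro σ f
    rw [mul_inv_eq_iff_eq_mul]
    apply Subtype.ext
    rw [Submonoid.coe_mul, hval]
    have := congrArg Units.val (mul_inv_eq_iff_eq_mul.1 (block_conj σ fun k => SpecialLinearGroup.toGL (f k)))
    rw [← this, Units.val_mul]
    exact submatrix_mul_equiv ..
  refine sylow_good_wreath (phiSp F n) (psiSp F n) hconj ?_
    (Subgroup.pi Set.univ fun _ => (Q : Subgroup SL(2, F))) W hWg (fun σ _ f hf i _ => hf _ trivial) ?_ ?_ P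
  · intro f σ h
    have h1 : dBlock F n (fun k => SpecialLinearGroup.toGL (f k)) * pBlock F n σ = 1 := by
      apply Units.ext
      rw [Units.val_one]
      ext x y
      have h2 := congrFun₂ (congrArg Subtype.val h) (eSum n x) (eSum n y)
      rw [hval] at h2
      simpa [Matrix.one_apply] using h2
    obtain ⟨h3, h4⟩ := block_inj _ _ h1
    exact ⟨funext fun k => Cfsg.Agent.Lib.Classical.toGL_injective ((congrFun h3 k).trans (map_one _).symm), h4⟩
  · have hq1 : 1 < Fintype.card F := Fintype.one_lt_card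
    have ho : ¬ 2 ∣ Fintype.card F := by rw [Nat.odd_iff] at hF; omega
    obtain ⟨h1, h2⟩ := v2_prod_even hq1 ho n
    rw [card_pi_univ, sylow_two_card, hWc, Nat.factorization_def _ Nat.prime_two, Nat.factorization_def _ Nat.prime_two,
      v2_card_SL_two hF, Cfsg.Agent.Lib.Classical.card_symplecticGroup, padicValNat.mul (by positivity) h2, h1,
      padicValNat.eq_zero_of_not_dvd (fun h => ho (Nat.prime_two.dvd_of_dvd_pow h)), zero_add, ← pow_mul,
      ← pow_add, mul_comm]
  · intro H hK _ f hf
    rw [← map_pow]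
    have h1 : f ^ 2 ∈ ⁅Subgroup.pi Set.univ fun _ : Fin n => (Q : Subgroup SL(2, F)),
        Subgroup.pi Set.univ fun _ : Fin n => (Q : Subgroup SL(2, F))⁆ := good_pi (good_sl_two_sylow hF Q) f hf
    have h2 := Subgroup.mem_map_of_mem (phiSp F n) h1
    rw [Subgroup.map_commutator] at h2
    exact Subgroup.commutator_mono hK hK h2

end Cfsg.Agent.S4624
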