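import Cfsg.Statements.S4625
import Cfsg.Agent.Lib.BN.SqTwo.Classical
import Cfsg.Agent.Lib.BN.SqTwo.Linear
import Cfsg.Agent.Lib.BN.SqTwo.Ree
import Cfsg.Agent.Lib.Suz.Bridge
-- import your own Cfsg.Agent.* helpers here

set_option autoImplicit false
open Cfsg

namespace Cfsg.Agent.S4625

open Cfsg.Agent.Lib Cfsg.Agent.Lib.BN Cfsg.Agent.Lib.BN.SqTwo

/-- Let G be a finite simple group of Lie type in characteristic 2, not counting the Tits group ²F₄(2)′. Then a Sylow 2-subgroup P of G has P/P' elementary abelian: the square of every element of P lies in the derived subgroup of P. -/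
theorem result {G : Type*} [Group G] [Finite G] [IsSimpleGroup G] (hG : Cfsg.IsLieTypeChar 2 G) (P : Sylow 2 G) :
    ∀ x : (P : Subgroup G), x ^ 2 ∈ commutator (P : Subgroup G) := by
  classical
  haveI : Fact (Nat.Prime 2) := ⟨Nat.prime_two⟩
  have key : ∀ {H : Type} [Group H], Nonempty (G ≃* H) → (Finite H → HasSq H) →
      ∀ x : (P : Subgroup G), x ^ 2 ∈ commutator (P : Subgroup G) := by
    intro H _ he hd
    obtain ⟨e⟩ := he
    haveI : Finite H := Finite.of_equiv G e.toEquiv
    exact (hd inferInstance).sylow e P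
  rcases hG with ⟨F, _, _, _, n, hn, -, he⟩ | ⟨F, _, _, _, m, hm, -, he⟩ |
    ⟨F, _, _, _, n, q, hF, hn, -, he⟩ | ⟨F, _, _, _, m, hm, hodd, he⟩ | ⟨F, _, _, _, m, hm, he⟩ |
    ⟨F, _, _, _, m, a, b, hm, hab, he⟩ | ⟨F, _, _, _, h⟩ | ⟨K, _, _, _, q, hq, h⟩ |
    ⟨-, F, _, _, m, hm, hF, he⟩ | ⟨-, K, _, _, m, hm, hK, he⟩ | ⟨h, -⟩
  · exact key he fun _ => BN.SLSplit.hasSq_psl (by omega)
  · exact key he fun _ => hasSq_psp
  · exact key he fun _ => hasSq_psu hF
  · exfalso
    exact (Nat.not_even_iff_odd.2 hodd) (FiniteField.even_card_of_char_two (ringChar.eq F 2) |> Nat.even_iff.2)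
  · exact key he fun _ => hasSq_plus (by omega)
  · exact key he fun _ => hasSq_minus hab
  · rcases h with ⟨-, he⟩ | he | he | he | he
    · exact key he fun _ => hasSq_chev Chev.G2.checked (by decide +kernel)
    · exact key he fun _ => hasSq_chev Chev.F4.checked (by decide +kernel)
    · exact key he fun _ => hasSq_chev Chev.E6.checked (by decide +kernel)
    · exact key he fun _ => hasSq_chev Chev.E7.checked (by decide +kernel)
    · exact key he fun _ => hasSq_chev Chev.E8.checked (by decide +kernel)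
  · rcases h with ⟨hK, he⟩ | ⟨hK, he⟩
    · exact key he fun _ => hasSq_E6 hq hK
    · exact key he fun _ => hasSq_D4 hq hK
  · have c : Suz.Ctx F m := ⟨hm, hF⟩
    haveI := Suz.charP_two c
    obtain ⟨e⟩ := he
    exact key ⟨e.trans (Suz.lieEquiv c).symm⟩ fun _ => hasSq_suz c
  · haveI : CharP K 2 := charP_of_card_eq_prime_pow hK
    exact key he fun _ => hasSq_F4Ree hm hK
  · exact absurd h (by norm_num)

end Cfsg.Agent.S4625
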