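import Cfsg.Statements.S4627
import Mathlib
import Cfsg.Agent.Lib.GS.SylowGoodVal

set_option autoImplicit false
open Cfsg

namespace Cfsg.Agent.S4627

open Matrix Cfsg.Agent.Lib.GS Cfsg.Agent.S4623
open scoped MatrixGroups commutatorElement Pointwise

variable {F : Type*} [Field F]

/-- `SL_{2m}` inside block-indexed `GL`. -/
noncomputable def jSL (F : Type*) [Field F] (m : ℕ) :
    SpecialLinearGroup (Fin (2 * m)) F →* GL (Fin 2 × Fin m) F :=
  (Units.map (Matrix.reindexAlgEquiv F F (finProdFinEquiv (m := 2) (n := m)).symm).toMonoidHom).comp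
    SpecialLinearGroup.toGL

theorem jSL_injective (m : ℕ) : Function.Injective (jSL F m) := by
  intro a b h
  apply Subtype.ext
  exact (Matrix.reindexAlgEquiv F F (finProdFinEquiv (m := 2) (n := m)).symm).injective (congrArg Units.val h)

theorem mem_jSL_range {m : ℕ} {g : GL (Fin 2 × Fin m) F} (h : GeneralLinearGroup.det g = 1) :
    g ∈ (jSL F m).range := by
  refine ⟨⟨(g : Matrix (Fin 2 × Fin m) (Fin 2 × Fin m) F).submatrix (finProdFinEquiv (m := 2) (n := m)).symm
    (finProdFinEquiv (m := 2) (n := m)).symm, ?_⟩, ?_⟩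
  · rw [det_submatrix_equiv_self]
    exact congrArg Units.val h
  · apply Units.ext
    change ((g : Matrix (Fin 2 × Fin m) (Fin 2 × Fin m) F).submatrix (finProdFinEquiv (m := 2) (n := m)).symm
      (finProdFinEquiv (m := 2) (n := m)).symm).submatrix (finProdFinEquiv (m := 2) (n := m))
      (finProdFinEquiv (m := 2) (n := m)) = _
    rw [submatrix_submatrix, Equiv.symm_comp_self, submatrix_id_id]

/-- A good Sylow subgroup of a symmetric group of 2-power degree in which any two points are swapped. -/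
theorem exists_good_swap (j : ℕ) : ∃ W : Subgroup (Equiv.Perm (Fin (2 ^ j))),
    Nat.card W = 2 ^ ((2 ^ j).factorial.factorization 2) ∧ Good 2 W ∧
      ∀ i k, ∃ σ ∈ W, σ i = k ∧ σ k = i := by
  have : Fact (Nat.Prime 2) := ⟨Nat.prime_two⟩
  obtain ⟨W, hWc, hWg, -⟩ := exists_good 2 (2 ^ j)
  obtain ⟨e⟩ : Nonempty (Fin (2 ^ j) ≃ (Fin j → ZMod 2)) := ⟨Fintype.equivOfCardEq (by simp)⟩
  let τ : Multiplicative (Fin j → ZMod 2) →* Equiv.Perm (Fin (2 ^ j)) :=
    { toFun := fun v => e.symm.permCongr (Equiv.addRight v.toAdd)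
      map_one' := by ext; simp
      map_mul' := fun u v => by
        ext x
        simp only [Equiv.permCongr_apply, Equiv.Perm.mul_apply, Equiv.symm_symm, Equiv.coe_addRight,
          Equiv.apply_symm_apply, toAdd_mul]
        rw [add_assoc, add_comm v.toAdd] }
  have hp : IsPGroup 2 τ.range := by
    have h1 : IsPGroup 2 (Multiplicative (Fin j → ZMod 2)) :=
      IsPGroup.of_card (n := j) (by simp [Nat.card_congr Multiplicative.toAdd])
    rw [MonoidHom.range_eq_map]
    exact (h1.to_subgroup ⊤).map τ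
  obtain ⟨P0, hP0⟩ := hp.exists_le_sylow
  have hWc' : Nat.card W = 2 ^ (Nat.card (Equiv.Perm (Fin (2 ^ j)))).factorization 2 := by
    rw [Nat.card_perm, Nat.card_fin, hWc]
  obtain ⟨g, hg⟩ := MulAction.exists_smul_eq (Equiv.Perm (Fin (2 ^ j))) (Sylow.ofCard W hWc') P0
  refine ⟨(P0 : Subgroup (Equiv.Perm (Fin (2 ^ j)))), ?_, ?_, fun i k => ?_⟩
  · rw [P0.card_eq_multiplicity, Nat.card_perm, Nat.card_fin]
  · rw [← hg, Sylow.coe_subgroup_smul]
    exact good_map (MulAut.conj g).toMonoidHom hWg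
  · have h2 : ∀ x : ZMod 2, x + x = 0 := CharTwo.add_self_eq_zero
    refine ⟨τ (Multiplicative.ofAdd (e i + e k)), hP0 ⟨_, rfl⟩, ?_, ?_⟩ <;>
    · change e.symm (Equiv.addRight (e i + e k) (e _)) = _
      rw [Equiv.symm_apply_eq]
      funext l
      change _ + (e i l + e k l) = _
      first
      | rw [← add_assoc, h2, zero_add]
      | rw [add_comm (e i l), ← add_assoc, h2, zero_add]


/-- Let F be a finite field of odd order q and m ≥ 1. If 4 divides q + 1, or if 4 divides q − 1 and m is a power of 2, then a Sylow 2-subgroup P of SL_{2m}(F) has P/P' elementary abelian: the square of every element of P lies in the derived subgroup of P. -/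
theorem result {F : Type*} [Field F] [Fintype F] (hF : Odd (Fintype.card F)) (m : ℕ) (hm : 1 ≤ m)
    (hq : 4 ∣ Fintype.card F + 1 ∨ (4 ∣ Fintype.card F - 1 ∧ ∃ j : ℕ, m = 2 ^ j)) (P : Sylow 2 (Matrix.SpecialLinearGroup (Fin (2 * m)) F)) :
    ∀ x : (P : Subgroup (Matrix.SpecialLinearGroup (Fin (2 * m)) F)), x ^ 2 ∈ commutator (P : Subgroup (Matrix.SpecialLinearGroup (Fin (2 * m)) F)) := by
  classical
  have : Fact (Nat.Prime 2) := ⟨Nat.prime_two⟩
  obtain ⟨ζ, T, Q, hζ, hQg, hQT, hdT, hQdet, hdec⟩ := exists_sylow_gl_two (F := F) hF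
  have hq1 : 1 < Fintype.card F := Fintype.one_lt_card
  have ho : ¬ 2 ∣ Fintype.card F := by rw [Nat.odd_iff] at hF; omega
  obtain ⟨W, hWc, hWg, hW⟩ : ∃ W : Subgroup (Equiv.Perm (Fin m)),
      Nat.card W = 2 ^ (m.factorial.factorization 2) ∧ Good 2 W ∧
        (dOne F ζ ^ (2 : ℕ) = 1 ∨ ∀ i k, ∃ σ ∈ W, σ i = k ∧ σ k = i) := by
    rcases hq with h | ⟨-, j, rfl⟩
    · obtain ⟨W, hWc, hWg, -⟩ := exists_good 2 m
      refine ⟨W, hWc, hWg, Or.inl ?_⟩
      obtain ⟨k, hk⟩ := h
      have e : Fintype.card F - 1 = 2 * (2 * k - 1) := by omega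
      have ha : vOne F = 1 := by
        rw [vOne, e, padicValNat.mul two_ne_zero (by omega), padicValNat_self,
          padicValNat.eq_zero_of_not_dvd (by omega)]
      rw [← map_pow, show ζ ^ (2 : ℕ) = 1 by rw [← pow_one 2, ← ha, ← hζ]; exact pow_orderOf_eq_one ζ, map_one]
    · obtain ⟨W, hWc, hWg, hsw⟩ := exists_good_swap j
      exact ⟨W, hWc, hWg, Or.inr hsw⟩
  let TT : Subgroup (Fin m → GL (Fin 2) F) := Subgroup.pi Set.univ fun _ => (T : Subgroup (GL (Fin 2) F))
  let dd : (Fin m → GL (Fin 2) F) →* Fˣ := GeneralLinearGroup.det.comp (dBlock F m)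
  have hKmem : ∀ f, f ∈ TT ⊓ dd.ker ↔ (∀ i, f i ∈ T) ∧ ∏ i, GeneralLinearGroup.det (f i) = 1 := by
    intro f
    rw [← det_dBlock]
    exact ⟨fun h => ⟨fun i => h.1 i trivial, h.2⟩, fun h => ⟨fun i _ => h.1 i, h.2⟩⟩
  have hQK : ∀ q : Fin m → GL (Fin 2) F, (∀ i, q i ∈ Q) → q ∈ TT ⊓ dd.ker := fun q hq' =>
    (hKmem q).2 ⟨fun i => hQT (hq' i), Finset.prod_eq_one fun i _ => hQdet _ (hq' i)⟩
  let F' : (Fin m → ℤ) →+ Additive (Fin m → GL (Fin 2) F) := powVec (dOne F ζ) m
  have hFT : ∀ e, Additive.toMul (F' e) ∈ TT := fun e i _ => zpow_mem hdT (e i)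
  have hFdd : ∀ e, dd (Additive.toMul (F' e)) = ζ ^ ∑ i, e i := by
    intro e
    change GeneralLinearGroup.det (dBlock F m fun i => dOne F ζ ^ e i) = _
    rw [det_dBlock]
    simp only [map_zpow, det_dOne]
    exact (map_sum (zmultiplesHom (Additive Fˣ) (Additive.ofMul ζ)) e Finset.univ).symm
  have hcard : Nat.card ↥(TT ⊓ dd.ker) * 2 ^ vOne F = Nat.card TT := by
    have hm0 : Fin m := ⟨0, hm⟩
    have h1 : (TT.map dd) = Subgroup.zpowers ζ := by
      refine le_antisymm ?_ ?_
      · rintro _ ⟨f, hf, rfl⟩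
        obtain ⟨q, hqQ, e, rfl⟩ := decompose_tuple hdec fun i => hf i trivial
        rw [map_mul, show dd q = 1 from (hQK q hqQ).2, one_mul]
        exact ⟨∑ i, e i, (hFdd e).symm⟩
      · rw [Subgroup.zpowers_le]
        exact ⟨_, hFT (Pi.single hm0 1), (hFdd _).trans (by simp)⟩
    have h2 := Subgroup.card_mul_index (dd.domRestrict TT).ker
    rw [Subgroup.index_ker, MonoidHom.domRestrict_range, h1, Nat.card_zpowers, hζ,
      MonoidHom.ker_domRestrict] at h2
    rw [← h2]
    congr 1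
    exact Nat.card_congr
      { toFun := fun f => ⟨⟨f.1, f.2.1⟩, f.2.2⟩
        invFun := fun f => ⟨f.1.1, f.1.2, f.2⟩
        left_inv := fun _ => rfl
        right_inv := fun _ => rfl }
  refine sylow_good_wreath_inj (jSL F m) (jSL_injective m) (dBlock F m) (pBlock F m) block_conj block_inj
    (TT ⊓ dd.ker) W hWg ?_ ?_ ?_ ?_ ?_ P
  · intro σ _ f hf
    rw [hKmem] at hf ⊢
    exact ⟨fun i => hf.1 _, (Equiv.prod_comp σ.symm fun i => GeneralLinearGroup.det (f i)).trans hf.2⟩
  · rintro _ ⟨f, hf, rfl⟩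
    exact mem_jSL_range hf.2
  · rintro _ ⟨σ, -, rfl⟩
    exact mem_jSL_range (det_pBlock σ)
  · obtain ⟨h1, -⟩ := v2_prod_all hq1 ho m
    obtain ⟨h2, -⟩ := v2_prod_all hq1 ho 1
    rw [mul_one] at h2
    have : Nonempty (Fin (2 * m)) := ⟨⟨0, by omega⟩⟩
    have hG := v2_card_GL hF (2 * m)
    rw [Cfsg.Agent.Lib.Classical.card_GL_eq_units_mul_card_SL,
      padicValNat.mul Nat.card_pos.ne' Nat.card_pos.ne', Cfsg.Agent.Lib.Classical.card_units_field, h1] at hG
    refine Nat.eq_of_mul_eq_mul_right (show 0 < 2 ^ vOne F by positivity) ?_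
    rw [mul_right_comm, hcard, card_pi_univ, sylow_two_card, hWc, Nat.factorization_def _ Nat.prime_two,
      Nat.factorization_def _ Nat.prime_two, v2_card_GL hF, ← pow_mul, ← pow_add, ← pow_add, h2]
    congr 1
    rw [Nat.factorial_one, padicValNat_one_right, one_mul, add_zero, mul_comm _ m, vOne]
    omega
  · intro H hK hWH
    let Z : Subgroup (Fin m → GL (Fin 2) F) :=
      { carrier := {f | f ∈ TT ⊓ dd.ker ∧ dBlock F m f ^ 2 ∈ ⁅H, H⁆}
        one_mem' := ⟨one_mem _, by rw [map_one, one_pow]; exact one_mem _⟩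
        mul_mem' := fun {f g} hf hg => ⟨mul_mem hf.1 hg.1, by
          rw [map_mul]
          exact sq_mem_commutator_mul (hK ⟨f, hf.1, rfl⟩) (hK ⟨g, hg.1, rfl⟩) hf.2 hg.2⟩
        inv_mem' := fun {f} hf => ⟨inv_mem hf.1, by rw [map_inv, inv_pow]; exact inv_mem hf.2⟩ }
    have hgenD : ∀ i k, F' (Pi.single i 1 - Pi.single k 1) ∈ Z.toAddSubgroup := by
      intro i k
      have hmem : Additive.toMul (F' (Pi.single i 1 - Pi.single k 1)) ∈ TT ⊓ dd.ker := ⟨hFT _, by
        change dd _ = 1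
        rw [hFdd]
        simp⟩
      refine ⟨hmem, ?_⟩
      rcases hW with h | h
      · rw [← map_pow, show Additive.toMul (F' (Pi.single i 1 - Pi.single k 1)) ^ 2 = 1 from funext fun l => by
          change (dOne F ζ ^ (_ : ℤ)) ^ 2 = 1
          rw [← zpow_natCast, ← _root_.zpow_mul, mul_comm, _root_.zpow_mul, zpow_natCast, h, _root_.one_zpow],
          map_one]
        exact one_mem _
      · obtain ⟨σ, hσ, hσi, hσk⟩ := h i k
        refine sq_mem_commutator_of_inverted (hK ⟨_, hmem, rfl⟩) (hWH ⟨σ, hσ, rfl⟩) ?_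
        rw [block_conj, ← map_inv]
        congr 1
        funext l
        change dOne F ζ ^ ((Pi.single i 1 - Pi.single k 1 : Fin m → ℤ) (σ.symm l)) =
          (dOne F ζ ^ ((Pi.single i 1 - Pi.single k 1 : Fin m → ℤ) l))⁻¹
        rw [← _root_.zpow_neg]
        congr 1
        simp only [Pi.sub_apply, Pi.single_apply, Equiv.symm_apply_eq, hσi, hσk, neg_sub]
    intro f hf
    obtain ⟨q, hqQ, e, rfl⟩ := decompose_tuple hdec fun i => hf.1 i trivial
    have hqZ : q ∈ Z := ⟨hQK q hqQ, good_pi_map _ hQg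
      (le_trans (Subgroup.map_mono fun x hx => hQK x fun i => hx i trivial) hK) hqQ⟩
    suffices Additive.toMul (F' e) ∈ Z from (mul_mem hqZ this).2
    let o : Fin m := ⟨0, hm⟩
    have hsum : ζ ^ (∑ i, e i) = 1 := by
      rw [← hFdd e]
      have hd : dd (q * Additive.toMul (F' e)) = 1 := hf.2
      rwa [map_mul, show dd q = 1 from (hQK q hqQ).2, one_mul] at hd
    have he : F' e = F' (∑ i, e i • (Pi.single i 1 - Pi.single o 1)) := by
      have h0 : F' ((∑ i, e i) • Pi.single o 1) = 0 := by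
        apply Additive.toMul.injective
        funext l
        change dOne F ζ ^ (((∑ i, e i) • (Pi.single o 1 : Fin m → ℤ)) l) = 1
        rw [Pi.smul_apply, smul_eq_mul, _root_.zpow_mul, ← map_zpow, hsum, map_one, _root_.one_zpow]
      simp only [smul_sub, Finset.sum_sub_distrib, ← Finset.sum_smul, map_sub, h0, sub_zero]
      congr 1
      funext l
      simp [Finset.sum_apply, Pi.single_apply]
    have hmem : F' e ∈ Z.toAddSubgroup := by
      rw [he]
      have hall : ∀ i ∈ (Finset.univ : Finset (Fin m)),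
          e i • (Pi.single i 1 - Pi.single o 1 : Fin m → ℤ) ∈ Z.toAddSubgroup.comap F' :=
        fun i _ => zsmul_mem (show Pi.single i 1 - Pi.single o 1 ∈ Z.toAddSubgroup.comap F' from hgenD i o) (e i)
      exact sum_mem hall
    exact hmem

end Cfsg.Agent.S4627
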