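import Cfsg.Statements.S4628
import Mathlib
import Cfsg.Agent.Lib.GS.SylowGoodVal

set_option autoImplicit false
open Cfsg

namespace Cfsg.Agent.S4628

open Matrix Cfsg.Agent.Lib.GS Cfsg.Agent.S4623
open scoped MatrixGroups commutatorElement

variable {F : Type*} [Field F]

def eSL (m : ℕ) : (Fin 2 × Fin m) ⊕ Fin 1 ≃ Fin (2 * m + 1) :=
  (finProdFinEquiv.sumCongr (Equiv.refl _)).trans finSumFinEquiv

/-- `GL_{2m}` inside `SL_{2m+1}`. -/
noncomputable def etaSL (F : Type*) [Field F] (m : ℕ) :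
    GL (Fin 2 × Fin m) F →* SpecialLinearGroup (Fin (2 * m + 1)) F where
  toFun g := ⟨(fromBlocks (g : Matrix (Fin 2 × Fin m) (Fin 2 × Fin m) F) 0 0
      (((GeneralLinearGroup.det g)⁻¹ : Fˣ).val • (1 : Matrix (Fin 1) (Fin 1) F))).submatrix (eSL m).symm (eSL m).symm, by
    rw [det_submatrix_equiv_self, det_fromBlocks_zero₂₁, det_smul, det_one, Fintype.card_fin, pow_one, mul_one]
    exact Units.mul_inv (GeneralLinearGroup.det g)⟩
  map_one' := Subtype.ext (by simp)
  map_mul' g g' := Subtype.ext (by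
    change _ = (fromBlocks (g : Matrix (Fin 2 × Fin m) (Fin 2 × Fin m) F) 0 0
        (((GeneralLinearGroup.det g)⁻¹ : Fˣ).val • (1 : Matrix (Fin 1) (Fin 1) F))).submatrix (eSL m).symm (eSL m).symm *
      (fromBlocks (g' : Matrix (Fin 2 × Fin m) (Fin 2 × Fin m) F) 0 0
        (((GeneralLinearGroup.det g')⁻¹ : Fˣ).val • (1 : Matrix (Fin 1) (Fin 1) F))).submatrix (eSL m).symm (eSL m).symm
    rw [submatrix_mul_equiv, fromBlocks_multiply]
    simp [smul_smul, mul_comm])

theorem etaSL_eq_one {m : ℕ} {g : GL (Fin 2 × Fin m) F} (h : etaSL F m g = 1) : g = 1 := by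
  apply Units.ext
  ext x y
  have h1 := congrFun₂ (congrArg Subtype.val h) (eSL m (Sum.inl x)) (eSL m (Sum.inl y))
  have h2 : (fromBlocks (g : Matrix (Fin 2 × Fin m) (Fin 2 × Fin m) F) 0 0
      (((GeneralLinearGroup.det g)⁻¹ : Fˣ).val • (1 : Matrix (Fin 1) (Fin 1) F))).submatrix (eSL m).symm (eSL m).symm
      (eSL m (Sum.inl x)) (eSL m (Sum.inl y)) =
      (1 : Matrix (Fin (2 * m + 1)) (Fin (2 * m + 1)) F) (eSL m (Sum.inl x)) (eSL m (Sum.inl y)) := h1
  simpa [Matrix.one_apply] using h2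


/-- Let F be a finite field of odd order q with 4 dividing q + 1, and m ≥ 1. Then a Sylow 2-subgroup P of SL_{2m+1}(F) has P/P' elementary abelian: the square of every element of P lies in the derived subgroup of P. -/
theorem result {F : Type*} [Field F] [Fintype F] (hF : Odd (Fintype.card F)) (hq : 4 ∣ Fintype.card F + 1) (m : ℕ) (hm : 1 ≤ m) (P : Sylow 2 (Matrix.SpecialLinearGroup (Fin (2 * m + 1)) F)) :
    ∀ x : (P : Subgroup (Matrix.SpecialLinearGroup (Fin (2 * m + 1)) F)), x ^ 2 ∈ commutator (P : Subgroup (Matrix.SpecialLinearGroup (Fin (2 * m + 1)) F)) := by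
  classical
  have : Fact (Nat.Prime 2) := ⟨Nat.prime_two⟩
  obtain ⟨W, hWc, hWg, -⟩ := exists_good 2 m
  obtain ⟨ζ, T, Q, hζ, hQg, hQT, hdT, -, hdec⟩ := exists_sylow_gl_two (F := F) hF
  have hq1 : 1 < Fintype.card F := Fintype.one_lt_card
  have ho : ¬ 2 ∣ Fintype.card F := by rw [Nat.odd_iff] at hF; omega
  have ha : vOne F = 1 := by
    obtain ⟨k, hk⟩ := hq
    have e : Fintype.card F - 1 = 2 * (2 * k - 1) := by omega
    rw [vOne, e, padicValNat.mul two_ne_zero (by omega), padicValNat_self,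
      padicValNat.eq_zero_of_not_dvd (by omega)]
  have hd2 : dOne F ζ ^ (2 : ℤ) = 1 := by
    rw [← map_zpow, show ζ ^ (2 : ℤ) = 1 by rw [zpow_ofNat, ← pow_one 2, ← ha, ← hζ]; exact pow_orderOf_eq_one ζ,
      map_one]
  refine sylow_good_wreath ((etaSL F m).comp (dBlock F m)) ((etaSL F m).comp (pBlock F m)) ?_ ?_
    (Subgroup.pi Set.univ fun _ => (T : Subgroup (GL (Fin 2) F))) W hWg (fun σ _ f hf i _ => hf _ trivial) ?_ ?_ P
  · intro σ f
    simp only [MonoidHom.comp_apply]
    rw [← map_mul, ← map_inv, ← map_mul, block_conj]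
  · intro f σ h
    exact block_inj f σ (etaSL_eq_one (by simpa using h))
  · obtain ⟨h1, -⟩ := v2_prod_all hq1 ho m
    obtain ⟨h2, -⟩ := v2_prod_all hq1 ho 1
    obtain ⟨-, h3⟩ := v2_prod_all hq1 ho m
    have hG := v2_card_GL hF (2 * m + 1)
    rw [Cfsg.Agent.Lib.Classical.card_GL_eq_units_mul_card_SL,
      padicValNat.mul Nat.card_pos.ne' Nat.card_pos.ne', Cfsg.Agent.Lib.Classical.card_units_field,
      Finset.prod_range_succ, padicValNat.mul h3 (by
        have := Nat.one_lt_pow (n := 2 * m + 1) (by omega) hq1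
        omega), v2_odd_pow hq1 ho, h1] at hG
    rw [card_pi_univ, sylow_two_card, hWc, Nat.factorization_def _ Nat.prime_two, Nat.factorization_def _ Nat.prime_two,
      v2_card_GL hF, ← pow_mul, ← pow_add]
    congr 1
    rw [mul_one] at h2
    rw [h2, Nat.factorial_one, padicValNat.one, Nat.one_mul, add_zero, mul_comm _ m]
    omega
  · intro H hK _ f hf
    obtain ⟨q, hqQ, e, rfl⟩ := decompose_tuple hdec fun i => hf i trivial
    have hqT : q ∈ Subgroup.pi Set.univ fun _ => (T : Subgroup (GL (Fin 2) F)) := fun i _ => hQT (hqQ i)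
    have heT : Additive.toMul (powVec (dOne F ζ) m e) ∈ Subgroup.pi Set.univ fun _ => (T : Subgroup (GL (Fin 2) F)) :=
      fun i _ => zpow_mem hdT (e i)
    rw [map_mul]
    refine sq_mem_commutator_mul (hK ⟨q, hqT, rfl⟩) (hK ⟨_, heT, rfl⟩) (good_pi_map _ hQg ?_ hqQ) ?_
    · refine le_trans (Subgroup.map_mono ?_) hK
      exact fun x hx i hi => hQT (hx i hi)
    · rw [← map_pow, show Additive.toMul (powVec (dOne F ζ) m e) ^ 2 = 1 from funext fun i => by
        change (dOne F ζ ^ e i) ^ 2 = 1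
        rw [← zpow_natCast, ← _root_.zpow_mul, mul_comm, _root_.zpow_mul]
        simp only [Nat.cast_ofNat]
        rw [hd2, _root_.one_zpow], map_one]
      exact one_mem _

end Cfsg.Agent.S4628
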