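import Cfsg.Statements.S4629
import Mathlib
import Cfsg.Agent.Lib.GS.OrthDecomp

set_option autoImplicit false
open Cfsg

namespace Cfsg.Agent.S4629

open QuadraticMap Cfsg.Agent.Lib.Classical.Quad Cfsg.Agent.Lib.Classical.QuadOmega Cfsg.Agent.Lib.GS Cfsg.Agent.Lib.GS.Orth


/-- Let F be a finite field of odd order and m ≥ 3. For the commutator subgroup Ω of the isometry group of the non-singular quadratic form x₀² + Σ x_i y_i in dimension 2m + 1 over F, a Sylow 2-subgroup P of Ω has P/P' elementary abelian: the square of every element of P lies in the derived subgroup of P. -/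
theorem result {F : Type*} [Field F] [Fintype F] (hF : Odd (Fintype.card F)) (m : ℕ) (hm : 3 ≤ m) (P : Sylow 2 (Cfsg.Omega F (Cfsg.quadFormOdd m F))) : ∀ x : (P : Subgroup (Cfsg.Omega F (Cfsg.quadFormOdd m F))), x ^ 2 ∈ commutator (P : Subgroup (Cfsg.Omega F (Cfsg.quadFormOdd m F))) := by
  have : Fact (Nat.Prime 2) := ⟨Nat.prime_two⟩
  have h2 := Cfsg.Agent.Lib.Classical.two_ne_zero_of_odd_card hF
  have hq1 : 1 < Fintype.card F := Fintype.one_lt_card
  have ho : ¬ 2 ∣ Fintype.card F := by rw [Nat.odd_iff] at hF; omega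
  have hQ : Nd (splitQ m (sqQ F)) := nd_splitQ (nd_sqQ h2) m
  have hn : Module.finrank F (((Fin m → F) × (Fin m → F)) × (Unit → F)) = 2 * m + 1 := by
    simp [Module.finrank_prod]; omega
  obtain ⟨b, w, hb, hw1, -, hw0⟩ := exists_diag hQ h2 hn
  obtain ⟨d, e, he, hd, -⟩ := exists_decomp b w hb hw1 hw0 m 1 (by omega) (Or.inl le_rfl)
  intro x
  refine omega_sylow_good _ hF hd (e.trans (eOdd m))
    (fun v => by rw [LinearEquiv.trans_apply, odd_apply, he]) (Or.inl hm) ?_ P x
  obtain ⟨h1, h3⟩ := v2_prod_even hq1 ho m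
  rw [card_O_odd h2, padicValNat.mul (by positivity) h3, padicValNat.mul two_ne_zero (by positivity),
    padicValNat_self, h1, padicValNat.eq_zero_of_not_dvd (fun h => ho (Nat.prime_two.dvd_of_dvd_pow h))]
  omega

end Cfsg.Agent.S4629
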