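import Cfsg.Statements.S4630
import Mathlib
import Cfsg.Agent.Lib.GS.OrthDecomp

set_option autoImplicit false
open Cfsg

namespace Cfsg.Agent.S4630

open QuadraticMap Cfsg.Agent.Lib.Classical.Quad Cfsg.Agent.Lib.Classical.QuadOmega Cfsg.Agent.Lib.GS Cfsg.Agent.Lib.GS.Orth


/-- Let F be a finite field of odd order and m ≥ 1 with m even or m ≥ 4. For the commutator subgroup Ω of the isometry group of the plus-type quadratic form Σ_{i<m} x_i y_i in dimension 2m over F, a Sylow 2-subgroup P of Ω has P/P' elementary abelian: the square of every element of P lies in the derived subgroup of P. -/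
theorem result {F : Type*} [Field F] [Fintype F] (hF : Odd (Fintype.card F)) (m : ℕ) (hm : 1 ≤ m) (hm' : Even m ∨ 4 ≤ m) (P : Sylow 2 (Cfsg.Omega F (Cfsg.quadFormPlus m F))) : ∀ x : (P : Subgroup (Cfsg.Omega F (Cfsg.quadFormPlus m F))), x ^ 2 ∈ commutator (P : Subgroup (Cfsg.Omega F (Cfsg.quadFormPlus m F))) := by
  have : Fact (Nat.Prime 2) := ⟨Nat.prime_two⟩
  have h2 := Cfsg.Agent.Lib.Classical.two_ne_zero_of_odd_card hF
  have hq1 : 1 < Fintype.card F := Fintype.one_lt_card
  have ho : ¬ 2 ∣ Fintype.card F := by rw [Nat.odd_iff] at hF; omega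
  have hQ : Nd (splitQ m (zeroQ F)) := nd_splitQ nd_zeroQ m
  obtain ⟨k, rfl⟩ : ∃ k, m = k + 1 := ⟨m - 1, by omega⟩
  have hn : Module.finrank F (((Fin (k + 1) → F) × (Fin (k + 1) → F)) × (Fin 0 → F)) = (2 * k + 1) + 1 := by
    simp [Module.finrank_prod]; omega
  obtain ⟨b, w, hb, hw1, hwl, hw0⟩ := exists_diag hQ h2 hn
  obtain ⟨hvB, hvC, -⟩ := v2_pow_sub_one hq1 ho (m := k + 1) (by omega)
  obtain ⟨h1, h3⟩ := v2_prod_even hq1 ho k
  have hcard : padicValNat 2 (Nat.card (Cfsg.isometryGroup F (Cfsg.quadFormPlus (k + 1) F))) =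
      1 + padicValNat 2 (Fintype.card F ^ (k + 1) - 1) + (k * padicValNat 2 (Fintype.card F ^ 2 - 1) +
        padicValNat 2 k.factorial) := by
    have hne : Fintype.card F ^ (k + 1) - 1 ≠ 0 := by
      have := Nat.one_lt_pow (n := k + 1) (by omega) hq1
      omega
    rw [card_O_plus, padicValNat.mul (mul_ne_zero (by positivity) hne) h3,
      padicValNat.mul (by positivity) hne, padicValNat.mul two_ne_zero (by positivity),
      padicValNat_self, h1, padicValNat.eq_zero_of_not_dvd (fun h => ho (Nat.prime_two.dvd_of_dvd_pow h))]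
  have hfac : padicValNat 2 (k + 1).factorial = padicValNat 2 (k + 1) + padicValNat 2 k.factorial := by
    rw [Nat.factorial_succ, padicValNat.mul (by omega) k.factorial_ne_zero]
  have hiff : ∀ {m' k' : ℕ} {d : Fin k' → F} (_ : ∀ j, d j ≠ 0) (_ : Even k')
      (e : VV F m' k' ≃ₗ[F] ((Fin (k + 1) → F) × (Fin (k + 1) → F)) × (Fin 0 → F)),
      (∀ v, splitQ (k + 1) (zeroQ F) (e v) = QB m' d v) →
      (Fintype.card F ^ (k + 1) % 4 = 1 ↔ IsSquare (∏ j, d j)) := by
    intro m' k' d hd hk' e he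
    rw [← isSquare_neg_one_pow (F := F) rfl hF, ← negOne_plus_iff h2, ← negOne_QB_iff h2 hk' hd]
    exact negOne_iff_of_iso _ (ePlus (k + 1)) (plus_apply (k + 1)) (e.trans (ePlus (k + 1)))
      fun v => by rw [LinearEquiv.trans_apply, plus_apply, he]
  intro x
  rcases hwl with hl | hl
  · obtain ⟨d, e, he, hd, hprod⟩ := exists_decomp b w hb hw1 hw0 (k + 1) 0 (by omega) (Or.inr hl)
    refine omega_sylow_good _ hF hd (e.trans (ePlus (k + 1)))
      (fun v => by rw [LinearEquiv.trans_apply, plus_apply, he]) ?_ ?_ P x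
    · rcases hm' with ⟨c, hc⟩ | h <;> omega
    · have := hvB ((hiff hd (by decide) e he).2 (by rw [hprod, hl]; exact IsSquare.one))
      rw [hcard, hfac, add_one_mul]
      omega
  · obtain ⟨d, e, he, hd, hprod⟩ := exists_decomp b w hb hw1 hw0 k 2 (by omega) (Or.inl (by omega))
    have h4 : Fintype.card F ^ (k + 1) % 4 = 3 := by
      have h' : Fintype.card F ^ (k + 1) % 4 ≠ 1 := fun h => hl (hprod ▸ (hiff hd (by decide) e he).1 h)
      have := Nat.odd_iff.1 (hF.pow (n := k + 1))
      omega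
    obtain ⟨hv, hm0, -⟩ := hvC h4
    refine omega_sylow_good _ hF hd (e.trans (ePlus (k + 1)))
      (fun v => by rw [LinearEquiv.trans_apply, plus_apply, he]) (Or.inl ?_) ?_ P x
    · rcases hm' with hev | h
      · exfalso
        have hd2 : 2 ∣ k + 1 := even_iff_two_dvd.1 hev
        have := (dvd_iff_padicValNat_ne_zero (p := 2) (n := k + 1) (by omega)).1 hd2
        omega
      · omega
    · rw [hcard]
      omega

end Cfsg.Agent.S4630
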