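import Cfsg.Statements.S4631
import Mathlib
import Cfsg.Agent.Lib.GS.OrthDecomp

set_option autoImplicit false
open Cfsg

namespace Cfsg.Agent.S4631

open QuadraticMap Cfsg.Agent.Lib.Classical.Quad Cfsg.Agent.Lib.Classical.QuadOmega Cfsg.Agent.Lib.GS Cfsg.Agent.Lib.GS.Orth


/-- Let F be a finite field of odd order, m ≥ 4, and a, b ∈ F with z₁² + a z₁ z₂ + b z₂² anisotropic. For the commutator subgroup Ω of the isometry group of the minus-type quadratic form Σ_{i<m−1} x_i y_i + (z₁² + a z₁ z₂ + b z₂²) in dimension 2m over F, a Sylow 2-subgroup P of Ω has P/P' elementary abelian: the square of every element of P lies in the derived subgroup of P. -/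
theorem result {F : Type*} [Field F] [Fintype F] (hF : Odd (Fintype.card F)) (m : ℕ) (hm : 4 ≤ m) (a b : F) (hab : ∀ z₁ z₂ : F, z₁ ^ 2 + a * z₁ * z₂ + b * z₂ ^ 2 = 0 → z₁ = 0 ∧ z₂ = 0) (P : Sylow 2 (Cfsg.Omega F (Cfsg.quadFormMinus (m - 1) F a b))) : ∀ x : (P : Subgroup (Cfsg.Omega F (Cfsg.quadFormMinus (m - 1) F a b))), x ^ 2 ∈ commutator (P : Subgroup (Cfsg.Omega F (Cfsg.quadFormMinus (m - 1) F a b))) := by
  have : Fact (Nat.Prime 2) := ⟨Nat.prime_two⟩
  have h2 := Cfsg.Agent.Lib.Classical.two_ne_zero_of_odd_card hF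
  have hq1 : 1 < Fintype.card F := Fintype.one_lt_card
  have ho : ¬ 2 ∣ Fintype.card F := by rw [Nat.odd_iff] at hF; omega
  obtain ⟨k, rfl⟩ : ∃ k, m = k + 1 := ⟨m - 1, by omega⟩
  revert P
  rw [Nat.add_sub_cancel]
  intro P
  have hQ : Nd (splitQ k (binQ a b)) := nd_splitQ (ndBin hab) k
  have hn : Module.finrank F (((Fin k → F) × (Fin k → F)) × (Fin 2 → F)) = (2 * k + 1) + 1 := by
    simp [Module.finrank_prod]; omega
  obtain ⟨B, w, hb, hw1, hwl, hw0⟩ := exists_diag hQ h2 hn
  obtain ⟨-, hvC, hvB⟩ := v2_pow_sub_one hq1 ho (m := k + 1) (by omega)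
  obtain ⟨h1, h3⟩ := v2_prod_even hq1 ho k
  have hcard : padicValNat 2 (Nat.card (Cfsg.isometryGroup F (Cfsg.quadFormMinus k F a b))) =
      1 + padicValNat 2 (Fintype.card F ^ (k + 1) + 1) + (k * padicValNat 2 (Fintype.card F ^ 2 - 1) +
        padicValNat 2 k.factorial) := by
    rw [card_O_minus hab, padicValNat.mul (by positivity) h3,
      padicValNat.mul (by positivity) (by positivity), padicValNat.mul two_ne_zero (by positivity),
      padicValNat_self, h1, padicValNat.eq_zero_of_not_dvd (fun h => ho (Nat.prime_two.dvd_of_dvd_pow h))]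
  have hfac : padicValNat 2 (k + 1).factorial = padicValNat 2 (k + 1) + padicValNat 2 k.factorial := by
    rw [Nat.factorial_succ, padicValNat.mul (by omega) k.factorial_ne_zero]
  have hiff : ∀ {m' k' : ℕ} {d : Fin k' → F} (_ : ∀ j, d j ≠ 0) (_ : Even k')
      (e : VV F m' k' ≃ₗ[F] ((Fin k → F) × (Fin k → F)) × (Fin 2 → F)),
      (∀ v, splitQ k (binQ a b) (e v) = QB m' d v) →
      (Fintype.card F ^ (k + 1) % 4 = 3 ↔ IsSquare (∏ j, d j)) := by
    intro m' k' d hd hk' e he
    rw [← negOne_mem_minus rfl hF hab, ← negOne_QB_iff h2 hk' hd]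
    exact negOne_iff_of_iso _ (eMinus k) (minus_apply k a b) (e.trans (eMinus k))
      fun v => by rw [LinearEquiv.trans_apply, minus_apply, he]
  intro x
  rcases hwl with hl | hl
  · obtain ⟨d, e, he, hd, hprod⟩ := exists_decomp B w hb hw1 hw0 (k + 1) 0 (by omega) (Or.inr hl)
    refine omega_sylow_good _ hF hd (e.trans (eMinus k))
      (fun v => by rw [LinearEquiv.trans_apply, minus_apply, he]) (Or.inl (by omega)) ?_ P x
    obtain ⟨-, hm0, hv⟩ := hvC ((hiff hd (by decide) e he).2 (by rw [hprod, hl]; exact IsSquare.one))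
    rw [hcard, hfac, add_one_mul]
    omega
  · obtain ⟨d, e, he, hd, hprod⟩ := exists_decomp B w hb hw1 hw0 k 2 (by omega) (Or.inl (by omega))
    have h4 : Fintype.card F ^ (k + 1) % 4 = 1 := by
      have h' : Fintype.card F ^ (k + 1) % 4 ≠ 3 := fun h => hl (hprod ▸ (hiff hd (by decide) e he).1 h)
      have := Nat.odd_iff.1 (hF.pow (n := k + 1))
      omega
    refine omega_sylow_good _ hF hd (e.trans (eMinus k))
      (fun v => by rw [LinearEquiv.trans_apply, minus_apply, he]) (Or.inl (by omega)) ?_ P x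
    rw [hcard, hvB h4]
    omega

end Cfsg.Agent.S4631
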