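import Cfsg.Statements.S4632
import Mathlib
import Cfsg.Agent.Lib.GS.SylowGoodVal
import Cfsg.Agent.Lib.GS.ZornQuaternion

set_option autoImplicit false
open Cfsg

namespace Cfsg.Agent.S4632

open Matrix Cfsg.Lie Cfsg.Agent.Lib.GS Cfsg.Agent.Lib.GS.Zorn Cfsg.Agent.S4623
open scoped MatrixGroups commutatorElement

variable {F : Type*} [Field F]

theorem not_two_dvd_relIndex {G : Type*} [Group G] [Finite G] (A N : Subgroup G) [N.Normal]
    (h : ¬ 2 ∣ A.index) : ¬ 2 ∣ A.relIndex N := by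
  have h1 : (A ⊓ N).relIndex A * A.relIndex (A ⊔ N) = (A ⊓ N).relIndex N * N.relIndex (A ⊔ N) := by
    rw [Subgroup.relIndex_mul_relIndex _ _ _ inf_le_left le_sup_left,
      Subgroup.relIndex_mul_relIndex _ _ _ inf_le_right le_sup_right]
  rw [Subgroup.inf_relIndex_left, Subgroup.inf_relIndex_right, Subgroup.relIndex_sup_right,
    mul_comm (A.relIndex N)] at h1
  have h2 := Nat.eq_of_mul_eq_mul_left (Nat.pos_of_ne_zero Subgroup.index_ne_zero_of_finite) h1
  intro hd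
  refine h (hd.trans ?_)
  rw [← h2, ← Subgroup.relIndex_mul_index (le_sup_left : A ≤ A ⊔ N)]
  exact dvd_mul_right _ _

/-- Diagonal matrices. -/
def dPair (F : Type*) [Field F] : Fˣ × Fˣ →* GL (Fin 2) F :=
  MonoidHom.toHomUnits
    { toFun := fun u => !![(u.1 : F), 0; 0, (u.2 : F)]
      map_one' := by simp [← Matrix.one_fin_two]
      map_mul' := fun u v => by simp [Matrix.mul_fin_two] }

/-- The Weyl element. -/
def wEl (F : Type*) [Field F] : GL (Fin 2) F :=
  ⟨!![0, 1; -1, 0], !![0, -1; 1, 0], by simp [Matrix.mul_fin_two, ← Matrix.one_fin_two],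
    by simp [Matrix.mul_fin_two, ← Matrix.one_fin_two]⟩

theorem wEl_conj (u : Fˣ × Fˣ) : wEl F * dPair F u * (wEl F)⁻¹ = dPair F (u.2, u.1) := by
  rw [mul_inv_eq_iff_eq_mul]
  apply Units.ext
  change !![(0 : F), 1; -1, 0] * !![(u.1 : F), 0; 0, (u.2 : F)] = !![(u.2 : F), 0; 0, (u.1 : F)] * !![0, 1; -1, 0]
  simp [Matrix.mul_fin_two]

theorem wEl_sq : ((wEl F * wEl F : GL (Fin 2) F) : Matrix (Fin 2) (Fin 2) F) = -1 := by
  change !![(0 : F), 1; -1, 0] * !![0, 1; -1, 0] = -1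
  ext i j
  fin_cases i <;> fin_cases j <;> simp [Matrix.mul_apply, Fin.sum_univ_two]

theorem exists_sylow_monomial [Fintype F] : ∃ (ζ : Fˣ) (T : Sylow 2 (GL (Fin 2) F)),
    dOne F ζ ∈ T ∧ wEl F ∈ T ∧ ∀ t ∈ T, ∃ e : ℤ, GeneralLinearGroup.det t = ζ ^ e := by
  have : Fact (Nat.Prime 2) := ⟨Nat.prime_two⟩
  obtain ⟨ζ, hζ, hgen⟩ := exists_two_part_gen (F := F)
  let Z := Subgroup.zpowers ζ
  let D := (Z.prod Z).map (dPair F)
  have hD : IsPGroup 2 D := by
    refine IsPGroup.map (IsPGroup.of_card (n := vOne F + vOne F) ?_) _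
    rw [Nat.card_congr (Subgroup.prodEquiv Z Z).toEquiv, Nat.card_prod, Nat.card_zpowers, hζ, pow_add]
  have hW : IsPGroup 2 (Subgroup.zpowers (wEl F)) := by
    have h4 : wEl F ^ 2 ^ 2 = 1 := by
      apply Units.ext
      rw [show (2 : ℕ) ^ 2 = 2 * 2 from rfl, pow_mul, pow_two (wEl F), pow_two, Units.val_mul, wEl_sq]
      simp
    obtain ⟨j, -, hj⟩ := (Nat.dvd_prime_pow Nat.prime_two).1 (orderOf_dvd_of_pow_eq_one h4)
    exact IsPGroup.of_card (n := j) ((Nat.card_zpowers _).trans hj)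
  have hn : Subgroup.zpowers (wEl F) ≤ Subgroup.normalizer (D : Set (GL (Fin 2) F)) := by
    rw [Subgroup.zpowers_le, Subgroup.mem_normalizer_iff]
    intro g
    constructor
    · rintro ⟨u, hu, rfl⟩
      exact ⟨(u.2, u.1), ⟨hu.2, hu.1⟩, (wEl_conj u).symm⟩
    · rintro ⟨u, hu, hue⟩
      refine ⟨(u.2, u.1), ⟨hu.2, hu.1⟩, ?_⟩
      have h1 := wEl_conj (F := F) (u.2, u.1)
      dsimp only at h1
      rw [hue] at h1
      exact mul_left_cancel (mul_right_cancel h1)
  obtain ⟨T, hT⟩ := (IsPGroup.to_sup_of_normal_left' hD hW hn).exists_le_sylow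
  refine ⟨ζ, T, hT (Subgroup.mem_sup_left ⟨(ζ, 1), ⟨Subgroup.mem_zpowers ζ, one_mem _⟩, ?_⟩),
    hT (Subgroup.mem_sup_right (Subgroup.mem_zpowers _)), fun t ht => ?_⟩
  · apply Units.ext
    change !![(ζ : F), 0; 0, ((1 : Fˣ) : F)] = !![(ζ : F), 0; 0, 1]
    rw [Units.val_one]
  · obtain ⟨k, hk⟩ := T.isPGroup' ⟨t, ht⟩
    obtain ⟨e, he⟩ := Subgroup.mem_zpowers_iff.1 (hgen (GeneralLinearGroup.det t) ⟨k, by
      rw [← map_pow, show t ^ 2 ^ k = 1 from congrArg Subtype.val hk, map_one]⟩)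
    exact ⟨e, he.symm⟩

theorem quaternion_noncomm (k : ℕ) (hk : 1 ≤ k) : ∃ x y : QuaternionGroup (2 ^ k), x * y ≠ y * x := by
  refine ⟨QuaternionGroup.a 1, QuaternionGroup.xa 0, ?_⟩
  simp only [QuaternionGroup.a_mul_xa, QuaternionGroup.xa_mul_a, ne_eq, QuaternionGroup.xa.injEq]
  intro h
  have h1 : ((2 : ℕ) : ZMod (2 * 2 ^ k)) = 0 := by push_cast; linear_combination -h
  rw [ZMod.natCast_eq_zero_iff] at h1
  have h2 := Nat.le_of_dvd (by norm_num) h1
  have : 2 ≤ 2 ^ k := Nat.le_self_pow (by omega) 2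
  omega

/-- `SL₂` in the first coordinate. -/
def iFst (F : Type*) [Field F] : SL(2, F) →* pairs F :=
  MonoidHom.codRestrict ((MonoidHom.inl (GL (Fin 2) F) (GL (Fin 2) F)).comp SpecialLinearGroup.toGL) (pairs F)
    fun x => mem_pairs.2 (by simp only [MonoidHom.comp_apply, MonoidHom.inl_apply, map_one]; exact Units.ext x.2)

/-- `SL₂` in the second coordinate. -/
def iSnd (F : Type*) [Field F] : SL(2, F) →* pairs F :=
  MonoidHom.codRestrict ((MonoidHom.inr (GL (Fin 2) F) (GL (Fin 2) F)).comp SpecialLinearGroup.toGL) (pairs F)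
    fun x => mem_pairs.2 (by simp only [MonoidHom.comp_apply, MonoidHom.inr_apply, map_one]; exact (Units.ext x.2).symm)


/-- Let F be a finite field of odd order and G₂(F) the automorphism group of the split octonion algebra over F (realized on F⁸ with the Zorn vector-matrix multiplication). A Sylow 2-subgroup P of G₂(F) has P/P' elementary abelian: the square of every element of P lies in the derived subgroup of P. -/
theorem result {F : Type*} [Field F] [Fintype F] (hF : Odd (Fintype.card F)) (P : Sylow 2 (Cfsg.Lie.G2 F)) : ∀ x : (P : Subgroup (Cfsg.Lie.G2 F)), x ^ 2 ∈ commutator (P : Subgroup (Cfsg.Lie.G2 F)) := by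
  classical
  have : Fact (Nat.Prime 2) := ⟨Nat.prime_two⟩
  have h2 := Cfsg.Agent.Lib.Classical.two_ne_zero_of_odd_card hF
  obtain ⟨ζ, T, hdT, hwT, hdet⟩ := exists_sylow_monomial (F := F)
  let TT : Subgroup (GL (Fin 2) F) := T
  let ι : SL(2, F) →* GL (Fin 2) F := SpecialLinearGroup.toGL
  have hι : Function.Injective ι := Cfsg.Agent.Lib.Classical.toGL_injective
  let Q0 := TT.comap ι
  have hQp : IsPGroup 2 Q0 := T.isPGroup'.comap_of_injective ι hι
  have hidx : ¬ 2 ∣ Q0.index := by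
    rw [Subgroup.index_comap]
    have : ι.range.Normal := by
      rw [show ι.range = GeneralLinearGroup.det.ker from Cfsg.Agent.Lib.Classical.det_ker_eq_range_toGL.symm]
      infer_instance
    exact not_two_dvd_relIndex TT ι.range T.not_dvd_index
  have hQg : Good 2 Q0 := by simpa using good_sl_two_sylow hF (hQp.toSylow hidx)
  obtain ⟨qx, hqx, qy, hqy, hqne⟩ : ∃ x ∈ Q0, ∃ y ∈ Q0, x * y ≠ y * x := by
    obtain ⟨k, hk, ⟨e⟩⟩ := Cfsg.Agent.Lib.Classical.sl_two_sylow_quaternion hF (hQp.toSylow hidx)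
    obtain ⟨x, y, hxy⟩ := quaternion_noncomm k hk
    refine ⟨_, (e.symm x).2, _, (e.symm y).2, fun h => hxy ?_⟩
    have h' := congrArg e (Subtype.ext h : e.symm x * e.symm y = e.symm y * e.symm x)
    exact (e.apply_symm_apply x ▸ e.apply_symm_apply y ▸ (map_mul e _ _).symm.trans (h'.trans (map_mul e _ _))
      : x * y = y * x)
  -- the Sylow subgroup of the pairs
  let P0 : Subgroup (pairs F) := (TT.prod TT).comap (pairs F).subtype
  have hTTp : IsPGroup 2 (TT.prod TT) := by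
    obtain ⟨n, hn⟩ := IsPGroup.iff_card.1 T.isPGroup'
    refine IsPGroup.of_card (n := n + n) ?_
    rw [Nat.card_congr (Subgroup.prodEquiv TT TT).toEquiv, Nat.card_prod, show Nat.card TT = 2 ^ n from hn, pow_add]
  have hP0idx : ¬ 2 ∣ P0.index := by
    rw [Subgroup.index_comap, Subgroup.range_subtype]
    have : (pairs F).Normal := by rw [pairs]; infer_instance
    refine not_two_dvd_relIndex _ (pairs F) ?_
    rw [Subgroup.index_prod]
    exact Nat.prime_two.not_dvd_mul T.not_dvd_index T.not_dvd_index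
  have hP0p : IsPGroup 2 P0 := hTTp.comap_of_injective _ Subtype.val_injective
  let θ := theta F
  let P1 : Subgroup (G2 F) := P0.map θ
  have hP0mem : ∀ n : pairs F, n ∈ P0 ↔
      (n : GL (Fin 2) F × GL (Fin 2) F).1 ∈ T ∧ (n : GL (Fin 2) F × GL (Fin 2) F).2 ∈ T := fun n => Iff.rfl
  have hi1 : ∀ x ∈ Q0, iFst F x ∈ P0 := fun x hx => ⟨hx, TT.one_mem⟩
  have hi2 : ∀ x ∈ Q0, iSnd F x ∈ P0 := fun x hx => ⟨TT.one_mem, hx⟩
  -- goodness
  let nd : pairs F := ⟨(dOne F ζ, dOne F ζ), mem_pairs.2 rfl⟩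
  have hnd : nd ∈ P0 := ⟨hdT, hdT⟩
  let nw : pairs F := ⟨(wEl F, wEl F), mem_pairs.2 rfl⟩
  have hnw : nw ∈ P0 := ⟨hwT, hwT⟩
  have hnd2 : θ nd ^ 2 = ⁅θ nd, θ nw⁆ := by
    rw [← map_commutatorElement, ← map_pow, ← mul_inv_eq_one, ← map_inv, ← map_mul]
    refine theta_scalar (u := dOne F ζ ^ 2 * ⁅dOne F ζ, wEl F⁆⁻¹) rfl ?_
    rw [GeneralLinearGroup.center_eq_range_scalar]
    refine ⟨ζ, ?_⟩
    rw [eq_mul_inv_iff_mul_eq]
    have hcomm : ⁅dOne F ζ, wEl F⁆ = dPair F (ζ, ζ⁻¹) := by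
      have hd : dOne F ζ = dPair F (ζ, 1) := Units.ext (by
        change !![(ζ : F), 0; 0, 1] = !![(ζ : F), 0; 0, ((1 : Fˣ) : F)]
        rw [Units.val_one])
      rw [commutatorElement_def, hd, show dPair F (ζ, 1) * wEl F * (dPair F (ζ, 1))⁻¹ * (wEl F)⁻¹ =
        dPair F (ζ, 1) * (wEl F * dPair F (ζ, 1) * (wEl F)⁻¹)⁻¹ by group, wEl_conj, ← map_inv, ← map_mul]
      simp
    rw [hcomm]
    apply Units.ext
    rw [pow_two, Units.val_mul, Units.val_mul]
    change (GeneralLinearGroup.scalar (Fin 2) ζ : Matrix (Fin 2) (Fin 2) F) * !![(ζ : F), 0; 0, ((ζ⁻¹ : Fˣ) : F)] =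
      !![(ζ : F), 0; 0, 1] * !![(ζ : F), 0; 0, 1]
    ext i j
    fin_cases i <;> fin_cases j <;> simp [GeneralLinearGroup.coe_scalar, Matrix.mul_apply, Fin.sum_univ_two]
  have hg : Good 2 P1 := by
    have hI : ∀ (j : SL(2, F) →* pairs F), (∀ x ∈ Q0, j x ∈ P0) → ∀ x ∈ Q0, θ (j x) ^ 2 ∈ ⁅P1, P1⁆ := by
      intro j hj x hx
      have hle : Q0.map (θ.comp j) ≤ P1 := by
        rintro _ ⟨y, hy, rfl⟩; exact ⟨_, hj y hy, rfl⟩
      exact Subgroup.commutator_mono hle hle (good_map (θ.comp j) hQg _ ⟨x, hx, rfl⟩)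
    rintro _ ⟨⟨⟨d, g⟩, hn⟩, ⟨hd, hg'⟩, rfl⟩
    obtain ⟨e, he⟩ := hdet d hd
    have hd' : d * (dOne F ζ ^ e)⁻¹ ∈ GeneralLinearGroup.det.ker := by
      rw [MonoidHom.mem_ker, map_mul, map_inv, map_zpow, det_dOne, he, mul_inv_cancel]
    have hg'' : g * (dOne F ζ ^ e)⁻¹ ∈ GeneralLinearGroup.det.ker := by
      rw [MonoidHom.mem_ker, map_mul, map_inv, map_zpow, det_dOne, ← mem_pairs.1 hn, he, mul_inv_cancel]
    rw [Cfsg.Agent.Lib.Classical.det_ker_eq_range_toGL] at hd' hg''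
    obtain ⟨a, ha⟩ := hd'
    obtain ⟨b, hb⟩ := hg''
    have haQ : a ∈ Q0 := by
      change ι a ∈ TT; rw [ha]; exact mul_mem hd (inv_mem (zpow_mem hdT e))
    have hbQ : b ∈ Q0 := by
      change ι b ∈ TT; rw [hb]; exact mul_mem hg' (inv_mem (zpow_mem hdT e))
    have hdec : (⟨(d, g), hn⟩ : pairs F) = iFst F a * iSnd F b * nd ^ e := by
      apply Subtype.ext
      apply Prod.ext
      · change d = ι a * 1 * _
        rw [mul_one, ha]; simp [nd]
      · change g = 1 * ι b * _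
        rw [one_mul, hb]; simp [nd]
    rw [hdec, map_mul, map_mul, map_zpow]
    have m1 : θ (iFst F a) ∈ P1 := Subgroup.mem_map_of_mem θ (hi1 a haQ)
    have m2 : θ (iSnd F b) ∈ P1 := Subgroup.mem_map_of_mem θ (hi2 b hbQ)
    have m3 : θ nd ∈ P1 := Subgroup.mem_map_of_mem θ hnd
    refine sq_mem_commutator_mul (mul_mem m1 m2) (zpow_mem m3 e)
      (sq_mem_commutator_mul m1 m2 (hI _ hi1 a haQ) (hI _ hi2 b hbQ)) ?_
    rw [← zpow_natCast, ← _root_.zpow_mul, mul_comm, _root_.zpow_mul, zpow_natCast, hnd2]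
    exact zpow_mem (Subgroup.commutator_mem_commutator (Subgroup.mem_map_of_mem θ hnd) (Subgroup.mem_map_of_mem θ hnw)) e
  -- the central involution
  let nt : pairs F := ⟨(wEl F * wEl F, 1), mem_pairs.2 (by
    apply Units.ext
    change det ((wEl F * wEl F : GL (Fin 2) F) : Matrix (Fin 2) (Fin 2) F) = det (1 : Matrix (Fin 2) (Fin 2) F)
    rw [wEl_sq, det_neg]
    simp)⟩
  have hnt : nt ∈ P0 := ⟨mul_mem hwT hwT, TT.one_mem⟩
  have htv : ∀ x, (((θ nt : G2 F) : GL (Fin 8) F) : Matrix (Fin 8) (Fin 8) F) *ᵥ x = mk (hP x) (-kP x) := by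
    intro x
    rw [theta_mulVec]
    conv_lhs => rw [← mk_eta x]
    rw [act_mk, wEl_sq]
    simp [nt]
  have ht1 : θ nt ≠ 1 := by
    intro h
    have h1 := htv (mk 0 1)
    rw [h, hP_mk, kP_mk] at h1
    simp only [OneMemClass.coe_one, Units.val_one, one_mulVec] at h1
    have h3 := congrFun₂ (mk_inj h1).2 0 0
    simp at h3
    exact h2 (by linear_combination h3)
  have htc : ∀ n : pairs F, θ n * θ nt = θ nt * θ n := by
    intro n
    rw [← map_mul, ← map_mul]
    congr 1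
    refine Subtype.ext (Prod.ext (Units.ext ?_) ?_)
    · change ((n : GL (Fin 2) F × GL (Fin 2) F).1 : Matrix (Fin 2) (Fin 2) F) * (wEl F * wEl F : GL (Fin 2) F) =
        (wEl F * wEl F : GL (Fin 2) F) * ((n : GL (Fin 2) F × GL (Fin 2) F).1 : Matrix (Fin 2) (Fin 2) F)
      rw [wEl_sq]; simp
    · simp [nt]
  have hcen : ∀ z ∈ P1, (∀ y ∈ P1, z * y = y * z) → z = 1 ∨ z = θ nt := by
    rintro _ ⟨⟨⟨d, g⟩, hn⟩, hnP, rfl⟩ hc
    have hd : ∀ x ∈ Q0, d * ι x = ι x * d := fun x hx => by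
      have h1 := hc _ ⟨_, hi1 x hx, rfl⟩
      rw [← commutatorElement_eq_one_iff_mul_comm, ← map_commutatorElement] at h1
      have h3 := theta_eq_one h1
      change ⁅d, ι x⁆ = ⁅g, 1⁆ at h3
      rwa [commutatorElement_one_right, commutatorElement_eq_one_iff_mul_comm] at h3
    have hgc : ∀ x ∈ Q0, g * ι x = ι x * g := fun x hx => by
      have h1 := hc _ ⟨_, hi2 x hx, rfl⟩
      rw [← commutatorElement_eq_one_iff_mul_comm, ← map_commutatorElement] at h1
      have h3 := theta_eq_one h1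
      change ⁅d, (1 : GL (Fin 2) F)⁆ = ⁅g, ι x⁆ at h3
      rwa [commutatorElement_one_right, eq_comm, commutatorElement_eq_one_iff_mul_comm] at h3
    have hne : (ι qx : Matrix (Fin 2) (Fin 2) F) * ι qy ≠ (ι qy : Matrix (Fin 2) (Fin 2) F) * ι qx := fun h =>
      hqne (hι (Units.ext (by simpa using h)))
    have hds := scalar_of_comm (congrArg Units.val (hd qx hqx)) (congrArg Units.val (hd qy hqy)) hne
    have hgs := scalar_of_comm (congrArg Units.val (hgc qx hqx)) (congrArg Units.val (hgc qy hqy)) hne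
    have hdet' := congrArg Units.val (mem_pairs.1 hn)
    change det (d : Matrix (Fin 2) (Fin 2) F) = det (g : Matrix (Fin 2) (Fin 2) F) at hdet'
    rw [hds, hgs] at hdet'
    simp only [det_smul, det_one, Fintype.card_fin, mul_one] at hdet'
    have hgX : ∀ X, (g : Matrix (Fin 2) (Fin 2) F) * X * ((g⁻¹ : GL (Fin 2) F) : Matrix (Fin 2) (Fin 2) F) = X := by
      intro X
      have hswap : (g : Matrix (Fin 2) (Fin 2) F) * X = X * g := by rw [hgs]; simp
      rw [hswap, Matrix.mul_assoc, Units.mul_inv, Matrix.mul_one]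
    rcases sq_eq_sq_iff_eq_or_eq_neg.1 hdet' with h | h
    · left
      refine g2_ext fun x => ?_
      have hdg : (d : Matrix (Fin 2) (Fin 2) F) = g := by rw [hds, hgs, h]
      rw [theta_mulVec]
      conv_lhs => rw [← mk_eta x]
      rw [act_mk, hdg, hgX, hgX, mk_eta]
      simp
    · right
      refine g2_ext fun x => ?_
      have hdg : (d : Matrix (Fin 2) (Fin 2) F) = -g := by rw [hds, hgs, h, neg_smul]
      rw [htv, theta_mulVec]
      conv_lhs => rw [← mk_eta x]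
      rw [act_mk, hdg, Matrix.neg_mul, Matrix.neg_mul, hgX, hgX]
  have hcentral : ∀ φ : G2 F, φ * θ nt = θ nt * φ → φ ∈ θ.range := by
    intro φ hφ
    obtain ⟨n, hn⟩ := exists_theta_eq h2 φ fun x => by
      rw [← htv, ← htv, mulVec_mulVec, mulVec_mulVec, ← Units.val_mul, ← Units.val_mul, ← Subgroup.coe_mul,
        ← Subgroup.coe_mul, hφ]
    exact ⟨n, hn⟩
  -- maximality
  have hcard : Nat.card P1 = 2 ^ (Nat.card (G2 F)).factorization 2 := by
    obtain ⟨n, hn⟩ := IsPGroup.iff_card.1 (hP0p.map θ)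
    change Nat.card P1 = 2 ^ n at hn
    have hle : n ≤ (Nat.card (G2 F)).factorization 2 :=
      (Nat.prime_two.pow_dvd_iff_le_factorization Nat.card_pos.ne').1 (hn ▸ Subgroup.card_subgroup_dvd_card P1)
    rcases hle.eq_or_lt with h | h
    · rw [hn, h]
    exfalso
    obtain ⟨K, hK, hP1K⟩ := Sylow.exists_subgroup_card_pow_succ
      ((Nat.prime_two.pow_dvd_iff_le_factorization Nat.card_pos.ne').2 h) hn
    have hindex : (P1.subgroupOf K).index = 2 := by
      have h3 := Subgroup.card_mul_index (P1.subgroupOf K)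
      rw [Nat.card_congr (Subgroup.subgroupOfEquivOfLe hP1K).toEquiv, hn, hK, pow_succ] at h3
      exact Nat.eq_of_mul_eq_mul_left (by positivity) h3
    have hnorm := Subgroup.normal_of_index_eq_two hindex
    have htP : θ nt ∈ P1 := ⟨nt, hnt, rfl⟩
    have hKr : K ≤ θ.range := by
      intro x hx
      apply hcentral
      have hconj : ∀ y ∈ P1, ∀ z ∈ K, z * y * z⁻¹ ∈ P1 := fun y hy z hz => by
        simpa [Subgroup.mem_subgroupOf] using hnorm.conj_mem ⟨y, hP1K hy⟩ (Subgroup.mem_subgroupOf.2 hy) ⟨z, hz⟩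
      have hz := hcen _ (hconj _ htP x hx) fun y hy => by
        have h3 : x⁻¹ * y * x ∈ P1 := by simpa using hconj y hy x⁻¹ (inv_mem hx)
        obtain ⟨m, -, hm⟩ := h3
        calc x * θ nt * x⁻¹ * y = x * (θ nt * (x⁻¹ * y * x)) * x⁻¹ := by group
          _ = x * ((x⁻¹ * y * x) * θ nt) * x⁻¹ := by rw [← hm, htc]
          _ = y * (x * θ nt * x⁻¹) := by group
      rcases hz with hz | hz
      · exact absurd (by simpa using hz) ht1
      · exact mul_inv_eq_iff_eq_mul.1 hz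
    let S1 : Sylow 2 θ.range := (hP0p.toSylow hP0idx).mapSurjective θ.rangeRestrict_surjective
    have hS1 : Nat.card (S1 : Subgroup θ.range) = 2 ^ n := by
      rw [← hn]
      change Nat.card (P0.map θ.rangeRestrict) = Nat.card (P0.map θ)
      have hmm : P0.map θ = (P0.map θ.rangeRestrict).map θ.range.subtype := by
        rw [Subgroup.map_map]; rfl
      rw [hmm]
      exact (Subgroup.card_map_of_injective (f := θ.range.subtype) Subtype.val_injective).symm
    have hdvd : 2 ^ n * 2 ∣ 2 ^ n * (S1 : Subgroup θ.range).index := by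
      rw [← pow_succ, ← hS1, Subgroup.card_mul_index, ← hK]
      exact Subgroup.card_dvd_of_le hKr
    exact S1.not_dvd_index (Nat.dvd_of_mul_dvd_mul_left (by positivity) hdvd)
  intro x
  exact good_of_sylow P (Sylow.ofCard P1 hcard) (by simpa using hg) x

end Cfsg.Agent.S4632
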