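import Cfsg.Statements.S4697
import Cfsg.Agent.Lib.MajorForm.Quotient
import Cfsg.Agent.Lib.MajorForm.CyclicMin
import Cfsg.Agent.Lib.BrauerPairs.Maximal
import Mathlib.GroupTheory.Rank

/-!
# Abelian defect groups of rank two or three
-/

set_option autoImplicit false
set_option linter.style.haveILetI false
set_option linter.unusedSectionVars false
open Cfsg Cfsg.Agent.Lib Cfsg.Agent.Lib.Block Cfsg.Agent.Lib.BrauerPairs Cfsg.Agent.Lib.CyclicDefect
  Cfsg.Agent.Lib.MajorForm

namespace Cfsg.Agent.S4697

universe u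

variable {p : ℕ} {M : Ideal AlgInt} [M.IsPrime] {G : Type u} [Group G] [Finite G]

/-- A major subsection with its defect group. -/
theorem exists_major_block_defect (hM : IsPModular p M) {B : Set (IrrCharacter G)} (hB : IsPBlock M B)
    {D : Subgroup G} (hD : IsDefectGroup p M B D) {x : G} (hx : x ∈ D)
    (hxc : ∀ w ∈ D, x * w = w * x) :
    ∃ b : Set (IrrCharacter (Subgroup.centralizer ({x} : Set G))),
      IsInducedBlock M (Subgroup.centralizer ({x} : Set G)) b B ∧
      blockDefect p b = blockDefect p B ∧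
      IsDefectGroup p M b (D.subgroupOf (Subgroup.centralizer ({x} : Set G))) := by
  classical
  haveI : Fact p.Prime := ⟨hM.1⟩
  haveI := Fintype.ofFinite G
  haveI := resField_charP (M := M) hM
  set H := Subgroup.centralizer ({x} : Set G) with hH
  haveI := Fintype.ofFinite H
  set P := Subgroup.zpowers x with hPdef
  have hPD : P ≤ D := Subgroup.zpowers_le.2 hx
  have hDH : D ≤ H := fun w hw => Subgroup.mem_centralizer_singleton_iff.2 (hxc w hw).symm
  obtain ⟨hDp, hDcard, g, hgdef, hgD⟩ := IsDefectGroup.props hM hB hD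
  have hP : IsPGroup p P := hDp.to_le hPD
  have hPH : P ≤ H := hPD.trans hDH
  have hCH : Subgroup.centralizer (P : Set G) ≤ H :=
    Subgroup.centralizer_le (Set.singleton_subset_iff.2 (Subgroup.mem_zpowers x))
  have hHN : H ≤ Subgroup.normalizer (P : Set G) := by
    refine le_trans (fun h hh => ?_) (Subgroup.centralizer_le_normalizer _)
    rw [Subgroup.mem_centralizer_iff]
    intro u hu
    obtain ⟨n, rfl⟩ := Subgroup.mem_zpowers_iff.1 hu
    exact ((show Commute x h from (Subgroup.mem_centralizer_singleton_iff.1 hh).symm).zpow_left n).eq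
  obtain ⟨χ, hχ⟩ := isPBlock_nonempty hB
  have hge := ((isDefectClass_iff hB hχ).1 hgdef).1
  have hgP : g ∈ Subgroup.centralizer (P : Set G) := Subgroup.centralizer_le hPD hgD
  set C := (Subgroup.centralizer (P : Set G) : Set G) with hC
  set a := toSub H (restr C (eIdem B)) with ha
  have hac : IsClassCoeff a := isClassCoeff_toSub_restr hHN (isClassCoeff_eIdem B)
  have haR : IntR M a := intR_toSub (intR_restr _ (intR_eIdem hB))
  have haid : IsIdempotentElem (toF M a) := by
    rw [IsIdempotentElem, ha, toF_toSub, toF_restr, hC, ← toSub_mul_of_supp,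
      ← restr_centralizer_mul (p := p) hP (fun u _ => isClassCoeff_toF (isClassCoeff_eIdem B) u)
        (fun u _ => isClassCoeff_toF (isClassCoeff_eIdem B) u),
      ← toF_mul (intR_eIdem hB) (intR_eIdem hB), (isIdempotentElem_eIdem B).eq]
    exact fun x hx => coeff_restr_of_notMem fun h => hx (hCH h)
  set g' : H := ⟨g, hCH hgP⟩ with hg'
  have hag : redC M (a.coeff g') ≠ 0 := by
    rw [ha, coeff_toSub, coeff_restr_of_mem hgP, coeff_eIdem]
    exact hge
  -- a block whose idempotent keeps the coefficient at `g`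
  set T := (Finset.univ : Finset (IrrCharacter H)).image fun χ : IrrCharacter H =>
    blockOf M (χ : H → ℂ) with hT
  have hblk : ∀ b ∈ T, IsPBlock M b := fun b hb => by
    obtain ⟨χ, -, rfl⟩ := Finset.mem_image.1 hb
    exact isPBlock_blockOf χ
  have hsum : a = ∑ b ∈ T, eIdem b * a := by
    refine eq_of_omega_eq hac (fun u y => ?_) fun φ => ?_
    · simp only [coeff_sum_apply]
      exact Finset.sum_congr rfl fun b _ => ((isClassCoeff_eIdem b).mul hac) u y
    · rw [omega_sum, Finset.sum_eq_single (blockOf M (φ : H → ℂ))]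
      · rw [omega_mul φ (isClassCoeff_eIdem _), omega_eIdem, if_pos (mem_blockOf_self φ), one_mul]
      · intro b hb hne
        rw [omega_mul φ (isClassCoeff_eIdem _), omega_eIdem,
          if_neg fun h => hne (blockOf_eq_of_mem (hblk b hb) h), zero_mul]
      · exact fun hn => absurd (Finset.mem_image.2 ⟨φ, Finset.mem_univ _, rfl⟩) hn
  obtain ⟨b, hbT, hbg⟩ : ∃ b ∈ T, redC M ((eIdem b * a).coeff g') ≠ 0 := by
    by_contra! hcon
    refine hag ?_
    rw [hsum, coeff_sum_apply,
      redC_sum _ fun b hb => ((intR_eIdem (hblk b hb)).mul haR) g']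
    exact Finset.sum_eq_zero hcon
  have hb := hblk b hbT
  have heR := intR_eIdem (M := M) hb
  have hec := isClassCoeff_eIdem b
  obtain ⟨ξ, hξb, hξ⟩ : ∃ ξ ∈ b, redC M (omega (ξ : H → ℂ) a) ≠ 0 := by
    by_contra! hcon
    have hall : ∀ ψ : IrrCharacter H, redC M (omega (ψ : H → ℂ) (eIdem b * a)) = 0 := fun ψ => by
      rw [omega_mul ψ hec, omega_eIdem]
      split_ifs with hψ
      · rw [one_mul]; exact hcon ψ hψ
      · rw [zero_mul, redC_zero]
    obtain ⟨n, hn⟩ := exists_pow_toF_eq_zero (hec.mul hac) (heR.mul haR) hall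
    have hid : IsIdempotentElem (toF M (eIdem b * a)) := by
      have hcomm : eIdem b * a = a * eIdem b := eq_of_omega_eq (hec.mul hac) (hac.mul hec) fun φ => by
        rw [omega_mul φ hec, omega_mul φ hac, mul_comm]
      rw [IsIdempotentElem, ← toF_mul (heR.mul haR) (heR.mul haR),
        show eIdem b * a * (eIdem b * a) = eIdem b * (a * a) by
          rw [mul_assoc, ← mul_assoc a, ← hcomm, mul_assoc, ← mul_assoc (eIdem b) (eIdem b),
            (isIdempotentElem_eIdem b).eq],
        toF_mul heR (haR.mul haR), toF_mul haR haR, haid.eq, ← toF_mul heR haR]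
    have h0 : toF M (eIdem b * a) = 0 := by
      rcases n with _ | n
      · rw [pow_zero] at hn
        rw [← one_mul (toF M (eIdem b * a)), hn, zero_mul]
      · rwa [hid.pow_succ_eq] at hn
    refine hbg ?_
    rw [← coeff_toF, h0]
    simp
  obtain ⟨B', hB'⟩ := inducedBlockDefined_of_brauer hM hP hPH hCH hHN hb
  obtain ⟨χ', hχ'⟩ := isPBlock_nonempty hB'.2.1
  have key := redC_omega_toSub_eq hB' hξb hχ' (isClassCoeff_eIdem B) (intR_eIdem hB)
  rw [← redC_omega_toSub_restr hM hP hPH hHN ξ (isClassCoeff_eIdem B) (intR_eIdem hB),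
    omega_eIdem] at key
  have hmem : χ' ∈ B := by
    by_contra hn
    rw [if_neg hn, redC_zero] at key
    exact hξ key
  obtain rfl := eq_of_mem_of_mem hB hB'.2.1 hmem hχ'
  obtain ⟨E, hE⟩ := exists_isDefectGroup hM hb
  have hle1 : blockDefect p b ≤ blockDefect p B := by
    obtain ⟨E', hE', hle⟩ := exists_defect_ge_of_induced hM hB' hE
    refine (Nat.pow_le_pow_iff_right hM.1.one_lt).1 ?_
    rw [← (IsDefectGroup.props hM hb hE).2.1, ← (IsDefectGroup.props hM hB hE').2.1,
      Nat.card_congr (E.equivMapOfInjective _ H.subtype_injective).toEquiv]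
    exact Subgroup.card_le_of_le hle
  have hDp' : IsPGroup p (D.subgroupOf H) :=
    hDp.of_equiv (Subgroup.subgroupOfEquivOfLe hDH).symm
  have hg'D : g' ∈ Subgroup.centralizer (D.subgroupOf H : Set H) :=
    Subgroup.mem_centralizer_iff.2 fun u hu =>
      Subtype.ext (Subgroup.mem_centralizer_iff.1 hgD (u : G) hu)
  obtain ⟨y, hy, hy'⟩ := exists_support_of_mul_ne_zero hM hec heR hac haR hbg hDp' hg'D
  rw [coeff_eIdem] at hy'
  obtain ⟨c, hc⟩ := conjLE_defect_of_support hM hb hE hy' hDp' hy
  have hcard : Nat.card (D.subgroupOf H) = p ^ blockDefect p B :=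
    (Nat.card_congr (Subgroup.subgroupOfEquivOfLe hDH).toEquiv).trans hDcard
  have hEc := (IsDefectGroup.props hM hb hE).2.1
  have heq : (D.subgroupOf H).map (MulAut.conj c).toMonoidHom = E :=
    map_eq_of_le_of_card_le hc (by
      rw [hcard, hEc]; exact Nat.pow_le_pow_right hM.1.pos hle1)
  have hback : E.map (MulAut.conj c⁻¹).toMonoidHom = D.subgroupOf H := by
    rw [← heq, Subgroup.map_map]
    convert Subgroup.map_id _
    ext u
    simp [mul_assoc]
  refine ⟨b, hB', Nat.pow_right_injective hM.1.two_le ?_, hback ▸ IsDefectGroup.map_conj hM hb hE c⁻¹⟩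
  show p ^ blockDefect p b = p ^ blockDefect p B
  rw [← hEc, ← heq, ← hcard]
  exact (Nat.card_congr ((D.subgroupOf H).equivMapOfInjective _
    (MulAut.conj c).injective).toEquiv).symm

/-- A major subsection at a generator, and the block of the quotient it dominates. -/
theorem step (hM : IsPModular p M) {B : Set (IrrCharacter G)} (hB : IsPBlock M B) {D : Subgroup G}
    (hD : IsDefectGroup p M B D) {x : D} (hx : ∀ w : D, x * w = w * x) {s : Set D}
    (hs : Subgroup.closure (insert x s) = ⊤) :
    ∃ (Q : Type u) (_ : Group Q) (_ : Finite Q) (bb : Set (IrrCharacter Q)) (Db : Subgroup Q)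
      (t : D → Q),
      IsPBlock M bb ∧ IsDefectGroup p M bb Db ∧ Db = Subgroup.closure (t '' s) ∧
      (∀ a c : D, a * c = c * a → t a * t c = t c * t a) ∧
      Nat.card Db * orderOf x = Nat.card D ∧
      ∀ (μ : ℕ), 1 ≤ μ → (∀ [Fintype Q], HasFormMin p (blockDefect p bb) bb μ) →
        μ * Nat.card B ≤ p ^ blockDefect p B * blockRank p bb := by
  classical
  haveI : Fact p.Prime := ⟨hM.1⟩
  set H := Subgroup.centralizer ({(x : G)} : Set G) with hH
  obtain ⟨b, hind, hbd, hbD⟩ := exists_major_block_defect hM hB hD (x := (x : G)) x.2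
    fun w hw => congrArg Subtype.val (hx ⟨w, hw⟩)
  haveI := Fintype.ofFinite G
  haveI := Fintype.ofFinite H
  have hb := hind.1
  have hDp : IsPGroup p D := (IsDefectGroup.props hM hB hD).1
  have hDH : D ≤ H := fun w hw =>
    Subgroup.mem_centralizer_singleton_iff.2 (congrArg Subtype.val (hx ⟨w, hw⟩)).symm
  set z : H := ⟨(x : G), hDH x.2⟩ with hz'
  have hz : z ∈ Subgroup.center H := Subgroup.mem_center_iff.2 fun c =>
    Subtype.ext (Subgroup.mem_centralizer_singleton_iff.1 c.2)
  have hzo : orderOf z = orderOf x := by rw [hz', Subgroup.orderOf_mk, Subgroup.orderOf_coe]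
  have hxp : IsPElem p (x : G) := isPElem_of_mem hDp x.2
  have hzp : IsPElem p z := by
    obtain ⟨k, hk⟩ := hxp
    exact ⟨k, by rw [hz', Subgroup.orderOf_mk, hk]⟩
  set Z := Subgroup.zpowers z with hZ
  have hZc := zpowers_le_center hz
  haveI : Z.Normal := ⟨fun v hv g => by
    rwa [Subgroup.mem_center_iff.1 (hZc hv) g, mul_inv_cancel_right]⟩
  haveI := Fintype.ofFinite (H ⧸ Z)
  have hZp : IsPGroup p Z := hzp.isPGroup_zpowers
  obtain ⟨hbb, hdef⟩ := isPBlock_deflSet hM hZp (sup_centralizer_eq_top hZc) hb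
  obtain ⟨hrank, hform⟩ := rank_and_form (N := Z) hM hb hz hzp rfl
  let φ : D →* H ⧸ Z := (QuotientGroup.mk' Z).comp (Subgroup.inclusion hDH)
  have hDb : (D.subgroupOf H).map (QuotientGroup.mk' Z) = φ.range := by
    rw [MonoidHom.range_comp, Subgroup.inclusion_range hDH]
  have hgen : φ.range = Subgroup.closure (φ '' s) := by
    rw [MonoidHom.range_eq_map, ← hs, MonoidHom.map_closure, Set.image_insert_eq,
      show φ x = 1 from (QuotientGroup.eq_one_iff _).2 (Subgroup.mem_zpowers z),
      Subgroup.closure_insert_one]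
  have hker : φ.ker = Subgroup.zpowers x := by
    ext w
    rw [MonoidHom.mem_ker]
    constructor
    · intro hw
      obtain ⟨k, hk⟩ := (QuotientGroup.eq_one_iff _).1 hw
      refine ⟨k, Subtype.ext ?_⟩
      simpa [hz'] using congrArg (fun v : H => (v : G)) hk
    · rintro ⟨k, rfl⟩
      refine (QuotientGroup.eq_one_iff _).2 ⟨k, Subtype.ext ?_⟩
      simp [hz']
  have hcard : Nat.card φ.range * orderOf x = Nat.card D := by
    rw [← Nat.card_congr (QuotientGroup.quotientKerEquivRange φ).toEquiv, ← Nat.card_zpowers x,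
      ← hker, ← Subgroup.card_eq_card_quotient_mul_card_subgroup]
  have hDbd : IsDefectGroup p M (deflSet Z b) φ.range :=
    (hdef _).2 ⟨_, hbD, hDb.symm⟩
  refine ⟨H ⧸ Z, inferInstance, inferInstance, deflSet Z b, φ.range, φ, hbb, hDbd, hgen,
    fun a c hac => by rw [← map_mul, hac, map_mul], hcard, fun μ hμ hmin => ?_⟩
  have hpow : p ^ blockDefect p (deflSet Z b) * orderOf z = p ^ blockDefect p B := by
    rw [← (IsDefectGroup.props hM hbb hDbd).2.1, hzo, hcard, (IsDefectGroup.props hM hB hD).2.1]
  rw [← hrank]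
  exact mul_card_le hM hxp hind hbd rfl hμ (hform _ _ μ hpow hmin)

/-- A defect group generated by two commuting elements bounds the number of characters by its
order. -/
theorem card_le_two (hM : IsPModular p M) {B : Set (IrrCharacter G)} (hB : IsPBlock M B)
    {D : Subgroup G} (hD : IsDefectGroup p M B D) {u v : D} (huv : Subgroup.closure {u, v} = ⊤)
    (hab : ∀ a c : D, a * c = c * a) : Nat.card B ≤ p ^ blockDefect p B := by
  classical
  haveI : Fact p.Prime := ⟨hM.1⟩
  obtain ⟨Q, iG, iF, bb, Db, t, hbb, hDb, hgen, -, -, hle⟩ :=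
    step hM hB hD (x := u) (fun w => hab u w) (s := {v}) huv
  haveI := Fintype.ofFinite Q
  rw [Set.image_singleton, ← Subgroup.zpowers_eq_closure] at hgen
  by_cases h0 : Db = ⊥
  · have hd0 : blockDefect p bb = 0 := by
      have hc := (IsDefectGroup.props hM hbb hDb).2.1
      rw [h0, Subgroup.card_bot] at hc
      exact (Nat.pow_eq_one.1 hc.symm).resolve_left hM.1.ne_one
    have h1 : Nat.card bb ≤ 1 := by
      have h := (card_block_le_pow hM 0 hbb hd0).1 (by norm_num)
      rwa [pow_zero] at h
    have h := hle 1 le_rfl (hasFormMin_one hM hbb rfl)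
    rw [one_mul] at h
    calc Nat.card B ≤ p ^ blockDefect p B * blockRank p bb := h
      _ ≤ p ^ blockDefect p B * 1 := Nat.mul_le_mul_left _ ((blockRank_le_card bb).trans h1)
      _ = p ^ blockDefect p B := mul_one _
  · obtain ⟨e, hpair⟩ := exists_pair_on_defect hM hbb hDb
    have hcardDb := (IsDefectGroup.props hM hbb hDb).2.1
    have hcyc : IsCyclic Db := by rw [hgen]; infer_instance
    obtain ⟨S⟩ := exists_setup hM (isMaximal_of_card hM hpair hcardDb) hcyc h0
    have hm : 0 < S.m := Nat.pos_of_ne_zero fun h => by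
      have h1 := S.m_mul_r_add
      have := Nat.one_lt_pow S.a_pos.ne' hM.1.one_lt
      rw [h, zero_mul] at h1
      omega
    have hrankm := S.exists_structure.1
    have ha : blockDefect p bb = S.a :=
      Nat.pow_right_injective hM.1.two_le (hcardDb.symm.trans S.card_P)
    have h := hle S.m hm (by
      intro inst
      rw [ha]
      convert hasFormMin_cyclic S)
    rw [hrankm, mul_comm (p ^ _)] at h
    exact Nat.le_of_mul_le_mul_left h hm

theorem card_zpowers_sup_le {A : Type u} [CommGroup A] [Finite A] (H : Subgroup A) (a : A) :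
    Nat.card (Subgroup.zpowers a ⊔ H : Subgroup A) ≤ orderOf a * Nat.card H := by
  rw [← Nat.card_zpowers, ← Nat.card_prod]
  refine Nat.card_le_card_of_surjective
    (fun w : Subgroup.zpowers a × H => (⟨(w.1 : A) * (w.2 : A),
      Subgroup.mul_mem_sup w.1.2 w.2.2⟩ : (Subgroup.zpowers a ⊔ H : Subgroup A))) fun w => ?_
  obtain ⟨y, hy, z, hz, hw⟩ := Subgroup.mem_sup.1 w.2
  exact ⟨(⟨y, hy⟩, ⟨z, hz⟩), Subtype.ext hw⟩

theorem card_le_orderOf {A : Type u} [CommGroup A] [Finite A] {u v w : A}
    (h : Subgroup.closure {u, v, w} = ⊤) :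
    Nat.card A ≤ orderOf u * (orderOf v * orderOf w) := by
  rw [← Nat.card_congr (Equiv.subtypeUnivEquiv (p := fun a : A => a ∈ (⊤ : Subgroup A))
      fun a => Subgroup.mem_top a), ← h,
    show ({u, v, w} : Set A) = {u} ∪ ({v} ∪ {w}) from rfl, Subgroup.closure_union,
    Subgroup.closure_union, ← Subgroup.zpowers_eq_closure, ← Subgroup.zpowers_eq_closure,
    ← Subgroup.zpowers_eq_closure]
  refine (card_zpowers_sup_le _ u).trans (Nat.mul_le_mul_left _ ?_)
  refine (card_zpowers_sup_le _ v).trans (Nat.mul_le_mul_left _ ?_)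
  rw [Nat.card_zpowers]

/-- A defect group generated by three elements. -/
theorem card_le_three (hM : IsPModular p M) {B : Set (IrrCharacter G)} (hB : IsPBlock M B)
    {D : Subgroup G} (hD : IsDefectGroup p M B D) {u v w : D}
    (huvw : Subgroup.closure {u, v, w} = ⊤) (hab : ∀ a c : D, a * c = c * a)
    (hv : orderOf v ≤ orderOf u) (hw : orderOf w ≤ orderOf u) :
    Nat.card B ^ 3 ≤ p ^ (5 * blockDefect p B) := by
  classical
  haveI : Fact p.Prime := ⟨hM.1⟩
  set d := blockDefect p B with hd
  obtain ⟨Q, iG, iF, bb, Db, t, hbb, hDb, hgen, hcomm, hcard, hle⟩ :=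
    step hM hB hD (x := u) (fun y => hab u y) (s := {v, w}) huvw
  haveI := Fintype.ofFinite Q
  rw [Set.image_pair] at hgen
  have hv' : t v ∈ Db := hgen ▸ Subgroup.subset_closure (by simp)
  have hw' : t w ∈ Db := hgen ▸ Subgroup.subset_closure (by simp)
  have hgen' : Subgroup.closure {(⟨t v, hv'⟩ : Db), ⟨t w, hw'⟩} = ⊤ := by
    apply Subgroup.map_injective Db.subtype_injective
    rw [MonoidHom.map_closure, Set.image_pair, ← MonoidHom.range_eq_map, Subgroup.range_subtype]
    exact hgen.symm
  have hcomm' : ∀ a c : Db, a * c = c * a := by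
    have hle : Db ≤ Subgroup.centralizer (Db : Set Q) := by
      conv_lhs => rw [hgen]
      rw [Subgroup.closure_le]
      intro g hg
      rw [SetLike.mem_coe, hgen, Subgroup.centralizer_closure, Subgroup.mem_centralizer_iff]
      intro g' hg'
      rcases hg with rfl | rfl <;> rcases hg' with rfl | rfl <;> first | rfl | exact hcomm _ _ (hab _ _)
    exact fun a c => Subtype.ext (Subgroup.mem_centralizer_iff.1 (hle c.2) a a.2)
  have hkb := card_le_two hM hbb hDb hgen' hcomm'
  have h := hle 1 le_rfl (hasFormMin_one hM hbb rfl)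
  rw [one_mul] at h
  replace h : Nat.card B ≤ p ^ d * p ^ blockDefect p bb :=
    h.trans (Nat.mul_le_mul_left _ ((blockRank_le_card bb).trans hkb))
  obtain ⟨s, hs⟩ : IsPElem p (u : G) :=
    isPElem_of_mem (IsDefectGroup.props hM hB hD).1 u.2
  rw [Subgroup.orderOf_coe] at hs
  have hDc := (IsDefectGroup.props hM hB hD).2.1
  have hsum : blockDefect p bb + s = d := by
    rw [(IsDefectGroup.props hM hbb hDb).2.1, hs, ← pow_add, hDc] at hcard
    exact Nat.pow_right_injective hM.1.two_le hcard
  have h3 : d ≤ 3 * s := by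
    letI : CommGroup D := { (inferInstance : Group D) with mul_comm := hab }
    have h1 : Nat.card D ≤ orderOf u * (orderOf v * orderOf w) := card_le_orderOf huvw
    refine (Nat.pow_le_pow_iff_right hM.1.one_lt).1 ?_
    rw [hDc] at h1
    refine h1.trans ((Nat.mul_le_mul_left _ (Nat.mul_le_mul hv hw)).trans_eq ?_)
    rw [hs]
    ring
  calc Nat.card B ^ 3 ≤ (p ^ d * p ^ blockDefect p bb) ^ 3 := Nat.pow_le_pow_left h 3
    _ = p ^ (3 * d + 3 * blockDefect p bb) := by rw [← pow_add, ← pow_mul]; congr 1; ring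
    _ ≤ p ^ (5 * d) := Nat.pow_le_pow_right hM.1.pos (by omega)

/-- Let p be a prime, M a maximal ideal of the algebraic integers containing p, and B a p-block of the finite group G with an abelian defect group D of order p^d. If D has rank 2 (its least number of generators is 2) then B contains at most p^d irreducible characters; if D has rank 3 then the number k of irreducible characters in B satisfies k^3 ≤ p^(5d). -/
theorem result {G : Type*} [Group G] [Finite G] (p : ℕ) [Fact p.Prime] (M : Ideal Cfsg.AlgInt) (hM : Cfsg.IsPModular p M) (B : Set (Cfsg.IrrCharacter G)) (hB : Cfsg.IsPBlock M B) (D : Subgroup G) (hBD : Cfsg.IsDefectGroup p M B D) (hab : IsMulCommutative D) (d : ℕ) (hDd : Nat.card D = p ^ d) : (Group.rank D = 2 → Nat.card B ≤ p ^ d) ∧ (Group.rank D = 3 → Nat.card B ^ 3 ≤ p ^ (5 * d)) := by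
  classical
  haveI : M.IsPrime := hM.2.1.isPrime
  have hcomm : ∀ a c : D, a * c = c * a := fun a c => hab.is_comm.comm a c
  have hd : blockDefect p B = d := Nat.pow_right_injective hM.1.two_le
    ((IsDefectGroup.props hM hB hBD).2.1.symm.trans hDd)
  subst hd
  obtain ⟨S, hS, hgen⟩ := Group.rank_spec D
  refine ⟨fun h2 => ?_, fun h3 => ?_⟩
  · obtain ⟨u, v, -, rfl⟩ := Finset.card_eq_two.1 (hS.trans h2)
    exact card_le_two hM hB hBD (by simpa using hgen) hcomm
  · obtain ⟨u, v, w, -, -, -, rfl⟩ := Finset.card_eq_three.1 (hS.trans h3)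
    replace hgen : Subgroup.closure ({u, v, w} : Set D) = ⊤ := by simpa using hgen
    by_cases h1 : orderOf v ≤ orderOf u ∧ orderOf w ≤ orderOf u
    · exact card_le_three hM hB hBD hgen hcomm h1.1 h1.2
    by_cases h2 : orderOf w ≤ orderOf v
    · refine card_le_three hM hB hBD (u := v) (v := u) (w := w) ?_ hcomm (by omega) h2
      rw [Set.insert_comm]; exact hgen
    · refine card_le_three hM hB hBD (u := w) (v := u) (w := v) ?_ hcomm (by omega) (by omega)
      rw [Set.insert_comm, Set.pair_comm w v]; exact hgen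

end Cfsg.Agent.S4697
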