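import Cfsg.Statements.S4743
import Cfsg.Agent.S4742

set_option autoImplicit false
open Cfsg

namespace Cfsg.Agent.S4743

theorem defect_zero_of_normal {G : Type*} [Group G] [Finite G] (p q : ℕ) [Fact p.Prime] [Fact q.Prime]
    (hppq : p ≠ q) (hpG : p ∣ Nat.card G) (hqG : q ∣ Nat.card G)
    (hC : ∀ g : G, g ≠ 1 → (∃ k : ℕ, orderOf g = p ^ k) → ¬ q ∣ Nat.card ↥(Subgroup.centralizer ({g} : Set G)))
    (N : Subgroup G) [hN : N.Normal] (hq : q ∣ Nat.card N) (hp : ¬ p ∣ Nat.card N) :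
    ∃ χ : Cfsg.IrrCharacter G, (Cfsg.charDegree (χ : G → ℂ)).factorization p = (Nat.card G).factorization p := by
  refine (S4742.result p q hppq hpG hqG hC).resolve_right fun h => ?_
  obtain ⟨z, hz⟩ := exists_prime_orderOf_dvd_card' (G := N) q hq
  have hz' : orderOf (z : G) = q := by rw [Subgroup.orderOf_coe, hz]
  obtain ⟨g, k, hg, hk, hne, j, hj⟩ := h z
    (fun h1 => (Fact.out : q.Prime).one_lt.ne (by rw [← hz', h1, orderOf_one])) ⟨1, by rw [pow_one, hz']⟩
  have hmem : ∀ x : G, IsConj (z : G) x → x ∈ N := by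
    intro x hx
    obtain ⟨c, rfl⟩ := isConj_iff.mp hx
    exact hN.conj_mem _ z.2 c
  have hgk : g * k⁻¹ ∈ N := N.mul_mem (hmem g hg) (N.inv_mem (hmem k hk))
  have hd := orderOf_dvd_natCard (⟨g * k⁻¹, hgk⟩ : N)
  rw [Subgroup.orderOf_mk, hj] at hd
  rcases j with _ | j
  · exact hne (orderOf_eq_one_iff.mp (by rw [hj, pow_zero]))
  · exact hp ((dvd_pow_self p (Nat.succ_ne_zero j)).trans hd)

theorem symm_hyp {G : Type*} [Group G] [Finite G] (p q : ℕ) [Fact p.Prime] [Fact q.Prime]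
    (hC : ∀ g : G, g ≠ 1 → (∃ k : ℕ, orderOf g = p ^ k) → ¬ q ∣ Nat.card ↥(Subgroup.centralizer ({g} : Set G))) :
    ∀ g : G, g ≠ 1 → (∃ k : ℕ, orderOf g = q ^ k) → ¬ p ∣ Nat.card ↥(Subgroup.centralizer ({g} : Set G)) := by
  rintro g hg ⟨k, hk⟩ hd
  obtain ⟨y, hy⟩ := exists_prime_orderOf_dvd_card' (G := Subgroup.centralizer ({g} : Set G)) p hd
  have hy' : orderOf (y : G) = p := by rw [Subgroup.orderOf_coe, hy]
  apply hC y (fun h => (Fact.out : p.Prime).one_lt.ne (by rw [← hy', h, orderOf_one]))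
    ⟨1, by rw [pow_one, hy']⟩
  have hgy : g ∈ Subgroup.centralizer ({(y : G)} : Set G) :=
    Subgroup.mem_centralizer_singleton_iff.mpr (Subgroup.mem_centralizer_singleton_iff.mp y.2).symm
  have h2 := orderOf_dvd_natCard (⟨g, hgy⟩ : Subgroup.centralizer ({(y : G)} : Set G))
  rw [Subgroup.orderOf_mk, hk] at h2
  refine (dvd_pow_self q ?_).trans h2
  rintro rfl
  exact hg (orderOf_eq_one_iff.mp (by rw [hk, pow_zero]))

theorem of_pSolvable {G : Type*} [Group G] [Finite G] (p q : ℕ) [Fact p.Prime] [Fact q.Prime]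
    (hppq : p ≠ q) (hpG : p ∣ Nat.card G) (hqG : q ∣ Nat.card G)
    (hC : ∀ g : G, g ≠ 1 → (∃ k : ℕ, orderOf g = p ^ k) → ¬ q ∣ Nat.card ↥(Subgroup.centralizer ({g} : Set G)))
    (hs : Cfsg.IsPSolvable p G) :
    (∃ χ : Cfsg.IrrCharacter G, (Cfsg.charDegree (χ : G → ℂ)).factorization p = (Nat.card G).factorization p) ∨
      (∃ χ : Cfsg.IrrCharacter G, (Cfsg.charDegree (χ : G → ℂ)).factorization q = (Nat.card G).factorization q) := by
  have hp : p.Prime := Fact.out
  have hq : q.Prime := Fact.out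
  obtain ⟨n, H, h0, hn, hmono, hnorm, hfac⟩ := hs
  obtain ⟨i, hi1, hi2⟩ : ∃ i : Fin n, ¬ p ∣ Nat.card (H i.castSucc) ∧ p ∣ Nat.card (H i.succ) := by
    by_contra hc
    push Not at hc
    have hall : ∀ i : Fin (n + 1), ¬ p ∣ Nat.card (H i) := by
      intro i
      induction i using Fin.induction with
      | zero => rw [h0, Subgroup.card_bot]; exact fun h => hp.one_lt.ne' (Nat.eq_one_of_dvd_one h)
      | succ i ih => exact hc i ih
    exact hall (Fin.last n) (by rw [hn, Subgroup.card_top]; exact hpG)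
  have hle : H i.castSucc ≤ H i.succ := hmono i.castSucc_le_succ
  have hcard : Nat.card (H i.succ) = Nat.card (H i.castSucc) * (H i.castSucc).relIndex (H i.succ) := by
    rw [← Nat.card_congr (Subgroup.subgroupOfEquivOfLe hle).toEquiv]
    exact (Subgroup.card_mul_index _).symm
  haveI := hnorm i.castSucc
  haveI := hnorm i.succ
  by_cases hqN : q ∣ Nat.card (H i.castSucc)
  · exact Or.inl (defect_zero_of_normal p q hppq hpG hqG hC _ hqN hi1)
  · refine Or.inr (defect_zero_of_normal q p hppq.symm hqG hpG (symm_hyp p q hC) _ hi2 ?_)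
    rw [hcard]
    intro hd
    rcases (Nat.Prime.dvd_mul hq).mp hd with h | h
    · exact hqN h
    · rcases hfac i with ⟨m, hm⟩ | hcop
      · rw [hm] at h
        exact hppq ((Nat.prime_dvd_prime_iff_eq hq hp).mp (hq.dvd_of_dvd_pow h)).symm
      · rw [hcard] at hi2
        rcases (Nat.Prime.dvd_mul hp).mp hi2 with h' | h'
        · exact hi1 h'
        · exact hp.one_lt.ne' (Nat.eq_one_of_dvd_coprimes hcop h' dvd_rfl)

/-- Let p ≠ q be primes dividing the order of the finite group G, suppose the centralizer of every non-identity p-element has order prime to q, and suppose G is p-solvable or q-solvable. Then G has an irreducible character of p-defect zero or an irreducible character of q-defect zero. -/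
theorem result {G : Type*} [Group G] [Finite G] (p q : ℕ) [Fact p.Prime] [Fact q.Prime] (hppq : p ≠ q) (hpG : p ∣ Nat.card G) (hqG : q ∣ Nat.card G) (hC : ∀ g : G, g ≠ 1 → (∃ k : ℕ, orderOf g = p ^ k) → ¬ q ∣ Nat.card ↥(Subgroup.centralizer ({g} : Set G))) (hsolv : Cfsg.IsPSolvable p G ∨ Cfsg.IsPSolvable q G) : (∃ χ : Cfsg.IrrCharacter G, (Cfsg.charDegree (χ : G → ℂ)).factorization p = (Nat.card G).factorization p) ∨ (∃ χ : Cfsg.IrrCharacter G, (Cfsg.charDegree (χ : G → ℂ)).factorization q = (Nat.card G).factorization q) := by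
  rcases hsolv with hs | hs
  · exact of_pSolvable p q hppq hpG hqG hC hs
  · exact (of_pSolvable q p hppq.symm hqG hpG (symm_hyp p q hC) hs).symm

end Cfsg.Agent.S4743
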