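import Cfsg.Statements.S4748
import Cfsg.Agent.Lib.HallHigman.Prime
import Cfsg.Agent.Lib.Char.Orthogonality
import Cfsg.Agent.Lib.Char.Kernel
import Cfsg.Agent.Lib.Components.Cores
-- import your own Cfsg.Agent.* helpers here

set_option autoImplicit false
open scoped Pointwise
open Cfsg

namespace Cfsg.Agent.S4748

open scoped ComplexConjugate
open Module

universe w

variable {H : Type w} [Group H] [Finite H]

/-- The square norm of a character restricted to a subgroup. -/
theorem exists_norm {n : ℕ} (ρ : Representation ℂ H (Fin n → ℂ)) (L : Subgroup H) [Fintype L] :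
    ∃ r : ℕ, (∑ l : L, ρ.character l * conj (ρ.character l)) = ((r * Nat.card L : ℕ) : ℂ) ∧
      (Module.finrank ℂ (Representation.IntertwiningMap
        (ρ.comp L.subtype : Representation ℂ L (Fin n → ℂ)) (ρ.comp L.subtype)) = r) ∧
      r ≤ n ^ 2 ∧ (0 < n → 0 < r) := by
  classical
  set σ : Representation ℂ L (Fin n → ℂ) := ρ.comp L.subtype with hσ
  set r := Module.finrank ℂ (Representation.IntertwiningMap σ σ) with hr
  have h := Lib.Char.classInner_character σ σ
  rw [Cfsg.classInner, ← hr, inv_mul_eq_iff_eq_mul₀ (Lib.Char.card_ne_zero_complex L)] at h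
  have he : (∑ l : L, ρ.character l * conj (ρ.character l)) = ((r * Nat.card L : ℕ) : ℂ) := by
    rw [Nat.cast_mul, mul_comm]
    exact h
  refine ⟨r, he, rfl, ?_, fun hn => ?_⟩
  · have hre := congrArg Complex.re he
    rw [Complex.re_sum, Complex.natCast_re] at hre
    have hb : ∀ l : L, (ρ.character l * conj (ρ.character l)).re ≤ ((n ^ 2 : ℕ) : ℝ) := fun l => by
      rw [Complex.mul_conj, Complex.ofReal_re, Complex.normSq_eq_norm_sq, Nat.cast_pow]
      refine pow_le_pow_left₀ (norm_nonneg _) ?_ 2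
      have := Lib.Char.norm_character_le ρ (l : H)
      rwa [Module.finrank_fin_fun] at this
    have h2 := Finset.sum_le_sum (s := Finset.univ) fun l _ => hb l
    rw [hre, Finset.sum_const, Finset.card_univ, nsmul_eq_mul, ← Nat.card_eq_fintype_card,
      ← Nat.cast_mul, Nat.cast_le, mul_comm r] at h2
    exact Nat.le_of_mul_le_mul_left h2 Nat.card_pos
  · refine Nat.pos_of_ne_zero fun h0 => ?_
    rw [h0, zero_mul, Nat.cast_zero] at he
    have hre := congrArg Complex.re he
    rw [Complex.re_sum, Complex.zero_re] at hre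
    have := (Finset.sum_eq_zero_iff_of_nonneg (fun l _ => by
      rw [Complex.mul_conj, Complex.ofReal_re]
      exact Complex.normSq_nonneg _)).1 hre 1 (Finset.mem_univ _)
    rw [Complex.mul_conj, Complex.ofReal_re, Complex.normSq_eq_zero] at this
    simp only [Subgroup.coe_one, Representation.char_one, Module.finrank_fin_fun, Nat.cast_eq_zero] at this
    omega

/-- Let G be a finite p-solvable group whose Sylow p-subgroup P meets each conjugate g P g⁻¹ with g outside N_G(P) trivially, and let χ be a faithful character of G (χ g = χ 1 only for g = 1) whose degree d satisfies d² ≤ |P|. Then P is normal in G. -/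
theorem result {G : Type*} [Group G] [Finite G] (p : ℕ) [Fact p.Prime] (hsolv : Cfsg.IsPSolvable p G) (P : Sylow p G) (hTI : ∀ g : G, g ∉ Subgroup.normalizer ((P : Subgroup G) : Set G) → (P : Subgroup G) ⊓ (MulAut.conj g • (P : Subgroup G)) = ⊥) (χ : G → ℂ) (hχ : Cfsg.IsCharacter G χ) (hfaith : ∀ g : G, χ g = χ 1 → g = 1) (hdeg : Cfsg.charDegree χ ^ 2 ≤ Nat.card ↥(P : Subgroup G)) : (P : Subgroup G).Normal := by
  classical
  by_cases hPn : (P : Subgroup G).Normal
  · exact hPn
  exfalso
  have : Fintype G := Fintype.ofFinite G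
  have hO : Cfsg.pCore p G = ⊥ := by
    by_contra hne
    have hOP : ∀ S : Sylow p G, Cfsg.pCore p G ≤ (S : Subgroup G) := fun S => by
      have h := (Lib.Components.pCore_isPGroup (G := G) p).to_sup_of_normal_left S.2
      exact le_sup_left.trans (S.is_maximal' h le_sup_right).le
    have hall : ∀ g : G, g ∈ Subgroup.normalizer ((P : Subgroup G) : Set G) := fun g => by
      by_contra hg
      refine hne (le_bot_iff.1 ?_)
      rw [← hTI g hg]
      refine le_inf (hOP P) ?_
      have := hOP (g • P)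
      rwa [Sylow.coe_subgroup_smul] at this
    exact hPn (Subgroup.normalizer_eq_top_iff.1 ((Subgroup.eq_top_iff' _).2 hall))
  set K := Cfsg.pPrimeCore p G with hK
  have hKn : K.Normal := Subgroup.sSup_normal _ fun _ h => h.1
  have hCK := Lib.HallHigman.centralizer_pPrimeCore_le hsolv hO
  obtain ⟨m, hPm⟩ := IsPGroup.iff_card.1 P.2
  have hKP : K ⊓ (P : Subgroup G) = ⊥ := by
    apply Subgroup.inf_eq_bot_of_coprime
    rw [hPm]
    exact (Lib.Components.pPrimeCore_coprime (G := G) p).pow_right m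
  set C := K ⊓ Subgroup.centralizer ((P : Subgroup G) : Set G) with hC
  -- a nontrivial element of `P` centralises only `C` in `K`
  have hfix : ∀ x ∈ (P : Subgroup G), x ≠ 1 → ∀ k ∈ K, x * k = k * x → k ∈ C := by
    intro x hx hx1 k hk hxk
    have hkN : k ∈ Subgroup.normalizer ((P : Subgroup G) : Set G) := by
      by_contra hkN
      refine hx1 (Subgroup.mem_bot.1 (hTI k hkN ▸ Subgroup.mem_inf.2 ⟨hx, ?_⟩))
      rw [Subgroup.mem_pointwise_smul_iff_inv_smul_mem, MulAut.smul_def,
        MulAut.conj_inv_apply, mul_assoc, hxk, inv_mul_cancel_left]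
      exact hx
    refine ⟨hk, Subgroup.mem_centralizer_iff.2 fun y hy => ?_⟩
    have h1 : k * y * k⁻¹ * y⁻¹ ∈ K := by
      rw [mul_assoc k, mul_assoc k]
      exact K.mul_mem hk (hKn.conj_mem _ (K.inv_mem hk) y)
    have h2 : k * y * k⁻¹ * y⁻¹ ∈ (P : Subgroup G) :=
      Subgroup.mul_mem _ ((Subgroup.mem_normalizer_iff.1 hkN y).1 hy) (Subgroup.inv_mem _ hy)
    exact (commutatorElement_eq_one_iff_mul_comm.1
      (Subgroup.mem_bot.1 (hKP ▸ Subgroup.mem_inf.2 ⟨h1, h2⟩))).symm
  obtain ⟨d, ρ, rfl⟩ := hχ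
  have hd : d ^ 2 ≤ Nat.card ↥(P : Subgroup G) := by
    simpa [Cfsg.charDegree, Module.finrank_fin_fun] using hdeg
  have hd0 : 0 < d := by
    refine Nat.pos_of_ne_zero fun h0 => ?_
    subst h0
    refine hPn ?_
    have : Subsingleton G := ⟨fun a b => by
      rw [hfaith a (by simp [Representation.character, Subsingleton.elim (ρ a) 0, Subsingleton.elim (ρ 1) 0]),
        hfaith b (by simp [Representation.character, Subsingleton.elim (ρ b) 0, Subsingleton.elim (ρ 1) 0])]⟩
    exact ⟨fun a ha g => by rwa [Subsingleton.elim (g * a * g⁻¹) a]⟩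
  set q := Nat.card ↥(P : Subgroup G) with hq
  set f : G → ℂ := fun g => ρ.character g * conj (ρ.character g) with hf
  have hfc : ∀ g y : G, f (g * y * g⁻¹) = f y := fun g y => by
    simp only [hf, Representation.char_conj]
  obtain ⟨r, hr, hrf, hrle, hr0⟩ := exists_norm ρ K
  obtain ⟨s, hs, hsf, hsle, hs0⟩ := exists_norm ρ C
  obtain ⟨N, hN, -, -, -⟩ := exists_norm ρ (K ⊔ (P : Subgroup G))
  obtain ⟨M, hM, -, -, -⟩ := exists_norm ρ (C ⊔ (P : Subgroup G))
  -- sums over a subgroup normalised by `P`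
  have hprod : ∀ L : Subgroup G, (P : Subgroup G) ≤ Subgroup.normalizer (L : Set G) → L ≤ K →
      (∑ y : ↥(L ⊔ (P : Subgroup G)), f y) = ∑ l : L, ∑ x : ↥(P : Subgroup G), f ((l : G) * x) ∧
      Nat.card ↥(L ⊔ (P : Subgroup G)) = Nat.card L * q := by
    intro L hL hLK
    let e : L × ↥(P : Subgroup G) → ↥(L ⊔ (P : Subgroup G)) := fun a => ⟨(a.1 : G) * a.2,
      mul_mem (Subgroup.mem_sup_left a.1.2) (Subgroup.mem_sup_right a.2.2)⟩
    have hb : Function.Bijective e := by
      refine ⟨fun a b hab => ?_, fun y => ?_⟩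
      · have h1 : (a.1 : G) * a.2 = b.1 * b.2 := congrArg Subtype.val hab
        have h2 : (b.1 : G)⁻¹ * a.1 = b.2 * (a.2 : G)⁻¹ := by
          rw [inv_mul_eq_iff_eq_mul, ← mul_assoc, eq_mul_inv_iff_mul_eq, h1]
        have h3 : (b.1 : G)⁻¹ * a.1 = 1 := Subgroup.mem_bot.1 (hKP ▸ Subgroup.mem_inf.2
          ⟨hLK (L.mul_mem (L.inv_mem b.1.2) a.1.2),
            h2 ▸ Subgroup.mul_mem _ b.2.2 (Subgroup.inv_mem _ a.2.2)⟩)
        have h4 : (a.1 : G) = b.1 := (inv_mul_eq_one.1 h3).symm
        rw [h4] at h1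
        exact Prod.ext (Subtype.ext h4) (Subtype.ext (mul_left_cancel h1))
      · have hy := y.2
        rw [← SetLike.mem_coe, Subgroup.coe_mul_of_right_le_normalizer_left L _ hL] at hy
        obtain ⟨l, hl, x, hx, hy⟩ := hy
        exact ⟨(⟨l, hl⟩, ⟨x, hx⟩), Subtype.ext hy⟩
    refine ⟨?_, ?_⟩
    · rw [← (Equiv.ofBijective e hb).sum_comp, Fintype.sum_prod_type]
      exact Finset.sum_congr rfl fun l _ => Finset.sum_congr rfl fun x _ => rfl
    · rw [← Nat.card_congr (Equiv.ofBijective e hb), Nat.card_prod]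
  obtain ⟨hKs, hKc⟩ := hprod K (by rw [Subgroup.normalizer_eq_top]; exact le_top) le_rfl
  obtain ⟨hCs, hCc⟩ := hprod C (fun x hx => by
    refine Subgroup.mem_normalizer_iff.2 fun c => ?_
    constructor
    · intro hc
      rwa [Subgroup.mem_centralizer_iff.1 hc.2 x hx, mul_inv_cancel_right]
    · intro hc
      have := Subgroup.mem_centralizer_iff.1 hc.2 x hx
      have e : x * c * x⁻¹ = c := by
        have h1 : x * (x * c * x⁻¹) = x * c := by rw [this]; group
        exact mul_left_cancel h1
      rwa [e] at hc) inf_le_left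
  -- the coset `K x` consists of conjugates of `C x`
  have hcoset : ∀ x : ↥(P : Subgroup G), x ≠ 1 → (Nat.card C : ℂ) * ∑ k : K, f ((k : G) * x) =
      (Nat.card K : ℂ) * ∑ c : C, f ((c : G) * x) := by
    intro x hx
    have hx1 : (x : G) ≠ 1 := fun h => hx (Subtype.ext h)
    let ψ : K × C → K := fun a =>
      ⟨(a.1 : G) * ((a.2 : G) * x) * (a.1 : G)⁻¹ * (x : G)⁻¹, by
        have h1 : (x : G) * (a.1 : G)⁻¹ * (x : G)⁻¹ ∈ K := hKn.conj_mem _ (K.inv_mem a.1.2) _
        have h2 := K.mul_mem (K.mul_mem a.1.2 a.2.2.1) h1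
        simpa [mul_assoc] using h2⟩
    have hord : orderOf (x : G) ∣ q := Subgroup.orderOf_dvd_natCard _ x.2
    have hfib : ∀ a b : K × C, ψ a = ψ b ↔ (b.1 : G)⁻¹ * a.1 ∈ C ∧
        (b.2 : G) = (b.1 : G)⁻¹ * a.1 * a.2 * ((b.1 : G)⁻¹ * a.1)⁻¹ := by
      intro a b
      set u := (b.1 : G)⁻¹ * a.1 with hu
      have huK : u ∈ K := K.mul_mem (K.inv_mem b.1.2) a.1.2
      have hcx : ∀ c : C, Commute (c : G) x := fun c =>
        ((Subgroup.mem_centralizer_iff.1 c.2.2) x x.2).symm
      constructor
      · intro hab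
        have h0 : (a.1 : G) * ((a.2 : G) * x) * (a.1 : G)⁻¹ = b.1 * ((b.2 : G) * x) * (b.1 : G)⁻¹ :=
          mul_right_cancel (congrArg Subtype.val hab)
        have h1 : u * ((a.2 : G) * x) * u⁻¹ = (b.2 : G) * x := by
          calc u * ((a.2 : G) * x) * u⁻¹ = (b.1 : G)⁻¹ * ((a.1 : G) * ((a.2 : G) * x) * (a.1 : G)⁻¹) * b.1 := by
                simp only [hu]; group
            _ = (b.2 : G) * x := by rw [h0]; group
        -- take the part of order prime to `K`
        obtain ⟨e, he1, he0⟩ := Nat.chineseRemainder (show q.Coprime (Nat.card K) by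
          rw [hPm]
          exact ((Lib.Components.pPrimeCore_coprime (G := G) p).pow_right m).symm) 1 0
        have hpw : ∀ c : C, ((c : G) * x) ^ e = x := fun c => by
          rw [(hcx c).mul_pow, orderOf_dvd_iff_pow_eq_one.1
              ((Subgroup.orderOf_dvd_natCard _ c.2.1).trans (Nat.modEq_zero_iff_dvd.1 he0)), one_mul]
          conv_rhs => rw [← pow_one (x : G)]
          exact pow_eq_pow_iff_modEq.2 (he1.of_dvd hord)
        have h2 : u * x * u⁻¹ = x := by
          have := congrArg (· ^ e) h1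
          simpa [conj_pow, hpw] using this
        have huC : u ∈ C := hfix x x.2 hx1 u huK (by
          conv_lhs => rw [← h2]
          group)
        refine ⟨huC, mul_right_cancel (b := (x : G)) ?_⟩
        rw [← h1]
        calc u * ((a.2 : G) * x) * u⁻¹ = u * (a.2 : G) * u⁻¹ * (u * x * u⁻¹) := by group
          _ = u * (a.2 : G) * u⁻¹ * x := by rw [h2]
      · rintro ⟨huC, hb2⟩
        refine Subtype.ext ?_
        show (a.1 : G) * ((a.2 : G) * x) * (a.1 : G)⁻¹ * (x : G)⁻¹ =
          b.1 * ((b.2 : G) * x) * (b.1 : G)⁻¹ * (x : G)⁻¹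
        have h2 : u * x * u⁻¹ = x := by rw [(hcx ⟨u, huC⟩).eq, mul_inv_cancel_right]
        congr 1
        conv_rhs => rw [hb2, ← h2]
        simp only [hu]
        group
    have hcount : ∀ a : K × C, (Finset.univ.filter fun b => ψ b = ψ a).card = Nat.card C := by
      intro a
      rw [← Fintype.card_subtype, ← Nat.card_eq_fintype_card]
      refine Nat.card_congr
        { toFun := fun b => ⟨(a.1 : G)⁻¹ * b.1.1, ((hfib b.1 a).1 b.2).1⟩
          invFun := fun c => ⟨(⟨(a.1 : G) * c, K.mul_mem a.1.2 c.2.1⟩,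
            ⟨(c : G)⁻¹ * a.2 * c, C.mul_mem (C.mul_mem (C.inv_mem c.2) a.2.2) c.2⟩), (hfib _ a).2
              ⟨by simp, by simp [mul_assoc]⟩⟩
          left_inv := fun b => by
            obtain ⟨h1, h2⟩ := (hfib b.1 a).1 b.2
            refine Subtype.ext (Prod.ext (Subtype.ext ?_) (Subtype.ext ?_))
            · simp
            · show ((a.1 : G)⁻¹ * b.1.1)⁻¹ * a.2 * ((a.1 : G)⁻¹ * b.1.1) = b.1.2
              rw [h2]
              group
          right_inv := fun c => Subtype.ext (by simp) }
    have himg : Finset.univ.image ψ = Finset.univ := by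
      apply Finset.eq_univ_of_card
      have h := Finset.card_eq_sum_card_image ψ (Finset.univ : Finset (K × C))
      rw [Finset.sum_congr rfl fun y hy => (show (Finset.univ.filter fun b => ψ b = y).card = Nat.card C by
        obtain ⟨a, -, rfl⟩ := Finset.mem_image.1 hy
        exact hcount a), Finset.sum_const, smul_eq_mul, Finset.card_univ, Fintype.card_prod,
        Nat.card_eq_fintype_card] at h
      exact (Nat.eq_of_mul_eq_mul_right Fintype.card_pos h).symm
    have hsum : ∑ a : K × C, f ((ψ a : G) * x) = (Nat.card C : ℂ) * ∑ k : K, f ((k : G) * x) := by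
      rw [Finset.mul_sum, ← Finset.sum_fiberwise_of_maps_to (g := ψ) (t := Finset.univ) (fun a _ => Finset.mem_univ _)]
      refine Finset.sum_congr rfl fun k hk => ?_
      rw [← himg] at hk
      obtain ⟨a, -, rfl⟩ := Finset.mem_image.1 hk
      rw [Finset.sum_congr rfl (g := fun _ => f ((ψ a : G) * x)) fun b hb => by rw [(Finset.mem_filter.1 hb).2],
        Finset.sum_const, hcount a, nsmul_eq_mul]
    rw [← hsum, Fintype.sum_prod_type, Finset.mul_sum, Finset.sum_comm]
    refine Finset.sum_congr rfl fun c _ => ?_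
    rw [Finset.sum_congr rfl (g := fun _ => f ((c : G) * x)) fun k _ => by
      simp only [ψ, inv_mul_cancel_right, hfc]]
    rw [Finset.sum_const, Finset.card_univ, nsmul_eq_mul, Nat.card_eq_fintype_card]
  have hS : ∀ L : Subgroup G, (∑ l : L, ∑ x : ↥(P : Subgroup G), f ((l : G) * x)) =
      (∑ l : L, f l) + ∑ x ∈ Finset.univ.erase (1 : ↥(P : Subgroup G)), ∑ l : L, f ((l : G) * x) := by
    intro L
    rw [Finset.sum_comm, ← Finset.add_sum_erase _ _ (Finset.mem_univ (1 : ↥(P : Subgroup G)))]
    simp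
  have hrest : (Nat.card C : ℂ) * ((∑ y : ↥(K ⊔ (P : Subgroup G)), f y) - ∑ k : K, f k) =
      (Nat.card K : ℂ) * ((∑ y : ↥(C ⊔ (P : Subgroup G)), f y) - ∑ c : C, f c) := by
    rw [hKs, hCs, hS, hS, add_sub_cancel_left, add_sub_cancel_left, Finset.mul_sum, Finset.mul_sum]
    exact Finset.sum_congr rfl fun x hx => hcoset x (Finset.mem_erase.1 hx).1
  rw [hN, hr, hM, hs, hKc, hCc] at hrest
  have hmod : (N : ℤ) * q - r = (M : ℤ) * q - s := by
    have hne : (Nat.card C : ℂ) * Nat.card K ≠ 0 :=
      mul_ne_zero (Nat.cast_ne_zero.2 Nat.card_pos.ne') (Nat.cast_ne_zero.2 Nat.card_pos.ne')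
    have : ((N : ℂ) * q - r) * ((Nat.card C : ℂ) * Nat.card K) =
        ((M : ℂ) * q - s) * ((Nat.card C : ℂ) * Nat.card K) := by
      push_cast at hrest ⊢
      linear_combination hrest
    have := mul_right_cancel₀ hne this
    exact_mod_cast this
  have hrs : r = s := by
    have h1 : (q : ℤ) ∣ (r : ℤ) - s := ⟨(N : ℤ) - M, by linear_combination hmod.symm⟩
    have := hr0 hd0
    have := hs0 hd0
    have h2 : (r : ℤ) - s = 0 := Int.eq_zero_of_abs_lt_dvd h1 (by rw [abs_lt]; constructor <;> omega)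
    omega
  -- so `P` centralises `K`
  have hP1 : (P : Subgroup G) ≤ Subgroup.centralizer (K : Set G) := by
    intro x hx
    set σK : Representation ℂ K (Fin d → ℂ) := ρ.comp K.subtype
    set σC : Representation ℂ C (Fin d → ℂ) := ρ.comp C.subtype
    let res : Representation.IntertwiningMap σK σK →ₗ[ℂ] Representation.IntertwiningMap σC σC :=
      { toFun := fun A => ⟨A.toLinearMap, fun c => A.isIntertwining' ⟨c, c.2.1⟩⟩
        map_add' := fun _ _ => rfl
        map_smul' := fun _ _ => rfl }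
    have hinj : Function.Injective res := fun A B h => by
      obtain ⟨a, _⟩ := A
      obtain ⟨b, _⟩ := B
      have hab : a = b := congrArg Representation.IntertwiningMap.toLinearMap h
      subst hab
      rfl
    obtain ⟨A, hA⟩ := (LinearMap.injective_iff_surjective_of_finrank_eq_finrank
      (show finrank ℂ (Representation.IntertwiningMap σK σK) =
        finrank ℂ (Representation.IntertwiningMap σC σC) by rw [hrf, hsf, hrs])).1 hinj
      ⟨ρ x, fun c => by
        show (ρ x) * ρ (c : G) = ρ (c : G) * ρ x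
        rw [← map_mul, ← map_mul, Subgroup.mem_centralizer_iff.1 c.2.2 x hx]⟩
    refine Subgroup.mem_centralizer_iff.2 fun k hk => ?_
    have hAx : A.toLinearMap = ρ x := congrArg Representation.IntertwiningMap.toLinearMap hA
    have h1 : ρ x * ρ k = ρ k * ρ x := by
      have := A.isIntertwining' ⟨k, hk⟩
      rw [hAx] at this
      exact this
    have h2 : ρ (x * k * (k * x)⁻¹) = 1 := by
      rw [map_mul, map_mul, h1, ← map_mul, ← map_mul, mul_inv_cancel, map_one]
    have h3 := hfaith (x * k * (k * x)⁻¹) (by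
      show ρ.character _ = ρ.character 1
      rw [Representation.char_one]
      exact (Lib.Char.character_eq_degree_iff ρ _).2 h2)
    exact (mul_inv_eq_one.1 h3).symm
  have hbot : (P : Subgroup G) = ⊥ := by
    rw [← hKP]
    exact (inf_eq_right.2 (hP1.trans hCK)).symm
  exact hPn (hbot ▸ inferInstance)


end Cfsg.Agent.S4748
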