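import Cfsg.Statements.S4750
import Cfsg.Agent.Lib.Char.TIFixedPoints
import Cfsg.Agent.Lib.Char.Degree
-- import your own Cfsg.Agent.* helpers here

set_option autoImplicit false
open scoped Pointwise
open Cfsg

namespace Cfsg.Agent.S4750

/-- Let P be a Sylow p-subgroup of the finite group G that meets each conjugate g P g⁻¹ with g outside N_G(P) trivially, χ a character of G with χ(1)² ≤ |P|, and H a subgroup of G containing N_G(P). Then the inner product of χ with itself over G equals the inner product over H of the restriction of χ to H. -/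
theorem result {G : Type*} [Group G] [Fintype G] [DecidableEq G] (p : ℕ) [Fact p.Prime] (P : Sylow p G) (hTI : ∀ g : G, g ∉ Subgroup.normalizer ((P : Subgroup G) : Set G) → (P : Subgroup G) ⊓ (MulAut.conj g • (P : Subgroup G)) = ⊥) (χ : G → ℂ) (hχ : Cfsg.IsCharacter G χ) (hdeg : Cfsg.charDegree χ ^ 2 ≤ Nat.card ↥(P : Subgroup G)) (H : Subgroup G) [Fintype ↥H] (hH : Subgroup.normalizer ((P : Subgroup G) : Set G) ≤ H) : Cfsg.classInner χ χ = Cfsg.classInner (fun h : ↥H => χ h) (fun h : ↥H => χ h) := by
  obtain ⟨n, ρ, rfl⟩ := hχ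
  have hn : Cfsg.charDegree ρ.character = n :=
    Lib.Char.charDegree_eq_of_apply_one (by rw [Representation.char_one, Module.finrank_fin_fun])
  rw [hn] at hdeg
  let σ : Representation ℂ ↥H (Fin n → ℂ) := ρ.comp H.subtype
  have hc : (fun h : ↥H => ρ.character h) = σ.character := rfl
  have key := Lib.Char.TIFixedPoints.commute_of_commute P hTI H hH ρ hdeg
  rw [hc, Lib.Char.classInner_character, Lib.Char.classInner_character]
  congr 1
  let e : Representation.IntertwiningMap ρ ρ →ₗ[ℂ] Representation.IntertwiningMap σ σ :=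
    { toFun := fun f => ⟨f.toLinearMap, fun h => f.isIntertwining' (h : G)⟩
      map_add' := fun _ _ => rfl
      map_smul' := fun _ _ => rfl }
  refine (LinearEquiv.ofBijective e ⟨?_, ?_⟩).finrank_eq
  · intro a b h
    have h' := congrArg Representation.IntertwiningMap.toLinearMap h
    exact Representation.IntertwiningMap.ext h'
  · intro f
    refine ⟨⟨f.toLinearMap, fun g => ?_⟩, Representation.IntertwiningMap.ext rfl⟩
    have h := key f.toLinearMap (fun h hh => (f.isIntertwining' ⟨h, hh⟩).symm) g
    exact h.symm


end Cfsg.Agent.S4750
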