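import Cfsg.Statements.S4754
import Cfsg.Agent.Lib.CharTools.ClassMult

set_option autoImplicit false
open Cfsg

namespace Cfsg.Agent.S4754

/-- For elements x, y of a finite group G, the conjugacy class of x y equals the set of all products of a conjugate of x with a conjugate of y if and only if χ(1) χ(a x a⁻¹ b y b⁻¹) = χ(x) χ(y) for all a, b ∈ G and every irreducible character χ. -/
theorem result {G : Type*} [Group G] [Finite G] (x y : G) : (∀ z : G, IsConj (x * y) z ↔ ∃ a b : G, z = a * x * a⁻¹ * (b * y * b⁻¹)) ↔ ∀ (a b : G) (χ : Cfsg.IrrCharacter G), (χ : G → ℂ) 1 * (χ : G → ℂ) (a * x * a⁻¹ * (b * y * b⁻¹)) = (χ : G → ℂ) x * (χ : G → ℂ) y := by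
  classical
  have := Fintype.ofFinite G
  constructor
  · intro h a b χ
    have hval : ∀ u v : G, (χ : G → ℂ) (u * x * u⁻¹ * (v * y * v⁻¹)) = (χ : G → ℂ) (x * y) :=
      fun u v => ((Lib.Char.isConj_iff_forall_irr _ _).mp ((h _).mpr ⟨u, v, rfl⟩) χ).symm
    rw [hval]
    have h1 := Lib.CharTools.sum_classes_mul χ.2 x y
    have h2 : ∑ u : G, ∑ v : G, Lib.CharTools.classInd x u * Lib.CharTools.classInd y v *
        (χ : G → ℂ) (u * v) = ((Subgroup.centralizer ({x} : Set G)).index : ℂ) *
          ((Subgroup.centralizer ({y} : Set G)).index : ℂ) * (χ : G → ℂ) (x * y) := by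
      have hc : ∀ u v : G, Lib.CharTools.classInd x u * Lib.CharTools.classInd y v * (χ : G → ℂ) (u * v) =
          Lib.CharTools.classInd x u * Lib.CharTools.classInd y v * (χ : G → ℂ) (x * y) := by
        intro u v
        by_cases hu : IsConj u x
        · by_cases hv : IsConj v y
          · obtain ⟨c, rfl⟩ := isConj_iff.mp hu.symm
            obtain ⟨d, rfl⟩ := isConj_iff.mp hv.symm
            rw [hval]
          · simp [Lib.CharTools.classInd_of_not hv]
        · simp [Lib.CharTools.classInd_of_not hu]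
      simp only [hc, ← Finset.sum_mul, ← Finset.mul_sum]
      have e : ∀ z : G, ∑ u : G, Lib.CharTools.classInd z u =
          ((Subgroup.centralizer ({z} : Set G)).index : ℂ) := by
        intro z
        simpa using Lib.CharTools.sum_classInd_mul (χ := fun _ : G => (1 : ℂ)) (fun _ _ => rfl) z
      rw [e, e]
    have hd := Lib.Char.irr_degree_ne_zero χ.2
    have hi : ∀ z : G, ((Subgroup.centralizer ({z} : Set G)).index : ℂ) ≠ 0 :=
      fun z => Nat.cast_ne_zero.mpr Subgroup.index_ne_zero_of_finite
    rw [h1, div_eq_iff hd] at h2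
    apply mul_left_cancel₀ (mul_ne_zero (hi x) (hi y))
    linear_combination -h2
  · intro h z
    have hd := fun χ : Cfsg.IrrCharacter G => Lib.Char.irr_degree_ne_zero χ.2
    have hxy : ∀ (a b : G) (χ : Cfsg.IrrCharacter G),
        (χ : G → ℂ) (x * y) = (χ : G → ℂ) (a * x * a⁻¹ * (b * y * b⁻¹)) := by
      intro a b χ
      apply mul_left_cancel₀ (hd χ)
      rw [h a b χ]
      simpa using h 1 1 χ
    constructor
    · intro hz
      obtain ⟨c, rfl⟩ := isConj_iff.mp hz
      exact ⟨c, c, by group⟩
    · rintro ⟨a, b, rfl⟩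
      exact (Lib.Char.isConj_iff_forall_irr _ _).mpr (hxy a b)

end Cfsg.Agent.S4754
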