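import Cfsg.Statements.S4755
import Cfsg.Agent.Lib.CharTools.ClassMult
import Cfsg.Agent.S4754

set_option autoImplicit false
open Cfsg

namespace Cfsg.Agent.S4755

/-- Let x, y be non-identity elements of the finite group G such that χ(x' y') = χ(x') χ(y') for all conjugates x' of x, y' of y and every irreducible character χ. Then the conjugacy class of x y is the set of all products of a conjugate of x with a conjugate of y; every irreducible character of degree greater than 1 vanishes at x y; and the conjugacy class of x y is the coset of the commutator subgroup containing x y. -/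
theorem result {G : Type*} [Group G] [Finite G] (x y : G) (hx : x ≠ 1) (hy : y ≠ 1) (h : ∀ (a b : G) (χ : Cfsg.IrrCharacter G), (χ : G → ℂ) (a * x * a⁻¹ * (b * y * b⁻¹)) = (χ : G → ℂ) (a * x * a⁻¹) * (χ : G → ℂ) (b * y * b⁻¹)) : (∀ z : G, IsConj (x * y) z ↔ ∃ a b : G, z = a * x * a⁻¹ * (b * y * b⁻¹)) ∧ (∀ χ : Cfsg.IrrCharacter G, (χ : G → ℂ) 1 ≠ 1 → (χ : G → ℂ) (x * y) = 0) ∧ (∀ z : G, IsConj (x * y) z ↔ (x * y)⁻¹ * z ∈ commutator G) := by
  classical
  have := Fintype.ofFinite G
  have hval : ∀ (a b : G) (χ : Cfsg.IrrCharacter G),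
      (χ : G → ℂ) (a * x * a⁻¹ * (b * y * b⁻¹)) = (χ : G → ℂ) (x * y) := by
    intro a b χ
    have h1 := h 1 1 χ
    simp only [one_mul, inv_one, mul_one] at h1
    rw [h, h1, Lib.CharTools.conj_apply_eq χ.2, Lib.CharTools.conj_apply_eq χ.2]
  have hiff : ∀ z : G, IsConj (x * y) z ↔ ∃ a b : G, z = a * x * a⁻¹ * (b * y * b⁻¹) := by
    intro z
    constructor
    · intro hz
      obtain ⟨c, rfl⟩ := isConj_iff.mp hz
      exact ⟨c, c, by group⟩
    · rintro ⟨a, b, rfl⟩
      exact ((Lib.Char.isConj_iff_forall_irr _ _).mpr fun χ => (hval a b χ)).symm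
  have hvan : ∀ χ : Cfsg.IrrCharacter G, (χ : G → ℂ) 1 ≠ 1 → (χ : G → ℂ) (x * y) = 0 := by
    intro χ h1
    have h2 := (S4754.result x y).mp hiff 1 1 χ
    have h3 := h 1 1 χ
    simp only [one_mul, inv_one, mul_one] at h2 h3
    rw [← h3] at h2
    have h4 : ((χ : G → ℂ) 1 - 1) * (χ : G → ℂ) (x * y) = 0 := by linear_combination h2
    exact (mul_eq_zero.mp h4).resolve_left (sub_ne_zero.mpr h1)
  refine ⟨hiff, hvan, fun z => ⟨fun hz => ?_, fun hz => ?_⟩⟩
  · obtain ⟨c, rfl⟩ := isConj_iff.mp hz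
    rw [show (x * y)⁻¹ * (c * (x * y) * c⁻¹) = (x * y)⁻¹ * c * ((x * y)⁻¹)⁻¹ * c⁻¹ by group,
      ← commutatorElement_def]
    exact Subgroup.commutator_mem_commutator (Subgroup.mem_top _) (Subgroup.mem_top _)
  · by_contra hne
    have h1 := Lib.CharTools.sum_irr_mul_conj' z (x * y)
    rw [if_neg fun h' => hne h'.symm] at h1
    have h2 := Lib.CharTools.sum_irr_normSq (x * y)
    have h3 : ∀ χ : Cfsg.IrrCharacter G, (χ : G → ℂ) z * (starRingEnd ℂ) ((χ : G → ℂ) (x * y)) =
        (Complex.normSq ((χ : G → ℂ) (x * y)) : ℂ) := by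
      intro χ
      by_cases hl : (χ : G → ℂ) 1 = 1
      · obtain ⟨l, hl⟩ := Lib.CharTools.irr_mem_linear χ.2 hl
        have h4 := Lib.CharTools.linear_commutator (l := l) hz
        rw [map_mul, map_inv, inv_mul_eq_one] at h4
        rw [hl z, hl (x * y), ← h4, Complex.mul_conj]
      · simp [hvan χ hl]
    rw [Finset.sum_congr rfl fun χ _ => h3 χ, h2, Nat.cast_eq_zero] at h1
    exact Nat.card_pos.ne' h1

end Cfsg.Agent.S4755
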