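import Cfsg.Statements.S4756
import Cfsg.Agent.Lib.Char.Linear
import Cfsg.Agent.Lib.Char.Kernel
import Cfsg.Agent.Lib.Char.OddIndexReal
import Cfsg.Agent.Lib.CharTools.Basic
import Cfsg.Agent.Lib.Coprime.Action
import Cfsg.Agent.Lib.Coprime.Abelian
import Cfsg.Agent.Lib.Coprime.Basic
import Mathlib.GroupTheory.SchurZassenhaus
import Mathlib.GroupTheory.Solvable

set_option autoImplicit false
open Cfsg

namespace Cfsg.Agent.S4756

open Cfsg.Agent.Lib
open scoped ComplexConjugate commutatorElement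
open Subgroup

universe u

variable {G : Type u} [Group G]

private theorem linear_mul {χ : IrrCharacter G} (h1 : (χ : G → ℂ) 1 = 1) (x y : G) :
    (χ : G → ℂ) (x * y) = (χ : G → ℂ) x * (χ : G → ℂ) y := by
  obtain ⟨l, hl⟩ := Char.exists_hom_of_degree_one (Char.isCharacter_of_isIrr χ.2) h1
  rw [hl, hl, hl, map_mul, Units.val_mul]

private theorem linear_comm [Finite G] {χ : IrrCharacter G} (h1 : (χ : G → ℂ) 1 = 1) {g : G}
    (hg : g ∈ commutator G) : (χ : G → ℂ) g = 1 := by
  obtain ⟨l, hl⟩ := Char.exists_hom_of_degree_one (Char.isCharacter_of_isIrr χ.2) h1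
  have : l g = 1 := MonoidHom.mem_ker.1 (Abelianization.commutator_subset_ker l hg)
  rw [hl, this, Units.val_one]

private theorem linear_normSq [Finite G] {χ : IrrCharacter G} (h1 : (χ : G → ℂ) 1 = 1) (g : G) :
    Complex.normSq ((χ : G → ℂ) g) = 1 := by
  obtain ⟨l, hl⟩ := Char.exists_hom_of_degree_one (Char.isCharacter_of_isIrr χ.2) h1
  have h := Char.linear_conj_mul l g
  rw [Complex.mul_conj] at h
  rw [hl]
  exact_mod_cast h

open scoped Classical in
private theorem sum_linear_one [Finite G] :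
    ∑ χ : IrrCharacter G, (if (χ : G → ℂ) 1 = 1 then (1 : ℂ) else 0) =
      ((commutator G).index : ℂ) := by
  rw [Finset.sum_boole, ← Char.card_linear (G := G), Nat.card_eq_fintype_card, Fintype.card_subtype]

/-- Nonlinear characters vanish at `g` as soon as the centralizer is small enough. -/
private theorem vanish_of_card_le [Finite G] {g : G}
    (hle : Nat.card (centralizer ({g} : Set G)) ≤ (commutator G).index)
    {χ : IrrCharacter G} (h1 : (χ : G → ℂ) 1 ≠ 1) : (χ : G → ℂ) g = 0 := by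
  classical
  have := Fintype.ofFinite G
  have hsum := CharTools.sum_irr_normSq g
  have hR : ∑ ψ : IrrCharacter G, Complex.normSq ((ψ : G → ℂ) g) =
      (Nat.card (centralizer ({g} : Set G)) : ℝ) := by exact_mod_cast hsum
  have hL : ∑ ψ : IrrCharacter G, (if (ψ : G → ℂ) 1 = 1 then (1 : ℝ) else 0) =
      ((commutator G).index : ℝ) := by
    rw [Finset.sum_boole, ← Char.card_linear (G := G), Nat.card_eq_fintype_card,
      Fintype.card_subtype]
  have hd : ∀ ψ : IrrCharacter G, (0 : ℝ) ≤ Complex.normSq ((ψ : G → ℂ) g) -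
      (if (ψ : G → ℂ) 1 = 1 then (1 : ℝ) else 0) := by
    intro ψ
    split_ifs with h
    · rw [linear_normSq h]; simp
    · simpa using Complex.normSq_nonneg _
  have hz : ∑ ψ : IrrCharacter G, (Complex.normSq ((ψ : G → ℂ) g) -
      (if (ψ : G → ℂ) 1 = 1 then (1 : ℝ) else 0)) = 0 := by
    refine le_antisymm ?_ (Finset.sum_nonneg fun ψ _ => hd ψ)
    rw [Finset.sum_sub_distrib, hR, hL, sub_nonpos]
    exact_mod_cast hle
  have h := (Finset.sum_eq_zero_iff_of_nonneg fun ψ _ => hd ψ).1 hz χ (Finset.mem_univ _)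
  rw [if_neg h1, sub_zero] at h
  exact Complex.normSq_eq_zero.1 h

/-- The hypothesis of multiplicativity on coprime prime-power elements. -/
private def Hyp (G : Type u) [Group G] : Prop :=
  ∀ (x y : G) (χ : IrrCharacter G), x ≠ 1 → y ≠ 1 →
    (∃ p q a b : ℕ, p.Prime ∧ q.Prime ∧ p ≠ q ∧ orderOf x = p ^ a ∧ orderOf y = q ^ b) →
    (χ : G → ℂ) (x * y) = (χ : G → ℂ) x * (χ : G → ℂ) y

private theorem pair [Finite G] (hyp : Hyp G) {x y : G} (hx : x ≠ 1) (hy : y ≠ 1) {p q a b : ℕ}
    (hp : p.Prime) (hq : q.Prime) (hpq : p ≠ q) (hxo : orderOf x = p ^ a) (hyo : orderOf y = q ^ b)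
    {χ : IrrCharacter G} (h1 : (χ : G → ℂ) 1 ≠ 1) :
    (χ : G → ℂ) x = 0 ∨ (χ : G → ℂ) y = 0 := by
  have := Fintype.ofFinite G
  have h := Char.OddIndexReal.mul_apply_eq χ.2 x y
  have hs : ∑ c : G, (χ : G → ℂ) (c * x * c⁻¹ * y) =
      ∑ _c : G, (χ : G → ℂ) x * (χ : G → ℂ) y := by
    refine Finset.sum_congr rfl fun c _ => ?_
    rw [hyp (c * x * c⁻¹) y χ (fun he => hx (conj_eq_one_iff.1 he)) hy
      ⟨p, q, a, b, hp, hq, hpq, by
        rw [← hxo]; exact (MulAut.conj c).orderOf_eq x, hyo⟩,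
      Char.isClassFunction_of_isIrr χ.2 x c]
  rw [hs, Finset.sum_const, Finset.card_univ, nsmul_eq_mul, ← Nat.card_eq_fintype_card] at h
  have h' : (1 - (χ : G → ℂ) 1) * ((Nat.card G : ℂ) * ((χ : G → ℂ) x * (χ : G → ℂ) y)) = 0 := by
    linear_combination h
  rcases mul_eq_zero.1 h' with h2 | h2
  · exact absurd (sub_eq_zero.1 h2).symm h1
  · rcases mul_eq_zero.1 h2 with h3 | h3
    · exact absurd h3 (Char.card_ne_zero_complex G)
    · exact mul_eq_zero.1 h3

private theorem not_two_primes [Finite G] (hyp : Hyp G) {x y : G} (hx : x ∈ commutator G)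
    (hy : y ∈ commutator G) {p q : ℕ} (hp : p.Prime) (hq : q.Prime) (hpq : p ≠ q)
    (hxo : orderOf x = p) (hyo : orderOf y = q) : False := by
  classical
  have := Fintype.ofFinite G
  have hx1 : x ≠ 1 := fun h => hp.ne_one (by rw [← hxo, h, orderOf_one])
  have hy1 : y ≠ 1 := fun h => hq.ne_one (by rw [← hyo, h, orderOf_one])
  have h := CharTools.sum_irr_mul_conj' x y
  rw [if_neg fun hc => hpq (by
    obtain ⟨c, hc⟩ := isConj_iff.1 hc
    rw [← hxo, ← hyo, ← hc]; exact ((MulAut.conj c).orderOf_eq x).symm)] at h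
  have hs : ∑ χ : IrrCharacter G, (χ : G → ℂ) x * conj ((χ : G → ℂ) y) =
      ∑ χ : IrrCharacter G, (if (χ : G → ℂ) 1 = 1 then (1 : ℂ) else 0) := by
    refine Finset.sum_congr rfl fun χ _ => ?_
    split_ifs with h1
    · rw [linear_comm h1 hx, linear_comm h1 hy]; simp
    · rcases pair hyp hx1 hy1 hp hq hpq (a := 1) (b := 1) (by rw [hxo, pow_one])
        (by rw [hyo, pow_one]) h1 with h2 | h2 <;> simp [h2]
  rw [hs, sum_linear_one, Nat.cast_eq_zero] at h
  exact Subgroup.index_ne_zero_of_finite h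

private theorem comm_of_all_linear [Finite G] (h : ∀ χ : IrrCharacter G, (χ : G → ℂ) 1 = 1)
    (g : G) (hg : g ∈ commutator G) : g = 1 :=
  Char.eq_one_of_forall_irr fun χ => by rw [linear_comm (h χ) hg, h χ]

private theorem vanish [Finite G] (hyp : Hyp G) {p q : ℕ} [hp : Fact p.Prime]
    (hG : IsPGroup p (commutator G)) {y : G} (hq : q.Prime) (hqp : p ≠ q) (hyo : orderOf y = q)
    {χ : IrrCharacter G} (h1 : (χ : G → ℂ) 1 ≠ 1) : (χ : G → ℂ) y = 0 := by
  classical
  have := Fintype.ofFinite G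
  have hy1 : y ≠ 1 := fun h => hq.ne_one (by rw [← hyo, h, orderOf_one])
  rcases CharTools.sum_normal_eq_zero_or_const χ.2 (commutator G) with hk | hk
  · -- the derived group is in the kernel, so the character is linear
    exfalso
    obtain ⟨ψ, hψ, hψχ⟩ := Char.exists_irr_deflation χ.2 (commutator G) hk
    have hlin : ∀ φ : IrrCharacter (G ⧸ commutator G), (φ : G ⧸ commutator G → ℂ) 1 = 1 := by
      intro φ
      by_contra hφ
      have hbot : commutator (G ⧸ commutator G) = ⊥ := by
        rw [eq_bot_iff, _root_.commutator_def (G ⧸ commutator G), commutator_le]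
        intro a _ b _
        rw [mem_bot, commutatorElement_eq_one_iff_mul_comm]
        induction a using QuotientGroup.induction_on with
        | _ x =>
          induction b using QuotientGroup.induction_on with
          | _ z =>
            rw [← QuotientGroup.mk_mul, ← QuotientGroup.mk_mul, QuotientGroup.eq]
            have : (x * z)⁻¹ * (z * x) = ⁅z⁻¹, x⁻¹⁆ := by rw [commutatorElement_def]; group
            rw [this]
            exact commutator_mem_commutator (mem_top _) (mem_top _)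
      have hc := Char.card_linear (G := G ⧸ commutator G)
      rw [hbot, index_bot] at hc
      have h2 : Nat.card (IrrCharacter (G ⧸ commutator G)) ≤ Nat.card (G ⧸ commutator G) := by
        rw [Char.card_irr_eq_card_conjClasses]
        exact Nat.card_le_card_of_surjective _ ConjClasses.mk_surjective
      have h3 : Nat.card {ψ : IrrCharacter (G ⧸ commutator G) //
          (ψ : G ⧸ commutator G → ℂ) 1 = 1} < Nat.card (IrrCharacter (G ⧸ commutator G)) := by
        rw [Nat.card_eq_fintype_card, Nat.card_eq_fintype_card]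
        exact Fintype.card_subtype_lt (x := φ) hφ
      omega
    apply h1
    rw [← hψχ 1]
    exact hlin ⟨ψ, hψ⟩
  · obtain ⟨x, hx, hx1, hχx⟩ : ∃ x ∈ commutator G, x ≠ 1 ∧ (χ : G → ℂ) x ≠ 0 := by
      by_contra hne
      push Not at hne
      rw [Finset.sum_eq_single_of_mem 1 (by simp [(commutator G).one_mem])
        (fun x hx h => hne x (Finset.mem_filter.1 hx).2 h)] at hk
      exact Char.irr_degree_ne_zero χ.2 hk
    obtain ⟨k, hk'⟩ := hG ⟨x, hx⟩
    obtain ⟨a, -, ha⟩ := (Nat.dvd_prime_pow hp.out).1 (orderOf_dvd_of_pow_eq_one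
      (by simpa using congrArg Subtype.val hk' : x ^ p ^ k = 1))
    exact (pair hyp hx1 hy1 hp.out hq hqp ha (b := 1) (by rw [hyo, pow_one]) h1).resolve_left hχx

private theorem exists_prime_pow_mem [Finite G] {A : Subgroup G} {a : G} (ha : a ∈ A)
    (ha1 : a ≠ 1) : ∃ (q k : ℕ), q.Prime ∧ orderOf (a ^ k) = q ∧ a ^ k ∈ A ∧ q ∣ Nat.card A := by
  obtain ⟨q, hq, hqd⟩ := Nat.exists_prime_and_dvd (n := orderOf a)
    (fun h => ha1 (orderOf_eq_one_iff.1 h))
  have ho : orderOf (a ^ (orderOf a / q)) = q := orderOf_pow_orderOf_div (orderOf_pos a).ne' hqd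
  refine ⟨q, _, hq, ho, A.pow_mem ha _, ?_⟩
  exact hqd.trans (orderOf_dvd_natCard A ha)

private theorem forward [Finite G] (hyp : Hyp G) (hnp : ¬ ∃ p : ℕ, p.Prime ∧ IsPGroup p G)
    (hna : ¬ IsMulCommutative G) :
    ∃ (p : ℕ) (_ : Fact p.Prime) (P : Sylow p G) (A : Subgroup G), (P : Subgroup G).Normal ∧
      IsCyclic ↥A ∧ A ≠ ⊥ ∧ (Nat.card ↥A).Coprime p ∧ A ⊔ (P : Subgroup G) = ⊤ ∧
      IsMulCommutative ↥((P : Subgroup G) ⊓ centralizer (A : Set G)) ∧
      (⁅A, (P : Subgroup G)⁆).Normal ∧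
      ((P : Subgroup G) ⊓ centralizer (A : Set G)) ⊔ ⁅A, (P : Subgroup G)⁆ = (P : Subgroup G) ∧
      ((P : Subgroup G) ⊓ centralizer (A : Set G)) ⊓ ⁅A, (P : Subgroup G)⁆ = ⊥ ∧
      ∀ a ∈ A, a ≠ 1 → ∀ d ∈ ⁅A, (P : Subgroup G)⁆, a * d = d * a → d = 1 := by
  have hbot : commutator G ≠ ⊥ := fun h => hna ⟨⟨fun a b =>
    commutatorElement_eq_one_iff_mul_comm.1 (mem_bot.1 (h ▸ commutator_mem_commutator
      (mem_top a) (mem_top b)))⟩⟩
  obtain ⟨p, hp, hpd⟩ := Nat.exists_prime_and_dvd (n := Nat.card (commutator G))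
    fun h => hbot (eq_bot_of_card_eq _ h)
  have : Fact p.Prime := ⟨hp⟩
  obtain ⟨x, hx⟩ := exists_prime_orderOf_dvd_card' p hpd
  have hG : IsPGroup p (commutator G) := by
    refine IsPGroup.of_card (n := (Nat.card (commutator G)).primeFactorsList.length) ?_
    refine Nat.eq_prime_pow_of_unique_prime_dvd Nat.card_pos.ne' fun {d} hd hdd => ?_
    by_contra hdp
    have : Fact d.Prime := ⟨hd⟩
    obtain ⟨y, hy⟩ := exists_prime_orderOf_dvd_card' d hdd
    exact not_two_primes hyp y.2 x.2 hd hp hdp (by rw [← hy, Subgroup.orderOf_coe])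
      (by rw [← hx, Subgroup.orderOf_coe])
  obtain ⟨P, hDP⟩ := hG.exists_le_sylow
  have hPn : (P : Subgroup G).Normal := ⟨fun n hn g => by
    have : g * n * g⁻¹ = ⁅g, n⁆ * n := by rw [commutatorElement_def]; group
    rw [this]
    exact mul_mem (hDP (commutator_mem_commutator (mem_top g) (mem_top n))) hn⟩
  have hcop : (Nat.card (P : Subgroup G)).Coprime (P : Subgroup G).index := by
    obtain ⟨n, hn⟩ := P.isPGroup'.exists_card_eq
    rw [hn]
    exact Nat.Coprime.pow_left _ ((Nat.Prime.coprime_iff_not_dvd hp).2 P.not_dvd_index)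
  obtain ⟨A, hA⟩ := exists_right_complement'_of_coprime hcop
  have hAP : A ⊔ (P : Subgroup G) = ⊤ := by rw [sup_comm]; exact hA.sup_eq_top
  have hAPi : A ⊓ (P : Subgroup G) = ⊥ := by
    rw [inf_comm]; exact disjoint_iff.1 hA.disjoint
  have hAcard : Nat.card A = (P : Subgroup G).index := hA.symm.index_eq_card.symm
  have hAp : (Nat.card A).Coprime p := by
    rw [hAcard]
    exact ((Nat.Prime.coprime_iff_not_dvd hp).2 P.not_dvd_index).symm
  have hAne : A ≠ ⊥ := fun h => hnp ⟨p, hp, by
    rw [h, bot_sup_eq] at hAP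
    have := P.isPGroup'
    rw [hAP] at this
    exact this.of_equiv topEquiv⟩
  have hAc : ∀ a ∈ A, ∀ b ∈ A, a * b = b * a := fun a ha b hb => by
    apply commutatorElement_eq_one_iff_mul_comm.1
    rw [← mem_bot, ← hAPi]
    refine ⟨?_, hDP (commutator_mem_commutator (mem_top a) (mem_top b))⟩
    rw [commutatorElement_def]
    exact A.mul_mem (A.mul_mem (A.mul_mem ha hb) (A.inv_mem ha)) (A.inv_mem hb)
  have : IsMulCommutative A := ⟨⟨fun a b => Subtype.ext (hAc a a.2 b b.2)⟩⟩
  have hAsolv : Group.IsSolvable A := by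
    open scoped IsMulCommutative in exact inferInstance
  set P₀ := (P : Subgroup G) with hP₀
  have hAN : A ≤ normalizer (P₀ : Set G) := by rw [normalizer_eq_top_iff.2 hPn]; exact le_top
  have hcopAP : (Nat.card A).Coprime (Nat.card P₀) := by rw [hAcard]; exact hcop.symm
  set B := P₀ ⊓ centralizer (A : Set G) with hB
  set D := ⁅A, P₀⁆ with hD
  have hBD : B ⊔ D = P₀ := by
    rw [sup_comm, hD, commutator_comm]
    exact Coprime.commutator_sup_centralizer hAN hcopAP (Or.inl hAsolv)
  have hDG : D ≤ commutator G := commutator_mono le_top le_top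
  have hBG : B ⊔ commutator G = P₀ :=
    le_antisymm (sup_le inf_le_left hDP) (hBD.ge.trans (sup_le_sup_left hDG B))
  have key : ∀ (q : ℕ) (y : G), q.Prime → y ∈ A → orderOf y = q →
      P₀ ⊓ centralizer ({y} : Set G) = B ∧ B ⊓ commutator G = ⊥ := by
    intro q y hq hy hyo
    have hqp : p ≠ q := by
      rintro rfl
      exact ((Nat.Prime.coprime_iff_not_dvd hp).1 hAp.symm) (hyo ▸ orderOf_dvd_natCard A hy)
    have hcc : Nat.card (centralizer ({y} : Set G)) = (commutator G).index := by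
      classical
      have := Fintype.ofFinite G
      have h := CharTools.sum_irr_normSq y
      rw [Finset.sum_congr rfl (g := fun χ : IrrCharacter G =>
        if (χ : G → ℂ) 1 = 1 then (1 : ℂ) else 0) fun χ _ => by
          split_ifs with h1
          · rw [linear_normSq h1]; simp
          · rw [vanish hyp hG hq hqp hyo h1]; simp, sum_linear_one] at h
      exact_mod_cast h.symm
    have hAC : A ≤ centralizer ({y} : Set G) := fun a ha =>
      mem_centralizer_singleton_iff.2 (hAc a ha y hy)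
    have hsup : P₀ ⊔ centralizer ({y} : Set G) = ⊤ := by
      rw [eq_top_iff, ← hAP]
      exact sup_le (hAC.trans le_sup_right) le_sup_left
    have h1 := Coprime.card_sup_mul_card_inf P₀ (centralizer ({y} : Set G))
    have hcard : Nat.card (P₀ ⊓ centralizer ({y} : Set G) : Subgroup G) *
        Nat.card (commutator G) = Nat.card P₀ := by
      have hG' := Subgroup.card_mul_index (commutator G)
      have hi : 0 < (commutator G).index := Nat.pos_of_ne_zero index_ne_zero_of_finite
      apply Nat.eq_of_mul_eq_mul_right hi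
      rw [mul_assoc, hG', ← hcc]
      rw [sup_comm] at hsup
      rw [inf_comm]
      first
        | (rw [hsup, card_top] at h1; rw [mul_comm]; linarith)
        | (rw [sup_comm, hsup, card_top, inf_comm] at h1; rw [inf_comm, mul_comm]; linarith)
    have hBle : B ≤ P₀ ⊓ centralizer ({y} : Set G) :=
      inf_le_inf_left _ (centralizer_le (Set.singleton_subset_iff.2 hy))
    have h2 := Coprime.card_sup_mul_card_inf (commutator G) B
    have h2' : Nat.card P₀ * Nat.card (B ⊓ commutator G : Subgroup G) =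
        Nat.card B * Nat.card (commutator G) := by
      first
        | (rw [hBG] at h2; linarith)
        | (rw [sup_comm, hBG, inf_comm] at h2; linarith)
        | (rw [inf_comm, hBG] at h2; linarith)
    have hBcard := card_le_of_le hBle
    have hpos : 0 < Nat.card P₀ := Nat.card_pos
    have h3 : Nat.card (B ⊓ commutator G : Subgroup G) = 1 := by
      refine le_antisymm (Nat.le_of_mul_le_mul_left ?_ hpos) Nat.card_pos
      rw [h2', mul_one, ← hcard]
      exact Nat.mul_le_mul_right _ hBcard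
    refine ⟨(eq_of_le_of_card_ge hBle ?_).symm, eq_bot_of_card_eq _ h3⟩
    rw [h3, mul_one] at h2'
    exact (Nat.eq_of_mul_eq_mul_right Nat.card_pos (hcard.trans h2')).le
  obtain ⟨a₀, ha₀, ha₁⟩ := A.ne_bot_iff_exists_ne_one.1 hAne |> fun ⟨a, ha⟩ =>
    (⟨a.1, a.2, fun h => ha (Subtype.ext h)⟩ : ∃ a : G, a ∈ A ∧ a ≠ 1)
  obtain ⟨q₀, k₀, hq₀, ho₀, hm₀, -⟩ := exists_prime_pow_mem ha₀ ha₁
  have hBbot := (key q₀ _ hq₀ hm₀ ho₀).2
  have hBnorm : B ≤ normalizer (D : Set G) := inf_le_left.trans (by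
    rw [hD, commutator_comm]; exact Coprime.left_le_normalizer_commutator P₀ A)
  have hDeq : D = commutator G := by
    refine le_antisymm hDG fun g hg => ?_
    have hg' : g ∈ B ⊔ D := hBD.ge (hDP hg)
    rw [← SetLike.mem_coe, coe_mul_of_left_le_normalizer_right B D hBnorm] at hg'
    obtain ⟨b, hb, d, hd, rfl⟩ := hg'
    have hb1 : b ∈ B ⊓ commutator G :=
      ⟨hb, by simpa using mul_mem hg (inv_mem (hDG hd))⟩
    rw [hBbot, mem_bot] at hb1
    simpa [hb1] using hd
  have hfix : ∀ a ∈ A, a ≠ 1 → ∀ d ∈ D, a * d = d * a → d = 1 := by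
    intro a ha ha1 d hd hcom
    obtain ⟨q, k, hq, ho, hm, -⟩ := exists_prime_pow_mem ha ha1
    have hdc : d ∈ P₀ ⊓ centralizer ({a ^ k} : Set G) :=
      ⟨hDP (hDG hd), mem_centralizer_singleton_iff.2
        (((show Commute a d from hcom).pow_left k).symm).eq⟩
    rw [(key q _ hq hm ho).1] at hdc
    have : d ∈ B ⊓ commutator G := ⟨hdc, hDG hd⟩
    rwa [hBbot, mem_bot] at this
  have hBab : IsMulCommutative B := ⟨⟨fun b c => Subtype.ext <| by
    apply commutatorElement_eq_one_iff_mul_comm.1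
    rw [← mem_bot, ← hBbot]
    refine ⟨?_, commutator_mem_commutator (mem_top _) (mem_top _)⟩
    rw [commutatorElement_def]
    exact B.mul_mem (B.mul_mem (B.mul_mem b.2 c.2) (B.inv_mem b.2)) (B.inv_mem c.2)⟩⟩
  refine ⟨p, inferInstance, P, A, hPn, ?_, hAne, hAp, hAP, hBab, ?_, hBD, ?_, hfix⟩
  · by_contra hcyc
    have hDn : D.Normal := by rw [hDeq]; infer_instance
    have hgen := Coprime.fixGen_eq (A := A) (K := D) hcyc
      (by rw [normalizer_eq_top_iff.2 hDn]; exact le_top)
      (hcopAP.coprime_dvd_right (card_dvd_of_le (hDG.trans hDP)))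
    apply hbot
    rw [← hDeq, ← hgen, eq_bot_iff, Coprime.fixGen]
    exact iSup₂_le fun a ha d hd =>
      mem_bot.2 (hfix a ha.1 ha.2 d hd.1 (mem_centralizer_singleton_iff.1 hd.2).symm)
  · show D.Normal
    rw [hDeq]; infer_instance
  · show B ⊓ D = ⊥
    rw [hDeq]; exact hBbot

private theorem backward [Finite G] {p : ℕ} [Fact p.Prime] (P : Sylow p G) (A : Subgroup G)
    (hPn : (P : Subgroup G).Normal) (hAcyc : IsCyclic A) (hAp : (Nat.card A).Coprime p)
    (hAP : A ⊔ (P : Subgroup G) = ⊤)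
    (hBab : IsMulCommutative ↥((P : Subgroup G) ⊓ centralizer (A : Set G)))
    (hDn : (⁅A, (P : Subgroup G)⁆).Normal)
    (hBD : ((P : Subgroup G) ⊓ centralizer (A : Set G)) ⊔ ⁅A, (P : Subgroup G)⁆ = (P : Subgroup G))
    (hfix : ∀ a ∈ A, a ≠ 1 → ∀ d ∈ ⁅A, (P : Subgroup G)⁆, a * d = d * a → d = 1) : Hyp G := by
  set P₀ := (P : Subgroup G) with hP₀
  set B := P₀ ⊓ centralizer (A : Set G) with hB
  set D := ⁅A, P₀⁆ with hD
  have hDP : D ≤ P₀ := le_sup_right.trans hBD.le
  set π := QuotientGroup.mk' D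
  have hAc : ∀ a ∈ A, ∀ b ∈ A, a * b = b * a := fun a ha b hb => by
    have : IsMulCommutative A := IsCyclic.isMulCommutative
    exact congrArg Subtype.val (mul_comm' (⟨a, ha⟩ : A) ⟨b, hb⟩)
  have hGD : commutator G ≤ D := by
    have htop : A.map π ⊔ B.map π = ⊤ := by
      have hDbot : D.map π = ⊥ := (Subgroup.map_eq_bot_iff _).2 (QuotientGroup.ker_mk' D).ge
      have h := congrArg (Subgroup.map π) hAP
      rw [Subgroup.map_sup, ← hBD, Subgroup.map_sup, hDbot, sup_bot_eq,
        map_top_of_surjective π (QuotientGroup.mk'_surjective D)] at h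
      exact h
    have hcen : A.map π ⊔ B.map π ≤ center (G ⧸ D) := by
      refine sup_le ?_ ?_
      · rintro _ ⟨a, ha, rfl⟩
        rw [mem_center_iff]
        intro g
        have hle : A.map π ⊔ B.map π ≤ centralizer ({π a} : Set (G ⧸ D)) := by
          refine sup_le ?_ ?_
          · rintro _ ⟨b, hb, rfl⟩
            rw [mem_centralizer_singleton_iff, ← map_mul, ← map_mul, hAc b hb a ha]
          · rintro _ ⟨b, hb, rfl⟩
            rw [mem_centralizer_singleton_iff, ← map_mul, ← map_mul,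
              (mem_centralizer_iff.1 hb.2 a ha).symm]
        rw [htop] at hle
        exact mem_centralizer_singleton_iff.1 (hle (mem_top g))
      · rintro _ ⟨a, ha, rfl⟩
        rw [mem_center_iff]
        intro g
        have hle : A.map π ⊔ B.map π ≤ centralizer ({π a} : Set (G ⧸ D)) := by
          refine sup_le ?_ ?_
          · rintro _ ⟨b, hb, rfl⟩
            rw [mem_centralizer_singleton_iff, ← map_mul, ← map_mul,
              mem_centralizer_iff.1 ha.2 b hb]
          · rintro _ ⟨b, hb, rfl⟩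
            rw [mem_centralizer_singleton_iff, ← map_mul, ← map_mul,
              show b * a = a * b from congrArg Subtype.val (mul_comm' (⟨b, hb⟩ : B) ⟨a, ha⟩)]
        rw [htop] at hle
        exact mem_centralizer_singleton_iff.1 (hle (mem_top g))
    rw [_root_.commutator_def, commutator_le]
    intro g _ h _
    rw [← QuotientGroup.eq_one_iff]
    show π ⁅g, h⁆ = 1
    rw [map_commutatorElement, commutatorElement_eq_one_iff_mul_comm]
    exact mem_center_iff.1 (hcen (htop ▸ mem_top (π h))) (π g)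
  have hcardG : Nat.card G = Nat.card A * Nat.card P₀ := by
    have hcop : (Nat.card A).Coprime (Nat.card P₀) := by
      obtain ⟨n, hn⟩ := P.isPGroup'.exists_card_eq
      rw [hP₀, hn]; exact hAp.pow_right n
    have h := Coprime.card_sup_mul_card_inf P₀ A
    have hi : A ⊓ P₀ = ⊥ := Coprime.inf_eq_bot_of_coprime hcop
    first
      | (rw [hi, card_bot, mul_one, hAP, card_top] at h; exact h)
      | (rw [sup_comm, hAP, inf_comm, hi, card_bot, mul_one, card_top] at h; rw [h, mul_comm])
      | (rw [hi, card_bot, mul_one, hAP, card_top] at h; rw [h, mul_comm])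
  have hsmall : ∀ g : G, g ∉ P₀ →
      Nat.card (centralizer ({g} : Set G)) ≤ (commutator G).index := by
    intro g hg
    have hbot : centralizer ({g} : Set G) ⊓ D = ⊥ := by
      rw [eq_bot_iff]
      rintro d ⟨hdC, hdD⟩
      have hcom : Commute g d := (mem_centralizer_singleton_iff.1 hdC).symm
      obtain ⟨q, hq, hqd, hqp⟩ : ∃ q, q.Prime ∧ q ∣ orderOf g ∧ q ≠ p := by
        by_contra h
        push Not at h
        apply hg
        have hpg : IsPGroup p (zpowers g) := by
          refine IsPGroup.of_card (n := (orderOf g).primeFactorsList.length) ?_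
          rw [Nat.card_zpowers]
          exact Nat.eq_prime_pow_of_unique_prime_dvd (orderOf_pos g).ne' fun {d} hd hdd => h d hd hdd
        obtain ⟨P', hP'⟩ := hpg.exists_le_sylow
        obtain ⟨c, hc⟩ := MulAction.exists_smul_eq G P P'
        rw [Sylow.smul_eq_iff_mem_normalizer.2 (by
          show c ∈ normalizer (P₀ : Set G)
          rw [normalizer_eq_top_iff.2 hPn]; exact mem_top c)] at hc
        have hgm := hP' (mem_zpowers g)
        rw [← hc] at hgm
        exact hgm
      have : Fact q.Prime := ⟨hq⟩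
      set y := g ^ (orderOf g / q)
      have hyo : orderOf y = q := orderOf_pow_orderOf_div (orderOf_pos g).ne' hqd
      have hpy : IsPGroup q (zpowers y) := IsPGroup.of_card (n := 1) (by
        rw [Nat.card_zpowers, hyo, pow_one])
      obtain ⟨Q, hQ⟩ := hpy.exists_le_sylow
      let R : Sylow q A := default
      have hRc : Nat.card ((R : Subgroup A).map A.subtype) =
          q ^ (Nat.card G).factorization q := by
        rw [card_map_of_injective A.subtype_injective, R.card_eq_multiplicity, hcardG,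
          Nat.factorization_mul Nat.card_pos.ne' Nat.card_pos.ne']
        obtain ⟨n, hn⟩ := P.isPGroup'.exists_card_eq
        rw [Finsupp.add_apply, hP₀, hn, Nat.Prime.factorization_pow Fact.out,
          Finsupp.single_eq_of_ne hqp, add_zero]
      obtain ⟨c, hc⟩ := MulAction.exists_smul_eq G Q (Sylow.ofCard _ hRc)
      have hcy : c * y * c⁻¹ ∈ A := by
        have h1 : c * y * c⁻¹ ∈ ((Sylow.ofCard _ hRc : Sylow q G) : Subgroup G) := by
          rw [← hc, Sylow.coe_subgroup_smul, ← SetLike.mem_coe, coe_pointwise_smul]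
          exact ⟨y, hQ (mem_zpowers y), rfl⟩
        obtain ⟨z, -, hz⟩ := h1
        rw [← hz]; exact z.2
      have hd1 := hfix _ hcy
        (fun h => hq.ne_one (by rw [← hyo, conj_eq_one_iff.1 h, orderOf_one]))
        (c * d * c⁻¹) (hDn.conj_mem d hdD c) (by
          rw [conj_mul, conj_mul, (hcom.pow_left _).eq])
      exact mem_bot.2 (conj_eq_one_iff.1 hd1)
    have h := Coprime.card_sup_mul_card_inf D (centralizer ({g} : Set G))
    have hDi : D.index ≤ (commutator G).index :=
      Nat.le_of_dvd (Nat.pos_of_ne_zero index_ne_zero_of_finite) (index_dvd_of_le hGD)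
    refine le_trans ?_ hDi
    refine Nat.le_of_mul_le_mul_right ?_ (Nat.card_pos (α := D))
    rw [index_mul_card]
    first
      | (rw [hbot, card_bot, mul_one] at h; rw [← h]; exact card_le_card_group _)
      | (rw [inf_comm, hbot, card_bot, mul_one] at h; rw [← h]; exact card_le_card_group _)
      | (rw [hbot, card_bot, mul_one] at h; rw [mul_comm, ← h]; exact card_le_card_group _)
      | (rw [inf_comm, hbot, card_bot, mul_one] at h; rw [mul_comm, ← h]; exact card_le_card_group _)
  rintro x y χ hx hy ⟨r, s, a, b, hr, hs, hrs, hxo, hyo⟩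
  by_cases h1 : (χ : G → ℂ) 1 = 1
  · exact linear_mul h1 x y
  have hz : ∀ g : G, g ∉ P₀ → (χ : G → ℂ) g = 0 := fun g hg => vanish_of_card_le (hsmall g hg) h1
  have hnotboth : x ∉ P₀ ∨ y ∉ P₀ := by
    by_contra h
    push Not at h
    have hex : ∀ z : G, z ∈ P₀ → z ≠ 1 → ∀ t c : ℕ, t.Prime → orderOf z = t ^ c → t = p := by
      intro z hz hz1 t c ht hzo
      obtain ⟨n, hn⟩ := P.isPGroup'.exists_card_eq
      have hd : orderOf z ∣ p ^ n := hn ▸ orderOf_dvd_natCard P₀ hz
      have hc0 : c ≠ 0 := fun h0 => hz1 (orderOf_eq_one_iff.1 (by rw [hzo, h0, pow_zero]))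
      rw [hzo] at hd
      exact (Nat.prime_dvd_prime_iff_eq ht Fact.out).1
        (ht.dvd_of_dvd_pow ((dvd_pow_self t hc0).trans hd))
    exact hrs ((hex x h.1 hx r a hr hxo).trans (hex y h.2 hy s b hs hyo).symm)
  have hxy : x * y ∉ P₀ := by
    intro hm
    have hmk : (x : G ⧸ P₀) = ((y⁻¹ : G) : G ⧸ P₀) := by
      rw [QuotientGroup.eq]
      simpa [mul_inv_rev] using inv_mem (hPn.mem_comm hm)
    have h1' : orderOf (x : G ⧸ P₀) ∣ orderOf x := orderOf_map_dvd (QuotientGroup.mk' P₀) x
    have h2' : orderOf (x : G ⧸ P₀) ∣ orderOf y := by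
      rw [hmk, QuotientGroup.mk_inv, orderOf_inv]
      exact orderOf_map_dvd (QuotientGroup.mk' P₀) y
    rw [hxo] at h1'
    rw [hyo] at h2'
    have h0 := Nat.eq_one_of_dvd_coprimes
      (((Nat.coprime_primes hr hs).2 hrs).pow a b) h1' h2'
    rw [orderOf_eq_one_iff, QuotientGroup.eq_one_iff] at h0
    rcases hnotboth with h | h
    · exact h h0
    · exact h (by simpa using mul_mem (inv_mem h0) hm)
  rw [hz _ hxy]
  rcases hnotboth with h | h <;> rw [hz _ h] <;> simp

theorem result {G : Type*} [Group G] [Finite G] : (∀ (x y : G) (χ : Cfsg.IrrCharacter G), x ≠ 1 → y ≠ 1 → (∃ p q a b : ℕ, p.Prime ∧ q.Prime ∧ p ≠ q ∧ orderOf x = p ^ a ∧ orderOf y = q ^ b) → (χ : G → ℂ) (x * y) = (χ : G → ℂ) x * (χ : G → ℂ) y) ↔ ((∃ p : ℕ, p.Prime ∧ IsPGroup p G) ∨ IsMulCommutative G ∨ ∃ (p : ℕ) (_ : Fact p.Prime) (P : Sylow p G) (A : Subgroup G), (P : Subgroup G).Normal ∧ IsCyclic ↥A ∧ A ≠ ⊥ ∧ (Nat.card ↥A).Coprime p ∧ A ⊔ (P : Subgroup G) = ⊤ ∧ IsMulCommutative ↥((P : Subgroup G) ⊓ Subgroup.centralizer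 (A : Set G)) ∧ (⁅A, (P : Subgroup G)⁆).Normal ∧ ((P : Subgroup G) ⊓ Subgroup.centralizer (A : Set G)) ⊔ ⁅A, (P : Subgroup G)⁆ = (P : Subgroup G) ∧ ((P : Subgroup G) ⊓ Subgroup.centralizer (A : Set G)) ⊓ ⁅A, (P : Subgroup G)⁆ = ⊥ ∧ ∀ a ∈ A, a ≠ 1 → ∀ d ∈ ⁅A, (P : Subgroup G)⁆, a * d = d * a → d = 1) := by
  constructor
  · intro hyp
    by_cases hnp : ∃ p : ℕ, p.Prime ∧ IsPGroup p G
    · exact Or.inl hnp
    by_cases hna : IsMulCommutative G
    · exact Or.inr (Or.inl hna)
    exact Or.inr (Or.inr (forward hyp hnp hna))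
  · rintro (⟨p, hp, hG⟩ | hG | ⟨p, hp, P, A, hPn, hcyc, -, hAp, hAP, hBab, hDn, hBD, -, hfix⟩)
    · rintro x y χ hx hy ⟨r, s, a, b, hr, hs, hrs, hxo, hyo⟩
      exfalso
      have hex : ∀ z : G, z ≠ 1 → ∀ t c : ℕ, t.Prime → orderOf z = t ^ c → t = p := by
        intro z hz t c ht hzo
        obtain ⟨k, hk⟩ := hG z
        have hd := orderOf_dvd_of_pow_eq_one hk
        have hc0 : c ≠ 0 := fun h0 => hz (orderOf_eq_one_iff.1 (by rw [hzo, h0, pow_zero]))
        rw [hzo] at hd
        exact (Nat.prime_dvd_prime_iff_eq ht hp).1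
          (ht.dvd_of_dvd_pow ((dvd_pow_self t hc0).trans hd))
      exact hrs ((hex x hx r a hr hxo).trans (hex y hy s b hs hyo).symm)
    · intro x y χ _ _ _
      refine linear_mul ?_ x y
      by_contra h1
      have hbot : commutator G = ⊥ := by
        rw [_root_.commutator_def, commutator_eq_bot_iff_le_centralizer]
        intro g _
        exact mem_centralizer_iff.2 fun h _ => mul_comm' h g
      have hle : Nat.card (centralizer ({(1 : G)} : Set G)) ≤ (commutator G).index := by
        rw [hbot, index_bot]; exact card_le_card_group _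
      have := Fintype.ofFinite G
      exact Char.irr_degree_ne_zero χ.2 (vanish_of_card_le hle h1)
    · exact backward P A hPn hcyc hAp hAP hBab hDn hBD hfix

end Cfsg.Agent.S4756
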