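import Cfsg.Statements.S4757
import Cfsg.Agent.Lib.CharTools.Basic
import Cfsg.Agent.Lib.Hall.Basic

set_option autoImplicit false
set_option maxHeartbeats 1600000
open Cfsg

namespace Cfsg.Agent.S4757

theorem oddCore_not_mem {G : Type*} [Group G] [Finite G] (u : G) (ho : orderOf u = 2) :
    u ∉ Cfsg.oddCore G := by
  intro hu
  have h := orderOf_dvd_natCard (⟨u, hu⟩ : Cfsg.oddCore G)
  rw [Subgroup.orderOf_mk, ho] at h
  exact Lib.Hall.not_dvd_card_pPrimeCore Nat.prime_two h

theorem commutator_le_oddCore {G : Type*} [Group G] [Finite G] (u : G)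
    (hsup : Subgroup.zpowers u ⊔ Cfsg.oddCore G = ⊤) : commutator G ≤ Cfsg.oddCore G := by
  have : (Cfsg.oddCore G).Normal := Lib.Hall.pPrimeCore_normal 2
  refine (Subgroup.Normal.quotient_commutative_iff_commutator_le (N := Cfsg.oddCore G)).mp ?_
  refine ⟨⟨fun a b => ?_⟩⟩
  show a * b = b * a
  have hq : ∀ a : G ⧸ Cfsg.oddCore G, ∃ i : ℤ, a = (QuotientGroup.mk u : G ⧸ Cfsg.oddCore G) ^ i := by
    intro a
    obtain ⟨x, rfl⟩ := QuotientGroup.mk_surjective a
    have hx : x ∈ Subgroup.zpowers u ⊔ Cfsg.oddCore G := by rw [hsup]; trivial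
    rw [Subgroup.mem_sup_of_normal_right] at hx
    obtain ⟨y, ⟨i, rfl⟩, z, hz, rfl⟩ := hx
    exact ⟨i, by rw [QuotientGroup.mk_mul, (QuotientGroup.eq_one_iff z).mpr hz, mul_one]; rfl⟩
  obtain ⟨i, rfl⟩ := hq a
  obtain ⟨j, rfl⟩ := hq b
  rw [← zpow_add, ← zpow_add, add_comm]

theorem odd_card_ker {G : Type*} [Group G] [Finite G] (u : G) (hu : u ≠ 1) (l : G →* ℂˣ)
    (hlu : (l u : ℂ) = -1) (ho : orderOf u = 2)
    (hcent : Subgroup.centralizer ({u} : Set G) = Subgroup.zpowers u) : ¬ 2 ∣ Nat.card l.ker := by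
  intro h2
  obtain ⟨t, ht⟩ := exists_prime_orderOf_dvd_card' (G := l.ker) 2 h2
  have hp : IsPGroup 2 (Subgroup.zpowers u) :=
    IsPGroup.of_card (n := 1) (by rw [Nat.card_zpowers, ho, pow_one])
  obtain ⟨P, hP⟩ := hp.exists_le_sylow
  have huP : u ∈ (P : Subgroup G) := hP (Subgroup.mem_zpowers u)
  haveI : Nontrivial P := ⟨⟨⟨u, huP⟩, 1, fun h => hu (congrArg Subtype.val h)⟩⟩
  haveI := P.isPGroup'.center_nontrivial
  obtain ⟨⟨z, hz⟩, hz1⟩ := exists_ne (1 : Subgroup.center (P : Subgroup G))
  have hzu : u * (z : G) = (z : G) * u :=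
    congrArg Subtype.val (Subgroup.mem_center_iff.mp hz ⟨u, huP⟩)
  have hzC : (z : G) ∈ Subgroup.centralizer ({u} : Set G) :=
    Subgroup.mem_centralizer_singleton_iff.mpr hzu.symm
  rw [hcent] at hzC
  -- u is central in P
  have hzeq : (z : G) = u := by
    have hfin : (z : G) = 1 ∨ (z : G) = u := by
      obtain ⟨k, hk⟩ := hzC
      change u ^ k = (z : G) at hk
      rw [← hk, ← zpow_mod_orderOf, ho]
      rcases Int.emod_two_eq k with h | h <;> simp [h]
    exact hfin.resolve_left fun h => hz1 (Subtype.ext (Subtype.ext h))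
  have hPle : (P : Subgroup G) ≤ Subgroup.zpowers u := by
    intro y hy
    rw [← hcent, Subgroup.mem_centralizer_singleton_iff]
    have := congrArg Subtype.val (Subgroup.mem_center_iff.mp hz ⟨y, hy⟩)
    simp only [Subgroup.coe_mul, hzeq] at this
    exact this
  have hPc : Nat.card P ∣ 2 := by
    have := Subgroup.card_dvd_of_le hPle
    rwa [Nat.card_zpowers, ho] at this
  have h4 : 2 ^ 2 ∣ Nat.card G := by
    have h5 := Subgroup.card_mul_index l.ker
    have h6 : 2 ∣ l.ker.index := by
      have hnot : u ∉ l.ker := fun h => by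
        rw [MonoidHom.mem_ker] at h; rw [h] at hlu; norm_num at hlu
      have : (orderOf (QuotientGroup.mk u : G ⧸ l.ker)) = 2 := by
        refine orderOf_eq_prime ?_ (fun h => hnot ((QuotientGroup.eq_one_iff u).mp h))
        rw [← QuotientGroup.mk_pow, ← ho, pow_orderOf_eq_one]; rfl
      rw [← this, Subgroup.index_eq_card]; exact orderOf_dvd_natCard _
    rw [← h5, pow_two]; exact Nat.mul_dvd_mul h2 h6
  have := P.pow_dvd_card_of_pow_dvd_card h4
  have := Nat.le_of_dvd (by norm_num) (this.trans hPc)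
  norm_num at this

/-- Let u ≠ 1 be an element of the finite group G and c a complex number such that every non-principal irreducible character χ satisfies χ(1) − χ(u) = c or χ(u) = 0. Then the following are equivalent: (a) u has order 2, G is generated by u together with O(G), the largest normal subgroup of G of odd order, and the centralizer of u is {1, u}; (b) G is not perfect; (c) c = 2. -/
theorem result {G : Type*} [Group G] [Finite G] (u : G) (hu : u ≠ 1) (c : ℂ) (hyp : ∀ χ : Cfsg.IrrCharacter G, (χ : G → ℂ) ≠ (fun _ => (1 : ℂ)) → ((χ : G → ℂ) 1 - (χ : G → ℂ) u = c ∨ (χ : G → ℂ) u = 0)) : ((orderOf u = 2 ∧ Subgroup.zpowers u ⊔ Cfsg.oddCore G = ⊤ ∧ Subgroup.centralizer ({u} : Set G) = Subgroup.zpowers u) ↔ commutator G ≠ ⊤) ∧ (commutator G ≠ ⊤ ↔ c = 2) := by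
  classical
  have := Fintype.ofFinite G
  let one : Cfsg.IrrCharacter G := ⟨fun _ => 1, Lib.Char.isIrrCharacter_one⟩
  have hone : ∀ χ : Cfsg.IrrCharacter G, χ ≠ one → (χ : G → ℂ) ≠ fun _ => (1 : ℂ) :=
    fun χ h he => h (Subtype.ext he)
  have horth : ∑ χ : Cfsg.IrrCharacter G, (χ : G → ℂ) 1 * (χ : G → ℂ) u = 0 := by
    rw [Lib.Char.sum_degree_mul u, if_neg hu]
  have hdeg : ∀ χ : Cfsg.IrrCharacter G, ∃ n : ℕ, n ≠ 0 ∧ (χ : G → ℂ) 1 = n := by
    intro χ
    obtain ⟨n, hn⟩ := Lib.Char.exists_natDegree (Lib.Char.isCharacter_of_isIrr χ.2)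
    exact ⟨n, fun h => Lib.Char.irr_degree_ne_zero χ.2 (by simp [hn, h]), hn⟩
  -- no nonlinear-only solution with c = 0
  have hc0 : c ≠ 0 := by
    rintro rfl
    have h1 : ∀ χ : Cfsg.IrrCharacter G, 0 ≤ ((χ : G → ℂ) 1 * (χ : G → ℂ) u).re := by
      intro χ
      obtain ⟨n, -, hn⟩ := hdeg χ
      by_cases hχ : χ = one
      · subst hχ; simp [one]
      rcases hyp χ (hone χ hχ) with h | h
      · rw [sub_eq_zero] at h
        rw [← h, hn]; simp; positivity
      · simp [h]
    have h2 := congrArg Complex.re horth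
    rw [Complex.re_sum, Complex.zero_re] at h2
    have := (Finset.sum_eq_zero_iff_of_nonneg fun χ _ => h1 χ).mp h2 one (Finset.mem_univ _)
    simp [one] at this
  have hA : (orderOf u = 2 ∧ Subgroup.zpowers u ⊔ Cfsg.oddCore G = ⊤ ∧
      Subgroup.centralizer ({u} : Set G) = Subgroup.zpowers u) → commutator G ≠ ⊤ := by
    rintro ⟨ho, hsup, -⟩ htop
    have hle := commutator_le_oddCore u hsup
    rw [htop] at hle
    have hu' : u ∈ Cfsg.oddCore G := hle trivial
    exact oddCore_not_mem u ho hu'
  have hB : commutator G ≠ ⊤ → (orderOf u = 2 ∧ Subgroup.zpowers u ⊔ Cfsg.oddCore G = ⊤ ∧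
      Subgroup.centralizer ({u} : Set G) = Subgroup.zpowers u) ∧ c = 2 := by
    intro hne
    obtain ⟨x, hx⟩ : ∃ x : G, x ∉ commutator G := by
      by_contra hc
      push Not at hc
      exact hne (eq_top_iff.mpr fun x _ => hc x)
    obtain ⟨l, hl⟩ := Lib.CharTools.exists_linear_ne_one hx
    have hlin : ∀ m : G →* ℂˣ, m ≠ 1 → 1 - (m u : ℂ) = c := by
      intro m hm
      rcases hyp ⟨fun g => (m g : ℂ), Lib.Char.isIrrCharacter_linear m⟩ (fun h => hm (by
        ext g; exact congrFun h g)) with h | h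
      · simpa using h
      · exact absurd h (Units.ne_zero (m u))
    have hl1 : l ≠ 1 := fun h => hl (by rw [h]; rfl)
    have ha := hlin l hl1
    have hl2 : l * l = 1 := by
      by_contra h
      have h2 := hlin (l * l) h
      rw [MonoidHom.mul_apply, Units.val_mul] at h2
      have : (l u : ℂ) * ((l u : ℂ) - 1) = 0 := by linear_combination ha - h2
      rcases mul_eq_zero.mp this with h' | h'
      · exact Units.ne_zero _ h'
      · exact hc0 (by linear_combination -ha - h')
    have hlu : (l u : ℂ) = -1 := by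
      have h2 : (l u : ℂ) * (l u : ℂ) = 1 := by
        rw [← Units.val_mul, ← MonoidHom.mul_apply, hl2]; rfl
      rcases mul_self_eq_one_iff.mp h2 with h' | h'
      · exact absurd (by linear_combination ha + h') hc0.symm
      · exact h'
    have hc2 : c = 2 := by rw [← ha, hlu]; norm_num
    -- every other character vanishes at u
    let lc : Cfsg.IrrCharacter G := ⟨fun g => (l g : ℂ), Lib.Char.isIrrCharacter_linear l⟩
    have hvan : ∀ χ : Cfsg.IrrCharacter G, χ ≠ one → χ ≠ lc → (χ : G → ℂ) u = 0 := by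
      intro χ h1 h2
      by_contra h0
      have e1 := (hyp χ (hone χ h1)).resolve_right h0
      have h3 : (fun g => (l g : ℂ) * (χ : G → ℂ) g) ≠ fun _ => (1 : ℂ) := by
        intro he
        refine h2 (Subtype.ext (funext fun g => ?_))
        have h4 : (l g : ℂ) * (l g : ℂ) = 1 := by
          rw [← Units.val_mul, ← MonoidHom.mul_apply, hl2]; rfl
        calc (χ : G → ℂ) g = ((l g : ℂ) * (l g : ℂ)) * (χ : G → ℂ) g := by rw [h4, one_mul]
          _ = (l g : ℂ) := by rw [mul_assoc, congrFun he g, mul_one]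
      rcases hyp ⟨_, Lib.CharTools.isIrrCharacter_twist χ.2 l⟩ h3 with h | h
      · simp only [map_one, Units.val_one, one_mul, hlu] at h
        exact h0 (by linear_combination (h - e1) / 2)
      · simp only [hlu] at h
        exact h0 (by linear_combination -h)
    have hcard : Nat.card (Subgroup.centralizer ({u} : Set G)) = 2 := by
      have h := Lib.CharTools.sum_irr_normSq u
      rw [← Finset.sum_subset (Finset.subset_univ {one, lc}) fun χ _ hχ => by
        simp only [Finset.mem_insert, Finset.mem_singleton, not_or] at hχ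
        simp [hvan χ hχ.1 hχ.2], Finset.sum_pair fun h => hl (Units.ext (by
          simpa [one, lc] using (congrFun (congrArg Subtype.val h) x).symm))] at h
      simp [one, lc, hlu] at h
      rw [Nat.card_eq_fintype_card]
      exact_mod_cast (show ((Fintype.card (Subgroup.centralizer ({u} : Set G)) : ℕ) : ℂ) = ((2 : ℕ) : ℂ) by
        rw [← h]; norm_num)
    have hucent : u ∈ Subgroup.centralizer ({u} : Set G) :=
      Subgroup.mem_centralizer_singleton_iff.mpr rfl
    have hdvd : orderOf u ∣ 2 := by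
      rw [← hcard, ← Subgroup.orderOf_mk u hucent]; exact orderOf_dvd_natCard _
    have ho : orderOf u = 2 := by
      rcases (Nat.dvd_prime Nat.prime_two).mp hdvd with h | h
      · exact absurd (orderOf_eq_one_iff.mp h) hu
      · exact h
    have hcent : Subgroup.centralizer ({u} : Set G) = Subgroup.zpowers u :=
      (Subgroup.eq_of_le_of_card_ge (by rwa [Subgroup.zpowers_le])
        (by rw [hcard, Nat.card_zpowers, ho])).symm
    refine ⟨⟨ho, ?_, hcent⟩, hc2⟩
    -- the kernel of l has odd order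
    have hker : ∀ g, l g = 1 ∨ l g = l u := by
      intro g
      have h2 : (l g : ℂ) * (l g : ℂ) = 1 := by
        rw [← Units.val_mul, ← MonoidHom.mul_apply, hl2]; rfl
      rcases mul_self_eq_one_iff.mp h2 with h' | h'
      · exact Or.inl (Units.ext h')
      · exact Or.inr (Units.ext (h'.trans hlu.symm))
    have hodd := odd_card_ker u hu l hlu ho hcent
    rw [eq_top_iff]
    intro g _
    have hle : l.ker ≤ Cfsg.oddCore G :=
      le_sSup ⟨inferInstance, Nat.Coprime.symm ((Nat.Prime.coprime_iff_not_dvd Nat.prime_two).mpr hodd)⟩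
    rcases hker g with h | h
    · exact Subgroup.mem_sup_right (hle h)
    · have : g = u * (u⁻¹ * g) := by group
      rw [this]
      exact mul_mem (Subgroup.mem_sup_left (Subgroup.mem_zpowers u))
        (Subgroup.mem_sup_right (hle (by simp [MonoidHom.mem_ker, h])))
  refine ⟨⟨hA, fun h => (hB h).1⟩, fun h => (hB h).2, fun hc2 htop => ?_⟩
  subst hc2
  have h1 : ∀ χ : Cfsg.IrrCharacter G, 0 ≤ ((χ : G → ℂ) 1 * (χ : G → ℂ) u).re := by
    intro χ
    obtain ⟨n, hn0, hn⟩ := hdeg χ
    by_cases hχ : χ = one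
    · subst hχ; simp [one]
    rcases hyp χ (hone χ hχ) with h | h
    · have hn1 : n ≠ 1 := by
        intro h1
        obtain ⟨m, hm⟩ := Lib.CharTools.irr_mem_linear χ.2 (by rw [hn, h1, Nat.cast_one])
        refine hone χ hχ (funext fun g => ?_)
        rw [hm, Lib.CharTools.linear_commutator (l := m) (by rw [htop]; trivial), Units.val_one]
      have : (χ : G → ℂ) u = (n : ℂ) - 2 := by linear_combination hn - h
      rw [this, hn]
      have : (2 : ℝ) ≤ n := by exact_mod_cast (show 2 ≤ n by omega)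
      simp
      positivity
    · simp [h]
  have h2 := congrArg Complex.re horth
  rw [Complex.re_sum, Complex.zero_re] at h2
  have := (Finset.sum_eq_zero_iff_of_nonneg fun χ _ => h1 χ).mp h2 one (Finset.mem_univ _)
  simp [one] at this

end Cfsg.Agent.S4757
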