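import Cfsg.Statements.S4758
import Cfsg.Agent.Lib.ConstFour.Lift

set_option autoImplicit false
open Cfsg

namespace Cfsg.Agent.S4758

/-- Let u ≠ 1 be an element of the finite group G such that every non-principal irreducible character χ satisfies χ(1) − χ(u) = 4 or χ(u) = 0. Then O(G), the largest normal subgroup of odd order, is abelian, and either G ⧸ O(G) ≅ PSL₂(5) and u is an involution, or G ⧸ O(G) ≅ SL₂(5) and u has order 4. -/
theorem result {G : Type*} [Group G] [Finite G] (u : G) (hu : u ≠ 1) (hyp : ∀ χ : Cfsg.IrrCharacter G, (χ : G → ℂ) ≠ (fun _ => (1 : ℂ)) → ((χ : G → ℂ) 1 - (χ : G → ℂ) u = 4 ∨ (χ : G → ℂ) u = 0)) : IsMulCommutative ↥(Cfsg.oddCore G) ∧ ((Nonempty (G ⧸ Cfsg.oddCore G ≃* Matrix.ProjectiveSpecialLinearGroup (Fin 2) (ZMod 5)) ∧ orderOf u = 2) ∨ (Nonempty (G ⧸ Cfsg.oddCore G ≃* Matrix.SpecialLinearGroup (Fin 2) (ZMod 5)) ∧ orderOf u = 4)) := by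
  classical
  haveI : Fact (Nat.Prime 5) := ⟨by norm_num⟩
  haveI : IsSimpleGroup (Matrix.ProjectiveSpecialLinearGroup (Fin 2) (ZMod 5)) :=
    Matrix.ProjectiveSpecialLinearGroup.rank_two_simple (by rw [Nat.card_zmod]; norm_num)
  have hc : Nat.card (Matrix.ProjectiveSpecialLinearGroup (Fin 2) (ZMod 5)) = 60 := by
    have h := Lib.Classical.two_mul_card_PSL_two_of_odd (F := ZMod 5) (by rw [ZMod.card]; decide)
    rw [ZMod.card] at h; omega
  obtain ⟨hab, hcase⟩ := Lib.ConstFour.structure_drop (u := u) hyp hu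
  refine ⟨hab, ?_⟩
  rcases hcase with ⟨hO, hsim, h60, ho⟩ | ⟨ho, N, hN, hNeq, ⟨C⟩⟩
  · left
    obtain ⟨e⟩ := @Lib.SmallSimple.nonempty_mulEquiv_alternatingFive G _ _ hsim h60
    obtain ⟨f⟩ := Lib.SmallSimple.nonempty_mulEquiv_alternatingFive hc
    exact ⟨⟨((QuotientGroup.quotientMulEquivOfEq hO).trans QuotientGroup.quotientBot).trans
      (e.trans f.symm)⟩, ho⟩
  · right
    obtain ⟨D⟩ := Lib.ZassSL25.nonempty_icoCover_sl
    obtain ⟨e⟩ := C.nonempty_mulEquiv D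
    exact ⟨⟨(QuotientGroup.quotientMulEquivOfEq hNeq.symm).trans e⟩, ho⟩

end Cfsg.Agent.S4758
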