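import Cfsg.Statements.S4762
import Cfsg.Agent.S0065
import Cfsg.Agent.Lib.Ito
import Cfsg.Agent.Lib.PGroupFrattini
import Cfsg.Agent.Lib.CharKernel
import Cfsg.Agent.Lib.Char.Degree
import Cfsg.Agent.Lib.Char.Linear
import Cfsg.Agent.Lib.Char.Scalar
import Cfsg.Agent.Lib.CharClifford.Extraspecial

set_option autoImplicit false
open Cfsg Cfsg.Agent

namespace Cfsg.Agent.S4762

theorem exists_linear_ne_one {G : Type*} [Group G] [Finite G] {g : G} (hg : g ∉ commutator G) :
    ∃ l : G →* ℂˣ, l g ≠ 1 := by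
  have : Finite (Abelianization G) := inferInstanceAs (Finite (G ⧸ commutator G))
  have : NeZero (Monoid.exponent (Abelianization G)) := ⟨Monoid.exponent_ne_zero_of_finite⟩
  have : NeZero (Monoid.exponent (Abelianization G) : ℂ) := NeZero.charZero
  obtain ⟨φ, hφ⟩ := CommGroup.exists_apply_ne_one_of_hasEnoughRootsOfUnity (Abelianization G) ℂ
    (a := Abelianization.of g) (fun h => hg ((QuotientGroup.eq_one_iff g).1 h))
  exact ⟨φ.comp Abelianization.of, hφ⟩

/-- Let p be a prime and G a finite nilpotent group. Then G has exactly one irreducible complex character of degree divisible by p if and only if p = 2 and G is an extraspecial 2-group. -/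
theorem result {G : Type*} [Group G] [Finite G] [Group.IsNilpotent G] (p : ℕ) [Fact p.Prime] : Nat.card {χ : Cfsg.IrrCharacter G // p ∣ Cfsg.charDegree (χ : G → ℂ)} = 1 ↔ (p = 2 ∧ Cfsg.IsExtraspecial 2 G) := by
  classical
  haveI := Fintype.ofFinite G
  have hp : p.Prime := Fact.out
  constructor
  · intro hone
    obtain ⟨⟨⟨χ, hχ⟩⟩, huniq⟩ : Nonempty _ ∧ Subsingleton
        {χ : IrrCharacter G // p ∣ Cfsg.charDegree (χ : G → ℂ)} :=
      ⟨(Nat.card_eq_one_iff_unique.1 hone).2, (Nat.card_eq_one_iff_unique.1 hone).1⟩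
    have heq : ∀ ψ : IrrCharacter G, p ∣ Cfsg.charDegree (ψ : G → ℂ) → ψ = χ := fun ψ hψ =>
      congrArg Subtype.val (@Subsingleton.elim _ huniq ⟨ψ, hψ⟩ ⟨χ, hχ⟩)
    have hne : (χ : G → ℂ) 1 ≠ 0 := Lib.Char.irr_degree_ne_zero χ.2
    have hlin : ∀ (l : G →* ℂˣ) (g : G), (l g : ℂ) * (χ : G → ℂ) g = (χ : G → ℂ) g := by
      intro l g
      have h := heq ⟨_, Lib.Char.isIrrCharacter_linear_mul χ.2 l⟩ (by
        refine hχ.trans (dvd_of_eq (Lib.Char.charDegree_eq_of_apply_one ?_).symm)
        show (l 1 : ℂ) * (χ : G → ℂ) 1 = _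
        rw [map_one, Units.val_one, one_mul,
          Lib.Char.apply_one_eq_charDegree (Lib.Char.isCharacter_of_isIrr χ.2)])
      exact congrFun (congrArg Subtype.val h) g
    -- `G` is a `p`-group
    obtain ⟨e⟩ := ((Group.isNilpotent_of_finite_tfae (G := G)).out 0 4 rfl rfl).mp ‹_›
    set P : Sylow p G := Classical.choice inferInstance with hP
    have hPn : (P : Subgroup G).Normal := inferInstance
    have hPna : ¬ ∀ a ∈ (P : Subgroup G), ∀ c ∈ (P : Subgroup G), a * c = c * a := fun hab =>
      P.not_dvd_index (hχ.trans (Lib.Ito.degree_dvd_index (P : Subgroup G) hab χ.2))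
    obtain ⟨α, hα⟩ : ∃ α : IrrCharacter (P : Subgroup G),
        Cfsg.charDegree (α : ↥(P : Subgroup G) → ℂ) ≠ 1 := by
      by_contra! hc
      refine hPna fun a ha c hc' => ?_
      have h1 := Lib.Char.card_charDegree_one (G := (P : Subgroup G))
      rw [Nat.card_congr (Equiv.subtypeUnivEquiv hc)] at h1
      have hbot : commutator (P : Subgroup G) = ⊥ := by
        have h2 := Lib.Char.sum_charDegree_sq (G := (P : Subgroup G))
        simp only [hc, one_pow, Finset.sum_const, Finset.card_univ, smul_eq_mul, mul_one] at h2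
        rw [← Nat.card_eq_fintype_card, h1] at h2
        refine Subgroup.card_eq_one.1 ?_
        have h3 := Subgroup.card_mul_index (commutator (P : Subgroup G))
        rw [h2] at h3
        exact Nat.eq_of_mul_eq_mul_right Nat.card_pos (h3.trans (one_mul _).symm)
      have hab : (⟨a, ha⟩ : (P : Subgroup G)) * ⟨c, hc'⟩ = ⟨c, hc'⟩ * ⟨a, ha⟩ := by
        rw [← commutatorElement_eq_one_iff_mul_comm, ← Subgroup.mem_bot, ← hbot]
        exact Subgroup.commutator_mem_commutator (Subgroup.mem_top _) (Subgroup.mem_top _)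
      exact congrArg Subtype.val hab
    have hpα : p ∣ Cfsg.charDegree (α : ↥(P : Subgroup G) → ℂ) := by
      obtain ⟨a, ha⟩ := IsPGroup.iff_card.mp P.isPGroup'
      have h := Lib.Char.charDegree_dvd_card α.2
      rw [ha] at h
      obtain ⟨i, -, hi⟩ := (Nat.dvd_prime_pow hp).mp h
      rcases Nat.eq_zero_or_pos i with rfl | hi0
      · exact absurd (by simpa using hi) hα
      · exact hi ▸ dvd_pow_self p hi0.ne'
    have hpG : p ∈ (Nat.card G).primeFactors := Nat.mem_primeFactors.2
      ⟨hp, hχ.trans (Lib.Char.charDegree_dvd_card χ.2), Nat.card_pos.ne'⟩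
    have hGp : IsPGroup p G := by
      refine IsPGroup.of_card (n := (Nat.card G).primeFactorsList.length)
        (Nat.eq_prime_pow_of_unique_prime_dvd Nat.card_pos.ne' fun {q} hq hqd => ?_)
      by_contra hqp
      have hqG : q ∈ (Nat.card G).primeFactors := Nat.mem_primeFactors.2 ⟨hq, hqd, Nat.card_pos.ne'⟩
      haveI : Fact q.Prime := ⟨hq⟩
      set Q : Sylow q G := Classical.choice inferInstance with hQ
      let πp : G →* (P : Subgroup G) :=
        { toFun := fun g => e.symm g ⟨p, hpG⟩ P
          map_one' := by simp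
          map_mul' := fun a c => by simp }
      have hsurj : Function.Surjective πp := fun a =>
        ⟨e (Pi.mulSingle ⟨p, hpG⟩ (Pi.mulSingle P a)), by simp [πp]⟩
      let ψ : IrrCharacter G := ⟨_, Lib.Char.isIrrCharacter_comp α.2 πp hsurj⟩
      have hψ : ψ = χ := heq ψ (hpα.trans (dvd_of_eq
        (Lib.Char.charDegree_eq_of_apply_one (by
          show (α : ↥(P : Subgroup G) → ℂ) (πp 1) = _
          rw [map_one, Lib.Char.apply_one_eq_charDegree (Lib.Char.isCharacter_of_isIrr α.2)])).symm))
      haveI : Nontrivial (Q : Subgroup G) := by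
        rw [← Finite.one_lt_card_iff_nontrivial]
        exact lt_of_lt_of_le hq.one_lt (Nat.le_of_dvd Nat.card_pos (Q.dvd_card_of_dvd_card hqd))
      haveI : Group.IsNilpotent (Q : Subgroup G) := Q.isPGroup'.isNilpotent
      obtain ⟨a, -, ha⟩ := SetLike.exists_of_lt
        (Group.IsSolvable.commutator_lt_top_of_nontrivial (Q : Subgroup G))
      obtain ⟨l, hl⟩ := exists_linear_ne_one ha
      let πq : G →* (Q : Subgroup G) :=
        { toFun := fun g => e.symm g ⟨q, hqG⟩ Q
          map_one' := by simp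
          map_mul' := fun a c => by simp }
      set x := e (Pi.mulSingle ⟨q, hqG⟩ (Pi.mulSingle Q a)) with hx
      have hxq : πq x = a := by simp [πq, x]
      have hxp : πp x = 1 := by
        simp only [πp, x, MonoidHom.coe_mk, OneHom.coe_mk, MulEquiv.symm_apply_apply]
        rw [Pi.mulSingle_eq_of_ne (fun h => hqp (congrArg Subtype.val h).symm)]
        rfl
      have hχx : (χ : G → ℂ) x = (χ : G → ℂ) 1 := by
        rw [← hψ]
        show (α : ↥(P : Subgroup G) → ℂ) (πp x) = (α : ↥(P : Subgroup G) → ℂ) (πp 1)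
        rw [hxp, map_one]
      have h := hlin (l.comp πq) x
      rw [MonoidHom.comp_apply, hxq, hχx] at h
      exact hl (Units.ext (by simpa using mul_right_cancel₀ hne (h.trans (one_mul _).symm)))
    -- every other character is linear
    have hdeg : ∀ ψ : IrrCharacter G, ψ ≠ χ → Cfsg.charDegree (ψ : G → ℂ) = 1 := by
      intro ψ hψ
      obtain ⟨a, ha⟩ := IsPGroup.iff_card.mp hGp
      have h := Lib.Char.charDegree_dvd_card ψ.2
      rw [ha] at h
      obtain ⟨i, -, hi⟩ := (Nat.dvd_prime_pow hp).mp h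
      rcases Nat.eq_zero_or_pos i with rfl | hi0
      · simpa using hi
      · exact absurd (heq ψ (hi ▸ dvd_pow_self p hi0.ne')) hψ
    have hcomm1 : ∀ ψ : IrrCharacter G, ψ ≠ χ → ∀ g ∈ commutator G,
        (ψ : G → ℂ) g = (ψ : G → ℂ) 1 := by
      intro ψ hψ g hg
      have h1 : (ψ : G → ℂ) 1 = 1 := by
        rw [Lib.Char.apply_one_eq_charDegree (Lib.Char.isCharacter_of_isIrr ψ.2), hdeg ψ hψ,
          Nat.cast_one]
      obtain ⟨l, hl⟩ := Lib.Char.exists_hom_of_degree_one (Lib.Char.isCharacter_of_isIrr ψ.2) h1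
      rw [hl, hl, map_one, MonoidHom.mem_ker.1 (Abelianization.commutator_subset_ker l hg)]
    have hvan : ∀ g : G, g ∉ commutator G → (χ : G → ℂ) g = 0 := by
      intro g hg
      obtain ⟨l, hl⟩ := exists_linear_ne_one hg
      by_contra h
      exact hl (Units.ext (by simpa using mul_right_cancel₀ h ((hlin l g).trans (one_mul _).symm)))
    have hsum : Nat.card G = (commutator G).index + Cfsg.charDegree (χ : G → ℂ) ^ 2 := by
      rw [← Lib.Char.card_charDegree_one, ← Lib.Char.sum_charDegree_sq (G := G),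
        ← Finset.sum_erase_add _ _ (Finset.mem_univ χ), Finset.sum_congr rfl
        (g := fun _ => 1) fun ψ hψ => by rw [hdeg ψ (Finset.mem_erase.1 hψ).1, one_pow],
        Finset.sum_const, smul_eq_mul, mul_one, Nat.card_eq_fintype_card, Fintype.card_subtype]
      congr 2
      ext ψ
      simp only [Finset.mem_erase, Finset.mem_univ, and_true, Finset.mem_filter, true_and]
      exact ⟨hdeg ψ, fun h h' => by
        subst h'
        rw [h] at hχ
        exact hp.not_dvd_one hχ⟩
    haveI hnt : Nontrivial G := by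
      rw [← Finite.one_lt_card_iff_nontrivial]
      exact lt_of_lt_of_le hp.one_lt (Nat.le_of_dvd Nat.card_pos (Nat.dvd_of_mem_primeFactors hpG))
    have hcb : commutator G ≠ ⊥ := fun h => by
      rw [h, Subgroup.index_bot] at hsum
      have h' := Lib.Char.charDegree_pos χ.2
      nlinarith
    obtain ⟨z, hzc, hzZ, hzp⟩ : ∃ z ∈ commutator G, z ∈ Subgroup.center G ∧ orderOf z = p := by
      haveI : Nontrivial (commutator G : Subgroup G) := (Subgroup.nontrivial_iff_ne_bot _).2 hcb
      have hd : p ∣ Nat.card (commutator G ⊓ Subgroup.center G : Subgroup G) := by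
        have hb := S0065.inf_center_ne_bot (N := commutator G) inferInstance hcb
        obtain ⟨k, hk⟩ := IsPGroup.iff_card.mp (hGp.to_subgroup (commutator G ⊓ Subgroup.center G))
        rcases Nat.eq_zero_or_pos k with rfl | hk0
        · exact absurd (Subgroup.card_eq_one.1 (by simpa using hk)) hb
        · exact hk ▸ dvd_pow_self p hk0.ne'
      obtain ⟨z, hz⟩ := exists_prime_orderOf_dvd_card' p hd
      exact ⟨z, z.2.1, z.2.2, by rw [Subgroup.orderOf_coe, hz]⟩
    haveI hzn : (Subgroup.zpowers z).Normal := ⟨fun n hn g => by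
      rwa [Subgroup.mem_center_iff.1 (Subgroup.zpowers_le.2 hzZ hn) g, mul_inv_cancel_right]⟩
    have hcz : commutator G = Subgroup.zpowers z := by
      refine le_antisymm (fun g hg => ?_) (Subgroup.zpowers_le.2 hzc)
      have hχz : (χ : G → ℂ) z ≠ (χ : G → ℂ) 1 := fun h => by
        have := Lib.CharKernel.eq_one_of_forall_irr (g := z) fun ψ => by
          by_cases hψ : ψ = χ
          · exact hψ ▸ h
          · exact hcomm1 ψ hψ z hzc
        rw [this, orderOf_one] at hzp
        exact hp.one_lt.ne hzp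
      exact Lib.CharKernel.mem_of_forall_irr (Subgroup.zpowers z) fun ψ hψ => hcomm1 ψ
        (fun h => hχz (h ▸ hψ z (Subgroup.mem_zpowers z))) g hg
    have hcard : Nat.card (commutator G) = p := by rw [hcz, Nat.card_zpowers, hzp]
    have hidx := Subgroup.card_mul_index (commutator G)
    rw [hcard] at hidx
    have hp2 : p = 2 := by
      obtain ⟨a, ha⟩ := IsPGroup.iff_card.mp hGp
      obtain ⟨i, -, hi⟩ : ∃ i, i ≤ a ∧ (commutator G).index = p ^ i :=
        (Nat.dvd_prime_pow hp).mp (ha ▸ Subgroup.index_dvd_card _)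
      obtain ⟨j, -, hj⟩ : ∃ j, j ≤ a ∧ Cfsg.charDegree (χ : G → ℂ) = p ^ j :=
        (Nat.dvd_prime_pow hp).mp (ha ▸ Lib.Char.charDegree_dvd_card χ.2)
      rw [hi, ← pow_succ'] at hidx
      rw [← hidx, hi, hj, ← pow_mul] at hsum
      -- p ^ (i+1) = p ^ i + p ^ (j * 2)
      have hle : i ≤ j * 2 := by
        by_contra hlt
        have : p ^ (j * 2) < p ^ i := Nat.pow_lt_pow_right hp.one_lt (by omega)
        have h2 : 2 * p ^ i ≤ p * p ^ i := Nat.mul_le_mul_right _ hp.two_le
        rw [pow_succ'] at hsum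
        omega
      obtain ⟨c, hc⟩ := Nat.exists_eq_add_of_le hle
      rw [hc, pow_succ, pow_add] at hsum
      have h2 : p = 1 + p ^ c := Nat.eq_of_mul_eq_mul_left (pow_pos hp.pos i) (by rw [hsum]; ring)
      rcases Nat.eq_zero_or_pos c with rfl | hc0
      · simpa using h2
      · have : p ≤ p ^ c := Nat.le_self_pow hc0.ne' p
        omega
    subst hp2
    have hcen : commutator G = Subgroup.center G := by
      refine le_antisymm (hcz ▸ Subgroup.zpowers_le.2 hzZ) fun g hg => ?_
      by_contra hgc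
      have h := Lib.Char.norm_char_of_mem_center χ.2 hg
      rw [hvan g hgc, norm_zero] at h
      exact hne (norm_eq_zero.1 h.symm)
    refine ⟨rfl, ⟨hGp, ?_, hcen⟩, hcen ▸ hcard⟩
    refine le_antisymm (hcen ▸ Lib.PGroupFrattini.frattini_le hp (commutator G) le_rfl fun g => ?_)
      (hcen ▸ Lib.PGroupFrattini.commutator_le_frattini hGp)
    rw [hcen, Subgroup.mem_center_iff]
    intro y
    have hc : y * g * y⁻¹ * g⁻¹ ∈ commutator G :=
      Subgroup.commutator_mem_commutator (Subgroup.mem_top y) (Subgroup.mem_top g)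
    have hcC : y * g * y⁻¹ * g⁻¹ ∈ Subgroup.center G := hcen ▸ hc
    have hsq : (y * g * y⁻¹ * g⁻¹) ^ 2 = 1 := by
      have h' := Subgroup.orderOf_dvd_natCard (commutator G) hc
      rw [hcard] at h'
      exact orderOf_dvd_iff_pow_eq_one.1 h'
    have hcomm : Commute (y * g * y⁻¹ * g⁻¹) g := (Subgroup.mem_center_iff.1 hcC g).symm
    have h2 : (y * g * y⁻¹) ^ 2 = g ^ 2 := by
      rw [show y * g * y⁻¹ = (y * g * y⁻¹ * g⁻¹) * g by group, hcomm.mul_pow, hsq, one_mul]
    rw [conj_pow, mul_inv_eq_iff_eq_mul] at h2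
    exact h2
  · rintro ⟨rfl, hE⟩
    obtain ⟨⟨hGp, -, hcen⟩, hZ⟩ := id hE
    have hidx := Subgroup.card_mul_index (commutator G)
    rw [hcen, hZ] at hidx
    have hnl : ∀ χ : IrrCharacter G, Cfsg.charDegree (χ : G → ℂ) ≠ 1 →
        2 * Cfsg.charDegree (χ : G → ℂ) ^ 2 = Nat.card G ∧ 2 ∣ Cfsg.charDegree (χ : G → ℂ) := by
      intro χ hd
      obtain ⟨a, ha⟩ := IsPGroup.iff_card.mp hGp
      obtain ⟨i, -, hi⟩ : ∃ i, i ≤ a ∧ Cfsg.charDegree (χ : G → ℂ) = 2 ^ i :=
        (Nat.dvd_prime_pow Nat.prime_two).mp (ha ▸ Lib.Char.charDegree_dvd_card χ.2)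
      have hdvd : 2 ∣ Cfsg.charDegree (χ : G → ℂ) := by
        rcases Nat.eq_zero_or_pos i with rfl | hi0
        · exact absurd (by simpa using hi) hd
        · exact hi ▸ dvd_pow_self 2 hi0.ne'
      refine ⟨?_, hdvd⟩
      have hne : (χ : G → ℂ) 1 ≠ 0 := Lib.Char.irr_degree_ne_zero χ.2
      have hnormc : ∀ z ∈ Subgroup.center G, ‖(χ : G → ℂ) z‖ = ‖(χ : G → ℂ) 1‖ := fun z hz =>
        Lib.Char.norm_char_of_mem_center χ.2 hz
      have hvan : ∀ x : G, x ∉ Subgroup.center G → (χ : G → ℂ) x = 0 := by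
        intro x hx
        refine Lib.CharClifford.eq_zero_of_scalar_center hE
          (Lib.Char.isClassFunction_of_isIrr χ.2) (fun z hz hz1 => ?_) hx
        refine ⟨(χ : G → ℂ) z / (χ : G → ℂ) 1, fun hc => ?_, fun g => ?_⟩
        · -- otherwise `χ` would be linear
          have hzχ : (χ : G → ℂ) z = (χ : G → ℂ) 1 := (div_eq_one_iff_eq hne).1 hc
          haveI hn : (commutator G).Normal := inferInstance
          obtain ⟨η, hη, hηe⟩ := Lib.CharKernel.exists_irr_quotient (commutator G) χ.2
            fun n hn => by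
              rw [hcen, Lib.CharClifford.center_le_zpowers hE hz hz1] at hn
              obtain ⟨k, rfl⟩ := hn
              show (χ : G → ℂ) (z ^ k) = _
              have hk : z ^ k = 1 ∨ z ^ k = z := by
                have hz2 : z ^ 2 = 1 := by
                  have h' := Subgroup.orderOf_dvd_natCard _ hz
                  rw [hZ] at h'
                  exact orderOf_dvd_iff_pow_eq_one.1 h'
                rcases Int.even_or_odd k with ⟨m, rfl⟩ | ⟨m, rfl⟩
                · left
                  rw [← two_mul, zpow_mul, zpow_two, ← pow_two, hz2, one_zpow]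
                · right
                  rw [zpow_add_one, zpow_mul, zpow_two, ← pow_two, hz2, one_zpow, one_mul]
              rcases hk with hk | hk
              · rw [hk]
              · rw [hk, hzχ]
          have hab : ∀ a c : G ⧸ commutator G, a * c = c * a := fun a c =>
            mul_comm (G := Abelianization G) a c
          haveI := Fintype.ofFinite (G ⧸ commutator G)
          have h1 := Lib.Ito.apply_one_of_abelian hab hη
          refine hd (Lib.Char.charDegree_eq_of_apply_one ?_)
          rw [Nat.cast_one, ← h1, ← hηe 1, QuotientGroup.mk_one]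
        · rw [div_mul_eq_mul_div, eq_div_iff hne]
          exact (Lib.Char.apply_mul_of_norm_eq (Lib.Char.isCharacter_of_isIrr χ.2)
            (hnormc z hz) g).1
      have h1 := Lib.Char.classInner_irr_self χ.2
      rw [classInner, inv_mul_eq_one₀ (Lib.Char.card_ne_zero_complex G),
        Finset.sum_congr rfl (g := fun x => if x ∈ Subgroup.center G then
          ((Cfsg.charDegree (χ : G → ℂ) ^ 2 : ℕ) : ℂ) else 0) fun x _ => ?_,
        ← Finset.sum_filter, Finset.sum_const, nsmul_eq_mul] at h1
      · rw [← Fintype.card_subtype, ← Nat.card_eq_fintype_card, hZ] at h1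
        exact_mod_cast h1.symm
      · split_ifs with hx
        · rw [Complex.mul_conj, Complex.normSq_eq_norm_sq, hnormc x hx,
            Lib.Char.apply_one_eq_charDegree (Lib.Char.isCharacter_of_isIrr χ.2)]
          simp
        · rw [hvan x hx, zero_mul]
    have hsum := Lib.Char.sum_charDegree_sq (G := G)
    rw [← Finset.sum_filter_add_sum_filter_not Finset.univ
      (fun χ : IrrCharacter G => Cfsg.charDegree (χ : G → ℂ) = 1)] at hsum
    set S := Finset.univ.filter fun χ : IrrCharacter G =>
      ¬ Cfsg.charDegree (χ : G → ℂ) = 1 with hS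
    rw [Finset.sum_congr rfl (g := fun _ => 1) (fun χ hχ => by
        rw [(Finset.mem_filter.1 hχ).2, one_pow]), Finset.sum_const, smul_eq_mul, mul_one,
      ← Fintype.card_subtype, ← Nat.card_eq_fintype_card, Lib.Char.card_charDegree_one, hcen] at hsum
    have h2 : S.card * Nat.card G = 2 * ∑ χ ∈ S, Cfsg.charDegree (χ : G → ℂ) ^ 2 := by
      rw [Finset.mul_sum, Finset.sum_congr rfl fun χ hχ => (hnl χ (Finset.mem_filter.1 hχ).2).1,
        Finset.sum_const, smul_eq_mul]
    have hS1 : S.card = 1 := Nat.eq_of_mul_eq_mul_right (Nat.card_pos (α := G))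
      (by rw [h2, one_mul]; omega)
    rw [← hS1, Nat.card_eq_fintype_card, Fintype.card_subtype]
    congr 1
    ext χ
    simp only [hS, Finset.mem_filter, Finset.mem_univ, true_and]
    exact ⟨fun h h1 => by rw [h1] at h; omega, fun h => (hnl χ h).2⟩

end Cfsg.Agent.S4762
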