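import Cfsg.Statements.S4765
import Cfsg.Agent.Lib.TwoChar.DegreeSets

set_option autoImplicit false
open Cfsg

namespace Cfsg.Agent.S4765

/-- Let F be a finite field of characteristic p with at least 4 elements. Then PSL(2,F) has exactly one irreducible complex character of degree divisible by p, and its degree is the order of F. -/
theorem result (p : ℕ) [Fact p.Prime] (F : Type*) [Field F] [Fintype F] [CharP F p] (hF : 4 ≤ Fintype.card F) : Nat.card {χ : Cfsg.IrrCharacter (Matrix.ProjectiveSpecialLinearGroup (Fin 2) F) // p ∣ Cfsg.charDegree (χ : Matrix.ProjectiveSpecialLinearGroup (Fin 2) F → ℂ)} = 1 ∧ ∀ χ : Cfsg.IrrCharacter (Matrix.ProjectiveSpecialLinearGroup (Fin 2) F), p ∣ Cfsg.charDegree (χ : Matrix.ProjectiveSpecialLinearGroup (Fin 2) F → ℂ) → Cfsg.charDegree (χ : Matrix.ProjectiveSpecialLinearGroup (Fin 2) F → ℂ) = Fintype.card F := by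
  classical
  obtain ⟨m, hp, hm⟩ := FiniteField.card F p
  have hq0 : p ∣ Fintype.card F := hm ▸ dvd_pow_self p m.ne_zero
  let d := Lib.TwoChar.slDat F
  letI : Fintype (d.T →* ℂˣ) := @Fintype.ofFinite _ (Lib.TwoChar.finite_dual d.T)
  obtain ⟨ψ, hψ⟩ := Lib.TwoChar.exists_addChar F
  have hnp : ¬ p ∣ 1 := hp.not_dvd_one
  have hn1 : ¬ p ∣ Fintype.card F + 1 := fun h => hnp ((Nat.dvd_add_right hq0).1 h)
  have hn2 : ¬ p ∣ Fintype.card F - 1 := fun h => hnp (by
    have := Nat.dvd_sub hq0 h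
    rwa [show Fintype.card F - (Fintype.card F - 1) = 1 by omega] at this)
  have hkey : (∀ n ∈ charDegrees (Matrix.SpecialLinearGroup (Fin 2) F), p ∣ n → n = Fintype.card F) ∧
      Fintype.card F ∈ charDegrees (Matrix.ProjectiveSpecialLinearGroup (Fin 2) F) ∧
      ∀ ξ ξ' : IrrCharacter (Matrix.SpecialLinearGroup (Fin 2) F), ξ.1 1 = (Fintype.card F : ℂ) →
        ξ'.1 1 = (Fintype.card F : ℂ) → ξ = ξ' := by
    rcases Nat.even_or_odd (Fintype.card F) with hev | hodd
    · haveI : CharP F 2 := ringChar.of_eq (FiniteField.even_card_iff_char_two.2 (Nat.even_iff.1 hev))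
      refine ⟨fun n hn hd => ?_, Lib.TwoChar.psl_card_mem_even, fun ξ ξ' h h' => ?_⟩
      · rcases Lib.TwoChar.degrees_subset_even (F := F) hn with h | h | h | h
        · exact absurd (h ▸ hd) hnp
        · exact h
        · exact absurd (h ▸ hd) hn1
        · exact absurd ((Set.mem_singleton_iff.mp h) ▸ hd) hn2
      · obtain ⟨ht, -, -, h11⟩ := Lib.TwoChar.sl_even_types F hψ
        have hi := (Lib.TwoChar.sl_oneOrbit F).degree_iff hψ ht (by omega)
        exact Finset.card_le_one.mp h11.le ξ (Finset.mem_filter.mpr ⟨Finset.mem_univ _, (hi ξ).2.1.mp h⟩) ξ'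
          (Finset.mem_filter.mpr ⟨Finset.mem_univ _, (hi ξ').2.1.mp h'⟩)
    · obtain ⟨η, hη⟩ := FiniteField.exists_nonsquare (Lib.TwoChar.ringChar_ne_two hodd)
      have hh : ∀ n : ℕ, p ∣ n → n * 2 ≠ Fintype.card F + 1 ∧ n * 2 ≠ Fintype.card F - 1 := fun n hn =>
        ⟨fun e => hn1 (e ▸ dvd_mul_of_dvd_left hn 2), fun e => hn2 (e ▸ dvd_mul_of_dvd_left hn 2)⟩
      have hq5 : 5 ≤ Fintype.card F := by obtain ⟨r, hr⟩ := hodd; omega
      refine ⟨fun n hn hd => ?_, Lib.TwoChar.psl_card_mem_odd hodd, fun ξ ξ' h h' => ?_⟩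
      · obtain ⟨r, hr⟩ := hodd
        rcases Lib.TwoChar.degrees_subset_odd ⟨r, hr⟩ hn with h | h | h | h | h | h
        · exact absurd (h ▸ hd) hnp
        · exact h
        · exact absurd (h ▸ hd) hn1
        · exact absurd (h ▸ hd) hn2
        · exact absurd (by rw [h]; omega) (hh n hd).1
        · exact absurd (by rw [Set.mem_singleton_iff.mp h]; omega) (hh n hd).2
      · obtain ⟨T⟩ := Lib.TwoChar.exists_table hodd hη hψ
        have st : ∀ ξ : IrrCharacter (Matrix.SpecialLinearGroup (Fin 2) F), ξ.1 1 = (Fintype.card F : ℂ) → ξ = T.st := by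
          intro ξ h
          obtain ⟨a, b, c⟩ := (Lib.TwoChar.degree_iff_odd hodd hη hψ hq5 ξ).2.1.mp h
          rcases (T.A_one ξ).mp a with e | e | e | e
          · rw [e, d.M_triv hψ] at b; omega
          · exact e
          · rw [e, T.M_hp.2] at c; omega
          · rw [e, T.M_hm.1] at b; omega
        rw [st ξ h, st ξ' h']
  obtain ⟨hdiv, ⟨η₀, hη₀⟩, huniq⟩ := hkey
  have hall : ∀ χ : IrrCharacter (Matrix.ProjectiveSpecialLinearGroup (Fin 2) F),
      p ∣ charDegree χ.1 → charDegree χ.1 = Fintype.card F := fun χ h =>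
    hdiv _ (Lib.TwoChar.psl_degrees_subset ⟨χ, rfl⟩) h
  refine ⟨?_, hall⟩
  rw [Nat.card_eq_one_iff_exists]
  refine ⟨⟨η₀, hη₀ ▸ hq0⟩, fun χ => Subtype.ext (Subtype.ext (funext fun x => ?_))⟩
  let π := QuotientGroup.mk' (Subgroup.center (Matrix.SpecialLinearGroup (Fin 2) F))
  have hπ : Function.Surjective π := QuotientGroup.mk'_surjective _
  have h1 : ∀ ζ : IrrCharacter (Matrix.ProjectiveSpecialLinearGroup (Fin 2) F), charDegree ζ.1 = Fintype.card F →
      (ζ.1 ∘ π) 1 = (Fintype.card F : ℂ) := fun ζ h => by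
    rw [Function.comp_apply, map_one, ← h]
    exact Lib.Char.apply_one_eq_charDegree (Lib.Char.isCharacter_of_isIrr ζ.2)
  have := huniq ⟨χ.1.1 ∘ π, Lib.Char.isIrrCharacter_comp χ.1.2 π hπ⟩ ⟨η₀.1 ∘ π, Lib.Char.isIrrCharacter_comp η₀.2 π hπ⟩
    (h1 _ (hall _ χ.2)) (h1 _ hη₀)
  obtain ⟨g, rfl⟩ := hπ x
  exact congrFun (congrArg Subtype.val this) g
end Cfsg.Agent.S4765
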