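import Cfsg.Statements.S4768
import Cfsg.Agent.Lib.Char.Monomial
import Cfsg.Agent.Lib.Char.Clifford
import Cfsg.Agent.Lib.Char.DegreesPrimeTo
import Cfsg.Agent.Lib.CharKernel
import Cfsg.Agent.Lib.Char.Kernel
import Cfsg.Agent.Lib.Char.Degree
import Cfsg.Agent.Lib.PermChar.Basic
import Cfsg.Agent.Lib.CharClifford.Basic
import Cfsg.Agent.Lib.HallHigman.DerivedLength

set_option autoImplicit false
open Cfsg

namespace Cfsg.Agent.S4768

open Cfsg.Agent.Lib.Char Cfsg.Agent.Lib
open Cfsg.Agent.Lib.HallHigman (dser dser_mono dser_map dser_le map_subtype_derivedSeries)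

universe v

/-- A monomial group has derived length at most the number of its degrees. -/
theorem taketa_count {G : Type v} [Group G] [Finite G] [Group.IsNilpotent G] :
    derivedSeries G {d : ℕ | ∃ χ : IrrCharacter G, charDegree (χ : G → ℂ) = d}.ncard = ⊥ := by
  classical
  haveI := Fintype.ofFinite G
  set cd := {d : ℕ | ∃ χ : IrrCharacter G, charDegree (χ : G → ℂ) = d} with hcd
  have hfin : cd.Finite := by
    refine (Set.finite_range fun χ : IrrCharacter G => charDegree (χ : G → ℂ)).subset ?_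
    rintro d ⟨χ, rfl⟩
    exact ⟨χ, rfl⟩
  let r : ℕ → ℕ := fun d => {e | e ∈ cd ∧ e ≤ d}.ncard
  have hsub : ∀ d, {e | e ∈ cd ∧ e ≤ d}.Finite := fun d => hfin.subset fun e he => he.1
  have hr0 : ∀ (χ : G → ℂ) (_ : Cfsg.IsIrrCharacter G χ) {d : ℕ}, charDegree χ = d → 0 < r d :=
    fun χ hχ d hd => (Set.ncard_pos (hsub d)).2 ⟨d, ⟨⟨χ, hχ⟩, hd⟩, le_rfl⟩
  have hrlt : ∀ (e d : ℕ), e < d → ∀ (χ : G → ℂ) (_ : Cfsg.IsIrrCharacter G χ),
      charDegree χ = d → r e < r d := fun e d hed χ hχ hd =>
    Set.ncard_lt_ncard ⟨fun a ha => ⟨ha.1, by have := ha.2; omega⟩,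
      fun hs => by
        have := (hs (show d ∈ {a | a ∈ cd ∧ a ≤ d} from ⟨⟨⟨χ, hχ⟩, hd⟩, le_rfl⟩)).2
        omega⟩ (hsub d)
  have hM : ∀ χ : G → ℂ, Cfsg.IsIrrCharacter G χ → ∃ (H : Subgroup G) (lam : H →* ℂˣ),
      χ = Cfsg.indFun H (fun h => (lam h : ℂ)) := Char.nilpotent_monomial _ G rfl
  have key : ∀ d : ℕ, ∀ χ : G → ℂ, Cfsg.IsIrrCharacter G χ → Cfsg.charDegree χ = d →
      ∀ g ∈ derivedSeries G (r d), χ g = χ 1 := by
    intro d
    induction d using Nat.strong_induction_on with
    | _ d ih =>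
      intro χ hχ hd g hg
      obtain ⟨H, lam, hlam⟩ := hM χ hχ
      have hdH : d = H.index := by
        rw [← hd, hlam]
        refine Cfsg.Agent.Lib.Char.charDegree_eq_of_apply_one ?_
        rw [Cfsg.Agent.Lib.Char.indFun_one]
        simp
      have hd0 : 0 < d := hdH ▸ Nat.pos_of_ne_zero Subgroup.index_ne_zero_of_finite
      -- the derived subgroup of level `d - 1` lies in `H`
      have hrd : 0 < r d := hr0 χ hχ hd
      have hD : derivedSeries G (r d - 1) ≤ H := by
        rcases eq_or_ne d 1 with h1 | h1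
        · rw [Subgroup.index_eq_one.mp (hdH.symm.trans h1)]; exact le_top
        intro a ha
        set π : G → ℂ := Cfsg.indFun H (fun _ => 1) with hπ
        have hπc : Cfsg.IsCharacter G π := Cfsg.Agent.Lib.Char.isCharacter_indFun H Cfsg.Agent.Lib.Char.isCharacter_one
        obtain ⟨m, hm⟩ := Cfsg.Agent.Lib.Char.isCharacter_eq_sum hπc
        have hπ1 : π 1 = (d : ℂ) := by rw [hπ, Cfsg.Agent.Lib.Char.indFun_one, hdH, mul_one]
        have hm1 : ∀ ψ : Cfsg.IrrCharacter G, m ψ ≠ 0 →
            Cfsg.charDegree (ψ : G → ℂ) < d := by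
          intro ψ hψ
          have hone : m ⟨_, Cfsg.Agent.Lib.Char.isIrrCharacter_one⟩ = 1 := by
            have h2 : Cfsg.classInner π (fun _ : G => (1 : ℂ)) = 1 := by
              rw [hπ, Cfsg.Agent.Lib.Char.classInner_indFun _ _ (fun _ _ => rfl)]
              exact Cfsg.Agent.Lib.Char.classInner_irr_self Cfsg.Agent.Lib.Char.isIrrCharacter_one
            rw [hm, Cfsg.Agent.Lib.Char.classInner_sum_left,
              Finset.sum_eq_single ⟨_, Cfsg.Agent.Lib.Char.isIrrCharacter_one⟩] at h2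
            · rw [Cfsg.Agent.Lib.Char.classInner_smul_left,
                Cfsg.Agent.Lib.Char.classInner_irr_self Cfsg.Agent.Lib.Char.isIrrCharacter_one, mul_one] at h2
              exact_mod_cast h2
            · intro b _ hb
              rw [Cfsg.Agent.Lib.Char.classInner_smul_left, Cfsg.Agent.Lib.Char.classInner_irr_ne b.2
                Cfsg.Agent.Lib.Char.isIrrCharacter_one (fun h => hb (Subtype.ext h)), mul_zero]
            · simp
          have hsum : ∑ φ : Cfsg.IrrCharacter G, m φ * Cfsg.charDegree (φ : G → ℂ) = d := by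
            have h2 := congrFun hm 1
            rw [hπ1] at h2
            simp only [Finset.sum_apply, Pi.smul_apply, smul_eq_mul,
              Cfsg.Agent.Lib.Char.apply_one_eq_charDegree (Cfsg.Agent.Lib.Char.isCharacter_of_isIrr (Subtype.prop _))] at h2
            exact_mod_cast h2.symm
          have hd1 : Cfsg.charDegree (fun _ : G => (1 : ℂ)) = 1 := Cfsg.Agent.Lib.Char.charDegree_one
          by_cases hψ1 : ψ = ⟨_, Cfsg.Agent.Lib.Char.isIrrCharacter_one⟩
          · subst hψ1; rw [hd1]; omega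
          · have h2 := Finset.sum_le_sum_of_subset (f := fun φ : Cfsg.IrrCharacter G =>
              m φ * Cfsg.charDegree (φ : G → ℂ))
              (Finset.subset_univ {ψ, (⟨_, Cfsg.Agent.Lib.Char.isIrrCharacter_one⟩ : Cfsg.IrrCharacter G)})
            rw [Finset.sum_pair hψ1, hone, hd1, hsum] at h2
            have h3 : Cfsg.charDegree (ψ : G → ℂ) ≤ m ψ * Cfsg.charDegree (ψ : G → ℂ) :=
              Nat.le_mul_of_pos_left _ (Nat.pos_of_ne_zero hψ)
            omega
        have hπa : π a = π 1 := by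
          rw [hm]
          simp only [Finset.sum_apply, Pi.smul_apply, smul_eq_mul]
          refine Finset.sum_congr rfl fun ψ _ => ?_
          by_cases hψ : m ψ = 0
          · rw [hψ, Nat.cast_zero, zero_mul, zero_mul]
          · rw [ih _ (hm1 ψ hψ) ψ ψ.2 rfl a
              (derivedSeries_antitone G (by have := hrlt _ _ (hm1 ψ hψ) χ hχ hd; omega) ha)]
        rw [hπ1, hπ, Cfsg.Agent.Lib.PermChar.indFun_one_apply, Nat.cast_inj] at hπa
        haveI : Finite (G ⧸ H) := Finite.of_surjective _ Quotient.mk''_surjective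
        have hall : ∀ q : G ⧸ H, a • q = q := by
          by_contra hcon
          push Not at hcon
          obtain ⟨q, hq⟩ := hcon
          have hlt : Nat.card {q : G ⧸ H // a • q = q} < Nat.card (G ⧸ H) :=
            Finite.card_subtype_lt (x := q) hq
          rw [← Subgroup.index_eq_card, ← hdH] at hlt
          rw [Cfsg.Agent.Lib.PermChar.fixNum] at hπa
          omega
        have := (Cfsg.Agent.Lib.PermChar.smul_mk_eq_self_iff H a 1).mp (hall _)
        simpa using this
      -- hence the next one lies in every conjugate of the kernel of `lam`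
      have hker : derivedSeries G (r d) ≤ lam.ker.map H.subtype := by
        have h2 : derivedSeries G (r d) ≤ ⁅H, H⁆ := by
          obtain ⟨e, he⟩ := Nat.exists_eq_succ_of_ne_zero hrd.ne'
          rw [he] at hD ⊢
          exact Subgroup.commutator_mono (by simpa using hD) (by simpa using hD)
        refine h2.trans ?_
        rw [← Subgroup.map_subtype_commutator H]
        exact Subgroup.map_mono (Abelianization.commutator_subset_ker lam)
      rw [hlam]
      simp only [Cfsg.indFun]
      congr 1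
      refine Finset.sum_congr rfl fun x _ => ?_
      have hc : x⁻¹ * g * x ∈ derivedSeries G (r d) := by
        simpa using (derivedSeries_normal G (r d)).conj_mem g hg x⁻¹
      obtain ⟨h, hh, he⟩ := hker hc
      have he' : (h : G) = x⁻¹ * g * x := he
      rw [← he', mul_one, inv_mul_cancel, Cfsg.Agent.Lib.Char.extendByZero_coe]
      rw [show Cfsg.extendByZero H (fun h => (lam h : ℂ)) 1 = (lam 1 : ℂ) from
        Cfsg.Agent.Lib.Char.extendByZero_coe H _ 1, MonoidHom.mem_ker.mp hh, map_one]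
  rw [eq_bot_iff]
  intro g hg
  rw [Subgroup.mem_bot]
  refine Cfsg.Agent.Lib.Char.eq_one_of_forall_irr fun χ => key _ χ χ.2 rfl g ?_
  exact derivedSeries_antitone G (Set.ncard_le_ncard (fun a ha => ha.1) hfin) hg

variable {G : Type v} [Group G] [Finite G] {p : ℕ} [hp : Fact p.Prime]

/-- `χ` lies over `θ`. -/
def Over (M : Subgroup G) [Fintype ↥M] (χ : G → ℂ) (θ : ↥M → ℂ) : Prop :=
  classInner (fun m : ↥M => χ m) θ ≠ 0

/-- Characters of `G` over a character of `M` of degree divisible by `p`. -/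
def Big (p : ℕ) (M : Subgroup G) : Set (IrrCharacter G) :=
  {χ | ∃ (_ : Fintype ↥M) (θ : IrrCharacter ↥M), p ∣ charDegree (θ : ↥M → ℂ) ∧
    Over M (χ : G → ℂ) (θ : ↥M → ℂ)}

theorem mid {L M : Subgroup G} [Fintype ↥L] [Fintype ↥M] (hLM : L ≤ M) {χ : G → ℂ}
    (hχ : IsIrrCharacter G χ) {θ : ↥L → ℂ} (h : Over L χ θ) :
    ∃ ψ : IrrCharacter ↥M, Over M χ (ψ : ↥M → ℂ) ∧
      classInner (CharClifford.resLe hLM (ψ : ↥M → ℂ)) θ ≠ 0 := by
  classical
  obtain ⟨m, hm⟩ := isCharacter_eq_sum (isCharacter_restrict (isCharacter_of_isIrr hχ) M)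
  by_contra hc
  push Not at hc
  apply h
  have e : (fun n : ↥L => χ n) =
      ∑ ψ : IrrCharacter ↥M, (m ψ : ℂ) • CharClifford.resLe hLM (ψ : ↥M → ℂ) := by
    funext n
    have := congrFun hm ⟨n, hLM n.2⟩
    simpa [Finset.sum_apply, CharClifford.resLe] using this
  rw [e, classInner_sum_left]
  refine Finset.sum_eq_zero fun ψ _ => ?_
  rw [classInner_smul_left]
  by_cases hψ : m ψ = 0
  · simp [hψ]
  rw [hc ψ ?_, mul_zero]
  intro h0
  apply hψ
  have : classInner (fun x : ↥M => χ x) (ψ : ↥M → ℂ) = (m ψ : ℂ) := by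
    rw [hm, classInner_sum_left, Finset.sum_eq_single ψ]
    · rw [classInner_smul_left, classInner_irr_self ψ.2, mul_one]
    · intro b _ hb
      rw [classInner_smul_left, classInner_irr_ne b.2 ψ.2 fun e => hb (Subtype.ext e), mul_zero]
    · simp
  rw [h0] at this
  exact_mod_cast this.symm

theorem dvd_of_over {L M : Subgroup G} [Fintype ↥L] [Fintype ↥M] [L.Normal] (hLM : L ≤ M)
    {ψ : ↥M → ℂ} (hψ : IsIrrCharacter ↥M ψ) {θ : ↥L → ℂ} (hθ : IsIrrCharacter ↥L θ)
    (h : classInner (CharClifford.resLe hLM ψ) θ ≠ 0) : charDegree θ ∣ charDegree ψ := by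
  classical
  haveI : (L.subgroupOf M).Normal := Subgroup.Normal.subgroupOf inferInstance M
  let e := Subgroup.subgroupOfEquivOfLe hLM
  haveI := Fintype.ofFinite ↥(L.subgroupOf M)
  have hθ' := CharClifford.isIrrCharacter_comp_equiv e hθ
  have h' : classInner (fun n : ↥(L.subgroupOf M) => ψ n) (θ ∘ e) ≠ 0 := by
    rw [show (fun n : ↥(L.subgroupOf M) => ψ n) = CharClifford.resLe hLM ψ ∘ e from rfl,
      CharClifford.classInner_comp_equiv]
    exact h
  obtain ⟨a, ha⟩ := classInner_natCast (isCharacter_restrict (isCharacter_of_isIrr hψ)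
    (L.subgroupOf M)) (isCharacter_of_isIrr hθ')
  have hd := clifford_degree (L.subgroupOf M) hψ hθ' h'
  rw [ha, apply_one_eq_charDegree (isCharacter_of_isIrr hψ), Function.comp_apply, map_one,
    apply_one_eq_charDegree (isCharacter_of_isIrr hθ)] at hd
  exact ⟨a * (inertia (L.subgroupOf M) (θ ∘ e)).index, by
    rw [mul_comm]; exact_mod_cast hd⟩

/-- With a normal `p`-complement and degrees prime to `p` off the complement, the Sylow is
normal. -/
theorem sylow_normal' (K : Subgroup G) [K.Normal] (hK : ¬ p ∣ Nat.card K) {m : ℕ}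
    (hidx : K.index = p ^ m)
    (hdeg : ∀ χ : IrrCharacter G, (∃ k ∈ K, (χ : G → ℂ) k ≠ (χ : G → ℂ) 1) →
      ¬ p ∣ charDegree (χ : G → ℂ))
    (T : Sylow p G) : (T : Subgroup G).Normal := by
  classical
  haveI := Fintype.ofFinite G
  haveI := Fintype.ofFinite K
  have hinv : ∀ θ : IrrCharacter K, ∀ x : G, conjChar K x (θ : K → ℂ) = θ := by
    intro θ x
    by_cases hθ1 : (θ : K → ℂ) = fun _ => 1
    · rw [hθ1]; rfl
    obtain ⟨χ, hχ⟩ := exists_irr_over K θ.2
    have hnk : ∃ k ∈ K, (χ : G → ℂ) k ≠ (χ : G → ℂ) 1 := by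
      by_contra hc
      push Not at hc
      refine hχ ?_
      rw [show (fun n : ↥K => (χ : G → ℂ) n) = (χ : G → ℂ) 1 • (fun _ : ↥K => (1 : ℂ)) from
        funext fun n => by simp [hc n.1 n.2], classInner_smul_left,
        classInner_irr_ne isIrrCharacter_one θ.2 (Ne.symm hθ1), mul_zero]
    obtain ⟨a, ha⟩ := classInner_natCast (isCharacter_restrict (isCharacter_of_isIrr χ.2) K)
      (isCharacter_of_isIrr θ.2)
    have h := clifford_degree K χ.2 θ.2 hχ
    rw [ha, apply_one_eq_charDegree (isCharacter_of_isIrr χ.2),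
      apply_one_eq_charDegree (isCharacter_of_isIrr θ.2)] at h
    have hle := le_inertia K (isClassFunction_of_isIrr θ.2)
    obtain ⟨i, -, hi⟩ := (Nat.dvd_prime_pow hp.out).1 (hidx ▸ Subgroup.index_dvd_of_le hle)
    rcases Nat.eq_zero_or_pos i with rfl | hi0
    · rw [pow_zero, Subgroup.index_eq_one] at hi
      exact (mem_inertia K).1 (hi ▸ Subgroup.mem_top x)
    · refine absurd ?_ (hdeg χ hnk)
      rw [show charDegree (χ : G → ℂ) = a * (inertia K (θ : K → ℂ)).index * charDegree (θ : K → ℂ) by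
        exact_mod_cast h, hi]
      exact dvd_mul_of_dvd_left (dvd_mul_of_dvd_right (dvd_pow_self p hi0.ne') _) _
  have hcent : ∀ t ∈ (T : Subgroup G), ∀ k ∈ K, Commute t k := by
    intro t ht k hk
    have hcop : Nat.Coprime (orderOf t) (Nat.card K) := by
      obtain ⟨j, hj⟩ := T.isPGroup' ⟨t, ht⟩
      have h1 : t ^ p ^ j = 1 := congrArg Subtype.val hj
      exact Nat.Coprime.coprime_dvd_left (orderOf_dvd_of_pow_eq_one h1)
        ((hp.out.coprime_iff_not_dvd.2 hK).pow_left j)
    by_contra hne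
    set W : Subgroup K := (Subgroup.centralizer ({t} : Set G)).subgroupOf K with hW
    have hWtop : W ≠ ⊤ := fun h => hne (by
      have h1 : (⟨k, hk⟩ : K) ∈ W := h ▸ Subgroup.mem_top _
      exact (Subgroup.mem_centralizer_singleton_iff.1 (Subgroup.mem_subgroupOf.1 h1)).symm)
    obtain ⟨d, hd⟩ := Recog.exists_forall_conj_notMem hWtop
    have hfix : CharClifford.classFixed K t (ConjClasses.mk d) := by
      intro h hh
      rw [isConj_iff_forall_irr]
      intro θ
      exact congrFun (hinv θ t) h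
    obtain ⟨w, hw, hwc⟩ := CharClifford.exists_mem_commute_of_classFixed K hcop hfix
    obtain ⟨c, hc⟩ := isConj_iff.1 (ConjClasses.mk_eq_mk_iff_isConj.1 hw).symm
    refine hd c⁻¹ ?_
    rw [inv_inv, hc]
    exact Subgroup.mem_subgroupOf.2 (Subgroup.mem_centralizer_singleton_iff.2 hwc.eq.symm)
  have htop : K ⊔ (T : Subgroup G) = ⊤ := by
    refine Subgroup.index_eq_one.1 ?_
    have h1 := Subgroup.index_dvd_of_le (le_sup_left : K ≤ K ⊔ (T : Subgroup G))
    have h2 := Subgroup.index_dvd_of_le (le_sup_right : (T : Subgroup G) ≤ K ⊔ (T : Subgroup G))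
    rw [hidx] at h1
    exact Nat.eq_one_of_dvd_coprimes ((hp.out.coprime_iff_not_dvd.2 T.not_dvd_index).pow_left m)
      h1 h2
  refine Subgroup.normalizer_eq_top_iff.1 (top_le_iff.1 (htop ▸ sup_le (fun k hk => ?_)
    Subgroup.le_normalizer))
  refine Subgroup.centralizer_le_normalizer _ ?_
  exact Subgroup.mem_centralizer_iff.2 fun t ht => (hcent t ht k hk).eq

theorem exists_step (hG : IsPSolvable p G) {M : Subgroup G} [M.Normal] (hM : M ≠ ⊥) :
    ∃ L : Subgroup G, L.Normal ∧ L < M ∧
      ((∃ j, L.relIndex M = p ^ j) ∧ p.Prime ∨ (L.relIndex M).Coprime p) := by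
  classical
  obtain ⟨n, H, h0, hlast, hmono, hnor, hfac⟩ := hG
  have hex : ∃ i : Fin (n + 1), M ≤ H i := ⟨Fin.last n, hlast ▸ le_top⟩
  obtain ⟨i, hi, hleast⟩ := exists_minimal_of_wellFoundedLT (fun i : Fin (n + 1) => M ≤ H i) hex
  rcases Fin.eq_zero_or_eq_succ i with rfl | ⟨j, rfl⟩
  · exact absurd (le_bot_iff.1 (h0 ▸ hi)) hM
  haveI := hnor j.castSucc
  have hnle : ¬ M ≤ H j.castSucc := fun h1 =>
    absurd (hleast (y := j.castSucc) h1 (Fin.castSucc_lt_succ (i := j)).le)
      (not_le.2 (Fin.castSucc_lt_succ (i := j)))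
  refine ⟨H j.castSucc ⊓ M, inferInstance, lt_of_le_of_ne inf_le_right fun e => hnle
    (e ▸ inf_le_left), ?_⟩
  have hdvd : (H j.castSucc).relIndex M ∣ (H j.castSucc).relIndex (H j.succ) := by
    have h : ∀ X : Subgroup G, (H j.castSucc).relIndex X =
        Nat.card (X.map (QuotientGroup.mk' (H j.castSucc))) := fun X => by
      conv_lhs => rw [← QuotientGroup.ker_mk' (H j.castSucc)]
      rw [Subgroup.relIndex_ker]
    rw [h, h]
    exact Subgroup.card_dvd_of_le (Subgroup.map_mono hi)
  rw [Subgroup.inf_relIndex_right]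
  rcases hfac j with ⟨m, hm⟩ | hc
  · obtain ⟨i, -, hi⟩ := (Nat.dvd_prime_pow hp.out).1 (hm ▸ hdvd)
    exact Or.inl ⟨⟨i, hi⟩, hp.out⟩
  · exact Or.inr (hc.coprime_dvd_left hdvd)

theorem big_subset {L M : Subgroup G} [L.Normal] (hLM : L ≤ M) : Big p L ⊆ Big p M := by
  classical
  rintro χ ⟨_, θ, hθ, hover⟩
  letI := Fintype.ofFinite ↥M
  obtain ⟨ψ, h1, h2⟩ := mid hLM χ.2 hover
  exact ⟨inferInstance, ψ, hθ.trans (dvd_of_over hLM ψ.2 θ.2 h2), h1⟩

/-- The constituents on `L` of a character over `ψ` lie under conjugates of `ψ`. -/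
theorem ker_transfer [Fintype G] {L M N : Subgroup G} [M.Normal] [N.Normal] [Fintype ↥L] [Fintype ↥M]
    (hLM : L ≤ M) (hNL : N ≤ L) {χ : G → ℂ} (hχ : IsIrrCharacter G χ) {ψ : IrrCharacter ↥M}
    (hov : Over M χ (ψ : ↥M → ℂ))
    (hker : ∀ m : ↥M, (m : G) ∈ N → (ψ : ↥M → ℂ) m = (ψ : ↥M → ℂ) 1)
    {θ : ↥L → ℂ} (hθ : IsIrrCharacter ↥L θ) (h : Over L χ θ) :
    ∀ x : ↥L, (x : G) ∈ N → θ x = θ 1 := by
  intro x hx
  obtain ⟨ψ', h1, h2⟩ := mid hLM hχ h
  obtain ⟨g, hg⟩ := conjugate_of_constituents M hχ ψ.2 ψ'.2 hov h1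
  refine constituent_apply_eq (φ := CharClifford.resLe hLM (ψ' : ↥M → ℂ))
    (isCharacter_comp (isCharacter_of_isIrr ψ'.2) (Subgroup.inclusion hLM)) hθ h2 ?_
  simp only [CharClifford.resLe, ← hg, conjChar]
  have hone : ((⟨((1 : ↥L) : G), hLM (1 : ↥L).2⟩ : ↥M)) = 1 := rfl
  rw [hker _ (by
    simp only
    first
      | exact Subgroup.Normal.conj_mem' inferInstance _ hx g
      | exact (‹N.Normal›).conj_mem _ hx g
      | (have := (inferInstance : N.Normal).conj_mem _ hx g⁻¹; simpa using this))]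
  refine congrArg (ψ : ↥M → ℂ) (Subtype.ext ?_)
  simp

theorem dser_step {M L : Subgroup G} [M.Normal] [L.Normal] {S : Subgroup G} (hS : S ≤ M) {j : ℕ}
    (hj : derivedSeries (↥M ⧸ L.subgroupOf M) j = ⊥) : dser S j ≤ L := by
  have h1 : dser M j ≤ L := by
    rw [← map_subtype_derivedSeries]
    rintro _ ⟨x, hx, rfl⟩
    have := map_derivedSeries_le_derivedSeries (QuotientGroup.mk' (L.subgroupOf M)) j ⟨x, hx, rfl⟩
    rw [hj, Subgroup.mem_bot, QuotientGroup.mk'_apply, QuotientGroup.eq_one_iff] at this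
    exact this
  exact (dser_mono hS j).trans h1

theorem main (hG : IsPSolvable p G) (P : Sylow p G) :
    ∀ N : ℕ, ∀ M : Subgroup G, M.Normal → Nat.card M ≤ N →
      dser ((P : Subgroup G) ⊓ M) ((Big p M).ncard + 1) = ⊥ := by
  classical
  haveI := Fintype.ofFinite G
  intro N
  induction N with
  | zero => intro M _ h; exact absurd h (by have := Nat.card_pos (α := ↥M); omega)
  | succ N ih =>
    intro M hMn hcard
    haveI := hMn
    haveI := Fintype.ofFinite ↥M
    by_cases hM : M = ⊥
    · subst hM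
      exact le_bot_iff.1 ((dser_le _ _).trans inf_le_right)
    have hih : ∀ L : Subgroup G, L.Normal → L < M →
        dser ((P : Subgroup G) ⊓ L) ((Big p L).ncard + 1) = ⊥ := fun L hL hlt =>
      ih L hL (by
        have : Nat.card ↥L < Nat.card ↥M := by
          rw [← SetLike.coe_sort_coe, Nat.card_coe_set_eq, ← SetLike.coe_sort_coe,
            Nat.card_coe_set_eq]
          exact Set.ncard_lt_ncard (SetLike.coe_ssubset_coe.2 hlt)
        omega)
    by_cases hA : ∃ L : Subgroup G, L.Normal ∧ L < M ∧ (L.relIndex M).Coprime p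
    · -- a step of index prime to p
      obtain ⟨L, hLn, hLM, hcop⟩ := hA
      haveI := hLn
      have hPL : (P : Subgroup G) ⊓ M ≤ (P : Subgroup G) ⊓ L := by
        refine le_inf inf_le_left fun x hx => ?_
        obtain ⟨k, hk⟩ := P.2 ⟨x, hx.1⟩
        have hk' : x ^ p ^ k = 1 := by simpa using congrArg Subtype.val hk
        have h1 : orderOf (QuotientGroup.mk ⟨x, hx.2⟩ : ↥M ⧸ L.subgroupOf M) ∣ p ^ k := by
          refine orderOf_dvd_of_pow_eq_one ?_
          rw [← QuotientGroup.mk_pow, QuotientGroup.eq_one_iff, Subgroup.mem_subgroupOf,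
            SubgroupClass.coe_pow]
          show x ^ p ^ k ∈ L
          rw [hk']; exact L.one_mem
        have h2 : orderOf (QuotientGroup.mk ⟨x, hx.2⟩ : ↥M ⧸ L.subgroupOf M) ∣ L.relIndex M := by
          rw [Subgroup.relIndex, Subgroup.index_eq_card]
          exact orderOf_dvd_natCard _
        have := Nat.eq_one_of_dvd_coprimes (hcop.symm.pow_left k) h1 h2
        rwa [orderOf_eq_one_iff, QuotientGroup.eq_one_iff, Subgroup.mem_subgroupOf] at this
      refine le_bot_iff.1 (le_trans ?_ (hih L hLn hLM).le)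
      refine le_trans ?_ (dser_mono hPL _)
      rw [← map_subtype_derivedSeries, ← map_subtype_derivedSeries]
      exact Subgroup.map_mono (derivedSeries_antitone _
        (Nat.add_le_add_right (Set.ncard_le_ncard (big_subset hLM.le)) 1))
    -- the smallest normal subgroup with a p-group quotient
    push Not at hA
    obtain ⟨L, ⟨hLn, hLM, i, hi⟩, hLmin⟩ := Set.Finite.exists_minimal
      (s := {L : Subgroup G | L.Normal ∧ L ≤ M ∧ ∃ i, L.relIndex M = p ^ i}) (Set.toFinite _)
      ⟨M, hMn, le_rfl, 0, by simp⟩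
    haveI := hLn
    haveI := Fintype.ofFinite ↥L
    have hLlt : L < M := by
      refine lt_of_le_of_ne hLM fun e => ?_
      subst e
      obtain ⟨L', hL'n, hL'lt, hL'⟩ := exists_step hG hM
      rcases hL' with ⟨hj, -⟩ | hc
      · exact hL'lt.not_ge (hLmin ⟨hL'n, hL'lt.le, hj⟩ hL'lt.le)
      · exact hA L' hL'n hL'lt hc
    set LM := L.subgroupOf M with hLMdef
    have hQp : IsPGroup p (↥M ⧸ LM) := IsPGroup.of_card (n := i) (by
      rw [← Subgroup.index_eq_card]; exact hi)
    haveI : Group.IsNilpotent (↥M ⧸ LM) := hQp.isNilpotent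
    set cd := {d : ℕ | ∃ η : IrrCharacter (↥M ⧸ LM), charDegree (η : ↥M ⧸ LM → ℂ) = d} with hcd
    have hj := taketa_count (G := ↥M ⧸ LM)
    have hcdfin : cd.Finite := by
      refine (Set.finite_range fun χ : IrrCharacter (↥M ⧸ LM) =>
        charDegree (χ : ↥M ⧸ LM → ℂ)).subset ?_
      rintro d ⟨χ, rfl⟩
      exact ⟨χ, rfl⟩
    have hlift : ∀ e ∈ cd \ {1}, ∃ χ : IrrCharacter G, ∃ ψ : IrrCharacter ↥M,
        Over M (χ : G → ℂ) (ψ : ↥M → ℂ) ∧ charDegree (ψ : ↥M → ℂ) = e ∧ p ∣ e ∧
        ∀ m : ↥M, (m : G) ∈ L → (ψ : ↥M → ℂ) m = (ψ : ↥M → ℂ) 1 := by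
      rintro e ⟨⟨η, hη⟩, he1⟩
      set ψ := (CharKernel.inflateEquiv LM η).1 with hψdef
      obtain ⟨χ, hχ⟩ := exists_irr_over M ψ.2
      have hdeg : charDegree (ψ : ↥M → ℂ) = e := by
        rw [← hη]
        exact congrArg (fun z : ℂ => ⌊z.re⌋₊) (by simp [hψdef, CharKernel.inflateEquiv_apply])
      refine ⟨χ, ψ, hχ, hdeg, ?_, fun m hm => (CharKernel.inflateEquiv LM η).2 m hm⟩
      obtain ⟨j, hj'⟩ := IsPGroup.iff_card.1 hQp
      have := charDegree_dvd_card η.2
      rw [hη, hj'] at this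
      obtain ⟨t, -, rfl⟩ := (Nat.dvd_prime_pow hp.out).1 this
      rcases Nat.eq_zero_or_pos t with rfl | ht
      · exact absurd (pow_zero p) he1
      · exact dvd_pow_self p ht.ne'
    haveI : Nonempty (IrrCharacter G) := ⟨⟨_, isIrrCharacter_one⟩⟩
    haveI : Nonempty (IrrCharacter ↥M) := ⟨⟨_, isIrrCharacter_one⟩⟩
    choose! χe ψe hov hdege hpe hkere using hlift
    have h1cd : 1 ∈ cd := ⟨⟨_, isIrrCharacter_one⟩, charDegree_one⟩
    -- constituents below characters trivial on L
    have hnotbig : ∀ (χ : IrrCharacter G) (ψ : IrrCharacter ↥M) (N' : Subgroup G) (_ : N'.Normal),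
        N' ≤ L → Over M (χ : G → ℂ) (ψ : ↥M → ℂ) →
        (∀ m : ↥M, (m : G) ∈ N' → (ψ : ↥M → ℂ) m = (ψ : ↥M → ℂ) 1) →
        ¬ p ∣ N'.relIndex L → χ ∉ Big p L := by
      rintro χ ψ N' hN' hle hov' hker hndvd ⟨inst, θ, hθd, hθov⟩
      have := hN'
      have hk := ker_transfer hLM hle χ.2 hov' hker θ.2 (by convert hθov)
      haveI : (N'.subgroupOf L).Normal := Subgroup.Normal.subgroupOf hN' L
      obtain ⟨η, hη, he⟩ := exists_irr_deflation θ.2 (N'.subgroupOf L) fun n hn => hk n hn
      apply hndvd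
      rw [Subgroup.relIndex, Subgroup.index_eq_card]
      refine hθd.trans ?_
      rw [show charDegree (θ : ↥L → ℂ) = charDegree η from
        congrArg (fun z : ℂ => ⌊z.re⌋₊) (he 1).symm]
      exact charDegree_dvd_card hη
    -- distinct degrees give distinct characters
    have hinj : Set.InjOn χe (cd \ {1}) := by
      intro a ha b hb hab
      obtain ⟨g, hg⟩ := conjugate_of_constituents M (χe a).2 (ψe a).2 (ψe b).2 (hov a ha)
        (hab ▸ hov b hb)
      rw [← hdege a ha, ← hdege b hb, ← hg]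
      exact congrArg (fun z : ℂ => ⌊z.re⌋₊) (conjChar_apply_one M g _).symm
    have himg : χe '' (cd \ {1}) ⊆ Big p M := by
      rintro _ ⟨e, he, rfl⟩
      exact ⟨inferInstance, ψe e, (hdege e he).symm ▸ hpe e he, hov e he⟩
    have hdisj : Disjoint (Big p L) (χe '' (cd \ {1})) := by
      rw [Set.disjoint_right]
      rintro _ ⟨e, he, rfl⟩
      exact hnotbig _ _ L hLn le_rfl (hov e he) (hkere e he)
        (by rw [Subgroup.relIndex_self]; exact hp.out.not_dvd_one)
    have hcdcard : (χe '' (cd \ {1})).ncard + 1 = cd.ncard := by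
      rw [hinj.ncard_image, Set.ncard_sdiff_singleton_add_one h1cd hcdfin]
    have hPMdser : dser ((P : Subgroup G) ⊓ M) cd.ncard ≤ (P : Subgroup G) ⊓ L :=
      le_inf ((dser_le _ _).trans inf_le_left) (dser_step inf_le_right hj)
    have hadd : ∀ (S : Subgroup G) (a b : ℕ), dser (dser S a) b = dser S (a + b) := by
      intro S a b
      induction b with
      | zero => rfl
      | succ b ihb => show ⁅dser (dser S a) b, dser (dser S a) b⁆ = dser S ((a + b) + 1)
                      rw [ihb]; rfl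
    have hmono : ∀ (S : Subgroup G) {a b : ℕ}, a ≤ b → dser S b ≤ dser S a := by
      intro S a b hab
      rw [← map_subtype_derivedSeries, ← map_subtype_derivedSeries]
      exact Subgroup.map_mono (derivedSeries_antitone _ hab)
    by_cases hL : L = ⊥
    · refine le_bot_iff.1 (le_trans (hmono _ (show cd.ncard ≤ _ from ?_)) (hPMdser.trans
        (inf_le_right.trans hL.le)))
      rw [← hcdcard]
      exact Nat.add_le_add_right (Set.ncard_le_ncard himg) 1
    obtain ⟨L2, hL2n, hL2lt, hL2⟩ := exists_step hG hL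
    haveI := hL2n
    rcases hL2 with ⟨⟨j, hj2⟩, -⟩ | hc2
    · refine absurd (hLmin ⟨hL2n, hL2lt.le.trans hLM, j + i, ?_⟩ hL2lt.le) hL2lt.not_ge
      rw [← Subgroup.relIndex_mul_relIndex L2 L M hL2lt.le hLM, hj2, hi, pow_add]
    -- the action on the p'-section
    set X := ↥M ⧸ L2.subgroupOf M with hX
    set A : Subgroup X := (L.subgroupOf M).map (QuotientGroup.mk' (L2.subgroupOf M)) with hAdef
    haveI : A.Normal := Subgroup.Normal.map inferInstance _ (QuotientGroup.mk'_surjective _)
    have hAidx : A.index = p ^ i := by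
      rw [hAdef, Subgroup.index_map_eq _ (QuotientGroup.mk'_surjective _)
        (by rw [QuotientGroup.ker_mk']; exact Subgroup.comap_mono hL2lt.le)]
      exact hi
    have hAcard : Nat.card A = L2.relIndex L := by
      rw [hAdef, ← Subgroup.relIndex_ker, QuotientGroup.ker_mk',
        Subgroup.relIndex_subgroupOf hLM]
    have hAp : ¬ p ∣ Nat.card A := by
      rw [hAcard]
      exact fun hd => hp.out.ne_one (Nat.eq_one_of_dvd_coprimes hc2 hd dvd_rfl)
    obtain ⟨η, ⟨k, hkA, hk⟩, hηp⟩ : ∃ η : IrrCharacter X,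
        (∃ k ∈ A, (η : X → ℂ) k ≠ (η : X → ℂ) 1) ∧ p ∣ charDegree (η : X → ℂ) := by
      by_contra hc
      push Not at hc
      obtain ⟨T⟩ : Nonempty (Sylow p X) := inferInstance
      have hTn := sylow_normal' A hAp hAidx (fun χ hχ => hc χ hχ) T
      haveI := Sylow.characteristic_of_normal T hTn
      -- pull back
      set M' := M.map (QuotientGroup.mk' L2) with hM'
      haveI : M'.Normal := Subgroup.Normal.map inferInstance _ (QuotientGroup.mk'_surjective _)
      have hker : ((QuotientGroup.mk' L2).subgroupMap M).ker = L2.subgroupOf M := by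
        ext x
        rw [MonoidHom.mem_ker, Subgroup.mem_subgroupOf, ← QuotientGroup.eq_one_iff]
        exact Subtype.ext_iff
      let iso : X ≃* ↥M' := (QuotientGroup.quotientMulEquivOfEq hker.symm).trans
        (QuotientGroup.quotientKerEquivOfSurjective _
          ((QuotientGroup.mk' L2).subgroupMap_surjective M))
      set T' : Subgroup ↥M' := (T : Subgroup X).map iso.toMonoidHom with hT'
      haveI : T'.Characteristic := by
        rw [Subgroup.characteristic_iff_map_eq]
        intro φ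
        rw [hT', Subgroup.map_map]
        have h := Subgroup.characteristic_iff_map_eq.1 (inferInstance : (T : Subgroup X).Characteristic)
          ((iso.trans φ).trans iso.symm)
        conv_rhs => rw [← h, Subgroup.map_map]
        congr 1
        ext x
        simp
      haveI : (T'.map M'.subtype).Normal := ConjAct.normal_of_characteristic_of_normal
      set W := (T'.map M'.subtype).comap (QuotientGroup.mk' L2) with hW
      have hWM : W ≤ M := by
        intro x hx
        obtain ⟨m, hm, hmx⟩ := Subgroup.map_subtype_le T' hx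
        rw [QuotientGroup.mk'_apply, QuotientGroup.mk'_apply, QuotientGroup.eq] at hmx
        have := M.mul_mem hm (hL2lt.le.trans hLM hmx)
        simpa using this
      have hWidx : W.relIndex M = (T : Subgroup X).index := by
        rw [hW, Subgroup.relIndex_comap, ← hM', Subgroup.relIndex,
          Subgroup.subgroupOf, Subgroup.comap_map_eq_self_of_injective M'.subtype_injective, hT']
        exact Subgroup.index_map_of_bijective iso.bijective _
      have hcop' : (W.relIndex M).Coprime p := by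
        rw [hWidx, Nat.coprime_comm, hp.out.coprime_iff_not_dvd]
        exact T.not_dvd_index
      refine hA W (Subgroup.Normal.comap inferInstance _) (lt_of_le_of_ne hWM fun e => ?_) hcop'
      have h1 : (T : Subgroup X).index = 1 := by rw [← hWidx, e, Subgroup.relIndex_self]
      rw [Subgroup.index_eq_one] at h1
      obtain ⟨t, ht⟩ := IsPGroup.iff_card.1 T.2
      rw [h1, Subgroup.card_top] at ht
      have hA1 : Nat.card A = 1 := by
        have hd : Nat.card A ∣ p ^ t := ht ▸ Subgroup.card_subgroup_dvd_card A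
        exact Nat.eq_one_of_dvd_coprimes (((hp.out.coprime_iff_not_dvd.2 hAp).pow_left t)) hd dvd_rfl
      rw [hAcard, Subgroup.relIndex_eq_one] at hA1
      exact hL2lt.not_ge hA1
    set ψ := (CharKernel.inflateEquiv (L2.subgroupOf M) η).1 with hψdef
    obtain ⟨χ, hχ⟩ := exists_irr_over M ψ.2
    have hψdeg : p ∣ charDegree (ψ : ↥M → ℂ) := by
      rw [show charDegree (ψ : ↥M → ℂ) = charDegree (η : X → ℂ) from
        congrArg (fun z : ℂ => ⌊z.re⌋₊) (by simp [hψdef, CharKernel.inflateEquiv_apply])]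
      exact hηp
    have hχM : χ ∈ Big p M := ⟨inferInstance, ψ, hψdeg, hχ⟩
    have hχL : χ ∉ Big p L := hnotbig χ ψ L2 hL2n hL2lt.le hχ
      (fun m hm => (CharKernel.inflateEquiv (L2.subgroupOf M) η).2 m hm)
      fun hd => hp.out.ne_one (Nat.eq_one_of_dvd_coprimes hc2 hd dvd_rfl)
    have hχimg : χ ∉ χe '' (cd \ {1}) := by
      rintro ⟨e, he, hee⟩
      obtain ⟨g, hg⟩ := conjugate_of_constituents M χ.2 (ψe e).2 ψ.2 (hee ▸ hov e he) hχ
      apply hk
      obtain ⟨l, hl, rfl⟩ := hkA
      have e1 : ∀ x : ↥M, (η : X → ℂ) (QuotientGroup.mk x) = (ψ : ↥M → ℂ) x := fun x => by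
        simp [hψdef, CharKernel.inflateEquiv_apply]
      rw [QuotientGroup.mk'_apply, e1, ← QuotientGroup.mk_one, e1, ← hg]
      simp only [conjChar]
      rw [hkere e he _ (by
        simp only
        first
          | exact Subgroup.Normal.conj_mem' inferInstance _ hl g
          | exact hLn.conj_mem _ hl g
          | (have := hLn.conj_mem _ hl g⁻¹; simpa using this)), show (⟨g * ((1 : ↥M) : G) * g⁻¹, hMn.conj_mem _ (1 : ↥M).2 g⟩ : ↥M) = 1 from Subtype.ext (by simp)]
    have htot : cd.ncard + (Big p L).ncard ≤ (Big p M).ncard := by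
      have hsub : (Big p L ∪ χe '' (cd \ {1})) ⊆ Big p M :=
        Set.union_subset (big_subset hLM) himg
      have h2 : (insert χ (Big p L ∪ χe '' (cd \ {1}))).ncard ≤ (Big p M).ncard :=
        Set.ncard_le_ncard (Set.insert_subset hχM hsub)
      rw [Set.ncard_insert_of_notMem (by simp [hχL, hχimg]), Set.ncard_union_eq hdisj] at h2
      omega
    refine le_bot_iff.1 (le_trans (hmono _ (show cd.ncard + ((Big p L).ncard + 1) ≤ _ by omega)) ?_)
    rw [← hadd]
    exact (dser_mono hPMdser _).trans (hih L hLn hLlt).le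

/-- Let p be a prime, G a finite p-solvable group and P a Sylow p-subgroup of G. If n is the number of irreducible complex characters of G whose degree is divisible by p, then the (n+1)-st term of the derived series of P is trivial. (The p-solvable case has a direct inductive proof.) -/
theorem result {G : Type*} [Group G] [Finite G] (p : ℕ) [Fact p.Prime] (hG : Cfsg.IsPSolvable p G) (P : Sylow p G) : derivedSeries ↥(P : Subgroup G) (Nat.card {χ : Cfsg.IrrCharacter G // p ∣ Cfsg.charDegree (χ : G → ℂ)} + 1) = ⊥ := by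
  classical
  haveI := Fintype.ofFinite G
  have h := main hG P (Nat.card G) ⊤ inferInstance (by rw [Subgroup.card_top])
  rw [inf_top_eq] at h
  have hBig : Big p (⊤ : Subgroup G) = {χ : Cfsg.IrrCharacter G | p ∣ Cfsg.charDegree (χ : G → ℂ)} := by
    ext χ
    constructor
    · rintro ⟨_, θ, hθ, hov⟩
      have hirr : Cfsg.IsIrrCharacter (⊤ : Subgroup G) (fun x : (⊤ : Subgroup G) => (χ : G → ℂ) x) :=
        Cfsg.Agent.Lib.Char.isIrrCharacter_comp (H := ↥(⊤ : Subgroup G)) χ.2 (⊤ : Subgroup G).subtype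
          (fun g => ⟨⟨g, trivial⟩, rfl⟩)
      by_cases e : (θ : (⊤ : Subgroup G) → ℂ) = (fun x : (⊤ : Subgroup G) => (χ : G → ℂ) (x : G))
      · rw [e] at hθ; exact hθ
      · exact absurd (Cfsg.Agent.Lib.Char.classInner_irr_ne hirr θ.2 (Ne.symm e)) hov
    · intro hd
      have hirr : Cfsg.IsIrrCharacter (⊤ : Subgroup G) (fun x : (⊤ : Subgroup G) => (χ : G → ℂ) x) :=
        Cfsg.Agent.Lib.Char.isIrrCharacter_comp (H := ↥(⊤ : Subgroup G)) χ.2 (⊤ : Subgroup G).subtype
          (fun g => ⟨⟨g, trivial⟩, rfl⟩)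
      letI := Fintype.ofFinite ↥(⊤ : Subgroup G)
      have h1 := Cfsg.Agent.Lib.Char.classInner_irr_self hirr
      refine ⟨inferInstance, ⟨_, hirr⟩, hd, ?_⟩
      unfold Over
      intro h0
      exact one_ne_zero (h1.symm.trans h0)
  rw [hBig, ← Nat.card_coe_set_eq] at h
  refine (Subgroup.map_eq_bot_iff_of_injective _ (P : Subgroup G).subtype_injective).1 ?_
  rw [Cfsg.Agent.Lib.HallHigman.map_subtype_derivedSeries]
  exact h

end Cfsg.Agent.S4768
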