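import Cfsg.Statements.S4774
import Cfsg.Agent.Lib.TwoChar.DegreeSets

set_option autoImplicit false
open Cfsg

namespace Cfsg.Agent.S4774

/-- Let F be a finite field of odd characteristic t with q > 5 elements and let S be isomorphic to PSL(2,F) or to SL(2,F). Then the vertices of the character degree graph of S are the primes dividing q(q²−1); the prime t is adjacent to no vertex; two distinct primes dividing q² − 1 are adjacent exactly when one of them is 2, or both divide q + 1, or both divide q − 1. -/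
theorem result (F : Type*) [Field F] [Fintype F] (t : ℕ) [Fact t.Prime] [CharP F t] (ht : t ≠ 2) (q : ℕ) (hq : Fintype.card F = q) (h5 : 5 < q) {S : Type*} [Group S] [Finite S] (hS : Nonempty (S ≃* Matrix.ProjectiveSpecialLinearGroup (Fin 2) F) ∨ Nonempty (S ≃* Matrix.SpecialLinearGroup (Fin 2) F)) : Cfsg.degreePrimes S = {r : ℕ | r.Prime ∧ r ∣ q * (q ^ 2 - 1)} ∧ ∀ r s : ℕ, (Cfsg.degreeGraph S).Adj r s ↔ (r ≠ s ∧ r.Prime ∧ s.Prime ∧ r ∣ q ^ 2 - 1 ∧ s ∣ q ^ 2 - 1 ∧ (r = 2 ∨ s = 2 ∨ (r ∣ q + 1 ∧ s ∣ q + 1) ∨ (r ∣ q - 1 ∧ s ∣ q - 1))) := by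
  classical
  subst hq
  have hodd : Odd (Fintype.card F) := by
    rw [← Nat.not_even_iff_odd, Nat.even_iff, ← FiniteField.even_card_iff_char_two, ringChar.eq F t]
    exact ht
  have hS' : charDegrees S = charDegrees (Matrix.ProjectiveSpecialLinearGroup (Fin 2) F) ∨
      charDegrees S = charDegrees (Matrix.SpecialLinearGroup (Fin 2) F) :=
    hS.imp (fun ⟨e⟩ => Lib.TwoChar.charDegrees_congr e) (fun ⟨e⟩ => Lib.TwoChar.charDegrees_congr e)
  have hpsl := Lib.TwoChar.psl_degrees_subset (F := F)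
  have h1 := Lib.TwoChar.psl_card_mem_odd hodd
  have h2 := Lib.TwoChar.psl_succ_mem_odd hodd (by obtain ⟨r, hr⟩ := hodd; omega)
  have h3 := Lib.TwoChar.psl_pred_mem_odd hodd (by omega)
  have hbnd := Lib.TwoChar.degrees_subset_odd hodd
  obtain ⟨k, hk⟩ := hodd
  have hsub : ∀ n ∈ charDegrees S, n = 1 ∨ n = Fintype.card F ∨ n ∣ Fintype.card F + 1 ∨ n ∣ Fintype.card F - 1 := by
    intro n hn
    have hn' : n ∈ charDegrees (Matrix.SpecialLinearGroup (Fin 2) F) := by
      rcases hS' with e | e <;> rw [e] at hn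
      · exact hpsl hn
      · exact hn
    rcases hbnd hn' with h | h | h | h | h | h
    · exact Or.inl h
    · exact Or.inr (Or.inl h)
    · exact Or.inr (Or.inr (Or.inl (dvd_of_eq h)))
    · exact Or.inr (Or.inr (Or.inr (dvd_of_eq h)))
    · exact Or.inr (Or.inr (Or.inl ⟨2, by rw [h]; omega⟩))
    · exact Or.inr (Or.inr (Or.inr ⟨2, by rw [Set.mem_singleton_iff.mp h]; omega⟩))
  have hmem : ∀ n ∈ charDegrees (Matrix.ProjectiveSpecialLinearGroup (Fin 2) F), n ∈ charDegrees S := fun n hn => by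
    rcases hS' with e | e <;> rw [e]
    · exact hn
    · exact hpsl hn
  obtain ⟨hP, hG⟩ := Lib.TwoChar.graph_of_degrees (by omega) hsub (hmem _ h1) (hmem _ h2) (hmem _ h3)
  refine ⟨hP, fun r s => (hG (Fact.out : t.Prime) (fun r hr hd => ?_) r s).trans ?_⟩
  · obtain ⟨m, hp, hm⟩ := FiniteField.card F t
    rw [hm] at hd
    exact (Nat.prime_dvd_prime_iff_eq hr hp).1 (hr.dvd_of_dvd_pow hd)
  · refine and_congr_right fun hne => and_congr_right fun hr => and_congr_right fun hs => ?_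
    have hfac : Fintype.card F ^ 2 - 1 = (Fintype.card F + 1) * (Fintype.card F - 1) := by
      rw [← Nat.sq_sub_sq, one_pow]
    have hco : Nat.Coprime r s := (Nat.coprime_primes hr hs).2 hne
    have hp : 2 ∣ Fintype.card F + 1 := ⟨k + 1, by omega⟩
    have hm : 2 ∣ Fintype.card F - 1 := ⟨k, by omega⟩
    rw [hfac]
    constructor
    · rintro (h | h)
      · exact ⟨dvd_mul_of_dvd_left (dvd_of_mul_right_dvd h) _, dvd_mul_of_dvd_left (dvd_of_mul_left_dvd h) _,
          Or.inr (Or.inr (Or.inl ⟨dvd_of_mul_right_dvd h, dvd_of_mul_left_dvd h⟩))⟩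
      · exact ⟨dvd_mul_of_dvd_right (dvd_of_mul_right_dvd h) _, dvd_mul_of_dvd_right (dvd_of_mul_left_dvd h) _,
          Or.inr (Or.inr (Or.inr ⟨dvd_of_mul_right_dvd h, dvd_of_mul_left_dvd h⟩))⟩
    · rintro ⟨hr', hs', h | h | ⟨a, b⟩ | ⟨a, b⟩⟩
      · subst h
        rcases hs.dvd_mul.1 hs' with b | b
        · exact Or.inl (hco.mul_dvd_of_dvd_of_dvd hp b)
        · exact Or.inr (hco.mul_dvd_of_dvd_of_dvd hm b)
      · subst h
        rcases hr.dvd_mul.1 hr' with b | b
        · exact Or.inl (hco.mul_dvd_of_dvd_of_dvd b hp)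
        · exact Or.inr (hco.mul_dvd_of_dvd_of_dvd b hm)
      · exact Or.inl (hco.mul_dvd_of_dvd_of_dvd a b)
      · exact Or.inr (hco.mul_dvd_of_dvd_of_dvd a b)
end Cfsg.Agent.S4774
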