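import Cfsg.Statements.S4775
import Cfsg.Agent.Lib.SuzChar.Degrees
-- import your own Cfsg.Agent.* helpers here

set_option autoImplicit false
open Cfsg

namespace Cfsg.Agent.S4775

/-- Let F be a finite field with q = 2^(2m+1) ≥ 8 elements and let S be isomorphic to the Suzuki group over F. Then the vertices of the character degree graph of S are 2 and the primes dividing (q − 1)(q² + 1); the primes dividing (q − 1)(q² + 1) are pairwise adjacent, and 2 is adjacent exactly to the primes dividing q − 1. -/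
theorem result (F : Type*) [Field F] [Fintype F] (m : ℕ) (hm : 1 ≤ m) (q : ℕ) (hq : Fintype.card F = q) (hqm : q = 2 ^ (2 * m + 1)) {S : Type*} [Group S] [Finite S] (hS : Nonempty (S ≃* ↥(Cfsg.Lie.Sz F (2 ^ (m + 1))))) : Cfsg.degreePrimes S = {r : ℕ | r.Prime ∧ (r = 2 ∨ r ∣ (q - 1) * (q ^ 2 + 1))} ∧ ∀ r s : ℕ, (Cfsg.degreeGraph S).Adj r s ↔ (r ≠ s ∧ r.Prime ∧ s.Prime ∧ ((r ∣ (q - 1) * (q ^ 2 + 1) ∧ s ∣ (q - 1) * (q ^ 2 + 1)) ∨ (r = 2 ∧ s ∣ q - 1) ∨ (s = 2 ∧ r ∣ q - 1))) := by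
  classical
  subst hq
  haveI := Cfsg.Agent.Lib.Suz.charP_two (m := m) ⟨hm, hqm⟩
  have c : Cfsg.Agent.Lib.Suz.Ctx F m := ⟨hm, hqm⟩
  haveI : Fintype ↥(Cfsg.Sz F m) := Fintype.ofFinite _
  obtain ⟨e⟩ := hS
  have hD : charDegrees S = charDegrees ↥(Cfsg.Sz F m) :=
    (Cfsg.Agent.Lib.SuzChar.charDegrees_congr e).trans
      (Cfsg.Agent.Lib.SuzChar.charDegrees_congr (Cfsg.Agent.Lib.Suz.lieEquiv c)).symm
  rw [Cfsg.Agent.Lib.SuzChar.sz_degrees c] at hD
  have hsq := Cfsg.Agent.Lib.SuzChar.card_eq_two_sq c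
  set q := Fintype.card F
  set p := 2 ^ m with hp
  have h1p : 1 ≤ p := Nat.one_le_two_pow
  have hN : q ^ 2 + 1 = (2 * p * (p - 1) + 1) * (2 * p * (p + 1) + 1) := by
    obtain ⟨j, hj⟩ : ∃ j, p = j + 1 := ⟨p - 1, by omega⟩
    rw [hsq, hj, Nat.add_sub_cancel]
    ring
  have h2p : (2 : ℕ) ∣ p := dvd_pow_self 2 (by omega)
  have hp2 : ∀ r : ℕ, r.Prime → r ∣ p → r = 2 := fun r hr h =>
    (Nat.prime_dvd_prime_iff_eq hr Nat.prime_two).1 (hr.dvd_of_dvd_pow h)
  have hq2 : ∀ r : ℕ, r.Prime → r ∣ q ^ 2 → r = 2 := fun r hr h => by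
    have h := hr.dvd_of_dvd_pow h
    rw [hsq] at h
    rcases hr.dvd_mul.1 h with h | h
    · exact (Nat.prime_dvd_prime_iff_eq hr Nat.prime_two).1 h
    · exact hp2 r hr (hr.dvd_of_dvd_pow h)
  set M := (q - 1) * (q ^ 2 + 1) with hM
  have div1 : (q - 1) * (2 * p * (p - 1) + 1) ∣ M := by rw [hM, hN]; exact mul_dvd_mul_left _ (dvd_mul_right _ _)
  have div2 : (q - 1) * (2 * p * (p + 1) + 1) ∣ M := by rw [hM, hN]; exact mul_dvd_mul_left _ (dvd_mul_left _ _)
  have div3 : q ^ 2 + 1 ∣ M := dvd_mul_left _ _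
  have divq : q - 1 ∣ M := dvd_mul_right _ _
  constructor
  · ext r
    simp only [degreePrimes, hD, Set.mem_setOf_eq, Set.mem_insert_iff, Set.mem_singleton_iff]
    refine and_congr_right fun hr => ⟨?_, ?_⟩
    · rintro ⟨d, hd | hd | hd | hd | hd | hd, hrd⟩ <;> subst hd
      · exact absurd (Nat.dvd_one.1 hrd) hr.one_lt.ne'
      · exact Or.inl (hq2 r hr hrd)
      · exact Or.inr (hrd.trans div3)
      · exact Or.inr (hrd.trans div1)
      · exact Or.inr (hrd.trans div2)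
      · rcases hr.dvd_mul.1 hrd with h | h
        · exact Or.inr (h.trans divq)
        · exact Or.inl (hp2 r hr h)
    · rintro (rfl | h)
      · exact ⟨_, Or.inr (Or.inr (Or.inr (Or.inr (Or.inr rfl)))), dvd_mul_of_dvd_right h2p _⟩
      · rcases hr.dvd_mul.1 h with h | h
        · exact ⟨_, Or.inr (Or.inr (Or.inr (Or.inr (Or.inr rfl)))), dvd_mul_of_dvd_left h _⟩
        · exact ⟨_, Or.inr (Or.inr (Or.inl rfl)), h⟩
  · intro r s
    simp only [degreeGraph, hD, Set.mem_insert_iff, Set.mem_singleton_iff]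
    constructor
    · rintro ⟨hne, hr, hs, d, hd | hd | hd | hd | hd | hd, hrd⟩ <;> subst hd <;>
        refine ⟨hne, hr, hs, ?_⟩
      · exact absurd (Nat.dvd_one.1 ((dvd_mul_right r s).trans hrd)) hr.one_lt.ne'
      · exact absurd ((hq2 r hr ((dvd_mul_right r s).trans hrd)).trans
          (hq2 s hs ((dvd_mul_left s r).trans hrd)).symm) hne
      · exact Or.inl ⟨((dvd_mul_right r s).trans hrd).trans div3, ((dvd_mul_left s r).trans hrd).trans div3⟩
      · exact Or.inl ⟨((dvd_mul_right r s).trans hrd).trans div1, ((dvd_mul_left s r).trans hrd).trans div1⟩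
      · exact Or.inl ⟨((dvd_mul_right r s).trans hrd).trans div2, ((dvd_mul_left s r).trans hrd).trans div2⟩
      · rcases hr.dvd_mul.1 ((dvd_mul_right r s).trans hrd) with h | h <;>
          rcases hs.dvd_mul.1 ((dvd_mul_left s r).trans hrd) with h' | h'
        · exact Or.inl ⟨h.trans divq, h'.trans divq⟩
        · exact Or.inr (Or.inr ⟨hp2 s hs h', h⟩)
        · exact Or.inr (Or.inl ⟨hp2 r hr h, h'⟩)
        · exact absurd ((hp2 r hr h).trans (hp2 s hs h').symm) hne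
    · rintro ⟨hne, hr, hs, hc⟩
      refine ⟨hne, hr, hs, ?_⟩
      have cop : Nat.Coprime r s := (Nat.coprime_primes hr hs).2 hne
      rcases hc with ⟨h, h'⟩ | ⟨rfl, h'⟩ | ⟨rfl, h⟩
      · have mix : ∀ a b : ℕ, a.Prime → a ∣ q - 1 → b.Prime → b ∣ q ^ 2 + 1 → ∃ d,
            (d = 1 ∨ d = q ^ 2 ∨ d = q ^ 2 + 1 ∨ d = (q - 1) * (2 * p * (p - 1) + 1) ∨
              d = (q - 1) * (2 * p * (p + 1) + 1) ∨ d = (q - 1) * p) ∧ a * b ∣ d := by
          intro a b _ ha hb hbN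
          rw [hN] at hbN
          rcases hb.dvd_mul.1 hbN with h | h
          · exact ⟨_, Or.inr (Or.inr (Or.inr (Or.inl rfl))), mul_dvd_mul ha h⟩
          · exact ⟨_, Or.inr (Or.inr (Or.inr (Or.inr (Or.inl rfl)))), mul_dvd_mul ha h⟩
        rcases hr.dvd_mul.1 h with h | h <;> rcases hs.dvd_mul.1 h' with h' | h'
        · exact ⟨_, Or.inr (Or.inr (Or.inr (Or.inr (Or.inr rfl)))),
            dvd_mul_of_dvd_left (cop.mul_dvd_of_dvd_of_dvd h h') _⟩
        · exact mix r s hr h hs h'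
        · obtain ⟨d, hd, hdd⟩ := mix s r hs h' hr h
          exact ⟨d, hd, by rwa [mul_comm]⟩
        · exact ⟨_, Or.inr (Or.inr (Or.inl rfl)), cop.mul_dvd_of_dvd_of_dvd h h'⟩
      · exact ⟨_, Or.inr (Or.inr (Or.inr (Or.inr (Or.inr rfl)))), by rw [mul_comm]; exact mul_dvd_mul h' h2p⟩
      · exact ⟨_, Or.inr (Or.inr (Or.inr (Or.inr (Or.inr rfl)))), mul_dvd_mul h h2p⟩

end Cfsg.Agent.S4775
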