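import Cfsg.Statements.S4782
import Cfsg.Agent.Lib.Char.DegreePrimesTwo
-- import your own Cfsg.Agent.* helpers here

set_option autoImplicit false
open Cfsg

namespace Cfsg.Agent.S4782

/-- If the finite group G is not solvable, then at least three distinct primes each divide some irreducible complex character degree of G. -/
theorem result {G : Type*} [Group G] [Finite G] (hG : ¬ Group.IsSolvable G) : ∃ p q r : ℕ, p ≠ q ∧ q ≠ r ∧ p ≠ r ∧ p ∈ Cfsg.degreePrimes G ∧ q ∈ Cfsg.degreePrimes G ∧ r ∈ Cfsg.degreePrimes G := by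
  classical
  by_contra hc
  push Not at hc
  have hle : ∀ a b c : ℕ, a ∈ Cfsg.degreePrimes G → b ∈ Cfsg.degreePrimes G →
      c ∈ Cfsg.degreePrimes G → a ≠ b → b ≠ c → a ≠ c → False := fun a b c ha hb hc' h1 h2 h3 =>
    hc a b c h1 h2 h3 ha hb hc'
  -- two primes covering all degree primes
  obtain ⟨p, q, hp, hq, hcov⟩ : ∃ p q : ℕ, p.Prime ∧ q.Prime ∧
      ∀ r ∈ Cfsg.degreePrimes G, r = p ∨ r = q := by
    by_cases h1 : ∃ a, a ∈ Cfsg.degreePrimes G
    swap
    · exact ⟨2, 3, Nat.prime_two, Nat.prime_three, fun r hr => absurd ⟨r, hr⟩ h1⟩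
    obtain ⟨a, ha⟩ := h1
    by_cases h2 : ∃ b ∈ Cfsg.degreePrimes G, b ≠ a
    swap
    · push Not at h2
      exact ⟨a, a, ha.1, ha.1, fun r hr => Or.inl (h2 r hr)⟩
    obtain ⟨b, hb, hba⟩ := h2
    refine ⟨a, b, ha.1, hb.1, fun r hr => ?_⟩
    by_contra h
    push Not at h
    exact hle r a b hr ha hb h.1 hba.symm h.2
  exact hG (Cfsg.Agent.Lib.Char.DegreePrimesTwo.isSolvable hp hq _ G rfl fun χ r hr hrd =>
    hcov r ⟨hr, _, ⟨χ, rfl⟩, hrd⟩)

end Cfsg.Agent.S4782
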