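import Cfsg.Statements.S4784
import Cfsg.Agent.Lib.Char.FrobSchur
import Cfsg.Agent.Lib.Char.Induced
import Cfsg.Agent.Lib.Char.BrauerPerm
import Cfsg.Agent.Lib.Char.Kernel
import Cfsg.Agent.Lib.Block.Normal
import Cfsg.Agent.Lib.Block.Principal

set_option autoImplicit false
open Cfsg

namespace Cfsg.Agent.S4784

/-- Let H be a subgroup of the finite group G and consider the permutation character of G on the cosets of H (the function induced from the principal character of H). Then exactly one irreducible constituent of it is real-valued with Frobenius–Schur indicator +1 (namely the principal character) if and only if the normal core of H has odd index in G. -/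
theorem result {G : Type*} [Group G] [Fintype G] (H : Subgroup G) : Nat.card {χ : Cfsg.IrrCharacter G // Cfsg.classInner (Cfsg.indFun H (fun _ : H => (1 : ℂ))) (χ : G → ℂ) ≠ 0 ∧ (∀ g : G, (starRingEnd ℂ) ((χ : G → ℂ) g) = (χ : G → ℂ) g) ∧ (Nat.card G : ℂ)⁻¹ * ∑ g : G, (χ : G → ℂ) (g * g) = 1} = 1 ↔ Odd H.normalCore.index := by
  classical
  haveI := Fintype.ofFinite H
  set π : G → ℂ := Cfsg.indFun H (fun _ : H => (1 : ℂ)) with hπ
  have hπc : Cfsg.IsCharacter G π := Lib.Char.isCharacter_indFun _ Lib.Char.isCharacter_one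
  choose m hm using fun χ : Cfsg.IrrCharacter G =>
    Lib.Char.classInner_natCast hπc (Lib.Char.isCharacter_of_isIrr χ.2)
  set A : Finset G := Finset.univ.filter (fun g => g * g ∈ H) with hA
  have hsum : ∑ χ : Cfsg.IrrCharacter G, (m χ : ℂ) * Lib.Char.fsInd (χ : G → ℂ) =
      (Nat.card H : ℂ)⁻¹ * (A.card : ℂ) := by
    have e := Lib.Char.eq_sum_classInner_smul (Lib.Char.isClassFunction_of_isCharacter hπc)
    have h1 : (Nat.card G : ℂ)⁻¹ * ∑ g : G, π (g * g) =
        ∑ χ : Cfsg.IrrCharacter G, (m χ : ℂ) * Lib.Char.fsInd (χ : G → ℂ) := by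
      rw [e]
      simp only [Finset.sum_apply, Pi.smul_apply, smul_eq_mul, hm, Lib.Char.fsInd, Finset.mul_sum]
      rw [Finset.sum_comm]
      exact Finset.sum_congr rfl fun χ _ => Finset.sum_congr rfl fun g _ => by ring
    rw [← h1]
    simp only [hπ, Cfsg.indFun]
    rw [← Finset.mul_sum, Finset.sum_comm]
    have h2 : ∀ x : G, ∑ g : G, Cfsg.extendByZero H (fun _ : H => (1 : ℂ)) (x⁻¹ * (g * g) * x) =
        (A.card : ℂ) := by
      intro x
      rw [← Equiv.sum_comp (MulAut.conj x).toEquiv, hA, ← Finset.sum_boole]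
      refine Finset.sum_congr rfl fun g _ => ?_
      simp only [MulEquiv.toEquiv_eq_coe, MulEquiv.coe_toEquiv, MulAut.conj_apply]
      rw [show x⁻¹ * (x * g * x⁻¹ * (x * g * x⁻¹)) * x = g * g by group]
      split_ifs with h
      · rw [Lib.Char.extendByZero_mem H _ h]
      · rw [Lib.Char.extendByZero_not_mem H _ h]
    rw [Finset.sum_congr rfl fun x _ => h2 x, Finset.sum_const, Finset.card_univ, nsmul_eq_mul,
      ← Nat.card_eq_fintype_card]
    field_simp [Lib.Char.card_ne_zero_complex G]
  set one := Lib.Block.oneIrr G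
  have hm1 : m one = 1 := by
    have h := hm one
    rw [hπ, Lib.Char.classInner_indFun H _ (Lib.Char.isClassFunction_of_isIrr one.2)] at h
    simp only [Cfsg.classInner, one, Lib.Block.oneIrr_apply, map_one, mul_one, Finset.sum_const,
      Finset.card_univ, nsmul_eq_mul, ← Nat.card_eq_fintype_card] at h
    rw [inv_mul_cancel₀ (Lib.Char.card_ne_zero_complex H)] at h
    exact_mod_cast h.symm
  have hν1 : Lib.Char.fsInd (one : G → ℂ) = 1 := by
    simp only [Lib.Char.fsInd, one, Lib.Block.oneIrr_apply, Finset.sum_const, Finset.card_univ,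
      nsmul_eq_mul, mul_one, ← Nat.card_eq_fintype_card]
    exact inv_mul_cancel₀ (Lib.Char.card_ne_zero_complex G)
  have hiff : ∀ χ : Cfsg.IrrCharacter G, Lib.Char.fsInd (χ : G → ℂ) = 1 →
      ∀ g, ((χ : G → ℂ) g).im = 0 := fun χ h g => by
    by_contra hg
    rw [(Lib.Char.fsInd_irr χ.2).2.2 ⟨g, hg⟩] at h
    exact zero_ne_one h
  set T := {χ : Cfsg.IrrCharacter G // Cfsg.classInner π (χ : G → ℂ) ≠ 0 ∧
    (∀ g : G, (starRingEnd ℂ) ((χ : G → ℂ) g) = (χ : G → ℂ) g) ∧
    (Nat.card G : ℂ)⁻¹ * ∑ g : G, (χ : G → ℂ) (g * g) = 1}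
  have h1T : Cfsg.classInner π (one : G → ℂ) ≠ 0 ∧
      (∀ g : G, (starRingEnd ℂ) ((one : G → ℂ) g) = (one : G → ℂ) g) ∧
      (Nat.card G : ℂ)⁻¹ * ∑ g : G, (one : G → ℂ) (g * g) = 1 :=
    ⟨by rw [hm, hm1]; simp, fun g => by simp [one, Lib.Block.oneIrr_apply], hν1⟩
  show Nat.card T = 1 ↔ _
  constructor
  · intro hT
    rw [Nat.card_eq_one_iff_unique] at hT
    obtain ⟨hsub, -⟩ := hT
    have hle : ∀ χ, χ ≠ one → ((m χ : ℂ) * Lib.Char.fsInd (χ : G → ℂ)).re ≤ 0 := by
      intro χ hne
      rcases (Lib.Char.fsInd_irr χ.2).1 with h | h | h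
      · simp [h]
      · have : m χ = 0 := by
          by_contra h0
          have := @Subsingleton.elim _ hsub (⟨χ, by rw [hm]; exact Nat.cast_ne_zero.2 h0,
            fun g => Complex.conj_eq_iff_im.2 (hiff χ h g), h⟩ : T) ⟨one, h1T⟩
          exact hne (congrArg Subtype.val this)
        simp [this]
      · simp [h]
    have hA1 : A.card ≤ Nat.card H := by
      have h := congrArg Complex.re hsum
      rw [← Finset.add_sum_erase _ _ (Finset.mem_univ one), Complex.add_re, hm1, hν1, Complex.re_sum] at h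
      have h' : (((Nat.card H : ℂ))⁻¹ * (A.card : ℂ)).re ≤ 1 := by
        have hs : ∑ χ ∈ Finset.univ.erase one, ((m χ : ℂ) * Lib.Char.fsInd (χ : G → ℂ)).re ≤ 0 :=
          Finset.sum_nonpos fun χ hχ => hle χ (Finset.ne_of_mem_erase hχ)
        rw [Nat.cast_one, one_mul, Complex.one_re] at h
        linarith
      rw [← Complex.ofReal_natCast, ← Complex.ofReal_natCast, ← Complex.ofReal_inv,
        ← Complex.ofReal_mul, Complex.ofReal_re, inv_mul_le_iff₀ (by exact_mod_cast Nat.card_pos),
        mul_one, Nat.cast_le] at h'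
      exact h'
    have hsq : ∀ g : G, g * g ∈ H → g ∈ H := by
      have hsubH : Finset.univ.filter (fun g : G => g ∈ H) ⊆ A := fun g hg =>
        Finset.mem_filter.2 ⟨Finset.mem_univ _, H.mul_mem (Finset.mem_filter.1 hg).2 (Finset.mem_filter.1 hg).2⟩
      have heq := Finset.eq_of_subset_of_card_le hsubH (hA1.trans (by
        rw [Nat.card_eq_fintype_card, Fintype.card_subtype]))
      intro g hg
      have hgA : g ∈ A := Finset.mem_filter.2 ⟨Finset.mem_univ _, hg⟩
      rw [← heq] at hgA
      exact (Finset.mem_filter.1 hgA).2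
    rw [← Nat.not_even_iff_odd]
    intro hev
    haveI : Fact (Nat.Prime 2) := ⟨Nat.prime_two⟩
    obtain ⟨q, hq⟩ := exists_prime_orderOf_dvd_card' (G := G ⧸ H.normalCore) 2
      (by rw [← Subgroup.index_eq_card]; exact hev.two_dvd)
    obtain ⟨y, rfl⟩ := QuotientGroup.mk_surjective q
    have hy2 : y * y ∈ H.normalCore := by
      rw [← QuotientGroup.eq_one_iff, QuotientGroup.mk_mul, ← pow_two, ← hq, pow_orderOf_eq_one]
    have hy : y ∈ H.normalCore := by
      intro b
      refine hsq _ ?_
      have := hy2 b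
      rwa [show b * (y * y) * b⁻¹ = b * y * b⁻¹ * (b * y * b⁻¹) by group] at this
    rw [← QuotientGroup.eq_one_iff] at hy
    rw [hy, orderOf_one] at hq
    norm_num at hq
  · intro hodd
    rw [Nat.card_eq_one_iff_unique]
    refine ⟨⟨?_⟩, ⟨⟨one, h1T⟩⟩⟩
    suffices h : ∀ χ : T, (χ.1 : G → ℂ) = fun _ => 1 from fun a b =>
      Subtype.ext (Subtype.ext ((h a).trans (h b).symm))
    rintro ⟨χ, hχ0, hχr, -⟩
    haveI := Fintype.ofFinite H.normalCore
    rw [hπ, Lib.Char.classInner_indFun H _ (Lib.Char.isClassFunction_of_isIrr χ.2)] at hχ0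
    have hcore : Cfsg.classInner (fun n : H.normalCore => (χ : G → ℂ) n) (fun _ => (1 : ℂ)) ≠ 0 := by
      intro h0
      have hres := Lib.Char.isCharacter_restrict (Lib.Char.isCharacter_of_isIrr χ.2) H
      have e := Lib.Char.eq_sum_classInner_smul (Lib.Char.isClassFunction_of_isCharacter hres)
      choose a ha using fun η : Cfsg.IrrCharacter H =>
        Lib.Char.classInner_natCast hres (Lib.Char.isCharacter_of_isIrr η.2)
      have hle : H.normalCore ≤ H := H.normalCore_le
      choose b hb using fun η : Cfsg.IrrCharacter H =>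
        Lib.Char.classInner_natCast
          (Lib.Char.isCharacter_comp (Lib.Char.isCharacter_of_isIrr η.2) (Subgroup.inclusion hle))
          (Lib.Char.isCharacter_one (G := H.normalCore))
      have htot : Cfsg.classInner (fun n : H.normalCore => (χ : G → ℂ) n) (fun _ => (1 : ℂ)) =
          ((∑ η : Cfsg.IrrCharacter H, a η * b η : ℕ) : ℂ) := by
        have e' : (fun n : H.normalCore => (χ : G → ℂ) n) =
            ∑ η : Cfsg.IrrCharacter H, (a η : ℂ) • ((η : H → ℂ) ∘ Subgroup.inclusion hle) := by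
          funext n
          have := congrFun e (Subgroup.inclusion hle n)
          simp only [Finset.sum_apply, Pi.smul_apply, smul_eq_mul, ha] at this
          simpa using this
        rw [e', Lib.Char.classInner_sum_left]
        push_cast
        exact Finset.sum_congr rfl fun η _ => by rw [Lib.Char.classInner_smul_left, hb]
      rw [htot, Nat.cast_eq_zero, Finset.sum_eq_zero_iff] at h0
      have := h0 (Lib.Block.oneIrr H) (Finset.mem_univ _)
      rcases mul_eq_zero.1 this with h | h
      · apply hχ0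
        have h' := ha (Lib.Block.oneIrr H)
        rw [h, Nat.cast_zero] at h'
        rw [Lib.Char.classInner_conj_symm]
        rw [show (Lib.Block.oneIrr H : H → ℂ) = fun _ => 1 from funext Lib.Block.oneIrr_apply] at h'
        rw [h', map_zero]
      · have h' := hb (Lib.Block.oneIrr H)
        rw [h, Nat.cast_zero] at h'
        simp [Cfsg.classInner, Function.comp, Lib.Block.oneIrr_apply] at h'
    obtain ⟨ψ, hψ, hψe⟩ := Lib.Char.exists_irr_deflation χ.2 H.normalCore
      (fun n hn => Lib.Block.trivial_on_of_constituent_one H.normalCore χ hcore hn)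
    have h1 := Lib.Char.eq_one_of_real (G := G ⧸ H.normalCore) (by rw [← Subgroup.index_eq_card]; exact hodd)
      ⟨ψ, hψ⟩ (fun q => by
        obtain ⟨g, rfl⟩ := QuotientGroup.mk_surjective q
        show (ψ _).im = 0
        rw [hψe]; exact Complex.conj_eq_iff_im.1 (hχr g))
    funext g
    rw [← hψe g]
    exact congrFun h1 _

end Cfsg.Agent.S4784
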