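import Cfsg.Statements.S4798
import Cfsg.Agent.Lib.CharTools.Codegree
import Cfsg.Agent.Lib.Char.Induced

set_option autoImplicit false
open Cfsg

namespace Cfsg.Agent.S4798

/-- Let p be a prime and χ a faithful irreducible complex character of the finite group G (χ(g) = χ(1) only for g = 1), so that its codegree is #G / χ(1). Then #G / χ(1) is a power of p if and only if χ is induced from a character of a Sylow p-subgroup of G. -/
theorem result {G : Type*} [Group G] [Fintype G] (p : ℕ) [Fact p.Prime] (χ : Cfsg.IrrCharacter G) (hfaith : ∀ g : G, (χ : G → ℂ) g = (χ : G → ℂ) 1 → g = 1) : (∃ k : ℕ, Nat.card G = p ^ k * Cfsg.charDegree (χ : G → ℂ)) ↔ ∃ (P : Sylow p G) (θ : ↥(P : Subgroup G) → ℂ), Cfsg.IsCharacter ↥(P : Subgroup G) θ ∧ (χ : G → ℂ) = Cfsg.indFun (P : Subgroup G) θ := by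
  classical
  have hχ := χ.2
  have hc := Lib.Char.isCharacter_of_isIrr hχ
  have hcls := Lib.Char.isClassFunction_of_isCharacter hc
  have hp : p.Prime := Fact.out
  set n := Cfsg.charDegree (χ : G → ℂ)
  have hn1 : (χ : G → ℂ) 1 = n := Lib.Char.apply_one_eq_charDegree hc
  have hnpos : 0 < n := Lib.Char.charDegree_pos hχ
  -- a constituent of the restriction bounds the degree of `χ`
  have hle : ∀ (H : Subgroup G) (θ : H → ℂ), Cfsg.IsCharacter H θ →
      Cfsg.classInner θ (fun h : H => (χ : G → ℂ) h) ≠ 0 →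
      n ≤ H.index * Cfsg.charDegree θ ∧
        (H.index * Cfsg.charDegree θ ≤ n → (χ : G → ℂ) = Cfsg.indFun H θ) := by
    intro H θ hθ hne
    have hI := Lib.Char.isCharacter_indFun H hθ
    rw [← Lib.Char.classInner_indFun H θ hcls] at hne
    obtain ⟨k, hk⟩ := Lib.Char.isCharacter_eq_sum hI
    have hkχ : k χ ≠ 0 := by
      intro h0
      apply hne
      rw [hk, Lib.Char.classInner_sum_left, Finset.sum_eq_zero]
      intro φ _
      rw [Lib.Char.classInner_smul_left, Lib.Char.classInner_irrCharacter]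
      split
      · next h => rw [h, h0, Nat.cast_zero, zero_mul]
      · rw [mul_zero]
    set R : G → ℂ := ∑ φ : Cfsg.IrrCharacter G,
      ((if φ = χ then k φ - 1 else k φ : ℕ) : ℂ) • (φ : G → ℂ)
    have hR : Cfsg.IsCharacter G R := Lib.Char.isCharacter_sum _ _ fun φ _ => by
      rw [Nat.cast_smul_eq_nsmul]
      exact Lib.Char.isCharacter_nsmul (Lib.Char.isCharacter_of_isIrr φ.2) _
    have hsum : Cfsg.indFun H θ = (χ : G → ℂ) + R := by
      rw [hk, ← Finset.add_sum_erase _ _ (Finset.mem_univ χ),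
        show R = _ + ∑ φ ∈ Finset.univ.erase χ, _ from
          (Finset.add_sum_erase _ _ (Finset.mem_univ χ)).symm, ← add_assoc]
      congr 1
      · rw [if_pos rfl, Nat.cast_sub (Nat.one_le_iff_ne_zero.mpr hkχ), Nat.cast_one, sub_smul,
          one_smul, add_sub_cancel]
      · refine Finset.sum_congr rfl fun φ hφ => ?_
        rw [if_neg (Finset.mem_erase.mp hφ).1]
    have hdeg : H.index * Cfsg.charDegree θ = n + Cfsg.charDegree R := by
      rw [← Lib.Char.charDegree_indFun H hθ, hsum, Lib.Char.charDegree_add hc hR]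
    refine ⟨by omega, fun h => ?_⟩
    rw [hsum, Lib.Char.eq_zero_of_charDegree_eq_zero hR (by omega), add_zero]
  -- some irreducible constituent
  have hex : ∀ (H : Subgroup G) (θ : H → ℂ), Cfsg.IsCharacter H θ →
      ∃ m : Cfsg.IrrCharacter H → ℕ, θ = ∑ η : Cfsg.IrrCharacter H, (m η : ℂ) • (η : H → ℂ) ∧
        Cfsg.charDegree θ = ∑ η : Cfsg.IrrCharacter H, m η * Cfsg.charDegree (η : H → ℂ) := by
    intro H θ hθ
    obtain ⟨m, hm⟩ := Lib.Char.isCharacter_eq_sum hθ
    refine ⟨m, hm, Lib.Char.charDegree_eq_of_apply_one ?_⟩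
    have h1 := congrFun hm 1
    simp only [Finset.sum_apply, Pi.smul_apply, smul_eq_mul] at h1
    rw [h1, Nat.cast_sum]
    exact Finset.sum_congr rfl fun η _ => by
      rw [Lib.Char.apply_one_eq_charDegree (Lib.Char.isCharacter_of_isIrr η.2), Nat.cast_mul]
  have hmem : ∀ (H : Subgroup G) (η : Cfsg.IrrCharacter H) (θ : H → ℂ)
      (m : Cfsg.IrrCharacter H → ℕ), θ = ∑ η : Cfsg.IrrCharacter H, (m η : ℂ) • (η : H → ℂ) →
      Cfsg.classInner θ (η : H → ℂ) = (m η : ℂ) := by
    intro H η θ m hm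
    rw [hm, Lib.Char.classInner_sum_left, Finset.sum_eq_single η]
    · rw [Lib.Char.classInner_smul_left, Lib.Char.classInner_irrCharacter, if_pos rfl, mul_one]
    · intro b _ hb
      rw [Lib.Char.classInner_smul_left, Lib.Char.classInner_irrCharacter, if_neg hb, mul_zero]
    · exact fun h => absurd (Finset.mem_univ _) h
  have hirrdeg : ∀ (P : Sylow p G) (η : Cfsg.IrrCharacter (P : Subgroup G)),
      ∃ i, Cfsg.charDegree (η : ↥(P : Subgroup G) → ℂ) = p ^ i := by
    intro P η
    have h1 := Lib.Char.charDegree_dvd_card η.2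
    obtain ⟨a, ha⟩ := IsPGroup.iff_card.mp P.isPGroup'
    rw [ha] at h1
    obtain ⟨i, -, hi⟩ := (Nat.dvd_prime_pow hp).mp h1
    exact ⟨i, hi⟩
  constructor
  · rintro ⟨k, hk⟩
    obtain ⟨P⟩ : Nonempty (Sylow p G) := inferInstance
    have hres : Cfsg.IsCharacter (P : Subgroup G) (fun h : (P : Subgroup G) => (χ : G → ℂ) h) :=
      Lib.Char.isCharacter_restrict hc _
    obtain ⟨m, hm, hmd⟩ := hex _ _ hres
    have hres1 : Cfsg.charDegree (fun h : (P : Subgroup G) => (χ : G → ℂ) h) = n :=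
      Lib.Char.charDegree_eq_of_apply_one hn1
    rw [hres1] at hmd
    obtain ⟨a, ha⟩ := IsPGroup.iff_card.mp P.isPGroup'
    have hidx := Subgroup.card_mul_index (P : Subgroup G)
    rw [ha, hk] at hidx
    have hndvd : ¬ p ∣ (P : Subgroup G).index := P.not_dvd_index
    have hka : k ≤ a := by
      by_contra hlt
      obtain ⟨c, rfl⟩ := Nat.exists_eq_add_of_lt (not_le.mp hlt)
      rw [pow_add, pow_add, pow_one, mul_assoc, mul_assoc] at hidx
      exact hndvd ⟨p ^ c * n, by
        rw [Nat.eq_of_mul_eq_mul_left (pow_pos hp.pos a) hidx]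
        ring⟩
    have hn' : n = p ^ (a - k) * (P : Subgroup G).index :=
      Nat.eq_of_mul_eq_mul_left (pow_pos hp.pos k) (by
        rw [← hidx, ← mul_assoc, ← pow_add, Nat.add_sub_cancel' hka])
    obtain ⟨η, hmη, hηle⟩ : ∃ η : Cfsg.IrrCharacter (P : Subgroup G), m η ≠ 0 ∧
        Cfsg.charDegree (η : ↥(P : Subgroup G) → ℂ) ≤ p ^ (a - k) := by
      by_contra hcon
      push Not at hcon
      have hd : p ^ (a - k + 1) ∣ n := by
        rw [hmd]
        refine Finset.dvd_sum fun η _ => ?_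
        by_cases h0 : m η = 0
        · simp [h0]
        obtain ⟨i, hi⟩ := hirrdeg P η
        have := hcon η h0
        rw [hi] at this ⊢
        exact Dvd.dvd.mul_left (pow_dvd_pow p ((Nat.pow_lt_pow_iff_right hp.one_lt).mp this)) _
      rw [hn', pow_succ] at hd
      exact hndvd (Nat.dvd_of_mul_dvd_mul_left (pow_pos hp.pos _) hd)
    refine ⟨P, η, Lib.Char.isCharacter_of_isIrr η.2, ?_⟩
    refine (hle _ _ (Lib.Char.isCharacter_of_isIrr η.2) ?_).2 ?_
    · rw [Lib.Char.classInner_conj_symm, hmem _ η _ m hm, map_natCast]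
      exact_mod_cast hmη
    · rw [hn', mul_comm]
      exact Nat.mul_le_mul_right _ hηle
  · rintro ⟨P, θ, hθ, hind⟩
    obtain ⟨m, hm, hmd⟩ := hex _ _ hθ
    have hone : Cfsg.classInner θ (fun h : (P : Subgroup G) => (χ : G → ℂ) h) = 1 := by
      rw [← Lib.Char.classInner_indFun _ θ hcls, ← hind]
      exact Lib.Char.classInner_irr_self hχ
    obtain ⟨η, hmη, hη⟩ : ∃ η : Cfsg.IrrCharacter (P : Subgroup G), m η ≠ 0 ∧
        Cfsg.classInner (η : ↥(P : Subgroup G) → ℂ)
          (fun h : (P : Subgroup G) => (χ : G → ℂ) h) ≠ 0 := by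
      by_contra hcon
      push Not at hcon
      rw [hm, Lib.Char.classInner_sum_left, Finset.sum_eq_zero] at hone
      · exact zero_ne_one hone
      intro η _
      rw [Lib.Char.classInner_smul_left]
      by_cases h0 : m η = 0
      · simp [h0]
      · rw [hcon η h0, mul_zero]
    have h1 := (hle _ _ (Lib.Char.isCharacter_of_isIrr η.2) hη).1
    have h2 : n = (P : Subgroup G).index * Cfsg.charDegree θ := by
      rw [← Lib.Char.charDegree_indFun _ hθ, ← hind]
    have h3 : Cfsg.charDegree (η : ↥(P : Subgroup G) → ℂ) ≤ Cfsg.charDegree θ := by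
      rw [hmd]
      exact le_trans (Nat.le_mul_of_pos_left _ (Nat.pos_of_ne_zero hmη))
        (Finset.single_le_sum (f := fun η : Cfsg.IrrCharacter (P : Subgroup G) =>
          m η * Cfsg.charDegree (η : ↥(P : Subgroup G) → ℂ)) (fun _ _ => Nat.zero_le _)
          (Finset.mem_univ η))
    have h4 : Cfsg.charDegree θ = Cfsg.charDegree (η : ↥(P : Subgroup G) → ℂ) :=
      le_antisymm (Nat.le_of_mul_le_mul_left (h2 ▸ h1) (Nat.pos_of_ne_zero
        Subgroup.index_ne_zero_of_finite)) h3
    obtain ⟨i, hi⟩ := hirrdeg P η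
    obtain ⟨a, ha⟩ := IsPGroup.iff_card.mp P.isPGroup'
    have hia : i ≤ a := by
      have := Lib.Char.charDegree_dvd_card η.2
      rwa [hi, ha, Nat.pow_dvd_pow_iff_le_right hp.one_lt] at this
    refine ⟨a - i, ?_⟩
    rw [h2, h4, hi, ← Subgroup.card_mul_index (P : Subgroup G), ha, mul_left_comm,
      ← pow_add, Nat.sub_add_cancel hia, mul_comm]

end Cfsg.Agent.S4798
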