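import Cfsg.Statements.S4796
import Cfsg.Agent.S4798
import Mathlib.GroupTheory.SchurZassenhaus
import Cfsg.Agent.Lib.Char.Clifford
import Cfsg.Agent.Lib.Char.Degree
import Cfsg.Agent.Lib.Char.Linear

set_option autoImplicit false
open Cfsg Cfsg.Agent
open scoped Pointwise

namespace Cfsg.Agent.S4796

/-- Let G be a finite group with a faithful irreducible complex character χ whose codegree #G / χ(1) is a prime p (for a faithful character the kernel is trivial, so the codegree is #G / χ(1)). Then either G is cyclic of order p, or G is a Frobenius group whose Frobenius kernel has order p: some proper non-trivial subgroup H satisfies H ∩ gHg⁻¹ = 1 for every element g outside H, and the set of elements lying in no conjugate of H, together with the identity, has exactly p elements. -/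
theorem result {G : Type*} [Group G] [Finite G] (χ : Cfsg.IrrCharacter G) (hfaith : ∀ g : G, (χ : G → ℂ) g = (χ : G → ℂ) 1 → g = 1) (p : ℕ) (hp : p.Prime) (hcod : Nat.card G = p * Cfsg.charDegree (χ : G → ℂ)) : (IsCyclic G ∧ Nat.card G = p) ∨ ∃ H : Subgroup G, Cfsg.IsFrobeniusComplement H ∧ Nat.card ↥(Cfsg.frobeniusKernel H) = p := by
  classical
  haveI := Fintype.ofFinite G
  haveI : Fact p.Prime := ⟨hp⟩
  set n := Cfsg.charDegree (χ : G → ℂ) with hn
  have hn0 : 0 < n := Lib.Char.charDegree_pos χ.2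
  by_cases hn1 : n = 1
  · rw [hn1, mul_one] at hcod
    exact Or.inl ⟨isCyclic_of_prime_card hcod, hcod⟩
  right
  have hlt : n < p := by
    have hne : χ ≠ ⟨_, Lib.Char.isIrrCharacter_one⟩ := fun h =>
      hn1 (by rw [hn, h]; exact Lib.Char.charDegree_one)
    have h := Lib.Char.sum_charDegree_sq (G := G)
    rw [← Finset.add_sum_erase _ _ (Finset.mem_univ χ), hcod, ← hn] at h
    have h1 : 1 ≤ ∑ ψ ∈ Finset.univ.erase χ, Cfsg.charDegree (ψ : G → ℂ) ^ 2 :=
      le_trans (by simp [Lib.Char.charDegree_one])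
        (Finset.single_le_sum (f := fun ψ : IrrCharacter G => Cfsg.charDegree (ψ : G → ℂ) ^ 2)
          (fun _ _ => Nat.zero_le _) (Finset.mem_erase.2 ⟨hne.symm,
            Finset.mem_univ (⟨_, Lib.Char.isIrrCharacter_one⟩ : IrrCharacter G)⟩))
    nlinarith
  obtain ⟨P, θ, hθc, hind⟩ := (S4798.result p χ hfaith).1 ⟨1, by rw [pow_one]; exact hcod⟩
  have hpn : ¬ p ∣ n := fun h => (Nat.le_of_dvd hn0 h).not_gt hlt
  have hPcard : Nat.card (P : Subgroup G) = p := by
    rw [P.card_eq_multiplicity, hcod, Nat.factorization_mul hp.ne_zero hn0.ne', Finsupp.add_apply,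
      hp.factorization_self, Nat.factorization_eq_zero_of_not_dvd hpn, add_zero, pow_one]
  have hPidx : (P : Subgroup G).index = n := by
    have h := Subgroup.card_mul_index (P : Subgroup G)
    rw [hPcard, hcod] at h
    exact Nat.eq_of_mul_eq_mul_left hp.pos h
  haveI hPn : (P : Subgroup G).Normal := by
    have hdvd := P.card_dvd_index
    rw [hPidx] at hdvd
    have h1 : Nat.card (Sylow p G) = 1 := by
      have hmod := card_sylow_modEq_one p G
      have hle := (Nat.le_of_dvd hn0 hdvd).trans_lt hlt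
      rw [Nat.ModEq, Nat.mod_eq_of_lt hle, Nat.mod_eq_of_lt hp.one_lt] at hmod
      exact hmod
    haveI : Subsingleton (Sylow p G) := (Nat.card_eq_one_iff_unique.1 h1).1
    exact P.normal_of_subsingleton
  haveI hQn : (P : Subgroup G).Normal := hPn
  have hθ1 : θ 1 = 1 := by
    have h := Lib.Char.charDegree_indFun (P : Subgroup G) hθc
    rw [← hind, ← hn, hPidx] at h
    have h2 : Cfsg.charDegree θ = 1 := by nlinarith
    rw [Lib.Char.apply_one_eq_charDegree hθc, h2, Nat.cast_one]
  have hθi : Cfsg.IsIrrCharacter (P : Subgroup G) θ := Lib.Char.isIrrCharacter_of_degree_one hθc hθ1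
  haveI : IsCyclic (P : Subgroup G) := isCyclic_of_prime_card hPcard
  have hQab : ∀ a ∈ (P : Subgroup G), ∀ c ∈ (P : Subgroup G), a * c = c * a := fun a ha c hc =>
    congrArg Subtype.val ((IsCyclic.isMulCommutative : IsMulCommutative (P : Subgroup G)).is_comm.comm ⟨a, ha⟩ ⟨c, hc⟩)
  have hin : Lib.Char.inertia (P : Subgroup G) θ = (P : Subgroup G) := by
    have h := Lib.Char.classInner_indFun_self (P : Subgroup G) hθi
    rw [← hind, Lib.Char.classInner_irr_self χ.2, eq_comm,
      inv_mul_eq_one₀ (Lib.Char.card_ne_zero_complex (P : Subgroup G)), Nat.cast_inj] at h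
    exact (Subgroup.eq_of_le_of_card_ge
      (Lib.Char.le_inertia (P : Subgroup G) (Lib.Char.isClassFunction_of_isIrr hθi)) h.ge).symm
  have hcent : ∀ c : G, (∀ a ∈ (P : Subgroup G), c * a = a * c) → c ∈ (P : Subgroup G) := by
    intro c hc
    rw [← hin, Lib.Char.mem_inertia]
    funext a
    rw [Lib.Char.conjChar_apply]
    refine congrArg θ (Subtype.ext ?_)
    show c * (a : G) * c⁻¹ = a
    rw [hc a a.2, mul_inv_cancel_right]
  obtain ⟨H, hH⟩ := Subgroup.exists_right_complement'_of_coprime (N := (P : Subgroup G))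
    (by rw [hPcard, hPidx]; exact (hp.coprime_iff_not_dvd).2 hpn)
  have hHcard : Nat.card H = n := by rw [← hPidx, ← hH.symm.index_eq_card]
  have hint : ∀ a : G, a ∈ (P : Subgroup G) → a ∈ H → a = 1 := fun a ha ha' =>
    Subgroup.disjoint_def.1 hH.disjoint ha ha'
  have hfix : ∀ y ∈ H, ∀ a ∈ (P : Subgroup G), y * a = a * y → a ≠ 1 → y = 1 := by
    intro y hy a ha hya ha1
    refine hint y (hcent y fun c hc => ?_) hy
    have hgen : Subgroup.zpowers a = (P : Subgroup G) := by
      refine Subgroup.eq_of_le_of_card_ge (Subgroup.zpowers_le.2 ha) ?_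
      rw [Nat.card_zpowers, hPcard]
      have h := Subgroup.orderOf_dvd_natCard (P : Subgroup G) ha
      rw [hPcard, Nat.dvd_prime hp] at h
      rcases h with h | h
      · exact absurd (orderOf_eq_one_iff.1 h) ha1
      · exact h.ge
    rw [← hgen] at hc
    obtain ⟨l, rfl⟩ := hc
    exact ((show Commute y a from hya).zpow_right l).eq
  have hdec : ∀ g : G, ∃ u ∈ (P : Subgroup G), ∃ y ∈ H, g = u * y := fun g => by
    obtain ⟨⟨u, y⟩, h, -⟩ := hH.existsUnique g
    exact ⟨u, u.2, y, y.2, h.symm⟩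
  have hHbot : H ≠ ⊥ := fun h => hn1 (by rw [← hHcard, h, Subgroup.card_bot])
  have hHtop : H ≠ ⊤ := fun h => by
    have : (P : Subgroup G) = ⊥ := Subgroup.eq_bot_iff_forall _ |>.2 fun a ha => hint a ha (h ▸ Subgroup.mem_top a)
    rw [this, Subgroup.card_bot] at hPcard
    exact hp.one_lt.ne hPcard
  have hTI : ∀ g : G, g ∉ H → H ⊓ (MulAut.conj g • H) = ⊥ := by
    intro g hg
    obtain ⟨u, hu, y, hy, rfl⟩ := hdec g
    refine Subgroup.eq_bot_iff_forall _ |>.2 fun a ha => ?_
    obtain ⟨haH, z, hz, hza⟩ := ha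
    change (u * y) * z * (u * y)⁻¹ = a at hza
    set w := y * z * y⁻¹ with hw
    have hwH : w ∈ H := mul_mem (mul_mem hy hz) (inv_mem hy)
    have ha' : a = u * w * u⁻¹ := by rw [← hza, hw]; group
    have hq : a * w⁻¹ ∈ (P : Subgroup G) := by
      rw [ha', show u * w * u⁻¹ * w⁻¹ = u * (w * u⁻¹ * w⁻¹) by group]
      exact mul_mem hu (hQn.conj_mem _ (inv_mem hu) w)
    have haw : a = w := mul_inv_eq_one.1 (hint _ hq (mul_mem haH (inv_mem hwH)))
    have hu1 : u ≠ 1 := fun h => hg (by rw [h, one_mul]; exact hy)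
    refine haw ▸ hfix w hwH u hu ?_ hu1
    have h : w = u * w * u⁻¹ := haw.symm.trans ha'
    calc w * u = u * w * u⁻¹ * u := by rw [← h]
      _ = u * w := by group
  refine ⟨H, ⟨hHbot, hHtop, hTI⟩, ?_⟩
  have hker : Cfsg.frobeniusKernel H = ((P : Subgroup G) : Set G) := by
    ext x
    constructor
    · intro hx
      by_contra hxQ
      rcases hx with rfl | hx
      · exact hxQ (P : Subgroup G).one_mem
      obtain ⟨u, hu, y, hy, rfl⟩ := hdec x
      have hy1 : y ≠ 1 := fun h => hxQ (by rw [h, mul_one]; exact hu)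
      let f : ↥(P : Subgroup G) → ↥(P : Subgroup G) := fun v => ⟨(v : G) * (y * (v : G)⁻¹ * y⁻¹),
        mul_mem v.2 (hQn.conj_mem _ (inv_mem v.2) y)⟩
      have hf : Function.Injective f := by
        intro v v' h
        have h' : (v : G) * (y * (v : G)⁻¹ * y⁻¹) = (v' : G) * (y * (v' : G)⁻¹ * y⁻¹) :=
          congrArg Subtype.val h
        have h2 : y * ((v : G)⁻¹ * v') = (v : G)⁻¹ * v' * y := by
          have h1 := congrArg (fun a => (v : G)⁻¹ * a * (y * (v' : G))) h'
          simp only [mul_assoc, inv_mul_cancel_left, inv_mul_cancel, mul_one] at h1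
          simpa [mul_assoc] using h1
        by_contra hne
        exact hy1 (hfix y hy _ (mul_mem (inv_mem v.2) v'.2) h2 fun he =>
          hne (Subtype.ext (inv_mul_eq_one.1 he)))
      obtain ⟨v, hv⟩ := (Finite.injective_iff_surjective.1 hf) ⟨u, hu⟩
      refine hx (v : G) ⟨y, hy, ?_⟩
      have hv' : (v : G) * (y * (v : G)⁻¹ * y⁻¹) = u := congrArg Subtype.val hv
      show (v : G) * y * (v : G)⁻¹ = u * y
      rw [← hv']
      group
    · intro hx
      by_cases h1 : x = 1
      · exact Or.inl h1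
      right
      rintro g ⟨z, hz, hzx⟩
      change g * z * g⁻¹ = x at hzx
      have hzQ : z ∈ (P : Subgroup G) := by
        have := hQn.conj_mem x hx g⁻¹
        rw [← hzx] at this
        simpa [mul_assoc] using this
      rw [hint z hzQ hz, mul_one, mul_inv_cancel] at hzx
      exact h1 hzx.symm
  rw [hker]
  exact hPcard

end Cfsg.Agent.S4796
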