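import Cfsg.Statements.S4797
import Cfsg.Agent.Lib.CharTools.Codegree
import Cfsg.Agent.Lib.Char.Scalar

set_option autoImplicit false
open Cfsg

namespace Cfsg.Agent.S4797

/-- The codegree of an irreducible complex character χ of a finite group G is [G : ker χ] / χ(1), where ker χ is the set of elements at which χ takes the value χ(1). A non-trivial finite group is perfect if and only if no irreducible complex character of it has prime codegree. -/
theorem result {G : Type*} [Group G] [Finite G] [Nontrivial G] : commutator G = ⊤ ↔ ∀ χ : Cfsg.IrrCharacter G, ¬ ((Nat.card G / (Nat.card {g : G // (χ : G → ℂ) g = (χ : G → ℂ) 1} * Cfsg.charDegree (χ : G → ℂ)))).Prime := by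
  classical
  have := Fintype.ofFinite G
  constructor
  · intro hperf χ hp
    have hχ := χ.2
    have hc := Lib.Char.isCharacter_of_isIrr hχ
    set K := Lib.Char.charKer (χ : G → ℂ)
    have hKn : K.Normal := Lib.Char.charKer_normal hc
    obtain ⟨ψ, hψ, he⟩ := Lib.Char.exists_irr_deflation hχ K fun n hn => (Lib.Char.mem_charKer hc).mp hn
    rw [Lib.CharTools.card_kernel hc] at hp
    have hn : Cfsg.charDegree ψ = Cfsg.charDegree (χ : G → ℂ) := by
      refine Lib.Char.charDegree_eq_of_apply_one ?_
      rw [← QuotientGroup.mk_one, he, Lib.Char.apply_one_eq_charDegree hc]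
    set n := Cfsg.charDegree (χ : G → ℂ)
    have hnpos : 0 < n := Lib.Char.charDegree_pos hχ
    set p := Nat.card G / (Nat.card K * n)
    have hQ : Nat.card (G ⧸ K) = p * n := by
      have h1 := Lib.CharTools.kernel_mul_degree_dvd hχ
      rw [Lib.CharTools.card_kernel hc] at h1
      have h2 : Nat.card G = p * (Nat.card K * n) := (Nat.div_mul_cancel h1).symm
      rw [Subgroup.card_eq_card_quotient_mul_card_subgroup K] at h2
      exact Nat.eq_of_mul_eq_mul_right (Nat.card_pos (α := K)) (by rw [h2]; ring)
    have hQp : commutator (G ⧸ K) = ⊤ := by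
      rw [commutator_def, ← Subgroup.map_top_of_surjective (QuotientGroup.mk' K)
        (QuotientGroup.mk'_surjective K), ← Subgroup.map_commutator, ← commutator_def, hperf]
    -- the degree is less than `p`
    have hne : ψ ≠ fun _ => 1 := by
      intro h1
      have hk : K = ⊤ := by
        rw [eq_top_iff]
        intro g _
        rw [Lib.Char.mem_charKer hc, ← he g, ← he 1, h1]
      have h3 : Nat.card (G ⧸ K) = 1 := by
        rw [← Subgroup.index_eq_card, Subgroup.index_eq_one]
        exact hk
      rw [h3] at hQ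
      exact hp.one_lt.ne' (Nat.eq_one_of_mul_eq_one_right hQ.symm)
    have hnp : n < p := by
      have hs := Lib.Char.sum_charDegree_sq (G := G ⧸ K)
      rw [← Finset.add_sum_erase _ _
        (Finset.mem_univ (⟨_, Lib.Char.isIrrCharacter_one⟩ : Cfsg.IrrCharacter (G ⧸ K))),
        Lib.Char.charDegree_one, one_pow, hQ] at hs
      have h2 : n ^ 2 ≤ ∑ φ ∈ Finset.univ.erase
          (⟨_, Lib.Char.isIrrCharacter_one⟩ : Cfsg.IrrCharacter (G ⧸ K)),
          Cfsg.charDegree (φ : G ⧸ K → ℂ) ^ 2 := by
        rw [← hn]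
        exact Finset.single_le_sum (f := fun φ : Cfsg.IrrCharacter (G ⧸ K) =>
          Cfsg.charDegree (φ : G ⧸ K → ℂ) ^ 2) (fun _ _ => Nat.zero_le _)
          (a := ⟨ψ, hψ⟩) (Finset.mem_erase.mpr
            ⟨fun h => hne (congrArg Subtype.val h), Finset.mem_univ _⟩)
      by_contra hle
      have := Nat.mul_le_mul_right n (not_lt.mp hle)
      nlinarith [this, h2, hs]
    -- the Sylow subgroup of order `p` is normal, hence central
    have := Fact.mk hp
    obtain ⟨P⟩ : Nonempty (Sylow p (G ⧸ K)) := inferInstance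
    have hndvd : ¬ p ∣ n := fun h => absurd (Nat.le_of_dvd hnpos h) (not_le.mpr hnp)
    have hPc : Nat.card P = p := by
      rw [P.card_eq_multiplicity, hQ, Nat.factorization_mul hp.ne_zero hnpos.ne', Finsupp.add_apply,
        hp.factorization_self, Nat.factorization_eq_zero_of_not_dvd hndvd, add_zero, pow_one]
    have hPn : (P : Subgroup (G ⧸ K)).Normal := by
      have h1 : Nat.card (Sylow p (G ⧸ K)) ∣ n := by
        have h2 := P.card_dvd_index
        have h3 := Subgroup.card_mul_index (P : Subgroup (G ⧸ K))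
        rw [hQ, show Nat.card (P : Subgroup (G ⧸ K)) = p from hPc] at h3
        rwa [Nat.eq_of_mul_eq_mul_left hp.pos h3] at h2
      have h2 := card_sylow_modEq_one p (G ⧸ K)
      have h4 : Nat.card (Sylow p (G ⧸ K)) = 1 := by
        rw [Nat.ModEq, Nat.mod_eq_of_lt (lt_of_le_of_lt (Nat.le_of_dvd hnpos h1) hnp),
          Nat.mod_eq_of_lt hp.one_lt] at h2
        exact h2
      have : Subsingleton (Sylow p (G ⧸ K)) := (Nat.card_eq_one_iff_unique.mp h4).1
      exact Sylow.normal_of_subsingleton P
    obtain ⟨z, hzP, hz1⟩ : ∃ z ∈ (P : Subgroup (G ⧸ K)), z ≠ 1 := by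
      by_contra h
      push Not at h
      rw [show Nat.card P = Nat.card (P : Subgroup (G ⧸ K)) from rfl,
        (Subgroup.eq_bot_iff_forall _).mpr h, Subgroup.card_bot] at hPc
      exact hp.one_lt.ne hPc
    have hzc : z ∈ Subgroup.center (G ⧸ K) := by
      have hcyc : IsCyclic (P : Subgroup (G ⧸ K)) := isCyclic_of_prime_card hPc
      have hker : commutator (G ⧸ K) ≤ (MulAut.conjNormal (H := (P : Subgroup (G ⧸ K)))).ker := by
        rw [commutator_def, Subgroup.commutator_le]
        intro a _ b _
        rw [MonoidHom.mem_ker, map_commutatorElement, commutatorElement_eq_one_iff_mul_comm]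
        refine MulEquiv.ext fun x => ?_
        obtain ⟨ma, hma⟩ := MonoidHom.map_cyclic (MulAut.conjNormal (H := (P : Subgroup (G ⧸ K))) a).toMonoidHom
        obtain ⟨mb, hmb⟩ := MonoidHom.map_cyclic (MulAut.conjNormal (H := (P : Subgroup (G ⧸ K))) b).toMonoidHom
        simp only [MulEquiv.coe_toMonoidHom] at hma hmb
        rw [MulAut.mul_apply, MulAut.mul_apply, hmb x, hma x, hma (x ^ mb), hmb (x ^ ma),
          ← zpow_mul, ← zpow_mul, mul_comm]
      rw [Subgroup.mem_center_iff]
      intro g
      have h1 : MulAut.conjNormal (H := (P : Subgroup (G ⧸ K))) g = 1 :=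
        MonoidHom.mem_ker.mp (hker (by rw [hQp]; exact Subgroup.mem_top g))
      have h2 := congrArg Subtype.val (MulEquiv.congr_fun h1 ⟨z, hzP⟩)
      rw [MulAut.conjNormal_apply, MulAut.one_apply] at h2
      exact mul_inv_eq_iff_eq_mul.mp h2
    -- `z` acts as a scalar of determinant one
    obtain ⟨m, ρ, hρ, rfl⟩ := hψ
    have := hρ
    obtain ⟨c, hc'⟩ := Lib.Char.exists_scalar_of_mem_center ρ hzc
    have hm : m = n := by
      rw [← hn]
      exact (Lib.Char.charDegree_eq_of_apply_one (by simp)).symm
    let d : (G ⧸ K) →* ℂˣ :=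
      ((LinearMap.det : Module.End ℂ (Fin m → ℂ) →* ℂ).comp ρ).toHomUnits
    have hd : d z = 1 :=
      MonoidHom.mem_ker.mp (Abelianization.commutator_subset_ker d (by rw [hQp]; trivial))
    have hcn : c ^ n = 1 := by
      have := congrArg Units.val hd
      rw [MonoidHom.coe_toHomUnits, MonoidHom.comp_apply, hc', LinearMap.det_smul, map_one,
        mul_one, Module.finrank_fin_fun, hm, Units.val_one] at this
      exact this
    have hcp : c ^ p = 1 := by
      have hz : z ^ p = 1 := by
        have := pow_card_eq_one' (x := (⟨z, hzP⟩ : (P : Subgroup (G ⧸ K))))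
        rw [hPc] at this
        exact congrArg Subtype.val this
      have h1 := congrArg (fun A : Module.End ℂ (Fin m → ℂ) => LinearMap.trace ℂ _ A)
        (show (ρ z) ^ p = 1 by rw [← map_pow, hz, map_one])
      simp only [hc', smul_pow, one_pow, map_smul, LinearMap.trace_one, Module.finrank_fin_fun,
        smul_eq_mul] at h1
      exact (mul_eq_right₀ (by exact_mod_cast (hm ▸ hnpos.ne'))).mp h1
    have hc1 : c = 1 := by
      have := pow_gcd_eq_one.mpr ⟨hcp, hcn⟩
      rwa [(hp.coprime_iff_not_dvd.mpr hndvd).gcd_eq_one, pow_one] at this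
    have hzv : ρ.character z = ρ.character 1 := by
      simp [Representation.character, hc', hc1]
    obtain ⟨g, rfl⟩ := QuotientGroup.mk_surjective z
    refine hz1 ((QuotientGroup.eq_one_iff g).mpr ?_)
    rw [Lib.Char.mem_charKer hc, ← he g, ← he 1, QuotientGroup.mk_one]
    exact hzv
  · intro h
    by_contra hne
    have hA : Nontrivial (G →* ℂˣ) := by
      obtain ⟨g, hg⟩ : ∃ g, g ∉ commutator G := by
        by_contra hall
        push Not at hall
        exact hne (eq_top_iff.mpr fun x _ => hall x)
      have : Finite (Abelianization G) := Quotient.finite _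
      obtain ⟨φ, hφ⟩ := CommGroup.exists_apply_ne_one_of_hasEnoughRootsOfUnity (Abelianization G) ℂ
        (a := Abelianization.of g) (fun hg' => hg (by
          rwa [← MonoidHom.mem_ker, Abelianization.ker_of] at hg'))
      exact ⟨φ.comp Abelianization.of, 1, fun e => hφ (by simpa using DFunLike.congr_fun e g)⟩
    obtain ⟨l, hl⟩ := exists_ne (1 : G →* ℂˣ)
    have hfin : IsOfFinOrder l :=
      isOfFinOrder_iff_pow_eq_one.mpr ⟨Nat.card G, Nat.card_pos, MonoidHom.ext fun g => by
        rw [MonoidHom.pow_apply, ← map_pow, pow_card_eq_one', map_one, MonoidHom.one_apply]⟩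
    set m := orderOf l
    have hm1 : m ≠ 1 := fun h => hl (orderOf_eq_one_iff.mp h)
    set p := m.minFac
    have hp : p.Prime := Nat.minFac_prime hm1
    have := Fact.mk hp
    have hpm : p ∣ m := Nat.minFac_dvd m
    set l' := l ^ (m / p) with hl'
    have hord : orderOf l' = p := by
      rw [hl', orderOf_pow_of_dvd (Nat.div_pos (Nat.minFac_le hfin.orderOf_pos) hp.pos).ne'
        (Nat.div_dvd_of_dvd hpm), Nat.div_div_self hpm hfin.orderOf_pos.ne']
    have hrange : Nat.card l'.range = p := by
      have h1 : l'.range ≤ rootsOfUnity p ℂ := by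
        rintro _ ⟨g, rfl⟩
        rw [mem_rootsOfUnity, ← MonoidHom.pow_apply, ← hord, pow_orderOf_eq_one, MonoidHom.one_apply]
      have h2 := Subgroup.card_dvd_of_le h1
      have : NeZero p := ⟨hp.ne_zero⟩
      rw [Complex.card_rootsOfUnity p] at h2
      refine (hp.eq_one_or_self_of_dvd _ h2).resolve_left fun h3 => ?_
      rw [Subgroup.card_eq_one, MonoidHom.range_eq_bot_iff] at h3
      exact hp.one_lt.ne' (hord.symm.trans (orderOf_eq_one_iff.mpr h3))
    refine h ⟨_, Lib.Char.isIrrCharacter_linear l'⟩ ?_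
    have hk : Nat.card {g : G // ((l' g : ℂˣ) : ℂ) = ((l' 1 : ℂˣ) : ℂ)} = Nat.card l'.ker :=
      Nat.card_congr (Equiv.subtypeEquivRight fun g => by simp [MonoidHom.mem_ker])
    simp only [hk, Lib.Char.charDegree_eq_of_apply_one (n := 1) (χ := fun g : G => ((l' g : ℂˣ) : ℂ))
      (by simp), mul_one]
    rw [← Subgroup.card_mul_index l'.ker, Nat.mul_div_cancel_left _ Nat.card_pos,
      Subgroup.index_ker, hrange]
    exact hp

end Cfsg.Agent.S4797
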