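import Cfsg.Statements.S4801
import Cfsg.Agent.Lib.CharTools.Codegree

set_option autoImplicit false
open Cfsg

namespace Cfsg.Agent.S4801

/-- The codegree of an irreducible complex character χ of a finite group G is [G : ker χ] / χ(1), where ker χ is the set of elements at which χ takes the value χ(1). Let S be a finite simple group and G a finite group such that every codegree of an irreducible character of S is a codegree of an irreducible character of G. Then the order of S divides the order of G. -/
theorem result {S : Type*} [Group S] [Finite S] (hS : IsSimpleGroup S) {G : Type*} [Group G] [Finite G] (hsub : ∀ χ : Cfsg.IrrCharacter S, ∃ ψ : Cfsg.IrrCharacter G, (Nat.card S / (Nat.card {g : S // (χ : S → ℂ) g = (χ : S → ℂ) 1} * Cfsg.charDegree (χ : S → ℂ))) = (Nat.card G / (Nat.card {g : G // (ψ : G → ℂ) g = (ψ : G → ℂ) 1} * Cfsg.charDegree (ψ : G → ℂ)))) : Nat.card S ∣ Nat.card G := by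
  classical
  have := hS
  rw [Nat.dvd_iff_prime_pow_dvd_dvd]
  intro r k hr hk
  rcases Nat.eq_zero_or_pos k with rfl | hk0
  · simp
  obtain ⟨χ, hχ1, hχr⟩ := Lib.CharTools.exists_degree_not_dvd (G := S) hr ((dvd_pow_self r hk0.ne').trans hk)
  obtain ⟨ψ, hψ⟩ := hsub χ
  rw [Lib.CharTools.card_kernel_of_simple χ.2 hχ1, one_mul] at hψ
  have h1 : r ^ k ∣ Nat.card S / Cfsg.charDegree (χ : S → ℂ) := by
    refine (Nat.Coprime.pow_left k (hr.coprime_iff_not_dvd.mpr hχr)).dvd_of_dvd_mul_left ?_
    rwa [Nat.mul_div_cancel' (Lib.Char.charDegree_dvd_card χ.2)]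
  rw [hψ] at h1
  exact h1.trans (Nat.div_dvd_of_dvd (Lib.CharTools.kernel_mul_degree_dvd ψ.2))

end Cfsg.Agent.S4801
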