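import Cfsg.Statements.S4802
import Cfsg.Agent.Lib.CharTools.Basic

set_option autoImplicit false
open Cfsg

namespace Cfsg.Agent.S4802

/-- Let N < M be normal subgroups of the finite group G and g ∈ M ∖ N. Then the conjugacy class of g is exactly M ∖ N if and only if every irreducible complex character of G whose kernel contains N takes the same value at all elements of M ∖ N, and every irreducible complex character of G whose kernel does not contain N vanishes at g. -/
theorem result {G : Type*} [Group G] [Finite G] (N M : Subgroup G) [N.Normal] [M.Normal] (hNM : N < M) (g : G) (hgM : g ∈ M) (hgN : g ∉ N) : {h : G | IsConj g h} = (M : Set G) \ (N : Set G) ↔ ((∀ χ : Cfsg.IrrCharacter G, (∀ x ∈ N, (χ : G → ℂ) x = (χ : G → ℂ) 1) → ∀ x ∈ M, x ∉ N → ∀ y ∈ M, y ∉ N → (χ : G → ℂ) x = (χ : G → ℂ) y) ∧ (∀ χ : Cfsg.IrrCharacter G, (∃ x ∈ N, (χ : G → ℂ) x ≠ (χ : G → ℂ) 1) → (χ : G → ℂ) g = 0)) := by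
  classical
  have := Fintype.ofFinite G
  have hclass : ∀ x, IsConj g x → x ∈ M ∧ x ∉ N := by
    intro x hx
    obtain ⟨c, rfl⟩ := isConj_iff.mp hx
    exact ⟨Subgroup.Normal.conj_mem inferInstance g hgM c,
      fun h => hgN (by simpa [mul_assoc] using Subgroup.Normal.conj_mem inferInstance _ h c⁻¹)⟩
  constructor
  · intro hset
    have hconj : ∀ x ∈ M, x ∉ N → IsConj g x := by
      intro x h1 h2
      have : x ∈ {h : G | IsConj g h} := by rw [hset]; exact ⟨h1, h2⟩
      exact this
    refine ⟨fun χ _ x hxM hxN y hyM hyN => ?_, fun χ hχ => ?_⟩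
    · exact (Lib.Char.isConj_iff_forall_irr x y).mp ((hconj x hxM hxN).symm.trans (hconj y hyM hyN)) χ
    · obtain ⟨x, hxN, hx⟩ := hχ
      have h1 := (Lib.CharTools.sum_normal_eq_zero_or_const χ.2 N).resolve_left fun h => hx (h x hxN)
      have h2 := (Lib.CharTools.sum_normal_eq_zero_or_const χ.2 M).resolve_left
        fun h => hx (h x (hNM.le hxN))
      have hsplit : ∑ z ∈ Finset.univ.filter (· ∈ M), (χ : G → ℂ) z =
          (∑ z ∈ Finset.univ.filter (fun z => z ∈ M ∧ z ∉ N), (χ : G → ℂ) z) +
          ∑ z ∈ Finset.univ.filter (· ∈ N), (χ : G → ℂ) z := by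
        rw [← Finset.sum_union]
        · refine Finset.sum_congr ?_ fun _ _ => rfl
          ext z
          simp only [Finset.mem_filter, Finset.mem_univ, true_and, Finset.mem_union]
          exact ⟨fun h => (em (z ∈ N)).symm.imp (fun h' => ⟨h, h'⟩) id,
            fun h => h.elim (fun h' => h'.1) (fun h' => hNM.le h')⟩
        · rw [Finset.disjoint_left]
          intro z hz hz'
          simp only [Finset.mem_filter, Finset.mem_univ, true_and] at hz hz'
          exact hz.2 hz'
      rw [h1, h2, add_zero, Finset.sum_congr rfl (g := fun _ => (χ : G → ℂ) g) fun z hz => ?_,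
        Finset.sum_const, nsmul_eq_mul] at hsplit
      · rcases mul_eq_zero.mp hsplit.symm with h | h
        · rw [Nat.cast_eq_zero, Finset.card_eq_zero] at h
          exact absurd h (Finset.Nonempty.ne_empty ⟨g, by simp [hgM, hgN]⟩)
        · exact h
      · simp only [Finset.mem_filter, Finset.mem_univ, true_and] at hz
        exact ((Lib.Char.isConj_iff_forall_irr g z).mp (hconj z hz.1 hz.2) χ).symm
  · rintro ⟨h1, h2⟩
    ext x
    refine ⟨fun hx => hclass x hx, fun hx => ?_⟩
    by_contra hne
    have h3 := Lib.CharTools.sum_irr_mul_conj' x g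
    rw [if_neg fun h => hne (show IsConj g x from h.symm)] at h3
    have h4 := Lib.CharTools.sum_irr_normSq g
    have h5 : ∀ χ : Cfsg.IrrCharacter G, (χ : G → ℂ) x * (starRingEnd ℂ) ((χ : G → ℂ) g) =
        (Complex.normSq ((χ : G → ℂ) g) : ℂ) := by
      intro χ
      by_cases hk : ∀ z ∈ N, (χ : G → ℂ) z = (χ : G → ℂ) 1
      · rw [h1 χ hk x hx.1 hx.2 g hgM hgN, Complex.mul_conj]
      · push Not at hk
        simp [h2 χ hk]
    rw [Finset.sum_congr rfl fun χ _ => h5 χ, h4, Nat.cast_eq_zero] at h3
    exact Nat.card_pos.ne' h3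

end Cfsg.Agent.S4802
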