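import Cfsg.Statements.S4807
import Cfsg.Agent.Lib.RelMcKay.Main

set_option autoImplicit false
open Cfsg Cfsg.Agent.Lib.RelMcKay Cfsg.Agent.Lib.Char Cfsg.Agent.Lib.CharClifford

namespace Cfsg.Agent.S4807

set_option linter.style.longLine false

/-- Let p be a prime and G a finite p-solvable group, L a normal subgroup of G, S a Sylow p-subgroup of G and P the subgroup generated by L and S (so P/L is a Sylow p-subgroup of G/L), and let ν be an irreducible complex character of L that is invariant under conjugation by every element of P. Let N be the normalizer of P in G (it contains L). Then the number of irreducible characters of G of degree prime to p lying over ν (restriction to L not orthogonal to ν) equals the number of irreducible characters of N of degree prime to p lying over ν. -/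
theorem result {G : Type*} [Group G] [Finite G] (p : ℕ) [Fact p.Prime] (hG : Cfsg.IsPSolvable p G) (L : Subgroup G) [L.Normal] (S : Sylow p G) (P : Subgroup G) (hP : P = L ⊔ (S : Subgroup G)) (hLN : L ≤ (Subgroup.normalizer ((P : Subgroup G) : Set G))) (ν : Cfsg.IrrCharacter ↥L) (hν : ∀ x ∈ P, Cfsg.IsConjCharOf L x (ν : ↥L → ℂ) (ν : ↥L → ℂ)) : Nat.card {χ : Cfsg.IrrCharacter G // ¬ p ∣ Cfsg.charDegree (χ : G → ℂ) ∧ (∑ᶠ l : ↥L, (χ : G → ℂ) (l : G) * (starRingEnd ℂ) ((ν : ↥L → ℂ) l)) ≠ 0} = Nat.card {ψ : Cfsg.IrrCharacter ↥(Subgroup.normalizer ((P : Subgroup G) : Set G)) // ¬ p ∣ Cfsg.charDegree (ψ : ↥(Subgroup.normalizer ((P : Subgroup G) : Set G)) → ℂ) ∧ (∑ᶠ l : ↥L, (ψ : ↥(Subgroup.normalizer ((P : Subgroup G) : Set G)) → ℂ) (Subgroup.inclusion hLN l) * (starRingEnd ℂ) ((ν : ↥L → ℂ) l)) ≠ 0} := by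
  subst hP
  have hν' : ∀ s ∈ (S : Subgroup G), Fixes (ν : L → ℂ) s := fun s hs =>
    ⟨nrm_of_normal L s, hν s (Subgroup.mem_sup_right hs)⟩
  obtain ⟨n, H, hH0, hHn, hmono, hnor, hfac⟩ := hG
  let K : ℕ → Subgroup G := fun i => H ⟨min i n, Nat.lt_succ_of_le (min_le_right i n)⟩ ⊔ L
  have hser : Ser p n L := by
    refine ⟨K, ?_, ?_, fun i => ?_, fun i j hij => ?_, fun i hi => ?_⟩
    · show H _ ⊔ L = L
      rw [show (⟨min 0 n, _⟩ : Fin (n + 1)) = 0 from Fin.ext (Nat.zero_min n), hH0, bot_sup_eq]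
    · show H _ ⊔ L = ⊤
      rw [show (⟨min n n, _⟩ : Fin (n + 1)) = Fin.last n from Fin.ext (min_self n), hHn, top_sup_eq]
    · haveI := hnor ⟨min i n, Nat.lt_succ_of_le (min_le_right i n)⟩
      exact Subgroup.sup_normal _ L
    · exact sup_le_sup_right (hmono (Fin.mk_le_mk.2 (min_le_min_right n hij))) L
    · have e1 : K i = H (Fin.castSucc ⟨i, hi⟩) ⊔ L := congrArg (H · ⊔ L) (Fin.ext (min_eq_left hi.le))
      have e2 : K (i + 1) = H (Fin.succ ⟨i, hi⟩) ⊔ L := congrArg (H · ⊔ L) (Fin.ext (min_eq_left hi))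
      haveI := hnor (Fin.castSucc (⟨i, hi⟩ : Fin n))
      haveI : (H (Fin.castSucc ⟨i, hi⟩) ⊔ L).Normal := Subgroup.sup_normal _ L
      have hle := hmono (Fin.castSucc_le_succ (⟨i, hi⟩ : Fin n))
      have hd : (K i).relIndex (K (i + 1)) ∣
          (H (Fin.castSucc ⟨i, hi⟩)).relIndex (H (Fin.succ ⟨i, hi⟩)) := by
        rw [e1, e2, show H (Fin.succ ⟨i, hi⟩) ⊔ L =
          H (Fin.succ ⟨i, hi⟩) ⊔ (H (Fin.castSucc ⟨i, hi⟩) ⊔ L) by rw [← sup_assoc, sup_eq_left.2 hle],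
          Subgroup.relIndex_sup_right]
        exact Subgroup.relIndex_dvd_of_le_left _ le_sup_left
      rcases hfac ⟨i, hi⟩ with ⟨m, hm⟩ | h
      · obtain ⟨j, -, hj⟩ := (Nat.dvd_prime_pow (Fact.out : p.Prime)).1 (hm ▸ hd)
        exact Or.inl ⟨j, hj⟩
      · exact Or.inr fun hd' =>
          ((Fact.out : p.Prime).coprime_iff_not_dvd.1 (Nat.Coprime.symm h)) (hd'.trans hd)
  have main := count n G L S hser ν hν'
  have := Fintype.ofFinite L
  have hip : ∀ (M : Subgroup G) (hM : L ≤ M) (χ : M → ℂ),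
      ip χ (ν : L → ℂ) ≠ 0 ↔ (∑ᶠ l : L, χ (Subgroup.inclusion hM l) * (starRingEnd ℂ) ((ν : L → ℂ) l)) ≠ 0 := by
    intro M hM χ
    rw [ip_eq_classInner hM, classInner, finsum_eq_sum_of_fintype]
    simp [card_ne_zero_complex L]
  rw [show Nat.card {ψ : IrrCharacter ↥(Subgroup.normalizer ((L ⊔ (S : Subgroup G) : Subgroup G) : Set G)) //
      ¬ p ∣ charDegree (ψ : ↥(Subgroup.normalizer ((L ⊔ (S : Subgroup G) : Subgroup G) : Set G)) → ℂ) ∧
      (∑ᶠ l : L, (ψ : ↥(Subgroup.normalizer ((L ⊔ (S : Subgroup G) : Subgroup G) : Set G)) → ℂ)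
        (Subgroup.inclusion hLN l) * (starRingEnd ℂ) ((ν : L → ℂ) l)) ≠ 0} =
      cnt p (Subgroup.normalizer ((L ⊔ (S : Subgroup G) : Subgroup G) : Set G)) (ν : L → ℂ) from
    Nat.card_congr (Equiv.subtypeEquivRight fun ψ => and_congr_right fun _ => (hip _ hLN _).symm), ← main]
  let F : IrrCharacter G ≃ IrrCharacter (⊤ : Subgroup G) :=
    { toFun := fun χ => ⟨(χ : G → ℂ) ∘ Subgroup.topEquiv, isIrrCharacter_comp_equiv Subgroup.topEquiv χ.2⟩
      invFun := fun χ => ⟨(χ : (⊤ : Subgroup G) → ℂ) ∘ Subgroup.topEquiv.symm,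
        isIrrCharacter_comp_equiv Subgroup.topEquiv.symm χ.2⟩
      left_inv := fun χ => Subtype.ext (funext fun x => congrArg (χ : G → ℂ) (Subgroup.topEquiv.apply_symm_apply x))
      right_inv := fun χ => Subtype.ext (funext fun x =>
        congrArg (χ : (⊤ : Subgroup G) → ℂ) (Subgroup.topEquiv.symm_apply_apply x)) }
  refine Nat.card_congr (F.subtypeEquiv fun χ => ?_)
  refine and_congr ?_ (hip ⊤ le_top ((F χ : IrrCharacter (⊤ : Subgroup G)) : (⊤ : Subgroup G) → ℂ)).symm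
  have hd : charDegree (F χ : (⊤ : Subgroup G) → ℂ) = charDegree (χ : G → ℂ) := by
    apply Nat.cast_injective (R := ℂ)
    rw [← Cfsg.Agent.Lib.CharAux.charDegree_eq (isCharacter_of_isIrr (F χ).2), ← Cfsg.Agent.Lib.CharAux.charDegree_eq (isCharacter_of_isIrr χ.2)]
    exact congrArg (χ : G → ℂ) (map_one Subgroup.topEquiv)
  rw [hd]

end Cfsg.Agent.S4807
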