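import Cfsg.Statements.S4808
import Cfsg.Agent.Lib.CharKernel
import Cfsg.Agent.Lib.Char.Integral
import Mathlib.GroupTheory.Sylow

set_option autoImplicit false
open Cfsg

namespace Cfsg.Agent.S4808

open Cfsg.Agent.Lib.Char Cfsg.Agent.Lib.CharAux Cfsg.Agent.Lib.CharKernel

universe u

variable {G : Type u} [Group G] [Finite G]

theorem degree_dvd_index (χ : IrrCharacter G) :
    charDegree (χ : G → ℂ) ∣ (kerChar (isCharacter_of_isIrr χ.2)).index := by
  have hc := isCharacter_of_isIrr χ.2
  haveI := kerChar_normal hc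
  have := Fintype.ofFinite (G ⧸ kerChar hc)
  obtain ⟨η, hη, he⟩ := exists_irr_quotient (kerChar hc) χ.2 fun n hn => hn
  rw [Subgroup.index]
  exact irr_degree_dvd_card hη (by rw [← charDegree_eq hc, ← he, QuotientGroup.mk_one])

theorem cod_eq (χ : IrrCharacter G) :
    Nat.card G / (Nat.card {g : G // (χ : G → ℂ) g = (χ : G → ℂ) 1} * charDegree (χ : G → ℂ)) =
      (kerChar (isCharacter_of_isIrr χ.2)).index / charDegree (χ : G → ℂ) := by
  rw [← (kerChar (isCharacter_of_isIrr χ.2)).card_mul_index]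
  exact Nat.mul_div_mul_left _ _ Nat.card_pos

theorem result {G : Type*} [Group G] [Finite G] (p : ℕ) (hp : p.Prime) : p ∣ Nat.card G ↔ ∃ χ : Cfsg.IrrCharacter G, p ∣ (Nat.card G / (Nat.card {g : G // (χ : G → ℂ) g = (χ : G → ℂ) 1} * Cfsg.charDegree (χ : G → ℂ))) := by
  classical
  haveI := Fact.mk hp
  constructor
  · intro hdvd
    by_contra hno
    push Not at hno
    obtain ⟨x, hx⟩ := exists_prime_orderOf_dvd_card' p hdvd
    have hx1 : x ≠ 1 := fun h => hp.ne_one (by rw [← hx, h, orderOf_one])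
    let P : Sylow p G := default
    let N : Subgroup G := Subgroup.normalClosure ((P : Subgroup G) : Set G)
    have hidx : ¬ p ∣ N.index := fun h =>
      P.not_dvd_index (h.trans (Subgroup.index_dvd_of_le Subgroup.subset_normalClosure))
    have hmemN : ∀ (M : Subgroup G) [M.Normal], ¬ p ∣ M.index → ∀ y : G, (∃ k, orderOf y = p ^ k) → y ∈ M := by
      intro M _ hM y hy
      obtain ⟨k, hk⟩ := hy
      rw [← QuotientGroup.eq_one_iff, ← orderOf_eq_one_iff]
      refine Nat.eq_one_of_dvd_coprimes ?_ (orderOf_map_dvd (QuotientGroup.mk' M) y)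
        (orderOf_dvd_natCard _)
      rw [hk]
      exact ((hp.coprime_iff_not_dvd).2 hM).pow_left k
    have hxN : x ∈ N := hmemN N hidx x ⟨1, by simpa using hx⟩
    have hterm : ∀ χ : IrrCharacter G, ¬ (∀ n ∈ N, (χ : G → ℂ) n = (χ : G → ℂ) 1) →
        IsIntegral ℤ (((χ : G → ℂ) 1 * (χ : G → ℂ) x) / (p : ℂ)) := by
      intro χ hχ
      have hc := isCharacter_of_isIrr χ.2
      haveI := kerChar_normal hc
      have hpK : p ∣ (kerChar hc).index := by
        by_contra h
        refine hχ fun n hn => ?_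
        refine Subgroup.normalClosure_le_normal (N := kerChar hc) ?_ hn
        intro y hy
        obtain ⟨k, hk⟩ := (IsPGroup.iff_orderOf (p := p)).1 P.isPGroup' ⟨y, hy⟩
        exact hmemN _ h y ⟨k, by simpa using hk⟩
      have hpd : p ∣ charDegree (χ : G → ℂ) := by
        obtain ⟨c, hc'⟩ := degree_dvd_index χ
        have h := hno χ
        rw [cod_eq, hc', Nat.mul_div_cancel_left _ (charDegree_pos χ.2)] at h
        exact (hp.dvd_mul.1 (hc' ▸ hpK)).resolve_right h
      obtain ⟨e, he⟩ := hpd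
      rw [charDegree_eq hc, he, Nat.cast_mul, mul_assoc,
        mul_div_cancel_left₀ _ (Nat.cast_ne_zero.2 hp.ne_zero)]
      exact (isIntegral_algebraMap (R := ℤ) (A := ℂ) (x := (e : ℤ))).mul (char_isIntegral hc x)
    have hsum := sum_degree_mul (G := G) x
    rw [if_neg hx1, ← Finset.sum_filter_add_sum_filter_not Finset.univ
      (fun χ : IrrCharacter G => ∀ n ∈ N, (χ : G → ℂ) n = (χ : G → ℂ) 1),
      sum_trivialOn_degree_mul N x, if_pos hxN] at hsum
    apply hidx
    refine dvd_of_isIntegral_div hp.ne_zero ?_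
    rw [eq_neg_of_add_eq_zero_left hsum, neg_div, Finset.sum_div]
    exact (IsIntegral.sum _ fun χ hχ => hterm χ (Finset.mem_filter.1 hχ).2).neg
  · rintro ⟨χ, hχ⟩
    rw [cod_eq] at hχ
    exact hχ.trans ((Nat.div_dvd_of_dvd (degree_dvd_index χ)).trans (Subgroup.index_dvd_card _))

end Cfsg.Agent.S4808
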