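import Cfsg.Statements.S4812
import Cfsg.Agent.Lib.TwoChar.DegreeSets

set_option autoImplicit false
open Cfsg

namespace Cfsg.Agent.S4812

/-- Let F be a finite field of characteristic 2 with q ≥ 4 elements and let S be isomorphic to PSL(2,F) or to SL(2,F). Then the vertices of the character degree graph of S are the primes dividing q(q²−1), and two distinct primes are adjacent exactly when both divide q + 1 or both divide q − 1; so the graph has the three connected components {2}, the primes dividing q + 1 and the primes dividing q − 1, each complete. -/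
theorem result (F : Type*) [Field F] [Fintype F] [CharP F 2] (q : ℕ) (hq : Fintype.card F = q) (h4 : 4 ≤ q) {S : Type*} [Group S] [Finite S] (hS : Nonempty (S ≃* Matrix.ProjectiveSpecialLinearGroup (Fin 2) F) ∨ Nonempty (S ≃* Matrix.SpecialLinearGroup (Fin 2) F)) : Cfsg.degreePrimes S = {r : ℕ | r.Prime ∧ r ∣ q * (q ^ 2 - 1)} ∧ ∀ r s : ℕ, (Cfsg.degreeGraph S).Adj r s ↔ (r ≠ s ∧ r.Prime ∧ s.Prime ∧ ((r ∣ q + 1 ∧ s ∣ q + 1) ∨ (r ∣ q - 1 ∧ s ∣ q - 1))) := by
  classical
  subst hq
  have hS' : charDegrees S = charDegrees (Matrix.ProjectiveSpecialLinearGroup (Fin 2) F) ∨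
      charDegrees S = charDegrees (Matrix.SpecialLinearGroup (Fin 2) F) :=
    hS.imp (fun ⟨e⟩ => Lib.TwoChar.charDegrees_congr e) (fun ⟨e⟩ => Lib.TwoChar.charDegrees_congr e)
  have hpsl := Lib.TwoChar.psl_degrees_subset (F := F)
  have h1 := Lib.TwoChar.psl_card_mem_even (F := F)
  have h2 := Lib.TwoChar.psl_succ_mem_even (F := F) h4
  have h3 := Lib.TwoChar.psl_pred_mem_even (F := F)
  have hsub : ∀ n ∈ charDegrees S, n = 1 ∨ n = Fintype.card F ∨ n ∣ Fintype.card F + 1 ∨ n ∣ Fintype.card F - 1 := by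
    intro n hn
    have hn' : n ∈ charDegrees (Matrix.SpecialLinearGroup (Fin 2) F) := by
      rcases hS' with e | e <;> rw [e] at hn
      · exact hpsl hn
      · exact hn
    rcases Lib.TwoChar.degrees_subset_even (F := F) hn' with h | h | h | h
    · exact Or.inl h
    · exact Or.inr (Or.inl h)
    · exact Or.inr (Or.inr (Or.inl (dvd_of_eq h)))
    · exact Or.inr (Or.inr (Or.inr (dvd_of_eq (Set.mem_singleton_iff.mp h))))
  have hmem : ∀ n ∈ charDegrees (Matrix.ProjectiveSpecialLinearGroup (Fin 2) F), n ∈ charDegrees S := fun n hn => by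
    rcases hS' with e | e <;> rw [e]
    · exact hn
    · exact hpsl hn
  obtain ⟨hP, hG⟩ := Lib.TwoChar.graph_of_degrees (by omega) hsub (hmem _ h1) (hmem _ h2) (hmem _ h3)
  refine ⟨hP, fun r s => (hG Nat.prime_two (fun r hr hd => ?_) r s).trans ?_⟩
  · obtain ⟨m, hp, hm⟩ := FiniteField.card F 2
    rw [hm] at hd
    exact (Nat.prime_dvd_prime_iff_eq hr hp).1 (hr.dvd_of_dvd_pow hd)
  · refine and_congr_right fun hne => and_congr_right fun hr => and_congr_right fun hs => ?_
    have hco : Nat.Coprime r s := (Nat.coprime_primes hr hs).2 hne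
    exact or_congr ⟨fun h => ⟨dvd_of_mul_right_dvd h, dvd_of_mul_left_dvd h⟩, fun h => hco.mul_dvd_of_dvd_of_dvd h.1 h.2⟩
      ⟨fun h => ⟨dvd_of_mul_right_dvd h, dvd_of_mul_left_dvd h⟩, fun h => hco.mul_dvd_of_dvd_of_dvd h.1 h.2⟩
end Cfsg.Agent.S4812
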