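import Cfsg.Statements.S4813
import Cfsg.Agent.Lib.Char.PrimeDegreesCount
import Cfsg.Agent.Lib.Char.PrimeDegrees

set_option autoImplicit false
open Cfsg

namespace Cfsg.Agent.S4813

/-- If every irreducible complex character of the finite group G of degree greater than one has prime degree, then G has at most three distinct irreducible character degrees. -/
theorem result {G : Type*} [Group G] [Finite G] (hprime : ∀ d ∈ Cfsg.charDegrees G, d = 1 ∨ d.Prime) : Nat.card ↥(Cfsg.charDegrees G) ≤ 3 := by
  have hd : ∀ χ : Cfsg.IrrCharacter G,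
      Cfsg.charDegree (χ : G → ℂ) = 1 ∨ (Cfsg.charDegree (χ : G → ℂ)).Prime :=
    fun χ => hprime _ ⟨χ, rfl⟩
  haveI : Group.IsSolvable G := Cfsg.Agent.Lib.Char.PrimeDegrees.isSolvable (Nat.card G) G le_rfl
    fun χ hne => (hd χ).resolve_left hne
  exact Cfsg.Agent.Lib.Char.PrimeDegreesCount.card_le_three hd

end Cfsg.Agent.S4813
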