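import Cfsg.Statements.S4814
import Cfsg.Agent.Lib.CharCommutator

set_option autoImplicit false
open Cfsg

namespace Cfsg.Agent.S4814

open Cfsg.Agent.Lib.Char Cfsg.Agent.Lib.CharAux Cfsg.Agent.Lib.CharCommutator

theorem result {G : Type*} [Group G] [Finite G]
    (h : ∑ᶠ χ : Cfsg.IrrCharacter G, 1 / ‖(χ : G → ℂ) 1‖ ^ 2 < (2 : ℝ)) (g : G) :
    ∃ a b c d : G, (a * b * a⁻¹ * b⁻¹) * (c * d * c⁻¹ * d⁻¹) = g := by
  classical
  have := Fintype.ofFinite G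
  rw [finsum_eq_sum_of_fintype] at h
  let one : IrrCharacter G := ⟨fun _ => 1, isIrrCharacter_one⟩
  have hne : (∑ x : G, commCount x * commCount (x⁻¹ * g)) ≠ 0 := by
    intro h0
    have he := sum_commCount_mul g
    rw [h0, Nat.cast_zero, eq_comm, mul_eq_zero] at he
    have hz := he.resolve_left (pow_ne_zero _ (card_ne_zero_complex G))
    rw [← Finset.add_sum_erase _ _ (Finset.mem_univ one)] at hz h
    have h1 : (one : G → ℂ) g / (one : G → ℂ) 1 ^ 3 = 1 := by simp [one]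
    have h2 : (1 : ℝ) / ‖(one : G → ℂ) 1‖ ^ 2 = 1 := by simp [one]
    rw [h1] at hz
    rw [h2] at h
    have hneg := congrArg (fun z : ℂ => ‖z‖) (eq_neg_of_add_eq_zero_right hz)
    simp only [norm_neg, norm_one] at hneg
    have hle : ‖∑ χ ∈ Finset.univ.erase one, (χ : G → ℂ) g / (χ : G → ℂ) 1 ^ 3‖ ≤
        ∑ χ ∈ Finset.univ.erase one, 1 / ‖(χ : G → ℂ) 1‖ ^ 2 := by
      refine (norm_sum_le _ _).trans (Finset.sum_le_sum fun χ _ => ?_)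
      have hd : 0 < ‖(χ : G → ℂ) 1‖ := norm_pos_iff.2 (irr_degree_ne_zero χ.2)
      obtain ⟨n, ρ, -, hχ⟩ := χ.2
      have hb : ‖(χ : G → ℂ) g‖ ≤ ‖(χ : G → ℂ) 1‖ := by
        rw [← hχ, Representation.char_one, Complex.norm_natCast]
        exact norm_character_le ρ g
      rw [norm_div, norm_pow, div_le_div_iff₀ (by positivity) (by positivity), one_mul]
      calc ‖(χ : G → ℂ) g‖ * ‖(χ : G → ℂ) 1‖ ^ 2 ≤ ‖(χ : G → ℂ) 1‖ * ‖(χ : G → ℂ) 1‖ ^ 2 := by gcongr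
        _ = ‖(χ : G → ℂ) 1‖ ^ 3 := by ring
    linarith
  obtain ⟨x, -, hx⟩ := Finset.exists_ne_zero_of_sum_ne_zero hne
  obtain ⟨⟨⟨⟨a, b⟩, hab⟩⟩, -⟩ := Nat.card_ne_zero.1 (left_ne_zero_of_mul hx)
  obtain ⟨⟨⟨⟨c, d⟩, hcd⟩⟩, -⟩ := Nat.card_ne_zero.1 (right_ne_zero_of_mul hx)
  exact ⟨a, b, c, d, by simp only at hab hcd; rw [hab, hcd]; simp⟩

end Cfsg.Agent.S4814
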