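import Cfsg.Statements.S4825
import Cfsg.Agent.Lib.Char.Clifford
import Cfsg.Agent.Lib.Block.Osima
import Mathlib.Algebra.BigOperators.ModEq
import Mathlib.FieldTheory.Finite.Basic

set_option autoImplicit false
open Cfsg
open scoped ComplexConjugate

namespace Cfsg.Agent.S4825

open Cfsg.Agent.Lib Cfsg.Agent.Lib.Block

theorem sq_eq_one_of_le_three {p : ℕ} [Fact p.Prime] (hp : p ≤ 3) {a : ZMod p} (ha : a ≠ 0) :
    a ^ 2 = 1 := by
  have h2 := (Fact.out : p.Prime).two_le
  have h := ZMod.pow_card_sub_one_eq_one ha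
  interval_cases p
  · rw [pow_one] at h
    rw [h, one_pow]
  · exact h

theorem result {G : Type*} [Group G] [Fintype G] (p : ℕ) [Fact p.Prime] (P : Sylow p G) (M : Ideal Cfsg.AlgInt) (hM : Cfsg.IsPModular p M) (B : Set (Cfsg.IrrCharacter G)) (hB : Cfsg.IsPBlock M B) (hBP : Cfsg.IsDefectGroup p M B P) (N : Subgroup G) [N.Normal] [Fintype N] (hPN : ¬ (P : Subgroup G) ≤ N) (θ : Cfsg.IrrCharacter N) :
    (Nat.card {χ : Cfsg.IrrCharacter G // χ ∈ B ∧ ¬ p ∣ Cfsg.charDegree (χ : G → ℂ) ∧ Cfsg.classInner (fun n : N => (χ : G → ℂ) n) (θ : N → ℂ) ≠ 0} = 0 ∨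
      2 ≤ Nat.card {χ : Cfsg.IrrCharacter G // χ ∈ B ∧ ¬ p ∣ Cfsg.charDegree (χ : G → ℂ) ∧ Cfsg.classInner (fun n : N => (χ : G → ℂ) n) (θ : N → ℂ) ≠ 0}) ∧
    (p ≤ 3 → p ∣ Nat.card {χ : Cfsg.IrrCharacter G // χ ∈ B ∧ ¬ p ∣ Cfsg.charDegree (χ : G → ℂ) ∧ Cfsg.classInner (fun n : N => (χ : G → ℂ) n) (θ : N → ℂ) ≠ 0}) := by
  classical
  haveI := hM.2.1.isPrime
  have hp : p.Prime := Fact.out
  -- `p` divides the index of `N`
  have hidx : p ∣ N.index := by
    by_contra hnot
    refine hPN fun x hx => ?_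
    rw [← QuotientGroup.eq_one_iff, ← orderOf_eq_one_iff]
    obtain ⟨k, hk⟩ := (IsPGroup.iff_orderOf (p := p)).1 P.isPGroup' ⟨x, hx⟩
    rw [Subgroup.orderOf_mk] at hk
    refine Nat.eq_one_of_dvd_coprimes ((hp.coprime_iff_not_dvd.2 hnot).pow_left k) ?_
      (orderOf_dvd_natCard _)
    rw [← hk]
    exact orderOf_map_dvd (QuotientGroup.mk' N) x
  choose m hm using fun χ : IrrCharacter G => Char.classInner_natCast
    (Char.isCharacter_restrict (Char.isCharacter_of_isIrr χ.2) N) (Char.isCharacter_of_isIrr θ.2)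
  have hzero : ∀ χ : IrrCharacter G,
      classInner (fun n : N => (χ : G → ℂ) n) (θ : N → ℂ) ≠ 0 ↔ m χ ≠ 0 := fun χ => by
    rw [hm χ, Nat.cast_ne_zero]
  set c := (Char.inertia N (θ : N → ℂ)).index * charDegree (θ : N → ℂ) with hc
  have hdeg : ∀ χ : IrrCharacter G, m χ ≠ 0 → charDegree (χ : G → ℂ) = m χ * c := by
    intro χ hχ
    have h := Char.clifford_degree N χ.2 θ.2 ((hzero χ).2 hχ)
    rw [hm χ, irr_one_eq_natCast χ, irr_one_eq_natCast θ, mul_assoc] at h
    exact_mod_cast h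
  -- the degree of the block part of the induced character
  have hsum : p ∣ ∑ χ ∈ Finset.univ.filter (fun χ => χ ∈ B), charDegree (χ : G → ℂ) * m χ := by
    have hψ : IsClassFunction G (fun g => conj (blockCoeff B g)) := fun a b => by
      simp only [isClassFunction_blockCoeff B a b]
    have hr := Char.classInner_indFun N (θ : N → ℂ) hψ
    simp only [classInner, Complex.conj_conj] at hr
    have hres : ∀ χ : IrrCharacter G,
        ∑ g, indFun N (θ : N → ℂ) g * conj ((χ : G → ℂ) g) = (Nat.card G : ℂ) * (m χ : ℂ) := by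
      intro χ
      have h := Char.classInner_indFun N (θ : N → ℂ) (Char.isClassFunction_of_isIrr χ.2)
      rw [Char.classInner_conj_symm (fun n : N => (χ : G → ℂ) n) (θ : N → ℂ), hm χ, Complex.conj_natCast, classInner,
        inv_mul_eq_iff_eq_mul₀ (Char.card_ne_zero_complex G)] at h
      exact h
    have hleft : ∑ g, indFun N (θ : N → ℂ) g * blockCoeff B g =
        ((∑ χ ∈ Finset.univ.filter (fun χ => χ ∈ B), charDegree (χ : G → ℂ) * m χ : ℕ) : ℂ) := by
      simp only [blockCoeff_eq_sum, ← Finset.sum_filter, Finset.mul_sum]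
      rw [Finset.sum_comm, Nat.cast_sum]
      refine Finset.sum_congr rfl fun χ _ => ?_
      calc ∑ g, indFun N (θ : N → ℂ) g *
              ((Nat.card G : ℂ)⁻¹ * ((χ : G → ℂ) 1 * conj ((χ : G → ℂ) g)))
          = (Nat.card G : ℂ)⁻¹ * (χ : G → ℂ) 1 *
              ∑ g, indFun N (θ : N → ℂ) g * conj ((χ : G → ℂ) g) := by
            rw [Finset.mul_sum]; exact Finset.sum_congr rfl fun g _ => by ring
        _ = _ := by
            rw [hres χ, irr_one_eq_natCast χ]
            have h0 := Char.card_ne_zero_complex G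
            push_cast
            field_simp
    rw [hleft] at hr
    set K := ∑ n : N, (θ : N → ℂ) n * blockCoeff B n with hK
    have hKR : K ∈ locRing M :=
      sum_mem fun n _ => mul_mem (irr_mem_locRing θ n) (intR_eIdem hB _)
    have hfin : ((∑ χ ∈ Finset.univ.filter (fun χ => χ ∈ B), charDegree (χ : G → ℂ) * m χ : ℕ) : ℂ) =
        (N.index : ℂ) * K := by
      rw [inv_mul_eq_iff_eq_mul₀ (Char.card_ne_zero_complex G)] at hr
      rw [hr, ← N.index_mul_card, Nat.cast_mul]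
      have h0 := Char.card_ne_zero_complex N
      field_simp
    rw [← natCast_memLocalIdeal_iff hM, ← redC_eq_zero_iff (natCast_mem (locRing M) _), hfin,
      redC_mul (natCast_mem (locRing M) _) hKR,
      (redC_eq_zero_iff (natCast_mem (locRing M) _)).2 (natCast_mem_of_dvd hM hidx), zero_mul]
  let S : Finset (IrrCharacter G) :=
    Finset.univ.filter fun χ => χ ∈ B ∧ ¬ p ∣ charDegree (χ : G → ℂ) ∧ m χ ≠ 0
  have hcard : Nat.card {χ : IrrCharacter G // χ ∈ B ∧ ¬ p ∣ charDegree (χ : G → ℂ) ∧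
      classInner (fun n : N => (χ : G → ℂ) n) (θ : N → ℂ) ≠ 0} = S.card := by
    rw [Nat.card_eq_fintype_card, Fintype.card_subtype]
    congr 1
    ext χ
    simp only [S, Finset.mem_filter, Finset.mem_univ, true_and, hzero]
  have hmod : (∑ χ ∈ S, ((charDegree (χ : G → ℂ) * m χ : ℕ) : ZMod p)) = 0 := by
    rw [← ZMod.natCast_eq_zero_iff, Nat.cast_sum] at hsum
    rw [← hsum]
    refine (Finset.sum_subset (fun χ hχ => ?_) fun χ hχ hχS => ?_)
    · exact Finset.mem_filter.2 ⟨Finset.mem_univ _, (Finset.mem_filter.1 hχ).2.1⟩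
    · simp only [S, Finset.mem_filter, Finset.mem_univ, true_and] at hχ hχS
      rw [ZMod.natCast_eq_zero_iff]
      by_cases hd : p ∣ charDegree (χ : G → ℂ)
      · exact dvd_mul_of_dvd_left hd _
      · have : m χ = 0 := by
          by_contra hne
          exact hχS ⟨hχ, hd, hne⟩
        simp [this]
  rw [hcard]
  refine ⟨?_, fun hp3 => ?_⟩
  · by_contra h
    push Not at h
    obtain ⟨χ, hS⟩ := Finset.card_eq_one.1 (show S.card = 1 by omega)
    rw [hS, Finset.sum_singleton, ZMod.natCast_eq_zero_iff, hp.dvd_mul] at hmod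
    have hmem : χ ∈ S := by rw [hS]; exact Finset.mem_singleton_self χ
    obtain ⟨-, hd, hne⟩ := (Finset.mem_filter.1 hmem).2
    rcases hmod with h' | h'
    · exact hd h'
    · exact hd (by rw [hdeg χ hne]; exact dvd_mul_of_dvd_left h' _)
  · rcases Finset.eq_empty_or_nonempty S with hS | ⟨χ₀, hχ₀⟩
    · simp [hS]
    obtain ⟨-, hd, hne⟩ := (Finset.mem_filter.1 hχ₀).2
    have hc0 : (c : ZMod p) ≠ 0 := by
      rw [Ne, ZMod.natCast_eq_zero_iff]
      exact fun h => hd (by rw [hdeg χ₀ hne]; exact dvd_mul_of_dvd_right h _)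
    rw [Finset.sum_congr rfl (g := fun _ => (c : ZMod p)) fun χ hχ => ?_, Finset.sum_const,
      nsmul_eq_mul, mul_eq_zero] at hmod
    · exact (ZMod.natCast_eq_zero_iff _ _).1 (hmod.resolve_right hc0)
    · obtain ⟨-, hd', hne'⟩ := (Finset.mem_filter.1 hχ).2
      have hm0 : (m χ : ZMod p) ≠ 0 := by
        rw [Ne, ZMod.natCast_eq_zero_iff]
        exact fun h => hd' (by rw [hdeg χ hne']; exact dvd_mul_of_dvd_left h _)
      rw [hdeg χ hne']
      push_cast
      rw [mul_right_comm, ← sq, sq_eq_one_of_le_three hp3 hm0, one_mul]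

end Cfsg.Agent.S4825
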