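import Cfsg.Statements.S4835
import Cfsg.Agent.Lib.TwoClass

set_option autoImplicit false
open Cfsg

namespace Cfsg.Agent.S4835

open Cfsg.Agent.Lib.TwoClass

theorem result {G : Type*} [Group G] [Finite G] (hG : 2 < Nat.card G) (χ : Cfsg.IrrCharacter G) (hχ : Nat.card {C : ConjClasses G // ∃ g ∈ C.carrier, (χ : G → ℂ) g ≠ 0} = 2) :
    ∃ N : Subgroup G, N.Normal ∧ N ≠ ⊥ ∧ (∀ K : Subgroup G, K.Normal → K ≠ ⊥ → N ≤ K) ∧
      (∃ p : ℕ, p.Prime ∧ Cfsg.IsElementaryAbelian p N) ∧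
      (∀ g : G, (χ : G → ℂ) g ≠ 0 ↔ g ∈ N) ∧
      (∀ x ∈ N, ∀ y ∈ N, x ≠ 1 → y ≠ 1 → ∃ g : G, g * x * g⁻¹ = y) := by
  obtain ⟨c, h⟩ := exists_data χ hG hχ
  obtain ⟨p, hp, -, hel⟩ := h.exists_prime
  exact ⟨support h, support_normal h, h.support_ne_bot, fun K hK hK1 => h.support_le hK hK1,
    ⟨p, hp, hel⟩, fun g => Iff.rfl, fun x hx y hy hx1 hy1 =>
      isConj_iff.1 ((h.isConj_of_mem hx hx1).trans (h.isConj_of_mem hy hy1).symm)⟩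

end Cfsg.Agent.S4835
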