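import Cfsg.Statements.S4836
import Cfsg.Agent.Lib.TwoClass

set_option autoImplicit false
open Cfsg

namespace Cfsg.Agent.S4836

open Cfsg.Agent.Lib.TwoClass

theorem result {G : Type*} [Group G] [Finite G] (hG : 2 < Nat.card G) (χ : Cfsg.IrrCharacter G) (hχ : Nat.card {C : ConjClasses G // ∃ g ∈ C.carrier, (χ : G → ℂ) g ≠ 0} = 2) :
    (∀ g : G, (χ : G → ℂ) g = (χ : G → ℂ) 1 → g = 1) ∧
      (∀ ψ : Cfsg.IrrCharacter G, (∀ g : G, (ψ : G → ℂ) g = (ψ : G → ℂ) 1 → g = 1) → ψ = χ) ∧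
      (∀ ψ : Cfsg.IrrCharacter G, Nat.card {C : ConjClasses G // ∃ g ∈ C.carrier, (ψ : G → ℂ) g ≠ 0} = 2 → ψ = χ) := by
  obtain ⟨c, h⟩ := exists_data χ hG hχ
  have huniq : ∀ ψ : IrrCharacter G, (∀ g : G, (ψ : G → ℂ) g = (ψ : G → ℂ) 1 → g = 1) → ψ = χ :=
    fun ψ hψ => by
      by_contra hne
      exact h.ne_one (hψ c (h.apply_eq_one hne))
  refine ⟨fun g hg => h.faithful hg, huniq, fun ψ hψ => ?_⟩
  obtain ⟨c', h'⟩ := exists_data ψ hG hψ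
  exact huniq ψ fun g hg => h'.faithful hg

end Cfsg.Agent.S4836
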