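import Cfsg.Statements.S4837
import Cfsg.Agent.Lib.TwoClass

set_option autoImplicit false
open Cfsg
open scoped ComplexConjugate

namespace Cfsg.Agent.S4837

open Cfsg.Agent.Lib.Char Cfsg.Agent.Lib.CharAux Cfsg.Agent.Lib.CharKernel Cfsg.Agent.Lib.TwoClass

universe u

/-- Irreducible characters of abelian groups have degree one. -/
theorem degree_eq_one {A : Type u} [Group A] [Finite A] (hab : ∀ a b : A, a * b = b * a)
    (μ : IrrCharacter A) : (μ : A → ℂ) 1 = 1 := by
  classical
  have := Fintype.ofFinite A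
  have hcard : Fintype.card (IrrCharacter A) = Fintype.card A := by
    rw [← Nat.card_eq_fintype_card, card_irr_eq_card_conjClasses, ← Nat.card_eq_fintype_card]
    refine (Nat.card_congr (Equiv.ofBijective ConjClasses.mk ⟨fun a b h => ?_,
      ConjClasses.mk_surjective⟩)).symm
    obtain ⟨c, hc⟩ := isConj_iff.1 (ConjClasses.mk_eq_mk_iff_isConj.1 h)
    rw [← hc, hab c a, mul_inv_cancel_right]
  have hsum : (∑ ξ : IrrCharacter A, charDegree (ξ : A → ℂ) ^ 2) =
      ∑ _ξ : IrrCharacter A, 1 := by
    rw [Finset.sum_const, smul_eq_mul, mul_one, Finset.card_univ, hcard]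
    have := sum_degree_sq (G := A)
    simp only [fun ξ : IrrCharacter A => charDegree_eq (isCharacter_of_isIrr ξ.2),
      Nat.card_eq_fintype_card] at this
    exact_mod_cast this
  have h := (Finset.sum_eq_sum_iff_of_le (f := fun _ : IrrCharacter A => 1)
    (g := fun ξ => charDegree (ξ : A → ℂ) ^ 2) (s := Finset.univ)
    fun ξ _ => Nat.one_le_pow _ _ (charDegree_pos ξ.2)).1 hsum.symm μ (Finset.mem_univ μ)
  rw [charDegree_eq (isCharacter_of_isIrr μ.2)]
  have : charDegree (μ : A → ℂ) = 1 := ((pow_eq_one_iff_left two_ne_zero).1 h.symm)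
  simp [this]

theorem result {G : Type*} [Group G] [Finite G] (hG : 2 < Nat.card G) (χ : Cfsg.IrrCharacter G) (hχ : Nat.card {C : ConjClasses G // ∃ g ∈ C.carrier, (χ : G → ℂ) g ≠ 0} = 2) (p : ℕ) [Fact p.Prime] (N : Subgroup G) [N.Normal] (hN : ∀ g : G, g ∈ N ↔ (χ : G → ℂ) g ≠ 0) (hNp : IsPGroup p N) (hN1 : N ≠ ⊥) :
    (∀ x ∈ N, x ≠ 1 → ∃ P : Sylow p G, Subgroup.centralizer ({x} : Set G) = P) ∧
      (∀ μ : Cfsg.IrrCharacter N, (μ : N → ℂ) ≠ (fun _ => (1 : ℂ)) → ∃ P : Sylow p G, ∀ g : G, g ∈ (P : Subgroup G) ↔ ∀ n n' : N, (n' : G) = g * n * g⁻¹ → (μ : N → ℂ) n' = (μ : N → ℂ) n) := by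
  classical
  obtain ⟨c, h⟩ := exists_data χ hG hχ
  have hNs : N = support h := Subgroup.ext fun g => hN g
  subst hNs
  refine ⟨fun x hx hx1 => ?_, fun μ hμ => ?_⟩
  · have h' := h.of_conj (h.isConj_of_mem hx hx1)
    have hp' : IsPGroup p (support h') := hNp
    exact h'.exists_sylow hp'
  have := Fintype.ofFinite G
  have := Fintype.ofFinite (support h)
  obtain ⟨q, -, -, hab, -⟩ := h.exists_prime
  have hμ1 : (μ : support h → ℂ) 1 = 1 := degree_eq_one (fun a b => hab.1.comm a b) μ
  obtain ⟨e, he, hcv, hd, hcard⟩ := h.degree_eq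
  have hμc := isCharacter_of_isIrr μ.2
  -- the inertia group
  let act : G → (support h →* support h) := fun g =>
    { toFun := fun n => ⟨g * n * g⁻¹, (support_normal h).conj_mem _ n.2 g⟩
      map_one' := by apply Subtype.ext; simp
      map_mul' := fun a b => by apply Subtype.ext; simp [mul_assoc] }
  have hact : ∀ a b n, act (a * b) n = act a (act b n) := fun a b n => by
    apply Subtype.ext; simp [act, mul_assoc]
  have hact1 : ∀ n, act 1 n = n := fun n => by apply Subtype.ext; simp [act]
  let S : Subgroup G :=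
    { carrier := {g | ∀ n, (μ : support h → ℂ) (act g n) = (μ : support h → ℂ) n}
      one_mem' := fun n => by rw [hact1]
      mul_mem' := fun {a b} ha hb n => by rw [hact, ha, hb]
      inv_mem' := fun {a} ha n => by
        rw [← ha (act a⁻¹ n), ← hact, mul_inv_cancel, hact1] }
  have hirr : ∀ g, IsIrrCharacter (support h) (fun n => (μ : support h → ℂ) (act g n)) := fun g =>
    isIrrCharacter_comp μ.2 (act g) fun n => ⟨act g⁻¹ n, by rw [← hact, mul_inv_cancel, hact1]⟩
  -- the induced character is a multiple of `χ`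
  set I := indFun (support h) (μ : support h → ℂ) with hI
  have hIc : IsCharacter G I := isCharacter_indFun _ hμc
  have hcoef : ∀ ψ : IrrCharacter G, ψ ≠ χ → classInner I (ψ : G → ℂ) = 0 := by
    intro ψ hψ
    rw [hI, classInner_indFun _ _ (isClassFunction_of_isIrr ψ.2)]
    have hres : (fun n : support h => (ψ : G → ℂ) n) = (ψ : G → ℂ) 1 • fun _ => (1 : ℂ) := by
      funext n; simp [(h.trivialOn_iff ψ).2 hψ n n.2]
    rw [hres, classInner_smul_right, classInner_irr_ne μ.2 isIrrCharacter_one hμ, mul_zero]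
  have hIeq : I = classInner I (χ : G → ℂ) • (χ : G → ℂ) := by
    conv_lhs => rw [eq_sum_classInner_smul (isClassFunction_of_isCharacter hIc)]
    exact Finset.sum_eq_single χ (fun ψ _ hψ => by rw [hcoef ψ hψ, zero_smul]) (by simp)
  have hk : classInner I (χ : G → ℂ) = (e : ℂ) := by
    have h1 := congrFun hIeq 1
    rw [hI, indFun_one, hμ1, mul_one, Pi.smul_apply, smul_eq_mul, ← hI, hd] at h1
    have hidx : ((support h).index : ℂ) = (e : ℂ) ^ 2 * (classSize c : ℂ) := by
      have h2 := (support h).card_mul_index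
      rw [← hcard, h.card_support] at h2
      have h3 : (support h).index = e ^ 2 * classSize c :=
        Nat.eq_of_mul_eq_mul_left (Nat.succ_pos (classSize c)) (by rw [Nat.succ_eq_add_one, h2]; ring)
      rw [h3]; push_cast; rfl
    rw [hidx] at h1
    apply mul_right_cancel₀ (mul_ne_zero (Nat.cast_ne_zero.2 he.ne')
      (Nat.cast_ne_zero.2 (classSize_pos (c := c)).ne') : (e : ℂ) * (classSize c : ℂ) ≠ 0)
    rw [← h1]; ring
  have hleft : classInner (fun n : support h => I n) (μ : support h → ℂ) = (e : ℂ) ^ 2 := by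
    rw [hIeq, hk, show (fun n : support h => ((e : ℂ) • (χ : G → ℂ)) n) =
      (e : ℂ) • fun n : support h => (χ : G → ℂ) n from rfl, classInner_smul_left,
      ← classInner_indFun_right _ _ (isClassFunction_of_isIrr χ.2), ← hI, classInner_conj_symm, hk,
      Complex.conj_natCast, sq]
  have hleft' : classInner (fun n : support h => I n) (μ : support h → ℂ) =
      (Nat.card (support h) : ℂ)⁻¹ * (Nat.card S : ℂ) := by
    have hexp : (fun n : support h => I n) = (Nat.card (support h) : ℂ)⁻¹ •
        ∑ x : G, fun n : support h => (μ : support h → ℂ) (act x⁻¹ n) := by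
      funext n
      simp only [hI, indFun, Pi.smul_apply, Finset.sum_apply, smul_eq_mul]
      congr 1
      refine Finset.sum_congr rfl fun x _ => ?_
      have hmem : x⁻¹ * (n : G) * x ∈ support h := (support_normal h).conj_mem' _ n.2 x
      rw [extendByZero_mem _ _ hmem]
      exact congrArg (μ : support h → ℂ) (Subtype.ext (by simp [act]))
    rw [hexp, classInner_smul_left, classInner_sum_left]
    congr 1
    rw [Finset.sum_congr rfl (g := fun x : G => if x⁻¹ ∈ S then (1 : ℂ) else 0) fun x _ => by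
      rw [classInner_irr (hirr x⁻¹) μ.2]
      congr 1
      exact propext ⟨fun e n => congrFun e n, fun e => funext e⟩]
    rw [Finset.sum_boole]
    congr 1
    rw [Nat.card_eq_fintype_card, Fintype.card_subtype]
    congr 1
    ext x
    simp [inv_mem_iff]
  rw [hleft] at hleft'
  have hS : Nat.card S = e ^ 2 * Nat.card (support h) := by
    have hne : (Nat.card (support h) : ℂ) ≠ 0 := card_ne_zero_complex _
    field_simp at hleft'
    exact_mod_cast hleft'.symm
  have hC : Nat.card S = Nat.card (Subgroup.centralizer ({c} : Set G)) := by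
    have h1 := (Subgroup.centralizer ({c} : Set G)).card_mul_index
    rw [← hcard] at h1
    refine Nat.eq_of_mul_eq_mul_right (classSize_pos (c := c)) ?_
    rw [hS, h.card_support, classSize] at *
    rw [h1]; ring
  obtain ⟨P, hP⟩ := h.exists_sylow hNp
  have hSP : Nat.card S = Nat.card (P : Subgroup G) := by rw [hC, hP]
  have hidx : ¬ p ∣ S.index := by
    have h1 := S.card_mul_index
    have h2 := (P : Subgroup G).card_mul_index
    rw [hSP, ← h2] at h1
    rw [Nat.eq_of_mul_eq_mul_left Nat.card_pos h1]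
    exact P.not_dvd_index
  obtain ⟨m, hm⟩ := P.isPGroup'.exists_card_eq
  refine ⟨(IsPGroup.of_card (hSP.trans hm)).toSylow hidx, fun g => ?_⟩
  show g ∈ S ↔ _
  refine ⟨fun hg n n' e => ?_, fun hg n => hg n _ rfl⟩
  rw [show n' = act g n from Subtype.ext e]
  exact hg n

end Cfsg.Agent.S4837
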