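import Cfsg.Statements.S4838
import Cfsg.Agent.Lib.TwoClass
import Mathlib.GroupTheory.Nilpotent
import Mathlib.Tactic.Group

set_option autoImplicit false
open Cfsg
open scoped commutatorElement

namespace Cfsg.Agent.S4838

open Cfsg.Agent.Lib.Char Cfsg.Agent.Lib.CharAux Cfsg.Agent.Lib.CharKernel Cfsg.Agent.Lib.TwoClass

universe u

variable {G : Type u} [Group G] [Finite G] {χ : IrrCharacter G} {c : G}

/-- Off the support, centralizers do not shrink modulo the support. -/
theorem card_centralizer_eq (h : Data χ c) [(support h).Normal] {x : G} (hx : x ∉ support h) :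
    Nat.card (Subgroup.centralizer ({x} : Set G)) =
      Nat.card (Subgroup.centralizer ({(x : G ⧸ support h)} : Set (G ⧸ support h))) := by
  classical
  have hx0 : (χ : G → ℂ) x = 0 := not_not.1 hx
  have h1 := sum_irr_normSq (G := G) x
  have h2 := sum_irr_normSq (G := G ⧸ support h) (x : G ⧸ support h)
  rw [← Equiv.sum_comp (inflateEquiv (support h)).symm] at h2
  have h3 : ∑ ψ : {ψ : IrrCharacter G // ∀ n ∈ support h, (ψ : G → ℂ) n = (ψ : G → ℂ) 1},
      Complex.normSq ((ψ.1 : G → ℂ) x) =
      (Nat.card (Subgroup.centralizer ({(x : G ⧸ support h)} : Set (G ⧸ support h))) : ℝ) := by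
    rw [← h2]
    refine Finset.sum_congr rfl fun ψ _ => ?_
    rw [← inflateEquiv_apply (support h) ((inflateEquiv (support h)).symm ψ) x, Equiv.apply_symm_apply]
  rw [← Finset.sum_subtype (Finset.univ.filter fun ψ : IrrCharacter G =>
    ∀ n ∈ support h, (ψ : G → ℂ) n = (ψ : G → ℂ) 1) (by simp)
    (fun ψ : IrrCharacter G => Complex.normSq ((ψ : G → ℂ) x))] at h3
  rw [Finset.sum_filter_of_ne fun ψ _ hne => (h.trivialOn_iff ψ).2 fun e => hne (by simp [e, hx0]),
    h1] at h3
  exact_mod_cast h3

theorem dvd_card_quot {p a : ℕ} [Fact p.Prime] (N : Subgroup G) [N.Normal] (P : Sylow p G)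
    (hNP : Nat.card N * a = Nat.card (P : Subgroup G)) {m : ℕ}
    (hm : p ^ m ∣ Nat.card (G ⧸ N)) : p ^ m ∣ a := by
  have h1 : Nat.card N * Nat.card (G ⧸ N) = Nat.card G := by
    rw [Subgroup.card_eq_card_quotient_mul_card_subgroup N, mul_comm]
  have h2 : Nat.card N * (a * (P : Subgroup G).index) = Nat.card G := by
    rw [← mul_assoc, hNP, Subgroup.card_mul_index]
  rw [← h2] at h1
  have h3 := Nat.eq_of_mul_eq_mul_left Nat.card_pos h1
  rw [h3] at hm
  exact (Nat.Coprime.pow_left m ((Fact.out : p.Prime).coprime_iff_not_dvd.2 P.not_dvd_index)).dvd_of_dvd_mul_right hm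

theorem result {G : Type*} [Group G] [Finite G] (hG : 2 < Nat.card G) (χ : Cfsg.IrrCharacter G) (hχ : Nat.card {C : ConjClasses G // ∃ g ∈ C.carrier, (χ : G → ℂ) g ≠ 0} = 2) (p : ℕ) [Fact p.Prime] (N : Subgroup G) [N.Normal] (hN : ∀ g : G, g ∈ N ↔ (χ : G → ℂ) g ≠ 0) (hNp : IsPGroup p N) (hN1 : N ≠ ⊥) (P : Sylow p G) :
    (∀ x : G, x ∉ N → Nat.card (Subgroup.centralizer ({x} : Set G)) = Nat.card (Subgroup.centralizer ({(x : G ⧸ N)} : Set (G ⧸ N)))) ∧
      ((Subgroup.center ↥(P : Subgroup G)).map (P : Subgroup G).subtype ≤ N ∧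
        ((Subgroup.center ↥(P : Subgroup G)).map (P : Subgroup G).subtype = N ↔ (P : Subgroup G).Normal)) ∧
      (∃ i : ℕ, Subgroup.upperCentralSeries ↥(P : Subgroup G) i = N.subgroupOf (P : Subgroup G)) := by
  classical
  obtain ⟨c, h⟩ := exists_data χ hG hχ
  have hNs : N = support h := Subgroup.ext fun g => hN g
  subst hNs
  have hp : p.Prime := Fact.out
  have hNP : support h ≤ (P : Subgroup G) := by
    obtain ⟨Q, hQ⟩ := hNp.exists_le_sylow
    obtain ⟨g, hg⟩ := MulAction.exists_smul_eq G Q P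
    intro x hx
    rw [← hg]
    have hx' : g⁻¹ * x * g ∈ (Q : Subgroup G) := hQ ((support_normal h).conj_mem' _ hx g)
    exact Subgroup.mem_pointwise_smul_iff_inv_smul_mem.2 (by simpa [mul_assoc] using hx')
  obtain ⟨a, ha⟩ := Subgroup.card_dvd_of_le hNP
  obtain ⟨n, hn, hn0⟩ := h.exists_pow_eq hNp
  have ha0 : 0 < a := Nat.pos_of_ne_zero fun e =>
    (Nat.card_pos (α := (P : Subgroup G))).ne' (by rw [ha, e, mul_zero])
  have hN2 : 1 < Nat.card (support h) := by
    rw [h.card_support, hn]; exact Nat.one_lt_pow hn0.ne' hp.one_lt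
  -- a `p`-subgroup centralizing `x ∉ N` is small
  have hsmall : ∀ x : G, x ∉ support h → ∀ K : Subgroup G, IsPGroup p K →
      K ≤ Subgroup.centralizer ({x} : Set G) → Nat.card K ≤ a := by
    intro x hx K hK hKC
    obtain ⟨m, hm⟩ := hK.exists_card_eq
    rw [hm]
    refine Nat.le_of_dvd ha0 (dvd_card_quot (support h) P ha.symm ?_)
    rw [← hm]
    exact (Subgroup.card_dvd_of_le hKC).trans (by
      rw [card_centralizer_eq h hx]; exact Subgroup.card_subgroup_dvd_card _)
  have hcenter : (Subgroup.center ↥(P : Subgroup G)).map (P : Subgroup G).subtype ≤ support h := by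
    rintro _ ⟨z, hz, rfl⟩
    by_contra hzN
    have hle := hsmall _ hzN (P : Subgroup G) P.isPGroup' fun y hy => by
      rw [Subgroup.mem_centralizer_iff]
      intro w hw
      rw [Set.mem_singleton_iff.1 hw]
      exact congrArg Subtype.val (Subgroup.mem_center_iff.1 hz ⟨y, hy⟩).symm
    rw [ha] at hle
    have := Nat.mul_le_mul_right a hN2
    omega
  refine ⟨fun x hx => card_centralizer_eq h hx, ⟨hcenter, ?_, ?_⟩, ?_⟩
  · intro heq
    obtain ⟨Q, hQ⟩ := h.exists_sylow hNp
    have hPC : (P : Subgroup G) ≤ Subgroup.centralizer (support h : Set G) := by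
      intro y hy
      rw [Subgroup.mem_centralizer_iff]
      intro w hw
      rw [SetLike.mem_coe, ← heq] at hw
      obtain ⟨z, hz, rfl⟩ := hw
      exact congrArg Subtype.val (Subgroup.mem_center_iff.1 hz ⟨y, hy⟩).symm
    have hCc : Subgroup.centralizer (support h : Set G) ≤ Subgroup.centralizer ({c} : Set G) :=
      Subgroup.centralizer_le (Set.singleton_subset_iff.2 h.mem_support_self)
    have hQP : (Q : Subgroup G) = P := P.3 Q.isPGroup' (hQ ▸ hPC.trans hCc)
    have : Subgroup.centralizer (support h : Set G) = P :=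
      le_antisymm (by rw [← hQP, ← hQ]; exact hCc) hPC
    rw [← this]
    infer_instance
  · intro hPn
    refine le_antisymm hcenter fun x hx => ?_
    refine ⟨⟨x, hNP hx⟩, Subgroup.mem_center_iff.2 fun y => Subtype.ext ?_, rfl⟩
    by_cases hx1 : x = 1
    · simp [hx1]
    have h' := h.of_conj (h.isConj_of_mem hx hx1)
    have hp' : IsPGroup p (support h') := hNp
    obtain ⟨Q, hQ⟩ := h'.exists_sylow hp'
    obtain ⟨g, hg⟩ := MulAction.exists_smul_eq G P Q
    have hPQ : (Q : Subgroup G) = P := by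
      rw [← hg]
      have := hPn
      rw [Sylow.coe_subgroup_smul, Subgroup.Normal.conj_smul_eq_self]
    have : (y : G) ∈ Subgroup.centralizer ({x} : Set G) := by rw [hQ, hPQ]; exact y.2
    exact (Subgroup.mem_centralizer_iff.1 this x rfl).symm
  · -- the upper central series of `P` passes through `N`
    set N' := (support h).subgroupOf (P : Subgroup G) with hN'
    have hnil : Group.IsNilpotent (P : Subgroup G) := P.isPGroup'.isNilpotent
    by_cases hall : ∀ i, Subgroup.upperCentralSeries ↥(P : Subgroup G) i ≤ N'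
    · refine ⟨Group.nilpotencyClass (P : Subgroup G), le_antisymm (hall _) ?_⟩
      rw [Subgroup.upperCentralSeries_nilpotencyClass]
      exact le_top
    push Not at hall
    let i₀ := Nat.find hall
    have hi₀ : ¬ Subgroup.upperCentralSeries ↥(P : Subgroup G) i₀ ≤ N' := Nat.find_spec hall
    have hi0 : i₀ ≠ 0 := fun e => hi₀ (by rw [e, Subgroup.upperCentralSeries_zero]; exact bot_le)
    obtain ⟨i, hi⟩ := Nat.exists_eq_succ_of_ne_zero hi0
    have hile : Subgroup.upperCentralSeries ↥(P : Subgroup G) i ≤ N' :=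
      not_not.1 (Nat.find_min hall (show i < i₀ by omega))
    refine ⟨i, le_antisymm hile ?_⟩
    by_contra hne
    obtain ⟨z, hz, hzN⟩ := SetLike.not_le_iff_exists.1 hi₀
    rw [hi] at hz
    set Z := Subgroup.upperCentralSeries ↥(P : Subgroup G) i
    have hZlt : Nat.card Z < Nat.card (support h) := by
      rw [← Nat.card_congr (Subgroup.subgroupOfEquivOfLe hNP).toEquiv]
      refine lt_of_le_of_ne (Subgroup.card_le_of_le hile) fun e => hne ?_
      exact (Subgroup.eq_of_le_of_card_ge hile e.ge).ge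
    have hle := hsmall (z : G) hzN ((Subgroup.centralizer ({z} : Set ↥(P : Subgroup G))).map
      (P : Subgroup G).subtype) ((P.isPGroup'.to_subgroup _).map _) (by
        rintro _ ⟨y, hy, rfl⟩
        rw [Subgroup.mem_centralizer_iff]
        intro w hw
        rw [Set.mem_singleton_iff.1 hw]
        exact congrArg Subtype.val (Subgroup.mem_centralizer_iff.1 hy z rfl))
    rw [Subgroup.card_map_of_injective (Subgroup.subtype_injective _)] at hle
    have hidx : (Subgroup.centralizer ({z} : Set ↥(P : Subgroup G))).index ≤ Nat.card Z := by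
      have := Fintype.ofFinite ↥(P : Subgroup G)
      rw [← card_conjClass_eq_index, ← Fintype.card_subtype, ← Nat.card_eq_fintype_card]
      have hmem : ∀ w : {x : ↥(P : Subgroup G) // IsConj x z}, (w : ↥(P : Subgroup G)) * z⁻¹ ∈ Z := by
        rintro ⟨w, hw⟩
        obtain ⟨y, hy⟩ := isConj_iff.1 hw.symm
        subst hy
        rw [Subgroup.mem_upperCentralSeries_succ_iff] at hz
        show y * z * y⁻¹ * z⁻¹ ∈ Z
        rw [show y * z * y⁻¹ * z⁻¹ = ⁅z, y⁆⁻¹ by simp only [commutatorElement_def]; group]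
        exact Z.inv_mem (hz y)
      refine Nat.card_le_card_of_injective (fun w => (⟨_, hmem w⟩ : Z)) fun w₁ w₂ e => ?_
      exact Subtype.ext (mul_right_cancel (congrArg Subtype.val e))
    have hprod := (Subgroup.centralizer ({z} : Set ↥(P : Subgroup G))).card_mul_index
    rw [ha] at hprod
    have h1 : Nat.card (support h) * a ≤ a * Nat.card Z :=
      hprod ▸ Nat.mul_le_mul hle hidx
    rw [mul_comm] at h1
    have := Nat.le_of_mul_le_mul_left h1 ha0
    omega

end Cfsg.Agent.S4838
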