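import Cfsg.Statements.S4839
import Cfsg.Agent.Lib.Char.Clifford
import Cfsg.Agent.Lib.Char.Kernel
import Cfsg.Agent.Lib.Char.Linear
import Cfsg.Agent.Lib.Char.Monomial
import Cfsg.Agent.Lib.CharAux
import Cfsg.Agent.Lib.Hall.Basic
import Cfsg.Agent.Lib.Hall.Frobenius
import Cfsg.Agent.Lib.Involution.BaerSuzuki

set_option autoImplicit false
open Cfsg

namespace Cfsg.Agent.S4839

open Cfsg.Agent.Lib Cfsg.Agent.Lib.Char Module
open scoped ComplexConjugate Pointwise

universe v

theorem degree_one_of_commutative {A : Type v} [Group A] [Finite A]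
    (hc : ∀ a b : A, a * b = b * a) {μ : A → ℂ} (hμ : IsIrrCharacter A μ) : μ 1 = 1 := by
  haveI : IsMulCommutative A := ⟨⟨hc⟩⟩
  obtain ⟨m, τ, hτ, hτ'⟩ := hμ
  rw [← hτ', Representation.char_one,
    Representation.IsIrreducible.finrank_eq_one_of_isMulCommutative τ, Nat.cast_one]

/-- The numerical consequences of the hypothesis. -/
theorem basics {G : Type v} [Group G] [Finite G] (hG : 2 < Nat.card G) {χ : G → ℂ}
    (hχ : IsIrrCharacter G χ)
    (hcls : Nat.card {C : ConjClasses G // ∃ g ∈ C.carrier, χ g ≠ 0} = 2) (p : ℕ) [hp : Fact p.Prime]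
    (N : Subgroup G) [N.Normal] (hN : ∀ g : G, g ∈ N ↔ χ g ≠ 0) (hNp : IsPGroup p N) (hN1 : N ≠ ⊥) :
    ∃ (x : G) (e : ℕ), x ∈ N ∧ x ≠ 1 ∧ 0 < e ∧ 2 < Nat.card N + e ∧
      (∀ m ∈ N, m ≠ 1 → IsConj m x) ∧ (∀ a ∈ N, ∀ b ∈ N, a * b = b * a) ∧ (∀ m ∈ N, m ^ p = 1) ∧
      χ 1 = ((e * (Nat.card N - 1) : ℕ) : ℂ) ∧ (∀ m ∈ N, m ≠ 1 → χ m = -(e : ℂ)) ∧
      Nat.card G = e ^ 2 * Nat.card N * (Nat.card N - 1) ∧
      Nat.card (Subgroup.centralizer ({x} : Set G)) = e ^ 2 * Nat.card N := by
  classical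
  haveI := Fintype.ofFinite G
  obtain ⟨x, hxN, hx1⟩ : ∃ x ∈ N, x ≠ 1 := by
    by_contra h
    push Not at h
    exact hN1 (by rw [Subgroup.eq_bot_iff_forall]; exact h)
  have hne1 : χ 1 ≠ 0 := irr_degree_ne_zero hχ
  have hconj : ∀ m ∈ N, m ≠ 1 → IsConj m x := by
    intro m hm hm1
    have mem : ∀ g ∈ N, ∃ g' ∈ (ConjClasses.mk g).carrier, χ g' ≠ 0 := fun g hg =>
      ⟨g, ConjClasses.mem_carrier_mk, (hN g).1 hg⟩
    let c1 : {C : ConjClasses G // ∃ g ∈ C.carrier, χ g ≠ 0} := ⟨_, mem 1 N.one_mem⟩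
    let cm : {C : ConjClasses G // ∃ g ∈ C.carrier, χ g ≠ 0} := ⟨_, mem m hm⟩
    let cx : {C : ConjClasses G // ∃ g ∈ C.carrier, χ g ≠ 0} := ⟨_, mem x hxN⟩
    obtain ⟨u, v, huv, huniv⟩ := Nat.card_eq_two_iff.1 hcls
    have h' : ∀ c, c = u ∨ c = v := fun c => by
      have := huniv ▸ Set.mem_univ c
      simpa using this
    have h1m : c1 ≠ cm := fun e => hm1 (by
      have := ConjClasses.mk_eq_mk_iff_isConj.1 (congrArg Subtype.val e)
      exact isConj_one_right.1 this)
    have h1x : c1 ≠ cx := fun e => hx1 (by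
      have := ConjClasses.mk_eq_mk_iff_isConj.1 (congrArg Subtype.val e)
      exact isConj_one_right.1 this)
    have hmx : cm = cx := by
      rcases h' c1 with a | a <;> rcases h' cm with b | b <;> rcases h' cx with c | c <;>
        first
          | exact absurd (a.trans b.symm) h1m
          | exact absurd (a.trans c.symm) h1x
          | exact b.trans c.symm
    exact ConjClasses.mk_eq_mk_iff_isConj.1 (congrArg Subtype.val hmx)
  haveI : Nontrivial ↥N := (Subgroup.nontrivial_iff_ne_bot N).2 hN1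
  have hab : ∀ a ∈ N, ∀ b ∈ N, a * b = b * a := by
    haveI := hNp.center_nontrivial
    obtain ⟨⟨z, hz⟩, hz1⟩ := exists_ne (1 : Subgroup.center ↥N)
    have hz1' : (z : G) ≠ 1 := fun e => hz1 (Subtype.ext (Subtype.ext e))
    intro a ha b hb
    by_cases ha1 : a = 1
    · simp [ha1]
    obtain ⟨g, hg⟩ := isConj_iff.1 ((hconj z z.2 hz1').trans (hconj a ha ha1).symm)
    have h1 := congrArg Subtype.val (Subgroup.mem_center_iff.1 hz
      ⟨g⁻¹ * b * g, by simpa using (inferInstance : N.Normal).conj_mem b hb g⁻¹⟩)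
    simp only [Subgroup.coe_mul] at h1
    rw [← hg]
    calc g * (z : G) * g⁻¹ * b = g * ((z : G) * (g⁻¹ * b * g)) * g⁻¹ := by group
      _ = g * ((g⁻¹ * b * g) * (z : G)) * g⁻¹ := by rw [h1]
      _ = b * (g * (z : G) * g⁻¹) := by group
  obtain ⟨j, hj⟩ := IsPGroup.iff_card.1 hNp
  have hpn : p ∣ Nat.card ↥N := by
    rw [hj]
    refine dvd_pow_self p fun h0 => ?_
    have := Finite.one_lt_card (α := ↥N)
    rw [hj, h0] at this
    simp at this
  have hexp : ∀ m ∈ N, m ^ p = 1 := by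
    obtain ⟨z, hz⟩ := exists_prime_orderOf_dvd_card' p hpn
    have hzp : (z : G) ^ p = 1 := by
      rw [← SubgroupClass.coe_pow, ← hz, pow_orderOf_eq_one, Subgroup.coe_one]
    have hz1 : (z : G) ≠ 1 := by
      intro e
      rw [show z = 1 from Subtype.ext e, orderOf_one] at hz
      exact hp.out.one_lt.ne hz
    intro m hm
    by_cases hm1 : m = 1
    · simp [hm1]
    obtain ⟨g, hg⟩ := isConj_iff.1 ((hconj z z.2 hz1).trans (hconj m hm hm1).symm)
    rw [← hg, conj_pow, hzp, mul_one, mul_inv_cancel]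
  -- the class of `x`
  have hclass : (Finset.univ.filter fun g => IsConj g x) = (Finset.univ.filter fun g => g ∈ N).erase 1 := by
    ext g
    simp only [Finset.mem_filter, Finset.mem_univ, true_and, Finset.mem_erase]
    constructor
    · intro h
      refine ⟨fun e => hx1 ?_, ?_⟩
      · subst e; exact isConj_one_right.1 h
      · obtain ⟨c, hc⟩ := isConj_iff.1 h.symm
        rw [← hc]; exact (inferInstance : N.Normal).conj_mem x hxN c
    · rintro ⟨h1, h2⟩; exact hconj g h2 h1
  have hcardN : (Finset.univ.filter fun g => g ∈ N).card = Nat.card ↥N := by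
    rw [Nat.card_eq_fintype_card, ← Fintype.card_subtype]
  set n := Nat.card ↥N with hn
  have hn1 : 1 < n := Finite.one_lt_card
  have hcl : (n - 1) * Nat.card (Subgroup.centralizer ({x} : Set G)) = Nat.card G := by
    rw [← CharAux.card_conj_mul_card_centralizer x, hclass,
      Finset.card_erase_of_mem (by simp), hcardN]
  have hconst : ∀ g ∈ (Finset.univ.filter fun g => g ∈ N).erase 1, χ g = χ x := by
    intro g hg
    rw [Finset.mem_erase, Finset.mem_filter] at hg
    obtain ⟨c, hc⟩ := isConj_iff.1 (hconj g hg.2.2 hg.1)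
    rw [← hc]
    exact (isClassFunction_of_isIrr hχ g c).symm
  have hχne : χ ≠ fun _ => 1 := by
    intro e
    have hall : ∀ g, g ∈ N := fun g => (hN g).2 (by rw [e]; exact one_ne_zero)
    have hnG : n = Nat.card G := by
      rw [hn, show N = ⊤ from eq_top_iff.2 fun g _ => hall g, Subgroup.card_top]
    have h1 : n - 1 ∣ n := ⟨_, (hcl.trans hnG.symm).symm⟩
    have h2 : n - 1 ∣ 1 := by
      have := Nat.dvd_sub h1 (dvd_refl (n - 1))
      rwa [show n - (n - 1) = 1 by omega] at this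
    have := Nat.le_of_dvd one_pos h2
    omega
  obtain ⟨d, hd⟩ := exists_natDegree (isCharacter_of_isIrr hχ)
  have hsum : (d : ℂ) + ((n - 1 : ℕ) : ℂ) * χ x = 0 := by
    have h0 : ∑ g, χ g = 0 := by
      have := classInner_irr_ne hχ isIrrCharacter_one hχne
      simp only [classInner, map_one, mul_one, mul_eq_zero, inv_eq_zero] at this
      exact this.resolve_left (card_ne_zero_complex G)
    rw [← Finset.sum_filter_add_sum_filter_not Finset.univ (fun g => g ∈ N),
      Finset.sum_eq_zero (s := Finset.filter (fun g => ¬ g ∈ N) Finset.univ)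
        (fun g hg => by
          by_contra h
          exact (Finset.mem_filter.1 hg).2 ((hN g).2 h)),
      add_zero, ← Finset.add_sum_erase _ _ (show (1 : G) ∈ Finset.univ.filter fun g => g ∈ N by simp),
      Finset.sum_congr rfl hconst, Finset.sum_const, Finset.card_erase_of_mem (by simp), hcardN,
      nsmul_eq_mul, hd] at h0
    exact h0
  have hn0 : ((n - 1 : ℕ) : ℂ) ≠ 0 := by exact_mod_cast (show n - 1 ≠ 0 by omega)
  have hax : χ x = ((-(d : ℚ) / ((n - 1 : ℕ) : ℚ) : ℚ) : ℂ) := by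
    rw [Rat.cast_div, Rat.cast_neg, Rat.cast_natCast, Rat.cast_natCast, eq_div_iff hn0]
    linear_combination hsum
  obtain ⟨k, hk⟩ : ∃ k : ℤ, χ x = k := by
    have hint := char_isIntegral (isCharacter_of_isIrr hχ) x
    rw [hax, show (((-(d : ℚ) / ((n - 1 : ℕ) : ℚ) : ℚ) : ℂ)) =
      algebraMap ℚ ℂ (-(d : ℚ) / ((n - 1 : ℕ) : ℚ)) from (eq_ratCast _ _).symm,
      isIntegral_algebraMap_iff (algebraMap ℚ ℂ).injective] at hint
    obtain ⟨k, hk⟩ := IsIntegrallyClosed.isIntegral_iff.1 hint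
    refine ⟨k, ?_⟩
    rw [hax, ← hk]
    simp
  have hdk : (d : ℤ) + ((n - 1 : ℕ) : ℤ) * k = 0 := by
    rw [hk] at hsum
    exact_mod_cast hsum
  have hd0 : 0 < d := Nat.pos_of_ne_zero fun h0 => hne1 (by rw [hd, h0, Nat.cast_zero])
  have hkneg : k ≤ 0 := by
    by_contra hlt
    push Not at hlt
    have : (0 : ℤ) < ((n - 1 : ℕ) : ℤ) * k := mul_pos (by omega) hlt
    omega
  set e := (-k).toNat with he
  have hek : (e : ℤ) = -k := Int.toNat_of_nonneg (by omega)
  have hde : d = e * (n - 1) := by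
    have : (d : ℤ) = (e : ℤ) * ((n - 1 : ℕ) : ℤ) := by rw [hek]; linarith
    exact_mod_cast this
  have he0 : 0 < e := Nat.pos_of_ne_zero fun h0 => by rw [h0, zero_mul] at hde; omega
  have hxe : χ x = -(e : ℂ) := by
    rw [hk, show k = -(e : ℤ) by omega]
    simp
  have hcardG : Nat.card G = e ^ 2 * n * (n - 1) := by
    have h := CharAux.sum_normSq_irr hχ
    rw [← Finset.sum_filter_add_sum_filter_not Finset.univ (fun g => g ∈ N),
      Finset.sum_eq_zero (s := Finset.filter (fun g => ¬ g ∈ N) Finset.univ)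
        (fun g hg => by
          rw [Complex.normSq_eq_zero]
          by_contra h
          exact (Finset.mem_filter.1 hg).2 ((hN g).2 h)),
      add_zero, ← Finset.add_sum_erase _ _ (show (1 : G) ∈ Finset.univ.filter fun g => g ∈ N by simp),
      Finset.sum_congr rfl (g := fun _ => Complex.normSq (χ x)) (fun g hg => by rw [hconst g hg]),
      Finset.sum_const, Finset.card_erase_of_mem (by simp), hcardN, nsmul_eq_mul, hd, hxe,
      Complex.normSq_neg, Complex.normSq_natCast, Complex.normSq_natCast] at h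
    have h' : d * d + (n - 1) * (e * e) = Nat.card G := by exact_mod_cast h
    rw [← h', hde]
    obtain ⟨i, hi⟩ : ∃ i, n = i + 1 := ⟨n - 1, by omega⟩
    rw [hi, Nat.add_sub_cancel]
    ring
  refine ⟨x, e, hxN, hx1, he0, by omega, hconj, hab, hexp, by rw [hd, hde], ?_, hcardG, ?_⟩
  · intro m hm hm1
    rw [hconst m (by simp [hm, hm1]), hxe]
  · refine Nat.eq_of_mul_eq_mul_left (show 0 < n - 1 by omega) ?_
    rw [hcl, hcardG, mul_comm]

/-- A degree bound for constituents. -/
theorem deg_le {G : Type v} [Group G] [Finite G] [Fintype G] {φ : G → ℂ} (hφ : IsCharacter G φ)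
    {χ : G → ℂ} (hχ : IsIrrCharacter G χ) (hne : classInner φ χ ≠ 0) {a b : ℕ} (ha : χ 1 = a)
    (hb : φ 1 = b) : a ≤ b := by
  classical
  choose m hm using fun ψ : IrrCharacter G => classInner_natCast hφ (isCharacter_of_isIrr ψ.2)
  choose d hd using fun ψ : IrrCharacter G => exists_natDegree (isCharacter_of_isIrr ψ.2)
  have h := congrFun (eq_sum_classInner_smul (isClassFunction_of_isCharacter hφ)) 1
  simp only [Finset.sum_apply, Pi.smul_apply, smul_eq_mul, hm, hd, hb] at h
  have h' : b = ∑ ψ : IrrCharacter G, m ψ * d ψ := by exact_mod_cast h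
  set c : IrrCharacter G := ⟨χ, hχ⟩ with hc
  have hmc : m c ≠ 0 := fun h0 => hne (by rw [show classInner φ χ = (m c : ℂ) from hm c, h0, Nat.cast_zero])
  have hdc : d c = a := by
    have := hd c
    rw [show ((c : G → ℂ)) 1 = χ 1 from rfl, ha] at this
    exact_mod_cast this.symm
  rw [h', ← hdc]
  exact (Nat.le_mul_of_pos_left _ (Nat.pos_of_ne_zero hmc)).trans
    (Finset.single_le_sum (fun ψ _ => Nat.zero_le (m ψ * d ψ)) (Finset.mem_univ c))

theorem theta_exists {G : Type v} [Group G] [Finite G] [Fintype G] {χ : G → ℂ} (hχ : IsIrrCharacter G χ)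
    (N : Subgroup G) [N.Normal] [Fintype ↥N] (hNc : ∀ a ∈ N, ∀ b ∈ N, a * b = b * a) {e : ℕ}
    (he : 0 < e) (hn : 1 < Nat.card N) (hd : χ 1 = ((e * (Nat.card N - 1) : ℕ) : ℂ))
    (hval : ∀ m ∈ N, m ≠ 1 → χ m = -(e : ℂ))
    (hcard : Nat.card G = e ^ 2 * Nat.card N * (Nat.card N - 1)) :
    ∃ (l : ↥N →* ℂˣ) (T : Subgroup G) (k : ℕ) (ρ : Representation ℂ ↥T (Fin k → ℂ)),
      ρ.IsIrreducible ∧ N ≤ T ∧ Nat.card ↥T = e ^ 2 * Nat.card N ∧ k = e ∧
      (∀ t : G, t ∈ T → ∀ m : ↥N,
        l ⟨t * m * t⁻¹, (inferInstance : N.Normal).conj_mem m m.2 t⟩ = l m) ∧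
      (∃ m : ↥N, l m ≠ 1) ∧
      (∀ (m : ↥N) (hm : (m : G) ∈ T), ρ ⟨m, hm⟩ = (l m : ℂ) • 1) ∧
      ∀ u : ↥T, (u : G) ∉ N → ρ.character u = 0 := by
  classical
  set n := Nat.card ↥N with hndef
  have hcN : ∀ a b : ↥N, a * b = b * a := fun a b => Subtype.ext (hNc a a.2 b b.2)
  obtain ⟨θ0, hθ0⟩ := exists_constituent (isCharacter_restrict (isCharacter_of_isIrr hχ) N) (fun h => by
    have := congrFun h (1 : ↥N)
    exact irr_degree_ne_zero hχ (by simpa using this))
  obtain ⟨lam, hlam, hne⟩ : ∃ lam : ↥N → ℂ, IsIrrCharacter ↥N lam ∧ classInner (fun a : N => χ a) lam ≠ 0 :=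
    ⟨θ0.1, θ0.2, hθ0⟩
  have hl1 : lam 1 = 1 := degree_one_of_commutative hcN hlam
  have hsplit : ∀ f : ↥N → ℂ, ∑ a : ↥N, χ a * conj (f a) =
      ((e * n : ℕ) : ℂ) * conj (f 1) - (e : ℂ) * ∑ a : ↥N, conj (f a) := by
    intro f
    rw [← Finset.add_sum_erase _ _ (Finset.mem_univ (1 : ↥N)),
      ← Finset.add_sum_erase Finset.univ (fun a : ↥N => conj (f a)) (Finset.mem_univ (1 : ↥N)),
      Finset.sum_congr rfl (g := fun a : ↥N => -(e : ℂ) * conj (f a)) (fun a ha => by
        rw [hval a a.2 (fun h => (Finset.mem_erase.1 ha).1 (Subtype.ext h))]),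
      ← Finset.mul_sum, Subgroup.coe_one, hd]
    push_cast [Nat.cast_sub hn.le]
    ring
  have hlne : lam ≠ fun _ => 1 := by
    intro h
    apply hne
    show (Nat.card ↥N : ℂ)⁻¹ * _ = 0
    rw [hsplit, h]
    simp only [map_one, Finset.sum_const, Finset.card_univ, nsmul_eq_mul, mul_one,
      ← Nat.card_eq_fintype_card, ← hndef]
    push_cast
    ring
  have hmult : classInner (fun a : N => χ a) lam = (e : ℂ) := by
    have h0 : ∑ a : ↥N, conj (lam a) = 0 := by
      have := classInner_irr_ne isIrrCharacter_one hlam (Ne.symm hlne)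
      simp only [classInner, one_mul, mul_eq_zero, inv_eq_zero] at this
      exact this.resolve_left (card_ne_zero_complex _)
    show (Nat.card ↥N : ℂ)⁻¹ * _ = _
    rw [hsplit, h0, hl1, map_one, mul_zero, sub_zero, mul_one, ← hndef]
    have : (n : ℂ) ≠ 0 := by exact_mod_cast (show n ≠ 0 by omega)
    push_cast
    field_simp
  set T := inertia N lam with hTdef
  have hNT : N ≤ T := le_inertia N (isClassFunction_of_isIrr hlam)
  have hidx : T.index = n - 1 := by
    have h := clifford_degree N hχ hlam hne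
    rw [hmult, hl1, mul_one, hd, ← hTdef, Nat.cast_mul] at h
    exact_mod_cast (mul_left_cancel₀ (by exact_mod_cast he.ne' : (e : ℂ) ≠ 0) h).symm
  have hTcard : Nat.card ↥T = e ^ 2 * n := by
    have h := T.card_mul_index
    rw [hidx, hcard] at h
    exact Nat.eq_of_mul_eq_mul_right (show 0 < n - 1 by omega) h
  -- a constituent on `T`
  set φ : ↥T → ℂ := fun u => χ u with hφ
  have hφc : IsCharacter ↥T φ := isCharacter_restrict (isCharacter_of_isIrr hχ) T
  obtain ⟨θ, hθ, hθl⟩ : ∃ θ : IrrCharacter ↥T, classInner φ θ ≠ 0 ∧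
      classInner (fun a : N => (θ : ↥T → ℂ) ⟨a, hNT a.2⟩) lam ≠ 0 := by
    by_contra hc
    push Not at hc
    apply hne
    have h : (fun a : N => χ a) = ∑ θ : IrrCharacter ↥T, classInner φ θ •
        (fun a : N => (θ : ↥T → ℂ) ⟨a, hNT a.2⟩) := by
      funext a
      have := congrFun (eq_sum_classInner_smul (isClassFunction_of_isCharacter hφc)) ⟨a, hNT a.2⟩
      simpa [Finset.sum_apply, hφ] using this
    rw [h, classInner_sum_left]
    refine Finset.sum_eq_zero fun θ _ => ?_
    rw [classInner_smul_left]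
    by_cases h0 : classInner φ θ = 0
    · rw [h0, zero_mul]
    · rw [hc θ h0, mul_zero]
  obtain ⟨k, hk⟩ := exists_natDegree (isCharacter_of_isIrr θ.2)
  have hek : e ≤ k := by
    have hne' : classInner (indFun T (θ : ↥T → ℂ)) χ ≠ 0 := by
      rw [classInner_conj_symm, classInner_indFun_right T _ (isClassFunction_of_isIrr hχ)]
      simpa using hθ
    have h := deg_le (isCharacter_indFun T (isCharacter_of_isIrr θ.2)) hχ hne' hd (b := (n - 1) * k) (by
      rw [indFun_one, hidx, hk, Nat.cast_mul])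
    rw [mul_comm (n - 1) k] at h
    exact Nat.le_of_mul_le_mul_right h (by omega)
  -- restriction to `N`
  set N' := N.subgroupOf T with hN'
  haveI : N'.Normal := inferInstance
  set eqv : ↥N' ≃* ↥N := Subgroup.subgroupOfEquivOfLe hNT with heqv
  set lam' : ↥N' → ℂ := lam ∘ eqv.toMonoidHom with hlam'
  have hlam'i : IsIrrCharacter ↥N' lam' := isIrrCharacter_comp hlam _ eqv.surjective
  have hne'' : classInner (fun a : N' => (θ : ↥T → ℂ) a) lam' ≠ 0 := by
    intro h0
    apply hθl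
    rw [← h0]
    simp only [classInner]
    rw [Nat.card_congr eqv.toEquiv]
    congr 1
    refine (Fintype.sum_equiv eqv.toEquiv _ _ fun a => ?_).symm
    rfl
  have hinv : ∀ g : ↥T, conjChar N' g lam' = lam' := by
    intro g
    funext a
    have h := congrFun ((mem_inertia N).1 g.2) (eqv a)
    rw [conjChar_apply] at h ⊢
    exact h
  obtain ⟨m, hm⟩ := classInner_natCast (isCharacter_restrict (isCharacter_of_isIrr θ.2) N')
    (isCharacter_of_isIrr hlam'i)
  have horb : orbit N' lam' = {lam'} := by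
    ext ψ
    rw [mem_orbit, Finset.mem_singleton]
    exact ⟨fun ⟨g, hg⟩ => hg ▸ hinv g, fun h => ⟨1, h ▸ hinv 1⟩⟩
  have hcl : ∀ (a : G) (ha : a ∈ N), (θ : ↥T → ℂ) ⟨a, hNT ha⟩ = (k : ℂ) * lam ⟨a, ha⟩ := by
    have h := clifford N' θ.2 hlam'i hne''
    rw [horb, Finset.sum_singleton, hm] at h
    have h1 := congrFun h 1
    simp only [Pi.smul_apply, smul_eq_mul, Subgroup.coe_one] at h1
    rw [hk, show lam' 1 = 1 by simp [hlam', hl1], mul_one] at h1
    intro a ha
    have h2 := congrFun h ⟨⟨a, hNT ha⟩, ha⟩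
    simp only [Pi.smul_apply, smul_eq_mul, ← h1] at h2
    rw [h2]
    rfl
  obtain ⟨l, hl⟩ := exists_hom_of_degree_one (isCharacter_of_isIrr hlam) hl1
  have hnl : ∀ a, ‖(l a : ℂ)‖ = 1 := by
    intro a
    refine norm_eq_one_of_pow_orderOf (g := a) ?_
    rw [← Units.val_pow_eq_pow_val, ← map_pow, pow_orderOf_eq_one, map_one, Units.val_one]
  -- norm equality
  have hnorm := CharAux.sum_normSq_irr θ.2
  rw [← Finset.sum_filter_add_sum_filter_not Finset.univ (fun u : ↥T => (u : G) ∈ N)] at hnorm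
  have hin : ∑ u ∈ Finset.univ.filter (fun u : ↥T => (u : G) ∈ N), Complex.normSq ((θ : ↥T → ℂ) u) =
      (n : ℝ) * (k : ℝ) ^ 2 := by
    rw [Finset.sum_congr rfl (g := fun _ => (k : ℝ) ^ 2) fun u hu => by
      obtain ⟨u, huT⟩ := u
      rw [hcl u (Finset.mem_filter.1 hu).2, map_mul, Complex.normSq_natCast, hl,
        Complex.normSq_eq_norm_sq, hnl]
      ring, Finset.sum_const, nsmul_eq_mul]
    congr 2
    rw [hndef, ← Nat.card_congr eqv.toEquiv, Nat.card_eq_fintype_card, ← Fintype.card_subtype]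
    exact Fintype.card_congr (Equiv.refl _)
  rw [hin, hTcard] at hnorm
  push_cast at hnorm
  have hnn : 0 ≤ ∑ u ∈ Finset.univ.filter (fun u : ↥T => ¬ (u : G) ∈ N), Complex.normSq ((θ : ↥T → ℂ) u) :=
    Finset.sum_nonneg fun u _ => Complex.normSq_nonneg _
  have hek2 : (e : ℝ) ^ 2 ≤ (k : ℝ) ^ 2 := by
    have : (e : ℝ) ≤ k := by exact_mod_cast hek
    have : (0 : ℝ) ≤ e := Nat.cast_nonneg e
    nlinarith
  have hnpos : (0 : ℝ) < n := by exact_mod_cast (show 0 < n by omega)
  have hke : k = e := by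
    have h1 : (k : ℝ) ^ 2 = (e : ℝ) ^ 2 := by nlinarith
    exact Nat.pow_left_injective two_ne_zero (by exact_mod_cast h1)
  have hoff : ∀ u : ↥T, (u : G) ∉ N → (θ : ↥T → ℂ) u = 0 := by
    have h0 : ∑ u ∈ Finset.univ.filter (fun u : ↥T => ¬ (u : G) ∈ N), Complex.normSq ((θ : ↥T → ℂ) u) = 0 := by
      rw [hke] at hnorm
      linarith
    intro u hu
    exact Complex.normSq_eq_zero.1 ((Finset.sum_eq_zero_iff_of_nonneg
      (fun u _ => Complex.normSq_nonneg _)).1 h0 u (by simp [hu]))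
  obtain ⟨k', ρ, hρ, hρc⟩ := θ.2
  have hk' : k' = k := by
    have h := hk
    rw [← hρc, Representation.char_one, Module.finrank_fin_fun] at h
    exact_mod_cast h
  subst hk'
  refine ⟨l, T, k', ρ, hρ, hNT, hTcard, hke, ?_, ?_, ?_, fun u hu => by rw [hρc]; exact hoff u hu⟩
  · intro t ht m
    apply Units.ext
    have h := congrFun ((mem_inertia N).1 ht) m
    rw [conjChar_apply, hl, hl] at h
    exact h
  · by_contra hc
    push Not at hc
    exact hlne (funext fun a => by rw [hl, hc a, Units.val_one])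
  · intro a ha
    have hk0 : (k' : ℂ) ≠ 0 := by exact_mod_cast (show k' ≠ 0 by omega)
    have hc : ρ.character ⟨a, ha⟩ = (k' : ℂ) * (l a : ℂ) := by
      rw [hρc, hcl a a.2, hl]
    rw [apply_eq_smul_of_norm_eq ρ ⟨a, ha⟩ (by
      rw [hc, norm_mul, Complex.norm_natCast, hnl, mul_one, Module.finrank_fin_fun]), hc,
      Module.finrank_fin_fun, mul_div_cancel_left₀ _ hk0]

/-- An involutory operator inverting a fixed-point-free one of odd order acts freely. -/
theorem free_act {A : Type*} [CommGroup A] (h2 : ∀ a : A, a ^ 2 = 1) (η τ : A →* A) {r : ℕ}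
    (hr : Odd r) (hη : ∀ a, η^[r] a = a) (hfix : ∀ a, η a = a → a = 1)
    (hcomp : ∀ i, i ≤ r → ∀ a, τ (η^[i] a) = η^[r - i] (τ a)) {m : A} (hm : τ m = m) :
    ∃ u, u * τ u = m := by
  obtain ⟨s, rfl⟩ := hr
  refine ⟨∏ i ∈ Finset.range s, η^[i + 1] m, ?_⟩
  have hP : ∏ i ∈ Finset.range (2 * s + 1), η^[i] m = 1 := by
    apply hfix
    have h1 := Finset.prod_range_succ' (fun i => η^[i] m) (2 * s + 1)
    have h2' := Finset.prod_range_succ (fun i => η^[i] m) (2 * s + 1)
    rw [h2', hη, Function.iterate_zero, id_eq] at h1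
    rw [map_prod]
    calc ∏ i ∈ Finset.range (2 * s + 1), η (η^[i] m)
        = ∏ i ∈ Finset.range (2 * s + 1), η^[i + 1] m :=
          Finset.prod_congr rfl fun i _ => (Function.iterate_succ_apply' _ _ _).symm
      _ = ∏ i ∈ Finset.range (2 * s + 1), η^[i] m := (mul_right_cancel h1).symm
  rw [Finset.prod_range_succ', Function.iterate_zero, id_eq, two_mul, Finset.prod_range_add] at hP
  rw [map_prod]
  have hτ : ∏ i ∈ Finset.range s, τ (η^[i + 1] m) = ∏ i ∈ Finset.range s, η^[s + i + 1] m := by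
    rw [← Finset.prod_range_reflect (fun i => η^[s + i + 1] m) s]
    refine Finset.prod_congr rfl fun i hi => ?_
    have := Finset.mem_range.1 hi
    rw [hcomp (i + 1) (by omega), hm]
    congr 2
    omega
  rw [hτ]
  have hmm : m * m = 1 := by rw [← pow_two]; exact h2 m
  calc (∏ i ∈ Finset.range s, η^[i + 1] m) * ∏ i ∈ Finset.range s, η^[s + i + 1] m
      = ((∏ i ∈ Finset.range s, η^[i + 1] m) * ∏ i ∈ Finset.range s, η^[s + i + 1] m) * m * m := by
        rw [mul_assoc _ m m, hmm, mul_one]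
    _ = m := by rw [hP, one_mul]

/-- The key step: `N = O_p(G)` forces `e = 1`. -/
theorem e_eq_one {G : Type v} [Group G] [Finite G] [Fintype G] {p : ℕ} [hp : Fact p.Prime]
    (N : Subgroup G) [N.Normal] [Fintype ↥N] (hNc : ∀ a ∈ N, ∀ b ∈ N, a * b = b * a)
    (hexp : ∀ m ∈ N, m ^ p = 1) (hcore : ∀ K : Subgroup G, K.Normal → IsPGroup p ↥K → K ≤ N)
    {x : G} (hxN : x ∈ N) (hconj : ∀ m ∈ N, m ≠ 1 → IsConj m x) {e : ℕ} (he : 0 < e)
    (hn : 1 < Nat.card N) (hNp : IsPGroup p N)
    (hcard : Nat.card G = e ^ 2 * Nat.card N * (Nat.card N - 1))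
    (hC : Nat.card (Subgroup.centralizer ({x} : Set G)) = e ^ 2 * Nat.card N)
    (l : ↥N →* ℂˣ) (T : Subgroup G) {k : ℕ} (ρ : Representation ℂ ↥T (Fin k → ℂ))
    [ρ.IsIrreducible] (hNT : N ≤ T) (hT : Nat.card ↥T = e ^ 2 * Nat.card N) (hk : k = e)
    (hlinv : ∀ t : G, t ∈ T → ∀ m : ↥N,
        l ⟨t * m * t⁻¹, (inferInstance : N.Normal).conj_mem m m.2 t⟩ = l m)
    (hscal : ∀ (m : ↥N) (hm : (m : G) ∈ T), ρ ⟨m, hm⟩ = (l m : ℂ) • 1)
    (hoff : ∀ u : ↥T, (u : G) ∉ N → ρ.character u = 0) :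
    e = 1 ∧ ∀ y : G, y ≠ 1 → ¬ p ∣ orderOf y → ∀ m ∈ N, y * m = m * y → m = 1 := by
  classical
  set n := Nat.card ↥N with hndef
  obtain ⟨a, ha'⟩ := IsPGroup.iff_card.1 hNp
  have ha : n = p ^ a := ha'
  have hepow : ∃ b, e = p ^ b := by
    refine ⟨_, Nat.eq_prime_pow_of_unique_prime_dvd he.ne' fun {q} hq hqe => ?_⟩
    by_contra hqp
    haveI : Fact q.Prime := ⟨hq⟩
    obtain ⟨Q⟩ : Nonempty (Sylow q ↥T) := inferInstance
    have hz : ∀ u ∈ (Finset.univ : Finset ↥(Q : Subgroup ↥T)), u ≠ 1 → ρ.character (u : ↥T) = 0 := by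
      intro u _ hu
      refine hoff _ fun huN => hu ?_
      obtain ⟨i, hi⟩ := Q.2 u
      obtain ⟨j, hj⟩ := hNp ⟨_, huN⟩
      have h1 : ((u : ↥T) : G) ^ q ^ i = 1 := by
        have := congrArg (fun w : ↥(Q : Subgroup ↥T) => ((w : ↥T) : G)) hi
        simpa using this
      have h2 : ((u : ↥T) : G) ^ p ^ j = 1 := by
        have := congrArg Subtype.val hj
        simpa using this
      have h3 := Nat.dvd_gcd (orderOf_dvd_of_pow_eq_one h1) (orderOf_dvd_of_pow_eq_one h2)
      rw [(((Nat.coprime_primes hq hp.out).2 hqp).pow i j).gcd_eq_one, Nat.dvd_one,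
        orderOf_eq_one_iff] at h3
      exact Subtype.ext (Subtype.ext h3)
    obtain ⟨c, hc⟩ := classInner_natCast
      (isCharacter_restrict (isCharacter_character ρ) (Q : Subgroup ↥T)) isCharacter_one
    simp only [classInner, map_one, mul_one] at hc
    rw [Finset.sum_eq_single (1 : ↥(Q : Subgroup ↥T)) hz (fun h => absurd (Finset.mem_univ _) h),
      Subgroup.coe_one, Representation.char_one, Module.finrank_fin_fun,
      inv_mul_eq_iff_eq_mul₀ (card_ne_zero_complex _)] at hc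
    have hdvd : Nat.card ↥(Q : Subgroup ↥T) ∣ e := ⟨c, by rw [← hk]; exact_mod_cast hc⟩
    rw [Sylow.card_eq_multiplicity, hT] at hdvd
    have h2 : (e ^ 2 * n).factorization q = 2 * e.factorization q := by
      rw [Nat.factorization_mul (pow_ne_zero 2 he.ne') (by omega), Finsupp.add_apply,
        Nat.factorization_pow, Finsupp.smul_apply, smul_eq_mul, ha, hp.out.factorization_pow,
        Finsupp.single_apply, if_neg (Ne.symm hqp), add_zero]
    rw [h2] at hdvd
    have h3 := (hq.pow_dvd_iff_le_factorization he.ne').1 hdvd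
    have h4 := hq.factorization_pos_of_dvd he.ne' hqe
    omega
  obtain ⟨b, hb⟩ := hepow
  have hTp : IsPGroup p ↥T := IsPGroup.of_card (n := 2 * b + a) (by rw [hT, hb, ha, pow_add]; ring)
  have hCp : IsPGroup p ↥(Subgroup.centralizer ({x} : Set G)) :=
    IsPGroup.of_card (n := 2 * b + a) (by rw [hC, hb, ha, pow_add]; ring)
  have hCN : Subgroup.centralizer (N : Set G) ≤ N := by
    refine hcore _ inferInstance (hCp.to_le fun g hg => ?_)
    rw [Subgroup.mem_centralizer_singleton_iff]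
    exact (Subgroup.mem_centralizer_iff.1 hg x hxN).symm
  have hfix : ∀ y : G, y ≠ 1 → ¬ p ∣ orderOf y → ∀ m ∈ N, y * m = m * y → m = 1 := by
    intro y hy1 hy m hm hym
    by_contra hm1
    obtain ⟨g, hg⟩ := isConj_iff.1 (hconj m hm hm1)
    have hmem : g * y * g⁻¹ ∈ Subgroup.centralizer ({x} : Set G) := by
      rw [Subgroup.mem_centralizer_singleton_iff, ← hg]
      calc g * y * g⁻¹ * (g * m * g⁻¹) = g * (y * m) * g⁻¹ := by group
        _ = g * (m * y) * g⁻¹ := by rw [hym]
        _ = g * m * g⁻¹ * (g * y * g⁻¹) := by group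
    obtain ⟨i, hi⟩ := hCp ⟨_, hmem⟩
    have h1 : (g * y * g⁻¹) ^ p ^ i = 1 := by simpa using congrArg Subtype.val hi
    rw [conj_pow, conj_eq_one_iff] at h1
    obtain ⟨i', -, hi'⟩ := (Nat.dvd_prime_pow hp.out).1 (orderOf_dvd_of_pow_eq_one h1)
    rcases Nat.eq_zero_or_pos i' with rfl | hpos
    · exact hy1 (orderOf_eq_one_iff.1 (by simpa using hi'))
    · exact hy (hi' ▸ dvd_pow_self p hpos.ne')
  refine ⟨?_, hfix⟩
  by_contra he1
  -- a central element of `T/N`
  set N' := N.subgroupOf T with hN'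
  haveI : Nontrivial (↥T ⧸ N') := by
    rw [QuotientGroup.nontrivial_iff]
    intro htop
    rw [hN', Subgroup.subgroupOf_eq_top] at htop
    have h0 : T = N := le_antisymm htop hNT
    rw [h0, ← hndef] at hT
    have : e ^ 2 = 1 := Nat.eq_of_mul_eq_mul_right (show 0 < n by omega) (by rw [← hT, one_mul])
    exact he1 (Nat.pow_left_injective two_ne_zero (by simpa using this))
  obtain ⟨t, htN, htc, htp⟩ : ∃ t : ↥T, (t : G) ∉ N ∧ (∀ u : ↥T, (t * u * t⁻¹ * u⁻¹ : G) ∈ N) ∧
      (t : G) ^ p ∈ N := by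
    have hqp : IsPGroup p (↥T ⧸ N') := hTp.to_quotient N'
    haveI := hqp.center_nontrivial
    have hd : p ∣ Nat.card ↥(Subgroup.center (↥T ⧸ N')) := by
      obtain ⟨i, hi⟩ := IsPGroup.iff_card.1 (hqp.to_subgroup (Subgroup.center (↥T ⧸ N')))
      rw [hi]
      refine dvd_pow_self p fun h0 => ?_
      have := Finite.one_lt_card (α := ↥(Subgroup.center (↥T ⧸ N')))
      rw [hi, h0] at this
      simp at this
    obtain ⟨⟨c, hcz⟩, hc⟩ := exists_prime_orderOf_dvd_card' p hd
    obtain ⟨t, rfl⟩ := QuotientGroup.mk_surjective c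
    replace hc : orderOf (QuotientGroup.mk t : ↥T ⧸ N') = p := (Subgroup.orderOf_coe _).trans hc
    refine ⟨t, fun h => ?_, fun u => ?_, ?_⟩
    · rw [show (QuotientGroup.mk t : ↥T ⧸ N') = 1 from (QuotientGroup.eq_one_iff t).2 h, orderOf_one] at hc
      exact hp.out.one_lt.ne hc
    · have h1 := Subgroup.mem_center_iff.1 hcz (QuotientGroup.mk u)
      have : t * u * t⁻¹ * u⁻¹ ∈ N' := by
        rw [← QuotientGroup.eq_one_iff]
        simp only [QuotientGroup.mk_mul, QuotientGroup.mk_inv]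
        rw [← h1]
        group
      exact this
    · have : t ^ p ∈ N' := by
        rw [← QuotientGroup.eq_one_iff, QuotientGroup.mk_pow, ← hc, pow_orderOf_eq_one]
      exact this
  -- it suffices that some element outside `N` commutes with everything in the representation
  suffices hgoal : ∃ t' : ↥T, (t' : G) ∉ N ∧ ∀ u : ↥T, ρ t' * ρ u = ρ u * ρ t' by
    obtain ⟨t', ht', hcomm⟩ := hgoal
    obtain ⟨c, hc⟩ := exists_scalar_of_commute_all ρ hcomm
    have h1 := norm_character_of_eq_smul ρ t' hc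
    rw [hoff t' ht', norm_zero, Module.finrank_fin_fun, hk] at h1
    exact he.ne' (by exact_mod_cast h1.symm)
  have hscal' : ∀ (m : G) (hmN : m ∈ N) (u : ↥T),
      ρ ⟨m, hNT hmN⟩ * ρ u = ρ u * ρ ⟨m, hNT hmN⟩ := by
    intro m hmN u
    rw [hscal ⟨m, hmN⟩ (hNT hmN), smul_mul_assoc, mul_smul_comm, one_mul, mul_one]
  rcases hp.out.eq_two_or_odd' with rfl | hpodd
  · -- characteristic two
    set π := QuotientGroup.mk' N with hπ
    have hker : ∀ g : G, π g = 1 ↔ g ∈ N := fun g => QuotientGroup.eq_one_iff g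
    set tb := π (t : G) with htb
    have htb2 : tb * tb = 1 := by
      rw [htb, ← map_mul, hker]
      rw [← pow_two]
      exact htp
    obtain ⟨g, hg⟩ : ∃ g, ¬ IsPGroup 2 ↥(Subgroup.zpowers tb ⊔
        (Subgroup.zpowers tb).map (MulAut.conj g).toMonoidHom) := by
      by_contra h
      push Not at h
      obtain ⟨M, hMn, hMp, hMle⟩ := Cfsg.Agent.Lib.Involution.baerSuzuki (Subgroup.zpowers tb) h
      haveI := hMn
      apply htN
      refine hcore (M.comap π) inferInstance ?_ ?_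
      · refine hMp.comap_of_ker_isPGroup π ?_
        rw [hπ, QuotientGroup.ker_mk']
        exact hNp
      · exact hMle (Subgroup.mem_zpowers tb)
    set sb := g * tb * g⁻¹ with hsb
    have hsb2 : sb * sb = 1 := by
      rw [hsb]
      calc g * tb * g⁻¹ * (g * tb * g⁻¹) = g * (tb * tb) * g⁻¹ := by group
        _ = 1 := by rw [htb2]; group
    set w := tb * sb with hw
    have hinvw : tb * w * tb⁻¹ = w⁻¹ := by
      have e1 : tb⁻¹ = tb := inv_eq_of_mul_eq_one_right htb2
      have e2 : sb⁻¹ = sb := inv_eq_of_mul_eq_one_right hsb2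
      rw [hw, mul_inv_rev, e1, e2]
      calc tb * (tb * sb) * tb = (tb * tb) * sb * tb := by group
        _ = sb * tb := by rw [htb2, one_mul]
    obtain ⟨h, r, hr, hhr, hh1, hinv⟩ : ∃ (h : G) (r : ℕ), Odd r ∧ h ^ r = 1 ∧ π h ≠ 1 ∧
        tb * π h * tb⁻¹ = (π h)⁻¹ := by
      set r := ordCompl[2] (orderOf w) with hrdef
      have hr1 : r ≠ 1 := by
        intro h1
        apply hg
        have hwp : IsPGroup 2 ↥(Subgroup.zpowers w) := by
          refine IsPGroup.of_card (n := (orderOf w).factorization 2) ?_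
          rw [Nat.card_zpowers]
          conv_lhs => rw [← Nat.ordProj_mul_ordCompl_eq_self (orderOf w) 2, ← hrdef, h1, mul_one]
        have htp' : IsPGroup 2 ↥(Subgroup.zpowers tb) := by
          obtain ⟨i, -, hi⟩ := (Nat.dvd_prime_pow Nat.prime_two).1
            (orderOf_dvd_of_pow_eq_one (show tb ^ 2 ^ 1 = 1 by rw [pow_one, pow_two, htb2]))
          exact IsPGroup.of_card (n := i) (by rw [Nat.card_zpowers, hi])
        have hnorm : Subgroup.zpowers tb ≤ Subgroup.normalizer (Subgroup.zpowers w : Set (G ⧸ N)) := by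
          rw [Subgroup.zpowers_le, Subgroup.mem_normalizer_iff]
          intro v
          constructor
          · rintro ⟨i, rfl⟩
            exact ⟨-i, by simp only [← conj_zpow, hinvw, inv_zpow, zpow_neg]⟩
          · rintro ⟨i, hi⟩
            refine ⟨-i, ?_⟩
            simp only at hi ⊢
            have e : v = tb⁻¹ * w ^ i * tb := by rw [hi]; group
            rw [e, zpow_neg, ← inv_zpow, ← hinvw, conj_zpow,
              inv_eq_of_mul_eq_one_right htb2]
        refine (htp'.to_sup_of_normal_right' hwp hnorm).to_le (sup_le le_sup_left ?_)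
        rw [MonoidHom.map_zpowers, Subgroup.zpowers_le]
        show g * tb * g⁻¹ ∈ _
        have e : g * tb * g⁻¹ = tb⁻¹ * w := by rw [hw, ← hsb]; group
        rw [e]
        exact mul_mem (inv_mem (le_sup_left (a := Subgroup.zpowers tb) (Subgroup.mem_zpowers tb)))
          (le_sup_right (b := Subgroup.zpowers w) (Subgroup.mem_zpowers w))
      have hrodd : Odd r := by
        rw [← Nat.not_even_iff_odd, even_iff_two_dvd]
        exact Nat.not_dvd_ordCompl Nat.prime_two (orderOf_pos w).ne'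
      set v := w ^ (2 ^ (orderOf w).factorization 2) with hv
      have hvr : v ^ r = 1 := by
        rw [hv, ← pow_mul, hrdef, Nat.ordProj_mul_ordCompl_eq_self, pow_orderOf_eq_one]
      have hv1 : v ≠ 1 := by
        intro h0
        have := orderOf_dvd_of_pow_eq_one (hv ▸ h0)
        apply hr1
        have h2 : 2 ^ (orderOf w).factorization 2 * r ∣ 2 ^ (orderOf w).factorization 2 * 1 := by
          rw [hrdef, Nat.ordProj_mul_ordCompl_eq_self, mul_one]
          exact this
        exact Nat.dvd_one.1 (Nat.dvd_of_mul_dvd_mul_left (by positivity) h2)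
      obtain ⟨h0, hh0⟩ := QuotientGroup.mk'_surjective N v
      refine ⟨h0 ^ n, r, hrodd, ?_, ?_, ?_⟩
      · rw [← pow_mul, mul_comm, pow_mul]
        have hm : h0 ^ r ∈ N := by rw [← hker, map_pow, hh0, hvr]
        have := congrArg Subtype.val (pow_card_eq_one' (x := (⟨_, hm⟩ : ↥N)))
        rwa [SubgroupClass.coe_pow, Subgroup.coe_one, ← hndef] at this
      · rw [map_pow, hh0]
        intro hvn
        apply hv1
        have hc : Nat.Coprime n r := by
          rw [ha]
          exact Nat.Coprime.pow_left _ (Nat.coprime_two_left.2 hrodd)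
        exact orderOf_eq_one_iff.1 (Nat.eq_one_of_dvd_coprimes hc
          (orderOf_dvd_of_pow_eq_one hvn) (orderOf_dvd_of_pow_eq_one hvr))
      · rw [map_pow, hh0, hv, ← pow_mul, ← conj_pow, hinvw, inv_pow]
    letI : CommGroup ↥N := { (inferInstance : Group ↥N) with mul_comm := fun a b => Subtype.ext (hNc a a.2 b b.2) }
    set η : ↥N →* ↥N := (MulAut.conjNormal h).toMonoidHom with hη
    set τ : ↥N →* ↥N := (MulAut.conjNormal (t : G)).toMonoidHom with hτ
    have hηi : ∀ (i : ℕ) (m : ↥N), ((η^[i] m : ↥N) : G) = h ^ i * m * (h ^ i)⁻¹ := by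
      intro i m
      induction i with
      | zero => simp
      | succ i ih =>
        rw [Function.iterate_succ_apply']
        simp only [hη, MulEquiv.coe_toMonoidHom, MulAut.conjNormal_apply]
        rw [hη] at ih
        simp only [MulEquiv.coe_toMonoidHom] at ih
        rw [ih, pow_succ' h]
        group
    have hτv : ∀ m : ↥N, ((τ m : ↥N) : G) = (t : G) * m * (t : G)⁻¹ := fun m => by simp [hτ]
    have hcomp : ∀ i, i ≤ r → ∀ a : ↥N, τ (η^[i] a) = η^[r - i] (τ a) := by
      intro i hi a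
      apply Subtype.ext
      rw [hτv, hηi, hηi, hτv]
      have hc : (t : G) * h ^ i * (t : G)⁻¹ * (h ^ (r - i))⁻¹ ∈ N := by
        rw [← hker]
        simp only [map_mul, map_inv, map_pow]
        rw [← conj_pow, ← htb, hinv, inv_pow]
        have : π h ^ i * π h ^ (r - i) = 1 := by
          rw [← pow_add, Nat.add_sub_cancel' hi, ← map_pow, hhr, map_one]
        rw [← inv_eq_of_mul_eq_one_right this]
        group
      have hmem : h ^ (r - i) * ((t : G) * a * (t : G)⁻¹) * (h ^ (r - i))⁻¹ ∈ N :=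
        (inferInstance : N.Normal).conj_mem _ ((inferInstance : N.Normal).conj_mem _ a.2 _) _
      have h5 := hNc _ hc _ hmem
      calc (t : G) * (h ^ i * a * (h ^ i)⁻¹) * (t : G)⁻¹
          = ((t : G) * h ^ i * (t : G)⁻¹ * (h ^ (r - i))⁻¹) *
              (h ^ (r - i) * ((t : G) * a * (t : G)⁻¹) * (h ^ (r - i))⁻¹) *
              ((t : G) * h ^ i * (t : G)⁻¹ * (h ^ (r - i))⁻¹)⁻¹ := by group
        _ = h ^ (r - i) * ((t : G) * a * (t : G)⁻¹) * (h ^ (r - i))⁻¹ := by
              rw [h5, mul_inv_cancel_right]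
    have hh1' : h ≠ 1 := fun h0 => hh1 (by rw [h0, map_one])
    have hhord : ¬ 2 ∣ orderOf h := fun hd => by
      have := hd.trans (orderOf_dvd_of_pow_eq_one hhr)
      exact (Nat.not_even_iff_odd.2 hr) (even_iff_two_dvd.2 this)
    have hfree : ∀ m : ↥N, τ m = m → ∃ u : ↥N, u * τ u = m := fun m hm =>
      free_act (fun a => Subtype.ext (by simpa using hexp a a.2)) η τ hr
        (fun a => Subtype.ext (by rw [hηi, hhr]; simp))
        (fun a ha => Subtype.ext (hfix h hh1' hhord a a.2 (by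
          have := congrArg Subtype.val ha
          simp only [hη, MulEquiv.coe_toMonoidHom, MulAut.conjNormal_apply] at this
          exact mul_inv_eq_iff_eq_mul.1 this)))
        hcomp hm
    obtain ⟨u0, hu0⟩ := hfree ⟨(t : G) ^ 2, htp⟩ (Subtype.ext (by
      rw [hτv]; show (t : G) * (t : G) ^ 2 * (t : G)⁻¹ = (t : G) ^ 2; group))
    have hu0' : (u0 : G) * ((t : G) * u0 * (t : G)⁻¹) = (t : G) ^ 2 := by
      have := congrArg Subtype.val hu0
      rwa [Subgroup.coe_mul, hτv] at this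
    set t' : ↥T := (⟨(u0 : G), hNT u0.2⟩ : ↥T)⁻¹ * t with ht'
    have ht'v : (t' : G) = (u0 : G)⁻¹ * (t : G) := rfl
    have ht'2 : (t' : G) * (t' : G) = 1 := by
      have hinvu : (u0 : G)⁻¹ = (u0 : G) := inv_eq_of_mul_eq_one_right (by rw [← pow_two]; exact hexp _ u0.2)
      rw [ht'v]
      calc (u0 : G)⁻¹ * (t : G) * ((u0 : G)⁻¹ * (t : G))
          = (u0 : G)⁻¹ * ((t : G) * (u0 : G)⁻¹ * (t : G)⁻¹) * (t : G) ^ 2 := by group
        _ = (u0 : G)⁻¹ * ((t : G) * (u0 : G)⁻¹ * (t : G)⁻¹) *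
              ((u0 : G) * ((t : G) * (u0 : G) * (t : G)⁻¹)) := by rw [hu0']
        _ = (u0 : G)⁻¹ * (((t : G) * (u0 : G)⁻¹ * (t : G)⁻¹) * (u0 : G)) *
              ((t : G) * (u0 : G) * (t : G)⁻¹) := by group
        _ = (u0 : G)⁻¹ * ((u0 : G) * ((t : G) * (u0 : G)⁻¹ * (t : G)⁻¹)) *
              ((t : G) * (u0 : G) * (t : G)⁻¹) := by
              rw [hNc _ ((inferInstance : N.Normal).conj_mem _ (N.inv_mem u0.2) _) _ u0.2]
        _ = 1 := by group
    have ht'N : (t' : G) ∉ N := fun h0 => htN (by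
      have := N.mul_mem u0.2 h0
      rwa [ht'v, mul_inv_cancel_left] at this)
    refine ⟨t', ht'N, fun u => ?_⟩
    set z : G := (t' : G) * u * (t' : G)⁻¹ * (u : G)⁻¹ with hz
    have hzN : z ∈ N := by
      rw [← hker, hz, ht'v]
      have h1 := (hker _).2 (htc u)
      simp only [map_mul, map_inv, (hker _).2 u0.2, inv_one, one_mul] at h1 ⊢
      exact h1
    have hτz : τ ⟨z, hzN⟩ = ⟨z, hzN⟩ := by
      apply Subtype.ext
      rw [hτv]
      show (t : G) * z * (t : G)⁻¹ = z
      have h1 : (t : G) * z * (t : G)⁻¹ = (t' : G) * z * (t' : G)⁻¹ := by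
        have := hNc _ u0.2 _ ((inferInstance : N.Normal).conj_mem _ hzN (t' : G))
        calc (t : G) * z * (t : G)⁻¹ = (u0 : G) * ((t' : G) * z * (t' : G)⁻¹) * (u0 : G)⁻¹ := by
              rw [ht'v]; group
          _ = _ := by rw [this, mul_inv_cancel_right]
      have hi : (t' : G)⁻¹ = (t' : G) := inv_eq_of_mul_eq_one_right ht'2
      have hz2 : z⁻¹ = z := inv_eq_of_mul_eq_one_right (by rw [← pow_two]; exact hexp _ hzN)
      rw [h1]
      calc (t' : G) * z * (t' : G)⁻¹
          = ((t' : G) * (t' : G)) * u * (t' : G)⁻¹ * (u : G)⁻¹ * (t' : G)⁻¹ := by rw [hz]; group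
        _ = (u : G) * (t' : G)⁻¹ * (u : G)⁻¹ * (t' : G)⁻¹ := by rw [ht'2, one_mul]
        _ = z⁻¹ := by rw [hz]; simp only [hi, mul_inv_rev, inv_inv]; group
        _ = z := hz2
    obtain ⟨s, hs⟩ := hfree ⟨z, hzN⟩ hτz
    have hl1 : l ⟨z, hzN⟩ = 1 := by
      have hτl : l (τ s) = l s := by
        rw [← hlinv t t.2 s]
        congr 1
      rw [← hs, map_mul, hτl, ← map_mul, show s * s = 1 from
        Subtype.ext (by rw [← pow_two]; exact hexp _ s.2), map_one]
    have hρz : ρ (t' * u * t'⁻¹ * u⁻¹) = 1 := by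
      have e : t' * u * t'⁻¹ * u⁻¹ = (⟨z, hNT hzN⟩ : ↥T) := rfl
      rw [e, hscal ⟨z, hzN⟩ (hNT hzN), hl1, Units.val_one, one_smul]
    calc ρ t' * ρ u = ρ (t' * u) := (map_mul ρ _ _).symm
      _ = ρ ((t' * u * t'⁻¹ * u⁻¹) * (u * t')) := by congr 1; group
      _ = ρ u * ρ t' := by rw [map_mul, hρz, one_mul, map_mul]
  · -- odd characteristic
    have hp2 : p ≠ 2 := fun h => by rw [h] at hpodd; exact (Nat.not_odd_iff_even.2 even_two) hpodd
    have hnodd : Odd n := by rw [ha]; exact hpodd.pow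
    have h2G : 2 ∣ Nat.card G := by
      rw [hcard]
      exact dvd_mul_of_dvd_right (by obtain ⟨i, hi⟩ := hnodd; exact ⟨i, by omega⟩) _
    obtain ⟨y, hy⟩ := exists_prime_orderOf_dvd_card' 2 h2G
    have hy1 : y ≠ 1 := fun h0 => by rw [h0, orderOf_one] at hy; omega
    have hyp : ¬ p ∣ orderOf y := by
      rw [hy]
      exact fun hd => hp2 ((Nat.prime_dvd_prime_iff_eq hp.out Nat.prime_two).1 hd)
    have hy2 : y * y = 1 := by rw [← pow_two, ← hy, pow_orderOf_eq_one]
    have hyinv : y⁻¹ = y := inv_eq_of_mul_eq_one_right hy2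
    have hinv : ∀ m ∈ N, y * m * y⁻¹ = m⁻¹ := by
      intro m hm
      have hm' := (inferInstance : N.Normal).conj_mem m hm y
      refine eq_inv_of_mul_eq_one_left (hfix y hy1 hyp _ (N.mul_mem hm' hm) ?_)
      calc y * (y * m * y⁻¹ * m) = (y * y) * m * (y⁻¹ * (y⁻¹)⁻¹) * (y⁻¹ * m) := by group
        _ = m * (y * m * y⁻¹) * y := by rw [hy2, hyinv]; simp [mul_assoc, hy2]
        _ = y * m * y⁻¹ * m * y := by rw [hNc m hm _ hm']
    have hdec : ∀ u : G, ∃ s ∈ N, s⁻¹ * u * y = y * (s⁻¹ * u) := by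
      intro u
      have hkN : u * y * u⁻¹ * y⁻¹ ∈ N := by
        refine hCN (Subgroup.mem_centralizer_iff.2 fun m hm => ?_)
        have h1 := hinv m hm
        have hm' := (inferInstance : N.Normal).conj_mem m hm u⁻¹
        rw [inv_inv] at hm'
        have h2 := hinv _ hm'
        have h3 : (u * y * u⁻¹ * y⁻¹) * m * (u * y * u⁻¹ * y⁻¹)⁻¹ = m := by
          calc (u * y * u⁻¹ * y⁻¹) * m * (u * y * u⁻¹ * y⁻¹)⁻¹
              = u * (y * (u⁻¹ * (y⁻¹ * m * y) * u) * y⁻¹) * u⁻¹ := by group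
            _ = u * (y * (u⁻¹ * m⁻¹ * u) * y⁻¹) * u⁻¹ := by
                  rw [show y⁻¹ * m * y = m⁻¹ from by rw [← h1, hyinv]]
            _ = u * (y * (u⁻¹ * m * u) * y⁻¹)⁻¹ * u⁻¹ := by group
            _ = m := by rw [h2]; group
        exact (mul_inv_eq_iff_eq_mul.1 h3).symm
      set k0 := u * y * u⁻¹ * y⁻¹ with hk0
      obtain ⟨i, hi⟩ := hpodd
      refine ⟨k0 ^ (i + 1), N.pow_mem hkN _, ?_⟩
      set s := k0 ^ (i + 1) with hs
      have hk : k0 = s * s := by
        rw [hs, ← pow_add, show i + 1 + (i + 1) = p + 1 by omega, pow_succ, hexp _ hkN, one_mul]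
      have h1 : y * s⁻¹ = s * y := by
        have h := hinv s⁻¹ (N.inv_mem (N.pow_mem hkN _))
        rw [inv_inv, mul_inv_eq_iff_eq_mul] at h
        exact h
      have h2 : u * y = k0 * (y * u) := by rw [hk0]; group
      calc s⁻¹ * u * y = s⁻¹ * (u * y) := mul_assoc _ _ _
        _ = (s * y) * u := by rw [h2, hk]; group
        _ = y * (s⁻¹ * u) := by rw [← h1]; group
    obtain ⟨s, hs, hsy⟩ := hdec t
    set t' : ↥T := (⟨s, hNT hs⟩ : ↥T)⁻¹ * t with ht'
    have ht'v : (t' : G) = s⁻¹ * (t : G) := rfl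
    have ht'N : (t' : G) ∉ N := fun h0 => htN (by
      have := N.mul_mem hs h0
      rwa [ht'v, mul_inv_cancel_left] at this)
    refine ⟨t', ht'N, fun u => ?_⟩
    obtain ⟨s', hs', hsy'⟩ := hdec u
    set u' : ↥T := (⟨s', hNT hs'⟩ : ↥T)⁻¹ * u with hu'
    have hcomm : t' * u' = u' * t' := by
      apply Subtype.ext
      simp only [Subgroup.coe_mul]
      set A' := (t' : G)
      set B' := (u' : G)
      have hA : Commute A' y := hsy
      have hB : Commute B' y := hsy'
      have hzc : Commute (A' * B' * A'⁻¹ * B'⁻¹) y :=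
        ((hA.mul_left hB).mul_left hA.inv_left).mul_left hB.inv_left
      have hzN : A' * B' * A'⁻¹ * B'⁻¹ ∈ N := by
        rw [← QuotientGroup.eq_one_iff]
        have h1 := (QuotientGroup.eq_one_iff _).2 (htc u)
        simp only [QuotientGroup.mk_mul, QuotientGroup.mk_inv] at h1 ⊢
        have e1 : (QuotientGroup.mk A' : G ⧸ N) = QuotientGroup.mk (t : G) := by
          rw [show A' = s⁻¹ * (t : G) from rfl, QuotientGroup.mk_mul, QuotientGroup.mk_inv,
            (QuotientGroup.eq_one_iff s).2 hs, inv_one, one_mul]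
        have e2 : (QuotientGroup.mk B' : G ⧸ N) = QuotientGroup.mk (u : G) := by
          rw [show B' = s'⁻¹ * (u : G) from rfl, QuotientGroup.mk_mul, QuotientGroup.mk_inv,
            (QuotientGroup.eq_one_iff s').2 hs', inv_one, one_mul]
        rw [e1, e2]
        exact h1
      have := hfix y hy1 hyp _ hzN hzc.symm.eq
      exact mul_inv_eq_iff_eq_mul.1 (mul_inv_eq_one.1 this)
    have hu : u = (⟨s', hNT hs'⟩ : ↥T) * u' := by rw [hu', mul_inv_cancel_left]
    rw [hu]
    clear_value t' u'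
    rw [map_mul, ← mul_assoc, ← hscal' s' hs' t', mul_assoc, ← map_mul ρ t' u', hcomm,
      map_mul ρ u' t', ← mul_assoc]

/-- Let G be a finite group of order greater than 2 with an irreducible character χ nonzero on exactly two conjugacy classes, and let N be the normal p-subgroup of elements where χ is nonzero. Then N is the whole p-core O_p(G) if and only if G is a doubly transitive Frobenius group with kernel N: G has a Frobenius complement H whose Frobenius kernel is N and whose order is one less than that of N. -/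
theorem result {G : Type*} [Group G] [Finite G] (hG : 2 < Nat.card G) (χ : Cfsg.IrrCharacter G) (hχ : Nat.card {C : ConjClasses G // ∃ g ∈ C.carrier, (χ : G → ℂ) g ≠ 0} = 2) (p : ℕ) [Fact p.Prime] (N : Subgroup G) [N.Normal] (hN : ∀ g : G, g ∈ N ↔ (χ : G → ℂ) g ≠ 0) (hNp : IsPGroup p N) (hN1 : N ≠ ⊥) :
    N = Cfsg.pCore p G ↔ ∃ H : Subgroup G, Cfsg.IsFrobeniusComplement H ∧ Cfsg.frobeniusKernel H = (N : Set G) ∧ Nat.card H + 1 = Nat.card N := by
  classical
  haveI := Fintype.ofFinite G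
  obtain ⟨x, e, hxN, hx1, he, hne, hconj, hab, hexp, hd, hval, hcard, hC⟩ :=
    basics hG χ.2 hχ p N hN hNp hN1
  haveI : Nontrivial ↥N := (Subgroup.nontrivial_iff_ne_bot N).2 hN1
  have hn1 : 1 < Nat.card ↥N := Finite.one_lt_card
  obtain ⟨a, ha⟩ := IsPGroup.iff_card.1 hNp
  have hcop : Nat.Coprime p (Nat.card ↥N - 1) := by
    rw [(Fact.out : p.Prime).coprime_iff_not_dvd]
    intro hd'
    have h1 : p ∣ Nat.card ↥N := by
      rw [ha]
      refine dvd_pow_self p ?_
      rintro rfl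
      rw [pow_zero] at ha
      omega
    have := Nat.dvd_sub h1 hd'
    rw [show Nat.card ↥N - (Nat.card ↥N - 1) = 1 by omega] at this
    exact (Fact.out : p.Prime).not_dvd_one this
  constructor
  · intro hNO
    obtain ⟨l, T, k, ρ, hρ, hNT, hT, hk, hlinv, -, hscal, hoff⟩ :=
      theta_exists χ.2 N hab he hn1 hd hval hcard
    haveI := hρ
    obtain ⟨he1, hfix⟩ := e_eq_one N hab hexp
      (fun K hK hKp => by haveI := hK; rw [hNO]; exact Hall.le_pCore hKp)
      hxN hconj he hn1 hNp hcard hC l T ρ hNT hT hk hlinv hscal hoff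
    subst he1
    rw [one_pow, one_mul] at hcard
    have hidx : N.index = Nat.card ↥N - 1 :=
      Nat.eq_of_mul_eq_mul_left (show 0 < Nat.card ↥N by omega) (by rw [Subgroup.card_mul_index, hcard])
    obtain ⟨H, hH⟩ := Subgroup.exists_right_complement'_of_coprime (N := N) (by
      rw [hidx, ha]
      exact Nat.Coprime.pow_left _ (ha ▸ hcop))
    have hHc : Nat.card ↥H = Nat.card ↥N - 1 := by
      have := hH.card_mul
      rw [hcard] at this
      exact Nat.eq_of_mul_eq_mul_left (show 0 < Nat.card ↥N by omega) this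
    have hHp : ∀ h ∈ H, ¬ p ∣ orderOf h := by
      intro h hh hd'
      have h1 : p ∣ Nat.card ↥H := hd'.trans (by
        have := orderOf_dvd_natCard (⟨h, hh⟩ : ↥H)
        rwa [Subgroup.orderOf_mk] at this)
      rw [hHc] at h1
      exact (Fact.out : p.Prime).not_dvd_one (hcop ▸ Nat.dvd_gcd dvd_rfl h1)
    have hmem : ∀ g : G, ∃ m ∈ N, ∃ h ∈ H, g = m * h := fun g => by
      obtain ⟨⟨m, h⟩, e, -⟩ := hH.existsUnique g
      exact ⟨m, m.2, h, h.2, e.symm⟩
    have hdisj : ∀ h ∈ H, h ∈ N → h = 1 := fun h hh hh' =>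
      (Subgroup.eq_bot_iff_forall _).1 (disjoint_iff.1 hH.disjoint) h ⟨hh', hh⟩
    have hF : Cfsg.IsFrobeniusComplement H := by
      refine ⟨fun hb => ?_, fun ht => ?_, fun g hg => ?_⟩
      · rw [hb, Subgroup.card_bot] at hHc
        have : Nat.card ↥N = 2 := by omega
        rw [this] at hcard
        omega
      · exact hx1 (hdisj x (ht ▸ Subgroup.mem_top x) hxN)
      rw [Subgroup.eq_bot_iff_forall]
      rintro h ⟨hh, hh'⟩
      by_contra hh1
      replace hh' : h ∈ MulAut.conj g • H := hh'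
      rw [Subgroup.mem_pointwise_smul_iff_inv_smul_mem] at hh'
      obtain ⟨m, hm, h0, hh0, rfl⟩ := hmem g
      have hk' : m⁻¹ * h * m ∈ H := by
        simp only [MulAut.smul_def, MulAut.conj_inv_apply] at hh'
        have := H.mul_mem (H.mul_mem hh0 hh') (H.inv_mem hh0)
        simpa [mul_assoc] using this
      have hdiff : h⁻¹ * (m⁻¹ * h * m) ∈ N := by
        have := N.mul_mem ((inferInstance : N.Normal).conj_mem _ (N.inv_mem hm) h⁻¹) hm
        simpa [mul_assoc] using this
      have h1 := hdisj _ (H.mul_mem (H.inv_mem hh) hk') hdiff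
      have hcm : h * m = m * h := by
        rw [inv_mul_eq_one] at h1
        calc h * m = m * (m⁻¹ * h * m) := by group
          _ = m * h := by rw [← h1]
      have hm1 := hfix h hh1 (hHp h hh) m hm hcm
      rw [hm1, one_mul] at hg
      exact hg hh0
    refine ⟨H, hF, ?_, by omega⟩
    refine (Set.eq_of_subset_of_ncard_le (fun g hg => ?_) ?_ (Set.toFinite _)).symm
    · by_cases hg1 : g = 1
      · exact Or.inl hg1
      refine Or.inr fun c hc => hg1 ?_
      rw [Subgroup.mem_pointwise_smul_iff_inv_smul_mem, MulAut.smul_def, MulAut.conj_inv_apply] at hc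
      have h1 := hdisj _ hc (by simpa using (inferInstance : N.Normal).conj_mem g hg c⁻¹)
      have h2 : g = c * (c⁻¹ * g * c) * c⁻¹ := by group
      rw [h2, h1]
      group
    · rw [← Nat.card_coe_set_eq, Hall.card_frobeniusKernel hF, ← Nat.card_coe_set_eq]
      refine le_of_eq ?_
      have := hH.card_mul
      rw [← H.card_mul_index, mul_comm] at this
      exact (Nat.eq_of_mul_eq_mul_left (Nat.card_pos) this).symm
  · rintro ⟨H, hF, hker, hHc⟩
    have hidx : H.index = Nat.card ↥N := by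
      rw [← Hall.card_frobeniusKernel hF, hker]
      exact Nat.card_congr (Equiv.refl _)
    have hGc : Nat.card G = (Nat.card ↥N - 1) * Nat.card ↥N := by
      rw [← H.card_mul_index, hidx, show Nat.card ↥H = Nat.card ↥N - 1 by omega]
    haveI : (Cfsg.pCore p G).Normal := Hall.pCore_normal p
    have hle : N ≤ Cfsg.pCore p G := Hall.le_pCore hNp
    obtain ⟨c, hc⟩ := IsPGroup.iff_card.1 (Hall.isPGroup_pCore (G := G) p)
    refine Subgroup.eq_of_le_of_card_ge hle (Nat.le_of_dvd Nat.card_pos ?_)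
    have hd' : Nat.card ↥(Cfsg.pCore p G) ∣ (Nat.card ↥N - 1) * Nat.card ↥N :=
      hGc ▸ Subgroup.card_subgroup_dvd_card _
    exact (Nat.Coprime.dvd_of_dvd_mul_left (hc ▸ hcop.pow_left c) hd')

end Cfsg.Agent.S4839
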