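import Mathlib
import Cfsg.Statements.S4840
import Cfsg.Agent.Lib.Hall.Solvable
import Cfsg.Agent.Lib.Char.Clifford
import Cfsg.Agent.Lib.Char.Kernel
import Cfsg.Agent.Lib.Char.Degree
import Cfsg.Agent.Lib.UniqueInvolution
import Cfsg.Agent.Lib.FPF.Key
import Cfsg.Agent.Lib.Zsigmondy
import Cfsg.Prelude.Def_Transfer

set_option autoImplicit false

open scoped commutatorElement Pointwise

namespace Cfsg.Agent.S4840

open Subgroup
open scoped ComplexConjugate ComplexOrder

universe u

section chars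
variable {G : Type u} [Group G] [Finite G]

open Lib.Char in
theorem mem_of_minimal (χ : IrrCharacter G) {c : G}
    (hsupp : ∀ x, (χ : G → ℂ) x ≠ 0 ↔ x = 1 ∨ IsConj c x) (M : Subgroup G) [M.Normal] (hM : M ≠ ⊥) :
    c ∈ M := by
  classical
  haveI := Fintype.ofFinite G
  haveI := Fintype.ofFinite M
  by_contra hc
  have hf : ∀ m : M, m ≠ 1 → (χ : G → ℂ) m = 0 := fun m hm => by
    by_contra h
    rcases (hsupp _).mp h with h1 | h1
    · exact hm (Subtype.ext h1)
    · obtain ⟨g, hg⟩ := isConj_iff.mp h1.symm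
      exact hc (hg ▸ (inferInstance : M.Normal).conj_mem _ m.2 g)
  have h1 : classInner (fun m : M => (χ : G → ℂ) m) (fun _ => (1 : ℂ)) ≠ 0 := by
    rw [classInner, Finset.sum_eq_single (1 : M)]
    · simp only [map_one, mul_one, OneMemClass.coe_one]
      exact mul_ne_zero (inv_ne_zero (card_ne_zero_complex M)) (irr_degree_ne_zero χ.2)
    · intro b _ hb; rw [hf b hb, zero_mul]
    · simp
  obtain ⟨m, hm⟩ := (M.bot_or_exists_ne_one.resolve_left hM)
  have e := clifford M χ.2 (isIrrCharacter_one (G := M)) h1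
  have horb : orbit M (fun _ : M => (1 : ℂ)) = {fun _ : M => (1 : ℂ)} := by
    ext ψ
    rw [mem_orbit, Finset.mem_singleton]
    exact ⟨fun ⟨g, hg⟩ => hg.symm, fun h => ⟨1, by rw [h]; rfl⟩⟩
  rw [horb, Finset.sum_singleton] at e
  have e1 := congrFun e ⟨m, hm.1⟩
  have e2 := congrFun e 1
  simp only [Pi.smul_apply, smul_eq_mul] at e1 e2
  exact irr_degree_ne_zero χ.2 (by
    rw [show (χ : G → ℂ) 1 = (χ : G → ℂ) m from e2.trans e1.symm]
    exact hf ⟨m, hm.1⟩ fun h => hm.2 (congrArg Subtype.val h))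

open Lib.Char in
/-- The nonidentity elements of a minimal normal subgroup form one class. -/
theorem isConj_of_mem (χ : IrrCharacter G) {c : G} (hc1 : c ≠ 1)
    (hsupp : ∀ x, (χ : G → ℂ) x ≠ 0 ↔ x = 1 ∨ IsConj c x) (hne : (χ : G → ℂ) ≠ fun _ => 1)
    (M : Subgroup G) [M.Normal] (hM : M ≠ ⊥)
    (hmin : ∀ K : Subgroup G, K.Normal → K ≤ M → K = ⊥ ∨ K = M) {x : G} (hx : x ∈ M) (hx1 : x ≠ 1) :
    IsConj c x := by
  classical
  haveI := Fintype.ofFinite G
  haveI := Fintype.ofFinite M
  have hcM := mem_of_minimal χ hsupp M hM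
  have hout : ∀ g : G, g ∉ M → (χ : G → ℂ) g = 0 := fun g hg => by
    by_contra h
    rcases (hsupp g).mp h with h1 | h1
    · exact hg (h1 ▸ one_mem _)
    · obtain ⟨k, hk⟩ := isConj_iff.mp h1
      exact hg (hk ▸ (inferInstance : M.Normal).conj_mem _ hcM k)
  set f : M → ℂ := fun m => (χ : G → ℂ) m with hf
  have hfcf : IsClassFunction M f := fun a b => isClassFunction_of_isIrr χ.2 a.1 b.1
  have hsum0 : ∑ m : M, f m = 0 := by
    have h := classInner_irr_ne χ.2 (isIrrCharacter_one (G := G)) hne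
    rw [classInner] at h
    simp only [map_one, mul_one] at h
    have h' := (mul_eq_zero.mp h).resolve_left (inv_ne_zero (card_ne_zero_complex G))
    rw [← Finset.sum_subset (Finset.subset_univ (Finset.univ.filter fun g : G => g ∈ M))
      (fun g _ hg => hout g (by simpa using hg))] at h'
    rw [← h', Finset.sum_subtype (Finset.univ.filter fun g : G => g ∈ M) (p := (· ∈ M)) (by simp)]
  -- every non-principal character of `M` occurs
  have hocc : ∀ ψ : IrrCharacter M, (ψ : M → ℂ) ≠ (fun _ => 1) → classInner f ψ ≠ 0 := by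
    intro ψ hψ h0
    rw [classInner] at h0
    have h0' := (mul_eq_zero.mp h0).resolve_left (inv_ne_zero (card_ne_zero_complex M))
    have h2 : ∑ m : M, f m * (conj ((ψ : M → ℂ) m) - conj ((ψ : M → ℂ) 1)) = 0 := by
      simp only [mul_sub, Finset.sum_sub_distrib, h0', ← Finset.sum_mul, hsum0, zero_mul, sub_zero]
    have hv : ∀ m : M, m ≠ 1 → f m ≠ 0 → f m = (χ : G → ℂ) c := fun m hm h => by
      rcases (hsupp _).mp h with h1 | h1
      · exact absurd (Subtype.ext h1) hm
      · obtain ⟨k, hk⟩ := isConj_iff.mp h1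
        show (χ : G → ℂ) (m : G) = _
        rw [← hk]; exact isClassFunction_of_isIrr χ.2 c k
    set T := Finset.univ.filter fun m : M => IsConj c (m : G) with hT
    have h3 : ∑ m ∈ T, (conj ((ψ : M → ℂ) m) - conj ((ψ : M → ℂ) 1)) = 0 := by
      have hvc : (χ : G → ℂ) c ≠ 0 := (hsupp c).mpr (Or.inr (IsConj.refl c))
      refine (mul_eq_zero.mp ?_).resolve_left hvc
      rw [Finset.mul_sum, ← h2]
      refine (Finset.sum_congr rfl fun m hm => ?_).trans
        (Finset.sum_subset (Finset.subset_univ T) fun m _ hm => ?_)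
      · rw [hT, Finset.mem_filter] at hm
        have hne' : f m ≠ 0 := (hsupp _).mpr (Or.inr hm.2)
        rw [hv m (fun h => hc1 (isConj_one_left.mp (by rw [h] at hm; exact hm.2)) ) hne']
      · rw [hT, Finset.mem_filter] at hm
        rcases eq_or_ne m 1 with rfl | hm1
        · rw [sub_self, mul_zero]
        · rw [show f m = 0 from by
            by_contra h
            rcases (hsupp _).mp h with h1 | h1
            · exact hm1 (Subtype.ext h1)
            · exact hm ⟨Finset.mem_univ _, h1⟩, zero_mul]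
    have hψc := isCharacter_of_isIrr ψ.2
    obtain ⟨t, ht⟩ := exists_natDegree hψc
    have hle : ∀ m : M, ((ψ : M → ℂ) m).re ≤ t := fun m => by
      refine (Complex.re_le_norm _).trans ?_
      have := norm_apply_le hψc m
      rwa [ht, Complex.norm_natCast] at this
    have h4 : ∑ m ∈ T, (((ψ : M → ℂ) m).re - (t : ℝ)) = 0 := by
      have := congrArg Complex.re h3
      rw [Complex.re_sum, Complex.zero_re] at this
      rw [← this]
      refine Finset.sum_congr rfl fun m _ => ?_
      simp [ht]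
    have h5 : ∀ m ∈ T, m ∈ charKer (ψ : M → ℂ) := fun m hm => by
      rw [mem_charKer hψc]
      have h6 := (Finset.sum_eq_zero_iff_of_nonpos (fun i _ => sub_nonpos.mpr (hle i))).mp h4 m hm
      have h7 : ‖(ψ : M → ℂ) m‖ ≤ t := by
        have := norm_apply_le hψc m
        rwa [ht, Complex.norm_natCast] at this
      have h8 : ((ψ : M → ℂ) m).re = ‖(ψ : M → ℂ) m‖ :=
        le_antisymm (Complex.re_le_norm _) (by linarith)
      have h9 : 0 ≤ (ψ : M → ℂ) m := Complex.re_eq_norm.mp h8
      rw [ht]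
      refine Complex.ext ?_ ?_
      · simp; linarith
      · simpa using (Complex.nonneg_iff.mp h9).2.symm
    have hK : M ≤ (charKer (ψ : M → ℂ)).map M.subtype := by
      have hle' : normalClosure {c} ≤ M := normalClosure_le_normal (Set.singleton_subset_iff.mpr hcM)
      have : normalClosure {c} = M := (hmin _ normalClosure_normal hle').resolve_left fun h =>
        hc1 (mem_bot.mp (h ▸ subset_normalClosure (Set.mem_singleton c)))
      conv_lhs => rw [← this]
      rw [normalClosure, closure_le]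
      intro g hg
      obtain ⟨a, ha, hg'⟩ := Group.mem_conjugatesOfSet_iff.mp hg
      rw [Set.mem_singleton_iff.mp ha] at hg'
      obtain ⟨k, hk⟩ := isConj_iff.mp hg'
      exact ⟨⟨g, hk ▸ (inferInstance : M.Normal).conj_mem _ hcM k⟩,
        h5 _ (Finset.mem_filter.mpr ⟨Finset.mem_univ _, hg'⟩), rfl⟩
    have hconst : ∀ m : M, (ψ : M → ℂ) m = (ψ : M → ℂ) 1 := fun m => by
      obtain ⟨k, hk, e⟩ := hK m.2
      rw [← Subtype.ext e]; exact (mem_charKer hψc).mp hk
    have := classInner_irr_ne ψ.2 (isIrrCharacter_one (G := M)) hψ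
    rw [classInner] at this
    simp only [hconst, map_one, mul_one, Finset.sum_const, Finset.card_univ, nsmul_eq_mul] at this
    simp [irr_degree_ne_zero ψ.2] at this
  have hone : classInner f (fun _ => (1 : ℂ)) = 0 := by
    rw [classInner]; simp [hsum0]
  by_contra hxc
  have hfx : f ⟨x, hx⟩ = 0 := by
    by_contra h
    exact ((hsupp x).mp h).elim hx1 hxc
  -- pick a non-principal constituent
  haveI : Nontrivial M := (nontrivial_iff_ne_bot M).mpr hM
  obtain ⟨θ, hθ⟩ : ∃ θ : IrrCharacter M, (θ : M → ℂ) ≠ fun _ => 1 := by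
    by_contra hc'
    push Not at hc'
    have hx' : (⟨x, hx⟩ : M) ≠ 1 := fun h => hx1 (congrArg Subtype.val h)
    exact hx' (eq_one_of_forall_irr fun ψ => by rw [hc' ψ])
  have hconjθ : ∀ ψ : IrrCharacter M, (ψ : M → ℂ) ≠ (fun _ => 1) →
      classInner f ψ = classInner f θ ∧ (ψ : M → ℂ) 1 = (θ : M → ℂ) 1 := fun ψ hψ => by
    obtain ⟨g, hg⟩ := conjugate_of_constituents M χ.2 θ.2 ψ.2 (hocc θ hθ) (hocc ψ hψ)
    refine ⟨?_, by rw [← hg, conjChar_apply_one]⟩
    rw [← hg]
    conv_lhs => rw [hf, ← conjChar_restrict M (isClassFunction_of_isIrr χ.2) g]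
    rw [classInner_conjChar]
  have hexp := congrFun (eq_sum_classInner_smul hfcf) ⟨x, hx⟩
  simp only [Finset.sum_apply, Pi.smul_apply, smul_eq_mul] at hexp
  have h1 := sum_degree_mul (G := M) ⟨x, hx⟩
  rw [if_neg (fun h => hx1 (congrArg Subtype.val h))] at h1
  let one' : IrrCharacter M := ⟨fun _ => 1, isIrrCharacter_one⟩
  rw [← Finset.add_sum_erase _ _ (Finset.mem_univ one')] at hexp h1
  have hne' : ∀ ψ ∈ Finset.univ.erase one', (ψ : M → ℂ) ≠ fun _ => 1 := fun ψ hψ h =>
    (Finset.mem_erase.mp hψ).1 (Subtype.ext h)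
  rw [Finset.sum_congr rfl fun ψ hψ => by rw [(hconjθ ψ (hne' ψ hψ)).1], ← Finset.mul_sum] at hexp
  rw [Finset.sum_congr rfl fun ψ hψ => by rw [(hconjθ ψ (hne' ψ hψ)).2], ← Finset.mul_sum] at h1
  simp only [one', mul_one, hone, zero_add, hfx] at hexp h1
  rw [eq_comm, mul_eq_zero, or_iff_right (hocc θ hθ)] at hexp
  rw [hexp, mul_zero, add_zero] at h1
  exact one_ne_zero h1

end chars

section auto

/-- Automorphisms of coprime order fix the cyclic subgroup's generator. -/
theorem commute_of_coprime_totient {H : Type*} [Group H] [Finite H] {h z : H}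
    (hn : h * z * h⁻¹ ∈ zpowers z) (hc : (orderOf h).Coprime (orderOf z).totient) :
    h * z * h⁻¹ = z := by
  obtain ⟨s, hs⟩ := mem_zpowers_iff.mp hn
  set n := orderOf z with hnn
  haveI : NeZero n := ⟨(orderOf_pos z).ne'⟩
  have key : ∀ j : ℕ, h ^ j * z * (h ^ j)⁻¹ = z ^ (s ^ j) := by
    intro j
    induction j with
    | zero => simp
    | succ j ih =>
      rw [pow_succ' h, mul_inv_rev, show h * h ^ j * z * ((h ^ j)⁻¹ * h⁻¹) =
        h * (h ^ j * z * (h ^ j)⁻¹) * h⁻¹ by group, ih, ← conj_zpow, ← hs, ← zpow_mul, pow_succ']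
  have h1 := key (orderOf h)
  rw [pow_orderOf_eq_one, one_mul, inv_one, mul_one] at h1
  have h2 : ((s : ZMod n)) ^ orderOf h = 1 := by
    have : z ^ (1 : ℤ) = z ^ (s ^ orderOf h) := by rw [zpow_one]; exact h1
    rw [zpow_eq_zpow_iff_modEq, ← hnn] at this
    have := (ZMod.intCast_eq_intCast_iff _ _ _).mpr this
    push_cast at this; exact this.symm
  have hu : IsUnit ((s : ZMod n)) := IsUnit.of_pow_eq_one h2 (orderOf_pos h).ne'
  have h3 : hu.unit = 1 := by
    rw [← orderOf_eq_one_iff]
    refine Nat.eq_one_of_dvd_coprimes hc (orderOf_dvd_of_pow_eq_one (Units.ext ?_)) ?_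
    · simpa using h2
    · rw [← ZMod.card_units_eq_totient, ← Nat.card_eq_fintype_card]; exact orderOf_dvd_natCard _
  have h4 : ((s : ZMod n)) = ((1 : ℤ) : ZMod n) := by
    have := congrArg Units.val h3; simpa using this
  rw [← hs]
  conv_rhs => rw [← zpow_one z]
  rw [zpow_eq_zpow_iff_modEq, ← hnn]
  exact (ZMod.intCast_eq_intCast_iff _ _ _).mp h4

theorem quaternion_aux {n : ℕ} [NeZero (2 ^ n)] (φ : MulAut (QuaternionGroup (2 ^ n)))
    (hodd : Odd (orderOf φ)) (hfix : φ (QuaternionGroup.a 1) ∈ zpowers (QuaternionGroup.a (1 : ZMod (2 * 2 ^ n)))) :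
    φ = 1 := by
  let A := QuaternionGroup (2 ^ n)
  let h : SemidirectProduct A (MulAut A) (MonoidHom.id _) := SemidirectProduct.inr φ
  haveI : Finite (SemidirectProduct A (MulAut A) (MonoidHom.id _)) :=
    Finite.of_equiv _ SemidirectProduct.equivProd.symm
  have hconj : ∀ x : A, h * SemidirectProduct.inl x * h⁻¹ = SemidirectProduct.inl (φ x) := fun x => by
    ext <;> simp [h]
  have ho : orderOf h = orderOf φ := orderOf_injective _ SemidirectProduct.inr_injective φ
  have ha : φ (QuaternionGroup.a 1) = QuaternionGroup.a 1 := by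
    apply SemidirectProduct.inl_injective (φ := MonoidHom.id (MulAut A))
    rw [← hconj]
    refine commute_of_coprime_totient ?_ ?_
    · rw [hconj]
      obtain ⟨i, hi⟩ := mem_zpowers_iff.mp hfix
      exact ⟨i, by rw [← hi, map_zpow]⟩
    · rw [ho, orderOf_injective _ SemidirectProduct.inl_injective, QuaternionGroup.orderOf_a_one,
        show 2 * 2 ^ n = 2 ^ (n + 1) by ring, Nat.totient_prime_pow Nat.prime_two n.succ_pos]
      simp only [Nat.add_sub_cancel, Nat.succ_sub_one, mul_one]
      exact (Nat.coprime_two_right.mpr hodd).pow_right n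
  have hai : ∀ i : ZMod (2 * 2 ^ n), φ (QuaternionGroup.a i) = QuaternionGroup.a i := fun i => by
    rw [show QuaternionGroup.a i = (QuaternionGroup.a 1) ^ i.val by
      rw [QuaternionGroup.a_one_pow, ZMod.natCast_zmod_val], map_pow, ha]
  obtain ⟨k, hk⟩ : ∃ k, φ (QuaternionGroup.xa 0) = QuaternionGroup.xa k := by
    rcases hx : φ (QuaternionGroup.xa 0) with i | i
    · exact absurd (φ.injective (hx.trans (hai i).symm)) (by simp)
    · exact ⟨i, rfl⟩
  have hxa : ∀ j, φ (QuaternionGroup.xa j) = QuaternionGroup.xa (k + j) := fun j => by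
    rw [show QuaternionGroup.xa j = QuaternionGroup.xa 0 * QuaternionGroup.a j by simp, map_mul, hk,
      hai, QuaternionGroup.xa_mul_a]
  have hpow : ∀ j : ℕ, (φ ^ j) (QuaternionGroup.xa 0) = QuaternionGroup.xa ((j : ZMod (2 * 2 ^ n)) * k) := by
    intro j
    induction j with
    | zero => simp
    | succ j ih => rw [pow_succ', MulAut.mul_apply, ih, hxa]; congr 1; push_cast; ring
  have hk0 : k = 0 := by
    have := hpow (orderOf φ)
    rw [pow_orderOf_eq_one, MulAut.one_apply, QuaternionGroup.xa.injEq] at this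
    have hu : IsUnit ((orderOf φ : ℕ) : ZMod (2 * 2 ^ n)) := by
      rw [ZMod.isUnit_iff_coprime, show 2 * 2 ^ n = 2 ^ (n + 1) by ring]
      exact (Nat.coprime_two_right.mpr hodd).pow_right _
    exact hu.mul_right_eq_zero.mp this.symm
  refine MulEquiv.ext fun x => ?_
  rcases x with i | i
  · exact hai i
  · rw [hxa, hk0, zero_add]; rfl

/-- The cyclic maximal subgroups of a quaternion group. -/
def cyc3 (n : ℕ) : Set (Subgroup (QuaternionGroup (2 ^ n))) :=
  {zpowers (QuaternionGroup.a 1), zpowers (QuaternionGroup.xa 0), zpowers (QuaternionGroup.xa 1)}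

theorem zmod4_cases : ∀ j : ZMod 4, j = 0 ∨ j = 1 ∨ j = 2 ∨ j = 3 := by decide

theorem map_mem_cyc3 {n : ℕ} (hn : 1 ≤ n) [NeZero (2 ^ n)] (φ : MulAut (QuaternionGroup (2 ^ n))) :
    (zpowers (QuaternionGroup.a (1 : ZMod (2 * 2 ^ n)))).map φ.toMonoidHom ∈ cyc3 n := by
  rw [MonoidHom.map_zpowers]
  have ho : orderOf (φ (QuaternionGroup.a 1)) = 2 * 2 ^ n := by
    rw [MulEquiv.orderOf_eq, QuaternionGroup.orderOf_a_one]
  show zpowers (φ (QuaternionGroup.a 1)) ∈ _
  rcases hx : φ (QuaternionGroup.a 1) with i | i <;> rw [hx] at ho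
  · left
    refine eq_of_le_of_card_ge (zpowers_le.mpr ?_) ?_
    · rw [show QuaternionGroup.a i = (QuaternionGroup.a 1) ^ i.val by
        rw [QuaternionGroup.a_one_pow, ZMod.natCast_zmod_val]]
      exact pow_mem (mem_zpowers _) _
    · rw [Nat.card_zpowers, Nat.card_zpowers, ho, QuaternionGroup.orderOf_a_one]
  · rw [QuaternionGroup.orderOf_xa] at ho
    have : n = 1 := by
      have h2 : (2 : ℕ) ^ n = 2 := by omega
      exact Nat.pow_right_injective le_rfl (h2.trans (pow_one 2).symm)
    subst this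
    right
    have hi : i = 0 ∨ i = 1 ∨ i = 2 ∨ i = 3 := zmod4_cases i
    rcases hi with rfl | rfl | rfl | rfl
    · left; rfl
    · right; exact rfl
    · left
      rw [← zpowers_inv]; rfl
    · right
      rw [Set.mem_singleton_iff, ← zpowers_inv]; rfl

theorem quaternion_auto {n : ℕ} (hn : 1 ≤ n) [NeZero (2 ^ n)] (φ : MulAut (QuaternionGroup (2 ^ n)))
    (hc : (orderOf φ).Coprime 6) : φ = 1 := by
  have hodd : Odd (orderOf φ) := Nat.coprime_two_right.mp (hc.coprime_dvd_right (by norm_num))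
  refine quaternion_aux φ hodd ?_
  set A := QuaternionGroup (2 ^ n)
  set K := zpowers (QuaternionGroup.a (1 : ZMod (2 * 2 ^ n))) with hK
  let f : Subgroup A → Subgroup A := fun L => L.map φ.toMonoidHom
  have hit : ∀ j : ℕ, f^[j] K = K.map (φ ^ j : MulAut A).toMonoidHom := by
    intro j
    induction j with
    | zero => rw [pow_zero]; exact (map_id K).symm
    | succ j ih =>
      rw [Function.iterate_succ_apply', ih, pow_succ']
      exact map_map _ _ _
  have hper : Function.IsPeriodicPt f (orderOf φ) K := by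
    show f^[orderOf φ] K = K
    rw [hit, pow_orderOf_eq_one]; exact map_id K
  have hd := hper.minimalPeriod_dvd
  have hle : Function.minimalPeriod f K ≤ 3 := by
    have hfin : (cyc3 n).Finite := Set.toFinite _
    have hsub : (fun j => f^[j] K) '' Set.Iio (Function.minimalPeriod f K) ⊆ cyc3 n := by
      rintro _ ⟨j, -, rfl⟩
      show f^[j] K ∈ _
      rw [hit]; exact map_mem_cyc3 hn _
    have h1 := Set.ncard_le_ncard hsub hfin
    rw [Set.ncard_image_of_injOn Function.iterate_injOn_Iio_minimalPeriod, ← Finset.coe_Iio,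
      Set.ncard_coe_finset, Nat.card_Iio] at h1
    refine h1.trans ?_
    refine (Set.ncard_insert_le _ _).trans (Nat.succ_le_succ ?_)
    refine (Set.ncard_insert_le _ _).trans ?_
    rw [Set.ncard_singleton]
  have hone : Function.minimalPeriod f K = 1 := by
    have hpos := hper.minimalPeriod_pos (orderOf_pos φ)
    refine Nat.eq_one_of_dvd_coprimes hc hd ?_
    interval_cases Function.minimalPeriod f K <;> norm_num
  have hfix : f K = K := Function.minimalPeriod_eq_one_iff_isFixedPt.mp hone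
  rw [← hfix]
  exact ⟨_, mem_zpowers _, rfl⟩

end auto

section fpf
variable {H : Type*} [Group H] {V : Type*} [CommGroup V] [Finite V] (φ : H →* MulAut V)

theorem norm_eq_one {w : H} {k : ℕ} (hwk : w ^ k = 1) (hfix : ∀ v : V, φ w v = v → v = 1) (v : V) :
    ∏ i ∈ Finset.range k, φ (w ^ i) v = 1 := by
  apply hfix
  rw [map_prod]
  have : ∀ i, φ w (φ (w ^ i) v) = φ (w ^ (i + 1)) v := fun i => by
    rw [pow_succ', map_mul]; rfl
  simp only [this]
  have h1 := Finset.prod_range_succ' (fun i => φ (w ^ i) v) k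
  rw [Finset.prod_range_succ, hwk] at h1
  simpa using h1.symm

theorem pair_false {k r : ℕ} (hk : 0 < k) (hr : 0 < r) (hco : (Nat.card V).Coprime k)
    {v : V} (hv : v ≠ 1) (g : ℕ → H) (w : ℕ → H) (b : H)
    (hg : ∀ i < k, g i ^ r = 1 ∧ ∀ u : V, φ (g i) u = u → u = 1)
    (hgw : ∀ i < k, ∀ j, 0 < j → j < r → g i ^ j = w j ^ i * b ^ j)
    (hw : ∀ j, 0 < j → j < r → w j ^ k = 1 ∧ ∀ u : V, φ (w j) u = u → u = 1) : False := by
  apply hv
  have h0 : ∏ i ∈ Finset.range k, ∏ j ∈ Finset.range r, φ (g i ^ j) v = 1 :=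
    Finset.prod_eq_one fun i hi => norm_eq_one φ (hg i (Finset.mem_range.mp hi)).1
      (hg i (Finset.mem_range.mp hi)).2 v
  rw [Finset.prod_comm, ← Finset.mul_prod_erase _ _ (Finset.mem_range.mpr hr)] at h0
  have h1 : ∀ j ∈ (Finset.range r).erase 0, ∏ i ∈ Finset.range k, φ (g i ^ j) v = 1 := fun j hj => by
    rw [Finset.mem_erase, Finset.mem_range] at hj
    have hj0 := Nat.pos_of_ne_zero hj.1
    rw [Finset.prod_congr rfl (g := fun i => φ (w j ^ i) (φ (b ^ j) v)) fun i hi => by
      rw [hgw i (Finset.mem_range.mp hi) j hj0 hj.2, map_mul]; rfl]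
    exact norm_eq_one φ (hw j hj0 hj.2).1 (hw j hj0 hj.2).2 _
  rw [Finset.prod_eq_one h1, mul_one] at h0
  simp only [pow_zero, map_one, MulAut.one_apply, Finset.prod_const, Finset.card_range] at h0
  rw [← orderOf_eq_one_iff]
  exact Nat.eq_one_of_dvd_coprimes hco (orderOf_dvd_natCard v) (orderOf_dvd_of_pow_eq_one h0)

end fpf

section core
variable {H : Type*} [Group H] [Finite H] [Group.IsSolvable H] {V : Type*} [CommGroup V] [Finite V]

theorem core {p : ℕ} (hp : p.Prime) {m : ℕ} (hm : Nat.card V = p ^ m) (hm0 : 1 ≤ m)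
    (φ : H →* MulAut V) (hinj : Function.Injective φ)
    (htr : ∀ v w : V, v ≠ 1 → w ≠ 1 → ∃ h, φ h v = w)
    (hfac : ∀ q, q.Prime → q ≠ p → (Nat.card H).factorization q = (p ^ m - 1).factorization q)
    (hcore : pCore p H = ⊥) :
    HasNormalPComplement p H ∧ ∀ Q : Sylow p H, IsMulCommutative (Q : Subgroup H) := by
  classical
  haveI := Fact.mk hp
  haveI : Fact (Nat.Prime 2) := ⟨Nat.prime_two⟩
  have hn0 : p ^ m - 1 ≠ 0 := by
    have : 1 < p ^ m := Nat.one_lt_pow (by omega) hp.one_lt
    omega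
  obtain ⟨v0, hv0⟩ : ∃ v : V, v ≠ 1 := by
    haveI : Nontrivial V := Finite.one_lt_card_iff_nontrivial.mp (by
      rw [hm]; exact Nat.one_lt_pow (by omega) hp.one_lt)
    exact exists_ne 1
  -- `p'`-elements act without fixed points
  have hprime : ∀ h : H, ∀ q, q.Prime → q ≠ p → orderOf h = q → ∀ v : V, φ h v = v → v = 1 := by
    intro h q hq hqp ho v hv
    by_contra hv1
    letI : MulAction H V := MulAction.compHom V φ
    have horb : MulAction.orbit H v = {w : V | w ≠ 1} := by
      ext w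
      constructor
      · rintro ⟨g, rfl⟩ he
        exact hv1 ((φ g).injective (he.trans (map_one _).symm))
      · intro hw; exact htr v w hv1 hw
    have hidx : (MulAction.stabilizer H v).index = p ^ m - 1 := by
      rw [MulAction.index_stabilizer, horb, show {w : V | w ≠ 1} = ({1} : Set V)ᶜ from rfl,
        Set.ncard_compl, Set.ncard_singleton, hm]
    have hd : q ∣ Nat.card (MulAction.stabilizer H v) :=
      ho ▸ Subgroup.orderOf_dvd_natCard (MulAction.stabilizer H v) (show h ∈ MulAction.stabilizer H v from hv)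
    have hmul := (MulAction.stabilizer H v).card_mul_index
    rw [hidx] at hmul
    have := congrArg (fun k => k.factorization q) hmul
    simp only [Nat.factorization_mul (Nat.card_pos (α := MulAction.stabilizer H v)).ne' hn0,
      Finsupp.add_apply, hfac q hq hqp] at this
    have := hq.factorization_pos_of_dvd (Nat.card_pos (α := MulAction.stabilizer H v)).ne' hd
    omega
  have hfpf : ∀ h : H, h ≠ 1 → ¬ p ∣ orderOf h → ∀ v : V, φ h v = v → v = 1 := by
    intro h h1 hpd v hv
    have ho : orderOf h ≠ 1 := fun e => h1 (orderOf_eq_one_iff.mp e)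
    obtain ⟨q, hq, hqd⟩ := Nat.exists_prime_and_dvd ho
    refine hprime (h ^ (orderOf h / q)) q hq (fun e => hpd (e ▸ hqd)) ?_ v ?_
    · rw [orderOf_pow_of_dvd (Nat.div_ne_zero_iff.mpr ⟨hq.ne_zero, Nat.le_of_dvd (orderOf_pos h) hqd⟩)
        (Nat.div_dvd_of_dvd hqd), Nat.div_div_self hqd (orderOf_pos h).ne']
    · generalize orderOf h / q = e
      induction e with
      | zero => simp
      | succ e ih => rw [pow_succ, map_mul, MulAut.mul_apply, hv, ih]
  have hcop : ∀ k : ℕ, ¬ p ∣ k → (Nat.card V).Coprime k := fun k hk => by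
    rw [hm]; exact Nat.Coprime.pow_left m (hp.coprime_iff_not_dvd.mpr hk)
  -- an element of prime order normalising a cyclic subgroup centralises it
  have hfrob : ∀ y z : H, (orderOf y).Prime → orderOf y ≠ p → ¬ p ∣ orderOf z →
      y * z * y⁻¹ ∈ zpowers z → Commute y z := by
    intro y z hy hyp hz hn
    by_contra hnc
    set r := orderOf y with hr
    have hrp : ¬ p ∣ r := fun h => hyp ((Nat.prime_dvd_prime_iff_eq hp hy).mp h).symm
    have hw0 : ∀ j, 0 < j → j < r → z * (y ^ j * z⁻¹ * (y ^ j)⁻¹) ≠ 1 := fun j hj hjr he => by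
      apply hnc
      have hc : Commute (y ^ j) z := by
        have h' := congrArg (fun u => u⁻¹) (eq_inv_of_mul_eq_one_right he)
        simp only [mul_inv_rev, inv_inv, ← mul_assoc] at h'
        exact mul_inv_eq_iff_eq_mul.mp h'
      have hjc : j.Coprime r :=
        (hy.coprime_iff_not_dvd.mpr (Nat.not_dvd_of_pos_of_lt hj hjr)).symm
      obtain ⟨t, ht⟩ := exists_pow_eq_self_of_coprime (x := y) (hr ▸ hjc)
      rw [← ht]; exact hc.pow_left t
    have hmem : ∀ j : ℕ, y ^ j * z⁻¹ * (y ^ j)⁻¹ ∈ zpowers z := by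
      intro j
      induction j with
      | zero => simp
      | succ j ih =>
        obtain ⟨s, hs⟩ := mem_zpowers_iff.mp ih
        rw [pow_succ', show y * y ^ j * z⁻¹ * (y * y ^ j)⁻¹ = y * (y ^ j * z⁻¹ * (y ^ j)⁻¹) * y⁻¹ by group,
          ← hs, ← conj_zpow]
        exact zpow_mem hn s
    refine pair_false φ (orderOf_pos z) hy.pos (hcop _ hz) hv0 (fun i => z ^ i * y * (z ^ i)⁻¹)
      (fun j => z * (y ^ j * z⁻¹ * (y ^ j)⁻¹)) y (fun i _ => ?_) (fun i _ j _ _ => ?_) (fun j hj hjr => ?_)
    · have ho : orderOf (z ^ i * y * (z ^ i)⁻¹) = r := (MulEquiv.orderOf_eq (MulAut.conj (z ^ i)) y).trans rfl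
      refine ⟨ho ▸ pow_orderOf_eq_one _, hfpf _ (fun e => ?_) (ho ▸ hrp)⟩
      rw [e, orderOf_one] at ho; exact hy.one_lt.ne ho
    · show (z ^ i * y * (z ^ i)⁻¹) ^ j = (z * (y ^ j * z⁻¹ * (y ^ j)⁻¹)) ^ i * y ^ j
      obtain ⟨s, hs⟩ := mem_zpowers_iff.mp (hmem j)
      have hc : Commute z (y ^ j * z⁻¹ * (y ^ j)⁻¹) := hs ▸ (Commute.refl z).zpow_right s
      rw [conj_pow, hc.mul_pow, conj_pow, inv_pow]; group
    · have h1 : z * (y ^ j * z⁻¹ * (y ^ j)⁻¹) ∈ zpowers z := mul_mem (mem_zpowers z) (hmem j)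
      have hd := orderOf_dvd_of_mem_zpowers h1
      exact ⟨orderOf_dvd_iff_pow_eq_one.mp hd, hfpf _ (hw0 j hj hjr) fun h => hz (h.trans hd)⟩
  -- the Sylow subgroups of the Fitting subgroup
  have hO : ∀ q : ℕ, q.Prime → q ≠ p → IsCyclic (pCore q H) ∨
      (q = 2 ∧ ∃ n, 1 ≤ n ∧ Nonempty (pCore q H ≃* QuaternionGroup (2 ^ n))) := by
    intro q hq hqp
    haveI := Fact.mk hq
    have hQ : IsPGroup q (pCore q H) := Lib.Hall.isPGroup_pCore q
    refine Lib.UniqueInvolution.isCyclic_or_quaternion hQ fun A B hA hB => ?_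
    haveI : Nontrivial (pCore q H) := by
      by_contra hN
      haveI := not_nontrivial_iff_subsingleton.mp hN
      have hle := A.card_le_card_group
      rw [hA, Nat.card_of_subsingleton 1] at hle
      exact absurd hle (not_le.mpr hq.one_lt)
    haveI : Nontrivial (center (pCore q H)) := hQ.center_nontrivial
    obtain ⟨k, hk⟩ := IsPGroup.iff_card.mp (hQ.to_subgroup (center (pCore q H)))
    obtain ⟨z, hz⟩ := exists_prime_orderOf_dvd_card' (G := center (pCore q H)) q (by
      rw [hk]; refine dvd_pow_self q ?_; rintro rfl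
      have := Finite.one_lt_card (α := center (pCore q H)); rw [hk] at this; simp at this)
    suffices key : ∀ A : Subgroup (pCore q H), Nat.card A = q → A = zpowers (z : pCore q H) by
      rw [key A hA, key B hB]
    intro A hA
    refine eq_of_le_of_card_ge (fun b hb => ?_) (by rw [Nat.card_zpowers, orderOf_coe, hz, hA])
    by_contra hbz
    let a : H := ((z : pCore q H) : H)
    have ha : orderOf a = q := by rw [orderOf_coe, orderOf_coe, hz]
    have hbq : (b : H) ^ q = 1 := by
      have := pow_card_eq_one' (x := (⟨b, hb⟩ : A))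
      rw [hA] at this
      simpa using congrArg (fun x : A => ((x : pCore q H) : H)) this
    have hab : Commute a b := congrArg Subtype.val (mem_center_iff.mp z.2 b).symm
    have hne : ∀ i : ℕ, a ^ i * b ≠ 1 := fun i e => hbz (by
      have : b = ((z : pCore q H) ^ i)⁻¹ := Subtype.ext (by
        simpa [a] using eq_inv_of_mul_eq_one_right e)
      rw [this]; exact inv_mem (pow_mem (mem_zpowers _) i))
    have hqd : ∀ x : H, x ^ q = 1 → ¬ p ∣ orderOf x := fun x hx h =>
      hqp ((Nat.prime_dvd_prime_iff_eq hp hq).mp (h.trans (orderOf_dvd_of_pow_eq_one hx))).symm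
    have haq : a ^ q = 1 := ha ▸ pow_orderOf_eq_one a
    refine pair_false φ hq.pos hq.pos (hcop q fun h => hqp ((Nat.prime_dvd_prime_iff_eq hp hq).mp h).symm)
      hv0 (fun i => a ^ i * b) (fun j => a ^ j) b (fun i _ => ?_) (fun i _ j _ _ => ?_) (fun j hj hjq => ?_)
    · have h1 : (a ^ i * (b : H)) ^ q = 1 := by
        rw [(hab.pow_left i).mul_pow, hbq, ← pow_mul, mul_comm, pow_mul, haq, one_pow, one_mul]
      exact ⟨h1, hfpf _ (hne i) (hqd _ h1)⟩
    · show (a ^ i * (b : H)) ^ j = (a ^ j) ^ i * (b : H) ^ j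
      rw [(hab.pow_left i).mul_pow, ← pow_mul, ← pow_mul, mul_comm i j]
    · have h1 : (a ^ j) ^ q = 1 := by rw [← pow_mul, mul_comm, pow_mul, haq, one_pow]
      refine ⟨h1, hfpf _ (fun e => ?_) (hqd _ h1)⟩
      have := Nat.le_of_dvd hj (ha ▸ orderOf_dvd_of_pow_eq_one e)
      omega
  have hF : ∀ x : H, (∀ q : ℕ, q.Prime → q ≠ p → ∀ a ∈ pCore q H, Commute x a) →
      x ∈ fittingSubgroup H := by
    intro x hx
    refine Lib.Hall.centralizer_fittingSubgroup_le (mem_centralizer_iff.mpr fun a ha => ?_)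
    rw [SetLike.mem_coe, Lib.Hall.fittingSubgroup_eq_iSup_pCore] at ha
    have : ∀ a ∈ (⨆ q : Nat.Primes, pCore (q : ℕ) H), a ∈ centralizer ({x} : Set H) := by
      intro a ha
      refine (iSup_le fun q => ?_ : (⨆ q : Nat.Primes, pCore (q : ℕ) H) ≤ _) ha
      intro b hb
      rw [mem_centralizer_singleton_iff]
      rcases eq_or_ne (q : ℕ) p with h | h
      · rw [h, hcore, mem_bot] at hb; rw [hb, one_mul, mul_one]
      · exact ((hx q q.2 h b hb).eq).symm
    exact mem_centralizer_singleton_iff.mp (this a ha)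
  have hFp : ¬ p ∣ Nat.card (fittingSubgroup H) := fun hd => by
    haveI : Group.IsNilpotent (fittingSubgroup H) := Lib.Hall.fittingSubgroup_isNilpotent
    obtain ⟨P⟩ := (inferInstance : Nonempty (Sylow p (fittingSubgroup H)))
    have hPn : (P : Subgroup (fittingSubgroup H)).Normal :=
      P.normal_of_normalizerCondition normalizerCondition_of_isNilpotent
    haveI : (P : Subgroup (fittingSubgroup H)).Characteristic := P.characteristic_of_normal hPn
    have hle : (P : Subgroup (fittingSubgroup H)).map (fittingSubgroup H).subtype ≤ pCore p H :=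
      Lib.Hall.le_pCore (P.isPGroup'.map _)
    rw [hcore, le_bot_iff, map_eq_bot_iff_of_injective _ (fittingSubgroup H).subtype_injective] at hle
    exact P.ne_bot_of_dvd_card hd hle
  -- the special case
  by_cases hgen : ∀ x : H, (∃ k, orderOf x = p ^ k) → ∀ a ∈ pCore 2 H, Commute x a
  · set K : Subgroup H := centralizer ((⨆ q : {q : ℕ // q.Prime ∧ q ≠ p ∧ q ≠ 2}, pCore (q : ℕ) H : Subgroup H) : Set H)
      with hK
    haveI hKn : K.Normal := inferInstance
    have hcomm : commutator H ≤ K := by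
      rw [_root_.commutator_def, commutator_le]
      intro g₁ _ g₂ _
      rw [hK, mem_centralizer_iff]
      have hle : (⨆ q : {q : ℕ // q.Prime ∧ q ≠ p ∧ q ≠ 2}, pCore (q : ℕ) H) ≤
          centralizer ({⁅g₁, g₂⁆} : Set H) := by
        refine iSup_le fun q => ?_
        intro a ha
        rw [mem_centralizer_singleton_iff]
        haveI : IsCyclic (pCore (q : ℕ) H) := ((hO q q.2.1 q.2.2.1).resolve_right fun h => q.2.2.2 h.1)
        have h1 : MulAut.conjNormal ⁅g₁, g₂⁆ = (1 : MulAut (pCore (q : ℕ) H)) := by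
          rw [map_commutatorElement, commutatorElement_eq_one_iff_commute]
          exact Lib.FPF.commute_of_isCyclic _ _
        have h2 := congrArg (fun σ => ((σ ⟨a, ha⟩ : pCore (q : ℕ) H) : H)) h1
        simp only [MulAut.conjNormal_apply, MulAut.one_apply] at h2
        exact (mul_inv_eq_iff_eq_mul.mp h2).symm
      exact fun a ha => mem_centralizer_singleton_iff.mp (hle ha)
    have hKp : ∀ x ∈ K, (∃ k, orderOf x = p ^ k) → x = 1 := by
      intro x hx hk
      have hxF : x ∈ fittingSubgroup H := hF x fun q hq hqp a ha => by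
        rcases eq_or_ne q 2 with rfl | h2
        · exact hgen x hk a ha
        · exact (mem_centralizer_iff.mp hx a (mem_iSup_of_mem (⟨q, hq, hqp, h2⟩ :
            {q : ℕ // q.Prime ∧ q ≠ p ∧ q ≠ 2}) ha)).symm
      obtain ⟨k, hk⟩ := hk
      rw [← orderOf_eq_one_iff]
      exact Nat.eq_one_of_dvd_coprimes ((hp.coprime_iff_not_dvd.mpr hFp).pow_left k).symm
        (Subgroup.orderOf_dvd_natCard _ hxF) (hk ▸ dvd_rfl)
    refine ⟨?_, fun Q => ⟨⟨fun a b => Subtype.ext ?_⟩⟩⟩
    · obtain ⟨P⟩ := (inferInstance : Nonempty (Sylow p H))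
      set e := Nat.card H / p ^ (Nat.card H).factorization p with he
      have hpe : ¬ p ∣ e := Nat.not_dvd_ordCompl hp Nat.card_pos.ne'
      let f : H →* H ⧸ K := QuotientGroup.mk' K
      have hab : ∀ x y : H ⧸ K, Commute x y := fun x y => by
        obtain ⟨a, rfl⟩ := QuotientGroup.mk'_surjective K x
        obtain ⟨b, rfl⟩ := QuotientGroup.mk'_surjective K y
        rw [← commutatorElement_eq_one_iff_commute, ← map_commutatorElement]
        exact (QuotientGroup.eq_one_iff _).mpr (hcomm (commutator_mem_commutator (mem_top _) (mem_top _)))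
      let g : H →* H ⧸ K :=
        { toFun := fun x => f x ^ e
          map_one' := by simp
          map_mul' := fun x y => by rw [map_mul, (hab _ _).mul_pow] }
      refine ⟨P, g.ker, inferInstance, ?_⟩
      have hN : ¬ p ∣ Nat.card g.ker := fun hd => by
        obtain ⟨x, hx⟩ := exists_prime_orderOf_dvd_card' p hd
        have hxe : f x ^ e = 1 := x.2
        have hxp : f x ^ p = 1 := by
          rw [← map_pow, ← hx, ← orderOf_coe, pow_orderOf_eq_one, map_one]
        have : f x ^ Nat.gcd e p = 1 := pow_gcd_eq_one.mpr ⟨hxe, hxp⟩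
        rw [show Nat.gcd e p = 1 from (hp.coprime_iff_not_dvd.mpr hpe).symm, pow_one] at this
        have h1 := hKp x ((QuotientGroup.eq_one_iff _).mp this) ⟨1, by rw [orderOf_coe, hx, pow_one]⟩
        rw [← orderOf_coe, h1, orderOf_one] at hx
        exact hp.one_lt.ne hx
      have hidx : IsPGroup p (H ⧸ g.ker) := fun y => by
        obtain ⟨x, rfl⟩ := QuotientGroup.mk_surjective y
        refine ⟨(Nat.card H).factorization p, ?_⟩
        rw [← QuotientGroup.mk_pow, QuotientGroup.eq_one_iff, MonoidHom.mem_ker]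
        show f (x ^ p ^ (Nat.card H).factorization p) ^ e = 1
        rw [← map_pow, ← pow_mul, he, Nat.mul_div_cancel' (Nat.ordProj_dvd _ _), pow_card_eq_one', map_one]
      obtain ⟨j, hj⟩ := IsPGroup.iff_card.mp hidx
      rw [← index_eq_card] at hj
      obtain ⟨a, ha⟩ := IsPGroup.iff_card.mp P.isPGroup'
      have hmul := g.ker.card_mul_index
      have hja : j = a := by
        have h1 := P.card_eq_multiplicity
        rw [ha] at h1
        have h2 := congrArg (fun k => k.factorization p) hmul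
        simp only [hj, Nat.factorization_mul (Nat.card_pos (α := g.ker)).ne' (pow_ne_zero j hp.ne_zero),
          Finsupp.add_apply, Nat.factorization_eq_zero_of_not_dvd hN, hp.factorization_pow,
          Finsupp.single_eq_same, zero_add] at h2
        rw [← Nat.pow_right_injective hp.two_le h1] at h2
        exact h2
      refine isComplement'_of_coprime ?_ ?_
      · rw [ha, ← hja, ← hj]; exact hmul
      · rw [ha]; exact Nat.Coprime.pow_right a (hp.coprime_iff_not_dvd.mpr hN).symm
    · rw [coe_mul, coe_mul]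
      refine commutatorElement_eq_one_iff_mul_comm.mp (hKp _ ?_ ?_)
      · exact hcomm (commutator_mem_commutator (mem_top _) (mem_top _))
      · have hmem : ⁅(a : H), (b : H)⁆ ∈ (Q : Subgroup H) := (⁅a, b⁆ : (Q : Subgroup H)).2
        obtain ⟨k, hk⟩ := IsPGroup.iff_orderOf.mp Q.isPGroup' ⟨_, hmem⟩
        exact ⟨k, by rw [← hk, orderOf_mk]⟩
  push Not at hgen
  obtain ⟨x, ⟨kx, hkx⟩, a, ha, hxa⟩ := hgen
  have hp2 : p ≠ 2 := by
    rintro rfl
    rw [hcore, mem_bot] at ha
    exact hxa (ha ▸ Commute.one_right x)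
  rcases hO 2 Nat.prime_two hp2.symm with hcy | ⟨-, n, hn, ⟨eQ⟩⟩
  · exfalso; apply hxa
    haveI := hcy
    obtain ⟨z, hz⟩ := IsCyclic.exists_generator (α := pCore 2 H)
    obtain ⟨k, hk⟩ := IsPGroup.iff_orderOf.mp (Lib.Hall.isPGroup_pCore (G := H) 2) z
    have h1 : x * (z : H) * x⁻¹ = z := by
      refine commute_of_coprime_totient ?_ ?_
      · obtain ⟨i, hi⟩ := mem_zpowers_iff.mp
          (hz ⟨_, (inferInstance : (pCore 2 H).Normal).conj_mem _ z.2 x⟩)
        exact ⟨i, by show (z : H) ^ i = _; rw [← coe_zpow, hi]⟩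
      · rw [hkx, orderOf_coe, hk]
        rcases Nat.eq_zero_or_pos k with rfl | hk0
        · simp
        · rw [Nat.totient_prime_pow Nat.prime_two hk0]
          simp only [Nat.succ_sub_one, mul_one]
          exact Nat.Coprime.pow _ _ ((Nat.coprime_primes hp Nat.prime_two).mpr hp2)
    obtain ⟨i, hi⟩ := mem_zpowers_iff.mp (hz ⟨a, ha⟩)
    have hi' : (z : H) ^ i = a := by rw [← coe_zpow, hi]
    rw [← hi']
    exact (show Commute x (z : H) from mul_inv_eq_iff_eq_mul.mp h1).zpow_right i
  haveI : NeZero (2 ^ n) := ⟨by positivity⟩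
  let Ψ : H →* MulAut (QuaternionGroup (2 ^ n)) :=
    (MulAut.congr eQ).toMonoidHom.comp MulAut.conjNormal
  have hΨ : ∀ h : H, Ψ h = 1 → ∀ b ∈ pCore 2 H, Commute h b := by
    intro h h1 b hb
    have h2 : eQ (MulAut.conjNormal h (eQ.symm (eQ ⟨b, hb⟩))) = eQ ⟨b, hb⟩ :=
      DFunLike.congr_fun h1 (eQ ⟨b, hb⟩)
    rw [MulEquiv.symm_apply_apply] at h2
    have h3 := congrArg Subtype.val (eQ.injective h2)
    rw [MulAut.conjNormal_apply] at h3
    exact mul_inv_eq_iff_eq_mul.mp h3
  have hp3 : p = 3 := by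
    by_contra h3
    refine hxa (hΨ x (quaternion_auto hn _ ?_) a ha)
    refine Nat.Coprime.coprime_dvd_left ((orderOf_map_dvd Ψ x).trans hkx.dvd) ?_
    refine Nat.Coprime.pow_left kx ?_
    exact Nat.Coprime.mul_right (k := p) (m := 2) (n := 3)
      ((Nat.coprime_primes hp Nat.prime_two).mpr hp2) ((Nat.coprime_primes hp Nat.prime_three).mpr h3)
  subst hp3
  haveI := Fact.mk Nat.prime_three
  have hnc : ∃ b c : pCore 2 H, b * c ≠ c * b := by
    refine ⟨eQ.symm (QuaternionGroup.a 1), eQ.symm (QuaternionGroup.xa 0), fun h => ?_⟩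
    rw [← map_mul, ← map_mul, eQ.symm.injective.eq_iff, QuaternionGroup.a_mul_xa,
      QuaternionGroup.xa_mul_a, QuaternionGroup.xa.injEq] at h
    have h2 : ((2 : ℕ) : ZMod (2 * 2 ^ n)) = 0 := by
      push_cast
      calc (2 : ZMod (2 * 2 ^ n)) = (0 + 1) - (0 - 1) := by ring
        _ = 0 := by rw [← h, sub_self]
    rw [ZMod.natCast_eq_zero_iff] at h2
    have := Nat.le_of_dvd (by norm_num) h2
    have : 2 ≤ 2 ^ n := Nat.le_self_pow (by omega) 2
    omega
  have hH3 : ∀ q, q.Prime → q ≠ 3 → q ∣ Nat.card H → q ∣ 3 ^ m - 1 := fun q hq hq3 hd => by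
    have h1 := hq.factorization_pos_of_dvd Nat.card_pos.ne' hd
    rw [hfac q hq hq3] at h1
    exact Nat.dvd_of_factorization_pos h1.ne'
  by_cases hm3 : 3 ≤ m
  · exfalso
    obtain ⟨r, hr, hrd, hrmin⟩ := Lib.Zsigmondy.exists_primitive_prime 3 m (by norm_num) (by omega)
      (by omega) (fun h => by omega)
    have hr3 : r ≠ 3 := by
      rintro rfl
      have h1 : 3 ∣ 3 ^ m := dvd_pow_self 3 (by omega)
      have : 1 ≤ 3 ^ m := Nat.one_le_pow _ _ (by norm_num)
      omega
    have hr2 : r ≠ 2 := fun h => hrmin 1 one_pos (by omega) (by rw [h]; norm_num)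
    have hr5 : 5 ≤ r := by
      have h4 : r ≠ 4 := fun h => absurd (h ▸ hr : Nat.Prime 4) (by norm_num)
      have := hr.two_le
      omega
    haveI := Fact.mk hr
    have hrH : r ∣ Nat.card H := by
      refine Nat.dvd_of_factorization_pos (n := Nat.card H) ?_
      rw [hfac r hr hr3]
      exact (hr.factorization_pos_of_dvd hn0 hrd).ne'
    obtain ⟨y, hy⟩ := exists_prime_orderOf_dvd_card' r hrH
    have hy1 : y ≠ 1 := fun h => by rw [h, orderOf_one] at hy; exact hr.one_lt.ne hy
    have hyfix := hfpf y hy1 (by rw [hy]; exact fun h => hr3 ((Nat.prime_dvd_prime_iff_eq Nat.prime_three hr).mp h).symm)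
    -- `y` is irreducible
    let U : Subgroup V := closure (Set.range fun j : ℕ => φ (y ^ j) v0)
    have hUy : ∀ u ∈ U, φ y u ∈ U := by
      intro u hu
      have : U ≤ U.comap (φ y).toMonoidHom := (closure_le _).mpr (by
        rintro _ ⟨j, rfl⟩
        exact subset_closure ⟨j + 1, by show φ (y ^ (j + 1)) v0 = φ y (φ (y ^ j) v0); rw [pow_succ', map_mul]; rfl⟩)
      exact this hu
    have hUtop : U = ⊤ := by
      obtain ⟨i, him, hi⟩ := (Nat.dvd_prime_pow Nat.prime_three).mp (hm ▸ U.card_subgroup_dvd_card)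
      have hv0U : v0 ∈ U := subset_closure ⟨0, by simp⟩
      have hi0 : i ≠ 0 := fun h => hv0 (mem_bot.mp ((Subgroup.card_eq_one.mp (by rw [hi, h, pow_zero])) ▸ hv0U))
      have hUinv : ∀ g ∈ zpowers y, ∀ u ∈ U, φ g u ∈ U := by
        intro g hg u hu
        obtain ⟨k, rfl⟩ := (mem_powers_iff_mem_zpowers.mpr hg : g ∈ Submonoid.powers y)
        clear hg
        show φ (y ^ k) u ∈ U
        induction k with
        | zero => simpa using hu
        | succ k ih => rw [pow_succ', map_mul]; exact hUy _ ih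
      letI : MulAction (zpowers y) U :=
        { smul := fun g u => ⟨φ g.1 u.1, hUinv g.1 g.2 u.1 u.2⟩
          one_smul := fun u => Subtype.ext (show φ 1 u.1 = u.1 by rw [map_one]; rfl)
          mul_smul := fun g h u => Subtype.ext (show φ (g.1 * h.1) u.1 = φ g.1 (φ h.1 u.1) by rw [map_mul]; rfl) }
      have hpg : IsPGroup r (zpowers y) := IsPGroup.of_card (n := 1) (by rw [Nat.card_zpowers, hy, pow_one])
      have hmod := hpg.card_modEq_card_fixedPoints U
      have hfx : MulAction.fixedPoints (zpowers y) U = {1} := by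
        ext u
        constructor
        · intro hu
          exact Subtype.ext (hyfix _ (congrArg Subtype.val (hu ⟨y, mem_zpowers y⟩)))
        · rintro rfl g; exact Subtype.ext (map_one (φ g.1))
      rw [hfx, Nat.card_coe_set_eq, Set.ncard_singleton, hi] at hmod
      have hdiv : r ∣ 3 ^ i - 1 := (Nat.modEq_iff_dvd' (Nat.one_le_pow _ _ (by norm_num))).mp hmod.symm
      have him' : i = m := by
        by_contra hne
        exact hrmin i (Nat.pos_of_ne_zero hi0) (by omega) hdiv
      exact eq_top_of_card_eq U (by rw [hi, him', hm])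
    have hagree : ∀ f g : V →* V, (∀ u, f (φ y u) = φ y (f u)) → (∀ u, g (φ y u) = φ y (g u)) →
        f v0 = g v0 → f = g := by
      intro f g hf hg h0
      refine MonoidHom.eq_of_eqOn_dense (s := Set.range fun j : ℕ => φ (y ^ j) v0) hUtop ?_
      rintro _ ⟨j, rfl⟩
      show f (φ (y ^ j) v0) = g (φ (y ^ j) v0)
      induction j with
      | zero => simpa using h0
      | succ j ih =>
        rw [pow_succ', map_mul, MulAut.mul_apply, hf, hg, ih]
    have hcomm : ∀ g h : H, Commute g y → Commute h y → Commute g h := by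
      intro g h hg hh
      let W : Subgroup V :=
        { carrier := {w | ∃ Φ : V →* V, Φ v0 = w ∧ (∀ u, Φ (φ y u) = φ y (Φ u)) ∧
            ∀ u, Φ (φ g u) = φ g (Φ u)}
          one_mem' := ⟨1, rfl, fun u => by simp, fun u => by simp⟩
          mul_mem' := by
            rintro _ _ ⟨Φ, rfl, h1, h2⟩ ⟨Φ', rfl, h1', h2'⟩
            exact ⟨Φ * Φ', rfl, fun u => by simp [h1, h1'], fun u => by simp [h2, h2']⟩
          inv_mem' := by
            rintro _ ⟨Φ, rfl, h1, h2⟩
            exact ⟨Φ⁻¹, rfl, fun u => by simp [h1], fun u => by simp [h2]⟩ }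
      have hmm : ∀ s t : H, Commute s t → ∀ u, φ s (φ t u) = φ t (φ s u) := fun s t hst u => by
        rw [← MulAut.mul_apply, ← map_mul, hst.eq, map_mul]; rfl
      have hW : U ≤ W := (closure_le _).mpr (by
        rintro _ ⟨j, rfl⟩
        exact ⟨(φ (y ^ j)).toMonoidHom, rfl, fun u => hmm _ _ ((Commute.refl y).pow_left j) u,
          fun u => hmm _ _ (hg.symm.pow_left j) u⟩)
      obtain ⟨Φ, hΦ, h1, h2⟩ := hW (hUtop ▸ mem_top (φ h v0))
      have : Φ = (φ h).toMonoidHom := hagree _ _ h1 (fun u => hmm _ _ hh u) hΦ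
      apply hinj
      refine MulEquiv.ext fun u => ?_
      rw [map_mul, map_mul]
      subst this
      exact (h2 u).symm
    obtain ⟨b, c, hbc⟩ := hnc
    have hyc : ∀ d ∈ pCore 2 H, Commute d y := fun d hd => by
      refine (hΨ y (quaternion_auto hn _ ?_) d hd).symm
      refine Nat.Coprime.coprime_dvd_left ((orderOf_map_dvd Ψ y).trans hy.dvd) ?_
      exact Nat.Coprime.mul_right (k := r) (m := 2) (n := 3)
        ((Nat.coprime_primes hr Nat.prime_two).mpr hr2) ((Nat.coprime_primes hr Nat.prime_three).mpr hr3)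
    exact hbc (Subtype.ext (hcomm _ _ (hyc b b.2) (hyc c c.2)).eq)
  have hQ4 : 8 ≤ Nat.card (pCore 2 H) := by
    rw [Nat.card_congr eQ.toEquiv, Nat.card_eq_fintype_card, QuaternionGroup.card]
    have : 2 ≤ 2 ^ n := Nat.le_self_pow (by omega) 2
    omega
  obtain ⟨kQ, hkQ⟩ := IsPGroup.iff_card.mp (Lib.Hall.isPGroup_pCore (G := H) 2)
  have hkQ' : kQ ≤ (3 ^ m - 1).factorization 2 := by
    rw [← hfac 2 Nat.prime_two (by norm_num),
      ← Nat.Prime.pow_dvd_iff_le_factorization Nat.prime_two Nat.card_pos.ne', ← hkQ]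
    exact card_subgroup_dvd_card _
  have hkQ3 : 3 ≤ kQ := by
    by_contra hlt
    have : 2 ^ kQ ≤ 2 ^ 2 := Nat.pow_le_pow_right (by norm_num) (by omega)
    omega
  have hm2 : m = 2 := by
    interval_cases m
    · rw [show (3 : ℕ) ^ 1 - 1 = 2 from rfl, Nat.prime_two.factorization_self] at hkQ'
      omega
    · rfl
  subst hm2
  rw [show (3 : ℕ) ^ 2 - 1 = 2 ^ 3 from rfl, Nat.prime_two.factorization_pow, Finsupp.single_eq_same] at hkQ'
  have hkQ8 : kQ = 3 := by omega
  subst hkQ8
  obtain ⟨P⟩ := (inferInstance : Nonempty (Sylow 3 H))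
  have hcardH : Nat.card H = 2 ^ 3 * 3 ^ (Nat.card H).factorization 3 := by
    refine Nat.eq_of_factorization_eq Nat.card_pos.ne' (by positivity) fun q => ?_
    rw [Nat.factorization_mul (by norm_num) (by positivity), Finsupp.add_apply,
      Nat.prime_two.factorization_pow, Nat.prime_three.factorization_pow]
    by_cases hq : q.Prime
    · rcases eq_or_ne q 3 with rfl | hq3
      · simp
      rw [hfac q hq hq3, show (3 : ℕ) ^ 2 - 1 = 2 ^ 3 from rfl, Nat.prime_two.factorization_pow,
        Finsupp.single_eq_of_ne hq3, add_zero]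
    · rw [Nat.factorization_eq_zero_of_not_prime _ hq,
        Finsupp.single_eq_of_ne (show q ≠ 2 by rintro rfl; exact hq Nat.prime_two),
        Finsupp.single_eq_of_ne (show q ≠ 3 by rintro rfl; exact hq Nat.prime_three), add_zero]
  have hcompl : (pCore 2 H).IsComplement' (P : Subgroup H) := by
    refine isComplement'_of_coprime ?_ ?_
    · rw [hkQ, P.card_eq_multiplicity]; exact hcardH.symm
    · rw [hkQ, P.card_eq_multiplicity]; exact Nat.Coprime.pow _ _ (by norm_num)
  refine ⟨⟨P, pCore 2 H, inferInstance, hcompl⟩, fun Q => ?_⟩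
  have hn1 : n = 1 := by
    have := hkQ
    rw [Nat.card_congr eQ.toEquiv, Nat.card_eq_fintype_card, QuaternionGroup.card] at this
    have h2 : (2 : ℕ) ^ n = 2 ^ 1 := by omega
    exact Nat.pow_right_injective le_rfl h2
  subst hn1
  -- a Sylow 3-subgroup moves the cyclic subgroups faithfully
  have hker : ∀ h ∈ (Q : Subgroup H), Ψ h (QuaternionGroup.a 1) ∈
      zpowers (QuaternionGroup.a (1 : ZMod (2 * 2 ^ 1))) → h = 1 := by
    intro h hh hfix
    obtain ⟨k, hk⟩ := IsPGroup.iff_orderOf.mp Q.isPGroup' ⟨h, hh⟩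
    rw [orderOf_mk] at hk
    have h1 := quaternion_aux (Ψ h) (Odd.of_dvd_nat (Odd.pow (by decide : Odd 3))
      ((orderOf_map_dvd Ψ h).trans hk.dvd)) hfix
    have hF' : h ∈ fittingSubgroup H := hF h fun q hq hq3 b hb => by
      rcases eq_or_ne q 2 with rfl | hq2
      · exact hΨ h h1 b hb
      · have : pCore q H = ⊥ := by
          haveI := Fact.mk hq
          refine Lib.Hall.pCore_eq_bot_of_not_dvd fun hd => ?_
          have h8 := hH3 q hq hq3 hd
          exact hq2 ((Nat.prime_dvd_prime_iff_eq hq Nat.prime_two).mp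
            (hq.dvd_of_dvd_pow (show q ∣ 2 ^ 3 from h8)))
        rw [this, mem_bot] at hb
        rw [hb]; exact Commute.one_right h
    rw [← orderOf_eq_one_iff]
    exact Nat.eq_one_of_dvd_coprimes ((Nat.prime_three.coprime_iff_not_dvd.mpr hFp).pow_left k).symm
      (Subgroup.orderOf_dvd_natCard _ hF') (hk ▸ dvd_rfl)
  have hQ3 : Nat.card Q ≤ 3 := by
    let f : Q → cyc3 1 := fun h => ⟨_, map_mem_cyc3 le_rfl (Ψ (h : H))⟩
    have hf : Function.Injective f := by
      intro h h' e
      have e' := congrArg Subtype.val e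
      have h1 : Ψ ((h' : H)⁻¹ * h) (QuaternionGroup.a 1) ∈
          zpowers (QuaternionGroup.a (1 : ZMod (2 * 2 ^ 1))) := by
        have h2 : Ψ (h : H) (QuaternionGroup.a 1) ∈
            (zpowers (QuaternionGroup.a (1 : ZMod (2 * 2 ^ 1)))).map (Ψ (h' : H)).toMonoidHom :=
          by have h3 := mem_map_of_mem (Ψ (h : H)).toMonoidHom (mem_zpowers (QuaternionGroup.a (1 : ZMod (2 * 2 ^ 1)))); rwa [show (zpowers (QuaternionGroup.a (1 : ZMod (2 * 2 ^ 1)))).map (Ψ (h : H)).toMonoidHom = _ from e'] at h3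
        obtain ⟨z, hz, hz'⟩ := h2
        rw [map_mul, MulAut.mul_apply, ← hz', map_inv]
        simpa using hz
      have := hker _ (mul_mem (inv_mem h'.2) h.2) h1
      exact Subtype.ext (inv_mul_eq_one.mp this).symm
    refine (Nat.card_le_card_of_injective f hf).trans ?_
    rw [Nat.card_coe_set_eq]
    refine (Set.ncard_insert_le _ _).trans (Nat.succ_le_succ ?_)
    refine (Set.ncard_insert_le _ _).trans ?_
    rw [Set.ncard_singleton]
  obtain ⟨k, hk⟩ := IsPGroup.iff_card.mp Q.isPGroup'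
  have hk1 : k ≤ 1 := by
    by_contra hk2
    have : 3 ^ 2 ≤ 3 ^ k := Nat.pow_le_pow_right (by norm_num) (by omega)
    omega
  haveI : IsCyclic (Q : Subgroup H) := by
    interval_cases k
    · haveI : Subsingleton (Q : Subgroup H) := (Nat.card_eq_one_iff_unique.mp (by simpa using hk)).1
      infer_instance
    · exact isCyclic_of_prime_card (p := 3) (by simpa using hk)
  letI := IsCyclic.commGroup (α := (Q : Subgroup H))
  exact ⟨⟨mul_comm⟩⟩

end core

/-- Let G be a finite solvable group of order greater than 2 with an irreducible character nonzero on exactly two conjugacy classes. Then there is exactly one prime p with O_p(G) ≠ 1, and the quotient G/O_p(G) has a normal p-complement and commutative Sylow p-subgroups. -/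
theorem result {G : Type*} [Group G] [Finite G] [hs : Group.IsSolvable G] (hG : 2 < Nat.card G) (χ : Cfsg.IrrCharacter G) (hχ : Nat.card {C : ConjClasses G // ∃ g ∈ C.carrier, (χ : G → ℂ) g ≠ 0} = 2) :
    ∃ p : ℕ, p.Prime ∧ (∀ q : ℕ, q.Prime → (Cfsg.pCore q G ≠ ⊥ ↔ q = p)) ∧
      Cfsg.HasNormalPComplement p (G ⧸ Cfsg.pCore p G) ∧ ∀ Q : Sylow p (G ⧸ Cfsg.pCore p G), IsMulCommutative (Q : Subgroup (G ⧸ Cfsg.pCore p G)) := by
  classical
  haveI := Fintype.ofFinite G
  obtain ⟨c, hc1, hsupp⟩ : ∃ c : G, c ≠ 1 ∧ ∀ x, (χ : G → ℂ) x ≠ 0 ↔ x = 1 ∨ IsConj c x := by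
    let C1 : {C : ConjClasses G // ∃ g ∈ C.carrier, (χ : G → ℂ) g ≠ 0} :=
      ⟨ConjClasses.mk 1, 1, ConjClasses.mem_carrier_mk, Lib.Char.irr_degree_ne_zero χ.2⟩
    obtain ⟨a, b, hab, huniv⟩ := Nat.card_eq_two_iff.mp hχ
    obtain ⟨C2, hC2, hall⟩ : ∃ C2, C2 ≠ C1 ∧ ∀ C, C = C1 ∨ C = C2 := by
      have hmem : ∀ C, C = a ∨ C = b := fun C => by
        have := huniv ▸ Set.mem_univ C
        simpa using this
      rcases hmem C1 with h | h
      · exact ⟨b, h ▸ hab.symm, fun C => h ▸ hmem C⟩
      · exact ⟨a, h ▸ hab, fun C => h ▸ (hmem C).symm⟩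
    obtain ⟨c, hcC, hc0⟩ := C2.2
    have hcC' : ConjClasses.mk c = C2.1 := ConjClasses.mem_carrier_iff_mk_eq.mp hcC
    refine ⟨c, fun h => hC2 (Subtype.ext (by rw [← hcC', h])), fun x => ⟨fun hx => ?_, ?_⟩⟩
    · rcases hall ⟨ConjClasses.mk x, x, ConjClasses.mem_carrier_mk, hx⟩ with h | h
      · exact Or.inl (isConj_one_left.mp (ConjClasses.mk_eq_mk_iff_isConj.mp (congrArg Subtype.val h)))
      · exact Or.inr (ConjClasses.mk_eq_mk_iff_isConj.mp (hcC'.trans (congrArg Subtype.val h).symm))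
    · rintro (rfl | h)
      · exact Lib.Char.irr_degree_ne_zero χ.2
      · obtain ⟨g, rfl⟩ := isConj_iff.mp h
        rw [Lib.Char.isClassFunction_of_isIrr χ.2 c g]; exact hc0
  haveI : Nontrivial G := ⟨⟨c, 1, hc1⟩⟩
  have hne : (χ : G → ℂ) ≠ fun _ => 1 := by
    intro he
    have hall : ∀ x : G, x ≠ 1 → IsConj c x := fun x hx =>
      ((hsupp x).mp (by rw [he]; exact one_ne_zero)).resolve_left hx
    have hset : MulAction.orbit (ConjAct G) c = ({1} : Set G)ᶜ := by
      ext x
      rw [ConjAct.mem_orbit_conjAct]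
      exact ⟨fun h hx => hc1 (isConj_one_right.mp (by rw [Set.mem_singleton_iff] at hx; exact (hx ▸ h))),
        fun hx => (hall x hx).symm⟩
    have hd : Nat.card G - 1 ∣ Nat.card G := by
      have h1 := (MulAction.stabilizer (ConjAct G) c).index_dvd_card
      rwa [MulAction.index_stabilizer, hset, Set.ncard_compl, Set.ncard_singleton] at h1
    have h2 := (Nat.dvd_sub hd dvd_rfl)
    rw [show Nat.card G - (Nat.card G - 1) = 1 by omega, Nat.dvd_one] at h2
    omega
  obtain ⟨M, p, hMn, hM, hp, hMp, hMc, hmin⟩ := Lib.Hall.exists_normal_pgroup (G := G)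
  haveI := Fact.mk hp
  haveI := hMn
  have hclass := fun {x : G} (hx : x ∈ M) (hx1 : x ≠ 1) => isConj_of_mem χ hc1 hsupp hne M hM hmin hx hx1
  have hcM : c ∈ M := mem_of_minimal χ hsupp M hM
  have hout : ∀ x : G, (χ : G → ℂ) x ≠ 0 → x ∈ M := fun x hx => by
    rcases (hsupp x).mp hx with rfl | h
    · exact one_mem _
    · obtain ⟨g, rfl⟩ := isConj_iff.mp h
      exact hMn.conj_mem c hcM g
  obtain ⟨m, hm⟩ := IsPGroup.iff_card.mp hMp
  have hm0 : 1 ≤ m := Nat.one_le_iff_ne_zero.mpr fun h => hM (card_eq_one.mp (by rw [hm, h, pow_zero]))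
  have hn1 : 1 < p ^ m := Nat.one_lt_pow (by omega) hp.one_lt
  have hset : MulAction.orbit (ConjAct G) c = (M : Set G) \ {1} := by
    ext x
    rw [ConjAct.mem_orbit_conjAct]
    constructor
    · intro h
      obtain ⟨g, rfl⟩ := isConj_iff.mp h.symm
      exact ⟨hMn.conj_mem c hcM g, fun e => hc1 (conj_eq_one_iff.mp e)⟩
    · rintro ⟨hx, hx1⟩; exact (hclass hx hx1).symm
  have hcnt : ((M : Set G) \ {1}).ncard = p ^ m - 1 := by
    rw [Set.ncard_sdiff_singleton_of_mem M.one_mem, ← hm]; rfl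
  set Cc := centralizer ({c} : Set G) with hCcdef
  have hidx : Cc.index = p ^ m - 1 := by
    rw [← hcnt, ← hset, ← MulAction.index_stabilizer, ConjAct.stabilizer_eq_centralizer]; rfl
  obtain ⟨d, hd⟩ := Lib.Char.exists_natDegree (Lib.Char.isCharacter_of_isIrr χ.2)
  -- the norm
  have hnorm : Nat.card G * (p ^ m - 1) = d ^ 2 * p ^ m := by
    let T : Finset G := Finset.univ.filter fun x => IsConj c x
    have hT : T.card = p ^ m - 1 := by
      rw [← hcnt, ← hset, ← Set.ncard_coe_finset]
      congr 1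
      ext x
      simp only [T, Finset.coe_filter, Finset.mem_univ, true_and, Set.mem_setOf_eq, ConjAct.mem_orbit_conjAct]
      exact isConj_comm
    have h1T : (1 : G) ∉ T := fun h => hc1 (isConj_one_left.mp (Finset.mem_filter.mp h).2)
    have hval : ∀ x ∈ T, (χ : G → ℂ) x = (χ : G → ℂ) c := fun x hx => by
      obtain ⟨g, rfl⟩ := isConj_iff.mp (Finset.mem_filter.mp hx).2
      exact Lib.Char.isClassFunction_of_isIrr χ.2 c g
    have hsum : ∀ F : G → ℂ, (∀ x, (χ : G → ℂ) x = 0 → F x = 0) →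
        ∑ x : G, F x = F 1 + ∑ x ∈ T, F x := fun F hF => by
      rw [← Finset.sum_insert h1T]
      refine (Finset.sum_subset (Finset.subset_univ _) fun x _ hx => hF x ?_).symm
      by_contra h
      apply hx
      rw [Finset.mem_insert]
      exact ((hsupp x).mp h).imp id fun h => Finset.mem_filter.mpr ⟨Finset.mem_univ _, h⟩
    have e1 := Lib.Char.classInner_irr_ne χ.2 (Lib.Char.isIrrCharacter_one (G := G)) hne
    rw [classInner, mul_eq_zero, or_iff_right (inv_ne_zero (Lib.Char.card_ne_zero_complex G))] at e1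
    simp only [map_one, mul_one] at e1
    rw [hsum _ (fun x h => h), Finset.sum_congr rfl hval, Finset.sum_const, hT, nsmul_eq_mul, hd] at e1
    have e2 := Lib.Char.classInner_irr_self χ.2
    rw [classInner, inv_mul_eq_iff_eq_mul₀ (Lib.Char.card_ne_zero_complex G), mul_one,
      hsum _ (fun x h => by rw [h, zero_mul]),
      Finset.sum_congr rfl (fun x hx => by rw [hval x hx]), Finset.sum_const, hT, nsmul_eq_mul, hd] at e2
    have hv : (χ : G → ℂ) c * ((p ^ m - 1 : ℕ) : ℂ) = -(d : ℂ) := by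
      rw [mul_comm]; exact eq_neg_of_add_eq_zero_right e1
    have hreal : conj ((χ : G → ℂ) c) * ((p ^ m - 1 : ℕ) : ℂ) = -(d : ℂ) := by
      simpa using congrArg conj hv
    have : ((Nat.card G * (p ^ m - 1) : ℕ) : ℂ) = ((d ^ 2 * p ^ m : ℕ) : ℂ) := by
      have hn' : ((p ^ m : ℕ) : ℂ) = ((p ^ m - 1 : ℕ) : ℂ) + 1 := by
        rw [Nat.cast_sub hn1.le, Nat.cast_one]; ring
      rw [Nat.cast_mul, Nat.cast_mul, Nat.cast_pow, hn', ← e2, map_natCast]
      calc ((d : ℂ) * d + ((p ^ m - 1 : ℕ) : ℂ) * ((χ : G → ℂ) c * conj ((χ : G → ℂ) c))) * ((p ^ m - 1 : ℕ) : ℂ)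
          = (d : ℂ) * d * ((p ^ m - 1 : ℕ) : ℂ) + ((χ : G → ℂ) c * ((p ^ m - 1 : ℕ) : ℂ)) *
            (conj ((χ : G → ℂ) c) * ((p ^ m - 1 : ℕ) : ℂ)) := by ring
        _ = (d : ℂ) ^ 2 * (((p ^ m - 1 : ℕ) : ℂ) + 1) := by rw [hv, hreal]; ring
    exact_mod_cast this
  have hd0 : d ≠ 0 := fun h => Lib.Char.irr_degree_ne_zero χ.2 (by rw [hd, h, Nat.cast_zero])
  have hq : ∀ q, q.Prime → q ≠ p → (Nat.card G).factorization q = (p ^ m - 1).factorization q := by
    intro q hq hqp
    haveI := Fact.mk hq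
    have e1 := congrArg (fun k => k.factorization q) hnorm
    simp only [Nat.factorization_mul Nat.card_pos.ne' (by omega : p ^ m - 1 ≠ 0),
      Nat.factorization_mul (pow_ne_zero 2 hd0) (pow_ne_zero m hp.ne_zero),
      Nat.factorization_pow, Finsupp.add_apply, Finsupp.smul_apply, smul_eq_mul,
      Nat.factorization_eq_zero_of_not_dvd (fun h => hqp ((Nat.prime_dvd_prime_iff_eq hq hp).mp h)),
      mul_zero, add_zero] at e1
    have h2 : (p ^ m - 1).factorization q ≤ (Nat.card G).factorization q :=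
      (Nat.factorization_le_iff_dvd (by omega) Nat.card_pos.ne').mpr (hidx ▸ Cc.index_dvd_card) q
    have h3 : (Nat.card G).factorization q ≤ d.factorization q := by
      obtain ⟨Q⟩ := (inferInstance : Nonempty (Sylow q G))
      haveI := Fintype.ofFinite (Q : Subgroup G)
      obtain ⟨k, hk⟩ := Lib.Char.classInner_natCast
        (Lib.Char.isCharacter_restrict (Lib.Char.isCharacter_of_isIrr χ.2) (Q : Subgroup G))
        (Lib.Char.isCharacter_one (G := (Q : Subgroup G)))
      rw [classInner, inv_mul_eq_iff_eq_mul₀ (Lib.Char.card_ne_zero_complex _),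
        Finset.sum_eq_single (1 : (Q : Subgroup G))] at hk
      · simp only [OneMemClass.coe_one, map_one, mul_one, hd] at hk
        have : Nat.card (Q : Subgroup G) ∣ d := ⟨k, by exact_mod_cast hk⟩
        rw [Q.card_eq_multiplicity] at this
        exact (hq.pow_dvd_iff_le_factorization hd0).mp this
      · intro b _ hb
        have : (χ : G → ℂ) b = 0 := by
          by_contra h
          obtain ⟨i, hi⟩ := IsPGroup.iff_orderOf.mp Q.isPGroup' b
          obtain ⟨j, hj⟩ := IsPGroup.iff_orderOf.mp hMp ⟨b, hout _ h⟩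
          rw [orderOf_mk] at hj
          apply hb
          rw [← orderOf_eq_one_iff, ← orderOf_coe]
          exact Nat.eq_one_of_dvd_coprimes (Nat.Coprime.pow i j ((Nat.coprime_primes hq hp).mpr hqp))
            (by rw [orderOf_coe, hi]) hj.dvd
        rw [this, zero_mul]
      · simp
    omega
  set O := pCore p G with hOdef
  have hOne : O ≠ ⊥ := fun h => hM (eq_bot_iff.mpr ((Lib.Hall.le_pCore hMp).trans h.le))
  have hMO : M ≤ centralizer (O : Set G) := by
    have hOp : IsPGroup p O := Lib.Hall.isPGroup_pCore p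
    haveI : Nontrivial O := (nontrivial_iff_ne_bot _).mpr hOne
    haveI : Nontrivial (center O) := hOp.center_nontrivial
    have hZn : ((center O).map O.subtype).Normal := inferInstance
    obtain ⟨M', hM'n, hM', hle, hmin'⟩ := Lib.Hall.exists_minimal_normal_le (G := G)
      (N := (center O).map O.subtype) (fun h => by
        rw [map_eq_bot_iff_of_injective _ O.subtype_injective] at h
        exact (nontrivial_iff_ne_bot _).mp inferInstance h)
    have hcl : M ≤ M' := fun x hx => by
      rcases eq_or_ne x 1 with rfl | hx1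
      · exact one_mem _
      obtain ⟨g, rfl⟩ := isConj_iff.mp (hclass hx hx1)
      exact hM'n.conj_mem c (@mem_of_minimal G _ _ χ c hsupp M' hM'n hM') g
    intro x hx
    obtain ⟨z, hz, rfl⟩ := hle (hcl hx)
    exact mem_centralizer_iff.mpr fun y hy => congrArg Subtype.val (mem_center_iff.mp hz ⟨y, hy⟩)
  have hCp : IsPGroup p (centralizer (M : Set G)) := by
    rw [IsPGroup.iff_card]
    refine ⟨_, Nat.eq_prime_pow_of_unique_prime_dvd Nat.card_pos.ne' fun {q} hq' hqd => ?_⟩
    by_contra hqp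
    have hle : centralizer (M : Set G) ≤ Cc := fun x hx =>
      mem_centralizer_singleton_iff.mpr (mem_centralizer_iff.mp hx c hcM).symm
    have h1 := congrArg (fun k => k.factorization q) Cc.card_mul_index
    rw [Nat.factorization_mul (Nat.card_pos (α := Cc)).ne' (index_ne_zero_of_finite (H := Cc)),
      Finsupp.add_apply, hidx, hq q hq' hqp] at h1
    have := hq'.factorization_pos_of_dvd (Nat.card_pos (α := Cc)).ne' (hqd.trans (card_dvd_of_le hle))
    omega
  have hker : centralizer (M : Set G) = O :=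
    le_antisymm (Lib.Hall.le_pCore hCp) fun o ho => mem_centralizer_iff.mpr fun x hx =>
      (mem_centralizer_iff.mp (hMO hx) o ho).symm
  refine ⟨p, hp, fun q hq' => ⟨fun hne' => ?_, fun h => h ▸ hOne⟩, ?_⟩
  · haveI := Fact.mk hq'
    obtain ⟨M', hM'n, hM', hle, -⟩ := Lib.Hall.exists_minimal_normal_le (G := G) (N := pCore q G) hne'
    have hcq := hle (@mem_of_minimal G _ _ χ c hsupp M' hM'n hM')
    obtain ⟨i, hi⟩ := IsPGroup.iff_orderOf.mp (Lib.Hall.isPGroup_pCore (G := G) q) ⟨c, hcq⟩
    obtain ⟨j, hj⟩ := IsPGroup.iff_orderOf.mp hMp ⟨c, hcM⟩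
    rw [orderOf_mk] at hi hj
    by_contra hqp
    exact hc1 (orderOf_eq_one_iff.mp (Nat.eq_one_of_dvd_coprimes
      (Nat.Coprime.pow i j ((Nat.coprime_primes hq' hp).mpr hqp)) hi.dvd hj.dvd))
  letI : CommGroup M := { (inferInstance : Group M) with mul_comm := hMc.is_comm.comm }
  have hkerc : (MulAut.conjNormal : G →* MulAut M).ker = O := by
    rw [← hker]
    ext g
    rw [MonoidHom.mem_ker, mem_centralizer_iff]
    constructor
    · intro h x hx
      have h2 := congrArg (fun σ => ((σ ⟨x, hx⟩ : M) : G)) h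
      simp only [MulAut.conjNormal_apply, MulAut.one_apply] at h2
      exact (mul_inv_eq_iff_eq_mul.mp h2).symm
    · intro h
      refine MulEquiv.ext fun x => Subtype.ext ?_
      rw [MulAut.conjNormal_apply, MulAut.one_apply]
      exact mul_inv_eq_iff_eq_mul.mpr (h x x.2).symm
  let φ : G ⧸ O →* MulAut M := QuotientGroup.lift O MulAut.conjNormal hkerc.ge
  refine core hp (V := M) hm hm0 φ ?_ ?_ ?_ ?_
  · refine (injective_iff_map_eq_one φ).mpr fun y hy => ?_
    obtain ⟨g, rfl⟩ := QuotientGroup.mk_surjective y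
    exact (QuotientGroup.eq_one_iff g).mpr (hkerc ▸ hy)
  · intro v w hv hw
    obtain ⟨g, hg⟩ := isConj_iff.mp ((hclass v.2 fun e => hv (Subtype.ext e)).symm.trans
      (hclass w.2 fun e => hw (Subtype.ext e)))
    exact ⟨(g : G ⧸ O), Subtype.ext (by simpa [φ, MulAut.conjNormal_apply] using hg)⟩
  · intro q hq' hqp
    rw [← hq q hq' hqp]
    obtain ⟨i, hi⟩ := IsPGroup.iff_card.mp (Lib.Hall.isPGroup_pCore (G := G) p)
    have h1 := congrArg (fun k => k.factorization q) O.index_mul_card
    simp only [Nat.factorization_mul (index_ne_zero_of_finite (H := O)) (Nat.card_pos (α := O)).ne',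
      Finsupp.add_apply] at h1
    rw [show Nat.card O = p ^ i from hi, Nat.factorization_eq_zero_of_not_dvd (n := p ^ i)
      (fun h => hqp ((Nat.prime_dvd_prime_iff_eq hq' hp).mp (hq'.dvd_of_dvd_pow h))), add_zero] at h1
    rw [← index_eq_card]; exact h1
  · rw [eq_bot_iff]
    intro y hy
    obtain ⟨g, rfl⟩ := QuotientGroup.mk_surjective y
    have hpre : IsPGroup p ((pCore p (G ⧸ O)).comap (QuotientGroup.mk' O)) :=
      (Lib.Hall.isPGroup_pCore p).comap_of_ker_isPGroup _ (by
        rw [QuotientGroup.ker_mk']; exact Lib.Hall.isPGroup_pCore p)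
    exact mem_bot.mpr ((QuotientGroup.eq_one_iff g).mpr (Lib.Hall.le_pCore hpre (show g ∈ _ from hy)))

end Cfsg.Agent.S4840
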