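import Cfsg.Statements.S4845
import Cfsg.Agent.Lib.Char.Scalar
import Cfsg.Agent.Lib.Char.Linear
import Cfsg.Agent.Lib.Ito
import Cfsg.Agent.Lib.Thompson.RankTwo
import Cfsg.Agent.Lib.Transfer.Tate
import Mathlib.RingTheory.RootsOfUnity.PrimitiveRoots

set_option autoImplicit false
open Cfsg Subgroup
open scoped commutatorElement ComplexConjugate

namespace Cfsg.Agent.S4845

open Cfsg.Agent.Lib

universe u

variable {P : Type u} [Group P] [Finite P] {p : ℕ} [hp : Fact p.Prime]

/-- Characters of equal degree above one are Galois conjugate. -/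
def GaloisDeg (P : Type u) [Group P] : Prop :=
  ∀ χ ψ : IrrCharacter P, charDegree (χ : P → ℂ) ≠ 1 → charDegree (χ : P → ℂ) = charDegree (ψ : P → ℂ) →
    ∃ k : ℕ, Nat.Coprime k (Nat.card P) ∧ ∀ g : P, (ψ : P → ℂ) g = (χ : P → ℂ) (g ^ k)

theorem mem_of_forall_irr (N : Subgroup P) [N.Normal] {g : P}
    (h : ∀ χ : IrrCharacter P, (∀ n ∈ N, (χ : P → ℂ) n = (χ : P → ℂ) 1) →
      (χ : P → ℂ) g = (χ : P → ℂ) 1) : g ∈ N := by
  rw [← QuotientGroup.eq_one_iff]
  refine Lib.Char.eq_one_of_forall_irr fun η => ?_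
  have := h (Lib.Char.inflateEquiv N η).1 (Lib.Char.inflateEquiv N η).2
  simpa [Lib.Char.inflateEquiv_apply] using this

omit [Finite P] in
theorem commutator_apply_eq_one {χ : P → ℂ} (hχ : IsIrrCharacter P χ) (h : charDegree χ = 1) :
    ∀ g ∈ commutator P, χ g = χ 1 := by
  intro g hg
  obtain ⟨l, hl⟩ := Lib.Char.exists_hom_of_degree_one (Lib.Char.isCharacter_of_isIrr hχ)
    ((Lib.Char.charDegree_eq_one_iff hχ).mp h)
  rw [hl, hl, map_one, Abelianization.commutator_subset_ker l hg]

theorem kernel_le_commutator (hG : GaloisDeg P) (χ : IrrCharacter P) (h : charDegree (χ : P → ℂ) ≠ 1)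
    {g : P} (hg : (χ : P → ℂ) g = (χ : P → ℂ) 1) : g ∈ commutator P := by
  classical
  haveI := Fintype.ofFinite (P ⧸ commutator P)
  haveI := Fintype.ofFinite P
  have hc := Lib.Char.isCharacter_of_isIrr χ.2
  refine mem_of_forall_irr (commutator P) fun ψ hψ => ?_
  obtain ⟨η, hη, he⟩ := Lib.Char.exists_irr_deflation ψ.2 (commutator P) hψ
  have hη1 : η 1 = 1 := Lib.Ito.apply_one_of_abelian
    (H := P ⧸ commutator P) (fun a b => @mul_comm (Abelianization P) _ a b) hη
  have hψ1 : (ψ : P → ℂ) 1 = 1 := by rw [← he, QuotientGroup.mk_one, hη1]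
  obtain ⟨l, hl⟩ := Lib.Char.exists_hom_of_degree_one (Lib.Char.isCharacter_of_isIrr ψ.2) hψ1
  let φ : IrrCharacter P := ⟨_, Lib.Char.isIrrCharacter_linear_mul χ.2 l⟩
  have hd : charDegree (χ : P → ℂ) = charDegree (φ : P → ℂ) := by
    refine (Lib.Char.charDegree_eq_of_apply_one ?_).symm
    show (l 1 : ℂ) * (χ : P → ℂ) 1 = _
    rw [map_one, Units.val_one, one_mul, Lib.Char.apply_one_eq_charDegree hc]
  obtain ⟨k, -, hk⟩ := hG χ φ h hd
  have h1 : (l g : ℂ) * (χ : P → ℂ) g = (χ : P → ℂ) (g ^ k) := hk g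
  have hgk : (χ : P → ℂ) (g ^ k) = (χ : P → ℂ) 1 :=
    (Lib.Char.mem_charKer hc).mp (pow_mem ((Lib.Char.mem_charKer hc).mpr hg) k)
  rw [hgk, hg, mul_eq_right₀ (Lib.Char.irr_degree_ne_zero χ.2)] at h1
  rw [hl, hψ1, h1]

theorem kernel_eq (hG : GaloisDeg P) (χ ψ : IrrCharacter P) (h : charDegree (χ : P → ℂ) ≠ 1)
    (he : charDegree (χ : P → ℂ) = charDegree (ψ : P → ℂ)) {g : P} (hg : (χ : P → ℂ) g = (χ : P → ℂ) 1) :
    (ψ : P → ℂ) g = (ψ : P → ℂ) 1 := by
  obtain ⟨k, -, hk⟩ := hG χ ψ h he
  rw [hk g, hk 1, one_pow]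
  exact (Lib.Char.mem_charKer (Lib.Char.isCharacter_of_isIrr χ.2)).mp
    (pow_mem ((Lib.Char.mem_charKer (Lib.Char.isCharacter_of_isIrr χ.2)).mpr hg) k)

theorem exists_nonlinear (N : Subgroup P) [N.Normal] {z : P} (hz : z ∈ commutator P) (hzN : z ∉ N) :
    ∃ χ : IrrCharacter P, charDegree (χ : P → ℂ) ≠ 1 ∧ (∀ n ∈ N, (χ : P → ℂ) n = (χ : P → ℂ) 1) ∧
      (χ : P → ℂ) z ≠ (χ : P → ℂ) 1 := by
  by_contra h
  push Not at h
  refine hzN (mem_of_forall_irr N fun χ hχ => ?_)
  by_cases h1 : charDegree (χ : P → ℂ) = 1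
  · exact commutator_apply_eq_one χ.2 h1 z hz
  · exact h χ h1 hχ

/-- The comparable pair property of cyclic groups. -/
theorem mem_zpowers_of_pow_eq_one {A : Type*} [Group A] [Finite A] [IsCyclic A] {u v : A}
    (h : u ^ orderOf v = 1) : u ∈ zpowers v := by
  classical
  haveI := Fintype.ofFinite A
  have hsub : (zpowers v : Set A).toFinset ⊆ Finset.univ.filter fun a : A => a ^ orderOf v = 1 := by
    intro a ha
    rw [Set.mem_toFinset] at ha
    obtain ⟨i, rfl⟩ := ha
    rw [Finset.mem_filter]
    exact ⟨Finset.mem_univ _, by show (v ^ i) ^ orderOf v = 1; rw [← zpow_natCast, ← zpow_mul, mul_comm, zpow_mul, zpow_natCast, pow_orderOf_eq_one, one_zpow]⟩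
  have hle := IsCyclic.card_pow_eq_one_le (α := A) (orderOf_pos v)
  have hc : (zpowers v : Set A).toFinset.card = orderOf v := by
    rw [Set.toFinset_card, ← Nat.card_eq_fintype_card]
    exact Nat.card_zpowers v
  have := Finset.eq_of_subset_of_card_le hsub (by rw [hc]; exact hle)
  rw [← SetLike.mem_coe, ← Set.mem_toFinset, this, Finset.mem_filter]
  exact ⟨Finset.mem_univ _, h⟩

omit [Finite P] in
theorem commutator_pow_right {x y : P} (h : ⁅x, y⁆ ∈ center P) (n : ℕ) : ⁅x, y ^ n⁆ = ⁅x, y⁆ ^ n := by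
  induction n with
  | zero => simp [commutatorElement_def]
  | succ n ih =>
    have e : ⁅x, y ^ (n + 1)⁆ = ⁅x, y ^ n⁆ * (y ^ n * ⁅x, y⁆ * (y ^ n)⁻¹) := by
      rw [pow_succ, commutatorElement_def, commutatorElement_def, commutatorElement_def]
      group
    rw [e, ih, mem_center_iff.mp h (y ^ n), mul_inv_cancel_right, ← pow_succ]

omit [Finite P] in
theorem commutator_pow_left {x y : P} (h : ⁅x, y⁆ ∈ center P) (n : ℕ) : ⁅x ^ n, y⁆ = ⁅x, y⁆ ^ n := by
  have h' : ⁅y, x⁆ ∈ center P := by rw [← commutatorElement_inv]; exact inv_mem h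
  rw [← commutatorElement_inv y (x ^ n), commutator_pow_right h', ← inv_pow, commutatorElement_inv]

theorem isCyclic_center_of_faithful {χ : P → ℂ} (hχ : IsIrrCharacter P χ)
    (hf : ∀ g, χ g = χ 1 → g = 1) : IsCyclic (center P) := by
  classical
  haveI := Fintype.ofFinite P
  have hc := Lib.Char.isCharacter_of_isIrr hχ
  have h0 : χ 1 ≠ 0 := Lib.Char.irr_degree_ne_zero hχ
  let f : center P →* ℂ :=
    { toFun := fun z => χ z / χ 1
      map_one' := div_self h0
      map_mul' := fun a b => by
        show χ ((a : P) * b) / χ 1 = _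
        have := (Lib.Char.apply_mul_of_norm_eq hc (Lib.Char.norm_char_of_mem_center hχ a.2) (b : P)).1
        field_simp
        linear_combination this }
  refine isCyclic_of_subgroup_isDomain f ((injective_iff_map_eq_one f).mpr fun z hz => ?_)
  have : χ (z : P) / χ 1 = 1 := hz
  exact Subtype.ext (hf z ((div_eq_one_iff_eq h0).mp this))

/-- Facts about a normal subgroup `N` of order `p` inside a derived group of order `p²`. -/
theorem quotient_data (hG : GaloisDeg P) (hP : IsPGroup p P) (hD : Nat.card (commutator P) = p ^ 2)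
    (N : Subgroup P) [N.Normal] (hN : Nat.card N = p) (hND : N ≤ commutator P)
    (hT : ⁅commutator P, (⊤ : Subgroup P)⁆ ≤ N) :
    commutator P ≤ (center (P ⧸ N)).comap (QuotientGroup.mk' N) ∧
    ∃ χ : IrrCharacter P, charDegree (χ : P → ℂ) ≠ 1 ∧ (∀ g : P, (χ : P → ℂ) g = (χ : P → ℂ) 1 ↔ g ∈ N) ∧
      IsCyclic (center (P ⧸ N)) ∧
      Nat.card P = Nat.card ((center (P ⧸ N)).comap (QuotientGroup.mk' N)) * charDegree (χ : P → ℂ) ^ 2 := by
  classical
  haveI := Fintype.ofFinite P
  set W := (center (P ⧸ N)).comap (QuotientGroup.mk' N) with hW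
  have hDW : commutator P ≤ W := by
    intro c hc
    rw [hW, mem_comap, mem_center_iff]
    intro q
    obtain ⟨g, rfl⟩ := QuotientGroup.mk_surjective q
    show Commute (QuotientGroup.mk' N g) (QuotientGroup.mk' N c)
    refine Commute.symm ?_
    rw [← commutatorElement_eq_one_iff_commute, ← map_commutatorElement, ← MonoidHom.mem_ker,
      QuotientGroup.ker_mk']
    exact hT (commutator_mem_commutator hc (mem_top g))
  refine ⟨hDW, ?_⟩
  obtain ⟨z, hz, hzN⟩ := SetLike.exists_of_lt (lt_of_le_of_ne hND fun e => by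
    have := (congrArg (fun X : Subgroup P => Nat.card X) e)
    simp only [hN, hD] at this
    have := hp.out.one_lt
    nlinarith)
  obtain ⟨χ, hχ1, hχN, hχz⟩ := exists_nonlinear N hz hzN
  have hc := Lib.Char.isCharacter_of_isIrr χ.2
  have h0 : (χ : P → ℂ) 1 ≠ 0 := Lib.Char.irr_degree_ne_zero χ.2
  have hker : ∀ g : P, (χ : P → ℂ) g = (χ : P → ℂ) 1 ↔ g ∈ N := by
    refine fun g => ⟨fun hg => ?_, hχN g⟩
    let K := Lib.Char.charKer (χ : P → ℂ)
    have hKD : K ≤ commutator P := fun x hx => kernel_le_commutator hG χ hχ1 ((Lib.Char.mem_charKer hc).mp hx)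
    have hNK : N ≤ K := fun x hx => (Lib.Char.mem_charKer hc).mpr (hχN x hx)
    have hKlt : K < commutator P := lt_of_le_of_ne hKD fun e =>
      hχz ((Lib.Char.mem_charKer hc).mp (show z ∈ K from e ▸ hz))
    have hcK : Nat.card K ∣ p ^ 2 := hD ▸ card_dvd_of_le hKD
    obtain ⟨i, hi, hiK⟩ := (Nat.dvd_prime_pow hp.out).mp hcK
    have hlt : Nat.card K < p ^ 2 := by
      rw [← hD]
      exact lt_of_le_of_ne (card_le_of_le hKD) fun e => hKlt.ne (eq_of_le_of_card_ge hKD e.ge)
    rw [hiK] at hlt
    have hi2 : i < 2 := (Nat.pow_lt_pow_iff_right hp.out.one_lt).mp hlt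
    have : Nat.card K ≤ Nat.card N := by
      rw [hiK, hN]
      calc p ^ i ≤ p ^ 1 := Nat.pow_le_pow_right hp.out.pos (by omega)
        _ = p := pow_one p
    rw [eq_of_le_of_card_ge hNK this]
    exact (Lib.Char.mem_charKer hc).mpr hg
  obtain ⟨η, hη, he⟩ := Lib.Char.exists_irr_deflation χ.2 N hχN
  have hη1 : η 1 = (χ : P → ℂ) 1 := by rw [← he, QuotientGroup.mk_one]
  have hcyc : IsCyclic (center (P ⧸ N)) := isCyclic_center_of_faithful hη fun q hq => by
    obtain ⟨g, rfl⟩ := QuotientGroup.mk_surjective q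
    rw [he, hη1, hker] at hq
    exact (QuotientGroup.eq_one_iff g).mpr hq
  refine ⟨χ, hχ1, hker, hcyc, ?_⟩
  have hzero : ∀ g, g ∉ W → (χ : P → ℂ) g = 0 := by
    intro g hg
    rw [hW, mem_comap, mem_center_iff] at hg
    push Not at hg
    obtain ⟨q, hq⟩ := hg
    obtain ⟨x, rfl⟩ := QuotientGroup.mk_surjective q
    set c := ⁅x, g⁆ with hcdef
    have hcW : QuotientGroup.mk' N c ∈ center (P ⧸ N) :=
      hDW (commutator_mem_commutator (mem_top x) (mem_top g))
    have hcN : c ∉ N := fun h => hq (by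
      have h1 : Commute (QuotientGroup.mk' N x) (QuotientGroup.mk' N g) := by
        rw [← commutatorElement_eq_one_iff_commute, ← map_commutatorElement, ← MonoidHom.mem_ker,
          QuotientGroup.ker_mk']
        exact h
      exact h1.eq)
    have hηc := Lib.Char.norm_char_of_mem_center hη hcW
    rw [QuotientGroup.mk'_apply, he, hη1] at hηc
    have h2 := (Lib.Char.apply_mul_of_norm_eq hc hηc g).1
    have e : c * g = x * g * x⁻¹ := by rw [hcdef, commutatorElement_def]; group
    rw [e, Lib.Char.isClassFunction_of_isCharacter hc g x] at h2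
    by_contra hne
    have : (χ : P → ℂ) c = (χ : P → ℂ) 1 := by
      have h3 : ((χ : P → ℂ) c - (χ : P → ℂ) 1) * (χ : P → ℂ) g = 0 := by linear_combination -h2
      exact sub_eq_zero.mp ((mul_eq_zero.mp h3).resolve_right hne)
    exact hcN ((hker c).mp this)
  have hW2 : ∀ g, (χ : P → ℂ) g * conj ((χ : P → ℂ) g) =
      if g ∈ W then ((charDegree (χ : P → ℂ) : ℂ) ^ 2) else 0 := by
    intro g
    split_ifs with hg
    · have hn := Lib.Char.norm_char_of_mem_center hη (show QuotientGroup.mk' N g ∈ center (P ⧸ N) from hg)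
      rw [QuotientGroup.mk'_apply, he, hη1, Lib.Char.apply_one_eq_charDegree hc, Complex.norm_natCast] at hn
      rw [Complex.mul_conj, Complex.normSq_eq_norm_sq, hn]
      push_cast
      ring
    · rw [hzero g hg, zero_mul]
  have h := Lib.Char.classInner_irr_self χ.2
  rw [classInner, inv_mul_eq_one₀ (by exact_mod_cast Nat.card_pos.ne')] at h
  simp only [hW2] at h
  rw [Finset.sum_ite, Finset.sum_const, Finset.sum_const_zero, add_zero, nsmul_eq_mul] at h
  have hcard : (Finset.univ.filter fun g => g ∈ W).card = Nat.card W := by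
    rw [← Fintype.card_subtype, Nat.card_eq_fintype_card]
  rw [hcard] at h
  exact_mod_cast h

/-- No group with the Galois property has derived group of order `p²`. -/
theorem card_commutator_ne_sq (hP : IsPGroup p P) (hG : GaloisDeg P) :
    Nat.card (commutator P) ≠ p ^ 2 := by
  classical
  intro hD
  haveI := Fintype.ofFinite P
  haveI : Group.IsNilpotent P := hP.isNilpotent
  set D := commutator P with hDdef
  set T := ⁅D, (⊤ : Subgroup P)⁆ with hTdef
  have hTD : T ≤ D := commutator_le_left D ⊤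
  have hp1 := hp.out.one_lt
  have hpp : p < p ^ 2 := by nlinarith
  have hDne : D ≠ ⊥ := fun e => by
    rw [e, card_bot] at hD
    nlinarith
  -- a central subgroup of order `p` forces the kernel dichotomy
  have hpowN : ∀ (N : Subgroup P), Nat.card N = p → ∀ n ∈ N, n ^ p = 1 := by
    intro N hN n hn
    have := congrArg Subtype.val (pow_card_eq_one' (x := (⟨n, hn⟩ : N)))
    rwa [hN, SubmonoidClass.coe_pow] at this
  have hsplit : ∀ (N : Subgroup P), Nat.card N = p → N ≤ D → ∀ z ∈ D, z ∉ N → zpowers z ⊔ N = D := by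
    intro N hN hND z hz hzN
    refine eq_of_le_of_card_ge (sup_le (zpowers_le.mpr hz) hND) ?_
    rw [hD]
    obtain ⟨i, hi, hic⟩ := (Nat.dvd_prime_pow hp.out).mp (hD ▸ card_dvd_of_le (sup_le (zpowers_le.mpr hz) hND))
    rw [hic]
    have hlt : Nat.card N < Nat.card (zpowers z ⊔ N : Subgroup P) :=
      lt_of_le_of_ne (card_le_of_le le_sup_right) fun e =>
        hzN ((eq_of_le_of_card_ge le_sup_right e.ge).symm ▸ mem_sup_left (mem_zpowers z))
    rw [hic, hN] at hlt
    have : 1 < i := (Nat.pow_lt_pow_iff_right hp1).mp (by rwa [pow_one])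
    exact Nat.pow_le_pow_right hp.out.pos this
  by_cases hT : T = ⊥
  · have hDc : D ≤ center P := by
      intro c hc
      rw [mem_center_iff]
      intro g
      have : ⁅c, g⁆ ∈ T := commutator_mem_commutator hc (mem_top g)
      rw [hT, mem_bot, commutatorElement_eq_one_iff_mul_comm] at this
      exact this.symm
    have hnorm : ∀ z ∈ D, (zpowers z).Normal := fun z hz => Lib.Thompson.normal_of_le_center (zpowers_le.mpr (hDc hz))
    by_cases hel : ∀ c ∈ D, c ^ p = 1
    · -- elementary abelian derived group: two quotients of the same degree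
      obtain ⟨z, hz, hz1⟩ : ∃ z ∈ D, z ≠ 1 := by
        by_contra h'
        push Not at h'
        exact hDne ((eq_bot_iff_forall D).mpr h')
      have hoz : ∀ u ∈ D, u ≠ 1 → Nat.card (zpowers u) = p := fun u hu hu1 => by
        rw [Nat.card_zpowers]; exact orderOf_eq_prime (hel u hu) hu1
      obtain ⟨z', hz', hz'N⟩ : ∃ z' ∈ D, z' ∉ zpowers z := by
        by_contra h'
        push Not at h'
        have := card_le_of_le (show D ≤ zpowers z from h')
        rw [hD, hoz z hz hz1] at this
        omega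
      have hz'1 : z' ≠ 1 := fun e => hz'N (e ▸ one_mem _)
      let F : Subgroup P := closure ({u | ∃ x, u = x ^ p}) ⊔ D
      have hFc : F ≤ center P := by
        refine sup_le ((closure_le _).mpr ?_) hDc
        rintro _ ⟨x, rfl⟩
        rw [SetLike.mem_coe, mem_center_iff]
        intro g
        have hxg : ⁅x, g⁆ ∈ D := commutator_mem_commutator (mem_top x) (mem_top g)
        have : ⁅x ^ p, g⁆ = 1 := by rw [commutator_pow_left (hDc hxg), hel _ hxg]
        exact (commutatorElement_eq_one_iff_mul_comm.mp this).symm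
      have key : ∀ N : Subgroup P, Nat.card N = p → N ≤ D → ∀ hNn : N.Normal,
          ∃ χ : IrrCharacter P, ∃ e : ℕ, charDegree (χ : P → ℂ) ≠ 1 ∧
            (∀ g : P, (χ : P → ℂ) g = (χ : P → ℂ) 1 ↔ g ∈ N) ∧ charDegree (χ : P → ℂ) = p ^ e ∧
            (Nat.card P = Nat.card F * (p ^ e) ^ 2 ∨ Nat.card P = p * Nat.card F * (p ^ e) ^ 2) := by
        intro N hN hND hNn
        obtain ⟨-, χ, h1, hk, hcyc, hcard⟩ := quotient_data hG hP hD N hN hND
          (by rw [← hTdef, hT]; exact bot_le)
        set W := (center (P ⧸ N)).comap (QuotientGroup.mk' N)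
        obtain ⟨e, -, he⟩ := (Nat.dvd_prime_pow hp.out).mp
          ((IsPGroup.iff_card.mp hP).choose_spec ▸ Lib.Char.charDegree_dvd_card χ.2)
        refine ⟨χ, e, h1, hk, he, ?_⟩
        rw [he] at hcard
        have hFW : F ≤ W := fun u hu => by
          rw [mem_comap, mem_center_iff]
          intro q
          obtain ⟨g, rfl⟩ := QuotientGroup.mk_surjective q
          show (QuotientGroup.mk' N g) * QuotientGroup.mk' N u = QuotientGroup.mk' N u * QuotientGroup.mk' N g
          rw [← map_mul, ← map_mul, mem_center_iff.mp (hFc hu) g]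
        haveI : F.Normal := Lib.Thompson.normal_of_le_center hFc
        obtain ⟨⟨q0, hq0⟩, hgen⟩ := hcyc.exists_generator
        obtain ⟨w0, rfl⟩ := QuotientGroup.mk_surjective q0
        have hmap : W.map (QuotientGroup.mk' F) ≤ zpowers (QuotientGroup.mk' F w0) := by
          rintro _ ⟨w, hw, rfl⟩
          obtain ⟨m, hm⟩ := mem_zpowers_iff.mp (hgen ⟨_, hw⟩)
          have hm' : ((w0 ^ m : P) : P ⧸ N) = (w : P ⧸ N) := congrArg Subtype.val hm
          rw [QuotientGroup.eq] at hm'
          refine mem_zpowers_iff.mpr ⟨m, ?_⟩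
          rw [← map_zpow, QuotientGroup.mk'_apply, QuotientGroup.mk'_apply, QuotientGroup.eq]
          exact mem_sup_right (hND hm')
        have hord : orderOf (QuotientGroup.mk' F w0) ∣ p := orderOf_dvd_of_pow_eq_one (by
          rw [← map_pow, QuotientGroup.mk'_apply, QuotientGroup.eq_one_iff]
          exact mem_sup_left (subset_closure ⟨w0, rfl⟩))
        have hdvd : Nat.card (W.map (QuotientGroup.mk' F)) ∣ p := by
          refine (card_dvd_of_le hmap).trans ?_
          rw [Nat.card_zpowers]; exact hord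
        have hWc := Lib.Coprime.card_map_mul_card_inf_ker (QuotientGroup.mk' F) W
        rw [QuotientGroup.ker_mk', inf_eq_right.mpr hFW] at hWc
        rcases (Nat.dvd_prime hp.out).mp hdvd with h' | h' <;> rw [h'] at hWc
        · left; rw [hcard, ← hWc, one_mul]
        · right; rw [hcard, ← hWc]
      obtain ⟨χ, e, hχ1, hχk, hχe, hχc⟩ := key _ (hoz z hz hz1) (zpowers_le.mpr hz) (hnorm z hz)
      obtain ⟨ψ, e', -, hψk, hψe, hψc⟩ := key _ (hoz z' hz' hz'1) (zpowers_le.mpr hz') (hnorm z' hz')
      obtain ⟨f, hf⟩ := IsPGroup.iff_card.mp (hP.to_subgroup F)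
      obtain ⟨n, hn⟩ := IsPGroup.iff_card.mp hP
      have conv : ∀ d : ℕ, Nat.card P = Nat.card F * (p ^ d) ^ 2 ∨ Nat.card P = p * Nat.card F * (p ^ d) ^ 2 →
          n = f + 2 * d ∨ n = f + 1 + 2 * d := by
        intro d hd
        rw [hf, hn] at hd
        rcases hd with hd | hd
        · left; apply Nat.pow_right_injective hp.out.two_le
          show p ^ n = p ^ (f + 2 * d)
          rw [hd, pow_add, ← pow_mul, mul_comm d 2]
        · right; apply Nat.pow_right_injective hp.out.two_le
          show p ^ n = p ^ (f + 1 + 2 * d)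
          rw [hd, pow_add, pow_add, ← pow_mul, mul_comm d 2]; ring
      have hee : e = e' := by
        have := conv e hχc
        have := conv e' hψc
        omega
      have := kernel_eq hG χ ψ hχ1 (by rw [hχe, hψe, hee]) ((hχk z).mpr (mem_zpowers z))
      rw [hψk] at this
      have heq : zpowers z = zpowers z' := eq_of_le_of_card_ge (zpowers_le.mpr this)
        (by rw [hoz z hz hz1, hoz z' hz' hz'1])
      exact hz'N (heq ▸ mem_zpowers z')
    · -- cyclic derived group
      push Not at hel
      obtain ⟨z, hz, hzp⟩ := hel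
      have hoz : orderOf z = p ^ 2 := by
        obtain ⟨i, hi, hio⟩ := (Nat.dvd_prime_pow hp.out).mp
          (hD ▸ Subgroup.orderOf_dvd_natCard D hz : orderOf z ∣ p ^ 2)
        interval_cases i
        · exact absurd (by rw [orderOf_eq_one_iff.mp (show orderOf z = 1 by simpa using hio), one_pow]) hzp
        · exact absurd (by rw [← pow_one p, ← hio, pow_orderOf_eq_one]) hzp
        · exact hio
      have hDz : zpowers z = D := eq_of_le_of_card_ge (zpowers_le.mpr hz) (by rw [Nat.card_zpowers, hoz, hD])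
      let N := zpowers (z ^ p)
      have hzpD : z ^ p ∈ D := pow_mem hz p
      haveI : N.Normal := hnorm _ hzpD
      have hN : Nat.card N = p := by
        rw [Nat.card_zpowers, orderOf_pow' z hp.out.pos.ne', hoz, Nat.gcd_eq_right (dvd_pow_self p two_ne_zero),
          pow_two, Nat.mul_div_cancel _ hp.out.pos]
      have hND : N ≤ D := zpowers_le.mpr hzpD
      obtain ⟨hDW, χ, h1, hk, hcyc, -⟩ := quotient_data hG hP hD N hN hND (by rw [← hTdef, hT]; exact bot_le)
      obtain ⟨x, y, hxy⟩ : ∃ x y : P, ⁅x, y⁆ ^ p ≠ 1 := by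
        by_contra h'
        push Not at h'
        apply hzp
        let Kp : Subgroup P :=
          { carrier := {c | c ∈ center P ∧ c ^ p = 1}
            one_mem' := ⟨one_mem _, one_pow _⟩
            mul_mem' := fun {a b} ha hb => ⟨mul_mem ha.1 hb.1, by
              rw [Commute.mul_pow (mem_center_iff.mp hb.1 a), ha.2, hb.2, one_mul]⟩
            inv_mem' := fun {a} ha => ⟨inv_mem ha.1, by rw [inv_pow, ha.2, inv_one]⟩ }
        have hle : D ≤ Kp := by
          rw [hDdef, _root_.commutator_def, commutator_le]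
          exact fun u _ v _ => ⟨hDc (commutator_mem_commutator (mem_top u) (mem_top v)), h' u v⟩
        exact (hle hz).2
      have hpN : ∀ c ∈ D, c ^ p ∈ N := by
        intro c hc
        rw [← hDz] at hc
        obtain ⟨i, rfl⟩ := hc
        show (z ^ i) ^ p ∈ N
        rw [← zpow_natCast, ← zpow_mul, mul_comm, zpow_mul, zpow_natCast]
        exact zpow_mem (mem_zpowers _) i
      have hmem : ∀ x : P, QuotientGroup.mk' N (x ^ p) ∈ center (P ⧸ N) := by
        intro x
        rw [mem_center_iff]
        intro q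
        obtain ⟨g, rfl⟩ := QuotientGroup.mk_surjective q
        show Commute (QuotientGroup.mk' N g) (QuotientGroup.mk' N (x ^ p))
        refine Commute.symm ?_
        have hxg : ⁅x, g⁆ ∈ D := commutator_mem_commutator (mem_top x) (mem_top g)
        rw [← commutatorElement_eq_one_iff_commute, ← map_commutatorElement, ← MonoidHom.mem_ker,
          QuotientGroup.ker_mk', commutator_pow_left (hDc hxg)]
        exact hpN _ hxg
      -- a power of one generator lies in the powers of the other
      have step : ∀ u v : P, (⟨_, hmem u⟩ : center (P ⧸ N)) ∈ zpowers ⟨_, hmem v⟩ → Commute (u ^ p) v := by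
        intro u v h'
        obtain ⟨m, hm⟩ := mem_zpowers_iff.mp h'
        have hm' : (((v ^ p) ^ m : P) : P ⧸ N) = ((u ^ p : P) : P ⧸ N) := congrArg Subtype.val hm
        rw [QuotientGroup.eq] at hm'
        have hc := (mem_center_iff.mp (hDc (hND hm')) v)
        have e : u ^ p = (v ^ p) ^ m * (((v ^ p) ^ m)⁻¹ * u ^ p) := (mul_inv_cancel_left _ _).symm
        rw [e]
        exact (((Commute.refl v).pow_left p).zpow_left m).mul_left (Commute.symm hc)
      have hxyD : ⁅x, y⁆ ∈ D := commutator_mem_commutator (mem_top x) (mem_top y)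
      obtain ⟨k, hk'⟩ := IsPGroup.iff_orderOf.mp (((hP.to_quotient N)).to_subgroup (center (P ⧸ N))) ⟨_, hmem x⟩
      obtain ⟨l, hl⟩ := IsPGroup.iff_orderOf.mp (((hP.to_quotient N)).to_subgroup (center (P ⧸ N))) ⟨_, hmem y⟩
      rcases le_total k l with hkl | hkl
      · have := step x y (mem_zpowers_of_pow_eq_one (orderOf_dvd_iff_pow_eq_one.mp (by
          rw [hk', hl]; exact pow_dvd_pow p hkl)))
        rw [← commutatorElement_eq_one_iff_commute, commutator_pow_left (hDc hxyD)] at this
        exact hxy this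
      · have := (step y x (mem_zpowers_of_pow_eq_one (orderOf_dvd_iff_pow_eq_one.mp (by
          rw [hk', hl]; exact pow_dvd_pow p hkl)))).symm
        rw [← commutatorElement_eq_one_iff_commute, commutator_pow_right (hDc hxyD)] at this
        exact hxy this
  · -- class three: an abelian subgroup of index `p`
    have hTn : T.Normal := inferInstance
    have hTlt : T < D := lt_of_le_of_ne hTD fun e =>
      hDne (Lib.Transfer.eq_bot_of_le_commutator_top e.ge)
    have hTp : Nat.card T = p := by
      obtain ⟨i, hi, hic⟩ := (Nat.dvd_prime_pow hp.out).mp (hD ▸ card_dvd_of_le hTD)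
      have hlt : Nat.card T < p ^ 2 := by
        rw [← hD]
        exact lt_of_le_of_ne (card_le_of_le hTD) fun e => hTlt.ne (eq_of_le_of_card_ge hTD e.ge)
      rw [hic] at hlt
      have : i < 2 := (Nat.pow_lt_pow_iff_right hp1).mp hlt
      interval_cases i
      · exact absurd (card_eq_one.mp (by simpa using hic)) hT
      · simpa using hic
    have hTc : T ≤ center P := by
      obtain ⟨t, htT, htc, hto⟩ := Lib.Thompson.exists_central_order_p hP hT
      rw [← eq_of_le_of_card_ge (zpowers_le.mpr htT) (by rw [Nat.card_zpowers, hto, hTp])]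
      exact zpowers_le.mpr htc
    obtain ⟨hDW, χ, hχ1, hχk, hcyc, -⟩ := quotient_data hG hP hD T hTp hTD le_rfl
    set W := (center (P ⧸ T)).comap (QuotientGroup.mk' T) with hW
    obtain ⟨⟨q0, hq0⟩, hgen⟩ := hcyc.exists_generator
    obtain ⟨w0, rfl⟩ := QuotientGroup.mk_surjective q0
    have hw0 : w0 ∈ W := hq0
    have hWgen : ∀ w ∈ W, ∃ (m : ℤ) (t : P), t ∈ T ∧ w = w0 ^ m * t := by
      intro w hw
      obtain ⟨m, hm⟩ := mem_zpowers_iff.mp (hgen ⟨_, hw⟩)
      have hm' : ((w0 ^ m : P) : P ⧸ T) = (w : P ⧸ T) := congrArg Subtype.val hm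
      rw [QuotientGroup.eq] at hm'
      exact ⟨m, _, hm', (mul_inv_cancel_left _ _).symm⟩
    have hWab : ∀ a ∈ W, ∀ b ∈ W, Commute a b := by
      intro a ha b hb
      obtain ⟨i, s, hs, rfl⟩ := hWgen a ha
      obtain ⟨j, t, ht, rfl⟩ := hWgen b hb
      have hsc : ∀ g, Commute s g := fun g => (mem_center_iff.mp (hTc hs) g).symm
      have htc : ∀ g, Commute g t := fun g => mem_center_iff.mp (hTc ht) g
      exact Commute.mul_left (((Commute.refl w0).zpow_zpow i j).mul_right (htc _)) (hsc _)
    obtain ⟨z, hz, hzT⟩ := SetLike.exists_of_lt hTlt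
    -- commutation with an element of `W` is a homomorphism into `T`
    have hWT : ∀ w ∈ W, ∀ g : P, ⁅g, w⁆ ∈ T := by
      intro w hw g
      rw [← QuotientGroup.ker_mk' T, MonoidHom.mem_ker, map_commutatorElement, commutatorElement_eq_one_iff_mul_comm]
      exact mem_center_iff.mp hw (QuotientGroup.mk' T g)
    let comm : ∀ w ∈ W, P →* T := fun w hw =>
      { toFun := fun g => ⟨⁅g, w⁆, hWT w hw g⟩
        map_one' := Subtype.ext (commutatorElement_one_left w)
        map_mul' := fun g h => Subtype.ext (by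
          show ⁅g * h, w⁆ = ⁅g, w⁆ * ⁅h, w⁆
          have hc := mem_center_iff.mp (hTc (hWT w hw h)) g
          calc ⁅g * h, w⁆ = g * ⁅h, w⁆ * g⁻¹ * ⁅g, w⁆ := by simp [commutatorElement_def, mul_assoc]
            _ = ⁅h, w⁆ * ⁅g, w⁆ := by rw [hc, mul_inv_cancel_right]
            _ = _ := (mem_center_iff.mp (hTc (hWT w hw h)) _).symm) }
    have hidx : ∀ w (hw : w ∈ W), (centralizer ({w} : Set P)).index ∣ p := by
      intro w hw
      have : centralizer ({w} : Set P) = (comm w hw).ker := by
        ext g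
        rw [mem_centralizer_singleton_iff, MonoidHom.mem_ker]
        show _ ↔ (⟨⁅g, w⁆, _⟩ : T) = 1
        rw [← Subtype.coe_inj]
        exact (commutatorElement_eq_one_iff_mul_comm (g₁ := g) (g₂ := w)).symm
      rw [this, index_ker, ← hTp]
      exact card_subgroup_dvd_card _
    set C := centralizer (D : Set P) with hC
    haveI hCn : C.Normal := inferInstance
    have hCz : C = centralizer ({z} : Set P) := by
      refine le_antisymm (centralizer_le (by simpa using hz)) fun g hg => ?_
      rw [hC, mem_centralizer_iff]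
      intro d hd
      rw [← hsplit T hTp hTD z hz hzT] at hd
      obtain ⟨_, ⟨i, rfl⟩, t, ht, rfl⟩ := mem_sup_of_normal_right.mp hd
      have h1 : Commute g z := mem_centralizer_singleton_iff.mp hg
      have h2 : Commute g t := mem_center_iff.mp (hTc ht) g
      exact (((h1.zpow_right i).mul_right h2).eq).symm
    have hCtop : C ≠ ⊤ := by
      intro e
      apply hT
      rw [hTdef, commutator_eq_bot_iff_le_centralizer]
      intro d hd
      rw [mem_centralizer_iff]
      intro g _
      have : g ∈ C := e ▸ mem_top g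
      exact (mem_centralizer_iff.mp this d hd).symm
    have hCi : C.index = p := by
      rcases (Nat.dvd_prime hp.out).mp (hidx z (hDW hz)) with h' | h'
      · exact absurd (hCz ▸ index_eq_one.mp h') hCtop
      · rw [hCz, h']
    have hDab : ∀ a ∈ D, ∀ b ∈ D, Commute a b := fun a ha b hb => hWab a (hDW ha) b (hDW hb)
    have hDC : D ≤ C := fun d hd => mem_centralizer_iff.mpr fun e he => (hDab e he d hd).eq
    have hWC : W ≤ C := fun w hw => mem_centralizer_iff.mpr fun e he => (hWab e (hDW he) w hw).eq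
    -- `W` is central in `C`
    have hCw0 : C = centralizer ({w0} : Set P) := by
      refine (eq_of_le_of_card_ge (fun g hg => ?_) ?_).symm
      · rw [hCz, mem_centralizer_singleton_iff]
        obtain ⟨m, t, ht, e⟩ := hWgen z (hDW hz)
        have h1 : Commute g w0 := mem_centralizer_singleton_iff.mp hg
        have h2 : Commute g t := mem_center_iff.mp (hTc ht) g
        rw [e]
        exact ((h1.zpow_right m).mul_right h2).eq
      · have h1 := hidx w0 hw0
        have h2 := card_mul_index C
        have h3 := card_mul_index (centralizer ({w0} : Set P))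
        rw [hCi] at h2
        have h4 := Nat.le_of_dvd hp.out.pos h1
        by_contra hlt
        have : Nat.card (centralizer ({w0} : Set P)) * (centralizer ({w0} : Set P)).index < Nat.card C * p :=
          Nat.mul_lt_mul_of_lt_of_le (not_le.mp hlt) h4 hp.out.pos
        omega
    have hWcC : ∀ w ∈ W, ∀ a ∈ C, Commute a w := by
      intro w hw a ha
      obtain ⟨m, t, ht, rfl⟩ := hWgen w hw
      rw [hCw0] at ha
      exact (Commute.zpow_right (mem_centralizer_singleton_iff.mp ha) m).mul_right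
        (mem_center_iff.mp (hTc ht) a)
    -- `C' ≤ T`
    have hCT : ∀ a ∈ C, ∀ b ∈ C, ⁅a, b⁆ ∈ T := by
      intro a ha b hb
      have hcD : ⁅a, b⁆ ∈ D := commutator_mem_commutator (mem_top a) (mem_top b)
      have hcc : ⁅a, b⁆ ∈ center P := by
        rw [mem_center_iff]
        intro g
        have hd1 : ⁅g, a⁆ ∈ D := commutator_mem_commutator (mem_top g) (mem_top a)
        have hd2 : ⁅g, b⁆ ∈ D := commutator_mem_commutator (mem_top g) (mem_top b)
        have e : g * ⁅a, b⁆ * g⁻¹ = ⁅⁅g, a⁆ * a, ⁅g, b⁆ * b⁆ := by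
          simp [commutatorElement_def, mul_assoc]
        have c1 : Commute ⁅g, a⁆ b := mem_centralizer_iff.mp hb _ hd1
        have c2 : Commute ⁅g, b⁆ a := mem_centralizer_iff.mp ha _ hd2
        have c3 : Commute ⁅g, a⁆ ⁅g, b⁆ := hDab _ hd1 _ hd2
        have c4 : Commute ⁅g, a⁆ a := mem_centralizer_iff.mp ha _ hd1
        have c5 : Commute ⁅g, b⁆ b := mem_centralizer_iff.mp hb _ hd2
        have e2 : ⁅⁅g, a⁆ * a, ⁅g, b⁆ * b⁆ = ⁅a, b⁆ := by
          set u := ⁅g, a⁆
          set v := ⁅g, b⁆
          have k1 : Commute u (a * (v * b) * a⁻¹) :=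
            (c4.mul_right (c3.mul_right c1)).mul_right c4.inv_right
          have k2 : Commute v (a⁻¹) := c2.inv_right
          calc ⁅u * a, v * b⁆ = u * (a * (v * b) * a⁻¹) * u⁻¹ * (v * b)⁻¹ := by
                simp [commutatorElement_def, mul_assoc]
            _ = a * (v * b) * a⁻¹ * (v * b)⁻¹ := by rw [k1.eq, mul_inv_cancel_right]
            _ = v * (a * b * a⁻¹ * b⁻¹) * v⁻¹ := by
                rw [← mul_assoc a v b, ← c2.eq]; simp [mul_assoc]
            _ = a * b * a⁻¹ * b⁻¹ := by
                rw [((c2.mul_right c5).mul_right k2).mul_right c5.inv_right |>.eq, mul_inv_cancel_right]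
            _ = ⁅a, b⁆ := (commutatorElement_def a b).symm
        rw [e2] at e
        exact (mul_inv_eq_iff_eq_mul.mp e)
      by_contra hnot
      apply hT
      rw [hTdef, commutator_eq_bot_iff_le_centralizer]
      have hDc : D ≤ center P := by
        rw [← hsplit T hTp hTD _ hcD hnot]
        exact sup_le (zpowers_le.mpr hcc) hTc
      intro d hd
      rw [mem_centralizer_iff]
      exact fun g _ => mem_center_iff.mp (hDc hd) g
    obtain ⟨u, hu⟩ : ∃ u, u ∉ C := by
      by_contra h'
      push Not at h'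
      exact hCtop (eq_top_iff.mpr fun x _ => h' x)
    -- the map `a ↦ [a, u] T`
    let α : C →* P ⧸ T :=
      { toFun := fun a => QuotientGroup.mk' T ⁅(a : P), u⁆
        map_one' := by simp
        map_mul' := fun a b => by
          rw [← map_mul]
          congr 1
          have hd : ⁅(b : P), u⁆ ∈ D := commutator_mem_commutator (mem_top _) (mem_top _)
          have hda : ⁅(a : P), u⁆ ∈ D := commutator_mem_commutator (mem_top _) (mem_top _)
          have c1 : Commute ⁅(b : P), u⁆ (a : P) := mem_centralizer_iff.mp a.2 _ hd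
          calc ⁅((a * b : C) : P), u⁆ = a * ⁅(b : P), u⁆ * (a : P)⁻¹ * ⁅(a : P), u⁆ := by
                simp [commutatorElement_def, mul_assoc]
            _ = ⁅(b : P), u⁆ * ⁅(a : P), u⁆ := by rw [← c1.eq, mul_inv_cancel_right]
            _ = _ := (hDab _ hd _ hda).eq }
    have hrange : α.range ≤ D.map (QuotientGroup.mk' T) := by
      rintro _ ⟨a, rfl⟩
      exact mem_map_of_mem _ (commutator_mem_commutator (mem_top (a : P)) (mem_top u))
    haveI : IsCyclic α.range := by
      refine isCyclic_of_card_dvd_prime (p := p) ((card_dvd_of_le hrange).trans ?_)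
      have := Lib.Coprime.card_map_mul_card_inf_ker (QuotientGroup.mk' T) D
      rw [QuotientGroup.ker_mk', inf_eq_right.mpr hTD, hTp, hD, pow_two] at this
      rw [Nat.eq_of_mul_eq_mul_right hp.out.pos this]
    have hker : α.rangeRestrict.ker ≤ center C := by
      rw [MonoidHom.ker_rangeRestrict]
      intro a ha
      have haW : (a : P) ∈ W := by
        let Z := centralizer ({QuotientGroup.mk' T (a : P)} : Set (P ⧸ T))
        have hCZ : C ≤ Z.comap (QuotientGroup.mk' T) := fun b hb => by
          rw [mem_comap, mem_centralizer_singleton_iff]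
          show Commute _ _
          rw [← commutatorElement_eq_one_iff_commute, ← map_commutatorElement, ← MonoidHom.mem_ker,
            QuotientGroup.ker_mk']
          exact hCT b hb a a.2
        have huZ : u ∈ Z.comap (QuotientGroup.mk' T) := by
          rw [mem_comap, mem_centralizer_singleton_iff]
          have h' : QuotientGroup.mk' T ⁅(a : P), u⁆ = 1 := ha
          rw [map_commutatorElement, commutatorElement_eq_one_iff_mul_comm] at h'
          exact h'.symm
        have htop : Z.comap (QuotientGroup.mk' T) = ⊤ := by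
          rw [← index_eq_one]
          rcases (Nat.dvd_prime hp.out).mp (hCi ▸ index_dvd_of_le hCZ) with h' | h'
          · exact h'
          · exfalso
            apply hu
            have h2 := card_mul_index C
            have h3 := card_mul_index (Z.comap (QuotientGroup.mk' T))
            rw [hCi] at h2
            rw [h'] at h3
            rw [eq_of_le_of_card_ge hCZ (Nat.eq_of_mul_eq_mul_right hp.out.pos (h3.trans h2.symm)).le]
            exact huZ
        rw [hW, mem_comap, mem_center_iff]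
        intro q
        obtain ⟨g, rfl⟩ := QuotientGroup.mk_surjective q
        have : g ∈ Z.comap (QuotientGroup.mk' T) := htop ▸ mem_top g
        exact mem_centralizer_singleton_iff.mp this
      rw [mem_center_iff]
      intro b
      exact Subtype.ext (hWcC a haW b b.2).eq
    have hCab : ∀ a ∈ C, ∀ b ∈ C, a * b = b * a := fun a ha b hb =>
      congrArg Subtype.val (commutative_of_cyclic_center_quotient α.rangeRestrict hker (⟨a, ha⟩ : C) ⟨b, hb⟩)
    have hdeg : ∀ φ : IrrCharacter P, charDegree (φ : P → ℂ) ≠ 1 → charDegree (φ : P → ℂ) = p := fun φ h' =>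
      ((Nat.dvd_prime hp.out).mp (hCi ▸ Lib.Ito.degree_dvd_index C hCab φ.2)).resolve_left h'
    obtain ⟨t, htT, ht1⟩ : ∃ t ∈ T, t ≠ 1 := by
      by_contra h'
      push Not at h'
      exact hT ((eq_bot_iff_forall T).mpr h')
    obtain ⟨θ, hθ1, -, hθt⟩ := exists_nonlinear (⊥ : Subgroup P) (hTD htT) (by simpa using ht1)
    exact hθt (kernel_eq hG χ θ hχ1 (by rw [hdeg χ hχ1, hdeg θ hθ1]) ((hχk t).mpr htT))

theorem galoisDeg_quotient (hG : GaloisDeg P) (M : Subgroup P) [M.Normal] : GaloisDeg (P ⧸ M) := by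
  intro χ ψ h1 he
  let χ' : IrrCharacter P := ⟨_, Lib.Char.isIrrCharacter_comp χ.2 _ (QuotientGroup.mk'_surjective M)⟩
  let ψ' : IrrCharacter P := ⟨_, Lib.Char.isIrrCharacter_comp ψ.2 _ (QuotientGroup.mk'_surjective M)⟩
  have e : ∀ φ : IrrCharacter (P ⧸ M), charDegree (fun g : P => (φ : P ⧸ M → ℂ) (QuotientGroup.mk' M g)) =
      charDegree (φ : P ⧸ M → ℂ) := fun φ => Lib.Char.charDegree_eq_of_apply_one (by
      rw [map_one, Lib.Char.apply_one_eq_charDegree (Lib.Char.isCharacter_of_isIrr φ.2)])
  obtain ⟨k, hk, hke⟩ := hG χ' ψ' (by rw [show charDegree (χ' : P → ℂ) = _ from e χ]; exact h1)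
    ((e χ).trans (he.trans (e ψ).symm))
  refine ⟨k, Nat.Coprime.coprime_dvd_right (card_quotient_dvd_card M) hk, fun q => ?_⟩
  obtain ⟨g, rfl⟩ := QuotientGroup.mk_surjective q
  have h' : (ψ : P ⧸ M → ℂ) (QuotientGroup.mk' M g) = (χ : P ⧸ M → ℂ) (QuotientGroup.mk' M (g ^ k)) := hke g
  rw [map_pow] at h'
  exact h'

theorem galoisDeg_of_cyclic_center (hP : IsPGroup p P) (hZ : IsCyclic (center P))
    (hD : Nat.card (commutator P) = p) : GaloisDeg P := by
  classical
  haveI := Fintype.ofFinite P
  set D := commutator P with hDdef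
  have hDne : D ≠ ⊥ := fun e => by
    rw [e, card_bot] at hD
    exact hp.out.ne_one hD.symm
  have hDc : D ≤ center P := by
    obtain ⟨t, htD, htc, hto⟩ := Lib.Thompson.exists_central_order_p hP hDne
    rw [← eq_of_le_of_card_ge (zpowers_le.mpr htD) (by rw [Nat.card_zpowers, hto, hD])]
    exact zpowers_le.mpr htc
  intro χ ψ h1 he
  have h2 : charDegree (ψ : P → ℂ) ≠ 1 := he ▸ h1
  have faithful : ∀ φ : IrrCharacter P, charDegree (φ : P → ℂ) ≠ 1 →
      ∀ g, (φ : P → ℂ) g = (φ : P → ℂ) 1 → g = 1 := by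
    intro φ hφ g hg
    have hc := Lib.Char.isCharacter_of_isIrr φ.2
    let K := Lib.Char.charKer (φ : P → ℂ)
    haveI : K.Normal := Lib.Char.charKer_normal hc
    by_contra hg1
    have hKne : K ≠ ⊥ := fun e => hg1 (mem_bot.mp (e ▸ (Lib.Char.mem_charKer hc).mpr hg))
    obtain ⟨k, hkK, hkc, hko⟩ := Lib.Thompson.exists_central_order_p hP hKne
    obtain ⟨t, htD, htc, hto⟩ := Lib.Thompson.exists_central_order_p hP hDne
    have hmem : (⟨t, htc⟩ : center P) ∈ zpowers (⟨k, hkc⟩ : center P) := by
      refine mem_zpowers_of_pow_eq_one (Subtype.ext ?_)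
      show t ^ orderOf (⟨k, hkc⟩ : center P) = 1
      rw [orderOf_mk, hko, ← hto, pow_orderOf_eq_one]
    obtain ⟨i, hi⟩ := mem_zpowers_iff.mp hmem
    have htK : t ∈ K := by
      rw [show t = k ^ i from (congrArg Subtype.val hi).symm]
      exact zpow_mem hkK i
    have hDK : D ≤ K := by
      rw [← eq_of_le_of_card_ge (zpowers_le.mpr htD) (by rw [Nat.card_zpowers, hto, hD])]
      exact zpowers_le.mpr htK
    obtain ⟨η, hη, hηe⟩ := Lib.Char.exists_irr_deflation φ.2 D fun d hd => (Lib.Char.mem_charKer hc).mp (hDK hd)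
    haveI := Fintype.ofFinite (P ⧸ D)
    have := Lib.Ito.apply_one_of_abelian (H := P ⧸ commutator P) (fun a b => @mul_comm (Abelianization P) _ a b) hη
    have h5 := hηe 1
    rw [QuotientGroup.mk_one, this] at h5
    exact hφ ((Lib.Char.charDegree_eq_one_iff φ.2).mpr h5.symm)
  have zero : ∀ φ : IrrCharacter P, charDegree (φ : P → ℂ) ≠ 1 → ∀ g, g ∉ center P → (φ : P → ℂ) g = 0 := by
    intro φ hφ g hg
    have hc := Lib.Char.isCharacter_of_isIrr φ.2
    rw [mem_center_iff] at hg
    push Not at hg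
    obtain ⟨x, hx⟩ := hg
    have hcc : ⁅x, g⁆ ∈ center P := hDc (commutator_mem_commutator (mem_top x) (mem_top g))
    have h3 := (Lib.Char.apply_mul_of_norm_eq hc (Lib.Char.norm_char_of_mem_center φ.2 hcc) g).1
    have e : ⁅x, g⁆ * g = x * g * x⁻¹ := by rw [commutatorElement_def]; group
    rw [e, Lib.Char.isClassFunction_of_isCharacter hc g x] at h3
    by_contra hne
    have h4 : ((φ : P → ℂ) ⁅x, g⁆ - (φ : P → ℂ) 1) * (φ : P → ℂ) g = 0 := by linear_combination -h3
    have := faithful φ hφ _ (sub_eq_zero.mp ((mul_eq_zero.mp h4).resolve_right hne))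
    exact hx (commutatorElement_eq_one_iff_mul_comm.mp this)
  obtain ⟨z0, hz0⟩ := hZ.exists_generator
  set n := orderOf z0 with hn
  haveI : NeZero n := ⟨(orderOf_pos z0).ne'⟩
  have scal : ∀ φ : IrrCharacter P, charDegree (φ : P → ℂ) ≠ 1 → ∃ l : ℂ, IsPrimitiveRoot l n ∧
      ∀ m : ℕ, (φ : P → ℂ) ((z0 : P) ^ m) = (φ : P → ℂ) 1 * l ^ m := by
    intro φ hφ
    have hc := Lib.Char.isCharacter_of_isIrr φ.2
    have h0 : (φ : P → ℂ) 1 ≠ 0 := Lib.Char.irr_degree_ne_zero φ.2
    refine ⟨(φ : P → ℂ) z0 / (φ : P → ℂ) 1, ?_, ?_⟩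
    swap
    · intro m
      induction m with
      | zero => simp
      | succ m ih =>
        have h3 := (Lib.Char.apply_mul_of_norm_eq hc (Lib.Char.norm_char_of_mem_center φ.2 z0.2)
          ((z0 : P) ^ m)).1
        rw [← pow_succ', ih] at h3
        rw [pow_succ ((φ : P → ℂ) z0 / (φ : P → ℂ) 1) m]
        field_simp at h3 ⊢
        linear_combination h3
    · have hpow : ∀ m : ℕ, (φ : P → ℂ) ((z0 : P) ^ m) = (φ : P → ℂ) 1 * ((φ : P → ℂ) z0 / (φ : P → ℂ) 1) ^ m := by
        intro m
        induction m with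
        | zero => simp
        | succ m ih =>
          have h3 := (Lib.Char.apply_mul_of_norm_eq hc (Lib.Char.norm_char_of_mem_center φ.2 z0.2)
            ((z0 : P) ^ m)).1
          rw [← pow_succ', ih] at h3
          rw [pow_succ ((φ : P → ℂ) z0 / (φ : P → ℂ) 1) m]
          field_simp at h3 ⊢
          linear_combination h3
      constructor
      · have := hpow n
        rw [← SubmonoidClass.coe_pow, hn, pow_orderOf_eq_one, OneMemClass.coe_one] at this
        exact (mul_right_eq_self₀.mp this.symm).resolve_right h0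
      · intro m hm
        refine orderOf_dvd_of_pow_eq_one (Subtype.ext ?_)
        rw [SubmonoidClass.coe_pow]
        exact faithful φ hφ _ (by rw [hpow, hm, mul_one])
  obtain ⟨l, hl, hlm⟩ := scal χ h1
  obtain ⟨m', hm', hmm⟩ := scal ψ h2
  obtain ⟨k, -, hk, hke⟩ := hl.isPrimitiveRoot_iff.mp hm'
  have hcop : Nat.Coprime k (Nat.card P) := by
    obtain ⟨a, ha⟩ := IsPGroup.iff_card.mp hP
    rw [ha]
    refine Nat.Coprime.pow_right a ?_
    have hpn : p ∣ n := by
      obtain ⟨t, htD, htc, hto⟩ := Lib.Thompson.exists_central_order_p hP hDne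
      rw [hn, orderOf_eq_card_of_forall_mem_zpowers hz0]
      exact hto ▸ Subgroup.orderOf_dvd_natCard (center P) htc
    exact hk.coprime_dvd_right hpn
  refine ⟨k, hcop, fun g => ?_⟩
  have hdd : (ψ : P → ℂ) 1 = (χ : P → ℂ) 1 := by
    rw [Lib.Char.apply_one_eq_charDegree (Lib.Char.isCharacter_of_isIrr ψ.2), ← he,
      Lib.Char.apply_one_eq_charDegree (Lib.Char.isCharacter_of_isIrr χ.2)]
  by_cases hg : g ∈ center P
  · obtain ⟨m, hm⟩ := (mem_powers_iff_mem_zpowers (x := z0)).mpr (hz0 ⟨g, hg⟩)
    have hge : g = (z0 : P) ^ m := (congrArg Subtype.val hm).symm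
    rw [hge, ← pow_mul, hlm, hmm, hdd, ← hke, ← pow_mul, mul_comm k m]
  · rw [zero ψ h2 g hg, zero χ h1 _ fun h => hg ?_]
    obtain ⟨j, hj⟩ := exists_pow_eq_self_of_coprime (hcop.coprime_dvd_right (orderOf_dvd_natCard g))
    rw [← hj]
    exact pow_mem h j

/-- Let p be a prime and P a finite non-commutative p-group. Then every two irreducible characters of P of the same degree greater than 1 are Galois conjugate (one is obtained from the other by composing with g ↦ g^k for some k prime to the order of P) if and only if the centre of P is cyclic and the derived subgroup of P has order p. -/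
theorem result {P : Type*} [Group P] [Finite P] (p : ℕ) [Fact p.Prime] (hP : IsPGroup p P) (hna : ¬ IsMulCommutative P) :
    (∀ χ ψ : Cfsg.IrrCharacter P, Cfsg.charDegree (χ : P → ℂ) ≠ 1 → Cfsg.charDegree (χ : P → ℂ) = Cfsg.charDegree (ψ : P → ℂ) → ∃ k : ℕ, Nat.Coprime k (Nat.card P) ∧ ∀ g : P, (ψ : P → ℂ) g = (χ : P → ℂ) (g ^ k)) ↔
      (IsCyclic (Subgroup.center P) ∧ Nat.card (commutator P) = p) := by
  refine ⟨fun h => ?_, fun h => galoisDeg_of_cyclic_center hP h.1 h.2⟩
  have hG : GaloisDeg P := h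
  have hne : commutator P ≠ ⊥ := fun e => hna ⟨⟨fun a b => commutatorElement_eq_one_iff_mul_comm.mp
    (mem_bot.mp (e ▸ commutator_mem_commutator (mem_top a) (mem_top b) : ⁅a, b⁆ ∈ (⊥ : Subgroup P)))⟩⟩
  obtain ⟨a, ha⟩ := IsPGroup.iff_card.mp (hP.to_subgroup (commutator P))
  have ha1 : a = 1 := by
    have ha0 : a ≠ 0 := fun e => hne (card_eq_one.mp (by rw [ha, e, pow_zero]))
    by_contra hne1
    obtain ⟨M, hMD, hMn, hMc⟩ := Lib.Thompson.exists_normal_le_card hP (N := commutator P) (a - 2)
      (by rw [ha]; exact Nat.pow_le_pow_right (Fact.out : p.Prime).pos (Nat.sub_le a 2))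
    have hmap : (commutator P).map (QuotientGroup.mk' M) = commutator (P ⧸ M) := by
      rw [_root_.commutator_def, map_commutator, map_top_of_surjective _ (QuotientGroup.mk'_surjective M),
        _root_.commutator_def]
    refine card_commutator_ne_sq (hP.to_quotient M) (galoisDeg_quotient hG M) ?_
    have := Lib.Coprime.card_map_mul_card_inf_ker (QuotientGroup.mk' M) (commutator P)
    rw [hmap, QuotientGroup.ker_mk', inf_eq_right.mpr hMD, hMc, ha,
      show a = 2 + (a - 2) by omega, pow_add, Nat.add_sub_cancel_left] at this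
    exact Nat.eq_of_mul_eq_mul_right (pow_pos (Fact.out : p.Prime).pos _) this
  rw [ha1, pow_one] at ha
  refine ⟨?_, ha⟩
  obtain ⟨z, hz, hz1⟩ := SetLike.exists_of_lt (bot_lt_iff_ne_bot.mpr hne)
  obtain ⟨χ, hχ1, -, hχz⟩ := exists_nonlinear (⊥ : Subgroup P) hz hz1
  refine isCyclic_center_of_faithful χ.2 fun g hg => ?_
  have hgD := kernel_le_commutator hG χ hχ1 hg
  by_contra hg1
  have hgen : zpowers g = commutator P := by
    refine eq_of_le_of_card_ge (zpowers_le.mpr hgD) ?_
    rw [Nat.card_zpowers, ha]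
    have hd : orderOf g ∣ p := ha ▸ Subgroup.orderOf_dvd_natCard (commutator P) hgD
    exact (((Nat.dvd_prime Fact.out).mp hd).resolve_left fun e => hg1 (orderOf_eq_one_iff.mp e)).ge
  have hc := Lib.Char.isCharacter_of_isIrr χ.2
  rw [← hgen] at hz
  exact hχz ((Lib.Char.mem_charKer hc).mp (zpowers_le.mpr ((Lib.Char.mem_charKer hc).mpr hg) hz))

end Cfsg.Agent.S4845
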