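import Cfsg.Statements.S4850
import Cfsg.Agent.Lib.Vanishing.SylowBound

set_option autoImplicit false
open Cfsg

namespace Cfsg.Agent.S4850

/-- Let p be a prime and G a finite solvable group whose vanishing elements (elements at which some irreducible character is zero) of order divisible by p all have the same order, with at least one such element. Let P be a Sylow p-subgroup of G. Then the derived subgroup of P is subnormal in G and the image of P in G/O_p(G) is cyclic. -/
theorem result {G : Type*} [Group G] [Finite G] [hs : Group.IsSolvable G] (p : ℕ) [Fact p.Prime] (b : ℕ) (hvo : {n : ℕ | p ∣ n ∧ ∃ (g : G) (χ : Cfsg.IrrCharacter G), orderOf g = n ∧ (χ : G → ℂ) g = 0} = {b}) (P : Sylow p G) :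
    ((commutator ↥(P : Subgroup G)).map (P : Subgroup G).subtype).IsSubnormal ∧ IsCyclic ↥((P : Subgroup G).map (QuotientGroup.mk' (Cfsg.pCore p G))) := by
  have H : ∀ a b : G, Lib.Vanishing.Van a → Lib.Vanishing.Van b → p ∣ orderOf a → p ∣ orderOf b →
      orderOf a = orderOf b := by
    rintro a c ⟨χ, hχ⟩ ⟨ψ, hψ⟩ hda hdc
    exact (Set.mem_singleton_iff.mp (hvo.subset ⟨hda, a, χ, rfl, hχ⟩)).trans
      (Set.mem_singleton_iff.mp (hvo.subset ⟨hdc, c, ψ, rfl, hψ⟩)).symm
  exact ⟨Lib.Vanishing.commutator_sylow_subnormal H P, Lib.Vanishing.isCyclic_image H P⟩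

end Cfsg.Agent.S4850
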