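import Cfsg.Statements.S4856
import Cfsg.Agent.Lib.CharCommutator

set_option autoImplicit false
open Cfsg

namespace Cfsg.Agent.S4856

theorem result {G : Type*} [Group G] [Finite G] (z : G) : (Nat.card {xy : G × G // xy.1 * xy.2 * xy.1⁻¹ * xy.2⁻¹ = z} : ℂ) = (Nat.card G : ℂ) * ∑ᶠ χ : Cfsg.IrrCharacter G, (χ : G → ℂ) z / (χ : G → ℂ) 1 := by
  have := Fintype.ofFinite G
  rw [finsum_eq_sum_of_fintype]
  exact Lib.CharCommutator.commCount_eq z

end Cfsg.Agent.S4856
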