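import Cfsg.Statements.S4862
import Cfsg.Agent.Lib.CharRealPrime.Tools

set_option autoImplicit false
open Cfsg

namespace Cfsg.Agent.S4862

open Cfsg.Agent.Lib Cfsg.Agent.Lib.CharRealPrime

/-- Let p be an odd prime and G a finite group such that the subgroup generated by the p-elements of G is solvable and every real-valued irreducible complex character of G has degree prime to p. Let K be the subgroup generated by the 2-elements of G and P a Sylow p-subgroup of G. Then every normal subgroup M of G contained in K and in the derived subgroup of P is centralized by K. -/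
theorem result {G : Type*} [Group G] [Finite G] (p : ℕ) [Fact p.Prime] (hp : p ≠ 2) (hsolv : Group.IsSolvable ↥(Subgroup.closure {g : G | ∃ k : ℕ, orderOf g = p ^ k})) (hreal : ∀ χ : Cfsg.IrrCharacter G, (∀ g : G, ((χ : G → ℂ) g).im = 0) → ¬ p ∣ Cfsg.charDegree (χ : G → ℂ)) (P : Sylow p G) (M : Subgroup G) (hM : M.Normal) (hMK : M ≤ (Subgroup.closure {g : G | ∃ k : ℕ, orderOf g = 2 ^ k})) (hMP : M ≤ ⁅(P : Subgroup G), (P : Subgroup G)⁆) : (Subgroup.closure {g : G | ∃ k : ℕ, orderOf g = 2 ^ k}) ≤ Subgroup.centralizer (M : Set G) := by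
  haveI := hM
  haveI := Fintype.ofFinite G
  haveI := Fintype.ofFinite M
  rw [Subgroup.closure_le]
  intro t ht
  have hMP' : M ≤ (P : Subgroup G) := hMP.trans (Subgroup.commutator_le.2 fun a ha b hb => by
    rw [commutatorElement_def]
    exact mul_mem (mul_mem (mul_mem ha hb) (inv_mem ha)) (inv_mem hb))
  have hMp : IsPGroup p M := P.isPGroup'.to_le hMP'
  obtain ⟨j, hj⟩ := IsPGroup.iff_card.1 hMp
  have hpo : Odd p := (Fact.out : p.Prime).odd_of_ne_two hp
  have hModd : Odd (Nat.card M) := hj ▸ hpo.pow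
  obtain ⟨k, hk⟩ := ht
  have hfix : ∀ (l : M →* ℂˣ) (m : M),
      l ⟨t * m * t⁻¹, hM.conj_mem m m.2 t⟩ = l m := by
    intro l₀ m₀
    by_contra hne
    obtain ⟨l, hl, χ, hr, hχ⟩ := exists_real_over_of_moved hModd ⟨k, hk⟩ l₀ m₀ hne
    exact hl (eq_one_of_le_commutator (P : Subgroup G) P.isPGroup' hMP χ (hreal χ hr) l hχ)
  have htriv : ∀ m : M, (⟨t * m * t⁻¹, hM.conj_mem m m.2 t⟩ * m⁻¹ : M) ∈ commutator M := by
    intro m
    by_contra hc
    obtain ⟨l, hl⟩ := exists_hom_ne_one hc
    exact hl (by rw [map_mul, map_inv, hfix, mul_inv_cancel])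
  have hA : Subgroup.zpowers t ≤ Subgroup.normalizer (M : Set G) := by
    rw [Subgroup.normalizer_eq_top]; exact le_top
  have hcop : (Nat.card (Subgroup.zpowers t)).Coprime (Nat.card (frattini M)) := by
    rw [Nat.card_zpowers, hk]
    exact ((Nat.coprime_two_left.2 hModd).pow_left k).coprime_dvd_right
      (Subgroup.card_subgroup_dvd_card _)
  have hle : Subgroup.zpowers t ≤ Subgroup.centralizer (M : Set G) := by
    refine Coprime.le_centralizer_of_frattini hA hcop fun a ha m hm => ?_
    have key : ∀ i : ℕ, ∀ m : M, (⟨t ^ i * m * (t ^ i)⁻¹, hM.conj_mem m m.2 (t ^ i)⟩ * m⁻¹ : M) ∈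
        commutator M := by
      intro i
      induction i with
      | zero =>
        intro m
        convert (commutator M).one_mem
        rw [mul_inv_eq_one]
        exact Subtype.ext (by simp)
      | succ i hi =>
        intro m
        convert (commutator M).mul_mem (htriv ⟨t ^ i * m * (t ^ i)⁻¹, hM.conj_mem m m.2 _⟩)
          (hi m) using 1
        rw [← mul_assoc, inv_mul_cancel_right, mul_left_inj]
        refine Subtype.ext ?_
        show t ^ (i + 1) * (m : G) * (t ^ (i + 1))⁻¹ = _
        rw [pow_succ']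
        simp [mul_assoc]
    obtain ⟨i, rfl⟩ := (isOfFinOrder_of_finite t).mem_powers_iff_mem_zpowers.2 ha
    exact ⟨_, PGroupFrattini.commutator_le_frattini hMp (key i ⟨m, hm⟩), rfl⟩
  exact hle (Subgroup.mem_zpowers t)

end Cfsg.Agent.S4862
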