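import Cfsg.Statements.S4864
import Cfsg.Agent.Lib.CharRealPrime.Bijection

set_option autoImplicit false
open Cfsg

namespace Cfsg.Agent.S4864

open Cfsg.Agent.Lib Cfsg.Agent.Lib.Char Cfsg.Agent.Lib.CharRealPrime

theorem mem_of_real {G : Type*} [Group G] [Finite G] (K : Subgroup G) [K.Normal] (hodd : Odd K.index)
    {x : G} (hx : IsConj x x⁻¹) : x ∈ K :=
  (QuotientGroup.eq_one_iff x).1
    (eq_one_of_isConj_inv (G := G ⧸ K) hodd ((QuotientGroup.mk' K).map_isConj hx))

/-- The case that the Sylow subgroup meets the subgroup generated by the `2`-elements trivially. -/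
theorem exists_mem_normalizer {G : Type*} [Group G] [Finite G] {p : ℕ} [Fact p.Prime]
    (h : RealPrimeTo G p) (P : Sylow p G) (hdis : (P : Subgroup G) ⊓ elemClosure G 2 = ⊥) (x : G)
    (hx : IsConj x x⁻¹) :
    ∃ y ∈ Subgroup.normalizer ((P : Subgroup G) : Set G), IsConj x y := by
  classical
  set N := Subgroup.normalizer ((P : Subgroup G) : Set G) with hN
  haveI : (elemClosure G 2).Normal := elemClosure_normal 2
  obtain ⟨f, hf, -⟩ := exists_bijection h P
  have hle : Nat.card {C : ConjClasses G // ∀ g : G, ConjClasses.mk g = C → IsConj g g⁻¹} ≤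
      Nat.card {C : ConjClasses N // ∀ g : N, ConjClasses.mk g = C → IsConj g g⁻¹} := by
    rw [← card_real_irr, ← card_real_irr, Nat.card_congr (Equiv.ofBijective f hf)]
    exact Nat.card_le_card_of_injective (fun ξ => ⟨ξ.1, ξ.2.1⟩)
      (fun a b hab => by simp only [Subtype.mk.injEq] at hab; exact Subtype.ext hab)
  have hcen : ∀ {a : N}, IsConj a a⁻¹ → (a : G) ∈ Subgroup.centralizer ((P : Subgroup G) : Set G) := by
    intro a ha
    have haK : (a : G) ∈ elemClosure G 2 :=
      mem_of_real _ elemClosure_two_index_odd (N.subtype.map_isConj ha)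
    rw [Subgroup.mem_centralizer_iff]
    intro q hq
    have h1 : (a : G) * q * (a : G)⁻¹ * q⁻¹ ∈ (P : Subgroup G) ⊓ elemClosure G 2 := by
      refine ⟨(P : Subgroup G).mul_mem ((Subgroup.mem_normalizer_iff.1 a.2 q).1 hq)
        ((P : Subgroup G).inv_mem hq), ?_⟩
      rw [mul_assoc, mul_assoc, ← mul_assoc q]
      exact (elemClosure G 2).mul_mem haK
        ((inferInstance : (elemClosure G 2).Normal).conj_mem _ ((elemClosure G 2).inv_mem haK) q)
    rw [hdis, Subgroup.mem_bot, mul_inv_eq_one, mul_inv_eq_iff_eq_mul] at h1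
    exact h1.symm
  let F : {C : ConjClasses N // ∀ g : N, ConjClasses.mk g = C → IsConj g g⁻¹} →
      {C : ConjClasses G // ∀ g : G, ConjClasses.mk g = C → IsConj g g⁻¹} := fun C =>
    ⟨ConjClasses.map N.subtype C.1, fun g hg => by
      obtain ⟨a, ha⟩ := ConjClasses.mk_surjective C.1
      rw [← ha] at hg
      have hga : IsConj g (a : G) := ConjClasses.mk_eq_mk_iff_isConj.1 hg
      exact (hga.trans (N.subtype.map_isConj (C.2 a ha))).trans (isConj_map_inv hga.symm)⟩
  have hinj : Function.Injective F := by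
    rintro ⟨C, hC⟩ ⟨D, hD⟩ hCD
    obtain ⟨a, rfl⟩ := ConjClasses.mk_surjective C
    obtain ⟨b, rfl⟩ := ConjClasses.mk_surjective D
    have hab : IsConj (a : G) (b : G) :=
      ConjClasses.mk_eq_mk_iff_isConj.1 (congrArg Subtype.val hCD)
    obtain ⟨g, hg⟩ := isConj_iff.1 hab
    have hb : (g⁻¹)⁻¹ * (a : G) * g⁻¹ = (b : G) := by rw [inv_inv, hg]
    obtain ⟨n, hn, he⟩ := P.conj_eq_normalizer_conj_of_mem_centralizer (a : G) g⁻¹ (hcen (hC a rfl))
      (by rw [hb]; exact hcen (hD b rfl))
    refine Subtype.ext (ConjClasses.mk_eq_mk_iff_isConj.2 (isConj_iff.2 ⟨⟨n, hn⟩⁻¹, Subtype.ext ?_⟩))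
    rw [hb] at he
    simpa using he.symm
  have hsur : Function.Surjective F :=
    (Nat.bijective_iff_injective_and_card F).2
      ⟨hinj, le_antisymm (Nat.card_le_card_of_injective F hinj) hle⟩ |>.2
  obtain ⟨⟨C, hC⟩, he⟩ := hsur ⟨ConjClasses.mk x, fun g hg => by
    have h1 := ConjClasses.mk_eq_mk_iff_isConj.1 hg
    exact (h1.trans hx).trans (isConj_map_inv h1.symm)⟩
  obtain ⟨a, rfl⟩ := ConjClasses.mk_surjective C
  exact ⟨a, a.2, (ConjClasses.mk_eq_mk_iff_isConj.1 (congrArg Subtype.val he)).symm⟩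

/-- Let p be a prime and G a finite group such that the subgroup generated by the p-elements of G is solvable and every real-valued irreducible complex character of G has degree prime to p. Then the normalizer of a Sylow p-subgroup of G contains an element of every real conjugacy class of G: every element conjugate to its inverse is conjugate to an element of that normalizer. -/
theorem result {G : Type*} [Group G] [Finite G] (p : ℕ) [Fact p.Prime] (hsolv : Group.IsSolvable ↥(Subgroup.closure {g : G | ∃ k : ℕ, orderOf g = p ^ k})) (hreal : ∀ χ : Cfsg.IrrCharacter G, (∀ g : G, ((χ : G → ℂ) g).im = 0) → ¬ p ∣ Cfsg.charDegree (χ : G → ℂ)) (P : Sylow p G) (x : G) (hx : IsConj x x⁻¹) : ∃ y ∈ Subgroup.normalizer ((P : Subgroup G) : Set G), IsConj x y := by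
  classical
  have h : RealPrimeTo G p := ⟨hsolv, hreal⟩
  set K := elemClosure G 2 with hK
  haveI hKn : K.Normal := elemClosure_normal 2
  set Qg := ((P : Subgroup G).subgroupOf K).map K.subtype with hQg
  have hQinf : Qg = (P : Subgroup G) ⊓ K := Subgroup.subgroupOf_map_subtype _ _
  haveI hQn : Qg.Normal := by
    haveI := inf_sylow_normal h P
    have hi : ¬ p ∣ ((P : Subgroup G).subgroupOf K).index := by
      intro hd
      refine P.not_dvd_index (hd.trans ?_)
      show (P : Subgroup G).relIndex K ∣ _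
      rw [← Subgroup.relIndex_top_right (P : Subgroup G)]
      exact relIndex_dvd_of_normalized (H := ⊤) le_top le_top
        (fun g _ => by rw [Subgroup.normalizer_eq_top]; exact Subgroup.mem_top g)
    have := sylow_map_normal_aux p (Nat.card G) G le_rfl h K hKn le_rfl
      ⟨0, by rw [Subgroup.relIndex_self, pow_zero]⟩
      ((P.isPGroup'.comap_of_injective K.subtype K.subtype_injective).toSylow hi)
    exact this
  set π := QuotientGroup.mk' Qg with hπ
  have hs : Function.Surjective π := QuotientGroup.mk'_surjective Qg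
  set P' := P.mapSurjective hs with hP'
  have hdis : (P' : Subgroup (G ⧸ Qg)) ⊓ elemClosure (G ⧸ Qg) 2 = ⊥ := by
    rw [eq_bot_iff, ← map_elemClosure π hs Nat.prime_two, hP', Sylow.coe_mapSurjective]
    rintro _ ⟨⟨a, ha, rfl⟩, b, hb, hbe⟩
    have h1 : b⁻¹ * a ∈ Qg := QuotientGroup.eq.1 hbe
    have hQK : Qg ≤ K := hQinf ▸ inf_le_right
    have haK : a ∈ K := by simpa using K.mul_mem hb (hQK h1)
    rw [Subgroup.mem_bot]
    exact (QuotientGroup.eq_one_iff a).2 (hQinf ▸ ⟨ha, haK⟩)
  obtain ⟨yb, hyb, hconj⟩ := exists_mem_normalizer (h.quotient Qg) P' hdis (π x)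
    (by rw [← map_inv]; exact π.map_isConj hx)
  obtain ⟨c, hc⟩ := isConj_iff.1 hconj
  obtain ⟨g, rfl⟩ := hs c
  refine ⟨g * x * g⁻¹, ?_, isConj_iff.2 ⟨g, rfl⟩⟩
  rw [← map_mul, ← map_inv, ← map_mul] at hc
  rw [← hc, hP', Sylow.coe_mapSurjective] at hyb
  have hmem : ∀ q : G, π q ∈ (P : Subgroup G).map π → q ∈ (P : Subgroup G) := by
    rintro q ⟨a, ha, he⟩
    have h1 : a⁻¹ * q ∈ Qg := QuotientGroup.eq.1 he
    simpa using (P : Subgroup G).mul_mem ha ((hQinf ▸ inf_le_left : Qg ≤ (P : Subgroup G)) h1)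
  refine Subgroup.mem_normalizer_iff.2 fun q => ⟨fun hq => hmem _ ?_, fun hq => hmem _ ?_⟩
  · rw [map_mul, map_mul (f := π) (g * x * g⁻¹), map_inv]
    exact (Subgroup.mem_normalizer_iff.1 hyb _).1 ⟨q, hq, rfl⟩
  · refine (Subgroup.mem_normalizer_iff.1 hyb _).2 ?_
    rw [← map_inv, ← map_mul, ← map_mul]
    exact ⟨_, hq, rfl⟩

end Cfsg.Agent.S4864
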