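import Cfsg.Statements.S4866
import Cfsg.Agent.Lib.Char.BrauerPerm
import Cfsg.Agent.Lib.Char.Clifford
import Mathlib.GroupTheory.GroupAction.Quotient
-- import your own Cfsg.Agent.* helpers here

set_option autoImplicit false
open Cfsg

namespace Cfsg.Agent.S4866

open Cfsg.Agent.Lib
open scoped ComplexConjugate

theorem fixed_of_comm {α : Type*} (F I : α → α) (hcomm : ∀ x, F (I x) = I (F x))
    (hI : ∀ x, I (I x) = x) {m : ℕ} (hm : Odd m) {x : α} (hper : F^[m] x = x) (h : F (I x) = x) :
    F x = x ∧ I x = x := by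
  have hFI : F x = I x := by
    conv_rhs => rw [← h, ← hcomm, hI]
  have h2 : F^[2] x = x := by
    show F (F x) = x
    rw [hFI, h]
  obtain ⟨j, rfl⟩ := hm
  have hF : F x = x := by
    rw [Function.iterate_add_apply, Function.iterate_one, Function.iterate_mul] at hper
    have hj : (F^[2])^[j] (F x) = F x := by
      refine Function.iterate_fixed ?_ j
      show F (F (F x)) = F x
      rw [show F (F x) = x from h2]
    rw [hj] at hper
    exact hper
  exact ⟨hF, hFI ▸ hF⟩

theorem card_quot_mul {G X : Type*} [Group G] [Fintype G] [Finite X] (a : G → X → X)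
    (h1 : ∀ x, a 1 x = x) (hmul : ∀ g h x, a (g * h) x = a g (a h x)) (R : X → X → Prop)
    (hR : ∀ x y, R x y ↔ ∃ g, a g x = y) :
    Nat.card (Quot R) * Fintype.card G = ∑ g : G, Nat.card {x : X // a g x = x} := by
  classical
  let : MulAction G X := { smul := a, one_smul := h1, mul_smul := hmul }
  let := Fintype.ofFinite X
  have h := MulAction.sum_card_fixedBy_eq_card_orbits_mul_card_group G X
  have e : Quot R ≃ MulAction.orbitRel.Quotient G X :=
    Quot.congr (Equiv.refl X) fun x y => by
      show R x y ↔ (MulAction.orbitRel G X) x y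
      rw [hR, MulAction.orbitRel_apply]
      exact ⟨fun ⟨g, hg⟩ => ⟨g⁻¹, by
          show a g⁻¹ y = x
          rw [← hg, ← hmul, inv_mul_cancel, h1]⟩,
        fun ⟨g, hg⟩ => ⟨g⁻¹, by
          show a g⁻¹ x = y
          rw [← show a g y = x from hg, ← hmul, inv_mul_cancel, h1]⟩⟩
  rw [Nat.card_congr e, Nat.card_eq_fintype_card]
  rw [← h]
  exact Finset.sum_congr rfl fun g _ => by
    rw [Nat.card_eq_fintype_card]
    exact Fintype.card_congr (Equiv.refl _)

theorem map_conj_eq_self {G : Type*} [Group G] (K : Subgroup G) [K.Normal] {g : G} (hg : g ∈ K)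
    (C : ConjClasses K) :
    ConjClasses.map (MulAut.conjNormal g : MulAut K).toMonoidHom C = C := by
  obtain ⟨x, rfl⟩ := ConjClasses.mk_surjective C
  refine ConjClasses.mk_eq_mk_iff_isConj.2 (IsConj.symm (isConj_iff.2 ⟨⟨g, hg⟩, ?_⟩))
  exact Subtype.ext (by simp [MulAut.conjNormal_apply])

theorem map_conj_mul {G : Type*} [Group G] (K : Subgroup G) [K.Normal] (g h : G)
    (C : ConjClasses K) :
    ConjClasses.map (MulAut.conjNormal (g * h) : MulAut K).toMonoidHom C =
      ConjClasses.map (MulAut.conjNormal g : MulAut K).toMonoidHom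
        (ConjClasses.map (MulAut.conjNormal h : MulAut K).toMonoidHom C) := by
  obtain ⟨x, rfl⟩ := ConjClasses.mk_surjective C
  exact congrArg ConjClasses.mk (by simp)

theorem iter_conjChar {G : Type*} [Group G] (K : Subgroup G) [K.Normal] (g : G) (n : ℕ)
    (θ : K → ℂ) : (fun θ => Char.conjChar K g θ)^[n] θ = Char.conjChar K (g ^ n) θ := by
  induction n with
  | zero => rw [pow_zero, Char.conjChar_one]; rfl
  | succ n ih => rw [Function.iterate_succ_apply', ih, pow_succ, Char.conjChar_mul]

theorem classFixed {G : Type*} [Group G] (K : Subgroup G) [K.Normal] (g : G) {m : ℕ}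
    (hper : g⁻¹ ^ m ∈ K) (hodd : Odd m) (C : ConjClasses K)
    (h : ∀ x, ConjClasses.mk x = C → IsConj ((MulAut.conjNormal g⁻¹ : MulAut K) x⁻¹) x) :
    (∀ x, ConjClasses.mk x = C → IsConj x x⁻¹) ∧
      ConjClasses.map (MulAut.conjNormal g : MulAut K).toMonoidHom C = C := by
  let F := ConjClasses.map (MulAut.conjNormal g⁻¹ : MulAut K).toMonoidHom
  let I : ConjClasses K → ConjClasses K :=
    Quotient.map (·⁻¹) fun _ _ hab => Char.isConj_map_inv hab
  have hit : ∀ n (D : ConjClasses K),
      F^[n] D = ConjClasses.map (MulAut.conjNormal (g⁻¹ ^ n) : MulAut K).toMonoidHom D := by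
    intro n D
    induction n with
    | zero => rw [pow_zero, map_conj_eq_self K (one_mem K)]; rfl
    | succ n ih => rw [Function.iterate_succ_apply', ih, pow_succ', map_conj_mul]
  obtain ⟨a, rfl⟩ := ConjClasses.mk_surjective C
  have hF := fixed_of_comm F I
    (fun D => by
      obtain ⟨y, rfl⟩ := ConjClasses.mk_surjective D
      exact congrArg ConjClasses.mk (map_inv (MulAut.conjNormal g⁻¹ : MulAut K) y))
    (fun D => by
      obtain ⟨y, rfl⟩ := ConjClasses.mk_surjective D
      exact congrArg ConjClasses.mk (inv_inv y))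
    hodd (x := ConjClasses.mk a) (by rw [hit]; exact map_conj_eq_self K hper _)
    (ConjClasses.mk_eq_mk_iff_isConj.2 (h a rfl))
  have hI : IsConj a⁻¹ a := ConjClasses.mk_eq_mk_iff_isConj.1 hF.2
  refine ⟨fun x hx => ?_, ?_⟩
  · rw [ConjClasses.mk_eq_mk_iff_isConj] at hx
    exact (hx.trans hI.symm).trans (Char.isConj_map_inv hx.symm)
  · conv_lhs => rw [← hF.1]
    show ConjClasses.map _ (ConjClasses.map _ _) = _
    rw [← map_conj_mul, mul_inv_cancel, map_conj_eq_self K (one_mem K)]

/-- Let K be a normal subgroup of odd index in the finite group G. Then G has as many orbits on the real-valued irreducible complex characters of K (acting by conjugation) as it has orbits on the conjugacy classes of K that are real in K; equivalently, the number of G-orbits of real-valued irreducible characters of K equals the number of G-conjugacy classes of elements of K that are conjugate in K to their inverses. -/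
theorem result {G : Type*} [Group G] [Finite G] (K : Subgroup G) [K.Normal] (hodd : Odd K.index) : Nat.card (Quot (fun θ η : {θ : Cfsg.IrrCharacter ↥K // (∀ k : ↥K, ((θ : ↥K → ℂ) k).im = 0)} => ∃ g : G, ∀ k k' : ↥K, (k' : G) = g * (k : G) * g⁻¹ → (η.1 : ↥K → ℂ) k' = (θ.1 : ↥K → ℂ) k)) = Nat.card (Quot (fun x y : {x : ↥K // IsConj x x⁻¹} => ∃ g : G, (y.1 : G) = g * x.1 * g⁻¹)) := by
  classical
  have := Fintype.ofFinite G
  let φ : G → MulAut K := fun g => MulAut.conjNormal g
  let F : G → ConjClasses K → ConjClasses K := fun g => ConjClasses.map (φ g).toMonoidHom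
  have hFmk : ∀ (g : G) (x : K), F g (ConjClasses.mk x) = ConjClasses.mk (φ g x) := fun _ _ => rfl
  let P : ConjClasses K → Prop := fun C => ∀ x, ConjClasses.mk x = C → IsConj x x⁻¹
  have hP : ∀ (g : G) (C : ConjClasses K), P C → P (F g C) := by
    intro g C hC x hx
    obtain ⟨y, rfl⟩ := ConjClasses.mk_surjective C
    rw [hFmk, ConjClasses.mk_eq_mk_iff_isConj] at hx
    have hy : IsConj (φ g y) (φ g y⁻¹) := (φ g).toMonoidHom.map_isConj (hC y rfl)
    rw [map_inv] at hy
    exact (hx.trans hy).trans (Char.isConj_map_inv hx.symm)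
  let aY : G → {C // P C} → {C // P C} := fun g C => ⟨F g C.1, hP g C.1 C.2⟩
  let aX : G → {θ : IrrCharacter K // ∀ k : K, ((θ : K → ℂ) k).im = 0} →
      {θ : IrrCharacter K // ∀ k : K, ((θ : K → ℂ) k).im = 0} := fun g θ =>
    ⟨⟨Char.conjChar K g⁻¹ θ.1.1, Char.isIrrCharacter_conjChar K g⁻¹ θ.1.2⟩, fun k => θ.2 _⟩
  have hX := card_quot_mul aX
    (fun θ => Subtype.ext (Subtype.ext (by simp [aX, Char.conjChar_one])))
    (fun g h θ => Subtype.ext (Subtype.ext (by simp [aX, Char.conjChar_mul])))
    (fun θ η => ∃ g : G, ∀ k k' : K, (k' : G) = g * (k : G) * g⁻¹ →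
      (η.1 : K → ℂ) k' = (θ.1 : K → ℂ) k) (fun θ η => by
      refine exists_congr fun g => ⟨fun h => ?_, fun h k k' hk => ?_⟩
      · refine Subtype.ext (Subtype.ext (funext fun k' => ?_))
        refine (h ⟨g⁻¹ * k' * g⁻¹⁻¹, by simpa using (inferInstance : K.Normal).conj_mem k' k'.2 g⁻¹⟩ k' ?_).symm
        simp [mul_assoc]
      · rw [← h]
        exact congrArg θ.1.1 (Subtype.ext (by simp [hk, mul_assoc])))
  have hY := card_quot_mul aY
    (fun C => Subtype.ext (map_conj_eq_self K (one_mem K) C.1))
    (fun g h C => Subtype.ext (map_conj_mul K g h C.1))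
    (fun C D => ∃ g, aY g C = D) (fun _ _ => Iff.rfl)
  have hquot : Nat.card (Quot fun C D : {C // P C} => ∃ g, aY g C = D) =
      Nat.card (Quot (fun x y : {x : K // IsConj x x⁻¹} => ∃ g : G, (y.1 : G) = g * x.1 * g⁻¹)) := by
    have hmem : ∀ x : {x : K // IsConj x x⁻¹}, P (ConjClasses.mk x.1) := fun x z hz => by
      rw [ConjClasses.mk_eq_mk_iff_isConj] at hz
      exact (hz.trans x.2).trans (Char.isConj_map_inv hz.symm)
    symm
    refine Nat.card_congr (Equiv.ofBijective
      (Quot.map (fun x => ⟨ConjClasses.mk x.1, hmem x⟩) ?_) ⟨?_, ?_⟩)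
    · rintro x y ⟨g, hg⟩
      refine ⟨g, Subtype.ext ?_⟩
      show F g (ConjClasses.mk x.1) = ConjClasses.mk y.1
      rw [hFmk]
      exact congrArg ConjClasses.mk (Subtype.ext (by simp [φ, hg, MulAut.conjNormal_apply]))
    · intro q q' h
      induction q using Quot.ind with
      | _ x =>
      induction q' using Quot.ind with
      | _ y =>
      have heq : Equivalence fun C D : {C // P C} => ∃ g, aY g C = D :=
        ⟨fun C => ⟨1, Subtype.ext (map_conj_eq_self K (one_mem K) C.1)⟩,
          fun {C D} ⟨g, hg⟩ => ⟨g⁻¹, by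
            rw [← hg]
            refine Subtype.ext ?_
            show F g⁻¹ (F g C.1) = C.1
            refine (map_conj_mul K g⁻¹ g C.1).symm.trans ?_
            rw [inv_mul_cancel]
            exact map_conj_eq_self K (one_mem K) C.1⟩,
          fun {C D E} ⟨g, hg⟩ ⟨h, hh⟩ => ⟨h * g, by
            rw [← hh, ← hg]
            exact Subtype.ext (map_conj_mul K h g C.1)⟩⟩
      obtain ⟨g, hg⟩ := heq.eqvGen_iff.1 (Quot.eqvGen_exact h)
      have hg' : F g (ConjClasses.mk x.1) = ConjClasses.mk y.1 := congrArg Subtype.val hg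
      rw [hFmk, ConjClasses.mk_eq_mk_iff_isConj, isConj_iff] at hg'
      obtain ⟨c, hc⟩ := hg'
      refine Quot.sound ⟨(c : G) * g, ?_⟩
      rw [← hc]
      simp [φ, MulAut.conjNormal_apply, mul_assoc]
    · intro q
      induction q using Quot.ind with
      | _ C =>
      obtain ⟨x, hx⟩ := ConjClasses.mk_surjective C.1
      exact ⟨Quot.mk _ ⟨x, C.2 x hx⟩, congrArg (Quot.mk _) (Subtype.ext hx)⟩
  rw [← hquot]
  refine Nat.eq_of_mul_eq_mul_right Fintype.card_pos (hX.trans (Eq.trans ?_ hY.symm))
  refine Finset.sum_congr rfl fun g _ => ?_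
  let σ : K → K := fun k => φ g⁻¹ k⁻¹
  have hper : (g⁻¹) ^ K.index ∈ K := K.pow_index_mem g⁻¹
  have hirr : ∀ χ : IrrCharacter K, IsIrrCharacter K ((χ : K → ℂ) ∘ σ) := by
    intro χ
    have hc := Char.isCharacter_of_isIrr χ.2
    have := Fintype.ofFinite K
    have e : (χ : K → ℂ) ∘ σ = fun k => conj ((χ : K → ℂ) (φ g⁻¹ k)) := funext fun k => by
      simp only [σ, Function.comp_apply, map_inv]
      exact Char.char_inv hc _
    have hi := Char.isIrrCharacter_comp χ.2 (φ g⁻¹).toMonoidHom (φ g⁻¹).surjective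
    rw [e]
    refine Char.isIrrCharacter_of_norm_one (Char.isCharacter_conj (Char.isCharacter_of_isIrr hi)) ?_
    rw [← map_one (starRingEnd ℂ), ← Char.classInner_irr_self hi]
    simp [classInner, map_sum]
  have key := Char.card_fixed_irr_eq_card_fixed_classes σ
    (fun a b h => (φ g⁻¹).toMonoidHom.map_isConj (Char.isConj_map_inv h)) hirr
  calc Nat.card {θ // aX g θ = θ}
      = Nat.card {χ : IrrCharacter K // (χ : K → ℂ) ∘ σ = (χ : K → ℂ)} := by
        refine Nat.card_congr
          { toFun := fun θ => ⟨θ.1.1, ?_⟩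
            invFun := fun χ => ⟨⟨χ.1, ?_⟩, ?_⟩
            left_inv := fun θ => rfl
            right_inv := fun χ => rfl }
        · funext k
          have h1 : Char.conjChar K g⁻¹ θ.1.1.1 = θ.1.1.1 := congrArg (fun t => t.1.1) θ.2
          have h2 := (Char.real_iff_comp_inv θ.1.1).1 θ.1.2
          show θ.1.1.1 (φ g⁻¹ k⁻¹) = θ.1.1.1 k
          rw [Char.conjChar_eq_comp] at h1
          exact (congrFun h1 k⁻¹).trans (congrFun h2 k)
        · exact (Char.real_iff_comp_inv χ.1).2 ((fixed_of_comm (fun θ => Char.conjChar K g⁻¹ θ)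
            (fun θ : K → ℂ => θ ∘ (·⁻¹)) (fun θ => funext fun k => congrArg θ (Subtype.ext (by
              simp [mul_assoc]))) (fun θ => funext fun k => congrArg θ (inv_inv k)) hodd
            ((iter_conjChar K g⁻¹ K.index χ.1.1).trans (Char.conjChar_of_mem K
                  (Char.isClassFunction_of_isIrr χ.1.2) hper))
            (by rw [Char.conjChar_eq_comp]; exact funext fun k => (congrArg χ.1.1
                  (map_inv (φ g⁻¹) k).symm).trans (congrFun χ.2 k))).2)
        · refine Subtype.ext (Subtype.ext ?_)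
          exact (fixed_of_comm (fun θ => Char.conjChar K g⁻¹ θ)
            (fun θ : K → ℂ => θ ∘ (·⁻¹)) (fun θ => funext fun k => congrArg θ (Subtype.ext (by
              simp [mul_assoc]))) (fun θ => funext fun k => congrArg θ (inv_inv k)) hodd
            ((iter_conjChar K g⁻¹ K.index χ.1.1).trans (Char.conjChar_of_mem K
                  (Char.isClassFunction_of_isIrr χ.1.2) hper))
            (by rw [Char.conjChar_eq_comp]; exact funext fun k => (congrArg χ.1.1
                  (map_inv (φ g⁻¹) k).symm).trans (congrFun χ.2 k))).1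
    _ = _ := key
    _ = Nat.card {C // aY g C = C} := by
        refine Nat.card_congr
          { toFun := fun C => ⟨⟨C.1, ?_⟩, ?_⟩
            invFun := fun C => ⟨C.1.1, ?_⟩
            left_inv := fun θ => rfl
            right_inv := fun χ => rfl }
        · exact (classFixed K g hper hodd C.1 C.2).1
        · exact Subtype.ext (classFixed K g hper hodd C.1 C.2).2
        · intro x hx
          have h1 : F g C.1.1 = C.1.1 := congrArg Subtype.val C.2
          rw [← hx, hFmk, ConjClasses.mk_eq_mk_iff_isConj] at h1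
          have h2 : IsConj x x⁻¹ := C.1.2 x hx
          have h3 : IsConj x (φ g⁻¹ x) := by
            have := (φ g⁻¹).toMonoidHom.map_isConj h1
            simpa [φ, ← MulAut.mul_apply, ← map_mul] using this
          show IsConj (φ g⁻¹ x⁻¹) x
          rw [map_inv]
          exact ((Char.isConj_map_inv h3).symm).trans h2.symm

end Cfsg.Agent.S4866
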