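import Cfsg.Statements.S4870
import Cfsg.Agent.Lib.CharClifford.Correspondence
import Cfsg.Agent.Lib.Char.Linear
import Cfsg.Agent.Lib.Char.Degree
import Cfsg.Agent.Lib.CharAux
-- import your own Cfsg.Agent.* helpers here

set_option autoImplicit false
open Cfsg

namespace Cfsg.Agent.S4870

open Cfsg.Agent.Lib Cfsg.Agent.Lib.Char Cfsg.Agent.Lib.CharClifford

variable {G : Type*} [Group G]

/-- A nonabelian minimal normal subgroup lies in the kernel of every linear character. -/
theorem le_ker_of_minimal (N : Subgroup G) (hN : N.Normal)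
    (hmin : ∀ M : Subgroup G, M.Normal → M ≤ N → M = ⊥ ∨ M = N) (hna : ¬ IsMulCommutative ↥N)
    (l : G →* ℂˣ) : N ≤ l.ker := by
  have := hN
  have hle : ⁅N, N⁆ ≤ N := Subgroup.commutator_le_left N N
  rcases hmin _ inferInstance hle with h | h
  · refine absurd ⟨⟨fun a b => Subtype.ext ?_⟩⟩ hna
    have := Subgroup.commutator_mem_commutator a.2 b.2
    rw [h, Subgroup.mem_bot, commutatorElement_eq_one_iff_mul_comm] at this
    exact this
  · rw [← h, Subgroup.commutator_le]
    intro a _ b _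
    rw [MonoidHom.mem_ker, map_commutatorElement, commutatorElement_eq_one_iff_mul_comm, mul_comm]

variable [Fintype G]

/-- At most `[G : I]` linear characters are trivial on `I`. -/
theorem card_hom_trivialOn_le (I : Subgroup G) :
    Nat.card {l : G →* ℂˣ // I ≤ l.ker} ≤ I.index := by
  let J := I ⊔ commutator G
  have hJ : J.Normal := ⟨fun j hj g => by
    have h : g * j * g⁻¹ * j⁻¹ ∈ J :=
      le_sup_right (α := Subgroup G) (Subgroup.commutator_mem_commutator (Subgroup.mem_top g) (Subgroup.mem_top j))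
    simpa using J.mul_mem h hj⟩
  have hfin : Finite (G ⧸ J →* ℂˣ) := Finite.of_equiv _ (linearEquiv (G ⧸ J)).symm
  refine le_trans (Nat.card_le_card_of_injective (β := G ⧸ J →* ℂˣ)
    (fun l => QuotientGroup.lift J l.1 (sup_le l.2 (Abelianization.commutator_subset_ker l.1)))
    fun a b h => Subtype.ext (MonoidHom.ext fun g =>
      DFunLike.congr_fun h (g : G ⧸ J))) ?_
  rw [Nat.card_congr (linearEquiv (G ⧸ J)), card_linear]
  have h1 : (commutator (G ⧸ J)).index ≤ Nat.card (G ⧸ J) :=
    Nat.le_of_dvd Nat.card_pos (Subgroup.index_dvd_card _)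
  refine le_trans h1 (Nat.le_of_dvd (Nat.pos_of_ne_zero Subgroup.index_ne_zero_of_finite) ?_)
  exact Subgroup.index_dvd_of_le le_sup_left

/-- The linear characters map, with fibres of size at most `[G : I]`, to characters of degree
`φ(1)[G : I]`. -/
theorem card_le_of_extends (N : Subgroup G) (hN : N.Normal) [Fintype N]
    (hmin : ∀ M : Subgroup G, M.Normal → M ≤ N → M = ⊥ ∨ M = N) (hna : ¬ IsMulCommutative ↥N)
    (φ : IrrCharacter N) (I : Subgroup G) [Fintype I]
    (hI : ∀ g : G, g ∈ I ↔ ∀ n n' : N, (n' : G) = g * (n : G) * g⁻¹ →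
      (φ : N → ℂ) n' = (φ : N → ℂ) n)
    (hNI : N ≤ I) (ψ : IrrCharacter I)
    (hext : ∀ n : N, (ψ : I → ℂ) (Subgroup.inclusion hNI n) = (φ : N → ℂ) n)
    (P Q : (G → ℂ) → Prop)
    (hPQ : ∀ l : G →* ℂˣ, P (fun g => (l g : ℂ)) →
      IsIrrCharacter I (fun i : I => (l i : ℂ) * (ψ : I → ℂ) i) →
      IsIrrCharacter G (indFun I fun i : I => (l i : ℂ) * (ψ : I → ℂ) i) →
      Q (indFun I fun i : I => (l i : ℂ) * (ψ : I → ℂ) i)) :
    Nat.card {χ : IrrCharacter G // charDegree (χ : G → ℂ) = 1 ∧ P χ} ≤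
      I.index * Nat.card {χ : IrrCharacter G //
        charDegree (χ : G → ℂ) = charDegree (φ : N → ℂ) * I.index ∧ Q χ} := by
  classical
  have := hN
  have hinert : inertia N (φ : N → ℂ) = I := by
    ext g
    rw [mem_inertia, hI]
    constructor
    · intro h n n' hn
      rw [← congrFun h n]
      exact congrArg φ.1 (Subtype.ext hn)
    · intro h
      funext n
      exact h n _ rfl
  have hker := le_ker_of_minimal N hN hmin hna
  let L := {l : G →* ℂˣ // P (fun g => (l g : ℂ))}
  have hfinG : Finite (G →* ℂˣ) := Finite.of_equiv _ (linearEquiv G).symm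
  have := Fintype.ofFinite L
  have hψl : ∀ l : G →* ℂˣ, IsIrrCharacter I (fun i : I => (l i : ℂ) * (ψ : I → ℂ) i) := fun l =>
    isIrrCharacter_linear_mul ψ.2 (l.comp I.subtype)
  have hres : ∀ l : G →* ℂˣ,
      resLe hNI (fun i : I => (l i : ℂ) * (ψ : I → ℂ) i) = (φ : N → ℂ) := fun l => by
    funext n
    show (l n : ℂ) * _ = _
    rw [show l n = 1 from hker l n.2, Units.val_one, one_mul]
    exact hext n
  have hover : ∀ l : G →* ℂˣ,
      classInner (resLe hNI (fun i : I => (l i : ℂ) * (ψ : I → ℂ) i)) (φ : N → ℂ) ≠ 0 := fun l => by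
    rw [hres l, classInner_irr_self φ.2]
    exact one_ne_zero
  have hirr : ∀ l : G →* ℂˣ, IsIrrCharacter G (indFun I fun i : I => (l i : ℂ) * (ψ : I → ℂ) i) :=
    fun l => (indFun_correspondent N φ.2 I hinert hNI (hψl l) (hover l)).1
  have hdeg : ∀ l : G →* ℂˣ, charDegree (indFun I fun i : I => (l i : ℂ) * (ψ : I → ℂ) i) =
      charDegree (φ : N → ℂ) * I.index := by
    intro l
    have h1 := indFun_one I (fun i : I => (l i : ℂ) * (ψ : I → ℂ) i)
    have h2 : (ψ : I → ℂ) 1 = (φ : N → ℂ) 1 := by rw [← hext 1, map_one]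
    rw [show ((1 : I) : G) = 1 from rfl, map_one, Units.val_one, one_mul, h2,
      CharAux.charDegree_eq (isCharacter_of_isIrr φ.2),
      CharAux.charDegree_eq (isCharacter_of_isIrr (hirr l)), ← Nat.cast_mul, Nat.cast_inj] at h1
    rw [h1, mul_comm]
  let F : L → {χ : IrrCharacter G //
      charDegree (χ : G → ℂ) = charDegree (φ : N → ℂ) * I.index ∧ Q χ} := fun l =>
    ⟨⟨_, hirr l.1⟩, hdeg l.1, hPQ l.1 l.2 (hψl l.1) (hirr l.1)⟩
  have hcount : Nat.card {χ : IrrCharacter G // charDegree (χ : G → ℂ) = 1 ∧ P χ} ≤ Nat.card L := by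
    have hex : ∀ χ : {χ : IrrCharacter G // charDegree (χ : G → ℂ) = 1 ∧ P χ},
        ∃ l : L, (χ.1 : G → ℂ) = fun g => (l.1 g : ℂ) := by
      rintro ⟨χ, h1, hP⟩
      obtain ⟨l, hl⟩ := exists_hom_of_degree_one (isCharacter_of_isIrr χ.2) (by
        rw [CharAux.charDegree_eq (isCharacter_of_isIrr χ.2), h1, Nat.cast_one])
      exact ⟨⟨l, by rwa [← funext hl]⟩, funext hl⟩
    choose f hf using hex
    exact Nat.card_le_card_of_injective f fun a b h =>
      Subtype.ext (Subtype.ext (by rw [hf a, hf b, h]))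
  refine hcount.trans ?_
  rw [Nat.card_eq_fintype_card, Nat.card_eq_fintype_card, ← Finset.card_univ, mul_comm,
    ← Finset.card_univ (α := {χ : IrrCharacter G // _ ∧ _}), mul_comm]
  refine Finset.card_le_mul_card_image_of_maps_to (f := F) (fun l _ => Finset.mem_univ _) _ fun χ _ => ?_
  rcases Finset.eq_empty_or_nonempty (Finset.univ.filter fun l => F l = χ) with h0 | ⟨l₀, hl₀⟩
  · rw [h0]; simp
  rw [← Fintype.card_subtype, ← Nat.card_eq_fintype_card]
  refine le_trans ?_ (card_hom_trivialOn_le I)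
  have := Fintype.ofFinite {l : G →* ℂˣ // I ≤ l.ker}
  have hsame : ∀ l : {l : L // F l = χ}, ∀ i : I, (l.1.1 (i : G) : ℂ) = (l₀.1 (i : G) : ℂ) := by
    intro l
    have he : (indFun I fun i : I => (l.1.1 i : ℂ) * (ψ : I → ℂ) i) =
        indFun I fun i : I => (l₀.1 i : ℂ) * (ψ : I → ℂ) i :=
      congrArg (fun x => x.1.1) (l.2.trans (Finset.mem_filter.1 hl₀).2.symm)
    have hu := (indFun_correspondent N φ.2 I hinert hNI (hψl l₀.1) (hover l₀.1)).2 _ (hψl l.1.1)
      (hover l.1.1) he
    -- Gallagher inside `I`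
    have : (N.subgroupOf I).Normal := hN.subgroupOf I
    have := Fintype.ofFinite (N.subgroupOf I)
    let θ : N.subgroupOf I → ℂ := fun n => (ψ : I → ℂ) n
    have hθ : IsIrrCharacter (N.subgroupOf I) θ := by
      have e : θ = (φ : N → ℂ) ∘ (Subgroup.subgroupOfEquivOfLe hNI) := funext fun n => by
        rw [Function.comp_apply, ← hext]; rfl
      rw [e]
      exact isIrrCharacter_comp_equiv _ φ.2
    have hb := gallagher_bijOn (N.subgroupOf I) (φ := fun _ => 1) isIrrCharacter_one (fun _ => rfl)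
      (show IsIrrCharacter (N.subgroupOf I) ((fun _ => 1) * θ) by
        rwa [show ((fun _ => (1 : ℂ)) * θ) = θ from funext fun n => one_mul _])
      (isCharacter_of_isIrr ψ.2) (fun n => rfl)
    have hmem : ∀ k : G →* ℂˣ, (fun i : I => (k i : ℂ)) ∈
        {β : I → ℂ | IsIrrCharacter I β ∧
          classInner (indFun (N.subgroupOf I) fun _ => 1) β ≠ 0} := by
      intro k
      have hk : IsIrrCharacter I (fun i : I => (k i : ℂ)) := isIrrCharacter_linear (k.comp I.subtype)
      refine ⟨hk, ?_⟩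
      rw [classInner_indFun (N.subgroupOf I) _ (isClassFunction_of_isIrr hk)]
      have e : (fun a : N.subgroupOf I => (k ((a : I) : G) : ℂ)) = fun _ => 1 := funext fun a => by
        rw [show k ((a : I) : G) = 1 from hker k a.2, Units.val_one]
      rw [e, classInner_irr_self isIrrCharacter_one]
      exact one_ne_zero
    exact congrFun (hb.2.1 (hmem l.1.1) (hmem l₀.1) hu)
  refine Nat.card_le_card_of_injective (fun l => ⟨l.1.1 / l₀.1, fun i hi => by
    rw [MonoidHom.mem_ker, MonoidHom.div_apply, Units.ext (hsame l ⟨i, hi⟩), div_self']⟩) ?_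
  intro a b h
  exact Subtype.ext (Subtype.ext (div_left_inj.1 (congrArg Subtype.val h)))

/-- Let G be a finite group with a non-abelian minimal normal subgroup N, and let φ be an irreducible complex character of N with stabilizer I in G (the elements g with φ(g n g⁻¹) = φ(n) for all n ∈ N) such that φ extends to an irreducible character of I. Put d = φ(1)·[G : I]. Then the number of linear characters of G is at most [G : I] times the number of irreducible characters of G of degree d. -/
theorem result {G : Type*} [Group G] [Finite G] (N : Subgroup G) (hN : N.Normal) (hN1 : N ≠ ⊥) (hmin : ∀ M : Subgroup G, M.Normal → M ≤ N → M = ⊥ ∨ M = N) (hna : ¬ IsMulCommutative ↥N) (φ : Cfsg.IrrCharacter ↥N) (I : Subgroup G) (hI : ∀ g : G, g ∈ I ↔ ∀ n n' : ↥N, (n' : G) = g * (n : G) * g⁻¹ → (φ : ↥N → ℂ) n' = (φ : ↥N → ℂ) n) (hNI : N ≤ I) (hext : ∃ ψ : Cfsg.IrrCharacter ↥I, ∀ n : ↥N, (ψ : ↥I → ℂ) (Subgroup.inclusion hNI n) = (φ : ↥N → ℂ) n) : Nat.card {χ : Cfsg.IrrCharacter G // Cfsg.charDegree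 (χ : G → ℂ) = 1} ≤ I.index * Nat.card {χ : Cfsg.IrrCharacter G // Cfsg.charDegree (χ : G → ℂ) = Cfsg.charDegree (φ : ↥N → ℂ) * I.index} := by
  classical
  have := Fintype.ofFinite G
  have := Fintype.ofFinite N
  have := Fintype.ofFinite I
  obtain ⟨ψ, hψ⟩ := hext
  have h := card_le_of_extends N hN hmin hna φ I hI hNI ψ hψ (fun _ => True) (fun _ => True)
    (fun _ _ _ _ => trivial)
  simpa using h

end Cfsg.Agent.S4870
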