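import Cfsg.Statements.S4871
import Cfsg.Agent.Lib.Char.Linear
import Cfsg.Agent.Lib.Char.Degree
import Cfsg.Agent.Lib.Char.Clifford
import Cfsg.Agent.Lib.Char.FrobSchur
import Cfsg.Agent.Lib.CharClifford.Correspondence
import Mathlib.LinearAlgebra.Dual.Lemmas
import Mathlib.GroupTheory.Complement
import Mathlib.GroupTheory.PGroup
import Mathlib.RingTheory.Norm.Basic

set_option autoImplicit false
set_option linter.unusedSectionVars false
set_option linter.style.haveILetI false
open Cfsg Cfsg.Agent.Lib Cfsg.Agent.Lib.Char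
open scoped ComplexConjugate

namespace Cfsg.Agent.S4871

universe u

section
variable {G : Type u} [Group G] [Finite G]

/-- At most `[P : K]` linear characters are trivial on `K`. -/
theorem card_hom_trivial_le (K : Subgroup G) :
    Nat.card {l : G →* ℂˣ // ∀ k : K, l k = 1} ≤ K.index := by
  classical
  haveI := Fintype.ofFinite G
  haveI := Fintype.ofFinite {l : G →* ℂˣ // ∀ k : K, l k = 1}
  let F : {l : G →* ℂˣ // ∀ k : K, l k = 1} → (G ⧸ K → ℂ) := fun l q => (l.1 q.out : ℂ)
  let c : {l : G →* ℂˣ // ∀ k : K, l k = 1} → (G →* ℂ) := fun l => (Units.coeHom ℂ).comp l.1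
  have hc : Function.Injective c := fun a b h =>
    Subtype.ext (MonoidHom.ext fun g => Units.ext (DFunLike.congr_fun h g))
  have hli : LinearIndependent ℂ (fun l => (c l : G → ℂ)) :=
    (linearIndependent_monoidHom G ℂ).comp c hc
  have heq : (fun l => (c l : G → ℂ)) =
      (LinearMap.funLeft ℂ ℂ (QuotientGroup.mk : G → G ⧸ K)) ∘ F := by
    funext l g
    obtain ⟨k, hk⟩ := QuotientGroup.mk_out_eq_mul K g
    simp [F, c, LinearMap.funLeft_apply, hk, l.2 k]
  rw [heq] at hli
  have h := (LinearIndependent.of_comp _ hli).fintype_card_le_finrank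
  rw [Module.finrank_fintype_fun_eq_card] at h
  rwa [Nat.card_eq_fintype_card, Subgroup.index, Nat.card_eq_fintype_card]

instance : Finite (G →* ℂˣ) := Finite.of_equiv _ (linearEquiv G).symm

/-- Sign characters of a group and of a subgroup. -/
theorem card_sign_le (K : Subgroup G) :
    Nat.card {l : G →* ℂˣ // ∀ g, l g ^ 2 = 1} ≤
      K.index * Nat.card {m : K →* ℂˣ // ∀ k, m k ^ 2 = 1} := by
  classical
  haveI := Fintype.ofFinite {l : G →* ℂˣ // ∀ g, l g ^ 2 = 1}
  haveI := Fintype.ofFinite {m : K →* ℂˣ // ∀ k, m k ^ 2 = 1}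
  rw [Nat.card_eq_fintype_card, Nat.card_eq_fintype_card]
  let res : {l : G →* ℂˣ // ∀ g, l g ^ 2 = 1} → {m : K →* ℂˣ // ∀ k, m k ^ 2 = 1} :=
    fun l => ⟨l.1.comp K.subtype, fun k => l.2 k⟩
  rw [← Finset.card_univ, ← Finset.card_univ]
  refine Finset.card_le_mul_card_image_of_maps_to (f := res) (fun x _ => Finset.mem_univ _) _
    fun m _ => ?_
  rcases (Finset.univ.filter fun l => res l = m).eq_empty_or_nonempty with h | ⟨l0, hl0⟩
  · simp [h]
  · refine le_trans ?_ (card_hom_trivial_le K)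
    rw [← Fintype.card_subtype, ← Nat.card_eq_fintype_card]
    refine Nat.card_le_card_of_injective (fun l => ⟨l.1.1 / l0.1, fun k => ?_⟩) fun a b h => ?_
    · have h1 := congrArg Subtype.val ((l.2).trans (Finset.mem_filter.1 hl0).2.symm)
      have h2 : l.1.1 k = l0.1 k := DFunLike.congr_fun h1 k
      rw [MonoidHom.div_apply, h2, div_self']
    · have := congrArg Subtype.val h
      exact Subtype.ext (Subtype.ext (MonoidHom.ext fun g => by
        simpa using DFunLike.congr_fun this g))

open scoped Classical in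
/-- A nontrivial linear character sums to zero. -/
theorem sum_hom [Fintype G] (l : G →* ℂˣ) :
    ∑ g : G, (l g : ℂ) = if l = 1 then (Nat.card G : ℂ) else 0 := by
  classical
  split_ifs with h
  · simp [h, Nat.card_eq_fintype_card]
  · obtain ⟨a, ha⟩ : ∃ a, l a ≠ 1 := by
      by_contra hc; push Not at hc; exact h (MonoidHom.ext hc)
    have e : (l a : ℂ) * ∑ g : G, (l g : ℂ) = ∑ g : G, (l g : ℂ) := by
      rw [Finset.mul_sum]
      exact Fintype.sum_equiv (Equiv.mulLeft a) _ _ fun g => by simp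
    by_contra hne
    exact ha (Units.ext (mul_eq_right₀ hne |>.1 e))

theorem indicator_linear (l : G →* ℂˣ)
    (h : (Nat.card G : ℂ)⁻¹ * ∑ᶠ g : G, (l (g * g) : ℂ) = 1) (g : G) : l g ^ 2 = 1 := by
  classical
  haveI := Fintype.ofFinite G
  rw [finsum_eq_sum_of_fintype] at h
  have e : ∀ x, (l (x * x) : ℂ) = ((l * l) x : ℂ) := fun x => by simp
  simp only [e, sum_hom] at h
  split_ifs at h with hl
  · rw [sq]; exact DFunLike.congr_fun hl g
  · simp at h

end

set_option maxHeartbeats 1000000 in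
/-- Let G be a finite group that is the semidirect product of a normal elementary abelian subgroup N of odd order by a non-trivial 2-subgroup P, with N the unique minimal normal subgroup of G. Consider the strongly real irreducible complex characters of G (Frobenius–Schur indicator +1) whose degree is 1 or even. Then their average degree is at least 4/3: four times their number is at most three times the sum of their degrees. -/
theorem result {G : Type*} [Group G] [Finite G] (N P : Subgroup G) (hN : N.Normal) (q : ℕ) [Fact q.Prime] (hq : q ≠ 2) (hNel : Cfsg.IsElementaryAbelian q N) (hP : IsPGroup 2 ↥P) (hP1 : P ≠ ⊥) (hdisj : N ⊓ P = ⊥) (hprod : N ⊔ P = ⊤) (hmin : N ≠ ⊥ ∧ ∀ M : Subgroup G, M.Normal → M ≠ ⊥ → N ≤ M) : 4 * Nat.card {χ : Cfsg.IrrCharacter G // (Cfsg.charDegree (χ : G → ℂ) = 1 ∨ 2 ∣ Cfsg.charDegree (χ : G → ℂ)) ∧ (Nat.card G : ℂ)⁻¹ * ∑ᶠ g : G, (χ : G → ℂ) (g * g) = 1} ≤ 3 * (∑ᶠ χ : {χ : Cfsg.IrrCharacter G // (Cfsg.charDegree (χ : G → ℂ) = 1 ∨ 2 ∣ Cfsg.charDegree (χ : G →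 ℂ)) ∧ (Nat.card G : ℂ)⁻¹ * ∑ᶠ g : G, (χ : G → ℂ) (g * g) = 1}, Cfsg.charDegree (χ.1 : G → ℂ)) := by
  classical
  haveI := hN
  haveI := Fintype.ofFinite G
  haveI := Fintype.ofFinite N
  haveI := Fintype.ofFinite P
  have hq2 : ¬ 2 ∣ Nat.card N := by
    obtain ⟨k, hk⟩ := IsPGroup.iff_card.1
      (fun a : N => ⟨1, by rw [pow_one]; exact Subtype.ext (hNel.2 a a.2)⟩ : IsPGroup q N)
    rw [hk]
    intro h
    exact hq ((Nat.prime_dvd_prime_iff_eq Nat.prime_two (Fact.out : q.Prime)).1
      (Nat.prime_two.dvd_of_dvd_pow h)).symm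
  have hcomm : ∀ a b : N, a * b = b * a := fun a b => hNel.1.is_comm.comm a b
  have hcompl : Subgroup.IsComplement' N P := by
    refine Subgroup.isComplement'_of_disjoint_and_mul_eq_univ (disjoint_iff.2 hdisj) ?_
    rw [← Subgroup.normal_mul N P, hprod, Subgroup.coe_top]
  let e := hcompl.symm.QuotientMulEquiv
  let π : G →* P := e.toMonoidHom.comp (QuotientGroup.mk' N)
  have hπP : ∀ p : P, π p = p := fun p => e.eq_symm_apply.1 rfl
  have hπN : ∀ n : N, π n = 1 := fun n => by
    simp [π, (QuotientGroup.eq_one_iff _).2 n.2]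
  have hπker : ∀ g : G, g * (π g : G)⁻¹ ∈ N := by
    intro g
    have h1 : π (g * (π g : G)⁻¹) = 1 := by rw [map_mul, map_inv, hπP, mul_inv_cancel]
    exact (QuotientGroup.eq_one_iff _).1 (e.injective (h1.trans (map_one e).symm))
  -- a central involution inverting N
  obtain ⟨z, hz2, hz1, hzc⟩ : ∃ z : P, z * z = 1 ∧ z ≠ 1 ∧ ∀ p : P, p * z = z * p := by
    haveI : Nontrivial P := (Subgroup.nontrivial_iff_ne_bot P).2 hP1
    haveI := hP.center_nontrivial
    have hd : 2 ∣ Nat.card (Subgroup.center P) := by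
      obtain ⟨k, hk⟩ := IsPGroup.iff_card.1 (hP.to_subgroup (Subgroup.center P))
      rw [hk]
      rcases k with _ | k
      · have := Finite.one_lt_card (α := Subgroup.center P); omega
      · exact dvd_pow_self _ (by omega)
    obtain ⟨z, hz⟩ := exists_prime_orderOf_dvd_card' 2 hd
    refine ⟨z.1, ?_, fun h => ?_, fun p => Subgroup.mem_center_iff.1 z.2 p⟩
    · have := pow_orderOf_eq_one z
      rw [hz, sq] at this
      exact congrArg Subtype.val this
    · rw [show z = 1 from Subtype.ext h, orderOf_one] at hz; omega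
  have hsup : ∀ g : G, ∃ (n : N) (p : P), g = n * p :=
    fun g => ⟨⟨_, hπker g⟩, π g, by simp⟩
  have hzinv : ∀ n : N, (z : G) * n * (z : G)⁻¹ = (n : G)⁻¹ := by
    let C : Subgroup G := N ⊓ Subgroup.centralizer {(z : G)}
    have hCn : C.Normal := ⟨fun x hx g => by
      obtain ⟨n, p, rfl⟩ := hsup g
      refine Subgroup.mem_inf.2 ⟨hN.conj_mem x hx.1 _, Subgroup.mem_centralizer_singleton_iff.2 ?_⟩
      have h1 : (p : G) * x * (p : G)⁻¹ ∈ N := hN.conj_mem x hx.1 _
      have h2 : (n : G) * ((p : G) * x * (p : G)⁻¹) * (n : G)⁻¹ = (p : G) * x * (p : G)⁻¹ := by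
        have := congrArg Subtype.val (hcomm n ⟨_, h1⟩)
        simp only [Subgroup.coe_mul] at this
        rw [this, mul_inv_cancel_right]
      have h3 : (z : G) * x = x * z := (Subgroup.mem_centralizer_singleton_iff.1 hx.2).symm
      have h4 : Commute (z : G) p := (congrArg Subtype.val (hzc p)).symm
      rw [show (n : G) * p * x * ((n : G) * p)⁻¹ = (p : G) * x * (p : G)⁻¹ by
        rw [← h2]; group]
      exact ((h4.mul_right h3).mul_right h4.inv_right).symm.eq⟩
    have hC : C = ⊥ := by
      by_contra hne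
      have hle := hmin.2 C hCn hne
      have hcz : ∀ g : G, g * z = z * g := by
        intro g
        obtain ⟨n, p, rfl⟩ := hsup g
        have h1 : (n : G) * z = z * n := Subgroup.mem_centralizer_singleton_iff.1 (hle n.2).2
        have h4 : (p : G) * z = z * p := congrArg Subtype.val (hzc p)
        rw [mul_assoc, h4, ← mul_assoc, h1, mul_assoc]
      have hzn : (Subgroup.zpowers (z : G)).Normal := ⟨fun x hx g => by
        have : Commute g x := by
          obtain ⟨k, rfl⟩ := hx
          exact Commute.zpow_right (hcz g) k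
        rwa [this.eq, mul_inv_cancel_right]⟩
      have hzne : Subgroup.zpowers (z : G) ≠ ⊥ := by simpa using hz1
      refine hmin.1 (le_bot_iff.1 ?_)
      rw [← hdisj]
      exact le_inf le_rfl ((hmin.2 _ hzn hzne).trans (Subgroup.zpowers_le.2 z.2))
    intro n
    let m : G := n * ((z : G) * n * (z : G)⁻¹)
    have hzn : (z : G) * n * (z : G)⁻¹ ∈ N := hN.conj_mem _ n.2 _
    have hm : m ∈ C := by
      refine Subgroup.mem_inf.2 ⟨N.mul_mem n.2 hzn, Subgroup.mem_centralizer_singleton_iff.2 ?_⟩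
      have h2 : (z : G)⁻¹ = z := inv_eq_of_mul_eq_one_left (congrArg Subtype.val hz2)
      have h3 := congrArg Subtype.val (hcomm n ⟨_, hzn⟩)
      simp only [Subgroup.coe_mul] at h3
      calc m * z = (z : G) * n * (z : G)⁻¹ * n * z := by rw [show m = _ from h3]
        _ = z * (n * ((z : G)⁻¹ * n * z)) := by simp only [mul_assoc]
        _ = z * m := by simp only [m, h2]
    rw [hC, Subgroup.mem_bot] at hm
    exact eq_inv_of_mul_eq_one_right hm
  -- a nontrivial character of N
  obtain ⟨lam, hlam⟩ : ∃ l : N →* ℂˣ, l ≠ 1 := by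
    letI : CommGroup N := { (inferInstance : Group N) with mul_comm := hcomm }
    obtain ⟨a, ha⟩ : ∃ a : N, a ≠ 1 := by
      haveI : Nontrivial N := (Subgroup.nontrivial_iff_ne_bot N).2 hmin.1
      exact exists_ne 1
    haveI : NeZero (Monoid.exponent N : ℂ) :=
      ⟨Nat.cast_ne_zero.2 Monoid.exponent_ne_zero_of_finite⟩
    obtain ⟨l, hl⟩ := CommGroup.exists_apply_ne_one_of_hasEnoughRootsOfUnity N ℂ ha
    exact ⟨l, fun h => hl (by simp [h])⟩
  let θ : N → ℂ := fun n => (lam n : ℂ)
  have hθ : IsIrrCharacter N θ := isIrrCharacter_linear lam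
  let T := inertia N θ
  haveI := Fintype.ofFinite T
  have hNT : N ≤ T := le_inertia N (isClassFunction_of_isIrr hθ)
  let K : Subgroup P := T.subgroupOf P
  have hlamconj : ∀ (g : G), g ∈ T → ∀ n : N,
      lam ⟨g * n * g⁻¹, hN.conj_mem n n.2 g⟩ = lam n := fun g hg n =>
    Units.ext (congrFun (mem_inertia N |>.1 hg) n)
  have hπT : ∀ g : G, g ∈ T → π g ∈ K := by
    intro g hg
    rw [Subgroup.mem_subgroupOf]
    have := T.mul_mem (T.inv_mem (hNT (hπker g))) hg
    simpa using this
  let ext : (K →* ℂˣ) → (T →* ℂˣ) := fun μ =>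
    MonoidHom.mk' (fun t => lam ⟨_, hπker t⟩ * μ ⟨π t, hπT t t.2⟩) fun s t => by
      have hc : lam ⟨_, hπker ((s * t : T) : G)⟩ = lam ⟨_, hπker s⟩ * lam ⟨_, hπker t⟩ := by
        have hps : (π s : G) ∈ T := hπT s s.2
        rw [← hlamconj _ hps ⟨_, hπker t⟩, ← map_mul]
        refine congrArg lam (Subtype.ext ?_)
        simp only [Subgroup.coe_mul, map_mul, _root_.mul_inv_rev]
        group
      have hm : μ ⟨π ((s * t : T) : G), hπT _ (s * t).2⟩ = μ ⟨π s, hπT s s.2⟩ * μ ⟨π t, hπT t t.2⟩ := by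
        rw [← map_mul]
        exact congrArg μ (Subtype.ext (map_mul π _ _))
      rw [hc, hm, mul_mul_mul_comm]
  have extN : ∀ μ (n : N), ext μ ⟨n, hNT n.2⟩ = lam n := fun μ n => by
    have h1 : lam ⟨_, hπker (n : G)⟩ = lam n := congrArg lam (Subtype.ext (by simp [hπN]))
    have h2 : μ ⟨π (n : G), hπT _ (hNT n.2)⟩ = 1 :=
      (congrArg μ (show _ = (1 : K) from Subtype.ext (hπN n))).trans (map_one μ)
    show lam ⟨_, hπker (n : G)⟩ * μ ⟨π (n : G), hπT _ (hNT n.2)⟩ = _
    rw [h1, h2, mul_one]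
  have extK : ∀ μ (k : K), ext μ ⟨(k.1 : G), k.2⟩ = μ k := fun μ k => by
    have h1 : lam ⟨_, hπker (k.1 : G)⟩ = 1 :=
      (congrArg lam (show _ = (1 : N) from Subtype.ext (by simp [hπP]))).trans (map_one lam)
    have h2 : μ ⟨π (k.1 : G), hπT _ k.2⟩ = μ k := congrArg μ (Subtype.ext (hπP _))
    show lam ⟨_, hπker (k.1 : G)⟩ * μ ⟨π (k.1 : G), hπT _ k.2⟩ = _
    rw [h1, h2, one_mul]
  let ψ : (K →* ℂˣ) → T → ℂ := fun μ t => (ext μ t : ℂ)
  have hψ : ∀ μ, IsIrrCharacter T (ψ μ) := fun μ => isIrrCharacter_linear _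
  have hres : ∀ μ, CharClifford.resLe hNT (ψ μ) = θ := fun μ => funext fun n => by
    show ((ext μ ⟨n, hNT n.2⟩ : ℂˣ) : ℂ) = _
    rw [extN]
  have hover : ∀ μ, classInner (CharClifford.resLe hNT (ψ μ)) θ ≠ 0 := fun μ => by
    rw [hres, classInner_irr_self hθ]; exact one_ne_zero
  let χ : (K →* ℂˣ) → IrrCharacter G := fun μ =>
    ⟨indFun T (ψ μ), (CharClifford.indFun_correspondent N hθ T rfl hNT (hψ μ) (hover μ)).1⟩
  have hχinj : Function.Injective χ := fun a b hab => by
    have := (CharClifford.indFun_correspondent N hθ T rfl hNT (hψ b) (hover b)).2 (ψ a) (hψ a)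
      (hover a) (congrArg Subtype.val hab)
    refine MonoidHom.ext fun k => ?_
    have h := congrFun this ⟨(k.1 : G), k.2⟩
    simp only [ψ, extK] at h
    exact Units.ext h
  have hzT : ∀ k : K, (z : G) * k ∉ T := by
    intro k h
    have hz : (z : G) ∈ T := by simpa using T.mul_mem h (T.inv_mem k.2)
    refine hlam (MonoidHom.ext fun n => ?_)
    have h1 := hlamconj _ hz n
    rw [show (⟨_, hN.conj_mem n n.2 z⟩ : N) = n⁻¹ from Subtype.ext (hzinv n), map_inv] at h1
    have h2 : lam n ^ 2 = 1 := by rw [sq]; nth_rewrite 1 [← h1]; simp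
    have h3 : lam n ^ Nat.card N = 1 := by rw [← map_pow, pow_card_eq_one', map_one]
    have h4 := (pow_gcd_eq_one.2 ⟨h2, h3⟩)
    rwa [(Nat.prime_two.coprime_iff_not_dvd.2 hq2).gcd_eq_one, pow_one] at h4
  have hTcard : Nat.card T = Nat.card N * Nat.card K := by
    rw [← Nat.card_prod]
    refine Nat.card_congr
      { toFun := fun t => (⟨_, hπker t⟩, ⟨π t, hπT t t.2⟩)
        invFun := fun x => ⟨(x.1 : G) * (x.2.1 : G), T.mul_mem (hNT x.1.2) x.2.2⟩
        left_inv := fun t => Subtype.ext (by simp)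
        right_inv := fun x => ?_ }
    have h1 : π ((x.1 : G) * (x.2.1 : G)) = x.2.1 := by rw [map_mul, hπN, hπP, one_mul]
    exact Prod.ext (Subtype.ext (by simp [h1])) (Subtype.ext h1)
  have hd : T.index = K.index := by
    have h1 := T.card_mul_index
    have h2 := K.card_mul_index
    have h3 := hcompl.card_mul
    rw [hTcard, ← h3, ← h2] at h1
    have hpos : 0 < Nat.card N * Nat.card K := Nat.mul_pos Nat.card_pos Nat.card_pos
    exact Nat.eq_of_mul_eq_mul_left hpos (by rw [h1]; ring)
  have hd2 : 2 ∣ K.index := by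
    obtain ⟨a, ha⟩ := IsPGroup.iff_card.1 hP
    obtain ⟨b, -, hb⟩ := (Nat.dvd_prime_pow Nat.prime_two).1 (ha ▸ K.index_dvd_card)
    rw [hb]
    rcases b with _ | b
    · exfalso
      have hK : K = ⊤ := Subgroup.index_eq_one.1 (by simpa using hb)
      refine hzT 1 ?_
      have hz : z ∈ K := by simp [hK]
      simpa using (Subgroup.mem_subgroupOf.1 hz)
    · exact dvd_pow_self _ (by omega)
  have hdeg : ∀ μ, charDegree (χ μ : G → ℂ) = K.index := fun μ => by
    refine charDegree_eq_of_apply_one ?_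
    show indFun T (ψ μ) 1 = _
    simp [indFun_one, ψ, hd]
  have hind : ∀ μ : K →* ℂˣ, (∀ k, μ k ^ 2 = 1) →
      (Nat.card G : ℂ)⁻¹ * ∑ᶠ g : G, (χ μ : G → ℂ) (g * g) = 1 := by
    intro μ hμ
    rw [finsum_eq_sum_of_fintype]
    have h1 : ∀ g : G, (χ μ : G → ℂ) (g * g) =
        (Nat.card T : ℂ)⁻¹ * ∑ x : G, extendByZero T (ψ μ) ((x⁻¹ * g * x) * (x⁻¹ * g * x)) := by
      intro g
      show indFun T (ψ μ) (g * g) = _
      simp only [indFun]
      congr 1
      exact Finset.sum_congr rfl fun x _ => congrArg _ (by group)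
    simp only [h1, ← Finset.mul_sum]
    rw [Finset.sum_comm]
    have h2 : ∀ x : G, ∑ g : G, extendByZero T (ψ μ) ((x⁻¹ * g * x) * (x⁻¹ * g * x)) =
        ∑ g : G, extendByZero T (ψ μ) (g * g) := fun x =>
      Fintype.sum_equiv (MulAut.conj x⁻¹).toEquiv _ _ fun g => by simp
    simp only [h2, Finset.sum_const, Finset.card_univ, nsmul_eq_mul]
    have h3 : ∑ g : G, extendByZero T (ψ μ) (g * g) = (Nat.card T : ℂ) := by
      rw [← Fintype.sum_equiv (Equiv.ofBijective (fun x : N × P => (x.1 : G) * x.2) hcompl) _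
        (fun g => extendByZero T (ψ μ) (g * g)) (fun x => rfl), Fintype.sum_prod_type,
        Finset.sum_comm]
      let c : P → (N →* ℂˣ) := fun p => MonoidHom.mk'
        (fun n => lam n * lam ⟨(p : G) * n * (p : G)⁻¹, hN.conj_mem n n.2 _⟩) fun a b => by
          have e : (⟨_, hN.conj_mem _ (a * b).2 (p : G)⟩ : N) =
              ⟨_, hN.conj_mem _ a.2 (p : G)⟩ * ⟨_, hN.conj_mem _ b.2 (p : G)⟩ :=
            Subtype.ext (by simp [mul_assoc])
          rw [e, map_mul, map_mul, mul_mul_mul_comm]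
      have hc : ∀ p : P, c p = 1 ↔ (z * p : P) ∈ K := by
        intro p
        rw [Subgroup.mem_subgroupOf]
        constructor
        · intro h
          refine (mem_inertia N).2 (funext fun n => ?_)
          have h1 : lam n * lam ⟨(p : G) * n * (p : G)⁻¹, hN.conj_mem n n.2 _⟩ = 1 :=
            DFunLike.congr_fun h n
          have h2 : (⟨_, hN.conj_mem n n.2 ((z * p : P) : G)⟩ : N) =
              (⟨(p : G) * n * (p : G)⁻¹, hN.conj_mem n n.2 _⟩ : N)⁻¹ := by
            refine Subtype.ext ?_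
            rw [Subgroup.coe_inv]
            refine Eq.trans ?_ (hzinv ⟨_, hN.conj_mem n n.2 _⟩)
            simp [mul_assoc]
          show ((lam ⟨_, _⟩ : ℂˣ) : ℂ) = _
          rw [h2, map_inv, inv_eq_of_mul_eq_one_left h1]
        · intro h
          refine MonoidHom.ext fun n => ?_
          have h1 := hlamconj _ h n
          have h2 : (⟨_, hN.conj_mem n n.2 ((z * p : P) : G)⟩ : N) =
              (⟨(p : G) * n * (p : G)⁻¹, hN.conj_mem n n.2 _⟩ : N)⁻¹ := by
            refine Subtype.ext ?_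
            rw [Subgroup.coe_inv]
            refine Eq.trans ?_ (hzinv ⟨_, hN.conj_mem n n.2 _⟩)
            simp [mul_assoc]
          rw [h2, map_inv] at h1
          show lam n * lam _ = 1
          rw [← h1]; simp
      rw [Finset.sum_congr rfl (g := fun p : P => if (z * p : P) ∈ K then (Nat.card N : ℂ) else 0)
        fun p _ => ?_]
      · rw [← Finset.sum_filter, Finset.sum_const, nsmul_eq_mul, hTcard, Nat.cast_mul,
          mul_comm]
        congr 2
        rw [← Fintype.card_subtype, ← Nat.card_eq_fintype_card]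
        exact Nat.card_congr ((Equiv.mulLeft z).subtypeEquiv fun p => Iff.rfl)
      · have e : p * p = z * p * (z * p) := by
          calc p * p = z * z * (p * p) := by rw [hz2, one_mul]
            _ = z * (z * p) * p := by simp only [mul_assoc]
            _ = z * (p * z) * p := by rw [hzc p]
            _ = z * p * (z * p) := by simp only [mul_assoc]
        by_cases hp : (p * p : P) ∈ K
        · have hval : ∀ n : N, extendByZero T (ψ μ) ((n : G) * p * ((n : G) * p)) =
              (c p n : ℂ) * (μ ⟨p * p, hp⟩ : ℂ) := by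
            intro n
            have hmem : (n : G) * p * ((n : G) * p) =
                (((⟨_, hNT (n * ⟨_, hN.conj_mem n n.2 p⟩ : N).2⟩ : T) *
                  ⟨((p * p : P) : G), hp⟩ : T) : G) := by simp [mul_assoc]
            rw [hmem, extendByZero_coe]
            simp only [ψ]
            rw [map_mul, extN, extK μ ⟨p * p, hp⟩, Units.val_mul, map_mul]
            rfl
          refine (Finset.sum_congr rfl fun n _ => hval n).trans ?_
          rw [← Finset.sum_mul, sum_hom]
          by_cases hz : (z * p : P) ∈ K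
          · rw [if_pos ((hc p).2 hz), if_pos hz]
            have : (⟨p * p, hp⟩ : K) = ⟨z * p, hz⟩ ^ 2 := Subtype.ext (by simpa [sq] using e)
            rw [this, map_pow, hμ]; simp
          · rw [if_neg (fun h => hz ((hc p).1 h)), if_neg hz, zero_mul]
        · have hz : (z * p : P) ∉ K := by
            intro hz
            apply hp
            rw [e]
            exact K.mul_mem hz hz
          rw [if_neg hz]
          refine Finset.sum_eq_zero fun n _ => extendByZero_not_mem T _ fun h => hp ?_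
          have h2 : π ((n : G) * p * ((n : G) * p)) ∈ K := hπT _ h
          rw [map_mul, map_mul, hπN, hπP, one_mul] at h2
          exact h2
    rw [h3]
    field_simp
    rw [Nat.card_eq_fintype_card]
  -- counting
  let S := {χ : Cfsg.IrrCharacter G // (Cfsg.charDegree (χ : G → ℂ) = 1 ∨
    2 ∣ Cfsg.charDegree (χ : G → ℂ)) ∧ (Nat.card G : ℂ)⁻¹ * ∑ᶠ g : G, (χ : G → ℂ) (g * g) = 1}
  haveI : Fintype S := Fintype.ofFinite _
  show 4 * Nat.card S ≤ 3 * ∑ᶠ χ : S, charDegree (χ.1 : G → ℂ)
  rw [finsum_eq_sum_of_fintype, Nat.card_eq_fintype_card]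
  let A := {m : K →* ℂˣ // ∀ k, m k ^ 2 = 1}
  haveI : Fintype A := Fintype.ofFinite _
  let f : A → S := fun m => ⟨χ m.1, Or.inr ((hdeg m.1).symm ▸ hd2), hind m.1 m.2⟩
  have hfinj : Function.Injective f := fun a b h => Subtype.ext (hχinj (congrArg Subtype.val h))
  let L : Finset S := Finset.univ.filter fun x => charDegree (x.1 : G → ℂ) = 1
  let R : Finset S := Finset.univ.filter fun x => ¬ charDegree (x.1 : G → ℂ) = 1
  have hk2 : 2 ≤ K.index := Nat.le_of_dvd (Nat.pos_of_ne_zero Subgroup.index_ne_zero_of_finite) hd2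
  have hL : L.card ≤ K.index * Fintype.card A := by
    rw [← Nat.card_eq_fintype_card]
    refine le_trans ?_ (card_sign_le K)
    have hlin : ∀ x : L, ∃ l : G →* ℂˣ, ∀ g, (x.1.1 : G → ℂ) g = (l g : ℂ) := fun x => by
      refine exists_hom_of_degree_one (isCharacter_of_isIrr x.1.1.2) ?_
      rw [apply_one_eq_charDegree (isCharacter_of_isIrr x.1.1.2), (Finset.mem_filter.1 x.2).2, Nat.cast_one]
    choose l hl using hlin
    have hsq : ∀ x g, l x g ^ 2 = 1 := fun x => by
      refine indicator_linear (l x) ?_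
      have := x.1.2.2
      simp only [hl] at this
      exact this
    rw [← Fintype.card_coe, ← Nat.card_eq_fintype_card]
    refine Nat.card_le_card_of_injective
      (fun x => ⟨(l x).comp P.subtype, fun p => hsq x p⟩) fun a b h => ?_
    refine Subtype.ext (Subtype.ext (Subtype.ext (funext fun g => ?_)))
    rw [hl, hl]
    obtain ⟨n, p, rfl⟩ := hsup g
    have hn : ∀ x, l x n = 1 := fun x => by
      have h3 : l x (n : G) ^ Nat.card N = 1 := by
        rw [← map_pow, ← Subgroup.coe_pow, pow_card_eq_one', Subgroup.coe_one, map_one]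
      have h4 := (pow_gcd_eq_one.2 ⟨hsq x n, h3⟩)
      rwa [(Nat.prime_two.coprime_iff_not_dvd.2 hq2).gcd_eq_one, pow_one] at h4
    rw [map_mul, map_mul, hn, hn, one_mul, one_mul]
    exact congrArg _ (DFunLike.congr_fun (congrArg Subtype.val h) p)
  have hsub : Finset.univ.image f ⊆ R := by
    intro x hx
    obtain ⟨m, -, rfl⟩ := Finset.mem_image.1 hx
    refine Finset.mem_filter.2 ⟨Finset.mem_univ _, ?_⟩
    show ¬ charDegree (χ m.1 : G → ℂ) = 1
    rw [hdeg]; omega
  have hge : ∀ x ∈ R, 2 ≤ charDegree (x.1.1 : G → ℂ) := by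
    intro x hx
    rcases x.2.1 with h | h
    · exact absurd h (Finset.mem_filter.1 hx).2
    · exact Nat.le_of_dvd (Nat.pos_of_ne_zero fun h0 => irr_degree_ne_zero x.1.2
        (by rw [apply_one_eq_charDegree (isCharacter_of_isIrr x.1.2), h0, Nat.cast_zero])) h
  have hMcard : (Finset.univ.image f).card = Fintype.card A :=
    Finset.card_image_of_injective _ hfinj
  have hR : 4 * R.card + K.index * Fintype.card A ≤ 3 * ∑ x ∈ R, charDegree (x.1.1 : G → ℂ) := by
    rw [← Finset.sum_sdiff hsub, ← Finset.card_sdiff_add_card_eq_card hsub, hMcard]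
    have h1 : (R \ Finset.univ.image f).card * 2 ≤
        ∑ x ∈ R \ Finset.univ.image f, charDegree (x.1.1 : G → ℂ) := by
      rw [← smul_eq_mul, ← Finset.sum_const]
      exact Finset.sum_le_sum fun x hx => hge x (Finset.mem_sdiff.1 hx).1
    have h2 : ∑ x ∈ Finset.univ.image f, charDegree (x.1.1 : G → ℂ) =
        Fintype.card A * K.index := by
      rw [Finset.sum_image fun a _ b _ h => hfinj h]
      simp [f, hdeg]
    rw [h2]
    have : 2 * Fintype.card A ≤ K.index * Fintype.card A := Nat.mul_le_mul_right _ hk2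
    nlinarith
  have hsum : ∑ x : S, charDegree (x.1 : G → ℂ) = L.card + ∑ x ∈ R, charDegree (x.1.1 : G → ℂ) := by
    rw [← Finset.sum_filter_add_sum_filter_not Finset.univ
      (fun x : S => charDegree (x.1 : G → ℂ) = 1)]
    congr 1
    rw [Finset.sum_congr rfl fun x hx => (Finset.mem_filter.1 hx).2]
    simp [L]
  have hcard : Fintype.card S = L.card + R.card := by
    rw [← Finset.card_univ]
    exact (Finset.card_filter_add_card_filter_not _).symm
  rw [hsum, hcard]
  omega

end Cfsg.Agent.S4871
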