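import Cfsg.Statements.S4872
import Cfsg.Agent.Lib.GowReal.Extension
import Cfsg.Agent.Lib.CharClifford.Correspondence

set_option autoImplicit false
open Cfsg Cfsg.Agent.Lib Cfsg.Agent.Lib.Char

namespace Cfsg.Agent.S4872

/-- Let N be a normal subgroup of the finite group G with G/N a 2-group, and let φ be an irreducible complex character of N of 2-defect zero (the 2-part of #N divides φ(1)) whose complex conjugate is G-conjugate to φ. Then some irreducible character of G with Frobenius–Schur indicator +1 contains φ with multiplicity exactly one on restriction to N. -/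
theorem result {G : Type*} [Group G] [Finite G] (N : Subgroup G) [N.Normal] (h2 : IsPGroup 2 (G ⧸ N)) (φ : Cfsg.IrrCharacter ↥N) (hdef : 2 ^ (Nat.card ↥N).factorization 2 ∣ Cfsg.charDegree (φ : ↥N → ℂ)) (hconj : ∃ g : G, ∀ n n' : ↥N, (n' : G) = g * (n : G) * g⁻¹ → (φ : ↥N → ℂ) n' = (starRingEnd ℂ) ((φ : ↥N → ℂ) n)) : ∃ χ : Cfsg.IrrCharacter G, (Nat.card G : ℂ)⁻¹ * ∑ᶠ g : G, (χ : G → ℂ) (g * g) = 1 ∧ (Nat.card ↥N : ℂ)⁻¹ * ∑ᶠ n : ↥N, (χ : G → ℂ) n * (starRingEnd ℂ) ((φ : ↥N → ℂ) n) = 1 := by
  classical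
  haveI := Fintype.ofFinite G
  haveI := Fintype.ofFinite N
  have hcφ := isCharacter_of_isIrr φ.2
  have hg : ∃ g : G, ∀ n : N, (φ : N → ℂ) (MulAut.conjNormal g n) = (φ : N → ℂ) n⁻¹ := by
    obtain ⟨g, hg⟩ := hconj
    refine ⟨g, fun n => ?_⟩
    rw [hg n _ (by simp [MulAut.conjNormal_apply]), char_inv hcφ]
  obtain ⟨y, Q, x, hQle, hTQ, hdisj, hQ, hQy, hxy, hxQ, hx2, hxφ, hy⟩ :=
    GowReal.exists_data h2 φ hdef hg
  set T := inertia N (φ : N → ℂ)
  obtain ⟨η, hη, hres, hsum⟩ :=
    GowReal.exists_extension N φ y Q x hQle hTQ hdisj hQ hQy hxy hxQ hx2 hxφ hy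
  haveI : Fintype T := Fintype.ofFinite _
  have hNT : N ≤ T := le_inertia N (isClassFunction_of_isIrr φ.2)
  have hres' : CharClifford.resLe hNT η = (φ : N → ℂ) := funext hres
  have hover : classInner (CharClifford.resLe hNT η) (φ : N → ℂ) ≠ 0 := by
    rw [hres', classInner_irr_self φ.2]; exact one_ne_zero
  have hirr := (CharClifford.indFun_correspondent N φ.2 T rfl hNT hη hover).1
  have hcon : classInner (fun t : T => indFun T η t) η ≠ 0 := by
    rw [← classInner_indFun_right T η (isClassFunction_of_isIrr hirr), classInner_irr_self hirr]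
    exact one_ne_zero
  have hmult := (CharClifford.correspondence N φ.2 T rfl hNT hirr hη hover hcon).2.1
  refine ⟨⟨indFun T η, hirr⟩, ?_, ?_⟩
  · show (Nat.card G : ℂ)⁻¹ * ∑ᶠ g : G, indFun T η (g * g) = 1
    rw [finsum_eq_sum_of_fintype]
    simp only [indFun]
    rw [← Finset.mul_sum, Finset.sum_comm]
    have h1 : ∀ z : G, ∑ g : G, extendByZero T η (z⁻¹ * (g * g) * z) =
        ∑ g : G, extendByZero T η (g * g) := fun z =>
      Fintype.sum_equiv (MulAut.conj z⁻¹).toEquiv _ _ fun g => congrArg _ (by simp [mul_assoc])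
    simp only [h1, Finset.sum_const, Finset.card_univ, nsmul_eq_mul]
    have h2 : (Nat.card N : ℂ) * ∑ g : G, extendByZero T η (g * g) =
        (Nat.card N : ℂ) * (Nat.card T : ℂ) := by
      have e : ∀ n : N, ∑ g : G, extendByZero T η (g * n * (g * n)) =
          ∑ g : G, extendByZero T η (g * g) := fun n =>
        Fintype.sum_equiv (Equiv.mulRight (n : G)) _ _ fun g => rfl
      have e2 : ∑ n : N, ∑ g : G, extendByZero T η (g * n * (g * n)) =
          (Nat.card N : ℂ) * ∑ g : G, extendByZero T η (g * g) := by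
        simp [e, Nat.card_eq_fintype_card]
      rw [← e2, Finset.sum_comm]
      have hTn : ∀ (g : G) (n : N), g * n * (g * n) ∈ T → g * g ∈ T := fun g n h => by
        have h3 : g * g = (MulAut.conjNormal g n : G)⁻¹ * (g * n * (g * n)) * (n : G)⁻¹ := by
          simp [MulAut.conjNormal_apply, mul_assoc]
        rw [h3]
        exact T.mul_mem (T.mul_mem (T.inv_mem (hNT (SetLike.coe_mem _))) h) (T.inv_mem (hNT n.2))
      have hval : ∀ g : G, ∑ n : N, extendByZero T η (g * n * (g * n)) =
          if x⁻¹ * g ∈ T then (Nat.card N : ℂ) else 0 := by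
        intro g
        have hiff : x⁻¹ * g ∈ T ↔ ∀ n : N, (φ : N → ℂ) (MulAut.conjNormal g n) = (φ : N → ℂ) n⁻¹ := by
          constructor
          · intro h n
            rw [show g = x * (x⁻¹ * g) by rw [mul_inv_cancel_left], map_mul, MulAut.mul_apply,
              hxφ, ← map_inv (MulAut.conjNormal (x⁻¹ * g))]
            exact congrFun ((mem_inertia N).1 h) n⁻¹
          · intro h
            rw [mem_inertia]
            funext n
            show (φ : N → ℂ) (MulAut.conjNormal (x⁻¹ * g) n) = _
            have h3 := hxφ (MulAut.conjNormal x⁻¹ (MulAut.conjNormal g n))⁻¹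
            rw [map_inv (MulAut.conjNormal x), ← MulAut.mul_apply, ← map_mul, mul_inv_cancel,
              map_one, MulAut.one_apply, inv_inv] at h3
            rw [map_mul, MulAut.mul_apply, ← h3, ← map_inv (MulAut.conjNormal g), h, inv_inv]
        by_cases hgg : g * g ∈ T
        · rw [hsum g hgg]
          by_cases h : x⁻¹ * g ∈ T
          · rw [if_pos h, if_pos (hiff.1 h)]
          · rw [if_neg h, if_neg fun h' => h (hiff.2 h')]
        · rw [if_neg, Finset.sum_eq_zero fun n _ => extendByZero_not_mem T η fun h => hgg (hTn g n h)]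
          intro h
          refine hgg ((mem_inertia N).2 (funext fun n => ?_))
          show (φ : N → ℂ) (MulAut.conjNormal (g * g) n) = (φ : N → ℂ) n
          rw [map_mul, MulAut.mul_apply, hiff.1 h, ← map_inv (MulAut.conjNormal g), hiff.1 h, inv_inv]
      simp only [hval, ← Finset.sum_filter, Finset.sum_const, nsmul_eq_mul]
      rw [mul_comm]
      congr 2
      rw [← Fintype.card_subtype, ← Nat.card_eq_fintype_card]
      exact Nat.card_congr ((Equiv.mulLeft x⁻¹).subtypeEquiv fun g => Iff.rfl)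
    rw [mul_left_cancel₀ (card_ne_zero_complex N) h2, ← Nat.card_eq_fintype_card]
    have := card_ne_zero_complex T
    have : (Nat.card G : ℂ) ≠ 0 := Nat.cast_ne_zero.2 Nat.card_pos.ne'
    field_simp
  · rw [hres', classInner_irr_self φ.2] at hmult
    rw [finsum_eq_sum_of_fintype]
    exact hmult.symm

end Cfsg.Agent.S4872
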