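import Cfsg.Statements.S4873
import Cfsg.Agent.Lib.Char.OddIndexReal
-- import your own Cfsg.Agent.* helpers here

set_option autoImplicit false
open Cfsg

namespace Cfsg.Agent.S4873

/-- Let N be a normal subgroup of odd index in the finite group G. Then every irreducible complex character of N with Frobenius–Schur indicator +1 lies under exactly one irreducible character of G with Frobenius–Schur indicator +1. -/
theorem result {G : Type*} [Group G] [Finite G] (N : Subgroup G) [N.Normal] (hodd : Odd N.index) (φ : Cfsg.IrrCharacter ↥N) (hφ : (Nat.card ↥N : ℂ)⁻¹ * ∑ᶠ g : ↥N, (φ : ↥N → ℂ) (g * g) = 1) : ∃! χ : Cfsg.IrrCharacter G, (Nat.card G : ℂ)⁻¹ * ∑ᶠ g : G, (χ : G → ℂ) (g * g) = 1 ∧ (∑ᶠ n : ↥N, (χ : G → ℂ) n * (starRingEnd ℂ) ((φ : ↥N → ℂ) n)) ≠ 0 := by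
  classical
  haveI : Fintype G := Fintype.ofFinite G
  haveI : Fintype ↥N := Fintype.ofFinite _
  have hfs : ∀ {H : Type _} [Group H] [Fintype H] (θ : H → ℂ),
      (Nat.card H : ℂ)⁻¹ * ∑ᶠ g : H, θ (g * g) = Lib.Char.fsInd θ := fun θ => by
    rw [finsum_eq_sum_of_fintype, Lib.Char.fsInd]
  have hν : Lib.Char.fsInd (φ : ↥N → ℂ) = 1 := by
    rw [← hφ, finsum_eq_sum_of_fintype, Lib.Char.fsInd]
  obtain ⟨χ, ⟨h1, h2⟩, huniq⟩ :=
    Lib.Char.OddIndexReal.unique_strongly_real N hodd φ.2 hν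
  have hiff : ∀ χ : Cfsg.IrrCharacter G,
      (∑ᶠ n : ↥N, (χ : G → ℂ) n * (starRingEnd ℂ) ((φ : ↥N → ℂ) n)) ≠ 0 ↔
        Cfsg.classInner (fun n : ↥N => (χ : G → ℂ) n) (φ : ↥N → ℂ) ≠ 0 := fun χ => by
    rw [finsum_eq_sum_of_fintype, Cfsg.classInner]
    simp [Lib.Char.card_ne_zero_complex]
  refine ⟨χ, ⟨?_, (hiff χ).2 h2⟩, fun χ' hχ' => huniq χ' ⟨?_, (hiff χ').1 hχ'.2⟩⟩
  · rw [hfs]; exact h1
  · rw [← hfs]; exact hχ'.1


end Cfsg.Agent.S4873
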