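import Cfsg.Statements.S4911
import Cfsg.Agent.Lib.Glauberman.Coprime
import Cfsg.Agent.Lib.Glauberman.Subgroup
-- import your own Cfsg.Agent.* helpers here

set_option autoImplicit false
open Cfsg

namespace Cfsg.Agent.S4911

/-- Let P and K be subgroups of a finite group with P a p-group normalizing K and K of order prime to p. Then the number of P-invariant real-valued irreducible complex characters of K equals the number of conjugacy classes of K that are real (closed under inversion) and P-invariant. Moreover, if every real-valued irreducible character of K is P-invariant, then every real element of K (one conjugate in K to its inverse) is conjugate in K to an element centralized by P. -/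
theorem result {G : Type*} [Group G] [Finite G] (p : ℕ) [Fact p.Prime] (P K : Subgroup G) (hP : IsPGroup p ↥P) (hK : ¬ p ∣ Nat.card ↥K) (hPK : P ≤ Subgroup.normalizer (K : Set G)) : Nat.card {θ : Cfsg.IrrCharacter ↥K // (∀ k : ↥K, ((θ : ↥K → ℂ) k).im = 0) ∧ (∀ x ∈ P, ∀ k k' : ↥K, (k' : G) = x * (k : G) * x⁻¹ → (θ : ↥K → ℂ) k' = (θ : ↥K → ℂ) k)} = Nat.card {c : ConjClasses ↥K // (∀ k : ↥K, ConjClasses.mk k = c → IsConj k k⁻¹) ∧ ∀ k : ↥K, ConjClasses.mk k = c → ∀ x ∈ P, ∀ k' : ↥K, (k' : G) = x * (k : G) * x⁻¹ → ConjClasses.mk k' = c} ∧ ((∀ θ : Cfsg.IrrCharacter ↥K, (∀ k : ↥K, ((θ : ↥K → ℂ) k).im = 0) → (∀ x ∈ P, ∀ k k' : ↥K, (k' : G) = x * (k : G) * x⁻¹ → (θ : ↥K → ℂ) k' = (θ : ↥K → ℂ) k)) → ∀ k : ↥K, IsConj k k⁻¹ → ∃ k' : ↥K, IsConj k k' ∧ ∀ x ∈ P, x * (k' : G) * x⁻¹ = (k' : G)) := by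
  have hnorm : ∀ s ∈ P, ∀ g ∈ K, s * g * s⁻¹ ∈ K := fun s hs g hg =>
    (Subgroup.mem_normalizer_iff.mp (hPK hs) g).mp hg
  have h1 : ∀ θ : Cfsg.IrrCharacter ↥K,
      Lib.Glauberman.Inv (Lib.Glauberman.conjHom hnorm) (θ : ↥K → ℂ) ↔
      (∀ x ∈ P, ∀ k k' : ↥K, (k' : G) = x * (k : G) * x⁻¹ → (θ : ↥K → ℂ) k' = (θ : ↥K → ℂ) k) :=
    fun θ => Lib.Glauberman.inv_conjHom_iff hnorm _
  have h2 : ∀ c : ConjClasses ↥K, Lib.Glauberman.InvClass (Lib.Glauberman.conjHom hnorm) c ↔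
      ∀ k : ↥K, ConjClasses.mk k = c → ∀ x ∈ P, ∀ k' : ↥K, (k' : G) = x * (k : G) * x⁻¹ →
        ConjClasses.mk k' = c := by
    intro c
    refine ⟨fun h k hk x hx k' e => ?_, fun h x k hk => h k hk x x.2 _ rfl⟩
    rw [show k' = Lib.Glauberman.conjHom hnorm ⟨x, hx⟩ k from Subtype.ext e]
    exact h _ _ hk
  refine ⟨?_, fun hall k hk => ?_⟩
  · have h := Lib.Glauberman.card_real_inv_irr_eq (a := Lib.Glauberman.conjHom hnorm) hP hK
    simp only [h1, h2] at h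
    exact h
  · obtain ⟨k', hkk', hfix⟩ := Lib.Glauberman.exists_fixed_of_real
      (a := Lib.Glauberman.conjHom hnorm) hP hK (fun θ hθ => (h1 θ).mpr (hall θ hθ)) hk
    exact ⟨k', hkk', fun x hx => congrArg Subtype.val (hfix ⟨x, hx⟩)⟩

end Cfsg.Agent.S4911
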