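import Cfsg.Statements.S4912
import Cfsg.Agent.S4870
import Cfsg.Agent.Lib.FSInduced
-- import your own Cfsg.Agent.* helpers here

set_option autoImplicit false
open Cfsg

namespace Cfsg.Agent.S4912

/-- Let G be a finite group with a non-abelian minimal normal subgroup N, and let φ be an irreducible complex character of N with stabilizer I in G such that φ extends to an irreducible character of I with Frobenius–Schur indicator +1. Put d = φ(1)·[G : I]. Then the number of linear characters of G with Frobenius–Schur indicator +1 is at most [G : I] times the number of irreducible characters of G of degree d with Frobenius–Schur indicator +1. -/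
theorem result {G : Type*} [Group G] [Finite G] (N : Subgroup G) (hN : N.Normal) (hN1 : N ≠ ⊥) (hmin : ∀ M : Subgroup G, M.Normal → M ≤ N → M = ⊥ ∨ M = N) (hna : ¬ IsMulCommutative ↥N) (φ : Cfsg.IrrCharacter ↥N) (I : Subgroup G) (hI : ∀ g : G, g ∈ I ↔ ∀ n n' : ↥N, (n' : G) = g * (n : G) * g⁻¹ → (φ : ↥N → ℂ) n' = (φ : ↥N → ℂ) n) (hNI : N ≤ I) (hext : ∃ ψ : Cfsg.IrrCharacter ↥I, (Nat.card ↥I : ℂ)⁻¹ * ∑ᶠ g : ↥I, (ψ : ↥I → ℂ) (g * g) = 1 ∧ ∀ n : ↥N, (ψ : ↥I → ℂ) (Subgroup.inclusion hNI n) = (φ : ↥N → ℂ) n) : Nat.card {χ : Cfsg.IrrCharacter G // Cfsg.charDegree (χ : G → ℂ) = 1 ∧ (Nat.card G : ℂ)⁻¹ * ∑ᶠ g : G, (χ : G → ℂ) (g * g) = 1} ≤ I.index * Nat.card {χ : Cfsg.IrrCharacter G // Cfsg.charDegree (χ : G → ℂ) = Cfsg.charDegree (φ : ↥N → ℂ) * I.index ∧ (Nat.card G : ℂ)⁻¹ * ∑ᶠ g : G, (χ : G → ℂ) (g * g) = 1} := by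
  classical
  have := Fintype.ofFinite G
  have := Fintype.ofFinite N
  have := Fintype.ofFinite I
  obtain ⟨ψ, hν, hψ⟩ := hext
  simp only [finsum_eq_sum_of_fintype] at hν ⊢
  refine S4870.card_le_of_extends N hN hmin hna φ I hI hNI ψ hψ
    (fun χ => (Nat.card G : ℂ)⁻¹ * ∑ g : G, χ (g * g) = 1)
    (fun χ => (Nat.card G : ℂ)⁻¹ * ∑ g : G, χ (g * g) = 1) fun l hl hirr hind => ?_
  refine Lib.FSInduced.fsInd_indFun_eq_one I hirr ?_ hind
  have hl' : Lib.Char.fsInd (fun g => (l g : ℂ)) = 1 := hl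
  have hreal : ∀ g, ((l g : ℂ)).im = 0 := by
    intro g
    by_contra h
    have := (Lib.Char.fsInd_irr (Lib.Char.isIrrCharacter_linear l)).2.2 ⟨g, h⟩
    rw [hl'] at this
    exact one_ne_zero this
  have hsq : ∀ g : G, (l (g * g) : ℂ) = 1 := by
    intro g
    have h := Lib.Char.linear_conj_mul l g
    rw [Complex.conj_eq_iff_im.2 (hreal g)] at h
    rw [map_mul, Units.val_mul]
    exact h
  show (Nat.card I : ℂ)⁻¹ * ∑ s : I, (l ((s * s : I) : G) : ℂ) * (ψ : I → ℂ) (s * s) = 1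
  simp only [Subgroup.coe_mul, hsq, one_mul]
  exact hν

end Cfsg.Agent.S4912
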