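import Cfsg.Statements.S4914
import Cfsg.Agent.Lib.Glauberman.Subgroup

set_option autoImplicit false
open Cfsg

namespace Cfsg.Agent.S4914

open Cfsg.Agent.Lib.Glauberman

/-- Let P and K be subgroups of a finite group G with P a p-group normalizing K, and suppose K has a normal Sylow p-subgroup Q. Let C be the subgroup of those k ∈ K whose commutator with every element of P lies in Q (so that C/Q is the fixed-point subgroup of P on K/Q). Then there is a bijection f from the P-invariant irreducible complex characters of K onto the P-invariant irreducible complex characters of C such that, for every P-invariant irreducible character χ of K, the multiplicity of f(χ) in the restriction of χ to C is a natural number congruent to 1 or to −1 modulo p, every other P-invariant irreducible character of C occurs in that restriction with multiplicity divisible by p, and the degrees of χ and f(χ) are congruent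 modulo p up to sign. -/
theorem result {G : Type*} [Group G] [Finite G] (p : ℕ) [Fact p.Prime] (P K Q C : Subgroup G) (hP : IsPGroup p ↥P) (hPK : P ≤ Subgroup.normalizer (K : Set G)) (hQK : Q ≤ K) (hQn : ∀ k ∈ K, ∀ q ∈ Q, k * q * k⁻¹ ∈ Q) (hQp : ∃ a : ℕ, Nat.card ↥Q = p ^ a) (hQsyl : ¬ p ∣ Q.relIndex K) (hCK : C ≤ K) (hC : ∀ k : G, k ∈ C ↔ (k ∈ K ∧ ∀ x ∈ P, x * k * x⁻¹ * k⁻¹ ∈ Q)) : ∃ f : {χ : Cfsg.IrrCharacter ↥K // (∀ x ∈ P, ∀ k k' : ↥K, (k' : G) = x * (k : G) * x⁻¹ → (χ : ↥K → ℂ) k' = (χ : ↥K → ℂ) k)} → {ξ : Cfsg.IrrCharacter ↥C // (∀ x ∈ P, ∀ k k' : ↥C, (k' : G) = x * (k : G) * x⁻¹ → (ξ : ↥C → ℂ) k' = (ξ : ↥C → ℂ) k)}, Function.Bijective f ∧ ∀ χ, (∀ ξ : {ξ : Cfsg.IrrCharacter ↥C // (∀ x ∈ P, ∀ k k' : ↥C, (k' : G) = x * (k : G) * x⁻¹ → (ξ : ↥C → ℂ) k' = (ξ : ↥C → ℂ) k)}, ∃ m : ℕ, (Nat.card ↥C : ℂ)⁻¹ * ∑ᶠ c : ↥C, (χ.1 : ↥K → ℂ) (Subgroup.inclusion hCK c) * (starRingEnd ℂ) ((ξ.1 : ↥C → ℂ) c) = (m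 : ℂ) ∧ (ξ = f χ → ((m : ZMod p) = 1 ∨ (m : ZMod p) = -1)) ∧ (ξ ≠ f χ → p ∣ m)) ∧ ((Cfsg.charDegree ((f χ).1 : ↥C → ℂ) : ZMod p) = (Cfsg.charDegree (χ.1 : ↥K → ℂ) : ZMod p) ∨ (Cfsg.charDegree ((f χ).1 : ↥C → ℂ) : ZMod p) = -(Cfsg.charDegree (χ.1 : ↥K → ℂ) : ZMod p)) := by
  have hnorm : ∀ s ∈ P, ∀ k ∈ K, s * k * s⁻¹ ∈ K := fun s hs k hk =>
    (Subgroup.mem_normalizer_iff.1 (hPK hs) k).1 hk
  have hQsub : (Q.subgroupOf K).Normal := ⟨fun q hq k => hQn k k.2 q hq⟩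
  obtain ⟨a, ha⟩ := hQp
  have S : Setup (conjHom hnorm) p (Q.subgroupOf K) (C.subgroupOf K) := by
    refine ⟨hP, hQsub, (IsPGroup.iff_card.2 ⟨a, ha⟩).comap_of_injective K.subtype K.subtype_injective,
      hQsyl, fun k => ?_⟩
    rw [Subgroup.mem_subgroupOf, hC]
    refine ⟨fun h x => h.2 x x.2, fun h => ⟨k.2, fun x hx => h ⟨x, hx⟩⟩⟩
  have := Fintype.ofFinite C
  obtain ⟨f, hf, hprop⟩ := S.exists_bijective
  let e1 := Equiv.subtypeEquivRight fun χ : Cfsg.IrrCharacter K => (inv_conjHom_iff hnorm (χ : K → ℂ)).symm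
  let e2 := (Equiv.subtypeEquiv
    (p := fun ξ : Cfsg.IrrCharacter C => ∀ x ∈ P, ∀ k k' : C, (k' : G) = x * (k : G) * x⁻¹ → (ξ : C → ℂ) k' = (ξ : C → ℂ) k)
    (q := fun ξ : Cfsg.IrrCharacter (C.subgroupOf K) => Inv S.autC (ξ : C.subgroupOf K → ℂ))
    (irrSub hCK) fun ξ => (inv_autC_irrSub_iff hCK S ξ).symm).symm
  refine ⟨fun χ => e2 (f (e1 χ)), e2.bijective.comp (hf.comp e1.bijective), fun χ => ⟨fun ξ => ?_, ?_⟩⟩
  · refine ⟨mult χ.1 (irrSub hCK ξ.1), ?_, ?_, ?_⟩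
    · rw [← classInner_eq_mult hCK χ.1 ξ.1]
      simp only [Cfsg.classInner, finsum_eq_sum_of_fintype]
      rfl
    · rintro rfl
      have h := (hprop (e1 χ)).1
      have e : irrSub hCK (e2 (f (e1 χ))).1 = (f (e1 χ)).1 := (irrSub hCK).apply_symm_apply _
      rw [e]
      exact h
    · intro hne
      refine (ZMod.natCast_eq_zero_iff _ _).1 ((hprop (e1 χ)).2.1 ⟨_, (inv_autC_irrSub_iff hCK S ξ.1).2 ξ.2⟩ fun e => hne ?_)
      refine Subtype.ext ((irrSub hCK).injective ?_)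
      exact (congrArg Subtype.val e).trans ((irrSub hCK).apply_symm_apply _).symm
  · have h := (hprop (e1 χ)).2.2
    have e : Cfsg.charDegree ((e2 (f (e1 χ))).1 : C → ℂ) =
        Cfsg.charDegree ((f (e1 χ)).1 : C.subgroupOf K → ℂ) := by
      rw [← charDegree_irrSub hCK]
      exact congrArg (fun z : Cfsg.IrrCharacter (C.subgroupOf K) => Cfsg.charDegree (z : C.subgroupOf K → ℂ))
        ((irrSub hCK).apply_symm_apply _)
    rw [e]
    exact h

end Cfsg.Agent.S4914
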