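import Cfsg.Statements.S4916
import Cfsg.Agent.Lib.Block.Osima

set_option autoImplicit false
open Cfsg
open scoped ComplexConjugate

namespace Cfsg.Agent.S4916

open Cfsg.Agent.Lib Cfsg.Agent.Lib.Block

theorem result {G : Type*} [Group G] [Finite G] (p : ℕ) [Fact p.Prime] (M : Ideal Cfsg.AlgInt) (hM : Cfsg.IsPModular p M) : (∀ χ : Cfsg.IrrCharacter G, χ ∈ Cfsg.principalBlock M G → ¬ p ∣ Cfsg.charDegree (χ : G → ℂ) → (χ : G → ℂ) = fun _ => (1 : ℂ)) ↔ ¬ p ∣ Nat.card G := by
  classical
  haveI := hM.2.1.isPrime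
  have := Fintype.ofFinite G
  let one : IrrCharacter G := ⟨fun _ => 1, Char.isIrrCharacter_one⟩
  set B := principalBlock M G with hBdef
  have hB : IsPBlock M B := ⟨one, rfl⟩
  have hone : one ∈ B := mem_blockOf_self one
  constructor
  · intro h hdvd
    let N : ℕ := ∑ χ ∈ Finset.univ.filter (fun χ => χ ∈ B), charDegree (χ : G → ℂ) ^ 2
    have hcoef : blockCoeff B 1 ∈ locRing M := intR_eIdem hB 1
    have hval : (N : ℂ) = (Nat.card G : ℂ) * blockCoeff B 1 := by
      rw [blockCoeff_eq_sum, ← mul_assoc, mul_inv_cancel₀ (Char.card_ne_zero_complex G), one_mul,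
        ← Finset.sum_filter]
      simp only [N, Nat.cast_sum, Nat.cast_pow]
      refine Finset.sum_congr rfl fun χ _ => ?_
      rw [irr_one_eq_natCast χ, Complex.conj_natCast, sq]
    have hN : p ∣ N := by
      rw [← natCast_memLocalIdeal_iff hM]
      rw [← redC_eq_zero_iff (natCast_mem (locRing M) N), hval,
        redC_mul (natCast_mem (locRing M) _) hcoef,
        (redC_eq_zero_iff (natCast_mem (locRing M) _)).2 (natCast_mem_of_dvd hM hdvd), zero_mul]
    simp only [N] at hN
    rw [← Finset.add_sum_erase _ _ (Finset.mem_filter.2 ⟨Finset.mem_univ one, hone⟩)] at hN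
    have h1 : charDegree (one : G → ℂ) ^ 2 = 1 := by simp [one, charDegree]
    rw [h1] at hN
    refine (Fact.out : p.Prime).not_dvd_one ((Nat.dvd_add_left ?_).1 hN)
    refine Finset.dvd_sum fun χ hχ => ?_
    obtain ⟨hne, hχB⟩ := Finset.mem_erase.1 hχ
    refine dvd_pow ?_ two_ne_zero
    by_contra hd
    exact hne (Subtype.ext (h χ (Finset.mem_filter.1 hχB).2 hd))
  · intro hdvd χ hχ _
    by_contra hne
    let z : MonoidAlgebra ℂ G := ofFun (fun _ => (1 : ℂ))
    have hcoef : ∀ x, z.coeff x = 1 := fun x => rfl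
    have hz : IsClassCoeff z := fun u x => by rw [hcoef, hcoef]
    have hzR : IntR M z := fun x => by
      show z.coeff x ∈ locRing M
      rw [hcoef]
      exact one_mem _
    have h := redC_omega_eq_of_sameBlock (χ := one) (ψ := χ) hχ hz hzR
    rw [omega_eq_sum, omega_eq_sum] at h
    have h0 : ∑ g, z.coeff g * (χ : G → ℂ) g = 0 := by
      have := Char.classInner_irr_ne χ.2 Char.isIrrCharacter_one hne
      rw [classInner, mul_eq_zero] at this
      simpa [hcoef] using this.resolve_left (inv_ne_zero (Char.card_ne_zero_complex G))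
    simp only [h0, zero_div, redC_zero] at h
    apply hdvd
    rw [← natCast_memLocalIdeal_iff hM, ← redC_eq_zero_iff (natCast_mem (locRing M) _), ← h]
    congr 1
    simp [hcoef, one]

end Cfsg.Agent.S4916
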