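import Cfsg.Statements.S4923
import Cfsg.Agent.Lib.CharGalois
import Cfsg.Agent.Lib.Thompson.MaxClassTwo
import Cfsg.Agent.Lib.Char.Induced
import Cfsg.Agent.Lib.Char.Orthogonality
import Mathlib.FieldTheory.IntermediateField.Adjoin.Basic
import Mathlib.GroupTheory.Sylow

set_option autoImplicit false
set_option linter.unusedSectionVars false
set_option linter.style.haveILetI false
open Cfsg Cfsg.Agent.Lib Cfsg.Agent.Lib.Char Subgroup
open scoped commutatorElement Pointwise

namespace Cfsg.Agent.S4923

universe u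

section Field

/-- An automorphism fixing generators fixes the field they generate. -/
theorem fixed_of_adjoin {σ : ℂ ≃+* ℂ} {S : Set ℂ} (h : ∀ z ∈ S, σ z = z) {x : ℂ}
    (hx : x ∈ IntermediateField.adjoin ℚ S) : σ x = x := by
  induction hx using IntermediateField.adjoin_induction with
  | mem z hz => exact h z hz
  | algebraMap q => exact map_ratCast σ q
  | add a b _ _ ha hb => rw [map_add, ha, hb]
  | inv a _ ha => rw [map_inv₀, ha]
  | mul a b _ _ ha hb => rw [map_mul, ha, hb]

/-- Symmetrised powers lie in the field of the first one. -/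
theorem sym_pow_mem {ζ : ℂ} (hζ : ζ ≠ 0) {δ : ℂ} (hδ : δ = 1 ∨ δ = -1) :
    ∀ j : ℕ, ζ ^ j + (δ * ζ⁻¹) ^ j ∈ IntermediateField.adjoin ℚ ({ζ + δ * ζ⁻¹} : Set ℂ) := by
  intro j
  set F := IntermediateField.adjoin ℚ ({ζ + δ * ζ⁻¹} : Set ℂ)
  have h1 : ζ + δ * ζ⁻¹ ∈ F := IntermediateField.mem_adjoin_simple_self ℚ _
  have hd : δ ∈ F := by
    rcases hδ with rfl | rfl
    · exact one_mem _
    · exact neg_mem (one_mem _)
  induction j using Nat.strong_induction_on with
  | _ j ih =>
    match j, ih with
    | 0, _ => simp only [pow_zero]; exact add_mem (one_mem _) (one_mem _)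
    | 1, _ => simpa using h1
    | j + 2, ih =>
      have e : ζ ^ (j + 2) + (δ * ζ⁻¹) ^ (j + 2) = (ζ + δ * ζ⁻¹) * (ζ ^ (j + 1) + (δ * ζ⁻¹) ^ (j + 1))
          - δ * (ζ ^ j + (δ * ζ⁻¹) ^ j) := by
        have e1 : ζ * (δ * ζ⁻¹) = δ := by field_simp
        linear_combination (ζ ^ j + (δ * ζ⁻¹) ^ j) * (-e1)
      rw [e]
      exact sub_mem (mul_mem h1 (ih (j + 1) (by omega))) (mul_mem hd (ih j (by omega)))

variable {G : Type u} [Group G] [Finite G]

/-- The field of values at `g`. -/
noncomputable def valField (g : G) : IntermediateField ℚ ℂ :=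
  IntermediateField.adjoin ℚ {z : ℂ | ∃ χ : IrrCharacter G, (χ : G → ℂ) g = z}

/-- An automorphism acts on values by a power map. -/
theorem aut_value {σ : ℂ ≃+* ℂ} {g : G} {m k : ℕ} (hg : orderOf g ∣ m)
    (hσ : ∀ μ : ℂ, μ ^ m = 1 → σ μ = μ ^ k) {χ : G → ℂ} (hχ : IsCharacter G χ) :
    σ (χ g) = χ (g ^ k) := by
  obtain ⟨n, ρ, rfl⟩ := hχ
  obtain ⟨b, μ, h1, -, hc⟩ := exists_eigenbasis ρ g
  have h := hc 1
  rw [pow_one] at h
  rw [h, hc, map_sum]
  refine Finset.sum_congr rfl fun i _ => ?_
  rw [pow_one]
  refine hσ _ ?_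
  obtain ⟨t, rfl⟩ := hg
  rw [pow_mul, h1, one_pow]

end Field

variable {G : Type u} [Group G] [Finite G]

/-- A subgroup containing a Sylow subgroup has odd index. -/
theorem odd_index_of_le (P : Sylow 2 G) {H : Subgroup G} (h : (P : Subgroup G) ≤ H) :
    ¬ 2 ∣ H.index := fun hd =>
  P.not_dvd_index (hd.trans (index_dvd_of_le h))

theorem orderOf_conj_eq' (x g : G) : orderOf (x * g * x⁻¹) = orderOf g := by
  rw [show x * g * x⁻¹ = MulAut.conj x g from rfl, MulEquiv.orderOf_eq]

theorem result_iff (P : Sylow 2 G) (n : ℕ) (hn : 3 ≤ n) (hP : Nat.card P = 2 ^ n) (ζ : ℂ)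
    (hζ : IsPrimitiveRoot ζ (2 ^ (n - 1))) :
    (commutator ↥P).index = 4 ↔
      ∃ g : G, g ∈ (P : Subgroup G) ∧ 2 ∣ (centralizer ({g} : Set G)).index ∧
        (valField g = IntermediateField.adjoin ℚ ({ζ + ζ⁻¹} : Set ℂ) ∨
          valField g = IntermediateField.adjoin ℚ ({ζ - ζ⁻¹} : Set ℂ)) := by
  classical
  haveI : Fact (Nat.Prime 2) := ⟨Nat.prime_two⟩
  haveI := Fintype.ofFinite G
  obtain ⟨m, rfl⟩ : ∃ m, n = m + 1 := ⟨n - 1, by omega⟩
  rw [Nat.add_sub_cancel] at hζ
  have hm : 2 ≤ m := by omega
  have hN : 0 < 2 ^ m := pow_pos two_pos m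
  have hζ0 : ζ ≠ 0 := hζ.ne_zero hN.ne'
  have hhalf : ζ ^ 2 ^ (m - 1) = -1 := by
    have h2 : (ζ ^ 2 ^ (m - 1)) ^ 2 = 1 := by
      rw [← pow_mul, ← pow_succ, Nat.sub_add_cancel (by omega : 1 ≤ m), hζ.pow_eq_one]
    refine (sq_eq_one_iff.1 h2).resolve_left (hζ.pow_ne_one_of_pos_of_lt (by positivity) ?_)
    exact Nat.pow_lt_pow_right one_lt_two (by omega)
  constructor
  · intro h4'
    have h4 : (commutator (P : Subgroup G)).index = 4 := h4'
    obtain ⟨a, b, r, hao, hba, -, hconj, hr, hidx, -⟩ :=
      Thompson.maxClassTwo_structure hm hP h4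
    obtain ⟨k, hk⟩ : ∃ k : ℕ, (k : ℤ) = r % (2 ^ m : ℕ) :=
      ⟨(r % (2 ^ m : ℕ)).toNat, Int.toNat_of_nonneg (Int.emod_nonneg _ (by positivity))⟩
    have hrk : ∀ {M : Type u} [Group M] (u : M), u ^ 2 ^ m = 1 → u ^ r = u ^ k := by
      intro M _ u hu
      rw [← zpow_natCast u k, hk, zpow_eq_zpow_iff_modEq]
      exact (Int.mod_modEq r _).symm.of_dvd (Int.natCast_dvd_natCast.2 (orderOf_dvd_of_pow_eq_one hu))
    set g : G := (a : G) with hg
    set h : G := (b : G) with hh
    have hgo : orderOf g = 2 ^ m := by rw [hg, Subgroup.orderOf_coe, hao]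
    have hgk : h * g * h⁻¹ = g ^ k := by
      have := congrArg Subtype.val hconj
      simp only [Subgroup.coe_mul, Subgroup.coe_inv, SubgroupClass.coe_zpow] at this
      rw [this]
      exact hrk g (by rw [← hgo, pow_orderOf_eq_one])
    -- the root
    obtain ⟨δ, hδ, hζk⟩ : ∃ δ : ℂ, (δ = 1 ∨ δ = -1) ∧ ζ ^ k = δ * ζ⁻¹ := by
      refine ⟨ζ ^ (k + 1), ?_, by rw [pow_succ, mul_inv_cancel_right₀ hζ0]⟩
      have h1 : 2 ^ (m - 1) ∣ k + 1 := by
        have h0 : ((2 ^ (m - 1) : ℕ) : ℤ) ∣ ((k + 1 : ℕ) : ℤ) := by
          push_cast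
          rw [hk, Int.emod_def]
          have : (2 : ℤ) ^ (m - 1) ∣ ((2 ^ m : ℕ) : ℤ) * (r / ((2 ^ m : ℕ) : ℤ)) := by
            push_cast
            exact dvd_mul_of_dvd_left (pow_dvd_pow 2 (by omega)) _
          have e : r - ((2 ^ m : ℕ) : ℤ) * (r / ((2 ^ m : ℕ) : ℤ)) + 1 =
              (r + 1) - ((2 ^ m : ℕ) : ℤ) * (r / ((2 ^ m : ℕ) : ℤ)) := by ring
          rw [e]
          exact dvd_sub hr this
        exact Int.natCast_dvd_natCast.1 h0
      obtain ⟨c, hc⟩ := h1
      rw [hc, pow_mul, hhalf]
      exact neg_one_pow_eq_or ℂ c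
    set C := centralizer ({g} : Set G) with hC
    have hgC : g ∈ C := mem_centralizer_singleton_iff.2 rfl
    have haP : zpowers g = (zpowers a).map (P : Subgroup G).subtype := by
      rw [MonoidHom.map_zpowers]; rfl
    have hnorm : (P : Subgroup G) ≤ normalizer (zpowers g : Set G) := by
      intro q hq
      haveI := normal_of_index_eq_two hidx
      have key : ∀ (q : (P : Subgroup G)) (x : G), x ∈ zpowers g →
          (q : G) * x * (q : G)⁻¹ ∈ zpowers g := by
        intro q x hx
        rw [haP] at hx ⊢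
        obtain ⟨y, hy, rfl⟩ := hx
        exact ⟨q * y * q⁻¹, Normal.conj_mem inferInstance y hy q, rfl⟩
      refine mem_normalizer_iff.2 fun x => ⟨key ⟨q, hq⟩ x, fun hx => ?_⟩
      have := key ⟨q, hq⟩⁻¹ _ hx
      simpa [mul_assoc] using this
    set Nn := normalizer (zpowers g : Set G) with hNn
    have hexp : ∀ x ∈ Nn, ∃ i : ℕ, i.Coprime (2 ^ m) ∧ x * g * x⁻¹ = g ^ i := by
      intro x hx
      have h1 := (mem_normalizer_iff.1 hx g).1 (mem_zpowers g)
      rw [← mem_powers_iff_mem_zpowers] at h1
      obtain ⟨i, hi⟩ := h1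
      refine ⟨i, ?_, hi.symm⟩
      have h2 : orderOf (g ^ i) = 2 ^ m := by
        rw [show g ^ i = x * g * x⁻¹ from hi, orderOf_conj_eq', hgo]
      rw [orderOf_pow, hgo] at h2
      have h3 : Nat.gcd (2 ^ m) i = 1 := by
        rcases Nat.dvd_antisymm (dvd_refl _) (dvd_refl (2 ^ m)) with -
        have h4 := Nat.gcd_dvd_left (2 ^ m) i
        have h5 := Nat.div_mul_cancel h4
        rw [h2] at h5
        exact Nat.eq_of_mul_eq_mul_left hN (h5.trans (mul_one _).symm)
      exact (Nat.coprime_comm.1 h3)
    have hCn : C ≤ Nn := by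
      intro c hc
      have hcg : c * g = g * c := mem_centralizer_singleton_iff.1 hc
      refine mem_normalizer_iff.2 fun x => ?_
      have key : ∀ i : ℤ, c * g ^ i * c⁻¹ = g ^ i := fun i => by
        rw [(Commute.zpow_right (show Commute c g from hcg) i).eq, mul_inv_cancel_right]
      constructor
      · rintro ⟨i, rfl⟩; exact ⟨i, (key i).symm⟩
      · rintro ⟨i, hi⟩
        refine ⟨i, ?_⟩
        have := key i
        simp only at hi ⊢
        rw [← this] at hi
        exact mul_left_cancel (mul_right_cancel hi)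
    set C' : Subgroup Nn := C.subgroupOf Nn with hC'
    have hC'n : C'.Normal := ⟨fun c hc x => by
      rw [hC', mem_subgroupOf, hC, mem_centralizer_singleton_iff] at hc ⊢
      obtain ⟨i, -, hi⟩ := hexp _ (Nn.inv_mem x.2)
      rw [inv_inv] at hi
      have hci : (c : G) * g ^ i = g ^ i * c := (Commute.pow_right hc i).eq
      simp only [Subgroup.coe_mul, Subgroup.coe_inv]
      calc (x : G) * c * (x : G)⁻¹ * g = (x : G) * (c * ((x : G)⁻¹ * g * x)) * (x : G)⁻¹ := by group
        _ = (x : G) * (((x : G)⁻¹ * g * x) * c) * (x : G)⁻¹ := by rw [hi, hci]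
        _ = g * ((x : G) * c * (x : G)⁻¹) := by group⟩
    have hCP : ∀ x ∈ Nn, ∃ c ∈ C, ∃ q ∈ (P : Subgroup G), x = c * q := by
      set S : Subgroup Nn := C' ⊔ (P : Subgroup G).subgroupOf Nn with hS
      have hStop : S = ⊤ := by
        refine index_eq_one.1 ?_
        have h1 : ¬ 2 ∣ S.index := fun hd => by
          have h2 : S.index ∣ ((P : Subgroup G).subgroupOf Nn).index := index_dvd_of_le le_sup_right
          exact P.not_dvd_index ((hd.trans h2).trans
            (relIndex_dvd_index_of_le hnorm))
        have hp : IsPGroup 2 (Nn ⧸ C') := by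
          intro q
          obtain ⟨x, rfl⟩ := QuotientGroup.mk_surjective q
          refine ⟨m - 1, ?_⟩
          rw [← QuotientGroup.mk_pow, QuotientGroup.eq_one_iff, hC', mem_subgroupOf, hC,
            mem_centralizer_singleton_iff, SubgroupClass.coe_pow]
          obtain ⟨i, hi, hix⟩ := hexp _ x.2
          have hpow : ∀ j : ℕ, (x : G) ^ j * g * ((x : G) ^ j)⁻¹ = g ^ i ^ j := by
            intro j
            induction j with
            | zero => simp
            | succ j ih =>
              rw [pow_succ', _root_.mul_inv_rev]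
              calc (x : G) * (x : G) ^ j * g * (((x : G) ^ j)⁻¹ * (x : G)⁻¹)
                  = (x : G) * ((x : G) ^ j * g * ((x : G) ^ j)⁻¹) * (x : G)⁻¹ := by group
                _ = (x : G) * g ^ i ^ j * (x : G)⁻¹ := by rw [ih]
                _ = ((x : G) * g * (x : G)⁻¹) ^ i ^ j := conj_pow.symm
                _ = _ := by rw [hix, ← pow_mul, ← pow_succ']
          have hmod : i ^ 2 ^ (m - 1) ≡ 1 [MOD orderOf g] := by
            rw [hgo]
            have := Nat.ModEq.pow_totient hi
            rwa [Nat.totient_prime_pow Nat.prime_two (by omega), Nat.add_one_sub_one,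
              mul_one] at this
          have h3 := hpow (2 ^ (m - 1))
          rw [pow_eq_pow_iff_modEq.2 hmod, pow_one, mul_inv_eq_iff_eq_mul] at h3
          exact h3
        obtain ⟨e, he⟩ := IsPGroup.iff_card.1 hp
        rw [← index_eq_card] at he
        have h2 : S.index ∣ 2 ^ e := he ▸ index_dvd_of_le le_sup_left
        obtain ⟨i, -, hi⟩ := (Nat.dvd_prime_pow Nat.prime_two).1 h2
        rcases i with _ | i
        · simpa using hi
        · exact (h1 (hi ▸ dvd_pow_self 2 (Nat.succ_ne_zero i))).elim
      intro x hx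
      haveI := hC'n
      have : (⟨x, hx⟩ : Nn) ∈ ((C' : Set Nn) * ((P : Subgroup G).subgroupOf Nn : Set Nn)) := by
        rw [← normal_mul, ← hS, hStop, coe_top]; trivial
      obtain ⟨c, hc, q, hq, e⟩ := Set.mem_mul.1 this
      exact ⟨(c : G), hc, (q : G), hq, (congrArg Subtype.val e).symm⟩
    have hPC : ∀ q : (P : Subgroup G), (q : G) * g * (q : G)⁻¹ = g ∨
        (q : G) * g * (q : G)⁻¹ = g ^ k := by
      intro q
      by_cases hq : q ∈ zpowers a
      · left
        obtain ⟨i, rfl⟩ := hq
        rw [SubgroupClass.coe_zpow, ← hg, ((Commute.refl g).zpow_left i).eq, mul_inv_cancel_right]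
      · right
        have h1 : b⁻¹ * q ∈ zpowers a := (mul_mem_iff_of_index_two hidx).2 (by simp [hba, hq])
        obtain ⟨i, hi⟩ := h1
        have e : q = b * a ^ i := by simp only at hi; rw [hi, mul_inv_cancel_left]
        rw [e, Subgroup.coe_mul, SubgroupClass.coe_zpow, ← hg, ← hh]
        calc h * g ^ i * g * (h * g ^ i)⁻¹ = h * g * h⁻¹ := by group
          _ = _ := hgk
    have hconjs : ∀ x ∈ Nn, x * g * x⁻¹ = g ∨ x * g * x⁻¹ = g ^ k := by
      intro x hx
      obtain ⟨c, hc, q, hq, rfl⟩ := hCP x hx
      have hcg : c * g = g * c := mem_centralizer_singleton_iff.1 hc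
      have e : c * q * g * (c * q)⁻¹ = c * (q * g * q⁻¹) * c⁻¹ := by group
      rw [e]
      rcases hPC ⟨q, hq⟩ with h' | h' <;> simp only at h' <;> rw [h']
      · left; rw [hcg, mul_inv_cancel_right]
      · right
        rw [((Commute.pow_right (show Commute c g from hcg) k)).eq, mul_inv_cancel_right]
    have hgk1 : g ^ k ≠ g := by
      intro e
      have hcb : h * g = g * h := by rw [← mul_inv_eq_iff_eq_mul, hgk, e]
      have hab : b * a = a * b := Subtype.ext hcb
      have hc0 : commutator (P : Subgroup G) = ⊥ := by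
        rw [eq_bot_iff, _root_.commutator_def, commutator_le]
        intro x _ y _
        rw [mem_bot, commutatorElement_eq_one_iff_commute]
        have hgen : ∀ x : (P : Subgroup G), x ∈ Subgroup.closure ({a, b} : Set (P : Subgroup G)) := by
          intro x
          by_cases hx : x ∈ zpowers a
          · exact (zpowers_le.2 (Subgroup.subset_closure (by simp))) hx
          · have h1 : b⁻¹ * x ∈ zpowers a := (mul_mem_iff_of_index_two hidx).2 (by simp [hba, hx])
            have h2 := mul_mem (Subgroup.subset_closure (k := ({a, b} : Set (P : Subgroup G)))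
              (by simp : b ∈ ({a, b} : Set (P : Subgroup G))))
              ((zpowers_le.2 (Subgroup.subset_closure (by simp))) h1)
            simpa using h2
        have hcen : Subgroup.closure ({a, b} : Set (P : Subgroup G)) ≤ centralizer {a, b} := by
          rw [closure_le]
          rintro u (rfl | rfl) <;> refine mem_centralizer_iff.2 ?_ <;> rintro v (rfl | rfl) <;>
            first | rfl | exact hab | exact hab.symm
        have hcen2 : Subgroup.closure ({a, b} : Set (P : Subgroup G)) ≤
            centralizer ({x} : Set (P : Subgroup G)) := by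
          rw [closure_le]
          intro u hu
          exact mem_centralizer_singleton_iff.2 ((mem_centralizer_iff.1 (hcen (hgen x))) u hu)
        exact (mem_centralizer_singleton_iff.1 (hcen2 (hgen y))).symm
      rw [hc0, index_bot, hP] at h4
      have : 2 ^ 3 ≤ 2 ^ (m + 1) := Nat.pow_le_pow_right (by norm_num) hn
      omega
    refine ⟨g, a.2, ?_, ?_⟩
    · by_contra hodd
      have hPcard : ¬ 2 ^ (m + 2) ∣ Nat.card G := by
        intro hd
        have h1 := P.card_eq_multiplicity
        rw [hP] at h1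
        have h2 := Nat.pow_right_injective le_rfl h1
        have := (Nat.prime_two.pow_dvd_iff_le_factorization Nat.card_pos.ne').1 hd
        omega
      apply hPcard
      have h1 := C.card_mul_index
      have h2 : 2 ^ (m + 1) ∣ Nat.card C := by
        have h3 : 2 ^ (m + 1) ∣ Nat.card C * C.index := by
          rw [h1, ← hP]; exact Subgroup.card_subgroup_dvd_card _
        exact (Nat.Coprime.pow_left _ (Nat.prime_two.coprime_iff_not_dvd.2 hodd)).dvd_of_dvd_mul_right h3
      have h3 : 2 ∣ C'.index := by
        have hp : C'.index ≠ 1 := fun h1 => by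
          have hbC : (⟨h, hnorm b.2⟩ : Nn) ∈ C' := by rw [index_eq_one.1 h1]; trivial
          rw [hC', mem_subgroupOf, hC, mem_centralizer_singleton_iff] at hbC
          exact hgk1 (by rw [← hgk, hbC, mul_inv_cancel_right])
        by_contra h2
        haveI := hC'n
        have hall : C' = ⊤ := by
          rw [eq_top_iff]
          rintro x -
          obtain ⟨c, hc, q, hq, hxe⟩ := hCP _ x.2
          have hqC : q ∈ C := by
            have hb2 : (⟨q, hnorm hq⟩ : Nn) ∈ C' := by
              have hh2 : orderOf (⟨q, hnorm hq⟩ : Nn) ∣ 2 ^ (m + 1) := by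
                rw [Subgroup.orderOf_mk, ← hP]
                exact Subgroup.orderOf_mk q hq ▸ orderOf_dvd_natCard _
              have hzero := orderOf_dvd_natCard ((QuotientGroup.mk ⟨q, hnorm hq⟩ : Nn ⧸ C'))
              have hdiv := (orderOf_map_dvd (QuotientGroup.mk' C') ⟨q, hnorm hq⟩).trans hh2
              rw [← index_eq_card] at hzero
              have h5 := Nat.eq_one_of_dvd_coprimes
                ((Nat.prime_two.coprime_iff_not_dvd.2 h2).pow_left (m + 1)) hdiv hzero
              rw [orderOf_eq_one_iff] at h5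
              exact (QuotientGroup.eq_one_iff _).1 h5
            exact mem_subgroupOf.1 hb2
          rw [hC', mem_subgroupOf, hxe]
          exact C.mul_mem hc hqC
        exact hp (hall ▸ index_top)
      have h4 : Nat.card C' * C'.index ∣ Nat.card G := by
        rw [C'.card_mul_index]; exact Subgroup.card_subgroup_dvd_card _
      refine dvd_trans ?_ h4
      rw [pow_succ, hC', Nat.card_congr (subgroupOfEquivOfLe hCn).toEquiv]
      exact mul_dvd_mul h2 h3
    · -- the field
      have hval : valField g = IntermediateField.adjoin ℚ ({ζ + δ * ζ⁻¹} : Set ℂ) := by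
        refine le_antisymm (IntermediateField.adjoin_le_iff.2 ?_)
          (IntermediateField.adjoin_le_iff.2 ?_)
        · rintro _ ⟨χ, rfl⟩
          have hχk : (χ : G → ℂ) g = (χ : G → ℂ) (g ^ k) := by
            rw [← hgk]; exact (isClassFunction_of_isIrr χ.2 g h).symm
          obtain ⟨d, ρ, -, hρ⟩ := χ.2
          obtain ⟨_, μ, hμ1, -, hc⟩ := exists_eigenbasis ρ g
          have e1 := hc 1
          rw [pow_one] at e1
          have e : (χ : G → ℂ) g = ((2 : ℚ)⁻¹ : ℂ) * ∑ i, (μ i + μ i ^ k) := by
            have h2 := hχk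
            rw [← hρ, e1, hc] at h2
            simp only [pow_one] at h2 e1
            rw [← hρ, e1, Finset.sum_add_distrib, ← h2]
            push_cast; ring
          rw [SetLike.mem_coe, e]
          refine mul_mem ?_ (sum_mem fun i _ => ?_)
          · exact inv_mem (by exact_mod_cast IntermediateField.natCast_mem _ 2)
          have hμ : μ i ^ 2 ^ m = 1 := hgo ▸ hμ1 i
          haveI : NeZero (2 ^ m) := ⟨hN.ne'⟩
          obtain ⟨j, -, hj⟩ := hζ.eq_pow_of_pow_eq_one hμ
          rw [← hj, ← pow_mul, mul_comm j, pow_mul, hζk]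
          exact sym_pow_mem hζ0 hδ j
        · rintro _ rfl
          rw [SetLike.mem_coe]
          -- the induced character
          let lam : zpowers g →* ℂˣ := monoidHomOfForallMemZpowers
            (g := (⟨g, mem_zpowers g⟩ : zpowers g))
            (fun ⟨x, i, hi⟩ => ⟨i, Subtype.ext (by simpa using hi)⟩)
            (g' := Units.mk0 ζ hζ0) (by
              rw [Subgroup.orderOf_mk, hgo, ← orderOf_units, Units.val_mk0, ← hζ.eq_orderOf])
          have hlam : ∀ i : ℕ, (lam ⟨g ^ i, npow_mem_zpowers g i⟩ : ℂ) = ζ ^ i := by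
            intro i
            have : (⟨g ^ i, npow_mem_zpowers g i⟩ : zpowers g) = ⟨g, mem_zpowers g⟩ ^ i :=
              Subtype.ext (by simp)
            rw [this, map_pow, Units.val_pow_eq_pow_val]
            simp [lam, monoidHomOfForallMemZpowers_apply_gen]
          let θ : zpowers g → ℂ := fun t => (lam t : ℂ)
          have hθ : IsCharacter (zpowers g) θ := isCharacter_of_isIrr (isIrrCharacter_linear lam)
          set F := valField g
          have hmem : indFun (zpowers g) θ g ∈ F := by
            rw [eq_sum_classInner_smul (isClassFunction_indFun (zpowers g) θ)]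
            simp only [Finset.sum_apply, Pi.smul_apply, smul_eq_mul]
            refine sum_mem fun χ _ => ?_
            obtain ⟨c, hc⟩ := classInner_natCast (isCharacter_indFun (zpowers g) hθ)
              (isCharacter_of_isIrr χ.2)
            rw [hc]
            exact mul_mem (IntermediateField.natCast_mem _ c)
              (IntermediateField.subset_adjoin ℚ _ ⟨χ, rfl⟩)
          have hsum : ∀ x : G, extendByZero (zpowers g) θ (x * g * x⁻¹) =
              (if x ∈ C then ζ else 0) + (if x * g * x⁻¹ = g ^ k then ζ ^ k else 0) := by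
            intro x
            by_cases hx : x * g * x⁻¹ ∈ zpowers g
            · have hxN : x ∈ Nn := by
                have hle : (zpowers g).map (MulAut.conj x).toMonoidHom ≤ zpowers g := by
                  rw [MonoidHom.map_zpowers, zpowers_le]; exact hx
                have heq := eq_of_le_of_card_ge hle
                  (by rw [Nat.card_congr (equivMapOfInjective _ _ (MulAut.conj x).injective).toEquiv.symm])
                refine mem_normalizer_iff.2 fun y => ⟨fun hy => hle ⟨y, hy, rfl⟩, fun hy => ?_⟩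
                have hy' : x * y * x⁻¹ ∈ (zpowers g).map (MulAut.conj x).toMonoidHom := by
                  rw [heq]; exact hy
                obtain ⟨z, hz, e⟩ := hy'
                have : z = y := (MulAut.conj x).injective e
                exact this ▸ hz
              rcases hconjs x hxN with h' | h'
              · have hxC : x ∈ C := mem_centralizer_singleton_iff.2 (mul_inv_eq_iff_eq_mul.1 h')
                rw [if_pos hxC, if_neg (by rw [h']; exact hgk1.symm), add_zero, h',
                  extendByZero_mem _ θ (mem_zpowers g)]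
                simpa using hlam 1
              · have hxC : x ∉ C := fun hc => hgk1 (by
                  rw [← h', mem_centralizer_singleton_iff.1 hc, mul_inv_cancel_right])
                rw [if_neg hxC, if_pos h', zero_add, h',
                  extendByZero_mem _ θ (npow_mem_zpowers g k)]
                exact hlam k
            · rw [extendByZero_not_mem _ θ hx, if_neg, if_neg, add_zero]
              · exact fun e => hx (e ▸ npow_mem_zpowers g k)
              · intro hc
                apply hx
                rw [mem_centralizer_singleton_iff.1 hc, mul_inv_cancel_right]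
                exact mem_zpowers g
          have hind : indFun (zpowers g) θ g =
              ((Nat.card (zpowers g) : ℂ))⁻¹ * (Nat.card C : ℂ) * (ζ + ζ ^ k) := by
            simp only [indFun]
            rw [mul_assoc]
            congr 1
            rw [Fintype.sum_equiv (Equiv.inv G) (fun x => extendByZero (zpowers g) θ (x⁻¹ * g * x))
              (fun x => extendByZero (zpowers g) θ (x * g * x⁻¹)) fun x => by simp]
            simp only [hsum, Finset.sum_add_distrib, ← Finset.sum_filter, Finset.sum_const,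
              nsmul_eq_mul]
            have hcard1 : (Finset.univ.filter fun x : G => x ∈ C).card = Nat.card C := by
              rw [Nat.card_eq_fintype_card, Fintype.card_subtype]
            have hcard2 : (Finset.univ.filter fun x : G => x * g * x⁻¹ = g ^ k).card = Nat.card C := by
              rw [← hcard1]
              refine Finset.card_equiv (Equiv.mulLeft h⁻¹) fun x => ?_
              simp only [Finset.mem_filter, Finset.mem_univ, true_and, Equiv.coe_mulLeft, hC,
                mem_centralizer_singleton_iff, ← hgk]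
              constructor <;> intro e
              · calc h⁻¹ * x * g = h⁻¹ * (x * g * x⁻¹) * x := by group
                  _ = g * (h⁻¹ * x) := by rw [e]; group
              · calc x * g * x⁻¹ = h * (h⁻¹ * x * g) * x⁻¹ := by group
                  _ = h * g * h⁻¹ := by rw [e]; group
            rw [hcard1, hcard2]
            ring
          have hc0 : ((Nat.card (zpowers g) : ℂ))⁻¹ * (Nat.card C : ℂ) ≠ 0 := by
            simp [Nat.card_pos.ne']
          rw [← hζk, show ζ + ζ ^ k = indFun (zpowers g) θ g /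
              (((Nat.card (zpowers g) : ℂ))⁻¹ * (Nat.card C : ℂ)) by rw [hind, mul_div_cancel_left₀ _ hc0]]
          exact div_mem hmem (mul_mem (inv_mem (IntermediateField.natCast_mem _ _))
            (IntermediateField.natCast_mem _ _))
      rcases hδ with rfl | rfl
      · left; rw [hval, one_mul]
      · right; rw [hval, neg_one_mul, ← sub_eq_add_neg]
  · rintro ⟨g, hgP, hev, hF⟩
    have hnc : ∃ q ∈ (P : Subgroup G), q * g ≠ g * q := by
      by_contra hall
      push Not at hall
      exact odd_index_of_le P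
        (fun q hq => mem_centralizer_singleton_iff.2 (hall q hq)) hev
    obtain ⟨q0, hq0, hq0g⟩ := hnc
    rcases eq_or_lt_of_le hm with rfl | hm3
    · -- order eight
      have hne : commutator (P : Subgroup G) ≠ ⊥ := by
        intro h0
        apply hq0g
        have hmem : ⁅(⟨q0, hq0⟩ : (P : Subgroup G)), ⟨g, hgP⟩⁆ ∈ commutator (P : Subgroup G) := by
          rw [_root_.commutator_def]; exact commutator_mem_commutator (mem_top _) (mem_top _)
        rw [h0, mem_bot, commutatorElement_eq_one_iff_commute] at hmem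
        exact congrArg Subtype.val hmem
      have h1 := Thompson.sq_le_index_commutator (p := 2) (G := (P : Subgroup G)) P.isPGroup' hne
      have h2 := card_mul_index (commutator (P : Subgroup G))
      rw [hP] at h2
      have h3 : 1 < Nat.card (commutator (P : Subgroup G)) :=
        (one_lt_card_iff_ne_bot _).2 hne
      have h5 : (commutator (P : Subgroup G)).index * Nat.card (commutator (P : Subgroup G)) = 8 := by
        rw [mul_comm, h2]; norm_num
      show (commutator (P : Subgroup G)).index = 4
      nlinarith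
    -- the order of g
    obtain ⟨ε, hε, hεF⟩ : ∃ ε : ℂ, (ε = 1 ∨ ε = -1) ∧
        valField g = IntermediateField.adjoin ℚ ({ζ + ε * ζ⁻¹} : Set ℂ) := by
      rcases hF with h | h
      · exact ⟨1, Or.inl rfl, by rw [h, one_mul]⟩
      · exact ⟨-1, Or.inr rfl, by rw [h, neg_one_mul, ← sub_eq_add_neg]⟩
    have hsmem : ζ + ε * ζ⁻¹ ∈ valField g := hεF ▸ IntermediateField.mem_adjoin_simple_self ℚ _
    have hεne : ζ + ε * ζ⁻¹ ≠ 0 := by
      intro h0
      have h1 : ζ ^ 2 = -ε := by
        field_simp at h0
        linear_combination h0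
      have h2 : ζ ^ 4 = 1 := by
        rw [show (4 : ℕ) = 2 * 2 from rfl, pow_mul, h1]
        rcases hε with rfl | rfl <;> norm_num
      have h3 := Nat.le_of_dvd (by norm_num) (hζ.dvd_of_pow_eq_one 4 h2)
      have : 2 ^ 3 ≤ 2 ^ m := Nat.pow_le_pow_right (by norm_num) hm3
      omega
    have hgdvd : orderOf g ∣ 2 ^ (m + 1) := hP ▸ (Subgroup.orderOf_mk g hgP ▸ orderOf_dvd_natCard _)
    obtain ⟨j, hj, hjo⟩ := (Nat.dvd_prime_pow Nat.prime_two).1 hgdvd
    have hgen : ∀ q ∈ (P : Subgroup G), j = m + 1 → q * g = g * q := by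
      intro q hq he
      have htop : zpowers g = (P : Subgroup G) := eq_of_le_of_card_ge (zpowers_le.2 hgP)
        (by rw [hP, Nat.card_zpowers, hjo, he])
      rw [← htop] at hq
      obtain ⟨i, rfl⟩ := hq
      exact ((Commute.refl g).zpow_left i).eq
    have hj1 : m ≤ j := by
      by_contra hlt
      obtain ⟨σ, hσ⟩ := CharGalois.exists_aut_pow (n := 2 ^ m) (k := 1 + 2 ^ (m - 1)) hN (by
        refine Nat.Coprime.pow_right _ ?_
        rw [Nat.coprime_two_right]
        exact odd_one.add_even (Nat.even_pow.2 ⟨even_two, by omega⟩))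
      have hfix := fixed_of_adjoin (σ := σ)
        (S := {z : ℂ | ∃ χ : IrrCharacter G, (χ : G → ℂ) g = z}) (fun z hz => by
          obtain ⟨χ, rfl⟩ := hz
          rw [aut_value (m := 2 ^ m) (hjo ▸ pow_dvd_pow 2 (by omega)) hσ (isCharacter_of_isIrr χ.2)]
          congr 1
          rw [pow_add, pow_one, orderOf_dvd_iff_pow_eq_one.1 (hjo ▸ pow_dvd_pow 2 (by omega)),
            mul_one]) hsmem
      rw [map_add, map_mul, map_inv₀, hσ ζ hζ.pow_eq_one, pow_add, pow_one, hhalf,
        show σ ε = ε by rcases hε with rfl | rfl <;> simp] at hfix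
      apply hεne
      field_simp at hfix ⊢
      linear_combination (-1 / 2 : ℂ) * hfix
    have hjm : j = m := by
      rcases Nat.lt_or_ge j (m + 1) with h | h
      · omega
      · exact absurd (hgen q0 hq0 (by omega)) hq0g
    subst hjm
    -- index two
    set a : (P : Subgroup G) := ⟨g, hgP⟩ with ha
    have hao : orderOf a = 2 ^ j := by rw [Subgroup.orderOf_mk, hjo]
    have hidx : (zpowers a).index = 2 := by
      have h1 := card_mul_index (zpowers a)
      rw [Nat.card_zpowers, hao, hP, pow_succ] at h1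
      exact Nat.eq_of_mul_eq_mul_left (pow_pos (by norm_num) _) h1
    haveI := normal_of_index_eq_two hidx
    set b : (P : Subgroup G) := ⟨q0, hq0⟩ with hb
    have hmem : b * a * b⁻¹ ∈ zpowers a := Normal.conj_mem inferInstance a (mem_zpowers a) b
    rw [← mem_powers_iff_mem_zpowers] at hmem
    obtain ⟨k, hk⟩ := hmem
    have hk' : q0 * g * q0⁻¹ = g ^ k := by
      have := congrArg Subtype.val hk
      simpa [a, b] using this.symm
    have hkodd : ¬ 2 ∣ k := by
      rintro ⟨c, rfl⟩
      have h1 : orderOf g ∣ 2 ^ (j - 1) := by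
        rw [← orderOf_conj_eq' q0 g, hk', orderOf_dvd_iff_pow_eq_one, ← pow_mul,
          show 2 * c * 2 ^ (j - 1) = 2 ^ j * c by
            rw [show 2 ^ j = 2 * 2 ^ (j - 1) by
              rw [← pow_succ', Nat.sub_add_cancel (by omega : 1 ≤ j)]]
            ring,
          pow_mul, ← hjo, pow_orderOf_eq_one, one_pow]
      rw [hjo] at h1
      have := (Nat.pow_dvd_pow_iff_le_right one_lt_two).1 h1
      omega
    obtain ⟨σ, hσ⟩ := CharGalois.exists_aut_pow (n := 2 ^ j) (k := k) hN
      (Nat.Coprime.pow_right _ (Nat.coprime_comm.1 (Nat.prime_two.coprime_iff_not_dvd.2 hkodd)))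
    have hfix := fixed_of_adjoin (σ := σ)
      (S := {z : ℂ | ∃ χ : IrrCharacter G, (χ : G → ℂ) g = z}) (fun z hz => by
        obtain ⟨χ, rfl⟩ := hz
        rw [aut_value (m := 2 ^ j) (by rw [hjo]) hσ (isCharacter_of_isIrr χ.2), ← hk']
        exact isClassFunction_of_isIrr χ.2 g q0) hsmem
    rw [map_add, map_mul, map_inv₀, hσ ζ hζ.pow_eq_one,
      show σ ε = ε by rcases hε with rfl | rfl <;> simp] at hfix
    -- the exponent
    have hkcase : ζ ^ (k + 1) = ε := by
      have hz : (ζ ^ k - ζ) * (ζ ^ (k + 1) - ε) = 0 := by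
        have hk0 : ζ ^ k ≠ 0 := pow_ne_zero _ hζ0
        field_simp at hfix
        rw [pow_succ]
        linear_combination hfix
      refine sub_eq_zero.1 ((mul_eq_zero.1 hz).resolve_left fun h0 => hq0g ?_)
      rw [← mul_inv_eq_iff_eq_mul, hk']
      conv_rhs => rw [← pow_one g]
      refine pow_eq_pow_iff_modEq.2 ?_
      rw [hjo]
      refine ((Nat.modEq_iff_dvd' (by omega : 1 ≤ k)).2 (hζ.dvd_of_pow_eq_one _ ?_)).symm
      refine mul_right_cancel₀ hζ0 ?_
      rw [← pow_succ, Nat.sub_add_cancel (by omega : 1 ≤ k), one_mul]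
      exact sub_eq_zero.1 h0
    have hdvd : 2 ^ (j - 1) ∣ k + 1 := by
      have h1 : ζ ^ (2 * (k + 1)) = 1 := by
        rw [mul_comm, pow_mul, hkcase]
        rcases hε with rfl | rfl <;> norm_num
      have h2 := hζ.dvd_of_pow_eq_one _ h1
      rw [show 2 ^ j = 2 * 2 ^ (j - 1) by
        rw [← pow_succ', Nat.sub_add_cancel (by omega : 1 ≤ j)]] at h2
      exact Nat.dvd_of_mul_dvd_mul_left (by norm_num) h2
    have h4k : 4 ∣ k + 1 :=
      (show 2 ^ 2 ∣ 2 ^ (j - 1) from pow_dvd_pow 2 (by omega)).trans hdvd
    obtain ⟨k', rfl⟩ : ∃ k', k = k' + 1 := ⟨k - 1, by omega⟩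
    have hgen2 : ∀ x : (P : Subgroup G), x ∈ zpowers a ∨ b⁻¹ * x ∈ zpowers a := fun x => by
      by_cases hx : x ∈ zpowers a
      · exact Or.inl hx
      · refine Or.inr ((mul_mem_iff_of_index_two hidx).2 ?_)
        have hb' : b ∉ zpowers a := fun hb' => hq0g (by
          obtain ⟨i, hi⟩ := hb'
          have : q0 = g ^ i := by simpa [a, b] using (congrArg Subtype.val hi).symm
          rw [this]; exact ((Commute.refl g).zpow_left i).eq)
        simp [hb', hx]
    have hcommmem : a ^ k' ∈ commutator (P : Subgroup G) := by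
      have h1 : ⁅b, a⁆ = a ^ k' := by
        rw [commutatorElement_def, ← hk]
        show a ^ (k' + 1) * a⁻¹ = a ^ k'
        rw [pow_succ, mul_inv_cancel_right]
      rw [← h1, _root_.commutator_def]
      exact commutator_mem_commutator (mem_top _) (mem_top _)
    have hord : orderOf (a ^ k') = 2 ^ (j - 1) := by
      obtain ⟨c, hc⟩ : ∃ c, k' = 2 * c ∧ ¬ 2 ∣ c := ⟨k' / 2, by omega, by omega⟩
      rw [hc.1, pow_mul, orderOf_pow' _ (by omega), orderOf_pow, hao,
        Nat.gcd_eq_right (dvd_pow_self 2 (by omega : j ≠ 0)),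
        show 2 ^ j / 2 = 2 ^ (j - 1) by
          rw [← Nat.pow_div (by omega : 1 ≤ j) (by norm_num), pow_one],
        Nat.Coprime.gcd_eq_one ((Nat.prime_two.coprime_iff_not_dvd.2 hc.2).pow_left _), Nat.div_one]
    -- the commutator
    have hnorm2 : (zpowers (a ^ 2)).Normal := by
      refine ⟨fun x hx y => ?_⟩
      obtain ⟨i, rfl⟩ := hx
      simp only
      rw [← conj_zpow, ← conj_pow]
      refine zpow_mem ?_ i
      obtain ⟨t, ht⟩ := (show y * a * y⁻¹ ∈ zpowers a from
        Normal.conj_mem inferInstance a (mem_zpowers a) y)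
      simp only at ht
      rw [← ht, ← zpow_natCast (a ^ t) 2, ← zpow_mul, mul_comm, zpow_mul, zpow_natCast]
      exact zpow_mem_zpowers _ _
    have hidx4 : (zpowers (a ^ 2)).index = 4 := by
      have h1 := card_mul_index (zpowers (a ^ 2))
      rw [Nat.card_zpowers, orderOf_pow' _ (by norm_num), hao,
        Nat.gcd_eq_right (dvd_pow_self 2 (by omega : j ≠ 0)), hP,
        show 2 ^ j = 2 * 2 ^ (j - 1) by rw [← pow_succ', Nat.sub_add_cancel (by omega : 1 ≤ j)],
        Nat.mul_div_cancel_left _ (by norm_num),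
        show 2 ^ (j + 1) = 2 ^ (j - 1) * 4 by
          rw [show (4 : ℕ) = 2 ^ 2 from rfl, ← pow_add]; congr 1; omega] at h1
      exact Nat.eq_of_mul_eq_mul_left (pow_pos two_pos _) h1
    have hle : commutator (P : Subgroup G) ≤ zpowers (a ^ 2) := by
      haveI := hnorm2
      refine (Normal.quotient_commutative_iff_commutator_le).1 ?_
      have hc4 : Nat.card ((P : Subgroup G) ⧸ zpowers (a ^ 2)) = 2 ^ 2 := by
        rw [← index_eq_card, hidx4]; norm_num
      exact IsPGroup.isMulCommutative_of_card_eq_prime_sq hc4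
    have heq : commutator (P : Subgroup G) = zpowers (a ^ 2) := by
      refine eq_of_le_of_card_ge hle ?_
      have h1 : Nat.card (zpowers (a ^ k')) ≤ Nat.card (commutator (P : Subgroup G)) :=
        card_le_of_le (zpowers_le.2 hcommmem)
      rw [Nat.card_zpowers, hord] at h1
      refine le_trans (le_of_eq ?_) h1
      rw [Nat.card_zpowers, orderOf_pow' _ (by norm_num), hao,
        Nat.gcd_eq_right (dvd_pow_self 2 (by omega : j ≠ 0)),
        ← Nat.pow_div (by omega : 1 ≤ j) (by norm_num), pow_one]
    show (commutator (P : Subgroup G)).index = 4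
    rw [heq, hidx4]

/-- Let G be a finite group with Sylow 2-subgroup P of order 2^n ≥ 8, and let ζ be a primitive 2^(n−1)-th root of unity in ℂ. Then the commutator subgroup of P has index 4 in P if and only if P contains an element g whose conjugacy class in G has even size and whose field of values ℚ(χ(g) : χ irreducible) is ℚ(ζ + ζ⁻¹) or ℚ(ζ − ζ⁻¹). -/
theorem result {G : Type*} [Group G] [Finite G] (P : Sylow 2 G) (n : ℕ) (hn : 3 ≤ n) (hP : Nat.card P = 2 ^ n) (ζ : ℂ) (hζ : IsPrimitiveRoot ζ (2 ^ (n - 1))) :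
    (commutator ↥P).index = 4 ↔
      ∃ g : G, g ∈ (P : Subgroup G) ∧ 2 ∣ (Subgroup.centralizer ({g} : Set G)).index ∧
        (IntermediateField.adjoin ℚ {z : ℂ | ∃ χ : Cfsg.IrrCharacter G, (χ : G → ℂ) g = z} = IntermediateField.adjoin ℚ ({ζ + ζ⁻¹} : Set ℂ) ∨
          IntermediateField.adjoin ℚ {z : ℂ | ∃ χ : Cfsg.IrrCharacter G, (χ : G → ℂ) g = z} = IntermediateField.adjoin ℚ ({ζ - ζ⁻¹} : Set ℂ)) :=
  result_iff P n hn hP ζ hζ

end Cfsg.Agent.S4923
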