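import Cfsg.Statements.S4931
import Cfsg.Agent.S4216
import Cfsg.Agent.Lib.Transfer.Tate
import Cfsg.Agent.Lib.CharKernel
import Cfsg.Agent.Lib.Ito
import Cfsg.Agent.Lib.Char.Degree

set_option autoImplicit false
open Cfsg Subgroup
open scoped commutatorElement

namespace Cfsg.Agent.S4931

open Cfsg.Agent.Lib

universe u

variable {G : Type u} [Group G] [Finite G]

/-- Extension of all `p'`-degree characters forces a normal complement. -/
theorem complement_of_extend (p : ℕ) [hp : Fact p.Prime] (P : Sylow p G) (N : Subgroup G)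
    (hN : N = normalizer ((P : Subgroup G) : Set G))
    (h : ∀ θ : IrrCharacter N, ¬ p ∣ charDegree (θ : N → ℂ) →
      ∃ χ : IrrCharacter G, ∀ x : N, (χ : G → ℂ) x = (θ : N → ℂ) x) :
    ∃ K : Subgroup G, K.Normal ∧ K ⊔ N = ⊤ ∧ K ⊓ N = ⊥ := by
  classical
  have hPN : (P : Subgroup G) ≤ N := hN ▸ le_normalizer
  let P₀ : Subgroup N := (P : Subgroup G).subgroupOf N
  have hP₀n : P₀.Normal := by subst hN; exact normal_in_normalizer
  have hP₀map : P₀.map N.subtype = (P : Subgroup G) := by
    rw [map_subgroupOf_eq_of_le hPN]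
  let Q : Subgroup N := ⁅P₀, P₀⁆
  have hQP : Q ≤ P₀ := commutator_le_self P₀
  have hQmap : Q.map N.subtype = ⁅(P : Subgroup G), (P : Subgroup G)⁆ := by
    rw [map_commutator, hP₀map]
  have hind : ¬ p ∣ P₀.index := fun hd => P.not_dvd_index (hd.trans (relIndex_dvd_index_of_le hPN))
  have hdeg : ∀ θ : IrrCharacter N, (∀ n ∈ Q, (θ : N → ℂ) n = (θ : N → ℂ) 1) →
      ¬ p ∣ charDegree (θ : N → ℂ) := by
    intro θ hθ hd
    obtain ⟨η, hη, he⟩ := CharKernel.exists_irr_quotient Q θ.2 hθ
    haveI := Fintype.ofFinite (N ⧸ Q)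
    let V : Subgroup (N ⧸ Q) := P₀.map (QuotientGroup.mk' Q)
    haveI : V.Normal := hP₀n.map _ (QuotientGroup.mk'_surjective Q)
    have hab : ∀ a ∈ V, ∀ b ∈ V, a * b = b * a := by
      rintro _ ⟨a, ha, rfl⟩ _ ⟨b, hb, rfl⟩
      show Commute (QuotientGroup.mk' Q a) (QuotientGroup.mk' Q b)
      rw [← commutatorElement_eq_one_iff_commute, ← map_commutatorElement, ← MonoidHom.mem_ker,
        QuotientGroup.ker_mk']
      exact commutator_mem_commutator ha hb
    have hdd := Ito.degree_dvd_index V hab hη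
    have hVi : V.index = P₀.index := by
      rw [index_map, QuotientGroup.ker_mk', sup_eq_left.mpr hQP, MonoidHom.range_eq_top.mpr
        (QuotientGroup.mk'_surjective Q), index_top, mul_one]
    have hη1 : charDegree η = charDegree (θ : N → ℂ) := by
      refine Char.charDegree_eq_of_apply_one ?_
      rw [← QuotientGroup.mk_one, he, Char.apply_one_eq_charDegree (Char.isCharacter_of_isIrr θ.2)]
    exact hind (hd.trans (hη1 ▸ hVi ▸ hdd))
  -- the normal closure of `P` meets `N` in `P`
  let L : Subgroup G := normalClosure ((P : Subgroup G) : Set G)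
  have hPL : (P : Subgroup G) ≤ L := le_normalClosure
  have hLN : L ⊓ N = (P : Subgroup G) := by
    refine le_antisymm ?_ (le_inf hPL hPN)
    rintro x ⟨hxL, hxN⟩
    have : (⟨x, hxN⟩ : N) ∈ P₀ := by
      refine CharKernel.mem_of_forall_irr P₀ fun θ hθ => ?_
      obtain ⟨χ, hχ⟩ := h θ (hdeg θ fun n hn => hθ n (hQP hn))
      haveI := CharKernel.kerChar_normal (Char.isCharacter_of_isIrr χ.2)
      have hle : L ≤ CharKernel.kerChar (Char.isCharacter_of_isIrr χ.2) := by
        refine normalClosure_le_normal fun z hz => ?_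
        have h1 := hθ ⟨z, hPN hz⟩ hz
        rw [← hχ, ← hχ] at h1
        exact h1
      have h2 : (χ : G → ℂ) x = (χ : G → ℂ) 1 := hle hxL
      rw [← hχ, ← hχ]
      exact h2
    exact this
  -- fusion preserves the derived group of `P`
  have hfus : ∀ g : G, ∀ c ∈ (P : Subgroup G), g⁻¹ * c * g ∈ ⁅(P : Subgroup G), (P : Subgroup G)⁆ →
      c ∈ ⁅(P : Subgroup G), (P : Subgroup G)⁆ := by
    intro g c hc hcg
    have hcQ : (⟨c, hPN hc⟩ : N) ∈ Q := by
      refine CharKernel.mem_of_forall_irr Q fun θ hθ => ?_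
      obtain ⟨χ, hχ⟩ := h θ (hdeg θ hθ)
      rw [← hQmap] at hcg
      obtain ⟨d, hd, hde⟩ := hcg
      have h1 := hθ d hd
      rw [← hχ, ← hχ] at h1
      rw [← hχ, ← hχ]
      show (χ : G → ℂ) c = (χ : G → ℂ) ((1 : N) : G)
      rw [← h1, show ((d : N) : G) = g⁻¹ * c * g from hde]
      have h2 := Char.isClassFunction_of_isIrr χ.2 c g⁻¹
      rw [inv_inv] at h2
      exact h2.symm
    rw [← hQmap]
    exact ⟨⟨c, hPN hc⟩, hcQ, rfl⟩
  haveI hLn : L.Normal := inferInstance
  -- Grün inside `L`
  let D : Subgroup G := ⁅L, L⁆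
  have hDL : D ≤ L := commutator_le_self L
  let PL : Sylow p L := P.subtype hPL
  have hPLc : ((PL : Subgroup L)).map L.subtype = (P : Subgroup G) := by
    rw [Sylow.coe_subtype, map_subgroupOf_eq_of_le hPL]
  have hDP : D ⊓ (P : Subgroup G) ≤ ⁅(P : Subgroup G), (P : Subgroup G)⁆ := by
    rintro x ⟨hxD, hxP⟩
    have hxc : (⟨x, hDL hxD⟩ : L) ∈ (PL : Subgroup L) ⊓ commutator L := by
      refine ⟨?_, ?_⟩
      · show (⟨x, hDL hxD⟩ : L) ∈ (PL : Subgroup L)
        rw [Sylow.coe_subtype]
        exact hxP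
      · have h1 : x ∈ (commutator L).map L.subtype := by rwa [map_subtype_commutator]
        obtain ⟨y, hy, hye⟩ := h1
        exact (show y = ⟨x, hDL hxD⟩ from Subtype.ext hye) ▸ hy
    rw [Agent.S4216.result] at hxc
    have hle : ((PL : Subgroup L) ⊓ ⁅normalizer ((PL : Subgroup L) : Set L), normalizer ((PL : Subgroup L) : Set L)⁆) ⊔
        (⨆ z : L, (PL : Subgroup L) ⊓ (⁅(PL : Subgroup L), (PL : Subgroup L)⁆).map (MulAut.conj z).toMonoidHom) ≤
        (⁅(PL : Subgroup L), (PL : Subgroup L)⁆) := by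
      have hnorm : normalizer ((PL : Subgroup L) : Set L) = (PL : Subgroup L) := by
        refine le_antisymm (fun y hy => ?_) le_normalizer
        rw [Sylow.coe_subtype] at hy ⊢
        have hyN : (y : G) ∈ N := by
          rw [hN, mem_normalizer_iff]
          intro w
          have hw := mem_normalizer_iff.mp hy
          by_cases hwL : w ∈ L
          · have := hw ⟨w, hwL⟩
            simpa [mem_subgroupOf] using this
          · exact ⟨fun h' => absurd (hPL h') hwL, fun h' => absurd (by
              have h3 := hLn.conj_mem _ (hPL h') (y : G)⁻¹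
              simpa [mul_assoc] using h3) hwL⟩
        show (y : G) ∈ (P : Subgroup G)
        rw [← hLN]
        exact ⟨y.2, hyN⟩
      refine sup_le ?_ (iSup_le fun z => ?_)
      · rw [hnorm]; exact inf_le_right
      · rintro y ⟨hyP, ⟨d, hd, hde⟩⟩
        have hyP' : (y : G) ∈ (P : Subgroup G) := hPLc ▸ mem_map_of_mem L.subtype hyP
        have hcomm : (⁅(PL : Subgroup L), (PL : Subgroup L)⁆).map L.subtype = ⁅(P : Subgroup G), (P : Subgroup G)⁆ := by
          rw [map_commutator, hPLc]
        have hd' : (z : G)⁻¹ * (y : G) * z ∈ ⁅(P : Subgroup G), (P : Subgroup G)⁆ := by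
          rw [← hcomm]
          refine ⟨d, hd, ?_⟩
          rw [← show (MulAut.conj z) d = y from hde]
          simp [mul_assoc]
        have := hfus z y hyP' hd'
        rw [← hcomm] at this
        obtain ⟨y', hy', hye⟩ := this
        exact (show y' = y from Subtype.ext hye) ▸ hy'
    have := mem_map_of_mem L.subtype (hle hxc)
    rwa [map_commutator, hPLc] at this
  -- Tate
  haveI hDn : D.Normal := inferInstance
  have hPfr : ⁅(P : Subgroup G), (P : Subgroup G)⁆ ≤ (frattini (P : Subgroup G)).map (P : Subgroup G).subtype := by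
    rw [← map_subtype_commutator]
    exact map_mono (Transfer.commutator_le_frattini P.2)
  have htate := Transfer.tate P D (hDP.trans hPfr)
  rw [Transfer.hasNormalPComplement_iff] at htate
  let M : Subgroup G := (pResidual p D).map D.subtype
  haveI hMn : M.Normal := by
    have := Transfer.pResidual_characteristic (G := D) (p := p)
    exact ConjAct.normal_of_characteristic_of_normal
  have hMD : M ≤ D := map_subtype_le _
  have hMp : ¬ p ∣ Nat.card M := by rwa [card_map_of_injective D.subtype_injective]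
  have hDsup : D ≤ M ⊔ (P : Subgroup G) := by
    obtain ⟨S, hS⟩ := Transfer.exists_sylow_inf P D
    intro x hx
    have := mem_map_of_mem D.subtype ((Transfer.pResidual_sup_sylow S).ge (mem_top (⟨x, hx⟩ : D)))
    rw [Subgroup.map_sup, hS] at this
    exact (sup_le le_sup_left ((map_comap_le _ _).trans le_sup_right) :
      (pResidual p D).map D.subtype ⊔ ((P : Subgroup G).subgroupOf D).map D.subtype ≤ M ⊔ (P : Subgroup G)) this
  have hLsup : L ≤ M ⊔ (P : Subgroup G) := by
    have hL1 : L ≤ D ⊔ (P : Subgroup G) := by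
      show Subgroup.closure _ ≤ _
      rw [closure_le]
      intro y hy
      obtain ⟨z, hz, hzy⟩ := Group.mem_conjugatesOfSet_iff.mp hy
      obtain ⟨g, hg⟩ := isConj_iff.mp hzy
      haveI : L.Normal := hLn
      have hfr : g ∈ L ⊔ N := by
        rw [hN, sup_comm]
        have := Sylow.normalizer_sup_eq_top' P hPL
        exact this ▸ mem_top g
      obtain ⟨l, hl, n, hn, rfl⟩ := mem_sup_of_normal_left.mp hfr
      have hzn : n * z * n⁻¹ ∈ (P : Subgroup G) := by
        rw [hN, mem_normalizer_iff] at hn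
        exact (hn z).mp hz
      rw [← hg]
      have e : l * n * z * (l * n)⁻¹ = ⁅l, n * z * n⁻¹⁆ * (n * z * n⁻¹) := by
        rw [commutatorElement_def]; group
      rw [SetLike.mem_coe, e]
      exact mul_mem (mem_sup_left (commutator_mem_commutator hl (hPL hzn))) (mem_sup_right hzn)
    exact hL1.trans (sup_le hDsup le_sup_right)
  refine ⟨M, hMn, ?_, ?_⟩
  · rw [eq_top_iff]
    have := Sylow.normalizer_sup_eq_top' P hPL
    rw [← this]
    exact sup_le (hN.ge.trans le_sup_right) (hLsup.trans (sup_le le_sup_left (hPN.trans le_sup_right)))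
  · rw [eq_bot_iff, ← Transfer.inf_eq_bot_of_not_dvd hMp P.2]
    exact le_inf inf_le_left ((inf_le_inf_right N (hMD.trans hDL)).trans hLN.le)

/-- Let G be a finite group, p a prime and P a Sylow p-subgroup of G with normalizer N. Then every irreducible complex character of N of degree not divisible by p is the restriction of an irreducible character of G if and only if there is a normal subgroup K of G with KN = G and K ∩ N = 1. -/
theorem result {G : Type*} [Group G] [Finite G] (p : ℕ) [Fact p.Prime] (P : Sylow p G) :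
    (∀ θ : Cfsg.IrrCharacter ↥(Subgroup.normalizer ((P : Subgroup G) : Set G)), ¬ p ∣ Cfsg.charDegree (θ : ↥(Subgroup.normalizer ((P : Subgroup G) : Set G)) → ℂ) →
        ∃ χ : Cfsg.IrrCharacter G, ∀ x : ↥(Subgroup.normalizer ((P : Subgroup G) : Set G)), (χ : G → ℂ) x = (θ : ↥(Subgroup.normalizer ((P : Subgroup G) : Set G)) → ℂ) x) ↔
      ∃ K : Subgroup G, K.Normal ∧ K ⊔ Subgroup.normalizer ((P : Subgroup G) : Set G) = ⊤ ∧ K ⊓ Subgroup.normalizer ((P : Subgroup G) : Set G) = ⊥ := by
  refine ⟨complement_of_extend p P _ rfl, ?_⟩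
  rintro ⟨K, hK, hsup, hinf⟩ θ -
  haveI := hK
  let N := normalizer ((P : Subgroup G) : Set G)
  let f : N →* G ⧸ K := (QuotientGroup.mk' K).comp N.subtype
  have hf : Function.Bijective f := by
    refine ⟨(injective_iff_map_eq_one f).mpr fun x hx => ?_, fun q => ?_⟩
    · have hxK : (x : G) ∈ K := (QuotientGroup.eq_one_iff (x : G)).mp hx
      have : (x : G) ∈ K ⊓ N := ⟨hxK, x.2⟩
      rw [hinf, mem_bot] at this
      exact Subtype.ext this
    · obtain ⟨g, rfl⟩ := QuotientGroup.mk_surjective q
      obtain ⟨k, hk, n, hn, rfl⟩ := mem_sup_of_normal_left.mp (hsup.ge (mem_top g))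
      refine ⟨⟨n, hn⟩, ?_⟩
      show ((n : G) : G ⧸ K) = ((k * n : G) : G ⧸ K)
      rw [QuotientGroup.mk_mul, (QuotientGroup.eq_one_iff k).mpr hk, one_mul]
  let e := MulEquiv.ofBijective f hf
  let π : G →* N := e.symm.toMonoidHom.comp (QuotientGroup.mk' K)
  have hπs : Function.Surjective π := e.symm.surjective.comp (QuotientGroup.mk'_surjective K)
  refine ⟨⟨fun g => (θ : N → ℂ) (π g), Lib.Char.isIrrCharacter_comp θ.2 π hπs⟩, fun x => ?_⟩
  show (θ : N → ℂ) (e.symm (f x)) = _
  rw [show f x = e x from rfl, e.symm_apply_apply]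

end Cfsg.Agent.S4931
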