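-- Proof of statement S4937 (helper24).
import Cfsg.Statements.S4937
import Cfsg.Agent.Lib.Block.CoverExtend

set_option autoImplicit false
open Cfsg

namespace Cfsg.Agent.S4937

/-- Let G be a finite group, p a prime, M a maximal ideal of the algebraic integers containing p, N a normal subgroup of G and P a Sylow p-subgroup of N such that G = N·C_G(P). Let θ be an irreducible character in the principal p-block of N that is the restriction of some irreducible character of G. Then θ is the restriction of an irreducible character χ of G lying in the principal p-block of G such that, for every subgroup J of G containing N, the restriction of χ to J is an irreducible character of J lying in the principal p-block of J. -/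
theorem result {G : Type*} [Group G] [Finite G] (p : ℕ) [Fact p.Prime] (M : Ideal Cfsg.AlgInt) (hM : Cfsg.IsPModular p M) (N : Subgroup G) [N.Normal] (P : Sylow p ↥N)
    (hcov : N ⊔ Subgroup.centralizer (((P : Subgroup ↥N).map N.subtype : Subgroup G) : Set G) = ⊤)
    (θ : Cfsg.IrrCharacter ↥N) (hθ : θ ∈ Cfsg.principalBlock M ↥N)
    (hext : ∃ ψ : Cfsg.IrrCharacter G, ∀ x : ↥N, (ψ : G → ℂ) x = (θ : ↥N → ℂ) x) :
    ∃ χ : Cfsg.IrrCharacter G, χ ∈ Cfsg.principalBlock M G ∧ (∀ x : ↥N, (χ : G → ℂ) x = (θ : ↥N → ℂ) x) ∧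
      ∀ J : Subgroup G, N ≤ J → ∃ ξ : Cfsg.IrrCharacter ↥J, ξ ∈ Cfsg.principalBlock M ↥J ∧ ∀ y : ↥J, (ξ : ↥J → ℂ) y = (χ : G → ℂ) y := by
  haveI := hM.2.1.isPrime
  obtain ⟨ψ, hψ⟩ := hext
  have hs : ¬ p ∣ ((P : Subgroup N).map N.subtype).relIndex N := by
    rw [Subgroup.relIndex, Subgroup.subgroupOf, Subgroup.comap_map_eq_self_of_injective N.subtype_injective]
    exact P.not_dvd_index
  obtain ⟨χ, hχ, hJ⟩ := Cfsg.Agent.Lib.Block.CoverExtend.exists_extension N _ θ ψ hM (P.2.map _)
    (Subgroup.map_subtype_le _) hs hcov hθ hψ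
  refine ⟨χ, ?_, hχ, hJ⟩
  obtain ⟨ξ, hξ, hξe⟩ := hJ ⊤ le_top
  have h : Cfsg.Agent.Lib.BrauerPairs.mapIrr Subgroup.topEquiv ξ = χ := Subtype.ext (funext fun g => by
    obtain ⟨y, rfl⟩ := (Subgroup.topEquiv (G := G)).surjective g
    rw [Cfsg.Agent.Lib.BrauerPairs.mapIrr_apply]
    exact hξe y)
  rw [← h]
  exact (Cfsg.Agent.Lib.Block.mapIrr_mem_principal_iff _).2 hξ

end Cfsg.Agent.S4937
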