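import Cfsg.Statements.S4969
import Cfsg.Agent.Lib.CharAux
import Mathlib.Analysis.Real.Sqrt
import Mathlib.Algebra.Order.Chebyshev

set_option autoImplicit false
open Cfsg

namespace Cfsg.Agent.S4969

open Cfsg.Agent.Lib.Char Cfsg.Agent.Lib.CharAux

theorem result {G : Type*} [Group G] [Finite G] (g : G) (N : ℝ) (hN : 0 < N) :
    ∑ᶠ χ : Cfsg.IrrCharacter G, (if N ≤ ‖(χ : G → ℂ) 1‖ then ‖(χ : G → ℂ) g‖ / ‖(χ : G → ℂ) 1‖ else 0) ≤
      Real.sqrt ((Nat.card (ConjClasses G) : ℝ) * (Nat.card ↥(Subgroup.centralizer ({g} : Set G)) : ℝ)) / N := by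
  classical
  rw [finsum_eq_sum_of_fintype]
  have h1 : ∀ χ : IrrCharacter G,
      (if N ≤ ‖(χ : G → ℂ) 1‖ then ‖(χ : G → ℂ) g‖ / ‖(χ : G → ℂ) 1‖ else 0) ≤
        ‖(χ : G → ℂ) g‖ / N := by
    intro χ
    split_ifs with h
    · gcongr
    · positivity
  refine (Finset.sum_le_sum fun χ _ => h1 χ).trans ?_
  rw [← Finset.sum_div]
  gcongr
  apply Real.le_sqrt_of_sq_le
  refine (sq_sum_le_card_mul_sum_sq).trans (le_of_eq ?_)
  rw [Finset.card_univ, ← Nat.card_eq_fintype_card, card_irr_eq_card_conjClasses,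
    ← sum_irr_normSq g]
  simp [Complex.normSq_eq_norm_sq]

end Cfsg.Agent.S4969
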