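import Cfsg.Statements.S4989
import Cfsg.Agent.Lib.CharGalois
import Cfsg.Agent.Lib.CharAux

set_option autoImplicit false
open Cfsg

namespace Cfsg.Agent.S4989

open Cfsg.Agent.Lib.Char Cfsg.Agent.Lib.CharGalois Cfsg.Agent.Lib.CharAux

theorem result {G : Type*} [Group G] [Finite G] (H : Subgroup G) (χ : Cfsg.IrrCharacter G) : (Nat.card ↥H : ℝ)⁻¹ * ∑ᶠ h : ↥H, ‖(χ : G → ℂ) h‖ ^ 2 ≤ 1 + (Set.ncard ({x : G | (χ : G → ℂ) x = 0} \ (H : Set G)) : ℝ) / (Nat.card ↥H : ℝ) := by
  classical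
  have := Fintype.ofFinite G
  have hc := isCharacter_of_isIrr χ.2
  let S : Finset G := Finset.univ.filter fun g => g ∉ H
  have hS : ∀ g ∈ S, ∀ k : ℕ, Nat.Coprime k (Nat.card G) → g ^ k ∈ S := by
    intro g hg k hk
    simp only [S, Finset.mem_filter, Finset.mem_univ, true_and] at hg ⊢
    intro hgk
    apply hg
    obtain ⟨m, hm⟩ := exists_pow_eq_self_of_coprime (x := g)
      (Nat.Coprime.coprime_dvd_right (orderOf_dvd_natCard g) hk)
    exact hm ▸ H.pow_mem hgk m
  have h1 := card_nonzero_le_sum_normSq hc S hS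
  have h2 := sum_normSq_irr χ.2
  rw [← Finset.sum_filter_add_sum_filter_not Finset.univ (fun g => g ∈ H)] at h2
  have h3 : ∑ᶠ h : ↥H, ‖(χ : G → ℂ) h‖ ^ 2 =
      ∑ g ∈ Finset.univ.filter (fun g => g ∈ H), Complex.normSq ((χ : G → ℂ) g) := by
    rw [finsum_eq_sum_of_fintype]
    rw [← Finset.sum_subtype (Finset.univ.filter fun g => g ∈ H) (by simp)
      (fun g => ‖(χ : G → ℂ) g‖ ^ 2)]
    simp [Complex.normSq_eq_norm_sq]
  have hcard : (S.filter fun g => (χ : G → ℂ) g ≠ 0).card +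
      Set.ncard ({x : G | (χ : G → ℂ) x = 0} \ (H : Set G)) + Nat.card ↥H = Nat.card G := by
    have hz : Set.ncard ({x : G | (χ : G → ℂ) x = 0} \ (H : Set G)) =
        (S.filter fun g => (χ : G → ℂ) g = 0).card := by
      rw [← Set.ncard_coe_finset]
      congr 1
      ext x
      simp [S, and_comm]
    have hH : Nat.card ↥H = (Finset.univ.filter fun g => g ∈ H).card := by
      rw [Nat.card_eq_fintype_card, Fintype.card_subtype]
    have e1 := Finset.card_filter_add_card_filter_not (s := S) (fun g => (χ : G → ℂ) g = 0)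
    have e2 := Finset.card_filter_add_card_filter_not (s := (Finset.univ : Finset G)) (fun g => g ∈ H)
    simp only [ne_eq] at *
    rw [hz, hH, Nat.card_eq_fintype_card, ← Finset.card_univ]
    simp only [S] at *
    omega
  have hHpos : (0 : ℝ) < (Nat.card ↥H : ℝ) := Nat.cast_pos.2 Nat.card_pos
  have hcard' : ((S.filter fun g => (χ : G → ℂ) g ≠ 0).card : ℝ) +
      (Set.ncard ({x : G | (χ : G → ℂ) x = 0} \ (H : Set G)) : ℝ) + (Nat.card ↥H : ℝ) =
      (Nat.card G : ℝ) := by exact_mod_cast hcard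
  rw [h3]
  field_simp
  linarith

end Cfsg.Agent.S4989
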