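import Cfsg.Statements.S4993
import Cfsg.Agent.Lib.PrimClass.Metanilpotent
import Cfsg.Agent.Lib.Char.Burnside

set_option autoImplicit false
open Cfsg

namespace Cfsg.Agent.S4993

/-- Let G be a group of odd order whose order has exactly two prime divisors and whose quotient by its Fitting subgroup is nilpotent (G is metanilpotent), and let χ be a primitive irreducible complex character of G (not induced from a character of any proper subgroup). Then χ(1) divides the size of some conjugacy class of G. -/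
theorem result {G : Type*} [Group G] [Fintype G] (hodd : Odd (Nat.card G)) (h2 : (Nat.card G).primeFactors.card = 2) [hF : (Cfsg.fittingSubgroup G).Normal] (hmeta : Group.IsNilpotent (G ⧸ Cfsg.fittingSubgroup G)) (χ : Cfsg.IrrCharacter G) (hprim : ¬ ∃ (H : Subgroup G), H ≠ ⊤ ∧ ∃ θ : ↥H → ℂ, Cfsg.IsCharacter ↥H θ ∧ Cfsg.indFun H θ = (χ : G → ℂ)) : ∃ g : G, Cfsg.charDegree (χ : G → ℂ) ∣ (Subgroup.centralizer ({g} : Set G)).index := by
  classical
  obtain ⟨p, q, hpq, hs⟩ := Finset.card_eq_two.1 h2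
  have hmem : ∀ r : ℕ, r.Prime → r ∣ Nat.card G → r = p ∨ r = q := fun r hr hd => by
    have : r ∈ (Nat.card G).primeFactors := Nat.mem_primeFactors.2 ⟨hr, hd, Nat.card_pos.ne'⟩
    rw [hs] at this
    simpa using this
  have hp : p.Prime := Nat.prime_of_mem_primeFactors (by rw [hs]; simp)
  have hq : q.Prime := Nat.prime_of_mem_primeFactors (by rw [hs]; simp)
  have hsolv : Group.IsSolvable G :=
    Cfsg.Agent.Lib.Char.isSolvable_of_card_eq_two_primes hp hq _ G rfl hmem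
  haveI : Fact p.Prime := ⟨hp⟩
  haveI : Fact q.Prime := ⟨hq⟩
  have key : ∀ r : ℕ, r.Prime → ∃ g : G, ∀ y : G,
      (∃ a ∈ Subgroup.closure ((fittingSubgroup G : Set G) ∪ {x | ∃ k, x ^ r ^ k = 1}), y = g * a) →
      (charDegree (χ : G → ℂ)).factorization r ≤
        (Subgroup.centralizer ({y} : Set G)).index.factorization r := by
    intro r hr
    haveI : Fact r.Prime := ⟨hr⟩
    refine Cfsg.Agent.Lib.PrimClass.exists_weight_top hsolv χ hprim _ ?_
    intro N L _ _ hLN hchief hc hV a ha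
    refine (Subgroup.closure_le (K := (Cfsg.Agent.Lib.PrimClass.quotAct N L).ker)).2 ?_ ha
    rintro x (hx | ⟨k, hk⟩)
    · exact Cfsg.Agent.Lib.PrimClass.quotAct_fitting hLN hchief hx
    · exact Cfsg.Agent.Lib.PrimClass.quotAct_pElement hmeta hLN hchief hc hV hk
  obtain ⟨g, hg⟩ := key p hp
  obtain ⟨x, hx⟩ := key q hq
  obtain ⟨z, hz⟩ : ∃ z, z = g⁻¹ * x := ⟨_, rfl⟩
  obtain ⟨u, v, hu, hv, huv⟩ : ∃ u v : G, (∃ k, u ^ p ^ k = 1) ∧ (∃ k, v ^ q ^ k = 1) ∧ u * v = z := by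
    obtain ⟨i, hi⟩ : ∃ i, i = (Nat.card G).factorization p := ⟨_, rfl⟩
    obtain ⟨j, hj⟩ : ∃ j, j = (Nat.card G).factorization q := ⟨_, rfl⟩
    have hcard : Nat.card G = p ^ i * q ^ j := by
      conv_lhs => rw [← Nat.prod_factorization_pow_eq_self (Nat.card_pos (α := G)).ne']
      rw [Finsupp.prod, Nat.support_factorization, hs, Finset.prod_pair hpq, ← hi, ← hj]
    have hcop : Int.gcd ((p ^ i : ℕ) : ℤ) ((q ^ j : ℕ) : ℤ) = 1 := by
      rw [Int.gcd_natCast_natCast]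
      exact Nat.Coprime.pow i j ((Nat.coprime_primes hp hq).2 hpq)
    obtain ⟨s, t, hst⟩ := Int.isCoprime_iff_gcd_eq_one.2 hcop
    have hz1 : z ^ (((p ^ i : ℕ) : ℤ) * ((q ^ j : ℕ) : ℤ)) = 1 := by
      rw [← Nat.cast_mul, zpow_natCast, ← hcard, pow_card_eq_one']
    refine ⟨z ^ (t * ((q ^ j : ℕ) : ℤ)), z ^ (s * ((p ^ i : ℕ) : ℤ)), ⟨i, ?_⟩, ⟨j, ?_⟩, ?_⟩
    · rw [← zpow_natCast, ← zpow_mul, show t * ((q ^ j : ℕ) : ℤ) * ((p ^ i : ℕ) : ℤ) =
        ((p ^ i : ℕ) : ℤ) * ((q ^ j : ℕ) : ℤ) * t by ring, zpow_mul, hz1, one_zpow]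
    · rw [← zpow_natCast, ← zpow_mul, show s * ((p ^ i : ℕ) : ℤ) * ((q ^ j : ℕ) : ℤ) =
        ((p ^ i : ℕ) : ℤ) * ((q ^ j : ℕ) : ℤ) * s by ring, zpow_mul, hz1, one_zpow]
    · rw [← zpow_add, add_comm, hst, zpow_one]
  refine ⟨g * u, ?_⟩
  have hy1 := hg (g * u) ⟨u, Subgroup.subset_closure (Or.inr hu), rfl⟩
  have hy2 := hx (g * u) ⟨v⁻¹, inv_mem (Subgroup.subset_closure (Or.inr hv)), by
    rw [eq_mul_inv_iff_mul_eq, mul_assoc, huv, hz, mul_inv_cancel_left]⟩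
  have hd0 : charDegree (χ : G → ℂ) ≠ 0 := (Cfsg.Agent.Lib.Char.charDegree_pos χ.2).ne'
  refine (Nat.factorization_le_iff_dvd hd0 Subgroup.index_ne_zero_of_finite).1 fun r => ?_
  by_cases hr : r ∈ (charDegree (χ : G → ℂ)).primeFactors
  · obtain ⟨hrp, hrd, -⟩ := Nat.mem_primeFactors.1 hr
    rcases hmem r hrp (hrd.trans (Cfsg.Agent.Lib.Char.charDegree_dvd_card χ.2)) with rfl | rfl
    · exact hy1
    · exact hy2
  · rw [← Nat.support_factorization, Finsupp.notMem_support_iff] at hr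
    rw [hr]
    exact Nat.zero_le _

end Cfsg.Agent.S4993
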