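import Cfsg.Statements.S4996
import Cfsg.Agent.Lib.CharGalois
import Cfsg.Agent.Lib.CharAux

set_option autoImplicit false
open Cfsg
open scoped ComplexConjugate

namespace Cfsg.Agent.S4996

open Cfsg.Agent.Lib.Char Cfsg.Agent.Lib.CharGalois Cfsg.Agent.Lib.CharAux

universe u

/-- A character of degree one vanishes nowhere. -/
theorem ne_zero_of_degree_one {Q : Type u} [Group Q] [Finite Q] {A : Q → ℂ}
    (h : IsCharacter Q A) (h1 : A 1 = 1) (q : Q) : A q ≠ 0 := by
  obtain ⟨n, ρ, rfl⟩ := h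
  have hn : Module.finrank ℂ (Fin n → ℂ) = 1 := by
    rw [Representation.char_one] at h1; exact_mod_cast h1
  obtain ⟨b, μ, hμ, -, hc⟩ := exists_eigenbasis ρ q
  have h := hc 1
  rw [pow_one] at h
  rw [h]
  haveI : Unique (Fin (Module.finrank ℂ (Fin n → ℂ))) := hn ▸ inferInstanceAs (Unique (Fin 1))
  rw [Fintype.sum_unique, pow_one]
  intro h0
  have := hμ default
  rw [h0, zero_pow (orderOf_pos q).ne'] at this
  exact zero_ne_one this

theorem result {G : Type*} [Group G] [Finite G] (N : Subgroup G) [N.Normal] (χ : Cfsg.IrrCharacter G) : ¬ Cfsg.IsIrrCharacter ↥N (fun n : ↥N => (χ : G → ℂ) n) ↔ ∃ x : G, ∀ n : ↥N, (χ : G → ℂ) ((n : G) * x) = 0 := by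
  classical
  have := Fintype.ofFinite G
  have := Fintype.ofFinite ↥N
  have := Fintype.ofFinite (G ⧸ N)
  have hc := isCharacter_of_isIrr χ.2
  let ψ : G → ℂ := (χ : G → ℂ) * fun g => conj ((χ : G → ℂ) g)
  have hψ : IsCharacter G ψ := isCharacter_mul hc (isCharacter_conj hc)
  set A := cosetAvg N ψ with hAdef
  have hA : IsCharacter (G ⧸ N) A := isCharacter_cosetAvg N hψ
  have hres : IsCharacter ↥N (fun n : ↥N => (χ : G → ℂ) n) := isCharacter_restrict hc N
  have hN0 : (Nat.card ↥N : ℂ) ≠ 0 := card_ne_zero_complex _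
  have hA1 : A 1 = classInner (fun n : ↥N => (χ : G → ℂ) n) (fun n : ↥N => (χ : G → ℂ) n) := by
    rw [hAdef, ← QuotientGroup.mk_one, cosetAvg_apply_mk]
    simp [classInner, ψ]
  have hAre : ∀ x : G, A (x : G ⧸ N) =
      (((Nat.card ↥N : ℝ)⁻¹ * ∑ n : ↥N, Complex.normSq ((χ : G → ℂ) (x * n)) : ℝ) : ℂ) := by
    intro x
    rw [hAdef, cosetAvg_apply_mk]
    simp [ψ, Complex.mul_conj]
  have hA0 : ∀ x : G, A (x : G ⧸ N) = 0 ↔ ∀ n : ↥N, (χ : G → ℂ) ((n : G) * x) = 0 := by
    intro x
    rw [hAre, Complex.ofReal_eq_zero, mul_eq_zero, inv_eq_zero,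
      Finset.sum_eq_zero_iff_of_nonneg fun n _ => Complex.normSq_nonneg _]
    simp only [Nat.cast_eq_zero, Nat.card_pos.ne', false_or, Finset.mem_univ, true_implies,
      Complex.normSq_eq_zero]
    constructor
    · intro h n
      have := h ⟨x⁻¹ * (n : G) * x, ‹N.Normal›.conj_mem' _ n.2 x⟩
      simpa [mul_assoc] using this
    · intro h n
      have := h ⟨x * (n : G) * x⁻¹, ‹N.Normal›.conj_mem _ n.2 x⟩
      simpa [mul_assoc] using this
  constructor
  · intro hred
    obtain ⟨e, he⟩ := exists_natDegree hA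
    have hsumA : ∑ q : G ⧸ N, A q = (Nat.card (G ⧸ N) : ℂ) := by
      simp only [hAdef, cosetAvg_eq_sum_fiber, ← Finset.mul_sum]
      rw [Finset.sum_fiberwise Finset.univ (fun g : G => (g : G ⧸ N)) ψ]
      have h2 := classInner_irr_self χ.2
      simp only [classInner] at h2
      rw [inv_mul_eq_one₀ (card_ne_zero_complex G)] at h2
      simp only [ψ, Pi.mul_apply]
      rw [← h2, Subgroup.card_eq_card_quotient_mul_card_subgroup N, Nat.cast_mul]
      field_simp
    by_contra hno
    push Not at hno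
    have hne : ∀ q : G ⧸ N, A q ≠ 0 := by
      intro q hq
      obtain ⟨x, rfl⟩ := QuotientGroup.mk_surjective q
      obtain ⟨n, hn⟩ := hno x
      exact hn ((hA0 x).1 hq n)
    have he2 : 2 ≤ e := by
      by_contra he2
      interval_cases e
      · exact hne 1 (by simpa using he)
      · exact hred (isIrrCharacter_of_norm_one hres (by rw [← hA1, he]; simp))
    let a : G ⧸ N → ℝ := fun q => (A q).re
    have ha : ∀ q, A q = (a q : ℂ) ∧ 0 < a q := by
      intro q
      obtain ⟨x, rfl⟩ := QuotientGroup.mk_surjective q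
      have h := hAre x
      have hax : a (x : G ⧸ N) =
          (Nat.card ↥N : ℝ)⁻¹ * ∑ n : ↥N, Complex.normSq ((χ : G → ℂ) (x * n)) := by
        simp only [a, h, Complex.ofReal_re]
      refine ⟨by rw [hax, h], lt_of_le_of_ne ?_ ?_⟩
      · rw [hax]
        exact mul_nonneg (by positivity) (Finset.sum_nonneg fun n _ => Complex.normSq_nonneg _)
      · intro h0
        apply hne (x : G ⧸ N)
        rw [h, ← hax, ← h0]; simp
    let S : Finset (G ⧸ N) := Finset.univ.erase 1
    have hint : IsIntegral ℤ (∏ q ∈ S, A q) := IsIntegral.prod _ fun q _ => char_isIntegral hA q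
    obtain ⟨m, hm⟩ := exists_int_of_fixed hint fun σ => by
      obtain ⟨k, hk, hσ⟩ := exists_pow_forall_char (G := G ⧸ N) σ
      rw [map_prod, Finset.prod_congr rfl fun q _ => hσ A hA q]
      refine Finset.prod_equiv (powCoprime hk.symm) (fun q => ?_) (fun q _ => rfl)
      simp only [S, Finset.mem_erase, Finset.mem_univ, and_true]
      exact ((powCoprime (G := G ⧸ N) hk.symm).injective.ne_iff' (x := q) (y := 1) (z := 1) (one_pow k)).symm
    have hprod : ∏ q ∈ S, a q = (m : ℝ) := by
      have : ((∏ q ∈ S, a q : ℝ) : ℂ) = ((m : ℝ) : ℂ) := by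
        rw [Complex.ofReal_prod, Complex.ofReal_intCast, ← hm]
        exact Finset.prod_congr rfl fun q _ => ((ha q).1).symm
      exact Complex.ofReal_injective this
    have hpos : (0 : ℝ) < ∏ q ∈ S, a q := Finset.prod_pos fun q _ => (ha q).2
    have hone : (1 : ℝ) ≤ ∏ q ∈ S, a q := by
      rw [hprod] at hpos ⊢
      exact_mod_cast (Int.cast_pos.1 hpos : 0 < m)
    have hle := card_le_sum_of_one_le_prod S a (fun q _ => (ha q).2) hone
    have htot : ∑ q : G ⧸ N, a q = (Nat.card (G ⧸ N) : ℝ) := by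
      have := congrArg Complex.re hsumA
      simpa [a] using this
    rw [← Finset.add_sum_erase _ _ (Finset.mem_univ (1 : G ⧸ N))] at htot
    have hc1 : (S.card : ℝ) + 1 = (Nat.card (G ⧸ N) : ℝ) := by
      rw [Nat.card_eq_fintype_card, ← Finset.card_univ]
      simp only [S]
      exact_mod_cast Finset.card_erase_add_one (Finset.mem_univ (1 : G ⧸ N))
    have ha1 : (2 : ℝ) ≤ a 1 := by
      simp only [a, he, Complex.natCast_re]
      exact_mod_cast he2
    linarith
  · rintro ⟨x, hx⟩ hirr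
    exact ne_zero_of_degree_one hA (by rw [hA1, classInner_irr_self hirr]) (x : G ⧸ N)
      ((hA0 x).2 hx)

end Cfsg.Agent.S4996
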