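import Cfsg.Statements.S5001
import Cfsg.Agent.Lib.Block.Defect
import Cfsg.Agent.Lib.CharCyclo
import Cfsg.Agent.Lib.CharAux
import Cfsg.Agent.Lib.Char.Scalar
import Cfsg.Agent.Lib.Char.Linear
import Cfsg.Agent.Lib.Char.Integral

set_option autoImplicit false
open Cfsg

namespace Cfsg.Agent.S5001

open Cfsg.Agent.Lib Cfsg.Agent.Lib.Char Cfsg.Agent.Lib.CharCyclo
open scoped ComplexConjugate

/-- Let p be a prime, G a finite group and B a p-block of G (relative to a maximal ideal M of the algebraic integers containing p) with defect group D. Let Z be a central p-subgroup of G contained in D and λ a linear character of Z (a homomorphism to the nonzero complex numbers). Say an irreducible character χ of G lies over λ when χ(z) = χ(1)λ(z) for all z ∈ Z. If some irreducible character in B lying over λ has height zero, then λ extends to a linear character of D. -/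
theorem result {G : Type*} [Group G] [Finite G] (p : ℕ) [Fact p.Prime] (M : Ideal Cfsg.AlgInt) (hM : Cfsg.IsPModular p M) (B : Set (Cfsg.IrrCharacter G)) (hB : Cfsg.IsPBlock M B) (D : Subgroup G) (hD : Cfsg.IsDefectGroup p M B D) (Z : Subgroup G) (hZc : Z ≤ Subgroup.center G) (hZp : IsPGroup p ↥Z) (hZD : Z ≤ D) (lam : ↥Z →* ℂˣ) (χ : Cfsg.IrrCharacter G) (hχ : χ ∈ B) (hover : (∀ z : ↥Z, (χ : G → ℂ) z = (χ : G → ℂ) 1 * (lam z : ℂ))) (h0 : Cfsg.blockHeight p B (χ : G → ℂ) = 0) : (∃ μ : ↥D →* ℂˣ, ∀ z : ↥Z, μ ⟨(z : G), hZD z.2⟩ = lam z) := by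
  classical
  have := Fintype.ofFinite G
  have := hM.2.1.isPrime
  obtain ⟨g, hg, S, hDS⟩ := hD
  obtain ⟨-, -, hkey⟩ := Block.defectClass_facts hM hB hg
  have hne := (hkey χ hχ h0).2
  have hgD : ∀ d ∈ D, g * d = d * g := fun d hd => by
    rw [hDS, Subgroup.mem_map] at hd
    obtain ⟨c, -, rfl⟩ := hd
    exact Subgroup.mem_centralizer_iff.1 c.2 g rfl
  have hDp : IsPGroup p D := hDS ▸ S.2.map _
  have := Fintype.ofFinite D
  let a : IrrCharacter D → ℂ := fun μ => classInner (fun d : D => (χ : G → ℂ) (g * d)) (μ : D → ℂ)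
  have haint : ∀ μ, IsIntegral ℤ (a μ) := fun μ =>
    isIntegral_classInner_shift D g hgD (isCharacter_of_isIrr χ.2) (isCharacter_of_isIrr μ.2)
  have hexp : ∑ μ : IrrCharacter D, (μ : D → ℂ) 1 * a μ = (χ : G → ℂ) g := by
    simp only [a, classInner, Finset.mul_sum]
    rw [Finset.sum_comm, Finset.sum_eq_single (1 : D)]
    · have h1 := sum_irr_mul_conj (G := D) 1 1
      rw [if_pos (IsConj.refl 1)] at h1
      rw [Finset.card_eq_one.2 ⟨(1 : D), by ext x; simp⟩, Nat.cast_one, div_one] at h1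
      calc ∑ μ : IrrCharacter D, (μ : D → ℂ) 1 * ((Nat.card D : ℂ)⁻¹ *
              ((χ : G → ℂ) (g * ((1 : D) : G)) * conj ((μ : D → ℂ) 1)))
          = (Nat.card D : ℂ)⁻¹ * (χ : G → ℂ) g *
              ∑ μ : IrrCharacter D, (μ : D → ℂ) 1 * conj ((μ : D → ℂ) 1) := by
            rw [Finset.mul_sum]
            exact Finset.sum_congr rfl fun μ _ => by rw [Subgroup.coe_one, mul_one]; ring
        _ = (χ : G → ℂ) g := by
            rw [h1, mul_comm, ← mul_assoc, mul_inv_cancel₀ (card_ne_zero_complex D), one_mul]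
    · intro d _ hd
      have h1 := sum_irr_mul_conj (G := D) 1 d
      rw [if_neg (fun h => hd (isConj_one_right.1 h))] at h1
      calc ∑ μ : IrrCharacter D, (μ : D → ℂ) 1 * ((Nat.card D : ℂ)⁻¹ *
              ((χ : G → ℂ) (g * (d : G)) * conj ((μ : D → ℂ) d)))
          = (Nat.card D : ℂ)⁻¹ * (χ : G → ℂ) (g * (d : G)) *
              ∑ μ : IrrCharacter D, (μ : D → ℂ) 1 * conj ((μ : D → ℂ) d) := by
            rw [Finset.mul_sum]
            exact Finset.sum_congr rfl fun μ _ => by ring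
        _ = 0 := by rw [h1, mul_zero]
    · simp
  obtain ⟨μ, hμ1, hμa⟩ : ∃ μ : IrrCharacter D, (μ : D → ℂ) 1 = 1 ∧ a μ ≠ 0 := by
    by_contra hno
    push Not at hno
    apply hne
    rw [← hexp, Block.redC_sum _ fun μ _ => mul_mem (Block.irr_mem_locRing μ 1) (Block.integral_mem_locRing (haint μ))]
    refine Finset.sum_eq_zero fun μ _ => ?_
    rw [Block.redC_mul (Block.irr_mem_locRing μ 1) (Block.integral_mem_locRing (haint μ))]
    by_cases h1 : (μ : D → ℂ) 1 = 1
    · rw [hno μ h1, Block.redC_zero, mul_zero]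
    · obtain ⟨n, hn⟩ := IsPGroup.iff_card.1 hDp
      have hdeg := CharAux.charDegree_eq (isCharacter_of_isIrr μ.2)
      obtain ⟨k, -, hk⟩ := (Nat.dvd_prime_pow (Fact.out : p.Prime)).1
        (hn ▸ irr_degree_dvd_card μ.2 hdeg)
      have hk0 : k ≠ 0 := by
        rintro rfl
        rw [hdeg, hk] at h1
        simp at h1
      rw [hdeg, hk, (Block.redC_natCast_eq_zero_iff hM).2 (dvd_pow_self p hk0), zero_mul]
  obtain ⟨l, hl⟩ := exists_hom_of_degree_one (isCharacter_of_isIrr μ.2) hμ1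
  refine ⟨l, fun z => Units.ext ?_⟩
  set z' : D := ⟨(z : G), hZD z.2⟩
  have hzc : (z : G) ∈ Subgroup.center G := hZc z.2
  have hshift : ∀ d : D, (χ : G → ℂ) (g * ((z' * d : D) : G)) = (lam z : ℂ) * (χ : G → ℂ) (g * d) := by
    intro d
    have hmain := (apply_mul_of_norm_eq (isCharacter_of_isIrr χ.2) (norm_char_of_mem_center χ.2 hzc)
      (g * (d : G))).1
    rw [hover z, mul_assoc, mul_comm ((χ : G → ℂ) 1)] at hmain
    rw [show g * ((z' * d : D) : G) = (z : G) * (g * d) by
      show g * ((z : G) * (d : G)) = _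
      rw [← mul_assoc, Subgroup.mem_center_iff.1 hzc g, mul_assoc]]
    exact mul_right_cancel₀ (irr_degree_ne_zero χ.2) hmain
  have hinv : a μ = (lam z : ℂ) * conj (l z' : ℂ) * a μ := by
    have e : ∑ d : D, (χ : G → ℂ) (g * d) * conj ((μ : D → ℂ) d) =
        (lam z : ℂ) * conj (l z' : ℂ) * ∑ d : D, (χ : G → ℂ) (g * d) * conj ((μ : D → ℂ) d) := by
      conv_lhs => rw [← Equiv.sum_comp (Equiv.mulLeft z')]
      rw [Finset.mul_sum]
      refine Finset.sum_congr rfl fun d _ => ?_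
      rw [Equiv.coe_mulLeft, hshift, hl, hl, map_mul, Units.val_mul, map_mul]
      ring
    simp only [a, classInner]
    conv_lhs => rw [e]
    ring
  have h2 : (lam z : ℂ) * conj (l z' : ℂ) = 1 :=
    mul_right_cancel₀ hμa (by rw [one_mul]; exact hinv.symm)
  calc (l z' : ℂ) = (lam z : ℂ) * ((l z' : ℂ) * conj (l z' : ℂ)) := by
        rw [mul_left_comm, h2, mul_one]
    _ = (lam z : ℂ) := by rw [linear_conj_mul, mul_one]

end Cfsg.Agent.S5001
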