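import Cfsg.Statements.S5011
import Mathlib.LinearAlgebra.Eigenspace.Triangularizable
import Mathlib.Analysis.Complex.Polynomial.Basic
import Mathlib.GroupTheory.QuotientGroup.Basic

set_option autoImplicit false
open Cfsg

namespace Cfsg.Agent.S5011

theorem result {G : Type*} [Group G] [Finite G] [IsSimpleGroup G]
    (hG : ¬ IsMulCommutative G) {V : Type*} [AddCommGroup V] [Module ℂ V] [FiniteDimensional ℂ V]
    (ρ : Representation ℂ G V)
    (hirr : ∀ W : Submodule ℂ V, (∀ x : G, ∀ v ∈ W, ρ x v ∈ W) → W = ⊥ ∨ W = ⊤)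
    (hdim : 1 < Module.finrank ℂ V) (g : G) (hg : g ≠ 1) :
    ∃ W : Submodule ℂ V, W ≠ ⊥ ∧ W ≠ ⊤ ∧ ∀ c ∈ Subgroup.centralizer ({g} : Set G), ∀ v ∈ W, ρ c v ∈ W := by
  haveI : Nontrivial V := Module.nontrivial_of_finrank_pos (R := ℂ) (by omega)
  obtain ⟨μ, hμ⟩ := Module.End.exists_eigenvalue (ρ g)
  refine ⟨Module.End.eigenspace (ρ g) μ, hμ, ?_, ?_⟩
  · intro htop
    have hscal : ∀ v : V, ρ g v = μ • v := fun v =>
      Module.End.mem_eigenspace_iff.1 (htop ▸ Submodule.mem_top)
    have hcomm : ∀ x : G, ρ (g * x) = ρ (x * g) := by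
      intro x
      apply LinearMap.ext
      intro v
      simp only [map_mul, Module.End.mul_apply, hscal, map_smul]
    let f : G →* (V →ₗ[ℂ] V)ˣ := MonoidHom.toHomUnits (ρ : G →* (V →ₗ[ℂ] V))
    have hfval : ∀ x, ((f x : (V →ₗ[ℂ] V)ˣ) : V →ₗ[ℂ] V) = ρ x := fun x => rfl
    rcases IsSimpleGroup.eq_bot_or_eq_top_of_normal f.ker inferInstance with hk | hk
    · have hinj : Function.Injective f := (MonoidHom.ker_eq_bot_iff f).1 hk
      have hgc : g ∈ Subgroup.center G := Subgroup.mem_center_iff.2 fun x =>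
        hinj (Units.ext (by rw [hfval, hfval]; exact (hcomm x).symm))
      rcases IsSimpleGroup.eq_bot_or_eq_top_of_normal (Subgroup.center G) inferInstance with hc | hc
      · rw [hc, Subgroup.mem_bot] at hgc
        exact hg hgc
      · apply hG
        exact ⟨⟨fun a b => (Subgroup.mem_center_iff.1 (hc ▸ Subgroup.mem_top b) a)⟩⟩
    · have hone : ∀ x : G, ρ x = 1 := fun x => by
        have hx : f x = 1 := MonoidHom.mem_ker.1 (hk ▸ Subgroup.mem_top x)
        have := hfval x
        rw [hx] at this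
        simpa using this.symm
      obtain ⟨v, hv⟩ := exists_ne (0 : V)
      have hspan : Submodule.span ℂ ({v} : Set V) = ⊤ := by
        refine (hirr _ ?_).resolve_left (by simpa using hv)
        intro x w hw
        rw [hone x]
        simpa using hw
      have h1 : Module.finrank ℂ (Submodule.span ℂ ({v} : Set V)) = 1 := finrank_span_singleton hv
      rw [hspan, finrank_top] at h1
      omega
  · intro c hc v hv
    rw [Module.End.mem_eigenspace_iff] at hv ⊢
    have hc' : g * c = c * g := by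
      have := Subgroup.mem_centralizer_iff.1 hc g rfl
      exact this
    calc ρ g (ρ c v) = ρ (g * c) v := by simp [map_mul]
      _ = ρ (c * g) v := by rw [hc']
      _ = μ • ρ c v := by simp [map_mul, hv]

end Cfsg.Agent.S5011
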