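import Cfsg.Statements.S5075
import Cfsg.Agent.Lib.TransvGen.Blocks

set_option autoImplicit false
open Cfsg Cfsg.Agent.Lib.TransvGen

namespace Cfsg.Agent.S5075

/-- Let p be an odd prime, V a finite-dimensional vector space over the field with p elements, and H a group of linear automorphisms of V generated by transvections (elements of order p fixing a hyperplane pointwise) and having no nontrivial normal p-subgroup. Then for some n ≥ 1 there are a decomposition V = V₀ ⊕ V₁ ⊕ ⋯ ⊕ Vₙ into H-invariant subspaces and a decomposition of H as the internal direct product of normal subgroups H₁, …, Hₙ such that Hⱼ acts trivially on every Vᵢ with i ≠ j, and Hⱼ induces on Vⱼ exactly the special linear group of Vⱼ or exactly the isometry group of a non-degenerate alternating form on Vⱼ. -/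
theorem result {p : ℕ} [Fact p.Prime] (hp : Odd p) {V : Type*} [AddCommGroup V] [Module (ZMod p) V] [Finite V]
    (H : Subgroup (V ≃ₗ[ZMod p] V)) (T : Set (V ≃ₗ[ZMod p] V)) (hHT : H = Subgroup.closure T)
    (hT : ∀ t ∈ T, orderOf t = p ∧
      Module.finrank (ZMod p) ↥(LinearMap.ker ((t : V →ₗ[ZMod p] V) - LinearMap.id)) + 1 =
        Module.finrank (ZMod p) V)
    (hOp : Cfsg.pCore p ↥H = ⊥) :
    ∃ (n : ℕ) (W : Fin (n + 1) → Submodule (ZMod p) V) (K : Fin n → Subgroup (V ≃ₗ[ZMod p] V)),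
      1 ≤ n ∧ DirectSum.IsInternal W ∧
      (∀ h ∈ H, ∀ i, (W i).map (h : V →ₗ[ZMod p] V) = W i) ∧
      (∀ j, K j ≤ H ∧ ((K j).subgroupOf H).Normal) ∧ ⨆ j, K j = H ∧
      (∀ j, K j ⊓ (⨆ j' ∈ {j' : Fin n | j' ≠ j}, K j') = ⊥) ∧
      (∀ j j', j ≠ j' → ∀ a ∈ K j, ∀ b ∈ K j', a * b = b * a) ∧
      (∀ j, ∀ h ∈ K j, ∀ i : Fin (n + 1), i ≠ j.succ → ∀ v ∈ W i, h v = v) ∧
      (∀ j, ∃ ρ : ↥(K j) →* (↥(W j.succ) ≃ₗ[ZMod p] ↥(W j.succ)),
        (∀ (h : ↥(K j)) (v : ↥(W j.succ)), ((ρ h v : ↥(W j.succ)) : V) = (h : V ≃ₗ[ZMod p] V) (v : V)) ∧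
        ((ρ.range : Set (↥(W j.succ) ≃ₗ[ZMod p] ↥(W j.succ))) =
            {f : ↥(W j.succ) ≃ₗ[ZMod p] ↥(W j.succ) | LinearMap.det (f : ↥(W j.succ) →ₗ[ZMod p] ↥(W j.succ)) = 1} ∨
          ∃ B : LinearMap.BilinForm (ZMod p) ↥(W j.succ), B.IsAlt ∧ B.Nondegenerate ∧
            (ρ.range : Set (↥(W j.succ) ≃ₗ[ZMod p] ↥(W j.succ))) = {f : ↥(W j.succ) ≃ₗ[ZMod p] ↥(W j.succ) | ∀ x y, B (f x) (f y) = B x y})) := by
  have : Module.Finite (ZMod p) V := Module.Finite.of_finite
  have hR := rel_sys hp H hOp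
  obtain ⟨n, Wb, Cb, hD⟩ := exists_decomp hR
  set W0 : Submodule (ZMod p) V := ⨅ j, Cb j with hW0
  set K := fun j => blockGroup H (Wb j) (Cb j) with hK
  have hstab : ∀ j, K j ≤ blockStab (Wb j) (Cb j) := fun j => blockGroup_le_stab
  -- `H` is generated by the blocks
  have hsup : ⨆ j, K j = H := by
    refine le_antisymm (iSup_le fun j => blockGroup_le) ?_
    conv_lhs => rw [hHT]
    refine (Subgroup.closure_le _).2 fun t ht => ?_
    have htH : t ∈ H := hHT ▸ Subgroup.subset_closure ht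
    obtain ⟨v, φ, hv0, hφ0, hv, hx⟩ := exists_transv (hT t ht).1 (hT t ht).2
    obtain ⟨j, hj1, hj2⟩ := hD.cover v φ ⟨hv, t, htH, hx⟩ hv0 hφ0
    exact Subgroup.mem_iSup_of_mem j (Subgroup.subset_closure ⟨htH, v, φ, hv, hj1, hj2, hx⟩)
  have hcomm : ∀ j j', j ≠ j' → ∀ a ∈ K j, ∀ b ∈ K j', a * b = b * a := fun j j' hne a ha b hb =>
    stab_comm (hD.cross j j' hne) (hD.cross j' j hne.symm) (hstab j ha) (hstab j' hb)
  -- the decomposition of the space
  have hsum : ∀ x ∈ ⨆ j, Wb j, x = ∑ j, (Wb j).projection (Cb j) (hD.isCompl j) x := by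
    intro x hx
    induction hx using Submodule.iSup_induction' with
    | mem i x hx =>
      rw [Finset.sum_eq_single i (fun j _ hji => ?_) (fun h => absurd (Finset.mem_univ i) h)]
      · exact (Submodule.projection_apply_left (hD.isCompl i) ⟨x, hx⟩).symm
      · simp [Submodule.projection,
          (Submodule.projectionOnto_apply_eq_zero_iff (hD.isCompl j)).2 (hD.cross i j hji.symm hx)]
    | zero => simp
    | add x y _ _ ihx ihy => simp only [map_add, Finset.sum_add_distrib, ← ihx, ← ihy]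
  set W : Fin (n + 1 + 1) → Submodule (ZMod p) V := Fin.cons W0 Wb with hW
  have hWle : ∀ i : Fin (n + 1 + 1), ∀ j : Fin (n + 1), i ≠ j.succ → W i ≤ Cb j :=
    Fin.cases (fun j _ => by simpa [hW] using iInf_le Cb j) fun k j hkj => by
      simpa [hW] using hD.cross k j fun e => hkj (congrArg Fin.succ e)
  have hint : DirectSum.IsInternal W := by
    rw [DirectSum.isInternal_submodule_iff_iSupIndep_and_iSup_eq_top]
    refine ⟨?_, ?_⟩
    on_goal 1 => intro i; induction i using Fin.cases with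
      | zero => ?_
      | succ j => ?_
    · rw [disjoint_iff_inf_le]
      rintro x ⟨hx0, hx⟩
      have hle : ⨆ i, ⨆ (_ : i ≠ 0), W i ≤ ⨆ j, Wb j := iSup₂_le (Fin.cases
        (fun h => absurd rfl h) fun j _ => by simpa [hW] using le_iSup Wb j)
      rw [Submodule.mem_bot, hsum x (hle hx)]
      refine Finset.sum_eq_zero fun j _ => ?_
      simp only [hW, Fin.cons_zero, hW0, SetLike.mem_coe, Submodule.mem_iInf] at hx0
      simp [Submodule.projection,
        (Submodule.projectionOnto_apply_eq_zero_iff (hD.isCompl j)).2 (hx0 j)]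
    · exact (hD.isCompl j).disjoint.mono (by simp [hW]) (iSup₂_le fun i hi => hWle i j hi)
    · rw [eq_top_iff]
      intro x _
      set P := fun j => (Wb j).projection (Cb j) (hD.isCompl j) x with hP
      have hPW : ∀ j, P j ∈ Wb j := fun j =>
        ((Wb j).projectionOnto (Cb j) (hD.isCompl j) x).2
      have h0 : x - ∑ j, P j ∈ W0 := by
        rw [hW0, Submodule.mem_iInf]
        intro i
        rw [← Finset.add_sum_erase _ _ (Finset.mem_univ i), ← sub_sub]
        refine sub_mem ?_ (sum_mem fun j hj => hD.cross j i (Finset.ne_of_mem_erase hj) (hPW j))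
        rw [← Submodule.projectionOnto_apply_eq_zero_iff (hD.isCompl i), map_sub, sub_eq_zero]
        exact (Submodule.projectionOnto_apply_left (hD.isCompl i) ⟨P i, hPW i⟩).symm
      have e : x = (x - ∑ j, P j) + ∑ j, P j := (sub_add_cancel _ _).symm
      rw [e]
      exact add_mem (Submodule.mem_iSup_of_mem 0 (by simpa [hW] using h0))
        (sum_mem fun j _ => Submodule.mem_iSup_of_mem j.succ (by simpa [hW] using hPW j))
  have hinv : ∀ h ∈ H, ∀ i, (W i).map (h : V →ₗ[ZMod p] V) = W i := by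
    intro h hh i
    rw [← hsup] at hh
    induction hh using Subgroup.iSup_induction' with
    | hp j g hg =>
      refine stab_map (hstab j hg) ?_
      by_cases hij : i = j.succ
      · exact Or.inl (by simp [hij, hW])
      · exact Or.inr (hWle i j hij)
    | h1 => exact Submodule.map_id _
    | hmul a b _ _ iha ihb =>
      show Submodule.map ((a : V →ₗ[ZMod p] V) ∘ₗ (b : V →ₗ[ZMod p] V)) (W i) = W i
      rw [Submodule.map_comp, ihb, iha]
  refine ⟨n + 1, W, K, Nat.le_add_left 1 n, hint, hinv, fun j => ⟨blockGroup_le, ⟨?_⟩⟩, hsup,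
    fun j => ?_, hcomm, fun j h hh i hi v hv => (hstab j hh).1 v (hWle i j hi hv), fun j => ?_⟩
  · rintro ⟨m, hmH⟩ hm ⟨g, hg⟩
    show g * m * g⁻¹ ∈ K j
    change m ∈ K j at hm
    clear hmH
    rw [← hsup] at hg
    induction hg using Subgroup.iSup_induction' generalizing m with
    | hp i g hg =>
      by_cases hij : i = j
      · subst hij; exact mul_mem (mul_mem hg hm) (inv_mem hg)
      · rwa [hcomm i j hij g hg m hm, mul_inv_cancel_right]
    | h1 => simpa using hm
    | hmul a b _ _ iha ihb =>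
      have := iha _ (ihb _ hm)
      rwa [show a * b * m * (a * b)⁻¹ = a * (b * m * b⁻¹) * a⁻¹ by group]
  · rw [eq_bot_iff]
    rintro g ⟨hgj, hg⟩
    have hfix : ∀ x ∈ Wb j, g x = x := by
      have hle : (⨆ j' ∈ {j' : Fin (n + 1) | j' ≠ j}, K j') ≤
          blockStab (⊤ : Submodule (ZMod p) V) (Wb j) :=
        iSup₂_le fun i hi h hh => ⟨fun x hx => (hstab i hh).1 x (hD.cross j i (Ne.symm hi) hx),
          fun _ => Submodule.mem_top⟩
      exact (hle hg).1
    rw [Subgroup.mem_bot]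
    refine LinearEquiv.ext fun x => ?_
    obtain ⟨w, hw, c, hc, rfl⟩ := exists_parts (hD.isCompl j) x
    rw [map_add, hfix w hw, (hstab j hgj).1 c hc]
    rfl
  · have e : W j.succ = Wb j := by simp [hW]
    refine e ▸ ⟨restrictHom H (Wb j) (Cb j), fun h v => restrictHom_apply h v, ?_⟩
    obtain ⟨eW, -⟩ | hb := hD.block j
    · left
      have : Subsingleton ↥(Wb j) := by rw [eW]; infer_instance
      ext f
      refine ⟨fun ⟨h, e'⟩ => e' ▸ det_restrictHom h, fun _ => ⟨1, ?_⟩⟩
      exact LinearEquiv.ext fun x => Subsingleton.elim _ _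
    obtain hG | ⟨B, hG, hin⟩ := hb.kind
    · exact Or.inl (sl_range hG)
    · exact Or.inr (sp_range hR hG hin)

end Cfsg.Agent.S5075
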