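import Cfsg.Statements.S5124
import Cfsg.Agent.Lib.Fusion.SmallExp

set_option autoImplicit false
open Cfsg Cfsg.FusionSystem Cfsg.Agent.Lib.Fusion
open scoped commutatorElement

namespace Cfsg.Agent.S5124

/-- In a saturated fusion system over a finite p-group S the hyperfocal subgroup is strongly closed in the system. -/
theorem result {Ω : Type*} [Group Ω] {S : Subgroup Ω} [Finite S] (p : ℕ) [Fact p.Prime] (hS : IsPGroup p S) (F : Cfsg.FusionSystem S) (hF : F.IsSaturated p) : F.StronglyClosed (F.hyperfocalSubgroup p) := by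
  exact ⟨hyperfocal_le_base F, fun R hR φ hφ x =>
    (map_mem_of_gen hS hF (le_normalizer_hyperfocal F) (fun P hP α hα hcop y =>
      inv_mul_mem_hyperfocal hP (α := ⟨α, hα⟩) (coprime_mem_pResidual hcop) y) hφ x).2 (hR x.2)⟩

end Cfsg.Agent.S5124
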