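import Cfsg.Statements.S5126
import Cfsg.Agent.Lib.Fusion.LocalModel

set_option autoImplicit false
open Cfsg Cfsg.FusionSystem Cfsg.Agent.Lib.Fusion
open scoped commutatorElement

namespace Cfsg.Agent.S5126

/-- In a saturated fusion system over a finite p-group S, the normalizer system of a fully normalized, centric, radical subgroup R is constrained, and in every model of that normalizer system the largest normal p-subgroup is the image of R. -/
theorem result {Ω : Type*} [Group Ω] {S : Subgroup Ω} [Finite S] (p : ℕ) [Fact p.Prime] (hS : IsPGroup p S) (F : Cfsg.FusionSystem S) (hF : F.IsSaturated p) (R : Subgroup Ω) (hRn : F.IsFullyNormalized R) (hRc : F.IsCentric R) (hRr : F.IsRadical p R) (E : Cfsg.FusionSystem (Cfsg.FusionSystem.normalizerIn S R)) (hE : F.IsNormalizerSystem R E) {G : Type*} [Group G] (ι : ↥(Cfsg.FusionSystem.normalizerIn S R) →* G) : E.IsConstrained p ∧ (E.IsModel p G ι → (Cfsg.pCore p G : Subgroup G) = (R.subgroupOf (Cfsg.FusionSystem.normalizerIn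 S R)).map ι) := by
  have hC := normalizerSystem_constrained hS hF hRn hRc hE
  refine ⟨hC, fun hG => ?_⟩
  have hn := normalizerSystem_normal hRn.1 hE
  have hfin := finite_of_le (normalizerIn_le S R)
  have hRN : R ≤ normalizerIn S R := le_normalizerIn hRn.1
  have hnorm := model_normal hn hG
  have hle := pCore_le_range hG
  obtain ⟨hfinG, hr, -, -⟩ := id hG
  set W := (R.subgroupOf (normalizerIn S R)).map ι
  have hWn : W.Normal := by
    refine ⟨?_⟩
    rintro _ ⟨q, hq, rfl⟩ g
    obtain ⟨q', hq', e⟩ := hnorm g q hq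
    exact ⟨q', hq', e.symm⟩
  have hWp : IsPGroup p W := ((hS.to_le (normalizerIn_le S R)).to_subgroup _).map ι
  refine le_antisymm ?_ (Cfsg.Agent.Lib.Hall.le_pCore hWp)
  intro y hy
  obtain ⟨u, rfl⟩ := hle hy
  set α := conjAut R u.2.2
  have := finite_mulAut hRn.1
  let U : Subgroup (normalizerIn S R) := (pCore p G).comap ι
  let act := actHom (H := normalizerIn S R) (P := R) inf_le_right
  have hact : ∀ (w : normalizerIn S R) (x : R), ((act w x : R) : Ω) = w * x * (w : Ω)⁻¹ :=
    fun w x => actHom_apply _ w x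
  set V := U.map act
  have hVA : V ≤ F.autGroup R := by
    rintro _ ⟨w, -, rfl⟩
    exact autInducedBy_le_autGroup hRn.1 (conjAut_mem_autInducedBy w.2.1 w.2.2)
  have hVp : IsPGroup p V := ((Cfsg.Agent.Lib.Hall.isPGroup_pCore (G := G) p).comap_of_injective ι hr.1).map act
  have hVn : (V.subgroupOf (F.autGroup R)).Normal := by
    refine ⟨?_⟩
    rintro ⟨v, hv⟩ ⟨w, hw, hwv⟩ ⟨a, ha⟩
    have haE : a ∈ E.autGroup R := by rw [normalizerSystem_autGroup hRn.1 hE]; exact ha
    obtain ⟨g, hg⟩ := (realized_iso_iff hr hRN hRN).1 ((mem_autGroup hRN).1 haE)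
    have hgw : g * ι w * g⁻¹ ∈ pCore p G :=
      (Cfsg.Agent.Lib.Hall.pCore_normal p).conj_mem _ hw g
    obtain ⟨w', hw'⟩ := hle hgw
    refine ⟨w', show ι w' ∈ pCore p G from hw' ▸ hgw, ?_⟩
    change act w = v at hwv
    show act w' = a * v * a⁻¹
    rw [← hwv]
    ext x
    obtain ⟨x, rfl⟩ := a.surjective x
    rw [MulAut.mul_apply, MulAut.mul_apply, MulAut.inv_apply_self]
    have h1 := hg x
    have h2 := hg (act w x)
    have h3 : (⟨((act w x : R) : Ω), hRN (act w x).2⟩ : normalizerIn S R) = w * ⟨x, hRN x.2⟩ * w⁻¹ :=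
      Subtype.ext (hact w x)
    rw [h3] at h2
    have h5 : (⟨((act w' (a x) : R) : Ω), hRN (act w' (a x)).2⟩ : normalizerIn S R) =
        w' * ⟨(a x : Ω), hRN (a x).2⟩ * w'⁻¹ := Subtype.ext (hact w' (a x))
    have h4 : ι ⟨((act w' (a x) : R) : Ω), hRN (act w' (a x)).2⟩ =
        ι ⟨(a (act w x) : Ω), hRN (a (act w x)).2⟩ := by
      rw [h2, h5, map_mul, map_mul, map_inv, map_mul, map_mul, map_inv, hw', h1]
      group
    exact (congrArg Subtype.val (hr.1 h4) :)
  have hα : α ∈ (pCore p (F.autGroup R)).map (F.autGroup R).subtype :=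
    ⟨⟨α, autInducedBy_le_autGroup hRn.1 (conjAut_mem_autInducedBy u.2.1 u.2.2)⟩,
      Cfsg.Agent.Lib.Fusion.le_pCore hVn (isPGroup_subgroupOf hVp) ⟨u, hy, rfl⟩, rfl⟩
  rw [hRr.2] at hα
  exact ⟨u, mem_of_induced_inn (hRc.2 R (isConj_refl hRn.1)) hRn.1 u.2 hα, rfl⟩

end Cfsg.Agent.S5126
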