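import Cfsg.Statements.S5135
import Cfsg.Agent.Lib.Fusion.SylowLift

set_option autoImplicit false
open Cfsg Cfsg.FusionSystem Cfsg.Agent.Lib.Fusion
open scoped commutatorElement

namespace Cfsg.Agent.S5135

/-- Let G be a finite group, S a Sylow p-subgroup and H a normal subgroup of G. Then the fusion system of G/H on the image SH/H of S is the factor system of the fusion system of G on S modulo S ∩ H, read through the quotient map restricted to S: for each subgroup P' of SH/H, the conjugation maps by elements of G/H defined on P' with values in SH/H are exactly the homomorphisms induced by the conjugation maps by elements of G defined on the full preimage of P' in S with values in S. -/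
theorem result {G : Type*} [Group G] [Finite G] (p : ℕ) [Fact p.Prime] (S : Sylow p G) (H : Subgroup G) [H.Normal] : (Cfsg.groupFusionSystem (S : Subgroup G)).IsFactorSystem ((S : Subgroup G) ⊓ H) ((QuotientGroup.mk' H).comp (S : Subgroup G).subtype) (Cfsg.groupFusionSystem ((S : Subgroup G).map (QuotientGroup.mk' H))) := by
  set θ := (QuotientGroup.mk' H).comp (S : Subgroup G).subtype
  refine ⟨inf_le_left, fun s => ?_, ?_, fun P' φ' => ?_⟩
  · show QuotientGroup.mk' H (s : G) = 1 ↔ _
    rw [QuotientGroup.mk'_apply, QuotientGroup.eq_one_iff]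
    exact ⟨fun h => ⟨s.2, h⟩, fun h => h.2⟩
  · rw [MonoidHom.range_comp, Subgroup.range_subtype]
  constructor
  · rintro ⟨hP', hφ'S, γ, hγ⟩
    obtain ⟨g₀, rfl⟩ := QuotientGroup.mk'_surjective H γ
    set P := preimageAlong θ P' with hPdef
    have hPS : P ≤ (S : Subgroup G) := Subgroup.map_subtype_le _
    have hPP' : ∀ x : G, x ∈ P → QuotientGroup.mk' H x ∈ P' := by
      rintro _ ⟨s, hs, rfl⟩; exact hs
    have hle : P.map (MulAut.conj g₀).toMonoidHom ≤ (S : Subgroup G) ⊔ H := by
      rintro _ ⟨x, hx, rfl⟩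
      obtain ⟨s, hs, hse⟩ := hφ'S ⟨_, hPP' x hx⟩
      rw [hγ] at hse
      simp only [MulEquiv.coe_toMonoidHom, MulAut.conj_apply]
      have h1 : s⁻¹ * (g₀ * x * g₀⁻¹) ∈ H := by
        rw [← QuotientGroup.eq]
        simpa using hse
      simpa using Subgroup.mul_mem_sup hs h1
    obtain ⟨n, hn, hnS⟩ := exists_mem_conj_into_sylow S H ((S.2.to_le hPS).map _) hle
    refine ⟨hP', conjHom P (n * g₀), ⟨hPS, fun x => ?_, _, fun x => rfl⟩, ?_⟩
    · have := hnS _ ⟨x, x.2, rfl⟩
      simpa [conjHom, mul_assoc] using this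
    · refine ⟨hPS, fun x => ?_, fun x => hPP' x x.2, fun x => ?_⟩
      · have := hnS _ ⟨x, x.2, rfl⟩
        simpa [conjHom, mul_assoc] using this
      · rw [hγ]
        have hn1 : (QuotientGroup.mk n : G ⧸ H) = 1 := (QuotientGroup.eq_one_iff n).2 hn
        simp [θ, conjHom, hn1]
  · rintro ⟨hP', φ, ⟨hPS, hφS, g, hg⟩, hP, hφ, hPP', hind⟩
    refine ⟨hP', fun y => ?_, QuotientGroup.mk' H g, fun y => ?_⟩
    all_goals
      obtain ⟨s, hs, hsy⟩ := hP' y.2
      have hx : s ∈ preimageAlong θ P' :=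
        ⟨⟨s, hs⟩, show θ ⟨s, hs⟩ ∈ P' from (congrArg (· ∈ P') hsy).mpr y.2, rfl⟩
      have hy : y = ⟨θ ⟨s, hP hx⟩, hPP' ⟨s, hx⟩⟩ := Subtype.ext hsy.symm
      rw [hy, hind ⟨s, hx⟩]
    · exact ⟨_, hφS ⟨s, hx⟩, rfl⟩
    · show QuotientGroup.mk' H (φ ⟨s, hx⟩) = _
      rw [hg]
      simp [θ]

end Cfsg.Agent.S5135
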