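import Cfsg.Statements.S5136
import Cfsg.Agent.Lib.Fusion.Basic

set_option autoImplicit false
open Cfsg Cfsg.FusionSystem Cfsg.Agent.Lib.Fusion
open scoped commutatorElement

namespace Cfsg.Agent.S5136

/-- Let F₁ and F₂ be fusion systems over finite p-groups S₁ and S₂ (inside ambient groups Ω₁ and Ω₂). Then their direct product exists: there is a fusion system over S₁ × S₂ inside Ω₁ × Ω₂ whose maps with source P ≤ S₁ × S₂ are exactly the restrictions to P of the homomorphisms (x₁, x₂) ↦ (φ₁ x₁, φ₂ x₂) with φ₁ a map of F₁ on the first projection of P and φ₂ a map of F₂ on the second projection. -/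
theorem result {Ω₁ Ω₂ : Type*} [Group Ω₁] [Group Ω₂] {S₁ : Subgroup Ω₁} {S₂ : Subgroup Ω₂} [Finite S₁] [Finite S₂] (p : ℕ) [Fact p.Prime] (h₁ : IsPGroup p S₁) (h₂ : IsPGroup p S₂) (F₁ : Cfsg.FusionSystem S₁) (F₂ : Cfsg.FusionSystem S₂) : ∃ E : Cfsg.FusionSystem (S₁.prod S₂), Cfsg.FusionSystem.IsProductSystem F₁ F₂ E := by
  refine ⟨{
    Hom := fun P => {φ | P ≤ S₁.prod S₂ ∧
      ∃ φ₁ ∈ F₁.Hom (P.map (MonoidHom.fst Ω₁ Ω₂)), ∃ φ₂ ∈ F₂.Hom (P.map (MonoidHom.snd Ω₁ Ω₂)),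
        ∀ (x : P) (h₁ : (x : Ω₁ × Ω₂).1 ∈ P.map (MonoidHom.fst Ω₁ Ω₂))
          (h₂ : (x : Ω₁ × Ω₂).2 ∈ P.map (MonoidHom.snd Ω₁ Ω₂)),
          φ x = (φ₁ ⟨(x : Ω₁ × Ω₂).1, h₁⟩, φ₂ ⟨(x : Ω₁ × Ω₂).2, h₂⟩)}
    le_of_mem := ?_, injective_of_mem := ?_, conj_mem := ?_, comp_mem := ?_, inv_mem := ?_ },
    fun P φ => Iff.rfl⟩
  · rintro P φ ⟨hP, φ₁, hφ₁, φ₂, hφ₂, h⟩
    refine ⟨hP, fun x => ?_⟩
    rw [h x ⟨_, x.2, rfl⟩ ⟨_, x.2, rfl⟩]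
    exact ⟨val_mem hφ₁ _, val_mem hφ₂ _⟩
  · rintro P φ ⟨hP, φ₁, hφ₁, φ₂, hφ₂, h⟩ x y hxy
    rw [h x ⟨_, x.2, rfl⟩ ⟨_, x.2, rfl⟩, h y ⟨_, y.2, rfl⟩ ⟨_, y.2, rfl⟩] at hxy
    have a1 := congrArg Subtype.val (F₁.injective_of_mem hφ₁ (congrArg Prod.fst hxy))
    have a2 := congrArg Subtype.val (F₂.injective_of_mem hφ₂ (congrArg Prod.snd hxy))
    exact Subtype.ext (Prod.ext a1 a2)
  · intro P g hP hg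
    refine ⟨hP, conjHom _ g.1, F₁.conj_mem ?_ hg.1, conjHom _ g.2, F₂.conj_mem ?_ hg.2,
      fun x _ _ => rfl⟩
    · rintro _ ⟨x, hx, rfl⟩; exact (hP hx).1
    · rintro _ ⟨x, hx, rfl⟩; exact (hP hx).2
  · rintro P Q φ ψ ⟨hP, φ₁, hφ₁, φ₂, hφ₂, hφ⟩ ⟨-, ψ₁, hψ₁, ψ₂, hψ₂, hψ⟩ h
    have h1 : ∀ y, φ₁ y ∈ Q.map (MonoidHom.fst Ω₁ Ω₂) := by
      rintro ⟨_, x, hx, rfl⟩
      exact ⟨_, h ⟨x, hx⟩, congrArg Prod.fst (hφ ⟨x, hx⟩ ⟨x, hx, rfl⟩ ⟨x, hx, rfl⟩)⟩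
    have h2 : ∀ y, φ₂ y ∈ Q.map (MonoidHom.snd Ω₁ Ω₂) := by
      rintro ⟨_, x, hx, rfl⟩
      exact ⟨_, h ⟨x, hx⟩, congrArg Prod.snd (hφ ⟨x, hx⟩ ⟨x, hx, rfl⟩ ⟨x, hx, rfl⟩)⟩
    refine ⟨hP, _, F₁.comp_mem hφ₁ hψ₁ h1, _, F₂.comp_mem hφ₂ hψ₂ h2, fun x k1 k2 => ?_⟩
    refine (hψ ⟨φ x, h x⟩ ⟨_, h x, rfl⟩ ⟨_, h x, rfl⟩).trans ?_
    refine Prod.ext (congrArg ψ₁ (Subtype.ext ?_)) (congrArg ψ₂ (Subtype.ext ?_))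
    · exact congrArg Prod.fst (hφ x k1 k2)
    · exact congrArg Prod.snd (hφ x k1 k2)
  · rintro P φ ⟨hP, φ₁, hφ₁, φ₂, hφ₂, hφ⟩
    have hinj : Function.Injective φ := fun x y hxy => by
      rw [hφ x ⟨_, x.2, rfl⟩ ⟨_, x.2, rfl⟩, hφ y ⟨_, y.2, rfl⟩ ⟨_, y.2, rfl⟩] at hxy
      have a1 := congrArg Subtype.val (F₁.injective_of_mem hφ₁ (congrArg Prod.fst hxy))
      have a2 := congrArg Subtype.val (F₂.injective_of_mem hφ₂ (congrArg Prod.snd hxy))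
      exact Subtype.ext (Prod.ext a1 a2)
    obtain ⟨ψ₁, hψ₁, he₁⟩ := F₁.inv_mem hφ₁
    obtain ⟨ψ₂, hψ₂, he₂⟩ := F₂.inv_mem hφ₂
    have hr1 : φ.range.map (MonoidHom.fst Ω₁ Ω₂) ≤ φ₁.range := by
      rintro _ ⟨_, ⟨x, rfl⟩, rfl⟩
      exact ⟨⟨_, x, x.2, rfl⟩, (congrArg Prod.fst (hφ x ⟨_, x.2, rfl⟩ ⟨_, x.2, rfl⟩)).symm⟩
    have hr2 : φ.range.map (MonoidHom.snd Ω₁ Ω₂) ≤ φ₂.range := by
      rintro _ ⟨_, ⟨x, rfl⟩, rfl⟩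
      exact ⟨⟨_, x, x.2, rfl⟩, (congrArg Prod.snd (hφ x ⟨_, x.2, rfl⟩ ⟨_, x.2, rfl⟩)).symm⟩
    let e := MonoidHom.ofInjective hinj
    have hes : ∀ x, e.symm ⟨φ x, ⟨x, rfl⟩⟩ = x := fun x => by
      rw [MulEquiv.symm_apply_eq]; rfl
    refine ⟨P.subtype.comp e.symm.toMonoidHom, ⟨?_, _, restrict_mem hr1 hψ₁, _, restrict_mem hr2 hψ₂,
      ?_⟩, fun x => congrArg Subtype.val (hes x)⟩
    · rintro _ ⟨x, rfl⟩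
      rw [hφ x ⟨_, x.2, rfl⟩ ⟨_, x.2, rfl⟩]
      exact ⟨val_mem hφ₁ _, val_mem hφ₂ _⟩
    · rintro ⟨_, x, rfl⟩ k1 k2
      refine (congrArg Subtype.val (hes x)).trans (Prod.ext ?_ ?_)
      · refine ((he₁ ⟨_, x, x.2, rfl⟩).symm).trans (congrArg ψ₁ (Subtype.ext ?_))
        exact (congrArg Prod.fst (hφ x ⟨_, x.2, rfl⟩ ⟨_, x.2, rfl⟩)).symm
      · refine ((he₂ ⟨_, x, x.2, rfl⟩).symm).trans (congrArg ψ₂ (Subtype.ext ?_))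
        exact (congrArg Prod.snd (hφ x ⟨_, x.2, rfl⟩ ⟨_, x.2, rfl⟩)).symm

end Cfsg.Agent.S5136
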