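import Cfsg.Statements.S5147
import Cfsg.Agent.Lib.Fusion.ConstrainedTransport
import Cfsg.Agent.Lib.Fusion.Model
import Cfsg.Agent.Lib.Hall.Basic

set_option autoImplicit false
open Cfsg

namespace Cfsg.Agent.S5147

open Cfsg.FusionSystem Cfsg.Agent.Lib.Fusion

variable {p : ℕ} [Fact p.Prime] {L : Type*} [Group L] [Finite L]

/-- The quotient by the centre of a group with constrained system has a constrained system. -/
theorem quotient_center_constrained (P : Sylow p L) (h : (groupFusionSystem (P : Subgroup L)).IsConstrained p) :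
    (groupFusionSystem ((P : Subgroup L).map (QuotientGroup.mk' (Subgroup.center L)))).IsConstrained p := by
  obtain ⟨M, _, κ, hfin, hκ, ⟨T, hT⟩, hC⟩ := exists_model P.isPGroup' h
  set π := QuotientGroup.mk' (Subgroup.center L)
  let ι : (P : Subgroup L) →* L := (P : Subgroup L).subtype
  set Zs : Subgroup (P : Subgroup L) := (Subgroup.center L).subgroupOf (P : Subgroup L) with hZs
  have hZc : ∀ z ∈ Zs, (z : L) ∈ Subgroup.center L := fun z hz => hz
  have hR : pCore p M ≤ κ.range := hT ▸ Lib.Hall.pCore_le_sylow T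
  have hzR : ∀ z ∈ Zs, κ z ∈ pCore p M := fun z hz => by
    refine hC (Subgroup.mem_centralizer_iff.2 fun y hy => ?_)
    obtain ⟨x, rfl⟩ := hR hy
    rw [← map_mul, ← map_mul]
    exact congrArg κ (Subtype.ext (Subgroup.mem_center_iff.1 (hZc z hz) x))
  have hcenM : ∀ z ∈ Zs, ∀ m : M, m * κ z * m⁻¹ = κ z := by
    intro z hz m
    obtain ⟨Q', hQ', e, he, heq⟩ := exists_iso_conjDom hκ m
    have hzD : (z : L) ∈ conjDom κ m := mem_conjDom.2 (hR ((Lib.Hall.pCore_normal p).conj_mem _ (hzR z hz) m))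
    obtain ⟨-, -, g, hg⟩ := he
    have h1 := hg ⟨(z : L), hzD⟩
    have h2 : (e ⟨(z : L), hzD⟩ : L) = z := by
      refine h1.trans ?_
      show g * (z : L) * g⁻¹ = z
      rw [Subgroup.mem_center_iff.1 (hZc z hz) g, mul_inv_cancel_right]
    have h3 := heq ⟨(z : L), hzD⟩
    rw [show (⟨(e ⟨(z : L), hzD⟩ : L), hQ' (e ⟨(z : L), hzD⟩).2⟩ : (P : Subgroup L)) = z from Subtype.ext h2] at h3
    exact h3.symm
  set Zm := Zs.map κ with hZm
  haveI : Zm.Normal := ⟨fun y hy m => by
    obtain ⟨z, hz, rfl⟩ := hy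
    exact ⟨z, hz, (hcenM z hz m).symm⟩⟩
  let μ : M →* M ⧸ Zm := QuotientGroup.mk' Zm
  set Pb := (P : Subgroup L).map π
  let f : (P : Subgroup L) →* Pb := π.subgroupMap (P : Subgroup L)
  have hf : Function.Surjective f := π.subgroupMap_surjective _
  have hfk : ∀ x, f x = 1 ↔ x ∈ Zs := fun x => by
    rw [Subtype.ext_iff]
    exact QuotientGroup.eq_one_iff _
  have hker : f.ker ≤ (μ.comp κ).ker := fun x hx =>
    (QuotientGroup.eq_one_iff _).2 ⟨x, (hfk x).1 hx, rfl⟩
  let κb : Pb →* M ⧸ Zm := f.liftOfSurjective hf ⟨μ.comp κ, hker⟩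
  have hκb : ∀ x, κb (f x) = μ (κ x) := fun x => f.liftOfRightInverse_comp_apply _ _ ⟨μ.comp κ, hker⟩ x
  have hμeq : ∀ x y, μ (κ x) = μ (κ y) → f x = f y := by
    intro x y hxy
    have h1 : (κ x)⁻¹ * κ y ∈ Zm := QuotientGroup.eq.1 hxy
    obtain ⟨z, hz, hzy⟩ := h1
    rw [← map_inv, ← map_mul] at hzy
    rw [← mul_inv_cancel_left x y, map_mul, ← hκ.1 hzy, (hfk z).2 hz, mul_one]
  have hinj : Function.Injective κb := by
    intro a b hab
    obtain ⟨x, rfl⟩ := hf a
    obtain ⟨y, rfl⟩ := hf b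
    rw [hκb, hκb] at hab
    exact hμeq x y hab
  have hreal : (groupFusionSystem Pb).IsRealizedBy κb := by
    refine ⟨hinj, fun P' hP' φ' hφ' => ?_⟩
    set R := (P : Subgroup L) ⊓ P'.comap π
    have hRP : R ≤ (P : Subgroup L) := inf_le_left
    constructor
    · rintro ⟨-, -, gb, hg⟩
      obtain ⟨g, rfl⟩ := QuotientGroup.mk'_surjective _ gb
      have hmem : ∀ x : R, g * (x : L) * g⁻¹ ∈ (P : Subgroup L) := by
        intro x
        obtain ⟨y, hy, hyx⟩ := hφ' ⟨π x, x.2.2⟩
        rw [hg] at hyx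
        have hw : y⁻¹ * (g * (x : L) * g⁻¹) ∈ Subgroup.center L := by
          refine QuotientGroup.eq.1 ?_
          show π y = π (g * (x : L) * g⁻¹)
          rw [hyx, map_mul, map_mul, map_inv]
        set w := y⁻¹ * (g * (x : L) * g⁻¹)
        have hwp : IsPGroup p (Subgroup.zpowers w) := by
          obtain ⟨i, hi⟩ := P.isPGroup' ⟨y⁻¹, inv_mem hy⟩
          obtain ⟨j, hj⟩ := P.isPGroup' ⟨x, x.2.1⟩
          have hi' : y⁻¹ ^ p ^ i = 1 := congrArg Subtype.val hi
          have hj' : (x : L) ^ p ^ j = 1 := congrArg Subtype.val hj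
          have hcm : Commute y⁻¹ (g * (x : L) * g⁻¹) := by
            have h1 : Commute y⁻¹ w := (Subgroup.mem_center_iff.1 hw y⁻¹)
            have h2 : Commute y⁻¹ (y * w) := ((Commute.refl y).inv_left).mul_right h1
            rwa [mul_inv_cancel_left] at h2
          have hone : w ^ p ^ (i + j) = 1 := by
            show (y⁻¹ * (g * (x : L) * g⁻¹)) ^ p ^ (i + j) = 1
            rw [hcm.mul_pow, conj_pow, pow_add, pow_mul, hi', one_pow, mul_comm, pow_mul, hj', one_pow]
            group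
          intro u
          obtain ⟨k, hk⟩ := Subgroup.mem_zpowers_iff.1 u.2
          refine ⟨i + j, Subtype.ext ?_⟩
          show (u : L) ^ p ^ (i + j) = 1
          rw [← hk, ← zpow_natCast, ← zpow_mul, mul_comm, zpow_mul, zpow_natCast, hone, one_zpow]
        have hn : (Subgroup.zpowers w).Normal := ⟨fun u hu l => by
          have hu' : u ∈ Subgroup.center L := Subgroup.zpowers_le.2 hw hu
          rw [Subgroup.mem_center_iff.1 hu' l, mul_inv_cancel_right]; exact hu⟩
        have hwP : w ∈ (P : Subgroup L) :=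
          Lib.Hall.pCore_le_sylow P (Lib.Hall.le_pCore (N := Subgroup.zpowers w) hwp (Subgroup.mem_zpowers w))
        have h3 := mul_mem hy hwP
        rwa [mul_inv_cancel_left] at h3
      have hφ : conjHom R g ∈ (groupFusionSystem (P : Subgroup L)).Hom R := ⟨hRP, hmem, g, fun x => rfl⟩
      obtain ⟨m, hm⟩ := (hκ.2 R hRP _ (val_mem hφ)).1 hφ
      refine ⟨μ m, fun xb => ?_⟩
      obtain ⟨x, hx⟩ := hf ⟨xb, hP' xb.2⟩
      have hx' : π (x : L) = xb := congrArg Subtype.val hx
      have hxR : (x : L) ∈ R := ⟨x.2, show π (x : L) ∈ P' from hx'.symm ▸ xb.2⟩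
      have h1 := hm ⟨x, hxR⟩
      have h2 : (⟨φ' xb, hφ' xb⟩ : Pb) = f ⟨g * (x : L) * g⁻¹, hmem ⟨x, hxR⟩⟩ := Subtype.ext (by
        show φ' xb = π (g * (x : L) * g⁻¹)
        rw [hg xb, ← hx']
        show π g * π (x : L) * (π g)⁻¹ = π (g * (x : L) * g⁻¹)
        rw [map_mul, map_mul, map_inv])
      rw [h2, hκb, ← hx, hκb, ← map_inv, ← map_mul, ← map_mul]
      exact congrArg μ h1
    · rintro ⟨mb, hm⟩
      obtain ⟨m, rfl⟩ := QuotientGroup.mk'_surjective _ mb
      obtain ⟨Q', hQ', e, he, heq⟩ := exists_iso_conjDom hκ m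
      have hRD : R ≤ conjDom κ m := by
        intro x hx
        refine (mem_conjDom (x := ⟨x, hRP hx⟩)).2 ?_
        obtain ⟨y, hy⟩ := hf ⟨φ' ⟨π x, hx.2⟩, hφ' _⟩
        have h1 := hm ⟨π x, hx.2⟩
        rw [← hy, show (⟨π x, hP' hx.2⟩ : Pb) = f ⟨x, hRP hx⟩ from rfl, hκb, hκb, ← map_inv, ← map_mul, ← map_mul] at h1
        have h2 : (κ y)⁻¹ * (m * κ ⟨x, hRP hx⟩ * m⁻¹) ∈ Zm := QuotientGroup.eq.1 h1
        obtain ⟨z, hz, hzy⟩ := h2
        exact ⟨y * z, by rw [map_mul, hzy, mul_inv_cancel_left]⟩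
      obtain ⟨-, -, g, hg⟩ := he
      refine ⟨hP', hφ', π g, fun xb => ?_⟩
      obtain ⟨x, hx⟩ := hf ⟨xb, hP' xb.2⟩
      have hx' : π (x : L) = xb := congrArg Subtype.val hx
      have hxR : (x : L) ∈ R := ⟨x.2, show π (x : L) ∈ P' from hx'.symm ▸ xb.2⟩
      have h1 := hm xb
      rw [← hx, hκb, ← map_inv, ← map_mul, ← map_mul] at h1
      obtain ⟨y, hy⟩ := hf ⟨φ' xb, hφ' _⟩
      rw [← hy, hκb] at h1
      have h3 : f y = f ⟨(e ⟨x, hRD hxR⟩ : L), hQ' (e ⟨x, hRD hxR⟩).2⟩ := hμeq _ _ (by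
        rw [h1, heq])
      have h4 : φ' xb = π (e ⟨x, hRD hxR⟩ : L) := by
        have := congrArg Subtype.val (hy.symm.trans h3)
        exact this
      have h5 : (e ⟨x, hRD hxR⟩ : L) = g * (x : L) * g⁻¹ := hg ⟨x, hRD hxR⟩
      rw [h4, h5, map_mul, map_mul, map_inv, hx']
  refine S5103.result p (P.isPGroup'.map π) _ κb ⟨inferInstance, hreal,
    ⟨T.mapSurjective (f := μ) (QuotientGroup.mk'_surjective Zm), ?_⟩, ?_⟩
  · rw [Sylow.coe_mapSurjective, hT]
    ext y
    constructor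
    · rintro ⟨_, ⟨x, rfl⟩, rfl⟩; exact ⟨f x, hκb x⟩
    · rintro ⟨xb, rfl⟩
      obtain ⟨x, rfl⟩ := hf xb
      exact ⟨κ x, ⟨x, rfl⟩, (hκb x).symm⟩
  · intro cb hcb
    obtain ⟨c, rfl⟩ := QuotientGroup.mk'_surjective _ cb
    set N := (pCore p M).map μ
    have hNn : N.Normal := (Lib.Hall.pCore_normal p).map μ (QuotientGroup.mk'_surjective Zm)
    have hNle : N ≤ pCore p (M ⧸ Zm) := Lib.Hall.le_pCore (N := N) ((Lib.Hall.isPGroup_pCore p).map μ)
    set C := (Subgroup.centralizer (N : Set (M ⧸ Zm))).comap μ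
    have hCn : C.Normal := inferInstance
    have hcC : c ∈ C := Subgroup.mem_centralizer_iff.2 fun y hy => Subgroup.mem_centralizer_iff.1 hcb y (hNle hy)
    have hCp : IsPGroup p C := by
      rintro ⟨a, ha⟩
      obtain ⟨n, hn⟩ := IsPGroup.iff_card.1 ((P.isPGroup'.to_subgroup Zs).map κ)
      have hb : a ^ p ^ n ∈ Subgroup.centralizer ((pCore p M : Subgroup M) : Set M) := by
        refine Subgroup.mem_centralizer_iff.2 fun y hy => ?_
        have h1 : μ y * μ a = μ a * μ y := Subgroup.mem_centralizer_iff.1 ha _ ⟨y, hy, rfl⟩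
        rw [← map_mul, ← map_mul] at h1
        obtain ⟨z, hz, hzy⟩ : (y * a)⁻¹ * (a * y) ∈ Zm := QuotientGroup.eq.1 h1
        have hzc : ∀ m : M, m * κ z = κ z * m := fun m => mul_inv_eq_iff_eq_mul.1 (hcenM z hz m)
        have hay : a * y = y * a * κ z := by rw [hzy]; group
        have hpow : ∀ i : ℕ, a ^ i * y = y * a ^ i * κ z ^ i := by
          intro i
          induction i with
          | zero => simp
          | succ i ih =>
            calc a ^ (i + 1) * y = a * (a ^ i * y) := by rw [pow_succ', mul_assoc]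
              _ = (a * y) * a ^ i * κ z ^ i := by rw [ih]; simp only [mul_assoc]
              _ = y * (a * (κ z * a ^ i)) * κ z ^ i := by rw [hay]; simp only [mul_assoc]
              _ = y * a ^ (i + 1) * κ z ^ (i + 1) := by
                rw [← hzc, pow_succ', pow_succ']; simp only [mul_assoc]
        have hz1 : (⟨κ z, z, hz, rfl⟩ : (Zs.map κ : Subgroup M)) ^ p ^ n = 1 := by rw [← hn]; exact pow_card_eq_one'
        have := hpow (p ^ n)
        rw [show κ z ^ p ^ n = 1 from congrArg Subtype.val hz1, mul_one] at this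
        exact this.symm
      obtain ⟨i, hi⟩ := (Lib.Hall.isPGroup_pCore (G := M) p) ⟨_, hC hb⟩
      refine ⟨n + i, Subtype.ext ?_⟩
      show a ^ p ^ (n + i) = 1
      rw [pow_add, pow_mul]
      exact congrArg Subtype.val hi
    exact hNle ⟨c, Lib.Hall.le_pCore (N := C) hCp hcC, rfl⟩


/-- Let G be a finite group with Sylow 2-subgroup S whose 2-fusion system on S is constrained, and L a component of G (a subnormal quasisimple subgroup). Then the 2-fusion system of L/Z(L) on the image of S ∩ L is constrained. -/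
theorem result {G : Type*} [Group G] [Finite G] (S : Sylow 2 G) (hF : (Cfsg.groupFusionSystem (S : Subgroup G)).IsConstrained 2) (L : Subgroup G) (hL : Cfsg.IsComponent L) : (Cfsg.groupFusionSystem (((S : Subgroup G).subgroupOf L).map (QuotientGroup.mk' (Subgroup.center L)))).IsConstrained 2 := by
  obtain ⟨P, hP, hc⟩ := group_constrained_subnormal S hF hL.1
  rw [← hP]
  exact quotient_center_constrained P hc

end Cfsg.Agent.S5147
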