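import Cfsg.Statements.S5154
import Cfsg.Agent.Lib.Fusion.IsoTransport

set_option autoImplicit false
open Cfsg

namespace Cfsg.Agent.S5154

open Cfsg.FusionSystem Cfsg.Agent.Lib.Fusion


/-- Let F be a saturated fusion system over a finite p-group S, C a component of F over T, and γ a map of F with source T. Then the image of C under γ — the fusion system over γ(T) whose maps are the homomorphisms induced along γ by the maps of C — is again a component of F. -/
theorem result {Ω : Type*} [Group Ω] {S : Subgroup Ω} [Finite S] (p : ℕ) [Fact p.Prime] (hS : IsPGroup p S) (F : Cfsg.FusionSystem S) (hF : F.IsSaturated p) {T : Subgroup Ω} (C : Cfsg.FusionSystem T) (hC : C.IsComponentIn F p) (γ : T →* Ω) (hγ : γ ∈ F.Hom T) (E : Cfsg.FusionSystem γ.range) (hE : C.IsFactorSystem ⊥ γ E) : E.IsComponentIn F p := by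
  have hinj : Function.Injective γ := F.injective_of_mem hγ
  let eT : T ≃* γ.range := MonoidHom.ofInjective hinj
  refine component_image hS hF hC hγ eT (fun x => rfl) ⟨fun P φ hφ P' φ' hP' hc => ?_, fun P' φ' hφ' P φ hP hc => ?_⟩
  · have hle : preimageAlong γ P' ≤ P := by
      intro z hz
      obtain ⟨hzT, hzP⟩ := mem_preimageAlong.1 hz
      obtain ⟨x, s, hx, h1, -, -⟩ := hc ⟨_, hzP⟩
      have : x = ⟨z, hzT⟩ := hinj h1
      subst this
      exact hx
    refine (hE.2.2.2 P' φ').2 ⟨hP', _, restrict_mem hle hφ, preimageAlong_le γ P', fun x => val_mem hφ _,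
      fun x => map_mem_of_preimage x, fun x => ?_⟩
    obtain ⟨y, s, hy, h1, h2, h3⟩ := hc ⟨_, map_mem_of_preimage x⟩
    have hyx : y = ⟨(x : Ω), preimageAlong_le γ P' x.2⟩ := hinj h1
    subst hyx
    rw [h3]
    exact congrArg γ (Subtype.ext h2)
  · obtain ⟨hP', φ₀, hφ₀, b₁, b₂, b₃, hbe⟩ := (hE.2.2.2 P' φ').1 hφ'
    have hkey : ∀ x : P, ∃ h : (x : Ω) ∈ preimageAlong γ P', φ x = φ₀ ⟨x, h⟩ := by
      intro x
      obtain ⟨y, s, hy, h1, h2, h3⟩ := hc x
      have hyx : γ ⟨(x : Ω), hP x.2⟩ = y := by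
        have h := congrArg (fun z : γ.range => (z : Ω)) ((congrArg eT (Subtype.ext h1.symm : (⟨(x : Ω), hP x.2⟩ : T) = eT.symm y)).trans (eT.apply_symm_apply y))
        exact h
      have hmem : (x : Ω) ∈ preimageAlong γ P' := mem_preimageAlong.2 ⟨hP x.2, hyx ▸ hy⟩
      refine ⟨hmem, ?_⟩
      have h4 := hbe ⟨x, hmem⟩
      rw [h3]
      refine congrArg (fun t : T => (t : Ω)) (a₁ := eT.symm s) (a₂ := ⟨φ₀ ⟨x, hmem⟩, b₂ _⟩) (eT.injective (Subtype.ext ?_))
      rw [MulEquiv.apply_symm_apply, h2]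
      refine Eq.trans ?_ h4
      exact congrArg φ' (Subtype.ext hyx.symm)
    exact mem_of_agree (fun x hx => (hkey ⟨x, hx⟩).1) hφ₀ fun x => (hkey x).2

end Cfsg.Agent.S5154
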