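import Cfsg.Statements.S5155
import Cfsg.Agent.Lib.Fusion.CentralizerSub

set_option autoImplicit false
open Cfsg Cfsg.FusionSystem Cfsg.Agent.Lib.Fusion
open scoped commutatorElement

namespace Cfsg.Agent.S5155

/-- Let F be a saturated fusion system over a finite p-group S, E a normal subsystem over T, and Y the largest subgroup of C_S(T) such that E is a subsystem of the centralizer system of Y (every map of E extends to a map of F fixing Y elementwise). Then there is a normal subsystem of F over Y that is a subsystem of the centralizer system of T. -/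
theorem result {Ω : Type*} [Group Ω] {S : Subgroup Ω} [Finite S] (p : ℕ) [Fact p.Prime] (hS : IsPGroup p S) (F : Cfsg.FusionSystem S) (hF : F.IsSaturated p) {T : Subgroup Ω} (E : Cfsg.FusionSystem T) (hE : E.IsNormalIn F p) (Y : Subgroup Ω) (hY : Y ≤ Cfsg.FusionSystem.centralizerIn S T) (hEY : ∀ P : Subgroup Ω, E.Hom P ⊆ F.centralizerHom Y P) (hmax : ∀ Y' : Subgroup Ω, Y' ≤ Cfsg.FusionSystem.centralizerIn S T → (∀ P : Subgroup Ω, E.Hom P ⊆ F.centralizerHom Y' P) → Y' ≤ Y) : ∃ D : Cfsg.FusionSystem Y, D.IsNormalIn F p ∧ ∀ P : Subgroup Ω, D.Hom P ⊆ F.centralizerHom T P := by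
  let X := sSup {X : Subgroup Ω | X ≤ Cfsg.FusionSystem.centralizerIn S T ∧
    ∀ P : Subgroup Ω, E.Hom P ⊆ F.centralizerHom X P}
  have hX : X = Y := le_antisymm
    (hmax X (sSup_le fun Z hZ => hZ.1) (Cfsg.Agent.Lib.Fusion.CentralizerOfNormal.sSup_centralized hS hE))
    (le_sSup (α := Subgroup Ω) ⟨hY, hEY⟩)
  have h : Cfsg.Agent.Lib.Fusion.CentralizerSub.Base F T Y p :=
    ⟨hS, hF, hE.1.2.2.2.1,
      hX ▸ Cfsg.Agent.Lib.Fusion.CentralizerOfNormal.stronglyClosed_centralized hS hE, hY⟩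
  have hC := Cfsg.Agent.Lib.Fusion.centralizerIn_le S T
  have : Finite (Cfsg.FusionSystem.centralizerIn S T) := Cfsg.Agent.Lib.Fusion.finite_of_le hC
  have hhyp : (Cfsg.Agent.Lib.Fusion.CentralizerSub.cent F h.hT.1).hyperfocalSubgroup p ≤ Y :=
    (Cfsg.Agent.Lib.Fusion.hyperfocal_le_focal.trans
      (Cfsg.Agent.Lib.Fusion.CentralizerOfNormal.focal_centralized hS hE
        (fun P => Cfsg.Agent.Lib.Fusion.CentralizerSub.cent_hom h.hT.1 P))).trans hX.le
  obtain ⟨D, hD, hDi⟩ := Cfsg.Agent.Lib.Fusion.PPowerIndex.exists_sys (hS.to_le hC)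
    h.cent_saturated Y hY hhyp
  exact ⟨D, h.isNormalIn hhyp hD hDi, fun P =>
    Cfsg.Agent.Lib.Fusion.CentralizerSub.cent_hom h.hT.1 P ▸ hDi.1 P⟩

end Cfsg.Agent.S5155
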