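import Cfsg.Statements.S5198
import Cfsg.Agent.Lib.Fusion.PPart
import Cfsg.Agent.Lib.Fusion.Factor

set_option autoImplicit false
open Cfsg Cfsg.FusionSystem Cfsg.Agent.Lib.Fusion
open scoped commutatorElement

namespace Cfsg.Agent.S5198

/-- Let F be a saturated fusion system over a finite p-group S and T a subgroup of S strongly closed in F (so T is normal in S). Then every element x of the hyperfocal subgroup of F acts on T by conjugation as an element of O^p(Aut_F(T))·Inn(T): there is an automorphism of T in the subgroup generated by the elements of Aut_F(T) of order prime to p together with the inner automorphisms of T that agrees with conjugation by x. -/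
theorem result {Ω : Type*} [Group Ω] {S : Subgroup Ω} [Finite S] (p : ℕ) [Fact p.Prime] (hS : IsPGroup p S) (F : Cfsg.FusionSystem S) (hF : F.IsSaturated p) (T : Subgroup Ω) (hT : F.StronglyClosed T) : ∀ x ∈ F.hyperfocalSubgroup p, ∃ α ∈ ((Cfsg.pResidual p ↥(F.autGroup T)).map (F.autGroup T).subtype ⊔ Cfsg.Inn ↥T : Subgroup (MulAut ↥T)), ∀ t : ↥T, ((α t : ↥T) : Ω) = x * (t : Ω) * x⁻¹ := by
  have hTn := le_normalizer_of_stronglyClosed hT
  have := finite_mulAut hT.1
  have : Finite T := finite_of_le hT.1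
  set A := F.autGroup T
  set K := ((Cfsg.pResidual p A).map A.subtype ⊔ Cfsg.Inn T : Subgroup (MulAut T))
  have hn : (Cfsg.pResidual p A).Normal := Cfsg.Agent.Lib.Transfer.pResidual_normal
  have hK : ∀ a ∈ A, ∀ k ∈ (Cfsg.pResidual p A).map A.subtype,
      a * k * a⁻¹ ∈ (Cfsg.pResidual p A).map A.subtype := by
    rintro a ha _ ⟨k, hk, rfl⟩
    exact ⟨⟨a, ha⟩ * k * ⟨a, ha⟩⁻¹, hn.conj_mem k hk ⟨a, ha⟩, rfl⟩
  let Good : Subgroup Ω :=
    { carrier := {g | ∃ h : g ∈ S, conjAut T (hTn h) ∈ K}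
      one_mem' := ⟨S.one_mem, by convert K.one_mem; ext; simp⟩
      mul_mem' := fun {a b} ha hb => ⟨S.mul_mem ha.1 hb.1, by
        convert K.mul_mem ha.2 hb.2 using 1; ext; simp [mul_assoc]⟩
      inv_mem' := fun {a} ha => ⟨S.inv_mem ha.1, by
        convert K.inv_mem ha.2 using 1
        apply eq_inv_of_mul_eq_one_left
        ext; simp [mul_assoc]⟩ }
  suffices H : F.hyperfocalSubgroup p ≤ Good by
    intro x hx
    obtain ⟨hxS, hxK⟩ := H hx
    exact ⟨_, hxK, fun t => conjAut_apply T (hTn hxS) t⟩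
  have hTG : T ≤ Good := fun t ht => ⟨hT.1 ht, le_sup_right (a := (Cfsg.pResidual p A).map A.subtype)
    ⟨⟨t, ht⟩, by ext; simp⟩⟩
  refine hyperfocal_le fun P hP α hα hord x => ?_
  obtain ⟨ψ, hψ, hψe⟩ := approxMod hS hF hT ((mem_autGroup hP).1 hα)
  have := finite_of_le (sup_le hP hT.1)
  have := finite_mulAut (sup_le hP hT.1)
  have hPn := hP.trans hTn
  have hψN : ∀ y, ψ y ∈ P ⊔ T := sup_map_le
    (fun y => by
      have h := (P ⊔ T).mul_mem (le_sup_left (b := T) (α y).2)
        ((P ⊔ T).inv_mem (le_sup_right (a := P) (hψe y)))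
      simpa using h)
    (fun y => le_sup_right (a := P)
      (map_mem_of_stronglyClosed hT hψ (Subgroup.inclusion le_sup_right y) y.2))
  obtain ⟨β', hβ', hβ'e⟩ := exists_aut_of_self_map hψ hψN
  obtain ⟨m, hm, hmα⟩ := exists_pPrime_exponent β' hord
  set β := β' ^ m
  have hβA : β ∈ F.autGroup (P ⊔ T) := pow_mem hβ' m
  have hβT : ∀ y : T, (β (Subgroup.inclusion le_sup_right y) : Ω) ∈ T := fun y =>
    map_mem_of_stronglyClosed hT ((mem_autGroup (sup_le hP hT.1)).1 hβA) _ y.2
  have hTinv : ∀ t : ↥(P ⊔ T), (t : Ω) ∈ T → (β' t : Ω) ∈ T := fun t ht =>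
    map_mem_of_stronglyClosed hT ((mem_autGroup (sup_le hP hT.1)).1 hβ') t ht
  have hpow : ∀ (n : ℕ) (y : P),
      ((β' ^ n) (Subgroup.inclusion le_sup_left y) : Ω)⁻¹ * ((α ^ n) y : Ω) ∈ T := by
    intro n
    induction n with
    | zero => intro y; simp
    | succ n ih =>
      intro y
      rw [pow_succ', pow_succ', MulAut.mul_apply, MulAut.mul_apply]
      set u := (β' ^ n) (Subgroup.inclusion le_sup_left y)
      set v := (α ^ n) y
      have h1 := hψe v
      simp only [MonoidHom.coe_comp, Function.comp_apply, Subgroup.coe_subtype,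
        MulEquiv.coe_toMonoidHom, ← hβ'e] at h1
      have h2 := hTinv (u⁻¹ * Subgroup.inclusion le_sup_left v) (ih y)
      rw [map_mul, map_inv, Subgroup.coe_mul, Subgroup.coe_inv] at h2
      have h3 := T.mul_mem h2 h1
      simpa [mul_assoc] using h3
  obtain ⟨a, ha⟩ := exists_restrict_aut (le_sup_right : T ≤ P ⊔ T) (β := β) hβT
  have haA : a ∈ A := (mem_autGroup hT.1).2 (mem_of_agree le_sup_right
    ((mem_autGroup (sup_le hP hT.1)).1 hβA) ha)
  have haK : a ∈ (Cfsg.pResidual p A).map A.subtype :=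
    ⟨⟨a, haA⟩, coprime_mem_pResidual (Nat.Coprime.coprime_dvd_left
      (orderOf_dvd_of_pow_eq_one (restrict_pow_eq le_sup_right ha (pow_orderOf_eq_one β))) hm), rfl⟩
  have hxS : (x : Ω) ∈ S := hP x.2
  set bx := β (Subgroup.inclusion le_sup_left x)
  have hbxS : (bx : Ω) ∈ S := (sup_le hP hT.1) bx.2
  have hmem : (x : Ω)⁻¹ * (bx : Ω) ∈ Good := by
    refine ⟨S.mul_mem (S.inv_mem hxS) hbxS, le_sup_left (b := Cfsg.Inn T) ?_⟩
    set c := conjAut T (hTn hxS)
    have hc : c ∈ A := autInducedBy_le_autGroup hT.1 (conjAut_mem_autInducedBy hxS _)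
    have hk := Subgroup.mul_mem _ (hK c⁻¹ (inv_mem hc) a haK) (Subgroup.inv_mem _ haK)
    convert hk using 1
    rw [inv_inv, eq_mul_inv_iff_mul_eq, mul_assoc c⁻¹, eq_inv_mul_iff_mul_eq]
    apply MulEquiv.ext
    intro t
    apply Subtype.ext
    simp only [MulAut.mul_apply, c, conjAut_apply]
    rw [ha t, ha (conjAut T (hTn hxS) t)]
    have h1 : Subgroup.inclusion (le_sup_right : T ≤ P ⊔ T) (conjAut T (hTn hxS) t) =
        Subgroup.inclusion le_sup_left x * Subgroup.inclusion le_sup_right t *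
          (Subgroup.inclusion le_sup_left x)⁻¹ := by ext; simp
    rw [show (⟨((conjAut T (hTn hxS) t : T) : Ω), le_sup_right (a := P) (conjAut T (hTn hxS) t).2⟩ :
      ↥(P ⊔ T)) = _ from h1, map_mul, map_mul, map_inv]
    simp [bx, mul_assoc]
    rfl
  have hαm : α ^ m = α := pow_eq_self_of_modEq hmα
  have hlast := hpow m x
  rw [hαm] at hlast
  have h5 := Good.mul_mem hmem (hTG hlast)
  simpa [bx, β, mul_assoc] using h5

end Cfsg.Agent.S5198
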