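import Cfsg.Statements.S5199
import Cfsg.Agent.Lib.Fusion.SmallExp

set_option autoImplicit false
open Cfsg Cfsg.FusionSystem Cfsg.Agent.Lib.Fusion
open scoped commutatorElement

namespace Cfsg.Agent.S5199

/-- Let F be a saturated fusion system over a finite p-group S, E a normal subsystem of F over T, and F₀ a normal subsystem of F over a subgroup U containing both T and the hyperfocal subgroup of F, such that F₀ has p-power index in F. Then E is a subsystem of F₀. -/
theorem result {Ω : Type*} [Group Ω] {S : Subgroup Ω} [Finite S] (p : ℕ) [Fact p.Prime] (hS : IsPGroup p S) (F : Cfsg.FusionSystem S) (hF : F.IsSaturated p) {T U : Subgroup Ω} (E : Cfsg.FusionSystem T) (hE : E.IsNormalIn F p) (F₀ : Cfsg.FusionSystem U) (hF₀ : F₀.IsNormalIn F p) (hU : T ⊔ F.hyperfocalSubgroup p ≤ U) (hidx : F₀.HasPPowerIndexIn F p) : E.IsSubsystemOf F₀ := by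
  obtain ⟨⟨hEsat, -, hEsub, hTc, -⟩, -⟩ := hE
  have hT : T ≤ S := hTc.1
  have hTU : T ≤ U := le_sup_left.trans hU
  have := finite_of_le hT
  let D : Cfsg.FusionSystem T :=
    { Hom := fun P => E.Hom P ∩ F₀.Hom P
      le_of_mem := fun h => E.le_of_mem h.1
      injective_of_mem := fun h => E.injective_of_mem h.1
      conj_mem := fun {P g} hP hg => ⟨E.conj_mem hP hg, F₀.conj_mem (hP.trans hTU) (hTU hg)⟩
      comp_mem := fun hφ hψ h => ⟨E.comp_mem hφ.1 hψ.1 h, F₀.comp_mem hφ.2 hψ.2 h⟩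
      inv_mem := fun {P φ} hφ => by
        obtain ⟨ψ, hψ, hψe⟩ := E.inv_mem hφ.1
        obtain ⟨ψ', hψ', hψ'e⟩ := F₀.inv_mem hφ.2
        refine ⟨ψ, ⟨hψ, mem_of_agree le_rfl hψ' ?_⟩, hψe⟩
        rintro ⟨_, x, rfl⟩
        exact (hψe x).trans (hψ'e x).symm }
  have hle : E ≤ D := by
    refine alperin (hS.to_le hT) hEsat D fun R hR => ?_
    obtain ⟨-, -, hn⟩ := centric_radical_of_top_or_essential (hS.to_le hT) hEsat hR
    refine autGroup_le_of_coprime (hS.to_le hT) hEsat hn _ (autInducedBy_le_autGroup hn.1)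
      fun α hα hcop => ?_
    have hαF : α ∈ F.autGroup R := autGroup_mono_of_subsystem hEsub R hα
    have h1 : α ∈ F₀.autGroup R := hidx.2.2 R (hn.1.trans hTU)
      ⟨⟨α, hαF⟩, coprime_mem_pResidual hcop, rfl⟩
    exact (mem_autGroup hn.1).2
      ⟨(mem_autGroup hn.1).1 hα, (mem_autGroup (hn.1.trans hTU)).1 h1⟩
  exact fun P φ hφ => (hle P hφ).2

end Cfsg.Agent.S5199
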