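import Cfsg.Statements.S5214
import Cfsg.Agent.Lib.FusionEssential.Flag
import Cfsg.Agent.Lib.SuzukiTwo.Structure

set_option autoImplicit false
open Cfsg

namespace Cfsg.Agent.S5214

/-- Let S be a Suzuki 2-group (a finite nonabelian 2-group with more than one involution admitting a cyclic group of automorphisms permuting its involutions regularly). Then S is normal in every saturated fusion system over S (such a group is resistant). -/
theorem result {Ω : Type*} [Group Ω] {S : Subgroup Ω} [Finite S] (hS : IsPGroup 2 S) (F : Cfsg.FusionSystem S) (hF : F.IsSaturated 2) (hsz : Cfsg.IsSuzukiTwoGroup ↥S) : F.IsNormal S := by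
  open Cfsg.FusionSystem Cfsg.Agent.Lib.Fusion Cfsg.Agent.Lib.FusionEssential Cfsg.Agent.Lib.SuzukiTwo in
  open scoped commutatorElement in
  have : Fact (Nat.Prime 2) := ⟨Nat.prime_two⟩
  refine isNormal_of_essential hS hF fun P hP => ?_
  rcases hP with rfl | hP
  · exact ⟨le_rfl, fun α _ x _ => (α x).2⟩
  exfalso
  have hlt := ne_top_of_essential hS hF hP
  have := finite_of_le hlt.le
  have := hsz.1
  obtain ⟨K₀, _, _, D⟩ := exists_data hsz
  have hne := hsz.2.2.1
  have hcent : centralizerIn S P ≤ P := hP.1.2 P (isConj_refl hlt.le)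
  have hinvol : ∀ x : P, x * x = 1 → (⟨x, hlt.le x.2⟩ : S) ∈ Cfsg.Agent.Lib.SuzukiTwo.Omega S := fun x hx =>
    D.mem_omega_iff.2 (Subtype.ext (by simpa using congrArg Subtype.val hx))
  -- the chain
  let K : Subgroup P := (Cfsg.Agent.Lib.SuzukiTwo.Omega S).comap (Subgroup.inclusion hlt.le)
  have hK : ∀ x : P, x ∈ K ↔ x * x = 1 := fun x => D.mem_omega_iff.trans
    ⟨fun h => Subtype.ext (by simpa using congrArg Subtype.val h),
      fun h => Subtype.ext (by simpa using congrArg Subtype.val h)⟩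
  let L : ℕ → Subgroup P := fun i => match i with
    | 0 => ⊥
    | 1 => K
    | _ => ⊤
  have hinv : ∀ α ∈ F.autGroup P, ∀ (i : ℕ) (x : P), x ∈ L i → α x ∈ L i := by
    intro α _ i x hx
    rcases i with _ | _ | i
    · rw [Subgroup.mem_bot.1 hx, map_one]; exact one_mem _
    · exact (hK _).2 (by rw [← map_mul, (hK x).1 hx, map_one])
    · exact Subgroup.mem_top _
  obtain ⟨g, hg, hgP⟩ := exists_normalizerIn_not_mem hS hlt
  have hα : conjAut P hg.2 ∈ F.autGroup P :=
    autInducedBy_le_autGroup hlt.le (conjAut_mem_autInducedBy hg.1 hg.2)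
  refine hgP (mem_of_induced_inn hcent hlt.le hg (mem_inn_of_radical (isRadical_of_essential hS hP)
    (chainStab_normal hinv) (isPGroup_chainStab hinv (hS.to_le hlt.le) (k := 2) rfl rfl)
    (α := ⟨conjAut P hg.2, hα⟩) ?_))
  intro i x hx
  -- the commutator with `g`
  have hc : (⁅(⟨g, hg.1⟩ : S), (⟨x, hlt.le x.2⟩ : S)⁆ : S) ∈ Cfsg.Agent.Lib.SuzukiTwo.Omega S := D.commutator_mem hne _ _
  rcases i with _ | _ | i
  · refine Subgroup.mem_bot.2 (Subtype.ext ?_)
    have h1 : (g : Ω) * (x : Ω) = (x : Ω) * g :=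
      congrArg Subtype.val (Subgroup.mem_center_iff.1 (hinvol x ((hK x).1 hx)).1 ⟨g, hg.1⟩)
    show (x : Ω)⁻¹ * ((conjAut P hg.2 x : P) : Ω) = 1
    rw [conjAut_apply, h1]
    group
  · show x⁻¹ * conjAut P hg.2 x ∈ K
    have h2 : Subgroup.inclusion hlt.le (x⁻¹ * conjAut P hg.2 x) =
        (⟨x, hlt.le x.2⟩ : S)⁻¹ * ⁅(⟨g, hg.1⟩ : S), (⟨x, hlt.le x.2⟩ : S)⁆ * ⟨x, hlt.le x.2⟩ := by
      apply Subtype.ext
      show (x : Ω)⁻¹ * ((conjAut P hg.2 x : P) : Ω) = (x : Ω)⁻¹ * (g * x * g⁻¹ * (x : Ω)⁻¹) * x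
      rw [conjAut_apply]
      group
    show Subgroup.inclusion hlt.le (x⁻¹ * conjAut P hg.2 x) ∈ Cfsg.Agent.Lib.SuzukiTwo.Omega S
    rw [h2, mul_assoc, ← Subgroup.mem_center_iff.1 hc.1, inv_mul_cancel_left]
    exact hc
  · exact Subgroup.mem_top _

end Cfsg.Agent.S5214
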