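import Cfsg.Statements.S5219
import Cfsg.Agent.Lib.Fusion.Agemo

set_option autoImplicit false
open Cfsg Cfsg.FusionSystem Cfsg.Agent.Lib.Fusion
open scoped commutatorElement

namespace Cfsg.Agent.S5219

/-- Let p be a prime, n a natural number, S a nontrivial finite p-group of nilpotence class at most n(p−1)+1, and F a saturated fusion system over S with no nontrivial normal subgroup (O_p(F) = 1). Then S has exponent dividing p^(n²(p−1)+n). -/
theorem result {Ω : Type*} [Group Ω] {S : Subgroup Ω} [Finite S] (p : ℕ) [Fact p.Prime] (hS : IsPGroup p S) (F : Cfsg.FusionSystem S) (hF : F.IsSaturated p) (n : ℕ) (hS1 : S ≠ ⊥) (hcl : Subgroup.lowerCentralSeries S (n * (p - 1) + 1) = ⊥) (hcore : F.core = ⊥) : Monoid.exponent ↥S ∣ p ^ (n ^ 2 * (p - 1) + n) := by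
  set c := n * (p - 1) + 1
  have hV := isNormal_agemo_center hS hF n hcl
  have hbot : powerClosure p n (centerIn S) = ⊥ := le_bot_iff.1 (hcore ▸ le_sSup hV)
  have hZ : ∀ x ∈ Subgroup.center S, x ^ p ^ n = 1 := fun x hx => by
    have h1 : (x : Ω) ^ p ^ n ∈ powerClosure p n (centerIn S) :=
      (mem_powerClosure_centerIn n).2 ⟨x, ⟨x.2, fun y hy =>
        congrArg Subtype.val (Subgroup.mem_center_iff.1 hx ⟨y, hy⟩)⟩, rfl⟩
    rw [hbot, Subgroup.mem_bot] at h1
    exact Subtype.ext (by simpa using h1)
  have hstep : ∀ i, ∀ x ∈ Subgroup.upperCentralSeries S (i + 1),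
      x ^ p ^ n ∈ Subgroup.upperCentralSeries S i := by
    intro i
    induction i with
    | zero =>
      intro x hx
      rw [Subgroup.upperCentralSeries_one] at hx
      rw [Subgroup.upperCentralSeries_zero, Subgroup.mem_bot]
      exact hZ x hx
    | succ i ih =>
      intro x hx
      rw [Subgroup.mem_upperCentralSeries_succ_iff]
      intro y
      let q := QuotientGroup.mk' (Subgroup.upperCentralSeries S i)
      have hcy : x * y * x⁻¹ * y⁻¹ ∈ Subgroup.upperCentralSeries S (i + 1) :=
        Subgroup.mem_upperCentralSeries_succ_iff.1 hx y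
      set u := x * y * x⁻¹ * y⁻¹
      have hcomm : q x * q u = q u * q x := by
        have h2 := Subgroup.mem_upperCentralSeries_succ_iff.1 hcy x
        rw [← QuotientGroup.eq_one_iff] at h2
        change q (u * x * u⁻¹ * x⁻¹) = 1 at h2
        rw [map_mul, map_mul, map_mul, map_inv, map_inv, mul_inv_eq_one, mul_inv_eq_iff_eq_mul] at h2
        exact h2.symm
      have hpow : ∀ k : ℕ, q x ^ k * q y * (q x ^ k)⁻¹ = q u ^ k * q y := by
        intro k
        induction k with
        | zero => simp
        | succ k ih' =>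
          have h1 : q x * q y * (q x)⁻¹ = q u * q y := by
            simp only [u, map_mul, map_inv, inv_mul_cancel_right]
          calc q x ^ (k + 1) * q y * (q x ^ (k + 1))⁻¹
              = q x * (q x ^ k * q y * (q x ^ k)⁻¹) * (q x)⁻¹ := by rw [pow_succ']; group
            _ = q x * q u ^ k * (q y * (q x)⁻¹) := by rw [ih']; group
            _ = q u ^ k * (q x * q y * (q x)⁻¹) := by
                rw [(show Commute (q x) (q u) from hcomm).pow_right k |>.eq]; group
            _ = q u ^ (k + 1) * q y := by rw [h1, pow_succ]; group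
      rw [← QuotientGroup.eq_one_iff]
      change q (x ^ p ^ n * y * (x ^ p ^ n)⁻¹ * y⁻¹) = 1
      rw [map_mul, map_mul, map_mul, map_inv, map_inv, map_pow, hpow, mul_inv_cancel_right,
        ← map_pow]
      exact (QuotientGroup.eq_one_iff _).2 (ih u hcy)
  have htop : Subgroup.upperCentralSeries S c = ⊤ := by
    have : Group.IsNilpotent S := hS.isNilpotent
    rw [← Subgroup.lowerCentralSeries_eq_bot_iff_upperCentralSeries_eq_top]
    rw [← lcs_subgroupOf, hcl, Subgroup.bot_subgroupOf]
  have hall : ∀ j, j ≤ c → ∀ x : S, x ^ p ^ (n * j) ∈ Subgroup.upperCentralSeries S (c - j) := by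
    intro j
    induction j with
    | zero => intro _ x; simp [htop]
    | succ j ih =>
      intro hj x
      have h1 := ih (by omega) x
      rw [show c - j = c - (j + 1) + 1 by omega] at h1
      rw [Nat.mul_succ, pow_add, pow_mul]
      exact hstep _ _ h1
  refine Monoid.exponent_dvd_of_forall_pow_eq_one fun x => ?_
  have h := hall c le_rfl x
  rw [Nat.sub_self, Subgroup.upperCentralSeries_zero, Subgroup.mem_bot] at h
  rwa [show n ^ 2 * (p - 1) + n = n * c by simp only [c]; ring]

end Cfsg.Agent.S5219
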