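import Cfsg.Statements.S5223
import Cfsg.Agent.Lib.Fusion.Focal

set_option autoImplicit false
open Cfsg Cfsg.FusionSystem Cfsg.Agent.Lib.Fusion
open scoped commutatorElement

namespace Cfsg.Agent.S5223

/-- Let F be a saturated fusion system over a finite p-group S. Suppose there are subgroups Q₀ = S, Q₁, …, Qₙ = 1 (not required to be nested) such that for each i < n the focal subgroup of Qᵢ (generated by the elements x⁻¹φ(x), x ∈ Qᵢ, φ a map of F defined on the cyclic group generated by x) lies in Qᵢ₊₁. Then F is the inner fusion system of S. -/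
theorem result {Ω : Type*} [Group Ω] {S : Subgroup Ω} [Finite S] (p : ℕ) [Fact p.Prime] (hS : IsPGroup p S) (F : Cfsg.FusionSystem S) (hF : F.IsSaturated p) (n : ℕ) (Q : Fin (n + 1) → Subgroup Ω) (hQ0 : Q 0 = S) (hQn : Q (Fin.last n) = ⊥) (hstep : ∀ i : Fin n, Subgroup.closure {y : Ω | ∃ x ∈ Q i.castSucc, ∃ φ ∈ F.Hom (Subgroup.zpowers x), y = x⁻¹ * φ ⟨x, Subgroup.mem_zpowers x⟩} ≤ Q i.succ) : ∀ P : Subgroup Ω, F.Hom P = (Cfsg.innerFusionSystem S).Hom P := by
  refine eq_inner_of_coprime_trivial hS hF fun R hR α hα hcop => ?_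
  have := finite_of_le hR
  have key : ∀ i : Fin (n + 1), ∀ x : R, (x : Ω) ∈ Q i → α x = x := by
    intro i
    induction i using Fin.reverseInduction with
    | last =>
      intro x hx
      rw [hQn, Subgroup.mem_bot] at hx
      rw [show x = 1 from Subtype.ext hx, map_one]
    | cast i ih =>
      intro x hx
      have hxR : Subgroup.zpowers (x : Ω) ≤ R := Subgroup.zpowers_le.2 x.2
      have ht : ((x⁻¹ * α x : R) : Ω) ∈ Q i.succ :=
        hstep i (Subgroup.subset_closure ⟨x, hx, _,
          restrict_mem hxR ((mem_autGroup hR).1 hα), rfl⟩)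
      have hfix := ih _ ht
      generalize hT : x⁻¹ * α x = t at hfix
      have hax : α x = x * t := by simp [← hT]
      have hpow : ∀ j : ℕ, (α ^ j) x = x * t ^ j := by
        intro j
        induction j with
        | zero => simp
        | succ j ihj =>
          rw [pow_succ', MulAut.mul_apply, ihj, map_mul, map_pow, hfix, hax, pow_succ', mul_assoc]
      have h1 := hpow (orderOf α)
      rw [pow_orderOf_eq_one, MulAut.one_apply] at h1
      rw [hax, eq_one_of_pGroup_coprime (hS.to_le hR t) (mul_eq_left.1 h1.symm) hcop, mul_one]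
  ext x
  exact congrArg Subtype.val (key 0 x (hQ0 ▸ hR x.2))

end Cfsg.Agent.S5223
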