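import Cfsg.Statements.S5226
import Cfsg.Agent.Lib.Fusion.Lcs

set_option autoImplicit false
open Cfsg Cfsg.FusionSystem Cfsg.Agent.Lib.Fusion
open scoped commutatorElement

namespace Cfsg.Agent.S5226

/-- Let F be a saturated fusion system over a finite p-group S and Q a subgroup of S. Then Q is normal in F (F equals the normalizer system of Q) if and only if Q is strongly closed in F and admits a central series 1 = Q₀ ≤ Q₁ ≤ ⋯ ≤ Qₙ = Q ([Qᵢ₊₁, Q] ≤ Qᵢ) all of whose proper terms are weakly closed in F. -/
theorem result {Ω : Type*} [Group Ω] {S : Subgroup Ω} [Finite S] (p : ℕ) [Fact p.Prime] (hS : IsPGroup p S) (F : Cfsg.FusionSystem S) (hF : F.IsSaturated p) (Q : Subgroup Ω) : F.IsNormal Q ↔ F.StronglyClosed Q ∧ ∃ (n : ℕ) (C : Fin (n + 1) → Subgroup Ω), C 0 = ⊥ ∧ C (Fin.last n) = Q ∧ Monotone C ∧ (∀ i : Fin n, ⁅C i.succ, Q⁆ ≤ C i.castSucc) ∧ ∀ i : Fin n, F.WeaklyClosed (C i.castSucc) := by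
  constructor
  · intro hQ
    refine ⟨stronglyClosed_of_isNormal hQ, ?_⟩
    obtain ⟨n, hn⟩ := exists_lcs_bot hS hQ.1
    refine ⟨n, fun i => Q.lowerCentralSeries (n - i), ?_, ?_, ?_, fun i => ?_, fun i => ?_⟩
    · simpa using hn
    · simp
    · intro i j hij
      exact Q.lowerCentralSeries_antitone (Nat.sub_le_sub_left hij n)
    · have h : n - (i.castSucc : ℕ) = n - (i.succ : ℕ) + 1 := by simp; omega
      show ⁅Q.lowerCentralSeries (n - (i.succ : ℕ)), Q⁆ ≤ Q.lowerCentralSeries (n - (i.castSucc : ℕ))
      rw [h, Subgroup.lowerCentralSeries_succ]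
    · have hN := isNormal_lcs hQ (n - (i.castSucc : ℕ))
      refine ⟨hN.1, fun φ hφ => ?_⟩
      have := finite_of_le hN.1
      refine eq_of_le_card (fun y ⟨x, hx⟩ => hx ▸ map_mem_of_normal hN hφ x x.2) ?_
      exact (Nat.card_congr (MonoidHom.ofInjective (F.injective_of_mem hφ)).toEquiv).le
  · rintro ⟨hQ, n, C, h0, hn, hmono, hcomm, hweak⟩
    refine isNormal_of_le_radical hS hF hQ fun P hc hr _ => ?_
    have hPS := hc.1
    have hnQ := le_normalizer_of_stronglyClosed hQ
    let C' : ℕ → Subgroup Ω := fun i => if hi : i ≤ n then C ⟨i, Nat.lt_succ_of_le hi⟩ else Q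
    have hC' : ∀ (i : ℕ) (hi : i ≤ n), C' i = C ⟨i, Nat.lt_succ_of_le hi⟩ := fun i hi => dif_pos hi
    have hC'n : C' n = Q := by rw [hC' n le_rfl]; exact hn
    have hC'0 : C' 0 = ⊥ := by rw [hC' 0 (Nat.zero_le n)]; exact h0
    have hC'le : ∀ i ≤ n, C' i ≤ Q := fun i hi => by
      rw [hC' i hi, ← hn]; exact hmono (Fin.le_last _)
    have key : ∀ i ≤ n, C' i ≤ P := by
      intro i hi
      induction i using Nat.strong_induction_on with
      | _ i ih =>
        rcases Nat.eq_zero_or_pos i with rfl | hpos
        · rw [hC'0]; exact bot_le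
        obtain ⟨k, rfl⟩ : ∃ k, i = k + 1 := ⟨i - 1, by omega⟩
        have hnorm : P ≤ Subgroup.normalizer (C' (k + 1) : Set Ω) := by
          rcases hi.eq_or_lt with h | h
          · rw [h, hC'n]; exact hPS.trans hnQ
          · have hw : F.WeaklyClosed (C' (k + 1)) := by
              rw [hC' _ hi]
              exact hweak ⟨k + 1, h⟩
            intro g hg
            have := finite_of_le hw.1
            refine mem_normalizer_of_conj_mem fun x hx => ?_
            have h1 := hw.2 _ (F.conj_mem hw.1 (hPS hg))
            rw [← h1]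
            exact ⟨⟨x, hx⟩, by simp [conjHom]⟩
        let D : ℕ → Subgroup Ω := fun j => if j ≤ k then C' j else Q
        refine le_of_subgroup_chain hS hc hr ((hC'le _ hi).trans hQ.1) hnorm (k + 1) D ?_ ?_ ?_ ?_
        · simpa [D] using hC'0
        · intro α hα j hj x hx
          by_cases hjk : j ≤ k
          · simp only [D, if_pos hjk] at hx ⊢
            rcases Nat.eq_zero_or_pos j with rfl | hjp
            · rw [hC'0, Subgroup.mem_bot] at hx ⊢
              rw [show x = 1 from Subtype.ext hx, map_one]; rfl
            have hw : F.WeaklyClosed (C' j) := by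
              rw [hC' _ (by omega)]
              exact hweak ⟨j, by omega⟩
            have hle : C' j ≤ P := ih j (by omega) (by omega)
            have hα' := (mem_autGroup hPS).1 hα
            have h1 := hw.2 _ (restrict_mem hle hα')
            rw [← h1]
            exact ⟨⟨x, hx⟩, rfl⟩
          · simp only [D, if_neg hjk] at hx ⊢
            exact map_mem_of_stronglyClosed hQ ((mem_autGroup hPS).1 hα) x hx
        · intro g hg x hx
          simp only [D, if_neg (show ¬ k + 1 ≤ k by omega)]
          exact commutator_mem_of_normalizes (hC'le _ hi hg) (hnQ (hPS hx))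
        · intro j hj g hg x hxP hx
          simp only [D, if_pos (show j ≤ k by omega)]
          by_cases hjk : j + 1 ≤ k
          · simp only [D, if_pos hjk] at hx
            rw [hC' j (by omega)]
            rw [hC' (j + 1) (by omega)] at hx
            refine (Subgroup.commutator_comm _ _).le.trans (hcomm ⟨j, by omega⟩)
              (Subgroup.commutator_mem_commutator (hC'le _ hi hg) hx)
          · obtain rfl : j = k := by omega
            simp only [D, if_neg hjk] at hx
            rw [hC' j (by omega)]
            rw [hC' (j + 1) hi] at hg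
            exact hcomm ⟨j, by omega⟩ (Subgroup.commutator_mem_commutator hg hx)
    rw [← hC'n]
    exact key n le_rfl

end Cfsg.Agent.S5226
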