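import Cfsg.Statements.S5233
import Cfsg.Agent.Lib.LocalP2.GenExtraClosed
import Cfsg.Agent.Lib.LocalP2.MetaOddFusion
-- import your own Cfsg.Agent.* helpers here

set_option autoImplicit false
open Cfsg

namespace Cfsg.Agent.S5233

/-- Let F be a saturated fusion system over a finite p-group S and P a subgroup of S strongly closed in F that is generalized extraspecial (its Frattini subgroup equals its commutator subgroup and has order p) and not isomorphic to E × A with A elementary abelian and E dihedral of order 8 (p = 2) or extraspecial of order p³ and exponent p (p odd). Then P is normal in F. -/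
theorem result {Ω : Type*} [Group Ω] {S : Subgroup Ω} [Finite S] (p : ℕ) [Fact p.Prime] (hS : IsPGroup p S) (F : Cfsg.FusionSystem S) (hF : F.IsSaturated p) (P : Subgroup Ω) (hP : F.StronglyClosed P) (hge : frattini ↥P = commutator ↥P ∧ Nat.card ↥(commutator ↥P) = p) (h2 : p = 2 → ¬ ∃ (A : Type) (_ : CommGroup A), (∀ a : A, a ^ 2 = 1) ∧ Nonempty (↥P ≃* DihedralGroup 4 × A)) (hodd : p ≠ 2 → ¬ ∃ (E : Type) (_ : Group E) (A : Type) (_ : CommGroup A), Cfsg.IsExtraspecial p E ∧ Nat.card E = p ^ 3 ∧ Monoid.exponent E = p ∧ (∀ a : A, a ^ p = 1) ∧ Nonempty (↥P ≃* E × A)) : F.IsNormal P := by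
  classical
  by_contra hnn
  have := Cfsg.Agent.Lib.Fusion.finite_of_le hP.1
  have hPp : IsPGroup p ↥P := hS.to_le hP.1
  obtain ⟨hfr, hcard⟩ := hge
  obtain ⟨⟨d, hdc⟩, hdo⟩ := exists_prime_orderOf_dvd_card' (G := ↥(commutator ↥P)) p (hcard ▸ dvd_refl p)
  rw [← Subgroup.orderOf_coe] at hdo
  change orderOf d = p at hdo
  have hz : Subgroup.zpowers d = commutator ↥P :=
    Subgroup.eq_of_le_of_card_ge (Subgroup.zpowers_le.2 hdc) (by rw [Nat.card_zpowers, hdo, hcard])
  have hmem : ∀ u : ↥P, u ∈ commutator ↥P → (u : Ω) ∈ Subgroup.zpowers (d : Ω) := fun u hu => by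
    rw [← hz] at hu
    obtain ⟨k, hk⟩ := Subgroup.mem_zpowers_iff.1 hu
    exact Subgroup.mem_zpowers_iff.2 ⟨k, by simp [← hk]⟩
  have hPn := Cfsg.Agent.Lib.Fusion.le_normalizer_of_stronglyClosed hP
  have hdS : ∀ s ∈ S, Commute s (d : Ω) := by
    let D : Subgroup Ω := (commutator ↥P).map P.subtype
    have hDS : D ≤ S := (Subgroup.map_subtype_le _).trans hP.1
    have : Finite D := Cfsg.Agent.Lib.Fusion.finite_of_le hDS
    have hn : S ≤ Subgroup.normalizer (D : Set Ω) := fun s hs =>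
      Cfsg.Agent.Lib.Fusion.mem_normalizer_of_conj_mem fun x hx => by
        obtain ⟨u, hu, rfl⟩ := hx
        exact ⟨_, (Subgroup.characteristic_iff_map_le.1 (inferInstance : (commutator ↥P).Characteristic)
          (Cfsg.Agent.Lib.Fusion.conjAut P (hPn hs))) ⟨u, hu, rfl⟩, rfl⟩
    have hne : D ≠ ⊥ := fun h => (Fact.out : p.Prime).one_lt.ne (by
      rw [← hcard, ← Subgroup.card_map_of_injective (K := commutator ↥P) P.subtype_injective]
      rw [show (commutator ↥P).map P.subtype = ⊥ from h, Subgroup.card_bot])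
    obtain ⟨l, hl, hl1, hlp, hlc⟩ := Cfsg.Agent.Lib.LocalP2.MetaOdd.exists_central hS hDS hn hne
    obtain ⟨⟨u, huP⟩, hu, rfl⟩ := hl
    obtain ⟨k, hk⟩ := Cfsg.Agent.Lib.LocalP2.MetaOdd.exists_pow_eq (p := p)
      (a := (⟨u, huP⟩ : ↥P)) (b := d) (hz.ge hu) (by rw [← hdo, pow_orderOf_eq_one])
      (fun h => hl1 (congrArg Subtype.val h))
    intro s hs
    have h2 : Commute s u := hlc s hs
    rw [← hk, SubmonoidClass.coe_pow]
    exact h2.pow_right k
  obtain ⟨T, hexp⟩ := Cfsg.Agent.Lib.LocalP2.GenExtra.shape_of_not_normal hS hF hP hnn d.2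
    ((Subgroup.orderOf_coe d).trans hdo) hdS
    (fun x hx y hy => by
      have h := hmem _ (Subgroup.commutator_mem_commutator (Subgroup.mem_top (⟨x, hx⟩ : ↥P))
        (Subgroup.mem_top ⟨y, hy⟩))
      simpa [commutatorElement_def] using h)
    (fun x hx => hmem (⟨x, hx⟩ ^ p)
      (hfr.le (Cfsg.Agent.Lib.PGroupFrattini.pow_mem_frattini hPp _)))
  by_cases hp2 : p = 2
  · subst hp2
    exact h2 rfl (Cfsg.Agent.Lib.LocalP2.GenExtra.shape_two T)
  · exact hodd hp2 (Cfsg.Agent.Lib.LocalP2.GenExtra.shape_odd T hPp (hexp hp2))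

end Cfsg.Agent.S5233
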