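import Cfsg.Statements.S5234
import Cfsg.Agent.Lib.LocalP2.MetaOddFusion
-- import your own Cfsg.Agent.* helpers here

set_option autoImplicit false
open Cfsg

namespace Cfsg.Agent.S5234

/-- Let p be an odd prime, F a saturated fusion system over a finite p-group S and P a metacyclic subgroup of S strongly closed in F. Then P is normal in F. -/
theorem result {Ω : Type*} [Group Ω] {S : Subgroup Ω} [Finite S] (p : ℕ) [Fact p.Prime] (hS : IsPGroup p S) (F : Cfsg.FusionSystem S) (hF : F.IsSaturated p) (P : Subgroup Ω) (hP : F.StronglyClosed P) (hp : p ≠ 2) (hm : Cfsg.IsMetacyclic ↥P) : F.IsNormal P := by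
  exact Cfsg.Agent.Lib.LocalP2.MetaOdd.isNormal_of_metacyclic_odd hS hF hP hp hm

end Cfsg.Agent.S5234
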