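import Cfsg.Statements.S5236
import Cfsg.Agent.Lib.Fusion.SmallExpGroup
import Cfsg.Agent.Lib.Fusion.Chain
import Cfsg.Agent.Lib.Fusion.SmallExp

set_option autoImplicit false
open Cfsg Cfsg.FusionSystem Cfsg.Agent.Lib.Fusion
open scoped commutatorElement

namespace Cfsg.Agent.S5236

/-- Let p be an odd prime, F a saturated fusion system over a finite p-group S and P a subgroup of S strongly closed in F. Then P is normal in F if and only if Ω₁(P) (the subgroup generated by the elements of order p of P) has a chain of subgroups 1 = Q₀ ≤ Q₁ ≤ ⋯ ≤ Qₙ = Ω₁(P), each strongly closed in F, with [Qᵢ₊₁, P] ≤ Qᵢ for all i. -/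
theorem result {Ω : Type*} [Group Ω] {S : Subgroup Ω} [Finite S] (p : ℕ) [Fact p.Prime] (hS : IsPGroup p S) (F : Cfsg.FusionSystem S) (hF : F.IsSaturated p) (hp : p ≠ 2) (P : Subgroup Ω) (hP : F.StronglyClosed P) : F.IsNormal P ↔ ∃ (n : ℕ) (Q : Fin (n + 1) → Subgroup Ω), Q 0 = ⊥ ∧ Q (Fin.last n) = Cfsg.omegaOne p P ∧ Monotone Q ∧ (∀ i : Fin (n + 1), F.StronglyClosed (Q i)) ∧ ∀ i : Fin n, ⁅Q i.succ, P⁆ ≤ Q i.castSucc := by
  classical
  have hPS : P ≤ S := hP.1
  have := finite_of_le hPS
  constructor
  · intro hn
    have := (hS.to_le hPS).isNilpotent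
    obtain ⟨n, hn'⟩ := Group.IsNilpotent.nilpotent (G := P)
    set Om : Subgroup P := Subgroup.closure {x : P | x ^ p = 1} with hOm
    have hOmc : Om.Characteristic := Subgroup.characteristic_iff_map_le.2 fun e => by
      rw [hOm, MonoidHom.map_closure]
      refine Subgroup.closure_mono ?_
      rintro _ ⟨x, hx, rfl⟩
      show (e x) ^ p = 1
      rw [← map_pow, hx, map_one]
    have hOmap : Om.map P.subtype = Cfsg.omegaOne p P := by
      rw [hOm, MonoidHom.map_closure]
      refine congrArg Subgroup.closure (Set.ext fun y => ⟨?_, fun hy => ⟨⟨y, hy.1⟩, Subtype.ext hy.2, rfl⟩⟩)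
      rintro ⟨x, hx, rfl⟩
      exact ⟨x.2, congrArg Subtype.val hx⟩
    set L : ℕ → Subgroup P := fun i => Om ⊓ Subgroup.upperCentralSeries P i with hL
    have hLc : ∀ i, (L i).Characteristic := fun i => Subgroup.characteristic_iff_map_le.2 fun e => by
      rintro _ ⟨x, hx, rfl⟩
      exact ⟨(Subgroup.characteristic_iff_map_le.1 hOmc e) ⟨x, hx.1, rfl⟩, by
        have := Subgroup.characteristic_iff_map_le.1
          (inferInstance : (Subgroup.upperCentralSeries P i).Characteristic) e ⟨x, hx.2, rfl⟩
        exact this⟩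
    refine ⟨n, fun i => (L i).map P.subtype, ?_, ?_, fun i j hij => ?_, fun i => ?_, fun i => ?_⟩
    · simp [hL, Subgroup.upperCentralSeries_zero]
    · rw [← hOmap]
      simp [hL, hn']
    · exact Subgroup.map_mono (inf_le_inf_left _ (Subgroup.upperCentralSeries_mono P hij))
    · refine stronglyClosed_of_isNormal (isNormal_of_characteristic hn (Subgroup.map_subtype_le _) ?_)
      have h1 : ((L i).map P.subtype).subgroupOf P = L i :=
        Subgroup.comap_map_eq_self_of_injective P.subtype_injective _
      rw [h1]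
      exact hLc i
    · refine Subgroup.commutator_le.2 ?_
      rintro _ ⟨a, ha, rfl⟩ b hb
      refine ⟨⁅a, (⟨b, hb⟩ : P)⁆, ⟨?_, ?_⟩, map_commutatorElement P.subtype a ⟨b, hb⟩⟩
      · have hn : Om.Normal := inferInstance
        rw [commutatorElement_def, mul_assoc, mul_assoc]
        exact Om.mul_mem ha.1 (by simpa [mul_assoc] using hn.conj_mem _ (Om.inv_mem ha.1) ⟨b, hb⟩)
      · exact Subgroup.mem_upperCentralSeries_succ_iff.1 ha.2 _
  · rintro ⟨n, Q, hQ0, hQn, -, hQc, hQstep⟩
    refine isNormal_of_le_radical hS hF hP fun R hc hr _ => ?_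
    have hRS := hc.1
    have := finite_of_le hRS
    have := finite_mulAut hRS
    have hPn := le_normalizer_of_stronglyClosed hP
    refine le_of_centric_radical_aux hS hRS hPS (hRS.trans hPn) fun g hg hgN => ?_
    let M : Submonoid (F.autGroup R) :=
      { carrier := {a | (∀ i : Fin n, ∀ x : R, (x : Ω) ∈ Q i.succ →
            ((x⁻¹ * (a : MulAut R) x : R) : Ω) ∈ Q i.castSucc) ∧
          ∀ x : R, ((x⁻¹ * (a : MulAut R) x : R) : Ω) ∈ P}
        one_mem' := ⟨fun i x _ => by simp, fun x => by simp⟩
        mul_mem' := by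
          rintro a b ⟨ha, ha'⟩ ⟨hb, hb'⟩
          refine ⟨fun i x hx => ?_, fun x => ?_⟩
          · have h1 := hb i x hx
            have h2 := map_mem_of_stronglyClosed (hQc i.castSucc) ((mem_autGroup hRS).1 a.2) _ h1
            have h3 := (Q i.castSucc).mul_mem (ha i x hx) h2
            simpa [mul_assoc] using h3
          · have h2 := map_mem_of_stronglyClosed hP ((mem_autGroup hRS).1 a.2) _ (hb' x)
            have h3 := P.mul_mem (ha' x) h2
            simpa [mul_assoc] using h3 }
    let K : Subgroup (F.autGroup R) :=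
      { M with
        inv_mem' := fun {a} ha => by
          rw [show a⁻¹ = a ^ (orderOf a - 1) by
            rw [eq_comm, ← mul_eq_one_iff_eq_inv, ← pow_succ, Nat.sub_add_cancel (orderOf_pos a),
              pow_orderOf_eq_one]]
          exact M.pow_mem ha _ }
    have hKn : K.Normal := ⟨fun a ha γ => by
      refine ⟨fun i x hx => ?_, fun x => ?_⟩
      · have hx' := map_mem_of_stronglyClosed (hQc i.succ)
          ((mem_autGroup hRS).1 ((F.autGroup R).inv_mem γ.2)) x hx
        have h2 := map_mem_of_stronglyClosed (hQc i.castSucc) ((mem_autGroup hRS).1 γ.2) _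
          (ha.1 i _ hx')
        simpa [mul_assoc] using h2
      · have h2 := map_mem_of_stronglyClosed hP ((mem_autGroup hRS).1 γ.2) _
          (ha.2 ((γ : MulAut R)⁻¹ x))
        simpa [mul_assoc] using h2⟩
    have hKp : IsPGroup p K := by
      intro a
      obtain ⟨k, hk⟩ := Cfsg.Agent.Lib.Transfer.exists_pow_coprime (p := p) a
      refine ⟨k, ?_⟩
      generalize a ^ p ^ k = c at hk ⊢
      have hcop : (orderOf ((c : F.autGroup R) : MulAut R)).Coprime p := by
        rwa [Subgroup.orderOf_coe, Subgroup.orderOf_coe]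
      obtain ⟨⟨hstep, htop⟩, -⟩ : (c : F.autGroup R) ∈ K ∧ True := ⟨c.2, trivial⟩
      have key : ∀ i : Fin (n + 1), ∀ x : R, (x : Ω) ∈ Q i →
          ((c : F.autGroup R) : MulAut R) x = x := by
        intro i
        induction i using Fin.induction with
        | zero =>
          intro x hx
          rw [hQ0, Subgroup.mem_bot] at hx
          rw [show x = 1 from Subtype.ext hx, map_one]
        | succ i ih =>
          intro x hx
          have hfix := ih _ (hstep i x hx)
          generalize hT : x⁻¹ * ((c : F.autGroup R) : MulAut R) x = t at hfix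
          have hax : ((c : F.autGroup R) : MulAut R) x = x * t := by simp [← hT]
          have hpow : ∀ j : ℕ, (((c : F.autGroup R) : MulAut R) ^ j) x = x * t ^ j := by
            intro j
            induction j with
            | zero => simp
            | succ j ihj =>
              rw [pow_succ', MulAut.mul_apply, ihj, map_mul, map_pow, hfix, hax, pow_succ', mul_assoc]
          have h1 := hpow (orderOf ((c : F.autGroup R) : MulAut R))
          rw [pow_orderOf_eq_one, MulAut.one_apply] at h1
          rw [hax, eq_one_of_pGroup_coprime (hS.to_le hRS t) (mul_eq_left.1 h1.symm) hcop, mul_one]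
      suffices h : ((c : F.autGroup R) : MulAut R) = 1 from Subtype.ext (Subtype.ext h)
      refine mulAut_eq_one_of_fix (hS.to_le hRS) hcop (P.subgroupOf R) htop ?_
      refine mulAut_fix_of_fix_small (hS.to_le hRS) hcop _
        (fun x hx => map_mem_of_stronglyClosed hP ((mem_autGroup hRS).1 (c : F.autGroup R).2) x hx)
        fun x hx hq => key (Fin.last n) x ?_
      rw [hQn]
      have hq' : x ^ p = 1 := by rwa [show smallExp p = p from if_neg hp] at hq
      exact Subgroup.subset_closure ⟨hx, by simpa using congrArg Subtype.val hq'⟩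
    set a : F.autGroup R :=
      ⟨conjAut R hgN, autInducedBy_le_autGroup hRS (conjAut_mem_autInducedBy (hPS hg) hgN)⟩
    have haK : a ∈ K := by
      refine ⟨fun i x hx => ?_, fun x => ?_⟩
      · have h1 := hQstep i (Subgroup.commutator_mem_commutator ((Q i.succ).inv_mem hx) hg)
        rw [commutatorElement_def, inv_inv] at h1
        simpa [a, mul_assoc] using h1
      · have h1 := (Subgroup.mem_normalizer_iff.1 (hPn (S.inv_mem (hRS x.2))) g).1 hg
        have h2 := P.mul_mem h1 (P.inv_mem hg)
        simpa [a, mul_assoc] using h2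
    exact mem_of_induced_inn (hc.2 R (isConj_refl hRS)) hRS ⟨hPS hg, hgN⟩
      (mem_inn_of_radical hr hKn hKp (α := a) haK)

end Cfsg.Agent.S5236
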