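import Cfsg.Statements.S5243
import Cfsg.Agent.Lib.Fusion.PPrimeKernel

set_option autoImplicit false
open Cfsg Cfsg.FusionSystem Cfsg.Agent.Lib.Fusion
open scoped commutatorElement

namespace Cfsg.Agent.S5243

/-- Let F be a saturated fusion system over a finite p-group S, E a normal subsystem of F over T ≤ S, and χ a surjective homomorphism from Aut_F(T) onto a nontrivial finite group Δ of order prime to p whose kernel contains Aut_E(T). Then there is a proper normal subsystem F₀ of F over S containing E such that Aut_{F₀}(S) consists of those α ∈ Aut_F(S) whose restriction to T is an element of Aut_F(T) in the kernel of χ; moreover every p'-residual subsystem O^{p'}(F) of F is contained in F₀. -/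
theorem result {Ω : Type*} [Group Ω] {S : Subgroup Ω} [Finite S] (p : ℕ) [Fact p.Prime] (hS : IsPGroup p S) (F : Cfsg.FusionSystem S) (hF : F.IsSaturated p) {T : Subgroup Ω} (hTS : T ≤ S) (E : Cfsg.FusionSystem T) (hE : E.IsNormalIn F p) {Δ : Type*} [Group Δ] [Finite Δ] [Nontrivial Δ] (hΔ : (Nat.card Δ).Coprime p) (χ : ↥(F.autGroup T) →* Δ) (hχ : Function.Surjective χ) (hker : (E.autGroup T).subgroupOf (F.autGroup T) ≤ χ.ker) : ∃ F₀ : Cfsg.FusionSystem S, F₀.IsNormalIn F p ∧ ¬ (∀ P : Subgroup Ω, F₀.Hom P = F.Hom P) ∧ E.IsSubsystemOf F₀ ∧ (∀ α : MulAut ↥S, α ∈ F₀.autGroup S ↔ α ∈ F.autGroup S ∧ ∃ β : ↥(F.autGroup T), χ β = 1 ∧ ∀ t : ↥T, (((β : MulAut ↥T) t : ↥T) : Ω) = ((α ⟨(t : Ω), hTS t.2⟩ : ↥S) : Ω)) ∧ ∀ R : Cfsg.FusionSystem S, F.IsPPrimeResidual p R → R.IsSubsystemOf F₀ := by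
  have hsub : ∀ β : MulAut ↥T, β ∈ χ.ker.map (F.autGroup T).subtype ↔ ∃ h : β ∈ F.autGroup T, χ ⟨β, h⟩ = 1 := by
    intro β
    constructor
    · rintro ⟨b, hb, rfl⟩
      exact ⟨b.2, hb⟩
    · rintro ⟨h, hb⟩
      exact ⟨⟨β, h⟩, hb, rfl⟩
  have hd : PPrimeKernel.Data F E p (χ.ker.map (F.autGroup T).subtype) := by
    refine ⟨hE.1, Subgroup.map_subtype_le _, fun β hβ k hk => ?_, fun β hβ => ?_, fun x hx a ha => ?_⟩
    · obtain ⟨b, hb, rfl⟩ := hk
      exact ⟨⟨β, hβ⟩ * b * ⟨β, hβ⟩⁻¹, (MonoidHom.normal_ker χ).conj_mem b hb _, rfl⟩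
    · exact ⟨⟨β, autGroup_mono_of_subsystem hE.1.2.2.1 T hβ⟩, hker hβ, rfl⟩
    · obtain ⟨h, hb⟩ := (hsub _).1 ha
      refine (hsub _).2 ⟨hx, ?_⟩
      have h1 : (χ ⟨x, hx⟩) ^ p ^ a = 1 := by
        rw [← map_pow]
        exact hb
      exact orderOf_eq_one_iff.1 (Nat.eq_one_of_dvd_coprimes (hΔ.pow_right a) (orderOf_dvd_natCard _)
        (orderOf_dvd_of_pow_eq_one h1))
  refine ⟨PPrimeKernel.sub₀ hS hd, PPrimeKernel.isNormalIn hS hd, fun hall => ?_,
    PPrimeKernel.le_sub₀ hS hd, fun α => ?_, fun R hR => PPrimeKernel.residual_le hS hd hR⟩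
  · have hne : χ.ker.map (F.autGroup T).subtype ≠ F.autGroup T := by
      intro h
      obtain ⟨d, hd1⟩ := exists_ne (1 : Δ)
      obtain ⟨b, rfl⟩ := hχ d
      have hm : (b : MulAut ↥T) ∈ χ.ker.map (F.autGroup T).subtype := by rw [h]; exact b.2
      obtain ⟨h', hb⟩ := (hsub _).1 hm
      exact hd1 hb
    obtain ⟨α, hα, hα'⟩ := PPrimeKernel.exists_not_mem hS hd hne
    refine hα' ((mem_autGroup le_rfl).2 ?_)
    show _ ∈ (PPrimeKernel.sub₀ hS hd).Hom S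
    rw [hall S]
    exact (mem_autGroup le_rfl).1 hα
  · refine (PPrimeKernel.mem_autGroup_sub₀ hS hd α).trans (and_congr_right fun _ => ?_)
    constructor
    · rintro ⟨β, hβ, he⟩
      obtain ⟨h, hb⟩ := (hsub _).1 hβ
      exact ⟨⟨β, h⟩, hb, he⟩
    · rintro ⟨β, hb, he⟩
      exact ⟨β, (hsub _).2 ⟨β.2, hb⟩, he⟩

end Cfsg.Agent.S5243
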