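import Cfsg.Statements.S5244
import Cfsg.Agent.Lib.LocalP2.AbelianIndexPSetup
import Cfsg.Agent.Lib.LocalP2.AbelianIndexPNormalC

set_option autoImplicit false
open Cfsg

namespace Cfsg.Agent.S5244

/-- Let p be an odd prime, S a finite nonabelian p-group with a unique abelian subgroup A of index p, and F a saturated fusion system over S with no nontrivial normal subgroup (O_p(F) = 1) in which A is not F-essential. Then some subgroup Z(S)⟨x⟩ with x ∈ S outside A is F-essential, the centre Z(S) is contained in the commutator subgroup of S, and S has maximal nilpotency class (if S has order pⁿ with n ≥ 3, the term of index n − 2 of its lower central series, counting S itself as the term of index 0, is nontrivial). -/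
theorem result {Ω : Type*} [Group Ω] {S : Subgroup Ω} [Finite S] (p : ℕ) [Fact p.Prime] (hS : IsPGroup p S) (F : Cfsg.FusionSystem S) (hF : F.IsSaturated p) (hp : p ≠ 2) (hna : ¬ IsMulCommutative ↥S) (A : Subgroup Ω) (hA : A ≤ S ∧ IsMulCommutative ↥A ∧ (A.subgroupOf S).index = p) (huniq : ∀ B : Subgroup Ω, B ≤ S → IsMulCommutative ↥B → (B.subgroupOf S).index = p → B = A) (hcore : F.core = ⊥) (hAe : ¬ F.IsEssential p A) : (∃ x ∈ S, x ∉ A ∧ F.IsEssential p ((S ⊓ Subgroup.centralizer (S : Set Ω)) ⊔ Subgroup.zpowers x)) ∧ (S ⊓ Subgroup.centralizer (S : Set Ω)) ≤ (commutator ↥S).map S.subtype ∧ ∀ n : ℕ, Nat.card S = p ^ n → 3 ≤ n → Subgroup.lowerCentralSeries S (n - 2) ≠ ⊥ := by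
  classical
  open scoped commutatorElement in
  have d := Lib.LocalP2.AbelianIndexP.setup hS hna A hA huniq
  obtain ⟨P, x, hP, hx, hxA, hPeq, hW, hZle, hZc⟩ := d.not_essential_structure hF hp hcore hAe
  refine ⟨⟨x, hP.1.1 hx, hxA, hPeq ▸ hP⟩, hZle, fun n hn h3 hbot => ?_⟩
  have hcent : Subgroup.lowerCentralSeries S (n - 3) ≤
      S ⊓ Subgroup.centralizer (S : Set Ω) := by
    intro a ha
    refine d.mem_Z ((Subgroup.lowerCentralSeries_antitone S (Nat.zero_le (n - 3))).trans
      (Subgroup.lowerCentralSeries_zero S).le ha) fun g hg => ?_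
    have h := Subgroup.commutator_mem_commutator ha hg
    rw [← Subgroup.lowerCentralSeries_succ, show n - 3 + 1 = n - 2 by omega, hbot,
      Subgroup.mem_bot] at h
    exact (commutatorElement_eq_one_iff_mul_comm.1 h).symm
  obtain h3 | h4 := h3.eq_or_lt
  · subst h3
    rw [Nat.sub_self, Subgroup.lowerCentralSeries_zero] at hcent
    exact hxA (d.Z_le (hcent (hP.1.1 hx)))
  · obtain ⟨m, rfl⟩ : ∃ m, n = m + 1 := ⟨n - 1, by omega⟩
    have h := ((S ⊓ Subgroup.centralizer (S : Set Ω)).subgroupOf S).card_mul_index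
    rw [Nat.card_congr (Subgroup.subgroupOfEquivOfLe d.Z_le_S).toEquiv, hn, hZc, pow_succ'] at h
    refine d.lcs_not_le hW (hP.1.1 hx) hxA (Nat.eq_of_mul_eq_mul_left (Fact.out : p.Prime).pos h)
      (by omega) ?_
    rwa [show m + 1 - 3 = m - 2 by omega] at hcent

end Cfsg.Agent.S5244
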