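import Cfsg.Statements.S5245
import Cfsg.Agent.Lib.Fusion.IsoTransport
import Cfsg.Agent.Lib.Fusion.SmallExp
import Cfsg.Agent.Lib.Fusion.PPart
import Cfsg.Agent.Lib.Fusion.Focal
import Cfsg.Agent.Lib.Fusion.Realized

set_option autoImplicit false
open Cfsg

namespace Cfsg.Agent.S5245

open Cfsg.FusionSystem Cfsg.Agent.Lib.Fusion

section

variable {Ω : Type*} [Group Ω] {S T : Subgroup Ω} {p : ℕ} {F : FusionSystem S}

theorem surjective_of_sysIso {E : FusionSystem T} {Ω' : Type*} [Group Ω'] {T' : Subgroup Ω'} {E' : FusionSystem T'}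
    {e : T ≃* T'} (h : SysIso e E E') : E.IsSurjectiveMorphism E' (T'.subtype.comp e.toMonoidHom) := by
  set θ := T'.subtype.comp e.toMonoidHom
  refine ⟨⟨fun s => (e s).2, fun P φ hφ => ?_⟩, ?_, fun P' hP' φ' hφ' => ?_⟩
  · have him : imageAlong θ P ≤ T' := by rintro _ ⟨x, -, rfl⟩; exact (e x).2
    obtain ⟨φ', hc⟩ := exists_corr e (val_mem hφ) him (by
      rintro ⟨_, x, hx, rfl⟩
      show ((e.symm (e x) : T) : Ω) ∈ P
      rw [MulEquiv.symm_apply_apply]
      exact hx)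
    exact ⟨φ', h.1 P φ hφ _ φ' him hc, src_le hφ, val_mem hφ, fun x => ⟨⟨x, src_le hφ x.2⟩, x.2, rfl⟩,
      fun x => hc.val_eq (x := ⟨x, src_le hφ x.2⟩) x.2 rfl (val_mem hφ _)⟩
  · ext y
    exact ⟨fun ⟨x, hx⟩ => hx ▸ (e x).2, fun hy => ⟨e.symm ⟨y, hy⟩, by simp [θ]⟩⟩
  · obtain ⟨φ, hφ, hc⟩ := exists_pull h.2 hφ'
    have hle : preimageAlong θ P' ≤ imageAlong (T.subtype.comp e.symm.toMonoidHom) P' := by
      rintro _ ⟨t, ht, rfl⟩
      refine ⟨e t, ht, ?_⟩
      show ((e.symm (e t) : T) : Ω) = t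
      rw [MulEquiv.symm_apply_apply]
    refine ⟨_, restrict_mem hle hφ, preimageAlong_le θ P', fun x => val_mem hφ _, fun x => map_mem_of_preimage x,
      fun x => ?_⟩
    exact hc.val_eq (x := ⟨(x : Ω), preimageAlong_le θ P' x.2⟩) (hle x.2) rfl (val_mem hφ _)

variable (hxs : ∀ (T : Subgroup Ω) (E : FusionSystem T), E.IsSaturated p → E.IsSubsystemOf F →
      (T = S ∧ ∀ P : Subgroup Ω, E.Hom P = F.Hom P) ∨ (∀ P : Subgroup Ω, E.Hom P = (Cfsg.innerFusionSystem T).Hom P))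

include hxs in
/-- A nontrivial automorphism of order prime to `p` lives on `S` and generates the system. -/
theorem key [Finite S] [Fact p.Prime] (hS : IsPGroup p S) (hT : T ≤ S) {α : MulAut T} (hα : α ∈ F.autGroup T)
    (hc : (orderOf α).Coprime p) (hα1 : α ≠ 1) :
    T = S ∧ ∀ (P : Subgroup Ω) (φ : P →* Ω), φ ∈ F.Hom P → ∃ g ∈ Inn T ⊔ Subgroup.zpowers α, ∃ hP : P ≤ T,
      ∀ x : P, φ x = (g ⟨x, hP x.2⟩ : Ω) := by
  have := finite_of_le hT
  have hTp : IsPGroup p T := hS.to_le hT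
  let K := Subgroup.zpowers α
  let ι : T →* T ⋊[K.subtype] K := SemidirectProduct.inl
  have hι : Function.Injective ι := SemidirectProduct.inl_injective
  have : Finite (T ⋊[K.subtype] K) := Finite.of_equiv _ SemidirectProduct.equivProd.symm
  have hidx : ¬ p ∣ ι.range.index := by
    rw [SemidirectProduct.range_inl_eq_ker_rightHom, Subgroup.index_ker,
      MonoidHom.range_eq_top.2 SemidirectProduct.rightHom_surjective, Subgroup.card_top, Nat.card_zpowers]
    exact ((Fact.out : p.Prime).coprime_iff_not_dvd).1 hc.symm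
  have hrp : IsPGroup p ι.range := hTp.of_surjective ι.rangeRestrict ι.rangeRestrict_surjective
  let Y : Sylow p (T ⋊[K.subtype] K) := hrp.toSylow hidx
  let e : ι.range ≃* T := (MonoidHom.ofInjective hι).symm
  have he : ∀ t : T, e ⟨ι t, t, rfl⟩ = t := fun t => (MonoidHom.ofInjective hι).symm_apply_apply t
  obtain ⟨E, hiso, -⟩ := exists_push (e := e) (groupFusionSystem ι.range) le_rfl e (fun _ => rfl)
  have hYs : (groupFusionSystem ι.range).IsSaturated p := groupFusionSystem_saturated Y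
  have hEs : E.IsSaturated p := saturated_of_surjectiveMorphism hrp hYs (surjective_of_sysIso hiso)
  have hconj : ∀ (t : T) (k : K) (x : T), (⟨t, k⟩ : T ⋊[K.subtype] K) * ι x * (⟨t, k⟩ : T ⋊[K.subtype] K)⁻¹ =
      ι (t * (k : MulAut T) x * t⁻¹) := by
    intro t k x
    rw [show (⟨t, k⟩ : T ⋊[K.subtype] K) = ι t * SemidirectProduct.inr k from (SemidirectProduct.inl_left_mul_inr_right ⟨t, k⟩).symm,
      mul_inv_rev, map_mul, map_mul, map_inv,
      show ι ((k : MulAut T) x) = SemidirectProduct.inr k * ι x * SemidirectProduct.inr k⁻¹ from SemidirectProduct.inl_aut k x, map_inv]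
    simp only [mul_assoc]
  have hrep : ∀ {P : Subgroup Ω} {φ : P →* Ω}, φ ∈ E.Hom P → ∃ g ∈ Inn T ⊔ Subgroup.zpowers α, ∃ hP : P ≤ T,
      ∀ x : P, φ x = (g ⟨x, hP x.2⟩ : Ω) := by
    intro P φ hφ
    have hP := src_le hφ
    obtain ⟨φ₀, ⟨-, -, ⟨t, k⟩, hg⟩, hc'⟩ := exists_pull hiso.2 hφ
    refine ⟨MulAut.conj t * (k : MulAut T), Subgroup.mul_mem_sup ⟨t, rfl⟩ k.2, hP, fun y => ?_⟩
    obtain ⟨x, s, hx, h1, h2, h3⟩ := hc' y
    obtain ⟨_, u, rfl⟩ := x
    obtain ⟨_, v, rfl⟩ := s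
    rw [he] at h1 h3
    have h5 := h2.trans (hg _)
    rw [hconj] at h5
    rw [h3, show v = t * (k : MulAut T) u * t⁻¹ from hι h5, show u = ⟨(y : Ω), hP y.2⟩ from Subtype.ext h1]
    rfl
  have hInn : Inn T ⊔ Subgroup.zpowers α ≤ F.autGroup T :=
    sup_le (inn_le_autGroup hT) (Subgroup.zpowers_le.2 hα)
  have hsub : E.IsSubsystemOf F := by
    intro P φ hφ
    obtain ⟨g, hg, hP, hge⟩ := hrep hφ
    exact mem_of_agree hP ((mem_autGroup hT).1 (hInn hg)) hge
  have hαE : α ∈ E.autGroup T := by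
    let G₀ := groupFusionSystem ι.range
    have hconjα : ∀ x : T, (SemidirectProduct.inr ⟨α, Subgroup.mem_zpowers α⟩ : T ⋊[K.subtype] K) * ι x *
        (SemidirectProduct.inr ⟨α, Subgroup.mem_zpowers α⟩ : T ⋊[K.subtype] K)⁻¹ = ι (α x) := fun x => by
      rw [← map_inv]
      exact (SemidirectProduct.inl_aut _ x).symm
    have hh : conjHom ι.range (SemidirectProduct.inr ⟨α, Subgroup.mem_zpowers α⟩) ∈ G₀.Hom ι.range := by
      refine ⟨le_rfl, ?_, _, fun z => rfl⟩
      rintro ⟨_, x, rfl⟩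
      exact ⟨α x, (hconjα x).symm⟩
    refine (mem_autGroup le_rfl).2 (hiso.1 _ _ hh T _ le_rfl fun y => ?_)
    refine ⟨⟨ι y, y, rfl⟩, ⟨ι (α y), α y, rfl⟩, ⟨y, rfl⟩, ?_, (hconjα y).symm, ?_⟩
    · rw [he]
    · rw [he]; rfl
  rcases hxs T E hEs hsub with ⟨hTS, hEF⟩ | hin
  · exact ⟨hTS, fun P φ hφ => hrep (by rw [hEF P]; exact hφ)⟩
  · exfalso
    have h := (mem_autGroup le_rfl).1 hαE
    simp only [IsIso, hin T] at h
    obtain ⟨-, t, ht, hte⟩ := h
    have hαt : α = MulAut.conj (⟨t, ht⟩ : T) := MulEquiv.ext fun x => Subtype.ext (hte x)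
    refine hα1 (orderOf_eq_one_iff.1 ?_)
    obtain ⟨n, hn⟩ := IsPGroup.iff_orderOf.1 hTp ⟨t, ht⟩
    have hdvd : orderOf α ∣ p ^ n := by rw [hαt, ← hn]; exact orderOf_map_dvd _ _
    exact Nat.Coprime.eq_one_of_dvd (Nat.Coprime.pow_right n hc) hdvd

end


/-- Let F be an extremely sparse fusion system over a finite p-group S (saturated, not the inner system, and every saturated fusion system over any subgroup T of S contained in F is F itself or the inner system of T). Then S is normal in F, the focal and hyperfocal subgroups of F are both S, and Aut_F(S) is generated by the inner automorphisms of S together with a single automorphism of prime order q ≠ p (F is the fusion system of the semidirect product of S by a cyclic group of prime order). -/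
theorem result {Ω : Type*} [Group Ω] {S : Subgroup Ω} [Finite S] (p : ℕ) [Fact p.Prime] (hS : IsPGroup p S) (F : Cfsg.FusionSystem S) (hF : F.IsSaturated p) (hxs : ¬ (∀ P : Subgroup Ω, F.Hom P = (Cfsg.innerFusionSystem S).Hom P) ∧ ∀ (T : Subgroup Ω) (E : Cfsg.FusionSystem T), E.IsSaturated p → E.IsSubsystemOf F → (T = S ∧ ∀ P : Subgroup Ω, E.Hom P = F.Hom P) ∨ (∀ P : Subgroup Ω, E.Hom P = (Cfsg.innerFusionSystem T).Hom P)) : F.IsNormal S ∧ F.focalSubgroup = S ∧ F.hyperfocalSubgroup p = S ∧ ∃ (q : ℕ) (β : MulAut ↥S), q.Prime ∧ q ≠ p ∧ β ∈ F.autGroup S ∧ orderOf β = q ∧ (F.autGroup S : Subgroup (MulAut ↥S)) = Cfsg.Inn ↥S ⊔ Subgroup.zpowers β := by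
  classical
  obtain ⟨hni, hxs⟩ := hxs
  have hex : ∃ R : Subgroup Ω, R ≤ S ∧ ∃ α ∈ F.autGroup R, (orderOf α).Coprime p ∧ α ≠ 1 := by
    by_contra hcon
    refine hni fun P => Set.Subset.antisymm ?_ (inner_le F P)
    refine alperin hS hF (Cfsg.innerFusionSystem S) (fun R hR => ?_) P
    obtain ⟨-, -, hn⟩ := centric_radical_of_top_or_essential hS hF hR
    refine autGroup_le_of_coprime hS hF hn _ (autInducedBy_le_autGroup hn.1) fun α hα hc => ?_
    by_cases h1 : α = 1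
    · rw [h1]; exact one_mem _
    · exact absurd ⟨R, hn.1, α, hα, hc, h1⟩ hcon
  obtain ⟨R, hRS, α, hα, hc, hα1⟩ := hex
  haveI := finite_mulAut hRS
  obtain ⟨hR, -⟩ := key hxs hS hRS hα hc hα1
  subst hR
  set q := (orderOf α).minFac with hqdef
  have hn1 : orderOf α ≠ 1 := fun h => hα1 (orderOf_eq_one_iff.1 h)
  have hq : q.Prime := Nat.minFac_prime hn1
  have hqp : q ≠ p := by
    intro h
    have h2 := Nat.eq_one_of_dvd_coprimes hc (Nat.minFac_dvd _) (dvd_of_eq h)
    exact hq.ne_one h2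
  set β := α ^ (orderOf α / q) with hβdef
  have hβq : orderOf β = q := orderOf_pow_orderOf_div (orderOf_pos α).ne' (Nat.minFac_dvd _)
  have hβ : β ∈ F.autGroup R := pow_mem hα _
  have hβc : (orderOf β).Coprime p := by rw [hβq]; exact (Nat.coprime_primes hq Fact.out).2 hqp
  have hβ1 : β ≠ 1 := fun h => hq.ne_one (by rw [← hβq, h, orderOf_one])
  obtain ⟨-, hgen⟩ := key hxs hS le_rfl hβ hβc hβ1
  have hInn : Inn R ⊔ Subgroup.zpowers β ≤ F.autGroup R :=
    sup_le (inn_le_autGroup le_rfl) (Subgroup.zpowers_le.2 hβ)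
  have hRn : F.IsNormal R := by
    refine ⟨le_rfl, fun P φ hφ => ?_⟩
    obtain ⟨g, hg, hP, hge⟩ := hgen P φ hφ
    refine ⟨_, restrict_mem (sup_le hP le_rfl) ((mem_autGroup le_rfl).1 (hInn hg)), fun x => (hge x).symm, ?_⟩
    ext y
    constructor
    · rintro ⟨x, -, rfl⟩; exact (g _).2
    · intro hy
      refine ⟨⟨(g⁻¹ ⟨y, hy⟩ : R), Subgroup.mem_sup_right (g⁻¹ ⟨y, hy⟩).2⟩, (g⁻¹ ⟨y, hy⟩).2, ?_⟩
      show (g (g⁻¹ ⟨y, hy⟩) : Ω) = y
      rw [MulAut.apply_inv_self]
  have haut : F.autGroup R = Inn R ⊔ Subgroup.zpowers β := by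
    refine le_antisymm (fun g hg => ?_) hInn
    obtain ⟨g', hg', hP', hge⟩ := hgen R _ ((mem_autGroup le_rfl).1 hg)
    rwa [show g = g' from MulEquiv.ext fun x => Subtype.ext (hge x)]
  have hW : R ≤ F.hyperfocalSubgroup p := by
    set W := F.hyperfocalSubgroup p
    have hWR : W ≤ R := hyperfocal_le_base F
    haveI := finite_of_le hWR
    have hgenW : ∀ Q : Subgroup Ω, Q ≤ R → ∀ a ∈ F.autGroup Q, (orderOf a).Coprime p →
        ∀ x : Q, (x : Ω)⁻¹ * (a x : Ω) ∈ W := fun Q hQ a ha hac x =>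
      inv_mul_mem_hyperfocal hQ (α := ⟨a, ha⟩) (coprime_mem_pResidual hac) x
    have hbW : ∀ x : R, (x : Ω) ∈ W → (β x : Ω) ∈ W := fun x hx =>
      (map_mem_of_gen hS hF (le_normalizer_hyperfocal F) hgenW ((mem_autGroup le_rfl).1 hβ) x).2 hx
    obtain ⟨γ, hγ⟩ := exists_restrict_aut hWR (β := β) fun x => hbW _ x.2
    have hγF : γ ∈ F.autGroup W := (mem_autGroup hWR).2 (mem_of_agree hWR ((mem_autGroup le_rfl).1 hβ) hγ)
    have hγpow : ∀ (j : ℕ) (x : W), ((γ ^ j) x : Ω) = ((β ^ j) ⟨x, hWR x.2⟩ : Ω) := by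
      intro j
      induction j with
      | zero => intro x; simp
      | succ j ih =>
        intro x
        rw [pow_succ' β, pow_succ' γ, MulAut.mul_apply, MulAut.mul_apply, hγ]
        exact congrArg (fun z : R => (β z : Ω)) (Subtype.ext (ih x))
    have hγdvd : orderOf γ ∣ q := by
      rw [← hβq]
      refine orderOf_dvd_of_pow_eq_one (MulEquiv.ext fun x => Subtype.ext ?_)
      rw [hγpow, pow_orderOf_eq_one, MulAut.one_apply, MulAut.one_apply]
    by_cases hγ1 : γ = 1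
    · exfalso
      refine hβ1 (MulEquiv.ext fun x => ?_)
      set z : R := x⁻¹ * β x with hz
      have hzW : (z : Ω) ∈ W := hgenW R le_rfl β hβ hβc x
      have hzf : β z = z := by
        apply Subtype.ext
        have h := hγ ⟨z, hzW⟩
        rw [hγ1, MulAut.one_apply] at h
        exact h.symm
      have hxz : β x = x * z := by rw [hz, mul_inv_cancel_left]
      have hpow : ∀ i : ℕ, (β ^ i) x = x * z ^ i := by
        intro i
        induction i with
        | zero => simp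
        | succ i ih => rw [pow_succ', MulAut.mul_apply, ih, map_mul, map_pow, hzf, hxz, mul_assoc, ← pow_succ']
      have hzq : z ^ q = 1 := by
        have h := hpow q
        rw [← hβq, pow_orderOf_eq_one, MulAut.one_apply, hβq] at h
        exact (mul_eq_left.1 h.symm)
      obtain ⟨n, hn⟩ := IsPGroup.iff_orderOf.1 hS z
      have hz1 : z = 1 := orderOf_eq_one_iff.1 (Nat.eq_one_of_dvd_coprimes
        (Nat.Coprime.pow_right n ((Nat.coprime_primes hq Fact.out).2 hqp)) (orderOf_dvd_of_pow_eq_one hzq) hn.dvd)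
      rw [hxz, hz1, mul_one, MulAut.one_apply]
    · exact (key hxs hS hWR hγF (Nat.Coprime.coprime_dvd_left hγdvd ((Nat.coprime_primes hq Fact.out).2 hqp)) hγ1).1.ge
  refine ⟨hRn, ?_, le_antisymm (hyperfocal_le_base F) hW, q, β, hq, hqp, hβ, hβq, haut⟩
  refine le_antisymm ((Subgroup.closure_le _).2 ?_) (hW.trans hyperfocal_le_focal)
  rintro _ ⟨P, φ, x, hφ, rfl⟩
  exact R.mul_mem (R.inv_mem (src_le hφ x.2)) (val_mem hφ x)

end Cfsg.Agent.S5245
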