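import Cfsg.Statements.S5246
import Cfsg.Agent.Lib.Fusion.PStable
import Cfsg.Agent.Lib.Fusion.Realized

set_option autoImplicit false
open Cfsg Cfsg.FusionSystem Cfsg.Agent.Lib.Fusion
open scoped commutatorElement

namespace Cfsg.Agent.S5246

/-- Let p be an odd prime, G a finite group and P a Sylow p-subgroup. Call a fusion system F p-stable when, for every fully normalized subgroup Q and every χ ∈ Aut_F(Q) acting quadratically on Q (that is, χ fixes a⁻¹χ(a) for every a ∈ Q; equivalently χ(a⁻¹)·a·χ(a⁻¹)·χ(χ(a)) = 1), χ lies in O_p(Aut_F(Q)). Then G is p-stable in the normalizer form (for every p-subgroup Q and x ∈ N_G(Q) with [Q, x, x] = 1, the image of x lies in O_p(N_G(Q)/C_G(Q))) if and only if the fusion system of G on P is p-stable. -/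
theorem result {Ω : Type*} [Group Ω] [Finite Ω] {p : ℕ} [Fact p.Prime] (hp : p ≠ 2) (P : Sylow p Ω) : Cfsg.IsNormalizerPStable p Ω ↔ (∀ Q : Subgroup Ω, (Cfsg.groupFusionSystem (P : Subgroup Ω)).IsFullyNormalized Q → ∀ χ : MulAut ↥Q, χ ∈ (Cfsg.groupFusionSystem (P : Subgroup Ω)).autGroup Q → (∀ a : ↥Q, (χ a⁻¹) * a * (χ a⁻¹) * (χ (χ a)) = 1) → χ ∈ ((Cfsg.pCore p ↥((Cfsg.groupFusionSystem (P : Subgroup Ω)).autGroup Q)).map ((Cfsg.groupFusionSystem (P : Subgroup Ω)).autGroup Q).subtype : Subgroup (MulAut ↥Q))) := by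
  set F := Cfsg.groupFusionSystem (P : Subgroup Ω)
  -- `Aut_F(Q)` is the image of the normalizer
  have hA : ∀ Q : Subgroup Ω, Q ≤ (P : Subgroup Ω) → F.autGroup Q = Q.normalizerMonoidHom.range := by
    intro Q hQ
    ext α
    rw [mem_autGroup hQ]
    constructor
    · rintro ⟨-, -, g, hg⟩
      exact ⟨⟨g, normalizes_of_induced (α := α) hg⟩, by ext x; exact (hg x).symm⟩
    · rintro ⟨g, rfl⟩
      exact ⟨hQ, fun x => hQ (Q.normalizerMonoidHom g x).2, g, fun x => rfl⟩
  -- membership in `O_p(N/C)`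
  have hquot : ∀ (Q : Subgroup Ω) (g : Subgroup.normalizer (Q : Set Ω)),
      (QuotientGroup.mk (s := (Subgroup.centralizer (Q : Set Ω)).subgroupOf (Subgroup.normalizer (Q : Set Ω))) g ∈
        Cfsg.pCore p (↥(Subgroup.normalizer (Q : Set Ω)) ⧸
          (Subgroup.centralizer (Q : Set Ω)).subgroupOf (Subgroup.normalizer (Q : Set Ω)))) ↔
      Q.normalizerMonoidHom g ∈ (Cfsg.pCore p Q.normalizerMonoidHom.range).map
        Q.normalizerMonoidHom.range.subtype := by
    intro Q g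
    set f := Q.normalizerMonoidHom
    let e : (↥(Subgroup.normalizer (Q : Set Ω)) ⧸
        (Subgroup.centralizer (Q : Set Ω)).subgroupOf (Subgroup.normalizer (Q : Set Ω))) ≃* f.range :=
      (QuotientGroup.quotientMulEquivOfEq (by
        rw [Subgroup.normalizerMonoidHom_ker])).trans (QuotientGroup.quotientKerEquivRange f)
    have he : ∀ y, e (QuotientGroup.mk y) = f.rangeRestrict y := fun y => rfl
    constructor
    · intro h
      refine ⟨f.rangeRestrict g, ?_, rfl⟩
      rw [← he]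
      exact (le_pCore ((Cfsg.Agent.Lib.Fusion.pCore_normal (p := p)).map e.toMonoidHom e.surjective)
        ((Cfsg.Agent.Lib.Fusion.isPGroup_pCore (p := p)).map _)) ⟨_, h, rfl⟩
    · rintro ⟨b, hb, hbe⟩
      have h1 : b = f.rangeRestrict g := Subtype.ext hbe
      have h2 : e.symm b ∈ (Cfsg.pCore p f.range).map e.symm.toMonoidHom := ⟨b, hb, rfl⟩
      have h3 := le_pCore ((Cfsg.Agent.Lib.Fusion.pCore_normal (p := p)).map e.symm.toMonoidHom e.symm.surjective)
        ((Cfsg.Agent.Lib.Fusion.isPGroup_pCore (p := p)).map _) h2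
      rwa [h1, ← he, MulEquiv.symm_apply_apply] at h3
  -- quadratic action
  have hquad : ∀ (Q : Subgroup Ω) (g : Ω) (hg : g ∈ Subgroup.normalizer (Q : Set Ω)),
      ⁅⁅Q, Subgroup.zpowers g⁆, Subgroup.zpowers g⁆ = ⊥ ↔
      ∀ a : Q, (conjAut Q hg a⁻¹) * a * (conjAut Q hg a⁻¹) * (conjAut Q hg (conjAut Q hg a)) = 1 := by
    intro Q g hg
    constructor
    · intro h a
      have h1 : Commute ⁅(a : Ω)⁻¹, g⁆ g := by
        rw [← commutatorElement_eq_one_iff_commute, ← Subgroup.mem_bot, ← h]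
        exact Subgroup.commutator_mem_commutator
          (Subgroup.commutator_mem_commutator (Q.inv_mem a.2) (Subgroup.mem_zpowers g)) (Subgroup.mem_zpowers g)
      have h2 : g * ((a : Ω)⁻¹ * (g * a * g⁻¹)) * g⁻¹ = (a : Ω)⁻¹ * (g * a * g⁻¹) := by
        rw [commutatorElement_def, inv_inv] at h1
        have h3 : (a : Ω)⁻¹ * (g * a * g⁻¹) = (a : Ω)⁻¹ * g * a * g⁻¹ := by group
        rw [h3, ← h1.eq, mul_inv_cancel_right]
      refine Subtype.ext ?_
      simp only [Subgroup.coe_mul, conjAut_apply, Subgroup.coe_inv, OneMemClass.coe_one]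
      calc g * (a : Ω)⁻¹ * g⁻¹ * a * (g * (a : Ω)⁻¹ * g⁻¹) * (g * (g * a * g⁻¹) * g⁻¹)
          = g * (a : Ω)⁻¹ * g⁻¹ * a * (g * ((a : Ω)⁻¹ * (g * a * g⁻¹)) * g⁻¹) := by group
        _ = 1 := by rw [h2]; group
    · intro h
      rw [Subgroup.commutator_eq_bot_iff_le_centralizer]
      refine Subgroup.commutator_le.2 fun a ha b hb => ?_
      obtain ⟨k, rfl⟩ := Subgroup.mem_zpowers_iff.1 hb
      -- `g` fixes `a⁻¹ (g a g⁻¹)` for every `a`
      have hfix : ∀ x ∈ Q, g * (x⁻¹ * (g * x * g⁻¹)) * g⁻¹ = x⁻¹ * (g * x * g⁻¹) := by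
        intro x hx
        have h1 := congrArg Subtype.val (h ⟨x, hx⟩)
        simp only [Subgroup.coe_mul, conjAut_apply, Subgroup.coe_inv, OneMemClass.coe_one] at h1
        have h2 : g * (x⁻¹ * (g * x * g⁻¹)) * g⁻¹ = (g * x⁻¹ * g⁻¹ * x)⁻¹ := by
          apply eq_inv_of_mul_eq_one_right
          rw [← h1]; group
        rw [h2]; group
      let C₀ : Subgroup Ω := Subgroup.centralizer ({g} : Set Ω)
      have hmem : ∀ x ∈ Q, x⁻¹ * (g * x * g⁻¹) ∈ C₀ := fun x hx => by
        refine Subgroup.mem_centralizer_iff.2 fun z hz => ?_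
        rw [Set.mem_singleton_iff.1 hz]
        nth_rw 2 [← hfix x hx]
        group
      let K : Subgroup Ω :=
        { carrier := {b | b ∈ Subgroup.normalizer (Q : Set Ω) ∧ Commute b g ∧
            ∀ x ∈ Q, x⁻¹ * (b * x * b⁻¹) ∈ C₀}
          one_mem' := ⟨one_mem _, Commute.one_left _, fun x _ => by simp⟩
          mul_mem' := by
            rintro u v ⟨hu, hug, hu'⟩ ⟨hv, hvg, hv'⟩
            refine ⟨mul_mem hu hv, hug.mul_left hvg, fun x hx => ?_⟩
            have h3 : x⁻¹ * (u * v * x * (u * v)⁻¹) =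
                (x⁻¹ * (u * x * u⁻¹)) * (u * (x⁻¹ * (v * x * v⁻¹)) * u⁻¹) := by group
            rw [h3]
            refine C₀.mul_mem (hu' x hx) (Subgroup.mem_centralizer_iff.2 fun z hz => ?_)
            rw [Set.mem_singleton_iff.1 hz]
            have h4 : Commute (x⁻¹ * (v * x * v⁻¹)) g := (Subgroup.mem_centralizer_iff.1 (hv' x hx) g rfl).symm
            exact ((hug.mul_left h4).mul_left hug.inv_left).symm.eq
          inv_mem' := by
            rintro u ⟨hu, hug, hu'⟩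
            refine ⟨inv_mem hu, hug.inv_left, fun x hx => ?_⟩
            have hx' := conj_mem_of_mem_normalizer (inv_mem hu) hx
            have h3 : x⁻¹ * (u⁻¹ * x * u⁻¹⁻¹) =
                ((u⁻¹ * x * u⁻¹⁻¹)⁻¹ * (u * (u⁻¹ * x * u⁻¹⁻¹) * u⁻¹))⁻¹ := by group
            rw [h3]
            exact C₀.inv_mem (hu' _ hx') }
      have hgK : g ∈ K := ⟨hg, Commute.refl g, hmem⟩
      have hk : g ^ k ∈ K := K.zpow_mem hgK k
      refine Subgroup.mem_centralizer_iff.2 fun z hz => ?_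
      obtain ⟨j, rfl⟩ := Subgroup.mem_zpowers_iff.1 hz
      have h5 : ⁅a, g ^ k⁆ = ((a⁻¹)⁻¹ * (g ^ k * a⁻¹ * (g ^ k)⁻¹)) := by
        rw [commutatorElement_def]; group
      have h6 : Commute g ⁅a, g ^ k⁆ := by
        rw [h5]; exact Subgroup.mem_centralizer_iff.1 (hk.2.2 a⁻¹ (Q.inv_mem ha)) g rfl
      exact (h6.zpow_left j).eq
  constructor
  · intro h Q hQ χ hχ hq
    rw [hA Q hQ.1] at hχ ⊢
    obtain ⟨g, rfl⟩ := hχ
    have hge : Q.normalizerMonoidHom g = conjAut Q g.2 := rfl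
    exact (hquot Q g).1 (h Q (P.2.to_le hQ.1) g g.2 ((hquad Q g g.2).2 fun a => hge ▸ hq a))
  · intro h Q₀ hQ₀ g hg hq
    obtain ⟨R, hR⟩ := hQ₀.exists_le_sylow
    obtain ⟨t, ht⟩ := MulAction.exists_smul_eq Ω R P
    have hQ₁ : Q₀.map (MulAut.conj t).toMonoidHom ≤ (P : Subgroup Ω) := by
      rintro _ ⟨z, hz, rfl⟩
      exact (congrArg (fun T : Sylow p Ω => t * z * t⁻¹ ∈ (T : Subgroup Ω)) ht).mp ⟨z, hR hz, rfl⟩
    obtain ⟨Q, hQc, hQn⟩ := exists_fullyNormalized (F := F) hQ₁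
    obtain ⟨φ, ⟨-, -, s, hs⟩, hr⟩ := hQc
    let e : Q₀ ≃* Q := (Q₀.equivMapOfInjective (MulAut.conj (s * t)).toMonoidHom
      (MulAut.conj (s * t)).injective).trans (MulEquiv.subgroupCongr (by
        rw [← hr]
        ext y
        constructor
        · rintro ⟨z, hz, rfl⟩
          exact ⟨⟨_, z, hz, rfl⟩, (hs ⟨_, z, hz, rfl⟩).trans (by simp [mul_assoc])⟩
        · rintro ⟨⟨_, z, hz, rfl⟩, rfl⟩
          exact ⟨z, hz, ((hs _).trans (by simp [mul_assoc])).symm⟩))
    have he : ∀ x : Q₀, (e x : Ω) = s * t * x * (s * t)⁻¹ := fun x => rfl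
    have hrange : Q₀.normalizerMonoidHom.range.map (MulAut.congr e).toMonoidHom =
        Q.normalizerMonoidHom.range := by
      ext β
      constructor
      · rintro ⟨_, ⟨k, rfl⟩, rfl⟩
        have hk : ∀ y : Q, ((MulAut.congr e (Q₀.normalizerMonoidHom k) y : Q) : Ω) =
            (s * t * k * (s * t)⁻¹) * y * (s * t * k * (s * t)⁻¹)⁻¹ := fun y => by
          obtain ⟨x, rfl⟩ := e.surjective y
          simp only [MulAut.congr_apply, MulEquiv.trans_apply, MulEquiv.symm_apply_apply, he,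
            Subgroup.normalizerMonoidHom_apply_apply_coe]
          group
        exact ⟨⟨_, normalizes_of_induced (α := MulAut.congr e (Q₀.normalizerMonoidHom k)) hk⟩,
          MulEquiv.ext fun y => Subtype.ext (hk y).symm⟩
      · rintro ⟨k, rfl⟩
        have hk : ∀ x : Q₀, (((MulAut.congr e).symm (Q.normalizerMonoidHom k) x : Q₀) : Ω) =
            ((s * t)⁻¹ * k * (s * t)) * x * ((s * t)⁻¹ * k * (s * t))⁻¹ := fun x => by
          have h1 := he ((MulAut.congr e).symm (Q.normalizerMonoidHom k) x)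
          have h2 : e ((MulAut.congr e).symm (Q.normalizerMonoidHom k) x) = Q.normalizerMonoidHom k (e x) := by
            simp [MulAut.congr]
          rw [h2, Subgroup.normalizerMonoidHom_apply_apply_coe, he] at h1
          calc _ = (s * t)⁻¹ * ((k : Ω) * (s * t * x * (s * t)⁻¹) * (k : Ω)⁻¹) * (s * t) := by rw [h1]; group
            _ = _ := by group
        exact ⟨_, ⟨⟨_, normalizes_of_induced (α := (MulAut.congr e).symm (Q.normalizerMonoidHom k)) hk⟩,
          MulEquiv.ext fun x => Subtype.ext (hk x).symm⟩, (MulAut.congr e).apply_symm_apply _⟩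
    rw [hquot Q₀ ⟨g, hg⟩]
    have hχ : MulAut.congr e (Q₀.normalizerMonoidHom ⟨g, hg⟩) ∈ Q.normalizerMonoidHom.range :=
      hrange ▸ ⟨_, ⟨_, rfl⟩, rfl⟩
    have h1 := h Q hQn (MulAut.congr e (Q₀.normalizerMonoidHom ⟨g, hg⟩)) (by rw [hA Q hQn.1]; exact hχ)
      (congr_quadratic e ((hquad Q₀ g hg).1 hq))
    rw [hA Q hQn.1] at h1
    have h2 := mem_pCore_of_equiv (MulAut.congr e).symm (A := Q.normalizerMonoidHom.range)
      (B := Q₀.normalizerMonoidHom.range) (by
        rw [← hrange, Subgroup.map_map]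
        convert Subgroup.map_id _ using 2
        ext a x
        simp) h1
    rw [MulEquiv.symm_apply_apply] at h2
    exact h2

end Cfsg.Agent.S5246
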