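import Cfsg.Statements.S5247
import Cfsg.Agent.Lib.Fusion.PStable

set_option autoImplicit false
open Cfsg Cfsg.FusionSystem Cfsg.Agent.Lib.Fusion
open scoped commutatorElement

namespace Cfsg.Agent.S5247

/-- Let p be an odd prime and F a saturated fusion system over a finite p-group S. Call a fusion system E (over any subgroup) p-stable when, for every fully E-normalized subgroup Q and every χ ∈ Aut_E(Q) with χ(a⁻¹)·a·χ(a⁻¹)·χ(χ(a)) = 1 for all a ∈ Q (χ acts quadratically), χ lies in O_p(Aut_E(Q)). Then F is p-stable if and only if every normalizer fusion system N_F(R) of every non-cyclic fully F-normalized subgroup R of S is p-stable. -/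
theorem result {Ω : Type*} [Group Ω] {S : Subgroup Ω} [Finite S] (p : ℕ) [Fact p.Prime] (hS : IsPGroup p S) (F : Cfsg.FusionSystem S) (hF : F.IsSaturated p) (hp : p ≠ 2) : (∀ Q : Subgroup Ω, F.IsFullyNormalized Q → ∀ χ : MulAut ↥Q, χ ∈ F.autGroup Q → (∀ a : ↥Q, (χ a⁻¹) * a * (χ a⁻¹) * (χ (χ a)) = 1) → χ ∈ ((Cfsg.pCore p ↥(F.autGroup Q)).map (F.autGroup Q).subtype : Subgroup (MulAut ↥Q))) ↔ ∀ R : Subgroup Ω, F.IsFullyNormalized R → ¬ IsCyclic ↥R → ∀ N : Cfsg.FusionSystem (Cfsg.FusionSystem.normalizerIn S R), F.IsNormalizerSystem R N → (∀ Q : Subgroup Ω, N.IsFullyNormalized Q → ∀ χ : MulAut ↥Q, χ ∈ N.autGroup Q → (∀ a : ↥Q, (χ a⁻¹) * a * (χ a⁻¹) * (χ (χ a)) = 1) → χ ∈ ((Cfsg.pCore p ↥(N.autGroup Q)).map (N.autGroup Q).subtype : Subgroup (MulAut ↥Q))) := by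
  constructor
  · intro h R hR _ N hN Q hQ χ hχ hquad
    have hQS : Q ≤ S := hQ.1.trans (normalizerIn_le S R)
    have hsub : N.autGroup Q ≤ F.autGroup Q := autGroup_mono_of_subsystem (normalizerSystem_le hN) Q
    obtain ⟨Q', hQQ', hQ'⟩ := exists_fullyNormalized (F := F) hQS
    obtain ⟨e, he⟩ := isConj_iff_iso.1 hQQ'
    have := finite_mulAut hQS
    have := finite_mulAut hQ'.1
    have h1 := h Q' hQ' (MulAut.congr e χ) (he.autGroup_map ▸ ⟨χ, hsub hχ, rfl⟩)
      (congr_quadratic e hquad)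
    refine mem_pCore_of_le hsub hχ ?_
    have h2 := mem_pCore_of_equiv (MulAut.congr e).symm (B := F.autGroup Q) (by
      rw [← he.autGroup_map, Subgroup.map_map]
      convert Subgroup.map_id (F.autGroup Q)
      exact MonoidHom.ext fun a => (MulAut.congr e).symm_apply_apply a) h1
    rwa [MulEquiv.symm_apply_apply] at h2
  · intro h Q hQ χ hχ hquad
    have := finite_mulAut hQ.1
    by_cases hcyc : IsCyclic ↥Q
    · have hQp : IsPGroup p Q := isPGroup_of_le hS hQ.1
      have := finite_of_le hQ.1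
      obtain ⟨j, hj⟩ := IsPGroup.iff_card.1 (hQp)
      have hpow : χ ^ p ^ j = 1 := quadratic_pow χ hquad fun a => by
        rw [← hj]; exact pow_card_eq_one'
      have hn : ((Subgroup.zpowers χ).subgroupOf (F.autGroup Q)).Normal := by
        refine ⟨fun a ha b => ?_⟩
        rwa [show b * a * b⁻¹ = a from Subtype.ext (by
          show (b : MulAut ↥Q) * a * (b : MulAut ↥Q)⁻¹ = a
          rw [mulAut_comm_of_cyclic, inv_mul_cancel_left])]
      have hp' : IsPGroup p ((Subgroup.zpowers χ).subgroupOf (F.autGroup Q)) := by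
        refine isPGroup_subgroupOf ?_
        rintro ⟨y, hy⟩
        obtain ⟨i, rfl⟩ := Subgroup.mem_zpowers_iff.1 hy
        refine ⟨j, Subtype.ext ?_⟩
        show (χ ^ i) ^ (p ^ j) = 1
        rw [← zpow_natCast, ← zpow_mul, mul_comm, zpow_mul, zpow_natCast, hpow, one_zpow]
      exact ⟨⟨χ, hχ⟩, Cfsg.Agent.Lib.Fusion.le_pCore hn hp' (Subgroup.mem_zpowers χ), rfl⟩
    · obtain ⟨N, hN⟩ := exists_normalizerSystem F hQ.1
      have heq := normalizerSystem_autGroup hQ.1 hN
      have hQN : N.IsFullyNormalized Q := by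
        refine ⟨le_normalizerIn hQ.1, fun T hT => ?_⟩
        obtain ⟨φ, hφ, hr⟩ := hT
        have hsn := normalizerSystem_normal hQ.1 hN
        have := finite_of_le hQ.1
        have hTQ : T = Q := by
          subst hr
          exact eq_of_le_of_natCard_le
            (fun y ⟨x, hx⟩ => hx ▸ map_mem_of_stronglyClosed (stronglyClosed_of_isNormal hsn) hφ x x.2)
            (Nat.card_congr (MonoidHom.ofInjective (N.injective_of_mem hφ)).toEquiv).le
        rw [hTQ]
      have h1 := h Q hQ hcyc N hN Q hQN χ (by rw [heq]; exact hχ) hquad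
      rw [heq] at h1
      exact h1

end Cfsg.Agent.S5247
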