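import Cfsg.Statements.S5254
import Cfsg.Agent.Lib.LocalP2.AbelianIndexPSetup
-- import your own Cfsg.Agent.* helpers here

set_option autoImplicit false
open Cfsg

namespace Cfsg.Agent.S5254

/-- Let p be an odd prime, S a finite nonabelian p-group with a unique abelian subgroup A of index p, and F a saturated fusion system over S. Then every F-essential subgroup P is A, or Z(S)⟨x⟩ for some x ∈ S outside A, or (when the second centre Z₂(S) lies in A) Z₂(S)⟨x⟩ for some x ∈ S outside A; and P has index p in its normalizer in S. -/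
theorem result {Ω : Type*} [Group Ω] {S : Subgroup Ω} [Finite S] (p : ℕ) [Fact p.Prime] (hS : IsPGroup p S) (F : Cfsg.FusionSystem S) (hF : F.IsSaturated p) (hp : p ≠ 2) (hna : ¬ IsMulCommutative ↥S) (A : Subgroup Ω) (hA : A ≤ S ∧ IsMulCommutative ↥A ∧ (A.subgroupOf S).index = p) (huniq : ∀ B : Subgroup Ω, B ≤ S → IsMulCommutative ↥B → (B.subgroupOf S).index = p → B = A) (P : Subgroup Ω) (hP : F.IsEssential p P) : (P = A ∨ (∃ x ∈ S, x ∉ A ∧ P = (S ⊓ Subgroup.centralizer (S : Set Ω)) ⊔ Subgroup.zpowers x) ∨ (((upperCentralSeries ↥S 2).map S.subtype) ≤ A ∧ ∃ x ∈ S, x ∉ A ∧ P = ((upperCentralSeries ↥S 2).map S.subtype) ⊔ Subgroup.zpowers x)) ∧ (P.subgroupOf (S ⊓ Subgroup.normalizer (P : Set Ω))).index = p := by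
  have d := Lib.LocalP2.AbelianIndexP.setup hS hna A hA huniq
  set Z : Subgroup Ω := S ⊓ Subgroup.centralizer (S : Set Ω) with hZ
  have hPS := hP.1.1
  by_cases hPA : P = A
  · refine ⟨Or.inl hPA, ?_⟩
    rw [hPA, inf_eq_left.2 d.normal]
    exact d.index
  obtain ⟨x, hx, hxA, hW, hcase⟩ := d.main hF hP hPA
  refine ⟨Or.inr ?_, d.index_normalizer hF hP hPA⟩
  have hdec : ∀ {T : Subgroup Ω}, A ⊓ P = T → T ≤ P → P = T ⊔ Subgroup.zpowers x := by
    intro T hT hTP
    refine le_antisymm (fun g hg => ?_) (sup_le hTP (Subgroup.zpowers_le.2 hx))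
    obtain ⟨a, ha, i, rfl⟩ := d.decomp hPS hx hxA hg
    exact Subgroup.mul_mem _ (Subgroup.mem_sup_left (hT ▸ ha))
      (Subgroup.mem_sup_right (Subgroup.pow_mem _ (Subgroup.mem_zpowers x) i))
  rcases hcase with h | h
  · exact Or.inl ⟨x, hPS hx, hxA, hdec h (d.Z_le_P hP.1)⟩
  · have hle := Lib.LocalP2.AbelianIndexP.second_center_le_A d hW
    rw [inf_eq_left.2 hle] at h
    exact Or.inr ⟨hle, x, hPS hx, hxA, hdec h (h ▸ inf_le_right)⟩

end Cfsg.Agent.S5254
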