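import Cfsg.Statements.S5255
import Cfsg.Agent.Lib.Fusion.Factor

set_option autoImplicit false
open Cfsg Cfsg.FusionSystem Cfsg.Agent.Lib.Fusion
open scoped commutatorElement

namespace Cfsg.Agent.S5255

/-- Let F be a saturated fusion system over a finite p-group S and T a subgroup of S strongly closed in F. Then T·C_S(T) is strongly closed in F. -/
theorem result {Ω : Type*} [Group Ω] {S : Subgroup Ω} [Finite S] (p : ℕ) [Fact p.Prime] (hS : IsPGroup p S) (F : Cfsg.FusionSystem S) (hF : F.IsSaturated p) (T : Subgroup Ω) (hT : F.StronglyClosed T) : F.StronglyClosed (T ⊔ Cfsg.FusionSystem.centralizerIn S T) := by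
  have hCS : centralizerIn S T ≤ S := centralizerIn_le S T
  refine ⟨sup_le hT.1 hCS, fun R hR φ hφ x => ?_⟩
  set R₁ := R ⊔ T
  obtain ⟨ψ, hψ, hψe⟩ := approxMod hS hF hT hφ
  obtain ⟨b, hb, a, ha, hab⟩ := mem_sup_of_normalizes
    (hCS.trans (le_normalizer_of_stronglyClosed hT)) (show (x : Ω) ∈ centralizerIn S T ⊔ T by
      rw [sup_comm]; exact hR x.2)
  let u : ↥R₁ := ⟨a, le_sup_right (a := R) ha⟩
  have hbR : b ∈ R₁ := by
    have h := R₁.mul_mem (le_sup_left (b := T) x.2) (R₁.inv_mem (le_sup_right (a := R) ha))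
    rw [← hab] at h
    simpa using h
  let v : ↥R₁ := ⟨b, hbR⟩
  have hdec : Subgroup.inclusion (le_sup_left : R ≤ R₁) x = v * u := Subtype.ext hab.symm
  have hv : ψ v ∈ centralizerIn S T := by
    refine mem_centralizerIn.2 ⟨val_mem hψ v, fun y hy => ?_⟩
    obtain ⟨w, hw, rfl⟩ := mem_img.1 ((map_stronglyClosed_eq hT le_sup_right hψ).ge hy)
    rw [← map_mul, ← map_mul, show w * v = v * w from
      Subtype.ext ((mem_centralizerIn.1 hb).2 _ hw)]
  have h := hψe x
  rw [hdec, map_mul] at h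
  have h3 := (T ⊔ centralizerIn S T).mul_mem ((T ⊔ centralizerIn S T).mul_mem
    (le_sup_right (a := T) hv)
    (le_sup_left (b := centralizerIn S T) (map_mem_of_stronglyClosed hT hψ u ha)))
    (le_sup_left (b := centralizerIn S T) h)
  simpa [mul_assoc] using h3

end Cfsg.Agent.S5255
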