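import Cfsg.Statements.S5281
import Cfsg.Agent.Lib.Fusion.PStable

set_option autoImplicit false
open Cfsg Cfsg.FusionSystem Cfsg.Agent.Lib.Fusion
open scoped commutatorElement

namespace Cfsg.Agent.S5281

/-- Let p be an odd prime and F a saturated fusion system over a finite p-group S. Call a fusion system E (over any subgroup) p-stable when, for every fully E-normalized subgroup Q and every χ in Aut_E(Q) with χ(a⁻¹)·a·χ(a⁻¹)·χ(χ(a)) = 1 for all a in Q (χ acts quadratically), χ lies in O_p(Aut_E(Q)). Then F is p-stable if and only if the normalizer fusion system of R in F is p-stable for every fully F-normalized, F-centric, F-radical subgroup R of S. -/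
theorem result {Ω : Type*} [Group Ω] {S : Subgroup Ω} [Finite S] (p : ℕ) [Fact p.Prime] (hS : IsPGroup p ↥S) (F : Cfsg.FusionSystem S) (hF : F.IsSaturated p) (hp : p ≠ 2) : (∀ Q : Subgroup Ω, F.IsFullyNormalized Q → ∀ χ : MulAut ↥Q, χ ∈ F.autGroup Q → (∀ a : ↥Q, (χ a⁻¹) * a * (χ a⁻¹) * (χ (χ a)) = 1) → χ ∈ ((Cfsg.pCore p ↥(F.autGroup Q)).map (F.autGroup Q).subtype : Subgroup (MulAut ↥Q))) ↔ ∀ R : Subgroup Ω, F.IsFullyNormalized R → F.IsCentric R → F.IsRadical p R → ∀ N : Cfsg.FusionSystem (Cfsg.FusionSystem.normalizerIn S R), F.IsNormalizerSystem R N → (∀ Q : Subgroup Ω, N.IsFullyNormalized Q → ∀ χ : MulAut ↥Q, χ ∈ N.autGroup Q → (∀ a : ↥Q, (χ a⁻¹) * a * (χ a⁻¹) * (χ (χ a)) = 1) → χ ∈ ((Cfsg.pCore p ↥(N.autGroup Q)).map (N.autGroup Q).subtype : Subgroup (MulAut ↥Q))) := by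
  constructor
  · intro h R hR _ _ N hN Q hQ χ hχ hquad
    have hQS : Q ≤ S := hQ.1.trans (normalizerIn_le S R)
    have hsub : N.autGroup Q ≤ F.autGroup Q := autGroup_mono_of_subsystem (normalizerSystem_le hN) Q
    obtain ⟨Q', hQQ', hQ'⟩ := exists_fullyNormalized (F := F) hQS
    obtain ⟨e, he⟩ := isConj_iff_iso.1 hQQ'
    have := finite_mulAut hQS
    have := finite_mulAut hQ'.1
    have h1 := h Q' hQ' (MulAut.congr e χ) (he.autGroup_map ▸ ⟨χ, hsub hχ, rfl⟩)
      (congr_quadratic e hquad)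
    refine mem_pCore_of_le hsub hχ ?_
    have h2 := mem_pCore_of_equiv (MulAut.congr e).symm (B := F.autGroup Q) (by
      rw [← he.autGroup_map, Subgroup.map_map]
      convert Subgroup.map_id (F.autGroup Q)
      exact MonoidHom.ext fun a => (MulAut.congr e).symm_apply_apply a) h1
    rwa [MulEquiv.symm_apply_apply] at h2
  · intro h Q hQ χ hχ hquad
    obtain ⟨Q₁, R, hQR, hconj, hRn, hRc, hRr, hext⟩ := exists_radical_extending hS hF hQ
    obtain ⟨N, hN⟩ := exists_normalizerSystem F hRn.1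
    have := finite_of_le (normalizerIn_le S R)
    have hQN : Q₁ ≤ normalizerIn S R := hQR.trans (le_normalizerIn hRn.1)
    obtain ⟨Q₂, hQ₁₂, hQ₂⟩ := exists_fullyNormalized (F := N) hQN
    obtain ⟨e₁, he₁⟩ := isConj_iff_iso.1 hconj
    obtain ⟨e₂, he₂⟩ := isConj_iff_iso.1 hQ₁₂
    have he₂F : IsIso F e₂ := normalizerSystem_le hN _ he₂
    have hsub : F.autGroup Q₁ ≤ N.autGroup Q₁ := by
      intro α hα
      obtain ⟨β, hβ, hβe⟩ := hext α hα
      have hβN : β ∈ N.autGroup R := by rw [normalizerSystem_autGroup hRn.1 hN]; exact hβ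
      exact (mem_autGroup hQN).2
        (mem_of_agree hQR ((mem_autGroup (le_normalizerIn hRn.1)).1 hβN) fun x => (hβe x).symm)
    have hsub₁ : N.autGroup Q₁ = F.autGroup Q₁ :=
      le_antisymm (autGroup_mono_of_subsystem (normalizerSystem_le hN) Q₁) hsub
    have heq : N.autGroup Q₂ = F.autGroup Q₂ := by
      rw [← he₂.autGroup_map, ← he₂F.autGroup_map, hsub₁]
    have he : IsIso F (e₁.trans e₂) := he₁.trans he₂F
    have := finite_mulAut hQ.1
    have := finite_mulAut (hQ₂.1.trans (normalizerIn_le S R))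
    have h1 := h R hRn hRc hRr N hN Q₂ hQ₂ (MulAut.congr (e₁.trans e₂) χ)
      (by rw [heq, ← he.autGroup_map]; exact ⟨χ, hχ, rfl⟩) (congr_quadratic _ hquad)
    rw [heq] at h1
    have h2 := mem_pCore_of_equiv (MulAut.congr (e₁.trans e₂)).symm (B := F.autGroup Q) (by
      rw [← he.autGroup_map, Subgroup.map_map]
      convert Subgroup.map_id (F.autGroup Q)
      exact MonoidHom.ext fun a => (MulAut.congr (e₁.trans e₂)).symm_apply_apply a) h1
    rwa [MulEquiv.symm_apply_apply] at h2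

end Cfsg.Agent.S5281
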