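import Cfsg.Statements.S5286
-- import your own Cfsg.Agent.* helpers here

set_option autoImplicit false
universe u
open Cfsg

namespace Cfsg.Agent.S5286

open SemidirectProduct

section
variable {α : Type*} [DecidableEq α]

omit [DecidableEq α] in
theorem mk_pair (a : α) (b : Bool) :
    FreeGroup.mk [(a, !b), (a, b)] = 1 := by
  have h : FreeGroup.Red.Step [(a, !b), (a, !!b)] [] :=
    FreeGroup.Red.Step.not (L₁ := []) (L₂ := []) (x := a) (b := !b)
  rw [Bool.not_not] at h
  exact Quot.sound h

/-- multiplying a reduced word by one letter appends it or cancels the last letter -/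
theorem mul_letter (x : FreeGroup α) (a : α) (b : Bool) :
    (x * FreeGroup.mk [(a, b)]).toWord = x.toWord ++ [(a, b)] ∨
      ∃ L, x.toWord = L ++ [(a, !b)] ∧ (x * FreeGroup.mk [(a, b)]).toWord = L := by
  by_cases h : x.toWord.getLast? = some (a, !b)
  · right
    obtain ⟨L, hL⟩ := List.getLast?_eq_some_iff.1 h
    refine ⟨L, hL, ?_⟩
    have hx : x = FreeGroup.mk L * FreeGroup.mk [(a, !b)] := by
      rw [FreeGroup.mul_mk, ← hL, FreeGroup.mk_toWord]
    have hred : FreeGroup.IsReduced L :=
      (FreeGroup.isReduced_toWord (x := x)).infix (hL ▸ (List.prefix_append L _).isInfix)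
    conv_lhs => rw [hx]
    rw [mul_assoc, FreeGroup.mul_mk (L₁ := [(a, !b)]), show [(a, !b)] ++ [(a, b)] = [(a, !b), (a, b)] from rfl,
      mk_pair, mul_one, FreeGroup.toWord_mk, hred.reduce_eq]
  · left
    have hred : FreeGroup.IsReduced (x.toWord ++ [(a, b)]) := by
      refine List.isChain_append.2 ⟨FreeGroup.isReduced_toWord, List.isChain_singleton _, ?_⟩
      intro c hc d hd he
      simp only [List.head?_cons, Option.mem_def, Option.some.injEq] at hd
      subst hd
      by_contra hne
      apply h
      rw [Option.mem_def] at hc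
      rw [hc]
      obtain ⟨c1, c2⟩ := c
      simp only at he hne
      subst he
      cases c2 <;> cases b <;> simp_all
    conv_lhs => rw [← FreeGroup.mk_toWord (x := x), FreeGroup.mul_mk, FreeGroup.toWord_mk, hred.reduce_eq]

theorem toWord_congr {β : Type*} [DecidableEq β] (e : α ≃ β) (x : FreeGroup α) :
    (FreeGroup.freeGroupCongr e x).toWord = x.toWord.map (fun l => (e l.1, l.2)) := by
  have h1 : FreeGroup.freeGroupCongr e x = FreeGroup.mk (x.toWord.map (fun l => (e l.1, l.2))) := by
    conv_lhs => rw [← FreeGroup.mk_toWord (x := x)]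
    rfl
  rw [h1, FreeGroup.toWord_mk]
  refine FreeGroup.IsReduced.reduce_eq ?_
  refine (List.isChain_map _).2 ?_
  exact List.IsChain.imp (fun a b h h' => h (e.injective h')) FreeGroup.isReduced_toWord
end

/-- conjugating the regular actions of a subgroup and of its image -/
theorem exists_intertwine {H : Type*} [Group H] [Finite H] (P : Subgroup H) (ψ : P →* H)
    (hψ : Function.Injective ψ) :
    ∃ τ : Equiv.Perm H, ∀ (x : P) (y : H), τ ((x : H) * y) = ψ x * τ y := by
  let A : (H ⧸ P) × P → H := fun q => q.1.out * (q.2 : H)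
  let B : (H ⧸ ψ.range) × P → H := fun q => q.1.out * ψ q.2
  have hA : Function.Bijective A := by
    rw [Nat.bijective_iff_injective_and_card]
    refine ⟨?_, by rw [Nat.card_prod, ← Subgroup.card_eq_card_quotient_mul_card_subgroup]⟩
    rintro ⟨q, h⟩ ⟨q', h'⟩ e
    have hq : q = q' := by
      rw [← QuotientGroup.out_eq' q, ← QuotientGroup.out_eq' q', QuotientGroup.eq]
      have : q.out⁻¹ * q'.out = (h : H) * (h' : H)⁻¹ := by
        rw [eq_mul_inv_iff_mul_eq, mul_assoc, show q'.out * (h' : H) = q.out * (h : H) from (Eq.symm e), inv_mul_cancel_left]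
      rw [this]
      exact mul_mem h.2 (inv_mem h'.2)
    subst hq
    exact Prod.ext rfl (Subtype.ext (mul_left_cancel e))
  have hB : Function.Bijective B := by
    rw [Nat.bijective_iff_injective_and_card]
    refine ⟨?_, by rw [Nat.card_prod, Nat.card_congr (MonoidHom.ofInjective hψ).toEquiv,
      ← Subgroup.card_eq_card_quotient_mul_card_subgroup]⟩
    rintro ⟨q, h⟩ ⟨q', h'⟩ e
    have hq : q = q' := by
      rw [← QuotientGroup.out_eq' q, ← QuotientGroup.out_eq' q', QuotientGroup.eq]
      have : q.out⁻¹ * q'.out = ψ h * (ψ h')⁻¹ := by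
        rw [eq_mul_inv_iff_mul_eq, mul_assoc, show q'.out * ψ h' = q.out * ψ h from (Eq.symm e), inv_mul_cancel_left]
      rw [this, ← map_inv, ← map_mul]
      exact ⟨_, rfl⟩
    subst hq
    exact Prod.ext rfl (hψ (mul_left_cancel e))
  obtain ⟨eq⟩ : Nonempty ((H ⧸ P) ≃ (H ⧸ ψ.range)) := by
    rw [← Cardinal.eq]
    have h1 := Subgroup.card_eq_card_quotient_mul_card_subgroup P
    rw [Subgroup.card_eq_card_quotient_mul_card_subgroup ψ.range, ← Nat.card_congr (MonoidHom.ofInjective hψ).toEquiv] at h1
    have h2 : Nat.card (H ⧸ P) = Nat.card (H ⧸ ψ.range) :=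
      (Nat.eq_of_mul_eq_mul_right Nat.card_pos h1).symm
    rw [← Cardinal.cast_toNat_of_lt_aleph0 (Cardinal.lt_aleph0_of_finite _),
      ← Cardinal.cast_toNat_of_lt_aleph0 (Cardinal.lt_aleph0_of_finite (H ⧸ ψ.range))]
    exact congrArg _ h2
  let eA := Equiv.ofBijective A hA
  let eB := Equiv.ofBijective B hB
  let m : H ≃ H := eA.symm.trans ((Equiv.prodCongr eq (Equiv.refl P)).trans eB)
  refine ⟨(Equiv.inv H).trans (m.trans (Equiv.inv H)), fun x y => ?_⟩
  obtain ⟨q, hy⟩ : ∃ q, eA q = y⁻¹ := ⟨_, eA.apply_symm_apply _⟩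
  have hxy : eA (q.1, q.2 * x⁻¹) = ((x : H) * y)⁻¹ := by
    rw [_root_.mul_inv_rev, ← hy]
    show q.1.out * ((q.2 * x⁻¹ : P) : H) = q.1.out * (q.2 : H) * (x : H)⁻¹
    rw [Subgroup.coe_mul, Subgroup.coe_inv, mul_assoc]
  show (m ((x : H) * y)⁻¹)⁻¹ = ψ x * (m y⁻¹)⁻¹
  rw [← hxy, ← hy]
  simp only [m, Equiv.trans_apply, Equiv.symm_apply_apply]
  show ((eq q.1).out * ψ (q.2 * x⁻¹))⁻¹ = ψ x * ((eq q.1).out * ψ q.2)⁻¹
  simp [mul_assoc]

variable {Ω : Type u} [Group Ω] {S : Subgroup Ω} [Finite S] (F : Cfsg.FusionSystem S)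

/-- the maps of the system -/
abbrev Idx : Type u := Σ P : Subgroup Ω, {φ : P →* Ω // φ ∈ F.Hom P}

variable {F}

theorem Idx.le (i : Idx F) : i.1 ≤ S := (F.le_of_mem i.2.2).1

/-- a map of the system as a homomorphism into `S` -/
def Idx.hom (i : Idx F) : i.1 →* S := i.2.1.codRestrict S (F.le_of_mem i.2.2).2

/-- the same on the subgroup of `S` -/
def Idx.sub (i : Idx F) : i.1.subgroupOf S →* S :=
  i.hom.comp (Subgroup.subgroupOfEquivOfLe i.le).toMonoidHom

theorem Idx.sub_inj (i : Idx F) : Function.Injective i.sub := by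
  intro a b h
  apply (Subgroup.subgroupOfEquivOfLe i.le).injective
  apply F.injective_of_mem i.2.2
  exact congrArg (Subtype.val) h

/-- regular representation -/
noncomputable def reg : S →* Equiv.Perm S := MulAction.toPermHom S S

omit [Finite S] in
theorem reg_apply (s y : S) : reg s y = s * y := rfl

omit [Finite S] in
theorem reg_inj : Function.Injective (reg (S := S)) := by
  intro a b h
  have h1 := congrArg (fun t : Equiv.Perm S => t 1) h
  simp only [reg_apply, mul_one] at h1
  exact h1

/-- the permutation of a map -/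
noncomputable def tau (i : Idx F) : Equiv.Perm S :=
  (exists_intertwine (i.1.subgroupOf S) i.sub i.sub_inj).choose

theorem tau_spec (i : Idx F) (x : i.1) :
    tau i * reg (⟨x, i.le x.2⟩ : S) = reg (i.hom x) * tau i := by
  ext1 y
  have h := (exists_intertwine (i.1.subgroupOf S) i.sub i.sub_inj).choose_spec
    ((Subgroup.subgroupOfEquivOfLe i.le).symm x) y
  rw [show i.sub ((Subgroup.subgroupOfEquivOfLe i.le).symm x) = i.hom x by
    simp [Idx.sub]] at h
  exact h

/-- image of a map among permutations -/
noncomputable def Rk (i : Idx F) : Subgroup (Equiv.Perm S) := (reg.comp i.hom).range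

variable (F) in
/-- edges -/
abbrev Edge : Type u := Σ i : Idx F, Equiv.Perm S ⧸ Rk i

variable (F) in
/-- action on edges -/
noncomputable def actE : Equiv.Perm S →* Equiv.Perm (Edge F) where
  toFun k := Equiv.sigmaCongrRight fun i => MulAction.toPerm k
  map_one' := Equiv.ext fun ⟨i, q⟩ => by
    show (⟨i, (1 : Equiv.Perm S) • q⟩ : Edge F) = ⟨i, q⟩; rw [one_smul]
  map_mul' a b := Equiv.ext fun ⟨i, q⟩ => by
    show (⟨i, (a * b) • q⟩ : Edge F) = ⟨i, a • b • q⟩; rw [mul_smul]

variable (F) in
/-- action on the free group on the edges -/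
noncomputable def actF : Equiv.Perm S →* MulAut (FreeGroup (Edge F)) where
  toFun k := FreeGroup.freeGroupCongr (actE F k)
  map_one' := by
    rw [map_one]; exact FreeGroup.freeGroupCongr_refl
  map_mul' a b := by
    rw [map_mul]
    exact (FreeGroup.freeGroupCongr_trans (actE F b) (actE F a)).symm

variable (F) in
/-- the ambient semidirect product -/
abbrev Amb : Type u := FreeGroup (Edge F) ⋊[actF F] Equiv.Perm S

/-- base edge -/
noncomputable def e0 (i : Idx F) : Edge F := ⟨i, ((1 : Equiv.Perm S) : Equiv.Perm S ⧸ Rk i)⟩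

theorem act_e0_iff (k : Equiv.Perm S) (i j : Idx F) : actE F k (e0 i) = e0 j ↔ i = j ∧ k ∈ Rk i := by
  show (⟨i, k • ((1 : Equiv.Perm S) : Equiv.Perm S ⧸ Rk i)⟩ : Edge F) = ⟨j, _⟩ ↔ _
  constructor
  · intro h
    obtain ⟨rfl, h2⟩ := Sigma.mk.inj_iff.1 h
    refine ⟨rfl, ?_⟩
    have h3 := eq_of_heq h2
    rw [MulAction.Quotient.smul_coe, smul_eq_mul, mul_one, QuotientGroup.eq, mul_one, inv_mem_iff] at h3
    exact h3
  · rintro ⟨rfl, h⟩
    congr 1
    rw [MulAction.Quotient.smul_coe, smul_eq_mul, mul_one, QuotientGroup.eq, mul_one, inv_mem_iff]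
    exact h

variable (F) in
/-- `S` inside -/
noncomputable def lam : S →* Amb F := (inr : Equiv.Perm S →* Amb F).comp reg

theorem lam_inj : Function.Injective (lam F) := inr_injective.comp reg_inj

theorem lam_left (s : S) : (lam F s).left = 1 := rfl

theorem lam_right (s : S) : (lam F s).right = reg s := rfl

/-- stable letter -/
noncomputable def stab (i : Idx F) : Amb F := ⟨FreeGroup.of (e0 i), tau i⟩

theorem stab_spec (i : Idx F) (x : i.1) :
    stab i * lam F ⟨x, i.le x.2⟩ = lam F (i.hom x) * stab i := by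
  ext1
  · rw [mul_left, mul_left, lam_left, map_one, mul_one, lam_left, lam_right, one_mul]
    show FreeGroup.of (e0 i) = FreeGroup.of (actE F _ (e0 i))
    exact congrArg FreeGroup.of ((act_e0_iff _ i i).2 ⟨rfl, ⟨x, rfl⟩⟩).symm
  · rw [mul_right, mul_right, lam_right, lam_right]
    exact tau_spec i x

/-- edge of a signed letter -/
noncomputable def ed (i : Idx F) : Bool → Edge F
  | true => e0 i
  | false => actE F (tau i)⁻¹ (e0 i)

/-- signed stable letter -/
noncomputable def gen (i : Idx F) : Bool → Amb F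
  | true => stab i
  | false => (stab i)⁻¹

theorem gen_left (i : Idx F) (b : Bool) : (gen i b).left = FreeGroup.mk [(ed i b, b)] := by
  cases b
  · show actF F (tau i)⁻¹ (FreeGroup.of (e0 i))⁻¹ = _
    rw [FreeGroup.of, FreeGroup.inv_mk]
    rfl
  · rfl

variable (F) in
/-- generators -/
noncomputable def gens : Set (Amb F) := Set.range (lam F) ∪ Set.range (stab (F := F))

variable (F) in
/-- the realizing group -/
noncomputable def gsub : Subgroup (Amb F) := Subgroup.closure (gens F)

theorem lam_mem (s : S) : lam F s ∈ gsub F := Subgroup.subset_closure (Or.inl ⟨s, rfl⟩)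

theorem gen_mem (i : Idx F) (b : Bool) : gen i b ∈ gsub F := by
  cases b
  · exact inv_mem (Subgroup.subset_closure (Or.inr ⟨i, rfl⟩))
  · exact Subgroup.subset_closure (Or.inr ⟨i, rfl⟩)

open scoped Classical in
/-- the word of an element -/
noncomputable def word (g : Amb F) : List (Edge F × Bool) := g.left.toWord

/-- normal forms -/
inductive NF : Amb F → Prop
  | base (s : S) : NF (lam F s)
  | step (g : Amb F) (i : Idx F) (b : Bool) (s : S) : NF g →
      word (g * gen i b) = word g ++ [(actE F g.right (ed i b), b)] → NF (g * gen i b * lam F s)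

theorem word_mul_lam (g : Amb F) (s : S) : word (g * lam F s) = word g := by
  unfold word
  rw [mul_left, lam_left, map_one, mul_one]

open scoped Classical in
theorem word_mul_gen (g : Amb F) (i : Idx F) (b : Bool) :
    word (g * gen i b) = word g ++ [(actE F g.right (ed i b), b)] ∨
      ∃ L, word g = L ++ [(actE F g.right (ed i b), !b)] ∧ word (g * gen i b) = L := by
  have : (g * gen i b).left = g.left * FreeGroup.mk [(actE F g.right (ed i b), b)] := by
    rw [mul_left, gen_left]; rfl
  unfold word
  rw [this]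
  exact mul_letter _ _ _

theorem NF.mul_lam {g : Amb F} (h : NF g) (t : S) : NF (g * lam F t) := by
  cases h with
  | base s => rw [← map_mul]; exact NF.base _
  | step g' i b s hg hw => rw [mul_assoc _ (lam F s), ← map_mul]; exact NF.step g' i b _ hg hw

theorem NF.mul_gen {g : Amb F} (h : NF g) (i : Idx F) (b : Bool) : NF (g * gen i b) := by
  rcases word_mul_gen g i b with hA | ⟨L, hL, -⟩
  · have := NF.step g i b 1 h hA
    rwa [map_one, mul_one] at this
  cases h with
  | base s => simp [word, lam_left] at hL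
  | step g' i' b' s hg hw =>
    rw [word_mul_lam, hw] at hL
    obtain ⟨-, hl⟩ := List.append_inj' hL rfl
    simp only [List.cons.injEq, Prod.mk.injEq, and_true] at hl
    obtain ⟨he, hb⟩ := hl
    rw [mul_right, mul_right, map_mul, map_mul, Equiv.Perm.mul_apply, Equiv.Perm.mul_apply] at he
    have he' := (actE F g'.right).injective he
    have key : ∃ t : S, gen i' b' * lam F s * gen i b = lam F t := by
      subst hb
      cases b with
      | false =>
        change e0 i' = actE F (tau i') (actE F (reg s) (actE F (tau i)⁻¹ (e0 i))) at he'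
        rw [← Equiv.Perm.mul_apply, ← map_mul, ← Equiv.Perm.mul_apply, ← map_mul, eq_comm, act_e0_iff] at he'
        obtain ⟨rfl, x, hx⟩ := he'
        refine ⟨i.hom x, ?_⟩
        have hs : reg s = reg (⟨x, i.le x.2⟩ : S) := by
          apply mul_left_cancel (a := tau i)
          rw [tau_spec, show reg (i.hom x) = tau i * (reg s * (tau i)⁻¹) from hx]
          group
        rw [reg_inj hs]
        show stab i * lam F _ * (stab i)⁻¹ = _
        rw [stab_spec, mul_inv_cancel_right]
      | true =>
        change actE F (tau i')⁻¹ (e0 i') = actE F (stab i')⁻¹.right (actE F (reg s) (e0 i)) at he'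
        rw [show (stab i')⁻¹.right = (tau i')⁻¹ from rfl] at he'
        have he'' := ((actE F (tau i')⁻¹).injective he').symm
        rw [act_e0_iff] at he''
        obtain ⟨rfl, x, hx⟩ := he''
        refine ⟨⟨x, i.le x.2⟩, ?_⟩
        rw [← reg_inj (hx : reg (i.hom x) = reg s)]
        show (stab i)⁻¹ * lam F _ * stab i = _
        rw [mul_assoc, ← stab_spec, inv_mul_cancel_left]
    obtain ⟨t, ht⟩ := key
    rw [mul_assoc g', mul_assoc g', ht]
    exact hg.mul_lam t

theorem nf_of_mem {g : Amb F} (h : g ∈ gsub F) : NF g := by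
  induction h using Subgroup.closure_induction_right with
  | one => rw [← map_one (lam F)]; exact NF.base 1
  | mul_right x hx y hy ih =>
    rcases hy with ⟨s, rfl⟩ | ⟨i, rfl⟩
    · exact ih.mul_lam s
    · exact ih.mul_gen i true
  | mul_inv_cancel x hx y hy ih =>
    rcases hy with ⟨s, rfl⟩ | ⟨i, rfl⟩
    · rw [← map_inv]; exact ih.mul_lam _
    · exact ih.mul_gen i false

theorem NF.mem {g : Amb F} (h : NF g) : g ∈ gsub F := by
  induction h with
  | base s => exact lam_mem s
  | step g i b s _ _ ih => exact mul_mem (mul_mem ih (gen_mem i b)) (lam_mem s)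

open scoped Classical in
theorem word_eq_nil {g : Amb F} : word g = [] ↔ g.left = 1 := FreeGroup.toWord_eq_nil_iff

theorem exists_lam {g : Amb F} (h : g ∈ gsub F) (h1 : g.left = 1) : ∃ s, g = lam F s := by
  cases nf_of_mem h with
  | base s => exact ⟨s, rfl⟩
  | step g' i b s hg hw =>
    rw [← word_eq_nil, word_mul_lam, hw] at h1
    simp at h1

theorem exists_prefix {g : Amb F} (h : g ∈ gsub F) (L : List (Edge F × Bool)) (hL : L <+: word g) :
    ∃ γ ∈ gsub F, word γ = L := by
  induction nf_of_mem h generalizing L with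
  | base s =>
    rw [word_eq_nil.2 (lam_left s), List.prefix_nil] at hL
    subst hL
    exact ⟨1, one_mem _, word_eq_nil.2 rfl⟩
  | step g' i b s hg hw ih =>
    rw [word_mul_lam, hw, List.prefix_concat_iff] at hL
    rcases hL with rfl | hL
    · exact ⟨g' * gen i b, mul_mem hg.mem (gen_mem i b), hw⟩
    · exact ih hg.mem L hL

open scoped Classical in
theorem fix_prefix {g' g : Amb F} {l : Edge F × Bool} (hw : word g = word g' ++ [l]) (k : Equiv.Perm S)
    (hk : actF F k g.left = g.left) : actF F k g'.left = g'.left := by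
  apply FreeGroup.toWord_injective
  have h := congrArg FreeGroup.toWord hk
  change (FreeGroup.freeGroupCongr (actE F k) g.left).toWord = _ at h
  show (FreeGroup.freeGroupCongr (actE F k) g'.left).toWord = _
  rw [toWord_congr] at h ⊢
  unfold word at hw
  rw [hw, List.map_append] at h
  exact (List.append_inj h (by simp)).1

theorem gen_fusion (i : Idx F) (b : Bool) (a c : S) (h : lam F c = gen i b * lam F a * (gen i b)⁻¹) :
    (b = true ∧ ∃ x : i.1, a = ⟨x, i.le x.2⟩ ∧ c = i.hom x) ∨
      (b = false ∧ ∃ x : i.1, c = ⟨x, i.le x.2⟩ ∧ a = i.hom x) := by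
  rw [eq_mul_inv_iff_mul_eq] at h
  have main : ∀ a c : S, lam F c * stab i = stab i * lam F a →
      ∃ x : i.1, a = ⟨x, i.le x.2⟩ ∧ c = i.hom x := by
    intro a c h
    have hl : actE F (reg c) (e0 i) = e0 i := by
      have h1 := congrArg SemidirectProduct.left h
      rw [mul_left, mul_left, lam_left, lam_left, map_one, mul_one, one_mul] at h1
      exact FreeGroup.of_injective h1
    obtain ⟨-, x, hx⟩ := (act_e0_iff _ _ _).1 hl
    have hc : i.hom x = c := reg_inj hx
    refine ⟨x, ?_, hc.symm⟩
    rw [← hc, ← stab_spec] at h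
    exact lam_inj (mul_left_cancel h).symm
  cases b with
  | true => exact Or.inl ⟨rfl, main a c h⟩
  | false =>
    refine Or.inr ⟨rfl, ?_⟩
    change lam F c * (stab i)⁻¹ = (stab i)⁻¹ * lam F a at h
    refine main c a ?_
    rw [mul_inv_eq_iff_eq_mul, mul_assoc, eq_inv_mul_iff_mul_eq] at h
    exact h.symm

theorem fusion {g : Amb F} (h : NF g) (P : Subgroup Ω) (hP : P ≤ S) (φ : P →* Ω) (hφ : ∀ x : P, φ x ∈ S)
    (hc : ∀ x : P, lam F ⟨φ x, hφ x⟩ = g * lam F ⟨x, hP x.2⟩ * g⁻¹) : φ ∈ F.Hom P := by
  induction h generalizing P with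
  | base s =>
    have : φ = conjHom P (s : Ω) := by
      ext x
      have hx := hc x
      rw [← map_inv, ← map_mul, ← map_mul] at hx
      exact congrArg Subtype.val (lam_inj hx)
    rw [this]
    exact F.conj_mem hP s.2
  | step g' i b s hg hw ih =>
    let g := g' * gen i b * lam F s
    have hc' : ∀ x : P, ∃ c : S, lam F c = gen i b * lam F (s * ⟨x, hP x.2⟩ * s⁻¹) * (gen i b)⁻¹ ∧
        lam F ⟨φ x, hφ x⟩ = g' * lam F c * g'⁻¹ := by
      intro x
      have hx := hc x
      have e : lam F ⟨φ x, hφ x⟩ = g' * (gen i b * lam F (s * ⟨x, hP x.2⟩ * s⁻¹) * (gen i b)⁻¹) * g'⁻¹ := by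
        rw [hx, map_mul, map_mul, map_inv]; group
      have hk : actF F (reg ⟨φ x, hφ x⟩) g.left = g.left := by
        have h1 : lam F ⟨φ x, hφ x⟩ * g = g * lam F ⟨x, hP x.2⟩ := by rw [hx]; simp [g, mul_assoc]
        have h2 := congrArg SemidirectProduct.left h1
        have e1 : (g * lam F ⟨x, hP x.2⟩).left = g.left := by
          rw [mul_left g, lam_left, map_one, mul_one]
        have e2 : (lam F ⟨φ x, hφ x⟩ * g).left = actF F (reg ⟨φ x, hφ x⟩) g.left := by
          rw [mul_left (lam F ⟨φ x, hφ x⟩), lam_left, lam_right, one_mul]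
        exact e2.symm.trans (h2.trans e1)
      have hk' := fix_prefix ((word_mul_lam _ s).trans hw) _ hk
      obtain ⟨c, hcc⟩ := exists_lam
        (g := g'⁻¹ * lam F ⟨φ x, hφ x⟩ * g') (mul_mem (mul_mem (inv_mem hg.mem) (lam_mem _)) hg.mem)
        (by
          rw [mul_left, mul_left, mul_right, inv_left, inv_right, lam_left, lam_right, map_one, mul_one,
            map_mul, MulAut.mul_apply, hk', ← map_mul, inv_mul_cancel, map_one])
      refine ⟨c, ?_, ?_⟩
      · rw [← hcc, e]; group
      · rw [← hcc]; group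
    let χ1 : P →* Ω := conjHom P (s : Ω)
    have hχ1 : χ1 ∈ F.Hom P := F.conj_mem hP s.2
    have hc1 : ∀ x : P, χ1 x = ((s * ⟨x, hP x.2⟩ * s⁻¹ : S) : Ω) := fun x => rfl
    -- the map to the other end of the stable letter
    obtain ⟨χ2, hχ2, hval⟩ : ∃ χ2 ∈ F.Hom P, ∀ (x : P) (c : S),
        lam F c = gen i b * lam F (s * ⟨x, hP x.2⟩ * s⁻¹) * (gen i b)⁻¹ → χ2 x = (c : Ω) := by
      cases b with
      | true =>
        have hin : ∀ x : P, χ1 x ∈ i.1 := by
          intro x
          obtain ⟨c, hc1', -⟩ := hc' x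
          rcases gen_fusion i true _ c hc1' with ⟨-, y, hy, -⟩ | ⟨h', -⟩
          · rw [hc1, hy]; exact y.2
          · simp at h'
        refine ⟨_, F.comp_mem hχ1 i.2.2 hin, fun x c hcx => ?_⟩
        rcases gen_fusion i true _ c hcx with ⟨-, y, hy, rfl⟩ | ⟨h', -⟩
        · have : (⟨χ1 x, hin x⟩ : i.1) = y := Subtype.ext ((hc1 x).trans (congrArg Subtype.val hy))
          show i.2.1 ⟨χ1 x, hin x⟩ = _
          rw [this]; rfl
        · simp at h'
      | false =>
        obtain ⟨ψ, hψ, hψv⟩ := F.inv_mem i.2.2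
        have hin : ∀ x : P, χ1 x ∈ i.2.1.range := by
          intro x
          obtain ⟨c, hc1', -⟩ := hc' x
          rcases gen_fusion i false _ c hc1' with ⟨h', -⟩ | ⟨-, y, -, hy⟩
          · simp at h'
          · rw [hc1, hy]; exact ⟨y, rfl⟩
        refine ⟨_, F.comp_mem hχ1 hψ hin, fun x c hcx => ?_⟩
        rcases gen_fusion i false _ c hcx with ⟨h', -⟩ | ⟨-, y, rfl, hy⟩
        · simp at h'
        · show ψ ⟨χ1 x, hin x⟩ = (y : Ω)
          rw [← hψv y]
          congr 1
          exact Subtype.ext ((hc1 x).trans (congrArg Subtype.val hy))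
    obtain ⟨ψ0, hψ0, hψ0v⟩ := F.inv_mem hχ2
    have hψ0P : ∀ q : χ2.range, ψ0 q ∈ P := by
      rintro ⟨_, x, rfl⟩
      rw [hψ0v]; exact x.2
    let ψ : χ2.range →* Ω := φ.comp (ψ0.codRestrict P hψ0P)
    have hψx : ∀ x : P, ψ ⟨χ2 x, x, rfl⟩ = φ x := fun x => by
      show φ ⟨ψ0 _, _⟩ = φ x
      congr 1
      exact Subtype.ext (hψ0v x)
    have hQ : χ2.range ≤ S := by
      rintro _ ⟨x, rfl⟩
      exact (F.le_of_mem hχ2).2 x
    have hψmem : ψ ∈ F.Hom χ2.range := by
      refine ih _ hQ ψ (fun q => hφ _) ?_
      rintro ⟨_, x, rfl⟩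
      obtain ⟨c, hc1', hc2'⟩ := hc' x
      have h1 : (⟨χ2 x, hQ ⟨x, rfl⟩⟩ : S) = c := Subtype.ext (hval x c hc1')
      rw [h1, ← hc2']
      congr 1
      exact Subtype.ext (hψx x)
    have hφeq : φ = ψ.comp (χ2.codRestrict χ2.range fun x => ⟨x, rfl⟩) := by
      ext x; exact (hψx x).symm
    rw [hφeq]
    exact F.comp_mem hχ2 hψmem _

open scoped Classical in
theorem word_inv (g : Amb F) :
    word g⁻¹ = (FreeGroup.invRev (word g)).map (fun l => (actE F g.right⁻¹ l.1, l.2)) := by
  unfold word
  rw [inv_left]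
  exact (toWord_congr _ _).trans (by rw [FreeGroup.toWord_inv])

open scoped Classical in
theorem head_eq {n : ℕ} {g0 h : Amb F} (hn : (word g0).length = n + 1)
    (hb : (word (g0⁻¹ * h)).length ≤ n + 1) (x : Edge F × Bool) (T : List (Edge F × Bool))
    (hx : word g0 = x :: T) (hne : word h ≠ []) : (word h).head? = some x := by
  obtain ⟨y, T', hy⟩ := List.exists_cons_of_ne_nil hne
  rw [hy, List.head?_cons, Option.some.injEq]
  by_contra hne'
  have hl : (g0⁻¹ * h).left = actF F g0.right⁻¹ (g0.left⁻¹ * h.left) := by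
    rw [mul_left, inv_left, inv_right, ← map_mul]
  have hlen : (word (g0⁻¹ * h)).length = (g0.left⁻¹ * h.left).toWord.length := by
    unfold word
    rw [hl]
    exact (congrArg List.length (toWord_congr _ _)).trans (List.length_map _)
  unfold word at hx hy hn
  have hred : FreeGroup.IsReduced (FreeGroup.invRev g0.left.toWord ++ h.left.toWord) := by
    refine List.isChain_append.2 ⟨?_, FreeGroup.isReduced_toWord, ?_⟩
    · rw [← FreeGroup.toWord_inv]; exact FreeGroup.isReduced_toWord
    · intro c hc d hd he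
      rw [hy, List.head?_cons, Option.mem_def, Option.some.injEq] at hd
      rw [hx, Option.mem_def] at hc
      simp [FreeGroup.invRev] at hc
      subst hd hc
      by_contra hb'
      apply hne'
      refine Prod.ext he.symm ?_
      simp only at hb'
      revert hb'
      cases x.2 <;> cases y.2 <;> simp
  rw [hlen, FreeGroup.toWord_mul, FreeGroup.toWord_inv, hred.reduce_eq, List.length_append,
    FreeGroup.invRev_length, hn, hy, List.length_cons] at hb
  omega

open scoped Classical in
theorem fixed_vertex (n : ℕ) : ∀ {H : Type u} [Group H] (f : H →* Amb F), (∀ h, f h ∈ gsub F) →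
    (∀ h, (word (f h)).length ≤ n) → ∃ γ ∈ gsub F, ∀ h, (γ⁻¹ * f h * γ).left = 1 := by
  induction n with
  | zero =>
    intro H _ f hf hn
    refine ⟨1, one_mem _, fun h => ?_⟩
    rw [inv_one, one_mul, mul_one]
    exact word_eq_nil.1 (List.eq_nil_of_length_eq_zero (Nat.le_zero.1 (hn h)))
  | succ n ih =>
    intro H _ f hf hn
    by_cases hlong : ∃ h, (word (f h)).length = n + 1
    swap
    · push Not at hlong
      exact ih f hf fun h => by have := hn h; have := hlong h; omega
    obtain ⟨g0, hg0⟩ := hlong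
    obtain ⟨x, T, hx⟩ := List.exists_cons_of_length_eq_add_one hg0
    have hhead : ∀ h, word (f h) ≠ [] → (word (f h)).head? = some x := fun h hne =>
      head_eq hg0 (by rw [← map_inv, ← map_mul]; exact hn _) x T hx hne
    obtain ⟨γ, hγ, hγw⟩ := exists_prefix (hf g0) [x] ⟨T, by rw [hx]; rfl⟩
    have hγl : γ.left = FreeGroup.mk [x] := by
      rw [← hγw]; exact FreeGroup.mk_toWord.symm
    let f' : H →* Amb F := (MulAut.conj γ⁻¹).toMonoidHom.comp f
    have hf' : ∀ h, f' h = γ⁻¹ * f h * γ := fun h => by simp [f', MulAut.conj_apply]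
    have hb : ∀ h, (word (f' h)).length ≤ n := by
      intro h
      set k := (f h).right with hk
      have hl : (f' h).left = actF F γ.right⁻¹ (γ.left⁻¹ * ((f h).left * actF F k γ.left)) := by
        rw [hf', mul_left, mul_left, mul_right, inv_left, inv_right, map_mul (actF F), MulAut.mul_apply,
          map_mul, map_mul, mul_assoc, ← hk]
      have hlen : (word (f' h)).length = (γ.left⁻¹ * ((f h).left * actF F k γ.left)).toWord.length := by
        unfold word
        rw [hl]
        exact (congrArg List.length (toWord_congr _ _)).trans (List.length_map _)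
      rw [hlen]
      have hkx : actF F k γ.left = FreeGroup.mk [(actE F k x.1, x.2)] := by rw [hγl]; rfl
      by_cases hne : word (f h) = []
      · -- `h` fixes the base vertex, so it fixes the first edge
        have h1 : (f h).left = 1 := word_eq_nil.1 hne
        have hw : word (f (h * g0)) = (word (f g0)).map (fun l => (actE F k l.1, l.2)) := by
          unfold word
          rw [map_mul, mul_left, h1, one_mul]
          exact toWord_congr _ _
        have h2 := hhead (h * g0) (by rw [hw, hx]; simp)
        rw [hw, hx] at h2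
        simp only [List.map_cons, List.head?_cons, Option.some.injEq] at h2
        rw [h1, one_mul, hkx, h2, ← hγl, inv_mul_cancel, FreeGroup.toWord_one]
        exact Nat.zero_le _
      · have hh := hhead h hne
        have hi : word (f h⁻¹) ≠ [] := by
          rw [map_inv, word_inv]
          intro h'
          apply hne
          rw [List.map_eq_nil_iff] at h'
          exact List.eq_nil_of_length_eq_zero (by rw [← FreeGroup.invRev_length, h']; rfl)
        have hlast := hhead h⁻¹ hi
        rw [map_inv, word_inv, ← hk, List.head?_map, FreeGroup.invRev, List.head?_reverse, List.getLast?_map,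
          Option.map_map, Option.map_eq_some_iff] at hlast
        obtain ⟨l, hl', hlx⟩ := hlast
        have hl2 : l = (actE F k x.1, !x.2) := by
          rw [← hlx]
          refine Prod.ext ?_ (Bool.not_not _).symm
          show l.1 = actE F k (actE F k⁻¹ l.1)
          rw [← Equiv.Perm.mul_apply, ← map_mul, mul_inv_cancel, map_one]
          rfl
        obtain ⟨M', hM'⟩ := List.getLast?_eq_some_iff.1 hl'
        rw [hM'] at hh
        cases M' with
        | nil =>
          simp only [List.nil_append, List.head?_cons, Option.some.injEq] at hh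
          rw [hl2] at hh
          have := congrArg Prod.snd hh
          simp at this
        | cons y M =>
          simp only [List.cons_append, List.head?_cons, Option.some.injEq] at hh
          subst hh
          have hfe : (f h).left = γ.left * FreeGroup.mk M * (actF F k γ.left)⁻¹ := by
            rw [hkx, hγl, FreeGroup.inv_mk, FreeGroup.mul_mk, FreeGroup.mul_mk]
            conv_lhs => rw [← FreeGroup.mk_toWord (x := (f h).left)]
            unfold word at hM'
            rw [hM', hl2]
            rfl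
          rw [hfe, mul_assoc (γ.left * _), inv_mul_cancel, mul_one, ← mul_assoc, inv_mul_cancel, one_mul]
          have hMn : (word (f h)).length = M.length + 2 := by rw [hM']; simp
          have := hn h
          refine le_trans (FreeGroup.norm_mk_le (L₁ := M)) ?_
          omega
    obtain ⟨δ, hδ, hfix⟩ := ih f' (fun h => by rw [hf']; exact mul_mem (mul_mem (inv_mem hγ) (hf h)) hγ) hb
    refine ⟨γ * δ, mul_mem hγ hδ, fun h => ?_⟩
    have := hfix h
    rw [hf'] at this
    rw [← this]
    congr 1
    group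



/-- Every fusion system F over a finite p-group S, saturated or not, is realized by a possibly infinite group: there are a group G and an injective homomorphism ι of S into G such that the maps of F are exactly the conjugations by elements of G between subgroups of ι(S), every finite subgroup of G is conjugate to a subgroup of ι(S), and G has a free normal subgroup whose index divides (#S)!. -/
theorem result {Ω : Type u} [Group Ω] {S : Subgroup Ω} [Finite S] (p : ℕ) [Fact p.Prime] (hS : IsPGroup p ↥S) (F : Cfsg.FusionSystem S) : ∃ (G : Type u) (_ : Group G) (ι : ↥S →* G), F.IsRealizedBy ι ∧ (∀ H : Subgroup G, Finite ↥H → ∃ g : G, ∀ h ∈ H, g * h * g⁻¹ ∈ ι.range) ∧ ∃ N : Subgroup G, N.Normal ∧ IsFreeGroup ↥N ∧ N.index ∣ (Nat.card ↥S).factorial := by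
  classical
  refine ⟨gsub F, inferInstance, (lam F).codRestrict (gsub F) lam_mem, ⟨?_, ?_⟩, ?_, ?_⟩
  · intro a b h
    exact lam_inj (congrArg Subtype.val h)
  · intro P hP φ hφ
    constructor
    · intro h
      refine ⟨⟨gen ⟨P, φ, h⟩ true, gen_mem _ _⟩, fun x => Subtype.ext ?_⟩
      show lam F ⟨φ x, hφ x⟩ = stab _ * lam F ⟨x, hP x.2⟩ * (stab _)⁻¹
      rw [eq_mul_inv_iff_mul_eq]
      exact (stab_spec (⟨P, φ, h⟩ : Idx F) x).symm
    · rintro ⟨g, hg⟩
      exact fusion (nf_of_mem g.2) P hP φ hφ fun x => congrArg Subtype.val (hg x)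
  · intro H hH
    obtain ⟨m, hm⟩ := Finite.bddAbove_range (fun h : H => (word ((h : gsub F) : Amb F)).length)
    obtain ⟨γ, hγ, hfix⟩ := fixed_vertex m ((gsub F).subtype.comp H.subtype) (fun h => h.1.2)
      fun h => hm ⟨h, rfl⟩
    refine ⟨⟨γ⁻¹, inv_mem hγ⟩, fun h hh => ?_⟩
    obtain ⟨s, hs⟩ := exists_lam (g := γ⁻¹ * (h : Amb F) * γ)
      (mul_mem (mul_mem (inv_mem hγ) h.2) hγ) (hfix ⟨h, hh⟩)
    refine ⟨s, Subtype.ext ?_⟩
    show lam F s = γ⁻¹ * (h : Amb F) * γ⁻¹⁻¹
    rw [inv_inv, hs]
  · refine ⟨((rightHom : Amb F →* Equiv.Perm S).comp (gsub F).subtype).ker, inferInstance, ?_, ?_⟩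
    · let K : Subgroup (FreeGroup (Edge F)) := (gsub F).comap inl
      let e : K ≃* ((rightHom : Amb F →* Equiv.Perm S).comp (gsub F).subtype).ker :=
        { toFun := fun w => ⟨⟨(inl (w : FreeGroup (Edge F)) : Amb F), w.2⟩, MonoidHom.mem_ker.2 rfl⟩
          invFun := fun g => ⟨((g : gsub F) : Amb F).left, by
            show (inl _ : Amb F) ∈ gsub F
            convert (g : gsub F).2 using 1
            ext1
            · rfl
            · exact (MonoidHom.mem_ker.1 g.2).symm⟩
          left_inv := fun w => rfl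
          right_inv := fun g => by
            apply Subtype.ext
            apply Subtype.ext
            ext1
            · rfl
            · exact (MonoidHom.mem_ker.1 g.2).symm
          map_mul' := fun a b => Subtype.ext (Subtype.ext (map_mul _ _ _)) }
      exact IsFreeGroup.ofMulEquiv e
    · rw [Subgroup.index_ker]
      refine (Subgroup.card_subgroup_dvd_card _).trans ?_
      rw [Nat.card_perm]

end Cfsg.Agent.S5286
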