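import Cfsg.Statements.S5296
import Cfsg.Agent.Lib.Fusion.SmallExp

set_option autoImplicit false
universe u
open Cfsg Cfsg.FusionSystem Cfsg.Agent.Lib.Fusion
open scoped commutatorElement

namespace Cfsg.Agent.S5296

/-- Small-exponent abelian subgroups of the hyperfocal subgroup control fusion. Let E and F be saturated fusion systems over the same finite p-group S with E contained in F. Suppose that E and F have the same maps between A and B for all subgroups A, B of the hyperfocal subgroup of F that are elementary abelian when p is odd, respectively abelian of exponent dividing 4 when p = 2. Then E = F. -/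
theorem result {Ω : Type u} [Group Ω] {S : Subgroup Ω} [Finite S] (p : ℕ) [Fact p.Prime] (hS : IsPGroup p S)
    (E F : Cfsg.FusionSystem S) (hE : E.IsSaturated p) (hF : F.IsSaturated p) (hEF : E.IsSubsystemOf F)
    (hodd : p ≠ 2 → ∀ A B : Subgroup Ω, A ≤ (F.hyperfocalSubgroup p) → B ≤ (F.hyperfocalSubgroup p) →
      Cfsg.IsElementaryAbelian p A → Cfsg.IsElementaryAbelian p B → E.homSet A B = F.homSet A B)
    (htwo : p = 2 → ∀ A B : Subgroup Ω, A ≤ (F.hyperfocalSubgroup p) → B ≤ (F.hyperfocalSubgroup p) →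
      IsMulCommutative ↥A → IsMulCommutative ↥B → (∀ a ∈ A, a ^ 4 = 1) → (∀ b ∈ B, b ^ 4 = 1) → E.homSet A B = F.homSet A B) :
    ∀ P : Subgroup Ω, E.Hom P = F.Hom P := by
  have hgen : ∀ R : Subgroup Ω, R ≤ S → ∀ α ∈ F.autGroup R, (orderOf α).Coprime p →
      ∀ x : R, (x : Ω)⁻¹ * (α x : Ω) ∈ F.hyperfocalSubgroup p := fun P hP α hα hcop y =>
    inv_mul_mem_hyperfocal hP (α := ⟨α, hα⟩) (coprime_mem_pResidual hcop) y
  have hle : F ≤ E := le_of_small _ F E rfl hS hF hE hEF _ (le_normalizer_hyperfocal F) hgen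
    fun A hA φ hφ hφW => by
      obtain ⟨hAW, hAc, hAe⟩ := hA
      have hB : φ.range ≤ F.hyperfocalSubgroup p := by
        rintro _ ⟨x, rfl⟩
        exact hφW x
      have hcA : IsMulCommutative ↥A := ⟨⟨fun a b => Subtype.ext (hAc a a.2 b b.2)⟩⟩
      have hcB : IsMulCommutative ↥φ.range := ⟨⟨fun a b => by
        obtain ⟨_, a, rfl⟩ := a
        obtain ⟨_, b, rfl⟩ := b
        refine Subtype.ext ?_
        show φ a * φ b = φ b * φ a
        rw [← map_mul, ← map_mul]
        exact congrArg φ (Subtype.ext (hAc a a.2 b b.2))⟩⟩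
      have heB : ∀ b ∈ φ.range, b ^ smallExp p = 1 := by
        rintro _ ⟨a, rfl⟩
        rw [← map_pow]
        have : a ^ smallExp p = 1 := Subtype.ext (by simpa using hAe a a.2)
        rw [this, map_one]
      have hmem : φ ∈ F.homSet A φ.range := ⟨hφ, fun x => ⟨x, rfl⟩⟩
      by_cases h2 : p = 2
      · subst h2
        rw [← htwo rfl A φ.range hAW hB hcA hcB hAe heB] at hmem
        exact hmem.1
      · have hq : smallExp p = p := if_neg h2
        rw [hq] at hAe heB
        rw [← hodd h2 A φ.range hAW hB ⟨hcA, hAe⟩ ⟨hcB, heB⟩] at hmem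
        exact hmem.1
  exact fun P => Set.Subset.antisymm (hEF P) (hle P)

end Cfsg.Agent.S5296
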