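import Cfsg.Statements.S5298
import Cfsg.Agent.Lib.Fusion.SmallCyclic

set_option autoImplicit false
universe u
open Cfsg Cfsg.FusionSystem Cfsg.Agent.Lib.Fusion
open scoped commutatorElement

namespace Cfsg.Agent.S5298

/-- Let F be a saturated fusion system over a finite p-group S. If every map of F between cyclic subgroups of the hyperfocal subgroup of F of order p or 4 is conjugation by an element of S, then F is the inner fusion system of S. -/
theorem result {Ω : Type u} [Group Ω] {S : Subgroup Ω} [Finite S] (p : ℕ) [Fact p.Prime] (hS : IsPGroup p S)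
    (F : Cfsg.FusionSystem S) (hF : F.IsSaturated p)
    (h : ∀ A B : Subgroup Ω, A ≤ (F.hyperfocalSubgroup p) → B ≤ (F.hyperfocalSubgroup p) → IsCyclic ↥A → (Nat.card ↥A = p ∨ Nat.card ↥A = 4) → IsCyclic ↥B → (Nat.card ↥B = p ∨ Nat.card ↥B = 4) →
      F.homSet A B ⊆ (Cfsg.innerFusionSystem S).Hom A) :
    ∀ P : Subgroup Ω, F.Hom P = (Cfsg.innerFusionSystem S).Hom P := by
  have hgen : ∀ R : Subgroup Ω, R ≤ S → ∀ α ∈ F.autGroup R, (orderOf α).Coprime p →
      ∀ x : R, (x : Ω)⁻¹ * (α x : Ω) ∈ F.hyperfocalSubgroup p := fun P hP α hα hcop y =>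
    inv_mul_mem_hyperfocal hP (α := ⟨α, hα⟩) (coprime_mem_pResidual hcop) y
  have hW := le_normalizer_hyperfocal (p := p) F
  have hinner : ∀ P : Subgroup Ω, (Cfsg.innerFusionSystem S).Hom P ⊆ F.Hom P := fun P φ hφ => by
    obtain ⟨hP, g, hg, hφe⟩ := hφ
    exact mem_of_agree le_rfl (F.conj_mem hP hg) fun x => by simp [hφe x, conjHom]
  have h' : ∀ A B : Subgroup Ω, A ≤ F.hyperfocalSubgroup p → B ≤ F.hyperfocalSubgroup p →
      IsCyclic ↥A → (Nat.card ↥A = p ∨ Nat.card ↥A = 4) → IsCyclic ↥B →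
      (Nat.card ↥B = p ∨ Nat.card ↥B = 4) → F.homSet A B ⊆ F.normalizerHom S A := by
    intro A B hA hB hAc hAo hBc hBo φ hφ
    obtain ⟨hAS, g, hg, hge⟩ := h A B hA hB hAc hAo hBc hBo hφ
    refine ⟨hφ.1, le_normalizerIn le_rfl |>.trans' hAS,
      fun x => le_normalizerIn le_rfl (val_mem hφ.1 x), conjHom _ g,
      F.conj_mem (sup_le hAS le_rfl) hg, fun x => by simp [conjHom, hge x], ?_⟩
    ext y
    constructor
    · rintro ⟨x, hx, rfl⟩
      exact S.mul_mem (S.mul_mem hg hx) (S.inv_mem hg)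
    · intro hy
      exact ⟨⟨g⁻¹ * y * g, Subgroup.mem_sup_right (S.mul_mem (S.mul_mem (S.inv_mem hg) hy) hg)⟩,
        S.mul_mem (S.mul_mem (S.inv_mem hg) hy) hg, by simp [conjHom, mul_assoc]⟩
  have hlev := preservesLevels_of_normalizer hS hF hW hgen h'
  have hnorm : F.IsNormal S := isNormal_of_levels hS hF hW hgen hlev
  have hle : F ≤ Cfsg.innerFusionSystem S := by
    refine alperin hS hF _ fun P hP => ?_
    rcases hP with rfl | hP
    swap
    · exact absurd (le_of_isNormal hS hnorm hP.1 (isRadical_of_essential hS hP))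
        (ne_top_of_essential hS hF hP).not_ge
    refine autGroup_le_of_coprime hS hF fullyNormalized_self _ (autInducedBy_le_autGroup le_rfl)
      fun α hα hcop => ?_
    suffices h1 : α = 1 by rw [h1]; exact one_mem _
    refine mulAut_eq_one_of_steps hS (F.autGroup P) (fun r => inn_le_autGroup le_rfl ⟨r, rfl⟩) hcop
      ((F.hyperfocalSubgroup p).subgroupOf P) (fun r => hgen P le_rfl α hα hcop r) fun B hBG _ hex => ?_
    obtain ⟨y₀, hy₀⟩ := hex
    obtain ⟨y, hy, hyz⟩ := exists_level_escape hS hW hlev le_rfl B hBG ⟨y₀, hy₀⟩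
    refine ⟨y, hy.2.2.2, fun γ hγ => ?_⟩
    have hz : Escapes p (F.hyperfocalSubgroup p) B (γ y) := hy.map
      (fun x hx => (map_mem_of_gen hS hF hW hgen ((mem_autGroup le_rfl).1 hγ) x).2 hx)
      fun b hb => hBG _ (Subgroup.inv_mem _ hγ) b hb
    have hz1 : (γ y : Ω) ≠ 1 := fun hc => hz.2.2.2 (by
      have : γ y = 1 := Subtype.ext hc
      rw [this]; exact B.one_mem)
    have hzP : Subgroup.zpowers ((γ y : P) : Ω) ≤ P := Subgroup.zpowers_le.2 (γ y).2
    set φ : Subgroup.zpowers ((γ y : P) : Ω) →* Ω :=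
      (P.subtype.comp α.toMonoidHom).comp (Subgroup.inclusion hzP) with hφdef
    have hφ : φ ∈ F.Hom _ := mem_of_agree hzP ((mem_autGroup le_rfl).1 hα) fun _ => rfl
    have hyq : (γ y : Ω) ^ smallExp p = 1 := by simpa using congrArg Subtype.val hz.2.1
    have hwq : ((α (γ y) : P) : Ω) ^ smallExp p = 1 := by
      simpa using congrArg Subtype.val (show (α (γ y)) ^ smallExp p = 1 by
        rw [← map_pow, hz.2.1, map_one])
    have hwW := (map_mem_of_gen hS hF hW hgen ((mem_autGroup le_rfl).1 hα) (γ y)).2 hz.1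
    have hmem : φ ∈ F.homSet _ (Subgroup.zpowers ((α (γ y) : P) : Ω)) := by
      refine ⟨hφ, ?_⟩
      rintro ⟨z, hz'⟩
      obtain ⟨k, rfl⟩ := Subgroup.mem_zpowers_iff.1 hz'
      refine Subgroup.mem_zpowers_iff.2 ⟨k, ?_⟩
      have h1 : (⟨((γ y : P) : Ω) ^ k, hz'⟩ : Subgroup.zpowers ((γ y : P) : Ω)) =
          ⟨_, Subgroup.mem_zpowers _⟩ ^ k := Subtype.ext (by simp)
      rw [h1, map_zpow]
      rfl
    obtain ⟨-, g, hg, hge⟩ := h _ _ (Subgroup.zpowers_le.2 hz.1) (Subgroup.zpowers_le.2 hwW)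
      inferInstance (small_cyclic hyq hz1) inferInstance
      (small_cyclic hwq fun hc => hz1 (by
        have : α (γ y) = 1 := Subtype.ext hc
        rw [MulEquiv.map_eq_one_iff] at this
        rw [this]; rfl)) hmem
    have hgN : g ∈ normalizerIn P P := le_normalizerIn le_rfl hg
    have hαg : α (γ y) = conjAut P hgN.2 (γ y) := by
      refine Subtype.ext ?_
      rw [conjAut_apply]
      exact hge ⟨_, Subgroup.mem_zpowers _⟩
    rw [hαg]
    exact hyz _ hz ⟨γ, hγ, rfl⟩ g hgN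
  exact fun P => Set.Subset.antisymm (hle P) (hinner P)

end Cfsg.Agent.S5298
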