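import Cfsg.Statements.S5300
import Cfsg.Agent.Lib.Fusion.SmallCyclic

set_option autoImplicit false
universe u
open Cfsg Cfsg.FusionSystem Cfsg.Agent.Lib.Fusion
open scoped commutatorElement

namespace Cfsg.Agent.S5300

/-- Let F be a saturated fusion system over a finite p-group S. If every cyclic subgroup of the focal subgroup of F of order p (of order 2 or 4 when p = 2) is normal in S, then S is normal in F. -/
theorem result {Ω : Type u} [Group Ω] {S : Subgroup Ω} [Finite S] (p : ℕ) [Fact p.Prime] (hS : IsPGroup p S)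
    (F : Cfsg.FusionSystem S) (hF : F.IsSaturated p)
    (hnorm : ∀ x ∈ F.focalSubgroup, (x ^ p = 1 ∨ (p = 2 ∧ x ^ 4 = 1)) → ∀ s ∈ S, s * x * s⁻¹ ∈ Subgroup.zpowers x) :
    F.IsNormal S := by
  have hW : S ≤ Subgroup.normalizer (F.focalSubgroup : Set Ω) := by
    intro g hg
    have hle : F.focalSubgroup ≤ S := (Subgroup.closure_le _).2 (by
      rintro _ ⟨P, φ, x, hφ, rfl⟩
      exact S.mul_mem (S.inv_mem (src_le hφ x.2)) (val_mem hφ x))
    have := finite_of_le hle
    refine mem_normalizer_of_conj_mem fun f hf => ?_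
    have h1 : f⁻¹ * (g * f * g⁻¹) ∈ F.focalSubgroup :=
      Subgroup.subset_closure ⟨S, conjHom S g, ⟨f, hle hf⟩, F.conj_mem le_rfl hg, by simp [conjHom]⟩
    simpa using F.focalSubgroup.mul_mem hf h1
  have hgen : ∀ R : Subgroup Ω, R ≤ S → ∀ α ∈ F.autGroup R, (orderOf α).Coprime p →
      ∀ x : R, (x : Ω)⁻¹ * (α x : Ω) ∈ F.focalSubgroup := fun R hR α hα _ x =>
    Subgroup.subset_closure ⟨R, _, x, (mem_autGroup hR).1 hα, rfl⟩
  refine isNormal_of_le_radical hS hF stronglyClosed_self fun R hc hr _ =>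
    (eq_top_of_steps hS hF hW hgen hc hr fun B hB hex => ?_).ge
  -- first the elements of order `p`
  have key : ∀ z : R, Escapes p F.focalSubgroup B z → z ^ p = 1 →
      ∀ g (hg : g ∈ normalizerIn S R), z⁻¹ * conjAut R hg.2 z ∈ B := by
    intro z hz hzp g hg
    have hzp' : (z : Ω) ^ p = 1 := by simpa using congrArg Subtype.val hzp
    obtain ⟨k, hk⟩ := Subgroup.mem_zpowers_iff.1 (hnorm z hz.1 (Or.inl hzp') g hg.1)
    -- a `p`-element normalizing a group of order `p` centralizes it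
    have hne : (z : Ω) ≠ 1 := fun h1 => hz.2.2.2 (by
      rw [show z = 1 from Subtype.ext h1]; exact B.one_mem)
    have hcomm : g * (z : Ω) * g⁻¹ = z := by
      have hZ : ∀ s ∈ S, s * (z : Ω) * s⁻¹ ∈ Subgroup.zpowers (z : Ω) := hnorm z hz.1 (Or.inl hzp')
      obtain ⟨n, hn⟩ := hS ⟨g, hg.1⟩
      have hgn : g ^ p ^ n = 1 := by simpa using congrArg Subtype.val hn
      have hpow : ∀ i : ℕ, g ^ i * (z : Ω) * (g ^ i)⁻¹ = (z : Ω) ^ (k ^ i) := by
        intro i
        induction i with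
        | zero => simp
        | succ i ih =>
          calc g ^ (i + 1) * (z : Ω) * (g ^ (i + 1))⁻¹
              = g * (g ^ i * (z : Ω) * (g ^ i)⁻¹) * g⁻¹ := by rw [pow_succ']; group
            _ = (g * (z : Ω) * g⁻¹) ^ (k ^ i) := by rw [ih, conj_zpow]
            _ = (z : Ω) ^ (k ^ (i + 1)) := by rw [← hk, ← zpow_mul, pow_succ']
      have h1 := hpow (p ^ n)
      rw [hgn, one_mul, inv_one, mul_one] at h1
      have hord : orderOf (z : Ω) = p := orderOf_eq_prime hzp' hne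
      have h2 : (k ^ p ^ n : ZMod p) = 1 := by
        have h3 : (z : Ω) ^ (k ^ (p ^ n) - 1) = 1 := by rw [zpow_sub, ← h1, zpow_one, mul_inv_cancel]
        have h4 : ((orderOf (z : Ω) : ℕ) : ℤ) ∣ k ^ (p ^ n) - 1 := orderOf_dvd_iff_zpow_eq_one.2 h3
        rw [hord, ← ZMod.intCast_zmod_eq_zero_iff_dvd] at h4
        push_cast at h4
        exact sub_eq_zero.1 h4
      rw [ZMod.pow_card_pow] at h2
      have h5 : ((orderOf (z : Ω) : ℕ) : ℤ) ∣ k - 1 := by
        rw [hord, ← ZMod.intCast_zmod_eq_zero_iff_dvd]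
        push_cast
        rw [h2, sub_self]
      rw [← hk]
      have h6 := orderOf_dvd_iff_zpow_eq_one.1 h5
      rw [zpow_sub, zpow_one, mul_inv_eq_one] at h6
      exact h6
    have : conjAut R hg.2 z = z := Subtype.ext (by rw [conjAut_apply, hcomm])
    rw [this, inv_mul_cancel]
    exact B.one_mem
  by_cases hp' : ∃ y, Escapes p F.focalSubgroup B y ∧ y ^ p = 1
  · obtain ⟨y, hy, hyp⟩ := hp'
    refine ⟨y, hy, fun z hz hzy g hg => key z hz ?_ g hg⟩
    obtain ⟨γ, -, rfl⟩ := hzy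
    rw [← map_pow, hyp, map_one]
  obtain ⟨y, hy⟩ := hex
  refine ⟨y, hy, fun z hz _ g hg => ?_⟩
  have hz4 := (smallExp_pow_iff.1 hz.2.1).resolve_left fun h => hp' ⟨z, hz, h⟩
  obtain ⟨rfl, hz4⟩ := hz4
  have hz4' : (z : Ω) ^ 4 = 1 := by simpa using congrArg Subtype.val hz4
  obtain ⟨k, hk⟩ := Subgroup.mem_zpowers_iff.1 (hnorm z hz.1 (Or.inr ⟨rfl, hz4'⟩) g hg.1)
  have hk' : conjAut R hg.2 z = z ^ k := Subtype.ext (by rw [conjAut_apply, Subgroup.coe_zpow, hk])
  rw [hk']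
  rcases Int.even_or_odd k with ⟨m, hm⟩ | ⟨m, hm⟩
  · exfalso
    refine hp' ⟨z, hz, ?_⟩
    have h1 : (z ^ k) ^ 2 = 1 := by
      rw [← zpow_natCast, ← zpow_mul, hm, show (m + m) * ((2 : ℕ) : ℤ) = ((4 : ℕ) : ℤ) * m by
        push_cast; ring, zpow_mul, zpow_natCast, hz4, one_zpow]
    rw [← hk', ← map_pow] at h1
    exact (MulEquiv.map_eq_one_iff _).1 h1
  · have h2 : z ^ 2 ∈ B := by
      by_contra h2
      refine hp' ⟨z ^ 2, ⟨?_, ?_, fun b hb => ?_, h2⟩, by rw [← pow_mul]; exact hz4⟩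
      · simpa using F.focalSubgroup.pow_mem hz.1 2
      · rw [← pow_mul, mul_comm, pow_mul, hz.2.1, one_pow]
      · exact (Commute.pow_right (show Commute b z from hz.2.2.1 b hb) 2).eq
    have h3 : z⁻¹ * z ^ k = (z ^ 2) ^ m := by
      rw [hm, zpow_add, zpow_one, ← zpow_natCast, ← zpow_mul]
      rw [show ((2 : ℕ) : ℤ) * m = 2 * m by norm_num]
      have : Commute (z⁻¹) (z ^ (2 * m)) := (Commute.refl z).inv_left.zpow_right _
      rw [← mul_assoc, this.eq, inv_mul_cancel_right]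
    rw [h3]
    exact B.zpow_mem h2 m

end Cfsg.Agent.S5300
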