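import Cfsg.Statements.S5301
import Cfsg.Agent.Lib.Fusion.Chain

set_option autoImplicit false
universe u
open Cfsg Cfsg.FusionSystem Cfsg.Agent.Lib.Fusion
open scoped commutatorElement

namespace Cfsg.Agent.S5301

/-- Let F be a saturated fusion system over a finite p-group S. If for every subgroup P of S that is fully normalized, centric and radical in F the automorphism group that F induces on P has a normal Sylow p-subgroup, then S is normal in F. -/
theorem result {Ω : Type u} [Group Ω] {S : Subgroup Ω} [Finite S] (p : ℕ) [Fact p.Prime] (hS : IsPGroup p S)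
    (F : Cfsg.FusionSystem S) (hF : F.IsSaturated p)
    (hcl : ∀ P : Subgroup Ω, F.IsFullyNormalized P → F.IsCentric P → F.IsRadical p P →
      ∃ R : Sylow p ↥(F.autGroup P), (R : Subgroup ↥(F.autGroup P)).Normal) :
    F.IsNormal S := by
  refine isNormal_of_le_radical hS hF stronglyClosed_self fun P hc hr hn => ?_
  obtain ⟨R, hR⟩ := hcl P hn hc hr
  have hPS := hc.1
  have := finite_mulAut hPS
  refine le_of_centric_radical_aux hS hPS le_rfl (hPS.trans Subgroup.le_normalizer) fun g hg hgN => ?_
  have hmem := conjAut_mem_autInducedBy (P := P) hg hgN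
  have h1 : IsPGroup p ((Cfsg.autInducedBy S P).subgroupOf (F.autGroup P)) :=
    isPGroup_subgroupOf (isPGroup_autInducedBy hS P)
  have h2 := R.is_maximal' (IsPGroup.to_sup_of_normal_right h1 R.isPGroup') le_sup_right
  exact mem_of_induced_inn (hc.2 P (isConj_refl hPS)) hPS ⟨hg, hgN⟩
    (mem_inn_of_radical hr hR R.isPGroup' (α := ⟨conjAut P hgN, autInducedBy_le_autGroup hPS hmem⟩)
      (h2 ▸ Subgroup.mem_sup_left (show (⟨conjAut P hgN, _⟩ : F.autGroup P) ∈
        (Cfsg.autInducedBy S P).subgroupOf (F.autGroup P) from hmem)))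

end Cfsg.Agent.S5301
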