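import Cfsg.Statements.S5317
import Cfsg.Agent.Lib.Fusion.DihedralType
import Cfsg.Agent.Lib.Classical.SLTwoSylow

set_option autoImplicit false
open Cfsg Cfsg.FusionSystem Cfsg.Agent.Lib.Fusion
open scoped commutatorElement

namespace Cfsg.Agent.S5317

/-- Let F be a finite field of odd order q with q² ≡ 1 mod 16 (so that a Sylow 2-subgroup of PSL(2,q), dihedral of order the 2-part of (q²−1)/2, has order at least 8). Then the 2-fusion system of PSL(2,F) on a Sylow 2-subgroup is simple: saturated, over a nontrivial 2-group, with no normal subsystem other than the trivial one and itself. -/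
theorem result {F : Type*} [Field F] [Fintype F] (hodd : Fintype.card F % 2 = 1) (h16 : 16 ∣ Fintype.card F ^ 2 - 1)
    (S : Sylow 2 (Matrix.ProjectiveSpecialLinearGroup (Fin 2) F)) :
    (Cfsg.groupFusionSystem (S : Subgroup (Matrix.ProjectiveSpecialLinearGroup (Fin 2) F))).IsSimple 2 := by
  have : Fact (Nat.Prime 2) := ⟨Nat.prime_two⟩
  have hoddF : Odd (Fintype.card F) := Nat.odd_iff.2 hodd
  have h2 := Cfsg.Agent.Lib.Classical.two_ne_zero_of_odd_card hoddF
  set q := Fintype.card F with hqdef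
  have hq4 : 4 ≤ q := by
    by_contra h
    have h1 : 1 < q := Fintype.one_lt_card
    interval_cases q <;> norm_num at *
  have hs : IsSimpleGroup (Matrix.ProjectiveSpecialLinearGroup (Fin 2) F) :=
    Matrix.ProjectiveSpecialLinearGroup.rank_two_simple (by rwa [Nat.card_eq_fintype_card])
  have hS8 : 8 ∣ Nat.card (S : Subgroup (Matrix.ProjectiveSpecialLinearGroup (Fin 2) F)) := by
    refine S.pow_dvd_card_of_pow_dvd_card (n := 3) ?_
    have h := Cfsg.Agent.Lib.Classical.two_mul_card_PSL_two_of_odd (F := F) hoddF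
    rw [← hqdef] at h
    obtain ⟨m, hm⟩ := h16
    refine ⟨q * m, ?_⟩
    rw [hm, mul_comm q, show 16 * m * q = 2 * (2 ^ 3 * (q * m)) by ring] at h
    omega
  set π := QuotientGroup.mk' (Subgroup.center (Matrix.SpecialLinearGroup (Fin 2) F))
  let P₀ : Sylow 2 (Matrix.SpecialLinearGroup (Fin 2) F) := default
  obtain ⟨g, hg⟩ := MulAction.exists_smul_eq (Matrix.ProjectiveSpecialLinearGroup (Fin 2) F)
    (P₀.mapSurjective (f := π) (QuotientGroup.mk'_surjective _)) S
  obtain ⟨g₀, rfl⟩ := QuotientGroup.mk'_surjective _ g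
  set Q := g₀ • P₀
  have hSQ : (S : Subgroup (Matrix.ProjectiveSpecialLinearGroup (Fin 2) F)) =
      (Q : Subgroup (Matrix.SpecialLinearGroup (Fin 2) F)).map π := by
    rw [← hg, Sylow.coe_subgroup_smul, Sylow.coe_subgroup_smul, Sylow.coe_mapSurjective,
      Subgroup.pointwise_smul_def, Subgroup.pointwise_smul_def]
    refine (Subgroup.map_map _ _ _).trans ((Eq.trans ?_ (Subgroup.map_map _ _ _).symm))
    congr 1
  obtain ⟨k, -, ⟨e⟩⟩ := Cfsg.Agent.Lib.Classical.sl_two_sylow_quaternion hoddF Q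
  set φ := π.comp (Q : Subgroup (Matrix.SpecialLinearGroup (Fin 2) F)).subtype
  have hmem : ∀ x, x ∈ (S : Subgroup (Matrix.ProjectiveSpecialLinearGroup (Fin 2) F)) ↔
      ∃ u : QuaternionGroup (2 ^ k), φ (e.symm u) = x := by
    intro x
    rw [hSQ]
    constructor
    · rintro ⟨y, hy, rfl⟩; exact ⟨e ⟨y, hy⟩, by simp [φ]⟩
    · rintro ⟨u, rfl⟩; exact ⟨_, (e.symm u).2, rfl⟩
  set ψ := φ.comp e.symm.toMonoidHom
  have hker : ∀ u, u ^ 2 = 1 → ψ u = 1 := by
    intro u hu
    have h : ((e.symm u : Matrix.SpecialLinearGroup (Fin 2) F)) ^ 2 = 1 := by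
      rw [← Subgroup.coe_pow, ← map_pow, hu, map_one, Subgroup.coe_one]
    rcases Cfsg.Agent.Lib.Classical.sl_two_sq_eq_one h2 h with h | h
    · simp [ψ, φ, h]
    · refine (QuotientGroup.eq_one_iff _).2 ?_
      rw [show (Q : Subgroup (Matrix.SpecialLinearGroup (Fin 2) F)).subtype
        (e.symm.toMonoidHom u) = -1 from h]
      exact Subgroup.mem_center_iff.2 fun y => by simp
  set c := ψ (QuaternionGroup.a 1)
  have hpow : ∀ i, ψ (QuaternionGroup.a i) ∈ Subgroup.zpowers c := fun i => by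
    rw [show QuaternionGroup.a i = (QuaternionGroup.a 1 : QuaternionGroup (2 ^ k)) ^ i.val by simp,
      map_pow]
    exact Subgroup.pow_mem _ (Subgroup.mem_zpowers _) _
  have hxa : ∀ i, ψ (QuaternionGroup.xa i) ^ 2 = 1 := fun i => by
    rw [← map_pow, QuaternionGroup.xa_sq]
    refine hker _ ?_
    rw [← QuaternionGroup.a_one_pow, ← pow_mul, Nat.mul_comm _ 2]
    exact QuaternionGroup.a_one_pow_n
  have hout : ∀ x ∈ (S : Subgroup (Matrix.ProjectiveSpecialLinearGroup (Fin 2) F)),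
      x ∉ Subgroup.zpowers c → ∃ i, ψ (QuaternionGroup.xa i) = x := by
    intro x hx hxc
    obtain ⟨u, rfl⟩ := (hmem x).1 hx
    cases u with
    | a i => exact absurd (hpow i) hxc
    | xa i => exact ⟨i, rfl⟩
  have hcard : 4 ≤ Nat.card (Subgroup.zpowers c) := by
    have hle : (Set.univ : Set (S : Subgroup (Matrix.ProjectiveSpecialLinearGroup (Fin 2) F))) ⊆
        (fun x => (x : Matrix.ProjectiveSpecialLinearGroup (Fin 2) F)) ⁻¹'
          (Subgroup.zpowers c ∪ (fun x => ψ (QuaternionGroup.xa 0) * x) '' Subgroup.zpowers c) := by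
      rintro ⟨x, hx⟩ -
      by_cases hxc : x ∈ Subgroup.zpowers c
      · exact Or.inl hxc
      · obtain ⟨i, rfl⟩ := hout x hx hxc
        refine Or.inr ⟨_, hpow i, ?_⟩
        show ψ _ * ψ _ = ψ _
        rw [← map_mul]
        simp
    have h1 := Set.ncard_le_ncard hle (Set.toFinite _)
    rw [Set.ncard_univ, Set.ncard_preimage_of_injective_subset_range Subtype.val_injective
      (by
        rintro x (hx | ⟨y, hy, rfl⟩)
        · refine ⟨⟨x, ?_⟩, rfl⟩
          exact Subgroup.zpowers_le.2 ((hmem _).2 ⟨_, rfl⟩) hx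
        · exact ⟨⟨_, Subgroup.mul_mem _ ((hmem _).2 ⟨_, rfl⟩)
            (Subgroup.zpowers_le.2 ((hmem _).2 ⟨_, rfl⟩) hy)⟩, rfl⟩)] at h1
    have h3 := h1.trans (Set.ncard_union_le _ _)
    rw [Set.ncard_image_of_injective _ (mul_right_injective _)] at h3
    have h4 : Set.ncard (Subgroup.zpowers c : Set (Matrix.ProjectiveSpecialLinearGroup (Fin 2) F)) =
        Nat.card (Subgroup.zpowers c) := rfl
    have := Nat.le_of_dvd Nat.card_pos hS8
    omega
  refine isSimple_dihedralType hs S (Subgroup.zpowers c)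
    (Subgroup.zpowers_le.2 ((hmem _).2 ⟨_, rfl⟩)) hcard ?_ ?_ ⟨ψ (QuaternionGroup.xa 0), (hmem _).2 ⟨_, rfl⟩, ?_⟩
  · intro x hx hxc
    obtain ⟨i, rfl⟩ := hout x hx hxc
    exact hxa i
  · intro x hx y hy hxc hyc
    obtain ⟨i, rfl⟩ := hout x hx hxc
    obtain ⟨j, rfl⟩ := hout y hy hyc
    rw [← map_mul, QuaternionGroup.xa_mul_xa]
    exact hpow _
  · intro h
    obtain ⟨m, hm⟩ := Subgroup.mem_zpowers_iff.1 h
    have h1 : ψ (QuaternionGroup.xa 0) * c = c * ψ (QuaternionGroup.xa 0) := by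
      rw [← hm, ← zpow_add_one, ← zpow_one_add, add_comm]
    rw [← map_mul, ← map_mul] at h1
    have h2 : ψ (QuaternionGroup.a 1 * QuaternionGroup.a 1) = 1 := by
      have h5 : (QuaternionGroup.xa 0 * QuaternionGroup.a 1 : QuaternionGroup (2 ^ k)) =
          (QuaternionGroup.a 1 * QuaternionGroup.xa 0) * (QuaternionGroup.a 1 * QuaternionGroup.a 1) := by
        simp
      rw [h5, map_mul] at h1
      exact mul_eq_left.1 h1
    rw [map_mul, ← pow_two] at h2
    have h3 := Nat.le_of_dvd two_pos (orderOf_dvd_of_pow_eq_one h2)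
    rw [← Nat.card_zpowers] at h3
    change Nat.card (Subgroup.zpowers c) ≤ 2 at h3
    omega

end Cfsg.Agent.S5317
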