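import Cfsg.Statements.S5321
import Cfsg.Agent.Lib.HallJanko.Centralizer
import Cfsg.Agent.Lib.Fusion.ExtraCentralizer

set_option autoImplicit false
open Cfsg

namespace Cfsg.Agent.S5321

open Cfsg.Agent.Lib.HallJanko Cfsg.Agent.Lib.Fusion.ExtraCentralizer

theorem checks :
    ((List.range 100).all fun i =>
      comp4' (stabWords.getD 0 (0, 0, 0, 0)) (im (kerPacked.getD 2 0) i) ==
          im (kerPacked.getD 19 0) (im (kerPacked.getD 2 0) (comp4' (stabWords.getD 0 (0, 0, 0, 0)) i)) &&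
        comp4' (17, 36, 2, 2) (im (kerPacked.getD 1 0) i) ==
          im (kerPacked.getD 20 0) (comp4' (17, 36, 2, 2) i) &&
        comp4' (17, 36, 2, 2) (im (kerPacked.getD 23 0) i) ==
          wordImage [0, 0, 1, 0, 1, 0, 0] (comp4' (17, 36, 2, 2) i)) = true ∧
    ((List.range 32).all fun j =>
      kerMul.getD (32 * 1 + j) 0 == kerMul.getD (32 * j + 1) 0) = true ∧
    ((List.range 5).any fun b => wordBlock [0, 0, 1, 0, 1, 0, 0] b != b) = true := by
  decide +kernel

theorem conj_five : ∀ a b : alternatingGroup (Fin 5), a ^ 4 = 1 → b ^ 4 = 1 → a ≠ 1 → b ≠ 1 →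
    ∃ c, c * a * c⁻¹ = b := by decide +kernel

theorem center_five : ∀ a : alternatingGroup (Fin 5), (∀ b, a * b = b * a) → a = 1 := by decide +kernel

theorem exists_data : ∃ (C R : Subgroup G315) (z : G315), Data C R z := by
  obtain ⟨hK, hker⟩ := card_ker_chi
  set z : G315 := lineElt zero315 with hz
  have hcen : ∀ x : G315, x ∈ K0 ↔ x * z = z * x := fun x => by
    rw [hK, ← centralizer_lineElt, Subgroup.mem_centralizer_singleton_iff]
  set R : Subgroup G315 := chi.ker.map K0.subtype with hR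
  have hRle : R ≤ K0 := Subgroup.map_subtype_le _
  have hmem : ∀ (x : K0), (x : G315) ∈ R ↔ chi x = 1 := fun x => by
    exact Subgroup.mem_map_iff_mem K0.subtype_injective
  have hRker : ∀ r ∈ R, ∃ k : chi.ker, r = k.1.1 := by
    rintro _ ⟨k, hk, rfl⟩
    exact ⟨⟨k, hk⟩, rfl⟩
  obtain ⟨⟨-, -, hcc⟩, hcard⟩ := ker_isExtraspecial
  have hzK : z ∈ K0 := (hcen z).2 rfl
  have hz1 : z ≠ 1 := fun e => by
    have : K0 = ⊤ := eq_top_iff.2 fun x _ => (hcen x).2 (by rw [e, one_mul, mul_one])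
    have h1 := card_stab0
    rw [← hK, this, Subgroup.card_top, card_G315] at h1
    norm_num at h1
  have hzker : chi ⟨z, hzK⟩ = 1 := center_five _ fun b => by
    obtain ⟨b, rfl⟩ := chi_surjective b
    rw [← map_mul, ← map_mul]
    exact congrArg chi (Subtype.ext ((hcen b).1 b.2).symm)
  set zk : chi.ker := ⟨⟨z, hzK⟩, hzker⟩ with hzk
  have hzc : zk ∈ Subgroup.center chi.ker := Subgroup.mem_center_iff.2 fun g =>
    Subtype.ext (Subtype.ext ((hcen g.1.1).1 g.1.2))
  have hzk1 : zk ≠ 1 := fun e => hz1 (congrArg (fun w : chi.ker => w.1.1) e)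
  have hcenter : ∀ x : chi.ker, x ∈ Subgroup.center chi.ker → x = 1 ∨ x = zk := by
    intro x hx
    by_contra hne
    push Not at hne
    haveI := Fintype.ofFinite (Subgroup.center chi.ker)
    have h3 : 2 < Fintype.card (Subgroup.center chi.ker) :=
      Fintype.two_lt_card_iff.2 ⟨⟨1, one_mem _⟩, ⟨zk, hzc⟩, ⟨x, hx⟩, fun e => hzk1 (congrArg Subtype.val e).symm,
        fun e => hne.1 (congrArg Subtype.val e).symm, fun e => hne.2 (congrArg Subtype.val e).symm⟩
    rw [← Nat.card_eq_fintype_card, hcard] at h3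
    omega
  obtain ⟨hperm, hcent, hblock⟩ := checks
  simp only [List.all_eq_true, List.mem_range, Bool.and_eq_true, beq_iff_eq] at hperm hcent
  have hone : kerK 1 = zk := by
    refine (hcenter _ (Subgroup.mem_center_iff.2 fun g => ?_)).resolve_left fun e => ?_
    · obtain ⟨j, rfl⟩ := kerK_surjective g
      rw [kerK_mul, kerK_mul]
      exact congrArg kerK (Fin.ext (hcent j j.2).symm)
    · rw [← kerK_zero] at e
      exact absurd (congrArg Fin.val (kerK_injective e)) (by decide)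
  have hkR : ∀ i, (kerK i).1.1 ∈ R := fun i => ⟨(kerK i).1, (kerK i).2, rfl⟩
  have hki : ∀ i j, (kerK i).1.1 = (kerK j).1.1 → i = j := fun i j e =>
    kerK_injective (Subtype.ext (Subtype.ext e))
  have hzi : z = (kerK 1).1.1 := by rw [hone]
  obtain ⟨g, hg⟩ : ∃ g : G315, psi g = elt ((17 : Fin 100), (36 : Fin 63), (2 : Fin 24), (2 : Fin 4)) := by
    have := elt_mem ((17 : Fin 100), (36 : Fin 63), (2 : Fin 24), (2 : Fin 4))
    rwa [← psi_range] at this
  have hgp : ∀ p : Fin 100, ((psi g p : Fin 100) : ℕ) = comp4' (17, 36, 2, 2) p := fun p => by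
    rw [hg, ← comp4'_val]; rfl
  have hkp : ∀ (i : Fin 32) (p : Fin 100), ((psi (kerK i).1.1 p : Fin 100) : ℕ) = im (kerPacked.getD i 0) p :=
    fun i p => by rw [psi_kerK, kerP, permOf_apply (kerP_ok i)]
  have eq19 : stabElt 0 * (kerK 2).1.1 = (kerK 19).1.1 * (kerK 2).1.1 * stabElt 0 := psi_injective (by
    ext p
    simp only [map_mul, Equiv.Perm.mul_apply, hkp, stabElt_point]
    exact (hperm p p.2).1.1)
  have eq20 : g * z = (kerK 20).1.1 * g := psi_injective (by
    rw [hzi]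
    ext p
    simp only [map_mul, Equiv.Perm.mul_apply, hkp, hgp]
    exact (hperm p p.2).1.2)
  have hW : ∀ a ∈ [0, 0, 1, 0, 1, 0, 0], a < 2 := by decide
  have eqW : g * (kerK 23).1.1 = wordElt [0, 0, 1, 0, 1, 0, 0] * g := psi_injective (by
    ext p
    simp only [map_mul, Equiv.Perm.mul_apply, hkp, hgp, wordElt_point _ hW]
    exact (hperm p p.2).2)
  refine ⟨K0, R, z, ⟨hRle, ?_, hK ▸ card_stab0, ?_, ?_, hcen, ?_, hz1, ?_, ?_, ?_, ?_, ?_, ?_, ?_⟩⟩
  · intro c hc r hr
    obtain ⟨k, rfl⟩ := hRker r hr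
    exact ⟨⟨c, hc⟩ * k.1 * ⟨c, hc⟩⁻¹, (MonoidHom.normal_ker chi).conj_mem _ k.2 _, rfl⟩
  · rw [hR, ← hker]
    exact (Nat.card_congr (chi.ker.equivMapOfInjective _ K0.subtype_injective).toEquiv).symm
  · have h1 := K0.card_mul_index
    rw [hK, card_stab0, card_G315] at h1
    have : stab0.index = 315 := by omega
    rw [hK, this]; decide
  · exact ⟨⟨z, hzK⟩, hzker, rfl⟩
  · intro x hx h
    obtain ⟨k, rfl⟩ := hRker x hx
    have hk : k ∈ Subgroup.center chi.ker := Subgroup.mem_center_iff.2 fun g =>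
      Subtype.ext (Subtype.ext (h g.1.1 ⟨g.1, g.2, rfl⟩).symm)
    rcases hcenter k hk with e | e
    · exact Or.inl (by rw [e]; rfl)
    · exact Or.inr (by rw [e])
  · intro a ha b hb
    obtain ⟨k, rfl⟩ := hRker a ha
    obtain ⟨l, rfl⟩ := hRker b hb
    have hm : k * l * k⁻¹ * l⁻¹ ∈ Subgroup.center chi.ker := by
      rw [← hcc, commutator_def, ← commutatorElement_def]
      exact Subgroup.commutator_mem_commutator (Subgroup.mem_top _) (Subgroup.mem_top _)
    rcases hcenter _ hm with e | e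
    · exact Or.inl (congrArg (fun w : chi.ker => w.1.1) e)
    · exact Or.inr (congrArg (fun w : chi.ker => w.1.1) e)
  · intro N hRN hNC hN
    haveI : IsSimpleGroup (alternatingGroup (Fin 5)) := alternatingGroup.isSimpleGroup_five
    haveI hnor : ((N.subgroupOf K0).map chi).Normal :=
      Subgroup.Normal.map ⟨fun n hn c => by
        rw [Subgroup.mem_subgroupOf] at hn ⊢
        exact hN c c.2 n hn⟩ chi chi_surjective
    rcases IsSimpleGroup.eq_bot_or_eq_top_of_normal _ hnor with e | e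
    · left
      refine le_antisymm (fun n hn => ?_) hRN
      exact (hmem ⟨n, hNC hn⟩).2 (by
        rw [← Subgroup.mem_bot, ← e]
        exact ⟨_, Subgroup.mem_subgroupOf.2 hn, rfl⟩)
    · right
      refine le_antisymm hNC fun c hc => ?_
      obtain ⟨n, hn, hnc⟩ := e.ge (Subgroup.mem_top (chi ⟨c, hc⟩))
      have h1 : (n : G315)⁻¹ * c ∈ R := (hmem (n⁻¹ * ⟨c, hc⟩)).2 (by rw [map_mul, map_inv, hnc, inv_mul_cancel])
      have := mul_mem (Subgroup.mem_subgroupOf.1 hn) (hRN h1)
      simpa using this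
  · intro s hs t ht hsR htR ⟨k, hk⟩ ⟨l, hl⟩
    have h4 : ∀ (x : G315) (hx : x ∈ K0) (k : ℕ), x ^ 2 ^ k = 1 → chi ⟨x, hx⟩ ^ 4 = 1 := by
      intro x hx k hk
      have e : (chi ⟨x, hx⟩) ^ 2 ^ k = 1 := by
        rw [← map_pow]
        exact (congrArg chi (Subtype.ext hk : (⟨x, hx⟩ : K0) ^ 2 ^ k = 1)).trans (map_one chi)
      have h1 := orderOf_dvd_of_pow_eq_one e
      obtain ⟨m, -, hm⟩ := (Nat.dvd_prime_pow Nat.prime_two).1 h1
      have h2 := orderOf_dvd_natCard (chi ⟨x, hx⟩)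
      rw [nat_card_alternatingGroup, Nat.card_fin] at h2
      apply orderOf_dvd_iff_pow_eq_one.1
      rw [hm] at h2 ⊢
      rcases Nat.lt_or_ge m 3 with hm3 | hm3
      · exact (Nat.pow_dvd_pow 2 (show m ≤ 2 by omega)).trans (by norm_num)
      · exact absurd ((Nat.pow_dvd_pow 2 hm3).trans h2) (by decide)
    obtain ⟨c, hc⟩ := conj_five _ _ (h4 t ht l hl) (h4 s hs k hk) (fun e => htR ((hmem ⟨t, ht⟩).2 e))
      (fun e => hsR ((hmem ⟨s, hs⟩).2 e))
    obtain ⟨c, rfl⟩ := chi_surjective c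
    refine ⟨c.1, c.2, (hmem ((c * ⟨t, ht⟩ * c⁻¹)⁻¹ * ⟨s, hs⟩)).2 ?_⟩
    rw [map_mul, map_inv, map_mul, map_mul, map_inv, hc, inv_mul_cancel]
  · refine ⟨stabElt 0, Subgroup.subset_closure ⟨0, rfl⟩, (kerK 2).1.1, hkR 2, ?_, ?_⟩
    all_goals
      rw [eq19, mul_inv_cancel_right, mul_inv_cancel_right]
    · intro e
      exact absurd (congrArg Fin.val (hki 19 0 (by rw [e, kerK_zero]; rfl))) (by decide)
    · intro e
      exact absurd (congrArg Fin.val (hki 19 1 (e.trans hzi))) (by decide)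
  · refine ⟨g, ?_, ?_⟩
    · rw [eq20, mul_inv_cancel_right]; exact hkR 20
    · rw [eq20, mul_inv_cancel_right]
      exact fun e => absurd (congrArg Fin.val (hki 20 1 (e.trans hzi))) (by decide)
  · refine ⟨g, (kerK 23).1.1, hkR 23, ?_, ?_⟩
    · rw [eqW, mul_inv_cancel_right]; exact wordElt_mem _
    · rw [eqW, mul_inv_cancel_right]
      intro hR'
      have h1 := (hmem ⟨_, wordElt_mem [0, 0, 1, 0, 1, 0, 0]⟩).1 hR'
      obtain ⟨b, hb, hne⟩ := List.any_eq_true.1 hblock
      rw [List.mem_range] at hb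
      have h2 := wordElt_chi _ hW ⟨b, hb⟩
      rw [h1] at h2
      simp only [bne_iff_ne] at hne
      exact hne h2.symm

/-- For a finite group G isomorphic to the Hall–Janko group J₂ (as constructed in the problem's definitions), the 2-fusion system of G on a Sylow 2-subgroup is simple: saturated, over a nontrivial 2-group, with no normal subsystem other than the trivial one and itself. -/
theorem result {G : Type*} [Group G] [Finite G] (hG : Cfsg.Spor.IsoJ2 G) (S : Sylow 2 G) : (Cfsg.groupFusionSystem (S : Subgroup G)).IsSimple 2 := by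
  obtain ⟨eJ⟩ := hG
  obtain ⟨C, R, z, d⟩ := exists_data
  exact (d.map (eJ.trans j2Equiv).symm).simple S

end Cfsg.Agent.S5321
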