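import Cfsg.Statements.S5331
import Cfsg.Agent.Lib.Fusion.Chain

set_option autoImplicit false
open Cfsg Cfsg.FusionSystem Cfsg.Agent.Lib.Fusion
open scoped commutatorElement

namespace Cfsg.Agent.S5331

/-- Let S be a finite abelian 2-group that is a direct product of cyclic groups of pairwise distinct orders 2^{a_1} < 2^{a_2} < ⋯ < 2^{a_n} (all a_i ≥ 1). Then every saturated fusion system over S is the inner one: its maps are exactly the conjugations by elements of S. -/
theorem result {Ω : Type*} [Group Ω] {S : Subgroup Ω} [Finite S] (n : ℕ) (a : Fin n → ℕ) (ha : StrictMono a) (ha1 : ∀ i, 1 ≤ a i) (e : ↥S ≃* Multiplicative ((i : Fin n) → ZMod (2 ^ a i))) (F : Cfsg.FusionSystem S) (hF : F.IsSaturated 2) (P : Subgroup Ω) : F.Hom P = (Cfsg.innerFusionSystem S).Hom P := by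
  have h2 : Fact (Nat.Prime 2) := ⟨Nat.prime_two⟩
  have hS : IsPGroup 2 S := by
    intro x
    refine ⟨Finset.univ.sup a, e.injective ?_⟩
    rw [map_pow, map_one]
    refine Multiplicative.toAdd.injective (funext fun i => ?_)
    simp only [toAdd_pow, toAdd_one, Pi.smul_apply, Pi.zero_apply, nsmul_eq_mul]
    have h := (ZMod.natCast_eq_zero_iff (2 ^ Finset.univ.sup a) (2 ^ a i)).2
      (pow_dvd_pow 2 (Finset.le_sup (f := a) (Finset.mem_univ i)))
    rw [h, zero_mul]
  have hab : ∀ x ∈ S, ∀ y ∈ S, x * y = y * x := fun x hx y hy => by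
    have h := e.injective (show e (⟨x, hx⟩ * ⟨y, hy⟩) = e (⟨y, hy⟩ * ⟨x, hx⟩) by
      rw [map_mul, map_mul, mul_comm])
    exact congrArg Subtype.val h
  -- automorphisms of odd order are trivial
  have htriv : ∀ α : MulAut S, (orderOf α).Coprime 2 → α = 1 := by
    intro α hα
    have hcomm : ∀ u v : S, u * v = v * u := fun u v => Subtype.ext (hab u u.2 v v.2)
    have hstab : ∀ (u : S) (t : S), α u = u * t → α t = t → α u = u := by
      intro u t hu ht
      have hpow : ∀ j : ℕ, (α ^ j) u = u * t ^ j := by
        intro j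
        induction j with
        | zero => simp
        | succ j ih => rw [pow_succ', MulAut.mul_apply, ih, map_mul, map_pow, ht, hu, pow_succ', mul_assoc]
      have h1 := hpow (orderOf α)
      rw [pow_orderOf_eq_one, MulAut.one_apply] at h1
      rw [hu, eq_one_of_pGroup_coprime (hS t) (mul_eq_left.1 h1.symm) hα, mul_one]
    -- the layers of the elements of order two
    let V : ℕ → Set S := fun k => {x | x ^ 2 = 1 ∧ ∃ y, y ^ 2 ^ k = x}
    have hV : ∀ k x, x ∈ V k → α x ∈ V k := fun k x ⟨h1, y, hy⟩ =>
      ⟨by rw [← map_pow, h1, map_one], α y, by rw [← map_pow, hy]⟩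
    have hcoord : ∀ (x : S), x ^ 2 = 1 → ∀ i,
        Multiplicative.toAdd (e x) i = 0 ∨
          Multiplicative.toAdd (e x) i = ((2 ^ (a i - 1) : ℕ) : ZMod (2 ^ a i)) := by
      intro x hx i
      have h := congrFun (congrArg (fun z => Multiplicative.toAdd (e z)) hx) i
      simp only [map_pow, toAdd_pow, map_one, toAdd_one, Pi.smul_apply, Pi.zero_apply] at h
      have hpos : NeZero (2 ^ a i) := ⟨by positivity⟩
      generalize Multiplicative.toAdd (e x) i = c at h ⊢
      rw [← ZMod.natCast_zmod_val c] at h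
      rw [nsmul_eq_mul, ← Nat.cast_mul, ZMod.natCast_eq_zero_iff] at h
      obtain ⟨b, hb⟩ : ∃ b, a i = b + 1 := ⟨a i - 1, by have := ha1 i; omega⟩
      rw [show a i - 1 = b by omega]
      have hlt := ZMod.val_lt c
      have hp2 : 2 ^ a i = 2 * 2 ^ b := by rw [hb, pow_succ']
      obtain ⟨q, hq⟩ := h
      replace hq : 2 * c.val = 2 * 2 ^ b * q := by rw [← hp2]; exact hq
      have hq' : c.val = 2 ^ b * q := by
        have : 2 * c.val = 2 * (2 ^ b * q) := by rw [hq]; ring
        omega
      rcases q with _ | _ | q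
      · left; rw [← ZMod.natCast_zmod_val c, hq', mul_zero, Nat.cast_zero]
      · right; rw [← ZMod.natCast_zmod_val c, hq']; simp
      · exfalso
        rw [hq', hp2] at hlt
        nlinarith [Nat.one_le_two_pow (n := b)]
    have hzero : ∀ k x, x ∈ V k → ∀ i, a i ≤ k → Multiplicative.toAdd (e x) i = 0 := by
      rintro k x ⟨-, y, rfl⟩ i hi
      simp only [map_pow, toAdd_pow, Pi.smul_apply, nsmul_eq_mul]
      rw [(ZMod.natCast_eq_zero_iff (2 ^ k) (2 ^ a i)).2 (pow_dvd_pow 2 hi), zero_mul]
    have hback : ∀ k x, x ^ 2 = 1 → (∀ i, a i ≤ k → Multiplicative.toAdd (e x) i = 0) → x ∈ V k := by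
      intro k x hx h0
      refine ⟨hx, e.symm (Multiplicative.ofAdd fun i =>
        if Multiplicative.toAdd (e x) i = 0 then 0 else ((2 ^ (a i - 1 - k) : ℕ) : ZMod (2 ^ a i))), ?_⟩
      apply e.injective
      rw [map_pow, MulEquiv.apply_symm_apply]
      refine Multiplicative.toAdd.injective (funext fun i => ?_)
      simp only [toAdd_pow, toAdd_ofAdd, Pi.smul_apply]
      by_cases hz : Multiplicative.toAdd (e x) i = 0
      · rw [if_pos hz, smul_zero, hz]
      · rw [if_neg hz, (hcoord x hx i).resolve_left hz, nsmul_eq_mul, ← Nat.cast_mul, ← pow_add]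
        have hk : ¬ a i ≤ k := fun h => hz (h0 i h)
        congr 2
        omega
    have hlayer : ∀ k x y, x ∈ V k → x ∉ V (k + 1) → y ∈ V k → y ∉ V (k + 1) → x * y ∈ V (k + 1) := by
      intro k x y hx hx' hy hy'
      have hex : ∀ z, z ∈ V k → z ∉ V (k + 1) → ∃ i, a i = k + 1 ∧
          Multiplicative.toAdd (e z) i = ((2 ^ (a i - 1) : ℕ) : ZMod (2 ^ a i)) := by
        intro z hz hz'
        by_contra hc
        refine hz' (hback (k + 1) z hz.1 fun i hi => ?_)
        rcases hi.eq_or_lt with h | h
        · rcases hcoord z hz.1 i with h' | h'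
          · exact h'
          · exact absurd ⟨i, h, h'⟩ hc
        · exact hzero k z hz i (by omega)
      obtain ⟨i, hi, hix⟩ := hex x hx hx'
      obtain ⟨j, hj, hjy⟩ := hex y hy hy'
      obtain rfl : i = j := ha.injective (hi.trans hj.symm)
      refine hback (k + 1) _ ?_ fun l hl => ?_
      · rw [(show Commute x y from hcomm x y).mul_pow, hx.1, hy.1, one_mul]
      · rw [map_mul, toAdd_mul, Pi.add_apply]
        rcases hl.eq_or_lt with h | h
        · obtain rfl : l = i := ha.injective (h.trans hi.symm)
          rw [hix, hjy, ← Nat.cast_add, ZMod.natCast_eq_zero_iff, ← two_mul, ← pow_succ',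
            show a l - 1 + 1 = a l by have := ha1 l; omega]
        · rw [hzero k x hx l (by omega), hzero k y hy l (by omega), add_zero]
    have htop : ∀ x, x ∈ V (Finset.univ.sup a) → x = 1 := fun x hx => by
      apply e.injective
      rw [map_one]
      exact Multiplicative.toAdd.injective (funext fun i =>
        hzero _ x hx i (Finset.le_sup (f := a) (Finset.mem_univ i)))
    have hfix : ∀ k ≤ Finset.univ.sup a, ∀ x ∈ V k, α x = x := by
      intro k hk
      induction hj : Finset.univ.sup a - k generalizing k with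
      | zero =>
        intro x hx
        rw [show k = Finset.univ.sup a by omega] at hx
        rw [htop x hx, map_one]
      | succ j ih =>
        intro x hx
        have hih := ih (k + 1) (by omega) (by omega)
        by_cases hx' : x ∈ V (k + 1)
        · exact hih x hx'
        have hax' : α x ∉ V (k + 1) := fun h => hx' (by
          have h1 := hih (α x) h
          rwa [← α.injective h1])
        have hm := hlayer k x (α x) hx hx' (hV k x hx) hax'
        refine hstab x (x * α x) ?_ (hih _ hm)
        rw [← mul_assoc, ← pow_two, hx.1, one_mul]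
    have hall : ∀ (j : ℕ) (x : S), x ^ 2 ^ j = 1 → α x = x := by
      intro j
      induction j with
      | zero => intro x hx; rw [pow_zero, pow_one] at hx; rw [hx, map_one]
      | succ j ih =>
        intro x hx
        have hsq : α (x ^ 2) = x ^ 2 := ih _ (by rw [← pow_mul, ← pow_succ']; exact hx)
        refine hstab x (x⁻¹ * α x) (mul_inv_cancel_left _ _).symm
          (hfix 0 (Nat.zero_le _) _ ⟨?_, _, pow_one _⟩)
        rw [(show Commute x⁻¹ (α x) from hcomm _ _).mul_pow, ← map_pow, hsq, inv_pow, inv_mul_cancel]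
    ext x
    obtain ⟨j, hj⟩ := hS x
    exact congrArg Subtype.val (hall j x hj)
  refine Set.Subset.antisymm (fun φ hφ => ?_) fun φ ⟨hP, g, hg, hφ⟩ =>
    mem_of_agree le_rfl (F.conj_mem hP hg) fun x => by simp [hφ x, conjHom]
  obtain ⟨α, hα, hαe⟩ := extend_of_normal (isNormal_of_abelian hS hF stronglyClosed_self hab) (src_le hφ) hφ
  have hα1 : α = 1 := by
    have := finite_mulAut (le_refl S)
    refine htriv α ?_
    have hsyl := fullyAutomized_inn hS hF
    have hinn : Cfsg.Inn S = ⊥ := eq_bot_iff.2 (by
      rintro _ ⟨g, rfl⟩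
      rw [Subgroup.mem_bot]
      ext x
      simp [hab g g.2 x x.2])
    have h1 := hsyl.2.2
    rw [hinn, Subgroup.relIndex_bot_left] at h1
    exact Nat.Coprime.coprime_dvd_left (Subgroup.orderOf_dvd_natCard _ hα)
      ((Nat.prime_two.coprime_iff_not_dvd.2 h1).symm)
  exact ⟨src_le hφ, 1, S.one_mem, fun x => by rw [← hαe x, hα1]; simp⟩

end Cfsg.Agent.S5331
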