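import Cfsg.Statements.S5435
import Cfsg.Agent.Lib.PGroupFrattini
import Cfsg.Agent.Lib.Fusion.DihedralType
import Cfsg.Agent.Lib.Involution.ZStarElement
import Cfsg.Agent.Lib.LocalFusion.Basic
import Cfsg.Agent.S4399
-- import your own Cfsg.Agent.* helpers here

set_option autoImplicit false
open Cfsg

namespace Cfsg.Agent.S5435

section Aux
variable {L : Type*} [Group L] [Finite L]

/-- The hypotheses on the centralizer. -/
structure Setup (T : Subgroup L) (z : L) : Prop where
  pgroup : IsPGroup 2 ↥T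
  index : ¬ 2 ∣ T.index
  cent : ∀ g : L, g ∈ T ↔ g * z = z * g
  ne : z ≠ 1
  sqr : ∀ a ∈ T, a * a = 1 ∨ a * a = z
  comm : ∀ a ∈ T, ∀ b ∈ T, a * b * a⁻¹ * b⁻¹ = 1 ∨ a * b * a⁻¹ * b⁻¹ = z
  char : ∀ n : L, (∀ a ∈ T, n * a * n⁻¹ ∈ T) → n ∈ T

variable {T : Subgroup L} {z : L}

theorem Setup.zz (S : Setup T z) : z * z = 1 := by
  have hzT : z ∈ T := (S.cent z).2 rfl
  rcases S.sqr z hzT with h | h
  · exact h
  · exact absurd (mul_left_cancel (h.trans (mul_one z).symm)) S.ne

theorem Setup.conj_eq (S : Setup T z) {t a : L} (ht : t ∈ T) (ha : a ∈ T) (h : t * a ≠ a * t) : t * a * t⁻¹ = z * a := by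
  have h' := (S.comm t ht a ha).resolve_left fun e => h (commutatorElement_eq_one_iff_mul_comm.1 e)
  rw [← h']; group

theorem Setup.into (S : Setup T z) {u : L} (hu : ∀ a ∈ T, a * u = u * a) {P : Subgroup L}
    (hP : IsPGroup 2 ↥P) (hPu : ∀ a ∈ P, a * u = u * a) : ∃ c : L, c * u = u * c ∧ ∀ x ∈ P, c * x * c⁻¹ ∈ T := by
  haveI : Fact (Nat.Prime 2) := ⟨Nat.prime_two⟩
  have hTC : T ≤ Subgroup.centralizer ({u} : Set L) := fun a ha => Subgroup.mem_centralizer_singleton_iff.2 (hu a ha)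
  obtain ⟨c, hc, hc'⟩ := Lib.LocalFusion.exists_conj_le_of_not_dvd_relIndex hTC S.pgroup
    (Lib.LocalFusion.not_dvd_relIndex_of_not_dvd_index hTC S.index)
    (fun a ha => Subgroup.mem_centralizer_singleton_iff.2 (hPu a ha)) hP
  exact ⟨c, Subgroup.mem_centralizer_singleton_iff.1 hc, hc'⟩

/-- Conjugate central elements are equal. -/
theorem Setup.central_conj (S : Setup T z) {u g : L} (hu : ∀ a ∈ T, a * u = u * a)
    (hv : ∀ a ∈ T, a * (g * u * g⁻¹) = g * u * g⁻¹ * a) : g * u * g⁻¹ = u := by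
  obtain ⟨c, hc, hcT⟩ := S.into hv (P := T.map (MulAut.conj g).toMonoidHom) (S.pgroup.map _) (by
    rintro _ ⟨a, ha, rfl⟩
    show g * a * g⁻¹ * (g * u * g⁻¹) = g * u * g⁻¹ * (g * a * g⁻¹)
    calc g * a * g⁻¹ * (g * u * g⁻¹) = g * (a * u) * g⁻¹ := by group
      _ = g * (u * a) * g⁻¹ := by rw [hu a ha]
      _ = _ := by group)
  have hn : c * g ∈ T := S.char _ fun a ha => by
    have := hcT _ ⟨a, ha, rfl⟩
    rw [show c * g * a * (c * g)⁻¹ = c * (g * a * g⁻¹) * c⁻¹ by group]
    exact this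
  have e1 : c * g * u * (c * g)⁻¹ = u := mul_inv_eq_iff_eq_mul.2 (hu _ hn)
  have e2 : c * g * u * (c * g)⁻¹ = g * u * g⁻¹ := by
    rw [show c * g * u * (c * g)⁻¹ = c * (g * u * g⁻¹) * c⁻¹ by group, hc]; group
  rw [← e2, e1]

/-- A conjugate of `z` in `T` gives an elementary abelian subgroup. -/
theorem Setup.partner (S : Setup T z) {g : L} (hy : g * z * g⁻¹ ∈ T) (hne : g * z * g⁻¹ ≠ z) :
    (∀ a ∈ T, a * (g * z * g⁻¹) = g * z * g⁻¹ * a → a * a = 1) ∧
    (∃ t ∈ T, t * (g * z * g⁻¹) ≠ g * z * g⁻¹ * t) ∧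
    ∃ p : L, p * (g * z * g⁻¹) = g * z * g⁻¹ * p ∧ p * z * p⁻¹ = z * (g * z * g⁻¹) := by
  set y := g * z * g⁻¹ with hyd
  have back : ∀ a, a * y = y * a → g⁻¹ * a * g ∈ T := fun a ha => (S.cent _).2 (by
    calc g⁻¹ * a * g * z = g⁻¹ * (a * y) * g := by rw [hyd]; group
      _ = g⁻¹ * (y * a) * g := by rw [ha]
      _ = _ := by rw [hyd]; group)
  have hzc : ∀ a ∈ T, a * z = z * a := fun a ha => (S.cent a).1 ha
  have hy' : ∃ t ∈ T, t * y ≠ y * t := by
    by_contra h
    push Not at h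
    exact hne (S.central_conj hzc h)
  refine ⟨fun a ha hay => ?_, hy', ?_⟩
  · rcases S.sqr a ha with e | e
    · exact e
    · exfalso
      rcases S.sqr _ (back a hay) with e' | e'
      · rw [show g⁻¹ * a * g * (g⁻¹ * a * g) = g⁻¹ * (a * a) * g by group, e] at e'
        exact S.ne (conj_eq_one_iff.1 (by rw [inv_inv]; exact e' : g⁻¹ * z * g⁻¹⁻¹ = 1))
      · rw [show g⁻¹ * a * g * (g⁻¹ * a * g) = g⁻¹ * (a * a) * g by group, e] at e'
        refine hne ?_
        calc g * z * g⁻¹ = g * (g⁻¹ * z * g) * g⁻¹ := by rw [e']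
          _ = z := by group
  · have hzy : z * y = y * z := ((S.cent y).1 hy).symm
    set z' := g⁻¹ * z * g with hz'
    have hz'T : z' ∈ T := back z hzy
    obtain ⟨s, hs, hsz⟩ : ∃ s ∈ T, s * z' ≠ z' * s := by
      by_contra h
      push Not at h
      have := S.central_conj (g := g⁻¹) hzc (by simpa [hz'] using h)
      rw [inv_inv] at this
      exact hne (show g * z * g⁻¹ = z from
        calc g * z * g⁻¹ = g * (g⁻¹ * z * g) * g⁻¹ := by rw [this]
          _ = z := by group)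
    refine ⟨g * s * g⁻¹, ?_, ?_⟩
    · rw [hyd]
      calc g * s * g⁻¹ * (g * z * g⁻¹) = g * (s * z) * g⁻¹ := by group
        _ = g * (z * s) * g⁻¹ := by rw [hzc s hs]
        _ = _ := by group
    · calc g * s * g⁻¹ * z * (g * s * g⁻¹)⁻¹ = g * (s * z' * s⁻¹) * g⁻¹ := by rw [hz']; group
        _ = g * (z * z') * g⁻¹ := by rw [S.conj_eq hs hz'T hsz]
        _ = y * z := by rw [hz', hyd]; group
        _ = z * y := hzy.symm

/-- Products outside the centralizer of an element of `T`. -/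
theorem Setup.mem_coset (S : Setup T z) {y t a : L} (hyT : y ∈ T) (ht : t ∈ T) (hty : t * y ≠ y * t)
    (ha : a ∈ T) (hay : a * y ≠ y * a) : t⁻¹ * a ∈ T ∧ t⁻¹ * a * y = y * (t⁻¹ * a) := by
  refine ⟨mul_mem (inv_mem ht) ha, ?_⟩
  have e1 := S.conj_eq ha hyT hay
  have e2 := S.conj_eq ht hyT hty
  calc t⁻¹ * a * y = t⁻¹ * (a * y * a⁻¹) * a := by group
    _ = t⁻¹ * (t * y * t⁻¹) * a := by rw [e1, e2]
    _ = _ := by group

theorem Setup.acomm (S : Setup T z) {y a b : L} (hA : ∀ a ∈ T, a * y = y * a → a * a = 1)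
    (ha : a ∈ T) (hay : a * y = y * a) (hb : b ∈ T) (hby : b * y = y * b) : a * b = b * a := by
  have h1 := hA a ha hay
  have h2 := hA b hb hby
  have h3 := hA _ (mul_mem ha hb) ((Commute.mul_left (show Commute a y from hay) hby).eq)
  calc a * b = (a * b)⁻¹ := (inv_eq_of_mul_eq_one_right h3).symm
    _ = b * a := by rw [mul_inv_rev, inv_eq_of_mul_eq_one_right h1, inv_eq_of_mul_eq_one_right h2]

/-- The only conjugates of `z` in the elementary abelian subgroup. -/
theorem orbit_unique (S : Setup T z) {g n : L} (hy : g * z * g⁻¹ ∈ T) (hne : g * z * g⁻¹ ≠ z)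
    (hu : n * z * n⁻¹ ∈ T) (huy : n * z * n⁻¹ * (g * z * g⁻¹) = g * z * g⁻¹ * (n * z * n⁻¹)) :
    n * z * n⁻¹ = z ∨ n * z * n⁻¹ = z * (g * z * g⁻¹) ∨ n * z * n⁻¹ = g * z * g⁻¹ := by
  obtain ⟨hA, ⟨t, ht, hty⟩, p, hp, hpz⟩ := S.partner hy hne
  set y := g * z * g⁻¹ with hyd
  have hzT : z ∈ T := (S.cent z).2 rfl
  have hzc : ∀ a ∈ T, a * z = z * a := fun a ha => (S.cent a).1 ha
  have hzy : z * y = y * z := (hzc y hy).symm
  have htyz : t * y * t⁻¹ = z * y := S.conj_eq ht hy hty
  have htzy : t * (z * y) * t⁻¹ = y := by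
    rw [show t * (z * y) * t⁻¹ = (t * z * t⁻¹) * (t * y * t⁻¹) by group, mul_inv_eq_iff_eq_mul.2 (hzc t ht), htyz, ← mul_assoc, S.zz, one_mul]
  have back : ∀ a, a * y = y * a → g⁻¹ * a * g ∈ T := fun a ha => (S.cent _).2 (by
    calc g⁻¹ * a * g * z = g⁻¹ * (a * y) * g := by rw [hyd]; group
      _ = g⁻¹ * (y * a) * g := by rw [ha]
      _ = _ := by rw [hyd]; group)
  -- action of `p`
  have hpa : ∀ a ∈ T, a * y = y * a → p * a * p⁻¹ = a ∨ p * a * p⁻¹ = y * a := by
    intro a _ hay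
    rcases S.comm _ (back p hp) _ (back a hay) with e | e
    · left
      calc p * a * p⁻¹ = g * (g⁻¹ * p * g * (g⁻¹ * a * g) * (g⁻¹ * p * g)⁻¹ * (g⁻¹ * a * g)⁻¹) * g⁻¹ * a := by group
        _ = a := by rw [e]; group
    · right
      calc p * a * p⁻¹ = g * (g⁻¹ * p * g * (g⁻¹ * a * g) * (g⁻¹ * p * g)⁻¹ * (g⁻¹ * a * g)⁻¹) * g⁻¹ * a := by group
        _ = y * a := by rw [e, hyd]
  set u := n * z * n⁻¹ with hud
  by_contra h
  push Not at h
  have hcen : ∀ v : L, (∃ k : L, v = k * z * k⁻¹) → v ≠ z → v ∈ T → ∃ b ∈ T, b * v ≠ v * b := by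
    rintro v ⟨k, rfl⟩ hv _
    by_contra hh
    push Not at hh
    exact hv (S.central_conj hzc hh)
  obtain ⟨b, hb, hbu⟩ := hcen u ⟨n, rfl⟩ h.1 hu
  have hby : b * y ≠ y * b := fun e => hbu (S.acomm hA hb e hu huy)
  rcases hpa u hu huy with e | e
  · -- `u` is central in the centralizer of `y`
    have hcg : ∀ w ∈ T, w * (g⁻¹ * u * g) = g⁻¹ * u * g * w := by
      intro w hw
      have hwy : g * w * g⁻¹ * y = y * (g * w * g⁻¹) := by
        rw [hyd]
        calc g * w * g⁻¹ * (g * z * g⁻¹) = g * (w * z) * g⁻¹ := by group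
          _ = g * (z * w) * g⁻¹ := by rw [hzc w hw]
          _ = _ := by group
      have key : g * w * g⁻¹ * u = u * (g * w * g⁻¹) := by
        have hwz := back
        by_cases hz' : g * w * g⁻¹ * z = z * (g * w * g⁻¹)
        · exact S.acomm hA ((S.cent _).2 hz') hwy hu huy
        · rcases S.comm _ (back p hp) (g⁻¹ * z * g) (back z hzy) with e1 | e1
          · exfalso
            have : p * z * p⁻¹ = z := by
              calc p * z * p⁻¹ = g * (g⁻¹ * p * g * (g⁻¹ * z * g) * (g⁻¹ * p * g)⁻¹ * (g⁻¹ * z * g)⁻¹) * g⁻¹ * z := by group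
                _ = z := by rw [e1]; group
            rw [hpz] at this
            have h1 : y = 1 := mul_left_cancel (this.trans (mul_one z).symm)
            exact S.ne (conj_eq_one_iff.1 h1)
          · have e2 : (g⁻¹ * p * g) * (g⁻¹ * z * g) ≠ (g⁻¹ * z * g) * (g⁻¹ * p * g) := fun q => by
              rw [commutatorElement_eq_one_iff_mul_comm.2 q |> (fun r => (by simpa [commutatorElement_def] using r : g⁻¹ * p * g * (g⁻¹ * z * g) * (g⁻¹ * p * g)⁻¹ * (g⁻¹ * z * g)⁻¹ = 1))] at e1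
              exact S.ne e1.symm
            have e3 : w * (g⁻¹ * z * g) ≠ (g⁻¹ * z * g) * w := fun q => hz' (by
              calc g * w * g⁻¹ * z = g * (w * (g⁻¹ * z * g)) * g⁻¹ := by group
                _ = g * ((g⁻¹ * z * g) * w) * g⁻¹ := by rw [q]
                _ = _ := by group)
            obtain ⟨m1, m2⟩ := S.mem_coset (back z hzy) (back p hp) e2 hw e3
            have m3 : g * ((g⁻¹ * p * g)⁻¹ * w) * g⁻¹ ∈ T := (S.cent _).2 (by
              calc g * ((g⁻¹ * p * g)⁻¹ * w) * g⁻¹ * z = g * ((g⁻¹ * p * g)⁻¹ * w * (g⁻¹ * z * g)) * g⁻¹ := by group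
                _ = g * ((g⁻¹ * z * g) * ((g⁻¹ * p * g)⁻¹ * w)) * g⁻¹ := by rw [m2]
                _ = _ := by group)
            rw [show g * ((g⁻¹ * p * g)⁻¹ * w) * g⁻¹ = p⁻¹ * (g * w * g⁻¹) by group] at m3
            have := S.acomm hA m3 ((Commute.mul_left (Commute.inv_left (show Commute p y from hp)) hwy).eq) hu huy
            have := (Commute.mul_left (show Commute p u from mul_inv_eq_iff_eq_mul.1 e) this).eq
            simpa using this
      calc w * (g⁻¹ * u * g) = g⁻¹ * (g * w * g⁻¹ * u) * g := by group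
        _ = g⁻¹ * (u * (g * w * g⁻¹)) * g := by rw [key]
        _ = _ := by group
    have := S.central_conj (g := g⁻¹ * n) hzc (by
      rw [show g⁻¹ * n * z * (g⁻¹ * n)⁻¹ = g⁻¹ * u * g by rw [hud]; group]; exact hcg)
    apply h.2.2
    calc u = g * (g⁻¹ * n * z * (g⁻¹ * n)⁻¹) * g⁻¹ := by rw [hud]; group
      _ = y := by rw [this]
  · have hyu : y * u ∈ T := mul_mem hy hu
    have hyuy : y * u * y = y * (y * u) := by rw [mul_assoc, huy]
    have h1 := S.central_conj (g := p * n) hzc (fun w hw => by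
      rw [show p * n * z * (p * n)⁻¹ = p * u * p⁻¹ by rw [hud]; group, e]
      by_cases hwy : w * y = y * w
      · exact S.acomm hA hw hwy hyu hyuy
      · have hwu : w * u ≠ u * w := fun e' => by
          obtain ⟨-, m⟩ := S.mem_coset hy ht hty hw hwy
          have hbu' := S.mem_coset hy ht hty hb hby
          have c1 : Commute t u := by
            have := (Commute.mul_left (show Commute w u from e')
              (Commute.inv_left (show Commute (t⁻¹ * w) u from S.acomm hA (mul_mem (inv_mem ht) hw) m hu huy))).eq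
            exact (by simpa [mul_assoc] using this : t * u = u * t)
          have := (c1.mul_left (show Commute (t⁻¹ * b) u from S.acomm hA hbu'.1 hbu'.2 hu huy)).eq
          exact hbu (by simpa using this)
        apply mul_inv_eq_iff_eq_mul.1
        calc w * (y * u) * w⁻¹ = (w * y * w⁻¹) * (w * u * w⁻¹) := by group
          _ = (z * y) * (z * u) := by rw [S.conj_eq hw hy hwy, S.conj_eq hw hu hwu]
          _ = z * (y * z) * u := by group
          _ = y * u := by rw [← hzy, ← mul_assoc z z, S.zz, one_mul])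
    apply h.2.1
    rw [show p * n * z * (p * n)⁻¹ = p * u * p⁻¹ by rw [hud]; group, e] at h1
    calc u = y * (y * u) := by rw [← mul_assoc, hA y hy rfl, one_mul]
      _ = _ := by rw [h1, hzy]

/-- The action of the normalizer of the elementary abelian subgroup. -/
theorem Setup.normalizer_action (S : Setup T z) {g : L} (hy : g * z * g⁻¹ ∈ T) (hne : g * z * g⁻¹ ≠ z) {n : L}
    (hn : ∀ a ∈ T, a * (g * z * g⁻¹) = g * z * g⁻¹ * a → n * a * n⁻¹ ∈ T ∧ n * a * n⁻¹ * (g * z * g⁻¹) = g * z * g⁻¹ * (n * a * n⁻¹))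
    {a : L} (ha : a ∈ T) (hay : a * (g * z * g⁻¹) = g * z * g⁻¹ * a) :
    (n * a * n⁻¹ * a⁻¹ = 1 ∨ n * a * n⁻¹ * a⁻¹ = z ∨ n * a * n⁻¹ * a⁻¹ = g * z * g⁻¹ ∨ n * a * n⁻¹ * a⁻¹ = z * (g * z * g⁻¹)) ∧
    ((∀ b ∈ T, b * a = a * b) → (∀ p : L, p * (g * z * g⁻¹) = g * z * g⁻¹ * p → p * a = a * p) → n * a * n⁻¹ = a) := by
  obtain ⟨hA, ⟨t, ht, hty⟩, p, hp, hpz⟩ := S.partner hy hne
  set y := g * z * g⁻¹ with hyd
  have hzT : z ∈ T := (S.cent z).2 rfl
  have hzc : ∀ a ∈ T, a * z = z * a := fun a ha => (S.cent a).1 ha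
  have hzy : z * y = y * z := (hzc y hy).symm
  have htyz : t * y * t⁻¹ = z * y := S.conj_eq ht hy hty
  have htzy : t * (z * y) * t⁻¹ = y := by
    rw [show t * (z * y) * t⁻¹ = (t * z * t⁻¹) * (t * y * t⁻¹) by group, mul_inv_eq_iff_eq_mul.2 (hzc t ht), htyz, ← mul_assoc, S.zz, one_mul]
  have back : ∀ a, a * y = y * a → g⁻¹ * a * g ∈ T := fun a ha => (S.cent _).2 (by
    calc g⁻¹ * a * g * z = g⁻¹ * (a * y) * g := by rw [hyd]; group
      _ = g⁻¹ * (y * a) * g := by rw [ha]
      _ = _ := by rw [hyd]; group)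
  -- action of `p`
  have hpa : ∀ a ∈ T, a * y = y * a → p * a * p⁻¹ = a ∨ p * a * p⁻¹ = y * a := by
    intro a _ hay
    rcases S.comm _ (back p hp) _ (back a hay) with e | e
    · left
      calc p * a * p⁻¹ = g * (g⁻¹ * p * g * (g⁻¹ * a * g) * (g⁻¹ * p * g)⁻¹ * (g⁻¹ * a * g)⁻¹) * g⁻¹ * a := by group
        _ = a := by rw [e]; group
    · right
      calc p * a * p⁻¹ = g * (g⁻¹ * p * g * (g⁻¹ * a * g) * (g⁻¹ * p * g)⁻¹ * (g⁻¹ * a * g)⁻¹) * g⁻¹ * a := by group
        _ = y * a := by rw [e, hyd]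
  -- the orbit of `z`
  obtain ⟨hu, huy⟩ := hn z hzT hzy
  have horb := orbit_unique S hy hne hu huy
  set u := n * z * n⁻¹ with hud
  obtain ⟨x, hxz, hxa, hxc⟩ : ∃ x, x * z * x⁻¹ = u ∧
      (∀ a ∈ T, a * y = y * a → x * a * x⁻¹ * a⁻¹ = 1 ∨ x * a * x⁻¹ * a⁻¹ = z ∨ x * a * x⁻¹ * a⁻¹ = y ∨ x * a * x⁻¹ * a⁻¹ = z * y) ∧
      (∀ a, t * a = a * t → p * a = a * p → x * a = a * x) := by
    rcases horb with e | e | e
    · exact ⟨1, by rw [e]; group, fun a _ _ => Or.inl (by group), fun a _ _ => by simp⟩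
    · refine ⟨p, by rw [e, hpz], fun a ha hay => ?_, fun a _ h => h⟩
      rcases hpa a ha hay with e | e
      · left; rw [e, mul_inv_cancel]
      · right; right; left; rw [e, mul_inv_cancel_right]
    · refine ⟨t * p, by rw [e, show t * p * z * (t * p)⁻¹ = t * (p * z * p⁻¹) * t⁻¹ by group, hpz, htzy],
        fun a ha hay => ?_, fun a h1 h2 => (Commute.mul_left (show Commute t a from h1) h2).eq⟩
      rw [show t * p * a * (t * p)⁻¹ * a⁻¹ = t * (p * a * p⁻¹) * t⁻¹ * a⁻¹ by group]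
      rcases hpa a ha hay with e | e <;> rw [e]
      · rcases S.comm t ht a ha with e' | e' <;> rw [e'] <;> simp
      · rw [show t * (y * a) * t⁻¹ * a⁻¹ = (t * y * t⁻¹) * (t * a * t⁻¹ * a⁻¹) by group, htyz]
        rcases S.comm t ht a ha with e' | e' <;> rw [e']
        · simp
        · right; right; left
          rw [mul_assoc, ← hzy, ← mul_assoc, S.zz, one_mul]
  have hτ : x⁻¹ * n ∈ T := (S.cent _).2 (by
    calc x⁻¹ * n * z = x⁻¹ * u * n := by rw [hud]; group
      _ = x⁻¹ * (x * z * x⁻¹) * n := by rw [hxz]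
      _ = _ := by group)
  refine ⟨?_, fun hc hcp => ?_⟩
  · rw [show n * a * n⁻¹ * a⁻¹ = x * ((x⁻¹ * n) * a * (x⁻¹ * n)⁻¹ * a⁻¹) * x⁻¹ * (x * a * x⁻¹ * a⁻¹) by group]
    have a1 : ∀ v, z * (z * v) = v := fun v => by rw [← mul_assoc, S.zz, one_mul]
    have a2 : ∀ v, y * (z * v) = z * (y * v) := fun v => by rw [← mul_assoc, ← hzy, mul_assoc]
    have a3 : y * y = 1 := hA y hy rfl
    have a4 : ∀ v, y * (y * v) = v := fun v => by rw [← mul_assoc, a3, one_mul]
    clear_value y
    rcases S.comm _ hτ a ha with e | e <;> rw [e]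
    · rw [mul_one, mul_inv_cancel, one_mul]
      exact hxa a ha hay
    · rw [hxz]
      rcases horb with f | f | f <;> rw [f] <;> (try rw [← hyd]) <;> rcases hxa a ha hay with f' | f' | f' | f' <;> rw [f'] <;>
        simp [mul_assoc, a1, a2, a3, a4, S.zz, ← hzy]
  · have h1 := hxc a (hc t ht) (hcp p hp)
    rw [show n = x * (x⁻¹ * n) by group]
    exact mul_inv_eq_iff_eq_mul.2 (Commute.mul_left (show Commute x a from h1) (hc _ hτ)).eq

/-- A subgroup between a given one and avoiding an element has index two. -/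
theorem exists_avoiding (S : Setup T z) {y e : L} (hy : y ∈ T) (hyy : y * y = 1) (he : e ∈ T)
    (h1 : e ≠ 1) (h2 : e ≠ z) (h3 : e ≠ y) (h4 : e ≠ z * y) :
    ∃ M : Subgroup L, M ≤ T ∧ z ∈ M ∧ y ∈ M ∧ e ∉ M ∧ M.relIndex T = 2 := by
  have hzy : z * y = y * z := ((S.cent y).1 hy).symm
  have a1 : ∀ v, z * (z * v) = v := fun v => by rw [← mul_assoc, S.zz, one_mul]
  have a2 : ∀ v, y * (z * v) = z * (y * v) := fun v => by rw [← mul_assoc, ← hzy, mul_assoc]
  have a4 : ∀ v, y * (y * v) = v := fun v => by rw [← mul_assoc, hyy, one_mul]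
  let V : Subgroup L :=
    { carrier := {1, z, y, z * y}
      one_mem' := by simp
      mul_mem' := by
        rintro a b (rfl | rfl | rfl | rfl) (rfl | rfl | rfl | rfl) <;>
          simp [mul_assoc, a1, a2, a4, S.zz, hyy, ← hzy]
      inv_mem' := by
        rintro a (rfl | rfl | rfl | rfl) <;>
          simp [inv_eq_of_mul_eq_one_right S.zz, inv_eq_of_mul_eq_one_right hyy, ← hzy] }
  have hVT : V ≤ T := by
    intro a ha
    rcases ha with h | h | h | h <;> rw [h]
    exacts [one_mem _, (S.cent z).2 rfl, hy, mul_mem ((S.cent z).2 rfl) hy]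
  have hVe : e ∉ V := by
    rintro (h | h | h | h)
    exacts [h1 h, h2 h, h3 h, h4 h]
  obtain ⟨M, ⟨hMT, hVM, heM⟩, hmax⟩ :=
    (Set.toFinite {U : Subgroup L | U ≤ T ∧ V ≤ U ∧ e ∉ U}).exists_maximal ⟨V, hVT, le_rfl, hVe⟩
  have hzM : z ∈ M := hVM (by simp [V])
  refine ⟨M, hMT, hzM, hVM (by simp [V]), heM, ?_⟩
  have key : ∀ b ∈ T, b ∉ M → b⁻¹ * e ∈ M := by
    intro b hb hbM
    let U : Subgroup L :=
      { carrier := {w | w ∈ M ∨ b⁻¹ * w ∈ M}
        one_mem' := Or.inl (one_mem _)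
        mul_mem' := fun {u v} hu hv => by
          have hn : ∀ w ∈ M, b⁻¹ * w * b ∈ M := fun w hw => by
            rcases S.comm b⁻¹ (inv_mem hb) w (hMT hw) with q | q
            · rw [show b⁻¹ * w * b = (b⁻¹ * w * b⁻¹⁻¹ * w⁻¹) * w by group, q, one_mul]; exact hw
            · rw [show b⁻¹ * w * b = (b⁻¹ * w * b⁻¹⁻¹ * w⁻¹) * w by group, q]; exact mul_mem hzM hw
          have hbb : b * b ∈ M := by
            rcases S.sqr b hb with q | q <;> rw [q]
            exacts [one_mem _, hzM]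
          rcases hu with hu | hu <;> rcases hv with hv | hv
          · exact Or.inl (mul_mem hu hv)
          · refine Or.inr ?_
            rw [show b⁻¹ * (u * v) = (b⁻¹ * u * b) * (b⁻¹ * v) by group]
            exact mul_mem (hn u hu) hv
          · refine Or.inr ?_
            rw [← mul_assoc]; exact mul_mem hu hv
          · refine Or.inl ?_
            rw [show u * v = (b * b) * (b⁻¹ * (b⁻¹ * u) * b) * (b⁻¹ * v) by group]
            exact mul_mem (mul_mem hbb (hn _ hu)) hv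
        inv_mem' := fun {u} hu => by
          rcases hu with hu | hu
          · exact Or.inl (inv_mem hu)
          · refine Or.inr ?_
            have hn : b⁻¹ * (b⁻¹ * u)⁻¹ * b ∈ M := by
              rcases S.comm b⁻¹ (inv_mem hb) _ (hMT (inv_mem hu)) with q | q
              · rw [show b⁻¹ * (b⁻¹ * u)⁻¹ * b = (b⁻¹ * (b⁻¹ * u)⁻¹ * b⁻¹⁻¹ * (b⁻¹ * u)⁻¹⁻¹) * (b⁻¹ * u)⁻¹ by group, q, one_mul]
                exact inv_mem hu
              · rw [show b⁻¹ * (b⁻¹ * u)⁻¹ * b = (b⁻¹ * (b⁻¹ * u)⁻¹ * b⁻¹⁻¹ * (b⁻¹ * u)⁻¹⁻¹) * (b⁻¹ * u)⁻¹ by group, q]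
                exact mul_mem hzM (inv_mem hu)
            have hbb : b * b ∈ M := by
              rcases S.sqr b hb with q | q <;> rw [q]
              exacts [one_mem _, hzM]
            rw [show b⁻¹ * u⁻¹ = (b⁻¹ * (b⁻¹ * u)⁻¹ * b) * (b * b)⁻¹ by group]
            exact mul_mem hn (inv_mem hbb) }
    have heU : e ∈ U := by
      by_contra heU
      have hle : M ≤ U := fun w hw => Or.inl hw
      have := hmax ⟨fun w hw => ?_, hVM.trans hle, heU⟩ hle
      · exact hbM (this (Or.inr (by rw [inv_mul_cancel]; exact one_mem _) : b ∈ U))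
      · rcases hw with hw | hw
        · exact hMT hw
        · have := mul_mem hb (hMT hw); simpa using this
    exact heU.resolve_left heM
  rw [Subgroup.relIndex, Subgroup.index_eq_two_iff]
  refine ⟨⟨e, he⟩, fun b => ?_⟩
  simp only [Subgroup.mem_subgroupOf, Subgroup.coe_mul]
  by_cases hb : (b : L) ∈ M
  · exact Or.inr ⟨hb, fun h => heM ((Subgroup.mul_mem_cancel_left M hb).1 h)⟩
  · refine Or.inl ⟨?_, hb⟩
    have := key b b.2 hb
    rcases S.sqr b b.2 with q | q
    · rwa [inv_eq_of_mul_eq_one_right q] at this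
    · rw [show (b : L) * e = ((b : L) * b) * ((b : L)⁻¹ * e) by group, q]
      exact mul_mem hzM this

open Cfsg in
theorem main [IsSimpleGroup L] (hL : ¬ IsMulCommutative L) (z : L) (hz : orderOf z = 2) (R : Sylow 2 L)
    (hR : (R : Subgroup L) = Subgroup.centralizer ({z} : Set L))
    (hΦ : (frattini ↥(R : Subgroup L)).map (R : Subgroup L).subtype = Subgroup.zpowers z) :
    Nonempty (↥(R : Subgroup L) ≃* DihedralGroup 4) := by
  classical
  haveI : Fact (Nat.Prime 2) := ⟨Nat.prime_two⟩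
  set T := (R : Subgroup L)
  have hT : IsPGroup 2 ↥T := R.2
  have hcent : ∀ g : L, g ∈ T ↔ g * z = z * g := fun g => by rw [hR, Subgroup.mem_centralizer_singleton_iff]
  have hz1 : z ≠ 1 := fun e => by rw [e, orderOf_one] at hz; omega
  have hz2 : z * z = 1 := by rw [← pow_two, ← hz, pow_orderOf_eq_one]
  have hpow : ∀ x ∈ Subgroup.zpowers z, x = 1 ∨ x = z := by
    intro x hx
    obtain ⟨k, rfl⟩ := Subgroup.mem_zpowers_iff.1 hx
    rcases Int.even_or_odd k with ⟨m, rfl⟩ | ⟨m, rfl⟩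
    · left; rw [← two_mul, zpow_mul, zpow_two, hz2, one_zpow]
    · right; rw [zpow_add, zpow_mul, zpow_two, hz2, one_zpow, one_mul, zpow_one]
  have hsqr : ∀ a ∈ T, a * a = 1 ∨ a * a = z := fun a ha => hpow _ (hΦ ▸ ⟨(⟨a, ha⟩ : ↥T) ^ 2,
    Lib.PGroupFrattini.pow_mem_frattini hT _, by simp [pow_two]⟩)
  have hcomm : ∀ a ∈ T, ∀ b ∈ T, a * b * a⁻¹ * b⁻¹ = 1 ∨ a * b * a⁻¹ * b⁻¹ = z := fun a ha b hb =>
    hpow _ (hΦ ▸ ⟨⟨a, ha⟩ * ⟨b, hb⟩ * (⟨a, ha⟩ : ↥T)⁻¹ * (⟨b, hb⟩ : ↥T)⁻¹,
      Lib.PGroupFrattini.commutator_le_frattini hT (by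
        rw [← commutatorElement_def, commutator_def]
        exact Subgroup.commutator_mem_commutator (Subgroup.mem_top _) (Subgroup.mem_top _)), by simp⟩)
  have hchar : ∀ n : L, (∀ a ∈ T, n * a * n⁻¹ ∈ T) → n ∈ T := by
    intro n hn
    rw [hcent]
    apply mul_inv_eq_iff_eq_mul.1
    have hne : n * z * n⁻¹ ≠ 1 := fun e => hz1 (conj_eq_one_iff.1 e)
    by_cases h1 : ∃ a ∈ T, a * a = z
    · obtain ⟨a, ha, e⟩ := h1
      have h' : n * z * n⁻¹ = n * a * n⁻¹ * (n * a * n⁻¹) := by rw [← e]; group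
      rw [h'] at hne ⊢
      exact (hsqr _ (hn a ha)).resolve_left hne
    by_cases h2 : ∃ a ∈ T, ∃ b ∈ T, a * b * a⁻¹ * b⁻¹ = z
    · obtain ⟨a, ha, b, hb, e⟩ := h2
      have h' : n * z * n⁻¹ = n * a * n⁻¹ * (n * b * n⁻¹) * (n * a * n⁻¹)⁻¹ * (n * b * n⁻¹)⁻¹ := by rw [← e]; group
      rw [h'] at hne ⊢
      exact (hcomm _ (hn a ha) _ (hn b hb)).resolve_left hne
    exfalso
    push Not at h1 h2
    have : frattini ↥T ≤ ⊥ := Lib.PGroupFrattini.frattini_le Nat.prime_two ⊥ (by
      rw [commutator_def, Subgroup.commutator_le]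
      intro a _ b _
      rw [Subgroup.mem_bot]
      apply Subtype.ext
      simpa [commutatorElement_def] using (hcomm a a.2 b b.2).resolve_right (h2 a a.2 b b.2)) (fun a => by
      rw [Subgroup.mem_bot]
      apply Subtype.ext
      simpa [pow_two] using (hsqr a a.2).resolve_right (h1 a a.2))
    rw [le_bot_iff.1 this, Subgroup.map_bot, eq_comm, Subgroup.zpowers_eq_bot] at hΦ
    exact hz1 hΦ
  have S : Setup T z := ⟨hT, R.not_dvd_index, hcent, hz1, hsqr, hcomm, hchar⟩
  have hzT : z ∈ T := (hcent z).2 rfl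
  have hzc : ∀ a ∈ T, a * z = z * a := fun a ha => (hcent a).1 ha
  have hna : ∃ a b : L, a * b ≠ b * a := by
    by_contra h
    push Not at h
    exact hL ⟨⟨h⟩⟩
  obtain ⟨g, hg, hgne⟩ : ∃ g, g * z * g⁻¹ ∈ T ∧ g * z * g⁻¹ ≠ z := by
    by_contra h
    push Not at h
    have hO : Cfsg.oddCore L = ⊥ := by
      haveI := Lib.Involution.oddCore_normal (G := L)
      rcases IsSimpleGroup.eq_bot_or_eq_top_of_normal (Cfsg.oddCore L) inferInstance with e | e
      · exact e
      · exfalso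
        have h2 : 2 ∣ Nat.card L := hz ▸ orderOf_dvd_natCard z
        have h3 := Lib.Involution.odd_card_oddCore (G := L)
        rw [e, Subgroup.card_top] at h3
        exact (Nat.not_even_iff_odd.2 h3) (even_iff_two_dvd.2 h2)
    have hzen : z ∈ Subgroup.center L := Subgroup.mem_center_iff.2 fun g => by
      have := Lib.Involution.zstar_element R (x := z) ⟨hzT, h⟩ g
      rw [hO, Subgroup.mem_bot] at this
      exact (commutatorElement_eq_one_iff_mul_comm.1 this).symm
    rcases IsSimpleGroup.eq_bot_or_eq_top_of_normal (Subgroup.center L) inferInstance with e | e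
    · rw [e, Subgroup.mem_bot] at hzen; exact hz1 hzen
    · exact hL ⟨⟨fun a b => Subgroup.mem_center_iff.1 (e ▸ Subgroup.mem_top b : b ∈ Subgroup.center L) a⟩⟩
  obtain ⟨hA, ⟨t, ht, hty⟩, p, hp, hpz⟩ := S.partner hg hgne
  set y := g * z * g⁻¹ with hyd
  have hzy : z * y = y * z := (hzc y hg).symm
  -- the centre has order two
  have hcen : ∀ v ∈ T, (∀ a ∈ T, a * v = v * a) → v = 1 ∨ v = z := by
    by_contra hcon
    push Not at hcon
    obtain ⟨v, hv, hvc, hv1, hvz⟩ := hcon
    have back : ∀ a, a * y = y * a → g⁻¹ * a * g ∈ T := fun a ha => (hcent _).2 (by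
      calc g⁻¹ * a * g * z = g⁻¹ * (a * y) * g := by rw [hyd]; group
        _ = g⁻¹ * (y * a) * g := by rw [ha]
        _ = _ := by rw [hyd]; group)
    obtain ⟨e, he, hec, he1, hez, hep⟩ : ∃ e, e ∈ T ∧ (∀ a ∈ T, a * e = e * a) ∧ e ≠ 1 ∧ e ≠ z ∧ p * e = e * p := by
      by_cases hpv : p * v = v * p
      · exact ⟨v, hv, hvc, hv1, hvz, hpv⟩
      · refine ⟨v * z, mul_mem hv hzT, fun a ha => (Commute.mul_right (show Commute a v from hvc a ha) (hzc a ha)).eq, ?_, ?_, ?_⟩
        · intro e; exact hvz (by rw [eq_inv_of_mul_eq_one_left e, inv_eq_of_mul_eq_one_right hz2])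
        · intro e; exact hv1 (mul_right_cancel (e.trans (one_mul z).symm))
        · have hvy : v * y = y * v := (hvc y hg).symm
          have e1 : p * v * p⁻¹ = y * v := by
            rcases hcomm _ (back p hp) _ (back v hvy) with e | e
            · exfalso
              apply hpv
              apply mul_inv_eq_iff_eq_mul.1
              calc p * v * p⁻¹ = g * (g⁻¹ * p * g * (g⁻¹ * v * g) * (g⁻¹ * p * g)⁻¹ * (g⁻¹ * v * g)⁻¹) * g⁻¹ * v := by group
                _ = v := by rw [e]; group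
            · calc p * v * p⁻¹ = g * (g⁻¹ * p * g * (g⁻¹ * v * g) * (g⁻¹ * p * g)⁻¹ * (g⁻¹ * v * g)⁻¹) * g⁻¹ * v := by group
                _ = y * v := by rw [e, hyd]
          apply mul_inv_eq_iff_eq_mul.1
          calc p * (v * z) * p⁻¹ = (p * v * p⁻¹) * (p * z * p⁻¹) := by group
            _ = y * (v * z) * y := by rw [e1, hpz]; group
            _ = (v * z) * (y * y) := by
              rw [← (Commute.mul_left (show Commute v y from hvy) hzy).eq, mul_assoc (v * z)]
            _ = v * z := by rw [hA y hg rfl, mul_one]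
    have hee : e * e = 1 := hA e he (hec y hg).symm
    -- every conjugate of `e` in `T`
    have hconj : ∀ k : L, k * e * k⁻¹ ∈ T → k * e * k⁻¹ ≠ e →
        k * e * k⁻¹ * y ≠ y * (k * e * k⁻¹) ∧ ∃ h : L, h * z * h⁻¹ ∈ T ∧ h * z * h⁻¹ ≠ z ∧
          (∀ a ∈ T, a * (k * e * k⁻¹) = k * e * k⁻¹ * a ↔ a * (h * z * h⁻¹) = h * z * h⁻¹ * a) ∧
          (k * e * k⁻¹ * e⁻¹ = 1 ∨ k * e * k⁻¹ * e⁻¹ = z ∨ k * e * k⁻¹ * e⁻¹ = h * z * h⁻¹ ∨ k * e * k⁻¹ * e⁻¹ = z * (h * z * h⁻¹)) := by
      intro k hk hkne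
      set e' := k * e * k⁻¹ with he'
      obtain ⟨b, hb, hbe⟩ : ∃ b ∈ T, b * e' ≠ e' * b := by
        by_contra h
        push Not at h
        exact hkne (S.central_conj hec h)
      let A' : Subgroup L := T ⊓ Subgroup.centralizer ({e'} : Set L)
      have hA' : ∀ a, a ∈ A' ↔ a ∈ T ∧ a * e' = e' * a := fun a => by
        rw [Subgroup.mem_inf, Subgroup.mem_centralizer_singleton_iff]
      obtain ⟨c, hc, hcT⟩ := S.into (u := e) hec (P := A'.map (MulAut.conj k⁻¹).toMonoidHom)
        ((hT.to_le inf_le_left).map _) (by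
          rintro _ ⟨a, ha, rfl⟩
          show k⁻¹ * a * k⁻¹⁻¹ * e = e * (k⁻¹ * a * k⁻¹⁻¹)
          calc k⁻¹ * a * k⁻¹⁻¹ * e = k⁻¹ * (a * e') * k := by rw [he']; group
            _ = k⁻¹ * (e' * a) * k := by rw [((hA' a).1 ha).2]
            _ = _ := by rw [he']; group)
      set m := c * k⁻¹ with hm
      have hmT : ∀ a ∈ A', m * a * m⁻¹ ∈ T := fun a ha => by
        have := hcT _ ⟨a, ha, rfl⟩
        rw [show m * a * m⁻¹ = c * (k⁻¹ * a * k⁻¹⁻¹) * c⁻¹ by rw [hm]; group]
        exact this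
      have hme : m * e' * m⁻¹ = e := by
        rw [hm, he', show c * k⁻¹ * (k * e * k⁻¹) * (c * k⁻¹)⁻¹ = c * e * c⁻¹ by group, hc]; group
      have hzA : z ∈ A' := (hA' z).2 ⟨hzT, (hzc e' hk).symm⟩
      have hmn : m ∉ T := fun h => hbe (by
        have h1 : e' = e := by
          calc e' = m⁻¹ * (m * e' * m⁻¹) * m := by group
            _ = m⁻¹ * e * m := by rw [hme]
            _ = e := by rw [mul_assoc, ← hec m h]; group
        rw [h1]; exact hec b hb)
      set y' := m * z * m⁻¹ with hy'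
      have hy'T : y' ∈ T := hmT z hzA
      have hy'ne : y' ≠ z := fun h => hmn ((hcent m).2 (mul_inv_eq_iff_eq_mul.1 h))
      have hAsq : ∀ a ∈ A', a * a = 1 := by
        intro a ha
        rcases hsqr a ((hA' a).1 ha).1 with q | q
        · exact q
        · exfalso
          have h1 : y' = (m * a * m⁻¹) * (m * a * m⁻¹) := by rw [hy', ← q]; group
          rcases hsqr _ (hmT a ha) with q' | q' <;> rw [← h1] at q'
          · exact hz1 (conj_eq_one_iff.1 q')
          · exact hy'ne q'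
      have hAc : ∀ a ∈ A', ∀ a' ∈ A', a * a' = a' * a := fun a ha a' ha' => by
        have h3 := hAsq _ (mul_mem ha ha')
        calc a * a' = (a * a')⁻¹ := (inv_eq_of_mul_eq_one_right h3).symm
          _ = a' * a := by rw [mul_inv_rev, inv_eq_of_mul_eq_one_right (hAsq a ha), inv_eq_of_mul_eq_one_right (hAsq a' ha')]
      -- Sylow inside the normalizer
      let N := Subgroup.normalizer (A' : Set L)
      have hTN : ∀ U : Subgroup L, U ≤ T → z ∈ U → ∀ a ∈ T, a ∈ Subgroup.normalizer (U : Set L) := by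
        intro U hU hzU a ha
        rw [Subgroup.mem_normalizer_iff]
        have key : ∀ s ∈ T, ∀ u ∈ U, s * u * s⁻¹ ∈ U := fun s hs u hu => by
          rw [show s * u * s⁻¹ = (s * u * s⁻¹ * u⁻¹) * u by group]
          rcases hcomm s hs u (hU hu) with q | q <;> rw [q]
          · rwa [one_mul]
          · exact mul_mem hzU hu
        refine fun u => ⟨key a ha u, fun h => ?_⟩
        have := key a⁻¹ (inv_mem ha) _ h
        simpa [mul_assoc] using this
      let B := A'.map (MulAut.conj m).toMonoidHom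
      have hBT : B ≤ T := by rintro _ ⟨a, ha, rfl⟩; exact hmT a ha
      have hzB : z ∈ B := by
        by_contra hzB
        -- otherwise `T` is generated by `z` and `B`, hence elementary abelian
        have hcard : Nat.card B = Nat.card A' := Subgroup.card_map_of_injective (MulAut.conj m).injective
        have hi : A'.relIndex T = 2 := by
          rw [Subgroup.relIndex, Subgroup.index_eq_two_iff]
          refine ⟨⟨b, hb⟩, fun a => ?_⟩
          simp only [Subgroup.mem_subgroupOf, Subgroup.coe_mul]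
          by_cases ha : (a : L) ∈ A'
          · exact Or.inr ⟨ha, fun h => hbe ((hA' b).1 ((Subgroup.mul_mem_cancel_left A' ha).1 h)).2⟩
          · refine Or.inl ⟨?_, ha⟩
            have h1 := S.mem_coset hk (inv_mem a.2) (fun q => ha ((hA' _).2 ⟨a.2, by
              have := (Commute.inv_left (show Commute ((a : L)⁻¹) e' from q)).eq
              simpa using this⟩)) hb hbe
            rw [inv_inv] at h1
            exact (hA' _).2 h1
        have hiB : B.relIndex T = 2 := by
          have e1 := Subgroup.card_mul_index (A'.subgroupOf T)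
          have e2 := Subgroup.card_mul_index (B.subgroupOf T)
          rw [Nat.card_congr (Subgroup.subgroupOfEquivOfLe (inf_le_left : A' ≤ T)).toEquiv] at e1
          rw [Nat.card_congr (Subgroup.subgroupOfEquivOfLe hBT).toEquiv, hcard] at e2
          rw [Subgroup.relIndex] at hi ⊢
          rw [hi] at e1
          rw [← e1] at e2
          exact Nat.eq_of_mul_eq_mul_left Nat.card_pos e2
        have hmem : ∀ a ∈ T, a ∈ B ∨ z * a ∈ B := by
          intro a ha
          by_cases h : a ∈ B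
          · exact Or.inl h
          · right
            have := (Subgroup.mul_mem_iff_of_index_two hiB (a := (⟨z, hzT⟩ : ↥T)) (b := ⟨a, ha⟩)).2
            exact this ⟨fun q => absurd q hzB, fun q => absurd q h⟩
        have hBc : ∀ u ∈ B, ∀ v ∈ B, u * v = v * u := by
          rintro _ ⟨u, hu, rfl⟩ _ ⟨v, hv, rfl⟩
          show m * u * m⁻¹ * (m * v * m⁻¹) = m * v * m⁻¹ * (m * u * m⁻¹)
          calc _ = m * (u * v) * m⁻¹ := by group
            _ = m * (v * u) * m⁻¹ := by rw [hAc u hu v hv]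
            _ = _ := by group
        apply hbe
        have a1 : ∀ v, z * (z * v) = v := fun v => by rw [← mul_assoc, hz2, one_mul]
        rcases hmem b hb with h1 | h1 <;> rcases hmem e' hk with h2 | h2
        · exact hBc _ h1 _ h2
        · have := (Commute.mul_right (show Commute b z from hzc b hb) (show Commute b (z * e') from hBc _ h1 _ h2)).eq
          simpa [a1] using this
        · have := (Commute.mul_left (show Commute z e' from (hzc e' hk).symm) (show Commute (z * b) e' from hBc _ h1 _ h2)).eq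
          simpa [a1] using this
        · have c1 : Commute (z * b) e' := by
            have := (Commute.mul_right (show Commute (z * b) z from (hzc _ (mul_mem hzT hb))) (show Commute (z * b) (z * e') from hBc _ h1 _ h2)).eq
            simpa [a1, Commute, SemiconjBy] using this
          have := (Commute.mul_left (show Commute z e' from (hzc e' hk).symm) c1).eq
          simpa [a1] using this
      obtain ⟨n, hn, hnT⟩ := Lib.LocalFusion.exists_conj_le_of_not_dvd_relIndex (p := 2) (H := N) (T := T)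
        (Q := T.map (MulAut.conj m⁻¹).toMonoidHom) (hTN A' inf_le_left hzA) hT
        (Lib.LocalFusion.not_dvd_relIndex_of_not_dvd_index (hTN A' inf_le_left hzA) R.not_dvd_index) (by
          rintro _ ⟨a, ha, rfl⟩
          show m⁻¹ * a * m⁻¹⁻¹ ∈ N
          rw [inv_inv, Subgroup.mem_normalizer_iff]
          intro u
          have h1 := (Subgroup.mem_normalizer_iff.1 (hTN B hBT hzB a ha) (m * u * m⁻¹))
          have hB : ∀ w, m * w * m⁻¹ ∈ B ↔ w ∈ A' := fun w =>
            ⟨fun ⟨x, hx, q⟩ => (mul_left_cancel (mul_right_cancel (q : m * x * m⁻¹ = m * w * m⁻¹))) ▸ hx, fun h => ⟨w, h, rfl⟩⟩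
          rw [← hB u, h1, ← hB]
          constructor <;> intro h <;> convert h using 1 <;> group) (hT.map _)
      have hmN : m ∈ N := by
        have h1 : n * m⁻¹ ∈ T := hchar _ fun a ha => by
          have := hnT _ ⟨a, ha, rfl⟩
          rw [show n * m⁻¹ * a * (n * m⁻¹)⁻¹ = n * (m⁻¹ * a * m⁻¹⁻¹) * n⁻¹ by group]
          exact this
        rw [show m = (n * m⁻¹)⁻¹ * n by group]
        exact mul_mem (inv_mem (hTN A' inf_le_left hzA _ h1)) hn
      have hy'A : y' ∈ A' := (Subgroup.mem_normalizer_iff.1 hmN z).1 hzA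
      obtain ⟨hA'', ⟨t', ht', hty'⟩, -⟩ := S.partner hy'T hy'ne
      have heq : ∀ a ∈ T, a * e' = e' * a ↔ a * y' = y' * a := by
        refine fun a ha => ⟨fun h => hAc a ((hA' a).2 ⟨ha, h⟩) y' hy'A, fun h => ?_⟩
        exact S.acomm hA'' ha h hk ((hA' y').1 hy'A).2.symm
      have hnm : ∀ a ∈ T, a * y' = y' * a → m⁻¹ * a * m⁻¹⁻¹ ∈ T ∧ m⁻¹ * a * m⁻¹⁻¹ * y' = y' * (m⁻¹ * a * m⁻¹⁻¹) := by
        intro a ha hay
        have h1 := (Subgroup.mem_normalizer_iff.1 (inv_mem hmN : m⁻¹ ∈ N) a).1 ((hA' a).2 ⟨ha, (heq a ha).2 hay⟩)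
        exact ⟨((hA' _).1 h1).1, (heq _ ((hA' _).1 h1).1).1 ((hA' _).1 h1).2⟩
      have hey : e * y' = y' * e := (hec y' hy'T).symm
      obtain ⟨h1, h2⟩ := S.normalizer_action (g := m) hy'T hy'ne (n := m⁻¹) hnm he hey
      have hmee : m⁻¹ * e * m⁻¹⁻¹ = e' := by rw [← hme]; group
      rw [hmee] at h1 h2
      refine ⟨fun hey0 => ?_, m, hy'T, hy'ne, heq, h1⟩
      -- inside `A` the element is fixed
      have hAA : ∀ a ∈ T, a * e' = e' * a ↔ a * y = y * a := by
        refine fun a ha => ⟨fun h => hAc a ((hA' a).2 ⟨ha, h⟩) y ((hA' y).2 ⟨hg, hey0.symm⟩), fun h => S.acomm hA ha h hk hey0⟩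
      have hnm' : ∀ a ∈ T, a * y = y * a → m⁻¹ * a * m⁻¹⁻¹ ∈ T ∧ m⁻¹ * a * m⁻¹⁻¹ * y = y * (m⁻¹ * a * m⁻¹⁻¹) := by
        intro a ha hay
        obtain ⟨q1, q2⟩ := hnm a ha ((heq a ha).1 ((hAA a ha).2 hay))
        exact ⟨q1, (hAA _ q1).1 ((heq _ q1).2 q2)⟩
      obtain ⟨-, h3⟩ := S.normalizer_action hg hgne (n := m⁻¹) hnm' he (hec y hg).symm
      have h4 := h3 hec (fun q hq => by
        -- the centralizer of `y` commutes with `e`
        by_cases hqz : q * z = z * q
        · exact hec q ((hcent q).2 hqz)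
        · have e1 : (g⁻¹ * p * g) * (g⁻¹ * z * g) ≠ (g⁻¹ * z * g) * (g⁻¹ * p * g) := fun w => by
            have : p * z * p⁻¹ = z := mul_inv_eq_iff_eq_mul.2 (by
              calc p * z = g * (g⁻¹ * p * g * (g⁻¹ * z * g)) * g⁻¹ := by group
                _ = g * (g⁻¹ * z * g * (g⁻¹ * p * g)) * g⁻¹ := by rw [w]
                _ = _ := by group)
            rw [hpz] at this
            exact hz1 (conj_eq_one_iff.1 (mul_left_cancel (this.trans (mul_one z).symm) : y = 1))
          have e3 : (g⁻¹ * q * g) * (g⁻¹ * z * g) ≠ (g⁻¹ * z * g) * (g⁻¹ * q * g) := fun w => hqz (by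
            calc q * z = g * (g⁻¹ * q * g * (g⁻¹ * z * g)) * g⁻¹ := by group
              _ = g * (g⁻¹ * z * g * (g⁻¹ * q * g)) * g⁻¹ := by rw [w]
              _ = _ := by group)
          obtain ⟨m1, m2⟩ := S.mem_coset (back z hzy) (back p hp) e1 (back q hq) e3
          have m3 : p⁻¹ * q ∈ T := (hcent _).2 (by
            calc p⁻¹ * q * z = g * ((g⁻¹ * p * g)⁻¹ * (g⁻¹ * q * g) * (g⁻¹ * z * g)) * g⁻¹ := by group
              _ = g * ((g⁻¹ * z * g) * ((g⁻¹ * p * g)⁻¹ * (g⁻¹ * q * g))) * g⁻¹ := by rw [m2]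
              _ = _ := by group)
          have := (Commute.mul_left (show Commute p e from hep) (show Commute (p⁻¹ * q) e from hec _ m3)).eq
          simpa using this)
      exact hkne (hmee.symm.trans h4)
    -- the maximal subgroup
    have hM : ∃ M : Subgroup L, M ≤ T ∧ M.relIndex T = 2 ∧ ∀ k : L, k * e * k⁻¹ ∈ T → k * e * k⁻¹ ∉ M := by
      by_cases hex : ∃ k : L, k * e * k⁻¹ ∈ T ∧ k * e * k⁻¹ ≠ e
      · obtain ⟨k₀, hk₀, hk₀ne⟩ := hex
        obtain ⟨hnA₀, h₀, hh₀, hh₀ne, heq₀, -⟩ := hconj k₀ hk₀ hk₀ne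
        set y₀ := h₀ * z * h₀⁻¹ with hy₀
        obtain ⟨hA₀, ⟨t₀, ht₀, hty₀⟩, -⟩ := S.partner hh₀ hh₀ne
        obtain ⟨M, hMT, hzM, hyM, heM, hMi⟩ := exists_avoiding S hh₀ (hA₀ _ hh₀ rfl) he he1 hez
          (fun q => hty₀ (show t₀ * y₀ = y₀ * t₀ by rw [← q]; exact hec t₀ ht₀))
          (fun q => hty₀ (by
            have hc0 : Commute t₀ (z * e) := Commute.mul_right (hzc t₀ ht₀) (hec t₀ ht₀)
            rw [q, ← mul_assoc, hz2, one_mul] at hc0
            exact hc0.eq))
        refine ⟨M, hMT, hMi, fun k hk hkM => ?_⟩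
        by_cases hke : k * e * k⁻¹ = e
        · exact heM (hke ▸ hkM)
        obtain ⟨hnA, h', hh', hh'ne, heq', hV⟩ := hconj k hk hke
        have hsq : ∀ k : L, (k * e * k⁻¹) * (k * e * k⁻¹) = 1 := fun k => by
          rw [show k * e * k⁻¹ * (k * e * k⁻¹) = k * (e * e) * k⁻¹ by group, hee]; group
        obtain ⟨-, hprod⟩ := S.mem_coset hg hk₀ hnA₀ hk hnA
        have hp1 := hA _ (mul_mem (inv_mem hk₀) hk) hprod
        rw [inv_eq_of_mul_eq_one_right (hsq k₀)] at hp1
        have hcm : k * e * k⁻¹ * (k₀ * e * k₀⁻¹) = k₀ * e * k₀⁻¹ * (k * e * k⁻¹) := by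
          calc k * e * k⁻¹ * (k₀ * e * k₀⁻¹) = (k₀ * e * k₀⁻¹ * (k * e * k⁻¹))⁻¹ := by
                rw [mul_inv_rev, inv_eq_of_mul_eq_one_right (hsq k₀), inv_eq_of_mul_eq_one_right (hsq k)]
            _ = _ := inv_eq_of_mul_eq_one_right hp1
        have hk₀' : k₀ * e * k₀⁻¹ * (h' * z * h'⁻¹) = h' * z * h'⁻¹ * (k₀ * e * k₀⁻¹) := (heq' _ hk₀).1 hcm.symm
        have hyy : (h' * z * h'⁻¹) * y₀ = y₀ * (h' * z * h'⁻¹) := (heq₀ _ hh').1 hk₀'.symm
        -- the two orbits agree
        have hh'' : h' * z * h'⁻¹ = y₀ ∨ h' * z * h'⁻¹ = z * y₀ := by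
          obtain ⟨hA', -, -⟩ := S.partner hh' hh'ne
          have hsame : ∀ a ∈ T, a * y₀ = y₀ * a ↔ a * (h' * z * h'⁻¹) = h' * z * h'⁻¹ * a := fun a ha =>
            ⟨fun q => S.acomm hA₀ ha q hh' hyy, fun q => S.acomm hA' ha q hh₀ hyy.symm⟩
          rcases orbit_unique S hh₀ hh₀ne hh' hyy with q | q | q
          exacts [absurd q hh'ne, Or.inr q, Or.inl q]
        have hyM' : h' * z * h'⁻¹ ∈ M := by
          rcases hh'' with q | q <;> rw [q]
          exacts [hyM, mul_mem hzM hyM]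
        apply heM
        have h5 : k * e * k⁻¹ * e⁻¹ ∈ M := by
          rcases hV with q | q | q | q <;> rw [q]
          exacts [one_mem _, hzM, hyM', mul_mem hzM hyM']
        have := mul_mem (inv_mem h5) hkM
        simpa [mul_assoc] using this
      · push Not at hex
        obtain ⟨M, hMT, hzM, -, heM, hMi⟩ := exists_avoiding S hzT hz2 he he1 hez hez (fun q => he1 (q.trans hz2))
        exact ⟨M, hMT, hMi, fun k hk hkM => heM (hex k hk ▸ hkM)⟩
    obtain ⟨M, hMT, hMi, hno⟩ := hM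
    obtain ⟨k, hk⟩ := Lib.Fusion.exists_conj_mem_of_twice_odd_index (inferInstance : IsSimpleGroup L) hna M
      ⟨T.index, by rw [← Subgroup.relIndex_mul_index hMT, hMi],
        Nat.not_even_iff_odd.1 fun h => R.not_dvd_index (even_iff_two_dvd.1 h)⟩ (x := e) (by rw [pow_two, hee])
    exact hno k (hMT hk) hk
  -- the dihedral structure
  have hAel : ∀ a ∈ T, a * y = y * a → a = 1 ∨ a = z ∨ a = y ∨ a = z * y := by
    intro a ha hay
    have centr : ∀ v ∈ T, v * y = y * v → t * v = v * t → ∀ b ∈ T, b * v = v * b := by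
      intro v hv hvy htv b hb
      by_cases hby : b * y = y * b
      · exact S.acomm hA hb hby hv hvy
      · obtain ⟨m1, m2⟩ := S.mem_coset hg ht hty hb hby
        have := (Commute.mul_left (show Commute t v from htv) (show Commute (t⁻¹ * b) v from S.acomm hA m1 m2 hv hvy)).eq
        simpa using this
    by_cases hta : t * a = a * t
    · rcases hcen a ha (centr a ha hay hta) with q | q
      · exact Or.inl q
      · exact Or.inr (Or.inl q)
    · have h1 : t * (a * y) = (a * y) * t := by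
        apply mul_inv_eq_iff_eq_mul.1
        calc t * (a * y) * t⁻¹ = (t * a * t⁻¹) * (t * y * t⁻¹) := by group
          _ = (z * a) * (z * y) := by rw [S.conj_eq ht ha hta, S.conj_eq ht hg hty]
          _ = z * (a * z) * y := by group
          _ = a * y := by rw [hzc a ha, ← mul_assoc z z, hz2, one_mul]
      rcases hcen (a * y) (mul_mem ha hg) (centr _ (mul_mem ha hg) ((Commute.mul_left (show Commute a y from hay) (Commute.refl y)).eq) h1) with q | q
      · right; right; left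
        rw [eq_inv_of_mul_eq_one_left q, inv_eq_of_mul_eq_one_right (hA y hg rfl)]
      · right; right; right
        rw [← q, mul_assoc, hA y hg rfl, mul_one]
  have hy1 : y ≠ 1 := fun e => hz1 (conj_eq_one_iff.1 e)
  obtain ⟨x, hx, hxy, hxx⟩ : ∃ x ∈ T, x * y ≠ y * x ∧ x * x = z := by
    rcases hsqr t ht with e | e
    · refine ⟨t * y, mul_mem ht hg, fun q => hty (mul_right_cancel (q.trans (mul_assoc y t y).symm)), ?_⟩
      calc t * y * (t * y) = (t * y * t⁻¹) * (t * t) * y := by group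
        _ = z * (y * y) := by rw [e, S.conj_eq ht hg hty, mul_one, mul_assoc]
        _ = z := by rw [hA y hg rfl, mul_one]
    · exact ⟨t, ht, hty, e⟩
  have hox : orderOf (⟨x, hx⟩ : ↥T) = 4 := by
    rw [Subgroup.orderOf_mk]
    exact orderOf_eq_prime_pow (p := 2) (n := 1) (by rw [pow_one, pow_two, hxx]; exact hz1) (by
      rw [show (2 : ℕ) ^ (1 + 1) = 2 * 2 by norm_num, pow_mul, pow_two x, hxx, pow_two, hz2])
  have hyx : y * x * y⁻¹ = x⁻¹ := by
    have e1 := S.conj_eq hx hg hxy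
    have hxi : x⁻¹ = z * x := inv_eq_of_mul_eq_one_right (by rw [← mul_assoc, hzc x hx, mul_assoc, hxx, hz2])
    rw [hxi]
    calc y * x * y⁻¹ = z * (z * y) * x * y⁻¹ := by rw [← mul_assoc z z y, hz2, one_mul]
      _ = z * (x * y * x⁻¹) * x * y⁻¹ := by rw [e1]
      _ = _ := by group
  have hnz : (⟨y, hg⟩ : ↥T) ∉ Subgroup.zpowers (⟨x, hx⟩ : ↥T) := fun h => by
    obtain ⟨k, hk⟩ := Subgroup.mem_zpowers_iff.1 h
    have hk' : x ^ k = y := by simpa using congrArg Subtype.val hk
    exact hxy (hk' ▸ ((Commute.refl x).zpow_right k).eq)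
  have hcard : Nat.card ↥T = 2 * 4 := by
    let A : Finset L := {1, z, y, z * y}
    have key : (T : Set L) = ↑(A ∪ A.image (x * ·)) := by
      ext a
      simp only [Finset.coe_union, Finset.coe_image, Set.mem_union, Set.mem_image, SetLike.mem_coe]
      constructor
      · intro ha
        by_cases hay : a * y = y * a
        · left
          simpa [A] using hAel a ha hay
        · right
          obtain ⟨m1, m2⟩ := S.mem_coset hg hx hxy ha hay
          exact ⟨x⁻¹ * a, by simpa [A] using hAel _ m1 m2, by group⟩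
      · have hAT : ∀ b, b ∈ A → b ∈ T := fun b hb => by
          simp only [A, Finset.mem_insert, Finset.mem_singleton] at hb
          rcases hb with rfl | rfl | rfl | rfl
          exacts [one_mem _, hzT, hg, mul_mem hzT hg]
        rintro (h | ⟨b, hb, rfl⟩)
        · exact hAT a h
        · exact mul_mem hx (hAT b hb)
    have hzy1 : z * y ≠ 1 := fun q => hgne (by rw [eq_inv_of_mul_eq_one_right q, inv_eq_of_mul_eq_one_right hz2])
    have hA4 : A.card = 4 := by
      simp [A, hz1.symm, hy1.symm, hgne.symm, hzy1.symm, show z ≠ z * y from fun q => hy1 (mul_left_cancel (q.symm.trans (mul_one z).symm)),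
        show y ≠ z * y from fun q => hz1 (mul_right_cancel (q.symm.trans (one_mul y).symm))]
    have hdis : Disjoint A (A.image (x * ·)) := by
      rw [Finset.disjoint_left]
      intro b hb hb'
      obtain ⟨c, hc, rfl⟩ := Finset.mem_image.1 hb'
      have hcy : ∀ b ∈ A, Commute b y := fun b hb => by
        simp only [A, Finset.mem_insert, Finset.mem_singleton] at hb
        rcases hb with rfl | rfl | rfl | rfl
        exacts [Commute.one_left y, hzy, Commute.refl y, Commute.mul_left hzy (Commute.refl y)]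
      exact hxy (by simpa using ((hcy _ hb).mul_left (hcy c hc).inv_left).eq)
    rw [show Nat.card ↥T = (T : Set L).ncard from Nat.card_coe_set_eq _, key, Set.ncard_coe_finset,
      Finset.card_union_of_disjoint hdis, Finset.card_image_of_injective _ (mul_right_injective x), hA4]
  exact S4399.dihedral_iso 4 ⟨x, hx⟩ ⟨y, hg⟩ hox hnz hcard (Subtype.ext (hA y hg rfl)) (Subtype.ext hyx)

end Aux

/-- Let L be a finite non-abelian simple group with an involution z whose centralizer R is a Sylow 2-subgroup of L whose Frattini subgroup is the subgroup generated by z. Then R is dihedral of order 8. -/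
theorem result {L : Type*} [Group L] [Finite L] [IsSimpleGroup L] (hL : ¬ IsMulCommutative L) (z : L) (hz : orderOf z = 2) (R : Sylow 2 L) (hR : (R : Subgroup L) = Subgroup.centralizer ({z} : Set L)) (hΦ : (frattini ↥(R : Subgroup L)).map (R : Subgroup L).subtype = Subgroup.zpowers z) : Nonempty (↥(R : Subgroup L) ≃* DihedralGroup 4) := by
  exact main hL z hz R hR hΦ

end Cfsg.Agent.S5435
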