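import Cfsg.Statements.S5521
import Cfsg.Agent.Lib.Golay.Six

set_option autoImplicit false
open Cfsg
open Cfsg.Agent.Lib.Golay

namespace Cfsg.Agent.S5521

/-- The Mathieu group M₂₄ in its natural action on the 24 coordinate positions of the binary Golay code has minimal base size exactly 7: every set of at most 6 positions is fixed pointwise by some non-identity element of M₂₄, while some set of 7 positions is fixed pointwise only by the identity. -/
theorem result :
    (∀ B : Finset Cfsg.GolayPt, B.card ≤ 6 → ∃ g ∈ Cfsg.M24, g ≠ 1 ∧ ∀ b ∈ B, g b = b) ∧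
    (∃ B : Finset Cfsg.GolayPt, B.card = 7 ∧ ∀ g ∈ Cfsg.M24, (∀ b ∈ B, g b = b) → g = 1) := by
  refine ⟨exists_fix_six, ?_⟩
  refine ⟨toSet 191, ?_, ?_⟩
  · rw [card_toSet]; decide +kernel
  · intro g hg hfix
    exact eq_one_of_rigid hg (by decide +kernel) hfix

end Cfsg.Agent.S5521
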