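import Cfsg.Statements.S5562
import Cfsg.Agent.Lib.ThreeTransp.Basic
-- import your own Cfsg.Agent.* helpers here

set_option autoImplicit false
open Cfsg

namespace Cfsg.Agent.S5562

open Cfsg.Agent.Lib.ThreeTransp

theorem main {G : Type*} [Group G] [Finite G] (d : G) (hd : orderOf d = 2)
    (hodd : ∀ a ∈ conjugatesOf d, ∀ b ∈ conjugatesOf d, Odd (orderOf (a * b)))
    (x : G) (hx : orderOf x = 2) :
    ∀ e ∈ conjugatesOf d, ∃! a : G, a ∈ conjugatesOf d ∧ Commute a x ∧ Commute e (a * x) := by
  intro e he
  have hinvol : ∀ a ∈ conjugatesOf d, a * a = 1 := by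
    intro a ha
    obtain ⟨g, rfl⟩ := isConj_iff.mp ha
    calc g * d * g⁻¹ * (g * d * g⁻¹) = g * (d * d) * g⁻¹ := by group
      _ = 1 := by rw [mul_self hd]; group
  have hxx := mul_self hx
  have hxi := inv_eq hx
  have hee := hinvol e he
  set e' := x * e * x with he'def
  have he' : e' ∈ conjugatesOf d := by
    refine IsConj.trans he (isConj_iff.mpr ⟨x, by rw [hxi]⟩)
  obtain ⟨r, hr⟩ := hodd e' he' e he
  set q := e' * e with hq
  set k := q ^ (r + 1) with hk
  have hk2 : k * k = q := by
    rw [hk, ← pow_add, show r + 1 + (r + 1) = (2 * r + 1) + 1 by ring, ← hr, pow_succ, pow_orderOf_eq_one, one_mul]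
  have hqe : e * q * e = q⁻¹ := by
    rw [hq, mul_inv_rev, inv_eq_of_mul_eq_one_right hee, inv_eq_of_mul_eq_one_right (hinvol e' he')]
    simp [mul_assoc, hee]
  have hqx : x * q * x = q⁻¹ := by
    rw [hq, mul_inv_rev, inv_eq_of_mul_eq_one_right hee, inv_eq_of_mul_eq_one_right (hinvol e' he'), he'def]
    simp only [mul_assoc, hxx, mul_one]
    rw [← mul_assoc x x, hxx, one_mul]
  have conjpow : ∀ y : G, y * y = 1 → y * q * y = q⁻¹ → ∀ n : ℕ, y * q ^ n * y = (q ^ n)⁻¹ := by
    intro y hy h n
    have := map_pow (MulAut.conj y).toMonoidHom q n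
    simp only [MulEquiv.coe_toMonoidHom, MulAut.conj_apply, inv_eq_of_mul_eq_one_right hy, h] at this
    rw [this, inv_pow]
  have hke : e * k * e = k⁻¹ := conjpow e hee hqe _
  have hkx : x * k * x = k⁻¹ := conjpow x hxx hqx _
  obtain ⟨s, hs⟩ : ∃ s, s * s = k ∧ e * s * e = s⁻¹ := by
    refine ⟨k ^ (r + 1), ?_, ?_⟩
    · have hq1 : k ^ (2 * r + 1) = 1 := by
        rw [hk, ← pow_mul, mul_comm, pow_mul, ← hr, pow_orderOf_eq_one, one_pow]
      rw [← pow_add, show r + 1 + (r + 1) = (2 * r + 1) + 1 by ring, pow_succ, hq1, one_mul]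
    · rw [hk, ← pow_mul]; exact conjpow e hee hqe _
  set a := k * e with ha
  have ha' : a ∈ conjugatesOf d := by
    refine IsConj.trans he (isConj_iff.mpr ⟨s, ?_⟩)
    rw [← hs.2, ha, ← hs.1]
    calc s * e * (e * s * e) = s * (e * e) * (s * e) := by group
      _ = _ := by rw [hee]; group
  have hax : Commute a x := by
    have h1 : x * a * x = a := by
      calc x * a * x = (x * k * x) * (x * e * x) := by
            simp only [ha, mul_assoc]; rw [← mul_assoc x x, hxx, one_mul]
        _ = k⁻¹ * (q * e) := by rw [hkx, hq, mul_assoc e' e e, hee, mul_one]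
        _ = _ := by rw [← hk2, ha]; group
    show a * x = x * a
    conv_lhs => rw [← h1]
    rw [mul_assoc, hxx, mul_one]
  have key : ∀ b, b ∈ conjugatesOf d → Commute b x → (Commute e (b * x) ↔ b * e * b = e') := by
    intro b hb hbx
    have hbb := hinvol b hb
    have hbxbx : (b * x) * (b * x) = 1 := by
      calc (b * x) * (b * x) = b * (x * b) * x := by group
        _ = (b * b) * (x * x) := by rw [← hbx.eq]; group
        _ = 1 := by rw [hbb, hxx, one_mul]
    constructor
    · intro h
      have h1 : (b * x) * e * (b * x) = e := by rw [mul_assoc, h.eq, ← mul_assoc, hbxbx, one_mul]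
      calc b * e * b = b * ((b * x) * e * (b * x)) * b := by rw [h1]
        _ = (b * b) * x * e * (b * x * b) := by group
        _ = x * e * x := by rw [hbb, hbx.eq, mul_assoc x b b, hbb, one_mul, mul_one]
    · intro h
      have h1 : b * (x * e * x) * b = e := by
        rw [← he'def, ← h]
        calc b * (b * e * b) * b = (b * b) * e * (b * b) := by group
          _ = e := by rw [hbb, one_mul, mul_one]
      show e * (b * x) = b * x * e
      conv_lhs => rw [← h1]
      calc b * (x * e * x) * b * (b * x) = b * x * e * x * (b * b) * x := by group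
        _ = b * x * e * (x * x) := by rw [hbb]; group
        _ = _ := by rw [hxx, mul_one]
  refine ⟨a, ⟨ha', hax, (key a ha' hax).mpr ?_⟩, ?_⟩
  · calc k * e * e * (k * e) = k * (e * e) * k * e := by group
      _ = q * e := by rw [hee, mul_one, hk2]
      _ = e' := by rw [hq, mul_assoc, hee, mul_one]
  · rintro b ⟨hb, hbx, hcomm⟩
    have h := (key b hb hbx).mp hcomm
    have hbk : b * e = k := by
      obtain ⟨m, hm⟩ := hodd b hb e he
      have hsq : (b * e) * (b * e) = q := by rw [hq, ← h]; group
      rw [hk, ← hsq, ← pow_two, ← pow_mul, show 2 * (r + 1) = (2 * r + 1) + 1 by ring]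
      have hord : (b * e) ^ (2 * r + 1) = 1 := by
        refine orderOf_dvd_iff_pow_eq_one.mp ?_
        have hqpow : ((b * e) ^ 2) ^ (2 * r + 1) = 1 := by rw [pow_two, hsq, ← hr, pow_orderOf_eq_one]
        rw [← pow_mul] at hqpow
        refine (Nat.Coprime.dvd_of_dvd_mul_left ?_ (orderOf_dvd_of_pow_eq_one hqpow))
        rw [hm]
        exact Nat.coprime_two_right.mpr ⟨m, rfl⟩
      rw [pow_succ, hord, one_mul]
    rw [ha, ← hbk, mul_assoc, hee, mul_one]

/-- Let G be a finite group, d an involution of G whose conjugates pairwise have products of odd order, and x any involution of G. Then the conjugacy class of d is the disjoint union, over the conjugates a of d commuting with x, of the sets of conjugates of d commuting with ax: every conjugate of d commutes with ax for exactly one conjugate a of d that commutes with x. -/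
theorem result {G : Type*} [Group G] [Finite G] (d : G) (hd : orderOf d = 2)
    (hodd : ∀ a ∈ conjugatesOf d, ∀ b ∈ conjugatesOf d, Odd (orderOf (a * b)))
    (x : G) (hx : orderOf x = 2) :
    ∀ e ∈ conjugatesOf d,
      ∃! a : G, a ∈ conjugatesOf d ∧ Commute a x ∧ Commute e (a * x) := by
  exact main d hd hodd x hx

end Cfsg.Agent.S5562
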