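import Cfsg.Statements.S5596
import Cfsg.Agent.Lib.Singular.Basic
-- import your own Cfsg.Agent.* helpers here

set_option autoImplicit false
open Cfsg Agent.Lib.Singular

namespace Cfsg.Agent.S5596

/-- Setting: `z` is an involution of the finite group `G`; for each element `x`, `Q x` is the largest normal 2-subgroup of the centralizer of `x`; `Q z` is extraspecial and contains its own centralizer in `G`. A subgroup `U` is singular when it is elementary abelian, every non-identity element of `U` is conjugate to `z`, and any two non-identity elements `u`, `v` of `U` are orthogonal (`v ∈ Q u`). Write `QU` for the intersection of the `Q u` and `LU` for the join of the `Q u` over the non-identity `u` in `U`. If `U` is singular of order `2 ^ n` with `n ≥ 2`, then `U ≤ QU ≤ LU`, `LU` normalizes `U`, and `LU` induces on `U` its full automorphism group (the general linear group of dimension `n` over the field with two elements): every automorphism of `U` is conjugation by some element of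 `LU`. -/
theorem result {G : Type*} [Group G] [Finite G]
    (Q : G → Subgroup G)
    (hQ : ∀ x : G, Q x = (Cfsg.pCore 2 ↥(Subgroup.centralizer ({x} : Set G))).map (Subgroup.centralizer ({x} : Set G)).subtype)
    (z : G) (hz : orderOf z = 2) (hE : Cfsg.IsExtraspecial 2 ↥(Q z))
    (hC : Subgroup.centralizer ((Q z : Subgroup G) : Set G) ≤ Q z)
    (U : Subgroup G) (hU2 : ∀ u ∈ U, u * u = 1)
    (hS : ∀ u ∈ U, u ≠ 1 → ∃ g : G, g * z * g⁻¹ = u)
    (hO : ∀ u ∈ U, ∀ v ∈ U, u ≠ 1 → v ≠ 1 → v ∈ Q u)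
    (QU LU : Subgroup G) (hQU : QU = ⨅ u ∈ ((U : Set G) \ {1}), Q u) (hLU : LU = ⨆ u ∈ ((U : Set G) \ {1}), Q u)
    (n : ℕ) (hn : 2 ≤ n) (hcard : Nat.card ↥U = 2 ^ n) :
    U ≤ QU ∧ QU ≤ LU ∧ LU ≤ Subgroup.normalizer (U : Set G) ∧
      ∀ φ : ↥U ≃* ↥U, ∃ g ∈ LU, ∀ u : ↥U, g * (u : G) * g⁻¹ = ((φ u : ↥U) : G) := by
  have h := good_of_extraspecial Q hQ z hz hE hC
  have hg : ∀ u ∈ U, u ≠ 1 → Good (Q u) u := fun u hu hu1 => by
    obtain ⟨g, rfl⟩ := hS u hu hu1
    exact good_conj Q hQ h g
  have hUQ : ∀ u ∈ U, u ≠ 1 → U ≤ Q u := fun u hu hu1 v hv => by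
    by_cases hv1 : v = 1
    · rw [hv1]; exact one_mem _
    · exact hO u hu v hv hu1 hv1
  have hU : U ≠ ⊥ := fun e => by
    rw [e, Subgroup.card_bot] at hcard
    exact absurd hcard.symm (Nat.one_lt_two_pow (by omega)).ne'
  obtain ⟨u₀, hu₀, hu₀1⟩ := (Subgroup.bot_or_exists_ne_one U).resolve_left hU
  have hnorm : ∀ u ∈ U, u ≠ 1 → ∀ q ∈ Q u, ∀ v ∈ U, q * v * q⁻¹ ∈ U := fun u hu hu1 q hq v hv => by
    rcases (hg u hu hu1).comm q hq v (hUQ u hu hu1 hv) with e | e
    · rw [show q * v * q⁻¹ = (q * v * q⁻¹ * v⁻¹) * v by group, e, one_mul]; exact hv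
    · rw [show q * v * q⁻¹ = (q * v * q⁻¹ * v⁻¹) * v by group, e]; exact mul_mem hu hv
  have hmemLU : ∀ u ∈ U, u ≠ 1 → Q u ≤ LU := fun u hu hu1 a ha => by
    rw [hLU]; exact Subgroup.mem_iSup_of_mem u (Subgroup.mem_iSup_of_mem ⟨hu, hu1⟩ ha)
  refine ⟨?_, ?_, ?_, ?_⟩
  · rw [hQU]; exact le_iInf₂ fun u hu => hUQ u hu.1 hu.2
  · rw [hQU]; exact (iInf₂_le u₀ (⟨hu₀, hu₀1⟩ : u₀ ∈ (U : Set G) \ {1})).trans (hmemLU u₀ hu₀ hu₀1)
  · rw [hLU]
    refine iSup₂_le fun u hu q hq => ?_
    rw [Subgroup.mem_normalizer_iff]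
    refine fun v => ⟨hnorm u hu.1 hu.2 q hq v, fun hv => ?_⟩
    have := hnorm u hu.1 hu.2 q⁻¹ (inv_mem hq) _ hv
    simpa [mul_assoc] using this
  · suffices ∀ k, ∀ W : Subgroup G, W ≤ U → Nat.card ↥U - Nat.card ↥W ≤ k → ∀ φ : ↥U ≃* ↥U,
        (∀ w : ↥U, (w : G) ∈ W → φ w = w) → ∃ g ∈ LU, ∀ u : ↥U, g * (u : G) * g⁻¹ = ((φ u : ↥U) : G) from
      fun φ => this (Nat.card ↥U) ⊥ bot_le (Nat.sub_le _ _) φ fun w hw => by
        rw [show w = 1 from Subtype.ext (Subgroup.mem_bot.1 hw), map_one]
    intro k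
    induction k with
    | zero =>
      intro W hW hk φ hφ
      have : W = U := Subgroup.eq_of_le_of_card_ge hW (by omega)
      exact ⟨1, one_mem _, fun u => by rw [hφ u (this.symm ▸ u.2)]; simp⟩
    | succ k ih =>
      intro W hW hk φ hφ
      by_cases hall : W = U
      · exact ⟨1, one_mem _, fun u => by rw [hφ u (hall.symm ▸ u.2)]; simp⟩
      obtain ⟨v, hv, hvW⟩ := SetLike.not_le_iff_exists.1 (fun hle => hall (le_antisymm hW hle))
      have step : ∀ ψ : ↥U ≃* ↥U, (∀ w : ↥U, (w : G) ∈ W → ψ w = w) → ψ ⟨v, hv⟩ = ⟨v, hv⟩ →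
          ∃ g ∈ LU, ∀ u : ↥U, g * (u : G) * g⁻¹ = ((ψ u : ↥U) : G) := by
        intro ψ hψW hψv
        have hle : W ⊔ Subgroup.zpowers v ≤ U := sup_le hW (by rwa [Subgroup.zpowers_le])
        have hlt : W < W ⊔ Subgroup.zpowers v := lt_of_le_of_ne le_sup_left fun e => hvW (by
          rw [e]; exact Subgroup.mem_sup_right (Subgroup.mem_zpowers v))
        refine ih _ hle ?_ ψ fun w hw => ?_
        · have h1 := Subgroup.card_le_of_le hle
          have h2 : Nat.card ↥W < Nat.card ↥(W ⊔ Subgroup.zpowers v) := by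
            by_contra hh
            exact hlt.ne (Subgroup.eq_of_le_of_card_ge hlt.le (by omega))
          omega
        · let F : Subgroup ↥U := MonoidHom.eqLocus ψ.toMonoidHom (MonoidHom.id _)
          have : W ⊔ Subgroup.zpowers v ≤ F.map U.subtype := by
            refine sup_le (fun a ha => ⟨⟨a, hW ha⟩, hψW _ ha, rfl⟩) ?_
            rw [Subgroup.zpowers_le]
            exact ⟨⟨v, hv⟩, hψv, rfl⟩
          obtain ⟨w', hw', e⟩ := this hw
          rw [show w = w' from Subtype.ext e.symm]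
          exact hw'
      by_cases hfix : φ ⟨v, hv⟩ = ⟨v, hv⟩
      · exact step φ hφ hfix
      set v' := φ ⟨v, hv⟩ with hv'
      set u := v * (v' : G) with hu
      have huU : u ∈ U := mul_mem hv v'.2
      have hvi : v⁻¹ = v := inv_eq_of_mul_eq_one_right (hU2 v hv)
      have hu1 : u ≠ 1 := fun e => hfix (Subtype.ext (by
        show (v' : G) = v
        rw [eq_inv_of_mul_eq_one_right e, hvi]))
      have hcm : ∀ a ∈ U, ∀ b ∈ U, a * b = b * a := fun a ha b hb => by
        have := inv_eq_of_mul_eq_one_right (hU2 _ (mul_mem ha hb))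
        rw [_root_.mul_inv_rev, inv_eq_of_mul_eq_one_right (hU2 a ha), inv_eq_of_mul_eq_one_right (hU2 b hb)] at this
        exact this.symm
      let V : Subgroup G :=
        { carrier := {a | a ∈ W ∨ a * u ∈ W}
          one_mem' := Or.inl (one_mem _)
          mul_mem' := fun {a b} ha hb => by
            have hbU : b ∈ U := hb.elim (fun h => hW h) fun h => by
              simpa using mul_mem (hW h) (inv_mem huU)
            rcases ha with ha | ha <;> rcases hb with hb | hb
            · exact Or.inl (mul_mem ha hb)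
            · exact Or.inr (by rw [mul_assoc]; exact mul_mem ha hb)
            · refine Or.inr ?_
              rw [mul_assoc, hcm b hbU u huU, ← mul_assoc]; exact mul_mem ha hb
            · refine Or.inl ?_
              have := mul_mem ha hb
              rwa [mul_assoc, ← mul_assoc u b u, hcm u huU b hbU, mul_assoc b, hU2 u huU, mul_one] at this
          inv_mem' := fun {a} ha => by
            have haU : a ∈ U := ha.elim (fun h => hW h) fun h => by
              simpa using mul_mem (hW h) (inv_mem huU)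
            rwa [inv_eq_of_mul_eq_one_right (hU2 a haU)] }
      have hVU : V ≤ U := fun a ha => ha.elim (fun h => hW h) fun h => by simpa using mul_mem (hW h) (inv_mem huU)
      have hvV : v ∉ V := by
        rintro (h | h)
        · exact hvW h
        · rw [hu, ← mul_assoc, hU2 v hv, one_mul] at h
          exact hvW ((φ.injective (hφ v' h)).symm ▸ h : ((⟨v, hv⟩ : ↥U) : G) ∈ W)
      obtain ⟨q, hq, hqV, hqv⟩ := exists_separator (hg u huU hu1) (hVU.trans (hUQ u huU hu1))
        (show u ∈ V from Or.inr (by rw [hU2 u huU]; exact one_mem _)) (hUQ u huU hu1 hv) hvV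
      have hqv' : q * v * q⁻¹ = (v' : G) := by
        rw [hqv, hu, hcm v hv _ v'.2, mul_assoc, hU2 v hv, mul_one]
      let ψ : ↥U ≃* ↥U :=
        { toFun := fun a => ⟨q⁻¹ * (φ a : G) * q, by simpa using hnorm u huU hu1 q⁻¹ (inv_mem hq) _ (φ a).2⟩
          invFun := fun a => φ.symm ⟨q * (a : G) * q⁻¹, hnorm u huU hu1 q hq _ a.2⟩
          left_inv := fun a => by simp [mul_assoc]
          right_inv := fun a => by ext; simp [mul_assoc]
          map_mul' := fun a b => by ext; simp [mul_assoc] }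
      obtain ⟨g, hgL, hgψ⟩ := step ψ
        (fun w hw => Subtype.ext (by
          show q⁻¹ * (φ w : G) * q = w
          rw [hφ w hw, mul_assoc, ← hqV w (Or.inl hw)]; group))
        (Subtype.ext (by
          show q⁻¹ * (φ ⟨v, hv⟩ : G) * q = v
          rw [← hv', ← hqv']; group))
      refine ⟨q * g, mul_mem (hmemLU u huU hu1 hq) hgL, fun a => ?_⟩
      calc q * g * (a : G) * (q * g)⁻¹ = q * (g * (a : G) * g⁻¹) * q⁻¹ := by group
        _ = _ := by
          rw [hgψ a]
          show q * (q⁻¹ * (φ a : G) * q) * q⁻¹ = _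
          group

end Cfsg.Agent.S5596
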