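import Cfsg.Statements.S5597
import Cfsg.Agent.Lib.Singular.Basic
-- import your own Cfsg.Agent.* helpers here

set_option autoImplicit false
open Cfsg Agent.Lib.Singular

namespace Cfsg.Agent.S5597

/-- Setting: `z` is an involution of the finite group `G`; for each element `x`, `Q x` is the largest normal 2-subgroup of the centralizer of `x`; `Q z` is extraspecial and contains its own centralizer in `G`. A subgroup `U` is singular when it is elementary abelian, every non-identity element of `U` is conjugate to `z`, and any two non-identity elements `u`, `v` of `U` are orthogonal (`v ∈ Q u`). Write `QU` for the intersection of the `Q u` and `LU` for the join of the `Q u` over the non-identity `u` in `U`. If `U` is a non-trivial singular subgroup, then `LU` acts trivially on `QU / U` (every commutator of an element of `LU` with an element of `QU` lies in `U`), and for every `x` in `QU` outside `U` the centralizer of `U`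 in `LU` permutes the coset `x U` transitively: each `x u` with `u ∈ U` is a conjugate of `x` by an element of `LU` centralizing `U`. -/
theorem result {G : Type*} [Group G] [Finite G]
    (Q : G → Subgroup G)
    (hQ : ∀ x : G, Q x = (Cfsg.pCore 2 ↥(Subgroup.centralizer ({x} : Set G))).map (Subgroup.centralizer ({x} : Set G)).subtype)
    (z : G) (hz : orderOf z = 2) (hE : Cfsg.IsExtraspecial 2 ↥(Q z))
    (hC : Subgroup.centralizer ((Q z : Subgroup G) : Set G) ≤ Q z)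
    (U : Subgroup G) (hU2 : ∀ u ∈ U, u * u = 1)
    (hS : ∀ u ∈ U, u ≠ 1 → ∃ g : G, g * z * g⁻¹ = u)
    (hO : ∀ u ∈ U, ∀ v ∈ U, u ≠ 1 → v ≠ 1 → v ∈ Q u)
    (QU LU : Subgroup G) (hQU : QU = ⨅ u ∈ ((U : Set G) \ {1}), Q u) (hLU : LU = ⨆ u ∈ ((U : Set G) \ {1}), Q u)
    (hU : U ≠ ⊥) :
    (∀ g ∈ LU, ∀ x ∈ QU, g * x * g⁻¹ * x⁻¹ ∈ U) ∧
      ∀ x ∈ QU, x ∉ U → ∀ u ∈ U, ∃ g ∈ LU ⊓ Subgroup.centralizer (U : Set G), g * x * g⁻¹ = x * u := by
  have h := good_of_extraspecial Q hQ z hz hE hC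
  have hg : ∀ u ∈ U, u ≠ 1 → Good (Q u) u := fun u hu hu1 => by
    obtain ⟨g, rfl⟩ := hS u hu hu1
    exact good_conj Q hQ h g
  have hUQ : ∀ u ∈ U, u ≠ 1 → U ≤ Q u := fun u hu hu1 v hv => by
    by_cases hv1 : v = 1
    · rw [hv1]; exact one_mem _
    · exact hO u hu v hv hu1 hv1
  have hQUle : ∀ x ∈ QU, ∀ u ∈ U, u ≠ 1 → x ∈ Q u := fun x hx u hu hu1 => by
    rw [hQU] at hx
    simp only [Subgroup.mem_iInf] at hx
    exact hx u ⟨hu, hu1⟩
  have hnorm : ∀ u ∈ U, u ≠ 1 → ∀ q ∈ Q u, ∀ v ∈ U, q * v * q⁻¹ ∈ U := fun u hu hu1 q hq v hv => by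
    rcases (hg u hu hu1).comm q hq v (hUQ u hu hu1 hv) with e | e
    · rw [show q * v * q⁻¹ = (q * v * q⁻¹ * v⁻¹) * v by group, e, one_mul]; exact hv
    · rw [show q * v * q⁻¹ = (q * v * q⁻¹ * v⁻¹) * v by group, e]; exact mul_mem hu hv
  refine ⟨fun g hgL => ?_, fun x hx hxU u hu => ?_⟩
  · suffices (∀ v ∈ U, g * v * g⁻¹ ∈ U ∧ g⁻¹ * v * g ∈ U) ∧ ∀ x ∈ QU, g * x * g⁻¹ * x⁻¹ ∈ U ∧ g⁻¹ * x * g * x⁻¹ ∈ U from
      fun x hx => (this.2 x hx).1
    rw [hLU] at hgL
    simp only [Subgroup.iSup_eq_closure (fun u => ⨆ _ : u ∈ (U : Set G) \ {1}, Q u)] at hgL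
    have hgL' : g ∈ Subgroup.closure {a | ∃ u ∈ U, u ≠ 1 ∧ a ∈ Q u} := by
      refine (Subgroup.closure_le _).2 ?_ hgL
      intro a ha
      obtain ⟨u, hu⟩ := Set.mem_iUnion.1 ha
      refine (?_ : (⨆ _ : u ∈ (U : Set G) \ {1}, Q u) ≤ _) hu
      exact iSup_le fun hh => fun b hb => Subgroup.subset_closure ⟨u, hh.1, hh.2, hb⟩
    clear hgL
    induction hgL' using Subgroup.closure_induction with
    | mem q hq =>
      obtain ⟨u, hu, hu1, hq⟩ := hq
      have key : ∀ q ∈ Q u, ∀ x ∈ QU, q * x * q⁻¹ * x⁻¹ ∈ U := fun q hq x hx => by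
        rcases (hg u hu hu1).comm q hq x (hQUle x hx u hu hu1) with e | e <;> rw [e]
        exacts [one_mem _, hu]
      exact ⟨fun v hv => ⟨hnorm u hu hu1 q hq v hv, by simpa using hnorm u hu hu1 q⁻¹ (inv_mem hq) v hv⟩,
        fun x hx => ⟨key q hq x hx, by simpa using key q⁻¹ (inv_mem hq) x hx⟩⟩
    | one => exact ⟨fun v hv => by simpa using hv, fun x hx => by simp⟩
    | inv a _ ih => exact ⟨fun v hv => by simpa using (ih.1 v hv).symm, fun x hx => by simpa using (ih.2 x hx).symm⟩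
    | mul a b _ _ iha ihb =>
      refine ⟨fun v hv => ⟨?_, ?_⟩, fun x hx => ⟨?_, ?_⟩⟩
      · convert (iha.1 _ (ihb.1 v hv).1).1 using 1; group
      · convert (ihb.1 _ (iha.1 v hv).2).2 using 1; group
      · rw [show a * b * x * (a * b)⁻¹ * x⁻¹ = (a * (b * x * b⁻¹ * x⁻¹) * a⁻¹) * (a * x * a⁻¹ * x⁻¹) by group]
        exact mul_mem (iha.1 _ (ihb.2 x hx).1).1 (iha.2 x hx).1
      · rw [show (a * b)⁻¹ * x * (a * b) * x⁻¹ = (b⁻¹ * (a⁻¹ * x * a * x⁻¹) * b) * (b⁻¹ * x * b * x⁻¹) by group]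
        exact mul_mem (ihb.1 _ (iha.2 x hx).2).2 (ihb.2 x hx).2
  · by_cases hu1 : u = 1
    · exact ⟨1, one_mem _, by rw [hu1]; simp⟩
    obtain ⟨q, hq, hqU, hqx⟩ := exists_separator (hg u hu hu1) (hUQ u hu hu1) hu (hQUle x hx u hu hu1) hxU
    refine ⟨q, Subgroup.mem_inf.2 ⟨?_, Subgroup.mem_centralizer_iff.2 fun v hv => (hqU v hv).symm⟩, ?_⟩
    · rw [hLU]; exact Subgroup.mem_iSup_of_mem u (Subgroup.mem_iSup_of_mem ⟨hu, hu1⟩ hq)
    · rw [hqx]; exact ((hg u hu hu1).le x (hQUle x hx u hu hu1)).symm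

end Cfsg.Agent.S5597
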