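import Cfsg.Statements.S5598
import Cfsg.Agent.Lib.Singular.Basic
-- import your own Cfsg.Agent.* helpers here

set_option autoImplicit false
open Cfsg Agent.Lib.Singular

namespace Cfsg.Agent.S5598

/-- Setting: `z` is an involution of the finite group `G`; for each element `x`, `Q x` is the largest normal 2-subgroup of the centralizer of `x`; `Q z` is extraspecial and contains its own centralizer in `G`. A subgroup `U` is singular when it is elementary abelian, every non-identity element of `U` is conjugate to `z`, and any two non-identity elements `u`, `v` of `U` are orthogonal (`v ∈ Q u`). Write `QU` for the intersection of the `Q u` and `LU` for the join of the `Q u` over the non-identity `u` in `U`. If the singular subgroup `U` is generated by a set `T` of non-identity elements, then `QU` is already the intersection of the `Q t` over `t ∈ T`. -/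
theorem result {G : Type*} [Group G] [Finite G]
    (Q : G → Subgroup G)
    (hQ : ∀ x : G, Q x = (Cfsg.pCore 2 ↥(Subgroup.centralizer ({x} : Set G))).map (Subgroup.centralizer ({x} : Set G)).subtype)
    (z : G) (hz : orderOf z = 2) (hE : Cfsg.IsExtraspecial 2 ↥(Q z))
    (hC : Subgroup.centralizer ((Q z : Subgroup G) : Set G) ≤ Q z)
    (U : Subgroup G) (hU2 : ∀ u ∈ U, u * u = 1)
    (hS : ∀ u ∈ U, u ≠ 1 → ∃ g : G, g * z * g⁻¹ = u)
    (hO : ∀ u ∈ U, ∀ v ∈ U, u ≠ 1 → v ≠ 1 → v ∈ Q u)
    (QU LU : Subgroup G) (hQU : QU = ⨅ u ∈ ((U : Set G) \ {1}), Q u) (hLU : LU = ⨆ u ∈ ((U : Set G) \ {1}), Q u)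
    (T : Set G) (hT : Subgroup.closure T = U) (hT1 : (1 : G) ∉ T) :
    QU = ⨅ t ∈ T, Q t := by
  have h := good_of_extraspecial Q hQ z hz hE hC
  have hg : ∀ u ∈ U, u ≠ 1 → Good (Q u) u := fun u hu hu1 => by
    obtain ⟨g, rfl⟩ := hS u hu hu1
    exact good_conj Q hQ h g
  rw [hQU]
  apply le_antisymm
  · refine le_iInf₂ fun t ht => iInf₂_le_of_le t ⟨hT ▸ Subgroup.subset_closure ht, fun e => hT1 (e ▸ ht)⟩ le_rfl
  · refine le_iInf₂ fun u hu => ?_
    obtain ⟨huU, hu1⟩ := hu
    intro a ha
    simp only [Subgroup.mem_iInf] at ha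
    have huT : u ∈ Subgroup.closure T := hT.symm ▸ huU
    suffices u ≠ 1 → a ∈ Q u from this hu1
    clear hu1 huU
    induction huT using Subgroup.closure_induction with
    | mem t ht => exact fun _ => ha t ht
    | one => exact fun h => absurd rfl h
    | inv v hv ih =>
      intro hv1
      have : v⁻¹ = v := inv_eq_of_mul_eq_one_right (hU2 v (hT ▸ hv))
      rw [this] at hv1 ⊢
      exact ih hv1
    | mul u v hu hv ihu ihv =>
      intro hw1
      by_cases hu1 : u = 1
      · rw [hu1, one_mul] at hw1 ⊢; exact ihv hw1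
      by_cases hv1 : v = 1
      · rw [hv1, mul_one] at hw1 ⊢; exact ihu hu1
      have huU : u ∈ U := hT ▸ hu
      have hvU : v ∈ U := hT ▸ hv
      have huv : u ≠ v := fun e => hw1 (by rw [← e]; exact hU2 u huU)
      have gu := hg u huU hu1
      obtain ⟨q, hq, hqv⟩ := exists_mover gu (hO u huU v hvU hu1 hv1) hv1 (Ne.symm huv)
      have hau := ihu hu1
      have hav := ihv hv1
      have hm : q⁻¹ * a * q ∈ Q v := by
        rcases gu.comm q⁻¹ (inv_mem hq) a hau with e | e
        · have : q⁻¹ * a * q = a :=
            calc q⁻¹ * a * q = (q⁻¹ * a * (q⁻¹)⁻¹ * a⁻¹) * a := by group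
              _ = a := by rw [e, one_mul]
          rwa [this]
        · have : q⁻¹ * a * q = u * a :=
            calc q⁻¹ * a * q = (q⁻¹ * a * (q⁻¹)⁻¹ * a⁻¹) * a := by group
              _ = u * a := by rw [e]
          rw [this]
          exact mul_mem (hO v hvU u huU hv1 hu1) hav
      have := conj_core Q hQ q v _ hm
      rw [hqv, show q * (q⁻¹ * a * q) * q⁻¹ = a by group] at this
      exact this

end Cfsg.Agent.S5598
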