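import Cfsg.Statements.S5713
import Cfsg.Agent.Lib.Perm.MinimalDegreeBound

set_option autoImplicit false
open Cfsg

namespace Cfsg.Agent.S5713

/-- A classification-free minimal-degree bound. Let G be a finite group acting faithfully and primitively on a finite set Ω with n elements, and suppose that the image of G in the symmetric group on Ω does not contain the alternating group on Ω. Then every non-identity element of G moves at least (√n − 1)/2 points of Ω, that is, it fixes at most n − (√n − 1)/2 points. -/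
theorem result {G Ω : Type*} [Group G] [Finite G] [MulAction G Ω] [FaithfulSMul G Ω] [Fintype Ω] [DecidableEq Ω]
    (hprim : MulAction.IsPreprimitive G Ω)
    (hA : ¬ alternatingGroup Ω ≤ (MulAction.toPermHom G Ω).range)
    (g : G) (hg : g ≠ 1) :
    (Real.sqrt (Fintype.card Ω) - 1) / 2 ≤ (Fintype.card Ω : ℝ) - Nat.card (MulAction.fixedBy Ω g) := by
  classical
  obtain ⟨a, ha⟩ : ∃ a : Ω, g • a ≠ a := by
    by_contra hall
    push Not at hall
    exact hg (FaithfulSMul.eq_of_smul_eq_smul (α := Ω) fun x => by rw [hall, one_smul])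
  set m := Fintype.card Ω - Nat.card (MulAction.fixedBy Ω g) with hm
  have key : Fintype.card Ω ≤ (2 * m + 1) ^ 2 := by
    by_cases h2 : ∀ x y z : Ω, y ≠ x → z ≠ x → ∃ k : G, k • x = x ∧ k • y = z
    · have h := Lib.Perm.MinimalDegreeBound.card_le_of_two_transitive ha h2 fun k hk =>
        hA (Equiv.Perm.alternatingGroup_le_of_isPreprimitive_of_isThreeCycle_mem
          (MulAction.IsPreprimitive.of_surjective
            (f := (⟨id, fun k x => rfl⟩ : Ω →ₑ[(MulAction.toPermHom G Ω).rangeRestrict] Ω))
            Function.surjective_id) hk ⟨k, rfl⟩)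
      rw [← hm] at h
      nlinarith
    · have h3 : ∀ x y : Ω, x ≠ y → ∃ z, z ≠ x ∧ ¬ Lib.Perm.MinimalDegreeBound.SameOrb G x y x z := by
        intro x y hxy
        by_contra hall
        push Not at hall
        refine h2 fun x' y' z' hy hz => ?_
        obtain ⟨k, rfl⟩ := MulAction.exists_smul_eq G x x'
        obtain ⟨k₁, e1, f1⟩ := hall (k⁻¹ • y') (fun e => hy (by rw [← e, smul_inv_smul]))
        obtain ⟨k₂, e2, f2⟩ := hall (k⁻¹ • z') (fun e => hz (by rw [← e, smul_inv_smul]))
        refine ⟨k * (k₂ * k₁⁻¹) * k⁻¹, ?_, ?_⟩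
        · rw [mul_smul, mul_smul, inv_smul_smul, mul_smul, (inv_smul_eq_iff.2 e1.symm), e2]
        · rw [mul_smul, mul_smul, mul_smul, (inv_smul_eq_iff.2 f1.symm), f2, smul_inv_smul]
      have h := Lib.Perm.MinimalDegreeBound.card_le_dset (G := G) (Ne.symm ha) h3
      have hle := Lib.Perm.MinimalDegreeBound.dset_le_support g a
      rw [← hm] at hle
      exact h.trans (Nat.pow_le_pow_left (by omega) 2)
  have hfix : Nat.card (MulAction.fixedBy Ω g) ≤ Fintype.card Ω := by
    rw [Nat.card_eq_fintype_card]
    exact Fintype.card_subtype_le _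
  have hcast : ((m : ℕ) : ℝ) = (Fintype.card Ω : ℝ) - Nat.card (MulAction.fixedBy Ω g) := by
    rw [hm, Nat.cast_sub hfix]
  rw [← hcast]
  have hs : Real.sqrt (Fintype.card Ω) ≤ 2 * (m : ℝ) + 1 := by
    rw [Real.sqrt_le_left (by positivity)]
    exact_mod_cast key
  linarith

end Cfsg.Agent.S5713
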