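import Cfsg.Statements.S5722
import Cfsg.Agent.Lib.CompLen.Perm

set_option autoImplicit false
open Cfsg

namespace Cfsg.Agent.S5722

open Cfsg.Agent.Lib.CompLen

/-- If a finite group G acts faithfully on a finite set with n points and r orbits, then the composition length of G is at most 4(n − r)/3. Here the composition length is expressed through chains: the conclusion bounds the length l of every chain of subgroups 1 = H₀ < H₁ < ⋯ < H_l = G in which each term is normal in the next (the longest such chains are exactly the composition series). -/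
theorem result {G Ω : Type*} [Group G] [Finite G] [MulAction G Ω] [FaithfulSMul G Ω] [Fintype Ω]
    (l : ℕ) (H : Fin (l + 1) → Subgroup G) (h0 : H 0 = ⊥) (hl : H (Fin.last l) = ⊤)
    (hchain : ∀ i : Fin l, H i.castSucc < H i.succ ∧ ((H i.castSucc).subgroupOf (H i.succ)).Normal) :
    3 * l ≤ 4 * (Fintype.card Ω - Nat.card (Quotient (MulAction.orbitRel G Ω))) := by
  have : Finite Ω := inferInstance
  let f := MulAction.toPermHom G Ω
  have hf : Function.Injective f := MulAction.toPerm_injective
  have h := bnd_of_injective f hf (main _ Ω f.range rfl)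
  have h1 := h l (by simpa [hl] using chainTo_of_fin l H h0 hchain (Fin.last l))
  have hr : Nat.card (Quotient (MulAction.orbitRel G Ω)) = Nat.card (Quotient (MulAction.orbitRel f.range Ω)) := by
    refine Nat.card_congr (Quotient.congrRight fun a b => ?_)
    rw [MulAction.orbitRel_apply, MulAction.orbitRel_apply]
    constructor
    · rintro ⟨g, rfl⟩
      exact ⟨⟨f g, g, rfl⟩, rfl⟩
    · rintro ⟨⟨_, g, rfl⟩, rfl⟩
      exact ⟨g, rfl⟩
  rw [hr]
  rwa [Nat.card_eq_fintype_card (α := Ω)] at h1

end Cfsg.Agent.S5722
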