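import Cfsg.Statements.S5729
import Cfsg.Agent.Lib.Perm.Basic

set_option autoImplicit false
open Cfsg

namespace Cfsg.Agent.S5729

open MulAction in
theorem rank_ge_two {G Ω : Type*} [Group G] [MulAction G Ω] [Finite Ω] (a : Ω)
    (hn : 2 ≤ Nat.card Ω) : 2 ≤ Nat.card (orbitRel.Quotient (stabilizer G a) Ω) := by
  obtain ⟨b, hb⟩ : ∃ b, b ≠ a := by
    by_contra h
    push Not at h
    have : Subsingleton Ω := ⟨fun x y => (h x).trans (h y).symm⟩
    have := Finite.card_le_one_iff_subsingleton.mpr this
    omega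
  have hne : (Quotient.mk'' b : orbitRel.Quotient (stabilizer G a) Ω) ≠ Quotient.mk'' a := by
    intro h
    obtain ⟨g, hg⟩ := Quotient.exact' h
    exact hb (hg.symm.trans g.2)
  exact Finite.one_lt_card_iff_nontrivial.mpr ⟨_, _, hne⟩


/-- Let a finite group G act faithfully and transitively on a set with n ≥ 3 points. Then either G is a Frobenius permutation group (Frobenius as a permutation group: transitive, some non-identity element fixes a point, and no non-identity element fixes two points) of order n(n − 1) and exactly |G|/n of its elements are derangements (fix no point), or the number of derangements is greater than |G|/n. -/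
theorem result {G Ω : Type*} [Group G] [Finite G] [MulAction G Ω] [FaithfulSMul G Ω] [Fintype Ω] (htr : MulAction.IsPretransitive G Ω) (hn : 3 ≤ Fintype.card Ω) :
    ((MulAction.IsPretransitive G Ω ∧ (∃ g : G, g ≠ 1 ∧ ∃ ω : Ω, g • ω = ω) ∧ ∀ g : G, g ≠ 1 → Nat.card (MulAction.fixedBy Ω g) ≤ 1) ∧ Nat.card G = Fintype.card Ω * (Fintype.card Ω - 1) ∧ Fintype.card Ω * Nat.card {g : G // ∀ ω : Ω, g • ω ≠ ω} = Nat.card G) ∨
    Nat.card G < Fintype.card Ω * Nat.card {g : G // ∀ ω : Ω, g • ω ≠ ω} := by
  classical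
  have := htr
  have := Fintype.ofFinite G
  obtain ⟨a⟩ : Nonempty Ω := Fintype.card_pos_iff.mp (by omega)
  let π : G → ℕ := fun g => Nat.card (MulAction.fixedBy Ω g)
  let r := Nat.card (MulAction.orbitRel.Quotient (MulAction.stabilizer G a) Ω)
  have hr : 2 ≤ r := rank_ge_two a (by rw [Nat.card_eq_fintype_card]; omega)
  have h1 : ∑ g, π g = Nat.card G := by
    rw [Lib.Perm.sum_fixedBy, Nat.card_eq_one_iff_unique.mpr
      ⟨MulAction.pretransitive_iff_subsingleton_quotient G Ω |>.mp htr, ⟨Quotient.mk'' a⟩⟩, one_mul]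
  have h2 : ∑ g, π g ^ 2 = r * Nat.card G := by
    rw [show r = Nat.card (MulAction.orbitRel.Quotient G (Ω × Ω)) from (Lib.Perm.card_orbits_prod a).symm,
      ← Lib.Perm.sum_fixedBy]
    exact Finset.sum_congr rfl fun g _ => by rw [Lib.Perm.card_fixedBy_prod, pow_two]
  have hpi0 : ∀ g, π g = 0 ↔ ∀ ω : Ω, g • ω ≠ ω := fun g => by
    simp only [π, Nat.card_eq_zero, Set.isEmpty_coe_sort, Set.eq_empty_iff_forall_notMem,
      MulAction.mem_fixedBy, not_infinite_iff_finite.mpr (inferInstance), or_false]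
  have hD : Nat.card {g : G // ∀ ω : Ω, g • ω ≠ ω} = (Finset.univ.filter fun g => π g = 0).card := by
    rw [Nat.card_eq_fintype_card, Fintype.card_subtype]
    exact congrArg _ (Finset.filter_congr fun g _ => (hpi0 g).symm)
  set n := Fintype.card Ω with hndef
  set D := Nat.card {g : G // ∀ ω : Ω, g • ω ≠ ω}
  have hle : ∀ g, π g ≤ n := fun g => by
    rw [hndef, ← Nat.card_eq_fintype_card]
    exact Finite.card_subtype_le _
  have key : (n : ℤ) * D + ∑ g ∈ Finset.univ.filter (fun g => π g ≠ 0),
      ((π g : ℤ) - 1) * ((π g : ℤ) - n) = ((r : ℤ) - 1) * Nat.card G := by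
    have hsum : ∑ g, ((π g : ℤ) - 1) * ((π g : ℤ) - n) = ((r : ℤ) - 1) * Nat.card G := by
      have e1 : (∑ g, (π g : ℤ)) = Nat.card G := by exact_mod_cast h1
      have e2 : (∑ g, (π g : ℤ) ^ 2) = r * Nat.card G := by exact_mod_cast h2
      calc ∑ g, ((π g : ℤ) - 1) * ((π g : ℤ) - n)
          = ∑ g, ((π g : ℤ) ^ 2 - (n + 1) * π g + n) := Finset.sum_congr rfl fun g _ => by ring
        _ = _ := by
          rw [Finset.sum_add_distrib, Finset.sum_sub_distrib, ← Finset.mul_sum, e1, e2,
            Finset.sum_const, Finset.card_univ, nsmul_eq_mul, ← Nat.card_eq_fintype_card]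
          ring
    rw [← hsum, ← Finset.sum_filter_add_sum_filter_not Finset.univ (fun g => π g = 0)]
    congr 1
    rw [hD, Finset.sum_congr rfl (g := fun _ => (n : ℤ)) fun g hg => by
      rw [(Finset.mem_filter.mp hg).2]; simp]
    simp [mul_comm]
  have hterm : ∀ g ∈ Finset.univ.filter (fun g => π g ≠ 0),
      ((π g : ℤ) - 1) * ((π g : ℤ) - n) ≤ 0 := fun g hg => by
    have h1' : (1 : ℤ) ≤ π g := by
      exact_mod_cast Nat.one_le_iff_ne_zero.mpr (Finset.mem_filter.mp hg).2
    have h2' : (π g : ℤ) ≤ n := by exact_mod_cast hle g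
    exact mul_nonpos_of_nonneg_of_nonpos (by omega) (by omega)
  by_cases hlt : Nat.card G < n * D
  · exact Or.inr hlt
  left
  have hlt' : (n : ℤ) * D ≤ Nat.card G := by exact_mod_cast not_lt.mp hlt
  have hS : ∑ g ∈ Finset.univ.filter (fun g => π g ≠ 0), ((π g : ℤ) - 1) * ((π g : ℤ) - n) = 0 := by
    have := Finset.sum_nonpos hterm
    nlinarith [key, (Nat.cast_nonneg (Nat.card G) : (0 : ℤ) ≤ Nat.card G), (by exact_mod_cast hr : (2 : ℤ) ≤ r)]
  have hr2 : (r : ℤ) = 2 := by
    have hG : (0 : ℤ) < Nat.card G := by exact_mod_cast Nat.card_pos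
    rw [hS, add_zero] at key
    nlinarith [(by exact_mod_cast hr : (2 : ℤ) ≤ r)]
  rw [hS, add_zero, hr2] at key
  have hnD : n * D = Nat.card G := by
    have : (n : ℤ) * D = Nat.card G := by linarith
    exact_mod_cast this
  have hvals : ∀ g, π g ≠ 0 → g ≠ 1 → π g = 1 := by
    intro g h0 hg1
    have := (Finset.sum_eq_zero_iff_of_nonpos hterm).mp hS g (Finset.mem_filter.mpr ⟨Finset.mem_univ _, h0⟩)
    rcases mul_eq_zero.mp this with h | h
    · have : (π g : ℤ) = 1 := by linarith
      exact_mod_cast this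
    · exfalso
      have hn' : π g = n := by
        have : (π g : ℤ) = n := by linarith
        exact_mod_cast this
      apply hg1
      refine eq_of_smul_eq_smul (α := Ω) fun x => ?_
      rw [one_smul]
      have huniv : MulAction.fixedBy Ω g = Set.univ :=
        Set.eq_of_subset_of_ncard_le (Set.subset_univ _)
          (by rw [Set.ncard_univ, Nat.card_eq_fintype_card, ← hndef, ← hn', ← Nat.card_coe_set_eq])
      exact (huniv ▸ Set.mem_univ x : x ∈ MulAction.fixedBy Ω g)
  have hle1 : ∀ g : G, g ≠ 1 → π g ≤ 1 := fun g hg => by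
    by_cases h0 : π g = 0
    · omega
    · exact (hvals g h0 hg).le
  have h10 : π 1 = n := by rw [hndef, ← Nat.card_eq_fintype_card]; exact Lib.Perm.card_fixedBy_one
  have hG : Nat.card G + D + 1 = n + Nat.card G := by
    have hsplit : ∀ g, π g + (if π g = 0 then 1 else 0) + (if g = 1 then 1 else 0)
        = (if g = 1 then n else 0) + 1 := by
      intro g
      by_cases hg : g = 1
      · subst hg; simp [h10, show n ≠ 0 by omega]
      · by_cases h0 : π g = 0
        · simp [h0, hg]
        · simp [h0, hg, hvals g h0 hg]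
    have := Finset.sum_congr rfl (fun g (_ : g ∈ (Finset.univ : Finset G)) => hsplit g)
    simp only [Finset.sum_add_distrib, Finset.sum_boole, Finset.sum_ite_eq', Finset.mem_univ,
      if_true, Finset.sum_const, Finset.card_univ, smul_eq_mul, mul_one] at this
    rw [h1, ← Nat.card_eq_fintype_card] at this
    simp only [Nat.cast_id] at this
    rw [← hD, show ({x | x = 1} : Finset G).card = 1 from Finset.card_eq_one.mpr ⟨1, by ext; simp⟩] at this
    exact this
  have hD1 : D = n - 1 := by omega
  refine ⟨⟨htr, ?_, fun g hg => hle1 g hg⟩, by rw [← hnD, hD1], hnD⟩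
  by_contra hno
  push Not at hno
  have : ∑ g, π g = n := by
    rw [Finset.sum_eq_single 1 (fun g _ hg => ((hpi0 g).mpr (hno g hg))) (by simp), h10]
  have : n * (n - 1) = n * 1 := by rw [mul_one, ← hD1, hnD, ← h1, this]
  have := Nat.eq_of_mul_eq_mul_left (by omega) this
  omega

end Cfsg.Agent.S5729
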