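import Cfsg.Statements.S5730
import Cfsg.Agent.Lib.Perm.DerangeMain

set_option autoImplicit false
open Cfsg

namespace Cfsg.Agent.S5730

open MulAction Finset Lib.Perm.Derange

/-- Let a finite group G act faithfully and transitively on a set with n ≥ 7 points. Then either G is a Frobenius permutation group (Frobenius as a permutation group: transitive, some non-identity element fixes a point, and no non-identity element fixes two points) of order n(n − 1)/a with a ∈ {1, 2}, in which case exactly a|G|/n of its elements are derangements, or the number of derangements is at least 2|G|/n. (Equality does occur: PSL₃(2) acting on the 7 points of the Fano plane has exactly 2|G|/7 derangements.) -/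
theorem result {G Ω : Type*} [Group G] [Finite G] [MulAction G Ω] [FaithfulSMul G Ω] [Fintype Ω] (htr : MulAction.IsPretransitive G Ω) (hn : 7 ≤ Fintype.card Ω) :
    (∃ a : ℕ, (a = 1 ∨ a = 2) ∧ (MulAction.IsPretransitive G Ω ∧ (∃ g : G, g ≠ 1 ∧ ∃ ω : Ω, g • ω = ω) ∧ ∀ g : G, g ≠ 1 → Nat.card (MulAction.fixedBy Ω g) ≤ 1) ∧ a * Nat.card G = Fintype.card Ω * (Fintype.card Ω - 1) ∧ Fintype.card Ω * Nat.card {g : G // ∀ ω : Ω, g • ω ≠ ω} = a * Nat.card G) ∨
    2 * Nat.card G ≤ Fintype.card Ω * Nat.card {g : G // ∀ ω : Ω, g • ω ≠ ω} := by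
  classical
  have := Fintype.ofFinite G
  have hD : Nat.card {g : G // ∀ ω : Ω, g • ω ≠ ω} = #(univ.filter fun g : G => fixF (X := Ω) g = ∅) := by
    rw [Nat.card_eq_fintype_card, Fintype.card_subtype]
    congr 1; ext g; simp [fixF, Finset.eq_empty_iff_forall_notMem]
  rw [hD, Nat.card_eq_fintype_card]
  have := htr
  by_cases h2 : IsMultiplyPretransitive G Ω 2
  · obtain ⟨a, b, hab⟩ := Fintype.exists_pair_of_one_lt_card (α := Ω) (by omega)
    by_cases hs : 2 ≤ #(pairF G a b)
    · exact Or.inr (main hn hab hs)
    · have hs1 : #(pairF G a b) = 1 := by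
        have : 1 ≤ #(pairF G a b) := Finset.card_pos.mpr ⟨1, by simp [pairF]⟩
        omega
      refine Or.inl ⟨1, Or.inl rfl, ⟨htr, ?_, fun g hg => ?_⟩, ?_, ?_⟩
      · have hc : 1 < Nat.card (stabilizer G a) := by
          rw [card_stab (G := G) hab, hs1]; omega
        have : Nontrivial (stabilizer G a) := Finite.one_lt_card_iff_nontrivial.mp hc
        obtain ⟨g, hg⟩ := exists_ne (1 : stabilizer G a)
        exact ⟨g, fun e => hg (Subtype.ext e), a, g.2⟩
      · rw [card_fixedBy_eq]
        refine Finset.card_le_one.mpr fun x hx y hy => ?_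
        by_contra hxy
        have h1 : #(pairF G x y) = 1 := by rw [card_pairF_eq hab hxy, hs1]
        obtain ⟨z, hz⟩ := Finset.card_eq_one.mp h1
        have hg' : g ∈ pairF G x y := mem_pairF.mpr ⟨mem_fixF.mp hx, mem_fixF.mp hy⟩
        have h1' : (1 : G) ∈ pairF G x y := by simp [pairF]
        rw [hz, Finset.mem_singleton] at hg' h1'
        exact hg (hg'.trans h1'.symm)
      · rw [one_mul, card_group (G := G) hab, hs1, mul_one, Finset.offDiag_card, Finset.card_univ,
          Nat.mul_sub, mul_one]
      · have hid := derangement_identity (G := G) hab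
        obtain ⟨z, hz⟩ := Finset.card_eq_one.mp hs1
        have h1' : (1 : G) ∈ pairF G a b := by simp [pairF]
        rw [hz, Finset.mem_singleton] at h1'
        have : Nonempty Ω := ⟨a⟩
        rw [hz, Finset.sum_singleton, ← h1', wgt_one, mul_zero, add_zero] at hid
        rw [one_mul]
        exact_mod_cast hid
  · exact Or.inr (not_two h2)

end Cfsg.Agent.S5730
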