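import Cfsg.Statements.S5737
import Cfsg.Agent.Lib.SuzBinary.Main
import Cfsg.Agent.Lib.Suz.Bridge

set_option autoImplicit false
open Cfsg

namespace Cfsg.Agent.S5737

/-- Let G = Sz(q) be a Suzuki group, q = 2^(2a+1) with a ≥ 1 (realised inside Sp₄ over the field with q elements), and let H be a proper subgroup of G. Then the action of G on the cosets of H is binary if and only if H is trivial or H is the centre of a Sylow 2-subgroup of G. Here an action is binary (relational complexity 2) when, for every n ≥ 2 and all n-tuples I, J of points, if for every pair of positions some group element carries the corresponding pair of entries of I to those of J, then a single group element carries I to J. -/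
theorem result {F : Type*} [Field F] [Fintype F] (a : ℕ) (ha : 1 ≤ a) (hF : Fintype.card F = 2 ^ (2 * a + 1))
    (H : Subgroup (Cfsg.Lie.Sz F (2 ^ (a + 1)))) (hH : H ≠ ⊤) :
    (∀ (n : ℕ) (I J : Fin n → (Cfsg.Lie.Sz F (2 ^ (a + 1))) ⧸ H), 2 ≤ n →
        (∀ i j : Fin n, i ≠ j → ∃ g : (Cfsg.Lie.Sz F (2 ^ (a + 1))), g • I i = J i ∧ g • I j = J j) → ∃ g : (Cfsg.Lie.Sz F (2 ^ (a + 1))), ∀ i, g • I i = J i) ↔
      (H = ⊥ ∨ ∃ P : Sylow 2 (Cfsg.Lie.Sz F (2 ^ (a + 1))), H = (Subgroup.center (P : Subgroup (Cfsg.Lie.Sz F (2 ^ (a + 1))))).map (P : Subgroup (Cfsg.Lie.Sz F (2 ^ (a + 1)))).subtype) := by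
  classical
  have c : Cfsg.Agent.Lib.Suz.Ctx F a := ⟨ha, hF⟩
  haveI := Cfsg.Agent.Lib.Suz.charP_two c
  set e := Cfsg.Agent.Lib.Suz.lieEquiv c with he
  have hback : H = (H.map e.symm.toMonoidHom).map e.toMonoidHom := by
    rw [Subgroup.map_map, show e.toMonoidHom.comp e.symm.toMonoidHom = MonoidHom.id _ from
      MonoidHom.ext fun x => e.apply_symm_apply x, Subgroup.map_id]
  have hne : H.map e.symm.toMonoidHom ≠ ⊤ := fun h => hH (by
    rw [hback, h, Subgroup.map_top_of_surjective _ e.surjective])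
  show Lib.SuzBinary.Binary H ↔ _
  rw [← Lib.SuzBinary.binary_map_iff e.symm, Lib.SuzBinary.binary_iff c _ hne]
  constructor
  · rintro (h | ⟨k, h⟩)
    · exact Or.inl (by rw [hback, h, Subgroup.map_bot])
    · right
      haveI : Fact (Nat.Prime 2) := ⟨Nat.prime_two⟩
      obtain ⟨P, hP⟩ := Cfsg.Agent.Lib.Suz.exists_sylow c
      refine ⟨P.mapSurjective (f := ((MulAut.conj k).trans e).toMonoidHom) ((MulAut.conj k).trans e).surjective, ?_⟩
      show H = (Subgroup.center ↥((P : Subgroup ↥(Cfsg.Sz F a)).map ((MulAut.conj k).trans e).toMonoidHom)).map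
        ((P : Subgroup ↥(Cfsg.Sz F a)).map ((MulAut.conj k).trans e).toMonoidHom).subtype
      rw [Lib.SuzBinary.center_map_map, hP, Lib.SuzBinary.center_uSub_map c, hback, h,
        Subgroup.map_map]
      rfl
  · rintro (h | ⟨P, h⟩)
    · exact Or.inl (by rw [h, Subgroup.map_bot])
    · right
      haveI : Fact (Nat.Prime 2) := ⟨Nat.prime_two⟩
      haveI : Finite ↥(Cfsg.Lie.Sz F (2 ^ (a + 1))) := Finite.of_equiv _ e.toEquiv
      obtain ⟨g, hg⟩ := Cfsg.Agent.Lib.Suz.sylow_conj c (P.mapSurjective (f := e.symm.toMonoidHom) e.symm.surjective)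
      refine ⟨g, ?_⟩
      rw [h, ← Lib.SuzBinary.center_map_map, ← Lib.SuzBinary.center_uSub_map c, ← Lib.SuzBinary.center_map_map,
        ← hg]
      rfl

end Cfsg.Agent.S5737
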