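import Cfsg.Statements.S5747
import Mathlib.GroupTheory.GroupAction.Defs
import Mathlib.Data.Fintype.Basic
import Mathlib.Data.List.OfFn
import Mathlib.Data.List.FinRange

set_option autoImplicit false
open Cfsg

namespace Cfsg.Agent.S5747

open MulAction

variable {G Ω : Type*} [Group G] [MulAction G Ω]

/-- The pointwise stabiliser of a list in a subgroup. -/
def stab (K : Subgroup G) : List Ω → Subgroup G
  | [] => K
  | x :: l => stab (K ⊓ stabilizer G x) l

/-- Irredundant bases as lists. -/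
def IB (K : Subgroup G) : List Ω → Prop
  | [] => K = ⊥
  | x :: l => (∃ g ∈ K, g • x ≠ x) ∧ IB (K ⊓ stabilizer G x) l

theorem mem_stab : ∀ (l : List Ω) (K : Subgroup G) (g : G),
    g ∈ stab K l ↔ g ∈ K ∧ ∀ x ∈ l, g • x = x
  | [], K, g => by simp [stab]
  | x :: l, K, g => by
    rw [stab, mem_stab l, Subgroup.mem_inf, mem_stabilizer_iff, List.forall_mem_cons]
    tauto

theorem IB.stab_eq : ∀ (l : List Ω) (K : Subgroup G), IB K l → stab K l = ⊥
  | [], _, h => h
  | _ :: l, _, h => IB.stab_eq l _ h.2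

theorem IB.right : ∀ (C m : List Ω) (K : Subgroup G), IB K (C ++ m) → IB (stab K C) m
  | [], _, _, h => h
  | _ :: C, m, _, h => IB.right C m _ h.2

theorem IB.replace : ∀ (C m m' : List Ω) (K : Subgroup G), IB K (C ++ m) → IB (stab K C) m' →
    IB K (C ++ m')
  | [], _, _, _, _, h' => h'
  | _ :: C, m, m', _, h, h' => ⟨h.1, IB.replace C m m' _ h.2 h'⟩

theorem prune : ∀ (l : List Ω) (K : Subgroup G), stab K l = ⊥ → ∃ C, List.Sublist C l ∧ IB K C
  | [], K, h => ⟨[], List.Sublist.refl _, h⟩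
  | x :: l, K, h => by
    obtain ⟨C, hC, hIB⟩ := prune l (K ⊓ stabilizer G x) h
    by_cases hx : ∃ g ∈ K, g • x ≠ x
    · exact ⟨x :: C, hC.cons_cons x, hx, hIB⟩
    · push Not at hx
      rw [inf_eq_left.mpr (fun g hg => mem_stabilizer_iff.mpr (hx g hg))] at hIB
      exact ⟨C, hC.cons x, hIB⟩

theorem IB.moved : ∀ (l : List Ω) (K : Subgroup G), IB K l → ∀ y ∈ l, ∃ g ∈ K, g • y ≠ y
  | [], _, _, _, hy => absurd hy (List.not_mem_nil)
  | x :: l, K, h, y, hy => by
    rcases List.mem_cons.mp hy with rfl | hy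
    · exact h.1
    · obtain ⟨g, hg, hne⟩ := IB.moved l _ h.2 y hy
      exact ⟨g, hg.1, hne⟩

theorem IB.nodup : ∀ (l : List Ω) (K : Subgroup G), IB K l → l.Nodup
  | [], _, _ => List.nodup_nil
  | x :: l, K, h => List.nodup_cons.mpr ⟨fun hx => by
      obtain ⟨g, hg, hne⟩ := IB.moved l _ h.2 x hx
      exact hne (mem_stabilizer_iff.mp hg.2), IB.nodup l _ h.2⟩

theorem perm_ofFn {m m' : List Ω} (hn : m.Nodup) (hp : List.Perm m m') :
    ∃ σ : Equiv.Perm (Fin m.length), List.ofFn ((fun i : Fin m.length => m[i]) ∘ σ) = m' := by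
  have hlen := hp.length_eq
  have hex : ∀ i : Fin m.length, ∃ j : Fin m.length, m[j] = m'[i.val]'(by omega) := fun i => by
    obtain ⟨j, hj, e⟩ := List.mem_iff_getElem.mp (hp.symm.subset (List.getElem_mem (show i.val < m'.length by omega)))
    exact ⟨⟨j, hj⟩, e⟩
  choose σ hσ using hex
  have hinj : Function.Injective σ := fun i j e => by
    have h1 := hσ i
    rw [e, hσ j] at h1
    exact Fin.ext (((hp.nodup_iff.mp hn).getElem_inj_iff).mp h1.symm)
  refine ⟨Equiv.ofBijective σ (Finite.injective_iff_bijective.mp hinj), List.ext_getElem (by simpa using hlen) fun i h1 h2 => ?_⟩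
  rw [List.getElem_ofFn]
  exact hσ _

theorem same_length : ∀ (l' l : List Ω) (K : Subgroup G),
    (∀ m : List Ω, IB K m → ∀ m', List.Perm m m' → IB K m') → IB K l → IB K l' → l.length = l'.length
  | [], l, K, _, hl, hK => by
    cases l with
    | nil => rfl
    | cons y l =>
      obtain ⟨g, hg, hgy⟩ := hl.1
      rw [show K = ⊥ from hK, Subgroup.mem_bot] at hg
      exact (hgy (by rw [hg, one_smul])).elim
  | x :: r, l, K, hR, hl, hl' => by
    have hbot : stab (K ⊓ stabilizer G x) l = ⊥ := by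
      rw [Subgroup.eq_bot_iff_forall]
      intro g hg
      rw [mem_stab] at hg
      have : g ∈ stab K l := (mem_stab l K g).mpr ⟨hg.1.1, hg.2⟩
      rwa [IB.stab_eq l K hl, Subgroup.mem_bot] at this
    obtain ⟨C, hC, hCB⟩ := prune l _ hbot
    have hxC : IB K (x :: C) := ⟨hl'.1, hCB⟩
    have hlen := same_length r C (K ⊓ stabilizer G x)
      (fun m hm m' hp => (hR (x :: m) ⟨hl'.1, hm⟩ (x :: m') (hp.cons x)).2) hCB hl'.2
    have hCx : IB K (C ++ [x]) := hR _ hxC _ (List.perm_append_comm (l₁ := [x]) (l₂ := C))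
    rw [List.length_cons, ← hlen]
    obtain ⟨D, hD⟩ := hC.exists_perm_append
    have hlD : IB K (C ++ D) := hR _ hl _ hD
    have hlength := hD.length_eq
    rw [List.length_append] at hlength
    rcases D with _ | ⟨b, _ | ⟨d, D'⟩⟩
    · exfalso
      rw [List.append_nil] at hlD
      obtain ⟨g, hg, hgx⟩ := (IB.right C [x] K hCx).1
      rw [IB.stab_eq C K hlD, Subgroup.mem_bot] at hg
      exact hgx (by rw [hg, one_smul])
    · simpa using hlength
    · exfalso
      have hr := IB.right C _ K hlD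
      obtain ⟨g, hg, hgd⟩ := hr.2.1
      have hKx : stab K C ⊓ stabilizer G x = ⊥ := (IB.right C [x] K hCx).2
      have hgx : g • x ≠ x := fun e => hgd (by
        have h1 : g ∈ stab K C ⊓ stabilizer G x := ⟨hg.1, e⟩
        rw [hKx, Subgroup.mem_bot] at h1
        rw [h1, one_smul])
      have hnew : IB (stab K C) [b, x] :=
        ⟨hr.1, ⟨g, hg, hgx⟩, (Subgroup.eq_bot_iff_forall _).mpr fun z hz => by
          have h1 : z ∈ stab K C ⊓ stabilizer G x := ⟨hz.1.1, hz.2⟩
          rwa [hKx, Subgroup.mem_bot] at h1⟩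
      have hswap := hR _ (IB.replace C _ [b, x] K hlD hnew) (C ++ [x, b])
        ((List.Perm.swap x b []).append_left C)
      obtain ⟨z, hz, hzb⟩ := (IB.right C [x, b] K hswap).2.1
      rw [hKx, Subgroup.mem_bot] at hz
      exact hzb (by rw [hz, one_smul])

theorem ofFn_iff : ∀ (t : ℕ) (f : Fin t → Ω) (K : Subgroup G),
    IB K (List.ofFn f) ↔ ((∀ g ∈ K, (∀ i : Fin t, g • f i = f i) → g = 1) ∧
      ∀ i : Fin t, ∃ g ∈ K, (∀ j : Fin t, j < i → g • f j = f j) ∧ g • f i ≠ f i)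
  | 0, f, K => by
    rw [List.ofFn_zero]
    exact ⟨fun h => ⟨fun g hg _ => Subgroup.mem_bot.mp (h ▸ hg), fun i => i.elim0⟩,
      fun h => (Subgroup.eq_bot_iff_forall _).mpr fun g hg => h.1 g hg fun i => i.elim0⟩
  | t + 1, f, K => by
    rw [List.ofFn_succ, IB, ofFn_iff t _ (K ⊓ stabilizer G (f 0))]
    constructor
    · rintro ⟨⟨g₀, hg₀, hg₀'⟩, h1, h2⟩
      refine ⟨fun g hg hfix => h1 g ⟨hg, hfix 0⟩ fun i => hfix i.succ, fun i => ?_⟩
      cases i using Fin.cases with
      | zero => exact ⟨g₀, hg₀, fun j hj => absurd hj (Fin.not_lt_zero j), hg₀'⟩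
      | succ i =>
        obtain ⟨g, hg, hlt, hne⟩ := h2 i
        refine ⟨g, hg.1, fun j hj => ?_, hne⟩
        cases j using Fin.cases with
        | zero => exact hg.2
        | succ j => exact hlt j (Fin.succ_lt_succ_iff.mp hj)
    · rintro ⟨h1, h2⟩
      refine ⟨?_, fun g hg hfix => h1 g hg.1 fun i => ?_, fun i => ?_⟩
      · obtain ⟨g, hg, -, hne⟩ := h2 0
        exact ⟨g, hg, hne⟩
      · cases i using Fin.cases with
        | zero => exact hg.2
        | succ i => exact hfix i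
      · obtain ⟨g, hg, hlt, hne⟩ := h2 i.succ
        exact ⟨g, ⟨hg, hlt 0 (Fin.succ_pos i)⟩, fun j hj => hlt j.succ (Fin.succ_lt_succ_iff.mpr hj), hne⟩

theorem ofFn_top (t : ℕ) (f : Fin t → Ω) :
    IB (⊤ : Subgroup G) (List.ofFn f) ↔ ((∀ g : G, (∀ i : Fin t, g • f i = f i) → g = 1) ∧
      ∀ i : Fin t, ∃ g : G, (∀ j : Fin t, j < i → g • f j = f j) ∧ g • f i ≠ f i) := by
  rw [ofFn_iff]
  simp

/-- Let a finite group G act on a finite set Ω. An irredundant base is a sequence of points ω₁, …, ω_t whose pointwise stabiliser is trivial and in which each ω_i is moved by some element fixing ω₁, …, ω_{i−1}. Then all irredundant bases have the same length if and only if every reordering of an irredundant base is again an irredundant base. -/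
theorem result {G Ω : Type*} [Group G] [Finite G] [MulAction G Ω] [Fintype Ω] :
    (∀ (t t' : ℕ) (f : Fin t → Ω) (f' : Fin t' → Ω), ((∀ g : G, (∀ i : Fin t, g • f i = f i) → g = 1) ∧ ∀ i : Fin t, ∃ g : G, (∀ j : Fin t, j < i → g • f j = f j) ∧ g • f i ≠ f i) → ((∀ g : G, (∀ i : Fin t', g • f' i = f' i) → g = 1) ∧ ∀ i : Fin t', ∃ g : G, (∀ j : Fin t', j < i → g • f' j = f' j) ∧ g • f' i ≠ f' i) → t = t') ↔
    (∀ (t : ℕ) (f : Fin t → Ω) (σ : Equiv.Perm (Fin t)), ((∀ g : G, (∀ i : Fin t, g • f i = f i) → g = 1) ∧ ∀ i : Fin t, ∃ g : G, (∀ j : Fin t, j < i → g • f j = f j) ∧ g • f i ≠ f i) → ((∀ g : G, (∀ i : Fin t, g • (f ∘ σ) i = (f ∘ σ) i) → g = 1) ∧ ∀ i : Fin t, ∃ g : G, (∀ j : Fin t, j < i → g • (f ∘ σ) j = (f ∘ σ) j) ∧ g • (f ∘ σ) i ≠ (f ∘ σ) i)) := by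
  constructor
  · intro hsame t f σ hf
    rw [← ofFn_top] at hf ⊢
    have hperm : List.Perm (List.ofFn (f ∘ σ)) (List.ofFn f) := Equiv.Perm.ofFn_comp_perm σ f
    obtain ⟨C, hC, hCB⟩ := prune (List.ofFn (f ∘ σ)) (⊤ : Subgroup G) (by
      rw [Subgroup.eq_bot_iff_forall]
      intro g hg
      rw [mem_stab] at hg
      have h1 : g ∈ stab (⊤ : Subgroup G) (List.ofFn f) :=
        (mem_stab _ _ g).mpr ⟨hg.1, fun x hx => hg.2 x (hperm.mem_iff.mpr hx)⟩
      rwa [IB.stab_eq _ _ hf, Subgroup.mem_bot] at h1)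
    rw [← List.ofFn_getElem (xs := C), ofFn_top] at hCB
    have hlen := hsame _ _ _ _ ((ofFn_top t f).mp hf) hCB
    have heq : C = List.ofFn (f ∘ σ) := hC.eq_of_length (by rw [List.length_ofFn, ← hlen])
    rw [← ofFn_top, List.ofFn_getElem] at hCB
    rwa [heq] at hCB
  · intro hR t t' f f' hf hf'
    rw [← ofFn_top] at hf hf'
    have hperm : ∀ m : List Ω, IB (⊤ : Subgroup G) m → ∀ m' : List Ω, List.Perm m m' → IB (⊤ : Subgroup G) m' := by
      intro m hm m' hp
      obtain ⟨σ, rfl⟩ := perm_ofFn (IB.nodup m _ hm) hp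
      rw [ofFn_top]
      refine hR _ _ σ ?_
      rw [← ofFn_top]
      rwa [show List.ofFn (fun i : Fin m.length => m[i]) = m from List.ofFn_getElem]
    simpa using same_length (List.ofFn f') (List.ofFn f) ⊤ hperm hf hf'

end Cfsg.Agent.S5747
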