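import Mathlib
import Cfsg.Statements.S5748
import Cfsg.Agent.Lib.LocalChar.CTSimple
import Cfsg.Agent.Lib.PSLTwo.Centralizers

set_option autoImplicit false

open scoped commutatorElement Pointwise

open Cfsg.Agent.Lib.LocalChar

namespace Cfsg.Agent.S5748


open scoped MatrixGroups

/-- In `PSL₂(2 ^ f)` commuting is transitive on non-identity elements. -/
theorem ct_psl {G : Type*} [Group G] (F : Type) [Field F] [Fintype F] (f : ℕ) (hf : 2 ≤ f)
    (hF : Fintype.card F = 2 ^ f) (e : G ≃* Matrix.ProjectiveSpecialLinearGroup (Fin 2) F)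
    (a b c : G) (_ha : a ≠ 1) (hb : b ≠ 1) (_hc : c ≠ 1) (hab : Commute a b) (hbc : Commute b c) :
    Commute a c := by
  classical
  obtain ⟨E, _, _, _, hE⟩ := Cfsg.Agent.Lib.PSLTwo.exists_quadExt F
  let φ : G →* PGL(2, F) := (Matrix.ProjectiveSpecialLinearGroup.toPGL (n := Fin 2) (R := F)).comp e.toMonoidHom
  have hφ : Function.Injective φ :=
    Matrix.ProjectiveSpecialLinearGroup.toPGL_injective.comp e.injective
  have hb' : φ b ≠ 1 := fun h => hb (hφ (h.trans φ.map_one.symm))
  have heven : Even (Fintype.card F) := by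
    rw [hF, Nat.even_pow]
    exact ⟨even_two, by omega⟩
  have h := Cfsg.Agent.Lib.PSLTwo.cent_comm hE hb' (fun _ => heven)
    (Subgroup.mem_centralizer_singleton_iff.2 (hab.map φ).eq)
    (Subgroup.mem_centralizer_singleton_iff.2 (hbc.symm.map φ).eq)
  exact hφ (by rw [map_mul, map_mul]; exact h)

/-- A finite non-abelian simple group in which commuting is a transitive relation on the non-identity elements (equivalently, every non-identity element has abelian centraliser) is isomorphic to PSL₂ over a field with 2^f elements for some f ≥ 2; conversely these groups have that property. -/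
theorem result {G : Type*} [Group G] [Finite G] [IsSimpleGroup G] (hG : ¬ IsMulCommutative G) :
    (∀ a b c : G, a ≠ 1 → b ≠ 1 → c ≠ 1 → Commute a b → Commute b c → Commute a c) ↔
    ∃ (F : Type) (_ : Field F) (_ : Fintype F) (f : ℕ), 2 ≤ f ∧ Fintype.card F = 2 ^ f ∧ Nonempty (G ≃* Matrix.ProjectiveSpecialLinearGroup (Fin 2) F) := by
  constructor
  · intro h
    exact Cfsg.Agent.Lib.LocalChar.CTSimple.main hG h
  · rintro ⟨F, _, _, f, hf, hF, ⟨e⟩⟩ a b c ha hb hc hab hbc
    exact ct_psl F f hf hF e a b c ha hb hc hab hbc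

end Cfsg.Agent.S5748
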