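import Cfsg.Statements.S5751
import Cfsg.Agent.Lib.Chev.CoreExample
import Cfsg.Agent.Lib.Chev.InvolOrthE8
import Cfsg.Agent.S1054
import Cfsg.Agent.S0311

set_option autoImplicit false
open Cfsg

namespace Cfsg.Agent.S5751

open Cfsg.Lie Cfsg.Agent.Lib Cfsg.Agent.Lib.Chev

theorem coreData : CoreData chevE8 E8.fast 3 [0, 173, 193, 213, 230, 234, 239] [0, 0, 152, 194, 214, 224, 235] :=
  ⟨InvolOrthE8.slData, by decide +kernel, by decide +kernel⟩

theorem zmod_two (t : ZMod 2) : t = 0 ∨ t = 1 := by revert t; decide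

/-- The example attached to a certified node. -/
theorem example_of {D : ChevalleyDatum} {T : Fast} {j : ℕ} {tops drops : List ℕ}
    (H : CoreData D T j tops drops) {F : Type} [Field F] [Finite F] [CharP F 2]
    (hF : ∀ t : F, t = 0 ∨ t = 1) (hS : IsSimpleGroup ↥(D.group F)) :
    ∃ (G : Type) (_ : Group G) (_ : Finite G) (M₁ M₂ : Subgroup G) (g : G) (A B : ℕ → Subgroup G),
      IsCoatom M₁ ∧ M₂ = M₁.map (MulAut.conj g).toMonoidHom ∧ M₁ ≠ M₂ ∧ M₁.normalCore = ⊥ ∧ A 0 = M₁ ∧ B 0 = M₂ ∧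
      (∀ i, A (i + 1) = ((A i ⊓ B i).subgroupOf M₁).normalCore.map M₁.subtype) ∧
      (∀ i, B (i + 1) = ((A i ⊓ B i).subgroupOf M₂).normalCore.map M₂.subtype) ∧ A 6 = ⊥ ∧ A 5 ≠ ⊥ := by
  classical
  have C := H.sld.chk
  let g : ↥(D.group F) := ⟨C.ng j, C.ng_mem_group H.hj⟩
  let A : ℕ → Subgroup ↥(D.group F) := fun i => (H.cs F i).subgroupOf (D.group F)
  let B : ℕ → Subgroup ↥(D.group F) := fun i => (A i).map (MulAut.conj g).toMonoidHom
  have hgi : g⁻¹ = g := Subtype.ext (H.sld.ng_inv_two j)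
  have hgg : g * g = 1 := by nth_rewrite 1 [← hgi]; exact inv_mul_cancel g
  have hB : ∀ i x, x ∈ B i ↔ g * x * g⁻¹ ∈ A i := by
    intro i x
    simp only [B, Subgroup.mem_map_equiv, MulAut.conj_symm_apply, hgi]
  have hPle : H.P F ≤ D.group F := C.parabolic_le_group _
  have hAle : ∀ i, A i ≤ A 0 := fun i x hx => H.cs_le_P i hx
  have hAsucc : ∀ i x, x ∈ A (i + 1) ↔ ∀ m ∈ A 0, m * x * m⁻¹ ∈ A i ⊓ B i := by
    intro i x
    constructor
    · intro hx m hm
      have := (H.mem_cs_succ).1 hx m hm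
      exact Subgroup.mem_inf.2 ⟨this.1, (hB i _).2 this.2⟩
    · intro h
      refine (H.mem_cs_succ).2 fun p hp => ?_
      obtain ⟨h1, h2⟩ := Subgroup.mem_inf.1 (h ⟨p, hPle hp⟩ hp)
      exact ⟨h1, (hB i _).1 h2⟩
  have core_mem : ∀ (M Y : Subgroup ↥(D.group F)) (x : ↥(D.group F)),
      x ∈ (Y.subgroupOf M).normalCore.map M.subtype ↔ x ∈ M ∧ ∀ m ∈ M, m * x * m⁻¹ ∈ Y := by
    intro M Y x
    constructor
    · rintro ⟨a, ha, rfl⟩
      exact ⟨a.2, fun m hm => ha ⟨m, hm⟩⟩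
    · rintro ⟨hx, h⟩
      exact ⟨⟨x, hx⟩, fun m => h m m.2, rfl⟩
  have hB0 : ∀ x, x ∈ B 0 ↔ g * x * g⁻¹ ∈ A 0 := hB 0
  have hcoat : IsCoatom (A 0) := by
    have hgn : g ∉ A 0 := (H.xg_neg_not_P hF).2
    refine ⟨fun h => hgn (h ▸ Subgroup.mem_top g), fun K hK => ?_⟩
    let P := C.bnPair F
    have hB' : P.B ≤ A 0 := fun x hx => Subgroup.mem_sup_left hx
    have hgen : P.B ⊔ Subgroup.closure P.S = ⊤ := by
      refine le_antisymm le_top (P.sup_eq_top ▸ sup_le le_sup_left (P.closure_sup ▸ ?_))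
      exact sup_le le_sup_right (inf_le_left.trans le_sup_left)
    have hKB : P.B ≤ K := hB'.trans hK.le
    by_cases hgK : g ∈ K
    · rw [eq_top_iff, ← hgen]
      refine sup_le hKB ((Subgroup.closure_le _).2 fun s hs => ?_)
      obtain ⟨i, hi, e⟩ := hs
      have es : (s : GL D.Idx F) = C.ng i := Units.ext (e.trans (C.val_ng i).symm)
      by_cases hij : i = j
      · subst hij
        rwa [show s = g from Subtype.ext es]
      · exact hK.le (show (s : GL D.Idx F) ∈ H.P F by rw [es]; exact H.ng_mem_P hi hij)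
    · exfalso
      obtain ⟨J, hJ, hKJ⟩ := Cfsg.Agent.S0311.result P K hKB
      refine hK.not_ge (hKJ ▸ sup_le hB' ((Subgroup.closure_le _).2 fun s hs => ?_))
      obtain ⟨i, hi, e⟩ := hJ hs
      have es : (s : GL D.Idx F) = C.ng i := Units.ext (e.trans (C.val_ng i).symm)
      by_cases hij : i = j
      · subst hij
        refine absurd ?_ hgK
        rw [← show s = g from Subtype.ext es, hKJ]
        exact Subgroup.mem_sup_right (Subgroup.subset_closure hs)
      · exact (show (s : GL D.Idx F) ∈ H.P F by rw [es]; exact H.ng_mem_P hi hij)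
  have hne : A 0 ≠ B 0 := by
    intro h
    have hp := C.root.pos_simple H.hj
    let x : ↥(D.group F) := ⟨C.xg (D.simple j) 1, C.xg_mem_group hp.1 1⟩
    have hx : x ∈ B 0 := h ▸ (H.pos_le_P (C.xg_mem_pos hp 1) : x ∈ A 0)
    have h2 : (C.ng j : GL D.Idx F) * C.xg (D.simple j) 1 * (C.ng j)⁻¹ ∈ H.P F := (hB0 x).1 hx
    rw [H.sld.ng_conj H.hj hp.1] at h2
    exact (H.xg_neg_not_P hF).1 h2
  refine ⟨↥(D.group F), inferInstance, inferInstance, A 0, B 0, g, A, B, hcoat, rfl, hne, ?_, rfl, rfl,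
    fun i => ?_, fun i => ?_, ?_, ?_⟩
  · haveI := hS
    refine ((Subgroup.normalCore_normal (A 0)).eq_bot_or_eq_top).resolve_right fun h => hcoat.1 ?_
    exact top_le_iff.1 (h ▸ Subgroup.normalCore_le (A 0))
  · ext x
    rw [core_mem, hAsucc]
    exact ⟨fun h => ⟨hAle (i + 1) ((hAsucc i x).2 h), h⟩, fun h => h.2⟩
  · ext x
    rw [core_mem, hB (i + 1), hAsucc]
    have key : ∀ m, g * (m * x * m⁻¹) * g⁻¹ = g * m * g⁻¹ * (g * x * g⁻¹) * (g * m * g⁻¹)⁻¹ := fun m => by
      group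
    have hgg' : ∀ y, g * (g * y * g⁻¹) * g⁻¹ = y := fun y => by
      rw [hgi, show g * (g * y * g) * g = (g * g) * y * (g * g) by group, hgg, one_mul, mul_one]
    have swap : ∀ y, g * y * g⁻¹ ∈ A i ⊓ B i ↔ y ∈ A i ⊓ B i := fun y => by
      rw [Subgroup.mem_inf, Subgroup.mem_inf, hB, hB, hgg']
      exact and_comm
    constructor
    · intro h
      refine ⟨(hB0 x).2 (hAle (i + 1) ((hAsucc i _).2 h)), fun m hm => ?_⟩
      rw [← swap, key]
      exact h _ ((hB0 m).1 hm)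
    · rintro ⟨-, h⟩ m hm
      have h2 := h (g * m * g⁻¹) ((hB0 _).2 (by rw [hgg']; exact hm))
      rw [← swap, key, hgg'] at h2
      exact h2
  · rw [Subgroup.eq_bot_iff_forall]
    intro x hx
    have h : (x : GL D.Idx F) ∈ (⊥ : Subgroup (GL D.Idx F)) := H.cs_six hF ▸ hx
    exact Subtype.ext (Subgroup.mem_bot.1 h)
  · intro h
    obtain ⟨x, hx, hxG, hne⟩ := H.cs_five hF
    have h2 : (⟨x, hxG⟩ : ↥(D.group F)) ∈ A 5 := hx
    rw [h, Subgroup.mem_bot] at h2
    exact hne (congrArg Subtype.val h2)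

/-- An extremal example for iterated cores of conjugate maximal subgroups: there exist a finite group G and two distinct conjugate maximal subgroups M₁, M₂ of G, with M₁ having trivial core in G, such that, if we define two descending sequences of subgroups by A₀ = M₁, B₀ = M₂ and, for every i, A_{i+1} = the core in M₁ of A_i ∩ B_i and B_{i+1} = the core in M₂ of A_i ∩ B_i (the core in M of a subgroup Y ≤ M is the largest normal subgroup of M contained in Y), the subgroup A₆ is trivial while A₅ is not (so the index 6 cannot be lowered to 5). (One example is a maximal parabolic subgroup of the Chevalley group of type E₈ over a finite field and a suitable conjugate of it.) -/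
theorem result :
    ∃ (G : Type) (_ : Group G) (_ : Finite G) (M₁ M₂ : Subgroup G) (g : G) (A B : ℕ → Subgroup G),
      IsCoatom M₁ ∧ M₂ = M₁.map (MulAut.conj g).toMonoidHom ∧ M₁ ≠ M₂ ∧ M₁.normalCore = ⊥ ∧ A 0 = M₁ ∧ B 0 = M₂ ∧
      (∀ i, A (i + 1) = ((A i ⊓ B i).subgroupOf M₁).normalCore.map M₁.subtype) ∧
      (∀ i, B (i + 1) = ((A i ⊓ B i).subgroupOf M₂).normalCore.map M₂.subtype) ∧ A 6 = ⊥ ∧ A 5 ≠ ⊥ :=
  example_of (F := ZMod 2) coreData zmod_two
    (Cfsg.Agent.S1054.result (F := ZMod 2) chevE8 (by simp)).1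

end Cfsg.Agent.S5751
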