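import Cfsg.Statements.S5752
import Cfsg.Agent.Lib.ThompsonWielandt.Main

set_option autoImplicit false
open Cfsg Cfsg.Agent
open scoped commutatorElement

namespace Cfsg.Agent.S5752

/-- A form of the Thompson–Wielandt Theorem on primitive permutation groups. Let G be a finite group and M₁, M₂ two distinct conjugate maximal subgroups of G with trivial core in G; define two descending sequences of subgroups by A₀ = M₁, B₀ = M₂ and, for every i, A_{i+1} = the core in M₁ of A_i ∩ B_i and B_{i+1} = the core in M₂ of A_i ∩ B_i (the core in M of a subgroup Y ≤ M is the largest normal subgroup of M contained in Y). If A₂ and B₂ are both non-trivial, then for some prime p the subgroup generated by A₂ and B₂ is a p-group, and for each j the generalized Fitting subgroups of M_j and of its first core (A₁, resp. B₁) are their largest normal p-subgroups. -/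
theorem result {G : Type*} [Group G] [Finite G] (M₁ M₂ : Subgroup G) (hmax : IsCoatom M₁) (g : G)
    (hconj : M₂ = M₁.map (MulAut.conj g).toMonoidHom) (hne : M₁ ≠ M₂) (hcore : M₁.normalCore = ⊥)
    (A B : ℕ → Subgroup G) (hA0 : A 0 = M₁) (hB0 : B 0 = M₂)
    (hA : ∀ i, A (i + 1) = ((A i ⊓ B i).subgroupOf M₁).normalCore.map M₁.subtype)
    (hB : ∀ i, B (i + 1) = ((A i ⊓ B i).subgroupOf M₂).normalCore.map M₂.subtype) (hA2 : A 2 ≠ ⊥) (hB2 : B 2 ≠ ⊥) :
    ∃ p : ℕ, p.Prime ∧ IsPGroup p ↥(A 2 ⊔ B 2) ∧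
      Cfsg.generalizedFittingSubgroup ↥M₁ = Cfsg.pCore p ↥M₁ ∧ Cfsg.generalizedFittingSubgroup ↥(A 1) = Cfsg.pCore p ↥(A 1) ∧
      Cfsg.generalizedFittingSubgroup ↥M₂ = Cfsg.pCore p ↥M₂ ∧ Cfsg.generalizedFittingSubgroup ↥(B 1) = Cfsg.pCore p ↥(B 1) := by
  have hN : IsCoatom M₂ := by
    rw [hconj]
    exact (MulEquiv.mapSubgroup (MulAut.conj g)).isCoatom_iff M₁ |>.2 hmax
  have hcoreN : M₂.normalCore = ⊥ := by
    refine le_bot_iff.1 (hcore ▸ Subgroup.normal_le_normalCore.2 fun x hx => ?_)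
    have h1 := Subgroup.normalCore_le M₂ ((Subgroup.normalCore_normal M₂).conj_mem x hx g)
    obtain ⟨y, hy, hyx⟩ := hconj ▸ h1
    have : y = x := (MulAut.conj g).injective (hyx.trans (by simp))
    exact this ▸ hy
  have h1A : A 1 = Lib.ThompsonWielandt.A1 M₁ M₂ := by
    rw [hA 0, hA0, hB0]; rfl
  have h1B : B 1 = Lib.ThompsonWielandt.A1 M₂ M₁ := by
    rw [hB 0, hA0, hB0, inf_comm M₁ M₂]; rfl
  have h2A : A 2 = Lib.ThompsonWielandt.A2 M₁ M₂ := by
    rw [hA 1, h1A, h1B]; rfl
  have h2B : B 2 = Lib.ThompsonWielandt.A2 M₂ M₁ := by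
    rw [hB 1, h1A, h1B, inf_comm (Lib.ThompsonWielandt.A1 M₁ M₂)]; rfl
  have hcard : ∀ t : ℕ, Nat.card ↥(Lib.Components.MaxLocal.locCore t M₁) =
      Nat.card ↥(Lib.Components.MaxLocal.locCore t M₂) := fun t => by
    rw [Lib.Components.MaxLocal.locCore, Lib.Components.MaxLocal.locCore,
      Subgroup.card_map_of_injective M₁.subtype_injective, Subgroup.card_map_of_injective M₂.subtype_injective]
    have key : ∀ {H K : Subgroup G} (e : ↥H ≃* ↥K), Nat.card ↥(Cfsg.pCore t ↥H) ≤ Nat.card ↥(Cfsg.pCore t ↥K) :=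
      fun {H K} e => by
        rw [← Subgroup.card_map_of_injective (K := Cfsg.pCore t ↥H) (f := e.toMonoidHom) e.injective]
        haveI := (Cfsg.pCore_normal t ↥H).map e.toMonoidHom e.surjective
        exact Subgroup.card_le_of_le (Lib.Components.le_pCore ((Lib.Components.pCore_isPGroup t).map _))
    let e := (M₁.equivMapOfInjective (MulAut.conj g).toMonoidHom (MulAut.conj g).injective).trans
      (MulEquiv.subgroupCongr hconj.symm)
    exact le_antisymm (key e) (key e.symm)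
  rw [h2A] at hA2 ⊢
  rw [h2B] at hB2 ⊢
  rw [h1A, h1B]
  obtain ⟨p, hp, h1, h2, h3, h4, h5⟩ :=
    Lib.ThompsonWielandt.main ⟨hmax, hN, hne, hcore, hcoreN, hcard, hA2, hB2⟩
  exact ⟨p, hp, h1, h2, h3, h4, h5⟩

end Cfsg.Agent.S5752
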