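import Cfsg.Statements.S5754
import Mathlib.LinearAlgebra.QuadraticForm.IsometryEquiv

set_option autoImplicit false
open Cfsg

namespace Cfsg.Agent.S5754

open QuadraticMap

variable {F V : Type*} [Field F] [AddCommGroup V] [Module F V]

theorem refl_aux (Q : QuadraticForm F V) (v : V) (hv : Q v ≠ 0) (w : V) :
    Q (w - ((Q v)⁻¹ * polar Q w v) • v) = Q w ∧
      polar Q (w - ((Q v)⁻¹ * polar Q w v) • v) v = - polar Q w v := by
  refine ⟨?_, ?_⟩
  · rw [sub_eq_add_neg, ← neg_smul, QuadraticMap.map_add (⇑Q), polar_smul_right, QuadraticMap.map_smul,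
      smul_eq_mul, smul_eq_mul]
    field_simp
    ring
  · rw [sub_eq_add_neg, ← neg_smul, polar_add_left, polar_smul_left, polar_self, smul_eq_mul, two_nsmul]
    field_simp
    ring

/-- The reflection in an anisotropic vector. -/
def refl (Q : QuadraticForm F V) (v : V) (hv : Q v ≠ 0) : Q.IsometryEquiv Q where
  toFun w := w - ((Q v)⁻¹ * polar Q w v) • v
  invFun w := w - ((Q v)⁻¹ * polar Q w v) • v
  map_add' x y := by rw [polar_add_left, mul_add, add_smul]; abel
  map_smul' c x := by rw [polar_smul_left, RingHom.id_apply, smul_eq_mul, smul_sub, smul_smul]; ring_nf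
  left_inv w := by
    show _ - ((Q v)⁻¹ * polar Q _ v) • v = w
    rw [(refl_aux Q v hv w).2, mul_neg, neg_smul, sub_neg_eq_add, sub_add_cancel]
  right_inv w := by
    show _ - ((Q v)⁻¹ * polar Q _ v) • v = w
    rw [(refl_aux Q v hv w).2, mul_neg, neg_smul, sub_neg_eq_add, sub_add_cancel]
  map_app' w := (refl_aux Q v hv w).1

theorem refl_apply (Q : QuadraticForm F V) (v : V) (hv : Q v ≠ 0) (w : V) :
    refl Q v hv w = w - ((Q v)⁻¹ * polar Q w v) • v := rfl

theorem Q_sub (Q : QuadraticForm F V) (x y : V) : Q (x - y) = Q x + Q y - polar Q x y := by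
  rw [sub_eq_add_neg, QuadraticMap.map_add (⇑Q), QuadraticMap.map_neg, polar_neg_right]
  ring

/-- Witt extension for an anisotropic form. -/
theorem extend {ι : Type*} [DecidableEq ι] (Q : QuadraticForm F V) (hQ : Q.Anisotropic) (x y : ι → V)
    (h1 : ∀ i, Q (x i) = Q (y i)) (h2 : ∀ i j, Q (x i - x j) = Q (y i - y j)) (S : Finset ι) :
    ∃ φ : Q.IsometryEquiv Q, ∀ i ∈ S, φ (x i) = y i := by
  induction S using Finset.induction_on with
  | empty => exact ⟨QuadraticMap.IsometryEquiv.refl Q, by simp⟩
  | insert a s ha ih =>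
    obtain ⟨φ, hφ⟩ := ih
    by_cases he : φ (x a) = y a
    · exact ⟨φ, fun i hi => (Finset.mem_insert.mp hi).elim (fun e => e ▸ he) (hφ i)⟩
    set z := φ (x a) with hz
    have hv : Q (z - y a) ≠ 0 := fun e => he (sub_eq_zero.mp (hQ _ e))
    have hQz : Q z = Q (y a) := by rw [hz, QuadraticMap.IsometryEquiv.map_app, h1]
    refine ⟨φ.trans (refl Q (z - y a) hv), fun i hi => ?_⟩
    show refl Q (z - y a) hv (φ (x i)) = y i
    rw [refl_apply]
    rcases Finset.mem_insert.mp hi with rfl | hi
    · rw [← hz]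
      have : polar Q z (z - y i) = Q (z - y i) := by
        rw [Q_sub, polar_sub_right, polar_self, two_nsmul, hQz]
      rw [this, inv_mul_cancel₀ hv, one_smul]
      abel
    · rw [hφ i hi]
      have hd : Q (z - y i) = Q (y a - y i) := by
        rw [← h2 a i, ← φ.map_app (x a - x i), ← hφ i hi, hz]
        exact congrArg Q (map_sub φ.toLinearEquiv (x a) (x i)).symm
      have : polar Q (y i) (z - y a) = 0 := by
        rw [Q_sub, Q_sub, hQz] at hd
        rw [polar_sub_right, polar_comm _ (y i) z, polar_comm _ (y i) (y a)]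
        linear_combination -hd
      rw [this, mul_zero, zero_smul, sub_zero]

/-- Let V be a finite-dimensional vector space over a finite field F carrying an anisotropic quadratic form Q (Q(v) = 0 only for v = 0). Then the group of all maps v ↦ φ(v) + c, with φ an isometry of Q and c ∈ V, acts on V as a binary permutation group: given n ≥ 2 and two n-tuples u, u' of vectors such that every pair of corresponding entries of u is carried to that of u' by such a map, one such map carries u to u'. -/
theorem result {F V : Type*} [Field F] [Finite F] [AddCommGroup V] [Module F V] [Module.Finite F V]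
    (Q : QuadraticForm F V) (hQ : Q.Anisotropic) (n : ℕ) (hn : 2 ≤ n) (u u' : Fin n → V)
    (h2 : ∀ i j : Fin n, i ≠ j → ∃ (φ : Q.IsometryEquiv Q) (c : V), φ (u i) + c = u' i ∧ φ (u j) + c = u' j) :
    ∃ (φ : Q.IsometryEquiv Q) (c : V), ∀ i, φ (u i) + c = u' i := by
  classical
  obtain ⟨i₀⟩ : Nonempty (Fin n) := ⟨⟨0, by omega⟩⟩
  have hd : ∀ i j, Q (u i - u j) = Q (u' i - u' j) := by
    intro i j
    by_cases h : i = j
    · subst h; simp
    obtain ⟨φ, c, hi, hj⟩ := h2 i j h
    rw [← hi, ← hj, add_sub_add_right_eq_sub, ← φ.map_app (u i - u j)]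
    exact congrArg Q (map_sub φ.toLinearEquiv (u i) (u j))
  obtain ⟨φ, hφ⟩ := extend Q hQ (fun i => u i - u i₀) (fun i => u' i - u' i₀)
    (fun i => hd i i₀) (fun i j => by simpa using hd i j) Finset.univ
  refine ⟨φ, u' i₀ - φ (u i₀), fun i => ?_⟩
  have h := hφ i (Finset.mem_univ _)
  have h' : φ (u i) - φ (u i₀) = u' i - u' i₀ := (map_sub φ.toLinearEquiv (u i) (u i₀)).symm.trans h
  rw [← add_left_inj (u' i₀)] at h'
  simp only [sub_add_cancel] at h'
  rw [← h']
  abel

end Cfsg.Agent.S5754
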