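import Cfsg.Statements.S5763
import Mathlib.GroupTheory.Perm.Sign
import Mathlib.GroupTheory.Sylow
import Mathlib.Data.List.GetD

set_option autoImplicit false
open Cfsg

namespace Cfsg.Agent.S5763

open Equiv

/-- Generators of a Sylow 2-subgroup. -/
def gK : List (List ℕ) := [[1, 0, 2, 3, 4, 5, 6, 7], [2, 3, 0, 1, 4, 5, 6, 7], [4, 5, 6, 7, 0, 1, 2, 3]]

/-- Adjacent transpositions. -/
def gS : List (List ℕ) := [[1, 0, 2, 3, 4, 5, 6, 7], [0, 2, 1, 3, 4, 5, 6, 7], [0, 1, 3, 2, 4, 5, 6, 7], [0, 1, 2, 4, 3, 5, 6, 7], [0, 1, 2, 3, 5, 4, 6, 7], [0, 1, 2, 3, 4, 6, 5, 7], [0, 1, 2, 3, 4, 5, 7, 6]]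

/-- Evaluation of a word in a list of permutations. -/
def ev (gs : List (List ℕ)) : List ℕ → List ℕ
  | [] => [0, 1, 2, 3, 4, 5, 6, 7]
  | i :: w => (ev gs w).map ((gs.getD i []).getD · 0)

/-- Composition. -/
def cmp (g h : List ℕ) : List ℕ := h.map (g.getD · 0)

/-- Words for the subgroup. -/
def wK : List (List ℕ) :=
  [[], [0], [1], [2], [1,0], [2,0], [0,1], [2,1],
    [0,2], [1,2], [0,1,0], [2,1,0], [0,2,0], [1,2,0], [1,0,1], [2,0,1],
    [0,2,1], [1,2,1], [1,0,2], [2,0,2], [0,1,2], [2,1,2], [1,0,1,0], [2,0,1,0],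
    [0,2,1,0], [1,2,1,0], [1,0,2,0], [2,0,2,0], [0,1,2,0], [2,1,2,0], [2,1,0,1], [0,2,0,1],
    [1,2,0,1], [1,0,2,1], [2,0,2,1], [0,1,2,1], [2,1,2,1], [0,1,0,2], [2,1,0,2], [1,0,1,2],
    [2,0,1,2], [2,1,0,1,0], [0,2,0,1,0], [1,2,0,1,0], [1,0,2,1,0], [2,0,2,1,0], [0,1,2,1,0], [2,1,2,1,0],
    [0,1,0,2,0], [2,1,0,2,0], [1,0,1,2,0], [2,0,1,2,0], [0,2,1,0,1], [1,2,1,0,1], [1,0,2,0,1], [2,0,2,0,1],
    [0,1,2,0,1], [2,1,2,0,1], [0,1,0,2,1], [2,1,0,2,1], [1,0,1,2,1], [2,0,1,2,1], [1,0,1,0,2], [2,0,1,0,2],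
    [2,1,0,1,2], [0,2,1,0,1,0], [1,2,1,0,1,0], [1,0,2,0,1,0], [2,0,2,0,1,0], [0,1,2,0,1,0], [2,1,2,0,1,0], [0,1,0,2,1,0],
    [2,1,0,2,1,0], [1,0,1,2,1,0], [2,0,1,2,1,0], [1,0,1,0,2,0], [2,0,1,0,2,0], [2,1,0,1,2,0], [1,0,2,1,0,1], [2,0,2,1,0,1],
    [0,1,2,1,0,1], [2,1,2,1,0,1], [0,1,0,2,0,1], [2,1,0,2,0,1], [1,0,1,2,0,1], [2,0,1,2,0,1], [1,0,1,0,2,1], [2,0,1,0,2,1],
    [2,1,0,1,2,1], [2,1,0,1,0,2], [1,0,2,1,0,1,0], [2,0,2,1,0,1,0], [0,1,2,1,0,1,0], [2,1,2,1,0,1,0], [0,1,0,2,0,1,0], [2,1,0,2,0,1,0],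
    [1,0,1,2,0,1,0], [2,0,1,2,0,1,0], [1,0,1,0,2,1,0], [2,0,1,0,2,1,0], [2,1,0,1,2,1,0], [2,1,0,1,0,2,0], [0,1,0,2,1,0,1], [2,1,0,2,1,0,1],
    [1,0,1,2,1,0,1], [2,0,1,2,1,0,1], [1,0,1,0,2,0,1], [2,0,1,0,2,0,1], [2,1,0,1,2,0,1], [2,1,0,1,0,2,1], [0,1,0,2,1,0,1,0], [2,1,0,2,1,0,1,0],
    [1,0,1,2,1,0,1,0], [2,0,1,2,1,0,1,0], [1,0,1,0,2,0,1,0], [2,0,1,0,2,0,1,0], [2,1,0,1,2,0,1,0], [2,1,0,1,0,2,1,0], [1,0,1,0,2,1,0,1], [2,0,1,0,2,1,0,1],
    [2,1,0,1,2,1,0,1], [2,1,0,1,0,2,0,1], [1,0,1,0,2,1,0,1,0], [2,0,1,0,2,1,0,1,0], [2,1,0,1,2,1,0,1,0], [2,1,0,1,0,2,0,1,0], [2,1,0,1,0,2,1,0,1], [2,1,0,1,0,2,1,0,1,0]]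

/-- Multiplication table. -/
def tK : List (List ℕ) :=
  [[1,2,3], [0,4,5], [6,0,7], [8,9,0], [10,1,11], [12,13,1], [2,14,15], [16,17,2],
    [3,18,19], [20,3,21], [4,22,23], [24,25,4], [5,26,27], [28,5,29], [22,6,30], [31,32,6],
    [7,33,34], [35,7,36], [37,8,38], [27,34,8], [9,39,40], [29,36,9], [14,10,41], [42,43,10],
    [11,44,45], [46,11,47], [48,12,49], [19,45,12], [13,50,51], [21,47,13], [52,53,14], [15,54,55],
    [56,15,57], [58,16,59], [55,19,16], [17,60,61], [57,21,17], [18,62,63], [49,59,18], [62,20,64],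
    [51,61,20], [65,66,22], [23,67,68], [69,23,70], [71,24,72], [68,27,24], [25,73,74], [70,29,25],
    [26,75,76], [38,72,26], [75,28,77], [40,74,28], [30,78,79], [80,30,81], [82,31,83], [34,79,31],
    [32,84,85], [36,81,32], [33,86,87], [83,38,33], [86,35,88], [85,40,35], [39,37,89], [76,87,37],
    [77,88,39], [41,90,91], [92,41,93], [94,42,95], [45,91,42], [43,96,97], [47,93,43], [44,98,99],
    [95,49,44], [98,46,100], [97,51,46], [50,48,101], [63,99,48], [64,100,50], [102,52,103], [91,55,52],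
    [53,104,105], [93,57,53], [54,106,107], [59,103,54], [106,56,108], [61,105,56], [60,58,109], [107,63,58],
    [108,64,60], [101,109,62], [110,65,111], [79,68,65], [66,112,113], [81,70,66], [67,114,115], [72,111,67],
    [114,69,116], [74,113,69], [73,71,117], [115,76,71], [116,77,73], [89,117,75], [78,118,119], [111,83,78],
    [118,80,120], [113,85,80], [84,82,121], [87,119,82], [88,120,84], [121,89,86], [90,122,123], [103,95,90],
    [122,92,124], [105,97,92], [96,94,125], [99,123,94], [100,124,96], [125,101,98], [104,102,126], [123,107,102],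
    [124,108,104], [109,126,106], [112,110,127], [119,115,110], [120,116,112], [117,127,114], [127,121,118], [126,125,122]]

/-- Coset representatives. -/
def wR : List (List ℕ) :=
  [[], [1], [3], [5], [0,1], [3,1], [5,1], [2,3],
    [4,3], [5,3], [4,5], [3,0,1], [5,0,1], [2,3,1], [4,3,1], [5,3,1],
    [4,5,1], [1,2,3], [4,2,3], [5,2,3], [5,4,3], [4,5,3], [6,5,3], [2,3,0,1],
    [4,3,0,1], [5,3,0,1], [4,5,0,1], [1,2,3,1], [4,2,3,1], [5,2,3,1], [5,4,3,1], [4,5,3,1],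
    [6,5,3,1], [0,1,2,3], [4,1,2,3], [5,1,2,3], [3,4,2,3], [5,4,2,3], [4,5,2,3], [6,5,2,3],
    [4,5,4,3], [6,5,4,3], [3,4,5,3], [1,2,3,0,1], [4,2,3,0,1], [5,2,3,0,1], [5,4,3,0,1], [4,5,3,0,1],
    [6,5,3,0,1], [0,1,2,3,1], [4,1,2,3,1], [5,1,2,3,1], [3,4,2,3,1], [5,4,2,3,1], [4,5,2,3,1], [6,5,2,3,1],
    [4,5,4,3,1], [6,5,4,3,1], [3,4,5,3,1], [4,0,1,2,3], [5,0,1,2,3], [3,4,1,2,3], [5,4,1,2,3], [4,5,1,2,3],
    [6,5,1,2,3], [5,3,4,2,3], [4,5,4,2,3], [6,5,4,2,3], [3,4,5,2,3], [6,4,5,2,3], [3,4,5,4,3], [6,4,5,4,3],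
    [0,1,2,3,0,1], [4,1,2,3,0,1], [5,1,2,3,0,1], [3,4,2,3,0,1], [5,4,2,3,0,1], [4,5,2,3,0,1], [6,5,2,3,0,1], [4,5,4,3,0,1],
    [6,5,4,3,0,1], [3,4,5,3,0,1], [4,0,1,2,3,1], [5,0,1,2,3,1], [3,4,1,2,3,1], [5,4,1,2,3,1], [4,5,1,2,3,1], [6,5,1,2,3,1],
    [5,3,4,2,3,1], [4,5,4,2,3,1], [6,5,4,2,3,1], [3,4,5,2,3,1], [6,4,5,2,3,1], [3,4,5,4,3,1], [6,4,5,4,3,1], [3,4,0,1,2,3],
    [5,4,0,1,2,3], [4,5,0,1,2,3], [6,5,0,1,2,3], [2,3,4,1,2,3], [5,3,4,1,2,3], [4,5,4,1,2,3], [6,5,4,1,2,3], [3,4,5,1,2,3],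
    [6,4,5,1,2,3], [4,5,3,4,2,3], [6,5,3,4,2,3], [3,4,5,4,2,3], [6,4,5,4,2,3], [2,3,4,5,2,3], [5,6,4,5,2,3], [6,3,4,5,4,3],
    [4,0,1,2,3,0,1], [5,0,1,2,3,0,1], [3,4,1,2,3,0,1], [5,4,1,2,3,0,1], [4,5,1,2,3,0,1], [6,5,1,2,3,0,1], [5,3,4,2,3,0,1], [4,5,4,2,3,0,1],
    [6,5,4,2,3,0,1], [3,4,5,2,3,0,1], [6,4,5,2,3,0,1], [3,4,5,4,3,0,1], [6,4,5,4,3,0,1], [3,4,0,1,2,3,1], [5,4,0,1,2,3,1], [4,5,0,1,2,3,1],
    [6,5,0,1,2,3,1], [2,3,4,1,2,3,1], [5,3,4,1,2,3,1], [4,5,4,1,2,3,1], [6,5,4,1,2,3,1], [3,4,5,1,2,3,1], [6,4,5,1,2,3,1], [4,5,3,4,2,3,1],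
    [6,5,3,4,2,3,1], [3,4,5,4,2,3,1], [6,4,5,4,2,3,1], [2,3,4,5,2,3,1], [5,6,4,5,2,3,1], [6,3,4,5,4,3,1], [2,3,4,0,1,2,3], [5,3,4,0,1,2,3],
    [4,5,4,0,1,2,3], [6,5,4,0,1,2,3], [3,4,5,0,1,2,3], [6,4,5,0,1,2,3], [5,2,3,4,1,2,3], [4,5,3,4,1,2,3], [6,5,3,4,1,2,3], [3,4,5,4,1,2,3],
    [6,4,5,4,1,2,3], [2,3,4,5,1,2,3], [6,3,4,5,1,2,3], [5,6,4,5,1,2,3], [3,4,5,3,4,2,3], [6,4,5,3,4,2,3], [2,3,4,5,4,2,3], [6,3,4,5,4,2,3],
    [5,6,4,5,4,2,3], [3,4,0,1,2,3,0,1], [5,4,0,1,2,3,0,1], [4,5,0,1,2,3,0,1], [6,5,0,1,2,3,0,1], [2,3,4,1,2,3,0,1], [5,3,4,1,2,3,0,1], [4,5,4,1,2,3,0,1],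
    [6,5,4,1,2,3,0,1], [3,4,5,1,2,3,0,1], [6,4,5,1,2,3,0,1], [4,5,3,4,2,3,0,1], [6,5,3,4,2,3,0,1], [3,4,5,4,2,3,0,1], [6,4,5,4,2,3,0,1], [2,3,4,5,2,3,0,1],
    [5,6,4,5,2,3,0,1], [6,3,4,5,4,3,0,1], [2,3,4,0,1,2,3,1], [5,3,4,0,1,2,3,1], [4,5,4,0,1,2,3,1], [6,5,4,0,1,2,3,1], [3,4,5,0,1,2,3,1], [6,4,5,0,1,2,3,1],
    [5,2,3,4,1,2,3,1], [4,5,3,4,1,2,3,1], [6,5,3,4,1,2,3,1], [3,4,5,4,1,2,3,1], [6,4,5,4,1,2,3,1], [2,3,4,5,1,2,3,1], [6,3,4,5,1,2,3,1], [5,6,4,5,1,2,3,1],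
    [3,4,5,3,4,2,3,1], [6,4,5,3,4,2,3,1], [2,3,4,5,4,2,3,1], [6,3,4,5,4,2,3,1], [5,6,4,5,4,2,3,1], [1,2,3,4,0,1,2,3], [5,2,3,4,0,1,2,3], [4,5,3,4,0,1,2,3],
    [6,5,3,4,0,1,2,3], [3,4,5,4,0,1,2,3], [6,4,5,4,0,1,2,3], [2,3,4,5,0,1,2,3], [6,3,4,5,0,1,2,3], [5,6,4,5,0,1,2,3], [3,4,5,3,4,1,2,3], [2,3,4,5,4,1,2,3],
    [6,3,4,5,4,1,2,3], [5,6,4,5,4,1,2,3], [1,2,3,4,5,1,2,3], [5,6,3,4,5,1,2,3], [2,3,4,5,3,4,2,3], [6,3,4,5,3,4,2,3], [6,2,3,4,5,4,2,3], [2,3,4,0,1,2,3,0,1],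
    [5,3,4,0,1,2,3,0,1], [4,5,4,0,1,2,3,0,1], [6,5,4,0,1,2,3,0,1], [3,4,5,0,1,2,3,0,1], [6,4,5,0,1,2,3,0,1], [5,2,3,4,1,2,3,0,1], [4,5,3,4,1,2,3,0,1], [6,5,3,4,1,2,3,0,1],
    [3,4,5,4,1,2,3,0,1], [6,4,5,4,1,2,3,0,1], [2,3,4,5,1,2,3,0,1], [6,3,4,5,1,2,3,0,1], [5,6,4,5,1,2,3,0,1], [3,4,5,3,4,2,3,0,1], [6,4,5,3,4,2,3,0,1], [2,3,4,5,4,2,3,0,1],
    [6,3,4,5,4,2,3,0,1], [5,6,4,5,4,2,3,0,1], [1,2,3,4,0,1,2,3,1], [5,2,3,4,0,1,2,3,1], [4,5,3,4,0,1,2,3,1], [6,5,3,4,0,1,2,3,1], [3,4,5,4,0,1,2,3,1], [6,4,5,4,0,1,2,3,1],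
    [2,3,4,5,0,1,2,3,1], [6,3,4,5,0,1,2,3,1], [5,6,4,5,0,1,2,3,1], [4,5,2,3,4,1,2,3,1], [6,5,2,3,4,1,2,3,1], [3,4,5,3,4,1,2,3,1], [6,4,5,3,4,1,2,3,1], [2,3,4,5,4,1,2,3,1],
    [6,3,4,5,4,1,2,3,1], [5,6,4,5,4,1,2,3,1], [1,2,3,4,5,1,2,3,1], [5,6,3,4,5,1,2,3,1], [2,3,4,5,3,4,2,3,1], [6,3,4,5,3,4,2,3,1], [5,6,4,5,3,4,2,3,1], [6,2,3,4,5,4,2,3,1],
    [5,6,4,5,4,0,1,2,3], [6,2,3,4,5,0,1,2,3], [5,6,3,4,5,0,1,2,3], [1,2,3,4,5,4,1,2,3], [5,6,3,4,5,4,1,2,3], [4,5,6,3,4,5,1,2,3], [6,2,3,4,5,3,4,2,3], [1,2,3,4,0,1,2,3,0,1],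
    [5,2,3,4,0,1,2,3,0,1], [4,5,3,4,0,1,2,3,0,1], [6,5,3,4,0,1,2,3,0,1], [3,4,5,4,0,1,2,3,0,1], [6,4,5,4,0,1,2,3,0,1], [2,3,4,5,0,1,2,3,0,1], [6,3,4,5,0,1,2,3,0,1], [5,6,4,5,0,1,2,3,0,1],
    [4,5,2,3,4,1,2,3,0,1], [6,5,2,3,4,1,2,3,0,1], [3,4,5,3,4,1,2,3,0,1], [6,4,5,3,4,1,2,3,0,1], [2,3,4,5,4,1,2,3,0,1], [6,3,4,5,4,1,2,3,0,1], [5,6,4,5,4,1,2,3,0,1], [1,2,3,4,5,1,2,3,0,1],
    [5,6,3,4,5,1,2,3,0,1], [2,3,4,5,3,4,2,3,0,1], [6,3,4,5,3,4,2,3,0,1], [5,6,4,5,3,4,2,3,0,1], [6,2,3,4,5,4,2,3,0,1], [3,4,5,3,4,0,1,2,3,1], [2,3,4,5,4,0,1,2,3,1], [6,3,4,5,4,0,1,2,3,1],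
    [5,6,4,5,4,0,1,2,3,1], [1,2,3,4,5,0,1,2,3,1], [6,2,3,4,5,0,1,2,3,1], [5,6,3,4,5,0,1,2,3,1], [1,2,3,4,5,4,1,2,3,1], [5,6,3,4,5,4,1,2,3,1], [4,5,6,3,4,5,1,2,3,1], [6,2,3,4,5,3,4,2,3,1],
    [3,4,5,3,4,0,1,2,3,0,1], [2,3,4,5,4,0,1,2,3,0,1], [6,3,4,5,4,0,1,2,3,0,1], [5,6,4,5,4,0,1,2,3,0,1], [1,2,3,4,5,0,1,2,3,0,1], [6,2,3,4,5,0,1,2,3,0,1], [5,6,3,4,5,0,1,2,3,0,1], [2,3,4,5,3,4,1,2,3,0,1],
    [6,3,4,5,3,4,1,2,3,0,1], [1,2,3,4,5,4,1,2,3,0,1], [6,2,3,4,5,4,1,2,3,0,1], [5,6,3,4,5,4,1,2,3,0,1], [4,5,6,3,4,5,1,2,3,0,1], [6,2,3,4,5,3,4,2,3,0,1], [5,6,3,4,5,3,4,2,3,0,1], [5,6,3,4,5,4,0,1,2,3,0,1],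
    [0,1,2,3,4,5,0,1,2,3,0,1], [5,6,2,3,4,5,0,1,2,3,0,1], [4,5,6,3,4,5,0,1,2,3,0,1]]

/-- Coset table. -/
def tR : List (List (ℕ × ℕ)) :=
  [[(0,1),(1,0),(0,14),(2,0),(0,19),(3,0),(0,64)], [(4,0),(0,0),(4,2),(5,0),(1,19),(6,0),(1,64)], [(2,1),(5,0),(7,0),(0,0),(8,0),(9,0),(2,64)], [(3,1),(6,0),(3,14),(9,0),(10,0),(0,0),(10,21)], [(1,0),(4,1),(1,2),(11,0),(4,19),(12,0),(4,64)], [(11,0),(2,0),(13,0),(1,0),(14,0),(15,0),(5,64)], [(12,0),(3,0),(12,2),(15,0),(16,0),(1,0),(16,21)], [(7,1),(17,0),(2,0),(7,14),(18,0),(19,0),(7,64)],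
    [(8,1),(14,0),(18,0),(8,19),(2,0),(20,0),(8,64)], [(9,1),(15,0),(19,0),(3,0),(21,0),(2,0),(22,0)], [(10,1),(16,0),(10,14),(22,21),(3,0),(10,19),(3,21)], [(5,0),(11,1),(23,0),(4,0),(24,0),(25,0),(11,64)], [(6,0),(12,1),(6,2),(25,0),(26,0),(4,0),(26,21)], [(23,0),(27,0),(5,0),(23,2),(28,0),(29,0),(13,64)], [(24,0),(8,0),(28,0),(14,19),(5,0),(30,0),(14,64)], [(25,0),(9,0),(29,0),(6,0),(31,0),(5,0),(32,0)],
    [(26,0),(10,0),(26,2),(32,21),(6,0),(16,19),(6,21)], [(33,0),(7,0),(27,0),(17,14),(34,0),(35,0),(17,64)], [(18,1),(34,0),(8,0),(36,0),(7,0),(37,0),(18,64)], [(19,1),(35,0),(9,0),(19,14),(38,0),(7,0),(39,0)], [(20,1),(30,0),(37,0),(20,19),(40,0),(8,0),(41,0)], [(21,1),(31,0),(38,0),(42,0),(9,0),(40,0),(42,21)], [(22,1),(32,0),(39,0),(10,21),(42,21),(22,64),(9,0)], [(13,0),(43,0),(11,0),(13,2),(44,0),(45,0),(23,64)],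
    [(14,0),(24,1),(44,0),(24,19),(11,0),(46,0),(24,64)], [(15,0),(25,1),(45,0),(12,0),(47,0),(11,0),(48,0)], [(16,0),(26,1),(16,2),(48,21),(12,0),(26,19),(12,21)], [(49,0),(13,0),(17,0),(43,2),(50,0),(51,0),(27,64)], [(44,0),(50,0),(14,0),(52,0),(13,0),(53,0),(28,64)], [(45,0),(51,0),(15,0),(45,2),(54,0),(13,0),(55,0)], [(46,0),(20,0),(53,0),(30,19),(56,0),(14,0),(57,0)], [(47,0),(21,0),(54,0),(58,0),(15,0),(56,0),(58,21)],
    [(48,0),(22,0),(55,0),(16,21),(58,21),(32,64),(15,0)], [(17,0),(33,1),(49,0),(33,14),(59,0),(60,0),(33,64)], [(59,0),(18,0),(50,0),(61,0),(17,0),(62,0),(34,64)], [(60,0),(19,0),(51,0),(35,14),(63,0),(17,0),(64,0)], [(36,1),(61,0),(36,19),(18,0),(36,14),(65,0),(36,64)], [(37,1),(62,0),(20,0),(65,0),(66,0),(18,0),(67,0)], [(38,1),(63,0),(21,0),(68,0),(19,0),(66,0),(69,0)], [(39,1),(64,0),(22,0),(39,14),(69,0),(39,64),(19,0)],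
    [(40,1),(56,0),(66,0),(70,0),(20,0),(21,0),(71,0)], [(41,1),(57,0),(67,0),(41,19),(71,0),(41,64),(20,0)], [(42,1),(58,0),(69,21),(21,0),(22,21),(70,0),(21,21)], [(72,0),(23,0),(43,1),(27,2),(73,0),(74,0),(43,64)], [(28,0),(73,0),(24,0),(75,0),(23,0),(76,0),(44,64)], [(29,0),(74,0),(25,0),(29,2),(77,0),(23,0),(78,0)], [(30,0),(46,1),(76,0),(46,19),(79,0),(24,0),(80,0)], [(31,0),(47,1),(77,0),(81,0),(25,0),(79,0),(81,21)],
    [(32,0),(48,1),(78,0),(26,21),(81,21),(48,64),(25,0)], [(27,0),(72,0),(33,0),(72,2),(82,0),(83,0),(49,64)], [(82,0),(28,0),(34,0),(84,0),(27,0),(85,0),(50,64)], [(83,0),(29,0),(35,0),(74,2),(86,0),(27,0),(87,0)], [(75,0),(84,0),(52,19),(28,0),(75,2),(88,0),(52,64)], [(76,0),(85,0),(30,0),(88,0),(89,0),(28,0),(90,0)], [(77,0),(86,0),(31,0),(91,0),(29,0),(89,0),(92,0)], [(78,0),(87,0),(32,0),(78,2),(92,0),(55,64),(29,0)],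
    [(79,0),(40,0),(89,0),(93,0),(30,0),(31,0),(94,0)], [(80,0),(41,0),(90,0),(57,19),(94,0),(57,64),(30,0)], [(81,0),(42,0),(92,21),(31,0),(32,21),(93,0),(31,21)], [(34,0),(59,1),(82,0),(95,0),(33,0),(96,0),(59,64)], [(35,0),(60,1),(83,0),(60,14),(97,0),(33,0),(98,0)], [(95,0),(36,0),(99,0),(34,0),(61,14),(100,0),(61,64)], [(96,0),(37,0),(85,0),(100,0),(101,0),(34,0),(102,0)], [(97,0),(38,0),(86,0),(103,0),(35,0),(101,0),(104,0)],
    [(98,0),(39,0),(87,0),(64,14),(104,0),(64,64),(35,0)], [(65,1),(100,0),(65,19),(37,0),(105,0),(36,0),(106,0)], [(66,1),(101,0),(40,0),(107,0),(37,0),(38,0),(108,0)], [(67,1),(102,0),(41,0),(106,0),(108,0),(67,64),(37,0)], [(68,1),(103,0),(109,0),(38,0),(68,14),(107,0),(109,21)], [(69,1),(104,0),(42,21),(109,21),(39,0),(110,0),(38,0)], [(70,1),(93,0),(110,21),(40,0),(70,19),(42,0),(111,0)], [(71,1),(94,0),(108,0),(111,0),(41,0),(111,21),(40,0)],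
    [(43,0),(49,0),(72,1),(49,2),(112,0),(113,0),(72,64)], [(112,0),(44,0),(73,1),(114,0),(43,0),(115,0),(73,64)], [(113,0),(45,0),(74,1),(51,2),(116,0),(43,0),(117,0)], [(52,0),(114,0),(75,19),(44,0),(52,2),(118,0),(75,64)], [(53,0),(115,0),(46,0),(118,0),(119,0),(44,0),(120,0)], [(54,0),(116,0),(47,0),(121,0),(45,0),(119,0),(122,0)], [(55,0),(117,0),(48,0),(55,2),(122,0),(78,64),(45,0)], [(56,0),(79,1),(119,0),(123,0),(46,0),(47,0),(124,0)],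
    [(57,0),(80,1),(120,0),(80,19),(124,0),(80,64),(46,0)], [(58,0),(81,1),(122,21),(47,0),(48,21),(123,0),(47,21)], [(50,0),(112,0),(59,0),(125,0),(49,0),(126,0),(82,64)], [(51,0),(113,0),(60,0),(113,2),(127,0),(49,0),(128,0)], [(125,0),(52,0),(129,0),(50,0),(114,2),(130,0),(84,64)], [(126,0),(53,0),(62,0),(130,0),(131,0),(50,0),(132,0)], [(127,0),(54,0),(63,0),(133,0),(51,0),(131,0),(134,0)], [(128,0),(55,0),(64,0),(117,2),(134,0),(87,64),(51,0)],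
    [(118,0),(130,0),(88,19),(53,0),(135,0),(52,0),(136,0)], [(119,0),(131,0),(56,0),(137,0),(53,0),(54,0),(138,0)], [(120,0),(132,0),(57,0),(136,0),(138,0),(90,64),(53,0)], [(121,0),(133,0),(139,0),(54,0),(121,2),(137,0),(139,21)], [(122,0),(134,0),(58,21),(139,21),(55,0),(140,0),(54,0)], [(123,0),(70,0),(140,21),(56,0),(93,19),(58,0),(141,0)], [(124,0),(71,0),(138,0),(141,0),(57,0),(141,21),(56,0)], [(61,0),(95,1),(142,0),(59,0),(95,14),(143,0),(95,64)],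
    [(62,0),(96,1),(126,0),(143,0),(144,0),(59,0),(145,0)], [(63,0),(97,1),(127,0),(146,0),(60,0),(144,0),(147,0)], [(64,0),(98,1),(128,0),(98,14),(147,0),(98,64),(60,0)], [(142,0),(99,19),(61,0),(129,0),(99,14),(148,0),(99,64)], [(143,0),(65,0),(148,0),(62,0),(149,0),(61,0),(150,0)], [(144,0),(66,0),(131,0),(151,0),(62,0),(63,0),(152,0)], [(145,0),(67,0),(132,0),(150,0),(152,0),(102,64),(62,0)], [(146,0),(68,0),(153,0),(63,0),(103,14),(151,0),(154,0)],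
    [(147,0),(69,0),(134,0),(154,0),(64,0),(155,0),(63,0)], [(105,1),(149,0),(105,19),(156,0),(65,0),(105,14),(157,0)], [(106,1),(150,0),(106,19),(67,0),(157,0),(106,64),(65,0)], [(107,1),(151,0),(158,0),(66,0),(156,0),(68,0),(159,0)], [(108,1),(152,0),(71,0),(159,0),(67,0),(160,0),(66,0)], [(109,1),(154,21),(68,0),(69,21),(109,14),(158,0),(68,21)], [(110,1),(155,0),(70,21),(158,21),(110,64),(69,0),(160,0)], [(111,1),(141,0),(160,21),(71,0),(111,19),(71,21),(70,0)],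
    [(73,0),(82,0),(112,1),(161,0),(72,0),(162,0),(112,64)], [(74,0),(83,0),(113,1),(83,2),(163,0),(72,0),(164,0)], [(161,0),(75,0),(165,0),(73,0),(84,2),(166,0),(114,64)], [(162,0),(76,0),(115,1),(166,0),(167,0),(73,0),(168,0)], [(163,0),(77,0),(116,1),(169,0),(74,0),(167,0),(170,0)], [(164,0),(78,0),(117,1),(87,2),(170,0),(117,64),(74,0)], [(88,0),(166,0),(118,19),(76,0),(171,0),(75,0),(172,0)], [(89,0),(167,0),(79,0),(173,0),(76,0),(77,0),(174,0)],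
    [(90,0),(168,0),(80,0),(172,0),(174,0),(120,64),(76,0)], [(91,0),(169,0),(175,0),(77,0),(91,2),(173,0),(175,21)], [(92,0),(170,0),(81,21),(175,21),(78,0),(176,0),(77,0)], [(93,0),(123,1),(176,21),(79,0),(123,19),(81,0),(177,0)], [(94,0),(124,1),(174,0),(177,0),(80,0),(177,21),(79,0)], [(84,0),(161,0),(178,0),(82,0),(161,2),(179,0),(125,64)], [(85,0),(162,0),(96,0),(179,0),(180,0),(82,0),(181,0)], [(86,0),(163,0),(97,0),(182,0),(83,0),(180,0),(183,0)],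
    [(87,0),(164,0),(98,0),(164,2),(183,0),(128,64),(83,0)], [(178,0),(129,19),(84,0),(99,0),(165,2),(184,0),(129,64)], [(179,0),(88,0),(184,0),(85,0),(185,0),(84,0),(186,0)], [(180,0),(89,0),(101,0),(187,0),(85,0),(86,0),(188,0)], [(181,0),(90,0),(102,0),(186,0),(188,0),(132,64),(85,0)], [(182,0),(91,0),(189,0),(86,0),(169,2),(187,0),(190,0)], [(183,0),(92,0),(104,0),(190,0),(87,0),(191,0),(86,0)], [(171,0),(185,0),(135,19),(192,0),(88,0),(171,2),(193,0)],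
    [(172,0),(186,0),(136,19),(90,0),(193,0),(136,64),(88,0)], [(173,0),(187,0),(194,0),(89,0),(192,0),(91,0),(195,0)], [(174,0),(188,0),(94,0),(195,0),(90,0),(196,0),(89,0)], [(175,0),(190,21),(91,0),(92,21),(175,2),(194,0),(91,21)], [(176,0),(191,0),(93,21),(194,21),(140,64),(92,0),(196,0)], [(177,0),(111,0),(196,21),(94,0),(141,19),(94,21),(93,0)], [(99,0),(197,0),(95,0),(178,0),(142,14),(198,0),(142,64)], [(100,0),(143,1),(198,0),(96,0),(199,0),(95,0),(200,0)],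
    [(101,0),(144,1),(180,0),(201,0),(96,0),(97,0),(202,0)], [(102,0),(145,1),(181,0),(200,0),(202,0),(145,64),(96,0)], [(103,0),(146,1),(203,0),(97,0),(146,14),(201,0),(204,0)], [(104,0),(147,1),(183,0),(204,0),(98,0),(205,0),(97,0)], [(198,0),(148,19),(100,0),(184,0),(200,3),(99,0),(199,3)], [(199,0),(105,0),(200,3),(206,0),(100,0),(149,14),(198,3)], [(200,0),(106,0),(199,3),(102,0),(198,3),(150,64),(100,0)], [(201,0),(107,0),(207,0),(101,0),(206,0),(103,0),(208,0)],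
    [(202,0),(108,0),(188,0),(208,0),(102,0),(209,0),(101,0)], [(203,0),(210,0),(103,0),(189,0),(153,14),(207,0),(210,21)], [(204,0),(109,21),(210,21),(104,0),(154,14),(211,0),(103,0)], [(205,0),(110,0),(191,0),(211,0),(155,64),(104,0),(209,0)], [(156,1),(206,0),(212,0),(105,0),(107,0),(156,14),(213,0)], [(157,1),(198,3),(157,19),(213,0),(106,0),(197,3),(105,0)], [(158,1),(211,21),(107,0),(110,21),(212,0),(109,0),(214,0)], [(159,1),(208,0),(214,0),(108,0),(213,0),(214,21),(107,0)],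
    [(160,1),(209,0),(111,21),(214,21),(160,64),(108,0),(110,0)], [(114,0),(125,0),(215,0),(112,0),(125,2),(216,0),(161,64)], [(115,0),(126,0),(162,1),(216,0),(217,0),(112,0),(218,0)], [(116,0),(127,0),(163,1),(219,0),(113,0),(217,0),(220,0)], [(117,0),(128,0),(164,1),(128,2),(220,0),(164,64),(113,0)], [(215,0),(165,19),(114,0),(165,1),(129,2),(221,0),(165,64)], [(216,0),(118,0),(221,0),(115,0),(222,0),(114,0),(223,0)], [(217,0),(119,0),(167,1),(224,0),(115,0),(116,0),(225,0)],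
    [(218,0),(120,0),(168,1),(223,0),(225,0),(168,64),(115,0)], [(219,0),(121,0),(226,0),(116,0),(133,2),(224,0),(227,0)], [(220,0),(122,0),(170,1),(227,0),(117,0),(228,0),(116,0)], [(135,0),(222,0),(171,19),(229,0),(118,0),(135,2),(230,0)], [(136,0),(223,0),(172,19),(120,0),(230,0),(172,64),(118,0)], [(137,0),(224,0),(231,0),(119,0),(229,0),(121,0),(232,0)], [(138,0),(225,0),(124,0),(232,0),(120,0),(233,0),(119,0)], [(139,0),(227,21),(121,0),(122,21),(139,2),(231,0),(121,21)],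
    [(140,0),(228,0),(123,21),(231,21),(176,64),(122,0),(233,0)], [(141,0),(177,1),(233,21),(124,0),(177,19),(124,21),(123,0)], [(129,0),(234,0),(125,0),(142,0),(215,2),(235,0),(178,64)], [(130,0),(216,0),(235,0),(126,0),(236,0),(125,0),(237,0)], [(131,0),(217,0),(144,0),(238,0),(126,0),(127,0),(239,0)], [(132,0),(218,0),(145,0),(237,0),(239,0),(181,64),(126,0)], [(133,0),(219,0),(240,0),(127,0),(219,2),(238,0),(241,0)], [(134,0),(220,0),(147,0),(241,0),(128,0),(242,0),(127,0)],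
    [(235,0),(184,19),(130,0),(148,0),(243,0),(129,0),(244,0)], [(236,0),(135,0),(243,0),(245,0),(130,0),(222,2),(246,0)], [(237,0),(136,0),(244,0),(132,0),(246,0),(186,64),(130,0)], [(238,0),(137,0),(247,0),(131,0),(245,0),(133,0),(248,0)], [(239,0),(138,0),(152,0),(248,0),(132,0),(249,0),(131,0)], [(240,0),(250,0),(133,0),(153,0),(226,2),(247,0),(250,21)], [(241,0),(139,21),(250,21),(134,0),(227,2),(251,0),(133,0)], [(242,0),(140,0),(155,0),(251,0),(191,64),(134,0),(249,0)],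
    [(229,0),(245,0),(252,0),(135,0),(137,0),(229,2),(253,0)], [(230,0),(246,0),(193,19),(253,0),(136,0),(254,0),(135,0)], [(231,0),(251,21),(137,0),(140,21),(252,0),(139,0),(255,0)], [(232,0),(248,0),(255,0),(138,0),(253,0),(255,21),(137,0)], [(233,0),(249,0),(141,21),(255,21),(196,64),(138,0),(140,0)], [(197,19),(142,0),(197,1),(234,0),(197,14),(157,3),(197,64)], [(148,0),(157,3),(143,0),(235,0),(150,3),(142,0),(149,3)], [(149,0),(199,1),(150,3),(244,3),(143,0),(199,14),(148,3)],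
    [(150,0),(200,1),(149,3),(145,0),(148,3),(200,64),(143,0)], [(151,0),(201,1),(246,3),(144,0),(244,3),(146,0),(243,3)], [(152,0),(202,1),(239,0),(243,3),(145,0),(256,0),(144,0)], [(153,0),(254,3),(146,0),(240,0),(203,14),(246,3),(257,0)], [(154,0),(204,1),(257,0),(147,0),(204,14),(258,0),(146,0)], [(155,0),(205,1),(242,0),(258,0),(205,64),(147,0),(256,0)], [(244,3),(156,0),(237,3),(149,0),(151,0),(206,14),(235,3)], [(246,3),(259,0),(151,0),(247,0),(237,3),(153,0),(236,3)],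
    [(243,3),(159,0),(236,3),(152,0),(235,3),(260,0),(151,0)], [(256,0),(160,0),(249,0),(260,0),(209,64),(152,0),(155,0)], [(257,21),(153,0),(154,21),(250,0),(210,14),(259,0),(153,21)], [(258,0),(158,21),(259,21),(155,0),(261,0),(154,0),(260,0)], [(212,1),(261,21),(156,0),(212,19),(158,0),(212,14),(262,0)], [(213,1),(235,3),(262,0),(157,0),(159,0),(234,3),(156,0)], [(214,1),(260,21),(159,0),(160,21),(262,0),(159,21),(158,0)], [(165,0),(263,0),(161,0),(215,1),(178,2),(264,0),(215,64)],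
    [(166,0),(179,0),(264,0),(162,0),(265,0),(161,0),(266,0)], [(167,0),(180,0),(217,1),(267,0),(162,0),(163,0),(268,0)], [(168,0),(181,0),(218,1),(266,0),(268,0),(218,64),(162,0)], [(169,0),(182,0),(269,0),(163,0),(182,2),(267,0),(270,0)], [(170,0),(183,0),(220,1),(270,0),(164,0),(271,0),(163,0)], [(264,0),(221,19),(166,0),(221,1),(272,0),(165,0),(273,0)], [(265,0),(171,0),(272,0),(274,0),(166,0),(185,2),(275,0)], [(266,0),(172,0),(273,0),(168,0),(275,0),(223,64),(166,0)],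
    [(267,0),(173,0),(276,0),(167,0),(274,0),(169,0),(277,0)], [(268,0),(174,0),(225,1),(277,0),(168,0),(278,0),(167,0)], [(269,0),(279,0),(169,0),(226,1),(189,2),(276,0),(279,21)], [(270,0),(175,21),(279,21),(170,0),(190,2),(280,0),(169,0)], [(271,0),(176,0),(228,1),(280,0),(228,64),(170,0),(278,0)], [(192,0),(274,0),(281,0),(171,0),(173,0),(192,2),(282,0)], [(193,0),(275,0),(230,19),(282,0),(172,0),(283,0),(171,0)], [(194,0),(280,21),(173,0),(176,21),(281,0),(175,0),(284,0)],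
    [(195,0),(277,0),(284,0),(174,0),(282,0),(284,21),(173,0)], [(196,0),(278,0),(177,21),(284,21),(233,64),(174,0),(176,0)], [(234,19),(178,0),(263,0),(197,0),(263,2),(213,3),(234,64)], [(184,0),(213,3),(179,0),(198,0),(208,3),(178,0),(206,3)], [(185,0),(265,0),(208,3),(285,0),(179,0),(265,2),(207,3)], [(186,0),(266,0),(206,3),(181,0),(207,3),(237,64),(179,0)], [(187,0),(267,0),(286,0),(180,0),(285,0),(182,0),(287,0)], [(188,0),(268,0),(202,0),(287,0),(181,0),(288,0),(180,0)],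
    [(189,0),(289,0),(182,0),(203,0),(269,2),(286,0),(290,0)], [(190,0),(270,0),(290,0),(183,0),(270,2),(291,0),(182,0)], [(191,0),(271,0),(205,0),(291,0),(242,64),(183,0),(288,0)], [(208,3),(243,19),(185,0),(202,3),(184,0),(272,2),(201,3)], [(206,3),(244,19),(186,0),(199,3),(201,3),(244,64),(184,0)], [(285,0),(192,0),(287,3),(185,0),(187,0),(274,2),(286,3)], [(207,3),(193,0),(201,3),(286,3),(186,0),(203,3),(185,0)], [(286,0),(292,0),(187,0),(207,0),(287,3),(189,0),(285,3)],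
    [(287,0),(195,0),(285,3),(188,0),(286,3),(293,0),(187,0)], [(288,0),(196,0),(209,0),(293,0),(249,64),(188,0),(191,0)], [(290,21),(189,0),(190,21),(210,0),(279,2),(292,0),(189,21)], [(291,0),(194,21),(292,21),(191,0),(294,0),(190,0),(293,0)], [(281,0),(294,21),(192,0),(252,19),(194,0),(281,2),(295,0)], [(282,0),(286,3),(295,0),(193,0),(195,0),(289,3),(192,0)], [(283,0),(203,3),(254,19),(289,3),(254,64),(193,0),(283,2)], [(284,0),(293,21),(195,0),(196,21),(295,0),(195,21),(194,0)],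
    [(209,0),(256,1),(288,0),(272,9),(256,64),(202,0),(205,0)], [(210,21),(283,9),(204,0),(290,0),(257,14),(275,9),(203,0)], [(211,0),(258,1),(275,9),(205,0),(273,9),(204,0),(272,9)], [(275,3),(207,0),(211,21),(292,0),(266,3),(210,0),(265,3)], [(272,9),(214,21),(265,9),(209,0),(264,9),(208,0),(211,0)], [(273,9),(212,21),(266,9),(261,64),(211,0),(261,14),(264,9)], [(262,1),(264,3),(213,0),(262,19),(214,0),(263,3),(212,0)], [(263,19),(215,0),(234,0),(263,1),(234,2),(262,3),(263,64)],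
    [(221,0),(262,3),(216,0),(264,1),(260,7),(215,0),(261,7)], [(222,0),(236,0),(260,7),(296,0),(216,0),(236,2),(259,3)], [(223,0),(237,0),(261,7),(218,0),(259,3),(266,64),(216,0)], [(224,0),(238,0),(297,0),(217,0),(296,0),(219,0),(298,0)], [(225,0),(239,0),(268,1),(298,0),(218,0),(299,0),(217,0)], [(226,0),(300,0),(219,0),(269,1),(240,2),(297,0),(301,0)], [(227,0),(241,0),(301,0),(220,0),(241,2),(302,0),(219,0)], [(228,0),(242,0),(271,1),(302,0),(271,64),(220,0),(299,0)],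
    [(260,7),(272,19),(222,0),(256,7),(221,0),(243,2),(258,7)], [(261,7),(273,19),(223,0),(273,1),(258,7),(273,64),(221,0)], [(296,0),(229,0),(303,0),(222,0),(224,0),(245,2),(304,0)], [(259,3),(230,0),(258,7),(304,0),(223,0),(257,7),(222,0)], [(297,0),(305,0),(224,0),(276,1),(303,0),(226,0),(306,0)], [(298,0),(232,0),(306,0),(225,0),(304,0),(307,0),(224,0)], [(299,0),(233,0),(278,1),(307,0),(278,64),(225,0),(228,0)], [(301,21),(226,0),(227,21),(279,1),(250,2),(305,0),(226,21)],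
    [(302,0),(231,21),(305,21),(228,0),(308,0),(227,0),(307,0)], [(252,0),(308,21),(229,0),(281,19),(231,0),(252,2),(309,0)], [(253,0),(304,0),(309,0),(230,0),(232,0),(310,0),(229,0)], [(254,0),(257,7),(283,19),(310,0),(283,64),(230,0),(254,2)], [(255,0),(307,21),(232,0),(233,21),(309,0),(232,21),(231,0)], [(245,0),(296,0),(248,3),(236,0),(238,0),(296,2),(247,3)], [(247,0),(253,3),(238,0),(246,3),(248,3),(240,0),(245,3)], [(248,0),(298,0),(245,3),(239,0),(247,3),(303,9),(238,0)],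
    [(249,0),(299,0),(256,0),(303,9),(288,64),(239,0),(242,0)], [(310,3),(240,0),(300,0),(254,3),(300,2),(253,3),(310,9)], [(250,21),(310,9),(241,0),(257,0),(301,2),(304,9),(240,0)], [(251,0),(302,0),(304,9),(242,0),(306,9),(241,0),(303,9)], [(304,3),(247,0),(251,21),(259,0),(298,3),(250,0),(296,3)], [(303,9),(255,21),(296,9),(249,0),(297,9),(248,0),(251,0)], [(306,9),(252,21),(298,9),(294,64),(251,0),(308,2),(297,9)], [(309,0),(297,3),(253,0),(295,19),(255,0),(300,3),(252,0)],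
    [(274,0),(285,0),(293,7),(265,0),(267,0),(285,2),(292,3)], [(276,0),(295,3),(267,0),(297,1),(293,7),(269,0),(294,7)], [(277,0),(287,0),(294,7),(268,0),(292,3),(311,0),(267,0)], [(278,0),(288,0),(299,1),(311,0),(299,64),(268,0),(271,0)], [(312,0),(269,0),(289,0),(300,1),(289,2),(295,3),(312,21)], [(279,21),(312,21),(270,0),(301,1),(290,2),(313,0),(269,0)], [(280,0),(291,0),(313,0),(271,0),(314,0),(270,0),(311,0)], [(293,7),(311,7),(274,0),(288,7),(276,0),(287,7),(291,7)],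
    [(292,3),(282,0),(291,7),(275,0),(277,0),(290,7),(274,0)], [(313,21),(276,0),(280,21),(305,1),(311,7),(279,0),(314,7)], [(294,7),(314,7),(277,0),(306,1),(291,7),(314,17),(276,0)], [(311,0),(284,21),(314,17),(278,0),(313,17),(277,0),(280,0)], [(314,0),(281,21),(311,17),(308,64),(280,0),(294,2),(313,17)], [(295,0),(313,7),(282,0),(309,19),(284,0),(312,3),(281,0)], [(289,3),(290,7),(312,3),(283,0),(312,9),(282,0),(289,7)], [(307,0),(303,9),(308,17),(299,0),(305,9),(298,0),(302,0)],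
    [(300,0),(301,21),(310,3),(312,1),(310,7),(309,3),(300,21)], [(305,21),(309,9),(302,0),(313,1),(307,17),(301,0),(308,17)], [(308,0),(306,9),(307,17),(314,64),(302,0),(306,17),(305,9)]]

/-- Witnesses. -/
def tW : List (ℕ × ℕ) :=
  [(1,1), (22,2), (1,1), (1,1), (22,2), (64,64), (22,2), (1,1),
    (1,1), (1,1), (1,1), (64,64), (22,2), (64,64), (64,64), (94,94),
    (22,2), (64,64), (1,1), (1,1), (1,1), (1,1), (1,1), (64,64),
    (64,64), (54,94), (22,2), (64,64), (64,64), (46,94), (122,54), (46,94),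
    (54,94), (64,64), (64,64), (122,54), (1,1), (1,1), (1,1), (1,1),
    (1,1), (1,1), (1,1), (14,1), (64,64), (17,94), (104,54), (17,94),
    (94,94), (64,64), (64,64), (12,54), (27,2), (12,54), (94,94), (17,94),
    (104,54), (12,54), (17,122), (64,64), (104,54), (93,3), (94,94), (104,54),
    (12,54), (1,1), (1,1), (1,1), (1,1), (1,1), (1,1), (1,1),
    (14,1), (14,1), (14,1), (27,2), (3,54), (54,94), (46,94), (122,54),
    (3,54), (46,122), (64,64), (3,54), (34,34), (46,94), (3,54), (122,54),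
    (14,19), (3,54), (122,54), (27,2), (54,94), (19,19), (3,54), (93,3),
    (54,94), (122,54), (3,54), (93,3), (127,3), (46,94), (54,94), (19,14),
    (3,54), (1,1), (1,1), (1,1), (1,1), (1,1), (1,1), (1,1),
    (14,1), (14,1), (34,34), (14,1), (14,1), (14,1), (14,19), (12,54),
    (104,54), (27,2), (94,94), (19,19), (12,54), (68,34), (17,94), (12,54),
    (104,54), (68,34), (3,93), (94,94), (17,94), (93,3), (104,54), (14,19),
    (14,19), (109,3), (104,54), (27,2), (19,64), (19,19), (93,3), (127,3),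
    (17,94), (94,94), (19,14), (12,54), (127,3), (127,3), (127,3), (36,93),
    (17,94), (19,14), (19,14), (19,64), (1,1), (1,1), (1,1), (1,1),
    (1,1), (68,34), (14,1), (14,1), (14,1), (68,34), (3,70), (14,1),
    (14,1), (70,3), (14,1), (14,19), (14,19), (125,3), (122,54), (27,2),
    (19,64), (19,19), (34,34), (12,93), (54,94), (46,94), (93,3), (122,54),
    (104,93), (12,93), (104,93), (127,3), (54,94), (93,3), (123,3), (19,64),
    (109,3), (14,19), (125,3), (109,3), (19,64), (14,1), (127,3), (127,3),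
    (127,3), (70,93), (46,94), (19,14), (19,14), (19,64), (87,93), (70,93),
    (87,93), (19,64), (19,14), (3,87), (1,1), (1,1), (1,1), (34,34),
    (12,70), (14,1), (14,1), (36,3), (14,1), (104,70), (12,70), (104,70),
    (125,3), (14,1), (36,3), (115,3), (14,1), (125,3), (14,19), (109,3),
    (125,3), (19,64), (79,2), (122,93), (3,93), (122,93), (127,3), (94,94),
    (93,3), (123,3), (19,64), (122,93), (3,93), (127,3), (122,93), (127,3),
    (127,3), (19,64), (36,3), (123,3), (125,3), (109,3), (77,2), (125,3),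
    (19,64), (19,14), (12,87), (104,87), (104,87), (12,87), (1,1), (79,2),
    (122,70), (3,70), (122,70), (109,3), (14,1), (70,3), (87,3), (14,1),
    (122,70), (3,70), (125,3), (122,70), (109,3), (125,3), (14,1), (93,3),
    (115,3), (109,3), (125,3), (77,2), (109,3), (127,3), (127,3), (127,3),
    (19,64), (79,2), (123,3), (123,3), (109,3), (93,3), (93,3), (125,3),
    (109,3), (125,3), (109,3), (14,1), (79,2), (115,3), (87,3), (109,3),
    (125,3), (127,3), (109,3), (70,3), (70,3), (109,3), (77,2), (36,3),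
    (79,2), (115,3), (36,3)]

theorem lenK : wK.length = 128 := by decide +kernel
theorem lenR : wR.length = 315 := by decide +kernel

theorem closedK : ∀ k < 128, ∀ i < 3, (tK.getD k []).getD i 0 < 128 ∧
    ev gK (i :: wK.getD k []) = ev gK (wK.getD ((tK.getD k []).getD i 0) []) := by decide +kernel

theorem nodupK : (wK.map (ev gK)).Nodup := by decide +kernel

theorem closedR : ∀ k < 315, ∀ i < 7, ((tR.getD k []).getD i (0, 0)).1 < 315 ∧
    ((tR.getD k []).getD i (0, 0)).2 < 128 ∧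
    ev gS (i :: wR.getD k []) = cmp (ev gS (wR.getD ((tR.getD k []).getD i (0, 0)).1 []))
      (ev gK (wK.getD ((tR.getD k []).getD i (0, 0)).2 [])) := by decide +kernel

theorem witness : ∀ k < 315, (tW.getD k (0, 0)).1 < 128 ∧ (tW.getD k (0, 0)).2 < 128 ∧
    (ev gK (wK.getD (tW.getD k (0, 0)).1 []) == [0, 1, 2, 3, 4, 5, 6, 7]) = false ∧
    cmp (ev gS (wR.getD k [])) (ev gK (wK.getD (tW.getD k (0, 0)).2 [])) =
      cmp (ev gK (wK.getD (tW.getD k (0, 0)).1 [])) (ev gS (wR.getD k [])) := by decide +kernel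

/-- The list of values of a permutation. -/
def vals (x : Perm (Fin 8)) : List ℕ :=
  [(x 0).val, (x 1).val, (x 2).val, (x 3).val, (x 4).val, (x 5).val, (x 6).val, (x 7).val]

theorem vals_inj {x y : Perm (Fin 8)} (h : vals x = vals y) : x = y := by
  simp only [vals, List.cons.injEq] at h
  refine Equiv.ext fun i => Fin.ext ?_
  fin_cases i <;> tauto

theorem vals_getD (x : Perm (Fin 8)) (i : Fin 8) : (vals x).getD i.val 0 = (x i).val := by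
  fin_cases i <;> rfl

theorem vals_mul (x y : Perm (Fin 8)) : vals (x * y) = cmp (vals x) (vals y) := by
  simp only [cmp, vals, List.map, Equiv.Perm.mul_apply]
  simp only [← vals_getD x]
  rfl

/-- The generators of the 2-subgroup. -/
def pK : List (Perm (Fin 8)) :=
  [swap 0 1, swap 0 2 * swap 1 3, swap 0 4 * swap 1 5 * swap 2 6 * swap 3 7]

/-- The adjacent transpositions. -/
def pS : List (Perm (Fin 8)) :=
  [swap 0 1, swap 1 2, swap 2 3, swap 3 4, swap 4 5, swap 5 6, swap 6 7]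

theorem vals_ev (ps : List (Perm (Fin 8))) (gs : List (List ℕ))
    (h : ∀ i < gs.length, vals (ps.getD i 1) = gs.getD i []) :
    ∀ w : List ℕ, (∀ i ∈ w, i < gs.length) → vals ((w.map (ps.getD · 1)).prod) = ev gs w
  | [], _ => by rfl
  | i :: w, hw => by
    rw [List.map_cons, List.prod_cons, vals_mul, ev,
      vals_ev ps gs h w (fun j hj => hw j (List.mem_cons_of_mem _ hj)), h i (hw i List.mem_cons_self)]
    rfl

theorem boundsK : ∀ k < 128, ∀ i ∈ wK.getD k [], i < 3 := by decide +kernel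
theorem boundsR : ∀ k < 315, ∀ i ∈ wR.getD k [], i < 7 := by decide +kernel
theorem valsK : ∀ i < 3, vals (pK.getD i 1) = gK.getD i [] := by decide
theorem valsS : ∀ i < 7, vals (pS.getD i 1) = gS.getD i [] := by decide

/-- Elements of the subgroup. -/
def elK (k : ℕ) : Perm (Fin 8) := ((wK.getD k []).map (pK.getD · 1)).prod

/-- Representatives. -/
def elR (k : ℕ) : Perm (Fin 8) := ((wR.getD k []).map (pS.getD · 1)).prod

theorem vals_elK {k : ℕ} (hk : k < 128) : vals (elK k) = ev gK (wK.getD k []) :=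
  vals_ev pK gK valsK _ (boundsK k hk)

theorem vals_elR {k : ℕ} (hk : k < 315) : vals (elR k) = ev gS (wR.getD k []) :=
  vals_ev pS gS valsS _ (boundsR k hk)

theorem elK_zero : elK 0 = 1 := rfl

theorem elR_zero : elR 0 = 1 := rfl

theorem mulK (i : ℕ) (hi : i < 3) (k : ℕ) (hk : k < 128) :
    ∃ j, j < 128 ∧ pK.getD i 1 * elK k = elK j := by
  obtain ⟨h1, h2⟩ := closedK k hk i hi
  refine ⟨_, h1, vals_inj ?_⟩
  rw [vals_mul, vals_elK hk, vals_elK h1, valsK i hi]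
  exact h2

theorem mulR (i : ℕ) (hi : i < 7) (k : ℕ) (hk : k < 315) :
    ∃ j t, j < 315 ∧ t < 128 ∧ pS.getD i 1 * elR k = elR j * elK t := by
  obtain ⟨h1, h2, h3⟩ := closedR k hk i hi
  refine ⟨_, _, h1, h2, vals_inj ?_⟩
  rw [vals_mul, vals_mul, vals_elR hk, vals_elR h1, vals_elK h2, valsS i hi]
  exact h3

/-- In the symmetric group on 8 letters any two Sylow 2-subgroups have non-trivial intersection: for a Sylow 2-subgroup H and every element x, H ∩ xHx⁻¹ ≠ 1. -/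
theorem result (H : Sylow 2 (Equiv.Perm (Fin 8))) (x : Equiv.Perm (Fin 8)) :
    (H : Subgroup (Equiv.Perm (Fin 8))) ⊓ (H : Subgroup (Equiv.Perm (Fin 8))).map (MulAut.conj x).toMonoidHom ≠ ⊥ := by
  classical
  let Kg : Subgroup (Equiv.Perm (Fin 8)) := Subgroup.closure {g | g ∈ pK}
  have hKmem : ∀ k, elK k ∈ Kg := fun k => Subgroup.list_prod_mem _ fun g hg => by
    obtain ⟨i, -, rfl⟩ := List.mem_map.mp hg
    rcases Nat.lt_or_ge i pK.length with h | h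
    · rw [List.getD_eq_getElem _ _ h]; exact Subgroup.subset_closure (List.getElem_mem h)
    · rw [List.getD_eq_default _ _ h]; exact one_mem _
  have hKall : ∀ y ∈ Kg, ∃ k, k < 128 ∧ y = elK k := by
    intro y hy
    rw [← Subgroup.mem_toSubmonoid, Subgroup.closure_toSubmonoid_of_finite] at hy
    induction hy using Submonoid.closure_induction_left with
    | one => exact ⟨0, by norm_num, elK_zero.symm⟩
    | mul_left g hg z _ ih =>
      obtain ⟨k, hk, rfl⟩ := ih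
      obtain ⟨i, hi, rfl⟩ := List.mem_iff_getElem.mp (show g ∈ pK from hg)
      obtain ⟨j, hj, e⟩ := mulK i hi k hk
      rw [List.getD_eq_getElem _ _ hi] at e
      exact ⟨j, hj, e⟩
  have hKcard : Nat.card Kg = 2 ^ 7 := by
    have hb : Function.Bijective (fun k : Fin 128 => (⟨elK k, hKmem k⟩ : Kg)) := by
      refine ⟨fun k l e => ?_, fun ⟨y, hy⟩ => ?_⟩
      · have e' : vals (elK k) = vals (elK l) := congrArg (fun z : Kg => vals z) e
        rw [vals_elK k.2, vals_elK l.2] at e'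
        have hk : (k : ℕ) < wK.length := lenK.symm ▸ k.2
        have hl : (l : ℕ) < wK.length := lenK.symm ▸ l.2
        rw [List.getD_eq_getElem _ _ hk, List.getD_eq_getElem _ _ hl] at e'
        refine Fin.ext ((nodupK.getElem_inj_iff (hi := by simpa using hk) (hj := by simpa using hl)).mp ?_)
        simpa using e'
      · obtain ⟨k, hk, rfl⟩ := hKall y hy
        exact ⟨⟨k, hk⟩, rfl⟩
    rw [← Nat.card_eq_of_bijective _ hb, Nat.card_fin]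
    rfl
  have hcover : ∀ y : Equiv.Perm (Fin 8), ∃ j k, j < 315 ∧ k < 128 ∧ y = elR j * elK k := by
    intro y
    have hy : y ∈ Submonoid.closure {g | g ∈ pS} := by
      have : (Set.range fun i : Fin 7 => Equiv.swap i.castSucc i.succ) ⊆ {g | g ∈ pS} := by
        rintro _ ⟨i, rfl⟩
        fin_cases i <;> simp [pS]
      exact Submonoid.closure_mono this (Equiv.Perm.mclosure_swap_castSucc_succ 7 ▸ Submonoid.mem_top y)
    induction hy using Submonoid.closure_induction_left with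
    | one => exact ⟨0, 0, by norm_num, by norm_num, by rw [elR_zero, elK_zero, one_mul]⟩
    | mul_left g hg z _ ih =>
      obtain ⟨j, k, hj, hk, rfl⟩ := ih
      obtain ⟨i, hi, rfl⟩ := List.mem_iff_getElem.mp (show g ∈ pS from hg)
      obtain ⟨j', t, hj', ht, e⟩ := mulR i hi j hj
      obtain ⟨k', hk', e'⟩ := hKall _ (mul_mem (hKmem t) (hKmem k))
      refine ⟨j', k', hj', hk', ?_⟩
      rw [List.getD_eq_getElem _ _ hi] at e
      rw [← mul_assoc, e, mul_assoc, e']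
  have key : ∀ y : Equiv.Perm (Fin 8), ∃ u, u ∈ Kg ∧ u ≠ 1 ∧ y⁻¹ * u * y ∈ Kg := by
    intro y
    obtain ⟨j, k, hj, hk, rfl⟩ := hcover y
    obtain ⟨h1, h2, h3, h4⟩ := witness j hj
    refine ⟨elK (tW.getD j (0, 0)).1, hKmem _, fun e => ?_, ?_⟩
    · have e' := congrArg vals e
      rw [vals_elK h1] at e'
      rw [e'] at h3
      exact absurd h3 (by decide)
    · have e : elR j * elK (tW.getD j (0, 0)).2 = elK (tW.getD j (0, 0)).1 * elR j := vals_inj (by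
        rw [vals_mul, vals_mul, vals_elR hj, vals_elK h1, vals_elK h2]; exact h4)
      rw [mul_inv_rev, show (elK k)⁻¹ * (elR j)⁻¹ * elK (tW.getD j (0, 0)).1 * (elR j * elK k) =
        (elK k)⁻¹ * ((elR j)⁻¹ * (elK (tW.getD j (0, 0)).1 * elR j)) * elK k by group, ← e,
        inv_mul_cancel_left]
      exact mul_mem (mul_mem (inv_mem (hKmem _)) (hKmem _)) (hKmem _)
  obtain ⟨P, hP⟩ := (IsPGroup.of_card hKcard : IsPGroup 2 Kg).exists_le_sylow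
  obtain ⟨y, hy⟩ := MulAction.exists_smul_eq (Equiv.Perm (Fin 8)) P H
  have hmem : ∀ z, z ∈ Kg → y * z * y⁻¹ ∈ H := fun z hz => by
    rw [← hy]
    exact ⟨z, hP hz, rfl⟩
  obtain ⟨u, hu, hu1, hu2⟩ := key (y⁻¹ * x * y)
  intro hbot
  apply hu1
  have hin : y * u * y⁻¹ ∈ (H : Subgroup (Equiv.Perm (Fin 8))) ⊓
      (H : Subgroup (Equiv.Perm (Fin 8))).map (MulAut.conj x).toMonoidHom := by
    refine ⟨hmem u hu, _, hmem _ hu2, ?_⟩
    simp only [MulEquiv.toMonoidHom_eq_coe, MonoidHom.coe_coe, MulAut.conj_apply]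
    group
  rw [hbot, Subgroup.mem_bot, conj_eq_one_iff] at hin
  exact hin

end Cfsg.Agent.S5763
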