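import Cfsg.Statements.S5769
import Cfsg.Agent.Lib.Chev.E7SixtyFive.Main
import Cfsg.Agent.Lib.Chev.E7SixtyFive.Groups

set_option autoImplicit false
open Cfsg

namespace Cfsg.Agent.S5769

theorem no_iso (H : Subgroup ↥(Cfsg.Lie.chevE7.group (ZMod 2))) {G : Type*} [Group G]
    (hy : ∃ y : G, orderOf y = 65) : IsEmpty (↥H ≃* G) := by
  refine ⟨fun f => ?_⟩
  obtain ⟨y, hy⟩ := hy
  refine Lib.Chev.E7SixtyFive.no_sixty_five ((f.symm y : ↥H) : ↥(Cfsg.Lie.chevE7.group (ZMod 2))) ?_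
  rw [Subgroup.orderOf_coe, MulEquiv.orderOf_eq, hy]

/-- The Chevalley group of type E₇ over the field with two elements (generated by its root elements in the adjoint representation) has no subgroup isomorphic to any of PSL₂(64), PSp₄(8), PSL₄(8), PSU₄(8) or PSp₆(8). Here F₈ and F₆₄ denote fields with 8 and 64 elements. -/
theorem result {F₈ F₆₄ : Type*} [Field F₈] [Fintype F₈] (h8 : Fintype.card F₈ = 8) [Field F₆₄] [Fintype F₆₄] (h64 : Fintype.card F₆₄ = 64)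
    (H : Subgroup ↥(Cfsg.Lie.chevE7.group (ZMod 2))) :
    IsEmpty (↥H ≃* Matrix.ProjectiveSpecialLinearGroup (Fin 2) F₆₄) ∧ IsEmpty (↥H ≃* Cfsg.PSp 2 F₈) ∧
    IsEmpty (↥H ≃* Matrix.ProjectiveSpecialLinearGroup (Fin 4) F₈) ∧ IsEmpty (↥H ≃* Cfsg.PSU 4 F₆₄ 8) ∧ IsEmpty (↥H ≃* Cfsg.PSp 3 F₈) := by
  exact ⟨no_iso H (Lib.Chev.E7SixtyFive.psl_two_sixty_five h64),
    no_iso H (Lib.Chev.E7SixtyFive.psp_sixty_five (n := 2) (k := 3) (e := 2) (F := F₈) h8 (by omega) le_rfl (by rw [h8]; norm_num)),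
    no_iso H (Lib.Chev.E7SixtyFive.psl_four_sixty_five h8),
    no_iso H (Lib.Chev.E7SixtyFive.psu_four_sixty_five h8 h64),
    no_iso H (Lib.Chev.E7SixtyFive.psp_sixty_five (n := 3) (k := 3) (e := 2) (F := F₈) h8 (by omega) (by omega) (by rw [h8]; norm_num))⟩

end Cfsg.Agent.S5769
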