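import Cfsg.Statements.S5886
import Cfsg.Agent.Lib.Forms.LinExtMax
import Cfsg.Agent.Lib.Forms.FieldSubalg

set_option autoImplicit false
open Cfsg

namespace Cfsg.Agent.S5886
open Matrix Cfsg.Agent.Lib.Forms

/-- Let F be a finite field, n a positive integer and r a prime that divides n with r < n. Let K be a subalgebra of the algebra of n × n matrices over F which is a field of degree r over F (commutative, every non-zero element invertible, of dimension r over F; it contains the scalars). Then the normaliser N of K in GL_n(F) — the invertible F-linear maps that are semilinear over the field K, a group of type ΓL_{n/r}(F_{q^r}) for |F| = q — is a maximal subgroup of GL_n(F), and N ∩ SL_n(F) is a maximal subgroup of SL_n(F). No lower bound on n is assumed. -/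
theorem result {F : Type*} [Field F]
    [Fintype F] (n r : ℕ) (hr : r.Prime) (hrn : r ∣ n) (hlt : r < n) (K : Subalgebra F (Matrix (Fin n) (Fin n) F))
    (hK : Cfsg.Geo.IsFieldSubalgebra r K) :
    IsCoatom (Cfsg.Geo.subalgebraNormalizer K) ∧
      Cfsg.Geo.IsMaximalIn (Cfsg.Geo.specialLinear (Fin n) F)
        (Cfsg.Geo.subalgebraNormalizer K ⊓ Cfsg.Geo.specialLinear (Fin n) F) := by
  classical
  haveI : Nonempty (Fin n) := ⟨⟨0, by omega⟩⟩
  have hfield := isField_fieldSubalg hK
  letI : Field K := hfield.toField
  refine linExtField_maximal (L := K) K.val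
    (by rw [show Module.finrank F K = r from hK.finrank_eq]; exact hr)
    (by rw [show Module.finrank F K = r from hK.finrank_eq, Fintype.card_fin]; exact hlt) _
    fun h2 g => ?_
  rw [normalizer_iff_lines (fun a => ?_) hfield]
  · constructor
    · intro h a k
      obtain ⟨l, hl, e⟩ := h a k k.2
      exact ⟨⟨l, hl⟩, e⟩
    · intro h a k hk
      obtain ⟨l, e⟩ := h a ⟨k, hk⟩
      exact ⟨l, l.2, e⟩
  · obtain ⟨b, hb⟩ := h2 a
    exact ⟨b, fun k hk => hb ⟨k, hk⟩⟩

end Cfsg.Agent.S5886
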