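import Cfsg.Statements.S5885
import Mathlib.GroupTheory.GroupAction.Primitive
import Mathlib.GroupTheory.GroupAction.SubMulAction
import Mathlib.GroupTheory.SpecificGroups.Alternating

set_option autoImplicit false
open Cfsg

namespace Cfsg.Agent.S5885

open MulAction Equiv
open scoped Pointwise

/-- Three-cycles are available in a giant primitive action. -/
theorem three {G X : Type*} [Group G] [MulAction G X] [Fintype X] [DecidableEq X] [IsPreprimitive G X]
    (n : ℕ) (hn : Fintype.card X = n)
    (hA : ∀ P : Subgroup (Equiv.Perm (Fin n)), IsPreprimitive P (Fin n) → alternatingGroup (Fin n) ≤ P)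
    (a b c : X) (hab : a ≠ b) (hbc : b ≠ c) (hac : a ≠ c) :
    ∃ g : G, g • a = b ∧ g • b = c ∧ g • c = a ∧ ∀ z, z ≠ a → z ≠ b → z ≠ c → g • z = z := by
  let e : X ≃ Fin n := Fintype.equivFinOfCardEq hn
  let φ : G →* Equiv.Perm (Fin n) := e.permCongrHom.toMonoidHom.comp (MulAction.toPermHom G X)
  let f : X →ₑ[φ.rangeRestrict] Fin n :=
    { toFun := e
      map_smul' := fun g x => by
        show e (g • x) = φ g (e x)
        simp [φ, Equiv.permCongrHom, Equiv.permCongr_apply] }
  have hP : IsPreprimitive φ.range (Fin n) := IsPreprimitive.of_surjective (f := f) e.surjective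
  set σ : Equiv.Perm X := swap a b * swap b c with hσ
  have hmem : e.permCongr σ ∈ alternatingGroup (Fin n) := by
    rw [Equiv.Perm.mem_alternatingGroup, Equiv.Perm.sign_permCongr, hσ, map_mul,
      Equiv.Perm.sign_swap hab, Equiv.Perm.sign_swap hbc]
    rfl
  obtain ⟨g, hg⟩ := hA φ.range hP hmem
  have hgs : ∀ x : X, g • x = σ x := fun x => by
    have h1 : φ g (e x) = e.permCongr σ (e x) := DFunLike.congr_fun hg (e x)
    rw [Equiv.permCongr_apply, e.symm_apply_apply] at h1
    have h2 : e (g • x) = φ g (e x) := by simp [φ, Equiv.permCongrHom, Equiv.permCongr_apply]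
    exact e.injective (h2.trans h1)
  refine ⟨g, ?_, ?_, ?_, fun z h1 h2 h3 => ?_⟩ <;> rw [hgs, hσ, Equiv.Perm.mul_apply]
  · rw [swap_apply_of_ne_of_ne hab hac, swap_apply_left]
  · rw [swap_apply_left, swap_apply_of_ne_of_ne hac.symm hbc.symm]
  · rw [swap_apply_right, swap_apply_right]
  · rw [swap_apply_of_ne_of_ne h2 h3, swap_apply_of_ne_of_ne h1 h2]

/-- Let n be an odd positive integer such that every primitive permutation group of degree n contains the alternating group (so the symmetric and alternating groups are the only primitive groups of degree n). Let G be a finite group, M a maximal subgroup of G of index n, and H a maximal subgroup of M. Then H is a second maximal subgroup of G: H is maximal in every maximal subgroup K of G containing H. -/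
theorem result {G : Type*} [Group G]
    [Finite G] (n : ℕ) (hodd : Odd n)
    (hA : ∀ P : Subgroup (Equiv.Perm (Fin n)), MulAction.IsPreprimitive P (Fin n) → alternatingGroup (Fin n) ≤ P)
    (M : Subgroup G) (hM : IsCoatom M) (hn : M.index = n) (H : Subgroup G) (hHM : H ≤ M)
    (hmax : IsCoatom (H.subgroupOf M)) (K : Subgroup G) (hK : IsCoatom K) (hHK : H ≤ K) :
    IsCoatom (H.subgroupOf K) := by
  classical
  by_cases hKM : K = M
  · rwa [hKM]
  have := hM
  let x₀ : G ⧸ M := ((1 : G) : G ⧸ M)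
  have hst : stabilizer G x₀ = M := MulAction.stabilizer_quotient M
  have : Finite (G ⧸ M) := inferInstance
  have := Fintype.ofFinite (G ⧸ M)
  have hcard : Fintype.card (G ⧸ M) = n := by
    rw [← Nat.card_eq_fintype_card, ← hn]; rfl
  have : Nontrivial (G ⧸ M) := Fintype.one_lt_card_iff_nontrivial.mp (by
    rw [hcard, ← hn]; exact (M.one_lt_index_of_ne_top hM.1))
  have hprim : IsPreprimitive G (G ⧸ M) :=
    (isCoatom_stabilizer_iff_preprimitive G x₀).mp (hst.symm ▸ hM)
  have hMK : ¬ M ≤ K := fun h => by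
    rcases eq_or_lt_of_le h with h | h
    · exact hKM h.symm
    · exact hK.1 (hM.2 _ h)
  have hH : H = M ⊓ K := by
    refine le_antisymm (le_inf hHM hHK) ?_
    by_contra h
    have hlt : H.subgroupOf M < (M ⊓ K).subgroupOf M := by
      refine lt_of_le_not_ge (fun z hz => ⟨z.2, hHK hz⟩) fun h' => h fun z hz => ?_
      exact h' (show (⟨z, hz.1⟩ : M) ∈ (M ⊓ K).subgroupOf M from hz)
    have := hmax.2 _ hlt
    rw [Subgroup.subgroupOf_eq_top, le_inf_iff] at this
    exact hMK this.2
  have hmemM : ∀ g : G, g ∈ M ↔ g • x₀ = x₀ := fun g => (SetLike.ext_iff.mp hst g).symm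
  let o : orbit K x₀ := ⟨x₀, mem_orbit_self x₀⟩
  have hstab : stabilizer K o = H.subgroupOf K := by
    ext k
    rw [mem_stabilizer_iff, Subgroup.mem_subgroupOf, hH, Subgroup.mem_inf, hmemM]
    exact ⟨fun h => ⟨congrArg Subtype.val h, k.2⟩, fun h => Subtype.ext h.1⟩
  have : Nontrivial (orbit K x₀) := by
    by_contra h
    rw [not_nontrivial_iff_subsingleton] at h
    apply hKM
    have hle : K ≤ M := fun k hk => by
      rw [hmemM]
      exact congrArg Subtype.val (h.elim ((⟨k, hk⟩ : K) • o) o)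
    rcases eq_or_lt_of_le hle with h' | h'
    · exact h'
    · exact absurd (hK.2 _ h') hM.1
  rw [← hstab, isCoatom_stabilizer_iff_preprimitive K o]
  refine IsPreprimitive.of_isTrivialBlock_base o fun {B} ho hB => ?_
  by_contra hnt
  rw [IsTrivialBlock, not_or] at hnt
  obtain ⟨hns, hnu⟩ := hnt
  obtain ⟨b, hb, hbo⟩ : ∃ b ∈ B, b ≠ o := by
    by_contra h
    push Not at h
    exact hns fun x hx y hy => (h x hx).trans (h y hy).symm
  obtain ⟨c, hc⟩ := (Set.ne_univ_iff_exists_notMem B).mp hnu
  have hcb : c ≠ b := fun e => hc (e ▸ hb)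
  have hco : c ≠ o := fun e => hc (e ▸ ho)
  have hbo' : (o : G ⧸ M) ≠ (b : G ⧸ M) := fun e => hbo (Subtype.ext e.symm)
  by_cases hO : orbit K x₀ = Set.univ
  · -- transitive: compare the stabiliser of the block with `H` and `M`
    let B' : Set (G ⧸ M) := Subtype.val '' B
    have hBK : ∀ (k : K) z, z ∈ B → k • o = o → k • z ∈ B := fun k z hz hk => by
      rw [← hB.smul_eq_of_mem ho (hk.symm ▸ ho : k • o ∈ B)]
      exact Set.smul_mem_smul_set hz
    have hHL : H ≤ M ⊓ stabilizer G B' := fun h hh => by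
      refine ⟨hHM hh, ?_⟩
      have hho : (⟨h, hHK hh⟩ : K) • o = o := Subtype.ext (by
        show h • x₀ = x₀
        exact (hmemM h).mp (hHM hh))
      refine mem_stabilizer_set_iff_subset_smul_set (Set.toFinite _) |>.mpr ?_
      rintro _ ⟨z, hz, rfl⟩
      have hinv : (⟨h, hHK hh⟩ : K)⁻¹ • z ∈ B := hBK _ z hz (inv_smul_eq_iff.mpr hho.symm)
      exact ⟨_, ⟨_, hinv, rfl⟩, show h • ((⟨h, hHK hh⟩ : K)⁻¹ • z : orbit K x₀).1 = z.1 from
        congrArg Subtype.val (smul_inv_smul (⟨h, hHK hh⟩ : K) z)⟩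
    obtain ⟨k, hk⟩ := exists_smul_eq K o c
    have hB2 : IsBlock K (k • B) := hB.translate k
    have hcB2 : c ∈ k • B := hk ▸ Set.smul_mem_smul_set ho
    have hdisj : Disjoint (k • B) B := (isBlock_iff_smul_eq_or_disjoint.mp hB k).resolve_left
      fun e => hc (e ▸ hcB2)
    have hd0 : k • b ∈ k • B := Set.smul_mem_smul_set hb
    have hdc : k • b ≠ c := fun e => hbo (smul_left_cancel k (e.trans hk.symm))
    obtain ⟨e, heB, heB2⟩ : ∃ e : orbit K x₀, e ∉ B ∧ e ∉ k • B := by
      by_contra h
      push Not at h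
      have h2 : (k • B).ncard = B.ncard := Set.ncard_image_of_injective B (MulAction.injective k)
      have h3 : (k • B ∪ B) = Set.univ := Set.eq_univ_of_forall fun z => by
        by_cases hz : z ∈ B
        · exact Or.inr hz
        · exact Or.inl (h z hz)
      have h4 := Set.ncard_union_eq hdisj (Set.toFinite _) (Set.toFinite _)
      rw [h3, h2, Set.ncard_univ, Nat.card_congr (Equiv.setCongr hO), Nat.card_congr (Equiv.Set.univ _),
        Nat.card_eq_fintype_card, hcard] at h4
      rw [Nat.odd_iff] at hodd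
      omega
    have hne1 : e ≠ o := fun h => heB (h ▸ ho)
    have hne2 : e ≠ b := fun h => heB (h ▸ hb)
    have hne3 : e ≠ c := fun h => heB2 (h ▸ hcB2)
    have hne4 : e ≠ k • b := fun h => heB2 (h ▸ hd0)
    by_cases hL : M ⊓ stabilizer G B' ≤ H
    · obtain ⟨g, g1, g2, -, g4⟩ := three (G := G) n hcard hA (c : G ⧸ M) ((k • b : orbit K x₀) : G ⧸ M) (e : G ⧸ M)
        (fun h => hdc (Subtype.ext h).symm) (fun h => hne4 (Subtype.ext h).symm)
        (fun h => hne3 (Subtype.ext h).symm)
      have hfix : ∀ z ∈ B, g • (z : G ⧸ M) = z := fun z hz => g4 _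
        (fun h => hc (Subtype.ext h ▸ hz))
        (fun h => Set.disjoint_left.mp hdisj hd0 (Subtype.ext h ▸ hz))
        (fun h => heB (Subtype.ext h ▸ hz))
      have hgH : g ∈ H := hL ⟨(hmemM g).mpr (hfix o ho), by
        refine mem_stabilizer_iff.mpr ?_
        refine Set.ext fun z => ⟨?_, fun hz => ?_⟩
        · rintro ⟨_, ⟨z, hz, rfl⟩, rfl⟩
          exact ⟨z, hz, (hfix z hz).symm⟩
        · obtain ⟨z, hz, rfl⟩ := hz
          exact ⟨_, ⟨z, hz, rfl⟩, hfix z hz⟩⟩
      let g' : K := ⟨g, hHK hgH⟩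
      have e1 : g' • c = k • b := Subtype.ext g1
      have e2 : g' • (k • b) = e := Subtype.ext g2
      apply heB2
      rw [← e2, ← hB2.smul_eq_of_mem hcB2 (e1.symm ▸ hd0 : g' • c ∈ k • B)]
      exact Set.smul_mem_smul_set hd0
    · obtain ⟨g, hg, hgH⟩ := SetLike.not_le_iff_exists.mp hL
      have hlt : H.subgroupOf M < (M ⊓ stabilizer G B').subgroupOf M := by
        refine lt_of_le_not_ge (fun z hz => ⟨z.2, (hHL hz).2⟩) fun h' => hgH ?_
        exact h' (show (⟨g, hg.1⟩ : M) ∈ (M ⊓ stabilizer G B').subgroupOf M from hg)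
      have htop := hmax.2 _ hlt
      rw [Subgroup.subgroupOf_eq_top, le_inf_iff] at htop
      obtain ⟨f, f1, -, -, f4⟩ := three (G := G) n hcard hA (b : G ⧸ M) (c : G ⧸ M) (e : G ⧸ M)
        (fun h => hcb (Subtype.ext h).symm) (fun h => hne3 (Subtype.ext h).symm)
        (fun h => hne2 (Subtype.ext h).symm)
      have hfo : f • (o : G ⧸ M) = o := f4 _ hbo' (fun h => hco (Subtype.ext h).symm)
        (fun h => hne1 (Subtype.ext h).symm)
      have hfM : f ∈ M := (hmemM f).mpr hfo
      have hfB : f • B' = B' := htop.2 hfM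
      have : (c : G ⧸ M) ∈ B' := hfB ▸ f1 ▸ Set.smul_mem_smul_set ⟨b, hb, rfl⟩
      obtain ⟨z, hz, hzc⟩ := this
      exact hc (Subtype.ext hzc ▸ hz)
  · -- intransitive: `K` is the stabiliser of its orbit
    have hKst : stabilizer G (orbit K x₀) = K := by
      have hle : K ≤ stabilizer G (orbit K x₀) := fun k hk => by
        rw [mem_stabilizer_iff]; exact MulAction.smul_orbit (⟨k, hk⟩ : K) x₀
      rcases eq_or_lt_of_le hle with h | h
      · exact h.symm
      · exfalso
        apply hO
        refine Set.eq_univ_of_forall fun z => ?_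
        obtain ⟨g, rfl⟩ := exists_smul_eq G x₀ z
        have hgs : g ∈ stabilizer G (orbit K x₀) := hK.2 _ h ▸ Subgroup.mem_top g
        rw [← mem_stabilizer_iff.mp hgs]
        exact Set.smul_mem_smul_set (mem_orbit_self x₀)
    obtain ⟨g, g1, g2, g3, g4⟩ := three (G := G) n hcard hA (o : G ⧸ M) (b : G ⧸ M) (c : G ⧸ M) hbo'
      (fun h => hcb (Subtype.ext h).symm) (fun h => hco (Subtype.ext h).symm)
    have hgmap : ∀ z ∈ orbit K x₀, g • z ∈ orbit K x₀ := by
      intro z hz
      by_cases e1 : z = (o : G ⧸ M)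
      · rw [e1, g1]; exact b.2
      by_cases e2 : z = (b : G ⧸ M)
      · rw [e2, g2]; exact c.2
      by_cases e3 : z = (c : G ⧸ M)
      · rw [e3, g3]; exact o.2
      rw [g4 z e1 e2 e3]; exact hz
    have hgK : g ∈ K := by
      rw [← hKst]
      refine mem_stabilizer_set_iff_smul_set_subset (Set.toFinite _) |>.mpr ?_
      rintro _ ⟨z, hz, rfl⟩
      exact hgmap z hz
    let g' : K := ⟨g, hgK⟩
    have e1 : g' • o = b := Subtype.ext g1
    have e2 : g' • b = c := Subtype.ext g2
    apply hc
    rw [← e2, ← hB.smul_eq_of_mem ho (e1.symm ▸ hb : g' • o ∈ B)]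
    exact Set.smul_mem_smul_set hb

end Cfsg.Agent.S5885
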