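import Cfsg.Statements.S5887
import Mathlib

set_option autoImplicit false
open Cfsg

namespace Cfsg.Agent.S5887

open Matrix

variable {F : Type*} [Field F] [Fintype F] {n r : ℕ}

theorem one_add_pow_sq_zero {R : Type*} [Ring R] {N : R} (h : N * N = 0) (k : ℕ) : (1 + N) ^ k = 1 + k • N := by
  induction k with
  | zero => simp
  | succ k ih =>
    rw [pow_succ, ih, succ_nsmul]
    simp only [mul_add, mul_one, add_mul, one_mul, smul_mul_assoc, h, smul_zero, add_zero]
    abel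

theorem shear (K : Subalgebra F (Matrix (Fin n) (Fin n) F)) (hF : IsField ↥K) (hlt : Nat.card ↥K < Fintype.card F ^ n)
    (σ : ↥K →+* ↥K) (hσF : ∀ c : F, ∀ x : ↥K, x.1 = c • 1 → σ x = x) (k0 : ↥K) (hk0 : σ k0 ≠ k0) :
    ∃ g : GL (Fin n) F, g ∈ Cfsg.Geo.specialLinear (Fin n) F ∧
      (g : Matrix (Fin n) (Fin n) F) * k0.1 * ((g⁻¹ : GL (Fin n) F) : Matrix (Fin n) (Fin n) F) ∉ K ∧
      ∀ l : ↥K, σ l = l → (g : Matrix (Fin n) (Fin n) F) * l.1 * ((g⁻¹ : GL (Fin n) F) : Matrix (Fin n) (Fin n) F) = l.1 := by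
  classical
  have hone : ((1 : ↥K) : Matrix (Fin n) (Fin n) F) = 1 := rfl
  have hmul : ∀ a b : ↥K, ((a * b : ↥K) : Matrix (Fin n) (Fin n) F) = a.1 * b.1 := fun _ _ => rfl
  have hadd : ∀ a b : ↥K, ((a + b : ↥K) : Matrix (Fin n) (Fin n) F) = a.1 + b.1 := fun _ _ => rfl
  have hzero : ((0 : ↥K) : Matrix (Fin n) (Fin n) F) = 0 := rfl
  letI : Field ↥K := hF.toField
  letI : Module ↥K (Fin n → F) :=
    { smul := fun k v => k.1 *ᵥ v
      one_smul := fun v => by show (1 : ↥K).1 *ᵥ v = v; rw [hone, one_mulVec]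
      mul_smul := fun a b v => by show (a * b).1 *ᵥ v = a.1 *ᵥ (b.1 *ᵥ v); rw [hmul, mulVec_mulVec]
      smul_zero := fun a => mulVec_zero _
      smul_add := fun a v w => mulVec_add _ _ _
      add_smul := fun a b v => by show (a + b).1 *ᵥ v = a.1 *ᵥ v + b.1 *ᵥ v; rw [hadd, add_mulVec]
      zero_smul := fun v => by show (0 : ↥K).1 *ᵥ v = 0; rw [hzero, zero_mulVec] }
  have hn : Fintype.card F ^ n = Nat.card (Fin n → F) := by simp
  have hn0 : n ≠ 0 := by
    rintro rfl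
    have : 0 < Nat.card ↥K := Nat.card_pos
    simp at hlt
  let v2 : Fin n → F := Pi.single ⟨0, Nat.pos_of_ne_zero hn0⟩ 1
  have hv2 : v2 ≠ 0 := by simp [v2]
  have hW : Submodule.span ↥K {v2} ≠ ⊤ := by
    intro hW
    have hs : Function.Surjective fun k : ↥K => k • v2 := fun v =>
      Submodule.mem_span_singleton.1 (hW ▸ Submodule.mem_top : v ∈ Submodule.span ↥K {v2})
    have := Nat.card_le_card_of_surjective _ hs
    omega
  obtain ⟨v0, hv0⟩ : ∃ v0, v0 ∉ Submodule.span ↥K {v2} := by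
    by_contra h; push Not at h; exact hW ((Submodule.eq_top_iff').2 h)
  obtain ⟨ℓ, hℓv, hker⟩ := Submodule.exists_le_ker_of_notMem hv0
  have hℓ : ℓ ≠ 0 := fun h => hℓv (by rw [h]; rfl)
  have hℓ2 : ℓ v2 = 0 := hker (Submodule.mem_span_singleton_self v2)
  obtain ⟨w, hw⟩ : ∃ w, ℓ w ≠ 0 := by by_contra h; push Not at h; exact hℓ (LinearMap.ext h)
  let v1 := (ℓ w)⁻¹ • w
  have hv1 : ℓ v1 = 1 := by rw [map_smul, smul_eq_mul, inv_mul_cancel₀ hw]
  have hscal : ∀ (c : F) (v : Fin n → F), c • v = (⟨c • 1, K.smul_mem K.one_mem c⟩ : ↥K) • v := fun c v => by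
    show c • v = (c • (1 : Matrix (Fin n) (Fin n) F)) *ᵥ v
    rw [smul_mulVec, one_mulVec]
  let φ : (Fin n → F) →ₗ[F] (Fin n → F) :=
    { toFun := fun v => σ (ℓ v) • v2
      map_add' := fun v w => by rw [map_add, map_add, add_smul]
      map_smul' := fun c v => by
        rw [hscal, map_smul, smul_eq_mul, map_mul, hσF c _ rfl, mul_smul, RingHom.id_apply, hscal c] }
  set N := LinearMap.toMatrix' φ with hN
  have hNv : ∀ v, N *ᵥ v = σ (ℓ v) • v2 := fun v => by
    rw [hN, ← Matrix.toLin'_apply, Matrix.toLin'_toMatrix']; rfl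
  have hNkN : ∀ k : ↥K, N * k.1 * N = 0 := fun k => by
    refine Matrix.ext_of_mulVec_single fun i => ?_
    rw [← mulVec_mulVec, ← mulVec_mulVec, hNv, zero_mulVec]
    change σ (ℓ (k • (N *ᵥ Pi.single i 1))) • v2 = 0
    rw [hNv, ℓ.map_smul, ℓ.map_smul, hℓ2, smul_zero, smul_zero, map_zero, zero_smul]
  have hNN : N * N = 0 := by have := hNkN 1; rwa [hone, mul_one] at this
  let g : GL (Fin n) F :=
    ⟨1 + N, 1 - N, by simp [add_mul, mul_sub, hNN], by simp [sub_mul, mul_add, hNN]⟩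
  have hconj : ∀ k : ↥K, (g : Matrix (Fin n) (Fin n) F) * k.1 * ((g⁻¹ : GL (Fin n) F) : Matrix (Fin n) (Fin n) F)
      = k.1 + (N * k.1 - k.1 * N) := fun k => by
    show (1 + N) * k.1 * (1 - N) = _
    rw [mul_sub, mul_one, add_mul, one_mul, add_mul, hNkN k]
    abel
  refine ⟨g, ?_, fun hmem => ?_, fun l hl => ?_⟩
  · show Matrix.GeneralLinearGroup.det g = 1
    refine Units.ext ?_
    show (1 + N).det = 1
    rw [← FiniteField.pow_card (1 + N).det, ← det_pow, one_add_pow_sq_zero hNN, ← Nat.cast_smul_eq_nsmul F,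
      FiniteField.cast_card_eq_zero, zero_smul, add_zero, det_one]
  · rw [hconj] at hmem
    let D : ↥K := ⟨N * k0.1 - k0.1 * N, by simpa using K.sub_mem hmem k0.2⟩
    have hD : ∀ v, D • v = σ (ℓ (k0 • v)) • v2 - k0 • (σ (ℓ v) • v2) := fun v => by
      show (N * k0.1 - k0.1 * N) *ᵥ v = _
      rw [sub_mulVec, ← mulVec_mulVec, ← mulVec_mulVec, hNv, hNv]; rfl
    have h2 : D • v2 = 0 := by rw [hD, map_smul, hℓ2]; simp
    have hD0 : D = 0 := (smul_eq_zero.1 h2).resolve_right hv2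
    have h1 := hD v1
    rw [hD0, zero_smul, map_smul, hv1, smul_eq_mul, mul_one, map_one, one_smul, ← sub_smul] at h1
    exact hk0 (sub_eq_zero.1 ((smul_eq_zero.1 h1.symm).resolve_right hv2))
  · rw [hconj]
    suffices N * l.1 = l.1 * N by rw [this, sub_self, add_zero]
    refine Matrix.ext_of_mulVec_single fun i => ?_
    rw [← mulVec_mulVec, ← mulVec_mulVec, hNv, hNv]
    change σ (ℓ (l • _)) • v2 = l • (σ (ℓ _) • v2)
    rw [map_smul, smul_eq_mul, map_mul, hl, mul_smul]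


/-- Let F be a finite field, n a positive integer and r a composite number (r > 1, not prime) that divides n with r < n. Let K be a subalgebra of the algebra of n × n matrices over F which is a field of degree r over F (commutative, every non-zero element invertible, of dimension r over F). Then the normaliser N of K in GL_n(F) (a group of type ΓL_{n/r}(F_{q^r})) is not a maximal subgroup of GL_n(F), and N ∩ SL_n(F) is not a maximal subgroup of SL_n(F): both lie properly inside the normaliser of an intermediate subfield of prime degree over F. -/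
theorem result {F : Type*} [Field F]
    [Fintype F] (n r : ℕ) (hr1 : 1 < r) (hrp : ¬ r.Prime) (hrn : r ∣ n) (hlt : r < n)
    (K : Subalgebra F (Matrix (Fin n) (Fin n) F)) (hK : Cfsg.Geo.IsFieldSubalgebra r K) :
    ¬ IsCoatom (Cfsg.Geo.subalgebraNormalizer K) ∧
      ¬ Cfsg.Geo.IsMaximalIn (Cfsg.Geo.specialLinear (Fin n) F)
        (Cfsg.Geo.subalgebraNormalizer K ⊓ Cfsg.Geo.specialLinear (Fin n) F) := by
  classical
  obtain ⟨d, hdr, hd1, hdr'⟩ : ∃ d, d ∣ r ∧ 1 < d ∧ d < r := by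
    obtain ⟨d, h1, h2, h3⟩ := Nat.exists_dvd_of_not_prime2 (show 2 ≤ r by omega) hrp
    exact ⟨d, h1, by omega, h3⟩
  have hfin : Finite ↥K := Subtype.finite
  letI : Fintype ↥K := Fintype.ofFinite _
  have hIsF : IsField ↥K := by
    refine ⟨⟨0, 1, ?_⟩, fun a b => Subtype.ext (hK.comm a a.2 b b.2), fun {a} ha => ?_⟩
    · intro h
      have hs : Subsingleton ↥K := subsingleton_of_zero_eq_one h
      have h0 : Module.finrank F ↥K = 0 := Module.finrank_zero_of_subsingleton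
      rw [hK.finrank_eq] at h0
      omega
    · obtain ⟨y, hy, hxy⟩ := hK.inv a a.2 fun h => ha (Subtype.ext h)
      exact ⟨⟨y, hy⟩, Subtype.ext hxy⟩
  letI : Field ↥K := hIsF.toField
  set q := Fintype.card F with hq
  have hq1 : 1 < q := Fintype.one_lt_card
  have hcard : Nat.card ↥K = q ^ r := by
    rw [Module.natCard_eq_pow_finrank (K := F), hK.finrank_eq, Nat.card_eq_fintype_card]
  let σ : ℕ → (↥K →ₐ[F] ↥K) := fun m => (FiniteField.frobeniusAlgHom F ↥K) ^ m
  have hσ : ∀ m x, σ m x = x ^ q ^ m := by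
    intro m
    induction m with
    | zero => intro x; simp [σ]
    | succ m ih =>
      intro x
      show ((FiniteField.frobeniusAlgHom F ↥K) ^ (m + 1)) x = _
      rw [pow_succ, AlgHom.mul_apply]
      show σ m (FiniteField.frobeniusAlgHom F ↥K x) = _
      rw [ih, FiniteField.coe_frobeniusAlgHom, ← pow_mul, ← pow_succ']
  have hσF : ∀ m, ∀ c : F, ∀ x : ↥K, x.1 = c • (1 : Matrix (Fin n) (Fin n) F) → (σ m).toRingHom x = x := by
    intro m c x hx
    have : x = algebraMap F ↥K c := Subtype.ext (by rw [hx]; exact (Algebra.algebraMap_eq_smul_one c).symm)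
    rw [this]; exact (σ m).commutes c
  have hlt' : Nat.card ↥K < q ^ n := hcard ▸ Nat.pow_lt_pow_right hq1 hlt
  -- an element of the fixed field outside the prime field
  have : IsCyclic (↥K)ˣ := inferInstance
  obtain ⟨ζ, hζ⟩ := IsCyclic.exists_generator (α := (↥K)ˣ)
  have hoζ : orderOf ζ = q ^ r - 1 := by
    rw [orderOf_eq_card_of_forall_mem_zpowers hζ, Nat.card_units, hcard]
  have hdvd : q ^ d - 1 ∣ q ^ r - 1 := by
    obtain ⟨e, rfl⟩ := hdr
    rw [pow_mul]; exact Nat.sub_one_dvd_pow_sub_one _ _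
  obtain ⟨k, hk⟩ := hdvd
  have hqd : q ^ 1 < q ^ d := Nat.pow_lt_pow_right hq1 hd1
  rw [pow_one] at hqd
  have hqr : q ^ d < q ^ r := Nat.pow_lt_pow_right hq1 hdr'
  have hk0 : k ≠ 0 := by rintro rfl; rw [mul_zero] at hk; omega
  let z : (↥K)ˣ := ζ ^ k
  have hoz : orderOf z = q ^ d - 1 := by
    rw [orderOf_pow' ζ hk0, hoζ, hk, Nat.gcd_mul_left_left, Nat.mul_div_cancel _ (Nat.pos_of_ne_zero hk0)]
  have fixd : ∀ {u : (↥K)ˣ} {m : ℕ}, σ m (u : ↥K) = u ↔ orderOf u ∣ q ^ m - 1 := by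
    intro u m
    rw [hσ, ← Units.val_pow_eq_pow_val, Units.val_inj, orderOf_dvd_iff_pow_eq_one]
    have : 1 ≤ q ^ m := Nat.one_le_pow _ _ (by omega)
    constructor
    · intro h
      exact mul_left_cancel (a := u) (by rw [← pow_succ', Nat.sub_add_cancel this, h, mul_one])
    · intro h
      rw [← Nat.sub_add_cancel this, pow_succ', h, mul_one]
  have hz_d : σ d (z : ↥K) = z := fixd.2 (hoz ▸ dvd_rfl)
  have hz_1 : σ 1 (z : ↥K) ≠ z := fun h => by
    have := Nat.le_of_dvd (by rw [pow_one]; omega) (hoz ▸ fixd.1 h)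
    rw [pow_one] at this; omega
  have hζ_d : σ d (ζ : ↥K) ≠ ζ := fun h => by
    have := Nat.le_of_dvd (by omega) (hoζ ▸ fixd.1 h)
    omega
  -- the fixed field
  let E : Subalgebra F (Matrix (Fin n) (Fin n) F) := (AlgHom.equalizer (σ d) (AlgHom.id F ↥K)).map K.val
  have memE : ∀ x, x ∈ E ↔ x ∈ K ∧ x ^ q ^ d = x := by
    intro x
    constructor
    · rintro ⟨y, hy, rfl⟩
      refine ⟨y.2, ?_⟩
      have h : σ d y = y := hy
      rw [hσ] at h
      exact congrArg Subtype.val h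
    · rintro ⟨hx, hx'⟩
      refine ⟨⟨x, hx⟩, ?_, rfl⟩
      show σ d ⟨x, hx⟩ = ⟨x, hx⟩
      rw [hσ]; exact Subtype.ext hx'
  have hNE : Cfsg.Geo.subalgebraNormalizer K ≤ Cfsg.Geo.subalgebraNormalizer E := by
    intro g hg x
    rw [memE, memE, ← hg x, Units.conj_pow g x]
    refine and_congr_right fun _ => ⟨fun h => by rw [h], fun h => ?_⟩
    exact (Units.mul_right_inj g).1 ((Units.mul_left_inj g⁻¹).1 h)
  obtain ⟨g1, h1s, h1K, h1c⟩ := shear K hIsF hlt' (σ d).toRingHom (hσF d) (ζ : ↥K) hζ_d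
  obtain ⟨g2, h2s, h2K, -⟩ := shear K hIsF hlt' (σ 1).toRingHom (hσF 1) (z : ↥K) hz_1
  have h1E : g1 ∈ Cfsg.Geo.subalgebraNormalizer E := by
    intro x
    have hfix : ∀ y ∈ E, (g1 : Matrix (Fin n) (Fin n) F) * y * ((g1⁻¹ : GL (Fin n) F) : Matrix (Fin n) (Fin n) F) = y := by
      rintro _ ⟨y, hy, rfl⟩; exact h1c y hy
    refine ⟨fun hx => by rw [hfix x hx]; exact hx, fun hx => ?_⟩
    have := hfix _ hx
    have h' := (Units.mul_right_inj g1).1 ((Units.mul_left_inj g1⁻¹).1 this)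
    rwa [h'] at hx
  have h1N : g1 ∉ Cfsg.Geo.subalgebraNormalizer K := fun h => h1K ((h _).1 (ζ : ↥K).2)
  have h2E : g2 ∉ Cfsg.Geo.subalgebraNormalizer E := fun h => by
    have hzE : ((z : ↥K) : Matrix (Fin n) (Fin n) F) ∈ E := ⟨(z : ↥K), hz_d, rfl⟩
    exact h2K ((memE _).1 ((h _).1 hzE)).1
  constructor
  · intro hmax
    have hlt : Cfsg.Geo.subalgebraNormalizer K < Cfsg.Geo.subalgebraNormalizer E :=
      lt_of_le_of_ne hNE fun h => h1N (h ▸ h1E)
    exact h2E (by rw [hmax.2 _ hlt]; trivial)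
  · rintro ⟨-, hmax⟩
    rcases hmax (Cfsg.Geo.specialLinear (Fin n) F ⊓ Cfsg.Geo.subalgebraNormalizer E)
      (le_inf inf_le_right (inf_le_left.trans hNE)) inf_le_left with h | h
    · exact h1N (h.le ⟨h1s, h1E⟩).1
    · exact h2E (h.ge h2s).2

end Cfsg.Agent.S5887
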