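import Cfsg.Agent.Lib.PSLTwo.PGLMax
import Cfsg.Agent.Lib.PSLTwo.PairMax
import Cfsg.Agent.Lib.PSLTwo.QAMax
import Cfsg.Agent.Lib.PSLTwo.SubMax
import Cfsg.Statements.S5890

set_option linter.style.longLine false

open Matrix MulAction OnePoint
open scoped MatrixGroups
open Cfsg.Agent.Lib.PSLTwo

namespace Cfsg.Agent.S5890

/-- A point stabiliser is maximal in `L`. -/
theorem maxIn_stab {F : Type*} [Field F] [Fintype F] [DecidableEq F] (hodd : Odd (Fintype.card F))
    (h5 : 5 ≤ Fintype.card F) (a : OnePoint F) (h9 : Fintype.card F ≠ 9) :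
    MaxIn (stabilizer PGL(2, F) a ⊓ Lsub F) (Lsub F) := by
  classical
  obtain ⟨p, hp⟩ := CharP.exists F
  haveI : Fact p.Prime := ⟨CharP.char_is_prime F p⟩
  have hpp : p.Prime := Fact.out
  obtain ⟨n, -, hn⟩ := FiniteField.card F p
  obtain ⟨E, _, _, _, hE⟩ := exists_quadExt F
  have hB := two_mul_card_stab_Lsub hodd a
  have hL := two_card_L hodd
  refine ⟨lt_of_le_of_ne inf_le_right fun e => ?_, fun X hX1 hX2 => ?_⟩
  · rw [e] at hB
    have : Fintype.card F - 1 < Fintype.card F ^ 2 - 1 := by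
      have := Nat.mul_le_mul_right (Fintype.card F) h5
      rw [sq]; omega
    have := Nat.mul_lt_mul_of_pos_left this (show 0 < Fintype.card F by omega)
    omega
  have hdvd : Fintype.card F * (Fintype.card F - 1) ∣ 2 * Nat.card X :=
    hB ▸ Nat.mul_dvd_mul_left 2 (Subgroup.card_dvd_of_le hX1)
  have hqX : Fintype.card F ∣ Nat.card X := by
    have h1 := dvd_trans (dvd_mul_right (Fintype.card F) _) hdvd
    refine Nat.Coprime.dvd_of_dvd_mul_left ?_ h1
    rw [Nat.coprime_two_right]; exact hodd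
  have hpX : p ∣ Nat.card X := dvd_trans (hn ▸ dvd_pow_self _ n.pos.ne') hqX
  have hcop : ∀ T, (T = Fintype.card F - 1 ∨ T = Fintype.card F + 1) → ¬ Fintype.card F ∣ 2 * T := fun T hT h => by
    have h1 : Fintype.card F ∣ T := Nat.Coprime.dvd_of_dvd_mul_left (by rw [Nat.coprime_two_right]; exact hodd) h
    rcases hT with rfl | rfl
    · have := Nat.le_of_dvd (by omega) h1; omega
    · have := Nat.dvd_sub h1 (dvd_refl (Fintype.card F))
      rw [Nat.add_sub_cancel_left] at this
      have := Nat.le_of_dvd one_pos this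
      omega
  have hpS : ∀ x y : OnePoint E, IsTorusPair F x y → ¬ X ≤ pairStab F x y := fun x y hxy h => by
    refine hcop _ (card_torus_cases hE hxy) ?_
    rw [← (pairStab_spec hE hxy).1]
    exact hqX.trans (Subgroup.card_dvd_of_le h)
  rcases classify (p := p) hE X with ⟨b, hb⟩ | ⟨x, y, hxy, -, hx⟩ | ⟨x, y, hxy, j, -, -, -, hx, -, -⟩ |
    ⟨hp12, hc, -⟩ | ⟨hp24, hc, -⟩ | ⟨hp60, hc, -⟩ | ⟨K, γ, -, hK⟩
  · refine Or.inl (Subgroup.eq_of_le_of_card_ge hX1 ?_).symm
    have := two_mul_card_stab_Lsub hodd b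
    have := Nat.le_of_dvd Nat.card_pos (Subgroup.card_dvd_of_le (le_inf hb hX2))
    omega
  · exact absurd (hx.trans (torus_le_pairStab x y)) (hpS x y hxy)
  · exact absurd hx (hpS x y hxy)
  · exact absurd (hc ▸ hpX) hp12
  · exact absurd (hc ▸ hpX) hp24
  · exfalso
    rcases hp60 with h | h
    · exact h (hc ▸ hpX)
    · subst h
      rw [hc] at hqX
      have hn2 : (n : ℕ) ≤ 1 := by
        by_contra hlt
        have : 3 ^ 2 ∣ 60 := dvd_trans (hn ▸ Nat.pow_dvd_pow 3 (by omega)) hqX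
        norm_num at this
      have := Nat.pow_le_pow_right (show 1 ≤ 3 by norm_num) hn2
      omega
  · by_cases hfull : Nat.card K = Fintype.card F
    · exact Or.inr (eq_Lsub_of_full hodd hX2 hfull hK)
    exfalso
    obtain ⟨m, -, hm⟩ := exists_card_pow K
    have h1 : Fintype.card F ∣ Nat.card K * (Nat.card K ^ 2 - 1) := by
      rcases card_of_subfield hK with c | ⟨-, c⟩
      · exact c ▸ hqX
      · exact c ▸ hqX.mul_left 2
    have hq1 : 1 < Nat.card K := one_lt_card_subfield K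
    have hcop' : Nat.Coprime (Fintype.card F) (Nat.card K ^ 2 - 1) := by
      rw [hm]
      refine Nat.Coprime.pow_left _ ?_
      have h2 : Nat.gcd (Nat.card K) (Nat.card K ^ 2 - 1) ∣ 1 := by
        have g1 := (Nat.gcd_dvd_left (Nat.card K) (Nat.card K ^ 2 - 1)).trans (dvd_pow_self (Nat.card K) two_ne_zero)
        have := Nat.dvd_sub g1 (Nat.gcd_dvd_right (Nat.card K) (Nat.card K ^ 2 - 1))
        rwa [Nat.sub_sub_self (Nat.one_le_pow _ _ (by omega))] at this
      exact Nat.dvd_one.mp h2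
    have := Nat.le_of_dvd (by omega) (hcop'.dvd_of_dvd_mul_right h1)
    exact hfull (le_antisymm (by rw [← Nat.card_eq_fintype_card (α := F)]; exact Finite.card_subtype_le _) this)

/-- Let F be a finite field with q ≥ 4 elements, let L ≤ PGL₂(F) be the image of SL₂(F) (a copy of PSL₂(F), of index gcd(2, q − 1)), and let M be a maximal subgroup of PGL₂(F) that does not contain L. Suppose q ∉ {7, 9, 11} and that q is not a prime congruent to ±11 or ±19 modulo 40. Then M ∩ L is a maximal subgroup of L. (For the excluded q there are maximal subgroups of PGL₂(q) — dihedral groups of order 12 and 16 at q = 7, of order 20 and 16 at q = 9, of order 20 at q = 11, and S₄ at the excluded primes — whose intersection with L is not maximal in L.) -/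
theorem result {F : Type*} [Field F]
    [Fintype F] (h4 : 4 ≤ Fintype.card F) (h7 : Fintype.card F ≠ 7) (h9 : Fintype.card F ≠ 9) (h11 : Fintype.card F ≠ 11)
    (h40 : (Fintype.card F).Prime → Fintype.card F % 40 ∉ ({11, 19, 21, 29} : Finset ℕ))
    (M : Subgroup (Matrix.ProjGenLinGroup (Fin 2) F)) (hM : IsCoatom M)
    (hML : ¬ (Matrix.ProjGenLinGroup.mk.comp Matrix.SpecialLinearGroup.toGL).range ≤ M) :
    IsCoatom ((M ⊓ (Matrix.ProjGenLinGroup.mk.comp Matrix.SpecialLinearGroup.toGL).range).subgroupOf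
      (Matrix.ProjGenLinGroup.mk.comp Matrix.SpecialLinearGroup.toGL).range) := by
  classical
  show IsCoatom ((M ⊓ Lsub F).subgroupOf (Lsub F))
  rw [← maxIn_subgroupOf]
  rcases Nat.even_or_odd (Fintype.card F) with he | hodd
  · rw [Lsub_eq_top_of_even (F := F) he, inf_top_eq]
    exact maxIn_top.mpr hM
  obtain ⟨a, b, hxy⟩ := exists_sum_sq_neg_one F
  obtain ⟨E, _, _, _, hE⟩ := exists_quadExt F
  haveI : (Lsub F).Normal := Lsub_normal
  have h5 : 5 ≤ Fintype.card F := by obtain ⟨r, hr⟩ := hodd; omega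
  have h2 : (2 : F) ≠ 0 := Ring.two_ne_zero (ringChar_ne_two hodd)
  have hconj : ∀ (γ : PGL(2, F)) (Y : Subgroup PGL(2, F)), M.map (MulAut.conj γ).toMonoidHom = Y →
      MaxIn (Y ⊓ Lsub F) (Lsub F) → MaxIn (M ⊓ Lsub F) (Lsub F) := fun γ Y hY h => by
    have := h.map_conj γ⁻¹
    rwa [Subgroup.map_inf _ _ _ (MulAut.conj γ⁻¹).injective, map_conj_normal (L := Lsub F), ← hY, map_conj_inv] at this
  rcases pglMax hE hodd (by omega) hxy M hM hML with ⟨c, h⟩ | ⟨u, v, huv, h, hne5⟩ | ⟨p, hp, hF, hp5, hns, γ, h⟩ |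
    ⟨K, r, hr, hro, hm, γ, h⟩
  · rw [h]; exact maxIn_stab hodd h5 c h9
  · rw [h]
    exact maxIn_pair hE huv h4 (fun hr _ => by have := hne5 hr; obtain ⟨r, hr'⟩ := hodd; omega)
      (fun _ => ⟨h7, h9⟩)
  · haveI : Fact p.Prime := ⟨hp⟩
    refine hconj γ _ h ?_
    rw [qN_inf_Lsub hxy h2 hns]
    have h40' := h40 (hF ▸ hp)
    rw [FiniteField.isSquare_two_iff] at hns
    simp only [Finset.mem_insert, Finset.mem_singleton] at h40'
    refine maxIn_qA p hF hp5 (by omega) ?_ hxy h2
    omega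
  · obtain ⟨p, hp⟩ := CharP.exists F
    haveI : Fact p.Prime := ⟨CharP.char_is_prime F p⟩
    obtain ⟨j, hj, hKj⟩ := card_subfield_eq_pow p K
    refine hconj γ _ h ?_
    rw [subPGL_inf_Lsub hodd K (by
      rw [subPGL_le_Lsub_iff, forall_square_iff hodd K hm, Nat.not_even_iff_odd]; exact hro)]
    exact maxIn_subPSL hodd (by omega) hr (fun e => by rw [e] at hro; exact absurd hro (by decide))
      (by rw [hm, hKj, ← pow_mul]) K hKj

end Cfsg.Agent.S5890
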