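import Cfsg.Agent.Lib.PSLTwo.PGLMax
import Cfsg.Statements.S5891

set_option linter.style.longLine false

open Matrix MulAction OnePoint
open scoped MatrixGroups
open Cfsg.Agent.Lib.PSLTwo

namespace Cfsg.Agent.S5891

/-- Let F be a finite field of odd order q > 3 and characteristic p, and let M be a maximal subgroup of PGL₂(F) not containing the image L of SL₂(F) (a copy of PSL₂(F) of index 2). Then one of the following holds: |M| = q(q − 1) (M is the stabiliser of a point of the projective line); q ≠ 5 and M is dihedral of order 2(q − 1); M is dihedral of order 2(q + 1); q = p ≡ ±3 (mod 8) and M ≅ S₄; or q = q₀^r for an odd prime r and M ≅ PGL₂(F₀) with |F₀| = q₀. -/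
theorem result {F : Type*} [Field F] [Fintype F]
    (hodd : Odd (Fintype.card F)) (h3 : 3 < Fintype.card F) (M : Subgroup (Matrix.ProjGenLinGroup (Fin 2) F)) (hM : IsCoatom M)
    (hML : ¬ (Matrix.ProjGenLinGroup.mk.comp Matrix.SpecialLinearGroup.toGL).range ≤ M) :
    Nat.card M = Fintype.card F * (Fintype.card F - 1) ∨
    (Fintype.card F ≠ 5 ∧ Nonempty (M ≃* DihedralGroup (Fintype.card F - 1))) ∨
    Nonempty (M ≃* DihedralGroup (Fintype.card F + 1)) ∨
    ((Fintype.card F).Prime ∧ (Fintype.card F % 8 = 3 ∨ Fintype.card F % 8 = 5) ∧ Nonempty (M ≃* Equiv.Perm (Fin 4))) ∨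
    (∃ (F₀ : Type) (_ : Field F₀) (_ : Fintype F₀) (r : ℕ), r.Prime ∧ Odd r ∧ Fintype.card F = Fintype.card F₀ ^ r ∧
        Nonempty (M ≃* Matrix.ProjGenLinGroup (Fin 2) F₀)) := by
  classical
  obtain ⟨a, b, hxy⟩ := exists_sum_sq_neg_one F
  obtain ⟨E, _, _, _, hE⟩ := exists_quadExt F
  have h2 : (2 : F) ≠ 0 := Ring.two_ne_zero (ringChar_ne_two hodd)
  rcases pglMax hE hodd h3 hxy M hM hML with ⟨c, h⟩ | ⟨u, v, huv, h, h5⟩ | ⟨p, hp, hF, -, hns, γ, h⟩ |
    ⟨K, r, hr, hro, hm, γ, h⟩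
  · exact Or.inl (by rw [h, card_stab_point])
  · obtain ⟨-, ⟨e⟩⟩ := pairStab_spec hE huv
    subst h
    by_cases hr : IsRat F u
    · rw [(card_torus hE huv).1 hr] at e
      exact Or.inr (Or.inl ⟨h5 hr, ⟨e⟩⟩)
    · rw [(card_torus hE huv).2 hr] at e
      exact Or.inr (Or.inr (Or.inl ⟨e⟩))
  · obtain ⟨e⟩ := qN_iso hxy h2
    refine Or.inr (Or.inr (Or.inr (Or.inl ⟨hF ▸ hp, ?_, ⟨?_⟩⟩)))
    · rw [FiniteField.isSquare_two_iff] at hns; omega
    · exact ((M.equivMapOfInjective _ (MulAut.conj γ).injective).trans (MulEquiv.subgroupCongr h)).trans e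
  · obtain ⟨K₀, _, _, hc, ⟨e⟩⟩ := exists_small_field K
    refine Or.inr (Or.inr (Or.inr (Or.inr ⟨K₀, inferInstance, inferInstance, r, hr, hro, ?_, ⟨?_⟩⟩)))
    · rw [hm, ← hc, Nat.card_eq_fintype_card]
    · exact ((M.equivMapOfInjective _ (MulAut.conj γ).injective).trans (MulEquiv.subgroupCongr h)).trans
        ((subPGLEquiv K).symm.trans (pglCongr e.symm))

end Cfsg.Agent.S5891
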