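import Cfsg.Agent.Lib.PSLTwo.SmallDihedral
import Cfsg.Statements.S5892

set_option linter.style.longLine false
set_option linter.style.haveILetI false

open Matrix MulAction OnePoint
open scoped MatrixGroups
open Cfsg.Agent.Lib.PSLTwo

namespace Cfsg.Agent.S5892

theorem two_mul_cube_lt {Q q : ℕ} (h3 : 3 ≤ Q) (h : Q * Q ≤ q) :
    2 * (Q * (Q ^ 2 - 1)) < q * (q ^ 2 - 1) := by
  have h1 : 3 * Q ≤ q := (Nat.mul_le_mul_right Q h3).trans h
  have h2 : Q ^ 2 - 1 ≤ q ^ 2 - 1 := Nat.sub_le_sub_right (Nat.pow_le_pow_left (by omega) 2) 1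
  have h0 : 0 < Q ^ 2 - 1 := by have := Nat.pow_le_pow_left h3 2; omega
  calc 2 * (Q * (Q ^ 2 - 1)) = (2 * Q) * (Q ^ 2 - 1) := by ring
    _ < (3 * Q) * (Q ^ 2 - 1) := Nat.mul_lt_mul_of_pos_right (by omega) h0
    _ ≤ q * (q ^ 2 - 1) := Nat.mul_le_mul h1 h2

/-- Let F be a finite field of odd order q ≥ 5 and characteristic p, and let M be a maximal subgroup of PSL₂(F). Then one of the following holds: |M| = q(q − 1)/2 (the stabiliser of a point of the projective line); q ≥ 13 and M is dihedral of order q − 1; q ∉ {7, 9} and M is dihedral of order q + 1; q = q₀² and M ≅ PGL₂(F₀) with |F₀| = q₀; q = q₀^r for an odd prime r and M ≅ PSL₂(F₀) with |F₀| = q₀; q ≡ ±1 (mod 10) with q = p or q = p², p ≡ ±3 (mod 10), and M ≅ A₅; q = p ≡ ±3 (mod 8), q ≢ ±1 (mod 10), and M ≅ A₄; or q = p ≡ ±1 (mod 8) and M ≅ S₄. -/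
theorem result {F : Type*} [Field F] [Fintype F] (p : ℕ)
    [Fact p.Prime] [CharP F p] (hodd : Odd (Fintype.card F)) (h5 : 5 ≤ Fintype.card F)
    (M : Subgroup (Matrix.ProjectiveSpecialLinearGroup (Fin 2) F)) (hM : IsCoatom M) :
    2 * Nat.card M = Fintype.card F * (Fintype.card F - 1) ∨
    (13 ≤ Fintype.card F ∧ (∃ k : ℕ, 2 * k = Fintype.card F - 1 ∧ Nonempty (M ≃* DihedralGroup k))) ∨
    (Fintype.card F ≠ 7 ∧ Fintype.card F ≠ 9 ∧ (∃ k : ℕ, 2 * k = Fintype.card F + 1 ∧ Nonempty (M ≃* DihedralGroup k))) ∨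
    (∃ (F₀ : Type) (_ : Field F₀) (_ : Fintype F₀), Fintype.card F = Fintype.card F₀ ^ 2 ∧
        Nonempty (M ≃* Matrix.ProjGenLinGroup (Fin 2) F₀)) ∨
    (∃ (F₀ : Type) (_ : Field F₀) (_ : Fintype F₀) (r : ℕ), r.Prime ∧ Odd r ∧ Fintype.card F = Fintype.card F₀ ^ r ∧
        Nonempty (M ≃* Matrix.ProjectiveSpecialLinearGroup (Fin 2) F₀)) ∨
    ((Fintype.card F % 10 = 1 ∨ Fintype.card F % 10 = 9) ∧
        (Fintype.card F = p ∨ (Fintype.card F = p ^ 2 ∧ (p % 10 = 3 ∨ p % 10 = 7))) ∧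
        Nonempty (M ≃* alternatingGroup (Fin 5))) ∨
    (Fintype.card F = p ∧ (p % 8 = 3 ∨ p % 8 = 5) ∧ ¬ (p % 10 = 1 ∨ p % 10 = 9) ∧
        Nonempty (M ≃* alternatingGroup (Fin 4))) ∨
    (Fintype.card F = p ∧ (p % 8 = 1 ∨ p % 8 = 7) ∧ Nonempty (M ≃* Equiv.Perm (Fin 4))) := by
  classical
  obtain ⟨E, _, _, _, hE⟩ := exists_quadExt F
  obtain ⟨a, b, hxy⟩ := exists_sum_sq_neg_one F
  have h2 : (2 : F) ≠ 0 := Ring.two_ne_zero (ringChar_ne_two hodd)
  haveI : (Lsub F).Normal := Lsub_normal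
  have hpp : p.Prime := Fact.out
  obtain ⟨n, -, hn⟩ := FiniteField.card F p
  have hp2 : p ≠ 2 := fun e => by
    rw [hn, Nat.odd_pow_iff n.pos.ne', e] at hodd
    exact absurd hodd (by decide)
  have hL := two_card_L hodd
  set X := M.map (toP F) with hX
  have hXM : MaxIn X (Lsub F) := (isCoatom_iff_maxIn M).mp hM
  let eX : M ≃* X := M.equivMapOfInjective _ toP_injective
  have hcX : Nat.card M = Nat.card X := Nat.card_congr eX.toEquiv
  have heq : ∀ {Y Z : Subgroup PGL(2, F)}, MaxIn Y (Lsub F) → Y ≤ Z → Z ≤ Lsub F → Nat.card Z < Nat.card (Lsub F) →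
      Y = Z := fun hY h1 h2 h3 => hY.eq_of_le h1 h2 (fun e => h3.ne (by rw [e]))
  -- subgroups over the prime field
  have hprime : ∀ {Z : Subgroup PGL(2, F)} {Y : Subgroup PGL(2, F)}, 5 ≤ p → MaxIn Y (Lsub F) → Y ≤ Z →
      Z = qN hxy → Nat.card Y ≤ 24 → Fintype.card F = p := by
    intro Z Y hp5 hY hYZ hZ hc
    by_contra hne
    obtain ⟨Kp, hKp⟩ := prime_card_subfield (F := F) (p := p)
    have hn2 : 2 ≤ (n : ℕ) := by
      have := n.pos
      by_contra hlt
      exact hne (by rw [hn, show (n : ℕ) = 1 by omega, pow_one])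
    have hpq : p * p ≤ Fintype.card F := by
      rw [hn, ← pow_two]; exact Nat.pow_le_pow_right (by omega) hn2
    have hlt := two_mul_cube_lt (by omega) hpq
    have hcY : Nat.card (subPGL Kp ⊓ Lsub F : Subgroup PGL(2, F)) < Nat.card (Lsub F) := by
      have := Nat.le_of_dvd Nat.card_pos (Subgroup.card_dvd_of_le (inf_le_left (a := subPGL Kp) (b := Lsub F)))
      rw [card_subPGL, hKp] at this
      omega
    have h1 : Y ≤ subPGL Kp ⊓ Lsub F := le_inf
      ((hYZ.trans hZ.le).trans (qN_le_subPGL hxy h2 (natCast_mem Kp a) (natCast_mem Kp b))) hY.1.le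
    have := heq hY h1 inf_le_right hcY
    have hge := Nat.le_of_dvd Nat.card_pos (Subgroup.card_dvd_of_le (le_inf (subPSL_le_subPGL Kp) (subPSL_le_Lsub Kp)))
    rw [← this] at hge
    have h120 := nat_cube_mono hp5
    have := two_mul_card_subPSL Kp (odd_card_subfield hodd Kp)
    rw [hKp] at this
    norm_num at h120
    omega
  rcases classify (p := p) hE X with ⟨c, hc⟩ | ⟨u, v, huv, hu, hc⟩ | ⟨u, v, huv, k, -, -, -, hc, -, -⟩ |
    ⟨hp12, hc, e⟩ | ⟨hp24, hc, e⟩ | ⟨hp60, hc, e⟩ | ⟨K, γ, hq3, hK⟩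
  · have hB := two_mul_card_stab_Lsub hodd c
    have hlt : Nat.card (stabilizer PGL(2, F) c ⊓ Lsub F : Subgroup PGL(2, F)) < Nat.card (Lsub F) := by
      have : Fintype.card F - 1 < Fintype.card F ^ 2 - 1 := by
        have := Nat.mul_le_mul_right (Fintype.card F) h5
        rw [sq]; omega
      have := Nat.mul_lt_mul_of_pos_left this (show 0 < Fintype.card F by omega)
      omega
    exact Or.inl (by rw [hcX, heq hXM (le_inf hc hXM.1.le) inf_le_right hlt]; exact hB)
  · obtain ⟨hcd, -, s, hs, hsu⟩ := pairStab_Lsub_spec hE hodd huv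
    have hlt : Nat.card (pairStab F u v ⊓ Lsub F : Subgroup PGL(2, F)) < Nat.card (Lsub F) := by
      have h24 := nat_cube_mono h5
      norm_num at h24
      have : 5 * (Fintype.card F ^ 2 - 1) ≤ Fintype.card F * (Fintype.card F ^ 2 - 1) := Nat.mul_le_mul_right _ h5
      have : 5 * Fintype.card F ≤ Fintype.card F ^ 2 := by rw [sq]; exact Nat.mul_le_mul_right _ h5
      rcases card_torus_cases hE huv with e | e <;> omega
    have h1 := heq hXM (le_inf (hc.trans (torus_le_pairStab u v)) hXM.1.le) inf_le_right hlt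
    exact absurd ((hc (h1 ▸ hs)).1.symm.trans hsu) huv.1
  · obtain ⟨hcd, ⟨e⟩, -⟩ := pairStab_Lsub_spec hE hodd huv
    have hlt : Nat.card (pairStab F u v ⊓ Lsub F : Subgroup PGL(2, F)) < Nat.card (Lsub F) := by
      have : 5 * (Fintype.card F ^ 2 - 1) ≤ Fintype.card F * (Fintype.card F ^ 2 - 1) := Nat.mul_le_mul_right _ h5
      have : 5 * Fintype.card F ≤ Fintype.card F ^ 2 := by rw [sq]; exact Nat.mul_le_mul_right _ h5
      rcases card_torus_cases hE huv with e | e <;> omega
    have h1 := heq hXM (le_inf hc hXM.1.le) inf_le_right hlt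
    obtain ⟨j, hj⟩ := hodd
    rw [← h1] at e
    by_cases hr : IsRat F u
    · rw [(card_torus hE huv).1 hr] at e
      refine Or.inr (Or.inl ⟨?_, _, ?_, ⟨eX.trans e⟩⟩)
      · by_contra h13
        exact not_maxIn_pair_small hE ⟨j, hj⟩ huv (Or.inl ⟨hr, h5, by omega⟩) (h1 ▸ hXM)
      · omega
    · rw [(card_torus hE huv).2 hr] at e
      refine Or.inr (Or.inr (Or.inl ⟨?_, ?_, _, ?_, ⟨eX.trans e⟩⟩))
      · exact fun h7 => not_maxIn_pair_small hE ⟨j, hj⟩ huv (Or.inr ⟨hr, Or.inl h7⟩) (h1 ▸ hXM)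
      · exact fun h9 => not_maxIn_pair_small hE ⟨j, hj⟩ huv (Or.inr ⟨hr, Or.inr h9⟩) (h1 ▸ hXM)
      · omega
  · obtain ⟨γ, hγ⟩ := exists_conj_qA hxy h2 e
    have hA : MaxIn (qA hxy h2) (Lsub F) := hγ ▸ hXM.map_conj γ
    have hns : ¬ IsSquare (2 : F) := fun hsq => by
      have := heq hA (qA_le_qN hxy h2) ((qN_le_Lsub_iff hxy h2).mpr hsq) (by
        have h24 := nat_cube_mono h5
        norm_num at h24
        rw [card_qN hxy h2]; omega)
      exact qS_not_mem_qA hxy h2 (this ▸ qS_mem_qN hxy h2)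
    have hp5 : 5 ≤ p := by
      have := hpp.two_le
      by_contra hlt
      interval_cases p
      · exact hp12 (by norm_num)
      · exact hp12 (by norm_num)
      · exact absurd hpp (by norm_num)
    have hqp : Fintype.card F = p := hprime hp5 hA (qA_le_qN hxy h2) rfl (by rw [card_qA hxy h2]; norm_num)
    refine Or.inr (Or.inr (Or.inr (Or.inr (Or.inr (Or.inr (Or.inl ⟨hqp, ?_, ?_, ⟨eX.trans e.some⟩⟩))))))
    · rw [FiniteField.isSquare_two_iff, hqp] at hns
      have := (Nat.Prime.odd_of_ne_two hpp hp2)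
      rw [Nat.odd_iff] at this
      omega
    · intro h10
      obtain ⟨s, hs⟩ : IsSquare (5 : F) := isSquare_five_iff.mpr (Or.inl (by rw [hqp]; omega))
      have hs' : s ^ 2 = 5 := by rw [sq]; exact hs.symm
      have h60 := (qA5_iso hxy h2 hs').2
      have := heq hA (qA_le_qA5 hxy h2 hs') (qA5_le_Lsub hxy h2 hs') (by
        have h11 : 9 ≤ Fintype.card F := by omega
        have h720 := nat_cube_mono h11
        norm_num at h720
        rw [h60]; omega)
      rw [← this, card_qA hxy h2] at h60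
      norm_num at h60
  · obtain ⟨γ, hγ⟩ := exists_conj_qN hxy h2 e
    have hN : MaxIn (qN hxy) (Lsub F) := hγ ▸ hXM.map_conj γ
    have hsq := (qN_le_Lsub_iff hxy h2).mp hN.1.le
    have hp5 : 5 ≤ p := by
      have := hpp.two_le
      by_contra hlt
      interval_cases p
      · exact hp24 (by norm_num)
      · exact hp24 (by norm_num)
      · exact absurd hpp (by norm_num)
    have hqp : Fintype.card F = p := hprime hp5 hN le_rfl rfl (by rw [card_qN hxy h2])
    refine Or.inr (Or.inr (Or.inr (Or.inr (Or.inr (Or.inr (Or.inr ⟨hqp, ?_, ⟨eX.trans e.some⟩⟩))))))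
    rw [FiniteField.isSquare_two_iff, hqp] at hsq
    have := (Nat.Prime.odd_of_ne_two hpp hp2)
    rw [Nat.odd_iff] at this
    omega
  · refine Or.inr (Or.inr (Or.inr (Or.inr (Or.inr (Or.inl ?_)))))
    have hp5 : p ≠ 5 := fun h => by rcases hp60 with h' | h' <;> [exact h' (h ▸ by norm_num); omega]
    have hpodd : p % 2 = 1 := Nat.odd_iff.mp (hpp.odd_of_ne_two hp2)
    have hq5 : Fintype.card F % 5 = 1 ∨ Fintype.card F % 5 = 4 := by
      have h1 : 5 ∣ Fintype.card F * (Fintype.card F ^ 2 - 1) := by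
        rw [← hL]
        exact ((by norm_num : 5 ∣ 60).trans (hc ▸ Subgroup.card_dvd_of_le hXM.1.le)).mul_left 2
      rcases (Nat.Prime.dvd_mul (by norm_num : Nat.Prime 5)).mp h1 with d | d
      · rw [hn] at d
        exact absurd ((Nat.prime_dvd_prime_iff_eq (by norm_num) hpp).mp ((by norm_num : Nat.Prime 5).dvd_of_dvd_pow d)).symm hp5
      · have h1 : 1 ≤ Fintype.card F ^ 2 := Nat.one_le_pow _ _ (by omega)
        have h4 : Fintype.card F ^ 2 % 5 = 1 := by omega
        rw [Nat.pow_mod] at h4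
        rcases (show Fintype.card F % 5 = 0 ∨ Fintype.card F % 5 = 1 ∨ Fintype.card F % 5 = 2 ∨
          Fintype.card F % 5 = 3 ∨ Fintype.card F % 5 = 4 by omega) with r | r | r | r | r <;> rw [r] at h4 <;>
          norm_num at h4 <;> omega
    have hq10 : Fintype.card F % 10 = 1 ∨ Fintype.card F % 10 = 9 := by
      rw [Nat.odd_iff] at hodd
      omega
    refine ⟨hq10, ?_, ⟨eX.trans e.some⟩⟩
    obtain ⟨r, hr, hr0, hr5, hfin⟩ : ∃ r, r ∣ (n : ℕ) ∧ r ≠ 0 ∧ (p ^ r % 5 = 1 ∨ p ^ r % 5 = 4) ∧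
        ((n : ℕ) = r → Fintype.card F = p ∨ (Fintype.card F = p ^ 2 ∧ (p % 10 = 3 ∨ p % 10 = 7))) := by
      by_cases h14 : p % 5 = 1 ∨ p % 5 = 4
      · exact ⟨1, one_dvd _, one_ne_zero, by simpa using h14, fun h => Or.inl (by rw [hn, h, pow_one])⟩
      · have h23 : p % 5 = 2 ∨ p % 5 = 3 := by
          have : p % 5 ≠ 0 := fun h0 => hp5
            ((Nat.prime_dvd_prime_iff_eq (by norm_num) hpp).mp (Nat.dvd_of_mod_eq_zero h0)).symm
          omega
        have he : Even (n : ℕ) := by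
          by_contra hne
          obtain ⟨j, hj⟩ := Nat.not_even_iff_odd.mp hne
          rw [hn, hj, pow_succ, pow_mul, Nat.mul_mod, Nat.pow_mod] at hq5
          have h4 : p ^ 2 % 5 = 4 := by
            rw [Nat.pow_mod]; rcases h23 with r | r <;> rw [r]
          rw [h4] at hq5
          have : 4 ^ j % 5 = 1 ∨ 4 ^ j % 5 = 4 := by
            clear hj hq5
            induction j with
            | zero => exact Or.inl rfl
            | succ j ih => rw [pow_succ, Nat.mul_mod]; rcases ih with r | r <;> rw [r] <;> norm_num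
          rcases this with r | r <;> rcases h23 with r' | r' <;> rw [r, r'] at hq5 <;> norm_num at hq5
        refine ⟨2, he.two_dvd, two_ne_zero, ?_, fun h => Or.inr ⟨by rw [hn, h], by omega⟩⟩
        rw [Nat.pow_mod]; rcases h23 with r | r <;> rw [r] <;> norm_num
    by_cases hnr : (n : ℕ) = r
    · exact hfin hnr
    exfalso
    obtain ⟨Kd, hKd⟩ := exists_subfield p hn hr hr0
    haveI := Fintype.ofFinite Kd
    obtain ⟨s, hs⟩ : IsSquare (5 : Kd) := isSquare_five_iff.mpr (Or.inl (by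
      rw [← Nat.card_eq_fintype_card, hKd]; omega))
    have hs' : (s : F) ^ 2 = 5 := by
      have := congrArg (Subtype.val) hs
      rw [sq]; exact this.symm
    obtain ⟨γ, -, hγ⟩ := exists_conj_alt_five hxy h2 e (natCast_mem Kd a) (natCast_mem Kd b) hs' s.2
    have hX' := hXM.map_conj γ
    have hQ9 : 9 ≤ Nat.card Kd := by
      have h1 : Odd (Nat.card Kd) := odd_card_subfield hodd Kd
      have h3 := one_lt_card_subfield Kd
      rw [Nat.odd_iff] at h1
      rw [hKd] at h1 h3 ⊢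
      omega
    have hQq : Nat.card Kd * Nat.card Kd ≤ Fintype.card F := by
      rw [hn, hKd, ← pow_add]
      obtain ⟨j, hj⟩ := hr
      refine Nat.pow_le_pow_right hpp.pos ?_
      rcases (show j = 0 ∨ j = 1 ∨ 2 ≤ j by omega) with rfl | rfl | hj2
      · simp at hj
      · exact absurd (by rw [hj, mul_one]) hnr
      · rw [hj, ← mul_two]; exact Nat.mul_le_mul_left r hj2
    have hlt := two_mul_cube_lt (by omega) hQq
    have hcY : Nat.card (subPGL Kd ⊓ Lsub F : Subgroup PGL(2, F)) < Nat.card (Lsub F) := by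
      have := Nat.le_of_dvd Nat.card_pos (Subgroup.card_dvd_of_le (inf_le_left (a := subPGL Kd) (b := Lsub F)))
      rw [card_subPGL] at this
      omega
    have := heq hX' (le_inf hγ hX'.1.le) inf_le_right hcY
    have hge := Nat.le_of_dvd Nat.card_pos (Subgroup.card_dvd_of_le (le_inf (subPSL_le_subPGL Kd) (subPSL_le_Lsub Kd)))
    rw [← this, card_conj_map, hc] at hge
    have h720 := nat_cube_mono hQ9
    have := two_mul_card_subPSL Kd (odd_card_subfield hodd Kd)
    rw [show 9 * (9 ^ 2 - 1) = 720 by rfl] at h720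
    omega
  · have hX' := hXM.map_conj γ
    obtain ⟨m, -, hm⟩ := exists_card_pow K
    have hq1 : 1 < Nat.card K := one_lt_card_subfield K
    have hKo := odd_card_subfield hodd K
    have hm0 : m ≠ 0 := fun e => by rw [e, pow_zero] at hm; omega
    have hm1 : m ≠ 1 := fun e => by
      refine hXM.1.ne (eq_Lsub_of_full hodd hXM.1.le ?_ hK)
      rw [hm, e, pow_one]
    have hbig : ∀ {K₂ : Subfield F} {r : ℕ}, Nat.card K₂ = Nat.card K ^ r → 2 * r ≤ m → K ≤ K₂ → r ≠ 0 →
        X.map (MulAut.conj γ).toMonoidHom = subPGL K₂ ⊓ Lsub F := fun {K₂ r} hc hr hle hr0 => by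
      have hge : 3 ≤ Nat.card K₂ := by rw [hc]; exact hq3.trans (Nat.le_self_pow hr0 _)
      have hlt := two_mul_cube_lt hge (by
        rw [hc, ← pow_add, hm]; exact Nat.pow_le_pow_right (by omega) (by omega) : Nat.card K₂ * Nat.card K₂ ≤ Fintype.card F)
      refine heq hX' (le_inf ?_ hX'.1.le) inf_le_right ?_
      · rcases hK with h | ⟨-, h⟩ <;> rw [h]
        · exact subPGL_mono hle
        · exact (subPSL_le_subPGL K).trans (subPGL_mono hle)
      · have := Nat.le_of_dvd Nat.card_pos (Subgroup.card_dvd_of_le (inf_le_left (a := subPGL K₂) (b := Lsub F)))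
        rw [card_subPGL] at this
        omega
    have hmin : ∀ {r : ℕ}, r ∣ m → 2 ≤ r → r = m := fun {r} hr hr2 => by
      by_contra hne
      obtain ⟨j, hj⟩ := hr
      have hj2 : 2 ≤ j := by
        rcases (show j = 0 ∨ j = 1 ∨ 2 ≤ j by omega) with rfl | rfl | h
        · omega
        · exact absurd (by rw [hj, mul_one]) hne
        · exact h
      obtain ⟨K₂, hK₂, hc₂⟩ := exists_subfield_between (p := p) K hm ⟨j, hj⟩ (by omega)
      have := hbig hc₂ (by rw [hj, mul_comm]; exact Nat.mul_le_mul_left r hj2) hK₂ (by omega)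
      have hge := Nat.le_of_dvd Nat.card_pos (Subgroup.card_dvd_of_le (le_inf (subPSL_le_subPGL K₂) (subPSL_le_Lsub K₂)))
      rw [← this, card_conj_map] at hge
      have h2K := two_mul_card_subPSL K₂ (odd_card_subfield hodd K₂)
      have hup : Nat.card X ≤ Nat.card K * (Nat.card K ^ 2 - 1) := by
        rcases card_of_subfield hK with c | ⟨-, c⟩ <;> omega
      have hsq : Nat.card K * Nat.card K ≤ Nat.card K₂ := by
        rw [hc₂, ← pow_two]; exact Nat.pow_le_pow_right (by omega) hr2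
      have := two_mul_cube_lt hq3 hsq
      omega
    have hmp : m.Prime := by
      have hrp := Nat.minFac_prime hm1
      exact (hmin (Nat.minFac_dvd m) hrp.two_le) ▸ hrp
    obtain ⟨K₀, _, _, hc, ⟨e⟩⟩ := exists_small_field K
    have hFK : Fintype.card F = Fintype.card K₀ ^ m := by rw [hm, ← hc, Nat.card_eq_fintype_card]
    rcases hK with h | ⟨-, h⟩
    · have hev : Even m := (forall_square_iff hodd K hm).mp ((subPGL_le_Lsub_iff K).mp (h ▸ hX'.1.le))
      obtain rfl : m = 2 := (hmp.even_iff).mp hev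
      exact Or.inr (Or.inr (Or.inr (Or.inl ⟨K₀, inferInstance, inferInstance, hFK,
        ⟨eX.trans (((X.equivMapOfInjective _ (MulAut.conj γ).injective).trans (MulEquiv.subgroupCongr h)).trans
          ((subPGLEquiv K).symm.trans (pglCongr e.symm)))⟩⟩)))
    · have hmo : Odd m := by
        refine Nat.not_even_iff_odd.mp fun hev => ?_
        have hle := (subPGL_le_Lsub_iff K).mpr ((forall_square_iff hodd K hm).mpr hev)
        have := heq hX' (h.le.trans (subPSL_le_subPGL K)) hle (by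
          have hsq : Nat.card K * Nat.card K ≤ Fintype.card F := by
            rw [hm, ← pow_two]; exact Nat.pow_le_pow_right (by omega) hmp.two_le
          have := two_mul_cube_lt hq3 hsq
          rw [card_subPGL]; omega)
        exact (subPSL_lt_subPGL K hKo).ne (h.symm.trans this)
      exact Or.inr (Or.inr (Or.inr (Or.inr (Or.inl ⟨K₀, inferInstance, inferInstance, m, hmp, hmo, hFK,
        ⟨eX.trans (((X.equivMapOfInjective _ (MulAut.conj γ).injective).trans (MulEquiv.subgroupCongr h)).trans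
          ((subPSLEquiv K).symm.trans (pslCongr e.symm)))⟩⟩))))

end Cfsg.Agent.S5892
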