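import Cfsg.Agent.Lib.PSLTwo.MaxTools
import Cfsg.Statements.S5893

set_option linter.style.longLine false

open Matrix MulAction OnePoint
open scoped MatrixGroups
open Cfsg.Agent.Lib.PSLTwo

namespace Cfsg.Agent.S5893

/-- Let F be a finite field of even order q ≥ 4 and let M be a maximal subgroup of PSL₂(F) (= SL₂(F) = PGL₂(F)). Then one of the following holds: |M| = q(q − 1) (the stabiliser of a point of the projective line, elementary abelian of order q extended by a cyclic group of order q − 1); M is dihedral of order 2(q − 1); M is dihedral of order 2(q + 1); or q = q₀^r for a prime r with q₀ ≠ 2 and M ≅ PSL₂(F₀) with |F₀| = q₀. -/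
theorem result {F : Type*} [Field F] [Fintype F]
    (heven : Even (Fintype.card F)) (h4 : 4 ≤ Fintype.card F) (M : Subgroup (Matrix.ProjectiveSpecialLinearGroup (Fin 2) F)) (hM : IsCoatom M) :
    Nat.card M = Fintype.card F * (Fintype.card F - 1) ∨
    Nonempty (M ≃* DihedralGroup (Fintype.card F - 1)) ∨
    Nonempty (M ≃* DihedralGroup (Fintype.card F + 1)) ∨
    (∃ (F₀ : Type) (_ : Field F₀) (_ : Fintype F₀) (r : ℕ), r.Prime ∧ Fintype.card F₀ ≠ 2 ∧
        Fintype.card F = Fintype.card F₀ ^ r ∧ Nonempty (M ≃* Matrix.ProjectiveSpecialLinearGroup (Fin 2) F₀)) := by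
  classical
  obtain ⟨p, hp⟩ := CharP.exists F
  haveI : Fact p.Prime := ⟨CharP.char_is_prime F p⟩
  have hp2 : p = 2 := by
    obtain ⟨n, -, hn⟩ := FiniteField.card F p
    exact ((Nat.prime_dvd_prime_iff_eq Nat.prime_two Fact.out).mp
      (Nat.prime_two.dvd_of_dvd_pow (n := (n : ℕ)) (hn ▸ heven.two_dvd))).symm
  obtain ⟨E, _, _, _, hE⟩ := exists_quadExt F
  set X := M.map (toP F) with hX
  have hX' : IsCoatom X := maxIn_top.mp (Lsub_eq_top_of_even (F := F) heven ▸ (isCoatom_iff_maxIn M).mp hM)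
  let eX : M ≃* X := M.equivMapOfInjective _ toP_injective
  have hcX : Nat.card M = Nat.card X := Nat.card_congr eX.toEquiv
  have heq : ∀ Y, X ≤ Y → Y < ⊤ → X = Y := fun Y h1 h2 =>
    (eq_or_lt_of_le h1).resolve_right fun e => h2.ne (hX'.2 _ e)
  rcases classify (p := p) hE X with ⟨c, hc⟩ | ⟨u, v, huv, hu, hc⟩ | ⟨u, v, huv, k, -, -, -, hc, -, -⟩ |
    ⟨hp12, -, -⟩ | ⟨hp24, -, -⟩ | ⟨hp60, -, -⟩ | ⟨K, γ, hq3, hK⟩
  · exact Or.inl (by rw [hcX, heq _ hc (stab_lt_top hE c), card_stab_point])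
  · have h1 := heq _ (hc.trans (torus_le_pairStab u v)) (pairStab_lt_top hE (by omega) huv)
    obtain ⟨s, hs, hsu⟩ := exists_swap hE huv
    exact absurd ((hc (h1 ▸ hs)).1.symm.trans hsu) huv.1
  · have h1 := heq _ hc (pairStab_lt_top hE (by omega) huv)
    obtain ⟨-, ⟨e⟩⟩ := pairStab_spec hE huv
    rw [← h1] at e
    by_cases hr : IsRat F u
    · rw [(card_torus hE huv).1 hr] at e; exact Or.inr (Or.inl ⟨eX.trans e⟩)
    · rw [(card_torus hE huv).2 hr] at e; exact Or.inr (Or.inr (Or.inl ⟨eX.trans e⟩))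
  · exact absurd (hp2 ▸ by norm_num) hp12
  · exact absurd (hp2 ▸ by norm_num) hp24
  · rcases hp60 with h | h
    · exact absurd (hp2 ▸ by norm_num) h
    · omega
  · obtain ⟨b, hb, hKb⟩ := card_subfield_eq_pow p K
    have hKe : Even (Nat.card K) := by rw [hKb, hp2]; exact even_two.pow_of_ne_zero (by omega)
    have hK' : X.map (MulAut.conj γ).toMonoidHom = subPGL K :=
      hK.resolve_right fun h => Nat.not_even_iff_odd.mpr h.1 hKe
    obtain ⟨m, -, hm⟩ := exists_card_pow K
    have hm1 : m ≠ 1 := fun e => hX'.1 (Subgroup.eq_top_of_card_eq _ (by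
      rw [← card_conj_map X γ, hK', card_subPGL, card_pgl, hm, e, pow_one]))
    have hq1 : 1 < Nat.card K := one_lt_card_subfield K
    have hm0 : m ≠ 0 := fun e => by rw [e, pow_zero] at hm; omega
    have hmp : m.Prime := by
      by_contra hnp
      have hrp : m.minFac.Prime := Nat.minFac_prime hm1
      have hrm : m.minFac < m := lt_of_le_of_ne (Nat.minFac_le (by omega)) fun e => hnp (e ▸ hrp)
      obtain ⟨K₂, hK₂, hc₂⟩ := exists_subfield_between (p := p) K hm (Nat.minFac_dvd m) hrp.ne_zero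
      have h2lt : Nat.card K₂ < Fintype.card F := by rw [hc₂, hm]; exact Nat.pow_lt_pow_right hq1 hrm
      have h12 : Nat.card K < Nat.card K₂ := by rw [hc₂]; exact lt_self_pow₀ hq1 hrp.one_lt
      have hle : X ≤ (subPGL K₂).map (MulAut.conj γ⁻¹).toMonoidHom := by
        rw [← map_conj_inv X γ, hK']; exact Subgroup.map_mono (subPGL_mono hK₂)
      have hX2 := heq _ hle (card_lt_top (by
        rw [card_conj_map, card_subPGL, card_pgl]; exact nat_cube_lt h2lt Fintype.one_lt_card))
      have h3' := congrArg (fun S : Subgroup PGL(2, F) => Nat.card S) hX2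
      rw [card_conj_map, ← card_conj_map X γ, hK', card_subPGL, card_subPGL] at h3'
      exact (nat_cube_lt h12 (by omega)).ne h3'
    obtain ⟨K₀, _, _, hc, ⟨e⟩⟩ := exists_small_field K
    refine Or.inr (Or.inr (Or.inr ⟨K₀, inferInstance, inferInstance, m, hmp, ?_, ?_, ⟨?_⟩⟩))
    · rw [← Nat.card_eq_fintype_card, hc]; omega
    · rw [hm, ← hc, Nat.card_eq_fintype_card]
    · exact eX.trans (((X.equivMapOfInjective _ (MulAut.conj γ).injective).trans
        (MulEquiv.subgroupCongr (hK'.trans (subPSL_eq_subPGL_of_even K hKe).symm))).trans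
        ((subPSLEquiv K).symm.trans (pslCongr e.symm)))

end Cfsg.Agent.S5893
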