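import Cfsg.Statements.S5896
import Mathlib
import Cfsg.Agent.Lib.SmallSimple.Basic
import Cfsg.Agent.Lib.Char.Burnside

set_option autoImplicit false
open Cfsg

namespace Cfsg.Agent.S5896

open scoped commutatorElement

section
variable (ι S : Type) [Group S]

/-- permutations act on tuples -/
def perAut : Equiv.Perm ι →* MulAut (ι → S) where
  toFun σ :=
    { toFun := fun f i => f (σ.symm i)
      invFun := fun f i => f (σ i)
      left_inv := fun f => funext fun i => by simp
      right_inv := fun f => funext fun i => by simp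
      map_mul' := fun _ _ => rfl }
  map_one' := rfl
  map_mul' _ _ := rfl

theorem isSolvable_pi [Group.IsSolvable S] : Group.IsSolvable (ι → S) := by
  obtain ⟨n, hn⟩ := (inferInstance : Group.IsSolvable S).solvable
  refine ⟨⟨n, ?_⟩⟩
  rw [Subgroup.eq_bot_iff_forall]
  intro f hf
  funext i
  have := map_derivedSeries_le_derivedSeries (Pi.evalMonoidHom (fun _ : ι => S) i) n ⟨f, hf, rfl⟩
  rw [hn, Subgroup.mem_bot] at this
  exact this

theorem isSolvable_semi [Group.IsSolvable S] {Q : Type} [Group Q] [Group.IsSolvable Q] (φ : Q →* MulAut (ι → S)) :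
    Group.IsSolvable ((ι → S) ⋊[φ] Q) := by
  haveI := isSolvable_pi ι S
  exact Group.isSolvable_of_ker_le_range (SemidirectProduct.inl : (ι → S) →* _) SemidirectProduct.rightHom
    (le_of_eq (SemidirectProduct.range_inl_eq_ker_rightHom).symm)

end

section
variable (S : Type) [Group S]

abbrev W2 : Type := (Fin 2 → S) ⋊[perAut (Fin 2) S] Equiv.Perm (Fin 2)

theorem derived_lift : ∀ (n : ℕ) (s : S), s ∈ derivedSeries S n →
    ∃ w : W2 S, w ∈ derivedSeries (W2 S) (n + 1) ∧ w.right = 1 ∧ w.left 1 = s := by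
  intro n
  induction n with
  | zero =>
    intro s _
    refine ⟨⁅(SemidirectProduct.inr (Equiv.swap 0 1) : W2 S), (SemidirectProduct.inl (Pi.mulSingle 0 s) : W2 S)⁆, ?_, ?_, ?_⟩
    · rw [derivedSeries_succ, derivedSeries_zero]
      exact Subgroup.commutator_mem_commutator (Subgroup.mem_top _) (Subgroup.mem_top _)
    · simp [commutatorElement_def]
    · rw [commutatorElement_def, ← map_inv (SemidirectProduct.inr : _ →* W2 S), ← SemidirectProduct.inl_aut,
        ← map_inv (SemidirectProduct.inl : _ →* W2 S), ← map_mul, SemidirectProduct.left_inl]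
      show (Pi.mulSingle (0 : Fin 2) s : Fin 2 → S) ((Equiv.swap (0 : Fin 2) 1).symm 1) *
        ((Pi.mulSingle (0 : Fin 2) s : Fin 2 → S) 1)⁻¹ = s
      simp
  | succ n ih =>
    intro s hs
    rw [derivedSeries_succ, Subgroup.commutator_def] at hs
    induction hs using Subgroup.closure_induction with
    | mem x hx =>
      obtain ⟨a, ha, b, hb, rfl⟩ := hx
      obtain ⟨u, hu, hu1, hu2⟩ := ih a ha
      obtain ⟨v, hv, hv1, hv2⟩ := ih b hb
      refine ⟨⁅u, v⁆, ?_, ?_, ?_⟩
      · rw [derivedSeries_succ (W2 S) (n + 1)]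
        exact Subgroup.commutator_mem_commutator hu hv
      · simp [commutatorElement_def, hu1, hv1]
      · simp [commutatorElement_def, hu1, hv1, hu2, hv2]
    | one => exact ⟨1, one_mem _, rfl, rfl⟩
    | mul x y _ _ hx hy =>
      obtain ⟨u, hu, hu1, hu2⟩ := hx
      obtain ⟨v, hv, hv1, hv2⟩ := hy
      exact ⟨u * v, mul_mem hu hv, by simp [hu1, hv1], by simp [hu1, hu2, hv2]⟩
    | inv x _ hx =>
      obtain ⟨u, hu, hu1, hu2⟩ := hx
      exact ⟨u⁻¹, inv_mem hu, by simp [hu1], by simp [hu1, hu2]⟩

end

theorem exists_long : ∀ d : ℕ, ∃ (S : Type) (_ : Group S) (_ : Finite S), Group.IsSolvable S ∧ derivedSeries S d ≠ ⊥ := by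
  intro d
  induction d with
  | zero => exact ⟨Multiplicative (ZMod 2), inferInstance, inferInstance, inferInstance, top_ne_bot⟩
  | succ d ih =>
    obtain ⟨S, hS, hf, hsol, hne⟩ := ih
    haveI : IsMulCommutative (Equiv.Perm (Fin 2)) := ⟨⟨by decide⟩⟩
    letI : CommGroup (Equiv.Perm (Fin 2)) :=
      { (inferInstance : Group (Equiv.Perm (Fin 2))) with mul_comm := by decide }
    refine ⟨W2 S, inferInstance, Finite.of_equiv _ SemidirectProduct.equivProd.symm, isSolvable_semi (Fin 2) S _,
      fun h => hne ((Subgroup.eq_bot_iff_forall _).2 fun s hs => ?_)⟩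
    obtain ⟨w, hw, -, hw2⟩ := derived_lift S d s hs
    rw [h, Subgroup.mem_bot] at hw
    rw [← hw2, hw]; rfl

section
variable {S : Type} [Group S]

abbrev W5 (S : Type) [Group S] : Type :=
  (Fin 5 → S) ⋊[(perAut (Fin 5) S).comp (alternatingGroup (Fin 5)).subtype] alternatingGroup (Fin 5)

/-- product of the abelianised coordinates -/
noncomputable def chi : W5 S →* Abelianization S where
  toFun g := ∏ i, Abelianization.of (g.left i)
  map_one' := by simp
  map_mul' g h := by
    show ∏ i, Abelianization.of (g.left i * h.left ((g.right : Equiv.Perm (Fin 5)).symm i)) = _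
    simp only [map_mul, Finset.prod_mul_distrib]
    congr 1
    exact Equiv.prod_comp _ (fun i => Abelianization.of (h.left i))

theorem inl_mem_iff (f : Fin 5 → S) : (SemidirectProduct.inl f : W5 S) ∈ (chi (S := S)).ker ↔
    ∏ i, Abelianization.of (f i) = 1 := Iff.rfl

theorem inr_mem (σ : alternatingGroup (Fin 5)) : (SemidirectProduct.inr σ : W5 S) ∈ (chi (S := S)).ker := by
  show ∏ i, Abelianization.of ((1 : Fin 5 → S) i) = 1
  simp

theorem exists_two : ∀ i j k : Fin 5, i ≠ j → i ≠ k → j ≠ k →
    ∃ l m, l ≠ m ∧ l ≠ i ∧ l ≠ j ∧ l ≠ k ∧ m ≠ i ∧ m ≠ j ∧ m ≠ k := by decide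

theorem exists_three : ∀ a b : Fin 5, a ≠ b → ∃ c, c ≠ a ∧ c ≠ b := by decide

/-- the pair `(s at i, s⁻¹ at j)` -/
def pr (i j : Fin 5) (s : S) : Fin 5 → S := Pi.mulSingle i s * Pi.mulSingle j s⁻¹

theorem perAut_single (σ : Equiv.Perm (Fin 5)) (i : Fin 5) (s : S) :
    perAut (Fin 5) S σ (Pi.mulSingle i s) = Pi.mulSingle (σ i) s := by
  funext x
  show (Pi.mulSingle i s : Fin 5 → S) (σ.symm x) = _
  by_cases hx : x = σ i
  · subst hx; simp
  · rw [Pi.mulSingle_eq_of_ne hx, Pi.mulSingle_eq_of_ne]
    intro e; exact hx (by rw [← e, Equiv.apply_symm_apply])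

theorem pr_mem {i j : Fin 5} (s : S) : (SemidirectProduct.inl (pr i j s) : W5 S) ∈ (chi (S := S)).ker := by
  rw [inl_mem_iff]
  have h1 : ∀ (i : Fin 5) (s : S), ∏ x, Abelianization.of ((Pi.mulSingle i s : Fin 5 → S) x) = Abelianization.of s := by
    intro i s
    rw [Finset.prod_eq_single i (fun b _ hb => by rw [Pi.mulSingle_eq_of_ne hb, map_one]) (by simp),
      Pi.mulSingle_eq_same]
  simp only [pr, Pi.mul_apply, map_mul, Finset.prod_mul_distrib, h1]
  rw [map_inv, mul_inv_cancel]

theorem perfect_gen (M : Subgroup (W5 S))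
    (h : ∀ g k : W5 S, g ∈ (chi (S := S)).ker → k ∈ (chi (S := S)).ker → ⁅g, k⁆ ∈ M) :
    (chi (S := S)).ker ≤ M := by
  have hpr : ∀ i j : Fin 5, i ≠ j → ∀ s : S, (SemidirectProduct.inl (pr i j s) : W5 S) ∈ M := by
    intro i j hij s
    obtain ⟨k, hki, hkj⟩ := exists_three i j hij
    obtain ⟨l, m, hlm, hli, hlj, hlk, hmi, hmj, hmk⟩ := exists_two i j k hij hki.symm hkj.symm
    obtain ⟨σ, hσi, hσk⟩ : ∃ σ : alternatingGroup (Fin 5), (σ : Equiv.Perm (Fin 5)) i = j ∧ (σ : Equiv.Perm (Fin 5)) k = k := by
      refine ⟨⟨Equiv.swap i j * Equiv.swap l m, Equiv.Perm.mem_alternatingGroup.2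
        (by simp [Equiv.Perm.sign_swap hij, Equiv.Perm.sign_swap hlm])⟩, ?_, ?_⟩
      · show Equiv.swap i j (Equiv.swap l m i) = j
        rw [Equiv.swap_apply_of_ne_of_ne hli.symm hmi.symm, Equiv.swap_apply_left]
      · show Equiv.swap i j (Equiv.swap l m k) = k
        rw [Equiv.swap_apply_of_ne_of_ne hlk.symm hmk.symm, Equiv.swap_apply_of_ne_of_ne hki hkj]
    have hm := h _ _ (pr_mem (i := i) (j := k) s) (inr_mem σ)
    set φ := (perAut (Fin 5) S).comp (alternatingGroup (Fin 5)).subtype with hφ
    have hconj : (SemidirectProduct.inr σ : W5 S) * SemidirectProduct.inl (pr i k s)⁻¹ * (SemidirectProduct.inr σ)⁻¹ =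
        SemidirectProduct.inl (pr j k s)⁻¹ := by
      rw [← map_inv SemidirectProduct.inr, ← SemidirectProduct.inl_aut]
      congr 1
      rw [map_inv, inv_inj]
      show perAut (Fin 5) S (σ : Equiv.Perm (Fin 5)) (pr i k s) = _
      rw [pr, map_mul, perAut_single, perAut_single, hσi, hσk, pr]
    have e : ⁅(SemidirectProduct.inl (pr i k s) : W5 S), (SemidirectProduct.inr σ : W5 S)⁆ = SemidirectProduct.inl (pr i j s) := by
      rw [commutatorElement_def, ← map_inv, mul_assoc _ _ (SemidirectProduct.inr σ)⁻¹, mul_assoc,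
        ← mul_assoc (SemidirectProduct.inr σ), hconj, ← map_mul]
      congr 1
      funext x
      simp only [pr, Pi.mul_apply, Pi.inv_apply]
      by_cases h1 : x = i
      · subst h1; simp [hij, hki.symm]
      by_cases h2 : x = j
      · subst h2; simp [h1, hkj.symm]
      by_cases h3 : x = k
      · subst h3; simp [h1, h2]
      simp [h1, h2, h3]
    rwa [e] at hm
  have hsingle : ∀ i : Fin 5, ∀ c ∈ commutator S, (SemidirectProduct.inl (Pi.mulSingle i c) : W5 S) ∈ M := by
    intro i
    suffices commutator S ≤ M.comap ((SemidirectProduct.inl : _ →* W5 S).comp (MonoidHom.mulSingle (fun _ => S) i)) from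
      fun c hc => this hc
    refine Subgroup.commutator_le.2 fun s _ t _ => ?_
    obtain ⟨j, hji⟩ := exists_ne i
    obtain ⟨k, hki, hkj⟩ := exists_three i j hji.symm
    have hm := h _ _ (pr_mem (i := i) (j := j) s) (pr_mem (i := i) (j := k) t)
    rw [← map_commutatorElement] at hm
    show (SemidirectProduct.inl (Pi.mulSingle i ⁅s, t⁆) : W5 S) ∈ M
    convert hm using 2
    funext x
    simp only [commutatorElement_def, Pi.mul_apply, Pi.inv_apply, pr]
    by_cases h1 : x = i
    · subst h1; simp [hji.symm, hki.symm]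
    by_cases h2 : x = j
    · subst h2; simp [h1, hkj.symm]
    by_cases h3 : x = k
    · subst h3; simp [h1, h2]
    simp [h1, h2, h3]
  have hA : ∀ σ : alternatingGroup (Fin 5), (SemidirectProduct.inr σ : W5 S) ∈ M := by
    intro σ
    have hc : commutator (alternatingGroup (Fin 5)) = ⊤ := Lib.SmallSimple.commutator_eq_top (by
      intro hab
      have h0 : ¬ ∀ a b : alternatingGroup (Fin 5), a * b = b * a := by
        intro hall
        have := hall ⟨Equiv.swap 0 1 * Equiv.swap 2 3, Equiv.Perm.mem_alternatingGroup.2 (by decide)⟩ ⟨Equiv.swap 0 2 * Equiv.swap 1 4, Equiv.Perm.mem_alternatingGroup.2 (by decide)⟩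
        revert this; decide
      exact h0 hab.is_comm.comm)
    have hle : commutator (alternatingGroup (Fin 5)) ≤ M.comap SemidirectProduct.inr :=
      Subgroup.commutator_le.2 fun a _ b _ => by
        show (SemidirectProduct.inr ⁅a, b⁆ : W5 S) ∈ M
        rw [map_commutatorElement]
        exact h _ _ (inr_mem a) (inr_mem b)
    exact hle (hc ▸ Subgroup.mem_top σ)
  intro g hg
  rw [← SemidirectProduct.inl_left_mul_inr_right g]
  refine mul_mem ?_ (hA _)
  set f := g.left with hf
  have hfm : ∏ i, Abelianization.of (f i) = 1 := hg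
  set q := pr 1 0 (f 1) * pr 2 0 (f 2) * pr 3 0 (f 3) * pr 4 0 (f 4) with hq
  have hqM : (SemidirectProduct.inl q : W5 S) ∈ M := by
    rw [hq, map_mul, map_mul, map_mul]
    exact mul_mem (mul_mem (mul_mem (hpr 1 0 (by decide) _) (hpr 2 0 (by decide) _)) (hpr 3 0 (by decide) _))
      (hpr 4 0 (by decide) _)
  have hfq : f = Pi.mulSingle 0 (f 0 * (q 0)⁻¹) * q := by
    funext x
    by_cases hx : x = 0
    · subst hx; simp
    · fin_cases x <;> simp [hq, pr] at hx ⊢
  rw [hfq, map_mul]
  refine mul_mem (hsingle 0 _ ?_) hqM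
  rw [← Abelianization.ker_of, MonoidHom.mem_ker, map_mul, map_inv]
  have hq0 : Abelianization.of (q 0) = (Abelianization.of (f 1))⁻¹ * (Abelianization.of (f 2))⁻¹ *
      (Abelianization.of (f 3))⁻¹ * (Abelianization.of (f 4))⁻¹ := by simp [hq, pr]
  rw [Fin.prod_univ_five] at hfm
  rw [hq0, ← hfm]
  simp [mul_comm, mul_assoc, mul_left_comm]

end


/-- Finite perfect groups have solvable maximal subgroups of unbounded derived length: for every d there is a finite perfect group G (equal to its commutator subgroup) with a solvable maximal subgroup H whose derived length exceeds d, i.e. the d-th term of the derived series of H is non-trivial. (Take the derived subgroup of a wreath product S ≀ A₅ with S solvable of large derived length, and H the preimage of a maximal subgroup of A₅.) -/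
theorem result (d : ℕ) :
    ∃ (G : Type) (_ : Group G) (_ : Finite G) (H : Subgroup G), commutator G = ⊤ ∧ IsCoatom H ∧ Group.IsSolvable H ∧
      derivedSeries H d ≠ ⊥ := by
  classical
  obtain ⟨S, _, _, hsol, hne⟩ := exists_long d
  haveI := hsol
  let G := ↥(chi (S := S)).ker
  haveI : Finite (W5 S) := Finite.of_equiv _ SemidirectProduct.equivProd.symm
  let ρ : G →* alternatingGroup (Fin 5) := SemidirectProduct.rightHom.comp (Subgroup.subtype _)
  have hρ : Function.Surjective ρ := fun σ => ⟨⟨_, inr_mem σ⟩, rfl⟩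
  let T := MulAction.stabilizer (alternatingGroup (Fin 5)) (0 : Fin 5)
  have hT : IsCoatom T := by
    haveI := alternatingGroup.isPreprimitive_of_three_le_card (Fin 5) (by simp)
    exact MulAction.IsPreprimitive.isCoatom_stabilizer_of_isPreprimitive (alternatingGroup (Fin 5)) (0 : Fin 5)
  let H : Subgroup G := T.comap ρ
  have hfix : ∀ g : H, ((g : G) : W5 S).right.1 0 = 0 := fun g => g.2
  let p₀ : H →* S :=
    { toFun := fun g => ((g : G) : W5 S).left 0
      map_one' := rfl
      map_mul' := fun g k => by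
        show ((g : G) : W5 S).left 0 * ((k : G) : W5 S).left (((g : G) : W5 S).right.1.symm 0) = _
        rw [(Equiv.symm_apply_eq _).2 (hfix g).symm] }
  have hp₀ : Function.Surjective p₀ := fun s => ⟨⟨⟨_, pr_mem (i := 0) (j := 1) s⟩,
    show ρ ⟨_, pr_mem (i := 0) (j := 1) s⟩ ∈ T from by
      rw [show ρ ⟨_, pr_mem (i := 0) (j := 1) s⟩ = 1 from rfl]; exact one_mem T⟩, by
    show pr (0 : Fin 5) 1 s 0 = s
    simp [pr]⟩
  refine ⟨G, inferInstance, inferInstance, H, ?_, ?_, ?_, ?_⟩
  · rw [eq_top_iff]
    intro g _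
    have := perfect_gen (S := S) ((commutator G).map (Subgroup.subtype _)) (fun a b ha hb =>
      ⟨⁅(⟨a, ha⟩ : G), ⟨b, hb⟩⁆, Subgroup.commutator_mem_commutator (Subgroup.mem_top _) (Subgroup.mem_top _), rfl⟩) g.2
    obtain ⟨y, hy, e⟩ := this
    rwa [← Subtype.ext (show ((y : W5 S)) = g from e)]
  · refine ⟨fun h => hT.1 ?_, fun L hL => ?_⟩
    · rw [eq_top_iff]
      intro σ _
      obtain ⟨g, rfl⟩ := hρ σ
      exact (show g ∈ H from h ▸ Subgroup.mem_top g)
    · have hker : ρ.ker ≤ L := le_trans (fun x hx => by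
        show ρ x ∈ T
        rw [show ρ x = 1 from hx]; exact one_mem _) hL.le
      have hlt : T < L.map ρ := by
        refine lt_of_le_of_ne (fun σ hσ => ?_) fun e => hL.ne ?_
        · obtain ⟨g, rfl⟩ := hρ σ
          exact ⟨g, hL.le hσ, rfl⟩
        · show T.comap ρ = L
          rw [e, Subgroup.comap_map_eq_self hker]
      rw [← Subgroup.comap_map_eq_self hker, hT.2 _ hlt, Subgroup.comap_top]
  · haveI : Group.IsSolvable T := by
      refine Lib.Char.isSolvable_of_card_eq_two_primes Nat.prime_two Nat.prime_three _ _ rfl fun q hq hdvd => ?_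
      have hc := T.card_mul_index
      haveI : MulAction.IsPretransitive (alternatingGroup (Fin 5)) (Fin 5) := by
        haveI := alternatingGroup.isPreprimitive_of_three_le_card (Fin 5) (by simp)
        infer_instance
      rw [MulAction.index_stabilizer_of_transitive, Nat.card_fin] at hc
      rw [nat_card_alternatingGroup, Nat.card_fin] at hc
      have h12 : Nat.card T = 12 := by
        have : (Nat.factorial 5) / 2 = 60 := rfl
        omega
      rw [h12] at hdvd
      have hle := Nat.le_of_dvd (by norm_num) hdvd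
      interval_cases q <;> first | omega | norm_num at hq | norm_num at hdvd
    let r : H →* T := (ρ.comp H.subtype).codRestrict T fun g => g.2
    haveI : Group.IsSolvable r.ker := by
      haveI := isSolvable_pi (Fin 5) S
      have h1 : ∀ g : r.ker, (((g : H) : G) : W5 S).right = 1 := fun g => congrArg Subtype.val g.2
      let lf : r.ker →* (Fin 5 → S) :=
        { toFun := fun g => (((g : H) : G) : W5 S).left
          map_one' := rfl
          map_mul' := fun g k => by
            show (((g : H) : G) : W5 S).left * _ = _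
            rw [h1 g, map_one]; rfl }
      refine Group.isSolvable_of_isSolvable_injective (f := lf) fun g k e => ?_
      exact Subtype.ext (Subtype.ext (Subtype.ext (SemidirectProduct.ext e ((h1 g).trans (h1 k).symm))))
    exact Group.isSolvable_of_ker_le_range r.ker.subtype r (Subgroup.range_subtype _).ge
  · intro h
    apply hne
    rw [← map_derivedSeries_eq hp₀, h, Subgroup.map_bot]

end Cfsg.Agent.S5896
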