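import Cfsg.Statements.S5902
import Cfsg.Agent.Lib.SmallSimple.Complemented

set_option autoImplicit false
open Cfsg

namespace Cfsg.Agent.S5902

/-- Let G be a finite group, X a subgroup whose own subgroup lattice is complemented, and suppose X lies in exactly one maximal subgroup M of G. Then every subgroup H of G not contained in the normal core of M has a complement in the subgroup lattice of G (some C with H ⊔ C = G and H ⊓ C = 1); in particular the subgroup lattice of G modulo the normal core of M is complemented. -/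
theorem result {G : Type*} [Group G] [Finite G] (X M : Subgroup G)
    (hK : ComplementedLattice (Subgroup X))
    (hM : IsCoatom M) (hXM : X ≤ M) (huniq : ∀ M' : Subgroup G, IsCoatom M' → X ≤ M' → M' = M) :
    (∀ H : Subgroup G, ¬ H ≤ M.normalCore → ∃ C : Subgroup G, H ⊔ C = ⊤ ∧ H ⊓ C = ⊥) ∧
    ComplementedLattice (Subgroup (G ⧸ M.normalCore)) := by
  have key : ∀ H : Subgroup G, ¬ H ≤ M.normalCore → ∃ C : Subgroup G, H ⊔ C = ⊤ ∧ H ⊓ C = ⊥ := by
    intro H hH
    obtain ⟨h, hhH, hh⟩ := SetLike.not_le_iff_exists.1 hH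
    obtain ⟨g, hg⟩ : ∃ g : G, g * h * g⁻¹ ∉ M := by
      by_contra hc
      push_neg at hc
      exact hh hc
    refine Lib.SmallSimple.exists_complement_of_conj ⊥ X M bot_le (Lib.SmallSimple.hint_bot X hK)
      hM hXM huniq H (MulAut.conj g) (fun hle => hg (hle ⟨h, hhH, rfl⟩)) (inf_bot_eq _)
  refine ⟨key, ⟨fun A => ?_⟩⟩
  let π := QuotientGroup.mk' M.normalCore
  have hπ : Function.Surjective π := QuotientGroup.mk'_surjective _
  by_cases hA : A.comap π ≤ M.normalCore
  · refine ⟨⊤, ?_⟩
    have : A = ⊥ := by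
      rw [← Subgroup.map_comap_eq_self_of_surjective hπ A, eq_bot_iff, Subgroup.map_le_iff_le_comap,
        MonoidHom.comap_bot, QuotientGroup.ker_mk']
      exact hA
    rw [this]; exact isCompl_bot_top
  · obtain ⟨C, h1, h2⟩ := key _ hA
    refine ⟨C.map π, ?_, ?_⟩
    · rw [disjoint_iff, eq_bot_iff]
      rintro x ⟨hxA, c, hc, rfl⟩
      have : c ∈ A.comap π ⊓ C := ⟨hxA, hc⟩
      rw [h2, Subgroup.mem_bot] at this
      simp [this]
    · rw [codisjoint_iff]
      have := congrArg (Subgroup.map π) h1
      rwa [Subgroup.map_sup, Subgroup.map_comap_eq_self_of_surjective hπ, Subgroup.map_top_of_surjective _ hπ] at this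

end Cfsg.Agent.S5902
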