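import Cfsg.Statements.S5903
import Cfsg.Agent.Lib.SmallSimple.Complemented

set_option autoImplicit false
open Cfsg

namespace Cfsg.Agent.S5903

/-- Let G be a finite simple group, X a subgroup lying in exactly one maximal subgroup M of G, and N a subgroup of prime order with N ≤ X that is central in M. If the subgroup lattice of X/N is complemented, then the subgroup lattice of G is complemented. -/
theorem result {G : Type*} [Group G] [Finite G] [IsSimpleGroup G] (X M N : Subgroup G)
    (hM : IsCoatom M) (hXM : X ≤ M) (huniq : ∀ M' : Subgroup G, IsCoatom M' → X ≤ M' → M' = M)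
    (hNX : N ≤ X) (hN : (Nat.card N).Prime) (hcen : ∀ n ∈ N, ∀ m ∈ M, m * n = n * m)
    [(N.subgroupOf X).Normal] (hK : ComplementedLattice (Subgroup (X ⧸ N.subgroupOf X))) :
    ComplementedLattice (Subgroup G) := by
  refine ⟨fun H => ?_⟩
  suffices h : H = ⊥ ∨ ∃ C : Subgroup G, H ⊔ C = ⊤ ∧ H ⊓ C = ⊥ by
    rcases h with rfl | ⟨C, h1, h2⟩
    · exact ⟨⊤, isCompl_bot_top⟩
    · exact ⟨C, disjoint_iff.2 h2, codisjoint_iff.2 h1⟩
  by_cases hex : ∃ g : G, ¬ H.map (MulAut.conj g).toMonoidHom ≤ M ∧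
      H.map (MulAut.conj g).toMonoidHom ⊓ N = ⊥
  · obtain ⟨g, hg1, hg2⟩ := hex
    exact Or.inr (Lib.SmallSimple.exists_complement_of_conj N X M hNX
      (Lib.SmallSimple.hint_quotient X N hNX hK) hM hXM huniq H (MulAut.conj g) hg1 hg2)
  have hnorm : ∀ g : G, N ≤ Subgroup.normalizer ((H.map (MulAut.conj g).toMonoidHom : Subgroup G) : Set G) := by
    intro g
    by_cases hle : H.map (MulAut.conj g).toMonoidHom ≤ M
    · intro n hn
      refine Subgroup.centralizer_le_normalizer _ (Subgroup.mem_centralizer_iff.2 fun y hy => ?_)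
      exact hcen n hn y (hle hy)
    · have hne : H.map (MulAut.conj g).toMonoidHom ⊓ N ≠ ⊥ := fun h0 => hex ⟨g, hle, h0⟩
      have hNle : N ≤ H.map (MulAut.conj g).toMonoidHom := by
        have hd := Subgroup.card_dvd_of_le (inf_le_right (a := H.map (MulAut.conj g).toMonoidHom) (b := N))
        rcases (Nat.dvd_prime hN).1 hd with h1 | h1
        · exact absurd (Subgroup.card_eq_one.1 h1) hne
        · exact inf_eq_right.1 (Subgroup.eq_of_le_of_card_ge inf_le_right h1.ge)
      exact hNle.trans Subgroup.le_normalizer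
  have hgen : Subgroup.normalClosure (N : Set G) ≤ Subgroup.normalizer (H : Set G) := by
    refine Subgroup.closure_le _ |>.2 fun y hy => ?_
    obtain ⟨n, hn, hc⟩ := Group.mem_conjugatesOfSet_iff.1 hy
    obtain ⟨g, rfl⟩ := isConj_iff.1 hc
    show g * n * g⁻¹ ∈ Subgroup.normalizer (H : Set G)
    rw [Subgroup.mem_normalizer_iff]
    intro x
    have h1 := (Subgroup.mem_normalizer_iff.1 (hnorm g⁻¹ hn)) (g⁻¹ * x * g)
    have key : ∀ z : G, g⁻¹ * z * g ∈ H.map (MulAut.conj g⁻¹).toMonoidHom ↔ z ∈ H := by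
      intro z
      rw [Subgroup.mem_map]
      constructor
      · rintro ⟨w, hw, he⟩
        have : w = z := by
          simp only [MulEquiv.coe_toMonoidHom, MulAut.conj_apply, inv_inv] at he
          calc w = g * (g⁻¹ * w * g) * g⁻¹ := by group
            _ = g * (g⁻¹ * z * g) * g⁻¹ := by rw [he]
            _ = z := by group
        exact this ▸ hw
      · exact fun hz => ⟨z, hz, by simp⟩
    rw [key, show n * (g⁻¹ * x * g) * n⁻¹ = g⁻¹ * (g * n * g⁻¹ * x * (g * n * g⁻¹)⁻¹) * g by group, key] at h1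
    exact h1
  have htop : Subgroup.normalClosure (N : Set G) = ⊤ := by
    refine (Subgroup.normalClosure_normal.eq_bot_or_eq_top).resolve_left fun h0 => ?_
    have : N = ⊥ := eq_bot_iff.2 (h0 ▸ Subgroup.subset_normalClosure)
    rw [this, Subgroup.card_bot] at hN
    exact Nat.not_prime_one hN
  have hHn : H.Normal := Subgroup.normalizer_eq_top_iff.1 (top_le_iff.1 (htop ▸ hgen))
  rcases hHn.eq_bot_or_eq_top with rfl | rfl
  · exact Or.inl rfl
  · exact Or.inr ⟨⊥, top_sup_eq _, inf_bot_eq _⟩

end Cfsg.Agent.S5903
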