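import Cfsg.Statements.S5909
import Cfsg.Agent.Lib.PartitionStab
import Cfsg.Agent.Lib.SmallSimple.Basic

set_option autoImplicit false
set_option linter.style.haveILetI false
open Cfsg

namespace Cfsg.Agent.S5909

open Equiv MulAction
open scoped Pointwise
open Cfsg.Agent.Lib.PartitionStab (K swap_mem_K)

variable {Ω : Type*} [Fintype Ω] [DecidableEq Ω]

lemma mem_K_of_forall {b : ℕ} (f : Ω → Fin b) (hsur : Function.Surjective f) (g : Perm Ω)
    (h : ∀ x y, f x = f y → f (g x) = f (g y)) : g ∈ K f := by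
  choose sec hsec using hsur
  let φ : Fin b → Fin b := fun i => f (g (sec i))
  have hφ : ∀ x, φ (f x) = f (g x) := fun x => h _ _ (hsec (f x))
  have hs : Function.Surjective φ := fun i => by
    refine ⟨f (g⁻¹ (sec i)), ?_⟩
    rw [hφ]; simp [hsec]
  intro x y
  refine ⟨h x y, fun e => (Finite.injective_iff_surjective.2 hs) ?_⟩
  rw [hφ, hφ, e]

/-- An even element of the stabiliser with two prescribed values. -/
lemma parity_fix {b : ℕ} (f : Ω → Fin b)
    (hfree : ∀ p q : Ω, ∃ u v : Ω, u ≠ v ∧ f u = f v ∧ u ≠ p ∧ u ≠ q ∧ v ≠ p ∧ v ≠ q)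
    (k : Perm Ω) (hk : k ∈ K f) (x y : Ω) :
    ∃ k' ∈ K f ⊓ alternatingGroup Ω, k' x = k x ∧ k' y = k y := by
  rcases Int.units_eq_one_or (Perm.sign k) with h | h
  · exact ⟨k, ⟨hk, Perm.mem_alternatingGroup.2 h⟩, rfl, rfl⟩
  · obtain ⟨u, v, huv, hf, h1, h2, h3, h4⟩ := hfree (k x) (k y)
    refine ⟨swap u v * k, ⟨mul_mem (swap_mem_K f hf) hk, Perm.mem_alternatingGroup.2 ?_⟩, ?_, ?_⟩
    · rw [map_mul, Perm.sign_swap huv, h]; rfl
    · exact swap_apply_of_ne_of_ne (Ne.symm h1) (Ne.symm h3)
    · exact swap_apply_of_ne_of_ne (Ne.symm h2) (Ne.symm h4)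

/-- Proper overgroups of the even stabiliser act primitively. -/
lemma isPreprimitive_over (a b : ℕ) (ha : 2 ≤ a) (hb : 2 ≤ b) (f : Ω → Fin b)
    (hf : ∀ i : Fin b, Nat.card {x : Ω // f x = i} = a)
    (hfree : ∀ p q : Ω, ∃ u v : Ω, u ≠ v ∧ f u = f v ∧ u ≠ p ∧ u ≠ q ∧ v ≠ p ∧ v ≠ q)
    (M : Subgroup (Perm Ω)) (hM : K f ⊓ alternatingGroup Ω ≤ M) (hM' : ¬ M ≤ K f) :
    IsPreprimitive M Ω := by
  classical
  have he : ∀ i, Nonempty ({x : Ω // f x = i} ≃ Fin a) := fun i => by
    rw [← Finite.card_eq, hf, Nat.card_fin]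
  let ei := fun i => (he i).some
  let e : Ω ≃ Fin b × Fin a :=
    (Equiv.sigmaFiberEquiv f).symm.trans
      ((Equiv.sigmaCongrRight fun i => ei i).trans (Equiv.sigmaEquivProd _ _))
  have he1 : ∀ x, (e x).1 = f x := fun x => rfl
  let P : Perm (Fin b) → Perm Ω := fun σ => e.trans ((σ.prodCongr (Equiv.refl _)).trans e.symm)
  have hP : ∀ σ x, f (P σ x) = σ (f x) := fun σ x => by
    rw [← he1, ← he1]; simp [P]
  have hPmem : ∀ σ, P σ ∈ K f := fun σ x y => by rw [hP, hP, σ.injective.eq_iff]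
  have hPfix : ∀ σ x, σ (f x) = f x → P σ x = x := fun σ x h => by
    apply e.injective
    ext1
    · rw [he1, hP, he1, h]
    · simp [P]
  have htr : IsPretransitive M Ω := ⟨fun x y => by
    let x' := P (Equiv.swap (f x) (f y)) x
    have hx' : f x' = f y := by rw [hP, Equiv.swap_apply_left]
    obtain ⟨k', hk', hk'x, -⟩ := parity_fix f hfree _ (mul_mem (swap_mem_K f hx') (hPmem (Equiv.swap (f x) (f y)))) x x
    exact ⟨⟨k', hM hk'⟩, hk'x.trans (Equiv.swap_apply_left x' y)⟩⟩
  have hblock : ∀ B : Set Ω, IsBlock M B → ∀ x ∈ B, (∃ y ∈ B, y ≠ x) → B ≠ Set.univ →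
      ∀ y, y ∈ B ↔ f y = f x := by
    intro B hB x hx hnt hne
    have hfix : ∀ x ∈ B, ∀ k ∈ K f, k x = x → ∀ y ∈ B, k y ∈ B := by
      intro x hx k hk hkx y hy
      obtain ⟨k', hk', h1, h2⟩ := parity_fix f hfree k hk x y
      have h0 := hB.smul_eq_of_mem (g := (⟨k', hM hk'⟩ : M)) (a := x) hx
        (show k' x ∈ B by rw [h1, hkx]; exact hx)
      rw [← h2, ← h0]
      exact Set.smul_mem_smul_set hy
    have hout : ∀ y ∈ B, f y ≠ f x → False := by
      intro y hy hfy
      refine hne (Set.eq_univ_iff_forall.2 fun z => ?_)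
      have hfib : ∀ y ∈ B, f y ≠ f x → ∀ z, f z = f y → z ∈ B := by
        intro y hy hfy z hz
        have := hfix x hx _ (swap_mem_K f hz.symm) (Equiv.swap_apply_of_ne_of_ne
          (fun h => hfy (by rw [h])) (fun h => hfy (by rw [← hz, ← h]))) y hy
        rwa [Equiv.swap_apply_left] at this
      by_cases hz : f z = f x
      · have h1 : (Equiv.swap x z) y = y :=
          Equiv.swap_apply_of_ne_of_ne (fun h => hfy (by rw [h])) (fun h => hfy (by rw [h, hz]))
        have := hfix y hy _ (swap_mem_K f hz.symm) h1 x hx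
        rwa [Equiv.swap_apply_left] at this
      · have hy' := hfix x hx (P (Equiv.swap (f y) (f z))) (hPmem _) (hPfix _ _
          (Equiv.swap_apply_of_ne_of_ne (Ne.symm hfy) (Ne.symm hz))) y hy
        have hfy' : f (P (Equiv.swap (f y) (f z)) y) = f z := by rw [hP, Equiv.swap_apply_left]
        exact hfib _ hy' (by rw [hfy']; exact hz) z hfy'.symm
    intro y
    refine ⟨fun hy => by by_contra h; exact hout y hy h, fun hfy => ?_⟩
    obtain ⟨y₀, hy₀, hy₀x⟩ := hnt
    rcases eq_or_ne y x with rfl | hyx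
    · exact hx
    have hfy₀ : f y₀ = f x := by by_contra h; exact hout y₀ hy₀ h
    have := hfix x hx _ (swap_mem_K f (hfy₀.trans hfy.symm))
      (Equiv.swap_apply_of_ne_of_ne hy₀x.symm hyx.symm) y₀ hy₀
    rwa [Equiv.swap_apply_left] at this
  exact
    { htr with
      isTrivialBlock_of_isBlock := fun {B} hB => by
        by_contra hcon
        rw [IsTrivialBlock] at hcon
        push Not at hcon
        obtain ⟨hsub, hne⟩ := hcon
        obtain ⟨x, hx, y, hy, hxy⟩ := hsub
        refine hM' fun g hg => ?_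
        intro p q
        obtain ⟨k, hk⟩ := exists_smul_eq M x p
        have hB' := hB.translate k
        have hx' : p ∈ k • B := hk ▸ Set.smul_mem_smul_set hx
        have hnt' : ∃ y ∈ k • B, y ≠ p := ⟨k • y, Set.smul_mem_smul_set hy, fun h => hxy
          ((MulAction.injective k) (hk.trans h.symm))⟩
        have hne' : k • B ≠ Set.univ := fun h => hne (by
          rw [← inv_smul_smul k B, h, Set.smul_set_univ])
        have h1 := hblock _ hB' p hx' hnt' hne'
        have hB'' := hB'.translate (⟨g, hg⟩ : M)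
        have h2 := hblock _ hB'' (g p) ⟨p, hx', rfl⟩
          (by obtain ⟨z, hz, hzp⟩ := hnt'; exact ⟨g z, ⟨z, hz, rfl⟩, fun h => hzp (g.injective h)⟩)
          (fun h => hne' (by rw [← inv_smul_smul (⟨g, hg⟩ : M) (k • B), h, Set.smul_set_univ]))
        constructor
        · intro hpq
          exact ((h2 (g q)).1 ⟨q, (h1 q).2 hpq.symm, rfl⟩).symm
        · intro hpq
          obtain ⟨q', hq', hq''⟩ := (h2 (g q)).2 hpq.symm
          have : q' = q := g.injective hq''
          exact ((h1 q).1 (this ▸ hq')).symm }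

/-- Blocks of size two, at least five of them: an overgroup contains a three-cycle. -/
lemma threeCycle_two (b : ℕ) (hb : 5 ≤ b) (f : Ω → Fin b)
    (hf : ∀ i : Fin b, Nat.card {x : Ω // f x = i} = 2)
    (M : Subgroup (Perm Ω)) (hM : K f ⊓ alternatingGroup Ω ≤ M) (hM' : ¬ M ≤ K f) :
    ∃ c : Perm Ω, c.IsThreeCycle ∧ c ∈ M := by
  classical
  have hpair : ∀ i, ∃ u v : Ω, u ≠ v ∧ f u = i ∧ f v = i := fun i => by
    have : 1 < Nat.card {x : Ω // f x = i} := by rw [hf]; omega
    obtain ⟨p, q, hpq⟩ := @exists_pair_ne _ (Finite.one_lt_card_iff_nontrivial.1 this)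
    exact ⟨p, q, fun h => hpq (Subtype.ext h), p.2, q.2⟩
  have hsur : Function.Surjective f := fun i => by obtain ⟨u, -, -, hu, -⟩ := hpair i; exact ⟨u, hu⟩
  have hpart : ∀ x, ∃ x', x' ≠ x ∧ f x' = f x := fun x => by
    obtain ⟨u, v, huv, hu, hv⟩ := hpair (f x)
    rcases eq_or_ne u x with rfl | h
    · exact ⟨v, huv.symm, hv⟩
    · exact ⟨u, h, hu⟩
  have hmem : ∀ p p' z z' : Ω, p ≠ p' → f p = f p' → z ≠ z' → f z = f z' → swap p p' * swap z z' ∈ M :=
    fun p p' z z' h1 h2 h3 h4 => hM ⟨mul_mem (swap_mem_K f h2) (swap_mem_K f h4),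
      Perm.mem_alternatingGroup.2 (by rw [map_mul, Perm.sign_swap h1, Perm.sign_swap h3]; rfl)⟩
  obtain ⟨g, hg, hgK⟩ := SetLike.not_le_iff_exists.1 hM'
  obtain ⟨u, v, huv', hguv⟩ : ∃ u v, f u = f v ∧ f (g u) ≠ f (g v) := by
    by_contra h; push Not at h; exact hgK (mem_K_of_forall f hsur g h)
  have huv : u ≠ v := fun e => hguv (by rw [e])
  obtain ⟨p', hp'p, hp'f⟩ := hpart (g u)
  obtain ⟨q', hq'q, hq'f⟩ := hpart (g v)
  obtain ⟨i, hi⟩ := Finset.exists_mem_notMem_of_card_lt_card (s := ({f u} : Finset (Fin b))) (t := Finset.univ)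
    (by simp; omega)
  obtain ⟨j, hj⟩ := Finset.exists_mem_notMem_of_card_lt_card (s := ({f u, i} : Finset (Fin b))) (t := Finset.univ)
    (lt_of_le_of_lt (Finset.card_le_two) (by simp; omega))
  simp only [Finset.mem_insert, Finset.mem_singleton, not_or] at hi hj
  have hcd : ∃ c d, c ≠ d ∧ f c = f d ∧ f c ≠ f u ∧ ¬ ((g c = p' ∨ g c = q') ∧ (g d = p' ∨ g d = q')) := by
    obtain ⟨c, d, hcd, hc, hd⟩ := hpair i
    obtain ⟨c', d', hcd', hc', hd'⟩ := hpair j
    by_cases hbad : (g c = p' ∨ g c = q') ∧ (g d = p' ∨ g d = q')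
    · refine ⟨c', d', hcd', hc'.trans hd'.symm, hc' ▸ hj.2.1, fun h => ?_⟩
      have hne : g c ≠ g d := fun e => hcd (g.injective e)
      have h1 : g c' ≠ g c := fun e => hj.2.2 (by rw [← hc', g.injective e, hc])
      have h2 : g c' ≠ g d := fun e => hj.2.2 (by rw [← hc', g.injective e, hd])
      rcases hbad with ⟨hb1 | hb1, hb2 | hb2⟩ <;> rcases h.1 with h' | h' <;> simp_all
    · exact ⟨c, d, hcd, hc.trans hd.symm, hc ▸ hi.2, hbad⟩
  obtain ⟨c, d, hcd, hfcd, hfcu, hnb⟩ := hcd
  -- the conjugate double transposition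
  have ht : swap (g u) (g v) * swap (g c) (g d) ∈ M := by
    rw [swap_apply_apply, swap_apply_apply,
      show g * swap u v * g⁻¹ * (g * swap c d * g⁻¹) = g * (swap u v * swap c d) * g⁻¹ by group]
    exact mul_mem (mul_mem hg (hmem u v c d huv huv' hcd hfcd)) (inv_mem hg)
  have key : ∀ p q p' r s : Ω, f p ≠ f q → p' ≠ p → f p' = f p → r ≠ p → r ≠ q → s ≠ p → s ≠ q →
      p' ≠ r → p' ≠ s → swap p q * swap r s ∈ M → ∃ c : Perm Ω, c.IsThreeCycle ∧ c ∈ M := by
    intro p q p' r s hpq hp'p hp'f hrp hrq hsp hsq hp'r hp's ht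
    obtain ⟨k, hk⟩ := Finset.exists_mem_notMem_of_card_lt_card (s := ({f p, f q, f r, f s} : Finset (Fin b)))
      (t := Finset.univ) (lt_of_le_of_lt Finset.card_le_four (by simp; omega))
    simp only [Finset.mem_insert, Finset.mem_singleton, not_or] at hk
    obtain ⟨-, hkp, hkq, hkr, hks⟩ := hk
    obtain ⟨z, z', hz, hzk, hz'k⟩ := hpair k
    have hout : ∀ w : Ω, k ≠ f w → w ≠ z ∧ w ≠ z' := fun w hw => ⟨fun e => hw (by rw [e, hzk]), fun e => hw (by rw [e, hz'k])⟩
    have hqp' : p' ≠ q := fun e => hpq (by rw [← hp'f, e])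
    set x := swap p p' * swap z z' with hx
    have hxp : x p = p' := by
      rw [hx, Perm.mul_apply, swap_apply_of_ne_of_ne (hout p hkp).1 (hout p hkp).2, swap_apply_left]
    have hxq : x q = q := by
      rw [hx, Perm.mul_apply, swap_apply_of_ne_of_ne (hout q hkq).1 (hout q hkq).2,
        swap_apply_of_ne_of_ne (fun e => hpq (by rw [e])) hqp'.symm]
    have hxr : x r = r := by
      rw [hx, Perm.mul_apply, swap_apply_of_ne_of_ne (hout r hkr).1 (hout r hkr).2,
        swap_apply_of_ne_of_ne hrp hp'r.symm]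
    have hxs : x s = s := by
      rw [hx, Perm.mul_apply, swap_apply_of_ne_of_ne (hout s hks).1 (hout s hks).2,
        swap_apply_of_ne_of_ne hsp hp's.symm]
    have hxM : x ∈ M := hmem p p' z z' hp'p.symm hp'f.symm hz (hzk.trans hz'k.symm)
    have ht' : swap p' q * swap r s ∈ M := by
      have : swap p' q * swap r s = x * (swap p q * swap r s) * x⁻¹ := by
        calc swap p' q * swap r s = swap (x p) (x q) * swap (x r) (x s) := by rw [hxp, hxq, hxr, hxs]
          _ = (x * swap p q * x⁻¹) * (x * swap r s * x⁻¹) := by rw [swap_apply_apply, swap_apply_apply]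
          _ = _ := by group
      rw [this]
      exact mul_mem (mul_mem hxM ht) (inv_mem hxM)
    refine ⟨swap q p * swap q p', Perm.isThreeCycle_swap_mul_swap_same (fun e => hpq (by rw [e])) hqp'.symm hp'p.symm, ?_⟩
    have hcomm : swap r s * swap p' q = swap p' q * swap r s := by
      have h1 := swap_apply_apply (swap p' q) r s
      rw [swap_apply_of_ne_of_ne hp'r.symm hrq, swap_apply_of_ne_of_ne hp's.symm hsq] at h1
      conv_lhs => rw [h1]
      group
    have : swap q p * swap q p' = (swap p q * swap r s) * (swap p' q * swap r s) := by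
      calc swap q p * swap q p' = swap p q * swap p' q * (swap r s * swap r s) := by
            rw [swap_mul_self, mul_one, swap_comm q p, swap_comm q p']
        _ = swap p q * (swap p' q * swap r s) * swap r s := by group
        _ = swap p q * (swap r s * swap p' q) * swap r s := by rw [hcomm]
        _ = _ := by group
    rw [this]
    exact mul_mem ht ht'
  have hcu : c ≠ u := fun e => hfcu (by rw [e])
  have hcv : c ≠ v := fun e => hfcu (by rw [e, huv'])
  have hdu : d ≠ u := fun e => hfcu (by rw [hfcd, e])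
  have hdv : d ≠ v := fun e => hfcu (by rw [hfcd, e, huv'])
  by_cases hp : p' = g c ∨ p' = g d
  · have hq : ¬ (q' = g c ∨ q' = g d) := by
      intro hq
      have hne : p' ≠ q' := fun e => hguv (by rw [← hp'f, ← hq'f, e])
      rcases hp with hp | hp <;> rcases hq with hq | hq
      · exact hne (hp.trans hq.symm)
      · exact hnb ⟨Or.inl hp.symm, Or.inr hq.symm⟩
      · exact hnb ⟨Or.inr hq.symm, Or.inl hp.symm⟩
      · exact hne (hp.trans hq.symm)
    push Not at hq
    exact key (g v) (g u) q' (g c) (g d) (Ne.symm hguv) hq'q hq'f (g.injective.ne hcv) (g.injective.ne hcu)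
      (g.injective.ne hdv) (g.injective.ne hdu) hq.1 hq.2 (by rwa [swap_comm (g v) (g u)])
  · push Not at hp
    exact key (g u) (g v) p' (g c) (g d) hguv hp'p hp'f (g.injective.ne hcu) (g.injective.ne hcv)
      (g.injective.ne hdu) (g.injective.ne hdv) hp.1 hp.2 ht

theorem card_six : Fintype.card {g : Perm (Fin 3 × Fin 2) //
    ∀ x y : Fin 3 × Fin 2, x.1 = y.1 ↔ (g x).1 = (g y).1} = 48 := by
  decide +kernel

theorem card_four : Fintype.card {g : Perm (Fin 2 × Fin 2) //
    ∀ x y : Fin 2 × Fin 2, x.1 = y.1 ↔ (g x).1 = (g y).1} = 8 := by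
  decide +kernel

/-- The order of the stabiliser in terms of a standard model. -/
lemma card_K {a b : ℕ} (f : Ω → Fin b) (hf : ∀ i : Fin b, Nat.card {x : Ω // f x = i} = a) :
    Nat.card (K f) = Fintype.card {g : Perm (Fin b × Fin a) //
      ∀ x y : Fin b × Fin a, x.1 = y.1 ↔ (g x).1 = (g y).1} := by
  classical
  have he : ∀ i, Nonempty ({x : Ω // f x = i} ≃ Fin a) := fun i => by rw [← Finite.card_eq, hf, Nat.card_fin]
  let e : Ω ≃ Fin b × Fin a := (Equiv.sigmaFiberEquiv f).symm.trans
    ((Equiv.sigmaCongrRight fun i => (he i).some).trans (Equiv.sigmaEquivProd _ _))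
  have he1 : ∀ x, (e x).1 = f x := fun x => rfl
  rw [← Nat.card_eq_fintype_card]
  refine Nat.card_congr (Equiv.subtypeEquiv e.permCongr fun g => ?_)
  show (∀ x y, f x = f y ↔ f (g x) = f (g y)) ↔ _
  refine ⟨fun h x y => ?_, fun h x y => ?_⟩
  · simpa [Equiv.permCongr_apply, ← he1] using h (e.symm x) (e.symm y)
  · simpa [Equiv.permCongr_apply, ← he1] using h (e x) (e y)

/-- Half of the stabiliser is even. -/
lemma card_inf_dvd [Nontrivial Ω] {b N : ℕ} (f : Ω → Fin b) (hN : Nat.card (K f) = 2 * N) :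
    N ∣ Nat.card (K f ⊓ alternatingGroup Ω : Subgroup (Perm Ω)) := by
  set A := alternatingGroup Ω
  have h1 : A.relIndex (K f) ∣ 2 := by
    have := Subgroup.relIndex_dvd_index_of_normal A (K f)
    rwa [alternatingGroup.index_eq_two] at this
  have h2 : Nat.card (K f ⊓ A : Subgroup (Perm Ω)) * A.relIndex (K f) = 2 * N := by
    rw [← hN, ← Subgroup.card_mul_index (A.subgroupOf (K f)), ← Subgroup.relIndex]
    congr 1
    show Nat.card (K f ⊓ A : Subgroup (Perm Ω)) = _
    rw [inf_comm, ← Subgroup.inf_subgroupOf_right, Nat.card_congr (Subgroup.subgroupOfEquivOfLe inf_le_right).toEquiv]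
  rcases (Nat.dvd_prime Nat.prime_two).1 h1 with h | h <;> rw [h] at h2
  · exact ⟨2, by omega⟩
  · exact ⟨1, by omega⟩

/-- Let Ω be a finite set whose size is not 8, and f : Ω → Fin b a labelling with b ≥ 2 whose fibres all have the same size a ≥ 2 (a partition into b blocks of size a). Then the even permutations preserving the partition — the intersection of the imprimitive wreath product S_a ≀ S_b with the alternating group — form a maximal subgroup of the alternating group on Ω. -/
theorem result {Ω : Type*} [Fintype Ω] [DecidableEq Ω] (h8 : Fintype.card Ω ≠ 8) (a b : ℕ) (ha : 2 ≤ a) (hb : 2 ≤ b)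
    (f : Ω → Fin b) (hf : ∀ i : Fin b, Nat.card {x : Ω // f x = i} = a) :
    IsCoatom ((Subgroup.closure {g : Equiv.Perm Ω | ∀ x y : Ω, f x = f y ↔ f (g x) = f (g y)} ⊓ alternatingGroup Ω).subgroupOf (alternatingGroup Ω)) := by
  classical
  rw [Cfsg.Agent.Lib.PartitionStab.closure_eq_K]
  have hn : Fintype.card Ω = b * a := by
    rw [← Nat.card_eq_fintype_card, ← Nat.card_congr (Equiv.sigmaFiberEquiv f), Nat.card_sigma,
      Finset.sum_congr rfl fun i _ => hf i, Finset.sum_const, Finset.card_univ, Fintype.card_fin, smul_eq_mul]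
  haveI : Nontrivial Ω := Fintype.one_lt_card_iff_nontrivial.1 (by rw [hn]; nlinarith)
  have hpair : ∀ i, ∃ u v : Ω, u ≠ v ∧ f u = i ∧ f v = i := fun i => by
    have : 1 < Nat.card {x : Ω // f x = i} := by rw [hf]; omega
    obtain ⟨p, q, hpq⟩ := @exists_pair_ne _ (Finite.one_lt_card_iff_nontrivial.1 this)
    exact ⟨p, q, fun h => hpq (Subtype.ext h), p.2, q.2⟩
  set A := alternatingGroup Ω
  set S := K f ⊓ A
  have hnot : ¬ A ≤ K f := fun h => by
    obtain ⟨u, v, huv, hu, hv⟩ := hpair ⟨0, by omega⟩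
    refine (Cfsg.Agent.Lib.PartitionStab.isCoatom_K a b ha hb f hf).1 (eq_top_iff.2 fun g _ => ?_)
    have hsw := swap_mem_K f (hu.trans hv.symm)
    rcases Int.units_eq_one_or (Perm.sign g) with hs | hs
    · exact h (Perm.mem_alternatingGroup.2 hs)
    · have : g * swap u v ∈ A := Perm.mem_alternatingGroup.2 (by rw [map_mul, hs, Perm.sign_swap huv]; rfl)
      simpa [mul_assoc] using mul_mem (h this) hsw
  refine ⟨fun h => hnot ?_, fun M0 hM0 => ?_⟩
  · exact (Subgroup.subgroupOf_eq_top.1 h).trans inf_le_left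
  suffices hA : A ≤ M0.map A.subtype by
    refine eq_top_iff.2 fun x _ => ?_
    obtain ⟨y, hy, hyx⟩ := hA x.2
    rwa [← Subtype.ext hyx]
  set M := M0.map A.subtype
  have hSM : S ≤ M := fun x hx => ⟨⟨x, hx.2⟩, hM0.le (show (⟨x, hx.2⟩ : A) ∈ S.subgroupOf A from hx), rfl⟩
  have hMA : M ≤ A := Subgroup.map_subtype_le _
  obtain ⟨m, hm, hmS⟩ := SetLike.exists_of_lt hM0
  have hMK : ¬ M ≤ K f := fun h => hmS ⟨h ⟨m, hm, rfl⟩, m.2⟩
  have hcardA : 2 * Nat.card A = (Fintype.card Ω).factorial := by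
    rw [two_mul_nat_card_alternatingGroup, Nat.card_eq_fintype_card, Fintype.card_perm]
  have hMlt : S < M := lt_of_le_of_ne hSM fun e => hMK (e ▸ inf_le_left)
  by_cases h4 : a = 2 ∧ b = 2
  · -- the four-group in the alternating group of degree four
    obtain ⟨rfl, rfl⟩ := h4
    rw [hn] at hcardA
    have hA12 : Nat.card A = 12 := by
      have : (2 * 2).factorial = 24 := rfl
      omega
    have hS4 : 4 ∣ Nat.card S := card_inf_dvd f (by rw [card_K f hf, card_four])
    have h1 : Nat.card S < Nat.card M := by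
      by_contra hc'
      exact hMlt.ne (Subgroup.eq_of_le_of_card_ge hSM (not_lt.1 hc'))
    have h2 : Nat.card M ∣ 12 := hA12 ▸ Subgroup.card_dvd_of_le hMA
    have h3 : 4 ∣ Nat.card M := hS4.trans (Subgroup.card_dvd_of_le hSM)
    have h4 := Nat.le_of_dvd Nat.card_pos hS4
    refine (Subgroup.eq_of_le_of_card_ge hMA ?_).ge
    rw [hA12]
    have h5 := Nat.mem_divisors.2 ⟨h2, by norm_num⟩
    rw [show Nat.divisors 12 = {1, 2, 3, 4, 6, 12} from rfl] at h5
    simp only [Finset.mem_insert, Finset.mem_singleton] at h5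
    omega
  have hfree : ∀ p q : Ω, ∃ u v : Ω, u ≠ v ∧ f u = f v ∧ u ≠ p ∧ u ≠ q ∧ v ≠ p ∧ v ≠ q := by
    intro p q
    by_cases h3 : 3 ≤ a
    · obtain ⟨i, -, hi⟩ := Finset.exists_mem_notMem_of_card_lt_card (s := ({f p} : Finset (Fin b)))
        (t := Finset.univ) (by simp; omega)
      rw [Finset.mem_singleton] at hi
      set F : Finset Ω := (Finset.univ.filter fun x => f x = i).erase q
      have hF : 2 ≤ F.card := by
        have h1 := Finset.pred_card_le_card_erase (s := Finset.univ.filter fun x => f x = i) (a := q)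
        have h2 : (Finset.univ.filter fun x => f x = i).card = a := by
          rw [← hf i, Nat.card_eq_fintype_card, Fintype.card_subtype]
        rw [h2] at h1
        change a - 1 ≤ F.card at h1
        omega
      obtain ⟨u, hu, v, hv, huv⟩ := Finset.one_lt_card.1 (by omega : 1 < F.card)
      simp [F] at hu hv
      exact ⟨u, v, huv, hu.2.trans hv.2.symm, fun e => hi (by rw [← hu.2, e]), hu.1,
        fun e => hi (by rw [← hv.2, e]), hv.1⟩
    · have hb3 : 3 ≤ b := by by_contra h; exact h4 ⟨by omega, by omega⟩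
      obtain ⟨i, -, hi⟩ := Finset.exists_mem_notMem_of_card_lt_card (s := ({f p, f q} : Finset (Fin b)))
        (t := Finset.univ) (lt_of_le_of_lt Finset.card_le_two (by simp; omega))
      simp only [Finset.mem_insert, Finset.mem_singleton, not_or] at hi
      obtain ⟨u, v, huv, hu, hv⟩ := hpair i
      exact ⟨u, v, huv, hu.trans hv.symm, fun e => hi.1 (by rw [← hu, e]), fun e => hi.2 (by rw [← hu, e]),
        fun e => hi.1 (by rw [← hv, e]), fun e => hi.2 (by rw [← hv, e])⟩
  have hprim := isPreprimitive_over a b ha hb f hf hfree M hSM hMK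
  rcases Nat.lt_or_ge a 3 with ha3 | ha3
  · have ha2 : a = 2 := by omega
    subst ha2
    rcases Nat.lt_or_ge b 5 with hb5 | hb5
    · have hb3 : b = 3 := by
        have : b ≠ 2 := fun e => h4 ⟨rfl, e⟩
        have : b ≠ 4 := fun e => h8 (by rw [hn, e])
        omega
      subst hb3
      -- degree six
      have hS : 24 ∣ Nat.card S := card_inf_dvd f (by rw [card_K f hf, card_six])
      rw [hn] at hcardA
      have hA : Nat.card A = 360 := by
        have : (3 * 2).factorial = 720 := rfl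
        omega
      haveI : IsSimpleGroup A := alternatingGroup.isSimpleGroup (by rw [Nat.card_eq_fintype_card, hn]; norm_num)
      have hnc : ¬ IsMulCommutative A := fun hc => by
        have h3 : Nat.card Ω ≤ 3 := alternatingGroup.isMulCommutative_iff_card_le_three.1 hc
        rw [Nat.card_eq_fintype_card, hn] at h3
        omega
      by_contra hAM
      have htop : M0 ≠ ⊤ := fun e' => hAM fun x hx => ⟨⟨x, hx⟩, e' ▸ Subgroup.mem_top _, rfl⟩
      have hd := Lib.SmallSimple.two_mul_card_dvd_factorial hnc M0 htop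
      have hc0 : Nat.card M0 = Nat.card M := Nat.card_congr (M0.equivMapOfInjective _ A.subtype_injective).toEquiv
      have h15 : M0.index ∣ 15 := by
        obtain ⟨w, hw⟩ := hS.trans (hc0 ▸ Subgroup.card_dvd_of_le hSM)
        have h1 := M0.card_mul_index
        rw [hA, hw] at h1
        exact ⟨w, by linarith [mul_assoc 24 w M0.index, mul_comm w M0.index]⟩
      have h15' : M0.index ≠ 15 := fun e' => by
        have h1 := M0.card_mul_index
        rw [hA, e', hc0] at h1
        have h2 : Nat.card S < Nat.card M := by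
          by_contra hc'
          exact hMlt.ne (Subgroup.eq_of_le_of_card_ge hSM (not_lt.1 hc'))
        have := Nat.le_of_dvd Nat.card_pos hS
        omega
      have h1' := Nat.mem_divisors.2 ⟨h15, by norm_num⟩
      rw [show Nat.divisors 15 = {1, 3, 5, 15} from rfl] at h1'
      simp at h1'
      rw [hA] at hd
      rcases h1' with h | h | h | h
      · exact htop h
      · rw [h] at hd; norm_num [Nat.factorial] at hd
      · rw [h] at hd; norm_num [Nat.factorial] at hd
      · exact h15' h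
    · obtain ⟨c, hc, hcM⟩ := threeCycle_two b hb5 f hf M hSM hMK
      exact Perm.alternatingGroup_le_of_isPreprimitive_of_isThreeCycle_mem hprim hc hcM
  · obtain ⟨x, y, z, hxy, hxz, hyz, hfx, hfz⟩ : ∃ x y z : Ω, x ≠ y ∧ x ≠ z ∧ y ≠ z ∧ f x = f y ∧ f x = f z := by
      let i0 : Fin b := ⟨0, by omega⟩
      have h2 : (Finset.univ.filter fun x => f x = i0).card = a := by
        rw [← hf i0, Nat.card_eq_fintype_card, Fintype.card_subtype]
      obtain ⟨x, y, z, hx, hy, hz, h1⟩ := Finset.two_lt_card_iff.1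
        (show 2 < (Finset.univ.filter fun x => f x = i0).card by omega)
      simp at hx hy hz
      exact ⟨x, y, z, h1.1, h1.2.1, h1.2.2, hx.trans hy.symm, hx.trans hz.symm⟩
    have hc := Perm.isThreeCycle_swap_mul_swap_same hxy hxz hyz
    exact Perm.alternatingGroup_le_of_isPreprimitive_of_isThreeCycle_mem hprim hc
      (hSM ⟨mul_mem (swap_mem_K f hfx) (swap_mem_K f hfz), hc.mem_alternatingGroup⟩)

end Cfsg.Agent.S5909
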