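import Cfsg.Statements.S5910
import Mathlib

set_option autoImplicit false
open Cfsg

namespace Cfsg.Agent.S5910

section

abbrev P2 : Type := ZMod 2 × ZMod 2
abbrev V : Type := P2 × ZMod 2

/-- the element attached to a permutation of the pairs and a choice of flips -/
def mk (σ : Equiv.Perm P2) (b : P2 → ZMod 2) : Equiv.Perm V where
  toFun x := (σ x.1, x.2 + b x.1)
  invFun y := (σ.symm y.1, y.2 - b (σ.symm y.1))
  left_inv x := by simp
  right_inv y := by simp

set_option synthInstance.maxSize 4096 in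
theorem even_mk : ∀ (σ : Equiv.Perm P2) (b : P2 → ZMod 2), Equiv.Perm.sign (mk σ b) = 1 → b (1, 1) = b (0, 0) + b (1, 0) + b (0, 1) := by
  decide +kernel

set_option synthInstance.maxSize 4096 in
theorem plane_affine : ∀ (σ : Equiv.Perm P2) (x y z : P2), σ (x + y + z) = σ x + σ y + σ z := by
  decide +kernel

set_option synthInstance.maxSize 4096 in
theorem flips_affine : ∀ b : P2 → ZMod 2, b (1, 1) = b (0, 0) + b (1, 0) + b (0, 1) →
    ∀ x y z : P2, b (x + y + z) = b x + b y + b z := by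
  decide +kernel

/-- affine permutations -/
def Aff : Subgroup (Equiv.Perm V) where
  carrier := {g | ∀ x y z, g (x + y + z) = g x + g y + g z}
  one_mem' := fun _ _ _ => rfl
  mul_mem' := fun {g h} hg hh x y z => by
    show g (h (x + y + z)) = g (h x) + g (h y) + g (h z)
    rw [hh, hg]
  inv_mem' := fun {g} hg x y z => by
    apply g.injective
    rw [hg]
    simp

/-- the wreath product -/
def Wr : Subgroup (Equiv.Perm V) where
  carrier := {g | ∀ x y : V, x.1 = y.1 ↔ (g x).1 = (g y).1}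
  one_mem' := fun _ _ => Iff.rfl
  mul_mem' := fun {g h} hg hh x y => (hh x y).trans (hg _ _)
  inv_mem' := fun {g} hg x y => by
    have := hg (g⁻¹ x) (g⁻¹ y)
    simpa using this.symm

theorem wr_le_aff {g : Equiv.Perm V} (hg : g ∈ Wr) (hs : Equiv.Perm.sign g = 1) : g ∈ Aff := by
  have hσ : Function.Bijective fun v : P2 => (g (v, 0)).1 :=
    Finite.injective_iff_bijective.1 fun v w h => (hg (v, 0) (w, 0)).2 h
  set σ := Equiv.ofBijective _ hσ with hσd
  set b : P2 → ZMod 2 := fun v => (g (v, 0)).2 with hb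
  have hgm : g = mk σ b := by
    refine Equiv.ext fun ⟨v, t⟩ => ?_
    have h1 : (g (v, t)).1 = (g (v, 0)).1 := (hg (v, t) (v, 0)).1 rfl
    show g (v, t) = ((g (v, 0)).1, t + (g (v, 0)).2)
    refine Prod.ext h1 ?_
    rcases (by decide : ∀ t : ZMod 2, t = 0 ∨ t = 1) t with rfl | rfl
    · simp
    · have hne : (g (v, 1)).2 ≠ (g (v, 0)).2 := fun e =>
        one_ne_zero (α := ZMod 2) (congrArg Prod.snd (g.injective (Prod.ext h1 e)))
      exact (by decide : ∀ a c : ZMod 2, a ≠ c → a = 1 + c) _ _ hne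
  intro x y z
  have hb' := flips_affine b (even_mk σ b (hgm ▸ hs))
  rw [hgm]
  refine Prod.ext (plane_affine σ x.1 y.1 z.1) ?_
  show (x + y + z).2 + b (x + y + z).1 = (x.2 + b x.1) + (y.2 + b y.1) + (z.2 + b z.1)
  simp only [Prod.fst_add, Prod.snd_add, hb']
  ring

/-- an affine map not preserving the pairs -/
def sw : Equiv.Perm V where
  toFun x := ((x.2, x.1.2), x.1.1)
  invFun x := ((x.2, x.1.2), x.1.1)
  left_inv _ := rfl
  right_inv _ := rfl

theorem sw_spec : sw ∈ Aff ∧ sw ∉ Wr ∧ Equiv.Perm.sign sw = 1 := by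
  refine ⟨fun x y z => rfl, fun h => ?_, by decide +kernel⟩
  have := (h (((0 : ZMod 2), 0), 0) (((0 : ZMod 2), 0), 1)).1 rfl
  revert this; decide +kernel

/-- an even permutation that is not affine -/
def bad : Equiv.Perm V :=
  Equiv.swap (((0 : ZMod 2), 0), 0) (((1 : ZMod 2), 0), 0) * Equiv.swap (((0 : ZMod 2), 0), 0) (((0 : ZMod 2), 1), 0)

theorem bad_spec : bad ∉ Aff ∧ Equiv.Perm.sign bad = 1 := by
  refine ⟨fun h => ?_, by decide +kernel⟩
  have := h (((0 : ZMod 2), 0), 0) (((1 : ZMod 2), 0), 0) (((0 : ZMod 2), 0), 1)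
  revert this; decide +kernel

end


/-- Let Ω be a set with 8 elements and f : Ω → Fin 4 a labelling whose four fibres all have size 2 (a partition of the 8 points into 4 pairs). Then the group of even permutations preserving this partition, (S₂ ≀ S₄) ∩ A₈, is not a maximal subgroup of the alternating group A₈ (it lies in a subgroup isomorphic to the affine group AGL₃(2)). -/
theorem result {Ω : Type*} [Fintype Ω] [DecidableEq Ω] (h8 : Fintype.card Ω = 8)
    (f : Ω → Fin 4) (hf : ∀ i : Fin 4, Nat.card {x : Ω // f x = i} = 2) :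
    ¬ IsCoatom ((Subgroup.closure {g : Equiv.Perm Ω | ∀ x y : Ω, f x = f y ↔ f (g x) = f (g y)} ⊓ alternatingGroup Ω).subgroupOf (alternatingGroup Ω)) := by
  intro hco
  let q : Fin 4 ≃ P2 := Fintype.equivOfCardEq (by simp)
  have hfib : ∀ i : Fin 4, Nonempty ({x : Ω // f x = i} ≃ ZMod 2) := fun i =>
    ⟨(Finite.equivFinOfCardEq (hf i)).trans (ZMod.finEquiv 2).toEquiv⟩
  let e : Ω ≃ V := ((Equiv.sigmaFiberEquiv f).symm.trans
    (Equiv.sigmaCongrRight fun i => (hfib i).some)).trans ((Equiv.sigmaEquivProd (Fin 4) (ZMod 2)).trans (q.prodCongr (Equiv.refl _)))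
  have he : ∀ x, (e x).1 = q (f x) := fun x => rfl
  let t : Equiv.Perm Ω ≃* Equiv.Perm V := e.permCongrHom
  have ht : ∀ (g : Equiv.Perm Ω) (x : Ω), t g (e x) = e (g x) := fun g x => by
    show e (g (e.symm (e x))) = e (g x)
    rw [e.symm_apply_apply]
  have hts : ∀ g, Equiv.Perm.sign (t g) = Equiv.Perm.sign g := fun g => Equiv.Perm.sign_permCongr e g
  have hW : Subgroup.closure {g : Equiv.Perm Ω | ∀ x y : Ω, f x = f y ↔ f (g x) = f (g y)} = Wr.comap t.toMonoidHom := by
    have key : ∀ g : Equiv.Perm Ω, t g ∈ Wr ↔ ∀ x y : Ω, f x = f y ↔ f (g x) = f (g y) := fun g => by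
      refine ⟨fun h x y => ?_, fun h x y => ?_⟩
      · have := h (e x) (e y)
        rwa [ht, ht, he, he, he, he, q.injective.eq_iff, q.injective.eq_iff] at this
      · obtain ⟨x, rfl⟩ := e.surjective x
        obtain ⟨y, rfl⟩ := e.surjective y
        rw [ht, ht, he, he, he, he, q.injective.eq_iff, q.injective.eq_iff]
        exact h x y
    exact le_antisymm ((Subgroup.closure_le _).2 fun g hg => (key g).2 hg)
      fun g hg => Subgroup.subset_closure ((key g).1 hg)
  rw [hW] at hco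
  set K := ((Aff.comap t.toMonoidHom) ⊓ alternatingGroup Ω).subgroupOf (alternatingGroup Ω) with hK
  have hle : (Wr.comap t.toMonoidHom ⊓ alternatingGroup Ω).subgroupOf (alternatingGroup Ω) ≤ K := by
    rintro g ⟨hg, hg'⟩
    exact ⟨wr_le_aff hg (by show Equiv.Perm.sign (t (g : Equiv.Perm Ω)) = 1; rw [hts]; exact Equiv.Perm.mem_alternatingGroup.1 hg'), hg'⟩
  have hmem : ∀ g : Equiv.Perm V, Equiv.Perm.sign g = 1 → t.symm g ∈ alternatingGroup Ω := fun g hg =>
    Equiv.Perm.mem_alternatingGroup.2 (by rw [← hts, MulEquiv.apply_symm_apply]; exact hg)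
  rcases lt_or_eq_of_le hle with hlt | heq
  · have htop := hco.2 K hlt
    have h1 : (⟨t.symm bad, hmem bad bad_spec.2⟩ : alternatingGroup Ω) ∈ K := htop ▸ Subgroup.mem_top _
    exact bad_spec.1 (by simpa using h1.1)
  · have h1 : (⟨t.symm sw, hmem sw sw_spec.2.2⟩ : alternatingGroup Ω) ∈ K :=
      ⟨by show t (t.symm sw) ∈ Aff; rw [MulEquiv.apply_symm_apply]; exact sw_spec.1, hmem sw sw_spec.2.2⟩
    rw [← heq] at h1
    exact sw_spec.2.1 (by simpa using h1.1)

end Cfsg.Agent.S5910
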