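import Cfsg.Statements.S5911
import Cfsg.Agent.Lib.SymmIndex

set_option autoImplicit false
open Cfsg

namespace Cfsg.Agent.S5911

/-- Let Ω be a finite set whose size n is not 6. Then every subgroup of the symmetric group on Ω of index n is the stabilizer of a point. -/
theorem result {Ω : Type*} [Fintype Ω] [DecidableEq Ω] (h6 : Fintype.card Ω ≠ 6)
    (H : Subgroup (Equiv.Perm Ω)) (hH : H.index = Fintype.card Ω) :
    ∃ x : Ω, H = MulAction.stabilizer (Equiv.Perm Ω) x := by
  rcases isEmpty_or_nonempty Ω with h | h
  · exfalso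
    rw [Fintype.card_eq_zero] at hH
    exact Subgroup.index_ne_zero_of_finite hH
  · exact Cfsg.Agent.Lib.SymmIndex.eq_stabilizer_of_ne_six hH h6

end Cfsg.Agent.S5911
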