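import Cfsg.Statements.S5912
import Cfsg.Agent.Lib.SymmIndex

set_option autoImplicit false
open Cfsg

namespace Cfsg.Agent.S5912

/-- The symmetric group on a 6-element set Ω has exactly two conjugacy classes of subgroups of index 6: there are two non-conjugate subgroups of index 6 (a point stabilizer and a transitive subgroup isomorphic to S₅), and every subgroup of index 6 is conjugate to one of them. -/
theorem result {Ω : Type*} [Fintype Ω] [DecidableEq Ω] (h6 : Fintype.card Ω = 6) :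
    ∃ H₁ H₂ : Subgroup (Equiv.Perm Ω), H₁.index = 6 ∧ H₂.index = 6 ∧
      (¬ ∃ g : Equiv.Perm Ω, Subgroup.map (MulAut.conj g).toMonoidHom H₁ = H₂) ∧
      ∀ H : Subgroup (Equiv.Perm Ω), H.index = 6 →
        ∃ g : Equiv.Perm Ω, Subgroup.map (MulAut.conj g).toMonoidHom H₁ = H ∨ Subgroup.map (MulAut.conj g).toMonoidHom H₂ = H := by
  obtain ⟨ψ, hψ⟩ := Cfsg.Agent.Lib.SymmIndex.index_six_cases h6
  obtain ⟨x⟩ : Nonempty Ω := Fintype.card_pos_iff.1 (by omega)
  have hconj : ∀ (g : Equiv.Perm Ω) (a : Ω), (MulAction.stabilizer (Equiv.Perm Ω) a).map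
      (MulAut.conj g).toMonoidHom = MulAction.stabilizer (Equiv.Perm Ω) (g a) := fun g a =>
    (MulAction.stabilizer_smul_eq_stabilizer_map_conj g a).symm
  refine ⟨MulAction.stabilizer (Equiv.Perm Ω) x,
    (MulAction.stabilizer (Equiv.Perm Ω) x).map ψ.toMonoidHom,
    (hψ _).2 (Or.inl ⟨x, rfl⟩), (hψ _).2 (Or.inr ⟨x, rfl⟩), ?_, fun H hH => ?_⟩
  · rintro ⟨g, hg⟩
    rw [hconj] at hg
    exact Cfsg.Agent.Lib.SymmIndex.transitive_of_map h6 hψ x (g x) hg.symm
  · rcases (hψ H).1 hH with ⟨y, rfl⟩ | ⟨y, rfl⟩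
    · exact ⟨Equiv.swap x y, Or.inl (by rw [hconj, Equiv.swap_apply_left])⟩
    · refine ⟨ψ (Equiv.swap x y), Or.inr ?_⟩
      conv_rhs => rw [show y = Equiv.swap x y x from (Equiv.swap_apply_left x y).symm, ← hconj, Subgroup.map_map]
      rw [Subgroup.map_map]
      congr 1
      ext g
      simp
      rw [← Equiv.Perm.inv_def, ← map_inv, Equiv.swap_inv]

end Cfsg.Agent.S5912
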