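import Cfsg.Statements.S5913


set_option autoImplicit false
open Cfsg

namespace Cfsg.Agent.S5913

/-- Let S be a non-abelian simple group and n a natural number. Every normal subgroup N of the direct power S^n (functions Fin n → S) is a subproduct: there is a set T of coordinates such that N consists exactly of the elements whose coordinates outside T are trivial. In particular the minimal normal subgroups of S^n are its n factors. -/
theorem result {S : Type*} [Group S] [IsSimpleGroup S] (hS : ¬ IsMulCommutative S) (n : ℕ)
    (N : Subgroup (Fin n → S)) [N.Normal] :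
    ∃ T : Finset (Fin n), ∀ x : Fin n → S, x ∈ N ↔ ∀ i, i ∉ T → x i = 1 := by
  classical
  refine ⟨Finset.univ.filter (fun i => ∃ x ∈ N, x i ≠ 1), fun x => ⟨fun hx i hi => ?_, fun h => ?_⟩⟩
  · simp only [Finset.mem_filter, Finset.mem_univ, true_and] at hi
    by_contra hne
    exact hi ⟨x, hx, hne⟩
  · have hfac : ∀ i : Fin n, (∃ y ∈ N, y i ≠ 1) → ∀ s : S, Pi.mulSingle i s ∈ N := by
      intro i ⟨y, hy, hyi⟩
      let ι : S →* (Fin n → S) := MonoidHom.mulSingle (fun _ => S) i
      have hn : (N.comap ι).Normal := inferInstance
      rcases hn.eq_bot_or_eq_top with hb | ht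
      · exfalso
        refine hS ⟨⟨fun a b => ?_⟩⟩
        have hcen : y i ∈ Subgroup.center S := by
          rw [Subgroup.mem_center_iff]
          intro s
          have hmem : ι s * y * (ι s)⁻¹ * y⁻¹ ∈ N :=
            N.mul_mem ((inferInstance : N.Normal).conj_mem y hy _) (N.inv_mem hy)
          have heq : ι s * y * (ι s)⁻¹ * y⁻¹ = ι (s * y i * s⁻¹ * (y i)⁻¹) := by
            funext j
            by_cases hj : j = i
            · subst hj; simp [ι]
            · simp [ι, hj]
          rw [heq, ← Subgroup.mem_comap, hb, Subgroup.mem_bot, mul_inv_eq_one, mul_inv_eq_iff_eq_mul] at hmem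
          exact hmem
        rcases (inferInstance : (Subgroup.center S).Normal).eq_bot_or_eq_top with h | h
        · exact absurd (by rw [h] at hcen; exact Subgroup.mem_bot.1 hcen) hyi
        · exact (Subgroup.mem_center_iff.1 (h ▸ Subgroup.mem_top b) a)
      · intro s
        exact (Subgroup.mem_comap (f := ι)).1 (ht ▸ Subgroup.mem_top s)
    refine Subgroup.pi_mem_of_mulSingle_mem x fun i => ?_
    by_cases hxi : x i = 1
    · rw [hxi, Pi.mulSingle_one]; exact N.one_mem
    · refine hfac i ?_ _
      by_contra hcon
      exact hxi (h i (by simpa using hcon))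

end Cfsg.Agent.S5913
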