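import Cfsg.Agent.Lib.PSLTwo.Over
import Cfsg.Statements.S5939

set_option linter.style.longLine false

open Matrix MulAction OnePoint
open scoped MatrixGroups
open Cfsg.Agent.Lib.PSLTwo

namespace Cfsg.Agent.S5939

/-- Let p be a prime and F a finite field of characteristic p such that either F has p elements and p ≡ ±1 (mod 10), or F has p² elements and p ≡ ±3 (mod 10). Then PSL_2(F) has a maximal subgroup isomorphic to the alternating group A_5. -/
theorem result {F : Type*} [Field F] [Fintype F] (p : ℕ) [Fact p.Prime] [CharP F p] (h : (Fintype.card F = p ∧ (p % 10 = 1 ∨ p % 10 = 9)) ∨ (Fintype.card F = p ^ 2 ∧ (p % 10 = 3 ∨ p % 10 = 7))) : ∃ H : Subgroup (Matrix.ProjectiveSpecialLinearGroup (Fin 2) F), IsCoatom H ∧ Nonempty (H ≃* alternatingGroup (Fin 5)) := by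
  classical
  have hpp : p.Prime := Fact.out
  have hp2 := hpp.two_le
  have hq : Fintype.card F % 5 ≠ 2 ∧ Fintype.card F % 5 ≠ 3 ∧ Fintype.card F % 2 = 1 ∧ 9 ≤ Fintype.card F := by
    rcases h with ⟨e, h'⟩ | ⟨e, h'⟩
    · omega
    · have e5 : p ^ 2 % 10 = 9 := by
        rw [Nat.pow_mod]; rcases h' with h' | h' <;> rw [h'] <;> norm_num
      have : 3 ^ 2 ≤ p ^ 2 := Nat.pow_le_pow_left (by omega) 2
      norm_num at this
      omega
  have hodd : Odd (Fintype.card F) := Nat.odd_iff.mpr hq.2.2.1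
  have h2 : (2 : F) ≠ 0 := Ring.two_ne_zero (ringChar_ne_two hodd)
  obtain ⟨a, b, hxy⟩ := exists_sum_sq_neg_one F
  obtain ⟨E, _, _, _, hE⟩ := exists_quadExt F
  obtain ⟨s, hs⟩ : IsSquare (5 : F) := isSquare_five_iff.mpr (Or.inl ⟨hq.1, hq.2.1⟩)
  have hs' : s ^ 2 = 5 := by rw [sq]; exact hs.symm
  obtain ⟨⟨e'⟩, h60⟩ := qA5_iso hxy h2 hs'
  have hle := qA5_le_Lsub hxy h2 hs'
  have hno : NoFix E (qA5 hxy h2 hs') := qA_no_fix hE hxy h2 (qA_le_qA5 hxy h2 hs')
  have hL := two_card_L hodd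
  have h720 : 9 * (9 ^ 2 - 1) ≤ Fintype.card F * (Fintype.card F ^ 2 - 1) := nat_cube_mono hq.2.2.2
  have hM : MaxIn (qA5 hxy h2 hs') (Lsub F) := by
    refine ⟨lt_of_le_of_ne hle fun e => ?_, fun X hX1 hX2 => ?_⟩
    · rw [← e, h60] at hL
      norm_num at h720
      omega
    have hdvd : 60 ∣ Nat.card X := h60 ▸ Subgroup.card_dvd_of_le hX1
    rcases big_of_noFix (p := p) hE (hno.mono hX1) with ⟨-, hc, -⟩ | ⟨-, hc, -⟩ | ⟨-, hc, -⟩ | ⟨K, γ, hq, hK⟩
    · rw [hc] at hdvd; norm_num at hdvd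
    · rw [hc] at hdvd; norm_num at hdvd
    · exact Or.inl (Subgroup.eq_of_le_of_card_ge hX1 (le_of_eq (by rw [hc, h60]))).symm
    · by_cases hfull : Nat.card K = Fintype.card F
      · exact Or.inr (eq_Lsub_of_full hodd hX2 hfull hK)
      exfalso
      obtain ⟨m, hm, hm'⟩ := exists_card_pow K
      rcases h with ⟨e, h'⟩ | ⟨e, h'⟩
      · rw [e] at hm' hfull
        rcases (Nat.dvd_prime hpp).mp (hm' ▸ dvd_pow_self (Nat.card K) (by omega)) with e1 | e1
        · omega
        · exact hfull e1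
      · rw [e] at hm' hfull
        obtain ⟨j, hj, hj'⟩ := (Nat.dvd_prime_pow hpp).mp (hm' ▸ dvd_pow_self (Nat.card K) (by omega))
        interval_cases j
        · rw [hj'] at hq; norm_num at hq
        · rw [pow_one] at hj'
          have h5 : p * (p ^ 2 - 1) % 5 ≠ 0 := fun h5 => by
            rcases (Nat.Prime.dvd_mul (by norm_num : Nat.Prime 5)).mp (Nat.dvd_of_mod_eq_zero h5) with d | d
            · omega
            · have : p ^ 2 % 5 = 4 := by
                rw [Nat.pow_mod]; rcases (show p % 5 = 3 ∨ p % 5 = 2 by omega) with r | r <;> rw [r]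
              omega
          rcases card_of_subfield hK with c | ⟨-, c⟩ <;> rw [hj'] at c <;> omega
        · exact hfull hj'
  obtain ⟨H, hH, ⟨e⟩⟩ := exists_psl_subgroup hle
  exact ⟨H, (isCoatom_iff_maxIn H).mpr (hH ▸ hM), ⟨e.trans e'⟩⟩

end Cfsg.Agent.S5939
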