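import Cfsg.Agent.Lib.PSLTwo.Over
import Cfsg.Statements.S5940

set_option linter.style.longLine false

open Matrix MulAction OnePoint
open scoped MatrixGroups
open Cfsg.Agent.Lib.PSLTwo

namespace Cfsg.Agent.S5940

/-- Let p ≥ 5 be a prime with p ≡ ±3 (mod 8) and p ≢ ±1 (mod 10), and F a field with p elements. Then PSL_2(F) has a maximal subgroup isomorphic to the alternating group A_4. -/
theorem result {F : Type*} [Field F] [Fintype F] (p : ℕ) [Fact p.Prime] (hF : Fintype.card F = p) (h5 : 5 ≤ p) (h8 : p % 8 = 3 ∨ p % 8 = 5) (h10 : p % 10 ≠ 1 ∧ p % 10 ≠ 9) : ∃ H : Subgroup (Matrix.ProjectiveSpecialLinearGroup (Fin 2) F), IsCoatom H ∧ Nonempty (H ≃* alternatingGroup (Fin 4)) := by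
  classical
  haveI : CharP F p := charP_of_card_eq_prime hF
  have hpp : p.Prime := Fact.out
  have hodd : Odd (Fintype.card F) := by rw [hF, Nat.odd_iff]; omega
  have h2 : (2 : F) ≠ 0 := Ring.two_ne_zero (ringChar_ne_two hodd)
  obtain ⟨a, b, hxy⟩ := exists_sum_sq_neg_one F
  obtain ⟨E, _, _, _, hE⟩ := exists_quadExt F
  have hsq : ¬ IsSquare (2 : F) := by rw [FiniteField.isSquare_two_iff, hF]; omega
  have hle := qA_le_Lsub hxy h2
  have hno : NoFix E (qA hxy h2) := qA_no_fix hE hxy h2 le_rfl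
  have hL := two_card_L hodd
  rw [hF] at hL
  have h120 : 5 * (5 ^ 2 - 1) ≤ p * (p ^ 2 - 1) := nat_cube_mono h5
  norm_num at h120
  have hM : MaxIn (qA hxy h2) (Lsub F) := by
    refine ⟨lt_of_le_of_ne hle fun e => ?_, fun X hX1 hX2 => ?_⟩
    · rw [← e, card_qA hxy h2] at hL
      omega
    rcases big_of_noFix (p := p) hE (hno.mono hX1) with ⟨-, hc, -⟩ | ⟨-, hc, -⟩ | ⟨-, hc, -⟩ | ⟨K, γ, hq, hK⟩
    · exact Or.inl (Subgroup.eq_of_le_of_card_ge hX1 (le_of_eq (by rw [hc, card_qA hxy h2]))).symm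
    · exact absurd ((qN_le_Lsub_iff hxy h2).mp (eq_qN_of_card hxy h2 hX1 hc ▸ hX2)) hsq
    · refine Or.inr (Subgroup.eq_of_le_of_card_ge hX2 ?_)
      have hdvd := Subgroup.card_dvd_of_le hX2
      rw [hc] at hdvd
      by_cases hp5 : p = 5
      · rw [hp5, show 5 * (5 ^ 2 - 1) = 120 by rfl] at hL; omega
      · exfalso
        have h5d : 5 ∣ p * (p ^ 2 - 1) := hL ▸ (dvd_trans (by norm_num) hdvd).mul_left 2
        rcases (Nat.Prime.dvd_mul (by norm_num : Nat.Prime 5)).mp h5d with d | d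
        · rcases (Nat.dvd_prime hpp).mp d with e | e <;> omega
        · have h4 : p ^ 2 % 5 = 4 := by
            have hp0 : p % 5 ≠ 0 := fun h0 => by
              rcases (Nat.dvd_prime hpp).mp (Nat.dvd_of_mod_eq_zero h0) with e | e <;> omega
            rw [Nat.pow_mod]; rcases (show p % 5 = 3 ∨ p % 5 = 2 by omega) with r | r <;> rw [r]
          have h1 : 1 ≤ p ^ 2 := Nat.one_le_pow _ _ (by omega)
          omega
    · obtain ⟨m, hm, hm'⟩ := exists_card_pow K
      rw [hF] at hm'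
      have : Nat.card K = Fintype.card F := by
        rcases (Nat.dvd_prime hpp).mp (hm' ▸ dvd_pow_self (Nat.card K) (by omega)) with e | e
        · omega
        · rw [hF, e]
      exact Or.inr (eq_Lsub_of_full hodd hX2 this hK)
  obtain ⟨H, hH, ⟨e⟩⟩ := exists_psl_subgroup hle
  obtain ⟨e'⟩ := qA_iso hxy h2
  exact ⟨H, (isCoatom_iff_maxIn H).mpr (hH ▸ hM), ⟨e.trans e'⟩⟩

end Cfsg.Agent.S5940
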