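import Cfsg.Statements.S5946


set_option autoImplicit false
open Cfsg

namespace Cfsg.Agent.S5946

/-- Let F ⊆ K be finite fields with [K : F] = n ≥ 2 and regard K as an n-dimensional F-vector space. The Singer group M ≤ GL_F(K) of multiplications by the non-zero elements of K is self-centralizing: every F-linear automorphism of K commuting with all of M lies in M. -/
theorem result {F K : Type*} [Field F] [Fintype F] [Field K] [Fintype K] [Algebra F K] (n : ℕ) (hn : 2 ≤ n) (hdim : Module.finrank F K = n) :
    Subgroup.centralizer (((Units.map ((Algebra.lmul F K : K →ₐ[F] Module.End F K) : K →* Module.End F K)).range : Subgroup (Module.End F K)ˣ) : Set (Module.End F K)ˣ) = (Units.map ((Algebra.lmul F K : K →ₐ[F] Module.End F K) : K →* Module.End F K)).range := by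
  classical
  set φ : Kˣ →* (Module.End F K)ˣ := Units.map ((Algebra.lmul F K : K →ₐ[F] Module.End F K) : K →* Module.End F K) with hφ
  have hval : ∀ (u : Kˣ) (x : K), ((φ u : (Module.End F K)ˣ) : Module.End F K) x = (u : K) * x := fun u x => rfl
  apply le_antisymm
  · intro g hg
    rw [Subgroup.mem_centralizer_iff] at hg
    have hcomm : ∀ x y : K, (g : Module.End F K) (x * y) = x * (g : Module.End F K) y := by
      intro x y
      by_cases hx : x = 0
      · subst hx; simp
      · have := congrArg (fun a : (Module.End F K)ˣ => (a : Module.End F K) y) (hg (φ (Units.mk0 x hx)) ⟨_, rfl⟩)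
        simpa [hval] using this.symm
    set a := (g : Module.End F K) 1 with ha
    have hga : ∀ x : K, (g : Module.End F K) x = a * x := fun x => by
      conv_lhs => rw [← mul_one x]
      rw [hcomm, mul_comm]
    have ha0 : a ≠ 0 := by
      intro h0
      have h1 : ((g⁻¹ * g : (Module.End F K)ˣ) : Module.End F K) (1 : K) = 1 := by simp
      rw [Units.val_mul, Module.End.mul_apply, hga, h0, zero_mul, map_zero] at h1
      exact zero_ne_one h1
    exact ⟨Units.mk0 a ha0, Units.ext (LinearMap.ext fun x => by rw [hval, hga]; rfl)⟩
  · intro g hg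
    rw [Subgroup.mem_centralizer_iff]
    rintro _ ⟨u, rfl⟩
    obtain ⟨v, rfl⟩ := hg
    rw [← map_mul, ← map_mul, mul_comm]

end Cfsg.Agent.S5946
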