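import Cfsg.Statements.S5947
import Cfsg.Agent.Lib.Zsigmondy
import Mathlib.FieldTheory.Finite.Basic
import Mathlib.FieldTheory.KummerExtension
import Mathlib.LinearAlgebra.Charpoly.Basic
import Mathlib.RingTheory.AdjoinRoot
import Mathlib.LinearAlgebra.Matrix.Charpoly.Coeff

set_option autoImplicit false
open Cfsg

namespace Cfsg.Agent.S5947

open Polynomial in
theorem prime_pow_cases {q : ℕ} (hq : IsPrimePow q) {a : ℕ} (ha : q + 1 = 2 ^ a) : q.Prime := by
  obtain ⟨p, f, hp, hf, rfl⟩ := hq
  replace hp : p.Prime := hp.nat_prime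
  have hodd : ¬ 2 ∣ p ^ f := by
    intro h
    rcases Nat.eq_zero_or_pos a with rfl | ha0
    · have := pow_pos hp.pos f; omega
    · have : 2 ∣ 2 ^ a := dvd_pow_self 2 ha0.ne'
      omega
  have hpodd : p % 2 = 1 := by
    by_contra h
    exact hodd ((show 2 ∣ p by omega).trans (dvd_pow_self p hf.ne'))
  rcases Nat.even_or_odd f with ⟨i, hi⟩ | hfo
  · exfalso
    have hs : p ^ f % 4 = 1 := by
      have h2 : p ^ 2 % 4 = 1 := by
        rw [Nat.pow_mod]
        have : p % 4 = 1 ∨ p % 4 = 3 := by omega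
        rcases this with e | e <;> simp [e]
      rw [hi, ← two_mul, pow_mul, Nat.pow_mod, h2, one_pow, Nat.one_mod_eq_one.mpr (by norm_num)]
    rcases Nat.lt_or_ge a 2 with ha2 | ha2
    · have : 2 ^ a ≤ 2 := (Nat.pow_le_pow_right two_pos (show a ≤ 1 by omega)).trans (by norm_num)
      have := Nat.one_lt_pow hf.ne' hp.one_lt
      omega
    · have : 4 ∣ 2 ^ a := (pow_dvd_pow 2 ha2 : 2 ^ 2 ∣ _)
      omega
  · suffices hf1 : f = 1 by rw [hf1, pow_one]; exact hp
    by_contra hne
    have hd : p + 1 ∣ p ^ f + 1 := by simpa using hfo.nat_add_dvd_pow_add_pow p 1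
    obtain ⟨c, hc⟩ := hd
    have hc2 : c ∣ 2 ^ a := ⟨p + 1, by rw [← ha, hc, mul_comm]⟩
    obtain ⟨i, -, rfl⟩ := (Nat.dvd_prime_pow Nat.prime_two).mp hc2
    have hodd2 : (2 : ℤ) ^ i = ∑ j ∈ Finset.range f, (-(p : ℤ)) ^ j := by
      have h1 : ((p : ℤ) ^ f + 1) = ((p : ℤ) + 1) * 2 ^ i := by exact_mod_cast hc
      have h2 := mul_neg_geom_sum (-(p : ℤ)) f
      rw [hfo.neg_pow, sub_neg_eq_add, sub_neg_eq_add] at h2
      have hne0 : ((p : ℤ) + 1) ≠ 0 := by omega
      refine mul_left_cancel₀ hne0 ?_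
      linear_combination -h1 - h2
    have hpar : (((2 : ℤ) ^ i : ℤ) : ZMod 2) = 1 := by
      rw [hodd2]
      push_cast
      have : (p : ZMod 2) = 1 := by rw [← ZMod.natCast_mod, hpodd, Nat.cast_one]
      rw [this, show (-1 : ZMod 2) = 1 by decide]
      simp only [one_pow, Finset.sum_const, Finset.card_range, nsmul_eq_mul, mul_one]
      rw [← ZMod.natCast_mod, Nat.odd_iff.mp hfo, Nat.cast_one]
    rcases Nat.eq_zero_or_pos i with rfl | hi
    · rw [pow_zero, mul_one] at hc
      have : p ^ f = p ^ 1 := by rw [pow_one]; omega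
      exact hne (Nat.pow_right_injective hp.two_le this)
    · have h0 : (2 : ZMod 2) = 0 := rfl
      push_cast at hpar
      rw [h0, zero_pow hi.ne'] at hpar
      exact zero_ne_one hpar

/-- Let F ⊆ K be finite fields with |F| = q and [K : F] = n ≥ 2, regard K as an n-dimensional F-vector space, and let M ≤ GL_F(K) be the Singer group of multiplications by non-zero elements of K (cyclic of order q^n − 1). Assume (n, q) ≠ (6, 2), and that it is not the case that n = 2 with q a prime such that q + 1 is a power of 2. Then every abelian subgroup of GL_F(K) of order q^n − 1 is conjugate to M. -/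
theorem result {F K : Type*} [Field F] [Fintype F] [Field K] [Fintype K] [Algebra F K] (n : ℕ) (hn : 2 ≤ n) (hdim : Module.finrank F K = n)
    (hex1 : ¬ (n = 6 ∧ Fintype.card F = 2))
    (hex2 : ¬ (n = 2 ∧ (Fintype.card F).Prime ∧ ∃ a : ℕ, Fintype.card F + 1 = 2 ^ a))
    (U : Subgroup (Module.End F K)ˣ) (hU : IsMulCommutative U) (hcard : Nat.card U = Fintype.card K - 1) :
    ∃ g : (Module.End F K)ˣ, U.map (MulAut.conj g).toMonoidHom = (Units.map ((Algebra.lmul F K : K →ₐ[F] Module.End F K) : K →* Module.End F K)).range := by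
  classical
  open Polynomial in
  have := Module.Finite.of_finite (R := F) (M := K)
  set q := Fintype.card F with hqdef
  have hq : 1 < q := Fintype.one_lt_card
  have hK : Fintype.card K = q ^ n := by rw [← hdim]; exact Module.card_eq_pow_finrank
  obtain ⟨r, hr, hrd, hprim⟩ := Cfsg.Agent.Lib.Zsigmondy.exists_primitive_prime q n hq hn
    (fun h => hex1 ⟨h.2, h.1⟩)
    (fun ⟨h2, a, ha⟩ => hex2 ⟨h2, prime_pow_cases (FiniteField.isPrimePow_card F) ha, a, ha⟩)
  rw [← hK] at hrd
  have := Fact.mk hr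
  have : Finite (Module.End F K) := Module.finite_of_finite F
  obtain ⟨x, hx⟩ := exists_prime_orderOf_dvd_card' (G := U) r (by rw [hcard]; exact hrd)
  set X' : Module.End F K := ((x : (Module.End F K)ˣ) : Module.End F K) with hX'
  have hxr : X' ^ r = 1 := by
    rw [hX', ← Units.val_pow_eq_pow_val, ← Subgroup.coe_pow, ← hx, pow_orderOf_eq_one]; rfl
  have hint : IsIntegral F X' := Algebra.IsIntegral.isIntegral X'
  have hdvd : minpoly F X' ∣ X ^ r - 1 := minpoly.dvd F X' (by simp [hxr])
  have hrn : ¬ r ∣ q := by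
    intro h
    rw [hK] at hrd
    have h1 : r ∣ q ^ n := h.trans (dvd_pow_self q (by omega))
    have h2 := Nat.dvd_sub h1 hrd
    rw [Nat.sub_sub_self (Nat.one_le_pow _ _ (by omega))] at h2
    exact hr.one_lt.ne' (Nat.dvd_one.mp h2)
  have hrF : (r : F) ≠ 0 := by
    intro h
    obtain ⟨p, hp⟩ := CharP.exists F
    have := hp
    obtain ⟨⟨f, hf⟩, hpp, hcardF⟩ := FiniteField.card F p
    have hpr := (CharP.cast_eq_zero_iff F p r).mp h
    rw [Nat.prime_dvd_prime_iff_eq hpp hr] at hpr
    exact hrn (by rw [hqdef, hcardF, ← hpr]; exact dvd_pow_self p hf.ne')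
  have hsq : Squarefree (X ^ r - 1 : F[X]) := by
    simpa using (separable_X_pow_sub_C (1 : F) hrF one_ne_zero).squarefree
  have hne1 : ¬ minpoly F X' ∣ X - 1 := by
    intro hd
    obtain ⟨c, hc⟩ := hd
    have := congrArg (aeval X') hc
    rw [map_mul, minpoly.aeval, zero_mul, map_sub, aeval_X, map_one, sub_eq_zero] at this
    have hx1 : x = 1 := Subtype.ext (Units.ext this)
    rw [hx1, orderOf_one] at hx
    exact hr.one_lt.ne hx
  obtain ⟨h, hh, hhm, hh1⟩ : ∃ h : F[X], Irreducible h ∧ h ∣ minpoly F X' ∧ ¬ h ∣ X - 1 := by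
    have hX1 : Irreducible (X - 1 : F[X]) := by simpa using irreducible_X_sub_C (1 : F)
    have hnu : ¬ IsUnit (minpoly F X') := fun hu => hne1 hu.dvd
    by_cases hd : (X - 1) ∣ minpoly F X'
    · obtain ⟨c, hc⟩ := hd
      have hcu : ¬ IsUnit c := fun hu => hne1 (hc ▸ (associated_mul_unit_left (X - 1) c hu).dvd)
      have hc0 : c ≠ 0 := fun e => minpoly.ne_zero hint (by rw [hc, e, mul_zero])
      obtain ⟨h, hh, hhc⟩ := WfDvdMonoid.exists_irreducible_factor hcu hc0
      refine ⟨h, hh, hc ▸ hhc.mul_left _, fun hd' => ?_⟩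
      have h2 : (X - 1) * (X - 1) ∣ minpoly F X' :=
        hc ▸ mul_dvd_mul_left _ (((hh.associated_of_dvd hX1 hd').symm.dvd).trans hhc)
      exact hX1.not_isUnit (hsq.squarefree_of_dvd hdvd _ h2)
    · obtain ⟨h, hh, hhm⟩ := WfDvdMonoid.exists_irreducible_factor hnu (minpoly.ne_zero hint)
      exact ⟨h, hh, hhm, fun hd' => hd ((hh.associated_of_dvd hX1 hd').symm.dvd.trans hhm)⟩
  have := Fact.mk hh
  have hh0 : h ≠ 0 := hh.ne_zero
  let pb := AdjoinRoot.powerBasis hh0
  have hfin : Module.finrank F (AdjoinRoot h) = h.natDegree := by rw [pb.finrank, AdjoinRoot.powerBasis_dim]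
  have := Module.Finite.of_basis pb.basis
  have hLcard : Nat.card (AdjoinRoot h) = q ^ h.natDegree := by
    rw [Module.natCard_eq_pow_finrank (K := F), hfin, Nat.card_eq_fintype_card]
  have hLfin : Finite (AdjoinRoot h) := Module.finite_of_finite F
  have : Fintype (AdjoinRoot h) := Fintype.ofFinite _
  set θ := AdjoinRoot.root h
  have hθr : θ ^ r = 1 := by
    have := AdjoinRoot.mk_eq_zero.mpr (hhm.trans hdvd)
    rw [map_sub, map_pow, AdjoinRoot.mk_X, map_one, sub_eq_zero] at this
    exact this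
  have hθ1 : θ ≠ 1 := fun e => hh1 (AdjoinRoot.mk_eq_zero.mp (by
    rw [map_sub, AdjoinRoot.mk_X, map_one, sub_eq_zero]; exact e))
  have hθ0 : θ ≠ 0 := fun e => by rw [e, zero_pow hr.ne_zero] at hθr; exact zero_ne_one hθr
  have hrL : r ∣ q ^ h.natDegree - 1 := by
    rw [← hLcard, Nat.card_eq_fintype_card]
    have hord : orderOf θ = r := orderOf_eq_prime hθr hθ1
    rw [← hord]
    exact orderOf_dvd_of_pow_eq_one (FiniteField.pow_card_sub_one_eq_one θ hθ0)
  have hdeg_le : (minpoly F X').natDegree ≤ n := by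
    rw [← hdim]
    calc (minpoly F X').natDegree ≤ (LinearMap.charpoly X').natDegree :=
          natDegree_le_of_dvd (LinearMap.minpoly_dvd_charpoly X') (LinearMap.charpoly_monic X').ne_zero
      _ = _ := LinearMap.charpoly_natDegree X'
  have hhpos : 0 < h.natDegree := hh.natDegree_pos
  have hhle : h.natDegree ≤ (minpoly F X').natDegree :=
    natDegree_le_of_dvd hhm (minpoly.ne_zero hint)
  have hhn : h.natDegree = n := by
    by_contra hne
    exact hprim _ hhpos (by omega) hrL
  have hass : minpoly F X' ∣ h := by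
    obtain ⟨c, hc⟩ := hhm
    have hc0 : c ≠ 0 := fun e => minpoly.ne_zero hint (by rw [hc, e, mul_zero])
    have hcdeg : c.natDegree = 0 := by
      have := congrArg natDegree hc
      rw [natDegree_mul hh0 hc0] at this
      omega
    rw [hc, eq_C_of_natDegree_eq_zero hcdeg]
    have hu : IsUnit (C (c.coeff 0)) := by
      rw [isUnit_C, isUnit_iff_ne_zero]
      intro e
      apply hc0
      rw [eq_C_of_natDegree_eq_zero hcdeg, e, C_0]
    exact (associated_mul_unit_left h _ hu).dvd
  obtain ⟨ζ, hζ⟩ : ∃ ζ : K, IsPrimitiveRoot ζ r := by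
    obtain ⟨z, hz⟩ := exists_prime_orderOf_dvd_card' (G := Kˣ) r
      (by rw [Nat.card_units, Nat.card_eq_fintype_card]; exact hrd)
    exact ⟨(z : K), by rw [IsPrimitiveRoot.coe_units_iff, ← hz]; exact IsPrimitiveRoot.orderOf z⟩
  have hspl : ((X ^ r - 1 : F[X]).map (algebraMap F K)).Splits := by
    have := X_pow_sub_C_splits_of_isPrimitiveRoot hζ (a := (1 : K)) (α := 1) (one_pow r)
    simpa using this
  have hnz : (X ^ r - 1 : F[X]).map (algebraMap F K) ≠ 0 := by
    simpa using X_pow_sub_C_ne_zero hr.pos (1 : K)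
  obtain ⟨κ, hκ⟩ := (hspl.of_dvd hnz (Polynomial.map_dvd _ (hhm.trans hdvd))).exists_eval_eq_zero
    (by
      rw [degree_map]
      exact (natDegree_pos_iff_degree_pos.mp hhpos).ne')
  let toK : AdjoinRoot h →ₐ[F] K := AdjoinRoot.liftAlgHom h (Algebra.ofId F K) κ (by
    rw [← eval_map]; exact hκ)
  have hbij : Function.Bijective toK := by
    refine ⟨toK.toRingHom.injective, ?_⟩
    exact (LinearMap.injective_iff_surjective_of_finrank_eq_finrank (f := toK.toLinearMap)
      (by rw [hfin, hhn, hdim])).mp toK.toRingHom.injective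
  let e := AlgEquiv.ofBijective toK hbij
  let toEnd : AdjoinRoot h →ₐ[F] Module.End F K := Ideal.Quotient.liftₐ (Ideal.span {h})
    (aeval X') (fun a ha => by
    obtain ⟨c, hc⟩ := hass
    have : aeval X' h = 0 := by rw [hc, map_mul, minpoly.aeval, zero_mul]
    obtain ⟨b, rfl⟩ := Ideal.mem_span_singleton.mp ha
    rw [map_mul, this, zero_mul])
  have htoEnd : toEnd θ = X' := by
    show toEnd (AdjoinRoot.mk h X) = X'
    exact (Ideal.Quotient.lift_mk _ _ _).trans (aeval_X X')
  let φ : K →ₐ[F] Module.End F K := toEnd.comp e.symm.toAlgHom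
  have hφκ : φ κ = X' := by
    have : e.symm κ = θ := by
      rw [AlgEquiv.symm_apply_eq]
      show κ = toK θ
      simp [toK, θ]
    simp [φ, this, htoEnd]
  let g : K →ₗ[F] K :=
    { toFun := fun z => φ z 1
      map_add' := fun a b => by simp
      map_smul' := fun c a => by simp }
  have hginj : Function.Injective g := by
    rw [← LinearMap.ker_eq_bot, LinearMap.ker_eq_bot']
    intro z hz
    by_contra hne
    have h1 : φ z⁻¹ (φ z 1) = 1 := by
      rw [← Module.End.mul_apply, ← map_mul, inv_mul_cancel₀ hne, map_one φ, Module.End.one_apply]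
    rw [show φ z 1 = g z from rfl, hz, map_zero] at h1
    exact zero_ne_one h1
  let ge : K ≃ₗ[F] K := LinearEquiv.ofBijective g
    ⟨hginj, LinearMap.injective_iff_surjective.mp hginj⟩
  let gu : (Module.End F K)ˣ := (LinearMap.GeneralLinearGroup.ofLinearEquiv ge)
  set M := (Units.map ((Algebra.lmul F K : K →ₐ[F] Module.End F K) : K →* Module.End F K)).range
  refine ⟨gu⁻¹, ?_⟩
  have hint' : ∀ (w z : K), φ w (g z) = g (w * z) := fun w z => by
    show φ w (φ z 1) = φ (w * z) 1
    rw [map_mul, Module.End.mul_apply]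
  have hgu : ∀ z, (gu : Module.End F K) z = g z := fun z => rfl
  have hle : U.map (MulAut.conj gu⁻¹).toMonoidHom ≤ M := by
    rintro _ ⟨u, hu, rfl⟩
    set Y : Module.End F K := Units.val ((MulAut.conj gu⁻¹).toMonoidHom u) with hY
    have hgY : ∀ z, g (Y z) = (u : Module.End F K) (g z) := by
      intro z
      rw [← hgu, ← Module.End.mul_apply, ← hgu, ← Module.End.mul_apply, hY, ← Units.val_mul,
        ← Units.val_mul]
      congr 2
      simp [mul_assoc]
    have hcomm : ∀ z, Y (κ * z) = κ * Y z := by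
      intro z
      apply hginj
      rw [hgY, ← hint', hφκ, ← hint', hφκ, hgY]
      have hc := congrArg (fun a : U => ((a : (Module.End F K)ˣ) : Module.End F K) (g z))
        (hU.is_comm.comm x ⟨u, hu⟩)
      exact hc.symm
    have hgen : ∀ w : K, ∀ z, Y (w * z) = w * Y z := by
      intro w
      obtain ⟨v, rfl⟩ := e.surjective w
      induction v using AdjoinRoot.induction_on with
      | ih P =>
        induction P using Polynomial.induction_on' with
        | add P Q hP hQ => intro z; simp [add_mul, map_add, hP z, hQ z]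
        | monomial k c =>
          intro z
          have he : e (AdjoinRoot.mk h (monomial k c)) = algebraMap F K c * κ ^ k := by
            rw [AlgEquiv.ofBijective_apply, ← C_mul_X_pow_eq_monomial, map_mul, map_pow, AdjoinRoot.mk_X, AdjoinRoot.mk_C,
              map_mul, map_pow]
            simp [toK]
          have hpow : ∀ (i : ℕ) z, Y (κ ^ i * z) = κ ^ i * Y z := by
            intro i
            induction i with
            | zero => simp
            | succ i ih => intro z; rw [pow_succ, mul_assoc, ih, hcomm, mul_assoc]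
          rw [he, mul_assoc, mul_assoc, ← Algebra.smul_def, ← Algebra.smul_def, map_smul, hpow]
    have hY1 : Y 1 ≠ 0 := by
      intro h0
      have hu1 : ∀ z, Y z = 0 := fun z => by rw [← mul_one z, hgen, h0, mul_zero]
      have : (Y : Module.End F K) = 0 := LinearMap.ext hu1
      exact ((MulAut.conj gu⁻¹).toMonoidHom u).isUnit.ne_zero this
    refine ⟨Units.mk0 (Y 1) hY1, Units.ext (LinearMap.ext fun z => ?_)⟩
    show Y 1 * z = Y z
    rw [mul_comm, ← hgen, mul_one]
  refine Subgroup.eq_of_le_of_card_ge hle ?_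
  rw [Subgroup.card_map_of_injective (MulAut.conj gu⁻¹).injective, hcard]
  refine (Nat.card_le_card_of_surjective _ (MonoidHom.rangeRestrict_surjective _)).trans ?_
  rw [Nat.card_units, Nat.card_eq_fintype_card]

end Cfsg.Agent.S5947
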